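import Mathlib
import Cfsg.Agent.Lib.O4320Char79

/-!
# Groups of order 4320: the self-centralizing case with `|N(P)| = 20`, conclusion
-/

set_option autoImplicit false
set_option linter.style.haveILetI false
set_option linter.unusedSectionVars false

namespace Cfsg.Agent.Lib.O4320S479

open Subgroup Cfsg Cfsg.Agent.Lib.CharBasic Cfsg.Agent.Lib.DefectOne Cfsg.Agent.Lib.DefectTwo
open Cfsg.Agent.Lib.O4320Char79
open scoped ComplexConjugate

variable {G : Type*} [Group G] [Fintype G] {P : Subgroup G}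

open scoped Classical in
/-- The number of elements conjugating an involution into `N(P)`. -/
theorem card_filter_conj_N (H : Hyp P 5) (z : G) (hz2 : z ^ 2 = 1) (hz1 : z ≠ 1) :
    (Finset.univ.filter fun x : G => x * z * x⁻¹ ∈ normalizer (P : Set G)).card = 0 ∨
    (Finset.univ.filter fun x : G => x * z * x⁻¹ ∈ normalizer (P : Set G)).card =
      Nat.card (centralizer ({z} : Set G)) * 5 := by
  by_cases hne : (Finset.univ.filter fun x : G => x * z * x⁻¹ ∈ normalizer (P : Set G)).card = 0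
  · exact Or.inl hne
  right
  obtain ⟨x₀, hx₀⟩ := Finset.card_pos.1 (Nat.pos_of_ne_zero hne)
  obtain ⟨j, hj⟩ : ∃ j, j = x₀ * z * x₀⁻¹ := ⟨_, rfl⟩
  have hjN : j ∈ normalizer (P : Set G) := by
    rw [hj]
    exact (Finset.mem_filter.1 hx₀).2
  have hconj : ∀ x : G, (x * z * x⁻¹) ^ 2 = 1 := by
    intro x
    rw [conj_pow, hz2]
    group
  have hne1 : ∀ x : G, x * z * x⁻¹ ≠ 1 := by
    intro x h1
    apply hz1
    have : z = x⁻¹ * (x * z * x⁻¹) * x := by group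
    rw [this, h1]
    group
  have hj2 : j ^ 2 = 1 := by rw [hj]; exact hconj x₀
  have hj1 : j ≠ 1 := by rw [hj]; exact hne1 x₀
  have hjj : j * j = 1 := by rw [← pow_two, hj2]
  have hzj : IsConj z j := by rw [hj]; exact isConj_iff.2 ⟨x₀, rfl⟩
  have hp5 : (5 : ℕ) ≠ 2 := by norm_num
  -- a nontrivial element of `P`
  obtain ⟨w, hwP, hw1⟩ : ∃ w ∈ P, w ≠ 1 := by
    haveI : Nontrivial ↥P := by
      apply Finite.one_lt_card_iff_nontrivial.1
      rw [H.card]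
      norm_num
    obtain ⟨w, hw⟩ := exists_ne (1 : ↥P)
    exact ⟨w.1, w.2, fun h => hw (Subtype.ext h)⟩
  -- any conjugate in `N(P)` is in the coset
  have key : ∀ x : G, x * z * x⁻¹ ∈ normalizer (P : Set G) → j * (x * z * x⁻¹) ∈ P := by
    intro x hx
    rw [← H.cent w hwP hw1, mem_centralizer_singleton_iff]
    have h1 := hyp_inverts H hp5 hx (hconj x) (hne1 x) hwP
    have h2 := hyp_inverts H hp5 hjN hj2 hj1 (P.inv_mem hwP)
    have h3 : j⁻¹ = j := by rw [inv_eq_iff_mul_eq_one, hjj]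
    have h4 : (x * z * x⁻¹)⁻¹ = x * z * x⁻¹ := by
      rw [inv_eq_iff_mul_eq_one, ← pow_two, hconj]
    rw [h4] at h1
    rw [h3, inv_inv] at h2
    calc j * (x * z * x⁻¹) * w = j * ((x * z * x⁻¹) * w * (x * z * x⁻¹)) * (x * z * x⁻¹) := by
          have : (x * z * x⁻¹) * (x * z * x⁻¹) = 1 := by rw [← pow_two, hconj]
          calc j * (x * z * x⁻¹) * w = j * ((x * z * x⁻¹) * w * 1) := by group
            _ = j * ((x * z * x⁻¹) * w * ((x * z * x⁻¹) * (x * z * x⁻¹))) := by rw [this]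
            _ = _ := by group
      _ = j * w⁻¹ * (x * z * x⁻¹) := by rw [h1]
      _ = (j * w⁻¹ * j) * (j * (x * z * x⁻¹)) := by
          calc j * w⁻¹ * (x * z * x⁻¹) = j * w⁻¹ * 1 * (x * z * x⁻¹) := by group
            _ = j * w⁻¹ * (j * j) * (x * z * x⁻¹) := by rw [hjj]
            _ = _ := by group
      _ = w * (j * (x * z * x⁻¹)) := by rw [h2]
  -- counting
  let t : Finset G := Finset.univ.filter fun b => b ∈ P
  have htc : t.card = 5 := by
    have h1 : t.card = Nat.card P := by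
      rw [Nat.card_eq_fintype_card, Fintype.card_subtype]
    rw [h1, H.card]
  have hA := Finset.card_eq_sum_card_fiberwise (s := Finset.univ.filter fun x : G => x * z * x⁻¹ ∈ normalizer (P : Set G))
    (t := t) (f := fun x => j * (x * z * x⁻¹)) (by
      intro x hx
      have hx' : x * z * x⁻¹ ∈ normalizer (P : Set G) := (Finset.mem_filter.1 hx).2
      exact Finset.mem_coe.2 (Finset.mem_filter.2 ⟨Finset.mem_univ _, key x hx'⟩))
  rw [hA]
  have hfib : ∀ b ∈ t, (Finset.filter (fun x => j * (x * z * x⁻¹) = b)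
      (Finset.univ.filter fun x : G => x * z * x⁻¹ ∈ normalizer (P : Set G))).card = Nat.card (centralizer ({z} : Set G)) := by
    intro b hb
    have hbP : b ∈ P := (Finset.mem_filter.1 hb).2
    have hc := card_filter_conj z (j * b) (hzj.trans (hyp_isConj_mul H hp5 hjN hj2 hj1 hbP))
    rw [← hc]
    congr 1
    ext x
    simp only [Finset.mem_filter, Finset.mem_univ, true_and]
    constructor
    · rintro ⟨-, h⟩
      rw [← h, ← mul_assoc, hjj, one_mul]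
    · intro h
      have hjbN : j * b ∈ normalizer (P : Set G) := (normalizer (P : Set G)).mul_mem hjN (Subgroup.le_normalizer hbP)
      refine ⟨by rw [h]; exact hjbN, ?_⟩
      rw [h, ← mul_assoc, hjj, one_mul]
  rw [Finset.sum_congr rfl hfib, Finset.sum_const, htc, smul_eq_mul, mul_comm]

/-- Partial column orthogonality. -/
theorem normSq_partial (g : G) (s : Finset (IrrCharacter G)) :
    ∑ i ∈ s, Complex.normSq ((i : G → ℂ) g) ≤ (Nat.card (centralizer ({g} : Set G)) : ℝ) := by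
  classical
  have h1 := Cfsg.Agent.Lib.CharInd.sum_irr_mul_conj g g
  rw [if_pos (IsConj.refl _)] at h1
  have h2 : ∑ i : IrrCharacter G, Complex.normSq ((i : G → ℂ) g) = (Nat.card (centralizer ({g} : Set G)) : ℝ) := by
    have h3 : ((∑ i : IrrCharacter G, Complex.normSq ((i : G → ℂ) g) : ℝ) : ℂ) = ((Nat.card (centralizer ({g} : Set G)) : ℝ) : ℂ) := by
      push_cast
      rw [← h1]
      refine Finset.sum_congr rfl fun i _ => ?_
      rw [Complex.mul_conj]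
    exact_mod_cast h3
  rw [← h2]
  exact Finset.sum_le_univ_sum_of_nonneg fun i => Complex.normSq_nonneg _

/-- A sum with at most five nonzero terms. -/
theorem sum_five {ι R : Type*} [Fintype ι] [DecidableEq ι] [AddCommMonoid R] (F : ι → R) {i₀ i₁ i₂ i₃ i₄ : ι}
    (h01 : i₁ ≠ i₀) (h02 : i₂ ≠ i₀) (h03 : i₃ ≠ i₀) (h04 : i₄ ≠ i₀) (h12 : i₁ ≠ i₂) (h13 : i₁ ≠ i₃) (h14 : i₁ ≠ i₄)
    (h23 : i₂ ≠ i₃) (h24 : i₂ ≠ i₄) (h34 : i₃ ≠ i₄)
    (h : ∀ k, k ≠ i₀ → k ≠ i₁ → k ≠ i₂ → k ≠ i₃ → k ≠ i₄ → F k = 0) :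
    ∑ i, F i = F i₀ + F i₁ + F i₂ + F i₃ + F i₄ := by
  have hsub : ({i₀, i₁, i₂, i₃, i₄} : Finset ι) ⊆ Finset.univ := Finset.subset_univ _
  rw [← Finset.sum_subset hsub]
  · rw [Finset.sum_insert (by simp [h01.symm, h02.symm, h03.symm, h04.symm]),
      Finset.sum_insert (by simp [h12, h13, h14]), Finset.sum_insert (by simp [h23, h24]),
      Finset.sum_insert (by simp [h34]), Finset.sum_singleton]
    simp only [add_assoc]
  · intro k _ hk
    simp only [Finset.mem_insert, Finset.mem_singleton, not_or] at hk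
    exact h k hk.1 hk.2.1 hk.2.2.1 hk.2.2.2.1 hk.2.2.2.2

/-- **The case of a self-centralizing Sylow 5-subgroup with normalizer of order 20.** -/
theorem case_s4 [IsSimpleGroup G] (hG : ¬ IsMulCommutative G) (h4 : Nat.card G = 4320) (Q : Sylow 5 G)
    (H : Hyp (Q : Subgroup G) 5) (hN : Nat.card (normalizer ((Q : Subgroup G) : Set G)) = 5 * 4) : False := by
  classical
  haveI : Fact (Nat.Prime 5) := ⟨H.prime⟩
  haveI : Fact (Nat.Prime 2) := ⟨Nat.prime_two⟩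
  obtain ⟨f, m, d, hf, hd, hm, hnorm, hone, hzero, hcong⟩ := data_s4 H hN
  have hd1 : d (oneIrr G) = 1 := by
    have h1 := (hd (oneIrr G)).2
    have h2 : ((d (oneIrr G) : ℕ) : ℂ) = 1 := by rw [← h1]; rfl
    exact_mod_cast h2
  rcases norm_four_cases m (oneIrr G) hone hnorm with ⟨i₁, hi₁, hm1, hrest⟩ | ⟨i₁, i₂, i₃, i₄, hi₁, hi₂, hi₃, hi₄, h12, h13, h14, h23, h24, h34,
    hm1, hm2, hm3, hm4, hrest⟩
  · -- parity
    have hsum : ∑ i, (d i : ℤ) * m i = (d (oneIrr G) : ℤ) * m (oneIrr G) + (d i₁ : ℤ) * m i₁ := by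
      apply Fintype.sum_eq_add _ _ (Ne.symm hi₁)
      intro k hk
      rw [hrest k hk.1 hk.2, mul_zero]
    rw [hsum, hd1, hone] at hzero
    have h2 : m i₁ = 2 ∨ m i₁ = -2 := by
      have : (m i₁ - 2) * (m i₁ + 2) = 0 := by ring_nf; linarith
      rcases mul_eq_zero.1 this with h | h
      · left; linarith
      · right; linarith
    rcases h2 with h2 | h2 <;> rw [h2] at hzero <;> omega
  -- the form of `θ`
  have hone_val : ∀ g : G, ((oneIrr G : IrrCharacter G) : G → ℂ) g = 1 := fun g => rfl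
  have hθform : ∀ g : G, theta (Q : Subgroup G) f g = -1 + (m i₁ : ℂ) * (i₁ : G → ℂ) g + (m i₂ : ℂ) * (i₂ : G → ℂ) g +
      (m i₃ : ℂ) * (i₃ : G → ℂ) g + (m i₄ : ℂ) * (i₄ : G → ℂ) g := by
    intro g
    rw [eval_eq_sum (theta_isClass f) g]
    simp_rw [hm]
    rw [sum_five (fun i : IrrCharacter G => (m i : ℂ) * (i : G → ℂ) g) hi₁ hi₂ hi₃ hi₄ h12 h13 h14 h23 h24 h34
      (fun k h0 h1 h2 h3 h4' => by simp only [hrest k h0 h1 h2 h3 h4']; simp)]
    rw [hone, hone_val]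
    push_cast
    ring
  have hzero' : -1 + (d i₁ : ℤ) * m i₁ + (d i₂ : ℤ) * m i₂ + (d i₃ : ℤ) * m i₃ + (d i₄ : ℤ) * m i₄ = 0 := by
    rw [sum_five (fun i : IrrCharacter G => (d i : ℤ) * m i) hi₁ hi₂ hi₃ hi₄ h12 h13 h14 h23 h24 h34
      (fun k h0 h1 h2 h3 h4' => by simp only [hrest k h0 h1 h2 h3 h4']; simp), hd1, hone] at hzero
    push_cast at hzero
    linarith
  -- the degrees
  have hge : ∀ i, i ≠ oneIrr G → 2 ≤ d i := by
    intro i hi
    have h1 := (hd i).1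
    have h2 := degree_ne_one hG hi (hd i).2
    omega
  have heps : ∀ i, m i ^ 2 = 1 → m i = eps (d i) ∧ (d i % 5 = 1 ∨ d i % 5 = 4) := by
    intro i hi
    have h1 := hcong i
    rcases sq_one_cases hi with h2 | h2 <;> rw [h2] at h1 ⊢
    · have h3 : d i % 5 = 4 := by
        have := h1
        unfold Int.ModEq at this
        omega
      refine ⟨?_, Or.inr h3⟩
      unfold eps
      rw [if_neg (by omega)]
    · have h3 : d i % 5 = 1 := by
        have := h1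
        unfold Int.ModEq at this
        omega
      refine ⟨?_, Or.inl h3⟩
      unfold eps
      rw [if_pos h3]
  have hdvd : ∀ i, m i ^ 2 = 1 → d i ∣ 864 := by
    intro i hi
    apply dvd_of_modEq (p := 5) H.prime (by rw [show 5 * 864 = Nat.card G by omega]; exact degree_dvd i (hd i).2) (hcong i)
    rcases sq_one_cases hi with h2 | h2 <;> rw [h2] <;> norm_num
  have hsq : ∀ i : IrrCharacter G, d i ^ 2 ≤ 4320 := by
    intro i
    have h1 := normSq_partial (1 : G) {i}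
    rw [Finset.sum_singleton, (hd i).2, Complex.normSq_natCast] at h1
    have hC1 : centralizer ({(1 : G)} : Set G) = ⊤ := by
      ext x
      simp [mem_centralizer_singleton_iff]
    rw [hC1, Subgroup.card_top, h4] at h1
    have h2 : ((d i ^ 2 : ℕ) : ℝ) ≤ ((4320 : ℕ) : ℝ) := by
      push_cast
      rw [pow_two]
      exact_mod_cast h1
    exact_mod_cast h2
  have hD : ∀ x ∈ Nat.divisors 864, 2 ≤ x → x ^ 2 ≤ 4320 → (x % 5 = 1 ∨ x % 5 = 4) → x ∈ [4, 6, 9, 16, 24, 36, 54] := by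
    decide +kernel
  have hDi : ∀ i, i ≠ oneIrr G → m i ^ 2 = 1 → d i ∈ [4, 6, 9, 16, 24, 36, 54] := fun i hi hmi =>
    hD _ (Nat.mem_divisors.2 ⟨hdvd i hmi, by norm_num⟩) (hge i hi) (hsq i) (heps i hmi).2
  obtain ⟨e₁, -⟩ := heps i₁ hm1
  obtain ⟨e₂, -⟩ := heps i₂ hm2
  obtain ⟨e₃, -⟩ := heps i₃ hm3
  obtain ⟨e₄, -⟩ := heps i₄ hm4
  -- the central involution
  obtain ⟨T⟩ : Nonempty (Sylow 2 G) := inferInstance
  have hT : Nat.card (T : Subgroup G) = 32 := by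
    rw [Cfsg.Agent.Lib.SmallGroups2.sylow_card_of_card_eq (p := 2) (a := 5) (m := 135) (by rw [h4]; norm_num) (by norm_num) T]
    norm_num
  obtain ⟨z, hz2, hz1, hTz⟩ := exists_central_involution T (by rw [hT]; norm_num)
  obtain ⟨C, hCdef⟩ : ∃ C, C = Nat.card (centralizer ({z} : Set G)) := ⟨_, rfl⟩
  obtain ⟨idx, hidxdef⟩ : ∃ idx, idx = (centralizer ({z} : Set G)).index := ⟨_, rfl⟩
  have hCidx : C * idx = 4320 := by
    rw [hCdef, hidxdef, Subgroup.card_mul_index, h4]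
  have hC32 : 32 ∣ C := by
    rw [hCdef, ← hT]
    exact Subgroup.card_dvd_of_le hTz
  have hC5 : ¬ 5 ∣ C := by
    rw [hCdef]
    intro h5
    obtain ⟨u, hu⟩ := exists_prime_orderOf_dvd_card' (G := centralizer ({z} : Set G)) 5 h5
    have hu' : orderOf ((u : centralizer ({z} : Set G)) : G) = 5 := by
      rw [← hu, Subgroup.orderOf_coe]
    have hpg : IsPGroup 5 (zpowers ((u : centralizer ({z} : Set G)) : G)) := by
      rw [IsPGroup.iff_card, Nat.card_zpowers, hu']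
      exact ⟨1, by norm_num⟩
    obtain ⟨R, hR⟩ := hpg.exists_le_sylow
    obtain ⟨g, hg⟩ := MulAction.exists_smul_eq G R Q
    have hmemR : (u : G) ∈ (R : Subgroup G) := hR (mem_zpowers _)
    have hmemQ : g * (u : G) * g⁻¹ ∈ (Q : Subgroup G) := by
      rw [← hg]
      change g * (u : G) * g⁻¹ ∈ ((g • R : Sylow 5 G) : Subgroup G)
      rw [Cfsg.Agent.Lib.SmallGroups2.mem_smul_sylow_iff]
      convert hmemR using 1
      group
    have hne : g * (u : G) * g⁻¹ ≠ 1 := by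
      intro h1
      have h2 : (u : G) = 1 := by
        have : (u : G) = g⁻¹ * (g * (u : G) * g⁻¹) * g := by group
        rw [this, h1]
        group
      rw [h2, orderOf_one] at hu'
      omega
    have hzQ : g * z * g⁻¹ ∈ (Q : Subgroup G) := by
      rw [← H.cent _ hmemQ hne, mem_centralizer_singleton_iff]
      have hcomm : (u : G) * z = z * (u : G) := mem_centralizer_singleton_iff.1 u.2
      calc g * z * g⁻¹ * (g * (u : G) * g⁻¹) = g * (z * (u : G)) * g⁻¹ := by group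
        _ = g * ((u : G) * z) * g⁻¹ := by rw [hcomm]
        _ = _ := by group
    have hzo : (g * z * g⁻¹) ^ 2 = 1 := by
      rw [conj_pow, hz2]
      group
    have hz1' : g * z * g⁻¹ ≠ 1 := by
      intro h1
      apply hz1
      have : z = g⁻¹ * (g * z * g⁻¹) * g := by group
      rw [this, h1]
      group
    have ho := Cfsg.Agent.Lib.SmallGroups2.orderOf_eq_of_mem_of_ne_one H.prime H.card hzQ hz1'
    have h3 := orderOf_dvd_of_pow_eq_one hzo
    rw [ho] at h3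
    omega
  have hq : (C, idx) ∈ [(32, 135), (96, 45), (288, 15), (864, 5)] := by
    have hdec : ∀ C ∈ Nat.divisors 4320, 32 ∣ C → ¬ 5 ∣ C → (C, 4320 / C) ∈ [(32, 135), (96, 45), (288, 15), (864, 5)] := by
      decide +kernel
    have h1 := hdec C (Nat.mem_divisors.2 ⟨⟨idx, hCidx.symm⟩, by norm_num⟩) hC32 hC5
    have hC0 : 0 < C := by
      rw [hCdef]
      exact Nat.card_pos
    have h2 : 4320 / C = idx := by
      rw [← hCidx]
      exact Nat.mul_div_cancel_left _ hC0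
    rwa [h2] at h1
  -- the values
  have hval : ∀ i, i ≠ oneIrr G → ∃ y : ℤ, (i : G → ℂ) z = y ∧ y ∈ valList (d i) idx := by
    intro i hi
    obtain ⟨y, h1, h2, h3⟩ := invol_value hG i hi (hd i).2 hz2 hz1
    rw [← hidxdef] at h3
    exact ⟨y, h1, mem_valList (hd i).1 h2 h3⟩
  obtain ⟨y₁, hy₁, hl₁⟩ := hval i₁ hi₁
  obtain ⟨y₂, hy₂, hl₂⟩ := hval i₂ hi₂
  obtain ⟨y₃, hy₃, hl₃⟩ := hval i₃ hi₃
  obtain ⟨y₄, hy₄, hl₄⟩ := hval i₄ hi₄
  -- θ vanishes at `z`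
  have hp2 : (5 : ℕ) ≠ 2 := by norm_num
  have hey : -1 + m i₁ * y₁ + m i₂ * y₂ + m i₃ * y₃ + m i₄ * y₄ = 0 := by
    have h1 := theta_invol H hp2 f hz2 hz1
    rw [hθform, hy₁, hy₂, hy₃, hy₄] at h1
    exact_mod_cast h1
  -- the column
  have hcol : 1 + y₁ ^ 2 + y₂ ^ 2 + y₃ ^ 2 + y₄ ^ 2 ≤ (C : ℤ) := by
    have h1 := normSq_partial z ({oneIrr G, i₁, i₂, i₃, i₄} : Finset (IrrCharacter G))
    rw [Finset.sum_insert (by simp [hi₁.symm, hi₂.symm, hi₃.symm, hi₄.symm]),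
      Finset.sum_insert (by simp [h12, h13, h14]), Finset.sum_insert (by simp [h23, h24]),
      Finset.sum_insert (by simp [h34]), Finset.sum_singleton, hone_val, hy₁, hy₂, hy₃, hy₄, ← hCdef] at h1
    simp only [Complex.normSq_intCast, map_one] at h1
    have h2 : ((1 + y₁ ^ 2 + y₂ ^ 2 + y₃ ^ 2 + y₄ ^ 2 : ℤ) : ℝ) ≤ ((C : ℤ) : ℝ) := by
      push_cast
      nlinarith
    exact_mod_cast h2
  -- the class sum
  have hcs := sum_theta_conj H hp2 f hf z hz2 hz1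
  have hA := card_filter_conj_N H z hz2 hz1
  rw [← hCdef] at hA hcs
  obtain ⟨S₁, hS₁⟩ : ∃ S, S = ∑ b : G, (i₁ : G → ℂ) (z * (b * z * b⁻¹)) := ⟨_, rfl⟩
  obtain ⟨S₂, hS₂⟩ : ∃ S, S = ∑ b : G, (i₂ : G → ℂ) (z * (b * z * b⁻¹)) := ⟨_, rfl⟩
  obtain ⟨S₃, hS₃⟩ : ∃ S, S = ∑ b : G, (i₃ : G → ℂ) (z * (b * z * b⁻¹)) := ⟨_, rfl⟩
  obtain ⟨S₄, hS₄⟩ : ∃ S, S = ∑ b : G, (i₄ : G → ℂ) (z * (b * z * b⁻¹)) := ⟨_, rfl⟩
  have hav₁ : (d i₁ : ℂ) * S₁ = (4320 : ℕ) * ((y₁ : ℂ) * y₁) := by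
    have := Cfsg.Agent.Lib.CharAvg.irr_avg i₁.2 z z
    rw [(hd i₁).2, hy₁, h4] at this
    rw [hS₁, this]
    ring
  have hav₂ : (d i₂ : ℂ) * S₂ = (4320 : ℕ) * ((y₂ : ℂ) * y₂) := by
    have := Cfsg.Agent.Lib.CharAvg.irr_avg i₂.2 z z
    rw [(hd i₂).2, hy₂, h4] at this
    rw [hS₂, this]
    ring
  have hav₃ : (d i₃ : ℂ) * S₃ = (4320 : ℕ) * ((y₃ : ℂ) * y₃) := by
    have := Cfsg.Agent.Lib.CharAvg.irr_avg i₃.2 z z
    rw [(hd i₃).2, hy₃, h4] at this
    rw [hS₃, this]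
    ring
  have hav₄ : (d i₄ : ℂ) * S₄ = (4320 : ℕ) * ((y₄ : ℂ) * y₄) := by
    have := Cfsg.Agent.Lib.CharAvg.irr_avg i₄.2 z z
    rw [(hd i₄).2, hy₄, h4] at this
    rw [hS₄, this]
    ring
  have hsumθ : ∑ b : G, theta (Q : Subgroup G) f (z * (b * z * b⁻¹)) =
      -(4320 : ℕ) + (m i₁ : ℂ) * S₁ + (m i₂ : ℂ) * S₂ + (m i₃ : ℂ) * S₃ + (m i₄ : ℂ) * S₄ := by
    simp_rw [hθform]
    rw [Finset.sum_add_distrib, Finset.sum_add_distrib, Finset.sum_add_distrib, Finset.sum_add_distrib,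
      ← Finset.mul_sum, ← Finset.mul_sum, ← Finset.mul_sum, ← Finset.mul_sum, ← hS₁, ← hS₂, ← hS₃, ← hS₄]
    simp only [Finset.sum_const, Finset.card_univ, nsmul_eq_mul, mul_neg, mul_one]
    rw [← Nat.card_eq_fintype_card, h4]
  rw [hsumθ] at hcs
  -- conclusion
  obtain ⟨n, hn, hAn⟩ : ∃ n : ℤ, n ∈ [(0 : ℤ), 5] ∧
      ((Finset.univ.filter fun x : G => x * z * x⁻¹ ∈ normalizer ((Q : Subgroup G) : Set G)).card : ℂ) = (C : ℂ) * n := by
    rcases hA with hA | hA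
    · exact ⟨0, by simp, by rw [hA]; simp⟩
    · exact ⟨5, by simp, by rw [hA]; push_cast; ring⟩
  rw [hAn] at hcs
  have hfin : ((C : ℤ) ^ 2 * n * (d i₁ * d i₂ * d i₃ * d i₄) : ℂ) =
      ((4320 * ((d i₁ : ℤ) * d i₂ * d i₃ * d i₄ - m i₁ * y₁ ^ 2 * d i₂ * d i₃ * d i₄ - m i₂ * y₂ ^ 2 * d i₁ * d i₃ * d i₄ -
        m i₃ * y₃ ^ 2 * d i₁ * d i₂ * d i₄ - m i₄ * y₄ ^ 2 * d i₁ * d i₂ * d i₃) : ℤ) : ℂ) := by
    push_cast at hcs hav₁ hav₂ hav₃ hav₄ ⊢
    linear_combination ((d i₁ : ℂ) * d i₂ * d i₃ * d i₄) * hcs - (m i₁ : ℂ) * d i₂ * d i₃ * d i₄ * hav₁ -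
      (m i₂ : ℂ) * d i₁ * d i₃ * d i₄ * hav₂ - (m i₃ : ℂ) * d i₁ * d i₂ * d i₄ * hav₃ - (m i₄ : ℂ) * d i₁ * d i₂ * d i₃ * hav₄
  have hfin' : (C : ℤ) ^ 2 * n * (d i₁ * d i₂ * d i₃ * d i₄) =
      4320 * ((d i₁ : ℤ) * d i₂ * d i₃ * d i₄ - m i₁ * y₁ ^ 2 * d i₂ * d i₃ * d i₄ - m i₂ * y₂ ^ 2 * d i₁ * d i₃ * d i₄ -
        m i₃ * y₃ ^ 2 * d i₁ * d i₂ * d i₄ - m i₄ * y₄ ^ 2 * d i₁ * d i₂ * d i₃) := by
    exact_mod_cast hfin
  rw [e₁, e₂, e₃, e₄] at hfin' hey hzero'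
  refine chk_false (hDi i₁ hi₁ hm1) (hDi i₂ hi₂ hm2) (hDi i₃ hi₃ hm3) (hDi i₄ hi₄ hm4) ?_ hq hl₁ hl₂ hl₃ hl₄ hey hcol hn hfin'
  linarith

end Cfsg.Agent.Lib.O4320S479
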