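import Mathlib
import Cfsg.Agent.Lib.OMinH

/-!
# Minimal degrees of orthogonal groups: the base case
-/

set_option autoImplicit false
set_option linter.unusedSectionVars false
set_option linter.unusedVariables false

namespace Cfsg.Agent.Lib.OMinI

open QuadraticMap Matrix Cfsg Cfsg.Agent.Lib.OrthoBasic Cfsg.Agent.Lib.OrthoSiegel Cfsg.Agent.Lib.OrthoGen
  Cfsg.Agent.Lib.OrthoIndex Cfsg.Agent.Lib.OrthoSimple Cfsg.Agent.Lib.OrthoCount Cfsg.Agent.Lib.OrthoOrder
  Cfsg.Agent.Lib.OrthoFinal Cfsg.Agent.Lib.OrthoChar Cfsg.Agent.Lib.OrthoDickson Cfsg.Agent.Lib.OrthoIso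
  Cfsg.Agent.Lib.OrthoCardFinal Cfsg.Agent.Lib.OrthoAlt Cfsg.Agent.Lib.OMinH Cfsg.Agent.Lib.OMinC
open scoped commutatorElement

variable {F : Type*} [Field F] [Fintype F]

/-- The commutator subgroup of the orthogonal group of `qPlus 3` is the image of `SL₄`. -/
theorem hrange_six : commutator (OG (qPlus 3 F)) = (phi (F := F)).range := by
  classical
  have hperf : commutator (Matrix.SpecialLinearGroup (Fin 4) F) = ⊤ := Cfsg.Agent.S0248.result 4 (by norm_num)
  have hle := range_le_commutator hperf (phi (F := F))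
  have hfin : Finite (Matrix.SpecialLinearGroup (Fin 4) F) := inferInstance
  obtain ⟨fr⟩ := framePlus (F := F) 0
  have hq := one_lt_q (F := F)
  set q := Fintype.card F with hq_def
  -- description of the kernel
  have hkerφ : ∀ A : Matrix.SpecialLinearGroup (Fin 4) F, phi A = 1 ↔ ∃ l : F, l ^ 2 = 1 ∧ A.1 = l • 1 := by
    intro A
    constructor
    · intro h
      apply scalar_of_act_trivial
      intro v
      rw [← phi_apply, h]
      rfl
    · rintro ⟨l, hl, hA⟩
      apply OG_ext
      intro v
      rw [phi_apply, hA, act_scalar hl]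
      rfl
  have hkercentral : (phi (F := F)).ker ≤ Subgroup.center _ := by
    intro A hA
    obtain ⟨l, _, hl⟩ := (hkerφ A).1 hA
    rw [Subgroup.mem_center_iff]
    intro B
    apply Subtype.ext
    simp only [Matrix.SpecialLinearGroup.coe_mul, hl]
    simp
  have hO : Nat.card (OG (qPlus 3 F)) = 2 * Nat.card (Matrix.SpecialLinearGroup (Fin 4) F) := by
    have h := card_OG_plus (F := F) 2
    rw [card_SL_four]
    rw [h, ← hq_def]
    simp [Finset.prod_range_succ]
    ring
  have hGk := card_range (phi (F := F))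
  rcases Nat.even_or_odd q with hev | hodd
  · -- characteristic two
    have := charP_two_of_even hev
    obtain ⟨x, hx, D, hD⟩ := dickson_plus_three (F := F)
    obtain ⟨K, hK, hKc⟩ := exists_K_even D hD
    refine commutator_eq_range phi K hK (k := 2) (by norm_num) hKc hle ?_
    have hk1 : Nat.card (phi (F := F)).ker = 1 := by
      have hbot : (phi (F := F)).ker = ⊥ := by
        rw [eq_bot_iff]
        intro A hA
        obtain ⟨l, hl, hAl⟩ := (hkerφ A).1 hA
        have h1 : l = 1 := by
          have h2 : (l + 1) ^ 2 = 0 := by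
            have h3 : (2 : F) = 0 := by
              have := CharTwo.add_self_eq_zero (1 : F)
              linear_combination this
            linear_combination hl + l * h3 + h3
          have h4 := pow_eq_zero_iff (two_ne_zero) |>.1 h2
          have h5 := CharTwo.add_self_eq_zero (1 : F)
          linear_combination h4 - h5
        rw [Subgroup.mem_bot]
        apply Subtype.ext
        rw [hAl, h1, one_smul]
        rfl
      rw [hbot]
      simp
    rw [hO, hGk, hk1, one_mul]
  · -- odd
    have h2F := char_ne_two_of_odd hodd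
    obtain ⟨K, hK, hKc⟩ := exists_K_odd hodd (nondeg_qPlus 3) fr.h₁
    refine commutator_eq_range phi K hK (k := 4) (by norm_num) hKc hle ?_
    have hk2 : Nat.card (phi (F := F)).ker = 2 := by
      have hdet : ((-1 : Matrix (Fin 4) (Fin 4) F)).det = 1 := by
        rw [Matrix.det_neg]
        simp only [Fintype.card_fin, Matrix.det_one, mul_one]
        norm_num
      let m : Matrix.SpecialLinearGroup (Fin 4) F := ⟨-1, hdet⟩
      have hm : m ∈ (phi (F := F)).ker := by
        rw [MonoidHom.mem_ker, hkerφ]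
        exact ⟨-1, by ring, by simp [m]⟩
      rw [Nat.card_eq_two_iff]
      refine ⟨⟨1, one_mem _⟩, ⟨m, hm⟩, ?_, ?_⟩
      · intro h
        have h3 := congrArg (fun x : (phi (F := F)).ker => ((x : Matrix.SpecialLinearGroup (Fin 4) F) : Matrix (Fin 4) (Fin 4) F) 0 0) h
        simp [m] at h3
        apply h2F
        linear_combination h3
      · ext ⟨A, hA⟩
        simp only [Set.mem_insert_iff, Set.mem_singleton_iff, Set.mem_univ, iff_true]
        obtain ⟨l, hl, hAl⟩ := (hkerφ A).1 hA
        rw [_root_.sq, mul_self_eq_one_iff] at hl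
        rcases hl with rfl | rfl
        · left
          apply Subtype.ext
          apply Subtype.ext
          rw [hAl, one_smul]
          rfl
        · right
          apply Subtype.ext
          apply Subtype.ext
          rw [hAl]
          simp [m]
    rw [hO, hGk, hk2]
    ring

/-- The bound for `SL₄`. -/
theorem minDeg_SL4 (h3 : 3 < Fintype.card F) :
    MinDegG (Matrix.SpecialLinearGroup (Fin 4) F)
      (Fintype.card F ^ 3 + Fintype.card F ^ 2 + Fintype.card F) := by
  classical
  intro k ρ hρ hnt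
  have hperf : commutator (Matrix.SpecialLinearGroup (Fin 4) F) = ⊤ := Cfsg.Agent.S0248.result 4 (by norm_num)
  have h2 : 2 ≤ k := two_le_of_perfect hperf ρ hρ hnt
  have h := (Cfsg.Agent.S2332.result (F := F) 4 (by norm_num)
    ⟨by simp, by simp, by intro h; simp at h; omega, by intro h; simp at h; omega⟩).1 k ρ hρ h2
  set q := Fintype.card F with hq
  have hdiv : (q ^ 4 - q) / (q - 1) = q ^ 3 + q ^ 2 + q := by
    obtain ⟨a, ha⟩ : ∃ a, q = a + 1 := ⟨q - 1, by omega⟩
    have h1 : q ^ 4 - q = (q - 1) * (q ^ 3 + q ^ 2 + q) := by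
      rw [ha]
      simp only [Nat.add_sub_cancel]
      have : (a + 1) ^ 4 = a * ((a + 1) ^ 3 + (a + 1) ^ 2 + (a + 1)) + (a + 1) := by ring
      rw [this, Nat.add_sub_cancel]
    rw [h1]
    exact Nat.mul_div_cancel_left _ (by omega)
  rw [hdiv] at h
  exact h

/-- The bound for `qPlus 3`. -/
theorem base_plus (h3 : 3 < Fintype.card F) :
    MinDegG (siegelE (qPlus 3 F)) (Fintype.card F ^ 3 + Fintype.card F ^ 2 + Fintype.card F) := by
  have hE : commutator (OG (qPlus 3 F)) = siegelE (qPlus 3 F) := hE_qPlus (F := F) 0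
  have hr := hrange_six (F := F)
  rw [hE] at hr
  let f : Matrix.SpecialLinearGroup (Fin 4) F →* siegelE (qPlus 3 F) :=
    (phi (F := F)).codRestrict _ (fun A => by rw [hr]; exact ⟨A, rfl⟩)
  refine (minDeg_SL4 h3).of_surjective f ?_
  rintro ⟨x, hx⟩
  rw [hr] at hx
  obtain ⟨A, rfl⟩ := hx
  exact ⟨A, rfl⟩

/-- The recursion. -/
theorem minDeg_plus (h3 : 3 < Fintype.card F) (m : ℕ) :
    ∃ D : ℕ, ((Fintype.card F : ℤ) ^ 2 - 1) * D
      = ((Fintype.card F : ℤ) * (Fintype.card F : ℤ) ^ (m + 2) - 1) *
        ((Fintype.card F : ℤ) ^ (m + 2) + Fintype.card F) ∧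
      MinDegG (siegelE (qPlus (m + 3) F)) D := by
  induction m with
  | zero =>
    refine ⟨_, ?_, base_plus h3⟩
    push_cast
    ring
  | succ m ih =>
    obtain ⟨D, hD, hmd⟩ := ih
    obtain ⟨D', hD', hmd'⟩ := step_plus m h3 hD hmd
    refine ⟨D', ?_, hmd'⟩
    rw [hD']
    ring

end Cfsg.Agent.Lib.OMinI
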