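import Mathlib
import Cfsg.Agent.Lib.OMinH

/-!
# Minimal degrees of orthogonal groups without a torus

The element `s0` of the second layer is a commutator of Siegel elements stabilising a vector
when the form below it has room.  So the argument of `OMinE` works over all fields, and for any
level of the form.
-/

set_option autoImplicit false
set_option linter.unusedSectionVars false
set_option linter.unusedVariables false

namespace Cfsg.Agent.Lib.OMinus44A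

open QuadraticMap Matrix Cfsg Cfsg.Agent.Lib.OrthoBasic Cfsg.Agent.Lib.OrthoSiegel
  Cfsg.Agent.Lib.OrthoGen Cfsg.Agent.Lib.OrthoSimple Cfsg.Agent.Lib.OrthoFinal
  Cfsg.Agent.Lib.FourierAb Cfsg.Agent.Lib.OMinA Cfsg.Agent.Lib.OMinB Cfsg.Agent.Lib.OMinC
  Cfsg.Agent.Lib.OMinD Cfsg.Agent.Lib.OMinE Cfsg.Agent.Lib.OMinF Cfsg.Agent.Lib.SLMinB
  Cfsg.Agent.Lib.OrthoCount
open scoped commutatorElement

section comm

variable {F : Type*} [Field F] {W₂ : Type*} [AddCommGroup W₂] [Module F W₂]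
  [FiniteDimensional F W₂] {Q₂ : QuadraticForm F W₂} (hQ₂ : Nondeg Q₂)

/-- The vector of `W₂` in the second layer. -/
def vz (F : Type*) [Field F] {W₂ : Type*} [AddCommGroup W₂] [Module F W₂] (u : W₂) :
    F × F × (F × F × W₂) := (0, 0, 0, 0, u)

lemma polar_l_vz (x y p r : F) (z u : W₂) :
    polar (hypQ (hypQ Q₂)) (x, y, p, r, z) (vz F u) = polar Q₂ z u := by
  rw [vz, hypQ_polar, hypQ_polar]
  simp

lemma polar_aa_vz (u : W₂) : polar (hypQ (hypQ Q₂)) (aa F W₂) (vz F u) = 0 := by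
  rw [aa, polar_l_vz, polar_zero_left]

lemma polar_bb_vz (u : W₂) : polar (hypQ (hypQ Q₂)) (bb F W₂) (vz F u) = 0 := by
  rw [bb, polar_l_vz, polar_zero_left]

lemma Q_vz (u : W₂) : hypQ (hypQ Q₂) (vz F u) = Q₂ u := by
  simp [vz]

/-- The Siegel element `x_{aa, u}`. -/
noncomputable def sA (u : W₂) : siegelE (hypQ (hypQ Q₂)) :=
  ⟨siegel (hypQ_nondeg (hypQ_nondeg hQ₂)) aa_sing (polar_aa_vz u),
    siegel_mem (hypQ_nondeg (hypQ_nondeg hQ₂)) aa_sing (polar_aa_vz u)⟩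

/-- The Siegel element `x_{bb, u}`. -/
noncomputable def sB (u : W₂) : siegelE (hypQ (hypQ Q₂)) :=
  ⟨siegel (hypQ_nondeg (hypQ_nondeg hQ₂)) bb_sing (polar_bb_vz u),
    siegel_mem (hypQ_nondeg (hypQ_nondeg hQ₂)) bb_sing (polar_bb_vz u)⟩

lemma sA_apply (u : W₂) (x y p r : F) (z : W₂) :
    ((sA hQ₂ u : siegelE (hypQ (hypQ Q₂))) : OG (hypQ (hypQ Q₂))).1 (x, y, p, r, z)
      = (x - polar Q₂ z u - Q₂ u * y, y, p, r, z + y • u) := by
  change ((siegel (hypQ_nondeg (hypQ_nondeg hQ₂)) aa_sing (polar_aa_vz u) : OG (hypQ (hypQ Q₂)))).1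
    (x, y, p, r, z) = _
  rw [(siegel_isSiegel (hypQ_nondeg (hypQ_nondeg hQ₂)) aa_sing (polar_aa_vz u)).2.2, siegelLin_apply,
    polar_l_aa, polar_l_vz, Q_vz, aa, vz]
  ext <;> simp <;> ring

lemma sB_apply (u : W₂) (x y p r : F) (z : W₂) :
    ((sB hQ₂ u : siegelE (hypQ (hypQ Q₂))) : OG (hypQ (hypQ Q₂))).1 (x, y, p, r, z)
      = (x, y, p - polar Q₂ z u - Q₂ u * r, r, z + r • u) := by
  change ((siegel (hypQ_nondeg (hypQ_nondeg hQ₂)) bb_sing (polar_bb_vz u) : OG (hypQ (hypQ Q₂)))).1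
    (x, y, p, r, z) = _
  rw [(siegel_isSiegel (hypQ_nondeg (hypQ_nondeg hQ₂)) bb_sing (polar_bb_vz u)).2.2, siegelLin_apply,
    polar_l_bb, polar_l_vz, Q_vz, bb, vz]
  ext <;> simp <;> ring

/-- The root element is a commutator. -/
lemma s0_comm {u v : W₂} (huv : polar Q₂ u v = 1) :
    s0 hQ₂ * sB hQ₂ v * sA hQ₂ u = sA hQ₂ u * sB hQ₂ v := by
  apply Subtype.ext
  apply OG_ext
  rintro ⟨x, y, p, r, z⟩
  have hvu : polar Q₂ v u = 1 := by rw [polar_comm]; exact huv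
  simp only [Subgroup.coe_mul, LinearEquiv.mul_apply]
  change ((s0 hQ₂ : siegelE (hypQ (hypQ Q₂))) : OG (hypQ (hypQ Q₂))).1
    (((sB hQ₂ v : siegelE (hypQ (hypQ Q₂))) : OG (hypQ (hypQ Q₂))).1
      (((sA hQ₂ u : siegelE (hypQ (hypQ Q₂))) : OG (hypQ (hypQ Q₂))).1 (x, y, p, r, z)))
    = ((sA hQ₂ u : siegelE (hypQ (hypQ Q₂))) : OG (hypQ (hypQ Q₂))).1
      (((sB hQ₂ v : siegelE (hypQ (hypQ Q₂))) : OG (hypQ (hypQ Q₂))).1 (x, y, p, r, z))
  rw [sA_apply, sB_apply, s0_apply, sB_apply, sA_apply]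
  simp only [polar_add_left, polar_smul_l, huv, hvu]
  ext
  · simp
    ring
  · simp
  · simp
    ring
  · simp
  · simp
    abel

end comm

section generic

variable {G : Type*} [Group G] {k : ℕ} (R' : G →* Matrix (Fin k) (Fin k) ℂ)

/-- An element which is a commutator of two elements commuting with a rank one idempotent
acts trivially on it. -/
lemma triv_of_comm {s a b : G} (h : s * b * a = a * b) {e : Matrix (Fin k) (Fin k) ℂ} (he2 : e * e = e)
    (hr : rk e = 1) (hca : R' a * e = e * R' a) (hcb : R' b * e = e * R' b) : R' s * e = e := by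
  have he0 : e ≠ 0 := by
    intro h0
    rw [h0, rk_zero] at hr
    exact zero_ne_one hr
  have hξA := Cfsg.Agent.Lib.SLMinE.scal_of_rk_one he2 hr hca
  have hξB := Cfsg.Agent.Lib.SLMinE.scal_of_rk_one he2 hr hcb
  generalize (R' a * e).trace = ξA at hξA
  generalize (R' b * e).trace = ξB at hξB
  have hne : ∀ (g : G) (c : ℂ), R' g * e = c • e → c ≠ 0 := by
    intro g c hc h0
    rw [h0, zero_smul] at hc
    apply he0
    calc e = R' g⁻¹ * R' g * e := by rw [R_inv_mul', Matrix.one_mul]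
      _ = R' g⁻¹ * (R' g * e) := Matrix.mul_assoc _ _ _
      _ = 0 := by rw [hc, Matrix.mul_zero]
  have hA0 := hne _ _ hξA
  have hB0 := hne _ _ hξB
  have h1 : R' s * (R' b * (R' a * e)) = R' a * (R' b * e) := by
    have h2 : R' s * R' b * R' a = R' a * R' b := by
      rw [← map_mul, ← map_mul, ← map_mul, h]
    calc R' s * (R' b * (R' a * e)) = R' s * R' b * R' a * e := by simp only [Matrix.mul_assoc]
      _ = R' a * R' b * e := by rw [h2]
      _ = _ := Matrix.mul_assoc _ _ _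
  simp only [hξA, hξB, Matrix.mul_smul] at h1
  rw [smul_smul, smul_smul, mul_comm ξB ξA] at h1
  exact smul_right_injective _ (mul_ne_zero hA0 hB0) h1

end generic

section line

variable {F : Type*} [Field F] [Fintype F] {W₂ : Type*} [AddCommGroup W₂] [Module F W₂] [Fintype W₂]
  [FiniteDimensional F W₂] {Q₂ : QuadraticForm F W₂} (hQ₂ : Nondeg Q₂) {k : ℕ}
  (R : siegelE (hypQ (hypQ (hypQ Q₂))) →* Matrix (Fin k) (Fin k) ℂ) {ψ : AddChar F ℂ}

local notation "hQ0" => hypQ_nondeg (hypQ_nondeg hQ₂)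

/-- The root element acts trivially on a line of the Fourier decomposition. -/
theorem line_triv2 {x₁ x₂ : F} {z u v : W₂} (huv : polar Q₂ u v = 1) (hzu : polar Q₂ z u = 0)
    (hzv : polar Q₂ z v = 0) (hl : rk (EE hQ0 R ψ (x₁, 0, x₂, 0, z)) = 1) :
    R (emb _ (s0 hQ₂)) * EE hQ0 R ψ (x₁, 0, x₂, 0, z) = EE hQ0 R ψ (x₁, 0, x₂, 0, z) := by
  have hA : ((sA hQ₂ u : siegelE (hypQ (hypQ Q₂))) : OG (hypQ (hypQ Q₂))).1
      ((x₁, 0, x₂, 0, z) : F × F × (F × F × W₂)) = (x₁, 0, x₂, 0, z) := by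
    rw [sA_apply, hzu]
    simp
  have hB : ((sB hQ₂ v : siegelE (hypQ (hypQ Q₂))) : OG (hypQ (hypQ Q₂))).1
      ((x₁, 0, x₂, 0, z) : F × F × (F × F × W₂)) = (x₁, 0, x₂, 0, z) := by
    rw [sB_apply, hzv]
    simp
  have hcA := conj_emb hQ0 R (ψ := ψ) (sA hQ₂ u) (x₁, 0, x₂, 0, z)
  have hcB := conj_emb hQ0 R (ψ := ψ) (sB hQ₂ v) (x₁, 0, x₂, 0, z)
  erw [hA] at hcA
  erw [hB] at hcB
  exact triv_of_comm (R.comp (emb _)) (s0_comm hQ₂ huv) (EE_idem hQ0 R ψ _) hl hcA hcB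

lemma trace_fixed2 {x₁ x₂ : F} {z u v : W₂} (huv : polar Q₂ u v = 1) (hzu : polar Q₂ z u = 0)
    (hzv : polar Q₂ z v = 0) (hl : rk (EE hQ0 R ψ (x₁, 0, x₂, 0, z)) = 1) :
    (R (emb _ (s0 hQ₂)) * EE hQ0 R ψ (x₁, 0, x₂, 0, z)).trace = 1 := by
  rw [line_triv2 hQ₂ R huv hzu hzv hl, trace_eq_rk _ (EE_idem _ R ψ _), hl]
  simp

end line

end Cfsg.Agent.Lib.OMinus44A
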