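import Mathlib
import Cfsg.Agent.Lib.OMinus44A

/-!
# Minimal degrees of orthogonal groups: support on a single level
-/

set_option autoImplicit false
set_option linter.unusedSectionVars false
set_option linter.unusedVariables false
set_option linter.unnecessarySeqFocus false

namespace Cfsg.Agent.Lib.OMinus44B

open QuadraticMap Matrix Cfsg Cfsg.Agent.Lib.OrthoBasic Cfsg.Agent.Lib.OrthoSiegel
  Cfsg.Agent.Lib.OrthoGen Cfsg.Agent.Lib.OrthoSimple Cfsg.Agent.Lib.OrthoFinal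
  Cfsg.Agent.Lib.FourierAb Cfsg.Agent.Lib.OMinA Cfsg.Agent.Lib.OMinB Cfsg.Agent.Lib.OMinC
  Cfsg.Agent.Lib.OMinD Cfsg.Agent.Lib.OMinE Cfsg.Agent.Lib.OMinF Cfsg.Agent.Lib.SLMinB
  Cfsg.Agent.Lib.OrthoCount Cfsg.Agent.Lib.OMinus44A Cfsg.Agent.Lib.OrthoCardFinal
open scoped commutatorElement

section trace1

variable {F : Type*} [Field F] [Fintype F] {W₁ : Type*} [AddCommGroup W₁] [Module F W₁] [Fintype W₁]
  [FiniteDimensional F W₁] {Q₁ : QuadraticForm F W₁} (hQ₁ : Nondeg Q₁) {k : ℕ}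
  (R : siegelE (hypQ (hypQ Q₁)) →* Matrix (Fin k) (Fin k) ℂ) {ψ : AddChar F ℂ}

/-- The value of the character on the root element `x₁`, for support on a single level. -/
theorem trace_root2 (hψ : ψ.IsPrimitive) (a : F)
    (hsup : ∀ l, l ≠ 0 → hypQ Q₁ l ≠ a → EE (hypQ_nondeg hQ₁) R ψ l = 0)
    (h1 : ∀ l, l ≠ 0 → hypQ Q₁ l = a → rk (EE (hypQ_nondeg hQ₁) R ψ l) = 1) :
    (R (xx (hypQ_nondeg hQ₁) ((1, 0, 0) : F × F × W₁))).trace
      = (k : ℂ) - (Fintype.card F : ℂ) * (Fintype.card W₁ : ℂ) := by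
  classical
  set hQ := hypQ_nondeg hQ₁ with hQdef
  have htr := trace_r (rr_zero hQ R) (rr_add hQ R) hψ hQ ((1, 0, 0) : F × F × W₁)
  have hk := sum_rk (rr_zero hQ R) (rr_add hQ R) hψ hQ
  have hk' : (k : ℂ) = ∑ l : F × F × W₁, (rk (EE hQ R ψ l) : ℂ) := by
    have := congrArg (fun n : ℕ => (n : ℂ)) hk
    push_cast at this
    exact this.symm
  have hsum := sum_sing_psi hψ (fun w : W₁ => Q₁ w - a)
  have hdiff : (k : ℂ) - (rr hQ R ((1, 0, 0) : F × F × W₁)).trace
      = (Fintype.card F : ℂ) * (Fintype.card W₁ : ℂ) := by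
    rw [htr, hk', ← hsum, ← Finset.sum_sub_distrib]
    refine Finset.sum_congr rfl fun l _ => ?_
    rcases l with ⟨x, y, w⟩
    have hp : polar (hypQ Q₁) (x, y, w) ((1, 0, 0) : F × F × W₁) = y := by
      rw [hypQ_polar]
      simp
    rw [hp]
    change ((rk (EE hQ R ψ (x, y, w)) : ℕ) : ℂ) - ψ y * ((rk (EE hQ R ψ (x, y, w)) : ℕ) : ℂ) = _
    simp only
    by_cases h0 : ((x, y, w) : F × F × W₁) = 0
    · have hy : y = 0 := congrArg (fun t : F × F × W₁ => t.2.1) h0
      subst hy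
      simp
    · by_cases hz : x * y + (Q₁ w - a) = 0
      · rw [if_pos hz, h1 _ h0 (by rw [hypQ_apply]; linear_combination hz)]
        simp
      · rw [if_neg hz, hsup _ h0 (by rw [hypQ_apply]; intro h; apply hz; linear_combination h), rk_zero]
        simp
  have : (R (xx hQ ((1, 0, 0) : F × F × W₁))).trace = (rr hQ R ((1, 0, 0) : F × F × W₁)).trace := rfl
  rw [this, ← hdiff]
  ring

end trace1

section sums

variable {F : Type*} [Field F] [Fintype F] {W : Type*} [AddCommGroup W] [Module F W] [Fintype W]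
  {Q₀ : QuadraticForm F W}

/-- Summation if the terms vanish off a level. -/
lemma sum_level {M : Type*} [AddCommMonoid M] (a : F) (f : W → M) (h : ∀ l, l ≠ 0 → Q₀ l ≠ a → f l = 0)
    [DecidableEq W] [DecidablePred fun l => l ≠ 0 ∧ Q₀ l = a] :
    ∑ l, f l = f 0 + ∑ l ∈ Finset.univ.filter (fun l => l ≠ 0 ∧ Q₀ l = a), f l := by
  rw [← Finset.add_sum_erase _ _ (Finset.mem_univ (0 : W))]
  congr 1
  symm
  apply Finset.sum_subset
  · intro l hl
    simp [(Finset.mem_filter.1 hl).2.1]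
  · intro l hl hl'
    simp only [Finset.mem_erase, Finset.mem_univ, and_true] at hl
    simp only [Finset.mem_filter, Finset.mem_univ, true_and, not_and] at hl'
    exact h l hl (hl' hl)

/-- The count of a level without the zero vector. -/
lemma card_level (a : F) [DecidableEq F] [DecidableEq W] [DecidablePred fun l => l ≠ 0 ∧ Q₀ l = a] :
    (Finset.univ.filter (fun l => l ≠ 0 ∧ Q₀ l = a)).card + (if a = 0 then 1 else 0)
      = Nat.card {l // Q₀ l = a} := by
  classical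
  rw [Nat.card_eq_fintype_card, Fintype.card_subtype]
  by_cases ha : a = 0
  · subst ha
    rw [if_pos rfl]
    have h : Finset.univ.filter (fun l => Q₀ l = 0) = insert 0 (Finset.univ.filter (fun l => l ≠ 0 ∧ Q₀ l = 0)) := by
      ext l
      simp only [Finset.mem_filter, Finset.mem_univ, true_and, Finset.mem_insert]
      by_cases hl : l = 0
      · simp [hl]
      · simp [hl]
    rw [h, Finset.card_insert_of_notMem (by simp)]
  · rw [if_neg ha, add_zero]
    congr 1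
    ext l
    simp only [Finset.mem_filter, Finset.mem_univ, true_and, and_iff_right_iff_imp]
    rintro hl rfl
    exact ha (by rw [← hl, map_zero])

end sums

section count

variable {F : Type*} [Field F] [Fintype F] {W₂ : Type*} [AddCommGroup W₂] [Module F W₂] [Fintype W₂]
  {Q₂ : QuadraticForm F W₂}

/-- Counting of the vectors of a level fixed by the root element. -/
lemma card_fixed2 (a : F) :
    Nat.card {l : F × F × (F × F × W₂) // hypQ (hypQ Q₂) l = a ∧ l.2.1 = 0 ∧ l.2.2.2.1 = 0}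
      = Fintype.card F * Fintype.card F * Nat.card {z // Q₂ z = a} := by
  classical
  have e : {l : F × F × (F × F × W₂) // hypQ (hypQ Q₂) l = a ∧ l.2.1 = 0 ∧ l.2.2.2.1 = 0} ≃
      F × F × {z // Q₂ z = a} :=
    { toFun := fun l => (l.1.1, l.1.2.2.1, ⟨l.1.2.2.2.2, by
        obtain ⟨⟨x, y, p, r, z⟩, h1, h2, h3⟩ := l
        simp only at h2 h3
        subst h2 h3
        simpa using h1⟩)
      invFun := fun l => ⟨(l.1, 0, l.2.1, 0, l.2.2.1), by simpa using l.2.2.2⟩
      left_inv := by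
        rintro ⟨⟨x, y, p, r, z⟩, h1, h2, h3⟩
        simp only at h2 h3
        subst h2 h3
        rfl
      right_inv := by
        rintro ⟨x, p, z, hz⟩
        rfl }
  rw [Nat.card_congr e, Nat.card_prod, Nat.card_prod, Nat.card_eq_fintype_card]
  ring

end count

section arith

lemma arith_T2 {q W Z₀ Z₁ Z₂ f r k S ι : ℕ} {T X : ℂ}
    (hx1 : X = (k : ℂ) - (q : ℂ) * ((q : ℂ) * ((q : ℂ) * (W : ℂ))))
    (hsp : X = T + (f : ℂ)) (hfix : f + ι = q * q * Z₂) (hdeg : k = r + S) (hS : S + ι = Z₀)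
    (hZ0 : Z₀ = (q - 1) * (q * (q * W)) + q * Z₁) (hZ1 : Z₁ = (q - 1) * W + q * Z₂)
    (hq : 1 ≤ q) : T = (r : ℂ) - (q : ℂ) * (W : ℂ) := by
  obtain ⟨q', rfl⟩ : ∃ q', q = q' + 1 := ⟨q - 1, by omega⟩
  simp only [Nat.add_sub_cancel] at hZ0 hZ1
  have h1 : (k : ℂ) = (r : ℂ) + (S : ℂ) := by
    rw [hdeg]
    push_cast
    ring
  have h2 := congrArg (fun n : ℕ => (n : ℂ)) hZ0
  have h3 := congrArg (fun n : ℕ => (n : ℂ)) hZ1
  have h4 := congrArg (fun n : ℕ => (n : ℂ)) hfix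
  have h5 := congrArg (fun n : ℕ => (n : ℂ)) hS
  push_cast at h2 h3 h4 h5 hx1 ⊢
  have h6 : T = X - (f : ℂ) := by rw [hsp]; ring
  rw [h6, hx1, h1]
  linear_combination h5 + h2 + ((q' : ℂ) + 1) * h3 - h4

end arith

section main

variable {F : Type*} [Field F] [Fintype F] {W₂ : Type*} [AddCommGroup W₂] [Module F W₂] [Fintype W₂]
  [FiniteDimensional F W₂] {Q₂ : QuadraticForm F W₂} (hQ₂ : Nondeg Q₂) {k : ℕ}
  (R : siegelE (hypQ (hypQ (hypQ Q₂))) →* Matrix (Fin k) (Fin k) ℂ) {ψ : AddChar F ℂ}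

local notation "hQ0" => hypQ_nondeg (hypQ_nondeg hQ₂)

/-- Room below a level: every vector of the level has a nonzero pair in its orthogonal. -/
def Sep (Q₂ : QuadraticForm F W₂) (a : F) : Prop :=
  ∀ z, Q₂ z = a → ∃ u v, polar Q₂ u v = 1 ∧ polar Q₂ z u = 0 ∧ polar Q₂ z v = 0

set_option maxHeartbeats 1600000 in
/-- The trace of the root element of the second layer on the image of the idempotent at zero. -/
theorem trace_zero_part2 (hψ : ψ.IsPrimitive)
    (hE : commutator (OG (hypQ (hypQ (hypQ Q₂)))) ≤ siegelE (hypQ (hypQ (hypQ Q₂))))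
    (a : F) (hsep : Sep Q₂ a)
    (hsup : ∀ l, l ≠ 0 → hypQ (hypQ Q₂) l ≠ a → EE hQ0 R ψ l = 0)
    (h1 : ∀ l, l ≠ 0 → hypQ (hypQ Q₂) l = a → rk (EE hQ0 R ψ l) = 1) :
    (R (emb _ (s0 hQ₂)) * EE hQ0 R ψ 0).trace
      = (rk (EE hQ0 R ψ 0) : ℂ) - (Fintype.card F : ℂ) * (Fintype.card W₂ : ℂ) := by
  classical
  set X := R (emb _ (s0 hQ₂)) with hX
  have hx1 := trace_root2 (hypQ_nondeg hQ₂) R hψ a hsup h1
  have hcj : X.trace = (R (xx hQ0 (aa F W₂))).trace := by
    have := gg_conj hQ₂ hE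
    rw [hX, ← this, map_mul, map_mul, Matrix.trace_mul_comm, ← Matrix.mul_assoc, R_inv_mul', Matrix.one_mul]
  have hsplit : X.trace = ∑ l, (X * EE hQ0 R ψ l).trace := by
    have := sum_EL (r := rr hQ0 R) (Q₀ := hypQ (hypQ Q₂)) (ψ := ψ) (rr_zero hQ0 R) hψ hQ0
    calc X.trace = (X * 1).trace := by rw [Matrix.mul_one]
      _ = _ := by rw [← this, Finset.mul_sum, Matrix.trace_sum]
  have hs := sum_level (Q₀ := hypQ (hypQ Q₂)) a (fun l => (X * EE hQ0 R ψ l).trace) (fun l hl0 hl => by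
    change (X * EE hQ0 R ψ l).trace = 0
    rw [hsup l hl0 hl, Matrix.mul_zero, Matrix.trace_zero])
  have hS : ∀ l ∈ Finset.univ.filter (fun l => l ≠ 0 ∧ hypQ (hypQ Q₂) l = a),
      (X * EE hQ0 R ψ l).trace = if (l.2.1 = 0 ∧ l.2.2.2.1 = 0) then 1 else 0 := by
    rintro ⟨x, y, p, r, z⟩ hl
    obtain ⟨hl0, hlQ⟩ := (Finset.mem_filter.1 hl).2
    simp only
    by_cases hfix : y = 0 ∧ r = 0
    · rw [if_pos hfix]
      obtain ⟨rfl, rfl⟩ := hfix
      have hz : Q₂ z = a := by simpa using hlQ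
      obtain ⟨u, v, huv, hzu, hzv⟩ := hsep z hz
      exact trace_fixed2 hQ₂ R huv hzu hzv (h1 _ hl0 hlQ)
    · rw [if_neg hfix]
      refine trace_moved hQ₂ R hψ ?_
      rw [s0_apply]
      intro h
      apply hfix
      have h2 := congrArg (fun t : F × F × (F × F × W₂) => t.1) h
      have h3 := congrArg (fun t : F × F × (F × F × W₂) => t.2.2.1) h
      simp only at h2 h3
      constructor
      · linear_combination h3
      · linear_combination -h2
  rw [Finset.sum_congr rfl hS, Finset.sum_boole] at hs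
  set ι : ℕ := if a = 0 then 1 else 0 with hι
  have hfixcard : ((Finset.univ.filter (fun l : F × F × (F × F × W₂) => l ≠ 0 ∧ hypQ (hypQ Q₂) l = a)).filter
      (fun l => l.2.1 = 0 ∧ l.2.2.2.1 = 0)).card + ι = Fintype.card F * Fintype.card F * Nat.card {z // Q₂ z = a} := by
    rw [← card_fixed2, Nat.card_eq_fintype_card, Fintype.card_subtype]
    rw [Finset.filter_filter, hι]
    by_cases ha : a = 0
    · subst ha
      rw [if_pos rfl]
      have h0 : Finset.univ.filter (fun l : F × F × (F × F × W₂) => hypQ (hypQ Q₂) l = 0 ∧ l.2.1 = 0 ∧ l.2.2.2.1 = 0)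
          = insert 0 (Finset.univ.filter (fun l : F × F × (F × F × W₂) => (l ≠ 0 ∧ hypQ (hypQ Q₂) l = 0) ∧ l.2.1 = 0 ∧ l.2.2.2.1 = 0)) := by
        ext l
        simp only [Finset.mem_filter, Finset.mem_univ, true_and, Finset.mem_insert]
        constructor
        · rintro ⟨h1, h2⟩
          by_cases hl : l = 0
          · exact Or.inl hl
          · exact Or.inr ⟨⟨hl, h1⟩, h2⟩
        · rintro (rfl | ⟨⟨_, h1⟩, h2⟩)
          · simp
          · exact ⟨h1, h2⟩
      rw [h0, Finset.card_insert_of_notMem]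
      simp
    · rw [if_neg ha, add_zero]
      congr 1
      ext l
      simp only [Finset.mem_filter, Finset.mem_univ, true_and]
      constructor
      · rintro ⟨⟨_, h1⟩, h2⟩
        exact ⟨h1, h2⟩
      · rintro ⟨h1, h2⟩
        refine ⟨⟨?_, h1⟩, h2⟩
        rintro rfl
        exact ha (by rw [← h1, map_zero])
  have hdeg : k = rk (EE hQ0 R ψ 0) + (Finset.univ.filter (fun l : F × F × (F × F × W₂) => l ≠ 0 ∧ hypQ (hypQ Q₂) l = a)).card := by
    have hsum := sum_rk (rr_zero hQ0 R) (rr_add hQ0 R) hψ hQ0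
    rw [sum_level (Q₀ := hypQ (hypQ Q₂)) a _ (fun l hl0 hl => by
      change rk (EE hQ0 R ψ l) = 0
      rw [hsup l hl0 hl, rk_zero])] at hsum
    rw [Finset.sum_congr rfl (fun l hl => h1 l (Finset.mem_filter.1 hl).2.1
      (Finset.mem_filter.1 hl).2.2)] at hsum
    refine hsum.symm.trans ?_
    simp
  have hcl := card_level (Q₀ := hypQ (hypQ Q₂)) a
  rw [natCard_level_hyp (hypQ Q₂) a] at hcl
  have hZ1 := natCard_level_hyp Q₂ a
  have hq1 : 1 ≤ Fintype.card F := Fintype.card_pos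
  rw [Nat.card_prod, Nat.card_prod, Nat.card_eq_fintype_card (α := F), Nat.card_eq_fintype_card (α := W₂)] at hcl
  rw [Nat.card_eq_fintype_card (α := W₂)] at hZ1
  have hcF : ((Fintype.card (F × F × W₂) : ℕ) : ℂ)
      = (Fintype.card F : ℂ) * ((Fintype.card F : ℂ) * (Fintype.card W₂ : ℂ)) := by
    rw [Fintype.card_prod, Fintype.card_prod]
    push_cast
    ring
  have hx1' : X.trace = (k : ℂ) - (Fintype.card F : ℂ) *
      ((Fintype.card F : ℂ) * ((Fintype.card F : ℂ) * (Fintype.card W₂ : ℂ))) := by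
    rw [hcj, ← hcF]
    exact hx1
  exact arith_T2 hx1' (hsplit.trans hs) hfixcard hdeg hcl rfl hZ1 hq1

/-- The bound coming from the action on the image of the idempotent at zero. -/
theorem rank_one_bound2 (ρ : Representation ℂ (siegelE (hypQ (hypQ (hypQ Q₂)))) (Fin k → ℂ))
    (hψ : ψ.IsPrimitive)
    (hE : commutator (OG (hypQ (hypQ (hypQ Q₂)))) ≤ siegelE (hypQ (hypQ (hypQ Q₂))))
    (a : F) (hsep : Sep Q₂ a)
    (hsup : ∀ l, l ≠ 0 → hypQ (hypQ Q₂) l ≠ a → EE hQ0 (matR ρ) ψ l = 0)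
    (h1 : ∀ l, l ≠ 0 → hypQ (hypQ Q₂) l = a → rk (EE hQ0 (matR ρ) ψ l) = 1) (D : ℕ)
    (hD : ∀ (n : ℕ) (ρ' : Representation ℂ (siegelE (hypQ (hypQ Q₂))) (Fin n → ℂ)), ρ'.IsIrreducible →
      (∃ g, ρ' g ≠ 1) → D ≤ n) :
    D ≤ rk (EE hQ0 (matR ρ) ψ 0) := by
  have : Finite (siegelE (hypQ (hypQ Q₂))) := Cfsg.Agent.Lib.OMinD.finite_E _
  let ρ' : Representation ℂ (siegelE (hypQ (hypQ Q₂))) (Fin k → ℂ) :=
    MonoidHom.comp ρ (emb (hypQ (hypQ Q₂)))
  have hm : ∀ g, matR ρ' g = matR ρ (emb _ g) := fun g => rfl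
  refine deg_le_of_idem ρ' (EE hQ0 (matR ρ) ψ 0) (EE_idem _ _ ψ 0) ?_ (s0 hQ₂) ?_ D hD
  · intro g
    have := conj_emb hQ0 (matR ρ) (ψ := ψ) g 0
    rw [map_zero] at this
    rw [hm]
    exact this
  · rw [hm, trace_zero_part2 hQ₂ (matR ρ) hψ hE a hsep hsup h1]
    intro h
    have h2 : (Fintype.card F : ℂ) * (Fintype.card W₂ : ℂ) = 0 := by linear_combination -h
    have h3 : Fintype.card F * Fintype.card W₂ = 0 := by exact_mod_cast h2
    have h4 : 0 < Fintype.card F * Fintype.card W₂ := Nat.mul_pos Fintype.card_pos Fintype.card_pos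
    omega

end main

end Cfsg.Agent.Lib.OMinus44B
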