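import Mathlib
import Cfsg.Agent.Lib.OMinus44B
import Cfsg.Agent.Lib.OMinG

/-!
# Minimal degrees of orthogonal groups: the core theorem over all fields
-/

set_option autoImplicit false
set_option linter.unusedSectionVars false
set_option linter.unusedVariables false
set_option linter.unnecessarySeqFocus false

namespace Cfsg.Agent.Lib.OMinus44C

open QuadraticMap Matrix Cfsg Cfsg.Agent.Lib.OrthoBasic Cfsg.Agent.Lib.OrthoSiegel
  Cfsg.Agent.Lib.OrthoGen Cfsg.Agent.Lib.OrthoSimple Cfsg.Agent.Lib.OrthoFinal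
  Cfsg.Agent.Lib.FourierAb Cfsg.Agent.Lib.OMinA Cfsg.Agent.Lib.OMinB Cfsg.Agent.Lib.OMinC
  Cfsg.Agent.Lib.OMinD Cfsg.Agent.Lib.OMinE Cfsg.Agent.Lib.OMinF Cfsg.Agent.Lib.SLMinB
  Cfsg.Agent.Lib.OrthoCount Cfsg.Agent.Lib.OMinus44A Cfsg.Agent.Lib.OMinus44B
open scoped commutatorElement

section sep

variable {F : Type*} [Field F] {V : Type*} [AddCommGroup V] [Module F V] [FiniteDimensional F V]
  {Q : QuadraticForm F V}

/-- Room in dimension at least three. -/
lemma sep_of_finrank (hQ : Nondeg Q) (hdim : 3 ≤ Module.finrank F V) (z : V) :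
    ∃ u v, polar Q u v = 1 ∧ polar Q z u = 0 ∧ polar Q z v = 0 := by
  classical
  have hker : 2 ≤ Module.finrank F (LinearMap.ker (polarBilin Q z)) := by
    have h1 := LinearMap.finrank_range_add_finrank_ker (polarBilin Q z)
    have h2 : Module.finrank F (LinearMap.range (polarBilin Q z)) ≤ 1 := by
      have := Submodule.finrank_le (LinearMap.range (polarBilin Q z))
      simpa using this
    omega
  have hspan : Module.finrank F (Submodule.span F {z}) ≤ 1 := by
    rw [← Finset.coe_singleton z]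
    exact (finrank_span_finset_le_card ({z} : Finset V) (R := F)).trans (by simp)
  obtain ⟨u, hu, hun⟩ : ∃ u, u ∈ LinearMap.ker (polarBilin Q z) ∧ u ∉ Submodule.span F {z} := by
    by_contra hcon
    push Not at hcon
    have hle : LinearMap.ker (polarBilin Q z) ≤ Submodule.span F {z} := hcon
    have := Submodule.finrank_mono hle
    omega
  have hb : ∀ c : F, u ≠ c • z := by
    rintro c rfl
    exact hun (Submodule.smul_mem _ _ (Submodule.mem_span_singleton_self z))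
  obtain ⟨x, hx1, hx2⟩ := exists_sep hQ hb
  refine ⟨u, x, ?_, ?_, ?_⟩
  · rw [polar_comm]
    exact hx1
  · simpa using LinearMap.mem_ker.1 hu
  · rw [polar_comm]
    exact hx2

end sep

section core

variable {F : Type*} [Field F] [Fintype F] {W₂ : Type*} [AddCommGroup W₂] [Module F W₂] [Fintype W₂]
  [FiniteDimensional F W₂] {Q₂ : QuadraticForm F W₂} (hQ₂ : Nondeg Q₂) {k : ℕ}

local notation "hQ0" => hypQ_nondeg (hypQ_nondeg hQ₂)

/-- The total rank of a family of idempotents is at most the degree. -/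
lemma sum_rk_le (R : siegelE (hypQ (hypQ (hypQ Q₂))) →* Matrix (Fin k) (Fin k) ℂ) {ψ : AddChar F ℂ}
    (hψ : ψ.IsPrimitive) (S : Finset (F × F × (F × F × W₂))) :
    ∑ l ∈ S, rk (EE hQ0 R ψ l) ≤ k := by
  classical
  have hsum := sum_rk (rr_zero hQ0 R) (rr_add hQ0 R) hψ hQ0
  calc ∑ l ∈ S, rk (EE hQ0 R ψ l) ≤ ∑ l, rk (EE hQ0 R ψ l) :=
        Finset.sum_le_sum_of_subset (Finset.subset_univ _)
    _ = k := hsum

/-- The count of a level as a finset. -/
lemma card_filter_level (a : F) (ha : a ≠ 0) [DecidablePred fun l : F × F × (F × F × W₂) => hypQ (hypQ Q₂) l = a] :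
    (Finset.univ.filter (fun l : F × F × (F × F × W₂) => hypQ (hypQ Q₂) l = a)).card
      = Nat.card {l // hypQ (hypQ Q₂) l = a} := by
  rw [Nat.card_eq_fintype_card, Fintype.card_subtype]

set_option maxHeartbeats 4000000 in
/-- **Core theorem**, over all fields. -/
theorem core2 {u₂ z₂ : W₂} (huz : polar Q₂ u₂ z₂ ≠ 0)
    (hE : commutator (OG (hypQ (hypQ (hypQ Q₂)))) ≤ siegelE (hypQ (hypQ (hypQ Q₂))))
    (hsep0 : Sep Q₂ 0)
    (ρ : Representation ℂ (siegelE (hypQ (hypQ (hypQ Q₂)))) (Fin k → ℂ)) (hρ : ρ.IsIrreducible)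
    (hk : 2 ≤ k) (D : ℕ)
    (hD : ∀ (n : ℕ) (ρ' : Representation ℂ (siegelE (hypQ (hypQ Q₂))) (Fin n → ℂ)), ρ'.IsIrreducible →
      (∃ g, ρ' g ≠ 1) → D ≤ n) :
    (∃ a : F, a ≠ 0 ∧ Nat.card {l // hypQ (hypQ Q₂) l = a} ≤ k ∧
      (2 * Nat.card {l // hypQ (hypQ Q₂) l = a} ≤ k ∨
        (∃ b : F, b ≠ a ∧ b ≠ 0 ∧ Nat.card {l // hypQ (hypQ Q₂) l = a} + Nat.card {l // hypQ (hypQ Q₂) l = b} ≤ k) ∨
        Nat.card {l // hypQ (hypQ Q₂) l = a} + (Nat.card {l // hypQ (hypQ Q₂) l = 0} - 1) ≤ k ∨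
        (Sep Q₂ a → Nat.card {l // hypQ (hypQ Q₂) l = a} + D ≤ k))) ∨
    2 * (Nat.card {l // hypQ (hypQ Q₂) l = 0} - 1) ≤ k ∨
    (∃ ψ : AddChar F ℂ, ψ.IsPrimitive ∧
      (∀ l, hypQ (hypQ Q₂) l ≠ 0 → EE hQ0 (matR ρ) ψ l = 0) ∧
      (∀ l, l ≠ 0 → hypQ (hypQ Q₂) l = 0 → rk (EE hQ0 (matR ρ) ψ l) = 1) ∧
      k = rk (EE hQ0 (matR ρ) ψ 0) + (Nat.card {l // hypQ (hypQ Q₂) l = 0} - 1) ∧
      D ≤ rk (EE hQ0 (matR ρ) ψ 0) ∧
      ∃ Zc : ℕ, (Fintype.card F * Fintype.card F - 1) * Zc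
          = (Nat.card {v // hypQ (hypQ (hypQ Q₂)) v = 0} - 1) * (Nat.card {l // hypQ (hypQ Q₂) l = 0} - 1) ∧
        k ∣ Zc * (Fintype.card F * Fintype.card (F × F × W₂))) := by
  classical
  obtain ⟨ψ, hψ⟩ := Cfsg.Agent.Lib.SLMinC.exists_primitive F
  have hnt : ∃ g, matR ρ g ≠ 1 := by
    obtain ⟨g, hg⟩ := Cfsg.Agent.Lib.SLMinC.nontriv_of_two_le hk ρ hρ
    exact ⟨g, fun h => hg (rho_eq_one ρ h)⟩
  have huz' : polar (hypQ Q₂) ((0, 0, u₂) : F × F × W₂) (0, 0, z₂) ≠ 0 := by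
    rw [hypQ_polar]
    simpa using huz
  have fr : Frame (hypQ (hypQ (hypQ Q₂))) := frameHyp _ _ huz'
  have haa0 : aa F W₂ ≠ 0 := by
    intro h
    have := congrArg (fun t : F × F × (F × F × W₂) => t.1) h
    simp [aa] at this
  obtain ⟨l₀, hl₀, hEl₀⟩ := exists_support hQ0 (matR ρ) hψ fr haa0 hnt
  have hrk : ∀ l l', hypQ (hypQ Q₂) l = hypQ (hypQ Q₂) l' → l ≠ 0 → l' ≠ 0 →
      rk (EE hQ0 (matR ρ) ψ l) = rk (EE hQ0 (matR ρ) ψ l') := fun l l' h h1 h2 =>
    rk_level hQ0 (matR ρ) (hypQ_basePair (hypQ Q₂)) pair_univ h h1 h2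
  have hsum := sum_rk (rr_zero hQ0 (matR ρ)) (rr_add hQ0 (matR ρ)) hψ hQ0
  have hle := sum_rk_le hQ₂ (matR ρ) hψ
  by_cases hnons : ∃ l, EE hQ0 (matR ρ) ψ l ≠ 0 ∧ hypQ (hypQ Q₂) l ≠ 0
  · obtain ⟨l, hl, ha⟩ := hnons
    left
    set a := hypQ (hypQ Q₂) l with ha_def
    have hl0 : l ≠ 0 := by
      rintro rfl
      exact ha (map_zero _)
    have hnz : ∀ {x : F × F × (F × F × W₂)}, hypQ (hypQ Q₂) x = a → x ≠ 0 := by
      rintro x hx rfl
      exact ha (by rw [← hx, map_zero])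
    have hrpos : 1 ≤ rk (EE hQ0 (matR ρ) ψ l) := rk_pos_of_ne (EE_idem _ _ ψ _) hl
    have hlevel : ∀ x, hypQ (hypQ Q₂) x = a → rk (EE hQ0 (matR ρ) ψ x) = rk (EE hQ0 (matR ρ) ψ l) :=
      fun x hx => hrk x l hx (hnz hx) hl0
    have hLa : Nat.card {l // hypQ (hypQ Q₂) l = a} = (Finset.univ.filter (fun x : F × F × (F × F × W₂) => hypQ (hypQ Q₂) x = a)).card := by
      rw [Nat.card_eq_fintype_card, Fintype.card_subtype]
    have hsumA : ∑ x ∈ Finset.univ.filter (fun x : F × F × (F × F × W₂) => hypQ (hypQ Q₂) x = a), rk (EE hQ0 (matR ρ) ψ x)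
        = Nat.card {l // hypQ (hypQ Q₂) l = a} * rk (EE hQ0 (matR ρ) ψ l) := by
      rw [hLa, Finset.sum_congr rfl (fun x hx => hlevel x (Finset.mem_filter.1 hx).2)]
      simp
    have h1 : Nat.card {l // hypQ (hypQ Q₂) l = a} ≤ k := by
      have := hle (Finset.univ.filter (fun x : F × F × (F × F × W₂) => hypQ (hypQ Q₂) x = a))
      rw [hsumA] at this
      calc _ ≤ Nat.card {l // hypQ (hypQ Q₂) l = a} * rk (EE hQ0 (matR ρ) ψ l) := Nat.le_mul_of_pos_right _ hrpos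
        _ ≤ k := this
    refine ⟨a, ha, h1, ?_⟩
    by_cases hr2 : 2 ≤ rk (EE hQ0 (matR ρ) ψ l)
    · left
      have := hle (Finset.univ.filter (fun x : F × F × (F × F × W₂) => hypQ (hypQ Q₂) x = a))
      rw [hsumA] at this
      calc 2 * _ = Nat.card {l // hypQ (hypQ Q₂) l = a} * 2 := Nat.mul_comm _ _
        _ ≤ Nat.card {l // hypQ (hypQ Q₂) l = a} * rk (EE hQ0 (matR ρ) ψ l) := Nat.mul_le_mul_left _ hr2
        _ ≤ k := this
    · right
      have hr1 : rk (EE hQ0 (matR ρ) ψ l) = 1 := by omega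
      by_cases hother : ∃ x, x ≠ 0 ∧ hypQ (hypQ Q₂) x ≠ a ∧ EE hQ0 (matR ρ) ψ x ≠ 0
      · obtain ⟨x, hx0, hxa, hxE⟩ := hother
        have hxpos : 1 ≤ rk (EE hQ0 (matR ρ) ψ x) := rk_pos_of_ne (EE_idem _ _ ψ _) hxE
        -- the union of the two levels
        set b := hypQ (hypQ Q₂) x with hb_def
        set Sb := Finset.univ.filter (fun y : F × F × (F × F × W₂) => y ≠ 0 ∧ hypQ (hypQ Q₂) y = b) with hSb
        have hdisj : Disjoint (Finset.univ.filter (fun x : F × F × (F × F × W₂) => hypQ (hypQ Q₂) x = a)) Sb := by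
          rw [Finset.disjoint_left]
          intro y hy hy'
          have h1 := (Finset.mem_filter.1 hy).2
          have h2 := (Finset.mem_filter.1 hy').2.2
          exact hxa (h2.symm.trans h1)
        have hsumU := hle (Finset.univ.filter (fun x : F × F × (F × F × W₂) => hypQ (hypQ Q₂) x = a) ∪ Sb)
        rw [Finset.sum_union hdisj, hsumA, hr1, mul_one] at hsumU
        have hsumb : Sb.card ≤ ∑ y ∈ Sb, rk (EE hQ0 (matR ρ) ψ y) := by
          calc Sb.card = ∑ _y ∈ Sb, 1 := by simp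
            _ ≤ _ := Finset.sum_le_sum fun y hy => by
              have hy' := (Finset.mem_filter.1 hy).2
              rw [hrk y x hy'.2 hy'.1 hx0]
              exact hxpos
        have hcl := card_level (Q₀ := hypQ (hypQ Q₂)) b
        rw [← hSb] at hcl
        by_cases hb0 : b = 0
        · right; left
          rw [if_pos hb0] at hcl
          have h0 : Nat.card {l // hypQ (hypQ Q₂) l = 0} = Nat.card {l // hypQ (hypQ Q₂) l = b} := by
            rw [hb0]
          omega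
        · left
          rw [if_neg hb0, add_zero] at hcl
          exact ⟨b, hxa, hb0, by omega⟩
      · right; right
        push Not at hother
        intro hsepa
        have hDr := rank_one_bound2 hQ₂ ρ hψ hE a hsepa (fun y hy hya => hother y hy hya)
          (fun y hy hya => by rw [hlevel y hya, hr1]) D hD
        have hsumU := hle (insert 0 (Finset.univ.filter (fun x : F × F × (F × F × W₂) => hypQ (hypQ Q₂) x = a)))
        rw [Finset.sum_insert (by
          simp only [Finset.mem_filter, Finset.mem_univ, true_and]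
          intro h
          exact ha (by rw [← h, map_zero])), hsumA, hr1, mul_one] at hsumU
        omega
  · right
    push Not at hnons
    have hns : ∀ l, hypQ (hypQ Q₂) l ≠ 0 → EE hQ0 (matR ρ) ψ l = 0 := by
      intro l hl
      by_contra h
      exact hl (hnons l h)
    have hsl₀ := hnons l₀ hEl₀
    have hm : ∀ l, l ≠ 0 → hypQ (hypQ Q₂) l = 0 →
        rk (EE hQ0 (matR ρ) ψ l) = rk (EE hQ0 (matR ρ) ψ l₀) := fun l hl hQl =>
      hrk l l₀ (hQl.trans hsl₀.symm) hl hl₀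
    have hdeg := deg_sing hQ0 (matR ρ) hψ hns hm
    have hmpos : 1 ≤ rk (EE hQ0 (matR ρ) ψ l₀) := rk_pos_of_ne (EE_idem _ _ ψ _) hEl₀
    by_cases hm2 : 2 ≤ rk (EE hQ0 (matR ρ) ψ l₀)
    · left
      calc 2 * (Nat.card {l // hypQ (hypQ Q₂) l = 0} - 1)
          ≤ rk (EE hQ0 (matR ρ) ψ l₀) * (Nat.card {l // hypQ (hypQ Q₂) l = 0} - 1) :=
            Nat.mul_le_mul_right _ hm2
        _ ≤ _ := le_of_le_of_eq (Nat.le_add_left _ _) hdeg.symm
    · right
      have hm1 : rk (EE hQ0 (matR ρ) ψ l₀) = 1 := by omega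
      have hm' : ∀ l, l ≠ 0 → hypQ (hypQ Q₂) l = 0 → rk (EE hQ0 (matR ρ) ψ l) = 1 := fun l hl hQl => by
        rw [hm l hl hQl, hm1]
      rw [hm1, one_mul] at hdeg
      have hDr := rank_one_bound2 hQ₂ ρ hψ hE 0 hsep0 (fun y _ hy => hns y hy) hm' D hD
      refine ⟨ψ, hψ, hns, hm', hdeg, hDr, ?_⟩
      have : Finite (siegelE (hypQ (hypQ (hypQ Q₂)))) := Cfsg.Agent.Lib.OMinD.finite_E _
      let : Fintype (siegelE (hypQ (hypQ (hypQ Q₂)))) := Fintype.ofFinite _
      refine ⟨(ZZf (hypQ (hypQ (hypQ Q₂)))).card, ?_, ?_⟩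
      · have := card_class (Q := hypQ (hypQ (hypQ Q₂))) (hypQ_nondeg hQ0)
          (s := Nat.card {l // hypQ (hypQ Q₂) l = 0} - 1)
          (fun a ha hQa => card_XXf_all hQ0 univ_three ha hQa)
        rw [this, card_sing]
      · have hval := trace_root (hypQ_nondeg hQ₂) (matR ρ) hψ hns hm'
        have hcast : ((Fintype.card F * Fintype.card (F × F × W₂) : ℕ) : ℂ)
            = (Fintype.card F : ℂ) * (Fintype.card (F × F × W₂) : ℂ) := by push_cast; ring
        apply dvd_of_class ρ hρ _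
        · intro z g hz
          obtain ⟨a, b, hab⟩ := mem_ZZf.1 hz
          exact mem_ZZf.2 ⟨_, _, hab.conj (g : OG _)⟩
        · intro z hz
          have htr : ∀ u : F × F × (F × F × W₂), u ≠ 0 → hypQ (hypQ Q₂) u = 0 →
              ∃ h : siegelE (hypQ (hypQ Q₂)), (h : OG (hypQ (hypQ Q₂))).1 u = aa F W₂ := by
            intro u hu hQu
            obtain ⟨h, hh, hhu⟩ := E_transitive hQ0 (hypQ_basePair (hypQ Q₂)) pair_univ
              (hQu.trans aa_sing.symm) hu haa0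
            exact ⟨⟨h, hh⟩, hhu⟩
          obtain ⟨g, hg⟩ := root_conj hQ0 univ_three htr hz
          have h3 : z = g⁻¹ * xx hQ0 (aa F W₂) * g := by
            rw [← hg]
            group
          have h4 : (matR ρ z).trace = (matR ρ (xx hQ0 (aa F W₂))).trace := by
            rw [h3]
            exact trace_conj_gen (matR ρ) g _
          rw [hcast, ← matR_trace, h4]
          exact hval

end core

end Cfsg.Agent.Lib.OMinus44C
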