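import Mathlib
import Cfsg.Agent.Lib.OMinus44C

/-!
# A small representation lemma: a real element in the centre of an extraspecial group of order 27

If `z` is a commutator of `d, c` of order 3 and the traces of `z` and `z⁻¹` on the image of an
idempotent of small rank agree, then `z` acts trivially on this image.
-/

set_option autoImplicit false
set_option linter.unusedSectionVars false
set_option linter.unusedVariables false
set_option linter.unnecessarySeqFocus false

namespace Cfsg.Agent.Lib.OMinus44E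

open Matrix Cfsg.Agent.Lib.FourierAb

section cube

variable {k : ℕ}

/-- Spectral idempotent of a matrix of order dividing three. -/
noncomputable def ee (Y : Matrix (Fin k) (Fin k) ℂ) (α : ℂ) : Matrix (Fin k) (Fin k) ℂ :=
  (1 / 3 : ℂ) • (1 + α • Y + (α * α) • (Y * Y))

variable {Y : Matrix (Fin k) (Fin k) ℂ} (hY : Y * (Y * Y) = 1)

include hY in
lemma Y_mul_ee {α : ℂ} (hα : α * (α * α) = 1) : Y * ee Y α = (α * α) • ee Y α := by
  have h1 : Y * (1 + α • Y + (α * α) • (Y * Y)) = (α * α) • (1 + α • Y + (α * α) • (Y * Y)) := by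
    simp only [Matrix.mul_add, Matrix.mul_one, Matrix.mul_smul, hY, smul_add, smul_smul]
    have e1 : α * α * α = 1 := by rw [mul_assoc]; exact hα
    have e2 : α * α * (α * α) = α := by
      calc α * α * (α * α) = α * (α * (α * α)) := by ring
        _ = α := by rw [hα, mul_one]
    rw [e1, e2, one_smul]
    abel
  rw [ee, Matrix.mul_smul, h1, smul_comm]

include hY in
lemma ee_mul_ee {α β : ℂ} (hα : α * (α * α) = 1) (hβ : β * (β * β) = 1) :
    ee Y α * ee Y β = ((1 / 3 : ℂ) * (1 + α * (β * β) + (α * α) * β)) • ee Y β := by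
  have h1 : Y * ee Y β = (β * β) • ee Y β := Y_mul_ee hY hβ
  have h2 : (Y * Y) * ee Y β = β • ee Y β := by
    rw [Matrix.mul_assoc, h1, Matrix.mul_smul, h1, smul_smul]
    have : β * β * (β * β) = β := by
      calc β * β * (β * β) = β * (β * (β * β)) := by ring
        _ = β := by rw [hβ, mul_one]
    rw [this]
  rw [ee, Matrix.smul_mul, Matrix.add_mul, Matrix.add_mul, Matrix.smul_mul, Matrix.smul_mul, h1, h2,
    Matrix.one_mul, smul_smul, smul_smul]
  have e : ee Y β + (α * (β * β)) • ee Y β + (α * α * β) • ee Y β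
      = (1 + α * (β * β) + α * α * β) • ee Y β := by
    simp only [add_smul, one_smul]
  rw [e, smul_smul]

/-- The sum of the three idempotents. -/
lemma sum_ee {ω : ℂ} (h : 1 + ω + ω * ω = 0) (h3 : ω * (ω * ω) = 1) :
    ee Y 1 + ee Y ω + ee Y (ω * ω) = 1 := by
  simp only [ee]
  have h4 : ω * ω * (ω * ω) = ω := by
    calc ω * ω * (ω * ω) = ω * (ω * (ω * ω)) := by ring
      _ = ω := by rw [h3, mul_one]
  rw [h4, one_smul, mul_one, one_smul, ← smul_add, ← smul_add]
  have e : (1 + Y + Y * Y + (1 + ω • Y + (ω * ω) • (Y * Y)) + (1 + (ω * ω) • Y + ω • (Y * Y)))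
      = (3 : ℂ) • (1 : Matrix (Fin k) (Fin k) ℂ) + (1 + ω + ω * ω) • Y + (1 + ω + ω * ω) • (Y * Y) := by
    simp only [add_smul, one_smul]
    have e3 : (3 : ℂ) • (1 : Matrix (Fin k) (Fin k) ℂ) = 1 + 1 + 1 := by
      rw [show (3 : ℂ) = 1 + 1 + 1 by norm_num, add_smul, add_smul, one_smul]
    rw [e3]
    abel
  rw [e, h, zero_smul, zero_smul, add_zero, add_zero, smul_smul]
  norm_num

end cube

section main

variable {G : Type*} [Group G] {k : ℕ} (R : G →* Matrix (Fin k) (Fin k) ℂ)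

lemma R_cube {z : G} (hz : z ^ 3 = 1) : R z * (R z * R z) = 1 := by
  rw [← map_mul, ← map_mul, ← map_one R, ← hz]
  congr 1
  rw [pow_succ, pow_two, mul_assoc]

lemma ee_comm {M Y : Matrix (Fin k) (Fin k) ℂ} (h : M * Y = Y * M) (α : ℂ) : M * ee Y α = ee Y α * M := by
  simp only [ee, Matrix.mul_smul, Matrix.smul_mul, Matrix.mul_add, Matrix.add_mul, Matrix.mul_one,
    Matrix.one_mul]
  congr 2
  · rw [h]
  · rw [← Matrix.mul_assoc, h, Matrix.mul_assoc, h, Matrix.mul_assoc]

lemma cube_idem {Y P : Matrix (Fin k) (Fin k) ℂ} (hY : Y * (Y * Y) = 1) (hP : P * P = P)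
    (hc : P * Y = Y * P) {α : ℂ} (hα : α * (α * α) = 1) :
    (ee Y α * P) * (ee Y α * P) = ee Y α * P := by
  have h1 : P * ee Y α = ee Y α * P := ee_comm hc α
  have h2 := ee_mul_ee hY hα hα
  have h3 : ((1 / 3 : ℂ) * (1 + α * (α * α) + α * α * α)) = 1 := by
    have : α * α * α = 1 := by rw [mul_assoc]; exact hα
    rw [this, hα]
    norm_num
  rw [h3, one_smul] at h2
  calc (ee Y α * P) * (ee Y α * P) = ee Y α * (P * ee Y α) * P := by simp only [Matrix.mul_assoc]
    _ = (ee Y α * ee Y α) * (P * P) := by rw [h1]; simp only [Matrix.mul_assoc]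
    _ = _ := by rw [h2, hP]

/-- The main lemma. -/
theorem rep_core {P : Matrix (Fin k) (Fin k) ℂ} (hP : P * P = P) (hPc : ∀ g, R g * P = P * R g)
    {z d c : G} (hz3 : z ^ 3 = 1) (hc3 : c ^ 3 = 1) (hzd : z * d = d * z) (hzc : z * c = c * z)
    (hrel : d * c * d⁻¹ = z * c) (htr : (R z * P).trace = (R z⁻¹ * P).trace) (hr : rk P ≤ 5) :
    R z * P = P := by
  obtain ⟨ω, hω1, hω3⟩ : ∃ ω : ℂ, ω ≠ 1 ∧ ω * (ω * ω) = 1 := by
    have hp := Complex.isPrimitiveRoot_exp 3 (by norm_num)
    refine ⟨_, hp.ne_one (by norm_num), ?_⟩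
    have := hp.pow_eq_one
    calc _ = Complex.exp (2 * Real.pi * Complex.I / ((3 : ℕ) : ℂ)) ^ 3 := by ring
      _ = 1 := this
  have hω0' : (ω : ℂ) ≠ 0 := by
    rintro rfl
    simp at hω3
  have hω0 : 1 + ω + ω * ω = 0 := by
    have h1 : (ω - 1) * (1 + ω + ω * ω) = 0 := by linear_combination hω3
    exact (mul_eq_zero.1 h1).resolve_left (sub_ne_zero.2 hω1)
  have hω4 : ω * ω * (ω * ω) = ω := by
    calc ω * ω * (ω * ω) = ω * (ω * (ω * ω)) := by ring
      _ = ω := by rw [hω3, mul_one]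
  have hωω : (ω * ω) * ((ω * ω) * (ω * ω)) = 1 := by
    rw [hω4]
    calc ω * ω * ω = ω * (ω * ω) := by ring
      _ = 1 := hω3
  have h1cube : (1 : ℂ) * (1 * 1) = 1 := by norm_num
  set Z := R z with hZ
  have hZ3 : Z * (Z * Z) = 1 := R_cube R hz3
  set B := R c with hB
  have hB3 : B * (B * B) = 1 := R_cube R hc3
  set A := R d with hA
  have hPZ : P * Z = Z * P := (hPc z).symm
  have hPB : P * B = B * P := (hPc c).symm
  have hPA : P * A = A * P := (hPc d).symm
  have hZA : Z * A = A * Z := by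
    rw [hZ, hA, ← map_mul, ← map_mul, hzd]
  have hZB : Z * B = B * Z := by
    rw [hZ, hB, ← map_mul, ← map_mul, hzc]
  have hAB : A * B = Z * B * A := by
    have h : d * c = z * c * d := by
      rw [← hrel]
      group
    rw [hA, hB, hZ, ← map_mul, ← map_mul, ← map_mul, h]
  have hzi : R z⁻¹ = Z * Z := by
    have h : z⁻¹ = z * z := by
      rw [inv_eq_iff_mul_eq_one, ← hz3]
      rw [pow_succ, pow_two, mul_assoc]
    rw [h, map_mul]
  -- the idempotents of `Z`
  have hE1 := cube_idem hZ3 hP hPZ h1cube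
  have hEω := cube_idem hZ3 hP hPZ hω3
  have hEωω := cube_idem hZ3 hP hPZ hωω
  have hsum : ee Z 1 * P + ee Z ω * P + ee Z (ω * ω) * P = P := by
    rw [← Matrix.add_mul, ← Matrix.add_mul, sum_ee hω0 hω3, Matrix.one_mul]
  have hZE : ∀ {α : ℂ}, α * (α * α) = 1 → Z * (ee Z α * P) = (α * α) • (ee Z α * P) := by
    intro α hα
    rw [← Matrix.mul_assoc, Y_mul_ee hZ3 hα, Matrix.smul_mul]
  have hZZE : ∀ {α : ℂ}, α * (α * α) = 1 → Z * (Z * (ee Z α * P)) = α • (ee Z α * P) := by
    intro α hα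
    rw [hZE hα, Matrix.mul_smul, hZE hα, smul_smul]
    have : α * α * (α * α) = α := by
      calc α * α * (α * α) = α * (α * (α * α)) := by ring
        _ = α := by rw [hα, mul_one]
    rw [this]
  -- the ranks
  set r₁ := rk (ee Z 1 * P) with hr₁
  set r₂ := rk (ee Z ω * P) with hr₂
  set r₃ := rk (ee Z (ω * ω) * P) with hr₃
  have ht1 : (ee Z 1 * P).trace = r₁ := trace_eq_rk _ hE1
  have ht2 : (ee Z ω * P).trace = r₂ := trace_eq_rk _ hEω
  have ht3 : (ee Z (ω * ω) * P).trace = r₃ := trace_eq_rk _ hEωω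
  have hrP : rk P = r₁ + r₂ + r₃ := by
    have h : ((rk P : ℕ) : ℂ) = P.trace := (trace_eq_rk P hP).symm
    have h2 : P.trace = (r₁ : ℂ) + r₂ + r₃ := by
      conv_lhs => rw [← hsum]
      rw [Matrix.trace_add, Matrix.trace_add, ht1, ht2, ht3]
    exact_mod_cast h.trans h2
  have htZ : (Z * P).trace = (r₁ : ℂ) + (ω * ω) * r₂ + ω * r₃ := by
    have e : Z * P = Z * (ee Z 1 * P) + Z * (ee Z ω * P) + Z * (ee Z (ω * ω) * P) := by
      rw [← Matrix.mul_add, ← Matrix.mul_add, hsum]
    rw [e, Matrix.trace_add, Matrix.trace_add, hZE h1cube, hZE hω3, hZE hωω, Matrix.trace_smul,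
      Matrix.trace_smul, Matrix.trace_smul, ht1, ht2, ht3, hω4]
    simp
  have htZZ : (R z⁻¹ * P).trace = (r₁ : ℂ) + ω * r₂ + (ω * ω) * r₃ := by
    have e : R z⁻¹ * P = Z * (Z * (ee Z 1 * P)) + Z * (Z * (ee Z ω * P)) + Z * (Z * (ee Z (ω * ω) * P)) := by
      rw [hzi, ← Matrix.mul_add, ← Matrix.mul_add, ← Matrix.mul_add, ← Matrix.mul_add, hsum, Matrix.mul_assoc]
    rw [e, Matrix.trace_add, Matrix.trace_add, hZZE h1cube, hZZE hω3, hZZE hωω, Matrix.trace_smul,
      Matrix.trace_smul, Matrix.trace_smul, ht1, ht2, ht3]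
    simp
  have hr23 : r₂ = r₃ := by
    have h := htZ.symm.trans (htr.trans htZZ)
    have h1 : (ω * ω - ω) * ((r₂ : ℂ) - r₃) = 0 := by linear_combination h
    have h2 : ω * ω - ω ≠ 0 := by
      have : ω * ω - ω = ω * (ω - 1) := by ring
      rw [this]
      exact mul_ne_zero hω0' (sub_ne_zero.2 hω1)
    have h3 := (mul_eq_zero.1 h1).resolve_left h2
    have h4 : (r₂ : ℂ) = r₃ := sub_eq_zero.1 h3
    exact_mod_cast h4
  -- the idempotents of `B` in the image of the second idempotent of `Z`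
  set E := ee Z ω * P with hE
  have hEB : B * E = E * B := by
    rw [hE, ← Matrix.mul_assoc, ee_comm hZB.symm ω, Matrix.mul_assoc, ← hPB, Matrix.mul_assoc]
  have hEA : A * E = E * A := by
    rw [hE, ← Matrix.mul_assoc, ee_comm hZA.symm ω, Matrix.mul_assoc, ← hPA, Matrix.mul_assoc]
  have hF : ∀ {α : ℂ}, α * (α * α) = 1 → (ee B α * E) * (ee B α * E) = ee B α * E :=
    fun hα => cube_idem hB3 hEω hEB.symm hα
  have hAB2 : A * (B * B) = Z * Z * (B * B) * A := by
    calc A * (B * B) = (A * B) * B := (Matrix.mul_assoc _ _ _).symm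
      _ = (Z * B * A) * B := by rw [hAB]
      _ = Z * B * (A * B) := Matrix.mul_assoc _ _ _
      _ = Z * B * (Z * B * A) := by rw [hAB]
      _ = Z * (B * Z) * B * A := by simp only [Matrix.mul_assoc]
      _ = Z * (Z * B) * B * A := by rw [hZB]
      _ = _ := by simp only [Matrix.mul_assoc]
  have hZEω : Z * E = (ω * ω) • E := hZE hω3
  have hZZEω : Z * (Z * E) = ω • E := hZZE hω3
  have hconj : ∀ α : ℂ, A * (ee B α * E) = (ee B (α * (ω * ω)) * E) * A := by
    intro α
    have e1 : A * ee B α = (1 / 3 : ℂ) • ((1 + α • (Z * B) + (α * α) • (Z * Z * (B * B))) * A) := by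
      simp only [ee, Matrix.mul_smul, Matrix.mul_add, Matrix.add_mul, Matrix.smul_mul, Matrix.mul_one,
        Matrix.one_mul]
      rw [hAB, hAB2]
    have e2 : (Z * B) * E = (ω * ω) • (B * E) := by
      rw [hZB, Matrix.mul_assoc, hZEω, Matrix.mul_smul]
    have e3 : (Z * Z * (B * B)) * E = ω • ((B * B) * E) := by
      have : Z * Z * (B * B) = (B * B) * (Z * Z) := by
        calc Z * Z * (B * B) = Z * (Z * B) * B := by simp only [Matrix.mul_assoc]
          _ = Z * (B * Z) * B := by rw [hZB]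
          _ = (Z * B) * (Z * B) := by simp only [Matrix.mul_assoc]
          _ = (B * Z) * (B * Z) := by rw [hZB]
          _ = B * (Z * B) * Z := by simp only [Matrix.mul_assoc]
          _ = B * (B * Z) * Z := by rw [hZB]
          _ = _ := by simp only [Matrix.mul_assoc]
      rw [this, Matrix.mul_assoc, Matrix.mul_assoc Z Z E, hZZEω, Matrix.mul_smul]
    calc A * (ee B α * E) = (A * ee B α) * E := (Matrix.mul_assoc _ _ _).symm
      _ = (1 / 3 : ℂ) • ((1 + α • (Z * B) + (α * α) • (Z * Z * (B * B))) * (A * E)) := by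
          rw [e1, Matrix.smul_mul, Matrix.mul_assoc]
      _ = (1 / 3 : ℂ) • (((1 + α • (Z * B) + (α * α) • (Z * Z * (B * B))) * E) * A) := by
          rw [hEA, Matrix.mul_assoc _ E A]
      _ = (1 / 3 : ℂ) • ((E + (α * (ω * ω)) • (B * E) + ((α * α) * ω) • ((B * B) * E)) * A) := by
          simp only [Matrix.add_mul, Matrix.smul_mul, Matrix.one_mul]
          rw [e2, e3]
          simp only [Matrix.smul_mul, smul_smul]
      _ = _ := by
          have h7 : (α * (ω * ω)) * (α * (ω * ω)) = α * α * ω := by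
            calc (α * (ω * ω)) * (α * (ω * ω)) = α * α * (ω * ω * (ω * ω)) := by ring
              _ = α * α * ω := by rw [hω4]
          simp only [ee, h7, Matrix.smul_mul, Matrix.add_mul, Matrix.one_mul]
  have hinv1 : A * R d⁻¹ = 1 := by rw [hA, ← map_mul, mul_inv_cancel, map_one]
  have hinv2 : R d⁻¹ * A = 1 := by rw [hA, ← map_mul, inv_mul_cancel, map_one]
  have hsumF : ee B 1 * E + ee B ω * E + ee B (ω * ω) * E = E := by
    rw [← Matrix.add_mul, ← Matrix.add_mul, sum_ee hω0 hω3, Matrix.one_mul]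
  have hrk1 : rk (ee B 1 * E) = rk (ee B (ω * ω) * E) := by
    have := rk_eq_of_conj hinv1 hinv2 (hF h1cube) (hF (α := 1 * (ω * ω)) (by rw [one_mul]; exact hωω)) (hconj 1)
    rwa [one_mul] at this
  have hrk2 : rk (ee B (ω * ω) * E) = rk (ee B ω * E) := by
    have := rk_eq_of_conj hinv1 hinv2 (hF hωω) (hF (α := (ω * ω) * (ω * ω)) (by rw [hω4]; exact hω3)) (hconj (ω * ω))
    rwa [hω4] at this
  have hr2 : r₂ = 3 * rk (ee B 1 * E) := by
    have h : ((r₂ : ℕ) : ℂ) = E.trace := (trace_eq_rk E hEω).symm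
    have h2 : E.trace = ((rk (ee B 1 * E) : ℕ) : ℂ) + (rk (ee B ω * E) : ℕ) + (rk (ee B (ω * ω) * E) : ℕ) := by
      conv_lhs => rw [← hsumF]
      rw [Matrix.trace_add, Matrix.trace_add, trace_eq_rk _ (hF h1cube), trace_eq_rk _ (hF hω3),
        trace_eq_rk _ (hF hωω)]
    have h3 : r₂ = rk (ee B 1 * E) + rk (ee B ω * E) + rk (ee B (ω * ω) * E) := by
      exact_mod_cast h.trans h2
    omega
  have hr20 : r₂ = 0 := by omega
  have hr30 : r₃ = 0 := by omega
  have hE20 : E = 0 := by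
    by_contra h
    have := rk_pos_of_ne hEω h
    omega
  have hE30 : ee Z (ω * ω) * P = 0 := by
    by_contra h
    have := rk_pos_of_ne hEωω h
    omega
  rw [hE20, hE30, add_zero, add_zero] at hsum
  calc Z * P = Z * (ee Z 1 * P) := by rw [hsum]
    _ = (1 * 1 : ℂ) • (ee Z 1 * P) := hZE h1cube
    _ = P := by rw [hsum]; simp

end main

end Cfsg.Agent.Lib.OMinus44E
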