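import Mathlib
import Cfsg.Agent.Lib.OMinus44C
import Cfsg.Agent.Lib.OMinus44E

/-!
# The form of minus type of dimension six in characteristic two, as an orthogonal sum of planes

Explicit elements of order three and an inverting element.
-/

set_option autoImplicit false
set_option linter.unusedSectionVars false
set_option linter.unusedVariables false
set_option linter.unnecessarySeqFocus false
set_option linter.unusedSimpArgs false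

namespace Cfsg.Agent.Lib.OMinus44F

open QuadraticMap Matrix Cfsg Cfsg.Agent.Lib.OrthoBasic Cfsg.Agent.Lib.OrthoSiegel
  Cfsg.Agent.Lib.OrthoGen Cfsg.Agent.Lib.OrthoSimple Cfsg.Agent.Lib.OrthoFinal
  Cfsg.Agent.Lib.FourierAb Cfsg.Agent.Lib.OMinA Cfsg.Agent.Lib.OMinB Cfsg.Agent.Lib.OMinC
  Cfsg.Agent.Lib.OMinD Cfsg.Agent.Lib.OMinE Cfsg.Agent.Lib.OMinF Cfsg.Agent.Lib.SLMinB
  Cfsg.Agent.Lib.OrthoCount Cfsg.Agent.Lib.OMinus44A Cfsg.Agent.Lib.OMinus44B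
  Cfsg.Agent.Lib.OMinus44C Cfsg.Agent.Lib.OMinH
open scoped commutatorElement

section squares

variable {F : Type*} [Field F] {V : Type*} [AddCommGroup V] [Module F V] {Q : QuadraticForm F V}

/-- Squares lie in the commutator subgroup if the group is generated by the commutator subgroup
and involutions. -/
lemma sq_mem_comm (hgen : genR Q = ⊤) (hE : siegelE Q ≤ commutator (OG Q)) (g : OG Q) :
    g * g ∈ commutator (OG Q) := by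
  have hg : g ∈ genR Q := by rw [hgen]; trivial
  induction hg using Subgroup.closure_induction with
  | mem x hx =>
    rcases hx with ⟨e, y, hs⟩ | ⟨x', hs⟩
    · have h : x ∈ commutator (OG Q) := hE hs.mem
      exact mul_mem h h
    · have h : x * x = 1 := by
        apply OG_ext
        intro v
        rw [Subgroup.coe_mul, LinearEquiv.mul_apply, hs.2, hs.2, reflLin_invol hs.1]
        rfl
      rw [h]
      exact one_mem _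
  | one =>
    rw [mul_one]
    exact one_mem _
  | mul x y _ _ hx hy =>
    have h : x * y * (x * y) = (x * x) * ⁅x⁻¹, y⁆ * (y * y) := by
      rw [commutatorElement_def]
      group
    rw [h]
    exact mul_mem (mul_mem hx (Subgroup.commutator_mem_commutator (Subgroup.mem_top _) (Subgroup.mem_top _))) hy
  | inv x _ hx =>
    have h : x⁻¹ * x⁻¹ = (x * x)⁻¹ := by group
    rw [h]
    exact inv_mem hx

/-- Elements of order three lie in the commutator subgroup. -/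
lemma cube_mem_comm (hgen : genR Q = ⊤) (hE : siegelE Q ≤ commutator (OG Q)) {g : OG Q}
    (hg : g ^ 3 = 1) : g ∈ commutator (OG Q) := by
  have h : g = (g * g) * (g * g) := by
    have h3 : g * g * g = 1 := by
      rw [← hg, pow_succ, pow_two]
    calc g = (g * g * g) * g := by rw [h3, one_mul]
      _ = _ := by group
  rw [h]
  exact sq_mem_comm hgen hE _

/-- The product of two transvections in orthogonal vectors, in characteristic two. -/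
lemma siegel_two (h2 : (2 : F) = 0) {a b : V} (hb : Q b = 1) (ha : Q a = 1) (hab : polar Q a b = 0) (x : V) :
    siegelLin Q (a + b) a x = x + polar Q x a • a + polar Q x b • b := by
  rw [siegelLin_apply, polar_add_right, ha, one_mul]
  have h1 : polar Q x a + (polar Q x a + polar Q x b) = polar Q x b := by
    linear_combination (polar Q x a) * h2
  rw [h1, smul_add, add_smul]
  have hm : - (polar Q x b • b) = polar Q x b • b := by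
    have : (2 : F) • (polar Q x b • b) = 0 := by rw [h2, zero_smul]
    rw [two_smul] at this
    exact neg_eq_of_add_eq_zero_left this
  calc x + (polar Q x a • a + polar Q x b • a) - (polar Q x b • a + polar Q x b • b)
      = x + polar Q x a • a + - (polar Q x b • b) := by abel
    _ = _ := by rw [hm]

end squares

section elements

variable {F : Type*} [Field F] [Fintype F] {W₂ : Type*} [AddCommGroup W₂] [Module F W₂] {Q₂ : QuadraticForm F W₂}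

/-- The sum of three planes. -/
abbrev V3 (F : Type*) := (F × F) × (F × F) × (F × F)

/-- The isometry of the sum of three planes onto two hyperbolic planes and a plane. -/
def Phi (h2 : (2 : F) = 0) (μ : (F × F) ≃ₗ[F] W₂) : V3 F ≃ₗ[F] F × F × (F × F × W₂) where
  toFun v := (v.1.2 + v.2.1.2, v.1.2 + v.2.1.1 + v.2.1.2, v.1.1 + v.2.1.1, v.1.1 + v.1.2 + v.2.1.1, μ v.2.2)
  map_add' x y := by
    refine Prod.ext ?_ (Prod.ext ?_ (Prod.ext ?_ (Prod.ext ?_ ?_))) <;> simp <;> ring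
  map_smul' c x := by
    refine Prod.ext ?_ (Prod.ext ?_ (Prod.ext ?_ (Prod.ext ?_ ?_))) <;> simp <;> ring
  invFun l := ((l.2.2.1 + l.1 + l.2.1, l.2.2.1 + l.2.2.2.1), (l.1 + l.2.1, l.1 + l.2.2.1 + l.2.2.2.1), μ.symm l.2.2.2.2)
  left_inv := by
    rintro ⟨⟨s₁, t₁⟩, ⟨s₂, t₂⟩, w⟩
    refine Prod.ext (Prod.ext ?_ ?_) (Prod.ext (Prod.ext ?_ ?_) ?_)
    · change s₁ + s₂ + (t₁ + t₂) + (t₁ + s₂ + t₂) = s₁
      linear_combination (s₂ + t₁ + t₂) * h2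
    · change s₁ + s₂ + (s₁ + t₁ + s₂) = t₁
      linear_combination (s₁ + s₂) * h2
    · change t₁ + t₂ + (t₁ + s₂ + t₂) = s₂
      linear_combination (t₁ + t₂) * h2
    · change t₁ + t₂ + (s₁ + s₂) + (s₁ + t₁ + s₂) = t₂
      linear_combination (t₁ + s₁ + s₂) * h2
    · simp
  right_inv := by
    rintro ⟨x, y, p, r, w⟩
    refine Prod.ext ?_ (Prod.ext ?_ (Prod.ext ?_ (Prod.ext ?_ ?_)))
    · change p + r + (x + p + r) = x
      linear_combination (p + r) * h2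
    · change p + r + (x + y) + (x + p + r) = y
      linear_combination (x + p + r) * h2
    · change p + x + y + (x + y) = p
      linear_combination (x + y) * h2
    · change p + x + y + (p + r) + (x + y) = r
      linear_combination (x + y + p) * h2
    · simp

variable (h2 : (2 : F) = 0) (μ : (F × F) ≃ₗ[F] W₂)

/-- The form on the sum of three planes. -/
noncomputable def Q3 (Q₂ : QuadraticForm F W₂) : QuadraticForm F (V3 F) :=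
  (hypQ (hypQ Q₂)).comp (Phi h2 μ).toLinearMap

lemma Q3_Phi (Q₂ : QuadraticForm F W₂) (v : V3 F) : hypQ (hypQ Q₂) (Phi h2 μ v) = Q3 h2 μ Q₂ v := rfl

variable (hμ : ∀ s t, Q₂ (μ (s, t)) = s * s + s * t + t * t)

include hμ in
lemma Q3_apply (s₁ t₁ s₂ t₂ s₃ t₃ : F) :
    Q3 h2 μ Q₂ ((s₁, t₁), (s₂, t₂), (s₃, t₃))
      = (s₁ * s₁ + s₁ * t₁ + t₁ * t₁) + (s₂ * s₂ + s₂ * t₂ + t₂ * t₂) + (s₃ * s₃ + s₃ * t₃ + t₃ * t₃) := by
  rw [← Q3_Phi]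
  change hypQ (hypQ Q₂) (t₁ + t₂, t₁ + s₂ + t₂, s₁ + s₂, s₁ + t₁ + s₂, μ (s₃, t₃)) = _
  rw [hypQ_apply, hypQ_apply, hμ]
  linear_combination (t₁ * s₂ + t₁ * t₂ + s₁ * s₂) * h2

include hμ in
lemma Q3_polar (s₁ t₁ s₂ t₂ s₃ t₃ s₁' t₁' s₂' t₂' s₃' t₃' : F) :
    polar (Q3 h2 μ Q₂) ((s₁, t₁), (s₂, t₂), (s₃, t₃)) ((s₁', t₁'), (s₂', t₂'), (s₃', t₃'))
      = (s₁ * t₁' + t₁ * s₁') + (s₂ * t₂' + t₂ * s₂') + (s₃ * t₃' + t₃ * s₃') := by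
  simp only [polar, Prod.mk_add_mk]
  rw [Q3_apply h2 μ hμ, Q3_apply h2 μ hμ, Q3_apply h2 μ hμ]
  linear_combination (s₁ * s₁' + t₁ * t₁' + s₂ * s₂' + t₂ * t₂' + s₃ * s₃' + t₃ * t₃') * h2

/-! ### Linear maps -/

/-- The diagonal element. -/
def dLin : V3 F →ₗ[F] V3 F where
  toFun v := (v.1, (v.2.1.2, v.2.1.1 + v.2.1.2), (v.2.2.1 + v.2.2.2, v.2.2.1))
  map_add' x y := by
    refine Prod.ext rfl (Prod.ext (Prod.ext rfl ?_) (Prod.ext ?_ rfl)) <;> simp <;> ring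
  map_smul' c x := by
    refine Prod.ext rfl (Prod.ext (Prod.ext rfl ?_) (Prod.ext ?_ rfl)) <;> simp <;> ring

/-- The cyclic shift. -/
def cLin : V3 F →ₗ[F] V3 F where
  toFun v := (v.2.1, v.2.2, v.1)
  map_add' x y := rfl
  map_smul' c x := rfl

/-- The scalar of order three. -/
def zLin : V3 F →ₗ[F] V3 F where
  toFun v := ((v.1.1 + v.1.2, v.1.1), (v.2.1.1 + v.2.1.2, v.2.1.1), (v.2.2.1 + v.2.2.2, v.2.2.1))
  map_add' x y := by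
    refine Prod.ext (Prod.ext ?_ rfl) (Prod.ext (Prod.ext ?_ rfl) (Prod.ext ?_ rfl)) <;> simp <;> ring
  map_smul' c x := by
    refine Prod.ext (Prod.ext ?_ rfl) (Prod.ext (Prod.ext ?_ rfl) (Prod.ext ?_ rfl)) <;> simp <;> ring

variable (hQ₂ : Nondeg Q₂)

include hQ₂ in
lemma nondeg_Q3 : Nondeg (Q3 h2 μ Q₂) :=
  Nondeg.congr (Phi h2 μ).symm (fun v => by
    rw [← Q3_Phi, LinearEquiv.apply_symm_apply]) (hypQ_nondeg (hypQ_nondeg hQ₂))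

include hμ in
lemma dLin_Q (v : V3 F) : Q3 h2 μ Q₂ (dLin v) = Q3 h2 μ Q₂ v := by
  obtain ⟨⟨s₁, t₁⟩, ⟨s₂, t₂⟩, s₃, t₃⟩ := v
  change Q3 h2 μ Q₂ ((s₁, t₁), (t₂, s₂ + t₂), (s₃ + t₃, s₃)) = _
  rw [Q3_apply h2 μ hμ, Q3_apply h2 μ hμ]
  linear_combination (t₂ * t₂ + s₂ * t₂ + s₃ * s₃ + s₃ * t₃ ) * h2

include hμ in
lemma cLin_Q (v : V3 F) : Q3 h2 μ Q₂ (cLin v) = Q3 h2 μ Q₂ v := by
  obtain ⟨⟨s₁, t₁⟩, ⟨s₂, t₂⟩, s₃, t₃⟩ := v
  change Q3 h2 μ Q₂ ((s₂, t₂), (s₃, t₃), (s₁, t₁)) = _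
  rw [Q3_apply h2 μ hμ, Q3_apply h2 μ hμ]
  ring

include hμ in
lemma zLin_Q (v : V3 F) : Q3 h2 μ Q₂ (zLin v) = Q3 h2 μ Q₂ v := by
  obtain ⟨⟨s₁, t₁⟩, ⟨s₂, t₂⟩, s₃, t₃⟩ := v
  change Q3 h2 μ Q₂ ((s₁ + t₁, s₁), (s₂ + t₂, s₂), (s₃ + t₃, s₃)) = _
  rw [Q3_apply h2 μ hμ, Q3_apply h2 μ hμ]
  linear_combination (s₁ * s₁ + s₁ * t₁ + s₂ * s₂ + s₂ * t₂ + s₃ * s₃ + s₃ * t₃) * h2

end elements


section og

variable {F : Type*} [Field F] [Fintype F] {W₂ : Type*} [AddCommGroup W₂] [Module F W₂]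
  [FiniteDimensional F W₂] {Q₂ : QuadraticForm F W₂}
  (h2 : (2 : F) = 0) (μ : (F × F) ≃ₗ[F] W₂)
  (hμ : ∀ s t, Q₂ (μ (s, t)) = s * s + s * t + t * t) (hQ₂ : Nondeg Q₂)

/-- The diagonal isometry. -/
noncomputable def d3 : OG (Q3 h2 μ Q₂) := OG.ofLinear (nondeg_Q3 h2 μ hQ₂) dLin (dLin_Q h2 μ hμ)

/-- The shift. -/
noncomputable def c3 : OG (Q3 h2 μ Q₂) := OG.ofLinear (nondeg_Q3 h2 μ hQ₂) cLin (cLin_Q h2 μ hμ)

/-- The scalar isometry. -/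
noncomputable def z3 : OG (Q3 h2 μ Q₂) := OG.ofLinear (nondeg_Q3 h2 μ hQ₂) zLin (zLin_Q h2 μ hμ)

lemma d3_apply (s₁ t₁ s₂ t₂ s₃ t₃ : F) :
    ((d3 h2 μ hμ hQ₂ : OG (Q3 h2 μ Q₂)) : V3 F ≃ₗ[F] V3 F) ((s₁, t₁), (s₂, t₂), (s₃, t₃))
      = ((s₁, t₁), (t₂, s₂ + t₂), (s₃ + t₃, s₃)) := rfl

lemma c3_apply (s₁ t₁ s₂ t₂ s₃ t₃ : F) :
    ((c3 h2 μ hμ hQ₂ : OG (Q3 h2 μ Q₂)) : V3 F ≃ₗ[F] V3 F) ((s₁, t₁), (s₂, t₂), (s₃, t₃))
      = ((s₂, t₂), (s₃, t₃), (s₁, t₁)) := rfl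

lemma z3_apply (s₁ t₁ s₂ t₂ s₃ t₃ : F) :
    ((z3 h2 μ hμ hQ₂ : OG (Q3 h2 μ Q₂)) : V3 F ≃ₗ[F] V3 F) ((s₁, t₁), (s₂, t₂), (s₃, t₃))
      = ((s₁ + t₁, s₁), (s₂ + t₂, s₂), (s₃ + t₃, s₃)) := rfl

lemma one3_apply (v : V3 F) : ((1 : OG (Q3 h2 μ Q₂)) : V3 F ≃ₗ[F] V3 F) v = v := rfl

lemma z3_cube : z3 h2 μ hμ hQ₂ ^ 3 = 1 := by
  apply OG_ext
  rintro ⟨⟨s₁, t₁⟩, ⟨s₂, t₂⟩, s₃, t₃⟩
  rw [pow_succ, pow_two, one3_apply]
  simp only [Subgroup.coe_mul, LinearEquiv.mul_apply, z3_apply, Prod.mk.injEq]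
  refine ⟨⟨?_, ?_⟩, ⟨?_, ?_⟩, ?_, ?_⟩
  · linear_combination (s₁ + t₁) * h2
  · linear_combination s₁ * h2
  · linear_combination (s₂ + t₂) * h2
  · linear_combination s₂ * h2
  · linear_combination (s₃ + t₃) * h2
  · linear_combination s₃ * h2

lemma c3_cube : c3 h2 μ hμ hQ₂ ^ 3 = 1 := by
  apply OG_ext
  rintro ⟨⟨s₁, t₁⟩, ⟨s₂, t₂⟩, s₃, t₃⟩
  rw [pow_succ, pow_two, one3_apply]
  simp only [Subgroup.coe_mul, LinearEquiv.mul_apply, c3_apply]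

lemma d3_cube : d3 h2 μ hμ hQ₂ ^ 3 = 1 := by
  apply OG_ext
  rintro ⟨⟨s₁, t₁⟩, ⟨s₂, t₂⟩, s₃, t₃⟩
  rw [pow_succ, pow_two, one3_apply]
  simp only [Subgroup.coe_mul, LinearEquiv.mul_apply, d3_apply, Prod.mk.injEq, true_and, and_true]
  refine ⟨⟨?_, ?_⟩, ?_, ?_⟩
  · linear_combination t₂ * h2
  · linear_combination (s₂ + t₂) * h2
  · linear_combination (s₃ + t₃) * h2
  · linear_combination s₃ * h2

lemma z3_d3 : z3 h2 μ hμ hQ₂ * d3 h2 μ hμ hQ₂ = d3 h2 μ hμ hQ₂ * z3 h2 μ hμ hQ₂ := by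
  apply OG_ext
  rintro ⟨⟨s₁, t₁⟩, ⟨s₂, t₂⟩, s₃, t₃⟩
  simp only [Subgroup.coe_mul, LinearEquiv.mul_apply, d3_apply, z3_apply, Prod.mk.injEq, true_and, and_true]
  refine ⟨?_, ?_⟩
  · linear_combination t₂ * h2
  · linear_combination (-s₂) * h2

lemma z3_c3 : z3 h2 μ hμ hQ₂ * c3 h2 μ hμ hQ₂ = c3 h2 μ hμ hQ₂ * z3 h2 μ hμ hQ₂ := by
  apply OG_ext
  rintro ⟨⟨s₁, t₁⟩, ⟨s₂, t₂⟩, s₃, t₃⟩
  simp only [Subgroup.coe_mul, LinearEquiv.mul_apply, c3_apply, z3_apply]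

lemma d3_c3 : d3 h2 μ hμ hQ₂ * c3 h2 μ hμ hQ₂ * (d3 h2 μ hμ hQ₂)⁻¹ = z3 h2 μ hμ hQ₂ * c3 h2 μ hμ hQ₂ := by
  have h : d3 h2 μ hμ hQ₂ * c3 h2 μ hμ hQ₂ = z3 h2 μ hμ hQ₂ * c3 h2 μ hμ hQ₂ * d3 h2 μ hμ hQ₂ := by
    apply OG_ext
    rintro ⟨⟨s₁, t₁⟩, ⟨s₂, t₂⟩, s₃, t₃⟩
    simp only [Subgroup.coe_mul, LinearEquiv.mul_apply, c3_apply, z3_apply, d3_apply, Prod.mk.injEq, true_and, and_true]
    refine ⟨?_, ?_⟩
    · linear_combination (-t₂) * h2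
    · linear_combination (-s₃) * h2
  rw [h]
  group

lemma z3_fixed {v : V3 F} (h : ((z3 h2 μ hμ hQ₂ : OG (Q3 h2 μ Q₂)) : V3 F ≃ₗ[F] V3 F) v = v) : v = 0 := by
  obtain ⟨⟨s₁, t₁⟩, ⟨s₂, t₂⟩, s₃, t₃⟩ := v
  rw [z3_apply] at h
  simp only [Prod.mk.injEq] at h
  obtain ⟨⟨h1, h2'⟩, ⟨h3, h4⟩, h5, h6⟩ := h
  have e1 : t₁ = 0 := by linear_combination h1
  have e2 : s₁ = 0 := by rw [h2', e1]
  have e3 : t₂ = 0 := by linear_combination h3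
  have e4 : s₂ = 0 := by rw [h4, e3]
  have e5 : t₃ = 0 := by linear_combination h5
  have e6 : s₃ = 0 := by rw [h6, e5]
  subst e1 e2 e3 e4 e5 e6
  rfl

/-! ### Inverting element -/

/-- Two transvections as a Siegel element. -/
noncomputable def sig2 {V : Type*} [AddCommGroup V] [Module F V] [FiniteDimensional F V]
    {Q : QuadraticForm F V} (hQ : Nondeg Q)
    {a b : V} (hb : Q b = 1) (ha : Q a = 1) (hab : polar Q a b = 0) : OG Q :=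
  siegel hQ (e := a + b) (y := a) (by
    rw [QuadraticMap.map_add Q a b, ha, hb, hab]
    linear_combination h2) (by
    rw [polar_add_left, polar_self', polar_comm, hab, ha]
    linear_combination h2)

lemma sig2_mem {V : Type*} [AddCommGroup V] [Module F V] [FiniteDimensional F V]
    {Q : QuadraticForm F V} (hQ : Nondeg Q)
    {a b : V} (hb : Q b = 1) (ha : Q a = 1) (hab : polar Q a b = 0) : sig2 h2 hQ hb ha hab ∈ siegelE Q :=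
  siegel_mem _ _ _

lemma sig2_isSiegel {V : Type*} [AddCommGroup V] [Module F V] [FiniteDimensional F V]
    {Q : QuadraticForm F V} (hQ : Nondeg Q)
    {a b : V} (hb : Q b = 1) (ha : Q a = 1) (hab : polar Q a b = 0) :
    IsSiegel (sig2 h2 hQ hb ha hab) (a + b) a :=
  siegel_isSiegel _ _ _

lemma sig2_apply {V : Type*} [AddCommGroup V] [Module F V] [FiniteDimensional F V]
    {Q : QuadraticForm F V} (hQ : Nondeg Q)
    {a b : V} (hb : Q b = 1) (ha : Q a = 1) (hab : polar Q a b = 0) (x : V) :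
    ((sig2 h2 hQ hb ha hab : OG Q) : V ≃ₗ[F] V) x = x + polar Q x a • a + polar Q x b • b := by
  rw [sig2, siegel_apply]
  exact siegel_two h2 hb ha hab x

/-- The vector swapping the hyperbolic plane. -/
def a1 (F : Type*) [Field F] : F × F × V3 F := (1, 1, (0, 0), (0, 0), (0, 0))
/-- The vector swapping the first plane. -/
def a2 (F : Type*) [Field F] : F × F × V3 F := (0, 0, (1, 1), (0, 0), (0, 0))
/-- The vector swapping the second plane. -/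
def a3 (F : Type*) [Field F] : F × F × V3 F := (0, 0, (0, 0), (1, 1), (0, 0))
/-- The vector swapping the third plane. -/
def a4 (F : Type*) [Field F] : F × F × V3 F := (0, 0, (0, 0), (0, 0), (1, 1))

local notation "QH" => hypQ (Q3 h2 μ Q₂)

include hμ in
lemma Q_a1 : QH (a1 F) = 1 := by
  rw [a1, hypQ_apply, Q3_apply h2 μ hμ]
  ring

include hμ in
lemma Q_a2 : QH (a2 F) = 1 := by
  rw [a2, hypQ_apply, Q3_apply h2 μ hμ]
  linear_combination h2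

include hμ in
lemma Q_a3 : QH (a3 F) = 1 := by
  rw [a3, hypQ_apply, Q3_apply h2 μ hμ]
  linear_combination h2

include hμ in
lemma Q_a4 : QH (a4 F) = 1 := by
  rw [a4, hypQ_apply, Q3_apply h2 μ hμ]
  linear_combination h2

include hμ in
lemma pol_a12 : polar QH (a1 F) (a2 F) = 0 := by
  rw [a1, a2, hypQ_polar, Q3_polar h2 μ hμ]
  ring

include hμ in
lemma pol_a34 : polar QH (a3 F) (a4 F) = 0 := by
  rw [a3, a4, hypQ_polar, Q3_polar h2 μ hμ]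
  ring

/-- The inverting element. -/
noncomputable def sigma3 : OG QH :=
  sig2 h2 (hypQ_nondeg (nondeg_Q3 h2 μ hQ₂)) (Q_a2 h2 μ hμ) (Q_a1 h2 μ hμ) (pol_a12 h2 μ hμ) *
    sig2 h2 (hypQ_nondeg (nondeg_Q3 h2 μ hQ₂)) (Q_a4 h2 μ hμ) (Q_a3 h2 μ hμ) (pol_a34 h2 μ hμ)

include hμ in
lemma pol1 (x y s₁ t₁ s₂ t₂ s₃ t₃ : F) : polar QH (x, y, (s₁, t₁), (s₂, t₂), (s₃, t₃)) (a1 F) = x + y := by
  rw [a1, hypQ_polar, Q3_polar h2 μ hμ]
  ring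

include hμ in
lemma pol2 (x y s₁ t₁ s₂ t₂ s₃ t₃ : F) : polar QH (x, y, (s₁, t₁), (s₂, t₂), (s₃, t₃)) (a2 F) = s₁ + t₁ := by
  rw [a2, hypQ_polar, Q3_polar h2 μ hμ]
  ring

include hμ in
lemma pol3 (x y s₁ t₁ s₂ t₂ s₃ t₃ : F) : polar QH (x, y, (s₁, t₁), (s₂, t₂), (s₃, t₃)) (a3 F) = s₂ + t₂ := by
  rw [a3, hypQ_polar, Q3_polar h2 μ hμ]
  ring

include hμ in
lemma pol4 (x y s₁ t₁ s₂ t₂ s₃ t₃ : F) : polar QH (x, y, (s₁, t₁), (s₂, t₂), (s₃, t₃)) (a4 F) = s₃ + t₃ := by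
  rw [a4, hypQ_polar, Q3_polar h2 μ hμ]
  ring

lemma sigma3_apply (x y s₁ t₁ s₂ t₂ s₃ t₃ : F) :
    ((sigma3 h2 μ hμ hQ₂ : OG QH) : (F × F × V3 F) ≃ₗ[F] (F × F × V3 F))
      (x, y, (s₁, t₁), (s₂, t₂), (s₃, t₃)) = (y, x, (t₁, s₁), (t₂, s₂), (t₃, s₃)) := by
  have hin : ((sig2 h2 (hypQ_nondeg (nondeg_Q3 h2 μ hQ₂)) (Q_a4 h2 μ hμ) (Q_a3 h2 μ hμ) (pol_a34 h2 μ hμ) : OG QH) :
      (F × F × V3 F) ≃ₗ[F] (F × F × V3 F)) (x, y, (s₁, t₁), (s₂, t₂), (s₃, t₃))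
      = (x, y, (s₁, t₁), (t₂, s₂), (t₃, s₃)) := by
    rw [sig2_apply, pol3 h2 μ hμ, pol4 h2 μ hμ]
    simp only [a3, a4, Prod.smul_mk, Prod.mk_add_mk, smul_eq_mul, mul_one, mul_zero, add_zero, Prod.mk.injEq,
      true_and, and_true]
    refine ⟨⟨?_, ?_⟩, ?_, ?_⟩
    · linear_combination s₂ * h2
    · linear_combination t₂ * h2
    · linear_combination s₃ * h2
    · linear_combination t₃ * h2
  rw [sigma3, Subgroup.coe_mul, LinearEquiv.mul_apply, hin, sig2_apply, pol1 h2 μ hμ, pol2 h2 μ hμ]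
  simp only [a1, a2, Prod.smul_mk, Prod.mk_add_mk, smul_eq_mul, mul_one, mul_zero, add_zero, Prod.mk.injEq,
    true_and, and_true]
  refine ⟨?_, ?_, ⟨?_, ?_⟩⟩
  · linear_combination x * h2
  · linear_combination y * h2
  · linear_combination s₁ * h2
  · linear_combination t₁ * h2

lemma sigma3_mem : sigma3 h2 μ hμ hQ₂ ∈ siegelE QH :=
  mul_mem (sig2_mem _ _ _ _ _) (sig2_mem _ _ _ _ _)

lemma z3_inv : (z3 h2 μ hμ hQ₂)⁻¹ = z3 h2 μ hμ hQ₂ * z3 h2 μ hμ hQ₂ := by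
  rw [inv_eq_iff_mul_eq_one, ← z3_cube h2 μ hμ hQ₂, pow_succ, pow_two, mul_assoc]

/-- The element `sigma3` inverts the scalar. -/
lemma sigma3_conj : sigma3 h2 μ hμ hQ₂ * embOG _ (z3 h2 μ hμ hQ₂) * (sigma3 h2 μ hμ hQ₂)⁻¹
    = embOG _ (z3 h2 μ hμ hQ₂)⁻¹ := by
  have h : sigma3 h2 μ hμ hQ₂ * embOG _ (z3 h2 μ hμ hQ₂) = embOG _ (z3 h2 μ hμ hQ₂)⁻¹ * sigma3 h2 μ hμ hQ₂ := by
    apply OG_ext
    rintro ⟨x, y, ⟨s₁, t₁⟩, ⟨s₂, t₂⟩, s₃, t₃⟩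
    rw [z3_inv]
    simp only [Subgroup.coe_mul, LinearEquiv.mul_apply, embOG_apply, z3_apply, sigma3_apply, Prod.mk.injEq,
      true_and, and_true, map_mul]
    refine ⟨⟨?_, ?_⟩, ⟨?_, ?_⟩, ?_, ?_⟩
    · linear_combination (-t₁) * h2
    · ring
    · linear_combination (-t₂) * h2
    · ring
    · linear_combination (-t₃) * h2
    · ring
  rw [h]
  group

end og


section transport

variable {F : Type*} [Field F] [Fintype F] {W₂ : Type*} [AddCommGroup W₂] [Module F W₂]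
  [FiniteDimensional F W₂] {Q₂ : QuadraticForm F W₂}
  (h2 : (2 : F) = 0) (μ : (F × F) ≃ₗ[F] W₂)
  (hμ : ∀ s t, Q₂ (μ (s, t)) = s * s + s * t + t * t) (hQ₂ : Nondeg Q₂)

/-- Transport of the hyperbolic extension. -/
lemma hyp_Phi (v : F × F × V3 F) :
    hypQ (hypQ (hypQ Q₂)) (hypCongr (Phi h2 μ) v) = hypQ (Q3 h2 μ Q₂) v :=
  hypCongr_Q (Phi h2 μ) (fun v => Q3_Phi h2 μ Q₂ v) v

lemma congr_emb (g : OG (Q3 h2 μ Q₂)) :
    OG.congr (hypCongr (Phi h2 μ)) (hyp_Phi h2 μ) (embOG _ g)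
      = embOG _ (OG.congr (Phi h2 μ) (fun v => Q3_Phi h2 μ Q₂ v) g) := by
  apply OG_ext
  rintro ⟨x, y, l⟩
  obtain ⟨v, rfl⟩ : ∃ v, l = Phi h2 μ v := ⟨(Phi h2 μ).symm l, by simp⟩
  have e : ((x, y, Phi h2 μ v) : F × F × (F × F × (F × F × W₂))) = hypCongr (Phi h2 μ) (x, y, v) := rfl
  rw [e, OG.congr_apply]
  rw [← e, embOG_apply, embOG_apply, OG.congr_apply]
  rfl

lemma congr_sigma_mem : OG.congr (hypCongr (Phi h2 μ)) (hyp_Phi h2 μ) (sigma3 h2 μ hμ hQ₂)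
    ∈ siegelE (hypQ (hypQ (hypQ Q₂))) := by
  rw [sigma3, map_mul]
  exact mul_mem (isSiegel_congr (sig2_isSiegel _ _ _ _ _) _ _).mem (isSiegel_congr (sig2_isSiegel _ _ _ _ _) _ _).mem

lemma congr_sigma_conj :
    OG.congr (hypCongr (Phi h2 μ)) (hyp_Phi h2 μ) (sigma3 h2 μ hμ hQ₂) *
        embOG _ (OG.congr (Phi h2 μ) (fun v => Q3_Phi h2 μ Q₂ v) (z3 h2 μ hμ hQ₂)) *
        (OG.congr (hypCongr (Phi h2 μ)) (hyp_Phi h2 μ) (sigma3 h2 μ hμ hQ₂))⁻¹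
      = embOG _ (OG.congr (Phi h2 μ) (fun v => Q3_Phi h2 μ Q₂ v) (z3 h2 μ hμ hQ₂))⁻¹ := by
  have h := congrArg (OG.congr (hypCongr (Phi h2 μ)) (hyp_Phi h2 μ)) (sigma3_conj h2 μ hμ hQ₂)
  rw [map_mul, map_mul, map_inv, congr_emb, congr_emb, map_inv] at h
  exact h

include h2 μ hμ hQ₂ in
/-- The data for the degree 32. -/
theorem exists_elements (hgen : genR Q₂ = ⊤) {u₂ z₂ : W₂} (huz : polar Q₂ u₂ z₂ ≠ 0) :
    ∃ (z d c : siegelE (hypQ (hypQ Q₂))) (σ : siegelE (hypQ (hypQ (hypQ Q₂)))),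
      z ^ 3 = 1 ∧ c ^ 3 = 1 ∧ z * d = d * z ∧ z * c = c * z ∧ d * c * d⁻¹ = z * c ∧
      σ * emb _ z * σ⁻¹ = emb _ z⁻¹ ∧
      (∀ l, l ≠ 0 → ((z : OG (hypQ (hypQ Q₂))) : (F × F × (F × F × W₂)) ≃ₗ[F] (F × F × (F × F × W₂))) l ≠ l) ∧
      (∀ l, l ≠ 0 → (((z⁻¹ : siegelE (hypQ (hypQ Q₂))) : OG (hypQ (hypQ Q₂))) : (F × F × (F × F × W₂)) ≃ₗ[F] (F × F × (F × F × W₂))) l ≠ l) ∧
      ¬ ∃ a : F, ∀ v, ((z : OG (hypQ (hypQ Q₂))) : (F × F × (F × F × W₂)) ≃ₗ[F] (F × F × (F × F × W₂))) v = a • v := by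
  have hE := hE_tower hQ₂ hgen huz
  have hgenL : genR (hypQ (hypQ Q₂)) = ⊤ := genR_hyp (hypQ_nondeg hQ₂) (genR_hyp hQ₂ hgen)
  set φ := Phi h2 μ with hφ
  set κ := OG.congr (Q := Q3 h2 μ Q₂) (Q' := hypQ (hypQ Q₂)) φ (fun v => Q3_Phi h2 μ Q₂ v) with hκ
  have hmem : ∀ g : OG (Q3 h2 μ Q₂), g ^ 3 = 1 → κ g ∈ siegelE (hypQ (hypQ Q₂)) := by
    intro g hg
    rw [← hE]
    refine cube_mem_comm hgenL hE.ge ?_
    rw [← map_pow, hg, map_one]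
  refine ⟨⟨κ (z3 h2 μ hμ hQ₂), hmem _ (z3_cube h2 μ hμ hQ₂)⟩, ⟨κ (d3 h2 μ hμ hQ₂), hmem _ (d3_cube h2 μ hμ hQ₂)⟩,
    ⟨κ (c3 h2 μ hμ hQ₂), hmem _ (c3_cube h2 μ hμ hQ₂)⟩,
    ⟨OG.congr (hypCongr φ) (hyp_Phi h2 μ) (sigma3 h2 μ hμ hQ₂), congr_sigma_mem h2 μ hμ hQ₂⟩, ?_, ?_, ?_, ?_, ?_, ?_, ?_, ?_, ?_⟩
  · apply Subtype.ext
    change κ (z3 h2 μ hμ hQ₂) ^ 3 = 1
    rw [← map_pow, z3_cube, map_one]
  · apply Subtype.ext
    change κ (c3 h2 μ hμ hQ₂) ^ 3 = 1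
    rw [← map_pow, c3_cube, map_one]
  · apply Subtype.ext
    change κ (z3 h2 μ hμ hQ₂) * κ (d3 h2 μ hμ hQ₂) = κ (d3 h2 μ hμ hQ₂) * κ (z3 h2 μ hμ hQ₂)
    rw [← map_mul, z3_d3, map_mul]
  · apply Subtype.ext
    change κ (z3 h2 μ hμ hQ₂) * κ (c3 h2 μ hμ hQ₂) = κ (c3 h2 μ hμ hQ₂) * κ (z3 h2 μ hμ hQ₂)
    rw [← map_mul, z3_c3, map_mul]
  · apply Subtype.ext
    change κ (d3 h2 μ hμ hQ₂) * κ (c3 h2 μ hμ hQ₂) * (κ (d3 h2 μ hμ hQ₂))⁻¹ = κ (z3 h2 μ hμ hQ₂) * κ (c3 h2 μ hμ hQ₂)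
    rw [← map_mul, ← map_inv, ← map_mul, d3_c3, map_mul]
  · apply Subtype.ext
    change OG.congr (hypCongr φ) (hyp_Phi h2 μ) (sigma3 h2 μ hμ hQ₂) * embOG _ (κ (z3 h2 μ hμ hQ₂)) *
      (OG.congr (hypCongr φ) (hyp_Phi h2 μ) (sigma3 h2 μ hμ hQ₂))⁻¹ = embOG _ (κ (z3 h2 μ hμ hQ₂))⁻¹
    exact congr_sigma_conj h2 μ hμ hQ₂
  · intro l hl h
    obtain ⟨v, rfl⟩ : ∃ v, l = φ v := ⟨φ.symm l, by simp⟩
    have h1 : φ ((z3 h2 μ hμ hQ₂ : OG (Q3 h2 μ Q₂)).1 v) = φ v := by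
      rw [← h]
      exact (OG.congr_apply φ (fun v => Q3_Phi h2 μ Q₂ v) (z3 h2 μ hμ hQ₂) v).symm
    have h2' := z3_fixed h2 μ hμ hQ₂ (φ.injective h1)
    exact hl (by rw [h2', map_zero])
  · intro l hl h
    obtain ⟨v, rfl⟩ : ∃ v, l = φ v := ⟨φ.symm l, by simp⟩
    have h1 : φ (((z3 h2 μ hμ hQ₂)⁻¹ : OG (Q3 h2 μ Q₂)).1 v) = φ v := by
      rw [← h]
      have := OG.congr_apply φ (fun v => Q3_Phi h2 μ Q₂ v) (z3 h2 μ hμ hQ₂)⁻¹ v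
      rw [map_inv] at this
      exact this.symm
    have h3 := φ.injective h1
    have h4 : (z3 h2 μ hμ hQ₂ : OG (Q3 h2 μ Q₂)).1 v = v := by
      conv_lhs => rw [← h3]
      have : ((z3 h2 μ hμ hQ₂ * (z3 h2 μ hμ hQ₂)⁻¹ : OG (Q3 h2 μ Q₂)) : V3 F ≃ₗ[F] V3 F) v = v := by
        rw [mul_inv_cancel]
        rfl
      exact this
    have h2' := z3_fixed h2 μ hμ hQ₂ h4
    exact hl (by rw [h2', map_zero])
  · rintro ⟨a, ha⟩
    have h1 := ha (φ ((1, 0), (0, 0), (0, 0)))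
    have h3 : ((κ (z3 h2 μ hμ hQ₂) : OG (hypQ (hypQ Q₂))) : (F × F × (F × F × W₂)) ≃ₗ[F] (F × F × (F × F × W₂))) (φ ((1, 0), (0, 0), (0, 0)))
        = φ ((z3 h2 μ hμ hQ₂ : OG (Q3 h2 μ Q₂)).1 ((1, 0), (0, 0), (0, 0))) :=
      OG.congr_apply φ (fun v => Q3_Phi h2 μ Q₂ v) (z3 h2 μ hμ hQ₂) _
    change ((κ (z3 h2 μ hμ hQ₂) : OG (hypQ (hypQ Q₂))) : (F × F × (F × F × W₂)) ≃ₗ[F] (F × F × (F × F × W₂))) _ = _ at h1
    rw [h3, ← map_smul] at h1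
    have h4 := φ.injective h1
    have h5 : (z3 h2 μ hμ hQ₂ : OG (Q3 h2 μ Q₂)).1 ((1, 0), (0, 0), (0, 0))
        = (((1 : F) + 0, 1), ((0 : F) + 0, 0), ((0 : F) + 0, 0)) := rfl
    rw [h5] at h4
    have h6 := congrArg (fun t : V3 F => t.1.1) h4
    have h7 := congrArg (fun t : V3 F => t.1.2) h4
    simp at h6 h7

end transport

end Cfsg.Agent.Lib.OMinus44F
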