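import Mathlib
import Cfsg.Agent.Lib.OMinus44F

/-!
# Exclusion of the degree thirty-two
-/

set_option autoImplicit false
set_option linter.unusedSectionVars false
set_option linter.unusedVariables false
set_option linter.unnecessarySeqFocus false

namespace Cfsg.Agent.Lib.OMinus44G

open QuadraticMap Matrix Cfsg Cfsg.Agent.Lib.OrthoBasic Cfsg.Agent.Lib.OrthoSiegel
  Cfsg.Agent.Lib.OrthoGen Cfsg.Agent.Lib.OrthoSimple Cfsg.Agent.Lib.OrthoFinal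
  Cfsg.Agent.Lib.FourierAb Cfsg.Agent.Lib.OMinA Cfsg.Agent.Lib.OMinB Cfsg.Agent.Lib.OMinC
  Cfsg.Agent.Lib.OMinD Cfsg.Agent.Lib.OMinE Cfsg.Agent.Lib.OMinF Cfsg.Agent.Lib.SLMinB
  Cfsg.Agent.Lib.OrthoCount Cfsg.Agent.Lib.OMinus44A Cfsg.Agent.Lib.OMinus44B
  Cfsg.Agent.Lib.OMinus44C Cfsg.Agent.Lib.OMinus44E Cfsg.Agent.Lib.OMinus44F Cfsg.Agent.Lib.OMinH

section no32

variable {F : Type*} [Field F] [Fintype F] {W₂ : Type*} [AddCommGroup W₂] [Module F W₂] [Fintype W₂]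
  [FiniteDimensional F W₂] {Q₂ : QuadraticForm F W₂} (hQ₂ : Nondeg Q₂) {k : ℕ}
  (R : siegelE (hypQ (hypQ (hypQ Q₂))) →* Matrix (Fin k) (Fin k) ℂ) {ψ : AddChar F ℂ}

local notation "hQ0" => hypQ_nondeg (hypQ_nondeg hQ₂)

/-- The trace of an element without nonzero fixed vectors. -/
lemma trace_fpf (hψ : ψ.IsPrimitive) (g : siegelE (hypQ (hypQ Q₂)))
    (hg : ∀ l, l ≠ 0 → ((g : OG (hypQ (hypQ Q₂))) : (F × F × (F × F × W₂)) ≃ₗ[F] (F × F × (F × F × W₂))) l ≠ l) :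
    (R (emb _ g)).trace = (R (emb _ g) * EE hQ0 R ψ 0).trace := by
  classical
  set X := R (emb _ g) with hX
  have hsplit : X.trace = ∑ l, (X * EE hQ0 R ψ l).trace := by
    have := sum_EL (r := rr hQ0 R) (Q₀ := hypQ (hypQ Q₂)) (ψ := ψ) (rr_zero hQ0 R) hψ hQ0
    calc X.trace = (X * 1).trace := by rw [Matrix.mul_one]
      _ = _ := by rw [← this, Finset.mul_sum, Matrix.trace_sum]
  rw [hsplit]
  apply Finset.sum_eq_single 0
  · intro l _ hl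
    exact trace_zero_of_orth (EE_idem _ R ψ l) (conj_emb hQ0 R (ψ := ψ) g l)
      (EL_orth (rr_add hQ0 R) hψ hQ0 (Ne.symm (hg l hl)))
  · simp

set_option maxHeartbeats 1000000 in
/-- Exclusion of the degree thirty-two. -/
theorem no_32 (hgen : genR Q₂ = ⊤) {u₂ z₂ : W₂} (huz : polar Q₂ u₂ z₂ ≠ 0) (h2 : (2 : F) = 0)
    (μ : (F × F) ≃ₗ[F] W₂) (hμ : ∀ s t, Q₂ (μ (s, t)) = s * s + s * t + t * t)
    (hψ : ψ.IsPrimitive)
    (hE : commutator (OG (hypQ (hypQ (hypQ Q₂)))) ≤ siegelE (hypQ (hypQ (hypQ Q₂))))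
    (hsep : Sep Q₂ 0)
    (hns : ∀ l, hypQ (hypQ Q₂) l ≠ 0 → EE hQ0 R ψ l = 0)
    (h1 : ∀ l, l ≠ 0 → hypQ (hypQ Q₂) l = 0 → rk (EE hQ0 R ψ l) = 1)
    (hr : rk (EE hQ0 R ψ 0) ≤ 5) : False := by
  classical
  obtain ⟨z, d, c, σ, hz3, hc3, hzd, hzc, hrel, hσ, hfp, hfp', hnsc⟩ :=
    exists_elements h2 μ hμ hQ₂ hgen huz
  set P := EE hQ0 R ψ 0 with hP
  have hPP : P * P = P := EE_idem _ R ψ 0
  let R' : siegelE (hypQ (hypQ Q₂)) →* Matrix (Fin k) (Fin k) ℂ := R.comp (emb _)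
  have hR' : ∀ g, R' g = R (emb _ g) := fun _ => rfl
  have hPc : ∀ g, R' g * P = P * R' g := by
    intro g
    have := conj_emb hQ0 R (ψ := ψ) g 0
    rw [map_zero] at this
    exact this
  have t1 : (R (emb _ z)).trace = (R (emb _ z) * P).trace := trace_fpf hQ₂ R hψ z hfp
  have t2 : (R (emb _ z⁻¹)).trace = (R (emb _ z⁻¹) * P).trace := trace_fpf hQ₂ R hψ z⁻¹ hfp'
  have t3 : (R (emb _ z⁻¹)).trace = (R (emb _ z)).trace := by
    have := trace_conj_gen R σ⁻¹ (emb _ z)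
    rw [inv_inv, hσ] at this
    exact this
  have htr : (R' z * P).trace = (R' z⁻¹ * P).trace := by
    change (R (emb _ z) * P).trace = (R (emb _ z⁻¹) * P).trace
    rw [← t1, ← t2, t3]
  have hz := rep_core R' hPP hPc hz3 hc3 hzd hzc hrel htr hr
  have hone : R' 1 * P = P := by rw [map_one, Matrix.one_mul]
  have hmul : ∀ {a b}, R' a * P = P → R' b * P = P → R' (a * b) * P = P := by
    intro a b ha hb
    rw [map_mul, Matrix.mul_assoc, hb, ha]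
  have hinv : ∀ {a}, R' a * P = P → R' a⁻¹ * P = P := by
    intro a ha
    calc R' a⁻¹ * P = R' a⁻¹ * (R' a * P) := by rw [ha]
      _ = (R' a⁻¹ * R' a) * P := (Matrix.mul_assoc _ _ _).symm
      _ = P := by rw [← map_mul, inv_mul_cancel, hone]
  let K : Subgroup (siegelE (hypQ (hypQ Q₂))) :=
    { carrier := {g | R' g * P = P}
      mul_mem' := fun ha hb => hmul ha hb
      one_mem' := hone
      inv_mem' := fun ha => hinv ha }
  have hKmem : ∀ g, g ∈ K ↔ R' g * P = P := fun g => Iff.rfl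
  have fr : Frame (hypQ (hypQ Q₂)) := frameHyp u₂ z₂ huz
  have htop := normal_eq_top hQ0 fr (K.map (siegelE (hypQ (hypQ Q₂))).subtype)
    (by
      rintro _ ⟨x, _, rfl⟩
      exact x.2)
    (by
      rintro _ ⟨x, hx, rfl⟩ g hg
      refine ⟨⟨g, hg⟩ * x * ⟨g, hg⟩⁻¹, ?_, rfl⟩
      have hx' : R' x * P = P := hx
      change R' (⟨g, hg⟩ * x * ⟨g, hg⟩⁻¹) * P = P
      have hg1 : R' (⟨g, hg⟩ : siegelE (hypQ (hypQ Q₂)))⁻¹ * P = P * R' (⟨g, hg⟩ : siegelE (hypQ (hypQ Q₂)))⁻¹ :=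
        hPc _
      rw [map_mul, map_mul, Matrix.mul_assoc, hg1, ← Matrix.mul_assoc, Matrix.mul_assoc (R' ⟨g, hg⟩), hx', hPc,
        Matrix.mul_assoc, ← map_mul, mul_inv_cancel, map_one, Matrix.mul_one])
    ⟨z, ⟨z, hz, rfl⟩, hnsc⟩
  have hs0 : s0 hQ₂ ∈ K := by
    obtain ⟨y, hy, hyx⟩ := htop (s0 hQ₂).2
    have : y = s0 hQ₂ := Subtype.ext hyx
    rwa [← this]
  have h3 := trace_zero_part2 hQ₂ R hψ hE 0 hsep (fun l _ hl => hns l hl) h1
  have h4 : R (emb _ (s0 hQ₂)) * P = P := hs0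
  rw [← hP, h4, trace_eq_rk P hPP] at h3
  have h5 : (Fintype.card F : ℂ) * (Fintype.card W₂ : ℂ) = 0 := by linear_combination h3
  have h6 : Fintype.card F * Fintype.card W₂ = 0 := by exact_mod_cast h5
  have h7 : 0 < Fintype.card F * Fintype.card W₂ := Nat.mul_pos Fintype.card_pos Fintype.card_pos
  omega

end no32

end Cfsg.Agent.Lib.OMinus44G
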