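import Mathlib
import Cfsg.Agent.Lib.OMinus44G

/-!
# Minimal degrees of orthogonal groups of minus type: numerics and counting
-/

set_option autoImplicit false
set_option linter.unusedSectionVars false
set_option linter.unusedVariables false
set_option linter.unnecessarySeqFocus false

namespace Cfsg.Agent.Lib.OMinus44D

section num

variable {q M k T D Zc : ℕ}

lemma num_N0 (hq : 2 ≤ q)
    (hT : ((q : ℤ) ^ 2 - 1) * T = q * ((q : ℤ) ^ 2 * (q : ℤ) ^ 2 + 1) * ((q : ℤ) ^ 2 - 1)) :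
    (T : ℤ) ≤ q * ((q : ℤ) ^ 2) ^ 2 + (q : ℤ) ^ 2 := by
  obtain ⟨a, rfl⟩ : ∃ a, q = a + 2 := ⟨q - 2, by omega⟩
  push_cast at hT ⊢
  have ha : (0 : ℤ) ≤ a := Int.natCast_nonneg a
  have hpos : (0 : ℤ) < ((a : ℤ) + 2) ^ 2 - 1 := by nlinarith
  refine le_of_mul_le_mul_left ?_ hpos
  rw [hT]
  have : 0 ≤ (((a : ℤ) + 2) ^ 2 - 1) * (((a : ℤ) + 2) * (((a : ℤ) + 2) ^ 2) ^ 2 + ((a : ℤ) + 2) ^ 2) -
      ((a : ℤ) + 2) * (((a : ℤ) + 2) ^ 2 * ((a : ℤ) + 2) ^ 2 + 1) * (((a : ℤ) + 2) ^ 2 - 1) := by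
    ring_nf
    positivity
  linarith

lemma num_2N (hq : 2 ≤ q) (hM : q ^ 2 ≤ M)
    (hT : ((q : ℤ) ^ 2 - 1) * T = q * ((q : ℤ) ^ 2 * M + 1) * ((M : ℤ) - 1)) :
    (T : ℤ) ≤ 2 * ((q : ℤ) * M ^ 2 + M) := by
  obtain ⟨a, rfl⟩ : ∃ a, q = a + 2 := ⟨q - 2, by omega⟩
  obtain ⟨b, rfl⟩ : ∃ b, M = (a + 2) ^ 2 + b := ⟨M - (a + 2) ^ 2, by omega⟩
  push_cast at hT ⊢
  have ha : (0 : ℤ) ≤ a := Int.natCast_nonneg a
  have hb : (0 : ℤ) ≤ b := Int.natCast_nonneg b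
  have hpos : (0 : ℤ) < ((a : ℤ) + 2) ^ 2 - 1 := by nlinarith
  refine le_of_mul_le_mul_left ?_ hpos
  rw [hT]
  have : 0 ≤ (((a : ℤ) + 2) ^ 2 - 1) * (2 * (((a : ℤ) + 2) * (((a : ℤ) + 2) ^ 2 + b) ^ 2 + (((a : ℤ) + 2) ^ 2 + b))) -
      ((a : ℤ) + 2) * (((a : ℤ) + 2) ^ 2 * (((a : ℤ) + 2) ^ 2 + b) + 1) * (((a : ℤ) + 2) ^ 2 + b - 1) := by
    ring_nf
    positivity
  linarith

lemma num_Ns (hq : 2 ≤ q) (hM : q ^ 2 ≤ M)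
    (hT : ((q : ℤ) ^ 2 - 1) * T = q * ((q : ℤ) ^ 2 * M + 1) * ((M : ℤ) - 1)) :
    (T : ℤ) ≤ ((q : ℤ) * M ^ 2 + M) + ((q : ℤ) * M + 1) * ((M : ℤ) - 1) := by
  obtain ⟨a, rfl⟩ : ∃ a, q = a + 2 := ⟨q - 2, by omega⟩
  obtain ⟨b, rfl⟩ : ∃ b, M = (a + 2) ^ 2 + b := ⟨M - (a + 2) ^ 2, by omega⟩
  push_cast at hT ⊢
  have ha : (0 : ℤ) ≤ a := Int.natCast_nonneg a
  have hb : (0 : ℤ) ≤ b := Int.natCast_nonneg b
  have hpos : (0 : ℤ) < ((a : ℤ) + 2) ^ 2 - 1 := by nlinarith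
  refine le_of_mul_le_mul_left ?_ hpos
  rw [hT]
  have : 0 ≤ (((a : ℤ) + 2) ^ 2 - 1) * ((((a : ℤ) + 2) * (((a : ℤ) + 2) ^ 2 + b) ^ 2 + (((a : ℤ) + 2) ^ 2 + b)) +
      (((a : ℤ) + 2) * (((a : ℤ) + 2) ^ 2 + b) + 1) * (((a : ℤ) + 2) ^ 2 + b - 1)) -
      ((a : ℤ) + 2) * (((a : ℤ) + 2) ^ 2 * (((a : ℤ) + 2) ^ 2 + b) + 1) * (((a : ℤ) + 2) ^ 2 + b - 1) := by
    ring_nf
    positivity
  linarith

lemma num_2s (hq : 2 ≤ q) (hM : q ^ 2 ≤ M)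
    (hT : ((q : ℤ) ^ 2 - 1) * T = q * ((q : ℤ) ^ 2 * M + 1) * ((M : ℤ) - 1)) :
    (T : ℤ) ≤ 2 * (((q : ℤ) * M + 1) * ((M : ℤ) - 1)) := by
  obtain ⟨a, rfl⟩ : ∃ a, q = a + 2 := ⟨q - 2, by omega⟩
  obtain ⟨b, rfl⟩ : ∃ b, M = (a + 2) ^ 2 + b := ⟨M - (a + 2) ^ 2, by omega⟩
  push_cast at hT ⊢
  have ha : (0 : ℤ) ≤ a := Int.natCast_nonneg a
  have hb : (0 : ℤ) ≤ b := Int.natCast_nonneg b
  have hpos : (0 : ℤ) < ((a : ℤ) + 2) ^ 2 - 1 := by nlinarith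
  refine le_of_mul_le_mul_left ?_ hpos
  rw [hT]
  have : 0 ≤ (((a : ℤ) + 2) ^ 2 - 1) * (2 * ((((a : ℤ) + 2) * (((a : ℤ) + 2) ^ 2 + b) + 1) * (((a : ℤ) + 2) ^ 2 + b - 1))) -
      ((a : ℤ) + 2) * (((a : ℤ) + 2) ^ 2 * (((a : ℤ) + 2) ^ 2 + b) + 1) * (((a : ℤ) + 2) ^ 2 + b - 1) := by
    ring_nf
    positivity
  linarith

lemma num_ND (hq : 2 ≤ q) (hM : q ^ 2 ≤ M)
    (hT : ((q : ℤ) ^ 2 - 1) * T = q * ((q : ℤ) ^ 2 * M + 1) * ((M : ℤ) - 1))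
    (hD : ((q : ℤ) ^ 2 - 1) * D = ((q : ℤ) * M + 1) * ((M : ℤ) - q)) :
    (T : ℤ) ≤ ((q : ℤ) * M ^ 2 + M) + D := by
  obtain ⟨a, rfl⟩ : ∃ a, q = a + 2 := ⟨q - 2, by omega⟩
  obtain ⟨b, rfl⟩ : ∃ b, M = (a + 2) ^ 2 + b := ⟨M - (a + 2) ^ 2, by omega⟩
  push_cast at hT hD ⊢
  have ha : (0 : ℤ) ≤ a := Int.natCast_nonneg a
  have hb : (0 : ℤ) ≤ b := Int.natCast_nonneg b
  have hpos : (0 : ℤ) < ((a : ℤ) + 2) ^ 2 - 1 := by nlinarith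
  refine le_of_mul_le_mul_left ?_ hpos
  have e : (((a : ℤ) + 2) ^ 2 - 1) * (((a : ℤ) + 2) * (((a : ℤ) + 2) ^ 2 + b) ^ 2 + (((a : ℤ) + 2) ^ 2 + b) + D)
      = (((a : ℤ) + 2) ^ 2 - 1) * (((a : ℤ) + 2) * (((a : ℤ) + 2) ^ 2 + b) ^ 2 + (((a : ℤ) + 2) ^ 2 + b)) +
        (((a : ℤ) + 2) ^ 2 - 1) * D := by ring
  rw [hT, e, hD]
  have : 0 ≤ (((a : ℤ) + 2) ^ 2 - 1) * (((a : ℤ) + 2) * (((a : ℤ) + 2) ^ 2 + b) ^ 2 + (((a : ℤ) + 2) ^ 2 + b)) +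
      (((a : ℤ) + 2) * (((a : ℤ) + 2) ^ 2 + b) + 1) * (((a : ℤ) + 2) ^ 2 + b - ((a : ℤ) + 2)) -
      ((a : ℤ) + 2) * (((a : ℤ) + 2) ^ 2 * (((a : ℤ) + 2) ^ 2 + b) + 1) * (((a : ℤ) + 2) ^ 2 + b - 1) := by
    ring_nf
    positivity
  linarith

lemma poly_up {q M : ℤ} (a b : ℕ) (hq : q = (a : ℤ) + 2) (hM : M = ((a : ℤ) + 2) ^ 2 + b) :
    (q ^ 2 - 1) * (q ^ 2 * M ^ 2 - 1) < q * (q * (q ^ 2 * M + 1) * (M - 1) - (q ^ 2 - 1)) := by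
  subst hq hM
  have : 0 < ((a : ℤ) + 2) * (((a : ℤ) + 2) * (((a : ℤ) + 2) ^ 2 * (((a : ℤ) + 2) ^ 2 + b) + 1) * (((a : ℤ) + 2) ^ 2 + b - 1) - (((a : ℤ) + 2) ^ 2 - 1)) -
      (((a : ℤ) + 2) ^ 2 - 1) * (((a : ℤ) + 2) ^ 2 * (((a : ℤ) + 2) ^ 2 + b) ^ 2 - 1) := by
    ring_nf
    positivity
  linarith

lemma poly_lo {q M : ℤ} (a b : ℕ) (hq : q = (a : ℤ) + 2) (hM : M = ((a : ℤ) + 2) ^ 2 + b) :
    (q - 1) * (q * (q ^ 2 * M + 1) * (M - 1) - (q ^ 2 - 1)) < (q ^ 2 - 1) * (q ^ 2 * M ^ 2 - 1) := by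
  subst hq hM
  have : 0 < (((a : ℤ) + 2) ^ 2 - 1) * (((a : ℤ) + 2) ^ 2 * (((a : ℤ) + 2) ^ 2 + b) ^ 2 - 1) -
      ((a : ℤ) + 2 - 1) * (((a : ℤ) + 2) * (((a : ℤ) + 2) ^ 2 * (((a : ℤ) + 2) ^ 2 + b) + 1) * (((a : ℤ) + 2) ^ 2 + b - 1) - (((a : ℤ) + 2) ^ 2 - 1)) := by
    ring_nf
    positivity
  linarith

/-- The divisibility excludes the degree one below the bound. -/
lemma num_T1 (hq : 2 ≤ q) (hM : q ^ 2 ≤ M) (hMe : ∃ e, M = q ^ e)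
    (hT : ((q : ℤ) ^ 2 - 1) * T = q * ((q : ℤ) ^ 2 * M + 1) * ((M : ℤ) - 1))
    (hZ : ((q : ℤ) ^ 2 - 1) * Zc = ((q : ℤ) ^ 2 * M + 1) * ((q : ℤ) * M - 1) * (((q : ℤ) * M + 1) * ((M : ℤ) - 1)))
    (hk : k + 1 = T) (hdvd : k ∣ Zc * (q * M ^ 2)) : False := by
  have hq' : (2 : ℤ) ≤ q := by exact_mod_cast hq
  have hM' : (q : ℤ) ^ 2 ≤ M := by exact_mod_cast hM
  have hM0 : (1 : ℤ) ≤ M := by nlinarith
  have hqq : ((q : ℤ) ^ 2 - 1) ≠ 0 := by nlinarith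
  have hqpos : (0 : ℤ) < (q : ℤ) ^ 2 - 1 := by nlinarith
  have hqZ : (q : ℤ) * Zc = T * ((q : ℤ) ^ 2 * M ^ 2 - 1) := by
    apply mul_left_cancel₀ hqq
    linear_combination (q : ℤ) * hZ - ((q : ℤ) ^ 2 * M ^ 2 - 1) * hT
  obtain ⟨X, hX⟩ : ∃ X : ℕ, (X : ℤ) = (q : ℤ) ^ 2 * M ^ 2 - 1 := by
    refine ⟨((q : ℤ) ^ 2 * M ^ 2 - 1).toNat, Int.toNat_of_nonneg ?_⟩
    nlinarith [sq_nonneg ((q : ℤ) * M - 1), mul_pos (show (0 : ℤ) < q by linarith) (show (0 : ℤ) < M by linarith)]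
  have hqZ' : q * Zc = T * X := by
    zify
    rw [hX]
    exact hqZ
  have hdvd2 : k ∣ T * (X * M ^ 2) := by
    have : Zc * (q * M ^ 2) = T * (X * M ^ 2) := by
      calc Zc * (q * M ^ 2) = (q * Zc) * M ^ 2 := by ring
        _ = _ := by rw [hqZ']; ring
    rwa [this] at hdvd
  have hcop1 : Nat.Coprime k T := by
    rw [← hk]
    simp
  have hdvd3 : k ∣ X * M ^ 2 := hcop1.dvd_of_dvd_mul_left hdvd2
  have hqD : q ∣ T := by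
    have h1 : (q : ℤ) ∣ ((q : ℤ) ^ 2 - 1) * T := ⟨((q : ℤ) ^ 2 * M + 1) * ((M : ℤ) - 1), by rw [hT]; ring⟩
    have h2 : IsCoprime (q : ℤ) ((q : ℤ) ^ 2 - 1) := ⟨(q : ℤ), -1, by ring⟩
    have h3 := h2.dvd_of_dvd_mul_left h1
    exact_mod_cast h3
  have hcop2 : Nat.Coprime k q := hcop1.coprime_dvd_right hqD
  have hcop3 : Nat.Coprime k (M ^ 2) := by
    obtain ⟨e, he⟩ := hMe
    rw [he]
    exact (hcop2.pow_right e).pow_right 2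
  have hdvd4 : k ∣ X := hcop3.dvd_of_dvd_mul_right hdvd3
  obtain ⟨j, hj⟩ := hdvd4
  have hkZ : (k : ℤ) + 1 = T := by exact_mod_cast hk
  have hjZ : (X : ℤ) = k * j := by exact_mod_cast hj
  have hk1 : ((q : ℤ) ^ 2 - 1) * k = q * ((q : ℤ) ^ 2 * M + 1) * ((M : ℤ) - 1) - ((q : ℤ) ^ 2 - 1) := by
    rw [← hT, ← hkZ]
    ring
  obtain ⟨a, ha⟩ : ∃ a : ℕ, q = a + 2 := ⟨q - 2, by omega⟩
  obtain ⟨b, hb⟩ : ∃ b : ℕ, M = q ^ 2 + b := ⟨M - q ^ 2, by omega⟩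
  have haZ : (q : ℤ) = (a : ℤ) + 2 := by rw [ha]; push_cast; ring
  have hbZ : (M : ℤ) = ((a : ℤ) + 2) ^ 2 + b := by rw [hb, ← haZ]; push_cast; ring
  have hup : (X : ℤ) < q * k := by
    refine lt_of_mul_lt_mul_left ?_ hqpos.le
    rw [hX]
    have : ((q : ℤ) ^ 2 - 1) * (q * k) = q * (q * ((q : ℤ) ^ 2 * M + 1) * ((M : ℤ) - 1) - ((q : ℤ) ^ 2 - 1)) := by
      rw [← hk1]
      ring
    rw [this]
    exact poly_up a b haZ hbZ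
  have hlo : ((q : ℤ) - 1) * k < X := by
    refine lt_of_mul_lt_mul_left ?_ hqpos.le
    rw [hX]
    have : ((q : ℤ) ^ 2 - 1) * (((q : ℤ) - 1) * k) = ((q : ℤ) - 1) * (q * ((q : ℤ) ^ 2 * M + 1) * ((M : ℤ) - 1) - ((q : ℤ) ^ 2 - 1)) := by
      rw [← hk1]
      ring
    rw [this]
    exact poly_lo a b haZ hbZ
  have hkpos : (0 : ℤ) < k := by
    by_contra h
    have h0 : (k : ℤ) = 0 := by
      have : (0 : ℤ) ≤ k := Int.natCast_nonneg k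
      omega
    rw [h0, mul_zero] at hup
    rw [hX] at hup
    nlinarith [mul_pos (show (0 : ℤ) < q by linarith) (show (0 : ℤ) < M by linarith)]
  rw [hjZ] at hup hlo
  have h1 : (j : ℤ) < q := by
    have : (k : ℤ) * j < k * q := by rw [mul_comm (k : ℤ) (q : ℤ)]; exact hup
    exact lt_of_mul_lt_mul_left this hkpos.le
  have h2 : (q : ℤ) - 1 < j := by
    have : (k : ℤ) * ((q : ℤ) - 1) < k * j := by rw [mul_comm (k : ℤ) ((q : ℤ) - 1)]; exact hlo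
    exact lt_of_mul_lt_mul_left this hkpos.le
  omega

/-- The divisibility excludes the degree two below the bound for the smallest form, `q ≥ 3`. -/
lemma num_T2 {p f : ℕ} (hp : p.Prime) (hqp : q = p ^ f) (hq : 3 ≤ q) (hk : k + 2 = q ^ 5 + q)
    (hZ : ((q : ℤ) ^ 2 - 1) * Zc = ((q : ℤ) ^ 2 * (q : ℤ) ^ 2 + 1) * ((q : ℤ) * (q : ℤ) ^ 2 - 1) *
      (((q : ℤ) * (q : ℤ) ^ 2 + 1) * ((q : ℤ) ^ 2 - 1)))
    (hdvd : k ∣ Zc * (q * (q ^ 2) ^ 2)) : False := by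
  have hq' : (3 : ℤ) ≤ q := by exact_mod_cast hq
  have hqq : ((q : ℤ) ^ 2 - 1) ≠ 0 := by nlinarith
  obtain ⟨r, hr⟩ : ∃ r, q = r + 1 := ⟨q - 1, by omega⟩
  have hrZ : (q : ℤ) - 1 = r := by rw [hr]; push_cast; ring
  have hkZ : (k : ℤ) + 2 = (q : ℤ) ^ 5 + q := by exact_mod_cast hk
  have hZc : (Zc : ℤ) = ((q : ℤ) ^ 4 + 1) * ((q : ℤ) ^ 6 - 1) := by
    apply mul_left_cancel₀ hqq
    rw [hZ]
    ring
  -- the main divisibility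
  have h1 : (k : ℤ) ∣ 2 * ((r : ℤ) ^ 2 * (q : ℤ) ^ 4) := by
    have h0 : (k : ℤ) ∣ (Zc : ℤ) * (q * ((q : ℤ) ^ 2) ^ 2) := by exact_mod_cast hdvd
    have e : (Zc : ℤ) * (q * ((q : ℤ) ^ 2) ^ 2)
        = (k : ℤ) * (((k : ℤ) * q + 2 * q - (r : ℤ) ^ 2) * (q : ℤ) ^ 4) - 2 * ((r : ℤ) ^ 2 * (q : ℤ) ^ 4) := by
      have e6 : (q : ℤ) ^ 6 - 1 = (k : ℤ) * q - (r : ℤ) ^ 2 := by
        rw [← hrZ]
        have : (k : ℤ) = (q : ℤ) ^ 5 + q - 2 := by linarith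
        rw [this]
        ring
      have e5 : (q : ℤ) * ((q : ℤ) ^ 4 + 1) = (k : ℤ) + 2 := by rw [hkZ]; ring
      rw [hZc, e6]
      calc ((q : ℤ) ^ 4 + 1) * ((k : ℤ) * q - (r : ℤ) ^ 2) * (q * ((q : ℤ) ^ 2) ^ 2)
          = ((q : ℤ) * ((q : ℤ) ^ 4 + 1)) * ((k : ℤ) * q - (r : ℤ) ^ 2) * (q : ℤ) ^ 4 := by ring
        _ = _ := by rw [e5]; ring
    rw [e] at h0
    have h3 : (k : ℤ) ∣ (k : ℤ) * (((k : ℤ) * q + 2 * q - (r : ℤ) ^ 2) * (q : ℤ) ^ 4) := Dvd.intro _ rfl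
    exact (dvd_sub_right h3).1 h0
  have h2 : k ∣ 2 * (r ^ 2 * q ^ 4) := by exact_mod_cast h1
  have hpoly : 2 * r ^ 2 + 2 < q ^ 5 + q := by
    have hr2 : 2 ≤ r := by omega
    rw [hr]
    have e : (r + 1) ^ 5 = r ^ 5 + 5 * r ^ 4 + 10 * r ^ 3 + 10 * r ^ 2 + 5 * r + 1 := by ring
    rw [e]
    omega
  have hqr : 0 < r := by omega
  by_cases hp2 : p = 2
  · subst hp2
    obtain ⟨g, hg⟩ : ∃ g, f = g + 2 := by
      rcases f with _ | _ | g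
      · simp at hqp
        omega
      · simp at hqp
        omega
      · exact ⟨g, rfl⟩
    subst hg
    have hq4 : q = 4 * 2 ^ g := by
      rw [hqp]
      ring
    obtain ⟨k', hk'⟩ : ∃ k', k' + 1 = 2 * 2 ^ g * (q ^ 4 + 1) := by
      have : 0 < 2 * 2 ^ g * (q ^ 4 + 1) := by positivity
      exact ⟨2 * 2 ^ g * (q ^ 4 + 1) - 1, by omega⟩
    have hkk : k = 2 * k' := by
      have : q ^ 5 + q = 2 * (2 * 2 ^ g * (q ^ 4 + 1)) := by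
        calc q ^ 5 + q = q * (q ^ 4 + 1) := by ring
          _ = (4 * 2 ^ g) * (q ^ 4 + 1) := congrArg (· * (q ^ 4 + 1)) hq4
          _ = _ := by ring
      omega
    have hodd : Nat.Coprime k' 2 := by
      rw [Nat.coprime_two_right]
      rw [← Nat.not_even_iff_odd]
      intro he
      have h5 : Even (k' + 1) := by rw [hk']; exact ⟨2 ^ g * (q ^ 4 + 1), by ring⟩
      have h6 : Odd (k' + 1) := he.add_one
      exact (Nat.not_even_iff_odd.2 h6) h5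
    have hcop : Nat.Coprime k' (q ^ 4) := by
      rw [hqp]
      exact (hodd.pow_right _).pow_right 4
    rw [hkk] at h2
    have h3 : k' ∣ r ^ 2 * q ^ 4 := Nat.dvd_of_mul_dvd_mul_left (by norm_num) h2
    have h4 : k' ∣ r ^ 2 := hcop.dvd_of_dvd_mul_right h3
    have h5 := Nat.le_of_dvd (by positivity) h4
    omega
  · have hpk : ¬ p ∣ k := by
      intro hd
      have hpq : p ∣ q := by
        rw [hqp]
        exact dvd_pow_self p (by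
          rintro rfl
          simp at hqp
          omega)
      have h3 : p ∣ q ^ 5 + q := (Nat.dvd_add_right (dvd_pow hpq (by norm_num))).2 hpq
      rw [← hk] at h3
      have h4 : p ∣ 2 := (Nat.dvd_add_right hd).1 h3
      exact hp2 ((Nat.prime_dvd_prime_iff_eq hp Nat.prime_two).1 h4)
    have hcop0 : Nat.Coprime k p := ((Nat.Prime.coprime_iff_not_dvd hp).2 hpk).symm
    have hcop : Nat.Coprime k (q ^ 4) := by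
      rw [hqp]
      exact (hcop0.pow_right _).pow_right 4
    have h3 : k ∣ (2 * r ^ 2) * q ^ 4 := by
      have e : (2 * r ^ 2) * q ^ 4 = 2 * (r ^ 2 * q ^ 4) := by ring
      rwa [e]
    have h4 : k ∣ 2 * r ^ 2 := hcop.dvd_of_dvd_mul_right h3
    have h5 := Nat.le_of_dvd (by positivity) h4
    omega

end num

end Cfsg.Agent.Lib.OMinus44D
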