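import Mathlib
import Cfsg.Agent.Lib.OMinus44D

/-!
# Minimal degrees of orthogonal groups of minus type: counting, base and recursion
-/

set_option autoImplicit false
set_option linter.unusedSectionVars false
set_option linter.unusedVariables false
set_option linter.unnecessarySeqFocus false
set_option linter.style.haveILetI false

namespace Cfsg.Agent.Lib.OMinus44H

open QuadraticMap Matrix Cfsg Cfsg.Agent.Lib.OrthoBasic Cfsg.Agent.Lib.OrthoSiegel
  Cfsg.Agent.Lib.OrthoGen Cfsg.Agent.Lib.OrthoSimple Cfsg.Agent.Lib.OrthoFinal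
  Cfsg.Agent.Lib.FourierAb Cfsg.Agent.Lib.OMinA Cfsg.Agent.Lib.OMinB Cfsg.Agent.Lib.OMinC
  Cfsg.Agent.Lib.OMinD Cfsg.Agent.Lib.OMinE Cfsg.Agent.Lib.OMinF Cfsg.Agent.Lib.SLMinB
  Cfsg.Agent.Lib.OrthoCount Cfsg.Agent.Lib.OrthoOrder Cfsg.Agent.Lib.OMinus44A Cfsg.Agent.Lib.OMinus44B
  Cfsg.Agent.Lib.OMinus44C Cfsg.Agent.Lib.OMinus44D Cfsg.Agent.Lib.OMinus44G Cfsg.Agent.Lib.OMinH
  Cfsg.Agent.Lib.OrthoCardFinal

section count

variable {F : Type*} [Field F] [Fintype F]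

lemma fibre_minus_zero (a b : F)
    (hab : ∀ z₁ z₂ : F, z₁ ^ 2 + a * z₁ * z₂ + b * z₂ ^ 2 = 0 → z₁ = 0 ∧ z₂ = 0) {c : F} (hc : c ≠ 0) :
    Nat.card {v // qMinus 0 a b v = c} = Fintype.card F + 1 := by
  classical
  obtain ⟨K, _, _, _, θ, hK, H⟩ := Cfsg.Agent.Lib.QuadExt.exists_data (q := Fintype.card F) rfl a b hab
  have h1 := natCard_fibre_congr (Cfsg.Agent.Lib.OrthoDihedral.psiEquiv H rfl hK)
    (Cfsg.Agent.Lib.OrthoDihedral.QK_psi H rfl hK) c
  rw [h1]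
  have hcK : algebraMap F K c ≠ 0 := (map_ne_zero _).2 hc
  have hcq : (algebraMap F K c) ^ Fintype.card F = algebraMap F K c := by
    rw [← map_pow, FiniteField.pow_card]
  have h2 := Cfsg.Agent.Lib.HermCount.card_nrm_fibre_ne hK hcK hcq
  rw [← h2, Nat.card_eq_fintype_card, Fintype.card_subtype]
  congr 1
  ext x
  simp only [Finset.mem_filter, Finset.mem_univ, true_and]
  rw [← Cfsg.Agent.Lib.OrthoDihedral.QK_nrm H rfl hK]
  exact (algebraMap F K).injective.eq_iff.symm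

theorem fibre_minus (a b : F)
    (hab : ∀ z₁ z₂ : F, z₁ ^ 2 + a * z₁ * z₂ + b * z₂ ^ 2 = 0 → z₁ = 0 ∧ z₂ = 0) {c : F} (hc : c ≠ 0) (m : ℕ) :
    (Nat.card {v // qMinus m a b v = c} : ℤ)
      = (Fintype.card F : ℤ) ^ (2 * m + 1) + (Fintype.card F : ℤ) ^ m := by
  have hq := one_lt_q (F := F)
  have hq' : ((Fintype.card F - 1 : ℕ) : ℤ) = (Fintype.card F : ℤ) - 1 := by
    push_cast [Nat.one_le_of_lt hq]; ring
  induction m with
  | zero =>
    rw [fibre_minus_zero a b hab hc]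
    push_cast
    ring
  | succ m ih =>
    rw [natCard_fibre_congr (splitMinus m).symm (Q := hypQ (qMinus m a b)) (fun v => by
      rw [← qMinus_split, LinearEquiv.apply_symm_apply]) c |>.symm]
    rw [natCard_level_hyp, card_fun_minus]
    push_cast
    rw [ih, hq']
    ring

/-- The numbers of the tower. -/
lemma tower_m (m : ℕ) (a b c : F) :
    (Nat.card {l : F × F × (F × F × ((Fin m ⊕ Fin m) ⊕ Fin 2 → F)) // hypQ (hypQ (qMinus m a b)) l = c} : ℤ)
      = ((Fintype.card F : ℤ) - 1) * ((Fintype.card F : ℤ) ^ 2 * (Fintype.card F : ℤ) ^ (2 * m + 2)) +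
        Fintype.card F * (((Fintype.card F : ℤ) - 1) * (Fintype.card F : ℤ) ^ (2 * m + 2) +
          Fintype.card F * Nat.card {w // qMinus m a b w = c}) := by
  rw [card_hyp_Z, card_hyp_Z, Nat.card_prod, Nat.card_prod, card_fun_minus, Nat.card_eq_fintype_card (α := F)]
  push_cast
  ring

lemma tower_m3 (m : ℕ) (a b c : F) :
    (Nat.card {l : F × F × (F × F × (F × F × ((Fin m ⊕ Fin m) ⊕ Fin 2 → F))) // hypQ (hypQ (hypQ (qMinus m a b))) l = c} : ℤ)
      = ((Fintype.card F : ℤ) - 1) * ((Fintype.card F : ℤ) ^ 4 * (Fintype.card F : ℤ) ^ (2 * m + 2)) +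
        Fintype.card F * (((Fintype.card F : ℤ) - 1) * ((Fintype.card F : ℤ) ^ 2 * (Fintype.card F : ℤ) ^ (2 * m + 2)) +
        Fintype.card F * (((Fintype.card F : ℤ) - 1) * (Fintype.card F : ℤ) ^ (2 * m + 2) +
          Fintype.card F * Nat.card {w // qMinus m a b w = c})) := by
  rw [card_hyp_Z, tower_m, Nat.card_prod, Nat.card_prod, Nat.card_prod, Nat.card_prod, card_fun_minus, Nat.card_eq_fintype_card (α := F)]
  push_cast
  ring

/-- The isometry from `qMinus (m + 2)` to the tower of hyperbolic planes. -/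
noncomputable def split2 (m : ℕ) : ((Fin (m + 2) ⊕ Fin (m + 2)) ⊕ Fin 2 → F) ≃ₗ[F]
    F × F × (F × F × ((Fin m ⊕ Fin m) ⊕ Fin 2 → F)) :=
  (splitMinus (m + 1)).trans (hypCongr (splitMinus m))

lemma split2_Q (m : ℕ) (a b : F) (v : (Fin (m + 2) ⊕ Fin (m + 2)) ⊕ Fin 2 → F) :
    hypQ (hypQ (qMinus m a b)) (split2 m v) = qMinus (m + 2) a b v := by
  change hypQ (hypQ (qMinus m a b)) (hypCongr (splitMinus m) (splitMinus (m + 1) v)) = _
  rw [hypCongr_Q _ (qMinus_split m a b), qMinus_split]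

/-- The isometry from `qMinus (m + 3)` to the tower of hyperbolic planes. -/
noncomputable def split3m (m : ℕ) : ((Fin (m + 3) ⊕ Fin (m + 3)) ⊕ Fin 2 → F) ≃ₗ[F]
    F × F × (F × F × (F × F × ((Fin m ⊕ Fin m) ⊕ Fin 2 → F))) :=
  (splitMinus (m + 2)).trans (hypCongr (split2 m))

lemma split3m_Q (m : ℕ) (a b : F) (v : (Fin (m + 3) ⊕ Fin (m + 3)) ⊕ Fin 2 → F) :
    hypQ (hypQ (hypQ (qMinus m a b))) (split3m m v) = qMinus (m + 3) a b v := by
  change hypQ (hypQ (hypQ (qMinus m a b))) (hypCongr (split2 m) (splitMinus (m + 2) v)) = _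
  rw [hypCongr_Q _ (split2_Q m a b), qMinus_split]

variable (a b : F) (hab : ∀ z₁ z₂ : F, z₁ ^ 2 + a * z₁ * z₂ + b * z₂ ^ 2 = 0 → z₁ = 0 ∧ z₂ = 0)

include hab in
lemma hE_minus (m : ℕ) : commutator (OG (qMinus (m + 2) a b)) = siegelE (qMinus (m + 2) a b) := by
  obtain ⟨fr⟩ := frameMinus a b hab m
  exact omega_eq_E (nondeg_qMinus a b hab _) (genR_qMinus a b hab _) fr

include hab in
lemma exists_polar_ne_minus (m : ℕ) : ∃ u z : ((Fin m ⊕ Fin m) ⊕ Fin 2 → F), polar (qMinus m a b) u z ≠ 0 := by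
  have hne : (fun _ => 1 : (Fin m ⊕ Fin m) ⊕ Fin 2 → F) ≠ 0 := by
    intro h
    exact one_ne_zero (congrFun h (.inr 0))
  obtain ⟨z, hz⟩ := nondeg_qMinus a b hab m _ hne
  exact ⟨_, z, hz⟩

include hab in
/-- Anisotropy of the form in dimension two. -/
lemma eq_zero_of_minus_zero {z : (Fin 0 ⊕ Fin 0) ⊕ Fin 2 → F} (hz : qMinus 0 a b z = 0) : z = 0 := by
  rw [qMinus_apply] at hz
  simp only [Cfsg.quadFormMinus, Finset.univ_eq_empty, Finset.sum_empty, zero_add] at hz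
  obtain ⟨h0, h1⟩ := hab _ _ hz
  ext (i | i)
  · exact (Fin.elim0 (by cases i <;> assumption))
  · fin_cases i
    · simpa using h0
    · simpa using h1

include hab in
lemma finrank_ge (m : ℕ) (hm : 1 ≤ m) : 3 ≤ Module.finrank F ((Fin m ⊕ Fin m) ⊕ Fin 2 → F) := by
  rw [Module.finrank_fintype_fun_eq_card]
  simp
  omega

include hab in
/-- Room at all levels. -/
lemma sep_pos (m : ℕ) (hm : 1 ≤ m) (c : F) : OMinus44B.Sep (qMinus m a b) c :=
  fun z _ => sep_of_finrank (nondeg_qMinus a b hab m) (finrank_ge a b hab m hm) z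

include hab in
/-- Room at the level zero. -/
lemma sep_zero (m : ℕ) : OMinus44B.Sep (qMinus m a b) 0 := by
  intro z hz
  rcases Nat.eq_zero_or_pos m with rfl | hm
  · have hz0 := eq_zero_of_minus_zero a b hab hz
    subst hz0
    obtain ⟨u, v, huv⟩ := exists_polar_ne_minus a b hab 0
    refine ⟨u, (polar (qMinus 0 a b) u v)⁻¹ • v, ?_, ?_, ?_⟩
    · rw [polar_smul_r, inv_mul_cancel₀ huv]
    · exact polar_zero_left _ _
    · exact polar_zero_left _ _
  · exact sep_pos a b hab m hm 0 z hz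

end count

section base

variable {F : Type*} [Field F] [Fintype F] {W : Type*} [AddCommGroup W] [Module F W] [Fintype W]
  [FiniteDimensional F W] {Q₀ : QuadraticForm F W} (hQ₀ : Nondeg Q₀) {k : ℕ}
  (R : siegelE (hypQ Q₀) →* Matrix (Fin k) (Fin k) ℂ) {ψ : AddChar F ℂ}

/-- The count of a level is a lower bound for the degree. -/
lemma level_sum (hψ : ψ.IsPrimitive) {l₀ : W} (hl₀ : l₀ ≠ 0) (hE : EE hQ₀ R ψ l₀ ≠ 0)
    (hrk : ∀ l l', Q₀ l = Q₀ l' → l ≠ 0 → l' ≠ 0 → rk (EE hQ₀ R ψ l) = rk (EE hQ₀ R ψ l'))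
    [DecidableEq W] [DecidablePred fun l => l ≠ 0 ∧ Q₀ l = Q₀ l₀] :
    (Finset.univ.filter (fun l => l ≠ 0 ∧ Q₀ l = Q₀ l₀)).card ≤ k := by
  have hsum := sum_rk (rr_zero hQ₀ R) (rr_add hQ₀ R) hψ hQ₀
  have hpos : 1 ≤ rk (EE hQ₀ R ψ l₀) := rk_pos_of_ne (EE_idem _ _ ψ _) hE
  calc (Finset.univ.filter (fun l => l ≠ 0 ∧ Q₀ l = Q₀ l₀)).card
      = ∑ _l ∈ Finset.univ.filter (fun l => l ≠ 0 ∧ Q₀ l = Q₀ l₀), 1 := by simp
    _ ≤ ∑ l ∈ Finset.univ.filter (fun l => l ≠ 0 ∧ Q₀ l = Q₀ l₀), rk (EE hQ₀ R ψ l) :=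
        Finset.sum_le_sum fun l hl => by
          have hl' := (Finset.mem_filter.1 hl).2
          rw [hrk l l₀ hl'.2 hl'.1 hl₀]
          exact hpos
    _ ≤ ∑ l, rk (EE hQ₀ R ψ l) := Finset.sum_le_sum_of_subset (Finset.subset_univ _)
    _ = k := hsum

end base

section base2

variable {F : Type*} [Field F] [Fintype F]
  (a b : F) (hab : ∀ z₁ z₂ : F, z₁ ^ 2 + a * z₁ * z₂ + b * z₂ ^ 2 = 0 → z₁ = 0 ∧ z₂ = 0)

include hab in
/-- The form of dimension two is universal. -/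
lemma univ_minus_zero (c : F) (hc : c ≠ 0) : ∃ w, qMinus 0 a b w = c := by
  have h := fibre_minus_zero a b hab hc
  have hpos : 0 < Nat.card {v // qMinus 0 a b v = c} := by
    rw [h]
    omega
  haveI := (Nat.card_pos_iff.1 hpos).1
  obtain ⟨⟨v, hv⟩⟩ := this
  exact ⟨v, hv⟩

include hab in
/-- The lower bound for the form of dimension six. -/
theorem base_minus : ∃ D : ℕ, ((Fintype.card F : ℤ) ^ 2 - 1) * ((D : ℤ) + 1)
      = ((Fintype.card F : ℤ) * (Fintype.card F : ℤ) ^ 2 + 1) * ((Fintype.card F : ℤ) ^ 2 - Fintype.card F) ∧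
    MinDegG (siegelE (qMinus 2 a b)) D := by
  classical
  set q := Fintype.card F with hq
  have hq2 : 2 ≤ q := one_lt_q (F := F)
  have hqZ : (2 : ℤ) ≤ q := by exact_mod_cast hq2
  have hQ₂ := nondeg_qMinus a b hab 0
  have hgen := genR_qMinus a b hab 0
  obtain ⟨u, z, huz⟩ := exists_polar_ne_minus a b hab 0
  have hE₀ := hE_tower hQ₂ hgen huz
  have hQ0 := hypQ_nondeg hQ₂
  -- numbers
  have hc0 : (Nat.card {w // qMinus 0 a b w = 0} : ℤ) = 1 := by
    rw [zeros_minus a b hab 0]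
    ring
  have hcW : Nat.card ((Fin 0 ⊕ Fin 0) ⊕ Fin 2 → F) = q ^ 2 := by
    rw [card_fun_minus]
  have hlev0 : (Nat.card {p : F × F × ((Fin 0 ⊕ Fin 0) ⊕ Fin 2 → F) // hypQ (qMinus 0 a b) p = 0} : ℤ)
      = ((q : ℤ) - 1) * (q : ℤ) ^ 2 + q := by
    rw [card_hyp_Z, hc0, hcW]
    push_cast
    ring
  have hleva : ∀ c : F, c ≠ 0 →
      (Nat.card {p : F × F × ((Fin 0 ⊕ Fin 0) ⊕ Fin 2 → F) // hypQ (qMinus 0 a b) p = c} : ℤ)
      = ((q : ℤ) - 1) * (q : ℤ) ^ 2 + q * ((q : ℤ) + 1) := by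
    intro c hc
    rw [card_hyp_Z, fibre_minus a b hab hc 0, hcW]
    push_cast
    ring
  have hpos0 : 1 ≤ Nat.card {p : F × F × ((Fin 0 ⊕ Fin 0) ⊕ Fin 2 → F) // hypQ (qMinus 0 a b) p = 0} := by
    haveI : Nonempty {p : F × F × ((Fin 0 ⊕ Fin 0) ⊕ Fin 2 → F) // hypQ (qMinus 0 a b) p = 0} := ⟨⟨0, map_zero _⟩⟩
    exact Nat.card_pos
  set D := Nat.card {p : F × F × ((Fin 0 ⊕ Fin 0) ⊕ Fin 2 → F) // hypQ (qMinus 0 a b) p = 0} - 1 with hD
  have hDZ : (D : ℤ) + 1 = ((q : ℤ) - 1) * (q : ℤ) ^ 2 + q := by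
    rw [hD, Nat.cast_sub hpos0, hlev0]
    push_cast
    ring
  refine ⟨D, by rw [hDZ]; ring, ?_⟩
  suffices hsuff : MinDegG (siegelE (hypQ (hypQ (qMinus 0 a b)))) D from
    hsuff.of_equiv (siegelEquiv (split2 0).symm (fun v => by
      rw [← split2_Q 0 a b, LinearEquiv.apply_symm_apply]) hE₀ (hE_minus a b hab 0))
  intro k ρ hρ hnt
  haveI : Finite (siegelE (hypQ (hypQ (qMinus 0 a b)))) := Cfsg.Agent.Lib.OMinD.finite_E _
  obtain ⟨ψ, hψ⟩ := Cfsg.Agent.Lib.SLMinC.exists_primitive F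
  have hnt' : ∃ g, matR ρ g ≠ 1 := by
    obtain ⟨g, hg⟩ := hnt
    exact ⟨g, fun h => hg (rho_eq_one ρ h)⟩
  have fr : Frame (hypQ (hypQ (qMinus 0 a b))) := frameHyp u z huz
  have hu0 : ((1, 0, 0) : F × F × ((Fin 0 ⊕ Fin 0) ⊕ Fin 2 → F)) ≠ 0 := by
    intro h
    have := congrArg (fun t : F × F × ((Fin 0 ⊕ Fin 0) ⊕ Fin 2 → F) => t.1) h
    simp at this
  obtain ⟨l₀, hl₀, hEl₀⟩ := exists_support hQ0 (matR ρ) hψ fr hu0 hnt'
  have huniv : ∀ c : F, c ≠ 0 → ∃ u : F × F × ((Fin 0 ⊕ Fin 0) ⊕ Fin 2 → F),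
      polar (hypQ (qMinus 0 a b)) u ((1, 0, 0) : F × F × ((Fin 0 ⊕ Fin 0) ⊕ Fin 2 → F)) = 0 ∧
      polar (hypQ (qMinus 0 a b)) u ((0, 1, 0) : F × F × ((Fin 0 ⊕ Fin 0) ⊕ Fin 2 → F)) = 0 ∧
      hypQ (qMinus 0 a b) u = c := by
    intro c hc
    obtain ⟨w, hw⟩ := univ_minus_zero a b hab c hc
    refine ⟨(0, 0, w), ?_, ?_, by simp [hw]⟩
    · rw [hypQ_polar]; simp
    · rw [hypQ_polar]; simp
  have hrk : ∀ l l', hypQ (qMinus 0 a b) l = hypQ (qMinus 0 a b) l' → l ≠ 0 → l' ≠ 0 →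
      rk (EE hQ0 (matR ρ) ψ l) = rk (EE hQ0 (matR ρ) ψ l') := fun l l' h h1 h2 =>
    rk_level hQ0 (matR ρ) (hypQ_basePair (qMinus 0 a b)) huniv h h1 h2
  have hle := level_sum hQ0 (matR ρ) hψ hl₀ hEl₀ hrk
  have hcl := card_level (Q₀ := hypQ (qMinus 0 a b)) (hypQ (qMinus 0 a b) l₀)
  by_cases h0 : hypQ (qMinus 0 a b) l₀ = 0
  · rw [if_pos h0] at hcl
    rw [h0] at hcl hle
    omega
  · rw [if_neg h0, add_zero] at hcl
    have h1 := hleva _ h0
    have h2 : (Nat.card {p : F × F × ((Fin 0 ⊕ Fin 0) ⊕ Fin 2 → F) // hypQ (qMinus 0 a b) p = hypQ (qMinus 0 a b) l₀} : ℤ) ≤ k := by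
      rw [← hcl]
      exact_mod_cast hle
    rw [h1] at h2
    have h3 : (D : ℤ) ≤ k := by nlinarith
    exact_mod_cast h3

end base2

section step

variable {F : Type*} [Field F] [Fintype F]

/-- Coordinates for the plane. -/
def mu0 : (F × F) ≃ₗ[F] ((Fin 0 ⊕ Fin 0) ⊕ Fin 2 → F) where
  toFun p := Sum.elim (fun _ => 0) ![p.1, p.2]
  map_add' x y := by
    ext (i | i)
    · exact (Fin.elim0 (by cases i <;> assumption))
    · fin_cases i <;> simp
  map_smul' c x := by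
    ext (i | i)
    · exact (Fin.elim0 (by cases i <;> assumption))
    · fin_cases i <;> simp
  invFun v := (v (.inr 0), v (.inr 1))
  left_inv p := by
    simp
  right_inv v := by
    ext (i | i)
    · exact (Fin.elim0 (by cases i <;> assumption))
    · fin_cases i <;> simp

lemma mu0_Q (a b s t : F) : qMinus 0 a b (mu0 (s, t)) = s * s + a * s * t + b * t * t := by
  rw [qMinus_apply]
  simp [Cfsg.quadFormMinus, mu0]
  ring

/-- In the field of two elements the data of the anisotropic form is determined. -/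
lemma two_data (hq : Fintype.card F = 2) (a b : F)
    (hab : ∀ z₁ z₂ : F, z₁ ^ 2 + a * z₁ * z₂ + b * z₂ ^ 2 = 0 → z₁ = 0 ∧ z₂ = 0) :
    (2 : F) = 0 ∧ a = 1 ∧ b = 1 := by
  have h2 : (2 : F) = 0 := by
    have := FiniteField.cast_card_eq_zero F
    rw [hq] at this
    exact_mod_cast this
  have h1 : ∀ x : F, x ≠ 0 → x = 1 := by
    intro x hx
    have := FiniteField.pow_card_sub_one_eq_one x hx
    rw [hq] at this
    simpa using this
  have hb : b = 1 := by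
    apply h1
    rintro rfl
    have := (hab 0 1 (by ring)).2
    exact one_ne_zero this
  have ha : a = 1 := by
    apply h1
    rintro rfl
    rw [hb] at hab
    have := (hab 1 1 (by linear_combination h2)).1
    exact one_ne_zero this
  exact ⟨h2, ha, hb⟩

set_option maxHeartbeats 4000000 in
/-- The recursion step. -/
theorem step_minus (a b : F) (hab : ∀ z₁ z₂ : F, z₁ ^ 2 + a * z₁ * z₂ + b * z₂ ^ 2 = 0 → z₁ = 0 ∧ z₂ = 0)
    (m : ℕ) {D e : ℕ} (he : (m = 0 ∧ e = 1) ∨ (1 ≤ m ∧ e = 0))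
    (hD : ((Fintype.card F : ℤ) ^ 2 - 1) * ((D : ℤ) + e)
      = ((Fintype.card F : ℤ) * (Fintype.card F : ℤ) ^ (m + 2) + 1) *
        ((Fintype.card F : ℤ) ^ (m + 2) - Fintype.card F))
    (hmd : MinDegG (siegelE (qMinus (m + 2) a b)) D) :
    ∃ T : ℕ, ((Fintype.card F : ℤ) ^ 2 - 1) * T
      = (Fintype.card F : ℤ) * ((Fintype.card F : ℤ) ^ 2 * (Fintype.card F : ℤ) ^ (m + 2) + 1) *
        ((Fintype.card F : ℤ) ^ (m + 2) - 1) ∧
      MinDegG (siegelE (qMinus (m + 3) a b)) T := by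
  classical
  set q := Fintype.card F with hq
  set M := q ^ (m + 2) with hM
  have hMZ : (M : ℤ) = (q : ℤ) ^ (m + 2) := by rw [hM]; push_cast; rfl
  rw [← hMZ] at hD ⊢
  have hq2 : 2 ≤ q := one_lt_q (F := F)
  have hqZ : (2 : ℤ) ≤ q := by exact_mod_cast hq2
  have hMq : q ^ 2 ≤ M := Nat.pow_le_pow_right (by omega) (by omega)
  -- the tower
  obtain ⟨u, z, huz⟩ := exists_polar_ne_minus a b hab m
  have hQ₂ := nondeg_qMinus a b hab m
  have hgen := genR_qMinus a b hab m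
  have hE₀ := hE_tower hQ₂ hgen huz
  have hE := hE_tower (hypQ_nondeg hQ₂) (genR_hyp hQ₂ hgen) (polar_up huz)
  have hQ0 := hypQ_nondeg (hypQ_nondeg hQ₂)
  -- numbers
  have hu : (M : ℤ) = (q : ℤ) ^ 2 * (q : ℤ) ^ m := by rw [hMZ]; ring
  have hP : (q : ℤ) ^ (2 * m + 2) = (q : ℤ) ^ 2 * ((q : ℤ) ^ m) ^ 2 := by ring
  have hP1 : (q : ℤ) ^ (2 * m + 1) = (q : ℤ) * ((q : ℤ) ^ m) ^ 2 := by ring
  have hqm1 : (q : ℤ) ^ (m + 1) = (q : ℤ) * ((q : ℤ) ^ m) := by ring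
  set U : ℤ := (q : ℤ) ^ m with hU
  have hL : ∀ c : F, c ≠ 0 → (Nat.card {l // hypQ (hypQ (qMinus m a b)) l = c} : ℤ)
      = (q : ℤ) * M ^ 2 + M := by
    intro c hc
    rw [tower_m, fibre_minus a b hab hc, hP, hP1, hu, ← hq]
    ring
  have hZ0 : (Nat.card {l // hypQ (hypQ (qMinus m a b)) l = 0} : ℤ)
      = (q : ℤ) * M ^ 2 + M - q * M := by
    rw [tower_m, zeros_minus a b hab, hP, hP1, hqm1, hu, ← hq]
    ring
  have hA : (Nat.card {l // hypQ (hypQ (hypQ (qMinus m a b))) l = 0} : ℤ)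
      = (q : ℤ) ^ 3 * M ^ 2 + q * M - (q : ℤ) ^ 2 * M := by
    rw [tower_m3, zeros_minus a b hab, hP, hP1, hqm1, hu, ← hq]
    ring
  have hcard : ((Fintype.card (F × F × ((Fin m ⊕ Fin m) ⊕ Fin 2 → F)) : ℕ) : ℕ) = M ^ 2 := by
    rw [Fintype.card_prod, Fintype.card_prod, ← hq, ← Nat.card_eq_fintype_card (α := (Fin m ⊕ Fin m) ⊕ Fin 2 → F),
      card_fun_minus, ← hq, hM]
    ring
  have hZ0pos : 1 ≤ Nat.card {l // hypQ (hypQ (qMinus m a b)) l = 0} := by
    haveI : Nonempty {l // hypQ (hypQ (qMinus m a b)) l = 0} := ⟨⟨0, map_zero _⟩⟩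
    exact Nat.card_pos
  have hApos : 1 ≤ Nat.card {l // hypQ (hypQ (hypQ (qMinus m a b))) l = 0} := by
    haveI : Nonempty {l // hypQ (hypQ (hypQ (qMinus m a b))) l = 0} := ⟨⟨0, map_zero _⟩⟩
    exact Nat.card_pos
  set s := Nat.card {l // hypQ (hypQ (qMinus m a b)) l = 0} - 1 with hs
  have hsZ : (s : ℤ) = ((q : ℤ) * M + 1) * ((M : ℤ) - 1) := by
    rw [hs, Nat.cast_sub hZ0pos, hZ0]
    push_cast
    ring
  have hT : ((q : ℤ) ^ 2 - 1) * ((s + D + e + 1 : ℕ) : ℤ)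
      = q * ((q : ℤ) ^ 2 * M + 1) * ((M : ℤ) - 1) := by
    push_cast
    rw [hsZ]
    linear_combination hD
  refine ⟨s + D + e + 1, hT, ?_⟩
  have hmd0 : MinDegG (siegelE (hypQ (hypQ (qMinus m a b)))) D :=
    hmd.of_equiv (siegelEquiv (split2 m) (split2_Q m a b) (hE_minus a b hab m) hE₀)
  suffices hsuff : MinDegG (siegelE (hypQ (hypQ (hypQ (qMinus m a b))))) (s + D + e + 1) from
    hsuff.of_equiv (siegelEquiv (split3m m).symm (fun v => by
      rw [← split3m_Q m a b, LinearEquiv.apply_symm_apply]) hE (hE_minus a b hab (m + 1)))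
  intro k ρ hρ hnt
  haveI : Finite (siegelE (hypQ (hypQ (hypQ (qMinus m a b))))) := Cfsg.Agent.Lib.OMinD.finite_E _
  have h2k : 2 ≤ k := two_le_of_perfect
    (siegelE_perfect (hypQ_nondeg hQ0) (frameHyp _ _ (polar_up huz))) ρ hρ hnt
  have hTle : ∀ x : ℤ, ((s + D + e + 1 : ℕ) : ℤ) ≤ x → x ≤ k → s + D + e + 1 ≤ k := by
    intro x h1 h2
    have := h1.trans h2
    exact_mod_cast this
  rcases OMinus44C.core2 hQ₂ huz hE.le (sep_zero a b hab m) ρ hρ h2k D hmd0 with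
    ⟨c, hc, hle, hor⟩ | hle | ⟨ψ, hψ, hns, hone, hdeg, hDr, Zc, hZc, hdvd⟩
  · have hN : (Nat.card {l // hypQ (hypQ (qMinus m a b)) l = c} : ℤ) = (q : ℤ) * M ^ 2 + M := hL c hc
    rcases he with ⟨rfl, rfl⟩ | ⟨hm, rfl⟩
    · have hM2 : M = q ^ 2 := rfl
      refine hTle ((q : ℤ) * M ^ 2 + M) ?_ ?_
      · rw [hM2] at hT ⊢
        push_cast at hT ⊢
        exact num_N0 hq2 (by push_cast at hT ⊢; exact hT)
      · rw [← hN]
        exact_mod_cast hle
    · rcases hor with h | ⟨c', _, hc', h⟩ | h | h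
      · refine hTle _ (num_2N hq2 hMq hT) ?_
        have h1 : ((2 * Nat.card {l // hypQ (hypQ (qMinus m a b)) l = c} : ℕ) : ℤ) ≤ k := by exact_mod_cast h
        push_cast at h1
        rw [hN] at h1
        exact h1
      · refine hTle _ (num_2N hq2 hMq hT) ?_
        have h1 : ((Nat.card {l // hypQ (hypQ (qMinus m a b)) l = c} + Nat.card {l // hypQ (hypQ (qMinus m a b)) l = c'} : ℕ) : ℤ) ≤ k := by
          exact_mod_cast h
        push_cast at h1
        rw [hN, hL c' hc'] at h1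
        linarith
      · refine hTle _ (num_Ns hq2 hMq hT) ?_
        have h1 : ((Nat.card {l // hypQ (hypQ (qMinus m a b)) l = c} + s : ℕ) : ℤ) ≤ k := by exact_mod_cast h
        push_cast at h1
        rw [hN, hsZ] at h1
        exact h1
      · have h' := h (sep_pos a b hab m hm c)
        have hD' : ((q : ℤ) ^ 2 - 1) * (D : ℤ) = ((q : ℤ) * M + 1) * ((M : ℤ) - q) := by
          rw [← hD]
          push_cast
          ring
        refine hTle _ (num_ND hq2 hMq hT hD') ?_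
        have h1 : ((Nat.card {l // hypQ (hypQ (qMinus m a b)) l = c} + D : ℕ) : ℤ) ≤ k := by exact_mod_cast h'
        push_cast at h1
        rw [hN] at h1
        exact h1
  · refine hTle _ (num_2s hq2 hMq hT) ?_
    have h1 : ((2 * s : ℕ) : ℤ) ≤ k := by exact_mod_cast hle
    push_cast at h1
    rw [hsZ] at h1
    linarith
  · by_contra hlt
    have hZc' : ((q : ℤ) ^ 2 - 1) * Zc = ((q : ℤ) ^ 2 * M + 1) * ((q : ℤ) * M - 1) * (((q : ℤ) * M + 1) * ((M : ℤ) - 1)) := by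
      have h1 := congrArg (fun n : ℕ => (n : ℤ)) hZc
      rw [Nat.cast_mul, Nat.cast_mul, Nat.cast_sub hApos, hA, ← hs, hsZ, ← hq,
        Nat.cast_sub (by nlinarith : 1 ≤ q * q)] at h1
      push_cast at h1
      rw [show (q : ℤ) ^ 2 - 1 = (q : ℤ) * q - 1 by ring, h1]
      ring
    have hdvd' : k ∣ Zc * (q * M ^ 2) := by
      rw [hcard] at hdvd
      exact hdvd
    have hkr : k = rk (EE hQ0 (matR ρ) ψ 0) + s := hdeg
    have hkT1 : k + 1 = s + D + e + 1 → False := fun hk1 =>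
      num_T1 hq2 hMq ⟨m + 2, rfl⟩ hT hZc' hk1 hdvd'
    rcases he with ⟨rfl, rfl⟩ | ⟨hm, rfl⟩
    · by_cases hk1 : k + 1 = s + D + 1 + 1
      · exact hkT1 hk1
      · -- two below the bound
        have hk2 : k + 2 = s + D + 1 + 1 := by omega
        have hM2 : (M : ℤ) = (q : ℤ) ^ 2 := by rw [hMZ]
        have hTq : s + D + 1 + 1 = q ^ 5 + q := by
          have hqq : ((q : ℤ) ^ 2 - 1) ≠ 0 := by nlinarith
          have h3 : ((s + D + 1 + 1 : ℕ) : ℤ) = (q : ℤ) ^ 5 + q := by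
            apply mul_left_cancel₀ hqq
            rw [hT, hM2]
            ring
          exact_mod_cast h3
        by_cases hq3 : 3 ≤ q
        · obtain ⟨p, hp⟩ := CharP.exists F
          obtain ⟨n, hpp, hn⟩ := FiniteField.card F p
          refine num_T2 hpp hn hq3 (hk2.trans hTq) ?_ (Zc := Zc) ?_
          · rw [hZc', hM2]
          · have hM2' : M = q ^ 2 := rfl
            rw [← hM2']
            exact hdvd'
        · have hq2' : q = 2 := by omega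
          obtain ⟨h2, ha, hb⟩ := two_data (F := F) hq2' a b hab
          subst ha hb
          have hD5 : D = 5 := by
            rw [hM2, hq2'] at hD
            push_cast at hD
            have : (D : ℤ) = 5 := by linarith
            exact_mod_cast this
          refine OMinus44G.no_32 hQ₂ (matR ρ) hgen huz h2 mu0 (fun s' t' => ?_) hψ hE.le (sep_zero 1 1 hab 0) hns hone ?_
          · rw [mu0_Q]
            ring
          · omega
    · apply hkT1
      omega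

end step

/-- The recursion. -/
theorem minDeg_minus {F : Type*} [Field F] [Fintype F] (a b : F)
    (hab : ∀ z₁ z₂ : F, z₁ ^ 2 + a * z₁ * z₂ + b * z₂ ^ 2 = 0 → z₁ = 0 ∧ z₂ = 0) (m : ℕ) :
    ∃ T : ℕ, ((Fintype.card F : ℤ) ^ 2 - 1) * T
      = (Fintype.card F : ℤ) * ((Fintype.card F : ℤ) ^ 2 * (Fintype.card F : ℤ) ^ (m + 2) + 1) *
        ((Fintype.card F : ℤ) ^ (m + 2) - 1) ∧
      MinDegG (siegelE (qMinus (m + 3) a b)) T := by
  induction m with
  | zero =>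
    obtain ⟨D, hD, hmd⟩ := base_minus a b hab
    refine step_minus a b hab 0 (D := D) (e := 1) (Or.inl ⟨rfl, rfl⟩) ?_ hmd
    push_cast
    rw [hD]
  | succ m ih =>
    obtain ⟨T, hT, hmd⟩ := ih
    refine step_minus a b hab (m + 1) (D := T) (e := 0) (Or.inr ⟨by omega, rfl⟩) ?_ hmd
    push_cast
    rw [add_zero, hT]
    ring

end Cfsg.Agent.Lib.OMinus44H
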