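import Mathlib

/-! Sylow 2-subgroups of orthogonal groups over the two-element field meet non-trivially:
an abstract argument with totally singular subspaces of codimension one in a maximal one. -/

set_option autoImplicit false

namespace Cfsg.Agent.Lib.OPlusF2

open Module

variable {F : Type*} [Field F] [CharP F 2]
variable {V : Type*} [AddCommGroup V] [Module F V] [FiniteDimensional F V]

section fixedmod

/-- A 2-group acting on a pair of subspaces over the two-element field fixes a nonzero coset. -/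
theorem exists_fixed_mod [Finite F] {P : Type*} [Group P] [Finite P] (hP : IsPGroup 2 P)
    (ρ : P →* Module.End F V) (W₁ W₂ : Submodule F V) (hle : W₁ ≤ W₂) (hne : W₁ ≠ W₂)
    (h₁ : ∀ p, ∀ w ∈ W₁, ρ p w ∈ W₁) (h₂ : ∀ p, ∀ w ∈ W₂, ρ p w ∈ W₂) :
    ∃ x ∈ W₂, x ∉ W₁ ∧ ∀ p, ρ p x - x ∈ W₁ := by
  classical
  haveI : Fact (Nat.Prime 2) := ⟨Nat.prime_two⟩
  haveI : Finite V := Module.finite_of_finite F
  set K : Submodule F W₂ := W₁.comap W₂.subtype with hK
  let A := W₂ ⧸ K
  let res : P → (W₂ →ₗ[F] W₂) := fun p => (ρ p).restrict (h₂ p)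
  have hres : ∀ p, K ≤ K.comap (res p) := by
    intro p x hx
    simp only [hK, Submodule.mem_comap, Submodule.subtype_apply, res, LinearMap.coe_restrict_apply] at hx ⊢
    exact h₁ p _ hx
  let φ : P → (A →ₗ[F] A) := fun p => K.mapQ K (res p) (hres p)
  have hφmk : ∀ p (x : W₂), φ p (K.mkQ x) = K.mkQ (res p x) := fun p x => rfl
  letI : MulAction P A :=
    { smul := fun p a => φ p a
      one_smul := by
        intro a
        obtain ⟨x, rfl⟩ := K.mkQ_surjective a
        change φ 1 (K.mkQ x) = K.mkQ x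
        rw [hφmk]
        congr 1
        ext
        simp [res]
      mul_smul := by
        intro p q a
        obtain ⟨x, rfl⟩ := K.mkQ_surjective a
        change φ (p * q) (K.mkQ x) = φ p (φ q (K.mkQ x))
        rw [hφmk, hφmk, hφmk]
        congr 1
        ext
        simp [res] }
  have hsmul : ∀ p (x : W₂), (p • (K.mkQ x : A)) = K.mkQ (res p x) := fun p x => rfl
  -- A has even cardinality
  have hK_lt : K ≠ ⊤ := by
    intro htop
    apply hne
    apply le_antisymm hle
    intro x hx
    have : (⟨x, hx⟩ : W₂) ∈ K := by rw [htop]; trivial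
    simpa [hK] using this
  haveI : Nontrivial A := Submodule.Quotient.nontrivial_iff.mpr hK_lt
  haveI : Finite A := Finite.of_surjective K.mkQ K.mkQ_surjective
  have hdvd : 2 ∣ Nat.card A := by
    -- an element of order two in the additive group
    obtain ⟨a, ha⟩ := exists_ne (0 : A)
    have h2 : (2 : ℕ) • a = 0 := by
      rw [two_nsmul]
      have : a + a = ((1 : F) + 1) • a := by rw [add_smul, one_smul]
      rw [this, CharTwo.add_self_eq_zero, zero_smul]
    have hord : addOrderOf a = 2 := by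
      apply addOrderOf_eq_prime h2 ha
    rw [← hord]
    exact addOrderOf_dvd_natCard a
  have h0 : (0 : A) ∈ MulAction.fixedPoints P A := by
    intro p
    change φ p 0 = 0
    simp
  obtain ⟨b, hb, hne0⟩ := hP.exists_fixed_point_of_prime_dvd_card_of_fixed_point A hdvd h0
  obtain ⟨x, rfl⟩ := K.mkQ_surjective b
  refine ⟨x.1, x.2, ?_, ?_⟩
  · intro hx
    apply hne0
    symm
    apply (Submodule.Quotient.mk_eq_zero K).mpr
    simpa [hK] using hx
  · intro p
    have := hb p
    rw [hsmul] at this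
    have h3 : K.mkQ (res p x - x) = 0 := by rw [map_sub, this, sub_self]
    have h4 : res p x - x ∈ K := (Submodule.Quotient.mk_eq_zero K).mp h3
    simpa [hK, res] using h4

end fixedmod

omit [FiniteDimensional F V] in
theorem add_self (F : Type*) [Field F] [CharP F 2] {V : Type*} [AddCommGroup V] [Module F V]
    (v : V) : v + v = 0 := by
  have : v + v = ((1 : F) + 1) • v := by rw [add_smul, one_smul]
  rw [this, CharTwo.add_self_eq_zero, zero_smul]

/-- The data: a quadratic function over the two-element field with symmetric polar form. -/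
structure QData (F : Type*) [Field F] (V : Type*) [AddCommGroup V] [Module F V] where
  Q : V → F
  B : LinearMap.BilinForm F V
  hQ : ∀ u v, Q (u + v) = Q u + Q v + B u v
  hsymm : ∀ u v, B u v = B v u
  hnd : ∀ v, (∀ u, B u v = 0) → v = 0
  h01 : ∀ a : F, a = 0 ∨ a = 1

namespace QData

variable (D : QData F V)

theorem Q_zero : D.Q 0 = 0 := by
  have := D.hQ 0 0
  simp only [add_zero, map_zero, LinearMap.zero_apply] at this
  linear_combination -this

theorem B_self (v : V) : D.B v v = 0 := by
  have := D.hQ v v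
  rw [add_self F, Q_zero, CharTwo.add_self_eq_zero, zero_add] at this
  exact this.symm

theorem refl : D.B.IsRefl := by
  intro u v h
  rw [D.hsymm, h]

/-- Total singularity. -/
def TS (U : Submodule F V) : Prop := ∀ u ∈ U, D.Q u = 0

theorem TS.B_eq_zero {D : QData F V} {U : Submodule F V} (hU : D.TS U) {u v : V} (hu : u ∈ U)
    (hv : v ∈ U) : D.B u v = 0 := by
  have := D.hQ u v
  rw [hU u hu, hU v hv, hU _ (U.add_mem hu hv)] at this
  linear_combination -this

/-- The orthogonal subspace. -/
def perp (U : Submodule F V) : Submodule F V := D.B.orthogonal U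

theorem mem_perp {U : Submodule F V} {v : V} : v ∈ D.perp U ↔ ∀ u ∈ U, D.B v u = 0 := by
  simp only [perp, LinearMap.BilinForm.mem_orthogonal_iff]
  constructor
  · intro h u hu
    rw [D.hsymm]
    exact h u hu
  · intro h u hu
    rw [D.hsymm]
    exact h u hu

theorem nondeg : D.B.Nondegenerate := by
  constructor
  · intro v hv
    apply D.hnd v
    intro u
    rw [D.hsymm]
    exact hv u
  · intro v hv
    apply D.hnd v
    intro u
    exact hv u

theorem finrank_perp (U : Submodule F V) :
    finrank F (D.perp U) = finrank F V - finrank F U :=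
  LinearMap.BilinForm.finrank_orthogonal D.nondeg U

theorem perp_anti {U W : Submodule F V} (h : U ≤ W) : D.perp W ≤ D.perp U := by
  intro v hv
  rw [mem_perp] at hv ⊢
  exact fun u hu => hv u (h hu)

end QData

theorem mem_sup_span {U : Submodule F V} {w x : V} (h01 : ∀ a : F, a = 0 ∨ a = 1) :
    x ∈ U ⊔ Submodule.span F {w} ↔ x ∈ U ∨ ∃ u ∈ U, x = u + w := by
  rw [Submodule.mem_sup]
  constructor
  · rintro ⟨u, hu, y, hy, rfl⟩
    obtain ⟨c, rfl⟩ := Submodule.mem_span_singleton.mp hy
    rcases h01 c with rfl | rfl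
    · left
      simpa using hu
    · right
      exact ⟨u, hu, by simp⟩
  · rintro (h | ⟨u, hu, rfl⟩)
    · exact ⟨x, h, 0, Submodule.zero_mem _, by simp⟩
    · exact ⟨u, hu, w, Submodule.mem_span_singleton_self w, rfl⟩

theorem sup_span_finrank {U : Submodule F V} {w : V} (hw : w ∉ U) :
    finrank F ↥(U ⊔ Submodule.span F {w}) = finrank F U + 1 :=
  by
  have h1 := Submodule.finrank_sup_add_finrank_inf_eq U (Submodule.span F {w})
  have hw0 : w ≠ 0 := fun h => hw (h ▸ U.zero_mem)
  have h2 : finrank F (Submodule.span F {w}) = 1 := finrank_span_singleton hw0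
  have h3 : U ⊓ Submodule.span F {w} = ⊥ := by
    rw [eq_bot_iff]
    intro x hx
    obtain ⟨hxU, hxw⟩ := Submodule.mem_inf.mp hx
    obtain ⟨c, rfl⟩ := Submodule.mem_span_singleton.mp hxw
    by_cases hc : c = 0
    · simp [hc]
    · exact absurd ((Submodule.smul_mem_iff U hc).mp hxU) hw
  rw [h3, finrank_bot, h2] at h1
  omega

namespace QData

variable (D : QData F V)

section action

variable {P : Type*} [Group P] (ρ : P →* Module.End F V)

theorem B_pres (f : V →ₗ[F] V) (hf : ∀ v, D.Q (f v) = D.Q v) (u v : V) :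
    D.B (f u) (f v) = D.B u v := by
  have h1 := D.hQ (f u) (f v)
  have h2 := D.hQ u v
  rw [← map_add, hf, hf, hf] at h1
  rw [h1] at h2
  exact add_left_cancel h2

theorem inv_perp (hρ : ∀ p v, D.Q (ρ p v) = D.Q v) {U : Submodule F V}
    (hinv : ∀ p, ∀ u ∈ U, ρ p u ∈ U) : ∀ p, ∀ u ∈ D.perp U, ρ p u ∈ D.perp U := by
  intro p y hy
  rw [mem_perp] at hy ⊢
  intro u hu
  have h1 : ρ p (ρ p⁻¹ u) = u := by
    rw [← Module.End.mul_apply, ← map_mul]
    simp
  rw [← h1, D.B_pres (ρ p) (hρ p)]
  exact hy _ (hinv _ _ hu)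

include D in
theorem inv_sup {U : Submodule F V} (hinv : ∀ p, ∀ u ∈ U, ρ p u ∈ U) {w : V}
    (hfix : ∀ p, ρ p w - w ∈ U) :
    ∀ p, ∀ u ∈ U ⊔ Submodule.span F {w}, ρ p u ∈ U ⊔ Submodule.span F {w} := by
  intro p x hx
  rw [mem_sup_span D.h01] at hx ⊢
  rcases hx with hx | ⟨u, hu, rfl⟩
  · exact Or.inl (hinv p x hx)
  · right
    refine ⟨ρ p u + (ρ p w - w), U.add_mem (hinv p u hu) (hfix p), ?_⟩
    rw [map_add]
    abel

theorem step1 {U : Submodule F V} (hTS : D.TS U) {w : V} (hw : w ∈ D.perp U)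
    (hQw : D.Q w = 0) : D.TS (U ⊔ Submodule.span F {w}) := by
  intro x hx
  rw [mem_sup_span D.h01] at hx
  rcases hx with hx | ⟨u, hu, rfl⟩
  · exact hTS x hx
  · rw [D.hQ, hTS u hu, hQw, D.hsymm, (D.mem_perp.mp hw) u hu]
    simp

/-- The step of the invariant flag. -/
theorem main_step [Finite F] [Finite P] (hP : IsPGroup 2 P) (hρ : ∀ p v, D.Q (ρ p v) = D.Q v)
    {U : Submodule F V} (hTS : D.TS U) (hinv : ∀ p, ∀ u ∈ U, ρ p u ∈ U)
    (hk : 2 * (finrank F U + 1) < finrank F V) :
    ∃ U' : Submodule F V, D.TS U' ∧ (∀ p, ∀ u ∈ U', ρ p u ∈ U') ∧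
      finrank F U' = finrank F U + 1 := by
  have hUle : U ≤ D.perp U := by
    intro u hu
    rw [mem_perp]
    exact fun v hv => hTS.B_eq_zero hu hv
  have hfinp := D.finrank_perp U
  have hUne : U ≠ D.perp U := by
    intro h
    rw [← h] at hfinp
    omega
  obtain ⟨w, hwp, hwU, hwfix⟩ := exists_fixed_mod hP ρ U (D.perp U) hUle hUne hinv
    (D.inv_perp ρ hρ hinv)
  by_cases hQw : D.Q w = 0
  · exact ⟨_, D.step1 hTS hwp hQw, D.inv_sup ρ hinv hwfix, sup_span_finrank hwU⟩
  have hQw1 : D.Q w = 1 := (D.h01 _).resolve_left hQw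
  set W := U ⊔ Submodule.span F {w} with hW
  have hwW : w ∈ W := Submodule.mem_sup_right (Submodule.mem_span_singleton_self w)
  have hUW : U ≤ W := le_sup_left
  have hBW : ∀ x ∈ W, ∀ y ∈ W, D.B x y = 0 := by
    intro x hx y hy
    rw [hW, mem_sup_span D.h01] at hx hy
    have hwu : ∀ u ∈ U, D.B u w = 0 := by
      intro u hu
      rw [D.hsymm]
      exact (D.mem_perp.mp hwp) u hu
    rcases hx with hx | ⟨u, hu, rfl⟩ <;> rcases hy with hy | ⟨v, hv, rfl⟩
    · exact hTS.B_eq_zero hx hy
    · simp only [map_add, hTS.B_eq_zero hx hv, hwu x hx, add_zero]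
    · simp only [map_add, LinearMap.add_apply, hTS.B_eq_zero hu hy, D.hsymm w y, hwu y hy, add_zero]
    · simp only [map_add, LinearMap.add_apply, hTS.B_eq_zero hu hv, hwu u hu, D.hsymm w v, hwu v hv,
        D.B_self w, add_zero]
  have hWle : W ≤ D.perp W := by
    intro x hx
    rw [mem_perp]
    exact fun y hy => hBW x hx y hy
  have hWfin : finrank F W = finrank F U + 1 := sup_span_finrank hwU
  have hfinp' := D.finrank_perp W
  have hWne : W ≠ D.perp W := by
    intro h
    rw [← h] at hfinp'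
    omega
  have hWinv := D.inv_sup ρ hinv hwfix
  obtain ⟨w', hw'p, hw'W, hw'fix⟩ := exists_fixed_mod hP ρ W (D.perp W) hWle hWne hWinv
    (D.inv_perp ρ hρ hWinv)
  -- the singular representative
  obtain ⟨w'', hw''p, hw''W, hw''fix, hQw''⟩ : ∃ w'' ∈ D.perp W, w'' ∉ W ∧
      (∀ p, ρ p w'' - w'' ∈ W) ∧ D.Q w'' = 0 := by
    by_cases hQ' : D.Q w' = 0
    · exact ⟨w', hw'p, hw'W, hw'fix, hQ'⟩
    · have hQ'1 : D.Q w' = 1 := (D.h01 _).resolve_left hQ'
      refine ⟨w' + w, (D.perp W).add_mem hw'p (hWle hwW), ?_, ?_, ?_⟩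
      · intro h
        apply hw'W
        have := W.sub_mem h hwW
        simpa using this
      · intro p
        have : ρ p (w' + w) - (w' + w) = (ρ p w' - w') + (ρ p w - w) := by
          rw [map_add]
          abel
        rw [this]
        exact W.add_mem (hw'fix p) (hUW (hwfix p))
      · rw [D.hQ, hQ'1, hQw1, (D.mem_perp.mp hw'p) w hwW]
        simp [CharTwo.add_self_eq_zero]
  have hw''fix' : ∀ p, ρ p w'' - w'' ∈ U := by
    intro p
    have hx := hw''fix p
    have hx' := hx
    rw [hW, mem_sup_span D.h01] at hx'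
    rcases hx' with hx' | ⟨u, hu, hxu⟩
    · exact hx'
    · exfalso
      have h1 : ρ p w'' = (ρ p w'' - w'') + w'' := by abel
      have h2 := hρ p w''
      rw [h1, D.hQ, D.hsymm, (D.mem_perp.mp hw''p) _ hx, hQw'', hxu, D.hQ, hTS u hu, hQw1,
        D.hsymm, (D.mem_perp.mp hwp) u hu] at h2
      simp at h2
  have hw''pU : w'' ∈ D.perp U := D.perp_anti hUW hw''p
  have hw''U : w'' ∉ U := fun h => hw''W (hUW h)
  exact ⟨_, D.step1 hTS hw''pU hQw'', D.inv_sup ρ hinv hw''fix', sup_span_finrank hw''U⟩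

theorem exists_inv_ts [Finite F] [Finite P] (hP : IsPGroup 2 P) (hρ : ∀ p v, D.Q (ρ p v) = D.Q v)
    (k : ℕ) (hk : 2 * k < finrank F V) :
    ∃ U : Submodule F V, D.TS U ∧ (∀ p, ∀ u ∈ U, ρ p u ∈ U) ∧ finrank F U = k := by
  induction k with
  | zero =>
    exact ⟨⊥, fun u hu => by rw [(Submodule.mem_bot F).mp hu, D.Q_zero], fun p u hu => by
      rw [(Submodule.mem_bot F).mp hu, map_zero]; exact Submodule.zero_mem _, finrank_bot F V⟩
  | succ k ih =>
    obtain ⟨U, h1, h2, h3⟩ := ih (by omega)
    obtain ⟨U', h1', h2', h3'⟩ := D.main_step ρ hP hρ h1 h2 (by omega)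
    exact ⟨U', h1', h2', by omega⟩

end action

section fix

variable {U M : Submodule F V} (hU : D.TS U) (hM : D.TS M)

include hU hM in
theorem exists_a (hV : finrank F V = 2 * finrank F M) (hUM : finrank F U + 1 = finrank F M) :
    ∃ a ∈ D.perp U, a ∉ U ∧ D.Q a = 0 := by
  by_contra hcon
  have hle : M ⊓ D.perp U ≤ M ⊓ U := by
    intro x hx
    obtain ⟨hxM, hxp⟩ := Submodule.mem_inf.mp hx
    refine Submodule.mem_inf.mpr ⟨hxM, ?_⟩
    by_contra hxU
    exact hcon ⟨x, hxp, hxU, hM x hxM⟩
  have h1 := Submodule.finrank_sup_add_finrank_inf_eq M (D.perp U)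
  have h2 := D.finrank_perp U
  have h3 : M ⊔ D.perp U ≤ D.perp (M ⊓ U) := by
    apply sup_le
    · intro x hx
      rw [mem_perp]
      intro u hu
      exact hM.B_eq_zero hx (Submodule.mem_inf.mp hu).1
    · exact D.perp_anti inf_le_right
  have h4 := Submodule.finrank_mono h3
  have h5 := D.finrank_perp (M ⊓ U)
  have h6 := Submodule.finrank_mono hle
  have h7 := Submodule.finrank_mono (inf_le_right : M ⊓ U ≤ U)
  have h8 := Submodule.finrank_le U
  omega

include hU in
theorem exists_b {a : V} (ha : a ∈ D.perp U) (haU : a ∉ U) (hQa : D.Q a = 0)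
    (hV : finrank F V = 2 * (finrank F U + 1)) :
    ∃ b ∈ D.perp U, D.Q b = 0 ∧ D.B a b = 1 := by
  have hlt : D.perp (U ⊔ Submodule.span F {a}) < D.perp U := by
    apply lt_of_le_of_ne (D.perp_anti le_sup_left)
    intro h
    have h1 := D.finrank_perp (U ⊔ Submodule.span F {a})
    have h2 := D.finrank_perp U
    have h3 := sup_span_finrank (F := F) haU
    rw [h] at h1
    omega
  obtain ⟨b₀, hb₀, hb₀'⟩ := SetLike.exists_of_lt hlt
  have hBb₀ : D.B b₀ a ≠ 0 := by
    intro h
    apply hb₀'
    rw [mem_perp]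
    intro x hx
    rw [mem_sup_span D.h01] at hx
    rcases hx with hx | ⟨u, hu, rfl⟩
    · exact (D.mem_perp.mp hb₀) x hx
    · rw [map_add, (D.mem_perp.mp hb₀) u hu, h, add_zero]
  have hBb₁ : D.B b₀ a = 1 := (D.h01 _).resolve_left hBb₀
  rcases D.h01 (D.Q b₀) with h0 | h1
  · exact ⟨b₀, hb₀, h0, by rw [D.hsymm]; exact hBb₁⟩
  · refine ⟨b₀ + a, (D.perp U).add_mem hb₀ ha, ?_, ?_⟩
    · rw [D.hQ, h1, hQa, hBb₁]
      simp [CharTwo.add_self_eq_zero]
    · rw [map_add, D.B_self, add_zero, D.hsymm]
      exact hBb₁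

include hU in
theorem perp_cases {a b : V} (ha : a ∈ D.perp U) (haU : a ∉ U) (hb : b ∈ D.perp U)
    (hab : D.B a b = 1) (hV : finrank F V = 2 * (finrank F U + 1)) {x : V} (hx : x ∈ D.perp U) :
    x ∈ U ∨ ∃ u ∈ U, x = u + a ∨ x = u + b ∨ x = u + a + b := by
  have hb' : b ∉ U ⊔ Submodule.span F {a} := by
    intro h
    rw [mem_sup_span D.h01] at h
    rcases h with h | ⟨u, hu, rfl⟩
    · have := (D.mem_perp.mp ha) b h
      rw [hab] at this
      exact one_ne_zero this
    · have h1 : D.B a u = 0 := (D.mem_perp.mp ha) u hu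
      rw [map_add, h1, D.B_self, add_zero] at hab
      exact zero_ne_one hab
  have hle : (U ⊔ Submodule.span F {a}) ⊔ Submodule.span F {b} ≤ D.perp U := by
    apply sup_le (sup_le ?_ ?_)
    · rw [Submodule.span_singleton_le_iff_mem]
      exact hb
    · intro u hu
      rw [mem_perp]
      exact fun v hv => hU.B_eq_zero hu hv
    · rw [Submodule.span_singleton_le_iff_mem]
      exact ha
  have heq : (U ⊔ Submodule.span F {a}) ⊔ Submodule.span F {b} = D.perp U := by
    apply Submodule.eq_of_le_of_finrank_eq hle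
    have h1 := sup_span_finrank (F := F) hb'
    have h2 := sup_span_finrank (F := F) haU
    have h3 := D.finrank_perp U
    omega
  rw [← heq, mem_sup_span D.h01] at hx
  rcases hx with hx | ⟨y, hy, rfl⟩
  · rw [mem_sup_span D.h01] at hx
    rcases hx with hx | ⟨u, hu, rfl⟩
    · exact Or.inl hx
    · exact Or.inr ⟨u, hu, Or.inl rfl⟩
  · rw [mem_sup_span D.h01] at hy
    rcases hy with hy | ⟨u, hu, rfl⟩
    · exact Or.inr ⟨y, hy, Or.inr (Or.inl rfl)⟩
    · exact Or.inr ⟨u, hu, Or.inr (Or.inr rfl)⟩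

include hU in
/-- A linear isometry fixing `U` pointwise has order dividing eight. -/
theorem fix8 {a b : V} (ha : a ∈ D.perp U) (haU : a ∉ U) (hQa : D.Q a = 0) (hb : b ∈ D.perp U)
    (hQb : D.Q b = 0) (hab : D.B a b = 1) (hV : finrank F V = 2 * (finrank F U + 1))
    (f : V →ₗ[F] V) (hf : ∀ v, D.Q (f v) = D.Q v) (hfU : ∀ u ∈ U, f u = u) (v : V) :
    f (f (f (f (f (f (f (f v))))))) = v := by
  have hB := D.B_pres f hf
  have hinj : ∀ x y, f x = f y → x = y := by
    intro x y hxy
    have : x - y = 0 := by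
      apply D.hnd
      intro u
      rw [← hB, map_sub, hxy, sub_self, map_zero]
    exact sub_eq_zero.mp this
  have hdiff : ∀ x, f x - x ∈ D.perp U := by
    intro x
    rw [mem_perp]
    intro u hu
    have := hB x u
    rw [hfU u hu] at this
    rw [map_sub, LinearMap.sub_apply, this, sub_self]
  have hpres : ∀ x ∈ D.perp U, f x ∈ D.perp U := by
    intro x hx
    have := (D.perp U).add_mem (hdiff x) hx
    simpa using this
  have hbBa : ∀ u ∈ U, D.B u a = 0 := fun u hu => by
    rw [D.hsymm]; exact (D.mem_perp.mp ha) u hu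
  have hbBb : ∀ u ∈ U, D.B u b = 0 := fun u hu => by
    rw [D.hsymm]; exact (D.mem_perp.mp hb) u hu
  have hQab : D.Q (a + b) = 1 := by rw [D.hQ, hQa, hQb, hab]; simp
  have hQc : ∀ u ∈ U, D.Q (u + a + b) = 1 := by
    intro u hu
    rw [add_assoc, D.hQ, hU u hu, hQab, map_add, hbBa u hu, hbBb u hu]
    simp
  -- shape of the image of a singular vector of the complement
  have hshape : ∀ y ∈ D.perp U, y ∉ U → D.Q y = 0 → ∃ u ∈ U, f y = u + a ∨ f y = u + b := by
    intro y hy hyU hQy
    have h1 := hpres y hy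
    rcases D.perp_cases hU ha haU hb hab hV h1 with h2 | ⟨u, hu, h2 | h2 | h2⟩
    · exfalso
      apply hyU
      have : y = f y := hinj _ _ (hfU _ h2).symm
      rw [this]
      exact h2
    · exact ⟨u, hu, Or.inl h2⟩
    · exact ⟨u, hu, Or.inr h2⟩
    · exfalso
      have h3 := hf y
      rw [h2, hQc u hu, hQy] at h3
      exact one_ne_zero h3
  have hbU : b ∉ U := fun h => by
    have := (D.mem_perp.mp ha) b h
    rw [hab] at this
    exact one_ne_zero this
  -- f² fixes a and b modulo U
  have hsq : ∀ x ∈ D.perp U, f (f x) - x ∈ U := by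
    obtain ⟨u₁, hu₁, h₁⟩ := hshape a ha haU hQa
    obtain ⟨u₂, hu₂, h₂⟩ := hshape b hb hbU hQb
    have hBfab := hB a b
    rw [hab] at hBfab
    have hfa : f (f a) - a ∈ U ∧ f (f b) - b ∈ U := by
      rcases h₁ with h₁ | h₁ <;> rcases h₂ with h₂ | h₂
      · exfalso
        rw [h₁, h₂] at hBfab
        simp only [map_add, LinearMap.add_apply, hU.B_eq_zero hu₁ hu₂, hbBa u₁ hu₁, D.B_self,
          D.hsymm a u₂, hbBa u₂ hu₂, add_zero] at hBfab
        exact zero_ne_one hBfab
      · constructor
        · rw [h₁, map_add, hfU _ hu₁, h₁]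
          have : u₁ + (u₁ + a) - a = u₁ + u₁ := by abel
          rw [this]
          exact U.add_mem hu₁ hu₁
        · rw [h₂, map_add, hfU _ hu₂, h₂]
          have : u₂ + (u₂ + b) - b = u₂ + u₂ := by abel
          rw [this]
          exact U.add_mem hu₂ hu₂
      · constructor
        · rw [h₁, map_add, hfU _ hu₁, h₂]
          have : u₁ + (u₂ + a) - a = u₁ + u₂ := by abel
          rw [this]
          exact U.add_mem hu₁ hu₂
        · rw [h₂, map_add, hfU _ hu₂, h₁]
          have : u₂ + (u₁ + b) - b = u₂ + u₁ := by abel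
          rw [this]
          exact U.add_mem hu₂ hu₁
      · exfalso
        rw [h₁, h₂] at hBfab
        simp only [map_add, LinearMap.add_apply, hU.B_eq_zero hu₁ hu₂, hbBb u₁ hu₁, D.B_self,
          D.hsymm b u₂, hbBb u₂ hu₂, add_zero] at hBfab
        exact zero_ne_one hBfab
    intro x hx
    rcases D.perp_cases hU ha haU hb hab hV hx with h | ⟨u, hu, h | h | h⟩
    · rw [hfU _ (by rw [hfU _ h]; exact h), hfU _ h, sub_self]
      exact U.zero_mem
    · rw [h]
      simp only [map_add, hfU _ hu]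
      have : u + f (f a) - (u + a) = f (f a) - a := by abel
      rw [this]
      exact hfa.1
    · rw [h]
      simp only [map_add, hfU _ hu]
      have : u + f (f b) - (u + b) = f (f b) - b := by abel
      rw [this]
      exact hfa.2
    · rw [h]
      simp only [map_add, hfU _ hu]
      have : u + f (f a) + f (f b) - (u + a + b) = (f (f a) - a) + (f (f b) - b) := by abel
      rw [this]
      exact U.add_mem hfa.1 hfa.2
  -- final computation
  have hy : f (f v) - v ∈ D.perp U := by
    have : f (f v) - v = (f (f v) - f v) + (f v - v) := by abel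
    rw [this]
    exact (D.perp U).add_mem (hdiff _) (hdiff _)
  set y := f (f v) - v with hy_def
  have hz := hsq y hy
  set z := f (f y) - y with hz_def
  have hfz : f z = z := hfU z hz
  have h2v : f (f v) = v + y := by rw [hy_def]; abel
  have h2y : f (f y) = y + z := by rw [hz_def]; abel
  have h4v : f (f (f (f v))) = v + z := by
    rw [h2v, map_add, map_add, h2v, h2y]
    have : v + y + (y + z) = v + (y + y) + z := by abel
    rw [this, add_self F, add_zero]
  rw [h4v]
  simp only [map_add, hfz]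
  rw [h4v]
  have : v + z + z = v + (z + z) := by abel
  rw [this, add_self F, add_zero]

end fix

section nontriv

/-- A nontrivial involutive isometry fixing a subspace of codimension at least two pointwise. -/
theorem exists_nontrivial (W₀ : Submodule F V) (hW₀ : finrank F W₀ + 2 ≤ finrank F V) :
    ∃ f : V →ₗ[F] V, (∀ v, D.Q (f v) = D.Q v) ∧ (∀ v, f (f v) = v) ∧ (∃ v, f v ≠ v) ∧
      ∀ w ∈ W₀, f w = w := by
  have hfin := D.finrank_perp W₀
  have hWfin : 2 ≤ finrank F (D.perp W₀) := by omega
  have hnd' : ∀ v : V, v ≠ 0 → ∃ u, D.B u v = 1 := by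
    intro v hv
    by_contra hcon
    apply hv
    apply D.hnd
    intro u
    rcases D.h01 (D.B u v) with h | h
    · exact h
    · exact absurd ⟨u, h⟩ hcon
  have hBperp : ∀ w ∈ W₀, ∀ v ∈ D.perp W₀, D.B w v = 0 := by
    intro w hw v hv
    rw [D.hsymm]
    exact (D.mem_perp.mp hv) w hw
  by_cases hsing : ∃ v ∈ D.perp W₀, D.Q v ≠ 0
  · obtain ⟨v, hv, hQv⟩ := hsing
    have hQv1 : D.Q v = 1 := (D.h01 _).resolve_left hQv
    have hv0 : v ≠ 0 := by
      rintro rfl
      exact hQv D.Q_zero
    let f : V →ₗ[F] V := LinearMap.id + (D.B.flip v).smulRight v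
    have hf : ∀ z, f z = z + D.B z v • v := fun z => rfl
    refine ⟨f, ?_, ?_, ?_, ?_⟩
    · intro z
      rw [hf]
      rcases D.h01 (D.B z v) with h | h
      · rw [h, zero_smul, add_zero]
      · rw [h, one_smul, D.hQ, hQv1, h, add_assoc, CharTwo.add_self_eq_zero, add_zero]
    · intro z
      rw [hf, hf]
      have h1 : D.B (z + D.B z v • v) v = D.B z v := by
        rw [map_add, LinearMap.add_apply, map_smul, LinearMap.smul_apply, D.B_self]
        simp
      rw [h1, add_assoc, add_self F, add_zero]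
    · obtain ⟨u, hu⟩ := hnd' v hv0
      refine ⟨u, ?_⟩
      rw [hf, hu, one_smul]
      intro h
      exact hv0 (by simpa using h)
    · intro w hw
      rw [hf, hBperp w hw v hv, zero_smul, add_zero]
  · have hsing' : ∀ v ∈ D.perp W₀, D.Q v = 0 := by
      intro v hv
      by_contra h
      exact hsing ⟨v, hv, h⟩
    obtain ⟨a, ha, ha0⟩ : ∃ a ∈ D.perp W₀, a ≠ 0 := by
      by_contra hcon
      have : D.perp W₀ = ⊥ := by
        rw [eq_bot_iff]
        intro x hx
        by_contra h
        exact hcon ⟨x, hx, by simpa using h⟩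
      rw [this, finrank_bot] at hWfin
      omega
    obtain ⟨b, hb, hbspan⟩ : ∃ b ∈ D.perp W₀, b ∉ Submodule.span F {a} := by
      by_contra hcon
      have : D.perp W₀ ≤ Submodule.span F {a} := by
        intro x hx
        by_contra h
        exact hcon ⟨x, hx, h⟩
      have h1 := Submodule.finrank_mono this
      rw [finrank_span_singleton ha0] at h1
      omega
    have hts : D.TS (D.perp W₀) := hsing'
    have hab : D.B a b = 0 := hts.B_eq_zero ha hb
    have hba : D.B b a = 0 := hts.B_eq_zero hb ha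
    let f : V →ₗ[F] V := LinearMap.id + (D.B.flip a).smulRight b + (D.B.flip b).smulRight a
    have hf : ∀ z, f z = z + D.B z a • b + D.B z b • a := fun z => rfl
    have hfa : ∀ z, D.B (f z) a = D.B z a := by
      intro z
      rw [hf]
      simp only [map_add, LinearMap.add_apply, map_smul, LinearMap.smul_apply, hba, D.B_self]
      simp
    have hfb : ∀ z, D.B (f z) b = D.B z b := by
      intro z
      rw [hf]
      simp only [map_add, LinearMap.add_apply, map_smul, LinearMap.smul_apply, hab, D.B_self]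
      simp
    refine ⟨f, ?_, ?_, ?_, ?_⟩
    · intro z
      rw [hf, add_assoc, D.hQ]
      have h1 : D.B z a • b + D.B z b • a ∈ D.perp W₀ :=
        (D.perp W₀).add_mem ((D.perp W₀).smul_mem _ hb) ((D.perp W₀).smul_mem _ ha)
      rw [hsing' _ h1, map_add, map_smul, map_smul, smul_eq_mul, smul_eq_mul, mul_comm (D.B z a)]
      simp [← two_mul, CharTwo.two_eq_zero]
    · intro z
      rw [hf (f z), hfa, hfb, hf z]
      have : z + D.B z a • b + D.B z b • a + D.B z a • b + D.B z b • a
          = z + (D.B z a • b + D.B z a • b) + (D.B z b • a + D.B z b • a) := by abel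
      rw [this, add_self F, add_self F, add_zero, add_zero]
    · obtain ⟨u, hu⟩ := hnd' a ha0
      refine ⟨u, ?_⟩
      rw [hf, hu, one_smul]
      intro h
      have h1 : b + D.B u b • a = 0 := by
        have h2 : u + (b + D.B u b • a) = u := by rw [← add_assoc]; exact h
        simpa using h2
      apply hbspan
      have h3 : b = D.B u b • a := by
        have h4 := add_self F (D.B u b • a)
        have h5 : b + D.B u b • a + D.B u b • a = D.B u b • a := by rw [h1, zero_add]
        rwa [add_assoc, h4, add_zero] at h5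
      rw [h3]
      exact Submodule.smul_mem _ _ (Submodule.mem_span_singleton_self a)
    · intro w hw
      rw [hf, hBperp w hw a ha, hBperp w hw b hb, zero_smul, zero_smul, add_zero, add_zero]

end nontriv

end QData

open scoped Pointwise in
/-- The Sylow 2-subgroups meet: abstract form. -/
theorem sylow_meet [Finite F] {G : Type*} [Group G] [Finite G] (D : QData F V)
    (ρ : G →* Module.End F V) (hinj : Function.Injective ρ)
    (hρ : ∀ g v, D.Q (ρ g v) = D.Q v)
    (hsurj : ∀ f : V →ₗ[F] V, (∀ v, D.Q (f v) = D.Q v) → (∀ v, f (f v) = v) → ∃ g, ρ g = f)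
    (M : Submodule F V) (hM : D.TS M) (hV : finrank F V = 2 * finrank F M)
    (hm : 1 ≤ finrank F M) (H : Sylow 2 G) (x : G) :
    (H : Subgroup G) ⊓ MulAut.conj x • (H : Subgroup G) ≠ ⊥ := by
  classical
  -- the invariant subspace
  obtain ⟨k, hk⟩ : ∃ k, finrank F M = k + 1 := ⟨finrank F M - 1, by omega⟩
  obtain ⟨U, hUts, hUinv, hUfin⟩ := D.exists_inv_ts (P := (H : Subgroup G))
    (ρ.comp (H : Subgroup G).subtype) H.isPGroup' (fun p v => hρ _ v) k (by omega)
  have hUinv' : ∀ h ∈ (H : Subgroup G), ∀ u ∈ U, ρ h u ∈ U := fun h hh u hu => hUinv ⟨h, hh⟩ u hu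
  -- a, b
  obtain ⟨a, ha, haU, hQa⟩ := D.exists_a hUts hM hV (by omega)
  have hV' : finrank F V = 2 * (finrank F U + 1) := by omega
  obtain ⟨b, hb, hQb, hab⟩ := D.exists_b hUts ha haU hQa hV'
  -- the pointwise stabilizer
  let FixU : Subgroup G :=
    { carrier := {g | ∀ u ∈ U, ρ g u = u}
      one_mem' := fun u _ => by simp
      mul_mem' := fun {g h} hg hh u hu => by
        rw [map_mul, Module.End.mul_apply, hh u hu, hg u hu]
      inv_mem' := fun {g} hg u hu => by
        have h1 := hg u hu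
        have h2 : ρ g⁻¹ (ρ g u) = u := by
          rw [← Module.End.mul_apply, ← map_mul]
          simp
        rw [h1] at h2
        exact h2 }
  have hFixP : IsPGroup 2 FixU := by
    intro g
    refine ⟨3, ?_⟩
    ext
    apply hinj
    ext v
    have := D.fix8 hUts ha haU hQa hb hQb hab hV' (ρ g.1) (hρ g.1) g.2 v
    simp only [Subgroup.coe_pow, Subgroup.coe_one, map_pow, map_one]
    rw [show (2 : ℕ) ^ 3 = 8 by norm_num]
    simpa [pow_succ, Module.End.mul_apply] using this
  have hnorm : (H : Subgroup G) ≤ Subgroup.normalizer (FixU : Subgroup G) := by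
    intro h hh
    rw [Subgroup.mem_normalizer_iff]
    have key : ∀ h ∈ (H : Subgroup G), ∀ g ∈ FixU, h * g * h⁻¹ ∈ FixU := by
      intro h hh g hg u hu
      have h1 : ρ h⁻¹ u ∈ U := hUinv' _ (inv_mem hh) u hu
      simp only [map_mul, Module.End.mul_apply]
      rw [hg _ h1, ← Module.End.mul_apply, ← map_mul]
      simp
    intro g
    constructor
    · exact key h hh g
    · intro hg
      have := key h⁻¹ (inv_mem hh) _ hg
      simpa [mul_assoc] using this
  have hFixle : FixU ≤ (H : Subgroup G) := by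
    have hp : IsPGroup 2 (((H : Subgroup G) ⊔ FixU : Subgroup G)) :=
      IsPGroup.to_sup_of_normal_right' H.isPGroup' hFixP hnorm
    have := H.is_maximal' hp le_sup_left
    rw [← this]
    exact le_sup_right
  -- the nontrivial element
  let W₀ : Submodule F V := U ⊔ U.map (ρ x)
  have hW₀ : finrank F W₀ + 2 ≤ finrank F V := by
    have h1 : finrank F W₀ ≤ _ := Submodule.finrank_add_le_finrank_add_finrank U (U.map (ρ x))
    have h2 := Submodule.finrank_map_le (ρ x) U
    omega
  obtain ⟨f, hfQ, hfinv, ⟨v, hv⟩, hfW⟩ := D.exists_nontrivial W₀ hW₀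
  obtain ⟨g, rfl⟩ := hsurj f hfQ hfinv
  have hg1 : g ≠ 1 := by
    rintro rfl
    simp at hv
  have hgU : g ∈ FixU := fun u hu => hfW u (Submodule.mem_sup_left hu)
  have hgx : x⁻¹ * g * x ∈ FixU := by
    intro u hu
    simp only [map_mul, Module.End.mul_apply]
    rw [hfW (ρ x u) (Submodule.mem_sup_right (Submodule.mem_map_of_mem hu)),
      ← Module.End.mul_apply, ← map_mul]
    simp
  intro hbot
  have hmem : g ∈ (H : Subgroup G) ⊓ MulAut.conj x • (H : Subgroup G) := by
    refine Subgroup.mem_inf.mpr ⟨hFixle hgU, ?_⟩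
    rw [Subgroup.mem_pointwise_smul_iff_inv_smul_mem]
    have : (MulAut.conj x)⁻¹ • g = x⁻¹ * g * x := by
      rw [MulAut.smul_def, MulAut.conj_inv_apply]
    rw [this]
    exact hFixle hgx
  rw [hbot] at hmem
  exact hg1 ((Subgroup.mem_bot).mp hmem)

end Cfsg.Agent.Lib.OPlusF2
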