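import Mathlib
import Cfsg.Agent.Lib.PDegKernel71b
import Cfsg.Agent.Lib.PDegKernel71c
import Cfsg.Agent.Lib.McKayTools
import Cfsg.Agent.Lib.CharDecomp
import Cfsg.Agent.Lib.CharValues

/-!
# The sum of the squares of the degrees prime to `p`

Inflation sums over a normal subgroup; for a normal Sylow `p`-subgroup `Q` of `H` the irreducible
characters of degree prime to `p` are those with `Q'` in the kernel; the comparison of the sums
for `G` and for a subgroup `N` of index prime to `p`.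
-/

set_option autoImplicit false
set_option linter.style.haveILetI false
set_option linter.unusedVariables false
set_option linter.unusedSectionVars false

namespace Cfsg.Agent.Lib.OddDegSum71

open Cfsg Cfsg.Agent.Lib.CharBasic Cfsg.Agent.Lib.CharInd Cfsg.Agent.Lib.CharKernel
open Cfsg.Agent.Lib.CharNormal Cfsg.Agent.Lib.PDegKernel71
open scoped ComplexConjugate

universe u

section Infl

variable {H : Type u} [Group H] [Finite H]

open scoped Classical in
/-- The sum over the irreducible characters with `K` in the kernel. -/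
theorem card_mul_sum_ker (K : Subgroup H) [K.Normal] [Fintype K] (x : H) :
    (Nat.card K : ℂ) * ∑ ψ : IrrCharacter H,
        (if (∀ k ∈ K, (ψ : H → ℂ) k = (ψ : H → ℂ) 1) then (ψ : H → ℂ) x * (ψ : H → ℂ) 1 else 0) =
      ∑ k : K, if IsConj x (k : H) then
        (Nat.card (Subgroup.centralizer ({(k : H)} : Set H)) : ℂ) else 0 := by
  haveI : Fintype H := Fintype.ofFinite H
  have hrw : ∀ (k : K) (d : Decidable (IsConj x (k : H))), (@ite _ (IsConj x (k : H)) d
        (Nat.card (Subgroup.centralizer ({(k : H)} : Set H)) : ℂ) 0) =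
      ∑ ψ : IrrCharacter H, (ψ : H → ℂ) x * conj ((ψ : H → ℂ) k) := by
    intro k d
    rw [sum_irr_mul_conj]
    congr
  refine Eq.trans ?_ (Finset.sum_congr rfl fun k _ => (hrw k _).symm)
  rw [Finset.sum_comm, Finset.mul_sum]
  refine Finset.sum_congr rfl fun ψ _ => ?_
  rw [← Finset.mul_sum, ← map_sum]
  by_cases h : ∀ k ∈ K, (ψ : H → ℂ) k = (ψ : H → ℂ) 1
  · rw [if_pos h]
    have h1 : ∑ k : K, (ψ : H → ℂ) k = (Nat.card K : ℂ) * (ψ : H → ℂ) 1 := by
      have h3 : ∀ k : K, (ψ : H → ℂ) k = (ψ : H → ℂ) 1 := fun k => h k k.2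
      simp only [h3]
      simp [Nat.card_eq_fintype_card]
    rw [h1, map_mul, map_natCast]
    have h2 : conj ((ψ : H → ℂ) 1) = (ψ : H → ℂ) 1 := by
      rw [one_eq_charDegree (IsIrrCharacter.isCharacter ψ.2), map_natCast]
    rw [h2]
    ring
  · rw [if_neg h]
    push Not at h
    obtain ⟨k, hk, hne⟩ := h
    rw [sum_normal_eq_zero' ψ.2 K ⟨k, hk, hne⟩]
    simp

open scoped Classical in
/-- Summing over the irreducible characters with `K` in the kernel, evaluated outside of `K`. -/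
theorem sum_ker_of_not_mem (K : Subgroup H) [K.Normal] {x : H} (hx : x ∉ K) :
    ∑ ψ : IrrCharacter H,
        (if (∀ k ∈ K, (ψ : H → ℂ) k = (ψ : H → ℂ) 1) then (ψ : H → ℂ) x * (ψ : H → ℂ) 1 else 0) = 0 := by
  haveI : Fintype K := Fintype.ofFinite K
  have h := card_mul_sum_ker K x
  have h0 : (∑ k : K, if IsConj x (k : H) then
        (Nat.card (Subgroup.centralizer ({(k : H)} : Set H)) : ℂ) else 0) = 0 := by
    refine Finset.sum_eq_zero fun k _ => if_neg ?_
    intro hc
    obtain ⟨c, hc⟩ := isConj_iff.mp hc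
    apply hx
    have := (inferInstance : K.Normal).conj_mem (k : H) k.2 c⁻¹
    rw [← hc] at this
    simpa [mul_assoc] using this
  rw [h0] at h
  have hK : (Nat.card K : ℂ) ≠ 0 := by exact_mod_cast Nat.card_pos.ne'
  exact (mul_eq_zero.mp h).resolve_left hK

open scoped Classical in
/-- The degree sum for the irreducible characters with `K` in the kernel. -/
theorem card_mul_sum_sq_ker (K : Subgroup H) [K.Normal] :
    Nat.card K * ∑ ψ ∈ (Finset.univ.filter fun ψ : IrrCharacter H =>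
        ∀ k ∈ K, (ψ : H → ℂ) k = (ψ : H → ℂ) 1), charDegree (ψ : H → ℂ) ^ 2 = Nat.card H := by
  haveI : Fintype K := Fintype.ofFinite K
  have h := card_mul_sum_ker K (1 : H)
  have h0 : (∑ k : K, if IsConj (1 : H) (k : H) then
        (Nat.card (Subgroup.centralizer ({(k : H)} : Set H)) : ℂ) else 0) = (Nat.card H : ℂ) := by
    rw [Finset.sum_eq_single (1 : K)]
    · simp
    · intro k _ hk
      refine if_neg fun hc => hk ?_
      apply Subtype.ext
      simpa using (isConj_one_right.mp hc)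
    · simp
  rw [h0] at h
  have h1 : (∑ ψ : IrrCharacter H,
        (if (∀ k ∈ K, (ψ : H → ℂ) k = (ψ : H → ℂ) 1) then (ψ : H → ℂ) 1 * (ψ : H → ℂ) 1 else 0)) =
      ((∑ ψ ∈ (Finset.univ.filter fun ψ : IrrCharacter H =>
        ∀ k ∈ K, (ψ : H → ℂ) k = (ψ : H → ℂ) 1), charDegree (ψ : H → ℂ) ^ 2 : ℕ) : ℂ) := by
    rw [Finset.sum_filter]
    push_cast
    refine Finset.sum_congr rfl fun ψ _ => ?_
    split_ifs
    · rw [one_eq_charDegree (IsIrrCharacter.isCharacter ψ.2)]
      ring
    · rfl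
  rw [h1] at h
  exact_mod_cast h

/-- A normal subgroup is the intersection of the kernels of the irreducible characters over it. -/
theorem mem_of_forall_ker (K : Subgroup H) [K.Normal] {x : H}
    (h : ∀ ψ : IrrCharacter H, (∀ k ∈ K, (ψ : H → ℂ) k = (ψ : H → ℂ) 1) →
      (ψ : H → ℂ) x = (ψ : H → ℂ) 1) : x ∈ K := by
  classical
  by_contra hx
  have h0 := sum_ker_of_not_mem K hx
  have h1 : (∑ ψ : IrrCharacter H,
        (if (∀ k ∈ K, (ψ : H → ℂ) k = (ψ : H → ℂ) 1) then (ψ : H → ℂ) x * (ψ : H → ℂ) 1 else 0)) =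
      ((∑ ψ ∈ (Finset.univ.filter fun ψ : IrrCharacter H =>
        ∀ k ∈ K, (ψ : H → ℂ) k = (ψ : H → ℂ) 1), charDegree (ψ : H → ℂ) ^ 2 : ℕ) : ℂ) := by
    rw [Finset.sum_filter]
    push_cast
    refine Finset.sum_congr rfl fun ψ _ => ?_
    split_ifs with hk
    · rw [h ψ hk, one_eq_charDegree (IsIrrCharacter.isCharacter ψ.2)]
      ring
    · rfl
  rw [h1] at h0
  have h2 := card_mul_sum_sq_ker K
  have h3 : (∑ ψ ∈ (Finset.univ.filter fun ψ : IrrCharacter H =>
        ∀ k ∈ K, (ψ : H → ℂ) k = (ψ : H → ℂ) 1), charDegree (ψ : H → ℂ) ^ 2) = 0 := by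
    exact_mod_cast h0
  rw [h3, mul_zero] at h2
  exact Nat.card_pos.ne' h2.symm

end Infl

section NormalSylow

variable {H : Type u} [Group H] [Finite H] {p : ℕ} [hp : Fact p.Prime]

/-- With a normal Sylow subgroup `Q`, the degree is prime to `p` only for `Q'` in the kernel. -/
theorem commutator_le_ker (Q : Sylow p H) [hQ : (Q : Subgroup H).Normal]
    (ψ : IrrCharacter H) (hψ : ¬ p ∣ charDegree (ψ : H → ℂ)) {u : H}
    (hu : u ∈ ⁅(Q : Subgroup H), (Q : Subgroup H)⁆) : (ψ : H → ℂ) u = (ψ : H → ℂ) 1 := by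
  refine core_le_ker p Q ⊥ (bot_inf_eq _) ψ hψ ?_
  rw [bot_sup_eq]
  exact (Subgroup.normal_le_normalCore.mpr le_rfl) hu

/-- With a normal Sylow subgroup `Q`, `Q'` in the kernel forces the degree to be prime to `p`. -/
theorem not_dvd_of_commutator_le_ker (Q : Sylow p H) [hQ : (Q : Subgroup H).Normal]
    (ψ : IrrCharacter H)
    (hψ : ∀ u ∈ ⁅(Q : Subgroup H), (Q : Subgroup H)⁆, (ψ : H → ℂ) u = (ψ : H → ℂ) 1) :
    ¬ p ∣ charDegree (ψ : H → ℂ) := by
  classical
  haveI : (⁅(Q : Subgroup H), (Q : Subgroup H)⁆).Normal := Subgroup.commutator_normal _ _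
  obtain ⟨ψ', h1, h2⟩ := exists_quotient_irr (⁅(Q : Subgroup H), (Q : Subgroup H)⁆) ψ.2 hψ
  let π := QuotientGroup.mk' (⁅(Q : Subgroup H), (Q : Subgroup H)⁆)
  haveI hn : ((Q : Subgroup H).map π).Normal :=
    Subgroup.Normal.map hQ π (QuotientGroup.mk'_surjective _)
  have hcomm : ∀ a b : ((Q : Subgroup H).map π : Subgroup _), a * b = b * a := by
    rintro ⟨_, a, ha, rfl⟩ ⟨_, b, hb, rfl⟩
    apply Subtype.ext
    show π a * π b = π b * π a
    rw [← map_mul, ← map_mul]
    apply (QuotientGroup.eq_iff_div_mem).mpr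
    have : a * b / (b * a) = a * b * a⁻¹ * b⁻¹ := by
      rw [div_eq_mul_inv, mul_inv_rev]; simp only [mul_assoc]
    rw [this]
    exact Subgroup.commutator_mem_commutator ha hb
  have h3 := McKayTools.ito_dvd ((Q : Subgroup H).map π) hcomm h1
  have h4 : charDegree ψ' = charDegree (ψ : H → ℂ) := by
    simp only [charDegree]
    have := h2 1
    rw [QuotientGroup.mk_one] at this
    rw [this]
  rw [h4] at h3
  have h5 : ((Q : Subgroup H).map π).index ∣ (Q : Subgroup H).index :=
    Subgroup.index_map_dvd (Q : Subgroup H) (QuotientGroup.mk'_surjective _)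
  intro hd
  exact Q.not_dvd_index (hd.trans (h3.trans h5))

open scoped Classical in
/-- The sum of the squares of the degrees prime to `p`, for a group with normal Sylow subgroup. -/
theorem card_commutator_mul_sum (Q : Sylow p H) [hQ : (Q : Subgroup H).Normal] :
    Nat.card (⁅(Q : Subgroup H), (Q : Subgroup H)⁆ : Subgroup H) *
      ∑ ψ ∈ (Finset.univ.filter fun ψ : IrrCharacter H => ¬ p ∣ charDegree (ψ : H → ℂ)),
        charDegree (ψ : H → ℂ) ^ 2 = Nat.card H := by
  haveI : (⁅(Q : Subgroup H), (Q : Subgroup H)⁆).Normal := Subgroup.commutator_normal _ _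
  rw [← card_mul_sum_sq_ker (⁅(Q : Subgroup H), (Q : Subgroup H)⁆)]
  congr 2
  ext ψ
  simp only [Finset.mem_filter, Finset.mem_univ, true_and]
  exact ⟨fun h u hu => commutator_le_ker Q ψ h hu, fun h => not_dvd_of_commutator_le_ker Q ψ h⟩

end NormalSylow

section Compare

variable {G : Type u} [Group G] [Fintype G] (N : Subgroup G) [Fintype N] {p : ℕ} [hp : Fact p.Prime]

/-- The multiplicity of `ψ` in the restriction of `χ`. -/
noncomputable def mult (χ : IrrCharacter G) (ψ : IrrCharacter N) : ℕ :=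
  (classInner_char_irr (isCharacter_restrict N (IsIrrCharacter.isCharacter χ.2)) ψ.2).choose

theorem mult_spec (χ : IrrCharacter G) (ψ : IrrCharacter N) :
    classInner (fun h : N => (χ : G → ℂ) h) (ψ : N → ℂ) = mult N χ ψ :=
  (classInner_char_irr (isCharacter_restrict N (IsIrrCharacter.isCharacter χ.2)) ψ.2).choose_spec

theorem charDegree_restrict (χ : G → ℂ) :
    charDegree (fun h : N => χ h) = charDegree χ := by
  simp [charDegree]

/-- The degree is the sum over the restriction. -/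
theorem deg_eq_sum (χ : IrrCharacter G) :
    charDegree (χ : G → ℂ) =
      ∑ ψ : IrrCharacter N, mult N χ ψ * charDegree (ψ : N → ℂ) := by
  have hτ := isCharacter_restrict N (IsIrrCharacter.isCharacter χ.2)
  obtain ⟨m, hm⟩ := exists_nat_decomp hτ
  rw [← charDegree_restrict N, charDegree_nat_decomp m hτ hm]
  refine Finset.sum_congr rfl fun ψ _ => ?_
  have h1 := mult_spec N χ ψ
  rw [hm, classInner_nat_decomp m ψ ψ.2] at h1
  have h2 : m ψ = mult N χ ψ := by exact_mod_cast h1
  rw [h2]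

omit hp in
/-- A single term of the degree sum. -/
theorem mult_mul_deg_le (χ : IrrCharacter G) (ψ : IrrCharacter N) :
    mult N χ ψ * charDegree (ψ : N → ℂ) ≤ charDegree (χ : G → ℂ) := by
  rw [deg_eq_sum N χ]
  exact Finset.single_le_sum (f := fun ψ : IrrCharacter N => mult N χ ψ * charDegree (ψ : N → ℂ))
    (fun _ _ => Nat.zero_le _) (Finset.mem_univ ψ)

/-- The Frobenius reciprocity form of the multiplicity. -/
theorem classInner_ind_eq (χ : IrrCharacter G) (ψ : IrrCharacter N) :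
    classInner (indFun N (ψ : N → ℂ)) (χ : G → ℂ) = mult N χ ψ := by
  rw [CharInd.frobenius N (ψ : N → ℂ)
    (isClassFunction_of_isCharacter (IsIrrCharacter.isCharacter χ.2))]
  rw [← classInner_conj_symm, mult_spec, map_natCast]

/-- An irreducible character of degree prime to `p` of a subgroup of index prime to `p` lies under
an irreducible character of degree prime to `p`. -/
theorem exists_mult_ne_zero (hidx : ¬ p ∣ N.index) (ψ : IrrCharacter N)
    (hψ : ¬ p ∣ charDegree (ψ : N → ℂ)) :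
    ∃ χ : IrrCharacter G, ¬ p ∣ charDegree (χ : G → ℂ) ∧ mult N χ ψ ≠ 0 := by
  have hτ : IsCharacter G (indFun N (ψ : N → ℂ)) :=
    indFun_isCharacter N (IsIrrCharacter.isCharacter ψ.2)
  have hd : ¬ p ∣ charDegree (indFun N (ψ : N → ℂ)) := by
    have h1 := one_eq_charDegree hτ
    rw [indFun_one, one_eq_charDegree (IsIrrCharacter.isCharacter ψ.2)] at h1
    have h2 : charDegree (indFun N (ψ : N → ℂ)) = N.index * charDegree (ψ : N → ℂ) := by
      exact_mod_cast h1.symm
    rw [h2]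
    intro h3
    rcases (hp.out.dvd_mul).mp h3 with h4 | h4
    · exact hidx h4
    · exact hψ h4
  obtain ⟨χ, hχ1, hχ2⟩ := exists_pprime_constituent p hτ hd
  refine ⟨χ, hχ2, ?_⟩
  rw [classInner_ind_eq] at hχ1
  exact_mod_cast hχ1

open scoped Classical in
/-- The sum of the squares of the degrees prime to `p`. -/
noncomputable def sumSq (p : ℕ) (X : Type u) [Group X] [Finite X] : ℕ :=
  ∑ χ ∈ (Finset.univ.filter fun χ : IrrCharacter X => ¬ p ∣ charDegree (χ : X → ℂ)),
    charDegree (χ : X → ℂ) ^ 2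

open scoped Classical in
/-- The exchange of the sums over the two kinds of characters. -/
theorem sum_exchange :
    ∑ χ ∈ (Finset.univ.filter fun χ : IrrCharacter G => ¬ p ∣ charDegree (χ : G → ℂ)),
      charDegree (χ : G → ℂ) *
        ∑ ψ ∈ (Finset.univ.filter fun ψ : IrrCharacter N => ¬ p ∣ charDegree (ψ : N → ℂ)),
          mult N χ ψ * charDegree (ψ : N → ℂ) =
    ∑ ψ ∈ (Finset.univ.filter fun ψ : IrrCharacter N => ¬ p ∣ charDegree (ψ : N → ℂ)),
      charDegree (ψ : N → ℂ) *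
        ∑ χ ∈ (Finset.univ.filter fun χ : IrrCharacter G => ¬ p ∣ charDegree (χ : G → ℂ)),
          mult N χ ψ * charDegree (χ : G → ℂ) := by
  simp only [Finset.mul_sum]
  rw [Finset.sum_comm]
  refine Finset.sum_congr rfl fun ψ _ => Finset.sum_congr rfl fun χ _ => ?_
  ring

open scoped Classical in
/-- The partial degree sum is at most the degree. -/
theorem partial_le (χ : IrrCharacter G) :
    ∑ ψ ∈ (Finset.univ.filter fun ψ : IrrCharacter N => ¬ p ∣ charDegree (ψ : N → ℂ)),
        mult N χ ψ * charDegree (ψ : N → ℂ) ≤ charDegree (χ : G → ℂ) := by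
  rw [deg_eq_sum N χ]
  exact Finset.sum_le_sum_of_subset (Finset.filter_subset _ _)

open scoped Classical in
/-- The partial degree sum in the other direction is at least the degree. -/
theorem le_partial (hidx : ¬ p ∣ N.index) (ψ : IrrCharacter N)
    (hψ : ¬ p ∣ charDegree (ψ : N → ℂ)) :
    charDegree (ψ : N → ℂ) ≤
      ∑ χ ∈ (Finset.univ.filter fun χ : IrrCharacter G => ¬ p ∣ charDegree (χ : G → ℂ)),
        mult N χ ψ * charDegree (χ : G → ℂ) := by
  obtain ⟨χ, hχ1, hχ2⟩ := exists_mult_ne_zero N hidx ψ hψ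
  have h1 : mult N χ ψ * charDegree (χ : G → ℂ) ≤
      ∑ χ ∈ (Finset.univ.filter fun χ : IrrCharacter G => ¬ p ∣ charDegree (χ : G → ℂ)),
        mult N χ ψ * charDegree (χ : G → ℂ) :=
    Finset.single_le_sum (f := fun χ : IrrCharacter G => mult N χ ψ * charDegree (χ : G → ℂ))
      (fun _ _ => Nat.zero_le _) (by simp [hχ1])
  have h2 := mult_mul_deg_le N χ ψ
  have h3 : charDegree (ψ : N → ℂ) ≤ mult N χ ψ * charDegree (ψ : N → ℂ) :=
    Nat.le_mul_of_pos_left _ (Nat.pos_of_ne_zero hχ2)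
  have h4 : charDegree (χ : G → ℂ) ≤ mult N χ ψ * charDegree (χ : G → ℂ) :=
    Nat.le_mul_of_pos_left _ (Nat.pos_of_ne_zero hχ2)
  omega

/-- The comparison of the sums. -/
theorem sumSq_le (hidx : ¬ p ∣ N.index) : sumSq p N ≤ sumSq p G := by
  classical
  unfold sumSq
  calc ∑ ψ ∈ (Finset.univ.filter fun ψ : IrrCharacter N => ¬ p ∣ charDegree (ψ : N → ℂ)),
        charDegree (ψ : N → ℂ) ^ 2
      ≤ ∑ ψ ∈ (Finset.univ.filter fun ψ : IrrCharacter N => ¬ p ∣ charDegree (ψ : N → ℂ)),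
        charDegree (ψ : N → ℂ) *
        ∑ χ ∈ (Finset.univ.filter fun χ : IrrCharacter G => ¬ p ∣ charDegree (χ : G → ℂ)),
          mult N χ ψ * charDegree (χ : G → ℂ) := by
        refine Finset.sum_le_sum fun ψ hψ => ?_
        rw [pow_two]
        exact Nat.mul_le_mul_left _ (le_partial N hidx ψ (Finset.mem_filter.mp hψ).2)
    _ = ∑ χ ∈ (Finset.univ.filter fun χ : IrrCharacter G => ¬ p ∣ charDegree (χ : G → ℂ)),
      charDegree (χ : G → ℂ) *
        ∑ ψ ∈ (Finset.univ.filter fun ψ : IrrCharacter N => ¬ p ∣ charDegree (ψ : N → ℂ)),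
          mult N χ ψ * charDegree (ψ : N → ℂ) := (sum_exchange N).symm
    _ ≤ _ := by
        refine Finset.sum_le_sum fun χ _ => ?_
        rw [pow_two]
        exact Nat.mul_le_mul_left _ (partial_le N χ)

/-- The restriction in the case of equal sums: `χ` restricted is irreducible. -/
theorem exists_restrict_of_eq (hidx : ¬ p ∣ N.index) (h : sumSq p G = sumSq p N)
    (χ : IrrCharacter G) (hχ : ¬ p ∣ charDegree (χ : G → ℂ)) :
    ∃ ψ : IrrCharacter N, ¬ p ∣ charDegree (ψ : N → ℂ) ∧ ∀ n : N, (ψ : N → ℂ) n = (χ : G → ℂ) n := by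
  classical
  unfold sumSq at h
  have hA : ∑ ψ ∈ (Finset.univ.filter fun ψ : IrrCharacter N => ¬ p ∣ charDegree (ψ : N → ℂ)),
        charDegree (ψ : N → ℂ) ^ 2 =
      ∑ ψ ∈ (Finset.univ.filter fun ψ : IrrCharacter N => ¬ p ∣ charDegree (ψ : N → ℂ)),
        charDegree (ψ : N → ℂ) *
        ∑ χ ∈ (Finset.univ.filter fun χ : IrrCharacter G => ¬ p ∣ charDegree (χ : G → ℂ)),
          mult N χ ψ * charDegree (χ : G → ℂ) := by
    apply le_antisymm
    · refine Finset.sum_le_sum fun ψ hψ => ?_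
      rw [pow_two]
      exact Nat.mul_le_mul_left _ (le_partial N hidx ψ (Finset.mem_filter.mp hψ).2)
    · rw [← sum_exchange N]
      refine le_trans (Finset.sum_le_sum fun χ _ => ?_) (le_of_eq h)
      rw [pow_two]
      exact Nat.mul_le_mul_left _ (partial_le N χ)
  have hB : ∑ χ ∈ (Finset.univ.filter fun χ : IrrCharacter G => ¬ p ∣ charDegree (χ : G → ℂ)),
      charDegree (χ : G → ℂ) *
        ∑ ψ ∈ (Finset.univ.filter fun ψ : IrrCharacter N => ¬ p ∣ charDegree (ψ : N → ℂ)),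
          mult N χ ψ * charDegree (ψ : N → ℂ) =
      ∑ χ ∈ (Finset.univ.filter fun χ : IrrCharacter G => ¬ p ∣ charDegree (χ : G → ℂ)),
        charDegree (χ : G → ℂ) ^ 2 := by
    rw [sum_exchange N, ← hA, h]
  have hF := (Finset.sum_eq_sum_iff_of_le (fun χ _ => by
    rw [pow_two]; exact Nat.mul_le_mul_left _ (partial_le N χ))).mp hB χ (by simp [hχ])
  have hE := (Finset.sum_eq_sum_iff_of_le (fun ψ hψ => by
    rw [pow_two]
    exact Nat.mul_le_mul_left _ (le_partial N hidx ψ (Finset.mem_filter.mp hψ).2))).mp hA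
  have hpos := charDegree_pos χ.2
  rw [pow_two] at hF
  have hF' := Nat.eq_of_mul_eq_mul_left hpos hF
  obtain ⟨ψ, hψ, hne⟩ : ∃ ψ ∈ (Finset.univ.filter fun ψ : IrrCharacter N =>
      ¬ p ∣ charDegree (ψ : N → ℂ)), mult N χ ψ ≠ 0 := by
    by_contra hcon
    push Not at hcon
    rw [Finset.sum_eq_zero (fun ψ hψ => by rw [hcon ψ hψ, zero_mul])] at hF'
    omega
  have hψ' := (Finset.mem_filter.mp hψ).2
  have hE' := hE ψ hψ
  rw [pow_two] at hE'
  have hE'' := Nat.eq_of_mul_eq_mul_left (charDegree_pos ψ.2) hE'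
  have h1 : mult N χ ψ * charDegree (χ : G → ℂ) ≤
      ∑ χ ∈ (Finset.univ.filter fun χ : IrrCharacter G => ¬ p ∣ charDegree (χ : G → ℂ)),
        mult N χ ψ * charDegree (χ : G → ℂ) :=
    Finset.single_le_sum (f := fun χ : IrrCharacter G => mult N χ ψ * charDegree (χ : G → ℂ))
      (fun _ _ => Nat.zero_le _) (by simp [hχ])
  have h2 := mult_mul_deg_le N χ ψ
  have h3 : charDegree (ψ : N → ℂ) ≤ mult N χ ψ * charDegree (ψ : N → ℂ) :=
    Nat.le_mul_of_pos_left _ (Nat.pos_of_ne_zero hne)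
  have h4 : charDegree (χ : G → ℂ) ≤ mult N χ ψ * charDegree (χ : G → ℂ) :=
    Nat.le_mul_of_pos_left _ (Nat.pos_of_ne_zero hne)
  have hdeg : charDegree (χ : G → ℂ) = charDegree (ψ : N → ℂ) := by omega
  refine ⟨ψ, hψ', ?_⟩
  have hτ := isCharacter_restrict N (IsIrrCharacter.isCharacter χ.2)
  have hin : classInner (fun h : N => (χ : G → ℂ) h) (ψ : N → ℂ) ≠ 0 := by
    rw [mult_spec]
    exact_mod_cast hne
  obtain ⟨ψ', hψ'c, hadd⟩ := Cfsg.Agent.Lib.CharDecomp.exists_char_add hτ ψ.2 hin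
  have hz : ∀ n : N, ψ' n = 0 := by
    have h10 : (fun h : N => (χ : G → ℂ) h) 1 = (ψ : N → ℂ) 1 + ψ' 1 := congrFun hadd 1
    have h11 : ψ' 1 = 0 := by
      have h12 : (fun h : N => (χ : G → ℂ) h) 1 = (charDegree (χ : G → ℂ) : ℂ) := by
        rw [← one_eq_charDegree (IsIrrCharacter.isCharacter χ.2)]
        simp
      rw [h12, one_eq_charDegree (IsIrrCharacter.isCharacter ψ.2), hdeg] at h10
      simpa using h10.symm
    obtain ⟨n, ρ, rfl⟩ := hψ'c
    intro x
    have h13 := Cfsg.Agent.Lib.CharValues.norm_character_le ρ x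
    have h14 := char_one_eq_rep ρ
    rw [h11] at h14
    have h15 : (n : ℂ) = 0 := h14.symm
    have h16 : n = 0 := by exact_mod_cast h15
    subst h16
    simp at h13
    simpa using h13
  intro n
  have h20 : (fun h : N => (χ : G → ℂ) h) n = (ψ : N → ℂ) n + ψ' n := congrFun hadd n
  rw [hz n, add_zero] at h20
  exact h20.symm

/-- The extension in the case of equal sums. -/
theorem exists_extension_of_eq (hidx : ¬ p ∣ N.index) (h : sumSq p G = sumSq p N)
    (ψ : IrrCharacter N) (hψ : ¬ p ∣ charDegree (ψ : N → ℂ)) :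
    ∃ χ : IrrCharacter G, ¬ p ∣ charDegree (χ : G → ℂ) ∧ ∀ n : N, (ψ : N → ℂ) n = (χ : G → ℂ) n := by
  obtain ⟨χ, hχ, hne⟩ := exists_mult_ne_zero N hidx ψ hψ
  obtain ⟨ψ₀, -, h0⟩ := exists_restrict_of_eq N hidx h χ hχ
  refine ⟨χ, hχ, ?_⟩
  have hf : (fun h : N => (χ : G → ℂ) h) = (ψ₀ : N → ℂ) := funext fun n => (h0 n).symm
  by_cases heq : (ψ₀ : N → ℂ) = ψ
  · intro n
    rw [← heq, h0]
  · exfalso
    have h1 := mult_spec N χ ψ
    rw [hf, classInner_irr_ne ψ₀.2 ψ.2 heq] at h1
    apply hne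
    exact_mod_cast h1.symm

end Compare

end Cfsg.Agent.Lib.OddDegSum71
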