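import Mathlib
import Cfsg.Agent.Lib.OddDegSum71
import Cfsg.Agent.Lib.Tate
import Cfsg.Agent.Lib.Frat
import Cfsg.Agent.Lib.SylowConjLemmas
import Cfsg.Agent.Lib.Subnormal

/-!
# Normal complements of Sylow normalizers from the sum of the squares of the degrees prime to `p`
-/

set_option autoImplicit false
set_option linter.style.haveILetI false
set_option linter.unusedVariables false
set_option linter.unusedSectionVars false

namespace Cfsg.Agent.Lib.OddDegSum71

open Cfsg Cfsg.Agent.Lib.CharBasic Cfsg.Agent.Lib.CharInd Cfsg.Agent.Lib.CharKernel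
open Cfsg.Agent.Lib.PDegKernel71

universe u

section Hall

variable {p : ℕ} [hp : Fact p.Prime]

/-- An element of order prime to `p` lies in each normal subgroup of `p`-power index. -/
theorem mem_of_not_dvd_orderOf {A : Type*} [Group A] [Finite A] (R : Subgroup A) [R.Normal] {k : ℕ}
    (hk : R.index = p ^ k) {z : A} (hz : ¬ p ∣ orderOf z) : z ∈ R := by
  have h1 := Subgroup.pow_index_mem R z
  have hcop : Nat.Coprime R.index (orderOf z) := by
    rw [hk]
    exact Nat.Coprime.pow_left k ((Nat.Prime.coprime_iff_not_dvd hp.out).mpr hz)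
  obtain ⟨m, hm⟩ := exists_pow_eq_self_of_coprime hcop
  rw [← hm]
  exact R.pow_mem h1 m

/-- The element order inside a subgroup of order prime to `p`. -/
theorem not_dvd_orderOf_of_mem {A : Type*} [Group A] [Finite A] (R : Subgroup A)
    (h1 : ¬ p ∣ Nat.card R) {z : A} (hz : z ∈ R) : ¬ p ∣ orderOf z := by
  intro hd
  apply h1
  have h2 : orderOf (⟨z, hz⟩ : R) ∣ Nat.card R := orderOf_dvd_natCard _
  rw [Subgroup.orderOf_mk] at h2
  exact hd.trans h2

/-- A `p`-element of order prime to `p` is trivial. -/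
theorem eq_one_of_pow_of_not_dvd {A : Type*} [Group A] {z : A} {a : ℕ} (h : z ^ (p ^ a) = 1)
    (hz : ¬ p ∣ orderOf z) : z = 1 := by
  obtain ⟨b, -, hb⟩ := (Nat.dvd_prime_pow hp.out).mp (orderOf_dvd_of_pow_eq_one h)
  rcases b with _ | b
  · rw [pow_zero] at hb
    exact orderOf_eq_one_iff.mp hb
  · exact absurd (hb ▸ dvd_pow_self p (Nat.succ_ne_zero b)) hz

/-- The normal `p`-complement of a normal subgroup is normal in the ambient group. -/
theorem map_normal_of_hall {X : Type*} [Group X] [Finite X] (A : Subgroup X) [hA : A.Normal]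
    (R : Subgroup A) [hR : R.Normal] (h1 : ¬ p ∣ Nat.card R) {k : ℕ} (h2 : R.index = p ^ k) :
    (R.map A.subtype).Normal := by
  constructor
  rintro _ ⟨r, hr, rfl⟩ g
  have hmem : g * (r : X) * g⁻¹ ∈ A := hA.conj_mem _ r.2 g
  refine ⟨⟨_, hmem⟩, ?_, rfl⟩
  apply mem_of_not_dvd_orderOf R h2
  have h3 := not_dvd_orderOf_of_mem R h1 hr
  rw [Subgroup.orderOf_mk]
  have h4 : orderOf (g * (r : X) * g⁻¹) = orderOf (r : X) := by
    have := MulEquiv.orderOf_eq (MulAut.conj g) (r : X)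
    simpa using this
  rw [h4, Subgroup.orderOf_coe]
  exact h3

end Hall

section Main

variable {G : Type u} [Group G] [Finite G] {p : ℕ} [hp : Fact p.Prime] (P : Sylow p G)

/-- The normalizer of a Sylow subgroup. -/
abbrev nor : Subgroup G := Subgroup.normalizer ((P : Subgroup G) : Set G)

/-- The Sylow subgroup inside its normalizer. -/
noncomputable abbrev QQ : Sylow p (nor P) := P.subtype Subgroup.le_normalizer

instance QQ_normal : ((QQ P : Sylow p (nor P)) : Subgroup (nor P)).Normal := by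
  rw [Sylow.coe_subtype]
  exact Subgroup.normal_in_normalizer

theorem map_comm_QQ : (⁅((QQ P : Sylow p (nor P)) : Subgroup (nor P)),
      ((QQ P : Sylow p (nor P)) : Subgroup (nor P))⁆).map (nor P).subtype =
    ⁅(P : Subgroup G), (P : Subgroup G)⁆ := by
  rw [Subgroup.map_commutator, Sylow.coe_subtype,
    Subgroup.map_subgroupOf_eq_of_le Subgroup.le_normalizer]

theorem card_comm_QQ : Nat.card (⁅((QQ P : Sylow p (nor P)) : Subgroup (nor P)),
      ((QQ P : Sylow p (nor P)) : Subgroup (nor P))⁆ : Subgroup (nor P)) =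
    Nat.card (commutator ↥(P : Subgroup G)) := by
  have h1 : Nat.card (⁅((QQ P : Sylow p (nor P)) : Subgroup (nor P)),
      ((QQ P : Sylow p (nor P)) : Subgroup (nor P))⁆ : Subgroup (nor P)) =
      Nat.card (⁅(P : Subgroup G), (P : Subgroup G)⁆ : Subgroup G) := by
    rw [← map_comm_QQ P]
    exact Nat.card_congr (Subgroup.equivMapOfInjective _ _ (nor P).subtype_injective).toEquiv
  have h2 : Nat.card (commutator ↥(P : Subgroup G)) =
      Nat.card (⁅(P : Subgroup G), (P : Subgroup G)⁆ : Subgroup G) := by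
    rw [← Subgroup.map_subtype_commutator]
    exact Nat.card_congr
      (Subgroup.equivMapOfInjective _ _ (P : Subgroup G).subtype_injective).toEquiv
  rw [h1, h2]

/-- The order of the normalizer and the sum of the squares of the degrees prime to `p`. -/
theorem card_nor : Nat.card (nor P) = Nat.card (commutator ↥(P : Subgroup G)) * sumSq p (nor P) := by
  classical
  have h := card_commutator_mul_sum (QQ P)
  rw [card_comm_QQ] at h
  exact h.symm

theorem not_dvd_index_nor : ¬ p ∣ (nor P).index := fun h =>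
  P.not_dvd_index (h.trans (Subgroup.index_dvd_of_le Subgroup.le_normalizer))

/-- Frattini's argument, for the elements. -/
theorem frattini_step (L : Subgroup G) [L.Normal] (x : G)
    (hx : ∀ t ∈ (P : Subgroup G), x * t * x⁻¹ ∈ (P : Subgroup G) ⊔ L) :
    ∃ h ∈ L, h * x ∈ nor P := by
  have hT : IsPGroup p ((P : Subgroup G).map (MulAut.conj x).toMonoidHom) := P.2.map _
  have hTK : (P : Subgroup G).map (MulAut.conj x).toMonoidHom ≤ (P : Subgroup G) ⊔ L := by
    rintro _ ⟨t, ht, rfl⟩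
    exact hx t ht
  obtain ⟨h, hh, hk⟩ := Cfsg.Agent.Lib.SylowConjLemmas.exists_conj_mem_of_le_sup P L _ hT hTK
  refine ⟨h, hh, Cfsg.Agent.Lib.Subnormal.mem_normalizer_of_conj_mem _ _ ?_⟩
  intro d hd
  have h1 := hk (x * d * x⁻¹) ⟨d, hd, rfl⟩
  have h2 : h * (x * d * x⁻¹) * h⁻¹ = h * x * d * (h * x)⁻¹ := by group
  rw [← h2]
  exact h1

variable {P}

section Hyp

variable (hR : ∀ χ : IrrCharacter G, ¬ p ∣ charDegree (χ : G → ℂ) →
      ∃ ψ : IrrCharacter (nor P), ¬ p ∣ charDegree (ψ : nor P → ℂ) ∧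
        ∀ n : nor P, (ψ : nor P → ℂ) n = (χ : G → ℂ) n)
  (hE : ∀ ψ : IrrCharacter (nor P), ¬ p ∣ charDegree (ψ : nor P → ℂ) →
      ∃ χ : IrrCharacter G, ¬ p ∣ charDegree (χ : G → ℂ) ∧
        ∀ n : nor P, (ψ : nor P → ℂ) n = (χ : G → ℂ) n)

include hR in
/-- The commutator subgroup of the Sylow subgroup lies in the kernels. -/
theorem comm_le_pKer : ⁅(P : Subgroup G), (P : Subgroup G)⁆ ≤ pKer p G := by
  intro u hu
  rw [mem_pKer]
  intro χ hχ
  obtain ⟨ψ, hψ, h⟩ := hR χ hχ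
  rw [← map_comm_QQ P] at hu
  obtain ⟨u', hu', rfl⟩ := hu
  have h1 := commutator_le_ker (QQ P) ψ hψ hu'
  have h2 := h u'
  have h3 := h 1
  simp only [Subgroup.coe_subtype, Subgroup.coe_one] at h2 h3 ⊢
  rw [← h2, ← h3, h1]

include hE in
/-- The intersection of the kernels meets the normalizer in the commutator subgroup. -/
theorem pKer_inf_nor_le {x : G} (hx : x ∈ pKer p G) (hxN : x ∈ nor P) :
    x ∈ ⁅(P : Subgroup G), (P : Subgroup G)⁆ := by
  rw [mem_pKer] at hx
  rw [← map_comm_QQ P]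
  refine ⟨⟨x, hxN⟩, ?_, rfl⟩
  haveI : (⁅((QQ P : Sylow p (nor P)) : Subgroup (nor P)),
      ((QQ P : Sylow p (nor P)) : Subgroup (nor P))⁆ : Subgroup (nor P)).Normal :=
    Subgroup.commutator_normal _ _
  apply mem_of_forall_ker
  intro ψ hψ
  obtain ⟨χ, hχ, h⟩ := hE ψ (not_dvd_of_commutator_le_ker (QQ P) ψ hψ)
  rw [h, h 1]
  simpa using hx χ hχ

include hE in
/-- An element of the normalizer in the kernels of those `χ` with `P` in the kernel lies in `P`. -/
theorem mem_sylow_of_ker {y : G} (hyN : y ∈ nor P)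
    (hy : ∀ χ : IrrCharacter G, ¬ p ∣ charDegree (χ : G → ℂ) →
      (∀ t ∈ (P : Subgroup G), (χ : G → ℂ) t = (χ : G → ℂ) 1) → (χ : G → ℂ) y = (χ : G → ℂ) 1) :
    y ∈ (P : Subgroup G) := by
  have h1 : (⟨y, hyN⟩ : nor P) ∈ ((QQ P : Sylow p (nor P)) : Subgroup (nor P)) := by
    apply mem_of_forall_ker
    intro ψ hψ
    have hψc : ∀ u ∈ ⁅((QQ P : Sylow p (nor P)) : Subgroup (nor P)),
        ((QQ P : Sylow p (nor P)) : Subgroup (nor P))⁆,
        (ψ : nor P → ℂ) u = (ψ : nor P → ℂ) 1 := fun u hu =>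
      hψ u (Subgroup.commutator_le_left _ _ hu)
    obtain ⟨χ, hχ, h⟩ := hE ψ (not_dvd_of_commutator_le_ker (QQ P) ψ hψc)
    rw [h, h 1]
    have h2 : ∀ t ∈ (P : Subgroup G), (χ : G → ℂ) t = (χ : G → ℂ) 1 := by
      intro t ht
      have h3 : (⟨t, Subgroup.le_normalizer ht⟩ : nor P) ∈
          ((QQ P : Sylow p (nor P)) : Subgroup (nor P)) := by
        rw [Sylow.coe_subtype]
        exact Subgroup.mem_subgroupOf.mpr ht
      have h4 := hψ _ h3
      rw [h, h 1] at h4
      simpa using h4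
    simpa using hy χ hχ h2
  rw [Sylow.coe_subtype] at h1
  exact Subgroup.mem_subgroupOf.mp h1

/-- Membership in `P L` from the image in the quotient by `L`. -/
theorem mem_sup_of_mk_mem {L : Subgroup G} [L.Normal] {w : G}
    (hw : QuotientGroup.mk' L w ∈ (P : Subgroup G).map (QuotientGroup.mk' L)) :
    w ∈ (P : Subgroup G) ⊔ L := by
  obtain ⟨t, ht, h⟩ := hw
  have h1 : t⁻¹ * w ∈ L := QuotientGroup.eq.mp h
  have h2 : w = t * (t⁻¹ * w) := by group
  rw [h2]
  exact Subgroup.mul_mem_sup ht h1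

include hE in
/-- The key claim: the normal closure of `P` modulo `L` meets the normalizer in `P L`. -/
theorem mem_sup_of_normalClosure {x : G}
    (hx1 : x ∈ Subgroup.normalClosure ((P : Subgroup G) : Set G) ⊔ pKer p G)
    (hx2 : ∀ t ∈ (P : Subgroup G), x * t * x⁻¹ ∈ (P : Subgroup G) ⊔ pKer p G) :
    x ∈ (P : Subgroup G) ⊔ pKer p G := by
  haveI : (pKer p G).Normal := pKer_normal p
  obtain ⟨h, hh, hy⟩ := frattini_step P (pKer p G) x hx2
  have hyP : h * x ∈ (P : Subgroup G) := by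
    refine mem_sylow_of_ker hE hy ?_
    intro χ hχ hker
    have hc := IsIrrCharacter.isCharacter χ.2
    have hle : Subgroup.normalClosure ((P : Subgroup G) : Set G) ⊔ pKer p G ≤ charKer hc := by
      refine sup_le (Subgroup.normalClosure_le_normal ?_) ?_
      · intro t ht
        exact (mem_charKer hc).mpr (hker t ht)
      · intro l hl
        exact (mem_charKer hc).mpr ((mem_pKer p).mp hl χ hχ)
    have h1 : h ∈ charKer hc := (mem_charKer hc).mpr ((mem_pKer p).mp hh χ hχ)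
    exact (mem_charKer hc).mp ((charKer hc).mul_mem h1 (hle hx1))
  have h2 : x = h⁻¹ * (h * x) := by group
  rw [h2]
  exact Subgroup.mul_mem _ (Subgroup.mem_sup_right (Subgroup.inv_mem _ hh))
    (Subgroup.mem_sup_left hyP)

include hR hE in
/-- Burnside's theorem in the normal closure modulo the kernels: `P L` is normal. -/
theorem sup_pKer_normal (g : G) {t : G} (ht : t ∈ (P : Subgroup G)) :
    g * t * g⁻¹ ∈ (P : Subgroup G) ⊔ pKer p G := by
  classical
  let L : Subgroup G := pKer p G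
  haveI hLn : L.Normal := pKer_normal p
  let π : G →* G ⧸ L := QuotientGroup.mk' L
  have hπ : Function.Surjective π := QuotientGroup.mk'_surjective L
  let Pb : Sylow p (G ⧸ L) := P.mapSurjective hπ
  have hPb : (Pb : Subgroup (G ⧸ L)) = (P : Subgroup G).map π := rfl
  let Mb : Subgroup (G ⧸ L) := Subgroup.normalClosure ((Pb : Subgroup (G ⧸ L)) : Set (G ⧸ L))
  haveI hMbn : Mb.Normal := Subgroup.normalClosure_normal
  have hle : (Pb : Subgroup (G ⧸ L)) ≤ Mb := Subgroup.le_normalClosure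
  -- `Pb` is abelian
  have hcomm : ∀ a ∈ (Pb : Subgroup (G ⧸ L)), ∀ b ∈ (Pb : Subgroup (G ⧸ L)), a * b = b * a := by
    rintro _ ⟨s, hs, rfl⟩ _ ⟨u, hu, rfl⟩
    have h1 : s * u * s⁻¹ * u⁻¹ ∈ L :=
      comm_le_pKer hR (Subgroup.commutator_mem_commutator hs hu)
    have h2 : π (s * u * s⁻¹ * u⁻¹) = 1 := (QuotientGroup.eq_one_iff _).mpr h1
    rw [map_mul, map_mul, map_mul, map_inv, map_inv] at h2
    exact mul_inv_eq_one.mp (by
      rw [mul_inv_rev, ← mul_assoc]
      exact h2)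
  -- elements of `Mb` normalizing `Pb` lie in `Pb`
  have hMem : ∀ z ∈ Mb, z ∈ Subgroup.normalizer ((Pb : Subgroup (G ⧸ L)) : Set (G ⧸ L)) →
      z ∈ (Pb : Subgroup (G ⧸ L)) := by
    intro z hz1 hz2
    obtain ⟨x, rfl⟩ := hπ z
    have hx1 : x ∈ Subgroup.normalClosure ((P : Subgroup G) : Set G) ⊔ pKer p G := by
      haveI hn : ((Subgroup.normalClosure ((P : Subgroup G) : Set G) ⊔ pKer p G).map π).Normal :=
        Subgroup.Normal.map inferInstance π hπ
      have h1 : Mb ≤ (Subgroup.normalClosure ((P : Subgroup G) : Set G) ⊔ pKer p G).map π := by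
        refine Subgroup.normalClosure_le_normal ?_
        rintro _ ⟨s, hs, rfl⟩
        exact ⟨s, Subgroup.mem_sup_left (Subgroup.le_normalClosure hs), rfl⟩
      obtain ⟨w, hw, hwx⟩ := h1 hz1
      have h2 : w⁻¹ * x ∈ L := QuotientGroup.eq.mp hwx
      have h3 : x = w * (w⁻¹ * x) := by group
      rw [h3]
      exact Subgroup.mul_mem _ hw (Subgroup.mem_sup_right h2)
    have hx2 : ∀ t ∈ (P : Subgroup G), x * t * x⁻¹ ∈ (P : Subgroup G) ⊔ pKer p G := by
      intro t ht
      apply mem_sup_of_mk_mem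
      have h1 : π t ∈ (Pb : Subgroup (G ⧸ L)) := ⟨t, ht, rfl⟩
      have h2 := (Subgroup.mem_normalizer_iff.mp hz2 (π t)).mp h1
      have h3 : π (x * t * x⁻¹) = π x * π t * (π x)⁻¹ := by simp
      exact h3 ▸ h2
    have h1 := mem_sup_of_normalClosure hE hx1 hx2
    obtain ⟨s, hs, l, hl, rfl⟩ := Subgroup.mem_sup_of_normal_right.mp h1
    refine ⟨s, hs, ?_⟩
    have h2 : π l = 1 := (QuotientGroup.eq_one_iff _).mpr hl
    rw [map_mul, h2, mul_one]
  -- Burnside's theorem in `Mb`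
  let Qb : Sylow p Mb := Pb.subtype hle
  have hQb : ∀ a : Mb, a ∈ (Qb : Subgroup Mb) ↔ (a : G ⧸ L) ∈ (Pb : Subgroup (G ⧸ L)) := by
    intro a
    rw [Sylow.coe_subtype]
    exact Subgroup.mem_subgroupOf
  have hNC : Subgroup.normalizer ((Qb : Subgroup Mb) : Set Mb) ≤
      Subgroup.centralizer ((Qb : Subgroup Mb) : Set Mb) := by
    intro z hz
    have hz2 : (z : G ⧸ L) ∈ Subgroup.normalizer ((Pb : Subgroup (G ⧸ L)) : Set (G ⧸ L)) := by
      apply Cfsg.Agent.Lib.Subnormal.mem_normalizer_of_conj_mem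
      intro d hd
      have h1 : (⟨d, hle hd⟩ : Mb) ∈ (Qb : Subgroup Mb) := (hQb _).mpr hd
      have h2 := (Subgroup.mem_normalizer_iff.mp hz _).mp h1
      exact (hQb _).mp h2
    have hz3 := hMem _ z.2 hz2
    rw [Subgroup.mem_centralizer_iff]
    intro a ha
    apply Subtype.ext
    exact hcomm _ ((hQb _).mp ha) _ hz3
  obtain ⟨R, hRn, hR1, k, hk⟩ : ∃ R : Subgroup Mb, R.Normal ∧ ¬ p ∣ Nat.card R ∧
      ∃ k, R.index = p ^ k := by
    have h1 := MonoidHom.ker_transferSylow_isComplement' Qb hNC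
    have h2 := MonoidHom.not_dvd_card_ker_transferSylow Qb hNC
    refine ⟨_, inferInstance, h2, ?_⟩
    obtain ⟨k, hk⟩ := IsPGroup.iff_card.mp Qb.2
    exact ⟨k, by rw [h1.symm.index_eq_card, hk]⟩
  haveI : R.Normal := hRn
  let Rb : Subgroup (G ⧸ L) := R.map Mb.subtype
  haveI hRbn : Rb.Normal := map_normal_of_hall (p := p) Mb R hR1 hk
  -- `Rb` has no fixed points
  have hRC : Rb ⊓ Subgroup.centralizer ((Pb : Subgroup (G ⧸ L)) : Set (G ⧸ L)) = ⊥ := by
    rw [eq_bot_iff]
    rintro z ⟨⟨r, hr, rfl⟩, hz2⟩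
    have hz3 : (r : G ⧸ L) ∈ (Pb : Subgroup (G ⧸ L)) :=
      hMem _ r.2 (Subgroup.centralizer_le_normalizer _ hz2)
    obtain ⟨a, ha⟩ := Pb.2 ⟨_, hz3⟩
    have h1 : (r : G ⧸ L) ^ (p ^ a) = 1 := by
      simpa using congrArg Subtype.val ha
    have h2 : ¬ p ∣ orderOf r := not_dvd_orderOf_of_mem R hR1 hr
    rw [← Subgroup.orderOf_coe] at h2
    exact Subgroup.mem_bot.mpr (eq_one_of_pow_of_not_dvd h1 h2)
  -- `Rb` is trivial
  have hRtriv : ∀ z ∈ Rb, z = 1 := by
    intro z hz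
    obtain ⟨x, rfl⟩ := hπ z
    have hxL : x ∈ L := by
      refine (mem_pKer p).mpr fun χ hχ => ?_
      have hχL : ∀ l ∈ L, (χ : G → ℂ) l = (χ : G → ℂ) 1 := fun l hl => (mem_pKer p).mp hl χ hχ
      obtain ⟨χ', h1, h2⟩ := exists_quotient_irr L χ.2 hχL
      have hdeg : charDegree χ' = charDegree (χ : G → ℂ) := by
        simp only [charDegree]
        have := h2 1
        rw [QuotientGroup.mk_one] at this
        rw [this]
      have h3 := normal_le_ker p Pb Rb hRC ⟨χ', h1⟩ (by rwa [hdeg]) hz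
      have h4 := h2 x
      have h5 := h2 1
      rw [QuotientGroup.mk_one] at h5
      rw [← h4, ← h5]
      exact h3
    exact (QuotientGroup.eq_one_iff _).mpr hxL
  have hRbot : R = ⊥ := by
    rw [eq_bot_iff]
    intro r hr
    have := hRtriv _ (Subgroup.mem_map_of_mem Mb.subtype hr)
    exact Subgroup.mem_bot.mpr (Subtype.ext this)
  have hMcard : Nat.card Mb = p ^ k := by
    rw [← hk, hRbot, Subgroup.index_bot]
  have hMp : IsPGroup p Mb := IsPGroup.of_card hMcard
  have hMle : Mb ≤ (Pb : Subgroup (G ⧸ L)) := hMp.le_sylow_of_normal Pb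
  apply mem_sup_of_mk_mem
  apply hMle
  have h1 : π (g * t * g⁻¹) = π g * π t * (π g)⁻¹ := by simp
  show π (g * t * g⁻¹) ∈ Mb
  rw [h1]
  exact hMbn.conj_mem _ (hle ⟨t, ht, rfl⟩) _

include hR hE in
/-- Every element is in `L N`. -/
theorem pKer_sup_nor : pKer p G ⊔ nor P = ⊤ := by
  haveI : (pKer p G).Normal := pKer_normal p
  rw [eq_top_iff]
  intro x _
  obtain ⟨h, hh, hy⟩ := frattini_step P (pKer p G) x
    (fun t ht => sup_pKer_normal hR hE x ht)
  have h2 : x = h⁻¹ * (h * x) := by group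
  rw [h2]
  exact Subgroup.mul_mem _ (Subgroup.mem_sup_left (Subgroup.inv_mem _ hh))
    (Subgroup.mem_sup_right hy)

include hR hE in
/-- Under the equality, the normalizer has a normal complement. -/
theorem exists_complement : ∃ K : Subgroup G, K.Normal ∧ K ⊓ nor P = ⊥ ∧ K ⊔ nor P = ⊤ := by
  classical
  let L : Subgroup G := pKer p G
  haveI hLn : L.Normal := pKer_normal p
  have hF : L ⊓ (P : Subgroup G) ≤ (frattini P).map (P : Subgroup G).subtype := by
    rintro x ⟨hxL, hxP⟩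
    have h1 := pKer_inf_nor_le hE hxL (Subgroup.le_normalizer hxP)
    rw [← Subgroup.map_subtype_commutator] at h1
    obtain ⟨y, hy, rfl⟩ := h1
    exact ⟨y, Cfsg.Agent.Lib.Frat.commutator_le_frattini P.2 hy, rfl⟩
  obtain ⟨S, R, hRn, hRc⟩ := Cfsg.Agent.Lib.Tate.tate P L hF
  haveI := hRn
  have hR1 : ¬ p ∣ Nat.card R := by
    rw [← hRc.index_eq_card]
    exact S.not_dvd_index
  obtain ⟨k, hk⟩ : ∃ k, R.index = p ^ k := by
    obtain ⟨k, hk⟩ := IsPGroup.iff_card.mp S.2
    exact ⟨k, by rw [hRc.symm.index_eq_card, hk]⟩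
  haveI hKn : (R.map L.subtype).Normal := map_normal_of_hall (p := p) L R hR1 hk
  refine ⟨R.map L.subtype, hKn, ?_, ?_⟩
  · rw [eq_bot_iff]
    rintro z ⟨⟨r, hr, rfl⟩, hz2⟩
    have hrL : (r : G) ∈ pKer p G := r.2
    have h1 := pKer_inf_nor_le hE hrL hz2
    have h2 : (r : G) ∈ (P : Subgroup G) := by
      refine (Subgroup.commutator_le.mpr fun a ha b hb => ?_) h1
      rw [commutatorElement_def]
      exact Subgroup.mul_mem _ (Subgroup.mul_mem _ (Subgroup.mul_mem _ ha hb)
        (Subgroup.inv_mem _ ha)) (Subgroup.inv_mem _ hb)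
    obtain ⟨a, ha⟩ := P.2 ⟨_, h2⟩
    have h3 : (r : G) ^ (p ^ a) = 1 := by simpa using congrArg Subtype.val ha
    have h4 : ¬ p ∣ orderOf r := not_dvd_orderOf_of_mem R hR1 hr
    rw [← Subgroup.orderOf_coe] at h4
    exact Subgroup.mem_bot.mpr (eq_one_of_pow_of_not_dvd h3 h4)
  · rw [eq_top_iff, ← pKer_sup_nor hR hE]
    refine sup_le ?_ le_sup_right
    intro x hxL
    let K : Subgroup G := R.map L.subtype
    let π : G →* G ⧸ K := QuotientGroup.mk' K
    have hπ : Function.Surjective π := QuotientGroup.mk'_surjective K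
    let Ph : Sylow p (G ⧸ K) := P.mapSurjective hπ
    have hLp : IsPGroup p (L.map π) := by
      rintro ⟨_, y, hy, rfl⟩
      refine ⟨k, Subtype.ext ?_⟩
      have h1 := Subgroup.pow_index_mem R (⟨y, hy⟩ : L)
      rw [hk] at h1
      have h2 : y ^ (p ^ k) ∈ K := ⟨_, h1, by simp⟩
      have h3 : π (y ^ (p ^ k)) = 1 := (QuotientGroup.eq_one_iff _).mpr h2
      simpa using h3
    haveI hLmn : (L.map π).Normal := Subgroup.Normal.map hLn π hπ
    have h1 : L.map π ≤ (Ph : Subgroup (G ⧸ K)) := hLp.le_sylow_of_normal Ph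
    have h2 : π x ∈ (P : Subgroup G).map π := h1 ⟨x, hxL, rfl⟩
    have h3 : x ∈ (P : Subgroup G) ⊔ K := mem_sup_of_mk_mem h2
    rw [sup_comm] at h3
    exact (sup_le_sup_left Subgroup.le_normalizer K) h3

end Hyp

/-- A normal complement forces the sums to be equal. -/
theorem sumSq_le_of_complement (K : Subgroup G) [hKn : K.Normal] (h1 : K ⊓ nor P = ⊥)
    (h2 : K ⊔ nor P = ⊤) : sumSq p G ≤ sumSq p (nor P) := by
  classical
  have hKC : K ⊓ Subgroup.centralizer ((P : Subgroup G) : Set G) = ⊥ := by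
    rw [eq_bot_iff, ← h1]
    exact inf_le_inf_left K (Subgroup.centralizer_le_normalizer _)
  have hK : ∀ χ : IrrCharacter G, ¬ p ∣ charDegree (χ : G → ℂ) → ∀ k ∈ K,
      (χ : G → ℂ) k = (χ : G → ℂ) 1 := fun χ hχ k hk => normal_le_ker p P K hKC χ hχ hk
  have hdec : ∀ g : G, ∃ k ∈ K, ∃ m : nor P, k * (m : G) = g := by
    intro g
    have hg : g ∈ K ⊔ nor P := h2 ▸ Subgroup.mem_top g
    obtain ⟨k, hk, m, hm, rfl⟩ := Subgroup.mem_sup_of_normal_left.mp hg
    exact ⟨k, hk, ⟨m, hm⟩, rfl⟩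
  have hmul : ∀ χ : IrrCharacter G, ¬ p ∣ charDegree (χ : G → ℂ) → ∀ k ∈ K, ∀ g : G,
      (χ : G → ℂ) (k * g) = (χ : G → ℂ) g := by
    rintro ⟨_, n, ρ, hρ, rfl⟩ hχ k hk g
    have h3 : ρ k = LinearMap.id := (charKer_iff_rep ρ).mp (hK _ hχ k hk)
    show ρ.character (k * g) = ρ.character g
    simp only [Representation.character, map_mul, h3]
    rfl
  have hirr : ∀ χ : IrrCharacter G, ¬ p ∣ charDegree (χ : G → ℂ) →
      IsIrrCharacter (nor P) (fun n : nor P => (χ : G → ℂ) n) := by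
    rintro ⟨_, n, ρ, hρ, rfl⟩ hχ
    refine ⟨n, ρ.comp (nor P).subtype, ?_, rfl⟩
    rw [isIrreducible_iff] at hρ ⊢
    refine ⟨hρ.1, fun U hU => hρ.2 U fun g v hv => ?_⟩
    obtain ⟨k, hk, m, rfl⟩ := hdec g
    have h3 : ρ k = LinearMap.id := (charKer_iff_rep ρ).mp (hK _ hχ k hk)
    rw [map_mul, Module.End.mul_apply, h3]
    exact hU m v hv
  let f : IrrCharacter G → IrrCharacter (nor P) := fun χ =>
    if h : ¬ p ∣ charDegree (χ : G → ℂ) then ⟨_, hirr χ h⟩ else oneIrr71 _
  have hf : ∀ χ : IrrCharacter G, ¬ p ∣ charDegree (χ : G → ℂ) → ∀ n : nor P,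
      (f χ : nor P → ℂ) n = (χ : G → ℂ) n := by
    intro χ h n
    simp only [f, dif_pos h]
  have hfdeg : ∀ χ : IrrCharacter G, ¬ p ∣ charDegree (χ : G → ℂ) →
      charDegree (f χ : nor P → ℂ) = charDegree (χ : G → ℂ) := by
    intro χ h
    simp only [charDegree]
    rw [hf χ h 1]
    rfl
  have hinj : Set.InjOn f (Finset.univ.filter fun χ : IrrCharacter G =>
      ¬ p ∣ charDegree (χ : G → ℂ) : Finset _) := by
    intro a ha b hb hab
    have ha' := (Finset.mem_filter.mp (Finset.mem_coe.mp ha)).2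
    have hb' := (Finset.mem_filter.mp (Finset.mem_coe.mp hb)).2
    apply Subtype.ext
    funext g
    obtain ⟨k, hk, m, rfl⟩ := hdec g
    rw [hmul a ha' k hk, hmul b hb' k hk, ← hf a ha' m, ← hf b hb' m, hab]
  unfold sumSq
  calc ∑ χ ∈ (Finset.univ.filter fun χ : IrrCharacter G => ¬ p ∣ charDegree (χ : G → ℂ)),
        charDegree (χ : G → ℂ) ^ 2
      = ∑ χ ∈ (Finset.univ.filter fun χ : IrrCharacter G => ¬ p ∣ charDegree (χ : G → ℂ)),
        charDegree (f χ : nor P → ℂ) ^ 2 := by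
        refine Finset.sum_congr rfl fun χ hχ => ?_
        rw [hfdeg χ (Finset.mem_filter.mp hχ).2]
    _ = ∑ ψ ∈ (Finset.univ.filter fun χ : IrrCharacter G =>
          ¬ p ∣ charDegree (χ : G → ℂ)).image f, charDegree (ψ : nor P → ℂ) ^ 2 :=
        (Finset.sum_image (f := fun ψ : IrrCharacter (nor P) => charDegree (ψ : nor P → ℂ) ^ 2)
          hinj).symm
    _ ≤ _ := by
        refine Finset.sum_le_sum_of_subset ?_
        intro ψ hψ
        obtain ⟨χ, hχ, rfl⟩ := Finset.mem_image.mp hψ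
        have hχ' := (Finset.mem_filter.mp hχ).2
        refine Finset.mem_filter.mpr ⟨Finset.mem_univ _, ?_⟩
        rw [hfdeg χ hχ']
        exact hχ'

variable (P) in
/-- The main theorem, for any prime. -/
theorem card_nor_le_and_iff :
    Nat.card (nor P) ≤ Nat.card (commutator ↥(P : Subgroup G)) * sumSq p G ∧
    (Nat.card (nor P) = Nat.card (commutator ↥(P : Subgroup G)) * sumSq p G ↔
      ∃ K : Subgroup G, K.Normal ∧ K ⊓ nor P = ⊥ ∧ K ⊔ nor P = ⊤) := by
  classical
  letI : Fintype G := Fintype.ofFinite G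
  letI : Fintype (nor P) := Fintype.ofFinite _
  have hidx := not_dvd_index_nor P
  have hle := sumSq_le (p := p) (nor P) hidx
  have hcard := card_nor P
  have hpos : 0 < Nat.card (commutator ↥(P : Subgroup G)) := Nat.card_pos
  rw [hcard]
  refine ⟨Nat.mul_le_mul_left _ hle, ⟨fun h => ?_, ?_⟩⟩
  · have hEq : sumSq p G = sumSq p (nor P) := (Nat.eq_of_mul_eq_mul_left hpos h).symm
    exact exists_complement (P := P)
      (fun χ hχ => exists_restrict_of_eq (nor P) hidx hEq χ hχ)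
      (fun ψ hψ => exists_extension_of_eq (nor P) hidx hEq ψ hψ)
  · rintro ⟨K, hKn, h1, h2⟩
    haveI := hKn
    rw [le_antisymm hle (sumSq_le_of_complement K h1 h2)]

end Main

end Cfsg.Agent.Lib.OddDegSum71
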