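import Mathlib

/-!
# Inserting points in cycles of a permutation of odd order

If `π` has odd order and fixes `m₁, m₂`, then the permutation `σ` obtained from `π` by inserting
the two points `m₁, m₂` after a point `g` in its cycle has odd order too.
-/

set_option autoImplicit false

namespace Cfsg.Agent.Lib.OddInsert

set_option linter.style.haveILetI false
set_option linter.unusedVariables false
set_option linter.unusedSimpArgs false

open Equiv

variable {α : Type*} [Finite α]

lemma odd_orderOf_of_forall (σ : Perm α)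
    (h : ∀ v, ∃ m : ℕ, Odd m ∧ (σ ^ m) v = v) : Odd (orderOf σ) := by
  classical
  haveI := Fintype.ofFinite α
  choose m hm1 hm2 using h
  set N := ∏ v, m v with hN
  have hNodd : Odd N := by
    rw [hN]
    exact Finset.prod_induction _ Odd (fun _ _ => Odd.mul) odd_one (fun v _ => hm1 v)
  have hσ : σ ^ N = 1 := by
    ext v
    have hdvd : m v ∣ N := Finset.dvd_prod_of_mem _ (Finset.mem_univ v)
    obtain ⟨c, hc⟩ := hdvd
    rw [hc, pow_mul]
    have : ∀ k : ℕ, ((σ ^ m v) ^ k) v = v := by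
      intro k
      induction k with
      | zero => simp
      | succ k ih =>
        rw [pow_succ, Perm.mul_apply, hm2 v, ih]
    simpa using this c
  exact Odd.of_dvd_nat hNodd (orderOf_dvd_of_pow_eq_one hσ)

/-- Insertion of two points. -/
theorem odd_insert (σ π : Perm α) (g m₁ m₂ : α) (hg1 : g ≠ m₁) (hg2 : g ≠ m₂) (h12 : m₁ ≠ m₂)
    (hπ1 : π m₁ = m₁) (hπ2 : π m₂ = m₂)
    (h1 : σ g = m₁) (h2 : σ m₁ = m₂) (h3 : σ m₂ = π g)
    (h4 : ∀ v, v ≠ g → v ≠ m₁ → v ≠ m₂ → σ v = π v)
    (hodd : Odd (orderOf π)) : Odd (orderOf σ) := by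
  classical
  haveI := Fintype.ofFinite α
  -- the period of `g`
  set n := orderOf π with hn
  have hnpos : 0 < n := orderOf_pos π
  have hper : Function.IsPeriodicPt π n g := by
    show (⇑π)^[n] g = g
    rw [Equiv.Perm.iterate_eq_pow, hn, pow_orderOf_eq_one]
    rfl
  set L := Function.minimalPeriod π g with hL
  have hLdvd : L ∣ n := hper.minimalPeriod_dvd
  have hLodd : Odd L := Odd.of_dvd_nat hodd hLdvd
  have hLpos : 0 < L := hLodd.pos
  have hLper : (π ^ L) g = g := by
    have := Function.isPeriodicPt_minimalPeriod π g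
    have h5 : (⇑π)^[L] g = g := this
    rwa [Equiv.Perm.iterate_eq_pow] at h5
  have hLmin : ∀ i, 0 < i → i < L → (π ^ i) g ≠ g := by
    intro i hi hiL h5
    have h6 : Function.IsPeriodicPt π i g := by
      show (⇑π)^[i] g = g
      rw [Equiv.Perm.iterate_eq_pow]
      exact h5
    have := h6.minimalPeriod_le hi
    omega
  have hfix : ∀ (k : ℕ) (v : α), π v = v → (π ^ k) v = v := by
    intro k v hv
    induction k with
    | zero => simp
    | succ k ih =>
      rw [pow_succ, Perm.mul_apply, hv, ih]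
  -- the orbit of `g` under `σ`
  have horb : ∀ i, 0 < i → i ≤ L → (σ ^ (i + 2)) g = (π ^ i) g := by
    intro i hi
    induction i, hi using Nat.le_induction with
    | base =>
      intro _
      rw [show 1 + 2 = 3 from rfl, pow_succ', pow_succ', pow_one, Perm.mul_apply, Perm.mul_apply,
        h1, h2, h3, pow_one]
    | succ i hi ih =>
      intro hiL
      have h5 := ih (by omega)
      rw [show i + 1 + 2 = (i + 2) + 1 from rfl, pow_succ', Perm.mul_apply, h5, pow_succ',
        Perm.mul_apply]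
      apply h4
      · exact hLmin i hi (by omega)
      · intro h6
        have h7 : (π ^ i) m₁ = m₁ := hfix i _ hπ1
        rw [← h7] at h6
        exact hg1 ((π ^ i).injective h6)
      · intro h6
        have h7 : (π ^ i) m₂ = m₂ := hfix i _ hπ2
        rw [← h7] at h6
        exact hg2 ((π ^ i).injective h6)
  have hσL : (σ ^ (L + 2)) g = g := by
    rw [horb L hLpos le_rfl, hLper]
  apply odd_orderOf_of_forall
  intro v
  by_cases hv : ∃ k : ℕ, (σ ^ k) g = v
  · obtain ⟨k, rfl⟩ := hv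
    refine ⟨L + 2, by
      rw [Nat.odd_iff] at hLodd ⊢; omega, ?_⟩
    rw [← Perm.mul_apply, ← pow_add, add_comm, pow_add, Perm.mul_apply, hσL]
  · push Not at hv
    refine ⟨n, hodd, ?_⟩
    have hk : ∀ k : ℕ, (σ ^ k) v = (π ^ k) v := by
      intro k
      induction k with
      | zero => simp
      | succ k ih =>
        rw [pow_succ', Perm.mul_apply, ih, pow_succ', Perm.mul_apply]
        have hinv : ∀ j : ℕ, (σ ^ j) v ≠ g := by
          intro j h5
          apply hv ((orderOf σ - 1) * j)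
          rw [← h5, ← Perm.mul_apply, ← pow_add]
          have : (orderOf σ - 1) * j + j = orderOf σ * j := by
            have := orderOf_pos σ
            obtain ⟨t, ht⟩ : ∃ t, orderOf σ = t + 1 := ⟨orderOf σ - 1, by omega⟩
            rw [ht]
            simp
            ring
          rw [this, pow_mul, pow_orderOf_eq_one, one_pow]
          rfl
        apply h4
        · rw [← ih]; exact hinv k
        · intro h5
          apply hv 1
          have h7 : (π ^ k) m₁ = m₁ := hfix k _ hπ1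
          rw [← h7] at h5
          have h8 := (π ^ k).injective h5
          rw [h8]
          simpa using h1
        · intro h5
          apply hv 2
          have h7 : (π ^ k) m₂ = m₂ := hfix k _ hπ2
          rw [← h7] at h5
          have h8 := (π ^ k).injective h5
          rw [h8, pow_two, Perm.mul_apply, h1, h2]
    rw [hk, hn, pow_orderOf_eq_one]
    rfl

/-- Insertion of two pairs of points. -/
theorem odd_insert₂ [DecidableEq α] (σ π : Perm α) (g m₁ m₂ g' m₃ m₄ : α)
    (hg1 : g ≠ m₁) (hg2 : g ≠ m₂) (h12 : m₁ ≠ m₂)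
    (hg3 : g' ≠ m₃) (hg4 : g' ≠ m₄) (h34 : m₃ ≠ m₄)
    (hgg : g ≠ g') (hg'1 : g' ≠ m₁) (hg'2 : g' ≠ m₂) (hg'3 : g ≠ m₃) (hg'4 : g ≠ m₄)
    (h13 : m₁ ≠ m₃) (h14 : m₁ ≠ m₄) (h23 : m₂ ≠ m₃) (h24 : m₂ ≠ m₄)
    (hπ1 : π m₁ = m₁) (hπ2 : π m₂ = m₂) (hπ3 : π m₃ = m₃) (hπ4 : π m₄ = m₄)
    (h1 : σ g = m₁) (h2 : σ m₁ = m₂) (h3 : σ m₂ = π g)
    (h1' : σ g' = m₃) (h2' : σ m₃ = m₄) (h3' : σ m₄ = π g')
    (h4 : ∀ v, v ≠ g → v ≠ m₁ → v ≠ m₂ → v ≠ g' → v ≠ m₃ → v ≠ m₄ → σ v = π v)
    (hodd : Odd (orderOf π)) : Odd (orderOf σ) := by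
  set τ : Perm α := π * (swap g m₂ * swap g m₁) with hτ
  have hτ1 : τ g = m₁ := by
    rw [hτ]
    simp only [Perm.mul_apply, swap_apply_left]
    rw [swap_apply_of_ne_of_ne hg1.symm h12, hπ1]
  have hτ2 : τ m₁ = m₂ := by
    rw [hτ]
    simp only [Perm.mul_apply, swap_apply_right, swap_apply_left]
    exact hπ2
  have hτ3 : τ m₂ = π g := by
    rw [hτ]
    simp only [Perm.mul_apply, swap_apply_right]
    rw [swap_apply_of_ne_of_ne hg2.symm h12.symm, swap_apply_right]
  have hτ4 : ∀ v, v ≠ g → v ≠ m₁ → v ≠ m₂ → τ v = π v := by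
    intro v h5 h6 h7
    rw [hτ]
    simp only [Perm.mul_apply]
    rw [swap_apply_of_ne_of_ne h5 h6, swap_apply_of_ne_of_ne h5 h7]
  have hτodd : Odd (orderOf τ) :=
    odd_insert τ π g m₁ m₂ hg1 hg2 h12 hπ1 hπ2 hτ1 hτ2 hτ3 hτ4 hodd
  refine odd_insert σ τ g' m₃ m₄ hg3 hg4 h34 ?_ ?_ h1' h2' ?_ ?_ hτodd
  · rw [hτ4 m₃ hg'3.symm h13.symm h23.symm, hπ3]
  · rw [hτ4 m₄ hg'4.symm h14.symm h24.symm, hπ4]
  · rw [h3', hτ4 g' hgg.symm hg'1 hg'2]
  · intro v h5 h6 h7
    by_cases hvg : v = g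
    · rw [hvg, h1, hτ1]
    by_cases hv1 : v = m₁
    · rw [hv1, h2, hτ2]
    by_cases hv2 : v = m₂
    · rw [hv2, h3, hτ3]
    rw [h4 v hvg hv1 hv2 h5 h6 h7, hτ4 v hvg hv1 hv2]

end Cfsg.Agent.Lib.OddInsert
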