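import Mathlib
import Cfsg.Agent.Lib.SpSpecOrbit

/-!
# Orbits of the Frobenius and the inversion on roots of unity, with even order allowed
-/

set_option autoImplicit false
set_option linter.unusedSectionVars false
set_option linter.unusedSimpArgs false
set_option linter.unusedVariables false

namespace Cfsg.Agent.Lib.Om9

open Finset
open Cfsg.Agent.Lib.SpSpec

section orbit

variable {K : Type*} [Field K] {q a : ℕ}

/-- Orbits under the Frobenius and the inversion of a root of unity with `ω ^ 2 ≠ 1`. -/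
theorem exists_orbit2 (hq2 : 2 ≤ q) (ha0 : a ≠ 0) (hcop : Nat.Coprime q a) {ω : K} (hω : ω ^ a = 1)
    (h2 : ω ^ 2 ≠ 1) :
    ∃ (O : Finset K) (k : ℕ), ω ∈ O ∧ 1 ≤ k ∧ O.card = 2 * k ∧
      (∀ z ∈ O, ∀ b, z ^ b = 1 ↔ ω ^ b = 1) ∧
      (∀ z ∈ O, z ^ q ∈ O) ∧ (∀ z ∈ O, z⁻¹ ∈ O) ∧
      (∀ R : Finset K, (∀ z ∈ R, z ^ q ∈ R) → (∀ z ∈ R, z⁻¹ ∈ R) → ω ∈ R → O ⊆ R) ∧
      ((ω ^ (q ^ k + 1) = 1 ∧ ∀ h : K → K, ∏ z ∈ O, h z = ∏ i ∈ range (2 * k), h (ω ^ q ^ i)) ∨
       (ω ^ (q ^ k - 1) = 1 ∧ ∀ h : K → K, ∏ z ∈ O, h z =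
          ∏ i ∈ range k, (h (ω ^ q ^ i) * h (ω ^ q ^ i)⁻¹))) := by
  classical
  set o := orderOf ω with ho
  have hoa : o ∣ a := orderOf_dvd_of_pow_eq_one hω
  have ho0 : o ≠ 0 := by
    intro h
    rw [h, zero_dvd_iff] at hoa
    exact ha0 hoa
  have ho1 : o ≠ 1 := by
    intro h
    apply h2
    rw [orderOf_eq_one_iff.mp h, one_pow]
  have ho2 : o ≠ 2 := by
    intro h
    apply h2
    rw [← h]
    exact pow_orderOf_eq_one ω
  have ho3 : 3 ≤ o := by omega
  have hcopo : Nat.Coprime q o := Nat.Coprime.coprime_dvd_right hoa hcop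
  set k := orderOf ((q : ℕ) : ZMod o) with hk
  have hkpos : 0 < k := orderOf_q_pos hcopo ho0
  let f : ℕ → K := fun i => ω ^ (q ^ i)
  have hf : ∀ i j, f i = f j ↔ i ≡ j [MOD k] := by
    intro i j
    rw [hk, ← modEq_pow_iff hcopo ho0]
    exact pow_eq_pow_iff_modEq' ha0 hω _ _
  have hfq : ∀ i, (f i) ^ q = f (i + 1) := by
    intro i
    show (ω ^ (q ^ i)) ^ q = ω ^ (q ^ (i + 1))
    rw [← pow_mul, pow_succ]
  have hf0 : f 0 = ω := by
    show ω ^ (q ^ 0) = ω
    simp
  have hfmod : ∀ i, f (i % k) = f i := fun i => (hf _ _).mpr (Nat.mod_modEq i k)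
  have hexp : ∀ i b, (f i) ^ b = 1 ↔ ω ^ b = 1 := by
    intro i b
    show (ω ^ (q ^ i)) ^ b = 1 ↔ _
    rw [← pow_mul, ← orderOf_dvd_iff_pow_eq_one, ← orderOf_dvd_iff_pow_eq_one, ← ho]
    exact (Nat.Coprime.pow_left i hcopo).symm.dvd_mul_left
  set A := (range k).image f with hA
  have memA : ∀ i, f i ∈ A := by
    intro i
    rw [hA, mem_image]
    exact ⟨i % k, mem_range.mpr (Nat.mod_lt _ hkpos), hfmod i⟩
  have memA' : ∀ z ∈ A, ∃ i, z = f i := by
    intro z hz
    rw [hA, mem_image] at hz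
    obtain ⟨i, _, rfl⟩ := hz
    exact ⟨i, rfl⟩
  have hinjA : Set.InjOn f (range k : Set ℕ) := by
    intro i hi j hj hij
    have h2 := (hf i j).mp hij
    exact Nat.ModEq.eq_of_lt_of_lt h2 (mem_range.mp hi) (mem_range.mp hj)
  have hAcard : A.card = k := by
    rw [hA, card_image_of_injOn hinjA, card_range]
  have hAR : ∀ R : Finset K, (∀ z ∈ R, z ^ q ∈ R) → ω ∈ R → ∀ i, f i ∈ R := by
    intro R hR hωR i
    induction i with
    | zero => rw [hf0]; exact hωR
    | succ i ih => rw [← hfq]; exact hR _ ih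
  by_cases hm : ∃ m, o ∣ q ^ m + 1
  · obtain ⟨m, hm⟩ := hm
    obtain ⟨m', hk2, hm'⟩ := order_even_of_neg ho3 hm
    have hinv : ∀ i, (f i)⁻¹ = f (i + m') := by
      intro i
      have h2 : f i * f (i + m') = 1 := by
        show ω ^ (q ^ i) * ω ^ (q ^ (i + m')) = 1
        rw [← pow_add, ← orderOf_dvd_iff_pow_eq_one, ← ho]
        have h3 : q ^ i + q ^ (i + m') = q ^ i * (q ^ m' + 1) := by ring
        rw [h3]
        exact Dvd.dvd.mul_left hm' _
      exact inv_eq_of_mul_eq_one_right h2
    refine ⟨A, m', ?_, ?_, ?_, ?_, ?_, ?_, ?_, Or.inl ⟨?_, ?_⟩⟩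
    · rw [← hf0]; exact memA 0
    · omega
    · rw [hAcard]; exact hk2
    · intro z hz b
      obtain ⟨i, rfl⟩ := memA' z hz
      exact hexp i b
    · intro z hz
      obtain ⟨i, rfl⟩ := memA' z hz
      rw [hfq]
      exact memA _
    · intro z hz
      obtain ⟨i, rfl⟩ := memA' z hz
      rw [hinv]
      exact memA _
    · intro R hR _ hωR z hz
      obtain ⟨i, rfl⟩ := memA' z hz
      exact hAR R hR hωR i
    · rw [← orderOf_dvd_iff_pow_eq_one, ← ho]
      exact hm'
    · intro h
      have hk3 : k = 2 * m' := hk2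
      rw [hA, prod_image hinjA]
      exact Finset.prod_congr (by rw [hk3]) (fun _ _ => rfl)
  · push Not at hm
    refine ⟨A ∪ A.image (fun z => z⁻¹), k, ?_, hkpos, ?_, ?_, ?_, ?_, ?_, Or.inr ⟨?_, ?_⟩⟩
    · apply mem_union_left
      rw [← hf0]; exact memA 0
    · have hdisj : Disjoint A (A.image (fun z => z⁻¹)) := by
        rw [Finset.disjoint_left]
        intro z hz hz2
        rw [mem_image] at hz2
        obtain ⟨y, hy, rfl⟩ := hz2
        obtain ⟨i, hi⟩ := memA' _ hz
        obtain ⟨j, rfl⟩ := memA' y hy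
        have h0 : f j ≠ 0 := by
          intro h0
          have := (hexp j a).mpr hω
          rw [h0, zero_pow ha0] at this
          exact zero_ne_one this
        have h2 : f i * f j = 1 := by
          rw [← hi]
          exact inv_mul_cancel₀ h0
        have h3 : o ∣ q ^ i + q ^ j := by
          rw [ho, orderOf_dvd_iff_pow_eq_one, pow_add]
          exact h2
        rcases le_total i j with hij | hij
        · obtain ⟨t, rfl⟩ := Nat.exists_eq_add_of_le hij
          have h4 : q ^ i + q ^ (i + t) = q ^ i * (q ^ t + 1) := by ring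
          rw [h4] at h3
          exact hm t ((Nat.Coprime.pow_left i hcopo).symm.dvd_of_dvd_mul_left h3)
        · obtain ⟨t, rfl⟩ := Nat.exists_eq_add_of_le hij
          have h4 : q ^ (j + t) + q ^ j = q ^ j * (q ^ t + 1) := by ring
          rw [h4] at h3
          exact hm t ((Nat.Coprime.pow_left j hcopo).symm.dvd_of_dvd_mul_left h3)
      rw [card_union_of_disjoint hdisj, card_image_of_injective _ inv_injective, hAcard]
      ring
    · intro z hz b
      rcases mem_union.mp hz with hz | hz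
      · obtain ⟨i, rfl⟩ := memA' z hz
        exact hexp i b
      · rw [mem_image] at hz
        obtain ⟨y, hy, rfl⟩ := hz
        obtain ⟨i, rfl⟩ := memA' y hy
        rw [inv_pow, inv_eq_one]
        exact hexp i b
    · intro z hz
      rcases mem_union.mp hz with hz | hz
      · obtain ⟨i, rfl⟩ := memA' z hz
        rw [hfq]
        exact mem_union_left _ (memA _)
      · rw [mem_image] at hz
        obtain ⟨y, hy, rfl⟩ := hz
        obtain ⟨i, rfl⟩ := memA' y hy
        rw [inv_pow, hfq]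
        exact mem_union_right _ (mem_image_of_mem _ (memA _))
    · intro z hz
      rcases mem_union.mp hz with hz | hz
      · exact mem_union_right _ (mem_image_of_mem _ hz)
      · rw [mem_image] at hz
        obtain ⟨y, hy, rfl⟩ := hz
        rw [inv_inv]
        exact mem_union_left _ hy
    · intro R hR hRi hωR z hz
      rcases mem_union.mp hz with hz | hz
      · obtain ⟨i, rfl⟩ := memA' z hz
        exact hAR R hR hωR i
      · rw [mem_image] at hz
        obtain ⟨y, hy, rfl⟩ := hz
        obtain ⟨i, rfl⟩ := memA' y hy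
        exact hRi _ (hAR R hR hωR i)
    · have h5 := dvd_pow_sub_one_of_order hq2 hcopo ho0
      rw [← orderOf_dvd_iff_pow_eq_one, ← ho]
      exact h5
    · intro h
      have hdisj : Disjoint A (A.image (fun z => z⁻¹)) := by
        rw [Finset.disjoint_left]
        intro z hz hz2
        rw [mem_image] at hz2
        obtain ⟨y, hy, rfl⟩ := hz2
        obtain ⟨i, hi⟩ := memA' _ hz
        obtain ⟨j, rfl⟩ := memA' y hy
        have h0 : f j ≠ 0 := by
          intro h0
          have := (hexp j a).mpr hω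
          rw [h0, zero_pow ha0] at this
          exact zero_ne_one this
        have h2 : f i * f j = 1 := by
          rw [← hi]
          exact inv_mul_cancel₀ h0
        have h3 : o ∣ q ^ i + q ^ j := by
          rw [ho, orderOf_dvd_iff_pow_eq_one, pow_add]
          exact h2
        rcases le_total i j with hij | hij
        · obtain ⟨t, rfl⟩ := Nat.exists_eq_add_of_le hij
          have h4 : q ^ i + q ^ (i + t) = q ^ i * (q ^ t + 1) := by ring
          rw [h4] at h3
          exact hm t ((Nat.Coprime.pow_left i hcopo).symm.dvd_of_dvd_mul_left h3)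
        · obtain ⟨t, rfl⟩ := Nat.exists_eq_add_of_le hij
          have h4 : q ^ (j + t) + q ^ j = q ^ j * (q ^ t + 1) := by ring
          rw [h4] at h3
          exact hm t ((Nat.Coprime.pow_left j hcopo).symm.dvd_of_dvd_mul_left h3)
      rw [prod_union hdisj, prod_image (fun x _ y _ hxy => inv_injective hxy), hA,
        prod_image hinjA, prod_image hinjA, ← prod_mul_distrib]

end orbit

section spinor

variable {K : Type*} [Field K] (p : ℕ) [hp : Fact p.Prime] [CharP K p] {q f u : ℕ}

theorem frob_add (hq : q = p ^ f) (x y : K) (i : ℕ) : (x + y) ^ (q ^ i) = x ^ (q ^ i) + y ^ (q ^ i) := by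
  have : ExpChar K p := ExpChar.prime hp.out
  rw [hq, ← pow_mul]
  exact add_pow_expChar_pow (R := K) (p := p) (n := f * i) x y

theorem frob_inj (hq : q = p ^ f) {x y : K} (h : x ^ q = y ^ q) : x = y := by
  have : ExpChar K p := ExpChar.prime hp.out
  have h1 : (x - y) ^ q = 0 := by
    rw [hq, sub_pow_expChar_pow, ← hq, h, sub_self]
  have h2 : x - y = 0 := by
    by_contra h3
    exact pow_ne_zero _ h3 h1
  exact sub_eq_zero.mp h2

/-- Geometric sums. -/
theorem geom_q (hqu : q = 2 * u + 1) (n : ℕ) : (∑ i ∈ range n, q ^ i) * (2 * u) + 1 = q ^ n := by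
  induction n with
  | zero => simp
  | succ n ih =>
    rw [sum_range_succ, add_mul, pow_succ]
    have h : q ^ n * (2 * u) = q ^ n * q - q ^ n := by
      rw [hqu]
      have : (2 * u + 1) ^ n * (2 * u + 1) = (2 * u + 1) ^ n * (2 * u) + (2 * u + 1) ^ n := by ring
      omega
    have hle : q ^ n ≤ q ^ n * q := by
      apply Nat.le_mul_of_pos_right
      omega
    omega

theorem prod_frob (hq : q = p ^ f) (y : K) (n : ℕ) (ω : K) (hy : y = 1 + ω) :
    ∏ i ∈ range n, (1 + ω ^ q ^ i) = y ^ (∑ i ∈ range n, q ^ i) := by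
  rw [← prod_pow_eq_pow_sum]
  refine prod_congr rfl fun i _ => ?_
  rw [hy, frob_add p hq, one_pow]

/-- The spinor computation in the elliptic case. -/
theorem spinor_minus (hq : q = p ^ f) (hqu : q = 2 * u + 1) {ω : K} {k : ℕ} (h0 : ω ≠ 0) (h1 : 1 + ω ≠ 0)
    (hω : ω ^ (q ^ k + 1) = 1) {h : ℕ} (hh : q ^ k = 2 * h + 1)
    (hD : (∏ i ∈ range (2 * k), (1 + ω ^ q ^ i)) ^ u = 1) : ω ^ (h + 1) = 1 := by
  set y := 1 + ω with hy
  have hω2 : ω ^ (q ^ k) = ω⁻¹ := by
    apply eq_inv_of_mul_eq_one_left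
    rw [← pow_succ]
    exact hω
  have hy2 : y ^ (q ^ k) = y * ω⁻¹ := by
    rw [hy, frob_add p hq, one_pow, hω2]
    field_simp
    ring
  have hy3 : y ^ (2 * h) * ω = 1 := by
    have h3 : y ^ (2 * h) * y = y * ω⁻¹ := by
      rw [← pow_succ, ← hh, hy2]
    have h4 : y ^ (2 * h) = ω⁻¹ := by
      apply mul_right_cancel₀ h1
      rw [h3, mul_comm]
    rw [h4, inv_mul_cancel₀ h0]
  rw [prod_frob p hq y _ ω hy] at hD
  have hg := geom_q hqu (2 * k) (q := q)
  set g := ∑ i ∈ range (2 * k), q ^ i with hgdef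
  have hgu : g * u = 2 * h * (h + 1) := by
    have h5 : q ^ (2 * k) = (q ^ k) ^ 2 := by rw [mul_comm, pow_mul]
    rw [h5, hh] at hg
    have h6 : (2 * h + 1) ^ 2 = 2 * (2 * h * (h + 1)) + 1 := by ring
    have h7 : g * (2 * u) = 2 * (g * u) := by ring
    omega
  rw [← pow_mul, hgu, pow_mul] at hD
  have h8 : (y ^ (2 * h)) ^ (h + 1) * ω ^ (h + 1) = 1 := by
    rw [← mul_pow, hy3, one_pow]
  rw [hD, one_mul] at h8
  exact h8

/-- The spinor computation in the hyperbolic case. -/
theorem spinor_plus (hq : q = p ^ f) (hqu : q = 2 * u + 1) {ω : K} {k : ℕ} (h0 : ω ≠ 0) (h1 : 1 + ω ≠ 0)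
    (hω : ω ^ (q ^ k - 1) = 1) {h : ℕ} (hh : q ^ k = 2 * h + 1)
    (hD : (∏ i ∈ range k, ((1 + ω ^ q ^ i) * (1 + (ω ^ q ^ i)⁻¹))) ^ u = 1) : ω ^ h = 1 := by
  set y := 1 + ω with hy
  have hk : q ^ k - 1 = 2 * h := by omega
  have hω2 : ω ^ (q ^ k) = ω := by
    rw [hh, pow_succ, ← hk, hω, one_mul]
  have hy2 : y ^ (q ^ k) = y := by
    rw [hy, frob_add p hq, one_pow, hω2]
  have hy3 : y ^ (2 * h) = 1 := by
    apply mul_right_cancel₀ h1
    rw [← pow_succ, ← hh, hy2, one_mul]
  have hinv : ∀ i, (1 + (ω ^ q ^ i)⁻¹) = (1 + ω⁻¹) ^ q ^ i := by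
    intro i
    rw [frob_add p hq, one_pow, inv_pow]
  have hprod : ∏ i ∈ range k, ((1 + ω ^ q ^ i) * (1 + (ω ^ q ^ i)⁻¹)) =
      (y * (1 + ω⁻¹)) ^ (∑ i ∈ range k, q ^ i) := by
    rw [← prod_pow_eq_pow_sum]
    refine prod_congr rfl fun i _ => ?_
    rw [hinv, mul_pow]
    congr 1
    rw [hy, frob_add p hq, one_pow]
  rw [hprod] at hD
  have hg := geom_q hqu k (q := q)
  set g := ∑ i ∈ range k, q ^ i with hgdef
  have hgu : g * u = h := by
    have h7 : g * (2 * u) = 2 * (g * u) := by ring
    omega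
  rw [← pow_mul, hgu] at hD
  have hc : y * (1 + ω⁻¹) = y ^ 2 * ω⁻¹ := by
    rw [hy]
    field_simp
    ring
  rw [hc, mul_pow, ← pow_mul, hy3, one_mul, inv_pow] at hD
  exact inv_eq_one.mp hD

end spinor

section arith

variable {K : Type*} [Field K]

/-- A closed weighted set of roots of unity. -/
structure Cl (q a₀ : ℕ) (S : Finset K) (m : K → ℕ) : Prop where
  frob : ∀ z ∈ S, z ^ q ∈ S
  inv : ∀ z ∈ S, z⁻¹ ∈ S
  two : ∀ z ∈ S, z ^ 2 ≠ 1
  ord : ∀ z ∈ S, z ^ a₀ = 1
  mpos : ∀ z ∈ S, 0 < m z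
  mfrob : ∀ z ∈ S, m (z ^ q) = m z
  minv : ∀ z ∈ S, m z⁻¹ = m z

/-- Orbit data. -/
structure OD (q : ℕ) (S : Finset K) (m : K → ℕ) (ω : K) (O : Finset K) (k : ℕ) : Prop where
  mem : ω ∈ O
  sub : O ⊆ S
  kpos : 1 ≤ k
  card : O.card = 2 * k
  const : ∀ z ∈ O, m z = m ω
  sum : ∑ z ∈ O, m z = 2 * k * m ω
  exp : ∀ z ∈ O, ∀ b, z ^ b = 1 ↔ ω ^ b = 1
  frob : ∀ z ∈ O, z ^ q ∈ O
  inv : ∀ z ∈ O, z⁻¹ ∈ O
  min : ∀ R : Finset K, (∀ z ∈ R, z ^ q ∈ R) → (∀ z ∈ R, z⁻¹ ∈ R) → ω ∈ R → O ⊆ R
  sign : (ω ^ (q ^ k + 1) = 1 ∧ ∀ h : K → K, ∏ z ∈ O, h z = ∏ i ∈ range (2 * k), h (ω ^ q ^ i)) ∨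
       (ω ^ (q ^ k - 1) = 1 ∧ ∀ h : K → K, ∏ z ∈ O, h z =
          ∏ i ∈ range k, (h (ω ^ q ^ i) * h (ω ^ q ^ i)⁻¹))

theorem Cl.exists_OD [DecidableEq K] {q a₀ : ℕ} {S : Finset K} {m : K → ℕ} (hS : Cl q a₀ S m) (hq2 : 2 ≤ q) (ha0 : a₀ ≠ 0)
    (hcop : Nat.Coprime q a₀) {ω : K} (hω : ω ∈ S) : ∃ O k, OD q S m ω O k := by
  obtain ⟨O, k, h1, h2, h3, h4, h5, h6, h7, h8⟩ := exists_orbit2 hq2 ha0 hcop (hS.ord ω hω) (hS.two ω hω)
  have hsub : O ⊆ S := h7 S hS.frob hS.inv hω
  have hconst : ∀ z ∈ O, m z = m ω := by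
    have h9 := h7 (S.filter fun z => m z = m ω) ?_ ?_ (by simp [hω])
    · intro z hz
      exact (mem_filter.mp (h9 hz)).2
    · intro z hz
      rw [mem_filter] at hz ⊢
      exact ⟨hS.frob z hz.1, by rw [hS.mfrob z hz.1]; exact hz.2⟩
    · intro z hz
      rw [mem_filter] at hz ⊢
      exact ⟨hS.inv z hz.1, by rw [hS.minv z hz.1]; exact hz.2⟩
  refine ⟨O, k, h1, hsub, h2, h3, hconst, ?_, h4, h5, h6, h7, h8⟩
  rw [sum_congr rfl hconst, sum_const, h3, smul_eq_mul]

theorem Cl.sdiff [DecidableEq K] (p : ℕ) [hp : Fact p.Prime] [CharP K p] {q f a₀ : ℕ} (hq : q = p ^ f) {S O : Finset K} {m : K → ℕ}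
    (hS : Cl q a₀ S m) (hOq : ∀ z ∈ O, z ^ q ∈ O) (hOi : ∀ z ∈ O, z⁻¹ ∈ O) : Cl q a₀ (S \ O) m := by
  have hsurj : ∀ y ∈ O, ∃ x ∈ O, x ^ q = y := by
    have hinj : Set.InjOn (fun z : K => z ^ q) (O : Set K) := fun x _ y _ hxy => frob_inj p hq hxy
    have him : O.image (fun z : K => z ^ q) = O := by
      apply eq_of_subset_of_card_le
      · intro y hy
        rw [mem_image] at hy
        obtain ⟨x, hx, rfl⟩ := hy
        exact hOq x hx
      · rw [card_image_of_injOn hinj]
    intro y hy
    rw [← him, mem_image] at hy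
    exact hy
  refine ⟨?_, ?_, ?_, ?_, ?_, ?_, ?_⟩
  · intro z hz
    rw [mem_sdiff] at hz ⊢
    refine ⟨hS.frob z hz.1, fun h => hz.2 ?_⟩
    obtain ⟨x, hx, hxz⟩ := hsurj _ h
    rw [← frob_inj p hq hxz]
    exact hx
  · intro z hz
    rw [mem_sdiff] at hz ⊢
    refine ⟨hS.inv z hz.1, fun h => hz.2 ?_⟩
    have := hOi _ h
    rwa [inv_inv] at this
  · exact fun z hz => hS.two z (mem_sdiff.mp hz).1
  · exact fun z hz => hS.ord z (mem_sdiff.mp hz).1
  · exact fun z hz => hS.mpos z (mem_sdiff.mp hz).1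
  · exact fun z hz => hS.mfrob z (mem_sdiff.mp hz).1
  · exact fun z hz => hS.minv z (mem_sdiff.mp hz).1

/-- Abbreviations in terms of `q = 2 u + 1`. -/
abbrev Wu (u : ℕ) : ℕ := 2 * u ^ 2 + 2 * u + 1
abbrev Sm (u : ℕ) : ℕ := 4 * u ^ 2 + 6 * u + 3
abbrev Sq (u : ℕ) : ℕ := 4 * u ^ 2 + 2 * u + 1
abbrev X4 (u : ℕ) : ℕ := 8 * u ^ 4 + 16 * u ^ 3 + 12 * u ^ 2 + 4 * u + 1

/-- The list of maximal orders, as pairs `(a, β)`, the order being `a p ^ β`. -/
inductive LL (u p : ℕ) : ℕ → ℕ → Prop
  | a1 : LL u p (X4 u) 0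
  | a2 : LL u p (4 * u * (u + 1) * Wu u) 0
  | a3 : LL u p (2 * u * (u + 1) * Sm u) 0
  | a4 : LL u p (2 * u * (u + 1) * Sq u) 0
  | b1 : LL u p (u * Sm u) 1
  | b2 : LL u p ((u + 1) * Sq u) 1
  | b3 : LL u p (2 * Wu u * u) 1
  | b4 : LL u p (2 * Wu u * (u + 1)) 1
  | b5 : LL u p (4 * u * (u + 1)) 1
  | c1 : p = 3 → LL u p (Wu u) 2
  | c2 : p = 3 → LL u p (2 * u * (u + 1)) 2
  | c3 : p = 5 → LL u p u 2
  | c4 : p = 5 → LL u p (u + 1) 2
  | c5 : p = 7 → LL u p 1 2

theorem pow_one_of_dvd {z : K} {x y : ℕ} (h : z ^ x = 1) (hd : x ∣ y) : z ^ y = 1 := by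
  obtain ⟨c, rfl⟩ := hd
  rw [pow_mul, h, one_pow]

theorem OD.spin (p : ℕ) [hp : Fact p.Prime] [CharP K p] {q f u : ℕ} (hq : q = p ^ f) (hqu : q = 2 * u + 1)
    {S O : Finset K} {m : K → ℕ} {ω : K} {k h : ℕ} (hO : OD q S m ω O k) (hS : O = S)
    (h0 : ω ≠ 0) (h1 : 1 + ω ≠ 0) (hh : q ^ k = 2 * h + 1) (hD : (∏ z ∈ S, (1 + z)) ^ u = 1) :
    ω ^ (h + 1) = 1 ∨ ω ^ h = 1 := by
  subst hS
  rcases hO.sign with ⟨h2, h3⟩ | ⟨h2, h3⟩
  · left
    rw [h3 (fun z => 1 + z)] at hD
    exact spinor_minus p hq hqu h0 h1 h2 hh hD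
  · right
    rw [h3 (fun z => 1 + z)] at hD
    exact spinor_plus p hq hqu h0 h1 h2 hh hD

/-- The arithmetic heart. -/
theorem arith (p : ℕ) [hp : Fact p.Prime] [CharP K p] {q f u a₀ : ℕ} (hq : q = p ^ f) (hqu : q = 2 * u + 1) (hu : 1 ≤ u)
    (ha0 : a₀ ≠ 0) (hcop : Nat.Coprime q a₀) {S : Finset K} {m : K → ℕ} (hS : Cl q a₀ S m) {j m2 : ℕ}
    (hm2 : Even m2) (hsum : 2 * j + m2 + ∑ z ∈ S, m z = 8)
    (hs : m2 = 0 → (∀ z ∈ S, m z = 1) → (∏ z ∈ S, (1 + z)) ^ u = 1) :
    ∃ a β, LL u p a β ∧ (∀ z ∈ S, z ^ a = 1) ∧ (m2 ≠ 0 → 2 ∣ a) ∧ 2 * j + 1 ≤ p ^ β ∧ m2 ≤ p ^ β + 1 ∧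
      ∀ z ∈ S, m z ≤ p ^ β := by
  classical
  have hp2 : p ≠ 2 := by
    rintro rfl
    have hf : f ≠ 0 := by
      rintro rfl
      rw [pow_zero] at hq
      omega
    have : 2 ∣ q := by
      rw [hq]
      exact dvd_pow_self 2 hf
    omega
  have hp3 : 3 ≤ p := by
    have := hp.out.two_le
    omega
  have hq2 : 2 ≤ q := by omega
  have hp1 : p ^ 1 = p := pow_one p
  have hp0 : p ^ 0 = 1 := pow_zero p
  obtain ⟨t, ht⟩ := hm2
  have hE1 : q ^ 1 + 1 = 2 * (u + 1) := by rw [hqu]; ring
  have hE1' : q ^ 1 - 1 = 2 * u := by rw [hqu, pow_one]; omega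
  have hE2 : q ^ 2 + 1 = 2 * Wu u := by rw [hqu]; ring
  have hE2' : q ^ 2 - 1 = 4 * u * (u + 1) := by
    have : q ^ 2 = 4 * u * (u + 1) + 1 := by rw [hqu]; ring
    omega
  have hE3 : q ^ 3 + 1 = 2 * (u + 1) * Sq u := by rw [hqu]; ring
  have hE3' : q ^ 3 - 1 = 2 * u * Sm u := by
    have : q ^ 3 = 2 * u * Sm u + 1 := by rw [hqu]; ring
    omega
  have hE4 : q ^ 4 + 1 = 2 * X4 u := by rw [hqu]; ring
  have hE4' : q ^ 4 - 1 = 8 * u * (u + 1) * Wu u := by
    have : q ^ 4 = 8 * u * (u + 1) * Wu u + 1 := by rw [hqu]; ring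
    omega
  have hh1 : q ^ 1 = 2 * u + 1 := by rw [hqu]; ring
  have hh2 : q ^ 2 = 2 * (2 * u * (u + 1)) + 1 := by rw [hqu]; ring
  have hh3 : q ^ 3 = 2 * (u * Sm u) + 1 := by rw [hqu]; ring
  have hh4 : q ^ 4 = 2 * (4 * u * (u + 1) * Wu u) + 1 := by rw [hqu]; ring
  have hS3 : (u * Sm u) + 1 = (u + 1) * Sq u := by ring
  have hS4 : (4 * u * (u + 1) * Wu u) + 1 = X4 u := by ring
  have hS2 : (2 * u * (u + 1)) + 1 = Wu u := by ring
  have hOD : ∀ {S' : Finset K} (_ : Cl q a₀ S' m) {ω : K} (_ : ω ∈ S'), ∃ O k, OD q S' m ω O k :=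
    fun h _ hω => h.exists_OD hq2 ha0 hcop hω
  have hdiff : ∀ {S' O : Finset K}, O ⊆ S' → ∑ z ∈ S' \ O, m z + ∑ z ∈ O, m z = ∑ z ∈ S', m z :=
    fun h => sum_sdiff h
  have hne0 : ∀ z ∈ S, z ≠ 0 := fun z hz => ne_zero_of_pow_eq_one ha0 (hS.ord z hz)
  have hne1 : ∀ z ∈ S, 1 + z ≠ 0 := by
    intro z hz h0
    have h1 : z = -1 := by linear_combination h0
    apply hS.two z hz
    rw [h1]
    ring
  -- sums over subsets vanish only on empty sets
  have hempty : ∀ T : Finset K, T ⊆ S → ∑ z ∈ T, m z = 0 → T = ∅ := by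
    intro T hT h0
    rw [sum_eq_zero_iff] at h0
    apply eq_empty_of_forall_notMem
    intro z hz
    have := hS.mpos z (hT hz)
    have := h0 z hz
    omega
  have hm4 : ∀ z ∈ S, m z ≤ 4 := by
    intro z hz
    obtain ⟨O, k, hO⟩ := hOD hS hz
    have h1 := hdiff hO.sub
    rw [hO.sum] at h1
    have h2 : 2 * 1 * m z ≤ 2 * k * m z := Nat.mul_le_mul_right _ (Nat.mul_le_mul_left _ hO.kpos)
    omega
  by_cases hbig : ∃ ω ∈ S, ∃ O k, OD q S m ω O k ∧ 3 ≤ k
  · obtain ⟨ω, hω, O, k, hO, hk⟩ := hbig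
    have h1 := hdiff hO.sub
    rw [hO.sum] at h1
    have hc0 := hS.mpos ω hω
    have hc1 : m ω = 1 := by
      by_contra hc
      have h2 : 2 ≤ m ω := by omega
      have h3 : 2 * 3 * 2 ≤ 2 * k * m ω := Nat.mul_le_mul (Nat.mul_le_mul_left _ hk) h2
      omega
    rw [hc1, mul_one] at h1
    have hk4 : k = 3 ∨ k = 4 := by omega
    rcases hk4 with rfl | rfl
    · -- a six-dimensional orbit
      have hsignO : (∀ z ∈ O, z ^ (q ^ 3 + 1) = 1) ∨ (∀ z ∈ O, z ^ (q ^ 3 - 1) = 1) := by
        rcases hO.sign with ⟨h2, -⟩ | ⟨h2, -⟩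
        · exact Or.inl fun z hz => (hO.exp z hz _).mpr h2
        · exact Or.inr fun z hz => (hO.exp z hz _).mpr h2
      by_cases hM : ∑ z ∈ S \ O, m z = 0
      · have hSO : O = S := by
          have h2 := hempty (S \ O) sdiff_subset hM
          exact Subset.antisymm hO.sub (sdiff_eq_empty_iff_subset.mp h2)
        have hm1 : ∀ z ∈ S, m z = 1 := by
          intro z hz
          rw [hO.const z (hSO ▸ hz), hc1]
        have hjt : (j = 1 ∧ t = 0) ∨ (j = 0 ∧ t = 1) := by omega
        rcases hjt with ⟨rfl, rfl⟩ | ⟨rfl, rfl⟩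
        · -- `J₃` on the rest, the spinor norm forces a square
          have hD := hs (by omega) hm1
          rcases hO.spin p hq hqu hSO (hne0 ω hω) (hne1 ω hω) hh3 hD with h2 | h2
          · refine ⟨(u + 1) * Sq u, 1, LL.b2, ?_, by omega, by omega, by omega, ?_⟩
            · intro z hz
              rw [(hO.exp z (hSO ▸ hz) _), ← hS3]
              exact h2
            · intro z hz
              rw [hm1 z hz]
              omega
          · refine ⟨u * Sm u, 1, LL.b1, ?_, by omega, by omega, by omega, ?_⟩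
            · intro z hz
              rw [(hO.exp z (hSO ▸ hz) _)]
              exact h2
            · intro z hz
              rw [hm1 z hz]
              omega
        · -- `-1` on a plane
          rcases hsignO with h2 | h2
          · refine ⟨2 * u * (u + 1) * Sq u, 0, LL.a4, ?_, fun _ => ⟨u * (u + 1) * Sq u, by ring⟩, by omega, by omega, ?_⟩
            · intro z hz
              refine pow_one_of_dvd (h2 z (hSO ▸ hz)) ?_
              rw [hE3]
              exact ⟨u, by ring⟩
            · intro z hz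
              rw [hm1 z hz]
              omega
          · refine ⟨2 * u * (u + 1) * Sm u, 0, LL.a3, ?_, fun _ => ⟨u * (u + 1) * Sm u, by ring⟩, by omega, by omega, ?_⟩
            · intro z hz
              refine pow_one_of_dvd (h2 z (hSO ▸ hz)) ?_
              rw [hE3']
              exact ⟨u + 1, by ring⟩
            · intro z hz
              rw [hm1 z hz]
              omega
      · -- a further plane
        have hne : (S \ O).Nonempty := by
          rw [nonempty_iff_ne_empty]
          rintro h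
          rw [h] at hM
          exact hM (by simp)
        obtain ⟨ω', hω'⟩ := hne
        have hCl := hS.sdiff p hq hO.frob hO.inv
        obtain ⟨O', k', hO'⟩ := hOD hCl hω'
        have hω'S : ω' ∈ S := (mem_sdiff.mp hω').1
        have h2 := hdiff hO'.sub
        rw [hO'.sum] at h2
        have hc0' := hS.mpos ω' hω'S
        have hk' : 1 * 1 ≤ k' * m ω' := Nat.mul_le_mul hO'.kpos hc0'
        have h3 : 2 * k' * m ω' = 2 * (k' * m ω') := by ring
        have hjt : j = 0 ∧ t = 0 ∧ k' * m ω' = 1 ∧ ∑ z ∈ (S \ O) \ O', m z = 0 := by omega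
        obtain ⟨rfl, rfl, hkm, hM2⟩ := hjt
        have hk1 : k' = 1 := Nat.dvd_one.mp ⟨_, hkm.symm⟩
        have hc1' : m ω' = 1 := by
          rw [hk1, one_mul] at hkm
          exact hkm
        subst hk1
        have hem := hempty ((S \ O) \ O') (sdiff_subset.trans sdiff_subset) hM2
        have hcover : ∀ z ∈ S, z ∈ O ∨ z ∈ O' := by
          intro z hz
          by_contra hcon
          push Not at hcon
          have : z ∈ (S \ O) \ O' := mem_sdiff.mpr ⟨mem_sdiff.mpr ⟨hz, hcon.1⟩, hcon.2⟩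
          rw [hem] at this
          simp at this
        have hsign' : (∀ z ∈ O', z ^ (q ^ 1 + 1) = 1) ∨ (∀ z ∈ O', z ^ (q ^ 1 - 1) = 1) := by
          rcases hO'.sign with ⟨h2, -⟩ | ⟨h2, -⟩
          · exact Or.inl fun z hz => (hO'.exp z hz _).mpr h2
          · exact Or.inr fun z hz => (hO'.exp z hz _).mpr h2
        have hmm : ∀ z ∈ S, m z ≤ p ^ 0 := by
          intro z hz
          rcases hcover z hz with h4 | h4
          · rw [hO.const z h4, hc1]; simp
          · rw [hO'.const z h4, hc1']; simp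
        have hprime : ∀ z ∈ O', ∀ s : ℕ, z ^ (2 * u * (u + 1) * s) = 1 := by
          intro z hz s
          rcases hsign' with h5 | h5
          · refine pow_one_of_dvd (h5 z hz) ?_
            rw [hE1]
            exact ⟨u * s, by ring⟩
          · refine pow_one_of_dvd (h5 z hz) ?_
            rw [hE1']
            exact ⟨(u + 1) * s, by ring⟩
        rcases hsignO with h5 | h5
        · refine ⟨2 * u * (u + 1) * Sq u, 0, LL.a4, ?_, by omega, by omega, by omega, hmm⟩
          intro z hz
          rcases hcover z hz with h4 | h4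
          · refine pow_one_of_dvd (h5 z h4) ?_
            rw [hE3]
            exact ⟨u, by ring⟩
          · exact hprime z h4 _
        · refine ⟨2 * u * (u + 1) * Sm u, 0, LL.a3, ?_, by omega, by omega, by omega, hmm⟩
          intro z hz
          rcases hcover z hz with h4 | h4
          · refine pow_one_of_dvd (h5 z h4) ?_
            rw [hE3']
            exact ⟨u + 1, by ring⟩
          · exact hprime z h4 _
    · -- an eight-dimensional orbit
      have hjt : j = 0 ∧ t = 0 ∧ ∑ z ∈ S \ O, m z = 0 := by omega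
      obtain ⟨rfl, rfl, hM⟩ := hjt
      have hSO : O = S := by
        have h2 := hempty (S \ O) sdiff_subset hM
        exact Subset.antisymm hO.sub (sdiff_eq_empty_iff_subset.mp h2)
      have hm1 : ∀ z ∈ S, m z = 1 := by
        intro z hz
        rw [hO.const z (hSO ▸ hz), hc1]
      have hD := hs (by omega) hm1
      rcases hO.spin p hq hqu hSO (hne0 ω hω) (hne1 ω hω) hh4 hD with h2 | h2
      · refine ⟨X4 u, 0, LL.a1, ?_, by omega, by omega, by omega, ?_⟩
        · intro z hz
          rw [(hO.exp z (hSO ▸ hz) _), ← hS4]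
          exact h2
        · intro z hz
          rw [hm1 z hz]
          simp
      · refine ⟨4 * u * (u + 1) * Wu u, 0, LL.a2, ?_, by omega, by omega, by omega, ?_⟩
        · intro z hz
          rw [(hO.exp z (hSO ▸ hz) _)]
          exact h2
        · intro z hz
          rw [hm1 z hz]
          simp
  · -- all orbits have size at most four
    push Not at hbig
    have hk12 : ∀ ω ∈ S, ∀ O k, OD q S m ω O k → k = 1 ∨ k = 2 := by
      intro ω hω O k hO
      have := hbig ω hω O k hO
      have := hO.kpos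
      omega
    have hsgn : ∀ {S' O : Finset K} {ω : K} {k : ℕ}, OD q S' m ω O k →
        (∀ z ∈ O, z ^ (q ^ k + 1) = 1) ∨ (∀ z ∈ O, z ^ (q ^ k - 1) = 1) := by
      intro S' O ω k hO
      rcases hO.sign with ⟨h2, -⟩ | ⟨h2, -⟩
      · exact Or.inl fun z hz => (hO.exp z hz _).mpr h2
      · exact Or.inr fun z hz => (hO.exp z hz _).mpr h2
    have hsign1 : ∀ {S' O : Finset K} {ω : K}, OD q S' m ω O 1 →
        (∀ z ∈ O, z ^ (2 * (u + 1)) = 1) ∨ (∀ z ∈ O, z ^ (2 * u) = 1) := by
      intro S' O ω hO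
      rw [← hE1, ← hE1']
      exact hsgn hO
    have hsign2 : ∀ {S' O : Finset K} {ω : K}, OD q S' m ω O 2 →
        (∀ z ∈ O, z ^ (2 * Wu u) = 1) ∨ (∀ z ∈ O, z ^ (4 * u * (u + 1)) = 1) := by
      intro S' O ω hO
      rw [← hE2, ← hE2']
      exact hsgn hO
    have hsum0 : ∀ T : Finset K, T ⊆ S → ∑ z ∈ T, m z = 0 → ∀ z ∈ S, z ∉ T := by
      intro T hT h0 z hz hzT
      rw [hempty T hT h0] at hzT
      simp at hzT
    by_cases hA : j = 0 ∧ m2 ≤ 2 ∧ ∀ z ∈ S, m z = 1
    · obtain ⟨rfl, h2, h3⟩ := hA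
      refine ⟨4 * u * (u + 1) * Wu u, 0, LL.a2, ?_, fun _ => ⟨2 * u * (u + 1) * Wu u, by ring⟩,
        by omega, by omega, ?_⟩
      · intro z hz
        obtain ⟨O, k, hO⟩ := hOD hS hz
        rcases hk12 z hz O k hO with rfl | rfl
        · rcases hsign1 hO with h | h
          · exact pow_one_of_dvd (h z hO.mem) ⟨2 * u * Wu u, by ring⟩
          · exact pow_one_of_dvd (h z hO.mem) ⟨2 * (u + 1) * Wu u, by ring⟩
        · rcases hsign2 hO with h | h
          · exact pow_one_of_dvd (h z hO.mem) ⟨2 * u * (u + 1), by ring⟩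
          · exact pow_one_of_dvd (h z hO.mem) ⟨Wu u, by ring⟩
      · intro z hz
        rw [h3 z hz]
        simp
    by_cases hB : 2 * j + 1 ≤ p ∧ m2 ≤ p + 1 ∧ ∀ z ∈ S, m z ≤ p
    · obtain ⟨hB1, hB2, hB3⟩ := hB
      have hB3' : ∀ z ∈ S, m z ≤ p ^ 1 := by simpa using hB3
      by_cases hex : ∃ ω O, OD q S m ω O 2 ∧ ω ^ (q ^ 2 + 1) = 1
      · obtain ⟨ω, O, hO, hω1⟩ := hex
        have hωS : ω ∈ S := hO.sub hO.mem
        have hOz : ∀ z ∈ O, z ^ (2 * Wu u) = 1 := by
          intro z hz
          rw [hO.exp z hz, ← hE2]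
          exact hω1
        have hfin : (∀ z ∈ S, z ^ (2 * Wu u * u) = 1) ∨ (∀ z ∈ S, z ^ (2 * Wu u * (u + 1)) = 1) := by
          have h1 := hdiff hO.sub
          rw [hO.sum] at h1
          have hM1 := hS.mpos ω hωS
          by_cases hM : ∑ z ∈ S \ O, m z = 0
          · left
            intro z hz
            have h3 := hsum0 _ sdiff_subset hM z hz
            have h4 : z ∈ O := by
              by_contra h5
              exact h3 (mem_sdiff.mpr ⟨hz, h5⟩)
            exact pow_one_of_dvd (hOz z h4) ⟨u, rfl⟩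
          · have hne : (S \ O).Nonempty := by
              rw [nonempty_iff_ne_empty]
              rintro h
              rw [h] at hM
              exact hM (by simp)
            obtain ⟨ω', hω'⟩ := hne
            have hCl := hS.sdiff p hq hO.frob hO.inv
            obtain ⟨O', k', hO'⟩ := hOD hCl hω'
            have hω'S : ω' ∈ S := (mem_sdiff.mp hω').1
            have h2 := hdiff hO'.sub
            rw [hO'.sum] at h2
            have hM2 := hS.mpos ω' hω'S
            have h3 : 2 * k' * m ω' = 2 * (k' * m ω') := by ring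
            have h4 : 1 * 1 ≤ k' * m ω' := Nat.mul_le_mul hO'.kpos hM2
            have h5 : 2 * 2 * m ω = 4 * m ω := by ring
            have hcov : ∑ z ∈ (S \ O) \ O', m z = 0 → ∀ z ∈ S, z ∈ O ∨ z ∈ O' := by
              intro h0 z hz
              by_contra hcon
              push Not at hcon
              exact hsum0 _ (sdiff_subset.trans sdiff_subset) h0 z hz
                (mem_sdiff.mpr ⟨mem_sdiff.mpr ⟨hz, hcon.1⟩, hcon.2⟩)
            by_cases hk'1 : k' = 1
            · subst hk'1
              rw [one_mul] at h4 h3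
              have hMω : m ω = 1 := by omega
              have hr : ∑ z ∈ (S \ O) \ O', m z = 0 := by
                by_contra hr
                have hne : ((S \ O) \ O').Nonempty := by
                  rw [nonempty_iff_ne_empty]
                  rintro h
                  rw [h] at hr
                  exact hr (by simp)
                obtain ⟨ω'', hω''⟩ := hne
                have hCl' := hCl.sdiff p hq hO'.frob hO'.inv
                obtain ⟨O'', k'', hO''⟩ := hOD hCl' hω''
                have hω''S : ω'' ∈ S := (mem_sdiff.mp (mem_sdiff.mp hω'').1).1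
                have h6 := hdiff hO''.sub
                rw [hO''.sum] at h6
                have hM3 := hS.mpos ω'' hω''S
                have h7 : 2 * k'' * m ω'' = 2 * (k'' * m ω'') := by ring
                have h8 : 1 * 1 ≤ k'' * m ω'' := Nat.mul_le_mul hO''.kpos hM3
                apply hA
                have hall : j = 0 ∧ m2 = 0 ∧ m ω' = 1 ∧ k'' * m ω'' = 1 ∧
                    ∑ z ∈ ((S \ O) \ O') \ O'', m z = 0 := by omega
                obtain ⟨h9, h10, h11, h12, h13⟩ := hall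
                refine ⟨h9, by omega, ?_⟩
                intro z hz
                by_cases hzO : z ∈ O
                · rw [hO.const z hzO, hMω]
                by_cases hzO' : z ∈ O'
                · rw [hO'.const z hzO', h11]
                by_cases hzO'' : z ∈ O''
                · rw [hO''.const z hzO'']
                  have h14 : k'' = 1 := Nat.dvd_one.mp ⟨_, h12.symm⟩
                  rw [h14, one_mul] at h12
                  exact h12
                exact absurd (mem_sdiff.mpr ⟨mem_sdiff.mpr ⟨mem_sdiff.mpr ⟨hz, hzO⟩, hzO'⟩, hzO''⟩)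
                  (hsum0 _ ((sdiff_subset.trans sdiff_subset).trans sdiff_subset) h13 z hz)
              have hc := hcov hr
              rcases hsign1 hO' with h6 | h6
              · right
                intro z hz
                rcases hc z hz with h7 | h7
                · exact pow_one_of_dvd (hOz z h7) ⟨u + 1, rfl⟩
                · exact pow_one_of_dvd (h6 z h7) ⟨Wu u, by ring⟩
              · left
                intro z hz
                rcases hc z hz with h7 | h7
                · exact pow_one_of_dvd (hOz z h7) ⟨u, rfl⟩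
                · exact pow_one_of_dvd (h6 z h7) ⟨Wu u, by ring⟩
            · exfalso
              apply hA
              have hk'2 : 2 ≤ k' := by
                have := hO'.kpos
                omega
              have h6 : 2 * 1 ≤ k' * m ω' := Nat.mul_le_mul hk'2 hM2
              have hall : j = 0 ∧ m2 = 0 ∧ m ω = 1 ∧ k' * m ω' = 2 ∧
                  ∑ z ∈ (S \ O) \ O', m z = 0 := by omega
              obtain ⟨h9, h10, h11, h12, h13⟩ := hall
              refine ⟨h9, by omega, ?_⟩
              intro z hz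
              rcases hcov h13 z hz with h7 | h7
              · rw [hO.const z h7, h11]
              · rw [hO'.const z h7]
                have h14 : m ω' ≠ 2 := by
                  intro h15
                  rw [h15] at h12
                  omega
                have h15 : m ω' ≠ 0 := by omega
                by_contra h16
                have h17 : 2 * 2 ≤ k' * m ω' := Nat.mul_le_mul hk'2 (by omega)
                omega
        rcases hfin with h | h
        · exact ⟨2 * Wu u * u, 1, LL.b3, h, fun _ => ⟨Wu u * u, by ring⟩, by omega, by omega, hB3'⟩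
        · exact ⟨2 * Wu u * (u + 1), 1, LL.b4, h, fun _ => ⟨Wu u * (u + 1), by ring⟩, by omega, by omega, hB3'⟩
      · push Not at hex
        refine ⟨4 * u * (u + 1), 1, LL.b5, ?_, fun _ => ⟨2 * u * (u + 1), by ring⟩, by omega, by omega, hB3'⟩
        intro z hz
        obtain ⟨O, k, hO⟩ := hOD hS hz
        rcases hk12 z hz O k hO with rfl | rfl
        · rcases hsign1 hO with h | h
          · exact pow_one_of_dvd (h z hO.mem) ⟨2 * u, by ring⟩
          · exact pow_one_of_dvd (h z hO.mem) ⟨2 * (u + 1), by ring⟩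
        · rcases hsgn hO with h | h
          · exact absurd (h z hO.mem) (hex z O hO)
          · rw [hE2'] at h
            exact h z hO.mem
    · -- the three small primes
      have hp_cases : p = 3 ∨ p = 5 ∨ p = 7 ∨ 9 ≤ p := by
        have h1 : p ≠ 4 := by
          rintro rfl
          exact absurd hp.out (by norm_num)
        have h2 : p ≠ 6 := by
          rintro rfl
          exact absurd hp.out (by norm_num)
        have h3 : p ≠ 8 := by
          rintro rfl
          exact absurd hp.out (by norm_num)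
        omega
      have hj4 : j ≤ 4 := by omega
      have hm28 : m2 ≤ 8 := by omega
      have hp2' : 9 ≤ p ^ 2 := by nlinarith
      have h2j : 2 * j + 1 ≤ p ^ 2 := by omega
      have hm2' : m2 ≤ p ^ 2 + 1 := by omega
      have hmz : ∀ z ∈ S, m z ≤ p ^ 2 := fun z hz => (hm4 z hz).trans (by omega)
      have hnB : 2 * j + 1 > p ∨ m2 > p + 1 ∨ ∃ z ∈ S, p < m z := by
        by_contra hcon
        push Not at hcon
        exact hB ⟨by omega, by omega, hcon.2.2⟩
      have hsome : ∀ z ∈ S, ∃ O k, OD q S m z O k ∧ 2 ≤ 2 * k * m z := by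
        intro z hz
        obtain ⟨O, k, hO⟩ := hOD hS hz
        refine ⟨O, k, hO, ?_⟩
        have h1 : 1 * 1 ≤ k * m z := Nat.mul_le_mul hO.kpos (hS.mpos z hz)
        have h3 : 2 * k * m z = 2 * (k * m z) := by ring
        omega
      rcases hp_cases with rfl | rfl | rfl | hp9
      · -- characteristic three
        by_cases hk2 : ∃ ω ∈ S, ∃ O, OD q S m ω O 2
        · obtain ⟨ω, hω, O, hO⟩ := hk2
          have h1 := hdiff hO.sub
          rw [hO.sum] at h1
          have hM1 := hS.mpos ω hω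
          have h5 : 2 * 2 * m ω = 4 * m ω := by ring
          have hcase : j = 2 ∧ m2 = 0 ∧ m ω = 1 ∧ ∑ z ∈ S \ O, m z = 0 := by
            rcases hnB with h | h | ⟨z, hz, h⟩
            · omega
            · omega
            · exfalso
              have h6 := hm4 z hz
              obtain ⟨O₁, k₁, hO₁, h7⟩ := hsome z hz
              have h8 := hdiff hO₁.sub
              rw [hO₁.sum] at h8
              have hmz4 : m z = 4 := by omega
              have h9 : 2 * 1 * 4 ≤ 2 * k₁ * m z := by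
                rw [hmz4]
                exact Nat.mul_le_mul (Nat.mul_le_mul_left _ hO₁.kpos) le_rfl
              have h10 : ∑ z ∈ S \ O₁, m z = 0 := by omega
              have h11 : ω ∈ O₁ := by
                by_contra h12
                exact hsum0 _ sdiff_subset h10 ω hω (mem_sdiff.mpr ⟨hω, h12⟩)
              have h12 := hO₁.const ω h11
              omega
          obtain ⟨hj, hm20, hMω, hr⟩ := hcase
          have hSO : O = S := by
            have h2 := hempty (S \ O) sdiff_subset hr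
            exact Subset.antisymm hO.sub (sdiff_eq_empty_iff_subset.mp h2)
          have hm1 : ∀ z ∈ S, m z = 1 := by
            intro z hz
            rw [hO.const z (hSO ▸ hz), hMω]
          have hD := hs hm20 hm1
          rcases hO.spin 3 hq hqu hSO (hne0 ω hω) (hne1 ω hω) hh2 hD with h2 | h2
          · refine ⟨Wu u, 2, LL.c1 rfl, ?_, by omega, h2j, hm2', hmz⟩
            intro z hz
            rw [hO.exp z (hSO ▸ hz), ← hS2]
            exact h2
          · refine ⟨2 * u * (u + 1), 2, LL.c2 rfl, ?_, by omega, h2j, hm2', hmz⟩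
            intro z hz
            rw [hO.exp z (hSO ▸ hz)]
            exact h2
        · push Not at hk2
          refine ⟨2 * u * (u + 1), 2, LL.c2 rfl, ?_, fun _ => ⟨u * (u + 1), by ring⟩, h2j, hm2', hmz⟩
          intro z hz
          obtain ⟨O, k, hO⟩ := hOD hS hz
          rcases hk12 z hz O k hO with rfl | rfl
          · rcases hsign1 hO with h | h
            · exact pow_one_of_dvd (h z hO.mem) ⟨u, by ring⟩
            · exact pow_one_of_dvd (h z hO.mem) ⟨u + 1, by ring⟩
          · exact absurd hO (hk2 z hz O)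
      · -- characteristic five
        by_cases hSe : S = ∅
        · subst hSe
          rcases Nat.even_or_odd u with hev | hod
          · refine ⟨u, 2, LL.c3 rfl, by simp, fun _ => hev.two_dvd, h2j, hm2', by simp⟩
          · refine ⟨u + 1, 2, LL.c4 rfl, by simp, fun _ => hod.add_one.two_dvd, h2j, hm2', by simp⟩
        · obtain ⟨ω, hω⟩ := nonempty_iff_ne_empty.mpr hSe
          obtain ⟨O, k, hO, h3⟩ := hsome ω hω
          have h1 := hdiff hO.sub
          rw [hO.sum] at h1
          have hcase : j = 3 ∧ m2 = 0 ∧ 2 * k * m ω = 2 ∧ ∑ z ∈ S \ O, m z = 0 := by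
            rcases hnB with h | h | ⟨z, hz, h⟩
            · omega
            · omega
            · have := hm4 z hz
              omega
          obtain ⟨hj, hm20, hkm, hr⟩ := hcase
          have hk : k * m ω = 1 := by
            have : 2 * k * m ω = 2 * (k * m ω) := by ring
            omega
          have hk1 : k = 1 := Nat.dvd_one.mp ⟨_, hk.symm⟩
          subst hk1
          rw [one_mul] at hk
          have hSO : O = S := by
            have h2 := hempty (S \ O) sdiff_subset hr
            exact Subset.antisymm hO.sub (sdiff_eq_empty_iff_subset.mp h2)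
          have hm1 : ∀ z ∈ S, m z = 1 := by
            intro z hz
            rw [hO.const z (hSO ▸ hz), hk]
          have hD := hs hm20 hm1
          rcases hO.spin 5 hq hqu hSO (hne0 ω hω) (hne1 ω hω) hh1 hD with h2 | h2
          · refine ⟨u + 1, 2, LL.c4 rfl, ?_, by omega, h2j, hm2', hmz⟩
            intro z hz
            rw [hO.exp z (hSO ▸ hz)]
            exact h2
          · refine ⟨u, 2, LL.c3 rfl, ?_, by omega, h2j, hm2', hmz⟩
            intro z hz
            rw [hO.exp z (hSO ▸ hz)]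
            exact h2
      · -- characteristic seven
        have hSe : S = ∅ := by
          by_contra hSe
          obtain ⟨ω, hω⟩ := nonempty_iff_ne_empty.mpr hSe
          obtain ⟨O, k, hO, h3⟩ := hsome ω hω
          have h1 := hdiff hO.sub
          rw [hO.sum] at h1
          rcases hnB with h | h | ⟨z, hz, h⟩
          · omega
          · omega
          · have := hm4 z hz
            omega
        subst hSe
        have hm20 : m2 = 0 := by
          rcases hnB with h | h | ⟨z, hz, h⟩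
          · simp at hsum
            omega
          · simp at hsum
            omega
          · simp at hz
        exact ⟨1, 2, LL.c5 rfl, by simp, by omega, h2j, hm2', by simp⟩
      · exfalso
        rcases hnB with h | h | ⟨z, hz, h⟩
        · omega
        · omega
        · have := hm4 z hz
          omega

theorem LL.ne_zero {u p a β : ℕ} (h : LL u p a β) (hu : 1 ≤ u) : a ≠ 0 := by
  have h1 : 0 < u := hu
  cases h <;> first | positivity | omega

end arith

end Cfsg.Agent.Lib.Om9
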