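import Mathlib
import Cfsg.Agent.Lib.Om9A
import Cfsg.Agent.Lib.SpSpecEigen
import Cfsg.Agent.Lib.SpecBC.Wall
import Cfsg.Agent.Lib.OrthOmega
import Cfsg.Agent.Lib.OrthMatrix
import Cfsg.Agent.Lib.SemisimpleOrth

/-!
# Upper bound for the spectrum of `Ω₉(q)` and `V ⋊ Ω₈⁻(q)`, `q` odd
-/

set_option autoImplicit false
set_option linter.unusedSectionVars false
set_option linter.unusedSimpArgs false
set_option linter.unusedVariables false
set_option linter.style.haveILetI false

namespace Cfsg.Agent.Lib.Om9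

open Polynomial Matrix

section block

variable {K : Type*} [Field K] {ι : Type*} [Fintype ι] [DecidableEq ι]

/-- `M₁` is adjoint to `M₂` with respect to `S`. -/
def Adj (S M₁ M₂ : Matrix ι ι K) : Prop := M₁.transpose * S = S * M₂

variable {S : Matrix ι ι K} {M₁ M₂ M₃ M₄ : Matrix ι ι K}

lemma Adj.mul (h : Adj S M₁ M₂) (h' : Adj S M₃ M₄) : Adj S (M₁ * M₃) (M₄ * M₂) := by
  unfold Adj at *
  rw [transpose_mul, Matrix.mul_assoc, h, ← Matrix.mul_assoc, h', Matrix.mul_assoc]

lemma Adj.add (h : Adj S M₁ M₂) (h' : Adj S M₃ M₄) : Adj S (M₁ + M₃) (M₂ + M₄) := by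
  unfold Adj at *
  rw [transpose_add, Matrix.add_mul, h, h', Matrix.mul_add]

lemma Adj.smul (h : Adj S M₁ M₂) (a : K) : Adj S (a • M₁) (a • M₂) := by
  unfold Adj at *
  rw [transpose_smul, Matrix.smul_mul, h, Matrix.mul_smul]

lemma Adj.neg (h : Adj S M₁ M₂) : Adj S (-M₁) (-M₂) := by
  unfold Adj at *
  rw [transpose_neg, Matrix.neg_mul, h, Matrix.mul_neg]

lemma Adj.one : Adj S (1 : Matrix ι ι K) 1 := by
  unfold Adj
  rw [transpose_one, Matrix.one_mul, Matrix.mul_one]

lemma Adj.pow (h : Adj S M₁ M₂) (n : ℕ) : Adj S (M₁ ^ n) (M₂ ^ n) := by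
  induction n with
  | zero => simpa using Adj.one
  | succ n ih =>
    rw [pow_succ, pow_succ']
    exact ih.mul h

lemma Adj.aeval (h : Adj S M₁ M₂) (p : K[X]) : Adj S (aeval M₁ p) (aeval M₂ p) := by
  induction p using Polynomial.induction_on' with
  | add p q hp hq =>
    rw [map_add, map_add]
    exact hp.add hq
  | monomial n a =>
    rw [aeval_monomial, aeval_monomial, ← Algebra.smul_def', ← Algebra.smul_def']
    exact (h.pow n).smul a

lemma Adj.symm (hS : S.transpose = S) (h : Adj S M₁ M₂) : Adj S M₂ M₁ := by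
  unfold Adj at *
  have h2 := congrArg transpose h
  rw [transpose_mul, transpose_mul, transpose_transpose, hS] at h2
  exact h2.symm

lemma comm_aeval {A : Type*} [Ring A] [Algebra K A] {x y : A} (h : Commute x y) (p : K[X]) :
    Commute (Polynomial.aeval x p) y := by
  induction p using Polynomial.induction_on' with
  | add p q hp hq =>
    rw [map_add]
    exact hp.add_left hq
  | monomial n a =>
    rw [aeval_monomial]
    exact (Algebra.commute_algebraMap_left a y).mul_left (h.pow_left n)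

/-- A skew-adjoint operator of rank at most one vanishes. -/
theorem skew_rank_one (S T : Matrix ι ι K) (hS : IsUnit S) (hSs : S.transpose = S) (h2 : (2 : K) ≠ 0)
    (hskew : T.transpose * S = -(S * T))
    (hrk : ∀ w₀, T *ᵥ w₀ ≠ 0 → ∀ w, ∃ c : K, T *ᵥ w = c • T *ᵥ w₀) : T = 0 := by
  by_contra hT
  obtain ⟨w₀, hw₀⟩ : ∃ w₀, T *ᵥ w₀ ≠ 0 := by
    by_contra hcon
    push Not at hcon
    apply hT
    ext i j
    have := congrFun (hcon (Pi.single j 1)) i
    simpa using this
  set z := T *ᵥ w₀ with hz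
  let B : (ι → K) → (ι → K) → K := fun x y => x ⬝ᵥ S *ᵥ y
  have hB0 : ∀ w, B (T *ᵥ w) w = 0 := by
    intro w
    have h3 : B (T *ᵥ w) w = -B (T *ᵥ w) w := by
      show (T *ᵥ w) ⬝ᵥ S *ᵥ w = -((T *ᵥ w) ⬝ᵥ S *ᵥ w)
      have h4 : (T *ᵥ w) ⬝ᵥ S *ᵥ w = w ⬝ᵥ (T.transpose * S) *ᵥ w := by
        rw [← Matrix.mulVec_mulVec, Matrix.dotProduct_mulVec w, Matrix.vecMul_transpose]
      have h5 : (T *ᵥ w) ⬝ᵥ S *ᵥ w = w ⬝ᵥ S *ᵥ (T *ᵥ w) := by
        rw [Matrix.dotProduct_mulVec (T *ᵥ w), dotProduct_comm, ← Matrix.mulVec_transpose, hSs]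
      nth_rewrite 1 [h4]
      rw [hskew, Matrix.neg_mulVec, dotProduct_neg, ← Matrix.mulVec_mulVec, ← h5]
    have h4 : 2 * B (T *ᵥ w) w = 0 := by
      linear_combination h3
    exact (mul_eq_zero.mp h4).resolve_left h2
  obtain ⟨w₁, hw₁⟩ : ∃ w₁, B z w₁ ≠ 0 := by
    by_contra hcon
    push Not at hcon
    have h3 : z ᵥ* S = 0 := by
      funext j
      have := hcon (Pi.single j 1)
      simpa [B, Matrix.dotProduct_mulVec] using this
    apply hw₀
    have h4 : z = (z ᵥ* S) ᵥ* (S⁻¹) := by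
      rw [Matrix.vecMul_vecMul, Matrix.mul_nonsing_inv _ ((Matrix.isUnit_iff_isUnit_det _).mp hS),
        Matrix.vecMul_one]
    rw [h4, h3, Matrix.zero_vecMul]
  obtain ⟨c, hc⟩ := hrk w₀ hw₀ w₁
  have h3 : B (T *ᵥ w₁) w₁ = c * B z w₁ := by
    rw [hc, ← hz]
    simp [B, smul_dotProduct]
  rw [hB0 w₁] at h3
  have hc0 : c = 0 := by
    rcases mul_eq_zero.mp h3.symm with h | h
    · exact h
    · exact absurd h hw₁
  have h4 : T *ᵥ w₁ = 0 := by
    rw [hc, hc0, zero_smul]
  have h5 : B z w₀ = 0 := hB0 w₀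
  have h6 := hB0 (w₀ + w₁)
  rw [Matrix.mulVec_add, h4, add_zero] at h6
  have h7 : B z (w₀ + w₁) = B z w₀ + B z w₁ := by
    simp [B, Matrix.mulVec_add, dotProduct_add]
  apply hw₁
  rw [← hz] at h6
  rw [h7, h5, zero_add] at h6
  exact h6

/-- A chain of vectors under a nilpotent map is independent. -/
theorem chain_li {V : Type*} [AddCommGroup V] [Module K V] (N : V →ₗ[K] V) (e : V) (m : ℕ)
    (hm : m ≠ 0) (h1 : (N ^ (m - 1)) e ≠ 0) (h2 : (N ^ m) e = 0) :
    LinearIndependent K (fun i : Fin m => (N ^ (i : ℕ)) e) := by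
  classical
  rw [Fintype.linearIndependent_iff]
  intro c hc
  have h3 : ∀ n (hn : n < m), c ⟨n, hn⟩ = 0 := by
    intro n
    induction n using Nat.strong_induction_on with
    | _ n ih =>
      intro hn
      have h4 := congrArg (N ^ (m - 1 - n)) hc
      rw [map_sum, map_zero, Finset.sum_eq_single ⟨n, hn⟩] at h4
      · rw [map_smul, ← Module.End.mul_apply, ← pow_add] at h4
        have h5 : m - 1 - n + (⟨n, hn⟩ : Fin m) = m - 1 := by
          show m - 1 - n + n = m - 1
          omega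
        rw [h5] at h4
        exact (smul_eq_zero.mp h4).resolve_right h1
      · intro j _ hj
        rw [map_smul, ← Module.End.mul_apply, ← pow_add]
        have h5 : (j : ℕ) ≠ n := fun h => hj (Fin.ext h)
        rcases lt_or_gt_of_ne h5 with h6 | h6
        · rw [ih j h6 j.2, zero_smul]
        · have h7 : m - 1 - n + (j : ℕ) = (m - 1 - n + j - m) + m := by
            have := j.2
            omega
          rw [h7, pow_add, Module.End.mul_apply, h2, map_zero, smul_zero]
      · intro h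
        exact absurd (Finset.mem_univ _) h
  intro i
  exact h3 i i.2

/-- The rank-one property of the top of a Jordan chain. -/
theorem rank_one_top (A : Matrix ι ι K) (m : ℕ) (hm : m ≠ 0)
    (hr : rootMultiplicity (-1 : K) A.charpoly = m) (H : Matrix ι ι K)
    (hH : (A + 1) ^ m * H = 0) (w₀ : ι → K) (h0 : ((A + 1) ^ (m - 1) * H) *ᵥ w₀ ≠ 0) (w : ι → K) :
    ∃ c : K, ((A + 1) ^ (m - 1) * H) *ᵥ w = c • ((A + 1) ^ (m - 1) * H) *ᵥ w₀ := by
  classical
  set φ : Module.End K (ι → K) := Matrix.toLin' A with hφ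
  set N : (ι → K) →ₗ[K] (ι → K) := Matrix.toLin' (A + 1) with hN
  have hNpow : ∀ (k : ℕ) (v : ι → K), (N ^ k) v = ((A + 1) ^ k) *ᵥ v := by
    intro k v
    rw [hN, ← Matrix.toLin'_pow, Matrix.toLin'_apply]
  have hU : ∀ x : ι → K, x ∈ φ.genEigenspace (-1) m ↔ (N ^ m) x = 0 := by
    intro x
    rw [Module.End.mem_genEigenspace_nat, LinearMap.mem_ker]
    have h1 : φ - (-1 : K) • (1 : Module.End K (ι → K)) = N := by
      apply LinearMap.ext
      intro v
      simp [hφ, hN, Matrix.add_mulVec, Matrix.toLin'_apply]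
    rw [h1]
  have hfin : Module.finrank K (φ.genEigenspace (-1) m) ≤ m := by
    have := LinearMap.finrank_genEigenspace_le φ (-1) m
    rwa [hφ, Matrix.charpoly_toLin', hr] at this
  set e := H *ᵥ w₀ with he
  have hli : LinearIndependent K (fun i : Fin m => (N ^ (i : ℕ)) e) := by
    apply chain_li N e m hm
    · rw [hNpow, he, Matrix.mulVec_mulVec]
      exact h0
    · rw [hNpow, he, Matrix.mulVec_mulVec, hH, Matrix.zero_mulVec]
  have hspan : Submodule.span K (Set.range (fun i : Fin m => (N ^ (i : ℕ)) e)) =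
      φ.genEigenspace (-1) m := by
    apply Submodule.eq_of_le_of_finrank_le
    · rw [Submodule.span_le]
      rintro _ ⟨i, rfl⟩
      show (N ^ (i : ℕ)) e ∈ φ.genEigenspace (-1) m
      rw [hU, ← Module.End.mul_apply, ← pow_add, add_comm, pow_add, Module.End.mul_apply, hNpow m,
        he, Matrix.mulVec_mulVec, hH, Matrix.zero_mulVec, map_zero]
    · rw [finrank_span_eq_card hli, Fintype.card_fin]
      exact hfin
  have hmem : H *ᵥ w ∈ φ.genEigenspace (-1) m := by
    rw [hU, hNpow, Matrix.mulVec_mulVec, hH, Matrix.zero_mulVec]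
  rw [← hspan, Submodule.mem_span_range_iff_exists_fun] at hmem
  obtain ⟨c, hc⟩ := hmem
  obtain ⟨m', rfl⟩ : ∃ m', m = m' + 1 := ⟨m - 1, by omega⟩
  refine ⟨c 0, ?_⟩
  have h1 : ((A + 1) ^ (m' + 1 - 1) * H) *ᵥ w = (N ^ (m' + 1 - 1)) (H *ᵥ w) := by
    rw [hNpow, Matrix.mulVec_mulVec]
  have h2 : ((A + 1) ^ (m' + 1 - 1) * H) *ᵥ w₀ = (N ^ (m' + 1 - 1)) e := by
    rw [hNpow, he, Matrix.mulVec_mulVec]
  rw [h1, h2, ← hc, map_sum, Finset.sum_eq_single (0 : Fin (m' + 1))]
  · rw [map_smul]
    simp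
  · intro j _ hj
    rw [map_smul, ← Module.End.mul_apply, ← pow_add]
    have h7 : m' + 1 - 1 + (j : ℕ) = (m' + 1 - 1 + j - (m' + 1)) + (m' + 1) := by
      have h8 : (j : ℕ) ≠ 0 := fun h => hj (Fin.ext h)
      omega
    rw [h7, pow_add, Module.End.mul_apply, hNpow (m' + 1), he, Matrix.mulVec_mulVec, hH,
      Matrix.zero_mulVec, map_zero, smul_zero]
  · intro h
    exact absurd (Finset.mem_univ _) h

/-- **The block lemma**: at the eigenvalue `-1`, an isometry with even multiplicity is killed by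
the characteristic polynomial divided by `X + 1`. -/
theorem block (A S : Matrix ι ι K) (hS : IsUnit S) (hSs : S.transpose = S) (h2 : (2 : K) ≠ 0)
    (hA : A.transpose * S * A = S) (hm : Even (rootMultiplicity (-1 : K) A.charpoly))
    (hm0 : rootMultiplicity (-1 : K) A.charpoly ≠ 0) :
    ∃ τ : K[X], A.charpoly = (X + 1) * τ ∧ aeval A τ = 0 := by
  classical
  set m := rootMultiplicity (-1 : K) A.charpoly with hmdef
  have hX : (X - C (-1 : K)) = (X + 1 : K[X]) := by
    simp
  obtain ⟨h, hh1, hh2⟩ := exists_eq_pow_rootMultiplicity_mul_and_not_dvd A.charpoly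
    (Matrix.charpoly_monic A).ne_zero (-1 : K)
  rw [← hmdef, hX] at hh1
  rw [hX] at hh2
  have hh3 : h.eval (-1) ≠ 0 := by
    intro h3
    apply hh2
    rw [← hX]
    exact dvd_iff_isRoot.mpr h3
  refine ⟨(X + 1) ^ (m - 1) * h, ?_, ?_⟩
  · rw [hh1, ← mul_assoc, ← pow_succ']
    congr 2
    omega
  have hSdet := (Matrix.isUnit_iff_isUnit_det _).mp hS
  set Y : Matrix ι ι K := S⁻¹ * A.transpose * S with hY
  have hYA : Y * A = 1 := by
    rw [hY, Matrix.mul_assoc, Matrix.mul_assoc, ← Matrix.mul_assoc A.transpose, hA,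
      Matrix.nonsing_inv_mul _ hSdet]
  have hAY : A * Y = 1 := mul_eq_one_comm.mp hYA
  have hadj : Adj S A Y := by
    unfold Adj
    rw [hY, ← Matrix.mul_assoc, ← Matrix.mul_assoc, Matrix.mul_nonsing_inv _ hSdet, Matrix.one_mul]
  have hadj' : Adj S Y A := hadj.symm hSs
  have hcAY : Commute A Y := hAY.trans hYA.symm
  set hA' := aeval A h with hhA
  set hY' := aeval Y h with hhY
  have c1 : Commute hA' A := comm_aeval (Commute.refl A) h
  have c2 : Commute hA' Y := comm_aeval hcAY h
  have c3 : Commute hY' A := comm_aeval hcAY.symm h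
  have c4 : Commute hY' Y := comm_aeval (Commute.refl Y) h
  have c5 : Commute hA' hY' := by
    have : Commute (aeval Y h) hA' := comm_aeval c2.symm h
    exact this.symm
  set T := (A + 1) ^ (m - 1) * hA' with hT
  have hm1 : (A + 1) ^ m * hA' = 0 := by
    have h3 := Matrix.aeval_self_charpoly A
    rw [hh1, map_mul, map_pow, map_add, aeval_X, map_one] at h3
    exact h3
  have hcomm1 : Commute hA' (A + 1) := c1.add_right (Commute.one_right _)
  have hTA : T * (A + 1) = 0 := by
    rw [hT, Matrix.mul_assoc, hcomm1.eq, ← Matrix.mul_assoc, ← pow_succ]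
    have : m - 1 + 1 = m := by omega
    rw [this, hm1]
  have hTA' : T * A = -T := by
    have : T * A + T = 0 := by
      rw [← hTA, Matrix.mul_add, Matrix.mul_one]
    exact eq_neg_of_add_eq_zero_left this
  have hTY : T * Y = -T := by
    have h3 : T * A * Y = T := by
      rw [Matrix.mul_assoc, hAY, Matrix.mul_one]
    rw [hTA', Matrix.neg_mul] at h3
    exact neg_eq_iff_eq_neg.mp h3
  have hTYk : ∀ k : ℕ, T * Y ^ k = (-1 : K) ^ k • T := by
    intro k
    induction k with
    | zero => simp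
    | succ k ih =>
      rw [pow_succ, ← Matrix.mul_assoc, ih, Matrix.smul_mul, hTY, pow_succ, mul_smul, neg_one_smul]
  have hTp : ∀ p : K[X], T * aeval Y p = p.eval (-1) • T := by
    intro p
    induction p using Polynomial.induction_on' with
    | add p q hp hq => rw [map_add, Matrix.mul_add, hp, hq, eval_add, add_smul]
    | monomial n a =>
      rw [aeval_monomial, ← Algebra.smul_def', Matrix.mul_smul, hTYk, eval_monomial, mul_smul]
  set ν := A - Y with hν
  have hmo : Odd (m - 1) := by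
    obtain ⟨t, ht⟩ := hm
    exact ⟨t - 1, by omega⟩
  have cν1 : Commute hA' ν := c1.sub_right c2
  have cν2 : Commute hY' ν := c3.sub_right c4
  have hadjν : Adj S ν (-ν) := by
    have : -ν = Y - A := by
      rw [hν]
      abel
    rw [this]
    unfold Adj at *
    rw [hν, transpose_sub, Matrix.sub_mul, hadj, hadj', Matrix.mul_sub]
  have hadjνk : Adj S (ν ^ (m - 1)) (-(ν ^ (m - 1))) := by
    have := hadjν.pow (m - 1)
    rwa [Odd.neg_pow hmo] at this
  set Z := ν ^ (m - 1) * hA' * hY' with hZ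
  have hadjZ : Adj S Z (-Z) := by
    have h3 := (hadjνk.mul (hadj.aeval h)).mul (hadj'.aeval h)
    have h4 : hA' * (hY' * -(ν ^ (m - 1))) = -Z := by
      rw [hZ, Matrix.mul_neg, Matrix.mul_neg, neg_inj]
      have h5 : Commute (hA' * hY') (ν ^ (m - 1)) := (cν1.pow_right _).mul_left (cν2.pow_right _)
      rw [← Matrix.mul_assoc, h5.eq, Matrix.mul_assoc]
    rw [← hhA, ← hhY, h4] at h3
    exact h3
  set W := (A - 1) * Y with hW
  have hνW : ν = (A + 1) * W := by
    rw [hν, hW, ← Matrix.mul_assoc]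
    have : (A + 1) * (A - 1) = A * A - 1 := by
      noncomm_ring
    rw [this, Matrix.sub_mul, Matrix.mul_assoc, hAY, Matrix.mul_one, Matrix.one_mul]
  have cnW : Commute (A + 1) W := by
    have h3 : Commute (A + 1) (A - 1) := by
      exact ((Commute.refl A).add_left (Commute.one_left _)).sub_right (Commute.one_right _)
    have h4 : Commute (A + 1) Y := hcAY.add_left (Commute.one_left _)
    exact h3.mul_right h4
  have cAW : Commute hA' W :=
    (c1.sub_right (Commute.one_right _)).mul_right c2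
  have hTW : T * W = (2 : K) • T := by
    rw [hW, ← Matrix.mul_assoc, Matrix.mul_sub, hTA', Matrix.mul_one, Matrix.sub_mul,
      Matrix.neg_mul, hTY, two_smul]
    abel
  have hTWk : ∀ k : ℕ, T * W ^ k = (2 : K) ^ k • T := by
    intro k
    induction k with
    | zero => simp
    | succ k ih =>
      rw [pow_succ, ← Matrix.mul_assoc, ih, Matrix.smul_mul, hTW, smul_smul, pow_succ]
  have hZT : Z = ((2 : K) ^ (m - 1) * h.eval (-1)) • T := by
    rw [hZ, hνW, cnW.mul_pow]
    have h3 : (A + 1) ^ (m - 1) * W ^ (m - 1) * hA' * hY' = T * W ^ (m - 1) * hY' := by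
      rw [hT, Matrix.mul_assoc ((A + 1) ^ (m - 1)) (W ^ (m - 1)) hA', (cAW.pow_right _).eq.symm,
        ← Matrix.mul_assoc ((A + 1) ^ (m - 1))]
    rw [h3, hTWk, Matrix.smul_mul, hTp, smul_smul]
  have hκ : (2 : K) ^ (m - 1) * h.eval (-1) ≠ 0 := mul_ne_zero (pow_ne_zero _ h2) hh3
  have hskew : T.transpose * S = -(S * T) := by
    unfold Adj at hadjZ
    rw [hZT, transpose_smul, Matrix.smul_mul, Matrix.mul_neg, Matrix.mul_smul, ← smul_neg] at hadjZ
    exact smul_right_injective _ hκ hadjZ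
  have hT0 : T = 0 := by
    apply skew_rank_one S T hS hSs h2 hskew
    intro w₀ hw₀ w
    exact rank_one_top A m hm0 hmdef.symm hA' hm1 w₀ hw₀ w
  rw [map_mul, map_pow, map_add, aeval_X, map_one]
  exact hT0

end block

section spectral

open Cfsg.Agent.Lib.SpSpec

variable {F : Type*} [Field F] [Fintype F] {ι : Type*} [Fintype ι] [DecidableEq ι]

theorem dvd_pow_sub_one {K : Type*} [Field K] [IsAlgClosed K] (p : ℕ) [hp : Fact p.Prime] [CharP K p]
    (W : K[X]) (hW : W ≠ 0) (a β : ℕ) (ha : a ≠ 0) (h1 : ∀ z ∈ W.roots, z ^ a = 1)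
    (h2 : ∀ z, rootMultiplicity z W ≤ p ^ β) : W ∣ X ^ (a * p ^ β) - 1 := by
  classical
  haveI : ExpChar K p := ExpChar.prime hp.out
  haveI : ExpChar K[X] p := ExpChar.prime hp.out
  set R : K[X] := (X ^ a - 1) ^ p ^ β with hR
  have hR2 : R = X ^ (a * p ^ β) - 1 := by
    rw [hR, sub_pow_expChar_pow, one_pow, ← pow_mul]
  have hoP : a * p ^ β ≠ 0 := mul_ne_zero ha (pow_ne_zero _ hp.out.ne_zero)
  have hR0 : R ≠ 0 := by
    rw [hR2]
    have := monic_X_pow_sub_C (1 : K) hoP
    rw [C_1] at this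
    exact this.ne_zero
  rw [← hR2]
  apply (IsAlgClosed.splits W).dvd_of_roots_le_roots hW
  rw [Multiset.le_iff_count]
  intro ω
  rw [count_roots, count_roots]
  by_cases hω : ω ∈ W.roots
  · refine (h2 ω).trans ?_
    rw [le_rootMultiplicity_iff hR0]
    apply pow_dvd_pow_of_dvd
    rw [dvd_iff_isRoot]
    simp [h1 ω hω]
  · rw [rootMultiplicity_eq_zero]
    · exact Nat.zero_le _
    · intro hr
      exact hω ((mem_roots hW).mpr hr)

/-- Products over the roots, with multiplicities. -/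
theorem prod_roots_split {K M : Type*} [Field K] [DecidableEq K] [CommMonoid M] (f : K[X]) (hf : f ≠ 0)
    (h12 : (1 : K) ≠ -1) (g : K → M) :
    (f.roots.map g).prod = g 1 ^ rootMultiplicity 1 f * g (-1) ^ rootMultiplicity (-1) f *
      ∏ z ∈ f.roots.toFinset.filter (fun z => z ^ 2 ≠ 1), g z ^ rootMultiplicity z f := by
  have h1 : (f.roots.map g).prod = ∏ z ∈ f.roots.toFinset, g z ^ rootMultiplicity z f := by
    rw [Finset.prod_multiset_map_count]
    simp only [count_roots]
  rw [h1, ← Finset.prod_filter_mul_prod_filter_not f.roots.toFinset (fun z => z ^ 2 = 1)]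
  congr 1
  have h2 : ∏ z ∈ f.roots.toFinset.filter (fun z => z ^ 2 = 1), g z ^ rootMultiplicity z f =
      ∏ z ∈ ({1, -1} : Finset K), g z ^ rootMultiplicity z f := by
    apply Finset.prod_subset
    · intro z hz
      have h3 := (Finset.mem_filter.mp hz).2
      have h4 : (z - 1) * (z + 1) = 0 := by linear_combination h3
      rcases mul_eq_zero.mp h4 with h5 | h5
      · simp [sub_eq_zero.mp h5]
      · simp [eq_neg_of_add_eq_zero_left h5]
    · intro z hz hz2
      have h3 : z ∉ f.roots := by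
        intro h4
        apply hz2
        rw [Finset.mem_filter]
        refine ⟨Multiset.mem_toFinset.mpr h4, ?_⟩
        rw [Finset.mem_insert, Finset.mem_singleton] at hz
        rcases hz with rfl | rfl <;> simp
      have h5 : rootMultiplicity z f = 0 := by
        rw [← count_roots]
        exact Multiset.count_eq_zero_of_notMem h3
      rw [h5, pow_zero]
  rw [h2, Finset.prod_pair h12]

theorem two_ne_zero_closure (p : ℕ) [hp : Fact p.Prime] [CharP F p] (hp2 : p ≠ 2) : (2 : AlgebraicClosure F) ≠ 0 := by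
  haveI : CharP (AlgebraicClosure F) p := instCharPClosure p
  intro h
  have h2 : ((2 : ℕ) : AlgebraicClosure F) = 0 := by
    rw [Nat.cast_ofNat]
    exact h
  rw [CharP.cast_eq_zero_iff (AlgebraicClosure F) p] at h2
  exact hp2 ((Nat.prime_dvd_prime_iff_eq hp.out Nat.prime_two).mp h2)

/-- The determinant of `A + 1` in terms of the roots. -/
theorem det_add_one_roots (A : Matrix ι ι F) :
    ((A + 1).map (algebraMap F (AlgebraicClosure F))).det =
      ((chi A).roots.map (fun z => 1 + z)).prod := by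
  set A' := A.map (algebraMap F (AlgebraicClosure F)) with hA'
  have h1 : (A + 1).map (algebraMap F (AlgebraicClosure F)) = A' + 1 := by
    rw [hA', Matrix.map_add _ (map_add _), Matrix.map_one _ (map_zero _) (map_one _)]
  have h2 : (chi A).eval (-1) = (Matrix.scalar ι (-1 : AlgebraicClosure F) - A').det := by
    rw [chi_eq, Matrix.eval_charpoly]
  have h3 : Matrix.scalar ι (-1 : AlgebraicClosure F) - A' = -(A' + 1) := by
    ext i j
    simp [Matrix.scalar_apply, Matrix.diagonal_apply, Matrix.one_apply]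
    split_ifs <;> ring
  have h4 := (IsAlgClosed.splits (chi A)).eval_eq_prod_roots_of_monic (chi_monic A) (-1)
  have h5 : ((chi A).roots.map (fun z => -1 - z)).prod =
      (-1) ^ Fintype.card ι * ((chi A).roots.map (fun z => 1 + z)).prod := by
    have h6 : (chi A).roots.map (fun z => -1 - z) = ((chi A).roots.map (fun z => 1 + z)).map Neg.neg := by
      rw [Multiset.map_map]
      apply Multiset.map_congr rfl
      intro z _
      simp only [Function.comp]
      ring
    rw [h6, Multiset.prod_map_neg, Multiset.card_map, chi_card_roots A]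
  rw [h2, h3, Matrix.det_neg, h5] at h4
  rw [h1]
  have h7 : ((-1 : AlgebraicClosure F) ^ Fintype.card ι) ≠ 0 := pow_ne_zero _ (neg_ne_zero.mpr one_ne_zero)
  exact mul_left_cancel₀ h7 h4

/-- The spectral core. -/
theorem core (p : ℕ) [hp : Fact p.Prime] [CharP F p] {f u : ℕ} (hq : Fintype.card F = p ^ f)
    (hqu : Fintype.card F = 2 * u + 1) (hu : 1 ≤ u)
    (A S : Matrix ι ι F) (hAS : A.transpose * S * A = S) (hS : IsUnit S) (hSs : S.transpose = S)
    (hdet : A.det = 1) {N : ℕ} (hN : N ≠ 0) (hAN : A ^ N = 1)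
    (hsp : (A + 1).det ≠ 0 → IsSquare ((2 : F) ^ Fintype.card ι * (A + 1).det))
    (hd : Fintype.card ι = 8 ∨ Fintype.card ι = 9) :
    ∃ a β, LL u p a β ∧ ∃ P : (AlgebraicClosure F)[X], P ≠ 0 ∧
      aeval (A.map (algebraMap F (AlgebraicClosure F))) P = 0 ∧ (∀ z ∈ P.roots, z ^ a = 1) ∧
      (∀ z, z ≠ 1 → rootMultiplicity z P ≤ p ^ β) ∧
      (9 - Fintype.card ι) + rootMultiplicity 1 P ≤ p ^ β := by
  classical
  haveI hchar : CharP (AlgebraicClosure F) p := instCharPClosure p
  have hp2 : p ≠ 2 := by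
    rintro rfl
    have hf : f ≠ 0 := by
      rintro rfl
      rw [pow_zero] at hq
      omega
    have : 2 ∣ Fintype.card F := by
      rw [hq]
      exact dvd_pow_self 2 hf
    omega
  set K := AlgebraicClosure F with hK
  set alg := algebraMap F K with halg
  have hinj : Function.Injective alg := FaithfulSMul.algebraMap_injective F K
  set χ := chi A with hχ
  have hχ0 : χ ≠ 0 := chi_ne_zero A
  have h20 : (2 : K) ≠ 0 := two_ne_zero_closure p hp2
  have h12 : (1 : K) ≠ -1 := by
    intro h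
    apply h20
    linear_combination h
  set m : K → ℕ := fun z => rootMultiplicity z χ with hm
  set R := χ.roots.toFinset with hR
  set S₀ := R.filter (fun z => z ^ 2 ≠ 1) with hS₀
  obtain ⟨α, a₀, hα, hNa⟩ := Nat.exists_eq_pow_mul_and_not_dvd hN p hp.out.ne_one
  have ha₀ : a₀ ≠ 0 := by
    rintro rfl
    exact hα (dvd_zero _)
  have hcop : Nat.Coprime (Fintype.card F) a₀ := by
    rw [hq]
    exact Nat.Coprime.pow_left f ((Nat.Prime.coprime_iff_not_dvd hp.out).mpr hα)
  have hroot_mem : ∀ z ∈ S₀, z ∈ χ.roots := fun z hz =>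
    Multiset.mem_toFinset.mp (Finset.mem_filter.mp hz).1
  have hpos : ∀ z, z ∈ χ.roots → 0 < m z := fun z hz => by
    rw [hm]
    exact (rootMultiplicity_pos hχ0).mpr ((mem_roots hχ0).mp hz)
  have hminv : ∀ z : K, z ≠ 0 → m z⁻¹ = m z := fun z hz => mult_inv_of_form A S hS hAS z hz
  have hmfrob : ∀ z : K, m (z ^ Fintype.card F) = m z := fun z => mult_frob A z
  have hmem_of : ∀ z : K, 0 < m z → z ∈ χ.roots := by
    intro z hz
    by_contra h
    have : m z = 0 := by
      rw [hm]
      show rootMultiplicity z χ = 0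
      rw [← count_roots]
      exact Multiset.count_eq_zero_of_notMem h
    omega
  have hzN : ∀ z ∈ χ.roots, z ^ a₀ = 1 := by
    intro z hz
    have h1 := root_pow_one_of_pow A N hAN z hz
    rw [hNa, mul_comm, pow_mul] at h1
    exact pow_eq_one_of_pow_prime_pow p h1
  have hz0 : ∀ z ∈ χ.roots, z ≠ 0 := fun z hz => ne_zero_of_pow_eq_one ha₀ (hzN z hz)
  have hCl : Cl (Fintype.card F) a₀ S₀ m := by
    refine ⟨?_, ?_, ?_, ?_, ?_, ?_, ?_⟩
    · intro z hz
      have h1 := hroot_mem z hz
      rw [hS₀, Finset.mem_filter]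
      refine ⟨Multiset.mem_toFinset.mpr (hmem_of _ ?_), ?_⟩
      · rw [hmfrob]
        exact hpos z h1
      · intro h2
        apply (Finset.mem_filter.mp hz).2
        have h3 : (z ^ 2) ^ Fintype.card F = 1 ^ Fintype.card F := by
          rw [one_pow, ← pow_mul, mul_comm, pow_mul]
          exact h2
        exact frob_inj p hq h3
    · intro z hz
      have h1 := hroot_mem z hz
      rw [hS₀, Finset.mem_filter]
      refine ⟨Multiset.mem_toFinset.mpr (hmem_of _ ?_), ?_⟩
      · rw [hminv z (hz0 z h1)]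
        exact hpos z h1
      · intro h2
        apply (Finset.mem_filter.mp hz).2
        rw [inv_pow] at h2
        exact inv_eq_one.mp h2
    · exact fun z hz => (Finset.mem_filter.mp hz).2
    · exact fun z hz => hzN z (hroot_mem z hz)
    · exact fun z hz => hpos z (hroot_mem z hz)
    · exact fun z hz => hmfrob z
    · exact fun z hz => hminv z (hz0 z (hroot_mem z hz))
  -- the determinant
  have hdetK : (χ.roots).prod = 1 := by
    have h1 := Matrix.det_eq_prod_roots_charpoly (A.map alg)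
    rw [← chi_eq] at h1
    rw [← h1]
    have h2 : (A.map alg).det = alg A.det := (RingHom.map_det alg A).symm
    rw [h2, hdet, map_one]
  have hprodS : ∏ z ∈ S₀, z ^ m z = 1 := by
    apply Finset.prod_involution (fun z _ => z⁻¹)
    · intro z hz
      have h1 := hCl.minv z hz
      rw [h1, inv_pow, mul_inv_cancel₀ (pow_ne_zero _ (hz0 z (hroot_mem z hz)))]
    · intro z hz h1 h2
      apply hCl.two z hz
      have h3 := hz0 z (hroot_mem z hz)
      field_simp at h2
      rw [← h2]
    · intro z hz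
      exact inv_inv z
    · intro z hz
      exact hCl.inv z hz
  have hm2 : Even (m (-1)) := by
    have h1 := prod_roots_split χ hχ0 h12 (fun z => z)
    rw [Multiset.map_id', hdetK, one_pow, one_mul] at h1
    have h2 : ∏ z ∈ χ.roots.toFinset.filter (fun z => z ^ 2 ≠ 1), z ^ rootMultiplicity z χ = 1 := hprodS
    rw [h2, mul_one] at h1
    have h3 : (-1 : K) ≠ 1 := fun h => h12 h.symm
    exact (neg_one_pow_eq_one_iff_even h3).mp h1.symm
  have hevenS : Even (∑ z ∈ S₀, m z) := by
    rw [← ZMod.natCast_eq_zero_iff_even, Nat.cast_sum]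
    apply Finset.sum_involution (fun z _ => z⁻¹)
    · intro z hz
      rw [hCl.minv z hz, ← two_mul]
      have : (2 : ZMod 2) = 0 := rfl
      rw [this, zero_mul]
    · intro z hz h1 h2
      apply hCl.two z hz
      have h3 := hz0 z (hroot_mem z hz)
      field_simp at h2
      rw [← h2]
    · intro z hz
      exact inv_inv z
    · intro z hz
      exact hCl.inv z hz
  have hsumd : m 1 + m (-1) + ∑ z ∈ S₀, m z = Fintype.card ι := by
    have h1 := prod_roots_split χ hχ0 h12 (fun _ => Multiplicative.ofAdd (1 : ℕ))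
    have h2 : (Multiset.map (fun _ => Multiplicative.ofAdd (1 : ℕ)) χ.roots).prod =
        Multiplicative.ofAdd (Multiset.card χ.roots) := by
      rw [Multiset.map_const', Multiset.prod_replicate, ← ofAdd_nsmul, smul_eq_mul, mul_one]
    rw [h2, chi_card_roots A] at h1
    have h3 := congrArg Multiplicative.toAdd h1
    simp only [toAdd_ofAdd, toAdd_mul, toAdd_pow, toAdd_prod, smul_eq_mul, mul_one] at h3
    rw [h3]
  -- the spinor hypothesis
  have hs : m (-1) = 0 → (∀ z ∈ S₀, m z = 1) → (∏ z ∈ S₀, (1 + z)) ^ u = 1 := by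
    intro hm20 hm1
    set D := ∏ z ∈ S₀, (1 + z) with hD
    have hD0 : D ≠ 0 := by
      rw [hD, Finset.prod_ne_zero_iff]
      intro z hz h1
      apply hCl.two z hz
      have h2 : z = -1 := by linear_combination h1
      rw [h2]
      ring
    have h1 : alg (A + 1).det = 2 ^ m 1 * D := by
      have h2 := det_add_one_roots A
      rw [prod_roots_split (chi A) (chi_ne_zero A) h12 (fun z => 1 + z)] at h2
      have h3 : (A + 1).map (algebraMap F (AlgebraicClosure F)) = (alg.mapMatrix (A + 1)) := rfl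
      rw [h3, ← RingHom.map_det] at h2
      have h4 : alg.mapMatrix (A + 1) = (A + 1).map alg := rfl
      have h5 : ∏ z ∈ (chi A).roots.toFinset.filter (fun z => z ^ 2 ≠ 1), (1 + z) ^ rootMultiplicity z (chi A) = D := by
        rw [hD]
        apply Finset.prod_congr rfl
        intro z hz
        have := hm1 z hz
        have h6 : rootMultiplicity z (chi A) = 1 := this
        rw [h6, pow_one]
      have h6 : rootMultiplicity (-1 : AlgebraicClosure F) (chi A) = 0 := hm20
      rw [h5, h6, pow_zero, mul_one] at h2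
      have h7 : (1 + 1 : AlgebraicClosure F) = 2 := by ring
      rw [h7] at h2
      exact h2
    have hdet0 : (A + 1).det ≠ 0 := by
      intro h2
      rw [h2, map_zero] at h1
      exact mul_ne_zero (pow_ne_zero _ h20) hD0 h1.symm
    obtain ⟨e, he⟩ := hsp hdet0
    obtain ⟨s, hs⟩ : ∃ s, Fintype.card ι + m 1 = 2 * s := by
      obtain ⟨t, ht⟩ := hevenS
      exact ⟨m 1 + t, by omega⟩
    have h2F : (2 : F) ≠ 0 := by
      intro h
      apply h20
      have := congrArg alg h
      rwa [map_ofNat, map_zero] at this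
    set e' := e / 2 ^ s with he'
    have hDe : D = alg e' ^ 2 := by
      have h2 := congrArg alg he
      rw [map_mul, map_mul, map_pow, map_ofNat, h1] at h2
      have h3 : (2 : K) ^ Fintype.card ι * (2 ^ m 1 * D) = (2 ^ s) ^ 2 * D := by
        rw [← mul_assoc, ← pow_add, hs, pow_mul', sq]
      rw [h3] at h2
      rw [he', map_div₀, map_pow, map_ofNat, div_pow]
      field_simp
      linear_combination h2
    have he0 : e' ≠ 0 := by
      intro h
      rw [h, map_zero] at hDe
      exact hD0 (by rw [hDe]; ring)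
    rw [hDe, ← pow_mul]
    have h3 : e' ^ (2 * u) = 1 := by
      have h4 := FiniteField.pow_card_sub_one_eq_one e' he0
      have h5 : Fintype.card F - 1 = 2 * u := by omega
      rwa [h5] at h4
    rw [← map_pow, h3, map_one]
  have hsum : 2 * (m 1 / 2) + m (-1) + ∑ z ∈ S₀, m z = 8 := by
    obtain ⟨t, ht⟩ := hevenS
    obtain ⟨t', ht'⟩ := hm2
    rcases hd with hd | hd <;> omega
  obtain ⟨a, β, hLL, hza, h2a, hj1, hm2le, hmle⟩ := arith p hq hqu hu ha₀ hcop hCl hm2 hsum hs
  refine ⟨a, β, hLL, ?_⟩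
  have hfin : ∀ P : K[X], P ≠ 0 → aeval (A.map alg) P = 0 → (∀ z, rootMultiplicity z P ≤ m z) →
      rootMultiplicity (-1) P ≤ p ^ β → ∃ P : K[X], P ≠ 0 ∧
      aeval (A.map alg) P = 0 ∧ (∀ z ∈ P.roots, z ^ a = 1) ∧
      (∀ z, z ≠ 1 → rootMultiplicity z P ≤ p ^ β) ∧
      (9 - Fintype.card ι) + rootMultiplicity 1 P ≤ p ^ β := by
    intro P hP0 hPa hle hle2
    have hsq : ∀ z : K, z ^ 2 = 1 → z = 1 ∨ z = -1 := by
      intro z h3
      have h4 : (z - 1) * (z + 1) = 0 := by linear_combination h3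
      rcases mul_eq_zero.mp h4 with h5 | h5
      · exact Or.inl (sub_eq_zero.mp h5)
      · exact Or.inr (eq_neg_of_add_eq_zero_left h5)
    have hrP : ∀ z, 0 < rootMultiplicity z P → z ∈ χ.roots := by
      intro z hz
      exact hmem_of z (lt_of_lt_of_le hz (hle z))
    refine ⟨P, hP0, hPa, ?_, ?_, ?_⟩
    · intro z hz
      have h3 : 0 < rootMultiplicity z P := (rootMultiplicity_pos hP0).mpr ((mem_roots hP0).mp hz)
      have h4 := hrP z h3
      by_cases h5 : z ^ 2 = 1
      · rcases hsq z h5 with rfl | rfl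
        · exact one_pow _
        · have h6 := hpos _ h4
          obtain ⟨c, hc⟩ := h2a (by omega)
          rw [hc, pow_mul]
          simp
      · exact hza z (Finset.mem_filter.mpr ⟨Multiset.mem_toFinset.mpr h4, h5⟩)
    · intro z hz1
      by_cases h5 : z ^ 2 = 1
      · rcases hsq z h5 with rfl | rfl
        · exact absurd rfl hz1
        · exact hle2
      · by_cases h6 : rootMultiplicity z P = 0
        · rw [h6]
          exact Nat.zero_le _
        · have h7 := hrP z (by omega)
          exact (hle z).trans (hmle z (Finset.mem_filter.mpr ⟨Multiset.mem_toFinset.mpr h7, h5⟩))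
    · have h3 := hle 1
      obtain ⟨t, ht⟩ := hevenS
      obtain ⟨t', ht'⟩ := hm2
      rcases hd with hd | hd <;> omega
  have hCH : aeval (A.map alg) χ = 0 := by
    rw [hχ, chi_eq]
    exact Matrix.aeval_self_charpoly _
  by_cases hm20 : m (-1) = 0
  · exact hfin χ hχ0 hCH (fun z => le_rfl) (by
      have h3 : rootMultiplicity (-1 : K) χ = 0 := hm20
      rw [h3]
      exact Nat.zero_le _)
  · have hχ' : (A.map alg).charpoly = χ := (chi_eq A).symm
    have hAS' : (A.map alg).transpose * (S.map alg) * (A.map alg) = S.map alg := by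
      have h2 := congrArg (fun M : Matrix ι ι F => M.map alg) hAS
      simp only [Matrix.map_mul, Matrix.transpose_map] at h2
      exact h2
    have hS' : IsUnit (S.map alg) := hS.map (alg.mapMatrix (m := ι))
    have hSs' : (S.map alg).transpose = S.map alg := by
      rw [← Matrix.transpose_map, hSs]
    obtain ⟨τ, hτ, hτ0⟩ := block (A.map alg) (S.map alg) hS' hSs' h20 hAS'
      (by rw [hχ']; exact hm2) (by rw [hχ']; exact hm20)
    rw [hχ'] at hτ
    have hτne : τ ≠ 0 := by
      rintro rfl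
      rw [mul_zero] at hτ
      exact hχ0 hτ
    have hadd : ∀ z, rootMultiplicity z χ = rootMultiplicity z (X + 1 : K[X]) + rootMultiplicity z τ := by
      intro z
      rw [hτ]
      apply rootMultiplicity_mul
      rw [← hτ]
      exact hχ0
    refine hfin τ hτne hτ0 (fun z => ?_) ?_
    · have := hadd z
      have h3 : m z = rootMultiplicity z χ := rfl
      omega
    · have h3 := hadd (-1)
      have h4 : rootMultiplicity (-1 : K) (X + 1 : K[X]) = 1 := by
        have h5 : (X + 1 : K[X]) = X - C (-1) := by simp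
        rw [h5]
        exact rootMultiplicity_X_sub_C_self
      have h5 : m (-1) = rootMultiplicity (-1 : K) χ := rfl
      omega

/-- The odd-dimensional case. -/
theorem upper_odd (p : ℕ) [hp : Fact p.Prime] [CharP F p] {f u : ℕ} (hq : Fintype.card F = p ^ f)
    (hqu : Fintype.card F = 2 * u + 1) (hu : 1 ≤ u)
    (A S : Matrix ι ι F) (hAS : A.transpose * S * A = S) (hS : IsUnit S) (hSs : S.transpose = S)
    (hdet : A.det = 1) {N : ℕ} (hN : N ≠ 0) (hAN : A ^ N = 1)
    (hsp : (A + 1).det ≠ 0 → IsSquare ((2 : F) ^ Fintype.card ι * (A + 1).det))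
    (hd : Fintype.card ι = 9) :
    ∃ a β, LL u p a β ∧ A ^ (a * p ^ β) = 1 := by
  classical
  haveI hchar : CharP (AlgebraicClosure F) p := instCharPClosure p
  obtain ⟨a, β, hLL, P, hP0, hPa, hr, hz, h1⟩ := core p hq hqu hu A S hAS hS hSs hdet hN hAN hsp (Or.inr hd)
  refine ⟨a, β, hLL, ?_⟩
  have ha : a ≠ 0 := hLL.ne_zero hu
  have hdvd : P ∣ X ^ (a * p ^ β) - 1 := by
    apply dvd_pow_sub_one p P hP0 a β ha hr
    intro z
    by_cases hz1 : z = 1
    · rw [hz1]
      omega
    · exact hz z hz1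
  obtain ⟨g, hg⟩ := hdvd
  have h2 := congrArg (aeval (A.map (algebraMap F (AlgebraicClosure F)))) hg
  rw [map_mul, hPa, zero_mul, map_sub, map_pow, aeval_X, map_one, sub_eq_zero] at h2
  have h6 : (algebraMap F (AlgebraicClosure F)).mapMatrix (m := ι) (A ^ (a * p ^ β)) =
      (algebraMap F (AlgebraicClosure F)).mapMatrix (m := ι) 1 := by
    rw [map_pow, map_one]
    exact h2
  exact Matrix.map_injective (FaithfulSMul.algebraMap_injective F (AlgebraicClosure F)) h6

/-- The even-dimensional case: the norm vanishes. -/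
theorem upper_even (p : ℕ) [hp : Fact p.Prime] [CharP F p] {f u : ℕ} (hq : Fintype.card F = p ^ f)
    (hqu : Fintype.card F = 2 * u + 1) (hu : 1 ≤ u)
    (A S : Matrix ι ι F) (hAS : A.transpose * S * A = S) (hS : IsUnit S) (hSs : S.transpose = S)
    (hdet : A.det = 1) {N : ℕ} (hN : N ≠ 0) (hAN : A ^ N = 1)
    (hsp : (A + 1).det ≠ 0 → IsSquare ((2 : F) ^ Fintype.card ι * (A + 1).det))
    (hd : Fintype.card ι = 8) :
    ∃ a β, LL u p a β ∧ ∑ i ∈ Finset.range (a * p ^ β), A ^ i = 0 := by
  classical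
  haveI hchar : CharP (AlgebraicClosure F) p := instCharPClosure p
  obtain ⟨a, β, hLL, P, hP0, hPa, hr, hz, h1⟩ := core p hq hqu hu A S hAS hS hSs hdet hN hAN hsp (Or.inl hd)
  refine ⟨a, β, hLL, ?_⟩
  have ha : a ≠ 0 := hLL.ne_zero hu
  set K := AlgebraicClosure F with hK
  have hX1 : (X - 1 : K[X]) ≠ 0 := by
    have := X_sub_C_ne_zero (1 : K)
    rwa [C_1] at this
  have hW : (X - 1) * P ≠ 0 := mul_ne_zero hX1 hP0
  have hmul : ∀ z : K, rootMultiplicity z ((X - 1) * P) = rootMultiplicity z (X - 1 : K[X]) + rootMultiplicity z P :=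
    fun z => rootMultiplicity_mul hW
  have hdvd : (X - 1) * P ∣ X ^ (a * p ^ β) - 1 := by
    apply dvd_pow_sub_one p _ hW a β ha
    · intro z hz2
      rw [mem_roots hW, IsRoot.def, eval_mul, eval_sub, eval_X, eval_one, mul_eq_zero] at hz2
      rcases hz2 with h2 | h2
      · rw [sub_eq_zero.mp h2, one_pow]
      · exact hr z ((mem_roots hP0).mpr h2)
    · intro z
      rw [hmul]
      by_cases hz1 : z = 1
      · subst hz1
        have h3 : (X - 1 : K[X]) = X - C 1 := by simp
        rw [h3, rootMultiplicity_X_sub_C_self]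
        rw [hd] at h1
        omega
      · have h3 : (X - 1 : K[X]) = X - C 1 := by simp
        rw [h3, rootMultiplicity_eq_zero (by simp [IsRoot.def, sub_eq_zero, hz1]), zero_add]
        exact hz z hz1
  have hgeom : (X : K[X]) ^ (a * p ^ β) - 1 = (X - 1) * ∑ i ∈ Finset.range (a * p ^ β), X ^ i := by
    rw [mul_comm (X - 1 : K[X]), geom_sum_mul]
  rw [hgeom] at hdvd
  obtain ⟨g, hg⟩ := (mul_dvd_mul_iff_left hX1).mp hdvd
  have h2 := congrArg (aeval (A.map (algebraMap F K))) hg
  rw [map_mul, hPa, zero_mul, map_sum] at h2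
  simp only [map_pow, aeval_X] at h2
  apply Matrix.map_injective (FaithfulSMul.algebraMap_injective F K)
  have h3 : (∑ i ∈ Finset.range (a * p ^ β), A ^ i).map (algebraMap F K) =
      (algebraMap F K).mapMatrix (m := ι) (∑ i ∈ Finset.range (a * p ^ β), A ^ i) := rfl
  show (∑ i ∈ Finset.range (a * p ^ β), A ^ i).map (algebraMap F K) = (0 : Matrix ι ι F).map (algebraMap F K)
  rw [h3, map_sum]
  simp only [map_pow]
  rw [show (0 : Matrix ι ι F).map (algebraMap F K) = 0 from Matrix.map_zero _ (map_zero _)]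
  exact h2

end spectral

section group

open Cfsg.Agent.Lib.OrthGroup Cfsg.Agent.Lib.OrthOmega Cfsg.Agent.Lib.OrthMatrix Cfsg.Agent.Lib.SpinorCrit
open scoped MatrixGroups

variable {F : Type*} [Field F] [Fintype F] {ι : Type} [Fintype ι] [DecidableEq ι]

/-- The matrix data of an element of `Ω`. -/
theorem omega_data (Q : QuadraticForm F (ι → F)) (hQ : (B Q).Nondegenerate) (hodd : Odd (Fintype.card F))
    (g : ↥(Cfsg.isometryGroup F ⇑Q)) (hg : g ∈ Cfsg.Omega F ⇑Q) :
    ((g.1 : GL ι F) : Matrix ι ι F).transpose * gram₀ Q * ((g.1 : GL ι F) : Matrix ι ι F) = gram₀ Q ∧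
    IsUnit (gram₀ Q) ∧ (gram₀ Q).transpose = gram₀ Q ∧ ((g.1 : GL ι F) : Matrix ι ι F).det = 1 ∧
    ((((g.1 : GL ι F) : Matrix ι ι F) + 1).det ≠ 0 →
      IsSquare ((2 : F) ^ Fintype.card ι * (((g.1 : GL ι F) : Matrix ι ι F) + 1).det)) := by
  classical
  set A := ((g.1 : GL ι F) : Matrix ι ι F) with hA
  have hiso : ∀ v, Q (A *ᵥ v) = Q v := fun v => (mem_isometryGroup _ _).1 g.2 v
  have hG := Cfsg.Agent.Lib.SemisimpleOrth.isGram_of_nondeg Q hQ
  have hSs : (gram₀ Q).transpose = gram₀ Q := by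
    rw [hG.hs, one_smul]
  have hU : IsUnit (gram₀ Q) := IsUnit.of_mul_eq_one _ hG.h1
  have hform := Cfsg.Agent.Lib.SemisimpleOrth.gram_form_of_isometry Q hiso
  have hAS : A.transpose * gram₀ Q * A = gram₀ Q := by
    have key : ∀ u v : ι → F, u ⬝ᵥ ((A.transpose * gram₀ Q * A) *ᵥ v) = u ⬝ᵥ (gram₀ Q *ᵥ v) := by
      intro u v
      rw [← hform u v, ← Matrix.mulVec_mulVec, ← Matrix.mulVec_mulVec, Matrix.dotProduct_mulVec u A.transpose,
        Matrix.vecMul_transpose]
    ext i j
    have := key (Pi.single i 1) (Pi.single j 1)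
    simpa using this
  have hcard : Fintype.card F ≠ 2 := by
    intro h
    rw [h] at hodd
    exact absurd hodd (by decide)
  have hOG : O Q ≤ G Q := O_le_G hQ (hF_of (Or.inl hcard) rfl)
  have hcomm := (mem_Omega_iff Q g).mp hg
  obtain ⟨L, hL, hL2, he, hs⟩ := (mem_commutator_iff hQ hOG (toO Q g)).mp hcomm
  have h2 : (2 : F) ≠ 0 := by
    intro h
    have hc : CharP F 2 := by
      haveI := CharP.ofCharZero
      exact (CharTwo.of_one_ne_zero_of_two_eq_zero one_ne_zero h)
    obtain ⟨n, hn⟩ := FiniteField.card F 2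
    rw [hn.2] at hodd
    exact (Nat.not_even_iff_odd.mpr hodd) (Nat.even_pow.mpr ⟨even_two, n.ne_zero⟩)
  refine ⟨hAS, hU, hSs, ?_, ?_⟩
  · have hker : commutator ↥(Cfsg.isometryGroup F ⇑Q) ≤
        (Matrix.GeneralLinearGroup.det.comp (Cfsg.isometryGroup F ⇑Q).subtype).ker := by
      apply Subgroup.commutator_le.mpr
      intro a _ b _
      rw [MonoidHom.mem_ker, map_commutatorElement, commutatorElement_eq_one_iff_commute]
      exact Commute.all _ _
    have h3 := hker hg
    rw [MonoidHom.mem_ker] at h3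
    have h4 := congrArg Units.val h3
    exact h4
  · intro hd
    have hEq : ((toO Q g).1 : (ι → F) →ₗ[F] (ι → F)) + LinearMap.id = Matrix.toLin' (A + 1) := by
      apply LinearMap.ext
      intro v
      simp only [LinearMap.add_apply, LinearMap.id_apply, Matrix.toLin'_apply, Matrix.add_mulVec, Matrix.one_mulVec]
      rfl
    have hg' : (toO Q g).1 = prodR Q L := congrArg Subtype.val hL2
    have h3 := Cfsg.Agent.Lib.SpecBC.isSquare_two_pow_mul_det hQ h2 hOG (toO Q g).1 L hL hg' he hs
      (by rw [hEq, LinearMap.det_toLin']; exact hd)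
    rw [hEq, LinearMap.det_toLin', Module.finrank_fintype_fun_eq_card] at h3
    exact h3

theorem coe3_pow {Q : QuadraticForm F (ι → F)} (g : ↥(Cfsg.Omega F ⇑Q)) (k : ℕ) :
    (((g ^ k).1.1 : GL ι F) : Matrix ι ι F) = ((g.1.1 : GL ι F) : Matrix ι ι F) ^ k := by
  simp

/-- Odd case, at the level of the group. -/
theorem omega_odd_bound (p : ℕ) [hp : Fact p.Prime] [CharP F p] {f u : ℕ} (hq : Fintype.card F = p ^ f)
    (hqu : Fintype.card F = 2 * u + 1) (hu : 1 ≤ u) (Q : QuadraticForm F (ι → F)) (hQ : (B Q).Nondegenerate)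
    (hd : Fintype.card ι = 9) (g : ↥(Cfsg.Omega F ⇑Q)) :
    ∃ a β, LL u p a β ∧ g ^ (a * p ^ β) = 1 := by
  have hodd : Odd (Fintype.card F) := ⟨u, hqu⟩
  obtain ⟨h1, h2, h3, h4, h5⟩ := omega_data Q hQ hodd g.1 g.2
  have hN : orderOf g ≠ 0 := (orderOf_pos g).ne'
  have hAN : (((g.1 : ↥(Cfsg.isometryGroup F ⇑Q)).1 : GL ι F) : Matrix ι ι F) ^ orderOf g = 1 := by
    rw [← coe3_pow, pow_orderOf_eq_one]
    rfl
  obtain ⟨a, β, hLL, h6⟩ := upper_odd p hq hqu hu _ _ h1 h2 h3 h4 hN hAN h5 hd
  refine ⟨a, β, hLL, ?_⟩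
  apply Subtype.ext
  apply Subtype.ext
  apply Units.ext
  simpa using h6

/-- Even case, at the level of the group. -/
theorem omega_even_bound (p : ℕ) [hp : Fact p.Prime] [CharP F p] {f u : ℕ} (hq : Fintype.card F = p ^ f)
    (hqu : Fintype.card F = 2 * u + 1) (hu : 1 ≤ u) (Q : QuadraticForm F (ι → F)) (hQ : (B Q).Nondegenerate)
    (hd : Fintype.card ι = 8) (g : ↥(Cfsg.Omega F ⇑Q)) :
    ∃ a β, LL u p a β ∧
      ∑ i ∈ Finset.range (a * p ^ β), ((((g.1 : ↥(Cfsg.isometryGroup F ⇑Q)).1 : GL ι F) : Matrix ι ι F)) ^ i = 0 := by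
  have hodd : Odd (Fintype.card F) := ⟨u, hqu⟩
  obtain ⟨h1, h2, h3, h4, h5⟩ := omega_data Q hQ hodd g.1 g.2
  have hN : orderOf g ≠ 0 := (orderOf_pos g).ne'
  have hAN : (((g.1 : ↥(Cfsg.isometryGroup F ⇑Q)).1 : GL ι F) : Matrix ι ι F) ^ orderOf g = 1 := by
    rw [← coe3_pow, pow_orderOf_eq_one]
    rfl
  exact upper_even p hq hqu hu _ _ h1 h2 h3 h4 hN hAN h5 hd

end group

end Cfsg.Agent.Lib.Om9
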