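import Mathlib
import Cfsg.Agent.Lib.Om9B
import Cfsg.Agent.Lib.GOmB
import Cfsg.Agent.Lib.OrthRealize
import Cfsg.Agent.Lib.QuadFF2
import Cfsg.Agent.Lib.OmegaOddClasses

/-!
# Types and spinor classes of quadratic spaces, odd characteristic
-/

set_option autoImplicit false
set_option linter.unusedSectionVars false
set_option linter.unusedSimpArgs false
set_option linter.unusedVariables false
set_option linter.style.haveILetI false

namespace Cfsg.Agent.Lib.Om9

open Module QuadraticMap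
open Cfsg.Agent.Lib.QuadFF Cfsg.Agent.Lib.OrthoCount Cfsg.Agent.Lib.QuadClass Cfsg.Agent.Lib.OrthRealize
open Cfsg.Agent.Lib.QuadClass2

section ty

variable {F : Type*} [Field F] [Fintype F]
variable {V W : Type*} [AddCommGroup V] [Module F V] [AddCommGroup W] [Module F W]

open Classical in
/-- The count type of a form. -/
def Ty (Q : QuadraticForm F V) (m : ℕ) (ε : ℤ) : Prop :=
  ∀ c : F, (Nat.card {v // Q v = c} : ℤ) * (Fintype.card F : ℤ) = (Fintype.card F : ℤ) ^ (2 * m) +
    ε * (Fintype.card F : ℤ) ^ m * ((if c = 0 then (Fintype.card F : ℤ) else 0) - 1)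

theorem Ty.congr {Q : QuadraticForm F V} {Q' : QuadraticForm F W} {m : ℕ} {ε : ℤ} (e : V ≃ₗ[F] W)
    (he : ∀ v, Q' (e v) = Q v) (h : Ty Q m ε) : Ty Q' m ε := by
  intro c
  rw [← natCard_fibre_congr e he c]
  exact h c

/-- Fibres of an orthogonal sum. -/
theorem card_fibre_prod [Finite V] [Finite W] (f : V → F) (f' : W → F) (c : F) :
    (Nat.card {v : V × W // f v.1 + f' v.2 = c} : ℤ) =
      ∑ a : F, (Nat.card {v // f v = a} : ℤ) * (Nat.card {w // f' w = c - a} : ℤ) := by
  classical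
  let e : {v : V × W // f v.1 + f' v.2 = c} ≃ Σ a : F, ({v // f v = a} × {w // f' w = c - a}) :=
    { toFun := fun p => ⟨f p.1.1, ⟨p.1.1, rfl⟩, ⟨p.1.2, eq_sub_of_add_eq' p.2⟩⟩
      invFun := fun s => ⟨(s.2.1.1, s.2.2.1), by
        show f s.2.1.1 + f' s.2.2.1 = c
        rw [s.2.1.2, s.2.2.2]
        ring⟩
      left_inv := fun p => rfl
      right_inv := by
        rintro ⟨a, ⟨v, hv⟩, ⟨w, hw⟩⟩
        subst hv
        rfl }
  rw [Nat.card_congr e, Nat.card_sigma]
  push_cast
  refine Finset.sum_congr rfl fun a _ => ?_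
  rw [Nat.card_prod]
  push_cast
  rfl

theorem Ty.prod [Finite V] [Finite W] {Q : QuadraticForm F V} {Q' : QuadraticForm F W} {m m' : ℕ} {ε ε' : ℤ}
    (h : Ty Q m ε) (h' : Ty Q' m' ε') : Ty (Q.prod Q') (m + m') (ε * ε') := by
  classical
  intro c
  set q : ℤ := (Fintype.card F : ℤ) with hq
  have hq0 : q ≠ 0 := by
    rw [hq]
    exact_mod_cast Fintype.card_ne_zero
  let d : F → ℤ := fun a => if a = 0 then q else 0
  have hd : ∀ a, (if a = 0 then q else 0) = d a := fun a => rfl
  have hN : ∀ a, (Nat.card {v // Q v = a} : ℤ) * q = q ^ (2 * m) + ε * q ^ m * (d a - 1) := by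
    intro a
    have := h a
    convert this
  have hN' : ∀ a, (Nat.card {v // Q' v = a} : ℤ) * q = q ^ (2 * m') + ε' * q ^ m' * (d a - 1) := by
    intro a
    have := h' a
    convert this
  have h1 : (Nat.card {v // (Q.prod Q') v = c} : ℤ) =
      ∑ a : F, (Nat.card {v // Q v = a} : ℤ) * (Nat.card {w // Q' w = c - a} : ℤ) :=
    card_fibre_prod (fun v => Q v) (fun w => Q' w) c
  have s0 : ∑ a : F, (1 : ℤ) = q := by
    simp [hq]
  have s1 : ∑ a : F, d a = q := by
    simp [d]
  have s2 : ∑ a : F, d (c - a) = q := by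
    rw [← s1]
    exact Fintype.sum_equiv (Equiv.subLeft c) _ _ (fun a => rfl)
  have s3 : ∑ a : F, d a * d (c - a) = q * d c := by
    rw [Finset.sum_eq_single (0 : F)]
    · simp [d]
    · intro a _ ha
      simp [d, ha]
    · intro h
      exact absurd (Finset.mem_univ _) h
  have key : ∑ a : F, (q ^ (2 * m) + ε * q ^ m * (d a - 1)) * (q ^ (2 * m') + ε' * q ^ m' * (d (c - a) - 1)) =
      q * (q ^ (2 * m) * q ^ (2 * m') + (ε * q ^ m) * (ε' * q ^ m') * (d c - 1)) := by
    have h2 : ∀ a : F, (q ^ (2 * m) + ε * q ^ m * (d a - 1)) * (q ^ (2 * m') + ε' * q ^ m' * (d (c - a) - 1)) =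
        (q ^ (2 * m) * q ^ (2 * m') + q ^ (2 * m) * (ε' * q ^ m') * (-1) + (ε * q ^ m) * q ^ (2 * m') * (-1) +
          (ε * q ^ m) * (ε' * q ^ m')) * 1 +
        (ε * q ^ m) * (q ^ (2 * m') - ε' * q ^ m') * d a +
        q ^ (2 * m) * (ε' * q ^ m') * d (c - a) - (ε * q ^ m) * (ε' * q ^ m') * d (c - a) +
        (ε * q ^ m) * (ε' * q ^ m') * (d a * d (c - a)) := by
      intro a
      ring
    simp only [h2, Finset.sum_add_distrib, Finset.sum_sub_distrib, ← Finset.mul_sum, s0, s1, s2, s3]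
    ring
  have h3 : (Nat.card {v // (Q.prod Q') v = c} : ℤ) * q * q =
      q * (q ^ (2 * m) * q ^ (2 * m') + (ε * q ^ m) * (ε' * q ^ m') * (d c - 1)) := by
    rw [h1, ← key, Finset.sum_mul, Finset.sum_mul]
    refine Finset.sum_congr rfl fun a _ => ?_
    rw [← hN, ← hN']
    ring
  have h4 : (Nat.card {v // (Q.prod Q') v = c} : ℤ) * q =
      q ^ (2 * m) * q ^ (2 * m') + (ε * q ^ m) * (ε' * q ^ m') * (d c - 1) := by
    apply mul_left_cancel₀ hq0
    rw [← h3]
    ring
  show _ * q = q ^ (2 * (m + m')) + ε * ε' * q ^ (m + m') * (_ - 1)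
  convert h4 using 1
  have : (if c = 0 then q else 0) = d c := rfl
  ring

theorem Ty_qPlus (m : ℕ) : Ty (qPlus (m + 1) F) (m + 1) 1 := by
  intro c
  by_cases hc : c = 0
  · subst hc
    rw [zeros_plus_succ m, if_pos rfl]
    ring
  · rw [fibre_plus m hc, if_neg hc]
    ring

theorem Ty_qMinus {ζ : F} (hζ : ∀ t : F, t ^ 2 + t + ζ ≠ 0) (k : ℕ) : Ty (qMinus k (1 : F) ζ) (k + 1) (-1) := by
  intro c
  by_cases hc : c = 0
  · subst hc
    rw [zeros_minus 1 ζ (ani_of_zeta hζ) k, if_pos rfl]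
    ring
  · rw [fibre_minus hζ k hc, if_neg hc]
    ring

/-- The dichotomy. -/
theorem Ty_or [FiniteDimensional F V] {m : ℕ} (hV : finrank F V = 2 * (m + 1)) (Q : QuadraticForm F V) (hQ : ND Q) :
    Ty Q (m + 1) 1 ∨ Ty Q (m + 1) (-1) := by
  rcases std_cases hV Q hQ with ⟨b, hb⟩ | ⟨k, hk, b, ζ, hb⟩
  · left
    obtain ⟨e, he⟩ := iso_qPlus_of_hyp hb
    exact (Ty_qPlus m).congr e.symm (fun v => by rw [← he, e.apply_symm_apply])
  · right
    obtain rfl : m = k := by omega
    obtain ⟨e, he⟩ := iso_of_minus_basis hQ hb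
    exact (Ty_qMinus hb.1 m).congr e.symm (fun v => by rw [← he, e.apply_symm_apply])

/-- The number of zeros. -/
theorem Ty.count0 {Q : QuadraticForm F V} {m : ℕ} {ε : ℤ} (h : Ty Q (m + 1) ε) :
    (Nat.card {v // Q v = 0} : ℤ) = (Fintype.card F : ℤ) ^ (2 * m + 1) +
      ε * ((Fintype.card F : ℤ) ^ (m + 1) - (Fintype.card F : ℤ) ^ m) := by
  have h1 := h 0
  rw [if_pos rfl] at h1
  have hq0 : (Fintype.card F : ℤ) ≠ 0 := by
    exact_mod_cast Fintype.card_ne_zero
  apply mul_right_cancel₀ hq0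
  rw [h1]
  ring

/-- A totally singular subspace of half the dimension gives the plus type. -/
theorem Ty_of_ts [FiniteDimensional F V] {m : ℕ} (hV : finrank F V = 2 * (m + 1)) {Q : QuadraticForm F V} (hQ : ND Q)
    (K : Submodule F V) (hK : ∀ v ∈ K, Q v = 0) (hKd : finrank F K = m + 1) : Ty Q (m + 1) 1 := by
  obtain ⟨b, hb⟩ := hyp_of_ts hV hQ K hK hKd
  obtain ⟨e, he⟩ := iso_qPlus_of_hyp hb
  exact (Ty_qPlus m).congr e.symm (fun v => by rw [← he, e.apply_symm_apply])

/-- The target form. -/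
theorem Ty.iso_minus [FiniteDimensional F V] {m : ℕ} (hV : finrank F V = 2 * (m + 1)) {Q : QuadraticForm F V} (hQ : ND Q)
    (h : Ty Q (m + 1) (-1)) (a b : F) (hab : ∀ x y : F, x ^ 2 + a * x * y + b * y ^ 2 = 0 → x = 0 ∧ y = 0) :
    ∃ e : V ≃ₗ[F] ((Fin m ⊕ Fin m) ⊕ Fin 2 → F), ∀ v, qMinus m a b (e v) = Q v := by
  apply iso_qMinus hV Q hQ _ a b hab
  rw [h.count0]
  have := count_ne (F := F) m
  intro h2
  apply this
  rw [← h2]
  ring

theorem ne_eps_of {ε : ℤ} (h : ε = 1 ∨ ε = -1) : ε ≠ 0 := by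
  rcases h with rfl | rfl <;> norm_num

/-- The one-dimensional forms. -/
noncomputable def lineQ (c : F) : QuadraticForm F F := c • (QuadraticMap.sq : QuadraticForm F F)

theorem lineQ_apply (c x : F) : lineQ c x = c * (x * x) := by
  simp [lineQ, QuadraticMap.sq]

theorem ND_prod' {Q : QuadraticForm F V} {Q' : QuadraticForm F W} (hQ : ND Q) (hQ' : ND Q') : ND (Q.prod Q') := by
  rintro ⟨x, x'⟩ h
  have h1 : x = 0 := by
    apply hQ
    intro y
    have := h (y, 0)
    simpa [polar, QuadraticMap.prod_apply, map_zero] using this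
  have h2 : x' = 0 := by
    apply hQ'
    intro y
    have := h (0, y)
    simpa [polar, QuadraticMap.prod_apply, map_zero] using this
  rw [h1, h2]
  rfl

theorem ND_lineQ (h2 : (2 : F) ≠ 0) {c : F} (hc : c ≠ 0) : ND (lineQ c) := by
  intro x hx
  have h1 := hx 1
  have h3 : polar (lineQ c) x 1 = 2 * c * x := by
    simp only [polar, lineQ_apply]
    ring
  rw [h3] at h1
  exact (mul_eq_zero.mp h1).resolve_left (mul_ne_zero h2 hc)

/-- The two twists of an odd-dimensional form have opposite types. -/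
theorem twist_sum [Finite V] (hF : ringChar F ≠ 2) (Q : QuadraticForm F V) {ν : F} (hν : ¬ IsSquare ν)
    (hν0 : ν ≠ 0) :
    (Nat.card {v // (Q.prod (lineQ 1)) v = 0} : ℤ) + (Nat.card {v // (Q.prod (lineQ ν)) v = 0} : ℤ) =
      2 * Nat.card V := by
  classical
  have h1 : ∀ c : F, (Nat.card {v // (Q.prod (lineQ c)) v = 0} : ℤ) =
      ∑ a : F, (Nat.card {v // Q v = a} : ℤ) * (Nat.card {w // lineQ c w = 0 - a} : ℤ) :=
    fun c => card_fibre_prod (fun v => Q v) (fun w => lineQ c w) 0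
  rw [h1, h1, ← Finset.sum_add_distrib]
  have hsq : ∀ b : F, (Nat.card {x : F // x ^ 2 = b} : ℤ) = quadraticChar F b + 1 := by
    intro b
    have := quadraticChar_card_sqrts hF b
    rw [Set.toFinset_setOf] at this
    rw [Nat.card_eq_fintype_card, Fintype.card_subtype]
    convert this
  have hc : ∀ c : F, c ≠ 0 → ∀ a : F, (Nat.card {w // lineQ c w = 0 - a} : ℤ) = quadraticChar F (-a / c) + 1 := by
    intro c hc0 a
    rw [← hsq]
    congr 1
    apply Nat.card_congr
    apply Equiv.subtypeEquivRight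
    intro w
    rw [lineQ_apply, _root_.sq]
    constructor
    · intro h3
      field_simp
      linear_combination h3
    · intro h3
      rw [h3]
      field_simp
      ring
  have h2 : ∀ a : F, (Nat.card {w // lineQ (1 : F) w = 0 - a} : ℤ) + (Nat.card {w // lineQ ν w = 0 - a} : ℤ) = 2 := by
    intro a
    rw [hc 1 one_ne_zero, hc ν hν0, div_one]
    have h3 : quadraticChar F ν = -1 := (quadraticChar_neg_one_iff_not_isSquare).mpr hν
    have h4 : quadraticChar F (-a / ν) * quadraticChar F ν = quadraticChar F (-a) := by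
      rw [← map_mul, div_mul_cancel₀ _ hν0]
    rw [h3] at h4
    linarith
  have h3 : ∀ a : F, (Nat.card {v // Q v = a} : ℤ) * (Nat.card {w // lineQ (1 : F) w = 0 - a} : ℤ) +
      (Nat.card {v // Q v = a} : ℤ) * (Nat.card {w // lineQ ν w = 0 - a} : ℤ) = 2 * (Nat.card {v // Q v = a} : ℤ) := by
    intro a
    rw [← mul_add, h2]
    ring
  rw [Finset.sum_congr rfl (fun a _ => h3 a), ← Finset.mul_sum]
  congr 1
  have h4 : Nat.card V = ∑ a : F, Nat.card {v // Q v = a} := by
    rw [← Nat.card_sigma]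
    exact (Nat.card_congr (Equiv.sigmaFiberEquiv (fun v => Q v))).symm
  rw [h4]
  push_cast
  rfl

/-- Both types occur among the twists of an odd-dimensional form. -/
theorem exists_twist [FiniteDimensional F V] (hF : ringChar F ≠ 2) {k : ℕ} (hV : finrank F V = 2 * k + 1)
    (Q : QuadraticForm F V) (hQ : ND Q) {ε : ℤ} (hε : ε = 1 ∨ ε = -1) :
    ∃ c : F, c ≠ 0 ∧ Ty (Q.prod (lineQ c)) (k + 1) ε := by
  classical
  haveI : Finite V := Module.finite_of_finite F
  have h2 : (2 : F) ≠ 0 := Ring.two_ne_zero hF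
  obtain ⟨ν, hν⟩ := FiniteField.exists_nonsquare hF
  have hν0 : ν ≠ 0 := by
    rintro rfl
    exact hν (IsSquare.zero)
  have hd : ∀ c : F, finrank F (V × F) = 2 * (k + 1) := by
    intro c
    rw [Module.finrank_prod, hV, Module.finrank_self]
    ring
  have hT1 := Ty_or (hd 1) (Q.prod (lineQ 1)) (ND_prod' hQ (ND_lineQ h2 one_ne_zero))
  have hTν := Ty_or (hd ν) (Q.prod (lineQ ν)) (ND_prod' hQ (ND_lineQ h2 hν0))
  have hsum := twist_sum hF Q hν hν0
  have hcard : Nat.card V = Fintype.card F ^ (2 * k + 1) := by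
    rw [Module.natCard_eq_pow_finrank (K := F), hV, Nat.card_eq_fintype_card]
  have hq1 : (1 : ℤ) < Fintype.card F := by
    exact_mod_cast Fintype.one_lt_card
  have hlt : (Fintype.card F : ℤ) ^ k < (Fintype.card F : ℤ) ^ (k + 1) := pow_lt_pow_right₀ hq1 (by omega)
  have hexcl : ∀ ε₁ ε₂ : ℤ, Ty (Q.prod (lineQ 1)) (k + 1) ε₁ → Ty (Q.prod (lineQ ν)) (k + 1) ε₂ → ε₁ + ε₂ = 0 := by
    intro ε₁ ε₂ h3 h4
    rw [h3.count0, h4.count0, hcard] at hsum
    push_cast at hsum
    have h5 : (ε₁ + ε₂) * ((Fintype.card F : ℤ) ^ (k + 1) - (Fintype.card F : ℤ) ^ k) = 0 := by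
      linear_combination hsum
    exact (mul_eq_zero.mp h5).resolve_right (by omega)
  rcases hε with rfl | rfl
  · rcases hT1 with h3 | h3
    · exact ⟨1, one_ne_zero, h3⟩
    · rcases hTν with h4 | h4
      · exact ⟨ν, hν0, h4⟩
      · have := hexcl _ _ h3 h4
        omega
  · rcases hT1 with h3 | h3
    · rcases hTν with h4 | h4
      · have := hexcl _ _ h3 h4
        omega
      · exact ⟨ν, hν0, h4⟩
    · exact ⟨1, one_ne_zero, h3⟩

end ty

section spin

open Cfsg.Agent.Lib.OrthGroup Cfsg.Agent.Lib.OrthOmega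

variable {F : Type*} [Field F]
variable {V W : Type*} [AddCommGroup V] [Module F V] [AddCommGroup W] [Module F W]

/-- `g` is an even product of reflections, with spinor class `s`. -/
def Sp (Q : QuadraticForm F V) (g : V ≃ₗ[F] V) (s : Prop) : Prop :=
  ∃ L : List V, (∀ v ∈ L, Q v ≠ 0) ∧ g = prodR Q L ∧ Even L.length ∧ (IsSquare (L.map Q).prod ↔ s)

theorem isSquare_mul_iff [Fintype F] (hF : ringChar F ≠ 2) {a b : F} (ha : a ≠ 0) (hb : b ≠ 0) :
    IsSquare (a * b) ↔ (IsSquare a ↔ IsSquare b) := by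
  classical
  have h1 := quadraticChar_dichotomy ha
  have h2 := quadraticChar_dichotomy hb
  rw [← quadraticChar_one_iff_isSquare (mul_ne_zero ha hb), map_mul,
    ← quadraticChar_one_iff_isSquare ha, ← quadraticChar_one_iff_isSquare hb]
  rcases h1 with h1 | h1 <;> rcases h2 with h2 | h2 <;> rw [h1, h2] <;> norm_num

theorem Sp.one (Q : QuadraticForm F V) : Sp Q 1 True :=
  ⟨[], by simp, by simp, by simp, by simp⟩

theorem refl_prod_left (Q : QuadraticForm F V) (Q' : QuadraticForm F W) (v : V) :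
    refl (Q.prod Q') (v, 0) = (refl Q v).prodCongr (LinearEquiv.refl F W) := by
  apply LinearEquiv.ext
  rintro ⟨x, y⟩
  rw [refl_apply]
  have h1 : B (Q.prod Q') (x, y) (v, 0) = B Q x v := by
    simp [B_apply, QuadraticMap.prod_apply]
  have h2 : (Q.prod Q') (v, 0) = Q v := by
    simp [QuadraticMap.prod_apply]
  rw [h1, h2]
  ext <;> simp [refl_apply]

theorem refl_prod_right (Q : QuadraticForm F V) (Q' : QuadraticForm F W) (v : W) :
    refl (Q.prod Q') (0, v) = (LinearEquiv.refl F V).prodCongr (refl Q' v) := by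
  apply LinearEquiv.ext
  rintro ⟨x, y⟩
  rw [refl_apply]
  have h1 : B (Q.prod Q') (x, y) (0, v) = B Q' y v := by
    simp [B_apply, QuadraticMap.prod_apply]
  have h2 : (Q.prod Q') (0, v) = Q' v := by
    simp [QuadraticMap.prod_apply]
  rw [h1, h2]
  ext <;> simp [refl_apply]

theorem prodR_prod_left (Q : QuadraticForm F V) (Q' : QuadraticForm F W) (L : List V) :
    prodR (Q.prod Q') (L.map (fun v => (v, (0 : W)))) = (prodR Q L).prodCongr (LinearEquiv.refl F W) := by
  induction L with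
  | nil =>
    apply LinearEquiv.ext
    rintro ⟨x, y⟩
    rfl
  | cons v L ih =>
    rw [List.map_cons, prodR_cons, prodR_cons, ih, refl_prod_left]
    apply LinearEquiv.ext
    rintro ⟨x, y⟩
    rfl

theorem prodR_prod_right (Q : QuadraticForm F V) (Q' : QuadraticForm F W) (L : List W) :
    prodR (Q.prod Q') (L.map (fun v => ((0 : V), v))) = (LinearEquiv.refl F V).prodCongr (prodR Q' L) := by
  induction L with
  | nil =>
    apply LinearEquiv.ext
    rintro ⟨x, y⟩
    rfl
  | cons v L ih =>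
    rw [List.map_cons, prodR_cons, prodR_cons, ih, refl_prod_right]
    apply LinearEquiv.ext
    rintro ⟨x, y⟩
    rfl

theorem list_prod_ne_zero {L : List V} {Q : V → F} (hL : ∀ v ∈ L, Q v ≠ 0) : (L.map Q).prod ≠ 0 := by
  apply List.prod_ne_zero
  intro h
  obtain ⟨v, hv, h0⟩ := List.mem_map.mp h
  exact hL v hv h0

/-- Orthogonal sums. -/
theorem Sp.prod [Fintype F] (hF : ringChar F ≠ 2) {Q : QuadraticForm F V} {Q' : QuadraticForm F W}
    {g : V ≃ₗ[F] V} {g' : W ≃ₗ[F] W} {s s' : Prop} (h : Sp Q g s) (h' : Sp Q' g' s') :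
    Sp (Q.prod Q') (g.prodCongr g') (s ↔ s') := by
  obtain ⟨L, hL, rfl, he, hs⟩ := h
  obtain ⟨L', hL', rfl, he', hs'⟩ := h'
  refine ⟨L.map (fun v => (v, (0 : W))) ++ L'.map (fun v => ((0 : V), v)), ?_, ?_, ?_, ?_⟩
  · intro v hv
    rcases List.mem_append.mp hv with h1 | h1
    · obtain ⟨w, hw, rfl⟩ := List.mem_map.mp h1
      simpa [QuadraticMap.prod_apply] using hL w hw
    · obtain ⟨w, hw, rfl⟩ := List.mem_map.mp h1
      simpa [QuadraticMap.prod_apply] using hL' w hw
  · rw [prodR_append, prodR_prod_left, prodR_prod_right]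
    apply LinearEquiv.ext
    rintro ⟨x, y⟩
    rfl
  · simp only [List.length_append, List.length_map]
    exact he.add he'
  · have h1 : ((L.map (fun v => (v, (0 : W))) ++ L'.map (fun v => ((0 : V), v))).map (Q.prod Q')).prod =
        (L.map Q).prod * (L'.map Q').prod := by
      simp only [List.map_append, List.map_map, List.prod_append]
      congr 2
      · apply List.map_congr_left
        intro v _
        simp [QuadraticMap.prod_apply]
      · apply List.map_congr_left
        intro v _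
        simp [QuadraticMap.prod_apply]
    rw [h1, isSquare_mul_iff hF (list_prod_ne_zero hL) (list_prod_ne_zero hL'), hs, hs']

theorem refl_transport {Q : QuadraticForm F V} {Q' : QuadraticForm F W} (e : V ≃ₗ[F] W)
    (he : ∀ v, Q' (e v) = Q v) (v x : V) : refl Q' (e v) (e x) = e (refl Q v x) := by
  rw [refl_apply, refl_apply, he, map_sub, map_smul]
  have h1 : B Q' (e x) (e v) = B Q x v := by
    rw [B_apply, B_apply, ← map_add, he, he, he]
  rw [h1]

theorem prodR_transport {Q : QuadraticForm F V} {Q' : QuadraticForm F W} (e : V ≃ₗ[F] W)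
    (he : ∀ v, Q' (e v) = Q v) (L : List V) :
    prodR Q' (L.map e) = e.symm.trans ((prodR Q L).trans e) := by
  induction L with
  | nil =>
    apply LinearEquiv.ext
    intro x
    simp
  | cons v L ih =>
    rw [List.map_cons, prodR_cons, prodR_cons, ih]
    apply LinearEquiv.ext
    intro x
    show refl Q' (e v) (e ((prodR Q L) (e.symm x))) = e (refl Q v (prodR Q L (e.symm x)))
    rw [refl_transport e he]

theorem Sp.transport {Q : QuadraticForm F V} {Q' : QuadraticForm F W} (e : V ≃ₗ[F] W)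
    (he : ∀ v, Q' (e v) = Q v) {g : V ≃ₗ[F] V} {s : Prop} (h : Sp Q g s) :
    Sp Q' (e.symm.trans (g.trans e)) s := by
  obtain ⟨L, hL, rfl, hev, hs⟩ := h
  refine ⟨L.map e, ?_, (prodR_transport e he L).symm, by simpa using hev, ?_⟩
  · intro v hv
    obtain ⟨w, hw, rfl⟩ := List.mem_map.mp hv
    rw [he]
    exact hL w hw
  · have h1 : ((L.map e).map Q') = L.map Q := by
      rw [List.map_map]
      apply List.map_congr_left
      intro v _
      exact he v
    rw [h1, hs]

theorem refl_scale (Q : QuadraticForm F V) {c : F} (hc : c ≠ 0) (v : V) : refl (c • Q) v = refl Q v := by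
  apply LinearEquiv.ext
  intro x
  rw [refl_apply, refl_apply]
  have h1 : B (c • Q) x v = c * B Q x v := by
    simp only [B_apply, QuadraticMap.smul_apply, smul_eq_mul]
    ring
  have h2 : (c • Q) v = c * Q v := by
    simp
  rw [h1, h2]
  congr 2
  by_cases h3 : Q v = 0
  · simp [h3]
  · field_simp

theorem Sp.scale {Q : QuadraticForm F V} {c : F} (hc : c ≠ 0) {g : V ≃ₗ[F] V} {s : Prop} (h : Sp Q g s) :
    Sp (c • Q) g s := by
  obtain ⟨L, hL, rfl, hev, hs⟩ := h
  refine ⟨L, ?_, ?_, hev, ?_⟩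
  · intro v hv
    simpa [hc] using hL v hv
  · have : ∀ L : List V, prodR Q L = prodR (c • Q) L := by
      intro L
      induction L with
      | nil => rfl
      | cons v L ih => rw [prodR_cons, prodR_cons, ih, refl_scale Q hc]
    exact this L
  · have : ∀ L : List V, (L.map (c • Q)).prod = c ^ L.length * (L.map Q).prod := by
      intro L
      induction L with
      | nil => simp
      | cons v L ih =>
        simp only [List.map_cons, List.prod_cons, List.length_cons, ih, QuadraticMap.smul_apply, smul_eq_mul]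
        ring
    rw [this L, ← hs]
    obtain ⟨k, hk⟩ := hev
    constructor
    · rintro ⟨r, hr⟩
      refine ⟨r / c ^ k, ?_⟩
      have h5 : c ^ k ≠ 0 := pow_ne_zero _ hc
      rw [hk, pow_add] at hr
      field_simp
      field_simp at hr
      linear_combination hr
    · rintro ⟨r, hr⟩
      refine ⟨c ^ k * r, ?_⟩
      rw [hk, pow_add, hr]
      ring

theorem Sp.square {Q : QuadraticForm F V} (hOG : O Q ≤ G Q) {g : V ≃ₗ[F] V} (hg : g ∈ O Q) : Sp Q (g * g) True := by
  obtain ⟨L, hL, rfl⟩ := exists_list_of_mem_G (hOG hg)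
  refine ⟨L ++ L, ?_, (prodR_append Q L L).symm, ?_, ?_⟩
  · intro v hv
    rcases List.mem_append.mp hv with h | h <;> exact hL v h
  · simp
  · simp only [List.map_append, List.prod_append, iff_true]
    exact ⟨_, rfl⟩

theorem Sp.of_odd {Q : QuadraticForm F V} (hOG : O Q ≤ G Q) {g : V ≃ₗ[F] V} (hg : g ∈ O Q) {n : ℕ}
    (hn : g ^ n = 1) (hodd : Odd n) : Sp Q g True := by
  obtain ⟨k, rfl⟩ := hodd
  have h1 : g = g ^ (k + 1) * g ^ (k + 1) := by
    rw [← pow_add]
    have : k + 1 + (k + 1) = 2 * k + 1 + 1 := by ring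
    rw [this, pow_succ, hn, one_mul]
  rw [h1]
  exact Sp.square hOG ((O Q).pow_mem hg _)

/-- The contrapositive of Zassenhaus' formula. -/
theorem Sp.of_nonsq [Fintype F] [FiniteDimensional F V] {Q : QuadraticForm F V} (hQ : (B Q).Nondegenerate)
    (h2 : (2 : F) ≠ 0) (hOG : O Q ≤ G Q) {g : V ≃ₗ[F] V} (hg : g ∈ O Q)
    (hfix : Even (finrank F (fix g) + finrank F V))
    (hd : LinearMap.det ((g : V →ₗ[F] V) + LinearMap.id) ≠ 0)
    (hns : ¬ IsSquare ((2 : F) ^ finrank F V * LinearMap.det ((g : V →ₗ[F] V) + LinearMap.id))) :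
    Sp Q g False := by
  obtain ⟨L, hL, rfl⟩ := exists_list_of_mem_G (hOG hg)
  have he : Even L.length := by
    have h3 := parity_prodR hQ L hL
    rcases Nat.even_or_odd L.length with h4 | h4
    · exact h4
    · exfalso
      obtain ⟨a, ha⟩ := hfix
      obtain ⟨b, hb⟩ := h4
      obtain ⟨c, hc⟩ := h3
      omega
  refine ⟨L, hL, rfl, he, ?_⟩
  rw [iff_false]
  intro hs
  exact hns (Cfsg.Agent.Lib.SpecBC.isSquare_two_pow_mul_det hQ h2 hOG _ L hL rfl he hs hd)

/-- Squares of orthogonal elements have trivial class; transport of the generation hypothesis. -/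
theorem hOG_of [Fintype F] [FiniteDimensional F V] (hF : Fintype.card F ≠ 2) {Q : QuadraticForm F V}
    (hQ : (B Q).Nondegenerate) : O Q ≤ G Q :=
  O_le_G hQ (Or.inl (Cfsg.Agent.Lib.OrthMatrix.exists_ne_zero_one_of_card_ne_two hF))

end spin

section blocks

open Cfsg.Agent.Lib.OrthGroup Cfsg.Agent.Lib.OrthOmega

variable {F : Type*} [Field F] [Fintype F]
variable {V W : Type*} [AddCommGroup V] [Module F V] [AddCommGroup W] [Module F W]

/-- The norm of a linear automorphism. -/
def Nm (n : ℕ) (g : V ≃ₗ[F] V) (x : V) : V := ∑ i ∈ Finset.range n, (g ^ i) x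

variable (F) in
/-- A block: a form on `F^(2m)` of type `ε` with an isometry of order `n` and spinor class `s`;
if `z` holds, the norm of this isometry does not vanish. -/
def Bk (m : ℕ) (ε : ℤ) (s : Prop) (n : ℕ) (z : Prop) : Prop :=
  ∃ (Q : QuadraticForm F (Fin (2 * m) → F)) (g : (Fin (2 * m) → F) ≃ₗ[F] (Fin (2 * m) → F)),
    ND Q ∧ Ty Q m ε ∧ Sp Q g s ∧ orderOf g = n ∧ (z → ∃ v, Nm n g v ≠ 0)

/-- Conjugation by a linear equivalence. -/
def conjEquiv (e : V ≃ₗ[F] W) : (V ≃ₗ[F] V) ≃* (W ≃ₗ[F] W) where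
  toFun g := e.symm.trans (g.trans e)
  invFun g := e.trans (g.trans e.symm)
  left_inv g := by
    apply LinearEquiv.ext
    intro x
    simp
  right_inv g := by
    apply LinearEquiv.ext
    intro x
    simp
  map_mul' a b := by
    apply LinearEquiv.ext
    intro x
    simp [LinearEquiv.mul_apply]

theorem conjEquiv_apply (e : V ≃ₗ[F] W) (g : V ≃ₗ[F] V) : conjEquiv e g = e.symm.trans (g.trans e) := rfl

theorem Nm_conj (e : V ≃ₗ[F] W) (n : ℕ) (g : V ≃ₗ[F] V) (x : V) :
    Nm n (conjEquiv e g) (e x) = e (Nm n g x) := by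
  unfold Nm
  rw [map_sum]
  refine Finset.sum_congr rfl fun i _ => ?_
  rw [← map_pow, conjEquiv_apply]
  simp

theorem ND.transport {Q : QuadraticForm F V} {Q' : QuadraticForm F W} (e : V ≃ₗ[F] W)
    (he : ∀ v, Q' (e v) = Q v) (hQ : ND Q) : ND Q' := by
  intro x hx
  have h1 : e.symm x = 0 := by
    apply hQ
    intro y
    have h2 := hx (e y)
    simp only [polar, ← map_add] at h2 ⊢
    have h3 : Q (e.symm x + y) = Q' (x + e y) := by
      rw [← he, map_add, e.apply_symm_apply]
    have h4 : Q (e.symm x) = Q' x := by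
      rw [← he, e.apply_symm_apply]
    rw [h3, h4, ← he y]
    exact h2
  simpa using h1

/-- Transport from any finite space. -/
theorem Bk.of [FiniteDimensional F V] {m : ℕ} {ε : ℤ} {s : Prop} {n : ℕ} {z : Prop}
    (hd : finrank F V = 2 * m) (Q : QuadraticForm F V) (hQ : ND Q) (hT : Ty Q m ε) (g : V ≃ₗ[F] V)
    (hS : Sp Q g s) (hg : orderOf g = n) (hz : z → ∃ v, Nm n g v ≠ 0) : Bk F m ε s n z := by
  classical
  have hfr : finrank F V = finrank F (Fin (2 * m) → F) := by simp [hd]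
  let e : V ≃ₗ[F] (Fin (2 * m) → F) := LinearEquiv.ofFinrankEq _ _ hfr
  let Q' : QuadraticForm F (Fin (2 * m) → F) := Q.comp e.symm.toLinearMap
  have hQ' : ∀ v, Q' (e v) = Q v := by
    intro v
    simp [Q']
  refine ⟨Q', conjEquiv e g, ND.transport e hQ' hQ, hT.congr e hQ', hS.transport e hQ', ?_, ?_⟩
  · rw [MulEquiv.orderOf_eq, hg]
  · intro hz'
    obtain ⟨v, hv⟩ := hz hz'
    refine ⟨e v, ?_⟩
    rw [Nm_conj]
    simpa using hv

/-- The product of linear automorphisms, as a homomorphism. -/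
def prodHom (V W : Type*) [AddCommGroup V] [Module F V] [AddCommGroup W] [Module F W] :
    (V ≃ₗ[F] V) × (W ≃ₗ[F] W) →* ((V × W) ≃ₗ[F] (V × W)) where
  toFun g := g.1.prodCongr g.2
  map_one' := by
    apply LinearEquiv.ext
    rintro ⟨x, y⟩
    rfl
  map_mul' a b := by
    apply LinearEquiv.ext
    rintro ⟨x, y⟩
    rfl

theorem prodHom_injective : Function.Injective (prodHom (F := F) V W) := by
  intro a b h
  apply Prod.ext
  · apply LinearEquiv.ext
    intro x
    have := congrArg (fun φ : (V × W) ≃ₗ[F] (V × W) => (φ (x, 0)).1) h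
    simpa [prodHom] using this
  · apply LinearEquiv.ext
    intro x
    have := congrArg (fun φ : (V × W) ≃ₗ[F] (V × W) => (φ (0, x)).2) h
    simpa [prodHom] using this

theorem orderOf_prodCongr (g : V ≃ₗ[F] V) (g' : W ≃ₗ[F] W) :
    orderOf (g.prodCongr g') = Nat.lcm (orderOf g) (orderOf g') := by
  have h1 : g.prodCongr g' = prodHom (F := F) V W (g, g') := rfl
  rw [h1, orderOf_injective _ prodHom_injective, Prod.orderOf_mk]

theorem pow_prodCongr (g : V ≃ₗ[F] V) (g' : W ≃ₗ[F] W) (i : ℕ) :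
    (g.prodCongr g') ^ i = (g ^ i).prodCongr (g' ^ i) := by
  have h1 : g.prodCongr g' = prodHom (F := F) V W (g, g') := rfl
  rw [h1, ← map_pow]
  rfl

theorem Nm_prod (n : ℕ) (g : V ≃ₗ[F] V) (g' : W ≃ₗ[F] W) (x : V) (y : W) :
    Nm n (g.prodCongr g') (x, y) = (Nm n g x, Nm n g' y) := by
  unfold Nm
  apply Prod.ext
  · rw [Prod.fst_sum]
    refine Finset.sum_congr rfl fun i _ => ?_
    rw [pow_prodCongr]
    rfl
  · rw [Prod.snd_sum]
    refine Finset.sum_congr rfl fun i _ => ?_
    rw [pow_prodCongr]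
    rfl

theorem Nm_mul (g : V ≃ₗ[F] V) {n : ℕ} (hn : g ^ n = 1) (c : ℕ) (x : V) :
    Nm (c * n) g x = (c : F) • Nm n g x := by
  induction c with
  | zero => simp [Nm]
  | succ c ih =>
    rw [add_mul, one_mul]
    unfold Nm at *
    rw [Finset.sum_range_add, ih]
    have h1 : ∀ i, (g ^ (c * n + i)) x = (g ^ i) x := by
      intro i
      rw [pow_add, pow_mul', hn, one_pow, one_mul]
    simp only [h1]
    push_cast
    rw [add_smul, one_smul]

theorem finite_leq [Finite V] : Finite (V ≃ₗ[F] V) :=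
  Finite.of_injective (fun g => (g : V → V)) (fun _ _ h => LinearEquiv.coe_injective h)

/-- Orthogonal sums of blocks. -/
theorem Bk.sum (hF : ringChar F ≠ 2) {m m' m'' : ℕ} {ε ε' ε'' : ℤ} {s s' s'' : Prop} {n n' n'' : ℕ} {z₁ z z'' : Prop}
    (h : Bk F m ε s n z₁) (h' : Bk F m' ε' s' n' z)
    (hm : m'' = m + m') (hε : ε'' = ε * ε') (hs : s'' ↔ (s ↔ s')) (hn : n'' = Nat.lcm n n')
    (hz'' : z'' → z) (hz : z → ((n'' / n' : ℕ) : F) ≠ 0) : Bk F m'' ε'' s'' n'' z'' := by
  classical
  obtain ⟨Q, g, hQ, hT, hS, rfl, -⟩ := h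
  obtain ⟨Q', g', hQ', hT', hS', rfl, hN⟩ := h'
  subst hm hε hn
  have hs2 : s'' = (s ↔ s') := propext hs
  subst hs2
  refine Bk.of (V := (Fin (2 * m) → F) × (Fin (2 * m') → F)) ?_ (Q.prod Q') (ND_prod' hQ hQ') (hT.prod hT')
    (g.prodCongr g') (hS.prod hF hS') (orderOf_prodCongr g g') ?_
  · simp
    ring
  · intro hz2
    have hz3 := hz'' hz2
    obtain ⟨w, hw⟩ := hN hz3
    refine ⟨(0, w), ?_⟩
    rw [Nm_prod]
    intro h0
    have h1 := congrArg Prod.snd h0
    simp only [Prod.snd_zero] at h1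
    haveI := finite_leq (F := F) (V := Fin (2 * m') → F)
    have h2 : orderOf g' ∣ Nat.lcm (orderOf g) (orderOf g') := Nat.dvd_lcm_right _ _
    obtain ⟨c, hc⟩ := h2
    have h3 : Nat.lcm (orderOf g) (orderOf g') / orderOf g' = c := by
      rw [hc]
      exact Nat.mul_div_cancel_left _ (orderOf_pos g')
    have h4 := hz hz3
    rw [h3] at h4
    rw [hc, Nat.mul_comm (orderOf g') c, Nm_mul g' (pow_orderOf_eq_one g')] at h1
    exact hw ((smul_eq_zero.mp h1).resolve_left h4)

end blocks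

end Cfsg.Agent.Lib.Om9
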