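import Mathlib
import Cfsg.Agent.Lib.Om9C
import Cfsg.Agent.Lib.SpSpecTorus

/-!
# Blocks in odd characteristic: tori
-/

set_option autoImplicit false
set_option linter.unusedSectionVars false
set_option linter.unusedSimpArgs false
set_option linter.unusedVariables false
set_option linter.style.haveILetI false

namespace Cfsg.Agent.Lib.Om9

open Module QuadraticMap
open Cfsg.Agent.Lib.QuadFF Cfsg.Agent.Lib.OrthoCount Cfsg.Agent.Lib.QuadClass Cfsg.Agent.Lib.OrthRealize
open Cfsg.Agent.Lib.GOm (trQ trQ_apply polar_trQ ND_trQ hypK hypK_apply polar_hypK ND_hypK gPlus gPlusHom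
  gPlusHom_injective mem_range_of_pow_card)
open Cfsg.Agent.Lib.OrthGroup Cfsg.Agent.Lib.OrthOmega
open Cfsg.Agent.Lib.SpSpec (exists_unit_order)

section basic

variable {F : Type*} [Field F] [Fintype F]

theorem ringChar_ne_two_of_odd (hodd : Odd (Fintype.card F)) : ringChar F ≠ 2 := by
  intro h
  have h1 := FiniteField.even_card_iff_char_two.mp h
  obtain ⟨k, hk⟩ := hodd
  omega

theorem card_ne_two_of_odd (hodd : Odd (Fintype.card F)) : Fintype.card F ≠ 2 := by
  intro h
  rw [h] at hodd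
  exact absurd hodd (by decide)

theorem two_ne_of_odd (hodd : Odd (Fintype.card F)) : (2 : F) ≠ 0 :=
  Ring.two_ne_zero (ringChar_ne_two_of_odd hodd)

end basic

section norm

variable {F K : Type*} [Field F] [Fintype F] [Field K] [Fintype K] [Algebra F K]

theorem isSquare_norm_iff (hodd : Odd (Fintype.card F)) {x : K} (hx : x ≠ 0) :
    IsSquare (Algebra.norm F x) ↔ x ^ ((Fintype.card K - 1) / 2) = 1 := by
  classical
  have hF := ringChar_ne_two_of_odd hodd
  have hN : Algebra.norm F x ≠ 0 := Algebra.norm_ne_zero_iff.mpr hx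
  rw [FiniteField.isSquare_iff hF hN]
  have h1 := FiniteField.algebraMap_norm_eq_pow (K := F) (K' := K) (x := x)
  rw [Nat.card_eq_fintype_card, Nat.card_eq_fintype_card] at h1
  obtain ⟨u, hu⟩ := hodd
  have hq2 : Fintype.card F / 2 = u := by omega
  have hq1 : Fintype.card F - 1 = 2 * u := by omega
  have hcard : Fintype.card K = Fintype.card F ^ finrank F K := Module.card_eq_pow_finrank
  have hdvd : Fintype.card F - 1 ∣ Fintype.card K - 1 := by
    rw [hcard]
    have := Nat.sub_dvd_pow_sub_pow (Fintype.card F) 1 (finrank F K)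
    rwa [one_pow] at this
  obtain ⟨c, hc⟩ := hdvd
  have hu0 : 0 < u := by
    have : 1 < Fintype.card F := Fintype.one_lt_card
    omega
  have h2 : (Fintype.card K - 1) / (Fintype.card F - 1) = c := by
    rw [hc]
    exact Nat.mul_div_cancel_left _ (by omega)
  have h3 : (Fintype.card K - 1) / 2 = c * u := by
    rw [hc, hq1]
    have : 2 * u * c = 2 * (c * u) := by ring
    rw [this]
    exact Nat.mul_div_cancel_left _ (by omega)
  rw [h2] at h1
  rw [h3, hq2, pow_mul, ← h1, ← map_pow (algebraMap F K)]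
  constructor
  · intro h
    rw [h, map_one]
  · intro h
    apply (algebraMap F K).injective
    rw [h, map_one]

end norm

section hyp

variable {F K : Type*} [Field F] [Fintype F] [Field K] [Fintype K] [Algebra F K]

/-- The hyperbolic form over `F` on `K × K`. -/
noncomputable abbrev hypF (F K : Type*) [Field F] [Field K] [Fintype K] [Algebra F K] : QuadraticForm F (K × K) :=
  trQ (F := F) (hypK K)

theorem ND_hypF [Finite F] : ND (hypF F K) := ND_trQ _ ND_hypK

theorem gPlus_mem (η : Kˣ) : gPlus η ∈ O (hypF F K) := by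
  exact (gPlusHom F η).2

theorem orderOf_gPlus (η : Kˣ) : orderOf (gPlus (F := F) η) = orderOf η := by
  have h1 : orderOf (gPlus (F := F) η) = orderOf (gPlusHom F η) := by
    rw [← Subgroup.orderOf_coe]
    rfl
  rw [h1, orderOf_injective _ (gPlusHom_injective F)]

theorem gPlus_mul (a b : Kˣ) : gPlus (F := F) (a * b) = gPlus a * gPlus b := by
  have := (gPlusHom F).map_mul a b
  exact congrArg Subtype.val this

theorem Ty_hypF {e : ℕ} (he : e ≠ 0) (hfr : finrank F K = e) : Ty (hypF F K) e 1 := by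
  obtain ⟨k, rfl⟩ : ∃ k, e = k + 1 := ⟨e - 1, by omega⟩
  haveI : FiniteDimensional F K := Module.Finite.of_finite
  apply Ty_of_ts (by rw [finrank_prod, hfr]; ring) ND_hypF (LinearMap.range (LinearMap.inl F K K))
  · rintro _ ⟨x, rfl⟩
    rw [trQ_apply, hypK_apply]
    simp
  · rw [LinearMap.finrank_range_of_inj LinearMap.inl_injective, hfr]

/-- The square of a generator. -/
theorem hyp_sq (hodd : Odd (Fintype.card F)) {e : ℕ} (he : e ≠ 0) (hK : Fintype.card K = Fintype.card F ^ e)
    (hfr : finrank F K = e) : Bk F e 1 True ((Fintype.card F ^ e - 1) / 2) False := by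
  classical
  haveI : FiniteDimensional F K := Module.Finite.of_finite
  obtain ⟨η, hη⟩ := exists_unit_order K (Fintype.card F ^ e - 1) (by rw [hK])
  have hOG := hOG_of (V := K × K) (card_ne_two_of_odd hodd) (nondegenerate_of_ND (ND_hypF (F := F) (K := K)))
  have hevn : 2 ∣ Fintype.card F ^ e - 1 := by
    have h1 : Odd (Fintype.card F ^ e) := hodd.pow
    obtain ⟨k, hk⟩ := h1
    rw [hk]
    exact ⟨k, by omega⟩
  have hq : 0 < Fintype.card F ^ e - 1 := by
    have h1 : 1 < Fintype.card F ^ e := Nat.one_lt_pow he Fintype.one_lt_card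
    omega
  refine Bk.of (by rw [finrank_prod, hfr]; ring) (hypF F K) ND_hypF (Ty_hypF he hfr) (gPlus (η * η)) ?_ ?_
    (fun h => h.elim)
  · rw [gPlus_mul]
    exact Sp.square hOG (gPlus_mem η)
  · rw [orderOf_gPlus, ← pow_two, ← hη]
    rw [orderOf_pow, hη, Nat.gcd_eq_right hevn]

theorem gPlus_fix {η : Kˣ} (h1 : η ≠ 1) {x : K × K} (hx : gPlus (F := F) η x = x) : x = 0 := by
  have h2 : (η : K) ≠ 1 := fun h => h1 (Units.ext h)
  have h3 : (η : K) * x.1 = x.1 := congrArg Prod.fst hx
  have h4 : ((η⁻¹ : Kˣ) : K) * x.2 = x.2 := congrArg Prod.snd hx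
  have h5 : ((η⁻¹ : Kˣ) : K) ≠ 1 := by
    intro h
    apply h2
    have h6 : (η : K) * ((η⁻¹ : Kˣ) : K) = 1 := Units.mul_inv η
    rw [h, mul_one] at h6
    exact h6
  apply Prod.ext
  · have : ((η : K) - 1) * x.1 = 0 := by
      rw [sub_mul, h3, one_mul, sub_self]
    exact (mul_eq_zero.mp this).resolve_left (sub_ne_zero.mpr h2)
  · have : (((η⁻¹ : Kˣ) : K) - 1) * x.2 = 0 := by
      rw [sub_mul, h4, one_mul, sub_self]
    exact (mul_eq_zero.mp this).resolve_left (sub_ne_zero.mpr h5)

/-- A generator has the nontrivial spinor class, in degree at least two. -/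
theorem hyp_gen (hodd : Odd (Fintype.card F)) {e : ℕ} (he : 2 ≤ e) (hK : Fintype.card K = Fintype.card F ^ e)
    (hfr : finrank F K = e) : Bk F e 1 False (Fintype.card F ^ e - 1) False := by
  classical
  haveI : FiniteDimensional F K := Module.Finite.of_finite
  obtain ⟨η, hη⟩ := exists_unit_order K (Fintype.card F ^ e - 1) (by rw [hK])
  have hQ : (B (hypF F K)).Nondegenerate := nondegenerate_of_ND (ND_hypF (F := F) (K := K))
  have hOG := hOG_of (V := K × K) (card_ne_two_of_odd hodd) hQ
  have h2 := two_ne_of_odd hodd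
  have h2K : (2 : K) ≠ 0 := by
    intro h
    apply h2
    apply (algebraMap F K).injective
    rw [map_ofNat, h, map_zero]
  have hq3 : 3 ≤ Fintype.card F := by
    have h3 := Fintype.one_lt_card (α := F)
    obtain ⟨k, hk⟩ := hodd
    omega
  have hN : 8 ≤ Fintype.card F ^ e - 1 := by
    have h3 : 3 ^ 2 ≤ Fintype.card F ^ e :=
      (Nat.pow_le_pow_left hq3 2).trans (Nat.pow_le_pow_right (by omega) he)
    omega
  have hη1 : η ≠ 1 := by
    rintro rfl
    rw [orderOf_one] at hη
    omega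
  have hηm : (η : K) ≠ -1 := by
    intro h
    have h3 : η ^ 2 = 1 := by
      apply Units.ext
      rw [Units.val_pow_eq_pow_val, h]
      simp
    have h4 := orderOf_dvd_of_pow_eq_one h3
    rw [hη] at h4
    have := Nat.le_of_dvd (by norm_num) h4
    omega
  have h1η : (1 + η : K) ≠ 0 := by
    intro h
    apply hηm
    linear_combination h
  set M := (Fintype.card K - 1) / 2 with hM
  have hηM : (η : K) ^ M ≠ 1 := by
    intro h
    have h3 : η ^ M = 1 := by
      apply Units.ext
      rw [Units.val_pow_eq_pow_val, h]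
      rfl
    have h4 := orderOf_dvd_of_pow_eq_one h3
    rw [hη, ← hK] at h4
    have h5 := Nat.le_of_dvd ?_ h4
    · omega
    · have h6 : Odd (Fintype.card K) := by
        rw [hK]
        exact hodd.pow
      obtain ⟨k, hk⟩ := h6
      omega
  refine Bk.of (by rw [finrank_prod, hfr]; ring) (hypF F K) ND_hypF (Ty_hypF (by omega) hfr) (gPlus η) ?_ ?_
    (fun h => h.elim)
  · have hEq : ((gPlus (F := F) η : (K × K) ≃ₗ[F] (K × K)) : (K × K) →ₗ[F] (K × K)) + LinearMap.id =
        LinearMap.prodMap (Algebra.lmul F K (1 + η)) (Algebra.lmul F K (1 + ((η⁻¹ : Kˣ) : K))) := by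
      apply LinearMap.ext
      rintro ⟨x, y⟩
      apply Prod.ext
      · show (η : K) * x + x = (1 + (η : K)) * x
        ring
      · show ((η⁻¹ : Kˣ) : K) * y + y = (1 + ((η⁻¹ : Kˣ) : K)) * y
        ring
    have hdet : LinearMap.det (((gPlus (F := F) η : (K × K) ≃ₗ[F] (K × K)) : (K × K) →ₗ[F] (K × K)) + LinearMap.id) =
        Algebra.norm F (1 + (η : K)) * Algebra.norm F (1 + ((η⁻¹ : Kˣ) : K)) := by
      rw [hEq, LinearMap.det_prodMap]
      rfl
    have hinv : (1 + ((η⁻¹ : Kˣ) : K)) = (1 + (η : K)) * ((η⁻¹ : Kˣ) : K) := by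
      have h6 : (η : K) * ((η⁻¹ : Kˣ) : K) = 1 := Units.mul_inv η
      linear_combination -h6
    have ha0 : Algebra.norm F (1 + (η : K)) ≠ 0 := Algebra.norm_ne_zero_iff.mpr h1η
    have hinv0 : ((η⁻¹ : Kˣ) : K) ≠ 0 := Units.ne_zero _
    refine Sp.of_nonsq hQ h2 hOG (gPlus_mem η) ?_ ?_ ?_
    · have hfix : fix (gPlus (F := F) η) = ⊥ := by
        rw [eq_bot_iff]
        intro x hx
        rw [mem_fix] at hx
        rw [Submodule.mem_bot]
        exact gPlus_fix hη1 hx
      rw [hfix, finrank_bot, zero_add, finrank_prod, hfr]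
      exact ⟨e, rfl⟩
    · rw [hdet, hinv, map_mul]
      exact mul_ne_zero ha0 (mul_ne_zero ha0 (Algebra.norm_ne_zero_iff.mpr hinv0))
    · rw [hdet, finrank_prod, hfr, hinv, map_mul]
      rintro ⟨r, hr⟩
      have h7 : IsSquare (Algebra.norm F ((η⁻¹ : Kˣ) : K)) := by
        refine ⟨r / (2 ^ e * Algebra.norm F (1 + (η : K))), ?_⟩
        have h8 : (2 : F) ^ e ≠ 0 := pow_ne_zero _ h2
        field_simp
        have h10 : (2 : F) ^ (e + e) = (2 ^ e) ^ 2 := by ring
        rw [h10] at hr
        linear_combination hr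
      rw [isSquare_norm_iff hodd hinv0] at h7
      apply hηM
      have h9 : (η : K) ^ M * ((η⁻¹ : Kˣ) : K) ^ M = 1 := by
        rw [← mul_pow, Units.mul_inv, one_pow]
      rw [h7, mul_one] at h9
      exact h9
  · rw [orderOf_gPlus, hη]

/-- The hyperbolic plane over the prime-to-two part: the reflection product is explicit. -/
theorem hyp1_gen (hodd : Odd (Fintype.card F)) : Bk F 1 1 False (Fintype.card F - 1) False := by
  classical
  have hF := ringChar_ne_two_of_odd hodd
  obtain ⟨η, hη⟩ := exists_unit_order F (Fintype.card F - 1) dvd_rfl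
  have hQ : ND (hypK F) := by
    intro x hx
    by_contra hne
    obtain ⟨v, hv⟩ := ND_hypK x hne
    exact hv (hx v)
  have hd : finrank F (F × F) = 2 * 1 := by
    rw [finrank_prod, finrank_self]
  have hT : Ty (hypK F) 1 1 := by
    apply Ty_of_ts hd hQ (LinearMap.range (LinearMap.inl F F F))
    · rintro _ ⟨x, rfl⟩
      rw [hypK_apply]
      simp
    · rw [LinearMap.finrank_range_of_inj LinearMap.inl_injective, finrank_self]
  have h0 : (η : F) ≠ 0 := Units.ne_zero η
  have hnon : ¬ IsSquare (η : F) := by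
    rw [FiniteField.isSquare_iff hF h0]
    intro h
    have h3 : η ^ (Fintype.card F / 2) = 1 := by
      apply Units.ext
      rw [Units.val_pow_eq_pow_val, h]
      rfl
    have h4 := orderOf_dvd_of_pow_eq_one h3
    rw [hη] at h4
    have h5 := Fintype.one_lt_card (α := F)
    obtain ⟨k, hk⟩ := hodd
    have h6 := Nat.le_of_dvd (by omega) h4
    omega
  refine Bk.of hd (hypK F) hQ hT (gPlus (F := F) η) ?_ ?_ (fun h => h.elim)
  · refine ⟨[(1, 1), (1, (η : F))], ?_, ?_, ?_, ?_⟩
    · intro v hv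
      simp only [List.mem_cons, List.not_mem_nil, or_false] at hv
      rcases hv with rfl | rfl
      · simp [hypK_apply]
      · simp [hypK_apply]
    · rw [prodR_cons, prodR_cons, prodR_nil, mul_one]
      apply LinearEquiv.ext
      rintro ⟨x, y⟩
      show ((η : F) * x, ((η⁻¹ : Fˣ) : F) * y) = refl (hypK F) (1, 1) (refl (hypK F) (1, (η : F)) (x, y))
      have hinv : ((η⁻¹ : Fˣ) : F) = (η : F)⁻¹ := by simp
      rw [hinv, refl_apply, refl_apply]
      have hB : ∀ u v : F × F, B (hypK F) u v = u.1 * v.2 + u.2 * v.1 := polar_hypK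
      simp only [hB, hypK_apply]
      apply Prod.ext
      · simp
        field_simp
        ring
      · simp
        field_simp
        ring
    · exact ⟨1, rfl⟩
    · simp only [List.map_cons, List.map_nil, List.prod_cons, List.prod_nil, hypK_apply, mul_one, one_mul]
      simpa using hnon
  · have : orderOf (gPlus (F := F) η) = orderOf η := by
      have h1 : ∀ a b : Fˣ, gPlus (F := F) (a * b) = gPlus a * gPlus b := by
        intro a b
        apply LinearEquiv.ext
        intro x
        apply Prod.ext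
        · show ((a * b : Fˣ) : F) * x.1 = (a : F) * ((b : F) * x.1)
          simp [mul_assoc]
        · show (((a * b)⁻¹ : Fˣ) : F) * x.2 = ((a⁻¹ : Fˣ) : F) * (((b⁻¹ : Fˣ) : F) * x.2)
          rw [mul_inv_rev, ← mul_assoc, ← Units.val_mul, mul_comm (b⁻¹) (a⁻¹)]
      let φ : Fˣ →* ((F × F) ≃ₗ[F] (F × F)) :=
        { toFun := gPlus (F := F)
          map_one' := by
            apply LinearEquiv.ext
            intro x
            apply Prod.ext <;> simp [gPlus]
          map_mul' := h1 }
      have hinj : Function.Injective φ := by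
        intro a b h
        have h2 := congrArg (fun g : (F × F) ≃ₗ[F] (F × F) => (g (1, 0)).1) h
        apply Units.ext
        have h3 : (a : F) * 1 = (b : F) * 1 := h2
        simpa using h3
      exact orderOf_injective φ hinj η
    rw [this, hη]

end hyp

section ell

variable {F K : Type*} [Field F] [Fintype F] [Field K] [Fintype K] [Algebra F K]

/-- The function underlying the elliptic form. -/
noncomputable def ellF (σ : K ≃ₐ[F] K) (x : K) : F := (2 : F)⁻¹ * Algebra.trace F K (x * σ x)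

theorem polar_ellF (h2 : (2 : F) ≠ 0) (σ : K ≃ₐ[F] K) (hσ : ∀ x, σ (σ x) = x) (x y : K) :
    polar (ellF σ) x y = Algebra.trace F K (x * σ y) := by
  have h1 : Algebra.trace F K (y * σ x) = Algebra.trace F K (x * σ y) := by
    rw [← Algebra.trace_eq_of_algEquiv σ (y * σ x), map_mul, hσ, mul_comm]
  simp only [polar, ellF]
  have h3 : (x + y) * σ (x + y) = x * σ x + y * σ y + x * σ y + y * σ x := by
    rw [map_add]
    ring
  rw [h3, map_add, map_add, map_add, h1]
  field_simp
  ring

/-- The elliptic form. -/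
noncomputable def ellQ (h2 : (2 : F) ≠ 0) (σ : K ≃ₐ[F] K) (hσ : ∀ x, σ (σ x) = x) : QuadraticForm F K :=
  QuadraticMap.ofPolar (ellF σ)
    (by
      intro a x
      simp only [ellF, map_smul, smul_eq_mul]
      have h3 : (a • x) * (a • σ x) = (a * a) • (x * σ x) := by
        rw [smul_mul_smul_comm]
      rw [h3, map_smul, smul_eq_mul]
      ring)
    (by
      intro x x' y
      rw [polar_ellF h2 σ hσ, polar_ellF h2 σ hσ, polar_ellF h2 σ hσ, add_mul, map_add])
    (by
      intro a x y
      rw [polar_ellF h2 σ hσ, polar_ellF h2 σ hσ, smul_mul_assoc, map_smul])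

theorem ellQ_apply (h2 : (2 : F) ≠ 0) (σ : K ≃ₐ[F] K) (hσ : ∀ x, σ (σ x) = x) (x : K) :
    ellQ h2 σ hσ x = (2 : F)⁻¹ * Algebra.trace F K (x * σ x) := rfl

theorem polar_ellQ (h2 : (2 : F) ≠ 0) (σ : K ≃ₐ[F] K) (hσ : ∀ x, σ (σ x) = x) (x y : K) :
    polar (ellQ h2 σ hσ) x y = Algebra.trace F K (x * σ y) :=
  polar_ellF h2 σ hσ x y

theorem ND_ellQ (h2 : (2 : F) ≠ 0) (σ : K ≃ₐ[F] K) (hσ : ∀ x, σ (σ x) = x) : ND (ellQ h2 σ hσ) := by
  intro x hx
  by_contra hne
  obtain ⟨s, hs⟩ := Algebra.trace_surjective F K (1 : F)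
  have h3 := hx (σ (s / x))
  rw [polar_ellQ, hσ, mul_div_cancel₀ _ hne, hs] at h3
  exact one_ne_zero h3

/-- Multiplication by a unit. -/
noncomputable def mulHom (F : Type*) [Field F] [Fintype F] [Algebra F K] : Kˣ →* (K ≃ₗ[F] K) where
  toFun t :=
    { toFun := fun x => (t : K) * x
      invFun := fun x => ((t⁻¹ : Kˣ) : K) * x
      map_add' := fun x y => mul_add _ _ _
      map_smul' := fun c x => by simp [mul_smul_comm]
      left_inv := fun x => by simp
      right_inv := fun x => by simp }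
  map_one' := by
    apply LinearEquiv.ext
    intro x
    show ((1 : Kˣ) : K) * x = x
    simp
  map_mul' a b := by
    apply LinearEquiv.ext
    intro x
    show ((a * b : Kˣ) : K) * x = (a : K) * ((b : K) * x)
    simp [mul_assoc]

theorem mulHom_apply (t : Kˣ) (x : K) : mulHom F t x = (t : K) * x := rfl

theorem mulHom_injective : Function.Injective (mulHom (K := K) F) := by
  intro a b h
  have h2 := congrArg (fun g : K ≃ₗ[F] K => g 1) h
  apply Units.ext
  simpa [mulHom_apply] using h2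

theorem mulHom_mem (h2 : (2 : F) ≠ 0) (σ : K ≃ₐ[F] K) (hσ : ∀ x, σ (σ x) = x) {t : Kˣ}
    (ht : (t : K) * σ t = 1) : mulHom F t ∈ O (ellQ h2 σ hσ) := by
  intro x
  rw [mulHom_apply, ellQ_apply, ellQ_apply, map_mul σ]
  have h3 : (t : K) * x * (σ t * σ x) = ((t : K) * σ t) * (x * σ x) := by ring
  rw [h3, ht, one_mul]

/-- Parameters of the elliptic block. -/
theorem ell_block (hodd : Odd (Fintype.card F)) {e Λ : ℕ} (σ : K ≃ₐ[F] K) (hσ : ∀ x, σ (σ x) = x)
    (hσΛ : ∀ x, σ x = x ^ Λ) (hc : Fintype.card K = Λ ^ 2) (hΛ : Λ = Fintype.card F ^ e)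
    (hfr : finrank F K = 2 * e) (he : e ≠ 0) (hTy : Ty (ellQ (two_ne_of_odd hodd) σ hσ) e (-1)) :
    Bk F e (-1) False (Λ + 1) False ∧ Bk F e (-1) True ((Λ + 1) / 2) False := by
  classical
  haveI : FiniteDimensional F K := Module.Finite.of_finite
  have h2 := two_ne_of_odd hodd
  have h2K : (2 : K) ≠ 0 := by
    intro h
    apply h2
    apply (algebraMap F K).injective
    rw [map_ofNat, h, map_zero]
  have hΛodd : Odd Λ := by
    rw [hΛ]
    exact hodd.pow
  obtain ⟨w, hw⟩ := hΛodd
  have hΛ3 : 3 ≤ Λ := by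
    have h3 := Fintype.one_lt_card (α := F)
    have h4 : 3 ≤ Fintype.card F := by
      obtain ⟨k, hk⟩ := hodd
      omega
    rw [hΛ]
    calc 3 = 3 ^ 1 := rfl
      _ ≤ Fintype.card F ^ 1 := Nat.pow_le_pow_left h4 1
      _ ≤ _ := Nat.pow_le_pow_right (by omega) (by omega)
  have hdvd : Λ + 1 ∣ Fintype.card K - 1 := by
    rw [hc]
    refine ⟨Λ - 1, ?_⟩
    obtain ⟨r, rfl⟩ : ∃ r, Λ = r + 1 := ⟨Λ - 1, by omega⟩
    have : (r + 1) ^ 2 - 1 = (r + 1 + 1) * r := by
      have h5 : (r + 1) ^ 2 = (r + 1 + 1) * r + 1 := by ring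
      omega
    simpa using this
  obtain ⟨t, ht⟩ := exists_unit_order K (Λ + 1) hdvd
  have htΛ : (t : K) * σ t = 1 := by
    rw [hσΛ, ← pow_succ']
    rw [← Units.val_pow_eq_pow_val, ← ht, pow_orderOf_eq_one]
    rfl
  have hQ : ND (ellQ h2 σ hσ) := ND_ellQ h2 σ hσ
  have hQ' : (B (ellQ h2 σ hσ)).Nondegenerate := nondegenerate_of_ND hQ
  have hOG := hOG_of (V := K) (card_ne_two_of_odd hodd) hQ'
  have hmem := mulHom_mem h2 σ hσ htΛ
  have hord : ∀ a : Kˣ, orderOf (mulHom F a) = orderOf a := fun a => orderOf_injective _ mulHom_injective a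
  constructor
  · have ht1 : t ≠ 1 := by
      rintro rfl
      rw [orderOf_one] at ht
      omega
    have htm : (t : K) ≠ -1 := by
      intro h
      have h3 : t ^ 2 = 1 := by
        apply Units.ext
        rw [Units.val_pow_eq_pow_val, h]
        simp
      have h4 := orderOf_dvd_of_pow_eq_one h3
      rw [ht] at h4
      have := Nat.le_of_dvd (by norm_num) h4
      omega
    have h1t : (1 + t : K) ≠ 0 := by
      intro h
      apply htm
      linear_combination h
    have hw1 : (Λ + 1) / 2 = w + 1 := by omega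
    have hw2 : (t : K) ^ (w + 1) = -1 := by
      have h3 : ((t : K) ^ (w + 1)) ^ 2 = 1 := by
        rw [← pow_mul]
        have : (w + 1) * 2 = Λ + 1 := by omega
        rw [this, ← Units.val_pow_eq_pow_val, ← ht, pow_orderOf_eq_one]
        rfl
      have h4 : ((t : K) ^ (w + 1) - 1) * ((t : K) ^ (w + 1) + 1) = 0 := by
        linear_combination h3
      rcases mul_eq_zero.mp h4 with h5 | h5
      · exfalso
        have h6 : t ^ (w + 1) = 1 := by
          apply Units.ext
          rw [Units.val_pow_eq_pow_val, sub_eq_zero.mp h5]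
          rfl
        have h7 := orderOf_dvd_of_pow_eq_one h6
        rw [ht] at h7
        have := Nat.le_of_dvd (by omega) h7
        omega
      · exact eq_neg_of_add_eq_zero_left h5
    have hpow : (1 + (t : K)) ^ Λ = (1 + t) * ((t⁻¹ : Kˣ) : K) := by
      have h3 : (1 + (t : K)) ^ Λ = σ (1 + t) := (hσΛ _).symm
      rw [h3, map_add, map_one]
      have h4 : σ (t : K) = ((t⁻¹ : Kˣ) : K) := by
        have h5 : (t : K) * ((t⁻¹ : Kˣ) : K) = 1 := Units.mul_inv t
        apply mul_left_cancel₀ (Units.ne_zero t)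
        rw [htΛ, h5]
      rw [h4]
      have h5 : (t : K) * ((t⁻¹ : Kˣ) : K) = 1 := Units.mul_inv t
      linear_combination -h5
    have hpow2 : (1 + (t : K)) ^ (Λ - 1) = ((t⁻¹ : Kˣ) : K) := by
      apply mul_left_cancel₀ h1t
      rw [← pow_succ']
      have : Λ - 1 + 1 = Λ := by omega
      rw [this, hpow]
    have hbig : (1 + (t : K)) ^ ((Fintype.card K - 1) / 2) ≠ 1 := by
      have h3 : (Fintype.card K - 1) / 2 = (Λ - 1) * (w + 1) := by
        rw [hc]
        have h5 : Λ ^ 2 - 1 = 2 * ((Λ - 1) * (w + 1)) := by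
          obtain ⟨r, hr⟩ : ∃ r, Λ = 2 * r + 1 := ⟨w, hw⟩
          have hrw : r = w := by omega
          subst hrw
          rw [hr]
          have h6 : (2 * r + 1) ^ 2 = 2 * ((2 * r + 1 - 1) * (r + 1)) + 1 := by
            have : 2 * r + 1 - 1 = 2 * r := by omega
            rw [this]
            ring
          omega
        rw [h5]
        exact Nat.mul_div_cancel_left _ (by norm_num)
      rw [h3, pow_mul, hpow2]
      intro h4
      have h5 : ((t⁻¹ : Kˣ) : K) ^ (w + 1) * (t : K) ^ (w + 1) = 1 := by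
        rw [← mul_pow, Units.inv_mul, one_pow]
      rw [h4, hw2, one_mul] at h5
      apply h2K
      linear_combination -h5
    refine Bk.of (by rw [hfr]) (ellQ h2 σ hσ) hQ hTy (mulHom F t) ?_ (by rw [hord, ht]) (fun h => h.elim)
    have hEq : ((mulHom F t : K ≃ₗ[F] K) : K →ₗ[F] K) + LinearMap.id = Algebra.lmul F K (1 + t) := by
      apply LinearMap.ext
      intro x
      show (t : K) * x + x = (1 + (t : K)) * x
      ring
    have hdet : LinearMap.det (((mulHom F t : K ≃ₗ[F] K) : K →ₗ[F] K) + LinearMap.id) = Algebra.norm F (1 + (t : K)) := by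
      rw [hEq]
      rfl
    have hN0 : Algebra.norm F (1 + (t : K)) ≠ 0 := Algebra.norm_ne_zero_iff.mpr h1t
    refine Sp.of_nonsq hQ' h2 hOG hmem ?_ ?_ ?_
    · have hfix : fix (mulHom F t) = ⊥ := by
        rw [eq_bot_iff]
        intro x hx
        rw [mem_fix, mulHom_apply] at hx
        rw [Submodule.mem_bot]
        have h3 : ((t : K) - 1) * x = 0 := by
          rw [sub_mul, hx, one_mul, sub_self]
        refine (mul_eq_zero.mp h3).resolve_left (sub_ne_zero.mpr ?_)
        intro h4
        exact ht1 (Units.ext h4)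
      rw [hfix, finrank_bot, zero_add, hfr]
      exact even_two_mul e
    · rw [hdet]
      exact hN0
    · rw [hdet, hfr]
      rintro ⟨r, hr⟩
      have h7 : IsSquare (Algebra.norm F (1 + (t : K))) := by
        refine ⟨r / 2 ^ e, ?_⟩
        have h8 : (2 : F) ^ e ≠ 0 := pow_ne_zero _ h2
        field_simp
        have h10 : (2 : F) ^ (2 * e) = (2 ^ e) ^ 2 := by ring
        rw [h10] at hr
        linear_combination hr
      rw [isSquare_norm_iff hodd h1t] at h7
      exact hbig h7
  · have hdvd2 : 2 ∣ Λ + 1 := ⟨w + 1, by omega⟩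
    refine Bk.of (by rw [hfr]) (ellQ h2 σ hσ) hQ hTy (mulHom F (t * t)) ?_ ?_ (fun h => h.elim)
    · rw [map_mul]
      exact Sp.square hOG hmem
    · rw [hord, ← pow_two, orderOf_pow, ht, Nat.gcd_eq_right hdvd2]

/-- The type, when the degree is one. -/
theorem ell_ty_one (hodd : Odd (Fintype.card F)) (σ : K ≃ₐ[F] K) (hσ : ∀ x, σ (σ x) = x)
    (hσq : ∀ x, σ x = x ^ Fintype.card F) (hfr : finrank F K = 2) :
    Ty (ellQ (two_ne_of_odd hodd) σ hσ) 1 (-1) := by
  classical
  haveI : FiniteDimensional F K := Module.Finite.of_finite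
  have h2 := two_ne_of_odd hodd
  have hani : ∀ x : K, ellQ h2 σ hσ x = 0 → x = 0 := by
    intro x hx
    have h3 : (x * σ x) ^ Fintype.card F = x * σ x := by
      rw [← hσq, map_mul, hσ, mul_comm]
    obtain ⟨c, hc⟩ := mem_range_of_pow_card (K := F) h3
    rw [ellQ_apply, ← hc, Algebra.trace_algebraMap, hfr] at hx
    have h4 : c = 0 := by
      have h5 : (2 : F)⁻¹ * (2 • c) = c := by
        rw [two_smul]
        field_simp
        ring
      rw [← h5]
      exact hx
    rw [h4, map_zero] at hc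
    rcases mul_eq_zero.mp hc.symm with h5 | h5
    · exact h5
    · simpa using h5
  rcases Ty_or (m := 0) (by rw [hfr]) (ellQ h2 σ hσ) (ND_ellQ h2 σ hσ) with h3 | h3
  · exfalso
    have h4 := h3.count0
    have h5 : Nat.card {v // ellQ h2 σ hσ v = 0} = 1 := by
      rw [Nat.card_eq_one_iff_unique]
      refine ⟨⟨?_⟩, ⟨⟨0, map_zero _⟩⟩⟩
      rintro ⟨a, ha⟩ ⟨b, hb⟩
      apply Subtype.ext
      exact (hani a ha).trans (hani b hb).symm
    rw [h5] at h4
    have hq : (1 : ℤ) < Fintype.card F := by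
      exact_mod_cast Fintype.one_lt_card
    norm_num at h4
    omega
  · exact h3

/-- The type, given an odd prime divisor of `q ^ e + 1`. -/
theorem ell_ty_big (hodd : Odd (Fintype.card F)) (σ : K ≃ₐ[F] K) (hσ : ∀ x, σ (σ x) = x) {k Λ : ℕ}
    (hσΛ : ∀ x, σ x = x ^ Λ) (hc : Fintype.card K = Λ ^ 2) (hΛ : Λ = Fintype.card F ^ (k + 1))
    (hfr : finrank F K = 2 * (k + 1)) {r : ℕ} (hr : r.Prime) (hr2 : r ≠ 2) (hrd : r ∣ Λ + 1) :
    Ty (ellQ (two_ne_of_odd hodd) σ hσ) (k + 1) (-1) := by
  classical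
  haveI : FiniteDimensional F K := Module.Finite.of_finite
  haveI : Finite K := inferInstance
  haveI : Fact r.Prime := ⟨hr⟩
  have h2 := two_ne_of_odd hodd
  rcases Ty_or (m := k) hfr (ellQ h2 σ hσ) (ND_ellQ h2 σ hσ) with h3 | h3
  · exfalso
    have hdvd : r ∣ Fintype.card K - 1 := by
      rw [hc]
      refine hrd.trans ⟨Λ - 1, ?_⟩
      have h1 : 1 ≤ Λ := by
        rw [hΛ]
        exact Nat.one_le_pow _ _ Fintype.card_pos
      obtain ⟨n, rfl⟩ : ∃ n, Λ = n + 1 := ⟨Λ - 1, by omega⟩
      have : (n + 1) ^ 2 - 1 = (n + 1 + 1) * n := by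
        have h5 : (n + 1) ^ 2 = (n + 1 + 1) * n + 1 := by ring
        omega
      simpa using this
    obtain ⟨t, ht⟩ := exists_unit_order K r hdvd
    have hpow : (t : K) ^ r = 1 := by
      rw [← Units.val_pow_eq_pow_val, ← ht, pow_orderOf_eq_one]
      rfl
    have htσ : (t : K) * σ t = 1 := by
      rw [hσΛ, ← pow_succ']
      obtain ⟨c, hc'⟩ := hrd
      rw [hc', pow_mul, hpow, one_pow]
    have ht1 : (t : K) ≠ 1 := by
      intro h
      have h4 : t = 1 := Units.ext h
      rw [h4, orderOf_one] at ht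
      exact hr.one_lt.ne ht
    let T : K →ₗ[F] K := ((mulHom F t : K ≃ₗ[F] K) : K →ₗ[F] K)
    have hT : ∀ x, ellQ h2 σ hσ (T x) = ellQ h2 σ hσ x := fun x => mulHom_mem h2 σ hσ htσ x
    have hTpow : ∀ n : ℕ, ∀ x, (T ^ n) x = (t : K) ^ n * x := by
      intro n
      induction n with
      | zero => simp
      | succ n ih =>
        intro x
        rw [pow_succ, Module.End.mul_apply, ih]
        show (t : K) ^ n * ((t : K) * x) = _
        ring
    have hTr : T ^ r = 1 := by
      apply LinearMap.ext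
      intro x
      rw [hTpow, hpow, one_mul]
      rfl
    have hfree : ∀ x, T x = x → x = 0 := by
      intro x hx
      have h4 : ((t : K) - 1) * x = 0 := by
        have h5 : (t : K) * x = x := hx
        rw [sub_mul, h5, one_mul, sub_self]
      exact (mul_eq_zero.mp h4).resolve_left (sub_ne_zero.mpr ht1)
    have h5 := dvd_fibre (ellQ h2 σ hσ) T hT hTr hfree (c := (1 : F)) one_ne_zero
    -- compare with the count of the plus type
    have h6 := h3 1
    rw [if_neg (one_ne_zero)] at h6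
    have hq0 : (Fintype.card F : ℤ) ≠ 0 := by
      exact_mod_cast Fintype.card_ne_zero
    have h7 : (Nat.card {v // ellQ h2 σ hσ v = 1} : ℤ) =
        (Fintype.card F : ℤ) ^ k * ((Fintype.card F : ℤ) ^ (k + 1) - 1) := by
      apply mul_right_cancel₀ hq0
      rw [h6]
      ring
    have h8 : (r : ℤ) ∣ (Fintype.card F : ℤ) ^ k * ((Fintype.card F : ℤ) ^ (k + 1) - 1) := by
      rw [← h7]
      exact_mod_cast h5
    have hrq : ¬ (r : ℤ) ∣ (Fintype.card F : ℤ) := by
      intro h9
      have h10 : r ∣ Fintype.card F := by exact_mod_cast h9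
      have h11 : r ∣ Fintype.card F ^ (k + 1) := h10.trans (dvd_pow_self _ (by omega))
      rw [← hΛ] at h11
      have h12 := (Nat.dvd_add_right h11).mp hrd
      exact hr.one_lt.ne' (Nat.dvd_one.mp h12)
    have hrp : Prime (r : ℤ) := Nat.prime_iff_prime_int.mp hr
    have h9 : (r : ℤ) ∣ (Fintype.card F : ℤ) ^ (k + 1) - 1 := by
      rcases hrp.dvd_or_dvd h8 with h10 | h10
      · exact absurd (hrp.dvd_of_dvd_pow h10) hrq
      · exact h10
    have h10 : (r : ℤ) ∣ (Fintype.card F : ℤ) ^ (k + 1) + 1 := by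
      have : (r : ℤ) ∣ ((Λ + 1 : ℕ) : ℤ) := by exact_mod_cast hrd
      rw [hΛ] at this
      push_cast at this
      exact this
    have h11 : (r : ℤ) ∣ 2 := by
      have := dvd_sub h10 h9
      have h12 : (Fintype.card F : ℤ) ^ (k + 1) + 1 - ((Fintype.card F : ℤ) ^ (k + 1) - 1) = 2 := by ring
      rwa [h12] at this
    have h12 : r ∣ 2 := by exact_mod_cast h11
    exact hr2 ((Nat.prime_dvd_prime_iff_eq hr Nat.prime_two).mp h12)
  · exact h3

/-- The involution of the extension of degree `2 e`. -/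
theorem exists_sigma {e Λ : ℕ} (hΛ : Λ = Fintype.card F ^ e) (hc : Fintype.card K = Λ ^ 2) :
    ∃ σ : K ≃ₐ[F] K, (∀ x, σ (σ x) = x) ∧ ∀ x, σ x = x ^ Λ := by
  refine ⟨(FiniteField.frobeniusAlgEquivOfAlgebraic F K) ^ e, ?_, ?_⟩
  · have h1 : ∀ x, ((FiniteField.frobeniusAlgEquivOfAlgebraic F K) ^ e) x = x ^ Λ := by
      intro x
      rw [AlgEquiv.coe_pow, FiniteField.coe_frobeniusAlgEquivOfAlgebraic_iterate, hΛ]
    intro x
    rw [h1, h1, ← pow_mul, ← _root_.sq, ← hc, FiniteField.pow_card]
  · intro x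
    rw [AlgEquiv.coe_pow, FiniteField.coe_frobeniusAlgEquivOfAlgebraic_iterate, hΛ]

end ell

section ellmain

variable {F : Type*} [Field F] [Fintype F]

/-- The elliptic block, given that the type is known. -/
theorem ell_main (p : ℕ) [hp : Fact p.Prime] [CharP F p] (hodd : Odd (Fintype.card F)) {e : ℕ} (he : e ≠ 0)
    (hr : e = 1 ∨ ∃ r : ℕ, r.Prime ∧ r ≠ 2 ∧ r ∣ Fintype.card F ^ e + 1) :
    Bk F e (-1) False (Fintype.card F ^ e + 1) False ∧ Bk F e (-1) True ((Fintype.card F ^ e + 1) / 2) False := by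
  classical
  haveI : NeZero (2 * e) := ⟨by omega⟩
  let K := FiniteField.Extension F p (2 * e)
  haveI : Fintype K := Fintype.ofFinite K
  have hfr : finrank F K = 2 * e := FiniteField.finrank_extension F p (2 * e)
  set Λ := Fintype.card F ^ e with hΛ
  have hcard : Fintype.card K = Λ ^ 2 := by
    rw [← Nat.card_eq_fintype_card, FiniteField.natCard_extension F p (2 * e), Nat.card_eq_fintype_card, hΛ, ← pow_mul,
      mul_comm]
  obtain ⟨σ, hσ, hσΛ⟩ := exists_sigma (F := F) (K := K) hΛ hcard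
  refine ell_block hodd σ hσ hσΛ hcard hΛ hfr he ?_
  rcases hr with rfl | ⟨r, hr, hr2, hrd⟩
  · exact ell_ty_one hodd σ hσ (fun x => by rw [hσΛ, hΛ, pow_one]) (by rw [hfr])
  · obtain ⟨k, rfl⟩ : ∃ k, e = k + 1 := ⟨e - 1, by omega⟩
    exact ell_ty_big hodd σ hσ hσΛ hcard hΛ hfr hr hr2 hrd

end ellmain

end Cfsg.Agent.Lib.Om9
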