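import Mathlib
import Cfsg.Agent.Lib.Om9D

/-!
# Unipotent blocks in orthogonal groups, odd characteristic
-/

set_option autoImplicit false
set_option linter.unusedSectionVars false
set_option linter.unusedSimpArgs false
set_option linter.unusedVariables false
set_option linter.style.haveILetI false

namespace Cfsg.Agent.Lib.Om9

open Module QuadraticMap Polynomial Matrix
open Cfsg.Agent.Lib.QuadFF Cfsg.Agent.Lib.OrthoCount Cfsg.Agent.Lib.QuadClass
open Cfsg.Agent.Lib.OrthGroup Cfsg.Agent.Lib.OrthOmega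

section shift

variable {F : Type*} [Field F]

/-- The shift matrix. -/
def shiftM (r : ℕ) : Matrix (Fin r) (Fin r) F := Matrix.of fun i j => if (i : ℕ) = j + 1 then 1 else 0

theorem shiftM_pow (r k : ℕ) (i j : Fin r) :
    (shiftM r ^ k : Matrix (Fin r) (Fin r) F) i j = if (i : ℕ) = j + k then 1 else 0 := by
  induction k generalizing i j with
  | zero =>
    rw [pow_zero, Matrix.one_apply]
    simp [Fin.ext_iff]
  | succ k ih =>
    rw [pow_succ, Matrix.mul_apply]
    by_cases hj : (j : ℕ) + 1 < r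
    · rw [Finset.sum_eq_single (⟨j + 1, hj⟩ : Fin r)]
      · rw [ih]
        simp only [shiftM, Matrix.of_apply, if_true]
        rw [mul_one]
        by_cases h : (i : ℕ) = j + 1 + k
        · rw [if_pos h, if_pos (by omega)]
        · rw [if_neg h, if_neg (by omega)]
      · intro l _ hl
        have : (l : ℕ) ≠ j + 1 := fun h => hl (Fin.ext h)
        simp [shiftM, this]
      · intro h
        exact absurd (Finset.mem_univ _) h
    · rw [Finset.sum_eq_zero]
      · have h1 : (i : ℕ) ≠ j + (k + 1) := by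
          have := i.2
          omega
        simp [h1]
      · intro l _
        have h1 : (l : ℕ) ≠ j + 1 := by
          have := l.2
          omega
        simp [shiftM, h1]

theorem shiftM_pow_eq_zero (r : ℕ) : (shiftM r ^ r : Matrix (Fin r) (Fin r) F) = 0 := by
  ext i j
  rw [shiftM_pow]
  have h1 : (i : ℕ) ≠ j + r := by
    have := i.2
    omega
  simp [h1]

theorem shiftM_pow_ne_zero {r : ℕ} (hr : r ≠ 0) : (shiftM r ^ (r - 1) : Matrix (Fin r) (Fin r) F) ≠ 0 := by
  intro h
  have h1 := congrFun (congrFun h ⟨r - 1, by omega⟩) ⟨0, by omega⟩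
  rw [shiftM_pow] at h1
  simp at h1

/-- The antidiagonal form. -/
def antiG (r : ℕ) : Matrix (Fin r) (Fin r) F := Matrix.of fun i j => if (i : ℕ) + j + 1 = r then (-1) ^ (i : ℕ) else 0

theorem antiG_symm {r : ℕ} (hr : Odd r) : (antiG r : Matrix (Fin r) (Fin r) F).transpose = antiG r := by
  ext i j
  simp only [antiG, Matrix.transpose_apply, Matrix.of_apply]
  by_cases h : (j : ℕ) + i + 1 = r
  · have h1 : (i : ℕ) + j + 1 = r := by omega
    rw [if_pos h, if_pos h1]
    obtain ⟨s, hs⟩ := hr
    have h2 : Even ((i : ℕ) + j) := ⟨s, by omega⟩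
    have h3 := h2.neg_one_pow (α := F)
    rw [pow_add] at h3
    have h4 : ((-1 : F) ^ (j : ℕ)) * (-1) ^ (j : ℕ) = 1 := by
      rw [← pow_add, ← two_mul, pow_mul]
      simp
    have h5 : (-1 : F) ^ (i : ℕ) = (-1) ^ (i : ℕ) * ((-1) ^ (j : ℕ) * (-1) ^ (j : ℕ)) := by
      rw [h4, mul_one]
    rw [h5, ← mul_assoc, h3, one_mul]
  · have h1 : ¬ ((i : ℕ) + j + 1 = r) := by omega
    rw [if_neg h, if_neg h1]

theorem adj_shift (r : ℕ) : Adj (antiG r : Matrix (Fin r) (Fin r) F) (shiftM r) (-(shiftM r)) := by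
  unfold Adj
  ext i j
  rw [Matrix.mul_neg, Matrix.neg_apply, Matrix.mul_apply, Matrix.mul_apply]
  by_cases hi : (i : ℕ) + 1 < r
  · rw [Finset.sum_eq_single (⟨i + 1, hi⟩ : Fin r)]
    · by_cases hj : (j : ℕ) + 1 < r
      · rw [Finset.sum_eq_single (⟨j + 1, hj⟩ : Fin r)]
        · simp only [shiftM, antiG, Matrix.transpose_apply, Matrix.of_apply, if_true, one_mul, mul_one]
          by_cases h : (i : ℕ) + 1 + j + 1 = r
          · have h1 : (i : ℕ) + (j + 1) + 1 = r := by omega
            rw [if_pos h, if_pos h1, pow_succ]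
            ring
          · have h1 : ¬ ((i : ℕ) + (j + 1) + 1 = r) := by omega
            rw [if_neg h, if_neg h1, neg_zero]
        · intro l _ hl
          have : (l : ℕ) ≠ j + 1 := fun h => hl (Fin.ext h)
          simp [shiftM, this]
        · intro h
          exact absurd (Finset.mem_univ _) h
      · rw [Finset.sum_eq_zero]
        · have h1 : ¬ ((i : ℕ) + 1 + j + 1 = r) := by
            have := j.2
            omega
          simp [shiftM, antiG, h1]
        · intro l _
          have h1 : (l : ℕ) ≠ j + 1 := by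
            have := l.2
            omega
          simp [shiftM, h1]
    · intro l _ hl
      have : (l : ℕ) ≠ i + 1 := fun h => hl (Fin.ext h)
      simp [shiftM, this]
    · intro h
      exact absurd (Finset.mem_univ _) h
  · rw [Finset.sum_eq_zero, Finset.sum_eq_zero, neg_zero]
    · intro l _
      by_cases hj : (l : ℕ) = j + 1
      · have h1 : ¬ ((i : ℕ) + l + 1 = r) := by
          have := j.2
          omega
        simp [shiftM, antiG, h1]
      · simp [shiftM, hj]
    · intro l _
      have h1 : (l : ℕ) ≠ i + 1 := by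
        have := l.2
        omega
      simp [shiftM, h1]

end shift

section J

variable {F : Type*} [Field F]

/-- The quadratic form of a symmetric matrix. -/
noncomputable def symQ {r : ℕ} (h2 : (2 : F) ≠ 0) (G : Matrix (Fin r) (Fin r) F) (hG : G.transpose = G) :
    QuadraticForm F (Fin r → F) :=
  QuadraticMap.ofPolar (fun v => (2 : F)⁻¹ * (v ⬝ᵥ G *ᵥ v))
    (by
      intro a x
      simp only [Matrix.mulVec_smul, smul_dotProduct, dotProduct_smul, smul_eq_mul]
      ring)
    (by
      intro x x' y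
      have hc : ∀ u w : Fin r → F, w ⬝ᵥ G *ᵥ u = u ⬝ᵥ G *ᵥ w := by
        intro u w
        rw [Matrix.dotProduct_mulVec w, dotProduct_comm, ← Matrix.mulVec_transpose, hG]
      simp only [polar, Matrix.mulVec_add, dotProduct_add, add_dotProduct]
      rw [hc x y, hc x' y, hc x' x]
      field_simp
      ring)
    (by
      intro a x y
      have hc : ∀ u w : Fin r → F, w ⬝ᵥ G *ᵥ u = u ⬝ᵥ G *ᵥ w := by
        intro u w
        rw [Matrix.dotProduct_mulVec w, dotProduct_comm, ← Matrix.mulVec_transpose, hG]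
      simp only [polar, Matrix.mulVec_add, dotProduct_add, add_dotProduct, Matrix.mulVec_smul, smul_dotProduct,
        dotProduct_smul, smul_eq_mul]
      rw [hc x y]
      field_simp
      ring)

theorem symQ_apply {r : ℕ} (h2 : (2 : F) ≠ 0) (G : Matrix (Fin r) (Fin r) F) (hG : G.transpose = G)
    (v : Fin r → F) : symQ h2 G hG v = (2 : F)⁻¹ * (v ⬝ᵥ G *ᵥ v) := rfl

theorem polar_symQ {r : ℕ} (h2 : (2 : F) ≠ 0) (G : Matrix (Fin r) (Fin r) F) (hG : G.transpose = G)
    (u v : Fin r → F) : polar (symQ h2 G hG) u v = u ⬝ᵥ G *ᵥ v := by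
  have hc : ∀ u w : Fin r → F, w ⬝ᵥ G *ᵥ u = u ⬝ᵥ G *ᵥ w := by
    intro u w
    rw [Matrix.dotProduct_mulVec w, dotProduct_comm, ← Matrix.mulVec_transpose, hG]
  simp only [polar, symQ_apply, Matrix.mulVec_add, dotProduct_add, add_dotProduct]
  rw [hc u v]
  field_simp
  ring

/-- The unipotent element with one Jordan block. -/
theorem exists_J (r : ℕ) (hr : Odd r) (h2 : (2 : F) ≠ 0) :
    ∃ (Q : QuadraticForm F (Fin r → F)) (U V' : Matrix (Fin r) (Fin r) F), ND Q ∧ U * V' = 1 ∧
      (∀ v, Q (U *ᵥ v) = Q v) ∧ (U - 1) ^ (r - 1) ≠ 0 ∧ (U - 1) ^ r = 0 := by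
  classical
  have hr0 : r ≠ 0 := by
    obtain ⟨s, hs⟩ := hr
    omega
  set N : Matrix (Fin r) (Fin r) F := shiftM r with hN
  have hNr : N ^ r = 0 := shiftM_pow_eq_zero r
  set G : Matrix (Fin r) (Fin r) F := antiG r with hG
  have hGs : G.transpose = G := antiG_symm hr
  set p₀ : F[X] := ∑ i ∈ Finset.range r, X ^ i with hp₀
  set C := aeval N p₀ with hC
  set C' := aeval (-N) p₀ with hC'
  have hCe : C = ∑ i ∈ Finset.range r, N ^ i := by
    rw [hC, hp₀, map_sum]
    simp
  have hCe' : C' = ∑ i ∈ Finset.range r, (-N) ^ i := by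
    rw [hC', hp₀, map_sum]
    simp
  have h1 : (1 - N) * C = 1 := by
    rw [hCe, mul_neg_geom_sum, hNr, sub_zero]
  have hNr' : (-N) ^ r = 0 := by
    rw [neg_pow, hNr, mul_zero]
  have h1' : (1 + N) * C' = 1 := by
    have h3 := mul_neg_geom_sum (-N) r
    rw [hNr', sub_zero, sub_neg_eq_add, ← hCe'] at h3
    exact h3
  have cNC : Commute N C := (comm_aeval (Commute.refl N) p₀).symm
  have cNC' : Commute N C' := (comm_aeval (Commute.refl N).neg_left p₀).symm
  have cCC' : Commute C C' := comm_aeval cNC' p₀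
  set U := (1 + N) * C with hU
  set V' := (1 - N) * C' with hV'
  have hUV : U * V' = 1 := by
    have h3 : U * V' = ((1 + N) * C') * ((1 - N) * C) := by
      have c1 : Commute (1 - N) C' := (Commute.one_left _).sub_left cNC'
      have c2 : Commute C (1 - N) := ((Commute.one_right _).sub_right cNC.symm)
      rw [hU, hV', Matrix.mul_assoc, Matrix.mul_assoc, ← Matrix.mul_assoc C, c2.eq, Matrix.mul_assoc (1 - N),
        cCC'.eq, ← Matrix.mul_assoc (1 - N), c1.eq, Matrix.mul_assoc C']
    rw [h3, h1, h1', Matrix.one_mul]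
  have hVU : V' * U = 1 := mul_eq_one_comm.mp hUV
  have hadj : Adj G N (-N) := adj_shift r
  have hadjC : Adj G C C' := hadj.aeval p₀
  have hadj1 : Adj G (1 + N) (1 - N) := by
    have := (Adj.one (S := G)).add hadj
    rwa [← sub_eq_add_neg] at this
  have hadjU : Adj G U V' := by
    have h3 := hadj1.mul hadjC
    have c1 : Commute (1 - N) C' := (Commute.one_left _).sub_left cNC'
    rw [c1.symm.eq] at h3
    exact h3
  have hform : U.transpose * G * U = G := by
    unfold Adj at hadjU
    rw [hadjU, Matrix.mul_assoc, hVU, Matrix.mul_one]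
  have hU1 : U - 1 = (2 : F) • (N * C) := by
    have h3 : U - 1 = (1 + N) * C - (1 - N) * C := by
      rw [h1]
    rw [h3, two_smul]
    noncomm_ring
  have cNC2 : Commute ((2 : F) • 1) (N * C) := by
    exact Commute.smul_left (Commute.one_left _) _
  have hU1k : ∀ k : ℕ, (U - 1) ^ k = (2 : F) ^ k • (N ^ k * C ^ k) := by
    intro k
    rw [hU1, _root_.smul_pow, cNC.mul_pow]
  refine ⟨symQ h2 G hGs, U, V', ?_, hUV, ?_, ?_, ?_⟩
  · intro x hx
    by_contra hne
    obtain ⟨i, hi⟩ : ∃ i, x i ≠ 0 := by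
      by_contra hcon
      push Not at hcon
      exact hne (funext hcon)
    have hi2 : r - 1 - (i : ℕ) < r := by omega
    have h3 := hx (Pi.single (⟨r - 1 - i, hi2⟩ : Fin r) 1)
    rw [polar_symQ, Matrix.mulVec_single_one] at h3
    rw [dotProduct, Finset.sum_eq_single i] at h3
    · simp only [Matrix.col_apply, hG, antiG, Matrix.of_apply] at h3
      have h4 : (i : ℕ) + (r - 1 - i) + 1 = r := by
        have := i.2
        omega
      rw [if_pos h4] at h3
      rcases mul_eq_zero.mp h3 with h5 | h5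
      · exact hi h5
      · exact pow_ne_zero _ (neg_ne_zero.mpr one_ne_zero) h5
    · intro l _ hl
      simp only [Matrix.col_apply, hG, antiG, Matrix.of_apply]
      have h4 : ¬ ((l : ℕ) + (r - 1 - i) + 1 = r) := by
        intro h5
        apply hl
        apply Fin.ext
        have := i.2
        omega
      rw [if_neg h4, mul_zero]
    · intro h
      exact absurd (Finset.mem_univ _) h
  · intro v
    rw [symQ_apply, symQ_apply]
    congr 1
    have h3 : v ⬝ᵥ (U.transpose * G * U) *ᵥ v = (U *ᵥ v) ⬝ᵥ G *ᵥ (U *ᵥ v) := by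
      rw [← Matrix.mulVec_mulVec, ← Matrix.mulVec_mulVec, Matrix.dotProduct_mulVec v U.transpose,
        Matrix.vecMul_transpose]
    rw [← h3, hform]
  · rw [hU1k]
    intro h0
    have h3 : N ^ (r - 1) * C ^ (r - 1) = 0 := by
      have h4 := (smul_eq_zero.mp h0).resolve_left (pow_ne_zero _ h2)
      exact h4
    have h4 : C ^ (r - 1) * (1 - N) ^ (r - 1) = 1 := by
      have c1 : Commute C (1 - N) := ((Commute.one_right _).sub_right cNC.symm)
      rw [← c1.mul_pow, c1.eq, h1, one_pow]
    have h5 : (N ^ (r - 1) : Matrix (Fin r) (Fin r) F) = 0 := by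
      calc N ^ (r - 1) = N ^ (r - 1) * (C ^ (r - 1) * (1 - N) ^ (r - 1)) := by rw [h4, Matrix.mul_one]
        _ = 0 := by rw [← Matrix.mul_assoc, h3, Matrix.zero_mul]
    exact shiftM_pow_ne_zero hr0 h5
  · rw [hU1k, hNr, Matrix.zero_mul, smul_zero]

end J

section Jblock

variable {F : Type*} [Field F] [Fintype F]

theorem poly_sub_pow (p : ℕ) [hp : Fact p.Prime] [CharP F p] (b : ℕ) :
    ((X : F[X]) - 1) ^ p ^ b = X ^ p ^ b - 1 := by
  haveI : ExpChar F[X] p := ExpChar.prime hp.out
  rw [sub_pow_expChar_pow, one_pow]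

theorem poly_geom (p : ℕ) [hp : Fact p.Prime] [CharP F p] :
    ∑ i ∈ Finset.range p, (X : F[X]) ^ i = (X - 1) ^ (p - 1) := by
  have hX : (X - 1 : F[X]) ≠ 0 := by
    have := X_sub_C_ne_zero (1 : F)
    rwa [C_1] at this
  apply mul_left_cancel₀ hX
  have h1 := poly_sub_pow (F := F) p 1
  rw [pow_one] at h1
  rw [mul_comm, geom_sum_mul, ← h1, ← pow_succ']
  congr 1
  have := hp.out.pos
  omega

/-- The regular unipotent element. -/
theorem J_block (p : ℕ) [hp : Fact p.Prime] [CharP F p] (hodd : Odd (Fintype.card F)) (r : ℕ) (hr : Odd r) :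
    ∃ (Q : QuadraticForm F (Fin r → F)) (g : (Fin r → F) ≃ₗ[F] (Fin r → F)), ND Q ∧ Sp Q g True ∧
      (∀ b, g ^ p ^ b = 1 ↔ r ≤ p ^ b) ∧ (r = p → ∃ v, Nm p g v ≠ 0) := by
  classical
  have h2 := two_ne_of_odd hodd
  obtain ⟨Q, U, V', hQ, hUV, hiso, hne, h0⟩ := exists_J (F := F) r hr h2
  have hVU : V' * U = 1 := mul_eq_one_comm.mp hUV
  let g : (Fin r → F) ≃ₗ[F] (Fin r → F) :=
    { toFun := fun v => U *ᵥ v
      invFun := fun v => V' *ᵥ v
      map_add' := Matrix.mulVec_add U
      map_smul' := fun c v => Matrix.mulVec_smul U c v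
      left_inv := fun v => by
        show V' *ᵥ U *ᵥ v = v
        rw [Matrix.mulVec_mulVec, hVU, Matrix.one_mulVec]
      right_inv := fun v => by
        show U *ᵥ V' *ᵥ v = v
        rw [Matrix.mulVec_mulVec, hUV, Matrix.one_mulVec] }
  have hg : ∀ v, g v = U *ᵥ v := fun v => rfl
  have hgpow : ∀ (k : ℕ) (v : Fin r → F), (g ^ k) v = (U ^ k) *ᵥ v := by
    intro k
    induction k with
    | zero =>
      intro v
      simp
    | succ k ih =>
      intro v
      rw [pow_succ, LinearEquiv.mul_apply, ih, hg, Matrix.mulVec_mulVec, pow_succ]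
  have hgone : ∀ k : ℕ, g ^ k = 1 ↔ U ^ k = 1 := by
    intro k
    constructor
    · intro h
      rw [Cfsg.Agent.Lib.OrthMatrix.matrix_eq_iff]
      intro v
      rw [← hgpow, h, Matrix.one_mulVec]
      rfl
    · intro h
      apply LinearEquiv.ext
      intro v
      rw [hgpow, h, Matrix.one_mulVec]
      rfl
  have hD : ∀ k : ℕ, (U - 1) ^ k = 0 ↔ r ≤ k := by
    intro k
    constructor
    · intro h
      by_contra hk
      apply hne
      have h3 : r - 1 = (r - 1 - k) + k := by omega
      rw [h3, pow_add, h, Matrix.mul_zero]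
    · intro h
      have h3 : k = (k - r) + r := by omega
      rw [h3, pow_add, h0, Matrix.mul_zero]
  have hpow : ∀ b : ℕ, (U - 1) ^ p ^ b = U ^ p ^ b - 1 := by
    intro b
    have h3 := congrArg (aeval U) (poly_sub_pow (F := F) p b)
    simpa using h3
  have hb : ∀ b, g ^ p ^ b = 1 ↔ r ≤ p ^ b := by
    intro b
    rw [hgone, ← hD, hpow, sub_eq_zero]
  have hpodd : Odd p := by
    by_contra h
    rw [Nat.not_odd_iff_even] at h
    have h3 : p = 2 := (Nat.Prime.even_iff hp.out).mp h
    have h4 := hp.out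
    subst h3
    have h5 : ringChar F = 2 := ringChar.eq F 2
    exact ringChar_ne_two_of_odd hodd h5
  have hQ' : (B Q).Nondegenerate := nondegenerate_of_ND hQ
  have hOG := hOG_of (V := Fin r → F) (card_ne_two_of_odd hodd) hQ'
  have hmem : g ∈ O Q := fun v => hiso v
  refine ⟨Q, g, hQ, ?_, hb, ?_⟩
  · refine Sp.of_odd hOG hmem ((hb r).mpr (Nat.lt_pow_self hp.out.one_lt).le) hpodd.pow
  · intro hrp
    subst hrp
    have h3 : ∑ i ∈ Finset.range r, U ^ i = (U - 1) ^ (r - 1) := by
      have h4 := congrArg (aeval U) (poly_geom (F := F) r)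
      simpa using h4
    by_contra hcon
    push Not at hcon
    apply hne
    rw [Cfsg.Agent.Lib.OrthMatrix.matrix_eq_iff]
    intro v
    rw [← h3, Matrix.zero_mulVec, ← hcon v]
    unfold Nm
    rw [Matrix.sum_mulVec]
    refine Finset.sum_congr rfl fun i _ => ?_
    rw [hgpow]

/-- The regular unipotent element with a fixed line, of either type. -/
theorem JV (p : ℕ) [hp : Fact p.Prime] [CharP F p] (hodd : Odd (Fintype.card F)) {k : ℕ} (hpk : p = 2 * k + 1)
    {ε : ℤ} (hε : ε = 1 ∨ ε = -1) : Bk F (k + 1) ε True p True := by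
  classical
  have hF := ringChar_ne_two_of_odd hodd
  have h2 := two_ne_of_odd hodd
  obtain ⟨Q, g, hQ, hS, hb, hN⟩ := J_block (F := F) p hodd p ⟨k, hpk⟩
  have hfr : finrank F (Fin p → F) = 2 * k + 1 := by
    simp [hpk]
  obtain ⟨c, hc, hT⟩ := exists_twist hF hfr Q hQ hε
  have hord : orderOf g = p := by
    have h3 := orderOf_eq_prime_pow (p := p) (n := 0) (x := g) (by
      rw [pow_zero, ← pow_one g]
      intro h4
      have h5 := (hb 0).mp (by rw [pow_zero]; exact h4)
      have := hp.out.one_lt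
      simp at h5
      omega) (by
      rw [zero_add]
      exact (hb 1).mpr (by simp))
    simpa using h3
  refine Bk.of (V := (Fin p → F) × F) (by rw [finrank_prod, hfr, finrank_self]; ring) (Q.prod (lineQ c))
    (ND_prod' hQ (ND_lineQ h2 hc)) hT (g.prodCongr (LinearEquiv.refl F F)) ?_ ?_ ?_
  · have h3 := Sp.prod hF hS (Sp.one (lineQ c))
    have h4 : (True ↔ True) = True := by simp
    rw [h4] at h3
    exact h3
  · rw [orderOf_prodCongr, hord]
    have h3 : orderOf (LinearEquiv.refl F F) = 1 := orderOf_one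
    rw [h3, Nat.lcm_one_right]
  · intro _
    obtain ⟨v, hv⟩ := hN rfl
    refine ⟨(v, 0), ?_⟩
    rw [Nm_prod]
    intro h0
    exact hv (congrArg Prod.fst h0)

/-- A plane of either type, fixed pointwise. -/
theorem fixedP (hodd : Odd (Fintype.card F)) {ε : ℤ} (hε : ε = 1 ∨ ε = -1) : Bk F 1 ε True 1 True := by
  classical
  have hF := ringChar_ne_two_of_odd hodd
  have h2 := two_ne_of_odd hodd
  have hQ1 : ND (lineQ (1 : F)) := ND_lineQ h2 one_ne_zero
  obtain ⟨c, hc, hT⟩ := exists_twist (k := 0) hF (by simp) (lineQ (1 : F)) hQ1 hε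
  refine Bk.of (V := F × F) (by rw [finrank_prod, finrank_self]) ((lineQ (1 : F)).prod (lineQ c))
    (ND_prod' hQ1 (ND_lineQ h2 hc)) hT 1 (Sp.one _) orderOf_one ?_
  intro _
  refine ⟨(1, 0), ?_⟩
  unfold Nm
  simp

end Jblock

end Cfsg.Agent.Lib.Om9
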