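import Mathlib
import Cfsg.Agent.Lib.Om9E

/-!
# The list of orders is realised
-/

set_option autoImplicit false
set_option linter.unusedSectionVars false
set_option linter.unusedSimpArgs false
set_option linter.unusedVariables false
set_option linter.style.haveILetI false

namespace Cfsg.Agent.Lib.Om9

open Module QuadraticMap
open Cfsg.Agent.Lib.QuadFF Cfsg.Agent.Lib.OrthoCount Cfsg.Agent.Lib.QuadClass
open Cfsg.Agent.Lib.OrthGroup Cfsg.Agent.Lib.OrthOmega

section numbers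

variable {u p : ℕ}

theorem cop_of {x y c : ℕ} (h : x = y * c + 1) : Nat.Coprime x y := by
  subst h
  apply Nat.Coprime.symm
  rw [Nat.coprime_iff_gcd_eq_one]
  have h1 : Nat.gcd y (y * c + 1) ∣ y := Nat.gcd_dvd_left _ _
  have h2 : Nat.gcd y (y * c + 1) ∣ y * c + 1 := Nat.gcd_dvd_right _ _
  have h3 : Nat.gcd y (y * c + 1) ∣ y * c := h1.trans (dvd_mul_right _ _)
  have h4 := (Nat.dvd_add_right h3).mp h2
  exact Nat.dvd_one.mp h4

theorem lcm_a2 : Nat.lcm (2 * Wu u) (4 * u * (u + 1)) = 4 * u * (u + 1) * Wu u := by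
  have h1 : 4 * u * (u + 1) = 2 * (2 * u * (u + 1)) := by ring
  rw [h1, Nat.lcm_mul_left, (cop_of (c := 1) (by ring : Wu u = (2 * u * (u + 1)) * 1 + 1)).lcm_eq_mul]
  ring

theorem lcm_a3 : Nat.lcm (2 * u * Sm u) (2 * (u + 1)) = 2 * u * (u + 1) * Sm u := by
  have h1 : 2 * u * Sm u = 2 * (u * Sm u) := by ring
  have hc : Nat.Coprime (u * Sm u) (u + 1) :=
    Nat.Coprime.mul_left (Nat.Coprime.symm (cop_of (c := 1) (by ring : u + 1 = u * 1 + 1)))
      (cop_of (c := 4 * u + 2) (by ring : Sm u = (u + 1) * (4 * u + 2) + 1))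
  rw [h1, Nat.lcm_mul_left, hc.lcm_eq_mul]
  ring

theorem lcm_a4 : Nat.lcm (2 * (u + 1) * Sq u) (2 * u) = 2 * u * (u + 1) * Sq u := by
  have h1 : 2 * (u + 1) * Sq u = 2 * ((u + 1) * Sq u) := by ring
  have hc : Nat.Coprime ((u + 1) * Sq u) u :=
    Nat.Coprime.mul_left (cop_of (c := 1) (by ring : u + 1 = u * 1 + 1))
      (cop_of (c := 4 * u + 2) (by ring : Sq u = u * (4 * u + 2) + 1))
  rw [h1, Nat.lcm_mul_left, hc.lcm_eq_mul]
  ring

theorem lcm_b3 : Nat.lcm (2 * Wu u) (2 * u) = 2 * Wu u * u := by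
  rw [Nat.lcm_mul_left, (cop_of (c := 2 * u + 2) (by ring : Wu u = u * (2 * u + 2) + 1)).lcm_eq_mul]
  ring

theorem lcm_b4 : Nat.lcm (2 * Wu u) (2 * (u + 1)) = 2 * Wu u * (u + 1) := by
  rw [Nat.lcm_mul_left, (cop_of (c := 2 * u) (by ring : Wu u = (u + 1) * (2 * u) + 1)).lcm_eq_mul]
  ring

theorem lcm_b5 : Nat.lcm (4 * u * (u + 1)) (2 * u) = 4 * u * (u + 1) := by
  apply Nat.lcm_eq_left
  exact ⟨2 * (u + 1), by ring⟩

theorem LL.not_dvd {a β : ℕ} (h : LL u p a β) (hp : p.Prime) (hp2 : p ≠ 2) (hpq : p ∣ 2 * u + 1) : ¬ p ∣ a := by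
  have hk : ∀ x c, x = (2 * u + 1) * c + 1 → ¬ p ∣ x := by
    intro x c hx h1
    rw [hx] at h1
    have h3 : p ∣ (2 * u + 1) * c := hpq.trans (dvd_mul_right _ _)
    exact hp.one_lt.ne' (Nat.dvd_one.mp ((Nat.dvd_add_right h3).mp h1))
  have h2' : ¬ p ∣ 2 := fun h1 => hp2 ((Nat.prime_dvd_prime_iff_eq hp Nat.prime_two).mp h1)
  have hu0 : ¬ p ∣ u := by
    intro h1
    exact hk (2 * u + 1 - 2 * u) 0 (by omega) (by
      have h3 : (2 * u + 1 - 2 * u) = 1 := by omega
      have h4 : p ∣ 2 * u := h1.trans (dvd_mul_left _ _)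
      have h5 := (Nat.dvd_add_right h4).mp hpq
      rwa [h3])
  have hu1 : ¬ p ∣ u + 1 := by
    intro h1
    have h4 : p ∣ 2 * (u + 1) := h1.trans (dvd_mul_left _ _)
    have h5 : 2 * (u + 1) = (2 * u + 1) + 1 := by ring
    rw [h5] at h4
    have h6 := (Nat.dvd_add_right hpq).mp h4
    exact hp.one_lt.ne' (Nat.dvd_one.mp h6)
  have hW : ¬ p ∣ Wu u := by
    intro h1
    exact hk (2 * Wu u) (2 * u + 1) (by ring) (h1.trans (dvd_mul_left _ _))
  have hSm : ¬ p ∣ Sm u := hk _ (2 * u + 2) (by ring)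
  have hSq : ¬ p ∣ Sq u := hk _ (2 * u) (by ring)
  have hX : ¬ p ∣ X4 u := by
    intro h1
    exact hk (2 * X4 u) ((2 * u + 1) ^ 3) (by ring) (h1.trans (dvd_mul_left _ _))
  have hd : ∀ {m n : ℕ}, p ∣ m * n ↔ p ∣ m ∨ p ∣ n := hp.dvd_mul
  cases h with
  | a1 => exact hX
  | a2 =>
    intro h1
    rcases (hd.mp h1) with h1 | h1
    · rcases (hd.mp h1) with h1 | h1
      · rcases (hd.mp h1) with h1 | h1
        · exact h2' ((hd.mp (show p ∣ 2 * 2 from h1)).elim id id)
        · exact hu0 h1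
      · exact hu1 h1
    · exact hW h1
  | a3 =>
    intro h1
    rcases (hd.mp h1) with h1 | h1
    · rcases (hd.mp h1) with h1 | h1
      · rcases (hd.mp h1) with h1 | h1
        · exact h2' h1
        · exact hu0 h1
      · exact hu1 h1
    · exact hSm h1
  | a4 =>
    intro h1
    rcases (hd.mp h1) with h1 | h1
    · rcases (hd.mp h1) with h1 | h1
      · rcases (hd.mp h1) with h1 | h1
        · exact h2' h1
        · exact hu0 h1
      · exact hu1 h1
    · exact hSq h1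
  | b1 =>
    intro h1
    rcases (hd.mp h1) with h1 | h1
    · exact hu0 h1
    · exact hSm h1
  | b2 =>
    intro h1
    rcases (hd.mp h1) with h1 | h1
    · exact hu1 h1
    · exact hSq h1
  | b3 =>
    intro h1
    rcases (hd.mp h1) with h1 | h1
    · rcases (hd.mp h1) with h1 | h1
      · exact h2' h1
      · exact hW h1
    · exact hu0 h1
  | b4 =>
    intro h1
    rcases (hd.mp h1) with h1 | h1
    · rcases (hd.mp h1) with h1 | h1
      · exact h2' h1
      · exact hW h1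
    · exact hu1 h1
  | b5 =>
    intro h1
    rcases (hd.mp h1) with h1 | h1
    · rcases (hd.mp h1) with h1 | h1
      · exact h2' ((hd.mp (show p ∣ 2 * 2 from h1)).elim id id)
      · exact hu0 h1
    · exact hu1 h1
  | c1 _ => exact hW
  | c2 _ =>
    intro h1
    rcases (hd.mp h1) with h1 | h1
    · rcases (hd.mp h1) with h1 | h1
      · exact h2' h1
      · exact hu0 h1
    · exact hu1 h1
  | c3 _ => exact hu0
  | c4 _ => exact hu1
  | c5 _ =>
    intro h1
    exact hp.one_lt.ne' (Nat.dvd_one.mp h1)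

end numbers

section parts

variable {F : Type*} [Field F] [Fintype F] (p : ℕ) [hp : Fact p.Prime] [CharP F p]

include hp

theorem hypSq (hodd : Odd (Fintype.card F)) {e : ℕ} (he : e ≠ 0) :
    Bk F e 1 True ((Fintype.card F ^ e - 1) / 2) False := by
  classical
  haveI : NeZero e := ⟨he⟩
  let K := FiniteField.Extension F p e
  haveI : Fintype K := Fintype.ofFinite K
  have hfr : finrank F K = e := FiniteField.finrank_extension F p e
  have hcard : Fintype.card K = Fintype.card F ^ e := by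
    rw [← Nat.card_eq_fintype_card, ← Nat.card_eq_fintype_card]
    exact FiniteField.natCard_extension F p e
  exact hyp_sq hodd he hcard hfr

theorem hypGen (hodd : Odd (Fintype.card F)) {e : ℕ} (he : 2 ≤ e) :
    Bk F e 1 False (Fintype.card F ^ e - 1) False := by
  classical
  haveI : NeZero e := ⟨by omega⟩
  let K := FiniteField.Extension F p e
  haveI : Fintype K := Fintype.ofFinite K
  have hfr : finrank F K = e := FiniteField.finrank_extension F p e
  have hcard : Fintype.card K = Fintype.card F ^ e := by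
    rw [← Nat.card_eq_fintype_card, ← Nat.card_eq_fintype_card]
    exact FiniteField.natCard_extension F p e
  exact hyp_gen hodd he hcard hfr

variable {u : ℕ}

omit hp in
theorem odd_prime_of {x : ℕ} (h1 : 1 < x) (hodd : Odd x) : ∃ r : ℕ, r.Prime ∧ r ≠ 2 ∧ r ∣ x := by
  refine ⟨x.minFac, Nat.minFac_prime h1.ne', ?_, Nat.minFac_dvd x⟩
  intro h2
  have h3 : 2 ∣ x := h2 ▸ Nat.minFac_dvd x
  obtain ⟨k, hk⟩ := hodd
  omega

section
variable (hqu : Fintype.card F = 2 * u + 1) (hu : 1 ≤ u)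
include hqu hu

theorem ell1 : Bk F 1 (-1) False (2 * (u + 1)) False ∧ Bk F 1 (-1) True (u + 1) False := by
  have hodd : Odd (Fintype.card F) := ⟨u, hqu⟩
  have h1 := ell_main p hodd (e := 1) (by norm_num) (Or.inl rfl)
  have h2 : Fintype.card F ^ 1 + 1 = 2 * (u + 1) := by rw [hqu]; ring
  rw [h2] at h1
  have h3 : 2 * (u + 1) / 2 = u + 1 := by omega
  rwa [h3] at h1

theorem ell2 : Bk F 2 (-1) False (2 * Wu u) False ∧ Bk F 2 (-1) True (Wu u) False := by
  have hodd : Odd (Fintype.card F) := ⟨u, hqu⟩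
  have h2 : Fintype.card F ^ 2 + 1 = 2 * Wu u := by rw [hqu]; ring
  have h1 := ell_main p hodd (e := 2) (by norm_num) (Or.inr (by
    rw [h2]
    obtain ⟨r, hr, hr2, hrd⟩ := odd_prime_of (x := Wu u) (by nlinarith) ⟨u ^ 2 + u, by ring⟩
    exact ⟨r, hr, hr2, hrd.trans (dvd_mul_left _ _)⟩))
  rw [h2] at h1
  have h3 : 2 * Wu u / 2 = Wu u := by omega
  rwa [h3] at h1

theorem ell3 : Bk F 3 (-1) False (2 * (u + 1) * Sq u) False ∧ Bk F 3 (-1) True ((u + 1) * Sq u) False := by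
  have hodd : Odd (Fintype.card F) := ⟨u, hqu⟩
  have h2 : Fintype.card F ^ 3 + 1 = 2 * (u + 1) * Sq u := by rw [hqu]; ring
  have h1 := ell_main p hodd (e := 3) (by norm_num) (Or.inr (by
    rw [h2]
    obtain ⟨r, hr, hr2, hrd⟩ := odd_prime_of (x := Sq u) (by nlinarith) ⟨2 * u ^ 2 + u, by ring⟩
    exact ⟨r, hr, hr2, hrd.trans (dvd_mul_left _ _)⟩))
  rw [h2] at h1
  have h3 : 2 * (u + 1) * Sq u / 2 = (u + 1) * Sq u := by
    rw [mul_assoc]
    exact Nat.mul_div_cancel_left _ (by norm_num)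
  rwa [h3] at h1

theorem ell4 : Bk F 4 (-1) True (X4 u) False := by
  have hodd : Odd (Fintype.card F) := ⟨u, hqu⟩
  have h2 : Fintype.card F ^ 4 + 1 = 2 * X4 u := by rw [hqu]; ring
  have h1 := ell_main p hodd (e := 4) (by norm_num) (Or.inr (by
    rw [h2]
    obtain ⟨r, hr, hr2, hrd⟩ := odd_prime_of (x := X4 u) (by nlinarith)
      ⟨4 * u ^ 4 + 8 * u ^ 3 + 6 * u ^ 2 + 2 * u, by ring⟩
    exact ⟨r, hr, hr2, hrd.trans (dvd_mul_left _ _)⟩))
  rw [h2] at h1
  have h3 : 2 * X4 u / 2 = X4 u := by omega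
  rw [h3] at h1
  exact h1.2

theorem hyp1' : Bk F 1 1 False (2 * u) False := by
  have hodd : Odd (Fintype.card F) := ⟨u, hqu⟩
  have h1 := hyp1_gen hodd
  have h2 : Fintype.card F - 1 = 2 * u := by omega
  rwa [h2] at h1

theorem hyp2' : Bk F 2 1 False (4 * u * (u + 1)) False := by
  have hodd : Odd (Fintype.card F) := ⟨u, hqu⟩
  have h1 := hypGen (F := F) p hodd (e := 2) le_rfl
  have h2 : Fintype.card F ^ 2 - 1 = 4 * u * (u + 1) := by
    rw [hqu]
    have h3 : (2 * u + 1) ^ 2 = 4 * u * (u + 1) + 1 := by ring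
    omega
  rwa [h2] at h1

theorem hyp3' : Bk F 3 1 False (2 * u * Sm u) False := by
  have hodd : Odd (Fintype.card F) := ⟨u, hqu⟩
  have h1 := hypGen (F := F) p hodd (e := 3) (by norm_num)
  have h2 : Fintype.card F ^ 3 - 1 = 2 * u * Sm u := by
    rw [hqu]
    have h3 : (2 * u + 1) ^ 3 = 2 * u * Sm u + 1 := by ring
    omega
  rwa [h2] at h1

theorem hypS1 : Bk F 1 1 True u False := by
  have hodd : Odd (Fintype.card F) := ⟨u, hqu⟩
  have h1 := hypSq (F := F) p hodd (e := 1) (by norm_num)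
  have h2 : (Fintype.card F ^ 1 - 1) / 2 = u := by
    rw [pow_one]
    omega
  rwa [h2] at h1

theorem hypS2 : Bk F 2 1 True (2 * u * (u + 1)) False := by
  have hodd : Odd (Fintype.card F) := ⟨u, hqu⟩
  have h1 := hypSq (F := F) p hodd (e := 2) (by norm_num)
  have h2 : (Fintype.card F ^ 2 - 1) / 2 = 2 * u * (u + 1) := by
    rw [hqu]
    have h3 : (2 * u + 1) ^ 2 - 1 = 2 * (2 * u * (u + 1)) := by
      have h3 : (2 * u + 1) ^ 2 = 2 * (2 * u * (u + 1)) + 1 := by ring
      omega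
    rw [h3]
    exact Nat.mul_div_cancel_left _ (by norm_num)
  rwa [h2] at h1

theorem hypS3 : Bk F 3 1 True (u * Sm u) False := by
  have hodd : Odd (Fintype.card F) := ⟨u, hqu⟩
  have h1 := hypSq (F := F) p hodd (e := 3) (by norm_num)
  have h2 : (Fintype.card F ^ 3 - 1) / 2 = u * Sm u := by
    rw [hqu]
    have h3 : (2 * u + 1) ^ 3 - 1 = 2 * (u * Sm u) := by
      have h3 : (2 * u + 1) ^ 3 = 2 * (u * Sm u) + 1 := by ring
      omega
    rw [h3]
    exact Nat.mul_div_cancel_left _ (by norm_num)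
  rwa [h2] at h1

end

end parts

end Cfsg.Agent.Lib.Om9
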