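import Mathlib
import Cfsg.Agent.Lib.Om9F

/-!
# The spectra of `Ω₉(q)` and `V ⋊ Ω₈⁻(q)`
-/

set_option autoImplicit false
set_option linter.unusedSectionVars false
set_option linter.unusedSimpArgs false
set_option linter.unusedVariables false
set_option linter.style.haveILetI false

namespace Cfsg.Agent.Lib.Om9

open Module QuadraticMap
open Cfsg.Agent.Lib.QuadFF Cfsg.Agent.Lib.OrthoCount Cfsg.Agent.Lib.QuadClass
open Cfsg.Agent.Lib.OrthGroup Cfsg.Agent.Lib.OrthOmega Cfsg.Agent.Lib.OrthMatrix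
open scoped MatrixGroups Matrix

section combos

variable {F : Type*} [Field F] [Fintype F] (p : ℕ) [hp : Fact p.Prime] [CharP F p] {u : ℕ}
variable (hqu : Fintype.card F = 2 * u + 1) (hu : 1 ≤ u)

include hp hqu hu

theorem hFodd : ringChar F ≠ 2 := ringChar_ne_two_of_odd ⟨u, hqu⟩

theorem Ta2 : Bk F 4 (-1) True (4 * u * (u + 1) * Wu u) False :=
  Bk.sum (hFodd p hqu hu) (ell2 p hqu hu).1 (hyp2' p hqu hu) rfl (by norm_num) (by simp) lcm_a2.symm id
    (fun h => h.elim)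

theorem Ta3 : Bk F 4 (-1) True (2 * u * (u + 1) * Sm u) False :=
  Bk.sum (hFodd p hqu hu) (hyp3' p hqu hu) (ell1 p hqu hu).1 rfl (by norm_num) (by simp) lcm_a3.symm id
    (fun h => h.elim)

theorem Ta4 : Bk F 4 (-1) True (2 * u * (u + 1) * Sq u) False :=
  Bk.sum (hFodd p hqu hu) (ell3 p hqu hu).1 (hyp1' p hqu hu) rfl (by norm_num) (by simp) lcm_a4.symm id
    (fun h => h.elim)

theorem Tb3 : Bk F 3 (-1) True (2 * Wu u * u) False :=
  Bk.sum (hFodd p hqu hu) (ell2 p hqu hu).1 (hyp1' p hqu hu) rfl (by norm_num) (by simp) lcm_b3.symm id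
    (fun h => h.elim)

theorem Tb4 : Bk F 3 1 True (2 * Wu u * (u + 1)) False :=
  Bk.sum (hFodd p hqu hu) (ell2 p hqu hu).1 (ell1 p hqu hu).1 rfl (by norm_num) (by simp) lcm_b4.symm id
    (fun h => h.elim)

theorem Tb5 : Bk F 3 1 True (4 * u * (u + 1)) False :=
  Bk.sum (hFodd p hqu hu) (hyp2' p hqu hu) (hyp1' p hqu hu) rfl (by norm_num) (by simp) lcm_b5.symm id
    (fun h => h.elim)

theorem Da0 {a : ℕ} (h : LL u p a 0) : Bk F 4 (-1) True a False := by
  cases h with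
  | a1 => exact ell4 p hqu hu
  | a2 => exact Ta2 p hqu hu
  | a3 => exact Ta3 p hqu hu
  | a4 => exact Ta4 p hqu hu

theorem hpdvd : p ∣ 2 * u + 1 := by
  rw [← hqu]
  obtain ⟨n, h1, h2⟩ := FiniteField.card F p
  rw [h2]
  exact dvd_pow_self p n.ne_zero

theorem hpne2 : p ≠ 2 := by
  rintro rfl
  have := hpdvd 2 hqu hu
  omega

theorem cast_ne {a β : ℕ} (h : LL u p a β) : (a : F) ≠ 0 := by
  rw [Ne, CharP.cast_eq_zero_iff F p]
  exact h.not_dvd hp.out (hpne2 p hqu hu) (hpdvd p hqu hu)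

theorem Db {a : ℕ} (h : LL u p a 1) : Bk F 4 (-1) True a True := by
  have hodd : Odd (Fintype.card F) := ⟨u, hqu⟩
  have hF := hFodd p hqu hu
  have hz : (a : F) ≠ 0 := cast_ne p hqu hu h
  have hz' : True → ((a / 1 : ℕ) : F) ≠ 0 := fun _ => by
    rw [Nat.div_one]
    exact hz
  cases h with
  | b1 =>
    exact Bk.sum hF (hypS3 p hqu hu) (fixedP hodd (ε := -1) (Or.inr rfl)) rfl (by norm_num) (by simp)
      (Nat.lcm_one_right _).symm id hz'
  | b2 =>
    exact Bk.sum hF (ell3 p hqu hu).2 (fixedP hodd (ε := 1) (Or.inl rfl)) rfl (by norm_num) (by simp)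
      (Nat.lcm_one_right _).symm id hz'
  | b3 =>
    exact Bk.sum hF (Tb3 p hqu hu) (fixedP hodd (ε := 1) (Or.inl rfl)) rfl (by norm_num) (by simp)
      (Nat.lcm_one_right _).symm id hz'
  | b4 =>
    exact Bk.sum hF (Tb4 p hqu hu) (fixedP hodd (ε := -1) (Or.inr rfl)) rfl (by norm_num) (by simp)
      (Nat.lcm_one_right _).symm id hz'
  | b5 =>
    exact Bk.sum hF (Tb5 p hqu hu) (fixedP hodd (ε := -1) (Or.inr rfl)) rfl (by norm_num) (by simp)
      (Nat.lcm_one_right _).symm id hz'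

theorem Dc {a : ℕ} (h : LL u p a 2) : Bk F 4 (-1) True (a * p) True := by
  have hodd : Odd (Fintype.card F) := ⟨u, hqu⟩
  have hF := hFodd p hqu hu
  have hz : (a : F) ≠ 0 := cast_ne p hqu hu h
  have hnd : ¬ p ∣ a := h.not_dvd hp.out (hpne2 p hqu hu) (hpdvd p hqu hu)
  have hcop : Nat.Coprime a p := ((Nat.Prime.coprime_iff_not_dvd hp.out).mpr hnd).symm
  have hz' : True → ((a * p / p : ℕ) : F) ≠ 0 := fun _ => by
    rw [Nat.mul_div_cancel _ hp.out.pos]
    exact hz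
  cases h with
  | c1 h3 =>
    subst h3
    exact Bk.sum hF (ell2 3 hqu hu).2 (JV 3 hodd (k := 1) rfl (ε := 1) (Or.inl rfl)) rfl (by norm_num) (by simp)
      hcop.lcm_eq_mul.symm id hz'
  | c2 h3 =>
    subst h3
    exact Bk.sum hF (hypS2 3 hqu hu) (JV 3 hodd (k := 1) rfl (ε := -1) (Or.inr rfl)) rfl (by norm_num) (by simp)
      hcop.lcm_eq_mul.symm id hz'
  | c3 h3 =>
    subst h3
    exact Bk.sum hF (hypS1 5 hqu hu) (JV 5 hodd (k := 2) rfl (ε := -1) (Or.inr rfl)) rfl (by norm_num) (by simp)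
      hcop.lcm_eq_mul.symm id hz'
  | c4 h3 =>
    subst h3
    exact Bk.sum hF (ell1 5 hqu hu).2 (JV 5 hodd (k := 2) rfl (ε := 1) (Or.inl rfl)) rfl (by norm_num) (by simp)
      hcop.lcm_eq_mul.symm id hz'
  | c5 h3 =>
    subst h3
    have := JV (F := F) 7 hodd (k := 3) rfl (ε := -1) (Or.inr rfl)
    simpa using this

end combos

section toOmega

variable {F : Type*} [Field F] [Fintype F] {ι : Type} [Fintype ι] [DecidableEq ι]

/-- From a spinor-trivial isometry to an element of the commutator subgroup. -/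
theorem to_Omega (Q : QuadraticForm F (ι → F)) (hQ : (B Q).Nondegenerate) (g : (ι → F) ≃ₗ[F] (ι → F))
    (hS : Sp Q g True) :
    ∃ y : ↥(Cfsg.Omega F ⇑Q), orderOf y = orderOf g ∧ ∀ v, ((y.1.1 : GL ι F) : Matrix ι ι F) *ᵥ v = g v := by
  obtain ⟨L, hL, hg, he, hs⟩ := hS
  have hs' := hs.mpr trivial
  have hx := prodO_mem_commutator hQ L hL he hs'
  set x := prodO Q L with hxdef
  have hxg : (x : (ι → F) ≃ₗ[F] (ι → F)) = g := hg.symm
  set y₀ := (toO Q).symm x with hy₀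
  have hy₀' : toO Q y₀ = x := (toO Q).apply_symm_apply x
  have hmem : y₀ ∈ Cfsg.Omega F ⇑Q := by
    rw [mem_Omega_iff, hy₀']
    exact hx
  refine ⟨⟨y₀, hmem⟩, ?_, ?_⟩
  · have h1 : orderOf (⟨y₀, hmem⟩ : ↥(Cfsg.Omega F ⇑Q)) = orderOf y₀ := (Subgroup.orderOf_coe _).symm
    rw [h1, ← MulEquiv.orderOf_eq (toO Q), hy₀', ← hxg, Subgroup.orderOf_coe]
  · intro v
    rw [← hxg, ← hy₀']
    rfl

end toOmega

section sim

open Cfsg.Agent.Lib.SpinorCrit

variable {F : Type*} [Field F] [Fintype F]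
variable {V : Type*} [AddCommGroup V] [Module F V] [FiniteDimensional F V]

theorem ND_smul {Q : QuadraticForm F V} {c : F} (hc : c ≠ 0) (hQ : ND Q) : ND (c • Q) := by
  intro x hx
  apply hQ
  intro y
  have h1 := hx y
  have h2 : polar (c • Q) x y = c * polar Q x y := by
    simp only [polar, QuadraticMap.smul_apply, smul_eq_mul]
    ring
  rw [h2] at h1
  exact (mul_eq_zero.mp h1).resolve_left hc

theorem det_gram_ne {n : ℕ} (Q : QuadraticForm F (Fin n → F)) (hQ : ND Q) :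
    (Matrix.of (fun i j : Fin n => polar ⇑Q (Pi.single i 1) (Pi.single j 1))).det ≠ 0 := by
  have hG := Cfsg.Agent.Lib.SemisimpleOrth.isGram_of_nondeg Q (nondegenerate_of_ND hQ)
  have h1 : (gram₀ Q).det * ((gram₀ Q)⁻¹).det = 1 := by
    rw [← Matrix.det_mul, hG.h1, Matrix.det_one]
  intro h2
  have h3 : (gram₀ Q).det = 0 := h2
  rw [h3, zero_mul] at h1
  exact zero_ne_one h1

/-- Any nondegenerate form of odd dimension is similar to the standard one. -/
theorem exists_sim (hodd : Odd (Fintype.card F)) (hd : finrank F V = 9) (Q : QuadraticForm F V) (hQ : ND Q) :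
    ∃ c : F, c ≠ 0 ∧ ∃ e : V ≃ₗ[F] (Unit ⊕ (Fin 4 ⊕ Fin 4) → F), ∀ v, qOdd 4 F (e v) = (c • Q) v := by
  classical
  have h2 := two_ne_of_odd hodd
  have hE : finrank F (Unit ⊕ (Fin 4 ⊕ Fin 4) → F) = 9 := by simp
  have hN : finrank F (Fin 9 → F) = 9 := by simp
  let e₁ : V ≃ₗ[F] (Fin 9 → F) := LinearEquiv.ofFinrankEq _ _ (by rw [hd, hN])
  let e₂ : (Unit ⊕ (Fin 4 ⊕ Fin 4) → F) ≃ₗ[F] (Fin 9 → F) := LinearEquiv.ofFinrankEq _ _ (by rw [hE, hN])
  let Q₁ : QuadraticForm F (Fin 9 → F) := Q.comp e₁.symm.toLinearMap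
  let Q₂ : QuadraticForm F (Fin 9 → F) := (qOdd 4 F).comp e₂.symm.toLinearMap
  have hQ₁ : ∀ v, Q₁ (e₁ v) = Q v := fun v => by simp [Q₁]
  have hQ₂ : ∀ v, Q₂ (e₂ v) = qOdd 4 F v := fun v => by simp [Q₂]
  have hND₁ : ND Q₁ := ND.transport e₁ hQ₁ hQ
  have hO : ND (qOdd 4 F) := by
    intro x hx
    by_contra hne
    obtain ⟨y, hy⟩ := Cfsg.Agent.Lib.OrthoOrder.nondeg_qOdd hodd 4 x hne
    exact hy (hx y)
  have hND₂ : ND Q₂ := ND.transport e₂ hQ₂ hO
  set d₁ := (Matrix.of (fun i j : Fin 9 => polar ⇑Q₁ (Pi.single i 1) (Pi.single j 1))).det with hd₁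
  set d₂ := (Matrix.of (fun i j : Fin 9 => polar ⇑Q₂ (Pi.single i 1) (Pi.single j 1))).det with hd₂
  have hd₁0 : d₁ ≠ 0 := det_gram_ne Q₁ hND₁
  have hd₂0 : d₂ ≠ 0 := det_gram_ne Q₂ hND₂
  set c := d₁ * d₂ with hc
  have hc0 : c ≠ 0 := mul_ne_zero hd₁0 hd₂0
  have hdisc : IsSquare ((Matrix.of (fun i j : Fin 9 => polar ⇑(c • Q₁) (Pi.single i 1) (Pi.single j 1))).det * d₂) := by
    have h3 : (Matrix.of (fun i j : Fin 9 => polar ⇑(c • Q₁) (Pi.single i 1) (Pi.single j 1))) =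
        c • (Matrix.of (fun i j : Fin 9 => polar ⇑Q₁ (Pi.single i 1) (Pi.single j 1))) := by
      ext i j
      simp only [Matrix.of_apply, Matrix.smul_apply, smul_eq_mul, polar, QuadraticMap.smul_apply]
      ring
    rw [h3, Matrix.det_smul, Fintype.card_fin]
    refine ⟨c ^ 5, ?_⟩
    rw [mul_assoc, ← hd₁, ← hc]
    ring
  obtain ⟨h, hh⟩ := (Cfsg.Agent.Lib.QuadFF2.isometry_iff_disc h2 (c • Q₁) Q₂ (ND_smul hc0 hND₁) hND₂).mpr hdisc
  refine ⟨c, hc0, e₁.trans (h.trans e₂.symm), ?_⟩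
  intro v
  have h4 : qOdd 4 F ((e₁.trans (h.trans e₂.symm)) v) = Q₂ (h (e₁ v)) := by
    rw [← hQ₂ ((e₁.trans (h.trans e₂.symm)) v)]
    simp
  rw [h4, hh]
  simp [hQ₁]

/-- Elements of the standard group of dimension nine. -/
theorem final_C (hodd : Odd (Fintype.card F)) (hd : finrank F V = 9) (Q : QuadraticForm F V) (hQ : ND Q)
    (g : V ≃ₗ[F] V) (hS : Sp Q g True) :
    ∃ y : Cfsg.POmega F ⇑(qOdd 4 F), orderOf y = orderOf g := by
  classical
  obtain ⟨c, hc, e, he⟩ := exists_sim hodd hd Q hQ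
  have hS' := (Sp.scale hc hS).transport e he
  have hQ' := Cfsg.Agent.Lib.OmegaOddClasses.nondegenerate_of_nondeg (Cfsg.Agent.Lib.OrthoOrder.nondeg_qOdd hodd 4)
  obtain ⟨y, hy, -⟩ := to_Omega (qOdd 4 F) hQ' _ hS'
  have hcenter := Cfsg.Agent.Lib.OmegaOddClasses.center_Omega_odd hodd 4 (by norm_num)
  have hinj : Function.Injective
      (QuotientGroup.mk' (Subgroup.center (Cfsg.Omega F ⇑(qOdd 4 F)))) := by
    rw [injective_iff_map_eq_one]
    intro a ha
    have : a ∈ Subgroup.center (Cfsg.Omega F ⇑(qOdd 4 F)) := (QuotientGroup.eq_one_iff a).mp ha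
    rw [hcenter] at this
    exact this
  refine ⟨QuotientGroup.mk' _ y, ?_⟩
  rw [orderOf_injective _ hinj, hy]
  exact MulEquiv.orderOf_eq (conjEquiv e) g

end sim

section Cside

variable {F : Type*} [Field F] [Fintype F] (p : ℕ) [hp : Fact p.Prime] [CharP F p] {u : ℕ}
variable (hqu : Fintype.card F = 2 * u + 1) (hu : 1 ≤ u)

include hp hqu hu

theorem C_of {m r a β : ℕ} {ε : ℤ} {z : Prop} (h : Bk F m ε True a z) (hr : 2 * m + r = 9) (hrodd : Odd r)
    (hb : r ≤ p ^ β) (hb' : ∀ b', β = b' + 1 → ¬ r ≤ p ^ b') (hnd : ¬ p ∣ a) :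
    ∃ y : Cfsg.POmega F ⇑(qOdd 4 F), orderOf y = a * p ^ β := by
  classical
  have hodd : Odd (Fintype.card F) := ⟨u, hqu⟩
  have hF := hFodd p hqu hu
  obtain ⟨Q, g, hQ, -, hS, hord, -⟩ := h
  obtain ⟨QJ, gJ, hQJ, hSJ, hJ, -⟩ := J_block (F := F) p hodd r hrodd
  have hordJ : orderOf gJ = p ^ β := by
    rcases β with _ | b'
    · have h1 := (hJ 0).mpr hb
      rw [pow_zero, pow_one] at h1
      rw [h1, orderOf_one, pow_zero]
    · apply orderOf_eq_prime_pow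
      · intro h1
        exact hb' b' rfl ((hJ b').mp h1)
      · exact (hJ (b' + 1)).mpr hb
  have hS2 := hS.prod hF hSJ
  have h4 : (True ↔ True) = True := by simp
  rw [h4] at hS2
  obtain ⟨y, hy⟩ := final_C hodd (V := (Fin (2 * m) → F) × (Fin r → F)) (by simp; omega) (Q.prod QJ)
    (ND_prod' hQ hQJ) _ hS2
  refine ⟨y, ?_⟩
  rw [hy, orderOf_prodCongr, hord, hordJ]
  exact (Nat.Coprime.pow_right β ((Nat.Prime.coprime_iff_not_dvd hp.out).mpr hnd).symm).lcm_eq_mul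

theorem exists_C {a β : ℕ} (h : LL u p a β) : ∃ y : Cfsg.POmega F ⇑(qOdd 4 F), orderOf y = a * p ^ β := by
  classical
  have hodd : Odd (Fintype.card F) := ⟨u, hqu⟩
  have hnd : ¬ p ∣ a := h.not_dvd hp.out (hpne2 p hqu hu) (hpdvd p hqu hu)
  have hp3 : 3 ≤ p := by
    have h1 := hp.out.two_le
    have h2 := hpne2 p hqu hu
    omega
  have hp1 : p ^ 1 = p := pow_one p
  have hone : ∀ (b' : ℕ), (0 : ℕ) = b' + 1 → ¬ (1 : ℕ) ≤ p ^ b' := by
    intro b' h
    omega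
  have hD0 : ∀ {a : ℕ}, LL u p a 0 → ¬ p ∣ a → ∃ y : Cfsg.POmega F ⇑(qOdd 4 F), orderOf y = a * p ^ 0 := by
    intro a h1 h2
    exact C_of p hqu hu (Da0 p hqu hu h1) (by norm_num) (by decide) (Nat.one_le_pow _ _ hp.out.pos) hone h2
  have hth : ∀ {a m : ℕ} {ε : ℤ}, Bk F m ε True a False → 2 * m + 3 = 9 → ¬ p ∣ a →
      ∃ y : Cfsg.POmega F ⇑(qOdd 4 F), orderOf y = a * p ^ 1 := by
    intro a m ε h1 h2 h3
    refine C_of p hqu hu h1 h2 (by decide) (by omega) ?_ h3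
    intro b' hb'
    obtain rfl : b' = 0 := by omega
    norm_num
  cases h with
  | a1 => exact hD0 LL.a1 hnd
  | a2 => exact hD0 LL.a2 hnd
  | a3 => exact hD0 LL.a3 hnd
  | a4 => exact hD0 LL.a4 hnd
  | b1 => exact hth (hypS3 p hqu hu) (by norm_num) hnd
  | b2 => exact hth (ell3 p hqu hu).2 (by norm_num) hnd
  | b3 => exact hth (Tb3 p hqu hu) (by norm_num) hnd
  | b4 => exact hth (Tb4 p hqu hu) (by norm_num) hnd
  | b5 => exact hth (Tb5 p hqu hu) (by norm_num) hnd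
  | c1 h3 =>
    subst h3
    refine C_of 3 hqu hu (ell2 3 hqu hu).2 (r := 5) (by norm_num) (by decide) (by norm_num) ?_ hnd
    intro b' hb'
    obtain rfl : b' = 1 := by omega
    norm_num
  | c2 h3 =>
    subst h3
    refine C_of 3 hqu hu (hypS2 3 hqu hu) (r := 5) (by norm_num) (by decide) (by norm_num) ?_ hnd
    intro b' hb'
    obtain rfl : b' = 1 := by omega
    norm_num
  | c3 h3 =>
    subst h3
    refine C_of 5 hqu hu (hypS1 5 hqu hu) (r := 7) (by norm_num) (by decide) (by norm_num) ?_ hnd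
    intro b' hb'
    obtain rfl : b' = 1 := by omega
    norm_num
  | c4 h3 =>
    subst h3
    refine C_of 5 hqu hu (ell1 5 hqu hu).2 (r := 7) (by norm_num) (by decide) (by norm_num) ?_ hnd
    intro b' hb'
    obtain rfl : b' = 1 := by omega
    norm_num
  | c5 h3 =>
    subst h3
    obtain ⟨QJ, gJ, hQJ, hSJ, hJ, -⟩ := J_block (F := F) 7 hodd 9 (by decide)
    have hordJ : orderOf gJ = 7 ^ 2 := by
      apply orderOf_eq_prime_pow (n := 1)
      · intro h1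
        have := (hJ 1).mp h1
        norm_num at this
      · exact (hJ 2).mpr (by norm_num)
    obtain ⟨y, hy⟩ := final_C hodd (V := Fin 9 → F) (by simp) QJ hQJ gJ hSJ
    refine ⟨y, ?_⟩
    rw [hy, hordJ, one_mul]

end Cside

section semi

variable {F : Type*} [Field F] [Fintype F] {ι : Type} [Fintype ι] [DecidableEq ι]

/-- The action of `Ω` on its natural module. -/
abbrev phiS (f : (ι → F) → F) : ↥(Cfsg.Omega F f) →* MulAut (Multiplicative (ι → F)) :=
  (MulAutMultiplicative (ι → F)).symm.toMonoidHom.comp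
    ((DistribMulAction.toAddAut (LinearMap.GeneralLinearGroup F (ι → F)) (ι → F)).comp
      (Matrix.GeneralLinearGroup.toLin.toMonoidHom.comp
        ((Cfsg.isometryGroup F f).subtype.comp (Cfsg.Omega F f).subtype)))

theorem phiS_apply (f : (ι → F) → F) (y : ↥(Cfsg.Omega F f)) (w : Multiplicative (ι → F)) :
    phiS f y w = Multiplicative.ofAdd (((y.1.1 : GL ι F) : Matrix ι ι F) *ᵥ Multiplicative.toAdd w) := rfl

theorem coe3_pow' {f : (ι → F) → F} (g : ↥(Cfsg.Omega F f)) (k : ℕ) :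
    (((g ^ k).1.1 : GL ι F) : Matrix ι ι F) = ((g.1.1 : GL ι F) : Matrix ι ι F) ^ k := by
  simp

theorem pow_semi (f : (ι → F) → F) (x : Multiplicative (ι → F) ⋊[phiS f] ↥(Cfsg.Omega F f)) (k : ℕ) :
    (x ^ k).right = x.right ^ k ∧ (x ^ k).left = Multiplicative.ofAdd
      ((∑ i ∈ Finset.range k, ((x.right.1.1 : GL ι F) : Matrix ι ι F) ^ i) *ᵥ Multiplicative.toAdd x.left) := by
  induction k with
  | zero =>
    simp
  | succ k ih =>
    obtain ⟨h1, h2⟩ := ih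
    constructor
    · rw [pow_succ, SemidirectProduct.mul_right, h1, pow_succ]
    · rw [pow_succ, SemidirectProduct.mul_left, h1, h2, phiS_apply, coe3_pow', Finset.sum_range_succ,
        Matrix.add_mulVec, ofAdd_add]

theorem semi_pow_eq_one (f : (ι → F) → F) (x : Multiplicative (ι → F) ⋊[phiS f] ↥(Cfsg.Omega F f)) {N : ℕ}
    (h : ∑ i ∈ Finset.range N, ((x.right.1.1 : GL ι F) : Matrix ι ι F) ^ i = 0) : x ^ N = 1 := by
  obtain ⟨h1, h2⟩ := pow_semi f x N
  have h3 : ((x.right.1.1 : GL ι F) : Matrix ι ι F) ^ N = 1 := by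
    have := mul_geom_sum ((x.right.1.1 : GL ι F) : Matrix ι ι F) N
    rw [h, mul_zero] at this
    exact (sub_eq_zero.mp this.symm)
  apply SemidirectProduct.ext
  · rw [h2, h, Matrix.zero_mulVec]
    rfl
  · rw [h1]
    apply Subtype.ext
    apply Subtype.ext
    apply Units.ext
    rw [SemidirectProduct.one_right]
    simpa using h3

theorem orderOf_semi_zero (f : (ι → F) → F) (y : ↥(Cfsg.Omega F f)) :
    orderOf (SemidirectProduct.inr y : Multiplicative (ι → F) ⋊[phiS f] ↥(Cfsg.Omega F f)) = orderOf y :=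
  orderOf_injective _ SemidirectProduct.inr_injective y

theorem orderOf_semi_norm (p : ℕ) [hp : Fact p.Prime] [CharP F p] (f : (ι → F) → F)
    (x : Multiplicative (ι → F) ⋊[phiS f] ↥(Cfsg.Omega F f))
    (hn : (∑ i ∈ Finset.range (orderOf x.right), ((x.right.1.1 : GL ι F) : Matrix ι ι F) ^ i) *ᵥ
      Multiplicative.toAdd x.left ≠ 0) : orderOf x = orderOf x.right * p := by
  obtain ⟨h1, h2⟩ := pow_semi f x (orderOf x.right)
  rw [pow_orderOf_eq_one] at h1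
  set w := (∑ i ∈ Finset.range (orderOf x.right), ((x.right.1.1 : GL ι F) : Matrix ι ι F) ^ i) *ᵥ
      Multiplicative.toAdd x.left with hw
  have hne : x ^ orderOf x.right ≠ 1 := by
    intro h3
    apply hn
    rw [h3, SemidirectProduct.one_left] at h2
    exact (congrArg Multiplicative.toAdd h2).symm
  have hone : (x ^ orderOf x.right) ^ p = 1 := by
    obtain ⟨h3, h4⟩ := pow_semi f (x ^ orderOf x.right) p
    rw [h1] at h3 h4
    apply SemidirectProduct.ext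
    · rw [h4, h2]
      have h5 : ∑ i ∈ Finset.range p, (((1 : ↥(Cfsg.Omega F f)).1.1 : GL ι F) : Matrix ι ι F) ^ i = 0 := by
        have h6 : ((1 : ↥(Cfsg.Omega F f)).1.1 : GL ι F) = 1 := rfl
        rw [h6, Units.val_one]
        simp only [one_pow, Finset.sum_const, Finset.card_range]
        rw [← Nat.cast_smul_eq_nsmul F, CharP.cast_eq_zero F p, zero_smul]
      rw [h5, Matrix.zero_mulVec]
      rfl
    · rw [h3, one_pow]
      rfl
  have hdvd : orderOf x ∣ orderOf x.right * p := by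
    apply orderOf_dvd_of_pow_eq_one
    rw [pow_mul, hone]
  have hdvd2 : orderOf x.right ∣ orderOf x := by
    apply orderOf_dvd_of_pow_eq_one
    have h3 := (pow_semi f x (orderOf x)).1
    rw [pow_orderOf_eq_one] at h3
    exact h3.symm
  obtain ⟨c, hc⟩ := hdvd2
  have hpos : 0 < orderOf x.right := orderOf_pos _
  rw [hc] at hdvd
  have hc2 : c ∣ p := Nat.dvd_of_mul_dvd_mul_left hpos hdvd
  rcases (Nat.dvd_prime hp.out).mp hc2 with rfl | rfl
  · exfalso
    apply hne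
    have h3 := pow_orderOf_eq_one x
    rwa [hc, mul_one] at h3
  · exact hc

end semi

section Dside

variable {F : Type*} [Field F] [Fintype F] (p : ℕ) [hp : Fact p.Prime] [CharP F p] {u : ℕ}
variable (hqu : Fintype.card F = 2 * u + 1) (hu : 1 ≤ u)

/-- The isometry group element attached to a block of dimension eight, minus type. -/
theorem final_D (hodd : Odd (Fintype.card F)) (a b : F)
    (hab : ∀ x y : F, x ^ 2 + a * x * y + b * y ^ 2 = 0 → x = 0 ∧ y = 0) {n : ℕ} {z : Prop}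
    (h : Bk F 4 (-1) True n z) :
    ∃ y : ↥(Cfsg.Omega F ⇑(qMinus 3 a b)), orderOf y = n ∧ (z → ∃ v,
      (∑ i ∈ Finset.range n, ((y.1.1 : GL ((Fin 3 ⊕ Fin 3) ⊕ Fin 2) F) : Matrix ((Fin 3 ⊕ Fin 3) ⊕ Fin 2) ((Fin 3 ⊕ Fin 3) ⊕ Fin 2) F) ^ i) *ᵥ v ≠ 0) := by
  classical
  obtain ⟨Q, g, hQ, hT, hS, hord, hz⟩ := h
  obtain ⟨e, he⟩ := hT.iso_minus (m := 3) (by simp) hQ a b hab
  have hS' := hS.transport e he
  have hQ' := nondegenerate_of_ND (ND_qMinus a b hab 3)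
  obtain ⟨y, hy, hact⟩ := to_Omega (qMinus 3 a b) hQ' _ hS'
  have hconj : orderOf (e.symm.trans (g.trans e)) = n := by
    have h1 : e.symm.trans (g.trans e) = conjEquiv e g := rfl
    rw [h1, MulEquiv.orderOf_eq, hord]
  refine ⟨y, by rw [hy, hconj], ?_⟩
  intro hz'
  obtain ⟨v, hv⟩ := hz hz'
  refine ⟨e v, ?_⟩
  have hpow : ∀ (k : ℕ) (w : (Fin 3 ⊕ Fin 3) ⊕ Fin 2 → F),
      (((y.1.1 : GL ((Fin 3 ⊕ Fin 3) ⊕ Fin 2) F) : Matrix ((Fin 3 ⊕ Fin 3) ⊕ Fin 2) ((Fin 3 ⊕ Fin 3) ⊕ Fin 2) F) ^ k) *ᵥ w = ((conjEquiv e g) ^ k) w := by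
    intro k
    induction k with
    | zero =>
      intro w
      simp
    | succ k ih =>
      intro w
      rw [pow_succ, ← Matrix.mulVec_mulVec, hact, ih, pow_succ, LinearEquiv.mul_apply]
      rfl
  have h3 : (∑ i ∈ Finset.range n, ((y.1.1 : GL ((Fin 3 ⊕ Fin 3) ⊕ Fin 2) F) : Matrix ((Fin 3 ⊕ Fin 3) ⊕ Fin 2) ((Fin 3 ⊕ Fin 3) ⊕ Fin 2) F) ^ i) *ᵥ e v =
      Nm n (conjEquiv e g) (e v) := by
    rw [Matrix.sum_mulVec]
    unfold Nm
    exact Finset.sum_congr rfl fun i _ => hpow i (e v)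
  rw [h3, Nm_conj]
  simpa using hv

include hp hqu hu

theorem exists_D (a' b' : F)
    (hab : ∀ x y : F, x ^ 2 + a' * x * y + b' * y ^ 2 = 0 → x = 0 ∧ y = 0) {a β : ℕ} (h : LL u p a β) :
    ∃ x : Multiplicative ((Fin 3 ⊕ Fin 3) ⊕ Fin 2 → F) ⋊[phiS ⇑(qMinus 3 a' b')] ↥(Cfsg.Omega F ⇑(qMinus 3 a' b')),
      orderOf x = a * p ^ β := by
  have hodd : Odd (Fintype.card F) := ⟨u, hqu⟩
  have key : ∀ {n : ℕ}, Bk F 4 (-1) True n True → ∃ x : Multiplicative ((Fin 3 ⊕ Fin 3) ⊕ Fin 2 → F) ⋊[phiS ⇑(qMinus 3 a' b')] ↥(Cfsg.Omega F ⇑(qMinus 3 a' b')),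
      orderOf x = n * p := by
    intro n h1
    obtain ⟨y, hy, hv⟩ := final_D hodd a' b' hab h1
    obtain ⟨v, hv⟩ := hv trivial
    refine ⟨⟨Multiplicative.ofAdd v, y⟩, ?_⟩
    rw [orderOf_semi_norm p _ _ (by rw [hy]; exact hv), hy]
  rcases β with _ | _ | β
  · obtain ⟨y, hy, -⟩ := final_D hodd a' b' hab (Da0 p hqu hu h)
    refine ⟨SemidirectProduct.inr y, ?_⟩
    rw [orderOf_semi_zero, hy, pow_zero, mul_one]
  · obtain ⟨x, hx⟩ := key (Db p hqu hu h)
    refine ⟨x, ?_⟩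
    rw [hx, zero_add, pow_one]
  · have hβ : β = 0 := by
      cases h <;> rfl
    subst hβ
    obtain ⟨x, hx⟩ := key (Dc p hqu hu h)
    refine ⟨x, ?_⟩
    rw [hx]
    ring

end Dside

end Cfsg.Agent.Lib.Om9
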