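import Mathlib
import Cfsg.Agent.Lib.Om9G

/-!
# The spectra of `Ω₉(q)` and `V ⋊ Ω₈⁻(q)`: the common set of orders
-/

set_option autoImplicit false
set_option linter.unusedSectionVars false
set_option linter.unusedSimpArgs false
set_option linter.unusedVariables false
set_option linter.style.haveILetI false

namespace Cfsg.Agent.Lib.Om9

open Module QuadraticMap
open Cfsg.Agent.Lib.QuadFF Cfsg.Agent.Lib.OrthoCount Cfsg.Agent.Lib.QuadClass
open Cfsg.Agent.Lib.OrthGroup Cfsg.Agent.Lib.OrthOmega Cfsg.Agent.Lib.OrthMatrix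
open scoped MatrixGroups Matrix

/-- The set of all divisors of the orders in the table. -/
def Om (u p : ℕ) : Set ℕ := {n | ∃ a β, LL u p a β ∧ n ∣ a * p ^ β}

variable {F : Type*} [Field F] [Fintype F] (p : ℕ) [hp : Fact p.Prime] [CharP F p] {f u : ℕ}
variable (hq : Fintype.card F = p ^ f) (hqu : Fintype.card F = 2 * u + 1) (hu : 1 ≤ u)

include hp hq hqu hu

theorem spec_odd : Set.range (orderOf : Cfsg.POmega F ⇑(qOdd 4 F) → ℕ) = Om u p := by
  have hodd : Odd (Fintype.card F) := ⟨u, hqu⟩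
  have hQ := Cfsg.Agent.Lib.OmegaOddClasses.nondegenerate_of_nondeg (Cfsg.Agent.Lib.OrthoOrder.nondeg_qOdd hodd 4)
  ext n
  constructor
  · rintro ⟨y, rfl⟩
    obtain ⟨g, rfl⟩ := QuotientGroup.mk_surjective y
    obtain ⟨a, β, hL, hg⟩ := omega_odd_bound p hq hqu hu (qOdd 4 F) hQ (by simp) g
    refine ⟨a, β, hL, orderOf_dvd_of_pow_eq_one ?_⟩
    rw [← QuotientGroup.mk_pow, hg]
    rfl
  · rintro ⟨a, β, hL, hd⟩
    obtain ⟨y, hy⟩ := exists_C p hqu hu hL
    have hne : a * p ^ β ≠ 0 := mul_ne_zero (hL.ne_zero hu) (pow_ne_zero _ hp.out.ne_zero)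
    refine ⟨y ^ (a * p ^ β / n), ?_⟩
    rw [← hy] at hd hne
    have := orderOf_pow_orderOf_div (x := y) (n := n) hne hd
    rw [← hy]
    exact this

theorem spec_minus (a' b' : F) (hab : ∀ x y : F, x ^ 2 + a' * x * y + b' * y ^ 2 = 0 → x = 0 ∧ y = 0) :
    Set.range (orderOf : (Multiplicative ((Fin 3 ⊕ Fin 3) ⊕ Fin 2 → F) ⋊[phiS ⇑(qMinus 3 a' b')]
      ↥(Cfsg.Omega F ⇑(qMinus 3 a' b'))) → ℕ) = Om u p := by
  have hQ := nondegenerate_of_ND (ND_qMinus a' b' hab 3)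
  ext n
  constructor
  · rintro ⟨x, rfl⟩
    obtain ⟨a, β, hL, hg⟩ := omega_even_bound p hq hqu hu (qMinus 3 a' b') hQ (by simp) x.right
    exact ⟨a, β, hL, orderOf_dvd_of_pow_eq_one (semi_pow_eq_one _ x hg)⟩
  · rintro ⟨a, β, hL, hd⟩
    obtain ⟨y, hy⟩ := exists_D p hqu hu a' b' hab hL
    have hne : a * p ^ β ≠ 0 := mul_ne_zero (hL.ne_zero hu) (pow_ne_zero _ hp.out.ne_zero)
    refine ⟨y ^ (a * p ^ β / n), ?_⟩
    rw [← hy] at hd hne
    have := orderOf_pow_orderOf_div (x := y) (n := n) hne hd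
    rw [← hy]
    exact this

end Cfsg.Agent.Lib.Om9
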