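import Mathlib

/-!
# Linear groups whose orbits are dominated by a `p`-subgroup

`IsDominated H S`: `S ≤ H` are subgroups of `GL(V)` and every `H`-orbit on `V` is an `S`-orbit.
Restriction to invariant subspaces and passage to quotients keep the property.
-/

set_option autoImplicit false
set_option linter.unusedSectionVars false
set_option linter.unusedVariables false

namespace Cfsg.Agent.Lib.OrbDom

universe u

variable {q : ℕ} [hq : Fact q.Prime]
variable {V : Type u} [AddCommGroup V] [Module (ZMod q) V]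

/-- Every `H`-orbit on `V` is an `S`-orbit. -/
def IsDominated (H S : Subgroup (V ≃ₗ[ZMod q] V)) : Prop :=
  S ≤ H ∧ ∀ h ∈ H, ∀ x : V, ∃ s ∈ S, h x = s x

/-- The assertion of the orbit theorem for a module. -/
def OrbitSolvable (p q : ℕ) [Fact q.Prime] (V : Type u) [AddCommGroup V] [Module (ZMod q) V] : Prop :=
  ∀ H S : Subgroup (V ≃ₗ[ZMod q] V), IsDominated H S → IsPGroup p S → ¬ q ∣ Nat.card H →
    Group.IsSolvable H

theorem inv_apply_eq (h : V ≃ₗ[ZMod q] V) (x : V) : (h⁻¹ : V ≃ₗ[ZMod q] V) x = h.symm x := rfl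

theorem mul_apply_eq (g h : V ≃ₗ[ZMod q] V) (x : V) : (g * h) x = g (h x) := rfl

theorem one_apply_eq (x : V) : (1 : V ≃ₗ[ZMod q] V) x = x := rfl

@[simp] theorem inv_apply_self (h : V ≃ₗ[ZMod q] V) (x : V) : (h⁻¹ : V ≃ₗ[ZMod q] V) (h x) = x :=
  h.symm_apply_apply x

@[simp] theorem apply_inv_self (h : V ≃ₗ[ZMod q] V) (x : V) : h ((h⁻¹ : V ≃ₗ[ZMod q] V) x) = x :=
  h.apply_symm_apply x

section Restrict

variable (W : Submodule (ZMod q) V) (K : Subgroup (V ≃ₗ[ZMod q] V))
  (hs : ∀ h ∈ K, ∀ x ∈ W, h x ∈ W)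

/-- Restriction of an invariant subgroup to an invariant subspace. -/
def restrictHom : K →* (W ≃ₗ[ZMod q] W) where
  toFun h :=
    { toFun := fun x => ⟨h.1 x.1, hs h.1 h.2 x.1 x.2⟩
      map_add' := fun x y => Subtype.ext (by simp)
      map_smul' := fun c x => Subtype.ext (by simp)
      invFun := fun x => ⟨(h.1⁻¹ : V ≃ₗ[ZMod q] V) x.1, hs _ (K.inv_mem h.2) x.1 x.2⟩
      left_inv := fun x => Subtype.ext (by simp)
      right_inv := fun x => Subtype.ext (by simp) }
  map_one' := by
    ext x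
    rfl
  map_mul' g h := by
    ext x
    rfl

theorem restrictHom_apply (h : K) (x : W) : ((restrictHom W K hs h) x : V) = h.1 x.1 := rfl

variable {W K hs} (p : ℕ)

/-- The image under restriction of a dominated group is solvable when the theorem holds for
the subspace. -/
theorem isSolvable_range_restrict (hW : OrbitSolvable p q W) (S₁ : Subgroup (V ≃ₗ[ZMod q] V))
    (hS₁ : S₁ ≤ K) (hdom : ∀ h ∈ K, ∀ x ∈ W, ∃ s ∈ S₁, h x = s x) (hp : IsPGroup p S₁)
    (hc : ¬ q ∣ Nat.card K) [Finite K] : Group.IsSolvable (restrictHom W K hs).range := by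
  refine hW (restrictHom W K hs).range ((S₁.subgroupOf K).map (restrictHom W K hs)) ⟨?_, ?_⟩ ?_ ?_
  · rintro _ ⟨s, -, rfl⟩
    exact ⟨s, rfl⟩
  · rintro _ ⟨h, rfl⟩ x
    obtain ⟨s, hs1, hsx⟩ := hdom h.1 h.2 x.1 x.2
    refine ⟨restrictHom W K hs ⟨s, hS₁ hs1⟩, ⟨⟨s, hS₁ hs1⟩, ?_, rfl⟩, ?_⟩
    · exact hs1
    · exact Subtype.ext hsx
  · have h1 : IsPGroup p (S₁.subgroupOf K) := by
      have : Function.Injective (Subgroup.subgroupOfEquivOfLe hS₁).toMonoidHom :=
        (Subgroup.subgroupOfEquivOfLe hS₁).injective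
      exact hp.of_injective _ this
    exact h1.map _ 
  · intro hdvd
    apply hc
    have h1 : Nat.card (restrictHom W K hs).range ∣ Nat.card K := by
      have := Subgroup.card_range_dvd (restrictHom W K hs) 
      exact this
    exact hdvd.trans h1

end Restrict

section Quot

variable (U : Submodule (ZMod q) V) (K : Subgroup (V ≃ₗ[ZMod q] V))
  (hs : ∀ h ∈ K, ∀ x ∈ U, h x ∈ U)

/-- Action on the quotient by an invariant subspace. -/
noncomputable def quotHom : K →* ((V ⧸ U) ≃ₗ[ZMod q] (V ⧸ U)) where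
  toFun h :=
    { toLinearMap := U.mapQ U (h.1 : V →ₗ[ZMod q] V) (fun x hx => hs h.1 h.2 x hx)
      invFun := U.mapQ U ((h.1⁻¹ : V ≃ₗ[ZMod q] V) : V →ₗ[ZMod q] V)
        (fun x hx => hs _ (K.inv_mem h.2) x hx)
      left_inv := by
        intro x
        induction x using Submodule.Quotient.induction_on with
        | H x => simp
      right_inv := by
        intro x
        induction x using Submodule.Quotient.induction_on with
        | H x => simp }
  map_one' := by
    ext x
    simp
  map_mul' g h := by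
    ext x
    induction x using Submodule.Quotient.induction_on
    rfl

theorem quotHom_mk (h : K) (x : V) :
    quotHom U K hs h (U.mkQ x) = U.mkQ (h.1 x) := rfl

variable {U K hs} (p : ℕ)

theorem isSolvable_range_quot (hW : OrbitSolvable p q (V ⧸ U)) (S₁ : Subgroup (V ≃ₗ[ZMod q] V))
    (hS₁ : S₁ ≤ K) (hdom : ∀ h ∈ K, ∀ x, ∃ s ∈ S₁, h x = s x) (hp : IsPGroup p S₁)
    (hc : ¬ q ∣ Nat.card K) [Finite K] : Group.IsSolvable (quotHom U K hs).range := by
  refine hW (quotHom U K hs).range ((S₁.subgroupOf K).map (quotHom U K hs)) ⟨?_, ?_⟩ ?_ ?_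
  · rintro _ ⟨s, -, rfl⟩
    exact ⟨s, rfl⟩
  · rintro _ ⟨h, rfl⟩ x
    induction x using Submodule.Quotient.induction_on with
    | H x =>
      obtain ⟨s, hs1, hsx⟩ := hdom h.1 h.2 x
      refine ⟨quotHom U K hs ⟨s, hS₁ hs1⟩, ⟨⟨s, hS₁ hs1⟩, hs1, rfl⟩, ?_⟩
      have h2 := quotHom_mk U K hs h x
      have h3 := quotHom_mk U K hs ⟨s, hS₁ hs1⟩ x
      simp only [Submodule.mkQ_apply] at h2 h3
      rw [h2, h3, hsx]
  · have h1 : IsPGroup p (S₁.subgroupOf K) := by
      have : Function.Injective (Subgroup.subgroupOfEquivOfLe hS₁).toMonoidHom :=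
        (Subgroup.subgroupOfEquivOfLe hS₁).injective
      exact hp.of_injective _ this
    exact h1.map _
  · intro hdvd
    apply hc
    exact hdvd.trans (Subgroup.card_range_dvd (quotHom U K hs))

end Quot

/-- Reduction to the irreducible case: a proper nonzero invariant subspace reduces the
question to the subspace and the quotient. -/
theorem isSolvable_of_invariant [Finite V] {p : ℕ} {H S : Subgroup (V ≃ₗ[ZMod q] V)}
    (hD : IsDominated H S) (hp : IsPGroup p S) (hc : ¬ q ∣ Nat.card H)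
    (U : Submodule (ZMod q) V) (hU : ∀ s ∈ S, ∀ x ∈ U, s x ∈ U)
    (h1 : OrbitSolvable p q U) (h2 : OrbitSolvable p q (V ⧸ U)) : Group.IsSolvable H := by
  classical
  haveI : Finite (V ≃ₗ[ZMod q] V) := Finite.of_injective (fun f : V ≃ₗ[ZMod q] V => (f : V → V))
    DFunLike.coe_injective
  have hinv : ∀ h ∈ H, ∀ x ∈ U, h x ∈ U := by
    intro h hh x hx
    obtain ⟨s, hs, e⟩ := hD.2 h hh x
    rw [e]
    exact hU s hs x hx
  have hS1 := isSolvable_range_restrict (hs := hinv) p h1 S hD.1
    (fun h hh x _ => hD.2 h hh x) hp hc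
  have hS2 := isSolvable_range_quot (hs := hinv) p h2 S hD.1 (fun h hh x => hD.2 h hh x) hp hc
  let f : H →* (restrictHom U H hinv).range × (quotHom U H hinv).range :=
    MonoidHom.prod (restrictHom U H hinv).rangeRestrict (quotHom U H hinv).rangeRestrict
  have hinj : Function.Injective f := by
    rw [injective_iff_map_eq_one]
    intro h hh
    have he1 : restrictHom U H hinv h = 1 := by
      have := congrArg (fun t => (t.1 : (U ≃ₗ[ZMod q] U))) hh
      exact this
    have he2 : quotHom U H hinv h = 1 := by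
      have := congrArg (fun t => (t.2 : ((V ⧸ U) ≃ₗ[ZMod q] (V ⧸ U)))) hh
      exact this
    -- `h` is unipotent of class two
    have hU1 : ∀ x ∈ U, h.1 x = x := by
      intro x hx
      have := congrArg (fun t : U ≃ₗ[ZMod q] U => ((t ⟨x, hx⟩ : U) : V)) he1
      exact this
    have hQ1 : ∀ x, h.1 x - x ∈ U := by
      intro x
      have h3 := congrArg (fun t : (V ⧸ U) ≃ₗ[ZMod q] (V ⧸ U) => t (U.mkQ x)) he2
      simp only [quotHom_mk] at h3
      have h4 : U.mkQ (h.1 x) = U.mkQ x := h3
      rw [Submodule.mkQ_apply, Submodule.mkQ_apply, Submodule.Quotient.eq] at h4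
      exact h4
    have hpow : ∀ (n : ℕ) (x : V), (h.1 ^ n) x = x + (n : ZMod q) • (h.1 x - x) := by
      intro n x
      induction n with
      | zero => simp
      | succ n ih =>
        rw [pow_succ', mul_apply_eq, ih, map_add, map_smul, hU1 _ (hQ1 x)]
        push_cast
        rw [add_smul, one_smul]
        abel
    have hpq : h.1 ^ q = 1 := by
      ext x
      rw [hpow q x]
      simp
    have h3 : h ^ q = 1 := Subtype.ext (by simpa using hpq)
    have h4 : orderOf h ∣ q := orderOf_dvd_of_pow_eq_one h3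
    rcases (Nat.dvd_prime hq.out).mp h4 with h5 | h5
    · exact orderOf_eq_one_iff.mp h5
    · exfalso
      have h6 := orderOf_dvd_natCard h
      rw [h5] at h6
      exact hc h6
  exact Group.isSolvable_of_isSolvable_injective hinj

end Cfsg.Agent.Lib.OrbDom
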