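import Mathlib
import Cfsg.Agent.Lib.PowSumRat

/-!
# Transitive groups of prime degree (Burnside)

A subgroup of `Perm (ZMod p)` containing the translations, whose point stabiliser does not carry
`1` to `-1`, consists of affine maps.  The proof: Schur's multiplier argument shows that the
stabiliser orbits on nonzero elements are the cosets of a multiplicative subgroup `M`, and then
a power sum argument (Rédei) shows the difference quotients lying in `M` force linearity.
-/

set_option autoImplicit false
set_option linter.unusedSectionVars false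

namespace Cfsg.Agent.Lib.PrimeDegAff

open Finset Polynomial

variable {p : ℕ} [hp : Fact p.Prime]

section Degree

/-- Rédei: a bijection of `ZMod p` with difference quotients in a small set of `N`-th roots of unity is
affine. -/
theorem affine_of_ratio (L : ZMod p → ZMod p) (hL : Function.Bijective L) (N : ℕ) (hN0 : 1 ≤ N)
    (hN : 2 * N + 1 ≤ p) (h : ∀ x y, (L x - L y) ^ N = (x - y) ^ N) :
    ∃ α β : ZMod p, α ≠ 0 ∧ ∀ x, L x = α * x + β := by
  classical
  have hcard : Fintype.card (ZMod p) = p := ZMod.card p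
  have hN1 : N + 1 < Fintype.card (ZMod p) := by omega
  have hchoose : ∀ j, j ≤ N → ((N.choose j : ℕ) : ZMod p) ≠ 0 := by
    intro j hj h0
    rw [ZMod.natCast_eq_zero_iff] at h0
    have h1 : p ∣ N.factorial := by
      have h2 := Nat.choose_mul_factorial_mul_factorial hj
      have h3 : p ∣ N.choose j * j.factorial * (N - j).factorial :=
        Dvd.dvd.mul_right (Dvd.dvd.mul_right h0 _) _
      rwa [h2] at h3
    have h4 := (hp.out.dvd_factorial).mp h1
    omega
  -- polynomial representatives
  have hpoly : ∀ j, j ≤ N → ∃ R : (ZMod p)[X], R.natDegree ≤ N ∧ ∀ y, R.eval y = (L y) ^ j := by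
    intro j hj
    obtain ⟨c, hc⟩ := Cfsg.Agent.Lib.PowSumRat.pow_eq_sum_of_ratio L hL N hN1 h j hj (hchoose j hj)
    refine ⟨∑ i ∈ range (N + 1), C ((N.choose i : ZMod p) * c i) * X ^ i, ?_, fun y => ?_⟩
    · apply natDegree_sum_le_of_forall_le
      intro i hi
      refine (natDegree_C_mul_X_pow_le _ _).trans ?_
      exact Nat.lt_succ_iff.mp (Finset.mem_range.mp hi)
    · rw [hc y, eval_finsetSum]
      refine Finset.sum_congr rfl fun i _ => ?_
      simp
  obtain ⟨P, hPd, hP⟩ := hpoly 1 hN0
  simp only [pow_one] at hP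
  have hPne : P ≠ 0 := by
    rintro rfl
    have h0 : ∀ y, L y = 0 := fun y => by rw [← hP y]; simp
    have h1 := hL.1 ((h0 0).trans (h0 1).symm)
    exact zero_ne_one h1
  set a := P.natDegree with ha
  -- degree one
  have ha1 : a = 1 := by
    by_contra hne
    rcases Nat.lt_or_ge a 1 with h0 | h2
    · -- constant
      have h3 : a = 0 := by omega
      have h4 := Polynomial.eq_C_of_natDegree_eq_zero h3
      have h5 : L 0 = L 1 := by
        rw [← hP 0, ← hP 1, h4]; simp
      exact zero_ne_one (hL.1 h5)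
    · have h2' : 2 ≤ a := by omega
      set j := N / a + 1 with hj
      have hjN : j ≤ N := by
        have h3 : N / a ≤ N / 2 := Nat.div_le_div_left h2' (by norm_num)
        have h4 : N / 2 + 1 ≤ N := by omega
        omega
      have hja1 : N < j * a := by
        have h5 : N < a * (N / a + 1) := Nat.lt_mul_div_succ N (by omega)
        rw [hj, mul_comm]
        exact h5
      have hja2 : j * a ≤ 2 * N := by
        have h5 : N / a * a ≤ N := Nat.div_mul_le_self N a
        rw [hj, add_mul, one_mul]
        omega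
      obtain ⟨R, hRd, hR⟩ := hpoly j hjN
      have hdeg : (P ^ j).natDegree = j * a := natDegree_pow P j
      have heq : P ^ j = R := by
        apply Polynomial.eq_of_natDegree_lt_card_of_eval_eq' (s := (Finset.univ : Finset (ZMod p)))
        · intro y _
          rw [eval_pow, hP y, hR y]
        · rw [hdeg]
          simp only [Finset.card_univ, hcard]
          omega
      rw [heq] at hdeg
      omega
  have hP2 : P = C (P.coeff 1) * X + C (P.coeff 0) :=
    Polynomial.eq_X_add_C_of_natDegree_le_one (by omega)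
  refine ⟨P.coeff 1, P.coeff 0, ?_, fun x => ?_⟩
  · intro h0
    rw [h0] at hP2
    simp only [map_zero, zero_mul, zero_add] at hP2
    have h1 : L 0 = L 1 := by
      rw [← hP 0, ← hP 1, hP2]; simp
    exact zero_ne_one (hL.1 h1)
  · rw [← hP x]
    conv_lhs => rw [hP2]
    simp

end Degree

section Multiplier

variable (G : Subgroup (Equiv.Perm (ZMod p)))

/-- A subset of `ZMod p` whose difference relation is preserved by `G`. -/
def Invar (B : Finset (ZMod p)) : Prop :=
  ∀ γ ∈ G, ∀ i j : ZMod p, j - i ∈ B ↔ γ j - γ i ∈ B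

/-- The circulant generator. -/
def shiftMat (r : ℕ) : Matrix (ZMod p) (ZMod p) (ZMod r) :=
  fun i j => if j = i + 1 then 1 else 0

theorem shiftMat_pow (r k : ℕ) (i j : ZMod p) :
    (shiftMat (p := p) r ^ k) i j = if j = i + (k : ZMod p) then 1 else 0 := by
  classical
  induction k generalizing j with
  | zero =>
    simp only [pow_zero, Nat.cast_zero, add_zero, Matrix.one_apply]
    by_cases h : i = j
    · simp [h]
    · have h' : ¬ j = i := fun e => h e.symm
      simp [h, h']
  | succ k ih =>
    rw [pow_succ, Matrix.mul_apply]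
    simp_rw [ih, shiftMat]
    rw [Finset.sum_eq_single (i + (k : ZMod p))]
    · simp only [if_true, one_mul, Nat.cast_add, Nat.cast_one, add_assoc]
    · intro l _ hl
      simp [hl]
    · intro h; exact absurd (Finset.mem_univ _) h

/-- The circulant matrix of a set. -/
noncomputable def setMat (r : ℕ) (B : Finset (ZMod p)) : Matrix (ZMod p) (ZMod p) (ZMod r) :=
  ∑ y ∈ B, shiftMat r ^ y.val

theorem setMat_apply (r : ℕ) [NeZero r] (B : Finset (ZMod p)) (i j : ZMod p) :
    setMat r B i j = if j - i ∈ B then 1 else 0 := by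
  classical
  rw [setMat, Matrix.sum_apply]
  simp_rw [shiftMat_pow, ZMod.natCast_val, ZMod.cast_id', id_eq]
  have h1 : ∀ y : ZMod p, (j = i + y) ↔ (y = j - i) := by
    intro y
    constructor
    · rintro rfl; ring
    · rintro rfl; ring
  simp_rw [h1]
  rw [Finset.sum_ite_eq' B (j - i)]

theorem setMat_pow_char (r : ℕ) [Fact r.Prime] (B : Finset (ZMod p)) :
    setMat r B ^ r = ∑ y ∈ B, shiftMat r ^ (r * y.val) := by
  classical
  let f : (ZMod r)[X] := ∑ y ∈ B, X ^ y.val
  have h1 : setMat r B = aeval (shiftMat (p := p) r) f := by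
    simp [setMat, f, map_sum]
  have h2 : f ^ r = ∑ y ∈ B, (X : (ZMod r)[X]) ^ (r * y.val) := by
    rw [sum_pow_char r]
    refine Finset.sum_congr rfl fun y _ => ?_
    rw [← pow_mul, mul_comm]
  rw [h1, ← map_pow, h2]
  simp [map_sum]

/-- Schur's multiplier: multiplying an invariant set by a prime `r ≠ p` keeps it invariant. -/
theorem invar_prime_mul {B : Finset (ZMod p)} (hB : Invar G B) (r : ℕ) (hr : r.Prime)
    (hrp : ((r : ℕ) : ZMod p) ≠ 0) :
    Invar G (B.image fun y => (r : ZMod p) * y) := by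
  classical
  haveI : Fact r.Prime := ⟨hr⟩
  intro γ hγ i j
  -- the matrix is preserved by conjugation with `γ`
  have hM : (setMat r B).submatrix γ γ = setMat r B := by
    ext a b
    simp only [Matrix.submatrix_apply, setMat_apply]
    have := hB γ hγ a b
    by_cases h : b - a ∈ B
    · rw [if_pos h, if_pos (this.mp h)]
    · rw [if_neg h, if_neg (fun h' => h (this.mpr h'))]
  have hMpow : ∀ k : ℕ, (setMat r B ^ k).submatrix γ γ = setMat r B ^ k := by
    intro k
    induction k with
    | zero =>
      simp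
    | succ k ih =>
      rw [pow_succ, ← Matrix.submatrix_mul_equiv _ _ γ γ γ, ih, hM]
  have hent : ∀ a b : ZMod p, (setMat r B ^ r) a b =
      if b - a ∈ B.image (fun y => (r : ZMod p) * y) then 1 else 0 := by
    intro a b
    refine (congrFun (congrFun (setMat_pow_char (p := p) r B) a) b).trans ?_
    rw [Matrix.sum_apply]
    simp_rw [shiftMat_pow, Nat.cast_mul, ZMod.natCast_val, ZMod.cast_id', id_eq]
    have h1 : ∀ y : ZMod p, (b = a + (r : ZMod p) * y) ↔ ((r : ZMod p) * y = b - a) := by
      intro y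
      constructor
      · rintro rfl; ring
      · intro h; rw [h]; ring
    simp_rw [h1]
    by_cases h : b - a ∈ B.image (fun y => (r : ZMod p) * y)
    · rw [if_pos h]
      obtain ⟨y₀, hy₀, hy₀e⟩ := Finset.mem_image.mp h
      rw [Finset.sum_eq_single y₀]
      · simp [hy₀e]
      · intro y _ hne
        rw [if_neg]
        intro h2
        exact hne (mul_left_cancel₀ hrp (h2.trans hy₀e.symm))
      · intro h2; exact absurd hy₀ h2
    · rw [if_neg h]
      apply Finset.sum_eq_zero
      intro y hy
      rw [if_neg]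
      intro h2
      exact h (Finset.mem_image.mpr ⟨y, hy, h2⟩)
  have h1 := congrFun (congrFun (hMpow r) i) j
  simp only [Matrix.submatrix_apply, hent] at h1
  have h10 : (1 : ZMod r) ≠ 0 := one_ne_zero
  constructor
  · intro h
    rw [if_pos h] at h1
    by_contra h2
    rw [if_neg h2] at h1
    exact h10 h1.symm
  · intro h
    rw [if_pos h] at h1
    by_contra h2
    rw [if_neg h2] at h1
    exact h10 h1

/-- Multiplying an invariant set by any natural number prime to `p` keeps it invariant. -/
theorem invar_nat_mul (n : ℕ) (hn : ((n : ℕ) : ZMod p) ≠ 0) :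
    ∀ {B : Finset (ZMod p)}, Invar G B → Invar G (B.image fun y => (n : ZMod p) * y) := by
  classical
  induction n using Nat.recOnMul with
  | zero => exact absurd (by simp) hn
  | one =>
    intro B hB
    simpa using hB
  | prime r hr =>
    intro B hB
    exact invar_prime_mul G hB r hr hn
  | mul a b iha ihb =>
    intro B hB
    have ha : ((a : ℕ) : ZMod p) ≠ 0 := by
      intro h; apply hn; simp [h]
    have hb : ((b : ℕ) : ZMod p) ≠ 0 := by
      intro h; apply hn; simp [h]
    have h1 := iha ha (ihb hb hB)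
    have h2 : ((B.image fun y => (b : ZMod p) * y).image fun y => (a : ZMod p) * y) =
        B.image fun y => ((a * b : ℕ) : ZMod p) * y := by
      rw [Finset.image_image]
      refine Finset.image_congr fun y _ => ?_
      simp [mul_assoc]
    rwa [h2] at h1

theorem invar_field_mul (a : ZMod p) (ha : a ≠ 0) {B : Finset (ZMod p)}
    (hB : Invar G B) : Invar G (B.image fun y => a * y) := by
  have h1 := invar_nat_mul G a.val (by simpa using ha) hB
  simpa using h1

end Multiplier

section Orbits

variable (G : Subgroup (Equiv.Perm (ZMod p)))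

/-- The stabiliser orbit relation. -/
def Rel (u v : ZMod p) : Prop := ∃ γ ∈ G, γ 0 = 0 ∧ γ u = v

theorem rel_refl (u : ZMod p) : Rel G u u := ⟨1, G.one_mem, rfl, rfl⟩

theorem rel_symm {u v : ZMod p} (h : Rel G u v) : Rel G v u := by
  obtain ⟨γ, hγ, h0, hu⟩ := h
  refine ⟨γ⁻¹, G.inv_mem hγ, ?_, ?_⟩
  · rw [Equiv.Perm.inv_eq_iff_eq]; exact h0.symm
  · rw [Equiv.Perm.inv_eq_iff_eq]; exact hu.symm

theorem rel_trans {u v w : ZMod p} (h : Rel G u v) (h' : Rel G v w) : Rel G u w := by
  obtain ⟨γ, hγ, h0, hu⟩ := h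
  obtain ⟨δ, hδ, h0', hv⟩ := h'
  refine ⟨δ * γ, G.mul_mem hδ hγ, ?_, ?_⟩
  · simp [h0, h0']
  · simp [hu, hv]

/-- The orbit of `u` under the stabiliser of `0`. -/
noncomputable def orb (u : ZMod p) : Finset (ZMod p) := by
  classical
  exact Finset.univ.filter (Rel G u)

theorem mem_orb {u v : ZMod p} : v ∈ orb G u ↔ Rel G u v := by
  classical
  simp [orb]

theorem orb_eq_of_rel {u v : ZMod p} (h : Rel G u v) : orb G u = orb G v := by
  ext w
  rw [mem_orb, mem_orb]
  exact ⟨fun h' => rel_trans G (rel_symm G h) h', fun h' => rel_trans G h h'⟩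

variable {G}

theorem rel_diff (hT : ∀ c : ZMod p, Equiv.addRight c ∈ G) {γ : Equiv.Perm (ZMod p)} (hγ : γ ∈ G)
    (i j : ZMod p) : Rel G (j - i) (γ j - γ i) := by
  refine ⟨(Equiv.addRight (-(γ i))) * γ * (Equiv.addRight i),
    G.mul_mem (G.mul_mem (hT _) hγ) (hT _), ?_, ?_⟩
  · simp
  · simp [sub_eq_add_neg, add_comm]

theorem invar_orb (hT : ∀ c : ZMod p, Equiv.addRight c ∈ G) (u : ZMod p) :
    Invar G (orb G u) := by
  intro γ hγ i j
  rw [mem_orb, mem_orb]
  have h := rel_diff hT hγ i j
  exact ⟨fun h' => rel_trans G h' h, fun h' => rel_trans G h' (rel_symm G h)⟩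

theorem orb_mul (hT : ∀ c : ZMod p, Equiv.addRight c ∈ G) (a : ZMod p)
    (ha : a ≠ 0) (u : ZMod p) : orb G (a * u) = (orb G u).image fun y => a * y := by
  have key : ∀ (a : ZMod p), a ≠ 0 → ∀ u : ZMod p,
      orb G (a * u) ⊆ (orb G u).image fun y => a * y := by
    intro a ha u v hv
    rw [mem_orb] at hv
    obtain ⟨γ, hγ, h0, hu⟩ := hv
    have h1 := invar_field_mul G a ha (invar_orb hT u)
    have h2 := (h1 γ hγ 0 (a * u)).mp ?_
    · rwa [h0, sub_zero, hu] at h2
    · rw [sub_zero]
      exact Finset.mem_image.mpr ⟨u, (mem_orb G).mpr (rel_refl G u), rfl⟩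
  apply Finset.Subset.antisymm (key a ha u)
  intro v hv
  obtain ⟨y, hy, rfl⟩ := Finset.mem_image.mp hv
  have h1 := key a⁻¹ (inv_ne_zero ha) (a * u)
  rw [inv_mul_cancel_left₀ ha] at h1
  have h2 := h1 hy
  obtain ⟨w, hw, hwe⟩ := Finset.mem_image.mp h2
  rw [← hwe, mul_inv_cancel_left₀ ha]
  exact hw

/-- **Burnside**: a subgroup of `Perm (ZMod p)` containing the translations, in which no element
fixing `0` carries `1` to `-1`, consists of affine maps. -/
theorem affine_of_not_rel (hT : ∀ c : ZMod p, Equiv.addRight c ∈ G)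
    (hne : ¬ Rel G 1 (-1)) {γ : Equiv.Perm (ZMod p)} (hγ : γ ∈ G) :
    ∃ α β : ZMod p, α ≠ 0 ∧ ∀ x, γ x = α * x + β := by
  classical
  set M := orb G (1 : ZMod p) with hM
  set N := M.card with hN
  have h1M : (1 : ZMod p) ∈ M := (mem_orb G).mpr (rel_refl G 1)
  have h0M : (0 : ZMod p) ∉ M := by
    intro h
    obtain ⟨δ, _, h0, h1⟩ := (mem_orb G).mp h
    have := δ.injective (h1.trans h0.symm)
    exact one_ne_zero this
  have hN0 : 1 ≤ N := Finset.card_pos.mpr ⟨1, h1M⟩
  -- multiplication by an element of `M` preserves `M`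
  have hmM : ∀ m ∈ M, M.image (fun y => m * y) = M := by
    intro m hm
    have hm0 : m ≠ 0 := fun h => h0M (h ▸ hm)
    have h2 := orb_mul hT m hm0 1
    rw [mul_one] at h2
    rw [← hM] at h2
    rw [← h2]
    exact (orb_eq_of_rel G ((mem_orb G).mp hm)).symm
  have hmN : ∀ m ∈ M, m ^ N = 1 := by
    intro m hm
    have hm0 : m ≠ 0 := fun h => h0M (h ▸ hm)
    have h2 : ∏ y ∈ M, (m * y) = ∏ y ∈ M, y := by
      conv_rhs => rw [← hmM m hm]
      rw [Finset.prod_image]
      intro a _ b _ hab
      exact mul_left_cancel₀ hm0 hab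
    rw [Finset.prod_mul_distrib, Finset.prod_const] at h2
    have h3 : ∏ y ∈ M, y ≠ 0 := Finset.prod_ne_zero_iff.mpr fun y hy h => h0M (h ▸ hy)
    exact mul_right_cancel₀ h3 (by rw [one_mul]; exact h2)
  -- the size bound
  have hcop : (-1 : ZMod p) ∉ M := fun h => hne ((mem_orb G).mp h)
  have hdisj : Disjoint M ((M.image fun y => (-1 : ZMod p) * y)) := by
    have h2 := orb_mul hT (-1 : ZMod p) (by simp) 1
    rw [mul_one, ← hM] at h2
    rw [← h2, Finset.disjoint_left]
    intro v hv hv'
    apply hne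
    exact rel_trans G ((mem_orb G).mp hv) (rel_symm G ((mem_orb G).mp hv'))
  have hcard2 : (M.image fun y => (-1 : ZMod p) * y).card = N := by
    rw [Finset.card_image_of_injective]
    intro a b hab
    exact mul_left_cancel₀ (by simp) hab
  have hsub : M ∪ (M.image fun y => (-1 : ZMod p) * y) ⊆ Finset.univ.erase 0 := by
    intro v hv
    rw [Finset.mem_erase]
    refine ⟨?_, Finset.mem_univ v⟩
    rcases Finset.mem_union.mp hv with h | h
    · exact fun e => h0M (e ▸ h)
    · obtain ⟨y, hy, rfl⟩ := Finset.mem_image.mp h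
      intro e
      have : y = 0 := by simpa using e
      exact h0M (this ▸ hy)
  have hNb : 2 * N + 1 ≤ p := by
    have h2 := Finset.card_le_card hsub
    rw [Finset.card_union_of_disjoint hdisj, hcard2, Finset.card_erase_of_mem (Finset.mem_univ _),
      Finset.card_univ, ZMod.card p] at h2
    have : 1 ≤ p := hp.out.one_lt.le
    omega
  -- ratio condition
  have hrat : ∀ x y, (γ x - γ y) ^ N = (x - y) ^ N := by
    intro x y
    by_cases hxy : x - y = 0
    · have : x = y := sub_eq_zero.mp hxy
      rw [this, sub_self, sub_self]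
    · have h2 := rel_diff hT hγ y x
      have h3 : γ x - γ y ∈ orb G (x - y) := (mem_orb G).mpr h2
      have h4 := orb_mul hT (x - y) hxy 1
      rw [mul_one] at h4
      rw [h4] at h3
      obtain ⟨m, hm, hme⟩ := Finset.mem_image.mp h3
      rw [← hme, mul_pow, hmN m hm, mul_one]
  exact affine_of_ratio γ γ.bijective N hN0 hNb hrat

/-- A group of odd order acting on `ZMod p` and containing the translations consists of affine
maps. -/
theorem affine_of_odd_order [Finite G] (hT : ∀ c : ZMod p, Equiv.addRight c ∈ G)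
    (hodd : Odd (Nat.card G)) {γ : Equiv.Perm (ZMod p)} (hγ : γ ∈ G) :
    ∃ α β : ZMod p, α ≠ 0 ∧ ∀ x, γ x = α * x + β := by
  refine affine_of_not_rel hT ?_ hγ
  rintro ⟨δ, hδ, h0, h1⟩
  -- `δ` followed by a translation swaps `0` and `1`
  let σ : Equiv.Perm (ZMod p) := (Equiv.addRight (1 : ZMod p)) * δ
  have hσ : σ ∈ G := G.mul_mem (hT _) hδ
  have hσ0 : σ 0 = 1 := by simp [σ, h0]
  have hσ1 : σ 1 = 0 := by simp [σ, h1]
  have hpow : ∀ k : ℕ, (σ ^ (2 * k + 1)) 0 = 1 := by
    intro k
    induction k with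
    | zero => simpa using hσ0
    | succ k ih =>
      have : 2 * (k + 1) + 1 = 2 + (2 * k + 1) := by ring
      rw [this, pow_add, Equiv.Perm.mul_apply, ih, pow_two, Equiv.Perm.mul_apply, hσ1, hσ0]
  obtain ⟨k, hk⟩ := hodd
  have h2 : σ ^ (Nat.card G) = 1 := by
    have h3 : ((⟨σ, hσ⟩ : G) ^ Nat.card G : G) = 1 := pow_card_eq_one'
    have h4 := congrArg Subtype.val h3
    rwa [Subgroup.coe_pow] at h4
  rw [hk] at h2
  have h3 := hpow k
  rw [h2] at h3
  exact zero_ne_one h3

/-- A group with a commutative subgroup containing all commutators is solvable. -/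
theorem isSolvable_of_commutators_mem {H : Type*} [Group H] (T : Subgroup H)
    (hT : ∀ a ∈ T, ∀ b ∈ T, a * b = b * a) (h : ∀ a b : H, a * b * a⁻¹ * b⁻¹ ∈ T) :
    Group.IsSolvable H := by
  have h1 : commutator H ≤ T := by
    rw [commutator_def, Subgroup.commutator_le]
    intro a _ b _
    exact h a b
  refine ⟨2, ?_⟩
  rw [eq_bot_iff]
  have h2 : derivedSeries H 2 = ⁅commutator H, commutator H⁆ := by
    show ⁅derivedSeries H 1, derivedSeries H 1⁆ = _
    rw [derivedSeries_one]
  rw [h2, Subgroup.commutator_le]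
  intro a ha b hb
  rw [Subgroup.mem_bot, commutatorElement_eq_one_iff_mul_comm]
  exact hT a (h1 ha) b (h1 hb)

/-- A subgroup of `Perm F` of affine maps is solvable. -/
theorem isSolvable_of_affine {F : Type*} [Field F] (H : Subgroup (Equiv.Perm F))
    (h : ∀ γ ∈ H, ∃ α β : F, α ≠ 0 ∧ ∀ x, γ x = α * x + β) : Group.IsSolvable H := by
  let T : Subgroup H :=
    { carrier := {x | ∃ c : F, ∀ y, (x : Equiv.Perm F) y = y + c}
      one_mem' := ⟨0, by simp⟩
      mul_mem' := by
        rintro a b ⟨c, hc⟩ ⟨d, hd⟩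
        refine ⟨d + c, fun y => ?_⟩
        simp [hc, hd, add_assoc]
      inv_mem' := by
        rintro a ⟨c, hc⟩
        refine ⟨-c, fun y => ?_⟩
        simp only [Subgroup.coe_inv]
        rw [Equiv.Perm.inv_eq_iff_eq, hc]
        ring }
  refine isSolvable_of_commutators_mem T ?_ ?_
  · rintro a ⟨c, hc⟩ b ⟨d, hd⟩
    apply Subtype.ext
    ext y
    simp [hc, hd]
    ring
  · intro a b
    obtain ⟨α, β, -, ha⟩ := h a a.2
    obtain ⟨α', β', -, hb⟩ := h b b.2
    refine ⟨α * β' + β - α' * β - β', fun z => ?_⟩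
    have hz : z = ((b : Equiv.Perm F) * a) (((b : Equiv.Perm F) * a)⁻¹ z) := by simp
    set y := ((b : Equiv.Perm F) * a)⁻¹ z with hy
    have h3 : (((a * b * a⁻¹ * b⁻¹ : H) : Equiv.Perm F)) * ((b : Equiv.Perm F) * a) =
        (a : Equiv.Perm F) * b := by
      simp only [Subgroup.coe_mul, Subgroup.coe_inv]
      group
    have h4 := congrArg (fun t : Equiv.Perm F => t y) h3
    simp only [Equiv.Perm.mul_apply] at h4
    have hz' : z = (b : Equiv.Perm F) ((a : Equiv.Perm F) y) := hz
    rw [hz', h4, ha, hb, ha, hb]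
    ring

end Orbits

end Cfsg.Agent.Lib.PrimeDegAff
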