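import Mathlib
import Cfsg.Agent.Lib.OrbDom
import Cfsg.Agent.Lib.PrimeDegAff

/-!
# The imprimitive case of the orbit theorem

If `V = ⨁ W_i` (`i ∈ ZMod p`) is a decomposition permuted by the dominating `p`-group by
translations, then the group preserves the decomposition and acts on the index set through maps
`x ↦ ± x + c`, and the kernel embeds in a power of the group induced on a single block.
-/

set_option autoImplicit false
set_option linter.unusedSectionVars false
set_option linter.unusedVariables false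

namespace Cfsg.Agent.Lib.OrbBlocks

open Cfsg.Agent.Lib.OrbDom

universe u

theorem zmod2_cases : ∀ x : ZMod 2, x = 0 ∨ x = 1 := by decide

section Comb

variable {p : ℕ} [hp : Fact p.Prime]

theorem sign_aux (h2 : (2 : ZMod p) ≠ 0) (a : ZMod p) (ha0 : a ≠ 0) (ha1 : a ≠ 1) (ha2 : a ≠ -1)
    (e d₁ dₐ : ZMod p) (hd₁ : d₁ = 1 ∨ d₁ = -1) (hdₐ : dₐ = a ∨ dₐ = -a)
    (h1 : e = 0 ∨ e = 1 ∨ e = a) (h3 : e + d₁ = 0 ∨ e + d₁ = 1 ∨ e + d₁ = a)
    (h4 : e + dₐ = 0 ∨ e + dₐ = 1 ∨ e + dₐ = a) : dₐ = d₁ * a := by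
  rcases hd₁ with rfl | rfl <;> rcases hdₐ with rfl | rfl
  · ring
  · exfalso
    rcases h1 with rfl | rfl | rfl
    · rcases h4 with h | h | h
      · exact ha0 (by linear_combination -h)
      · exact ha2 (by linear_combination -h)
      · apply mul_ne_zero h2 ha0
        linear_combination -h
    · rcases h3 with h | h | h
      · apply h2; linear_combination h
      · apply one_ne_zero (α := ZMod p); linear_combination h
      · -- `a = 2`
        have ha : a = 2 := by linear_combination -h
        subst ha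
        rcases h4 with h | h | h
        · apply one_ne_zero (α := ZMod p); linear_combination -h
        · apply h2; linear_combination -h
        · exact ha2 (by linear_combination -h)
    · rcases h3 with h | h | h
      · exact ha2 (by linear_combination h)
      · exact ha0 (by linear_combination h)
      · apply one_ne_zero (α := ZMod p); linear_combination h
  · exfalso
    rcases h1 with rfl | rfl | rfl
    · rcases h3 with h | h | h
      · apply one_ne_zero (α := ZMod p); linear_combination -h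
      · apply h2; linear_combination -h
      · exact ha2 (by linear_combination -h)
    · rcases h4 with h | h | h
      · exact ha2 (by linear_combination h)
      · exact ha0 (by linear_combination h)
      · apply one_ne_zero (α := ZMod p); linear_combination h
    · rcases h3 with h | h | h
      · exact ha1 (by linear_combination h)
      · have ha : e = 2 := by linear_combination h
        subst ha
        rcases h4 with h | h | h
        · apply mul_ne_zero h2 h2; linear_combination h
        · exact ha2 (by linear_combination h)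
        · exact h2 (by linear_combination h)
      · apply one_ne_zero (α := ZMod p); linear_combination -h
  · ring

/-- A permutation of `ZMod p` carrying every subset to a translate is affine with multiplier `±1`. -/
theorem affine_of_translates (γ : Equiv.Perm (ZMod p))
    (hγ : ∀ I : Finset (ZMod p), ∃ c : ZMod p, ∀ i, i ∈ I ↔ γ i - c ∈ I) :
    ∃ α β : ZMod p, α ≠ 0 ∧ ∀ x, γ x = α * x + β := by
  classical
  by_cases h2 : (2 : ZMod p) = 0
  · -- characteristic two
    have hp2 : p = 2 := by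
      have h3 : ((2 : ℕ) : ZMod p) = 0 := by exact_mod_cast h2
      rw [ZMod.natCast_eq_zero_iff] at h3
      exact ((Nat.dvd_prime Nat.prime_two).mp h3).resolve_left hp.out.one_lt.ne'
    subst hp2
    refine ⟨γ 1 - γ 0, γ 0, ?_, ?_⟩
    · intro h0
      have := γ.injective (sub_eq_zero.mp h0)
      exact one_ne_zero this
    · intro x
      rcases zmod2_cases x with rfl | rfl <;> ring
  have hpair : ∀ a : ZMod p, a ≠ 0 → γ a - γ 0 = a ∨ γ a - γ 0 = -a := by
    intro a ha
    obtain ⟨c, hc⟩ := hγ {0, a}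
    have h3 := (hc 0).mp (by simp)
    have h4 := (hc a).mp (by simp)
    simp only [Finset.mem_insert, Finset.mem_singleton] at h3 h4
    rcases h3 with h3 | h3 <;> rcases h4 with h4 | h4
    · exfalso
      exact ha (γ.injective (sub_left_inj.mp (h4.trans h3.symm)))
    · left; linear_combination h4 - h3
    · right; linear_combination h4 - h3
    · exfalso
      exact ha (γ.injective (sub_left_inj.mp (h4.trans h3.symm)))
  set d₁ := γ 1 - γ 0 with hd₁
  have hd₁' : d₁ = 1 ∨ d₁ = -1 := hpair 1 one_ne_zero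
  refine ⟨d₁, γ 0, ?_, fun x => ?_⟩
  · rcases hd₁' with h | h <;> rw [h]
    · exact one_ne_zero
    · simp
  by_cases hx0 : x = 0
  · subst hx0
    simp
  by_cases hx1 : x = 1
  · subst hx1
    rw [hd₁]; ring
  by_cases hxm : x = -1
  · subst hxm
    have h3 := hpair (-1) (by simp)
    have hne : γ (-1) - γ 0 ≠ d₁ := by
      intro h
      have h4 : γ (-1) = γ 1 := by rw [hd₁] at h; exact sub_left_inj.mp h
      have h5 := γ.injective h4
      apply h2
      linear_combination -h5
    rcases hd₁' with h | h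
    · rcases h3 with h3 | h3
      · rw [h] 
        linear_combination h3
      · exfalso
        apply hne
        rw [h, h3]
        ring
    · rcases h3 with h3 | h3
      · exfalso
        apply hne
        rw [h, h3]
      · rw [h]
        linear_combination h3
  -- the general case uses a triple
  obtain ⟨c, hc⟩ := hγ {0, 1, x}
  have h3 := (hc 0).mp (by simp)
  have h4 := (hc 1).mp (by simp)
  have h5 := (hc x).mp (by simp)
  simp only [Finset.mem_insert, Finset.mem_singleton] at h3 h4 h5
  set e := γ 0 - c with he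
  have e1 : γ 1 - c = e + d₁ := by rw [he, hd₁]; ring
  have e2 : γ x - c = e + (γ x - γ 0) := by rw [he]; ring
  rw [e1] at h4
  rw [e2] at h5
  have h6 := sign_aux h2 x hx0 hx1 hxm e d₁ (γ x - γ 0) hd₁' (hpair x hx0) h3 h4 h5
  linear_combination h6

end Comb

section Main

variable {q : ℕ} [hq : Fact q.Prime] {V : Type u} [AddCommGroup V] [Module (ZMod q) V]
variable {p : ℕ} [hp : Fact p.Prime]
variable {H S : Subgroup (V ≃ₗ[ZMod q] V)}

/-- A decomposition of `V` into `p` pieces permuted by translations by the group `S`. -/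
structure BlockData (S : Subgroup (V ≃ₗ[ZMod q] V)) (f : ZMod p → Module.End (ZMod q) V)
    (c : (V ≃ₗ[ZMod q] V) → ZMod p) : Prop where
  idem : ∀ i x, f i (f i x) = f i x
  orth : ∀ i j, i ≠ j → ∀ x, f i (f j x) = 0
  sum : ∀ x, ∑ i, f i x = x
  ne : ∀ i, f i ≠ 0
  conj : ∀ s ∈ S, ∀ i x, s (f i x) = f (i + c s) (s x)
  gen : ∃ t ∈ S, c t = 1

variable {f : ZMod p → Module.End (ZMod q) V} {c : (V ≃ₗ[ZMod q] V) → ZMod p}

namespace BlockData

variable (hB : BlockData S f c) (hD : IsDominated H S)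

include hB

theorem eq_zero_of_mem_two {i j : ZMod p} (hij : i ≠ j) {y : V} (hi : f i y = y) (hj : f j y = y) :
    y = 0 := by
  rw [← hi, ← hj, hB.orth i j hij]

theorem exists_mem (i : ZMod p) : ∃ e : V, f i e = e ∧ e ≠ 0 := by
  have h1 := hB.ne i
  have h2 : ∃ y, f i y ≠ 0 := by
    by_contra hno
    push Not at hno
    exact h1 (LinearMap.ext fun x => by simpa using hno x)
  obtain ⟨y, hy⟩ := h2
  exact ⟨f i y, hB.idem i y, hy⟩

include hD

theorem apply_mem {h : V ≃ₗ[ZMod q] V} (hh : h ∈ H) {i : ZMod p} {x : V} (hx : f i x = x) :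
    ∃ s ∈ S, h x = s x ∧ f (i + c s) (h x) = h x := by
  obtain ⟨s, hs, e⟩ := hD.2 h hh x
  refine ⟨s, hs, e, ?_⟩
  rw [e, ← hB.conj s hs i x, hx]

theorem exists_block {h : V ≃ₗ[ZMod q] V} (hh : h ∈ H) (i : ZMod p) :
    ∃ j, ∀ x, f i x = x → f j (h x) = h x := by
  obtain ⟨e, he, he0⟩ := hB.exists_mem i
  obtain ⟨s, hs, _, hj⟩ := hB.apply_mem hD hh he
  refine ⟨i + c s, fun x hx => ?_⟩
  set j := i + c s with hjdef
  by_cases hx0 : x = 0
  · subst hx0; simp
  obtain ⟨s', hs', _, hj'⟩ := hB.apply_mem hD hh hx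
  set j' := i + c s' with hj'def
  by_cases hjj : j' = j
  · rwa [hjj] at hj'
  exfalso
  have hex : f i (x + e) = x + e := by rw [map_add, hx, he]
  have hhe0 : h e ≠ 0 := by simpa using he0
  have hhx0 : h x ≠ 0 := by simpa using hx0
  by_cases hxe : x + e = 0
  · have h1 : h x = - h e := by
      rw [← map_neg]; congr 1; exact eq_neg_of_add_eq_zero_left hxe
    have h2 : f j (h x) = h x := by rw [h1, map_neg, hj]
    exact hhx0 (hB.eq_zero_of_mem_two (Ne.symm hjj) h2 hj')
  obtain ⟨s'', hs'', _, hj''⟩ := hB.apply_mem hD hh hex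
  set j'' := i + c s'' with hj''def
  rw [map_add] at hj''
  have h3 : f j (h x) = 0 := by rw [← hj', hB.orth j j' (Ne.symm hjj)]
  have h4 : f j' (h e) = 0 := by rw [← hj, hB.orth j' j hjj]
  have hj1 : j'' = j := by
    by_contra hne
    have h5 : f j (f j'' (h x + h e)) = 0 := by
      rw [hB.orth j j'' (Ne.symm hne)]
    rw [hj'', map_add, h3, zero_add, hj] at h5
    exact hhe0 h5
  have hj2 : j'' = j' := by
    by_contra hne
    have h5 : f j' (f j'' (h x + h e)) = 0 := by
      rw [hB.orth j' j'' (Ne.symm hne)]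
    rw [hj'', map_add, h4, add_zero, hj'] at h5
    exact hhx0 h5
  exact hjj (hj2.symm.trans hj1)

/-- The permutation of the blocks induced by an element. -/
noncomputable def blockMap (h : H) (i : ZMod p) : ZMod p :=
  Classical.choose (hB.exists_block hD h.2 i)

theorem blockMap_spec (h : H) (i : ZMod p) {x : V} (hx : f i x = x) :
    f (hB.blockMap hD h i) (h.1 x) = h.1 x :=
  Classical.choose_spec (hB.exists_block hD h.2 i) x hx

theorem blockMap_uniq (h : H) {i j : ZMod p} {x : V} (hx : f i x = x) (hx0 : x ≠ 0)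
    (hj : f j (h.1 x) = h.1 x) : j = hB.blockMap hD h i := by
  by_contra hne
  have h1 := hB.eq_zero_of_mem_two hne hj (hB.blockMap_spec hD h i hx)
  exact hx0 (by simpa using h1)

theorem blockMap_one (i : ZMod p) : hB.blockMap hD 1 i = i := by
  obtain ⟨e, he, he0⟩ := hB.exists_mem i
  exact (hB.blockMap_uniq hD 1 he he0 he).symm

theorem blockMap_mul (g h : H) (i : ZMod p) :
    hB.blockMap hD (g * h) i = hB.blockMap hD g (hB.blockMap hD h i) := by
  obtain ⟨e, he, he0⟩ := hB.exists_mem i
  have h1 := hB.blockMap_spec hD h i he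
  have h2 := hB.blockMap_spec hD g _ h1
  exact (hB.blockMap_uniq hD (g * h) he he0 h2).symm

/-- The action on the blocks. -/
noncomputable def blockHom : H →* Equiv.Perm (ZMod p) where
  toFun h :=
    { toFun := hB.blockMap hD h
      invFun := hB.blockMap hD h⁻¹
      left_inv := fun i => by
        rw [← blockMap_mul, inv_mul_cancel, blockMap_one]
      right_inv := fun i => by
        rw [← blockMap_mul, mul_inv_cancel, blockMap_one] }
  map_one' := by
    ext i
    simp [blockMap_one]
  map_mul' g h := by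
    ext i
    simp [blockMap_mul]

theorem blockHom_apply (h : H) (i : ZMod p) : hB.blockHom hD h i = hB.blockMap hD h i := rfl

theorem f_blockMap_apply (h : H) (i : ZMod p) (x : V) :
    f (hB.blockMap hD h i) (h.1 x) = h.1 (f i x) := by
  classical
  conv_lhs => rw [← hB.sum x, map_sum, map_sum]
  rw [Finset.sum_eq_single i]
  · exact hB.blockMap_spec hD h i (hB.idem i x)
  · intro j _ hj
    have h1 := hB.blockMap_spec hD h j (hB.idem j x)
    have hne : hB.blockMap hD h i ≠ hB.blockMap hD h j := by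
      intro he
      exact hj ((hB.blockHom hD h).injective he).symm
    rw [← h1, hB.orth _ _ hne]
  · intro hi; exact absurd (Finset.mem_univ i) hi

theorem blockHom_translates (h : H) (I : Finset (ZMod p)) :
    ∃ c' : ZMod p, ∀ i, i ∈ I ↔ hB.blockHom hD h i - c' ∈ I := by
  classical
  choose e he he0 using hB.exists_mem
  set y := ∑ i ∈ I, e i with hy
  have hfy : ∀ j, f j y = if j ∈ I then e j else 0 := by
    intro j
    rw [hy, map_sum]
    split_ifs with hj
    · rw [Finset.sum_eq_single j]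
      · exact he j
      · intro i _ hij
        rw [← he i, hB.orth j i (Ne.symm hij)]
      · intro h'; exact absurd hj h'
    · apply Finset.sum_eq_zero
      intro i hi
      have hij : j ≠ i := fun e' => hj (e' ▸ hi)
      rw [← he i, hB.orth j i hij]
  obtain ⟨s, hs, hsy⟩ := hD.2 h.1 h.2 y
  refine ⟨c s, fun i => ?_⟩
  have h1 := hB.f_blockMap_apply hD h i y
  rw [hsy] at h1
  have h2 := hB.conj s hs (hB.blockMap hD h i - c s) y
  rw [sub_add_cancel] at h2
  rw [← h2] at h1
  rw [blockHom_apply]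
  have h3 : ∀ k, k ∈ I ↔ f k y ≠ 0 := by
    intro k
    rw [hfy k]
    by_cases hk : k ∈ I
    · simp [hk, he0 k]
    · simp [hk]
  rw [h3, h3]
  constructor
  · intro h4 h5
    rw [h5, map_zero] at h1
    apply h4
    have h6 : h.1 (f i y) = 0 := h1.symm
    simpa using h6
  · intro h4 h5
    rw [h5, map_zero] at h1
    apply h4
    have h6 : s (f (hB.blockMap hD h i - c s) y) = 0 := h1
    simpa using h6

theorem isSolvable_blockHom_range : Group.IsSolvable (hB.blockHom hD).range := by
  apply Cfsg.Agent.Lib.PrimeDegAff.isSolvable_of_affine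
  rintro _ ⟨h, rfl⟩
  exact affine_of_translates _ (hB.blockHom_translates hD h)

end BlockData

/-- **The imprimitive case.** -/
theorem isSolvable_of_blocks [Finite V] (hB : BlockData S f c) (hD : IsDominated H S)
    (hpS : IsPGroup p S) (hc : ¬ q ∣ Nat.card H)
    (hW : OrbitSolvable p q (LinearMap.range (f 0))) : Group.IsSolvable H := by
  classical
  haveI : Finite (V ≃ₗ[ZMod q] V) := Finite.of_injective (fun f : V ≃ₗ[ZMod q] V => (f : V → V))
    DFunLike.coe_injective
  set W := LinearMap.range (f 0) with hWdef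
  have memW : ∀ x, x ∈ W ↔ f 0 x = x := fun x =>
    ⟨by rintro ⟨y, rfl⟩; exact hB.idem 0 y, fun h => ⟨x, h⟩⟩
  let K : Subgroup (V ≃ₗ[ZMod q] V) :=
    { carrier := {h | h ∈ H ∧ (∀ x, f 0 x = x → f 0 (h x) = h x) ∧
        (∀ x, f 0 x = x → f 0 ((h⁻¹ : V ≃ₗ[ZMod q] V) x) = (h⁻¹ : V ≃ₗ[ZMod q] V) x)}
      mul_mem' := by
        rintro a b ⟨ha, ha1, ha2⟩ ⟨hb, hb1, hb2⟩
        refine ⟨H.mul_mem ha hb, fun x hx => ha1 _ (hb1 x hx), fun x hx => ?_⟩
        rw [mul_inv_rev]
        exact hb2 _ (ha2 x hx)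
      one_mem' := ⟨H.one_mem, fun x hx => hx, fun x hx => by simpa using hx⟩
      inv_mem' := by
        rintro a ⟨ha, ha1, ha2⟩
        exact ⟨H.inv_mem ha, ha2, by simpa using ha1⟩ }
  have hKH : K ≤ H := fun h hh => hh.1
  let S₁ : Subgroup (V ≃ₗ[ZMod q] V) := S ⊓ K
  have hs : ∀ h ∈ K, ∀ x ∈ W, h x ∈ W := by
    intro h hh x hx
    exact (memW _).mpr (hh.2.1 x ((memW x).mp hx))
  have hdom : ∀ h ∈ K, ∀ x ∈ W, ∃ s ∈ S₁, h x = s x := by
    intro h hh x hx
    by_cases hx0 : x = 0
    · subst hx0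
      exact ⟨1, S₁.one_mem, by simp⟩
    have hx' := (memW x).mp hx
    obtain ⟨s, hs', e, hj⟩ := hB.apply_mem hD (hKH hh) hx'
    have hh0 : h x ≠ 0 := by simpa using hx0
    have h1 : f 0 (h x) = h x := hh.2.1 x hx'
    have hcs : 0 + c s = 0 := by
      by_contra hne
      exact hh0 (hB.eq_zero_of_mem_two hne hj h1)
    have hconj := hB.conj s hs' 0
    rw [hcs] at hconj
    refine ⟨s, ⟨hs', hD.1 hs', fun y hy => ?_, fun y hy => ?_⟩, e⟩
    · rw [← hconj, hy]
    · have h2 := hconj ((s⁻¹ : V ≃ₗ[ZMod q] V) y)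
      rw [apply_inv_self, hy] at h2
      have h3 : s (f 0 ((s⁻¹ : V ≃ₗ[ZMod q] V) y)) = s ((s⁻¹ : V ≃ₗ[ZMod q] V) y) := by
        rw [h2, apply_inv_self]
      exact s.injective h3
  have hcK : ¬ q ∣ Nat.card K := fun hd => hc (hd.trans (Subgroup.card_dvd_of_le hKH))
  have hρ := isSolvable_range_restrict (hs := hs) p hW S₁ inf_le_right hdom
    (hpS.to_le inf_le_left) hcK
  obtain ⟨t, htS, htc⟩ := hB.gen
  have tpow : ∀ (n : ℕ) (i : ZMod p) (x : V), (t ^ n) (f i x) = f (i + n) ((t ^ n) x) := by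
    intro n i x
    induction n with
    | zero => simp [one_apply_eq]
    | succ n ih =>
      rw [pow_succ', mul_apply_eq, ih, hB.conj t htS, htc, mul_apply_eq]
      push_cast
      rw [add_assoc]
  have htH : ∀ n : ℕ, t ^ n ∈ H := fun n => H.pow_mem (hD.1 htS) n
  set H₀ := (hB.blockHom hD).ker with hH₀
  have hH₀block : ∀ h : H, h ∈ H₀ → ∀ i x, f i x = x → f i (h.1 x) = h.1 x := by
    intro h hh i x hx
    have h1 : hB.blockHom hD h = 1 := (MonoidHom.mem_ker).mp hh
    have h2 : hB.blockMap hD h i = i := by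
      rw [← BlockData.blockHom_apply (hB := hB) (hD := hD), h1]; rfl
    have h3 := hB.blockMap_spec hD h i hx
    rwa [h2] at h3
  have hinvblock : ∀ (n : ℕ) (z : V), f (n : ZMod p) z = z →
      f 0 (((t ^ n)⁻¹ : V ≃ₗ[ZMod q] V) z) = ((t ^ n)⁻¹ : V ≃ₗ[ZMod q] V) z := by
    intro n z hz
    have h1 := tpow n 0 (((t ^ n)⁻¹ : V ≃ₗ[ZMod q] V) z)
    rw [apply_inv_self, zero_add, hz] at h1
    have h2 : (t ^ n) (f 0 (((t ^ n)⁻¹ : V ≃ₗ[ZMod q] V) z)) =
        (t ^ n) (((t ^ n)⁻¹ : V ≃ₗ[ZMod q] V) z) := by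
      rw [h1, apply_inv_self]
    exact (t ^ n).injective h2
  have hκ : ∀ (n : ℕ) (h : H), h ∈ H₀ →
      ∀ x, f 0 x = x → f 0 (((t ^ n)⁻¹ * h.1 * t ^ n : V ≃ₗ[ZMod q] V) x) =
        ((t ^ n)⁻¹ * h.1 * t ^ n : V ≃ₗ[ZMod q] V) x := by
    intro n h hh x hx
    have h1 := tpow n 0 x
    rw [hx, zero_add] at h1
    have h2 := hH₀block h hh (n : ZMod p) _ h1.symm
    exact hinvblock n _ h2
  have hκK : ∀ (n : ℕ) (h : H), h ∈ H₀ → ((t ^ n)⁻¹ * h.1 * t ^ n : V ≃ₗ[ZMod q] V) ∈ K := by
    intro n h hh
    refine ⟨H.mul_mem (H.mul_mem (H.inv_mem (htH n)) h.2) (htH n), hκ n h hh, ?_⟩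
    have e : ((t ^ n)⁻¹ * h.1 * t ^ n : V ≃ₗ[ZMod q] V)⁻¹ =
        (t ^ n)⁻¹ * (h⁻¹ : H).1 * t ^ n := by
      simp only [Subgroup.coe_inv]
      group
    rw [e]
    exact hκ n h⁻¹ (H₀.inv_mem hh)
  let θ : ℕ → (H₀ →* K) := fun n => MonoidHom.mk'
    (fun h => ⟨(t ^ n)⁻¹ * h.1.1 * t ^ n, hκK n h.1 h.2⟩) (by
      intro a b
      apply Subtype.ext
      simp only [Subgroup.coe_mul]
      group)
  obtain ⟨d, hd⟩ := hρ.solvable
  haveI hsolvH₀ : Group.IsSolvable H₀ := by
    refine ⟨⟨d, ?_⟩⟩
    rw [eq_bot_iff]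
    intro g hg
    have hmap : ∀ n : ℕ, (restrictHom W K hs).rangeRestrict (θ n g) = 1 := by
      intro n
      have h1 := map_derivedSeries_le_derivedSeries
        ((restrictHom W K hs).rangeRestrict.comp (θ n)) d
      have h2 : ((restrictHom W K hs).rangeRestrict.comp (θ n)) g ∈
          derivedSeries (restrictHom W K hs).range d := h1 ⟨g, hg, rfl⟩
      rw [hd] at h2
      exact h2
    have hfix : ∀ (n : ℕ) (y : V), f 0 y = y → g.1.1 ((t ^ n) y) = (t ^ n) y := by
      intro n y hy
      have h1 := hmap n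
      have h2 : restrictHom W K hs (θ n g) = 1 := congrArg Subtype.val h1
      have h3 := congrArg (fun τ : W ≃ₗ[ZMod q] W => ((τ ⟨y, (memW y).mpr hy⟩ : W) : V)) h2
      have h4 : ((t ^ n)⁻¹ * g.1.1 * t ^ n : V ≃ₗ[ZMod q] V) y = y := h3
      rw [mul_apply_eq, mul_apply_eq] at h4
      have h5 := congrArg (t ^ n) h4
      rwa [apply_inv_self] at h5
    have hfixall : ∀ x, g.1.1 x = x := by
      intro x
      rw [← hB.sum x, map_sum]
      refine Finset.sum_congr rfl fun i _ => ?_
      set z := f i x with hz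
      have hzz : f i z = z := hB.idem i x
      have hval : ((i.val : ℕ) : ZMod p) = i := by simp
      have hzz' : f ((i.val : ℕ) : ZMod p) z = z := by rw [hval]; exact hzz
      have h1 := hinvblock i.val z hzz'
      have h2 := hfix i.val _ h1
      rwa [apply_inv_self] at h2
    have : g = 1 := by
      apply Subtype.ext
      apply Subtype.ext
      ext x
      exact hfixall x
    rw [this]
    exact Subgroup.one_mem _
  haveI hsolvR := hB.isSolvable_blockHom_range hD
  refine Group.isSolvable_of_ker_le_range H₀.subtype (hB.blockHom hD).rangeRestrict ?_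
  rw [MonoidHom.ker_rangeRestrict, Subgroup.range_subtype]

end Main

end Cfsg.Agent.Lib.OrbBlocks
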