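import Mathlib
import Cfsg.Agent.Lib.OrbDom

/-!
# The orbit theorem in dimension at most two

In dimension at most two, an element of determinant one of order prime to the characteristic
fixing a nonzero vector is trivial, so the derived subgroup acts freely and is a `p`-group.
-/

set_option autoImplicit false
set_option linter.unusedSectionVars false
set_option linter.unusedVariables false

namespace Cfsg.Agent.Lib.OrbDim2

open Cfsg.Agent.Lib.OrbDom

universe u

variable {q : ℕ} [hq : Fact q.Prime] {V : Type u} [AddCommGroup V] [Module (ZMod q) V]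
variable {p : ℕ} [hp : Fact p.Prime]
variable {H S : Subgroup (V ≃ₗ[ZMod q] V)}

/-- A normal subgroup acting freely at a point of a dominated group is a `p`-group. -/
theorem isPGroup_of_free [Finite V] (hD : IsDominated H S) (hpS : IsPGroup p S) (N : Subgroup H)
    [hN : N.Normal] (x : V) (hfree : ∀ g ∈ N, g.1 x = x → g = 1) : IsPGroup p N := by
  classical
  haveI : Finite (V ≃ₗ[ZMod q] V) := Finite.of_injective (fun f : V ≃ₗ[ZMod q] V => (f : V → V))
    DFunLike.coe_injective
  let O := MulAction.orbit H x
  have hstab : ∀ y : O, MulAction.stabilizer N y = ⊥ := by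
    rintro ⟨y, h, rfl⟩
    rw [eq_bot_iff]
    intro g hg
    rw [MulAction.mem_stabilizer_iff] at hg
    have h1 : (g : H).1 (h.1 x) = h.1 x := congrArg Subtype.val hg
    have h2 : (h⁻¹ * (g : H) * h) ∈ N := by
      have := hN.conj_mem g g.2 h⁻¹
      simpa using this
    have h3 : (h⁻¹ * (g : H) * h).1 x = x := by
      show (h.1⁻¹ : V ≃ₗ[ZMod q] V) ((g : H).1 (h.1 x)) = x
      rw [h1, inv_apply_self]
    have h4 := hfree _ h2 h3
    have h5 : (g : H) = 1 := by
      have h6 : (g : H) = h * (h⁻¹ * (g : H) * h) * h⁻¹ := by group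
      rw [h6, h4]
      group
    rw [Subgroup.mem_bot]
    exact Subtype.ext h5
  have hcard : Nat.card O = Nat.card (Quotient (MulAction.orbitRel N O)) * Nat.card N := by
    rw [Nat.card_congr (MulAction.selfEquivOrbitsQuotientProd hstab), Nat.card_prod]
  have hset : (MulAction.orbit H x : Set V) = MulAction.orbit S x := by
    ext y
    constructor
    · rintro ⟨h, rfl⟩
      obtain ⟨s, hs, e⟩ := hD.2 h.1 h.2 x
      exact ⟨⟨s, hs⟩, e.symm⟩
    · rintro ⟨s, rfl⟩
      exact ⟨⟨s.1, hD.1 s.2⟩, rfl⟩
  obtain ⟨k, hk⟩ := hpS.card_orbit x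
  have hO : Nat.card O = p ^ k := by
    rw [← hk]
    exact Nat.card_congr (Equiv.setCongr hset)
  have hdvd : Nat.card N ∣ p ^ k := by
    rw [← hO, hcard]
    exact dvd_mul_left _ _
  obtain ⟨j, -, hj⟩ := (Nat.dvd_prime_pow hp.out).mp hdvd
  exact IsPGroup.of_card hj

/-- An element of determinant one fixing a nonzero vector in dimension two is unipotent. -/
theorem pow_eq_one_of_det [Finite V] (hdim : Module.finrank (ZMod q) V ≤ 2)
    (g : V ≃ₗ[ZMod q] V) (hdet : LinearMap.det (g : V →ₗ[ZMod q] V) = 1) {x : V} (hx : x ≠ 0)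
    (hgx : g x = x) : g ^ q = 1 := by
  classical
  haveI : Module.Finite (ZMod q) V := Module.Finite.of_finite
  have hind1 : LinearIndependent (ZMod q) ![x] := by
    simpa using hx
  by_cases hspan : ∀ y : V, ∃ a : ZMod q, y = a • x
  · -- dimension one
    have hone : g = 1 := by
      ext y
      obtain ⟨a, rfl⟩ := hspan y
      simp [hgx, one_apply_eq]
    rw [hone, one_pow]
  push Not at hspan
  obtain ⟨y, hy⟩ := hspan
  have hind : LinearIndependent (ZMod q) ![x, y] := by
    rw [LinearIndependent.pair_iff]
    intro s t hst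
    have ht : t = 0 := by
      by_contra ht
      apply hy (-(t⁻¹ * s))
      have h1 : t • y = -(s • x) := by
        rw [eq_neg_iff_add_eq_zero, add_comm]
        exact hst
      calc y = t⁻¹ • (t • y) := by rw [smul_smul, inv_mul_cancel₀ ht, one_smul]
        _ = -(t⁻¹ * s) • x := by rw [h1, smul_neg, smul_smul, neg_smul]
    subst ht
    simp only [zero_smul, add_zero] at hst
    exact ⟨(smul_eq_zero.mp hst).resolve_right hx, rfl⟩
  have hfr : Module.finrank (ZMod q) V = 2 := by
    have h1 := hind.fintype_card_le_finrank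
    simp only [Fintype.card_fin] at h1
    omega
  let b : Module.Basis (Fin 2) (ZMod q) V :=
    basisOfLinearIndependentOfCardEqFinrank hind (by simpa using hfr.symm)
  have hb0 : b 0 = x := by simp [b]
  have hb1 : b 1 = y := by simp [b]
  set α := b.repr (g y) 0 with hα
  set β := b.repr (g y) 1 with hβ
  have hgy : g y = α • x + β • y := by
    have h1 := (b.sum_repr (g y)).symm
    rw [Fin.sum_univ_two, hb0, hb1] at h1
    exact h1
  have hdetβ : β = 1 := by
    have h1 := LinearMap.det_toMatrix b (g : V →ₗ[ZMod q] V)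
    rw [hdet, Matrix.det_fin_two] at h1
    simp only [LinearMap.toMatrix_apply, LinearEquiv.coe_coe, hb0, hb1] at h1
    rw [hgx] at h1
    have h2 : b.repr x = Finsupp.single 0 1 := by
      rw [← hb0]; exact b.repr_self 0
    rw [h2, ← hα, ← hβ] at h1
    simpa using h1
  have hpow : ∀ n : ℕ, (g ^ n) y = (n : ZMod q) • (α • x) + y := by
    intro n
    induction n with
    | zero => simp [one_apply_eq]
    | succ n ih =>
      rw [pow_succ', mul_apply_eq, ih, map_add, map_smul, map_smul, hgx, hgy, hdetβ, one_smul]
      push_cast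
      rw [add_smul, one_smul]
      abel
  have hpowx : ∀ n : ℕ, (g ^ n) x = x := by
    intro n
    induction n with
    | zero => rfl
    | succ n ih => rw [pow_succ', mul_apply_eq, ih, hgx]
  apply LinearEquiv.toLinearMap_injective
  apply b.ext
  intro i
  fin_cases i
  · show (g ^ q) (b 0) = b 0
    rw [hb0, hpowx]
  · show (g ^ q) (b 1) = b 1
    rw [hb1, hpow]
    simp

theorem isSolvable_of_finrank_le [Finite V] (hD : IsDominated H S) (hpS : IsPGroup p S)
    (hc : ¬ q ∣ Nat.card H) (hdim : Module.finrank (ZMod q) V ≤ 2) : Group.IsSolvable H := by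
  classical
  haveI : Finite (V ≃ₗ[ZMod q] V) := Finite.of_injective (fun f : V ≃ₗ[ZMod q] V => (f : V → V))
    DFunLike.coe_injective
  by_cases hV : ∃ x : V, x ≠ 0
  swap
  · push Not at hV
    haveI : Subsingleton H := by
      constructor
      intro a b
      apply Subtype.ext
      ext x
      rw [hV x, map_zero, map_zero]
    infer_instance
  obtain ⟨x, hx⟩ := hV
  -- the determinant kills commutators
  let δ : H →* (ZMod q)ˣ := (LinearEquiv.det).comp H.subtype
  have hδ : ∀ g ∈ commutator H, LinearMap.det ((g : V ≃ₗ[ZMod q] V) : V →ₗ[ZMod q] V) = 1 := by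
    intro g hg
    have h1 : commutator H ≤ δ.ker := by
      rw [commutator_def, Subgroup.commutator_le]
      intro a _ b _
      rw [MonoidHom.mem_ker, commutatorElement_def]
      simp only [map_mul, map_inv]
      rw [mul_comm (δ a), mul_assoc, mul_assoc]
      simp
    have h2 : δ g = 1 := (MonoidHom.mem_ker).mp (h1 hg)
    have h3 := congrArg (fun u : (ZMod q)ˣ => (u : ZMod q)) h2
    simpa [δ] using h3
  have hfree : ∀ g ∈ commutator H, g.1 x = x → g = 1 := by
    intro g hg hgx
    have h1 := pow_eq_one_of_det hdim g.1 (hδ g hg) hx hgx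
    have h2 : g ^ q = 1 := Subtype.ext (by simpa using h1)
    have h4 : orderOf g ∣ q := orderOf_dvd_of_pow_eq_one h2
    rcases (Nat.dvd_prime hq.out).mp h4 with h5 | h5
    · exact orderOf_eq_one_iff.mp h5
    · exfalso
      have h6 := orderOf_dvd_natCard g
      rw [h5] at h6
      exact hc h6
  have hP := isPGroup_of_free hD hpS (commutator H) x hfree
  haveI : Group.IsNilpotent (commutator H) := hP.isNilpotent
  haveI : Group.IsSolvable (commutator H) := inferInstance
  refine Group.isSolvable_of_ker_le_range (commutator H).subtype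
    (Abelianization.of (G := H)) ?_
  rw [Subgroup.range_subtype]
  intro g hg
  have h1 : (QuotientGroup.mk' (commutator H)) g = 1 := hg
  simpa using h1

end Cfsg.Agent.Lib.OrbDim2
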