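import Mathlib
import Cfsg.Agent.Lib.McConnellAdd
import Cfsg.Agent.Lib.PrimeDegAff

/-!
# Groups of additive automorphisms of a finite field moving each element within a coset

Let `G` act faithfully by additive automorphisms on the finite field `K` such that `(g a) ^ N = a ^ N`
where `N ∣ |K| - 1` is a power of the prime `p`.  Then `G` is solvable, under mild assumptions.
-/

set_option autoImplicit false
set_option linter.unusedSectionVars false
set_option linter.unusedVariables false

namespace Cfsg.Agent.Lib.OrbField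

open Finset

/-! ### Number theory -/

theorem geom_sum_mod_two {q : ℕ} (hq : Odd q) (n : ℕ) : (∑ i ∈ range n, q ^ i) % 2 = n % 2 := by
  induction n with
  | zero => simp
  | succ n ih =>
    rw [Finset.sum_range_succ, Nat.add_mod, ih]
    have h1 : q ^ n % 2 = 1 := Nat.odd_iff.mp (hq.pow)
    rw [h1]
    omega

theorem odd_pow_add_one_factor {x : ℤ} (hx : Odd x) (k : ℕ) :
    ∃ C : ℤ, Odd C ∧ x ^ (2 * k + 1) + 1 = (x + 1) * C := by
  induction k with
  | zero => exact ⟨1, odd_one, by ring⟩
  | succ k ih =>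
    obtain ⟨C, hC, e⟩ := ih
    refine ⟨x ^ 2 * C - x + 1, ?_, ?_⟩
    · have h1 : Odd (x ^ 2 * C) := (hx.pow).mul hC
      have h2 : Even (x ^ 2 * C - x) := h1.sub_odd hx
      exact h2.add_one
    · have h1 : x ^ (2 * (k + 1) + 1) = x ^ 2 * x ^ (2 * k + 1) := by ring
      rw [h1]
      have h2 : x ^ (2 * k + 1) = (x + 1) * C - 1 := by linarith
      rw [h2]
      ring

/-- If `q ^ n = p ^ e + 1` with `n ≥ 3`, then `q = 2` and `e = 1`. -/
theorem eq_two_of_pow_eq {q p n e : ℕ} (hq : q.Prime) (hp : p.Prime) (hn : 3 ≤ n)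
    (h : q ^ n = p ^ e + 1) : q = 2 ∧ e = 1 := by
  have he : e ≠ 0 := by
    rintro rfl
    have h1 : 2 ^ 3 ≤ q ^ n := by
      calc 2 ^ 3 ≤ q ^ 3 := Nat.pow_le_pow_left hq.two_le 3
        _ ≤ q ^ n := Nat.pow_le_pow_right hq.pos hn
    simp at h
    omega
  rcases hq.eq_two_or_odd' with rfl | hqodd
  · refine ⟨rfl, ?_⟩
    have hpodd : Odd p := by
      rcases hp.eq_two_or_odd' with rfl | h1
      · exfalso
        have h2 : 2 ∣ 2 ^ n := dvd_pow_self 2 (by omega)
        have h3 : 2 ∣ 2 ^ e := dvd_pow_self 2 he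
        rw [h] at h2
        omega
      · exact h1
    rcases Nat.even_or_odd' e with ⟨f, rfl | rfl⟩
    · -- even exponent: a square is one modulo eight
      exfalso
      have h1 : (p ^ f) % 2 = 1 := Nat.odd_iff.mp hpodd.pow
      have h2 : (p ^ (2 * f)) % 8 = 1 := by
        rw [mul_comm, pow_mul]
        have h3 : (p ^ f) % 8 = 1 ∨ (p ^ f) % 8 = 3 ∨ (p ^ f) % 8 = 5 ∨ (p ^ f) % 8 = 7 := by omega
        rcases h3 with h3 | h3 | h3 | h3 <;> simp [Nat.pow_mod, h3]
      have h4 : 8 ∣ 2 ^ n := by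
        have : (8 : ℕ) = 2 ^ 3 := by norm_num
        rw [this]
        exact pow_dvd_pow 2 hn
      rw [h] at h4
      omega
    · -- odd exponent
      have hpZ : Odd (p : ℤ) := by exact_mod_cast hpodd
      obtain ⟨C, hC, hCe⟩ := odd_pow_add_one_factor hpZ f
      have h1 : ((2 : ℤ) ^ n) = (p + 1) * C := by
        have : ((2 ^ n : ℕ) : ℤ) = ((p ^ (2 * f + 1) + 1 : ℕ) : ℤ) := by rw [h]
        push_cast at this
        rw [this, hCe]
      have hC1 : C ∣ 2 ^ n := ⟨p + 1, by rw [h1]; ring⟩
      have hCnat : C.natAbs ∣ 2 ^ n := by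
        have := Int.natAbs_dvd_natAbs.mpr hC1
        simpa [Int.natAbs_pow] using this
      obtain ⟨j, -, hj⟩ := (Nat.dvd_prime_pow Nat.prime_two).mp hCnat
      have hj0 : j = 0 := by
        by_contra hne
        have h2 : 2 ∣ C.natAbs := by rw [hj]; exact dvd_pow_self 2 hne
        have h3 : (2 : ℤ) ∣ C := Int.natCast_dvd.mpr h2
        exact (Int.not_even_iff_odd.mpr hC) (even_iff_two_dvd.mpr h3)
      rw [hj0, pow_zero] at hj
      have hCabs : C = 1 ∨ C = -1 := Int.natAbs_eq_iff.mp (by simpa using hj) |>.imp id id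
      have hCpos : 0 < C := by
        by_contra hle
        have h4 : (0 : ℤ) < 2 ^ n := by positivity
        have h5 : (0 : ℤ) < (p : ℤ) + 1 := by positivity
        rw [h1] at h4
        nlinarith
      have hC2 : C = 1 := by
        rcases hCabs with h3 | h3
        · exact h3
        · omega
      rw [hC2, mul_one] at hCe
      have h5 : (p : ℤ) ^ (2 * f + 1) = p := by linarith
      have h6 : p ^ (2 * f + 1) = p ^ 1 := by
        rw [pow_one]; exact_mod_cast h5
      have h7 := Nat.pow_right_injective hp.two_le h6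
      omega
  · exfalso
    have hpe : Even (p ^ e) := by
      have h1 : Odd (q ^ n) := hqodd.pow
      rw [h] at h1
      by_contra hne
      have h2 : Odd (p ^ e) := Nat.not_even_iff_odd.mp hne
      exact (Nat.not_even_iff_odd.mpr h1) h2.add_one
    have hp2 : p = 2 := by
      have h1 : 2 ∣ p ^ e := even_iff_two_dvd.mp hpe
      have h2 := Nat.prime_two.dvd_of_dvd_pow h1
      exact ((Nat.prime_dvd_prime_iff_eq Nat.prime_two hp).mp h2).symm
    subst hp2
    have hq3 : 3 ≤ q := by
      have := hq.two_le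
      have h1 := hqodd
      rcases Nat.lt_or_ge q 3 with h2 | h2
      · have : q = 2 := by omega
        subst this
        exact absurd h1 (by decide)
      · exact h2
    rcases Nat.even_or_odd' n with ⟨m, rfl | rfl⟩
    · -- even dimension
      have hm : 2 ≤ m := by omega
      have h1 : (q ^ m - 1) * (q ^ m + 1) = 2 ^ e := by
        have h2 : q ^ (2 * m) = q ^ m * q ^ m := by ring
        have h3 : 1 ≤ q ^ m := Nat.one_le_pow _ _ hq.pos
        obtain ⟨t, ht⟩ : ∃ t, q ^ m = t + 1 := ⟨q ^ m - 1, by omega⟩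
        rw [h2, ht] at h
        rw [ht]
        simp only [Nat.add_sub_cancel]
        nlinarith
      have h2 : q ^ m - 1 ∣ 2 ^ e := ⟨_, h1.symm⟩
      have h3 : q ^ m + 1 ∣ 2 ^ e := ⟨_, (by rw [← h1]; ring)⟩
      obtain ⟨a, -, ha⟩ := (Nat.dvd_prime_pow Nat.prime_two).mp h2
      obtain ⟨b, -, hb⟩ := (Nat.dvd_prime_pow Nat.prime_two).mp h3
      have h9 : 9 ≤ q ^ m := by
        calc 9 = 3 ^ 2 := by norm_num
          _ ≤ q ^ 2 := Nat.pow_le_pow_left hq3 2
          _ ≤ q ^ m := Nat.pow_le_pow_right hq.pos hm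
      have h4 : 2 ^ b = 2 ^ a + 2 := by omega
      have ha2 : 2 ≤ a := by
        by_contra hlt
        have : 2 ^ a ≤ 2 ^ 1 := Nat.pow_le_pow_right (by norm_num) (by omega)
        omega
      have hb2 : 2 ≤ b := by
        by_contra hlt
        have : 2 ^ b ≤ 2 ^ 1 := Nat.pow_le_pow_right (by norm_num) (by omega)
        omega
      have h5 : 4 ∣ 2 ^ a := by
        have : (4 : ℕ) = 2 ^ 2 := by norm_num
        rw [this]; exact pow_dvd_pow 2 ha2
      have h6 : 4 ∣ 2 ^ b := by
        have : (4 : ℕ) = 2 ^ 2 := by norm_num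
        rw [this]; exact pow_dvd_pow 2 hb2
      omega
    · -- odd dimension
      have h1 : (∑ i ∈ range (2 * m + 1), q ^ i) * (q - 1) = 2 ^ e := by
        have h2 := Nat.geomSum_eq hq.two_le (2 * m + 1)
        have h3 : (q - 1) ∣ q ^ (2 * m + 1) - 1 := by
          simpa using Nat.sub_dvd_pow_sub_pow q 1 (2 * m + 1)
        rw [h2, Nat.div_mul_cancel h3, h]
        simp
      have h2 : (∑ i ∈ range (2 * m + 1), q ^ i) ∣ 2 ^ e := ⟨_, h1.symm⟩
      obtain ⟨a, -, ha⟩ := (Nat.dvd_prime_pow Nat.prime_two).mp h2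
      have h3 := geom_sum_mod_two hqodd (2 * m + 1)
      have h4 : a = 0 := by
        by_contra hne
        have h5 : 2 ∣ ∑ i ∈ range (2 * m + 1), q ^ i := by
          rw [ha]; exact dvd_pow_self 2 hne
        omega
      rw [h4, pow_zero] at ha
      have h5 : q ^ 1 ≤ ∑ i ∈ range (2 * m + 1), q ^ i :=
        Finset.single_le_sum (f := fun i => q ^ i) (fun _ _ => Nat.zero_le _)
          (Finset.mem_range.mpr (by omega))
      have h6 : 0 + q ^ 1 + 0 ≤ q ^ 1 := by
        rw [add_zero, zero_add]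
      rw [pow_one] at h5
      omega

/-! ### The group theory -/

section Field

variable {K : Type*} [Field K] [Fintype K] {G : Type*} [Group G] {q : ℕ} [hq : Fact q.Prime]
  [hchar : CharP K q]

open Cfsg.Agent.Lib.PrimeDegAff in
/-- A faithful group of monomial additive maps is solvable. -/
theorem isSolvable_of_monomial (L : G →* Equiv.Perm K) (hinj : Function.Injective L)
    (h : ∀ g, ∃ (c : K) (i : ℕ), c ≠ 0 ∧ ∀ y, L g y = c * y ^ (q ^ i)) : Group.IsSolvable G := by
  let T : Subgroup G :=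
    { carrier := {g | ∃ c : K, ∀ y, L g y = c * y}
      one_mem' := ⟨1, by simp⟩
      mul_mem' := by
        rintro a b ⟨c, hc⟩ ⟨d, hd⟩
        refine ⟨c * d, fun y => ?_⟩
        rw [map_mul, Equiv.Perm.mul_apply, hd, hc, mul_assoc]
      inv_mem' := by
        rintro a ⟨c, hc⟩
        have hc0 : c ≠ 0 := by
          rintro rfl
          have h1 : L a 1 = L a 0 := by rw [hc, hc, zero_mul, zero_mul]
          have h2 := (L a).injective h1
          exact one_ne_zero h2
        refine ⟨c⁻¹, fun y => ?_⟩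
        have h1 : L a (L a⁻¹ y) = y := by
          rw [← Equiv.Perm.mul_apply, ← map_mul, mul_inv_cancel, map_one]; rfl
        rw [hc] at h1
        calc L a⁻¹ y = c⁻¹ * (c * L a⁻¹ y) := by rw [inv_mul_cancel_left₀ hc0]
          _ = c⁻¹ * y := by rw [h1] }
  refine isSolvable_of_commutators_mem T ?_ ?_
  · rintro a ⟨c, hc⟩ b ⟨d, hd⟩
    apply hinj
    ext y
    rw [map_mul, map_mul, Equiv.Perm.mul_apply, Equiv.Perm.mul_apply, hc, hd, hc, hd]
    ring
  · intro a b
    obtain ⟨c, i, hc0, hc⟩ := h a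
    obtain ⟨d, j, hd0, hd⟩ := h b
    set Q := q ^ i with hQ
    set Q' := q ^ j with hQ'
    have hba : ∀ y, L (b * a) y = d * c ^ Q' * y ^ (Q * Q') := by
      intro y
      rw [map_mul, Equiv.Perm.mul_apply, hc, hd, mul_pow, ← pow_mul, mul_assoc]
    have hab : ∀ y, L (a * b) y = c * d ^ Q * y ^ (Q * Q') := by
      intro y
      rw [map_mul, Equiv.Perm.mul_apply, hd, hc, mul_pow, ← pow_mul, mul_assoc, mul_comm Q']
    have hne : d * c ^ Q' ≠ 0 := mul_ne_zero hd0 (pow_ne_zero _ hc0)
    refine ⟨c * d ^ Q * (d * c ^ Q')⁻¹, fun z => ?_⟩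
    have hw : (a * b * a⁻¹ * b⁻¹) * (b * a) = a * b := by group
    obtain ⟨y, rfl⟩ : ∃ y, L (b * a) y = z := (L (b * a)).surjective z
    rw [← Equiv.Perm.mul_apply, ← map_mul, hw, hab, hba]
    field_simp

open Cfsg.Agent.Lib.PrimeDegAff in
/-- The Mersenne case: a group of odd order containing all multiplications, acting on the field with
a multiplicative group of prime order. -/
theorem isSolvable_mersenne [Finite G] (L : G →* Equiv.Perm K)
    (hL0 : ∀ g, L g 0 = 0) (hinj : Function.Injective L) {p : ℕ}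
    [hp : Fact p.Prime] (hcardU : Nat.card Kˣ = p) (hodd : Odd (Nat.card G))
    (hall : ∀ u : K, u ≠ 0 → ∃ g, ∀ a, L g a = u * a) : Group.IsSolvable G := by
  classical
  subst hcardU
  have hcyc : IsCyclic Kˣ := inferInstance
  let e₀ := zmodCyclicMulEquiv hcyc
  let e : Kˣ ≃ ZMod (Nat.card Kˣ) := e₀.symm.toEquiv.trans Multiplicative.toAdd
  have he_mul : ∀ u v : Kˣ, e (u * v) = e u + e v := by
    intro u v
    simp [e]
  have hne : ∀ (g : G) (u : Kˣ), L g (u : K) ≠ 0 := by
    intro g u h0
    have h1 : L g (u : K) = L g 0 := by rw [h0, hL0]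
    exact u.ne_zero ((L g).injective h1)
  let U : G →* Equiv.Perm Kˣ :=
    { toFun := fun g =>
        { toFun := fun u => Units.mk0 (L g (u : K)) (hne g u)
          invFun := fun u => Units.mk0 (L g⁻¹ (u : K)) (hne g⁻¹ u)
          left_inv := fun u => by
            apply Units.ext
            simp only [Units.val_mk0]
            rw [← Equiv.Perm.mul_apply, ← map_mul, inv_mul_cancel, map_one]; rfl
          right_inv := fun u => by
            apply Units.ext
            simp only [Units.val_mk0]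
            rw [← Equiv.Perm.mul_apply, ← map_mul, mul_inv_cancel, map_one]; rfl }
      map_one' := by
        ext u
        simp
      map_mul' := by
        intro g h
        ext u
        simp }
  have hU : ∀ (g : G) (u : Kˣ), ((U g u : Kˣ) : K) = L g (u : K) := fun _ _ => rfl
  let Λ : G →* Equiv.Perm (ZMod (Nat.card Kˣ)) := e.permCongrHom.toMonoidHom.comp U
  have hΛ : ∀ (g : G) (i : ZMod (Nat.card Kˣ)), Λ g i = e (U g (e.symm i)) := fun _ _ => rfl
  have hT : ∀ c : ZMod (Nat.card Kˣ), Equiv.addRight c ∈ Λ.range := by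
    intro c
    obtain ⟨g, hg⟩ := hall ((e.symm c : Kˣ) : K) (Units.ne_zero _)
    refine ⟨g, ?_⟩
    ext i
    rw [hΛ]
    have h1 : U g (e.symm i) = e.symm c * e.symm i := by
      apply Units.ext
      rw [hU, hg]
      rfl
    rw [h1, he_mul, Equiv.apply_symm_apply, Equiv.apply_symm_apply, add_comm]
    rfl
  haveI : Finite Λ.range := inferInstance
  have hoddR : Odd (Nat.card Λ.range) :=
    Odd.of_dvd_nat hodd (Subgroup.card_range_dvd Λ)
  have haff := fun γ (hγ : γ ∈ Λ.range) => affine_of_odd_order hT hoddR hγ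
  haveI hsol : Group.IsSolvable Λ.range := isSolvable_of_affine Λ.range haff
  have hinjΛ : Function.Injective Λ.rangeRestrict := by
    rw [injective_iff_map_eq_one]
    intro g hg
    have h1 : Λ g = 1 := congrArg Subtype.val hg
    apply hinj
    ext a
    by_cases ha : a = 0
    · subst ha; simp [hL0]
    · have h2 := congrArg (fun τ : Equiv.Perm (ZMod (Nat.card Kˣ)) => τ (e (Units.mk0 a ha))) h1
      simp only [hΛ, Equiv.symm_apply_apply, Equiv.Perm.coe_one, id_eq] at h2
      have h3 := e.injective h2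
      have h4 := congrArg (fun u : Kˣ => (u : K)) h3
      simpa [hU] using h4
  exact Group.isSolvable_of_isSolvable_injective hinjΛ

/-- **The cyclic case of the orbit theorem**, in field form. -/
theorem isSolvable_of_pow_eq [Finite G] (L : G →* Equiv.Perm K)
    (hadd : ∀ g a b, L g (a + b) = L g a + L g b) (hinj : Function.Injective L) {p : ℕ}
    [hp : Fact p.Prime] (e : ℕ) (hNdvd : p ^ e ∣ Fintype.card K - 1)
    (hNpow : ∀ g a, (L g a) ^ (p ^ e) = a ^ (p ^ e)) (n : ℕ) (hcard : Fintype.card K = q ^ n)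
    (hn : 3 ≤ n) (hc : ¬ q ∣ Nat.card G)
    (hall : p ^ e + 1 = Fintype.card K → ∀ u : K, u ≠ 0 → ∃ g, ∀ a, L g a = u * a) :
    Group.IsSolvable G := by
  have hpos : 0 < Fintype.card K - 1 := by
    have h1 : 2 ^ 3 ≤ q ^ n := by
      calc 2 ^ 3 ≤ q ^ 3 := Nat.pow_le_pow_left hq.out.two_le 3
        _ ≤ q ^ n := Nat.pow_le_pow_right hq.out.pos hn
    omega
  have hNle := Nat.le_of_dvd hpos hNdvd
  have hcard1 : 1 < Fintype.card K := Fintype.one_lt_card
  have hL0 : ∀ g, L g 0 = 0 := by
    intro g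
    have h1 := hadd g 0 0
    rw [add_zero] at h1
    exact left_eq_add.mp h1
  by_cases hlt : p ^ e + 1 < Fintype.card K
  · refine isSolvable_of_monomial (q := q) L hinj fun g => ?_
    let A : K →+ K :=
      { toFun := L g
        map_zero' := hL0 g
        map_add' := hadd g }
    obtain ⟨c, i, hc0, hci⟩ := Cfsg.Agent.Lib.McConnellAdd.monomial_of_pow_eq (l := q)
      A (L g).bijective (p ^ e) (pow_pos hp.out.pos e) hNdvd hlt (hNpow g)
    exact ⟨c, i, hc0, hci⟩
  · have heq : p ^ e + 1 = Fintype.card K := by omega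
    have h1 : q ^ n = p ^ e + 1 := by rw [← hcard, heq]
    obtain ⟨hq2, he1⟩ := eq_two_of_pow_eq hq.out hp.out hn h1
    subst he1
    have hUcard : Nat.card Kˣ = p := by
      classical
      rw [Nat.card_eq_fintype_card, Fintype.card_units]
      rw [pow_one] at heq
      omega
    have hodd : Odd (Nat.card G) := by
      rw [← Nat.not_even_iff_odd, even_iff_two_dvd]
      rwa [hq2] at hc
    exact isSolvable_mersenne L hL0 hinj hUcard hodd (hall heq)

end Field

end Cfsg.Agent.Lib.OrbField
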