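import Mathlib
import Cfsg.Agent.Lib.OrbBlocks
import Cfsg.Agent.Lib.Frat

/-!
# Commutative algebras normalized by an irreducible `p`-group

If a finite `p`-group `S` acts irreducibly on `V` and normalizes a commutative subalgebra `R` of
`End V`, then either `R` is a field, or `V` has a system of `p` blocks permuted by `S`.
-/

set_option autoImplicit false
set_option linter.unusedSectionVars false
set_option linter.unusedVariables false
set_option linter.style.haveILetI false

namespace Cfsg.Agent.Lib.OrbIdem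

open Cfsg.Agent.Lib.OrbDom Cfsg.Agent.Lib.OrbBlocks

universe u

variable {q : ℕ} [hq : Fact q.Prime]
variable {V : Type u} [AddCommGroup V] [Module (ZMod q) V]

/-- Conjugation of endomorphisms by a linear automorphism. -/
def cj (s : V ≃ₗ[ZMod q] V) : Module.End (ZMod q) V →+* Module.End (ZMod q) V where
  toFun x := s.toLinearMap ∘ₗ x ∘ₗ s.symm.toLinearMap
  map_one' := by ext v; simp
  map_mul' x y := by ext v; simp
  map_zero' := by ext v; simp
  map_add' x y := by ext v; simp

@[simp] theorem cj_apply (s : V ≃ₗ[ZMod q] V) (x : Module.End (ZMod q) V) (v : V) :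
    cj s x v = s (x (s.symm v)) := rfl

theorem cj_apply' (s : V ≃ₗ[ZMod q] V) (x : Module.End (ZMod q) V) (v : V) :
    cj s x (s v) = s (x v) := by simp

theorem cj_mul (s t : V ≃ₗ[ZMod q] V) (x : Module.End (ZMod q) V) :
    cj (s * t) x = cj s (cj t x) := rfl

theorem cj_one (x : Module.End (ZMod q) V) : cj (1 : V ≃ₗ[ZMod q] V) x = x := rfl

theorem cj_inv_cj (s : V ≃ₗ[ZMod q] V) (x : Module.End (ZMod q) V) : cj s⁻¹ (cj s x) = x := by
  rw [← cj_mul, inv_mul_cancel, cj_one]

theorem cj_cj_inv (s : V ≃ₗ[ZMod q] V) (x : Module.End (ZMod q) V) : cj s (cj s⁻¹ x) = x := by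
  rw [← cj_mul, mul_inv_cancel, cj_one]

theorem cj_injective (s : V ≃ₗ[ZMod q] V) : Function.Injective (cj s) := fun x y h => by
  rw [← cj_inv_cj s x, h, cj_inv_cj]

/-- A finite family of commuting nilpotent endomorphisms has a common nonzero kernel vector. -/
theorem exists_common_ker [Nontrivial V] {ι : Type*} (T : Finset ι)
    (y : ι → Module.End (ZMod q) V) (hcomm : ∀ i ∈ T, ∀ j ∈ T, y i * y j = y j * y i)
    (hnil : ∀ i ∈ T, IsNilpotent (y i)) : ∃ v : V, v ≠ 0 ∧ ∀ i ∈ T, y i v = 0 := by
  classical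
  induction T using Finset.induction_on with
  | empty =>
    obtain ⟨v, hv⟩ := exists_ne (0 : V)
    exact ⟨v, hv, by simp⟩
  | insert a T ha ih =>
    obtain ⟨v, hv, hvT⟩ := ih (fun i hi j hj => hcomm i (Finset.mem_insert_of_mem hi) j
      (Finset.mem_insert_of_mem hj)) (fun i hi => hnil i (Finset.mem_insert_of_mem hi))
    obtain ⟨m, hm⟩ := hnil a (Finset.mem_insert_self a T)
    have hex : ∃ k, (y a ^ k) v = 0 := ⟨m, by rw [hm]; rfl⟩
    classical
    let k := Nat.find hex
    have hk : (y a ^ k) v = 0 := Nat.find_spec hex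
    have hk0 : k ≠ 0 := by
      intro h0
      rw [h0, pow_zero] at hk
      exact hv hk
    obtain ⟨l, hl⟩ : ∃ l, k = l + 1 := ⟨k - 1, by omega⟩
    have hl' : (y a ^ l) v ≠ 0 := Nat.find_min hex (by omega : l < k)
    refine ⟨(y a ^ l) v, hl', ?_⟩
    intro i hi
    rcases Finset.mem_insert.mp hi with rfl | hi
    · rw [hl, pow_succ'] at hk
      exact hk
    · have hc : Commute (y i) (y a) :=
        hcomm i (Finset.mem_insert_of_mem hi) a (Finset.mem_insert_self a T)
      have h1 : y i * y a ^ l = y a ^ l * y i := (hc.pow_right l).eq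
      have h2 := congrArg (fun z : Module.End (ZMod q) V => z v) h1
      simp only [Module.End.mul_apply] at h2
      rw [h2, hvT i hi, map_zero]

/-- In a finite monoid every element has an idempotent positive power. -/
theorem exists_idem_pow {M : Type*} [Monoid M] [Finite M] (x : M) :
    ∃ m, 0 < m ∧ x ^ m * x ^ m = x ^ m := by
  obtain ⟨i, j, hij, h⟩ := Finite.exists_ne_map_eq_of_infinite (fun n : ℕ => x ^ n)
  wlog hlt : i < j generalizing i j
  · exact this j i hij.symm h.symm (by omega)
  obtain ⟨n, hn, rfl⟩ : ∃ n, 0 < n ∧ j = i + n := ⟨j - i, by omega, by omega⟩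
  have hstep : ∀ t, x ^ (i + t * n) = x ^ i := by
    intro t
    induction t with
    | zero => simp
    | succ t ih =>
      rw [show i + (t + 1) * n = (i + n) + t * n by ring, pow_add, ← h, ← pow_add, ih]
  refine ⟨(i + 1) * n, Nat.mul_pos (by omega) hn, ?_⟩
  -- `x ^ m * x ^ m = x ^ (m + m)`, with `m = i + (i * n + n - i)`.
  have hm : (i + 1) * n = i + ((i + 1) * n - i) := by
    have : i ≤ (i + 1) * n := by nlinarith
    omega
  have h3 : ∀ a, x ^ (i + a + (i + 1) * n) = x ^ (i + a) := by
    intro a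
    rw [show i + a + (i + 1) * n = (i + (i + 1) * n) + a by ring, pow_add, hstep, ← pow_add]
  rw [← pow_add]
  conv_lhs => rw [show (i + 1) * n + (i + 1) * n = i + ((i + 1) * n - i) + (i + 1) * n by omega]
  rw [h3, ← hm]

/-- A proper subgroup of a finite `p`-group lies in the kernel of an epimorphism onto `ZMod p`. -/
theorem exists_hom_zmod {G : Type*} [Group G] [Finite G] {p : ℕ} [hp : Fact p.Prime]
    (hG : IsPGroup p G) (T : Subgroup G) (hT : T ≠ ⊤) :
    ∃ c : G →* Multiplicative (ZMod p), Function.Surjective c ∧ T ≤ c.ker := by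
  obtain ⟨M, hM, hTM⟩ : ∃ M : Subgroup G, IsCoatom M ∧ T ≤ M := by
    rcases eq_top_or_exists_le_coatom T with h | h
    · exact absurd h hT
    · exact h
  have hidx := Cfsg.Agent.Lib.Frat.index_eq_of_isCoatom hG hM
  have hn : M.Normal := by
    have h1 := Cfsg.Agent.Lib.Frat.commutator_and_pow_mem_of_isCoatom hG hM
    exact Cfsg.Agent.Lib.Frat.normal_of_commutator_le h1.1
  have hcard : Nat.card (G ⧸ M) = p := by rw [← Subgroup.index_eq_card, hidx]
  have hcard' : Nat.card (Multiplicative (ZMod p)) = p := by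
    rw [Nat.card_congr Multiplicative.toAdd, Nat.card_zmod]
  let e : (G ⧸ M) ≃* Multiplicative (ZMod p) := mulEquivOfPrimeCardEq hcard hcard'
  refine ⟨e.toMonoidHom.comp (QuotientGroup.mk' M), ?_, ?_⟩
  · exact e.surjective.comp (QuotientGroup.mk'_surjective M)
  · intro t ht
    rw [MonoidHom.mem_ker]
    have h1 : (QuotientGroup.mk' M) t = 1 := (QuotientGroup.eq_one_iff t).mpr (hTM ht)
    rw [MonoidHom.comp_apply, h1, map_one]

theorem idem_apply_of_mem_range {e : Module.End (ZMod q) V} (he : e * e = e) {w : V}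
    (hw : w ∈ LinearMap.range e) : e w = w := by
  obtain ⟨v, rfl⟩ := hw
  have := congrArg (fun z : Module.End (ZMod q) V => z v) he
  simpa using this

theorem sub_eq_of_card_le [Finite V] {W W' : Submodule (ZMod q) V} (h : W ≤ W')
    (hc : Nat.card W' ≤ Nat.card W) : W = W' := by
  apply SetLike.coe_injective
  refine Set.eq_of_subset_of_ncard_le h ?_ (Set.toFinite _)
  simpa [← Nat.card_coe_set_eq] using hc

theorem card_range_cj_le [Finite V] (s : V ≃ₗ[ZMod q] V) (e : Module.End (ZMod q) V) :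
    Nat.card (LinearMap.range (cj s e)) ≤ Nat.card (LinearMap.range e) := by
  let g : LinearMap.range (cj s e) → LinearMap.range e := fun w =>
    ⟨s.symm w.1, by
      obtain ⟨v, hv⟩ := w.2
      refine ⟨s.symm v, ?_⟩
      rw [← hv, cj_apply, LinearEquiv.symm_apply_apply]⟩
  refine Nat.card_le_card_of_injective g ?_
  intro a b hab
  have h1 : s.symm a.1 = s.symm b.1 := congrArg Subtype.val hab
  exact Subtype.ext (s.symm.injective h1)

theorem card_range_cj [Finite V] (s : V ≃ₗ[ZMod q] V) (e : Module.End (ZMod q) V) :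
    Nat.card (LinearMap.range (cj s e)) = Nat.card (LinearMap.range e) := by
  refine le_antisymm (card_range_cj_le s e) ?_
  have := card_range_cj_le s⁻¹ (cj s e)
  rwa [cj_inv_cj] at this

theorem eq_of_range_eq {e e' : Module.End (ZMod q) V} (he : e * e = e) (he' : e' * e' = e')
    (hcomm : e * e' = e' * e) (h : LinearMap.range e = LinearMap.range e') : e = e' := by
  ext v
  have h1 : e' (e v) = e v := idem_apply_of_mem_range he' (by rw [← h]; exact ⟨v, rfl⟩)
  have h2 : e (e' v) = e' v := idem_apply_of_mem_range he (by rw [h]; exact ⟨v, rfl⟩)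
  have h3 := congrArg (fun z : Module.End (ZMod q) V => z v) hcomm
  simp only [Module.End.mul_apply] at h3
  rw [← h1, ← h3, h2]

variable {p : ℕ} [hp : Fact p.Prime]

/-- **Blocks or a field**. -/
theorem blocks_or_injective [Finite V] [Nontrivial V] (S : Subgroup (V ≃ₗ[ZMod q] V))
    (hpS : IsPGroup p S)
    (hirr : ∀ W : Submodule (ZMod q) V, (∀ s ∈ S, ∀ w ∈ W, s w ∈ W) → W = ⊥ ∨ W = ⊤)
    (R : Subalgebra (ZMod q) (Module.End (ZMod q) V))
    (hcomm : ∀ x ∈ R, ∀ y ∈ R, x * y = y * x)
    (hnorm : ∀ s ∈ S, ∀ x ∈ R, cj s x ∈ R) :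
    (∃ (f : ZMod p → Module.End (ZMod q) V) (c : (V ≃ₗ[ZMod q] V) → ZMod p), BlockData S f c) ∨
      (∀ x ∈ R, x ≠ 0 → Function.Injective x) := by
  classical
  haveI : Finite (Module.End (ZMod q) V) :=
    Finite.of_injective (fun f : Module.End (ZMod q) V => (f : V → V)) DFunLike.coe_injective
  haveI : Finite (V ≃ₗ[ZMod q] V) := Finite.of_injective (fun f : V ≃ₗ[ZMod q] V => (f : V → V))
    DFunLike.coe_injective
  haveI : Fintype S := Fintype.ofFinite S
  by_cases hall : ∀ x ∈ R, x ≠ 0 → Function.Injective x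
  · exact Or.inr hall
  left
  push Not at hall
  obtain ⟨x, hxR, hx0, hxinj⟩ := hall
  -- a nonzero invariant subspace is everything
  have htop : ∀ W : Submodule (ZMod q) V, (∀ s ∈ S, ∀ w ∈ W, s w ∈ W) → W ≠ ⊥ → W = ⊤ :=
    fun W hW hne => (hirr W hW).resolve_left hne
  have hrange_top : ∀ e : Module.End (ZMod q) V, e * e = e → e ≠ 0 →
      (∀ s ∈ S, cj s e = e) → e = 1 := by
    intro e he he0 hinv
    have h1 : LinearMap.range e = ⊤ := by
      apply htop
      · rintro s hs _ ⟨v, rfl⟩
        refine ⟨s v, ?_⟩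
        have := cj_apply' s e v
        rw [hinv s hs] at this
        exact this
      · intro hbot
        apply he0
        rw [LinearMap.range_eq_bot] at hbot
        exact hbot
    ext v
    have hv : v ∈ LinearMap.range e := by rw [h1]; trivial
    exact idem_apply_of_mem_range he hv
  -- Step 1: a nontrivial idempotent
  obtain ⟨m, hm, hmi⟩ := exists_idem_pow x
  have he1 : x ^ m ≠ 1 := by
    intro h
    apply hxinj
    obtain ⟨l, rfl⟩ : ∃ l, m = l + 1 := ⟨m - 1, by omega⟩
    intro a b hab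
    have h2 : ∀ v, (x ^ l) (x v) = v := by
      intro v
      have := congrArg (fun z : Module.End (ZMod q) V => z v) h
      simpa [pow_succ] using this
    rw [← h2 a, ← h2 b, hab]
  have he0 : x ^ m ≠ 0 := by
    intro hzero
    obtain ⟨v, hv, hker⟩ := exists_common_ker (q := q) (V := V) (Finset.univ : Finset S)
      (fun s => cj s.1 x)
      (fun s _ t _ => hcomm _ (hnorm s.1 s.2 x hxR) _ (hnorm t.1 t.2 x hxR))
      (fun s _ => ⟨m, by rw [← map_pow, hzero, map_zero]⟩)
    let W : Submodule (ZMod q) V :=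
      { carrier := {w | ∀ s ∈ S, cj s x w = 0}
        add_mem' := by
          intro a b ha hb s hs
          rw [map_add, ha s hs, hb s hs, add_zero]
        zero_mem' := by
          intro s hs
          rw [map_zero]
        smul_mem' := by
          intro c a ha s hs
          rw [map_smul, ha s hs, smul_zero] }
    have hW : W = ⊤ := by
      apply htop
      · intro g hg w hw s hs
        have h1 := hw (g⁻¹ * s) (S.mul_mem (S.inv_mem hg) hs)
        have h2 : cj s x (g w) = g (cj (g⁻¹ * s) x w) := by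
          have h3 : cj s x = cj g (cj (g⁻¹ * s) x) := by
            rw [← cj_mul, mul_inv_cancel_left]
          rw [h3, cj_apply']
        rw [h2, h1, map_zero]
      · intro hbot
        have h1 : v ∈ W := fun s hs => hker ⟨s, hs⟩ (Finset.mem_univ _)
        rw [hbot, Submodule.mem_bot] at h1
        exact hv h1
    apply hx0
    ext w
    have h1 : w ∈ W := by rw [hW]; trivial
    exact h1 1 S.one_mem
  -- Step 2: a minimal idempotent
  let P : Set (Module.End (ZMod q) V) := {e | e ∈ R ∧ e * e = e ∧ e ≠ 0}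
  let μ : Module.End (ZMod q) V → ℕ := fun e => Nat.card (LinearMap.range e)
  obtain ⟨e₀, he₀P, he₀min⟩ := Set.exists_min_image P μ (Set.toFinite _)
    ⟨x ^ m, R.pow_mem hxR m, hmi, he0⟩
  have he₀1 : e₀ ≠ 1 := by
    intro h
    have h1 : μ e₀ ≤ μ (x ^ m) := he₀min _ ⟨R.pow_mem hxR m, hmi, he0⟩
    have h2 : LinearMap.range (x ^ m) = LinearMap.range e₀ :=
      sub_eq_of_card_le (by rw [h, show LinearMap.range (1 : Module.End (ZMod q) V) = ⊤ from LinearMap.range_id]; exact le_top) h1
    rw [h, show LinearMap.range (1 : Module.End (ZMod q) V) = ⊤ from LinearMap.range_id] at h2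
    apply he1
    ext v
    have hv : v ∈ LinearMap.range (x ^ m) := by rw [h2]; trivial
    exact idem_apply_of_mem_range hmi hv
  -- minimal idempotents
  let Mn : Set (Module.End (ZMod q) V) := {e | e ∈ P ∧ ∀ b ∈ P, μ e ≤ μ b}
  have hMn₀ : e₀ ∈ Mn := ⟨he₀P, he₀min⟩
  have hMn_conj : ∀ s ∈ S, ∀ e ∈ Mn, cj s e ∈ Mn := by
    intro s hs e he
    refine ⟨⟨hnorm s hs e he.1.1, ?_, ?_⟩, ?_⟩
    · rw [← map_mul, he.1.2.1]
    · intro h
      apply he.1.2.2
      apply cj_injective s
      rw [h, map_zero]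
    · intro b hb
      have h1 : μ (cj s e) = μ e := card_range_cj s e
      rw [h1]
      exact he.2 b hb
  have hMn_orth : ∀ e ∈ Mn, ∀ e' ∈ Mn, e ≠ e' → e * e' = 0 := by
    intro e he e' he' hne
    by_contra hy
    have hc := hcomm e he.1.1 e' he'.1.1
    have hyP : e * e' ∈ P := by
      refine ⟨R.mul_mem he.1.1 he'.1.1, ?_, hy⟩
      calc e * e' * (e * e') = (e * e) * (e' * e') := by
            rw [mul_assoc, ← mul_assoc e' e e', ← hc]
            simp only [mul_assoc]
        _ = e * e' := by rw [he.1.2.1, he'.1.2.1]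
    have h1 : LinearMap.range (e * e') = LinearMap.range e :=
      sub_eq_of_card_le (by rintro _ ⟨v, rfl⟩; exact ⟨e' v, rfl⟩) (he.2 _ hyP)
    have h2 : LinearMap.range (e * e') = LinearMap.range e' := by
      refine sub_eq_of_card_le ?_ (he'.2 _ hyP)
      rw [hc]
      rintro _ ⟨v, rfl⟩
      exact ⟨e v, rfl⟩
    exact hne (eq_of_range_eq he.1.2.1 he'.1.2.1 hc (h1.symm.trans h2))
  -- Step 5: the stabilizer is proper
  let T : Subgroup S :=
    { carrier := {s | cj s.1 e₀ = e₀}
      one_mem' := cj_one e₀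
      mul_mem' := by
        intro a b ha hb
        show cj (a.1 * b.1) e₀ = e₀
        rw [cj_mul]
        have hb' : cj b.1 e₀ = e₀ := hb
        have ha' : cj a.1 e₀ = e₀ := ha
        rw [hb', ha']
      inv_mem' := by
        intro a ha
        have ha' : cj a.1 e₀ = e₀ := ha
        show cj (a.1)⁻¹ e₀ = e₀
        nth_rewrite 1 [← ha']
        exact cj_inv_cj _ _ }
  have hT : T ≠ ⊤ := by
    intro h
    apply he₀1
    refine hrange_top e₀ he₀P.2.1 he₀P.2.2 fun s hs => ?_
    have : (⟨s, hs⟩ : S) ∈ T := by rw [h]; trivial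
    exact this
  obtain ⟨c₀, hc₀s, hc₀T⟩ := exists_hom_zmod hpS T hT
  let c' : S → ZMod p := fun s => Multiplicative.toAdd (c₀ s)
  have hc'mul : ∀ s t, c' (s * t) = c' s + c' t := fun s t => by simp [c']
  have hc'inv : ∀ s, c' s⁻¹ = - c' s := fun s => by simp [c']
  have hc'surj : ∀ i, ∃ s, c' s = i := fun i => by
    obtain ⟨s, hs⟩ := hc₀s (Multiplicative.ofAdd i)
    exact ⟨s, by simp [c', hs]⟩
  have hc'st : ∀ s t : S, cj s.1 e₀ = cj t.1 e₀ → c' s = c' t := by
    intro s t hst
    have h1 : t⁻¹ * s ∈ T := by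
      show cj ((t⁻¹ * s : S) : V ≃ₗ[ZMod q] V) e₀ = e₀
      rw [Subgroup.coe_mul, cj_mul, hst, Subgroup.coe_inv, cj_inv_cj]
    have h2 := hc₀T h1
    rw [MonoidHom.mem_ker] at h2
    have h3 : c' (t⁻¹ * s) = 0 := by
      show Multiplicative.toAdd (c₀ (t⁻¹ * s)) = 0
      rw [h2]; rfl
    rw [hc'mul, hc'inv] at h3
    exact (neg_add_eq_zero.mp h3).symm
  -- Step 7: the blocks
  let Oi : ZMod p → Finset (Module.End (ZMod q) V) := fun i =>
    (Finset.univ.filter fun s : S => c' s = i).image fun s => cj s.1 e₀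
  have hmemO : ∀ i e, e ∈ Oi i ↔ ∃ s : S, c' s = i ∧ cj s.1 e₀ = e := by
    intro i e
    simp [Oi]
  have hOMn : ∀ i, ∀ e ∈ Oi i, e ∈ Mn := by
    intro i e he
    obtain ⟨s, -, rfl⟩ := (hmemO i e).mp he
    exact hMn_conj s.1 s.2 e₀ hMn₀
  have hOdisj : ∀ i j, i ≠ j → ∀ e ∈ Oi i, e ∉ Oi j := by
    intro i j hij e he he'
    obtain ⟨s, hs, rfl⟩ := (hmemO i e).mp he
    obtain ⟨t, ht, hte⟩ := (hmemO j _).mp he'
    apply hij
    rw [← hs, ← ht]
    exact hc'st s t hte.symm
  let f : ZMod p → Module.End (ZMod q) V := fun i => ∑ e ∈ Oi i, e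
  have hemulf : ∀ i j, ∀ e ∈ Oi i, e * f j = if i = j then e else 0 := by
    intro i j e he
    have hMe := hOMn i e he
    show e * ∑ e' ∈ Oi j, e' = _
    rw [Finset.mul_sum]
    split_ifs with hij
    · subst hij
      rw [Finset.sum_eq_single e]
      · exact hMe.1.2.1
      · intro b hb hne
        exact hMn_orth e hMe b (hOMn i b hb) hne.symm
      · intro h
        exact absurd he h
    · apply Finset.sum_eq_zero
      intro b hb
      refine hMn_orth e hMe b (hOMn j b hb) ?_
      rintro rfl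
      exact hOdisj i j hij e he hb
  have hfmulf : ∀ i j, f i * f j = if i = j then f i else 0 := by
    intro i j
    show (∑ e ∈ Oi i, e) * f j = _
    rw [Finset.sum_mul]
    split_ifs with hij
    · apply Finset.sum_congr rfl
      intro e he
      rw [hemulf i j e he, if_pos hij]
    · apply Finset.sum_eq_zero
      intro e he
      rw [hemulf i j e he, if_neg hij]
  have hfne : ∀ i, f i ≠ 0 := by
    intro i h0
    obtain ⟨s, hs⟩ := hc'surj i
    have he : cj s.1 e₀ ∈ Oi i := (hmemO i _).mpr ⟨s, hs, rfl⟩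
    have h1 := hemulf i i _ he
    rw [h0, mul_zero, if_pos rfl] at h1
    exact (hOMn i _ he).1.2.2 h1.symm
  have hfconj : ∀ (s : S) (i : ZMod p), cj s.1 (f i) = f (i + c' s) := by
    intro s i
    have himg : Oi (i + c' s) = (Oi i).image (cj s.1) := by
      ext e
      rw [hmemO, Finset.mem_image]
      constructor
      · rintro ⟨t, ht, rfl⟩
        refine ⟨cj (s⁻¹ * t : S).1 e₀, (hmemO i _).mpr ⟨s⁻¹ * t, ?_, rfl⟩, ?_⟩
        · rw [hc'mul, hc'inv, ht]
          ring
        · rw [← cj_mul]
          have h9 : s.1 * (s⁻¹ * t : S).1 = t.1 := by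
            show s.1 * (s.1⁻¹ * t.1) = t.1
            rw [mul_inv_cancel_left]
          rw [h9]
      · rintro ⟨e', he', rfl⟩
        obtain ⟨t, ht, rfl⟩ := (hmemO i _).mp he'
        refine ⟨s * t, ?_, ?_⟩
        · rw [hc'mul, ht]
          ring
        · rw [Subgroup.coe_mul, cj_mul]
    show cj s.1 (∑ e ∈ Oi i, e) = ∑ e ∈ Oi (i + c' s), e
    rw [himg, Finset.sum_image (fun a _ b _ h => cj_injective s.1 h), map_sum]
  have hsum : ∑ i, f i = 1 := by
    refine hrange_top _ ?_ ?_ ?_
    · rw [Finset.sum_mul_sum]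
      apply Finset.sum_congr rfl
      intro i _
      rw [Finset.sum_eq_single i]
      · rw [hfmulf, if_pos rfl]
      · intro j _ hj
        rw [hfmulf, if_neg hj.symm]
      · simp
    · intro h0
      have h1 : f 0 * ∑ i, f i = f 0 := by
        rw [Finset.mul_sum, Finset.sum_eq_single 0]
        · rw [hfmulf, if_pos rfl]
        · intro j _ hj
          rw [hfmulf, if_neg hj.symm]
        · simp
      rw [h0, mul_zero] at h1
      exact hfne 0 h1.symm
    · intro s hs
      rw [map_sum]
      have := Equiv.sum_comp (Equiv.addRight (c' ⟨s, hs⟩)) f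
      simp only [Equiv.coe_addRight] at this
      rw [← this]
      apply Finset.sum_congr rfl
      intro i _
      exact hfconj ⟨s, hs⟩ i
  refine ⟨f, fun g => if h : g ∈ S then c' ⟨g, h⟩ else 0, ?_⟩
  refine ⟨?_, ?_, ?_, hfne, ?_, ?_⟩
  · intro i y
    have := congrArg (fun z : Module.End (ZMod q) V => z y) (hfmulf i i)
    simpa using this
  · intro i j hij y
    have := congrArg (fun z : Module.End (ZMod q) V => z y) (hfmulf i j)
    simpa [hij] using this
  · intro y
    have := congrArg (fun z : Module.End (ZMod q) V => z y) hsum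
    simpa using this
  · intro s hs i y
    rw [dif_pos hs]
    rw [← hfconj ⟨s, hs⟩ i]
    exact (cj_apply' s (f i) y).symm
  · obtain ⟨t, ht⟩ := hc'surj 1
    exact ⟨t.1, t.2, by rw [dif_pos t.2]; exact ht⟩

end Cfsg.Agent.Lib.OrbIdem
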