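import Mathlib
import Cfsg.Agent.Lib.OrbField
import Cfsg.Agent.Lib.OrbDim2
import Cfsg.Agent.Lib.OrbIdem

/-!
# The field case of the orbit theorem

If the dominating `p`-group lies in a field `K` of endomorphisms with `V = K x₀`, then the dominated
group is solvable.
-/

set_option autoImplicit false
set_option linter.unusedSectionVars false
set_option linter.unusedVariables false
set_option linter.style.haveILetI false

namespace Cfsg.Agent.Lib.OrbCyc

open Cfsg.Agent.Lib.OrbDom

universe u

variable {q : ℕ} [hq : Fact q.Prime]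
variable {V : Type u} [AddCommGroup V] [Module (ZMod q) V]

/-- A commutative subalgebra of `End V` all of whose nonzero elements are injective is a field. -/
theorem exists_field [Finite V] [Nontrivial V]
    (R : Subalgebra (ZMod q) (Module.End (ZMod q) V))
    (hcomm : ∀ x ∈ R, ∀ y ∈ R, x * y = y * x)
    (hinj : ∀ x ∈ R, x ≠ 0 → Function.Injective x) :
    ∃ (K : Type u) (_ : Field K) (_ : Fintype K) (_ : CharP K q)
      (ι : K →+* Module.End (ZMod q) V), Set.range ι = (R : Set (Module.End (ZMod q) V)) := by
  classical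
  haveI : Finite (Module.End (ZMod q) V) :=
    Finite.of_injective (fun f : Module.End (ZMod q) V => (f : V → V)) DFunLike.coe_injective
  haveI : Fintype R := Fintype.ofFinite R
  letI instC : CommRing R :=
    { R.toRing with
      mul_comm := fun a b => Subtype.ext (hcomm a.1 a.2 b.1 b.2) }
  haveI hnt : Nontrivial R := by
    refine ⟨⟨0, 1, fun h => ?_⟩⟩
    have h1 : (0 : Module.End (ZMod q) V) = 1 := congrArg Subtype.val h
    obtain ⟨v, hv⟩ := exists_ne (0 : V)
    apply hv
    have := congrArg (fun z : Module.End (ZMod q) V => z v) h1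
    simpa using this.symm
  haveI hdom : IsDomain R := by
    haveI : NoZeroDivisors R := by
      refine ⟨fun {a b} hab => ?_⟩
      by_cases ha : a = 0
      · exact Or.inl ha
      right
      have ha' : a.1 ≠ 0 := fun h => ha (Subtype.ext h)
      have h1 : a.1 * b.1 = 0 := congrArg Subtype.val hab
      apply Subtype.ext
      ext v
      apply hinj a.1 a.2 ha'
      have := congrArg (fun z : Module.End (ZMod q) V => z v) h1
      simpa using this
    exact NoZeroDivisors.to_isDomain R
  letI instF : Field R := Fintype.fieldOfDomain R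
  let ι : R →+* Module.End (ZMod q) V :=
    { toFun := Subtype.val
      map_one' := rfl
      map_mul' := fun _ _ => rfl
      map_zero' := rfl
      map_add' := fun _ _ => rfl }
  have hιinj : Function.Injective ι := Subtype.val_injective
  have hchar : CharP R q := by
    rw [CharP.charP_iff_prime_eq_zero hq.out]
    apply hιinj
    rw [map_natCast, map_zero]
    ext v
    simp only [Module.End.natCast_apply, LinearMap.zero_apply]
    rw [← Nat.cast_smul_eq_nsmul (ZMod q), ZMod.natCast_self, zero_smul]
  refine ⟨R, instF, inferInstance, hchar, ι, ?_⟩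
  ext x
  constructor
  · rintro ⟨a, rfl⟩
    exact a.2
  · intro hx
    exact ⟨⟨x, hx⟩, rfl⟩

/-- **The field case of the orbit theorem.** -/
theorem isSolvable_of_field_rep [Finite V] [Nontrivial V] {p : ℕ} [hp : Fact p.Prime]
    {H S : Subgroup (V ≃ₗ[ZMod q] V)} {K : Type*} [Field K] [Fintype K] [CharP K q]
    (ι : K →+* Module.End (ZMod q) V) (hD : IsDominated H S) (hpS : IsPGroup p S)
    (hc : ¬ q ∣ Nat.card H)
    (hSK : ∀ s ∈ S, ∃ k : K, ∀ v, ι k v = s v) (x₀ : V) (hx₀ : x₀ ≠ 0)
    (hgen : ∀ y : V, ∃ k : K, ι k x₀ = y) : Group.IsSolvable H := by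
  classical
  haveI : Finite (V ≃ₗ[ZMod q] V) := Finite.of_injective (fun f : V ≃ₗ[ZMod q] V => (f : V → V))
    DFunLike.coe_injective
  by_cases hdim : Module.finrank (ZMod q) V ≤ 2
  · exact OrbDim2.isSolvable_of_finrank_le hD hpS hc hdim
  push Not at hdim
  -- `K ≃ V`
  have hινe : ∀ k : K, k ≠ 0 → ∀ v, v ≠ 0 → ι k v ≠ 0 := by
    intro k hk v hv h0
    apply hv
    have h1 : ι k⁻¹ (ι k v) = v := by
      have h2 : ι k⁻¹ * ι k = 1 := by rw [← map_mul, inv_mul_cancel₀ hk, map_one]
      have := congrArg (fun z : Module.End (ZMod q) V => z v) h2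
      simpa using this
    rw [← h1, h0, map_zero]
  have hbij : Function.Bijective fun k : K => ι k x₀ := by
    constructor
    · intro a b hab
      by_contra hne
      apply hινe (a - b) (sub_ne_zero.mpr hne) x₀ hx₀
      rw [map_sub, LinearMap.sub_apply]
      exact sub_eq_zero.mpr hab
    · intro y
      exact hgen y
  let e : K ≃ V := Equiv.ofBijective _ hbij
  have he : ∀ k, e k = ι k x₀ := fun _ => rfl
  have hunit : ∀ s ∈ S, ∃ k : K, k ≠ 0 ∧ (∀ v, ι k v = s v) := by
    intro s hs
    obtain ⟨k, hk⟩ := hSK s hs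
    refine ⟨k, ?_, hk⟩
    rintro rfl
    apply hx₀
    have h1 := hk x₀
    rw [map_zero, LinearMap.zero_apply] at h1
    exact s.injective (by rw [← h1, map_zero])
  -- the homomorphism from `S` to the units of `K`
  choose! κ hκ0 hκ using hunit
  have hκmul : ∀ s ∈ S, ∀ t ∈ S, κ (s * t) = κ s * κ t := by
    intro s hs t ht
    apply e.injective
    rw [he, he, map_mul, Module.End.mul_apply, hκ (s * t) (S.mul_mem hs ht), hκ t ht, hκ s hs]
    rfl
  have hκone : κ 1 = 1 := by
    apply e.injective
    rw [he, he, hκ 1 S.one_mem, map_one]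
    rfl
  let U : S →* Kˣ :=
    { toFun := fun s => Units.mk0 (κ s.1) (hκ0 s.1 s.2)
      map_one' := by
        apply Units.ext
        exact hκone
      map_mul' := by
        intro s t
        apply Units.ext
        exact hκmul s.1 s.2 t.1 t.2 }
  have hUinj : Function.Injective U := by
    intro s t hst
    have h1 : κ s.1 = κ t.1 := congrArg Units.val hst
    apply Subtype.ext
    ext v
    rw [← hκ s.1 s.2, ← hκ t.1 t.2, h1]
  obtain ⟨a, hcardS⟩ := IsPGroup.iff_card.mp hpS
  have hcardU : Nat.card Kˣ = Fintype.card K - 1 := by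
    rw [Nat.card_eq_fintype_card, Fintype.card_units]
  have hdvd : p ^ a ∣ Fintype.card K - 1 := by
    rw [← hcardS, ← hcardU]
    exact Subgroup.card_dvd_of_injective U hUinj
  have hpowκ : ∀ s ∈ S, κ s ^ (p ^ a) = 1 := by
    intro s hs
    have h1 : (⟨s, hs⟩ : S) ^ (p ^ a) = 1 := by
      rw [← hcardS]
      exact pow_card_eq_one'
    have h2 := congrArg U h1
    rw [map_pow, map_one] at h2
    have h3 := congrArg Units.val h2
    simpa [U] using h3
  -- the permutation representation on `K`
  let L₀ : H →* Equiv.Perm V :=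
    { toFun := fun h => h.1.toEquiv
      map_one' := rfl
      map_mul' := fun _ _ => rfl }
  let L : H →* Equiv.Perm K := (e.symm.permCongrHom.toMonoidHom).comp L₀
  have hL : ∀ (h : H) (k : K), e (L h k) = h.1 (e k) := by
    intro h k
    show e (e.symm (h.1 (e.symm.symm k))) = _
    rw [Equiv.apply_symm_apply]
    rfl
  have hLdom : ∀ (h : H) (k : K), ∃ s ∈ S, L h k = κ s * k := by
    intro h k
    obtain ⟨s, hs, hsk⟩ := hD.2 h.1 h.2 (e k)
    refine ⟨s, hs, ?_⟩
    apply e.injective
    rw [hL, hsk, he, he, map_mul, Module.End.mul_apply, hκ s hs]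
  have hadd : ∀ (g : H) (a' b : K), L g (a' + b) = L g a' + L g b := by
    intro g a' b
    apply e.injective
    rw [hL, he (a' + b), he (L g a' + L g b), map_add, map_add, LinearMap.add_apply,
      LinearMap.add_apply, map_add, ← he, ← he, ← he, ← he, hL, hL]
  have hLinj : Function.Injective L := by
    rw [injective_iff_map_eq_one]
    intro g hg
    apply Subtype.ext
    ext v
    obtain ⟨k, rfl⟩ := e.surjective v
    rw [← hL, hg]
    rfl
  have hNpow : ∀ (g : H) (k : K), (L g k) ^ (p ^ a) = k ^ (p ^ a) := by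
    intro g k
    obtain ⟨s, hs, hsk⟩ := hLdom g k
    rw [hsk, mul_pow, hpowκ s hs, one_mul]
  have hfin : Module.Finite (ZMod q) V := Module.Finite.of_finite
  have hcardK : Fintype.card K = q ^ Module.finrank (ZMod q) V := by
    have h1 : Nat.card V = q ^ Module.finrank (ZMod q) V := by
      rw [Module.natCard_eq_pow_finrank (K := ZMod q), Nat.card_zmod]
    rw [← h1, ← Nat.card_eq_fintype_card]
    exact Nat.card_congr e
  refine Cfsg.Agent.Lib.OrbField.isSolvable_of_pow_eq (q := q) L hadd hLinj a hdvd hNpow _ hcardK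
    hdim hc ?_
  intro hfull u hu
  -- all units come from `S`
  have hUsurj : Function.Surjective U := by
    have hcards : Nat.card S = Nat.card Kˣ := by
      rw [hcardS, hcardU]
      omega
    exact ((Nat.bijective_iff_injective_and_card U).mpr ⟨hUinj, hcards⟩).2
  obtain ⟨s, hs⟩ := hUsurj (Units.mk0 u hu)
  have hsu : κ s.1 = u := congrArg Units.val hs
  refine ⟨⟨s.1, hD.1 s.2⟩, fun k => ?_⟩
  apply e.injective
  rw [hL, he, he, map_mul, Module.End.mul_apply, ← hsu, hκ s.1 s.2]

end Cfsg.Agent.Lib.OrbCyc
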