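import Mathlib
import Cfsg.Agent.S3761
import Cfsg.Agent.Lib.PGrp

/-!
# `p`-groups all of whose normal abelian subgroups are cyclic

Such a group is abelian, or `p = 2` and it has a self-centralizing normal cyclic subgroup `⟨a⟩` and
an element `b` with `b a b⁻¹ = a ^ r`, `r ≡ 3 mod 4`, `b² ∈ ⟨a⟩`.
-/

set_option autoImplicit false
set_option linter.unusedSectionVars false
set_option linter.unusedVariables false
set_option linter.style.haveILetI false

namespace Cfsg.Agent.Lib.OrbDih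

open Subgroup
open scoped commutatorElement

variable {G : Type*} [Group G] [Finite G] {p : ℕ} [hp : Fact p.Prime]

/-- A maximal normal abelian subgroup of a finite `p`-group is self-centralizing. -/
theorem exists_selfcentralizing (hG : IsPGroup p G) :
    ∃ A : Subgroup G, A.Normal ∧ IsMulCommutative A ∧ centralizer (A : Set G) = A := by
  classical
  let P : Set (Subgroup G) := {A | A.Normal ∧ IsMulCommutative A}
  have hbot : (⊥ : Subgroup G) ∈ P := by
    refine ⟨inferInstance, ⟨⟨fun x y => ?_⟩⟩⟩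
    exact Subsingleton.elim _ _
  obtain ⟨A, hA, hmax⟩ := Set.exists_max_image P (fun A : Subgroup G => Nat.card A)
    (Set.toFinite _) ⟨⊥, hbot⟩
  obtain ⟨hAn, hAc⟩ := hA
  haveI := hAn
  refine ⟨A, hAn, hAc, ?_⟩
  have hAC : ∀ x ∈ A, ∀ y ∈ A, x * y = y * x := by
    intro x hx y hy
    have := hAc.is_comm.comm ⟨x, hx⟩ ⟨y, hy⟩
    exact congrArg Subtype.val this
  have hle : A ≤ centralizer (A : Set G) := by
    intro x hx
    rw [mem_centralizer_iff]
    intro y hy
    exact hAC y hy x hx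
  by_contra hne
  have hlt : A < centralizer (A : Set G) := lt_of_le_of_ne hle (Ne.symm hne)
  obtain ⟨y, hyC, hyA, hyg⟩ := Cfsg.Agent.Lib.PGrp.exists_central_mod hG A
    (centralizer (A : Set G)) hlt
  -- the larger subgroup
  let B : Subgroup G := A ⊔ zpowers y
  have hBn : B.Normal := by
    refine ⟨fun x hx g => ?_⟩
    have hle' : B ≤ B.comap (MulAut.conj g).toMonoidHom := by
      refine sup_le ?_ ?_
      · intro a ha
        exact (le_sup_left : A ≤ B) (hAn.conj_mem a ha g)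
      · rw [zpowers_le]
        show g * y * g⁻¹ ∈ B
        have h1 : g * y * g⁻¹ = (⁅y, g⁆)⁻¹ * y := by
          rw [commutatorElement_def]
          group
        rw [h1]
        refine B.mul_mem ?_ ((le_sup_right : zpowers y ≤ B) (mem_zpowers y))
        exact (le_sup_left : A ≤ B) (A.inv_mem (hyg g))
    exact hle' hx
  have hy' : ∀ a ∈ A, a * y = y * a := by
    intro a ha
    exact (mem_centralizer_iff.mp hyC) a ha
  have hBc : ∀ x ∈ B, ∀ z ∈ B, x * z = z * x := by
    have h1 : B ≤ centralizer (A : Set G) := sup_le hle (zpowers_le.mpr hyC)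
    have h2 : B ≤ centralizer (zpowers y : Set G) := by
      refine sup_le ?_ ?_
      · intro a ha
        rw [mem_centralizer_iff]
        rintro _ ⟨k, rfl⟩
        exact (((show Commute a y from hy' a ha).zpow_right k).eq).symm
      · rintro _ ⟨i, rfl⟩
        rw [mem_centralizer_iff]
        rintro _ ⟨k, rfl⟩
        exact ((Commute.refl y).zpow_zpow k i).eq
    have h3 : B ≤ centralizer (B : Set G) := by
      rw [le_centralizer_iff]
      refine sup_le ?_ ?_
      · rw [← le_centralizer_iff]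
        exact h1
      · rw [← le_centralizer_iff]
        exact h2
    intro x hx z hz
    exact ((mem_centralizer_iff.mp (h3 hz)) x hx)
  have hBP : B ∈ P := by
    refine ⟨hBn, ⟨⟨fun x z => Subtype.ext (hBc x.1 x.2 z.1 z.2)⟩⟩⟩
  have hcard := hmax B hBP
  have hAB : A = B := Subgroup.eq_of_le_of_card_ge le_sup_left hcard
  apply hyA
  rw [hAB]
  exact (le_sup_right : zpowers y ≤ B) (mem_zpowers y)

/-- An elementary abelian group of order `p²` is not cyclic. -/
theorem not_isCyclic_of_elem {X : Type*} [Group X] [Finite X] (h1 : ∀ x : X, x ^ p = 1)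
    (hcard : Nat.card X = p ^ 2) : ¬ IsCyclic X := by
  intro hc
  obtain ⟨g, hg⟩ := hc.exists_generator
  have h2 : orderOf g = Nat.card X := orderOf_eq_card_of_forall_mem_zpowers hg
  have h3 : orderOf g ∣ p := orderOf_dvd_of_pow_eq_one (h1 g)
  rw [h2, hcard] at h3
  have h4 := Nat.le_of_dvd hp.out.pos h3
  have h5 := hp.out.two_le
  nlinarith

/-- **Structure of `p`-groups all of whose normal abelian subgroups are cyclic.** -/
theorem exists_dih_data (hG : IsPGroup p G)
    (hC : ∀ A : Subgroup G, A.Normal → IsMulCommutative A → IsCyclic A)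
    (hna : ¬ IsMulCommutative G) :
    p = 2 ∧ ∃ (a b : G) (n r : ℕ), orderOf a = 2 ^ n ∧ 2 ≤ n ∧ (zpowers a).Normal ∧
      (∀ g, g * a = a * g → g ∈ zpowers a) ∧ b * a * b⁻¹ = a ^ r ∧ r % 4 = 3 ∧
      r ^ 2 ≡ 1 [MOD 2 ^ n] ∧ b ^ 2 ∈ zpowers a := by
  classical
  have hpp : p.Prime := hp.out
  obtain ⟨A, hAn, hAc, hAC⟩ := exists_selfcentralizing hG
  obtain ⟨⟨a, haA⟩, hgen⟩ := (hC A hAn hAc).exists_generator
  have hUa : A = zpowers a := by
    apply le_antisymm
    · intro x hx
      obtain ⟨k, hk⟩ := hgen ⟨x, hx⟩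
      refine ⟨k, ?_⟩
      have := congrArg Subtype.val hk
      simpa using this
    · exact zpowers_le.mpr haA
  subst hUa
  obtain ⟨n, ha⟩ := (IsPGroup.iff_orderOf.mp hG) a
  have hUnorm : (zpowers a).Normal := hAn
  have hC' : ∀ g, g * a = a * g → g ∈ zpowers a := by
    intro g hg
    rw [← hAC, mem_centralizer_iff]
    rintro _ ⟨k, rfl⟩
    exact (((show Commute g a from hg).zpow_right k).eq).symm
  have hne : zpowers a ≠ ⊤ := by
    intro h
    apply hna
    refine ⟨⟨fun x y => ?_⟩⟩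
    have hx : x ∈ zpowers a := by rw [h]; trivial
    have hy : y ∈ zpowers a := by rw [h]; trivial
    obtain ⟨i, hi⟩ := hx
    obtain ⟨j, hj⟩ := hy
    rw [← hi, ← hj]
    exact ((Commute.refl a).zpow_zpow i j).eq
  have hn2 : 2 ≤ n := by
    by_contra hlt
    have hcases : n = 0 ∨ n = 1 := by omega
    apply hne
    rw [eq_top_iff]
    intro g _
    apply hC'
    rcases hcases with rfl | rfl
    · rw [pow_zero, orderOf_eq_one_iff] at ha
      rw [ha]
      group
    · have := Cfsg.Agent.S3761.y_central hG ha (by omega) hUnorm g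
      simpa using this
  have hnotcyc : ∀ X : Subgroup G, X.Characteristic → Cfsg.IsElementaryAbelian p X →
      Nat.card X = p ^ 2 → False := by
    intro X hXc hXe hXcard
    have hXn : X.Normal := inferInstance
    have hcyc := hC X hXn hXe.1
    exact not_isCyclic_of_elem (p := p) (fun x => Subtype.ext (hXe.2 x.1 x.2)) hXcard hcyc
  by_cases hp2 : p = 2
  swap
  · exfalso
    let M : Subgroup G := centralizer {a ^ p}
    have hM : ∀ g, g ∈ M ↔ g * a ^ p = a ^ p * g := fun g => mem_centralizer_singleton_iff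
    obtain ⟨_, h2, h3, h4⟩ := Cfsg.Agent.S3761.odd_case hp2 hG ha hn2 hUnorm hC' hne M hM
    exact hnotcyc _ h4 h2 h3
  subst hp2
  refine ⟨rfl, ?_⟩
  obtain ⟨b, -, hbU, hb2⟩ := Cfsg.Agent.S3761.exists_not_mem_pow_mem hG (zpowers a) ⊤ le_top hne
  obtain ⟨r, hr⟩ := Cfsg.Agent.S3761.exists_exp hUnorm b
  have hr2 : r ^ 2 ≡ 1 [MOD 2 ^ n] := by
    have h1 := Cfsg.Agent.Lib.CyclicMax.iterate_conj hr 2
    have h2 : b ^ 2 * a * (b ^ 2)⁻¹ = a := by
      obtain ⟨k, hk⟩ := hb2
      simp only at hk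
      rw [← hk, ((Commute.refl a).zpow_left k).eq]
      group
    rw [h2] at h1
    have h4 : a ^ (r ^ 2) = a ^ 1 := by
      rw [← h1, pow_one]
    rw [pow_eq_pow_iff_modEq, ha] at h4
    exact h4
  have hrodd : r % 4 = 1 ∨ r % 4 = 3 := by
    have h1 : r ^ 2 ≡ 1 [MOD 4] := hr2.of_dvd (pow_dvd_pow 2 hn2)
    have h2 : r % 4 = 0 ∨ r % 4 = 1 ∨ r % 4 = 2 ∨ r % 4 = 3 := by omega
    rcases h2 with h2 | h2 | h2 | h2
    · exfalso
      unfold Nat.ModEq at h1
      rw [Nat.pow_mod, h2] at h1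
      norm_num at h1
    · exact Or.inl h2
    · exfalso
      unfold Nat.ModEq at h1
      rw [Nat.pow_mod, h2] at h1
      norm_num at h1
    · exact Or.inr h2
  rcases hrodd with hr4 | hr4
  swap
  · exact ⟨a, b, n, r, ha, hn2, hUnorm, hC', hr, hr4, hr2, hb2⟩
  exfalso
  -- the modular case
  have hn3 : 3 ≤ n := by
    by_contra hlt
    have h2 : n = 2 := by omega
    subst h2
    apply hbU
    apply hC'
    have h3 : a ^ r = a := by
      have h4 : a ^ r = a ^ 1 := by
        rw [pow_eq_pow_iff_modEq, ha]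
        exact hr4
      rwa [pow_one] at h4
    rw [h3] at hr
    calc b * a = b * a * b⁻¹ * b := by group
      _ = a * b := by rw [hr]
  obtain ⟨m, rfl⟩ : ∃ m, n = m + 3 := ⟨n - 3, by omega⟩
  have h4dvd : (4 : ℕ) ∣ 2 ^ (m + 2) := ⟨2 ^ m, by ring⟩
  have hr1 : 2 * r ≡ 2 * 1 [MOD 2 ^ (m + 3)] := by
    rcases Cfsg.Agent.Lib.CyclicMax.sq_roots_two (m := m + 3) (by omega) hr2 with h1 | h1 | h1 | h1
    · exact Nat.ModEq.mul_left 2 h1
    · have h2 : 2 * r ≡ 2 * (1 + 2 ^ (m + 3 - 1)) [MOD 2 ^ (m + 3)] := Nat.ModEq.mul_left 2 h1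
      refine h2.trans ?_
      have h3 : 2 * (1 + 2 ^ (m + 3 - 1)) = 2 * 1 + 2 ^ (m + 3) := by
        rw [show m + 3 - 1 = m + 2 by omega]
        ring
      rw [h3]
      simp [Nat.ModEq]
    · exfalso
      have h2 := h1.of_dvd (show 4 ∣ 2 ^ (m + 3) from ⟨2 ^ (m + 1), by ring⟩)
      unfold Nat.ModEq at h2
      omega
    · exfalso
      have h2 := h1.of_dvd (show 4 ∣ 2 ^ (m + 3) from ⟨2 ^ (m + 1), by ring⟩)
      rw [show m + 3 - 1 = m + 2 by omega] at h2
      unfold Nat.ModEq at h2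
      obtain ⟨c, hc⟩ := h4dvd
      rw [hc] at h2
      omega
  have hbM : b * a ^ 2 = a ^ 2 * b := by
    have h2 : b * a ^ 2 * b⁻¹ = a ^ 2 := by
      rw [Cfsg.Agent.Lib.CyclicMax.conj_pow_pow hr, pow_eq_pow_iff_modEq, ha, mul_comm]
      exact hr1
    calc b * a ^ 2 = b * a ^ 2 * b⁻¹ * b := by group
      _ = a ^ 2 * b := by rw [h2]
  let M : Subgroup G := centralizer {a ^ 2}
  have hM : ∀ g, g ∈ M ↔ g * a ^ 2 = a ^ 2 * g := fun g => mem_centralizer_singleton_iff
  have hne' : zpowers a ≠ M := by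
    intro h3
    apply hbU
    rw [h3, hM]
    exact hbM
  obtain ⟨_, h2, h3, h4⟩ := Cfsg.Agent.S3761.two_case hG ha (by omega) hUnorm hC' M hM hne'
  exact hnotcyc _ h4 h2 h3

end Cfsg.Agent.Lib.OrbDih
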