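import Mathlib

/-!
# Automorphisms of finite fields: powers of Frobenius, and the norm from `F_{q²}` to `F_q`
-/

set_option autoImplicit false
set_option linter.unusedSectionVars false
set_option linter.unusedVariables false
set_option linter.style.haveILetI false

namespace Cfsg.Agent.Lib.OrbFrob

variable {K : Type*} [Field K] [Fintype K] {q : ℕ} [hq : Fact q.Prime] [hchar : CharP K q]

/-- Every ring endomorphism of a finite field is a power of the Frobenius map. -/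
theorem exists_frob_pow (σ : K →+* K) : ∃ j : ℕ, ∀ k, σ k = k ^ (q ^ j) := by
  classical
  letI : Algebra (ZMod q) K := ZMod.algebra K q
  have hbij : Function.Bijective σ :=
    ⟨σ.injective, Finite.injective_iff_surjective.mp σ.injective⟩
  let σ' : K ≃ₐ[ZMod q] K := AlgEquiv.ofRingEquiv (f := RingEquiv.ofBijective σ hbij) (by
    intro c
    have h1 : σ.comp (algebraMap (ZMod q) K) = algebraMap (ZMod q) K := RingHom.ext_zmod _ _
    exact congrArg (fun z : ZMod q →+* K => z c) h1)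
  obtain ⟨n, hn⟩ := (FiniteField.bijective_frobeniusAlgEquivOfAlgebraic_pow (ZMod q) K).2 σ'
  refine ⟨n.1, fun k => ?_⟩
  have h1 : σ k = σ' k := rfl
  rw [h1, ← hn]
  simp only [AlgEquiv.coe_pow, FiniteField.coe_frobeniusAlgEquivOfAlgebraic_iterate, ZMod.card]

/-- The Frobenius endomorphism. -/
theorem frob_apply (k : K) : frobenius K q k = k ^ q := frobenius_def q k

theorem card_le_of_forall_pow_eq {Q : ℕ} (hQ : 1 < Q) (h : ∀ k : K, k ^ Q = k) :
    Fintype.card K ≤ Q := by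
  classical
  let P : Polynomial K := Polynomial.X ^ Q - Polynomial.X
  have hdeg : P.natDegree = Q := FiniteField.X_pow_card_sub_X_natDegree_eq K hQ
  have hne : P ≠ 0 := FiniteField.X_pow_card_sub_X_ne_zero K hQ
  have hroots : (Finset.univ : Finset K) ⊆ P.roots.toFinset := by
    intro k _
    rw [Multiset.mem_toFinset, Polynomial.mem_roots hne]
    simp [P, Polynomial.IsRoot, h k]
  calc Fintype.card K = (Finset.univ : Finset K).card := rfl
    _ ≤ P.roots.toFinset.card := Finset.card_le_card hroots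
    _ ≤ Multiset.card P.roots := Multiset.toFinset_card_le _
    _ ≤ P.natDegree := Polynomial.card_roots' P
    _ = Q := hdeg

/-- The number theory of the semidihedral case. -/
theorem sq_modEq_one {q' n j r : ℕ} (hj : q' ^ j ≡ r [MOD 2 ^ n]) (hn : 2 ≤ n) (hr4 : r % 4 = 3)
    (hr2 : r ^ 2 ≡ 1 [MOD 2 ^ n]) : Odd j ∧ q' ^ 2 ≡ 1 [MOD 2 ^ n] := by
  have h4 : q' ^ j % 4 = 3 := by
    have h1 : q' ^ j ≡ r [MOD 4] := hj.of_dvd (pow_dvd_pow 2 hn)
    unfold Nat.ModEq at h1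
    omega
  have hjodd : Odd j := by
    rw [← Nat.not_even_iff_odd]
    rintro ⟨i, rfl⟩
    rw [pow_add, Nat.mul_mod] at h4
    have h6 : (q' ^ i) % 4 = 0 ∨ (q' ^ i) % 4 = 1 ∨ (q' ^ i) % 4 = 2 ∨ (q' ^ i) % 4 = 3 := by omega
    rcases h6 with h6 | h6 | h6 | h6 <;> rw [h6] at h4 <;> norm_num at h4
  refine ⟨hjodd, ?_⟩
  have hqodd : q'.Coprime 2 := by
    rw [Nat.coprime_two_right]
    rw [← Nat.not_even_iff_odd]
    rintro ⟨t, rfl⟩
    have hj0 : j ≠ 0 := by
      rintro rfl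
      simp at h4
    obtain ⟨l, rfl⟩ : ∃ l, j = l + 1 := ⟨j - 1, by omega⟩
    rw [pow_succ] at h4
    have h5 : (t + t) ^ l * (t + t) = 2 * ((t + t) ^ l * t) := by ring
    rw [h5] at h4
    omega
  have hw : (q' ^ 2).Coprime (2 ^ n) := Nat.Coprime.pow _ _ hqodd
  have h1 : ((q' ^ 2 : ℕ) : ZMod (2 ^ n)) ^ j = 1 := by
    have h2 : (q' ^ 2) ^ j ≡ 1 [MOD 2 ^ n] := by
      have h3 : (q' ^ 2) ^ j = (q' ^ j) ^ 2 := by rw [← pow_mul, ← pow_mul, mul_comm]
      rw [h3]
      exact (hj.pow 2).trans hr2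
    have h3 := (ZMod.natCast_eq_natCast_iff _ _ _).mpr h2
    simpa using h3
  have h2 : ((q' ^ 2 : ℕ) : ZMod (2 ^ n)) ^ (2 ^ (n - 1)) = 1 := by
    have h3 := Nat.ModEq.pow_totient hw
    rw [Nat.totient_prime_pow Nat.prime_two (by omega)] at h3
    simp only [Nat.add_one_sub_one, mul_one] at h3
    have h4 := (ZMod.natCast_eq_natCast_iff _ _ _).mpr h3
    simpa using h4
  have h3 : orderOf ((q' ^ 2 : ℕ) : ZMod (2 ^ n)) = 1 := by
    have h4 := orderOf_dvd_of_pow_eq_one h1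
    have h5 := orderOf_dvd_of_pow_eq_one h2
    have h6 : Nat.Coprime j (2 ^ (n - 1)) :=
      Nat.Coprime.pow_right _ (Nat.coprime_two_right.mpr hjodd)
    exact Nat.eq_one_of_dvd_coprimes h6 h4 h5
  rw [orderOf_eq_one_iff] at h3
  have h4 : ((q' ^ 2 : ℕ) : ZMod (2 ^ n)) = ((1 : ℕ) : ZMod (2 ^ n)) := by simpa using h3
  exact (ZMod.natCast_eq_natCast_iff _ _ _).mp h4

theorem pow_eq_pow_iff_of_order (α : K) {N : ℕ} (hα : orderOf α = N) (hN : 0 < N) {a b : ℕ} :
    α ^ a = α ^ b ↔ a ≡ b [MOD N] := by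
  have hα0 : α ≠ 0 := by
    rintro rfl
    have h1 := pow_orderOf_eq_one (0 : K)
    rw [hα, zero_pow (by omega)] at h1
    exact zero_ne_one h1
  let u : Kˣ := Units.mk0 α hα0
  have hu : orderOf u = N := by
    rw [← hα, ← orderOf_units]
    rfl
  rw [← hu, ← pow_eq_pow_iff_modEq]
  constructor
  · intro h
    apply Units.ext
    simpa [u] using h
  · intro h
    have := congrArg Units.val h
    simpa [u] using this

/-- The field generated by an element `α` of order `2 ^ n`, with an automorphism moving `α` to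
`α ^ r`, `r ≡ 3 mod 4`, `r ^ 2 ≡ 1`, has `q²` elements. -/
theorem semidihedral_field (α : K) {n r : ℕ} (hα : orderOf α = 2 ^ n) (hn : 2 ≤ n)
    (hgen : ∀ φ ψ : K →+* K, φ α = ψ α → φ = ψ) (σ : K →+* K) (hσ : σ α = α ^ r)
    (hr4 : r % 4 = 3) (hr2 : r ^ 2 ≡ 1 [MOD 2 ^ n]) :
    Fintype.card K = q ^ 2 ∧ (∀ k : K, (k ^ q) ^ q = k) ∧ ∀ k, σ k = k ^ q := by
  have hqp := hq.out
  obtain ⟨j, hj⟩ := exists_frob_pow (q := q) σ
  have hpos : 0 < 2 ^ n := by positivity
  have h1 : α ^ (q ^ j) = α ^ r := (hj α).symm.trans hσ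
  rw [pow_eq_pow_iff_of_order α hα hpos] at h1
  obtain ⟨hjodd, hq2⟩ := sq_modEq_one h1 hn hr4 hr2
  have hfix : (α ^ q) ^ q = α := by
    have h2 : α ^ (q ^ 2) = α ^ 1 := by
      rw [pow_eq_pow_iff_of_order α hα hpos]
      exact hq2
    rw [pow_one] at h2
    rw [← pow_mul, ← sq, h2]
  let Fr : K →+* K := frobenius K q
  have hFr : ∀ k, Fr k = k ^ q := frob_apply
  have hFF : Fr.comp Fr = RingHom.id K := by
    apply hgen
    rw [RingHom.comp_apply, hFr, hFr, hfix]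
    rfl
  have hk2 : ∀ k : K, (k ^ q) ^ q = k := by
    intro k
    have := congrArg (fun z : K →+* K => z k) hFF
    simpa [hFr] using this
  have hσFr : σ = Fr := by
    apply hgen
    rw [hσ, hFr, pow_eq_pow_iff_of_order α hα hpos]
    obtain ⟨i, rfl⟩ := hjodd
    refine h1.symm.trans ?_
    rw [pow_succ, pow_mul]
    have h3 : (q ^ 2) ^ i ≡ 1 [MOD 2 ^ n] := by
      simpa using hq2.pow i
    simpa using h3.mul_right q
  refine ⟨?_, hk2, fun k => by rw [hσFr, hFr]⟩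
  obtain ⟨d, -, hd⟩ := FiniteField.card K q
  have hle : Fintype.card K ≤ q ^ 2 := by
    apply card_le_of_forall_pow_eq
    · exact Nat.one_lt_pow (by norm_num) hqp.one_lt
    · intro k
      rw [sq, pow_mul, hk2]
  rw [hd] at hle ⊢
  have hd2 : (d : ℕ) ≤ 2 := (Nat.pow_le_pow_iff_right hqp.one_lt).mp hle
  have hd1 : (d : ℕ) ≠ 1 := by
    intro hd1
    rw [hd1, pow_one] at hd
    have h2 : α ^ q = α := by
      rw [← hd]
      exact FiniteField.pow_card α
    have h3 : σ α = α := by rw [hσFr, hFr, h2]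
    rw [hσ] at h3
    have h4 : α ^ r = α ^ 1 := by rw [h3, pow_one]
    rw [pow_eq_pow_iff_of_order α hα hpos] at h4
    have h5 : r ≡ 1 [MOD 4] := h4.of_dvd (pow_dvd_pow 2 hn)
    unfold Nat.ModEq at h5
    omega
  have hd0 := d.pos
  have : (d : ℕ) = 2 := by omega
  rw [this]

/-- The norm from `F_{q²}` to `F_q` is onto. -/
theorem exists_norm (hcard : Fintype.card K = q ^ 2) (β : K) (hβ0 : β ≠ 0) (hβ : β ^ q = β) :
    ∃ c : K, c ≠ 0 ∧ c ^ (q + 1) * β = 1 := by
  classical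
  have hqp := hq.out
  obtain ⟨g, hg⟩ := IsCyclic.exists_generator (α := Kˣ)
  have hog : orderOf g = q ^ 2 - 1 := by
    rw [orderOf_eq_card_of_forall_mem_zpowers hg, Nat.card_eq_fintype_card, Fintype.card_units,
      hcard]
  obtain ⟨m, hm⟩ := mem_powers_iff_mem_zpowers.mpr (hg (Units.mk0 β hβ0))
  simp only at hm
  have hβq : β ^ (q - 1) = 1 := by
    have h1 : β ^ (q - 1) * β = 1 * β := by
      rw [← pow_succ, show q - 1 + 1 = q by have := hqp.pos; omega, hβ, one_mul]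
    exact mul_right_cancel₀ hβ0 h1
  have h1 : g ^ (m * (q - 1)) = 1 := by
    rw [pow_mul, hm]
    apply Units.ext
    simpa using hβq
  have h2 := orderOf_dvd_of_pow_eq_one h1
  rw [hog] at h2
  have h3 : q ^ 2 - 1 = (q + 1) * (q - 1) := by
    obtain ⟨t, rfl⟩ : ∃ t, q = t + 1 := ⟨q - 1, by have := hqp.pos; omega⟩
    simp only [Nat.add_sub_cancel]
    have : (t + 1) ^ 2 = (t + 1 + 1) * t + 1 := by ring
    omega
  rw [h3] at h2
  have hpos : 0 < q - 1 := by have := hqp.two_le; omega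
  obtain ⟨t, ht⟩ := Nat.dvd_of_mul_dvd_mul_right hpos h2
  refine ⟨(((g ^ t)⁻¹ : Kˣ) : K), Units.ne_zero _, ?_⟩
  have h4 : (((g ^ t)⁻¹ : Kˣ) : K) ^ (q + 1) * β = (((g ^ t)⁻¹ ^ (q + 1) * Units.mk0 β hβ0 : Kˣ) : K) := by
    simp
  rw [h4, ← hm, ht]
  have h5 : (g ^ t)⁻¹ ^ (q + 1) * g ^ ((q + 1) * t) = 1 := by
    rw [inv_pow, ← pow_mul, mul_comm t, inv_mul_cancel]
  rw [h5]
  rfl

end Cfsg.Agent.Lib.OrbFrob
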