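import Mathlib
import Cfsg.Agent.Lib.OrbCyc
import Cfsg.Agent.Lib.OrbDih
import Cfsg.Agent.Lib.OrbFrob

/-!
# The trichotomy for irreducible `p`-groups

An irreducible `p`-group of linear maps of a finite vector space has a system of blocks, or lives in
a field `K` of endomorphisms with `V = K x₀`, or the dimension is at most two.
-/

set_option autoImplicit false
set_option linter.unusedSectionVars false
set_option linter.unusedVariables false
set_option linter.style.haveILetI false

namespace Cfsg.Agent.Lib.OrbTrich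

open Cfsg.Agent.Lib.OrbDom Cfsg.Agent.Lib.OrbBlocks Cfsg.Agent.Lib.OrbIdem
  Cfsg.Agent.Lib.OrbFrob

universe u

variable {q : ℕ} [hq : Fact q.Prime]
variable {V : Type u} [AddCommGroup V] [Module (ZMod q) V]

theorem nontrivial_end [Nontrivial V] : Nontrivial (Module.End (ZMod q) V) := by
  refine ⟨⟨0, 1, fun h => ?_⟩⟩
  obtain ⟨v, hv⟩ := exists_ne (0 : V)
  apply hv
  have := congrArg (fun z : Module.End (ZMod q) V => z v) h
  simpa using this.symm

/-- The case of a non-abelian group with a self-centralizing cyclic subgroup. -/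
theorem finrank_le_two_of_dih [Finite V] [Nontrivial V]
    {K : Type*} [Field K] [Fintype K] [CharP K q] (ι : K →+* Module.End (ZMod q) V)
    (S : Subgroup (V ≃ₗ[ZMod q] V))
    (hirr : ∀ W : Submodule (ZMod q) V, (∀ s ∈ S, ∀ w ∈ W, s w ∈ W) → W = ⊥ ∨ W = ⊤)
    (a b : V ≃ₗ[ZMod q] V) (haS : a ∈ S) (hbS : b ∈ S) (α : K) (hα : ∀ v, ι α v = a v)
    {n r : ℕ} (hao : orderOf a = 2 ^ n) (hn : 2 ≤ n)
    (hgen : ∀ φ ψ : K →+* K, φ α = ψ α → φ = ψ)
    (hconj : ∀ s ∈ S, ∃ σ : K →+* K, ∀ k, ι (σ k) = cj s (ι k))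
    (hcent : ∀ s ∈ S, s * a = a * s → s ∈ Subgroup.zpowers a)
    (hba : b * a * b⁻¹ = a ^ r) (hr4 : r % 4 = 3) (hr2 : r ^ 2 ≡ 1 [MOD 2 ^ n])
    (hb2 : b ^ 2 ∈ Subgroup.zpowers a) :
    Module.finrank (ZMod q) V ≤ 2 := by
  classical
  have hqp := hq.out
  haveI := nontrivial_end (q := q) (V := V)
  haveI : Finite (V ≃ₗ[ZMod q] V) := Finite.of_injective (fun f : V ≃ₗ[ZMod q] V => (f : V → V))
    DFunLike.coe_injective
  have hιinj : Function.Injective ι := ι.injective
  have hιpow : ∀ m v, ι (α ^ m) v = (a ^ m) v := by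
    intro m
    induction m with
    | zero => intro v; simp
    | succ m ih =>
      intro v
      rw [pow_succ, pow_succ, map_mul, Module.End.mul_apply, hα, ih]
      rfl
  have hαo : orderOf α = 2 ^ n := by
    rw [← hao]
    rw [orderOf_eq_orderOf_iff]
    intro m
    constructor
    · intro h
      ext v
      rw [← hιpow, h, map_one]
      rfl
    · intro h
      apply hιinj
      ext v
      rw [hιpow, h, map_one]
      rfl
  obtain ⟨σ, hσ⟩ := hconj b hbS
  have hσα : σ α = α ^ r := by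
    apply hιinj
    ext v
    rw [hσ, hιpow, ← hba]
    simp only [cj_apply, hα]
    rfl
  obtain ⟨hcard, hk2, hσFr⟩ := semidihedral_field (q := q) α hαo hn hgen σ hσα hr4 hr2
  have hpar : ∀ (j : ℕ) (k : K), k ^ (q ^ (2 * j)) = k ∧ k ^ (q ^ (2 * j + 1)) = k ^ q := by
    intro j k
    have h0 : k ^ (q ^ (2 * j)) = k := by
      induction j with
      | zero => simp
      | succ j ih =>
        rw [show 2 * (j + 1) = 2 * j + 1 + 1 by ring, pow_succ, pow_succ, pow_mul, pow_mul, ih,
          hk2]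
    refine ⟨h0, ?_⟩
    rw [pow_succ, pow_mul, h0]
  -- commuting with `a`
  have hcomm_a : ∀ s ∈ S, cj s (ι α) = ι α → s * a = a * s := by
    intro s hs h
    ext v
    have h1 := cj_apply' s (ι α) v
    rw [h, hα, hα] at h1
    exact h1.symm
  have hcomm_mem : ∀ s ∈ S, cj s (ι α) = ι α → ∃ m : ℕ, ∀ x, s x = ι (α ^ m) x := by
    intro s hs h
    have h1 := hcent s hs (hcomm_a s hs h)
    obtain ⟨m, hm⟩ := mem_powers_iff_mem_zpowers.mpr h1
    refine ⟨m, fun x => ?_⟩
    rw [hιpow, ← hm]
  have hcases : ∀ s ∈ S, (∃ u : K, ∀ x, s x = ι u x) ∨ (∃ u : K, ∀ x, s x = b (ι u x)) := by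
    intro s hs
    obtain ⟨σs, hσs⟩ := hconj s hs
    obtain ⟨j, hj⟩ := exists_frob_pow (q := q) σs
    rcases Nat.even_or_odd' j with ⟨i, rfl | rfl⟩
    · left
      have h1 : cj s (ι α) = ι α := by
        rw [← hσs, hj, (hpar i α).1]
      obtain ⟨m, hm⟩ := hcomm_mem s hs h1
      exact ⟨_, hm⟩
    · right
      have h1 : cj (b⁻¹ * s) (ι α) = ι α := by
        rw [cj_mul, ← hσs, hj, (hpar i α).2, ← hσFr, hσ, cj_inv_cj]
      obtain ⟨m, hm⟩ := hcomm_mem _ (S.mul_mem (S.inv_mem hbS) hs) h1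
      refine ⟨α ^ m, fun x => ?_⟩
      rw [← hm]
      show s x = b ((b⁻¹ : V ≃ₗ[ZMod q] V) (s x))
      simp
  -- the element `β`
  obtain ⟨t, ht⟩ := mem_powers_iff_mem_zpowers.mpr hb2
  have ht' : a ^ t = b ^ 2 := ht
  have hβ : ∀ x, ι (α ^ t) x = b (b x) := by
    intro x
    rw [hιpow, ht', pow_two]
    rfl
  have hbconj : ∀ (k : K) (y : V), b (ι k y) = ι (σ k) (b y) := by
    intro k y
    rw [hσ, cj_apply']
  have hσβ : σ (α ^ t) = α ^ t := by
    apply hιinj
    ext x
    obtain ⟨y, rfl⟩ := b.surjective x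
    rw [← hbconj, hβ, hβ]
  have hβq : (α ^ t) ^ q = α ^ t := by
    rw [← hσFr, hσβ]
  have hβ0 : α ^ t ≠ 0 := by
    intro h0
    obtain ⟨v, hv⟩ := exists_ne (0 : V)
    apply hv
    have h1 := hβ v
    rw [h0, map_zero, LinearMap.zero_apply] at h1
    exact b.injective (b.injective (by rw [← h1, map_zero, map_zero]))
  obtain ⟨c, hc0, hc⟩ := exists_norm (q := q) hcard _ hβ0 hβq
  -- the involution
  have hι1 : ∀ (k : K) (x : V), ι k⁻¹ (ι k x) = x ∨ k = 0 := by
    intro k x
    by_cases hk : k = 0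
    · exact Or.inr hk
    · left
      have h2 : ι k⁻¹ * ι k = 1 := by rw [← map_mul, inv_mul_cancel₀ hk, map_one]
      have := congrArg (fun z : Module.End (ZMod q) V => z x) h2
      simpa using this
  have hιc : ∀ x, ι c⁻¹ (ι c x) = x := fun x => (hι1 c x).resolve_right hc0
  let τ : V → V := fun x => ι c (b x)
  have hτ2 : ∀ x, τ (τ x) = x := by
    intro x
    show ι c (b (ι c (b x))) = x
    rw [hbconj, ← Module.End.mul_apply, ← map_mul, hσFr, ← hβ, ← Module.End.mul_apply, ← map_mul]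
    rw [show c * c ^ q * α ^ t = c ^ (q + 1) * α ^ t by rw [pow_succ'], hc, map_one]
    rfl
  obtain ⟨v, hv0, hτv⟩ : ∃ v : V, v ≠ 0 ∧ τ v = v := by
    by_contra hno
    push Not at hno
    have hneg : ∀ x, ι c (b x) = -x := by
      intro x
      have h1 : τ x + x = 0 := by
        by_contra hne
        apply hno _ hne
        have h2 : τ (τ x + x) = τ (τ x) + τ x := by
          show ι c (b _) = ι c (b _) + ι c (b _)
          rw [map_add, map_add]
        rw [h2, hτ2, add_comm]
      exact eq_neg_of_add_eq_zero_left h1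
    have hbu : ∀ x, b x = ι (-c⁻¹) x := by
      intro x
      rw [map_neg, LinearMap.neg_apply, ← map_neg, ← hneg, hιc]
    have hba' : b * a = a * b := by
      ext x
      show b (a x) = a (b x)
      rw [hbu, ← hα, ← Module.End.mul_apply, ← map_mul, mul_comm, map_mul, Module.End.mul_apply,
        ← hbu]
      exact hα _
    have h1 : a ^ r = a := by
      rw [← hba, hba']
      simp
    have h2 : a ^ r = a ^ 1 := by rw [h1, pow_one]
    rw [pow_eq_pow_iff_modEq, hao] at h2
    have h5 : r ≡ 1 [MOD 4] := h2.of_dvd (pow_dvd_pow 2 hn)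
    unfold Nat.ModEq at h5
    omega
  have hbv : b v = ι c⁻¹ v := by
    have h1 : ι c (b v) = v := hτv
    rw [← hιc (b v), h1]
  -- the invariant subspace
  let W : Submodule (ZMod q) V :=
    { carrier := {y | ∃ k : K, ι k v = y}
      add_mem' := by
        rintro _ _ ⟨k, rfl⟩ ⟨k', rfl⟩
        exact ⟨k + k', by rw [map_add, LinearMap.add_apply]⟩
      zero_mem' := ⟨0, by rw [map_zero, LinearMap.zero_apply]⟩
      smul_mem' := by
        rintro c' _ ⟨k, rfl⟩
        obtain ⟨m, rfl⟩ := ZMod.natCast_zmod_surjective c'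
        refine ⟨(m : K) * k, ?_⟩
        rw [map_mul, map_natCast, Module.End.mul_apply, Module.End.natCast_apply,
          Nat.cast_smul_eq_nsmul] }
  have hW : W = ⊤ := by
    refine (hirr W ?_).resolve_left ?_
    · rintro s hs _ ⟨k, rfl⟩
      rcases hcases s hs with ⟨u, hu⟩ | ⟨u, hu⟩
      · exact ⟨u * k, by rw [hu, map_mul, Module.End.mul_apply]⟩
      · refine ⟨σ (u * k) * c⁻¹, ?_⟩
        rw [hu, map_mul (ι) (σ (u * k)), Module.End.mul_apply, ← hbv, ← hbconj, map_mul,
          Module.End.mul_apply]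
    · intro hbot
      have h1 : v ∈ W := ⟨1, by rw [map_one]; rfl⟩
      rw [hbot, Submodule.mem_bot] at h1
      exact hv0 h1
  have hsurj : Function.Surjective fun k : K => ι k v := by
    intro y
    have h1 : y ∈ W := by rw [hW]; trivial
    exact h1
  have hle : Nat.card V ≤ Nat.card K := Nat.card_le_card_of_surjective _ hsurj
  have hfin : Module.Finite (ZMod q) V := Module.Finite.of_finite
  rw [Module.natCard_eq_pow_finrank (K := ZMod q), Nat.card_zmod, Nat.card_eq_fintype_card, hcard]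
    at hle
  exact (Nat.pow_le_pow_iff_right hqp.one_lt).mp hle

/-- The subalgebra generated by an `S`-stable set is normalized by `S`. -/
theorem adjoin_normalized (S : Subgroup (V ≃ₗ[ZMod q] V)) (X : Set (Module.End (ZMod q) V))
    (hXn : ∀ s ∈ S, ∀ x ∈ X, cj s x ∈ X) :
    ∀ s ∈ S, ∀ x ∈ Algebra.adjoin (ZMod q) X, cj s x ∈ Algebra.adjoin (ZMod q) X := by
  intro s hs x hx
  induction hx using Algebra.adjoin_induction with
  | mem x hx => exact Algebra.subset_adjoin (hXn s hs x hx)
  | algebraMap c =>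
    have : cj s (algebraMap (ZMod q) (Module.End (ZMod q) V) c)
        = algebraMap (ZMod q) (Module.End (ZMod q) V) c := by
      ext v
      simp
    rw [this]
    exact Subalgebra.algebraMap_mem _ c
  | add x y _ _ hx hy =>
    rw [map_add]
    exact Subalgebra.add_mem _ hx hy
  | mul x y _ _ hx hy =>
    rw [map_mul]
    exact Subalgebra.mul_mem _ hx hy

theorem adjoin_comm (X : Set (Module.End (ZMod q) V)) (hX : ∀ x ∈ X, ∀ y ∈ X, x * y = y * x) :
    ∀ x ∈ Algebra.adjoin (ZMod q) X, ∀ y ∈ Algebra.adjoin (ZMod q) X, x * y = y * x := by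
  intro x hx y hy
  have h1 : ∀ z ∈ X, Commute x z := by
    intro z hz
    have h2 : Commute z x := Algebra.commute_of_mem_adjoin_of_forall_mem_commute hx
      (fun w hw => hX z hz w hw)
    exact h2.symm
  exact Algebra.commute_of_mem_adjoin_of_forall_mem_commute hy h1

/-- Blocks, or the algebra generated by the `S`-stable commuting set `X` is a field. -/
theorem blocks_or_field [Finite V] [Nontrivial V] {p : ℕ} [hp : Fact p.Prime]
    (S : Subgroup (V ≃ₗ[ZMod q] V)) (hpS : IsPGroup p S)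
    (hirr : ∀ W : Submodule (ZMod q) V, (∀ s ∈ S, ∀ w ∈ W, s w ∈ W) → W = ⊥ ∨ W = ⊤)
    (X : Set (Module.End (ZMod q) V)) (hX : ∀ x ∈ X, ∀ y ∈ X, x * y = y * x)
    (hXn : ∀ s ∈ S, ∀ x ∈ X, cj s x ∈ X) :
    (∃ (f : ZMod p → Module.End (ZMod q) V) (c : (V ≃ₗ[ZMod q] V) → ZMod p), BlockData S f c) ∨
    ∃ (K : Type u) (_ : Field K) (_ : Fintype K) (_ : CharP K q)
      (ι : K →+* Module.End (ZMod q) V),
      Set.range ι = (Algebra.adjoin (ZMod q) X : Set (Module.End (ZMod q) V)) := by
  rcases blocks_or_injective S hpS hirr (Algebra.adjoin (ZMod q) X) (adjoin_comm X hX)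
    (adjoin_normalized S X hXn) with h | h
  · exact Or.inl h
  · exact Or.inr (Cfsg.Agent.Lib.OrbCyc.exists_field _ (adjoin_comm X hX) h)

section FieldRep

variable {K : Type*} [Field K] [Fintype K] [CharP K q] [Nontrivial V]

/-- Conjugation by `s` on a field of endomorphisms stable under it. -/
theorem exists_conj_hom (ι : K →+* Module.End (ZMod q) V) (s : V ≃ₗ[ZMod q] V)
    (hs : ∀ k, cj s (ι k) ∈ Set.range ι) : ∃ σ : K →+* K, ∀ k, ι (σ k) = cj s (ι k) := by
  haveI := nontrivial_end (q := q) (V := V)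
  have hιinj : Function.Injective ι := ι.injective
  choose σ₀ hσ₀ using hs
  refine ⟨{ toFun := σ₀
            map_one' := hιinj (by rw [hσ₀, map_one, map_one])
            map_mul' := fun x y => hιinj (by rw [hσ₀, map_mul, map_mul, map_mul, hσ₀, hσ₀])
            map_zero' := hιinj (by rw [hσ₀, map_zero, map_zero])
            map_add' := fun x y => hιinj (by rw [hσ₀, map_add, map_add, map_add, hσ₀, hσ₀]) },
    hσ₀⟩

/-- A ring endomorphism of `K` is determined by the generators. -/
theorem ringHom_eq_of_gen (ι : K →+* Module.End (ZMod q) V) (X : Set (Module.End (ZMod q) V))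
    (hι : Set.range ι = (Algebra.adjoin (ZMod q) X : Set (Module.End (ZMod q) V)))
    (φ ψ : K →+* K) (h : ∀ k, ι k ∈ X → φ k = ψ k) : φ = ψ := by
  haveI := nontrivial_end (q := q) (V := V)
  have hιinj : Function.Injective ι := ι.injective
  have key : ∀ x ∈ Algebra.adjoin (ZMod q) X, ∀ k, ι k = x → φ k = ψ k := by
    intro x hx
    have hmem : ∀ y ∈ Algebra.adjoin (ZMod q) X, ∃ k, ι k = y := fun y hy => by
      have : y ∈ Set.range ι := by rw [hι]; exact hy
      exact this
    induction hx using Algebra.adjoin_induction with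
    | mem x hx =>
      intro k hk
      exact h k (by rw [hk]; exact hx)
    | algebraMap c =>
      intro k hk
      obtain ⟨m, rfl⟩ := ZMod.natCast_zmod_surjective c
      have h1 : k = (m : K) := by
        apply hιinj
        rw [hk, map_natCast, map_natCast]
      rw [h1, map_natCast, map_natCast]
    | add x y hx hy ihx ihy =>
      intro k hk
      obtain ⟨a, rfl⟩ := hmem x hx
      obtain ⟨b, rfl⟩ := hmem y hy
      have h1 : k = a + b := hιinj (by rw [hk, map_add])
      rw [h1, map_add, map_add, ihx a rfl, ihy b rfl]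
    | mul x y hx hy ihx ihy =>
      intro k hk
      obtain ⟨a, rfl⟩ := hmem x hx
      obtain ⟨b, rfl⟩ := hmem y hy
      have h1 : k = a * b := hιinj (by rw [hk, map_mul])
      rw [h1, map_mul, map_mul, ihx a rfl, ihy b rfl]
  ext k
  refine key (ι k) ?_ k rfl
  have : ι k ∈ Set.range ι := ⟨k, rfl⟩
  rwa [hι] at this

end FieldRep

/-- **Trichotomy.** -/
theorem trichotomy [Finite V] [Nontrivial V] {p : ℕ} [hp : Fact p.Prime]
    (S : Subgroup (V ≃ₗ[ZMod q] V)) (hpS : IsPGroup p S)
    (hirr : ∀ W : Submodule (ZMod q) V, (∀ s ∈ S, ∀ w ∈ W, s w ∈ W) → W = ⊥ ∨ W = ⊤) :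
    (∃ (f : ZMod p → Module.End (ZMod q) V) (c : (V ≃ₗ[ZMod q] V) → ZMod p), BlockData S f c) ∨
    Module.finrank (ZMod q) V ≤ 2 ∨
    ∃ (K : Type u) (_ : Field K) (_ : Fintype K) (_ : CharP K q)
      (ι : K →+* Module.End (ZMod q) V),
      (∀ s ∈ S, ∃ k : K, ∀ v, ι k v = s v) ∧ ∃ x₀ : V, x₀ ≠ 0 ∧ ∀ y : V, ∃ k : K, ι k x₀ = y := by
  classical
  haveI : Finite (V ≃ₗ[ZMod q] V) := Finite.of_injective (fun f : V ≃ₗ[ZMod q] V => (f : V → V))
    DFunLike.coe_injective
  haveI := nontrivial_end (q := q) (V := V)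
  by_cases hB : ∃ (f : ZMod p → Module.End (ZMod q) V) (c : (V ≃ₗ[ZMod q] V) → ZMod p),
      BlockData S f c
  · exact Or.inl hB
  right
  let en : (V ≃ₗ[ZMod q] V) → Module.End (ZMod q) V := fun g => g.toLinearMap
  have hen : ∀ g v, en g v = g v := fun _ _ => rfl
  have henmul : ∀ g h, en (g * h) = en g * en h := fun _ _ => rfl
  have henone : en 1 = 1 := rfl
  have heninj : Function.Injective en := fun g h e => by
    ext v
    have := congrArg (fun z : Module.End (ZMod q) V => z v) e
    exact this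
  have hcjen : ∀ s g, cj s (en g) = en (s * g * s⁻¹) := fun _ _ => rfl
  -- the set of a subgroup of `S`
  let XX : Subgroup S → Set (Module.End (ZMod q) V) := fun A => {x | ∃ g ∈ A, x = en g.1}
  have hXXc : ∀ A : Subgroup S, IsMulCommutative A → ∀ x ∈ XX A, ∀ y ∈ XX A, x * y = y * x := by
    rintro A hA _ ⟨g, hg, rfl⟩ _ ⟨h, hh, rfl⟩
    rw [← henmul, ← henmul]
    have := hA.is_comm.comm ⟨g, hg⟩ ⟨h, hh⟩
    have h2 : g * h = h * g := congrArg Subtype.val this
    have h3 : g.1 * h.1 = h.1 * g.1 := congrArg Subtype.val h2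
    rw [h3]
  have hXXn : ∀ A : Subgroup S, A.Normal → ∀ s ∈ S, ∀ x ∈ XX A, cj s x ∈ XX A := by
    rintro A hA s hs _ ⟨g, hg, rfl⟩
    exact ⟨⟨s, hs⟩ * g * ⟨s, hs⟩⁻¹, hA.conj_mem g hg ⟨s, hs⟩, rfl⟩
  have hfield : ∀ A : Subgroup S, A.Normal → IsMulCommutative A →
      ∃ (K : Type u) (_ : Field K) (_ : Fintype K) (_ : CharP K q)
      (ι : K →+* Module.End (ZMod q) V),
      Set.range ι = (Algebra.adjoin (ZMod q) (XX A) : Set (Module.End (ZMod q) V)) := by
    intro A hA hAc
    exact (blocks_or_field S hpS hirr (XX A) (hXXc A hAc) (hXXn A hA)).resolve_left hB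
  have hmemK : ∀ {K : Type u} [Field K] (ι : K →+* Module.End (ZMod q) V) (A : Subgroup S),
      Set.range ι = (Algebra.adjoin (ZMod q) (XX A) : Set (Module.End (ZMod q) V)) →
      ∀ g ∈ A, ∃ k : K, ι k = en g.1 := by
    intro K _ ι A hι g hg
    have : en g.1 ∈ Set.range ι := by
      rw [hι]
      exact Algebra.subset_adjoin ⟨g, hg, rfl⟩
    exact this
  have hC : ∀ A : Subgroup S, A.Normal → IsMulCommutative A → IsCyclic A := by
    intro A hA hAc
    obtain ⟨K, _, _, _, ι, hι⟩ := hfield A hA hAc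
    have hιinj : Function.Injective ι := ι.injective
    choose κ hκ using fun g : A => hmemK ι A hι g.1 g.2
    let f : A →* K :=
      { toFun := κ
        map_one' := hιinj (by rw [hκ, map_one]; rfl)
        map_mul' := fun x y => hιinj (by rw [hκ, map_mul, hκ, hκ]; rfl) }
    have hf : Function.Injective f := by
      intro x y hxy
      have h1 : en x.1.1 = en y.1.1 := by
        rw [← hκ, ← hκ]
        exact congrArg ι hxy
      exact Subtype.ext (Subtype.ext (heninj h1))
    exact isCyclic_of_injective_ringHom f hf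
  by_cases hab : IsMulCommutative S
  · -- the abelian case
    right
    have hAc : IsMulCommutative (⊤ : Subgroup S) := by
      refine ⟨⟨fun x y => Subtype.ext ?_⟩⟩
      exact hab.is_comm.comm x.1 y.1
    obtain ⟨K, iF, iFt, iC, ι, hι⟩ := hfield ⊤ inferInstance hAc
    refine ⟨K, iF, iFt, iC, ι, ?_, ?_⟩
    · intro s hs
      obtain ⟨k, hk⟩ := hmemK ι ⊤ hι ⟨s, hs⟩ trivial
      exact ⟨k, fun v => by rw [hk]; rfl⟩
    · obtain ⟨x₀, hx₀⟩ := exists_ne (0 : V)
      refine ⟨x₀, hx₀, ?_⟩
      let W : Submodule (ZMod q) V :=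
        { carrier := {y | ∃ k : K, ι k x₀ = y}
          add_mem' := by
            rintro _ _ ⟨k, rfl⟩ ⟨k', rfl⟩
            exact ⟨k + k', by rw [map_add, LinearMap.add_apply]⟩
          zero_mem' := ⟨0, by rw [map_zero, LinearMap.zero_apply]⟩
          smul_mem' := by
            rintro c' _ ⟨k, rfl⟩
            obtain ⟨m, rfl⟩ := ZMod.natCast_zmod_surjective c'
            refine ⟨(m : K) * k, ?_⟩
            rw [map_mul, map_natCast, Module.End.mul_apply, Module.End.natCast_apply,
              Nat.cast_smul_eq_nsmul] }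
      have hW : W = ⊤ := by
        refine (hirr W ?_).resolve_left ?_
        · rintro s hs _ ⟨k, rfl⟩
          obtain ⟨u, hu⟩ := hmemK ι ⊤ hι ⟨s, hs⟩ trivial
          refine ⟨u * k, ?_⟩
          rw [map_mul, Module.End.mul_apply, hu]
          rfl
        · intro hbot
          have h1 : x₀ ∈ W := ⟨1, by rw [map_one]; rfl⟩
          rw [hbot, Submodule.mem_bot] at h1
          exact hx₀ h1
      intro y
      have h1 : y ∈ W := by rw [hW]; trivial
      exact h1
  · -- the non-abelian case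
    left
    obtain ⟨hp2, a, b, n, r, hao, hn, han, hac, hba, hr4, hr2, hb2⟩ :=
      Cfsg.Agent.Lib.OrbDih.exists_dih_data hpS hC hab
    have hAc : IsMulCommutative (Subgroup.zpowers a) := by
      refine ⟨⟨fun x y => ?_⟩⟩
      obtain ⟨x, i, hi⟩ := x
      obtain ⟨y, j, hj⟩ := y
      apply Subtype.ext
      show x * y = y * x
      simp only at hi hj
      rw [← hi, ← hj]
      exact ((Commute.refl a).zpow_zpow i j).eq
    obtain ⟨K, iF, iFt, iC, ι, hι⟩ := hfield _ han hAc
    have hιinj : Function.Injective ι := ι.injective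
    obtain ⟨α, hα⟩ := hmemK ι _ hι a (Subgroup.mem_zpowers a)
    have hιpow : ∀ m : ℕ, ι (α ^ m) = en ((a ^ m : S) : V ≃ₗ[ZMod q] V) := by
      intro m
      induction m with
      | zero => rw [pow_zero, pow_zero, map_one]; rfl
      | succ m ih => rw [pow_succ, pow_succ, map_mul, ih, hα]; rfl
    have hgen : ∀ φ ψ : K →+* K, φ α = ψ α → φ = ψ := by
      intro φ ψ he
      refine ringHom_eq_of_gen ι _ hι φ ψ ?_
      rintro k ⟨g, hg, hk⟩
      obtain ⟨m, rfl⟩ := mem_powers_iff_mem_zpowers.mpr hg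
      have h1 : k = α ^ m := hιinj (by rw [hk, hιpow])
      rw [h1, map_pow, map_pow, he]
    refine finrank_le_two_of_dih ι S hirr a.1 b.1 a.2 b.2 α (fun v => by rw [hα]; rfl)
      (n := n) (r := r) (by rw [Subgroup.orderOf_coe]; exact hao) hn hgen ?_ ?_ ?_ hr4 hr2 ?_
    · intro s hs
      refine exists_conj_hom ι s fun k => ?_
      have h1 : ι k ∈ Algebra.adjoin (ZMod q) (XX (Subgroup.zpowers a)) := by
        have : ι k ∈ Set.range ι := ⟨k, rfl⟩
        rwa [hι] at this
      have h2 := adjoin_normalized S _ (hXXn _ han) s hs _ h1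
      have : cj s (ι k) ∈ (Algebra.adjoin (ZMod q) (XX (Subgroup.zpowers a)) :
          Set (Module.End (ZMod q) V)) := h2
      rwa [← hι] at this
    · intro s hs h
      have h1 := hac ⟨s, hs⟩ (Subtype.ext h)
      obtain ⟨i, hi⟩ := h1
      refine ⟨i, ?_⟩
      have := congrArg Subtype.val hi
      simpa using this
    · exact congrArg Subtype.val hba
    · obtain ⟨i, hi⟩ := hb2
      refine ⟨i, ?_⟩
      have := congrArg Subtype.val hi
      simpa using this

end Cfsg.Agent.Lib.OrbTrich
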