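import Mathlib
import Cfsg.Agent.Lib.OrbTrich

/-!
# The orbit theorem

Let `H` be a group of automorphisms of a finite `F_q`-vector space with `q ∤ |H|`, and let `S ≤ H` be
a `p`-subgroup such that every `H`-orbit is an `S`-orbit. Then `H` is solvable.
-/

set_option autoImplicit false
set_option linter.unusedSectionVars false
set_option linter.unusedVariables false
set_option linter.style.haveILetI false

namespace Cfsg.Agent.Lib.OrbMain

open Cfsg.Agent.Lib.OrbDom Cfsg.Agent.Lib.OrbBlocks Cfsg.Agent.Lib.OrbTrich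

universe u

variable {q : ℕ} [hq : Fact q.Prime] {p : ℕ} [hp : Fact p.Prime]

theorem card_sub_lt {V : Type u} [AddCommGroup V] [Module (ZMod q) V] [Finite V]
    (U : Submodule (ZMod q) V) (hU : U ≠ ⊤) : Nat.card U < Nat.card V := by
  obtain ⟨x, hx⟩ : ∃ x, x ∉ U := by
    by_contra h
    push Not at h
    exact hU (Submodule.eq_top_iff'.mpr h)
  exact Finite.card_subtype_lt (p := fun y => y ∈ U) hx

theorem card_quot_lt {V : Type u} [AddCommGroup V] [Module (ZMod q) V] [Finite V]
    (U : Submodule (ZMod q) V) (hU : U ≠ ⊥) : Nat.card (V ⧸ U) < Nat.card V := by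
  have h1 : Nat.card V = Nat.card (V ⧸ U) * Nat.card U :=
    AddSubgroup.card_eq_card_quotient_mul_card_addSubgroup U.toAddSubgroup
  have h2 : 1 < Nat.card U := by
    have : Nontrivial U := (Submodule.nontrivial_iff_ne_bot).mpr hU
    exact Finite.one_lt_card
  haveI : Finite (V ⧸ U) := Finite.of_surjective U.mkQ U.mkQ_surjective
  have h3 : 0 < Nat.card (V ⧸ U) := Nat.card_pos
  rw [h1]
  nlinarith

/-- **The orbit theorem.** -/
theorem orbit_solvable (V : Type u) [AddCommGroup V] [Module (ZMod q) V] [Finite V] :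
    OrbitSolvable p q V := by
  induction hn : Nat.card V using Nat.strong_induction_on generalizing V with
  | _ n ih =>
    subst hn
    intro H S hD hpS hc
    by_cases hV : Subsingleton V
    · haveI : Subsingleton (V ≃ₗ[ZMod q] V) := ⟨fun a b => by
        ext x
        exact Subsingleton.elim _ _⟩
      haveI : Subsingleton H := inferInstance
      infer_instance
    haveI : Nontrivial V := not_subsingleton_iff_nontrivial.mp hV
    by_cases hirr : ∀ W : Submodule (ZMod q) V, (∀ s ∈ S, ∀ w ∈ W, s w ∈ W) → W = ⊥ ∨ W = ⊤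
    · rcases trichotomy S hpS hirr with ⟨f, c, hB⟩ | hdim | ⟨K, iF, iFt, iC, ι, hSK, x₀, hx₀, hgen⟩
      · refine Cfsg.Agent.Lib.OrbBlocks.isSolvable_of_blocks hB hD hpS hc ?_
        have hne : LinearMap.range (f 0) ≠ ⊤ := by
          intro htop
          have h1 : (1 : ZMod p) ≠ 0 := one_ne_zero
          apply hB.ne 1
          ext x
          have h2 : f 1 x ∈ LinearMap.range (f 0) := by rw [htop]; trivial
          obtain ⟨z, hz⟩ := h2
          have h3 := hB.orth 0 1 h1.symm x
          rw [← hz, hB.idem] at h3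
          rw [← hz, h3, LinearMap.zero_apply]
        exact ih _ (card_sub_lt _ hne) _ rfl
      · exact Cfsg.Agent.Lib.OrbDim2.isSolvable_of_finrank_le hD hpS hc hdim
      · exact Cfsg.Agent.Lib.OrbCyc.isSolvable_of_field_rep ι hD hpS hc hSK x₀ hx₀ hgen
    · push Not at hirr
      obtain ⟨U, hU, hU0, hU1⟩ := hirr
      haveI : Finite (V ⧸ U) := Finite.of_surjective U.mkQ U.mkQ_surjective
      exact isSolvable_of_invariant hD hpS hc U hU (ih _ (card_sub_lt _ hU1) _ rfl)
        (ih _ (card_quot_lt _ hU0) _ rfl)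

end Cfsg.Agent.Lib.OrbMain
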