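import Mathlib

/-!
Fixed vectors of a representation generated by one orbit: lifting invariant vectors to invariant
functions on the orbit, along a chain of subgroups whose consecutive indices are invertible.
-/

set_option autoImplicit false

namespace Cfsg.Agent.Lib.OrbitFix

section
variable {k V H : Type*} [Field k] [AddCommGroup V] [Module k V] [Group H]

theorem rho_inv_apply (ρ : Representation k H V) (g : H) (v : V) : ρ g⁻¹ (ρ g v) = v := by
  rw [← Module.End.mul_apply, ← map_mul]; simp

theorem rho_apply_inv (ρ : Representation k H V) (g : H) (v : V) : ρ g (ρ g⁻¹ v) = v := by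
  rw [← Module.End.mul_apply, ← map_mul]; simp

variable [Finite H]

/-- The orbit of `a` as a finset. -/
noncomputable def orb (ρ : Representation k H V) (a : V) : Finset V :=
  (Set.finite_range (fun h : H => ρ h a)).toFinset

theorem mem_orb (ρ : Representation k H V) (a u : V) : u ∈ orb ρ a ↔ ∃ h : H, ρ h a = u := by
  simp [orb]

theorem smul_mem_orb (ρ : Representation k H V) (a u : V) (g : H) (hu : u ∈ orb ρ a) :
    ρ g u ∈ orb ρ a := by
  rw [mem_orb] at hu ⊢
  obtain ⟨h, rfl⟩ := hu
  exact ⟨g * h, by simp⟩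

/-- Reindexing a sum over the orbit by the action of a group element. -/
theorem sum_orb_reindex {M : Type*} [AddCommMonoid M] (ρ : Representation k H V) (a : V) (g : H)
    (F : V → M) : ∑ u ∈ orb ρ a, F (ρ g u) = ∑ u ∈ orb ρ a, F u := by
  classical
  refine Finset.sum_nbij' (fun u => ρ g u) (fun u => ρ g⁻¹ u) ?_ ?_ ?_ ?_ ?_
  · intro u hu; exact smul_mem_orb ρ a u g hu
  · intro u hu; exact smul_mem_orb ρ a u g⁻¹ hu
  · intro u _; exact rho_inv_apply ρ g u
  · intro u _; exact rho_apply_inv ρ g u
  · intro u _; rfl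

/-- The sum of the orbit is fixed. -/
theorem orb_sum_fixed (ρ : Representation k H V) (a : V) (g : H) :
    ρ g (∑ u ∈ orb ρ a, u) = ∑ u ∈ orb ρ a, u := by
  rw [map_sum]
  exact sum_orb_reindex ρ a g (fun u => u)

/-- Base: a vector in the span of the orbit is the image of some function. -/
theorem exists_base (ρ : Representation k H V) (a : V)
    (hspan : Submodule.span k {u : V | ∃ h : H, ρ h a = u} = ⊤) (x : V) :
    ∃ f : V → k, ∑ u ∈ orb ρ a, f u • u = x := by
  have h1 : ((orb ρ a : Finset V) : Set V) = {u : V | ∃ h : H, ρ h a = u} := by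
    ext u; simp [mem_orb]
  have h2 : x ∈ Submodule.span k ((orb ρ a : Finset V) : Set V) := by
    rw [h1, hspan]; trivial
  obtain ⟨f, -, hf⟩ := Submodule.mem_span_finset.mp h2
  exact ⟨f, hf⟩

/-- Averaging step along `N ≤ N'`, with invertible index. -/
theorem step (ρ : Representation k H V) (a : V) (N N' : Subgroup H)
    (ht : ((N.relIndex N' : ℕ) : k) ≠ 0) (x : V) (hx : ∀ g ∈ N', ρ g x = x)
    (f : V → k) (hf : ∀ g ∈ N, ∀ u : V, f (ρ g u) = f u) (hfx : ∑ u ∈ orb ρ a, f u • u = x) :
    ∃ f' : V → k, (∀ g ∈ N', ∀ u : V, f' (ρ g u) = f' u) ∧ ∑ u ∈ orb ρ a, f' u • u = x := by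
  classical
  let S := N.subgroupOf N'
  let T := N' ⧸ S
  letI : Fintype T := Fintype.ofFinite _
  have hcardT : Fintype.card T = N.relIndex N' := by
    rw [← Nat.card_eq_fintype_card]; rfl
  have hwd : ∀ (u : V) (g₁ g₂ : N'), (QuotientGroup.leftRel S) g₁ g₂ →
      f (ρ (g₁ : H)⁻¹ u) = f (ρ (g₂ : H)⁻¹ u) := by
    intro u g₁ g₂ h
    rw [QuotientGroup.leftRel_apply] at h
    have hn : ((g₁⁻¹ * g₂ : N') : H) ∈ N := h
    set n : H := ((g₁⁻¹ * g₂ : N') : H) with hn'
    have : (g₂ : H)⁻¹ = n⁻¹ * (g₁ : H)⁻¹ := by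
      rw [hn']; push_cast; group
    rw [this, map_mul, Module.End.mul_apply]
    exact (hf _ (N.inv_mem hn) _).symm
  let F : V → T → k := fun u => Quotient.lift (fun g : N' => f (ρ (g : H)⁻¹ u)) (hwd u)
  have hF : ∀ (u : V) (g : N'), F u (g : T) = f (ρ (g : H)⁻¹ u) := fun u g => rfl
  let t : k := ((N.relIndex N' : ℕ) : k)
  refine ⟨fun u => t⁻¹ * ∑ τ : T, F u τ, ?_, ?_⟩
  · intro g hg u
    have : ∀ τ : T, F (ρ g u) τ = F u ((⟨g, hg⟩⁻¹ : N') • τ) := by
      intro τ
      induction τ using QuotientGroup.induction_on with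
      | H d =>
        rw [hF, MulAction.Quotient.smul_mk, hF]
        simp only [smul_eq_mul, Subgroup.coe_mul, InvMemClass.coe_inv, mul_inv_rev, inv_inv]
        rw [map_mul, Module.End.mul_apply]
    simp only [this]
    congr 1
    exact Equiv.sum_comp (MulAction.toPerm ((⟨g, hg⟩⁻¹ : N'))) (F u)
  · have hfix : ∀ τ : T, ∑ u ∈ orb ρ a, F u τ • u = x := by
      intro τ
      induction τ using QuotientGroup.induction_on with
      | H d =>
        have h1 : ∀ u, F u (d : T) = f (ρ (d : H)⁻¹ u) := fun u => hF u d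
        simp only [h1]
        have h2 := sum_orb_reindex ρ a (d : H) (fun u => f (ρ (d : H)⁻¹ u) • u)
        rw [← h2]
        have h3 : ∀ u, f (ρ (d : H)⁻¹ (ρ (d : H) u)) • ρ (d : H) u = ρ (d : H) (f u • u) := by
          intro u
          rw [rho_inv_apply, map_smul]
        simp only [h3]
        rw [← map_sum, hfx]
        exact hx _ d.2
    have h4 : ∑ u ∈ orb ρ a, (t⁻¹ * ∑ τ : T, F u τ) • u = t⁻¹ • ∑ τ : T, ∑ u ∈ orb ρ a, F u τ • u := by
      rw [Finset.sum_comm, Finset.smul_sum]
      refine Finset.sum_congr rfl (fun u _ => ?_)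
      rw [mul_smul, Finset.sum_smul]
    rw [h4]
    simp only [hfix]
    rw [Finset.sum_const, Finset.card_univ, hcardT, ← Nat.cast_smul_eq_nsmul k, smul_smul]
    rw [inv_mul_cancel₀ ht, one_smul]

/-- An `N`-invariant function where `N` is transitive on the orbit gives a multiple of the orbit sum. -/
theorem eq_smul_orb_sum (ρ : Representation k H V) (a : V) (f : V → k) (x : V)
    (hfx : ∑ u ∈ orb ρ a, f u • u = x) (hc : ∀ u ∈ orb ρ a, f u = f a) :
    x = f a • ∑ u ∈ orb ρ a, u := by
  rw [← hfx, Finset.smul_sum]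
  exact Finset.sum_congr rfl (fun u hu => by rw [hc u hu])

/-- The stabilizer of a vector. -/
def stab (ρ : Representation k H V) (a : V) : Subgroup H where
  carrier := {h | ρ h a = a}
  one_mem' := by simp
  mul_mem' := by
    intro x y hx hy
    simp only [Set.mem_ofPred_eq] at hx hy ⊢
    rw [map_mul, Module.End.mul_apply, hy, hx]
  inv_mem' := by
    intro x hx
    simp only [Set.mem_ofPred_eq] at hx ⊢
    conv_lhs => rw [← hx]
    exact rho_inv_apply ρ x a

theorem mem_stab (ρ : Representation k H V) (a : V) (h : H) : h ∈ stab ρ a ↔ ρ h a = a := Iff.rfl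

/-- The size of the orbit is the index of the stabilizer. -/
theorem card_orbit (ρ : Representation k H V) (a : V) :
    Nat.card {u : V | ∃ h : H, ρ h a = u} = (stab ρ a).index := by
  classical
  letI : MulAction H V :=
    { smul := fun h v => ρ h v
      one_smul := by
        intro v
        show ρ 1 v = v
        simp
      mul_smul := by
        intro x y v
        show ρ (x * y) v = ρ x (ρ y v)
        simp }
  have h1 : stab ρ a = MulAction.stabilizer H a := by
    ext h
    rfl
  have h2 : {u : V | ∃ h : H, ρ h a = u} = MulAction.orbit H a := by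
    ext u
    rfl
  rw [h1, h2, MulAction.index_stabilizer, Nat.card_coe_set_eq]

/-- Two subgroups of coprime index: every element is a product. -/
theorem exists_mul_of_coprime {H : Type*} [Group H] [Finite H] (A B : Subgroup H)
    (hcop : A.index.Coprime B.index) (g : H) : ∃ b ∈ B, ∃ a' ∈ A, g = b * a' := by
  classical
  -- orbit of the base point of `H ⧸ A` under `B`
  let x : H ⧸ A := ((1 : H) : H ⧸ A)
  have hstab : MulAction.stabilizer B x = A.subgroupOf B := by
    ext b
    rw [MulAction.mem_stabilizer_iff, Subgroup.mem_subgroupOf]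
    show ((b : H) • x = x) ↔ _
    rw [MulAction.Quotient.smul_coe, eq_comm]
    simp only [x, smul_eq_mul, mul_one]
    rw [QuotientGroup.eq]
    simp
  have h1 : A.relIndex B = (MulAction.orbit B x).ncard := by
    have := MulAction.index_stabilizer B x
    rw [hstab] at this
    exact this
  have h2 : A.index ∣ A.relIndex B := by
    have e1 : (A ⊓ B).relIndex B * B.index = (A ⊓ B).index :=
      Subgroup.relIndex_mul_index inf_le_right
    have e2 : (A ⊓ B).relIndex A * A.index = (A ⊓ B).index :=
      Subgroup.relIndex_mul_index inf_le_left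
    rw [Subgroup.inf_relIndex_right] at e1
    have : A.index ∣ A.relIndex B * B.index := by
      rw [e1, ← e2]; exact dvd_mul_left _ _
    exact hcop.dvd_of_dvd_mul_right this
  have hApos : 0 < A.index := Nat.pos_of_ne_zero Subgroup.index_ne_zero_of_finite
  have h3 : MulAction.orbit B x = Set.univ := by
    apply Set.eq_of_subset_of_ncard_le (Set.subset_univ _)
    have hne : A.relIndex B ≠ 0 := by
      intro h0
      rw [h1] at h0
      have hfin : (MulAction.orbit B x).Finite := Set.toFinite _
      exact (Set.ncard_ne_zero_of_mem (MulAction.mem_orbit_self x) hfin) h0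
    rw [← h1, Set.ncard_univ]
    exact Nat.le_of_dvd (Nat.pos_of_ne_zero hne) h2
  have h4 : ((g : H) : H ⧸ A) ∈ MulAction.orbit B x := by rw [h3]; trivial
  obtain ⟨b, hb⟩ := h4
  have hb' : ((b : H) : H ⧸ A) = ((g : H) : H ⧸ A) := by
    have : (b : H) • x = ((g : H) : H ⧸ A) := hb
    rw [MulAction.Quotient.smul_coe] at this
    simpa [x] using this
  refine ⟨b, b.2, (b : H)⁻¹ * g, QuotientGroup.eq.mp hb', ?_⟩
  group

/-- Final form of the averaging argument: a vector fixed by `B` is a multiple of the orbit sum, when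
`B = B · Stab(a)`. -/
theorem fixed_multiple (ρ : Representation k H V) (a : V)
    (hspan : Submodule.span k {u : V | ∃ h : H, ρ h a = u} = ⊤) (B : Subgroup H)
    (hB : ((Nat.card B : ℕ) : k) ≠ 0)
    (hfac : ∀ g : H, ∃ b ∈ B, ∃ a' ∈ stab ρ a, g = b * a') (x : V) (hx : ∀ g ∈ B, ρ g x = x) :
    ∃ c : k, x = c • ∑ u ∈ orb ρ a, u := by
  obtain ⟨f, hf⟩ := exists_base ρ a hspan x
  have ht : (((⊥ : Subgroup H).relIndex B : ℕ) : k) ≠ 0 := by
    rwa [Subgroup.relIndex_bot_left]
  obtain ⟨f', hf', hf'x⟩ := step ρ a ⊥ B ht x hx f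
    (by
      intro g hg u
      rw [Subgroup.mem_bot] at hg
      subst hg
      simp) hf
  refine ⟨f' a, eq_smul_orb_sum ρ a f' x hf'x ?_⟩
  intro u hu
  rw [mem_orb] at hu
  obtain ⟨g, rfl⟩ := hu
  obtain ⟨b, hb, a', ha', rfl⟩ := hfac g
  rw [map_mul, Module.End.mul_apply, (mem_stab ρ a a').mp ha']
  exact hf' b hb a

end

end Cfsg.Agent.Lib.OrbitFix
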