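import Mathlib

/-! An element of order 65 in `PSL₂(F)` for a field `F` with 64 elements. -/

namespace Cfsg.Agent.Lib.Ord65

open Matrix

theorem psl2 {F : Type*} [Field F] [Fintype F] (h : Fintype.card F = 64) :
    ∃ x : Matrix.ProjectiveSpecialLinearGroup (Fin 2) F, orderOf x = 65 := by
  classical
  -- characteristic two
  obtain ⟨p, hp⟩ := CharP.exists F
  have hcard : Fintype.card F = 2 ^ 6 := by simpa using h
  haveI : CharP F 2 := by
    obtain ⟨n, hprime, hn⟩ := FiniteField.card F p
    have hpp : p.Prime := hprime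
    have : p ^ (n : ℕ) = 2 ^ 6 := by rw [← hn, hcard]
    have h2 : p = 2 := by
      have hd : p ∣ 2 ^ 6 := by
        rw [← this]; exact dvd_pow_self _ n.2.ne'
      have := (Nat.prime_dvd_prime_iff_eq hpp Nat.prime_two).1 (hpp.dvd_of_dvd_pow hd)
      exact this
    subst h2
    exact hp
  haveI : Fact (Nat.Prime 2) := ⟨Nat.prime_two⟩
  -- the quadratic extension
  let K := FiniteField.Extension F 2 2
  haveI : Fintype K := Fintype.ofFinite K
  have hfr : Module.finrank F K = 2 := FiniteField.finrank_extension F 2 2
  have hcK : Fintype.card K = 4096 := by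
    have := Module.card_eq_pow_finrank (K := F) (V := K)
    rw [this, hfr, h]
    norm_num
  -- element of order 65
  have hunits : Fintype.card Kˣ = 4095 := by
    rw [Fintype.card_units, hcK]
  obtain ⟨g, hg⟩ := IsCyclic.exists_generator (α := Kˣ)
  have hog : orderOf g = 4095 := by
    rw [orderOf_eq_card_of_forall_mem_zpowers hg, Nat.card_eq_fintype_card, hunits]
  let u : Kˣ := g ^ 63
  have hou : orderOf u = 65 := by
    have := orderOf_pow' g (n := 63) (by norm_num)
    rw [hog] at this
    simpa [u] using this
  -- the matrix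
  let b := Module.finBasisOfFinrankEq F K hfr
  let L : K →ₐ[F] Matrix (Fin 2) (Fin 2) F := Algebra.leftMulMatrix b
  have hLinj : Function.Injective L := Algebra.leftMulMatrix_injective b
  let M : Matrix (Fin 2) (Fin 2) F := L (u : K)
  have hMpow : ∀ n : ℕ, M ^ n = L ((u : K) ^ n) := fun n => (map_pow L _ n).symm
  have hMn : ∀ n : ℕ, M ^ n = 1 ↔ u ^ n = 1 := by
    intro n
    rw [hMpow]
    constructor
    · intro hh
      have : (u : K) ^ n = 1 := hLinj (by rw [hh, map_one])
      exact Units.ext (by simpa using this)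
    · intro hh
      have : (u : K) ^ n = 1 := by
        have := congrArg (fun v : Kˣ => (v : K)) hh
        simpa using this
      rw [this, map_one]
  have hu65 : u ^ 65 = 1 := by rw [← hou]; exact pow_orderOf_eq_one u
  -- determinant one
  have hdet : M.det = 1 := by
    have h65 : M.det ^ 65 = 1 := by
      rw [← Matrix.det_pow, (hMn 65).2 hu65, Matrix.det_one]
    have hM0 : M.det ≠ 0 := by
      intro h0
      rw [h0] at h65
      simp at h65
    have h63 : M.det ^ 63 = 1 := by
      have := FiniteField.pow_card_sub_one_eq_one M.det hM0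
      rw [h] at this
      simpa using this
    have : M.det ^ 2 = 1 := by
      have e : M.det ^ 65 = M.det ^ 63 * M.det ^ 2 := by ring
      rw [h65, h63, one_mul] at e
      exact e.symm
    have e2 : M.det ^ 63 = (M.det ^ 2) ^ 31 * M.det := by ring
    rw [this, one_pow, one_mul] at e2
    rw [← e2, h63]
  let s : Matrix.SpecialLinearGroup (Fin 2) F := ⟨M, hdet⟩
  have hsn : ∀ n : ℕ, s ^ n = 1 ↔ u ^ n = 1 := by
    intro n
    rw [← hMn n]
    constructor
    · intro hh
      have := congrArg Subtype.val hh
      rw [Matrix.SpecialLinearGroup.coe_pow] at this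
      exact this
    · intro hh
      apply Subtype.ext
      rw [Matrix.SpecialLinearGroup.coe_pow]
      exact hh
  -- the center is trivial
  have hcent : ∀ z : Matrix.SpecialLinearGroup (Fin 2) F,
      z ∈ Subgroup.center (Matrix.SpecialLinearGroup (Fin 2) F) → z = 1 := by
    intro z hz
    rw [Matrix.SpecialLinearGroup.mem_center_iff] at hz
    obtain ⟨r, hr, hrz⟩ := hz
    have hr1 : r = 1 := by
      have h2 : r ^ 2 = 1 := by simpa using hr
      have : (r - 1) ^ 2 = 0 := by
        have e : (r - 1) ^ 2 = r ^ 2 - 2 * r + 1 := by ring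
        rw [e, h2]
        have h20 : (2 : F) = 0 := CharP.cast_eq_zero F 2
        rw [h20]
        ring_nf
        exact h20
      have := pow_eq_zero_iff (two_ne_zero) |>.1 this
      exact sub_eq_zero.1 this
    subst hr1
    apply Subtype.ext
    rw [← hrz]
    simp
  refine ⟨(QuotientGroup.mk s : Matrix.ProjectiveSpecialLinearGroup (Fin 2) F), ?_⟩
  have hkey : ∀ n : ℕ,
      ((QuotientGroup.mk s : Matrix.ProjectiveSpecialLinearGroup (Fin 2) F)) ^ n = 1 ↔ u ^ n = 1 := by
    intro n
    rw [← hsn n]
    rw [← QuotientGroup.mk_pow, QuotientGroup.eq_one_iff]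
    constructor
    · exact hcent _
    · intro hh
      rw [hh]
      exact Subgroup.one_mem _
  rw [← hou]
  apply orderOf_eq_orderOf_iff.2
  exact hkey

end Cfsg.Agent.Lib.Ord65
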