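import Mathlib
import Cfsg.Prelude.Def_Classical
import Cfsg.Agent.Lib.Sz8Field

/-!
# Elements of order 65 in `PSp₄(8)`, `PSp₆(8)` and `PSL₄(8)`

Explicit matrices over the concrete field `K8` with eight elements (packed in base 8), checked by
the kernel and transported to any field with eight elements.
-/

set_option autoImplicit false

namespace Cfsg.Agent.Lib.Ord65

open Cfsg.Agent.Lib.Sz8 Matrix

/-- An element whose fifth and thirteenth powers are not central has order 65 mod the centre. -/
theorem orderOf_mk_center {G : Type*} [Group G] {g y : G} (h65 : g ^ 65 = 1)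
    (h5 : g ^ 5 * y ≠ y * g ^ 5) (h13 : g ^ 13 * y ≠ y * g ^ 13) :
    orderOf (QuotientGroup.mk g : G ⧸ Subgroup.center G) = 65 := by
  set x : G ⧸ Subgroup.center G := QuotientGroup.mk g with hx
  have hpow : ∀ n : ℕ, x ^ n = 1 → g ^ n * y = y * g ^ n := by
    intro n hn
    have h1 : (QuotientGroup.mk (g ^ n) : G ⧸ Subgroup.center G) = 1 := by
      rw [QuotientGroup.mk_pow]; exact hn
    have hc := (QuotientGroup.eq_one_iff _).1 h1
    exact (Subgroup.mem_center_iff.1 hc y).symm
  have hd : orderOf x ∣ 65 := orderOf_dvd_of_pow_eq_one (by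
    rw [hx, ← QuotientGroup.mk_pow, h65]; rfl)
  have hle := Nat.le_of_dvd (by norm_num) hd
  have h5' : ¬ orderOf x ∣ 5 := fun h => h5 (hpow 5 (orderOf_dvd_iff_pow_eq_one.1 h))
  have h13' : ¬ orderOf x ∣ 13 := fun h => h13 (hpow 13 (orderOf_dvd_iff_pow_eq_one.1 h))
  generalize orderOf x = n at hd hle h5' h13' ⊢
  interval_cases n <;> first | rfl | omega

/-- Powers from a squaring chain. -/
theorem pow_data {M : Type*} [Monoid M] {X X2 X4 X5 X8 X12 X13 X16 X32 X64 : M}
    (h2 : X * X = X2) (h4 : X2 * X2 = X4) (h5 : X4 * X = X5) (h8 : X4 * X4 = X8)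
    (h12 : X8 * X4 = X12) (h13 : X12 * X = X13) (h16 : X8 * X8 = X16) (h32 : X16 * X16 = X32)
    (h64 : X32 * X32 = X64) (h65 : X64 * X = 1) :
    X ^ 5 = X5 ∧ X ^ 13 = X13 ∧ X ^ 65 = 1 := by
  have p2 : X ^ 2 = X2 := by rw [pow_two, h2]
  have p4 : X ^ 4 = X4 := by rw [show 4 = 2 + 2 from rfl, pow_add, p2, h4]
  have p8 : X ^ 8 = X8 := by rw [show 8 = 4 + 4 from rfl, pow_add, p4, h8]
  have p16 : X ^ 16 = X16 := by rw [show 16 = 8 + 8 from rfl, pow_add, p8, h16]
  have p32 : X ^ 32 = X32 := by rw [show 32 = 16 + 16 from rfl, pow_add, p16, h32]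
  have p64 : X ^ 64 = X64 := by rw [show 64 = 32 + 32 from rfl, pow_add, p32, h64]
  refine ⟨?_, ?_, ?_⟩
  · rw [pow_succ, p4, h5]
  · rw [pow_succ, show 12 = 8 + 4 from rfl, pow_add, p8, p4, h12, h13]
  · rw [pow_succ, p64, h65]

/-- Entry `i` of a packed table. -/
def ent (n i : ℕ) : K8 := ⟨Nat.mod (Nat.shiftRight n (Nat.mul 3 i)) 8, Nat.mod_lt _ (by decide)⟩

/-- The position of an index of a symplectic matrix. -/
def ix (m : ℕ) : Fin m ⊕ Fin m → ℕ
  | .inl i => i.1
  | .inr i => m + i.1

/-- A packed matrix with symplectic indexing. -/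
def MS (m n : ℕ) : Matrix (Fin m ⊕ Fin m) (Fin m ⊕ Fin m) K8 :=
  fun i j => ent n (2 * m * ix m i + ix m j)

/-- A packed `4 × 4` matrix. -/
def ML (n : ℕ) : Matrix (Fin 4) (Fin 4) K8 := fun i j => ent n (4 * i.1 + j.1)

theorem map_J {F : Type*} [Field F] (φ : K8 →+* F) (m : ℕ) :
    φ.mapMatrix (J (Fin m) K8) = J (Fin m) F := by
  ext i j
  rcases i with i | i <;> rcases j with j | j <;>
    simp [Matrix.J, Matrix.one_apply, apply_ite φ]

theorem map_mem {F : Type*} [Field F] (φ : K8 →+* F) (m : ℕ)
    {X : Matrix (Fin m ⊕ Fin m) (Fin m ⊕ Fin m) K8}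
    (hX : X * J (Fin m) K8 * Xᵀ = J (Fin m) K8) :
    φ.mapMatrix X ∈ symplecticGroup (Fin m) F := by
  rw [SymplecticGroup.mem_iff]
  have h := congrArg φ.mapMatrix hX
  rw [map_mul, map_mul, map_J] at h
  have ht : φ.mapMatrix Xᵀ = (φ.mapMatrix X)ᵀ := by
    ext i j; rfl
  rw [ht] at h
  exact h

theorem psp_of_data {F : Type*} [Field F] (φ : K8 →+* F) (hφ : Function.Injective φ) (m : ℕ)
    {X Y : Matrix (Fin m ⊕ Fin m) (Fin m ⊕ Fin m) K8}
    (hX : X * J (Fin m) K8 * Xᵀ = J (Fin m) K8) (hY : Y * J (Fin m) K8 * Yᵀ = J (Fin m) K8)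
    (h65 : X ^ 65 = 1) (h5 : X ^ 5 * Y ≠ Y * X ^ 5) (h13 : X ^ 13 * Y ≠ Y * X ^ 13) :
    ∃ x : Cfsg.PSp m F, orderOf x = 65 := by
  have hinj : Function.Injective (φ.mapMatrix :
      Matrix (Fin m ⊕ Fin m) (Fin m ⊕ Fin m) K8 →+* Matrix (Fin m ⊕ Fin m) (Fin m ⊕ Fin m) F) :=
    fun A B h => Matrix.map_injective hφ h
  let gX : symplecticGroup (Fin m) F := ⟨φ.mapMatrix X, map_mem φ m hX⟩
  let gY : symplecticGroup (Fin m) F := ⟨φ.mapMatrix Y, map_mem φ m hY⟩
  refine ⟨QuotientGroup.mk gX, orderOf_mk_center (y := gY) ?_ ?_ ?_⟩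
  · apply Subtype.ext
    change φ.mapMatrix X ^ 65 = 1
    rw [← map_pow, h65, map_one]
  · intro h
    apply h5
    have h' := congrArg Subtype.val h
    change φ.mapMatrix X ^ 5 * φ.mapMatrix Y = φ.mapMatrix Y * φ.mapMatrix X ^ 5 at h'
    apply hinj
    rw [map_mul, map_mul, map_pow, h']
  · intro h
    apply h13
    have h' := congrArg Subtype.val h
    change φ.mapMatrix X ^ 13 * φ.mapMatrix Y = φ.mapMatrix Y * φ.mapMatrix X ^ 13 at h'
    apply hinj
    rw [map_mul, map_mul, map_pow, h']

theorem det_one_of_pow {X : Matrix (Fin 4) (Fin 4) K8} (h : X ^ 65 = 1) : X.det = 1 := by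
  have h1 : X.det ^ 65 = 1 := by rw [← det_pow, h, det_one]
  have key : ∀ d : K8, d ^ 65 = 1 → d = 1 := by decide +kernel
  exact key _ h1

theorem psl_of_data {F : Type*} [Field F] (φ : K8 →+* F) (hφ : Function.Injective φ)
    {X Y : Matrix (Fin 4) (Fin 4) K8} (hY : Y.det = 1)
    (h65 : X ^ 65 = 1) (h5 : X ^ 5 * Y ≠ Y * X ^ 5) (h13 : X ^ 13 * Y ≠ Y * X ^ 13) :
    ∃ x : Matrix.ProjectiveSpecialLinearGroup (Fin 4) F, orderOf x = 65 := by
  have hinj : Function.Injective (φ.mapMatrix :
      Matrix (Fin 4) (Fin 4) K8 →+* Matrix (Fin 4) (Fin 4) F) :=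
    fun A B h => Matrix.map_injective hφ h
  have hdet : ∀ Z : Matrix (Fin 4) (Fin 4) K8, Z.det = 1 → (φ.mapMatrix Z).det = 1 := by
    intro Z hZ
    rw [← RingHom.map_det, hZ, map_one]
  let gX : Matrix.SpecialLinearGroup (Fin 4) F := ⟨φ.mapMatrix X, hdet X (det_one_of_pow h65)⟩
  let gY : Matrix.SpecialLinearGroup (Fin 4) F := ⟨φ.mapMatrix Y, hdet Y hY⟩
  refine ⟨QuotientGroup.mk gX, orderOf_mk_center (y := gY) ?_ ?_ ?_⟩
  · apply Subtype.ext
    change φ.mapMatrix X ^ 65 = 1
    rw [← map_pow, h65, map_one]
  · intro h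
    apply h5
    have h' := congrArg Subtype.val h
    change φ.mapMatrix X ^ 5 * φ.mapMatrix Y = φ.mapMatrix Y * φ.mapMatrix X ^ 5 at h'
    apply hinj
    rw [map_mul, map_mul, map_pow, h']
  · intro h
    apply h13
    have h' := congrArg Subtype.val h
    change φ.mapMatrix X ^ 13 * φ.mapMatrix Y = φ.mapMatrix Y * φ.mapMatrix X ^ 13 at h'
    apply hinj
    rw [map_mul, map_mul, map_pow, h']

/-! ### The data -/

section Sp2
abbrev A2 (n : ℕ) := MS 2 n

theorem a2 : A2 549774696530 * A2 549774696530 = A2 35323187479713 := by decide +kernel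
theorem a4 : A2 35323187479713 * A2 35323187479713 = A2 195198804205783 := by decide +kernel
theorem a5 : A2 195198804205783 * A2 549774696530 = A2 108442952652266 := by decide +kernel
theorem a8 : A2 195198804205783 * A2 195198804205783 = A2 167248325460578 := by decide +kernel
theorem a12 : A2 167248325460578 * A2 195198804205783 = A2 262676772576493 := by decide +kernel
theorem a13 : A2 262676772576493 * A2 549774696530 = A2 202709254175611 := by decide +kernel
theorem a16 : A2 167248325460578 * A2 167248325460578 = A2 190247761801402 := by decide +kernel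
theorem a32 : A2 190247761801402 * A2 190247761801402 = A2 233349248202459 := by decide +kernel
theorem a64 : A2 233349248202459 * A2 233349248202459 = A2 9365195063360 := by decide +kernel
theorem a65 : A2 9365195063360 * A2 549774696530 = 1 := by decide +kernel
theorem aJ : A2 549774696530 * J (Fin 2) K8 * (A2 549774696530)ᵀ = J (Fin 2) K8 := by
  decide +kernel
theorem aYJ : A2 35185462640641 * J (Fin 2) K8 * (A2 35185462640641)ᵀ = J (Fin 2) K8 := by
  decide +kernel
theorem a5Y : A2 108442952652266 * A2 35185462640641 ≠ A2 35185462640641 * A2 108442952652266 := by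
  decide +kernel
theorem a13Y : A2 202709254175611 * A2 35185462640641 ≠ A2 35185462640641 * A2 202709254175611 := by
  decide +kernel
end Sp2

/-- `PSp₄(8)` has an element of order 65. -/
theorem psp2 {F : Type*} [Field F] [Fintype F] (h : Fintype.card F = 8) :
    ∃ x : Cfsg.PSp 2 F, orderOf x = 65 := by
  let φ : K8 ≃+* F := FiniteField.ringEquivOfCardEq (K8.card_K8.trans h.symm)
  obtain ⟨p5, p13, p65⟩ := pow_data a2 a4 a5 a8 a12 a13 a16 a32 a64 a65
  refine psp_of_data φ.toRingHom φ.injective 2 aJ aYJ p65 ?_ ?_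
  · rw [p5]; exact a5Y
  · rw [p13]; exact a13Y

section Sp3
abbrev B3 (n : ℕ) := MS 3 n

theorem b2 : B3 40564819245082290729649294541330 * B3 40564819245082290729649294541330 =
    B3 40564838559570735283308940239905 := by decide +kernel
theorem b4 : B3 40564838559570735283308940239905 * B3 40564838559570735283308940239905 =
    B3 40564925706416687848946376640023 := by decide +kernel
theorem b5 : B3 40564925706416687848946376640023 * B3 40564819245082290729649294541330 =
    B3 40564877434110159082299969515050 := by decide +kernel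
theorem b8 : B3 40564925706416687848946376640023 * B3 40564925706416687848946376640023 =
    B3 40564911090849328778408943948322 := by decide +kernel
theorem b12 : B3 40564911090849328778408943948322 * B3 40564925706416687848946376640023 =
    B3 40564962078038086741900936898093 := by decide +kernel
theorem b13 : B3 40564962078038086741900936898093 * B3 40564819245082290729649294541330 =
    B3 40564930452561780434338049710651 := by decide +kernel
theorem b16 : B3 40564911090849328778408943948322 * B3 40564911090849328778408943948322 =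
    B3 40564923250758428626220719277114 := by decide +kernel
theorem b32 : B3 40564923250758428626220719277114 * B3 40564923250758428626220719277114 =
    B3 40564947368004410837938918405659 := by decide +kernel
theorem b64 : B3 40564947368004410837938918405659 * B3 40564947368004410837938918405659 =
    B3 40564824080951589884829378806272 := by decide +kernel
theorem b65 : B3 40564824080951589884829378806272 * B3 40564819245082290729649294541330 = 1 := by
  decide +kernel
theorem bJ : B3 40564819245082290729649294541330 * J (Fin 3) K8 *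
    (B3 40564819245082290729649294541330)ᵀ = J (Fin 3) K8 := by decide +kernel
theorem bYJ : B3 40564838550125696072794710736897 * J (Fin 3) K8 *
    (B3 40564838550125696072794710736897)ᵀ = J (Fin 3) K8 := by decide +kernel
theorem b5Y : B3 40564877434110159082299969515050 * B3 40564838550125696072794710736897 ≠
    B3 40564838550125696072794710736897 * B3 40564877434110159082299969515050 := by decide +kernel
theorem b13Y : B3 40564930452561780434338049710651 * B3 40564838550125696072794710736897 ≠
    B3 40564838550125696072794710736897 * B3 40564930452561780434338049710651 := by decide +kernel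
end Sp3

/-- `PSp₆(8)` has an element of order 65. -/
theorem psp3 {F : Type*} [Field F] [Fintype F] (h : Fintype.card F = 8) :
    ∃ x : Cfsg.PSp 3 F, orderOf x = 65 := by
  let φ : K8 ≃+* F := FiniteField.ringEquivOfCardEq (K8.card_K8.trans h.symm)
  obtain ⟨p5, p13, p65⟩ := pow_data b2 b4 b5 b8 b12 b13 b16 b32 b64 b65
  refine psp_of_data φ.toRingHom φ.injective 3 bJ bYJ p65 ?_ ?_
  · rw [p5]; exact b5Y
  · rw [p13]; exact b13Y

section L4
theorem c2 : ML 549774696530 * ML 549774696530 = ML 35323187479713 := by decide +kernel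
theorem c4 : ML 35323187479713 * ML 35323187479713 = ML 195198804205783 := by decide +kernel
theorem c5 : ML 195198804205783 * ML 549774696530 = ML 108442952652266 := by decide +kernel
theorem c8 : ML 195198804205783 * ML 195198804205783 = ML 167248325460578 := by decide +kernel
theorem c12 : ML 167248325460578 * ML 195198804205783 = ML 262676772576493 := by decide +kernel
theorem c13 : ML 262676772576493 * ML 549774696530 = ML 202709254175611 := by decide +kernel
theorem c16 : ML 167248325460578 * ML 167248325460578 = ML 190247761801402 := by decide +kernel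
theorem c32 : ML 190247761801402 * ML 190247761801402 = ML 233349248202459 := by decide +kernel
theorem c64 : ML 233349248202459 * ML 233349248202459 = ML 9365195063360 := by decide +kernel
theorem c65 : ML 9365195063360 * ML 549774696530 = 1 := by decide +kernel
theorem c5Y : ML 108442952652266 * ML 35185462640641 ≠ ML 35185462640641 * ML 108442952652266 := by
  decide +kernel
theorem c13Y : ML 202709254175611 * ML 35185462640641 ≠ ML 35185462640641 * ML 202709254175611 := by
  decide +kernel
theorem cYY : ML 35185462640641 * ML 35185462640641 = 1 := by decide +kernel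
end L4

theorem det_Y : (ML 35185462640641).det = 1 := by
  have h1 : (ML 35185462640641).det ^ 2 = 1 := by
    rw [← det_pow, pow_two, cYY, det_one]
  have key : ∀ d : K8, d ^ 2 = 1 → d = 1 := by decide +kernel
  exact key _ h1

/-- `PSL₄(8)` has an element of order 65. -/
theorem psl4 {F : Type*} [Field F] [Fintype F] (h : Fintype.card F = 8) :
    ∃ x : Matrix.ProjectiveSpecialLinearGroup (Fin 4) F, orderOf x = 65 := by
  let φ : K8 ≃+* F := FiniteField.ringEquivOfCardEq (K8.card_K8.trans h.symm)
  obtain ⟨p5, p13, p65⟩ := pow_data c2 c4 c5 c8 c12 c13 c16 c32 c64 c65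
  refine psl_of_data φ.toRingHom φ.injective det_Y p65 ?_ ?_
  · rw [p5]; exact c5Y
  · rw [p13]; exact c13Y

end Cfsg.Agent.Lib.Ord65
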