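import Mathlib
import Cfsg.Agent.Lib.RigQ
import Cfsg.Agent.Lib.PCore

/-!
# The characters with `w = 1` when the third alternative fails
-/

set_option autoImplicit false
set_option linter.style.haveILetI false
set_option linter.unusedSectionVars false
set_option linter.unusedVariables false
set_option linter.unusedSimpArgs false

namespace Cfsg.Agent.Lib.RigS

open Cfsg Cfsg.Agent.Lib.CharBasic Subgroup Cfsg.Agent.Lib.DefectOne Cfsg.Agent.Lib.CharInd
open Cfsg.Agent.Lib.TICent Cfsg.Agent.Lib.RigA Cfsg.Agent.Lib.RangeStruct Cfsg.Agent.Lib.RigB Cfsg.Agent.Lib.RigC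
open Cfsg.Agent.Lib.RigD Cfsg.Agent.Lib.RigQ
open scoped ComplexConjugate

/-- **The arithmetic**: a divisor `b p - 1` of `M t` yields the third alternative. -/
theorem numeric {p n b t x : ℕ} (hp : p.Prime) (ht : t ∣ p - 1) (hb : 2 ≤ b) (hx : x + 1 = b * p)
    (ht0 : 0 < t) (hdvd : x ∣ (1 + n * p) * t) (hAlt : AltFail n p) : x = (p - 1) * (1 + n * p) := by
  set M := 1 + n * p with hM
  have hp1 := hp.one_lt
  have hx0 : 0 < x := by
    have : 2 * p ≤ b * p := Nat.mul_le_mul_right _ hb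
    omega
  set g := Nat.gcd x t with hg
  have hg0 : 0 < g := Nat.gcd_pos_of_pos_left _ hx0
  obtain ⟨x', hx'⟩ : g ∣ x := Nat.gcd_dvd_left _ _
  obtain ⟨t', ht'⟩ : g ∣ t := Nat.gcd_dvd_right _ _
  obtain ⟨s, hs⟩ : g ∣ p - 1 := dvd_trans (Nat.gcd_dvd_right _ _) ht
  have hcop : Nat.Coprime x' t' := by
    have := Nat.coprime_div_gcd_div_gcd (m := x) (n := t) hg0
    rw [← hg] at this
    have h1 : x / g = x' := by
      rw [hx']
      exact Nat.mul_div_cancel_left _ hg0
    have h2 : t / g = t' := by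
      rw [ht']
      exact Nat.mul_div_cancel_left _ hg0
    rwa [h1, h2] at this
  have h3 : x' ∣ M * t' := by
    have h4 : g * x' ∣ g * (M * t') := by
      rw [← hx']
      have : g * (M * t') = M * t := by rw [ht']; ring
      rw [this]
      exact hdvd
    exact Nat.dvd_of_mul_dvd_mul_left hg0 h4
  obtain ⟨c, hc⟩ : x' ∣ M := hcop.dvd_of_dvd_mul_right h3
  have hM0 : 0 < M := by omega
  have hc0 : 0 < c := by
    rcases Nat.eq_zero_or_pos c with h | h
    · rw [h, mul_zero] at hc
      omega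
    · exact h
  have hx'0 : 0 < x' := by
    rcases Nat.eq_zero_or_pos x' with h | h
    · rw [h, zero_mul] at hc
      omega
    · exact h
  -- `g + c = k p`
  have hkey : g * M = x * c := by
    rw [hx', hc]
    ring
  have hpd : p ∣ c + g := by
    have h5 : (x + 1) * c = x * c + c := by ring
    have h6 : b * p * c = g * (n * p) + g + c := by
      rw [← hx, h5, ← hkey, hM]
      ring
    have h7 : p ∣ g * (n * p) + (g + c) := by
      have h8 : g * (n * p) + (g + c) = p * (b * c) := by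
        rw [← add_assoc, ← h6]
        ring
      rw [h8]
      exact Dvd.intro _ rfl
    have h9 : p ∣ g * (n * p) := Dvd.dvd.mul_left (Dvd.intro_left _ rfl) _
    have h10 := (Nat.dvd_add_right h9).1 h7
    rwa [add_comm] at h10
  obtain ⟨k, hk⟩ := hpd
  have hk0 : 0 < k := by
    rcases Nat.eq_zero_or_pos k with h | h
    · rw [h, mul_zero] at hk
      omega
    · exact h
  have hs0 : 0 < s := by
    rcases Nat.eq_zero_or_pos s with h | h
    · rw [h, mul_zero] at hs
      omega
    · exact h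
  have hks : 1 ≤ k * s := Nat.mul_pos hk0 hs0
  obtain ⟨u, hu⟩ : ∃ u, k * s = u + 1 := ⟨k * s - 1, by omega⟩
  have hxp : c * s = u * p + 1 := by
    have h5 : (c + g) * s = p * (k * s) := by rw [hk]; ring
    have h6 : c * s + g * s = p * (u + 1) := by
      rw [← hu, ← h5]
      ring
    rw [← hs] at h6
    have h7 : p * (u + 1) = u * p + p := by ring
    omega
  have hdvd2 : c * s ∣ M * (u + 1) := by
    rw [← hu, hc]
    exact ⟨x' * k, by ring⟩
  have hsx : s < x' := by
    have h5 : g * s < g * x' := by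
      rw [← hs, ← hx']
      have : 2 * p ≤ b * p := Nat.mul_le_mul_right _ hb
      omega
    exact Nat.lt_of_mul_lt_mul_left h5
  have hle : c * s ≤ M := by
    rw [hc, mul_comm x' c]
    exact Nat.mul_le_mul_left _ hsx.le
  have hne : c * s ≠ M := by
    rw [hc, mul_comm x' c]
    intro h
    have := Nat.eq_of_mul_eq_mul_left hc0 h
    omega
  rcases Nat.eq_zero_or_pos u with hu0 | hu0
  · -- the exception
    subst hu0
    have hk1 : k = 1 := Nat.eq_one_of_mul_eq_one_right (by omega : k * s = 1)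
    have hs1 : s = 1 := Nat.eq_one_of_mul_eq_one_left (by omega : k * s = 1)
    subst hk1
    subst hs1
    rw [mul_one] at hs
    have hc1 : c = 1 := by omega
    rw [hc1, mul_one] at hc
    rw [hx', ← hc, hs]
  · exfalso
    obtain ⟨h, hh0, hh⟩ := alt3_core hxp hM hdvd2 hle hne hp.pos
    exact hAlt u h hu0 hh0 hh

variable {G : Type*} [Group G] [Fintype G] [DecidableEq G] {p : ℕ} {P C : Subgroup G} {r : ↥C →* ↥P} {e₀ : ℕ}

variable {t n : ℕ} [Fintype C] [Fintype P] [Fintype r.ker] [Fintype (↥P →* ℂˣ)] [(cN P C).Normal]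
  [Fintype ↥(normalizer (P : Set G))] [Fintype (QQ P C →* ℂˣ)]

variable (R : Ctx p P C r e₀ t n)
include R

/-- The relation at the identity. -/
theorem rel_one : ∑ χ : IrrCharacter G, R.D.w χ * (charDegree (χ : G → ℂ) : ℤ) +
      R.D.σ * (charDegree ((R.D.ξ R.f₀ : IrrCharacter G) : G → ℂ) : ℤ) = 0 := by
  classical
  have hpp := R.H.prime
  have hreg := R.D.hreg R.f₀ 1 (by
    rw [orderOf_one]
    intro h
    exact hpp.one_lt.ne' (Nat.dvd_one.1 h))
  have hone : ∀ χ : IrrCharacter G, (χ : G → ℂ) 1 = ((charDegree (χ : G → ℂ) : ℤ) : ℂ) := by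
    intro χ
    rw [Cfsg.Agent.Lib.CharKernel.one_eq_charDegree (IsIrrCharacter.isCharacter χ.2)]
    simp
  simp_rw [hone] at hreg
  exact_mod_cast hreg

/-- There is a character with `w = 1`. -/
theorem exists_plus' (ht : 2 ≤ t) : ∃ χ : IrrCharacter G, R.D.w χ = 1 := by
  classical
  by_contra hno
  push Not at hno
  have hn1 := n_pos R ht
  have hpp := R.H.prime
  set M := (normalizer (P : Set G)).index with hM
  have hM2 : 2 ≤ M := by
    rw [hM, R.hn]
    have : p ≤ n * p := Nat.le_mul_of_pos_left _ hn1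
    have := hpp.two_le
    omega
  have hval : ∀ χ : IrrCharacter G, R.D.w χ = 0 ∨ R.D.w χ = -1 := fun χ => by
    rcases R.D.hval χ with h | h | h
    · exact Or.inl h
    · exact absurd h (hno χ)
    · exact Or.inr h
  have hregZ := rel_one R
  by_cases hξ : R.D.ξ R.f₀ = oneIrr G
  · have hσ := R.σ_of_one hξ
    rw [hσ, hξ, Ctx.deg_one] at hregZ
    have h1 : ∑ χ : IrrCharacter G, R.D.w χ * (charDegree (χ : G → ℂ) : ℤ) ≤ 0 := by
      apply Finset.sum_nonpos
      intro χ _
      rcases hval χ with h | h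
      · rw [h]; simp
      · rw [h]; simp
    push_cast at hregZ
    linarith
  have hw1 := R.w_one hξ
  have hterm : ∀ χ : IrrCharacter G, R.D.w χ * (charDegree (χ : G → ℂ) : ℤ) =
      - (R.D.w χ) ^ 2 * (M : ℤ) + if χ = oneIrr G then (M : ℤ) - 1 else 0 := by
    intro χ
    by_cases h1 : χ = oneIrr G
    · subst h1
      rw [if_pos rfl, hw1, Ctx.deg_one]
      push_cast
      ring
    · rw [if_neg h1]
      rcases hval χ with h | h
      · rw [h]
        ring
      · rw [h, R.deg_v h h1]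
        ring
  rw [Finset.sum_congr rfl (fun χ _ => hterm χ), Finset.sum_add_distrib, Finset.sum_ite_eq' Finset.univ (oneIrr G),
    if_pos (Finset.mem_univ _), ← Finset.sum_mul, Finset.sum_neg_distrib, R.D.hnorm] at hregZ
  set d := charDegree ((R.D.ξ R.f₀ : IrrCharacter G) : G → ℂ) with hd
  have hd1 : 1 ≤ d := R.one_le_deg _
  have htM : (0 : ℤ) < (t : ℤ) * M - M + 1 := by
    have h1 : (1 : ℤ) ≤ t := by
      have : 1 ≤ t := by omega
      exact_mod_cast this
    have h2 : (0 : ℤ) ≤ M := by positivity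
    nlinarith
  have hσ : R.D.σ = 1 := by
    rcases R.D.hσ with h | h
    · exact h
    · exfalso
      rw [h] at hregZ
      have h3 : (0 : ℤ) ≤ d := by positivity
      nlinarith
  rw [hσ] at hregZ
  obtain ⟨s, hs⟩ : ∃ s, t = s + 1 := ⟨t - 1, by omega⟩
  have hdeq : d = s * M + 1 := by
    have : (d : ℤ) = s * M + 1 := by
      have h3 : (t : ℤ) = s + 1 := by exact_mod_cast hs
      rw [h3] at hregZ
      linarith
    exact_mod_cast this
  have hdvd := xi_dvd R.H R.D R.hN R.f₀ R.hz₀
  rw [← hd, ← hM] at hdvd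
  have hcop : Nat.Coprime d M := by
    rw [hdeq]
    simp
  have h3 : d ∣ t := hcop.dvd_of_dvd_mul_left hdvd
  have h4 : d ≤ t := Nat.le_of_dvd (by omega) h3
  have h5 : s * 2 ≤ s * M := Nat.mul_le_mul_left _ hM2
  have h6 : 1 ≤ s := by omega
  omega

/-- **The characters with `w = 1` have degree `p - 1`.** -/
theorem deg_plus_eq (ht : 2 ≤ t) {χ : IrrCharacter G} (hw : R.D.w χ = 1) : charDegree (χ : G → ℂ) = p - 1 := by
  classical
  have hn1 := n_pos R ht
  have hpp := R.H.prime
  obtain ⟨b, hb1, hb⟩ := deg_plus R.H R.D R.hcard hw R.f₀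
  have hw0 : R.D.w χ ≠ 0 := by rw [hw]; norm_num
  have hdvd := deg_dvd_of_w R.H R.D R.hN hw0 R.f₀ R.hz₀
  set x := charDegree (χ : G → ℂ) with hx
  have hTt := card_Jset R.D
  have htd : t ∣ p - 1 := ⟨(Jset R.D).card, by rw [← hTt]; ring⟩
  have htle : t ≤ p - 1 := Nat.le_of_dvd (by have := hpp.two_le; omega) htd
  by_contra hne
  have hb2 : 2 ≤ b := by
    by_contra h
    have h1 : b = 1 := by omega
    rw [h1, one_mul] at hb
    apply hne
    omega
  rw [R.hn] at hdvd
  have hnum := numeric hpp htd hb2 hb (by omega) hdvd R.hAlt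
  set M := (normalizer (P : Set G)).index with hM
  have hM' : M = 1 + n * p := R.hn
  rw [← hM'] at hnum
  have hM2 : 2 ≤ M := by
    rw [hM']
    have : p ≤ n * p := Nat.le_mul_of_pos_left _ hn1
    have := hpp.two_le
    omega
  have hregZ := rel_one R
  have hdegle : ∀ ψ : IrrCharacter G, R.D.w ψ = -1 → charDegree (ψ : G → ℂ) ≤ M := by
    intro ψ hψ
    by_cases h1 : ψ = oneIrr G
    · rw [h1, Ctx.deg_one]
      omega
    · rw [R.deg_v hψ h1]
  have hterm : ∀ ψ : IrrCharacter G, - (R.D.w ψ) ^ 2 * (M : ℤ) + (if ψ = χ then (x : ℤ) + M else 0) ≤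
      R.D.w ψ * (charDegree (ψ : G → ℂ) : ℤ) := by
    intro ψ
    by_cases h1 : ψ = χ
    · subst h1
      rw [if_pos rfl, hw]
      simp
      exact hx.le
    · rw [if_neg h1]
      rcases R.D.hval ψ with h | h | h
      · rw [h]
        simp
      · rw [h]
        have h2 : (0 : ℤ) ≤ M := by positivity
        have h3 : (0 : ℤ) ≤ charDegree (ψ : G → ℂ) := by positivity
        nlinarith
      · rw [h]
        have h2 : (charDegree (ψ : G → ℂ) : ℤ) ≤ M := by exact_mod_cast hdegle ψ h
        nlinarith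
  have hsum := Finset.sum_le_sum (fun ψ (_ : ψ ∈ (Finset.univ : Finset (IrrCharacter G))) => hterm ψ)
  rw [Finset.sum_add_distrib, Finset.sum_ite_eq' Finset.univ χ, if_pos (Finset.mem_univ _), ← Finset.sum_mul,
    Finset.sum_neg_distrib, R.D.hnorm] at hsum
  have hxZ : (x : ℤ) = ((p : ℤ) - 1) * M := by
    have h1 : ((p - 1 : ℕ) : ℤ) = (p : ℤ) - 1 := by
      have := hpp.one_lt
      push_cast [Nat.cast_sub this.le]
      ring
    rw [hnum, Nat.cast_mul, h1]
  have htZ : (t : ℤ) ≤ (p : ℤ) - 1 := by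
    have h1 : ((p - 1 : ℕ) : ℤ) = (p : ℤ) - 1 := by
      have := hpp.one_lt
      push_cast [Nat.cast_sub this.le]
      ring
    rw [← h1]
    exact_mod_cast htle
  have hMZ : (2 : ℤ) ≤ M := by exact_mod_cast hM2
  -- the lower bound for the sum
  have hlow : (M : ℤ) ≤ ∑ ψ : IrrCharacter G, R.D.w ψ * (charDegree (ψ : G → ℂ) : ℤ) := by
    refine le_trans ?_ hsum
    rw [hxZ]
    nlinarith
  by_cases hξ : R.D.ξ R.f₀ = oneIrr G
  · have hσ := R.σ_of_one hξ
    rw [hσ, hξ, Ctx.deg_one] at hregZ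
    push_cast at hregZ
    linarith
  -- `1` is not `χ`
  have hw1 := R.w_one hξ
  have hχ1 : oneIrr G ≠ χ := by
    rintro h
    rw [h, hw] at hw1
    norm_num at hw1
  have hterm2 : ∀ ψ : IrrCharacter G, - (R.D.w ψ) ^ 2 * (M : ℤ) + (if ψ = χ then (x : ℤ) + M else 0) +
      (if ψ = oneIrr G then (M : ℤ) - 1 else 0) ≤ R.D.w ψ * (charDegree (ψ : G → ℂ) : ℤ) := by
    intro ψ
    by_cases h2 : ψ = oneIrr G
    · subst h2
      rw [if_neg hχ1, if_pos rfl, hw1, Ctx.deg_one]
      push_cast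
      nlinarith
    · rw [if_neg h2, add_zero]
      exact hterm ψ
  have hsum2 := Finset.sum_le_sum (fun ψ (_ : ψ ∈ (Finset.univ : Finset (IrrCharacter G))) => hterm2 ψ)
  rw [Finset.sum_add_distrib, Finset.sum_add_distrib, Finset.sum_ite_eq' Finset.univ χ, if_pos (Finset.mem_univ _),
    Finset.sum_ite_eq' Finset.univ (oneIrr G), if_pos (Finset.mem_univ _), ← Finset.sum_mul,
    Finset.sum_neg_distrib, R.D.hnorm] at hsum2
  set d := charDegree ((R.D.ξ R.f₀ : IrrCharacter G) : G → ℂ) with hd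
  have hd1 : (1 : ℤ) ≤ d := by exact_mod_cast R.one_le_deg (R.D.ξ R.f₀)
  rcases R.D.hσ with hσ | hσ
  · rw [hσ] at hregZ
    linarith
  · rw [hσ] at hregZ
    have h1 := R.deg_J hσ hξ
    rw [← hd, ← hM] at h1
    have hT : 1 ≤ (Jset R.D).card := by
      rcases Nat.eq_zero_or_pos (Jset R.D).card with h | h
      · rw [h, zero_mul] at h1
        omega
      · exact h
    have hdM : d ≤ M := by
      rw [← h1]
      exact Nat.le_mul_of_pos_left _ hT
    have hdMZ : (d : ℤ) ≤ M := by exact_mod_cast hdM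
    rw [hxZ] at hsum2
    nlinarith

/-- **The kernel of the retraction lies in `O_{p'}(G)`.** -/
theorem ker_le_core (ht : 2 ≤ t) (c : ↥C) (hc : r c = 1) : (c : G) ∈ pPrimeCore p G := by
  classical
  have hpp := R.H.prime
  obtain ⟨χ, hw⟩ := exists_plus' R ht
  have hw0 : R.D.w χ ≠ 0 := by rw [hw]; norm_num
  have hdeg := deg_plus_eq R ht hw
  set x := charDegree (χ : G → ℂ) with hx
  have hxp : x < Nat.card P := by
    rw [R.hcard, hdeg]
    have := hpp.two_le
    omega
  have hone : (χ : G → ℂ) 1 = (x : ℂ) := Cfsg.Agent.Lib.CharKernel.one_eq_charDegree (IsIrrCharacter.isCharacter χ.2)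
  have hne := exists_ne_of_w R.H R.D hw0 R.f₀
  have hsec : ∀ z : ↥P, z ≠ 1 → ∀ y : ↥C, r y = 1 → (χ : G → ℂ) ((z : G) * (y : G)) = (χ : G → ℂ) z := by
    intro z hz y hy
    have h3 := val_eq R.H R.D χ hne hz hy
    have h4 := val_eq R.H R.D χ hne hz (map_one r)
    simp only [OneMemClass.coe_one, mul_one] at h4
    rw [h3, h4]
  have hker := R.H.ker_of_section χ hone hxp hsec
  have hic := IsIrrCharacter.isCharacter χ.2
  have h3 : (c : G) ∈ Cfsg.Agent.Lib.CharKernel.charKer hic :=
    (Cfsg.Agent.Lib.CharKernel.mem_charKer hic).2 (hker c hc)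
  have hpK : ¬ p ∣ Nat.card (Cfsg.Agent.Lib.CharKernel.charKer hic) := by
    intro hpK
    -- an element of order `p` in the kernel is conjugate into `P`
    haveI : Fact p.Prime := ⟨hpp⟩
    obtain ⟨g, hg⟩ := exists_prime_orderOf_dvd_card' p hpK
    have hgne : (g : G) ≠ 1 := by
      intro h
      have h3 : g = 1 := Subtype.ext h
      rw [h3, orderOf_one] at hg
      exact hpp.one_lt.ne hg
    have hpg : IsPGroup p (zpowers (g : G)) := by
      apply IsPGroup.of_card (n := 1)
      rw [Nat.card_zpowers, pow_one]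
      have : orderOf (g : G) = orderOf g := Subgroup.orderOf_coe g
      rw [this, hg]
    obtain ⟨S, hS⟩ := hpg.exists_le_sylow
    have hPg : IsPGroup p P := R.H.pgroup
    let S₀ : Sylow p G := hPg.toSylow R.hidx
    obtain ⟨h, hh⟩ := MulAction.exists_smul_eq G S S₀
    have hmem : (g : G) ∈ (S : Subgroup G) := hS (mem_zpowers _)
    have h3 : h * (g : G) * h⁻¹ ∈ P := by
      have h4 : (S₀ : Subgroup G) = P := rfl
      rw [← h4, ← hh, Sylow.coe_subgroup_smul]
      exact Subgroup.smul_mem_pointwise_smul _ (MulAut.conj h) _ hmem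
    have h5 : h * (g : G) * h⁻¹ ∈ Cfsg.Agent.Lib.CharKernel.charKer hic :=
      (inferInstance : (Cfsg.Agent.Lib.CharKernel.charKer hic).Normal).conj_mem _ g.2 h
    have h6 : (⟨_, h3⟩ : ↥P) ≠ 1 := by
      intro h7
      have h8 : h * (g : G) * h⁻¹ = 1 := congrArg Subtype.val h7
      apply hgne
      have : (g : G) = h⁻¹ * (h * (g : G) * h⁻¹) * h := by group
      rw [this, h8]
      group
    have h7 := val_of_w R.H R.D hw0 R.f₀ h6
    have h8 := (Cfsg.Agent.Lib.CharKernel.mem_charKer hic).1 h5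
    rw [show ((⟨_, h3⟩ : ↥P) : G) = h * (g : G) * h⁻¹ from rfl, h8, hone, hw] at h7
    have h9 : ((x + 1 : ℕ) : ℂ) = 0 := by
      push_cast
      rw [h7]
      push_cast
      ring
    have h10 : x + 1 = 0 := by exact_mod_cast h9
    omega
  exact Cfsg.Agent.Lib.PCore.le_pPrimeCore inferInstance ((Nat.Prime.coprime_iff_not_dvd hpp).2 hpK).symm h3

end Cfsg.Agent.Lib.RigS
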