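import Mathlib
import Cfsg.Agent.Lib.RigR
import Cfsg.Agent.Lib.RigS
import Cfsg.Agent.Lib.BlkQuot
import Cfsg.Agent.Lib.GlaubSyl1

/-!
# Passing to the quotient by `O_{p'}(G)`
-/

set_option autoImplicit false
set_option linter.style.haveILetI false
set_option linter.unusedSectionVars false
set_option linter.unusedVariables false
set_option linter.unusedSimpArgs false

namespace Cfsg.Agent.Lib.RigT

open Cfsg Cfsg.Agent.Lib.CharBasic Subgroup Cfsg.Agent.Lib.DefectOne Cfsg.Agent.Lib.CharInd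
open Cfsg.Agent.Lib.TICent Cfsg.Agent.Lib.RigA Cfsg.Agent.Lib.RangeStruct Cfsg.Agent.Lib.RigB Cfsg.Agent.Lib.RigC
open Cfsg.Agent.Lib.RigD Cfsg.Agent.Lib.RigO Cfsg.Agent.Lib.RigP Cfsg.Agent.Lib.RigQ Cfsg.Agent.Lib.RigR
open Cfsg.Agent.Lib.RigS
open scoped ComplexConjugate Pointwise

variable {G : Type*} [Group G] [Finite G]

/-- **Frattini's argument** in the form we need: an element normalizing `S H / H` is, modulo `H`, in `N(S)`. -/
theorem lift_norm {p : ℕ} [hp : Fact p.Prime] (S : Sylow p G) (H : Subgroup G) [hH : H.Normal] {g₀ : G}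
    (hg : ∀ y ∈ (S : Subgroup G), g₀ * y * g₀⁻¹ ∈ (S : Subgroup G) ⊔ H) :
    ∃ h ∈ H, h⁻¹ * g₀ ∈ normalizer ((S : Subgroup G) : Set G) := by
  classical
  set L : Subgroup G := (S : Subgroup G) ⊔ H with hL
  let Q : Sylow p G := g₀ • S
  have hSL : (S : Subgroup G) ≤ L := le_sup_left
  have hQL : (Q : Subgroup G) ≤ L := by
    intro x hx
    have h1 : (Q : Subgroup G) = MulAut.conj g₀ • (S : Subgroup G) := Sylow.coe_subgroup_smul
    rw [h1] at hx
    obtain ⟨y, hy, rfl⟩ := Subgroup.mem_smul_pointwise_iff_exists _ _ _ |>.1 hx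
    exact hg y hy
  obtain ⟨c, hc⟩ := MulAction.exists_smul_eq L (S.subtype hSL) (Q.subtype hQL)
  have hcQ : ∀ z ∈ (S : Subgroup G), (c : G) * z * (c : G)⁻¹ ∈ (Q : Subgroup G) := by
    intro z hz
    have h1 : (⟨z, hSL hz⟩ : ↥L) ∈ ((S.subtype hSL : Sylow p ↥L) : Subgroup ↥L) := by
      rw [Sylow.coe_subtype, Subgroup.mem_subgroupOf]
      exact hz
    have h2 : c * (⟨z, hSL hz⟩ : ↥L) * c⁻¹ ∈ ((Q.subtype hQL : Sylow p ↥L) : Subgroup ↥L) := by
      rw [← hc, Sylow.coe_subgroup_smul]
      exact Subgroup.smul_mem_pointwise_smul _ (MulAut.conj c) _ h1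
    rw [Sylow.coe_subtype, Subgroup.mem_subgroupOf] at h2
    exact h2
  have hcS : (c : G) • S = Q := by
    have hle : ((c : G) • S : Sylow p G) ≤ Q := by
      intro x hx
      have h1 : (((c : G) • S : Sylow p G) : Subgroup G) = MulAut.conj (c : G) • (S : Subgroup G) :=
        Sylow.coe_subgroup_smul
      have hx' : x ∈ MulAut.conj (c : G) • (S : Subgroup G) := by
        rw [← h1]
        exact hx
      obtain ⟨y, hy, rfl⟩ := Subgroup.mem_smul_pointwise_iff_exists _ _ _ |>.1 hx'
      exact hcQ y hy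
    apply Sylow.ext
    exact (((c : G) • S : Sylow p G).is_maximal' Q.isPGroup' hle).symm
  -- write `c = h₁ y`
  have hcmem : (c : G) ∈ (↑(↑S ⊔ H : Subgroup G) : Set G) := c.2
  rw [Subgroup.mul_normal] at hcmem
  obtain ⟨y, hy, z, hz, hyz⟩ := Set.mem_mul.1 hcmem
  refine ⟨y * z * y⁻¹, hH.conj_mem z hz y, ?_⟩
  have h3 : (c : G) = (y * z * y⁻¹) * y := by
    rw [← hyz]
    group
  have h4 : y • S = S := Sylow.smul_eq_iff_mem_normalizer.2 (le_normalizer hy)
  have h5 : (y * z * y⁻¹) • S = Q := by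
    rw [← hcS, h3, mul_smul (y * z * y⁻¹) y S, h4]
  have h6 : ((y * z * y⁻¹)⁻¹ * g₀) • S = S := by
    rw [mul_smul, show g₀ • S = Q from rfl, ← h5, inv_smul_smul]
  exact Sylow.smul_eq_iff_mem_normalizer.1 h6

/-- The image of a Sylow subgroup of prime order. -/
theorem card_map_of {p : ℕ} [hp : Fact p.Prime] (S : Sylow p G) (H : Subgroup G) [H.Normal]
    (hcard : Nat.card (S : Subgroup G) = p) (hH : ¬ p ∣ Nat.card H) :
    Nat.card ((S : Subgroup G).map (QuotientGroup.mk' H)) = p := by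
  have hpp := hp.out
  have h3 : Nat.card ((S : Subgroup G).map (QuotientGroup.mk' H)) ∣ Nat.card (S : Subgroup G) :=
    Subgroup.card_dvd_of_surjective ((QuotientGroup.mk' H).subgroupMap (S : Subgroup G))
      ((QuotientGroup.mk' H).subgroupMap_surjective _)
  rw [hcard] at h3
  rcases (Nat.dvd_prime hpp).1 h3 with h4 | h4
  · exfalso
    have h5 : (S : Subgroup G).map (QuotientGroup.mk' H) = ⊥ := Subgroup.card_eq_one.1 h4
    have h6 : (S : Subgroup G) ≤ H := by
      rw [Subgroup.map_eq_bot_iff] at h5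
      simpa using h5
    apply hH
    rw [← hcard]
    exact Subgroup.card_dvd_of_le h6
  · exact h4

/-- The quotient of a perfect group is perfect. -/
theorem perfect_quot (hperf : _root_.commutator G = ⊤) (H : Subgroup G) [H.Normal] : _root_.commutator (G ⧸ H) = ⊤ := by
  have hfs : Function.Surjective (QuotientGroup.mk' H) := QuotientGroup.mk'_surjective H
  have h3 := Subgroup.map_commutator (⊤ : Subgroup G) ⊤ (QuotientGroup.mk' H)
  rw [← MonoidHom.range_eq_map, MonoidHom.range_eq_top.2 hfs] at h3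
  rw [_root_.commutator_def, ← h3]
  have h4 : ⁅(⊤ : Subgroup G), (⊤ : Subgroup G)⁆ = ⊤ := hperf
  rw [h4, ← MonoidHom.range_eq_map, MonoidHom.range_eq_top.2 hfs]

/-- The normalizer in the quotient is the image of the normalizer. -/
theorem exists_lift {p : ℕ} [hp : Fact p.Prime] (S : Sylow p G) (H : Subgroup G) [H.Normal] (x : G ⧸ H)
    (hx : x ∈ normalizer (((S : Subgroup G).map (QuotientGroup.mk' H) : Subgroup (G ⧸ H)) : Set (G ⧸ H))) :
    ∃ g ∈ normalizer ((S : Subgroup G) : Set G), QuotientGroup.mk' H g = x := by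
  obtain ⟨g₀, rfl⟩ := QuotientGroup.mk'_surjective H x
  have h1 : ∀ y ∈ (S : Subgroup G), g₀ * y * g₀⁻¹ ∈ (S : Subgroup G) ⊔ H := by
    intro y hy
    have h2 : QuotientGroup.mk' H y ∈ (S : Subgroup G).map (QuotientGroup.mk' H) := ⟨y, hy, rfl⟩
    have h3 := (mem_normalizer_iff.1 hx _).1 h2
    obtain ⟨y', hy', hy'2⟩ := h3
    have h4 : QuotientGroup.mk' H (y'⁻¹ * (g₀ * y * g₀⁻¹)) = 1 := by
      rw [map_mul, map_inv, hy'2]
      simp only [map_mul, map_inv]
      group
    have h5 : y'⁻¹ * (g₀ * y * g₀⁻¹) ∈ H := by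
      rw [← QuotientGroup.ker_mk' H]
      exact h4
    have h6 : g₀ * y * g₀⁻¹ = y' * (y'⁻¹ * (g₀ * y * g₀⁻¹)) := by group
    rw [h6]
    exact Subgroup.mul_mem_sup hy' h5
  obtain ⟨h, hh, hh2⟩ := lift_norm S H h1
  refine ⟨_, hh2, ?_⟩
  rw [map_mul, map_inv]
  have h7 : QuotientGroup.mk' H h = 1 := by
    have : h ∈ (QuotientGroup.mk' H).ker := by
      rw [QuotientGroup.ker_mk']
      exact hh
    exact this
  rw [h7]
  simp

/-- The index of the normalizer in the quotient is at most the index in the group. -/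
theorem index_map_le {p : ℕ} (P : Subgroup G) (H : Subgroup G) [H.Normal] :
    (normalizer ((P.map (QuotientGroup.mk' H) : Subgroup (G ⧸ H)) : Set (G ⧸ H))).index ≤
      (normalizer (P : Set G)).index := by
  have hfs : Function.Surjective (QuotientGroup.mk' H) := QuotientGroup.mk'_surjective H
  rw [← Subgroup.index_comap_of_surjective (H := normalizer ((P.map (QuotientGroup.mk' H) : Subgroup (G ⧸ H)) : Set (G ⧸ H))) hfs]
  have hle : normalizer (P : Set G) ≤ (normalizer ((P.map (QuotientGroup.mk' H) : Subgroup (G ⧸ H)) : Set (G ⧸ H))).comap (QuotientGroup.mk' H) := by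
    rw [← Subgroup.map_le_iff_le_comap]
    exact le_normalizer_map _
  exact Nat.le_of_dvd (Nat.pos_of_ne_zero (Subgroup.index_ne_zero_of_finite)) (Subgroup.index_dvd_of_le hle)

/-- Inflation preserves inner products. -/
theorem classInner_infl' {I B : Type*} [Group I] [Fintype I] [Group B] [Fintype B] (q : I →* B)
    (hq : Function.Surjective q) (α β : B → ℂ) :
    classInner (fun i => α (q i)) (fun i => β (q i)) = classInner α β := by
  convert Cfsg.Agent.Lib.GlaubSyl1.classInner_infl q hq α β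

/-- **The theorem for `G / O_{p'}(G)`.** -/
theorem quot_aux (hperf : _root_.commutator G = ⊤) {p : ℕ} [hp : Fact p.Prime] {C : Subgroup G} (S : Sylow p G)
    {r : ↥C →* ↥(S : Subgroup G)} {e : ℕ}
    (H₀ : Hyp p (S : Subgroup G) C r e) (hcen : centralizer ((S : Subgroup G) : Set G) = C)
    (hcard : Nat.card (S : Subgroup G) = p) {n : ℕ} (hn : (normalizer ((S : Subgroup G) : Set G)).index = 1 + n * p)
    (hAlt : AltFail n p) :
    (∃ (F : Type) (_ : Field F) (_ : Fintype F), Fintype.card F = p ∧ 3 < p ∧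
      Nonempty (G ⧸ pPrimeCore p G ≃* Matrix.ProjectiveSpecialLinearGroup (Fin 2) F)) ∨
    (∃ (m : ℕ) (F : Type) (_ : Field F) (_ : Fintype F), Fintype.card F = 2 ^ m ∧ p = 2 ^ m + 1 ∧ 3 < p ∧
      Nonempty (G ⧸ pPrimeCore p G ≃* Matrix.ProjectiveSpecialLinearGroup (Fin 2) F)) := by
  classical
  letI : Fintype G := Fintype.ofFinite G
  have hpp := hp.out
  have hidx : ¬ p ∣ (S : Subgroup G).index := S.not_dvd_index
  letI : Fintype ↥(S : Subgroup G) := Fintype.ofFinite _
  letI : Fintype ↥C := Fintype.ofFinite _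
  letI : Fintype ↥r.ker := Fintype.ofFinite _
  have hcP := comm_P H₀
  haveI := dual_finite hcP
  letI : Fintype (↥(S : Subgroup G) →* ℂˣ) := Fintype.ofFinite _
  haveI hcN : (cN (S : Subgroup G) C).Normal := cN_normal H₀
  letI : Fintype ↥(normalizer ((S : Subgroup G) : Set G)) := Fintype.ofFinite _
  have hQc := comm_QQ H₀ hcard
  haveI := finite_hom hQc
  letI : Fintype (QQ (S : Subgroup G) C →* ℂˣ) := Fintype.ofFinite _
  -- the index
  obtain ⟨t, hN⟩ : ∃ t, Nat.card (normalizer ((S : Subgroup G) : Set G)) = Nat.card C * t := by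
    refine ⟨(C.subgroupOf (normalizer ((S : Subgroup G) : Set G))).index, ?_⟩
    have h3 := Subgroup.card_mul_index (C.subgroupOf (normalizer ((S : Subgroup G) : Set G)))
    have h4 : Nat.card (C.subgroupOf (normalizer ((S : Subgroup G) : Set G))) = Nat.card C :=
      Nat.card_congr (Subgroup.subgroupOfEquivOfLe H₀.le_normalizer).toEquiv
    rw [h4] at h3
    exact h3.symm
  have ht := two_le_t' hperf hcard hidx H₀ hN
  obtain ⟨M, hM⟩ := Cfsg.Agent.Lib.BlockVal.exists_isPModular hpp
  obtain ⟨D⟩ := exists_dat H₀ hcard hidx hM hN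
  obtain ⟨m, hm⟩ := exists_m (P := (S : Subgroup G)) (C := C)
  -- a nontrivial element and character
  obtain ⟨z₀, hz₀⟩ : ∃ z : ↥(S : Subgroup G), z ≠ 1 := by
    haveI : Nontrivial ↥(S : Subgroup G) := by
      rw [← Finite.one_lt_card_iff_nontrivial, hcard]
      exact hpp.one_lt
    exact exists_ne 1
  obtain ⟨f₀, hf₀⟩ := exists_hom_ne (A := ↥(S : Subgroup G)) (fun a b => Subtype.ext (hcP a a.2 b b.2)) hz₀
  have hf₁ : f₀ ≠ 1 := by
    rintro rfl
    exact hf₀ rfl
  let R : Ctx p (S : Subgroup G) C r e t n := ⟨H₀, D, m, hm, hperf, hidx, hcard, hN, hn, hAlt, ⟨f₀, hf₁⟩, z₀, hz₀⟩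
  have hkerH := ker_le_core R ht
  -- the quotient
  set H := pPrimeCore p G with hH
  have hHp : ¬ p ∣ Nat.card H := Cfsg.Agent.Lib.PCore.not_dvd_card_pPrimeCore p
  have hfs : Function.Surjective (QuotientGroup.mk' H) := QuotientGroup.mk'_surjective H
  set Pb : Subgroup (G ⧸ H) := (S : Subgroup G).map (QuotientGroup.mk' H) with hPb
  have hcard' : Nat.card Pb = p := card_map_of S H hcard hHp
  let Sb : Sylow p (G ⧸ H) := S.mapSurjective hfs
  have hSb : (Sb : Subgroup (G ⧸ H)) = Pb := Sylow.coe_mapSurjective hfs S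
  have hidx' : ¬ p ∣ Pb.index := by
    rw [← hSb]
    exact Sb.not_dvd_index
  have hperf' := perfect_quot hperf H
  have hPH : ∀ w ∈ (S : Subgroup G), w ∈ H → w = 1 := by
    intro w hw hwH
    by_contra hw1
    apply hHp
    rw [← hcard, ← Cfsg.Agent.Lib.SmallGroups2.zpowers_eq_of_mem_of_ne_one hpp hcard hw hw1]
    exact Subgroup.card_dvd_of_le ((zpowers_le).2 hwH)
  have hcommb : ∀ x ∈ Pb, ∀ y ∈ Pb, x * y = y * x := by
    intro u hu v hv
    have h1 : ∀ x y : ↥Pb, x * y = y * x := by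
      haveI := isCyclic_of_prime_card hcard'
      letI := IsCyclic.commGroup (α := ↥Pb)
      exact mul_comm
    exact congrArg Subtype.val (h1 ⟨u, hu⟩ ⟨v, hv⟩)
  have hCb : centralizer (Pb : Set (G ⧸ H)) = Pb := by
    apply le_antisymm
    · intro x hx
      have hxc := mem_centralizer_iff.1 hx
      have hxN : x ∈ normalizer (Pb : Set (G ⧸ H)) := by
        rw [mem_normalizer_iff]
        intro y
        constructor
        · intro hy
          have h1 : x * y * x⁻¹ = y := by
            rw [← hxc y hy]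
            group
          rw [h1]
          exact hy
        · intro hy
          have h1 : x⁻¹ * (x * y * x⁻¹) * x = x * y * x⁻¹ := by
            have h2 := hxc _ hy
            calc x⁻¹ * (x * y * x⁻¹) * x = x⁻¹ * ((x * y * x⁻¹) * x) := by group
              _ = x⁻¹ * (x * (x * y * x⁻¹)) := by rw [h2]
              _ = x * y * x⁻¹ := by group
          have h2 : x⁻¹ * (x * y * x⁻¹) * x = y := by group
          rw [← h2, h1]
          exact hy
      obtain ⟨g, hg, hgx⟩ := exists_lift S H x hxN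
      have hgC : g ∈ C := by
        rw [← hcen, mem_centralizer_iff]
        intro z hz
        have h1 : g * z * g⁻¹ ∈ (S : Subgroup G) := (mem_normalizer_iff.1 hg z).1 hz
        have h2 : QuotientGroup.mk' H (z⁻¹ * (g * z * g⁻¹)) = 1 := by
          have hzb : QuotientGroup.mk' H z ∈ Pb := ⟨z, hz, rfl⟩
          have h3 := hxc _ hzb
          simp only [map_mul, map_inv]
          rw [hgx]
          calc (QuotientGroup.mk' H z)⁻¹ * (x * QuotientGroup.mk' H z * x⁻¹)
              = (QuotientGroup.mk' H z)⁻¹ * (x * QuotientGroup.mk' H z) * x⁻¹ := by group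
            _ = (QuotientGroup.mk' H z)⁻¹ * (QuotientGroup.mk' H z * x) * x⁻¹ := by rw [h3]
            _ = 1 := by group
        have h3 : z⁻¹ * (g * z * g⁻¹) ∈ H := by
          rw [← QuotientGroup.ker_mk' H]
          exact h2
        have h4 := hPH _ ((S : Subgroup G).mul_mem ((S : Subgroup G).inv_mem hz) h1) h3
        have h5 : g * z * g⁻¹ = z := by
          have : g * z * g⁻¹ = z * (z⁻¹ * (g * z * g⁻¹)) := by group
          rw [this, h4, mul_one]
        calc z * g = (g * z * g⁻¹) * g := by rw [h5]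
          _ = g * z := by group
      let c : ↥C := ⟨g, hgC⟩
      let c₁ : ↥C := ⟨(r c : G), H₀.le (r c).2⟩
      have h1 : r (c₁⁻¹ * c) = 1 := by
        rw [map_mul, map_inv, H₀.id (r c)]
        simp
      have h2 := hkerH (c₁⁻¹ * c) h1
      have h3 : QuotientGroup.mk' H (((c₁⁻¹ * c : ↥C) : G)) = 1 := by
        have : ((c₁⁻¹ * c : ↥C) : G) ∈ (QuotientGroup.mk' H).ker := by
          rw [QuotientGroup.ker_mk']
          exact h2
        exact this
      have h4 : x = QuotientGroup.mk' H (r c : G) := by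
        rw [← hgx]
        have h5 : ((c₁⁻¹ * c : ↥C) : G) = (r c : G)⁻¹ * g := rfl
        rw [h5, map_mul, map_inv] at h3
        exact (inv_mul_eq_one.1 h3).symm
      rw [h4]
      exact ⟨_, (r c).2, rfl⟩
    · intro x hx
      rw [mem_centralizer_iff]
      intro y hy
      exact hcommb y hy x hx
  have Hb := hyp_of hpp hcard' hCb
  letI : Fintype (G ⧸ H) := Fintype.ofFinite _
  letI : Fintype ↥Pb := Fintype.ofFinite _
  haveI hcNb : (cN Pb Pb).Normal := cN_normal Hb
  letI : Fintype ↥(normalizer (Pb : Set (G ⧸ H))) := Fintype.ofFinite _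
  obtain ⟨tb, hNb⟩ : ∃ t, Nat.card (normalizer (Pb : Set (G ⧸ H))) = Nat.card Pb * t := by
    refine ⟨(Pb.subgroupOf (normalizer (Pb : Set (G ⧸ H)))).index, ?_⟩
    have h3 := Subgroup.card_mul_index (Pb.subgroupOf (normalizer (Pb : Set (G ⧸ H))))
    have h4 : Nat.card (Pb.subgroupOf (normalizer (Pb : Set (G ⧸ H)))) = Nat.card Pb :=
      Nat.card_congr (Subgroup.subgroupOfEquivOfLe Hb.le_normalizer).toEquiv
    rw [h4] at h3
    exact h3.symm
  have htb := two_le_t hperf' hcard' hidx' Hb hNb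
  have hQb := comm_QQ Hb hcard'
  -- a nontrivial linear character of `N̄ / (S : Subgroup G)̄`
  obtain ⟨xb, hxbN, hxbP⟩ : ∃ x ∈ normalizer (Pb : Set (G ⧸ H)), x ∉ Pb := by
    by_contra hcon
    push Not at hcon
    have h1 : Nat.card (normalizer (Pb : Set (G ⧸ H))) ≤ Nat.card Pb := Subgroup.card_le_of_le hcon
    rw [hNb] at h1
    have h2 : Nat.card Pb * 2 ≤ Nat.card Pb * tb := Nat.mul_le_mul_left _ htb
    have h3 : 0 < Nat.card Pb := Nat.card_pos
    omega
  have hab : (QuotientGroup.mk ⟨xb, hxbN⟩ : QQ Pb Pb) ≠ 1 := by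
    intro h
    exact hxbP (Subgroup.mem_subgroupOf.1 ((QuotientGroup.eq_one_iff (⟨xb, hxbN⟩ : ↥(normalizer (Pb : Set (G ⧸ H))))).1 h))
  obtain ⟨lb, hlb⟩ := exists_hom_ne hQb hab
  haveI := finite_hom hQb
  letI : Fintype (QQ Pb Pb →* ℂˣ) := Fintype.ofFinite _
  -- the map on normalizers
  let φ : ↥(normalizer ((S : Subgroup G) : Set G)) →* ↥(normalizer (Pb : Set (G ⧸ H))) :=
    ((QuotientGroup.mk' H).comp (normalizer ((S : Subgroup G) : Set G)).subtype).codRestrict _
      (fun x => le_normalizer_map (QuotientGroup.mk' H) ⟨x, x.2, rfl⟩)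
  have hφ : Function.Surjective φ := by
    rintro ⟨x, hx⟩
    obtain ⟨g, hg, hgx⟩ := exists_lift S H x hx
    exact ⟨⟨g, hg⟩, Subtype.ext hgx⟩
  let Ψ : ↥(normalizer ((S : Subgroup G) : Set G)) →* ℂˣ := lb.comp ((QuotientGroup.mk' (cN Pb Pb)).comp φ)
  have hΨ : ∀ c ∈ cN (S : Subgroup G) C, Ψ c = 1 := by
    intro c hc
    have hc' : (c : G) ∈ C := Subgroup.mem_subgroupOf.1 hc
    have h1 : QuotientGroup.mk' H (c : G) ∈ centralizer (Pb : Set (G ⧸ H)) := by
      rw [mem_centralizer_iff]
      rintro _ ⟨z, hz, rfl⟩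
      rw [← hcen, mem_centralizer_iff] at hc'
      have h2 := hc' z hz
      rw [← map_mul, ← map_mul, h2]
    rw [hCb] at h1
    have h2 : (QuotientGroup.mk' (cN Pb Pb)) (φ c) = 1 := by
      rw [QuotientGroup.mk'_apply]
      exact (QuotientGroup.eq_one_iff _).2 h1
    simp only [Ψ, MonoidHom.comp_apply, h2, map_one]
  let l : QQ (S : Subgroup G) C →* ℂˣ := QuotientGroup.lift (cN (S : Subgroup G) C) Ψ hΨ
  have hlam : ∀ x : ↥(normalizer ((S : Subgroup G) : Set G)), lam l x = lam lb (φ x) := fun x => rfl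
  have hl1 : l ≠ 1 := by
    intro h
    apply hlb
    obtain ⟨x, hx⟩ := hφ ⟨xb, hxbN⟩
    have h1 : l (QuotientGroup.mk x) = 1 := by rw [h]; rfl
    have h2 : l (QuotientGroup.mk x) = lb (QuotientGroup.mk (φ x)) := rfl
    rw [h2, hx] at h1
    exact h1
  obtain ⟨mb, hmb⟩ := exists_m (P := Pb) (C := Pb)
  let ι : IrrCharacter (G ⧸ H) → IrrCharacter G := Cfsg.Agent.Lib.BlkQuot.infl H
  have hιinj : Function.Injective ι := by
    intro a b hab
    apply Subtype.ext
    funext y
    obtain ⟨g, rfl⟩ := QuotientGroup.mk_surjective y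
    exact congrFun (congrArg Subtype.val hab) g
  have hιdeg : ∀ a : IrrCharacter (G ⧸ H), charDegree ((ι a : IrrCharacter G) : G → ℂ) = charDegree (a : G ⧸ H → ℂ) := by
    intro a
    unfold charDegree
    rfl
  have hkey : ∀ a : IrrCharacter (G ⧸ H), R.m l (ι a) = mb lb a := by
    intro a
    have h1 := R.hm l (ι a)
    have h2 := hmb lb a
    have h3 := classInner_infl' φ hφ (lam lb) (fun y : ↥(normalizer (Pb : Set (G ⧸ H))) => (a : G ⧸ H → ℂ) y)
    have h4 : (R.m l (ι a) : ℂ) = (mb lb a : ℂ) := by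
      rw [← h1, ← h2, ← h3]
      rfl
    exact_mod_cast h4
  have hsum := sum_m_degree hmb lb
  obtain ⟨nb, -, hnb⟩ := exists_n Sb
  rw [hSb] at hnb
  have hle := index_map_le (p := p) (S : Subgroup G) H
  rw [← hPb] at hle
  rw [hn] at hle
  set Mb := (normalizer (Pb : Set (G ⧸ H))).index with hMb
  have hMbpos : 0 < Mb := by
    rw [hnb]
    omega
  have hge : 1 + n * p ≤ Mb := by
    rcases R.pi_cases hl1 with ⟨v, hw, hv1, hmv⟩ | ⟨hσ, hξ, hmJ⟩
    · obtain ⟨a, ha⟩ : ∃ a : IrrCharacter (G ⧸ H), mb lb a ≠ 0 := by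
        by_contra hcon
        push Not at hcon
        rw [Finset.sum_eq_zero (fun a _ => by rw [hcon a, zero_mul])] at hsum
        omega
      have h1 : R.m l (ι a) ≠ 0 := by
        rw [hkey]
        exact ha
      have h2 : ι a = v := by
        by_contra hne
        apply h1
        rw [hmv, if_neg hne]
      have h3 : charDegree (a : G ⧸ H → ℂ) = 1 + n * p := by
        rw [← hιdeg, h2, R.deg_v hw hv1, hn]
      rw [← h3, ← hsum]
      have h4 : mb lb a * charDegree (a : G ⧸ H → ℂ) ≤ _ :=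
        Finset.single_le_sum (f := fun a : IrrCharacter (G ⧸ H) => mb lb a * charDegree (a : G ⧸ H → ℂ))
          (fun _ _ => Nat.zero_le _) (Finset.mem_univ a)
      refine le_trans ?_ h4
      exact Nat.le_mul_of_pos_left _ (Nat.pos_of_ne_zero ha)
    · set d := charDegree ((R.D.ξ R.f₀ : IrrCharacter G) : G → ℂ) with hd
      have hTd := R.deg_J hσ hξ
      rw [← hd, hn] at hTd
      set T := (Jset R.D).card with hT
      let Jb : Finset (IrrCharacter (G ⧸ H)) := Finset.univ.filter (fun a => ι a ∈ Jset R.D)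
      have hterm : ∀ a : IrrCharacter (G ⧸ H), mb lb a * charDegree (a : G ⧸ H → ℂ) = if a ∈ Jb then d else 0 := by
        intro a
        rw [← hkey, hmJ]
        by_cases h1 : ι a ∈ Jset R.D
        · have h2 : a ∈ Jb := Finset.mem_filter.2 ⟨Finset.mem_univ _, h1⟩
          rw [if_pos h1, if_pos h2, one_mul, ← hιdeg]
          obtain ⟨f, hf⟩ := (mem_Jset R.D).1 h1
          rw [← hf, hd]
          exact xi_deg R.H R.D f R.f₀
        · have h2 : a ∉ Jb := fun h => h1 (Finset.mem_filter.1 h).2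
          rw [if_neg h1, if_neg h2, zero_mul]
      rw [Finset.sum_congr rfl (fun a _ => hterm a), Finset.sum_ite_mem, Finset.univ_inter, Finset.sum_const,
        smul_eq_mul] at hsum
      set j := Jb.card with hj
      have hjT : j ≤ T := by
        apply Finset.card_le_card_of_injOn ι
        · intro a ha
          exact (Finset.mem_filter.1 ha).2
        · exact hιinj.injOn
      have hd0 : 0 < d := R.one_le_deg _
      have hnb' : nb ≤ n := by
        have h1 : j * d ≤ T * d := Nat.mul_le_mul_right _ hjT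
        rw [hsum, hnb, hTd] at h1
        have h2 : nb * p ≤ n * p := by omega
        exact Nat.le_of_mul_le_mul_right h2 hpp.pos
      have hT0 := card_Jset R.D
      rw [← hT] at hT0
      have hTle : T ≤ p - 1 := by
        rw [← hT0]
        exact Nat.le_mul_of_pos_right _ (by omega)
      have hpd : p ∣ (T - j) * d := by
        have h1 : (T - j) * d = (n - nb) * p := by
          rw [Nat.sub_mul, Nat.sub_mul, hsum, hnb, hTd]
          omega
        rw [h1]
        exact Dvd.intro_left _ rfl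
      have hnd : ¬ p ∣ d := by
        intro h
        have h1 : p ∣ 1 + n * p := by
          rw [← hTd]
          exact Dvd.dvd.mul_left h _
        have h2 : p ∣ n * p := Dvd.intro_left _ rfl
        have h3 := (Nat.dvd_add_left h2).1 h1
        exact hpp.one_lt.ne' (Nat.dvd_one.1 h3)
      have hpd2 : p ∣ T - j := (hpp.dvd_mul.1 hpd).resolve_right hnd
      have hTj : T - j = 0 := by
        by_contra hne
        have := Nat.le_of_dvd (Nat.pos_of_ne_zero hne) hpd2
        have := hpp.one_lt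
        omega
      have hjeq : j = T := by omega
      rw [← hsum, hjeq, hTd]
  have hnb2 : Mb = 1 + n * p := le_antisymm hle hge
  exact rigid_main hperf' Pb hcard' hidx' hCb hnb2 hAlt

end Cfsg.Agent.Lib.RigT
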