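import Mathlib
import Cfsg.Agent.Lib.SmallGroups2
import Cfsg.Agent.Lib.PCore
import Cfsg.Agent.Lib.ClassicalSmall
import Cfsg.Agent.Lib.Five4
import Cfsg.Agent.Lib.BurnsidePQ
import Cfsg.Agent.S4700
import Cfsg.Agent.S0999
import Cfsg.Agent.S4501

/-!
# Tools for excluding orders of simple groups in the range 3640 < |G| ≤ 6232

The test from the theorem on `n = (n_p - 1) / p` (numeric alternative), and the comparison with the
orders of `PSL(2,p)`, `SL(2,2^m)`, `A₅`, `PSL(2,7)`.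
-/

set_option autoImplicit false
set_option linter.style.haveILetI false

namespace Cfsg.Agent.Lib.OrdR3640A

open Subgroup Cfsg.Agent.Lib.SmallGroups2

section Main

variable {G : Type*} [Group G] [Finite G] [IsSimpleGroup G]

/-- A non-abelian simple group is perfect. -/
theorem perfect (hG : ¬ IsMulCommutative G) : _root_.commutator G = ⊤ := by
  have hN : (_root_.commutator G).Normal := inferInstance
  rcases hN.eq_bot_or_eq_top with h1 | h1
  · exfalso
    apply hG
    refine ⟨⟨fun a b => ?_⟩⟩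
    have h2 : a * b * a⁻¹ * b⁻¹ ∈ _root_.commutator G := by
      rw [_root_.commutator_def]
      exact Subgroup.commutator_mem_commutator (Subgroup.mem_top a) (Subgroup.mem_top b)
    rw [h1, Subgroup.mem_bot] at h2
    calc a * b = (a * b * a⁻¹ * b⁻¹) * (b * a) := by group
      _ = b * a := by rw [h2, one_mul]
  · exact h1

theorem not_isCyclic (hG : ¬ IsMulCommutative G) : ¬ IsCyclic G := by
  intro hc
  apply hG
  exact ⟨⟨fun a b => (IsCyclic.commGroup.mul_comm a b)⟩⟩

theorem exists_noncomm (hG : ¬ IsMulCommutative G) : ∃ x y : G, x * y ≠ y * x := by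
  by_contra h
  push Not at h
  exact hG ⟨⟨h⟩⟩

theorem pPrimeCore_eq_bot {p : ℕ} [Fact p.Prime] (hp : p ∣ Nat.card G) : Cfsg.pPrimeCore p G = ⊥ := by
  rcases (inferInstance : (Cfsg.pPrimeCore p G).Normal).eq_bot_or_eq_top with h | h
  · exact h
  · exfalso
    have h1 := Cfsg.Agent.Lib.PCore.not_dvd_card_pPrimeCore (G := G) p
    rw [h, Subgroup.card_top] at h1
    exact h1 hp

/-- Upper bound for `PSL(2,F)`, `|F| = q`. -/
theorem card_psl_lt {F : Type} [Field F] [Fintype F] :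
    Nat.card (Matrix.ProjectiveSpecialLinearGroup (Fin 2) F) ≤ (Fintype.card F + 1) * Fintype.card F * (Fintype.card F - 1) := by
  have h := Cfsg.Agent.Lib.ClassicalSmall.card_PSL2 (F := F)
  have hq : 1 < Fintype.card F := Fintype.one_lt_card
  have hg : 0 < Nat.gcd 2 (Fintype.card F - 1) := Nat.gcd_pos_of_pos_left _ (by norm_num)
  rw [← h]
  exact Nat.le_mul_of_pos_left _ hg

/-- The numerical alternative of the theorem on `n_p = 1 + n p`. -/
theorem third_alt (hG : ¬ IsMulCommutative G) {p : ℕ} [Fact p.Prime] (hd : p ∣ Nat.card G) (hs : ¬ p ^ 2 ∣ Nat.card G)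
    (hbig : p ^ 3 ≤ Nat.card G) {n : ℕ} (hn : Nat.card (Sylow p G) = 1 + n * p) :
    ∃ a u : ℕ, 0 < a ∧ 0 < u ∧ n * (u + 1) = a * u * p + u ^ 2 + u + a := by
  classical
  have hpp : p.Prime := Fact.out
  obtain ⟨P⟩ : Nonempty (Sylow p G) := inferInstance
  have hP : Nat.card (P : Subgroup G) = p := by
    obtain ⟨m, hm⟩ := hd
    have hm' : ¬ p ∣ m := by
      intro h
      apply hs
      rw [hm, pow_two]
      exact Nat.mul_dvd_mul_left p h
    have := sylow_card_of_card_eq (a := 1) (m := m) (by rw [hm, pow_one]) hm' P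
    rwa [pow_one] at this
  have hcard : Nat.card (G ⧸ Cfsg.pPrimeCore p G) = Nat.card G := by
    rw [pPrimeCore_eq_bot hd]
    exact Nat.card_congr (QuotientGroup.quotientBot (G := G)).toEquiv
  rcases Cfsg.Agent.S4700.result (perfect hG) p P hP n hn with ⟨F, _, _, hF, _, ⟨e⟩⟩ | ⟨m, F, _, _, hF, hpm, _, ⟨e⟩⟩ | h
  · exfalso
    have h1 := Nat.card_congr e.toEquiv
    rw [hcard] at h1
    have h2 := card_psl_lt (F := F)
    rw [hF, ← h1] at h2
    have h3 : (p + 1) * p * (p - 1) < p ^ 3 := by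
      obtain ⟨k, rfl⟩ : ∃ k, p = k + 1 := ⟨p - 1, by have := hpp.one_lt; omega⟩
      simp only [Nat.add_sub_cancel]
      have : (k + 1 + 1) * (k + 1) * k = k ^ 3 + 3 * k ^ 2 + 2 * k := by ring
      have h4 : (k + 1) ^ 3 = k ^ 3 + 3 * k ^ 2 + 3 * k + 1 := by ring
      omega
    omega
  · exfalso
    have h1 := Nat.card_congr e.toEquiv
    rw [hcard, Cfsg.Agent.Lib.ClassicalSmall.card_SL2, hF] at h1
    rw [h1, hpm] at hbig
    have hq : 1 ≤ 2 ^ m := Nat.one_le_two_pow
    obtain ⟨k, hk⟩ : ∃ k, 2 ^ m = k + 1 := ⟨2 ^ m - 1, by omega⟩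
    rw [hk] at hbig
    simp only [Nat.add_sub_cancel] at hbig
    have e1 : (k + 1 + 1) ^ 3 = k ^ 3 + 6 * k ^ 2 + 12 * k + 8 := by ring
    have e2 : (k + 1 + 1) * (k + 1) * k = k ^ 3 + 3 * k ^ 2 + 2 * k := by ring
    have : 0 ≤ k ^ 2 := Nat.zero_le _
    omega
  · exact h

/-- Numeric test from `third_alt`: the bounds `u ≤ n`, `a ≤ n`. -/
theorem third_bounds {p n a u : ℕ} (hp : 1 ≤ p) (ha : 0 < a) (hu : 0 < u)
    (h : n * (u + 1) = a * u * p + u ^ 2 + u + a) : u < n + 1 ∧ a < n + 1 := by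
  constructor
  · have h1 : u * (u + 1) ≤ n * (u + 1) := by
      rw [h]
      have : u * (u + 1) = u ^ 2 + u := by ring
      omega
    have := Nat.le_of_mul_le_mul_right h1 (by omega)
    omega
  · have h1 : a * (u + 1) ≤ n * (u + 1) := by
      rw [h]
      have h2 : a * u ≤ a * u * p := Nat.le_mul_of_pos_right _ hp
      have : a * (u + 1) = a * u + a := by ring
      have : 0 ≤ u ^ 2 := Nat.zero_le _
      omega
    have := Nat.le_of_mul_le_mul_right h1 (by omega)
    omega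

/-- The numeric consequence of `third_alt` for a value `k` of `n_p`. -/
theorem not_card_sylow_of_third (hG : ¬ IsMulCommutative G) {p m k : ℕ} [Fact p.Prime] (h : Nat.card G = p * m)
    (hm : ¬ p ∣ m) (hbig : p ^ 2 ≤ m) (hk : Nat.card (Sylow p G) = k)
    (hnum : ∀ u ∈ Finset.range ((k - 1) / p + 1), ∀ a ∈ Finset.range ((k - 1) / p + 1), 0 < a → 0 < u →
      ((k - 1) / p) * (u + 1) ≠ a * u * p + u ^ 2 + u + a) : False := by
  have hpp : p.Prime := Fact.out
  have hmod := card_sylow_mod (p := p) (G := G)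
  rw [hk, Nat.mod_eq_of_lt hpp.one_lt] at hmod
  have hk1 : k = 1 + ((k - 1) / p) * p := by
    have h1 := Nat.div_add_mod k p
    have h2 : (k - 1) / p = k / p := by
      have h3 : k = p * (k / p) + 1 := by omega
      have h4 : k - 1 = p * (k / p) := by omega
      rw [h4, Nat.mul_div_cancel_left _ hpp.pos]
    rw [h2]
    rw [mul_comm]
    omega
  have hs : ¬ p ^ 2 ∣ Nat.card G := by
    rw [h, pow_two]
    intro h1
    exact hm (Nat.dvd_of_mul_dvd_mul_left hpp.pos h1)
  have hb : p ^ 3 ≤ Nat.card G := by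
    rw [h, pow_succ, mul_comm]
    exact Nat.mul_le_mul_left _ hbig
  obtain ⟨a, u, ha, hu, he⟩ := third_alt hG (p := p) ⟨m, h⟩ hs hb (n := (k - 1) / p) (by rw [hk]; exact hk1)
  obtain ⟨h1, h2⟩ := third_bounds hpp.one_lt.le ha hu he
  exact hnum u (Finset.mem_range.2 h1) a (Finset.mem_range.2 h2) ha hu he

/-- Exclusion of an order by the numerical alternative alone. -/
theorem not_card_third (hG : ¬ IsMulCommutative G) {p m : ℕ} [Fact p.Prime] (hm : ¬ p ∣ m) (hbig : p ^ 2 ≤ m)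
    (hc : ∀ k ∈ sylowCandidates p m, ∀ u ∈ Finset.range ((k - 1) / p + 1), ∀ a ∈ Finset.range ((k - 1) / p + 1),
      0 < a → 0 < u → ((k - 1) / p) * (u + 1) ≠ a * u * p + u ^ 2 + u + a) :
    Nat.card G ≠ p * m := by
  intro h
  have hk := card_sylow_mem_candidates hG h hm
  exact not_card_sylow_of_third hG h hm hbig rfl (hc _ hk)

/-- Comparison with the theorem on large primes. -/
theorem ne_of_large (hG : ¬ IsMulCommutative G) {N p : ℕ} (hp : p.Prime) (hd : p ∣ N) (hb : N < p ^ 3)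
    (h1 : 2 * N ≠ (p + 1) * p * (p - 1)) (h2 : N ≠ p * (p - 1) * (p - 2)) : Nat.card G ≠ N := by
  intro h
  subst h
  rcases Cfsg.Agent.S0999.result (not_isCyclic hG) p hp hd hb with ⟨F, _, _, hF, h3, ⟨e⟩⟩ | ⟨m, F, _, _, hF, hpm, h3, ⟨e⟩⟩
  · have hc := Nat.card_congr e.toEquiv
    have h4 := Cfsg.Agent.Lib.ClassicalSmall.card_PSL2 (F := F)
    rw [← hc, hF] at h4
    have hodd : Nat.gcd 2 (p - 1) = 2 := by
      have : p % 2 = 1 := (hp.eq_two_or_odd).resolve_left (by omega)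
      apply Nat.gcd_eq_left
      omega
    rw [hodd] at h4
    exact h1 h4
  · have hc := Nat.card_congr e.toEquiv
    have h4 := Cfsg.Agent.Lib.ClassicalSmall.card_PSL2 (F := F)
    rw [← hc, hF] at h4
    have hm2 : 2 ≤ 2 ^ m := by
      rcases m with _ | m
      · simp at hpm; omega
      · rw [pow_succ]; have := Nat.one_le_two_pow (n := m); omega
    have hev : 2 ∣ 2 ^ m := by
      rcases m with _ | m
      · simp at hpm; omega
      · exact ⟨2 ^ m, by ring⟩
    have hodd : Nat.gcd 2 (2 ^ m - 1) = 1 := by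
      have : Nat.Coprime 2 (2 ^ m - 1) := by
        rw [Nat.prime_two.coprime_iff_not_dvd]
        omega
      exact this
    rw [hodd, one_mul] at h4
    apply h2
    rw [h4, hpm]
    simp only [Nat.add_sub_cancel]
    have : 2 ^ m + 1 - 2 = 2 ^ m - 1 := by omega
    rw [this]

/-- Comparison with the `4 p^a q^b`, `3 p^a q^b` theorem. -/
theorem ne_of_four (hG : ¬ IsMulCommutative G) {p q a b : ℕ} (hp : p.Prime) (hq : q.Prime) (hpq : p ≠ q) (ha : a ≤ 2)
    (h60 : 4 * p ^ a * q ^ b ≠ 60) : Nat.card G ≠ 4 * p ^ a * q ^ b := by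
  intro h
  obtain ⟨e⟩ := (Cfsg.Agent.S4501.result (exists_noncomm hG) p q a b hp hq hpq ha).1 h
  have hc := Nat.card_congr e.toEquiv
  rw [h, Cfsg.Agent.Lib.Five4.card_A5] at hc
  exact h60 hc

theorem card_psl27 : Nat.card (Matrix.ProjectiveSpecialLinearGroup (Fin 2) (ZMod 7)) = 168 := by
  haveI : Fact (Nat.Prime 7) := ⟨by norm_num⟩
  have h := Cfsg.Agent.Lib.ClassicalSmall.card_PSL2 (F := ZMod 7)
  rw [ZMod.card] at h
  have h2 : Nat.gcd 2 (7 - 1) = 2 := by decide
  rw [h2] at h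
  omega

theorem ne_of_three (hG : ¬ IsMulCommutative G) {p q a b : ℕ} (hp : p.Prime) (hq : q.Prime) (hpq : p ≠ q) (ha : a ≤ 2)
    (h60 : 3 * p ^ a * q ^ b ≠ 60) (h168 : 3 * p ^ a * q ^ b ≠ 168) : Nat.card G ≠ 3 * p ^ a * q ^ b := by
  intro h
  rcases (Cfsg.Agent.S4501.result (exists_noncomm hG) p q a b hp hq hpq ha).2 h with ⟨⟨e⟩⟩ | ⟨⟨e⟩⟩
  · have hc := Nat.card_congr e.toEquiv
    rw [h, Cfsg.Agent.Lib.Five4.card_A5] at hc
    exact h60 hc
  · have hc := Nat.card_congr e.toEquiv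
    rw [h, card_psl27] at hc
    exact h168 hc

/-- Burnside's theorem in the form used for the exclusion of orders. -/
theorem ne_of_burnside (hG : ¬ IsMulCommutative G) {p q a b : ℕ} (hp : p.Prime) (hq : q.Prime) :
    Nat.card G ≠ p ^ a * q ^ b := by
  intro h
  haveI := Cfsg.Agent.Lib.BurnsidePQ.isSolvable_of_card_eq p q hp hq _ G h ⟨a, b, rfl⟩
  have h3 := Group.IsSolvable.commutator_lt_top_of_nontrivial G
  rw [perfect hG] at h3
  exact lt_irrefl _ h3

/-- The Sylow test. -/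
theorem sylow_kill (hG : ¬ IsMulCommutative G) {n p a m : ℕ} (hp : p.Prime) (ha : 1 ≤ a) (hn : n = p ^ a * m) (hm : ¬ p ∣ m)
    (hc : Nat.card G = n)
    (hk : ∀ t ∈ Finset.range (m / p + 1), t ≠ 0 → (1 + t * p) ∣ m →
      (a = 1 ∧ Nat.gcd (m / (1 + t * p)) (p - 1) = 1) ∨ (1 + t * p < 40 ∧ ¬ 2 * n ∣ (1 + t * p).factorial)) : False := by
  haveI : Fact p.Prime := ⟨hp⟩
  have hpd : p ∣ Nat.card G := by
    rw [hc, hn]
    exact Dvd.dvd.mul_right (dvd_pow_self p (by omega)) m
  have h' : Nat.card G = p ^ a * m := by rw [hc, hn]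
  have hdvd := card_sylow_dvd h' hm
  have hmod := card_sylow_mod (p := p) (G := G)
  rw [Nat.mod_eq_of_lt hp.one_lt] at hmod
  have hne1 := card_sylow_ne_one hG hpd
  have hm0 : m ≠ 0 := by
    rintro rfl
    exact hm (dvd_zero p)
  set k := Nat.card (Sylow p G) with hkdef
  have hk0 : k = 1 + (k / p) * p := by
    have := Nat.div_add_mod k p
    rw [mul_comm] at this
    omega
  have hk1 : k / p ≠ 0 := by
    intro h0
    rw [h0] at hk0
    apply hne1
    rw [hk0]
    simp
  have hle : k / p ≤ m / p := Nat.div_le_div_right (Nat.le_of_dvd (by omega) hdvd)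
  have hk2 : (1 + (k / p) * p) ∣ m := by rw [← hk0]; exact hdvd
  rcases hk _ (Finset.mem_range.2 (by omega)) hk1 hk2 with ⟨h1, h2⟩ | ⟨h1, h2⟩
  · subst h1
    have h3 : Nat.card G = p * m := by rw [h', pow_one]
    have h4 := card_sylow_mem_candidates hG h3 hm
    rw [sylowCandidates, Finset.mem_filter] at h4
    apply h4.2.2.2
    rw [← hk0] at h2
    exact h2
  · apply h2
    rw [← hk0, ← hc]
    exact two_mul_card_dvd_factorial_card_sylow hG hpd

end Main

end Cfsg.Agent.Lib.OrdR3640A
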