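import Mathlib
import Cfsg.Agent.Lib.OrdR3640A
import Cfsg.Agent.Lib.TwoLocal
import Cfsg.Agent.Lib.TwoLocal2
import Cfsg.Agent.Lib.TwoLocal3
import Cfsg.Agent.Lib.SmallGroups3
import Cfsg.Agent.Lib.JordanPrimeCycle
import Cfsg.Agent.S0985

/-!
# More tools for excluding orders of simple groups in the range 3640 < |G| ≤ 6232
-/

set_option autoImplicit false
set_option linter.style.haveILetI false

namespace Cfsg.Agent.Lib.OrdR3640C

open Subgroup Cfsg.Agent.Lib.SmallGroups2 Cfsg.Agent.Lib.TwoLocal Cfsg.Agent.Lib.TwoLocal2 Cfsg.Agent.Lib.TwoLocal3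

section Basic

variable {G : Type*} [Group G] [Finite G]

/-- The order of the normalizer from the number of Sylow subgroups. -/
theorem card_normalizer_eq {p m n k : ℕ} [Fact p.Prime] (h : Nat.card G = p * m) (hn : Nat.card (Sylow p G) = n)
    (hnk : n * k = m) (P : Sylow p G) : Nat.card (normalizer ((P : Subgroup G) : Set G)) = p * k := by
  have hpp : p.Prime := Fact.out
  have h1 := card_normalizer_mul_card_sylow P
  rw [hn, h, ← hnk] at h1
  have hn0 : 0 < n := by
    rw [← hn]
    exact Nat.card_pos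
  apply Nat.eq_of_mul_eq_mul_right hn0
  rw [h1]
  ring

theorem sylow_card_prime {p m : ℕ} [Fact p.Prime] (h : Nat.card G = p * m) (hm : ¬ p ∣ m) (P : Sylow p G) :
    Nat.card (P : Subgroup G) = p := by
  have := sylow_card_of_card_eq (a := 1) (m := m) (by rw [h, pow_one]) hm P
  rwa [pow_one] at this

/-- If an element of order `q` centralizes a Sylow `p`-subgroup (`p`, `q` dividing `|G|` exactly once), then
`p` does not divide the number of Sylow `q`-subgroups. -/
theorem not_dvd_card_sylow_of_commuting {p q m m' : ℕ} [Fact p.Prime] [Fact q.Prime] (h : Nat.card G = p * m) (hm : ¬ p ∣ m)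
    (h' : Nat.card G = q * m') (hm' : ¬ q ∣ m') (P : Sylow p G) {c : G}
    (hc : c ∈ centralizer ((P : Subgroup G) : Set G)) (ho : orderOf c = q) : ¬ p ∣ Nat.card (Sylow q G) := by
  have hpp : p.Prime := Fact.out
  have hqq : q.Prime := Fact.out
  intro hdvd
  obtain ⟨Q, hQ⟩ := exists_sylow_mem_of_orderOf ho
  have hcQ : Nat.card (Q : Subgroup G) = q := sylow_card_prime h' hm' Q
  have hne : c ≠ 1 := by
    rintro rfl
    rw [orderOf_one] at ho
    exact hqq.one_lt.ne ho
  have hz := zpowers_eq_of_mem_of_ne_one hqq hcQ hQ hne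
  have hle : (P : Subgroup G) ≤ normalizer ((Q : Subgroup G) : Set G) := by
    rw [← hz]
    intro x hx
    have hxc : x * c = c * x := (mem_centralizer_iff.1 hc) x hx
    apply mem_normalizer_of_conj_le
    intro y hy
    obtain ⟨k, rfl⟩ := Subgroup.mem_zpowers_iff.1 hy
    have : x * c ^ k * x⁻¹ = c ^ k := by
      have h1 : Commute x (c ^ k) := (show Commute x c from hxc).zpow_right k
      rw [h1.eq, mul_inv_cancel_right]
    rw [this]
    exact Subgroup.zpow_mem_zpowers c k
  have h1 : p ∣ Nat.card (normalizer ((Q : Subgroup G) : Set G)) := by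
    have := Subgroup.card_dvd_of_le hle
    rwa [sylow_card_prime h hm P] at this
  have h2 := card_normalizer_mul_card_sylow Q
  rw [h] at h2
  have h3 : p * p ∣ p * m := by
    rw [← h2]
    exact Nat.mul_dvd_mul h1 hdvd
  exact hm (Nat.dvd_of_mul_dvd_mul_left hpp.pos h3)

/-- If `p` divides the order of the normalizer of a Sylow `q`-subgroup `Q` of prime order, and `p` does not divide `q - 1`,
then `Q` centralizes a Sylow `p`-subgroup of prime order. -/
theorem exists_centralizer_of_dvd {p q m : ℕ} [Fact p.Prime] [Fact q.Prime] (h : Nat.card G = p * m) (hm : ¬ p ∣ m)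
    (Q : Sylow q G) (hQ : Nat.card (Q : Subgroup G) = q) (hpd : p ∣ Nat.card (normalizer ((Q : Subgroup G) : Set G)))
    (hpq : ¬ p ∣ q - 1) : ∃ P : Sylow p G, (Q : Subgroup G) ≤ centralizer ((P : Subgroup G) : Set G) := by
  have hpp : p.Prime := Fact.out
  obtain ⟨S, hS, hcS⟩ := exists_subgroup_le_card (normalizer ((Q : Subgroup G) : Set G)) (q := p) (a := 1) (by rwa [pow_one])
  obtain ⟨c, _, hc, ho⟩ := exists_commuting_in Q hQ S hS hcS (by
    intro j hj hj2
    rw [pow_one] at hj2 ⊢
    rcases (Nat.dvd_prime hpp).1 hj2 with rfl | rfl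
    · exact hpp.one_lt
    · exact absurd hj hpq)
  obtain ⟨P, hP⟩ := exists_sylow_mem_of_orderOf ho
  refine ⟨P, ?_⟩
  have hne : c ≠ 1 := by
    rintro rfl
    rw [orderOf_one] at ho
    exact hpp.one_lt.ne ho
  have hz := zpowers_eq_of_mem_of_ne_one hpp (sylow_card_prime h hm P) hP hne
  intro x hx
  rw [mem_centralizer_iff]
  intro y hy
  rw [SetLike.mem_coe, ← hz] at hy
  obtain ⟨k, rfl⟩ := Subgroup.mem_zpowers_iff.1 hy
  have h1 : Commute x c := (mem_centralizer_iff.1 hc) x hx
  exact (h1.zpow_right k).symm.eq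

/-- The number of elements of three prime orders does not exceed `|G|`. -/
theorem count_three {r s t : ℕ} (hrs : r ≠ s) (hrt : r ≠ t) (hst : s ≠ t) :
    Nat.card {g : G // orderOf g = r} + Nat.card {g : G // orderOf g = s} + Nat.card {g : G // orderOf g = t} ≤ Nat.card G := by
  classical
  haveI := Fintype.ofFinite G
  simp only [Nat.card_eq_fintype_card, Fintype.card_subtype]
  have hd1 : Disjoint (Finset.univ.filter (fun g : G => orderOf g = r)) (Finset.univ.filter (fun g : G => orderOf g = s)) := by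
    rw [Finset.disjoint_left]
    intro g h1 h2
    simp only [Finset.mem_filter, Finset.mem_univ, true_and] at h1 h2
    exact hrs (h1 ▸ h2)
  have hd2 : Disjoint ((Finset.univ.filter (fun g : G => orderOf g = r)) ∪ (Finset.univ.filter (fun g : G => orderOf g = s)))
      (Finset.univ.filter (fun g : G => orderOf g = t)) := by
    rw [Finset.disjoint_left]
    intro g h1 h2
    simp only [Finset.mem_union, Finset.mem_filter, Finset.mem_univ, true_and] at h1 h2
    rcases h1 with h1 | h1
    · exact hrt (h1 ▸ h2)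
    · exact hst (h1 ▸ h2)
  rw [← Finset.card_union_of_disjoint hd1, ← Finset.card_union_of_disjoint hd2]
  exact Finset.card_le_univ _

/-- Numeric form of `count_three` for Sylow subgroups of prime order. -/
theorem count_three_sylow {r s t mr ms mt : ℕ} [Fact r.Prime] [Fact s.Prime] [Fact t.Prime] (hrs : r ≠ s) (hrt : r ≠ t) (hst : s ≠ t)
    (h1 : Nat.card G = r * mr) (h1' : ¬ r ∣ mr) (h2 : Nat.card G = s * ms) (h2' : ¬ s ∣ ms)
    (h3 : Nat.card G = t * mt) (h3' : ¬ t ∣ mt) :
    Nat.card (Sylow r G) * (r - 1) + Nat.card (Sylow s G) * (s - 1) + Nat.card (Sylow t G) * (t - 1) ≤ Nat.card G := by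
  rw [← card_orderOf_eq_prime (fun P => sylow_card_prime h1 h1' P), ← card_orderOf_eq_prime (fun P => sylow_card_prime h2 h2' P),
    ← card_orderOf_eq_prime (fun P => sylow_card_prime h3 h3' P)]
  exact count_three hrs hrt hst

/-- Two Sylow subgroups with a large intersection. -/
theorem exists_pair {p a m : ℕ} [Fact p.Prime] (h : Nat.card G = p ^ a * m) (hm : ¬ p ∣ m) (ha : 1 ≤ a)
    (hn : ¬ Nat.card (Sylow p G) ≡ 1 [MOD p ^ 2]) :
    ∃ P R : Sylow p G, P ≠ R ∧ Nat.card ↥((P : Subgroup G) ⊓ (R : Subgroup G)) * p = p ^ a := by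
  have hpp : p.Prime := Fact.out
  obtain ⟨P, R, hne, hi⟩ := Cfsg.Agent.S0985.result (G := G) p 2 hn
  refine ⟨P, R, hne, ?_⟩
  have hcP := sylow_card_of_card_eq h hm P
  have hcR := sylow_card_of_card_eq h hm R
  have h1 := Subgroup.card_mul_index ((R : Subgroup G).subgroupOf (P : Subgroup G))
  have h2 : Nat.card ↥((R : Subgroup G).subgroupOf (P : Subgroup G)) = Nat.card ↥((P : Subgroup G) ⊓ (R : Subgroup G)) := by
    rw [← Subgroup.inf_subgroupOf_right, inf_comm]
    exact Nat.card_congr (Subgroup.subgroupOfEquivOfLe inf_le_left).toEquiv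
  rw [h2, hcP] at h1
  have hd : ((R : Subgroup G).subgroupOf (P : Subgroup G)).index ∣ p ^ a := ⟨_, by rw [← h1, mul_comm]⟩
  obtain ⟨j, _, hj⟩ := (Nat.dvd_prime_pow hpp).1 hd
  rw [hj] at hi h1
  have hi' : p ^ j ≤ p ^ 1 := by simpa using hi
  have hj1 : j ≤ 1 := (Nat.pow_le_pow_iff_right hpp.one_lt).1 hi'
  interval_cases j
  · exfalso
    apply hne
    have h3 : Nat.card ↥((P : Subgroup G) ⊓ (R : Subgroup G)) = Nat.card (P : Subgroup G) := by
      rw [hcP, ← h1]; simp
    have h4 : (P : Subgroup G) ⊓ (R : Subgroup G) = P :=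
      Subgroup.eq_of_le_of_card_ge inf_le_left (le_of_eq h3.symm)
    have h5 : (P : Subgroup G) ≤ R := inf_eq_left.1 h4
    have h6 : (P : Subgroup G) = R := Subgroup.eq_of_le_of_card_ge h5 (by rw [hcP, hcR])
    exact Sylow.ext h6
  · simpa using h1

/-- The number of Sylow subgroups of a subgroup containing two distinct Sylow subgroups. -/
theorem sylow_pair_data {p : ℕ} [Fact p.Prime] (M : Subgroup G) (P R : Sylow p G) (hP : (P : Subgroup G) ≤ M)
    (hR : (R : Subgroup G) ≤ M) (hne : P ≠ R) :
    Nat.card (Sylow p M) % p = 1 ∧ Nat.card (Sylow p M) ≠ 1 ∧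
      Nat.card (Sylow p M) * Nat.card (P : Subgroup G) ∣ Nat.card M := by
  have hpp : p.Prime := Fact.out
  have hmod := card_sylow_mod (p := p) (G := M)
  rw [Nat.mod_eq_of_lt hpp.one_lt] at hmod
  refine ⟨hmod, ?_, ?_⟩
  · intro h1
    have hs : Subsingleton (Sylow p M) := (Nat.card_eq_one_iff_unique.1 h1).1
    have h2 : P.subtype hP = R.subtype hR := Subsingleton.elim _ _
    have h3 : (P : Subgroup G).subgroupOf M = (R : Subgroup G).subgroupOf M := by
      have := congrArg (fun S : Sylow p M => (S : Subgroup M)) h2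
      simpa [Sylow.coe_subtype] using this
    have h4 : (P : Subgroup G) = R := by
      have := Subgroup.subgroupOf_inj.1 h3
      rwa [inf_eq_left.2 hP, inf_eq_left.2 hR] at this
    exact hne (Sylow.ext h4)
  · set S := P.subtype hP with hS
    have h1 := card_normalizer_mul_card_sylow S
    rw [← h1, mul_comm]
    have h2 : Nat.card (S : Subgroup M) = Nat.card (P : Subgroup G) := by
      rw [hS, Sylow.coe_subtype]
      exact Nat.card_congr (Subgroup.subgroupOfEquivOfLe hP).toEquiv
    rw [← h2]
    exact Nat.mul_dvd_mul_right (Subgroup.card_dvd_of_le Subgroup.le_normalizer) _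

/-- A group of order `2 w`, `w` odd, with two different Sylow `p`-subgroups (`p` odd): numeric consequence in the
normal subgroup of index 2. -/
theorem two_mul_data {X : Type*} [Group X] [Finite X] {p w : ℕ} [Fact p.Prime] (hp2 : p ≠ 2) (hc : Nat.card X = 2 * w)
    (hw : ¬ 2 ∣ w) (S₁ S₂ : Sylow p X) (hne : S₁ ≠ S₂) :
    ∃ n, n % p = 1 ∧ n ≠ 1 ∧ n * Nat.card (S₁ : Subgroup X) ∣ w := by
  haveI : Fact (Nat.Prime 2) := ⟨Nat.prime_two⟩
  obtain ⟨T⟩ : Nonempty (Sylow 2 X) := inferInstance
  have hT : Nat.card (T : Subgroup X) = 2 := by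
    have := sylow_card_of_card_eq (a := 1) (m := w) (by rw [hc, pow_one]) hw T
    rwa [pow_one] at this
  have hle : normalizer ((T : Subgroup X) : Set X) ≤ centralizer ((T : Subgroup X) : Set X) := by
    have h1 := relIndex_dvd_of_prime_card T hT
    have h2 : (centralizer ((T : Subgroup X) : Set X)).relIndex (normalizer ((T : Subgroup X) : Set X)) = 1 := by
      simpa using h1
    exact Subgroup.relIndex_eq_one.1 h2
  have hcomp := MonoidHom.ker_transferSylow_isComplement' T hle
  set K := (MonoidHom.transferSylow T hle).ker with hK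
  have hKn : K.Normal := MonoidHom.normal_ker _
  have hcK : Nat.card K = w := by
    have h1 := hcomp.card_mul
    rw [hT, hc, mul_comm] at h1
    exact Nat.eq_of_mul_eq_mul_left (by norm_num) h1
  have hi : K.index = 2 := by
    have h1 := Subgroup.card_mul_index K
    rw [hcK, hc, mul_comm] at h1
    have hw0 : 0 < w := Nat.pos_of_ne_zero (by rintro rfl; exact hw (dvd_zero 2))
    exact Nat.eq_of_mul_eq_mul_right hw0 h1
  have hodd : Odd p := (Fact.out : p.Prime).eq_two_or_odd'.resolve_left hp2
  have hin : ∀ S : Sylow p X, (S : Subgroup X) ≤ K := by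
    intro S x hx
    obtain ⟨k, hk⟩ := S.isPGroup' ⟨x, hx⟩
    have hk' : x ^ p ^ k = 1 := by simpa using congrArg Subtype.val hk
    obtain ⟨r, hr⟩ := hodd.pow (n := k)
    have h3 : x = (x * x) ^ (r + 1) := by
      rw [← pow_two, ← pow_mul]
      have : 2 * (r + 1) = p ^ k + 1 := by omega
      rw [this, pow_succ, hk', one_mul]
    rw [h3]
    exact K.pow_mem (Subgroup.mul_self_mem_of_index_two hi x) _
  obtain ⟨h1, h2, h3⟩ := sylow_pair_data K S₁ S₂ (hin S₁) (hin S₂) hne
  refine ⟨_, h1, h2, ?_⟩
  rwa [hcK] at h3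

end Basic

section Simple

variable {G : Type*} [Group G] [Finite G] [IsSimpleGroup G]

/-- An involution commuting with an element of odd prime order `p` on the cosets of a subgroup of index `2 p`
of order prime to `p`. -/
theorem parity_false (hG : ¬ IsMulCommutative G) {p : ℕ} [Fact p.Prime] (hp2 : p ≠ 2) (H : Subgroup G)
    (hH : H.index = 2 * p) (hnd : ¬ p ∣ Nat.card H) {x t : G} (hx : orderOf x = p) (ht : orderOf t = 2)
    (hc : t * x = x * t) : False := by
  classical
  have hpp : p.Prime := Fact.out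
  have hodd : p % 2 = 1 := hpp.eq_two_or_odd.resolve_left hp2
  have hcard : Nat.card (G ⧸ H) = H.index := rfl
  have hne : H ≠ ⊤ := by
    rintro rfl
    rw [Subgroup.index_top] at hH
    omega
  have ht2 : t ^ 2 = 1 := by rw [← ht]; exact pow_orderOf_eq_one t
  have ht1 : t ≠ 1 := by
    rintro rfl
    rw [orderOf_one] at ht
    omega
  have h4 := Cfsg.Agent.Lib.SmallGroups3.card_modEq_fixedBy_four hG (X := G ⧸ H) t ht2
  rw [hcard, hH] at h4
  -- the element `x` acts without fixed points
  have hpg : IsPGroup p (zpowers x) := by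
    apply IsPGroup.of_card (n := 1)
    rw [Nat.card_zpowers, hx, pow_one]
  have htC : t ∈ centralizer ((zpowers x : Subgroup G) : Set G) := by
    rw [mem_centralizer_iff]
    intro y hy
    obtain ⟨k, rfl⟩ := Subgroup.mem_zpowers_iff.1 hy
    exact ((show Commute x t from hc.symm).zpow_left k).eq
  have h5 := card_fixedBy_modEq_inter (X := G ⧸ H) (zpowers x) hpg htC
  have h6 : Nat.card {w : G ⧸ H // t • w = w ∧ ∀ g ∈ zpowers x, g • w = w} = 0 := by
    rw [Nat.card_eq_zero]
    left
    constructor
    rintro ⟨w, -, hw⟩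
    induction w using QuotientGroup.induction_on with
    | H g =>
      have h7 := hw x (mem_zpowers x)
      have h8 : ((x * g : G) : G ⧸ H) = (g : G ⧸ H) := h7
      rw [eq_comm, QuotientGroup.eq] at h8
      have h9 : g⁻¹ * x * g ∈ H := by simpa [mul_assoc] using h8
      have h10 : orderOf (g⁻¹ * x * g) = p := by
        have h12 := orderOf_injective (MulAut.conj g⁻¹).toMonoidHom (MulEquiv.injective _) x
        simpa [MulAut.conj_apply] using h12.trans hx
      apply hnd
      have h11 := orderOf_dvd_natCard (⟨_, h9⟩ : H)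
      rw [Subgroup.orderOf_mk, h10] at h11
      exact h11
  rw [h6] at h5
  set f := Nat.card (MulAction.fixedBy (G ⧸ H) t) with hf
  have hfp : p ∣ f := (Nat.modEq_zero_iff_dvd).1 h5
  have hle : f ≤ H.index := Nat.card_le_card_of_injective (fun y => y.1) Subtype.val_injective
  have hlt : f ≠ H.index := by
    intro he
    have hbij : Function.Bijective (fun y : MulAction.fixedBy (G ⧸ H) t => y.1) :=
      (Subtype.val_injective).bijective_of_nat_card_le (le_of_eq (by rw [← hf, he]; rfl))
    apply ht1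
    apply eq_one_of_forall_smul_quotient H hne
    intro w
    obtain ⟨y, rfl⟩ := hbij.2 w
    exact y.2
  rw [hH] at hle hlt
  obtain ⟨c, hc'⟩ := hfp
  have hc2 : c < 2 := by
    by_contra hcon
    have : p * 2 ≤ p * c := Nat.mul_le_mul_left _ (by omega)
    omega
  interval_cases c
  · rw [hc'] at h4
    simp only [Nat.ModEq] at h4
    omega
  · rw [hc'] at h4
    simp only [Nat.ModEq] at h4
    omega

/-- **Jordan.** A primitive simple group containing an element of prime order `q` moving exactly `q` points, `2 q ≤ |Ω|`,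
has order at least `|Ω|! / 2`. -/
theorem jordan_false {Ω : Type*} [MulAction G Ω] [Finite Ω] [MulAction.IsPreprimitive G Ω] {a : G} {q : ℕ} (hq : q.Prime)
    (ho : orderOf a = q) (hmoved : Nat.card {x : Ω // a • x ≠ x} = q) (hle : 2 * q ≤ Nat.card Ω)
    (hbig : 2 * Nat.card G < (Nat.card Ω).factorial) : False := by
  classical
  haveI := Fintype.ofFinite Ω
  let φ : G →* Equiv.Perm Ω := MulAction.toPermHom G Ω
  let ψ : G →* φ.range := φ.rangeRestrict
  have hψ : Function.Surjective ψ := φ.rangeRestrict_surjective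
  let f : Ω →ₑ[ψ] Ω := { toFun := id, map_smul' := fun g x => rfl }
  have hfs : Function.Surjective f := Function.surjective_id
  haveI hprim : MulAction.IsPreprimitive φ.range Ω :=
    MulAction.IsPreprimitive.of_surjective (f := f) hfs
  have hsupp : (φ a).support.card = q := by
    rw [← hmoved, Nat.card_eq_fintype_card, Fintype.card_subtype]
    congr 1
  have hne : φ a ≠ 1 := by
    intro h
    rw [h, Equiv.Perm.support_one, Finset.card_empty] at hsupp
    exact hq.ne_zero hsupp.symm
  have hpow : (φ a) ^ q = 1 := by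
    rw [← map_pow, ← ho, pow_orderOf_eq_one, map_one]
  haveI : Fact q.Prime := ⟨hq⟩
  have hord : orderOf (φ a) = q := orderOf_eq_prime hpow hne
  have hcyc : (φ a).IsCycle := by
    apply Equiv.Perm.isCycle_of_prime_order (by rwa [hord])
    rw [hord, hsupp]
    have := hq.pos
    omega
  have hA := Cfsg.Agent.Lib.JordanPrimeCycle.alternatingGroup_le_of_cycle hprim hcyc (by rwa [hsupp])
    (by rwa [hsupp]) (⟨a, rfl⟩ : φ a ∈ φ.range)
  have h1 : Nat.card (alternatingGroup Ω) ≤ Nat.card φ.range := Nat.card_mono (Set.toFinite _) hA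
  have h2 : Nat.card φ.range ≤ Nat.card G := by
    apply Nat.card_le_card_of_surjective ψ hψ
  have hnt : Nontrivial Ω := by
    rw [← Finite.one_lt_card_iff_nontrivial]
    have := hq.two_le
    omega
  have h3 : 2 * Nat.card (alternatingGroup Ω) = (Nat.card Ω).factorial := by
    have := two_mul_card_alternatingGroup (α := Ω)
    rw [Nat.card_eq_fintype_card, Nat.card_eq_fintype_card, this, Fintype.card_perm]
  omega

/-- Maximality of a subgroup from numeric data. -/
theorem isCoatom_of_index (hG : ¬ IsMulCommutative G) (M : Subgroup G) (hM : M ≠ ⊤)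
    (hnum : ∀ d ∈ Nat.divisors M.index, d ≠ 1 → d ≠ M.index → ¬ 2 * Nat.card G ∣ d.factorial) : IsCoatom M := by
  refine ⟨hM, fun K hK => ?_⟩
  by_contra htop
  have h1 := Cfsg.Agent.Lib.SmallGroups.two_mul_card_dvd_factorial_index hG K htop
  have hdvd : K.index ∣ M.index := Subgroup.index_dvd_of_le hK.le
  have hi0 : M.index ≠ 0 := Subgroup.index_ne_zero_of_finite
  refine hnum K.index (Nat.mem_divisors.2 ⟨hdvd, hi0⟩) ?_ ?_ h1
  · intro h
    exact htop (Subgroup.index_eq_one.1 h)
  · intro h
    have h2 := Subgroup.relIndex_mul_index hK.le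
    rw [h] at h2
    have h3 : M.relIndex K = 1 := by
      have hpos : 0 < M.index := Nat.pos_of_ne_zero hi0
      exact Nat.eq_of_mul_eq_mul_right hpos (by rw [h2, one_mul])
    have h4 : K ≤ M := Subgroup.relIndex_eq_one.1 h3
    exact absurd (le_antisymm hK.le h4) hK.ne

end Simple

end Cfsg.Agent.Lib.OrdR3640C
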