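import Mathlib
import Cfsg.Agent.Lib.OrdR3640C
import Cfsg.Agent.Lib.DefectTwo
import Cfsg.Agent.S1001
import Cfsg.Agent.S1010

/-!
# Exclusion of some special orders in the range 3640 < |G| ≤ 6232: Sylow subgroups of prime order
-/

set_option autoImplicit false
set_option linter.style.haveILetI false

namespace Cfsg.Agent.Lib.OrdR3640D

open Subgroup Cfsg.Agent.Lib.SmallGroups2 Cfsg.Agent.Lib.TwoLocal Cfsg.Agent.Lib.TwoLocal2 Cfsg.Agent.Lib.TwoLocal3
open Cfsg.Agent.Lib.OrdR3640A Cfsg.Agent.Lib.OrdR3640C

variable {G : Type*} [Group G] [Finite G] [IsSimpleGroup G]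

theorem card_eq_mul_relIndex {H K : Subgroup G} (hle : H ≤ K) : Nat.card K = Nat.card H * H.relIndex K := by
  have h1 := Subgroup.card_mul_index (H.subgroupOf K)
  have h2 : Nat.card ↥(H.subgroupOf K) = Nat.card H := Nat.card_congr (Subgroup.subgroupOfEquivOfLe hle).toEquiv
  rw [h2] at h1
  exact h1.symm

theorem exists_comm {p q k : ℕ} [Fact p.Prime] [Fact q.Prime] (P : Sylow p G) (hP : Nat.card (P : Subgroup G) = p)
    (hk : Nat.card (normalizer ((P : Subgroup G) : Set G)) = p * k)
    (he : ∀ e ∈ Nat.divisors (p - 1), e ∣ k → q ∣ k / e) :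
    ∃ c ∈ centralizer ((P : Subgroup G) : Set G), orderOf c = q :=
  exists_commuting P hP hk (fun e h1 h2 =>
    he e (Nat.mem_divisors.2 ⟨h1, by have := (Fact.out : p.Prime).two_le; omega⟩) h2)

/-- `3780 = 2² 3³ 5 7`. -/
theorem ne_3780 (hG : ¬ IsMulCommutative G) : Nat.card G ≠ 3780 := by
  intro h
  haveI f7 : Fact (Nat.Prime 7) := ⟨by norm_num⟩
  haveI f5 : Fact (Nat.Prime 5) := ⟨by norm_num⟩
  have h7 : Nat.card G = 7 * 540 := h
  have h5 : Nat.card G = 5 * 756 := h
  have c7 := card_sylow_mem_candidates hG h7 (by norm_num)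
  have c5 := card_sylow_mem_candidates hG h5 (by norm_num)
  have e7 : sylowCandidates 7 540 = {15, 36} := by decide +kernel
  have e5 : sylowCandidates 5 756 = {6, 21, 126} := by decide +kernel
  rw [e7] at c7
  rw [e5] at c5
  simp only [Finset.mem_insert, Finset.mem_singleton] at c7 c5
  rcases c7 with n7 | n7
  · exact not_card_sylow_of_third hG h7 (by norm_num) (by norm_num) n7 (by decide +kernel)
  · obtain ⟨P⟩ := (inferInstance : Nonempty (Sylow 7 G))
    have hN := card_normalizer_eq h7 n7 (k := 15) (by norm_num) P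
    obtain ⟨c, hc, ho⟩ := exists_comm (q := 5) P (sylow_card_prime h7 (by norm_num) P) hN (by decide +kernel)
    have hno := not_dvd_card_sylow_of_commuting h7 (by norm_num) h5 (by norm_num) P hc ho
    rcases c5 with n5 | n5 | n5
    · have := two_mul_card_dvd_factorial_card_sylow hG (p := 5) ⟨756, h5⟩
      rw [n5, h] at this
      revert this
      decide +kernel
    · rw [n5] at hno
      exact hno (by norm_num)
    · rw [n5] at hno
      exact hno (by norm_num)

/-- `4480 = 2⁷ 5 7`. -/
theorem ne_4480 (hG : ¬ IsMulCommutative G) : Nat.card G ≠ 4480 := by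
  intro h
  haveI f7 : Fact (Nat.Prime 7) := ⟨by norm_num⟩
  haveI f5 : Fact (Nat.Prime 5) := ⟨by norm_num⟩
  have h7 : Nat.card G = 7 * 640 := h
  have h5 : Nat.card G = 5 * 896 := h
  have c7 := card_sylow_mem_candidates hG h7 (by norm_num)
  have c5 := card_sylow_mem_candidates hG h5 (by norm_num)
  have e7 : sylowCandidates 7 640 = {8, 64} := by decide +kernel
  have e5 : sylowCandidates 5 896 = {16, 56} := by decide +kernel
  rw [e7] at c7
  rw [e5] at c5
  simp only [Finset.mem_insert, Finset.mem_singleton] at c7 c5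
  rcases c7 with n7 | n7
  · have := two_mul_card_dvd_factorial_card_sylow hG (p := 7) ⟨640, h7⟩
    rw [n7, h] at this
    revert this
    decide +kernel
  · obtain ⟨P⟩ := (inferInstance : Nonempty (Sylow 7 G))
    have hN := card_normalizer_eq h7 n7 (k := 10) (by norm_num) P
    obtain ⟨c, hc, ho⟩ := exists_comm (q := 5) P (sylow_card_prime h7 (by norm_num) P) hN (by decide +kernel)
    have hno := not_dvd_card_sylow_of_commuting h7 (by norm_num) h5 (by norm_num) P hc ho
    rcases c5 with n5 | n5
    · exact not_card_sylow_of_third hG h5 (by norm_num) (by norm_num) n5 (by decide +kernel)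
    · rw [n5] at hno
      exact hno (by norm_num)

/-- `4536 = 2³ 3⁴ 7`. -/
theorem ne_4536 (hG : ¬ IsMulCommutative G) : Nat.card G ≠ 4536 := by
  intro h
  haveI f7 : Fact (Nat.Prime 7) := ⟨by norm_num⟩
  have h7 : Nat.card G = 7 * 648 := h
  have c7 := card_sylow_mem_candidates hG h7 (by norm_num)
  have e7 : sylowCandidates 7 648 = {8, 36, 162} := by decide +kernel
  rw [e7] at c7
  simp only [Finset.mem_insert, Finset.mem_singleton] at c7
  obtain ⟨P⟩ := (inferInstance : Nonempty (Sylow 7 G))
  have hP := sylow_card_prime h7 (by norm_num) P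
  -- self-centralizing
  have hC : Nat.card (centralizer ((P : Subgroup G) : Set G)) = 7 := by
    haveI : Fact (Nat.card (P : Subgroup G)).Prime := by rw [hP]; exact f7
    obtain ⟨x, hxo⟩ := exists_prime_orderOf_dvd_card' (G := (P : Subgroup G)) 7 (by rw [hP])
    have hxo' : orderOf (x : G) = 7 := by rwa [Subgroup.orderOf_coe]
    have h1 := Cfsg.Agent.S1001.result (G := G) 7 4 3 (by norm_num) (by rw [h]; norm_num) (x : G) hxo'
    have h2 : centralizer ((P : Subgroup G) : Set G) ≤ centralizer ({(x : G)} : Set G) := by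
      apply Subgroup.centralizer_le
      intro y hy
      rw [Set.mem_singleton_iff.1 hy]
      exact x.2
    rw [h1] at h2
    have h3 := Subgroup.card_dvd_of_le h2
    rw [Nat.card_zpowers, hxo'] at h3
    have h4 : (P : Subgroup G) ≤ centralizer ((P : Subgroup G) : Set G) := le_centralizer_of_card_prime Fact.out hP
    have h5 := Subgroup.card_dvd_of_le h4
    rw [hP] at h5
    exact Nat.dvd_antisymm h3 h5
  have hr := relIndex_dvd_of_prime_card P hP
  have hle : centralizer ((P : Subgroup G) : Set G) ≤ normalizer ((P : Subgroup G) : Set G) :=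
    Subgroup.centralizer_le_normalizer _
  have hm := card_eq_mul_relIndex hle
  rw [hC] at hm
  set e := (centralizer ((P : Subgroup G) : Set G)).relIndex (normalizer ((P : Subgroup G) : Set G)) with he
  rcases c7 with n7 | n7 | n7
  · have hN := card_normalizer_eq h7 n7 (k := 81) (by norm_num) P
    have h1 : e = 81 := by omega
    rw [h1] at hr
    exact absurd hr (by norm_num)
  · have hN := card_normalizer_eq h7 n7 (k := 18) (by norm_num) P
    have h1 : e = 18 := by omega
    rw [h1] at hr
    exact absurd hr (by norm_num)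
  · have hN := card_normalizer_eq h7 n7 (k := 4) (by norm_num) P
    have h1 : e = 4 := by omega
    rw [h1] at hr
    exact absurd hr (by norm_num)

/-- `4725 = 3³ 5² 7`. -/
theorem ne_4725 (hG : ¬ IsMulCommutative G) : Nat.card G ≠ 4725 := by
  intro h
  haveI f5 : Fact (Nat.Prime 5) := ⟨by norm_num⟩
  have h5 : Nat.card G = 5 ^ 2 * 189 := h
  have hd := card_sylow_dvd h5 (by norm_num)
  have hmod := card_sylow_mod (p := 5) (G := G)
  have hne := card_sylow_ne_one hG (p := 5) ⟨5 * 189, by rw [h5]; ring⟩
  have hne21 := Cfsg.Agent.S1010.result (G := G)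
  have key : ∀ k ∈ Nat.divisors 189, k % 5 = 1 % 5 → k ≠ 1 → k ≠ 21 → False := by decide +kernel
  exact key _ (Nat.mem_divisors.2 ⟨hd, by norm_num⟩) hmod hne hne21

/-- `4620 = 2² 3 5 7 11`. -/
theorem ne_4620 (hG : ¬ IsMulCommutative G) : Nat.card G ≠ 4620 := by
  intro h
  haveI f11 : Fact (Nat.Prime 11) := ⟨by norm_num⟩
  haveI f7 : Fact (Nat.Prime 7) := ⟨by norm_num⟩
  haveI f5 : Fact (Nat.Prime 5) := ⟨by norm_num⟩
  have h11 : Nat.card G = 11 * 420 := h
  have h7 : Nat.card G = 7 * 660 := h
  have h5 : Nat.card G = 5 * 924 := h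
  have c11 := card_sylow_mem_candidates hG h11 (by norm_num)
  have c7 := card_sylow_mem_candidates hG h7 (by norm_num)
  have c5 := card_sylow_mem_candidates hG h5 (by norm_num)
  have e11 : sylowCandidates 11 420 = {12, 210} := by decide +kernel
  have e7 : sylowCandidates 7 660 = {15, 22, 330} := by decide +kernel
  have e5 : sylowCandidates 5 924 = {6, 11, 21, 66, 231} := by decide +kernel
  rw [e11] at c11
  rw [e7] at c7
  rw [e5] at c5
  simp only [Finset.mem_insert, Finset.mem_singleton] at c11 c7 c5
  have n11 : Nat.card (Sylow 11 G) = 210 := by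
    rcases c11 with n | n
    · exact (not_card_sylow_of_third hG h11 (by norm_num) (by norm_num) n (by decide +kernel)).elim
    · exact n
  have n7 : Nat.card (Sylow 7 G) = 330 := by
    rcases c7 with n | n | n
    · exact (not_card_sylow_of_third hG h7 (by norm_num) (by norm_num) n (by decide +kernel)).elim
    · exact (not_card_sylow_of_third hG h7 (by norm_num) (by norm_num) n (by decide +kernel)).elim
    · exact n
  rcases c5 with n5 | n5 | n5 | n5 | n5
  · have := two_mul_card_dvd_factorial_card_sylow hG (p := 5) ⟨924, h5⟩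
    rw [n5, h] at this
    revert this
    decide +kernel
  · exact not_card_sylow_of_third hG h5 (by norm_num) (by norm_num) n5 (by decide +kernel)
  · exact Cfsg.Agent.S1010.result (G := G) n5
  · obtain ⟨P⟩ := (inferInstance : Nonempty (Sylow 5 G))
    have hN := card_normalizer_eq h5 n5 (k := 14) (by norm_num) P
    obtain ⟨c, hc, ho⟩ := exists_comm (q := 7) P (sylow_card_prime h5 (by norm_num) P) hN (by decide +kernel)
    have hno := not_dvd_card_sylow_of_commuting h5 (by norm_num) h7 (by norm_num) P hc ho
    rw [n7] at hno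
    exact hno (by norm_num)
  · have := count_three_sylow (r := 11) (s := 7) (t := 5) (by norm_num) (by norm_num) (by norm_num) h11 (by norm_num) h7 (by norm_num) h5 (by norm_num)
    rw [n11, n7, n5, h] at this
    omega

end Cfsg.Agent.Lib.OrdR3640D
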