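import Mathlib
import Cfsg.Agent.Lib.OrdR3640D
import Cfsg.Agent.Lib.KleinSylow
import Cfsg.Agent.Lib.KleinTools
import Cfsg.Agent.Lib.KleinGroup
import Cfsg.Agent.Lib.DefectTwo2
import Cfsg.Agent.S0992
import Cfsg.Agent.Lib.Small168

/-!
# The order 5460 in the range 3640 < |G| ≤ 6232, and the Klein four-group tools
-/

set_option autoImplicit false
set_option linter.style.haveILetI false

namespace Cfsg.Agent.Lib.OrdR3640E

open Subgroup Cfsg.Agent.Lib.SmallGroups2 Cfsg.Agent.Lib.TwoLocal Cfsg.Agent.Lib.TwoLocal2 Cfsg.Agent.Lib.TwoLocal3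
open Cfsg.Agent.Lib.OrdR3640A Cfsg.Agent.Lib.OrdR3640C Cfsg.Agent.Lib.OrdR3640D

variable {G : Type*} [Group G] [Finite G] [IsSimpleGroup G]

/-- All involutions of a simple group of order `≡ 4 mod 8` are conjugate. -/
theorem invol_conj (hG : ¬ IsMulCommutative G) (h2 : Even (Nat.card G)) (h8 : ¬ 8 ∣ Nat.card G) {s t : G}
    (hs : orderOf s = 2) (ht : orderOf t = 2) : IsConj s t := by
  haveI : Fact (Nat.Prime 2) := ⟨Nat.prime_two⟩
  obtain ⟨T⟩ : Nonempty (Sylow 2 G) := inferInstance
  have hK := (Cfsg.Agent.S0992.result hG h2 h8 T).1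
  have hT4 : Nat.card (T : Subgroup G) = 4 := IsKleinFour.card_four
  have hc1 : Nat.card {C : ConjClasses G // ∃ t : G, orderOf t = 2 ∧ ConjClasses.mk t = C} = 1 := by
    rcases Cfsg.Agent.Lib.KleinSylow.card_classes_eq T hK with h | h
    · exact h
    · exfalso
      obtain ⟨N, hN, hcomp⟩ := (Cfsg.Agent.Lib.KleinSylow.card_classes_eq_three_iff T hK).1 h
      have hmul := hcomp.card_mul
      rcases hN.eq_bot_or_eq_top with rfl | rfl
      · have hP : (T : Subgroup G) = ⊤ := Subgroup.isComplement'_bot_left.1 hcomp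
        refine sylow_not_normal hG (p := 2) h2.two_dvd T ?_
        rw [hP]
        infer_instance
      · rw [Subgroup.card_top, hT4] at hmul
        have h0 : 0 < Nat.card G := Nat.card_pos
        omega
  have hss : Subsingleton {C : ConjClasses G // ∃ t : G, orderOf t = 2 ∧ ConjClasses.mk t = C} :=
    (Nat.card_eq_one_iff_unique.1 hc1).1
  have h3 := Subsingleton.elim (⟨ConjClasses.mk s, s, hs, rfl⟩ : {C : ConjClasses G // ∃ t : G, orderOf t = 2 ∧ ConjClasses.mk t = C})
    ⟨ConjClasses.mk t, t, ht, rfl⟩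
  exact ConjClasses.mk_eq_mk_iff_isConj.1 (congrArg Subtype.val h3)

/-- In a normalizer of a subgroup of odd prime order, a Klein four-subgroup contains an involution centralizing
the subgroup. -/
theorem exists_invol_centralizing (hG : ¬ IsMulCommutative G) (h2 : Even (Nat.card G)) (h8 : ¬ 8 ∣ Nat.card G) {q : ℕ}
    (hq : q.Prime) (hq2 : q ≠ 2) (Q : Subgroup G) (hQ : Nat.card Q = q) (h4 : 4 ∣ Nat.card (normalizer (Q : Set G))) :
    ∃ c : G, orderOf c = 2 ∧ c ∈ centralizer (Q : Set G) ∧ 4 ∣ Nat.card (centralizer ({c} : Set G)) := by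
  classical
  haveI : Fact (Nat.Prime 2) := ⟨Nat.prime_two⟩
  obtain ⟨S, hS, hcS⟩ := exists_subgroup_le_card (normalizer (Q : Set G)) (q := 2) (a := 2) (by simpa using h4)
  have hpg : IsPGroup 2 S := IsPGroup.of_card hcS
  obtain ⟨T, hST⟩ := hpg.exists_le_sylow
  have hK := (Cfsg.Agent.S0992.result hG h2 h8 T).1
  have hT4 : Nat.card (T : Subgroup G) = 4 := IsKleinFour.card_four
  have hSeq : S = T := Subgroup.eq_of_le_of_card_ge hST (by rw [hT4, hcS]; norm_num)
  have hTN : (T : Subgroup G) ≤ normalizer (Q : Set G) := hSeq ▸ hS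
  obtain ⟨a, b, c, ha, hb, hc, ha1, hb1, hc1, -, -, -, hcab, -⟩ := Cfsg.Agent.Lib.KleinSylow.exists_abc T hK
  have hsq : ∀ y ∈ (T : Subgroup G), y ^ 2 = 1 := fun y hy => Cfsg.Agent.Lib.KleinTools.pow_two_of_mem_klein hK hy
  have hord : ∀ y ∈ (T : Subgroup G), y ≠ 1 → orderOf y = 2 := by
    intro y hy hy1
    haveI : Fact (Nat.Prime 2) := ⟨Nat.prime_two⟩
    exact orderOf_eq_prime (hsq y hy) hy1
  have hcent : ∀ y ∈ (T : Subgroup G), 4 ∣ Nat.card (centralizer ({y} : Set G)) := by
    intro y hy
    have hle : (T : Subgroup G) ≤ centralizer ({y} : Set G) := by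
      intro x hx
      rw [mem_centralizer_singleton_iff]
      haveI := hK
      exact Cfsg.Agent.Lib.KleinGroup.klein_comm hx hy
    have := Subgroup.card_dvd_of_le hle
    rwa [hT4] at this
  by_cases haC : a ∈ centralizer (Q : Set G)
  · exact ⟨a, hord a ha ha1, haC, hcent a ha⟩
  by_cases hbC : b ∈ centralizer (Q : Set G)
  · exact ⟨b, hord b hb hb1, hbC, hcent b hb⟩
  refine ⟨c, hord c hc hc1, ?_, hcent c hc⟩
  rw [mem_centralizer_iff]
  intro u hu
  have h1 := inverts_of_mem_normalizer hq hq2 hQ (hTN ha) (hsq a ha) haC hu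
  have h3 := inverts_of_mem_normalizer hq hq2 hQ (hTN hb) (hsq b hb) hbC hu
  have h5 : c * u * c⁻¹ = u := by
    rw [hcab, mul_inv_rev]
    calc a * b * u * (b⁻¹ * a⁻¹) = a * (b * u * b⁻¹) * a⁻¹ := by group
      _ = a * u⁻¹ * a⁻¹ := by rw [h3]
      _ = (a * u * a⁻¹)⁻¹ := by group
      _ = u := by rw [h1, inv_inv]
  calc u * c = c * u * c⁻¹ * c := by rw [h5]
    _ = c * u := by group

/-- `5460 = 2² 3 5 7 13`. -/
theorem ne_5460 (hG : ¬ IsMulCommutative G) : Nat.card G ≠ 5460 := by
  intro h
  haveI f13 : Fact (Nat.Prime 13) := ⟨by norm_num⟩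
  haveI f7 : Fact (Nat.Prime 7) := ⟨by norm_num⟩
  haveI f5 : Fact (Nat.Prime 5) := ⟨by norm_num⟩
  haveI f3 : Fact (Nat.Prime 3) := ⟨by norm_num⟩
  have h13 : Nat.card G = 13 * 420 := h
  have h7 : Nat.card G = 7 * 780 := h
  have h5 : Nat.card G = 5 * 1092 := h
  have h3 : Nat.card G = 3 * 1820 := h
  have hev : Even (Nat.card G) := by rw [h]; decide
  have h8 : ¬ 8 ∣ Nat.card G := by rw [h]; decide
  have c13 := card_sylow_mem_candidates hG h13 (by norm_num)
  have c7 := card_sylow_mem_candidates hG h7 (by norm_num)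
  have c5 := card_sylow_mem_candidates hG h5 (by norm_num)
  have c3 := card_sylow_mem_candidates hG h3 (by norm_num)
  have e13 : sylowCandidates 13 420 = {14, 105} := by decide +kernel
  have e7 : sylowCandidates 7 780 = {15, 78, 260} := by decide +kernel
  have e5 : sylowCandidates 5 1092 = {6, 21, 26, 91, 546} := by decide +kernel
  have e3 : sylowCandidates 3 1820 = {7, 10, 13, 70, 91, 130, 910} := by decide +kernel
  rw [e13] at c13
  rw [e7] at c7
  rw [e5] at c5
  rw [e3] at c3
  simp only [Finset.mem_insert, Finset.mem_singleton] at c13 c7 c5 c3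
  have n13 : Nat.card (Sylow 13 G) = 105 := by
    rcases c13 with n | n
    · exact (not_card_sylow_of_third hG h13 (by norm_num) (by norm_num) n (by decide +kernel)).elim
    · exact n
  -- eliminate small values of `n₅`
  have c5' : Nat.card (Sylow 5 G) = 91 ∨ Nat.card (Sylow 5 G) = 546 := by
    rcases c5 with n5 | n5 | n5 | n5 | n5
    · have := two_mul_card_dvd_factorial_card_sylow hG (p := 5) ⟨1092, h5⟩
      rw [n5, h] at this
      exact absurd this (by decide +kernel)
    · exact (Cfsg.Agent.S1010.result (G := G) n5).elim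
    · exact (not_card_sylow_of_third hG h5 (by norm_num) (by norm_num) n5 (by decide +kernel)).elim
    · exact Or.inl n5
    · exact Or.inr n5
  have n7 : Nat.card (Sylow 7 G) = 260 := by
    rcases c7 with n | n | n
    · exact (not_card_sylow_of_third hG h7 (by norm_num) (by norm_num) n (by decide +kernel)).elim
    · exfalso
      obtain ⟨P⟩ := (inferInstance : Nonempty (Sylow 7 G))
      have hN := card_normalizer_eq h7 n (k := 10) (by norm_num) P
      obtain ⟨c, hc, ho⟩ := exists_comm (q := 5) P (sylow_card_prime h7 (by norm_num) P) hN (by decide +kernel)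
      have hno := not_dvd_card_sylow_of_commuting h7 (by norm_num) h5 (by norm_num) P hc ho
      rcases c5' with n5 | n5
      · rw [n5] at hno
        exact hno (by norm_num)
      · rw [n5] at hno
        exact hno (by norm_num)
    · exact n
  rcases c5' with n5 | n5
  · -- Klein four-groups in the normalizers
    obtain ⟨P5⟩ := (inferInstance : Nonempty (Sylow 5 G))
    obtain ⟨P13⟩ := (inferInstance : Nonempty (Sylow 13 G))
    have hP5 := sylow_card_prime h5 (by norm_num) P5
    have hP13 := sylow_card_prime h13 (by norm_num) P13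
    have hN5 := card_normalizer_eq h5 n5 (k := 12) (by norm_num) P5
    have hN13 := card_normalizer_eq h13 n13 (k := 4) (by norm_num) P13
    obtain ⟨b, hbo, hbC, hb4⟩ := exists_invol_centralizing hG hev h8 (q := 5) (by norm_num) (by norm_num) (P5 : Subgroup G) hP5
      (by rw [hN5]; norm_num)
    obtain ⟨c, hco, hcC, hc4⟩ := exists_invol_centralizing hG hev h8 (q := 13) (by norm_num) (by norm_num) (P13 : Subgroup G) hP13
      (by rw [hN13]; norm_num)
    have hconj := invol_conj hG hev h8 hbo hco
    have hcardC := Cfsg.Agent.Lib.DefectTwo2.card_centralizer_of_isConj hconj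
    have hb5 : 5 ∣ Nat.card (centralizer ({b} : Set G)) := by
      have hle : (P5 : Subgroup G) ≤ centralizer ({b} : Set G) := by
        intro x hx
        rw [mem_centralizer_singleton_iff]
        exact mem_centralizer_iff.1 hbC x hx
      have := Subgroup.card_dvd_of_le hle
      rwa [hP5] at this
    have hc13 : 13 ∣ Nat.card (centralizer ({c} : Set G)) := by
      have hle : (P13 : Subgroup G) ≤ centralizer ({c} : Set G) := by
        intro x hx
        rw [mem_centralizer_singleton_iff]
        exact mem_centralizer_iff.1 hcC x hx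
      have := Subgroup.card_dvd_of_le hle
      rwa [hP13] at this
    rw [hcardC] at hb5
    have hc1 : c ≠ 1 := by
      rintro rfl
      rw [orderOf_one] at hco
      omega
    obtain ⟨n, hn1, -, hn3, -, -, -⟩ := centralizer_data hG (p := 13) (by rw [h]; norm_num) ⟨420, h13⟩ P13 hP13 hc1 hcC
    set ℓ := Nat.card (centralizer ({c} : Set G)) with hℓ
    have hu : Nat.card ↥(centralizer ({c} : Set G) ⊓ normalizer ((P13 : Subgroup G) : Set G)) ∣ 52 := by
      have := Subgroup.card_dvd_of_le (inf_le_right : centralizer ({c} : Set G) ⊓ normalizer ((P13 : Subgroup G) : Set G) ≤ _)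
      rwa [hN13] at this
    have hmul := Subgroup.card_mul_index (centralizer ({c} : Set G))
    have hemb := index_embed hG hc1
    rw [h] at hmul hemb
    have hdvd : ℓ ∣ 5460 := ⟨_, hmul.symm⟩
    have hi : (centralizer ({c} : Set G)).index = 5460 / ℓ := by
      rw [← hmul]
      have hpos : 0 < ℓ := Nat.card_pos
      rw [Nat.mul_div_cancel_left _ hpos]
    rw [hi] at hemb
    have key : ∀ ℓ ∈ Nat.divisors 5460, 260 ∣ ℓ → 2 * 5460 ∣ (5460 / ℓ).factorial → ∀ u ∈ Nat.divisors 52,
        ∀ n ∈ Nat.divisors ℓ, n % 13 = 1 → ℓ = n * u → False := by decide +kernel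
    have h260 : 260 ∣ ℓ := by
      have h1 : Nat.Coprime 4 5 := by norm_num
      have h2 : Nat.Coprime (4 * 5) 13 := by norm_num
      exact h2.mul_dvd_of_dvd_of_dvd (h1.mul_dvd_of_dvd_of_dvd hc4 hb5) hc13
    have hn' : n ∣ ℓ := ⟨_, hn3⟩
    have hℓ0 : ℓ ≠ 0 := Nat.card_pos.ne'
    exact key ℓ (Nat.mem_divisors.2 ⟨hdvd, by norm_num⟩) h260 hemb _ (Nat.mem_divisors.2 ⟨hu, by norm_num⟩) n
      (Nat.mem_divisors.2 ⟨hn', hℓ0⟩) hn1 hn3
  · -- `n₅ = 546`
    have hemb3 := two_mul_card_dvd_factorial_card_sylow hG (p := 3) ⟨1820, h3⟩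
    rw [h] at hemb3
    obtain ⟨Q⟩ := (inferInstance : Nonempty (Sylow 3 G))
    have hQ := sylow_card_prime h3 (by norm_num) Q
    rcases c3 with n | n | n | n | n | n | n
    · rw [n] at hemb3
      revert hemb3
      decide +kernel
    · rw [n] at hemb3
      revert hemb3
      decide +kernel
    · exact not_card_sylow_of_third hG h3 (by norm_num) (by norm_num) n (by decide +kernel)
    · have hN := card_normalizer_eq h3 n (k := 26) (by norm_num) Q
      obtain ⟨P, hP⟩ := exists_centralizer_of_dvd (p := 13) (q := 3) h13 (by norm_num) Q hQ (by rw [hN]; norm_num) (by norm_num)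
      have h1 := card_normalizer_eq h13 n13 (k := 4) (by norm_num) P
      have h2 := Subgroup.card_dvd_of_le (hP.trans (Subgroup.centralizer_le_normalizer _))
      rw [hQ, h1] at h2
      exact absurd h2 (by norm_num)
    · have hN := card_normalizer_eq h3 n (k := 20) (by norm_num) Q
      obtain ⟨P, hP⟩ := exists_centralizer_of_dvd (p := 5) (q := 3) h5 (by norm_num) Q hQ (by rw [hN]; norm_num) (by norm_num)
      have h1 := card_normalizer_eq h5 n5 (k := 2) (by norm_num) P
      have h2 := Subgroup.card_dvd_of_le (hP.trans (Subgroup.centralizer_le_normalizer _))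
      rw [hQ, h1] at h2
      exact absurd h2 (by norm_num)
    · have hN := card_normalizer_eq h3 n (k := 14) (by norm_num) Q
      obtain ⟨P, hP⟩ := exists_centralizer_of_dvd (p := 7) (q := 3) h7 (by norm_num) Q hQ (by rw [hN]; norm_num) (by norm_num)
      have hP7 := sylow_card_prime h7 (by norm_num) P
      have h1 := card_normalizer_eq h7 n7 (k := 3) (by norm_num) P
      have h4 := Cfsg.Agent.Lib.Small168.centralizer_sylow_eq hG (by norm_num : Nat.Prime 3) P hP7 h1
      rw [h4] at hP
      have h2 := Subgroup.card_dvd_of_le hP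
      rw [hQ, hP7] at h2
      exact absurd h2 (by norm_num)
    · have := count_three_sylow (r := 7) (s := 5) (t := 3) (by norm_num) (by norm_num) (by norm_num) h7 (by norm_num) h5 (by norm_num) h3 (by norm_num)
      rw [n7, n5, n, h] at this
      omega

end Cfsg.Agent.Lib.OrdR3640E
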