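import Mathlib
import Cfsg.Agent.Lib.OrdR3640D
import Cfsg.Agent.Lib.DefectTwo

/-!
# Orders in the range 3640 < |G| ≤ 6232 with a Sylow subgroup of order `p²`, `p³`
-/

set_option autoImplicit false
set_option linter.style.haveILetI false

namespace Cfsg.Agent.Lib.OrdR3640F

open Subgroup Cfsg.Agent.Lib.SmallGroups2 Cfsg.Agent.Lib.TwoLocal Cfsg.Agent.Lib.TwoLocal2 Cfsg.Agent.Lib.TwoLocal3
open Cfsg.Agent.Lib.OrdR3640A Cfsg.Agent.Lib.OrdR3640C Cfsg.Agent.Lib.OrdR3640D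

variable {G : Type*} [Group G] [Finite G]

/-- A pair of Sylow subgroups of order `p²` meeting in a subgroup of order `p`. -/
theorem exists_central_pair {p m : ℕ} [Fact p.Prime] (h : Nat.card G = p ^ 2 * m) (hm : ¬ p ∣ m)
    (hn : ¬ Nat.card (Sylow p G) ≡ 1 [MOD p ^ 2]) :
    ∃ (P R : Sylow p G) (a : G), P ≠ R ∧ orderOf a = p ∧ a ∈ (P : Subgroup G) ∧ a ∈ (R : Subgroup G) ∧
      (P : Subgroup G) ≤ centralizer ({a} : Set G) ∧ (R : Subgroup G) ≤ centralizer ({a} : Set G) ∧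
      Nat.card (P : Subgroup G) = p ^ 2 := by
  have hpp : p.Prime := Fact.out
  obtain ⟨P, R, hne, hD⟩ := exists_pair h hm (by norm_num) hn
  have hD' : Nat.card ↥((P : Subgroup G) ⊓ (R : Subgroup G)) = p := by
    rw [pow_two] at hD
    exact Nat.eq_of_mul_eq_mul_right hpp.pos hD
  haveI : Fact (Nat.card ↥((P : Subgroup G) ⊓ (R : Subgroup G))).Prime := by rw [hD']; exact ⟨hpp⟩
  obtain ⟨x, hx⟩ := exists_prime_orderOf_dvd_card' (G := ↥((P : Subgroup G) ⊓ (R : Subgroup G))) p (by rw [hD'])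
  have hx' : orderOf (x : G) = p := by rwa [Subgroup.orderOf_coe]
  have hcP := sylow_card_of_card_eq h hm P
  have hcR := sylow_card_of_card_eq h hm R
  exact ⟨P, R, x, hne, hx', x.2.1, x.2.2, le_centralizer_of_sq _ hcP x.2.1, le_centralizer_of_sq _ hcR x.2.2, hcP⟩

/-- `M` of order `2 w` containing two distinct Sylow subgroups. -/
theorem no_two_mul {p w : ℕ} [Fact p.Prime] (hp2 : p ≠ 2) (M : Subgroup G) (P R : Sylow p G) (hP : (P : Subgroup G) ≤ M)
    (hR : (R : Subgroup G) ≤ M) (hne : P ≠ R) (hc : Nat.card M = 2 * w) (hw : ¬ 2 ∣ w) :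
    ∃ n, n % p = 1 ∧ n ≠ 1 ∧ n * Nat.card (P : Subgroup G) ∣ w := by
  have hne' : P.subtype hP ≠ R.subtype hR := by
    intro h2
    have h3 : (P : Subgroup G).subgroupOf M = (R : Subgroup G).subgroupOf M := by
      have := congrArg (fun S : Sylow p M => (S : Subgroup M)) h2
      simpa [Sylow.coe_subtype] using this
    have h4 : (P : Subgroup G) = R := by
      have := Subgroup.subgroupOf_inj.1 h3
      rwa [inf_eq_left.2 hP, inf_eq_left.2 hR] at this
    exact hne (Sylow.ext h4)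
  obtain ⟨n, h1, h2, h3⟩ := two_mul_data hp2 hc hw (P.subtype hP) (R.subtype hR) hne'
  refine ⟨n, h1, h2, ?_⟩
  have h4 : Nat.card ((P.subtype hP : Sylow p M) : Subgroup M) = Nat.card (P : Subgroup G) := by
    rw [Sylow.coe_subtype]
    exact Nat.card_congr (Subgroup.subgroupOfEquivOfLe hP).toEquiv
  rwa [h4] at h3

/-- The number of fixed and moved points. -/
theorem card_moved_add {Ω : Type*} [MulAction G Ω] [Finite Ω] (a : G) :
    Nat.card {x : Ω // a • x ≠ x} + Nat.card (MulAction.fixedBy Ω a) = Nat.card Ω := by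
  classical
  haveI := Fintype.ofFinite Ω
  have h1 : Nat.card (MulAction.fixedBy Ω a) = Nat.card {x : Ω // a • x = x} := rfl
  rw [h1]
  simp only [Nat.card_eq_fintype_card]
  have h2 := Fintype.card_subtype_compl (fun x : Ω => a • x = x)
  have h3 := Fintype.card_subtype_le (fun x : Ω => a • x = x)
  have h4 : Fintype.card {x : Ω // a • x ≠ x} = Fintype.card {x : Ω // ¬ a • x = x} := rfl
  omega

omit [Finite G] in
theorem preprimitive_quotient (M : Subgroup G) (hM : IsCoatom M) : MulAction.IsPreprimitive G (G ⧸ M) := by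
  haveI : Nontrivial (G ⧸ M) := QuotientGroup.nontrivial_iff.2 hM.1
  rw [← MulAction.isCoatom_stabilizer_iff_preprimitive G ((1 : G) : G ⧸ M)]
  rw [MulAction.stabilizer_quotient]
  exact hM

variable [IsSimpleGroup G]

/-- Numerical consequence of the lattice data for `|N(P)| = 2 p`. -/
theorem lat_two (hG : ¬ IsMulCommutative G) {p m : ℕ} [Fact p.Prime] (h : Nat.card G = p * m) (hm : ¬ p ∣ m)
    (hn : Nat.card (Sylow p G) * 2 = m) (hp5 : 5 ≤ p) (hm0 : m ≠ 0)
    (hnum : ∀ x₁ ∈ Nat.divisors m, ∀ x₀ ∈ Nat.divisors m, ∀ w₁ ∈ ({1, -1} : Finset ℤ), ∀ σ ∈ ({1, -1} : Finset ℤ),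
      2 ≤ x₁ → 2 ≤ x₀ → -1 + w₁ * x₁ + σ * x₀ = 0 → (x₁ : ℤ) % p = (- w₁) % p → (x₀ : ℤ) % p = (2 * σ) % p → False) :
    False := by
  classical
  haveI := Fintype.ofFinite G
  have hpp : p.Prime := Fact.out
  obtain ⟨P⟩ : Nonempty (Sylow p G) := inferInstance
  obtain ⟨H, hN⟩ := Cfsg.Agent.Lib.DefectOne.hyp_of_sylow hG Nat.prime_two h hm hn P
  obtain ⟨f, i₁, B, w₁, σ, x₁, x₀, -, hw₁, hσ, hi₁, hB, h1, h0, hd1, hd0, -, heq, c1, c0⟩ :=
    Cfsg.Agent.Lib.DefectTwo.exists_data_two H hN hp5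
  have hnd : ∀ c : ℤ, (c = 1 ∨ c = -1 ∨ c = 2 ∨ c = -2) → ¬ (p : ℤ) ∣ c := by
    intro c hc hdvd
    have h1 : (p : ℤ) ≤ |c| := Int.le_of_dvd (by rcases hc with rfl | rfl | rfl | rfl <;> norm_num) (by rwa [dvd_abs])
    have h5 : (5 : ℤ) ≤ p := by exact_mod_cast hp5
    rcases hc with rfl | rfl | rfl | rfl <;> norm_num at h1 <;> omega
  have hx1 : x₁ ∣ m := by
    apply Cfsg.Agent.Lib.DefectOne.dvd_of_modEq hpp (by rw [← h]; exact Cfsg.Agent.Lib.DefectOne.degree_dvd i₁ hd1) c1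
    apply hnd
    rcases hw₁ with h | h <;> rw [h] <;> simp
  have hx0 : x₀ ∣ m := by
    apply Cfsg.Agent.Lib.DefectOne.dvd_of_modEq hpp (by rw [← h]; exact Cfsg.Agent.Lib.DefectOne.degree_dvd B hd0) c0
    apply hnd
    rcases hσ with h | h <;> rw [h] <;> simp
  have hne1 := Cfsg.Agent.Lib.DefectOne.degree_ne_one hG hi₁ hd1
  have hne0 := Cfsg.Agent.Lib.DefectOne.degree_ne_one hG hB hd0
  refine hnum x₁ (Nat.mem_divisors.2 ⟨hx1, hm0⟩) x₀ (Nat.mem_divisors.2 ⟨hx0, hm0⟩) w₁ ?_ σ ?_ (by omega) (by omega) heq c1 c0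
  · simpa using hw₁
  · simpa using hσ

/-- `4200 = 2³ 3 5² 7`. -/
theorem ne_4200 (hG : ¬ IsMulCommutative G) : Nat.card G ≠ 4200 := by
  intro h
  haveI f7 : Fact (Nat.Prime 7) := ⟨by norm_num⟩
  haveI f5 : Fact (Nat.Prime 5) := ⟨by norm_num⟩
  have h7 : Nat.card G = 7 * 600 := h
  have h5 : Nat.card G = 5 ^ 2 * 168 := h
  have c7 := card_sylow_mem_candidates hG h7 (by norm_num)
  have e7 : sylowCandidates 7 600 = {8, 15, 50} := by decide +kernel
  rw [e7] at c7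
  simp only [Finset.mem_insert, Finset.mem_singleton] at c7
  have n7 : Nat.card (Sylow 7 G) = 50 := by
    rcases c7 with n | n | n
    · have := two_mul_card_dvd_factorial_card_sylow hG (p := 7) ⟨600, h7⟩
      rw [n, h] at this
      exact absurd this (by decide +kernel)
    · exact (not_card_sylow_of_third hG h7 (by norm_num) (by norm_num) n (by decide +kernel)).elim
    · exact n
  obtain ⟨P7⟩ := (inferInstance : Nonempty (Sylow 7 G))
  have hP7 := sylow_card_prime h7 (by norm_num) P7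
  have hN7 := card_normalizer_eq h7 n7 (k := 12) (by norm_num) P7
  haveI f2 : Fact (Nat.Prime 2) := ⟨by norm_num⟩
  obtain ⟨t, htC, hto⟩ := exists_comm (q := 2) P7 hP7 hN7 (by decide +kernel)
  haveI : Fact (Nat.card (P7 : Subgroup G)).Prime := by rw [hP7]; exact f7
  obtain ⟨x, hxo⟩ := exists_prime_orderOf_dvd_card' (G := (P7 : Subgroup G)) 7 (by rw [hP7])
  have hxo' : orderOf (x : G) = 7 := by rwa [Subgroup.orderOf_coe]
  have htx : t * (x : G) = (x : G) * t := (mem_centralizer_iff.1 htC x x.2).symm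
  -- Sylow 5
  have hd := card_sylow_dvd h5 (by norm_num)
  have hmod := card_sylow_mod (p := 5) (G := G)
  have hne := card_sylow_ne_one hG (p := 5) ⟨5 * 168, by rw [h5]; ring⟩
  have key : ∀ k ∈ Nat.divisors 168, k % 5 = 1 % 5 → k ≠ 1 → k % 5 ^ 2 ≠ 1 % 5 ^ 2 := by decide +kernel
  have hnm := key _ (Nat.mem_divisors.2 ⟨hd, by norm_num⟩) hmod hne
  obtain ⟨P, R, a, hPR, hao, -, -, hPC, hRC, hcP⟩ := exists_central_pair h5 (by norm_num) hnm
  have ha1 : a ≠ 1 := by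
    rintro rfl
    rw [orderOf_one] at hao
    omega
  set M := centralizer ({a} : Set G) with hM
  obtain ⟨-, -, hdata⟩ := sylow_pair_data M P R hPC hRC hPR
  obtain ⟨h1, h2, -⟩ := sylow_pair_data M P R hPC hRC hPR
  rw [hcP] at hdata
  have hmul := Subgroup.card_mul_index M
  have hemb := index_embed hG ha1
  rw [h] at hmul hemb
  set ℓ := Nat.card M with hℓ
  have hdvd : ℓ ∣ 4200 := ⟨_, hmul.symm⟩
  have hpos : 0 < ℓ := Nat.card_pos
  have hi : M.index = 4200 / ℓ := by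
    rw [← hmul, Nat.mul_div_cancel_left _ hpos]
  rw [← hM, hi] at hemb
  have key2 : ∀ ℓ ∈ Nat.divisors 4200, ∀ n ∈ Nat.divisors ℓ, n % 5 = 1 → n ≠ 1 → n * 5 ^ 2 ∣ ℓ →
      2 * 4200 ∣ (4200 / ℓ).factorial → ℓ = 150 ∨ ℓ = 300 := by decide +kernel
  rcases key2 ℓ (Nat.mem_divisors.2 ⟨hdvd, by norm_num⟩) _ (Nat.mem_divisors.2 ⟨(Dvd.intro _ rfl).trans hdata, hpos.ne'⟩)
    h1 h2 hdata hemb with h3 | h3
  · obtain ⟨n, hn1, hn2, hn3⟩ := no_two_mul (by norm_num) M P R hPC hRC hPR (w := 75) (by rw [← hℓ, h3]) (by norm_num)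
    rw [hcP] at hn3
    have key3 : ∀ n ∈ Nat.divisors 75, n % 5 = 1 → n ≠ 1 → n * 5 ^ 2 ∣ 75 → False := by decide +kernel
    exact key3 n (Nat.mem_divisors.2 ⟨(Dvd.intro _ rfl).trans hn3, by norm_num⟩) hn1 hn2 hn3
  · have hi2 : M.index = 14 := by rw [hi, h3]
    refine parity_false hG (p := 7) (by norm_num) M hi2 ?_ hxo' hto htx
    rw [← hℓ, h3]
    norm_num

/-- `5600 = 2⁵ 5² 7`. -/
theorem ne_5600 (hG : ¬ IsMulCommutative G) : Nat.card G ≠ 5600 := by
  intro h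
  haveI f7 : Fact (Nat.Prime 7) := ⟨by norm_num⟩
  haveI f5 : Fact (Nat.Prime 5) := ⟨by norm_num⟩
  have h7 : Nat.card G = 7 * 800 := h
  have h5 : Nat.card G = 5 ^ 2 * 224 := h
  have c7 := card_sylow_mem_candidates hG h7 (by norm_num)
  have e7 : sylowCandidates 7 800 = {8, 50, 400} := by decide +kernel
  rw [e7] at c7
  simp only [Finset.mem_insert, Finset.mem_singleton] at c7
  have n7 : Nat.card (Sylow 7 G) = 50 := by
    rcases c7 with n | n | n
    · have := two_mul_card_dvd_factorial_card_sylow hG (p := 7) ⟨800, h7⟩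
      rw [n, h] at this
      exact absurd this (by decide +kernel)
    · exact n
    · exact (lat_two hG h7 (by norm_num) (by rw [n]) (by norm_num) (by norm_num) (by decide +kernel)).elim
  obtain ⟨P7⟩ := (inferInstance : Nonempty (Sylow 7 G))
  have hP7 := sylow_card_prime h7 (by norm_num) P7
  have hN7 := card_normalizer_eq h7 n7 (k := 16) (by norm_num) P7
  haveI f2 : Fact (Nat.Prime 2) := ⟨by norm_num⟩
  obtain ⟨t, htC, hto⟩ := exists_comm (q := 2) P7 hP7 hN7 (by decide +kernel)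
  haveI : Fact (Nat.card (P7 : Subgroup G)).Prime := by rw [hP7]; exact f7
  obtain ⟨x, hxo⟩ := exists_prime_orderOf_dvd_card' (G := (P7 : Subgroup G)) 7 (by rw [hP7])
  have hxo' : orderOf (x : G) = 7 := by rwa [Subgroup.orderOf_coe]
  have htx : t * (x : G) = (x : G) * t := (mem_centralizer_iff.1 htC x x.2).symm
  -- Sylow 5
  have hd := card_sylow_dvd h5 (by norm_num)
  have hmod := card_sylow_mod (p := 5) (G := G)
  have hne := card_sylow_ne_one hG (p := 5) ⟨5 * 224, by rw [h5]; ring⟩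
  have key : ∀ k ∈ Nat.divisors 224, k % 5 = 1 % 5 → k ≠ 1 → k % 5 ^ 2 ≠ 1 % 5 ^ 2 := by decide +kernel
  have hnm := key _ (Nat.mem_divisors.2 ⟨hd, by norm_num⟩) hmod hne
  obtain ⟨P, R, a, hPR, hao, -, -, hPC, hRC, hcP⟩ := exists_central_pair h5 (by norm_num) hnm
  have ha1 : a ≠ 1 := by
    rintro rfl
    rw [orderOf_one] at hao
    omega
  set M := centralizer ({a} : Set G) with hM
  obtain ⟨h1, h2, hdata⟩ := sylow_pair_data M P R hPC hRC hPR
  rw [hcP] at hdata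
  have hmul := Subgroup.card_mul_index M
  have hemb := index_embed hG ha1
  rw [h] at hmul hemb
  set ℓ := Nat.card M with hℓ
  have hdvd : ℓ ∣ 5600 := ⟨_, hmul.symm⟩
  have hpos : 0 < ℓ := Nat.card_pos
  have hi : M.index = 5600 / ℓ := by
    rw [← hmul, Nat.mul_div_cancel_left _ hpos]
  rw [← hM, hi] at hemb
  have key2 : ∀ ℓ ∈ Nat.divisors 5600, ∀ n ∈ Nat.divisors ℓ, n % 5 = 1 → n ≠ 1 → n * 5 ^ 2 ∣ ℓ →
      2 * 5600 ∣ (5600 / ℓ).factorial → ℓ = 400 := by decide +kernel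
  have h3 := key2 ℓ (Nat.mem_divisors.2 ⟨hdvd, by norm_num⟩) _ (Nat.mem_divisors.2 ⟨(Dvd.intro _ rfl).trans hdata, hpos.ne'⟩)
    h1 h2 hdata hemb
  have hi2 : M.index = 14 := by rw [hi, h3]
  refine parity_false hG (p := 7) (by norm_num) M hi2 ?_ hxo' hto htx
  rw [← hℓ, h3]
  norm_num

/-- `6000 = 2⁴ 3 5³`. -/
theorem ne_6000 (hG : ¬ IsMulCommutative G) : Nat.card G ≠ 6000 := by
  intro h
  haveI f5 : Fact (Nat.Prime 5) := ⟨by norm_num⟩
  have h5 : Nat.card G = 5 ^ 3 * 48 := h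
  have hd := card_sylow_dvd h5 (by norm_num)
  have hmod := card_sylow_mod (p := 5) (G := G)
  have hne := card_sylow_ne_one hG (p := 5) ⟨5 ^ 2 * 48, by rw [h5]; ring⟩
  have key : ∀ k ∈ Nat.divisors 48, k % 5 = 1 % 5 → k ≠ 1 → k % 5 ^ 2 ≠ 1 % 5 ^ 2 := by decide +kernel
  have hnm := key _ (Nat.mem_divisors.2 ⟨hd, by norm_num⟩) hmod hne
  obtain ⟨P, R, hPR, hD⟩ := exists_pair h5 (by norm_num) (by norm_num) hnm
  have hcP := sylow_card_of_card_eq h5 (by norm_num) P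
  have hcR := sylow_card_of_card_eq h5 (by norm_num) R
  have hD' : Nat.card ↥((P : Subgroup G) ⊓ (R : Subgroup G)) = 25 := by omega
  set D := (P : Subgroup G) ⊓ (R : Subgroup G) with hDdef
  -- `D` has index `5` in `P` and `R`, hence is normal in them
  have hnorm : ∀ S : Sylow 5 G, D ≤ (S : Subgroup G) → Nat.card (S : Subgroup G) = 5 ^ 3 → (S : Subgroup G) ≤ normalizer (D : Set G) := by
    intro S hS hcS
    have hi : (D.subgroupOf (S : Subgroup G)).index = (Nat.card (S : Subgroup G)).minFac := by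
      have h1 := Subgroup.card_mul_index (D.subgroupOf (S : Subgroup G))
      have h2 : Nat.card ↥(D.subgroupOf (S : Subgroup G)) = 25 := by
        rw [← hD']
        exact Nat.card_congr (Subgroup.subgroupOfEquivOfLe hS).toEquiv
      rw [h2, hcS] at h1
      have h3 : (5 ^ 3 : ℕ).minFac = 5 := Nat.Prime.pow_minFac (by norm_num) (by norm_num)
      rw [hcS, h3]
      omega
    haveI := Subgroup.normal_of_index_eq_minFac_card hi
    exact Subgroup.le_normalizer_of_normal_subgroupOf hS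
  have hle1 := hnorm P inf_le_left hcP
  have hle2 := hnorm R inf_le_right hcR
  obtain ⟨h1, h2, hdata⟩ := sylow_pair_data _ P R hle1 hle2 hPR
  rw [hcP] at hdata
  have hDne : normalizer (D : Set G) ≠ ⊤ := by
    intro htop
    rw [Subgroup.normalizer_eq_top_iff] at htop
    rcases htop.eq_bot_or_eq_top with hb | ht
    · rw [hb, Subgroup.card_bot] at hD'
      omega
    · rw [ht, Subgroup.card_top, h] at hD'
      omega
  have hemb := Cfsg.Agent.Lib.SmallGroups.two_mul_card_dvd_factorial_index hG _ hDne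
  have hmul := Subgroup.card_mul_index (normalizer (D : Set G))
  rw [h] at hmul hemb
  set ℓ := Nat.card (normalizer (D : Set G)) with hℓ
  have hdvd : ℓ ∣ 6000 := ⟨_, hmul.symm⟩
  have hpos : 0 < ℓ := Nat.card_pos
  have hi : (normalizer (D : Set G)).index = 6000 / ℓ := by
    rw [← hmul, Nat.mul_div_cancel_left _ hpos]
  rw [hi] at hemb
  have key2 : ∀ ℓ ∈ Nat.divisors 6000, ∀ n ∈ Nat.divisors ℓ, n % 5 = 1 → n ≠ 1 → n * 5 ^ 3 ∣ ℓ →
      2 * 6000 ∣ (6000 / ℓ).factorial → False := by decide +kernel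
  exact key2 ℓ (Nat.mem_divisors.2 ⟨hdvd, by norm_num⟩) _ (Nat.mem_divisors.2 ⟨(Dvd.intro _ rfl).trans hdata, hpos.ne'⟩)
    h1 h2 hdata hemb

end Cfsg.Agent.Lib.OrdR3640F
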