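import Mathlib
import Cfsg.Agent.Lib.OrdR3640F

/-!
# The orders 5880 and 5400: an element acting as a cycle on a primitive set
-/

set_option autoImplicit false
set_option linter.style.haveILetI false

namespace Cfsg.Agent.Lib.OrdR3640G

open Subgroup Cfsg.Agent.Lib.SmallGroups2 Cfsg.Agent.Lib.TwoLocal Cfsg.Agent.Lib.TwoLocal2 Cfsg.Agent.Lib.TwoLocal3
open Cfsg.Agent.Lib.OrdR3640A Cfsg.Agent.Lib.OrdR3640C Cfsg.Agent.Lib.OrdR3640D Cfsg.Agent.Lib.OrdR3640F

variable {G : Type*} [Group G] [Finite G] [IsSimpleGroup G]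

/-- An element fixing all points of a set on which a point stabilizer is proper. -/
theorem eq_one_of_forall_fixed {Ω : Type*} [MulAction G Ω] (x₀ : Ω) (hne : MulAction.stabilizer G x₀ ≠ ⊤) {c : G}
    (hc : ∀ x : Ω, c • x = x) : c = 1 := by
  let φ : G →* Equiv.Perm Ω := MulAction.toPermHom G Ω
  rcases (inferInstance : IsSimpleGroup G).eq_bot_or_eq_top_of_normal φ.ker φ.normal_ker with hb | ht
  · have : c ∈ φ.ker := by
      rw [MonoidHom.mem_ker]
      exact Equiv.ext hc
    rw [hb] at this
    exact this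
  · exfalso
    apply hne
    rw [eq_top_iff]
    intro g _
    have hg : g ∈ φ.ker := by rw [ht]; trivial
    have h1 : φ g = 1 := hg
    exact congrArg (fun e : Equiv.Perm Ω => e x₀) h1

/-- `5880 = 2³ 3 5 7²`. -/
theorem ne_5880 (hG : ¬ IsMulCommutative G) : Nat.card G ≠ 5880 := by
  intro h
  classical
  haveI f7 : Fact (Nat.Prime 7) := ⟨by norm_num⟩
  have h7 : Nat.card G = 7 ^ 2 * 120 := h
  have hpd : 7 ∣ Nat.card G := ⟨7 * 120, by rw [h7]; ring⟩
  have hd := card_sylow_dvd h7 (by norm_num)
  have hmod := card_sylow_mod (p := 7) (G := G)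
  have hne := card_sylow_ne_one hG (p := 7) hpd
  have key : ∀ k ∈ Nat.divisors 120, k % 7 = 1 % 7 → k ≠ 1 → k = 8 ∨ k = 15 ∨ k = 120 := by decide +kernel
  have hk := key _ (Nat.mem_divisors.2 ⟨hd, by norm_num⟩) hmod hne
  have n7 : Nat.card (Sylow 7 G) = 15 := by
    rcases hk with n | n | n
    · have := two_mul_card_dvd_factorial_card_sylow hG (p := 7) hpd
      rw [n, h] at this
      exact absurd this (by decide +kernel)
    · exact n
    · exfalso
      obtain ⟨P⟩ := (inferInstance : Nonempty (Sylow 7 G))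
      have hcP := sylow_card_of_card_eq h7 (by norm_num) P
      have h1 := card_normalizer_mul_card_sylow P
      rw [n, h] at h1
      have h2 : Nat.card (normalizer ((P : Subgroup G) : Set G)) = 49 := by omega
      have h3 : (P : Subgroup G) = normalizer ((P : Subgroup G) : Set G) :=
        Subgroup.eq_of_le_of_card_ge Subgroup.le_normalizer (by rw [h2, hcP]; norm_num)
      apply not_normalizer_le_centralizer hG hpd P
      rw [← h3]
      intro x hx
      rw [mem_centralizer_iff]
      intro y hy
      have := le_centralizer_of_sq (P : Subgroup G) hcP hx hy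
      rw [mem_centralizer_singleton_iff] at this
      exact this
  have hnm : ¬ Nat.card (Sylow 7 G) ≡ 1 [MOD 7 ^ 2] := by
    rw [n7]
    decide
  obtain ⟨P, R, a, hPR, hao, haP, haR, -, -, -⟩ := exists_central_pair h7 (by norm_num) hnm
  have ha1 : a ≠ 1 := by
    rintro rfl
    rw [orderOf_one] at hao
    omega
  have hst : MulAction.stabilizer G P = normalizer ((P : Subgroup G) : Set G) := Sylow.stabilizer_eq_normalizer P
  have hnt := normalizer_sylow_ne_top hG hpd P
  -- fixed points of `a`
  have hfix : ∀ S : Sylow 7 G, a ∈ (S : Subgroup G) → a • S = S := fun S hS =>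
    Sylow.smul_eq_iff_mem_normalizer.2 (Subgroup.le_normalizer hS)
  set f := Nat.card (MulAction.fixedBy (Sylow 7 G) a) with hf
  have hm7 := card_fixedBy_modEq_prime (X := Sylow 7 G) hao
  rw [n7] at hm7
  have hm := card_moved_add (Ω := Sylow 7 G) a
  rw [n7] at hm
  have hf2 : 1 < f := by
    haveI : Nontrivial (MulAction.fixedBy (Sylow 7 G) a) :=
      ⟨⟨⟨P, hfix P haP⟩, ⟨R, hfix R haR⟩, fun h => hPR (congrArg Subtype.val h)⟩⟩
    exact Finite.one_lt_card
  have hf15 : f ≠ 15 := by
    intro he
    have hmv : Nat.card {x : Sylow 7 G // a • x ≠ x} = 0 := by omega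
    rw [Nat.card_eq_zero] at hmv
    rcases hmv with hmv | hmv
    · apply ha1
      apply eq_one_of_forall_fixed P (by rw [hst]; exact hnt)
      intro x
      by_contra hx
      exact hmv.false ⟨x, hx⟩
    · exact (not_finite_iff_infinite.2 hmv) inferInstance
  have hmoved : Nat.card {x : Sylow 7 G // a • x ≠ x} = 7 := by
    simp only [Nat.ModEq] at hm7
    omega
  haveI hnontriv : Nontrivial (Sylow 7 G) := ⟨⟨P, R, hPR⟩⟩
  have hidx : (normalizer ((P : Subgroup G) : Set G)).index = 15 := by
    have h1 : Nat.card (Sylow 7 G) = (normalizer ((P : Subgroup G) : Set G)).index := Sylow.card_eq_index_normalizer P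
    rw [← h1, n7]
  have hco : IsCoatom (MulAction.stabilizer G P) := by
    rw [hst]
    apply isCoatom_of_index hG _ hnt
    rw [hidx, h]
    decide +kernel
  haveI hprim : MulAction.IsPreprimitive G (Sylow 7 G) :=
    (MulAction.isCoatom_stabilizer_iff_preprimitive G P).1 hco
  refine jordan_false (Ω := Sylow 7 G) (q := 7) (by norm_num) hao hmoved (by rw [n7]; norm_num) ?_
  rw [n7, h]
  decide +kernel

/-- `5400 = 2³ 3³ 5²`. -/
theorem ne_5400 (hG : ¬ IsMulCommutative G) : Nat.card G ≠ 5400 := by
  intro h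
  classical
  haveI f5 : Fact (Nat.Prime 5) := ⟨by norm_num⟩
  haveI f3 : Fact (Nat.Prime 3) := ⟨by norm_num⟩
  have h5 : Nat.card G = 5 ^ 2 * 216 := h
  have hd := card_sylow_dvd h5 (by norm_num)
  have hmod := card_sylow_mod (p := 5) (G := G)
  have hne := card_sylow_ne_one hG (p := 5) ⟨5 * 216, by rw [h5]; ring⟩
  have key : ∀ k ∈ Nat.divisors 216, k % 5 = 1 % 5 → k ≠ 1 → k % 5 ^ 2 ≠ 1 % 5 ^ 2 := by decide +kernel
  have hnm := key _ (Nat.mem_divisors.2 ⟨hd, by norm_num⟩) hmod hne
  obtain ⟨P, R, a, hPR, hao, -, -, hPC, hRC, hcP⟩ := exists_central_pair h5 (by norm_num) hnm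
  have ha1 : a ≠ 1 := by
    rintro rfl
    rw [orderOf_one] at hao
    omega
  set M := centralizer ({a} : Set G) with hM
  obtain ⟨h1, h2, hdata⟩ := sylow_pair_data M P R hPC hRC hPR
  rw [hcP] at hdata
  have hmul := Subgroup.card_mul_index M
  have hemb := index_embed hG ha1
  rw [h] at hmul hemb
  set ℓ := Nat.card M with hℓ
  have hdvd : ℓ ∣ 5400 := ⟨_, hmul.symm⟩
  have hpos : 0 < ℓ := Nat.card_pos
  have hi : M.index = 5400 / ℓ := by
    rw [← hmul, Nat.mul_div_cancel_left _ hpos]
  rw [← hM, hi] at hemb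
  have key2 : ∀ ℓ ∈ Nat.divisors 5400, ∀ n ∈ Nat.divisors ℓ, n % 5 = 1 → n ≠ 1 → n * 5 ^ 2 ∣ ℓ →
      2 * 5400 ∣ (5400 / ℓ).factorial → ℓ = 150 ∨ ℓ = 300 ∨ ℓ = 450 := by decide +kernel
  have hcases := key2 ℓ (Nat.mem_divisors.2 ⟨hdvd, by norm_num⟩) _ (Nat.mem_divisors.2 ⟨(Dvd.intro _ rfl).trans hdata, hpos.ne'⟩)
    h1 h2 hdata hemb
  have hcM : ℓ = 300 := by
    rcases hcases with h3 | h3 | h3
    · exfalso
      obtain ⟨n, hn1, hn2, hn3⟩ := no_two_mul (by norm_num) M P R hPC hRC hPR (w := 75) (by rw [← hℓ, h3]) (by norm_num)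
      rw [hcP] at hn3
      have key3 : ∀ n ∈ Nat.divisors 75, n % 5 = 1 → n ≠ 1 → n * 5 ^ 2 ∣ 75 → False := by decide +kernel
      exact key3 n (Nat.mem_divisors.2 ⟨(Dvd.intro _ rfl).trans hn3, by norm_num⟩) hn1 hn2 hn3
    · exact h3
    · exfalso
      obtain ⟨n, hn1, hn2, hn3⟩ := no_two_mul (by norm_num) M P R hPC hRC hPR (w := 225) (by rw [← hℓ, h3]) (by norm_num)
      rw [hcP] at hn3
      have key3 : ∀ n ∈ Nat.divisors 225, n % 5 = 1 → n ≠ 1 → n * 5 ^ 2 ∣ 225 → False := by decide +kernel
      exact key3 n (Nat.mem_divisors.2 ⟨(Dvd.intro _ rfl).trans hn3, by norm_num⟩) hn1 hn2 hn3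
  have hi2 : M.index = 18 := by rw [hi, hcM]
  have hMne : M ≠ ⊤ := by
    intro htop
    rw [htop, Subgroup.index_top] at hi2
    omega
  -- the normalizer of `⟨a⟩` is `M`
  set D := zpowers a with hD
  have hcD : Nat.card D = 5 := by rw [hD, Nat.card_zpowers, hao]
  have hMN : M ≤ normalizer (D : Set G) := by
    intro x hx
    apply mem_normalizer_of_conj_le
    intro y hy
    obtain ⟨k, rfl⟩ := Subgroup.mem_zpowers_iff.1 hy
    have hxa : x * a = a * x := mem_centralizer_singleton_iff.1 hx
    have : x * a ^ k * x⁻¹ = a ^ k := by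
      have h3 : Commute x (a ^ k) := (show Commute x a from hxa).zpow_right k
      rw [h3.eq, mul_inv_cancel_right]
    rw [this]
    exact Subgroup.zpow_mem_zpowers a k
  have hDne : normalizer (D : Set G) ≠ ⊤ := by
    intro htop
    rw [Subgroup.normalizer_eq_top_iff] at htop
    rcases htop.eq_bot_or_eq_top with hb | ht
    · rw [hb, Subgroup.card_bot] at hcD
      omega
    · rw [ht, Subgroup.card_top, h] at hcD
      omega
  have hemb' := Cfsg.Agent.Lib.SmallGroups.two_mul_card_dvd_factorial_index hG _ hDne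
  have hdvdi : (normalizer (D : Set G)).index ∣ 18 := by
    rw [← hi2]
    exact Subgroup.index_dvd_of_le hMN
  have key3 : ∀ d ∈ Nat.divisors 18, 2 * 5400 ∣ d.factorial → d = 18 := by decide +kernel
  rw [h] at hemb'
  have hi3 := key3 _ (Nat.mem_divisors.2 ⟨hdvdi, by norm_num⟩) hemb'
  have hNM : normalizer (D : Set G) ≤ M := by
    have h3 := Subgroup.card_mul_index (normalizer (D : Set G))
    rw [hi3, h] at h3
    have h4 : Nat.card (normalizer (D : Set G)) = 300 := by omega
    have h5' : M = normalizer (D : Set G) := Subgroup.eq_of_le_of_card_ge hMN (by rw [h4, ← hℓ, hcM])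
    rw [← h5']
  have hco : IsCoatom M := by
    apply isCoatom_of_index hG M hMne
    rw [hi2, h]
    decide +kernel
  haveI hprim : MulAction.IsPreprimitive G (G ⧸ M) := preprimitive_quotient M hco
  -- an element of order 3 of `M`
  obtain ⟨z, hzo⟩ := exists_prime_orderOf_dvd_card' (G := M) 3 (by rw [← hℓ, hcM]; norm_num)
  have hzo' : orderOf (z : G) = 3 := by rwa [Subgroup.orderOf_coe]
  have hza : (z : G) * a = a * z := mem_centralizer_singleton_iff.1 z.2
  have hcard : Nat.card (G ⧸ M) = 18 := hi2
  have hm5 := card_fixedBy_modEq_prime (X := G ⧸ M) hao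
  rw [hcard] at hm5
  have hm := card_moved_add (Ω := G ⧸ M) a
  rw [hcard] at hm
  have hpg : IsPGroup 3 (zpowers (z : G)) := by
    apply IsPGroup.of_card (n := 1)
    rw [Nat.card_zpowers, hzo', pow_one]
  have haC : a ∈ centralizer ((zpowers (z : G) : Subgroup G) : Set G) := by
    rw [mem_centralizer_iff]
    intro y hy
    obtain ⟨k, rfl⟩ := Subgroup.mem_zpowers_iff.1 hy
    exact ((show Commute (z : G) a from hza).zpow_left k).eq
  have hm3 := card_fixedBy_modEq_inter (X := G ⧸ M) (zpowers (z : G)) hpg haC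
  have huniq : ∀ x : G ⧸ M, a • x = x → (z : G) • x = x → x = ((1 : G) : G ⧸ M) := by
    intro x hx hzx
    induction x using QuotientGroup.induction_on with
    | H g =>
      have hx1 : ((a * g : G) : G ⧸ M) = (g : G ⧸ M) := hx
      have hx2 : (((z : G) * g : G) : G ⧸ M) = (g : G ⧸ M) := hzx
      rw [eq_comm, QuotientGroup.eq] at hx1 hx2
      have hc1 : (g⁻¹ * (a * g)) * a = a * (g⁻¹ * (a * g)) := mem_centralizer_singleton_iff.1 hx1
      have hc2 : (g⁻¹ * ((z : G) * g)) * a = a * (g⁻¹ * ((z : G) * g)) := mem_centralizer_singleton_iff.1 hx2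
      set b := g * a * g⁻¹ with hb
      have hab : b * a = a * b := by
        have h3 : a = g * (g⁻¹ * (a * g)) * g⁻¹ := by group
        calc b * a = g * (a * (g⁻¹ * (a * g))) * g⁻¹ := by rw [hb]; group
          _ = g * ((g⁻¹ * (a * g)) * a) * g⁻¹ := by rw [hc1]
          _ = a * b := by rw [hb]; group
      have hzb : b * (z : G) = (z : G) * b := by
        calc b * (z : G) = g * (a * (g⁻¹ * ((z : G) * g))) * g⁻¹ := by rw [hb]; group
          _ = g * ((g⁻¹ * ((z : G) * g)) * a) * g⁻¹ := by rw [hc2]
          _ = (z : G) * b := by rw [hb]; group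
      have hb1 : b ≠ 1 := by
        intro hb1
        apply ha1
        have : a = g⁻¹ * b * g := by rw [hb]; group
        rw [this, hb1]
        group
      by_cases hbD : b ∈ D
      · have hz := zpowers_eq_of_mem_of_ne_one (by norm_num : Nat.Prime 5) hcD hbD hb1
        have hgN : g ∈ normalizer (D : Set G) := by
          apply mem_normalizer_of_conj_le
          intro y hy
          obtain ⟨k, rfl⟩ := Subgroup.mem_zpowers_iff.1 hy
          have h3 : g * a ^ k * g⁻¹ = b ^ k := by
            rw [hb, conj_zpow]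
          rw [h3, ← hz]
          exact Subgroup.zpow_mem_zpowers b k
        have hgM := hNM hgN
        rw [eq_comm, QuotientGroup.eq]
        simpa using hgM
      · exfalso
        have hbM : b ∈ M := mem_centralizer_singleton_iff.2 hab
        have hbo : orderOf b = 5 := by
          have h12 := orderOf_injective (MulAut.conj g).toMonoidHom (MulEquiv.injective _) a
          rw [hb]
          simpa [MulAut.conj_apply] using h12.trans hao
        have hpa : IsPGroup 5 (zpowers a) := by
          apply IsPGroup.of_card (n := 1)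
          rw [Nat.card_zpowers, hao, pow_one]
        have hpb : IsPGroup 5 (zpowers b) := by
          apply IsPGroup.of_card (n := 1)
          rw [Nat.card_zpowers, hbo, pow_one]
        have hbN : zpowers b ≤ normalizer ((zpowers a : Subgroup G) : Set G) := by
          rw [Subgroup.zpowers_le]
          exact hMN hbM
        set V := zpowers b ⊔ zpowers a with hV
        have hpV : IsPGroup 5 V := hpb.to_sup_of_normal_right' hpa hbN
        have haV : zpowers a ≤ V := le_sup_right
        have hbV : b ∈ V := (le_sup_left : zpowers b ≤ V) (mem_zpowers b)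
        have hVM : V ≤ M := by
          apply sup_le
          · rw [Subgroup.zpowers_le]; exact hbM
          · rw [Subgroup.zpowers_le]; exact mem_centralizer_singleton_iff.2 rfl
        have hVC : V ≤ centralizer ({(z : G)} : Set G) := by
          apply sup_le
          · rw [Subgroup.zpowers_le]; exact mem_centralizer_singleton_iff.2 hzb
          · rw [Subgroup.zpowers_le]; exact mem_centralizer_singleton_iff.2 hza.symm
        obtain ⟨k, hk⟩ := IsPGroup.iff_card.1 hpV
        have hVd : Nat.card V ∣ 300 := by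
          have := Subgroup.card_dvd_of_le hVM
          rwa [← hℓ, hcM] at this
        have hk2 : k ≤ 2 := by
          by_contra hcon
          have h3 : 5 ^ 3 ∣ 5 ^ k := pow_dvd_pow 5 (by omega)
          rw [hk] at hVd
          have h4 := h3.trans hVd
          exact absurd h4 (by norm_num)
        have hk3 : k = 2 := by
          by_contra hcon
          have hle5 : Nat.card V ≤ Nat.card (zpowers a) := by
            rw [Nat.card_zpowers, hao, hk]
            interval_cases k
            · norm_num
            · norm_num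
            · omega
          have := Subgroup.eq_of_le_of_card_ge haV hle5
          apply hbD
          rw [hD, this]
          exact hbV
        rw [hk3] at hk
        -- `V` is a Sylow subgroup of `M`, and `z` normalizes it
        have hpV' : IsPGroup 5 (V.subgroupOf M) := hpV.comap_subtype
        obtain ⟨S, hS⟩ := hpV'.exists_le_sylow
        have hcS := sylow_card_of_card_eq (G := M) (p := 5) (a := 2) (m := 12) (by rw [← hℓ, hcM]; norm_num) (by norm_num) S
        have hcV' : Nat.card ↥(V.subgroupOf M) = 5 ^ 2 := by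
          rw [← hk]
          exact Nat.card_congr (Subgroup.subgroupOfEquivOfLe hVM).toEquiv
        have hSV : V.subgroupOf M = S := Subgroup.eq_of_le_of_card_ge hS (by rw [hcV', hcS])
        have hcomm : ∀ u : M, u ∈ (S : Subgroup M) → z * u * z⁻¹ = u := by
          intro u hu
          rw [← hSV, Subgroup.mem_subgroupOf] at hu
          have h3 : (u : G) * (z : G) = (z : G) * u := mem_centralizer_singleton_iff.1 (hVC hu)
          have h4 : z * u = u * z := Subtype.ext h3.symm
          rw [h4, mul_inv_cancel_right]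
        have hzN : z ∈ normalizer ((S : Subgroup M) : Set M) :=
          mem_normalizer_of_conj_le (fun y hy => by rw [hcomm y hy]; exact hy)
        have hN3 : 3 ∣ Nat.card (normalizer ((S : Subgroup M) : Set M)) := by
          rw [← hzo]
          have := Subgroup.orderOf_dvd_natCard (normalizer ((S : Subgroup M) : Set M)) hzN
          exact this
        have hN25 : 5 ^ 2 ∣ Nat.card (normalizer ((S : Subgroup M) : Set M)) := by
          rw [← hcS]
          exact Subgroup.card_dvd_of_le Subgroup.le_normalizer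
        have hNn := card_normalizer_mul_card_sylow S
        rw [← hℓ, hcM] at hNn
        have key4 : ∀ N ∈ Nat.divisors 300, ∀ n ∈ Nat.divisors 300, 5 ^ 2 ∣ N → 3 ∣ N → N * n = 300 → n % 5 = 1 → n ≠ 1 → False := by
          decide +kernel
        exact key4 _ (Nat.mem_divisors.2 ⟨⟨_, hNn.symm⟩, by norm_num⟩) _
          (Nat.mem_divisors.2 ⟨Dvd.intro_left _ hNn, by norm_num⟩) hN25 hN3 hNn h1 h2
  have hone : Nat.card {x : G ⧸ M // a • x = x ∧ ∀ g ∈ zpowers (z : G), g • x = x} = 1 := by
    rw [Nat.card_eq_one_iff_unique]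
    refine ⟨⟨?_⟩, ⟨⟨((1 : G) : G ⧸ M), ?_, ?_⟩⟩⟩
    · rintro ⟨x, hx, hx'⟩ ⟨y, hy, hy'⟩
      apply Subtype.ext
      exact (huniq x hx (hx' _ (mem_zpowers _))).trans (huniq y hy (hy' _ (mem_zpowers _))).symm
    · change ((a * 1 : G) : G ⧸ M) = ((1 : G) : G ⧸ M)
      rw [mul_one, eq_comm, QuotientGroup.eq]
      simpa using (mem_centralizer_singleton_iff.2 rfl : a ∈ M)
    · intro g hg
      have hgM : g ∈ M := (Subgroup.zpowers_le.2 z.2) hg
      change ((g * 1 : G) : G ⧸ M) = ((1 : G) : G ⧸ M)
      rw [mul_one, eq_comm, QuotientGroup.eq]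
      simpa using hgM
  rw [hone] at hm3
  have hf18 : Nat.card (MulAction.fixedBy (G ⧸ M) a) ≠ 18 := by
    intro he
    have hmv : Nat.card {x : G ⧸ M // a • x ≠ x} = 0 := by omega
    rw [Nat.card_eq_zero] at hmv
    rcases hmv with hmv | hmv
    · apply ha1
      apply eq_one_of_forall_smul_quotient M hMne
      intro x
      by_contra hx
      exact hmv.false ⟨x, hx⟩
    · exact (not_finite_iff_infinite.2 hmv) inferInstance
  have hmoved : Nat.card {x : G ⧸ M // a • x ≠ x} = 5 := by
    simp only [Nat.ModEq] at hm3 hm5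
    omega
  refine jordan_false (Ω := G ⧸ M) (q := 5) (by norm_num) hao hmoved (by rw [hcard]; norm_num) ?_
  rw [hcard, h]
  decide +kernel

end Cfsg.Agent.Lib.OrdR3640G
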