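import Mathlib

/-!
# Groups of order 64 with a fixed-point-free action of order 5 (modulo the centre)

The abstract structure of `P` for the order 320 recognition: a group `P` of order 64 with centre a Klein four-group
inside `P'`, and an automorphism `τ ≠ 1` with `τ⁵ = 1`. Then `P / Z(P)` is identified with `F₁₆`, `τ` acting as `ζ`.
-/

set_option autoImplicit false
set_option linter.style.haveILetI false
set_option linter.unusedSectionVars false
set_option linter.unusedVariables false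

namespace Cfsg.Agent.Lib.Order320

open scoped commutatorElement

section Field

variable {F : Type*} [Field F]

theorem bits_indep (ζ : F) (h2 : (2 : F) = 0) (hΦ : 1 + ζ + ζ ^ 2 + ζ ^ 3 + ζ ^ 4 = 0) {A B C D : F}
    (hA : A = 0 ∨ A = 1) (hB : B = 0 ∨ B = 1) (hC : C = 0 ∨ C = 1) (hD : D = 0 ∨ D = 1)
    (h : A + B * ζ + C * ζ ^ 2 + D * ζ ^ 3 = 0) : A = 0 ∧ B = 0 ∧ C = 0 ∧ D = 0 := by
  rcases hA with rfl | rfl <;> rcases hB with rfl | rfl <;> rcases hC with rfl | rfl <;> rcases hD with rfl | rfl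
  · exact ⟨rfl, rfl, rfl, rfl⟩
  · exfalso; apply one_ne_zero (α := F); linear_combination (1*ζ^2) * h + (1 + 1*ζ^1) * hΦ - (1*ζ^1 + 1*ζ^2 + 1*ζ^3 + 1*ζ^4 + 1*ζ^5) * h2
  · exfalso; apply one_ne_zero (α := F); linear_combination (1*ζ^3) * h + (1 + 1*ζ^1) * hΦ - (1*ζ^1 + 1*ζ^2 + 1*ζ^3 + 1*ζ^4 + 1*ζ^5) * h2
  · exfalso; apply one_ne_zero (α := F); linear_combination (1 + 1*ζ^2 + 1*ζ^3) * h + (1 + 1*ζ^1 + 1*ζ^2) * hΦ - (1*ζ^1 + 2*ζ^2 + 2*ζ^3 + 2*ζ^4 + 2*ζ^5 + 1*ζ^6) * h2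
  · exfalso; apply one_ne_zero (α := F); linear_combination (1 + 1*ζ^1 + 1*ζ^2 + 1*ζ^3) * h + (1) * hΦ - (1*ζ^1 + 1*ζ^2 + 1*ζ^3 + 1*ζ^4) * h2
  · exfalso; apply one_ne_zero (α := F); linear_combination (1 + 1*ζ^1) * h + (1) * hΦ - (1*ζ^1 + 1*ζ^2 + 1*ζ^3 + 1*ζ^4) * h2
  · exfalso; apply one_ne_zero (α := F); linear_combination (1 + 1*ζ^2) * h + (1) * hΦ - (1*ζ^1 + 1*ζ^2 + 1*ζ^3 + 1*ζ^4) * h2
  · exfalso; apply one_ne_zero (α := F); linear_combination (1 + 1*ζ^1 + 1*ζ^3) * h + (1 + 1*ζ^2) * hΦ - (1*ζ^1 + 2*ζ^2 + 2*ζ^3 + 2*ζ^4 + 1*ζ^5 + 1*ζ^6) * h2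
  · exfalso; apply one_ne_zero (α := F); linear_combination (1) * h + (0) * hΦ - (0) * h2
  · exfalso; apply one_ne_zero (α := F); linear_combination (1 + 1*ζ^1 + 1*ζ^2) * h + (1*ζ^1) * hΦ - (1*ζ^1 + 1*ζ^2 + 1*ζ^3 + 1*ζ^4 + 1*ζ^5) * h2
  · exfalso; apply one_ne_zero (α := F); linear_combination (1*ζ^1 + 1*ζ^2) * h + (1) * hΦ - (1*ζ^1 + 1*ζ^2 + 1*ζ^3 + 1*ζ^4) * h2
  · exfalso; apply one_ne_zero (α := F); linear_combination (1*ζ^2 + 1*ζ^3) * h + (1 + 1*ζ^1 + 1*ζ^2) * hΦ - (1*ζ^1 + 2*ζ^2 + 2*ζ^3 + 2*ζ^4 + 2*ζ^5 + 1*ζ^6) * h2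
  · exfalso; apply one_ne_zero (α := F); linear_combination (1*ζ^1 + 1*ζ^3) * h + (1) * hΦ - (1*ζ^1 + 1*ζ^2 + 1*ζ^3 + 1*ζ^4) * h2
  · exfalso; apply one_ne_zero (α := F); linear_combination (1*ζ^1 + 1*ζ^2 + 1*ζ^3) * h + (1 + 1*ζ^2) * hΦ - (1*ζ^1 + 2*ζ^2 + 2*ζ^3 + 2*ζ^4 + 1*ζ^5 + 1*ζ^6) * h2
  · exfalso; apply one_ne_zero (α := F); linear_combination (1 + 1*ζ^3) * h + (1*ζ^1) * hΦ - (1*ζ^1 + 1*ζ^2 + 1*ζ^3 + 1*ζ^4 + 1*ζ^5) * h2
  · exfalso; apply one_ne_zero (α := F); linear_combination (1*ζ^1) * h + (1) * hΦ - (1*ζ^1 + 1*ζ^2 + 1*ζ^3 + 1*ζ^4) * h2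

theorem bit_add (h2 : (2 : F) = 0) {a b : F} (ha : a = 0 ∨ a = 1) (hb : b = 0 ∨ b = 1) : a + b = 0 ∨ a + b = 1 := by
  rcases ha with rfl | rfl <;> rcases hb with rfl | rfl
  · left; simp
  · right; simp
  · right; simp
  · left; linear_combination h2

theorem indep5 (ζ : F) (h2 : (2 : F) = 0) (hΦ : 1 + ζ + ζ ^ 2 + ζ ^ 3 + ζ ^ 4 = 0) {a b c d e : F}
    (ha : a = 0 ∨ a = 1) (hb : b = 0 ∨ b = 1) (hc : c = 0 ∨ c = 1) (hd : d = 0 ∨ d = 1) (he : e = 0 ∨ e = 1)
    (h : a + ζ ^ 4 * b + ζ ^ 3 * c + ζ ^ 2 * d + ζ * e = 0) : a = b := by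
  have h4 : (a + b) + (b + e) * ζ + (b + d) * ζ ^ 2 + (b + c) * ζ ^ 3 = 0 := by
    linear_combination h - b * hΦ - (b * ζ ^ 4) * h2 + (b * ζ + b * ζ ^ 2 + b * ζ ^ 3 + b * ζ ^ 4 + b) * h2
  obtain ⟨h5, -⟩ := bits_indep ζ h2 hΦ (bit_add h2 ha hb) (bit_add h2 hb he) (bit_add h2 hb hd) (bit_add h2 hb hc) h4
  linear_combination h5 - b * h2

end Field

section Fix

variable {P : Type*} [Group P]

/-- The fixed points of an automorphism. -/
def fixG (τ : P ≃* P) : Subgroup P := τ.toMonoidHom.eqLocus (MonoidHom.id P)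

theorem mem_fixG (τ : P ≃* P) (y : P) : y ∈ fixG τ ↔ τ y = y := Iff.rfl

theorem card_mod_fix [Finite P] (τ : P ≃* P) (τ5 : ∀ y, τ (τ (τ (τ (τ y)))) = y) (H : Subgroup P)
    (hH : ∀ h ∈ H, τ h ∈ H) : Nat.card H ≡ Nat.card (H ⊓ fixG τ : Subgroup P) [MOD 5] := by
  classical
  haveI := Fintype.ofFinite H
  haveI : Fact (Nat.Prime 5) := ⟨by norm_num⟩
  let f : Function.End H := fun h => ⟨τ h, hH h h.2⟩
  have hf : f ^ 5 ^ 1 = 1 := by
    funext h
    apply Subtype.ext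
    exact τ5 _
  have h := Equiv.Perm.card_fixedPoints_modEq hf
  let e : Function.fixedPoints f ≃ ↥(H ⊓ fixG τ : Subgroup P) :=
    { toFun := fun x => ⟨x.1.1, x.1.2, congrArg Subtype.val x.2⟩
      invFun := fun y => ⟨⟨y.1, y.2.1⟩, Subtype.ext y.2.2⟩
      left_inv := fun x => rfl
      right_inv := fun y => rfl }
  rw [Nat.card_eq_fintype_card, ← Nat.card_congr e, Nat.card_eq_fintype_card]
  exact h

theorem card_cases [Finite P] (hP : Nat.card P = 64) (H : Subgroup P) :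
    Nat.card H = 1 ∨ Nat.card H = 2 ∨ Nat.card H = 4 ∨ Nat.card H = 8 ∨ Nat.card H = 16 ∨ Nat.card H = 32 ∨
      Nat.card H = 64 := by
  have h1 : Nat.card H ∣ 2 ^ 6 := by
    have := Subgroup.card_subgroup_dvd_card H
    rw [hP] at this
    exact this
  obtain ⟨k, hk, hk2⟩ := (Nat.dvd_prime_pow Nat.prime_two).mp h1
  interval_cases k <;> simp [hk2]

theorem center_fixed [Finite P] (hP : Nat.card P = 64) (hZ : Nat.card (Subgroup.center P) = 4) (τ : P ≃* P)
    (τ5 : ∀ y, τ (τ (τ (τ (τ y)))) = y) : Subgroup.center P ≤ fixG τ := by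
  have hinv : ∀ h ∈ Subgroup.center P, τ h ∈ Subgroup.center P := by
    intro h hh
    rw [Subgroup.mem_center_iff] at hh ⊢
    intro g
    obtain ⟨g', rfl⟩ := τ.surjective g
    rw [← map_mul, ← map_mul, hh]
  have h1 := card_mod_fix τ τ5 _ hinv
  rw [hZ] at h1
  have h2 : (Subgroup.center P ⊓ fixG τ : Subgroup P) ≤ Subgroup.center P := inf_le_left
  have h3 := Subgroup.card_dvd_of_le h2
  rw [hZ] at h3
  have h4 : Nat.card (Subgroup.center P ⊓ fixG τ : Subgroup P) = 4 := by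
    have h5 : Nat.card (Subgroup.center P ⊓ fixG τ : Subgroup P) ≤ 4 := Nat.le_of_dvd (by norm_num) h3
    have h6 : 0 < Nat.card (Subgroup.center P ⊓ fixG τ : Subgroup P) := Nat.card_pos
    generalize Nat.card (Subgroup.center P ⊓ fixG τ : Subgroup P) = c at *
    interval_cases c <;> first | rfl | (exfalso; revert h1; decide)
  have h5 : (Subgroup.center P ⊓ fixG τ : Subgroup P) = Subgroup.center P :=
    Subgroup.eq_of_le_of_card_ge h2 (by rw [h4, hZ])
  intro z hz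
  have h6 : z ∈ (Subgroup.center P ⊓ fixG τ : Subgroup P) := by rw [h5]; exact hz
  exact h6.2

theorem fixG_eq_center [Finite P] (hP : Nat.card P = 64) (hZ : Nat.card (Subgroup.center P) = 4) (τ : P ≃* P)
    (τ5 : ∀ y, τ (τ (τ (τ (τ y)))) = y) (hτ : ∃ y, τ y ≠ y) : fixG τ = Subgroup.center P := by
  have h0 := center_fixed hP hZ τ τ5
  have h1 := card_mod_fix τ τ5 ⊤ (fun _ _ => trivial)
  rw [top_inf_eq, Subgroup.card_top, hP] at h1
  have h3 := Subgroup.card_dvd_of_le h0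
  rw [hZ] at h3
  have h4 : Nat.card (fixG τ) ≠ 64 := by
    intro h
    obtain ⟨y, hy⟩ := hτ
    have h5 : fixG τ = ⊤ := Subgroup.eq_top_of_card_eq _ (by rw [h, hP])
    exact hy ((mem_fixG τ y).mp (by rw [h5]; trivial))
  have h5 : Nat.card (fixG τ) = 4 := by
    rcases card_cases hP (fixG τ) with h | h | h | h | h | h | h <;> rw [h] at h1 h3 h4 ⊢ <;>
      first | rfl | (exfalso; revert h1; decide) | (exfalso; exact h4 rfl) | (exfalso; revert h3; decide)
  exact (Subgroup.eq_of_le_of_card_ge h0 (by rw [h5, hZ])).symm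

theorem invariant_card [Finite P] (hP : Nat.card P = 64) (hZ : Nat.card (Subgroup.center P) = 4) (τ : P ≃* P)
    (τ5 : ∀ y, τ (τ (τ (τ (τ y)))) = y) (hτ : ∃ y, τ y ≠ y) (H : Subgroup P) (hH : ∀ h ∈ H, τ h ∈ H)
    (hZH : Subgroup.center P ≤ H) : Nat.card H = 4 ∨ Nat.card H = 64 := by
  have h1 := card_mod_fix τ τ5 H hH
  rw [fixG_eq_center hP hZ τ τ5 hτ, inf_eq_right.mpr hZH, hZ] at h1
  have h3 := Subgroup.card_dvd_of_le hZH
  rw [hZ] at h3
  rcases card_cases hP H with h | h | h | h | h | h | h <;> rw [h] at h1 h3 ⊢ <;>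
    first | (left; rfl) | (right; rfl) | (exfalso; revert h1; decide) | (exfalso; revert h3; decide)

end Fix

section Psi

variable {P : Type*} [Group P] [Finite P] {F : Type*} [Field F] [Fintype F]

theorem exists_Psi (hP : Nat.card P = 64) (hZ : Nat.card (Subgroup.center P) = 4) (τ : P ≃* P)
    (τ5 : ∀ y, τ (τ (τ (τ (τ y)))) = y) (hτ : ∃ y, τ y ≠ y)
    (hF : Fintype.card F = 16) (h2 : (2 : F) = 0) (ζ : F) (hΦ : 1 + ζ + ζ ^ 2 + ζ ^ 3 + ζ ^ 4 = 0) :
    ∃ Ψ : P → F, (∀ x y, Ψ (x * y) = Ψ x + Ψ y) ∧ (∀ a, ∃ x, Ψ x = a) ∧ (∀ y, Ψ (τ y) = ζ * Ψ y) ∧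
      (∀ x, Ψ x = 0 ↔ x ∈ Subgroup.center P) := by
  classical
  haveI : Fact (Nat.Prime 2) := ⟨Nat.prime_two⟩
  have hZ2 : Nat.card (Subgroup.center P) = 2 ^ 2 := hZ
  obtain ⟨M₁, hM₁, hZM₁⟩ := Sylow.exists_subgroup_card_pow_succ (p := 2) (n := 2) (by rw [hP]; norm_num) hZ2
  obtain ⟨M₂, hM₂, hM₁₂⟩ := Sylow.exists_subgroup_card_pow_succ (p := 2) (n := 3) (by rw [hP]; norm_num) hM₁
  obtain ⟨M, hM, hM₂₃⟩ := Sylow.exists_subgroup_card_pow_succ (p := 2) (n := 4) (by rw [hP]; norm_num) hM₂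
  have hZM : Subgroup.center P ≤ M := hZM₁.trans (hM₁₂.trans hM₂₃)
  have hidx : M.index = 2 := by
    have := Subgroup.card_mul_index M
    rw [hM, hP] at this
    omega
  let f₀ : P → F := fun y => if y ∈ M then 0 else 1
  have hf₀ : ∀ x y, f₀ (x * y) = f₀ x + f₀ y := by
    intro x y
    have := Subgroup.mul_mem_iff_of_index_two hidx (a := x) (b := y)
    by_cases hx : x ∈ M <;> by_cases hy : y ∈ M <;> simp [f₀, hx, hy, this]
    linear_combination -h2
  have bit : ∀ y, f₀ y = 0 ∨ f₀ y = 1 := by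
    intro y
    by_cases hy : y ∈ M <;> simp [f₀, hy]
  have f₀0 : ∀ y, f₀ y = 0 ↔ y ∈ M := by
    intro y
    by_cases hy : y ∈ M <;> simp [f₀, hy]
  let Ψ : P → F := fun y => f₀ y + ζ ^ 4 * f₀ (τ y) + ζ ^ 3 * f₀ (τ (τ y)) + ζ ^ 2 * f₀ (τ (τ (τ y))) +
    ζ * f₀ (τ (τ (τ (τ y))))
  have hΨm : ∀ x y, Ψ (x * y) = Ψ x + Ψ y := by
    intro x y
    simp only [Ψ, map_mul, hf₀]
    ring
  have hζ5 : ζ ^ 5 = 1 := by linear_combination (ζ - 1) * hΦ
  have hΨτ : ∀ y, Ψ (τ y) = ζ * Ψ y := by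
    intro y
    simp only [Ψ, τ5]
    linear_combination (- f₀ (τ y)) * hζ5
  let ΨH : P →* Multiplicative F := MonoidHom.mk' (fun y => Multiplicative.ofAdd (Ψ y)) (by
    intro a b
    rw [hΨm]
    rfl)
  have hker : ∀ y, y ∈ ΨH.ker ↔ Ψ y = 0 := by
    intro y
    rw [MonoidHom.mem_ker]
    exact ofAdd_eq_one
  have hfix := center_fixed hP hZ τ τ5
  have hZK : Subgroup.center P ≤ ΨH.ker := by
    intro z hz
    rw [hker]
    have hz' : τ z = z := hfix hz
    have h0 : f₀ z = 0 := (f₀0 z).mpr (hZM hz)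
    simp only [Ψ, hz', h0, mul_zero, add_zero]
  have hKτ : ∀ y ∈ ΨH.ker, τ y ∈ ΨH.ker := by
    intro y hy
    rw [hker] at hy ⊢
    rw [hΨτ, hy, mul_zero]
  have hcard4 : Nat.card ΨH.ker = 4 := by
    rcases invariant_card hP hZ τ τ5 hτ _ hKτ hZK with h | h
    · exact h
    · exfalso
      have htop : ΨH.ker = ⊤ := Subgroup.eq_top_of_card_eq _ (by rw [h, hP])
      have hall : ∀ y, Ψ y = 0 := fun y => (hker y).mp (by rw [htop]; trivial)
      have hMτ : ∀ y ∈ M, τ y ∈ M := by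
        intro y hy
        have h3 : f₀ y = f₀ (τ y) := indep5 ζ h2 hΦ (bit _) (bit _) (bit _) (bit _) (bit _) (hall y)
        rw [← f₀0, ← h3, f₀0]
        exact hy
      rcases invariant_card hP hZ τ τ5 hτ M hMτ hZM with h4 | h4
      · rw [hM] at h4; norm_num at h4
      · rw [hM] at h4; norm_num at h4
  have hKZ : ΨH.ker = Subgroup.center P := (Subgroup.eq_of_le_of_card_ge hZK (by rw [hcard4, hZ])).symm
  have hidxK : ΨH.ker.index = 16 := by
    have := Subgroup.card_mul_index ΨH.ker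
    rw [hcard4, hP] at this
    omega
  have hsurj : Function.Surjective ΨH := by
    rw [← MonoidHom.range_eq_top]
    apply Subgroup.eq_top_of_card_eq
    rw [← Subgroup.index_ker, hidxK, Nat.card_congr Multiplicative.ofAdd.symm, Nat.card_eq_fintype_card, hF]
  refine ⟨Ψ, hΨm, ?_, hΨτ, ?_⟩
  · intro a
    obtain ⟨x, hx⟩ := hsurj (Multiplicative.ofAdd a)
    exact ⟨x, Multiplicative.ofAdd.injective hx⟩
  · intro x
    rw [← hker, hKZ]

theorem third_deriv (hsq : ∀ x : P, x * x ∈ Subgroup.center P)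
    (hc : ∀ x y : P, x * y * x⁻¹ * y⁻¹ ∈ Subgroup.center P) (hexp : ∀ z ∈ Subgroup.center P, z * z = 1) (a b c : P) :
    (a * b * c) * (a * b * c) = (a * b) * (a * b) * ((a * c) * (a * c)) * ((b * c) * (b * c)) * (a * a) * (b * b) *
      (c * c) := by
  have cen : ∀ z ∈ Subgroup.center P, ∀ x, z * x = x * z := fun z hz x => (Subgroup.mem_center_iff.mp hz x).symm
  let u₁ : Subgroup.center P := ⟨b * a * b⁻¹ * a⁻¹, hc _ _⟩
  let u₂ : Subgroup.center P := ⟨c * a * c⁻¹ * a⁻¹, hc _ _⟩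
  let u₃ : Subgroup.center P := ⟨c * b * c⁻¹ * b⁻¹, hc _ _⟩
  let A : Subgroup.center P := ⟨a * a, hsq _⟩
  let B : Subgroup.center P := ⟨b * b, hsq _⟩
  let C : Subgroup.center P := ⟨c * c, hsq _⟩
  have h1 : b * a = (u₁ : P) * (a * b) := by
    show b * a = b * a * b⁻¹ * a⁻¹ * (a * b)
    group
  have h3 : c * a = (u₂ : P) * (a * c) := by
    show c * a = c * a * c⁻¹ * a⁻¹ * (a * c)
    group
  have h4 : c * b = (u₃ : P) * (b * c) := by
    show c * b = c * b * c⁻¹ * b⁻¹ * (b * c)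
    group
  have gen : ∀ (x y : P) (u : Subgroup.center P), y * x = (u : P) * (x * y) →
      x * y * (x * y) = (u : P) * (x * x * (y * y)) := by
    intro x y u h
    calc x * y * (x * y) = x * (y * x) * y := by group
      _ = x * ((u : P) * (x * y)) * y := by rw [h]
      _ = (x * (u : P)) * (x * y) * y := by group
      _ = ((u : P) * x) * (x * y) * y := by rw [cen _ u.2 x]
      _ = _ := by group
  have Lab := gen a b u₁ h1
  have Lac := gen a c u₂ h3
  have Lbc := gen b c u₃ h4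
  have Labc : a * b * c * (a * b * c) = (u₂ : P) * u₁ * u₃ * (a * a * (b * b) * (c * c)) := by
    calc a * b * c * (a * b * c) = a * b * (c * a) * b * c := by group
      _ = a * b * ((u₂ : P) * (a * c)) * b * c := by rw [h3]
      _ = (a * b * (u₂ : P)) * (a * c) * b * c := by group
      _ = ((u₂ : P) * (a * b)) * (a * c) * b * c := by rw [cen _ u₂.2 (a * b)]
      _ = (u₂ : P) * (a * (b * a) * c * b * c) := by group
      _ = (u₂ : P) * (a * ((u₁ : P) * (a * b)) * c * b * c) := by rw [h1]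
      _ = (u₂ : P) * ((a * (u₁ : P)) * (a * b) * c * b * c) := by group
      _ = (u₂ : P) * (((u₁ : P) * a) * (a * b) * c * b * c) := by rw [cen _ u₁.2 a]
      _ = (u₂ : P) * (u₁ : P) * (a * a * b * (c * b) * c) := by group
      _ = (u₂ : P) * (u₁ : P) * (a * a * b * ((u₃ : P) * (b * c)) * c) := by rw [h4]
      _ = (u₂ : P) * (u₁ : P) * ((a * a * b * (u₃ : P)) * (b * c) * c) := by group
      _ = (u₂ : P) * (u₁ : P) * (((u₃ : P) * (a * a * b)) * (b * c) * c) := by rw [cen _ u₃.2 (a * a * b)]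
      _ = _ := by group
  have hexp' : ∀ z : Subgroup.center P, z * z = 1 := by
    intro z
    apply Subtype.ext
    exact hexp z.1 z.2
  have key : u₂ * u₁ * u₃ * (A * B * C) = u₁ * (A * B) * (u₂ * (A * C)) * (u₃ * (B * C)) * A * B * C := by
    have : u₁ * (A * B) * (u₂ * (A * C)) * (u₃ * (B * C)) * A * B * C =
        u₂ * u₁ * u₃ * (A * B * C) * ((A * A) * (B * B) * (C * C)) := by ac_rfl
    rw [this, hexp' A, hexp' B, hexp' C, mul_one, mul_one, mul_one]
  have key' := congrArg (Subtype.val) key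
  rw [Labc, Lab, Lac, Lbc]
  exact key'

end Psi

section Iota

variable {P : Type*} [Group P] [Finite P] {F : Type*} [Field F] [Fintype F]

theorem exists_iota (hZ : Nat.card (Subgroup.center P) = 4)
    (hexp : ∀ z ∈ Subgroup.center P, z * z = 1) (τ : P ≃* P) (hfix : ∀ z ∈ Subgroup.center P, τ z = z)
    (hZP : Subgroup.center P ≤ commutator P)
    (hF : Fintype.card F = 16) (h2 : (2 : F) = 0) (ζ : F) (hΦ : 1 + ζ + ζ ^ 2 + ζ ^ 3 + ζ ^ 4 = 0)
    (Ψ : P → F) (Pm : ∀ x y, Ψ (x * y) = Ψ x + Ψ y) (Ps : ∀ a, ∃ x, Ψ x = a) (Pτ : ∀ y, Ψ (τ y) = ζ * Ψ y)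
    (hk : ∀ x, Ψ x = 0 ↔ x ∈ Subgroup.center P) (K₀ : Subfield F) (hK₀ : ∀ x, x ∈ K₀ ↔ x ^ 4 = x) :
    ∃ i : K₀ → P, (∀ a b, i (a + b) = i a * i b) ∧ (∀ b, i b = 1 → b = 0) ∧
      (∀ x, Ψ x = 0 ↔ ∃ b, x = i b) ∧ (∀ b x, i b * x = x * i b) ∧ (∀ x, ∃ b, x * x = i b) ∧
      (∀ x t, x * x = i t → (t : F) = Ψ x * Ψ x ^ 4) ∧ (∀ b, τ (i b) = i b) := by
  classical
  haveI : Fact (Nat.Prime 5) := ⟨by norm_num⟩
  have hζ5 : ζ ^ 5 = 1 := by linear_combination (ζ - 1) * hΦ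
  have hζ1 : ζ ≠ 1 := by
    rintro rfl
    apply one_ne_zero (α := F)
    linear_combination hΦ - 2 * h2
  have hprim : IsPrimitiveRoot ζ 5 := by
    have := orderOf_eq_prime (p := 5) hζ5 hζ1
    rw [← this]
    exact IsPrimitiveRoot.orderOf ζ
  have P1 : Ψ 1 = 0 := by
    have h := Pm 1 1
    rw [mul_one] at h
    exact left_eq_add.mp h
  have Pinv : ∀ x, Ψ x⁻¹ = - Ψ x := by
    intro x
    have h := Pm x⁻¹ x
    rw [inv_mul_cancel, P1] at h
    exact (neg_eq_of_add_eq_zero_left h.symm).symm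
  have hsq : ∀ x : P, x * x ∈ Subgroup.center P := by
    intro x
    rw [← hk, Pm]
    linear_combination (Ψ x) * h2
  have hcm : ∀ x y : P, x * y * x⁻¹ * y⁻¹ ∈ Subgroup.center P := by
    intro x y
    rw [← hk, Pm, Pm, Pm, Pinv, Pinv]
    ring
  have cen : ∀ z ∈ Subgroup.center P, ∀ x, z * x = x * z := fun z hz x => (Subgroup.mem_center_iff.mp hz x).symm
  -- squares depend only on the norm
  have W : ∀ x y : P, Ψ x ^ 5 = Ψ y ^ 5 → x * x = y * y := by
    intro x y hxy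
    by_cases hx : Ψ x = 0
    · have hy : Ψ y = 0 := by
        rw [hx, zero_pow (by norm_num)] at hxy
        exact pow_eq_zero_iff (by norm_num) |>.mp hxy.symm
      rw [hexp x ((hk x).mp hx), hexp y ((hk y).mp hy)]
    · have hw : (Ψ y / Ψ x) ^ 5 = 1 := by
        rw [div_pow, ← hxy]
        exact div_self (pow_ne_zero _ hx)
      obtain ⟨k, -, hk'⟩ := hprim.eq_pow_of_pow_eq_one hw
      have step : ∀ k : ℕ, ∃ x', Ψ x' = ζ ^ k * Ψ x ∧ x' * x' = x * x := by
        intro k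
        induction k with
        | zero => exact ⟨x, by simp, rfl⟩
        | succ k ih =>
          obtain ⟨x', h1, h3⟩ := ih
          refine ⟨τ x', ?_, ?_⟩
          · rw [Pτ, h1]
            ring
          · rw [← map_mul, h3]
            exact hfix _ (hsq x)
      obtain ⟨x', h1, h3⟩ := step k
      have h4 : Ψ x' = Ψ y := by
        rw [h1, hk']
        field_simp
      have hz : x'⁻¹ * y ∈ Subgroup.center P := by
        rw [← hk, Pm, Pinv, h4]
        simp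
      have hy : y = x' * (x'⁻¹ * y) := by group
      rw [hy, ← h3]
      set z := x'⁻¹ * y with hz'
      calc x' * x' = x' * x' * (z * z) := by rw [hexp z hz, mul_one]
        _ = x' * (x' * z) * z := by group
        _ = x' * (z * x') * z := by rw [cen z hz x']
        _ = _ := by group
  choose sec hsec using Ps
  have hb10 : ∀ b : K₀, (((b : F) ^ 2)) ^ 5 = b := by
    intro b
    have hb : (b : F) ^ 4 = b := (hK₀ _).mp b.2
    calc ((b : F) ^ 2) ^ 5 = ((b : F) ^ 4) ^ 2 * (b : F) ^ 2 := by ring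
      _ = (b : F) ^ 2 * (b : F) ^ 2 := by rw [hb]
      _ = (b : F) ^ 4 := by ring
      _ = b := hb
  have mem5 : ∀ v : F, v ^ 5 ∈ K₀ := by
    intro v
    rw [hK₀]
    have h16 : v ^ 16 = v := by
      have := FiniteField.pow_card v
      rwa [hF] at this
    calc (v ^ 5) ^ 4 = v ^ 16 * v ^ 4 := by ring
      _ = v * v ^ 4 := by rw [h16]
      _ = _ := by ring
  let i : K₀ → P := fun b => sec ((b : F) ^ 2) * sec ((b : F) ^ 2)
  have i_spec : ∀ (b : K₀) (x : P), Ψ x ^ 5 = b → x * x = i b := by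
    intro b x h
    apply W
    rw [hsec, hb10, h]
  have icen : ∀ b, i b ∈ Subgroup.center P := fun b => hsq _
  have isq : ∀ b, i b * i b = 1 := fun b => hexp _ (icen b)
  have hi0 : i 0 = 1 := by
    have h0 : Ψ (sec ((0 : K₀) : F) ^ 2) = 0 := by
      rw [sq, Pm, hsec]
      simp
    exact hexp _ ((hk _).mp (by simp [hsec]))
  -- the elements of `K₀`
  let α : F := ζ + ζ ^ 4
  have hα : α ^ 2 + α + 1 = 0 := by
    show (ζ + ζ ^ 4) ^ 2 + (ζ + ζ ^ 4) + 1 = 0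
    linear_combination hΦ + ζ ^ 5 * h2 + ζ ^ 3 * hζ5
  have hα4 : α ^ 4 = α := by linear_combination (α ^ 2 - α) * hα
  let α₀ : K₀ := ⟨α, (hK₀ _).mpr hα4⟩
  have hα₀ : (α₀ : F) = α := rfl
  have add_self₀ : ∀ u : K₀, u + u = 0 := by
    intro u
    apply Subtype.ext
    show (u : F) + (u : F) = 0
    linear_combination (u : F) * h2
  have hlist : ∀ u : K₀, u = 0 ∨ u = 1 ∨ u = α₀ ∨ u = α₀ + 1 := by
    intro u
    have hu : (u : F) ^ 4 = u := (hK₀ _).mp u.2
    have hprod : (u : F) * ((u : F) + 1) * (((u : F) + α) * ((u : F) + α + 1)) = 0 := by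
      linear_combination hu + (u : F) * ((u : F) + 1) * hα +
        (((u : F) + (u : F) ^ 3 + (u : F) ^ 2) + (u : F) * ((u : F) + 1) * ((u : F) * α - 1)) * h2
    rcases mul_eq_zero.mp hprod with h | h
    · rcases mul_eq_zero.mp h with h | h
      · left
        exact Subtype.ext h
      · right; left
        apply Subtype.ext
        show (u : F) = 1
        linear_combination h - h2
    · rcases mul_eq_zero.mp h with h | h
      · right; right; left
        apply Subtype.ext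
        show (u : F) = α
        linear_combination h - α * h2
      · right; right; right
        apply Subtype.ext
        show (u : F) = α + 1
        linear_combination h - (α + 1) * h2
  -- values of `i`
  have e1 : (1 + ζ) ^ 5 = α := by
    show (1 + ζ) ^ 5 = ζ + ζ ^ 4
    linear_combination hζ5 + (1 + 2 * ζ + 5 * ζ ^ 2 + 5 * ζ ^ 3 + 2 * ζ ^ 4) * h2
  have e2 : (1 + ζ ^ 2) ^ 5 = α + 1 := by
    show (1 + ζ ^ 2) ^ 5 = ζ + ζ ^ 4 + 1
    linear_combination (10 * ζ + 5 * ζ ^ 3 + ζ ^ 5 + 1) * hζ5 + hΦ + (4 * ζ + 2 * ζ ^ 2 + 2 * ζ ^ 3 + 4 * ζ ^ 4) * h2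
  have e3 : (ζ + ζ ^ 2) ^ 5 = α := by
    rw [← e1]
    have : (ζ + ζ ^ 2) ^ 5 = ζ ^ 5 * (1 + ζ) ^ 5 := by ring
    rw [this, hζ5, one_mul]
  have e4 : (1 + ζ + ζ ^ 2) ^ 5 = α := by
    rw [← e1]
    have h3 : 1 + ζ + ζ ^ 2 = ζ ^ 3 * (1 + ζ) := by linear_combination hΦ - (ζ ^ 3 + ζ ^ 4) * h2
    have : (ζ ^ 3 * (1 + ζ)) ^ 5 = (ζ ^ 5) ^ 3 * (1 + ζ) ^ 5 := by ring
    rw [h3, this, hζ5, one_pow, one_mul]
  have rel : i α₀ = i α₀ * i (α₀ + 1) * i α₀ * i 1 * i 1 * i 1 := by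
    have hd := third_deriv hsq hcm hexp (sec 1) (sec ζ) (sec (ζ ^ 2))
    have ha : sec 1 * sec 1 = i 1 := i_spec 1 _ (by rw [hsec]; simp)
    have hb : sec ζ * sec ζ = i 1 := i_spec 1 _ (by rw [hsec, hζ5]; simp)
    have hc : sec (ζ ^ 2) * sec (ζ ^ 2) = i 1 := i_spec 1 _ (by
      rw [hsec, ← pow_mul, mul_comm, pow_mul, hζ5]; simp)
    have hab : sec 1 * sec ζ * (sec 1 * sec ζ) = i α₀ := i_spec α₀ _ (by rw [Pm, hsec, hsec, e1])
    have hac : sec 1 * sec (ζ ^ 2) * (sec 1 * sec (ζ ^ 2)) = i (α₀ + 1) := i_spec _ _ (by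
      rw [Pm, hsec, hsec, e2]; simp [hα₀])
    have hbc : sec ζ * sec (ζ ^ 2) * (sec ζ * sec (ζ ^ 2)) = i α₀ := i_spec α₀ _ (by rw [Pm, hsec, hsec, e3])
    have habc : sec 1 * sec ζ * sec (ζ ^ 2) * (sec 1 * sec ζ * sec (ζ ^ 2)) = i α₀ := i_spec α₀ _ (by
      rw [Pm, Pm, hsec, hsec, hsec, e4])
    rw [habc, hab, hac, hbc, ha, hb, hc] at hd
    exact hd
  -- additivity
  let I : K₀ → Subgroup.center P := fun b => ⟨i b, icen b⟩
  have hI : ∀ b, ((I b : Subgroup.center P) : P) = i b := fun b => rfl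
  have Isq : ∀ b, I b * I b = 1 := fun b => Subtype.ext (isq b)
  have I0 : I 0 = 1 := Subtype.ext hi0
  have Irel : I (α₀ + 1) = I α₀ * I 1 := by
    have h1 : I α₀ = I α₀ * I (α₀ + 1) * I α₀ * I 1 * I 1 * I 1 := Subtype.ext rel
    have h3 : I α₀ * I (α₀ + 1) * I α₀ * I 1 * I 1 * I 1 = I (α₀ + 1) * I 1 * ((I α₀ * I α₀) * (I 1 * I 1)) := by ac_rfl
    rw [h3, Isq, Isq, one_mul, mul_one] at h1
    rw [h1, mul_assoc, Isq, mul_one]
  have mc : ∀ a b : Subgroup.center P, a * b = b * a := fun a b => Subtype.ext (cen a.1 a.2 b.1)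
  have Iadd : ∀ u v, I (u + v) = I u * I v := by
    intro u v
    rcases hlist u with rfl | rfl | rfl | rfl
    · rw [zero_add, I0, one_mul]
    · rcases hlist v with rfl | rfl | rfl | rfl
      · rw [add_zero, I0, mul_one]
      · rw [add_self₀, I0, Isq]
      · rw [add_comm, Irel, mc]
      · have h : (1 : K₀) + (α₀ + 1) = α₀ := by
          rw [add_comm, add_assoc, add_self₀, add_zero]
        rw [h, Irel, mc (I α₀), ← mul_assoc, Isq, one_mul]
    · rcases hlist v with rfl | rfl | rfl | rfl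
      · rw [add_zero, I0, mul_one]
      · rw [Irel]
      · rw [add_self₀, I0, Isq]
      · have h : α₀ + (α₀ + 1) = 1 := by
          rw [← add_assoc, add_self₀, zero_add]
        rw [h, Irel, ← mul_assoc, Isq, one_mul]
    · rcases hlist v with rfl | rfl | rfl | rfl
      · rw [add_zero, I0, mul_one]
      · have h : (α₀ + 1) + 1 = α₀ := by
          rw [add_assoc, add_self₀, add_zero]
        rw [h, Irel, mul_assoc, Isq, mul_one]
      · have h : (α₀ + 1) + α₀ = 1 := by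
          rw [add_comm, ← add_assoc, add_self₀, zero_add]
        rw [h, Irel, mc (I α₀), mul_assoc, Isq, mul_one]
      · rw [add_self₀, I0, Isq]
  have ia : ∀ a b, i (a + b) = i a * i b := fun a b => congrArg Subtype.val (Iadd a b)
  -- the image of `i` is the centre
  let R : Subgroup P :=
    { carrier := Set.range i
      mul_mem' := by
        rintro _ _ ⟨a, rfl⟩ ⟨b, rfl⟩
        exact ⟨a + b, ia a b⟩
      one_mem' := ⟨0, hi0⟩
      inv_mem' := by
        rintro _ ⟨a, rfl⟩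
        exact ⟨a, eq_inv_of_mul_eq_one_left (isq a)⟩ }
  have hsqR : ∀ x : P, x * x ∈ R := fun x => ⟨⟨Ψ x ^ 5, mem5 _⟩, (i_spec _ x rfl).symm⟩
  have hcommR : commutator P ≤ R := by
    rw [commutator_def, Subgroup.commutator_le]
    intro d _ e _
    have h1 := hsqR (d * e)
    have h3 := R.inv_mem (hsqR d)
    have h4 := R.inv_mem (hsqR e)
    have h5 : ⁅d, e⁆ = (d * e * (d * e)) * (e⁻¹ * (d * d)⁻¹ * e⁻¹) := by
      rw [commutatorElement_def]
      group
    have h6 : e⁻¹ * (d * d)⁻¹ * e⁻¹ = (d * d)⁻¹ * (e * e)⁻¹ := by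
      rw [← cen _ (Subgroup.inv_mem _ (hsq d)) e⁻¹, mul_inv_rev e e, mul_assoc]
    rw [h5, h6]
    exact R.mul_mem h1 (R.mul_mem h3 h4)
  have hIsurj : Function.Surjective I := by
    rintro ⟨z, hz⟩
    obtain ⟨b, hb⟩ := hcommR (hZP hz)
    exact ⟨b, Subtype.ext hb⟩
  have hcardK : Nat.card K₀ ≤ 4 := by
    let e : Fin 4 → K₀ := ![0, 1, α₀, α₀ + 1]
    have he : Function.Surjective e := by
      intro u
      rcases hlist u with rfl | rfl | rfl | rfl
      · exact ⟨0, rfl⟩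
      · exact ⟨1, rfl⟩
      · exact ⟨2, rfl⟩
      · exact ⟨3, rfl⟩
    simpa using Nat.card_le_card_of_surjective e he
  have hIbij : Function.Bijective I := hIsurj.bijective_of_nat_card_le (by rw [hZ]; exact hcardK)
  have ii : ∀ b, i b = 1 → b = 0 := by
    intro b hb
    apply hIbij.1
    rw [I0]
    exact Subtype.ext hb
  have iinj : ∀ a b, i a = i b → a = b := fun a b h => hIbij.1 (Subtype.ext h)
  refine ⟨i, ia, ii, ?_, ?_, ?_, ?_, ?_⟩
  · intro x
    rw [hk]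
    constructor
    · intro hx
      obtain ⟨b, hb⟩ := hcommR (hZP hx)
      exact ⟨b, hb.symm⟩
    · rintro ⟨b, rfl⟩
      exact icen b
  · intro b x
    exact cen _ (icen b) x
  · intro x
    exact ⟨⟨Ψ x ^ 5, mem5 _⟩, i_spec _ x rfl⟩
  · intro x t h
    have h1 := i_spec ⟨Ψ x ^ 5, mem5 _⟩ x rfl
    have h3 := iinj _ _ (h.symm.trans h1)
    rw [h3]
    show Ψ x ^ 5 = _
    ring
  · intro b
    exact hfix _ (icen b)

end Iota

section Glue

/-- Gluing isomorphisms along a normal subgroup and a complement of order 5. -/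
theorem semi_iso {G₁ G₂ : Type*} [Group G₁] [Group G₂] [Finite G₁] [Finite G₂] (P₁ : Subgroup G₁) (φ : P₁ →* G₂)
    (hφ : Function.Injective φ) (x₁ : G₁) (x₂ : G₂) (h₁ : x₁ ^ 5 = 1) (h₂ : x₂ ^ 5 = 1)
    (hn : ∀ p ∈ P₁, x₁ * p * x₁⁻¹ ∈ P₁)
    (hconj : ∀ (p : P₁) (hp : x₁ * p * x₁⁻¹ ∈ P₁), φ ⟨x₁ * p * x₁⁻¹, hp⟩ = x₂ * φ p * x₂⁻¹)
    (gen₁ : ∀ g, ∃ p : P₁, ∃ k : ℕ, g = p * x₁ ^ k) (gen₂ : ∀ g, ∃ p : P₁, ∃ k : ℕ, g = φ p * x₂ ^ k)
    (d₁ : ∀ k : ℕ, x₁ ^ k ∈ P₁ → 5 ∣ k) (d₂ : ∀ k : ℕ, x₂ ^ k ∈ φ.range → 5 ∣ k) : Nonempty (G₁ ≃* G₂) := by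
  have hk : ∀ (k : ℕ) (p : P₁), ∃ p' : P₁, (p' : G₁) = x₁ ^ k * p * (x₁ ^ k)⁻¹ ∧
      φ p' = x₂ ^ k * φ p * (x₂ ^ k)⁻¹ := by
    intro k
    induction k with
    | zero =>
      intro p
      exact ⟨p, by simp, by simp⟩
    | succ k ih =>
      intro p
      obtain ⟨p', h3, h4⟩ := ih p
      refine ⟨⟨x₁ * p' * x₁⁻¹, hn _ p'.2⟩, ?_, ?_⟩
      · show x₁ * p' * x₁⁻¹ = _
        rw [h3]
        group
      · rw [hconj, h4]
        group
  let M : Submonoid (G₁ × G₂) :=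
    { carrier := {s | ∃ (p : P₁) (k : ℕ), s = ((p : G₁) * x₁ ^ k, φ p * x₂ ^ k)}
      one_mem' := ⟨1, 0, Prod.ext (by simp) (by simp)⟩
      mul_mem' := by
        rintro _ _ ⟨p, k, rfl⟩ ⟨r, l, rfl⟩
        obtain ⟨r', h3, h4⟩ := hk k r
        refine ⟨p * r', k + l, ?_⟩
        apply Prod.ext
        · show (p : G₁) * x₁ ^ k * ((r : G₁) * x₁ ^ l) = (p * r' : P₁) * x₁ ^ (k + l)
          rw [Subgroup.coe_mul, h3, pow_add]
          group
        · show φ p * x₂ ^ k * (φ r * x₂ ^ l) = φ (p * r') * x₂ ^ (k + l)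
          rw [map_mul, h4, pow_add]
          group }
  let S : Subgroup (G₁ × G₂) :=
    { M with
      inv_mem' := by
        intro s hs
        have h0 : 0 < orderOf s := orderOf_pos s
        have h3 : s⁻¹ = s ^ (orderOf s - 1) := by
          apply inv_eq_of_mul_eq_one_right
          rw [← pow_succ', Nat.sub_add_cancel h0, pow_orderOf_eq_one]
        rw [h3]
        exact M.pow_mem hs _ }
  have memS : ∀ s, s ∈ S ↔ ∃ (p : P₁) (k : ℕ), s = ((p : G₁) * x₁ ^ k, φ p * x₂ ^ k) := fun s => Iff.rfl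
  let f₁ : S →* G₁ := (MonoidHom.fst G₁ G₂).comp S.subtype
  let f₂ : S →* G₂ := (MonoidHom.snd G₁ G₂).comp S.subtype
  have pw1 : ∀ k : ℕ, 5 ∣ k → x₁ ^ k = 1 := by
    rintro _ ⟨m, rfl⟩
    rw [pow_mul, h₁, one_pow]
  have pw2 : ∀ k : ℕ, 5 ∣ k → x₂ ^ k = 1 := by
    rintro _ ⟨m, rfl⟩
    rw [pow_mul, h₂, one_pow]
  have hf₁ : Function.Bijective f₁ := by
    constructor
    · rw [injective_iff_map_eq_one]
      rintro ⟨s, hs⟩ h
      obtain ⟨p, k, rfl⟩ := (memS s).mp hs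
      have h0 : (p : G₁) * x₁ ^ k = 1 := h
      have h3 : x₁ ^ k ∈ P₁ := by
        have : x₁ ^ k = (p : G₁)⁻¹ := eq_inv_of_mul_eq_one_right h0
        rw [this]
        exact P₁.inv_mem p.2
      have h4 := d₁ k h3
      rw [pw1 k h4, mul_one] at h0
      have h5 : p = 1 := Subtype.ext h0
      apply Subtype.ext
      apply Prod.ext
      · show (p : G₁) * x₁ ^ k = 1
        rw [pw1 k h4, mul_one, h0]
      · show φ p * x₂ ^ k = 1
        rw [pw2 k h4, mul_one, h5, map_one]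
    · intro g
      obtain ⟨p, k, rfl⟩ := gen₁ g
      exact ⟨⟨_, p, k, rfl⟩, rfl⟩
  have hf₂ : Function.Bijective f₂ := by
    constructor
    · rw [injective_iff_map_eq_one]
      rintro ⟨s, hs⟩ h
      obtain ⟨p, k, rfl⟩ := (memS s).mp hs
      have h0 : φ p * x₂ ^ k = 1 := h
      have h3 : x₂ ^ k ∈ φ.range := by
        have : x₂ ^ k = (φ p)⁻¹ := eq_inv_of_mul_eq_one_right h0
        rw [this]
        exact φ.range.inv_mem ⟨p, rfl⟩
      have h4 := d₂ k h3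
      rw [pw2 k h4, mul_one] at h0
      have h5 : p = 1 := hφ (by rw [h0, map_one])
      apply Subtype.ext
      apply Prod.ext
      · show (p : G₁) * x₁ ^ k = 1
        rw [pw1 k h4, mul_one, h5]
        rfl
      · show φ p * x₂ ^ k = 1
        rw [pw2 k h4, mul_one, h0]
    · intro g
      obtain ⟨p, k, rfl⟩ := gen₂ g
      exact ⟨⟨_, p, k, rfl⟩, rfl⟩
  exact ⟨(MulEquiv.ofBijective f₁ hf₁).symm.trans (MulEquiv.ofBijective f₂ hf₂)⟩

end Glue

section GSide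

variable {G : Type*} [Group G] [Finite G]

theorem G_struct (hG : Nat.card G = 320) (hD : Nat.card (commutator G) = 64)
    (hZ : IsKleinFour (Subgroup.center (commutator G))) :
    ∃ x : G, x ^ 5 = 1 ∧ (∀ k : ℕ, x ^ k ∈ commutator G → 5 ∣ k) ∧
      (∀ g, ∃ p : commutator G, ∃ k : ℕ, g = p * x ^ k) ∧
      (∃ y : commutator G, MulAut.conjNormal x y ≠ y) ∧
      Subgroup.center (commutator G) ≤ commutator (commutator G) := by
  classical
  haveI : Fact (Nat.Prime 5) := ⟨by norm_num⟩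
  haveI : Fact (Nat.Prime 2) := ⟨Nat.prime_two⟩
  set P := commutator G with hPdef
  have hidx : P.index = 5 := by
    have := Subgroup.card_mul_index P
    rw [hG, hD] at this
    omega
  have hcardQ : Nat.card (G ⧸ P) = 5 := by
    rw [← Subgroup.index_eq_card, hidx]
  obtain ⟨x, hx⟩ := exists_prime_orderOf_dvd_card' (G := G) 5 (by rw [hG]; norm_num)
  have hx5 : x ^ 5 = 1 := by rw [← hx]; exact pow_orderOf_eq_one x
  have hxP : (x : G) ∉ P := by
    intro h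
    have h1 := Subgroup.orderOf_dvd_natCard P h
    rw [hx, hD] at h1
    norm_num at h1
  let π : G →* G ⧸ P := QuotientGroup.mk' P
  have hπ : ∀ g, π g = 1 ↔ g ∈ P := fun g => QuotientGroup.eq_one_iff g
  have hπx : π x ≠ 1 := fun h => hxP ((hπ x).mp h)
  have hπx5 : π x ^ 5 = 1 := by rw [← map_pow, hx5, map_one]
  have hord : orderOf (π x) = 5 := orderOf_eq_prime hπx5 hπx
  have hdvd : ∀ k : ℕ, x ^ k ∈ P → 5 ∣ k := by
    intro k hk
    rw [← hord]
    apply orderOf_dvd_of_pow_eq_one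
    rw [← map_pow]
    exact (hπ _).mpr hk
  have hgen : ∀ g, ∃ p : P, ∃ k : ℕ, g = p * x ^ k := by
    intro g
    have h1 := mem_powers_of_prime_card hcardQ (g := π x) (g' := π g) hπx
    obtain ⟨k, hk⟩ := Submonoid.mem_powers_iff _ _ |>.mp h1
    have h3 : g * (x ^ k)⁻¹ ∈ P := by
      rw [← hπ, map_mul, map_inv, map_pow, hk, mul_inv_cancel]
    exact ⟨⟨_, h3⟩, k, by simp⟩
  have hZ4 : Nat.card (Subgroup.center P) = 4 := IsKleinFour.card_four
  have hZexp : ∀ z ∈ Subgroup.center P, z * z = 1 := by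
    intro z hz
    have h1 : (⟨z, hz⟩ : Subgroup.center P) ^ 2 = 1 := by
      rw [← IsKleinFour.exponent_two (G := Subgroup.center P)]
      exact Monoid.pow_exponent_eq_one _
    have h2 := congrArg Subtype.val h1
    rw [pow_two] at h2
    exact h2
  let τ : P ≃* P := MulAut.conjNormal x
  have hτ : ∀ y : P, ((τ y : P) : G) = x * y * x⁻¹ := fun y => MulAut.conjNormal_apply x y
  have τ5 : ∀ y, τ (τ (τ (τ (τ y)))) = y := by
    intro y
    apply Subtype.ext
    simp only [hτ]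
    have : x * (x * (x * (x * (x * (y : G) * x⁻¹) * x⁻¹) * x⁻¹) * x⁻¹) * x⁻¹ = x ^ 5 * (y : G) * (x ^ 5)⁻¹ := by
      simp only [pow_succ, pow_zero, one_mul, mul_inv_rev, mul_assoc]
    rw [this, hx5]
    simp
  have hτ1 : ∃ y : P, MulAut.conjNormal x y ≠ y := by
    by_contra hall
    push Not at hall
    have hall' : ∀ y : P, x * (y : G) * x⁻¹ = y := by
      intro y
      have := congrArg Subtype.val (hall y)
      rwa [MulAut.conjNormal_apply] at this
    -- `x` is central in `G`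
    have hxcen : ∀ g, x * g = g * x := by
      intro g
      obtain ⟨p, k, rfl⟩ := hgen g
      have h1 : x * (p : G) = p * x := by
        have := hall' p
        exact (mul_inv_eq_iff_eq_mul.mp this)
      rw [← mul_assoc, h1, mul_assoc, mul_assoc, ← pow_succ', ← pow_succ]
    have hxkcen : ∀ (k : ℕ) (g : G), x ^ k * g = g * x ^ k := by
      intro k g
      have : Commute (x ^ k) g := (Commute.pow_left (hxcen g) k)
      exact this
    haveI hpg : IsPGroup 2 P := by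
      rw [IsPGroup.iff_card]
      exact ⟨6, by rw [hD]; norm_num⟩
    haveI : Nontrivial P := by
      rw [← Finite.one_lt_card_iff_nontrivial, hD]
      norm_num
    haveI : Group.IsNilpotent P := hpg.isNilpotent
    have hlt : commutator P < ⊤ := Group.IsSolvable.commutator_lt_top_of_nontrivial P
    apply hlt.ne
    rw [eq_top_iff]
    rintro y -
    have key : ∀ (p r c₁ c₂ : G), (∀ g, c₁ * g = g * c₁) → (∀ g, c₂ * g = g * c₂) → ⁅p * c₁, r * c₂⁆ = ⁅p, r⁆ := by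
      intro p r c₁ c₂ h1 h2
      rw [commutatorElement_def, commutatorElement_def]
      have a1 : c₁ * (r * c₂) * c₁⁻¹ = r * c₂ := by rw [h1, mul_inv_cancel_right]
      have a2 : c₂ * p⁻¹ * c₂⁻¹ = p⁻¹ := by rw [h2, mul_inv_cancel_right]
      calc p * c₁ * (r * c₂) * (p * c₁)⁻¹ * (r * c₂)⁻¹ = p * (c₁ * (r * c₂) * c₁⁻¹) * p⁻¹ * c₂⁻¹ * r⁻¹ := by group
        _ = p * r * (c₂ * p⁻¹ * c₂⁻¹) * r⁻¹ := by rw [a1]; group
        _ = p * r * p⁻¹ * r⁻¹ := by rw [a2]
    have hle : commutator G ≤ (commutator P).map P.subtype := by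
      rw [commutator_def, Subgroup.commutator_le]
      intro g₁ _ g₂ _
      obtain ⟨p, k, rfl⟩ := hgen g₁
      obtain ⟨r, l, rfl⟩ := hgen g₂
      rw [key _ _ _ _ (hxkcen k) (hxkcen l)]
      refine ⟨⁅p, r⁆, ?_, ?_⟩
      · rw [commutator_def]
        exact Subgroup.commutator_mem_commutator trivial trivial
      · exact map_commutatorElement P.subtype p r
    obtain ⟨w, hw, hwy⟩ := hle y.2
    have : w = y := Subtype.ext hwy
    rw [← this]
    exact hw
  refine ⟨x, hx5, hdvd, hgen, hτ1, ?_⟩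
  have hP64 : Nat.card P = 64 := hD
  have hfix := center_fixed hP64 hZ4 τ τ5
  intro z hz
  have hzc : ∀ g, (z : G) * g = g * z := by
    intro g
    obtain ⟨p, k, rfl⟩ := hgen g
    have h1 : (z : G) * p = p * z := congrArg Subtype.val ((Subgroup.mem_center_iff.mp hz p).symm)
    have h2 : x * (z : G) = z * x := by
      have h3 : τ z = z := hfix hz
      have h4 := congrArg Subtype.val h3
      rw [hτ] at h4
      exact mul_inv_eq_iff_eq_mul.mp h4
    have h3 : (z : G) * x ^ k = x ^ k * z := ((Commute.pow_left h2 k).eq).symm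
    calc (z : G) * (p * x ^ k) = ((z : G) * p) * x ^ k := by group
      _ = p * ((z : G) * x ^ k) := by rw [h1]; group
      _ = p * (x ^ k * z) := by rw [h3]
      _ = _ := by group
  have hzk : ∀ (k : ℕ) (g : G), (z : G) ^ k * g = g * (z : G) ^ k := by
    intro k g
    exact (Commute.pow_left (hzc g) k).eq
  let ϕ : P →* Abelianization P := Abelianization.of
  haveI : P.FiniteIndex := ⟨by rw [hidx]; norm_num⟩
  have h1 := MonoidHom.transfer_eq_pow ϕ (z : G) (by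
    intro k g₀ _
    rw [mul_assoc, hzk, ← mul_assoc, inv_mul_cancel, one_mul])
  have hz5 : ((z : G)) ^ P.index = z := by
    rw [hidx]
    have hzz : (z : G) * z = 1 := by
      have := hZexp z hz
      exact congrArg Subtype.val this
    calc (z : G) ^ 5 = ((z : G) * z) * ((z : G) * z) * z := by simp only [pow_succ, pow_zero, one_mul, mul_assoc]
      _ = z := by rw [hzz]; simp
  have h3 : (⟨(z : G) ^ P.index, MonoidHom.transfer_eq_pow_aux (z : G) (by
      intro k g₀ _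
      rw [mul_assoc, hzk, ← mul_assoc, inv_mul_cancel, one_mul])⟩ : P) = z := Subtype.ext hz5
  rw [h3] at h1
  have h4 : ϕ.transfer (z : G) = 1 := by
    have := Abelianization.commutator_subset_ker (ϕ.transfer) z.2
    exact this
  rw [h4] at h1
  have h5 : z ∈ ϕ.ker := h1.symm
  rw [Abelianization.ker_of] at h5
  exact h5

end GSide

end Cfsg.Agent.Lib.Order320
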