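import Mathlib

/-! Tools for the prime graph of a group of order 7920. -/

set_option autoImplicit false

namespace Cfsg.Agent.Lib.Order7920

open Subgroup

/-- There is an element of order `p * q`. -/
def Edge (G : Type*) [Group G] (p q : ℕ) : Prop := ∃ g : G, orderOf g = p * q

section basic

variable {G : Type*} [Group G]

theorem Edge.symm {p q : ℕ} (h : Edge G p q) : Edge G q p := by
  obtain ⟨g, hg⟩ := h
  exact ⟨g, by rw [hg, mul_comm]⟩

theorem edge_of_commute {x y : G} {p q : ℕ} (hc : Commute x y) (hx : orderOf x = p)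
    (hy : orderOf y = q) (hpq : p.Coprime q) : Edge G p q :=
  ⟨x * y, by
    rw [hc.orderOf_mul_eq_mul_orderOf_of_coprime (by rw [hx, hy]; exact hpq), hx, hy]⟩

theorem Edge.lift [Finite G] {H : Type*} [Group H] (f : G →* H) (hf : Function.Surjective f)
    {p q : ℕ} (hp : 0 < p) (hq : 0 < q) (h : Edge H p q) : Edge G p q := by
  obtain ⟨h, hh⟩ := h
  obtain ⟨g, rfl⟩ := hf h
  have hd : p * q ∣ orderOf g := by
    rw [← hh]
    exact orderOf_map_dvd f g
  obtain ⟨k, hk⟩ := hd
  have hpos : 0 < orderOf g := orderOf_pos g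
  have hk0 : k ≠ 0 := by
    rintro rfl
    rw [mul_zero] at hk
    omega
  refine ⟨g ^ k, ?_⟩
  rw [orderOf_pow_of_dvd hk0 ⟨p * q, by rw [hk, mul_comm]⟩, hk]
  exact Nat.mul_div_cancel _ (Nat.pos_of_ne_zero hk0)

/-- A non-identity element of a `p`-group has a power of order `p`. -/
theorem exists_pow_order_prime {r : ℕ} [hr : Fact r.Prime] {t : G} (ht : t ≠ 1)
    {k : ℕ} (htk : orderOf t = r ^ k) : ∃ s : G, (∃ n : ℕ, s = t ^ n) ∧ orderOf s = r := by
  have hk : k ≠ 0 := by
    rintro rfl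
    apply ht
    rw [← orderOf_eq_one_iff, htk, pow_zero]
  obtain ⟨j, rfl⟩ : ∃ j, k = j + 1 := ⟨k - 1, by omega⟩
  refine ⟨t ^ (r ^ j), ⟨_, rfl⟩, ?_⟩
  rw [orderOf_pow_of_dvd (pow_ne_zero _ hr.out.ne_zero) ⟨r, by rw [htk, pow_succ]⟩, htk, pow_succ]
  exact Nat.mul_div_cancel_left _ (pow_pos hr.out.pos _)

theorem edge_of_commute_pgroup [Finite G] {r p : ℕ} [hr : Fact r.Prime] {t y : G} (ht : t ≠ 1)
    (hrt : ∃ k, orderOf t = r ^ k) (hy : orderOf y = p) (hp : p.Prime) (hne : p ≠ r)
    (hc : y * t = t * y) : Edge G p r := by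
  obtain ⟨k, hk⟩ := hrt
  obtain ⟨s, ⟨n, rfl⟩, hs⟩ := exists_pow_order_prime ht hk
  have hcomm : Commute y (t ^ n) := (show Commute y t from hc).pow_right n
  exact edge_of_commute hcomm hy hs ((Nat.coprime_primes hp hr.out).mpr hne)

/-- Fixed points of a `p`-automorphism of a subgroup. -/
theorem fix_nontrivial [Finite G] {M : Subgroup G} {y : G} {p : ℕ} [hp : Fact p.Prime]
    (hy : y ∈ normalizer (M : Set G)) (hyp : y ^ p = 1) (hM : Nat.card M % p ≠ 1) :
    ∃ t ∈ M, t ≠ 1 ∧ y * t = t * y := by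
  classical
  by_contra hcon
  haveI : Fintype M := Fintype.ofFinite M
  let f : Function.End M := fun t => ⟨y * t * y⁻¹, (mem_normalizer_iff.mp hy t).mp t.2⟩
  have hfn : ∀ (n : ℕ) (t : M), ((f ^ n) t : G) = y ^ n * t * (y ^ n)⁻¹ := by
    intro n t
    induction n with
    | zero =>
      rw [pow_zero]
      change (t : G) = _
      simp
    | succ n ih =>
      rw [pow_succ']
      change y * ((f ^ n) t : G) * y⁻¹ = _
      rw [ih, pow_succ']
      group
  have hf1 : f ^ p ^ 1 = 1 := by
    funext t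
    apply Subtype.ext
    rw [pow_one, hfn, hyp]
    simp only [one_mul, inv_one, mul_one]
    rfl
  have hmod := Equiv.Perm.card_fixedPoints_modEq hf1
  have hfix : Fintype.card (Function.fixedPoints f) = 1 := by
    rw [Fintype.card_eq_one_iff]
    refine ⟨⟨1, ?_⟩, ?_⟩
    · apply Subtype.ext
      change y * ((1 : M) : G) * y⁻¹ = _
      simp
    · rintro ⟨t, ht⟩
      apply Subtype.ext
      apply Subtype.ext
      by_contra hne
      apply hcon
      refine ⟨t, t.2, hne, ?_⟩
      have h1 : ((f t : M) : G) = t := congrArg Subtype.val ht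
      change y * (t : G) * y⁻¹ = t at h1
      rw [mul_inv_eq_iff_eq_mul] at h1
      exact h1
  rw [hfix] at hmod
  apply hM
  rw [Nat.card_eq_fintype_card]
  have h1 : 1 % p = 1 := Nat.mod_eq_of_lt hp.out.one_lt
  rw [← h1]
  exact hmod


/-- An element of prime order normalizing a subgroup of prime-power order. -/
theorem edge_of_normalizes [Finite G] {M : Subgroup G} {r p : ℕ} [hr : Fact r.Prime]
    [hp : Fact p.Prime] (hne : p ≠ r) (hM : IsPGroup r M) {y : G}
    (hy : y ∈ normalizer (M : Set G)) (hyo : orderOf y = p) (hcard : Nat.card M % p ≠ 1) :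
    Edge G p r := by
  obtain ⟨t, htM, ht1, hc⟩ := fix_nontrivial hy (by rw [← hyo, pow_orderOf_eq_one]) hcard
  have hk : ∃ k, orderOf t = r ^ k := by
    obtain ⟨k, hk⟩ := IsPGroup.iff_orderOf.mp hM ⟨t, htM⟩
    exact ⟨k, by rw [← hk, Subgroup.orderOf_mk]⟩
  exact edge_of_commute_pgroup ht1 hk hyo hp.out hne hc

/-- Surjection onto the quotient from a subgroup supplementing a normal subgroup. -/
theorem quot_dvd_of_sup [Finite G] (A N : Subgroup G) [N.Normal] (h : A ⊔ N = ⊤) :
    Nat.card (G ⧸ N) ∣ Nat.card A := by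
  refine Subgroup.card_dvd_of_surjective ((QuotientGroup.mk' N).comp A.subtype) ?_
  intro x
  obtain ⟨g, rfl⟩ := QuotientGroup.mk_surjective x
  have hg : g ∈ ((A ⊔ N : Subgroup G) : Set G) := by rw [h]; trivial
  rw [Subgroup.mul_normal] at hg
  obtain ⟨a, ha, n, hn, rfl⟩ := Set.mem_mul.mp hg
  refine ⟨⟨a, ha⟩, ?_⟩
  simp only [MonoidHom.comp_apply, Subgroup.subtype_apply, QuotientGroup.mk'_apply]
  rw [QuotientGroup.eq]
  simpa using hn

/-- Lemma E. -/
theorem lemE [Finite G] (N : Subgroup G) [N.Normal] {p r : ℕ} [hp : Fact p.Prime] [hr : Fact r.Prime]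
    (hpG : p ∣ Nat.card G) (hpN : ¬ p ∣ Nat.card N) (hrN : r ∣ Nat.card N)
    (hR : ∀ k, 1 ≤ k → r ^ k ∣ Nat.card N → r ^ k % p ≠ 1) : Edge G p r := by
  have hne : p ≠ r := by
    rintro rfl
    exact hpN hrN
  let T : Sylow r N := default
  have hfr := Sylow.normalizer_sup_eq_top T
  have hdvd := quot_dvd_of_sup _ N hfr
  have hpq : p ∣ Nat.card (G ⧸ N) := by
    rw [Subgroup.card_eq_card_quotient_mul_card_subgroup N] at hpG
    exact (hp.out.dvd_mul.mp hpG).resolve_right hpN
  obtain ⟨y, hy⟩ := exists_prime_orderOf_dvd_card' (G := normalizer (((T : Subgroup N).map N.subtype : Subgroup G) : Set G)) p (hpq.trans hdvd)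
  have hM : IsPGroup r ((T : Subgroup N).map N.subtype : Subgroup G) := T.2.map _
  have hcard : Nat.card ((T : Subgroup N).map N.subtype : Subgroup G) = Nat.card T :=
    Subgroup.card_map_of_injective N.subtype_injective
  refine edge_of_normalizes hne hM y.2 (by rw [← Subgroup.orderOf_coe] at hy; exact hy) ?_
  rw [hcard, Sylow.card_eq_multiplicity]
  apply hR
  · exact Nat.Prime.factorization_pos_of_dvd hr.out Nat.card_pos.ne' hrN
  · exact Nat.ordProj_dvd _ _

theorem commute_of_card_prime {Q : Subgroup G} {q : ℕ} (hq : q.Prime) (hQ : Nat.card Q = q)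
    {x y : G} (hx : x ∈ Q) (hy : y ∈ Q) : x * y = y * x := by
  haveI : Fact q.Prime := ⟨hq⟩
  haveI : IsCyclic Q := isCyclic_of_prime_card hQ
  obtain ⟨g, hg⟩ := IsCyclic.exists_generator (α := Q)
  obtain ⟨a, ha⟩ := Subgroup.mem_zpowers_iff.mp (hg ⟨x, hx⟩)
  obtain ⟨b, hb⟩ := Subgroup.mem_zpowers_iff.mp (hg ⟨y, hy⟩)
  have hx' : x = (g : G) ^ a := by
    have := congrArg Subtype.val ha
    simpa using this.symm
  have hy' : y = (g : G) ^ b := by
    have := congrArg Subtype.val hb
    simpa using this.symm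
  rw [hx', hy', ← zpow_add, ← zpow_add, add_comm]

theorem eq_zpowers_of_card_prime {Q : Subgroup G} {q : ℕ} (hq : q.Prime) (hQ : Nat.card Q = q)
    [Finite Q] {y : G} (hy : y ∈ Q) (hy1 : y ≠ 1) : Subgroup.zpowers y = Q := by
  haveI : Fact q.Prime := ⟨hq⟩
  have hle : Subgroup.zpowers y ≤ Q := Subgroup.zpowers_le.mpr hy
  have hd : Nat.card (Subgroup.zpowers y) ∣ q := by
    rw [← hQ]
    exact Subgroup.card_dvd_of_le hle
  rcases (Nat.dvd_prime hq).mp hd with h | h
  · exfalso
    rw [Nat.card_zpowers, orderOf_eq_one_iff] at h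
    exact hy1 h
  · apply Subgroup.eq_of_le_of_card_ge hle
    rw [h, hQ]

/-- The normalizer-centralizer quotient for a subgroup of prime order. -/
theorem card_normalizer_eq [Finite G] {Q : Subgroup G} {q : ℕ} (hq : q.Prime) (hQ : Nat.card Q = q) :
    ∃ d, d ∣ q - 1 ∧ Nat.card (normalizer (Q : Set G)) = Nat.card (centralizer (Q : Set G)) * d := by
  haveI : Fact q.Prime := ⟨hq⟩
  haveI : IsCyclic Q := isCyclic_of_prime_card hQ
  have key := Subgroup.card_dvd_of_injective _ (QuotientGroup.kerLift_injective Q.normalizerMonoidHom)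
  rw [Subgroup.normalizerMonoidHom_ker, ← Subgroup.index, ← Subgroup.relIndex,
    IsCyclic.card_mulAut, hQ, Nat.totient_prime hq] at key
  refine ⟨_, key, ?_⟩
  have hle : centralizer (Q : Set G) ≤ normalizer (Q : Set G) := by
    intro x hx
    rw [mem_normalizer_iff]
    intro h
    rw [Subgroup.mem_centralizer_iff] at hx
    constructor
    · intro hh
      have := hx h hh
      rw [← this]
      simpa using hh
    · intro hh
      have h1 := hx _ hh
      have h4 : x * h = x * (x * h * x⁻¹) := by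
        calc x * h = x * h * x⁻¹ * x := by group
          _ = x * (x * h * x⁻¹) := h1
      have h5 : h = x * h * x⁻¹ := mul_left_cancel h4
      rw [h5]
      exact hh
  rw [Subgroup.relIndex, mul_comm]
  have h1 := Subgroup.card_mul_index ((centralizer (Q : Set G)).subgroupOf (normalizer (Q : Set G)))
  rw [← h1, mul_comm]
  congr 1
  exact Nat.card_congr (Subgroup.subgroupOfEquivOfLe hle).toEquiv

theorem sylow_eq_of_le_normalizer [Finite G] {q : ℕ} [Fact q.Prime] (P R : Sylow q G)
    (h : (P : Subgroup G) ≤ normalizer ((R : Subgroup G) : Set G)) : P = R := by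
  have hp : IsPGroup q (((P : Subgroup G) ⊔ (R : Subgroup G) : Subgroup G)) :=
    IsPGroup.to_sup_of_normal_right' P.isPGroup' R.isPGroup' h
  have h1 := R.is_maximal' hp le_sup_right
  have h2 : (P : Subgroup G) ≤ R := by
    rw [← h1]
    exact le_sup_left
  exact Sylow.ext (P.is_maximal' R.isPGroup' h2).symm

theorem sylow_card_prime [Finite G] {q : ℕ} [hq : Fact q.Prime] (h1 : q ∣ Nat.card G)
    (h2 : ¬ q ^ 2 ∣ Nat.card G) (P : Sylow q G) : Nat.card P = q := by
  rw [Sylow.card_eq_multiplicity]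
  have h3 : 0 < (Nat.card G).factorization q :=
    Nat.Prime.factorization_pos_of_dvd hq.out Nat.card_pos.ne' h1
  have h4 : (Nat.card G).factorization q < 2 := by
    by_contra hcon
    exact h2 ((pow_dvd_pow q (by omega)).trans (Nat.ordProj_dvd _ _))
  have h5 : (Nat.card G).factorization q = 1 := by omega
  rw [h5, pow_one]

/-- Non-identity elements of a Sylow subgroup of prime order move other Sylow subgroups. -/
theorem sylow_free [Finite G] {q : ℕ} [hq : Fact q.Prime] (P R : Sylow q G)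
    (hP : Nat.card P = q) (hne : R ≠ P) {y : G} (hy : y ∈ (P : Subgroup G)) (hy1 : y ≠ 1) :
    y • R ≠ R := by
  intro h
  rw [Sylow.smul_eq_iff_mem_normalizer] at h
  have h1 := eq_zpowers_of_card_prime hq.out hP hy hy1
  apply hne
  symm
  apply sylow_eq_of_le_normalizer
  rw [← h1]
  exact Subgroup.zpowers_le.mpr h

/-- The kernel of the action on Sylow subgroups. -/
def sylKer (G : Type*) [Group G] (q : ℕ) : Subgroup G :=
  (MulAction.toPermHom G (Sylow q G)).ker

instance (q : ℕ) : (sylKer G q).Normal := by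
  unfold sylKer
  infer_instance

theorem mem_sylKer {q : ℕ} {w : G} : w ∈ sylKer G q ↔ ∀ R : Sylow q G, w • R = R := by
  unfold sylKer
  rw [MonoidHom.mem_ker]
  constructor
  · intro h R
    have := congrArg (fun f : Equiv.Perm (Sylow q G) => f R) h
    simpa using this
  · intro h
    ext R : 1
    simpa using h R

theorem sylKer_not_dvd [Finite G] {q : ℕ} [hq : Fact q.Prime] (h1 : q ∣ Nat.card G)
    (h2 : ¬ q ^ 2 ∣ Nat.card G) (hn : 1 < Nat.card (Sylow q G)) :
    ¬ q ∣ Nat.card (sylKer G q) := by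
  classical
  intro hd
  obtain ⟨y, hy⟩ := exists_prime_orderOf_dvd_card' (G := sylKer G q) q hd
  have hy' : orderOf (y : G) = q := by rw [Subgroup.orderOf_coe]; exact hy
  have hy1 : (y : G) ≠ 1 := by
    intro h
    rw [h, orderOf_one] at hy'
    exact hq.out.ne_one hy'.symm
  have hpz : IsPGroup q (Subgroup.zpowers (y : G)) := by
    apply IsPGroup.of_card (n := 1)
    rw [Nat.card_zpowers, hy', pow_one]
  obtain ⟨P, hP⟩ := hpz.exists_le_sylow
  have hyP : (y : G) ∈ (P : Subgroup G) := hP (Subgroup.mem_zpowers _)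
  haveI : Fintype (Sylow q G) := Fintype.ofFinite _
  rw [Nat.card_eq_fintype_card] at hn
  obtain ⟨R, hR⟩ := Fintype.exists_ne_of_one_lt_card hn P
  exact sylow_free P R (sylow_card_prime h1 h2 P) hR hyP hy1 (mem_sylKer.mp y.2 R)

end basic

end Cfsg.Agent.Lib.Order7920
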