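import Mathlib
import Cfsg.Agent.Lib.Order7920

/-! Prime graph of groups of order 7920, 495 and 880, and the case of a normal subgroup
of order prime to eleven. -/

set_option autoImplicit false

namespace Cfsg.Agent.Lib.Order7920

open Subgroup

section quotients

variable {H : Type*} [Group H] [Finite H]

instance fact2 : Fact (Nat.Prime 2) := ⟨Nat.prime_two⟩
instance fact3 : Fact (Nat.Prime 3) := ⟨Nat.prime_three⟩
instance fact5 : Fact (Nat.Prime 5) := ⟨Nat.prime_five⟩
instance fact11 : Fact (Nat.Prime 11) := ⟨by norm_num⟩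

theorem normal_of_card_sylow_one {q : ℕ} [Fact q.Prime] (hn : Nat.card (Sylow q H) = 1)
    (P : Sylow q H) : (P : Subgroup H).Normal := by
  have := P.card_eq_index_normalizer
  rw [hn] at this
  have htop := Subgroup.index_eq_one.mp this.symm
  exact normalizer_eq_top_iff.mp htop

theorem edge_of_centralizer {Q : Subgroup H} {q p : ℕ} (hq : q.Prime) (hQ : Nat.card Q = q)
    (hp : p.Prime) (hne : p ≠ q) (hd : p ∣ Nat.card (centralizer (Q : Set H))) : Edge H p q := by
  haveI : Fact q.Prime := ⟨hq⟩
  haveI : Fact p.Prime := ⟨hp⟩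
  obtain ⟨y, hy⟩ := exists_prime_orderOf_dvd_card' (G := centralizer (Q : Set H)) p hd
  obtain ⟨x, hx⟩ := exists_prime_orderOf_dvd_card' (G := Q) q (by rw [hQ])
  have hy' : orderOf (y : H) = p := by rw [Subgroup.orderOf_coe]; exact hy
  have hx' : orderOf (x : H) = q := by rw [Subgroup.orderOf_coe]; exact hx
  have hc : Commute (y : H) (x : H) := by
    have := (Subgroup.mem_centralizer_iff.mp y.2) x x.2
    exact this.symm
  exact edge_of_commute hc hy' hx' ((Nat.coprime_primes hp hq).mpr hne)

instance centralizer_normal (Q : Subgroup H) [Q.Normal] : (centralizer (Q : Set H)).Normal := by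
  constructor
  intro c hc g
  rw [Subgroup.mem_centralizer_iff] at hc ⊢
  intro h hh
  have h1 : g⁻¹ * h * g ∈ Q := by
    have := ‹Q.Normal›.conj_mem h hh g⁻¹
    simpa using this
  have h2 := hc _ h1
  calc h * (g * c * g⁻¹) = g * ((g⁻¹ * h * g) * c) * g⁻¹ := by group
    _ = g * (c * (g⁻¹ * h * g)) * g⁻¹ := by rw [h2]
    _ = g * c * g⁻¹ * h := by group

theorem sylow_count {q : ℕ} [Fact q.Prime] (h1 : q ∣ Nat.card H) (h2 : ¬ q ^ 2 ∣ Nat.card H)
    (P : Sylow q H) : Nat.card (Sylow q H) ∣ Nat.card H / q ∧ Nat.card (Sylow q H) % q = 1 % q := by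
  refine ⟨?_, card_sylow_modEq_one q H⟩
  have h3 := P.card_dvd_index
  have h4 := Subgroup.card_mul_index (P : Subgroup H)
  rw [sylow_card_prime h1 h2 P] at h4
  have h5 : Nat.card H / q = (P : Subgroup H).index := by
    rw [← h4]
    exact Nat.mul_div_cancel_left _ (Fact.out : q.Prime).pos
  rw [h5]
  exact h3

theorem card_normalizer_sylow {q : ℕ} [Fact q.Prime] (P : Sylow q H) :
    Nat.card (normalizer ((P : Subgroup H) : Set H)) * Nat.card (Sylow q H) = Nat.card H := by
  rw [P.card_eq_index_normalizer]
  exact Subgroup.card_mul_index _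

/-- Burnside complement for a self-normalizing Sylow of prime order. -/
theorem exists_complement {q : ℕ} [Fact q.Prime] (P : Sylow q H) (hP : Nat.card P = q)
    (hN : Nat.card (normalizer ((P : Subgroup H) : Set H)) = q) :
    ∃ K : Subgroup H, K.Normal ∧ Nat.card K * q = Nat.card H := by
  have hle : (P : Subgroup H) ≤ normalizer ((P : Subgroup H) : Set H) := by
    intro x hx
    rw [mem_normalizer_iff]
    intro h
    constructor
    · intro hh
      exact P.1.mul_mem (P.1.mul_mem hx hh) (P.1.inv_mem hx)
    · intro hh
      have := P.1.mul_mem (P.1.mul_mem (P.1.inv_mem hx) hh) hx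
      simpa [mul_assoc] using this
  have heq : (P : Subgroup H) = normalizer ((P : Subgroup H) : Set H) :=
    Subgroup.eq_of_le_of_card_ge hle (by rw [hN, hP])
  have hc : normalizer ((P : Subgroup H) : Set H) ≤ centralizer ((P : Subgroup H) : Set H) := by
    rw [← heq]
    intro x hx
    rw [Subgroup.mem_centralizer_iff]
    intro y hy
    exact commute_of_card_prime (Fact.out : q.Prime) hP hy hx
  have := MonoidHom.ker_transferSylow_isComplement' P hc
  refine ⟨(MonoidHom.transferSylow P hc).ker, inferInstance, ?_⟩
  have h2 := this.card_mul_card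
  rw [hP] at h2
  exact h2

theorem h495 (hH : Nat.card H = 495) : Edge H 3 11 ∧ (Edge H 5 11 ∨ Edge H 5 3) := by
  have h1 : 11 ∣ Nat.card H := by rw [hH]; norm_num
  have h2 : ¬ 11 ^ 2 ∣ Nat.card H := by rw [hH]; norm_num
  let P : Sylow 11 H := default
  obtain ⟨hd, hm⟩ := sylow_count h1 h2 P
  rw [hH] at hd
  have hn : Nat.card (Sylow 11 H) = 1 ∨ Nat.card (Sylow 11 H) = 45 := by
    have hle : Nat.card (Sylow 11 H) ≤ 45 := Nat.le_of_dvd (by norm_num) hd
    generalize Nat.card (Sylow 11 H) = n at *
    interval_cases n <;> omega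
  have hPc := sylow_card_prime h1 h2 P
  rcases hn with hn | hn
  · haveI := normal_of_card_sylow_one hn P
    obtain ⟨d, hd, hcard⟩ := card_normalizer_eq (by norm_num : Nat.Prime 11) hPc
    have htop : normalizer ((P : Subgroup H) : Set H) = ⊤ := normalizer_eq_top_iff.mpr inferInstance
    rw [htop, Subgroup.card_top, hH] at hcard
    have hC : Nat.card (centralizer ((P : Subgroup H) : Set H)) = 495
        ∨ Nat.card (centralizer ((P : Subgroup H) : Set H)) = 99 := by
      have hd' : d ≤ 10 := Nat.le_of_dvd (by norm_num) hd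
      generalize Nat.card (centralizer ((P : Subgroup H) : Set H)) = c at *
      interval_cases d <;> omega
    have h3 : 3 ∣ Nat.card (centralizer ((P : Subgroup H) : Set H)) := by
      rcases hC with h | h <;> rw [h] <;> norm_num
    refine ⟨edge_of_centralizer (by norm_num) hPc (by norm_num) (by norm_num) h3, ?_⟩
    by_cases h5 : 5 ∣ Nat.card (centralizer ((P : Subgroup H) : Set H))
    · exact Or.inl (edge_of_centralizer (by norm_num) hPc (by norm_num) (by norm_num) h5)
    · right
      refine lemE (centralizer ((P : Subgroup H) : Set H)) (by rw [hH]; norm_num) h5 h3 ?_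
      intro k hk hdk
      have hdk' : 3 ^ k ∣ 495 := by
        rw [← hH]
        exact hdk.trans (Subgroup.card_subgroup_dvd_card _)
      have : k < 3 := by
        by_contra hcon
        have h27 : 3 ^ 3 ∣ 3 ^ k := pow_dvd_pow 3 (by omega)
        have := h27.trans hdk'
        norm_num at this
      interval_cases k <;> norm_num
  · have hNc := card_normalizer_sylow P
    rw [hn, hH] at hNc
    have hNc' : Nat.card (normalizer ((P : Subgroup H) : Set H)) = 11 := by omega
    obtain ⟨K, hK, hKc⟩ := exists_complement P hPc hNc'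
    rw [hH] at hKc
    have hKc' : Nat.card K = 45 := by omega
    have hno11 : ¬ 11 ∣ Nat.card K := by rw [hKc']; norm_num
    have h3 : Edge H 11 3 := lemE K h1 hno11 (by rw [hKc']; norm_num) (by
      intro k hk hdk
      rw [hKc'] at hdk
      have : k < 3 := by
        by_contra hcon
        have h27 : 3 ^ 3 ∣ 3 ^ k := pow_dvd_pow 3 (by omega)
        have := h27.trans hdk
        norm_num at this
      interval_cases k <;> norm_num)
    have h5 : Edge H 11 5 := lemE K h1 hno11 (by rw [hKc']; norm_num) (by
      intro k hk hdk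
      rw [hKc'] at hdk
      have : k < 2 := by
        by_contra hcon
        have h25 : 5 ^ 2 ∣ 5 ^ k := pow_dvd_pow 5 (by omega)
        have := h25.trans hdk
        norm_num at this
      interval_cases k <;> norm_num)
    exact ⟨h3.symm, Or.inl h5.symm⟩

theorem h880 (hH : Nat.card H = 880) : Edge H 2 11 := by
  have h1 : 11 ∣ Nat.card H := by rw [hH]; norm_num
  have h2 : ¬ 11 ^ 2 ∣ Nat.card H := by rw [hH]; norm_num
  let P : Sylow 11 H := default
  obtain ⟨hd, hm⟩ := sylow_count h1 h2 P
  rw [hH] at hd
  have hn : Nat.card (Sylow 11 H) = 1 := by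
    have hle : Nat.card (Sylow 11 H) ≤ 80 := Nat.le_of_dvd (by norm_num) hd
    generalize Nat.card (Sylow 11 H) = n at *
    interval_cases n <;> omega
  have hPc := sylow_card_prime h1 h2 P
  haveI := normal_of_card_sylow_one hn P
  obtain ⟨d, hd, hcard⟩ := card_normalizer_eq (by norm_num : Nat.Prime 11) hPc
  have htop : normalizer ((P : Subgroup H) : Set H) = ⊤ := normalizer_eq_top_iff.mpr inferInstance
  rw [htop, Subgroup.card_top, hH] at hcard
  have h3 : 2 ∣ Nat.card (centralizer ((P : Subgroup H) : Set H)) := by
    have hd' : d ≤ 10 := Nat.le_of_dvd (by norm_num) hd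
    generalize Nat.card (centralizer ((P : Subgroup H) : Set H)) = c at *
    interval_cases d <;> omega
  exact edge_of_centralizer (by norm_num) hPc (by norm_num) (by norm_num) h3

/-- Centralizing kernel of the conjugation action on a normal subgroup. -/
theorem exists_kernel (N : Subgroup H) [N.Normal] :
    ∃ C : Subgroup H, (∀ g ∈ C, ∀ n ∈ N, g * n = n * g) ∧ C.index ∣ (Nat.card N).factorial := by
  let φ : H →* Equiv.Perm N := (MulAut.toPerm N).comp (MulAut.conjNormal (H := N))
  refine ⟨φ.ker, ?_, ?_⟩
  · intro g hg n hn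
    have h1 : φ g = 1 := hg
    have h2 : φ g ⟨n, hn⟩ = ⟨n, hn⟩ := by rw [h1]; rfl
    have h3 : g * n * g⁻¹ = n := congrArg Subtype.val h2
    rw [mul_inv_eq_iff_eq_mul] at h3
    exact h3
  · rw [Subgroup.index_ker]
    have := Subgroup.card_subgroup_dvd_card φ.range
    rwa [Nat.card_perm] at this

end quotients

section F1

variable {G : Type*} [Group G] [Finite G]

/-- The disconnection hypothesis for a set of primes. -/
def Dis (G : Type*) [Group G] (A : Set ℕ) : Prop :=
  ∀ a ∈ A, ∀ b ∉ A, a.Prime → b.Prime → a ∣ Nat.card G → b ∣ Nat.card G → ¬ ∃ g : G, orderOf g = a * b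

/-- Two primes are on the same side of every cut. -/
def Lk (G : Type*) [Group G] (p q : ℕ) : Prop := ∀ A : Set ℕ, Dis G A → (p ∈ A ↔ q ∈ A)

omit [Finite G] in
theorem Lk.trans {p q r : ℕ} (h1 : Lk G p q) (h2 : Lk G q r) : Lk G p r :=
  fun A hA => (h1 A hA).trans (h2 A hA)

omit [Finite G] in
theorem Lk.symm {p q : ℕ} (h1 : Lk G p q) : Lk G q p := fun A hA => (h1 A hA).symm

omit [Finite G] in
theorem lk_of_edge {p q : ℕ} (hp : p.Prime) (hq : q.Prime) (hpd : p ∣ Nat.card G)
    (hqd : q ∣ Nat.card G) (h : Edge G p q) : Lk G p q := by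
  intro A hA
  constructor
  · intro hpA
    by_contra hqA
    exact hA p hpA q hqA hp hq hpd hqd h
  · intro hqA
    by_contra hpA
    exact hA q hqA p hpA hq hp hqd hpd h.symm

/-- All primes are linked to eleven. -/
def Conn (G : Type*) [Group G] : Prop := Lk G 2 11 ∧ Lk G 3 11 ∧ Lk G 5 11

theorem lk7920 (hG : Nat.card G = 7920) {p q : ℕ} (hp : p = 2 ∨ p = 3 ∨ p = 5 ∨ p = 11)
    (hq : q = 2 ∨ q = 3 ∨ q = 5 ∨ q = 11) (h : Edge G p q) : Lk G p q := by
  have hpp : p.Prime := by rcases hp with rfl | rfl | rfl | rfl <;> norm_num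
  have hqp : q.Prime := by rcases hq with rfl | rfl | rfl | rfl <;> norm_num
  have hpd : p ∣ Nat.card G := by rw [hG]; rcases hp with rfl | rfl | rfl | rfl <;> norm_num
  have hqd : q ∣ Nat.card G := by rw [hG]; rcases hq with rfl | rfl | rfl | rfl <;> norm_num
  exact lk_of_edge hpp hqp hpd hqd h

theorem divs_odd : ∀ a ∈ Finset.range 721, a ∣ 720 → ¬ 2 ∣ a → ¬ 5 ∣ a → a = 1 ∨ a = 3 ∨ a = 9 := by
  decide +kernel

theorem divs_two : ∀ a ∈ Finset.range 721, a ∣ 720 → ¬ 3 ∣ a → ¬ 5 ∣ a →
    a = 1 ∨ a = 2 ∨ a = 4 ∨ a = 8 ∨ a = 16 := by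
  decide +kernel

/-- A normal subgroup of order prime to eleven forces connectivity. -/
theorem F1 (hG : Nat.card G = 7920) (N : Subgroup G) [N.Normal] (hN1 : N ≠ ⊥)
    (h11 : ¬ 11 ∣ Nat.card N) : Conn G := by
  have ha7920 : Nat.card N ∣ 7920 := by
    rw [← hG]
    exact Subgroup.card_subgroup_dvd_card N
  have hne1 : Nat.card N ≠ 1 := by
    intro h
    exact hN1 (Subgroup.card_eq_one.mp h)
  have ha720 : Nat.card N ∣ 720 := by
    have : Nat.Coprime (Nat.card N) 11 :=
      (Nat.coprime_comm.mp ((Nat.Prime.coprime_iff_not_dvd (by norm_num)).mpr h11))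
    exact this.dvd_of_dvd_mul_right (by simpa using ha7920)
  have hale : Nat.card N ≤ 720 := Nat.le_of_dvd (by norm_num) ha720
  have hamem : Nat.card N ∈ Finset.range 721 := Finset.mem_range.mpr (by omega)
  have hcase2 : ∀ r : ℕ, ∀ K : ℕ, ¬ r ^ K ∣ 7920 → ∀ k, r ^ k ∣ Nat.card N → 1 < r → k < K := by
    intro r K hK k hk hr
    by_contra hcon
    exact hK ((pow_dvd_pow r (by omega)).trans (hk.trans ha7920))
  -- the edges with eleven
  have h11G : 11 ∣ Nat.card G := by rw [hG]; norm_num
  have e2 : 2 ∣ Nat.card N → Edge G 11 2 := fun hd => lemE N h11G h11 hd (by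
    intro k hk hdk
    have := hcase2 2 5 (by norm_num) k hdk (by norm_num)
    interval_cases k <;> norm_num)
  have e3 : 3 ∣ Nat.card N → Edge G 11 3 := fun hd => lemE N h11G h11 hd (by
    intro k hk hdk
    have := hcase2 3 3 (by norm_num) k hdk (by norm_num)
    interval_cases k <;> norm_num)
  have e5 : 5 ∣ Nat.card N → Edge G 11 5 := fun hd => lemE N h11G h11 hd (by
    intro k hk hdk
    have := hcase2 5 2 (by norm_num) k hdk (by norm_num)
    interval_cases k <;> norm_num)
  have l2 : 2 ∣ Nat.card N → Lk G 2 11 := fun hd =>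
    (lk7920 hG (by simp) (by simp) (e2 hd)).symm
  have l3 : 3 ∣ Nat.card N → Lk G 3 11 := fun hd =>
    (lk7920 hG (by simp) (by simp) (e3 hd)).symm
  have l5 : 5 ∣ Nat.card N → Lk G 5 11 := fun hd =>
    (lk7920 hG (by simp) (by simp) (e5 hd)).symm
  have hquot : Nat.card (G ⧸ N) * Nat.card N = 7920 := by
    rw [← hG]
    exact (Subgroup.card_eq_card_quotient_mul_card_subgroup N).symm
  have hlift : ∀ {p q : ℕ}, 0 < p → 0 < q → Edge (G ⧸ N) p q → Edge G p q :=
    fun hp hq h => h.lift (QuotientGroup.mk' N) (QuotientGroup.mk'_surjective N) hp hq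
  -- two
  have L2 : Lk G 2 11 := by
    by_cases h2 : 2 ∣ Nat.card N
    · exact l2 h2
    by_cases h5 : 5 ∣ Nat.card N
    · -- the Sylow 5-subgroup of N
      refine Lk.trans (q := 5) ?_ (l5 h5)
      apply lk7920 hG (by simp) (by simp)
      let T : Sylow 5 N := default
      have hTc : Nat.card T = 5 := by
        apply sylow_card_prime h5
        intro h25
        have := h25.trans ha720
        norm_num at this
      have hM : Nat.card ((T : Subgroup N).map N.subtype : Subgroup G) = 5 := by
        rw [Subgroup.card_map_of_injective N.subtype_injective]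
        exact hTc
      have hfr := Sylow.normalizer_sup_eq_top T
      have hdvd := quot_dvd_of_sup _ N hfr
      have h16 : 16 ∣ Nat.card (G ⧸ N) := by
        have h1 : Nat.Coprime 16 (Nat.card N) :=
          (Nat.Coprime.pow_left 4 ((Nat.Prime.coprime_iff_not_dvd Nat.prime_two).mpr h2))
        exact h1.dvd_of_dvd_mul_right (by rw [hquot]; norm_num)
      obtain ⟨d, hd, hcard⟩ := card_normalizer_eq (by norm_num : Nat.Prime 5) hM
      have h2C : 2 ∣ Nat.card (centralizer (((T : Subgroup N).map N.subtype : Subgroup G) : Set G)) := by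
        have h16' := h16.trans hdvd
        rw [hcard] at h16'
        by_contra hcon
        have h1 : Nat.Coprime 16 (Nat.card (centralizer (((T : Subgroup N).map N.subtype : Subgroup G) : Set G))) :=
          (Nat.Coprime.pow_left 4 ((Nat.Prime.coprime_iff_not_dvd Nat.prime_two).mpr hcon))
        have h2' := h1.dvd_of_dvd_mul_left h16'
        have h3 := Nat.le_of_dvd (Nat.pos_of_ne_zero (by
          rintro rfl
          norm_num at hd)) h2'
        have h4 := Nat.le_of_dvd (by norm_num) hd
        omega
      exact edge_of_centralizer (by norm_num) hM (by norm_num) (by norm_num) h2C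
    · rcases divs_odd _ hamem ha720 h2 h5 with h | h | h
      · exact absurd h hne1
      · -- order three
        refine Lk.trans (q := 3) ?_ (l3 (by rw [h]))
        apply lk7920 hG (by simp) (by simp)
        obtain ⟨C, hC, hCi⟩ := exists_kernel N
        rw [h] at hCi
        have h2C : 2 ∣ Nat.card C := by
          have h4 := Subgroup.card_mul_index C
          rw [hG] at h4
          have h5 : C.index ∣ 6 := by simpa [Nat.factorial] using hCi
          have h6 : C.index ≤ 6 := Nat.le_of_dvd (by norm_num) h5
          generalize Nat.card C = c at *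
          generalize C.index = i at *
          by_contra hcon
          interval_cases i <;> omega
        obtain ⟨y, hy⟩ := exists_prime_orderOf_dvd_card' (G := C) 2 h2C
        obtain ⟨x, hx⟩ := exists_prime_orderOf_dvd_card' (G := N) 3 (by rw [h])
        have hy' : orderOf (y : G) = 2 := by rw [Subgroup.orderOf_coe]; exact hy
        have hx' : orderOf (x : G) = 3 := by rw [Subgroup.orderOf_coe]; exact hx
        exact edge_of_commute (hC y y.2 x x.2) hy' hx' (by norm_num)
      · -- order nine: quotient of order 880
        have hH : Nat.card (G ⧸ N) = 880 := by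
          rw [h] at hquot
          omega
        have := hlift (by norm_num) (by norm_num) (h880 hH)
        exact lk7920 hG (by simp) (by simp) this
  -- three
  have L3 : Lk G 3 11 := by
    by_cases h3 : 3 ∣ Nat.card N
    · exact l3 h3
    by_cases h5 : 5 ∣ Nat.card N
    · refine Lk.trans (q := 5) ?_ (l5 h5)
      apply lk7920 hG (by simp) (by simp)
      refine lemE N (by rw [hG]; norm_num) h3 h5 ?_
      intro k hk hdk
      have := hcase2 5 2 (by norm_num) k hdk (by norm_num)
      interval_cases k <;> norm_num
    · rcases divs_two _ hamem ha720 h3 h5 with h | h | h | h | h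
      · exact absurd h hne1
      · -- order two
        refine Lk.trans (q := 2) ?_ L2
        apply lk7920 hG (by simp) (by simp)
        obtain ⟨y, hy⟩ := exists_prime_orderOf_dvd_card' (G := G) 3 (by rw [hG]; norm_num)
        have hM : IsPGroup 2 N := IsPGroup.of_card (n := 1) (by rw [h]; norm_num)
        have hnorm : y ∈ normalizer (N : Set G) := by
          rw [normalizer_eq_top_iff.mpr inferInstance]
          trivial
        exact edge_of_normalizes (by norm_num) hM hnorm hy (by rw [h]; norm_num)
      · -- order four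
        refine Lk.trans (q := 2) ?_ L2
        apply lk7920 hG (by simp) (by simp)
        obtain ⟨C, hC, hCi⟩ := exists_kernel N
        rw [h] at hCi
        have h3C : 3 ∣ Nat.card C := by
          have h4 := Subgroup.card_mul_index C
          rw [hG] at h4
          have h5 : C.index ∣ 24 := by simpa [Nat.factorial] using hCi
          have h6 : C.index ≤ 24 := Nat.le_of_dvd (by norm_num) h5
          generalize Nat.card C = c at *
          generalize C.index = i at *
          by_contra hcon
          interval_cases i <;> omega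
        obtain ⟨y, hy⟩ := exists_prime_orderOf_dvd_card' (G := C) 3 h3C
        obtain ⟨x, hx⟩ := exists_prime_orderOf_dvd_card' (G := N) 2 (by rw [h]; norm_num)
        have hy' : orderOf (y : G) = 3 := by rw [Subgroup.orderOf_coe]; exact hy
        have hx' : orderOf (x : G) = 2 := by rw [Subgroup.orderOf_coe]; exact hx
        exact edge_of_commute (hC y y.2 x x.2) hy' hx' (by norm_num)
      · -- order eight
        refine Lk.trans (q := 2) ?_ L2
        apply lk7920 hG (by simp) (by simp)
        obtain ⟨y, hy⟩ := exists_prime_orderOf_dvd_card' (G := G) 3 (by rw [hG]; norm_num)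
        have hM : IsPGroup 2 N := IsPGroup.of_card (n := 3) (by rw [h]; norm_num)
        have hnorm : y ∈ normalizer (N : Set G) := by
          rw [normalizer_eq_top_iff.mpr inferInstance]
          trivial
        exact edge_of_normalizes (by norm_num) hM hnorm hy (by rw [h]; norm_num)
      · -- order sixteen
        have hH : Nat.card (G ⧸ N) = 495 := by
          rw [h] at hquot
          omega
        have := hlift (by norm_num) (by norm_num) (h495 hH).1
        exact lk7920 hG (by simp) (by simp) this
  -- five
  have L5 : Lk G 5 11 := by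
    by_cases h5 : 5 ∣ Nat.card N
    · exact l5 h5
    by_cases h3 : 3 ∣ Nat.card N
    · refine Lk.trans (q := 3) ?_ L3
      apply lk7920 hG (by simp) (by simp)
      refine lemE N (by rw [hG]; norm_num) h5 h3 ?_
      intro k hk hdk
      have := hcase2 3 3 (by norm_num) k hdk (by norm_num)
      interval_cases k <;> norm_num
    · have h1 := divs_two _ hamem ha720 h3 h5
      by_cases h16 : Nat.card N = 16
      · have hH : Nat.card (G ⧸ N) = 495 := by
          rw [h16] at hquot
          omega
        rcases (h495 hH).2 with h | h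
        · exact lk7920 hG (by simp) (by simp) (hlift (by norm_num) (by norm_num) h)
        · exact (lk7920 hG (by simp) (by simp) (hlift (by norm_num) (by norm_num) h)).trans L3
      · refine Lk.trans (q := 2) ?_ L2
        apply lk7920 hG (by simp) (by simp)
        have h2 : 2 ∣ Nat.card N := by
          rcases h1 with h | h | h | h | h
          · exact absurd h hne1
          · rw [h]
          · rw [h]; norm_num
          · rw [h]; norm_num
          · exact absurd h h16
        refine lemE N (by rw [hG]; norm_num) h5 h2 ?_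
        intro k hk hdk
        have hk5 : k < 4 := by
          by_contra hcon
          have h16' : 2 ^ 4 ∣ Nat.card N := (pow_dvd_pow 2 (by omega)).trans hdk
          rcases h1 with h | h | h | h | h
          · exact hne1 h
          · rw [h] at h16'; norm_num at h16'
          · rw [h] at h16'; norm_num at h16'
          · rw [h] at h16'; norm_num at h16'
          · exact h16 h
        interval_cases k <;> norm_num
  exact ⟨L2, L3, L5⟩

end F1

end Cfsg.Agent.Lib.Order7920
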