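import Mathlib
import Cfsg.Agent.Lib.Order7920b

/-! Sylow 11-subgroups of a group of order 7920: the cases of 12, 45 and 144 of them. -/

set_option autoImplicit false

namespace Cfsg.Agent.Lib.Order7920

open Subgroup

variable {G : Type*} [Group G] [Finite G]

/-- Fixed-point parity for an involution acting on the Sylow subgroups. -/
theorem exists_fix_other {q : ℕ} {b : G} (hb : b ^ 2 = 1) (Q : Sylow q G)
    (hQ : b • Q = Q) (h2 : 2 ∣ Nat.card (Sylow q G)) : ∃ R : Sylow q G, b • R = R ∧ R ≠ Q := by
  classical
  haveI : Fintype (Sylow q G) := Fintype.ofFinite _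
  rw [Nat.card_eq_fintype_card] at h2
  have hσ : (MulAction.toPerm b : Equiv.Perm (Sylow q G)) ^ 2 ^ 1 = 1 := by
    rw [pow_one, pow_two]
    ext1 R
    rw [Equiv.Perm.mul_apply]
    change b • b • R = R
    rw [← mul_smul, ← pow_two, hb, one_smul]
  obtain ⟨R, hR, hne⟩ := Equiv.Perm.exists_fixed_point_of_prime' h2 hσ (a := Q) hQ
  exact ⟨R, hR, hne⟩

/-- The inversion dichotomy for an involution normalizing a subgroup of odd prime order. -/
theorem inv_or_comm {S : Subgroup G} {q : ℕ} (hq : q.Prime) (hS : Nat.card S = q) {b : G}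
    (hb : b ^ 2 = 1) (hbS : b ∈ normalizer (S : Set G)) :
    (∀ s ∈ S, b * s * b⁻¹ = s) ∨ (∀ s ∈ S, b * s * b⁻¹ = s⁻¹) := by
  haveI : Fact q.Prime := ⟨hq⟩
  obtain ⟨x, hx⟩ := exists_prime_orderOf_dvd_card' (G := S) q (by rw [hS])
  have hx' : orderOf (x : G) = q := by rw [Subgroup.orderOf_coe]; exact hx
  have hx1 : (x : G) ≠ 1 := by
    intro h
    rw [h, orderOf_one] at hx'
    exact hq.ne_one hx'.symm
  have hz := eq_zpowers_of_card_prime hq hS x.2 hx1
  have hmem : b * x * b⁻¹ ∈ Subgroup.zpowers (x : G) := by
    rw [hz]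
    exact (mem_normalizer_iff.mp hbS x).mp x.2
  obtain ⟨k, hk⟩ := Subgroup.mem_zpowers_iff.mp hmem
  have hbinv : b⁻¹ = b := by
    rw [inv_eq_iff_mul_eq_one, ← pow_two, hb]
  have hsq : (x : G) ^ (k * k) = x := by
    have h1 : b * ((x : G) ^ k) * b⁻¹ = (x : G) ^ (k * k) := by
      rw [← conj_zpow, ← hk, zpow_mul]
    rw [← h1, hk]
    calc b * (b * x * b⁻¹) * b⁻¹ = (b * b) * x * (b * b)⁻¹ := by group
      _ = x := by
        rw [← pow_two, hb]
        simp
  have hdvd : (q : ℤ) ∣ (k - 1) * (k + 1) := by
    have h2 : (x : G) ^ (k * k - 1) = 1 := by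
      rw [zpow_sub, hsq]
      simp
    have := orderOf_dvd_iff_zpow_eq_one.mpr h2
    rw [hx'] at this
    have h3 : (k - 1) * (k + 1) = k * k - 1 := by ring
    rw [h3]
    exact this
  have hp : Prime (q : ℤ) := Nat.prime_iff_prime_int.mp hq
  rcases hp.dvd_or_dvd hdvd with h | h
  · left
    have h4 : (x : G) ^ (k - 1) = 1 := by
      rw [← orderOf_dvd_iff_zpow_eq_one, hx']
      exact h
    have h5 : (x : G) ^ k = x := by
      have : k = (k - 1) + 1 := by ring
      rw [this, zpow_add, h4]
      simp
    intro s hs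
    rw [← hz] at hs
    obtain ⟨m, rfl⟩ := Subgroup.mem_zpowers_iff.mp hs
    rw [← conj_zpow, ← hk, h5]
  · right
    have h4 : (x : G) ^ (k + 1) = 1 := by
      rw [← orderOf_dvd_iff_zpow_eq_one, hx']
      exact h
    have h5 : (x : G) ^ k = (x : G)⁻¹ := by
      rw [zpow_add] at h4
      simp only [zpow_one] at h4
      exact eq_inv_of_mul_eq_one_left h4
    intro s hs
    rw [← hz] at hs
    obtain ⟨m, rfl⟩ := Subgroup.mem_zpowers_iff.mp hs
    rw [← conj_zpow, ← hk, h5, inv_zpow]

theorem cent_le_norm {Q : Subgroup G} {x : G} (hx : x ∈ centralizer (Q : Set G)) :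
    x ∈ normalizer (Q : Set G) := by
  rw [mem_normalizer_iff]
  intro h
  rw [Subgroup.mem_centralizer_iff] at hx
  constructor
  · intro hh
    have := hx h hh
    rw [← this]
    simpa using hh
  · intro hh
    have h1 := hx _ hh
    have h4 : x * h = x * (x * h * x⁻¹) := by
      calc x * h = x * h * x⁻¹ * x := by group
        _ = x * (x * h * x⁻¹) := h1
    have h5 : h = x * h * x⁻¹ := mul_left_cancel h4
    rw [h5]
    exact hh

section setup

variable (hG : Nat.card G = 7920)

include hG in
theorem card_syl11 (P : Sylow 11 G) : Nat.card P = 11 :=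
  sylow_card_prime (by rw [hG]; norm_num) (by rw [hG]; norm_num) P

include hG in
/-- The case of twelve Sylow subgroups: the kernel of the action is nontrivial. -/
theorem t3 (hn : Nat.card (Sylow 11 G) = 12) : sylKer G 11 ≠ ⊥ := by
  classical
  haveI : Fintype (Sylow 11 G) := Fintype.ofFinite _
  let Q : Sylow 11 G := default
  have hQc := card_syl11 hG Q
  have hNc := card_normalizer_sylow Q
  rw [hn, hG] at hNc
  obtain ⟨d, hd, hcard⟩ := card_normalizer_eq (by norm_num : Nat.Prime 11) hQc
  have h2C : 2 ∣ Nat.card (centralizer ((Q : Subgroup G) : Set G)) := by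
    have hd' : d ≤ 10 := Nat.le_of_dvd (by norm_num) hd
    have h660 : Nat.card (normalizer ((Q : Subgroup G) : Set G)) = 660 := by omega
    rw [h660] at hcard
    generalize Nat.card (centralizer ((Q : Subgroup G) : Set G)) = c at *
    by_contra hcon
    interval_cases d <;> omega
  obtain ⟨w, hw⟩ := exists_prime_orderOf_dvd_card' (G := centralizer ((Q : Subgroup G) : Set G)) 2 h2C
  have hw' : orderOf (w : G) = 2 := by rw [Subgroup.orderOf_coe]; exact hw
  have hw1 : (w : G) ≠ 1 := by
    intro h
    rw [h, orderOf_one] at hw'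
    omega
  have hw2 : (w : G) ^ 2 = 1 := by rw [← hw', pow_orderOf_eq_one]
  have hwcomm : ∀ y ∈ (Q : Subgroup G), (w : G) * y = y * w := by
    intro y hy
    exact ((Subgroup.mem_centralizer_iff.mp w.2) y hy).symm
  have hwN : (w : G) ∈ normalizer ((Q : Subgroup G) : Set G) := by
    rw [mem_normalizer_iff]
    intro h
    constructor
    · intro hh
      rw [hwcomm h hh, mul_inv_cancel_right]
      exact hh
    · intro hh
      have h1 := hwcomm _ hh
      have h2 : (w : G) * h = (w : G) * (w * h * (w : G)⁻¹) := by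
        calc (w : G) * h = (w : G) * h * (w : G)⁻¹ * w := by group
          _ = _ := h1.symm ▸ rfl
      have h3 := mul_left_cancel h2
      rw [h3]
      exact hh
  have hwQ : (w : G) • Q = Q := Sylow.smul_eq_iff_mem_normalizer.mpr hwN
  obtain ⟨R, hR, hRne⟩ := exists_fix_other hw2 Q hwQ (by rw [hn]; norm_num)
  -- the orbit map
  have hfree : ∀ y ∈ (Q : Subgroup G), y ≠ 1 → y • R ≠ R := fun y hy hy1 =>
    sylow_free Q R hQc hRne hy hy1
  let ι : ↥(Q : Subgroup G) → {S : Sylow 11 G // S ≠ Q} := fun y => ⟨(y : G) • R, by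
    intro h
    apply hRne
    have h1 : (y : G)⁻¹ • Q = Q :=
      Sylow.smul_eq_iff_mem_normalizer.mpr (Subgroup.le_normalizer (Q.1.inv_mem y.2))
    have h2 : (y : G)⁻¹ • ((y : G) • R) = (y : G)⁻¹ • Q := by rw [h]
    rw [inv_smul_smul, h1] at h2
    exact h2⟩
  have hιinj : Function.Injective ι := by
    intro y y' h
    have h1 : (y : G) • R = (y' : G) • R := congrArg Subtype.val h
    by_contra hne
    have h2 : ((y' : G)⁻¹ * y) • R = R := by
      rw [mul_smul, h1, inv_smul_smul]
    refine hfree _ (Q.1.mul_mem (Q.1.inv_mem y'.2) y.2) ?_ h2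
    intro h3
    apply hne
    apply Subtype.ext
    rw [inv_mul_eq_one] at h3
    exact h3.symm
  have hcS : Nat.card {S : Sylow 11 G // S ≠ Q} = 11 := by
    rw [Nat.card_eq_fintype_card, Fintype.card_subtype_compl, Fintype.card_subtype_eq,
      ← Nat.card_eq_fintype_card, hn]
  have hιbij : Function.Bijective ι :=
    Function.Injective.bijective_of_nat_card_le hιinj (by rw [hcS]; exact hQc.ge)
  intro hbot
  apply hw1
  have hk : (w : G) ∈ sylKer G 11 := by
    rw [mem_sylKer]
    intro S
    by_cases hS : S = Q
    · rw [hS]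
      exact hwQ
    · obtain ⟨y, hy⟩ := hιbij.2 ⟨S, hS⟩
      have hy' : (y : G) • R = S := congrArg Subtype.val hy
      rw [← hy', ← mul_smul, hwcomm y y.2, mul_smul, hR]
  rw [hbot] at hk
  exact Subgroup.mem_bot.mp hk


include hG in
/-- The case of forty-five Sylow subgroups: the kernel of the action is nontrivial. -/
theorem t4 (hn : Nat.card (Sylow 11 G) = 45) : sylKer G 11 ≠ ⊥ := by
  classical
  haveI : Fintype (Sylow 11 G) := Fintype.ofFinite _
  let Q : Sylow 11 G := default
  have hQc := card_syl11 hG Q
  have hNc := card_normalizer_sylow Q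
  rw [hn, hG] at hNc
  obtain ⟨d, hd, hcard⟩ := card_normalizer_eq (by norm_num : Nat.Prime 11) hQc
  have h8C : 2 ^ 3 ∣ Nat.card (centralizer ((Q : Subgroup G) : Set G)) := by
    have hd' : d ≤ 10 := Nat.le_of_dvd (by norm_num) hd
    have h176 : Nat.card (normalizer ((Q : Subgroup G) : Set G)) = 176 := by omega
    rw [h176] at hcard
    generalize Nat.card (centralizer ((Q : Subgroup G) : Set G)) = c at *
    interval_cases d <;> omega
  set C := centralizer ((Q : Subgroup G) : Set G) with hC
  obtain ⟨K, hK⟩ := Sylow.exists_subgroup_card_pow_prime 2 h8C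
  let K' : Subgroup G := K.map C.subtype
  have hK'c : Nat.card K' = 8 := by
    rw [Subgroup.card_map_of_injective C.subtype_injective, hK]
    norm_num
  have hK'C : ∀ a ∈ K', ∀ y ∈ (Q : Subgroup G), a * y = y * a := by
    rintro _ ⟨a, _, rfl⟩ y hy
    exact ((Subgroup.mem_centralizer_iff.mp a.2) y hy).symm
  have hK'N : ∀ a ∈ K', a • Q = Q := by
    intro a ha
    refine Sylow.smul_eq_iff_mem_normalizer.mpr (cent_le_norm ?_)
    rw [Subgroup.mem_centralizer_iff]
    intro y hy
    exact (hK'C a ha y hy).symm
  -- a fixed point off Q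
  have hexists : ∃ a ∈ K', a ≠ 1 ∧ ∃ R : Sylow 11 G, R ≠ Q ∧ a • R = R := by
    by_contra hcon
    have hcon' : ∀ a ∈ K', a ≠ 1 → ∀ R : Sylow 11 G, R ≠ Q → a • R ≠ R := by
      intro a ha ha1 R hR h
      exact hcon ⟨a, ha, ha1, R, hR, h⟩
    let S : SubMulAction K' (Sylow 11 G) :=
      { carrier := {R | R ≠ Q}
        smul_mem' := by
          intro c R hR h
          apply hR
          have h1 : (c : G)⁻¹ • Q = Q := hK'N _ (K'.inv_mem c.2)
          have h2 : (c : G)⁻¹ • ((c : G) • R) = (c : G)⁻¹ • Q := congrArg _ h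
          rw [inv_smul_smul, h1] at h2
          exact h2 }
    have hfree : ∀ R : S, MulAction.stabilizer K' R = ⊥ := by
      intro R
      rw [eq_bot_iff]
      intro a ha
      rw [Subgroup.mem_bot]
      by_contra ha1
      have ha1' : (a : G) ≠ 1 := fun h => ha1 (Subtype.ext h)
      refine hcon' _ a.2 ha1' R.1 R.2 ?_
      have : a • R = R := ha
      exact congrArg Subtype.val this
    have he := Nat.card_congr (MulAction.selfEquivOrbitsQuotientProd hfree)
    rw [Nat.card_prod, hK'c] at he
    have hS : Nat.card S = 44 := by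
      have : Nat.card S = Nat.card {R : Sylow 11 G // R ≠ Q} := rfl
      rw [this, Nat.card_eq_fintype_card, Fintype.card_subtype_compl, Fintype.card_subtype_eq,
        ← Nat.card_eq_fintype_card, hn]
    rw [hS] at he
    omega
  obtain ⟨a, haK, ha1, R, hRne, haR⟩ := hexists
  -- an involution
  have hao : ∃ m, orderOf a = 2 ^ m := by
    have h1 : orderOf a ∣ 2 ^ 3 := by
      have := Subgroup.orderOf_dvd_natCard K' haK
      rwa [hK'c] at this
    obtain ⟨m, _, hm⟩ := (Nat.dvd_prime_pow Nat.prime_two).mp h1
    exact ⟨m, hm⟩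
  obtain ⟨m, hm⟩ := hao
  obtain ⟨b, ⟨n, rfl⟩, hbo⟩ := exists_pow_order_prime ha1 hm
  set b := a ^ n with hb
  have hbK : b ∈ K' := K'.pow_mem haK n
  have hbR : b • R = R := by
    have : a ∈ MulAction.stabilizer G R := haR
    exact (MulAction.stabilizer G R).pow_mem this n
  have hb1 : b ≠ 1 := by
    intro h
    rw [h, orderOf_one] at hbo
    omega
  have hb2 : b ^ 2 = 1 := by rw [← hbo, pow_orderOf_eq_one]
  have hbQ : b • Q = Q := hK'N b hbK
  have hbcomm : ∀ y ∈ (Q : Subgroup G), b * y = y * b := hK'C b hbK
  let F : Finset (Sylow 11 G) := Finset.univ.filter (fun S => b • S = S)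
  have hmemF : ∀ S, S ∈ F ↔ b • S = S := by
    intro S
    simp [F]
  -- at least twelve fixed points
  have hFlow : 12 ≤ F.card := by
    haveI : Fintype ↥(Q : Subgroup G) := Fintype.ofFinite _
    have hinj : Function.Injective (fun y : ↥(Q : Subgroup G) => (y : G) • R) := by
      intro y y' h
      have h1 : (y : G) • R = (y' : G) • R := h
      by_contra hne
      have h2 : ((y' : G)⁻¹ * y) • R = R := by
        rw [mul_smul, h1, inv_smul_smul]
      refine sylow_free Q R hQc hRne (Q.1.mul_mem (Q.1.inv_mem y'.2) y.2) ?_ h2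
      intro h3
      apply hne
      apply Subtype.ext
      rw [inv_mul_eq_one] at h3
      exact h3.symm
    have hle : (Finset.univ : Finset ↥(Q : Subgroup G)).card ≤ (F.erase Q).card := by
      refine Finset.card_le_card_of_injOn (fun y => (y : G) • R) ?_ hinj.injOn
      intro y _
      simp only [Finset.coe_erase, Set.mem_sdiff, Finset.mem_coe, Set.mem_singleton_iff]
      constructor
      · rw [hmemF, ← mul_smul, hbcomm y y.2, mul_smul, hbR]
      · intro h
        apply hRne
        have h1 : (y : G)⁻¹ • Q = Q :=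
          Sylow.smul_eq_iff_mem_normalizer.mpr (Subgroup.le_normalizer (Q.1.inv_mem y.2))
        have h2 : (y : G)⁻¹ • ((y : G) • R) = (y : G)⁻¹ • Q := by rw [h]
        rw [inv_smul_smul, h1] at h2
        exact h2
    rw [Finset.card_univ, ← Nat.card_eq_fintype_card, hQc, Finset.card_erase_of_mem
      ((hmemF Q).mpr hbQ)] at hle
    omega
  -- b centralizes each fixed Sylow subgroup
  have hcent : ∀ S ∈ F, ∀ s ∈ (S : Subgroup G), b * s * b⁻¹ = s := by
    intro S hS
    have hSc := card_syl11 hG S
    have hbS : b ∈ normalizer ((S : Subgroup G) : Set G) :=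
      Sylow.smul_eq_iff_mem_normalizer.mp ((hmemF S).mp hS)
    rcases inv_or_comm (by norm_num : Nat.Prime 11) hSc hb2 hbS with h | hinv
    · exact h
    · exfalso
      haveI : Fintype ↥(S : Subgroup G) := Fintype.ofFinite _
      have hle : ((F.erase S) ×ˢ (Finset.univ : Finset ↥(S : Subgroup G))).card
          ≤ ((Finset.univ : Finset (Sylow 11 G)).erase S).card := by
        refine Finset.card_le_card_of_injOn (fun p => (p.2 : G) • p.1) ?_ ?_
        · rintro ⟨T, y⟩ hp
          simp only [Finset.coe_product, Set.mem_prod, Finset.mem_coe, Finset.mem_erase] at hp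
          simp only [Finset.coe_erase, Finset.coe_univ, Set.mem_sdiff, Set.mem_univ,
            Set.mem_singleton_iff, true_and]
          intro h
          apply hp.1.1
          have h1 : (y : G)⁻¹ • S = S :=
            Sylow.smul_eq_iff_mem_normalizer.mpr (Subgroup.le_normalizer (S.1.inv_mem y.2))
          have h2 : (y : G)⁻¹ • ((y : G) • T) = (y : G)⁻¹ • S := by rw [h]
          rw [inv_smul_smul, h1] at h2
          exact h2
        · rintro ⟨T, y⟩ hp ⟨T', y'⟩ hp' heq
          simp only [Finset.coe_product, Set.mem_prod, Finset.mem_coe, Finset.mem_erase] at hp hp'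
          have heq' : (y : G) • T = (y' : G) • T' := heq
          have hTne : T ≠ S := hp.1.1
          have hTF : b • T = T := (hmemF T).mp hp.1.2
          have hT'F : b • T' = T' := (hmemF T').mp hp'.1.2
          set z : G := (y' : G)⁻¹ * y with hz
          have hzS : z ∈ (S : Subgroup G) := S.1.mul_mem (S.1.inv_mem y'.2) y.2
          have hzT : z • T = T' := by
            rw [hz, mul_smul, heq', inv_smul_smul]
          have hbz : b * z * b⁻¹ = z⁻¹ := hinv z hzS
          have h1 : z⁻¹ • T = z • T := by
            rw [hzT]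
            calc z⁻¹ • T = (b * z * b⁻¹) • T := by rw [hbz]
              _ = (b * z) • (b⁻¹ • T) := by rw [mul_smul]
              _ = (b * z) • T := by
                have : b⁻¹ • T = T := by
                  conv_lhs => rw [← hTF]
                  rw [inv_smul_smul]
                rw [this]
              _ = b • (z • T) := by rw [mul_smul]
              _ = T' := by rw [hzT, hT'F]
          have h2 : (z * z) • T = T := by
            rw [mul_smul, ← h1, smul_inv_smul]
          have hzz : z * z = 1 := by
            by_contra hne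
            exact sylow_free S T hSc hTne (S.1.mul_mem hzS hzS) hne h2
          have hz1 : z = 1 := by
            have h3 : orderOf z ∣ 2 := orderOf_dvd_of_pow_eq_one (by rw [pow_two, hzz])
            have h4 : orderOf z ∣ 11 := by
              have := Subgroup.orderOf_dvd_natCard (S : Subgroup G) hzS
              rwa [hSc] at this
            have h5 : orderOf z ∣ 1 := by
              have := Nat.dvd_gcd h3 h4
              simpa using this
            exact orderOf_eq_one_iff.mp (Nat.dvd_one.mp h5)
          have hTT : T = T' := by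
            rw [← hzT, hz1, one_smul]
          have hyy : y = y' := by
            apply Subtype.ext
            rw [hz, inv_mul_eq_one] at hz1
            exact hz1.symm
          rw [hTT, hyy]
      rw [Finset.card_product, Finset.card_univ, ← Nat.card_eq_fintype_card, hSc,
        Finset.card_erase_of_mem (Finset.mem_univ S), Finset.card_univ,
        ← Nat.card_eq_fintype_card, hn, Finset.card_erase_of_mem hS] at hle
      omega
  -- the centralizer of b
  let Hb : Subgroup G := Subgroup.centralizer {b}
  have hmemHb : ∀ x, x ∈ Hb ↔ x * b = b * x := by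
    intro x
    rw [Subgroup.mem_centralizer_singleton_iff]
  have hFle : ∀ S ∈ F, (S : Subgroup G) ≤ Hb := by
    intro S hS s hs
    rw [hmemHb]
    have := hcent S hS s hs
    rw [mul_inv_eq_iff_eq_mul] at this
    exact this.symm
  have h11Hb : 11 ∣ Nat.card Hb := by
    have := Subgroup.card_dvd_of_le (hFle Q ((hmemF Q).mpr hbQ))
    rwa [hQc] at this
  have hHb7920 : Nat.card Hb ∣ 7920 := by
    rw [← hG]
    exact Subgroup.card_subgroup_dvd_card Hb
  have h121Hb : ¬ 11 ^ 2 ∣ Nat.card Hb := by
    intro h
    have := h.trans hHb7920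
    norm_num at this
  let g : F → Sylow 11 Hb := fun S => (S : Sylow 11 G).subtype (hFle S S.2)
  have hginj : Function.Injective g := by
    intro S S' h
    apply Subtype.ext
    exact Sylow.subtype_injective h
  have hgsurj : Function.Surjective g := by
    intro P₀
    have hP₀c := sylow_card_prime h11Hb h121Hb P₀
    have hP₁c : Nat.card ((P₀ : Subgroup Hb).map Hb.subtype : Subgroup G) = 11 := by
      rw [Subgroup.card_map_of_injective Hb.subtype_injective]
      exact hP₀c
    obtain ⟨S, hS⟩ := (P₀.2.map Hb.subtype).exists_le_sylow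
    have hSeq : (P₀ : Subgroup Hb).map Hb.subtype = (S : Subgroup G) :=
      Subgroup.eq_of_le_of_card_ge hS (by rw [hP₁c, card_syl11 hG S])
    have hSF : S ∈ F := by
      rw [hmemF]
      refine Sylow.smul_eq_iff_mem_normalizer.mpr (cent_le_norm ?_)
      rw [Subgroup.mem_centralizer_iff]
      intro s hs
      have hs' : s ∈ (P₀ : Subgroup Hb).map Hb.subtype := by rw [hSeq]; exact hs
      obtain ⟨t, _, rfl⟩ := hs'
      exact ((hmemHb _).mp t.2)
    refine ⟨⟨S, hSF⟩, ?_⟩
    apply Sylow.ext
    rw [Sylow.coe_subtype]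
    ext x
    rw [Subgroup.mem_subgroupOf]
    change (x : G) ∈ (S : Subgroup G) ↔ x ∈ (P₀ : Subgroup Hb)
    rw [← hSeq]
    constructor
    · rintro ⟨t, ht, h⟩
      have : t = x := Subtype.ext h
      rwa [← this]
    · intro hx
      exact ⟨x, hx, rfl⟩
  have hFn : F.card = Nat.card (Sylow 11 Hb) := by
    rw [← Nat.card_congr (Equiv.ofBijective g ⟨hginj, hgsurj⟩), Nat.card_eq_fintype_card,
      Fintype.card_coe]
  have hF11 : F.card % 11 = 1 := by
    rw [hFn]
    exact card_sylow_modEq_one 11 Hb
  have hFd : F.card ∣ 7920 := by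
    rw [hFn]
    let P₀ : Sylow 11 Hb := default
    exact (P₀.card_dvd_index.trans (Subgroup.index_dvd_card _)).trans hHb7920
  have hFodd : F.card % 2 = 1 := by
    let σ : Function.End (Sylow 11 G) := fun S => b • S
    have hσ : σ ^ 2 ^ 1 = 1 := by
      funext S
      rw [pow_one, pow_two]
      change b • b • S = S
      rw [← mul_smul, ← pow_two, hb2, one_smul]
    have hmod := Equiv.Perm.card_fixedPoints_modEq hσ
    have h1 : Fintype.card (Function.fixedPoints σ) = F.card := by
      apply Fintype.card_of_subtype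
      intro S
      rw [hmemF]
      exact Iff.rfl
    rw [h1, ← Nat.card_eq_fintype_card, hn] at hmod
    exact hmod.symm
  have hFup : F.card ≤ 45 := by
    have := Finset.card_le_univ F
    rwa [← Nat.card_eq_fintype_card, hn] at this
  have hF45 : F.card = 45 := by
    generalize F.card = c at *
    interval_cases c <;> omega
  have hFuniv : F = Finset.univ := by
    apply Finset.eq_univ_of_card
    rw [hF45, ← Nat.card_eq_fintype_card, hn]
  intro hbot
  have hbk : b ∈ sylKer G 11 := by
    rw [mem_sylKer]
    intro S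
    rw [← hmemF, hFuniv]
    exact Finset.mem_univ S
  rw [hbot] at hbk
  exact hb1 (Subgroup.mem_bot.mp hbk)

include hG in
/-- The case of 144 Sylow subgroups. -/
theorem t5 (hn : Nat.card (Sylow 11 G) = 144) (N : Subgroup G) [N.Normal] (hN1 : N ≠ ⊥)
    (hNt : N ≠ ⊤) : Conn G := by
  by_cases h11 : 11 ∣ Nat.card N
  · have hN7920 : Nat.card N ∣ 7920 := by
      rw [← hG]
      exact Subgroup.card_subgroup_dvd_card N
    have h121 : ¬ 11 ^ 2 ∣ Nat.card N := by
      intro h
      have := h.trans hN7920
      norm_num at this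
    let P₀ : Sylow 11 N := default
    have hP₀c := sylow_card_prime h11 h121 P₀
    have hP₁c : Nat.card ((P₀ : Subgroup N).map N.subtype : Subgroup G) = 11 := by
      rw [Subgroup.card_map_of_injective N.subtype_injective]
      exact hP₀c
    obtain ⟨S, hS⟩ := (P₀.2.map N.subtype).exists_le_sylow
    have hSeq : (P₀ : Subgroup N).map N.subtype = (S : Subgroup G) :=
      Subgroup.eq_of_le_of_card_ge hS (by rw [hP₁c, card_syl11 hG S])
    have hSn := card_normalizer_sylow S
    rw [hn, hG, ← hSeq] at hSn
    have h55 : Nat.card (normalizer (((P₀ : Subgroup N).map N.subtype : Subgroup G) : Set G)) = 55 := by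
      omega
    have hfr := Sylow.normalizer_sup_eq_top P₀
    have hdvd := quot_dvd_of_sup _ N hfr
    rw [h55] at hdvd
    have hquot : Nat.card (G ⧸ N) * Nat.card N = 7920 := by
      rw [← hG]
      exact (Subgroup.card_eq_card_quotient_mul_card_subgroup N).symm
    obtain ⟨c, hc⟩ := h11
    have hq1 : Nat.card (G ⧸ N) ≠ 1 := by
      intro h
      apply hNt
      have h1 : N.index = 1 := by
        rw [Subgroup.index_eq_card]
        exact h
      exact Subgroup.index_eq_one.mp h1
    have hq5 : Nat.card (G ⧸ N) = 5 := by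
      have hle := Nat.le_of_dvd (by norm_num) hdvd
      rw [hc] at hquot
      generalize Nat.card (G ⧸ N) = d at *
      interval_cases d <;> omega
    have hNc : Nat.card N = 1584 := by
      rw [hq5] at hquot
      omega
    let A := normalizer ((P₀ : Subgroup N) : Set N)
    have hA1 : Nat.card A ∣ 55 := by
      have h1 : A.map N.subtype ≤ normalizer (((P₀ : Subgroup N).map N.subtype : Subgroup G) : Set G) :=
        Subgroup.le_normalizer_map N.subtype
      have h2 := Subgroup.card_dvd_of_le h1
      rw [h55, Subgroup.card_map_of_injective N.subtype_injective] at h2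
      exact h2
    have hA2 : Nat.card A ∣ 1584 := by
      rw [← hNc]
      exact Subgroup.card_subgroup_dvd_card A
    have hA3 : 11 ∣ Nat.card A := by
      have := Subgroup.card_dvd_of_le (Subgroup.le_normalizer : (P₀ : Subgroup N) ≤ A)
      rwa [hP₀c] at this
    have hA : Nat.card A = 11 := by
      have h1 := Nat.dvd_gcd hA1 hA2
      have h2 : Nat.gcd 55 1584 = 11 := by norm_num
      rw [h2] at h1
      exact Nat.dvd_antisymm h1 hA3
    obtain ⟨K, hK, hKc⟩ := exists_complement P₀ hP₀c hA
    rw [hNc] at hKc
    have hKc' : Nat.card K = 144 := by omega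
    let K' : Subgroup G := K.map N.subtype
    have hK'c : Nat.card K' = 144 := by
      rw [Subgroup.card_map_of_injective N.subtype_injective, hKc']
    have hchar : ∀ x (hx : x ∈ N), x ^ 144 = 1 → x ∈ K' := by
      intro x hx h144
      refine ⟨⟨x, hx⟩, ?_, rfl⟩
      have hq : Nat.card (N ⧸ K) = 11 := by
        have := Subgroup.card_eq_card_quotient_mul_card_subgroup K
        rw [hNc, hKc'] at this
        omega
      have h1 : ((⟨x, hx⟩ : N) : N ⧸ K) ^ 11 = 1 := by
        rw [← hq]
        exact pow_card_eq_one'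
      have h2 : ((⟨x, hx⟩ : N) : N ⧸ K) ^ 144 = 1 := by
        rw [← QuotientGroup.mk_pow]
        have : (⟨x, hx⟩ : N) ^ 144 = 1 := Subtype.ext h144
        rw [this]
        rfl
      have h3 := pow_gcd_eq_one.mpr ⟨h1, h2⟩
      have h4 : Nat.gcd 11 144 = 1 := by norm_num
      rw [h4, pow_one] at h3
      exact (QuotientGroup.eq_one_iff _).mp h3
    haveI hK'n : K'.Normal := by
      constructor
      intro x hx g
      obtain ⟨y, hy, rfl⟩ := hx
      apply hchar
      · exact ‹N.Normal›.conj_mem _ y.2 g
      · rw [conj_pow]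
        have h1 : (y : N) ^ 144 = 1 := by
          rw [← hKc']
          have : (⟨y, hy⟩ : K) ^ Nat.card K = 1 := pow_card_eq_one'
          exact congrArg Subtype.val this
        have h2 : ((y : N) : G) ^ 144 = 1 := by
          have := congrArg Subtype.val h1
          simpa using this
        change g * ((y : N) : G) ^ 144 * g⁻¹ = 1
        rw [h2]
        simp
    refine F1 hG K' ?_ (by rw [hK'c]; norm_num)
    intro h
    rw [h, Subgroup.card_bot] at hK'c
    omega
  · exact F1 hG N hN1 h11

end setup

end Cfsg.Agent.Lib.Order7920
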