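import Mathlib
import Cfsg.Agent.Lib.ClassicalSL

set_option autoImplicit false

namespace Cfsg.Agent.Lib.OrderType

open Matrix

/-!
# Two groups with the same order type, one solvable and the other not.

The function `n ↦ #{x | x ^ n = 1}` is multiplicative on direct products, and determines the number
of elements of each order. The groups `SL_3(2)` and `AΓL_1(8)` have the same order, and agree on odd
`n`. Their quotient is then matched by a product of groups `N ⋊ D₈`, with `N` elementary abelian of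
order `3^a 7^b`, on which `D₈` acts through sign characters: a relation found by linear algebra over `ℚ`
on the valuations of these functions.
-/

/-- The number of solutions of `x ^ n = 1`. -/
noncomputable def fc (X : Type) [Group X] (n : ℕ) : ℕ := Nat.card {x : X // x ^ n = 1}

theorem fc_prod (X Y : Type) [Group X] [Group Y] (n : ℕ) :
    fc (X × Y) n = fc X n * fc Y n := by
  unfold fc
  rw [← Nat.card_prod]
  apply Nat.card_congr
  exact
    { toFun := fun p => (⟨p.1.1, congrArg Prod.fst p.2⟩, ⟨p.1.2, congrArg Prod.snd p.2⟩)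
      invFun := fun q => ⟨(q.1.1, q.2.1), Prod.ext q.1.2 q.2.2⟩
      left_inv := fun _ => rfl
      right_inv := fun _ => rfl }

theorem fc_gcd {X : Type} [Group X] {e : ℕ} (he : ∀ x : X, x ^ e = 1) (n : ℕ) :
    fc X n = fc X (Nat.gcd n e) := by
  unfold fc
  apply Nat.card_congr
  refine Equiv.subtypeEquivRight fun x => ⟨fun h => pow_gcd_eq_one.mpr ⟨h, he x⟩, fun h => ?_⟩
  obtain ⟨k, hk⟩ := Nat.gcd_dvd_left n e
  rw [hk, pow_mul, h, one_pow]

/-- The solutions of `x ^ n = 1` are counted by the orders. -/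
theorem fc_eq_sum {G : Type} [Group G] [Finite G] {n : ℕ} (hn : 0 < n) :
    fc G n = ∑ d ∈ n.divisors, Nat.card {g : G // orderOf g = d} := by
  classical
  haveI := Fintype.ofFinite G
  unfold fc
  rw [Nat.card_eq_fintype_card, Fintype.card_subtype]
  have hcard : ∀ d, Nat.card {g : G // orderOf g = d} =
      (Finset.univ.filter (fun g : G => orderOf g = d)).card := by
    intro d
    rw [Nat.card_eq_fintype_card, Fintype.card_subtype]
  simp only [hcard]
  rw [Finset.card_eq_sum_card_fiberwise (f := orderOf) (t := n.divisors)]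
  · refine Finset.sum_congr rfl fun d hd => ?_
    congr 1
    ext g
    simp only [Finset.mem_filter, Finset.mem_univ, true_and, and_iff_right_iff_imp]
    intro hg
    have hd' := (Nat.mem_divisors.mp hd).1
    rw [← hg] at hd'
    exact orderOf_dvd_iff_pow_eq_one.mp hd'
  · intro g hg
    have hg' : g ^ n = 1 := by simpa using hg
    exact Nat.mem_divisors.mpr ⟨orderOf_dvd_of_pow_eq_one hg', hn.ne'⟩

theorem card_orderOf_eq {G H : Type} [Group G] [Group H] [Finite G] [Finite H]
    (h : ∀ n, fc G n = fc H n) (n : ℕ) :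
    Nat.card {g : G // orderOf g = n} = Nat.card {x : H // orderOf x = n} := by
  induction n using Nat.strong_induction_on with
  | _ n ih =>
    rcases Nat.eq_zero_or_pos n with rfl | hn
    · haveI : IsEmpty {g : G // orderOf g = 0} :=
        ⟨fun g => (orderOf_pos g.1).ne' g.2⟩
      haveI : IsEmpty {g : H // orderOf g = 0} :=
        ⟨fun g => (orderOf_pos g.1).ne' g.2⟩
      rw [Nat.card_of_isEmpty, Nat.card_of_isEmpty]
    · have h1 := fc_eq_sum (G := G) hn
      have h2 := fc_eq_sum (G := H) hn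
      rw [h n, h2, ← Nat.insert_self_properDivisors hn.ne',
        Finset.sum_insert Nat.self_notMem_properDivisors,
        Finset.sum_insert Nat.self_notMem_properDivisors] at h1
      have h3 : ∑ d ∈ n.properDivisors, Nat.card {g : H // orderOf g = d} =
          ∑ d ∈ n.properDivisors, Nat.card {g : G // orderOf g = d} :=
        Finset.sum_congr rfl fun d hd => (ih d (Nat.mem_properDivisors.mp hd).2).symm
      omega

/-! ### Semidirect products -/

/-- An action by additive maps, without the inverse. -/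
structure Act (W T : Type) [AddCommGroup W] [Group T] where
  /-- The action. -/
  f : T → W → W
  f_one : ∀ w, f 1 w = w
  f_mul : ∀ s t w, f (s * t) w = f s (f t w)
  f_add : ∀ t v w, f t (v + w) = f t v + f t w

/-- The semidirect product. -/
@[ext] structure SD {W T : Type} [AddCommGroup W] [Group T] (_D : Act W T) where
  /-- The normal part. -/
  w : W
  /-- The acting part. -/
  t : T

section SDgroup

variable {W T : Type} [AddCommGroup W] [Group T] (D : Act W T)

instance : Mul (SD D) := ⟨fun x y => ⟨x.w + D.f x.t y.w, x.t * y.t⟩⟩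
instance : One (SD D) := ⟨⟨0, 1⟩⟩
instance : Inv (SD D) := ⟨fun x => ⟨- D.f x.t⁻¹ x.w, x.t⁻¹⟩⟩

instance : Group (SD D) :=
  Group.ofLeftAxioms
    (fun x y z => SD.ext
      (by
        change x.w + D.f x.t y.w + D.f (x.t * y.t) z.w = x.w + D.f x.t (y.w + D.f y.t z.w)
        rw [D.f_mul, D.f_add, add_assoc])
      (mul_assoc x.t y.t z.t))
    (fun x => SD.ext
      (by
        change (0 : W) + D.f 1 x.w = x.w
        rw [D.f_one, zero_add])
      (one_mul x.t))
    (fun x => SD.ext
      (by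
        change - D.f x.t⁻¹ x.w + D.f x.t⁻¹ x.w = 0
        rw [neg_add_cancel])
      (inv_mul_cancel x.t))

@[simp] theorem SD.mul_w (x y : SD D) : (x * y).w = x.w + D.f x.t y.w := rfl
@[simp] theorem SD.mul_t (x y : SD D) : (x * y).t = x.t * y.t := rfl
@[simp] theorem SD.one_w : (1 : SD D).w = 0 := rfl
@[simp] theorem SD.one_t : (1 : SD D).t = 1 := rfl

/-- The underlying product. -/
def SD.equiv : SD D ≃ W × T where
  toFun x := (x.w, x.t)
  invFun p := ⟨p.1, p.2⟩
  left_inv _ := rfl
  right_inv _ := rfl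

instance [Finite W] [Finite T] : Finite (SD D) := Finite.of_equiv _ (SD.equiv D).symm

instance [Fintype W] [Fintype T] : Fintype (SD D) := Fintype.ofEquiv _ (SD.equiv D).symm

instance [DecidableEq W] [DecidableEq T] : DecidableEq (SD D) :=
  fun x y => decidable_of_iff (x.w = y.w ∧ x.t = y.t)
    ⟨fun h => SD.ext h.1 h.2, fun h => by rw [h]; exact ⟨rfl, rfl⟩⟩

instance [Group.IsSolvable T] : Group.IsSolvable (SD D) := by
  let ι : Multiplicative W →* SD D :=
    { toFun := fun a => ⟨Multiplicative.toAdd a, 1⟩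
      map_one' := rfl
      map_mul' := fun a b => SD.ext
        (by
          change Multiplicative.toAdd a + Multiplicative.toAdd b =
            Multiplicative.toAdd a + D.f 1 (Multiplicative.toAdd b)
          rw [D.f_one])
        (one_mul 1).symm }
  let π : SD D →* T :=
    { toFun := fun x => x.t
      map_one' := rfl
      map_mul' := fun _ _ => rfl }
  refine Group.isSolvable_of_ker_le_range ι π ?_
  intro x hx
  refine ⟨Multiplicative.ofAdd x.w, SD.ext rfl ?_⟩
  exact (MonoidHom.mem_ker.mp hx).symm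

end SDgroup

/-! ### The groups `N ⋊ D₈` -/

/-- The dihedral group of order eight. -/
abbrev T8 := DihedralGroup 4

/-- The three sign characters. -/
inductive Chi
  | a
  | b
  | c
  deriving DecidableEq

instance : Fintype Chi := ⟨{Chi.a, Chi.b, Chi.c}, fun x => by cases x <;> decide⟩

/-- The sign of a rotation. -/
def e4 (i : ZMod 4) : ℤ := if i = 0 ∨ i = 2 then 1 else -1

/-- The sign characters of `D₈`. -/
def sg : Chi → T8 → ℤ
  | .a, .r _ => 1
  | .a, .sr _ => -1
  | .b, .r i => e4 i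
  | .b, .sr i => e4 i
  | .c, .r i => e4 i
  | .c, .sr i => - e4 i

theorem sg_mul : ∀ (c : Chi) (s t : T8), sg c (s * t) = sg c s * sg c t := by decide

theorem sg_one : ∀ c : Chi, sg c 1 = 1 := by decide

theorem sg_val : ∀ (c : Chi) (t : T8), sg c t = 1 ∨ sg c t = -1 := by decide

/-- The two primes. -/
abbrev q : Bool → ℕ
  | true => 3
  | false => 7

instance (b : Bool) : NeZero (q b) := by
  cases b
  · exact ⟨by decide⟩
  · exact ⟨by decide⟩

/-- A one-dimensional module. -/
abbrev Atom := Bool × Chi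

/-- The normal subgroup of a list of atoms. -/
abbrev WW (l : List Atom) := ∀ j : Fin l.length, ZMod (q (l.get j).1)

/-- The action of `D₈` on it. -/
def actX (l : List Atom) : Act (WW l) T8 where
  f t w := fun j => sg (l.get j).2 t • w j
  f_one w := by
    funext j
    rw [sg_one, one_smul]
  f_mul s t w := by
    funext j
    rw [sg_mul, mul_smul]
  f_add t v w := by
    funext j
    exact smul_add _ _ _

/-- The group of a list of atoms. -/
abbrev XX (l : List Atom) := SD (actX l)

/-- The sum `1 + σ + ⋯ + σ^(n-1)`. -/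
def ss (σ : ℤ) : ℕ → ℤ
  | 0 => 0
  | n + 1 => 1 + σ * ss σ n

theorem XX_pow_w (l : List Atom) (x : XX l) (n : ℕ) (j : Fin l.length) :
    (x ^ n).w j = ss (sg (l.get j).2 x.t) n • x.w j := by
  induction n with
  | zero => simp [ss]
  | succ n ih =>
    rw [pow_succ', SD.mul_w]
    change x.w j + sg (l.get j).2 x.t • (x ^ n).w j = _
    rw [ih, ← mul_smul, ss, add_smul, one_smul]

theorem XX_pow_t (l : List Atom) (x : XX l) (n : ℕ) : (x ^ n).t = x.t ^ n := by
  induction n with
  | zero => rfl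
  | succ n ih => rw [pow_succ', pow_succ', SD.mul_t, ih]

theorem XX_pow_eq_one (l : List Atom) (x : XX l) (n : ℕ) :
    x ^ n = 1 ↔ x.t ^ n = 1 ∧ ∀ j, ss (sg (l.get j).2 x.t) n • x.w j = 0 := by
  constructor
  · intro h
    refine ⟨by rw [← XX_pow_t, h]; rfl, fun j => ?_⟩
    rw [← XX_pow_w, h]
    rfl
  · rintro ⟨h1, h2⟩
    refine SD.ext ?_ (by rw [XX_pow_t, h1]; rfl)
    funext j
    rw [XX_pow_w, h2]
    rfl

theorem fc_XX (l : List Atom) (n : ℕ) :
    fc (XX l) n = ∑ t : T8, if t ^ n = 1 then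
      ∏ j : Fin l.length, Nat.card {u : ZMod (q (l.get j).1) // ss (sg (l.get j).2 t) n • u = 0}
      else 0 := by
  unfold fc
  have e : {x : XX l // x ^ n = 1} ≃
      Σ t : T8, {w : WW l // t ^ n = 1 ∧ ∀ j, ss (sg (l.get j).2 t) n • w j = 0} :=
    { toFun := fun x => ⟨x.1.t, x.1.w, (XX_pow_eq_one l x.1 n).mp x.2⟩
      invFun := fun y => ⟨⟨y.2.1, y.1⟩, (XX_pow_eq_one l ⟨y.2.1, y.1⟩ n).mpr y.2.2⟩
      left_inv := fun _ => rfl
      right_inv := fun _ => rfl }
  rw [Nat.card_congr e, Nat.card_sigma]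
  refine Finset.sum_congr rfl fun t _ => ?_
  split_ifs with ht
  · rw [← Nat.card_pi]
    apply Nat.card_congr
    exact
      { toFun := fun w j => ⟨w.1 j, w.2.2 j⟩
        invFun := fun w => ⟨fun j => (w j).1, ht, fun j => (w j).2⟩
        left_inv := fun _ => rfl
        right_inv := fun _ => rfl }
  · haveI : IsEmpty {w : WW l // t ^ n = 1 ∧ ∀ j, ss (sg (l.get j).2 t) n • w j = 0} :=
      ⟨fun w => ht w.2.1⟩
    exact Nat.card_of_isEmpty

/-- The divisors of `84`. -/
def DD : List ℕ := [1, 2, 3, 4, 6, 7, 12, 14, 21, 28, 42, 84]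

/-- The number of solutions of `(1 + σ + ⋯ + σ^(d-1)) u = 0` in `ZMod p`. -/
def gt (b : Bool) (σ : ℤ) (d : ℕ) : ℕ :=
  if σ = 1 then (if q b ∣ d then q b else 1) else (if 2 ∣ d then q b else 1)

theorem card_gt_aux : ∀ (b : Bool) (σ : ℤ), σ = 1 ∨ σ = -1 → ∀ d ∈ DD,
    Nat.card {u : ZMod (q b) // ss σ d • u = 0} = gt b σ d := by
  intro b σ hσ d hd
  rw [Nat.card_eq_fintype_card, Fintype.card_subtype]
  revert d
  rcases hσ with rfl | rfl <;> cases b <;> decide +kernel

/-- The value of the counting function on `N ⋊ D₈`. -/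
def FF (l : List Atom) (d : ℕ) : ℕ :=
  ∑ t : T8, if t ^ d = 1 then (l.map fun a => gt a.1 (sg a.2 t) d).prod else 0

theorem fc_XX_eval (l : List Atom) (d : ℕ) (hd : d ∈ DD) : fc (XX l) d = FF l d := by
  rw [fc_XX, FF]
  refine Finset.sum_congr rfl fun t _ => ?_
  split_ifs with ht
  · rw [← Fin.prod_univ_fun_getElem]
    refine Finset.prod_congr rfl fun j _ => ?_
    exact card_gt_aux _ _ (sg_val _ _) d hd
  · rfl

theorem XX_exp (l : List Atom) (x : XX l) : x ^ 84 = 1 := by
  rw [XX_pow_eq_one]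
  have h1 : ∀ t : T8, t ^ 84 = 1 := by decide +kernel
  have h2 : ∀ (b : Bool) (σ : ℤ), σ = 1 ∨ σ = -1 → ∀ u : ZMod (q b), ss σ 84 • u = 0 := by
    intro b σ hσ
    rcases hσ with rfl | rfl <;> cases b <;> decide +kernel
  exact ⟨h1 _, fun j => h2 _ _ (sg_val _ _) _⟩

instance : Group.IsSolvable T8 := by
  have h : IsPGroup 2 T8 := IsPGroup.of_card (n := 3) (by
    rw [DihedralGroup.nat_card]; norm_num)
  have : Group.IsNilpotent T8 := h.isNilpotent
  infer_instance

/-! ### `AΓL_1(8)` -/

/-- The action of `C₃` on `C₇`. -/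
def act7 : Act (ZMod 7) (Multiplicative (ZMod 3)) where
  f k u := (2 : ZMod 7) ^ (Multiplicative.toAdd k).val * u
  f_one := by decide +kernel
  f_mul := by decide +kernel
  f_add := by decide +kernel

/-- The Frobenius group of order `21`. -/
abbrev F21 := SD act7

/-- The additive group of the field with eight elements. -/
abbrev V3 := ZMod 2 × ZMod 2 × ZMod 2

/-- Multiplication by a generator. -/
def gm (x : V3) : V3 := (x.2.2, x.1 + x.2.2, x.2.1)

/-- The Frobenius map. -/
def fr (x : V3) : V3 := (x.1, x.2.2, x.2.1 + x.2.2)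

/-- The action of `F21` on the field with eight elements. -/
def act8 : Act V3 F21 where
  f x v := gm^[x.w.val] (fr^[(Multiplicative.toAdd x.t).val] v)
  f_one := by decide +kernel
  f_mul := by decide +kernel
  f_add := by decide +kernel

/-- The group `AΓL_1(8)`, of order `168`. -/
abbrev AG := SD act8

/-- `SL_3(2)`, of order `168`. -/
abbrev SL3 := SpecialLinearGroup (Fin 3) (ZMod 2)

/-- Cyclic group of order two. -/
abbrev C2 := Multiplicative (ZMod 2)
/-- Cyclic group of order three. -/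
abbrev C3 := Multiplicative (ZMod 3)

theorem not_solvable_SL3 : ¬ Group.IsSolvable SL3 := by
  intro h
  have h1 : commutator SL3 = ⊤ :=
    Cfsg.Agent.Lib.ClassicalSL.commutator_SL_eq_top (by simp)
  have : Nontrivial SL3 := by
    have h3 : ∃ x : SL3, x ≠ 1 := by decide +kernel
    exact nontrivial_of_ne _ _ h3.choose_spec
  have h2 := h.commutator_lt_top_of_nontrivial
  rw [h1] at h2
  exact lt_irrefl _ h2

/-- Exponent dividing `84`. -/
class Exp84 (X : Type) [Group X] : Prop where
  exp : ∀ x : X, x ^ 84 = 1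

instance {X Y : Type} [Group X] [Group Y] [Exp84 X] [Exp84 Y] : Exp84 (X × Y) :=
  ⟨fun p => Prod.ext (Exp84.exp p.1) (Exp84.exp p.2)⟩

instance (l : List Atom) : Exp84 (XX l) := ⟨XX_exp l⟩

instance : Exp84 C2 := ⟨by decide +kernel⟩
instance : Exp84 C3 := ⟨by decide +kernel⟩

theorem pow84_of {X : Type} [Group X] (h : ∀ x : X, ((x ^ 4) ^ 3) ^ 7 = 1) (x : X) : x ^ 84 = 1 := by
  have := h x
  rwa [← pow_mul, ← pow_mul] at this

set_option maxRecDepth 100000 in
instance : Exp84 AG := ⟨pow84_of (by decide +kernel)⟩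

set_option maxRecDepth 100000 in
instance : Exp84 SL3 := ⟨pow84_of (by decide +kernel)⟩

theorem fc_of_card {X : Type} [Group X] [Fintype X] (n m : ℕ) (P : X → Prop) [DecidablePred P]
    (h1 : ∀ x, x ^ n = 1 ↔ P x) (h2 : (Finset.univ.filter P).card = m) : fc X n = m := by
  classical
  unfold fc
  rw [Nat.card_eq_fintype_card, Fintype.card_subtype, ← h2]
  congr 1
  ext x
  simp [h1]

/-- The counting function of `SL_3(2)`. -/
def tabSL : ℕ → ℕ
  | 1 => 1 | 2 => 22 | 3 => 57 | 4 => 64 | 6 => 78 | 7 => 49 | 12 => 120 | 14 => 70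
  | 21 => 105 | 28 => 112 | 42 => 126 | 84 => 168 | _ => 0

/-- The counting function of `AΓL_1(8)`. -/
def tabAG : ℕ → ℕ
  | 1 => 1 | 2 => 8 | 3 => 57 | 4 => 8 | 6 => 120 | 7 => 49 | 12 => 120 | 14 => 56
  | 21 => 105 | 28 => 56 | 42 => 168 | 84 => 168 | _ => 0

/-- The counting function of `C₂`. -/
def tab2 (d : ℕ) : ℕ := if 2 ∣ d then 2 else 1
/-- The counting function of `C₃`. -/
def tab3 (d : ℕ) : ℕ := if 3 ∣ d then 3 else 1

theorem pow_chain2 {X : Type} [Group X] (a b : ℕ) (x : X) : x ^ (a * b) = 1 ↔ (x ^ a) ^ b = 1 := by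
  rw [pow_mul]

theorem pow_chain3 {X : Type} [Group X] (a b c : ℕ) (x : X) :
    x ^ (a * b * c) = 1 ↔ ((x ^ a) ^ b) ^ c = 1 := by
  rw [pow_mul, pow_mul]

set_option maxRecDepth 100000 in
theorem fc_SL_1 : fc SL3 1 = 1 :=
  fc_of_card _ _ (fun x => x ^ 1 = 1) (fun _ => Iff.rfl) (by decide +kernel)

set_option maxRecDepth 100000 in
theorem fc_SL_2 : fc SL3 2 = 22 :=
  fc_of_card _ _ (fun x => x ^ 2 = 1) (fun _ => Iff.rfl) (by decide +kernel)

set_option maxRecDepth 100000 in
theorem fc_SL_3 : fc SL3 3 = 57 :=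
  fc_of_card _ _ (fun x => x ^ 3 = 1) (fun _ => Iff.rfl) (by decide +kernel)

set_option maxRecDepth 100000 in
theorem fc_SL_4 : fc SL3 4 = 64 :=
  fc_of_card _ _ (fun x => x ^ 4 = 1) (fun _ => Iff.rfl) (by decide +kernel)

set_option maxRecDepth 100000 in
theorem fc_SL_6 : fc SL3 6 = 78 :=
  fc_of_card _ _ (fun x => (x ^ 2) ^ 3 = 1) (pow_chain2 2 3) (by decide +kernel)

set_option maxRecDepth 100000 in
theorem fc_SL_7 : fc SL3 7 = 49 :=
  fc_of_card _ _ (fun x => x ^ 7 = 1) (fun _ => Iff.rfl) (by decide +kernel)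

set_option maxRecDepth 100000 in
theorem fc_SL_12 : fc SL3 12 = 120 :=
  fc_of_card _ _ (fun x => (x ^ 4) ^ 3 = 1) (pow_chain2 4 3) (by decide +kernel)

set_option maxRecDepth 100000 in
theorem fc_SL_14 : fc SL3 14 = 70 :=
  fc_of_card _ _ (fun x => (x ^ 2) ^ 7 = 1) (pow_chain2 2 7) (by decide +kernel)

set_option maxRecDepth 100000 in
theorem fc_SL_21 : fc SL3 21 = 105 :=
  fc_of_card _ _ (fun x => (x ^ 3) ^ 7 = 1) (pow_chain2 3 7) (by decide +kernel)

set_option maxRecDepth 100000 in
theorem fc_SL_28 : fc SL3 28 = 112 :=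
  fc_of_card _ _ (fun x => (x ^ 4) ^ 7 = 1) (pow_chain2 4 7) (by decide +kernel)

set_option maxRecDepth 100000 in
theorem fc_SL_42 : fc SL3 42 = 126 :=
  fc_of_card _ _ (fun x => ((x ^ 2) ^ 3) ^ 7 = 1) (pow_chain3 2 3 7) (by decide +kernel)

set_option maxRecDepth 100000 in
theorem fc_SL_84 : fc SL3 84 = 168 :=
  fc_of_card _ _ (fun x => ((x ^ 4) ^ 3) ^ 7 = 1) (pow_chain3 4 3 7) (by decide +kernel)

set_option maxRecDepth 100000 in
theorem fc_AG_1 : fc AG 1 = 1 :=
  fc_of_card _ _ (fun x => x ^ 1 = 1) (fun _ => Iff.rfl) (by decide +kernel)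

set_option maxRecDepth 100000 in
theorem fc_AG_2 : fc AG 2 = 8 :=
  fc_of_card _ _ (fun x => x ^ 2 = 1) (fun _ => Iff.rfl) (by decide +kernel)

set_option maxRecDepth 100000 in
theorem fc_AG_3 : fc AG 3 = 57 :=
  fc_of_card _ _ (fun x => x ^ 3 = 1) (fun _ => Iff.rfl) (by decide +kernel)

set_option maxRecDepth 100000 in
theorem fc_AG_4 : fc AG 4 = 8 :=
  fc_of_card _ _ (fun x => x ^ 4 = 1) (fun _ => Iff.rfl) (by decide +kernel)

set_option maxRecDepth 100000 in
theorem fc_AG_6 : fc AG 6 = 120 :=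
  fc_of_card _ _ (fun x => (x ^ 2) ^ 3 = 1) (pow_chain2 2 3) (by decide +kernel)

set_option maxRecDepth 100000 in
theorem fc_AG_7 : fc AG 7 = 49 :=
  fc_of_card _ _ (fun x => x ^ 7 = 1) (fun _ => Iff.rfl) (by decide +kernel)

set_option maxRecDepth 100000 in
theorem fc_AG_12 : fc AG 12 = 120 :=
  fc_of_card _ _ (fun x => (x ^ 4) ^ 3 = 1) (pow_chain2 4 3) (by decide +kernel)

set_option maxRecDepth 100000 in
theorem fc_AG_14 : fc AG 14 = 56 :=
  fc_of_card _ _ (fun x => (x ^ 2) ^ 7 = 1) (pow_chain2 2 7) (by decide +kernel)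

set_option maxRecDepth 100000 in
theorem fc_AG_21 : fc AG 21 = 105 :=
  fc_of_card _ _ (fun x => (x ^ 3) ^ 7 = 1) (pow_chain2 3 7) (by decide +kernel)

set_option maxRecDepth 100000 in
theorem fc_AG_28 : fc AG 28 = 56 :=
  fc_of_card _ _ (fun x => (x ^ 4) ^ 7 = 1) (pow_chain2 4 7) (by decide +kernel)

set_option maxRecDepth 100000 in
theorem fc_AG_42 : fc AG 42 = 168 :=
  fc_of_card _ _ (fun x => ((x ^ 2) ^ 3) ^ 7 = 1) (pow_chain3 2 3 7) (by decide +kernel)

set_option maxRecDepth 100000 in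
theorem fc_AG_84 : fc AG 84 = 168 :=
  fc_of_card _ _ (fun x => ((x ^ 4) ^ 3) ^ 7 = 1) (pow_chain3 4 3 7) (by decide +kernel)

theorem fc_SL (d : ℕ) (hd : d ∈ DD) : fc SL3 d = tabSL d := by
  simp only [DD, List.mem_cons, List.not_mem_nil, or_false] at hd
  rcases hd with rfl | rfl | rfl | rfl | rfl | rfl | rfl | rfl | rfl | rfl | rfl | rfl
  · exact fc_SL_1
  · exact fc_SL_2
  · exact fc_SL_3
  · exact fc_SL_4
  · exact fc_SL_6
  · exact fc_SL_7
  · exact fc_SL_12
  · exact fc_SL_14
  · exact fc_SL_21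
  · exact fc_SL_28
  · exact fc_SL_42
  · exact fc_SL_84

theorem fc_AG (d : ℕ) (hd : d ∈ DD) : fc AG d = tabAG d := by
  simp only [DD, List.mem_cons, List.not_mem_nil, or_false] at hd
  rcases hd with rfl | rfl | rfl | rfl | rfl | rfl | rfl | rfl | rfl | rfl | rfl | rfl
  · exact fc_AG_1
  · exact fc_AG_2
  · exact fc_AG_3
  · exact fc_AG_4
  · exact fc_AG_6
  · exact fc_AG_7
  · exact fc_AG_12
  · exact fc_AG_14
  · exact fc_AG_21
  · exact fc_AG_28
  · exact fc_AG_42
  · exact fc_AG_84

theorem fc_C2 (d : ℕ) : fc C2 d = tab2 d := by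
  unfold fc
  rw [Nat.card_eq_fintype_card, Fintype.card_subtype]
  have hk : ∀ x : C2, x ^ d = 1 ↔ (2 ∣ d ∨ x = 1) := by
    intro x
    have hx : ∀ x : C2, x = 1 ∨ x = Multiplicative.ofAdd 1 := by decide
    have h2 : (Multiplicative.ofAdd 1 : C2) ^ 2 = 1 := by decide
    have hne : (Multiplicative.ofAdd 1 : C2) ≠ 1 := by decide
    have ho : orderOf (Multiplicative.ofAdd 1 : C2) = 2 := orderOf_eq_prime h2 hne
    rcases hx x with rfl | rfl
    · simp
    · rw [← orderOf_dvd_iff_pow_eq_one, ho]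
      constructor
      · exact Or.inl
      · rintro (h | h)
        · exact h
        · exact absurd h hne
  simp only [hk, tab2]
  by_cases h : 2 ∣ d
  · simp only [h, true_or, if_true]
    decide
  · simp only [h, false_or, if_false]
    decide

theorem fc_C3 (d : ℕ) : fc C3 d = tab3 d := by
  unfold fc
  rw [Nat.card_eq_fintype_card, Fintype.card_subtype]
  have hk : ∀ x : C3, x ^ d = 1 ↔ (3 ∣ d ∨ x = 1) := by
    intro x
    by_cases hx : x = 1
    · subst hx
      simp
    · have h3 : x ^ 3 = 1 := by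
        revert x
        decide
      have ho : orderOf x = 3 := orderOf_eq_prime h3 hx
      rw [← orderOf_dvd_iff_pow_eq_one, ho]
      simp [hx]
  simp only [hk, tab3]
  by_cases h : 3 ∣ d
  · simp only [h, true_or, if_true]
    decide
  · simp only [h, false_or, if_false]
    decide

end Cfsg.Agent.Lib.OrderType
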