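import Mathlib
import Cfsg.Prelude.Def_Transfer
import Cfsg.Agent.Lib.PCore
import Cfsg.Agent.Lib.CoprimeInv
import Cfsg.Agent.Lib.Glauberman
import Cfsg.Agent.Lib.CosetConj
import Cfsg.Agent.Lib.NilpCover
import Cfsg.Agent.Lib.Coprime

/-!
# Groups whose `p'`-subgroups are abelian: basics

`Reg p x`: the order of `x` is prime to `p`. `PElt p x`: some `p`-power of `x` is trivial.
`Hy p G`: every `p'`-subgroup is abelian of exponent dividing `p - 1`.
The hypothesis passes to subgroups and to images, and the elements of order prime to `p`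
of a solvable group satisfying it generate a group with a normal Sylow `p`-subgroup.
-/

set_option autoImplicit false
set_option linter.unusedSectionVars false
set_option linter.unusedVariables false
set_option linter.style.longLine false
set_option linter.style.haveILetI false

open Subgroup

namespace Cfsg.Agent.Lib.PAbA

universe u

open Cfsg.Agent.Lib.CoprimeInv

/-- The order is prime to `p`. -/
def Reg {G : Type*} [Group G] (p : ℕ) (x : G) : Prop := (orderOf x).Coprime p

/-- A `p`-element. -/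
def PElt {G : Type*} [Group G] (p : ℕ) (x : G) : Prop := ∃ k : ℕ, x ^ p ^ k = 1

/-- Every subgroup of order prime to `p` is abelian of exponent dividing `p - 1`. -/
def Hy (p : ℕ) (G : Type*) [Group G] : Prop :=
  ∀ H : Subgroup G, (Nat.card H).Coprime p → IsMulCommutative H ∧ ∀ x ∈ H, x ^ (p - 1) = 1

section Elements

variable {G : Type*} [Group G] {p : ℕ}

theorem reg_one : Reg p (1 : G) := by simp [Reg]

theorem pelt_one : PElt p (1 : G) := ⟨0, by simp⟩

theorem Reg.card_zpowers {x : G} (h : Reg p x) : (Nat.card (zpowers x)).Coprime p := by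
  rw [Nat.card_zpowers]; exact h

theorem reg_of_mem_of_coprime [Finite G] {H : Subgroup G} (hH : (Nat.card H).Coprime p) {x : G}
    (hx : x ∈ H) : Reg p x := by
  have h1 : orderOf x ∣ Nat.card H := by
    have := orderOf_dvd_natCard (⟨x, hx⟩ : H)
    rwa [Subgroup.orderOf_mk] at this
  exact Nat.Coprime.coprime_dvd_left h1 hH

theorem Reg.map {H : Type*} [Group H] [Finite G] {x : G} (h : Reg p x) (f : G →* H) : Reg p (f x) :=
  Nat.Coprime.coprime_dvd_left (orderOf_map_dvd f x) h

theorem PElt.map {H : Type*} [Group H] {x : G} (h : PElt p x) (f : G →* H) : PElt p (f x) := by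
  obtain ⟨k, hk⟩ := h
  exact ⟨k, by rw [← map_pow, hk, map_one]⟩

theorem PElt.conj {x : G} (h : PElt p x) (g : G) : PElt p (g * x * g⁻¹) := by
  obtain ⟨k, hk⟩ := h
  exact ⟨k, by rw [conj_pow, hk]; group⟩

theorem Reg.conj {x : G} (h : Reg p x) (g : G) : Reg p (g * x * g⁻¹) := by
  have : orderOf (g * x * g⁻¹) = orderOf x := (MulAut.conj g).orderOf_eq x
  unfold Reg; rw [this]; exact h

theorem PElt.inv {x : G} (h : PElt p x) : PElt p x⁻¹ := by
  obtain ⟨k, hk⟩ := h
  exact ⟨k, by rw [inv_pow, hk, inv_one]⟩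

theorem Reg.inv {x : G} (h : Reg p x) : Reg p x⁻¹ := by
  unfold Reg; rw [orderOf_inv]; exact h

theorem PElt.mul_of_commute {x y : G} (hc : Commute x y) (hx : PElt p x) (hy : PElt p y) :
    PElt p (x * y) := by
  obtain ⟨k, hk⟩ := hx
  obtain ⟨l, hl⟩ := hy
  refine ⟨k + l, ?_⟩
  rw [hc.mul_pow, pow_add, pow_mul, hk, one_pow, one_mul, mul_comm, pow_mul, hl, one_pow]

theorem Reg.mul_of_commute [Finite G] {x y : G} (hc : Commute x y) (hx : Reg p x) (hy : Reg p y) :
    Reg p (x * y) := by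
  have h1 : orderOf (x * y) ∣ orderOf x * orderOf y := hc.orderOf_mul_dvd_mul_orderOf
  exact Nat.Coprime.coprime_dvd_left h1 (Nat.Coprime.mul_left hx hy)

theorem eq_one_of_reg_of_pelt [Fact p.Prime] {x : G} (h1 : Reg p x) (h2 : PElt p x) : x = 1 := by
  obtain ⟨k, hk⟩ := h2
  have h3 : orderOf x ∣ p ^ k := orderOf_dvd_of_pow_eq_one hk
  have h4 : Nat.Coprime (orderOf x) (p ^ k) := Nat.Coprime.pow_right k h1
  have h5 : orderOf x = 1 := Nat.Coprime.eq_one_of_dvd h4 h3
  exact orderOf_eq_one_iff.mp h5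

theorem pelt_of_mem {P : Subgroup G} (hP : IsPGroup p P) {x : G} (hx : x ∈ P) : PElt p x := by
  obtain ⟨k, hk⟩ := hP ⟨x, hx⟩
  exact ⟨k, by simpa [Subtype.ext_iff] using hk⟩

theorem PElt.pow {x : G} (h : PElt p x) (n : ℕ) : PElt p (x ^ n) := by
  obtain ⟨k, hk⟩ := h
  exact ⟨k, by rw [← pow_mul, mul_comm, pow_mul, hk, one_pow]⟩

theorem Reg.pow [Finite G] {x : G} (h : Reg p x) (n : ℕ) : Reg p (x ^ n) :=
  Nat.Coprime.coprime_dvd_left (orderOf_pow_dvd n) h

theorem PElt.zpow {x : G} (h : PElt p x) (n : ℤ) : PElt p (x ^ n) := by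
  obtain ⟨k, hk⟩ := h
  refine ⟨k, ?_⟩
  rw [← zpow_natCast, ← zpow_mul, mul_comm, zpow_mul, zpow_natCast, hk, one_zpow]

theorem Reg.zpow [Finite G] {x : G} (h : Reg p x) (n : ℤ) : Reg p (x ^ n) := by
  have : orderOf (x ^ n) ∣ orderOf x := by
    have h1 : (x ^ n) ^ orderOf x = 1 := by
      rw [← zpow_natCast, ← zpow_mul, mul_comm, zpow_mul, zpow_natCast, pow_orderOf_eq_one, one_zpow]
    exact orderOf_dvd_of_pow_eq_one h1
  exact Nat.Coprime.coprime_dvd_left this h

/-- Every element is a commuting product of a `p`-element and a regular element, both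
lying in its cyclic group. -/
theorem exists_decomp [Finite G] [Fact p.Prime] (x : G) :
    ∃ s t : G, x = s * t ∧ Commute s t ∧ PElt p s ∧ Reg p t ∧ s ∈ zpowers x ∧ t ∈ zpowers x := by
  obtain ⟨s, t, h1, h2, ⟨k, hk⟩, h4, h5, h6⟩ := Cfsg.Agent.Lib.NilpCover.exists_decomp p x
  exact ⟨s, t, h1, h2, ⟨k, hk⟩, h4, h5, h6⟩

/-- Uniqueness of the decomposition. -/
theorem decomp_unique [Finite G] [Fact p.Prime] {s t s' t' : G} (hst : Commute s t)
    (hst' : Commute s' t') (h : s * t = s' * t') (hs : PElt p s) (ht : Reg p t) (hs' : PElt p s')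
    (ht' : Reg p t') : s = s' ∧ t = t' := by
  obtain ⟨a, b, hx, hc, hpa, hrb, ha, hb⟩ := exists_decomp (p := p) (s * t)
  have key : ∀ {u v : G}, Commute u v → s * t = u * v → PElt p u → Reg p v → u = a ∧ v = b := by
    intro u v huv he hu hv
    have hu1 : Commute u (s * t) := by
      rw [he]
      show u * (u * v) = (u * v) * u
      rw [mul_assoc, huv.symm.eq, ]
    have hv1 : Commute v (s * t) := by
      rw [he]
      show v * (u * v) = (u * v) * v
      rw [← mul_assoc, huv.symm.eq]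
    have hua : Commute u a := by
      obtain ⟨n, rfl⟩ := ha
      exact hu1.zpow_right n
    have hvb : Commute v b := by
      obtain ⟨n, rfl⟩ := hb
      exact hv1.zpow_right n
    have e1 : a⁻¹ * u = b * v⁻¹ := by
      have h2 : a * b = u * v := hx.symm.trans he
      have h3 : b = a⁻¹ * (u * v) := by rw [← h2]; group
      rw [h3]; group
    have h4 : PElt p (a⁻¹ * u) := PElt.mul_of_commute (hua.symm.inv_left) hpa.inv hu
    have h5 : Reg p (b * v⁻¹) := Reg.mul_of_commute (hvb.symm.inv_right) hrb hv.inv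
    rw [← e1] at h5
    have h6 : a⁻¹ * u = 1 := eq_one_of_reg_of_pelt h5 h4
    have h7 : u = a := by
      rw [inv_mul_eq_one] at h6; exact h6.symm
    have h8 : b * v⁻¹ = 1 := by rw [← e1]; exact h6
    exact ⟨h7, (mul_inv_eq_one.mp h8).symm⟩
  obtain ⟨h1, h2⟩ := key hst rfl hs ht
  obtain ⟨h3, h4⟩ := key hst' h hs' ht'
  exact ⟨h1.trans h3.symm, h2.trans h4.symm⟩

/-- Subgroup join with a normalized subgroup, in elements. -/
theorem mem_sup_of_le_normalizer {T θ : Subgroup G} (h : T ≤ normalizer (θ : Set G)) {x : G}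
    (hx : x ∈ T ⊔ θ) : ∃ t ∈ T, ∃ u ∈ θ, x = t * u := by
  rw [sup_eq_closure] at hx
  induction hx using Subgroup.closure_induction with
  | mem y hy =>
    rcases hy with hy | hy
    · exact ⟨y, hy, 1, one_mem _, by simp⟩
    · exact ⟨1, one_mem _, y, hy, by simp⟩
  | one => exact ⟨1, one_mem _, 1, one_mem _, by simp⟩
  | mul y z _ _ hy hz =>
    obtain ⟨t₁, ht₁, u₁, hu₁, rfl⟩ := hy
    obtain ⟨t₂, ht₂, u₂, hu₂, rfl⟩ := hz
    refine ⟨t₁ * t₂, mul_mem ht₁ ht₂, t₂⁻¹ * u₁ * t₂ * u₂, ?_, by group⟩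
    refine mul_mem ?_ hu₂
    have := (mem_normalizer_iff.mp (h (inv_mem ht₂)) u₁).mp hu₁
    simpa using this
  | inv y _ hy =>
    obtain ⟨t, ht, u, hu, rfl⟩ := hy
    refine ⟨t⁻¹, inv_mem ht, t * u⁻¹ * t⁻¹, ?_, by group⟩
    exact (mem_normalizer_iff.mp (h ht) u⁻¹).mp (inv_mem hu)

/-- `p'`-subgroups: the join with a regular element. -/
theorem card_sup_zpowers_coprime [Finite G] {N : Subgroup G} (hN : (Nat.card N).Coprime p) {x : G}
    (hxN : x ∈ normalizer (N : Set G)) (hx : Reg p x) :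
    (Nat.card (zpowers x ⊔ N : Subgroup G)).Coprime p := by
  have hle : zpowers x ≤ normalizer (N : Set G) := by
    rw [zpowers_le]; exact hxN
  have h := card_sup_mul_card_inf hle
  have h1 : Nat.card (zpowers x ⊔ N : Subgroup G) ∣ Nat.card (zpowers x) * Nat.card N := by
    rw [← h]; exact dvd_mul_right _ _
  refine Nat.Coprime.coprime_dvd_left h1 (Nat.Coprime.mul_left ?_ hN)
  rw [Nat.card_zpowers]; exact hx

/-- If `T ≤ E` has index prime to `p`, `θ ≤ E` is normalized by `E` and `E/θ` is a `p`-group,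
then `E = T θ`. -/
theorem le_sup_of_index [Finite G] [Fact p.Prime] {T θ E : Subgroup G} (hT : T ≤ E) (hθ : θ ≤ E)
    (hn : E ≤ normalizer (θ : Set G)) (h1 : (T.relIndex E).Coprime p)
    (h2 : ∀ e ∈ E, ∃ k : ℕ, e ^ p ^ k ∈ θ) : E ≤ T ⊔ θ := by
  classical
  have hnorm : (θ.subgroupOf E).Normal := by
    refine ⟨fun n hn' g => ?_⟩
    rw [mem_subgroupOf] at hn' ⊢
    exact (mem_normalizer_iff.mp (hn g.2) n).mp hn'
  let π := QuotientGroup.mk' (θ.subgroupOf E)
  have hq : IsPGroup p (↥E ⧸ θ.subgroupOf E) := by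
    intro q
    obtain ⟨e, rfl⟩ := QuotientGroup.mk_surjective q
    obtain ⟨k, hk⟩ := h2 e e.2
    refine ⟨k, ?_⟩
    rw [← QuotientGroup.mk_pow, QuotientGroup.eq_one_iff]
    rw [mem_subgroupOf]
    simpa using hk
  have hs : Function.Surjective π := QuotientGroup.mk'_surjective _
  have h3 : ((T.subgroupOf E).map π).index ∣ (T.subgroupOf E).index :=
    Subgroup.index_map_dvd _ hs
  have h4 : ((T.subgroupOf E).map π).index ∣ Nat.card (↥E ⧸ θ.subgroupOf E) :=
    Subgroup.index_dvd_card _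
  obtain ⟨n, hn'⟩ := IsPGroup.iff_card.mp hq
  rw [hn'] at h4
  have h5 : Nat.Coprime ((T.subgroupOf E).map π).index (p ^ n) :=
    Nat.Coprime.pow_right n (Nat.Coprime.coprime_dvd_left h3 h1)
  have h6 : ((T.subgroupOf E).map π).index = 1 := Nat.Coprime.eq_one_of_dvd h5 h4
  rw [Subgroup.index_eq_one] at h6
  intro e he
  have h7 : π ⟨e, he⟩ ∈ (T.subgroupOf E).map π := by rw [h6]; trivial
  obtain ⟨t, ht, ht2⟩ := h7
  have h8 : t⁻¹ * ⟨e, he⟩ ∈ θ.subgroupOf E := by
    have := QuotientGroup.eq.mp ht2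
    exact this
  rw [mem_subgroupOf] at h8
  have ht' : (t : G) ∈ T := ht
  have h9 : e = (t : G) * ((t : G)⁻¹ * e) := by group
  rw [h9]
  refine mul_mem (mem_sup_left ht') (mem_sup_right ?_)
  simpa using h8

end Elements

section Hered

variable {G : Type*} [Group G] {p : ℕ}

theorem le_normalizer_of_normal {N : Subgroup G} (hN : N.Normal) (T : Subgroup G) :
    T ≤ normalizer (N : Set G) := by
  intro g _
  rw [mem_normalizer_iff]
  intro x
  constructor
  · intro hx; exact hN.conj_mem x hx g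
  · intro hx
    have := hN.conj_mem _ hx g⁻¹
    simpa [mul_assoc] using this

/-- The hypothesis passes to subgroups. -/
theorem Hy.subgroup [Finite G] (h : Hy p G) (X : Subgroup G) : Hy p X := by
  intro H hH
  have hc : Nat.card (H.map X.subtype) = Nat.card H :=
    Subgroup.card_map_of_injective X.subtype_injective
  obtain ⟨h1, h2⟩ := h (H.map X.subtype) (by rw [hc]; exact hH)
  constructor
  · refine ⟨⟨fun a b => ?_⟩⟩
    have := (h1.is_comm.comm ⟨a.1.1, ⟨a.1, a.2, rfl⟩⟩ ⟨b.1.1, ⟨b.1, b.2, rfl⟩⟩)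
    apply Subtype.ext; apply Subtype.ext
    simpa [Subtype.ext_iff] using this
  · intro x hx
    apply Subtype.ext
    have := h2 x.1 ⟨x, hx, rfl⟩
    simpa using this

/-- A `p'`-quotient is covered by a `p'`-subgroup (Frattini plus Schur-Zassenhaus). -/
theorem exists_lift_of_coprime [Finite G] [Fact p.Prime] {Q : Type*} [Group Q] [Finite Q]
    (f : G →* Q) (hf : Function.Surjective f) (hQ : (Nat.card Q).Coprime p) :
    ∃ T : Subgroup G, (Nat.card T).Coprime p ∧ T.map f = ⊤ := by
  classical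
  obtain ⟨P⟩ : Nonempty (Sylow p G) := inferInstance
  have hPN : (P : Subgroup G) ≤ f.ker := by
    intro x hx
    have h1 : PElt p (f x) := (pelt_of_mem P.2 hx).map f
    have h2 : Reg p (f x) := Nat.Coprime.coprime_dvd_left (orderOf_dvd_natCard _) hQ
    exact eq_one_of_reg_of_pelt h2 h1
  have hN : (f.ker).Normal := f.normal_ker
  have hfr : normalizer (P : Set G) ⊔ f.ker = ⊤ := by
    have := Sylow.normalizer_sup_eq_top' (N := f.ker) P hPN
    simpa using this
  set W : Subgroup G := normalizer (P : Set G) with hW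
  have hPW : (P : Subgroup G) ≤ W := le_normalizer
  have hnorm : ((P : Subgroup G).subgroupOf W).Normal := by
    refine ⟨fun n hn' g => ?_⟩
    rw [mem_subgroupOf] at hn' ⊢
    exact (mem_normalizer_iff.mp g.2 n).mp hn'
  have hidx : (((P : Subgroup G).subgroupOf W).index).Coprime p := by
    have h1 : ((P : Subgroup G).subgroupOf W).index * W.index = (P : Subgroup G).index :=
      Subgroup.relIndex_mul_index hPW
    have h2 : ((P : Subgroup G).subgroupOf W).index ∣ (P : Subgroup G).index := ⟨_, h1.symm⟩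
    have h3 : ((P : Subgroup G).index).Coprime p :=
      ((Nat.Prime.coprime_iff_not_dvd (Fact.out : p.Prime)).mpr P.not_dvd_index).symm
    exact Nat.Coprime.coprime_dvd_left h2 h3
  have hcard : Nat.card ((P : Subgroup G).subgroupOf W) = Nat.card (P : Subgroup G) :=
    card_subgroupOf_of_le hPW
  have hcop : (Nat.card ((P : Subgroup G).subgroupOf W)).Coprime ((P : Subgroup G).subgroupOf W).index := by
    rw [hcard]
    obtain ⟨n, hn⟩ := IsPGroup.iff_card.mp P.2
    rw [hn]
    exact Nat.Coprime.pow_left n hidx.symm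
  obtain ⟨B, hB⟩ := Subgroup.exists_right_complement'_of_coprime hcop
  refine ⟨B.map W.subtype, ?_, ?_⟩
  · rw [Subgroup.card_map_of_injective W.subtype_injective]
    have := hB.symm.index_eq_card
    rw [← this]
    exact hidx
  · rw [eq_top_iff]
    intro q _
    obtain ⟨g, rfl⟩ := hf q
    have hg : g ∈ W ⊔ f.ker := by rw [hfr]; trivial
    obtain ⟨w, hw, n, hn, rfl⟩ := mem_sup_of_le_normalizer (le_normalizer_of_normal hN W) hg
    have hw' : (⟨w, hw⟩ : W) ∈ B ⊔ (P : Subgroup G).subgroupOf W := by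
      rw [sup_comm, hB.sup_eq_top]; trivial
    obtain ⟨b, hb, s, hs, hsb⟩ := mem_sup_of_le_normalizer (le_normalizer_of_normal hnorm B) hw'
    have hsb' : w = (b : G) * (s : G) := by
      have := congrArg Subtype.val hsb
      simpa using this
    refine ⟨(b : G), ⟨b, hb, rfl⟩, ?_⟩
    have hs' : (s : G) ∈ f.ker := hPN hs
    have hn' : f n = 1 := hn
    have hs'' : f (s : G) = 1 := hs'
    rw [map_mul, hn', mul_one, hsb', map_mul, hs'', mul_one]

/-- The hypothesis passes to images. -/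
theorem Hy.of_surjective [Finite G] [Fact p.Prime] (h : Hy p G) {Q : Type*} [Group Q] [Finite Q]
    (f : G →* Q) (hf : Function.Surjective f) : Hy p Q := by
  intro K hK
  let K₀ : Subgroup G := K.comap f
  let f₀ : K₀ →* K := f.subgroupComap K
  have hf₀ : Function.Surjective f₀ := f.subgroupComap_surjective_of_surjective K hf
  obtain ⟨T, hT, hTm⟩ := exists_lift_of_coprime f₀ hf₀ hK
  have hT₁ : (Nat.card (T.map K₀.subtype)).Coprime p := by
    rw [Subgroup.card_map_of_injective K₀.subtype_injective]; exact hT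
  obtain ⟨h1, h2⟩ := h _ hT₁
  have hmem : ∀ k : K, ∃ t : K₀, t ∈ T ∧ f₀ t = k := by
    intro k
    have : k ∈ T.map f₀ := by rw [hTm]; trivial
    obtain ⟨t, ht, ht2⟩ := this
    exact ⟨t, ht, ht2⟩
  constructor
  · refine ⟨⟨fun a b => ?_⟩⟩
    obtain ⟨t₁, ht₁, rfl⟩ := hmem a
    obtain ⟨t₂, ht₂, rfl⟩ := hmem b
    rw [← map_mul, ← map_mul]
    congr 1
    have := h1.is_comm.comm ⟨t₁.1, ⟨t₁, ht₁, rfl⟩⟩ ⟨t₂.1, ⟨t₂, ht₂, rfl⟩⟩
    apply Subtype.ext
    simpa [Subtype.ext_iff] using this
  · intro x hx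
    obtain ⟨t, ht, ht2⟩ := hmem ⟨x, hx⟩
    have h3 := h2 t.1 ⟨t, ht, rfl⟩
    have h4 : (f₀ t : Q) = x := by rw [ht2]
    have h5 : ((f₀ t : K) : Q) = f t.1 := rfl
    rw [← h4, h5, ← map_pow, h3, map_one]

end Hered

section LemmaS

/-- **Lemma S** (type level): in a finite solvable group satisfying `Hy p`, the `p`-elements of
the subgroup generated by the regular elements form a subgroup. -/
theorem exists_pClosed (p : ℕ) [Fact p.Prime] : ∀ (n : ℕ) (H : Type u) [Group H] [Finite H]
    [Group.IsSolvable H], Nat.card H = n → Hy p H →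
    ∃ S : Subgroup H, IsPGroup p S ∧ S ≤ Cfsg.pResidual p H ∧
      ∀ x ∈ Cfsg.pResidual p H, PElt p x → x ∈ S := by
  intro n
  induction n using Nat.strong_induction_on with
  | _ n ih =>
  intro H _ _ _ hn hy
  classical
  by_cases htriv : Subsingleton H
  · refine ⟨⊥, IsPGroup.of_bot, bot_le, fun x _ _ => ?_⟩
    rw [Subgroup.mem_bot]; exact Subsingleton.elim _ _
  haveI : Nontrivial H := not_subsingleton_iff_nontrivial.mp htriv
  obtain ⟨r, hr, hN⟩ := Cfsg.Agent.Lib.PCore.exists_pCore_ne_bot (G := H)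
  haveI : Fact r.Prime := ⟨hr⟩
  set N : Subgroup H := Cfsg.pCore r H with hNdef
  haveI hNn : N.Normal := Cfsg.Agent.Lib.PCore.pCore_normal r
  have hNp : IsPGroup r N := Cfsg.Agent.Lib.PCore.isPGroup_pCore r
  -- the quotient
  let π := QuotientGroup.mk' N
  have hπ : Function.Surjective π := QuotientGroup.mk'_surjective N
  have hlt : Nat.card (H ⧸ N) < n := by
    rw [← hn]
    exact Cfsg.Agent.Lib.Coprime.card_quotient_lt hN
  obtain ⟨Sb, hSp, hSle, hSmem⟩ := ih _ hlt (H ⧸ N) rfl (hy.of_surjective π hπ)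
  set R := Cfsg.pResidual p H with hR
  have hRmap : ∀ x ∈ R, π x ∈ Cfsg.pResidual p (H ⧸ N) := by
    intro x hx
    have : R ≤ (Cfsg.pResidual p (H ⧸ N)).comap π := by
      rw [hR]; unfold Cfsg.pResidual
      rw [Subgroup.closure_le]
      intro y hy'
      exact Subgroup.subset_closure (Reg.map hy' π)
    exact this hx
  by_cases hrp : r = p
  · -- normal `p`-subgroup
    subst hrp
    refine ⟨R ⊓ Sb.comap π, ?_, inf_le_left, ?_⟩
    · intro x
      have hx : π (x : H) ∈ Sb := x.2.2
      obtain ⟨k, hk⟩ := hSp ⟨_, hx⟩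
      have hk' : (π (x : H)) ^ r ^ k = 1 := by simpa [Subtype.ext_iff] using hk
      have hk2 : (x : H) ^ r ^ k ∈ N := by
        have : π ((x : H) ^ r ^ k) = 1 := by rw [map_pow, hk']
        exact (QuotientGroup.eq_one_iff _).mp this
      obtain ⟨l, hl⟩ := hNp ⟨_, hk2⟩
      have hl' : ((x : H) ^ r ^ k) ^ r ^ l = 1 := by simpa [Subtype.ext_iff] using hl
      refine ⟨k + l, ?_⟩
      apply Subtype.ext
      simpa [pow_add, pow_mul] using hl'
    · intro x hx hp
      exact ⟨hx, hSmem _ (hRmap x hx) (hp.map π)⟩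
  · -- normal `p'`-subgroup
    have hNc : (Nat.card N).Coprime p := by
      obtain ⟨k, hk⟩ := IsPGroup.iff_card.mp hNp
      rw [hk]
      exact Nat.Coprime.pow_left k ((Nat.coprime_primes hr (Fact.out : p.Prime)).mpr hrp)
    -- regular elements centralize `N`
    have hcent : ∀ x, Reg p x → ∀ y ∈ N, x * y = y * x := by
      intro x hx y hy'
      have h1 := card_sup_zpowers_coprime hNc (le_normalizer_of_normal hNn ⊤ (mem_top x)) hx
      have h2 := (hy _ h1).1
      have h3 := h2.is_comm.comm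
        ⟨x, mem_sup_left (mem_zpowers x)⟩ ⟨y, mem_sup_right hy'⟩
      simpa [Subtype.ext_iff] using h3
    have hRcent : ∀ x ∈ R, ∀ y ∈ N, x * y = y * x := by
      intro x hx y hy'
      have : R ≤ centralizer ({y} : Set H) := by
        rw [hR]; unfold Cfsg.pResidual
        rw [Subgroup.closure_le]
        intro z hz
        rw [SetLike.mem_coe, mem_centralizer_singleton_iff]
        exact hcent z hz y hy'
      have h2 := this hx
      rw [mem_centralizer_singleton_iff] at h2
      exact h2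
    have hNR : N ≤ R := by
      intro y hy'
      exact Subgroup.subset_closure (reg_of_mem_of_coprime hNc hy')
    set L : Subgroup H := R ⊓ Sb.comap π with hL
    have hNL : N ≤ L := by
      intro y hy'
      refine ⟨hNR hy', ?_⟩
      have : π y = 1 := (QuotientGroup.eq_one_iff _).mpr hy'
      show π y ∈ Sb
      rw [this]; exact one_mem _
    obtain ⟨T, hT⟩ := exists_isSylowIn p L
    have hTidx : (T.relIndex L).Coprime p :=
      ((Nat.Prime.coprime_iff_not_dvd (Fact.out : p.Prime)).mpr hT.toSylow.not_dvd_index).symm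
    have hLsup : L ≤ T ⊔ N := by
      apply le_sup_of_index hT.1 hNL (le_normalizer_of_normal hNn L) hTidx
      intro e he
      obtain ⟨k, hk⟩ := hSp ⟨π e, he.2⟩
      refine ⟨k, ?_⟩
      have hk' : (π e) ^ p ^ k = 1 := by simpa [Subtype.ext_iff] using hk
      have : π (e ^ p ^ k) = 1 := by rw [map_pow, hk']
      exact (QuotientGroup.eq_one_iff _).mp this
    refine ⟨T, hT.2.1, hT.1.trans inf_le_left, ?_⟩
    intro x hx hp
    have hxL : x ∈ L := ⟨hx, hSmem _ (hRmap x hx) (hp.map π)⟩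
    obtain ⟨t, ht, m, hm, rfl⟩ := mem_sup_of_le_normalizer (le_normalizer_of_normal hNn T) (hLsup hxL)
    have htR : t ∈ R := (hT.1.trans inf_le_left) ht
    have hc : Commute t m := hRcent t htR m hm
    have hmp : PElt p m := by
      have e1 : m = t⁻¹ * (t * m) := by group
      rw [e1]
      refine PElt.mul_of_commute ?_ (pelt_of_mem hT.2.1 ht).inv hp
      show t⁻¹ * (t * m) = t * m * t⁻¹
      have : t * m * t⁻¹ = m := by
        rw [hc.eq]; group
      rw [this]; group
    have hm1 : m = 1 := eq_one_of_reg_of_pelt (reg_of_mem_of_coprime hNc hm) hmp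
    rw [hm1, mul_one]
    exact ht

end LemmaS

end Cfsg.Agent.Lib.PAbA
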