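import Mathlib
import Cfsg.Agent.Lib.PAbA

/-!
# Groups whose `p'`-subgroups are abelian: ambient form of Lemma S

For `X ≤ G` solvable, `resOf p X` is the subgroup generated by the regular elements of `X`, and
`IsCore p X S` says that `S` is the set of `p`-elements of `resOf p X`.
-/

set_option autoImplicit false
set_option linter.unusedSectionVars false
set_option linter.unusedVariables false
set_option linter.style.longLine false
set_option linter.style.haveILetI false

open Subgroup

namespace Cfsg.Agent.Lib.PAbB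

universe u

open Cfsg.Agent.Lib.CoprimeInv Cfsg.Agent.Lib.PAbA

variable {G : Type u} [Group G] {p : ℕ}

/-- Membership in a normalizer by conjugation of elements. -/
theorem mem_normalizer_of_conj {S : Subgroup G} {g : G} (h1 : ∀ x ∈ S, g * x * g⁻¹ ∈ S)
    (h2 : ∀ x ∈ S, g⁻¹ * x * g ∈ S) : g ∈ normalizer (S : Set G) := by
  rw [mem_normalizer_iff]
  intro x
  constructor
  · exact h1 x
  · intro hx
    have := h2 _ hx
    simpa [mul_assoc] using this

theorem conj_mem_of_mem_normalizer {S : Subgroup G} {g : G} (hg : g ∈ normalizer (S : Set G))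
    {x : G} (hx : x ∈ S) : g * x * g⁻¹ ∈ S := (mem_normalizer_iff.mp hg x).mp hx

theorem inv_conj_mem_of_mem_normalizer {S : Subgroup G} {g : G} (hg : g ∈ normalizer (S : Set G))
    {x : G} (hx : x ∈ S) : g⁻¹ * x * g ∈ S := by
  have := (mem_normalizer_iff.mp (inv_mem hg) x).mp hx
  simpa using this

/-- The subgroup generated by the regular elements of `X`. -/
def resOf (p : ℕ) (X : Subgroup G) : Subgroup G := closure {x | x ∈ X ∧ Reg p x}

theorem resOf_le (X : Subgroup G) : resOf p X ≤ X := by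
  rw [resOf, closure_le]
  exact fun x hx => hx.1

theorem mem_resOf {X : Subgroup G} {x : G} (hx : x ∈ X) (hr : Reg p x) : x ∈ resOf p X :=
  subset_closure ⟨hx, hr⟩

theorem conj_mem_resOf {X : Subgroup G} {g : G} (hg : g ∈ normalizer (X : Set G)) {x : G}
    (hx : x ∈ resOf p X) : g * x * g⁻¹ ∈ resOf p X := by
  have : resOf p X ≤ (resOf p X).comap (MulAut.conj g).toMonoidHom := by
    rw [resOf, closure_le]
    rintro y ⟨hy, hr⟩
    exact subset_closure ⟨conj_mem_of_mem_normalizer hg hy, hr.conj g⟩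
  exact this hx

theorem le_normalizer_resOf (X : Subgroup G) : X ≤ normalizer (resOf p X : Set G) := by
  intro g hg
  have hg' : g ∈ normalizer (X : Set G) := le_normalizer hg
  exact mem_normalizer_of_conj (fun x hx => conj_mem_resOf hg' hx)
    (fun x hx => by simpa using conj_mem_resOf (inv_mem hg') hx)

/-- `S` is the set of `p`-elements of `resOf p X`. -/
structure IsCore (p : ℕ) (X S : Subgroup G) : Prop where
  isP : IsPGroup p S
  le : S ≤ resOf p X
  mem : ∀ x ∈ resOf p X, PElt p x → x ∈ S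

variable [Finite G] [Fact p.Prime]

theorem resOf_eq_map (X : Subgroup G) : resOf p X = (Cfsg.pResidual p X).map X.subtype := by
  unfold Cfsg.pResidual resOf
  rw [MonoidHom.map_closure]
  congr 1
  ext x
  constructor
  · rintro ⟨hx, hr⟩
    refine ⟨⟨x, hx⟩, ?_, rfl⟩
    show (orderOf (⟨x, hx⟩ : X)).Coprime p
    rw [Subgroup.orderOf_mk]; exact hr
  · rintro ⟨y, hy, rfl⟩
    refine ⟨y.2, ?_⟩
    show (orderOf (y : G)).Coprime p
    rw [Subgroup.orderOf_coe]; exact hy

theorem exists_core (hy : Hy p G) (X : Subgroup G) (hX : Group.IsSolvable X) :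
    ∃ S, IsCore p X S := by
  obtain ⟨S₁, h1, h2, h3⟩ := exists_pClosed p (Nat.card X) X rfl (hy.subgroup X)
  refine ⟨S₁.map X.subtype, ⟨h1.map _, ?_, ?_⟩⟩
  · rw [resOf_eq_map]
    exact Subgroup.map_mono h2
  · intro x hx hp
    rw [resOf_eq_map] at hx
    obtain ⟨y, hy', rfl⟩ := hx
    refine ⟨y, h3 y hy' ?_, rfl⟩
    obtain ⟨k, hk⟩ := hp
    refine ⟨k, ?_⟩
    apply Subtype.ext
    simpa using hk

namespace IsCore

variable {X S : Subgroup G}

theorem le_normalizer (h : IsCore p X S) : X ≤ normalizer (S : Set G) := by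
  intro g hg
  have key : ∀ g ∈ X, ∀ x ∈ S, g * x * g⁻¹ ∈ S := by
    intro g hg x hx
    refine h.mem _ ?_ ((pelt_of_mem h.isP hx).conj g)
    exact conj_mem_of_mem_normalizer (le_normalizer_resOf X hg) (h.le hx)
  exact mem_normalizer_of_conj (key g hg) (fun x hx => by simpa using key g⁻¹ (inv_mem hg) x hx)

theorem isSylowIn (h : IsCore p X S) : IsSylowIn p S (resOf p X) := by
  refine ⟨h.le, h.isP, ?_⟩
  intro R hR hRp hSR
  apply le_antisymm _ hSR
  intro x hx
  exact h.mem x (hR hx) (pelt_of_mem hRp hx)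

theorem relIndex_coprime (h : IsCore p X S) : (S.relIndex (resOf p X)).Coprime p :=
  ((Nat.Prime.coprime_iff_not_dvd (Fact.out : p.Prime)).mpr h.isSylowIn.toSylow.not_dvd_index).symm

theorem le_X (h : IsCore p X S) : S ≤ X := h.le.trans (resOf_le X)

/-- A complement. -/
theorem exists_complement (h : IsCore p X S) :
    ∃ B : Subgroup G, (Nat.card B).Coprime p ∧ S ⊓ B = ⊥ ∧ B ⊔ S = resOf p X ∧ B ≤ resOf p X := by
  set R := resOf p X with hR
  have hnorm : (S.subgroupOf R).Normal := by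
    refine ⟨fun n hn g => ?_⟩
    rw [mem_subgroupOf] at hn ⊢
    exact conj_mem_of_mem_normalizer (h.le_normalizer (resOf_le X g.2)) hn
  have hcard : Nat.card (S.subgroupOf R) = Nat.card S := card_subgroupOf_of_le h.le
  have hidx : ((S.subgroupOf R).index).Coprime p := h.relIndex_coprime
  have hcop : (Nat.card (S.subgroupOf R)).Coprime (S.subgroupOf R).index := by
    rw [hcard]
    obtain ⟨n, hn⟩ := IsPGroup.iff_card.mp h.isP
    rw [hn]
    exact Nat.Coprime.pow_left n hidx.symm
  obtain ⟨B, hB⟩ := Subgroup.exists_right_complement'_of_coprime hcop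
  have hBc : (Nat.card (B.map R.subtype)).Coprime p := by
    rw [Subgroup.card_map_of_injective R.subtype_injective]
    have := hB.symm.index_eq_card
    rw [← this]
    exact hidx
  refine ⟨B.map R.subtype, hBc, ?_, ?_, Subgroup.map_subtype_le B⟩
  · rw [eq_bot_iff]
    rintro x ⟨hx1, ⟨b, hb, rfl⟩⟩
    have h1 : (b : R) ∈ S.subgroupOf R := hx1
    have h2 := Subgroup.disjoint_def.mp hB.disjoint h1 hb
    rw [h2]; simp
  · apply le_antisymm
    · exact sup_le (Subgroup.map_subtype_le B) h.le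
    · intro x hx
      have h1 : (⟨x, hx⟩ : R) ∈ B ⊔ S.subgroupOf R := by
        rw [sup_comm, hB.sup_eq_top]; trivial
      obtain ⟨b, hb, s, hs, hbs⟩ := mem_sup_of_le_normalizer (le_normalizer_of_normal hnorm B) h1
      have h2 : x = (b : G) * (s : G) := by
        have := congrArg Subtype.val hbs
        simpa using this
      rw [h2]
      exact mul_mem (mem_sup_left ⟨b, hb, rfl⟩) (mem_sup_right hs)

end IsCore

/-- A maximal subgroup of order prime to `p`. -/
structure MaxReg (p : ℕ) (D : Subgroup G) : Prop where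
  cop : (Nat.card D).Coprime p
  max : ∀ D' : Subgroup G, (Nat.card D').Coprime p → D ≤ D' → D' = D

theorem exists_maxReg_ge {D : Subgroup G} (hD : (Nat.card D).Coprime p) :
    ∃ D₁, MaxReg p D₁ ∧ D ≤ D₁ := by
  classical
  have hfin : ({D' : Subgroup G | (Nat.card D').Coprime p ∧ D ≤ D'}).Finite := Set.toFinite _
  obtain ⟨D₁, hD₁⟩ := hfin.exists_maximal ⟨D, hD, le_rfl⟩
  refine ⟨D₁, ⟨hD₁.1.1, ?_⟩, hD₁.1.2⟩
  intro D' hD' hle
  apply le_antisymm _ hle
  exact hD₁.2 ⟨hD', hD₁.1.2.trans hle⟩ hle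

theorem MaxReg.cjOf {D : Subgroup G} (hD : MaxReg p D) (g : G) : MaxReg p (cj D g) := by
  refine ⟨by rw [card_cj]; exact hD.cop, ?_⟩
  intro D' hD' hle
  have h1 : cj D' g⁻¹ = D := by
    apply hD.max _ (by rw [card_cj]; exact hD')
    have := cj_mono hle g⁻¹
    rwa [cj_cj_inv] at this
  rw [← h1, cj_inv_cj]

theorem MaxReg.reg {D : Subgroup G} (hD : MaxReg p D) {x : G} (hx : x ∈ D) : Reg p x :=
  reg_of_mem_of_coprime hD.cop hx

namespace IsCore

variable {X S : Subgroup G}

theorem isSolvable_of_isP (h : IsCore p X S) : Group.IsSolvable S := by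
  haveI := h.isP.isNilpotent
  infer_instance

theorem cop_card (h : IsCore p X S) {D : Subgroup G} (hD : (Nat.card D).Coprime p) :
    (Nat.card S).Coprime (Nat.card D) := by
  obtain ⟨n, hn⟩ := IsPGroup.iff_card.mp h.isP
  rw [hn]
  exact Nat.Coprime.pow_left n hD.symm

/-- Every complement is `S`-conjugate to any maximal regular subgroup of `X`. -/
theorem exists_conj_of_complement (h : IsCore p X S) {B D : Subgroup G}
    (hBc : (Nat.card B).Coprime p) (hBd : S ⊓ B = ⊥) (hBs : B ⊔ S = resOf p X) (hBle : B ≤ resOf p X)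
    (hD : MaxReg p D) (hDX : D ≤ X) : ∃ s ∈ S, B = cj D s := by
  have hDres : D ≤ resOf p X := fun d hd => mem_resOf (hDX hd) (hD.reg hd)
  set B₀ : Subgroup G := B ⊓ (S ⊔ D) with hB₀
  have hN : ∀ {K : Subgroup G}, K ≤ resOf p X → K ≤ normalizer (S : Set G) := fun hK =>
    hK.trans ((resOf_le X).trans h.le_normalizer)
  have hsup : S ⊔ D = S ⊔ B₀ := by
    apply le_antisymm
    · apply sup_le le_sup_left
      intro d hd
      have h1 : d ∈ B ⊔ S := by rw [hBs]; exact hDres hd
      obtain ⟨b, hb, s, hs, rfl⟩ := mem_sup_of_le_normalizer (hN hBle) h1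
      refine mul_mem (mem_sup_right ⟨hb, ?_⟩) (mem_sup_left hs)
      have e : b = (b * s) * s⁻¹ := by group
      rw [e]
      exact mul_mem (mem_sup_right hd) (mem_sup_left (inv_mem hs))
    · exact sup_le le_sup_left inf_le_right
  obtain ⟨n, hn, hB₀n⟩ := exists_conj_rel (N := S) (K₁ := D) (K₂ := B₀) h.isSolvable_of_isP
    (hN hDres) (hN (inf_le_left.trans hBle))
    (inf_eq_bot_of_coprime' (h.cop_card hD.cop))
    (by rw [eq_bot_iff, ← hBd]; exact inf_le_inf_left _ inf_le_left)
    hsup (h.cop_card hD.cop)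
  refine ⟨n, hn, ?_⟩
  have h1 : cj D n ≤ B := by rw [← hB₀n]; exact inf_le_left
  exact (hD.cjOf n).max B hBc h1

/-- Maximal regular subgroups of `X` are conjugate under `S`. -/
theorem exists_conj_maxReg (h : IsCore p X S) {D D' : Subgroup G} (hD : MaxReg p D) (hDX : D ≤ X)
    (hD' : MaxReg p D') (hDX' : D' ≤ X) : ∃ s ∈ S, D' = cj D s := by
  obtain ⟨B, hBc, hBd, hBs, hBle⟩ := h.exists_complement
  obtain ⟨s, hs, h1⟩ := h.exists_conj_of_complement hBc hBd hBs hBle hD hDX
  obtain ⟨s', hs', h2⟩ := h.exists_conj_of_complement hBc hBd hBs hBle hD' hDX'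
  refine ⟨s'⁻¹ * s, mul_mem (inv_mem hs') hs, ?_⟩
  rw [← cj_cj, ← h1, h2, cj_cj]
  simp [cj_one]

/-- A maximal regular subgroup of `X` complements `S` in `resOf p X`. -/
theorem sup_eq (h : IsCore p X S) {D : Subgroup G} (hD : MaxReg p D) (hDX : D ≤ X) :
    D ⊔ S = resOf p X := by
  obtain ⟨B, hBc, hBd, hBs, hBle⟩ := h.exists_complement
  obtain ⟨s, hs, h1⟩ := h.exists_conj_of_complement hBc hBd hBs hBle hD hDX
  apply le_antisymm
  · exact sup_le (fun d hd => mem_resOf (hDX hd) (hD.reg hd)) h.le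
  · intro x hx
    rw [← hBs] at hx
    have hDN : D ≤ normalizer (S : Set G) := hDX.trans h.le_normalizer
    obtain ⟨b, hb, t, ht, rfl⟩ := mem_sup_of_le_normalizer (hBle.trans ((resOf_le X).trans h.le_normalizer)) hx
    rw [h1, mem_cj] at hb
    have e : b * t = s * (s⁻¹ * b * s) * s⁻¹ * t := by group
    rw [e]
    refine mul_mem (mul_mem (mul_mem (mem_sup_right hs) (mem_sup_left hb)) (mem_sup_right (inv_mem hs))) (mem_sup_right ht)

/-- If the regular elements of `X` centralize `S`, they form a subgroup. -/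
theorem exists_regular_subgroup (h : IsCore p X S)
    (hcomm : ∀ x ∈ X, Reg p x → ∀ s ∈ S, x * s = s * x) :
    ∃ Θ : Subgroup G, (Nat.card Θ).Coprime p ∧ ∀ x, x ∈ Θ ↔ x ∈ X ∧ Reg p x := by
  obtain ⟨B, hBc, hBd, hBs, hBle⟩ := h.exists_complement
  refine ⟨B, hBc, ?_⟩
  intro x
  constructor
  · intro hx
    exact ⟨resOf_le X (hBle hx), reg_of_mem_of_coprime hBc hx⟩
  · rintro ⟨hx, hr⟩
    have h1 : x ∈ B ⊔ S := by rw [hBs]; exact mem_resOf hx hr
    obtain ⟨b, hb, t, ht, rfl⟩ := mem_sup_of_le_normalizer (hBle.trans ((resOf_le X).trans h.le_normalizer)) h1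
    have hbr : Reg p b := reg_of_mem_of_coprime hBc hb
    have hbt : b * t = t * b := hcomm b (resOf_le X (hBle hb)) hbr t ht
    have h2 := decomp_unique (p := p) (s := t) (t := b) (s' := 1) (t' := b * t) (hbt.symm) (Commute.one_left _)
      (by rw [one_mul, hbt]) (pelt_of_mem h.isP ht) hbr pelt_one hr
    rw [h2.1, mul_one]
    exact hb

/-- `X` is generated by a Sylow subgroup and the regular elements. -/
theorem _root_.Cfsg.Agent.Lib.PAbB.le_sylow_sup_resOf (X T : Subgroup G) (hT : T ≤ X)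
    (hidx : (T.relIndex X).Coprime p) : X ≤ T ⊔ resOf p X := by
  apply le_sup_of_index hT (resOf_le X) (le_normalizer_resOf X) hidx
  intro e he
  obtain ⟨s, t, rfl, hc, ⟨k, hk⟩, hr, hs, ht⟩ := exists_decomp (p := p) e
  refine ⟨k, ?_⟩
  rw [hc.mul_pow, hk, one_mul]
  have htX : t ∈ X := (zpowers_le.mpr he) ht
  exact pow_mem (mem_resOf htX hr) _

end IsCore

end Cfsg.Agent.Lib.PAbB
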