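import Mathlib
import Cfsg.Agent.Lib.PAbB

/-!
# Counting regular elements under strong control of fusion

If `T` is a Sylow `p`-subgroup of `X`, normal in `H ≤ X`, and `H` controls strong fusion in `T`,
then the proportion of elements of order prime to `p` is the same in `X` and in `H`.
-/

set_option autoImplicit false
set_option linter.unusedSectionVars false
set_option linter.unusedVariables false
set_option linter.style.longLine false
set_option linter.style.haveILetI false

open Subgroup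

namespace Cfsg.Agent.Lib.PAbC

universe u

open Cfsg.Agent.Lib.CoprimeInv Cfsg.Agent.Lib.PAbA Cfsg.Agent.Lib.PAbB

variable {G : Type u} [Group G] {p : ℕ}

/-- Number of elements of `X` of order prime to `p`. -/
noncomputable def nreg (p : ℕ) (X : Subgroup G) : ℕ := Set.ncard {x : G | x ∈ X ∧ Reg p x}

/-- The centralizer of `u` in `Y`. -/
abbrev CI (Y : Subgroup G) (u : G) : Subgroup G := Y ⊓ centralizer ({u} : Set G)

theorem mem_CI {Y : Subgroup G} {u x : G} : x ∈ CI Y u ↔ x ∈ Y ∧ x * u = u * x := by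
  rw [mem_inf, mem_centralizer_singleton_iff]

theorem CI_conj {Y : Subgroup G} {u y : G} (hy : y ∈ Y) : CI Y (y * u * y⁻¹) = cj (CI Y u) y := by
  ext x
  rw [mem_cj, mem_CI, mem_CI]
  constructor
  · rintro ⟨hx, h⟩
    refine ⟨mul_mem (mul_mem (inv_mem hy) hx) hy, ?_⟩
    calc y⁻¹ * x * y * u = y⁻¹ * (x * (y * u * y⁻¹)) * y := by group
      _ = y⁻¹ * ((y * u * y⁻¹) * x) * y := by rw [h]
      _ = u * (y⁻¹ * x * y) := by group
  · rintro ⟨hx, h⟩
    have hx' : x ∈ Y := by
      have : x = y * (y⁻¹ * x * y) * y⁻¹ := by group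
      rw [this]
      exact mul_mem (mul_mem hy hx) (inv_mem hy)
    refine ⟨hx', ?_⟩
    calc x * (y * u * y⁻¹) = y * ((y⁻¹ * x * y) * u) * y⁻¹ := by group
      _ = y * (u * (y⁻¹ * x * y)) * y⁻¹ := by rw [h]
      _ = y * u * y⁻¹ * x := by group

theorem nreg_cj (K : Subgroup G) (g : G) : nreg p (cj K g) = nreg p K := by
  unfold nreg
  have : {x : G | x ∈ cj K g ∧ Reg p x} = (fun x => g * x * g⁻¹) '' {x : G | x ∈ K ∧ Reg p x} := by
    ext x
    constructor
    · rintro ⟨hx, hr⟩
      refine ⟨g⁻¹ * x * g, ⟨mem_cj.mp hx, ?_⟩, by group⟩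
      have := hr.conj g⁻¹
      simpa using this
    · rintro ⟨y, ⟨hy, hr⟩, rfl⟩
      exact ⟨conj_mem_cj hy, hr.conj g⟩
  rw [this]
  apply Set.ncard_image_of_injective
  intro a b hab
  simpa using hab

section Fin

variable [Fintype G] [DecidableEq G]

open Classical in
theorem natCard_eq_filter (Y : Subgroup G) : Nat.card Y = (Finset.univ.filter (· ∈ Y)).card := by
  rw [Nat.card_eq_fintype_card]
  exact Fintype.card_of_subtype _ (by simp)

open Classical in
theorem nreg_eq_filter (X : Subgroup G) : nreg p X = (Finset.univ.filter (fun x => x ∈ X ∧ Reg p x)).card := by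
  unfold nreg
  rw [← Set.ncard_coe_finset]
  congr 1
  ext x
  simp

open Classical in
/-- The `Y`-conjugates of `w`. -/
noncomputable def orb (Y : Subgroup G) (w : G) : Finset G :=
  Finset.univ.filter (fun z => ∃ y ∈ Y, z = y * w * y⁻¹)

theorem mem_orb {Y : Subgroup G} {w z : G} : z ∈ orb Y w ↔ ∃ y ∈ Y, z = y * w * y⁻¹ := by
  simp [orb]

theorem card_orb_mul (Y : Subgroup G) (w : G) : (orb Y w).card * Nat.card (CI Y w) = Nat.card Y := by
  classical
  rw [natCard_eq_filter Y]
  have h1 : ∀ y ∈ Finset.univ.filter (· ∈ Y), y * w * y⁻¹ ∈ orb Y w := by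
    intro y hy
    exact mem_orb.mpr ⟨y, by simpa using hy, rfl⟩
  rw [Finset.card_eq_sum_card_fiberwise h1]
  have h2 : ∀ z ∈ orb Y w, ((Finset.univ.filter (· ∈ Y)).filter (fun y => y * w * y⁻¹ = z)).card = Nat.card (CI Y w) := by
    intro z hz
    obtain ⟨y₀, hy₀, rfl⟩ := mem_orb.mp hz
    rw [natCard_eq_filter (CI Y w)]
    symm
    apply Finset.card_bij (fun c _ => y₀ * c)
    · intro c hc
      have hc' := (Finset.mem_filter.mp hc).2
      obtain ⟨h3, h4⟩ := mem_CI.mp hc'
      simp only [Finset.mem_filter, Finset.mem_univ, true_and]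
      refine ⟨mul_mem hy₀ h3, ?_⟩
      calc y₀ * c * w * (y₀ * c)⁻¹ = y₀ * (c * w) * c⁻¹ * y₀⁻¹ := by group
        _ = y₀ * (w * c) * c⁻¹ * y₀⁻¹ := by rw [h4]
        _ = y₀ * w * y₀⁻¹ := by group
    · intro a _ b _ hab
      exact mul_left_cancel hab
    · intro y hy
      simp only [Finset.mem_filter, Finset.mem_univ, true_and] at hy
      refine ⟨y₀⁻¹ * y, ?_, by group⟩
      simp only [Finset.mem_filter, Finset.mem_univ, true_and]
      refine mem_CI.mpr ⟨mul_mem (inv_mem hy₀) hy.1, ?_⟩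
      have h3 := hy.2
      have h4 : y * w = y₀ * w * y₀⁻¹ * y := by
        rw [← h3]; group
      calc y₀⁻¹ * y * w = y₀⁻¹ * (y * w) := by group
        _ = y₀⁻¹ * (y₀ * w * y₀⁻¹ * y) := by rw [h4]
        _ = w * (y₀⁻¹ * y) := by group
  rw [Finset.sum_congr rfl h2, Finset.sum_const, smul_eq_mul]

theorem card_CI_conj {Y : Subgroup G} {u y : G} (hy : y ∈ Y) :
    Nat.card (CI Y (y * u * y⁻¹)) = Nat.card (CI Y u) := by
  rw [CI_conj hy, card_cj]

theorem nreg_CI_conj {Y : Subgroup G} {u y : G} (hy : y ∈ Y) :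
    nreg p (CI Y (y * u * y⁻¹)) = nreg p (CI Y u) := by
  rw [CI_conj hy, nreg_cj]

variable [Fact p.Prime]

open Classical in
/-- **Base identity**: elements are counted by their `p`-part. -/
theorem card_eq_sum_nreg (X : Subgroup G) :
    Nat.card X = ∑ v ∈ Finset.univ.filter (fun v => v ∈ X ∧ PElt p v), nreg p (CI X v) := by
  choose part rest hdec hcomm hpp hrr hp1 hp2 using fun x : G => exists_decomp (p := p) x
  rw [natCard_eq_filter X]
  have h1 : ∀ x ∈ Finset.univ.filter (· ∈ X), part x ∈ Finset.univ.filter (fun v => v ∈ X ∧ PElt p v) := by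
    intro x hx
    have hx' : x ∈ X := by simpa using hx
    simp only [Finset.mem_filter, Finset.mem_univ, true_and]
    exact ⟨(zpowers_le.mpr hx') (hp1 x), hpp x⟩
  rw [Finset.card_eq_sum_card_fiberwise h1]
  apply Finset.sum_congr rfl
  intro v hv
  simp only [Finset.mem_filter, Finset.mem_univ, true_and] at hv
  rw [nreg_eq_filter]
  symm
  apply Finset.card_bij (fun y _ => v * y)
  · intro y hy
    simp only [Finset.mem_filter, Finset.mem_univ, true_and] at hy ⊢
    obtain ⟨hy1, hy2⟩ := hy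
    obtain ⟨hy3, hy4⟩ := mem_CI.mp hy1
    have h2 := decomp_unique (p := p) (s := part (v * y)) (t := rest (v * y)) (s' := v) (t' := y)
      (hcomm _) (show Commute v y from hy4.symm) (hdec _).symm (hpp _) (hrr _) hv.2 hy2
    exact ⟨mul_mem hv.1 hy3, h2.1⟩
  · intro a _ b _ hab
    exact mul_left_cancel hab
  · intro x hx
    simp only [Finset.mem_filter, Finset.mem_univ, true_and] at hx
    obtain ⟨hx1, hx2⟩ := hx
    refine ⟨rest x, ?_, ?_⟩
    · simp only [Finset.mem_filter, Finset.mem_univ, true_and]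
      refine ⟨mem_CI.mpr ⟨(zpowers_le.mpr hx1) (hp2 x), ?_⟩, hrr x⟩
      rw [← hx2]
      exact (hcomm x).symm
    · rw [← hx2]
      exact (hdec x).symm

/-- Data: `T` a Sylow subgroup of `X`, normal in `H`, and `H` controls strong fusion. -/
structure Datum (p : ℕ) (X H T : Subgroup G) : Prop where
  hTH : T ≤ H
  hHX : H ≤ X
  hHN : H ≤ normalizer (T : Set G)
  hTs : IsSylowIn p T X
  ctrl : ∀ R : Set G, R ⊆ T → ∀ x ∈ X, (∀ r ∈ R, x⁻¹ * r * x ∈ T) →
    ∃ m ∈ H, ∀ r ∈ R, m⁻¹ * r * m = x⁻¹ * r * x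

namespace Datum

variable {X H T : Subgroup G}

/-- Every `p`-element of `X` has an `X`-conjugate in `T`. -/
theorem exists_conj_mem (d : Datum p X H T) {v : G} (hv : v ∈ X) (hp : PElt p v) :
    ∃ x ∈ X, x * v * x⁻¹ ∈ T := by
  have h1 : IsPGroup p (zpowers v) := by
    intro y
    obtain ⟨y, n, rfl⟩ := y
    obtain ⟨k, hk⟩ := hp.zpow n
    refine ⟨k, ?_⟩
    apply Subtype.ext
    simpa using hk
  obtain ⟨S, hS, hle⟩ := exists_isSylowIn_ge p (zpowers_le.mpr hv) h1
  obtain ⟨g, hg, hT⟩ := hS.exists_conj d.hTs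
  refine ⟨g, hg, ?_⟩
  rw [hT]
  exact conj_mem_cj (hle (mem_zpowers v))

/-- The `p`-elements of `H` are the elements of `T`. -/
theorem pelt_iff (d : Datum p X H T) {v : G} : (v ∈ H ∧ PElt p v) ↔ v ∈ T := by
  constructor
  · rintro ⟨hv, hp⟩
    have h1 : IsPGroup p (zpowers v) := by
      intro y
      obtain ⟨y, n, rfl⟩ := y
      obtain ⟨k, hk⟩ := hp.zpow n
      refine ⟨k, ?_⟩
      apply Subtype.ext
      simpa using hk
    have h2 : IsPGroup p (zpowers v ⊔ T : Subgroup G) :=
      IsPGroup.to_sup_of_normal_right' h1 d.hTs.2.1 (zpowers_le.mpr (d.hHN hv))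
    have h3 := d.hTs.2.2 _ (sup_le (zpowers_le.mpr (d.hHX hv)) d.hTs.1) h2 le_sup_right
    rw [← h3]
    exact mem_sup_left (mem_zpowers v)
  · intro hv
    exact ⟨d.hTH hv, pelt_of_mem d.hTs.2.1 hv⟩

/-- The induced data on a centralizer. -/
theorem centr (d : Datum p X H T) {u : G} (hu : u ∈ T) : Datum p (CI X u) (CI H u) (CI T u) := by
  have hP : IsPGroup p (CI T u) := d.hTs.2.1.to_le inf_le_left
  refine ⟨inf_le_inf_right _ d.hTH, inf_le_inf_right _ d.hHX, ?_, ⟨inf_le_inf_right _ d.hTs.1, hP, ?_⟩, ?_⟩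
  · intro h hh
    obtain ⟨h1, h2⟩ := mem_CI.mp hh
    refine mem_normalizer_of_conj ?_ ?_
    · intro x hx
      obtain ⟨h3, h4⟩ := mem_CI.mp hx
      refine mem_CI.mpr ⟨conj_mem_of_mem_normalizer (d.hHN h1) h3, ?_⟩
      have h5 : u * h = h * u := h2.symm
      calc h * x * h⁻¹ * u = h * x * (h⁻¹ * u * h) * h⁻¹ := by group
        _ = h * x * u * h⁻¹ := by
            have : h⁻¹ * u * h = u := by rw [mul_assoc, h5]; group
            rw [this]
        _ = h * u * x * h⁻¹ := by rw [mul_assoc h x u, h4]; group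
        _ = u * (h * x * h⁻¹) := by rw [h2]; group
    · intro x hx
      obtain ⟨h3, h4⟩ := mem_CI.mp hx
      refine mem_CI.mpr ⟨inv_conj_mem_of_mem_normalizer (d.hHN h1) h3, ?_⟩
      have h5 : u * h = h * u := h2.symm
      calc h⁻¹ * x * h * u = h⁻¹ * x * (h * u) := by group
        _ = h⁻¹ * x * (u * h) := by rw [h5]
        _ = h⁻¹ * (x * u) * h := by group
        _ = h⁻¹ * (u * x) * h := by rw [h4]
        _ = (h⁻¹ * u * h) * (h⁻¹ * x * h) := by group
        _ = u * (h⁻¹ * x * h) := by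
            have : h⁻¹ * u * h = u := by rw [mul_assoc, h5]; group
            rw [this]
  · intro R hR hRp hTR
    have huR : u ∈ R := hTR (mem_CI.mpr ⟨hu, rfl⟩)
    obtain ⟨S, hS, hle⟩ := exists_isSylowIn_ge p (hR.trans inf_le_left) hRp
    obtain ⟨g, hg, hT⟩ := hS.exists_conj d.hTs
    have hgu : g * u * g⁻¹ ∈ T := by
      rw [hT]; exact conj_mem_cj (hle huR)
    obtain ⟨m, hm, hm2⟩ := d.ctrl {u} (by simpa using hu) g⁻¹ (inv_mem hg) (by
      intro r hr
      rw [Set.mem_singleton_iff] at hr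
      subst hr
      simpa using hgu)
    have hm3 : m⁻¹ * u * m = g * u * g⁻¹ := by simpa using hm2 u rfl
    have hcu : (m * g) * u = u * (m * g) := by
      have : g * u = m⁻¹ * u * m * g := by rw [hm3]; group
      calc m * g * u = m * (g * u) := by group
        _ = m * (m⁻¹ * u * m * g) := by rw [this]
        _ = u * (m * g) := by group
    have hmem : ∀ r ∈ R, (m * g) * r * (m * g)⁻¹ ∈ CI T u := by
      intro r hr
      have hrT : g * r * g⁻¹ ∈ T := by
        rw [hT]; exact conj_mem_cj (hle hr)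
      have h1 : (m * g) * r * (m * g)⁻¹ = m * (g * r * g⁻¹) * m⁻¹ := by group
      refine mem_CI.mpr ⟨?_, ?_⟩
      · rw [h1]
        exact conj_mem_of_mem_normalizer (d.hHN hm) hrT
      · have hrc := (mem_CI.mp (hR hr)).2
        have hc2 : u * (m * g)⁻¹ = (m * g)⁻¹ * u := by
          rw [eq_inv_mul_iff_mul_eq, ← mul_assoc, hcu]; group
        calc (m * g) * r * (m * g)⁻¹ * u = (m * g) * r * ((m * g)⁻¹ * u) := by group
          _ = (m * g) * r * (u * (m * g)⁻¹) := by rw [hc2]
          _ = (m * g) * (r * u) * (m * g)⁻¹ := by group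
          _ = (m * g) * (u * r) * (m * g)⁻¹ := by rw [hrc]
          _ = ((m * g) * u) * r * (m * g)⁻¹ := by group
          _ = (u * (m * g)) * r * (m * g)⁻¹ := by rw [hcu]
          _ = u * ((m * g) * r * (m * g)⁻¹) := by group
    have hle2 : cj R (m * g) ≤ CI T u := by
      rintro _ ⟨r, hr, rfl⟩
      exact hmem r hr
    have hcard : Nat.card R ≤ Nat.card (CI T u) := by
      rw [← card_cj R (m * g)]
      exact Nat.card_le_card_of_injective _ (Subgroup.inclusion_injective hle2)
    exact (Subgroup.eq_of_le_of_card_ge hTR hcard).symm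
  · intro R hR x hx hxR
    obtain ⟨hx1, hx2⟩ := mem_CI.mp hx
    obtain ⟨m, hm, hm2⟩ := d.ctrl (R ∪ {u}) (by
        rintro r (hr | hr)
        · exact (inf_le_left : CI T u ≤ T) (hR hr)
        · rw [Set.mem_singleton_iff] at hr; rw [hr]; exact hu) x hx1 (by
        rintro r (hr | hr)
        · exact (inf_le_left : CI T u ≤ T) (hxR r hr)
        · rw [Set.mem_singleton_iff] at hr
          subst hr
          have : x⁻¹ * r * x = r := by rw [mul_assoc, ← hx2]; group
          rw [this]; exact hu)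
    refine ⟨m, mem_CI.mpr ⟨hm, ?_⟩, fun r hr => hm2 r (Or.inl hr)⟩
    have h1 := hm2 u (Or.inr rfl)
    have h2 : x⁻¹ * u * x = u := by rw [mul_assoc, ← hx2]; group
    rw [h2] at h1
    have : u * m = m * (m⁻¹ * u * m) := by group
    rw [this, h1]

open Classical in
/-- The weighted count over `T`. -/
theorem sum_eq (d : Datum p X H T) :
    ∑ u ∈ Finset.univ.filter (· ∈ T), (orb X u).card * (Nat.card (CI H u) * nreg p (CI X u)) =
      Nat.card H * Nat.card X := by
  have h1 : ∀ u ∈ Finset.univ.filter (· ∈ T), (orb X u).card * (Nat.card (CI H u) * nreg p (CI X u)) =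
      ∑ _v ∈ orb X u, (Nat.card (CI H u) * nreg p (CI X u)) := by
    intro u _
    rw [Finset.sum_const, smul_eq_mul]
  rw [Finset.sum_congr rfl h1]
  rw [Finset.sum_comm' (s' := fun v => (Finset.univ.filter (· ∈ T)).filter (fun u => v ∈ orb X u))
    (t' := Finset.univ.filter (fun v => v ∈ X ∧ PElt p v))]
  · rw [card_eq_sum_nreg (p := p) X, Finset.mul_sum]
    apply Finset.sum_congr rfl
    intro v hv
    simp only [Finset.mem_filter, Finset.mem_univ, true_and] at hv
    obtain ⟨x₀, hx₀, hu₀⟩ := d.exists_conj_mem hv.1 hv.2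
    set u₀ := x₀ * v * x₀⁻¹ with hu₀def
    have hset : (Finset.univ.filter (· ∈ T)).filter (fun u => v ∈ orb X u) = orb H u₀ := by
      ext u
      simp only [Finset.mem_filter, Finset.mem_univ, true_and, mem_orb]
      constructor
      · rintro ⟨hu, y, hy, hvy⟩
        -- `u` and `u₀` are `X`-conjugate
        have hy2 : u₀ = (x₀ * y) * u * (x₀ * y)⁻¹ := by
          rw [hu₀def, hvy]; group
        obtain ⟨m, hm, hm2⟩ := d.ctrl {u₀} (by simpa using hu₀) ((x₀ * y)) (mul_mem hx₀ hy) (by
          intro r hr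
          rw [Set.mem_singleton_iff] at hr
          subst hr
          rw [hy2]
          have : (x₀ * y)⁻¹ * ((x₀ * y) * u * (x₀ * y)⁻¹) * (x₀ * y) = u := by group
          rw [this]; exact hu)
        have hm3 : m⁻¹ * u₀ * m = (x₀ * y)⁻¹ * u₀ * (x₀ * y) := hm2 u₀ rfl
        refine ⟨m⁻¹, inv_mem hm, ?_⟩
        have : (x₀ * y)⁻¹ * u₀ * (x₀ * y) = u := by rw [hy2]; group
        rw [← this, ← hm3]; group
      · rintro ⟨y, hy, rfl⟩
        refine ⟨conj_mem_of_mem_normalizer (d.hHN hy) hu₀, (y * x₀)⁻¹, inv_mem (mul_mem (d.hHX hy) hx₀), ?_⟩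
        rw [hu₀def]; group
    rw [hset]
    have hconst : ∀ u ∈ orb H u₀, Nat.card (CI H u) * nreg p (CI X u) =
        Nat.card (CI H u₀) * nreg p (CI X v) := by
      intro u hu
      obtain ⟨y, hy, rfl⟩ := mem_orb.mp hu
      rw [card_CI_conj hy]
      congr 1
      have e : y * u₀ * y⁻¹ = (y * x₀) * v * (y * x₀)⁻¹ := by
        rw [hu₀def]; group
      rw [e]
      exact nreg_CI_conj (mul_mem (d.hHX hy) hx₀)
    rw [Finset.sum_congr rfl hconst, Finset.sum_const, smul_eq_mul, ← mul_assoc, card_orb_mul]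
  · intro u v
    simp only [Finset.mem_filter, Finset.mem_univ, true_and]
    constructor
    · rintro ⟨hu, hv⟩
      refine ⟨⟨hu, hv⟩, ?_⟩
      obtain ⟨y, hy, rfl⟩ := mem_orb.mp hv
      have huX : u ∈ X := d.hTs.1 hu
      exact ⟨mul_mem (mul_mem hy huX) (inv_mem hy), (pelt_of_mem d.hTs.2.1 hu).conj y⟩
    · rintro ⟨⟨hu, hv⟩, -⟩
      exact ⟨hu, hv⟩

open Classical in
theorem sum_H (d : Datum p X H T) :
    ∑ u ∈ Finset.univ.filter (· ∈ T), nreg p (CI H u) = Nat.card H := by
  rw [card_eq_sum_nreg (p := p) H]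
  apply Finset.sum_congr _ (fun _ _ => rfl)
  ext v
  simp only [Finset.mem_filter, Finset.mem_univ, true_and]
  exact d.pelt_iff.symm

end Datum

/-- **Counting theorem.** -/
theorem nreg_mul_eq : ∀ (n : ℕ) (X H T : Subgroup G), Nat.card X = n → Datum p X H T →
    nreg p X * Nat.card H = nreg p H * Nat.card X := by
  intro n
  induction n using Nat.strong_induction_on with
  | _ n ih =>
  intro X H T hn d
  classical
  have hE := d.sum_eq
  have hH := d.sum_H
  set Tf := Finset.univ.filter (· ∈ T) with hTf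
  -- split according to centrality
  set Zf := Tf.filter (fun u => CI X u = X) with hZf
  have hsplit1 : ∀ f : G → ℕ, ∑ u ∈ Tf, f u = ∑ u ∈ Zf, f u + ∑ u ∈ Tf.filter (fun u => ¬ CI X u = X), f u :=
    fun f => (Finset.sum_filter_add_sum_filter_not Tf _ f).symm
  have hproper : ∀ u ∈ Tf.filter (fun u => ¬ CI X u = X),
      (orb X u).card * (Nat.card (CI H u) * nreg p (CI X u)) = Nat.card X * nreg p (CI H u) := by
    intro u hu
    simp only [Finset.mem_filter, hTf, Finset.mem_univ, true_and] at hu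
    have hlt : Nat.card (CI X u) < n := by
      rw [← hn]
      have hle : CI X u ≤ X := inf_le_left
      exact lt_of_le_of_ne (Nat.card_le_card_of_injective _ (Subgroup.inclusion_injective hle))
        (fun h => hu.2 (Subgroup.eq_of_le_of_card_ge hle h.ge))
    have h1 := ih _ hlt (CI X u) (CI H u) (CI T u) rfl (d.centr hu.1)
    rw [← card_orb_mul X u]
    calc (orb X u).card * (Nat.card (CI H u) * nreg p (CI X u))
        = (orb X u).card * (nreg p (CI X u) * Nat.card (CI H u)) := by ring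
      _ = (orb X u).card * (nreg p (CI H u) * Nat.card (CI X u)) := by rw [h1]
      _ = _ := by ring
  have hcentral : ∀ u ∈ Zf, (orb X u).card * (Nat.card (CI H u) * nreg p (CI X u)) = Nat.card H * nreg p X := by
    intro u hu
    simp only [hZf, Finset.mem_filter, hTf, Finset.mem_univ, true_and] at hu
    obtain ⟨hu1, hu2⟩ := hu
    have hH' : CI H u = H := by
      apply inf_eq_left.mpr
      exact d.hHX.trans (inf_eq_left.mp hu2)
    have horb : (orb X u).card = 1 := by
      have := card_orb_mul X u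
      rw [hu2] at this
      have hpos : 0 < Nat.card X := Nat.card_pos
      exact Nat.eq_of_mul_eq_mul_right hpos (by rw [this, one_mul])
    rw [horb, hH', hu2, one_mul]
  have hcentralH : ∀ u ∈ Zf, nreg p (CI H u) = nreg p H := by
    intro u hu
    simp only [hZf, Finset.mem_filter, hTf, Finset.mem_univ, true_and] at hu
    have hH' : CI H u = H := by
      apply inf_eq_left.mpr
      exact d.hHX.trans (inf_eq_left.mp hu.2)
    rw [hH']
  rw [hsplit1, Finset.sum_congr rfl hcentral, Finset.sum_congr rfl hproper, Finset.sum_const, smul_eq_mul,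
    ← Finset.mul_sum] at hE
  rw [hsplit1, Finset.sum_congr rfl hcentralH, Finset.sum_const, smul_eq_mul] at hH
  have hZpos : 0 < Zf.card := by
    apply Finset.card_pos.mpr
    refine ⟨1, ?_⟩
    simp only [hZf, hTf, Finset.mem_filter, Finset.mem_univ, true_and]
    refine ⟨one_mem _, ?_⟩
    apply inf_eq_left.mpr
    intro x _
    rw [mem_centralizer_singleton_iff]; simp
  set A := ∑ u ∈ Tf.filter (fun u => ¬ CI X u = X), nreg p (CI H u) with hA
  have key : Zf.card * (nreg p X * Nat.card H) = Zf.card * (nreg p H * Nat.card X) := by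
    have e1 : Zf.card * (Nat.card H * nreg p X) + Nat.card X * A = Nat.card H * Nat.card X := hE
    have e2 : Zf.card * nreg p H + A = Nat.card H := hH
    have e3 : Nat.card X * (Zf.card * nreg p H + A) = Nat.card X * Nat.card H := by rw [e2]
    nlinarith
  exact Nat.eq_of_mul_eq_mul_left hZpos key

end Fin

end Cfsg.Agent.Lib.PAbC
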