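import Mathlib
import Cfsg.Agent.Lib.PAbC

/-!
# Groups whose `p'`-subgroups are abelian: a minimal counterexample, local analysis

`Setup p P A`: `G` is simple non-abelian satisfying `Hy p`, proper subgroups are solvable,
`N(P)` controls strong fusion in the Sylow subgroup `P`, and `A` is a complement to `P` in `N(P)`.
-/

set_option autoImplicit false
set_option linter.unusedSectionVars false
set_option linter.unusedVariables false
set_option linter.style.longLine false
set_option linter.style.haveILetI false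

open Subgroup

namespace Cfsg.Agent.Lib.PAbD

universe u

open Cfsg.Agent.Lib.CoprimeInv Cfsg.Agent.Lib.PAbA Cfsg.Agent.Lib.PAbB Cfsg.Agent.Lib.PAbC

variable {G : Type u} [Group G] [Finite G] {p : ℕ} [Fact p.Prime]

/-- The situation of a minimal counterexample. -/
structure Setup (p : ℕ) [Fact p.Prime] (P : Sylow p G) (A : Subgroup G) : Prop where
  hy : Hy p G
  simple : IsSimpleGroup G
  noncomm : ¬ ∀ a b : G, a * b = b * a
  solv : ∀ H : Subgroup G, H ≠ ⊤ → Group.IsSolvable H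
  ctrl : ∀ R : Set G, R ⊆ (P : Subgroup G) → ∀ g : G, (∀ r ∈ R, g⁻¹ * r * g ∈ (P : Subgroup G)) →
    ∃ m ∈ normalizer ((P : Subgroup G) : Set G), ∀ r ∈ R, m⁻¹ * r * m = g⁻¹ * r * g
  hA_cop : (Nat.card A).Coprime p
  hA_sup : A ⊔ (P : Subgroup G) = normalizer ((P : Subgroup G) : Set G)
  hP : (P : Subgroup G) ≠ ⊥

/-- An element commuting with a subset, power criterion. -/
theorem mem_centralizer_of_pow {R : Set G} {t : G} {j : ℕ} (hj : j.Coprime (orderOf t))
    (h : t ^ j ∈ centralizer R) : t ∈ centralizer R := by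
  have h1 := Nat.gcd_eq_gcd_ab j (orderOf t)
  rw [hj] at h1
  have h2 : t = (t ^ j) ^ (Nat.gcdA j (orderOf t)) := by
    have h3 : t ^ ((j : ℤ) * Nat.gcdA j (orderOf t) + (orderOf t : ℤ) * Nat.gcdB j (orderOf t)) = t ^ (1 : ℤ) := by
      congr 1
      rw [← h1]; simp
    rw [zpow_add, zpow_mul t (orderOf t : ℤ), zpow_natCast, pow_orderOf_eq_one, one_zpow, mul_one, zpow_mul,
      zpow_natCast, zpow_one] at h3
    exact h3.symm
  rw [h2]
  exact zpow_mem h _

theorem inv_conj_eq_of_mem_centralizer {R : Subgroup G} {t r : G} (ht : t ∈ centralizer (R : Set G))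
    (hr : r ∈ R) : t⁻¹ * r * t = r := by
  have h := mem_centralizer_iff.mp ht r hr
  rw [mul_assoc, h]; group

/-- Two elements inducing the same action on a set: the powers as well. -/
theorem same_action_pow {R : Subgroup G} {m x : G} (hx : x ∈ normalizer (R : Set G))
    (h : ∀ r ∈ R, m⁻¹ * r * m = x⁻¹ * r * x) (n : ℕ) :
    ∀ r ∈ R, (m ^ n)⁻¹ * r * m ^ n = (x ^ n)⁻¹ * r * x ^ n := by
  induction n with
  | zero => intro r _; simp
  | succ n ih =>
    intro r hr
    have h1 := ih r hr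
    have h2 : (x ^ n)⁻¹ * r * x ^ n ∈ R := inv_conj_mem_of_mem_normalizer (pow_mem hx n) hr
    have h3 := h _ h2
    rw [pow_succ, pow_succ]
    calc (m ^ n * m)⁻¹ * r * (m ^ n * m) = m⁻¹ * ((m ^ n)⁻¹ * r * m ^ n) * m := by group
      _ = m⁻¹ * ((x ^ n)⁻¹ * r * x ^ n) * m := by rw [h1]
      _ = x⁻¹ * ((x ^ n)⁻¹ * r * x ^ n) * x := h3
      _ = (x ^ n * x)⁻¹ * r * (x ^ n * x) := by group

theorem mem_normalizer_of_same_action {R : Subgroup G} {m x : G} (hx : x ∈ normalizer (R : Set G))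
    (h : ∀ r ∈ R, m⁻¹ * r * m = x⁻¹ * r * x) : m ∈ normalizer (R : Set G) := by
  have hinj : Function.Injective (fun r : R => (⟨x⁻¹ * r * x, inv_conj_mem_of_mem_normalizer hx r.2⟩ : R)) := by
    intro a b hab
    apply Subtype.ext
    have := congrArg Subtype.val hab
    simpa using this
  have hbij := Finite.injective_iff_surjective.mp hinj
  have h1 : ∀ r ∈ R, m⁻¹ * r * m ∈ R := by
    intro r hr
    rw [h r hr]
    exact inv_conj_mem_of_mem_normalizer hx hr
  refine mem_normalizer_of_conj ?_ h1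
  intro r hr
  obtain ⟨y, hy⟩ := hbij ⟨r, hr⟩
  have h2 : x⁻¹ * y * x = r := congrArg Subtype.val hy
  have h3 : m⁻¹ * y * m = r := by rw [h y y.2]; exact h2
  have h4 : m * r * m⁻¹ = y := by rw [← h3]; group
  rw [h4]; exact y.2

theorem mem_centralizer_of_same_action_trivial {R : Subgroup G} {m : G}
    (h : ∀ r ∈ R, m⁻¹ * r * m = r) : m ∈ centralizer (R : Set G) := by
  rw [mem_centralizer_iff]
  intro r hr
  have := h r hr
  calc r * m = m * (m⁻¹ * r * m) := by group
    _ = m * r := by rw [this]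

/-- A regular element and a `p`-element with the same action on `R` act trivially. -/
theorem reg_pelt_same_action {R : Subgroup G} {d f : G} (hd : Reg p d) (hf : PElt p f)
    (hdN : d ∈ normalizer (R : Set G)) (h : ∀ r ∈ R, f⁻¹ * r * f = d⁻¹ * r * d) :
    d ∈ centralizer (R : Set G) ∧ f ∈ centralizer (R : Set G) := by
  have h1 := same_action_pow hdN h (orderOf d)
  rw [pow_orderOf_eq_one] at h1
  have h2 : f ^ orderOf d ∈ centralizer (R : Set G) := by
    apply mem_centralizer_of_same_action_trivial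
    intro r hr
    rw [h1 r hr]; simp
  have hcop : (orderOf d).Coprime (orderOf f) := by
    obtain ⟨k, hk⟩ := hf
    have h3 : orderOf f ∣ p ^ k := orderOf_dvd_of_pow_eq_one hk
    exact Nat.Coprime.coprime_dvd_right h3 (Nat.Coprime.pow_right k hd)
  have h3 := mem_centralizer_of_pow hcop h2
  refine ⟨?_, h3⟩
  apply mem_centralizer_of_same_action_trivial
  intro r hr
  rw [← h r hr]
  exact inv_conj_eq_of_mem_centralizer h3 hr

namespace Setup

variable {P : Sylow p G} {A : Subgroup G}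

local notation "M" => normalizer ((P : Subgroup G) : Set G)

theorem not_isPGroup (S : Setup p P A) {q : ℕ} [Fact q.Prime] : ¬ IsPGroup q G := by
  intro h
  haveI : Nontrivial G := S.simple.toNontrivial
  have h1 : (center G) ≠ ⊥ := by
    haveI := h.center_nontrivial
    exact (Subgroup.nontrivial_iff_ne_bot _).mp this
  have h2 := S.simple.eq_bot_or_eq_top_of_normal (center G) inferInstance
  rcases h2 with h2 | h2
  · exact h1 h2
  · apply S.noncomm
    intro a b
    have : a ∈ center G := by rw [h2]; trivial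
    exact (Subgroup.mem_center_iff.mp this b).symm

theorem centralizer_ne_top (S : Setup p P A) {y : G} (hy : y ≠ 1) : centralizer ({y} : Set G) ≠ ⊤ := by
  intro h
  have h2 := S.simple.eq_bot_or_eq_top_of_normal (center G) inferInstance
  have hyc : y ∈ center G := by
    rw [Subgroup.mem_center_iff]
    intro g
    have : g ∈ centralizer ({y} : Set G) := by rw [h]; trivial
    exact mem_centralizer_singleton_iff.mp this
  rcases h2 with h2 | h2
  · rw [h2, mem_bot] at hyc
    exact hy hyc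
  · apply S.noncomm
    intro a b
    have : a ∈ center G := by rw [h2]; trivial
    exact (Subgroup.mem_center_iff.mp this b).symm

/-- The normalizer of a nontrivial `p`-subgroup is proper. -/
theorem normalizer_ne_top (S : Setup p P A) {R : Subgroup G} (hR : IsPGroup p R) (hne : R ≠ ⊥) :
    normalizer (R : Set G) ≠ ⊤ := by
  intro h
  have hn : R.Normal := normalizer_eq_top_iff.mp h
  rcases S.simple.eq_bot_or_eq_top_of_normal R hn with h2 | h2
  · exact hne h2
  · apply S.not_isPGroup (q := p)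
    rw [h2] at hR
    exact (IsPGroup.of_equiv hR Subgroup.topEquiv)

theorem solvable_normalizer (S : Setup p P A) {R : Subgroup G} (hR : IsPGroup p R) (hne : R ≠ ⊥) :
    Group.IsSolvable (normalizer (R : Set G)) := S.solv _ (S.normalizer_ne_top hR hne)

theorem isP (P : Sylow p G) : IsPGroup p (P : Subgroup G) := P.2

/-- `p`-elements of `N(P)` lie in `P`. -/
theorem pelt_mem_P {x : G} (hx : x ∈ M) (hp : PElt p x) : x ∈ (P : Subgroup G) := by
  have h1 : IsPGroup p (zpowers x) := by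
    intro y
    obtain ⟨y, n, rfl⟩ := y
    obtain ⟨k, hk⟩ := hp.zpow n
    refine ⟨k, ?_⟩
    apply Subtype.ext
    simpa using hk
  have h2 : IsPGroup p (zpowers x ⊔ (P : Subgroup G) : Subgroup G) :=
    IsPGroup.to_sup_of_normal_right' h1 P.2 (zpowers_le.mpr hx)
  have h3 := P.3 h2 le_sup_right
  rw [← h3]
  exact mem_sup_left (mem_zpowers x)

/-- A `p`-subgroup has a conjugate in `P`. -/
theorem exists_conj_le (P : Sylow p G) {L : Subgroup G} (hL : IsPGroup p L) :
    ∃ g : G, ∀ x ∈ L, g⁻¹ * x * g ∈ (P : Subgroup G) := by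
  obtain ⟨Q, hQ⟩ := hL.exists_le_sylow
  obtain ⟨g, rfl⟩ := MulAction.exists_smul_eq G P Q
  refine ⟨g, fun x hx => ?_⟩
  have h1 : x ∈ (g • P : Sylow p G) := hQ hx
  exact Cfsg.Agent.Lib.TransferCore.mem_smul_sylow.1 h1

/-- A `p`-subgroup normalizing `R ≤ P` has a `C(R)`-conjugate in `P`. -/
theorem exists_central_conj (S : Setup p P A) {R T : Subgroup G} (hR : R ≤ (P : Subgroup G))
    (hT : IsPGroup p T) (hTR : T ≤ normalizer (R : Set G)) :
    ∃ c ∈ centralizer (R : Set G), ∀ t ∈ T, c⁻¹ * t * c ∈ (P : Subgroup G) := by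
  have h1 : IsPGroup p (T ⊔ R : Subgroup G) :=
    IsPGroup.to_sup_of_normal_right' hT (P.2.to_le hR) hTR
  obtain ⟨g, hg⟩ := exists_conj_le P h1
  obtain ⟨m, hm, hm2⟩ := S.ctrl (R : Set G) hR g (fun r hr => hg r (mem_sup_right hr))
  refine ⟨g * m⁻¹, ?_, ?_⟩
  · apply mem_centralizer_of_same_action_trivial
    intro r hr
    have := hm2 r hr
    calc (g * m⁻¹)⁻¹ * r * (g * m⁻¹) = m * (g⁻¹ * r * g) * m⁻¹ := by group
      _ = m * (m⁻¹ * r * m) * m⁻¹ := by rw [this]
      _ = r := by group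
  · intro t ht
    have h2 := hg t (mem_sup_left ht)
    have h3 : (g * m⁻¹)⁻¹ * t * (g * m⁻¹) = m * (g⁻¹ * t * g) * m⁻¹ := by group
    rw [h3]
    exact conj_mem_of_mem_normalizer hm h2

/-- `P ⊓ X` is Sylow in `X`, for `C(R) ≤ X ≤ N(R)`. -/
theorem isSylowIn_inf (S : Setup p P A) {R X : Subgroup G} (hR : R ≤ (P : Subgroup G))
    (h1 : centralizer (R : Set G) ≤ X) (h2 : X ≤ normalizer (R : Set G)) :
    IsSylowIn p ((P : Subgroup G) ⊓ X) X := by
  refine ⟨inf_le_right, P.2.to_le inf_le_left, ?_⟩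
  intro T hTX hT hPT
  obtain ⟨c, hc, hc2⟩ := S.exists_central_conj hR hT (hTX.trans h2)
  have hcX := h1 hc
  have hle : cj T c⁻¹ ≤ (P : Subgroup G) ⊓ X := by
    rintro _ ⟨t, ht, rfl⟩
    have h3 : (MulAut.conj c⁻¹).toMonoidHom t = c⁻¹ * t * c := by simp
    rw [h3]
    exact mem_inf.mpr ⟨hc2 t ht, mul_mem (mul_mem (inv_mem hcX) (hTX ht)) hcX⟩
  have hcard : Nat.card T ≤ Nat.card ((P : Subgroup G) ⊓ X : Subgroup G) := by
    rw [← card_cj T c⁻¹]
    exact Nat.card_le_card_of_injective _ (Subgroup.inclusion_injective hle)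
  exact (Subgroup.eq_of_le_of_card_ge hPT hcard).symm

/-- A `p`-element normalizing `R ≤ P` acts as an element of `P`. -/
theorem ctrl_pelt (S : Setup p P A) {R : Subgroup G} (hR : R ≤ (P : Subgroup G)) {x : G}
    (hx : x ∈ normalizer (R : Set G)) (hp : PElt p x) :
    ∃ f ∈ (P : Subgroup G) ⊓ normalizer (R : Set G), ∀ r ∈ R, f⁻¹ * r * f = x⁻¹ * r * x := by
  obtain ⟨m, hm, hm2⟩ := S.ctrl (R : Set G) hR x (fun r hr => hR (inv_conj_mem_of_mem_normalizer hx hr))
  have hmN := mem_normalizer_of_same_action hx hm2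
  obtain ⟨s, t, hst, hc, ⟨k, hk⟩, hr, hs, ht⟩ := exists_decomp (p := p) m
  obtain ⟨l, hl⟩ := hp
  have h1 := same_action_pow hx hm2 (p ^ (k + l))
  have hxp : x ^ p ^ (k + l) = 1 := by
    rw [add_comm, pow_add, pow_mul, hl, one_pow]
  rw [hxp] at h1
  have hmp : m ^ p ^ (k + l) = t ^ p ^ (k + l) := by
    rw [hst, hc.mul_pow, pow_add, pow_mul, hk, one_pow, one_mul]
  rw [hmp] at h1
  have h2 : t ^ p ^ (k + l) ∈ centralizer (R : Set G) := by
    apply mem_centralizer_of_same_action_trivial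
    intro r hr'
    rw [h1 r hr']; simp
  have hcop : (p ^ (k + l)).Coprime (orderOf t) := Nat.Coprime.pow_left _ (Nat.Coprime.symm hr)
  have htC := mem_centralizer_of_pow hcop h2
  have hsM : s ∈ M := (zpowers_le.mpr hm) hs
  have hsN : s ∈ normalizer (R : Set G) := (zpowers_le.mpr hmN) hs
  refine ⟨s, ⟨pelt_mem_P hsM ⟨k, hk⟩, hsN⟩, ?_⟩
  intro r hr'
  rw [← hm2 r hr', hst]
  have e : (s * t)⁻¹ * r * (s * t) = t⁻¹ * (s⁻¹ * r * s) * t := by group
  rw [e]
  have h3 : s⁻¹ * r * s ∈ R := inv_conj_mem_of_mem_normalizer hsN hr'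
  exact (inv_conj_eq_of_mem_centralizer htC h3).symm

/-- Any element normalizing `R ≤ P`, of order prime to `|N(P)|`, centralizes `R`. -/
theorem ctrl_coprime (S : Setup p P A) {R : Subgroup G} (hR : R ≤ (P : Subgroup G)) {d : G}
    (hd : d ∈ normalizer (R : Set G)) (hc : (orderOf d).Coprime (Nat.card M)) :
    d ∈ centralizer (R : Set G) := by
  obtain ⟨m, hm, hm2⟩ := S.ctrl (R : Set G) hR d (fun r hr => hR (inv_conj_mem_of_mem_normalizer hd hr))
  have h1 := same_action_pow hd hm2 (orderOf d)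
  rw [pow_orderOf_eq_one] at h1
  have h2 : m ^ orderOf d ∈ centralizer (R : Set G) := by
    apply mem_centralizer_of_same_action_trivial
    intro r hr'
    rw [h1 r hr']; simp
  have hcop : (orderOf d).Coprime (orderOf m) := by
    have : orderOf m ∣ Nat.card M := by
      have := orderOf_dvd_natCard (⟨m, hm⟩ : M)
      rwa [Subgroup.orderOf_mk] at this
    exact Nat.Coprime.coprime_dvd_right this hc
  have h3 := mem_centralizer_of_pow hcop h2
  apply mem_centralizer_of_same_action_trivial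
  intro r hr
  rw [← hm2 r hr]
  exact inv_conj_eq_of_mem_centralizer h3 hr

theorem centralizer_le_normalizer' (Y : Subgroup G) : centralizer (Y : Set G) ≤ normalizer (Y : Set G) := by
  intro c hc
  apply mem_normalizer_of_conj
  · intro y hy
    have h := mem_centralizer_iff.mp hc y hy
    rw [← h]; simpa using hy
  · intro y hy
    rw [inv_conj_eq_of_mem_centralizer hc hy]; exact hy

/-- Powers of a product modulo a normalized subgroup. -/
theorem mul_pow_mem {f c : G} {K : Subgroup G} (hf : f ∈ normalizer (K : Set G)) (hc : c ∈ K) (n : ℕ) :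
    ∃ c' ∈ K, (f * c) ^ n = f ^ n * c' := by
  induction n with
  | zero => exact ⟨1, one_mem _, by simp⟩
  | succ n ih =>
    obtain ⟨c', hc', h⟩ := ih
    refine ⟨f⁻¹ * c' * f * c, mul_mem (inv_conj_mem_of_mem_normalizer hf hc') hc, ?_⟩
    rw [pow_succ, h, pow_succ]
    group

/-- **Lemma K'**: the local structure of the normalizer of a nontrivial subgroup of `P`. -/
theorem exists_theta (S : Setup p P A) {Y : Subgroup G} (hYP : Y ≤ (P : Subgroup G)) (hY : Y ≠ ⊥) :
    ∃ θ : Subgroup G, (Nat.card θ).Coprime p ∧ normalizer (Y : Set G) ≤ normalizer (θ : Set G) ∧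
      ∀ x ∈ normalizer (Y : Set G), PElt p x → ∃ t ∈ (P : Subgroup G) ⊓ normalizer (Y : Set G), ∃ u ∈ θ, x = t * u := by
  set X : Subgroup G := normalizer (Y : Set G) with hX
  set T : Subgroup G := (P : Subgroup G) ⊓ X with hT
  have hTs : IsSylowIn p T X := S.isSylowIn_inf hYP (centralizer_le_normalizer' Y) le_rfl
  have hXne : X ≠ ⊤ := S.normalizer_ne_top (P.2.to_le hYP) hY
  -- the core `O`
  set O : Subgroup G := ⨅ x : X, cj T (x : G) with hO
  have hmemO : ∀ {o : G}, o ∈ O ↔ ∀ x ∈ X, x⁻¹ * o * x ∈ T := by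
    intro o
    rw [hO, Subgroup.mem_iInf]
    constructor
    · intro h x hx
      exact mem_cj.mp (h ⟨x, hx⟩)
    · intro h x
      exact mem_cj.mpr (h x x.2)
  have hOT : O ≤ T := by
    intro o ho
    have := hmemO.mp ho 1 (one_mem _)
    simpa using this
  have hOp : IsPGroup p O := hTs.2.1.to_le hOT
  have hOP : O ≤ (P : Subgroup G) := hOT.trans inf_le_left
  have hXO : X ≤ normalizer (O : Set G) := by
    have key : ∀ g ∈ X, ∀ o ∈ O, g * o * g⁻¹ ∈ O := by
      intro g hg o ho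
      refine hmemO.mpr fun x hx => ?_
      have := hmemO.mp ho (g⁻¹ * x) (mul_mem (inv_mem hg) hx)
      have e : x⁻¹ * (g * o * g⁻¹) * x = (g⁻¹ * x)⁻¹ * o * (g⁻¹ * x) := by group
      rw [e]; exact this
    intro g hg
    exact mem_normalizer_of_conj (key g hg) (fun o ho => by simpa using key g⁻¹ (inv_mem hg) o ho)
  have hnormle : ∀ R : Subgroup G, R ≤ X → X ≤ normalizer (R : Set G) → IsPGroup p R → R ≤ O := by
    intro R hRX hXR hRp
    have hRT : R ≤ T := by
      have h1 : IsPGroup p (T ⊔ R : Subgroup G) :=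
        IsPGroup.to_sup_of_normal_right' hTs.2.1 hRp (hTs.1.trans hXR)
      have h2 := hTs.2.2 _ (sup_le hTs.1 hRX) h1 le_sup_left
      rw [← h2]; exact le_sup_right
    intro r hr
    refine hmemO.mpr fun x hx => hRT ?_
    exact inv_conj_mem_of_mem_normalizer (hXR hx) hr
  have hYO : Y ≤ O := hnormle Y (le_normalizer) le_rfl (P.2.to_le hYP)
  -- the centralizer `C`
  set Chat : Subgroup G := centralizer (O : Set G) with hChat
  set C : Subgroup G := X ⊓ Chat with hC
  have hNChat : normalizer (O : Set G) ≤ normalizer (Chat : Set G) := by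
    have key : ∀ g ∈ normalizer (O : Set G), ∀ c ∈ Chat, g * c * g⁻¹ ∈ Chat := by
      intro g hg c hc
      apply mem_centralizer_of_same_action_trivial
      intro o ho
      have h1 : g⁻¹ * o * g ∈ O := inv_conj_mem_of_mem_normalizer hg ho
      have h2 := inv_conj_eq_of_mem_centralizer hc h1
      calc (g * c * g⁻¹)⁻¹ * o * (g * c * g⁻¹) = g * (c⁻¹ * (g⁻¹ * o * g) * c) * g⁻¹ := by group
        _ = g * (g⁻¹ * o * g) * g⁻¹ := by rw [h2]
        _ = o := by group
    intro g hg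
    exact mem_normalizer_of_conj (key g hg) (fun c hc => by simpa using key g⁻¹ (inv_mem hg) c hc)
  have hXC : X ≤ normalizer (C : Set G) := by
    have key : ∀ g ∈ X, ∀ c ∈ C, g * c * g⁻¹ ∈ C := by
      intro g hg c hc
      exact mem_inf.mpr ⟨mul_mem (mul_mem hg hc.1) (inv_mem hg),
        conj_mem_of_mem_normalizer (hNChat (hXO hg)) hc.2⟩
    intro g hg
    exact mem_normalizer_of_conj (key g hg) (fun c hc => by simpa using key g⁻¹ (inv_mem hg) c hc)
  have hCne : C ≠ ⊤ := by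
    intro h
    apply hXne
    rw [eq_top_iff, ← h]; exact inf_le_left
  obtain ⟨S₀, hS₀⟩ := exists_core S.hy C (S.solv C hCne)
  have hXS₀ : X ≤ normalizer (S₀ : Set G) := by
    have key : ∀ g ∈ X, ∀ s ∈ S₀, g * s * g⁻¹ ∈ S₀ := by
      intro g hg s hs
      exact hS₀.mem _ (conj_mem_resOf (hXC hg) (hS₀.le hs)) ((pelt_of_mem hS₀.isP hs).conj g)
    intro g hg
    exact mem_normalizer_of_conj (key g hg) (fun c hc => by simpa using key g⁻¹ (inv_mem hg) c hc)
  have hS₀C : S₀ ≤ C := hS₀.le_X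
  have hS₀O : S₀ ≤ O := hnormle S₀ (hS₀C.trans inf_le_left) hXS₀ hS₀.isP
  obtain ⟨θ, hθc, hθ⟩ := hS₀.exists_regular_subgroup (by
    intro x hx _ s hs
    exact (mem_centralizer_iff.mp hx.2 s (hS₀O hs)).symm)
  have hθC : θ ≤ C := fun u hu => ((hθ u).mp hu).1
  have hXθ : X ≤ normalizer (θ : Set G) := by
    have key : ∀ g ∈ X, ∀ u ∈ θ, g * u * g⁻¹ ∈ θ := by
      intro g hg u hu
      obtain ⟨h1, h2⟩ := (hθ u).mp hu
      exact (hθ _).mpr ⟨conj_mem_of_mem_normalizer (hXC hg) h1, h2.conj g⟩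
    intro g hg
    exact mem_normalizer_of_conj (key g hg) (fun c hc => by simpa using key g⁻¹ (inv_mem hg) c hc)
  refine ⟨θ, hθc, hXθ, ?_⟩
  -- the group `E`
  set F : Subgroup G := (P : Subgroup G) ⊓ normalizer (O : Set G) with hF
  have hFN : F ≤ normalizer (Chat : Set G) := inf_le_right.trans hNChat
  set E : Subgroup G := X ⊓ (F ⊔ Chat) with hE
  have hTE : T ≤ E := fun t ht => mem_inf.mpr ⟨ht.2, mem_sup_left (mem_inf.mpr ⟨ht.1, hXO ht.2⟩)⟩
  have hθE : θ ≤ E := fun u hu => mem_inf.mpr ⟨(hθC hu).1, mem_sup_right (hθC hu).2⟩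
  have hEX : E ≤ X := inf_le_left
  have hidx : (T.relIndex E).Coprime p := by
    have h1 := Subgroup.relIndex_mul_relIndex T E X hTE hEX
    have h2 : (T.relIndex X).Coprime p :=
      ((Nat.Prime.coprime_iff_not_dvd (Fact.out : p.Prime)).mpr hTs.toSylow.not_dvd_index).symm
    exact Nat.Coprime.coprime_dvd_left ⟨_, h1.symm⟩ h2
  have hpow : ∀ e ∈ E, ∃ k : ℕ, e ^ p ^ k ∈ θ := by
    intro e he
    obtain ⟨f, hf, c, hc, hfc⟩ := mem_sup_of_le_normalizer hFN he.2
    obtain ⟨j, hj⟩ := pelt_of_mem P.2 (hf.1 : f ∈ (P : Subgroup G))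
    obtain ⟨c', hc', hpw⟩ := mul_pow_mem (hFN hf) hc (p ^ j)
    rw [hj, one_mul, ← hfc] at hpw
    have he1 : e ^ p ^ j ∈ C := mem_inf.mpr ⟨pow_mem he.1 _, by rw [hpw]; exact hc'⟩
    obtain ⟨s, t, hst, hcomm, ⟨k, hk⟩, hr, hs, ht⟩ := exists_decomp (p := p) (e ^ p ^ j)
    refine ⟨j + k, ?_⟩
    have e2 : e ^ p ^ (j + k) = t ^ p ^ k := by
      rw [pow_add, pow_mul, hst, hcomm.mul_pow, hk, one_mul]
    rw [e2]
    exact pow_mem ((hθ t).mpr ⟨(zpowers_le.mpr he1) ht, hr⟩) _
  have hsup := le_sup_of_index hTE hθE (hEX.trans hXθ) hidx hpow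
  intro x hxX hxp
  obtain ⟨f, hf, hfx⟩ := S.ctrl_pelt hOP (hXO hxX) hxp
  have hc : x * f⁻¹ ∈ Chat := by
    apply mem_centralizer_of_same_action_trivial
    intro o ho
    have := hfx o ho
    calc (x * f⁻¹)⁻¹ * o * (x * f⁻¹) = f * (x⁻¹ * o * x) * f⁻¹ := by group
      _ = f * (f⁻¹ * o * f) * f⁻¹ := by rw [this]
      _ = o := by group
  have hxE : x ∈ E := by
    refine mem_inf.mpr ⟨hxX, ?_⟩
    have e : x = (x * f⁻¹) * f := by group
    rw [e]
    exact mul_mem (mem_sup_right hc) (mem_sup_left hf)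
  exact mem_sup_of_le_normalizer (hTs.1.trans hXθ) (hsup hxE)

/-- **Sylow fact**: a nontrivial `C_P(b)`, `b ∈ N(P)`, is a maximal `p`-subgroup of `C(b)`. -/
theorem maximal_centralizer (S : Setup p P A) {b : G} (hb : b ∈ M)
    (hY : (P : Subgroup G) ⊓ centralizer ({b} : Set G) ≠ ⊥) {R : Subgroup G} (hR : IsPGroup p R)
    (hYR : (P : Subgroup G) ⊓ centralizer ({b} : Set G) ≤ R) (hRC : R ≤ centralizer ({b} : Set G)) :
    R = (P : Subgroup G) ⊓ centralizer ({b} : Set G) := by
  set Y : Subgroup G := (P : Subgroup G) ⊓ centralizer ({b} : Set G) with hYdef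
  by_contra hne
  have hlt : Y < R := lt_of_le_of_ne hYR (Ne.symm hne)
  obtain ⟨x, hxR, hxY, hxN⟩ := exists_mem_normalizer_of_lt hR hlt
  obtain ⟨θ, hθc, hθN, hθ⟩ := S.exists_theta (Y := Y) inf_le_left hY
  obtain ⟨t, ht, u, hu, rfl⟩ := hθ x hxN (pelt_of_mem hR hxR)
  have hbY : b ∈ normalizer (Y : Set G) := by
    apply centralizer_le_normalizer'
    rw [mem_centralizer_iff]
    intro y hy
    have := mem_centralizer_singleton_iff.mp hy.2
    exact this
  have hcomm : b * (t * u) = (t * u) * b := by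
    have := mem_centralizer_singleton_iff.mp (hRC hxR)
    exact this.symm
  have ht' : b * t * b⁻¹ ∈ (P : Subgroup G) := conj_mem_of_mem_normalizer hb ht.1
  have hu' : b * u * b⁻¹ ∈ θ := conj_mem_of_mem_normalizer (hθN hbY) hu
  have he : t⁻¹ * (b * t * b⁻¹) = u * (b * u * b⁻¹)⁻¹ := by
    have h1 : (b * t * b⁻¹) * (b * u * b⁻¹) = t * u := by
      calc (b * t * b⁻¹) * (b * u * b⁻¹) = b * (t * u) * b⁻¹ := by group
        _ = (t * u) * b * b⁻¹ := by rw [hcomm]
        _ = t * u := by group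
    have h2 : b * t * b⁻¹ = t * u * (b * u * b⁻¹)⁻¹ := by
      rw [← h1]; group
    rw [h2]; group
  have h3 : t⁻¹ * (b * t * b⁻¹) = 1 := by
    apply eq_one_of_reg_of_pelt (p := p)
    · rw [he]
      exact reg_of_mem_of_coprime hθc (mul_mem hu (inv_mem hu'))
    · exact pelt_of_mem P.2 (mul_mem (inv_mem ht.1) ht')
  have h4 : b * t * b⁻¹ = t := by
    rw [inv_mul_eq_one] at h3; exact h3.symm
  have htY : t ∈ Y := by
    refine mem_inf.mpr ⟨ht.1, ?_⟩
    rw [mem_centralizer_singleton_iff]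
    calc t * b = (b * t * b⁻¹) * b := by rw [h4]
      _ = b * t := by group
  have huR : u ∈ R := by
    have e : u = t⁻¹ * (t * u) := by group
    rw [e]
    exact mul_mem (inv_mem (hYR htY)) hxR
  have hu1 : u = 1 := eq_one_of_reg_of_pelt (reg_of_mem_of_coprime hθc hu) (pelt_of_mem hR huR)
  apply hxY
  rw [hu1, mul_one]
  exact htY

end Setup

end Cfsg.Agent.Lib.PAbD
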