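import Mathlib
import Cfsg.Agent.Lib.PAbD

/-!
# Groups whose `p'`-subgroups are abelian: maximal `p'`-subgroups of a minimal counterexample
-/

set_option autoImplicit false
set_option linter.unusedSectionVars false
set_option linter.unusedVariables false
set_option linter.style.longLine false
set_option linter.style.haveILetI false

open Subgroup

namespace Cfsg.Agent.Lib.PAbD

universe u

open Cfsg.Agent.Lib.CoprimeInv Cfsg.Agent.Lib.PAbA Cfsg.Agent.Lib.PAbB Cfsg.Agent.Lib.PAbC
open scoped commutatorElement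

variable {G : Type u} [Group G] [Finite G] {p : ℕ} [Fact p.Prime]

namespace Setup

variable {P : Sylow p G} {A : Subgroup G}

theorem comm_of_cop (S : Setup p P A) {D : Subgroup G} (hD : (Nat.card D).Coprime p) {x y : G}
    (hx : x ∈ D) (hy : y ∈ D) : x * y = y * x := by
  have := (S.hy D hD).1.is_comm.comm ⟨x, hx⟩ ⟨y, hy⟩
  simpa [Subtype.ext_iff] using this

theorem le_centralizer_of_mem (S : Setup p P A) {D : Subgroup G} (hD : (Nat.card D).Coprime p) {y : G}
    (hy : y ∈ D) : D ≤ centralizer ({y} : Set G) := by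
  intro x hx
  rw [mem_centralizer_singleton_iff]
  exact S.comm_of_cop hD hx hy

theorem commutator_eq_top (S : Setup p P A) : commutator G = ⊤ := by
  rcases S.simple.eq_bot_or_eq_top_of_normal (commutator G) inferInstance with h | h
  · exfalso
    apply S.noncomm
    intro a b
    have h1 : ⁅a, b⁆ ∈ commutator G := by
      rw [_root_.commutator_def]
      exact commutator_mem_commutator (mem_top a) (mem_top b)
    rw [h, mem_bot] at h1
    exact commutatorElement_eq_one_iff_mul_comm.mp h1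
  · exact h

/-- **L1**: maximal `p'`-subgroups sharing a nontrivial element are conjugate in its centralizer. -/
theorem conj_of_share (S : Setup p P A) {D D' : Subgroup G} (hD : MaxReg p D) (hD' : MaxReg p D')
    {y : G} (hy : y ≠ 1) (h : y ∈ D) (h' : y ∈ D') :
    ∃ c ∈ centralizer ({y} : Set G), D' = cj D c := by
  obtain ⟨S₀, hS₀⟩ := exists_core S.hy _ (S.solv _ (S.centralizer_ne_top hy))
  obtain ⟨s, hs, hss⟩ := hS₀.exists_conj_maxReg hD (S.le_centralizer_of_mem hD.cop h) hD'
    (S.le_centralizer_of_mem hD'.cop h')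
  exact ⟨s, hS₀.le_X hs, hss⟩

/-- A regular element normalizing a maximal `p'`-subgroup lies in it. -/
theorem mem_of_reg_normalizer {D : Subgroup G} (hD : MaxReg p D) {z : G}
    (hz : z ∈ normalizer (D : Set G)) (hr : Reg p z) : z ∈ D := by
  have h1 := card_sup_zpowers_coprime hD.cop hz hr
  have h2 := hD.max _ h1 le_sup_right
  rw [← h2]
  exact mem_sup_left (mem_zpowers z)

/-- `N(D)/D` is a `p`-group. -/
theorem index_normalizer_eq_pow {D : Subgroup G} (hD : MaxReg p D) :
    ∃ j : ℕ, D.relIndex (normalizer (D : Set G)) = p ^ j := by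
  set N : Subgroup G := normalizer (D : Set G) with hN
  have hnorm : (D.subgroupOf N).Normal := by
    refine ⟨fun n hn g => ?_⟩
    rw [mem_subgroupOf] at hn ⊢
    exact conj_mem_of_mem_normalizer g.2 hn
  have hp : IsPGroup p (↥N ⧸ D.subgroupOf N) := by
    intro q
    obtain ⟨x, rfl⟩ := QuotientGroup.mk_surjective q
    obtain ⟨s, t, hst, hc, ⟨k, hk⟩, hr, hs, ht⟩ := exists_decomp (p := p) (x : G)
    refine ⟨k, ?_⟩
    rw [← QuotientGroup.mk_pow, QuotientGroup.eq_one_iff, mem_subgroupOf]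
    have e : ((x ^ p ^ k : N) : G) = t ^ p ^ k := by
      rw [Subgroup.coe_pow, hst, hc.mul_pow, hk, one_mul]
    rw [e]
    exact pow_mem (mem_of_reg_normalizer hD ((zpowers_le.mpr x.2) ht) hr) _
  obtain ⟨j, hj⟩ := IsPGroup.iff_card.mp hp
  refine ⟨j, ?_⟩
  show (D.subgroupOf N).index = _
  rw [Subgroup.index_eq_card, hj]

/-- **L2**: a maximal `p'`-subgroup containing an element of prime order `q` contains a Sylow
`q`-subgroup through it. -/
theorem exists_sylow_le (S : Setup p P A) {D : Subgroup G} (hD : MaxReg p D) {y : G} (hy : y ∈ D)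
    {q : ℕ} [Fact q.Prime] (hq : orderOf y = q) : ∃ Q : Sylow q G, y ∈ (Q : Subgroup G) ∧ (Q : Subgroup G) ≤ D := by
  have hy1 : y ≠ 1 := by
    intro h
    rw [h, orderOf_one] at hq
    exact (Fact.out : q.Prime).one_lt.ne hq
  have hqp : q.Coprime p := by
    rw [← hq]; exact hD.reg hy
  have hz : IsPGroup q (zpowers y) := by
    apply IsPGroup.of_card (n := 1)
    rw [Nat.card_zpowers, hq, pow_one]
  obtain ⟨Q₁, hQ₁⟩ := hz.exists_le_sylow
  have hcQ : (Nat.card (Q₁ : Subgroup G)).Coprime p := by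
    obtain ⟨n, hn⟩ := IsPGroup.iff_card.mp Q₁.2
    rw [hn]
    exact Nat.Coprime.pow_left n hqp
  obtain ⟨D₃, hD₃, hle⟩ := exists_maxReg_ge hcQ
  have hyQ : y ∈ (Q₁ : Subgroup G) := hQ₁ (mem_zpowers y)
  obtain ⟨c, hc, hcD⟩ := S.conj_of_share hD₃ hD hy1 (hle hyQ) hy
  refine ⟨c • Q₁, ?_, ?_⟩
  · refine Cfsg.Agent.Lib.TransferCore.mem_smul_sylow.2 ?_
    have : c⁻¹ * y * c = y := by
      have h1 := mem_centralizer_singleton_iff.mp hc
      rw [mul_assoc, ← h1]; group
    rw [this]; exact hyQ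
  · intro x hx
    have h1 := Cfsg.Agent.Lib.TransferCore.mem_smul_sylow.1 hx
    rw [hcD, mem_cj]
    exact hle h1

/-- **L3**: maximal `p'`-subgroups containing elements of the same prime order are conjugate. -/
theorem conj_of_same_prime (S : Setup p P A) {D D' : Subgroup G} (hD : MaxReg p D) (hD' : MaxReg p D')
    {y y' : G} (hy : y ∈ D) (hy' : y' ∈ D') {q : ℕ} [Fact q.Prime] (hq : orderOf y = q) (hq' : orderOf y' = q) :
    ∃ g : G, D' = cj D g := by
  obtain ⟨Q, hQ, hle⟩ := S.exists_sylow_le hD hy hq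
  obtain ⟨Q', hQ', hle'⟩ := S.exists_sylow_le hD' hy' hq'
  obtain ⟨g, rfl⟩ := MulAction.exists_smul_eq G Q Q'
  have hy1 : y' ≠ 1 := by
    intro h
    rw [h, orderOf_one] at hq'
    exact (Fact.out : q.Prime).one_lt.ne hq'
  have h1 : y' ∈ cj D g := by
    rw [mem_cj]
    exact hle (Cfsg.Agent.Lib.TransferCore.mem_smul_sylow.1 hQ')
  obtain ⟨c, hc, hcD⟩ := S.conj_of_share (hD.cjOf g) hD' hy1 h1 hy'
  refine ⟨c * g, ?_⟩
  rw [hcD, cj_cj]

/-- **L4**: no nontrivial element of a maximal `p'`-subgroup is central in its normalizer. -/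
theorem exists_moved (S : Setup p P A) {D : Subgroup G} (hD : MaxReg p D) {y : G} (hy : y ∈ D)
    (hy1 : y ≠ 1) : ∃ n ∈ normalizer (D : Set G), n * y ≠ y * n := by
  classical
  by_contra hcon
  push Not at hcon
  have hord : orderOf y ≠ 1 := by
    intro h
    exact hy1 (orderOf_eq_one_iff.mp h)
  set q := (orderOf y).minFac with hqdef
  haveI hq : Fact q.Prime := ⟨Nat.minFac_prime hord⟩
  set y₀ := y ^ (orderOf y / q) with hy₀
  have hqdvd : q ∣ orderOf y := Nat.minFac_dvd _
  have hy₀o : orderOf y₀ = q := by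
    rw [hy₀, orderOf_pow_orderOf_div (orderOf_pos y).ne' hqdvd]
  have hy₀D : y₀ ∈ D := pow_mem hy _
  have hy₀1 : y₀ ≠ 1 := by
    intro h
    rw [h, orderOf_one] at hy₀o
    exact hq.out.one_lt.ne hy₀o
  have hcent : ∀ n ∈ normalizer (D : Set G), ∀ k : ℕ, n * y₀ ^ k = y₀ ^ k * n := by
    intro n hn k
    have h1 : Commute n y := hcon n hn
    exact ((h1.pow_right _).pow_right k)
  obtain ⟨Q, hQ, hle⟩ := S.exists_sylow_le hD hy₀D hy₀o
  have hQc : (Nat.card (Q : Subgroup G)).Coprime p :=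
    Nat.Coprime.coprime_dvd_left (Subgroup.card_dvd_of_le hle) hD.cop
  have hcomm : ∀ a b : (Q : Subgroup G), a * b = b * a := by
    intro a b
    apply Subtype.ext
    exact S.comm_of_cop hQc a.2 b.2
  letI : CommGroup (Q : Subgroup G) := { (inferInstance : Group (Q : Subgroup G)) with mul_comm := hcomm }
  let T : G →* (Q : Subgroup G) := MonoidHom.transfer (MonoidHom.id (Q : Subgroup G))
  have hT1 : T y₀ = 1 := by
    have h1 : commutator G ≤ T.ker := Abelianization.commutator_subset_ker T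
    rw [S.commutator_eq_top] at h1
    exact h1 (mem_top _)
  have hT2 := MonoidHom.transfer_eq_pow (MonoidHom.id (Q : Subgroup G)) y₀ (fun k g₀ hk => by
    by_cases hk1 : y₀ ^ k = 1
    · rw [hk1]; group
    set y₁ := y₀ ^ k with hy₁
    set y₂ := g₀⁻¹ * y₁ * g₀ with hy₂
    have hy₂1 : y₂ ≠ 1 := by
      intro h
      apply hk1
      have : y₁ = g₀ * y₂ * g₀⁻¹ := by rw [hy₂]; group
      rw [this, h]; group
    have h1 : y₂ ∈ D := hle hk
    have h2 : y₂ ∈ cj D g₀⁻¹ := by
      rw [mem_cj]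
      have : (g₀⁻¹)⁻¹ * y₂ * g₀⁻¹ = y₁ := by rw [hy₂]; group
      rw [this]
      exact pow_mem hy₀D k
    obtain ⟨c, hc, hcD⟩ := S.conj_of_share hD (hD.cjOf g₀⁻¹) hy₂1 h1 h2
    have hcD2 : cj D (c⁻¹ * g₀⁻¹) = D := by
      rw [← cj_cj, hcD, cj_cj_inv]
    have hn : g₀ * c ∈ normalizer (D : Set G) := by
      have h3 : c⁻¹ * g₀⁻¹ ∈ normalizer (D : Set G) := mem_normalizer_of_cj_eq hcD2
      have h4 := inv_mem h3
      simpa using h4
    have h5 := hcent _ hn k
    have hc1 : c * y₂ = y₂ * c := mem_centralizer_singleton_iff.mp hc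
    show y₂ = y₁
    have h6 : (g₀ * c) * y₁ = y₁ * (g₀ * c) := h5
    have h7 : y₂ * c = c * y₁ := by
      have : y₁ * (g₀ * c) = g₀ * (y₂ * c) := by rw [hy₂]; group
      rw [this] at h6
      have h8 : g₀ * (c * y₁) = g₀ * (y₂ * c) := by rw [← h6]; group
      exact (mul_left_cancel h8).symm
    rw [← hc1] at h7
    exact mul_left_cancel h7)
  have hT3 : T y₀ = _ := hT2
  rw [hT1] at hT3
  have h5 : y₀ ^ (Q : Subgroup G).index = 1 := by
    have := congrArg Subtype.val hT3
    simpa using this.symm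
  have h6 : orderOf y₀ ∣ (Q : Subgroup G).index := orderOf_dvd_of_pow_eq_one h5
  rw [hy₀o] at h6
  exact Q.not_dvd_index h6

/-- The orbit index of a nontrivial element of a maximal `p'`-subgroup under its normalizer. -/
theorem index_ge (S : Setup p P A) {D : Subgroup G} (hD : MaxReg p D) {y : G} (hy : y ∈ D)
    (hy1 : y ≠ 1) :
    p ≤ (CI (normalizer (D : Set G)) y).relIndex (normalizer (D : Set G)) := by
  set N : Subgroup G := normalizer (D : Set G) with hN
  set K : Subgroup G := CI N y with hK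
  have hDK : D ≤ K := le_inf le_normalizer (S.le_centralizer_of_mem hD.cop hy)
  have hKN : K ≤ N := inf_le_left
  obtain ⟨j, hj⟩ := index_normalizer_eq_pow hD
  have h1 := Subgroup.relIndex_mul_relIndex D K N hDK hKN
  rw [hj] at h1
  have h2 : K.relIndex N ∣ p ^ j := ⟨_, by rw [← h1, mul_comm]⟩
  obtain ⟨i, -, hi⟩ := (Nat.dvd_prime_pow (Fact.out : p.Prime)).mp h2
  rw [hi]
  rcases i with _ | i
  · exfalso
    rw [pow_zero] at hi
    obtain ⟨n, hn, hn2⟩ := S.exists_moved hD hy hy1
    have h3 : N ≤ K := Subgroup.relIndex_eq_one.mp hi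
    exact hn2 (mem_centralizer_singleton_iff.mp (h3 hn).2)
  · calc p = p ^ 1 := (pow_one p).symm
      _ ≤ p ^ (i + 1) := Nat.pow_le_pow_right (Fact.out : p.Prime).pos (by omega)

/-- Lower bound for the normalizer of a maximal `p'`-subgroup. -/
theorem card_normalizer_ge (S : Setup p P A) {D : Subgroup G} (hD : MaxReg p D) {y : G} (hy : y ∈ D)
    (hy1 : y ≠ 1) {Y : Subgroup G} (hYp : IsPGroup p Y) (hYN : Y ≤ normalizer (D : Set G))
    (hYC : Y ≤ centralizer ({y} : Set G)) :
    p * Nat.card Y * Nat.card D ≤ Nat.card (normalizer (D : Set G)) := by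
  set N : Subgroup G := normalizer (D : Set G) with hN
  set K : Subgroup G := CI N y with hK
  have hDK : D ≤ K := le_inf le_normalizer (S.le_centralizer_of_mem hD.cop hy)
  have hKN : K ≤ N := inf_le_left
  have hYK : Y ≤ K := le_inf hYN hYC
  have h1 : p ≤ K.relIndex N := S.index_ge hD hy hy1
  have h2 : K.relIndex N * Nat.card K = Nat.card N := Cfsg.Agent.Lib.Coprime.relIndex_mul_card_of_le hKN
  have h3 : Nat.card (Y ⊔ D : Subgroup G) * Nat.card (Y ⊓ D : Subgroup G) = Nat.card Y * Nat.card D :=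
    card_sup_mul_card_inf hYN
  have hbot : Y ⊓ D = ⊥ := by
    rw [eq_bot_iff]
    rintro x ⟨hx1, hx2⟩
    rw [mem_bot]
    exact eq_one_of_reg_of_pelt (hD.reg hx2) (pelt_of_mem hYp hx1)
  rw [hbot] at h3
  simp only [Subgroup.card_bot, mul_one] at h3
  have h4 : Nat.card (Y ⊔ D : Subgroup G) ≤ Nat.card K :=
    Nat.card_le_card_of_injective _ (Subgroup.inclusion_injective (sup_le hYK hDK))
  calc p * Nat.card Y * Nat.card D = p * Nat.card (Y ⊔ D : Subgroup G) := by rw [h3]; ring
    _ ≤ K.relIndex N * Nat.card K := Nat.mul_le_mul h1 h4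
    _ = Nat.card N := h2

/-- A nontrivial maximal `p'`-subgroup has more than `p` elements. -/
theorem succ_le_card (S : Setup p P A) {D : Subgroup G} (hD : MaxReg p D) {y : G} (hy : y ∈ D)
    (hy1 : y ≠ 1) : p + 1 ≤ Nat.card D := by
  classical
  letI := Fintype.ofFinite G
  set N : Subgroup G := normalizer (D : Set G) with hN
  set K : Subgroup G := CI N y with hK
  have h1 : p ≤ K.relIndex N := S.index_ge hD hy hy1
  have h2 : K.relIndex N * Nat.card K = Nat.card N := Cfsg.Agent.Lib.Coprime.relIndex_mul_card_of_le inf_le_left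
  have h3 : (orb N y).card * Nat.card K = Nat.card N := card_orb_mul N y
  have hpos : 0 < Nat.card K := Nat.card_pos
  have h4 : (orb N y).card = K.relIndex N := Nat.eq_of_mul_eq_mul_right hpos (h3.trans h2.symm)
  have hsub : insert 1 (orb N y) ⊆ Finset.univ.filter (· ∈ D) := by
    intro z hz
    simp only [Finset.mem_insert] at hz
    simp only [Finset.mem_filter, Finset.mem_univ, true_and]
    rcases hz with rfl | hz
    · exact one_mem _
    · obtain ⟨n, hn, rfl⟩ := mem_orb.mp hz
      exact conj_mem_of_mem_normalizer hn hy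
  have h5 := Finset.card_le_card hsub
  have h1nm : (1 : G) ∉ orb N y := by
    intro h
    obtain ⟨n, hn, hn2⟩ := mem_orb.mp h
    apply hy1
    have : y = n⁻¹ * (n * y * n⁻¹) * n := by group
    rw [this, ← hn2]; group
  rw [Finset.card_insert_of_notMem h1nm, ← natCard_eq_filter, h4] at h5
  omega

end Setup

end Cfsg.Agent.Lib.PAbD
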