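import Mathlib
import Cfsg.Agent.Lib.PAbE

/-!
# Groups whose `p'`-subgroups are abelian: counting the regular elements through the
maximal `p'`-subgroups
-/

set_option autoImplicit false
set_option linter.unusedSectionVars false
set_option linter.unusedVariables false
set_option linter.style.longLine false
set_option linter.style.haveILetI false

open Subgroup

namespace Cfsg.Agent.Lib.PAbD

universe u

open Cfsg.Agent.Lib.CoprimeInv Cfsg.Agent.Lib.PAbA Cfsg.Agent.Lib.PAbB Cfsg.Agent.Lib.PAbC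

variable {G : Type u} [Group G] [Finite G] {p : ℕ} [Fact p.Prime]

section Count

variable [Fintype G] [DecidableEq G]

open Classical in
/-- The nontrivial elements of the conjugates of `D`. -/
noncomputable def conjUnion (D : Subgroup G) : Finset G :=
  Finset.univ.filter (fun x => x ≠ 1 ∧ ∃ g : G, x ∈ cj D g)

open Classical in
/-- The pairs `(g, d)` with `d ∈ D`, `d ≠ 1`. -/
noncomputable def pairs (D : Subgroup G) : Finset (G × G) :=
  (Finset.univ : Finset G) ×ˢ ((Finset.univ.filter (· ∈ D)).erase 1)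

theorem card_pairs (D : Subgroup G) : (pairs D).card = Nat.card G * (Nat.card D - 1) := by
  classical
  unfold pairs
  rw [Finset.card_product, Finset.card_univ, Nat.card_eq_fintype_card, Finset.card_erase_of_mem,
    ← natCard_eq_filter]
  simp

theorem image_pairs (D : Subgroup G) :
    (pairs D).image (fun z : G × G => z.1 * z.2 * z.1⁻¹) = conjUnion D := by
  classical
  ext x
  simp only [pairs, conjUnion, Finset.mem_image, Finset.mem_product, Finset.mem_univ, true_and,
    Finset.mem_erase, Finset.mem_filter, Prod.exists]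
  constructor
  · rintro ⟨g, d, ⟨hd1, hd⟩, rfl⟩
    refine ⟨?_, g, conj_mem_cj hd⟩
    intro h
    apply hd1
    have : d = g⁻¹ * (g * d * g⁻¹) * g := by group
    rw [this, h]; group
  · rintro ⟨hx, g, hg⟩
    refine ⟨g, g⁻¹ * x * g, ⟨?_, mem_cj.mp hg⟩, by group⟩
    intro h
    apply hx
    have : x = g * (g⁻¹ * x * g) * g⁻¹ := by group
    rw [this, h]; group

theorem card_conjUnion_mul_le (D : Subgroup G) :
    Nat.card (normalizer (D : Set G)) * (conjUnion D).card ≤ Nat.card G * (Nat.card D - 1) := by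
  classical
  rw [← card_pairs, ← image_pairs]
  apply Finset.mul_card_image_le_card
  intro x hx
  obtain ⟨⟨g, d⟩, hz, rfl⟩ := Finset.mem_image.mp hx
  simp only [pairs, Finset.mem_product, Finset.mem_univ, true_and, Finset.mem_erase,
    Finset.mem_filter] at hz
  obtain ⟨hd1, hd⟩ := hz
  rw [natCard_eq_filter (normalizer (D : Set G))]
  apply Finset.card_le_card_of_injOn (fun n => (g * n, n⁻¹ * d * n))
  · intro n hn
    have hn' : n ∈ normalizer (D : Set G) := by simpa using hn
    simp only [Finset.coe_filter, Set.mem_ofPred_eq, pairs, Finset.mem_product, Finset.mem_univ, true_and,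
      Finset.mem_erase, Finset.mem_filter]
    refine ⟨⟨?_, inv_conj_mem_of_mem_normalizer hn' hd⟩, by group⟩
    intro h
    apply hd1
    have : d = n * (n⁻¹ * d * n) * n⁻¹ := by group
    rw [this, h]; group
  · intro a _ b _ hab
    have := congrArg Prod.fst hab
    exact mul_left_cancel this

/-- A subgroup whose nontrivially-meeting conjugates coincide. -/
theorem le_card_conjUnion_mul {D : Subgroup G}
    (hTI : ∀ y ∈ D, y ≠ 1 → ∀ g : G, y ∈ cj D g → g ∈ normalizer (D : Set G)) :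
    Nat.card G * (Nat.card D - 1) ≤ Nat.card (normalizer (D : Set G)) * (conjUnion D).card := by
  classical
  rw [← card_pairs, ← image_pairs]
  apply Finset.card_le_mul_card_image
  intro x hx
  obtain ⟨⟨g, d⟩, hz, rfl⟩ := Finset.mem_image.mp hx
  simp only [pairs, Finset.mem_product, Finset.mem_univ, true_and, Finset.mem_erase,
    Finset.mem_filter] at hz
  obtain ⟨hd1, hd⟩ := hz
  rw [natCard_eq_filter (normalizer (D : Set G))]
  apply Finset.card_le_card_of_injOn (fun z : G × G => g⁻¹ * z.1)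
  · rintro ⟨g', d'⟩ hz'
    simp only [Finset.coe_filter, pairs, Finset.mem_product, Finset.mem_univ, true_and, Finset.mem_erase,
      Finset.mem_filter, Set.mem_ofPred_eq] at hz' ⊢
    obtain ⟨⟨hd1', hd'⟩, he⟩ := hz'
    apply hTI d hd hd1
    rw [mem_cj]
    have : (g⁻¹ * g')⁻¹ * d * (g⁻¹ * g') = d' := by
      have h2 : d = g⁻¹ * (g' * d' * g'⁻¹) * g := by rw [he]; group
      rw [h2]; group
    rw [this]; exact hd'
  · rintro ⟨g₁, d₁⟩ h₁ ⟨g₂, d₂⟩ h₂ hab
    simp only [Finset.coe_filter, Set.mem_ofPred_eq] at h₁ h₂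
    have h3 : g₁ = g₂ := mul_left_cancel hab
    subst h3
    have h4 : g₁ * d₁ * g₁⁻¹ = g₁ * d₂ * g₁⁻¹ := h₁.2.trans h₂.2.symm
    have h5 : d₁ = d₂ := by
      have := mul_right_cancel h4
      exact mul_left_cancel this
    rw [h5]

end Count

/-- The primes other than `p` dividing the order. -/
noncomputable def Qs (p : ℕ) (G : Type u) [Group G] : Finset ℕ := (Nat.card G).primeFactors.erase p

theorem mem_Qs {q : ℕ} : q ∈ Qs p G ↔ q ≠ p ∧ q.Prime ∧ q ∣ Nat.card G := by
  unfold Qs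
  rw [Finset.mem_erase, Nat.mem_primeFactors]
  constructor
  · rintro ⟨h1, h2, h3, -⟩
    exact ⟨h1, h2, h3⟩
  · rintro ⟨h1, h2, h3⟩
    exact ⟨h1, h2, h3, Nat.card_pos.ne'⟩

namespace Setup

variable {P : Sylow p G} {A : Subgroup G}

theorem Qs_subset (S : Setup p P A) : Qs p G ⊆ (p - 1).primeFactors := by
  intro q hq
  obtain ⟨h1, h2, h3⟩ := mem_Qs.mp hq
  haveI : Fact q.Prime := ⟨h2⟩
  obtain ⟨y, hy⟩ := exists_prime_orderOf_dvd_card' q h3
  have hc : (Nat.card (zpowers y)).Coprime p := by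
    rw [Nat.card_zpowers, hy]
    exact (Nat.coprime_primes h2 (Fact.out : p.Prime)).mpr h1
  have h4 := (S.hy _ hc).2 y (mem_zpowers y)
  have h5 : q ∣ p - 1 := by
    rw [← hy]; exact orderOf_dvd_of_pow_eq_one h4
  have hp1 : p - 1 ≠ 0 := by
    have h6 := (Fact.out : p.Prime).one_lt
    by_contra h7
    rw [h7] at h5
    have h8 := (Fact.out : p.Prime).two_le
    -- `p = 1` is excluded
    omega
  exact Nat.mem_primeFactors.mpr ⟨h2, h5, hp1⟩

theorem Qs_nonempty (S : Setup p P A) : (Qs p G).Nonempty := by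
  by_contra h
  rw [Finset.not_nonempty_iff_eq_empty] at h
  apply S.not_isPGroup (q := p)
  apply IsPGroup.of_card (n := (Nat.card G).factorization p)
  have hall : ∀ q : ℕ, q.Prime → q ∣ Nat.card G → q = p := by
    intro q hq hd
    by_contra hne
    have : q ∈ Qs p G := mem_Qs.mpr ⟨hne, hq, hd⟩
    rw [h] at this
    simp at this
  have hpos : Nat.card G ≠ 0 := Nat.card_pos.ne'
  have hG1 : Nat.card G ≠ 1 := by
    haveI : Nontrivial G := S.simple.toNontrivial
    exact Finite.one_lt_card.ne'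
  obtain ⟨q, hq, hd⟩ := Nat.exists_prime_and_dvd hG1
  have hqp := hall q hq hd
  have h2 := Nat.eq_prime_pow_of_unique_prime_dvd hpos (p := p) (fun {d} hd1 hd2 => hall d hd1 hd2)
  rw [h2]
  simp [(Fact.out : p.Prime)]

/-- A family of maximal `p'`-subgroups, one for each prime. -/
theorem exists_family (S : Setup p P A) :
    ∃ DD : ℕ → Subgroup G, (∀ q ∈ Qs p G, MaxReg p (DD q) ∧ ∃ y ∈ DD q, y ≠ 1) ∧
      ∀ x : G, Reg p x → x ≠ 1 → ∃ q ∈ Qs p G, ∃ g : G, x ∈ cj (DD q) g := by
  classical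
  have h : ∀ q : ℕ, ∃ D : Subgroup G, q ∈ Qs p G → (MaxReg p D ∧ ∃ y ∈ D, orderOf y = q) := by
    intro q
    by_cases hq : q ∈ Qs p G
    · obtain ⟨h1, h2, h3⟩ := mem_Qs.mp hq
      haveI : Fact q.Prime := ⟨h2⟩
      obtain ⟨y, hy⟩ := exists_prime_orderOf_dvd_card' q h3
      have hc : (Nat.card (zpowers y)).Coprime p := by
        rw [Nat.card_zpowers, hy]
        exact (Nat.coprime_primes h2 (Fact.out : p.Prime)).mpr h1
      obtain ⟨D, hD, hle⟩ := exists_maxReg_ge hc
      exact ⟨D, fun _ => ⟨hD, y, hle (mem_zpowers y), hy⟩⟩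
    · exact ⟨⊥, fun h => absurd h hq⟩
  choose DD hDD using h
  refine ⟨DD, ?_, ?_⟩
  · intro q hq
    obtain ⟨hD, y, hy, hoy⟩ := hDD q hq
    refine ⟨hD, y, hy, ?_⟩
    rintro rfl
    rw [orderOf_one] at hoy
    exact (mem_Qs.mp hq).2.1.one_lt.ne hoy
  · intro x hr hx1
    have hord : orderOf x ≠ 1 := fun h => hx1 (orderOf_eq_one_iff.mp h)
    set q := (orderOf x).minFac with hq
    have hqp : q.Prime := Nat.minFac_prime hord
    haveI : Fact q.Prime := ⟨hqp⟩
    have hqd : q ∣ orderOf x := Nat.minFac_dvd _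
    have hqne : q ≠ p := by
      intro h
      have := Nat.dvd_gcd hqd (h ▸ dvd_rfl : q ∣ p)
      rw [hr] at this
      exact hqp.one_lt.ne' (Nat.dvd_one.mp this)
    have hqG : q ∣ Nat.card G := hqd.trans (orderOf_dvd_natCard x)
    have hqQ : q ∈ Qs p G := mem_Qs.mpr ⟨hqne, hqp, hqG⟩
    refine ⟨q, hqQ, ?_⟩
    obtain ⟨hD, y, hy, hoy⟩ := hDD q hqQ
    obtain ⟨D, hD', hle⟩ := exists_maxReg_ge (hr.card_zpowers)
    have hxD : x ∈ D := hle (mem_zpowers x)
    have hx₀ : orderOf (x ^ (orderOf x / q)) = q := orderOf_pow_orderOf_div (orderOf_pos x).ne' hqd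
    obtain ⟨g, hg⟩ := S.conj_of_same_prime hD hD' hy (pow_mem hxD _) hoy hx₀
    exact ⟨g, by rw [← hg]; exact hxD⟩

/-- The upper bound for the proportion of regular elements. -/
theorem rho_le (S : Setup p P A) {DD : ℕ → Subgroup G}
    (hDD : ∀ q ∈ Qs p G, MaxReg p (DD q) ∧ ∃ y ∈ DD q, y ≠ 1)
    (hcov : ∀ x : G, Reg p x → x ≠ 1 → ∃ q ∈ Qs p G, ∃ g : G, x ∈ cj (DD q) g) (E : ℕ) (hE0 : 0 < E)
    (hE : ∀ q ∈ Qs p G, E * Nat.card (DD q) ≤ Nat.card (normalizer (DD q : Set G))) :
    (nreg p (⊤ : Subgroup G) : ℚ) / Nat.card G ≤ (Qs p G).card / E := by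
  classical
  letI := Fintype.ofFinite G
  have hG : (0 : ℚ) < Nat.card G := by exact_mod_cast Nat.card_pos
  have hEq : (0 : ℚ) < E := by exact_mod_cast hE0
  -- cover
  have hsub : Finset.univ.filter (fun x : G => x ∈ (⊤ : Subgroup G) ∧ Reg p x) ⊆
      insert 1 ((Qs p G).biUnion (fun q => conjUnion (DD q))) := by
    intro x hx
    simp only [Finset.mem_filter, Finset.mem_univ, true_and, mem_top] at hx
    by_cases hx1 : x = 1
    · rw [hx1]; exact Finset.mem_insert_self _ _
    · obtain ⟨q, hq, g, hg⟩ := hcov x hx hx1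
      apply Finset.mem_insert_of_mem
      rw [Finset.mem_biUnion]
      refine ⟨q, hq, ?_⟩
      simp only [conjUnion, Finset.mem_filter, Finset.mem_univ, true_and]
      exact ⟨hx1, g, hg⟩
  have hcard : nreg p (⊤ : Subgroup G) ≤ 1 + ∑ q ∈ Qs p G, (conjUnion (DD q)).card := by
    rw [nreg_eq_filter]
    calc _ ≤ _ := Finset.card_le_card hsub
      _ ≤ ((Qs p G).biUnion (fun q => conjUnion (DD q))).card + 1 := Finset.card_insert_le _ _
      _ ≤ _ := by
        rw [add_comm]
        exact Nat.add_le_add_left Finset.card_biUnion_le _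
  -- termwise
  have hterm : ∀ q ∈ Qs p G, ((conjUnion (DD q)).card : ℚ) / Nat.card G ≤
      1 / E - 1 / (E * Nat.card (DD q)) := by
    intro q hq
    have h1 := card_conjUnion_mul_le (DD q)
    obtain ⟨hD, y, hy, hy1⟩ := hDD q hq
    have hm : 0 < Nat.card (DD q) := Nat.card_pos
    have h2 : (1 : ℕ) ≤ Nat.card (DD q) := hm
    have h3 : ((Nat.card (normalizer (DD q : Set G)) * (conjUnion (DD q)).card : ℕ) : ℚ) ≤
        ((Nat.card G * (Nat.card (DD q) - 1) : ℕ) : ℚ) := by exact_mod_cast h1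
    push_cast [Nat.cast_sub h2] at h3
    have h4 : ((E * Nat.card (DD q) : ℕ) : ℚ) ≤ (Nat.card (normalizer (DD q : Set G)) : ℕ) := by
      exact_mod_cast hE q hq
    push_cast at h4
    have hmq : (0 : ℚ) < Nat.card (DD q) := by exact_mod_cast hm
    have hU : (0 : ℚ) ≤ (conjUnion (DD q)).card := by positivity
    rw [div_le_iff₀ hG]
    have h5 : (E : ℚ) * Nat.card (DD q) * (conjUnion (DD q)).card ≤
        Nat.card G * ((Nat.card (DD q) : ℚ) - 1) := by
      calc _ ≤ (Nat.card (normalizer (DD q : Set G)) : ℚ) * (conjUnion (DD q)).card :=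
            mul_le_mul_of_nonneg_right h4 hU
        _ ≤ _ := h3
    have h6 : (1 / (E : ℚ) - 1 / (E * Nat.card (DD q))) * Nat.card G =
        Nat.card G * ((Nat.card (DD q) : ℚ) - 1) / (E * Nat.card (DD q)) := by
      field_simp
    rw [h6, le_div_iff₀ (by positivity)]
    linarith
  -- the identity term
  obtain ⟨q₀, hq₀⟩ := S.Qs_nonempty
  have hid : (1 : ℚ) / Nat.card G ≤ 1 / (E * Nat.card (DD q₀)) := by
    have h1 : E * Nat.card (DD q₀) ≤ Nat.card G := by
      refine (hE q₀ hq₀).trans ?_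
      exact Nat.card_le_card_of_injective _ Subtype.val_injective
    have h2 : (0 : ℚ) < E * Nat.card (DD q₀) := by
      have : (0 : ℚ) < Nat.card (DD q₀) := by exact_mod_cast Nat.card_pos
      positivity
    apply one_div_le_one_div_of_le h2
    exact_mod_cast h1
  have hsum : ∑ q ∈ Qs p G, (((conjUnion (DD q)).card : ℚ) / Nat.card G) ≤
      ∑ q ∈ Qs p G, (1 / (E : ℚ) - 1 / (E * Nat.card (DD q))) := Finset.sum_le_sum hterm
  have hsum2 : ∑ q ∈ Qs p G, (1 / (E : ℚ) - 1 / (E * Nat.card (DD q))) =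
      (Qs p G).card / E - ∑ q ∈ Qs p G, 1 / ((E : ℚ) * Nat.card (DD q)) := by
    rw [Finset.sum_sub_distrib, Finset.sum_const, nsmul_eq_mul]
    ring
  have hsingle : 1 / ((E : ℚ) * Nat.card (DD q₀)) ≤ ∑ q ∈ Qs p G, 1 / ((E : ℚ) * Nat.card (DD q)) := by
    apply Finset.single_le_sum (f := fun q => 1 / ((E : ℚ) * Nat.card (DD q))) _ hq₀
    intro q _
    positivity
  have hfinal : (nreg p (⊤ : Subgroup G) : ℚ) ≤ 1 + ∑ q ∈ Qs p G, ((conjUnion (DD q)).card : ℚ) := by
    exact_mod_cast hcard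
  have hdiv : (nreg p (⊤ : Subgroup G) : ℚ) / Nat.card G ≤
      1 / Nat.card G + ∑ q ∈ Qs p G, (((conjUnion (DD q)).card : ℚ) / Nat.card G) := by
    rw [← Finset.sum_div, ← add_div]
    exact div_le_div_of_nonneg_right hfinal hG.le
  linarith

end Setup

end Cfsg.Agent.Lib.PAbD
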