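import Mathlib

/-!
# Transfer evaluated modulo a subgroup

`transfer ϕ g = ϕ g ^ index` for `g ∈ H` when all "returning conjugates" of powers of `g` have the same image
under `ϕ` as the powers themselves. Also the comm group structure on quotients and the `p`-part decomposition.
-/

set_option autoImplicit false

namespace Cfsg.Agent.Lib.TwoFusionTransfer

open Subgroup MulAction

variable {G : Type*} [Group G]

/-- Transfer of `g ∈ H` under a hom `ϕ`, whose returning conjugates have the same image as the powers of `g`. -/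
theorem transfer_eq_pow_of_key {A : Type*} [CommGroup A] (H : Subgroup G) [H.FiniteIndex] (ϕ : H →* A) (g : G) (hg : g ∈ H)
    (key : ∀ (k : ℕ) (g₀ : G) (h : g₀⁻¹ * g ^ k * g₀ ∈ H),
      ϕ ⟨g₀⁻¹ * g ^ k * g₀, h⟩ = ϕ ⟨g, hg⟩ ^ k) :
    MonoidHom.transfer ϕ g = ϕ ⟨g, hg⟩ ^ H.index := by
  classical
  letI := H.fintypeQuotientOfFiniteIndex
  rw [MonoidHom.transfer_eq_prod_quotient_orbitRel_zpowers_quot]
  have h1 : ∀ q : Quotient (orbitRel (zpowers g) (G ⧸ H)),
      ϕ ⟨q.out.out⁻¹ * g ^ Function.minimalPeriod (g • ·) q.out * q.out.out,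
        QuotientGroup.out_conj_pow_minimalPeriod_mem H g q.out⟩ =
      ϕ ⟨g, hg⟩ ^ Function.minimalPeriod (g • ·) q.out := by
    intro q
    exact key _ _ _
  rw [Fintype.prod_congr _ _ h1, Finset.prod_pow_eq_pow_sum, Subgroup.index_eq_sum_minimalPeriod H g]

/-- The quotient of `H` by a normal subgroup `M` containing the commutator subgroup is commutative. -/
@[reducible] def commGroupOfComm (H : Type*) [Group H] (M : Subgroup H) [M.Normal]
    (hab : ∀ x y : H, x * y * x⁻¹ * y⁻¹ ∈ M) : CommGroup (H ⧸ M) :=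
  { (inferInstance : Group (H ⧸ M)) with
    mul_comm := by
      intro a b
      induction a using QuotientGroup.induction_on with | H x => ?_
      induction b using QuotientGroup.induction_on with | H y => ?_
      have : ((x * y : H) : H ⧸ M) = ((y * x : H) : H ⧸ M) := by
        rw [QuotientGroup.eq]
        have h := hab y⁻¹ x⁻¹
        simpa [mul_assoc] using h
      simpa using this }

/-- Decomposition of an element into its `p`-part and `p'`-part. -/
theorem exists_decomp [Finite G] (x : G) (p : ℕ) [Fact p.Prime] :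
    ∃ y z : G, x = y * z ∧ y ∈ zpowers x ∧ z ∈ zpowers x ∧ (∃ k, orderOf y = p ^ k) ∧
      Nat.Coprime (orderOf z) p := by
  have hp : p.Prime := Fact.out
  have hn : orderOf x ≠ 0 := (orderOf_pos x).ne'
  obtain ⟨a, m, hm, hnm⟩ := Nat.exists_eq_pow_mul_and_not_dvd hn p hp.ne_one
  have hcop : Nat.Coprime (p ^ a) m := Nat.Coprime.pow_left a ((Nat.Prime.coprime_iff_not_dvd hp).2 hm)
  have hb := Nat.gcd_eq_gcd_ab (p ^ a) m
  rw [hcop.gcd_eq_one] at hb
  set i := Nat.gcdA (p ^ a) m
  set j := Nat.gcdB (p ^ a) m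
  have hord : x ^ (orderOf x : ℤ) = 1 := by simp [pow_orderOf_eq_one]
  refine ⟨x ^ (j * m), x ^ (i * p ^ a), ?_, zpow_mem_zpowers _ _, zpow_mem_zpowers _ _, ?_, ?_⟩
  · rw [← zpow_add]
    have : j * (m : ℤ) + i * (p : ℤ) ^ a = 1 := by
      push_cast at hb; linarith
    rw [this, zpow_one]
  · have h1 : (x ^ (j * m)) ^ (p ^ a) = 1 := by
      rw [← zpow_natCast, ← zpow_mul]
      have : j * (m : ℤ) * ((p ^ a : ℕ) : ℤ) = j * ((orderOf x : ℕ) : ℤ) := by
        rw [hnm]; push_cast; ring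
      rw [this, mul_comm, zpow_mul, hord, one_zpow]
    have h2 := orderOf_dvd_of_pow_eq_one h1
    obtain ⟨k, -, hk⟩ := (Nat.dvd_prime_pow hp).1 h2
    exact ⟨k, hk⟩
  · have h1 : (x ^ (i * p ^ a)) ^ m = 1 := by
      rw [← zpow_natCast, ← zpow_mul]
      have : i * (p : ℤ) ^ a * (m : ℤ) = i * ((orderOf x : ℕ) : ℤ) := by
        rw [hnm]; push_cast; ring
      rw [this, mul_comm, zpow_mul, hord, one_zpow]
    have h2 := orderOf_dvd_of_pow_eq_one h1
    exact Nat.Coprime.coprime_dvd_left h2 ((Nat.Prime.coprime_iff_not_dvd hp).2 hm).symm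

/-- `a ^ n = 1`, `a` of order a power of `p`, `n` coprime to `p`: then `a = 1`. -/
theorem eq_one_of_pow_coprime {A : Type*} [Monoid A] {a : A} {p k n : ℕ} [Fact p.Prime]
    (ha : a ^ p ^ k = 1) (hn : Nat.Coprime n p) (h : a ^ n = 1) : a = 1 := by
  have h1 := orderOf_dvd_of_pow_eq_one ha
  have h2 := orderOf_dvd_of_pow_eq_one h
  have h3 : Nat.Coprime n (p ^ k) := Nat.Coprime.pow_right k hn
  have := Nat.eq_one_of_dvd_coprimes h3 h2 h1
  exact orderOf_eq_one_iff.1 this

end Cfsg.Agent.Lib.TwoFusionTransfer
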