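import Mathlib
import Cfsg.Agent.Lib.PAbF
import Cfsg.Agent.Lib.TwoFusionTransfer
import Cfsg.Agent.Lib.FusionFocal

/-!
# Groups whose `p'`-subgroups are abelian: the structure of `N(P)`
-/

set_option autoImplicit false
set_option linter.unusedSectionVars false
set_option linter.unusedVariables false
set_option linter.style.longLine false
set_option linter.style.haveILetI false

open Subgroup

namespace Cfsg.Agent.Lib.PAbD

universe u

open Cfsg.Agent.Lib.CoprimeInv Cfsg.Agent.Lib.PAbA Cfsg.Agent.Lib.PAbB Cfsg.Agent.Lib.PAbC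
open scoped commutatorElement

variable {G : Type u} [Group G] [Finite G] {p : ℕ} [Fact p.Prime]

namespace Setup

variable {P : Sylow p G} {A : Subgroup G}

local notation "M" => normalizer ((P : Subgroup G) : Set G)

theorem A_le_M (S : Setup p P A) : A ≤ M := by
  rw [← S.hA_sup]; exact le_sup_left

theorem P_le_M (S : Setup p P A) : (P : Subgroup G) ≤ M := le_normalizer

theorem P_inf_A (S : Setup p P A) {x : G} (h1 : x ∈ (P : Subgroup G)) (h2 : x ∈ A) : x = 1 :=
  eq_one_of_reg_of_pelt (reg_of_mem_of_coprime S.hA_cop h2) (pelt_of_mem P.2 h1)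

theorem exists_mul (S : Setup p P A) {m : G} (hm : m ∈ M) :
    ∃ a ∈ A, ∃ u ∈ (P : Subgroup G), m = a * u := by
  rw [← S.hA_sup] at hm
  exact mem_sup_of_le_normalizer S.A_le_M hm

theorem A_comm (S : Setup p P A) {a b : G} (ha : a ∈ A) (hb : b ∈ A) : a * b = b * a :=
  S.comm_of_cop S.hA_cop ha hb

theorem card_M (S : Setup p P A) : Nat.card M = Nat.card A * Nat.card (P : Subgroup G) := by
  have h1 : Nat.card (A ⊔ (P : Subgroup G) : Subgroup G) * Nat.card (A ⊓ (P : Subgroup G) : Subgroup G) =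
      Nat.card A * Nat.card (P : Subgroup G) := card_sup_mul_card_inf S.A_le_M
  have h2 : A ⊓ (P : Subgroup G) = ⊥ := by
    rw [eq_bot_iff]
    rintro x ⟨hx1, hx2⟩
    rw [mem_bot]
    exact S.P_inf_A hx2 hx1
  rw [h2, S.hA_sup] at h1
  simpa using h1

theorem datum (S : Setup p P A) : Datum p (⊤ : Subgroup G) M (P : Subgroup G) where
  hTH := le_normalizer
  hHX := le_top
  hHN := le_rfl
  hTs := ⟨le_top, P.2, fun R _ hR hPR => P.3 hR hPR⟩
  ctrl := fun R hR x _ hx => S.ctrl R hR x hx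

/-- Regular elements of a coset of `P` in `N(P)`. -/
theorem exists_conj_of_reg (S : Setup p P A) {a u : G} (ha : a ∈ A) (hu : u ∈ (P : Subgroup G))
    (hr : Reg p (a * u)) : ∃ n ∈ (P : Subgroup G), n * a * n⁻¹ = a * u := by
  classical
  have hPM := S.P_le_M
  have haM := S.A_le_M ha
  have hxM : a * u ∈ M := mul_mem haM (hPM hu)
  have hnorm : ((P : Subgroup G).subgroupOf M).Normal := by
    refine ⟨fun n hn g => ?_⟩
    rw [mem_subgroupOf] at hn ⊢
    exact conj_mem_of_mem_normalizer g.2 hn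
  have hcard : Nat.card ((P : Subgroup G).subgroupOf M) = Nat.card (P : Subgroup G) := card_subgroupOf_of_le hPM
  obtain ⟨k, hk⟩ := IsPGroup.iff_card.mp P.2
  have hs : Group.IsSolvable ((P : Subgroup G).subgroupOf M) := by
    have h1 : IsPGroup p ((P : Subgroup G).subgroupOf M) := P.2.comap_subtype
    haveI := h1.isNilpotent
    infer_instance
  obtain ⟨n, hn, hn2⟩ := Cfsg.Agent.Lib.CosetConj.exists_conj_of_coset ((P : Subgroup G).subgroupOf M) hs
    (⟨a, haM⟩ : M) (⟨a * u, hxM⟩ : M)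
    (by
      rw [hcard, Subgroup.orderOf_mk, hk]
      exact Nat.Coprime.pow_left k (reg_of_mem_of_coprime S.hA_cop ha).symm)
    (by
      rw [hcard, Subgroup.orderOf_mk, hk]
      exact Nat.Coprime.pow_left k (Nat.Coprime.symm hr))
    (by
      rw [mem_subgroupOf]
      simpa using hu)
  refine ⟨n, hn, ?_⟩
  have := congrArg Subtype.val hn2
  simpa using this

section Fin

variable [Fintype G] [DecidableEq G]

open Classical in
/-- The regular elements of `N(P)`. -/
theorem nreg_M (S : Setup p P A) :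
    nreg p M = ∑ a ∈ Finset.univ.filter (· ∈ A), (orb (P : Subgroup G) a).card := by
  rw [nreg_eq_filter, ← Finset.card_biUnion]
  · congr 1
    ext x
    simp only [Finset.mem_filter, Finset.mem_univ, true_and, Finset.mem_biUnion, mem_orb]
    constructor
    · rintro ⟨hx, hr⟩
      obtain ⟨a, ha, u, hu, rfl⟩ := S.exists_mul hx
      obtain ⟨n, hn, hn2⟩ := S.exists_conj_of_reg ha hu hr
      exact ⟨a, ha, n, hn, hn2.symm⟩
    · rintro ⟨a, ha, n, hn, rfl⟩
      refine ⟨mul_mem (mul_mem (S.P_le_M hn) (S.A_le_M ha)) (inv_mem (S.P_le_M hn)), ?_⟩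
      exact (reg_of_mem_of_coprime S.hA_cop ha).conj n
  · intro a ha b hb hab
    rw [Function.onFun, Finset.disjoint_left]
    intro x hx hx2
    obtain ⟨n, hn, rfl⟩ := mem_orb.mp hx
    obtain ⟨n', hn', hn2⟩ := mem_orb.mp hx2
    apply hab
    have ha' : a ∈ A := by simpa using ha
    have hb' : b ∈ A := by simpa using hb
    set w := n'⁻¹ * n with hw
    have hwP : w ∈ (P : Subgroup G) := mul_mem (inv_mem hn') hn
    have h1 : b = w * a * w⁻¹ := by
      have : b = n'⁻¹ * (n' * b * n'⁻¹) * n' := by group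
      rw [this, ← hn2, hw]; group
    have h2 : b * a⁻¹ = w * (a * w⁻¹ * a⁻¹) := by rw [h1]; group
    have h3 : b * a⁻¹ ∈ (P : Subgroup G) := by
      rw [h2]
      exact mul_mem hwP (conj_mem_of_mem_normalizer (S.A_le_M ha') (inv_mem hwP))
    have h4 := S.P_inf_A h3 (mul_mem hb' (inv_mem ha'))
    rw [mul_inv_eq_one] at h4
    exact h4.symm

open Classical in
/-- The proportion of regular elements in `G`, read in `N(P)`. -/
theorem rho_eq (S : Setup p P A) :
    (nreg p (⊤ : Subgroup G) : ℚ) / Nat.card G =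
      (∑ a ∈ Finset.univ.filter (· ∈ A), (1 : ℚ) / Nat.card (CI (P : Subgroup G) a)) / Nat.card A := by
  have h1 := nreg_mul_eq _ _ _ _ rfl S.datum
  have hG : (0 : ℚ) < Nat.card G := by exact_mod_cast Nat.card_pos
  have hM : (0 : ℚ) < Nat.card M := by exact_mod_cast Nat.card_pos
  have hA : (0 : ℚ) < Nat.card A := by exact_mod_cast Nat.card_pos
  have hP : (0 : ℚ) < Nat.card (P : Subgroup G) := by exact_mod_cast Nat.card_pos
  have htop : Nat.card (⊤ : Subgroup G) = Nat.card G := Subgroup.card_top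
  rw [htop] at h1
  have h2 : (nreg p (⊤ : Subgroup G) : ℚ) * Nat.card M = nreg p M * Nat.card G := by exact_mod_cast h1
  have h3 : (nreg p (⊤ : Subgroup G) : ℚ) / Nat.card G = (nreg p M : ℚ) / Nat.card M := by
    rw [div_eq_div_iff hG.ne' hM.ne']
    exact h2
  rw [h3, S.nreg_M, S.card_M]
  push_cast
  rw [← div_div, div_eq_div_iff (by positivity) (by positivity)]
  have h4 : ∀ a ∈ Finset.univ.filter (· ∈ A), ((orb (P : Subgroup G) a).card : ℚ) =
      Nat.card (P : Subgroup G) * ((1 : ℚ) / Nat.card (CI (P : Subgroup G) a)) := by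
    intro a _
    have h5 := card_orb_mul (P : Subgroup G) a
    have h6 : (0 : ℚ) < Nat.card (CI (P : Subgroup G) a) := by exact_mod_cast Nat.card_pos
    have h7 : ((orb (P : Subgroup G) a).card : ℚ) * Nat.card (CI (P : Subgroup G) a) =
        Nat.card (P : Subgroup G) := by exact_mod_cast h5
    field_simp
    linarith
  rw [Finset.sum_congr rfl h4, ← Finset.mul_sum]
  field_simp

end Fin

/-- Fixed points of `A` on `P` lie in the commutator subgroup of `P`. -/
theorem fixed_le_commutator (S : Setup p P A) {c : G} (hc : c ∈ (P : Subgroup G))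
    (hcA : ∀ a ∈ A, a * c = c * a) : c ∈ ⁅(P : Subgroup G), (P : Subgroup G)⁆ := by
  classical
  let ϕ : (P : Subgroup G) →* Abelianization (P : Subgroup G) := Abelianization.of
  have hkey : ∀ (k : ℕ) (g₀ : G) (h : g₀⁻¹ * c ^ k * g₀ ∈ (P : Subgroup G)),
      ϕ ⟨g₀⁻¹ * c ^ k * g₀, h⟩ = ϕ ⟨c, hc⟩ ^ k := by
    intro k g₀ h
    obtain ⟨m, hm, hm2⟩ := S.ctrl {c ^ k} (Set.singleton_subset_iff.mpr (pow_mem hc k)) g₀ (by
      intro r hr
      rw [Set.mem_singleton_iff] at hr
      rw [hr]; exact h)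
    have hm3 : m⁻¹ * c ^ k * m = g₀⁻¹ * c ^ k * g₀ := hm2 _ rfl
    obtain ⟨a, ha, u, hu, rfl⟩ := S.exists_mul hm
    have hac : a * c ^ k = c ^ k * a := by
      have h1 : Commute a c := hcA a ha
      exact (h1.pow_right k).eq
    have h2 : g₀⁻¹ * c ^ k * g₀ = u⁻¹ * c ^ k * u := by
      rw [← hm3]
      calc (a * u)⁻¹ * c ^ k * (a * u) = u⁻¹ * a⁻¹ * (c ^ k * a) * u := by group
        _ = u⁻¹ * a⁻¹ * (a * c ^ k) * u := by rw [hac]
        _ = u⁻¹ * c ^ k * u := by group
    have h3 : (⟨g₀⁻¹ * c ^ k * g₀, h⟩ : (P : Subgroup G)) = (⟨u, hu⟩ : (P : Subgroup G))⁻¹ * (⟨c, hc⟩ : (P : Subgroup G)) ^ k * ⟨u, hu⟩ := by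
      apply Subtype.ext
      simpa using h2
    rw [h3, map_mul, map_mul, map_inv, map_pow]
    rw [mul_comm, mul_inv_cancel_left]
  have h1 := Cfsg.Agent.Lib.TwoFusionTransfer.transfer_eq_pow_of_key (P : Subgroup G) ϕ c hc hkey
  have h2 : MonoidHom.transfer ϕ c = 1 := by
    have h3 : commutator G ≤ (MonoidHom.transfer ϕ).ker := Abelianization.commutator_subset_ker _
    rw [S.commutator_eq_top] at h3
    exact h3 (mem_top _)
  rw [h2] at h1
  obtain ⟨j, hj⟩ := pelt_of_mem P.2 hc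
  have h3 : (ϕ ⟨c, hc⟩) ^ p ^ j = 1 := by
    rw [← map_pow]
    have : (⟨c, hc⟩ : (P : Subgroup G)) ^ p ^ j = 1 := by
      apply Subtype.ext
      simpa using hj
    rw [this, map_one]
  have hcop : Nat.Coprime ((P : Subgroup G).index) (p ^ j) := by
    apply Nat.Coprime.pow_right
    exact ((Nat.Prime.coprime_iff_not_dvd (Fact.out : p.Prime)).mpr P.not_dvd_index).symm
  have h4 := pow_gcd_eq_one.mpr ⟨h1.symm, h3⟩
  rw [hcop, pow_one] at h4
  have h5 : (⟨c, hc⟩ : (P : Subgroup G)) ∈ commutator (P : Subgroup G) :=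
    (QuotientGroup.eq_one_iff _).mp h4
  rw [← Subgroup.map_subtype_commutator]
  exact ⟨_, h5, rfl⟩

/-- `A` does not centralize `P`. -/
theorem not_central (S : Setup p P A) : ¬ ∀ a ∈ A, ∀ u ∈ (P : Subgroup G), a * u = u * a := by
  intro h
  apply S.hP
  have h1 : (P : Subgroup G) ≤ ⊥ ⊔ ⁅(P : Subgroup G), (P : Subgroup G)⁆ := by
    rw [bot_sup_eq]
    intro u hu
    exact S.fixed_le_commutator hu (fun a ha => h a ha u hu)
  rw [eq_bot_iff]
  exact Cfsg.Agent.Lib.FusionFocal.le_of_le_sup_commutator P.2 bot_le h1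

end Setup

end Cfsg.Agent.Lib.PAbD
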