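import Mathlib
import Cfsg.Agent.Lib.PAbG
import Cfsg.Agent.Lib.FpfGeneral

/-!
# Groups whose `p'`-subgroups are abelian: the subgroup generated by the local `p`-residues

`U = P₁ P'`, where `P₁` is generated by the `p`-elements of `O^p(C(a))`, `a ∈ A` not centralizing
`P`, with `C_P(a) ≠ 1`. Either `U = P`, whence `A` is a maximal `p'`-subgroup, or `A` acts on `P/U`
with all nontrivial elements fixed point free, whence `A/C_A(P)` is cyclic.
-/

set_option autoImplicit false
set_option linter.unusedSectionVars false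
set_option linter.unusedVariables false
set_option linter.style.longLine false
set_option linter.style.haveILetI false

open Subgroup

namespace Cfsg.Agent.Lib.PAbD

universe u

open Cfsg.Agent.Lib.CoprimeInv Cfsg.Agent.Lib.PAbA Cfsg.Agent.Lib.PAbB Cfsg.Agent.Lib.PAbC
open scoped commutatorElement

variable {G : Type u} [Group G] [Finite G] {p : ℕ} [Fact p.Prime]

theorem mem_normalizer_closure {s : Set G} {g : G} (h1 : ∀ x ∈ s, g * x * g⁻¹ ∈ s)
    (h2 : ∀ x ∈ s, g⁻¹ * x * g ∈ s) : g ∈ normalizer ((closure s : Subgroup G) : Set G) := by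
  have key : ∀ (h : G), (∀ x ∈ s, h * x * h⁻¹ ∈ s) → ∀ x ∈ closure s, h * x * h⁻¹ ∈ closure s := by
    intro h hs x hx
    have : closure s ≤ (closure s).comap (MulAut.conj h).toMonoidHom := by
      rw [closure_le]
      intro y hy
      exact subset_closure (hs y hy)
    exact this hx
  refine mem_normalizer_of_conj (key g h1) ?_
  intro x hx
  have := key g⁻¹ (by simpa using h2) x hx
  simpa using this

theorem mem_normalizer_sup {X Y : Subgroup G} {g : G} (h1 : g ∈ normalizer (X : Set G))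
    (h2 : g ∈ normalizer (Y : Set G)) : g ∈ normalizer ((X ⊔ Y : Subgroup G) : Set G) := by
  rw [Subgroup.mem_normalizer_iff_map_conj_eq] at *
  rw [Subgroup.map_sup, h1, h2]

theorem mem_normalizer_inf {X Y : Subgroup G} {g : G} (h1 : g ∈ normalizer (X : Set G))
    (h2 : g ∈ normalizer (Y : Set G)) : g ∈ normalizer ((X ⊓ Y : Subgroup G) : Set G) := by
  refine mem_normalizer_of_conj ?_ ?_
  · rintro x ⟨hx1, hx2⟩
    exact mem_inf.mpr ⟨conj_mem_of_mem_normalizer h1 hx1, conj_mem_of_mem_normalizer h2 hx2⟩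
  · rintro x ⟨hx1, hx2⟩
    exact mem_inf.mpr ⟨inv_conj_mem_of_mem_normalizer h1 hx1, inv_conj_mem_of_mem_normalizer h2 hx2⟩

theorem mem_normalizer_commutator {X : Subgroup G} {g : G} (h1 : g ∈ normalizer (X : Set G)) :
    g ∈ normalizer ((⁅X, X⁆ : Subgroup G) : Set G) := by
  rw [Subgroup.mem_normalizer_iff_map_conj_eq] at *
  rw [Subgroup.map_commutator, h1]

/-- A complement through any given `p'`-subgroup. -/
theorem IsCore.exists_complement_ge {X S D₀ : Subgroup G} (h : IsCore p X S) (hc : (Nat.card D₀).Coprime p)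
    (hle : D₀ ≤ X) :
    ∃ B : Subgroup G, (Nat.card B).Coprime p ∧ B ⊔ S = resOf p X ∧ B ≤ resOf p X ∧ D₀ ≤ B := by
  obtain ⟨B₀, hBc, hBd, hBs, hBle⟩ := h.exists_complement
  have hDres : D₀ ≤ resOf p X := fun d hd => mem_resOf (hle hd) (reg_of_mem_of_coprime hc hd)
  set B₁ : Subgroup G := B₀ ⊓ (S ⊔ D₀) with hB₁
  have hN : ∀ {K : Subgroup G}, K ≤ resOf p X → K ≤ normalizer (S : Set G) := fun hK =>
    hK.trans ((resOf_le X).trans h.le_normalizer)
  have hsup : S ⊔ D₀ = S ⊔ B₁ := by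
    apply le_antisymm
    · apply sup_le le_sup_left
      intro d hd
      have h1 : d ∈ B₀ ⊔ S := by rw [hBs]; exact hDres hd
      obtain ⟨b, hb, s, hs, rfl⟩ := mem_sup_of_le_normalizer (hN hBle) h1
      refine mul_mem (mem_sup_right ⟨hb, ?_⟩) (mem_sup_left hs)
      have e : b = (b * s) * s⁻¹ := by group
      rw [e]
      exact mul_mem (mem_sup_right hd) (mem_sup_left (inv_mem hs))
    · exact sup_le le_sup_left inf_le_right
  obtain ⟨n, hn, hB₁n⟩ := exists_conj_rel (N := S) (K₁ := D₀) (K₂ := B₁) h.isSolvable_of_isP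
    (hN hDres) (hN (inf_le_left.trans hBle))
    (inf_eq_bot_of_coprime' (h.cop_card hc))
    (by rw [eq_bot_iff, ← hBd]; exact inf_le_inf_left _ inf_le_left)
    hsup (h.cop_card hc)
  have hnX : n ∈ X := h.le_X hn
  have hnres : n ∈ resOf p X := h.le hn
  refine ⟨cj B₀ n⁻¹, by rw [card_cj]; exact hBc, ?_, ?_, ?_⟩
  · apply le_antisymm
    · apply sup_le _ h.le
      rintro _ ⟨b, hb, rfl⟩
      exact mul_mem (mul_mem (inv_mem hnres) (hBle hb)) (by simpa using hnres)
    · intro x hx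
      have h1 : n * x * n⁻¹ ∈ B₀ ⊔ S := by
        rw [hBs]
        exact mul_mem (mul_mem hnres hx) (inv_mem hnres)
      obtain ⟨b, hb, s, hs, hbs⟩ := mem_sup_of_le_normalizer (hN hBle) h1
      have e : x = (n⁻¹ * b * n) * (n⁻¹ * s * n) := by
        have : x = n⁻¹ * (n * x * n⁻¹) * n := by group
        rw [this, hbs]; group
      rw [e]
      refine mul_mem (mem_sup_left ?_) (mem_sup_right ?_)
      · rw [mem_cj]; simpa [mul_assoc] using hb
      · exact mul_mem (mul_mem (inv_mem hn) hs) hn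
  · rintro _ ⟨b, hb, rfl⟩
    exact mul_mem (mul_mem (inv_mem hnres) (hBle hb)) (by simpa using hnres)
  · intro d hd
    rw [mem_cj]
    have h1 : n * d * n⁻¹ ∈ B₁ := by
      rw [hB₁n]; exact conj_mem_cj hd
    simpa using h1.1

namespace Setup

variable {P : Sylow p G} {A : Subgroup G}

local notation "M" => normalizer ((P : Subgroup G) : Set G)

/-- The family of local residues. -/
def fam (p : ℕ) [Fact p.Prime] (P : Sylow p G) (A : Subgroup G) : Set G :=
  {x | ∃ a ∈ A, a ∉ centralizer ((P : Subgroup G) : Set G) ∧ CI (P : Subgroup G) a ≠ ⊥ ∧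
    x ∈ resOf p (centralizer ({a} : Set G)) ∧ PElt p x}

theorem ne_one_of_not_central {a : G} (h : a ∉ centralizer ((P : Subgroup G) : Set G)) : a ≠ 1 := by
  rintro rfl
  exact h (one_mem _)

/-- The residue lies in `C_P(a)`. -/
theorem core_le_CI (S : Setup p P A) {a : G} (ha : a ∈ M) {S₀ : Subgroup G}
    (hS₀ : IsCore p (centralizer ({a} : Set G)) S₀) (hY : CI (P : Subgroup G) a ≠ ⊥) :
    S₀ ≤ CI (P : Subgroup G) a := by
  have h1 : IsPGroup p (CI (P : Subgroup G) a ⊔ S₀ : Subgroup G) :=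
    IsPGroup.to_sup_of_normal_right' (P.2.to_le inf_le_left) hS₀.isP
      ((inf_le_right).trans hS₀.le_normalizer)
  have h2 := S.maximal_centralizer ha hY h1 le_sup_left (sup_le inf_le_right hS₀.le_X)
  exact le_sup_right.trans h2.le

theorem fam_subset (S : Setup p P A) : fam p P A ⊆ (P : Subgroup G) := by
  rintro x ⟨a, ha, ha1, hY, hx, hp⟩
  obtain ⟨S₀, hS₀⟩ := exists_core S.hy _ (S.solv _ (S.centralizer_ne_top (ne_one_of_not_central ha1)))
  have h1 := S.core_le_CI (S.A_le_M ha) hS₀ hY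
  exact (h1 (hS₀.mem x hx hp)).1

/-- Elements commuting with `A` permute the family. -/
theorem conj_mem_fam (S : Setup p P A) {g : G} (hg : ∀ a ∈ A, g * a = a * g) {x : G} (hx : x ∈ fam p P A) :
    g * x * g⁻¹ ∈ fam p P A := by
  obtain ⟨a, ha, ha1, hY, hx, hp⟩ := hx
  refine ⟨a, ha, ha1, hY, ?_, hp.conj g⟩
  have h1 : g ∈ centralizer ({a} : Set G) := mem_centralizer_singleton_iff.mpr (hg a ha)
  exact conj_mem_of_mem_normalizer (le_normalizer_resOf _ h1) hx

theorem mem_normalizer_P₁ (S : Setup p P A) {g : G} (hg : ∀ a ∈ A, g * a = a * g) :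
    g ∈ normalizer ((closure (fam p P A) : Subgroup G) : Set G) := by
  have hg' : ∀ a ∈ A, g⁻¹ * a = a * g⁻¹ := by
    intro a ha
    have := hg a ha
    calc g⁻¹ * a = g⁻¹ * (a * g) * g⁻¹ := by group
      _ = g⁻¹ * (g * a) * g⁻¹ := by rw [this]
      _ = a * g⁻¹ := by group
  exact mem_normalizer_closure (fun x hx => S.conj_mem_fam hg hx)
    (fun x hx => by simpa using S.conj_mem_fam hg' hx)

/-- The subgroup `U`. -/
def UU (p : ℕ) [Fact p.Prime] (P : Sylow p G) (A : Subgroup G) : Subgroup G :=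
  closure (fam p P A) ⊔ ⁅(P : Subgroup G), (P : Subgroup G)⁆

theorem UU_le (S : Setup p P A) : UU p P A ≤ (P : Subgroup G) := by
  apply sup_le
  · rw [closure_le]; exact S.fam_subset
  · rw [Subgroup.commutator_le]
    intro a ha b hb
    rw [commutatorElement_def]
    exact mul_mem (mul_mem (mul_mem ha hb) (inv_mem ha)) (inv_mem hb)

theorem P_le_normalizer_UU (S : Setup p P A) : (P : Subgroup G) ≤ normalizer (UU p P A : Set G) := by
  have hU := S.UU_le
  have key : ∀ u ∈ (P : Subgroup G), ∀ w ∈ UU p P A, u * w * u⁻¹ ∈ UU p P A := by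
    intro u hu w hw
    have e : u * w * u⁻¹ = ⁅u, w⁆ * w := by
      rw [commutatorElement_def]; group
    rw [e]
    exact mul_mem (mem_sup_right (commutator_mem_commutator hu (hU hw))) hw
  intro u hu
  exact mem_normalizer_of_conj (key u hu) (fun w hw => by simpa using key u⁻¹ (inv_mem hu) w hw)

theorem M_le_normalizer_UU (S : Setup p P A) : M ≤ normalizer (UU p P A : Set G) := by
  rw [← S.hA_sup]
  apply sup_le _ S.P_le_normalizer_UU
  intro a ha
  apply mem_normalizer_sup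
  · exact S.mem_normalizer_P₁ (fun b hb => S.A_comm ha hb)
  · exact mem_normalizer_commutator (S.A_le_M ha)

/-- A commutator condition spreads to the cyclic group. -/
theorem comm_mem_zpowers {U : Subgroup G} {a u : G} (ha : a ∈ normalizer (U : Set G))
    (h : a * u * a⁻¹ * u⁻¹ ∈ U) : ∀ z ∈ zpowers a, z * u * z⁻¹ * u⁻¹ ∈ U := by
  let L : Subgroup G :=
    { carrier := {z | z ∈ normalizer (U : Set G) ∧ z * u * z⁻¹ * u⁻¹ ∈ U}
      mul_mem' := by
        rintro x y ⟨hx1, hx2⟩ ⟨hy1, hy2⟩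
        refine ⟨mul_mem hx1 hy1, ?_⟩
        have e : x * y * u * (x * y)⁻¹ * u⁻¹ = x * (y * u * y⁻¹ * u⁻¹) * x⁻¹ * (x * u * x⁻¹ * u⁻¹) := by group
        rw [e]
        exact mul_mem (conj_mem_of_mem_normalizer hx1 hy2) hx2
      one_mem' := ⟨one_mem _, by simp⟩
      inv_mem' := by
        rintro x ⟨hx1, hx2⟩
        refine ⟨inv_mem hx1, ?_⟩
        have e : x⁻¹ * u * x⁻¹⁻¹ * u⁻¹ = x⁻¹ * (x * u * x⁻¹ * u⁻¹)⁻¹ * x := by group
        rw [e]
        exact inv_conj_mem_of_mem_normalizer hx1 (inv_mem hx2) }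
  have : zpowers a ≤ L := zpowers_le.mpr ⟨ha, h⟩
  intro z hz
  exact (this hz).2

/-- **Fixed points on `P/U`.** -/
theorem fix_UU (S : Setup p P A) {a : G} (ha : a ∈ A) (ha1 : a ∉ centralizer ((P : Subgroup G) : Set G))
    {u : G} (hu : u ∈ (P : Subgroup G)) (h : a * u * a⁻¹ * u⁻¹ ∈ UU p P A) : u ∈ UU p P A := by
  have hU := S.UU_le
  have hPU := S.P_le_normalizer_UU
  have hMU := S.M_le_normalizer_UU
  have haM := S.A_le_M ha
  have haR : Reg p a := reg_of_mem_of_coprime S.hA_cop ha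
  have hPs : Group.IsSolvable (P : Subgroup G) := by
    haveI := P.2.isNilpotent
    infer_instance
  obtain ⟨k, hk⟩ := IsPGroup.iff_card.mp P.2
  obtain ⟨c, hc, hc2⟩ := Cfsg.Agent.Lib.Glauberman.exists_mem_centralizer_of_coset_fixed
    (A := zpowers a) (K := (P : Subgroup G)) (N := UU p P A)
    (by
      rw [Nat.card_zpowers, hk]
      exact Nat.Coprime.pow_right k haR)
    (Or.inr hPs) hU hPU (zpowers_le.mpr (hMU haM)) u hu
    (comm_mem_zpowers (hMU haM) h)
  have hca : c * a = a * c := by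
    have := mem_centralizer_iff.mp hc.2 a (mem_zpowers a)
    exact this.symm
  have hcY : c ∈ CI (P : Subgroup G) a := mem_CI.mpr ⟨hc.1, hca⟩
  suffices hcU : c ∈ UU p P A by
    have e : u = c * (u⁻¹ * c)⁻¹ := by group
    rw [e]
    exact mul_mem hcU (inv_mem hc2)
  by_cases hY : CI (P : Subgroup G) a = ⊥
  · rw [hY, mem_bot] at hcY
    rw [hcY]; exact one_mem _
  set Y := CI (P : Subgroup G) a with hYdef
  have hYP : Y ≤ (P : Subgroup G) := inf_le_left
  have hYp : IsPGroup p Y := P.2.to_le hYP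
  have hAY : A ≤ normalizer (Y : Set G) := by
    intro b hb
    exact mem_normalizer_inf (S.A_le_M hb)
      (le_normalizer (mem_centralizer_singleton_iff.mpr (S.A_comm hb ha)))
  have hcN : ∀ b ∈ A, b * c * b⁻¹ * c⁻¹ ∈ Y ⊓ UU p P A := by
    intro b hb
    have h1 : b * c * b⁻¹ * c⁻¹ ∈ Y := mul_mem (conj_mem_of_mem_normalizer (hAY hb) hcY) (inv_mem hcY)
    refine mem_inf.mpr ⟨h1, mem_sup_left (subset_closure ?_)⟩
    refine ⟨a, ha, ha1, hY, ?_, pelt_of_mem hYp h1⟩
    have hbC : b ∈ centralizer ({a} : Set G) := mem_centralizer_singleton_iff.mpr (S.A_comm hb ha)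
    have hcC : c ∈ centralizer ({a} : Set G) := hcY.2
    have hbres : b ∈ resOf p (centralizer ({a} : Set G)) :=
      mem_resOf hbC (reg_of_mem_of_coprime S.hA_cop hb)
    have e : b * c * b⁻¹ * c⁻¹ = b * (c * b⁻¹ * c⁻¹) := by group
    rw [e]
    exact mul_mem hbres (conj_mem_of_mem_normalizer (le_normalizer_resOf _ hcC) (inv_mem hbres))
  have hYs : Group.IsSolvable Y := by
    haveI := hYp.isNilpotent
    infer_instance
  obtain ⟨k', hk'⟩ := IsPGroup.iff_card.mp hYp
  obtain ⟨c₂, hc₂, hc₂2⟩ := Cfsg.Agent.Lib.Glauberman.exists_mem_centralizer_of_coset_fixed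
    (A := A) (K := Y) (N := Y ⊓ UU p P A)
    (by
      rw [hk']
      exact Nat.Coprime.pow_right k' S.hA_cop)
    (Or.inr hYs) inf_le_left
    (fun y hy => mem_normalizer_inf (le_normalizer hy) (hPU (hYP hy)))
    (fun b hb => mem_normalizer_inf (hAY hb) (hMU (S.A_le_M hb))) c hcY hcN
  have hc₂U : c₂ ∈ UU p P A := by
    refine mem_sup_right (S.fixed_le_commutator (hYP hc₂.1) ?_)
    intro b hb
    exact mem_centralizer_iff.mp hc₂.2 b hb
  have e : c = c₂ * (c⁻¹ * c₂)⁻¹ := by group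
  rw [e]
  exact mul_mem hc₂U (inv_mem hc₂2.2)

/-- If `U = P`, the family generates `P`. -/
theorem closure_eq (S : Setup p P A) (hU : UU p P A = (P : Subgroup G)) :
    closure (fam p P A) = (P : Subgroup G) := by
  have hle : closure (fam p P A) ≤ (P : Subgroup G) := by
    rw [closure_le]; exact S.fam_subset
  apply le_antisymm hle
  apply Cfsg.Agent.Lib.FusionFocal.le_of_le_sup_commutator P.2 hle
  exact hU.ge

/-- If `U = P`, a `p'`-subgroup through `A` normalizes `P`. -/
theorem le_M_of_UU (S : Setup p P A) (hU : UU p P A = (P : Subgroup G)) {D : Subgroup G}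
    (hD : (Nat.card D).Coprime p) (hAD : A ≤ D) : D ≤ M := by
  intro d hd
  have h1 := S.mem_normalizer_P₁ (g := d) (fun a ha => S.comm_of_cop hD hd (hAD ha))
  rwa [S.closure_eq hU] at h1

/-- If `U ≠ P`, `A / C_A(P)` is cyclic. -/
theorem exists_cyclic (S : Setup p P A) (hU : UU p P A ≠ (P : Subgroup G)) :
    ∃ (E : Type u) (_ : Group E) (_ : Finite E) (_ : IsCyclic E) (ψ : A →* E),
      Function.Surjective ψ ∧ ∀ a : A, ψ a = 1 ↔ (a : G) ∈ centralizer ((P : Subgroup G) : Set G) := by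
  classical
  set U := UU p P A with hUdef
  have hUP := S.UU_le
  have hMU := S.M_le_normalizer_UU
  set C₀ : Subgroup G := A ⊓ centralizer ((P : Subgroup G) : Set G) with hC₀
  -- elements of `C₀` are central in `M`
  have hC₀central : ∀ c ∈ C₀, ∀ m ∈ M, m * c = c * m := by
    intro c hc m hm
    obtain ⟨a, ha, u, hu, rfl⟩ := S.exists_mul hm
    have h1 : a * c = c * a := S.A_comm ha hc.1
    have h2 : u * c = c * u := mem_centralizer_iff.mp hc.2 u hu
    calc a * u * c = a * (c * u) := by rw [mul_assoc, h2]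
      _ = c * (a * u) := by rw [← mul_assoc, h1, mul_assoc]
  have hMC₀ : M ≤ normalizer (C₀ : Set G) := by
    intro m hm
    refine mem_normalizer_of_conj ?_ ?_
    · intro c hc
      rw [hC₀central c hc m hm]
      simpa using hc
    · intro c hc
      have := hC₀central c hc m⁻¹ (inv_mem hm)
      have e : m⁻¹ * c * m = c := by
        rw [this]; group
      rw [e]; exact hc
  set K₀ : Subgroup G := U ⊔ C₀ with hK₀
  have hMK₀ : M ≤ normalizer (K₀ : Set G) := fun m hm => mem_normalizer_sup (hMU hm) (hMC₀ hm)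
  have hK₀U : ∀ x ∈ K₀, x ∈ (P : Subgroup G) → x ∈ U := by
    intro x hx hxP
    obtain ⟨w, hw, c, hc, rfl⟩ := mem_sup_of_le_normalizer (le_trans hUP (S.P_le_M.trans hMC₀)) hx
    have h1 : c ∈ (P : Subgroup G) := by
      have e : c = w⁻¹ * (w * c) := by group
      rw [e]
      exact mul_mem (inv_mem (hUP hw)) hxP
    have h2 := S.P_inf_A h1 hc.1
    rw [h2, mul_one]
    exact hw
  have hK₀M : K₀ ≤ M := sup_le (hUP.trans S.P_le_M) (inf_le_left.trans S.A_le_M)
  have hnorm : (K₀.subgroupOf M).Normal := by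
    refine ⟨fun n hn g => ?_⟩
    rw [mem_subgroupOf] at hn ⊢
    exact conj_mem_of_mem_normalizer (hMK₀ g.2) hn
  let Γ := ↥M ⧸ K₀.subgroupOf M
  let π : ↥M →* Γ := QuotientGroup.mk' (K₀.subgroupOf M)
  have hπ : Function.Surjective π := QuotientGroup.mk'_surjective _
  have hπ1 : ∀ x : M, π x = 1 ↔ (x : G) ∈ K₀ := by
    intro x
    rw [QuotientGroup.mk'_apply, QuotientGroup.eq_one_iff, mem_subgroupOf]
  let π₀ : A →* Γ := π.comp (Subgroup.inclusion S.A_le_M)
  have hπ₀ : ∀ a : A, π₀ a = 1 ↔ (a : G) ∈ centralizer ((P : Subgroup G) : Set G) := by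
    intro a
    show π (Subgroup.inclusion S.A_le_M a) = 1 ↔ _
    rw [hπ1]
    constructor
    · intro h
      obtain ⟨w, hw, c, hc, hwc⟩ := mem_sup_of_le_normalizer (le_trans hUP (S.P_le_M.trans hMC₀)) h
      have hwc' : (a : G) = w * c := hwc
      have h1 : w ∈ A := by
        have e : w = (a : G) * c⁻¹ := by rw [hwc']; group
        rw [e]
        exact mul_mem a.2 (inv_mem hc.1)
      have h2 := S.P_inf_A (hUP hw) h1
      rw [hwc', h2, one_mul]
      exact hc.2
    · intro h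
      exact mem_sup_right (mem_inf.mpr ⟨a.2, h⟩)
  let E₀ : Subgroup Γ := π₀.range
  let K : Subgroup Γ := ((P : Subgroup G).subgroupOf M).map π
  have hPnorm : ((P : Subgroup G).subgroupOf M).Normal := by
    refine ⟨fun n hn g => ?_⟩
    rw [mem_subgroupOf] at hn ⊢
    exact conj_mem_of_mem_normalizer g.2 hn
  have hKn : K.Normal := hPnorm.map π hπ
  have hKne : K ≠ ⊥ := by
    intro h
    apply hU
    apply le_antisymm hUP
    intro u hu
    have h1 : π ⟨u, S.P_le_M hu⟩ ∈ K := ⟨⟨u, S.P_le_M hu⟩, hu, rfl⟩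
    rw [h, mem_bot, hπ1] at h1
    exact hK₀U _ h1 hu
  have hE₀comm : IsMulCommutative E₀ := by
    refine ⟨⟨?_⟩⟩
    rintro ⟨_, a, rfl⟩ ⟨_, b, rfl⟩
    apply Subtype.ext
    show π₀ a * π₀ b = π₀ b * π₀ a
    rw [← map_mul, ← map_mul]
    congr 1
    apply Subtype.ext
    exact S.A_comm a.2 b.2
  have hcyc : IsCyclic E₀ := by
    apply Cfsg.Agent.Lib.FpfGeneral.isCyclic_of_fpf E₀ K hKne (le_normalizer_of_normal hKn _) _ (Or.inl hE₀comm)
    rintro _ ⟨a, rfl⟩ hne
    rw [eq_bot_iff]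
    rintro k ⟨⟨u, hu, rfl⟩, hk⟩
    rw [mem_bot]
    have hu' : (u : G) ∈ (P : Subgroup G) := hu
    have h1 : (a : G) ∉ centralizer ((P : Subgroup G) : Set G) := fun h => hne ((hπ₀ a).mpr h)
    have h2 : π u * π₀ a = π₀ a * π u := mem_centralizer_singleton_iff.mp hk
    have h3 : π ((Subgroup.inclusion S.A_le_M a) * u * (Subgroup.inclusion S.A_le_M a)⁻¹ * u⁻¹) = 1 := by
      rw [map_mul, map_mul, map_mul, map_inv, map_inv]
      show π₀ a * π u * (π₀ a)⁻¹ * (π u)⁻¹ = 1
      rw [← h2]; group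
    rw [hπ1] at h3
    have h4 : ((a : G) * u * (a : G)⁻¹ * (u : G)⁻¹) ∈ K₀ := by simpa using h3
    have h5 : ((a : G) * u * (a : G)⁻¹ * (u : G)⁻¹) ∈ (P : Subgroup G) :=
      mul_mem (conj_mem_of_mem_normalizer (S.A_le_M a.2) hu') (inv_mem hu')
    have h6 := S.fix_UU a.2 h1 hu' (hK₀U _ h4 h5)
    exact (hπ1 u).mpr (mem_sup_left h6)
  refine ⟨E₀, inferInstance, inferInstance, hcyc, π₀.rangeRestrict, π₀.rangeRestrict_surjective, ?_⟩
  intro a
  rw [← hπ₀ a]
  constructor
  · intro h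
    exact congrArg Subtype.val h
  · intro h
    exact Subtype.ext h

end Setup

end Cfsg.Agent.Lib.PAbD
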