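import Mathlib
import Cfsg.Agent.Lib.PAbH

/-!
# Groups whose `p'`-subgroups are abelian: the case `U = P`

`A` is then a maximal `p'`-subgroup, and most elements of `A` act fixed point freely on `P`.
-/

set_option autoImplicit false
set_option linter.unusedSectionVars false
set_option linter.unusedVariables false
set_option linter.style.longLine false
set_option linter.style.haveILetI false

open Subgroup

namespace Cfsg.Agent.Lib.PAbD

universe u

open Cfsg.Agent.Lib.CoprimeInv Cfsg.Agent.Lib.PAbA Cfsg.Agent.Lib.PAbB Cfsg.Agent.Lib.PAbC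
open scoped commutatorElement

variable {G : Type u} [Group G] [Finite G] {p : ℕ} [Fact p.Prime]

theorem IsSylowIn.relIndex_cop {T X : Subgroup G} (h : IsSylowIn p T X) : (T.relIndex X).Coprime p :=
  ((Nat.Prime.coprime_iff_not_dvd (Fact.out : p.Prime)).mpr h.toSylow.not_dvd_index).symm

namespace Setup

variable {P : Sylow p G} {A : Subgroup G}

local notation "M" => normalizer ((P : Subgroup G) : Set G)

theorem maxReg_A (S : Setup p P A) (hU : UU p P A = (P : Subgroup G)) : MaxReg p A := by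
  obtain ⟨D₁, hD₁, hAD⟩ := exists_maxReg_ge S.hA_cop
  have hle := S.le_M_of_UU hU hD₁.cop hAD
  have : D₁ = A := by
    apply le_antisymm _ hAD
    intro d hd
    obtain ⟨a, ha, u, hu, rfl⟩ := S.exists_mul (hle hd)
    have h1 : u ∈ D₁ := by
      have e : u = a⁻¹ * (a * u) := by group
      rw [e]
      exact mul_mem (inv_mem (hAD ha)) hd
    have h2 : u = 1 := eq_one_of_reg_of_pelt (hD₁.reg h1) (pelt_of_mem P.2 hu)
    rw [h2, mul_one]
    exact ha
  rwa [this] at hD₁

theorem A_le_centralizer (S : Setup p P A) {a : G} (ha : a ∈ A) : A ≤ centralizer ({a} : Set G) :=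
  fun b hb => mem_centralizer_singleton_iff.mpr (S.A_comm hb ha)

/-- `C(a) ≤ N(P)`. -/
theorem centralizer_le_M (S : Setup p P A) (hA : MaxReg p A) {a : G} (ha : a ∈ A) (ha1 : a ≠ 1)
    (hY : CI (P : Subgroup G) a ≠ ⊥) : centralizer ({a} : Set G) ≤ M := by
  set X := centralizer ({a} : Set G) with hX
  obtain ⟨S₀, hS₀⟩ := exists_core S.hy X (S.solv _ (S.centralizer_ne_top ha1))
  have h1 := S.core_le_CI (S.A_le_M ha) hS₀ hY
  have hsup := hS₀.sup_eq hA (S.A_le_centralizer ha)
  have hres : resOf p X ≤ M := by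
    rw [← hsup]
    exact sup_le S.A_le_M (h1.trans (inf_le_left.trans S.P_le_M))
  have hTs : IsSylowIn p (CI (P : Subgroup G) a) X :=
    ⟨inf_le_right, P.2.to_le inf_le_left, fun R hR hRp hYR =>
      S.maximal_centralizer (S.A_le_M ha) hY hRp hYR hR⟩
  have h2 := le_sylow_sup_resOf X _ hTs.1 (IsSylowIn.relIndex_cop hTs)
  exact h2.trans (sup_le (inf_le_left.trans S.P_le_M) hres)

/-- `C(C_P(a)) ≤ N(P)`. -/
theorem centralizer_CI_le_M (S : Setup p P A) (hA : MaxReg p A) {a : G} (ha : a ∈ A) (ha1 : a ≠ 1)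
    (hY : CI (P : Subgroup G) a ≠ ⊥) : centralizer ((CI (P : Subgroup G) a : Subgroup G) : Set G) ≤ M := by
  set Y := CI (P : Subgroup G) a with hYdef
  set X := centralizer ((Y : Subgroup G) : Set G) with hX
  obtain ⟨y, hy, hy1⟩ := (Subgroup.ne_bot_iff_exists_ne_one (H := Y)).mp hY |> fun ⟨y, hy⟩ => (⟨(y : G), y.2, fun h => hy (Subtype.ext h)⟩ : ∃ y ∈ Y, y ≠ 1)
  have hXne : X ≠ ⊤ := by
    intro h
    apply S.centralizer_ne_top hy1
    rw [eq_top_iff, ← h]
    intro g hg
    rw [mem_centralizer_singleton_iff]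
    exact (mem_centralizer_iff.mp hg y hy).symm
  have haX : a ∈ X := by
    rw [hX, mem_centralizer_iff]
    intro z hz
    exact mem_centralizer_singleton_iff.mp hz.2
  obtain ⟨S₂, hS₂⟩ := exists_core S.hy X (S.solv _ hXne)
  have hreg : Reg p a := reg_of_mem_of_coprime S.hA_cop ha
  obtain ⟨B, hBc, hBs, hBle, hBa⟩ := Cfsg.Agent.Lib.PAbD.IsCore.exists_complement_ge hS₂ hreg.card_zpowers (zpowers_le.mpr haX)
  have hBM : B ≤ M := (S.le_centralizer_of_mem hBc (hBa (mem_zpowers a))).trans
    (S.centralizer_le_M hA ha ha1 hY)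
  have hTs : IsSylowIn p ((P : Subgroup G) ⊓ X) X :=
    S.isSylowIn_inf (R := Y) inf_le_left le_rfl (centralizer_le_normalizer' Y)
  have hS₂T : S₂ ≤ (P : Subgroup G) ⊓ X := by
    have h1 : IsPGroup p (((P : Subgroup G) ⊓ X) ⊔ S₂ : Subgroup G) :=
      IsPGroup.to_sup_of_normal_right' hTs.2.1 hS₂.isP (inf_le_right.trans hS₂.le_normalizer)
    have h2 := hTs.2.2 _ (sup_le hTs.1 hS₂.le_X) h1 le_sup_left
    exact le_sup_right.trans h2.le
  have hres : resOf p X ≤ M := by
    rw [← hBs]
    exact sup_le hBM (hS₂T.trans (inf_le_left.trans S.P_le_M))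
  have h2 := le_sylow_sup_resOf X _ hTs.1 (IsSylowIn.relIndex_cop hTs)
  exact h2.trans (sup_le (inf_le_left.trans S.P_le_M) hres)

/-- Fusion of elements of `A` with nontrivial fixed points on `P` is trivial. -/
theorem eq_of_conj (S : Setup p P A) (hA : MaxReg p A) {x : G} (hx : x ∈ normalizer (A : Set G)) {a : G}
    (ha : a ∈ A) (ha1 : a ≠ 1) (hY : CI (P : Subgroup G) a ≠ ⊥)
    (hY' : CI (P : Subgroup G) (x⁻¹ * a * x) ≠ ⊥) : x⁻¹ * a * x = a := by
  set a' := x⁻¹ * a * x with ha'
  have ha'A : a' ∈ A := inv_conj_mem_of_mem_normalizer hx ha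
  have ha'1 : a' ≠ 1 := by
    intro h
    apply ha1
    have e : a = x * a' * x⁻¹ := by rw [ha']; group
    rw [e, h]; group
  have hC' := S.centralizer_le_M hA ha'A ha'1 hY'
  set Y := CI (P : Subgroup G) a with hYdef
  have hYP : Y ≤ (P : Subgroup G) := inf_le_left
  have hconj : ∀ y ∈ Y, x⁻¹ * y * x ∈ (P : Subgroup G) := by
    intro y hy
    have h1 : x⁻¹ * y * x ∈ centralizer ({a'} : Set G) := by
      rw [mem_centralizer_singleton_iff, ha']
      have h2 : y * a = a * y := mem_centralizer_singleton_iff.mp hy.2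
      calc x⁻¹ * y * x * (x⁻¹ * a * x) = x⁻¹ * (y * a) * x := by group
        _ = x⁻¹ * (a * y) * x := by rw [h2]
        _ = x⁻¹ * a * x * (x⁻¹ * y * x) := by group
    apply pelt_mem_P (hC' h1)
    have := (pelt_of_mem P.2 (hYP hy)).conj x⁻¹
    simpa using this
  obtain ⟨m, hm, hm2⟩ := S.ctrl (Y : Set G) hYP x hconj
  have hc : x * m⁻¹ ∈ centralizer ((Y : Subgroup G) : Set G) := by
    apply mem_centralizer_of_same_action_trivial
    intro y hy
    have := hm2 y hy
    calc (x * m⁻¹)⁻¹ * y * (x * m⁻¹) = m * (x⁻¹ * y * x) * m⁻¹ := by group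
      _ = m * (m⁻¹ * y * m) * m⁻¹ := by rw [this]
      _ = y := by group
  have hcM := S.centralizer_CI_le_M hA ha ha1 hY hc
  have hxM : x ∈ M := by
    have e : x = (x * m⁻¹) * m := by group
    rw [e]
    exact mul_mem hcM hm
  obtain ⟨a₂, ha₂, u, hu, rfl⟩ := S.exists_mul hxM
  have huN : u ∈ normalizer (A : Set G) := by
    have e : u = a₂⁻¹ * (a₂ * u) := by group
    rw [e]
    exact mul_mem (inv_mem (le_normalizer ha₂)) hx
  have hcomm : u⁻¹ * a * u = a := by
    have h1 : u⁻¹ * a * u * a⁻¹ ∈ A := mul_mem (inv_conj_mem_of_mem_normalizer huN ha) (inv_mem ha)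
    have h2 : u⁻¹ * a * u * a⁻¹ ∈ (P : Subgroup G) := by
      have e : u⁻¹ * a * u * a⁻¹ = u⁻¹ * (a * u * a⁻¹) := by group
      rw [e]
      exact mul_mem (inv_mem hu) (conj_mem_of_mem_normalizer (S.A_le_M ha) hu)
    have h3 := S.P_inf_A h2 h1
    rwa [mul_inv_eq_one] at h3
  rw [ha']
  calc (a₂ * u)⁻¹ * a * (a₂ * u) = u⁻¹ * (a₂⁻¹ * a * a₂) * u := by group
    _ = u⁻¹ * a * u := by
        have : a₂⁻¹ * a * a₂ = a := by
          rw [mul_assoc, S.A_comm ha ha₂]; group
        rw [this]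
    _ = a := hcomm

section Fin

variable [Fintype G] [DecidableEq G]

theorem card_orb_ge (S : Setup p P A) {D : Subgroup G} (hD : MaxReg p D) {y : G} (hy : y ∈ D)
    (hy1 : y ≠ 1) : p ≤ (orb (normalizer (D : Set G)) y).card := by
  set N : Subgroup G := normalizer (D : Set G) with hN
  set K : Subgroup G := CI N y with hK
  have h1 : p ≤ K.relIndex N := S.index_ge hD hy hy1
  have h2 : K.relIndex N * Nat.card K = Nat.card N := Cfsg.Agent.Lib.Coprime.relIndex_mul_card_of_le inf_le_left
  have h3 : (orb N y).card * Nat.card K = Nat.card N := card_orb_mul N y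
  have hpos : 0 < Nat.card K := Nat.card_pos
  have h4 : (orb N y).card = K.relIndex N := Nat.eq_of_mul_eq_mul_right hpos (h3.trans h2.symm)
  rw [h4]; exact h1

open Classical in
/-- The elements of `A` with nontrivial fixed points on `P`. -/
noncomputable def Bad (p : ℕ) [Fact p.Prime] (P : Sylow p G) (A : Subgroup G) : Finset G :=
  (Finset.univ.filter (· ∈ A)).filter (fun a => a ≠ 1 ∧ CI (P : Subgroup G) a ≠ ⊥)

open Classical in
theorem card_Bad_le (S : Setup p P A) (hA : MaxReg p A) :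
    p * (Bad p P A).card ≤ Nat.card A - 1 := by
  have h1 : (Bad p P A).biUnion (fun a => orb (normalizer (A : Set G)) a) ⊆
      (Finset.univ.filter (· ∈ A)).erase 1 := by
    intro z hz
    rw [Finset.mem_biUnion] at hz
    obtain ⟨a, ha, hz⟩ := hz
    simp only [Bad, Finset.mem_filter, Finset.mem_univ, true_and] at ha
    obtain ⟨n, hn, rfl⟩ := mem_orb.mp hz
    rw [Finset.mem_erase]
    constructor
    · intro h
      apply ha.2.1
      have e : a = n⁻¹ * (n * a * n⁻¹) * n := by group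
      rw [e, h]; group
    · simp only [Finset.mem_filter, Finset.mem_univ, true_and]
      exact conj_mem_of_mem_normalizer hn ha.1
  have h2 := Finset.card_le_card h1
  rw [Finset.card_biUnion, Finset.card_erase_of_mem (by simp [one_mem]), ← natCard_eq_filter] at h2
  · refine le_trans ?_ h2
    rw [mul_comm, ← smul_eq_mul]
    apply Finset.card_nsmul_le_sum
    intro a ha
    simp only [Bad, Finset.mem_filter, Finset.mem_univ, true_and] at ha
    exact S.card_orb_ge hA ha.1 ha.2.1
  · intro a ha b hb hab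
    rw [Function.onFun, Finset.disjoint_left]
    intro z hz hz2
    simp only [Bad, Finset.coe_filter, Finset.mem_filter, Finset.mem_univ, true_and, Set.mem_ofPred_eq] at ha hb
    obtain ⟨n, hn, rfl⟩ := mem_orb.mp hz
    obtain ⟨n', hn', hn2⟩ := mem_orb.mp hz2
    apply hab
    set w := n'⁻¹ * n with hw
    have hwN : w ∈ normalizer (A : Set G) := mul_mem (inv_mem hn') hn
    have e : b = w * a * w⁻¹ := by
      have : b = n'⁻¹ * (n' * b * n'⁻¹) * n' := by group
      rw [this, ← hn2, hw]; group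
    have h3 := S.eq_of_conj hA (inv_mem hwN) ha.1 ha.2.1 ha.2.2 (by
      have : (w⁻¹)⁻¹ * a * w⁻¹ = b := by rw [e]; group
      rw [this]; exact hb.2.2)
    have : (w⁻¹)⁻¹ * a * w⁻¹ = b := by rw [e]; group
    rw [← this, h3]

open Classical in
theorem sum_ge_of_bad (S : Setup p P A) :
    (Nat.card A : ℚ) - 1 - (Bad p P A).card ≤
      ∑ a ∈ Finset.univ.filter (· ∈ A), (1 : ℚ) / Nat.card (CI (P : Subgroup G) a) := by
  set Af := Finset.univ.filter (· ∈ A) with hAf
  set Good := (Af.erase 1) \ Bad p P A with hGood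
  have h1 : (Af.erase 1).card ≤ Good.card + (Bad p P A).card := Finset.card_le_card_sdiff_add_card
  rw [Finset.card_erase_of_mem (by simp [hAf, one_mem]), hAf, ← natCard_eq_filter] at h1
  have hpos : 1 ≤ Nat.card A := Nat.card_pos
  have h2 : (Nat.card A : ℚ) - 1 ≤ Good.card + (Bad p P A).card := by
    have : ((Nat.card A - 1 : ℕ) : ℚ) ≤ ((Good.card + (Bad p P A).card : ℕ) : ℚ) := by exact_mod_cast h1
    push_cast [Nat.cast_sub hpos] at this
    exact this
  have h3 : (Good.card : ℚ) ≤ ∑ a ∈ Af, (1 : ℚ) / Nat.card (CI (P : Subgroup G) a) := by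
    have hsub : Good ⊆ Af := fun x hx => Finset.mem_of_mem_erase (Finset.mem_sdiff.mp hx).1
    have h4 : ∑ a ∈ Good, (1 : ℚ) / Nat.card (CI (P : Subgroup G) a) = Good.card := by
      rw [Finset.sum_congr rfl (g := fun _ => (1 : ℚ))]
      · simp
      · intro a ha
        rw [hGood, Finset.mem_sdiff, Finset.mem_erase] at ha
        have hbot : CI (P : Subgroup G) a = ⊥ := by
          by_contra hne
          apply ha.2
          simp only [Bad, Finset.mem_filter, Finset.mem_univ, true_and]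
          refine ⟨?_, ha.1.1, hne⟩
          simpa [hAf] using ha.1.2
        rw [hbot]
        simp
    rw [← h4]
    apply Finset.sum_le_sum_of_subset_of_nonneg hsub
    intro a _ _
    positivity
  linarith

end Fin

/-- **The case `U = P`.** -/
theorem caseI (S : Setup p P A) (hU : UU p P A = (P : Subgroup G))
    (hs : 2 * (p - 1).primeFactors.card ≤ p - 1) : False := by
  classical
  letI := Fintype.ofFinite G
  have hA := S.maxReg_A hU
  have hp2 : 2 ≤ p := (Fact.out : p.Prime).two_le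
  -- a nontrivial element of `A`
  obtain ⟨a₁, ha₁, ha₁1⟩ : ∃ a ∈ A, a ≠ 1 := by
    by_contra hcon
    push Not at hcon
    apply S.not_central
    intro a ha u _
    rw [hcon a ha]; group
  have hcard := S.succ_le_card hA ha₁ ha₁1
  have hbad := S.card_Bad_le hA
  obtain ⟨DD, hDD, hcov⟩ := S.exists_family
  have hupper := S.rho_le hDD hcov p (Fact.out : p.Prime).pos (by
    intro q hq
    obtain ⟨hD, y, hy, hy1⟩ := hDD q hq
    have := S.card_normalizer_ge hD hy hy1 (Y := ⊥) IsPGroup.of_bot bot_le bot_le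
    simpa using this)
  rw [S.rho_eq] at hupper
  have hlower := S.sum_ge_of_bad
  have hAq : (0 : ℚ) < Nat.card A := by exact_mod_cast Nat.card_pos
  have hpq : (0 : ℚ) < p := by exact_mod_cast (Fact.out : p.Prime).pos
  have hQ : ((Qs p G).card : ℚ) ≤ (p - 1).primeFactors.card := by
    exact_mod_cast Finset.card_le_card S.Qs_subset
  set s := (p - 1).primeFactors.card with hsdef
  set b := (Bad p P A).card with hb
  set a := Nat.card A with ha
  -- the arithmetic
  have h1 : ((a : ℚ) - 1 - b) / a ≤ s / p := by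
    calc ((a : ℚ) - 1 - b) / a ≤ _ := div_le_div_of_nonneg_right hlower hAq.le
      _ ≤ _ := hupper
      _ ≤ _ := div_le_div_of_nonneg_right hQ hpq.le
  rw [div_le_div_iff₀ hAq hpq] at h1
  have h2 : (p : ℚ) * b ≤ a - 1 := by
    have : ((p * b : ℕ) : ℚ) ≤ ((a - 1 : ℕ) : ℚ) := by exact_mod_cast hbad
    have ha1 : 1 ≤ a := Nat.card_pos
    push_cast [Nat.cast_sub ha1] at this
    exact this
  have h3 : (2 : ℚ) * s ≤ p - 1 := by
    have : ((2 * s : ℕ) : ℚ) ≤ ((p - 1 : ℕ) : ℚ) := by exact_mod_cast hs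
    have hp1 : 1 ≤ p := (Fact.out : p.Prime).one_lt.le
    push_cast [Nat.cast_sub hp1] at this
    exact this
  have h4 : (p : ℚ) + 1 ≤ a := by exact_mod_cast hcard
  have h5 : (2 : ℚ) ≤ p := by exact_mod_cast hp2
  nlinarith [mul_nonneg (sub_nonneg.mpr h3) hAq.le, mul_nonneg (sub_nonneg.mpr h5) (sub_nonneg.mpr h4)]

end Setup

end Cfsg.Agent.Lib.PAbD
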