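import Mathlib
import Cfsg.Agent.Lib.PAbI

/-!
# Groups whose `p'`-subgroups are abelian: the case `U ≠ P`

`A/C_A(P)` is then cyclic; the generators have fixed points `C_P(A)`, and all normalizer quotients
`N(D)/D` have order at least `p |C_P(A)|`.
-/

set_option autoImplicit false
set_option linter.unusedSectionVars false
set_option linter.unusedVariables false
set_option linter.style.longLine false
set_option linter.style.haveILetI false

open Subgroup

namespace Cfsg.Agent.Lib.PAbD

universe u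

open Cfsg.Agent.Lib.CoprimeInv Cfsg.Agent.Lib.PAbA Cfsg.Agent.Lib.PAbB Cfsg.Agent.Lib.PAbC
open scoped commutatorElement

section Abstract

variable {X E : Type*} [Group X] [Group E] [Fintype X] [Fintype E] [DecidableEq E]

open Classical in
theorem card_fiber_eq (ψ : X →* E) (hψ : Function.Surjective ψ) (e : E) :
    (Finset.univ.filter (fun a => ψ a = e)).card = Fintype.card (ψ.ker) := by
  obtain ⟨x₀, rfl⟩ := hψ e
  symm
  apply Finset.card_bij (fun (k : ψ.ker) _ => x₀ * (k : X))
  · intro k _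
    simp only [Finset.mem_filter, Finset.mem_univ, true_and, map_mul]
    rw [MonoidHom.mem_ker.mp k.2, mul_one]
  · intro a _ b _ hab
    exact Subtype.ext (mul_left_cancel hab)
  · intro y hy
    simp only [Finset.mem_filter, Finset.mem_univ, true_and] at hy
    refine ⟨⟨x₀⁻¹ * y, by rw [MonoidHom.mem_ker, map_mul, map_inv, hy, inv_mul_cancel]⟩, Finset.mem_univ _, by simp⟩

open Classical in
theorem card_eq_mul_ker (ψ : X →* E) (hψ : Function.Surjective ψ) :
    Fintype.card X = Fintype.card E * Fintype.card (ψ.ker) := by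
  have h1 : ∀ x ∈ (Finset.univ : Finset X), ψ x ∈ (Finset.univ : Finset E) := fun _ _ => Finset.mem_univ _
  rw [← Finset.card_univ (α := X), Finset.card_eq_sum_card_fiberwise h1]
  rw [Finset.sum_congr rfl (fun e _ => card_fiber_eq ψ hψ e), Finset.sum_const, smul_eq_mul, Finset.card_univ]

open Classical in
theorem card_gen_eq [IsCyclic E] (ψ : X →* E) (hψ : Function.Surjective ψ) :
    (Finset.univ.filter (fun a => orderOf (ψ a) = Fintype.card E)).card =
      (Fintype.card E).totient * Fintype.card (ψ.ker) := by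
  have h1 : ∀ x ∈ Finset.univ.filter (fun a => orderOf (ψ a) = Fintype.card E),
      ψ x ∈ Finset.univ.filter (fun e : E => orderOf e = Fintype.card E) := by
    intro x hx
    simpa using hx
  rw [Finset.card_eq_sum_card_fiberwise h1]
  have h2 : ∀ e ∈ Finset.univ.filter (fun e : E => orderOf e = Fintype.card E),
      ((Finset.univ.filter (fun a => orderOf (ψ a) = Fintype.card E)).filter (fun a => ψ a = e)).card =
        Fintype.card (ψ.ker) := by
    intro e he
    simp only [Finset.mem_filter, Finset.mem_univ, true_and] at he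
    rw [← card_fiber_eq ψ hψ e]
    congr 1
    ext a
    simp only [Finset.mem_filter, Finset.mem_univ, true_and]
    constructor
    · exact fun h => h.2
    · intro h
      exact ⟨by rw [h]; exact he, h⟩
  rw [Finset.sum_congr rfl h2, Finset.sum_const, smul_eq_mul]
  congr 1
  have := IsCyclic.card_orderOf_eq_totient (α := E) (d := Fintype.card E) dvd_rfl
  convert this using 2

end Abstract

variable {G : Type u} [Group G] [Finite G] {p : ℕ} [Fact p.Prime]

theorem card_normalizer_cj (D : Subgroup G) (g : G) :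
    Nat.card (normalizer (cj D g : Set G)) = Nat.card (normalizer (D : Set G)) := by
  have key : ∀ (K : Subgroup G) (h : G), Nat.card (normalizer (K : Set G)) ≤ Nat.card (normalizer (cj K h : Set G)) := by
    intro K h
    rw [← card_cj (normalizer (K : Set G)) h]
    exact Nat.card_le_card_of_injective _ (Subgroup.inclusion_injective (normalizer_cj_of_le le_rfl))
  apply le_antisymm
  · have := key (cj D g) g⁻¹
    rwa [cj_cj_inv] at this
  · exact key D g

namespace Setup

variable {P : Sylow p G} {A : Subgroup G}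

local notation "M" => normalizer ((P : Subgroup G) : Set G)

/-- The fixed points of `A` on `P` normalize the maximal `p'`-subgroup through `A`. -/
theorem le_normalizer_D₁ (S : Setup p P A) {a₀ : G} (ha₀ : a₀ ∈ A) (ha₀1 : a₀ ≠ 1)
    (hfix : CI (P : Subgroup G) a₀ ≤ centralizer (A : Set G)) {D₁ : Subgroup G} (hD₁ : MaxReg p D₁)
    (hAD : A ≤ D₁) : CI (P : Subgroup G) a₀ ≤ normalizer (D₁ : Set G) := by
  by_cases hY : CI (P : Subgroup G) a₀ = ⊥
  · rw [hY]; exact bot_le
  set K := centralizer ({a₀} : Set G) with hK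
  obtain ⟨S₀, hS₀⟩ := exists_core S.hy K (S.solv _ (S.centralizer_ne_top ha₀1))
  have h1 := S.core_le_CI (S.A_le_M ha₀) hS₀ hY
  have hS₀P : S₀ ≤ (P : Subgroup G) := h1.trans inf_le_left
  have hcomm : ∀ x ∈ K, Reg p x → ∀ s ∈ S₀, x * s = s * x := by
    intro d hd hr s hs
    have hdN := hS₀.le_normalizer hd
    obtain ⟨m, hm, hm2⟩ := S.ctrl (S₀ : Set G) hS₀P d (fun r hr' => hS₀P (inv_conj_mem_of_mem_normalizer hdN hr'))
    obtain ⟨a₁, ha₁, u, hu, rfl⟩ := S.exists_mul hm
    have h2 : ∀ r ∈ S₀, u⁻¹ * r * u = d⁻¹ * r * d := by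
      intro r hr'
      rw [← hm2 r hr']
      have h3 : r * a₁ = a₁ * r := (mem_centralizer_iff.mp (hfix (h1 hr')) a₁ ha₁).symm
      calc u⁻¹ * r * u = u⁻¹ * (a₁⁻¹ * (a₁ * r)) * u := by group
        _ = u⁻¹ * (a₁⁻¹ * (r * a₁)) * u := by rw [h3]
        _ = (a₁ * u)⁻¹ * r * (a₁ * u) := by group
    obtain ⟨h3, -⟩ := reg_pelt_same_action hr (pelt_of_mem P.2 hu) hdN h2
    exact (mem_centralizer_iff.mp h3 s hs).symm
  obtain ⟨Θ, hΘc, hΘ⟩ := hS₀.exists_regular_subgroup hcomm
  have hD₁K : D₁ ≤ K := S.le_centralizer_of_mem hD₁.cop (hAD ha₀)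
  have hD₁Θ : D₁ ≤ Θ := fun d hd => (hΘ d).mpr ⟨hD₁K hd, hD₁.reg hd⟩
  have hEq := hD₁.max Θ hΘc hD₁Θ
  intro y hy
  have hyK : y ∈ K := hy.2
  rw [← hEq]
  have key : ∀ g ∈ K, ∀ x ∈ Θ, g * x * g⁻¹ ∈ Θ := by
    intro g hg x hx
    obtain ⟨h3, h4⟩ := (hΘ x).mp hx
    exact (hΘ _).mpr ⟨mul_mem (mul_mem hg h3) (inv_mem hg), h4.conj g⟩
  exact mem_normalizer_of_conj (key y hyK) (fun x hx => by simpa using key y⁻¹ (inv_mem hyK) x hx)

/-- Regular elements commuting with a nontrivial element of a maximal `p'`-subgroup `D` whose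
elements have orders prime to `|N(P)|` lie in `D`. -/
theorem reg_mem_of_coprime (S : Setup p P A) {D : Subgroup G} (hD : MaxReg p D)
    (hcop : ∀ d ∈ D, (orderOf d).Coprime (Nat.card M)) {y : G} (hy : y ∈ D) (hy1 : y ≠ 1) {x : G}
    (hx : x * y = y * x) (hr : Reg p x) : x ∈ D := by
  set X := centralizer ({y} : Set G) with hX
  obtain ⟨S₀, hS₀⟩ := exists_core S.hy X (S.solv _ (S.centralizer_ne_top hy1))
  have hDX : D ≤ X := S.le_centralizer_of_mem hD.cop hy
  -- `D` centralizes `S₀`
  obtain ⟨g, hg⟩ := exists_conj_le P hS₀.isP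
  have hRP : cj S₀ g⁻¹ ≤ (P : Subgroup G) := by
    rintro _ ⟨s, hs, rfl⟩
    have := hg s hs
    simpa using this
  have hDS : ∀ d ∈ D, ∀ s ∈ S₀, d * s = s * d := by
    intro d hd s hs
    have h1 : g⁻¹ * d * g ∈ normalizer (cj S₀ g⁻¹ : Set G) := by
      have := normalizer_cj_of_le (K := S₀) (P := normalizer (S₀ : Set G)) (g := g⁻¹) le_rfl
      apply this
      exact ⟨d, hS₀.le_normalizer (hDX hd), by simp⟩
    have h2 : (orderOf (g⁻¹ * d * g)).Coprime (Nat.card M) := by
      have e : orderOf (g⁻¹ * d * g) = orderOf d := by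
        have := (MulAut.conj g⁻¹).orderOf_eq d
        simpa using this
      rw [e]; exact hcop d hd
    have h3 := S.ctrl_coprime hRP h1 h2
    have h4 : g⁻¹ * s * g ∈ cj S₀ g⁻¹ := by
      rw [mem_cj]; simpa [mul_assoc] using hs
    have h5 := mem_centralizer_iff.mp h3 _ h4
    have h6 : g⁻¹ * (s * d) * g = g⁻¹ * (d * s) * g := by
      calc g⁻¹ * (s * d) * g = g⁻¹ * s * g * (g⁻¹ * d * g) := by group
        _ = g⁻¹ * d * g * (g⁻¹ * s * g) := h5
        _ = g⁻¹ * (d * s) * g := by group
    have h7 := mul_right_cancel h6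
    exact (mul_left_cancel h7).symm
  -- a maximal `p'`-subgroup through `x, y`
  have hxN : x ∈ normalizer ((zpowers y : Subgroup G) : Set G) := by
    apply centralizer_le_normalizer'
    rw [mem_centralizer_iff]
    rintro _ ⟨n, rfl⟩
    exact (show Commute x y from hx).symm.zpow_left n |>.eq
  have hyr : Reg p y := hD.reg hy
  have hL := card_sup_zpowers_coprime (N := zpowers y) hyr.card_zpowers hxN hr
  obtain ⟨D₂, hD₂, hle⟩ := exists_maxReg_ge hL
  have hyD₂ : y ∈ D₂ := hle (mem_sup_right (mem_zpowers y))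
  have hxD₂ : x ∈ D₂ := hle (mem_sup_left (mem_zpowers x))
  have hD₂X : D₂ ≤ X := S.le_centralizer_of_mem hD₂.cop hyD₂
  obtain ⟨s, hs, hss⟩ := hS₀.exists_conj_maxReg hD hDX hD₂ hD₂X
  rw [hss, mem_cj] at hxD₂
  have h8 := hDS _ hxD₂ s hs
  have h9 : x = s⁻¹ * x * s := by
    calc x = s * (s⁻¹ * x * s) * s⁻¹ := by group
      _ = (s⁻¹ * x * s) * s * s⁻¹ := by rw [h8]
      _ = s⁻¹ * x * s := by group
  rw [h9]
  exact hxD₂

/-- Trivial intersection. -/
theorem mem_normalizer_of_meet (S : Setup p P A) {D : Subgroup G} (hD : MaxReg p D)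
    (hcop : ∀ d ∈ D, (orderOf d).Coprime (Nat.card M)) {y : G} (hy : y ∈ D) (hy1 : y ≠ 1) {g : G}
    (hg : y ∈ cj D g) : g ∈ normalizer (D : Set G) := by
  have hc : (Nat.card (cj D g)).Coprime p := by rw [card_cj]; exact hD.cop
  have hle : cj D g ≤ D := by
    intro z hz
    exact S.reg_mem_of_coprime hD hcop hy hy1 (S.comm_of_cop hc hz hg) (reg_of_mem_of_coprime hc hz)
  have h2 : cj D g = D := Subgroup.eq_of_le_of_card_ge hle (by rw [card_cj])
  exact mem_normalizer_of_cj_eq h2

/-- Lower bound for the proportion of regular elements from a TI maximal `p'`-subgroup. -/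
theorem le_rho_of_TI (S : Setup p P A) {D : Subgroup G} (hD : MaxReg p D)
    (hcop : ∀ d ∈ D, (orderOf d).Coprime (Nat.card M)) :
    Nat.card G * (Nat.card D - 1) ≤ Nat.card (normalizer (D : Set G)) * nreg p (⊤ : Subgroup G) := by
  classical
  letI := Fintype.ofFinite G
  have h1 := le_card_conjUnion_mul (D := D) (fun y hy hy1 g hg => S.mem_normalizer_of_meet hD hcop hy hy1 hg)
  refine h1.trans (Nat.mul_le_mul_left _ ?_)
  rw [nreg_eq_filter]
  apply Finset.card_le_card
  intro x hx
  simp only [conjUnion, Finset.mem_filter, Finset.mem_univ, true_and] at hx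
  simp only [Finset.mem_filter, Finset.mem_univ, true_and, mem_top]
  obtain ⟨-, g, hg⟩ := hx
  have hc : (Nat.card (cj D g)).Coprime p := by rw [card_cj]; exact hD.cop
  exact reg_of_mem_of_coprime hc hg

/-- Orders of elements of a maximal `p'`-subgroup not conjugate to the one through `A` are prime
to `|N(P)|`. -/
theorem coprime_of_not_conj (S : Setup p P A) {D D₁ : Subgroup G} (hD : MaxReg p D) (hD₁ : MaxReg p D₁)
    (hAD : A ≤ D₁) (hne : ¬ ∃ g : G, D = cj D₁ g) : ∀ d ∈ D, (orderOf d).Coprime (Nat.card M) := by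
  intro d hd
  rw [S.card_M]
  have hr : Reg p d := hD.reg hd
  apply Nat.Coprime.mul_right
  · apply Nat.coprime_of_dvd
    intro r hr1 hr2 hr3
    haveI : Fact r.Prime := ⟨hr1⟩
    obtain ⟨z, hz⟩ := exists_prime_orderOf_dvd_card' (G := A) r hr3
    have hz' : orderOf (z : G) = r := by rw [Subgroup.orderOf_coe]; exact hz
    have hd' : orderOf (d ^ (orderOf d / r)) = r := orderOf_pow_orderOf_div (orderOf_pos d).ne' hr2
    apply hne
    exact S.conj_of_same_prime hD₁ hD (hAD z.2) (pow_mem hd _) hz' hd'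
  · obtain ⟨k, hk⟩ := IsPGroup.iff_card.mp P.2
    rw [hk]
    exact Nat.Coprime.pow_right k hr

end Setup

theorem arith_II {m c n P' p : ℚ} (hm : p + 1 ≤ m) (hp : 2 ≤ p) (hc : 0 < c) (hn1 : 1 ≤ n) (hnp : n ≤ p - 1)
    (hP : p * c ≤ P') (h : (m - 1) / (c * m) ≤ 1 / (n * P') + (1 - 1 / n) / c) : False := by
  have hn0 : 0 < n := by linarith
  have hp0 : 0 < p := by linarith
  have hm0 : 0 < m := by linarith
  have hpc : 0 < p * c := by positivity
  have h1 : 1 / (n * P') ≤ 1 / (n * (p * c)) := by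
    apply one_div_le_one_div_of_le (by positivity)
    exact mul_le_mul_of_nonneg_left hP hn0.le
  have h2 : (m - 1) / (c * m) ≤ 1 / (n * (p * c)) + (1 - 1 / n) / c := h.trans (by linarith)
  have h3 : 1 / (n * (p * c)) + (1 - 1 / n) / c = (1 + (n - 1) * p) / (n * p * c) := by
    field_simp
  rw [h3, div_le_div_iff₀ (by positivity) (by positivity)] at h2
  have h4 : c * ((m - 1) * (n * p)) ≤ c * ((1 + (n - 1) * p) * m) := by nlinarith
  have h5 := le_of_mul_le_mul_left h4 hc
  have h6 : m * (p - 1) ≤ n * p := by nlinarith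
  have h7 : n * p ≤ (p - 1) * p := mul_le_mul_of_nonneg_right hnp hp0.le
  have h8 : (p - 1) * m ≤ (p - 1) * p := by nlinarith
  have h9 : 0 < p - 1 := by linarith
  have h10 := le_of_mul_le_mul_left h8 h9
  linarith

namespace Setup

variable {P : Sylow p G} {A : Subgroup G}

local notation "M" => normalizer ((P : Subgroup G) : Set G)

/-- **The case `U ≠ P`.** -/
theorem caseII (S : Setup p P A) (hU : UU p P A ≠ (P : Subgroup G))
    (hnt : (p - 1).primeFactors.card * ((p - 1).primeFactors.card + 1) < p)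
    (hnt2 : ∀ n : ℕ, n ∣ p - 1 → n ≤ ((p - 1).primeFactors.card + 1) * n.totient) : False := by
  classical
  letI := Fintype.ofFinite G
  obtain ⟨E, _, _, _, ψ, hψ, hker⟩ := S.exists_cyclic hU
  letI : Fintype E := Fintype.ofFinite E
  letI : Fintype A := Fintype.ofFinite A
  have hp2 : 2 ≤ p := (Fact.out : p.Prime).two_le
  set s := (p - 1).primeFactors.card with hsdef
  set n := Fintype.card E with hn
  set k := Fintype.card ψ.ker with hk
  have hAcard : Nat.card A = n * k := by
    rw [Nat.card_eq_fintype_card]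
    exact card_eq_mul_ker ψ hψ
  have hkpos : 0 < k := Fintype.card_pos
  have hnpos : 0 < n := Fintype.card_pos
  obtain ⟨g₀, hg₀⟩ := IsCyclic.exists_generator (α := E)
  obtain ⟨a₀, rfl⟩ := hψ g₀
  have hgen : ∀ a : A, orderOf (ψ a) = n → ∀ e : E, e ∈ zpowers (ψ a) := by
    intro a ha e
    have h1 : zpowers (ψ a) = ⊤ := by
      apply Subgroup.eq_top_of_card_eq
      rw [Nat.card_zpowers, ha, hn, Nat.card_eq_fintype_card]
    rw [h1]; trivial
  have hoa₀ : orderOf (ψ a₀) = n := by
    rw [orderOf_eq_card_of_forall_mem_zpowers hg₀, Nat.card_eq_fintype_card]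
  have hn_dvd : n ∣ p - 1 := by
    rw [← hoa₀]
    apply orderOf_dvd_of_pow_eq_one
    rw [← map_pow]
    have h1 := (S.hy A S.hA_cop).2 a₀ a₀.2
    have h2 : a₀ ^ (p - 1) = 1 := by
      apply Subtype.ext
      simpa using h1
    rw [h2, map_one]
  have hn1 : 1 < n := by
    by_contra hcon
    have hn1' : n = 1 := by omega
    apply S.not_central
    intro a ha u hu
    have h1 : ψ ⟨a, ha⟩ = 1 := by
      have : Subsingleton E := Fintype.card_le_one_iff_subsingleton.mp hn1'.le
      exact Subsingleton.elim _ _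
    have h2 := (hker ⟨a, ha⟩).mp h1
    exact (mem_centralizer_iff.mp h2 u hu).symm
  have hnle : n ≤ p - 1 := Nat.le_of_dvd (by omega) hn_dvd
  -- fixed points
  set Pfix : Subgroup G := (P : Subgroup G) ⊓ centralizer (A : Set G) with hPfix
  have hCIgen : ∀ a : A, orderOf (ψ a) = n → CI (P : Subgroup G) (a : G) = Pfix := by
    intro a ha
    apply le_antisymm
    · intro u hu
      obtain ⟨hu1, hu2⟩ := mem_CI.mp hu
      refine mem_inf.mpr ⟨hu1, ?_⟩
      rw [mem_centralizer_iff]
      intro b hb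
      obtain ⟨j, hj⟩ := hgen a ha (ψ ⟨b, hb⟩)
      have hj' : ψ a ^ j = ψ ⟨b, hb⟩ := hj
      have h1 : ψ ((a ^ j)⁻¹ * ⟨b, hb⟩) = 1 := by
        rw [map_mul, map_inv, map_zpow, hj']; group
      have h2 := (hker _).mp h1
      have h3 : ((a : G) ^ j)⁻¹ * b ∈ centralizer ((P : Subgroup G) : Set G) := by simpa using h2
      have h4 : u * ((a : G) ^ j)⁻¹ * b = ((a : G) ^ j)⁻¹ * b * u ∨ True := Or.inr trivial
      have h5 : Commute u ((a : G) ^ j) := (show Commute u (a : G) from hu2).zpow_right j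
      have h6 : Commute u (((a : G) ^ j)⁻¹ * b) := (mem_centralizer_iff.mp h3 u hu1)
      have e : b = (a : G) ^ j * (((a : G) ^ j)⁻¹ * b) := by group
      have h7 : Commute u b := by
        rw [e]
        exact h5.mul_right h6
      exact h7.symm.eq
    · intro u hu
      exact mem_CI.mpr ⟨hu.1, (mem_centralizer_iff.mp hu.2 _ a.2).symm⟩
  have ha₀1 : (a₀ : G) ≠ 1 := by
    intro h
    have h1 : a₀ = 1 := Subtype.ext h
    rw [h1, map_one, orderOf_one] at hoa₀
    omega
  have hCIa₀ := hCIgen a₀ hoa₀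
  have hPfixC : Pfix ≤ centralizer ({(a₀ : G)} : Set G) := by
    rw [← hCIa₀]; exact inf_le_right
  have hPfixp : IsPGroup p Pfix := P.2.to_le inf_le_left
  set c₀ := Nat.card Pfix with hc₀
  have hc₀pos : 0 < c₀ := Nat.card_pos
  have hc₀q : (0 : ℚ) < c₀ := by exact_mod_cast hc₀pos
  -- the maximal `p'`-subgroup through `A`
  obtain ⟨D₁, hD₁, hAD⟩ := exists_maxReg_ge S.hA_cop
  have hbound₁ : p * c₀ * Nat.card D₁ ≤ Nat.card (normalizer (D₁ : Set G)) := by
    apply S.card_normalizer_ge hD₁ (hAD a₀.2) ha₀1 hPfixp _ hPfixC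
    rw [← hCIa₀]
    exact S.le_normalizer_D₁ a₀.2 ha₀1 (by rw [hCIa₀]; exact inf_le_right) hD₁ hAD
  -- the sum over `A`
  have hsum : ∑ a ∈ Finset.univ.filter (· ∈ A), (1 : ℚ) / Nat.card (CI (P : Subgroup G) a) =
      ∑ a : A, (1 : ℚ) / Nat.card (CI (P : Subgroup G) (a : G)) := by
    apply Finset.sum_subtype
    simp
  have hrho := S.rho_eq
  rw [hsum] at hrho
  have hAq : (0 : ℚ) < Nat.card A := by exact_mod_cast Nat.card_pos
  have hnq : (0 : ℚ) < n := by exact_mod_cast hnpos
  have hkq : (0 : ℚ) < k := by exact_mod_cast hkpos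
  have hPq : (0 : ℚ) < Nat.card (P : Subgroup G) := by exact_mod_cast Nat.card_pos
  -- lower bound
  have hlower : ((n.totient : ℚ)) / (n * c₀) ≤ (nreg p (⊤ : Subgroup G) : ℚ) / Nat.card G := by
    rw [hrho]
    have h1 : ((Finset.univ.filter (fun a : A => orderOf (ψ a) = n)).card : ℚ) / c₀ ≤
        ∑ a : A, (1 : ℚ) / Nat.card (CI (P : Subgroup G) (a : G)) := by
      have h2 : ∑ a ∈ Finset.univ.filter (fun a : A => orderOf (ψ a) = n),
          (1 : ℚ) / Nat.card (CI (P : Subgroup G) (a : G)) =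
          ((Finset.univ.filter (fun a : A => orderOf (ψ a) = n)).card : ℚ) / c₀ := by
        rw [Finset.sum_congr rfl (g := fun _ => (1 : ℚ) / c₀)]
        · rw [Finset.sum_const, nsmul_eq_mul]; ring
        · intro a ha
          rw [hCIgen a (by simpa using ha)]
      rw [← h2]
      apply Finset.sum_le_sum_of_subset_of_nonneg (Finset.filter_subset _ _)
      intro a _ _
      positivity
    have h3 := card_gen_eq ψ hψ
    have h4 : ((Finset.univ.filter (fun a : A => orderOf (ψ a) = n)).card : ℚ) = n.totient * k := by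
      exact_mod_cast h3
    rw [h4] at h1
    rw [le_div_iff₀ hAq]
    have h5 : (n.totient : ℚ) / (n * c₀) * Nat.card A = n.totient * k / c₀ := by
      rw [hAcard]; push_cast; field_simp
    rw [h5]
    exact h1
  -- upper bound
  have hupper : (nreg p (⊤ : Subgroup G) : ℚ) / Nat.card G ≤
      1 / (n * Nat.card (P : Subgroup G)) + (1 - 1 / n) / c₀ := by
    rw [hrho]
    have h1 : ∑ a : A, (1 : ℚ) / Nat.card (CI (P : Subgroup G) (a : G)) ≤
        ∑ a : A, (if ψ a = 1 then (1 : ℚ) / Nat.card (P : Subgroup G) else 1 / c₀) := by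
      apply Finset.sum_le_sum
      intro a _
      split_ifs with h
      · have h2 := (hker a).mp h
        have h3 : CI (P : Subgroup G) (a : G) = (P : Subgroup G) := by
          apply inf_eq_left.mpr
          intro u hu
          rw [mem_centralizer_singleton_iff]
          exact (mem_centralizer_iff.mp h2 u hu)
        rw [h3]
      · apply one_div_le_one_div_of_le hc₀q
        have h2 : Pfix ≤ CI (P : Subgroup G) (a : G) := by
          intro u hu
          exact mem_CI.mpr ⟨hu.1, (mem_centralizer_iff.mp hu.2 _ a.2).symm⟩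
        exact_mod_cast Nat.card_le_card_of_injective _ (Subgroup.inclusion_injective h2)
    have h2 : ∑ a : A, (if ψ a = 1 then (1 : ℚ) / Nat.card (P : Subgroup G) else 1 / c₀) =
        k * (1 / Nat.card (P : Subgroup G)) + (n * k - k) * (1 / c₀) := by
      rw [Finset.sum_ite, Finset.sum_const, Finset.sum_const, nsmul_eq_mul, nsmul_eq_mul]
      have h3 : (Finset.univ.filter (fun a : A => ψ a = 1)).card = k := card_fiber_eq ψ hψ 1
      have h4 : (Finset.univ.filter (fun a : A => ¬ ψ a = 1)).card + k = n * k := by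
        rw [← h3, add_comm, Finset.card_filter_add_card_filter_not]
        rw [Finset.card_univ, ← Nat.card_eq_fintype_card, hAcard, h3]
      have h5 : ((Finset.univ.filter (fun a : A => ¬ ψ a = 1)).card : ℚ) = n * k - k := by
        have : ((Finset.univ.filter (fun a : A => ¬ ψ a = 1)).card : ℚ) + k = n * k := by
          exact_mod_cast h4
        linarith
      rw [h3, h5]
    rw [h2] at h1
    rw [div_le_iff₀ hAq]
    refine h1.trans (le_of_eq ?_)
    rw [hAcard]
    push_cast
    field_simp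
  -- the fixed points are a proper subgroup of `P`
  have hPP : p * c₀ ≤ Nat.card (P : Subgroup G) := by
    have hle : Pfix ≤ (P : Subgroup G) := inf_le_left
    have hne : Pfix ≠ (P : Subgroup G) := by
      intro h
      apply S.not_central
      intro a ha u hu
      rw [← h] at hu
      exact (mem_centralizer_iff.mp hu.2 a ha)
    have h1 : Pfix.relIndex (P : Subgroup G) * c₀ = Nat.card (P : Subgroup G) :=
      Cfsg.Agent.Lib.Coprime.relIndex_mul_card_of_le hle
    obtain ⟨t, ht⟩ := IsPGroup.iff_card.mp P.2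
    have h2 : Pfix.relIndex (P : Subgroup G) ∣ p ^ t := ⟨c₀, by rw [← ht, h1]⟩
    obtain ⟨i, -, hi⟩ := (Nat.dvd_prime_pow (Fact.out : p.Prime)).mp h2
    rw [← h1, hi]
    rcases i with _ | i
    · exfalso
      rw [pow_zero] at hi
      exact hne (le_antisymm hle (Subgroup.relIndex_eq_one.mp hi))
    · apply Nat.mul_le_mul_right
      calc p = p ^ 1 := (pow_one p).symm
        _ ≤ p ^ (i + 1) := Nat.pow_le_pow_right (Fact.out : p.Prime).pos (by omega)
  -- the normalizer bound for all maximal `p'`-subgroups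
  obtain ⟨DD, hDD, hcov⟩ := S.exists_family
  obtain ⟨i, hi⟩ : ∃ i, c₀ = p ^ i := IsPGroup.iff_card.mp hPfixp
  have hbound : ∀ q ∈ Qs p G, (p * c₀) * Nat.card (DD q) ≤ Nat.card (normalizer (DD q : Set G)) := by
    intro q hq
    obtain ⟨hD, y, hy, hy1⟩ := hDD q hq
    by_cases hconj : ∃ g : G, DD q = cj D₁ g
    · obtain ⟨g, hg⟩ := hconj
      rw [hg, card_cj, card_normalizer_cj]
      exact hbound₁
    · have hcop := S.coprime_of_not_conj hD hD₁ hAD hconj
      have hti := S.le_rho_of_TI hD hcop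
      set m := Nat.card (DD q) with hm
      have hmp : p + 1 ≤ m := S.succ_le_card hD hy hy1
      obtain ⟨j, hj⟩ := index_normalizer_eq_pow hD
      have hNcard : p ^ j * m = Nat.card (normalizer (DD q : Set G)) := by
        rw [← hj]
        exact Cfsg.Agent.Lib.Coprime.relIndex_mul_card_of_le le_normalizer
      rw [← hNcard]
      by_contra hcon
      push Not at hcon
      have hmpos : 0 < m := by omega
      have h1 : p ^ j < p * c₀ := Nat.lt_of_mul_lt_mul_right hcon
      have h2 : p ^ j < p ^ (i + 1) := by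
        rw [pow_succ', ← hi]; exact h1
      have h3 : j < i + 1 := (Nat.pow_lt_pow_iff_right (Fact.out : p.Prime).one_lt).mp h2
      have h4 : p ^ j ≤ c₀ := by
        rw [hi]; exact Nat.pow_le_pow_right (Fact.out : p.Prime).pos (by omega)
      have hmq : (0 : ℚ) < m := by exact_mod_cast hmpos
      have hGq : (0 : ℚ) < Nat.card G := by exact_mod_cast Nat.card_pos
      have hm1 : ((m - 1 : ℕ) : ℚ) = (m : ℚ) - 1 := by
        rw [Nat.cast_sub (by omega)]; simp
      have h5 : ((m : ℚ) - 1) / (c₀ * m) ≤ (nreg p (⊤ : Subgroup G) : ℚ) / Nat.card G := by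
        rw [div_le_div_iff₀ (by positivity) hGq]
        have h6 : ((Nat.card G * (m - 1) : ℕ) : ℚ) ≤ ((p ^ j * m * nreg p (⊤ : Subgroup G) : ℕ) : ℚ) := by
          rw [hNcard]; exact_mod_cast hti
        have h7 : ((p ^ j * m * nreg p (⊤ : Subgroup G) : ℕ) : ℚ) ≤ ((c₀ * m * nreg p (⊤ : Subgroup G) : ℕ) : ℚ) := by
          exact_mod_cast Nat.mul_le_mul_right _ (Nat.mul_le_mul_right _ h4)
        have h8 := h6.trans h7
        push_cast at h8
        rw [hm1] at h8
        nlinarith
      refine arith_II (m := m) (c := c₀) (n := n) (P' := Nat.card (P : Subgroup G)) (p := p)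
        (by exact_mod_cast hmp) (by exact_mod_cast hp2) hc₀q (by exact_mod_cast hnpos)
        ?_ (by exact_mod_cast hPP) (h5.trans hupper)
      have : ((n + 1 : ℕ) : ℚ) ≤ (p : ℚ) := by exact_mod_cast (show n + 1 ≤ p by omega)
      push_cast at this
      linarith
  -- conclusion
  have hE := S.rho_le hDD hcov (p * c₀) (Nat.mul_pos (Fact.out : p.Prime).pos hc₀pos) hbound
  have hQs : (Qs p G).card ≤ s := Finset.card_le_card S.Qs_subset
  have hpq : (0 : ℚ) < p := by exact_mod_cast (Fact.out : p.Prime).pos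
  have h1 : (n.totient : ℚ) / (n * c₀) ≤ (s : ℚ) / ((p * c₀ : ℕ) : ℚ) := by
    refine hlower.trans (hE.trans ?_)
    apply div_le_div_of_nonneg_right _ (by positivity)
    exact_mod_cast hQs
  push_cast at h1
  rw [div_le_div_iff₀ (by positivity) (by positivity)] at h1
  have h2 : (n.totient : ℚ) * p ≤ s * n := by
    have h3 : c₀ * ((n.totient : ℚ) * p) ≤ c₀ * (s * n) := by nlinarith
    exact le_of_mul_le_mul_left h3 hc₀q
  have h3 : n.totient * p ≤ s * n := by exact_mod_cast h2
  have h4 := hnt2 n hn_dvd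
  have h5 : n.totient * p ≤ n.totient * (s * (s + 1)) := by
    calc n.totient * p ≤ s * n := h3
      _ ≤ s * ((s + 1) * n.totient) := Nat.mul_le_mul_left _ h4
      _ = n.totient * (s * (s + 1)) := by ring
  have h6 : 0 < n.totient := Nat.totient_pos.mpr hnpos
  have h7 := Nat.le_of_mul_le_mul_left h5 h6
  omega

end Setup

end Cfsg.Agent.Lib.PAbD
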