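import Mathlib
import Cfsg.Agent.Lib.OrthRealize

/-!
# Polynomial tools for the prime graph comparison of `B_n(q)` and `C_n(q)`
-/

set_option autoImplicit false
set_option linter.unusedSectionVars false
set_option linter.unusedVariables false

namespace Cfsg.Agent.Lib.PGBC1

open Polynomial Module QuadraticMap
open Cfsg.Agent.Lib.PrimeFactors Cfsg.Agent.Lib.DualFactors Cfsg.Agent.Lib.SemisimpleGL Cfsg.Agent.Lib.SpRealize
open Cfsg.Agent.Lib.QuadFF Cfsg.Agent.Lib.OrthoBasic Cfsg.Agent.Lib.OrthoCount Cfsg.Agent.Lib.QuadClass Cfsg.Agent.Lib.OrthRealize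

universe u

section poly

variable {F : Type u} [Field F]

theorem eval_reverse_mul (f : F[X]) {x : F} (hx : x ≠ 0) : f.reverse.eval x⁻¹ * x ^ f.natDegree = f.eval x := by
  letI : Invertible x := invertibleOfNonzero hx
  have h := Polynomial.eval₂_reverse_mul_pow (RingHom.id F) x f
  rw [invOf_eq_inv] at h
  exact h

theorem dl_id_apply' (f : F[X]) : Dl (RingHom.id F) f = C (f.coeff 0)⁻¹ * f.reverse := by
  unfold Dl
  simp

theorem eval_Dl (f : F[X]) {x : F} (hx : x ≠ 0) :
    (Dl (RingHom.id F) f).eval x⁻¹ * x ^ f.natDegree = (f.coeff 0)⁻¹ * f.eval x := by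
  rw [dl_id_apply', eval_mul, eval_C, mul_assoc, eval_reverse_mul f hx]

/-- Self-dual monic polynomials without the roots `±1`. -/
structure SDP (f : F[X]) : Prop where
  monic : f.Monic
  dual : Dl (RingHom.id F) f = f
  ev1 : f.eval 1 ≠ 0
  evm : f.eval (-1) ≠ 0

theorem SDP.coeff_zero {f : F[X]} (h : SDP f) : f.coeff 0 = 1 := by
  have h1 := eval_Dl f (one_ne_zero (α := F))
  rw [h.dual, inv_one, one_pow, mul_one] at h1
  have h2 : (f.coeff 0)⁻¹ = 1 := by
    have h3 : ((f.coeff 0)⁻¹ - 1) * f.eval 1 = 0 := by linear_combination -h1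
    exact sub_eq_zero.1 ((mul_eq_zero.1 h3).resolve_right h.ev1)
  have h4 := congrArg (fun x => x⁻¹) h2
  simpa using h4

theorem SDP.even {f : F[X]} (h : SDP f) (h2 : (2 : F) ≠ 0) : Even f.natDegree := by
  have hne : (-1 : F) ≠ 0 := neg_ne_zero.2 one_ne_zero
  have h1 := eval_Dl f hne
  rw [h.dual, h.coeff_zero, inv_one, one_mul] at h1
  have e : (-1 : F)⁻¹ = -1 := by simp
  rw [e] at h1
  have h3 : (-1 : F) ^ f.natDegree = 1 := by
    have h4 : f.eval (-1) * ((-1 : F) ^ f.natDegree - 1) = 0 := by linear_combination h1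
    exact sub_eq_zero.1 ((mul_eq_zero.1 h4).resolve_left h.evm)
  rcases Nat.even_or_odd f.natDegree with he | ho
  · exact he
  · exfalso
    rw [ho.neg_one_pow] at h3
    apply h2
    linear_combination -h3

theorem SDP.reverse {f : F[X]} (h : SDP f) : f.reverse = f := by
  have h1 := h.dual
  rw [dl_id_apply', h.coeff_zero, inv_one, C_1, one_mul] at h1
  exact h1

theorem SDP.mul {f g : F[X]} (hf : SDP f) (hg : SDP g) : SDP (f * g) := by
  refine ⟨hf.monic.mul hg.monic, ?_, ?_, ?_⟩
  · rw [Dl_mul, hf.dual, hg.dual]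
  · rw [eval_mul]
    exact mul_ne_zero hf.ev1 hg.ev1
  · rw [eval_mul]
    exact mul_ne_zero hf.evm hg.evm

/-- The dual of `X^d + 1`. -/
theorem Dl_X_pow_add_one {d : ℕ} (hd : d ≠ 0) : Dl (RingHom.id F) (X ^ d + 1 : F[X]) = X ^ d + 1 := by
  have h1 := Dl_X_pow_sub_one (σ := RingHom.id F) (F := F) (r := 2 * d) (by omega) rfl
  have h2 := Dl_X_pow_sub_one (σ := RingHom.id F) (F := F) (r := d) hd rfl
  have e : (X ^ (2 * d) - 1 : F[X]) = (X ^ d - 1) * (X ^ d + 1) := by ring
  rw [e, Dl_mul, h2] at h1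
  have hne : (X ^ d - 1 : F[X]) ≠ 0 := by
    have := X_pow_sub_C_ne_zero (R := F) (Nat.pos_of_ne_zero hd) (1 : F)
    simpa using this
  exact mul_left_cancel₀ hne h1

theorem Dl_X_add_one : Dl (RingHom.id F) (X + 1 : F[X]) = X + 1 := by
  have h := Dl_X_pow_add_one (F := F) (d := 1) one_ne_zero
  simpa using h

theorem Dl_pow (f : F[X]) (k : ℕ) : Dl (RingHom.id F) (f ^ k) = (Dl (RingHom.id F) f) ^ k := by
  have := map_pow (DlHom (RingHom.id F)) f k
  simpa [DlHom_apply] using this

theorem Dl_dvd {j P : F[X]} (h : j ∣ P) : Dl (RingHom.id F) j ∣ Dl (RingHom.id F) P := by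
  obtain ⟨k, rfl⟩ := h
  rw [Dl_mul]
  exact Dvd.intro _ rfl

theorem eval_X_sub_one_pow_one (k : ℕ) : ((X - 1 : F[X]) ^ k).eval (-1) = (-2) ^ k := by
  simp only [eval_pow, eval_sub, eval_X, eval_one]
  norm_num

/-- Decomposition of a self-dual polynomial. -/
theorem split_dual {χ : F[X]} (hm : χ.Monic) (hd : Dl (RingHom.id F) χ = χ) :
    ∃ (a b : ℕ) (f : F[X]), χ = (X - 1) ^ a * ((X + 1) ^ b * f) ∧ SDP f := by
  obtain ⟨g, hg, hg1⟩ := Polynomial.exists_eq_pow_rootMultiplicity_mul_and_not_dvd χ hm.ne_zero (1 : F)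
  have hgm : g.Monic := by
    rw [hg] at hm
    exact Monic.of_mul_monic_left ((monic_X_sub_C (1 : F)).pow _) hm
  obtain ⟨f, hf, hf1⟩ := Polynomial.exists_eq_pow_rootMultiplicity_mul_and_not_dvd g hgm.ne_zero (-1 : F)
  have hfm : f.Monic := by
    rw [hf] at hgm
    exact Monic.of_mul_monic_left ((monic_X_sub_C (-1 : F)).pow _) hgm
  have e1 : (X - C (1 : F)) = X - 1 := by simp
  have e2 : (X - C (-1 : F)) = X + 1 := by simp
  rw [e1] at hg hg1
  rw [e2] at hf hf1
  refine ⟨_, _, f, by rw [hg, hf], ?_⟩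
  refine ⟨hfm, ?_, ?_, ?_⟩
  · have h1 := hd
    rw [hg, hf, Dl_mul, Dl_mul, Dl_pow, Dl_pow, Dl_X_sub_one (F := F) (σ := RingHom.id F) rfl, Dl_X_add_one] at h1
    have hne1 : ((X - 1 : F[X]) ^ χ.rootMultiplicity 1) ≠ 0 := by
      apply pow_ne_zero
      rw [← e1]
      exact X_sub_C_ne_zero (1 : F)
    have hne2 : ((X + 1 : F[X]) ^ g.rootMultiplicity (-1)) ≠ 0 := by
      apply pow_ne_zero
      rw [← e2]
      exact X_sub_C_ne_zero (-1 : F)
    exact mul_left_cancel₀ hne2 (mul_left_cancel₀ hne1 h1)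
  · intro h0
    apply hg1
    rw [hf]
    apply Dvd.dvd.mul_left
    rw [← e1]
    exact dvd_iff_isRoot.2 h0
  · intro h0
    apply hf1
    rw [← e2]
    exact dvd_iff_isRoot.2 h0

/-- The self-dual hull of an irreducible polynomial. -/
noncomputable def hull (j : F[X]) : F[X] := by
  classical
  exact if Dl (RingHom.id F) j = j then j else j * Dl (RingHom.id F) j

theorem hull_of_fix {j : F[X]} (h : Dl (RingHom.id F) j = j) : hull j = j := by
  classical
  unfold hull
  exact if_pos h

theorem hull_of_ne {j : F[X]} (h : Dl (RingHom.id F) j ≠ j) : hull j = j * Dl (RingHom.id F) j := by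
  classical
  unfold hull
  exact if_neg h

theorem Dl_of_eval {j : F[X]} {x : F} (hx : x ≠ 0) (h : j.eval x ≠ 0) (h0 : j.coeff 0 ≠ 0) :
    (Dl (RingHom.id F) j).eval x⁻¹ ≠ 0 := by
  intro h1
  have h2 := eval_Dl j hx
  rw [h1, zero_mul] at h2
  exact (mul_ne_zero (inv_ne_zero h0) h) h2.symm

theorem hull_SDP {j : F[X]} (hm : j.Monic) (h0 : j.coeff 0 ≠ 0) (h1 : j.eval 1 ≠ 0) (hm1 : j.eval (-1) ≠ 0) :
    SDP (hull j) := by
  have hσ : ∀ x : F, RingHom.id F (RingHom.id F x) = x := fun x => rfl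
  by_cases hfix : Dl (RingHom.id F) j = j
  · rw [hull_of_fix hfix]
    exact ⟨hm, hfix, h1, hm1⟩
  · rw [hull_of_ne hfix]
    have hne : (-1 : F) ≠ 0 := neg_ne_zero.2 one_ne_zero
    refine ⟨hm.mul (monic_Dl h0), ?_, ?_, ?_⟩
    · rw [Dl_mul, Dl_Dl hσ hm h0, mul_comm]
    · rw [eval_mul]
      refine mul_ne_zero h1 ?_
      have := Dl_of_eval (one_ne_zero (α := F)) h1 h0
      simpa using this
    · rw [eval_mul]
      refine mul_ne_zero hm1 ?_
      have := Dl_of_eval hne hm1 h0
      have e : (-1 : F)⁻¹ = -1 := by simp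
      rwa [e] at this

/-- Distinct monic irreducibles are coprime. -/
theorem coprime_of_ne {i j : F[X]} (hi : Irreducible i) (hj : Irreducible j) (him : i.Monic) (hjm : j.Monic) (h : i ≠ j) :
    IsCoprime i j := by
  rw [hi.coprime_iff_not_dvd]
  intro hd
  exact h (eq_of_monic_of_associated him hjm (hi.associated_of_dvd hj hd))

theorem hull_dvd {j P : F[X]} (hi : Irreducible j) (hm : j.Monic) (h0 : j.coeff 0 ≠ 0) (h1 : j ∣ P)
    (h2 : Dl (RingHom.id F) j ∣ P) : hull j ∣ P := by
  have hσ : ∀ x : F, RingHom.id F (RingHom.id F x) = x := fun x => rfl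
  by_cases hfix : Dl (RingHom.id F) j = j
  · rwa [hull_of_fix hfix]
  · rw [hull_of_ne hfix]
    exact (coprime_of_ne hi (irreducible_Dl hσ hm h0 hi) hm (monic_Dl h0) (Ne.symm hfix)).mul_dvd h1 h2

theorem hull_factor {j i : F[X]} (hi : Irreducible j) (hm : j.Monic) (h0 : j.coeff 0 ≠ 0)
    (hii : Irreducible i) (him : i.Monic) (hd : i ∣ hull j) : i = j ∨ i = Dl (RingHom.id F) j := by
  have hσ : ∀ x : F, RingHom.id F (RingHom.id F x) = x := fun x => rfl
  by_cases hfix : Dl (RingHom.id F) j = j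
  · rw [hull_of_fix hfix] at hd
    exact Or.inl (eq_of_monic_of_associated him hm (hii.associated_of_dvd hi hd))
  · rw [hull_of_ne hfix] at hd
    rcases hii.prime.dvd_or_dvd hd with h | h
    · exact Or.inl (eq_of_monic_of_associated him hm (hii.associated_of_dvd hi h))
    · exact Or.inr (eq_of_monic_of_associated him (monic_Dl h0) (hii.associated_of_dvd (irreducible_Dl hσ hm h0 hi) h))

theorem dvd_hull {j : F[X]} : j ∣ hull j := by
  by_cases hfix : Dl (RingHom.id F) j = j
  · rw [hull_of_fix hfix]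
  · rw [hull_of_ne hfix]
    exact Dvd.intro _ rfl

theorem hull_dvd_of_dual {j P : F[X]} (hi : Irreducible j) (hm : j.Monic) (h0 : j.coeff 0 ≠ 0) (h1 : j ∣ P)
    (hP : Dl (RingHom.id F) P = P) : hull j ∣ P :=
  hull_dvd hi hm h0 h1 (hP ▸ Dl_dvd h1)

/-- A square-free polynomial whose irreducible factors divide `P` divides `P`. -/
theorem sqfree_dvd {s P : F[X]} (hs : Squarefree s)
    (h : ∀ g : F[X], g.Monic → Irreducible g → g ∣ s → g ∣ P) : s ∣ P := by
  classical
  by_cases hP : P = 0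
  · rw [hP]
    exact dvd_zero _
  have hs0 : s ≠ 0 := hs.ne_zero
  rw [UniqueFactorizationMonoid.dvd_iff_normalizedFactors_le_normalizedFactors hs0 hP]
  have hnd := (UniqueFactorizationMonoid.squarefree_iff_nodup_normalizedFactors hs0).1 hs
  have hdP : (UniqueFactorizationMonoid.normalizedFactors s) ⊆ UniqueFactorizationMonoid.normalizedFactors P := by
    intro g hg
    have hgi := UniqueFactorizationMonoid.irreducible_of_normalized_factor g hg
    have hgd := UniqueFactorizationMonoid.dvd_of_mem_normalizedFactors hg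
    have hgn := UniqueFactorizationMonoid.normalize_normalized_factor g hg
    have hgm : g.Monic := by
      have := Polynomial.monic_normalize hgi.ne_zero
      rwa [hgn] at this
    have hgP := h g hgm hgi hgd
    rw [UniqueFactorizationMonoid.mem_normalizedFactors_iff' hP]
    exact ⟨hgi, hgn, hgP⟩
  classical
  exact (Multiset.le_iff_subset hnd).2 hdP

end poly

section matrices

variable {F : Type u} [Field F] {ι : Type*} [Fintype ι] [DecidableEq ι]

theorem map_aeval_matrix {E : Type u} [Field E] [Algebra F E] (A : Matrix ι ι F) (P : F[X]) :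
    (aeval A P).map (algebraMap F E) = aeval (A.map (algebraMap F E)) (P.map (algebraMap F E)) := by
  induction P using Polynomial.induction_on' with
  | add p q hp hq =>
    rw [map_add, Polynomial.map_add, map_add, ← hp, ← hq]
    ext i j
    simp
  | monomial n a =>
    rw [aeval_monomial, Polynomial.map_monomial, aeval_monomial]
    have e1 : ((algebraMap F (Matrix ι ι F)) a * A ^ n).map (algebraMap F E) =
        (algebraMap E (Matrix ι ι E)) ((algebraMap F E) a) * (A.map (algebraMap F E)) ^ n := by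
      rw [← Matrix.map_pow (f := algebraMap F E) A n]
      ext i j
      simp only [Matrix.map_apply, Matrix.mul_apply, Matrix.algebraMap_matrix_apply]
      simp only [map_sum, map_mul]
      apply Finset.sum_congr rfl
      intro k _
      by_cases hik : i = k
      · subst hik
        simp
      · simp [hik]
    exact e1

/-- Every irreducible factor of the characteristic polynomial divides every annihilating polynomial. -/
theorem dvd_of_aeval_eq_zero {A : Matrix ι ι F} {P : F[X]} (hP : aeval A P = 0) {j : F[X]} (hi : Irreducible j)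
    (hd : j ∣ A.charpoly) : j ∣ P := by
  classical
  haveI : Fact (Irreducible j) := ⟨hi⟩
  obtain ⟨θ, hθ⟩ : ∃ θ, θ = AdjoinRoot.root j := ⟨_, rfl⟩
  have hroot : ∀ Q : F[X], aeval θ Q = AdjoinRoot.mk j Q := by
    intro Q
    rw [hθ, AdjoinRoot.aeval_eq]
  have hθj : (A.charpoly.map (algebraMap F (AdjoinRoot j))).IsRoot θ := by
    rw [IsRoot.def, eval_map_algebraMap, hroot, AdjoinRoot.mk_eq_zero]
    exact hd
  have hc : (Matrix.toLin' (A.map (algebraMap F (AdjoinRoot j)))).charpoly =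
      A.charpoly.map (algebraMap F (AdjoinRoot j)) := by
    rw [Matrix.charpoly_toLin', Matrix.charpoly_map]
  have hev : Module.End.HasEigenvalue (Matrix.toLin' (A.map (algebraMap F (AdjoinRoot j)))) θ := by
    rw [Module.End.hasEigenvalue_iff_isRoot_charpoly, hc]
    exact hθj
  obtain ⟨v, hv⟩ := hev.exists_hasEigenvector
  have h1 : aeval (A.map (algebraMap F (AdjoinRoot j))) (P.map (algebraMap F (AdjoinRoot j))) = 0 := by
    rw [← map_aeval_matrix, hP]
    ext i k
    simp
  have h2 : aeval (Matrix.toLin' (A.map (algebraMap F (AdjoinRoot j)))) (P.map (algebraMap F (AdjoinRoot j))) = 0 := by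
    have e : aeval (Matrix.toLin' (A.map (algebraMap F (AdjoinRoot j)))) (P.map (algebraMap F (AdjoinRoot j))) =
        Matrix.toLinAlgEquiv' (aeval (A.map (algebraMap F (AdjoinRoot j))) (P.map (algebraMap F (AdjoinRoot j)))) := by
      exact (Polynomial.aeval_algHom_apply (Matrix.toLinAlgEquiv' (R := AdjoinRoot j) (n := ι)).toAlgHom (A.map (algebraMap F (AdjoinRoot j))) (P.map (algebraMap F (AdjoinRoot j))))
    rw [e, h1, map_zero]
  have h3 := Module.End.aeval_apply_of_hasEigenvector hv (p := P.map (algebraMap F (AdjoinRoot j)))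
  rw [h2, LinearMap.zero_apply] at h3
  have h4 : (P.map (algebraMap F (AdjoinRoot j))).eval θ = 0 := by
    have := h3.symm
    rw [smul_eq_zero] at this
    exact this.resolve_right hv.2
  rw [eval_map_algebraMap, hroot, AdjoinRoot.mk_eq_zero] at h4
  exact h4

/-- A semisimple matrix satisfies each polynomial divisible by all irreducible factors of its
characteristic polynomial. -/
theorem aeval_eq_zero_of_factors [Fintype F] {A : Matrix ι ι F} {m : ℕ} (hm : (m : F) ≠ 0) (hA : A ^ m = 1) {P : F[X]}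
    (h : ∀ g : F[X], g.Monic → Irreducible g → g ∣ A.charpoly → g ∣ P) : aeval A P = 0 := by
  have hm0 : m ≠ 0 := by
    rintro rfl
    exact hm Nat.cast_zero
  have hann : aeval A (X ^ m - 1 : F[X]) = 0 := by
    simp [hA]
  have hint : IsIntegral F A := Algebra.IsIntegral.isIntegral A
  have h1 : minpoly F A ∣ X ^ m - 1 := minpoly.dvd F A hann
  have hsep : (X ^ m - C (1 : F)).Separable := separable_X_pow_sub_C (1 : F) hm one_ne_zero
  have hsq : Squarefree (X ^ m - 1 : F[X]) := by
    have := hsep.squarefree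
    simpa using this
  have hsq2 : Squarefree (minpoly F A) := hsq.squarefree_of_dvd h1
  have h2 : minpoly F A ∣ A.charpoly := Matrix.minpoly_dvd_charpoly A
  have h3 : minpoly F A ∣ P := sqfree_dvd hsq2 (fun g hg hi hd => h g hg hi (hd.trans h2))
  exact (minpoly.dvd_iff).1 h3

theorem aeval_zero_iff [Fintype F] {A : Matrix ι ι F} {m : ℕ} (hm : (m : F) ≠ 0) (hA : A ^ m = 1) {P : F[X]} :
    aeval A P = 0 ↔ ∀ g : F[X], g.Monic → Irreducible g → g ∣ A.charpoly → g ∣ P :=
  ⟨fun h g _ hi hd => dvd_of_aeval_eq_zero h hi hd, aeval_eq_zero_of_factors hm hA⟩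

theorem pow_eq_one_iff_factors [Fintype F] {A : Matrix ι ι F} {m : ℕ} (hm : (m : F) ≠ 0) (hA : A ^ m = 1) {d : ℕ} :
    A ^ d = 1 ↔ ∀ g : F[X], g.Monic → Irreducible g → g ∣ A.charpoly → g ∣ X ^ d - 1 := by
  rw [← aeval_zero_iff hm hA]
  simp [sub_eq_zero]

theorem pow_eq_neg_one_iff_factors [Fintype F] {A : Matrix ι ι F} {m : ℕ} (hm : (m : F) ≠ 0) (hA : A ^ m = 1) {d : ℕ} :
    A ^ d = -1 ↔ ∀ g : F[X], g.Monic → Irreducible g → g ∣ A.charpoly → g ∣ X ^ d + 1 := by
  rw [← aeval_zero_iff hm hA]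
  simp [eq_neg_iff_add_eq_zero]

end matrices

end Cfsg.Agent.Lib.PGBC1
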