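import Mathlib
import Cfsg.Agent.Lib.PGBC1
import Cfsg.Agent.S2673

/-!
# Realising self-dual polynomials on `B_n(q)` and `C_n(q)`
-/

set_option autoImplicit false
set_option linter.unusedSectionVars false
set_option linter.unusedVariables false

namespace Cfsg.Agent.Lib.PGBC2

open Polynomial Module QuadraticMap
open Cfsg.Agent.Lib.PrimeFactors Cfsg.Agent.Lib.DualFactors Cfsg.Agent.Lib.SemisimpleGL Cfsg.Agent.Lib.SpRealize
open Cfsg.Agent.Lib.QuadFF Cfsg.Agent.Lib.OrthoBasic Cfsg.Agent.Lib.OrthoCount Cfsg.Agent.Lib.QuadClass Cfsg.Agent.Lib.OrthRealize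
open Cfsg.Agent.Lib.PGBC1

universe u

section realize

variable {F : Type u} [Field F]

theorem two_le_of_SDP {j : F[X]} (hi : Irreducible j) (hs : SDP j) : 2 ≤ j.natDegree := by
  have hpos := hi.natDegree_pos
  by_contra hlt
  have hdeg : j.natDegree = 1 := by omega
  have hj2 := hs.monic.eq_X_add_C hdeg
  rw [hs.coeff_zero] at hj2
  apply hs.evm
  rw [hj2]
  simp

variable [Fintype F] (p : ℕ) [Fact p.Prime] [CharP F p]

theorem Rq_of_SDP : ∀ (d : ℕ) (f : F[X]), f.natDegree = d → SDP f → Rq p f := by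
  intro d
  induction d using Nat.strong_induction_on with
  | _ d ih =>
  intro f hd hf
  by_cases hd0 : d = 0
  · rw [Polynomial.eq_one_of_monic_natDegree_zero hf.monic (hd.trans hd0)]
    exact Rq_one p
  have hσ : ∀ x : F, RingHom.id F (RingHom.id F x) = x := fun x => rfl
  have hm := hf.monic
  obtain ⟨j, hjm, hji, hjd⟩ := Polynomial.exists_monic_irreducible_factor f (by
    intro hu
    apply hd0
    rw [← hd]
    exact natDegree_eq_zero_of_isUnit hu)
  obtain ⟨h, hh⟩ := hjd
  have hj0 : j.coeff 0 ≠ 0 := by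
    intro h0
    have h1 := hf.coeff_zero
    rw [hh, mul_coeff_zero, h0, zero_mul] at h1
    exact zero_ne_one h1
  have hj1 : j.eval 1 ≠ 0 := fun h0 => hf.ev1 (by rw [hh, eval_mul, h0, zero_mul])
  have hjm1 : j.eval (-1) ≠ 0 := fun h0 => hf.evm (by rw [hh, eval_mul, h0, zero_mul])
  have hhm : h.Monic := hjm.of_mul_monic_left (hh ▸ hm)
  have hpos := hji.natDegree_pos
  by_cases hfix : Dl (RingHom.id F) j = j
  · have hsj : SDP j := ⟨hjm, hfix, hj1, hjm1⟩
    have hdeg2 := two_le_of_SDP hji hsj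
    have hDh : Dl (RingHom.id F) h = h := by
      have h2 : Dl (RingHom.id F) (j * h) = j * h := by
        rw [← hh]
        exact hf.dual
      rw [Dl_mul, hfix] at h2
      exact mul_left_cancel₀ hjm.ne_zero h2
    have hsh : SDP h := ⟨hhm, hDh, fun h0 => hf.ev1 (by rw [hh, eval_mul, h0, mul_zero]),
      fun h0 => hf.evm (by rw [hh, eval_mul, h0, mul_zero])⟩
    have hdsum : d = j.natDegree + h.natDegree := by
      rw [← hd, hh, hjm.natDegree_mul hhm]
    have hIH := ih h.natDegree (by omega) h rfl hsh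
    rw [hh]
    exact Rq_mul (Rq_field hjm hji hfix hdeg2) hIH
  · have hdvd : Dl (RingHom.id F) j ∣ j * h := by
      rw [← hh, ← hf.dual, hh, Dl_mul]
      exact Dvd.intro _ rfl
    have hirr := irreducible_Dl hσ hjm hj0 hji
    rcases hirr.prime.dvd_or_dvd hdvd with h3 | h3
    · exact absurd (eq_of_monic_of_associated (monic_Dl hj0) hjm (hirr.associated_of_dvd hji h3)) hfix
    · obtain ⟨h₁, hh₁⟩ := h3
      have hf₁ : f = j * Dl (RingHom.id F) j * h₁ := by
        rw [hh, hh₁]
        ring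
      have hDjm : (Dl (RingHom.id F) j).Monic := monic_Dl hj0
      have hjj : (j * Dl (RingHom.id F) j).Monic := hjm.mul hDjm
      have h1m : h₁.Monic := hjj.of_mul_monic_left (hf₁ ▸ hm)
      have hDh : Dl (RingHom.id F) h₁ = h₁ := by
        have h2 : Dl (RingHom.id F) (j * Dl (RingHom.id F) j * h₁) = j * Dl (RingHom.id F) j * h₁ := by
          rw [← hf₁]
          exact hf.dual
        rw [Dl_mul, Dl_mul, Dl_Dl hσ hjm hj0] at h2
        have h3 : (j * Dl (RingHom.id F) j) * Dl (RingHom.id F) h₁ = (j * Dl (RingHom.id F) j) * h₁ := by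
          rw [← h2]
          ring
        exact mul_left_cancel₀ hjj.ne_zero h3
      have hsh : SDP h₁ := ⟨h1m, hDh, fun h0 => hf.ev1 (by rw [hf₁, eval_mul, h0, mul_zero]),
        fun h0 => hf.evm (by rw [hf₁, eval_mul, h0, mul_zero])⟩
      have hdeg₁ : d = 2 * j.natDegree + h₁.natDegree := by
        rw [← hd, hf₁, hjj.natDegree_mul h1m, hjm.natDegree_mul hDjm, natDegree_Dl hj0]
        ring
      have hIH := ih h₁.natDegree (by omega) h₁ rfl hsh
      rw [hf₁]
      exact Rq_mul (Rq_hyper hjm hj0) hIH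

end realize

section embed

variable {F : Type u} [Field F] [Fintype F]
variable {V₁ V₂ : Type*} [AddCommGroup V₁] [Module F V₁] [AddCommGroup V₂] [Module F V₂]

/-- Extending an isometry of a non-degenerate subspace by the identity, keeping track of the
fixed complement. -/
theorem exists_ext' [FiniteDimensional F V₁] [FiniteDimensional F V₂] {QU : QuadraticForm F V₁} {QV : QuadraticForm F V₂} (hU : ND QU)
    (h : Emb QU QV) (T : V₁ →ₗ[F] V₁) (hT : ∀ x, QU (T x) = QU x) :
    ∃ (g : V₂ →ₗ[F] V₂) (W : Submodule F V₂), (∀ v, QV (g v) = QV v) ∧ (∀ k, T ^ k = 1 → g ^ k = 1) ∧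
      g.charpoly = T.charpoly * (X - 1) ^ (finrank F V₂ - finrank F V₁) ∧
      finrank F W = finrank F V₂ - finrank F V₁ ∧ ∀ w ∈ W, g w = w := by
  classical
  obtain ⟨i, hi⟩ := h
  have hinj : Function.Injective i := injective_of_preserves hU i hi
  have hpol : ∀ u v, polar QV (i u) (i v) = polar QU u v := by
    intro u v
    simp only [polar]
    rw [← map_add, hi, hi, hi]
  have hrefl : LinearMap.BilinForm.IsRefl (polarBilin QV) := by
    intro x y hxy
    rw [polarBilin_apply_apply] at hxy ⊢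
    rw [polar_comm]
    exact hxy
  have hres : (LinearMap.BilinForm.restrict (polarBilin QV) (LinearMap.range i)).Nondegenerate := by
    constructor
    · rintro ⟨_, u, rfl⟩ h
      apply Subtype.ext
      have h1 : u = 0 := hU u fun v => by
        have h2 := h ⟨i v, v, rfl⟩
        rw [← hpol]
        exact h2
      subst h1
      exact map_zero i
    · rintro ⟨_, u, rfl⟩ h
      apply Subtype.ext
      have h1 : u = 0 := hU u fun v => by
        have h2 := h ⟨i v, v, rfl⟩
        rw [← hpol, polar_comm]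
        exact h2
      subst h1
      exact map_zero i
  have hcompl := LinearMap.BilinForm.isCompl_orthogonal_of_restrict_nondegenerate hrefl hres
  obtain ⟨W, hW, hcompl⟩ : ∃ W : Submodule F V₂, (∀ w ∈ W, ∀ u, polar QV (i u) w = 0) ∧ IsCompl (LinearMap.range i) W := by
    refine ⟨_, ?_, hcompl⟩
    intro w hw u
    rw [LinearMap.BilinForm.mem_orthogonal_iff] at hw
    exact hw (i u) ⟨u, rfl⟩
  obtain ⟨φ, hφ⟩ : ∃ φ : (V₁ × W) ≃ₗ[F] V₂, ∀ u w, φ (u, w) = i u + (w : V₂) :=
    ⟨((LinearEquiv.ofInjective i hinj).prodCongr (LinearEquiv.refl F W)).trans (Submodule.prodEquivOfIsCompl _ W hcompl), fun u w => rfl⟩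
  have hQφ : ∀ u (w : W), QV (φ (u, w)) = QU u + QV (w : V₂) := by
    intro u w
    have h0 : polar QV (i u) (w : V₂) = 0 := hW _ w.2 u
    rw [hφ]
    simp only [polar] at h0
    rw [hi] at h0
    linear_combination h0
  obtain ⟨g, hg⟩ : ∃ g, g = φ.conj (T.prodMap (1 : Module.End F W)) := ⟨_, rfl⟩
  have hgv : ∀ v, g v = φ ((T.prodMap (1 : Module.End F W)) (φ.symm v)) := by
    intro v
    rw [hg]
    rfl
  have hgpow : ∀ n v, (g ^ n) v = φ (((T.prodMap (1 : Module.End F W)) ^ n) (φ.symm v)) := by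
    intro n
    induction n with
    | zero =>
      intro v
      simp
    | succ n ih =>
      intro v
      rw [pow_succ, pow_succ, Module.End.mul_apply, Module.End.mul_apply, ih, hgv, φ.symm_apply_apply]
  have hfr : finrank F V₂ = finrank F V₁ + finrank F W := by
    have h1 := φ.finrank_eq
    rw [Module.finrank_prod] at h1
    omega
  refine ⟨g, W, ?_, ?_, ?_, by omega, ?_⟩
  · intro v
    obtain ⟨⟨u, w⟩, rfl⟩ := φ.surjective v
    rw [hgv, φ.symm_apply_apply]
    show QV (φ (T u, w)) = _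
    rw [hQφ, hQφ, hT]
  · intro k hk
    apply LinearMap.ext
    intro v
    rw [hgpow, prodMap_pow', hk, one_pow]
    show φ (φ.symm v) = v
    rw [φ.apply_symm_apply]
  · rw [hg, LinearEquiv.charpoly_conj, LinearMap.charpoly_prodMap, LinearMap.charpoly_one]
    congr 2
    omega
  · intro w hw
    have h1 : φ (0, ⟨w, hw⟩) = w := by
      rw [hφ, map_zero, zero_add]
    rw [hgv, ← h1, φ.symm_apply_apply]
    show φ (T 0, ⟨w, hw⟩) = _
    rw [map_zero]

end embed

section models

variable {F : Type u} [Field F] [Fintype F]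

/-- Every self-dual polynomial without roots `±1` of degree at most `2n` is realised in the
orthogonal group of `qOdd n`. -/
theorem realize_O (p : ℕ) [Fact p.Prime] [CharP F p] (hodd : Odd (Fintype.card F)) {n : ℕ} {f : F[X]} (hf : SDP f) (hd : f.natDegree ≤ 2 * n) :
    ∃ (A : Matrix (Unit ⊕ (Fin n ⊕ Fin n)) (Unit ⊕ (Fin n ⊕ Fin n)) F) (k : ℕ) (W : Submodule F (Unit ⊕ (Fin n ⊕ Fin n) → F)),
      A ^ k = 1 ∧ (k : F) ≠ 0 ∧ (∀ v, qOdd n F (A.mulVec v) = qOdd n F v) ∧
      A.charpoly = f * (X - 1) ^ (2 * n + 1 - f.natDegree) ∧ finrank F W = 2 * n + 1 - f.natDegree ∧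
      ∀ w ∈ W, A.mulVec w = w := by
  classical
  have hcard : Fintype.card (Unit ⊕ (Fin n ⊕ Fin n)) = 2 * n + 1 := by
    simp
    ring
  have h2 : (2 : F) ≠ 0 := by
    apply Ring.two_ne_zero
    intro h
    have := FiniteField.even_card_iff_char_two.mp h
    exact absurd hodd (by rw [Nat.odd_iff]; omega)
  obtain ⟨U, _, _, _, QU, T, k, hN, hI, hk, hc, hch⟩ := Rq_of_SDP p _ f rfl hf
  have hdim : finrank F U = f.natDegree := by
    rw [← LinearMap.charpoly_natDegree T, hch]
  obtain ⟨m', hm'⟩ : ∃ m', f.natDegree = 2 * m' := by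
    obtain ⟨c, hc⟩ := hf.even h2
    exact ⟨c, by omega⟩
  have hemb : Emb QU (qOdd n F) := by
    by_cases hm0 : m' = 0
    · refine ⟨0, fun v => ?_⟩
      have hz : finrank F U = 0 := by omega
      have hs : Subsingleton U := Module.finrank_zero_iff.1 hz
      rw [Subsingleton.elim v 0]
      simp
    obtain ⟨k', rfl⟩ : ∃ k', m' = k' + 1 := ⟨m' - 1, by omega⟩
    have hV : finrank F U = 2 * (k' + 1) := by omega
    rcases std_cases hV QU hN with ⟨b, hb⟩ | ⟨k'', hk'', b, ζ, hb⟩
    · obtain ⟨e, he⟩ := iso_qPlus_of_hyp hb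
      exact (show Emb QU (qPlus (k' + 1) F) from ⟨e.toLinearMap, he⟩).trans (emb_plus_odd (k' + 1) n (by omega))
    · obtain rfl : k' = k'' := by omega
      obtain ⟨c, hc'⟩ := Cfsg.Agent.S2673.ani_of_ns hodd
      have hzc : (Nat.card {v // QU v = 0} : ℤ) ≠ (Fintype.card F : ℤ) ^ (2 * k' + 1) + (Fintype.card F : ℤ) ^ (k' + 1) - (Fintype.card F : ℤ) ^ k' := by
        rw [Cfsg.Agent.Lib.QuadClass2.card_zeros_of_minus hN hb]
        exact count_ne k'
      obtain ⟨e, he⟩ := iso_qMinus hV QU hN hzc 0 c hc'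
      exact (show Emb QU (qMinus k' (0 : F) c) from ⟨e.toLinearMap, he⟩).trans (emb_minus_odd c k' n (by omega))
  obtain ⟨g₀, W, hg₀, hpow, hcg, hWd, hWf⟩ := exists_ext' hN hemb T hI
  rw [hdim, hch, Module.finrank_fintype_fun_eq_card, hcard] at hcg
  rw [hdim, Module.finrank_fintype_fun_eq_card, hcard] at hWd
  obtain ⟨A, hA⟩ : ∃ A : Matrix _ _ F, A = LinearMap.toMatrix' g₀ := ⟨_, rfl⟩
  have hAv : ∀ v, A.mulVec v = g₀ v := fun v => by
    rw [hA, LinearMap.toMatrix'_mulVec]
  refine ⟨A, k, W, ?_, cast_ne_of_coprime (F := F) p hc, ?_, ?_, hWd, ?_⟩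
  · have h1 : Matrix.toLin' (A ^ k) = Matrix.toLin' (1 : Matrix _ _ F) := by
      rw [← toLin_pow, hA, Matrix.toLin'_toMatrix', hpow k hk, Matrix.toLin'_one]
      rfl
    exact Matrix.toLin'.injective h1
  · intro v
    rw [hAv, hg₀]
  · rw [← Matrix.charpoly_toLin', hA, Matrix.toLin'_toMatrix', hcg]
  · intro w hw
    rw [hAv, hWf w hw]

/-- Every self-dual polynomial without roots `±1` of degree at most `2n` is realised in the
symplectic group. -/
theorem realize_sp (p : ℕ) [Fact p.Prime] [CharP F p] (h2 : (2 : F) ≠ 0) {n : ℕ} {f : F[X]} (hf : SDP f) (hd : f.natDegree ≤ 2 * n) :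
    ∃ g : ↥(Matrix.symplecticGroup (Fin n) F), (orderOf g).Coprime p ∧
      (g : Matrix (Fin n ⊕ Fin n) (Fin n ⊕ Fin n) F).charpoly = f * (X - 1) ^ (2 * n - f.natDegree) := by
  have hσ1 : RingHom.id F (-1) = -1 := rfl
  have hXm : (X - 1 : F[X]).Monic := monic_X_sub_C (1 : F)
  have hm : (f * (X - 1) ^ (2 * n - f.natDegree)).Monic := hf.monic.mul (hXm.pow _)
  have hdeg : (f * (X - 1) ^ (2 * n - f.natDegree)).natDegree = 2 * n := by
    rw [hf.monic.natDegree_mul (hXm.pow _), hXm.natDegree_pow]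
    have : (X - 1 : F[X]).natDegree = 1 := natDegree_X_sub_C (1 : F)
    rw [this]
    omega
  have hev : Even (2 * n - f.natDegree) := by
    have := hf.even h2
    rw [Nat.even_sub hd]
    simp [this]
  have hc0 : (f * (X - 1) ^ (2 * n - f.natDegree)).coeff 0 = 1 := by
    rw [mul_coeff_zero, hf.coeff_zero, one_mul, coeff_zero_eq_eval_zero, eval_pow]
    simp only [eval_sub, eval_X, eval_one, zero_sub]
    exact hev.neg_one_pow
  have hdual : Dl (RingHom.id F) (f * (X - 1) ^ (2 * n - f.natDegree)) = f * (X - 1) ^ (2 * n - f.natDegree) := by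
    rw [Dl_mul, hf.dual, Dl_pow, Dl_X_sub_one hσ1]
  have hrev : (f * (X - 1) ^ (2 * n - f.natDegree)).reverse = f * (X - 1) ^ (2 * n - f.natDegree) := by
    have h1 := hdual
    rw [dl_id_apply', hc0, inv_one, C_1, one_mul] at h1
    exact h1
  exact exists_sp (p := p) hm hdeg hc0 hrev

end models

end Cfsg.Agent.Lib.PGBC2
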