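import Mathlib
import Cfsg.Agent.Lib.PGBC2

/-!
# Polynomial conditions for elements of order `r s` in `B_n(q)` and `C_n(q)`
-/

set_option autoImplicit false
set_option linter.unusedSectionVars false
set_option linter.unusedVariables false

namespace Cfsg.Agent.Lib.PGBC3

open Polynomial Module
open Cfsg.Agent.Lib.DualFactors Cfsg.Agent.Lib.PGBC1 Cfsg.Agent.Lib.PGBC2

universe u

section poly

variable {F : Type u} [Field F]

/-- All monic irreducible factors of `f` divide `P`. -/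
def FD (f P : F[X]) : Prop := ∀ j : F[X], j.Monic → Irreducible j → j ∣ f → j ∣ P

theorem irr_sub : Irreducible (X - 1 : F[X]) := by
  have := irreducible_X_sub_C (1 : F)
  simpa using this

theorem irr_add : Irreducible (X + 1 : F[X]) := by
  have := irreducible_X_sub_C (-1 : F)
  simpa using this

theorem mon_sub : (X - 1 : F[X]).Monic := by
  have := monic_X_sub_C (1 : F)
  simpa using this

theorem mon_add : (X + 1 : F[X]).Monic := by
  have := monic_X_sub_C (-1 : F)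
  simpa using this

theorem deg_sub : (X - 1 : F[X]).natDegree = 1 := by
  have := natDegree_X_sub_C (1 : F)
  simpa using this

theorem deg_add : (X + 1 : F[X]).natDegree = 1 := by
  have := natDegree_X_sub_C (-1 : F)
  simpa using this

theorem factor_cases {a b : ℕ} {f j : F[X]} (hi : Irreducible j) (hm : j.Monic)
    (hd : j ∣ (X - 1) ^ a * ((X + 1) ^ b * f)) : j = X - 1 ∨ j = X + 1 ∨ j ∣ f := by
  rcases hi.prime.dvd_or_dvd hd with h | h
  · left
    exact eq_of_monic_of_associated hm mon_sub (hi.associated_of_dvd irr_sub (hi.prime.dvd_of_dvd_pow h))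
  · rcases hi.prime.dvd_or_dvd h with h | h
    · right
      left
      exact eq_of_monic_of_associated hm mon_add (hi.associated_of_dvd irr_add (hi.prime.dvd_of_dvd_pow h))
    · right
      right
      exact h

theorem X_sub_one_dvd (d : ℕ) : (X - 1 : F[X]) ∣ X ^ d - 1 := by
  have := sub_dvd_pow_sub_pow (X : F[X]) 1 d
  simpa using this

theorem X_pow_dvd (d e : ℕ) : (X ^ d - 1 : F[X]) ∣ X ^ (d * e) - 1 := by
  have := sub_dvd_pow_sub_pow (X ^ d : F[X]) 1 e
  rw [one_pow, ← pow_mul] at this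
  exact this

theorem X_add_one_not_dvd (h2 : (2 : F) ≠ 0) {d : ℕ} (hd : Odd d) : ¬ (X + 1 : F[X]) ∣ X ^ d - 1 := by
  intro h
  have h1 : (X - C (-1 : F)) ∣ (X ^ d - 1 : F[X]) := by
    simpa using h
  have h3 := dvd_iff_isRoot.1 h1
  simp only [IsRoot.def, eval_sub, eval_pow, eval_X, eval_one, hd.neg_one_pow] at h3
  apply h2
  linear_combination -h3

theorem X_sub_one_not_dvd_add (h2 : (2 : F) ≠ 0) (d : ℕ) : ¬ (X - 1 : F[X]) ∣ X ^ d + 1 := by
  intro h
  have h1 : (X - C (1 : F)) ∣ (X ^ d + 1 : F[X]) := by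
    simpa using h
  have h3 := dvd_iff_isRoot.1 h1
  simp only [IsRoot.def, eval_add, eval_pow, eval_X, eval_one, one_pow] at h3
  apply h2
  linear_combination h3

theorem X_add_one_not_dvd_add (h2 : (2 : F) ≠ 0) {d : ℕ} (hd : Even d) : ¬ (X + 1 : F[X]) ∣ X ^ d + 1 := by
  intro h
  have h1 : (X - C (-1 : F)) ∣ (X ^ d + 1 : F[X]) := by
    simpa using h
  have h3 := dvd_iff_isRoot.1 h1
  simp only [IsRoot.def, eval_add, eval_pow, eval_X, eval_one, hd.neg_one_pow] at h3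
  apply h2
  linear_combination h3

theorem f_dvd_chi {χ f : F[X]} {a b : ℕ} (h : χ = (X - 1) ^ a * ((X + 1) ^ b * f)) : f ∣ χ := by
  rw [h]
  exact Dvd.dvd.mul_left (Dvd.intro_left _ rfl) _

theorem deg_split {χ f : F[X]} {a b : ℕ} (h : χ = (X - 1) ^ a * ((X + 1) ^ b * f)) (hf : f.Monic) :
    χ.natDegree = a + (b + f.natDegree) := by
  rw [h, (mon_sub.pow a).natDegree_mul ((mon_add.pow b).mul hf), (mon_add.pow b).natDegree_mul hf,
    mon_sub.natDegree_pow, mon_add.natDegree_pow, deg_sub, deg_add]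
  ring

theorem coeff_split {χ f : F[X]} {a b : ℕ} (h : χ = (X - 1) ^ a * ((X + 1) ^ b * f)) :
    χ.coeff 0 = (-1) ^ a * f.coeff 0 := by
  rw [h, mul_coeff_zero, mul_coeff_zero, coeff_zero_eq_eval_zero ((X - 1) ^ a), coeff_zero_eq_eval_zero ((X + 1) ^ b)]
  simp

theorem coeff0_of_dvd_X_pow {j : F[X]} {d : ℕ} (hd : d ≠ 0) (h : j ∣ X ^ d - 1) : j.coeff 0 ≠ 0 := by
  intro h0
  obtain ⟨c, hc⟩ := h
  have h1 := congrArg (fun P => P.coeff 0) hc
  simp only [mul_coeff_zero, h0, zero_mul, coeff_sub, coeff_X_pow, coeff_one_zero] at h1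
  rw [if_neg (Ne.symm hd)] at h1
  simp at h1

/-- Monic irreducibles not dividing `X² - 1` have no roots `±1`. -/
theorem evals_of_not_dvd {j : F[X]} (hi : Irreducible j) (hm : j.Monic) (h : ¬ j ∣ X ^ 2 - 1) :
    j.eval 1 ≠ 0 ∧ j.eval (-1) ≠ 0 := by
  constructor
  · intro h1
    have h3 : (X - C (1 : F)) ∣ j := dvd_iff_isRoot.2 h1
    have h4 : X - 1 ∣ j := by simpa using h3
    have h5 := eq_of_monic_of_associated mon_sub hm (irr_sub.associated_of_dvd hi h4)
    exact h (h5 ▸ X_sub_one_dvd 2)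
  · intro h1
    have h3 : (X - C (-1 : F)) ∣ j := dvd_iff_isRoot.2 h1
    have h4 : X + 1 ∣ j := by simpa using h3
    have h5 := eq_of_monic_of_associated mon_add hm (irr_add.associated_of_dvd hi h4)
    apply h
    rw [← h5]
    exact ⟨X - 1, by ring⟩

end poly

section ext

variable {F : Type u} [Field F] {ι : Type*} [Fintype ι] [DecidableEq ι]

theorem pow_one_iff_of_chi [Fintype F] {A : Matrix ι ι F} {k : ℕ} (hk : (k : F) ≠ 0) (hA : A ^ k = 1) {f : F[X]} {e : ℕ}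
    (hc : A.charpoly = f * (X - 1) ^ e) (d : ℕ) : A ^ d = 1 ↔ FD f (X ^ d - 1) := by
  constructor
  · intro h j hm hi hdvd
    exact (pow_eq_one_iff_factors hk hA).1 h j hm hi (hc ▸ Dvd.dvd.mul_right hdvd _)
  · intro h
    refine (pow_eq_one_iff_factors hk hA).2 fun j hm hi hdvd => ?_
    rw [hc] at hdvd
    rcases hi.prime.dvd_or_dvd hdvd with h1 | h1
    · exact h j hm hi h1
    · exact (hi.prime.dvd_of_dvd_pow h1).trans (X_sub_one_dvd d)

theorem exists_bad [Fintype F] {A : Matrix ι ι F} {k : ℕ} (hk : (k : F) ≠ 0) (hA : A ^ k = 1) {d : ℕ} (hd : A ^ d ≠ 1) :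
    ∃ j : F[X], j.Monic ∧ Irreducible j ∧ j ∣ A.charpoly ∧ ¬ j ∣ X ^ d - 1 := by
  by_contra hc
  push Not at hc
  exact hd ((pow_eq_one_iff_factors hk hA).2 fun j hm hi hdvd => hc j hm hi hdvd)

theorem exists_bad_neg [Fintype F] {A : Matrix ι ι F} {k : ℕ} (hk : (k : F) ≠ 0) (hA : A ^ k = 1) {d : ℕ} (hd : A ^ d ≠ -1) :
    ∃ j : F[X], j.Monic ∧ Irreducible j ∧ j ∣ A.charpoly ∧ ¬ j ∣ X ^ d + 1 := by
  by_contra hc
  push Not at hc
  exact hd ((pow_eq_neg_one_iff_factors hk hA).2 fun j hm hi hdvd => hc j hm hi hdvd)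

theorem aeval_pow_sub {A : Matrix ι ι F} {d : ℕ} (h : A ^ d = 1) : aeval A (X ^ d - 1 : F[X]) = 0 := by
  simp [h]

theorem extractA [Fintype F] (h2 : (2 : F) ≠ 0) {A : Matrix ι ι F} (hdual : Dl (RingHom.id F) A.charpoly = A.charpoly)
    {r s n : ℕ} (hrs : Odd (r * s)) (hF : ((r * s : ℕ) : F) ≠ 0) (hA : A ^ (r * s) = 1) (hr : A ^ r ≠ 1) (hs : A ^ s ≠ 1)
    (hcard : Fintype.card ι ≤ 2 * n + 1) :
    ∃ f : F[X], SDP f ∧ f.natDegree ≤ 2 * n ∧ FD f (X ^ (r * s) - 1) ∧ ¬ FD f (X ^ r - 1) ∧ ¬ FD f (X ^ s - 1) := by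
  obtain ⟨a, b, f, hχ, hf⟩ := split_dual A.charpoly_monic hdual
  have hdeg : A.charpoly.natDegree = a + (b + f.natDegree) := deg_split hχ hf.monic
  rw [Matrix.charpoly_natDegree_eq_dim] at hdeg
  obtain ⟨c, hc⟩ := hf.even h2
  have hfd := f_dvd_chi hχ
  have hall : ∀ j : F[X], Irreducible j → j ∣ A.charpoly → j ∣ X ^ (r * s) - 1 :=
    fun j hi hj => dvd_of_aeval_eq_zero (aeval_pow_sub hA) hi hj
  have key : ∀ d : ℕ, A ^ d ≠ 1 → ¬ FD f (X ^ d - 1) := by
    intro d hd hFD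
    obtain ⟨j, hm, hi, hj, hn⟩ := exists_bad hF hA hd
    rw [hχ] at hj
    rcases factor_cases hi hm hj with h | h | h
    · rw [h] at hn
      exact hn (X_sub_one_dvd d)
    · have h3 := hall j hi (hχ ▸ hj)
      rw [h] at h3
      exact X_add_one_not_dvd h2 hrs h3
    · exact hn (hFD j hm hi h)
  refine ⟨f, hf, by omega, ?_, key r hr, key s hs⟩
  intro j hm hi hj
  exact hall j hi (hj.trans hfd)

/-- Unipotent case. -/
theorem pow_of_X_sub_pow (p : ℕ) [Fact p.Prime] [CharP F p] {A : Matrix ι ι F} {a : ℕ} (h : A.charpoly = (X - 1) ^ a) :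
    ∃ N : ℕ, A ^ (p ^ N) = 1 := by
  have hp : p.Prime := Fact.out
  obtain ⟨N, hN⟩ : ∃ N : ℕ, a ≤ p ^ N := ⟨a, (Nat.lt_pow_self hp.one_lt).le⟩
  refine ⟨N, ?_⟩
  have h1 : (X - 1 : F[X]) ^ (p ^ N) = X ^ (p ^ N) - 1 := by
    rw [sub_pow_char_pow, one_pow]
  have h3 : aeval A (X ^ (p ^ N) - 1 : F[X]) = 0 := by
    rw [← h1, ← Nat.sub_add_cancel hN, pow_add, map_mul, ← h, Matrix.aeval_self_charpoly, mul_zero]
  simp only [map_sub, map_pow, aeval_X, map_one] at h3
  exact sub_eq_zero.1 h3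

theorem extractB (p : ℕ) [Fact p.Prime] [CharP F p] (h2 : (2 : F) ≠ 0) {A : Matrix ι ι F} (hdual : Dl (RingHom.id F) A.charpoly = A.charpoly)
    {s n : ℕ} (hs0 : Odd s) (hsp : ¬ p ∣ s) (hA : A ^ (p * s) = 1) (hpp : A ^ p ≠ 1) (hs : A ^ s ≠ 1)
    (hcard : Fintype.card ι ≤ 2 * n + 1) :
    ∃ f : F[X], SDP f ∧ f.natDegree + 2 ≤ 2 * n ∧ f ≠ 1 ∧ FD f (X ^ s - 1) := by
  have hp : p.Prime := Fact.out
  have hσ : ∀ x : F, RingHom.id F (RingHom.id F x) = x := fun x => rfl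
  have hs00 : s ≠ 0 := by
    rintro rfl
    simp at hs0
  obtain ⟨a, b, f, hχ, hf⟩ := split_dual A.charpoly_monic hdual
  have hdeg : A.charpoly.natDegree = a + (b + f.natDegree) := deg_split hχ hf.monic
  rw [Matrix.charpoly_natDegree_eq_dim] at hdeg
  obtain ⟨c, hc⟩ := hf.even h2
  have hfd := f_dvd_chi hχ
  have hall : ∀ j : F[X], Irreducible j → j ∣ A.charpoly → j ∣ X ^ s - 1 := by
    intro j hi hj
    have h1 := dvd_of_aeval_eq_zero (aeval_pow_sub hA) hi hj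
    have h3 : (X ^ (p * s) - 1 : F[X]) = (X ^ s - 1) ^ p := by
      rw [sub_pow_char, one_pow, ← pow_mul, mul_comm]
    rw [h3] at h1
    exact hi.prime.dvd_of_dvd_pow h1
  have hb : b = 0 := by
    by_contra hb
    have h1 : (X + 1 : F[X]) ∣ A.charpoly := by
      rw [hχ]
      exact Dvd.dvd.mul_left (Dvd.dvd.mul_right (dvd_pow_self _ hb) _) _
    exact X_add_one_not_dvd h2 hs0 (hall _ irr_add h1)
  subst hb
  have hχ' : A.charpoly = (X - 1) ^ a * f := by
    rw [hχ]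
    simp
  have hf1 : f ≠ 1 := by
    rintro rfl
    rw [mul_one] at hχ'
    obtain ⟨N, hN⟩ := pow_of_X_sub_pow p hχ'
    apply hpp
    have h3 : A ^ ((p ^ N).gcd (p * s)) = 1 := pow_gcd_eq_one.2 ⟨hN, hA⟩
    have h4 : (p ^ N).gcd (p * s) ∣ p := by
      have hcop : Nat.Coprime ((p ^ N).gcd (p * s)) s :=
        Nat.Coprime.coprime_dvd_left (Nat.gcd_dvd_left _ _) (Nat.Coprime.pow_left N ((Nat.Prime.coprime_iff_not_dvd hp).2 hsp))
      exact hcop.dvd_of_dvd_mul_right (Nat.gcd_dvd_right _ _)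
    obtain ⟨c, hc⟩ := h4
    rw [hc, pow_mul, h3, one_pow]
  obtain ⟨j, hjm, hji, hjd⟩ := Polynomial.exists_monic_irreducible_factor f (by
    intro hu
    exact hf1 (hf.monic.eq_one_of_isUnit hu))
  have hj0 : j.coeff 0 ≠ 0 := coeff0_of_dvd_X_pow hs00 (hall j hji (hjd.trans hfd))
  have hj1 : j.eval 1 ≠ 0 := by
    obtain ⟨h, hh⟩ := hjd
    exact fun h0 => hf.ev1 (by rw [hh, eval_mul, h0, zero_mul])
  have hjm1 : j.eval (-1) ≠ 0 := by
    obtain ⟨h, hh⟩ := hjd
    exact fun h0 => hf.evm (by rw [hh, eval_mul, h0, zero_mul])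
  have hH := hull_SDP hjm hj0 hj1 hjm1
  have hHf : hull j ∣ f := hull_dvd_of_dual hji hjm hj0 hjd hf.dual
  have hDjd : Dl (RingHom.id F) j ∣ f := by
    have := Dl_dvd hjd
    rwa [hf.dual] at this
  have hdj : j ∣ X ^ s - 1 := hall j hji (hjd.trans hfd)
  have hdDj : Dl (RingHom.id F) j ∣ X ^ s - 1 :=
    hall _ (irreducible_Dl hσ hjm hj0 hji) (hDjd.trans hfd)
  have hHs : hull j ∣ X ^ s - 1 := hull_dvd hji hjm hj0 hdj hdDj
  have hfac : FD (hull j) (X ^ s - 1) := by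
    intro i him hii hid
    exact hid.trans hHs
  have hH1 : hull j ≠ 1 := by
    intro h
    have := (dvd_hull (j := j))
    rw [h] at this
    exact hji.not_isUnit (isUnit_of_dvd_one this)
  have hdle : (hull j).natDegree ≤ f.natDegree := natDegree_le_of_dvd hHf hf.monic.ne_zero
  obtain ⟨c', hc'⟩ := hH.even h2
  by_cases hlt : (hull j).natDegree + 2 ≤ 2 * n
  · exact ⟨hull j, hH, hlt, hH1, hfac⟩
  exfalso
  have hfH : f = hull j := by
    have h1 : (hull j).natDegree = f.natDegree := by omega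
    exact eq_of_monic_of_dvd_of_natDegree_le hH.monic hf.monic hHf (by omega)
  have ha1 : a ≤ 1 := by omega
  apply hs
  have hχd : A.charpoly ∣ X ^ s - 1 := by
    rw [hχ', hfH]
    have hcop : IsCoprime (X - 1 : F[X]) (hull j) := by
      rw [irr_sub.coprime_iff_not_dvd]
      intro hd
      have h3 : (X - C (1 : F)) ∣ hull j := by simpa using hd
      exact hH.ev1 (dvd_iff_isRoot.1 h3)
    have h3 : (X - 1 : F[X]) ^ a ∣ X ^ s - 1 := by
      rcases Nat.le_one_iff_eq_zero_or_eq_one.1 ha1 with rfl | rfl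
      · simp
      · simpa using X_sub_one_dvd s
    exact (hcop.pow_left).mul_dvd h3 hHs
  obtain ⟨w, hw⟩ := hχd
  have h3 : aeval A (X ^ s - 1 : F[X]) = 0 := by
    rw [hw, map_mul, Matrix.aeval_self_charpoly, zero_mul]
  simp only [map_sub, map_pow, aeval_X, map_one] at h3
  exact sub_eq_zero.1 h3

end ext

section ep

variable {F : Type u} [Field F]

/-- The polynomial condition governing elements of order `2 s`. -/
structure EP (s n : ℕ) (f : F[X]) : Prop where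
  sdp : SDP f
  deg : f.natDegree ≤ 2 * n
  fd : FD f (X ^ (4 * s) - 1)
  n4 : ¬ FD f (X ^ 4 - 1)
  n2s : ¬ FD f (X ^ (2 * s) - 1)

theorem deg_X2 : (X ^ 2 + 1 : F[X]).natDegree = 2 := by
  have := natDegree_X_pow_add_C (n := 2) (r := (1 : F))
  simpa using this

theorem mon_X2 : (X ^ 2 + 1 : F[X]).Monic := by
  have := monic_X_pow_add_C (1 : F) (n := 2) two_ne_zero
  simpa using this

theorem SDP_X2 (h2 : (2 : F) ≠ 0) : SDP (X ^ 2 + 1 : F[X]) := by
  refine ⟨mon_X2, Dl_X_pow_add_one two_ne_zero, ?_, ?_⟩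
  · simp only [eval_add, eval_pow, eval_X, eval_one]
    norm_num
    exact h2
  · simp only [eval_add, eval_pow, eval_X, eval_one]
    norm_num
    exact h2

theorem dvd_of_four {j : F[X]} {s : ℕ} (hs : Odd s) (h1 : j ∣ X ^ (2 * s) - 1) (h : j ∣ X ^ 4 - 1) : j ∣ X ^ 2 - 1 := by
  obtain ⟨l, rfl⟩ := hs
  have e : (X ^ 2 - 1 : F[X]) = (X ^ (2 * (2 * l + 1)) - 1) - X ^ 2 * ((X ^ 4) ^ l - 1) := by ring
  rw [e]
  refine dvd_sub h1 (Dvd.dvd.mul_left ?_ _)
  have h3 := sub_dvd_pow_sub_pow (X ^ 4 : F[X]) 1 l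
  rw [one_pow] at h3
  exact h.trans h3

theorem E_of_hull (h2 : (2 : F) ≠ 0) {s n : ℕ} (hs : Odd s) {j : F[X]} (hi : Irreducible j) (hm : j.Monic)
    (hd : j ∣ X ^ (2 * s) - 1) (hn : ¬ j ∣ X ^ 2 - 1) (hdeg : (hull j).natDegree + 2 ≤ 2 * n) :
    EP s n (hull j * (X ^ 2 + 1)) := by
  have hσ : ∀ x : F, RingHom.id F (RingHom.id F x) = x := fun x => rfl
  have hs0 : s ≠ 0 := by
    rintro rfl
    simp at hs
  have h2s : 2 * s ≠ 0 := by omega
  have h0 := coeff0_of_dvd_X_pow h2s hd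
  obtain ⟨e1, e2⟩ := evals_of_not_dvd hi hm hn
  have hH := hull_SDP hm h0 e1 e2
  have hX := SDP_X2 h2
  have hPd : Dl (RingHom.id F) (X ^ (2 * s) - 1 : F[X]) = X ^ (2 * s) - 1 := Dl_X_pow_sub_one h2s rfl
  have hDj : Dl (RingHom.id F) j ∣ X ^ (2 * s) - 1 := by
    have := Dl_dvd hd
    rwa [hPd] at this
  have hHd : hull j ∣ X ^ (2 * s) - 1 := hull_dvd hi hm h0 hd hDj
  have h4s : (X ^ (2 * s) - 1 : F[X]) ∣ X ^ (4 * s) - 1 := by
    have := X_pow_dvd (F := F) (2 * s) 2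
    rwa [show 2 * s * 2 = 4 * s by ring] at this
  have h44 : (X ^ 2 + 1 : F[X]) ∣ X ^ (4 * s) - 1 := by
    have h3 := X_pow_dvd (F := F) 4 s
    exact Dvd.dvd.trans ⟨X ^ 2 - 1, by ring⟩ h3
  refine ⟨hH.mul hX, ?_, ?_, ?_, ?_⟩
  · rw [hH.monic.natDegree_mul mon_X2, deg_X2]
    exact hdeg
  · intro i him hii hid
    rcases hii.prime.dvd_or_dvd hid with h | h
    · exact (h.trans hHd).trans h4s
    · exact h.trans h44
  · intro h
    have h3 := h j hm hi (Dvd.dvd.mul_right dvd_hull _)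
    exact hn (dvd_of_four hs hd h3)
  · intro h
    have hnu : ¬ IsUnit (X ^ 2 + 1 : F[X]) := by
      intro hu
      have := natDegree_eq_zero_of_isUnit hu
      rw [deg_X2] at this
      omega
    obtain ⟨i, him, hii, hid⟩ := Polynomial.exists_monic_irreducible_factor _ hnu
    have h3 := h i him hii (Dvd.dvd.mul_left hid _)
    have h4 : (X ^ 2 + 1 : F[X]) ∣ X ^ (2 * s) + 1 := by
      have h5 := Odd.add_dvd_pow_add_pow (X ^ 2 : F[X]) 1 hs
      rwa [one_pow, ← pow_mul] at h5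
    have h5 : i ∣ (X ^ (2 * s) + 1) - (X ^ (2 * s) - 1) := dvd_sub (hid.trans h4) h3
    have h6 : (X ^ (2 * s) + 1 : F[X]) - (X ^ (2 * s) - 1) = C 2 := by
      simp only [C_ofNat]
      ring
    rw [h6] at h5
    have h7 : IsUnit (C (2 : F)) := isUnit_C.2 (isUnit_iff_ne_zero.2 h2)
    exact hii.not_isUnit (isUnit_of_dvd_unit h5 h7)

theorem hull_dvd_of_facs {χ j : F[X]} (hi : Irreducible j) (hm : j.Monic) (h0 : j.coeff 0 ≠ 0) {a b : ℕ} {f : F[X]}
    (hχ : χ = (X - 1) ^ a * ((X + 1) ^ b * f)) (hf : SDP f) (hj : j ∣ χ) (hn : ¬ j ∣ X ^ 2 - 1) : j ∣ f ∧ hull j ∣ f := by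
  rw [hχ] at hj
  rcases factor_cases hi hm hj with h | h | h
  · exfalso
    apply hn
    rw [h]
    exact X_sub_one_dvd 2
  · exfalso
    apply hn
    rw [h]
    exact ⟨X - 1, by ring⟩
  · exact ⟨h, hull_dvd_of_dual hi hm h0 h hf.dual⟩

theorem hull_deg_pos (h2 : (2 : F) ≠ 0) {j : F[X]} (hi : Irreducible j) (hH : SDP (hull j)) : 2 ≤ (hull j).natDegree := by
  have h1 : j ∣ hull j := dvd_hull
  have h3 := natDegree_le_of_dvd h1 hH.monic.ne_zero
  have h4 := hi.natDegree_pos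
  obtain ⟨c, hc⟩ := hH.even h2
  omega

theorem hull_coprime {P P' i j : F[X]} (hc : IsCoprime P P') (hi : i ∣ P) (hj : j ∣ P') : IsCoprime i j :=
  (hc.of_isCoprime_of_dvd_left hi).of_isCoprime_of_dvd_right hj

end ep

section deg

variable {F : Type u} [Field F] {ι : Type*} [Fintype ι] [DecidableEq ι]

theorem neg_one_odd {a : ℕ} (h2 : (2 : F) ≠ 0) (h : ((-1 : F)) ^ a = 1) : Even a := by
  by_contra hne
  rw [Nat.not_even_iff_odd] at hne
  rw [hne.neg_one_pow] at h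
  apply h2
  linear_combination -h

/-- The symplectic degree bound. -/
theorem hull_deg_sp [Fintype F] (h2 : (2 : F) ≠ 0) {n : ℕ} {A : Matrix ι ι F} (hc : Fintype.card ι = 2 * n)
    (h0 : A.charpoly.coeff 0 = 1) (hdual : Dl (RingHom.id F) A.charpoly = A.charpoly) {s : ℕ} (hs : Odd s)
    (hsF : ((2 * s : ℕ) : F) ≠ 0) (hA : A ^ (2 * s) = 1) (h1 : A ^ s ≠ 1) (hm1 : A ^ s ≠ -1) {j : F[X]} (hi : Irreducible j)
    (hm : j.Monic) (hj : j ∣ A.charpoly) (hn : ¬ j ∣ X ^ 2 - 1) : (hull j).natDegree + 2 ≤ 2 * n := by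
  have hs0 : s ≠ 0 := by
    rintro rfl
    simp at hs
  have h2s : 2 * s ≠ 0 := by omega
  obtain ⟨a, b, f, hχ, hf⟩ := split_dual A.charpoly_monic hdual
  have hdeg : A.charpoly.natDegree = a + (b + f.natDegree) := deg_split hχ hf.monic
  rw [Matrix.charpoly_natDegree_eq_dim, hc] at hdeg
  have hco := coeff_split hχ
  rw [h0, hf.coeff_zero, mul_one] at hco
  obtain ⟨ca, hca⟩ := neg_one_odd h2 hco.symm
  obtain ⟨c, hcf⟩ := hf.even h2
  have hall : ∀ i : F[X], Irreducible i → i ∣ A.charpoly → i ∣ X ^ (2 * s) - 1 :=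
    fun i hii hid => dvd_of_aeval_eq_zero (aeval_pow_sub hA) hii hid
  have hsplit : (X ^ (2 * s) - 1 : F[X]) = (X ^ s - 1) * (X ^ s + 1) := by ring
  have hdj := hall j hi hj
  have h00 := coeff0_of_dvd_X_pow h2s hdj
  obtain ⟨hjf, hHf⟩ := hull_dvd_of_facs hi hm h00 hχ hf hj hn
  obtain ⟨e1, e2⟩ := evals_of_not_dvd hi hm hn
  have hH := hull_SDP hm h00 e1 e2
  have hHle := natDegree_le_of_dvd hHf hf.monic.ne_zero
  by_cases hab : a + b = 0
  · have ha0 : a = 0 := by omega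
    have hb0 : b = 0 := by omega
    subst ha0
    subst hb0
    have hχf : A.charpoly = f := by
      rw [hχ]
      simp
    have hcop : IsCoprime (X ^ s - 1 : F[X]) (X ^ s + 1) := by
      have h3 : IsUnit (C (2 : F)) := isUnit_C.2 (isUnit_iff_ne_zero.2 h2)
      obtain ⟨u, hu⟩ := h3.exists_left_inv
      refine ⟨-u, u, ?_⟩
      have h5 : ((X ^ s + 1 : F[X]) - (X ^ s - 1)) = C 2 := by
        simp only [C_ofNat]
        ring
      calc -u * (X ^ s - 1) + u * (X ^ s + 1) = u * ((X ^ s + 1) - (X ^ s - 1)) := by ring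
        _ = 1 := by rw [h5, hu]
    -- the other factor
    have hother : ∃ (j' P P' : F[X]), Irreducible j' ∧ j'.Monic ∧ j' ∣ f ∧ IsCoprime P P' ∧ Dl (RingHom.id F) P = P ∧ Dl (RingHom.id F) P' = P' ∧ j ∣ P ∧ j' ∣ P' := by
      have hP1 : Dl (RingHom.id F) (X ^ s - 1 : F[X]) = X ^ s - 1 := Dl_X_pow_sub_one hs0 rfl
      have hP2 : Dl (RingHom.id F) (X ^ s + 1 : F[X]) = X ^ s + 1 := Dl_X_pow_add_one hs0
      rw [hsplit] at hdj
      rcases hi.prime.dvd_or_dvd hdj with h | h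
      · obtain ⟨j', hm', hi', hd', hn'⟩ := exists_bad hsF hA h1
        have h3 := hall j' hi' hd'
        rw [hsplit] at h3
        rw [hχf] at hd'
        exact ⟨j', _, _, hi', hm', hd', hcop, hP1, hP2, h, (hi'.prime.dvd_or_dvd h3).resolve_left hn'⟩
      · obtain ⟨j', hm', hi', hd', hn'⟩ := exists_bad_neg hsF hA hm1
        have h3 := hall j' hi' hd'
        rw [hsplit] at h3
        rw [hχf] at hd'
        exact ⟨j', _, _, hi', hm', hd', hcop.symm, hP2, hP1, h, (hi'.prime.dvd_or_dvd h3).resolve_right hn'⟩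
    obtain ⟨j', P, P', hi', hm', hd', hPc, hPd, hPd', hjP, hjP'⟩ := hother
    have h00' : j'.coeff 0 ≠ 0 := coeff0_of_dvd_X_pow h2s (hall j' hi' (hχf ▸ hd'))
    have hd'' : ¬ j' ∣ X ^ 2 - 1 ∨ (hull j').natDegree ≥ 0 := Or.inr (Nat.zero_le _)
    have he1' : j'.eval 1 ≠ 0 := by
      obtain ⟨w, hw⟩ := hd'
      exact fun h0 => hf.ev1 (by rw [hw, eval_mul, h0, zero_mul])
    have he2' : j'.eval (-1) ≠ 0 := by
      obtain ⟨w, hw⟩ := hd'
      exact fun h0 => hf.evm (by rw [hw, eval_mul, h0, zero_mul])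
    have hH' := hull_SDP hm' h00' he1' he2'
    have hHf' : hull j' ∣ f := hull_dvd_of_dual hi' hm' h00' hd' hf.dual
    have hHP : hull j ∣ P := hull_dvd_of_dual hi hm h00 hjP hPd
    have hHP' : hull j' ∣ P' := hull_dvd_of_dual hi' hm' h00' hjP' hPd'
    have hHH := (hull_coprime hPc hHP hHP').mul_dvd hHf hHf'
    have hle := natDegree_le_of_dvd hHH hf.monic.ne_zero
    rw [hH.monic.natDegree_mul hH'.monic] at hle
    have := hull_deg_pos h2 hi' hH'
    omega
  · have hab2 : 2 ≤ a + b := by omega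
    omega

/-- The orthogonal degree bound. -/
theorem hull_deg_O (h2 : (2 : F) ≠ 0) {n : ℕ} {A : Matrix ι ι F} (hc : Fintype.card ι = 2 * n + 1)
    (h0 : A.charpoly.coeff 0 = -1) (hdual : Dl (RingHom.id F) A.charpoly = A.charpoly) {j : F[X]} (hi : Irreducible j)
    (hm : j.Monic) (h00 : j.coeff 0 ≠ 0) (hj : j ∣ A.charpoly) (hn : ¬ j ∣ X ^ 2 - 1) :
    (hull j).natDegree + 2 ≤ 2 * n ∨ A.charpoly.eval (-1) ≠ 0 := by
  obtain ⟨a, b, f, hχ, hf⟩ := split_dual A.charpoly_monic hdual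
  have hdeg : A.charpoly.natDegree = a + (b + f.natDegree) := deg_split hχ hf.monic
  rw [Matrix.charpoly_natDegree_eq_dim, hc] at hdeg
  have hco := coeff_split hχ
  rw [h0, hf.coeff_zero, mul_one] at hco
  have ha : Odd a := by
    rw [← Nat.not_even_iff_odd]
    intro he
    rw [he.neg_one_pow] at hco
    apply h2
    linear_combination -hco
  obtain ⟨ca, hca⟩ := ha
  obtain ⟨c, hcf⟩ := hf.even h2
  obtain ⟨hjf, hHf⟩ := hull_dvd_of_facs hi hm h00 hχ hf hj hn
  have hHle := natDegree_le_of_dvd hHf hf.monic.ne_zero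
  by_cases hb : b = 0
  · right
    subst hb
    rw [hχ]
    simp only [pow_zero, one_mul, eval_mul, eval_pow, eval_sub, eval_X, eval_one]
    refine mul_ne_zero (pow_ne_zero _ ?_) hf.evm
    intro h3
    apply h2
    linear_combination -h3
  · left
    have hb2 : 2 ≤ b := by omega
    omega

end deg

section numeric

variable {F : Type u} [Field F] [Fintype F]

/-- From numerics to polynomials. -/
theorem numeric_E (h2 : (2 : F) ≠ 0) {s n m : ℕ} (hs3 : 3 ≤ s) (hN : ((4 * s : ℕ) : F) ≠ 0) (hm0 : m ≠ 0) (hmn : m ≤ n)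
    (hnum : 4 * s ∣ Fintype.card F ^ m - 1 ∨ 4 * s ∣ Fintype.card F ^ m + 1) : ∃ f : F[X], EP s n f := by
  classical
  have hσ : ∀ x : F, RingHom.id F (RingHom.id F x) = x := fun x => rfl
  have hq1 : 1 < Fintype.card F := Fintype.one_lt_card
  have hqm : 1 ≤ Fintype.card F ^ m := Nat.one_le_pow _ _ (by omega)
  have hNpos : 0 < 4 * s := by omega
  have hcy : ¬ IsUnit (cyclotomic (4 * s) F) := by
    intro hu
    have h3 := natDegree_eq_zero_of_isUnit hu
    rw [natDegree_cyclotomic] at h3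
    have := Nat.totient_pos.2 hNpos
    omega
  obtain ⟨φ, hm, hi, hd⟩ := Polynomial.exists_monic_irreducible_factor _ hcy
  haveI : Fact (Irreducible φ) := ⟨hi⟩
  haveI : Module.Finite F (AdjoinRoot φ) := hm.finite_adjoinRoot
  haveI : Finite (AdjoinRoot φ) := Module.finite_of_finite F
  haveI : Fintype (AdjoinRoot φ) := Fintype.ofFinite _
  obtain ⟨θ, hθ⟩ : ∃ θ, θ = AdjoinRoot.root φ := ⟨_, rfl⟩
  have hroot : ∀ P : F[X], aeval θ P = AdjoinRoot.mk φ P := by
    intro P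
    rw [hθ, AdjoinRoot.aeval_eq]
  have hdvd_iff : ∀ P : F[X], φ ∣ P ↔ aeval θ P = 0 := by
    intro P
    rw [hroot, AdjoinRoot.mk_eq_zero]
  have haφ : aeval θ φ = 0 := (hdvd_iff φ).1 dvd_rfl
  haveI : NeZero ((4 * s : ℕ) : AdjoinRoot φ) := ⟨by
    intro h
    apply hN
    apply (algebraMap F (AdjoinRoot φ)).injective
    rw [map_natCast, map_zero]
    exact h⟩
  have hprim : IsPrimitiveRoot θ (4 * s) := by
    rw [← isRoot_cyclotomic_iff, IsRoot.def, ← map_cyclotomic (4 * s) (algebraMap F (AdjoinRoot φ)), eval_map_algebraMap]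
    exact (hdvd_iff _).1 hd
  have hθ0 : θ ≠ 0 := hprim.ne_zero hNpos.ne'
  have hnot : ∀ d : ℕ, ¬ 4 * s ∣ d → ¬ φ ∣ X ^ d - 1 := by
    intro d hd4 hj
    apply hd4
    apply hprim.dvd_of_pow_eq_one
    have h3 := (hdvd_iff _).1 hj
    simpa [sub_eq_zero] using h3
  have hd4 : ¬ φ ∣ X ^ 4 - 1 := hnot 4 (fun h => by
    have := Nat.le_of_dvd (by norm_num) h
    omega)
  have hd2 : ¬ φ ∣ X ^ 2 - 1 := hnot 2 (fun h => by
    have := Nat.le_of_dvd (by norm_num) h
    omega)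
  have hd2s : ¬ φ ∣ X ^ (2 * s) - 1 := hnot (2 * s) (fun h => by
    have := Nat.le_of_dvd (by omega) h
    omega)
  have hd4s : φ ∣ X ^ (4 * s) - 1 := hd.trans (cyclotomic.dvd_X_pow_sub_one (4 * s) F)
  have h0 := coeff0_of_dvd_X_pow hNpos.ne' hd4s
  obtain ⟨e1, e2⟩ := evals_of_not_dvd hi hm hd2
  have hH := hull_SDP hm h0 e1 e2
  have hPd : Dl (RingHom.id F) (X ^ (4 * s) - 1 : F[X]) = X ^ (4 * s) - 1 := Dl_X_pow_sub_one hNpos.ne' rfl
  have hHd : hull φ ∣ X ^ (4 * s) - 1 := hull_dvd_of_dual hi hm h0 hd4s hPd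
  have hcard : Nat.card F = Fintype.card F := Nat.card_eq_fintype_card
  have hpowθ : ∀ M : ℕ, 4 * s ∣ Fintype.card F ^ M - 1 → φ ∣ X ^ (Nat.card F) ^ M - X := by
    intro M hM
    rw [hdvd_iff]
    simp only [map_sub, map_pow, aeval_X]
    obtain ⟨c, hc⟩ := hM
    have h1M : 1 ≤ Fintype.card F ^ M := Nat.one_le_pow _ _ (by omega)
    have e : Fintype.card F ^ M = 4 * s * c + 1 := by omega
    rw [hcard, e, pow_succ, pow_mul, hprim.pow_eq_one, one_pow, one_mul, sub_self]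
  have hdegb : (hull φ).natDegree ≤ 2 * n := by
    rcases hnum with h | h
    · have h3 := hi.natDegree_dvd_of_dvd_X_pow_card_pow_sub_X (hpowθ m h)
      have h4 := Nat.le_of_dvd (Nat.pos_of_ne_zero hm0) h3
      by_cases hfix : Dl (RingHom.id F) φ = φ
      · rw [hull_of_fix hfix]
        omega
      · rw [hull_of_ne hfix, hm.natDegree_mul (monic_Dl h0), natDegree_Dl h0]
        omega
    · have hM : 4 * s ∣ Fintype.card F ^ (2 * m) - 1 := by
        have e : Fintype.card F ^ (2 * m) - 1 = (Fintype.card F ^ m + 1) * (Fintype.card F ^ m - 1) := by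
          obtain ⟨y, hy⟩ : ∃ y, Fintype.card F ^ m = y + 1 := ⟨Fintype.card F ^ m - 1, by omega⟩
          rw [two_mul, pow_add, hy]
          simp only [Nat.add_sub_cancel]
          have : (y + 1) * (y + 1) = (y + 1 + 1) * y + 1 := by ring
          rw [this]
          simp
        rw [e]
        exact Dvd.dvd.mul_right h _
      have h3 := hi.natDegree_dvd_of_dvd_X_pow_card_pow_sub_X (hpowθ (2 * m) hM)
      have h4 := Nat.le_of_dvd (by omega) h3
      have hinv : θ ^ (Fintype.card F ^ m) = θ⁻¹ := by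
        obtain ⟨c, hc⟩ := h
        have h5 : θ ^ (Fintype.card F ^ m) * θ = 1 := by
          rw [← pow_succ, hc, pow_mul, hprim.pow_eq_one, one_pow]
        exact eq_inv_of_mul_eq_one_left h5
      have h5 : aeval θ⁻¹ φ = 0 := by
        rw [← hinv]
        exact aeval_frob haφ m
      have h6 : aeval θ⁻¹ (Dl (RingHom.id F) φ) = 0 := by
        have := aeval_Dl_inv (σ := RingHom.id F) (RingHom.id (AdjoinRoot φ)) (fun x => rfl) hθ0 haφ
        simpa using this
      have hfix : Dl (RingHom.id F) φ = φ := by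
        exact (minpoly.eq_of_irreducible_of_monic (irreducible_Dl hσ hm h0 hi) h6 (monic_Dl h0)).trans
          (minpoly.eq_of_irreducible_of_monic hi h5 hm).symm
      rw [hull_of_fix hfix]
      omega
  refine ⟨hull φ, hH, hdegb, ?_, ?_, ?_⟩
  · intro i _ _ hid
    exact hid.trans hHd
  · intro h
    exact hd4 (h φ hm hi dvd_hull)
  · intro h
    exact hd2s (h φ hm hi dvd_hull)

end numeric

end Cfsg.Agent.Lib.PGBC3
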