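import Mathlib
import Cfsg.Agent.Lib.PGBC3
import Cfsg.Agent.Lib.OmegaOddClasses
import Cfsg.Agent.Lib.OrthRefl
import Cfsg.Agent.Lib.SpCenter
import Cfsg.Agent.Lib.SpinorCrit

/-!
# The group layer for the prime graph comparison of `B_n(q)` and `C_n(q)`
-/

set_option autoImplicit false
set_option linter.unusedSectionVars false
set_option linter.unusedVariables false

namespace Cfsg.Agent.Lib.PGBC4

open Polynomial Module Matrix
open Cfsg.Agent.Lib.DualFactors Cfsg.Agent.Lib.PGBC1 Cfsg.Agent.Lib.PGBC2 Cfsg.Agent.Lib.PGBC3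
open Cfsg.Agent.Lib.OrthoCount Cfsg.Agent.Lib.OrthMatrix

universe u

section grp

theorem orderOf_eq_mul_iff {G : Type*} [Group G] {r s : ℕ} (hr : r.Prime) (hs : s.Prime) (x : G) :
    orderOf x = r * s ↔ x ^ (r * s) = 1 ∧ x ^ r ≠ 1 ∧ x ^ s ≠ 1 := by
  constructor
  · intro h
    refine ⟨by rw [← h, pow_orderOf_eq_one], ?_, ?_⟩
    · intro h1
      have h3 := orderOf_dvd_of_pow_eq_one h1
      rw [h] at h3
      have h4 := Nat.le_of_dvd hr.pos h3
      have h5 := hs.two_le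
      have h6 := hr.pos
      nlinarith
    · intro h1
      have h3 := orderOf_dvd_of_pow_eq_one h1
      rw [h] at h3
      have h4 := Nat.le_of_dvd hs.pos h3
      have h5 := hr.two_le
      have h6 := hs.pos
      nlinarith
  · rintro ⟨h1, h2, h3⟩
    have hd := orderOf_dvd_of_pow_eq_one h1
    obtain ⟨a, b, ha, hb, hab⟩ := exists_dvd_and_dvd_of_dvd_mul hd
    rcases (Nat.dvd_prime hr).1 ha with rfl | rfl
    · exfalso
      apply h3
      rw [one_mul] at hab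
      exact orderOf_dvd_iff_pow_eq_one.1 (hab ▸ hb)
    rcases (Nat.dvd_prime hs).1 hb with rfl | rfl
    · exfalso
      apply h2
      rw [mul_one] at hab
      exact orderOf_dvd_iff_pow_eq_one.1 (hab ▸ ha)
    · exact hab

theorem comm_product {M : Type*} [Monoid M] {g t : M} (hc : Commute g t) {s p : ℕ} (hcop : Nat.Coprime p s)
    (hg : g ^ s = 1) (hg1 : g ≠ 1) (ht : t ^ p = 1) (ht1 : t ≠ 1) :
    (g * t) ^ (p * s) = 1 ∧ (g * t) ^ p ≠ 1 ∧ (g * t) ^ s ≠ 1 := by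
  refine ⟨?_, ?_, ?_⟩
  · rw [hc.mul_pow, pow_mul' g, pow_mul t, hg, ht, one_pow, one_pow, one_mul]
  · rw [hc.mul_pow, ht, mul_one]
    intro h
    apply hg1
    have h3 : g ^ (p.gcd s) = 1 := pow_gcd_eq_one.2 ⟨h, hg⟩
    rwa [hcop.gcd_eq_one, pow_one] at h3
  · rw [hc.mul_pow, hg, one_mul]
    intro h
    apply ht1
    have h3 : t ^ (p.gcd s) = 1 := pow_gcd_eq_one.2 ⟨ht, h⟩
    rwa [hcop.gcd_eq_one, pow_one] at h3

end grp

section iso

variable {F : Type u} [Field F] {ι : Type} [Fintype ι] [DecidableEq ι]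

/-- The matrix of an isometry. -/
abbrev mat {q : (ι → F) → F} (x : ↥(Cfsg.isometryGroup F q)) : Matrix ι ι F :=
  ((x : Matrix.GeneralLinearGroup ι F) : Matrix ι ι F)

theorem mat_pow {q : (ι → F) → F} (x : ↥(Cfsg.isometryGroup F q)) (k : ℕ) : mat (x ^ k) = mat x ^ k := by
  simp [mat]

theorem mat_mul {q : (ι → F) → F} (x y : ↥(Cfsg.isometryGroup F q)) : mat (x * y) = mat x * mat y := rfl

theorem mat_one {q : (ι → F) → F} : mat (1 : ↥(Cfsg.isometryGroup F q)) = 1 := rfl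

theorem mat_inj {q : (ι → F) → F} {x y : ↥(Cfsg.isometryGroup F q)} (h : mat x = mat y) : x = y :=
  Subtype.ext (Units.ext h)

theorem mat_iso {q : (ι → F) → F} (x : ↥(Cfsg.isometryGroup F q)) (v : ι → F) : q (mat x *ᵥ v) = q v :=
  x.2 v v

theorem pow_eq_one_iff_mat {q : (ι → F) → F} (x : ↥(Cfsg.isometryGroup F q)) (k : ℕ) : x ^ k = 1 ↔ mat x ^ k = 1 := by
  constructor
  · intro h
    rw [← mat_pow, h, mat_one]
  · intro h
    apply mat_inj
    rw [mat_pow, h, mat_one]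

theorem exists_of_matrix {q : (ι → F) → F} {A : Matrix ι ι F} {k : ℕ} (hk : k ≠ 0) (hA : A ^ k = 1)
    (hiso : ∀ v, q (A *ᵥ v) = q v) : ∃ x : ↥(Cfsg.isometryGroup F q), mat x = A :=
  ⟨⟨Units.ofPowEqOne A k hA hk, fun u v => hiso u⟩, rfl⟩

theorem det_of_mem {q : (ι → F) → F} {x : ↥(Cfsg.isometryGroup F q)} (hx : x ∈ Cfsg.Omega F q) : (mat x).det = 1 := by
  let φ : ↥(Cfsg.isometryGroup F q) →* Fˣ := (Matrix.GeneralLinearGroup.det).comp (Subgroup.subtype _)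
  have h : Cfsg.Omega F q ≤ φ.ker := by
    unfold Cfsg.Omega commutator
    rw [Subgroup.commutator_le]
    intro a _ b _
    rw [MonoidHom.mem_ker, map_commutatorElement]
    exact commutatorElement_eq_one_iff_commute.2 (Commute.all _ _)
  have h1 : φ x = 1 := h hx
  have h3 := congrArg Units.val h1
  simpa [φ] using h3

variable (Q : QuadraticForm F (ι → F))

open Cfsg.Agent.Lib.OrthGroup Cfsg.Agent.Lib.OrthRefl in
theorem sq_mem (hQ : (B Q).Nondegenerate) (hF : (∃ a : F, a ≠ 0 ∧ a ≠ 1) ∨ finrank F (ι → F) ≠ 4)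
    (x : ↥(Cfsg.isometryGroup F ⇑Q)) : x ^ 2 ∈ Cfsg.Omega F ⇑Q := by
  obtain ⟨L, -, rfl⟩ := exists_elt Q hQ hF x
  have key : ∀ L : List (ι → F), (Abelianization.of (elt Q L)) ^ 2 = 1 := by
    intro L
    induction L with
    | nil =>
      rw [elt_nil]
      simp
    | cons v L ih =>
      rw [elt_cons, map_mul, mul_pow, ih, mul_one, ← map_pow]
      have h1 : (elt Q [v]) ^ 2 = 1 := by
        apply mat_inj
        have h0 : mat (elt Q [v]) = Cfsg.reflectionMatrix ⇑Q v := coe_elt_singleton Q v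
        rw [mat_pow, mat_one, h0, Cfsg.Agent.Lib.OrthMatrix.matrix_eq_iff]
        intro w
        rw [pow_two, ← Matrix.mulVec_mulVec, reflectionMatrix_mulVec, reflectionMatrix_mulVec, refl_refl, Matrix.one_mulVec]
      rw [h1, map_one]
  have h1 := key L
  rw [← map_pow] at h1
  have h3 : (elt Q L) ^ 2 ∈ (Abelianization.of (G := ↥(Cfsg.isometryGroup F ⇑Q))).ker := h1
  rwa [Abelianization.ker_of] at h3

theorem odd_mem (hQ : (Cfsg.Agent.Lib.OrthGroup.B Q).Nondegenerate) (hF : (∃ a : F, a ≠ 0 ∧ a ≠ 1) ∨ finrank F (ι → F) ≠ 4)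
    {x : ↥(Cfsg.isometryGroup F ⇑Q)} {m : ℕ} (hm : Odd m) (hx : x ^ m = 1) : x ∈ Cfsg.Omega F ⇑Q := by
  obtain ⟨l, rfl⟩ := hm
  have h1 : x = (x ^ (l + 1)) ^ 2 := by
    rw [← pow_mul]
    have : (l + 1) * 2 = (2 * l + 1) + 1 := by ring
    rw [this, pow_succ, hx, one_mul]
  rw [h1]
  exact sq_mem Q hQ hF _

end iso

section sym

variable {F : Type u} [Field F]

/-- The matrix of a symplectic element. -/
abbrev sm {n : ℕ} (g : ↥(Matrix.symplecticGroup (Fin n) F)) : Matrix (Fin n ⊕ Fin n) (Fin n ⊕ Fin n) F := g.1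

theorem mat_neg_one_ne {ι : Type*} [Fintype ι] [DecidableEq ι] [Nonempty ι] (h2 : (2 : F) ≠ 0) : (-1 : Matrix ι ι F) ≠ 1 := by
  intro h
  obtain ⟨i⟩ := ‹Nonempty ι›
  have h3 := congrFun (congrFun h i) i
  simp at h3
  apply h2
  linear_combination -h3

open Cfsg.Agent.Lib.SpBasic Cfsg.Agent.Lib.SpCenter in
theorem mem_range_PSp {n : ℕ} (hn : n ≠ 0) {r s : ℕ} (hr : r.Prime) (hs : s.Prime) :
    (r * s ∈ Set.range (orderOf : Cfsg.PSp n F → ℕ)) ↔
      ∃ g : ↥(Matrix.symplecticGroup (Fin n) F), (sm g ^ (r * s) = 1 ∨ sm g ^ (r * s) = -1) ∧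
        sm g ^ r ≠ 1 ∧ sm g ^ r ≠ -1 ∧ sm g ^ s ≠ 1 ∧ sm g ^ s ≠ -1 := by
  haveI : Nonempty (Fin n) := ⟨⟨0, Nat.pos_of_ne_zero hn⟩⟩
  have key : ∀ (g : ↥(Matrix.symplecticGroup (Fin n) F)) (d : ℕ),
      ((g : Cfsg.PSp n F)) ^ d = 1 ↔ (sm g ^ d = 1 ∨ sm g ^ d = -1) := by
    intro g d
    rw [← QuotientGroup.mk_pow, QuotientGroup.eq_one_iff, mem_center_iff]
    constructor
    · rintro (h | h)
      · left
        have h3 := congrArg Subtype.val h
        simpa using h3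
      · right
        have h3 := congrArg Subtype.val h
        simpa [negOne] using h3
    · rintro (h | h)
      · left
        apply Subtype.ext
        simpa using h
      · right
        apply Subtype.ext
        simpa [negOne] using h
  constructor
  · rintro ⟨y, hy⟩
    obtain ⟨g, rfl⟩ := QuotientGroup.mk_surjective y
    obtain ⟨h1, h3, h4⟩ := (orderOf_eq_mul_iff hr hs _).1 hy
    rw [key] at h1
    rw [Ne, key] at h3 h4
    push Not at h3 h4
    exact ⟨g, h1, h3.1, h3.2, h4.1, h4.2⟩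
  · rintro ⟨g, h1, h3, h3', h4, h4'⟩
    refine ⟨(g : Cfsg.PSp n F), (orderOf_eq_mul_iff hr hs _).2 ⟨(key _ _).2 h1, ?_, ?_⟩⟩
    · rw [Ne, key]
      push Not
      exact ⟨h3, h3'⟩
    · rw [Ne, key]
      push Not
      exact ⟨h4, h4'⟩

/-- The self-duality of the characteristic polynomial of a symplectic matrix. -/
theorem dual_sp {n : ℕ} (g : ↥(Matrix.symplecticGroup (Fin n) F)) :
    Dl (RingHom.id F) (sm g).charpoly = (sm g).charpoly := by
  rw [dl_id_apply', Cfsg.Agent.Lib.SpRealize.charpoly_sp_coeff, inv_one, C_1, one_mul, Cfsg.Agent.Lib.SpRealize.charpoly_sp_reverse]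

theorem neg_mem_sp {n : ℕ} (g : ↥(Matrix.symplecticGroup (Fin n) F)) : ∃ g' : ↥(Matrix.symplecticGroup (Fin n) F), sm g' = -sm g := by
  exact ⟨⟨-sm g, SymplecticGroup.neg_mem g.2⟩, rfl⟩

/-- Normalising odd order elements of `PSp`. -/
theorem normal_odd {n : ℕ} (hn : n ≠ 0) (h2 : (2 : F) ≠ 0) {r s : ℕ} (hr : Odd r) (hs : Odd s) :
    (∃ g : ↥(Matrix.symplecticGroup (Fin n) F), (sm g ^ (r * s) = 1 ∨ sm g ^ (r * s) = -1) ∧
        sm g ^ r ≠ 1 ∧ sm g ^ r ≠ -1 ∧ sm g ^ s ≠ 1 ∧ sm g ^ s ≠ -1) ↔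
    ∃ g : ↥(Matrix.symplecticGroup (Fin n) F), sm g ^ (r * s) = 1 ∧ sm g ^ r ≠ 1 ∧ sm g ^ s ≠ 1 := by
  haveI : Nonempty (Fin n) := ⟨⟨0, Nat.pos_of_ne_zero hn⟩⟩
  have hne : (-1 : Matrix (Fin n ⊕ Fin n) (Fin n ⊕ Fin n) F) ≠ 1 := mat_neg_one_ne h2
  have hrs : Odd (r * s) := hr.mul hs
  constructor
  · rintro ⟨g, h1, h3, h3', h4, h4'⟩
    rcases h1 with h1 | h1
    · exact ⟨g, h1, h3, h4⟩
    · obtain ⟨g', hg'⟩ := neg_mem_sp g
      refine ⟨g', ?_, ?_, ?_⟩
      · rw [hg', hrs.neg_pow, h1, neg_neg]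
      · rw [hg', hr.neg_pow]
        intro h
        exact h3' (by rw [← neg_eq_iff_eq_neg, h])
      · rw [hg', hs.neg_pow]
        intro h
        exact h4' (by rw [← neg_eq_iff_eq_neg, h])
  · rintro ⟨g, h1, h3, h4⟩
    refine ⟨g, Or.inl h1, h3, ?_, h4, ?_⟩
    · intro h
      rw [pow_mul, h, hs.neg_pow, one_pow] at h1
      exact hne h1
    · intro h
      rw [mul_comm, pow_mul, h, hr.neg_pow, one_pow] at h1
      exact hne h1

end sym

end Cfsg.Agent.Lib.PGBC4
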