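import Mathlib
import Cfsg.Agent.Lib.PGBC4
import Cfsg.Agent.Lib.SpecBC.PSpElt

/-!
# Commuting unipotent elements; the cases `r s` odd for `B_n(q)` and `C_n(q)`
-/

set_option autoImplicit false
set_option linter.unusedSectionVars false
set_option linter.unusedVariables false

namespace Cfsg.Agent.Lib.PGBC5

open Polynomial Module Matrix QuadraticMap
open Cfsg.Agent.Lib.DualFactors Cfsg.Agent.Lib.PGBC1 Cfsg.Agent.Lib.PGBC2 Cfsg.Agent.Lib.PGBC3 Cfsg.Agent.Lib.PGBC4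
open Cfsg.Agent.Lib.OrthoCount Cfsg.Agent.Lib.OrthMatrix Cfsg.Agent.Lib.QuadFF Cfsg.Agent.Lib.OrthoBasic

universe u

section siegel

variable {F : Type u} [Field F] [Fintype F] {ι : Type} [Fintype ι] [DecidableEq ι]

theorem exists_pair (Q : QuadraticForm F (ι → F)) {W : Submodule F (ι → F)} (hW : 3 ≤ finrank F W) :
    ∃ e y : ι → F, e ∈ W ∧ y ∈ W ∧ e ≠ 0 ∧ Q e = 0 ∧ polar Q e y = 0 ∧ y ∉ Submodule.span F {e} := by
  obtain ⟨⟨e, he⟩, hne, hQe⟩ := exists_singular (restr Q W) hW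
  have hne' : e ≠ 0 := fun h => hne (Subtype.ext h)
  have hQe' : Q e = 0 := hQe
  obtain ⟨φ, hφ⟩ : ∃ φ : W →ₗ[F] F, ∀ w : W, φ w = polar Q e w :=
    ⟨(polarBilin Q e).comp W.subtype, fun w => rfl⟩
  have hrk := LinearMap.finrank_range_add_finrank_ker φ
  have hr1 : finrank F (LinearMap.range φ) ≤ 1 := by
    have := Submodule.finrank_le (LinearMap.range φ)
    rwa [Module.finrank_self] at this
  by_contra hcon
  push Not at hcon
  have hle : (LinearMap.ker φ).map W.subtype ≤ Submodule.span F {e} := by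
    rintro _ ⟨⟨w, hw⟩, hw', rfl⟩
    have h3 : φ ⟨w, hw⟩ = 0 := hw'
    rw [hφ] at h3
    exact hcon e w he hw hne' hQe' h3
  have h4 := Submodule.finrank_mono hle
  rw [finrank_span_singleton hne', Submodule.finrank_map_subtype_eq] at h4
  omega

theorem polar_iso (Q : QuadraticForm F (ι → F)) {A : Matrix ι ι F} (hA : ∀ v, Q (A *ᵥ v) = Q v) (u v : ι → F) :
    polar Q (A *ᵥ u) (A *ᵥ v) = polar Q u v := by
  simp only [polar]
  rw [← Matrix.mulVec_add, hA, hA, hA]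

theorem exists_siegel (p : ℕ) [Fact p.Prime] [CharP F p] (hp3 : p ≠ 2) [Nonempty ι] (Q : QuadraticForm F (ι → F)) (hQ : ND Q)
    {W : Submodule F (ι → F)} (hW : 3 ≤ finrank F W) {A : Matrix ι ι F} (hA : ∀ v, Q (A *ᵥ v) = Q v)
    (hWf : ∀ w ∈ W, A *ᵥ w = w) :
    ∃ E : Matrix ι ι F, (∀ v, Q (E *ᵥ v) = Q v) ∧ Commute A E ∧ E ^ p = 1 ∧ E ≠ 1 := by
  have hp : p.Prime := Fact.out
  obtain ⟨e, y, he, hy, hne, hQe, hey, hys⟩ := exists_pair Q hW
  obtain ⟨T, hT⟩ : ∃ T, T = siegelLin Q e y := ⟨_, rfl⟩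
  have hTv : ∀ x, T x = x + polar Q x e • y - (polar Q x y + Q y * polar Q x e) • e := by
    intro x
    rw [hT, siegelLin_apply]
  obtain ⟨E, hE⟩ : ∃ E, E = LinearMap.toMatrix' T := ⟨_, rfl⟩
  have hEv : ∀ v, E *ᵥ v = T v := fun v => by
    rw [hE, LinearMap.toMatrix'_mulVec]
  have hAe : A *ᵥ e = e := hWf e he
  have hAy : A *ᵥ y = y := hWf y hy
  have hpe : ∀ x, polar Q (A *ᵥ x) e = polar Q x e := fun x => by
    conv_lhs => rw [← hAe]
    exact polar_iso Q hA x e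
  have hpy : ∀ x, polar Q (A *ᵥ x) y = polar Q x y := fun x => by
    conv_lhs => rw [← hAy]
    exact polar_iso Q hA x y
  have hee : polar Q e e = 0 := by
    rw [QuadraticMap.polar_self, hQe]
    simp
  have hye : polar Q y e = 0 := by
    rw [polar_comm]
    exact hey
  refine ⟨E, ?_, ?_, ?_, ?_⟩
  · intro v
    rw [hEv, hT]
    exact siegelLin_Q Q hQe hey v
  · show A * E = E * A
    rw [Cfsg.Agent.Lib.OrthMatrix.matrix_eq_iff]
    intro v
    rw [← Matrix.mulVec_mulVec, ← Matrix.mulVec_mulVec, hEv, hEv, hTv, hTv, hpe, hpy, Matrix.mulVec_sub, Matrix.mulVec_add,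
      Matrix.mulVec_smul, Matrix.mulVec_smul, hAe, hAy]
  · obtain ⟨N, hN⟩ : ∃ N, N = E - 1 := ⟨_, rfl⟩
    have hNv : ∀ v, N *ᵥ v = polar Q v e • y - (polar Q v y + Q y * polar Q v e) • e := by
      intro v
      rw [hN, Matrix.sub_mulVec, hEv, hTv, Matrix.one_mulVec]
      abel
    have hNe : N *ᵥ e = 0 := by
      rw [hNv, hee, hey]
      simp
    have hNN : ∀ v, N *ᵥ (N *ᵥ v) = (polar Q v e * (-(polar Q y y))) • e := by
      intro v
      rw [hNv v, Matrix.mulVec_sub, Matrix.mulVec_smul, Matrix.mulVec_smul, hNe, hNv y, hye]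
      simp [smul_smul]
    have hN3 : N ^ 3 = 0 := by
      rw [Cfsg.Agent.Lib.OrthMatrix.matrix_eq_iff]
      intro v
      have e3 : N ^ 3 = N * (N * N) := by
        rw [pow_succ', pow_two]
      rw [e3, ← Matrix.mulVec_mulVec, ← Matrix.mulVec_mulVec, hNN v, Matrix.mulVec_smul, hNe, smul_zero, Matrix.zero_mulVec]
    have hp3' : 3 ≤ p := by
      have := hp.two_le
      omega
    have hE1 : E = 1 + N := by
      rw [hN]
      abel
    rw [hE1, add_pow_char_of_commute p (Commute.one_left N), one_pow]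
    rw [← Nat.sub_add_cancel hp3', pow_add, hN3, mul_zero, add_zero]
  · intro h
    obtain ⟨x, hx⟩ : ∃ x, polar Q e x ≠ 0 := by
      by_contra hcon
      push Not at hcon
      exact hne (hQ e hcon)
    have hx' : polar Q x e ≠ 0 := by
      rw [polar_comm]
      exact hx
    have h3 : E *ᵥ x = x := by
      rw [h, Matrix.one_mulVec]
    rw [hEv, hTv] at h3
    apply hys
    have h4 : polar Q x e • y = (polar Q x y + Q y * polar Q x e) • e := by
      rw [add_sub_assoc] at h3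
      exact sub_eq_zero.1 (add_eq_left.1 h3)
    have h7 : y = ((polar Q x e)⁻¹ * (polar Q x y + Q y * polar Q x e)) • e := by
      rw [mul_smul, ← h4, smul_smul, inv_mul_cancel₀ hx', one_smul]
    rw [h7]
    exact Submodule.smul_mem _ _ (Submodule.mem_span_singleton_self e)

end siegel

section transvection

variable {F : Type u} [Field F] [Fintype F]

open Cfsg.Agent.Lib.SpBasic

/-- A unipotent element commuting with a symplectic element with a fixed vector. -/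
theorem exists_transvection (p : ℕ) [Fact p.Prime] [CharP F p] {n : ℕ} (g : ↥(Matrix.symplecticGroup (Fin n) F))
    (hg : (sm g).charpoly.eval 1 = 0) :
    ∃ t : ↥(Matrix.symplecticGroup (Fin n) F), Commute (sm g) (sm t) ∧ sm t ^ p = 1 ∧ sm t ≠ 1 := by
  have hev : Module.End.HasEigenvalue (Matrix.toLin' (sm g)) 1 := by
    rw [Module.End.hasEigenvalue_iff_isRoot_charpoly, Matrix.charpoly_toLin']
    exact hg
  obtain ⟨v, hv⟩ := hev.exists_hasEigenvector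
  have hv1 : g • v = v := by
    have h1 := hv.apply_eq_smul
    rw [one_smul] at h1
    exact h1
  have hv0 : v ≠ 0 := hv.2
  have hpF : ((p : ℕ) : F) = 0 := CharP.cast_eq_zero F p
  have hcomm : g * T v (1 : F) = T v 1 * g := by
    have h1 := T_conj g v (1 : F)
    rw [hv1] at h1
    calc g * T v (1 : F) = (g * T v (1 : F) * g⁻¹) * g := by rw [inv_mul_cancel_right]
      _ = T v 1 * g := by rw [h1]
  have hpow : ∀ k : ℕ, (T v (1 : F)) ^ k = T v (k : F) := by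
    intro k
    induction k with
    | zero =>
      simp [T_zero_right]
    | succ k ih =>
      rw [pow_succ, ih, T_mul]
      push_cast
      rfl
  refine ⟨T v 1, ?_, ?_, ?_⟩
  · exact congrArg Subtype.val hcomm
  · have h1 : (T v (1 : F)) ^ p = 1 := by
      rw [hpow, hpF, T_zero_right]
    have h3 := congrArg Subtype.val h1
    simpa using h3
  · intro h
    obtain ⟨y, hy⟩ := exists_ω_ne_zero hv0
    have h1 : T v (1 : F) = 1 := Subtype.ext h
    have h3 := T_smul v (1 : F) y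
    rw [h1, one_smul, one_mul] at h3
    have h4 : (ω v y) • v = 0 := by
      have h5 : y + (0 : Fin n ⊕ Fin n → F) = y + (ω v y) • v := by
        rw [add_zero]
        exact h3
      exact (add_left_cancel h5).symm
    rcases smul_eq_zero.1 h4 with h5 | h5
    · exact hy h5
    · exact hv0 h5

end transvection

section cases

variable {F : Type u} [Field F] [Fintype F]

theorem h2_of_odd (hodd : Odd (Fintype.card F)) : (2 : F) ≠ 0 := by
  apply Ring.two_ne_zero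
  intro h
  have := FiniteField.even_card_iff_char_two.mp h
  exact absurd hodd (by rw [Nat.odd_iff]; omega)

theorem hF_of_odd (hodd : Odd (Fintype.card F)) {α : Type*} [AddCommGroup α] [Module F α] :
    (∃ a : F, a ≠ 0 ∧ a ≠ 1) ∨ finrank F α ≠ 4 := by
  have h2 := h2_of_odd hodd
  refine Or.inl ⟨-1, neg_ne_zero.2 one_ne_zero, ?_⟩
  intro h
  apply h2
  linear_combination -h

theorem hB_odd (hodd : Odd (Fintype.card F)) (n : ℕ) : (Cfsg.Agent.Lib.OrthGroup.B (qOdd n F)).Nondegenerate :=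
  Cfsg.Agent.Lib.OmegaOddClasses.nondegenerate_of_nondeg (Cfsg.Agent.Lib.OrthoOrder.nondeg_qOdd hodd n)

/-- The orthogonal group of `qOdd`. -/
abbrev GO (n : ℕ) (F : Type u) [Field F] := ↥(Cfsg.isometryGroup F ⇑(qOdd n F))

theorem dual_mat (hodd : Odd (Fintype.card F)) {n : ℕ} (x : GO n F) :
    Dl (RingHom.id F) (mat x).charpoly = (mat x).charpoly := by
  refine Cfsg.Agent.Lib.OrthRealize.dual_of_isometry (qOdd n F) (nondegenerate_of_ND (Cfsg.Agent.S2673.nd_odd hodd n)) ?_ (mat_iso x)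
  exact (Matrix.isUnits_det_units x.1).ne_zero

theorem card_O (n : ℕ) : Fintype.card (Unit ⊕ (Fin n ⊕ Fin n)) = 2 * n + 1 := by
  simp
  ring

theorem card_S (n : ℕ) : Fintype.card (Fin n ⊕ Fin n) = 2 * n := by
  simp
  ring

theorem coeff_of_Omega {n : ℕ} {x : GO n F} (hx : x ∈ Cfsg.Omega F ⇑(qOdd n F)) : (mat x).charpoly.coeff 0 = -1 := by
  have h1 := Matrix.det_eq_sign_charpoly_coeff (mat x)
  rw [det_of_mem hx, card_O, pow_succ, pow_mul] at h1
  norm_num at h1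
  linear_combination h1

theorem exists_O_elt (p : ℕ) [Fact p.Prime] [CharP F p] (hodd : Odd (Fintype.card F)) {n : ℕ} {f : F[X]} (hf : SDP f) (hd : f.natDegree ≤ 2 * n) :
    ∃ (x : GO n F) (k : ℕ) (W : Submodule F (Unit ⊕ (Fin n ⊕ Fin n) → F)), mat x ^ k = 1 ∧ (k : F) ≠ 0 ∧
      (mat x).charpoly = f * (X - 1) ^ (2 * n + 1 - f.natDegree) ∧ finrank F W = 2 * n + 1 - f.natDegree ∧
      ∀ w ∈ W, mat x *ᵥ w = w := by
  obtain ⟨A, k, W, hk, hkF, hiso, hc, hW, hWf⟩ := realize_O p hodd hf hd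
  have hk0 : k ≠ 0 := by
    rintro rfl
    exact hkF Nat.cast_zero
  obtain ⟨x, hx⟩ := exists_of_matrix (q := ⇑(qOdd n F)) hk0 hk hiso
  refine ⟨x, k, W, ?_, hkF, ?_, hW, ?_⟩ <;> rw [hx] <;> assumption

theorem exists_S_elt (p : ℕ) [Fact p.Prime] [CharP F p] (h2 : (2 : F) ≠ 0) {n : ℕ} {f : F[X]} (hf : SDP f) (hd : f.natDegree ≤ 2 * n) :
    ∃ (g : ↥(Matrix.symplecticGroup (Fin n) F)) (k : ℕ), sm g ^ k = 1 ∧ (k : F) ≠ 0 ∧
      (sm g).charpoly = f * (X - 1) ^ (2 * n - f.natDegree) := by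
  obtain ⟨g, hg, hc⟩ := realize_sp p h2 hf hd
  refine ⟨g, orderOf g, ?_, Cfsg.Agent.Lib.SemisimpleGL.cast_ne_of_coprime (F := F) p hg, hc⟩
  have h3 : ((g ^ orderOf g : ↥(Matrix.symplecticGroup (Fin n) F)) : Matrix (Fin n ⊕ Fin n) (Fin n ⊕ Fin n) F) = 1 := by
    rw [pow_orderOf_eq_one]
    rfl
  rw [SubmonoidClass.coe_pow] at h3
  exact h3

/-! Case A -/

theorem O_of_CA (p : ℕ) [Fact p.Prime] [CharP F p] (hodd : Odd (Fintype.card F)) {n r s : ℕ} (hrs : Odd (r * s)) {f : F[X]} (hf : SDP f) (hd : f.natDegree ≤ 2 * n)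
    (h1 : FD f (X ^ (r * s) - 1)) (h3 : ¬ FD f (X ^ r - 1)) (h4 : ¬ FD f (X ^ s - 1)) :
    ∃ x : GO n F, x ∈ Cfsg.Omega F ⇑(qOdd n F) ∧ mat x ^ (r * s) = 1 ∧ mat x ^ r ≠ 1 ∧ mat x ^ s ≠ 1 := by
  obtain ⟨x, k, W, hk, hkF, hc, -, -⟩ := exists_O_elt p hodd hf hd
  have key := pow_one_iff_of_chi hkF hk hc
  have hx : mat x ^ (r * s) = 1 := (key _).2 h1
  refine ⟨x, ?_, hx, fun h => h3 ((key _).1 h), fun h => h4 ((key _).1 h)⟩
  exact odd_mem _ (hB_odd hodd n) (hF_of_odd hodd) hrs ((pow_eq_one_iff_mat x _).2 hx)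

theorem S_of_CA (p : ℕ) [Fact p.Prime] [CharP F p] (h2 : (2 : F) ≠ 0) {n r s : ℕ} {f : F[X]} (hf : SDP f) (hd : f.natDegree ≤ 2 * n)
    (h1 : FD f (X ^ (r * s) - 1)) (h3 : ¬ FD f (X ^ r - 1)) (h4 : ¬ FD f (X ^ s - 1)) :
    ∃ g : ↥(Matrix.symplecticGroup (Fin n) F), sm g ^ (r * s) = 1 ∧ sm g ^ r ≠ 1 ∧ sm g ^ s ≠ 1 := by
  obtain ⟨g, k, hk, hkF, hc⟩ := exists_S_elt p h2 hf hd
  have key := pow_one_iff_of_chi hkF hk hc
  exact ⟨g, (key _).2 h1, fun h => h3 ((key _).1 h), fun h => h4 ((key _).1 h)⟩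

/-! Case B -/

theorem not_FD_one {f : F[X]} (hf : SDP f) (hf1 : f ≠ 1) : ¬ FD f (X ^ 1 - 1) := by
  intro h
  obtain ⟨j, hjm, hji, hjd⟩ := Polynomial.exists_monic_irreducible_factor f (by
    intro hu
    exact hf1 (hf.monic.eq_one_of_isUnit hu))
  have h3 := h j hjm hji hjd
  rw [pow_one] at h3
  have h4 := eq_of_monic_of_associated hjm mon_sub (hji.associated_of_dvd irr_sub h3)
  rw [h4] at hjd
  have h5 : (X - C (1 : F)) ∣ f := by simpa using hjd
  exact hf.ev1 (dvd_iff_isRoot.1 h5)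

theorem O_of_CB (p : ℕ) [Fact p.Prime] [CharP F p] (hodd : Odd (Fintype.card F)) (hp2 : p ≠ 2) {n s : ℕ} (hs : Odd s) (hcop : Nat.Coprime p s) {f : F[X]} (hf : SDP f)
    (hd : f.natDegree + 2 ≤ 2 * n) (hf1 : f ≠ 1) (h1 : FD f (X ^ s - 1)) :
    ∃ x : GO n F, x ∈ Cfsg.Omega F ⇑(qOdd n F) ∧ mat x ^ (p * s) = 1 ∧ mat x ^ p ≠ 1 ∧ mat x ^ s ≠ 1 := by
  have hp : p.Prime := Fact.out
  obtain ⟨x, k, W, hk, hkF, hc, hWd, hWf⟩ := exists_O_elt p hodd hf (n := n) (by omega)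
  have key := pow_one_iff_of_chi hkF hk hc
  have hx : mat x ^ s = 1 := (key _).2 h1
  have hx1 : mat x ≠ 1 := by
    intro h
    apply not_FD_one hf hf1
    apply (key 1).1
    rw [pow_one, h]
  obtain ⟨E, hEi, hEc, hEp, hE1⟩ := exists_siegel p hp2 (qOdd n F) (Cfsg.Agent.S2673.nd_odd hodd n) (W := W) (by omega) (mat_iso x) hWf
  obtain ⟨y, hy⟩ := exists_of_matrix (q := ⇑(qOdd n F)) hp.ne_zero hEp hEi
  have hprod := comm_product (g := mat x) (t := mat y) (by rw [hy]; exact hEc) hcop hx hx1 (by rw [hy]; exact hEp) (by rw [hy]; exact hE1)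
  have hpo : Odd p := hp.odd_of_ne_two hp2
  refine ⟨x * y, ?_, ?_, ?_, ?_⟩
  · refine odd_mem _ (hB_odd hodd n) (hF_of_odd hodd) (hpo.mul hs) ((pow_eq_one_iff_mat _ _).2 ?_)
    rw [mat_mul]
    exact hprod.1
  · rw [mat_mul]
    exact hprod.1
  · rw [mat_mul]
    exact hprod.2.1
  · rw [mat_mul]
    exact hprod.2.2

theorem S_of_CB (p : ℕ) [Fact p.Prime] [CharP F p] (h2 : (2 : F) ≠ 0) {n s : ℕ} (hcop : Nat.Coprime p s) {f : F[X]} (hf : SDP f)
    (hd : f.natDegree + 2 ≤ 2 * n) (hf1 : f ≠ 1) (h1 : FD f (X ^ s - 1)) :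
    ∃ g : ↥(Matrix.symplecticGroup (Fin n) F), sm g ^ (p * s) = 1 ∧ sm g ^ p ≠ 1 ∧ sm g ^ s ≠ 1 := by
  obtain ⟨g, k, hk, hkF, hc⟩ := exists_S_elt p h2 hf (n := n) (by omega)
  have key := pow_one_iff_of_chi hkF hk hc
  have hx : sm g ^ s = 1 := (key _).2 h1
  have hx1 : sm g ≠ 1 := by
    intro h
    apply not_FD_one hf hf1
    apply (key 1).1
    rw [pow_one, h]
  have hev : (sm g).charpoly.eval 1 = 0 := by
    rw [hc, eval_mul, eval_pow]
    have he : 2 * n - f.natDegree ≠ 0 := by omega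
    simp [he]
  obtain ⟨t, htc, htp, ht1⟩ := exists_transvection p g hev
  have hprod := comm_product htc hcop hx hx1 htp ht1
  exact ⟨g * t, hprod⟩

/-! Case C -/

theorem X2_facts (h2 : (2 : F) ≠ 0) : FD (X ^ 2 + 1 : F[X]) (X ^ 4 - 1) ∧ ¬ FD (X ^ 2 + 1 : F[X]) (X ^ 2 - 1) := by
  constructor
  · intro j _ _ hj
    exact hj.trans ⟨X ^ 2 - 1, by ring⟩
  · intro h
    have hnu : ¬ IsUnit (X ^ 2 + 1 : F[X]) := by
      intro hu
      have := natDegree_eq_zero_of_isUnit hu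
      rw [deg_X2] at this
      omega
    obtain ⟨i, him, hii, hid⟩ := Polynomial.exists_monic_irreducible_factor _ hnu
    have h3 := h i him hii hid
    have h5 : i ∣ (X ^ 2 + 1) - (X ^ 2 - 1) := dvd_sub hid h3
    have h6 : (X ^ 2 + 1 : F[X]) - (X ^ 2 - 1) = C 2 := by
      simp only [C_ofNat]
      ring
    rw [h6] at h5
    have h7 : IsUnit (C (2 : F)) := isUnit_C.2 (isUnit_iff_ne_zero.2 h2)
    exact hii.not_isUnit (isUnit_of_dvd_unit h5 h7)

theorem O_of_C (p : ℕ) [Fact p.Prime] [CharP F p] (hodd : Odd (Fintype.card F)) (hp2 : p ≠ 2) {n : ℕ} (hn : 2 ≤ n) :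
    ∃ x : GO n F, x ∈ Cfsg.Omega F ⇑(qOdd n F) ∧ mat x ^ (p * 2) = 1 ∧ mat x ^ p ≠ 1 ∧ mat x ^ 2 ≠ 1 := by
  have hp : p.Prime := Fact.out
  have h2 := h2_of_odd hodd
  have hcop : Nat.Coprime p 2 := (Nat.coprime_primes hp Nat.prime_two).2 hp2
  obtain ⟨hX1, hX2⟩ := X2_facts h2
  obtain ⟨x, k, W, hk, hkF, hc, hWd, hWf⟩ := exists_O_elt p hodd (SDP_X2 h2) (n := n) (by rw [deg_X2]; omega)
  rw [deg_X2] at hc hWd
  have key := pow_one_iff_of_chi hkF hk hc
  have hx4 : (mat x ^ 2) ^ 2 = 1 := by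
    rw [← pow_mul]
    exact (key _).2 hX1
  have hx1 : mat x ^ 2 ≠ 1 := fun h => hX2 ((key _).1 h)
  obtain ⟨E, hEi, hEc, hEp, hE1⟩ := exists_siegel p hp2 (qOdd n F) (Cfsg.Agent.S2673.nd_odd hodd n) (W := W) (by omega) (mat_iso x) hWf
  obtain ⟨y, hy⟩ := exists_of_matrix (q := ⇑(qOdd n F)) hp.ne_zero hEp hEi
  have hprod := comm_product (g := mat x ^ 2) (t := mat y) (by rw [hy]; exact hEc.pow_left 2) hcop hx4 hx1 (by rw [hy]; exact hEp) (by rw [hy]; exact hE1)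
  have hpo : Odd p := hp.odd_of_ne_two hp2
  have e : mat (x ^ 2 * y) = mat x ^ 2 * mat y := by
    rw [mat_mul, mat_pow]
  refine ⟨x ^ 2 * y, ?_, ?_, ?_, ?_⟩
  · refine Subgroup.mul_mem _ (sq_mem _ (hB_odd hodd n) (hF_of_odd hodd) x) ?_
    exact odd_mem _ (hB_odd hodd n) (hF_of_odd hodd) hpo ((pow_eq_one_iff_mat _ _).2 (by rw [hy]; exact hEp))
  · rw [e]
    exact hprod.1
  · rw [e]
    exact hprod.2.1
  · rw [e]
    exact hprod.2.2

/-- The range of element orders of `PΩ`. -/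
theorem mem_range_POmega (hodd : Odd (Fintype.card F)) {n : ℕ} (hn : 2 ≤ n) {r s : ℕ} (hr : r.Prime) (hs : s.Prime) :
    (r * s ∈ Set.range (orderOf : Cfsg.POmega F (Cfsg.quadFormOdd n F) → ℕ)) ↔
      ∃ x : GO n F, x ∈ Cfsg.Omega F ⇑(qOdd n F) ∧ mat x ^ (r * s) = 1 ∧ mat x ^ r ≠ 1 ∧ mat x ^ s ≠ 1 := by
  have hf : Cfsg.quadFormOdd n F = ⇑(qOdd n F) := funext fun v => (qOdd_apply n v).symm
  rw [hf]
  have hcenter := Cfsg.Agent.Lib.OmegaOddClasses.center_Omega_odd hodd n hn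
  have hinj : Function.Injective (QuotientGroup.mk' (Subgroup.center (Cfsg.Omega F ⇑(qOdd n F)))) := by
    rw [injective_iff_map_eq_one]
    intro a ha
    have : a ∈ Subgroup.center (Cfsg.Omega F ⇑(qOdd n F)) := (QuotientGroup.eq_one_iff a).mp ha
    rw [hcenter] at this
    exact this
  have key : ∀ g : ↥(Cfsg.Omega F ⇑(qOdd n F)), orderOf (g : Cfsg.POmega F ⇑(qOdd n F)) = orderOf (g : GO n F) := by
    intro g
    rw [Subgroup.orderOf_coe]
    exact orderOf_injective _ hinj g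
  have key2 : ∀ x : GO n F, orderOf x = r * s ↔ mat x ^ (r * s) = 1 ∧ mat x ^ r ≠ 1 ∧ mat x ^ s ≠ 1 := by
    intro x
    rw [orderOf_eq_mul_iff hr hs, pow_eq_one_iff_mat, Ne, pow_eq_one_iff_mat, Ne, pow_eq_one_iff_mat]
  constructor
  · rintro ⟨y, hy⟩
    obtain ⟨g, rfl⟩ := QuotientGroup.mk_surjective y
    rw [key] at hy
    exact ⟨g.1, g.2, (key2 _).1 hy⟩
  · rintro ⟨x, hx, h⟩
    exact ⟨((⟨x, hx⟩ : ↥(Cfsg.Omega F ⇑(qOdd n F))) : Cfsg.POmega F ⇑(qOdd n F)), by rw [key]; exact (key2 _).2 h⟩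

/-- Both sides agree on odd orders prime to `p`. -/
theorem caseA (p : ℕ) [Fact p.Prime] [CharP F p] (hodd : Odd (Fintype.card F)) {n : ℕ} (hn : 2 ≤ n) {r s : ℕ} (hr : r.Prime) (hs : s.Prime)
    (hr2 : r ≠ 2) (hs2 : s ≠ 2) (hrp : r ≠ p) (hsp : s ≠ p) :
    (r * s ∈ Set.range (orderOf : Cfsg.POmega F (Cfsg.quadFormOdd n F) → ℕ)) ↔ (r * s ∈ Set.range (orderOf : Cfsg.PSp n F → ℕ)) := by
  have hp : p.Prime := Fact.out
  have h2 := h2_of_odd hodd
  have hro : Odd r := hr.odd_of_ne_two hr2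
  have hso : Odd s := hs.odd_of_ne_two hs2
  have hn0 : n ≠ 0 := by omega
  have hF : ((r * s : ℕ) : F) ≠ 0 := by
    rw [Ne, CharP.cast_eq_zero_iff F p]
    intro h
    rcases hp.dvd_mul.1 h with h3 | h3
    · exact hrp ((Nat.prime_dvd_prime_iff_eq hp hr).1 h3).symm
    · exact hsp ((Nat.prime_dvd_prime_iff_eq hp hs).1 h3).symm
  rw [mem_range_POmega hodd hn hr hs, mem_range_PSp hn0 hr hs, normal_odd hn0 h2 hro hso]
  constructor
  · rintro ⟨x, -, h1, h3, h4⟩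
    obtain ⟨f, hf, hd, hf1, hf2, hf3⟩ := extractA h2 (dual_mat hodd x) (hro.mul hso) hF h1 h3 h4 (by rw [card_O])
    exact S_of_CA p h2 hf hd hf1 hf2 hf3
  · rintro ⟨g, h1, h3, h4⟩
    obtain ⟨f, hf, hd, hf1, hf2, hf3⟩ := extractA (n := n) h2 (dual_sp g) (hro.mul hso) hF h1 h3 h4 (by rw [card_S]; omega)
    exact O_of_CA p hodd (hro.mul hso) hf hd hf1 hf2 hf3

/-- Both sides agree on orders `p s`, `s` odd and different from `p`. -/
theorem caseB (p : ℕ) [Fact p.Prime] [CharP F p] (hodd : Odd (Fintype.card F)) (hp2 : p ≠ 2) {n : ℕ} (hn : 2 ≤ n) {s : ℕ} (hs : s.Prime)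
    (hs2 : s ≠ 2) (hsp : s ≠ p) :
    (p * s ∈ Set.range (orderOf : Cfsg.POmega F (Cfsg.quadFormOdd n F) → ℕ)) ↔ (p * s ∈ Set.range (orderOf : Cfsg.PSp n F → ℕ)) := by
  have hp : p.Prime := Fact.out
  have h2 := h2_of_odd hodd
  have hpo : Odd p := hp.odd_of_ne_two hp2
  have hso : Odd s := hs.odd_of_ne_two hs2
  have hn0 : n ≠ 0 := by omega
  have hcop : Nat.Coprime p s := (Nat.coprime_primes hp hs).2 (Ne.symm hsp)
  have hnd : ¬ p ∣ s := fun h => hsp ((Nat.prime_dvd_prime_iff_eq hp hs).1 h).symm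
  rw [mem_range_POmega hodd hn hp hs, mem_range_PSp hn0 hp hs, normal_odd hn0 h2 hpo hso]
  constructor
  · rintro ⟨x, -, h1, h3, h4⟩
    obtain ⟨f, hf, hd, hf1, hf2⟩ := extractB p h2 (dual_mat hodd x) hso hnd h1 h3 h4 (by rw [card_O])
    exact S_of_CB p h2 hcop hf hd hf1 hf2
  · rintro ⟨g, h1, h3, h4⟩
    obtain ⟨f, hf, hd, hf1, hf2⟩ := extractB (n := n) p h2 (dual_sp g) hso hnd h1 h3 h4 (by rw [card_S]; omega)
    exact O_of_CB p hodd hp2 hso hcop hf hd hf1 hf2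

/-- Both sides have elements of order `2 p`. -/
theorem caseC (p : ℕ) [Fact p.Prime] [CharP F p] (hodd : Odd (Fintype.card F)) (hp2 : p ≠ 2) {n : ℕ} (hn : 3 ≤ n) :
    (p * 2 ∈ Set.range (orderOf : Cfsg.POmega F (Cfsg.quadFormOdd n F) → ℕ)) ∧ (p * 2 ∈ Set.range (orderOf : Cfsg.PSp n F → ℕ)) := by
  have hp : p.Prime := Fact.out
  constructor
  · rw [mem_range_POmega hodd (by omega) hp Nat.prime_two]
    exact O_of_C p hodd hp2 (by omega)
  · obtain ⟨m, rfl⟩ : ∃ m, n = m + 1 := ⟨n - 1, by omega⟩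
    obtain ⟨x, hx⟩ := Cfsg.Agent.Lib.SpecBC.exists_psp_elt (F := F) p rfl hodd (m := m) (by omega)
    have hq1 : Odd (Fintype.card F ^ m) := hodd.pow
    obtain ⟨N, hN⟩ : ∃ N, Fintype.card F ^ m + 1 = 2 * N := ⟨(Fintype.card F ^ m + 1) / 2, by
      obtain ⟨c, hc⟩ := hq1
      omega⟩
    have hN0 : N ≠ 0 := by omega
    refine ⟨x ^ N, ?_⟩
    have hdvd : N ∣ orderOf x := by
      rw [hx, hN]
      exact ⟨p * 2, by ring⟩
    show orderOf (x ^ N) = p * 2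
    rw [orderOf_pow_of_dvd hN0 hdvd, hx, hN]
    have : p * (2 * N) = (p * 2) * N := by ring
    rw [this]
    exact Nat.mul_div_cancel _ (Nat.pos_of_ne_zero hN0)

end cases

end Cfsg.Agent.Lib.PGBC5
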