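import Mathlib
import Cfsg.Agent.Lib.PGBC5
import Cfsg.Agent.Lib.Rank2Om
import Cfsg.Agent.Lib.HypNeg
import Cfsg.Agent.S2620
import Cfsg.Agent.S2621

/-!
# Elements of order `2 s` in `B_n(q)` and `C_n(q)`
-/

set_option autoImplicit false
set_option linter.unusedSectionVars false
set_option linter.unusedVariables false

namespace Cfsg.Agent.Lib.PGBC6

open Polynomial Module Matrix QuadraticMap
open Cfsg.Agent.Lib.DualFactors Cfsg.Agent.Lib.PGBC1 Cfsg.Agent.Lib.PGBC2 Cfsg.Agent.Lib.PGBC3 Cfsg.Agent.Lib.PGBC4 Cfsg.Agent.Lib.PGBC5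
open Cfsg.Agent.Lib.OrthoCount Cfsg.Agent.Lib.OrthMatrix Cfsg.Agent.Lib.QuadFF Cfsg.Agent.Lib.OrthoBasic
open Cfsg.Agent.Lib.QuadClass Cfsg.Agent.Lib.OrthRealize Cfsg.Agent.Lib.SpinorCrit Cfsg.Agent.Lib.Rank2Om

universe u

section disc

variable {F : Type u} [Field F] [Fintype F]

theorem gram_plus (hodd : Odd (Fintype.card F)) {n : ℕ} (hn : 1 ≤ n) :
    IsSquare (gram₀ (qPlus n F)).det ↔ (Fintype.card F) ^ n % 4 = 1 := by
  have hf : Cfsg.quadFormPlus n F = ⇑(qPlus n F) := funext fun v => (qPlus_apply n v).symm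
  have h1 := Cfsg.Agent.S2620.result (F := F) rfl hodd (m := n) hn (Pi.basisFun F (Fin n ⊕ Fin n))
  have h3 : (Matrix.of fun i j : Fin n ⊕ Fin n => QuadraticMap.polar (Cfsg.quadFormPlus n F) (Pi.basisFun F (Fin n ⊕ Fin n) i) (Pi.basisFun F (Fin n ⊕ Fin n) j)) = gram₀ (qPlus n F) := by
    ext i j
    simp only [Matrix.of_apply, Pi.basisFun_apply, gram₀, hf]
  rw [h3] at h1
  rw [h1, ← Cfsg.Agent.Lib.QuadGram.isSquare_neg_one_pow_iff hodd, Cfsg.Agent.Lib.HypNeg.isSquare_neg_one_pow_iff' hodd]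

theorem gram_minus (hodd : Odd (Fintype.card F)) {n : ℕ} (hn : 1 ≤ n) (a b : F) (hab : ∀ z₁ z₂ : F, z₁ ^ 2 + a * z₁ * z₂ + b * z₂ ^ 2 = 0 → z₁ = 0 ∧ z₂ = 0) :
    IsSquare (gram₀ (qMinus (n - 1) a b)).det ↔ ¬ ((Fintype.card F) ^ n % 4 = 1) := by
  have hf : Cfsg.quadFormMinus (n - 1) F a b = ⇑(qMinus (n - 1) a b) := funext fun v => (qMinus_apply (n - 1) a b v).symm
  have h1 := Cfsg.Agent.S2621.result (F := F) rfl hodd (m := n) hn a b hab (Pi.basisFun F ((Fin (n - 1) ⊕ Fin (n - 1)) ⊕ Fin 2))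
  have h3 : (Matrix.of fun i j : (Fin (n - 1) ⊕ Fin (n - 1)) ⊕ Fin 2 => QuadraticMap.polar (Cfsg.quadFormMinus (n - 1) F a b) (Pi.basisFun F ((Fin (n - 1) ⊕ Fin (n - 1)) ⊕ Fin 2) i) (Pi.basisFun F ((Fin (n - 1) ⊕ Fin (n - 1)) ⊕ Fin 2) j)) = gram₀ (qMinus (n - 1) a b) := by
    ext i j
    simp only [Matrix.of_apply, Pi.basisFun_apply, gram₀, hf]
  rw [h3] at h1
  rw [h1, ← Cfsg.Agent.Lib.QuadGram.isSquare_neg_one_pow_iff hodd, Cfsg.Agent.Lib.HypNeg.isSquare_neg_one_pow_iff' hodd]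

theorem disc_transfer (h2 : (2 : F) ≠ 0) {U : Type*} [AddCommGroup U] [Module F U] {QU : QuadraticForm F U} {m : ℕ}
    (b : Basis (Fin m) F U) (horth : ∀ i j, i ≠ j → polar QU (b i) (b j) = 0) (hne : ∀ i, QU (b i) ≠ 0) (hm : Even m)
    {κ : Type} [Fintype κ] [DecidableEq κ] (Q' : QuadraticForm F (κ → F)) (e : U ≃ₗ[F] (κ → F)) (he : ∀ v, Q' (e v) = QU v) :
    IsSquare (∏ i, QU (b i)) ↔ IsSquare (gram₀ Q').det := by
  have hb' : OB Q' (b.map e) := by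
    refine ⟨fun i j hij => ?_, fun i => ?_⟩
    · rw [Basis.map_apply, Basis.map_apply]
      show polar Q' (e (b i)) (e (b j)) = 0
      have h3 : polar Q' (e (b i)) (e (b j)) = polar QU (b i) (b j) := by
        simp only [polar]
        rw [← map_add, he, he, he]
      rw [h3]
      exact horth i j hij
    · rw [Basis.map_apply, he]
      exact hne i
  have h3 := gram_iff h2 hb' (by rwa [Fintype.card_fin])
  rw [← h3]
  have h4 : ∏ i, Q' ((b.map e) i) = ∏ i, QU (b i) :=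
    Finset.prod_congr rfl fun i _ => by rw [Basis.map_apply, he]
  rw [h4]

theorem numeric_finish {q m s : ℕ} (hq : Odd q) (hs : s.Prime) (hs2 : s ≠ 2)
    (hcase : ((q : ZMod s) ^ m = 1 ∧ q ^ m % 4 = 1) ∨ ((q : ZMod s) ^ m = -1 ∧ ¬ (q ^ m % 4 = 1))) :
    4 * s ∣ q ^ m - 1 ∨ 4 * s ∣ q ^ m + 1 := by
  have hodd : Odd (q ^ m) := hq.pow
  have h1 : 1 ≤ q ^ m := hodd.pos
  have hcop : Nat.Coprime 4 s := by
    have h3 : Nat.Coprime 2 s := (Nat.coprime_primes Nat.prime_two hs).2 (Ne.symm hs2)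
    have h4 : (4 : ℕ) = 2 ^ 2 := by norm_num
    rw [h4]
    exact Nat.Coprime.pow_left 2 h3
  rcases hcase with ⟨h3, h4⟩ | ⟨h3, h4⟩
  · left
    refine hcop.mul_dvd_of_dvd_of_dvd (by omega) ?_
    rw [← ZMod.natCast_eq_zero_iff, Nat.cast_sub h1]
    push_cast
    rw [h3, sub_self]
  · right
    obtain ⟨c, hc⟩ := hodd
    refine hcop.mul_dvd_of_dvd_of_dvd (by omega) ?_
    rw [← ZMod.natCast_eq_zero_iff]
    push_cast
    rw [h3, neg_add_cancel]

end disc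

section core

variable {F : Type u} [Field F] [Fintype F] {ι : Type} [Fintype ι] [DecidableEq ι]

open Cfsg.Agent.Lib.OrthGroup Cfsg.Agent.Lib.OrthOmega in
/-- The discriminant of the `-1` eigenspace of an involution in `Ω`. -/
theorem core_disc (hodd : Odd (Fintype.card F)) (Q : QuadraticForm F (ι → F)) (hND : ND Q) (hB : (B Q).Nondegenerate)
    (y : ↥(Cfsg.isometryGroup F ⇑Q)) (hy : y ∈ Cfsg.Omega F ⇑Q) (hYY : mat y * mat y = 1)
    {U : Submodule F (ι → F)} (hU : ∀ w, w ∈ U ↔ mat y *ᵥ w = -w) :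
    ND (restr Q U) ∧ ∃ b : Basis (Fin (finrank F U)) F U, (∀ i j, i ≠ j → polar (restr Q U) (b i) (b j) = 0) ∧
      (∀ i, restr Q U (b i) ≠ 0) ∧ Even (finrank F U) ∧ IsSquare (∏ i, restr Q U (b i)) := by
  classical
  have h2 := h2_of_odd hodd
  haveI : Invertible (2 : F) := invertibleOfNonzero h2
  obtain ⟨Y, hY⟩ : ∃ Y, Y = mat y := ⟨_, rfl⟩
  rw [← hY] at hYY hU
  have hYi : ∀ v, Q (Y *ᵥ v) = Q v := fun v => by
    rw [hY]
    exact mat_iso y v
  have hpolY := polar_iso Q hYi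
  have hYY' : ∀ v, Y *ᵥ (Y *ᵥ v) = v := by
    intro v
    rw [Matrix.mulVec_mulVec, hYY, Matrix.one_mulVec]
  have hdec : ∀ v, ∃ w u, v = w + u ∧ w ∈ U ∧ Y *ᵥ u = u := by
    intro v
    refine ⟨(2 : F)⁻¹ • (v - Y *ᵥ v), (2 : F)⁻¹ • (v + Y *ᵥ v), ?_, ?_, ?_⟩
    · rw [← smul_add]
      have h3 : v - Y *ᵥ v + (v + Y *ᵥ v) = (2 : F) • v := by
        rw [two_smul]
        abel
      rw [h3, smul_smul, inv_mul_cancel₀ h2, one_smul]
    · rw [hU, Matrix.mulVec_smul, Matrix.mulVec_sub, hYY', ← smul_neg, neg_sub]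
    · rw [Matrix.mulVec_smul, Matrix.mulVec_add, hYY', add_comm]
  have horth : ∀ w ∈ U, ∀ u, Y *ᵥ u = u → polar Q w u = 0 := by
    intro w hw u hu
    have h3 := hpolY w u
    rw [(hU w).1 hw, hu, polar_neg_left] at h3
    have h4 : (2 : F) * polar Q w u = 0 := by
      have h5 : -polar Q w u = polar Q w u := by simpa using h3
      linear_combination -h5
    exact (mul_eq_zero.1 h4).resolve_left h2
  have hUND : ND (restr Q U) := by
    rintro ⟨w, hw⟩ hw0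
    apply Subtype.ext
    show w = 0
    apply hND w
    intro v
    obtain ⟨w', u, rfl, hw', hu⟩ := hdec v
    rw [polar_add_right, horth w hw u hu, add_zero]
    have h3 := hw0 ⟨w', hw'⟩
    simpa using h3
  refine ⟨hUND, ?_⟩
  have hsymm : (polarBilin (restr Q U)).IsSymm := ⟨fun a b => by
    show polar (restr Q U) a b = polar (restr Q U) b a
    exact polar_comm _ _ _⟩
  obtain ⟨b, hb⟩ := LinearMap.BilinForm.exists_orthogonal_basis hsymm
  have hB0 : ∀ i j, i ≠ j → polar (restr Q U) (b i) (b j) = 0 := fun i j hij => hb hij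
  have hbne : ∀ i, restr Q U (b i) ≠ 0 := by
    intro i h0
    apply b.ne_zero i
    apply hUND
    intro t
    have ht : t = ∑ j, (b.repr t j) • b j := (b.sum_repr t).symm
    show polarBilin (restr Q U) (b i) t = 0
    rw [ht, map_sum]
    refine Finset.sum_eq_zero fun j _ => ?_
    rw [map_smul]
    by_cases hij : i = j
    · subst hij
      show (b.repr t i) • polar (restr Q U) (b i) (b i) = 0
      rw [QuadraticMap.polar_self, h0]
      simp
    · show (b.repr t j) • polar (restr Q U) (b i) (b j) = 0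
      rw [hB0 i j hij, smul_zero]
  obtain ⟨v, hv⟩ : ∃ v : Fin (finrank F U) → (ι → F), ∀ i, v i = (b i : ι → F) := ⟨fun i => (b i : ι → F), fun i => rfl⟩
  have hv0 : ∀ i j, i ≠ j → B Q (v i) (v j) = 0 := by
    intro i j hij
    have h3 := hB0 i j hij
    rw [polar_restr] at h3
    show polar Q (v i) (v j) = 0
    rw [hv, hv]
    exact h3
  have hvQ : ∀ i, Q (v i) ≠ 0 := by
    intro i
    rw [hv]
    exact hbne i
  obtain ⟨vs, hvs⟩ : ∃ vs, vs = (List.finRange (finrank F U)).map v := ⟨_, rfl⟩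
  have hvsne : ∀ u ∈ vs, Q u ≠ 0 := by
    intro u hu
    rw [hvs] at hu
    obtain ⟨i, -, rfl⟩ := List.mem_map.1 hu
    exact hvQ i
  have hneg : ∀ w ∈ U, prodR Q vs w = -w := by
    intro w hw
    have hw' : w = ∑ i, (b.repr ⟨w, hw⟩ i) • v i := by
      have h3 := congrArg Subtype.val (b.sum_repr ⟨w, hw⟩)
      simp only [AddSubmonoidClass.coe_finsetSum, Submodule.coe_smul] at h3
      simp only [hv]
      exact h3.symm
    rw [hw', map_sum, ← Finset.sum_neg_distrib]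
    refine Finset.sum_congr rfl fun j _ => ?_
    rw [map_smul, hvs, prodR_orth_apply Q v hv0 hvQ _ (List.nodup_finRange _) j, if_pos (List.mem_finRange j), smul_neg]
  have hfix : ∀ (L : List (ι → F)) (u : ι → F), (∀ l ∈ L, B Q u l = 0) → prodR Q L u = u := by
    intro L u
    induction L with
    | nil =>
      intro _
      rfl
    | cons l L ih =>
      intro h
      rw [prodR_cons]
      show refl Q l (prodR Q L u) = u
      rw [ih fun l' hl' => h l' (List.mem_cons_of_mem _ hl')]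
      exact refl_of_perp Q (h l List.mem_cons_self)
  have hmain : mat y = (vs.map (fun w => Cfsg.reflectionMatrix ⇑Q w)).prod := by
    rw [← hY, Cfsg.Agent.Lib.OrthMatrix.matrix_eq_iff]
    intro t
    rw [listProd_mulVec]
    obtain ⟨w, u, rfl, hw, hu⟩ := hdec t
    rw [Matrix.mulVec_add, map_add, (hU w).1 hw, hu, hneg w hw, hfix vs u]
    intro l hl
    rw [hvs] at hl
    obtain ⟨i, -, rfl⟩ := List.mem_map.1 hl
    show polar Q u (v i) = 0
    rw [polar_comm, hv]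
    exact horth _ (b i).2 u hu
  have hmem := (mem_Omega_iff_of_list Q hB (hF_of_odd hodd) y vs hvsne hmain).1 hy
  refine ⟨b, hB0, hbne, ?_, ?_⟩
  · have h3 := hmem.1
    rw [hvs, List.length_map, List.length_finRange] at h3
    exact h3
  · have h3 := hmem.2
    rw [hvs, List.map_map, ← Fin.prod_univ_def] at h3
    have h4 : ∏ i, (⇑Q ∘ v) i = ∏ i, restr Q U (b i) :=
      Finset.prod_congr rfl fun i _ => by
        rw [Function.comp_apply, hv]
        rfl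
    rwa [h4] at h3

theorem core_numeric (hodd : Odd (Fintype.card F)) (Q : QuadraticForm F (ι → F)) (hND : ND Q) (hB : (Cfsg.Agent.Lib.OrthGroup.B Q).Nondegenerate)
    {s : ℕ} [hsF : Fact s.Prime] (hs2 : s ≠ 2) (hrq : ((Fintype.card F : ℕ) : ZMod s) ≠ 0)
    (x : ↥(Cfsg.isometryGroup F ⇑Q)) (hx : x ∈ Cfsg.Omega F ⇑Q) (hA : mat x ^ (2 * s) = 1) (h1 : mat x ^ s ≠ 1)
    (hm1 : (mat x).charpoly.eval (-1) ≠ 0) :
    ∃ m' : ℕ, m' ≠ 0 ∧ 2 * m' ≤ Fintype.card ι ∧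
      ((((Fintype.card F : ℕ) : ZMod s) ^ m' = 1 ∧ (Fintype.card F) ^ m' % 4 = 1) ∨
        (((Fintype.card F : ℕ) : ZMod s) ^ m' = -1 ∧ ¬ ((Fintype.card F) ^ m' % 4 = 1))) := by
  classical
  have hs : s.Prime := Fact.out
  have h2 := h2_of_odd hodd
  obtain ⟨y, hy⟩ : ∃ y, y = x ^ s := ⟨_, rfl⟩
  have hmy : mat y = mat x ^ s := by rw [hy, mat_pow]
  obtain ⟨A, hAd⟩ : ∃ A, A = mat x := ⟨_, rfl⟩
  rw [← hAd] at hA h1 hm1 hmy
  have hyΩ : y ∈ Cfsg.Omega F ⇑Q := by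
    rw [hy]
    exact Subgroup.pow_mem _ hx s
  have hYY : mat y * mat y = 1 := by
    rw [hmy, ← pow_add, ← two_mul, hA]
  obtain ⟨U, hU⟩ : ∃ U : Submodule F (ι → F), ∀ w, w ∈ U ↔ mat y *ᵥ w = -w :=
    ⟨LinearMap.ker (Matrix.mulVecLin (mat y + 1)), fun w => by
      simp [eq_neg_iff_add_eq_zero]⟩
  obtain ⟨hUND, b, hB0, hbne, hev, hsq⟩ := core_disc hodd Q hND hB y hyΩ hYY hU
  have hYY' : ∀ v, mat y *ᵥ (mat y *ᵥ v) = v := by
    intro v
    rw [Matrix.mulVec_mulVec, hYY, Matrix.one_mulVec]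
  have hm0 : finrank F U ≠ 0 := by
    intro h0
    apply h1
    rw [← hmy, Cfsg.Agent.Lib.OrthMatrix.matrix_eq_iff]
    intro v
    have hs' : Subsingleton U := Module.finrank_zero_iff.1 h0
    have h3 : mat y *ᵥ v - v ∈ U := by
      rw [hU, Matrix.mulVec_sub, hYY', neg_sub]
    have h4 : (⟨_, h3⟩ : U) = 0 := Subsingleton.elim _ _
    have h5 : mat y *ᵥ v - v = 0 := congrArg Subtype.val h4
    rw [sub_eq_zero.1 h5, Matrix.one_mulVec]
  obtain ⟨c, hc⟩ := hev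
  obtain ⟨k, hk⟩ : ∃ k, c = k + 1 := ⟨c - 1, by omega⟩
  have hV : finrank F U = 2 * (k + 1) := by omega
  have hle : 2 * (k + 1) ≤ Fintype.card ι := by
    have h3 := Submodule.finrank_le U
    rw [Module.finrank_fintype_fun_eq_card] at h3
    omega
  have hev : Even (finrank F U) := ⟨c, hc⟩
  have hcomm : (A ^ 2) * mat y = mat y * (A ^ 2) := by
    rw [hmy, ← pow_add, ← pow_add, add_comm]
  have hAU : ∀ w ∈ U, (A ^ 2) *ᵥ w ∈ U := by
    intro w hw
    rw [hU, Matrix.mulVec_mulVec, ← hcomm, ← Matrix.mulVec_mulVec, (hU w).1 hw, Matrix.mulVec_neg]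
  obtain ⟨T, hT⟩ : ∃ T : U →ₗ[F] U, ∀ w : U, ((T w : U) : ι → F) = (A ^ 2) *ᵥ (w : ι → F) :=
    ⟨LinearMap.restrict (Matrix.mulVecLin (A ^ 2)) hAU, fun w => rfl⟩
  have hAi : ∀ v, Q (A *ᵥ v) = Q v := fun v => by
    rw [hAd]
    exact mat_iso x v
  have hTi : ∀ w, restr Q U (T w) = restr Q U w := by
    intro w
    show Q ((T w : U) : ι → F) = Q w
    rw [hT, pow_two, ← Matrix.mulVec_mulVec, hAi, hAi]
  have hTp : ∀ (k : ℕ) (w : U), (((T ^ k) w : U) : ι → F) = (A ^ 2) ^ k *ᵥ (w : ι → F) := by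
    intro k
    induction k with
    | zero =>
      intro w
      simp
    | succ k ih =>
      intro w
      rw [pow_succ, Module.End.mul_apply, ih, hT, Matrix.mulVec_mulVec, ← pow_succ]
  have hTs : T ^ s = 1 := by
    apply LinearMap.ext
    intro w
    apply Subtype.ext
    rw [hTp, ← pow_mul, hA, Matrix.one_mulVec]
    rfl
  have hfree : ∀ w : U, T w = w → w = 0 := by
    intro w hw
    have h3 : (A ^ 2) *ᵥ (w : ι → F) = w := by
      rw [← hT, hw]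
    have h4 : ∀ l : ℕ, (A ^ 2) ^ l *ᵥ (w : ι → F) = w := by
      intro l
      induction l with
      | zero => simp
      | succ l ih => rw [pow_succ, ← Matrix.mulVec_mulVec, h3, ih]
    obtain ⟨l, hl⟩ : ∃ l, s = 2 * l + 1 := hs.odd_of_ne_two hs2
    have h5 : mat y *ᵥ (w : ι → F) = -(w : ι → F) := (hU w).1 w.2
    have h6 : A *ᵥ (w : ι → F) = -(w : ι → F) := by
      rw [← h5, hmy, hl, pow_succ', ← Matrix.mulVec_mulVec, pow_mul, h4]
    by_contra hne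
    have hne' : (w : ι → F) ≠ 0 := fun h => hne (Subtype.ext h)
    apply hm1
    have hev : Module.End.HasEigenvalue (Matrix.toLin' A) (-1) := by
      apply Module.End.hasEigenvalue_of_hasEigenvector (x := (w : ι → F))
      refine ⟨?_, hne'⟩
      rw [Module.End.mem_eigenspace_iff, Matrix.toLin'_apply, h6]
      simp
    have h7 := (Module.End.hasEigenvalue_iff_isRoot_charpoly _ _).1 hev
    rw [Matrix.charpoly_toLin'] at h7
    exact h7
  refine ⟨k + 1, by omega, hle, ?_⟩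
  have hfr := free_type hUND (k := k) T hTi hTs hfree hrq
  rcases std_cases hV (restr Q U) hUND with ⟨b', hb'⟩ | ⟨k', hk', b', ζ, hb'⟩
  · left
    obtain ⟨e, he⟩ := iso_qPlus_of_hyp hb'
    have h3 := (disc_transfer h2 b hB0 hbne hev (qPlus (k + 1) F) e he).1 hsq
    exact ⟨hfr.1 ⟨b', hb'⟩, (gram_plus hodd (by omega)).1 h3⟩
  · right
    obtain rfl : k = k' := by omega
    obtain ⟨c', hc'⟩ := Cfsg.Agent.S2673.ani_of_ns hodd
    have hzc : (Nat.card {v // restr Q U v = 0} : ℤ) ≠ (Fintype.card F : ℤ) ^ (2 * k + 1) + (Fintype.card F : ℤ) ^ (k + 1) - (Fintype.card F : ℤ) ^ k := by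
      rw [Cfsg.Agent.Lib.QuadClass2.card_zeros_of_minus hUND hb']
      exact count_ne k
    obtain ⟨e, he⟩ := iso_qMinus hV (restr Q U) hUND hzc 0 c' hc'
    have h3 := (disc_transfer h2 b hB0 hbne hev (qMinus k (0 : F) c') e he).1 hsq
    exact ⟨hfr.2 ⟨b', ζ, hb'⟩, (gram_minus hodd (n := k + 1) (by omega) 0 c' hc').1 h3⟩

end core

section caseD

variable {F : Type u} [Field F] [Fintype F]

theorem O_of_EP (p : ℕ) [Fact p.Prime] [CharP F p] (hodd : Odd (Fintype.card F)) {s n : ℕ} {f : F[X]} (h : EP s n f) :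
    ∃ x : GO n F, x ∈ Cfsg.Omega F ⇑(qOdd n F) ∧ mat x ^ (2 * s) = 1 ∧ mat x ^ 2 ≠ 1 ∧ mat x ^ s ≠ 1 := by
  obtain ⟨x₀, k, W, hk, hkF, hc, -, -⟩ := exists_O_elt p hodd h.sdp h.deg
  have key := pow_one_iff_of_chi hkF hk hc
  have e : mat (x₀ ^ 2) = mat x₀ ^ 2 := mat_pow _ _
  refine ⟨x₀ ^ 2, sq_mem _ (hB_odd hodd n) (hF_of_odd hodd) x₀, ?_, ?_, ?_⟩
  · rw [e, ← pow_mul, show 2 * (2 * s) = 4 * s by ring]
    exact (key _).2 h.fd
  · rw [e, ← pow_mul]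
    exact fun h3 => h.n4 ((key _).1 h3)
  · rw [e, ← pow_mul]
    exact fun h3 => h.n2s ((key _).1 h3)

theorem S_of_EP (p : ℕ) [Fact p.Prime] [CharP F p] (h2 : (2 : F) ≠ 0) {s n : ℕ} (hn : n ≠ 0) (hs : Odd s) {f : F[X]} (h : EP s n f) :
    ∃ g : ↥(Matrix.symplecticGroup (Fin n) F), (sm g ^ (2 * s) = 1 ∨ sm g ^ (2 * s) = -1) ∧
      sm g ^ 2 ≠ 1 ∧ sm g ^ 2 ≠ -1 ∧ sm g ^ s ≠ 1 ∧ sm g ^ s ≠ -1 := by
  haveI : Nonempty (Fin n) := ⟨⟨0, Nat.pos_of_ne_zero hn⟩⟩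
  have hne : (-1 : Matrix (Fin n ⊕ Fin n) (Fin n ⊕ Fin n) F) ≠ 1 := mat_neg_one_ne h2
  obtain ⟨g₀, k, hk, hkF, hc⟩ := exists_S_elt p h2 h.sdp h.deg
  have key := pow_one_iff_of_chi hkF hk hc
  obtain ⟨A, hA⟩ : ∃ A, A = sm g₀ := ⟨_, rfl⟩
  rw [← hA] at key
  have h4s : A ^ (4 * s) = 1 := (key _).2 h.fd
  have h4 : A ^ 4 ≠ 1 := fun h3 => h.n4 ((key _).1 h3)
  have h2s : A ^ (2 * s) ≠ 1 := fun h3 => h.n2s ((key _).1 h3)
  have e4 : A ^ 4 = (A ^ 2) ^ 2 := by rw [← pow_mul]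
  have e2s : A ^ (2 * s) = (A ^ s) ^ 2 := by rw [← pow_mul, mul_comm]
  by_cases hcase : A ^ (2 * s) = -1
  · refine ⟨g₀, Or.inr (hA ▸ hcase), ?_, ?_, ?_, ?_⟩
    · rw [← hA]
      intro h3
      apply h4
      rw [e4, h3, one_pow]
    · rw [← hA]
      intro h3
      apply h4
      rw [e4, h3, neg_one_sq]
    · rw [← hA]
      intro h3
      apply h2s
      rw [e2s, h3, one_pow]
    · rw [← hA]
      intro h3
      apply h2s
      rw [e2s, h3, neg_one_sq]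
  · have e : sm (g₀ ^ 2) = A ^ 2 := by
      rw [hA]
      exact SubmonoidClass.coe_pow g₀ 2
    refine ⟨g₀ ^ 2, Or.inl ?_, ?_, ?_, ?_, ?_⟩
    · rw [e, ← pow_mul, show 2 * (2 * s) = 4 * s by ring]
      exact h4s
    · rw [e, ← pow_mul]
      exact h4
    · rw [e, ← pow_mul]
      intro h3
      have h5 : A ^ (4 * s) = (A ^ (2 * 2)) ^ s := by rw [← pow_mul]
      rw [h5, h3, hs.neg_pow, one_pow] at h4s
      exact hne h4s
    · rw [e, ← pow_mul]
      exact h2s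
    · rw [e, ← pow_mul]
      exact hcase

theorem EP_of_S (h2 : (2 : F) ≠ 0) {s n : ℕ} (hn : n ≠ 0) (hs : Odd s) (h2sF : ((2 * s : ℕ) : F) ≠ 0) (h4sF : ((4 * s : ℕ) : F) ≠ 0)
    {g : ↥(Matrix.symplecticGroup (Fin n) F)} (h1 : sm g ^ (2 * s) = 1 ∨ sm g ^ (2 * s) = -1) (h3 : sm g ^ 2 ≠ 1) (h3' : sm g ^ 2 ≠ -1)
    (h4 : sm g ^ s ≠ 1) (h4' : sm g ^ s ≠ -1) : ∃ f : F[X], EP s n f := by
  haveI : Nonempty (Fin n) := ⟨⟨0, Nat.pos_of_ne_zero hn⟩⟩
  have hne : (-1 : Matrix (Fin n ⊕ Fin n) (Fin n ⊕ Fin n) F) ≠ 1 := mat_neg_one_ne h2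
  rcases h1 with h1 | h1
  · obtain ⟨j, hm, hi, hj, hn'⟩ := exists_bad h2sF h1 h3
    have hd := dvd_of_aeval_eq_zero (aeval_pow_sub h1) hi hj
    have hdeg := hull_deg_sp h2 (card_S n) (Cfsg.Agent.Lib.SpRealize.charpoly_sp_coeff g) (dual_sp g) hs h2sF h1 h4 h4' hi hm hj hn'
    exact ⟨_, E_of_hull h2 hs hi hm hd hn' hdeg⟩
  · have hA4 : sm g ^ (4 * s) = 1 := by
      rw [show 4 * s = (2 * s) * 2 by ring, pow_mul, h1, neg_one_sq]
    have hann : aeval (sm g) (X ^ (2 * s) + 1 : F[X]) = 0 := by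
      simp [h1]
    have e2 : 2 * s ≠ 0 := by
      rintro h0
      apply h2sF
      rw [h0, Nat.cast_zero]
    refine ⟨(sm g).charpoly, ⟨Matrix.charpoly_monic _, dual_sp g, ?_, ?_⟩, ?_, ?_, ?_, ?_⟩
    · intro h0
      have h5 : (X - C (1 : F)) ∣ (sm g).charpoly := dvd_iff_isRoot.2 h0
      have h6 : (X - 1 : F[X]) ∣ (sm g).charpoly := by simpa using h5
      exact X_sub_one_not_dvd_add h2 (2 * s) (dvd_of_aeval_eq_zero hann irr_sub h6)
    · intro h0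
      have h5 : (X - C (-1 : F)) ∣ (sm g).charpoly := dvd_iff_isRoot.2 h0
      have h6 : (X + 1 : F[X]) ∣ (sm g).charpoly := by simpa using h5
      exact X_add_one_not_dvd_add h2 (even_two_mul s) (dvd_of_aeval_eq_zero hann irr_add h6)
    · rw [Matrix.charpoly_natDegree_eq_dim, card_S]
    · intro j _ hi hj
      exact dvd_of_aeval_eq_zero (aeval_pow_sub hA4) hi hj
    · intro hFD
      have h5 : sm g ^ 4 = 1 := (pow_eq_one_iff_factors h4sF hA4).2 hFD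
      apply h3'
      rw [← h1]
      obtain ⟨l, rfl⟩ := hs
      rw [show 2 * (2 * l + 1) = 4 * l + 2 by ring, pow_add, pow_mul, h5, one_pow, one_mul]
    · intro hFD
      have h5 : sm g ^ (2 * s) = 1 := (pow_eq_one_iff_factors h4sF hA4).2 hFD
      rw [h1] at h5
      exact hne h5

theorem EP_of_O (p : ℕ) [Fact p.Prime] [CharP F p] (hodd : Odd (Fintype.card F)) {s n : ℕ} (hs : s.Prime) (hs2 : s ≠ 2) (hsp : s ≠ p)
    (h2sF : ((2 * s : ℕ) : F) ≠ 0) (h4sF : ((4 * s : ℕ) : F) ≠ 0)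
    {x : GO n F} (hx : x ∈ Cfsg.Omega F ⇑(qOdd n F)) (h1 : mat x ^ (2 * s) = 1) (h3 : mat x ^ 2 ≠ 1) (h4 : mat x ^ s ≠ 1) :
    ∃ f : F[X], EP s n f := by
  have hp : p.Prime := Fact.out
  have h2 := h2_of_odd hodd
  have hso : Odd s := hs.odd_of_ne_two hs2
  have e2 : 2 * s ≠ 0 := by
    have := hs.pos
    omega
  obtain ⟨j, hm, hi, hj, hn'⟩ := exists_bad h2sF h1 h3
  have hd := dvd_of_aeval_eq_zero (aeval_pow_sub h1) hi hj
  have h00 := coeff0_of_dvd_X_pow e2 hd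
  rcases hull_deg_O h2 (card_O n) (coeff_of_Omega hx) (dual_mat hodd x) hi hm h00 hj hn' with hdeg | hm1
  · exact ⟨_, E_of_hull h2 hso hi hm hd hn' hdeg⟩
  · haveI : Fact s.Prime := ⟨hs⟩
    have hrq : ((Fintype.card F : ℕ) : ZMod s) ≠ 0 := by
      rw [Ne, ZMod.natCast_eq_zero_iff]
      intro hd
      obtain ⟨f, -, hf⟩ := FiniteField.card F p
      rw [hf] at hd
      have h5 := hs.dvd_of_dvd_pow hd
      exact hsp ((Nat.prime_dvd_prime_iff_eq hs hp).1 h5)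
    obtain ⟨m', hm0, hle, hcase⟩ := core_numeric hodd (qOdd n F) (Cfsg.Agent.S2673.nd_odd hodd n) (hB_odd hodd n) hs2 hrq x hx h1 h4 hm1
    rw [card_O] at hle
    have hnum := numeric_finish hodd hs hs2 hcase
    have hs3 : 3 ≤ s := by
      have := hs.two_le
      omega
    exact numeric_E h2 hs3 h4sF hm0 (by omega) hnum

/-- Both sides agree on orders `2 s`, with `s ≠ p` odd. -/
theorem caseD (p : ℕ) [Fact p.Prime] [CharP F p] (hodd : Odd (Fintype.card F)) (hp2 : p ≠ 2) {n : ℕ} (hn : 2 ≤ n) {s : ℕ} (hs : s.Prime)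
    (hs2 : s ≠ 2) (hsp : s ≠ p) :
    (2 * s ∈ Set.range (orderOf : Cfsg.POmega F (Cfsg.quadFormOdd n F) → ℕ)) ↔ (2 * s ∈ Set.range (orderOf : Cfsg.PSp n F → ℕ)) := by
  have hp : p.Prime := Fact.out
  have h2 := h2_of_odd hodd
  have hso : Odd s := hs.odd_of_ne_two hs2
  have hn0 : n ≠ 0 := by omega
  have hsF : (s : F) ≠ 0 := by
    rw [Ne, CharP.cast_eq_zero_iff F p]
    intro h
    exact hsp ((Nat.prime_dvd_prime_iff_eq hp hs).1 h).symm
  have h2sF : ((2 * s : ℕ) : F) ≠ 0 := by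
    push_cast
    exact mul_ne_zero h2 hsF
  have h4sF : ((4 * s : ℕ) : F) ≠ 0 := by
    push_cast
    have h4 : (4 : F) ≠ 0 := by
      have : (4 : F) = 2 * 2 := by norm_num
      rw [this]
      exact mul_ne_zero h2 h2
    exact mul_ne_zero h4 hsF
  rw [mem_range_POmega hodd hn Nat.prime_two hs, mem_range_PSp hn0 Nat.prime_two hs]
  constructor
  · rintro ⟨x, hx, h1, h3, h4⟩
    obtain ⟨f, hf⟩ := EP_of_O p hodd hs hs2 hsp h2sF h4sF hx h1 h3 h4
    exact S_of_EP p h2 hn0 hso hf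
  · rintro ⟨g, h1, h3, h3', h4, h4'⟩
    obtain ⟨f, hf⟩ := EP_of_S h2 hn0 hso h2sF h4sF h1 h3 h3' h4 h4'
    exact O_of_EP p hodd hf

end caseD

end Cfsg.Agent.Lib.PGBC6
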