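import Mathlib
import Cfsg.Agent.Lib.PSL2LatOdd
import Cfsg.Agent.S0805

set_option autoImplicit false
set_option linter.style.haveILetI false
set_option linter.unusedVariables false
set_option linter.unusedSectionVars false

namespace Cfsg.Agent.Lib.PGLMaxA

open Matrix Subgroup
open Cfsg.Agent.Lib.SL2Core Cfsg.Agent.Lib.DicksonAbs Cfsg.Agent.Lib.DicksonMat
open Cfsg.Agent.Lib.DicksonStruct Cfsg.Agent.Lib.DicksonTT Cfsg.Agent.Lib.PSL2Sub
open Cfsg.Agent.Lib.DicksonRed Cfsg.Agent.Lib.PSL2Max Cfsg.Agent.Lib.PSL2Cnt Cfsg.Agent.Lib.PSL2Coat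
open Cfsg.Agent.Lib.PSL2Lat Cfsg.Agent.Lib.PSL2LatOdd

variable {F : Type*} [Field F]

/-- `PGL₂`. -/
abbrev XX (F : Type*) [Field F] := ProjGenLinGroup (Fin 2) F

/-- The inclusion of `PSL₂` in `PGL₂`. -/
noncomputable abbrev jj : PSL2 F →* XX F := ProjectiveSpecialLinearGroup.toPGL

lemma jj_inj : Function.Injective (jj : PSL2 F →* XX F) := ProjectiveSpecialLinearGroup.toPGL_injective

lemma jj_proj (A : SL2 F) : jj (proj A) = ProjGenLinGroup.mk (SpecialLinearGroup.toGL A) := rfl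

/-- Conjugation of `SL₂` by `GL₂`. -/
def sg (g : GL (Fin 2) F) (A : SL2 F) : SL2 F :=
  ⟨(g : Matrix (Fin 2) (Fin 2) F) * (A : Matrix (Fin 2) (Fin 2) F) * ((g⁻¹ : GL (Fin 2) F) : Matrix (Fin 2) (Fin 2) F), by
    rw [Matrix.det_mul, Matrix.det_mul, A.2, mul_one, ← Matrix.det_mul]
    have : (g : Matrix (Fin 2) (Fin 2) F) * ((g⁻¹ : GL (Fin 2) F) : Matrix (Fin 2) (Fin 2) F) = 1 := by
      rw [← Units.val_mul, mul_inv_cancel, Units.val_one]
    rw [this, Matrix.det_one]⟩

lemma sg_val (g : GL (Fin 2) F) (A : SL2 F) :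
    ((sg g A : SL2 F) : Matrix (Fin 2) (Fin 2) F) =
      (g : Matrix (Fin 2) (Fin 2) F) * (A : Matrix (Fin 2) (Fin 2) F) * ((g⁻¹ : GL (Fin 2) F) : Matrix (Fin 2) (Fin 2) F) := rfl

lemma toGL_sg (g : GL (Fin 2) F) (A : SL2 F) :
    SpecialLinearGroup.toGL (sg g A) = g * SpecialLinearGroup.toGL A * g⁻¹ := by
  apply Units.ext
  rfl

lemma sg_mul (g : GL (Fin 2) F) (A B : SL2 F) : sg g (A * B) = sg g A * sg g B := by
  apply Subtype.ext
  have e : ((g⁻¹ : GL (Fin 2) F) : Matrix (Fin 2) (Fin 2) F) * (g : Matrix (Fin 2) (Fin 2) F) = 1 := by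
    rw [← Units.val_mul, inv_mul_cancel, Units.val_one]
  change (g : Matrix (Fin 2) (Fin 2) F) * ((A : Matrix (Fin 2) (Fin 2) F) * (B : Matrix (Fin 2) (Fin 2) F)) * ((g⁻¹ : GL (Fin 2) F) : Matrix (Fin 2) (Fin 2) F) =
    ((g : Matrix (Fin 2) (Fin 2) F) * (A : Matrix (Fin 2) (Fin 2) F) * ((g⁻¹ : GL (Fin 2) F) : Matrix (Fin 2) (Fin 2) F)) *
    ((g : Matrix (Fin 2) (Fin 2) F) * (B : Matrix (Fin 2) (Fin 2) F) * ((g⁻¹ : GL (Fin 2) F) : Matrix (Fin 2) (Fin 2) F))
  generalize ((g⁻¹ : GL (Fin 2) F) : Matrix (Fin 2) (Fin 2) F) = G' at e ⊢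
  generalize (g : Matrix (Fin 2) (Fin 2) F) = G at e ⊢
  calc G * ((A : Matrix (Fin 2) (Fin 2) F) * (B : Matrix (Fin 2) (Fin 2) F)) * G'
      = G * (A : Matrix (Fin 2) (Fin 2) F) * (G' * G) * (B : Matrix (Fin 2) (Fin 2) F) * G' := by
        rw [e, Matrix.mul_one]
        simp only [Matrix.mul_assoc]
    _ = _ := by simp only [Matrix.mul_assoc]

lemma sg_comm_iff (g : GL (Fin 2) F) (A B : SL2 F) : sg g B * sg g A = sg g A * sg g B ↔ B * A = A * B := by
  constructor
  · intro h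
    rw [← sg_mul, ← sg_mul] at h
    apply Subtype.ext
    have h1 := congrArg (fun X : SL2 F => ((g⁻¹ : GL (Fin 2) F) : Matrix (Fin 2) (Fin 2) F) * (X : Matrix (Fin 2) (Fin 2) F) * (g : Matrix (Fin 2) (Fin 2) F)) h
    simp only [sg_val] at h1
    have h2 : ∀ Y : Matrix (Fin 2) (Fin 2) F, ((g⁻¹ : GL (Fin 2) F) : Matrix (Fin 2) (Fin 2) F) * ((g : Matrix (Fin 2) (Fin 2) F) * Y * ((g⁻¹ : GL (Fin 2) F) : Matrix (Fin 2) (Fin 2) F)) * (g : Matrix (Fin 2) (Fin 2) F) = Y := by
      intro Y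
      have e1 : ((g⁻¹ : GL (Fin 2) F) : Matrix (Fin 2) (Fin 2) F) * (g : Matrix (Fin 2) (Fin 2) F) = 1 := by
        rw [← Units.val_mul, inv_mul_cancel, Units.val_one]
      calc _ = (((g⁻¹ : GL (Fin 2) F) : Matrix (Fin 2) (Fin 2) F) * (g : Matrix (Fin 2) (Fin 2) F)) * Y * (((g⁻¹ : GL (Fin 2) F) : Matrix (Fin 2) (Fin 2) F) * (g : Matrix (Fin 2) (Fin 2) F)) := by
            simp only [Matrix.mul_assoc]
        _ = Y := by rw [e1, Matrix.one_mul, Matrix.mul_one]
    rw [h2, h2] at h1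
    exact h1
  · intro h
    rw [← sg_mul, ← sg_mul, h]

lemma jj_proj_sg (g : GL (Fin 2) F) (A : SL2 F) :
    jj (proj (sg g A)) = ProjGenLinGroup.mk g * jj (proj A) * (ProjGenLinGroup.mk g)⁻¹ := by
  rw [jj_proj, jj_proj, toGL_sg, map_mul, map_mul, map_inv]

instance range_normal : (jj : PSL2 F →* XX F).range.Normal := by
  constructor
  rintro _ ⟨x, rfl⟩ t
  obtain ⟨g, rfl⟩ := ProjGenLinGroup.mk_surjective t
  obtain ⟨A, rfl⟩ := proj_surjective x
  exact ⟨proj (sg g A), jj_proj_sg g A⟩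

/-- Conjugation on `PSL₂` by `PGL₂`. -/
noncomputable def cjL (t : XX F) : PSL2 F ≃* PSL2 F :=
  (MonoidHom.ofInjective (jj_inj (F := F))).trans
    ((MulAut.conjNormal t).trans (MonoidHom.ofInjective (jj_inj (F := F))).symm)

lemma jj_cjL (t : XX F) (x : PSL2 F) : jj (cjL t x) = t * jj x * t⁻¹ := by
  set e := MonoidHom.ofInjective (jj_inj (F := F)) with he
  have h1 : ∀ y : (jj : PSL2 F →* XX F).range, jj (e.symm y) = y := fun y =>
    congrArg Subtype.val (e.apply_symm_apply y)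
  change jj (e.symm (MulAut.conjNormal t (e x))) = _
  rw [h1]
  rfl

lemma cjL_mk_proj (g : GL (Fin 2) F) (A : SL2 F) : cjL (ProjGenLinGroup.mk g) (proj A) = proj (sg g A) := by
  apply jj_inj
  rw [jj_cjL, jj_proj_sg]

lemma cjL_mem_MM_iff (t : XX F) (x y : PSL2 F) : cjL t y ∈ MM (cjL t x) ↔ y ∈ MM x := by
  obtain ⟨g, rfl⟩ := ProjGenLinGroup.mk_surjective t
  obtain ⟨A, rfl⟩ := proj_surjective x
  obtain ⟨B, rfl⟩ := proj_surjective y
  rw [cjL_mk_proj, cjL_mk_proj, mem_MM_proj, mem_MM_proj, sg_comm_iff]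

/-- Normalizers under injective maps. -/
lemma comap_normalizer_map {G H : Type*} [Group G] [Group H] (f : G →* H) (hf : Function.Injective f) (K : Subgroup G) :
    (normalizer ((K.map f : Subgroup H) : Set H)).comap f = normalizer ((K : Subgroup G) : Set G) := by
  ext x
  rw [Subgroup.mem_comap, Subgroup.mem_normalizer_iff, Subgroup.mem_normalizer_iff]
  constructor
  · intro h y
    have h1 := h (f y)
    rw [← map_inv, ← map_mul, ← map_mul] at h1
    rw [← Subgroup.mem_map_iff_mem hf (K := K), h1, Subgroup.mem_map_iff_mem hf]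
  · intro h y
    constructor
    · rintro ⟨z, hz, rfl⟩
      exact ⟨x * z * x⁻¹, (h z).mp hz, by simp⟩
    · rintro ⟨z, hz, hzy⟩
      have h1 : y = f (x⁻¹ * z * x) := by
        simp only [map_mul, map_inv, hzy]
        group
      rw [h1]
      refine ⟨_, (h _).mpr ?_, rfl⟩
      have e : x * (x⁻¹ * z * x) * x⁻¹ = z := by group
      rw [e]
      exact hz

section burnside

/-- **No self-normalizing four-subgroup** in a simple group. -/
lemma no_self_norm_four {G : Type*} [Group G] [Finite G] [IsSimpleGroup G] (hnab : ¬ ∀ a b : G, a * b = b * a)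
    (V : Subgroup G) (hV : Nat.card V = 4) (hN : normalizer ((V : Subgroup G) : Set G) ≤ V) : False := by
  haveI : Fact (Nat.Prime 2) := ⟨Nat.prime_two⟩
  have hV' : Nat.card V = 2 ^ 2 := by rw [hV]; norm_num
  have h1 := Sylow.card_normalizer_modEq_card hV'
  have h2 : normalizer ((V : Subgroup G) : Set G) = V := le_antisymm hN Subgroup.le_normalizer
  rw [h2, hV'] at h1
  have h3 : Nat.card G % 8 = 4 := by
    have := h1.symm
    simpa [Nat.ModEq] using this
  have hG0 : Nat.card G ≠ 0 := Nat.card_pos.ne'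
  have hfac : (Nat.card G).factorization 2 = 2 := by
    obtain ⟨k, hk⟩ : ∃ k, Nat.card G = 4 * (2 * k + 1) := ⟨Nat.card G / 8, by omega⟩
    rw [hk, Nat.factorization_mul (by norm_num) (by omega), Finsupp.add_apply,
      show (4 : ℕ) = 2 ^ 2 by norm_num, Nat.prime_two.factorization_pow, Finsupp.single_eq_same,
      Nat.factorization_eq_zero_of_not_dvd (by omega)]
  let P : Sylow 2 G := Sylow.ofCard V (by rw [hV', hfac])
  have hPV : (P : Subgroup G) = V := Sylow.coe_ofCard _ _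
  have hcomm : ∀ a b : V, a * b = b * a := IsPGroup.commutative_of_card_eq_prime_sq hV'
  have hP : normalizer ((P : Subgroup G) : Set G) ≤ centralizer ((P : Subgroup G) : Set G) := by
    rw [hPV]
    intro x hx
    rw [Subgroup.mem_centralizer_iff]
    intro y hy
    have hx' := hN hx
    exact (congrArg Subtype.val (hcomm (⟨x, hx'⟩ : V) ⟨y, hy⟩)).symm
  have hc := MonoidHom.ker_transferSylow_isComplement' P hP
  have hcard := hc.card_mul
  rcases IsSimpleGroup.eq_bot_or_eq_top_of_normal (MonoidHom.transferSylow P hP).ker inferInstance with h | h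
  · rw [h, Subgroup.card_bot, one_mul, hPV, hV] at hcard
    apply hnab
    have hcard' : Nat.card G = 2 ^ 2 := by rw [← hcard]; norm_num
    exact IsPGroup.commutative_of_card_eq_prime_sq hcard'
  · rw [h, Subgroup.card_top, hPV, hV] at hcard
    omega

end burnside

section fin
variable [Fintype F]

lemma range_index (hodd : Odd (Fintype.card F)) : (jj : PSL2 F →* XX F).range.index = 2 := by
  have h1 := card_PSL2_form (K := F)
  have h2 := card_PGL2_form (K := F)
  have hg : Nat.gcd 2 (Fintype.card F - 1) = 2 := Nat.gcd_eq_left (Nat.Odd.sub_odd hodd odd_one).two_dvd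
  rw [hg] at h1
  have h3 : Nat.card (jj : PSL2 F →* XX F).range = Nat.card (PSL2 F) :=
    Nat.card_congr (MonoidHom.ofInjective (jj_inj (F := F))).symm.toEquiv
  have h4 := Subgroup.card_mul_index (jj : PSL2 F →* XX F).range
  rw [h3, h2, ← h1] at h4
  have h5 : 0 < Nat.card (PSL2 F) := Nat.card_pos
  exact Nat.eq_of_mul_eq_mul_left h5 (h4.trans (mul_comm _ _))

variable {M : Subgroup (XX F)}

/-- The index of `W ∩ L` in `W` if `W L = X`. -/
lemma card_of_sup (hodd : Odd (Fintype.card F)) {M : Subgroup (XX F)} (hsup : M ⊔ (jj : PSL2 F →* XX F).range = ⊤) :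
    Nat.card M = 2 * Nat.card (M.comap (jj : PSL2 F →* XX F)) := by
  set L := (jj : PSL2 F →* XX F).range with hL
  have h1 : L.relIndex M = 2 := by
    rw [← Subgroup.relIndex_sup_right, hsup, Subgroup.relIndex_top_right]
    exact range_index hodd
  have h2 := Subgroup.card_mul_index (L.subgroupOf M)
  have h3 : (L.subgroupOf M).index = 2 := h1
  rw [h3] at h2
  have h4 : Nat.card (L.subgroupOf M) = Nat.card (M.comap (jj : PSL2 F →* XX F)) := by
    symm
    apply Nat.card_congr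
    refine Equiv.ofBijective (fun x => ⟨⟨jj x.1, x.2⟩, Subgroup.mem_subgroupOf.mpr ⟨x.1, rfl⟩⟩) ⟨?_, ?_⟩
    · intro a b hab
      apply Subtype.ext
      apply jj_inj
      exact congrArg (fun z : L.subgroupOf M => ((z : M) : XX F)) hab
    · rintro ⟨⟨y, hy⟩, hyL⟩
      obtain ⟨x, rfl⟩ := Subgroup.mem_subgroupOf.mp hyL
      exact ⟨⟨x, hy⟩, rfl⟩
  rw [← h2, h4, mul_comm]

/-- The index of `M ∩ L` in `M`. -/
lemma card_coatom (hodd : Odd (Fintype.card F)) (hM : IsCoatom M) (hML : ¬ (jj : PSL2 F →* XX F).range ≤ M) :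
    Nat.card M = 2 * Nat.card (M.comap (jj : PSL2 F →* XX F)) :=
  card_of_sup hodd (hM.2 _ (lt_of_le_of_ne le_sup_left (fun h => hML (by rw [h]; exact le_sup_right))))

end fin

section keys
variable [Fintype F] {M : Subgroup (XX F)}

lemma simple_psl (h4 : 4 ≤ Fintype.card F) : IsSimpleGroup (PSL2 F) :=
  Matrix.ProjectiveSpecialLinearGroup.rank_two_simple (by rwa [Nat.card_eq_fintype_card])

lemma normal_of_norm_top {K : Subgroup (PSL2 F)}
    (h : normalizer (((K.map (jj : PSL2 F →* XX F) : Subgroup (XX F))) : Set (XX F)) = ⊤) : K.Normal := by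
  rw [← Subgroup.normalizer_eq_top_iff, ← comap_normalizer_map jj jj_inj K, h, Subgroup.comap_top]

lemma comap_ne_top (hML : ¬ (jj : PSL2 F →* XX F).range ≤ M) : M.comap (jj : PSL2 F →* XX F) ≠ ⊤ := by
  intro h
  apply hML
  rintro _ ⟨x, rfl⟩
  have : x ∈ M.comap (jj : PSL2 F →* XX F) := by rw [h]; trivial
  exact this

/-- The maximal subgroup is the normalizer of its intersection with `L`. -/
lemma norm_eq (h4 : 4 ≤ Fintype.card F) (hM : IsCoatom M) (hML : ¬ (jj : PSL2 F →* XX F).range ≤ M)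
    (hb : M.comap (jj : PSL2 F →* XX F) ≠ ⊥) :
    normalizer ((((M.comap (jj : PSL2 F →* XX F)).map (jj : PSL2 F →* XX F) : Subgroup (XX F))) : Set (XX F)) = M := by
  haveI := simple_psl (F := F) h4
  have hle : M ≤ normalizer ((((M.comap (jj : PSL2 F →* XX F)).map (jj : PSL2 F →* XX F) : Subgroup (XX F))) : Set (XX F)) := by
    intro t ht
    rw [Subgroup.mem_normalizer_iff, Subgroup.map_comap_eq]
    intro h
    constructor
    · rintro ⟨h1, h2⟩
      exact ⟨range_normal.conj_mem h h1 t, M.mul_mem (M.mul_mem ht h2) (M.inv_mem ht)⟩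
    · rintro ⟨h1, h2⟩
      have e : h = t⁻¹ * (t * h * t⁻¹) * t⁻¹⁻¹ := by group
      rw [e]
      exact ⟨range_normal.conj_mem _ h1 t⁻¹, M.mul_mem (M.mul_mem (M.inv_mem ht) h2) (M.inv_mem (M.inv_mem ht))⟩
  have hne : normalizer ((((M.comap (jj : PSL2 F →* XX F)).map (jj : PSL2 F →* XX F) : Subgroup (XX F))) : Set (XX F)) ≠ ⊤ := by
    intro h
    haveI := normal_of_norm_top h
    rcases IsSimpleGroup.eq_bot_or_eq_top_of_normal (M.comap (jj : PSL2 F →* XX F)) inferInstance with h1 | h1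
    · exact hb h1
    · exact comap_ne_top hML h1
  exact ((hle.lt_or_eq).resolve_left (fun h => hne (hM.2 _ h))).symm

/-- The intersection with `L` is self-normalizing. -/
lemma self_norm (h4 : 4 ≤ Fintype.card F) (hM : IsCoatom M) (hML : ¬ (jj : PSL2 F →* XX F).range ≤ M)
    (hb : M.comap (jj : PSL2 F →* XX F) ≠ ⊥) :
    normalizer (((M.comap (jj : PSL2 F →* XX F) : Subgroup (PSL2 F))) : Set (PSL2 F)) = M.comap (jj : PSL2 F →* XX F) := by
  rw [← comap_normalizer_map jj jj_inj, norm_eq h4 hM hML hb]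

lemma conj_mem_comap {t : XX F} (ht : t ∈ M) {x : PSL2 F} (hx : x ∈ M.comap (jj : PSL2 F →* XX F)) :
    cjL t x ∈ M.comap (jj : PSL2 F →* XX F) := by
  rw [Subgroup.mem_comap, jj_cjL]
  exact M.mul_mem (M.mul_mem ht hx) (M.inv_mem ht)

/-- A member of the partition which is normalized by `M` determines `M`. -/
lemma key_norm (h4 : 4 ≤ Fintype.card F) (hM : IsCoatom M) {x : PSL2 F} (hx : x ≠ 1)
    (h : ∀ t ∈ M, cjL t x ∈ MM x) :
    normalizer ((((MM x).map (jj : PSL2 F →* XX F) : Subgroup (XX F))) : Set (XX F)) = M := by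
  haveI := simple_psl (F := F) h4
  have hle : M ≤ normalizer ((((MM x).map (jj : PSL2 F →* XX F) : Subgroup (XX F))) : Set (XX F)) := by
    intro t ht
    have hne : cjL t x ≠ 1 := fun h1 => hx ((map_eq_one_iff (cjL t) (cjL t).injective).mp h1)
    have hMt : MM (cjL t x) = MM x := dpart.eq_of_mem x (cjL t x) hx hne (h t ht)
    rw [Subgroup.mem_normalizer_iff]
    intro g
    constructor
    · rintro ⟨y, hy, rfl⟩
      refine ⟨cjL t y, ?_, jj_cjL t y⟩
      rw [SetLike.mem_coe, ← hMt, cjL_mem_MM_iff]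
      exact hy
    · rintro ⟨y', hy', e⟩
      refine ⟨(cjL t).symm y', ?_, ?_⟩
      · rw [SetLike.mem_coe, ← cjL_mem_MM_iff t, MulEquiv.apply_symm_apply, hMt]
        exact hy'
      · have h1 : jj (cjL t ((cjL t).symm y')) = jj y' := by rw [MulEquiv.apply_symm_apply]
        rw [jj_cjL, e] at h1
        exact mul_left_cancel (mul_right_cancel h1)
  have hne : normalizer ((((MM x).map (jj : PSL2 F →* XX F) : Subgroup (XX F))) : Set (XX F)) ≠ ⊤ := by
    intro h
    haveI := normal_of_norm_top h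
    have hxm : x ∈ MM x := dpart.mem x hx
    rcases IsSimpleGroup.eq_bot_or_eq_top_of_normal (MM x) inferInstance with h1 | h1
    · rw [h1, Subgroup.mem_bot] at hxm
      exact hx hxm
    · obtain ⟨A, rfl⟩ := proj_surjective x
      apply hx
      rw [proj_eq_one_iff, Subgroup.mem_center_iff]
      intro B
      have : proj B ∈ MM (proj A) := by rw [h1]; trivial
      exact mem_MM_proj.mp this
  exact ((hle.lt_or_eq).resolve_left (fun h => hne (hM.2 _ h))).symm

lemma key1 (h4 : 4 ≤ Fintype.card F) (hM : IsCoatom M) {x : PSL2 F} (hx : x ≠ 1)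
    (h : ∀ t ∈ M, cjL t x ∈ MM x) :
    M.comap (jj : PSL2 F →* XX F) = normalizer ((MM x : Subgroup (PSL2 F)) : Set (PSL2 F)) := by
  rw [← comap_normalizer_map jj jj_inj, key_norm h4 hM hx h]

end keys

section embed

variable [Fintype F] (p : ℕ) [hp : Fact p.Prime] [CharP F p]

include p in
/-- Embedding `PGL₂(F)` in `PSL₂(F')`. -/
lemma exists_embed (hodd : Odd (Fintype.card F)) :
    ∃ (F' : Type) (_ : Field F') (_ : Fintype F') (_ : CharP F' p) (ι : XX F →* PSL2 F'),
      Function.Injective ι ∧ Fintype.card F' = Fintype.card F ^ 2 := by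
  classical
  haveI : NeZero 2 := ⟨by norm_num⟩
  let E := FiniteField.Extension F p 2
  haveI : Finite E := Module.finite_of_finite F
  letI : Fintype E := Fintype.ofFinite E
  have hcard : Fintype.card E = Fintype.card F ^ 2 := by
    rw [← Nat.card_eq_fintype_card, ← Nat.card_eq_fintype_card, FiniteField.natCard_extension F p 2]
  let φ : F →+* E := algebraMap F E
  haveI hchE : CharP E p := (φ.charP_iff φ.injective p).mp inferInstance
  have hoddE : Odd (Fintype.card E) := by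
    rw [hcard]
    exact hodd.pow
  have hsq : ∀ x : F, x ≠ 0 → IsSquare (φ x) := fun x hx =>
    Cfsg.Agent.S0805.isSquare_of_even φ hoddE (m := 2) hcard.symm even_two (by norm_num) x hx
  have hle := pglMap_range_le φ hsq
  let e := MonoidHom.ofInjective (jj_inj (F := E))
  let ι : XX F →* PSL2 E := (e.symm : _ →* PSL2 E).comp ((pglMap φ).codRestrict (jj : PSL2 E →* XX E).range (fun x => hle ⟨x, rfl⟩))
  refine ⟨E, inferInstance, inferInstance, hchE, ι, ?_, hcard⟩
  intro a b hab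
  apply pglMap_injective φ
  have h1 := e.symm.injective hab
  exact congrArg Subtype.val h1

/-- Dickson's list for subgroups of `PGL₂(F)`, from the embedding in `PSL₂(F')`. -/
theorem dickson_X (hodd : Odd (Fintype.card F)) (H : Subgroup (XX F)) :
    IsCyclic H ∨ (∃ k : ℕ, Nonempty (H ≃* DihedralGroup k)) ∨
    ((∀ u v : H, ∃ n : ℕ, (u * v * u⁻¹ * v⁻¹) ^ (p ^ n) = 1) ∧ (∀ u v : H, u ^ p = 1 → v ^ p = 1 → u * v = v * u)) ∨
    Nonempty (H ≃* alternatingGroup (Fin 4)) ∨ Nonempty (H ≃* Equiv.Perm (Fin 4)) ∨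
    Nonempty (H ≃* alternatingGroup (Fin 5)) ∨
    (∃ e : ℕ, 1 ≤ e ∧ (2 * Nat.card H = p ^ e * ((p ^ e) ^ 2 - 1) ∨ Nat.card H = p ^ e * ((p ^ e) ^ 2 - 1))) := by
  classical
  obtain ⟨F', _, _, _, ι, hι, hcard⟩ := exists_embed p hodd
  let H' : Subgroup (PSL2 F') := H.map ι
  let e₀ : H ≃* H' := Subgroup.equivMapOfInjective H ι hι
  have hpp := hp.out
  rcases Cfsg.Agent.S0799.result (F := F') (q := Fintype.card F') rfl p H' with
    ⟨k, -, ⟨h1, -⟩ | ⟨⟨e⟩⟩⟩ | ⟨P, K, hK, ⟨e⟩⟩ | ⟨⟨e⟩⟩ | ⟨⟨e⟩⟩ | ⟨⟨e⟩⟩ | ⟨K, _, _, m, hm, hiso⟩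
  · left
    exact isCyclic_of_injective e₀.toMonoidHom e₀.injective
  · right; left
    exact ⟨k, ⟨e₀.trans e⟩⟩
  · right; right; left
    let f : H ≃* K := e₀.trans e
    constructor
    · intro u v
      have h1 := comm_mem_sylow P (hK (f u).2) (hK (f v).2)
      obtain ⟨n, hn⟩ := P.isPGroup' ⟨_, h1⟩
      refine ⟨n, ?_⟩
      apply f.injective
      apply Subtype.ext
      have h2 := congrArg Subtype.val hn
      simpa [map_mul, map_inv, map_pow] using h2
    · intro u v hu hv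
      have h3 : ((f u : K) : PSL2 F') ^ p = 1 := by
        have := congrArg (fun z => ((f z : K) : PSL2 F')) hu
        simpa [map_pow] using this
      have h4 : ((f v : K) : PSL2 F') ^ p = 1 := by
        have := congrArg (fun z => ((f z : K) : PSL2 F')) hv
        simpa [map_pow] using this
      have h5 := sylow_comm P (mem_sylow_of_pow_eq_one P (hK (f u).2) h3) (mem_sylow_of_pow_eq_one P (hK (f v).2) h4)
      apply f.injective
      apply Subtype.ext
      simpa [map_mul] using h5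
  · right; right; right; left
    exact ⟨e₀.trans e⟩
  · right; right; right; right; left
    exact ⟨e₀.trans e⟩
  · right; right; right; right; right; left
    exact ⟨e₀.trans e⟩
  · right; right; right; right; right; right
    obtain ⟨f, hf1, hf⟩ : ∃ f : ℕ, 1 ≤ f ∧ Fintype.card F = p ^ f := by
      obtain ⟨n, -, hn⟩ := FiniteField.card F p
      exact ⟨n, n.2, hn⟩
    have hx1 : 1 < Fintype.card K := Fintype.one_lt_card
    have hm' : Fintype.card K ^ m = p ^ (f * 2) := by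
      rw [hm, hcard, hf, pow_mul]
    obtain ⟨e, hxe, he, hem⟩ := exists_exponent hpp hm' hx1 (by omega)
    have hoddK : Odd (Fintype.card K) := by
      rw [hxe]
      have : Odd p := by
        rw [hf] at hodd
        exact (Nat.odd_pow_iff (by omega)).mp hodd
      exact this.pow
    refine ⟨e, he, ?_⟩
    rcases hiso with ⟨⟨e'⟩⟩ | ⟨⟨e'⟩⟩
    · left
      have h1 := card_PSL2_form (K := K)
      rw [Nat.gcd_eq_left (Nat.Odd.sub_odd hoddK odd_one).two_dvd] at h1
      rw [Nat.card_congr (e₀.trans e').toEquiv, h1, hxe]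
    · right
      rw [Nat.card_congr (e₀.trans e').toEquiv, card_PGL2_form (K := K), hxe]

/-- Dickson's list for a subgroup with many elements. -/
theorem dickson_data (hodd : Odd (Fintype.card F)) (H : Subgroup (XX F)) {a b u v : XX F} (ha : a ∈ H) (hb : b ∈ H)
    (hu : u ∈ H) (hv : v ∈ H) (ha3 : a ^ 3 = 1) (hb3 : b ^ 3 = 1) (hab : a * b ≠ b * a)
    (hc1 : u * v * u⁻¹ * v⁻¹ ≠ 1) (hc2 : (u * v * u⁻¹ * v⁻¹) ^ 2 = 1) :
    Nonempty (H ≃* alternatingGroup (Fin 4)) ∨ Nonempty (H ≃* Equiv.Perm (Fin 4)) ∨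
    Nonempty (H ≃* alternatingGroup (Fin 5)) ∨
    (∃ e : ℕ, 1 ≤ e ∧ (2 * Nat.card H = p ^ e * ((p ^ e) ^ 2 - 1) ∨ Nat.card H = p ^ e * ((p ^ e) ^ 2 - 1))) := by
  have hp2 : p ≠ 2 := by
    rintro rfl
    obtain ⟨n, -, hn⟩ := FiniteField.card F 2
    rw [hn] at hodd
    exact (Nat.not_even_iff_odd.mpr hodd) ((even_two).pow_of_ne_zero n.ne_zero)
  rcases dickson_X p hodd H with h | ⟨k, ⟨e⟩⟩ | ⟨h1, -⟩ | h
  · exfalso
    apply hab
    have h1 := (IsCyclic.isMulCommutative (α := H)).is_comm.comm ⟨a, ha⟩ ⟨b, hb⟩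
    exact congrArg Subtype.val h1
  · exact ((no_dihedral_of_odd ha hb hab (by decide) (by decide) ha3 hb3 k).false e).elim
  · exfalso
    obtain ⟨n, hn⟩ := h1 ⟨u, hu⟩ ⟨v, hv⟩
    have h5 : (u * v * u⁻¹ * v⁻¹) ^ (p ^ n) = 1 := congrArg Subtype.val hn
    have hcop : Nat.Coprime (p ^ n) 2 := Nat.Coprime.pow_left n
      ((Nat.coprime_primes hp.out Nat.prime_two).mpr hp2)
    have h7 := pow_gcd_eq_one.mpr ⟨h5, hc2⟩
    rw [hcop, pow_one] at h7
    exact hc1 h7
  · exact h

end embed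

end Cfsg.Agent.Lib.PGLMaxA
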