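import Mathlib
import Cfsg.Agent.Lib.PGLMaxA

set_option autoImplicit false
set_option linter.style.haveILetI false
set_option linter.unusedVariables false
set_option linter.unusedSectionVars false

namespace Cfsg.Agent.Lib.PGLMaxB

open Matrix Subgroup
open Cfsg.Agent.Lib.SL2Core Cfsg.Agent.Lib.DicksonAbs Cfsg.Agent.Lib.DicksonMat
open Cfsg.Agent.Lib.DicksonStruct Cfsg.Agent.Lib.DicksonTT Cfsg.Agent.Lib.PSL2Sub
open Cfsg.Agent.Lib.DicksonRed Cfsg.Agent.Lib.PSL2Max Cfsg.Agent.Lib.PSL2Cnt Cfsg.Agent.Lib.PSL2Coat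
open Cfsg.Agent.Lib.PSL2Lat Cfsg.Agent.Lib.PSL2LatOdd Cfsg.Agent.Lib.PGLMaxA

instance finite_XX {F : Type*} [Field F] [Finite F] : Finite (XX F) :=
  inferInstanceAs (Finite (GL (Fin 2) F ⧸ Subgroup.center (GL (Fin 2) F)))

variable {F : Type*} [Field F] [Fintype F] (p : ℕ) [hp : Fact p.Prime] [CharP F p]
variable {M : Subgroup (XX F)}

include p in
lemma p_ne_two (hodd : Odd (Fintype.card F)) : p ≠ 2 := by
  rintro rfl
  obtain ⟨n, -, hn⟩ := FiniteField.card F 2
  rw [hn] at hodd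
  exact (Nat.not_even_iff_odd.mpr hodd) ((even_two).pow_of_ne_zero n.ne_zero)

lemma eight_dvd_sq_sub {q : ℕ} (h : Odd q) : 8 ∣ q ^ 2 - 1 := by
  obtain ⟨k, rfl⟩ := h
  obtain ⟨m, hm⟩ := Nat.even_mul_succ_self k
  refine ⟨m, ?_⟩
  have : (2 * k + 1) ^ 2 = 4 * (k * (k + 1)) + 1 := by ring
  rw [this, hm]
  omega

include p in
lemma p_dvd_card : p ∣ Fintype.card F := by
  obtain ⟨n, -, hn⟩ := FiniteField.card F p
  rw [hn]
  exact dvd_pow_self p n.ne_zero

lemma gcd_two (hodd : Odd (Fintype.card F)) : Nat.gcd 2 (Fintype.card F - 1) = 2 :=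
  Nat.gcd_eq_left (Nat.Odd.sub_odd hodd odd_one).two_dvd

lemma card_psl (hodd : Odd (Fintype.card F)) : 2 * Nat.card (PSL2 F) = Fintype.card F * (Fintype.card F ^ 2 - 1) := by
  have h1 := card_PSL2_form (K := F)
  rwa [gcd_two hodd] at h1

lemma psl_nonab : ¬ ∀ a b : PSL2 F, a * b = b * a := fun h =>
  proj_uu_vv_ne (F := F) (h _ _)

include p in
/-- A maximal subgroup of `PGL₂(F)` is not of order `2`. -/
lemma comap_ne_bot (hodd : Odd (Fintype.card F)) (hM : IsCoatom M) (hML : ¬ (jj : PSL2 F →* XX F).range ≤ M) :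
    M.comap (jj : PSL2 F →* XX F) ≠ ⊥ := by
  intro hb
  have hc := card_coatom hodd hM hML
  rw [hb, Subgroup.card_bot] at hc
  haveI : Fact (Nat.Prime 2) := ⟨Nat.prime_two⟩
  have h2 : IsPGroup 2 M := IsPGroup.of_card (n := 1) (by rw [hc]; norm_num)
  obtain ⟨Q, hQ⟩ := h2.exists_le_sylow
  have h8 : 2 ^ 3 ∣ Nat.card (XX F) := by
    rw [card_PGL2_form]
    exact Dvd.dvd.mul_left (by simpa using eight_dvd_sq_sub hodd) _
  have h8' := Q.pow_dvd_card_of_pow_dvd_card h8
  have hQ0 : 0 < Nat.card (Q : Subgroup (XX F)) := Nat.card_pos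
  have hlt : M < (Q : Subgroup (XX F)) := by
    refine lt_of_le_of_ne hQ ?_
    intro h
    rw [← h, hc] at h8'
    norm_num at h8'
  have htop := hM.2 _ hlt
  obtain ⟨n, hn⟩ := IsPGroup.iff_card.mp Q.isPGroup'
  have hp1 : p ∣ Nat.card (Q : Subgroup (XX F)) := by
    rw [htop, Subgroup.card_top, card_PGL2_form]
    exact Dvd.dvd.mul_right (p_dvd_card p) _
  rw [hn] at hp1
  have := (Nat.prime_dvd_prime_iff_eq hp.out Nat.prime_two).mp (hp.out.dvd_of_dvd_pow hp1)
  exact p_ne_two p hodd this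

include p in
/-- The normalizer of a member of the partition is not inside the member. -/
lemma normalizer_not_le (hodd : Odd (Fintype.card F)) (h5 : 5 ≤ Fintype.card F) {x : PSL2 F} (hx : x ≠ 1) :
    ¬ normalizer ((MM x : Subgroup (PSL2 F)) : Set (PSL2 F)) ≤ MM x := by
  obtain ⟨A, rfl⟩ := proj_surjective x
  have hA := not_center_of_proj_ne_one hx
  by_cases ht : tr A * tr A = 4
  · intro hle
    have h1 := card_normalizer_parabolic p hA ht
    rw [gcd_two hodd] at h1
    have hpt := ptype_parabolic p hA ht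
    have heq : normalizer ((MM (proj A) : Subgroup (PSL2 F)) : Set (PSL2 F)) = MM (proj A) :=
      le_antisymm hle Subgroup.le_normalizer
    rw [heq] at h1
    obtain ⟨n, hn⟩ := IsPGroup.iff_card.mp hpt
    obtain ⟨s, hs⟩ := Nat.Odd.sub_odd hodd odd_one
    have h2 : Nat.card (MM (proj A)) = Fintype.card F * s := by
      have : 2 * Nat.card (MM (proj A)) = 2 * (Fintype.card F * s) := by
        rw [h1, hs]; ring
      exact Nat.eq_of_mul_eq_mul_left (by norm_num) this
    have hs2 : 2 ≤ s := by omega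
    have h3 : s ∣ p ^ n := by
      rw [← hn, h2]
      exact Dvd.intro_left _ rfl
    obtain ⟨i, -, hi⟩ := (Nat.dvd_prime_pow hp.out).mp h3
    have hi0 : i ≠ 0 := by
      rintro rfl
      rw [pow_zero] at hi
      omega
    have h4 : p ∣ s := by
      rw [hi]
      exact dvd_pow_self p hi0
    have h6 : p ∣ Fintype.card F := p_dvd_card p
    have h7 : p ∣ Fintype.card F - 1 := by
      rw [hs]
      exact dvd_add h4 h4
    have h8 : p ∣ 1 := by
      have := (Nat.dvd_sub h6 h7)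
      have e : Fintype.card F - (Fintype.card F - 1) = 1 := by omega
      rwa [e] at this
    exact hp.out.one_lt.ne' (Nat.dvd_one.mp h8)
  · exact not_normalizer_le hA ht

include p in
/-- The intersection is not inside a member of the partition which meets it. -/
lemma false_of_le_MM (hodd : Odd (Fintype.card F)) (h5 : 5 ≤ Fintype.card F) (hM : IsCoatom M)
    {x : PSL2 F} (hx : x ≠ 1) (hxM : x ∈ M.comap (jj : PSL2 F →* XX F))
    (hle : M.comap (jj : PSL2 F →* XX F) ≤ MM x) : False := by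
  have h1 := key1 (by omega) hM hx (fun t ht => hle (conj_mem_comap ht hxM))
  apply normalizer_not_le p hodd h5 hx
  rw [← h1]
  exact hle

/-- The Borel case. -/
lemma borel_case (hodd : Odd (Fintype.card F)) (h5 : 5 ≤ Fintype.card F) (hM : IsCoatom M)
    (hML : ¬ (jj : PSL2 F →* XX F).range ≤ M) (P : Sylow p (PSL2 F))
    (hP : M.comap (jj : PSL2 F →* XX F) ≤ normalizer ((P : Subgroup (PSL2 F)) : Set (PSL2 F))) :
    ∃ A : SL2 F, A ∉ center (SL2 F) ∧ tr A * tr A = 4 ∧
      M.comap (jj : PSL2 F →* XX F) = normalizer ((MM (proj A) : Subgroup (PSL2 F)) : Set (PSL2 F)) := by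
  classical
  obtain ⟨z, hz, hz1, hPz⟩ := sylow_eq_member (dstruct p) P (sylow_ne_bot P)
  change (P : Subgroup (PSL2 F)) = MM z at hPz
  set M₁ := M.comap (jj : PSL2 F →* XX F) with hM₁
  by_cases hQ : M₁ ⊓ (P : Subgroup (PSL2 F)) = ⊥
  · exfalso
    -- `M₁` is cyclic
    have hpt : IsPGroup p (MM z) := by
      rw [← hPz]
      exact P.isPGroup'
    have hcyc := (dstruct p).pt2 z hz1 hpt
    change IsCyclic (normalizer ((MM z : Subgroup (PSL2 F)) : Set (PSL2 F)) ⧸ (MM z).subgroupOf (normalizer ((MM z : Subgroup (PSL2 F)) : Set (PSL2 F)))) at hcyc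
    rw [hPz] at hP hQ
    let g : M₁ →* (normalizer ((MM z : Subgroup (PSL2 F)) : Set (PSL2 F)) ⧸ (MM z).subgroupOf (normalizer ((MM z : Subgroup (PSL2 F)) : Set (PSL2 F)))) :=
      (QuotientGroup.mk' _).comp (Subgroup.inclusion hP)
    have hg : Function.Injective g := by
      rw [injective_iff_map_eq_one]
      rintro ⟨u, hu⟩ h
      have h1 : Subgroup.inclusion hP ⟨u, hu⟩ ∈ (MM z).subgroupOf (normalizer ((MM z : Subgroup (PSL2 F)) : Set (PSL2 F))) :=
        (QuotientGroup.eq_one_iff _).mp h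
      have h2 : u ∈ MM z := Subgroup.mem_subgroupOf.mp h1
      have h3 : u ∈ M₁ ⊓ MM z := ⟨hu, h2⟩
      rw [hQ, Subgroup.mem_bot] at h3
      exact Subtype.ext h3
    haveI : IsCyclic M₁ := isCyclic_of_injective g hg
    obtain ⟨⟨x, hxM⟩, hgen⟩ := IsCyclic.exists_generator (α := M₁)
    have hx1 : x ≠ 1 := by
      rintro rfl
      apply comap_ne_bot p hodd hM hML
      rw [eq_bot_iff]
      intro u hu
      obtain ⟨n, hn⟩ := hgen ⟨u, hu⟩
      have h1 := congrArg Subtype.val hn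
      simp only [SubgroupClass.coe_zpow] at h1
      rw [Subgroup.mem_bot, ← h1]
      simp
    apply false_of_le_MM p hodd h5 hM hx1 hxM
    intro u hu
    obtain ⟨n, hn⟩ := hgen ⟨u, hu⟩
    have h1 := congrArg Subtype.val hn
    simp only [SubgroupClass.coe_zpow] at h1
    rw [← h1]
    exact (MM x).zpow_mem (dpart.mem x hx1) n
  · -- an element of order `p`
    have hQp : IsPGroup p ((M₁ ⊓ (P : Subgroup (PSL2 F)) : Subgroup (PSL2 F))) := P.isPGroup'.to_le inf_le_right
    haveI : Nontrivial (M₁ ⊓ (P : Subgroup (PSL2 F)) : Subgroup (PSL2 F)) := (Subgroup.nontrivial_iff_ne_bot _).mpr hQ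
    have hdvd : p ∣ Nat.card (M₁ ⊓ (P : Subgroup (PSL2 F)) : Subgroup (PSL2 F)) := by
      obtain ⟨n, hn⟩ := IsPGroup.iff_card.mp hQp
      rw [hn]
      have h1 : 1 < Nat.card (M₁ ⊓ (P : Subgroup (PSL2 F)) : Subgroup (PSL2 F)) := Finite.one_lt_card
      rw [hn] at h1
      have hn0 : n ≠ 0 := by
        rintro rfl
        simp at h1
      exact dvd_pow_self p hn0
    obtain ⟨⟨y, hyM, hyP⟩, hy⟩ := exists_prime_orderOf_dvd_card' p hdvd
    have hy' : orderOf y = p := (Subgroup.orderOf_mk y _).symm.trans hy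
    have hyp : y ^ p = 1 := by
      rw [← hy']
      exact pow_orderOf_eq_one y
    have hy1 : y ≠ 1 := by
      rintro rfl
      rw [orderOf_one] at hy'
      exact hp.out.one_lt.ne hy'
    obtain ⟨A, rfl⟩ := proj_surjective y
    have hA := not_center_of_proj_ne_one hy1
    have hMy : MM (proj A) = (P : Subgroup (PSL2 F)) := by
      rw [hPz]
      refine dpart.eq_of_mem z (proj A) hz1 hy1 ?_
      change proj A ∈ MM z
      rw [← hPz]
      exact hyP
    have hpt : IsPGroup p (MM (proj A)) := by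
      rw [hMy]
      exact P.isPGroup'
    refine ⟨A, hA, parabolic_of_ptype p hA hpt, ?_⟩
    apply key1 (by omega) hM hy1
    intro t ht
    rw [hMy]
    have h1 := conj_mem_comap ht hyM
    apply mem_sylow_of_pow_eq_one P (hP h1)
    rw [← map_pow, hyp, map_one]

end Cfsg.Agent.Lib.PGLMaxB
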