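import Mathlib
import Cfsg.Agent.Lib.PGLMaxB

set_option autoImplicit false
set_option linter.style.haveILetI false
set_option linter.unusedVariables false
set_option linter.unusedSectionVars false

namespace Cfsg.Agent.Lib.PGLMaxC

open Matrix Subgroup
open Cfsg.Agent.Lib.SL2Core Cfsg.Agent.Lib.DicksonAbs Cfsg.Agent.Lib.DicksonMat
open Cfsg.Agent.Lib.DicksonStruct Cfsg.Agent.Lib.DicksonTT Cfsg.Agent.Lib.PSL2Sub
open Cfsg.Agent.Lib.DicksonRed Cfsg.Agent.Lib.PSL2Max Cfsg.Agent.Lib.PSL2Cnt Cfsg.Agent.Lib.PSL2Coat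
open Cfsg.Agent.Lib.PSL2Lat Cfsg.Agent.Lib.PSL2LatOdd Cfsg.Agent.Lib.PGLMaxA Cfsg.Agent.Lib.PGLMaxB

variable {F : Type*} [Field F] [Fintype F] (p : ℕ) [hp : Fact p.Prime] [CharP F p]
variable {M : Subgroup (XX F)}

include p in
lemma tr_ne_of_ss {A : SL2 F} (hx : proj A ≠ 1) (hs : IsSS p (MM (proj A))) : tr A * tr A ≠ 4 := by
  have hA := not_center_of_proj_ne_one hx
  intro ht
  have hpt := ptype_parabolic p hA ht
  have h1 : proj A ∈ MM (proj A) := mem_MM_proj.mpr rfl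
  have h3 := Cfsg.Agent.Lib.DicksonStruct.p_dvd_orderOf_of_pgroup hx hpt h1
  have h4 : orderOf (proj A) ∣ Nat.card (MM (proj A)) := by
    have := orderOf_dvd_natCard (⟨proj A, h1⟩ : MM (proj A))
    rwa [Subgroup.orderOf_mk] at this
  have h5 := Nat.Coprime.eq_one_of_dvd hs.coprime.symm (h3.trans h4)
  exact hp.out.one_lt.ne' h5

/-- The dihedral case. -/
lemma dihedral_case (hodd : Odd (Fintype.card F)) (h5 : 5 ≤ Fintype.card F) (hM : IsCoatom M)
    (hML : ¬ (jj : PSL2 F →* XX F).range ≤ M) {x : PSL2 F} (hxM : x ∈ M.comap (jj : PSL2 F →* XX F)) (hx : x ≠ 1)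
    (hss : IsSS p (MM x))
    (e : M.comap (jj : PSL2 F →* XX F) ≃* DihedralGroup (Nat.card ((MM x).subgroupOf (M.comap (jj : PSL2 F →* XX F))))) :
    ∃ A : SL2 F, A ∉ center (SL2 F) ∧ tr A * tr A ≠ 4 ∧ 3 ≤ Nat.card (MM (proj A)) ∧
      M.comap (jj : PSL2 F →* XX F) = normalizer ((MM (proj A) : Subgroup (PSL2 F)) : Set (PSL2 F)) := by
  classical
  set M₁ := M.comap (jj : PSL2 F →* XX F) with hM₁
  let C : Subgroup M₁ := (MM x).subgroupOf M₁
  have hcard : Nat.card M₁ = 2 * Nat.card C := by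
    rw [Nat.card_congr e.toEquiv, DihedralGroup.nat_card]
  have hidx : C.index = 2 := by
    have h1 := Subgroup.card_mul_index C
    have h2 : 0 < Nat.card C := Nat.card_pos
    rw [hcard] at h1
    have h3 : Nat.card C * C.index = Nat.card C * 2 := by rw [h1]; ring
    exact Nat.eq_of_mul_eq_mul_left h2 h3
  haveI hCn : C.Normal := Subgroup.normal_of_index_eq_two hidx
  have hle : M₁ ≤ normalizer ((MM x : Subgroup (PSL2 F)) : Set (PSL2 F)) := by
    intro y hy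
    obtain ⟨A, rfl⟩ := proj_surjective x
    apply mem_normalizer_of_conj_mem hx
    have h1 : (⟨proj A, hxM⟩ : M₁) ∈ C := Subgroup.mem_subgroupOf.mpr (mem_MM_proj.mpr rfl)
    have h2 := hCn.conj_mem _ h1 ⟨y, hy⟩
    exact Subgroup.mem_subgroupOf.mp h2
  have hC1 : 1 < Nat.card C := by
    have : C ≠ ⊥ := by
      intro h
      have h1 : (⟨x, hxM⟩ : M₁) ∈ C := Subgroup.mem_subgroupOf.mpr (dpart.mem x hx)
      rw [h, Subgroup.mem_bot] at h1
      exact hx (congrArg Subtype.val h1)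
    haveI : Nontrivial C := (Subgroup.nontrivial_iff_ne_bot C).mpr this
    exact Finite.one_lt_card
  have hb : M₁ ≠ ⊥ := comap_ne_bot p hodd hM hML
  by_cases hn2 : Nat.card C = 2
  · exfalso
    haveI := simple_psl (F := F) (by omega)
    exact no_self_norm_four psl_nonab M₁ (by rw [hcard, hn2]) (self_norm (by omega) hM hML hb).le
  have hn3 : 3 ≤ Nat.card C := by omega
  haveI := hss.cyclic
  let f : C →* MM x := (M₁.subtype.comp C.subtype).codRestrict (MM x) (fun c => Subgroup.mem_subgroupOf.mp c.2)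
  have hf : Function.Injective f := by
    intro a b hab
    have h : (f a : PSL2 F) = f b := congrArg Subtype.val hab
    exact Subtype.ext (Subtype.ext h)
  haveI : IsCyclic C := isCyclic_of_injective f hf
  have hcardle : Nat.card C ≤ Nat.card (MM x) := Nat.card_le_card_of_injective f hf
  obtain ⟨g, hg⟩ := IsCyclic.exists_ofOrder_eq_natCard (α := C)
  set g₀ : PSL2 F := ((g : M₁) : PSL2 F) with hg₀
  have hg₀M : g₀ ∈ M₁ := (g : M₁).2
  have hg₀x : g₀ ∈ MM x := Subgroup.mem_subgroupOf.mp g.2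
  have hord : orderOf g₀ = Nat.card C := by
    rw [hg₀, Subgroup.orderOf_coe, Subgroup.orderOf_coe, hg]
  have hg₀1 : g₀ ≠ 1 := by
    intro h
    rw [h, orderOf_one] at hord
    omega
  have hMg : MM g₀ = MM x := dpart.eq_of_mem x g₀ hx hg₀1 hg₀x
  obtain ⟨A, hA⟩ := proj_surjective g₀
  have hA1 : proj A ≠ 1 := by rw [hA]; exact hg₀1
  refine ⟨A, not_center_of_proj_ne_one hA1, ?_, ?_, ?_⟩
  · apply tr_ne_of_ss p hA1
    rw [hA, hMg]
    exact hss
  · rw [hA, hMg]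
    omega
  · rw [hA]
    apply key1 (by omega) hM hg₀1
    intro t ht
    rw [hMg]
    by_contra hw
    have hwM := conj_mem_comap ht hg₀M
    obtain ⟨h1, -⟩ := hss.outer _ (hle hwM) hw
    have h2 : cjL t (g₀ * g₀) = 1 := by rw [map_mul, h1]
    have h3 : g₀ * g₀ = 1 := (map_eq_one_iff (cjL t) (cjL t).injective).mp h2
    have h4 : orderOf g₀ ∣ 2 := orderOf_dvd_of_pow_eq_one (by rw [pow_two, h3])
    rw [hord] at h4
    have := Nat.le_of_dvd (by norm_num) h4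
    omega

/-! ### Small groups -/

lemma data_alt4 : ∃ a b u v : alternatingGroup (Fin 4), a ^ 3 = 1 ∧ b ^ 3 = 1 ∧ a * b ≠ b * a ∧
    u * v * u⁻¹ * v⁻¹ ≠ 1 ∧ (u * v * u⁻¹ * v⁻¹) ^ 2 = 1 :=
  ⟨⟨Equiv.swap 0 1 * Equiv.swap 1 2, Equiv.Perm.mem_alternatingGroup.mpr (by decide +kernel)⟩, ⟨Equiv.swap 0 1 * Equiv.swap 1 3, Equiv.Perm.mem_alternatingGroup.mpr (by decide +kernel)⟩,
    ⟨Equiv.swap 0 1 * Equiv.swap 1 2, Equiv.Perm.mem_alternatingGroup.mpr (by decide +kernel)⟩, ⟨Equiv.swap 0 1 * Equiv.swap 2 3, Equiv.Perm.mem_alternatingGroup.mpr (by decide +kernel)⟩, by decide +kernel,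
    by decide +kernel, by decide +kernel, by decide +kernel, by decide +kernel⟩

lemma data_perm4 : ∃ a b u v : Equiv.Perm (Fin 4), a ^ 3 = 1 ∧ b ^ 3 = 1 ∧ a * b ≠ b * a ∧
    u * v * u⁻¹ * v⁻¹ ≠ 1 ∧ (u * v * u⁻¹ * v⁻¹) ^ 2 = 1 :=
  ⟨Equiv.swap 0 1 * Equiv.swap 1 2, Equiv.swap 0 1 * Equiv.swap 1 3,
    Equiv.swap 0 1 * Equiv.swap 1 2, Equiv.swap 0 1 * Equiv.swap 2 3, by decide +kernel,
    by decide +kernel, by decide +kernel, by decide +kernel, by decide +kernel⟩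

lemma data_alt5 : ∃ a b u v : alternatingGroup (Fin 5), a ^ 3 = 1 ∧ b ^ 3 = 1 ∧ a * b ≠ b * a ∧
    u * v * u⁻¹ * v⁻¹ ≠ 1 ∧ (u * v * u⁻¹ * v⁻¹) ^ 2 = 1 :=
  ⟨⟨Equiv.swap 0 1 * Equiv.swap 1 2, Equiv.Perm.mem_alternatingGroup.mpr (by decide +kernel)⟩, ⟨Equiv.swap 0 1 * Equiv.swap 1 3, Equiv.Perm.mem_alternatingGroup.mpr (by decide +kernel)⟩,
    ⟨Equiv.swap 0 1 * Equiv.swap 1 2, Equiv.Perm.mem_alternatingGroup.mpr (by decide +kernel)⟩, ⟨Equiv.swap 0 1 * Equiv.swap 2 3, Equiv.Perm.mem_alternatingGroup.mpr (by decide +kernel)⟩, by decide +kernel,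
    by decide +kernel, by decide +kernel, by decide +kernel, by decide +kernel⟩

/-- Moving the elements to `M`. -/
lemma data_transfer {G : Type*} [Group G] (e : M.comap (jj : PSL2 F →* XX F) ≃* G)
    (h : ∃ a b u v : G, a ^ 3 = 1 ∧ b ^ 3 = 1 ∧ a * b ≠ b * a ∧
      u * v * u⁻¹ * v⁻¹ ≠ 1 ∧ (u * v * u⁻¹ * v⁻¹) ^ 2 = 1) :
    ∃ a b u v : XX F, a ∈ M ∧ b ∈ M ∧ u ∈ M ∧ v ∈ M ∧ a ^ 3 = 1 ∧ b ^ 3 = 1 ∧ a * b ≠ b * a ∧
      u * v * u⁻¹ * v⁻¹ ≠ 1 ∧ (u * v * u⁻¹ * v⁻¹) ^ 2 = 1 := by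
  obtain ⟨a, b, u, v, h1, h2, h3, h4, h5⟩ := h
  let f : G →* XX F := (jj : PSL2 F →* XX F).comp ((M.comap (jj : PSL2 F →* XX F)).subtype.comp (e.symm : G →* _))
  have hf : Function.Injective f := by
    intro x y hxy
    exact e.symm.injective (Subtype.ext (jj_inj hxy))
  have hmem : ∀ x, f x ∈ M := fun x => (e.symm x).2
  refine ⟨f a, f b, f u, f v, hmem _, hmem _, hmem _, hmem _, ?_, ?_, ?_, ?_, ?_⟩
  · rw [← map_pow, h1, map_one]
  · rw [← map_pow, h2, map_one]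
  · intro h
    rw [← map_mul, ← map_mul] at h
    exact h3 (hf h)
  · intro h
    apply h4
    apply hf
    simpa [map_mul, map_inv] using h
  · have := congrArg f h5
    simpa [map_mul, map_inv, map_pow] using this

lemma numeric_48 (x : ℕ) (h : 2 * 48 = x * (x ^ 2 - 1) ∨ 48 = x * (x ^ 2 - 1)) : False := by
  by_cases hx : x < 6
  · interval_cases x <;> omega
  · have h1 : 6 * (6 ^ 2 - 1) ≤ x * (x ^ 2 - 1) := by
      rcases (not_lt.mp hx).eq_or_lt with h2 | h2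
      · rw [← h2]
      · exact (num_lt (by norm_num) h2).le
    omega

lemma numeric_120 (x : ℕ) (h : 2 * 120 = x * (x ^ 2 - 1) ∨ 120 = x * (x ^ 2 - 1)) : x = 5 := by
  by_cases hx : x < 7
  · interval_cases x <;> omega
  · have h1 : 7 * (7 ^ 2 - 1) ≤ x * (x ^ 2 - 1) := by
      rcases (not_lt.mp hx).eq_or_lt with h2 | h2
      · rw [← h2]
      · exact (num_lt (by norm_num) h2).le
    omega

lemma numeric_24 (x : ℕ) (h : 2 * 24 = x * (x ^ 2 - 1) ∨ 24 = x * (x ^ 2 - 1)) : x = 3 := by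
  by_cases hx : x < 6
  · interval_cases x <;> omega
  · have h1 : 6 * (6 ^ 2 - 1) ≤ x * (x ^ 2 - 1) := by
      rcases (not_lt.mp hx).eq_or_lt with h2 | h2
      · rw [← h2]
      · exact (num_lt (by norm_num) h2).le
    omega

include p in
/-- `S₄` is impossible. -/
lemma perm4_false (hodd : Odd (Fintype.card F)) (hM : IsCoatom M) (hML : ¬ (jj : PSL2 F →* XX F).range ≤ M)
    (e : M.comap (jj : PSL2 F →* XX F) ≃* Equiv.Perm (Fin 4)) : False := by
  have hc := card_coatom hodd hM hML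
  rw [Nat.card_congr e.toEquiv, card_perm4] at hc
  obtain ⟨a, b, u, v, ha, hb, hu, hv, h1, h2, h3, h4, h5⟩ := data_transfer e data_perm4
  rcases dickson_data p hodd M ha hb hu hv h1 h2 h3 h4 h5 with ⟨⟨f⟩⟩ | ⟨⟨f⟩⟩ | ⟨⟨f⟩⟩ | ⟨n, -, h6⟩
  · rw [Nat.card_congr f.toEquiv, card_alt4] at hc
    omega
  · rw [Nat.card_congr f.toEquiv, card_perm4] at hc
    omega
  · rw [Nat.card_congr f.toEquiv, card_alt5] at hc
    omega
  · rw [hc] at h6
    exact numeric_48 (p ^ n) h6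

include p in
/-- `A₅` with `p ≠ 5` is impossible. -/
lemma alt5_false (hodd : Odd (Fintype.card F)) (hM : IsCoatom M) (hML : ¬ (jj : PSL2 F →* XX F).range ≤ M)
    (e : M.comap (jj : PSL2 F →* XX F) ≃* alternatingGroup (Fin 5)) (hp5 : p ≠ 5) : False := by
  have hc := card_coatom hodd hM hML
  rw [Nat.card_congr e.toEquiv, card_alt5] at hc
  obtain ⟨a, b, u, v, ha, hb, hu, hv, h1, h2, h3, h4, h5⟩ := data_transfer e data_alt5
  rcases dickson_data p hodd M ha hb hu hv h1 h2 h3 h4 h5 with ⟨⟨f⟩⟩ | ⟨⟨f⟩⟩ | ⟨⟨f⟩⟩ | ⟨n, hn, h6⟩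
  · rw [Nat.card_congr f.toEquiv, card_alt4] at hc
    omega
  · rw [Nat.card_congr f.toEquiv, card_perm4] at hc
    omega
  · rw [Nat.card_congr f.toEquiv, card_alt5] at hc
    omega
  · rw [hc] at h6
    have h7 := numeric_120 (p ^ n) h6
    have h8 : p ∣ 5 := by
      rw [← h7]
      exact dvd_pow_self p (by omega)
    exact hp5 ((Nat.prime_dvd_prime_iff_eq hp.out (by norm_num)).mp h8)

include p in
/-- `A₄` with `p ≠ 3` gives `S₄`. -/
lemma alt4_iso (hodd : Odd (Fintype.card F)) (hM : IsCoatom M) (hML : ¬ (jj : PSL2 F →* XX F).range ≤ M)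
    (e : M.comap (jj : PSL2 F →* XX F) ≃* alternatingGroup (Fin 4)) (hp3 : p ≠ 3) :
    Nonempty (M ≃* Equiv.Perm (Fin 4)) := by
  have hc := card_coatom hodd hM hML
  rw [Nat.card_congr e.toEquiv, card_alt4] at hc
  obtain ⟨a, b, u, v, ha, hb, hu, hv, h1, h2, h3, h4, h5⟩ := data_transfer e data_alt4
  rcases dickson_data p hodd M ha hb hu hv h1 h2 h3 h4 h5 with ⟨⟨f⟩⟩ | ⟨⟨f⟩⟩ | ⟨⟨f⟩⟩ | ⟨n, hn, h6⟩
  · rw [Nat.card_congr f.toEquiv, card_alt4] at hc
    omega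
  · exact ⟨f⟩
  · rw [Nat.card_congr f.toEquiv, card_alt5] at hc
    omega
  · exfalso
    rw [hc] at h6
    have h7 := numeric_24 (p ^ n) h6
    have h8 : p ∣ 3 := by
      rw [← h7]
      exact dvd_pow_self p (by omega)
    exact hp3 ((Nat.prime_dvd_prime_iff_eq hp.out (by norm_num)).mp h8)

end Cfsg.Agent.Lib.PGLMaxC
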