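import Mathlib
import Cfsg.Agent.Lib.PGLMaxC

set_option autoImplicit false
set_option linter.style.haveILetI false
set_option linter.unusedVariables false
set_option linter.unusedSectionVars false

namespace Cfsg.Agent.Lib.PGLMaxD

open Matrix Subgroup
open Cfsg.Agent.Lib.SL2Core Cfsg.Agent.Lib.DicksonAbs Cfsg.Agent.Lib.DicksonMat
open Cfsg.Agent.Lib.DicksonStruct Cfsg.Agent.Lib.DicksonTT Cfsg.Agent.Lib.PSL2Sub
open Cfsg.Agent.Lib.DicksonRed Cfsg.Agent.Lib.PSL2Max Cfsg.Agent.Lib.PSL2Cnt Cfsg.Agent.Lib.PSL2Coat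
open Cfsg.Agent.Lib.PSL2Lat Cfsg.Agent.Lib.PSL2LatOdd Cfsg.Agent.Lib.PGLMaxA Cfsg.Agent.Lib.PGLMaxB
open Cfsg.Agent.Lib.PGLMaxC

section gen

variable {F : Type*} [Field F]

/-- A criterion for normalizing. -/
lemma mem_norm_of_iff {s : XX F} {K : Subgroup (PSL2 F)} (h : ∀ y, y ∈ K ↔ cjL s y ∈ K) :
    s ∈ normalizer ((K.map (jj : PSL2 F →* XX F) : Subgroup (XX F)) : Set (XX F)) := by
  rw [Subgroup.mem_normalizer_iff]
  intro g
  constructor
  · rintro ⟨y, hy, rfl⟩
    exact ⟨cjL s y, (h y).mp hy, jj_cjL s y⟩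
  · rintro ⟨y', hy', e⟩
    refine ⟨(cjL s).symm y', (h _).mpr (by rwa [MulEquiv.apply_symm_apply]), ?_⟩
    have h1 : jj (cjL s ((cjL s).symm y')) = jj y' := by rw [MulEquiv.apply_symm_apply]
    rw [jj_cjL, e] at h1
    exact mul_left_cancel (mul_right_cancel h1)

lemma conj_mem_comap_iff {M : Subgroup (XX F)} {t : XX F} (ht : t ∈ M) (y : PSL2 F) :
    y ∈ M.comap (jj : PSL2 F →* XX F) ↔ cjL t y ∈ M.comap (jj : PSL2 F →* XX F) := by
  rw [Subgroup.mem_comap, Subgroup.mem_comap, jj_cjL]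
  constructor
  · intro h
    exact M.mul_mem (M.mul_mem ht h) (M.inv_mem ht)
  · intro h
    have e : jj y = t⁻¹ * (t * jj y * t⁻¹) * t := by group
    rw [e]
    exact M.mul_mem (M.mul_mem (M.inv_mem ht) h) ht

end gen

/-- Conjugacy of four-subgroups if the order is `4` modulo `8`. -/
lemma conj_of_card_four {G : Type*} [Group G] [Finite G] (hG : Nat.card G % 8 = 4) (A B : Subgroup G)
    (hA : Nat.card A = 4) (hB : Nat.card B = 4) : ∃ g : G, ∀ x, x ∈ B ↔ g⁻¹ * x * g ∈ A := by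
  haveI : Fact (Nat.Prime 2) := ⟨Nat.prime_two⟩
  have hfac : (Nat.card G).factorization 2 = 2 := by
    obtain ⟨k, hk⟩ : ∃ k, Nat.card G = 4 * (2 * k + 1) := ⟨Nat.card G / 8, by omega⟩
    rw [hk, Nat.factorization_mul (by norm_num) (by omega), Finsupp.add_apply,
      show (4 : ℕ) = 2 ^ 2 by norm_num, Nat.prime_two.factorization_pow, Finsupp.single_eq_same,
      Nat.factorization_eq_zero_of_not_dvd (by omega)]
  let P : Sylow 2 G := Sylow.ofCard A (by rw [hA, hfac]; norm_num)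
  let Q : Sylow 2 G := Sylow.ofCard B (by rw [hB, hfac]; norm_num)
  obtain ⟨g, hg⟩ := MulAction.exists_smul_eq G P Q
  refine ⟨g, fun x => ?_⟩
  have hQ : (Q : Subgroup G) = B := Sylow.coe_ofCard _ _
  have hP : (P : Subgroup G) = A := Sylow.coe_ofCard _ _
  rw [← hQ, ← hP, ← hg]
  change x ∈ cj g (P : Subgroup G) ↔ _
  rw [mem_cj]

variable {F : Type*} [Field F] [Fintype F] (p : ℕ) [hp : Fact p.Prime] [CharP F p]
variable {M : Subgroup (XX F)}

/-- A subgroup normalized by `M`. -/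
lemma norm_of_stable (h4 : 4 ≤ Fintype.card F) (hM : IsCoatom M) {K : Subgroup (PSL2 F)} (hb : K ≠ ⊥) (ht : K ≠ ⊤)
    (hst : ∀ t ∈ M, ∀ y, y ∈ K ↔ cjL t y ∈ K) :
    normalizer ((K.map (jj : PSL2 F →* XX F) : Subgroup (XX F)) : Set (XX F)) = M := by
  haveI := simple_psl (F := F) h4
  have hle : M ≤ normalizer ((K.map (jj : PSL2 F →* XX F) : Subgroup (XX F)) : Set (XX F)) :=
    fun t ht' => mem_norm_of_iff (hst t ht')
  have hne : normalizer ((K.map (jj : PSL2 F →* XX F) : Subgroup (XX F)) : Set (XX F)) ≠ ⊤ := by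
    intro h
    haveI := normal_of_norm_top h
    rcases IsSimpleGroup.eq_bot_or_eq_top_of_normal K inferInstance with h1 | h1
    · exact hb h1
    · exact ht h1
  exact ((hle.lt_or_eq).resolve_left (fun h => hne (hM.2 _ h))).symm

lemma alt4_sq_mul : ∀ a b : alternatingGroup (Fin 4), a ^ 2 = 1 → b ^ 2 = 1 → (a * b) ^ 2 = 1 := by decide +kernel

/-- The Klein four group. -/
def klein : Subgroup (alternatingGroup (Fin 4)) where
  carrier := {x | x ^ 2 = 1}
  mul_mem' := fun {a b} ha hb => alt4_sq_mul a b ha hb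
  one_mem' := one_pow 2
  inv_mem' := fun {a} ha => by
    change a⁻¹ ^ 2 = 1
    rw [inv_pow, show a ^ 2 = 1 from ha, inv_one]

lemma mem_klein (a : alternatingGroup (Fin 4)) : a ∈ klein ↔ a ^ 2 = 1 := Iff.rfl

lemma card_klein : Nat.card klein = 4 := by
  have h : ((Finset.univ : Finset (alternatingGroup (Fin 4))).filter (fun x => x ^ 2 = 1)).card = 4 := by decide +kernel
  refine Eq.trans ?_ h
  apply Nat.subtype_card
  intro x
  simp [mem_klein]

lemma mod8_of_card {q L : ℕ} (hq : Odd q) (hL : 2 * L = q * (q ^ 2 - 1)) (h : L % 8 = 4) : q % 8 = 3 ∨ q % 8 = 5 := by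
  have hq2 : q % 8 = 1 ∨ q % 8 = 3 ∨ q % 8 = 5 ∨ q % 8 = 7 := by
    obtain ⟨k, rfl⟩ := hq
    omega
  rcases hq2 with h1 | h1 | h1 | h1
  · exfalso
    obtain ⟨k, rfl⟩ : ∃ k, q = 8 * k + 1 := ⟨q / 8, by omega⟩
    have e : (8 * k + 1) ^ 2 - 1 = 16 * (k * (4 * k + 1)) := by
      have : (8 * k + 1) ^ 2 = 16 * (k * (4 * k + 1)) + 1 := by ring
      omega
    rw [e] at hL
    generalize k * (4 * k + 1) = w at hL
    have : L = 8 * ((8 * k + 1) * w) := by
      have : 2 * L = 2 * (8 * ((8 * k + 1) * w)) := by rw [hL]; ring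
      omega
    omega
  · exact Or.inl h1
  · exact Or.inr h1
  · exfalso
    obtain ⟨k, rfl⟩ : ∃ k, q = 8 * k + 7 := ⟨q / 8, by omega⟩
    have e : (8 * k + 7) ^ 2 - 1 = 16 * (4 * k * k + 7 * k + 3) := by
      have : (8 * k + 7) ^ 2 = 16 * (4 * k * k + 7 * k + 3) + 1 := by ring
      omega
    rw [e] at hL
    generalize 4 * k * k + 7 * k + 3 = w at hL
    have : L = 8 * ((8 * k + 7) * w) := by
      have : 2 * L = 2 * (8 * ((8 * k + 7) * w)) := by rw [hL]; ring
      omega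
    omega

lemma pgl_natural {K : Type*} [Field K] (φ : K →+* F) (y : PSL2 K) :
    pglMap φ (jj y) = jj (pslMap φ y) := by
  obtain ⟨A, rfl⟩ := proj_surjective y
  rw [jj_proj, pglMap_mk]
  change ProjGenLinGroup.mk _ = jj (proj (Matrix.SpecialLinearGroup.map φ A))
  rw [jj_proj]
  congr 1
  ext i j
  simp

include p in
/-- The order of `PSL₂` over the prime field. -/
theorem alt4_prime (hodd : Odd (Fintype.card F)) (hM : IsCoatom M) {V : Subgroup (PSL2 F)}
    (hV : Nat.card V = 4) (hcM : Nat.card M = 24)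
    (hnorm : normalizer ((V.map (jj : PSL2 F →* XX F) : Subgroup (XX F)) : Set (XX F)) = M)
    (hL : Nat.card (PSL2 F) % 8 = 4) (hp2 : p ≠ 2) (hp3 : p ≠ 3) : Fintype.card F = p := by
  classical
  let φ : ZMod p →+* F := ZMod.castHom (dvd_refl p) F
  have hcK : Fintype.card (ZMod p) = p := ZMod.card p
  have hpodd : Odd p := hp.out.odd_of_ne_two hp2
  have hKodd : Odd (Fintype.card (ZMod p)) := by rwa [hcK]
  have hp5 : 5 ≤ p := by
    have h2 := hp.out.two_le
    by_contra h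
    have : p = 2 ∨ p = 3 ∨ p = 4 := by omega
    rcases this with h1 | h1 | h1
    · exact hp2 h1
    · exact hp3 h1
    · rw [h1] at hp
      exact absurd hp.out (by norm_num)
  have hL0 : 2 * Nat.card (PSL2 (ZMod p)) = p * (p ^ 2 - 1) := by
    have := card_psl hKodd
    rwa [hcK] at this
  have hdvd : Nat.card (PSL2 (ZMod p)) ∣ Nat.card (PSL2 F) := by
    have h1 := Subgroup.card_subgroup_dvd_card (pslMap φ).range
    rwa [← Nat.card_congr (MonoidHom.ofInjective (pslMap_injective φ)).toEquiv] at h1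
  have h4L0 : 4 ∣ Nat.card (PSL2 (ZMod p)) := by
    obtain ⟨w, hw⟩ := eight_dvd_sq_sub hpodd
    rw [hw] at hL0
    refine ⟨p * w, ?_⟩
    have : 2 * Nat.card (PSL2 (ZMod p)) = 2 * (4 * (p * w)) := by rw [hL0]; ring
    omega
  have hL0' : Nat.card (PSL2 (ZMod p)) % 8 = 4 := by
    have h8 : ¬ 8 ∣ Nat.card (PSL2 (ZMod p)) := fun h => by
      have := h.trans hdvd
      omega
    omega
  haveI : Fact (Nat.Prime 2) := ⟨Nat.prime_two⟩
  obtain ⟨V₀, hV₀⟩ := Sylow.exists_subgroup_card_pow_prime 2 (n := 2) (G := PSL2 (ZMod p)) (show 2 ^ 2 ∣ _ from h4L0)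
  have hV₀' : Nat.card V₀ = 4 := by rw [hV₀]; norm_num
  haveI := simple_psl (F := ZMod p) (by omega)
  have hN : ¬ normalizer ((V₀ : Subgroup (PSL2 (ZMod p))) : Set (PSL2 (ZMod p))) ≤ V₀ :=
    fun h => no_self_norm_four psl_nonab V₀ hV₀' h
  have hN12 : 12 ≤ Nat.card (normalizer ((V₀ : Subgroup (PSL2 (ZMod p))) : Set (PSL2 (ZMod p)))) := by
    have h1 : Nat.card V₀ ∣ Nat.card (normalizer ((V₀ : Subgroup (PSL2 (ZMod p))) : Set (PSL2 (ZMod p)))) :=
      Subgroup.card_dvd_of_le Subgroup.le_normalizer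
    have h2 := Subgroup.card_subgroup_dvd_card (normalizer ((V₀ : Subgroup (PSL2 (ZMod p))) : Set (PSL2 (ZMod p))))
    rw [hV₀'] at h1
    obtain ⟨m, hm⟩ := h1
    have hpos : 0 < Nat.card (normalizer ((V₀ : Subgroup (PSL2 (ZMod p))) : Set (PSL2 (ZMod p)))) := Nat.card_pos
    have hm0 : m ≠ 0 := by
      rintro rfl
      omega
    have hm1 : m ≠ 1 := by
      rintro rfl
      apply hN
      have : normalizer ((V₀ : Subgroup (PSL2 (ZMod p))) : Set (PSL2 (ZMod p))) = V₀ :=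
        (Subgroup.eq_of_le_of_card_ge Subgroup.le_normalizer (by rw [hV₀', hm])).symm
      rw [this]
    have hm2 : m ≠ 2 := by
      rintro rfl
      rw [hm] at h2
      have : 8 ∣ Nat.card (PSL2 (ZMod p)) := by simpa using h2
      omega
    omega
  -- the Frattini argument
  let W : Subgroup (XX (ZMod p)) := normalizer ((V₀.map (jj : PSL2 (ZMod p) →* XX (ZMod p)) : Subgroup (XX (ZMod p))) : Set (XX (ZMod p)))
  have hW : W.comap (jj : PSL2 (ZMod p) →* XX (ZMod p)) = normalizer ((V₀ : Subgroup (PSL2 (ZMod p))) : Set (PSL2 (ZMod p))) :=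
    comap_normalizer_map jj jj_inj V₀
  have hsup : W ⊔ (jj : PSL2 (ZMod p) →* XX (ZMod p)).range = ⊤ := by
    rw [eq_top_iff]
    intro t _
    let V₁ : Subgroup (PSL2 (ZMod p)) := V₀.map (cjL t : PSL2 (ZMod p) →* PSL2 (ZMod p))
    have hV₁ : Nat.card V₁ = 4 := by
      rw [← hV₀']
      exact Subgroup.card_map_of_injective (cjL t).injective
    obtain ⟨l, hl⟩ := conj_of_card_four hL0' V₀ V₁ hV₀' hV₁
    have hs : (jj l)⁻¹ * t ∈ W := by
      apply mem_norm_of_iff
      intro y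
      have e : cjL ((jj l)⁻¹ * t) y = l⁻¹ * cjL t y * l := by
        apply jj_inj
        rw [jj_cjL, map_mul, map_mul, jj_cjL, map_inv]
        group
      rw [e, ← hl]
      exact (Subgroup.mem_map_iff_mem (cjL t).injective).symm
    have h1 : t = jj l * ((jj l)⁻¹ * t) := by group
    rw [h1, sup_comm]
    exact Subgroup.mul_mem_sup ⟨l, rfl⟩ hs
  have hWc := card_of_sup hKodd hsup
  rw [hW] at hWc
  -- conjugating into `M`
  let V₂ : Subgroup (PSL2 F) := V₀.map (pslMap φ)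
  have hV₂ : Nat.card V₂ = 4 := by
    rw [← hV₀']
    exact Subgroup.card_map_of_injective (pslMap_injective φ)
  obtain ⟨l, hl⟩ := conj_of_card_four hL V V₂ hV hV₂
  let f : XX (ZMod p) →* XX F := (MulAut.conj (jj l)⁻¹).toMonoidHom.comp (pglMap φ)
  have hf : Function.Injective f := (MulAut.conj (jj l)⁻¹).injective.comp (pglMap_injective φ)
  have hfv : ∀ v : PSL2 (ZMod p), f (jj v) = jj (l⁻¹ * pslMap φ v * l) := by
    intro v
    change (jj l)⁻¹ * pglMap φ (jj v) * ((jj l)⁻¹)⁻¹ = _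
    rw [pgl_natural, map_mul, map_mul, map_inv, inv_inv]
  have hfV : (V₀.map (jj : PSL2 (ZMod p) →* XX (ZMod p))).map f = V.map (jj : PSL2 F →* XX F) := by
    ext z
    constructor
    · rintro ⟨_, ⟨v, hv, rfl⟩, rfl⟩
      exact ⟨l⁻¹ * pslMap φ v * l, (hl _).mp ⟨v, hv, rfl⟩, (hfv v).symm⟩
    · rintro ⟨v, hv, rfl⟩
      have h1 : l * v * l⁻¹ ∈ V₂ := by
        rw [hl]
        have e : l⁻¹ * (l * v * l⁻¹) * l = v := by group
        rw [e]
        exact hv
      obtain ⟨v₀, hv₀, e⟩ := h1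
      refine ⟨jj v₀, ⟨v₀, hv₀, rfl⟩, ?_⟩
      rw [hfv, e]
      congr 1
      group
  have hWM : W.map f ≤ M := by
    rw [← hnorm, ← hfV]
    exact Subgroup.le_normalizer_map f
  have hcW : Nat.card (W.map f) = Nat.card W := Subgroup.card_map_of_injective hf
  have heq : W.map f = M := Subgroup.eq_of_le_of_card_ge hWM (by rw [hcW, hcM, hWc]; omega)
  have hMf : M ≤ f.range := by
    rw [← heq]
    exact Subgroup.map_le_range f W
  have hcr : Nat.card f.range = p * (p ^ 2 - 1) := by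
    rw [← Nat.card_congr (MonoidHom.ofInjective hf).toEquiv, card_PGL2_form, hcK]
  rcases hMf.eq_or_lt with h | h
  · exfalso
    rw [h, hcr] at hcM
    have h1 : 5 * (5 ^ 2 - 1) ≤ p * (p ^ 2 - 1) := by
      rcases hp5.eq_or_lt with h2 | h2
      · rw [← h2]
      · exact (num_lt (by norm_num) h2).le
    omega
  · have htop := hM.2 _ h
    rw [htop, Subgroup.card_top, card_PGL2_form] at hcr
    have hle : p ≤ Fintype.card F := Nat.le_of_dvd Fintype.card_pos (p_dvd_card p)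
    rcases hle.eq_or_lt with h1 | h1
    · exact h1.symm
    · exfalso
      have := num_lt hp.out.two_le h1
      omega

include p in
/-- The alternating case. -/
theorem alt4_case (hodd : Odd (Fintype.card F)) (h5 : 5 ≤ Fintype.card F) (hM : IsCoatom M)
    (hML : ¬ (jj : PSL2 F →* XX F).range ≤ M) (e : M.comap (jj : PSL2 F →* XX F) ≃* alternatingGroup (Fin 4))
    (hp2 : p ≠ 2) (hp3 : p ≠ 3) :
    Fintype.card F = p ∧ (p % 8 = 3 ∨ p % 8 = 5) ∧ Nonempty (M ≃* Equiv.Perm (Fin 4)) := by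
  classical
  set M₁ := M.comap (jj : PSL2 F →* XX F) with hM₁
  let V : Subgroup (PSL2 F) := (klein.map (e.symm : alternatingGroup (Fin 4) →* M₁)).map M₁.subtype
  have hVmem : ∀ y, y ∈ V ↔ y ∈ M₁ ∧ y ^ 2 = 1 := by
    intro y
    constructor
    · rintro ⟨_, ⟨a, ha, rfl⟩, rfl⟩
      refine ⟨(e.symm a).2, ?_⟩
      have h1 : (e.symm a) ^ 2 = 1 := by
        rw [← map_pow, show a ^ 2 = 1 from ha, map_one]
      exact congrArg Subtype.val h1
    · rintro ⟨h1, h2⟩
      refine ⟨⟨y, h1⟩, ⟨e ⟨y, h1⟩, ?_, e.symm_apply_apply _⟩, rfl⟩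
      change (e ⟨y, h1⟩) ^ 2 = 1
      rw [← map_pow]
      have h3 : (⟨y, h1⟩ : M₁) ^ 2 = 1 := Subtype.ext h2
      rw [h3, map_one]
  have hVc : Nat.card V = 4 := by
    rw [← card_klein]
    have h1 : Nat.card V = Nat.card (klein.map (e.symm : alternatingGroup (Fin 4) →* M₁)) :=
      Subgroup.card_map_of_injective M₁.subtype_injective
    rw [h1]
    exact Subgroup.card_map_of_injective e.symm.injective
  have hG := card_psl hodd
  have hG120 : 120 ≤ Fintype.card F * (Fintype.card F ^ 2 - 1) := by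
    have h1 : 5 * (5 ^ 2 - 1) ≤ Fintype.card F * (Fintype.card F ^ 2 - 1) := by
      rcases h5.eq_or_lt with h2 | h2
      · rw [← h2]
      · exact (num_lt (by norm_num) h2).le
    omega
  have hb : V ≠ ⊥ := by
    intro h
    rw [h, Subgroup.card_bot] at hVc
    omega
  have ht : V ≠ ⊤ := by
    intro h
    rw [h, Subgroup.card_top] at hVc
    omega
  have hst : ∀ t ∈ M, ∀ y, y ∈ V ↔ cjL t y ∈ V := by
    intro t ht y
    rw [hVmem, hVmem, ← conj_mem_comap_iff ht y, ← map_pow, map_eq_one_iff _ (cjL t).injective]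
  have hnorm := norm_of_stable (by omega) hM hb ht hst
  have hN : normalizer ((V : Subgroup (PSL2 F)) : Set (PSL2 F)) = M₁ := by
    rw [← comap_normalizer_map jj jj_inj, hnorm]
  have hcM₁ : Nat.card M₁ = 12 := by
    rw [Nat.card_congr e.toEquiv, card_alt4]
  have hcM : Nat.card M = 24 := by
    rw [card_coatom hodd hM hML, hcM₁]
  haveI : Fact (Nat.Prime 2) := ⟨Nat.prime_two⟩
  have hmod := Sylow.card_normalizer_modEq_card (p := 2) (n := 2) (H := V) (by rw [hVc]; norm_num)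
  rw [hN, hcM₁] at hmod
  have hL : Nat.card (PSL2 F) % 8 = 4 := by
    have := hmod.symm
    simpa [Nat.ModEq] using this
  have hq := alt4_prime p hodd hM hVc hcM hnorm hL hp2 hp3
  refine ⟨hq, ?_, alt4_iso p hodd hM hML e hp3⟩
  rw [← hq]
  exact mod8_of_card hodd hG hL

end Cfsg.Agent.Lib.PGLMaxD
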