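import Mathlib
import Cfsg.Agent.Lib.PGLMaxD

set_option autoImplicit false
set_option linter.style.haveILetI false
set_option linter.unusedVariables false
set_option linter.unusedSectionVars false

namespace Cfsg.Agent.Lib.PGLMaxE

open Matrix Subgroup
open Cfsg.Agent.Lib.SL2Core Cfsg.Agent.Lib.DicksonAbs Cfsg.Agent.Lib.DicksonMat
open Cfsg.Agent.Lib.DicksonStruct Cfsg.Agent.Lib.DicksonTT Cfsg.Agent.Lib.PSL2Sub
open Cfsg.Agent.Lib.DicksonRed Cfsg.Agent.Lib.PSL2Max Cfsg.Agent.Lib.PSL2Cnt Cfsg.Agent.Lib.PSL2Coat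
open Cfsg.Agent.Lib.PSL2Lat Cfsg.Agent.Lib.PSL2LatOdd Cfsg.Agent.Lib.PGLMaxA Cfsg.Agent.Lib.PGLMaxB
open Cfsg.Agent.Lib.PGLMaxC Cfsg.Agent.Lib.PGLMaxD

section theta

variable {F : Type*} [Field F]

/-- `diag(ρ, 1)` in `GL₂`. -/
noncomputable def dg (ρ : F) (hρ : ρ ≠ 0) : GL (Fin 2) F :=
  ⟨!![ρ, 0; 0, 1], !![ρ⁻¹, 0; 0, 1], by simp [Matrix.mul_fin_two, hρ, Matrix.one_fin_two],
    by simp [Matrix.mul_fin_two, hρ, Matrix.one_fin_two]⟩

lemma jj_dConj (ρ : F) (hρ : ρ ≠ 0) (A : SL2 F) :
    jj (proj (dConj ρ hρ A)) = ProjGenLinGroup.mk (dg ρ hρ) * jj (proj A) * (ProjGenLinGroup.mk (dg ρ hρ))⁻¹ := by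
  rw [jj_proj, jj_proj, eq_mul_inv_iff_mul_eq, ← map_mul, ← map_mul]
  congr 1
  apply Units.ext
  ext i j
  have h00 := dConj00 ρ hρ A
  have h01 := dConj01 ρ hρ A
  have h10 := dConj10 ρ hρ A
  have h11 := dConj11 ρ hρ A
  simp only [ee] at h00 h01 h10 h11
  fin_cases i <;> fin_cases j <;>
    simp [dg, Matrix.mul_apply, Fin.sum_univ_two, h00, h01, h10, h11, hρ] <;>
    first | ring1 | (field_simp; done) | (field_simp; ring1)

/-- The automorphisms `theta` come from `PGL₂`. -/
lemma theta_eq (g : SL2 F) (ρ : F) (hρ : ρ ≠ 0) : ∃ t : XX F, ∀ x, cjL t x = theta g ρ hρ x := by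
  refine ⟨ProjGenLinGroup.mk (dg ρ hρ) * (jj (proj g))⁻¹, fun x => ?_⟩
  obtain ⟨B, rfl⟩ := proj_surjective x
  apply jj_inj
  rw [jj_cjL, theta_proj, dPSL_proj, jj_dConj, map_mul, map_mul, map_mul, map_mul, map_inv, map_inv]
  group

end theta

section position

variable {F : Type*} [Field F] [Finite F] (p : ℕ) [hp : Fact p.Prime] [CharP F p]

/-- **The case of `|S| + 1` Sylow subgroups**, with the position of the subgroup by an element of `PGL₂`. -/
theorem two_trans_pos' (H : Subgroup (PSL2 F)) (S : Sylow p H) (hb : (S : Subgroup H) ≠ ⊥)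
    (hn : Nat.card (Sylow p H) = Nat.card S + 1) :
    ∃ (t : XX F) (K₀ : Subfield F),
      H.map (cjL t : PSL2 F →* PSL2 F) = (pslMap K₀.subtype).range ∨
      (H.map (cjL t : PSL2 F →* PSL2 F) = RR K₀ ∧ ∀ x : K₀, x ≠ 0 → IsSquare (K₀.subtype x)) := by
  let D : DStruct (PSL2 F) p := dstruct p
  haveI : Nontrivial (S : Subgroup H) := (Subgroup.nontrivial_iff_ne_bot _).mpr hb
  have hS1 : 1 < Nat.card S := Finite.one_lt_card
  haveI : Nontrivial (Sylow p H) := Finite.one_lt_card_iff_nontrivial.mp (by omega)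
  obtain ⟨T, hTS⟩ := exists_ne S
  have hbT : (T : Subgroup H) ≠ ⊥ := by
    intro h
    have h1 := card_sylow_eq_card S T
    rw [h, Subgroup.card_bot] at h1
    omega
  -- the members
  have hmember : ∀ U : Sylow p H, (U : Subgroup H) ≠ ⊥ → ∃ A : SL2 F, A ∉ center (SL2 F) ∧ tr A * tr A = 4 ∧
      proj A ∈ (U : Subgroup H).map H.subtype ∧ (U : Subgroup H).map H.subtype ≤ MM (proj A) := by
    intro U hU
    have hp1 : IsPGroup p ((U : Subgroup H).map H.subtype) := U.isPGroup'.map _
    have hb1 : (U : Subgroup H).map H.subtype ≠ ⊥ := by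
      intro h
      apply hU
      rw [eq_bot_iff]
      intro y hy
      have : (y : PSL2 F) ∈ (U : Subgroup H).map H.subtype := ⟨y, hy, rfl⟩
      rw [h, Subgroup.mem_bot] at this
      exact Subgroup.mem_bot.mpr (Subtype.ext this)
    obtain ⟨x, hx, hx1, hle, hpt⟩ := p_le_member D _ hp1 hb1
    obtain ⟨A, rfl⟩ := proj_surjective x
    have hA := not_center_of_proj_ne_one hx1
    exact ⟨A, hA, parabolic_of_ptype p hA hpt, hx, hle⟩
  obtain ⟨A, hA, ht, hAS, hSle⟩ := hmember S hb
  obtain ⟨A', hA', ht', hAT, hTle⟩ := hmember T hbT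
  -- the two do not commute
  have hne : A' * A ≠ A * A' := by
    intro hc
    have hp1 := ptype_parabolic p hA ht
    have hsub : ∀ U : Sylow p H, (U : Subgroup H).map H.subtype ≤ MM (proj A) →
        (MM (proj A)).subgroupOf H = U := by
      intro U hU
      apply U.is_maximal' hp1.comap_subtype
      intro u hu
      exact Subgroup.mem_subgroupOf.mpr (hU ⟨u, hu, rfl⟩)
    have hT2 : (T : Subgroup H).map H.subtype ≤ MM (proj A) := by
      have h1 : MM (proj A') = MM (proj A) :=
        dpart.eq_of_mem (proj A) (proj A') (fun h => hA ((proj_eq_one_iff A).mp h))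
          (fun h => hA' ((proj_eq_one_iff A').mp h)) (mem_MM_proj.mpr hc)
      rw [← h1]
      exact hTle
    apply hTS
    apply Sylow.ext
    rw [← hsub T hT2, hsub S hSle]
  obtain ⟨g, hg1, hg2⟩ := exists_pair hA ht ht' hne
  obtain ⟨b₀, hb₀⟩ := hg1 A rfl
  have hb₀0 : b₀ ≠ 0 := by
    rintro rfl
    apply not_center_conj hA g
    rw [← proj_eq_one_iff, hb₀, uu_zero, map_one]
  let ρ : F := b₀⁻¹
  have hρ : ρ ≠ 0 := inv_ne_zero hb₀0
  let θ := theta g ρ hρ
  let H' : Subgroup (PSL2 F) := H.map (θ : PSL2 F →* PSL2 F)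
  let e : H ≃* H' := θ.subgroupMap H
  let f : H →* H' := (e : H →* H')
  have hf : Function.Surjective f := e.surjective
  have hfi : Function.Injective f := e.injective
  let S' : Sylow p H' := S.mapSurjective hf
  let T' : Sylow p H' := T.mapSurjective hf
  have hS'c : Nat.card S' = Nat.card S := by
    change Nat.card ((S : Subgroup H).map f) = _
    exact Subgroup.card_map_of_injective hfi
  have hn' : Nat.card (Sylow p H') = Nat.card S' + 1 := by
    rw [hS'c, ← hn]
    have hbij : Function.Bijective (Sylow.mapSurjective hf : Sylow p H → Sylow p H') := by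
      refine ⟨?_, Sylow.mapSurjective_surjective hf p⟩
      intro U V hUV
      apply Sylow.ext
      have h1 : (U : Subgroup H).map f = (V : Subgroup H).map f := congrArg (fun W : Sylow p H' => (W : Subgroup H')) hUV
      exact Subgroup.map_injective hfi h1
    exact (Nat.card_congr (Equiv.ofBijective _ hbij)).symm
  have hpos : Pos S' T' := by
    refine ⟨?_, ?_, ?_, ?_⟩
    · rintro _ ⟨s, hs, rfl⟩
      have h1 : (s : PSL2 F) ∈ MM (proj A) := hSle ⟨s, hs, rfl⟩
      obtain ⟨B, hB⟩ := proj_surjective (s : PSL2 F)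
      rw [← hB] at h1
      obtain ⟨b, hb'⟩ := hg1 B (mem_MM_proj.mp h1)
      refine ⟨ρ * b, ?_⟩
      change θ (s : PSL2 F) = _
      rw [← hB, theta_proj, hb', dPSL_proj, dConj_uu]
    · rintro _ ⟨s, hs, rfl⟩
      have h1 : (s : PSL2 F) ∈ MM (proj A') := hTle ⟨s, hs, rfl⟩
      obtain ⟨B, hB⟩ := proj_surjective (s : PSL2 F)
      rw [← hB] at h1
      obtain ⟨b, hb'⟩ := hg2 B (mem_MM_proj.mp h1)
      refine ⟨ρ⁻¹ * b, ?_⟩
      change θ (s : PSL2 F) = _
      rw [← hB, theta_proj, hb', dPSL_proj, dConj_vv]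
    · obtain ⟨s, hs, hsA⟩ := hAS
      refine ⟨f s, ⟨s, hs, rfl⟩, ?_⟩
      change θ (s : PSL2 F) = _
      have h2 : (s : PSL2 F) = proj A := hsA
      rw [h2, theta_proj, hb₀, dPSL_proj, dConj_uu]
      congr 2
      exact inv_mul_cancel₀ hb₀0
    · intro h
      apply hTS
      apply Sylow.ext
      have h1 : (T : Subgroup H).map f = (S : Subgroup H).map f := congrArg (fun W : Sylow p H' => (W : Subgroup H')) h
      exact Subgroup.map_injective hfi h1
  obtain ⟨N⟩ := norm2_of_pos S' T' hpos hn'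
  obtain ⟨K₀, hK⟩ := exists_subfield (BB H') N.one_mem (fun b hb => key_inv N hb) (fun b hb x hx => key_sq N hb hx)
  obtain ⟨t, ht⟩ := theta_eq g ρ hρ
  have hH' : H' = H.map (cjL t : PSL2 F →* PSL2 F) := by
    ext z
    constructor
    · rintro ⟨y, hy, rfl⟩
      exact ⟨y, hy, ht y⟩
    · rintro ⟨y, hy, rfl⟩
      exact ⟨y, hy, (ht y).symm⟩
  refine ⟨t, K₀, ?_⟩
  rw [← hH']
  by_cases hall : ∀ d : SL2 F, proj d ∈ H' → ee d 1 0 = 0 → ee d 0 1 = 0 → ee d 0 0 ∈ K₀
  · exact Or.inl (case_A K₀ N hK hall)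
  · push Not at hall
    obtain ⟨d, hd, h10, h01, ha⟩ := hall
    exact Or.inr (case_B K₀ N hK hd h10 h01 ha)


end position

section transport

variable {F : Type*} [Field F] {M : Subgroup (XX F)} (t : XX F)

lemma coatom_conj (hM : IsCoatom M) : IsCoatom (M.map ((MulAut.conj t : XX F ≃* XX F) : XX F →* XX F)) :=
  isCoatom_map _ hM

lemma not_le_conj (hML : ¬ (jj : PSL2 F →* XX F).range ≤ M) :
    ¬ (jj : PSL2 F →* XX F).range ≤ M.map ((MulAut.conj t : XX F ≃* XX F) : XX F →* XX F) := by
  intro h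
  apply hML
  intro x hx
  have h1 : t * x * t⁻¹ ∈ (jj : PSL2 F →* XX F).range := range_normal.conj_mem x hx t
  obtain ⟨y, hy, e⟩ := h h1
  have e' : t * y * t⁻¹ = t * x * t⁻¹ := e
  have : y = x := mul_left_cancel (mul_right_cancel e')
  rwa [← this]

lemma comap_conj :
    (M.map ((MulAut.conj t : XX F ≃* XX F) : XX F →* XX F)).comap (jj : PSL2 F →* XX F) =
      (M.comap (jj : PSL2 F →* XX F)).map (cjL t : PSL2 F →* PSL2 F) := by
  ext y
  constructor
  · rintro ⟨z, hz, e⟩
    have e' : t * z * t⁻¹ = jj y := e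
    refine ⟨(cjL t).symm y, ?_, (cjL t).apply_symm_apply y⟩
    rw [SetLike.mem_coe, Subgroup.mem_comap]
    have h1 : jj (cjL t ((cjL t).symm y)) = jj y := by rw [MulEquiv.apply_symm_apply]
    rw [jj_cjL, ← e'] at h1
    have : jj ((cjL t).symm y) = z := mul_left_cancel (mul_right_cancel h1)
    rwa [this]
  · rintro ⟨z, hz, rfl⟩
    exact ⟨jj z, hz, (jj_cjL t z).symm⟩

end transport

section coatom

variable {F : Type*} [Field F] [Fintype F]

/-- Subfield subgroups of odd prime degree are maximal. -/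
theorem coatom_of_odd_prime {K : Type*} [Field K] [Fintype K] (φ : K →+* F) (q r : ℕ) (hK : Fintype.card K = q)
    (hF : Fintype.card F = q ^ r) (hq : Odd q) (hr : r.Prime) (hr2 : r ≠ 2) : IsCoatom (pslMap φ).range := by
  classical
  have hr0 : r ≠ 0 := hr.ne_zero
  have hrodd : Odd r := hr.odd_of_ne_two hr2
  obtain ⟨p, f, hpp, hf, hn, hchK, hchF⟩ := char_setup F K hr0 (by rw [hF, hK])
  haveI : Fact p.Prime := ⟨hpp⟩
  rw [hK] at hn
  have hq0 : 3 ≤ q := by
    have h1 : 1 < q := by
      rw [← hK]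
      exact Fintype.one_lt_card
    obtain ⟨y, hy⟩ := hq
    omega
  have hpodd : Odd p := by
    rw [hn] at hq
    exact (Nat.odd_pow_iff (by omega)).mp hq
  have hQodd : Odd (q ^ r) := hq.pow
  have hcardG : 2 * Nat.card (PSL2 F) = q ^ r * ((q ^ r) ^ 2 - 1) := by
    have h1 := card_PSL2_form (K := F)
    rw [hF] at h1
    have h2 : Nat.gcd 2 (q ^ r - 1) = 2 := Nat.gcd_eq_left (Nat.Odd.sub_odd hQodd odd_one).two_dvd
    rwa [h2] at h1
  have hcardK : 2 * Nat.card (PSL2 K) = q * (q ^ 2 - 1) := by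
    have h1 := card_PSL2_form (K := K)
    rw [hK] at h1
    have h2 : Nat.gcd 2 (q - 1) = 2 := Nat.gcd_eq_left (Nat.Odd.sub_odd hq odd_one).two_dvd
    rwa [h2] at h1
  have hcardH : Nat.card (pslMap φ).range = Nat.card (PSL2 K) :=
    Nat.card_congr (MonoidHom.ofInjective (pslMap_injective φ)).symm.toEquiv
  set A := Nat.card (PSL2 K) with hA
  have hqQ : q < q ^ r := by
    calc q = q ^ 1 := (pow_one q).symm
      _ < q ^ r := Nat.pow_lt_pow_right (by omega) hr.one_lt
  have hobst : ¬ (2 * A ∣ Nat.card (PSL2 F)) := by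
    rw [hcardK]
    exact two_adic_obstruction hq (by omega) hrodd hcardG
  apply coatom_of_card
  · intro h
    rw [h, Subgroup.card_top] at hcardH
    have h1 := num_lt (by omega) hqQ
    rw [← hcardK, ← hcardG] at h1
    have h2 : Nat.card (PSL2 F) = A := hcardH
    omega
  · intro L hL
    have hdvd : A ∣ Nat.card L := by
      rw [← hcardH]
      exact Subgroup.card_dvd_of_le hL
    have hLG : Nat.card L ∣ Nat.card (PSL2 F) := Subgroup.card_subgroup_dvd_card L
    have hLG' : Nat.card L ≤ Nat.card (PSL2 F) := Nat.le_of_dvd Nat.card_pos hLG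
    have ha : proj (uu (1 : F)) ∈ L := hL (by
      have := proj_uu_mem_range φ 1
      rwa [map_one] at this)
    have hb : proj (vv (1 : F)) ∈ L := hL (by
      have := proj_vv_mem_range φ 1
      rwa [map_one] at this)
    rw [hcardH]
    have hq5 : q = 3 ∨ q = 5 ∨ 7 ≤ q := by
      obtain ⟨y, hy⟩ := hq
      omega
    rcases overgroup_cases_unip p L ha hb (fun h => absurd (h ▸ hpodd) (by decide)) with
      h | h | h | ⟨K', _, _, m, hm, hiso⟩
    · -- order 12
      left
      rw [h] at hdvd ⊢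
      rcases hq5 with rfl | rfl | h7
      · norm_num at hcardK
        omega
      · norm_num at hcardK
        have h2 : A = 60 := by omega
        rw [h2] at hdvd
        omega
      · have h1 : 7 * (7 ^ 2 - 1) ≤ q * (q ^ 2 - 1) := by
          rcases h7.eq_or_lt with h | h
          · rw [← h]
          · exact (num_lt (by norm_num) h).le
        have := Nat.le_of_dvd (by norm_num) hdvd
        omega
    · -- order 24
      exfalso
      rw [h] at hdvd hLG
      rcases hq5 with rfl | rfl | h7
      · norm_num at hcardK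
        apply hobst
        have h2 : 2 * A = 24 := by omega
        rw [h2]
        exact hLG
      · norm_num at hcardK
        have h2 : A = 60 := by omega
        rw [h2] at hdvd
        omega
      · have h1 : 7 * (7 ^ 2 - 1) ≤ q * (q ^ 2 - 1) := by
          rcases h7.eq_or_lt with h | h
          · rw [← h]
          · exact (num_lt (by norm_num) h).le
        have := Nat.le_of_dvd (by norm_num) hdvd
        omega
    · -- order 60
      rw [h] at hdvd hLG ⊢
      rcases hq5 with rfl | rfl | h7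
      · exfalso
        have h5 : 5 ∣ 2 * Nat.card (PSL2 F) := by
          exact ((by norm_num : 5 ∣ 60).trans hLG).trans (Dvd.intro_left _ rfl)
        rw [hcardG] at h5
        rcases (Nat.Prime.dvd_mul (by norm_num)).mp h5 with h6 | h6
        · have := (by norm_num : Nat.Prime 5).dvd_of_dvd_pow h6
          omega
        · have h7 : ∀ s : ℕ, (3 ^ (2 * s + 1)) ^ 2 % 5 = 4 := by
            intro s
            induction s with
            | zero => norm_num
            | succ s ih =>
              have : (3 ^ (2 * (s + 1) + 1)) ^ 2 = (3 ^ (2 * s + 1)) ^ 2 * 81 := by ring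
              rw [this]
              omega
          obtain ⟨s, rfl⟩ := hrodd
          have h8 := h7 s
          have h9 : 1 ≤ (3 ^ (2 * s + 1)) ^ 2 := Nat.one_le_pow _ _ (by positivity)
          omega
      · left
        norm_num at hcardK
        omega
      · have h1 : 7 * (7 ^ 2 - 1) ≤ q * (q ^ 2 - 1) := by
          rcases h7.eq_or_lt with h | h
          · rw [← h]
          · exact (num_lt (by norm_num) h).le
        have := Nat.le_of_dvd (by norm_num) hdvd
        omega
    · set x := Fintype.card K' with hx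
      have hx1 : 1 < x := Fintype.one_lt_card
      have hQ : x ^ m = p ^ (f * r) := by
        rw [hm, hF, hn, pow_mul]
      obtain ⟨e, hxe, he, hem⟩ := exists_exponent hpp hQ hx1 (Nat.mul_pos hf hr.pos)
      have hxodd : Odd x := by
        rw [hxe]
        exact hpodd.pow
      have hg : Nat.gcd 2 (x - 1) = 2 := Nat.gcd_eq_left (Nat.Odd.sub_odd hxodd odd_one).two_dvd
      have hcL : 2 * Nat.card L = x * (x ^ 2 - 1) ∨ Nat.card L = x * (x ^ 2 - 1) := by
        rcases hiso with ⟨⟨e'⟩⟩ | ⟨⟨e'⟩⟩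
        · left
          rw [Nat.card_congr e'.toEquiv]
          have h1 := card_PSL2_form (K := K')
          rwa [hg] at h1
        · right
          rw [Nat.card_congr e'.toEquiv]
          exact card_PGL2_form (K := K')
      have h1 : (q ^ 2 - 1) ∣ 2 * (x ^ 2 - 1) := by
        have h2 : (q ^ 2 - 1) ∣ 2 * Nat.card L := by
          obtain ⟨c, hc⟩ := hdvd
          rw [hc]
          have : 2 * (A * c) = (2 * A) * c := by ring
          rw [this, hcardK]
          exact ⟨q * c, by ring⟩
        have h3 : (q ^ 2 - 1) ∣ x * (2 * (x ^ 2 - 1)) := by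
          rcases hcL with h4 | h4
          · refine h2.trans ?_
            rw [h4]
            exact ⟨2, by ring⟩
          · rw [h4] at h2
            have : x * (2 * (x ^ 2 - 1)) = 2 * (x * (x ^ 2 - 1)) := by ring
            rw [this]
            exact h2
        have h4 : Nat.Coprime (q ^ 2 - 1) x := by
          rw [hn]
          exact coprime_of_pow hpp hxe he hf
        exact h4.dvd_of_dvd_mul_left h3
      have h5 : p ^ (2 * f) - 1 ∣ 2 * (p ^ (2 * e) - 1) := by
        have h6 : q ^ 2 = p ^ (2 * f) := by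
          rw [hn, ← pow_mul, mul_comm]
        have h7 : x ^ 2 = p ^ (2 * e) := by
          rw [hxe, ← pow_mul, mul_comm]
        rwa [h6, h7] at h1
      rcases exponent_cases hpp hf he (by norm_num) le_rfl hr hem h5 with h6 | h6
      · have hxq : x = q := by
          rw [hxe, h6, ← hn]
        rw [hxq] at hcL
        rcases hcL with h7 | h7
        · left
          omega
        · exfalso
          apply hobst
          rw [hcardK, ← h7]
          exact hLG
      · have hxQ : x = q ^ r := by
          rw [hxe, h6, pow_mul, ← hn]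
        rw [hxQ] at hcL
        rcases hcL with h7 | h7
        · right
          change Nat.card L = Nat.card (PSL2 F)
          omega
        · exfalso
          have : 0 < Nat.card (PSL2 F) := Nat.card_pos
          omega


end coatom

end Cfsg.Agent.Lib.PGLMaxE
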