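import Mathlib
import Cfsg.Agent.Lib.PGLMaxE

set_option autoImplicit false
set_option linter.style.haveILetI false
set_option linter.unusedVariables false
set_option linter.unusedSectionVars false

namespace Cfsg.Agent.Lib.PGLMaxF

open Matrix Subgroup
open Cfsg.Agent.Lib.SL2Core Cfsg.Agent.Lib.DicksonAbs Cfsg.Agent.Lib.DicksonMat
open Cfsg.Agent.Lib.DicksonStruct Cfsg.Agent.Lib.DicksonTT Cfsg.Agent.Lib.PSL2Sub
open Cfsg.Agent.Lib.DicksonRed Cfsg.Agent.Lib.PSL2Max Cfsg.Agent.Lib.PSL2Cnt Cfsg.Agent.Lib.PSL2Coat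
open Cfsg.Agent.Lib.PSL2Lat Cfsg.Agent.Lib.PSL2LatOdd Cfsg.Agent.Lib.PGLMaxA Cfsg.Agent.Lib.PGLMaxB
open Cfsg.Agent.Lib.PGLMaxC Cfsg.Agent.Lib.PGLMaxD Cfsg.Agent.Lib.PGLMaxE

lemma num_mono {a b : ℕ} (ha : 2 ≤ a) (h : a ≤ b) : a * (a ^ 2 - 1) ≤ b * (b ^ 2 - 1) := by
  rcases h.eq_or_lt with h1 | h1
  · rw [h1]
  · exact (num_lt ha h1).le

/-- A numerical impossibility. -/
lemma num_absurd {p e f c : ℕ} (hp : 3 ≤ p) (hf : 1 ≤ f) (hc1 : 2 ≤ c) (hc2 : c ≤ 4)
    (h : p ^ e * ((p ^ e) ^ 2 - 1) = c * (p ^ f * ((p ^ f) ^ 2 - 1))) : False := by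
  have hx : 3 ≤ p ^ f := by
    calc 3 ≤ p := hp
      _ = p ^ 1 := (pow_one p).symm
      _ ≤ p ^ f := Nat.pow_le_pow_right (by omega) hf
  set x := p ^ f with hxd
  obtain ⟨w, hw⟩ : ∃ w, x ^ 2 = w + 1 := ⟨x ^ 2 - 1, by
    have : 1 ≤ x ^ 2 := Nat.one_le_pow _ _ (by omega)
    omega⟩
  have hw0 : 0 < w := by nlinarith
  have hx2 : x ^ 2 - 1 = w := by omega
  rcases le_or_gt e f with hef | hef
  · have h1 : p ^ e ≤ x := Nat.pow_le_pow_right (by omega) hef
    by_cases h2 : 2 ≤ p ^ e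
    · have h3 := num_mono h2 h1
      rw [h, hx2] at h3
      rw [hx2] at h
      have h4 : 0 < x * w := Nat.mul_pos (by omega) hw0
      nlinarith
    · have h3 : p ^ e * ((p ^ e) ^ 2 - 1) = 0 := by
        have : p ^ e = 0 ∨ p ^ e = 1 := by omega
        rcases this with h4 | h4 <;> rw [h4] <;> norm_num
      rw [h3, hx2] at h
      have h4 : 0 < x * w := Nat.mul_pos (by omega) hw0
      nlinarith
  · have h1 : 3 * x ≤ p ^ e := by
      have : p ^ e = p ^ (e - f) * p ^ f := by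
        rw [← pow_add]
        congr 1
        omega
      rw [this]
      apply Nat.mul_le_mul_right
      calc 3 ≤ p := hp
        _ = p ^ 1 := (pow_one p).symm
        _ ≤ p ^ (e - f) := Nat.pow_le_pow_right (by omega) (by omega)
    have h3 := num_mono (a := 3 * x) (by omega) h1
    rw [h, hx2] at h3
    have e1 : (3 * x) ^ 2 - 1 = 9 * w + 8 := by
      have : (3 * x) ^ 2 = 9 * (w + 1) := by rw [← hw]; ring
      omega
    rw [e1] at h3
    have h4 : 0 < x * w := Nat.mul_pos (by omega) hw0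
    nlinarith

variable {F : Type*} [Field F] [Fintype F] (p : ℕ) [hp : Fact p.Prime] [CharP F p]
variable {M : Subgroup (XX F)}

include p in
/-- The subgroup `PGL₂(K₀)` in `PSL₂(F)` is not the intersection. -/
theorem pos_RR (hodd : Odd (Fintype.card F)) (hM : IsCoatom M)
    (hML : ¬ (jj : PSL2 F →* XX F).range ≤ M) (K₀ : Subfield F) (h : M.comap (jj : PSL2 F →* XX F) = RR K₀)
    (hsq : ∀ x : K₀, x ≠ 0 → IsSquare (K₀.subtype x)) : False := by
  classical
  haveI : Fintype K₀ := Fintype.ofFinite K₀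
  haveI : CharP K₀ p := ((algebraMap K₀ F).charP_iff (algebraMap K₀ F).injective p).mpr inferInstance
  have hp2 := p_ne_two p hodd
  have hpodd : Odd p := hp.out.odd_of_ne_two hp2
  have hp3 : 3 ≤ p := by
    have := hp.out.two_le
    omega
  obtain ⟨n, -, hn⟩ := FiniteField.card K₀ p
  have hn1 : 1 ≤ (n : ℕ) := n.2
  have hc1 : (RR K₀).map (jj : PSL2 F →* XX F) = (pglMap K₀.subtype).range :=
    Subgroup.map_comap_eq_self (pglMap_range_le K₀.subtype hsq)
  have hc2 : Nat.card (RR K₀) = Fintype.card K₀ * (Fintype.card K₀ ^ 2 - 1) := by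
    have h5 : Nat.card ((RR K₀).map (jj : PSL2 F →* XX F)) = Nat.card (RR K₀) := Subgroup.card_map_of_injective jj_inj
    rw [← card_PGL2_form (K := K₀), ← h5, hc1]
    exact Nat.card_congr (MonoidHom.ofInjective (pglMap_injective K₀.subtype)).symm.toEquiv
  have hc3 := card_coatom hodd hM hML
  rw [h, hc2, hn] at hc3
  set x := p ^ (n : ℕ) with hx
  have hx3 : 3 ≤ x := by
    calc 3 ≤ p := hp3
      _ = p ^ 1 := (pow_one p).symm
      _ ≤ p ^ (n : ℕ) := Nat.pow_le_pow_right (by omega) hn1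
  have hxodd : Odd x := hpodd.pow
  have hrange : ∀ a b : ℕ, Nat.card M ≠ 12 ∧ Nat.card M ≠ 24 ∧ Nat.card M ≠ 60 := by
    intro _ _
    have h3 : x = 3 ∨ 5 ≤ x := by
      obtain ⟨y, hy⟩ := hxodd
      omega
    rcases h3 with h3 | h3
    · rw [hc3, h3]
      norm_num
    · have h4 := num_mono (by norm_num) h3
      norm_num at h4
      omega
  have huR : proj (uu (1 : F)) ∈ RR K₀ := (proj_uu_mem_RR_iff K₀ 1).mpr K₀.one_mem
  have hvR : proj (vv (1 : F)) ∈ RR K₀ := by
    apply range_le_RR K₀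
    have := proj_vv_mem_range K₀.subtype 1
    rwa [map_one] at this
  have ha : jj (proj (uu (1 : F))) ∈ M := by
    have : proj (uu (1 : F)) ∈ M.comap (jj : PSL2 F →* XX F) := by rw [h]; exact huR
    exact this
  have hb : jj (proj (vv (1 : F))) ∈ M := by
    have : proj (vv (1 : F)) ∈ M.comap (jj : PSL2 F →* XX F) := by rw [h]; exact hvR
    exact this
  have hab : jj (proj (uu (1 : F))) * jj (proj (vv (1 : F))) ≠ jj (proj (vv (1 : F))) * jj (proj (uu (1 : F))) := by
    intro h1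
    apply proj_uu_vv_ne (F := F)
    apply jj_inj
    rw [map_mul, map_mul]
    exact h1
  have hap : jj (proj (uu (1 : F))) ^ p = 1 := by rw [← map_pow, proj_uu_pow, map_one]
  have hbp : jj (proj (vv (1 : F))) ^ p = 1 := by rw [← map_pow, proj_vv_pow, map_one]
  rcases dickson_X p hodd M with h1 | ⟨k, ⟨e⟩⟩ | ⟨-, h2⟩ | ⟨⟨e⟩⟩ | ⟨⟨e⟩⟩ | ⟨⟨e⟩⟩ | ⟨e, he, h3⟩
  · apply hab
    have h2 := (IsCyclic.isMulCommutative (α := M)).is_comm.comm ⟨_, ha⟩ ⟨_, hb⟩
    exact congrArg Subtype.val h2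
  · exact ((no_dihedral_of_odd ha hb hab hpodd hpodd hap hbp k).false e).elim
  · apply hab
    have h3 := h2 ⟨_, ha⟩ ⟨_, hb⟩ (Subtype.ext hap) (Subtype.ext hbp)
    exact congrArg Subtype.val h3
  · exact (hrange 0 0).1 (by rw [Nat.card_congr e.toEquiv, card_alt4])
  · exact (hrange 0 0).2.1 (by rw [Nat.card_congr e.toEquiv, card_perm4])
  · exact (hrange 0 0).2.2 (by rw [Nat.card_congr e.toEquiv, card_alt5])
  · rcases h3 with h3 | h3
    · rw [hc3] at h3
      refine num_absurd (c := 4) hp3 hn1 (by norm_num) le_rfl (e := e) (h3.symm.trans ?_)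
      ring
    · rw [hc3] at h3
      exact num_absurd (c := 2) hp3 hn1 (by norm_num) (by norm_num) (e := e) h3.symm

omit p hp [CharP F p] in
lemma pgl_range_mono {K₀ K₁ : Subfield F} (h : K₀ ≤ K₁) : (pglMap K₀.subtype).range ≤ (pglMap K₁.subtype).range := by
  rintro _ ⟨x, rfl⟩
  obtain ⟨g, rfl⟩ := ProjGenLinGroup.mk_surjective x
  refine ⟨ProjGenLinGroup.mk (GeneralLinearGroup.map (Subfield.inclusion h) g), ?_⟩
  rw [pglMap_mk, pglMap_mk]
  congr 1

include p in
/-- The subgroup `PSL₂(K₀)` as the intersection. -/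
theorem pos_range (hodd : Odd (Fintype.card F)) (h5 : 5 ≤ Fintype.card F) (hM : IsCoatom M)
    (hML : ¬ (jj : PSL2 F →* XX F).range ≤ M) (K₀ : Subfield F)
    (h : M.comap (jj : PSL2 F →* XX F) = (pslMap K₀.subtype).range) :
    (∃ (F₀ : Type) (_ : Field F₀) (_ : Fintype F₀) (r : ℕ), r.Prime ∧ Odd r ∧
      Fintype.card F = Fintype.card F₀ ^ r ∧ Nonempty (M ≃* XX F₀)) ∧
    IsCoatom (M.comap (jj : PSL2 F →* XX F)) := by
  classical
  haveI : Fintype K₀ := Fintype.ofFinite K₀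
  obtain ⟨K, _, _, m, e, hm⟩ := exists_type_field K₀
  have hcK : Fintype.card K₀ = Fintype.card K := Fintype.card_congr e.toEquiv
  have hm0 : m ≠ 0 := by
    rintro rfl
    rw [pow_zero] at hm
    omega
  have hK₀odd : Odd (Fintype.card K₀) := by
    rw [hcK]
    rw [← hm] at hodd
    exact odd_of_pow hm0 hodd
  have hQc : Nat.card F = Nat.card K₀ ^ m := by
    rw [Nat.card_eq_fintype_card, Nat.card_eq_fintype_card, hcK, hm]
  have hb := comap_ne_bot p hodd hM hML
  have h4 : 4 ≤ Fintype.card F := by omega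
  let φ : K₀ →+* F := K₀.subtype
  have hnat : (jj : PSL2 K₀ →* XX K₀).range.map (pglMap φ) = ((pslMap φ).range).map (jj : PSL2 F →* XX F) := by
    rw [← MonoidHom.range_comp, ← MonoidHom.range_comp]
    congr 1
    exact MonoidHom.ext (pgl_natural φ)
  have hle : (pglMap φ).range ≤ M := by
    rw [← norm_eq h4 hM hML hb, h, ← hnat, MonoidHom.range_eq_map]
    have htop : normalizer (((jj : PSL2 K₀ →* XX K₀).range : Subgroup (XX K₀)) : Set (XX K₀)) = ⊤ :=
      Subgroup.normalizer_eq_top_iff.mpr range_normal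
    rw [← htop]
    exact Subgroup.le_normalizer_map _
  have hcG : ∀ {K₂ : Subfield F} [Fintype K₂], Nat.card (pglMap K₂.subtype).range = Fintype.card K₂ * (Fintype.card K₂ ^ 2 - 1) := by
    intro K₂ _
    rw [← card_PGL2_form (K := K₂)]
    exact Nat.card_congr (MonoidHom.ofInjective (pglMap_injective K₂.subtype)).symm.toEquiv
  have hcM : Nat.card M = Fintype.card K₀ * (Fintype.card K₀ ^ 2 - 1) := by
    rw [card_coatom hodd hM hML, h, ← card_psl hK₀odd]
    congr 1
    exact Nat.card_congr (MonoidHom.ofInjective (pslMap_injective φ)).symm.toEquiv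
  have hGM : (pglMap φ).range = M := Subgroup.eq_of_le_of_card_ge hle (by rw [hcM]; exact (hcG (K₂ := K₀)).ge)
  have hK : K₀ ≠ ⊤ := by
    intro h'
    apply comap_ne_top hML
    rw [h]
    exact (range_eq_top_iff K₀).mpr h'
  have hm1 : m ≠ 1 := card_ne_of_ne_top hK hQc
  have hmodd : Odd m := by
    by_contra hne
    rw [Nat.not_odd_iff_even] at hne
    have hsq : ∀ x : K₀, x ≠ 0 → IsSquare (φ x) := fun x hx =>
      Cfsg.Agent.S0805.isSquare_of_even φ hodd (m := m) (by rw [hcK, hm]) hne (by omega) x hx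
    have hle2 := pglMap_range_le φ hsq
    rw [hGM] at hle2
    rcases hle2.eq_or_lt with h1 | h1
    · apply hML
      rw [← h1]
    · have htop := hM.2 _ h1
      have h6 := range_index (F := F) hodd
      rw [show (ProjectiveSpecialLinearGroup.toPGL (n := Fin 2) (R := F)).range = ⊤ from htop, Subgroup.index_top] at h6
      omega
  have hQ1 : 1 < Nat.card K₀ := card_subfield_pos K₀
  have hmp : m.Prime := by
    by_contra hnp
    obtain ⟨a, hadvd, ha2, halt⟩ := Nat.exists_dvd_of_not_prime2 (by omega : 2 ≤ m) hnp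
    obtain ⟨K₁, hle1, hcard⟩ := exists_mid p K₀ hQc (by omega) hadvd
    haveI : Fintype K₁ := Fintype.ofFinite K₁
    have hc0 : Nat.card K₀ = Fintype.card K₀ := Nat.card_eq_fintype_card
    have hc1 : Nat.card K₁ = Fintype.card K₁ := Nat.card_eq_fintype_card
    have hcF : Nat.card F = Fintype.card F := Nat.card_eq_fintype_card
    rw [hc0, hc1] at hcard
    rw [hc0, hcF] at hQc
    rw [hc0] at hQ1
    have h6 : Fintype.card K₀ < Fintype.card K₁ := by
      rw [hcard]
      calc Fintype.card K₀ = Fintype.card K₀ ^ 1 := (pow_one _).symm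
        _ < Fintype.card K₀ ^ a := Nat.pow_lt_pow_right hQ1 (by omega)
    have h7 : Fintype.card K₁ < Fintype.card F := by
      rw [hcard, hQc]
      exact Nat.pow_lt_pow_right hQ1 halt
    have hlt : M < (pglMap K₁.subtype).range := by
      rw [← hGM]
      apply lt_of_le_of_ne (pgl_range_mono hle1)
      intro heq
      have h8 := hcG (K₂ := K₀)
      rw [show (pglMap K₀.subtype).range = (pglMap K₁.subtype).range from heq, hcG] at h8
      have := num_lt (x := Fintype.card K₀) (by omega) h6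
      omega
    have htop := hM.2 _ hlt
    have h8 := hcG (K₂ := K₁)
    rw [htop, Subgroup.card_top, card_PGL2_form] at h8
    have := num_lt (x := Fintype.card K₁) (by omega) h7
    omega
  refine ⟨⟨K, inferInstance, inferInstance, m, hmp, hmodd, hm.symm,
    ⟨(MulEquiv.subgroupCongr hGM.symm).trans ((MonoidHom.ofInjective (pglMap_injective φ)).symm.trans (pglEquiv e))⟩⟩, ?_⟩
  rw [h]
  exact coatom_of_odd_prime φ (Fintype.card K₀) m rfl (by rw [hcK, hm]) hK₀odd hmp (by
    rintro rfl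
    exact absurd hmodd (by decide))

include p in
/-- The doubly transitive case. -/
theorem two_trans_main (hodd : Odd (Fintype.card F)) (h5 : 5 ≤ Fintype.card F) (hM : IsCoatom M)
    (hML : ¬ (jj : PSL2 F →* XX F).range ≤ M) (S : Sylow p (M.comap (jj : PSL2 F →* XX F)))
    (hb : (S : Subgroup (M.comap (jj : PSL2 F →* XX F))) ≠ ⊥)
    (hn : Nat.card (Sylow p (M.comap (jj : PSL2 F →* XX F))) = Nat.card S + 1) :
    (∃ (F₀ : Type) (_ : Field F₀) (_ : Fintype F₀) (r : ℕ), r.Prime ∧ Odd r ∧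
      Fintype.card F = Fintype.card F₀ ^ r ∧ Nonempty (M ≃* XX F₀)) ∧
    IsCoatom (M.comap (jj : PSL2 F →* XX F)) := by
  obtain ⟨t, K₀, h | ⟨h, hsq⟩⟩ := two_trans_pos' p _ S hb hn
  · rw [← comap_conj] at h
    obtain ⟨⟨F₀, i1, i2, r, h1, h2, h3, ⟨e⟩⟩, h4⟩ :=
      pos_range p hodd h5 (coatom_conj t hM) (not_le_conj t hML) K₀ h
    refine ⟨⟨F₀, i1, i2, r, h1, h2, h3, ⟨((MulAut.conj t).subgroupMap M).trans e⟩⟩, ?_⟩
    rw [comap_conj] at h4
    exact ((MulEquiv.mapSubgroup (cjL t)).isCoatom_iff _).mp h4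
  · exfalso
    rw [← comap_conj] at h
    exact pos_RR p hodd (coatom_conj t hM) (not_le_conj t hML) K₀ h hsq

/-- The dichotomy on Sylow subgroups. -/
lemma sylow_dichotomy' (hodd : Odd (Fintype.card F)) (h5 : 5 ≤ Fintype.card F) (hM : IsCoatom M)
    (hML : ¬ (jj : PSL2 F →* XX F).range ≤ M) (S : Sylow p (M.comap (jj : PSL2 F →* XX F)))
    (hb : (S : Subgroup (M.comap (jj : PSL2 F →* XX F))) ≠ ⊥)
    (h : Nat.card (Sylow p (M.comap (jj : PSL2 F →* XX F))) = 1 ∨
      Nat.card (Sylow p (M.comap (jj : PSL2 F →* XX F))) = Nat.card S + 1) :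
    (∃ A : SL2 F, A ∉ center (SL2 F) ∧ tr A * tr A = 4 ∧
      M.comap (jj : PSL2 F →* XX F) = normalizer ((MM (proj A) : Subgroup (PSL2 F)) : Set (PSL2 F))) ∨
    ((∃ (F₀ : Type) (_ : Field F₀) (_ : Fintype F₀) (r : ℕ), r.Prime ∧ Odd r ∧
      Fintype.card F = Fintype.card F₀ ^ r ∧ Nonempty (M ≃* XX F₀)) ∧
    IsCoatom (M.comap (jj : PSL2 F →* XX F))) := by
  rcases h with h | h
  · left
    haveI : Subsingleton (Sylow p (M.comap (jj : PSL2 F →* XX F))) := (Nat.card_eq_one_iff_unique.mp h).1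
    have hn : (S : Subgroup (M.comap (jj : PSL2 F →* XX F))).Normal := Sylow.normal_of_subsingleton S
    obtain ⟨P, hP⟩ := exists_sylow_of_normal p _ S hb hn
    exact borel_case p hodd h5 hM hML P hP
  · right
    exact two_trans_main p hodd h5 hM hML S hb h

/-- **The list of maximal subgroups of `PGL₂(F)`**, `F` of odd order, not containing `PSL₂(F)`. -/
theorem main (hodd : Odd (Fintype.card F)) (h5 : 5 ≤ Fintype.card F) (hM : IsCoatom M)
    (hML : ¬ (jj : PSL2 F →* XX F).range ≤ M) :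
    (∃ A : SL2 F, A ∉ center (SL2 F) ∧ tr A * tr A = 4 ∧
      M.comap (jj : PSL2 F →* XX F) = normalizer ((MM (proj A) : Subgroup (PSL2 F)) : Set (PSL2 F))) ∨
    (∃ A : SL2 F, A ∉ center (SL2 F) ∧ tr A * tr A ≠ 4 ∧ 3 ≤ Nat.card (MM (proj A)) ∧
      M.comap (jj : PSL2 F →* XX F) = normalizer ((MM (proj A) : Subgroup (PSL2 F)) : Set (PSL2 F))) ∨
    (Nonempty (M.comap (jj : PSL2 F →* XX F) ≃* alternatingGroup (Fin 4)) ∧ Fintype.card F = p ∧
      (p % 8 = 3 ∨ p % 8 = 5) ∧ Nonempty (M ≃* Equiv.Perm (Fin 4))) ∨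
    ((∃ (F₀ : Type) (_ : Field F₀) (_ : Fintype F₀) (r : ℕ), r.Prime ∧ Odd r ∧
      Fintype.card F = Fintype.card F₀ ^ r ∧ Nonempty (M ≃* XX F₀)) ∧
    IsCoatom (M.comap (jj : PSL2 F →* XX F))) := by
  have hp2 := p_ne_two p hodd
  have hp' := hp.out
  rcases classify (dstruct p) (M.comap (jj : PSL2 F →* XX F)) with
    (hb | ⟨x, hxM, hx1, hs, hle⟩) | ⟨x, hxM, hx1, hs, ⟨e⟩⟩ | ⟨P, hP⟩ | ⟨⟨e⟩⟩ | ⟨⟨e⟩⟩ | ⟨⟨e⟩⟩ | ⟨S, hb, hn⟩
  · exact absurd hb (comap_ne_bot p hodd hM hML)
  · exact (false_of_le_MM p hodd h5 hM hx1 hxM hle).elim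
  · exact Or.inr (Or.inl (dihedral_case p hodd h5 hM hML hxM hx1 hs e))
  · exact Or.inl (borel_case p hodd h5 hM hML P hP)
  · -- A4
    by_cases hp3 : p = 3
    · subst hp3
      have hc : Nat.card (M.comap (jj : PSL2 F →* XX F)) = 12 := by rw [Nat.card_congr e.toEquiv, card_alt4]
      obtain ⟨S⟩ : Nonempty (Sylow 3 (M.comap (jj : PSL2 F →* XX F))) := inferInstance
      obtain ⟨t, ht, hdvd⟩ := sylow_numeric 3 _ S
      obtain ⟨h1, h2⟩ := sylow_card_small 3 S (a := 1) (i := 4) hc (by norm_num) (by norm_num) (by norm_num)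
      rw [h1] at ht
      rw [h2] at hdvd
      have hb : (S : Subgroup (M.comap (jj : PSL2 F →* XX F))) ≠ ⊥ := by
        intro h
        have : Nat.card (S : Subgroup (M.comap (jj : PSL2 F →* XX F))) = 1 := by rw [h, Subgroup.card_bot]
        have h1' : Nat.card (S : Subgroup (M.comap (jj : PSL2 F →* XX F))) = 3 ^ 1 := h1
        omega
      have hle := Nat.le_of_dvd (by norm_num) hdvd
      rcases sylow_dichotomy' 3 hodd h5 hM hML S hb (by
        rw [h1]
        generalize Nat.card (Sylow 3 (M.comap (jj : PSL2 F →* XX F))) = N at *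
        interval_cases N <;> omega) with h | h
      · exact Or.inl h
      · exact Or.inr (Or.inr (Or.inr h))
    · obtain ⟨h1, h2, h3⟩ := alt4_case p hodd h5 hM hML e hp2 hp3
      exact Or.inr (Or.inr (Or.inl ⟨⟨e⟩, h1, h2, h3⟩))
  · -- S4
    by_cases hp3 : p = 3
    · subst hp3
      have hc : Nat.card (M.comap (jj : PSL2 F →* XX F)) = 24 := by rw [Nat.card_congr e.toEquiv, card_perm4]
      obtain ⟨S⟩ : Nonempty (Sylow 3 (M.comap (jj : PSL2 F →* XX F))) := inferInstance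
      obtain ⟨t, ht, hdvd⟩ := sylow_numeric 3 _ S
      obtain ⟨h1, h2⟩ := sylow_card_small 3 S (a := 1) (i := 8) hc (by norm_num) (by norm_num) (by norm_num)
      rw [h1] at ht
      rw [h2] at hdvd
      have hb : (S : Subgroup (M.comap (jj : PSL2 F →* XX F))) ≠ ⊥ := by
        intro h
        have : Nat.card (S : Subgroup (M.comap (jj : PSL2 F →* XX F))) = 1 := by rw [h, Subgroup.card_bot]
        have h1' : Nat.card (S : Subgroup (M.comap (jj : PSL2 F →* XX F))) = 3 ^ 1 := h1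
        omega
      have hle := Nat.le_of_dvd (by norm_num) hdvd
      rcases sylow_dichotomy' 3 hodd h5 hM hML S hb (by
        rw [h1]
        generalize Nat.card (Sylow 3 (M.comap (jj : PSL2 F →* XX F))) = N at *
        interval_cases N <;> omega) with h | h
      · exact Or.inl h
      · exact Or.inr (Or.inr (Or.inr h))
    · exact (perm4_false p hodd hM hML e).elim
  · -- A5
    by_cases hp5 : p = 5
    · subst hp5
      have hc : Nat.card (M.comap (jj : PSL2 F →* XX F)) = 60 := by rw [Nat.card_congr e.toEquiv, card_alt5]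
      obtain ⟨S⟩ : Nonempty (Sylow 5 (M.comap (jj : PSL2 F →* XX F))) := inferInstance
      obtain ⟨t, ht, hdvd⟩ := sylow_numeric 5 _ S
      obtain ⟨h1, h2⟩ := sylow_card_small 5 S (a := 1) (i := 12) hc (by norm_num) (by norm_num) (by norm_num)
      rw [h1] at ht
      rw [h2] at hdvd
      have hb : (S : Subgroup (M.comap (jj : PSL2 F →* XX F))) ≠ ⊥ := by
        intro h
        have : Nat.card (S : Subgroup (M.comap (jj : PSL2 F →* XX F))) = 1 := by rw [h, Subgroup.card_bot]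
        have h1' : Nat.card (S : Subgroup (M.comap (jj : PSL2 F →* XX F))) = 5 ^ 1 := h1
        omega
      have hle := Nat.le_of_dvd (by norm_num) hdvd
      rcases sylow_dichotomy' 5 hodd h5 hM hML S hb (by
        rw [h1]
        generalize Nat.card (Sylow 5 (M.comap (jj : PSL2 F →* XX F))) = N at *
        interval_cases N <;> omega) with h | h
      · exact Or.inl h
      · exact Or.inr (Or.inr (Or.inr h))
    · exact (alt5_false p hodd hM hML e hp5).elim
  · exact Or.inr (Or.inr (Or.inr (two_trans_main p hodd h5 hM hML S hb hn)))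

end Cfsg.Agent.Lib.PGLMaxF
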