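import Mathlib
import Cfsg.Agent.Lib.PGLMaxF

set_option autoImplicit false
set_option linter.style.haveILetI false
set_option linter.unusedVariables false
set_option linter.unusedSectionVars false

namespace Cfsg.Agent.Lib.PGLMaxG

open Matrix Subgroup
open Cfsg.Agent.Lib.SL2Core Cfsg.Agent.Lib.DicksonAbs Cfsg.Agent.Lib.DicksonMat
open Cfsg.Agent.Lib.DicksonStruct Cfsg.Agent.Lib.DicksonTT Cfsg.Agent.Lib.PSL2Sub
open Cfsg.Agent.Lib.DicksonRed Cfsg.Agent.Lib.PSL2Max Cfsg.Agent.Lib.PSL2Cnt Cfsg.Agent.Lib.PSL2Coat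
open Cfsg.Agent.Lib.PSL2Lat Cfsg.Agent.Lib.PSL2LatOdd Cfsg.Agent.Lib.PGLMaxA Cfsg.Agent.Lib.PGLMaxB
open Cfsg.Agent.Lib.PGLMaxC Cfsg.Agent.Lib.PGLMaxD Cfsg.Agent.Lib.PGLMaxE Cfsg.Agent.Lib.PGLMaxF

variable {F : Type*} [Field F] [Fintype F] (p : ℕ) [hp : Fact p.Prime] [CharP F p]
variable {M : Subgroup (XX F)}

lemma sq_mem_range (hodd : Odd (Fintype.card F)) (u : XX F) : u ^ 2 ∈ (jj : PSL2 F →* XX F).range := by
  have h := range_index (F := F) hodd
  exact Subgroup.sq_mem_of_index_two h u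

include p in
/-- The torus case: the maximal subgroup is dihedral. -/
theorem dihedral_M (hodd : Odd (Fintype.card F)) (h5 : 5 ≤ Fintype.card F) (hM : IsCoatom M)
    (hML : ¬ (jj : PSL2 F →* XX F).range ≤ M) {A : SL2 F} (hA : A ∉ center (SL2 F)) (ht : tr A * tr A ≠ 4)
    (h3 : 3 ≤ Nat.card (MM (proj A)))
    (h : M.comap (jj : PSL2 F →* XX F) = normalizer ((MM (proj A) : Subgroup (PSL2 F)) : Set (PSL2 F))) :
    Nonempty (M ≃* DihedralGroup (Nat.card (M.comap (jj : PSL2 F →* XX F)))) := by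
  classical
  have hp2 := p_ne_two p hodd
  have hpodd : Odd p := hp.out.odd_of_ne_two hp2
  have hss := isSS_of p hA ht
  have hc1 := card_coatom hodd hM hML
  have hc2 := card_normalizer_ss p hA ht
  rw [← h] at hc2
  haveI := hss.cyclic
  obtain ⟨g, hg⟩ := IsCyclic.exists_ofOrder_eq_natCard (α := MM (proj A))
  have hgM : (g : PSL2 F) ∈ M.comap (jj : PSL2 F →* XX F) := by
    rw [h]
    exact Subgroup.le_normalizer g.2
  have hordg : orderOf (g : PSL2 F) = Nat.card (MM (proj A)) := by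
    rw [Subgroup.orderOf_coe, hg]
  obtain ⟨w, hwN, hw⟩ := Set.not_subset.mp (not_normalizer_le hA ht)
  have hwM : w ∈ M.comap (jj : PSL2 F →* XX F) := by rw [h]; exact hwN
  obtain ⟨hw1, hw2⟩ := hss.outer w hwN hw
  have hgw : w * (g : PSL2 F) * w⁻¹ = (g : PSL2 F)⁻¹ := hw2 g g.2
  have hgg : (g : PSL2 F) * (g : PSL2 F) ≠ 1 := by
    intro h1
    have h2 : orderOf (g : PSL2 F) ∣ 2 := orderOf_dvd_of_pow_eq_one (by rw [pow_two, h1])
    rw [hordg] at h2
    have := Nat.le_of_dvd (by norm_num) h2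
    omega
  have hcomm : w * (g : PSL2 F) * w⁻¹ * (g : PSL2 F)⁻¹ = ((g : PSL2 F) * (g : PSL2 F))⁻¹ := by
    rw [hgw]
    group
  have hne : jj w * jj (g : PSL2 F) ≠ jj (g : PSL2 F) * jj w := by
    intro h1
    apply hgg
    have h2 : w * (g : PSL2 F) = (g : PSL2 F) * w := by
      apply jj_inj
      rw [map_mul, map_mul]
      exact h1
    have h4 : w * (g : PSL2 F) * w⁻¹ = g := by
      rw [h2]
      group
    rw [h4] at hgw
    calc (g : PSL2 F) * (g : PSL2 F) = (g : PSL2 F) ⁻¹ * (g : PSL2 F) := by rw [← hgw]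
      _ = 1 := by group
  have hcop : Nat.Coprime (Nat.card (MM (proj A))) p := hss.coprime
  rcases dickson_X p hodd M with h1 | ⟨k, ⟨e⟩⟩ | ⟨h2, -⟩ | ⟨⟨e⟩⟩ | ⟨⟨e⟩⟩ | ⟨⟨e⟩⟩ | ⟨n, hn, h6⟩
  · exfalso
    apply hne
    have h2 := (IsCyclic.isMulCommutative (α := M)).is_comm.comm ⟨_, hwM⟩ ⟨_, hgM⟩
    exact congrArg Subtype.val h2
  · have h2 : Nat.card M = 2 * k := by
      rw [Nat.card_congr e.toEquiv, DihedralGroup.nat_card]
    have h4 : k = Nat.card (M.comap (jj : PSL2 F →* XX F)) := by omega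
    rw [← h4]
    exact ⟨e⟩
  · exfalso
    obtain ⟨n, hn⟩ := h2 ⟨_, hwM⟩ ⟨_, hgM⟩
    have h4 : (jj w * jj (g : PSL2 F) * (jj w)⁻¹ * (jj (g : PSL2 F))⁻¹) ^ (p ^ n) = 1 := congrArg Subtype.val hn
    have h6 : (((g : PSL2 F) * (g : PSL2 F))⁻¹) ^ (p ^ n) = 1 := by
      apply jj_inj
      rw [← hcomm, map_pow, map_one]
      simpa [map_mul, map_inv] using h4
    have h7 : (((g : PSL2 F) * (g : PSL2 F))⁻¹) ^ (Nat.card (MM (proj A))) = 1 := by
      have h8 : (g : PSL2 F) ^ (Nat.card (MM (proj A))) = 1 := by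
        rw [← hordg]
        exact pow_orderOf_eq_one _
      rw [inv_pow, (Commute.refl _).mul_pow, h8, one_mul, inv_one]
    have hcp : Nat.Coprime (p ^ n) (Nat.card (MM (proj A))) := Nat.Coprime.pow_left n hcop.symm
    have h8 := pow_gcd_eq_one.mpr ⟨h6, h7⟩
    rw [hcp, pow_one] at h8
    exact hgg (inv_eq_one.mp h8)
  all_goals exfalso
  -- elements of order three lie in the cyclic group
  all_goals
    have hodd3 : ∀ u : M, u ^ 3 = 1 → ∃ y ∈ MM (proj A), jj y = (u : XX F) := by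
      intro u hu
      have hu' : (u : XX F) ^ 3 = 1 := congrArg Subtype.val hu
      have e1 : (u : XX F) = ((u : XX F)⁻¹) ^ 2 := by
        have : ((u : XX F)⁻¹) ^ 2 = (u : XX F)⁻¹ ^ 2 * ((u : XX F) ^ 3) := by rw [hu', mul_one]
        rw [this]
        group
      obtain ⟨y, hy⟩ := sq_mem_range hodd ((u : XX F)⁻¹)
      rw [← e1] at hy
      refine ⟨y, ?_, hy⟩
      have hyM : y ∈ M.comap (jj : PSL2 F →* XX F) := by
        rw [Subgroup.mem_comap, hy]
        exact u.2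
      have hy3 : y ^ 3 = 1 := by
        apply jj_inj
        rw [map_pow, hy, hu', map_one]
      have hyN : y⁻¹ ∈ normalizer ((MM (proj A) : Subgroup (PSL2 F)) : Set (PSL2 F)) := by
        rw [← h]
        exact Subgroup.inv_mem _ hyM
      have e2 : y = y⁻¹ * y⁻¹ := by
        have : y⁻¹ * y⁻¹ = y⁻¹ * y⁻¹ * y ^ 3 := by rw [hy3, mul_one]
        rw [this]
        group
      by_cases hy1 : y⁻¹ ∈ MM (proj A)
      · rw [e2]
        exact Subgroup.mul_mem _ hy1 hy1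
      · obtain ⟨h7, -⟩ := hss.outer _ hyN hy1
        rw [e2, h7]
        exact Subgroup.one_mem _
    have hcommMM : ∀ y z : PSL2 F, y ∈ MM (proj A) → z ∈ MM (proj A) → y * z = z * y := by
      intro y z hy hz
      have h7 := (IsCyclic.isMulCommutative (α := MM (proj A))).is_comm.comm ⟨y, hy⟩ ⟨z, hz⟩
      exact congrArg Subtype.val h7
    have hG : ∀ {G : Type} [Group G] (e : M ≃* G) (a b : G), a ^ 3 = 1 → b ^ 3 = 1 → a * b = b * a := by
      intro G _ e a b ha hb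
      obtain ⟨y, hy, hy'⟩ := hodd3 (e.symm a) (by rw [← map_pow, ha, map_one])
      obtain ⟨z, hz, hz'⟩ := hodd3 (e.symm b) (by rw [← map_pow, hb, map_one])
      apply e.symm.injective
      apply Subtype.ext
      rw [map_mul, map_mul, Subgroup.coe_mul, Subgroup.coe_mul, ← hy', ← hz', ← map_mul, ← map_mul, hcommMM y z hy hz]
  · obtain ⟨a, b, -, -, h7, h8, h9, -, -⟩ := data_alt4
    exact h9 (hG e a b h7 h8)
  · obtain ⟨a, b, -, -, h7, h8, h9, -, -⟩ := data_perm4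
    exact h9 (hG e a b h7 h8)
  · obtain ⟨a, b, -, -, h7, h8, h9, -, -⟩ := data_alt5
    exact h9 (hG e a b h7 h8)
  · have hpd : p ∣ 8 * Nat.card (MM (proj A)) := by
      have h7 : p ∣ p ^ n * ((p ^ n) ^ 2 - 1) := Dvd.dvd.mul_right (dvd_pow_self p (by omega)) _
      have e8 : 8 * Nat.card (MM (proj A)) = 2 * (2 * (2 * Nat.card (MM (proj A)))) := by ring
      rw [e8]
      rcases h6 with h6 | h6
      · rw [← h6, hc1, hc2] at h7
        exact h7
      · rw [← h6, hc1, hc2] at h7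
        exact h7.mul_left 2
    rcases (Nat.Prime.dvd_mul hp.out).mp hpd with h7 | h7
    · have h8 : p ∣ 2 ^ 3 := by simpa using h7
      exact hp2 ((Nat.prime_dvd_prime_iff_eq hp.out Nat.prime_two).mp (hp.out.dvd_of_dvd_pow h8))
    · have := Nat.Coprime.eq_one_of_dvd hcop.symm h7
      exact hp.out.one_lt.ne' this

end Cfsg.Agent.Lib.PGLMaxG
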