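import Mathlib
import Cfsg.Agent.Lib.PGLMaxG
import Cfsg.Agent.Lib.PSL2TorMax
import Cfsg.Agent.S5892

set_option autoImplicit false
set_option linter.style.haveILetI false
set_option linter.unusedVariables false
set_option linter.unusedSectionVars false

namespace Cfsg.Agent.Lib.PGLMaxH

open Matrix Subgroup
open Cfsg.Agent.Lib.SL2Core Cfsg.Agent.Lib.DicksonAbs Cfsg.Agent.Lib.DicksonMat
open Cfsg.Agent.Lib.DicksonStruct Cfsg.Agent.Lib.DicksonTT Cfsg.Agent.Lib.PSL2Sub
open Cfsg.Agent.Lib.DicksonRed Cfsg.Agent.Lib.PSL2Max Cfsg.Agent.Lib.PSL2Cnt Cfsg.Agent.Lib.PSL2Coat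
open Cfsg.Agent.Lib.PSL2Lat Cfsg.Agent.Lib.PSL2LatOdd Cfsg.Agent.Lib.PGLMaxA Cfsg.Agent.Lib.PGLMaxB
open Cfsg.Agent.Lib.PGLMaxC Cfsg.Agent.Lib.PGLMaxD Cfsg.Agent.Lib.PGLMaxE Cfsg.Agent.Lib.PGLMaxF

variable {F : Type*} [Field F] [Fintype F] (p : ℕ) [hp : Fact p.Prime] [CharP F p]
variable {M : Subgroup (XX F)}

include p in
/-- Numerics for a subgroup of Borel order inside a maximal subgroup. -/
lemma borel_numeric (hodd : Odd (Fintype.card F)) (h5 : 5 ≤ Fintype.card F) {N K : Subgroup (PSL2 F)}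
    (hN : 2 * Nat.card N = Fintype.card F * (Fintype.card F - 1)) (hle : N ≤ K) (hK : IsCoatom K) : N = K := by
  classical
  have hdvd : Nat.card N ∣ Nat.card K := Subgroup.card_dvd_of_le hle
  have hK0 : 0 < Nat.card K := Nat.card_pos
  have hleK : Nat.card N ≤ Nat.card K := Nat.le_of_dvd hK0 hdvd
  set q := Fintype.card F with hq
  obtain ⟨s, hs⟩ := hodd
  have hq1 : q - 1 = 2 * s := by omega
  have hNs : Nat.card N = q * s := by
    rw [hq1] at hN
    have : 2 * Nat.card N = 2 * (q * s) := by rw [hN]; ring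
    omega
  have hs2 : 2 ≤ s := by omega
  have hqs : 2 * q ≤ q * s := by nlinarith
  rcases Cfsg.Agent.S5892.result p ⟨s, hs⟩ h5 K hK with h | ⟨-, k, hk, ⟨e⟩⟩ | ⟨-, -, k, hk, ⟨e⟩⟩ | ⟨F₀, _, _, hcard, ⟨e⟩⟩ |
      ⟨F₀, _, _, r, hr, hro, hcard, ⟨e⟩⟩ | ⟨hmod, hc, ⟨e⟩⟩ | ⟨hc, h1, h2, ⟨e⟩⟩ | ⟨hc, h1, ⟨e⟩⟩
  · rw [← hq] at h
    exact Subgroup.eq_of_le_of_card_ge hle (le_of_eq (Nat.eq_of_mul_eq_mul_left two_pos (h.trans hN.symm)))
  · exfalso
    rw [Nat.card_congr e.toEquiv, DihedralGroup.nat_card] at hleK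
    omega
  · exfalso
    rw [Nat.card_congr e.toEquiv, DihedralGroup.nat_card] at hleK
    omega
  · exfalso
    rw [Nat.card_congr e.toEquiv, card_PGL2_form] at hleK
    rw [← hq] at hcard
    set x := Fintype.card F₀
    have hx1 : 1 < x := Fintype.one_lt_card
    have hxo : Odd x := by
      have : Odd (x ^ 2) := by rw [← hcard]; exact ⟨s, hs⟩
      exact (Nat.odd_pow_iff (by norm_num)).mp this
    have hx3 : 3 ≤ x := by
      obtain ⟨y, hy⟩ := hxo
      omega
    have hx2 : x ^ 2 - 1 = 2 * s := by rw [← hcard]; exact hq1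
    rw [hNs, hcard, hx2] at hleK
    have hs0 : 0 < x * (2 * s) := by positivity
    nlinarith
  · exfalso
    have h6 := card_PSL2_form (K := F₀)
    rw [← hq] at hcard
    set x := Fintype.card F₀
    have hx1 : 1 < x := Fintype.one_lt_card
    have hr3 : 3 ≤ r := by
      obtain ⟨y, hy⟩ := hro
      have := hr.two_le
      omega
    have hq3 : x ^ 3 ≤ q := by
      rw [hcard]
      exact Nat.pow_le_pow_right (by omega) hr3
    have hd : Nat.gcd 2 (x - 1) ≤ 2 := Nat.le_of_dvd (by norm_num) (Nat.gcd_dvd_left _ _)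
    have hd0 : 0 < Nat.gcd 2 (x - 1) := Nat.gcd_pos_of_pos_left _ (by norm_num)
    rw [Nat.card_congr e.toEquiv] at hleK
    have hleK' : q * s ≤ Nat.card (PSL2 F₀) := hNs ▸ hleK
    clear hleK
    have h7 : Nat.card (PSL2 F₀) ≤ x * (x ^ 2 - 1) := by
      rw [← h6]
      exact Nat.le_mul_of_pos_left _ hd0
    have h8 : x * (x ^ 2 - 1) < x ^ 3 := by
      have : x ^ 2 - 1 < x ^ 2 := by
        have : 0 < x ^ 2 := by positivity
        omega
      calc x * (x ^ 2 - 1) < x * x ^ 2 := Nat.mul_lt_mul_of_pos_left this (by omega)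
        _ = x ^ 3 := by ring
    omega
  · exfalso
    rw [Nat.card_congr e.toEquiv, card_alt5] at hdvd hleK
    have hq12 : q ≤ 11 := by
      by_contra h
      have : 12 * 6 ≤ q * s := Nat.mul_le_mul (by omega) (by omega)
      omega
    have : q = 9 ∨ q = 11 := by omega
    rcases this with h | h
    · have : s = 4 := by omega
      rw [hNs, h, this] at hdvd
      omega
    · have : s = 5 := by omega
      rw [hNs, h, this] at hdvd
      omega
  · exfalso
    rw [Nat.card_congr e.toEquiv, card_alt4] at hdvd hleK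
    have hq5 : q = 5 := by omega
    have hs3 : s = 2 := by omega
    rw [hNs, hq5, hs3] at hdvd
    omega
  · exfalso
    rw [Nat.card_congr e.toEquiv, card_perm4] at hdvd hleK
    have hq8 : q ≤ 7 := by
      by_contra h
      have : 8 * 4 ≤ q * s := Nat.mul_le_mul (by omega) (by omega)
      omega
    have : q = 7 := by omega
    have hs3 : s = 3 := by omega
    rw [hNs, this, hs3] at hdvd
    omega

include p in
/-- The Borel subgroup is maximal. -/
theorem borel_coatom (hodd : Odd (Fintype.card F)) (h5 : 5 ≤ Fintype.card F) {N : Subgroup (PSL2 F)} (hne : N ≠ ⊤)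
    (hN : 2 * Nat.card N = Fintype.card F * (Fintype.card F - 1)) : IsCoatom N := by
  rcases eq_top_or_exists_le_coatom N with h | ⟨K, hK, hle⟩
  · exact absurd h hne
  · rw [borel_numeric p hodd h5 hN hle hK]
    exact hK

include p in
/-- The alternating group is maximal. -/
theorem alt4_coatom (hodd : Odd (Fintype.card F)) (h5 : 5 ≤ Fintype.card F) {N : Subgroup (PSL2 F)} (hne : N ≠ ⊤)
    (e : N ≃* alternatingGroup (Fin 4)) (hq : Fintype.card F = p) (hmod : p % 8 = 3 ∨ p % 8 = 5)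
    (h10 : p % 10 ≠ 1 ∧ p % 10 ≠ 9) : IsCoatom N := by
  classical
  have hp2 := p_ne_two p hodd
  rcases eq_top_or_exists_le_coatom N with h | ⟨K, hK, hle⟩
  · exact absurd h hne
  · suffices h : N = K by
      rw [h]
      exact hK
    have hcN : Nat.card N = 12 := by rw [Nat.card_congr e.toEquiv, card_alt4]
    have hdvd : Nat.card N ∣ Nat.card K := Subgroup.card_dvd_of_le hle
    obtain ⟨a, b, -, -, h1, h2, h3, -, -⟩ := data_alt4
    let f : alternatingGroup (Fin 4) →* PSL2 F := N.subtype.comp (e.symm : alternatingGroup (Fin 4) →* N)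
    have hf : Function.Injective f := N.subtype_injective.comp e.symm.injective
    have hfN : ∀ x, f x ∈ K := fun x => hle (e.symm x).2
    have hab : f a * f b ≠ f b * f a := by
      rw [← map_mul, ← map_mul]
      exact fun h => h3 (hf h)
    have hdih : ∀ k : ℕ, IsEmpty (K ≃* DihedralGroup k) := fun k =>
      no_dihedral_of_odd (m := 3) (n := 3) (hfN a) (hfN b) hab (by decide) (by decide) (by rw [← map_pow, h1, map_one])
        (by rw [← map_pow, h2, map_one]) k
    rcases Cfsg.Agent.S5892.result p hodd h5 K hK with h | ⟨-, k, hk, ⟨e'⟩⟩ | ⟨-, -, k, hk, ⟨e'⟩⟩ | ⟨F₀, _, _, hcard, ⟨e'⟩⟩ |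
      ⟨F₀, _, _, r, hr, hro, hcard, ⟨e'⟩⟩ | ⟨hmod', hc, ⟨e'⟩⟩ | ⟨hc, h1', h2', ⟨e'⟩⟩ | ⟨hc, h1', ⟨e'⟩⟩
    · exfalso
      rw [hq] at h
      rw [hcN] at hdvd
      have h4 : 24 ∣ p * (p - 1) := by
        rw [← h]
        obtain ⟨c, hc⟩ := hdvd
        exact ⟨c, by rw [hc]; ring⟩
      have hcop : Nat.Coprime 24 p := by
        have h6 : Nat.Coprime 2 p := (Nat.coprime_primes Nat.prime_two hp.out).mpr (Ne.symm hp2)
        have h7 : Nat.Coprime 3 p := by
          rw [Nat.coprime_primes Nat.prime_three hp.out]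
          rintro rfl
          omega
        have : (24 : ℕ) = 2 ^ 3 * 3 := by norm_num
        rw [this]
        exact Nat.Coprime.mul_left (Nat.Coprime.pow_left 3 h6) h7
      have h8 : 24 ∣ p - 1 := hcop.dvd_of_dvd_mul_left h4
      omega
    · exact ((hdih k).false e').elim
    · exact ((hdih k).false e').elim
    · exfalso
      rw [hq] at hcard
      exact Nat.Prime.not_prime_pow (le_refl 2) (hcard ▸ hp.out)
    · exfalso
      rw [hq] at hcard
      exact Nat.Prime.not_prime_pow hr.two_le (hcard ▸ hp.out)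
    · exfalso
      rw [hq] at hmod'
      omega
    · apply Subgroup.eq_of_le_of_card_ge hle
      rw [hcN, Nat.card_congr e'.toEquiv, card_alt4]
    · exfalso
      omega

end Cfsg.Agent.Lib.PGLMaxH
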