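import Mathlib

/-!
# The two-local data of the alternating group of degree six

Explicit Sylow `2`-subgroup `D₈`, its two Klein four-subgroups, and the normalizer checks needed for
the `p`-minimal groups over `A₆`.
-/

set_option autoImplicit false
set_option linter.unusedVariables false
set_option linter.unusedSectionVars false
set_option maxRecDepth 100000

namespace Cfsg.Agent.Lib.PMinA6

open Equiv

abbrev P6 := Perm (Fin 6)
abbrev K6 := ↥(alternatingGroup (Fin 6))

def pr : P6 := swap 0 1 * swap 1 2 * swap 2 3 * swap 4 5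
def pz : P6 := swap 0 2 * swap 1 3
def pq : P6 := pr⁻¹
def pa : P6 := swap 0 2 * swap 4 5
def paz : P6 := swap 1 3 * swap 4 5
def pb : P6 := swap 0 1 * swap 2 3
def pbz : P6 := swap 0 3 * swap 1 2

def LU : Finset P6 := {1, pr, pz, pq, pa, paz, pb, pbz}
def L1 : Finset P6 := {1, pz, pa, paz}
def L2 : Finset P6 := {1, pz, pb, pbz}

theorem LU_mul : ∀ p ∈ LU, ∀ q ∈ LU, p * q ∈ LU := by decide +kernel
theorem L1_mul : ∀ p ∈ L1, ∀ q ∈ L1, p * q ∈ L1 := by decide +kernel
theorem L2_mul : ∀ p ∈ L2, ∀ q ∈ L2, p * q ∈ L2 := by decide +kernel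
theorem LU_inv : ∀ p ∈ LU, p⁻¹ ∈ LU := by decide +kernel
theorem L1_inv : ∀ p ∈ L1, p⁻¹ ∈ L1 := by decide +kernel
theorem L2_inv : ∀ p ∈ L2, p⁻¹ ∈ L2 := by decide +kernel
theorem LU_sign : ∀ p ∈ LU, Perm.sign p = 1 := by decide +kernel
theorem LU_card : LU.card = 8 := by decide +kernel
theorem L1_le : ∀ p ∈ L1, p ∈ LU := by decide +kernel
theorem L2_le : ∀ p ∈ L2, p ∈ LU := by decide +kernel

/-- The subgroup of `A₆` with underlying finite set `L`. -/
def sg (L : Finset P6) (h1 : (1 : P6) ∈ L) (hm : ∀ p ∈ L, ∀ q ∈ L, p * q ∈ L)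
    (hi : ∀ p ∈ L, p⁻¹ ∈ L) : Subgroup K6 where
  carrier := {x | (x : P6) ∈ L}
  mul_mem' := fun {a b} ha hb => hm _ ha _ hb
  one_mem' := h1
  inv_mem' := fun {a} ha => hi _ ha

def U : Subgroup K6 := sg LU (by decide +kernel) LU_mul LU_inv
def V1 : Subgroup K6 := sg L1 (by decide +kernel) L1_mul L1_inv
def V2 : Subgroup K6 := sg L2 (by decide +kernel) L2_mul L2_inv

theorem mem_U {x : K6} : x ∈ U ↔ (x : P6) ∈ LU := Iff.rfl
theorem mem_V1 {x : K6} : x ∈ V1 ↔ (x : P6) ∈ L1 := Iff.rfl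
theorem mem_V2 {x : K6} : x ∈ V2 ↔ (x : P6) ∈ L2 := Iff.rfl

theorem card_U : Nat.card U = 8 := by
  have e : U ≃ {p : P6 // p ∈ LU} :=
    { toFun := fun x => ⟨((x : K6) : P6), x.2⟩
      invFun := fun p => ⟨⟨p.1, Perm.mem_alternatingGroup.2 (LU_sign p.1 p.2)⟩, p.2⟩
      left_inv := fun x => by rfl
      right_inv := fun p => by rfl }
  rw [Nat.card_congr e, Nat.card_eq_fintype_card, Fintype.card_coe, LU_card]

theorem card_K : Nat.card K6 = 360 := by
  rw [Nat.card_eq_fintype_card, card_alternatingGroup]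
  simp [Nat.factorial]

/-- `U` as a Sylow subgroup. -/
noncomputable def sylU : Sylow 2 K6 :=
  haveI : Fact (Nat.Prime 2) := ⟨Nat.prime_two⟩
  Sylow.ofCard U (by
    rw [card_U, card_K]
    have h : (360 : ℕ).factorization 2 = 3 := by
      have h1 : (360 : ℕ) = 2 ^ 3 * 45 := by norm_num
      have hc : Nat.Coprime (2 ^ 3) 45 := by norm_num
      rw [h1, Nat.factorization_mul (by norm_num) (by norm_num)]
      have h2 : (45 : ℕ).factorization 2 = 0 := Nat.factorization_eq_zero_of_not_dvd (by norm_num)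
      have h3 : ((2 : ℕ) ^ 3).factorization 2 = 3 := by
        rw [Nat.Prime.factorization_pow Nat.prime_two]; simp
      simp only [Finsupp.add_apply, h2, h3]
    rw [h]; norm_num)

theorem coe_sylU : ((sylU : Sylow 2 K6) : Subgroup K6) = U := by
  simp [sylU]


/-! ### Elements -/

def LA : Finset P6 := {pa, paz}
def LB : Finset P6 := {pb, pbz}
def LC : Finset P6 := {pr, pq}

theorem split_LU : ∀ p ∈ LU, p = 1 ∨ p = pz ∨ p ∈ LA ∨ p ∈ LB ∨ p ∈ LC := by decide +kernel
theorem L1_sq : ∀ p ∈ L1, p * p = 1 := by decide +kernel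
theorem L2_sq : ∀ p ∈ L2, p * p = 1 := by decide +kernel
theorem L1_card : L1.card = 4 := by decide +kernel
theorem L2_card : L2.card = 4 := by decide +kernel
theorem LU_sq0 : ∀ x ∈ LU, ∀ y ∈ LU, ¬ (x * x = 1 ∧ y * y = 1 ∧ x ∉ L2 ∧ y ∉ L1 ∧ (x * y) * (x * y) = 1) := by
  decide +kernel
theorem LU_sq : ∀ x ∈ LU, ∀ y ∈ LU, x * x = 1 → y * y = 1 → x ∉ L2 → y ∉ L1 → (x * y) * (x * y) ≠ 1 :=
  fun x hx y hy h1 h2 h3 h4 h5 => LU_sq0 x hx y hy ⟨h1, h2, h3, h4, h5⟩
theorem pz_even : Perm.sign pz = 1 := by decide +kernel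
theorem pa_even : Perm.sign pa = 1 := by decide +kernel
theorem pr_even : Perm.sign pr = 1 := by decide +kernel

def kz : K6 := ⟨pz, Perm.mem_alternatingGroup.2 pz_even⟩
def ka : K6 := ⟨pa, Perm.mem_alternatingGroup.2 pa_even⟩
def kr : K6 := ⟨pr, Perm.mem_alternatingGroup.2 pr_even⟩

theorem kr_mem : kr ∈ U := by
  show pr ∈ LU
  decide +kernel

theorem card_sub {L : Finset P6} (hs : ∀ p ∈ L, Perm.sign p = 1) {W : Subgroup K6}
    (hW : ∀ x : K6, x ∈ W ↔ (x : P6) ∈ L) : Nat.card W = L.card := by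
  have e : W ≃ {p : P6 // p ∈ L} :=
    { toFun := fun x => ⟨((x : K6) : P6), (hW _).1 x.2⟩
      invFun := fun p => ⟨⟨p.1, Perm.mem_alternatingGroup.2 (hs p.1 p.2)⟩, (hW _).2 p.2⟩
      left_inv := fun x => by rfl
      right_inv := fun p => by rfl }
  rw [Nat.card_congr e, Nat.card_eq_fintype_card, Fintype.card_coe]

theorem card_V1 : Nat.card V1 = 4 := by
  rw [card_sub (L := L1) (fun p hp => LU_sign p (L1_le p hp)) (fun x => Iff.rfl), L1_card]

theorem card_V2 : Nat.card V2 = 4 := by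
  rw [card_sub (L := L2) (fun p hp => LU_sign p (L2_le p hp)) (fun x => Iff.rfl), L2_card]

theorem V1_le : V1 ≤ U := fun x hx => L1_le _ hx
theorem V2_le : V2 ≤ U := fun x hx => L2_le _ hx

theorem V1_ne_V2 : V1 ≠ V2 := by
  intro h
  have h1 : ka ∈ V1 := by
    show pa ∈ L1
    decide +kernel
  rw [h] at h1
  have h2 : pa ∈ L2 := h1
  revert h2
  decide +kernel

theorem V1_ne_bot : V1 ≠ ⊥ := by
  intro h
  have h1 : ka ∈ V1 := by
    show pa ∈ L1
    decide +kernel
  rw [h, Subgroup.mem_bot] at h1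
  have h2 : pa = 1 := congrArg Subtype.val h1
  revert h2
  decide +kernel

theorem V2_ne_bot : V2 ≠ ⊥ := by
  intro h
  have h1 : kz ∈ V2 := by
    show pz ∈ L2
    decide +kernel
  rw [h, Subgroup.mem_bot] at h1
  have h2 : pz = 1 := congrArg Subtype.val h1
  revert h2
  decide +kernel

/-- A four-subgroup of exponent two in `U` is one of `V1`, `V2`. -/
theorem eq_of_four {W : Subgroup K6} (hW : W ≤ U) (hc : Nat.card W = 4)
    (hs : ∀ w ∈ W, w * w = 1) : W = V1 ∨ W = V2 := by
  by_cases h1 : W ≤ V1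
  · left
    exact Subgroup.eq_of_le_of_card_ge h1 (by rw [card_V1, hc])
  by_cases h2 : W ≤ V2
  · right
    exact Subgroup.eq_of_le_of_card_ge h2 (by rw [card_V2, hc])
  exfalso
  obtain ⟨y, hy, hy1⟩ := SetLike.not_le_iff_exists.1 h1
  obtain ⟨x, hx, hx2⟩ := SetLike.not_le_iff_exists.1 h2
  have hsq : ∀ w ∈ W, (w : P6) * (w : P6) = 1 := fun w hw => congrArg Subtype.val (hs w hw)
  have := LU_sq (x : P6) (hW hx) (y : P6) (hW hy) (hsq x hx) (hsq y hy) hx2 hy1
  exact this (hsq (x * y) (W.mul_mem hx hy))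

theorem aut_perm (σ : K6 ≃* K6) (hσ : U.map σ.toMonoidHom = U) :
    (V1.map σ.toMonoidHom = V1 ∧ V2.map σ.toMonoidHom = V2) ∨
      (V1.map σ.toMonoidHom = V2 ∧ V2.map σ.toMonoidHom = V1) := by
  have hinj : Function.Injective σ.toMonoidHom := σ.injective
  have key : ∀ W : Subgroup K6, W ≤ U → Nat.card W = 4 → (∀ w ∈ W, w * w = 1) →
      W.map σ.toMonoidHom = V1 ∨ W.map σ.toMonoidHom = V2 := by
    intro W hW hc hs
    apply eq_of_four
    · rw [← hσ]
      exact Subgroup.map_mono hW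
    · rw [Subgroup.card_map_of_injective hinj, hc]
    · rintro _ ⟨w, hw, rfl⟩
      show σ w * σ w = 1
      rw [← map_mul, hs w hw, map_one]
  have s1 : ∀ w ∈ V1, w * w = 1 := fun w hw => Subtype.ext (L1_sq _ hw)
  have s2 : ∀ w ∈ V2, w * w = 1 := fun w hw => Subtype.ext (L2_sq _ hw)
  rcases key V1 V1_le card_V1 s1 with h1 | h1 <;> rcases key V2 V2_le card_V2 s2 with h2 | h2
  · exfalso
    exact V1_ne_V2 (Subgroup.map_injective hinj (h1.trans h2.symm))
  · exact Or.inl ⟨h1, h2⟩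
  · exact Or.inr ⟨h1, h2⟩
  · exfalso
    exact V1_ne_V2 (Subgroup.map_injective hinj (h1.trans h2.symm))

/-! ### The last clause -/

theorem gen_U : ∀ x ∈ LA, ∀ y ∈ LB, ∀ u ∈ LU, u = 1 ∨ u = x ∨ u = y ∨ u = x * y ∨ u = y * x ∨
    u = x * y * x ∨ u = y * x * y ∨ u = x * y * x * y := by decide +kernel
theorem LC_sq : ∀ x ∈ LC, x * x = pz := by decide +kernel
theorem c_pz0 : ∀ p : P6, ¬ (Perm.sign p = 1 ∧ p * pz * p⁻¹ = pz ∧ p ∉ LU) := by decide +kernel
theorem c_pz : ∀ p : P6, Perm.sign p = 1 → p * pz * p⁻¹ = pz → p ∈ LU := by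
  intro p h1 h2
  by_contra h3
  exact c_pz0 p ⟨h1, h2, h3⟩
theorem A_conj : ∀ x ∈ LA, pr * x * pr⁻¹ ∈ LA ∧ pr * x * pr⁻¹ ≠ x ∧ x * (pr * x * pr⁻¹) = pz := by decide +kernel
theorem B_conj : ∀ x ∈ LB, pr * x * pr⁻¹ ∈ LB ∧ pr * x * pr⁻¹ ≠ x ∧ x * (pr * x * pr⁻¹) = pz := by decide +kernel
theorem A_all : ∀ x ∈ LA, ∀ p ∈ LA, p = x ∨ p = pr * x * pr⁻¹ := by decide +kernel
theorem B_all : ∀ x ∈ LB, ∀ p ∈ LB, p = x ∨ p = pr * x * pr⁻¹ := by decide +kernel
theorem AC : ∀ x ∈ LA, ∀ y ∈ LC, y * x ∈ LB := by decide +kernel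
theorem BC : ∀ x ∈ LB, ∀ y ∈ LC, y * x ∈ LA := by decide +kernel
theorem L1_cases : ∀ p ∈ L1, p = 1 ∨ p = pz ∨ p ∈ LA := by decide +kernel
theorem L2_cases : ∀ p ∈ L2, p = 1 ∨ p = pz ∨ p ∈ LB := by decide +kernel
theorem mem_L1_of : ∀ p ∈ LA, p ∈ L1 := by decide +kernel
theorem mem_L2_of : ∀ p ∈ LB, p ∈ L2 := by decide +kernel
theorem one_L1 : (1 : P6) ∈ L1 := by decide +kernel
theorem one_L2 : (1 : P6) ∈ L2 := by decide +kernel
theorem pz_L1 : pz ∈ L1 := by decide +kernel
theorem pz_L2 : pz ∈ L2 := by decide +kernel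
theorem C4_sq0 : ∀ p ∈ LU, ¬ (p ∉ LA ∧ p ∉ LB ∧ p * p = 1 ∧ p ≠ 1 ∧ p ≠ pz) := by decide +kernel
theorem C4_sq : ∀ p ∈ LU, p ∉ LA → p ∉ LB → p * p = 1 → p = 1 ∨ p = pz := by
  intro p hp h1 h2 h3
  by_contra h
  push Not at h
  exact C4_sq0 p hp ⟨h1, h2, h3, h.1, h.2⟩

theorem sub_of_mem {x : K6} {p : P6} (h : (x : P6) = p) {R : Subgroup K6} (hx : x ∈ R)
    (y : K6) (hy : (y : P6) = p) : y ∈ R := by
  have : y = x := Subtype.ext (hy.trans h.symm)
  rwa [this]

theorem last_clause (R : Subgroup K6) (hR : R ≠ ⊥) (hRU : R ≤ U)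
    (hN : U ≤ Subgroup.normalizer (R : Set K6)) (h1 : R ≠ V1) (h2 : R ≠ V2) :
    Subgroup.normalizer (R : Set K6) ≤ Subgroup.normalizer ((U : Subgroup K6) : Set K6) := by
  have hkr : kr ∈ Subgroup.normalizer (R : Set K6) := hN kr_mem
  have hconj : ∀ x : K6, x ∈ R → kr * x * kr⁻¹ ∈ R := fun x hx => (Subgroup.mem_normalizer_iff.1 hkr x).1 hx
  have hval : ∀ x : K6, ((kr * x * kr⁻¹ : K6) : P6) = pr * (x : P6) * pr⁻¹ := fun x => rfl
  by_cases hA : ∃ x ∈ R, (x : P6) ∈ LA
  · obtain ⟨x, hxR, hxA⟩ := hA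
    by_cases hB : ∃ y ∈ R, (y : P6) ∈ LB
    · -- `R = U`
      obtain ⟨y, hyR, hyB⟩ := hB
      have hUR : U ≤ R := by
        intro u hu
        have hxy : x * y ∈ R := R.mul_mem hxR hyR
        have hyx : y * x ∈ R := R.mul_mem hyR hxR
        have hxyx : x * y * x ∈ R := R.mul_mem hxy hxR
        have hyxy : y * x * y ∈ R := R.mul_mem hyx hyR
        have hxyxy : x * y * x * y ∈ R := R.mul_mem hxyx hyR
        rcases gen_U _ hxA _ hyB _ hu with h | h | h | h | h | h | h | h
        · have : u = 1 := Subtype.ext h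
          rw [this]; exact R.one_mem
        · have : u = x := Subtype.ext h
          rwa [this]
        · have : u = y := Subtype.ext h
          rwa [this]
        · have : u = x * y := Subtype.ext h
          rwa [this]
        · have : u = y * x := Subtype.ext h
          rwa [this]
        · have : u = x * y * x := Subtype.ext h
          rwa [this]
        · have : u = y * x * y := Subtype.ext h
          rwa [this]
        · have : u = x * y * x * y := Subtype.ext h
          rwa [this]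
      have hEq : R = U := le_antisymm hRU hUR
      rw [hEq]
    · -- `R = V1`
      exfalso
      apply h1
      apply le_antisymm
      · intro y hy
        have hyU := hRU hy
        rcases split_LU _ hyU with h | h | h | h | h
        · show (y : P6) ∈ L1
          rw [h]; exact one_L1
        · show (y : P6) ∈ L1
          rw [h]; exact pz_L1
        · exact mem_L1_of _ h
        · exact absurd ⟨y, hy, h⟩ hB
        · exact absurd ⟨y * x, R.mul_mem hy hxR, AC _ hxA _ h⟩ hB
      · intro y hy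
        have hx' := hconj x hxR
        obtain ⟨c1, c2, c3⟩ := A_conj _ hxA
        have hz' : x * (kr * x * kr⁻¹) ∈ R := R.mul_mem hxR hx'
        rcases L1_cases _ hy with h | h | h
        · have : y = 1 := Subtype.ext h
          rw [this]; exact R.one_mem
        · have : y = x * (kr * x * kr⁻¹) := Subtype.ext (h.trans c3.symm)
          rwa [this]
        · rcases A_all _ hxA _ h with h' | h'
          · have : y = x := Subtype.ext h'
            rwa [this]
          · have : y = kr * x * kr⁻¹ := Subtype.ext h'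
            rwa [this]
  · by_cases hB : ∃ y ∈ R, (y : P6) ∈ LB
    · -- `R = V2`
      exfalso
      obtain ⟨x, hxR, hxB⟩ := hB
      apply h2
      apply le_antisymm
      · intro y hy
        have hyU := hRU hy
        rcases split_LU _ hyU with h | h | h | h | h
        · show (y : P6) ∈ L2
          rw [h]; exact one_L2
        · show (y : P6) ∈ L2
          rw [h]; exact pz_L2
        · exact absurd ⟨y, hy, h⟩ hA
        · exact mem_L2_of _ h
        · exact absurd ⟨y * x, R.mul_mem hy hxR, BC _ hxB _ h⟩ hA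
      · intro y hy
        have hx' := hconj x hxR
        obtain ⟨c1, c2, c3⟩ := B_conj _ hxB
        have hz' : x * (kr * x * kr⁻¹) ∈ R := R.mul_mem hxR hx'
        rcases L2_cases _ hy with h | h | h
        · have : y = 1 := Subtype.ext h
          rw [this]; exact R.one_mem
        · have : y = x * (kr * x * kr⁻¹) := Subtype.ext (h.trans c3.symm)
          rwa [this]
        · rcases B_all _ hxB _ h with h' | h'
          · have : y = x := Subtype.ext h'
            rwa [this]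
          · have : y = kr * x * kr⁻¹ := Subtype.ext h'
            rwa [this]
    · -- `R` inside the cyclic subgroup: `z` is its unique involution
      intro g hg
      have hnoA : ∀ y ∈ R, (y : P6) ∉ LA := fun y hy h => hA ⟨y, hy, h⟩
      have hnoB : ∀ y ∈ R, (y : P6) ∉ LB := fun y hy h => hB ⟨y, hy, h⟩
      have hzR : kz ∈ R := by
        obtain ⟨x, hxR, hx1⟩ := (R.bot_or_exists_ne_one).resolve_left hR
        rcases split_LU _ (hRU hxR) with h | h | h | h | h
        · exact absurd (Subtype.ext h) hx1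
        · have : kz = x := Subtype.ext h.symm
          rwa [this]
        · exact absurd h (hnoA x hxR)
        · exact absurd h (hnoB x hxR)
        · have h3 : x * x = kz := Subtype.ext (LC_sq _ h)
          rw [← h3]
          exact R.mul_mem hxR hxR
      have hgz : g * kz * g⁻¹ ∈ R := (Subgroup.mem_normalizer_iff.1 hg kz).1 hzR
      have hzz : kz * kz = 1 := Subtype.ext (by decide +kernel)
      have hsq : (g * kz * g⁻¹) * (g * kz * g⁻¹) = 1 := by
        calc (g * kz * g⁻¹) * (g * kz * g⁻¹) = g * (kz * kz) * g⁻¹ := by group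
          _ = 1 := by rw [hzz]; group
      have hcases := C4_sq _ (hRU hgz) (hnoA _ hgz) (hnoB _ hgz) (congrArg Subtype.val hsq)
      have hcomm : ((g : K6) : P6) * pz * ((g : K6) : P6)⁻¹ = pz := by
        rcases hcases with h | h
        · exfalso
          have h0 : g * kz * g⁻¹ = 1 := Subtype.ext h
          have h3 : kz = 1 := by
            have : kz = g⁻¹ * (g * kz * g⁻¹) * g := by group
            rw [this, h0]; group
          have h4 : pz = 1 := congrArg Subtype.val h3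
          revert h4
          decide +kernel
        · exact h
      have hgU : g ∈ U := c_pz _ (Perm.mem_alternatingGroup.1 g.2) hcomm
      exact Subgroup.le_normalizer hgU


end Cfsg.Agent.Lib.PMinA6
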