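import Mathlib
import Cfsg.Agent.Lib.PMinA6Core

/-!
# A count of products of normalizer elements in `A₆`
-/

set_option autoImplicit false
set_option maxRecDepth 100000

namespace Cfsg.Agent.Lib.PMinA6

open Equiv

def nV (L : Finset P6) (p : P6) : Prop := (∀ v ∈ L, p * v * p⁻¹ ∈ L) ∧ (∀ v ∈ L, p⁻¹ * v * p ∈ L)

instance (L : Finset P6) (p : P6) : Decidable (nV L p) := by
  unfold nV
  infer_instance

def A1 : Finset P6 := Finset.univ.filter (fun p => Perm.sign p = 1 ∧ nV L1 p)
def A2 : Finset P6 := Finset.univ.filter (fun p => Perm.sign p = 1 ∧ nV L2 p)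
def TT : Finset P6 := Finset.image₂ (· * ·) A1 A2

theorem card_TT : 61 ≤ TT.card := by decide +kernel

theorem U_norm : ∀ p ∈ LU, nV L1 p := by decide +kernel

end Cfsg.Agent.Lib.PMinA6
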