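import Mathlib
import Cfsg.Agent.Lib.OverU29

/-!
# Interface for the `p`-minimal groups with `F*` of Lie type

Predicates that a simple group of Lie type can satisfy, used to rule out or to identify the
`p`-minimal groups over it.
-/

set_option autoImplicit false
set_option linter.unusedSectionVars false
set_option linter.unusedVariables false

namespace Cfsg.Agent.Lib.PMin29

open Cfsg Cfsg.Agent.Lib.BNPair Cfsg.Agent.Lib.LTAut33 Cfsg.Agent.Lib.OverU29

/-- `G` has a split `(B,N)`-pair with at least `r` nodes. -/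
def HasNodes (p r : ℕ) (G : Type*) [Group G] : Prop :=
  ∃ (P : Cfsg.BNPair G) (U : Subgroup G), SplitU P U p ∧
    ∃ f : Fin r → G, Function.Injective f ∧ ∀ i, f i ∈ P.S

/-- Some node of a split `(B,N)`-pair normalizes the centre of `U`. -/
def HasZNode (p : ℕ) (G : Type*) [Group G] : Prop :=
  ∃ (P : Cfsg.BNPair G) (U : Subgroup G), SplitU P U p ∧ ∃ a ∈ P.S,
    ∀ z ∈ U, (∀ u ∈ U, u * z = z * u) → a * z * a⁻¹ ∈ U ∧ ∀ u ∈ U, u * (a * z * a⁻¹) = (a * z * a⁻¹) * u

/-- Two minimal parabolics of a split `(B,N)`-pair have different index. -/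
def HasIndexGap (p : ℕ) (G : Type*) [Group G] : Prop :=
  ∃ (P : Cfsg.BNPair G) (U : Subgroup G), SplitU P U p ∧ ∃ a ∈ P.S, ∃ b ∈ P.S,
    (P.parabolic {a}).index ≠ (P.parabolic {b}).index

/-- Two nontrivial subgroups of a Sylow subgroup, invariant under the automorphisms that preserve
the Sylow subgroup, whose normalizers generate the group. -/
def HasTwoChar (p : ℕ) (K : Type*) [Group K] : Prop :=
  ∃ (U : Sylow p K) (R₁ R₂ : Subgroup K), R₁ ≠ ⊥ ∧ R₂ ≠ ⊥ ∧ R₁ ≤ U ∧ R₂ ≤ U ∧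
    (∀ σ : K ≃* K, (U : Subgroup K).map σ.toMonoidHom = U →
      R₁.map σ.toMonoidHom = R₁ ∧ R₂.map σ.toMonoidHom = R₂) ∧
    Subgroup.normalizer (R₁ : Set K) ⊔ Subgroup.normalizer (R₂ : Set K) = ⊤

/-- The local data of `A₆` at `2`: two subgroups `V₁ ≠ V₂` of the Sylow subgroup, permuted by the
automorphisms that preserve the Sylow subgroup, whose normalizers generate the group; the normalizer
of any other nontrivial subgroup of `U` normalized by `U` normalizes `U`. -/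
def HasPairData (p : ℕ) (K : Type*) [Group K] : Prop :=
  ∃ (U : Sylow p K) (V₁ V₂ : Subgroup K), V₁ ≠ V₂ ∧ V₁ ≠ ⊥ ∧ V₂ ≠ ⊥ ∧ V₁ ≤ U ∧ V₂ ≤ U ∧
    (U : Subgroup K) ≤ Subgroup.normalizer (V₁ : Set K) ∧
    (∀ σ : K ≃* K, (U : Subgroup K).map σ.toMonoidHom = U →
      (V₁.map σ.toMonoidHom = V₁ ∧ V₂.map σ.toMonoidHom = V₂) ∨
      (V₁.map σ.toMonoidHom = V₂ ∧ V₂.map σ.toMonoidHom = V₁)) ∧
    Subgroup.normalizer (V₁ : Set K) ⊔ Subgroup.normalizer (V₂ : Set K) = ⊤ ∧
    ∀ R : Subgroup K, R ≠ ⊥ → R ≤ U → (U : Subgroup K) ≤ Subgroup.normalizer (R : Set K) →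
      R ≠ V₁ → R ≠ V₂ →
      Subgroup.normalizer (R : Set K) ≤ Subgroup.normalizer ((U : Subgroup K) : Set K)

/-- The normalizer of every nontrivial subgroup of `U` normalized by `U` normalizes `U`. -/
def HasLocalOne (p : ℕ) (K : Type*) [Group K] : Prop :=
  ∃ U : Sylow p K, ∀ R : Subgroup K, R ≠ ⊥ → R ≤ U → (U : Subgroup K) ≤ Subgroup.normalizer (R : Set K) →
    Subgroup.normalizer (R : Set K) ≤ Subgroup.normalizer ((U : Subgroup K) : Set K)

end Cfsg.Agent.Lib.PMin29
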