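import Mathlib
import Cfsg.Agent.Lib.SmallGroups
import Cfsg.Agent.Lib.PMinA6T
import Cfsg.Agent.Lib.PMinDefs29

/-!
# The normalizers of the two Klein four-subgroups generate `A₆`
-/

set_option autoImplicit false
set_option linter.unusedVariables false
set_option linter.unusedSectionVars false
set_option maxRecDepth 100000

namespace Cfsg.Agent.Lib.PMinA6

open Equiv

/-! ### The normalizers generate -/

theorem mem_A1 {p : P6} : p ∈ A1 ↔ Perm.sign p = 1 ∧ nV L1 p := by
  simp only [A1, Finset.mem_filter, Finset.mem_univ, true_and]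

theorem mem_A2 {p : P6} : p ∈ A2 ↔ Perm.sign p = 1 ∧ nV L2 p := by
  simp only [A2, Finset.mem_filter, Finset.mem_univ, true_and]

theorem mem_TT {t : P6} : t ∈ TT ↔ ∃ a ∈ A1, ∃ b ∈ A2, a * b = t := by
  simp only [TT, Finset.mem_image₂]

attribute [local irreducible] A1 A2 TT

theorem mem_norm {L : Finset P6} {W : Subgroup K6} (hW : ∀ x : K6, x ∈ W ↔ (x : P6) ∈ L) {k : K6}
    (hk : nV L (k : P6)) : k ∈ Subgroup.normalizer (W : Set K6) := by
  rw [Subgroup.mem_normalizer_iff]
  intro h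
  constructor
  · intro hh
    exact (hW _).2 (hk.1 _ ((hW _).1 hh))
  · intro hh
    have h1 : ((k⁻¹ * (k * h * k⁻¹) * k : K6) : P6) ∈ L :=
      hk.2 _ ((hW _).1 hh)
    have h2 : k⁻¹ * (k * h * k⁻¹) * k = h := by group
    rw [h2] at h1
    exact (hW _).2 h1

theorem not_comm_K : ¬ IsMulCommutative K6 := by
  intro h
  have h1 : ka * kr = kr * ka := h.is_comm.comm ka kr
  have h2 : pa * pr = pr * pa := congrArg Subtype.val h1
  revert h2
  decide +kernel

theorem join_top : Subgroup.normalizer (V1 : Set K6) ⊔ Subgroup.normalizer (V2 : Set K6) = ⊤ := by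
  by_contra hne
  haveI : IsSimpleGroup K6 := alternatingGroup.isSimpleGroup (by simp)
  generalize hJ : Subgroup.normalizer (V1 : Set K6) ⊔ Subgroup.normalizer (V2 : Set K6) = J at hne
  have hd := Cfsg.Agent.Lib.SmallGroups.two_mul_card_dvd_factorial_index not_comm_K J hne
  rw [card_K] at hd
  have hidx : 6 ≤ J.index := by
    by_contra hlt
    have hle : J.index ≤ 5 := by omega
    have h1 : J.index.factorial ≤ 120 := Nat.factorial_le hle
    have h2 := Nat.le_of_dvd (Nat.factorial_pos _) hd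
    omega
  have hmul := J.index_mul_card
  rw [card_K] at hmul
  have hJc : Nat.card J ≤ 60 := by
    by_contra hlt
    have : 6 * 61 ≤ J.index * Nat.card J := Nat.mul_le_mul hidx (by omega)
    omega
  have hmem : ∀ t ∈ TT, ∃ (h : t ∈ alternatingGroup (Fin 6)), (⟨t, h⟩ : K6) ∈ J := by
    intro t ht
    have h0 := mem_TT.1 ht
    obtain ⟨a, ha, b, hb, hab⟩ := h0
    subst hab
    obtain ⟨ha1, ha2⟩ := mem_A1.1 ha
    obtain ⟨hb1, hb2⟩ := mem_A2.1 hb
    have hae : a ∈ alternatingGroup (Fin 6) := Perm.mem_alternatingGroup.2 ha1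
    have hbe : b ∈ alternatingGroup (Fin 6) := Perm.mem_alternatingGroup.2 hb1
    refine ⟨mul_mem hae hbe, ?_⟩
    have h1 : (⟨a, hae⟩ : K6) ∈ Subgroup.normalizer (V1 : Set K6) :=
      mem_norm (L := L1) (fun x => Iff.rfl) ha2
    have h2 : (⟨b, hbe⟩ : K6) ∈ Subgroup.normalizer (V2 : Set K6) :=
      mem_norm (L := L2) (fun x => Iff.rfl) hb2
    rw [← hJ]
    exact Subgroup.mul_mem _ (Subgroup.mem_sup_left h1) (Subgroup.mem_sup_right h2)
  let f : {t : P6 // t ∈ TT} → J := fun t =>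
    ⟨⟨t.1, (hmem t.1 t.2).1⟩, (hmem t.1 t.2).2⟩
  have hf : Function.Injective f := by
    intro x y hxy
    have h1 : ((f x : K6) : P6) = ((f y : K6) : P6) := by rw [hxy]
    exact Subtype.ext h1
  have hle := Nat.card_le_card_of_injective f hf
  rw [Nat.card_eq_fintype_card, Fintype.card_coe] at hle
  have := card_TT
  omega


/-- The local data of `A₆` at the prime `2`. -/
theorem a6_pairData : Cfsg.Agent.Lib.PMin29.HasPairData 2 (alternatingGroup (Fin 6)) := by
  refine ⟨sylU, V1, V2, V1_ne_V2, V1_ne_bot, V2_ne_bot, ?_, ?_, ?_, ?_, join_top, ?_⟩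
  · rw [coe_sylU]; exact V1_le
  · rw [coe_sylU]; exact V2_le
  · rw [coe_sylU]
    intro x hx
    exact mem_norm (L := L1) (fun y => Iff.rfl) (U_norm _ hx)
  · intro σ hσ
    rw [coe_sylU] at hσ
    exact aut_perm σ hσ
  · intro R h1 h2 h3 h4 h5
    rw [coe_sylU] at h2 h3 ⊢
    exact last_clause R h1 h2 h3 h4 h5

end Cfsg.Agent.Lib.PMinA6

namespace Cfsg.Agent.Lib.PMin29

/-- The local data of `A₆` at the prime `2`. -/
theorem a6_pairData : HasPairData 2 (alternatingGroup (Fin 6)) := Cfsg.Agent.Lib.PMinA6.a6_pairData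

end Cfsg.Agent.Lib.PMin29
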