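import Mathlib
import Cfsg.Agent.Lib.PMinDefs29
import Cfsg.Agent.Lib.OverChev29

/-!
# Nodes of the exceptional Chevalley groups
-/

set_option autoImplicit false
set_option linter.unusedSectionVars false
set_option linter.unusedVariables false

namespace Cfsg.Agent.Lib.PMin29

open Cfsg Cfsg.Lie Cfsg.Agent.Lib.Chev Cfsg.Agent.Lib.LTAut33 Cfsg.Agent.Lib.BNPair
open Cfsg.Agent.Lib.OverU29 Cfsg.Agent.Lib.StChev50

section

variable {T : Tabs} {X : Extra} {R : RootTab} {D : ChevalleyDatum}

theorem sig_injective (hF : Full T X R D) (F : Type*) [Field F] [Fintype F] {i j : ℕ}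
    (hi : i < D.rank) (hj : j < D.rank) (h : sig hF F i = sig hF F j) : i = j := by
  have h0 : (sig hF F i : GL D.Idx F) = (sig hF F j : GL D.Idx F) := congrArg Subtype.val h
  rw [sig_of_lt hF hi, sig_of_lt hF hj] at h0
  have h4 : (hF.nS (F := F) i)⁻¹ * hF.nS j ∈ D.diagonalSubgroup F := by
    rw [← h0, inv_mul_cancel]
    exact Subgroup.one_mem _
  have := hF.diagonal_normal (F := F)
  have h5 : hF.sW F ⟨i, hi⟩ = hF.sW F ⟨j, hj⟩ := by
    apply QuotientGroup.eq.2
    rw [Subgroup.mem_subgroupOf]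
    exact h4
  have h6 := hF.rootSys.s_injective h5
  exact congrArg Fin.val h6

theorem nodes_of_full (hF : Full T X R D) (F : Type*) [Field F] [Fintype F] (p : ℕ) [Fact p.Prime]
    [CharP F p] : HasNodes p D.rank ↥(D.group F) := by
  refine ⟨hF.bnPair F, UU D F, chev_split hF F p, fun i => sig hF F i.1, ?_, ?_⟩
  · intro i j h
    exact Fin.ext (sig_injective hF F i.2 j.2 h)
  · intro i
    exact sig_mem hF (Finset.mem_range.2 i.2)

end

/-- T4: nodes of the Chevalley groups `G₂, B₂, D₄, F₄, E₆, E₇, E₈`. -/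
theorem nodes_chev (F : Type*) [Field F] [Fintype F] (p : ℕ) [Fact p.Prime] [CharP F p]
    {D : ChevalleyDatum} (hD : D ∈ [chevG2, chevB2, chevD4, chevF4, chevE6, chevE7, chevE8]) :
    HasNodes p D.rank ↥(D.group F) := by
  obtain ⟨T, X, R, hF⟩ := exists_full D hD
  exact nodes_of_full hF F p

end Cfsg.Agent.Lib.PMin29
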