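import Mathlib
import Cfsg.Agent.Lib.PMinDefs29

/-!
# Transport of the predicates along isomorphisms
-/

set_option autoImplicit false
set_option linter.unusedSectionVars false
set_option linter.unusedVariables false

namespace Cfsg.Agent.Lib.PMin29

open Cfsg Cfsg.Agent.Lib.BNPair Cfsg.Agent.Lib.LTAut33 Cfsg.Agent.Lib.OverU29

variable {K L : Type*} [Group K] [Group L]

theorem HasNodes.mono {p r r' : ℕ} {G : Type*} [Group G] (h : HasNodes p r' G) (hr : r ≤ r') : HasNodes p r G := by
  obtain ⟨P, U, hU, f, hf, hfS⟩ := h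
  exact ⟨P, U, hU, f ∘ Fin.castLE hr, hf.comp (Fin.castLE_injective hr), fun i => hfS _⟩

section
variable (φ : K ≃* L)

theorem mem_norm_comap (R : Subgroup L) (x : K) :
    x ∈ Subgroup.normalizer ((R.comap φ.toMonoidHom : Subgroup K) : Set K) ↔
      φ x ∈ Subgroup.normalizer (R : Set L) := by
  rw [Subgroup.mem_normalizer_iff, Subgroup.mem_normalizer_iff]
  constructor
  · intro h y
    obtain ⟨y', rfl⟩ := φ.surjective y
    have := h y'
    simp only [Subgroup.mem_comap] at this
    simpa using this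
  · intro h y
    have := h (φ y)
    simp only [Subgroup.mem_comap]
    simpa using this

theorem comap_ne_bot (R : Subgroup L) (hR : R ≠ ⊥) : R.comap φ.toMonoidHom ≠ ⊥ := by
  intro h0
  apply hR
  rw [eq_bot_iff]
  intro x hx
  have : φ.symm x ∈ R.comap φ.toMonoidHom := by
    show φ (φ.symm x) ∈ R
    simpa using hx
  rw [h0, Subgroup.mem_bot] at this
  rw [Subgroup.mem_bot]
  simpa using this

theorem comap_map_eq' (R : Subgroup K) : (R.map φ.toMonoidHom).comap φ.toMonoidHom = R :=
  Subgroup.comap_map_eq_self_of_injective φ.injective R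

theorem map_comap_eq' (R : Subgroup L) : (R.comap φ.toMonoidHom).map φ.toMonoidHom = R :=
  Subgroup.map_comap_eq_self_of_surjective φ.surjective R

theorem comap_inj' {R R' : Subgroup L} (h : R.comap φ.toMonoidHom = R'.comap φ.toMonoidHom) : R = R' := by
  rw [← map_comap_eq' φ R, h, map_comap_eq']

theorem norm_sup_top (R₁ R₂ : Subgroup L)
    (h : Subgroup.normalizer (R₁ : Set L) ⊔ Subgroup.normalizer (R₂ : Set L) = ⊤) :
    Subgroup.normalizer ((R₁.comap φ.toMonoidHom : Subgroup K) : Set K) ⊔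
      Subgroup.normalizer ((R₂.comap φ.toMonoidHom : Subgroup K) : Set K) = ⊤ := by
  have hn : ∀ R : Subgroup L, (Subgroup.normalizer ((R.comap φ.toMonoidHom : Subgroup K) : Set K)) =
      (Subgroup.normalizer (R : Set L)).comap φ.toMonoidHom := fun R => by
    ext x
    exact mem_norm_comap φ R x
  rw [hn, hn, eq_top_iff]
  intro x _
  have hx : φ x ∈ Subgroup.normalizer (R₁ : Set L) ⊔ Subgroup.normalizer (R₂ : Set L) := by rw [h]; trivial
  have h3 : Subgroup.normalizer (R₁ : Set L) ⊔ Subgroup.normalizer (R₂ : Set L) ≤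
      ((Subgroup.normalizer (R₁ : Set L)).comap φ.toMonoidHom ⊔
        (Subgroup.normalizer (R₂ : Set L)).comap φ.toMonoidHom).map φ.toMonoidHom := by
    rw [Subgroup.map_sup, map_comap_eq', map_comap_eq']
  obtain ⟨y, hy, e⟩ := h3 hx
  have : y = x := φ.injective e
  exact this ▸ hy

/-- Automorphisms. -/
def autT (σ : K ≃* K) : L ≃* L := φ.symm.trans (σ.trans φ)

theorem autT_apply (σ : K ≃* K) (x : K) : autT φ σ (φ x) = φ (σ x) := by
  simp [autT]

theorem map_comap_autT (σ : K ≃* K) (R : Subgroup L) :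
    (R.comap φ.toMonoidHom).map σ.toMonoidHom = (R.map (autT φ σ).toMonoidHom).comap φ.toMonoidHom := by
  ext x
  constructor
  · rintro ⟨y, hy, rfl⟩
    exact ⟨φ y, hy, autT_apply φ σ y⟩
  · rintro ⟨y, hy, e⟩
    obtain ⟨y', rfl⟩ := φ.surjective y
    have e' : φ (σ y') = φ x := by
      rw [← autT_apply]
      exact e
    exact ⟨y', hy, φ.injective e'⟩

end

variable {p : ℕ} [hp : Fact p.Prime] [Finite K] [Finite L]

/-- A Sylow subgroup pulled back along an isomorphism. -/
noncomputable def syl (φ : K ≃* L) (U : Sylow p L) : Sylow p K :=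
  U.comapOfInjective φ.toMonoidHom φ.injective (by
    rw [MonoidHom.range_eq_top.mpr φ.surjective]
    exact le_top)

theorem syl_coe (φ : K ≃* L) (U : Sylow p L) : (syl φ U : Subgroup K) = (U : Subgroup L).comap φ.toMonoidHom :=
  Sylow.coe_comapOfInjective _ _ _ _

theorem HasPairData.of_equiv (φ : K ≃* L) (h : HasPairData p L) : HasPairData p K := by
  obtain ⟨U, V₁, V₂, hne, h1, h2, hle1, hle2, hnV, hinv, hgen, hloc⟩ := h
  refine ⟨syl φ U, V₁.comap φ.toMonoidHom, V₂.comap φ.toMonoidHom, fun e => hne (comap_inj' φ e),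
    comap_ne_bot φ _ h1, comap_ne_bot φ _ h2, ?_, ?_, ?_, ?_, norm_sup_top φ _ _ hgen, ?_⟩
  · rw [syl_coe]
    exact Subgroup.comap_mono hle1
  · rw [syl_coe]
    exact Subgroup.comap_mono hle2
  · rw [syl_coe]
    intro x hx
    exact (mem_norm_comap φ V₁ x).2 (hnV hx)
  · intro σ hσ
    rw [syl_coe, map_comap_autT] at hσ
    have h3 := comap_inj' φ hσ
    rw [map_comap_autT, map_comap_autT]
    rcases hinv _ h3 with ⟨h4, h5⟩ | ⟨h4, h5⟩
    · exact Or.inl ⟨by rw [h4], by rw [h5]⟩
    · exact Or.inr ⟨by rw [h4], by rw [h5]⟩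
  · intro R hR hRU hUR hR1 hR2
    rw [syl_coe] at hRU hUR ⊢
    have e0 := comap_map_eq' φ R
    have hRne : R.map φ.toMonoidHom ≠ ⊥ := by
      intro h0
      apply hR
      rw [← e0, h0]
      ext x
      simp
    have hle : R.map φ.toMonoidHom ≤ U := by
      rintro _ ⟨r, hr, rfl⟩
      exact hRU hr
    have hnorm : (U : Subgroup L) ≤ Subgroup.normalizer ((R.map φ.toMonoidHom : Subgroup L) : Set L) := by
      intro x hx
      obtain ⟨x', rfl⟩ := φ.surjective x
      rw [← mem_norm_comap φ, e0]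
      exact hUR hx
    have hn1 : R.map φ.toMonoidHom ≠ V₁ := by
      intro e
      apply hR1
      rw [← e, e0]
    have hn2 : R.map φ.toMonoidHom ≠ V₂ := by
      intro e
      apply hR2
      rw [← e, e0]
    have h3 := hloc _ hRne hle hnorm hn1 hn2
    intro x hx
    rw [← e0] at hx
    rw [mem_norm_comap] at hx ⊢
    exact h3 hx

theorem HasLocalOne.of_equiv (φ : K ≃* L) (h : HasLocalOne p L) : HasLocalOne p K := by
  obtain ⟨U, hloc⟩ := h
  refine ⟨syl φ U, ?_⟩
  intro R hR hRU hUR
  rw [syl_coe] at hRU hUR ⊢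
  have e0 := comap_map_eq' φ R
  have hRne : R.map φ.toMonoidHom ≠ ⊥ := by
    intro h0
    apply hR
    rw [← e0, h0]
    ext x
    simp
  have hle : R.map φ.toMonoidHom ≤ U := by
    rintro _ ⟨r, hr, rfl⟩
    exact hRU hr
  have hnorm : (U : Subgroup L) ≤ Subgroup.normalizer ((R.map φ.toMonoidHom : Subgroup L) : Set L) := by
    intro x hx
    obtain ⟨x', rfl⟩ := φ.surjective x
    rw [← mem_norm_comap φ, e0]
    exact hUR hx
  have h3 := hloc _ hRne hle hnorm
  intro x hx
  rw [← e0] at hx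
  rw [mem_norm_comap] at hx ⊢
  exact h3 hx

theorem HasIndexGap.of_equiv (φ : L ≃* K) (h : HasIndexGap p L) : HasIndexGap p K := by
  obtain ⟨P, U, hU, a, ha, b, hb, hne⟩ := h
  have hker : φ.toMonoidHom.ker ≤ P.B ⊓ P.N := by
    intro x hx
    have h1 : x = 1 := φ.injective (by simpa [MonoidHom.mem_ker] using hx)
    rw [h1]
    exact Subgroup.one_mem _
  refine ⟨pushBN φ.toMonoidHom φ.surjective P hker, U.map φ.toMonoidHom, pushSplit φ.toMonoidHom φ.surjective P hker hU,
    φ a, ⟨a, ha, rfl⟩, φ b, ⟨b, hb, rfl⟩, ?_⟩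
  have key : ∀ c : L, (pushBN φ.toMonoidHom φ.surjective P hker).parabolic {φ c} =
      (P.parabolic {c}).map φ.toMonoidHom := by
    intro c
    unfold Cfsg.BNPair.parabolic
    rw [Subgroup.map_sup, MonoidHom.map_closure, Set.image_singleton]
    rfl
  rw [key, key]
  intro e
  apply hne
  have h1 := Subgroup.index_map_equiv (P.parabolic {a}) φ
  have h2 := Subgroup.index_map_equiv (P.parabolic {b}) φ
  rw [← h1, ← h2]
  exact e

end Cfsg.Agent.Lib.PMin29
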