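import Mathlib
import Cfsg.Agent.Lib.BNPair2

/-!
# Non-backtracking walks in the Coxeter diagram of a finite `(B,N)`-pair

A finite `(B,N)`-pair cannot have a diagram in which every node has two distinct neighbours:
a non-backtracking walk gives arbitrarily long reduced words.
-/

set_option autoImplicit false
set_option linter.unusedSectionVars false
set_option linter.unusedVariables false

namespace Cfsg.Agent.Lib.PMin29

open Cfsg Cfsg.Agent.Lib.BNPair Cfsg.Agent.Lib.BNPair2

variable {G : Type*} [Group G] {P : Cfsg.BNPair G}

/-- The images of `s`, `t` in the Weyl group do not commute. -/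
def NC (P : Cfsg.BNPair G) (s t : G) : Prop := s * t * s⁻¹ * t⁻¹ ∉ P.B

/-- Equality modulo the torus, on the right. -/
def Ap (P : Cfsg.BNPair G) (a b : G) : Prop := a⁻¹ * b ∈ P.B

theorem Ap.refl (a : G) : Ap P a a := by
  unfold Ap
  rw [inv_mul_cancel]
  exact P.B.one_mem

theorem Ap.symm {a b : G} (h : Ap P a b) : Ap P b a := by
  unfold Ap at *
  have := P.B.inv_mem h
  simpa using this

theorem Ap.trans {a b c : G} (h : Ap P a b) (h' : Ap P b c) : Ap P a c := by
  unfold Ap at *
  have e : a⁻¹ * c = (a⁻¹ * b) * (b⁻¹ * c) := by group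
  rw [e]
  exact P.B.mul_mem h h'

theorem Ap.mul_left {a b : G} (u : G) (h : Ap P a b) : Ap P (u * a) (u * b) := by
  unfold Ap at *
  have e : (u * a)⁻¹ * (u * b) = a⁻¹ * b := by group
  rw [e]
  exact h

theorem Ap.mul_right {a b x : G} (ha : a ∈ P.N) (hb : b ∈ P.N) (hx : x ∈ P.N) (h : Ap P a b) :
    Ap P (a * x) (b * x) := by
  unfold Ap at *
  have e : (a * x)⁻¹ * (b * x) = x⁻¹ * (a⁻¹ * b) * x := by group
  rw [e]
  exact T_conj' hx h (P.N.mul_mem (P.N.inv_mem ha) hb)

theorem Ap.len {a b : G} (h : Ap P a b) : len P a = len P b := len_congr h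

theorem Ap_SS {u m : G} (hu : u ∈ P.S) (hm : m ∈ P.N) : Ap P (u * (u * m)) m := by
  unfold Ap
  have e : (u * (u * m))⁻¹ * m = m⁻¹ * (u * u)⁻¹ * m := by group
  rw [e]
  exact T_conj' hm (S_sq_inv_mem hu) (P.N.inv_mem (S_sq_mem_N hu))

theorem len_dich {s n : G} (hs : s ∈ P.S) (hn : n ∈ P.N) :
    len P (s * n) = len P n + 1 ∨ len P (s * n) + 1 = len P n := by
  have h1 := len_S_mul_le (P := P) hs hn
  have h2 := len_le_S_mul (P := P) hs hn
  have h3 := len_S_mul_ne (P := P) hs hn
  omega

/-- Conversion of commutators. -/
theorem comm_conv {s t : G} (hs : s ∈ P.S) (ht : t ∈ P.S) (h : s * t * s⁻¹ * t⁻¹ ∈ P.B) :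
    s⁻¹ * t⁻¹ * s * t ∈ P.B := by
  have e : s⁻¹ * t⁻¹ * s * t =
      (s * s)⁻¹ * (s * (t * t)⁻¹ * s⁻¹) * (s * t * s⁻¹ * t⁻¹) * (t * (s * s) * t⁻¹) * (t * t) := by
    group
  rw [e]
  exact P.B.mul_mem (P.B.mul_mem (P.B.mul_mem (P.B.mul_mem (S_sq_inv_mem hs)
    (T_conj (S_mem_N hs) (S_sq_inv_mem ht) (P.N.inv_mem (S_sq_mem_N ht)))) h)
    (T_conj (S_mem_N ht) (P.sq_mem s hs) (S_sq_mem_N hs))) (P.sq_mem t ht)

theorem comm_conv' {s t : G} (hs : s ∈ P.S) (ht : t ∈ P.S) (h : s⁻¹ * t⁻¹ * s * t ∈ P.B) :
    s * t * s⁻¹ * t⁻¹ ∈ P.B := by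
  have e : s * t * s⁻¹ * t⁻¹ =
      (s * (t * t) * s⁻¹) * (s * s) * (s⁻¹ * t⁻¹ * s * t) * (t * t)⁻¹ * (t * (s * s)⁻¹ * t⁻¹) := by
    group
  rw [e]
  exact P.B.mul_mem (P.B.mul_mem (P.B.mul_mem (P.B.mul_mem
    (T_conj (S_mem_N hs) (P.sq_mem t ht) (S_sq_mem_N ht)) (P.sq_mem s hs)) h)
    (S_sq_inv_mem ht)) (T_conj (S_mem_N ht) (S_sq_inv_mem hs) (P.N.inv_mem (S_sq_mem_N hs)))

theorem NC.symm {s t : G} (h : NC P s t) : NC P t s := by
  intro h'
  apply h
  have := P.B.inv_mem h'
  have e : (t * s * t⁻¹ * s⁻¹)⁻¹ = s * t * s⁻¹ * t⁻¹ := by group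
  rwa [e] at this

theorem NC.ne {s t : G} (h : NC P s t) : s ≠ t := by
  rintro rfl
  apply h
  have e : s * s * s⁻¹ * s⁻¹ = 1 := by group
  rw [e]
  exact P.B.one_mem

/-! ### Minimal coset representatives -/

/-- The subgroup of `N` attached to a set of nodes. -/
abbrev WI (P : Cfsg.BNPair G) (I : Set G) : Subgroup G := Subgroup.closure I ⊔ (P.B ⊓ P.N)

theorem WI_le_N {I : Set G} (hI : I ⊆ P.S) : WI P I ≤ P.N :=
  sup_le ((Subgroup.closure_le _).2 (hI.trans P.subset)) inf_le_right

theorem word_mem_WI {I : Set G} {l : List G} (hl : IsWordIn I l) : l.prod ∈ WI P I := by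
  apply Subgroup.list_prod_mem
  intro x hx
  exact (le_sup_left : Subgroup.closure I ≤ WI P I) (Subgroup.subset_closure (hl x hx))

/-- Deodhar's lemma. -/
theorem deodhar {I : Set G} (hI : I ⊆ P.S) {x : G} (hx : x ∈ P.N)
    (hmin : ∀ y ∈ WI P I, len P x ≤ len P (y * x)) :
    ∀ l : List G, IsWordIn I l → IsReducedWord P l → len P (l.prod * x) = l.length + len P x := by
  intro l
  induction l with
  | nil =>
    intro _ _
    simp
  | cons u l' ih =>
    intro hw hred
    have hu : u ∈ P.S := hI hw.head
    have hwS' : IsWordIn P.S l' := fun y hy => hI (hw.tail y hy)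
    have ih' := ih hw.tail hred.tail
    have hl'N : l'.prod ∈ P.N := hwS'.prod_mem_N subset_rfl
    have hnN : l'.prod * x ∈ P.N := P.N.mul_mem hl'N hx
    simp only [List.prod_cons, List.length_cons]
    rw [mul_assoc]
    rcases len_dich hu hnN with h | h
    · omega
    · exfalso
      obtain ⟨c, hc, hxc⟩ := exists_reduced (P := P) hx
      have hcN : c.prod ∈ P.N := hc.1.prod_mem_N subset_rfl
      have hclen : c.length = len P x := by rw [← hc.2]; exact (len_congr hxc).symm
      have hA : Ap P (l'.prod * x) (l'.prod * c.prod) := Ap.mul_left _ hxc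
      have hlen2 : len P (u * (l'.prod * c.prod)) ≤ len P (l'.prod * c.prod) := by
        have h1 := (Ap.mul_left u hA).len
        have h2 := hA.len
        omega
      have hLw : IsWordIn P.S (l' ++ c) := hwS'.append hc.1
      have hLprod : (l' ++ c).prod = l'.prod * c.prod := List.prod_append
      obtain ⟨b, hb, hb'⟩ := exists_mem_of_len_le hu (P.N.mul_mem hl'N hcN) hlen2
      rw [← hLprod] at hb'
      obtain ⟨l₁, t, l₂, hL, hex⟩ := exchange hu hb (l' ++ c) hLw hb'
      rw [hLprod] at hex
      have caseA : ∀ a' : List G, l₁ = l' ++ a' → c = a' ++ t :: l₂ → False := by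
        intro a' h₁ h₂
        have hy : l'.prod⁻¹ * u * l'.prod ∈ WI P I := by
          have h1 : l'.prod ∈ WI P I := word_mem_WI hw.tail
          have h2 : u ∈ WI P I :=
            (le_sup_left : Subgroup.closure I ≤ WI P I) (Subgroup.subset_closure hw.head)
          exact (WI P I).mul_mem ((WI P I).mul_mem ((WI P I).inv_mem h1) h2) h1
        have hm := hmin _ hy
        have hA1 : Ap P (l'.prod⁻¹ * u * l'.prod * x) (l'.prod⁻¹ * u * l'.prod * c.prod) :=
          Ap.mul_left _ hxc
        have hA2 : Ap P (l'.prod⁻¹ * u * l'.prod * c.prod) (a' ++ l₂).prod := by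
          unfold Ap
          rw [h₁, List.prod_append (l₁ := l' ++ a'), List.prod_append (l₁ := l')] at hex
          rw [List.prod_append (l₁ := a')]
          have e : (l'.prod⁻¹ * u * l'.prod * c.prod)⁻¹ * (a'.prod * l₂.prod) =
              (u * (l'.prod * c.prod))⁻¹ * (l'.prod * a'.prod * l₂.prod) := by group
          rw [e]
          exact hex
        have h3 := (hA1.trans hA2).len
        have hw' : IsWordIn P.S (a' ++ l₂) := by
          intro y hy
          apply hc.1 y
          rw [h₂]
          rcases List.mem_append.1 hy with hy | hy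
          · exact List.mem_append_left _ hy
          · exact List.mem_append_right _ (List.mem_cons_of_mem _ hy)
        have h4 := len_prod_le (P := P) hw'
        have h5 : c.length = (a' ++ l₂).length + 1 := by
          rw [h₂]
          simp
          omega
        omega
      rcases List.append_eq_append_iff.1 hL with ⟨a', ha₁, ha₂⟩ | ⟨c', hc₁, hc₂⟩
      · exact caseA a' ha₁ ha₂
      · cases c' with
        | nil =>
          simp only [List.nil_append] at hc₂
          exact caseA [] (by simpa using hc₁.symm) (by simpa using hc₂.symm)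
        | cons t' c'' =>
          simp only [List.cons_append, List.cons.injEq] at hc₂
          obtain ⟨rfl, rfl⟩ := hc₂
          -- the deleted letter is in `l'`
          have hz : IsWordIn P.S (l₁ ++ c'') := by
            intro y hy
            apply hwS' y
            rw [hc₁]
            rcases List.mem_append.1 hy with hy | hy
            · exact List.mem_append_left _ hy
            · exact List.mem_append_right _ (List.mem_cons_of_mem _ hy)
          have hzN := hz.prod_mem_N subset_rfl
          have hex' : (u * l'.prod)⁻¹ * (l₁ ++ c'').prod ∈ P.B := by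
            have e1 : (l₁ ++ c'' ++ c).prod = (l₁ ++ c'').prod * c.prod := List.prod_append
            have e2 : l₁ ++ (c'' ++ c) = l₁ ++ c'' ++ c := by simp
            rw [e2, e1] at hex
            have hw0 : (u * l'.prod)⁻¹ * (l₁ ++ c'').prod ∈ P.N :=
              P.N.mul_mem (P.N.inv_mem (P.N.mul_mem (S_mem_N hu) hl'N)) hzN
            have h6 := T_conj hcN (by
              have e3 : c.prod⁻¹ * ((u * l'.prod)⁻¹ * (l₁ ++ c'').prod) * c.prod =
                  (u * (l'.prod * c.prod))⁻¹ * ((l₁ ++ c'').prod * c.prod) := by group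
              rw [e3]
              exact hex) (P.N.mul_mem (P.N.mul_mem (P.N.inv_mem hcN) hw0) hcN)
            have e4 : c.prod * (c.prod⁻¹ * ((u * l'.prod)⁻¹ * (l₁ ++ c'').prod) * c.prod) * c.prod⁻¹ =
                (u * l'.prod)⁻¹ * (l₁ ++ c'').prod := by group
            rwa [e4] at h6
          have h7 := len_congr hex'
          have h8 := len_prod_le (P := P) hz
          have h9 := hred.2
          simp only [List.prod_cons, List.length_cons] at h9
          have h10 : l'.length = (l₁ ++ c'').length + 1 := by
            rw [hc₁]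
            simp
            omega
          omega

/-- Existence of a minimal element in a coset. -/
theorem exists_min {I : Set G} (n : G) :
    ∃ y ∈ WI P I, ∀ y' ∈ WI P I, len P (y * n) ≤ len P (y' * (y * n)) := by
  obtain ⟨y, hy, hmin⟩ := WellFounded.has_min (measure (fun y : G => len P (y * n))).wf
    {y | y ∈ WI P I} ⟨1, (WI P I).one_mem⟩
  refine ⟨y, hy, fun y' hy' => ?_⟩
  have h := hmin (y' * y) ((WI P I).mul_mem hy' hy)
  have h2 : ¬ len P (y' * y * n) < len P (y * n) := h
  rw [mul_assoc] at h2
  omega

/-- Two descents. -/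
theorem two_descents {s t n : G} (hs : s ∈ P.S) (ht : t ∈ P.S) (hne : s ≠ t) (hn : n ∈ P.N)
    (h1 : len P (s * n) < len P n) (h2 : len P (t * n) < len P n) :
    len P (t * (s * n)) < len P (s * n) ∧
      (NC P s t → len P (s * (t * (s * n))) < len P (t * (s * n))) := by
  set I : Set G := {s, t} with hIdef
  have hI : I ⊆ P.S := by
    rintro x (rfl | rfl)
    · exact hs
    · exact ht
  have hsI : s ∈ I := Or.inl rfl
  have htI : t ∈ I := Or.inr rfl
  have hsW : s ∈ WI P I := (le_sup_left : Subgroup.closure I ≤ WI P I) (Subgroup.subset_closure hsI)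
  have htW : t ∈ WI P I := (le_sup_left : Subgroup.closure I ≤ WI P I) (Subgroup.subset_closure htI)
  obtain ⟨y₀, hy₀, hmin⟩ := exists_min (P := P) (I := I) n
  have hy₀N : y₀ ∈ P.N := WI_le_N hI hy₀
  set x := y₀ * n with hx
  have hxN : x ∈ P.N := P.N.mul_mem hy₀N hn
  have hD := deodhar hI hxN hmin
  obtain ⟨d, hdw, hdr, hdB⟩ := exists_reduced_of_mem hI ((WI P I).inv_mem hy₀)
  rw [inv_inv] at hdB
  have hdN : d.prod ∈ P.N := hdr.1.prod_mem_N subset_rfl
  -- `n ≈ w x`
  have hnA : Ap P n (d.prod * x) := by
    unfold Ap
    have e : n⁻¹ * (d.prod * x) = n⁻¹ * (y₀⁻¹ * (y₀ * d.prod) * y₀) * n := by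
      rw [hx]
      group
    rw [e]
    refine T_conj' hn (T_conj' hy₀N hdB (P.N.mul_mem hy₀N hdN)) ?_
    exact P.N.mul_mem (P.N.mul_mem (P.N.inv_mem hy₀N) (P.N.mul_mem hy₀N hdN)) hy₀N
  have hlen_n : len P n = d.length + len P x := by rw [hnA.len]; exact hD d hdw hdr
  -- the descents of `w`
  have hdesc : ∀ u ∈ I, len P (u * n) < len P n → len P (u * d.prod) < len P d.prod := by
    intro u hu hl
    rcases len_dich (hI hu) hdN with h | h
    · exfalso
      have hr : IsReducedWord P (u :: d) := by
        refine ⟨?_, ?_⟩
        · intro z hz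
          rcases List.mem_cons.1 hz with rfl | hz
          · exact hI hu
          · exact hdr.1 z hz
        · simp only [List.prod_cons, List.length_cons]
          rw [h, hdr.2]
      have hw' : IsWordIn I (u :: d) := by
        intro z hz
        rcases List.mem_cons.1 hz with rfl | hz
        · exact hu
        · exact hdw z hz
      have h3 := hD _ hw' hr
      simp only [List.prod_cons, List.length_cons] at h3
      have h4 : len P (u * n) = len P (u * (d.prod * x)) := (Ap.mul_left u hnA).len
      rw [h4, ← mul_assoc, h3] at hl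
      omega
    · omega
  have hds := hdesc s hsI h1
  have hdt := hdesc t htI h2
  -- a reduced word for `s w`
  have hsw : s * d.prod ∈ WI P I := (WI P I).mul_mem hsW (word_mem_WI hdw)
  obtain ⟨e, hew, her, heB⟩ := exists_reduced_of_mem hI hsw
  have heN : e.prod ∈ P.N := her.1.prod_mem_N subset_rfl
  have hswN : s * d.prod ∈ P.N := P.N.mul_mem (S_mem_N hs) hdN
  have helen : e.length + 1 = d.length := by
    have h3 := (len_congr heB)
    rw [her.2] at h3
    rw [← h3, ← hdr.2]
    rcases len_dich hs hdN with h | h <;> omega
  -- `s n ≈ e x`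
  have hsnA : Ap P (s * n) (e.prod * x) := by
    have h3 : Ap P (s * n) (s * (d.prod * x)) := Ap.mul_left s hnA
    have h4 : Ap P (s * d.prod * x) (e.prod * x) := Ap.mul_right hswN heN hxN heB
    rw [mul_assoc] at h4
    exact h3.trans h4
  have hlen_sn : len P (s * n) = e.length + len P x := by rw [hsnA.len]; exact hD e hew her
  cases e with
  | nil =>
    exfalso
    have h3 : d.length = 1 := by simpa using helen.symm
    -- `w ≈ s`
    have h4 : Ap P (t * d.prod) (t * s) := by
      apply Ap.mul_left
      have h5 : Ap P (s * (s * d.prod)) (s * ([] : List G).prod) := Ap.mul_left s heB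
      have h6 := (Ap_SS hs hdN).symm.trans h5
      simpa using h6
    have h5 := len_S_mul_S (P := P) ht hs (Ne.symm hne)
    have h6 := h4.len
    rw [hdr.2] at hdt
    omega
  | cons a e' =>
    have ha : a ∈ I := hew.head
    have hae' : IsWordIn P.S e' := fun z hz => hI (hew.tail z hz)
    have he'N : e'.prod ∈ P.N := hae'.prod_mem_N subset_rfl
    have hlenE := her.2
    simp only [List.prod_cons, List.length_cons] at hlenE
    have hsnA' : Ap P (s * n) (a * (e'.prod * x)) := by
      have h3 := hsnA
      simp only [List.prod_cons] at h3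
      rwa [mul_assoc] at h3
    have hlen_e' : len P (e'.prod * x) = e'.length + len P x := hD e' hew.tail her.tail
    rcases ha with ha | ha
    · -- `a = s`: impossible
      exfalso
      rw [ha] at hlenE heB
      simp only [List.prod_cons] at heB
      have h3 : d.prod⁻¹ * e'.prod ∈ P.B := by
        have e1 : d.prod⁻¹ * e'.prod = (s * d.prod)⁻¹ * (s * e'.prod) := by group
        rw [e1]
        exact heB
      have h4 := len_congr h3
      have h5 := len_prod_le (P := P) hae'
      rw [hdr.2] at h4
      simp only [List.length_cons] at helen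
      omega
    · -- `a = t`
      have ha' : a = t := ha
      rw [ha'] at hsnA' hlenE
      have hA1 : Ap P (t * (s * n)) (e'.prod * x) :=
        (Ap.mul_left t hsnA').trans (Ap_SS ht (P.N.mul_mem he'N hxN))
      refine ⟨?_, fun hNC => ?_⟩
      · rw [hA1.len, hlen_e', hlen_sn]
        simp
      · cases e' with
        | nil =>
          exfalso
          -- `w ≈ s t`
          have h3 : d.length = 2 := by simpa using helen.symm
          have hstN : s * t ∈ P.N := P.N.mul_mem (S_mem_N hs) (S_mem_N ht)
          have h4 : Ap P d.prod (s * t) := by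
            have h5 : Ap P (s * (s * d.prod)) (s * (a * ([] : List G).prod)) := by
              have := Ap.mul_left (P := P) s heB
              simpa using this
            rw [ha'] at h5
            have h6 := (Ap_SS hs hdN).symm.trans h5
            simpa using h6
          have h5 : len P (t * (s * t)) < 2 := by
            have h6 := (Ap.mul_left t h4).len
            rw [hdr.2] at hdt
            omega
          have h6 := len_S_mul_S (P := P) hs ht hne
          obtain ⟨b, hb, hb'⟩ := exists_mem_of_len_le ht hstN (by omega : len P (t * (s * t)) ≤ len P (s * t))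
          have hlw : IsWordIn P.S [s, t] := by
            intro z hz
            simp only [List.mem_cons, List.not_mem_nil, or_false] at hz
            rcases hz with rfl | rfl
            · exact hs
            · exact ht
          have hpr : ([s, t] : List G).prod = s * t := by simp
          obtain ⟨l₁, r, l₂, hL, hex⟩ := exchange (l := [s, t]) ht hb hlw (by rwa [hpr])
          rw [hpr] at hex
          have hcases : (l₁ = [] ∧ r = s ∧ l₂ = [t]) ∨ (l₁ = [s] ∧ r = t ∧ l₂ = []) := by
            cases l₁ with
            | nil =>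
              left
              simp only [List.nil_append, List.cons.injEq] at hL
              exact ⟨rfl, hL.1.symm, hL.2.symm⟩
            | cons a₁ l₁' =>
              simp only [List.cons_append, List.cons.injEq] at hL
              obtain ⟨h7, h8⟩ := hL
              cases l₁' with
              | nil =>
                right
                simp only [List.nil_append, List.cons.injEq] at h8
                exact ⟨by rw [h7], h8.1.symm, h8.2.symm⟩
              | cons a₂ l₁'' =>
                exfalso
                simp at h8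
          rcases hcases with ⟨h₁, -, h₃⟩ | ⟨h₁, -, h₃⟩
          · -- `(t s t)⁻¹ t ∈ B`
            rw [h₁, h₃] at hex
            have h7 : (s * t)⁻¹ ∈ P.B := by
              have e1 : (s * t)⁻¹ = (t * (s * t))⁻¹ * ([] ++ [t] : List G).prod := by
                simp only [List.nil_append, List.prod_singleton]
                group
              rw [e1]
              exact hex
            have h8 : s * t ∈ P.B := by simpa using P.B.inv_mem h7
            have h9 := (len_eq_zero_iff hstN).2 h8
            omega
          · -- `t s t ≈ s`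
            rw [h₁, h₃] at hex
            apply hNC
            have h7 : (t * (s * t))⁻¹ * s ∈ P.B := by simpa using hex
            have h8 := P.B.inv_mem h7
            have e1 : s * t * s⁻¹ * t⁻¹ =
                (s * (t * (s * s)⁻¹ * t⁻¹) * s⁻¹) * (s * s) * ((t * (s * t))⁻¹ * s)⁻¹ * (t * t)⁻¹ := by
              group
            rw [e1]
            have hN1 : t * (s * s)⁻¹ * t⁻¹ ∈ P.B :=
              T_conj (S_mem_N ht) (S_sq_inv_mem hs) (P.N.inv_mem (S_sq_mem_N hs))
            have hN2 : t * (s * s)⁻¹ * t⁻¹ ∈ P.N :=
              P.N.mul_mem (P.N.mul_mem (S_mem_N ht) (P.N.inv_mem (S_sq_mem_N hs))) (P.N.inv_mem (S_mem_N ht))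
            exact P.B.mul_mem (P.B.mul_mem (P.B.mul_mem (T_conj (S_mem_N hs) hN1 hN2) (P.sq_mem s hs)) h8)
              (S_sq_inv_mem ht)
        | cons a' e'' =>
          have hae'' : IsWordIn P.S e'' := fun z hz => hae' z (List.mem_cons_of_mem _ hz)
          have he''N : e''.prod ∈ P.N := hae''.prod_mem_N subset_rfl
          have hlen_e'' : len P (e''.prod * x) = e''.length + len P x := hD e'' hew.tail.tail her.tail.tail
          have ha'I : a' ∈ I := hew.tail.head
          rcases ha'I with h3 | h3
          · have h3' : a' = s := h3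
            rw [h3'] at hA1 hlen_e'
            have hA2 : Ap P (s * (t * (s * n))) (e''.prod * x) := by
              have h4 := Ap.mul_left s hA1
              simp only [List.prod_cons] at h4
              rw [mul_assoc] at h4
              exact h4.trans (Ap_SS hs (P.N.mul_mem he''N hxN))
            rw [hA2.len, hA1.len, hlen_e'', hlen_e']
            simp
          · exfalso
            have h3' : a' = t := h3
            rw [h3'] at hlenE
            simp only [List.prod_cons, List.length_cons] at hlenE
            rw [len_S_mul_S_mul ht he''N] at hlenE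
            have h5 := len_prod_le (P := P) hae''
            omega

/-! ### The walk -/

/-- The good words: reduced, with a unique left descent. -/
def Good (P : Cfsg.BNPair G) : List G → Prop
  | [] => True
  | s :: l => Good P l ∧ IsReducedWord P (s :: l) ∧
      ∀ t ∈ P.S, len P (t * (s * l.prod)) < len P (s * l.prod) → t = s

theorem exists_good (hne : P.S.Nonempty)
    (hdeg : ∀ b ∈ P.S, ∀ a : G, ∃ c ∈ P.S, c ≠ a ∧ NC P c b) (k : ℕ) :
    ∃ l : List G, Good P l ∧ l ≠ [] ∧ l.length = k + 1 := by
  induction k with
  | zero =>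
    obtain ⟨s, hs⟩ := hne
    refine ⟨[s], ⟨trivial, ?_, ?_⟩, by simp, rfl⟩
    · refine ⟨?_, ?_⟩
      · intro z hz
        rw [List.mem_singleton] at hz
        exact hz ▸ hs
      · simpa using len_S hs
    · intro t ht h
      simp only [List.prod_nil, mul_one] at h
      rw [len_S hs] at h
      have h0 : len P (t * s) = 0 := by omega
      have h1 := (len_eq_zero_iff (P.N.mul_mem (S_mem_N ht) (S_mem_N hs))).1 h0
      apply P.inj t ht s hs
      have e : t⁻¹ * s = (t * t)⁻¹ * (t * s) := by group
      rw [e]
      exact P.B.mul_mem (S_sq_inv_mem ht) h1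
  | succ k ih =>
    obtain ⟨l, hg, hne', hlen⟩ := ih
    cases l with
    | nil => exact absurd rfl hne'
    | cons s l' =>
      obtain ⟨hg', hred, huniq⟩ := hg
      have hs : s ∈ P.S := hred.1.head
      -- the new letter
      obtain ⟨r, hr, hra, hNC⟩ := hdeg s hs (l'.head? |>.getD 1)
      have hrs : r ≠ s := hNC.ne
      have hwN : (s :: l').prod ∈ P.N := hred.1.prod_mem_N subset_rfl
      have hw'N : l'.prod ∈ P.N := hred.1.tail.prod_mem_N subset_rfl
      simp only [List.prod_cons] at hwN
      refine ⟨r :: s :: l', ⟨⟨hg', hred, huniq⟩, ?_, ?_⟩, by simp, by simpa using hlen⟩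
      · have h1 : len P (r * (s * l'.prod)) = len P (s * l'.prod) + 1 := by
          rcases len_dich hr hwN with h | h
          · exact h
          · exact absurd (huniq r hr (by omega)) hrs
        refine ⟨?_, ?_⟩
        · intro z hz
          rcases List.mem_cons.1 hz with rfl | hz
          · exact hr
          · exact hred.1 z hz
        · have h2 := hred.2
          simp only [List.prod_cons, List.length_cons] at h2 ⊢
          omega
      · intro t ht h
        simp only [List.prod_cons] at h
        by_contra htr
        have hrN : r * (s * l'.prod) ∈ P.N := P.N.mul_mem (S_mem_N hr) hwN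
        have hA0 : Ap P (r * (r * (s * l'.prod))) (s * l'.prod) := Ap_SS hr hwN
        have hdr : len P (r * (r * (s * l'.prod))) < len P (r * (s * l'.prod)) := by
          rw [hA0.len]
          rcases len_dich hr hwN with h' | h'
          · omega
          · exact absurd (huniq r hr (by omega)) hrs
        obtain ⟨hc1, hc2⟩ := two_descents hr ht (Ne.symm htr) hrN hdr h
        have hts : t = s := by
          apply huniq t ht
          have h3 := (Ap.mul_left t hA0).len
          rw [← hA0.len, ← h3]
          exact hc1
        subst hts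
        have hc3 := hc2 hNC
        have hA1 : Ap P (t * (r * (r * (t * l'.prod)))) l'.prod :=
          (Ap.mul_left t hA0).trans (Ap_SS hs hw'N)
        have hA2 := Ap.mul_left r hA1
        rw [hA2.len, hA1.len] at hc3
        -- a descent of the shorter word
        cases l' with
        | nil =>
          simp only [List.prod_nil] at hc3
          rw [len_one] at hc3
          omega
        | cons s' l'' =>
          obtain ⟨_, _, huniq'⟩ := hg'
          have h4 := huniq' r hr (by simpa using hc3)
          apply hra
          rw [h4]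
          simp

/-- The diagram of a finite `(B,N)`-pair has no subgraph of minimal degree two. -/
theorem no_min_degree_two [Finite G] (hne : P.S.Nonempty)
    (hdeg : ∀ b ∈ P.S, ∀ a : G, ∃ c ∈ P.S, c ≠ a ∧ NC P c b) : False := by
  have hfin : (Set.range (len P)).Finite := Set.toFinite _
  obtain ⟨M, hM⟩ := hfin.bddAbove
  obtain ⟨l, hg, hne', hlen⟩ := exists_good hne hdeg M
  cases l with
  | nil => exact hne' rfl
  | cons s l' =>
    have h1 := hg.2.1.2
    have h2 : len P (s :: l').prod ≤ M := hM ⟨_, rfl⟩
    omega

end Cfsg.Agent.Lib.PMin29
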