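import Mathlib
import Cfsg.Agent.Lib.PMinDefs29
import Cfsg.Agent.Lib.PMinWalk29

/-!
# Automorphisms of a `(B,N)`-pair that preserve `B`

Their action on the nodes, the invariance of the Coxeter diagram, irreducibility of the pair in a
simple group, and the bound on the rank when the nodes are permuted transitively.
-/

set_option autoImplicit false
set_option linter.unusedSectionVars false
set_option linter.unusedVariables false

namespace Cfsg.Agent.Lib.PMin29

open Cfsg Cfsg.Agent.Lib.BNPair Cfsg.Agent.Lib.BNPair2 Cfsg.Agent.Lib.LTAut33 Cfsg.Agent.Lib.OverU29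

variable {G : Type*} [Group G]

section nodes

variable {P P' : Cfsg.BNPair G}

theorem singleton_sub {a : G} (ha : a ∈ P.S) : ({a} : Set G) ⊆ P.S := Set.singleton_subset_iff.2 ha

theorem parabolic_empty : P.parabolic ∅ = P.B := by
  unfold Cfsg.BNPair.parabolic
  simp

theorem parabolic_singleton_ne {a : G} (ha : a ∈ P.S) : P.parabolic {a} ≠ P.B := by
  intro h
  apply S_not_mem_B ha
  rw [← h]
  exact mem_parabolic_of_mem rfl

theorem parabolic_singleton_inj {a b : G} (ha : a ∈ P.S) (hb : b ∈ P.S)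
    (h : P.parabolic {a} = P.parabolic {b}) : a = b := by
  have := parabolic_injective (singleton_sub ha) (singleton_sub hb) h
  exact Set.singleton_injective this

/-- An overgroup of `B` that is not `B` contains a minimal parabolic. -/
theorem exists_node_le {Q : Subgroup G} (hQ : P.B ≤ Q) (hne : Q ≠ P.B) : ∃ a ∈ P.S, a ∈ Q := by
  by_contra hcon
  push Not at hcon
  apply hne
  have h := eq_parabolic hQ
  have h2 : {s | s ∈ P.S ∧ s ∈ Q} = (∅ : Set G) := by
    ext s
    simp only [Set.mem_setOf_eq, Set.mem_empty_iff_false, iff_false, not_and]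
    exact hcon s
  rw [h2, parabolic_empty] at h
  exact h

/-- An overgroup of `B` inside a minimal parabolic is `B` or the parabolic. -/
theorem eq_of_le_parabolic {Q : Subgroup G} {a : G} (ha : a ∈ P.S) (hQ : P.B ≤ Q)
    (hle : Q ≤ P.parabolic {a}) (hne : Q ≠ P.B) : Q = P.parabolic {a} := by
  obtain ⟨c, hc, hcQ⟩ := exists_node_le hQ hne
  have hca : c ∈ ({a} : Set G) := S_mem_of_mem_parabolic (singleton_sub ha) hc (hle hcQ)
  have hca' : c = a := hca
  subst hca'
  apply le_antisymm hle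
  unfold Cfsg.BNPair.parabolic
  refine sup_le hQ ?_
  rw [Subgroup.closure_le]
  intro x hx
  have : x = c := hx
  rw [this]
  exact hcQ

/-- An isomorphism that takes one Borel subgroup to another takes minimal parabolics to minimal
parabolics. -/
theorem map_parabolic_node (σ : G ≃* G) (h : P'.B.map σ.toMonoidHom = P.B) {a' : G} (ha' : a' ∈ P'.S) :
    ∃ a ∈ P.S, (P'.parabolic {a'}).map σ.toMonoidHom = P.parabolic {a} := by
  set Q := (P'.parabolic {a'}).map σ.toMonoidHom with hQ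
  have hBQ : P.B ≤ Q := by
    rw [← h]
    exact Subgroup.map_mono (B_le_parabolic _)
  have hne : Q ≠ P.B := by
    intro hQB
    apply parabolic_singleton_ne (P := P') ha'
    have : (P'.parabolic {a'}).map σ.toMonoidHom = P'.B.map σ.toMonoidHom := by rw [h, ← hQB]
    exact Subgroup.map_injective (f := σ.toMonoidHom) σ.injective this
  obtain ⟨a, ha, haQ⟩ := exists_node_le hBQ hne
  refine ⟨a, ha, ?_⟩
  -- pull back the minimal parabolic
  set R := (P.parabolic {a}).comap σ.toMonoidHom with hR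
  have hBR : P'.B ≤ R := by
    intro b hb
    show σ b ∈ P.parabolic {a}
    apply B_le_parabolic
    rw [← h]
    exact ⟨b, hb, rfl⟩
  have hRle : R ≤ P'.parabolic {a'} := by
    intro x hx
    have h1 : σ x ∈ P.parabolic {a} := hx
    have h2 : P.parabolic {a} ≤ Q := by
      unfold Cfsg.BNPair.parabolic
      refine sup_le hBQ ?_
      rw [Subgroup.closure_le]
      intro y hy
      have : y = a := hy
      rw [this]
      exact haQ
    obtain ⟨y, hy, e⟩ := h2 h1
    have : y = x := σ.injective e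
    exact this ▸ hy
  have hRne : R ≠ P'.B := by
    intro hRB
    apply parabolic_singleton_ne (P := P) ha
    apply le_antisymm _ (B_le_parabolic _)
    intro x hx
    obtain ⟨y, rfl⟩ := σ.surjective x
    have : y ∈ R := hx
    rw [hRB] at this
    rw [← h]
    exact ⟨y, this, rfl⟩
  have hReq := eq_of_le_parabolic ha' hBR hRle hRne
  rw [hQ, ← hReq, hR]
  ext x
  constructor
  · rintro ⟨y, hy, rfl⟩
    exact hy
  · intro hx
    obtain ⟨y, rfl⟩ := σ.surjective x
    exact ⟨y, hx, rfl⟩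

end nodes

section diagram

variable {P : Cfsg.BNPair G}

/-- The minimal parabolics commute, as sets. -/
def IsComm (A B : Subgroup G) : Prop :=
  ∀ x ∈ A, ∀ y ∈ B, ∃ u ∈ A, ∃ v ∈ B, y * x = u * v

theorem isComm_of_not_NC {a b : G} (ha : a ∈ P.S) (hb : b ∈ P.S) (h : ¬ NC P a b) :
    IsComm (P.parabolic {a}) (P.parabolic {b}) := by
  have h' : a * b * a⁻¹ * b⁻¹ ∈ P.B := by
    by_contra h2
    exact h h2
  have hc := comm_conv ha hb h'
  have hdc : dc P (b * a) = dc P (a * b) := by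
    apply dc_eq_dc_of_inv_mul_mem
    have e : (b * a)⁻¹ * (a * b) = a⁻¹ * b⁻¹ * a * b := by group
    rw [e]
    exact hc
  intro x hx y hy
  have hx' : x ∈ (P.parabolic {a} : Set G) := hx
  have hy' : y ∈ (P.parabolic {b} : Set G) := hy
  rw [coe_parabolic_singleton ha] at hx'
  rw [coe_parabolic_singleton hb] at hy'
  rcases hx' with hx' | hx'
  · exact ⟨1, Subgroup.one_mem _, y * x, Subgroup.mul_mem _ hy (B_le_parabolic _ hx'), by simp⟩
  · rcases hy' with hy' | hy'
    · exact ⟨y * x, Subgroup.mul_mem _ (B_le_parabolic _ hy') hx, 1, Subgroup.one_mem _, by simp⟩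
    · obtain ⟨c₁, hc₁, c₂, hc₂, rfl⟩ := mem_dc.1 hx'
      obtain ⟨d₁, hd₁, d₂, hd₂, rfl⟩ := mem_dc.1 hy'
      rcases T1 (x := a) hb (S_mem_N ha) (P.B.mul_mem hd₂ hc₁) (self_mem_dc a) with h1 | h1
      · rw [hdc] at h1
        obtain ⟨e₁, he₁, e₂, he₂, e⟩ := mem_dc.1 h1
        refine ⟨d₁ * e₁ * a, ?_, b * e₂ * c₂, ?_, ?_⟩
        · exact Subgroup.mul_mem _ (B_le_parabolic _ (P.B.mul_mem hd₁ he₁)) (mem_parabolic_of_mem rfl)
        · exact Subgroup.mul_mem _ (Subgroup.mul_mem _ (mem_parabolic_of_mem rfl) (B_le_parabolic _ he₂))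
            (B_le_parabolic _ hc₂)
        · have e3 : d₁ * b * d₂ * (c₁ * a * c₂) = d₁ * (b * (d₂ * c₁) * a) * c₂ := by group
          rw [e3, e]
          group
      · refine ⟨d₁ * b * d₂ * (c₁ * a * c₂), ?_, 1, Subgroup.one_mem _, by simp⟩
        have e3 : d₁ * b * d₂ * (c₁ * a * c₂) = d₁ * (b * (d₂ * c₁) * a) * c₂ := by group
        rw [e3]
        exact Subgroup.mul_mem _ (Subgroup.mul_mem _ (B_le_parabolic _ hd₁)
          (mem_of_mem_dc (B_le_parabolic _) h1 (mem_parabolic_of_mem rfl))) (B_le_parabolic _ hc₂)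

theorem not_isComm_of_NC {a b : G} (ha : a ∈ P.S) (hb : b ∈ P.S) (h : NC P a b) :
    ¬ IsComm (P.parabolic {a}) (P.parabolic {b}) := by
  intro hC
  have hab : a ≠ b := h.ne
  obtain ⟨u, hu, v, hv, e⟩ := hC a (mem_parabolic_of_mem rfl) b (mem_parabolic_of_mem rfl)
  have hbaN : b * a ∈ P.N := P.N.mul_mem (S_mem_N hb) (S_mem_N ha)
  have hlen : len P (b * a) = 2 := len_S_mul_S hb ha (Ne.symm hab)
  have hu' : u ∈ (P.parabolic {a} : Set G) := hu
  have hv' : v ∈ (P.parabolic {b} : Set G) := hv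
  rw [coe_parabolic_singleton ha] at hu'
  rw [coe_parabolic_singleton hb] at hv'
  -- the element `b a` lies in a small double coset
  have key : ∀ n ∈ P.N, len P n < 2 → b * a ∉ dc P n := by
    intro n hn hl hmem
    have h1 := inv_mul_mem_of_dc_eq hbaN hn (dc_eq_of_mem hmem)
    have h2 := len_congr h1
    omega
  rcases hu' with hu' | hu'
  · rcases hv' with hv' | hv'
    · apply key 1 P.N.one_mem (by rw [len_one]; omega)
      rw [dc_one, e]
      exact P.B.mul_mem hu' hv'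
    · apply key b (S_mem_N hb) (by rw [len_S hb]; omega)
      rw [e]
      obtain ⟨c₁, hc₁, c₂, hc₂, rfl⟩ := mem_dc.1 hv'
      exact mem_dc.2 ⟨u * c₁, P.B.mul_mem hu' hc₁, c₂, hc₂, by group⟩
  · rcases hv' with hv' | hv'
    · apply key a (S_mem_N ha) (by rw [len_S ha]; omega)
      rw [e]
      obtain ⟨c₁, hc₁, c₂, hc₂, rfl⟩ := mem_dc.1 hu'
      exact mem_dc.2 ⟨c₁, hc₁, c₂ * v, P.B.mul_mem hc₂ hv', by group⟩
    · obtain ⟨c₁, hc₁, c₂, hc₂, rfl⟩ := mem_dc.1 hu'
      obtain ⟨d₁, hd₁, d₂, hd₂, rfl⟩ := mem_dc.1 hv'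
      have e3 : c₁ * a * c₂ * (d₁ * b * d₂) = c₁ * (a * (c₂ * d₁) * b) * d₂ := by group
      rw [e3] at e
      rcases T1 (x := b) ha (S_mem_N hb) (P.B.mul_mem hc₂ hd₁) (self_mem_dc b) with h1 | h1
      · -- `b a ∈ B a b B`
        have h2 : b * a ∈ dc P (a * b) := by
          rw [e]
          exact mul_mem_dc h1 hc₁ hd₂
        have h3 := inv_mul_mem_of_dc_eq hbaN (P.N.mul_mem (S_mem_N ha) (S_mem_N hb)) (dc_eq_of_mem h2)
        apply h
        have e4 : b⁻¹ * a⁻¹ * b * a = ((b * a)⁻¹ * (a * b))⁻¹ := by group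
        have h4 : b⁻¹ * a⁻¹ * b * a ∈ P.B := by
          rw [e4]
          exact P.B.inv_mem h3
        have h5 := comm_conv' hb ha h4
        have := P.B.inv_mem h5
        have e5 : (b * a * b⁻¹ * a⁻¹)⁻¹ = a * b * a⁻¹ * b⁻¹ := by group
        rwa [e5] at this
      · apply key b (S_mem_N hb) (by rw [len_S hb]; omega)
        rw [e]
        exact mul_mem_dc h1 hc₁ hd₂

/-- An automorphism preserving `B` preserves the diagram. -/
theorem NC_map (σ : G ≃* G) {a b a' b' : G} (ha : a ∈ P.S) (hb : b ∈ P.S) (ha' : a' ∈ P.S) (hb' : b' ∈ P.S)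
    (h1 : (P.parabolic {a}).map σ.toMonoidHom = P.parabolic {a'})
    (h2 : (P.parabolic {b}).map σ.toMonoidHom = P.parabolic {b'}) (h : NC P a b) : NC P a' b' := by
  by_contra hcon
  apply not_isComm_of_NC ha hb h
  have hC := isComm_of_not_NC ha' hb' hcon
  intro x hx y hy
  have hx' : σ x ∈ P.parabolic {a'} := by
    rw [← h1]
    exact ⟨x, hx, rfl⟩
  have hy' : σ y ∈ P.parabolic {b'} := by
    rw [← h2]
    exact ⟨y, hy, rfl⟩
  obtain ⟨u, hu, v, hv, e⟩ := hC _ hx' _ hy'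
  rw [← h1] at hu
  rw [← h2] at hv
  obtain ⟨u', hu', rfl⟩ := hu
  obtain ⟨v', hv', rfl⟩ := hv
  refine ⟨u', hu', v', hv', ?_⟩
  apply σ.injective
  simpa using e

end diagram

section irreducible

variable {P : Cfsg.BNPair G}

/-- Commutation of a node with the closure of nodes. -/
theorem comm_closure {s : G} (hs : s ∈ P.S) {J' : Set G} (hJ' : J' ⊆ P.S)
    (h : ∀ s' ∈ J', s * s' * s⁻¹ * s'⁻¹ ∈ P.B) {w : G} (hw : w ∈ Subgroup.closure J') :
    w ∈ P.N ∧ s⁻¹ * w⁻¹ * s * w ∈ P.B := by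
  have hsN := S_mem_N hs
  induction hw using Subgroup.closure_induction with
  | mem x hx => exact ⟨P.subset (hJ' hx), comm_conv hs (hJ' hx) (h x hx)⟩
  | one =>
    refine ⟨P.N.one_mem, ?_⟩
    have e : s⁻¹ * (1 : G)⁻¹ * s * 1 = 1 := by group
    rw [e]
    exact P.B.one_mem
  | mul a b _ _ ha hb =>
    refine ⟨P.N.mul_mem ha.1 hb.1, ?_⟩
    have e : s⁻¹ * (a * b)⁻¹ * s * (a * b) =
        (s⁻¹ * b⁻¹ * s * b) * (b⁻¹ * (s⁻¹ * a⁻¹ * s * a) * b) := by group
    rw [e]
    refine P.B.mul_mem hb.2 (T_conj' hb.1 ha.2 ?_)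
    exact P.N.mul_mem (P.N.mul_mem (P.N.mul_mem (P.N.inv_mem hsN) (P.N.inv_mem ha.1)) hsN) ha.1
  | inv a _ ha =>
    refine ⟨P.N.inv_mem ha.1, ?_⟩
    have e : s⁻¹ * (a⁻¹)⁻¹ * s * a⁻¹ = a * (s⁻¹ * a⁻¹ * s * a)⁻¹ * a⁻¹ := by group
    rw [e]
    refine T_conj ha.1 (P.B.inv_mem ha.2) (P.N.inv_mem ?_)
    exact P.N.mul_mem (P.N.mul_mem (P.N.mul_mem (P.N.inv_mem hsN) (P.N.inv_mem ha.1)) hsN) ha.1

/-- The product decomposition in the reducible case. -/
theorem mem_prod_of_reducible [Finite G] {J J' : Set G} (hJ : J ⊆ P.S) (hJ' : J' ⊆ P.S)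
    (hS : P.S ⊆ J ∪ J') (hc : ∀ s ∈ J, ∀ s' ∈ J', s * s' * s⁻¹ * s'⁻¹ ∈ P.B) (g : G) :
    ∃ q ∈ P.parabolic J', ∃ m ∈ P.parabolic J, g = q * m := by
  -- the stabilizer of the product set
  let Z : Set G := {g | ∃ q ∈ P.parabolic J', ∃ m ∈ P.parabolic J, g = q * m}
  let sm : Submonoid G :=
    { carrier := {x | ∀ z ∈ Z, x * z ∈ Z}
      one_mem' := fun z hz => by simpa using hz
      mul_mem' := fun {x y} hx hy z hz => by
        have := hx _ (hy z hz)
        simpa [mul_assoc] using this }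
  let H : Subgroup G :=
    { sm with
      inv_mem' := fun {x} hx => by
        have h1 : x⁻¹ = x ^ (orderOf x - 1) := by
          rw [eq_comm]
          apply eq_inv_of_mul_eq_one_left
          rw [← pow_succ, Nat.sub_add_cancel (orderOf_pos x)]
          exact pow_orderOf_eq_one x
        have h2 : x ^ (orderOf x - 1) ∈ sm := sm.pow_mem hx _
        show x⁻¹ ∈ sm
        rw [h1]
        exact h2 }
  have hBH : P.B ≤ H := by
    intro b hb z hz
    obtain ⟨q, hq, m, hm, rfl⟩ := hz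
    exact ⟨b * q, Subgroup.mul_mem _ (B_le_parabolic _ hb) hq, m, hm, by group⟩
  have hSH : ∀ s ∈ P.S, s ∈ H := by
    intro s hs z hz
    obtain ⟨q, hq, m, hm, rfl⟩ := hz
    rcases hS hs with hsJ | hsJ'
    · -- `s ∈ J`
      obtain ⟨w, hw, hqw⟩ := (mem_parabolic_iff hJ').1 hq
      obtain ⟨hwN, hcw⟩ := comm_closure hs hJ' (fun s' hs' => hc s hsJ s' hs') hw
      obtain ⟨c₁, hc₁, c₂, hc₂, rfl⟩ := mem_dc.1 hqw
      rcases T1 (x := w) hs hwN hc₁ (self_mem_dc w) with h1 | h1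
      · have hdc : dc P (s * w) = dc P (w * s) := by
          apply dc_eq_dc_of_inv_mul_mem
          obtain ⟨_, hcw'⟩ := comm_closure hs hJ' (fun s' hs' => hc s hsJ s' hs')
            (Subgroup.inv_mem _ hw)
          have e : (s * w)⁻¹ * (w * s) = w⁻¹ * (s⁻¹ * (w⁻¹)⁻¹ * s * w⁻¹) * w := by
            group
          rw [e]
          refine T_conj' hwN hcw' ?_
          exact P.N.mul_mem (P.N.mul_mem (P.N.mul_mem (P.N.inv_mem (S_mem_N hs)) (P.N.inv_mem (P.N.inv_mem hwN)))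
            (S_mem_N hs)) (P.N.inv_mem hwN)
        rw [hdc] at h1
        obtain ⟨e₁, he₁, e₂, he₂, e⟩ := mem_dc.1 h1
        refine ⟨e₁ * w, ?_, s * e₂ * c₂ * m, ?_, ?_⟩
        · exact Subgroup.mul_mem _ (B_le_parabolic _ he₁) (closure_le_parabolic _ hw)
        · exact Subgroup.mul_mem _ (Subgroup.mul_mem _ (Subgroup.mul_mem _ (mem_parabolic_of_mem hsJ)
            (B_le_parabolic _ he₂)) (B_le_parabolic _ hc₂)) hm
        · have e3 : s * (c₁ * w * c₂ * m) = (s * c₁ * w) * c₂ * m := by group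
          rw [e3, e]
          group
      · obtain ⟨e₁, he₁, e₂, he₂, e⟩ := mem_dc.1 h1
        refine ⟨e₁ * w * e₂ * c₂, ?_, m, hm, ?_⟩
        · exact Subgroup.mul_mem _ (Subgroup.mul_mem _ (Subgroup.mul_mem _ (B_le_parabolic _ he₁)
            (closure_le_parabolic _ hw)) (B_le_parabolic _ he₂)) (B_le_parabolic _ hc₂)
        · have e3 : s * (c₁ * w * c₂ * m) = (s * c₁ * w) * c₂ * m := by group
          rw [e3, e]
    · exact ⟨s * q, Subgroup.mul_mem _ (mem_parabolic_of_mem hsJ') hq, m, hm, by group⟩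
  have htop : H = ⊤ := by
    rw [eq_top_iff, ← parabolic_S (P := P)]
    unfold Cfsg.BNPair.parabolic
    refine sup_le hBH ?_
    rw [Subgroup.closure_le]
    exact hSH
  have h1 : (1 : G) ∈ Z := ⟨1, Subgroup.one_mem _, 1, Subgroup.one_mem _, by simp⟩
  have hg : g ∈ H := by rw [htop]; trivial
  have h2 := hg 1 h1
  rw [mul_one] at h2
  exact h2

/-- In a simple group, a `(B,N)`-pair with the radical property is irreducible. -/
theorem irreducible_of_rad [Finite G] [IsSimpleGroup G] {U : Subgroup G} {p : ℕ} (hU : SplitU P U p)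
    (hR : RadProp P U) : P.Irreducible := by
  intro J hJ hne hne'
  by_contra hcon
  push Not at hcon
  set J' := P.S \ J with hJ'def
  have hJ' : J' ⊆ P.S := Set.diff_subset
  have hS : P.S ⊆ J ∪ J' := by
    intro s hs
    by_cases h : s ∈ J
    · exact Or.inl h
    · exact Or.inr ⟨hs, h⟩
  have hMtop : P.parabolic J ≠ ⊤ := by
    intro h
    obtain ⟨s', hs'⟩ := hne'
    have h1 : s' ∈ P.parabolic J := by rw [h]; trivial
    exact hs'.2 (S_mem_of_mem_parabolic hJ hs'.1 h1)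
  obtain ⟨R, hR1, hRU, hRn⟩ := hR _ (B_le_parabolic J) hMtop
  -- the normal closure of `R` lies in the other parabolic
  have hnc : Subgroup.normalClosure (R : Set G) ≤ P.parabolic J' := by
    unfold Subgroup.normalClosure
    rw [Subgroup.closure_le]
    intro x hx
    obtain ⟨r, hr, hconj⟩ := Group.mem_conjugatesOfSet_iff.1 hx
    obtain ⟨g, rfl⟩ := isConj_iff.1 hconj
    obtain ⟨q, hq, m, hm, rfl⟩ := mem_prod_of_reducible hJ hJ' hS (fun s hs s' hs' => hcon s hs s' hs') g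
    have h1 : m * r * m⁻¹ ∈ R := hRn m hm r hr
    have h2 : m * r * m⁻¹ ∈ P.parabolic J' := B_le_parabolic _ (hU.le (hRU h1))
    have e : q * m * r * (q * m)⁻¹ = q * (m * r * m⁻¹) * q⁻¹ := by group
    show q * m * r * (q * m)⁻¹ ∈ P.parabolic J'
    rw [e]
    exact Subgroup.mul_mem _ (Subgroup.mul_mem _ hq h2) (Subgroup.inv_mem _ hq)
  have hN : (Subgroup.normalClosure (R : Set G)).Normal := inferInstance
  rcases IsSimpleGroup.eq_bot_or_eq_top_of_normal _ hN with h | h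
  · apply hR1
    rw [eq_bot_iff, ← h]
    exact Subgroup.le_normalClosure
  · obtain ⟨s, hs⟩ := hne
    have h1 : s ∈ P.parabolic J' := hnc (by rw [h]; trivial)
    exact (S_mem_of_mem_parabolic hJ' (hJ hs) h1).2 hs

end irreducible

section rank

variable {P : Cfsg.BNPair G}

/-- If the nodes are permuted transitively by automorphisms preserving `B`, and `P` is irreducible,
then the rank is at most two. -/
theorem not_three_nodes [Finite G] (hirr : P.Irreducible)
    (hT : ∀ a ∈ P.S, ∀ b ∈ P.S, ∃ σ : G ≃* G, P.B.map σ.toMonoidHom = P.B ∧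
      (P.parabolic {a}).map σ.toMonoidHom = P.parabolic {b})
    (f : Fin 3 → G) (hf : Function.Injective f) (hfS : ∀ i, f i ∈ P.S) : False := by
  -- a node with two neighbours
  have h01 : f 0 ≠ f 1 := fun h => absurd (hf h) (by decide)
  have h02 : f 0 ≠ f 2 := fun h => absurd (hf h) (by decide)
  have h12 : f 1 ≠ f 2 := fun h => absurd (hf h) (by decide)
  have hex : ∃ x ∈ P.S, ∃ c₁ ∈ P.S, ∃ c₂ ∈ P.S, c₁ ≠ c₂ ∧ NC P c₁ x ∧ NC P c₂ x := by
    obtain ⟨s, hs, b, hb, hNC⟩ := hirr {f 0} (singleton_sub (hfS 0)) ⟨_, rfl⟩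
      ⟨f 1, hfS 1, fun h => h01 (Eq.symm h)⟩
    have hs' : s = f 0 := hs
    subst hs'
    have hbne : b ≠ f 0 := fun h => hb.2 h
    obtain ⟨d, hd, hd'⟩ : ∃ d ∈ P.S, d ≠ f 0 ∧ d ≠ b := by
      by_cases h : f 1 = b
      · exact ⟨f 2, hfS 2, fun e => h02 e.symm, fun e => h12 (h.trans e.symm)⟩
      · exact ⟨f 1, hfS 1, fun e => h01 e.symm, h⟩
    have hJ : ({f 0, b} : Set G) ⊆ P.S := by
      rintro x (rfl | rfl)
      · exact hfS 0
      · exact hb.1
    obtain ⟨s, hs, c, hc, hNC2⟩ := hirr {f 0, b} hJ ⟨_, Or.inl rfl⟩ ⟨d, hd, by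
      rintro (h | h)
      · exact hd'.1 h
      · exact hd'.2 h⟩
    have hcne0 : c ≠ f 0 := fun h => hc.2 (Or.inl h)
    have hcneb : c ≠ b := fun h => hc.2 (Or.inr h)
    rcases hs with hs | hs
    · have hs' : s = f 0 := hs
      subst hs'
      exact ⟨f 0, hfS 0, b, hb.1, c, hc.1, Ne.symm hcneb, NC.symm hNC, NC.symm hNC2⟩
    · have hs' : s = b := hs
      subst hs'
      exact ⟨s, hb.1, f 0, hfS 0, c, hc.1, Ne.symm hcne0, hNC, NC.symm hNC2⟩
  obtain ⟨x, hx, c₁, hc₁, c₂, hc₂, hne, hN₁, hN₂⟩ := hex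
  refine no_min_degree_two ⟨x, hx⟩ ?_
  intro b hb a
  obtain ⟨σ, hσ, hσx⟩ := hT x hx b hb
  obtain ⟨d₁, hd₁, he₁⟩ := map_parabolic_node σ hσ hc₁
  obtain ⟨d₂, hd₂, he₂⟩ := map_parabolic_node σ hσ hc₂
  have hN₁' := NC_map σ hc₁ hx hd₁ hb he₁ hσx hN₁
  have hN₂' := NC_map σ hc₂ hx hd₂ hb he₂ hσx hN₂
  have hd : d₁ ≠ d₂ := by
    rintro rfl
    apply hne
    apply parabolic_singleton_inj hc₁ hc₂
    apply Subgroup.map_injective (f := σ.toMonoidHom) σ.injective
    rw [he₁, he₂]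
  by_cases h : d₁ = a
  · exact ⟨d₂, hd₂, fun e => hd (h.trans e.symm), hN₂'⟩
  · exact ⟨d₁, hd₁, h, hN₁'⟩

/-- Rank transfer. -/
theorem nodes_transfer {P P' : Cfsg.BNPair G} (σ : G ≃* G) (hσ : P'.B.map σ.toMonoidHom = P.B) {r : ℕ}
    (f : Fin r → G) (hf : Function.Injective f) (hfS : ∀ i, f i ∈ P'.S) :
    ∃ f' : Fin r → G, Function.Injective f' ∧ ∀ i, f' i ∈ P.S := by
  choose f' hf' he using fun i => map_parabolic_node σ hσ (hfS i)
  refine ⟨f', ?_, hf'⟩
  intro i j hij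
  apply hf
  apply parabolic_singleton_inj (hfS i) (hfS j)
  apply Subgroup.map_injective (f := σ.toMonoidHom) σ.injective
  rw [he, he, hij]

end rank

end Cfsg.Agent.Lib.PMin29
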