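import Mathlib
import Cfsg.Agent.Lib.PMinBN29
import Cfsg.Prelude.Def_LocalEven

/-!
# `p`-minimal groups with a normal simple subgroup that has a split `(B,N)`-pair
-/

set_option autoImplicit false
set_option linter.unusedSectionVars false
set_option linter.unusedVariables false

namespace Cfsg.Agent.Lib.PMin29

open Cfsg Cfsg.Agent.Lib.BNPair Cfsg.Agent.Lib.BNPair2 Cfsg.Agent.Lib.LTAut33 Cfsg.Agent.Lib.OverU29 Cfsg.Agent.Lib.PCore

variable {X : Type*} [Group X] [Finite X] {p : ℕ} [hp : Fact p.Prime]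
variable {K : Subgroup X} [hK : K.Normal]

/-- Conjugation on a normal subgroup. -/
noncomputable abbrev cj (K : Subgroup X) [K.Normal] (t : X) : K ≃* K := MulAut.conjNormal t

theorem cj_coe (t : X) (x : K) : ((cj K t x : K) : X) = t * x * t⁻¹ := MulAut.conjNormal_apply t x

theorem cj_mul_apply (t t' : X) (x : K) : cj K (t * t') x = cj K t (cj K t' x) := by
  apply Subtype.ext
  rw [cj_coe, cj_coe, cj_coe]
  group

theorem cj_one_apply (x : K) : cj K (1 : X) x = x := by
  apply Subtype.ext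
  rw [cj_coe]
  group

theorem map_cj_mul (A : Subgroup K) (t t' : X) :
    A.map (cj K (t * t')).toMonoidHom = (A.map (cj K t').toMonoidHom).map (cj K t).toMonoidHom := by
  ext x
  constructor
  · rintro ⟨a, ha, rfl⟩
    exact ⟨cj K t' a, ⟨a, ha, rfl⟩, (cj_mul_apply t t' a).symm⟩
  · rintro ⟨_, ⟨a, ha, rfl⟩, rfl⟩
    exact ⟨a, ha, cj_mul_apply t t' a⟩

theorem map_cj_one (A : Subgroup K) : A.map (cj K (1 : X)).toMonoidHom = A := by
  ext x
  constructor
  · rintro ⟨a, ha, rfl⟩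
    have : cj K (1 : X) a = a := cj_one_apply a
    show cj K (1 : X) a ∈ A
    rwa [this]
  · intro hx
    exact ⟨x, hx, cj_one_apply x⟩

/-- The image of a Sylow subgroup of `K`. -/
abbrev up (Q : Sylow p K) : Subgroup X := (Q : Subgroup K).map K.subtype

/-- A `p`-element normalizing a Sylow subgroup lies in it. -/
theorem mem_sylow_of_normalizes {G : Type*} [Group G] (Q : Sylow p G) {v : G}
    (hv : v ∈ Subgroup.normalizer ((Q : Subgroup G) : Set G)) {k : ℕ} (hk : v ^ p ^ k = 1) : v ∈ (Q : Subgroup G) := by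
  have h1 : IsPGroup p (Subgroup.zpowers v) := by
    rintro ⟨x, n, rfl⟩
    refine ⟨k, ?_⟩
    apply Subtype.ext
    show ((v ^ n) ^ p ^ k) = 1
    rw [← zpow_natCast, zpow_comm, zpow_natCast, hk, one_zpow]
  have h2 := h1.to_sup_of_normal_right' Q.isPGroup' ((Subgroup.zpowers_le).2 hv)
  have h3 := Q.is_maximal' h2 le_sup_right
  rw [← h3]
  exact (le_sup_left : Subgroup.zpowers v ≤ _) (Subgroup.mem_zpowers v)

theorem norm_ne_top [IsSimpleGroup K] (A : Subgroup K) (h1 : A ≠ ⊥) (h2 : A ≠ ⊤) :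
    Subgroup.normalizer ((A.map K.subtype : Subgroup X) : Set X) ≠ ⊤ := by
  intro h
  have hn : A.Normal := by
    refine ⟨fun n hn g => ?_⟩
    have hg : (g : X) ∈ Subgroup.normalizer ((A.map K.subtype : Subgroup X) : Set X) := by
      rw [h]
      trivial
    have h3 := (Subgroup.mem_normalizer_iff.1 hg n).1 ⟨n, hn, rfl⟩
    obtain ⟨k, hk, e⟩ := h3
    have : k = g * n * g⁻¹ := Subtype.ext (by simpa using e)
    exact this ▸ hk
  rcases IsSimpleGroup.eq_bot_or_eq_top_of_normal A hn with h3 | h3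
  · exact h1 h3
  · exact h2 h3

/-- The standing hypotheses. -/
structure Setup (Q : Sylow p K) (T : Sylow p X) (M : Subgroup X) : Prop where
  ut : up Q ≤ (T : Subgroup X)
  co : IsCoatom M
  tm : (T : Subgroup X) ≤ M
  uniq : ∀ M' : Subgroup X, IsCoatom M' → (T : Subgroup X) ≤ M' → M' = M

theorem exists_setup (hX : IsPMinimal p X) (Q : Sylow p K) : ∃ T M, Setup Q T M := by
  obtain ⟨T, hT⟩ := (Q.isPGroup'.map K.subtype).exists_le_sylow
  obtain ⟨_, M, ⟨hM, hTM⟩, huniq⟩ := hX T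
  exact ⟨T, M, hT, hM, hTM, fun M' h1 h2 => huniq M' ⟨h1, h2⟩⟩

namespace Setup

variable {Q : Sylow p K} {T : Sylow p X} {M : Subgroup X}

theorem conj (h : Setup Q T M) {t : X} (ht : t ∈ (T : Subgroup X)) {u : K} (hu : u ∈ (Q : Subgroup K)) :
    cj K t u ∈ (Q : Subgroup K) := by
  have hA : IsPGroup p ((T : Subgroup X).comap K.subtype) :=
    T.isPGroup'.comap_of_injective K.subtype K.subtype_injective
  have hle : (Q : Subgroup K) ≤ (T : Subgroup X).comap K.subtype := fun x hx => h.ut ⟨x, hx, rfl⟩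
  have heq := Q.is_maximal' hA hle
  rw [← heq]
  show ((cj K t u : K) : X) ∈ (T : Subgroup X)
  rw [cj_coe]
  exact (T : Subgroup X).mul_mem ((T : Subgroup X).mul_mem ht (h.ut ⟨u, hu, rfl⟩)) ((T : Subgroup X).inv_mem ht)

/-- A subgroup of `K` invariant under `T`. -/
theorem map_of_inv (A : Subgroup K) (hA : ∀ t ∈ (T : Subgroup X), ∀ a ∈ A, cj K t a ∈ A) {t : X}
    (ht : t ∈ (T : Subgroup X)) : A.map (cj K t).toMonoidHom = A := by
  apply le_antisymm
  · rintro _ ⟨a, ha, rfl⟩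
    exact hA t ht a ha
  · intro a ha
    refine ⟨cj K t⁻¹ a, hA t⁻¹ ((T : Subgroup X).inv_mem ht) a ha, ?_⟩
    show cj K t (cj K t⁻¹ a) = a
    rw [← cj_mul_apply, mul_inv_cancel, cj_one_apply]

theorem le_of_T (h : Setup Q T M) (A : Subgroup X) (hTA : (T : Subgroup X) ≤ Subgroup.normalizer (A : Set X))
    (hne : Subgroup.normalizer (A : Set X) ≠ ⊤) : Subgroup.normalizer (A : Set X) ≤ M := by
  rcases eq_top_or_exists_le_coatom (Subgroup.normalizer (A : Set X)) with h1 | ⟨M', hM', hle⟩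
  · exact absurd h1 hne
  · rw [← h.uniq M' hM' (hTA.trans hle)]
    exact hle

/-- A proper nontrivial `T`-invariant subgroup of `K` lies in `M`. -/
theorem le_of_inv [IsSimpleGroup K] (h : Setup Q T M) (A : Subgroup K) (h1 : A ≠ ⊥) (h2 : A ≠ ⊤)
    (hA : ∀ t ∈ (T : Subgroup X), ∀ a ∈ A, cj K t a ∈ A) :
    Subgroup.normalizer ((A.map K.subtype : Subgroup X) : Set X) ≤ M := by
  apply h.le_of_T _ _ (norm_ne_top A h1 h2)
  intro t ht
  apply mem_normalizer_of_conj
  rintro _ ⟨a, ha, rfl⟩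
  exact ⟨cj K t a, hA t ht a ha, cj_coe t a⟩

theorem Y_le [IsSimpleGroup K] (h : Setup Q T M) (hQ1 : (Q : Subgroup K) ≠ ⊥) (hQ2 : (Q : Subgroup K) ≠ ⊤) :
    Subgroup.normalizer ((up Q : Subgroup X) : Set X) ≤ M :=
  h.le_of_inv _ hQ1 hQ2 (fun t ht a ha => h.conj ht ha)

/-- The part of `M` in `K`. -/
abbrev NN (K : Subgroup X) (M : Subgroup X) : Subgroup K := M.comap K.subtype

theorem N_ne_top [IsSimpleGroup K] (h : Setup Q T M) (hQ1 : (Q : Subgroup K) ≠ ⊥) (hQ2 : (Q : Subgroup K) ≠ ⊤) :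
    NN K M ≠ ⊤ := by
  intro htop
  have hKM : K ≤ M := by
    intro k hk
    have : (⟨k, hk⟩ : K) ∈ NN K M := by rw [htop]; trivial
    exact this
  have hF := Sylow.normalizer_sup_eq_top (p := p) (N := K) Q
  apply h.co.1
  rw [eq_top_iff, ← hF]
  exact sup_le (h.Y_le hQ1 hQ2) hKM

theorem cj_N (h : Setup Q T M) {t : X} (ht : t ∈ M) {a : K} (ha : a ∈ NN K M) : cj K t a ∈ NN K M := by
  show ((cj K t a : K) : X) ∈ M
  rw [cj_coe]
  exact M.mul_mem (M.mul_mem ht ha) (M.inv_mem ht)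

/-- If the part of `M` in `K` normalizes `Q`, then `M` is the normalizer. -/
theorem of_N_le [IsSimpleGroup K] (h : Setup Q T M) (hQ1 : (Q : Subgroup K) ≠ ⊥) (hQ2 : (Q : Subgroup K) ≠ ⊤)
    (hN : NN K M ≤ Subgroup.normalizer ((Q : Subgroup K) : Set K)) :
    IsCoatom (Subgroup.normalizer ((up Q : Subgroup X) : Set X)) := by
  have hle : M ≤ Subgroup.normalizer ((up Q : Subgroup X) : Set X) := by
    intro m hm
    apply mem_normalizer_of_conj
    rintro _ ⟨u, hu, rfl⟩
    have hQN : (Q : Subgroup K) ≤ NN K M := by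
      intro x hx
      exact h.tm (h.ut ⟨x, hx, rfl⟩)
    have hv : cj K m u ∈ NN K M := h.cj_N hm (hQN hu)
    obtain ⟨k, hk⟩ := Q.isPGroup' ⟨u, hu⟩
    have hk' : u ^ p ^ k = 1 := by
      have := congrArg Subtype.val hk
      simpa using this
    have hk2 : (cj K m u) ^ p ^ k = 1 := by
      rw [← map_pow, hk', map_one]
    have h3 := mem_sylow_of_normalizes Q (hN hv) hk2
    exact ⟨_, h3, cj_coe m u⟩
  have heq : Subgroup.normalizer ((up Q : Subgroup X) : Set X) = M := le_antisymm (h.Y_le hQ1 hQ2) hle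
  rw [heq]
  exact h.co

end Setup

section BN

variable {Q : Sylow p K} {T : Sylow p X} {M : Subgroup X}

theorem Q_ne_bot {P : Cfsg.BNPair K} (hU : SplitU P (Q : Subgroup K) p) (hne : P.S.Nonempty) :
    (Q : Subgroup K) ≠ ⊥ := U_ne_bot hU hne

theorem Q_ne_top {P : Cfsg.BNPair K} (hU : SplitU P (Q : Subgroup K) p) (hne : P.S.Nonempty) :
    (Q : Subgroup K) ≠ ⊤ := by
  intro h
  obtain ⟨s, hs⟩ := hne
  apply S_not_mem_B hs
  apply hU.le
  rw [h]
  trivial

theorem cj_B {P : Cfsg.BNPair K} (h : Setup Q T M) (hU : SplitU P (Q : Subgroup K) p) {t : X}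
    (ht : t ∈ (T : Subgroup X)) {b : K} (hb : b ∈ P.B) : cj K t b ∈ P.B := by
  apply mem_B_of_normalizes hU
  intro u hu
  have hu' := h.conj ((T : Subgroup X).inv_mem ht) hu
  have h2 := hU.conj b hb _ hu'
  have h3 := h.conj ht h2
  have e : cj K t (b * cj K t⁻¹ u * b⁻¹) = cj K t b * u * (cj K t b)⁻¹ := by
    rw [map_mul, map_mul, map_inv, ← cj_mul_apply, mul_inv_cancel, cj_one_apply]
  rwa [e] at h3

theorem map_B {P : Cfsg.BNPair K} (h : Setup Q T M) (hU : SplitU P (Q : Subgroup K) p) {t : X}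
    (ht : t ∈ (T : Subgroup X)) : P.B.map (cj K t).toMonoidHom = P.B :=
  Setup.map_of_inv P.B (fun t ht b hb => cj_B h hU ht hb) ht

/-- The main theorem in the presence of a `(B,N)`-pair. -/
theorem bn_core [IsSimpleGroup K] {P : Cfsg.BNPair K} (h : Setup Q T M) (hU : SplitU P (Q : Subgroup K) p)
    (hne : P.S.Nonempty) :
    IsCoatom (Subgroup.normalizer ((up Q : Subgroup X) : Set X)) ∧
      ∀ a ∈ P.S, ∀ b ∈ P.S, ∃ t ∈ (T : Subgroup X),
        (P.parabolic {a}).map (cj K t).toMonoidHom = P.parabolic {b} := by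
  classical
  have hQ1 := Q_ne_bot hU hne
  have hQ2 := Q_ne_top hU hne
  have hBN : P.B ≤ Setup.NN K M := by
    intro b hb
    apply h.Y_le hQ1 hQ2
    apply mem_normalizer_of_conj
    rintro _ ⟨u, hu, rfl⟩
    exact ⟨b * u * b⁻¹, hU.conj b hb u hu, by simp⟩
  have hNtop := h.N_ne_top hQ1 hQ2
  obtain ⟨s, hs, hsN⟩ : ∃ s ∈ P.S, s ∉ Setup.NN K M := by
    by_contra hcon
    push Not at hcon
    apply hNtop
    rw [eq_top_iff, ← parabolic_S (P := P)]
    unfold Cfsg.BNPair.parabolic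
    refine sup_le hBN ?_
    rw [Subgroup.closure_le]
    intro x hx
    exact hcon x hx
  -- the orbit of `s`
  set O : Set K := {b | b ∈ P.S ∧ ∃ t ∈ (T : Subgroup X),
    (P.parabolic {s}).map (cj K t).toMonoidHom = P.parabolic {b}} with hO
  have hOS : O ⊆ P.S := fun b hb => hb.1
  have hsO : s ∈ O := ⟨hs, 1, (T : Subgroup X).one_mem, map_cj_one _⟩
  have hAinv : ∀ t ∈ (T : Subgroup X), ∀ a ∈ P.parabolic O, cj K t a ∈ P.parabolic O := by
    intro t ht
    have : P.parabolic O ≤ (P.parabolic O).comap (cj K t).toMonoidHom := by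
      unfold Cfsg.BNPair.parabolic
      refine sup_le ?_ ?_
      · intro b hb
        exact (le_sup_left : P.B ≤ P.B ⊔ Subgroup.closure O) (cj_B h hU ht hb)
      · rw [Subgroup.closure_le]
        intro o ho
        obtain ⟨ho', t₀, ht₀, e₀⟩ := ho
        obtain ⟨o', ho'S, e'⟩ := map_parabolic_node (cj K t) (map_B h hU ht) ho'
        have ho'O : o' ∈ O := ⟨ho'S, t * t₀, (T : Subgroup X).mul_mem ht ht₀, by
          rw [map_cj_mul, e₀, e']⟩
        have h1 : cj K t o ∈ P.parabolic {o'} := by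
          rw [← e']
          exact ⟨o, mem_parabolic_of_mem rfl, rfl⟩
        exact parabolic_mono (Set.singleton_subset_iff.2 ho'O) h1
    exact fun a ha => this ha
  have hAtop : P.parabolic O = ⊤ := by
    by_contra hne'
    have hAbot : P.parabolic O ≠ ⊥ := by
      intro h0
      apply hQ1
      rw [eq_bot_iff, ← h0]
      exact hU.le.trans (B_le_parabolic O)
    have h1 := h.le_of_inv _ hAbot hne' hAinv
    apply hsN
    have h2 : s ∈ P.parabolic O := mem_parabolic_of_mem hsO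
    exact h1 (Subgroup.le_normalizer ⟨s, h2, rfl⟩)
  have hOeq : O = P.S := by
    apply parabolic_injective hOS subset_rfl
    rw [hAtop, parabolic_S]
  have htrans : ∀ a ∈ P.S, ∀ b ∈ P.S, ∃ t ∈ (T : Subgroup X),
      (P.parabolic {a}).map (cj K t).toMonoidHom = P.parabolic {b} := by
    intro a ha b hb
    have ha' : a ∈ O := hOeq ▸ ha
    have hb' : b ∈ O := hOeq ▸ hb
    obtain ⟨_, t₁, ht₁, e₁⟩ := ha'
    obtain ⟨_, t₂, ht₂, e₂⟩ := hb'
    refine ⟨t₂ * t₁⁻¹, (T : Subgroup X).mul_mem ht₂ ((T : Subgroup X).inv_mem ht₁), ?_⟩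
    rw [← e₁, ← map_cj_mul, inv_mul_cancel_right, e₂]
  refine ⟨?_, htrans⟩
  -- no node lies in `M`
  have hnone : ∀ a ∈ P.S, a ∉ Setup.NN K M := by
    intro a ha haN
    obtain ⟨t, ht, e⟩ := htrans a ha s hs
    apply hsN
    have h1 : s ∈ (P.parabolic {a}).map (cj K t).toMonoidHom := by
      rw [e]
      exact mem_parabolic_of_mem rfl
    obtain ⟨a', ha', rfl⟩ := h1
    have h2 : P.parabolic {a} ≤ Setup.NN K M := by
      unfold Cfsg.BNPair.parabolic
      refine sup_le hBN ?_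
      rw [Subgroup.closure_le]
      intro x hx
      have : x = a := hx
      rw [this]
      exact haN
    exact h.cj_N (h.tm ht) (h2 ha')
  have hNB : Setup.NN K M = P.B := by
    have h1 := eq_parabolic hBN
    have h2 : {s | s ∈ P.S ∧ s ∈ Setup.NN K M} = (∅ : Set K) := by
      ext x
      constructor
      · rintro ⟨hx, hx'⟩
        exact absurd hx' (hnone x hx)
      · intro hx
        exact absurd hx (Set.notMem_empty x)
    rw [h2, parabolic_empty] at h1
    exact h1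
  apply h.of_N_le hQ1 hQ2
  rw [hNB]
  intro b hb
  exact mem_normalizer_of_conj (fun u hu => hU.conj b hb u hu)

end BN

end Cfsg.Agent.Lib.PMin29
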