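import Mathlib
import Cfsg.Agent.Lib.PMinCore29

/-!
# The consequences for `p`-minimal groups, family by family
-/

set_option autoImplicit false
set_option linter.unusedSectionVars false
set_option linter.unusedVariables false

namespace Cfsg.Agent.Lib.PMin29

open Cfsg Cfsg.Agent.Lib.BNPair Cfsg.Agent.Lib.BNPair2 Cfsg.Agent.Lib.LTAut33 Cfsg.Agent.Lib.OverU29 Cfsg.Agent.Lib.PCore

section transport

variable {G : Type*} [Group G] [Finite G]

/-- Two split pairs: the Borel subgroups are matched by an automorphism matching the unipotent subgroups. -/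
theorem map_B_of_sylow {p : ℕ} {P P' : Cfsg.BNPair G} {U U' : Subgroup G} (hU : SplitU P U p) (hU' : SplitU P' U' p)
    (σ : G ≃* G) (hσ : U'.map σ.toMonoidHom = U) : P'.B.map σ.toMonoidHom = P.B := by
  apply le_antisymm
  · rintro _ ⟨b, hb, rfl⟩
    apply mem_B_of_normalizes hU
    intro u hu
    rw [← hσ] at hu ⊢
    obtain ⟨u', hu', rfl⟩ := hu
    refine ⟨b * u' * b⁻¹, hU'.conj b hb u' hu', ?_⟩
    simp
  · intro b hb
    refine ⟨σ.symm b, ?_, by simp⟩
    apply mem_B_of_normalizes hU'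
    intro u' hu'
    have h1 : σ u' ∈ U := by
      rw [← hσ]
      exact ⟨u', hu', rfl⟩
    have h2 := hU.conj b hb _ h1
    rw [← hσ] at h2
    obtain ⟨u'', hu'', e⟩ := h2
    have e2 : u'' = σ.symm b * u' * (σ.symm b)⁻¹ := by
      apply σ.injective
      have : σ u'' = b * σ u' * b⁻¹ := e
      rw [this]
      simp
    rw [← e2]
    exact hu''

end transport

variable {X : Type*} [Group X] [Finite X] {p : ℕ} [hp : Fact p.Prime]
variable {K : Subgroup X} [hK : K.Normal]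

/-- The normalizers of the Sylow subgroups are conjugate. -/
theorem coatom_conj (Q Q' : Sylow p K) (h : IsCoatom (Subgroup.normalizer ((up Q : Subgroup X) : Set X))) :
    IsCoatom (Subgroup.normalizer ((up Q' : Subgroup X) : Set X)) := by
  obtain ⟨g, rfl⟩ := MulAction.exists_smul_eq K Q Q'
  let φ : X ≃* X := MulAut.conj (g : X)
  have e1 : up (g • Q) = (up Q).map φ.toMonoidHom := by
    ext x
    constructor
    · rintro ⟨_, ⟨u, hu, rfl⟩, rfl⟩
      exact ⟨u, ⟨u, hu, rfl⟩, by simp [φ]⟩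
    · rintro ⟨_, ⟨u, hu, rfl⟩, rfl⟩
      exact ⟨g * u * g⁻¹, ⟨u, hu, by simp⟩, by simp [φ]⟩
  rw [e1, ← Subgroup.map_equiv_normalizer_eq]
  exact (φ.mapSubgroup.isCoatom_iff _).2 h

theorem norm_map_mem {A : Subgroup K} {k : K} (hk : k ∈ Subgroup.normalizer (A : Set K)) :
    (k : X) ∈ Subgroup.normalizer ((A.map K.subtype : Subgroup X) : Set X) := by
  apply mem_normalizer_of_conj
  rintro _ ⟨a, ha, rfl⟩
  exact ⟨k * a * k⁻¹, (Subgroup.mem_normalizer_iff.1 hk a).1 ha, by simp⟩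

variable [IsSimpleGroup K] (hX : IsPMinimal p X)

include hX

/-- No node normalizes the centre of `U`. -/
theorem no_zNode (h : HasZNode p K) : False := by
  classical
  obtain ⟨P, U, hU, a, ha, hz⟩ := h
  obtain ⟨Q, rfl⟩ := exists_sylow_eq hU
  obtain ⟨T, M, h⟩ := exists_setup hX Q
  have hne : P.S.Nonempty := ⟨a, ha⟩
  obtain ⟨_, htrans⟩ := bn_core h hU hne
  have hQ1 := Q_ne_bot hU hne
  have hQ2 := Q_ne_top hU hne
  set Z : Subgroup K := Subgroup.centralizer ((Q : Subgroup K) : Set K) ⊓ (Q : Subgroup K) with hZdef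
  have memZ : ∀ z, z ∈ Z ↔ z ∈ (Q : Subgroup K) ∧ ∀ u ∈ (Q : Subgroup K), u * z = z * u := by
    intro z
    rw [hZdef, Subgroup.mem_inf, Subgroup.mem_centralizer_iff]
    constructor
    · rintro ⟨h1, h2⟩
      exact ⟨h2, fun u hu => h1 u hu⟩
    · rintro ⟨h1, h2⟩
      exact ⟨fun u hu => h2 u hu, h1⟩
  have hZt : ∀ t ∈ (T : Subgroup X), ∀ z ∈ Z, cj K t z ∈ Z := by
    intro t ht z hz'
    rw [memZ] at hz' ⊢
    refine ⟨h.conj ht hz'.1, fun u hu => ?_⟩
    have h1 := hz'.2 _ (h.conj ((T : Subgroup X).inv_mem ht) hu)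
    have h2 := congrArg (cj K t) h1
    simp only [map_mul] at h2
    rwa [← cj_mul_apply, mul_inv_cancel, cj_one_apply] at h2
  have hZB : ∀ b ∈ P.B, ∀ z ∈ Z, b * z * b⁻¹ ∈ Z := by
    intro b hb z hz'
    rw [memZ] at hz' ⊢
    refine ⟨hU.conj b hb z hz'.1, fun u hu => ?_⟩
    have h1 := hz'.2 _ (hU.conj b⁻¹ (P.B.inv_mem hb) u hu)
    have e1 : u * (b * z * b⁻¹) = b * ((b⁻¹ * u * b⁻¹⁻¹) * z) * b⁻¹ := by group
    have e2 : (b * z * b⁻¹) * u = b * (z * (b⁻¹ * u * b⁻¹⁻¹)) * b⁻¹ := by group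
    rw [e1, e2, h1]
  have hPa : P.parabolic {a} ≤ Subgroup.normalizer (Z : Set K) := by
    unfold Cfsg.BNPair.parabolic
    refine sup_le (fun b hb => mem_normalizer_of_conj (hZB b hb)) ?_
    rw [Subgroup.closure_le]
    intro x hx
    have hxa : x = a := hx
    rw [hxa]
    apply mem_normalizer_of_conj
    intro z hz'
    rw [memZ] at hz' ⊢
    exact hz z hz'.1 hz'.2
  have hall : ∀ b ∈ P.S, b ∈ Subgroup.normalizer (Z : Set K) := by
    intro b hb
    obtain ⟨t, ht, e⟩ := htrans a ha b hb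
    have h1 : b ∈ (P.parabolic {a}).map (cj K t).toMonoidHom := by
      rw [e]
      exact mem_parabolic_of_mem rfl
    obtain ⟨a', ha', rfl⟩ := h1
    apply mem_normalizer_of_conj
    intro z hz'
    have h2 := (Subgroup.mem_normalizer_iff.1 (hPa ha') _).1 (hZt t⁻¹ ((T : Subgroup X).inv_mem ht) z hz')
    have h3 := hZt t ht _ h2
    have e3 : cj K t (a' * cj K t⁻¹ z * a'⁻¹) = cj K t a' * z * (cj K t a')⁻¹ := by
      rw [map_mul, map_mul, map_inv, ← cj_mul_apply, mul_inv_cancel, cj_one_apply]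
    rw [e3] at h3
    exact h3
  have htop : Subgroup.normalizer (Z : Set K) = ⊤ := by
    rw [eq_top_iff, ← parabolic_S (P := P)]
    unfold Cfsg.BNPair.parabolic
    refine sup_le ((B_le_parabolic {a}).trans hPa) ?_
    rw [Subgroup.closure_le]
    exact hall
  have hZn : Z.Normal := Subgroup.normalizer_eq_top_iff.1 htop
  have hQnt : Nontrivial ↥(Q : Subgroup K) := (Subgroup.nontrivial_iff_ne_bot _).2 hQ1
  have hc := Q.isPGroup'.center_nontrivial
  obtain ⟨c, hc1⟩ := exists_ne (1 : Subgroup.center ↥(Q : Subgroup K))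
  have hcZ : ((c : ↥(Q : Subgroup K)) : K) ∈ Z := by
    rw [memZ]
    refine ⟨(c : ↥(Q : Subgroup K)).2, fun u hu => ?_⟩
    have h1 := (Subgroup.mem_center_iff.1 c.2) ⟨u, hu⟩
    exact congrArg Subtype.val h1
  rcases IsSimpleGroup.eq_bot_or_eq_top_of_normal Z hZn with h0 | h0
  · rw [h0, Subgroup.mem_bot] at hcZ
    apply hc1
    apply Subtype.ext
    apply Subtype.ext
    exact hcZ
  · apply hQ2
    rw [eq_top_iff, ← h0]
    exact inf_le_right

/-- Two nodes have parabolics of the same index. -/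
theorem no_indexGap (h : HasIndexGap p K) : False := by
  obtain ⟨P, U, hU, a, ha, b, hb, hne⟩ := h
  obtain ⟨Q, rfl⟩ := exists_sylow_eq hU
  obtain ⟨T, M, h⟩ := exists_setup hX Q
  obtain ⟨_, htrans⟩ := bn_core h hU ⟨a, ha⟩
  obtain ⟨t, ht, e⟩ := htrans a ha b hb
  apply hne
  rw [← e]
  exact (Subgroup.index_map_equiv (P.parabolic {a}) (cj K t)).symm

/-- At most two nodes. -/
theorem no_three (hR : HasSplitR p K) (hN : HasNodes p 3 K) : False := by
  obtain ⟨P, U, hU, hne, hRad⟩ := hR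
  obtain ⟨Q, rfl⟩ := exists_sylow_eq hU
  obtain ⟨T, M, h⟩ := exists_setup hX Q
  obtain ⟨_, htrans⟩ := bn_core h hU hne
  have hirr := irreducible_of_rad hU hRad
  obtain ⟨P', U', hU', f, hf, hfS⟩ := hN
  obtain ⟨Q', rfl⟩ := exists_sylow_eq hU'
  obtain ⟨g, hg⟩ := MulAction.exists_smul_eq K Q' Q
  have hσ : P'.B.map (MulAut.conj g).toMonoidHom = P.B := by
    apply map_B_of_sylow hU hU'
    rw [← hg]
    rfl
  obtain ⟨f', hf', hfS'⟩ := nodes_transfer (MulAut.conj g) hσ f hf hfS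
  refine not_three_nodes hirr ?_ f' hf' hfS'
  intro a ha b hb
  obtain ⟨t, ht, e⟩ := htrans a ha b hb
  exact ⟨cj K t, map_B h hU ht, e⟩

/-- Two nodes force `p = 2` and `K` proper. -/
theorem two_nodes (hR : HasSplitR p K) (hN : HasNodes p 2 K) : p = 2 ∧ K ≠ ⊤ := by
  classical
  obtain ⟨P, U, hU, f, hf, hfS⟩ := hN
  obtain ⟨Q, rfl⟩ := exists_sylow_eq hU
  obtain ⟨T, M, h⟩ := exists_setup hX Q
  have hne : P.S.Nonempty := ⟨_, hfS 0⟩
  obtain ⟨_, htrans⟩ := bn_core h hU hne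
  set a := f 0 with ha'
  set b := f 1 with hb'
  have hab : a ≠ b := fun e => absurd (hf e) (by decide)
  have ha : a ∈ P.S := hfS 0
  have hb : b ∈ P.S := hfS 1
  have hthird : ∀ c ∈ P.S, c = a ∨ c = b := by
    intro c hc
    by_contra hcon
    push Not at hcon
    apply no_three hX hR
    refine ⟨P, _, hU, ![a, b, c], ?_, ?_⟩
    · intro i j hij
      fin_cases i <;> fin_cases j <;> simp_all [eq_comm]
    · intro i
      fin_cases i
      · exact ha
      · exact hb
      · exact hc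
  obtain ⟨t, ht, e⟩ := htrans a ha b hb
  have hPab : P.parabolic {a} ≠ P.parabolic {b} := fun e' => hab (parabolic_singleton_inj ha hb e')
  obtain ⟨c, hc, e'⟩ := map_parabolic_node (cj K t) (map_B h hU ht) hb
  have e2 : (P.parabolic {b}).map (cj K t).toMonoidHom = P.parabolic {a} := by
    rcases hthird c hc with rfl | rfl
    · exact e'
    · exfalso
      apply hPab
      apply Subgroup.map_injective (f := (cj K t).toMonoidHom) (cj K t).injective
      rw [e, e']
  constructor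
  · by_contra hp2
    obtain ⟨k, hk⟩ := T.isPGroup' ⟨t, ht⟩
    have hk' : t ^ p ^ k = 1 := by
      have := congrArg Subtype.val hk
      simpa using this
    have hodd : Odd (p ^ k) := (hp.out.odd_of_ne_two hp2).pow
    obtain ⟨n, hn⟩ := hodd
    have key : ∀ n : ℕ, (P.parabolic {a}).map (cj K (t ^ (2 * n))).toMonoidHom = P.parabolic {a} := by
      intro n
      induction n with
      | zero => simpa using map_cj_one (P.parabolic {a})
      | succ n ih =>
        have e3 : t ^ (2 * (n + 1)) = t * (t * t ^ (2 * n)) := by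
          rw [← mul_assoc, ← pow_two, ← pow_add]
          congr 1
          ring
        rw [e3, map_cj_mul, map_cj_mul, ih, e, e2]
    have h3 : (P.parabolic {a}).map (cj K (t ^ (2 * n + 1))).toMonoidHom = P.parabolic {b} := by
      have e3 : t ^ (2 * n + 1) = t * t ^ (2 * n) := by rw [pow_succ']
      rw [e3, map_cj_mul, key, e]
    rw [← hn, hk', map_cj_one] at h3
    exact hPab h3
  · intro htop
    have htK : t ∈ K := by rw [htop]; trivial
    have htQ : (⟨t, htK⟩ : K) ∈ (Q : Subgroup K) := by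
      have hA : IsPGroup p ((T : Subgroup X).comap K.subtype) :=
        T.isPGroup'.comap_of_injective K.subtype K.subtype_injective
      have hle : (Q : Subgroup K) ≤ (T : Subgroup X).comap K.subtype := fun x hx => h.ut ⟨x, hx, rfl⟩
      rw [← Q.is_maximal' hA hle]
      exact ht
    apply hPab
    rw [← e]
    set τ : K := ⟨t, htK⟩ with hτ
    have hτP : τ ∈ P.parabolic {a} := B_le_parabolic _ (hU.le htQ)
    have hcj : ∀ x : K, cj K t x = τ * x * τ⁻¹ := fun x => Subtype.ext (by rw [cj_coe]; simp [hτ])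
    ext x
    constructor
    · intro hx
      refine ⟨τ⁻¹ * x * τ, Subgroup.mul_mem _ (Subgroup.mul_mem _ (Subgroup.inv_mem _ hτP) hx) hτP, ?_⟩
      show cj K t (τ⁻¹ * x * τ) = x
      rw [hcj]
      group
    · rintro ⟨y, hy, rfl⟩
      show cj K t y ∈ _
      rw [hcj]
      exact Subgroup.mul_mem _ (Subgroup.mul_mem _ hτP hy) (Subgroup.inv_mem _ hτP)

/-- No two invariant subgroups whose normalizers generate. -/
theorem no_twoChar (h : HasTwoChar p K) (hnp : ∀ U : Sylow p K, (U : Subgroup K) ≠ ⊤) : False := by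
  obtain ⟨U, R₁, R₂, h1, h2, hle1, hle2, hinv, hgen⟩ := h
  obtain ⟨T, M, h⟩ := exists_setup hX U
  have hQ1 : (U : Subgroup K) ≠ ⊥ := by
    intro h0
    apply h1
    rw [eq_bot_iff, ← h0]
    exact hle1
  have hQ2 := hnp U
  have hUt : ∀ t ∈ (T : Subgroup X), (U : Subgroup K).map (cj K t).toMonoidHom = U := fun t ht =>
    Setup.map_of_inv _ (fun t ht a ha => h.conj ht ha) ht
  have hR : ∀ R : Subgroup K, R ≠ ⊥ → R ≤ U →
      (∀ t ∈ (T : Subgroup X), R.map (cj K t).toMonoidHom = R) →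
      Subgroup.normalizer (R : Set K) ≤ Setup.NN K M := by
    intro R hR1 hRU hRt
    have hRtop : R ≠ ⊤ := by
      intro h0
      apply hQ2
      rw [eq_top_iff, ← h0]
      exact hRU
    have h3 := h.le_of_inv R hR1 hRtop (fun t ht a ha => by
      rw [← hRt t ht]
      exact ⟨a, ha, rfl⟩)
    intro k hk
    exact h3 (norm_map_mem hk)
  apply h.N_ne_top hQ1 hQ2
  rw [eq_top_iff, ← hgen]
  exact sup_le (hR R₁ h1 hle1 (fun t ht => (hinv _ (hUt t ht)).1))
    (hR R₂ h2 hle2 (fun t ht => (hinv _ (hUt t ht)).2))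

/-- The facts on the `p`-core of `M ∩ K`. -/
theorem R_facts {Q : Sylow p K} {T : Sylow p X} {M : Subgroup X} (h : Setup Q T M)
    (hO : ∀ N : Subgroup K, pCore p ↥N = ⊥ → ¬ p ∣ N.index → N = ⊤)
    (hQ1 : (Q : Subgroup K) ≠ ⊥) (hQ2 : (Q : Subgroup K) ≠ ⊤) :
    ∃ R : Subgroup K, R ≠ ⊥ ∧ R ≤ Q ∧ (Q : Subgroup K) ≤ Subgroup.normalizer (R : Set K) ∧
      Setup.NN K M ≤ Subgroup.normalizer (R : Set K) ∧
      ∀ t ∈ (T : Subgroup X), R.map (cj K t).toMonoidHom = R := by
  set N := Setup.NN K M with hN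
  have hQN : (Q : Subgroup K) ≤ N := fun x hx => h.tm (h.ut ⟨x, hx, rfl⟩)
  have hidx : ¬ p ∣ N.index := fun hd =>
    Q.not_dvd_index (hd.trans (Subgroup.index_dvd_of_le hQN))
  have hNtop := h.N_ne_top hQ1 hQ2
  have hcore : pCore p ↥N ≠ ⊥ := fun h0 => hNtop (hO N h0 hidx)
  set R := (pCore p ↥N).map N.subtype with hR
  have hRne : R ≠ ⊥ := by
    intro h0
    apply hcore
    exact (Subgroup.map_eq_bot_iff_of_injective _ N.subtype_injective).1 h0
  have hRQ : R ≤ Q := by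
    rintro _ ⟨r, hr, rfl⟩
    have h1 := pCore_le_sylow p (Q.subtype hQN) hr
    rw [Sylow.coe_subtype] at h1
    exact h1
  have hNR : N ≤ Subgroup.normalizer (R : Set K) := by
    intro n hn
    apply mem_normalizer_of_conj
    rintro _ ⟨r, hr, rfl⟩
    have hnorm : (pCore p ↥N).Normal := by
      have := pCore_characteristic (G := ↥N) p
      infer_instance
    exact ⟨⟨n, hn⟩ * r * ⟨n, hn⟩⁻¹, hnorm.conj_mem r hr ⟨n, hn⟩, by simp⟩
  refine ⟨R, hRne, hRQ, hQN.trans hNR, hNR, ?_⟩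
  intro t ht
  have htM : t ∈ M := h.tm ht
  have hpR : IsPGroup p R := (isPGroup_pCore (G := ↥N) p).map N.subtype
  have hsub : R.map (cj K t).toMonoidHom ≤ R := by
    have hnorm : ((R.map (cj K t).toMonoidHom).comap N.subtype).Normal := by
      refine ⟨fun x hx n => ?_⟩
      obtain ⟨r, hr, e⟩ := hx
      have hn' : cj K t⁻¹ (n : K) ∈ N := h.cj_N (M.inv_mem htM) n.2
      have h1 := (Subgroup.mem_normalizer_iff.1 (hNR hn') r).1 hr
      refine ⟨_, h1, ?_⟩
      show cj K t (cj K t⁻¹ (n : K) * r * (cj K t⁻¹ (n : K))⁻¹) = _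
      have e' : cj K t r = (x : K) := e
      rw [map_mul, map_mul, map_inv, ← cj_mul_apply, mul_inv_cancel, cj_one_apply, e']
      simp
    have hpg : IsPGroup p ((R.map (cj K t).toMonoidHom).comap N.subtype) :=
      (hpR.map (cj K t).toMonoidHom).comap_of_injective N.subtype N.subtype_injective
    have h1 := le_pCore hnorm hpg
    rintro _ ⟨r, hr, rfl⟩
    have hrN : r ∈ Setup.NN K M := by
      have := hRQ hr
      exact hQN this
    have hr2 : cj K t r ∈ N := h.cj_N htM hrN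
    have h3 : (⟨cj K t r, hr2⟩ : ↥N) ∈ pCore p ↥N := h1 ⟨r, hr, rfl⟩
    exact ⟨_, h3, rfl⟩
  apply Subgroup.eq_of_le_of_card_ge hsub
  exact le_of_eq (Nat.card_congr (R.equivMapOfInjective (cj K t).toMonoidHom (cj K t).injective).toEquiv)

/-- The rank-one like case. -/
theorem local_one (hO : ∀ N : Subgroup K, pCore p ↥N = ⊥ → ¬ p ∣ N.index → N = ⊤) (h : HasLocalOne p K)
    (hnp : ∀ U : Sylow p K, (U : Subgroup K) ≠ ⊤) (hnb : ∀ U : Sylow p K, (U : Subgroup K) ≠ ⊥) :
    ∃ U : Sylow p K, IsCoatom (Subgroup.normalizer ((up U : Subgroup X) : Set X)) := by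
  obtain ⟨U, hU⟩ := h
  obtain ⟨T, M, h⟩ := exists_setup hX U
  obtain ⟨R, h1, h2, h3, h4, h5⟩ := R_facts hX h hO (hnb U) (hnp U)
  exact ⟨U, h.of_N_le (hnb U) (hnp U) (h4.trans (hU R h1 h2 h3))⟩

/-- The case of `A₆`. -/
theorem pair_case (hO : ∀ N : Subgroup K, pCore p ↥N = ⊥ → ¬ p ∣ N.index → N = ⊤) (h : HasPairData p K)
    (hnp : ∀ U : Sylow p K, (U : Subgroup K) ≠ ⊤) :
    (∃ U : Sylow p K, IsCoatom (Subgroup.normalizer ((up U : Subgroup X) : Set X))) ∧ K ≠ ⊤ := by
  classical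
  obtain ⟨U, V₁, V₂, hne, h1, h2, hle1, hle2, hnV, hinv, hgen, hloc⟩ := h
  obtain ⟨T, M, h⟩ := exists_setup hX U
  have hQ1 : (U : Subgroup K) ≠ ⊥ := by
    intro h0
    apply h1
    rw [eq_bot_iff, ← h0]
    exact hle1
  have hQ2 := hnp U
  have hUt : ∀ t ∈ (T : Subgroup X), (U : Subgroup K).map (cj K t).toMonoidHom = U := fun t ht =>
    Setup.map_of_inv _ (fun t ht a ha => h.conj ht ha) ht
  have hR : ∀ R : Subgroup K, R ≠ ⊥ → R ≤ U →
      (∀ t ∈ (T : Subgroup X), R.map (cj K t).toMonoidHom = R) →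
      Subgroup.normalizer (R : Set K) ≤ Setup.NN K M := by
    intro R hR1 hRU hRt
    have hRtop : R ≠ ⊤ := by
      intro h0
      apply hQ2
      rw [eq_top_iff, ← h0]
      exact hRU
    have h3 := h.le_of_inv R hR1 hRtop (fun t ht a ha => by
      rw [← hRt t ht]
      exact ⟨a, ha, rfl⟩)
    intro k hk
    exact h3 (norm_map_mem hk)
  -- a swap exists
  obtain ⟨t₀, ht₀, hs1, hs2⟩ : ∃ t₀ ∈ (T : Subgroup X), V₁.map (cj K t₀).toMonoidHom = V₂ ∧
      V₂.map (cj K t₀).toMonoidHom = V₁ := by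
    by_contra hcon
    push Not at hcon
    have hfix : ∀ t ∈ (T : Subgroup X), V₁.map (cj K t).toMonoidHom = V₁ ∧ V₂.map (cj K t).toMonoidHom = V₂ := by
      intro t ht
      rcases hinv _ (hUt t ht) with h3 | h3
      · exact h3
      · exact absurd h3.2 (hcon t ht h3.1)
    apply h.N_ne_top hQ1 hQ2
    rw [eq_top_iff, ← hgen]
    exact sup_le (hR V₁ h1 hle1 (fun t ht => (hfix t ht).1)) (hR V₂ h2 hle2 (fun t ht => (hfix t ht).2))
  constructor
  · refine ⟨U, h.of_N_le hQ1 hQ2 ?_⟩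
    obtain ⟨R, hR1, hR2, hR3, hR4, hR5⟩ := R_facts hX h hO hQ1 hQ2
    have hRV1 : R ≠ V₁ := by
      rintro rfl
      apply hne
      rw [← hs1]
      exact (hR5 t₀ ht₀).symm
    have hRV2 : R ≠ V₂ := by
      rintro rfl
      apply hne
      rw [← hs2]
      exact hR5 t₀ ht₀
    exact hR4.trans (hloc R hR1 hR2 hR3 hRV1 hRV2)
  · intro htop
    have htK : t₀ ∈ K := by rw [htop]; trivial
    have htQ : (⟨t₀, htK⟩ : K) ∈ (U : Subgroup K) := by
      have hA : IsPGroup p ((T : Subgroup X).comap K.subtype) :=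
        T.isPGroup'.comap_of_injective K.subtype K.subtype_injective
      have hle : (U : Subgroup K) ≤ (T : Subgroup X).comap K.subtype := fun x hx => h.ut ⟨x, hx, rfl⟩
      rw [← U.is_maximal' hA hle]
      exact ht₀
    apply hne
    rw [← hs1]
    set τ : K := ⟨t₀, htK⟩ with hτ
    have hτN := hnV htQ
    have hcj : ∀ x : K, cj K t₀ x = τ * x * τ⁻¹ := fun x => Subtype.ext (by rw [cj_coe]; simp [hτ])
    ext x
    constructor
    · intro hx
      refine ⟨τ⁻¹ * x * τ, ?_, ?_⟩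
      · have h3 := (Subgroup.mem_normalizer_iff.1 ((Subgroup.normalizer (V₁ : Set K)).inv_mem hτN) x).1 hx
        simpa using h3
      · show cj K t₀ (τ⁻¹ * x * τ) = x
        rw [hcj]
        group
    · rintro ⟨y, hy, rfl⟩
      show cj K t₀ y ∈ V₁
      rw [hcj]
      exact (Subgroup.mem_normalizer_iff.1 hτN y).1 hy

end Cfsg.Agent.Lib.PMin29
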