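import Mathlib
import Cfsg.Agent.Lib.PMinDefs29
import Cfsg.Agent.Lib.TwSt50
import Cfsg.Agent.Lib.Chev.TwD4BN

/-!
# Index gap for the minimal parabolics of `³D₄`
-/

set_option autoImplicit false
set_option linter.unusedSectionVars false
set_option linter.unusedVariables false

namespace Cfsg.Agent.Lib.PMin29

open Cfsg Cfsg.Lie Cfsg.Agent.Lib.Chev Cfsg.Agent.Lib.TwSt50 Cfsg.Agent.Lib.BNPair Cfsg.Agent.Lib.LTAut33

theorem index_ne_of_card_ne29 {G : Type*} [Group G] [Finite G] {H₁ H₂ : Subgroup G}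
    (h : Nat.card H₁ ≠ Nat.card H₂) : H₁.index ≠ H₂.index := by
  intro e
  apply h
  have h1 := H₁.card_mul_index
  have h2 := H₂.card_mul_index
  rw [e] at h1
  exact Nat.eq_of_mul_eq_mul_right (Nat.pos_of_ne_zero H₂.index_ne_zero_of_finite) (h1.trans h2.symm)

section gap

variable {K : Type*} [Field K] [Fintype K]

/-- In `³D₄(q)` the two minimal parabolics have index gap `q³ + 1` against `q + 1`. -/
theorem twD4_gap (p : ℕ) [Fact p.Prime] [CharP K p] {q : ℕ} (hq : IsPrimePow q)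
    (hK : Fintype.card K = q ^ 3) : HasIndexGap p ↥(twistedD4 K q) := by
  obtain ⟨f, hf, hf3⟩ := TwD4.exists_frob3 hq hK
  rw [← TwD4.G1_eq f hf hf3]
  have hfix : ∀ i < chevD4.rank, Nat.card {t : K // f^[TwD4.dd i] t = t} = q ^ TwD4.dd i := by
    intro i hi
    have hi' : i < 4 := hi
    interval_cases i
    · exact card_fix_top hK hf
    · exact card_fix_one hq hK (by norm_num) hf
    · exact card_fix_top hK hf
    · exact card_fix_top hK hf
  have hcls : ∀ i < chevD4.rank, ∀ j < chevD4.rank, j ∈ ((TwD4.sc f).twG).cls i →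
      ((TwD4.sc f).twG).nC j = ((TwD4.sc f).twG).nC i := fun i hi j hj hjc => by
    show ((TwD4.J j).map (TwD4.hF.nNt K)).prod = ((TwD4.J i).map (TwD4.hF.nNt K)).prod
    rw [TwD4.hJJ i hi j hj hjc]
  have hne := fun i (hi : i < chevD4.rank) => (TwD4.sc f).ne_one_of_class hi
  have hinv : ∀ i (hi : i < chevD4.rank),
      Full.invF RootD4T.R chevD4 (TwD4.hF.rhoN K (((TwD4.sc f).twG).nC i)) = TwD4.dd i :=
    fun i hi => (TwD4.sc f).invF_nC hi
  have hwt : ∀ i < chevD4.rank, 1 ∣ Full.invF RootD4T.R chevD4 (TwD4.hF.rhoN K (((TwD4.sc f).twG).nC i)) ∧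
      Nat.card (TwG.ULf (TwD4.τ f) (((TwD4.sc f).twG).cls i)) =
        q ^ (Full.invF RootD4T.R chevD4 (TwD4.hF.rhoN K (((TwD4.sc f).twG).nC i)) / 1) := by
    intro i hi
    refine ⟨one_dvd _, ?_⟩
    rw [Nat.div_one, hinv i hi, ← hfix i hi, ← (TwD4.sc f).card_ulf hi]
    rfl
  show HasIndexGap p ↥((TwD4.sc f).twG).G1
  refine ⟨((TwD4.sc f).twG).bnPair hcls hne, U1 (TwD4.sc f).twG,
    ⟨hUB (TwD4.sc f).twG hcls hne, hUn (TwD4.sc f).twG hcls hne, hUT (TwD4.sc f).twG hcls hne, hUp (p := p) (TwD4.sc f).twG, hT (TwD4.sc f).twG hcls hne⟩,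
    ⟨(((TwD4.sc f).twG).nC 0).1, ((TwD4.sc f).twG).nC_mem 0 (by decide)⟩, ⟨0, by decide, rfl⟩,
    ⟨(((TwD4.sc f).twG).nC 1).1, ((TwD4.sc f).twG).nC_mem 1 (by decide)⟩, ⟨1, by decide, rfl⟩, ?_⟩
  apply index_ne_of_card_ne29
  rw [card_par (TwD4.sc f).twG hcls hne (Q := q) (e := 1) Nat.one_pos hwt (i := 0) (by decide),
    card_par (TwD4.sc f).twG hcls hne (Q := q) (e := 1) Nat.one_pos hwt (i := 1) (by decide),
    hinv 0 (by decide), hinv 1 (by decide)]
  have hB : 0 < Nat.card ↥(chevD4.borelSubgroup K ⊓ ((TwD4.sc f).twG).G1) := Nat.card_pos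
  intro e
  have e1 := Nat.eq_of_mul_eq_mul_left hB e
  have h2 : 2 ≤ q := hq.two_le
  have h3 : q ^ (TwD4.dd 0 / 1) = q ^ 3 := rfl
  have h4 : q ^ (TwD4.dd 1 / 1) = q := by
    show q ^ 1 = q
    exact pow_one q
  rw [h3, h4] at e1
  nlinarith [Nat.pow_le_pow_left h2 2, pow_succ q 2]

end gap

end Cfsg.Agent.Lib.PMin29
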