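import Mathlib
import Cfsg.Agent.Lib.PMinDefs29
import Cfsg.Agent.Lib.OverPSL29

/-!
# The nodes of the split `(B,N)`-pair of `PSL`
-/

set_option autoImplicit false
set_option linter.unusedSectionVars false
set_option linter.unusedVariables false

namespace Cfsg.Agent.Lib.PMin29

open Cfsg Cfsg.Agent.Lib.BNPair Cfsg.Agent.Lib.LTAut33 Cfsg.Agent.Lib.OverU29 Cfsg.Agent.Lib.LTAut33.SLBN

/-- Nodes pass to a quotient by a subgroup of `B ∩ N`. -/
theorem hasNodes_push_h97 {Γ G : Type*} [Group Γ] [Group G] [Finite Γ] {p r : ℕ} [hp : Fact p.Prime]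
    (f : Γ →* G) (hf : Function.Surjective f) (P : Cfsg.BNPair Γ) (hker : f.ker ≤ P.B ⊓ P.N)
    {U : Subgroup Γ} (hU : SplitU P U p) (g : Fin r → Γ) (hg : Function.Injective g) (hgS : ∀ i, g i ∈ P.S) :
    HasNodes p r G := by
  refine ⟨pushBN f hf P hker, U.map f, pushSplit f hf P hker hU, fun i => f (g i), ?_, ?_⟩
  · intro i j hij
    apply hg
    apply P.inj _ (hgS i) _ (hgS j)
    have h1 : (g i)⁻¹ * g j ∈ f.ker := by
      rw [MonoidHom.mem_ker, map_mul, map_inv]
      have h2 : f (g i) = f (g j) := hij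
      rw [h2, inv_mul_cancel]
    exact (hker h1).1
  · intro i
    rw [pushBN_S]
    exact ⟨_, hgS i, rfl⟩

variable (F : Type*) [Field F] [Finite F]

theorem sgen_injective_h97 (k : ℕ) :
    Function.Injective (sgen (F := F) (k := k)) := by
  intro i j hij
  have h := (sgen_spec (F := F) i).inv.mul (sgen_spec (F := F) j)
  have hm : (sgen (F := F) i)⁻¹ * sgen (F := F) j ∈ (bn k F).B := by
    rw [← hij, inv_mul_cancel]
    exact Subgroup.one_mem _
  have h2 := isMon_of_mem_BB h hm
  have h3 : Equiv.swap i.castSucc i.succ = Equiv.swap j.castSucc j.succ := by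
    have h4 := congrArg (fun x => Equiv.swap i.castSucc i.succ * x) h2
    have h5 : Equiv.swap j.castSucc j.succ = Equiv.swap i.castSucc i.succ := by simpa using h4
    exact h5.symm
  exact swap_inj h3

/-- `PSL_{k+1}(F)` has a split `(B,N)`-pair with `k` nodes. -/
theorem nodes_PSL (k : ℕ) (p : ℕ) [Fact p.Prime] [CharP F p] :
    HasNodes p k (Matrix.ProjectiveSpecialLinearGroup (Fin (k + 1)) F) := by
  refine hasNodes_push_h97 (QuotientGroup.mk' (Subgroup.center (Matrix.SpecialLinearGroup (Fin (k + 1)) F)))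
    (QuotientGroup.mk'_surjective _) (bn k F) ?_ (bn_split p) (sgen (F := F) (k := k)) (sgen_injective_h97 F k)
    (fun i => ⟨i, rfl⟩)
  intro z hz
  apply center_le
  simpa [MonoidHom.mem_ker] using hz

end Cfsg.Agent.Lib.PMin29
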