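import Mathlib
import Cfsg.Agent.Lib.PMinDefs29
import Cfsg.Agent.Lib.OverFam29

/-!
# Nodes of the split (B,N)-pairs of the symplectic and orthogonal families
-/

set_option autoImplicit false
set_option linter.unusedSectionVars false
set_option linter.unusedVariables false
set_option linter.style.haveILetI false

namespace Cfsg.Agent.Lib.PMin29

open Module Matrix Cfsg.Agent.Lib.ClBN2 Cfsg.Agent.Lib.ClBN1 Cfsg.Agent.Lib.ClPolar
  Cfsg.Agent.Lib.LTAut33 Cfsg.Agent.Lib.BNPair Cfsg.Agent.Lib.ClPolar.Sys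
open Cfsg.Agent.Lib.OrthGroup Cfsg.Agent.Lib.OrthOmega
open Cfsg.Agent.Lib.OrthMatrix Cfsg.Agent.Lib.OrthoCount Cfsg.Agent.Lib.ClOrth
  Cfsg.Agent.Lib.OverU29
open scoped MatrixGroups

noncomputable section

/-- The central quotient of a split (B,N)-pair keeps its nodes. -/
theorem hasNodes_center_s52 {Γ : Type*} [Group Γ] [Finite Γ] {p r : ℕ} [hp : Fact p.Prime]
    (P : Cfsg.BNPair Γ) {U : Subgroup Γ} (hU : SplitU P U p) {n₀ : Γ} (hn₀ : n₀ ∈ P.N)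
    (hopp : ∀ x ∈ P.B, n₀⁻¹ * x * n₀ ∈ P.B → x ∈ P.N)
    (f : Fin r → Γ) (hfi : Function.Injective f) (hfS : ∀ i, f i ∈ P.S) :
    HasNodes p r (Γ ⧸ Subgroup.center Γ) := by
  have hker : (QuotientGroup.mk' (Subgroup.center Γ)).ker ≤ P.B ⊓ P.N := by
    intro z hz
    have hz' : z ∈ Subgroup.center Γ := by
      simpa [MonoidHom.mem_ker] using hz
    have hzc : ∀ g, g * z = z * g := fun g => (Subgroup.mem_center_iff.1 hz') g
    have hzB : z ∈ P.B := by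
      apply mem_B_of_normalizes hU
      intro u hu
      rw [← hzc u]
      simpa using hu
    refine ⟨hzB, hopp z hzB ?_⟩
    have e : n₀⁻¹ * z * n₀ = z := by
      rw [mul_assoc, ← hzc n₀]
      group
    rw [e]
    exact hzB
  refine ⟨pushBN (QuotientGroup.mk' _) (QuotientGroup.mk'_surjective _) P hker,
    U.map (QuotientGroup.mk' _), pushSplit _ _ P hker hU,
    fun i => QuotientGroup.mk' (Subgroup.center Γ) (f i), ?_, fun i => ⟨f i, hfS i, rfl⟩⟩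
  intro i j hij
  have h1 : (f i)⁻¹ * f j ∈ (QuotientGroup.mk' (Subgroup.center Γ)).ker := by
    have hij' : QuotientGroup.mk' (Subgroup.center Γ) (f i) =
        QuotientGroup.mk' (Subgroup.center Γ) (f j) := hij
    rw [MonoidHom.mem_ker, map_mul, map_inv, ← hij', inv_mul_cancel]
  exact hfi (P.inj _ (hfS i) _ (hfS j) (hker h1).1)

section sys

variable {F V A K : Type*} [Field F] [AddCommGroup V] [Module F V] [Group A] {m : ℕ}
  {S : Sys F V A K m}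

/-- The `m` nodes of the (B,N)-pair of a full polar system. -/
theorem sys_nodes_inj_s52 [Finite A] [Fintype K] (hf : S.Full)
    (hthick : ∀ k : Fin m, k.val + 1 = m → ∃ z, S.Nm z = 0 ∧ S.φ (S.e k) z = 1 ∧
      (∀ a : Fin m × Bool, a.1 ≠ k → S.φ (S.X a) z = 0) ∧ z ≠ S.f k) :
    ∃ f : Fin m → A, Function.Injective f ∧ ∀ i, f i ∈ (S.bn hf hthick).S := by
  refine ⟨fun i => Classical.choose (exists_nodes hf hthick i), ?_, fun i => ⟨i, rfl⟩⟩
  intro i j hij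
  have hi := (Classical.choose_spec (Classical.choose_spec (exists_nodes hf hthick i))).1
  have hj := (Classical.choose_spec (Classical.choose_spec (exists_nodes hf hthick j))).1
  have hij' : Classical.choose (exists_nodes hf hthick i) =
      Classical.choose (exists_nodes hf hthick j) := hij
  have h1 := (hi.inv.mul hj).eq_one_of_mem_B (by
    rw [hij', inv_mul_cancel]
    exact Subgroup.one_mem _)
  have h2 : rNode i = rNode j := inv_mul_eq_one.1 h1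
  exact rNode_injective h2

/-- The split (B,N)-pair of a full polar system, with its nodes. -/
theorem sys_nodes_s52 [Finite A] [Fintype K] (p : ℕ) [Fact p.Prime] [CharP F p] (hf : S.Full)
    (hthick : ∀ k : Fin m, k.val + 1 = m → ∃ z, S.Nm z = 0 ∧ S.φ (S.e k) z = 1 ∧
      (∀ a : Fin m × Bool, a.1 ≠ k → S.φ (S.X a) z = 0) ∧ z ≠ S.f k)
    (hT : ∀ t ∈ S.TT, (∀ a, S.ρ t (S.X a) = S.X a) → t ^ p = 1 → t = 1) :
    HasNodes p m (A ⧸ Subgroup.center A) := by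
  obtain ⟨n₀, hn₀, hopp⟩ := Sys.exists_opp (S := S) hf
  obtain ⟨f, hfi, hfS⟩ := sys_nodes_inj_s52 hf hthick
  refine hasNodes_center_s52 (S.bn hf hthick) (U := S.UU) ?_ hn₀
    (fun x hx hy => S.TT_le_NN (hopp x hx hy)) f hfi hfS
  refine ⟨Sys.UU_le_B, fun b hb u hu => Sys.UU_conj hb hu, ?_, Sys.isPGroup_UU p, ?_⟩
  · intro b hb
    obtain ⟨u, hu, t, ht, e⟩ := Sys.exists_UT (S := S) hf.fullM hb
    refine ⟨u, hu, t, ?_, e⟩
    show t ∈ S.B ⊓ S.NN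
    rw [S.inf_eq]
    exact ht
  · show ¬ p ∣ Nat.card ↥(S.B ⊓ S.NN)
    rw [S.inf_eq]
    exact Sys.not_dvd_card_of p _ le_rfl hT

/-- The split (B,N)-pair of a normal subgroup with its nodes. -/
theorem sys_nodes_descent_s52 [Finite A] [Fintype K] (S : Sys F V A K m) (p : ℕ) [Fact p.Prime] [CharP F p]
    (hf : S.FullM) (P : Cfsg.BNPair A) (hPB : P.B = S.B) (hPN : P.N = S.NN)
    {r : ℕ} (f : Fin r → A) (hfi : Function.Injective f) (hfS : ∀ i, f i ∈ P.S)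
    {n₀ : A} (hn₀ : n₀ ∈ S.NN) (hopp : ∀ x ∈ S.B, n₀⁻¹ * x * n₀ ∈ S.B → x ∈ S.TT)
    (Γ : Subgroup A) [Γ.Normal] (hAT : ∀ a : A, ∃ h ∈ Γ, ∃ t ∈ S.TT, a = h * t)
    (hU : S.UU ≤ Γ)
    (hT : ∀ t ∈ S.TT, t ∈ Γ → (∀ a, S.ρ t (S.X a) = S.X a) → t ^ p = 1 → t = 1) :
    HasNodes p r (Γ ⧸ Subgroup.center Γ) := by
  have hBN : P.B ⊓ P.N = S.TT := by
    rw [hPB, hPN]
    exact S.inf_eq
  have hAT' : ∀ a : A, ∃ h ∈ Γ, ∃ t ∈ P.B ⊓ P.N, a = h * t := by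
    intro a
    obtain ⟨h, hh, t, ht, e⟩ := hAT a
    exact ⟨h, hh, t, by rw [hBN]; exact ht, e⟩
  obtain ⟨h₀, hh₀, t₀, ht₀, e₀⟩ := hAT n₀
  have hh₀N : h₀ ∈ S.NN := by
    have : h₀ = n₀ * t₀⁻¹ := by rw [e₀]; group
    rw [this]
    exact S.NN.mul_mem hn₀ (S.NN.inv_mem (S.TT_le_NN ht₀))
  have hdB : ∀ x, x ∈ (descent P Γ hAT').B ↔ (x : A) ∈ S.B := fun x => by
    rw [← hPB]
    exact Subgroup.mem_subgroupOf
  have hdN : ∀ x, x ∈ (descent P Γ hAT').N ↔ (x : A) ∈ S.NN := fun x => by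
    rw [← hPN]
    exact Subgroup.mem_subgroupOf
  have hsplit : SplitU (descent P Γ hAT') (S.UU.subgroupOf Γ) p := by
    refine ⟨?_, ?_, ?_, ?_, ?_⟩
    · rintro ⟨u, huΓ⟩ hu
      exact (hdB _).2 (Sys.UU_le_B (Subgroup.mem_subgroupOf.1 hu))
    · rintro ⟨b, hbΓ⟩ hb ⟨u, huΓ⟩ hu
      exact Subgroup.mem_subgroupOf.2 (Sys.UU_conj ((hdB _).1 hb) (Subgroup.mem_subgroupOf.1 hu))
    · rintro ⟨b, hbΓ⟩ hb
      have hb' : b ∈ S.B := (hdB _).1 hb
      obtain ⟨u, hu, t, ht, e⟩ := Sys.exists_UT (S := S) hf hb'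
      have huΓ := hU hu
      have htΓ : t ∈ Γ := by
        have : t = u⁻¹ * b := by rw [e]; group
        rw [this]
        exact Γ.mul_mem (Γ.inv_mem huΓ) hbΓ
      refine ⟨⟨u, huΓ⟩, Subgroup.mem_subgroupOf.2 hu, ⟨t, htΓ⟩, ⟨(hdB _).2 (S.TT_le_B ht),
        (hdN _).2 (S.TT_le_NN ht)⟩, Subtype.ext e⟩
    · exact (Sys.isPGroup_UU (S := S) p).comap_subtype
    · intro hd
      have h1 : ¬ p ∣ Nat.card ↥(S.TT ⊓ Γ) := Sys.not_dvd_card_of p _ inf_le_left (by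
        intro t ht h2 h3
        exact hT t ht.1 ht.2 h2 h3)
      apply h1
      have e : Nat.card ↥((descent P Γ hAT').B ⊓ (descent P Γ hAT').N) =
          Nat.card ↥(S.TT ⊓ Γ) := by
        apply Nat.card_congr
        refine Equiv.ofBijective (fun x => ⟨x.1.1, ?_, x.1.2⟩) ⟨?_, ?_⟩
        · have h2 : x.1.1 ∈ S.B ⊓ S.NN := ⟨(hdB _).1 x.2.1, (hdN _).1 x.2.2⟩
          rwa [S.inf_eq] at h2
        · rintro ⟨⟨x, hx⟩, hx'⟩ ⟨⟨y, hy⟩, hy'⟩ hxy
          have : x = y := congrArg (fun z : ↥(S.TT ⊓ Γ) => z.1) hxy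
          subst this
          rfl
        · rintro ⟨x, hx, hx2⟩
          exact ⟨⟨⟨x, hx2⟩, (hdB _).2 (S.TT_le_B hx), (hdN _).2 (S.TT_le_NN hx)⟩, rfl⟩
      rw [← e]
      exact hd
  -- the nodes of the descent
  have hnode : ∃ g : Fin r → Γ, Function.Injective g ∧ ∀ i, g i ∈ (descent P Γ hAT').S := by
    refine ⟨fun i => ⟨Classical.choose (exists_rep P Γ hAT' (f i)),
      (Classical.choose_spec (exists_rep P Γ hAT' (f i))).1⟩, ?_,
      fun i => ⟨f i, hfS i, rfl⟩⟩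
    intro i j hij
    have hij' : Classical.choose (exists_rep P Γ hAT' (f i)) =
        Classical.choose (exists_rep P Γ hAT' (f j)) := congrArg Subtype.val hij
    obtain ⟨_, t, ht, e2⟩ := Classical.choose_spec (exists_rep P Γ hAT' (f i))
    obtain ⟨_, t', ht', e2'⟩ := Classical.choose_spec (exists_rep P Γ hAT' (f j))
    have h1 : Classical.choose (exists_rep P Γ hAT' (f i)) = f i * t⁻¹ :=
      eq_mul_inv_of_mul_eq e2.symm
    have h1' : Classical.choose (exists_rep P Γ hAT' (f j)) = f j * t'⁻¹ :=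
      eq_mul_inv_of_mul_eq e2'.symm
    have h2 : (f i)⁻¹ * f j ∈ P.B := by
      have e3 : (f i)⁻¹ * f j = t⁻¹ * t' := by
        have e4 : f i * t⁻¹ = f j * t'⁻¹ := by rw [← h1, ← h1', hij']
        have e5 : f j = f i * t⁻¹ * t' := by rw [e4]; group
        rw [e5]
        group
      rw [e3]
      exact P.B.mul_mem (P.B.inv_mem ht.1) ht'.1
    exact hfi (P.inj _ (hfS i) _ (hfS j) h2)
  obtain ⟨g, hgi, hgS⟩ := hnode
  refine hasNodes_center_s52 (descent P Γ hAT') hsplit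
    (n₀ := ⟨h₀, hh₀⟩) ((hdN _).2 hh₀N) ?_ g hgi hgS
  rintro ⟨x, hxΓ⟩ hx hy
  have hx' : x ∈ S.B := (hdB _).1 hx
  have hy' : h₀⁻¹ * x * h₀ ∈ S.B := (hdB _).1 hy
  have h1 : n₀⁻¹ * x * n₀ ∈ S.B := by
    have e : n₀⁻¹ * x * n₀ = t₀⁻¹ * (h₀⁻¹ * x * h₀) * t₀ := by
      rw [e₀]
      group
    rw [e]
    exact S.B.mul_mem (S.B.mul_mem (S.B.inv_mem (S.TT_le_B ht₀)) hy') (S.TT_le_B ht₀)
  exact (hdN _).2 (S.TT_le_NN (hopp x hx' h1))

/-- The nodes of a normal subgroup with `A = Γ T`. -/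
theorem sys_nodes_descent2_s52 [Finite A] [Fintype K] (p : ℕ) [Fact p.Prime] [CharP F p]
    (hf : S.Full)
    (hthick : ∀ k : Fin m, k.val + 1 = m → ∃ z, S.Nm z = 0 ∧ S.φ (S.e k) z = 1 ∧
      (∀ a : Fin m × Bool, a.1 ≠ k → S.φ (S.X a) z = 0) ∧ z ≠ S.f k)
    (Γ : Subgroup A) [Γ.Normal] (hAT : ∀ a : A, ∃ h ∈ Γ, ∃ t ∈ S.TT, a = h * t)
    (hU : S.UU ≤ Γ)
    (hT : ∀ t ∈ S.TT, t ∈ Γ → (∀ a, S.ρ t (S.X a) = S.X a) → t ^ p = 1 → t = 1) :
    HasNodes p m (Γ ⧸ Subgroup.center Γ) := by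
  obtain ⟨n₀, hn₀, hopp⟩ := Sys.exists_opp (S := S) hf
  obtain ⟨f, hfi, hfS⟩ := sys_nodes_inj_s52 hf hthick
  exact sys_nodes_descent_s52 S p hf.fullM (S.bn hf hthick) rfl rfl f hfi hfS hn₀ hopp Γ hAT hU hT

end sys

variable {F : Type*} [Field F] [Fintype F] {m : ℕ}

/-- The nodes of `PSp`. -/
theorem nodes_PSp (hm : 1 ≤ m) (p : ℕ) [Fact p.Prime] [CharP F p] :
    HasNodes p m (Cfsg.PSp m F) := by
  haveI : Finite (symplecticGroup (Fin m) F) := Subtype.finite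
  exact sys_nodes_s52 (S := Cfsg.Agent.Lib.ClSp.sys F m) p Cfsg.Agent.Lib.ClSp.sys_full
    Cfsg.Agent.Lib.ClSp.sys_thick (Cfsg.Agent.Lib.ClSp.sys_torus p)

/-- The nodes of `PΩ` in odd dimension. -/
theorem nodes_odd (hm : 0 < m) (hodd : Odd (Fintype.card F)) (p : ℕ) [Fact p.Prime] [CharP F p] :
    HasNodes p m (Cfsg.POmega F ⇑(qOdd m F)) := by
  haveI := (odOdd F m hodd).instFiniteA
  have hOG : O (odOdd F m hodd).Q ≤ G (odOdd F m hodd).Q := O_le_G (odOdd F m hodd).nd (hF_odd hodd)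
  have hw := Q_w_odd (m := m) hodd
  have hw0 : (odOdd F m hodd).Q ((odOdd F m hodd).sys.w ()) ≠ 0 := by
    rw [hw]
    exact one_ne_zero
  exact sys_nodes_descent2_s52 (S := (odOdd F m hodd).sys) p (odOdd F m hodd).sys_full
    (fun k _ => (odOdd F m hodd).sys_thick hw0 k) (Cfsg.Omega F ⇑(odOdd F m hodd).Q)
    ((odOdd F m hodd).exists_Ω_T hOG hw0)
    ((odOdd F m hodd).UU_le_Ω_odd p (ne_two_of_odd hodd p) hOG)
    (fun t _ _ h1 h2 => torus_odd hodd p t h1 h2)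

/-- The nodes of `PΩ` for a form with binary anisotropic kernel. -/
theorem nodes_binary_s52 (hm : 0 < m) {ι : Type} [Fintype ι] [DecidableEq ι] (D : OD F ι (Fin 2) m)
    (hOG : O D.Q ≤ G D.Q) (p : ℕ) [Fact p.Prime] [CharP F p] :
    HasNodes p m (Cfsg.POmega F ⇑D.Q) := by
  haveI := D.instFiniteA
  have hw0 : D.Q (D.sys.w 0) ≠ 0 := D.Q_ne (D.W_w 0) (D.w_ne 0)
  by_cases hp : p = 2
  · subst hp
    haveI : Fact (Nat.Prime 2) := ⟨Nat.prime_two⟩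
    exact sys_nodes_descent2_s52 (S := D.sys) 2 D.sys_full
      (fun k _ => D.sys_thick hw0 k) (Cfsg.Omega F ⇑D.Q)
      (D.exists_Ω_T hOG hw0)
      (Sys.UU_le_of_sie D.sys_full.fullM (fun g hg => D.sie_mem_Ω hg))
      (fun t _ hΩ h1 h2 => by
        rcases D.torus_even_char h1 h2 with h | ⟨y, hy, e⟩
        · exact h
        · exact absurd (e ▸ hΩ) (D.refl_not_mem_Ω hOG hy))
  · exact sys_nodes_descent2_s52 (S := D.sys) p D.sys_full
      (fun k _ => D.sys_thick hw0 k) (Cfsg.Omega F ⇑D.Q)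
      (D.exists_Ω_T hOG hw0)
      (D.UU_le_Ω_odd p hp hOG)
      (fun t _ _ h1 h2 => D.torus_odd_char p hp h1 h2)

/-- The nodes of `PΩ⁻`. -/
theorem nodes_minus (hm : 0 < m) (p : ℕ) [Fact p.Prime] [CharP F p] (a b : F)
    (hab : ∀ z₁ z₂ : F, z₁ ^ 2 + a * z₁ * z₂ + b * z₂ ^ 2 = 0 → z₁ = 0 ∧ z₂ = 0) :
    HasNodes p m (Cfsg.POmega F ⇑(qMinus m a b)) :=
  nodes_binary_s52 hm (odMinus F m a b hab) (hOG_minus a b hab) p

end

end Cfsg.Agent.Lib.PMin29
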