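import Mathlib
import Cfsg.Agent.Lib.PMinDefs29
import Cfsg.Agent.Lib.OverFam29

/-!
# Nodes of the split (B,N)-pairs of the unitary and `Ω⁺` families

`HasNodes` for `PSU n` (with `n / 2` nodes) and for `PΩ⁺(2m)` (with `m` nodes), following the chain of
`split_PSUR` and `split_plusR`.
-/

set_option autoImplicit false
set_option linter.unusedSectionVars false
set_option linter.unusedVariables false
set_option linter.style.haveILetI false

namespace Cfsg.Agent.Lib.PMin29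

open Module Matrix Cfsg.Agent.Lib.ClBN2 Cfsg.Agent.Lib.ClBN1 Cfsg.Agent.Lib.ClPolar Cfsg.Agent.Lib.LTAut33
  Cfsg.Agent.Lib.BNPair Cfsg.Agent.Lib.ClPolar.Sys Cfsg.Agent.Lib.OverU29
open Cfsg.Agent.Lib.OrthGroup Cfsg.Agent.Lib.OrthOmega
open Cfsg.Agent.Lib.OrthMatrix Cfsg.Agent.Lib.OrthoCount Cfsg.Agent.Lib.ClOrth
open scoped MatrixGroups

noncomputable section

section push76

variable {Γ G : Type*} [Group Γ] [Group G]

/-- Nodes push along a surjection whose kernel lies in `B ⊓ N`. -/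
theorem hasNodes_push76 [Finite Γ] {p : ℕ} [hp : Fact p.Prime] (f : Γ →* G) (hf : Function.Surjective f)
    (P : Cfsg.BNPair Γ) (hker : f.ker ≤ P.B ⊓ P.N) {U : Subgroup Γ} (hU : SplitU P U p) {r : ℕ}
    (g : Fin r → Γ) (hg : Function.Injective g) (hgS : ∀ i, g i ∈ P.S) : HasNodes p r G := by
  refine ⟨pushBN f hf P hker, U.map f, pushSplit f hf P hker hU, fun i => f (g i), ?_, ?_⟩
  · intro i j hij
    apply hg
    apply P.inj _ (hgS i) _ (hgS j)
    have h1 : (g i)⁻¹ * g j ∈ f.ker := by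
      rw [MonoidHom.mem_ker, map_mul, map_inv]
      simp only at hij
      rw [hij, inv_mul_cancel]
    exact (hker h1).1
  · intro i
    exact ⟨g i, hgS i, rfl⟩

/-- Nodes transfer along an isomorphism. -/
theorem hasNodes_of_equiv76 [Finite Γ] {p r : ℕ} [hp : Fact p.Prime] (h : HasNodes p r Γ) (e : Γ ≃* G) :
    HasNodes p r G := by
  obtain ⟨P, U, hU, f, hf, hfS⟩ := h
  refine hasNodes_push76 e.toMonoidHom e.surjective P ?_ hU f hf hfS
  intro x hx
  have h1 : x = 1 := e.injective (by simpa [MonoidHom.mem_ker] using hx)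
  rw [h1]
  exact Subgroup.one_mem _

/-- The central quotient. -/
theorem hasNodes_center76 [Finite Γ] {p : ℕ} [hp : Fact p.Prime] (P : Cfsg.BNPair Γ) {U : Subgroup Γ}
    (hU : SplitU P U p) {n₀ : Γ} (hn₀ : n₀ ∈ P.N) (hopp : ∀ x ∈ P.B, n₀⁻¹ * x * n₀ ∈ P.B → x ∈ P.N) {r : ℕ}
    (g : Fin r → Γ) (hg : Function.Injective g) (hgS : ∀ i, g i ∈ P.S) :
    HasNodes p r (Γ ⧸ Subgroup.center Γ) := by
  refine hasNodes_push76 (QuotientGroup.mk' (Subgroup.center Γ)) (QuotientGroup.mk'_surjective _) P ?_ hU g hg hgS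
  intro z hz
  have hz' : z ∈ Subgroup.center Γ := by
    simpa [MonoidHom.mem_ker] using hz
  have hzc : ∀ g, g * z = z * g := fun g => (Subgroup.mem_center_iff.1 hz') g
  have hzB : z ∈ P.B := by
    apply mem_B_of_normalizes hU
    intro u hu
    rw [← hzc u]
    simpa using hu
  refine ⟨hzB, hopp z hzB ?_⟩
  have e : n₀⁻¹ * z * n₀ = z := by
    rw [mul_assoc, ← hzc n₀]
    group
  rw [e]
  exact hzB

end push76

section descent76

variable {F V A K : Type*} [Field F] [AddCommGroup V] [Module F V] [Group A] {m : ℕ}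

/-- Representatives of injective nodes in a normal subgroup with `A = H T` are injective. -/
theorem descent_nodes76 (P : Cfsg.BNPair A) (H : Subgroup A) [H.Normal]
    (hAT : ∀ a : A, ∃ h ∈ H, ∃ t ∈ P.B ⊓ P.N, a = h * t) {r : ℕ} (g : Fin r → A)
    (hg : Function.Injective g) (hgS : ∀ i, g i ∈ P.S) :
    ∃ g' : Fin r → H, Function.Injective g' ∧ ∀ i, g' i ∈ (descent P H hAT).S := by
  refine ⟨fun i => ⟨Classical.choose (exists_rep P H hAT (g i)),
    (Classical.choose_spec (exists_rep P H hAT (g i))).1⟩, ?_, fun i => ⟨g i, hgS i, rfl⟩⟩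
  intro i j hij
  have h0 : Classical.choose (exists_rep P H hAT (g i)) = Classical.choose (exists_rep P H hAT (g j)) :=
    congrArg Subtype.val hij
  obtain ⟨_, t, ht, e2⟩ := Classical.choose_spec (exists_rep P H hAT (g i))
  obtain ⟨_, t', ht', e2'⟩ := Classical.choose_spec (exists_rep P H hAT (g j))
  apply hg
  apply P.inj _ (hgS i) _ (hgS j)
  have e3 : (g i)⁻¹ * g j = t⁻¹ * t' := by
    conv_lhs => rw [e2, e2', h0]
    group
  rw [e3]
  exact P.B.mul_mem (P.B.inv_mem ht.1) ht'.1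

variable [Finite A] [Fintype K]

/-- The split (B,N)-pair of a normal subgroup keeps all nodes. -/
theorem sys_nodes_descent76 (S : Sys F V A K m) (p : ℕ) [Fact p.Prime] [CharP F p] (hf : S.FullM)
    (P : Cfsg.BNPair A) (hPB : P.B = S.B) (hPN : P.N = S.NN)
    {n₀ : A} (hn₀ : n₀ ∈ S.NN) (hopp : ∀ x ∈ S.B, n₀⁻¹ * x * n₀ ∈ S.B → x ∈ S.TT)
    (Γ : Subgroup A) [Γ.Normal] (hAT : ∀ a : A, ∃ h ∈ Γ, ∃ t ∈ S.TT, a = h * t)
    (hU : S.UU ≤ Γ)
    (hT : ∀ t ∈ S.TT, t ∈ Γ → (∀ a, S.ρ t (S.X a) = S.X a) → t ^ p = 1 → t = 1)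
    {r : ℕ} (g : Fin r → A) (hg : Function.Injective g) (hgS : ∀ i, g i ∈ P.S) :
    HasNodes p r (Γ ⧸ Subgroup.center Γ) := by
  have hBN : P.B ⊓ P.N = S.TT := by
    rw [hPB, hPN]
    exact S.inf_eq
  have hAT' : ∀ a : A, ∃ h ∈ Γ, ∃ t ∈ P.B ⊓ P.N, a = h * t := by
    intro a
    obtain ⟨h, hh, t, ht, e⟩ := hAT a
    exact ⟨h, hh, t, by rw [hBN]; exact ht, e⟩
  obtain ⟨h₀, hh₀, t₀, ht₀, e₀⟩ := hAT n₀
  have hh₀N : h₀ ∈ S.NN := by
    have : h₀ = n₀ * t₀⁻¹ := by rw [e₀]; group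
    rw [this]
    exact S.NN.mul_mem hn₀ (S.NN.inv_mem (S.TT_le_NN ht₀))
  have hdB : ∀ x, x ∈ (descent P Γ hAT').B ↔ (x : A) ∈ S.B := fun x => by
    rw [← hPB]
    exact Subgroup.mem_subgroupOf
  have hdN : ∀ x, x ∈ (descent P Γ hAT').N ↔ (x : A) ∈ S.NN := fun x => by
    rw [← hPN]
    exact Subgroup.mem_subgroupOf
  have hsplit : SplitU (descent P Γ hAT') (S.UU.subgroupOf Γ) p := by
    refine ⟨?_, ?_, ?_, ?_, ?_⟩
    · rintro ⟨u, huΓ⟩ hu
      exact (hdB _).2 (Sys.UU_le_B (Subgroup.mem_subgroupOf.1 hu))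
    · rintro ⟨b, hbΓ⟩ hb ⟨u, huΓ⟩ hu
      exact Subgroup.mem_subgroupOf.2 (Sys.UU_conj ((hdB _).1 hb) (Subgroup.mem_subgroupOf.1 hu))
    · rintro ⟨b, hbΓ⟩ hb
      have hb' : b ∈ S.B := (hdB _).1 hb
      obtain ⟨u, hu, t, ht, e⟩ := Sys.exists_UT (S := S) hf hb'
      have huΓ := hU hu
      have htΓ : t ∈ Γ := by
        have : t = u⁻¹ * b := by rw [e]; group
        rw [this]
        exact Γ.mul_mem (Γ.inv_mem huΓ) hbΓ
      refine ⟨⟨u, huΓ⟩, Subgroup.mem_subgroupOf.2 hu, ⟨t, htΓ⟩, ⟨(hdB _).2 (S.TT_le_B ht),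
        (hdN _).2 (S.TT_le_NN ht)⟩, Subtype.ext e⟩
    · exact (Sys.isPGroup_UU (S := S) p).comap_subtype
    · intro hd
      have h1 : ¬ p ∣ Nat.card ↥(S.TT ⊓ Γ) := Sys.not_dvd_card_of p _ inf_le_left (by
        intro t ht h2 h3
        exact hT t ht.1 ht.2 h2 h3)
      apply h1
      have e : Nat.card ↥((descent P Γ hAT').B ⊓ (descent P Γ hAT').N) =
          Nat.card ↥(S.TT ⊓ Γ) := by
        apply Nat.card_congr
        refine Equiv.ofBijective (fun x => ⟨x.1.1, ?_, x.1.2⟩) ⟨?_, ?_⟩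
        · have h2 : x.1.1 ∈ S.B ⊓ S.NN := ⟨(hdB _).1 x.2.1, (hdN _).1 x.2.2⟩
          rwa [S.inf_eq] at h2
        · rintro ⟨⟨x, hx⟩, hx'⟩ ⟨⟨y, hy⟩, hy'⟩ hxy
          have : x = y := congrArg (fun z : ↥(S.TT ⊓ Γ) => z.1) hxy
          subst this
          rfl
        · rintro ⟨x, hx, hx2⟩
          exact ⟨⟨⟨x, hx2⟩, (hdB _).2 (S.TT_le_B hx), (hdN _).2 (S.TT_le_NN hx)⟩, rfl⟩
      rw [← e]
      exact hd
  obtain ⟨g', hg', hg'S⟩ := descent_nodes76 P Γ hAT' g hg hgS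
  refine hasNodes_center76 (descent P Γ hAT') hsplit (n₀ := ⟨h₀, hh₀⟩) ((hdN _).2 hh₀N) ?_ g' hg' hg'S
  rintro ⟨x, hxΓ⟩ hx hy
  have hx' : x ∈ S.B := (hdB _).1 hx
  have hy' : h₀⁻¹ * x * h₀ ∈ S.B := (hdB _).1 hy
  have h1 : n₀⁻¹ * x * n₀ ∈ S.B := by
    have e : n₀⁻¹ * x * n₀ = t₀⁻¹ * (h₀⁻¹ * x * h₀) * t₀ := by
      rw [e₀]
      group
    rw [e]
    exact S.B.mul_mem (S.B.mul_mem (S.B.inv_mem (S.TT_le_B ht₀)) hy') (S.TT_le_B ht₀)
  exact (hdN _).2 (S.TT_le_NN (hopp x hx' h1))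

/-- The `m` nodes of a full polar system, with all of them, give `m` nodes in the descent. -/
theorem sys_nodes_descentR76 (S : Sys F V A K m) (p : ℕ) [Fact p.Prime] [CharP F p] (hf : S.Full)
    (hthick : ∀ k : Fin m, k.val + 1 = m → ∃ z, S.Nm z = 0 ∧ S.φ (S.e k) z = 1 ∧
      (∀ a : Fin m × Bool, a.1 ≠ k → S.φ (S.X a) z = 0) ∧ z ≠ S.f k)
    (Γ : Subgroup A) [Γ.Normal] (hAT : ∀ a : A, ∃ h ∈ Γ, ∃ t ∈ S.TT, a = h * t)
    (hU : S.UU ≤ Γ)
    (hT : ∀ t ∈ S.TT, t ∈ Γ → (∀ a, S.ρ t (S.X a) = S.X a) → t ^ p = 1 → t = 1) :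
    HasNodes p m (Γ ⧸ Subgroup.center Γ) := by
  obtain ⟨n₀, hn₀, hopp⟩ := Sys.exists_opp (S := S) hf
  refine sys_nodes_descent76 S p hf.fullM (S.bn hf hthick) rfl rfl hn₀ hopp Γ hAT hU hT
    (fun i => Classical.choose (exists_nodes hf hthick i)) ?_ (fun i => ⟨i, rfl⟩)
  intro i j hij
  have hi := (Classical.choose_spec (Classical.choose_spec (exists_nodes hf hthick i))).1
  have hj := (Classical.choose_spec (Classical.choose_spec (exists_nodes hf hthick j))).1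
  have h0 : (Classical.choose (exists_nodes hf hthick i))⁻¹ * Classical.choose (exists_nodes hf hthick j) ∈ S.B := by
    simp only at hij
    rw [hij, inv_mul_cancel]
    exact S.B.one_mem
  have h1 := (hi.inv.mul hj).eq_one_of_mem_B h0
  have h2 : rNode i = rNode j := inv_mul_eq_one.1 h1
  exact rNode_injective h2

end descent76

variable {F : Type*} [Field F] [Fintype F] {m : ℕ}

/-- `PSU n` has at least `n / 2` nodes. -/
theorem nodes_PSU (p : ℕ) [Fact p.Prime] [CharP F p] {n q : ℕ} (hn : 2 ≤ n) (hF : Fintype.card F = q ^ 2) :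
    HasNodes p (n / 2) (Cfsg.PSU n F q) := by
  open Cfsg.Agent.Lib.ClUnit in
  haveI : Finite (↥(Gam n F q) ⧸ Subgroup.center ↥(Gam n F q)) := inferInstance
  refine hasNodes_of_equiv76 ?_ (Cfsg.Agent.Lib.ClTransfer.quotCenterEquiv GamEquiv)
  rcases Nat.even_or_odd' n with ⟨m, hm | hm⟩
  · obtain ⟨D⟩ := exists_UD (F := F) (q := q) (n := n) (m := m) (K' := Empty) hF (by simpa using hm)
    have e : n / 2 = m := by omega
    rw [e]
    exact sys_nodes_descentR76 D.sys p D.sys_full (fun k _ => D.sys_thick k) (Gam n F q)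
      (D.exists_Gam_T (by omega)) (D.UU_le_Gam p) (fun t _ _ h1 h2 => D.torus_p p h1 h2)
  · obtain ⟨D⟩ := exists_UD (F := F) (q := q) (n := n) (m := m) (K' := Unit) hF (by simpa using hm)
    have e : n / 2 = m := by omega
    rw [e]
    exact sys_nodes_descentR76 D.sys p D.sys_full (fun k _ => D.sys_thick k) (Gam n F q)
      (D.exists_Gam_T (by omega)) (D.UU_le_Gam p) (fun t _ _ h1 h2 => D.torus_p p h1 h2)

/-- `PΩ⁺(2m)` has at least `m` nodes. -/
theorem nodes_plus (hm : 2 ≤ m) [Nonempty (Fin m)] (p : ℕ) [Fact p.Prime] [CharP F p]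
    (hOG : O (qPlus m F) ≤ G (qPlus m F))
    (k : Fin m) (hk : k.val + 1 = m) :
    HasNodes p m (Cfsg.POmega F ⇑(qPlus m F)) := by
  haveI := (odPlus F m).instFiniteA
  have h := dhypo (F := F) k hk
  obtain ⟨n₀, hn₀, hopp⟩ := h.exists_opp_H
  let Γ' : Subgroup ↥(HHo (m := m) (F := F)) := (Cfsg.Omega F ⇑(odPlus F m).Q).subgroupOf HHo
  haveI : Γ'.Normal := inferInstance
  have hnode : ∀ i : Fin m, ∃ s : ↥(HHo (m := m) (F := F)), s ∈ h.bnD.S ∧
      ((odPlus F m).sys.restrict HHo).Mon (rD i) s := by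
    intro i
    refine ⟨_, ⟨⟨i, hm⟩, rfl⟩, ?_⟩
    exact (Classical.choose_spec (Classical.choose_spec (Classical.choose_spec (h.node i hm)))).1
  choose g hgS hgM using hnode
  have hginj : Function.Injective g := by
    intro i j hij
    have h0 : (g i)⁻¹ * g j ∈ ((odPlus F m).sys.restrict HHo).B := by
      rw [hij, inv_mul_cancel]
      exact Subgroup.one_mem _
    have h1 := ((hgM i).inv.mul (hgM j)).eq_one_of_mem_B h0
    have h2 : rD i = rD j := inv_mul_eq_one.1 h1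
    exact rD_injective hm h2
  have key : HasNodes p m (Γ' ⧸ Subgroup.center Γ') :=
    sys_nodes_descent76 ((odPlus F m).sys.restrict HHo) p h.fullM h.bnD rfl rfl hn₀ hopp Γ'
      (hAT_HH hOG k hk)
      (fun u hu => UU_le_Ω_plus p hOG k hk u.1 hu)
      (fun t _ _ h1 _ => Subtype.ext (Sys.eq_one_of_fix (S := (odPlus F m).sys) (by
        rintro (a | e)
        · exact h1 a
        · exact e.elim)))
      g hginj hgS
  exact hasNodes_of_equiv76 key
    (Cfsg.Agent.Lib.ClTransfer.quotCenterEquiv (Subgroup.subgroupOfEquivOfLe Omega_le_HHo))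

end

end Cfsg.Agent.Lib.PMin29
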