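import Cfsg.Agent.Lib.OverTits9
import Cfsg.Agent.Lib.PMinDefs29

/-!
# The Tits group: two characteristic subgroups of the Sylow `2`-subgroup

The series `KK yy 11 10` and `KK yy 11 9` are the centre and the second centre of the Sylow subgroup `KK yy 11 0`,
so automorphisms preserving the Sylow subgroup preserve them; their normalizers generate the Tits group.
The centres are identified by running through the `1024` normal forms modulo the central involution.
-/

set_option autoImplicit false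
set_option maxRecDepth 100000
set_option linter.unusedSectionVars false
set_option linter.unusedVariables false

namespace Cfsg.Agent.Lib.PMin29.Tits74

open Cfsg Cfsg.Agent.Lib.OverU29 Cfsg.Agent.Lib.PCore
open Cfsg.Agent.Lib.ChainCert Cfsg.Agent.Lib.ProgBits Cfsg.Agent.Lib.ProgChain Cfsg.Agent.Lib.PermChain
  Cfsg.Agent.Lib.TcBits Cfsg.Agent.Lib.TwoF4Gen Cfsg.Agent.Lib.TwoF4PTab Cfsg.Agent.Lib.TwoF4PMain
  Cfsg.Agent.Lib.TwoF4Inv Cfsg.Agent.Lib.TitsParGen Cfsg.Agent.Lib.TitsPar Cfsg.Agent.Lib.TitsPC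
  Cfsg.Agent.Lib.TitsAbs Cfsg.Agent.Lib.TitsLoc Cfsg.Agent.Lib.TwoF4Bridge Cfsg.Agent.Lib.TitsBridge
  Cfsg.Agent.Lib.OverTits9

local notation "SS" => KK yy 11 0

/-! ### Normal forms -/

/-- the increasing index lists in the range `i, …, i + n - 1` -/
def tSubs : ℕ → ℕ → List (List ℕ)
  | 0, _ => [[]]
  | n + 1, i => tSubs n (i + 1) ++ (tSubs n (i + 1)).map (i :: ·)

theorem mem_tSubs : ∀ (n i : ℕ), i + n = 10 → ∀ x ∈ KK yy 11 i,
    ∃ l ∈ tSubs n i, ∃ w ∈ KK yy 11 10, x = prodW g (nfw l) * w := by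
  intro n
  induction n with
  | zero =>
    intro i hi x hx
    have h10 : i = 10 := by omega
    subst h10
    refine ⟨[], by simp [tSubs], x, hx, ?_⟩
    have : prodW g (nfw []) = 1 := rfl
    rw [this, one_mul]
  | succ n ih =>
    intro i hi x hx
    have hlt : i < 11 := by omega
    rcases (pc_all i hlt).cases x hx with h | h
    · obtain ⟨l, hl, w, hw, e⟩ := ih (i + 1) (by omega) x h
      exact ⟨l, List.mem_append_left _ hl, w, hw, e⟩
    · obtain ⟨l, hl, w, hw, e⟩ := ih (i + 1) (by omega) _ h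
      refine ⟨i :: l, List.mem_append_right _ (List.mem_map_of_mem hl), w, hw, ?_⟩
      have h1 : nfw (i :: l) = ys i ++ nfw l := by simp [nfw]
      rw [h1, prodW_append, mul_assoc, ← e]
      show x = yy i * ((yy i)⁻¹ * x)
      group

/-! ### The involution -/

theorem y_mem_SS {i : ℕ} (hi : i < 11) : yy i ∈ SS := y_mem_KK yy (Nat.zero_le _) hi

theorem y_comm_z {i : ℕ} (hi : i < 11) : yy i * yy 10 = yy 10 * yy i := by
  have h := (List.all_eq_true.mp cj10_chk) i (List.mem_range.mpr hi)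
  have := ctx.prodW_eq h
  simp only [prodW_append] at this
  exact this

theorem S_comm_z {s : Equiv.Perm (Fin 1755)} (hs : s ∈ SS) : s * yy 10 = yy 10 * s := by
  induction hs using Subgroup.closure_induction with
  | mem x hx =>
    obtain ⟨j, ⟨h1, h2⟩, rfl⟩ := hx
    exact y_comm_z h2
  | one => simp
  | mul a c _ _ ha hc => rw [mul_assoc, hc, ← mul_assoc, ha, mul_assoc]
  | inv a _ ha => exact Commute.inv_left ha

theorem KK10_cases {w : Equiv.Perm (Fin 1755)} (hw : w ∈ KK yy 11 10) : w = 1 ∨ w = yy 10 := by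
  have htop : KK yy 11 (10 + 1) = ⊥ := KK_top yy 11
  rcases (pc_all 10 (by norm_num)).cases w hw with h | h
  · rw [htop, Subgroup.mem_bot] at h
    exact Or.inl h
  · rw [htop, Subgroup.mem_bot, inv_mul_eq_one] at h
    exact Or.inr h.symm

theorem KK10_comm {s w : Equiv.Perm (Fin 1755)} (hs : s ∈ SS) (hw : w ∈ KK yy 11 10) : s * w = w * s := by
  rcases KK10_cases hw with rfl | rfl
  · simp
  · exact S_comm_z hs

theorem KK_le_S (a : ℕ) : KK yy 11 a ≤ SS := KK_le yy 11 (Nat.zero_le _)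

theorem z_mem_T : yy 10 ∈ T := yy_T (by norm_num)

/-! ### The test of the normal forms -/

/-- a union of orbits of the involution -/
def tZm : ℕ := nat_lit 1491155742631791772646322399060492222612527042997350720519991527701756631790220597189142170750832530029867839051080533791212167122333009015434379139015760687981300872016697200400324175498156795769207093469701610810334094814308159380157211143596907949427661781263603041384601870389816526244683872037069814956128632349432061242504538844378113329932051963161744385778768591476753475677266863837105404286710079984066928027871865753146434876577438584595220185436606648545929007948789730917340288440869245865617044774134587384162809819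

theorem tZm_inv : wordApply pr (ys 10) tZm = tZm := by decide +kernel

theorem tZm_bit (p : Fin 1755) : tZm.testBit (yy 10 p).val = tZm.testBit p.val := by
  have h := testBit_wordApply (2 ^ 11) pr (ys 10) (fun a _ => ctx.hv a) tZm p.val
  rw [tZm_inv, ← ctx.prodW_apply] at h
  exact h.symm

theorem tZm_bit' {c : Equiv.Perm (Fin 1755)} (hc : c = 1 ∨ c = yy 10) (p : Fin 1755) :
    tZm.testBit (c p).val = tZm.testBit p.val := by
  rcases hc with rfl | rfl
  · rfl
  · exact tZm_bit p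

theorem ne_of_tTest {w1 w2 : List ℕ}
    (h : Nat.beq (wordApply pr w1 tZm % 2 ^ 1755) (wordApply pr w2 tZm % 2 ^ 1755) = false)
    {c : Equiv.Perm (Fin 1755)} (hc : c = 1 ∨ c = yy 10) : prodW g w1 ≠ c * prodW g w2 := by
  intro e
  apply Nat.ne_of_beq_eq_false h
  apply Nat.eq_of_testBit_eq
  intro j
  rw [Nat.testBit_mod_two_pow, Nat.testBit_mod_two_pow]
  by_cases hj : j < 1755
  · simp only [hj, decide_true, Bool.true_and]
    rw [testBit_wordApply (2 ^ 11) pr w1 (fun a _ => ctx.hv a), testBit_wordApply (2 ^ 11) pr w2 (fun a _ => ctx.hv a)]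
    have e1 := ctx.prodW_apply w1 ⟨j, hj⟩
    have e2 := ctx.prodW_apply w2 ⟨j, hj⟩
    simp only at e1 e2
    rw [← e1, ← e2]
    change tZm.testBit (prodW g w1 ⟨j, hj⟩).val = tZm.testBit (prodW g w2 ⟨j, hj⟩).val
    rw [e, Equiv.Perm.mul_apply]
    exact tZm_bit' hc _
  · simp [hj]

/-- the order in which the series is tried -/
def tOrd : List ℕ := [0, 1]

/-- the test on a normal form -/
def tTest (l : List ℕ) : Bool :=
  (match l with
    | [] => true
    | [9] => true
    | _ => false) ||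
  tOrd.any fun i =>
    !(Nat.beq (wordApply pr (nfw l ++ ys i) tZm % 2 ^ 1755) (wordApply pr (ys i ++ nfw l) tZm % 2 ^ 1755))

theorem tAll : (tSubs 10 0).all tTest = true := by decide +kernel

/-- elements central modulo the involution lie in the four-group -/
theorem Z2_le {x : Equiv.Perm (Fin 1755)} (hx : x ∈ SS)
    (h : ∀ i, i < 11 → ∃ c, (c = 1 ∨ c = yy 10) ∧ x * yy i = c * (yy i * x)) : x ∈ KK yy 11 9 := by
  obtain ⟨l, hl, w, hw, rfl⟩ := mem_tSubs 10 0 rfl x hx
  have ht := (List.all_eq_true.mp tAll) l hl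
  unfold tTest at ht
  rw [Bool.or_eq_true] at ht
  have hw9 : w ∈ KK yy 11 9 := KK_le yy 11 (by norm_num) hw
  rcases ht with h0 | h1
  · have hl9 : prodW g (nfw l) ∈ KK yy 11 9 := by
      match l, h0 with
      | [], _ => exact Subgroup.one_mem _
      | [9], _ => exact nf_mem (a := 9) (l := [9]) (by decide)
    exact Subgroup.mul_mem _ hl9 hw9
  · exfalso
    rw [List.any_eq_true] at h1
    obtain ⟨i, hi, hne⟩ := h1
    have hi' : i < 11 := by
      simp only [tOrd, List.mem_cons, List.not_mem_nil, or_false] at hi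
      omega
    obtain ⟨c, hc, e⟩ := h i hi'
    have hne' : Nat.beq (wordApply pr (nfw l ++ ys i) tZm % 2 ^ 1755)
        (wordApply pr (ys i ++ nfw l) tZm % 2 ^ 1755) = false := by
      simpa using hne
    apply ne_of_tTest hne' hc
    rw [prodW_append, prodW_append]
    change prodW g (nfw l) * yy i = c * (yy i * prodW g (nfw l))
    have hcomm := KK10_comm (y_mem_SS hi') hw
    have e3 : prodW g (nfw l) * w * yy i = (prodW g (nfw l) * yy i) * w := by
      rw [mul_assoc, ← hcomm, mul_assoc]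
    rw [e3] at e
    have e4 : c * (yy i * (prodW g (nfw l) * w)) = (c * (yy i * prodW g (nfw l))) * w := by
      simp only [mul_assoc]
    rw [e4] at e
    exact mul_right_cancel e

/-! ### The second centre -/

theorem y9_cases_chk : (List.range 11).all (fun i =>
    wChk R Y pr (ys i ++ ys 9) (ys 9 ++ ys i) || wChk R Y pr (ys i ++ ys 9) (ys 9 ++ (ys 10 ++ ys i))) = true := by
  decide +kernel

theorem y9_cases {i : ℕ} (hi : i < 11) :
    yy i * yy 9 = yy 9 * yy i ∨ yy i * yy 9 = yy 9 * (yy 10 * yy i) := by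
  have h := (List.all_eq_true.mp y9_cases_chk) i (List.mem_range.mpr hi)
  rw [Bool.or_eq_true] at h
  rcases h with h | h
  · left
    have := ctx.prodW_eq h
    simp only [prodW_append] at this
    exact this
  · right
    have := ctx.prodW_eq h
    simp only [prodW_append] at this
    exact this

theorem z_sq : yy 10 * yy 10 = 1 := ser.zz

theorem y9_comm {s : Equiv.Perm (Fin 1755)} (hs : s ∈ SS) :
    ∃ c ∈ KK yy 11 10, yy 9 * s = c * (s * yy 9) := by
  induction hs using Subgroup.closure_induction with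
  | mem x hx =>
    obtain ⟨j, ⟨h1, h2⟩, rfl⟩ := hx
    rcases y9_cases h2 with h | h
    · exact ⟨1, Subgroup.one_mem _, by rw [h, one_mul]⟩
    · refine ⟨yy 10, y_mem_KK yy (by norm_num) (by norm_num), ?_⟩
      rw [h]
      have hz9 : yy 9 * yy 10 = yy 10 * yy 9 := y_comm_z (by norm_num)
      calc yy 9 * yy j = (yy 10 * yy 10) * (yy 9 * yy j) := by rw [z_sq, one_mul]
        _ = yy 10 * (yy 10 * yy 9) * yy j := by simp only [mul_assoc]
        _ = yy 10 * (yy 9 * yy 10) * yy j := by rw [hz9]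
        _ = yy 10 * (yy 9 * (yy 10 * yy j)) := by simp only [mul_assoc]
  | one => exact ⟨1, Subgroup.one_mem _, by simp⟩
  | mul a b ha hb iha ihb =>
    obtain ⟨c, hc, ec⟩ := iha
    obtain ⟨d, hd, ed⟩ := ihb
    refine ⟨c * d, Subgroup.mul_mem _ hc hd, ?_⟩
    have h1 := KK10_comm ha hd
    calc yy 9 * (a * b) = (yy 9 * a) * b := by group
      _ = c * (a * (yy 9 * b)) := by rw [ec]; group
      _ = c * ((a * d) * (b * yy 9)) := by rw [ed]; group
      _ = c * d * (a * b * yy 9) := by rw [h1]; group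
  | inv a ha iha =>
    obtain ⟨c, hc, ec⟩ := iha
    refine ⟨c⁻¹, Subgroup.inv_mem _ hc, ?_⟩
    have h1 := KK10_comm ha hc
    have h2 : a⁻¹ * c = c * a⁻¹ := by
      have : c * a⁻¹ = a⁻¹ * (a * c) * a⁻¹ := by group
      rw [this, h1]
      group
    have h3 : yy 9 * a⁻¹ = c⁻¹ * (a⁻¹ * yy 9) := by
      have : c⁻¹ * (a⁻¹ * yy 9) = c⁻¹ * (a⁻¹ * (yy 9 * a)) * a⁻¹ := by group
      rw [this, ec]
      have h5 : c⁻¹ * (a⁻¹ * (c * (a * yy 9))) * a⁻¹ = c⁻¹ * ((a⁻¹ * c) * (a * yy 9)) * a⁻¹ := by group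
      rw [h5, h2]
      group
    exact h3

theorem KK9_comm {x s : Equiv.Perm (Fin 1755)} (hx : x ∈ KK yy 11 9) (hs : s ∈ SS) :
    ∃ c ∈ KK yy 11 10, x * s = c * (s * x) := by
  rcases (pc_all 9 (by norm_num)).cases x hx with h | h
  · refine ⟨1, Subgroup.one_mem _, ?_⟩
    rw [one_mul]
    exact (KK10_comm hs h).symm
  · obtain ⟨c, hc, e⟩ := y9_comm hs
    have hw : (yy 9)⁻¹ * x ∈ KK yy 11 10 := h
    refine ⟨c, hc, ?_⟩
    have hx' : x = yy 9 * ((yy 9)⁻¹ * x) := by group
    set w := (yy 9)⁻¹ * x with hwdef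
    have h1 := KK10_comm hs hw
    rw [hx']
    calc yy 9 * w * s = yy 9 * (s * w) := by rw [mul_assoc, ← h1]
      _ = (yy 9 * s) * w := by group
      _ = c * (s * yy 9) * w := by rw [e]
      _ = c * (s * (yy 9 * w)) := by group

/-- central elements lie in the subgroup of order 2 -/
theorem Z_le {x : Equiv.Perm (Fin 1755)} (hx : x ∈ SS) (h : ∀ s ∈ SS, x * s = s * x) : x ∈ KK yy 11 10 := by
  have h9 : x ∈ KK yy 11 9 := Z2_le hx (fun i hi => ⟨1, Or.inl rfl, by rw [one_mul]; exact h _ (y_mem_SS hi)⟩)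
  rcases (pc_all 9 (by norm_num)).cases x h9 with h1 | h1
  · exact h1
  · exfalso
    have hw : (yy 9)⁻¹ * x ∈ KK yy 11 10 := h1
    have h5 : yy 5 * yy 9 = yy 9 * (yy 10 * yy 5) := by
      have hc : wChk R Y pr (ys 5 ++ ys 9) (ys 9 ++ (ys 10 ++ ys 5)) = true := by decide +kernel
      have := ctx.prodW_eq hc
      simp only [prodW_append] at this
      exact this
    have h6 := KK10_comm (y_mem_SS (i := 5) (by norm_num)) hw
    have h7 := h _ (y_mem_SS (i := 5) (by norm_num))
    have hx' : x = yy 9 * ((yy 9)⁻¹ * x) := by group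
    set w := (yy 9)⁻¹ * x with hwdef
    rw [hx'] at h7
    apply z_ne
    have h8 : yy 9 * w * yy 5 = yy 5 * (yy 9 * w) := h7
    have h9 : yy 5 * (yy 9 * w) = yy 9 * (yy 10 * yy 5) * w := by rw [← mul_assoc, h5]
    have h10 : yy 9 * w * yy 5 = yy 9 * yy 5 * w := by
      rw [mul_assoc, ← h6, mul_assoc]
    rw [h9, h10] at h8
    have h11 := mul_right_cancel h8
    have h12 := mul_left_cancel h11
    have h13 : yy 10 * yy 5 = 1 * yy 5 := by rw [one_mul]; exact h12.symm
    exact mul_right_cancel h13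

/-! ### In the group `T` -/

/-- the centre of the Sylow subgroup -/
noncomputable def tR1 : Subgroup ↥T := (KK yy 11 10).subgroupOf T
/-- the second centre of the Sylow subgroup -/
noncomputable def tR2 : Subgroup ↥T := (KK yy 11 9).subgroupOf T

theorem mem_tR1_iff (x : ↥T) : x ∈ tR1 ↔ x ∈ S0 ∧ ∀ s ∈ S0, x * s = s * x := by
  constructor
  · intro hx
    have hx1 : (x : Equiv.Perm (Fin 1755)) ∈ KK yy 11 10 := hx
    refine ⟨KK_le_S 10 hx1, fun s hs => Subtype.ext ?_⟩
    exact (KK10_comm (s := (s : Equiv.Perm (Fin 1755))) hs hx1).symm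
  · rintro ⟨hx, h⟩
    apply Z_le hx
    intro s hs
    have := h ⟨s, S_le_T hs⟩ hs
    exact congrArg Subtype.val this

theorem mem_tR2_iff (x : ↥T) : x ∈ tR2 ↔ x ∈ S0 ∧ ∀ s ∈ S0, ∃ c ∈ tR1, x * s = c * (s * x) := by
  constructor
  · intro hx
    have hx1 : (x : Equiv.Perm (Fin 1755)) ∈ KK yy 11 9 := hx
    refine ⟨KK_le_S 9 hx1, fun s hs => ?_⟩
    obtain ⟨c, hc, e⟩ := KK9_comm hx1 (s := (s : Equiv.Perm (Fin 1755))) hs
    exact ⟨⟨c, S_le_T (KK_le_S 10 hc)⟩, hc, Subtype.ext e⟩
  · rintro ⟨hx, h⟩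
    apply Z2_le hx
    intro i hi
    obtain ⟨c, hc, e⟩ := h ⟨yy i, S_le_T (y_mem_SS hi)⟩ (y_mem_SS hi)
    exact ⟨c, KK10_cases hc, congrArg Subtype.val e⟩

theorem equiv_mem_iff {G : Type*} [Group G] (σ : G ≃* G) {U : Subgroup G} (hU : U.map σ.toMonoidHom = U)
    (u : G) : σ u ∈ U ↔ u ∈ U := by
  constructor
  · intro h
    rw [← hU] at h
    obtain ⟨v, hv, e⟩ := h
    have : v = u := σ.injective e
    exact this ▸ hv
  · intro h
    rw [← hU]
    exact ⟨u, h, rfl⟩

theorem map_eq_of_iff {G : Type*} [Group G] (σ : G ≃* G) {Z : Subgroup G} (h : ∀ x, σ x ∈ Z ↔ x ∈ Z) :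
    Z.map σ.toMonoidHom = Z := by
  ext x
  constructor
  · rintro ⟨y, hy, rfl⟩
    exact (h y).mpr hy
  · intro hx
    refine ⟨σ.symm x, ?_, by simp⟩
    rw [SetLike.mem_coe, ← h]
    simpa using hx

theorem char1_map {G : Type*} [Group G] (σ : G ≃* G) {U Z : Subgroup G} (hU : U.map σ.toMonoidHom = U)
    (hZ : ∀ x, x ∈ Z ↔ x ∈ U ∧ ∀ s ∈ U, x * s = s * x) : Z.map σ.toMonoidHom = Z := by
  have hU' := equiv_mem_iff σ hU
  apply map_eq_of_iff
  intro x
  rw [hZ, hZ, hU']
  refine and_congr_right fun _ => ⟨fun h s hs => ?_, fun h s hs => ?_⟩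
  · have := h (σ s) ((hU' s).mpr hs)
    apply σ.injective
    simpa using this
  · have hs' : σ.symm s ∈ U := by
      rw [← hU']
      simpa using hs
    have := congrArg σ (h _ hs')
    simpa using this

theorem char2_map {G : Type*} [Group G] (σ : G ≃* G) {U Z Z2 : Subgroup G} (hU : U.map σ.toMonoidHom = U)
    (hZ : Z.map σ.toMonoidHom = Z) (hZ2 : ∀ x, x ∈ Z2 ↔ x ∈ U ∧ ∀ s ∈ U, ∃ c ∈ Z, x * s = c * (s * x)) :
    Z2.map σ.toMonoidHom = Z2 := by
  have hU' := equiv_mem_iff σ hU
  have hZ' := equiv_mem_iff σ hZ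
  apply map_eq_of_iff
  intro x
  rw [hZ2, hZ2, hU']
  refine and_congr_right fun _ => ⟨fun h s hs => ?_, fun h s hs => ?_⟩
  · obtain ⟨c, hc, e⟩ := h (σ s) ((hU' s).mpr hs)
    have hc' : σ.symm c ∈ Z := by
      rw [← hZ']
      simpa using hc
    refine ⟨σ.symm c, hc', ?_⟩
    apply σ.injective
    simpa using e
  · have hs' : σ.symm s ∈ U := by
      rw [← hU']
      simpa using hs
    obtain ⟨c, hc, e⟩ := h _ hs'
    refine ⟨σ c, (hZ' c).mpr hc, ?_⟩
    have := congrArg σ e
    simpa using this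

theorem lift_norm {a : ℕ} {x : ↥T} (h : (x : Equiv.Perm (Fin 1755)) ∈ Subgroup.normalizer (KK yy 11 a : Set (Equiv.Perm (Fin 1755)))) :
    x ∈ Subgroup.normalizer (((KK yy 11 a).subgroupOf T : Subgroup ↥T) : Set ↥T) := by
  rw [Subgroup.mem_normalizer_iff] at h ⊢
  intro y
  have := h (y : Equiv.Perm (Fin 1755))
  simpa [Subgroup.mem_subgroupOf] using this

theorem ee_T : ee ∈ T := by
  have h : tt 6 ∈ T := tt_T (by norm_num)
  have e : xx (6, 0) = tt 6 := by
    rw [xx_eq, pow_zero, mul_one]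
  rw [← xx_60, e]
  exact h

/-- the normalizers generate `T` -/
theorem norm_sup_top : Subgroup.normalizer (tR1 : Set ↥T) ⊔ Subgroup.normalizer (tR2 : Set ↥T) = ⊤ := by
  set N := Subgroup.normalizer (tR1 : Set ↥T) ⊔ Subgroup.normalizer (tR2 : Set ↥T) with hN
  set M := N.map T.subtype with hM
  have hS : SS ≤ M := by
    intro s hs
    have h1 : (⟨s, S_le_T hs⟩ : ↥T) ∈ Subgroup.normalizer (tR1 : Set ↥T) := lift_norm (S_le_norm10 hs)
    exact ⟨⟨s, S_le_T hs⟩, (le_sup_left : _ ≤ N) h1, rfl⟩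
  have he : ee ∈ M := by
    have h1 : (⟨ee, ee_T⟩ : ↥T) ∈ Subgroup.normalizer (tR2 : Set ↥T) := lift_norm e_norm9
    exact ⟨⟨ee, ee_T⟩, (le_sup_right : _ ≤ N) h1, rfl⟩
  have hf : ff ∈ M := by
    have h1 : (⟨ff, ff_T⟩ : ↥T) ∈ Subgroup.normalizer (tR1 : Set ↥T) := lift_norm f_norm10
    exact ⟨⟨ff, ff_T⟩, (le_sup_left : _ ≤ N) h1, rfl⟩
  rw [eq_top_iff]
  rintro x -
  have hx : (x : Equiv.Perm (Fin 1755)) ∈ M := by
    obtain ⟨h, hh, c, hc, j, hj, u, hu, e⟩ := cover x.2
    rw [e, xx_eq]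
    exact M.mul_mem (M.mul_mem (hS hh) (M.mul_mem (tok_mem hS he hf c) (M.pow_mem hf j))) (hS hu)
  obtain ⟨y, hy, e⟩ := hx
  have : y = x := Subtype.ext e
  exact this ▸ hy

theorem twoChar_T74 : HasTwoChar 2 ↥T := by
  obtain ⟨Q, hQ⟩ := exists_sylow_S0
  have hz : (⟨yy 10, z_mem_T⟩ : ↥T) ≠ 1 := fun h => z_ne (congrArg Subtype.val h)
  refine ⟨Q, tR1, tR2, ?_, ?_, ?_, ?_, ?_, norm_sup_top⟩
  · intro h
    have : (⟨yy 10, z_mem_T⟩ : ↥T) ∈ tR1 := y_mem_KK yy (by norm_num) (by norm_num)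
    rw [h, Subgroup.mem_bot] at this
    exact hz this
  · intro h
    have : (⟨yy 10, z_mem_T⟩ : ↥T) ∈ tR2 := y_mem_KK yy (by norm_num) (by norm_num)
    rw [h, Subgroup.mem_bot] at this
    exact hz this
  · rw [hQ]
    intro x hx
    exact KK_le_S 10 hx
  · rw [hQ]
    intro x hx
    exact KK_le_S 9 hx
  · intro σ hσ
    rw [hQ] at hσ
    have h1 := char1_map σ hσ mem_tR1_iff
    exact ⟨h1, char2_map σ hσ h1 mem_tR2_iff⟩

/-- transfer along an isomorphism -/
theorem twoChar_of_equiv74 {p : ℕ} {K L : Type*} [Group K] [Group L] (φ : K ≃* L) (h : HasTwoChar p L) :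
    HasTwoChar p K := by
  obtain ⟨U, R₁, R₂, h1, h2, h3, h4, hinv, hgen⟩ := h
  have hr : (U : Subgroup L) ≤ φ.toMonoidHom.range := by
    rw [MonoidHom.range_eq_top.mpr φ.surjective]
    exact le_top
  let U' : Sylow p K := U.comapOfInjective φ.toMonoidHom φ.injective hr
  have hU' : (U' : Subgroup K) = (U : Subgroup L).comap φ.toMonoidHom := Sylow.coe_comapOfInjective _ _ _ _
  have hbot : ∀ R : Subgroup L, R ≠ ⊥ → R.comap φ.toMonoidHom ≠ ⊥ := by
    intro R hR h0
    apply hR
    rw [eq_bot_iff]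
    intro x hx
    have : φ.symm x ∈ R.comap φ.toMonoidHom := by
      show φ (φ.symm x) ∈ R
      simpa using hx
    rw [h0, Subgroup.mem_bot] at this
    rw [Subgroup.mem_bot]
    simpa using this
  have hnorm : ∀ R : Subgroup L, (Subgroup.normalizer ((R.comap φ.toMonoidHom : Subgroup K) : Set K)).map φ.toMonoidHom
      = Subgroup.normalizer (R : Set L) := by
    intro R
    ext x
    constructor
    · rintro ⟨y, hy, rfl⟩
      rw [SetLike.mem_coe, Subgroup.mem_normalizer_iff] at hy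
      rw [Subgroup.mem_normalizer_iff]
      intro r
      have := hy (φ.symm r)
      simpa [Subgroup.mem_comap] using this
    · intro hx
      rw [Subgroup.mem_normalizer_iff] at hx
      refine ⟨φ.symm x, ?_, by simp⟩
      rw [SetLike.mem_coe, Subgroup.mem_normalizer_iff]
      intro r
      have := hx (φ r)
      simpa [Subgroup.mem_comap] using this
  refine ⟨U', R₁.comap φ.toMonoidHom, R₂.comap φ.toMonoidHom, hbot _ h1, hbot _ h2, ?_, ?_, ?_, ?_⟩
  · rw [hU']
    exact Subgroup.comap_mono h3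
  · rw [hU']
    exact Subgroup.comap_mono h4
  · intro σ hσ
    rw [hU'] at hσ
    let τ : L ≃* L := φ.symm.trans (σ.trans φ)
    have hτ : (U : Subgroup L).map τ.toMonoidHom = U := by
      apply map_eq_of_iff
      intro x
      have e := equiv_mem_iff σ hσ (φ.symm x)
      simpa [τ, Subgroup.mem_comap] using e
    obtain ⟨i1, i2⟩ := hinv τ hτ
    have hgo : ∀ R : Subgroup L, R.map τ.toMonoidHom = R →
        (R.comap φ.toMonoidHom).map σ.toMonoidHom = R.comap φ.toMonoidHom := by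
      intro R hR
      apply map_eq_of_iff
      intro x
      have e := equiv_mem_iff τ hR (φ x)
      simpa [τ, Subgroup.mem_comap] using e
    exact ⟨hgo _ i1, hgo _ i2⟩
  · apply Subgroup.map_injective (f := φ.toMonoidHom) φ.injective
    rw [Subgroup.map_sup, hnorm, hnorm, hgen]
    rw [Subgroup.map_top_of_surjective _ φ.surjective]

/-- **The Tits group has two characteristic subgroups of its Sylow `2`-subgroup whose normalizers generate it.** -/
theorem _root_.Cfsg.Agent.Lib.PMin29.tits_twoChar {K : Type*} [Group K] [Finite K] (h : Cfsg.Lie.IsoTits K) : HasTwoChar 2 K := by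
  obtain ⟨φ₀⟩ := h
  exact twoChar_of_equiv74 (φ₀.trans eT) twoChar_T74

end Cfsg.Agent.Lib.PMin29.Tits74
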