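import Mathlib
import Cfsg.Agent.Lib.PMinDefs29
import Cfsg.Agent.Lib.TwSt50
import Cfsg.Agent.Lib.Chev.TwE6BN
import Cfsg.Agent.Lib.Chev.TwD4BN
import Cfsg.Agent.Lib.Chev.TwF4B

/-!
# Nodes of the split `(B,N)`-pairs of the twisted groups
-/

set_option autoImplicit false
set_option linter.unusedSectionVars false
set_option linter.unusedVariables false

namespace Cfsg.Agent.Lib.PMin29

open Cfsg Cfsg.Lie Cfsg.Agent.Lib.Chev Cfsg.Agent.Lib.LTAut33 Cfsg.Agent.Lib.BNPair Cfsg.Agent.Lib.OverU29 Equiv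
open Cfsg.Agent.Lib.TwSt50

section tw

variable {T : Tabs} {X : Extra} {R : RootTab} {D : ChevalleyDatum}
variable {hF : Full T X R D} {F : Type*} [Field F] [Fintype F] {τ : Tw hF F}

/-- The Weyl group of `J` fixes the coefficients outside `J`. -/
theorem Wk_fix_rc (hF : Full T X R D) {J : Set ℕ} {j : ℕ} (hj : j < D.rank) (hjJ : j ∉ J) :
    ∀ σ ∈ hF.Wk J, ∀ s : Fin D.nroots, R.rcAt (σ s) j = R.rcAt s j := by
  refine hF.Wk_induction_left (J := J) (p := fun σ => ∀ s : Fin D.nroots, R.rcAt (σ s) j = R.rcAt s j) ?_ ?_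
  · intro s
    rfl
  · intro σ i hi hiJ ih s
    have hij : i ≠ j := fun h => hjJ (h ▸ hiJ)
    rw [Perm.mul_apply]
    show R.rcAt (X.wf i (σ s)) j = _
    rw [hF.wf_rc hi (σ s).2 hj, if_neg (Ne.symm hij), sub_zero]
    exact ih s

/-- The longest elements of different orbits are different. -/
theorem nC_ne (A : TwG τ) {i j : ℕ} (hi : i < D.rank) (hj : j < D.rank) (hij : i ∉ A.cls j) :
    (A.nC i).1 ≠ (A.nC j).1 := by
  intro h
  have e : A.nC i = A.nC j := Subtype.ext h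
  have h1 := A.nC_neg i hi i hi (A.self_mem i hi)
  rw [e] at h1
  have h2 := hF.rc_nonpos h1 hi
  rw [Wk_fix_rc hF hi hij _ (A.nC_W j hj), hF.simple_rc hi hi, if_pos rfl] at h2
  omega

theorem tw_hasNodes (A : TwG τ)
    (hcls : ∀ i < D.rank, ∀ j < D.rank, j ∈ A.cls i → A.nC j = A.nC i)
    (hne : ∀ i < D.rank, ∃ x ∈ UL D F (A.cls i), τ.s x = x ∧ x ≠ 1)
    (p : ℕ) [Fact p.Prime] [CharP F p] {r : ℕ} (idx : Fin r → ℕ) (hidx : ∀ k, idx k < D.rank)
    (hd : ∀ k l, k ≠ l → idx k ∉ A.cls (idx l)) : HasNodes p r ↥A.G1 := by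
  refine ⟨A.bnPair hcls hne, U1 A, ⟨hUB A hcls hne, hUn A hcls hne, hUT A hcls hne, hUp A, hT A hcls hne⟩,
    fun k => ⟨(A.nC (idx k)).1, A.nC_mem _ (hidx k)⟩, ?_, fun k => ⟨idx k, hidx k, rfl⟩⟩
  intro k l h
  by_contra hne'
  have h' := congrArg Subtype.val h
  exact nC_ne A (hidx k) (hidx l) (hd k l hne') h'

theorem sc_hasNodes {f : F ≃+* F} {ρ' π' : ℕ → ℕ} {J : ℕ → List ℕ} {A dd : ℕ → ℕ}
    (h : SCOK τ f ρ' π' J A dd) (hJJ : ∀ i < D.rank, ∀ j < D.rank, j ∈ J i → J j = J i)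
    (p : ℕ) [Fact p.Prime] [CharP F p] {r : ℕ} (idx : Fin r → ℕ) (hidx : ∀ k, idx k < D.rank)
    (hd : ∀ k l, k ≠ l → idx k ∉ J (idx l)) : HasNodes p r ↥h.G1 :=
  tw_hasNodes (h.twG) (fun i hi j hj hjc => by
      show ((J j).map (hF.nNt F)).prod = ((J i).map (hF.nNt F)).prod
      rw [hJJ i hi j hj hjc]) (fun i hi => h.ne_one_of_class hi) p idx hidx hd

end tw

section concrete

variable {K : Type*} [Field K] [Fintype K]

theorem nodes_twE6 (p : ℕ) [Fact p.Prime] [CharP K p] {q : ℕ} (hq : IsPrimePow q)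
    (hK : Fintype.card K = q ^ 2) : HasNodes p 3 ↥(twistedE6 K q) := by
  obtain ⟨f, hf, hf3⟩ := TwE6.exists_frob2 hq hK
  rw [← TwE6.G1_eq f hf hf3]
  exact sc_hasNodes (TwE6.sc f) TwE6.hJJ p (fun k => ![0, 1, 2] k) (by decide +kernel) (by decide +kernel)

theorem nodes_twD4 (p : ℕ) [Fact p.Prime] [CharP K p] {q : ℕ} (hq : IsPrimePow q)
    (hK : Fintype.card K = q ^ 3) : HasNodes p 2 ↥(twistedD4 K q) := by
  obtain ⟨f, hf, hf3⟩ := TwD4.exists_frob3 hq hK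
  rw [← TwD4.G1_eq f hf hf3]
  exact sc_hasNodes (TwD4.sc f) TwD4.hJJ p TwD4.repG (by decide +kernel) (by decide +kernel)

theorem nodes_twF4 {m : ℕ} (hK : Fintype.card K = 2 ^ (2 * m + 1)) :
    HasNodes 2 2 ↥(twistedF4 K (2 ^ m)) := by
  obtain ⟨d⟩ := TwF4.exists_dat (K := K) hK
  have := TwF4.charP2 hK
  have : Fact (Nat.Prime 2) := ⟨Nat.prime_two⟩
  exact tw_hasNodes (d.twG) d.hcls d.hne 2 (fun k => k.1) (by decide +kernel)
    (by
      have h : ∀ k l : Fin 2, k ≠ l → k.1 ∉ TwWF4.gen l.1 := by decide +kernel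
      exact h)

end concrete

end Cfsg.Agent.Lib.PMin29
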