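import Mathlib
import Cfsg.Agent.Lib.TwSt50
import Cfsg.Agent.Lib.Chev.TwF4B

set_option autoImplicit false
set_option linter.unusedSectionVars false
set_option linter.unusedVariables false

namespace Cfsg.Agent.Lib.TwSt50.F4Comm

open Cfsg.Lie Cfsg.Agent.Lib.Chev Cfsg.Agent.Lib.Chev.TwF4 Cfsg.Agent.Lib.StBN50 Cfsg.Agent.Lib.StComm50 Cfsg.Agent.Lib.TwSt50 Cfsg.Agent.Lib.BNPair Equiv
open Cfsg.Agent.Lib.Chev.TwWF4 (gen)

variable {K : Type*} [Field K] {e : ℕ} (d : Dat K e) [Fintype K]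

theorem inv_nC0 : Full.invF RootF4T.R chevF4 (hF.rhoN K ((d.twG).nC 0)) = 2 := by
  show Full.invF RootF4T.R chevF4 (hF.rhoN K (((gen 0).map (hF.nNt K)).prod)) = 2
  rw [(gen_vals).1, invF_of_tab (by decide) (by decide) (by decide +kernel) inv03]
  rfl

theorem inv_nC1 : Full.invF RootF4T.R chevF4 (hF.rhoN K ((d.twG).nC 1)) = 4 := by
  show Full.invF RootF4T.R chevF4 (hF.rhoN K (((gen 1).map (hF.nNt K)).prod)) = 4
  rw [(gen_vals).2.1, invF_of_tab (by decide) (by decide) (by decide +kernel) inv12]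
  rfl

theorem card_B (q : ℕ) (hq : q = Fintype.card K) :
    Nat.card ↥(chevF4.borelSubgroup K ⊓ (d.twG).G1) = q ^ 12 * (q - 1) ^ 2 := by
  rw [(d.twG).card_B1]
  have h1 : Nat.card ↥(chevF4.posUnipotent K ⊓ (d.twG).G1) = q ^ 12 := by
    rw [hq]; exact d.card_U1
  have h2 : Nat.card ↥(chevF4.diagonalSubgroup K ⊓ (d.twG).G1) = (q - 1) ^ 2 := by
    rw [hq]; exact d.card_H1
  rw [h1, h2]

theorem zero_lt : 0 < chevF4.rank := by decide
theorem one_lt : 1 < chevF4.rank := by decide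

/-- The two distinguished representatives. -/
noncomputable def σσ : Fin 2 → ↥(d.twG).G1 := fun i =>
  ⟨((d.twG).nC i).1, (d.twG).nC_mem i (lt_trans i.2 (by decide))⟩

theorem σ_mem (i : Fin 2) : σσ d i ∈ (d.bn).S := ⟨i, lt_trans i.2 (by decide), rfl⟩

theorem σ_all : ∀ s ∈ (d.bn).S, ∃ i ∈ (Finset.univ : Finset (Fin 2)), σσ d i = s := by
  rintro s ⟨i, hi, h⟩
  rcases genL_cases hi with hg | hg
  · refine ⟨0, Finset.mem_univ _, Subtype.ext ?_⟩
    rw [h]
    have h0 : (0 : ℕ) ∈ (d.twG).cls i := by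
      show (0 : ℕ) ∈ {x | x ∈ gen i}
      rw [hg]; simp
    have := d.hcls i hi 0 (by decide) h0
    show ((d.twG).nC 0).1 = _
    rw [this]
  · refine ⟨1, Finset.mem_univ _, Subtype.ext ?_⟩
    rw [h]
    have h0 : (1 : ℕ) ∈ (d.twG).cls i := by
      show (1 : ℕ) ∈ {x | x ∈ gen i}
      rw [hg]; simp
    have := d.hcls i hi 1 (by decide) h0
    show ((d.twG).nC 1).1 = _
    rw [this]

theorem card_par0 (q : ℕ) (hq : q = Fintype.card K) :
    Nat.card ((d.bn).parabolic {σσ d 0}) = q ^ 12 * (q - 1) ^ 2 * (1 + q) := by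
  have h := card_par (d.twG) d.hcls d.hne (Q := Fintype.card K) (e := 2) (by norm_num) d.hwt (i := 0) (by decide)
  rw [inv_nC0, card_B d q hq, ← hq] at h
  simp only [Nat.reduceDiv, pow_one] at h
  exact h

theorem card_par1 (q : ℕ) (hq : q = Fintype.card K) :
    Nat.card ((d.bn).parabolic {σσ d 1}) = q ^ 12 * (q - 1) ^ 2 * (1 + q ^ 2) := by
  have h := card_par (d.twG) d.hcls d.hne (Q := Fintype.card K) (e := 2) (by norm_num) d.hwt (i := 1) (by decide)
  rw [inv_nC1, card_B d q hq, ← hq] at h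
  simp only [Nat.reduceDiv] at h
  exact h

/-- The main result. -/
theorem main (q : ℕ) (hq : q = Fintype.card K) [Fact (Nat.Prime 2)] [CharP K 2] {a c : ↥(d.twG).G1} (ha : orderOf a = 2)
    (hac : Commute a c) {r : ℕ} (hr : r.Prime) (hc : orderOf c = r) : r ∣ q * (q ^ 4 - 1) := by
  classical
  have ha' : 2 ∣ orderOf a := by rw [ha]
  obtain ⟨n₀, hn₀, hU0⟩ := exists_n₀ (d.twG) d.hcls d.hne
  obtain ⟨L, hL, hLne, hdvd⟩ := exists_par_dvd (P := d.bn) (p := 2) (σσ d) (A := Finset.univ) (σ_all d)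
    (fun i _ => σ_mem d i) (hUT (d.twG) d.hcls d.hne) (hUn (d.twG) d.hcls d.hne) (hUB (d.twG) d.hcls d.hne)
    (hUp (d.twG)) (hT (d.twG) d.hcls d.hne) (hUinf (d.twG) d.hcls d.hne) hn₀ hU0 (a := a) (c := c)
    ha' hac hr hc
  -- a missing index
  obtain ⟨j, hj⟩ : ∃ j, j ∉ L := by
    by_contra hcon
    push Not at hcon
    exact hLne (Finset.eq_univ_iff_forall.2 hcon)
  -- `L` is inside the complement
  have hle : Cfsg.Agent.Lib.StBN50.Par (d.bn) (σσ d) L ≤ (d.bn).parabolic {σσ d (1 - j)} := by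
    unfold Cfsg.Agent.Lib.StBN50.Par Cfsg.BNPair.parabolic
    apply sup_le_sup_left
    apply Subgroup.closure_mono
    rintro _ ⟨i, hi, rfl⟩
    have : i = 1 - j := by
      have hi' : i ∈ L := hi
      have hne : i ≠ j := fun h => hj (h ▸ hi')
      have key : ∀ i j : Fin 2, i ≠ j → i = 1 - j := by decide
      exact key i j hne
    rw [this]
    exact Set.mem_singleton _
  have h1 : r ∣ Nat.card ((d.bn).parabolic {σσ d (1 - j)}) := by
    refine hdvd.trans ?_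
    exact Subgroup.card_dvd_of_le hle
  have h2 : r ∣ q ^ 12 * (q - 1) ^ 2 * ((1 + q) * (1 + q ^ 2)) := by
    have : j = 0 ∨ j = 1 := by
      have key : ∀ j : Fin 2, j = 0 ∨ j = 1 := by decide
      exact key j
    rcases this with rfl | rfl
    · have e1 : (1 : Fin 2) - 0 = 1 := by decide
      rw [e1, card_par1 d q hq] at h1
      refine h1.trans ?_
      exact Nat.mul_dvd_mul_left _ (Dvd.intro_left _ rfl)
    · have e1 : (1 : Fin 2) - 1 = 0 := by decide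
      rw [e1, card_par0 d q hq] at h1
      refine h1.trans ?_
      exact Nat.mul_dvd_mul_left _ (Dvd.intro _ rfl)
  -- arithmetic
  have hqpos : 1 ≤ q := by rw [hq]; exact Fintype.card_pos
  obtain ⟨t, rfl⟩ : ∃ t, q = t + 1 := ⟨q - 1, by omega⟩
  have e2 : (t + 1) ^ 4 - 1 = t * ((t + 2) * ((t + 1) ^ 2 + 1)) := by
    apply Nat.sub_eq_of_eq_add
    ring
  rw [e2]
  have e3 : (t + 1) - 1 = t := by omega
  rw [e3] at h2
  have h3 : (t + 1) ^ 12 * t ^ 2 * ((1 + (t + 1)) * (1 + (t + 1) ^ 2)) ∣ ((t + 1) * (t * ((t + 2) * ((t + 1) ^ 2 + 1)))) ^ 12 := by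
    have : ((t + 1) * (t * ((t + 2) * ((t + 1) ^ 2 + 1)))) ^ 12 = ((t + 1) ^ 12 * t ^ 2 * ((1 + (t + 1)) * (1 + (t + 1) ^ 2))) * (t ^ 10 * (t + 2) ^ 11 * ((t + 1) ^ 2 + 1) ^ 11) := by ring
    rw [this]
    exact Dvd.intro _ rfl
  exact hr.dvd_of_dvd_pow (h2.trans h3)

end Cfsg.Agent.Lib.TwSt50.F4Comm
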