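import Mathlib
import Cfsg.Agent.Lib.PMinDefs29
import Cfsg.Agent.Lib.TwF4Comm50

/-!
# `²F₄(q)`: two minimal parabolic subgroups of different index

The two nodes of the split `(B,N)`-pair of `²F₄(q)` have parabolic subgroups of orders
`|B| (1 + q)` and `|B| (1 + q²)`.
-/

set_option autoImplicit false
set_option linter.unusedSectionVars false
set_option linter.unusedVariables false

namespace Cfsg.Agent.Lib.PMin29

open Cfsg Cfsg.Lie Cfsg.Agent.Lib.Chev Cfsg.Agent.Lib.TwSt50 Cfsg.Agent.Lib.Chev.TwF4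
open Cfsg.Agent.Lib.TwSt50.F4Comm Cfsg.Agent.Lib.LTAut33

theorem twF4_indexGap {K : Type*} [Field K] [Fintype K] {m : ℕ}
    (hK : Fintype.card K = 2 ^ (2 * m + 1)) : HasIndexGap 2 ↥(twistedF4 K (2 ^ m)) := by
  obtain ⟨d⟩ := TwF4.exists_dat (K := K) hK
  haveI := TwF4.charP2 hK
  haveI : Fact (Nat.Prime 2) := ⟨Nat.prime_two⟩
  refine ⟨d.bn, U1 (d.twG), ⟨hUB (d.twG) d.hcls d.hne, hUn (d.twG) d.hcls d.hne,
    hUT (d.twG) d.hcls d.hne, hUp (d.twG), hT (d.twG) d.hcls d.hne⟩,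
    σσ d 0, σ_mem d 0, σσ d 1, σ_mem d 1, ?_⟩
  intro h
  have hq2 : 2 ≤ Fintype.card K := by
    rw [hK]
    exact Nat.le_self_pow (by omega) 2
  have h0 := card_par0 d (Fintype.card K) rfl
  have h1 := card_par1 d (Fintype.card K) rfl
  haveI : Finite ↥(twistedF4 K (2 ^ m)) := inferInstance
  have e0 := Subgroup.card_mul_index ((d.bn).parabolic {σσ d 0})
  have e1 := Subgroup.card_mul_index ((d.bn).parabolic {σσ d 1})
  have hG : 0 < Nat.card ↥(twistedF4 K (2 ^ m)) := Nat.card_pos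
  set q := Fintype.card K with hq
  rw [h0] at e0
  rw [h1] at e1
  have e1' : q ^ 12 * (q - 1) ^ 2 * (1 + q ^ 2) * ((d.bn).parabolic {σσ d 0}).index =
      Nat.card ↥(twistedF4 K (2 ^ m)) :=
    (congrArg (fun i => q ^ 12 * (q - 1) ^ 2 * (1 + q ^ 2) * i) h).trans e1
  have hi : 0 < ((d.bn).parabolic {σσ d 0}).index := by
    apply Nat.pos_of_ne_zero
    intro h3
    rw [h3, Nat.mul_zero] at e0
    omega
  have e2 : q ^ 12 * (q - 1) ^ 2 * (1 + q) = q ^ 12 * (q - 1) ^ 2 * (1 + q ^ 2) :=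
    Nat.eq_of_mul_eq_mul_right hi (e0.trans e1'.symm)
  have hpos : 0 < q ^ 12 * (q - 1) ^ 2 :=
    Nat.mul_pos (pow_pos (by omega) 12) (pow_pos (by omega) 2)
  have e3 : 1 + q = 1 + q ^ 2 := Nat.eq_of_mul_eq_mul_left hpos e2
  nlinarith

end Cfsg.Agent.Lib.PMin29
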