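import Mathlib
import Cfsg.Agent.Lib.PMinDefs29
import Cfsg.Agent.Lib.OverFam29

/-!
# The centre of the unipotent group of `PSU₄` and `PSU₅`

In the polar system of rank two of a unitary group, the centre of `U` is the group of transvections
with centre `e₀`; the node of the second index fixes the line of `e₀`, so it normalizes that centre.
-/

set_option autoImplicit false
set_option linter.unusedSectionVars false
set_option linter.unusedVariables false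
set_option linter.style.haveILetI false

namespace Cfsg.Agent.Lib.PMin29

open Module Cfsg Cfsg.Agent.Lib.ClBN2 Cfsg.Agent.Lib.BNPair Cfsg.Agent.Lib.LTAut33 Cfsg.Agent.Lib.OverU29
  Cfsg.Agent.Lib.ClPolar Cfsg.Agent.Lib.ClPolar.Sys

noncomputable section

/-- Push of the centre-node property. -/
theorem hasZNode_pushZ64 {Γ G : Type*} [Group Γ] [Group G] [Finite Γ] {p : ℕ} [hp : Fact p.Prime]
    (f : Γ →* G) (hf : Function.Surjective f) (P : Cfsg.BNPair Γ) (hker : f.ker ≤ P.B ⊓ P.N)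
    {U : Subgroup Γ} (hU : SplitU P U p) {a : Γ} (ha : a ∈ P.S)
    (hz : ∀ z ∈ U, (∀ u ∈ U, u * z = z * u) →
      a * z * a⁻¹ ∈ U ∧ ∀ u ∈ U, u * (a * z * a⁻¹) = (a * z * a⁻¹) * u) :
    HasZNode p G := by
  refine ⟨pushBN f hf P hker, U.map f, pushSplit f hf P hker hU, f a, ⟨a, ha, rfl⟩, ?_⟩
  rintro _ ⟨z, hzU, rfl⟩ hc
  have hz' : ∀ u ∈ U, u * z = z * u := by
    intro u hu
    have h1 : f u * f z = f z * f u := hc _ ⟨u, hu, rfl⟩
    have h2 : (z * u)⁻¹ * (u * z) ∈ f.ker := by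
      rw [MonoidHom.mem_ker, map_mul, map_inv, map_mul, map_mul, h1, inv_mul_cancel]
    have h3 : (z * u)⁻¹ * (u * z) ∈ U := U.mul_mem (U.inv_mem (U.mul_mem hzU hu)) (U.mul_mem hu hzU)
    have h4 : (z * u)⁻¹ * (u * z) ∈ U ⊓ (P.B ⊓ P.N) := ⟨h3, hker h2⟩
    rw [inf_T_eq_bot hU, Subgroup.mem_bot] at h4
    exact (inv_mul_eq_one.1 h4).symm
  obtain ⟨h1, h2⟩ := hz z hzU hz'
  refine ⟨⟨_, h1, by simp only [map_mul, map_inv]⟩, ?_⟩
  rintro _ ⟨u, hu, rfl⟩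
  have := congrArg f (h2 u hu)
  simpa only [map_mul, map_inv] using this

theorem hasZNode_of_equivZ64 {Γ G : Type*} [Group Γ] [Group G] [Finite Γ] {p : ℕ} [hp : Fact p.Prime]
    (h : HasZNode p Γ) (e : Γ ≃* G) : HasZNode p G := by
  obtain ⟨P, U, hU, a, ha, hz⟩ := h
  refine hasZNode_pushZ64 e.toMonoidHom e.surjective P ?_ hU ha hz
  intro x hx
  have h1 : x = 1 := e.injective (by simpa [MonoidHom.mem_ker] using hx)
  rw [h1]
  exact Subgroup.one_mem _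

section sys

variable {F V A K : Type*} [Field F] [AddCommGroup V] [Module F V] [Group A]

/-- The transvection form with centre `e₀`. -/
def IsTvZ64 (S : Sys F V A K 2) (γ : F) (g : A) : Prop :=
  ∀ y, S.ρ g y = y + (γ * S.φ y (S.e 0)) • S.e 0

variable {S : Sys F V A K 2}

theorem h10Z64 : (1 : Fin 2) ≠ 0 := by decide
theorem h01Z64 : (0 : Fin 2) ≠ 1 := by decide

theorem eq_zero_of_perpZ64 (hNm : ∀ x, S.Nm x = S.φ x x) {y : V} (h0 : S.φ y (S.e 0) = 0)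
    (h1 : S.φ y (S.e 1) = 0) (h2 : S.φ y (S.f 0) = 0) (h3 : S.φ y (S.f 1) = 0)
    (h4 : ∀ k, S.φ y (S.w k) = 0) : y = 0 := by
  have hX : ∀ a, S.φ y (S.X a) = 0 := by
    rintro ⟨i, b⟩
    have hi : i = 0 ∨ i = 1 := by
      revert i
      decide
    rcases hi with rfl | rfl <;> cases b
    exacts [h2, h0, h3, h1]
  have key : ∀ b, S.φ y b = 0 := by
    intro b
    induction b using S.Y_induction with
    | h0 => exact S.φ_zero_r _
    | h1 i =>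
      rcases i with a | k
      · exact hX a
      · exact h4 k
    | h2 a b ha hb => rw [S.add_r, ha, hb, add_zero]
    | h3 c a ha => rw [S.smul_r, ha, mul_zero]
  exact S.aniso y hX (by rw [hNm]; exact key y)

variable [Finite A]

theorem E_zero_eqZ64 : S.E 0 = ⊥ := by
  unfold Sys.E
  have : {l : Fin 2 | l.val < 0} = ∅ := by
    ext l
    simp
  rw [this, Set.image_empty, Submodule.span_empty]

theorem UU_fix_e0Z64 {u : A} (hu : u ∈ S.UU) : S.ρ u (S.e 0) = S.e 0 := by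
  have h := hu.2.1 (0 : Fin 2) (S.e 0) (S.e_mem_E (Nat.lt_succ_self _))
  have h0 : S.ρ u (S.e 0) - S.e 0 ∈ S.E 0 := h
  rw [E_zero_eqZ64, Submodule.mem_bot] at h0
  exact sub_eq_zero.1 h0

theorem IsTvZ64.mem_UU {γ : F} {g : A} (h : IsTvZ64 S γ g) : g ∈ S.UU := by
  have hE : ∀ j, ∀ x ∈ S.E j, S.ρ g x = x := by
    intro j x hx
    rw [h x, S.φ_E_e hx]
    simp
  have hp : ∀ x, (∀ i, S.φ x (S.e i) = 0) → S.ρ g x = x := by
    intro x hx
    rw [h x, hx]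
    simp
  refine ⟨?_, ?_, ?_⟩
  · apply S.mem_B_of
    intro l
    rw [hE 2 (S.e l) (S.e_mem_M l)]
    exact S.e_mem_E (Nat.lt_succ_self _)
  · intro l x hx
    rw [hE _ x hx, sub_self]
    exact Submodule.zero_mem _
  · intro x hx
    rw [hp x hx, sub_self]
    exact Submodule.zero_mem _

theorem IsTvZ64.comm {γ : F} {g u : A} (h : IsTvZ64 S γ g) (hu : u ∈ S.UU) : u * g = g * u := by
  apply S.ρ_inj
  apply LinearMap.ext
  intro y
  show S.ρ (u * g) y = S.ρ (g * u) y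
  have h1 : S.φ (S.ρ u y) (S.e 0) = S.φ y (S.e 0) := by
    have := S.pres u y (S.e 0)
    rwa [UU_fix_e0Z64 hu] at this
  rw [S.ρ_mul_apply, S.ρ_mul_apply, h y, h (S.ρ u y), map_add, S.ρ_smul, UU_fix_e0Z64 hu, h1]

omit [Finite A] in
theorem IsTvZ64.conj_mon {γ : F} {g a : A} {r : Equiv.Perm (Fin 2 × Bool)} (h : IsTvZ64 S γ g)
    (ha : S.Mon r a) (hr : r (0, true) = (0, true)) : ∃ γ', IsTvZ64 S γ' (a * g * a⁻¹) := by
  obtain ⟨c, hc, e⟩ := ha (0, true)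
  rw [hr] at e
  have e' : S.ρ a (S.e 0) = c • S.e 0 := e
  refine ⟨γ * S.τ c * c, ?_⟩
  intro y
  rw [S.ρ_mul_apply, S.ρ_mul_apply, h (S.ρ a⁻¹ y), map_add, S.ρ_apply_inv_self, S.ρ_smul, e', smul_smul,
    S.φ_ρ_inv, e', S.smul_r]
  have e2 : γ * (S.τ c * S.φ y (S.e 0)) * c = γ * S.τ c * c * S.φ y (S.e 0) := by ring
  rw [e2]

theorem exists_sie0Z64 [Fintype K] (hf : S.FullM) {z : V} (hz : S.Nm z = 0) (hz1 : S.φ (S.e 0) z = 1) :
    ∃ g ∈ S.UU, S.ρ g (S.e 0) = S.e 0 ∧ S.ρ g (S.f 0) = z ∧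
      S.ρ g (S.e 1) = S.e 1 - S.φ (S.e 1) z • S.e 0 ∧
      S.ρ g (S.f 1) = S.f 1 - S.φ (S.f 1) z • S.e 0 ∧
      ∀ j, S.ρ g (S.w j) = S.w j - S.φ (S.w j) z • S.e 0 := by
  obtain ⟨g, h1, h2, h3, h4⟩ := Sys.exists_sie hf (0 : Fin 2) hz hz1
  have h5 : S.ρ g (S.e 1) = S.e 1 - S.φ (S.e 1) z • S.e 0 := h3 (1, true) h10Z64
  have h6 : S.ρ g (S.f 1) = S.f 1 - S.φ (S.f 1) z • S.e 0 := h3 (1, false) h10Z64
  refine ⟨g, ?_, h1, h2, h5, h6, h4⟩
  have hE : S.e 0 ∈ S.E 1 := S.e_mem_E (by simp)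
  have hB : g ∈ S.B := by
    apply S.mem_B_of
    rw [Fin.forall_fin_two]
    constructor
    · rw [h1]
      exact S.e_mem_E (Nat.lt_succ_self _)
    · rw [h5]
      exact Submodule.sub_mem _ (S.e_mem_E (Nat.lt_succ_self _))
        (Submodule.smul_mem _ _ (S.e_mem_E (by decide)))
  apply Sys.mem_UU_of_gens hB
  · rw [Fin.forall_fin_two]
    constructor
    · rw [h1, sub_self]
      exact Submodule.zero_mem _
    · rw [h5, sub_sub_cancel_left]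
      exact Submodule.neg_mem _ (Submodule.smul_mem _ _ hE)
  · intro k
    rw [h4, sub_sub_cancel_left]
    exact Submodule.neg_mem _ (Submodule.smul_mem _ _ (S.e_mem_M 0))

theorem exists_sie1Z64 [Fintype K] (hf : S.FullM) {z : V} (hz : S.Nm z = 0) (hz1 : S.φ (S.e 1) z = 1)
    (hz0 : S.φ (S.e 0) z = 0) :
    ∃ g ∈ S.UU, S.ρ g (S.e 1) = S.e 1 ∧ S.ρ g (S.f 1) = z ∧ S.ρ g (S.e 0) = S.e 0 ∧
      S.ρ g (S.f 0) = S.f 0 - S.φ (S.f 0) z • S.e 1 ∧
      ∀ j, S.ρ g (S.w j) = S.w j - S.φ (S.w j) z • S.e 1 := by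
  obtain ⟨g, h1, h2, h3, h4⟩ := Sys.exists_sie hf (1 : Fin 2) hz hz1
  have h5 : S.ρ g (S.e 0) = S.e 0 := by
    have h := h3 (0, true) h01Z64
    have h' : S.ρ g (S.e 0) = S.e 0 - S.φ (S.e 0) z • S.e 1 := h
    rw [h', hz0, zero_smul, sub_zero]
  have h6 : S.ρ g (S.f 0) = S.f 0 - S.φ (S.f 0) z • S.e 1 := h3 (0, false) h01Z64
  refine ⟨g, ?_, h1, h2, h5, h6, h4⟩
  have hB : g ∈ S.B := by
    apply S.mem_B_of
    rw [Fin.forall_fin_two]
    constructor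
    · rw [h5]
      exact S.e_mem_E (Nat.lt_succ_self _)
    · rw [h1]
      exact S.e_mem_E (Nat.lt_succ_self _)
  apply Sys.mem_UU_of_gens hB
  · rw [Fin.forall_fin_two]
    constructor
    · rw [h5, sub_self]
      exact Submodule.zero_mem _
    · rw [h1, sub_self]
      exact Submodule.zero_mem _
  · intro k
    rw [h4, sub_sub_cancel_left]
    exact Submodule.neg_mem _ (Submodule.smul_mem _ _ (S.e_mem_M 1))

/-- The centre of `U` consists of transvections. -/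
theorem central_isTvZ64 [Fintype K] (hf : S.FullM) (hτ : ∃ t, S.τ t ≠ t)
    (htz : ∃ c : F, c ≠ 0 ∧ S.Nm (S.f 1 + c • S.e 1) = 0)
    (hKw : ∀ k : K, ∃ t c : F, t ≠ 0 ∧ S.Nm (S.f 1 + t • S.w k + c • S.e 1) = 0)
    (hNm : ∀ x, S.Nm x = S.φ x x) {z : A} (hz : z ∈ S.UU) (hc : ∀ u ∈ S.UU, u * z = z * u) :
    ∃ γ, IsTvZ64 S γ z := by
  classical
  have hcomm : ∀ u ∈ S.UU, ∀ y, S.ρ u (S.ρ z y) = S.ρ z (S.ρ u y) := by
    intro u hu y
    rw [← S.ρ_mul_apply, ← S.ρ_mul_apply, hc u hu]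
  have he0 : S.ρ z (S.e 0) = S.e 0 := UU_fix_e0Z64 hz
  -- the vector `e₁`
  have he1 : S.ρ z (S.e 1) = S.e 1 := by
    obtain ⟨c, hc0, hcN⟩ := htz
    have hφ1 : S.φ (S.e 1) (S.f 1 + c • S.e 1) = 1 := by
      rw [S.add_r, S.smul_r, S.φ_ef, if_pos rfl, S.φ_ee]
      simp
    have hφ0 : S.φ (S.e 0) (S.f 1 + c • S.e 1) = 0 := by
      rw [S.add_r, S.smul_r, S.φ_ef, if_neg h01Z64, S.φ_ee]
      simp
    obtain ⟨t, ht, t1, t2, t3, t4, t5⟩ := exists_sie1Z64 hf hcN hφ1 hφ0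
    have ht4 : S.ρ t (S.f 0) = S.f 0 := by
      rw [t4, S.add_r, S.smul_r, S.φ_ff, S.φ_fe, if_neg h01Z64]
      simp
    have h1 := hcomm t ht (S.f 1)
    rw [t2, map_add, S.ρ_smul] at h1
    have h2 : S.φ (S.ρ t (S.ρ z (S.f 1))) (S.f 0) = S.φ (S.ρ z (S.f 1)) (S.f 0) := by
      have := S.pres t (S.ρ z (S.f 1)) (S.f 0)
      rwa [ht4] at this
    rw [h1, S.add_l, S.smul_l] at h2
    have h3 : S.φ (S.ρ z (S.e 1)) (S.f 0) = 0 := by
      have h5 : c * S.φ (S.ρ z (S.e 1)) (S.f 0) = 0 := add_eq_left.1 h2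
      exact (mul_eq_zero.1 h5).resolve_left hc0
    have h4 : S.ρ z (S.e 1) - S.e 1 ∈ S.E 1 :=
      hz.2.1 (1 : Fin 2) (S.e 1) (S.e_mem_E (Nat.lt_succ_self _))
    have h5 : S.ρ z (S.e 1) - S.e 1 = 0 := by
      have hM := S.E_le_M _ h4
      have h6 : S.φ (S.ρ z (S.e 1) - S.e 1) (S.f 0) = 0 := by
        rw [S.φ_sub_l, h3, S.φ_ef, if_neg h10Z64, sub_zero]
      have h7 : S.φ (S.ρ z (S.e 1) - S.e 1) (S.f 1) = 0 := (S.mem_E_iff.1 h4).2 (1 : Fin 2) (by decide)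
      rw [S.eq_sum_of_mem_M hM, Fin.sum_univ_two, h6, h7]
      simp
    exact sub_eq_zero.1 h5
  have hperp0 : ∀ y, S.φ (S.ρ z y) (S.e 0) = S.φ y (S.e 0) := by
    intro y
    have := S.pres z y (S.e 0)
    rwa [he0] at this
  have hperp1 : ∀ y, S.φ (S.ρ z y) (S.e 1) = S.φ y (S.e 1) := by
    intro y
    have := S.pres z y (S.e 1)
    rwa [he1] at this
  -- the Siegel elements
  have hsie : ∀ t : F, ∃ g ∈ S.UU, S.ρ g (S.f 0) = S.f 0 + t • S.f 1 ∧ S.ρ g (S.f 1) = S.f 1 ∧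
      ∀ j, S.ρ g (S.w j) = S.w j := by
    intro t
    have hN : S.Nm (S.f 0 + t • S.f 1) = 0 := by
      rw [S.Nm_add, S.Nm_X, S.Nm_smul_zero _ (S.Nm_X _), S.smul_r, S.φ_ff]
      simp
    have h1 : S.φ (S.e 0) (S.f 0 + t • S.f 1) = 1 := by
      rw [S.add_r, S.smul_r, S.φ_ef, if_pos rfl, S.φ_ef, if_neg h01Z64]
      simp
    obtain ⟨g, hg, g1, g2, g3, g4, g5⟩ := exists_sie0Z64 hf hN h1
    refine ⟨g, hg, g2, ?_, ?_⟩
    · rw [g4, S.add_r, S.smul_r, S.φ_ff, S.φ_ff]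
      simp
    · intro j
      rw [g5, S.add_r, S.smul_r, S.φ_wX, S.φ_wX]
      simp
  -- relations between `z f₀` and `z f₁`
  have hrel : ∀ t : F, t * S.φ (S.ρ z (S.f 1)) (S.f 0) = - (S.τ t * S.φ (S.ρ z (S.f 0)) (S.f 1)) ∧
      t * S.φ (S.ρ z (S.f 1)) (S.f 1) = 0 ∧ ∀ j, t * S.φ (S.ρ z (S.f 1)) (S.w j) = 0 := by
    intro t
    obtain ⟨g, hg, g2, g4, g5⟩ := hsie t
    have h1 := hcomm g hg (S.f 0)
    rw [g2, map_add, S.ρ_smul] at h1
    have hfix : ∀ b, S.ρ g b = b → t * S.φ (S.ρ z (S.f 1)) b = 0 := by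
      intro b hb
      have h2 := S.pres g (S.ρ z (S.f 0)) b
      rw [hb, h1, S.add_l, S.smul_l] at h2
      exact add_eq_left.1 h2
    refine ⟨?_, hfix _ g4, fun j => hfix _ (g5 j)⟩
    have h3 : S.ρ g (S.f 0 - t • S.f 1) = S.f 0 := by
      rw [map_sub, S.ρ_smul, g2, g4]
      abel
    have h2 := S.pres g (S.ρ z (S.f 0)) (S.f 0 - t • S.f 1)
    rw [h3, h1, S.add_l, S.smul_l, S.φ_sub_r, S.smul_r] at h2
    linear_combination h2
  have hv1 : S.ρ z (S.f 1) = S.f 1 := by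
    obtain ⟨t₀, ht₀⟩ := hτ
    obtain ⟨h1, h2, h3⟩ := hrel 1
    obtain ⟨h4, -, -⟩ := hrel t₀
    rw [map_one, one_mul, one_mul] at h1
    rw [one_mul] at h2
    have hA : S.φ (S.ρ z (S.f 1)) (S.f 0) = 0 := by
      have h5 : (t₀ - S.τ t₀) * S.φ (S.ρ z (S.f 1)) (S.f 0) = 0 := by
        rw [h1] at h4 ⊢
        linear_combination h4
      exact (mul_eq_zero.1 h5).resolve_left (sub_ne_zero.2 (Ne.symm ht₀))
    apply sub_eq_zero.1
    apply eq_zero_of_perpZ64 hNm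
    · rw [S.φ_sub_l, hperp0, sub_self]
    · rw [S.φ_sub_l, hperp1, sub_self]
    · rw [S.φ_sub_l, hA, S.φ_ff, sub_zero]
    · rw [S.φ_sub_l, h2, S.φ_ff, sub_zero]
    · intro k
      have := h3 k
      rw [one_mul] at this
      rw [S.φ_sub_l, this, S.Xw, sub_zero]
  -- the anisotropic part
  have hw : ∀ k, S.ρ z (S.w k) = S.w k := by
    intro k
    obtain ⟨t, c, ht, hN⟩ := hKw k
    have hφ1 : S.φ (S.e 1) (S.f 1 + t • S.w k + c • S.e 1) = 1 := by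
      rw [S.add_r, S.add_r, S.smul_r, S.smul_r, S.φ_ef, if_pos rfl, S.Xw, S.φ_ee]
      simp
    have hφ0 : S.φ (S.e 0) (S.f 1 + t • S.w k + c • S.e 1) = 0 := by
      rw [S.add_r, S.add_r, S.smul_r, S.smul_r, S.φ_ef, if_neg h01Z64, S.Xw, S.φ_ee]
      simp
    obtain ⟨g, hg, g1, g2, g3, g4, g5⟩ := exists_sie1Z64 hf hN hφ1 hφ0
    have h1 := hcomm g hg (S.f 1)
    rw [hv1, g2, map_add, map_add, S.ρ_smul, S.ρ_smul, hv1, he1] at h1
    have h2 : t • S.ρ z (S.w k) = t • S.w k := (add_left_cancel (add_right_cancel h1)).symm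
    exact smul_right_injective _ ht h2
  -- the vector `f₀`
  obtain ⟨γ', hγ'⟩ : ∃ γ', S.ρ z (S.f 0) = S.f 0 + γ' • S.e 0 := by
    refine ⟨S.φ (S.ρ z (S.f 0) - S.f 0) (S.f 0), ?_⟩
    have hf1 : S.φ (S.ρ z (S.f 0)) (S.f 1) = S.φ (S.f 0) (S.f 1) := by
      have := S.pres z (S.f 0) (S.f 1)
      rwa [hv1] at this
    have hfw : ∀ k, S.φ (S.ρ z (S.f 0)) (S.w k) = S.φ (S.f 0) (S.w k) := by
      intro k
      have := S.pres z (S.f 0) (S.w k)
      rwa [hw] at this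
    set v := S.ρ z (S.f 0) - S.f 0 with hv
    have hv0 : S.φ v (S.e 0) = 0 := by rw [hv, S.φ_sub_l, hperp0, sub_self]
    have hv1' : S.φ v (S.e 1) = 0 := by rw [hv, S.φ_sub_l, hperp1, sub_self]
    have hv2 : S.φ v (S.f 1) = 0 := by rw [hv, S.φ_sub_l, hf1, sub_self]
    have hv3 : ∀ k, S.φ v (S.w k) = 0 := by
      intro k
      rw [hv, S.φ_sub_l, hfw, sub_self]
    have h0 : v - S.φ v (S.f 0) • S.e 0 = 0 := by
      apply eq_zero_of_perpZ64 hNm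
      · rw [S.φ_sub_l, S.smul_l, hv0, S.φ_ee]
        simp
      · rw [S.φ_sub_l, S.smul_l, hv1', S.φ_ee]
        simp
      · rw [S.φ_sub_l, S.smul_l, S.φ_ef, if_pos rfl]
        simp
      · rw [S.φ_sub_l, S.smul_l, hv2, S.φ_ef, if_neg h01Z64]
        simp
      · intro k
        rw [S.φ_sub_l, S.smul_l, hv3, S.Xw]
        simp
    have h1 : v = S.φ v (S.f 0) • S.e 0 := sub_eq_zero.1 h0
    rw [← h1, hv]
    abel
  refine ⟨γ' * S.ε, ?_⟩
  intro y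
  induction y using S.Y_induction with
  | h0 => rw [map_zero, S.φ_zero_l, mul_zero, zero_smul, add_zero]
  | h1 i =>
    rcases i with ⟨i, b⟩ | k
    · have hi : i = 0 ∨ i = 1 := by
        revert i
        decide
      rcases hi with rfl | rfl <;> cases b
      · show S.ρ z (S.f 0) = S.f 0 + (γ' * S.ε * S.φ (S.f 0) (S.e 0)) • S.e 0
        rw [S.φ_fe, if_pos rfl, mul_assoc, S.εε, mul_one]
        exact hγ'
      · show S.ρ z (S.e 0) = S.e 0 + (γ' * S.ε * S.φ (S.e 0) (S.e 0)) • S.e 0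
        rw [he0, S.φ_ee, mul_zero, zero_smul, add_zero]
      · show S.ρ z (S.f 1) = S.f 1 + (γ' * S.ε * S.φ (S.f 1) (S.e 0)) • S.e 0
        rw [hv1, S.φ_fe, if_neg h10Z64, mul_zero, zero_smul, add_zero]
      · show S.ρ z (S.e 1) = S.e 1 + (γ' * S.ε * S.φ (S.e 1) (S.e 0)) • S.e 0
        rw [he1, S.φ_ee, mul_zero, zero_smul, add_zero]
    · show S.ρ z (S.w k) = S.w k + (γ' * S.ε * S.φ (S.w k) (S.e 0)) • S.e 0
      rw [hw, S.φ_wX, mul_zero, zero_smul, add_zero]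
  | h2 a b ha hb =>
    rw [map_add, ha, hb, S.add_l, mul_add, add_smul]
    abel
  | h3 c a ha =>
    rw [S.ρ_smul, ha, S.smul_l, smul_add, smul_smul]
    have e : c * (γ' * S.ε * S.φ a (S.e 0)) = γ' * S.ε * (c * S.φ a (S.e 0)) := by ring
    rw [e]

/-- The centre-node property for the central quotient of a normal subgroup. -/
theorem hasZNode_centerZ64 [Fintype K] (p : ℕ) [Fact p.Prime] [CharP F p] (hf : S.Full)
    (hthick : ∀ k : Fin 2, k.val + 1 = 2 → ∃ z, S.Nm z = 0 ∧ S.φ (S.e k) z = 1 ∧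
      (∀ a : Fin 2 × Bool, a.1 ≠ k → S.φ (S.X a) z = 0) ∧ z ≠ S.f k)
    (hτ : ∃ t, S.τ t ≠ t) (htz : ∃ c : F, c ≠ 0 ∧ S.Nm (S.f 1 + c • S.e 1) = 0)
    (hKw : ∀ k : K, ∃ t c : F, t ≠ 0 ∧ S.Nm (S.f 1 + t • S.w k + c • S.e 1) = 0)
    (hNm : ∀ x, S.Nm x = S.φ x x)
    (Γ : Subgroup A) [Γ.Normal] (hAT : ∀ a : A, ∃ h ∈ Γ, ∃ t ∈ S.TT, a = h * t)
    (hU : S.UU ≤ Γ)
    (hT : ∀ t ∈ S.TT, t ∈ Γ → (∀ a, S.ρ t (S.X a) = S.X a) → t ^ p = 1 → t = 1) :
    HasZNode p (Γ ⧸ Subgroup.center Γ) := by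
  obtain ⟨n₀, hn₀, hopp⟩ := Sys.exists_opp (S := S) hf
  set P : Cfsg.BNPair A := S.bn hf hthick with hP
  have hPB : P.B = S.B := rfl
  have hPN : P.N = S.NN := rfl
  have hBN : P.B ⊓ P.N = S.TT := by
    rw [hPB, hPN]
    exact S.inf_eq
  have hAT' : ∀ a : A, ∃ h ∈ Γ, ∃ t ∈ P.B ⊓ P.N, a = h * t := by
    intro a
    obtain ⟨h, hh, t, ht, e⟩ := hAT a
    exact ⟨h, hh, t, by rw [hBN]; exact ht, e⟩
  obtain ⟨h₀, hh₀, t₀, ht₀, e₀⟩ := hAT n₀
  have hh₀N : h₀ ∈ S.NN := by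
    have : h₀ = n₀ * t₀⁻¹ := by rw [e₀]; group
    rw [this]
    exact S.NN.mul_mem hn₀ (S.NN.inv_mem (S.TT_le_NN ht₀))
  have hdB : ∀ x, x ∈ (descent P Γ hAT').B ↔ (x : A) ∈ S.B := fun x => by
    rw [← hPB]
    exact Subgroup.mem_subgroupOf
  have hdN : ∀ x, x ∈ (descent P Γ hAT').N ↔ (x : A) ∈ S.NN := fun x => by
    rw [← hPN]
    exact Subgroup.mem_subgroupOf
  have hsplit : SplitU (descent P Γ hAT') (S.UU.subgroupOf Γ) p := by
    refine ⟨?_, ?_, ?_, ?_, ?_⟩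
    · rintro ⟨u, huΓ⟩ hu
      exact (hdB _).2 (Sys.UU_le_B (Subgroup.mem_subgroupOf.1 hu))
    · rintro ⟨b, hbΓ⟩ hb ⟨u, huΓ⟩ hu
      exact Subgroup.mem_subgroupOf.2 (Sys.UU_conj ((hdB _).1 hb) (Subgroup.mem_subgroupOf.1 hu))
    · rintro ⟨b, hbΓ⟩ hb
      have hb' : b ∈ S.B := (hdB _).1 hb
      obtain ⟨u, hu, t, ht, e⟩ := Sys.exists_UT (S := S) hf.fullM hb'
      have huΓ := hU hu
      have htΓ : t ∈ Γ := by
        have : t = u⁻¹ * b := by rw [e]; group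
        rw [this]
        exact Γ.mul_mem (Γ.inv_mem huΓ) hbΓ
      refine ⟨⟨u, huΓ⟩, Subgroup.mem_subgroupOf.2 hu, ⟨t, htΓ⟩, ⟨(hdB _).2 (S.TT_le_B ht),
        (hdN _).2 (S.TT_le_NN ht)⟩, Subtype.ext e⟩
    · exact (Sys.isPGroup_UU (S := S) p).comap_subtype
    · intro hd
      have h1 : ¬ p ∣ Nat.card ↥(S.TT ⊓ Γ) := Sys.not_dvd_card_of p _ inf_le_left (by
        intro t ht h2 h3
        exact hT t ht.1 ht.2 h2 h3)
      apply h1
      have e : Nat.card ↥((descent P Γ hAT').B ⊓ (descent P Γ hAT').N) =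
          Nat.card ↥(S.TT ⊓ Γ) := by
        apply Nat.card_congr
        refine Equiv.ofBijective (fun x => ⟨x.1.1, ?_, x.1.2⟩) ⟨?_, ?_⟩
        · have h2 : x.1.1 ∈ S.B ⊓ S.NN := ⟨(hdB _).1 x.2.1, (hdN _).1 x.2.2⟩
          rwa [S.inf_eq] at h2
        · rintro ⟨⟨x, hx⟩, hx'⟩ ⟨⟨y, hy⟩, hy'⟩ hxy
          have : x = y := congrArg (fun z : ↥(S.TT ⊓ Γ) => z.1) hxy
          subst this
          rfl
        · rintro ⟨x, hx, hx2⟩
          exact ⟨⟨⟨x, hx2⟩, (hdB _).2 (S.TT_le_B hx), (hdN _).2 (S.TT_le_NN hx)⟩, rfl⟩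
      rw [← e]
      exact hd
  have hopp' : ∀ x ∈ (descent P Γ hAT').B, (⟨h₀, hh₀⟩ : Γ)⁻¹ * x * ⟨h₀, hh₀⟩ ∈ (descent P Γ hAT').B →
      x ∈ (descent P Γ hAT').N := by
    rintro ⟨x, hxΓ⟩ hx hy
    have hx' : x ∈ S.B := (hdB _).1 hx
    have hy' : h₀⁻¹ * x * h₀ ∈ S.B := (hdB _).1 hy
    have h1 : n₀⁻¹ * x * n₀ ∈ S.B := by
      have e : n₀⁻¹ * x * n₀ = t₀⁻¹ * (h₀⁻¹ * x * h₀) * t₀ := by
        rw [e₀]
        group
      rw [e]
      exact S.B.mul_mem (S.B.mul_mem (S.B.inv_mem (S.TT_le_B ht₀)) hy') (S.TT_le_B ht₀)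
    exact (hdN _).2 (S.TT_le_NN (hopp x hx' h1))
  -- the node
  have hnode : ∃ a ∈ P.S, S.Mon (rNode (1 : Fin 2)) a := by
    refine ⟨Classical.choose (exists_nodes hf hthick (1 : Fin 2)), ?_,
      (Classical.choose_spec (Classical.choose_spec (exists_nodes hf hthick (1 : Fin 2)))).1⟩
    have hS : P.S = Set.range (fun i : Fin 2 => Classical.choose (exists_nodes hf hthick i)) := rfl
    rw [hS]
    exact Set.mem_range_self (1 : Fin 2)
  obtain ⟨a, haS, haM⟩ := hnode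
  obtain ⟨ham, t, ht, e2⟩ := Classical.choose_spec (exists_rep P Γ hAT' a)
  have hanode : (⟨_, ham⟩ : Γ) ∈ (descent P Γ hAT').S := by
    show ∃ s ∈ P.S, Classical.choose (exists_rep P Γ hAT' a) = Classical.choose (exists_rep P Γ hAT' s)
    exact ⟨a, haS, rfl⟩
  have hr₀ : Classical.choose (exists_rep P Γ hAT' a) = a * t⁻¹ := eq_mul_inv_of_mul_eq e2.symm
  have hMon : S.Mon (rNode (1 : Fin 2) * 1⁻¹) (Classical.choose (exists_rep P Γ hAT' a)) := by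
    rw [hr₀]
    rw [hBN] at ht
    exact haM.mul (S.mem_TT.1 ht).inv
  have hrfix : (rNode (1 : Fin 2) * 1⁻¹) ((0 : Fin 2), true) = ((0 : Fin 2), true) := by
    rw [inv_one, mul_one]
    exact rNode_fix (by decide)
  refine hasZNode_pushZ64 (QuotientGroup.mk' (Subgroup.center Γ)) (QuotientGroup.mk'_surjective _)
    (descent P Γ hAT') ?_ hsplit hanode ?_
  · intro z hz
    have hz' : z ∈ Subgroup.center Γ := by
      simpa [MonoidHom.mem_ker] using hz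
    have hzc : ∀ g, g * z = z * g := fun g => (Subgroup.mem_center_iff.1 hz') g
    have hzB : z ∈ (descent P Γ hAT').B := by
      apply mem_B_of_normalizes hsplit
      intro u hu
      rw [← hzc u]
      simpa using hu
    refine ⟨hzB, hopp' z hzB ?_⟩
    have e : (⟨h₀, hh₀⟩ : Γ)⁻¹ * z * ⟨h₀, hh₀⟩ = z := by
      rw [mul_assoc, ← hzc ⟨h₀, hh₀⟩]
      group
    rw [e]
    exact hzB
  · rintro ⟨z, hzΓ⟩ hz hc
    have hzU : z ∈ S.UU := Subgroup.mem_subgroupOf.1 hz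
    have hc' : ∀ u ∈ S.UU, u * z = z * u := by
      intro u hu
      have h1 := hc ⟨u, hU hu⟩ (Subgroup.mem_subgroupOf.2 hu)
      exact congrArg Subtype.val h1
    obtain ⟨γ, hγ⟩ := central_isTvZ64 hf.fullM hτ htz hKw hNm hzU hc'
    obtain ⟨γ', hγ'⟩ := hγ.conj_mon hMon hrfix
    refine ⟨Subgroup.mem_subgroupOf.2 hγ'.mem_UU, ?_⟩
    rintro ⟨u, huΓ⟩ hu
    exact Subtype.ext (hγ'.comm (Subgroup.mem_subgroupOf.1 hu))

end sys

section unitary

open Cfsg.Agent.Lib.ClUnit Cfsg.Agent.Lib.HermForm Cfsg.Agent.Lib.FFNorm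

variable {F : Type*} [Field F] [Fintype F] {q n : ℕ} {K' : Type} [Fintype K'] [DecidableEq K']

theorem exists_pow_ne_selfZ64 (hF : Fintype.card F = q ^ 2) : ∃ x : F, x ^ q ≠ x := by
  classical
  have hq2 := two_le hF
  by_contra hc
  push Not at hc
  have h1 := card_ker_pow_pred hF
  have h2 := card_units hF
  have h3 : ((powMonoidHom (q - 1) : Fˣ →* Fˣ).ker) = ⊤ := by
    rw [eq_top_iff]
    intro u _
    rw [MonoidHom.mem_ker, powMonoidHom_apply]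
    apply Units.ext
    have h4 := hc (u : F)
    have h5 : (u : F) ^ q = (u : F) ^ (q - 1) * u := by
      rw [← pow_succ]
      congr 1
      omega
    rw [h5] at h4
    have := mul_right_cancel₀ u.ne_zero (h4.trans (one_mul _).symm)
    simpa using this
  rw [h3, Subgroup.card_top, h2] at h1
  have h6 : q - 1 ≠ 0 := by omega
  have h7 : (q + 1) = 1 := by
    apply Nat.eq_of_mul_eq_mul_left (Nat.pos_of_ne_zero h6)
    rw [h1, mul_one]
  omega

theorem exists_trace_neg_oneZ64 (hF : Fintype.card F = q ^ 2) : ∃ c : F, c + c ^ q + 1 = 0 := by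
  obtain ⟨x, hx⟩ := exists_pow_ne_selfZ64 hF
  -- an element of nonzero trace
  obtain ⟨y, hy⟩ : ∃ y : F, y + y ^ q ≠ 0 := by
    by_contra hc
    push Not at hc
    have h1 : (1 : F) + 1 = 0 := by
      have := hc 1
      rwa [one_pow] at this
    have h2 : x ^ q = x := by
      have h3 := hc x
      have h4 : x + x = 0 := by
        have : x + x = x * (1 + 1) := by ring
        rw [this, h1, mul_zero]
      have h5 : x ^ q = -x := eq_neg_of_add_eq_zero_right h3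
      rw [h5]
      exact neg_eq_of_add_eq_zero_left h4
    exact hx h2
  set s := y + y ^ q with hs
  have hsq : s ^ q = s := by
    rw [hs, add_pow_q hF, pow_pow_self hF]
    ring
  refine ⟨-(y * s⁻¹), ?_⟩
  rw [neg_pow_q hF, mul_pow, inv_pow, hsq]
  have h1 : s * s⁻¹ = 1 := mul_inv_cancel₀ hy
  have h2 : y * s⁻¹ + y ^ q * s⁻¹ = 1 := by
    rw [← add_mul, ← hs, h1]
  linear_combination -h2

namespace UDZ64

variable (D : UD F q n 2 K')

theorem hτ : ∃ t, D.sys.τ t ≠ t := exists_pow_ne_selfZ64 D.hF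

theorem htz : ∃ c : F, c ≠ 0 ∧ D.sys.Nm (D.sys.f 1 + c • D.sys.e 1) = 0 := by
  obtain ⟨c, hc0, hc⟩ := UD.exists_trace_zero D.hF
  refine ⟨c, hc0, ?_⟩
  show hermForm n F q _ _ = 0
  rw [hermForm_add_left, hermForm_add_right D.hF, hermForm_add_right D.hF, hermForm_smul_left,
    hermForm_smul_left, hermForm_smul_right, hermForm_smul_right, D.B_ff, D.B_fe, D.B_ef, D.B_ee]
  linear_combination hc

theorem hKw (k : K') : ∃ t c : F, t ≠ 0 ∧ D.sys.Nm (D.sys.f 1 + t • D.sys.w k + c • D.sys.e 1) = 0 := by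
  obtain ⟨c, hc⟩ := exists_trace_neg_oneZ64 D.hF
  refine ⟨1, c, one_ne_zero, ?_⟩
  have hww : hermForm n F q (D.sys.w k) (D.sys.w k) = 1 := by
    show hermForm n F q (D.basisY _) (D.basisY _) = 1
    rw [UD.basisY_apply, ← D.he, hW_single_inr D.hF]
    simp
  have h1 : hermForm n F q (D.sys.f 1) (D.sys.w k) = 0 := D.sys.Xw _ _
  have h2 : hermForm n F q (D.sys.e 1) (D.sys.w k) = 0 := D.sys.Xw _ _
  have h3 : hermForm n F q (D.sys.w k) (D.sys.f 1) = 0 := D.sys.φ_wX _ _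
  have h4 : hermForm n F q (D.sys.w k) (D.sys.e 1) = 0 := D.sys.φ_wX _ _
  show hermForm n F q _ _ = 0
  simp only [hermForm_add_left, hermForm_add_right D.hF, hermForm_smul_left, hermForm_smul_right,
    D.B_ff, D.B_fe, D.B_ef, D.B_ee, hww, h1, h2, h3, h4, one_smul]
  linear_combination hc

theorem hNm (x : Fin n → F) : D.sys.Nm x = D.sys.φ x x := rfl

include D in
theorem hasZNode (p : ℕ) [Fact p.Prime] [CharP F p] :
    HasZNode p (↥(Gam n F q) ⧸ Subgroup.center ↥(Gam n F q)) :=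
  hasZNode_centerZ64 (S := D.sys) p D.sys_full (fun k _ => D.sys_thick k) (hτ D) (htz D) (hKw D) (hNm D)
    (Gam n F q) (D.exists_Gam_T (by omega)) (D.UU_le_Gam p) (fun t _ _ h1 h2 => D.torus_p p h1 h2)

end UDZ64

/-- `T6`: a node normalizes the centre of `U`, for `PSU₄` and `PSU₅`. -/
theorem zNode_PSU (p : ℕ) [Fact p.Prime] [CharP F p] {n q : ℕ} (hn : n = 4 ∨ n = 5)
    (hF : Fintype.card F = q ^ 2) : HasZNode p (Cfsg.PSU n F q) := by
  haveI : Finite (↥(Gam n F q) ⧸ Subgroup.center ↥(Gam n F q)) := inferInstance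
  refine hasZNode_of_equivZ64 ?_ (Cfsg.Agent.Lib.ClTransfer.quotCenterEquiv GamEquiv)
  rcases hn with rfl | rfl
  · obtain ⟨D⟩ := exists_UD (F := F) (q := q) (n := 4) (m := 2) (K' := Empty) hF (by simp)
    exact UDZ64.hasZNode D p
  · obtain ⟨D⟩ := exists_UD (F := F) (q := q) (n := 5) (m := 2) (K' := Unit) hF (by simp)
    exact UDZ64.hasZNode D p

end unitary

end

end Cfsg.Agent.Lib.PMin29
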