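import Mathlib
import Cfsg.Prelude.Def_LocalEven
import Cfsg.Prelude.Def_EvenType
import Cfsg.Prelude.Def_AlmostLie
import Cfsg.Agent.Lib.OverAll29
import Cfsg.Agent.Lib.OverExc38
import Cfsg.Agent.Lib.PMinFin29
import Cfsg.Agent.Lib.PMinEquiv29
import Cfsg.Agent.Lib.PMinNodesPSL
import Cfsg.Agent.Lib.PMinNodesSys
import Cfsg.Agent.Lib.PMinNodesUP
import Cfsg.Agent.Lib.PMinChev
import Cfsg.Agent.Lib.PMinTw
import Cfsg.Agent.Lib.PMinZPSU
import Cfsg.Agent.Lib.PMinG2c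
import Cfsg.Agent.Lib.PMinGap
import Cfsg.Agent.Lib.PMinTwF4Gap
import Cfsg.Agent.Lib.PMinA6
import Cfsg.Agent.Lib.PMinL28
import Cfsg.Agent.Lib.PMinU33
import Cfsg.Agent.Lib.PMinTits
import Cfsg.Agent.S1074

/-!
# Assembling the `p`-minimal groups over groups of Lie type
-/

set_option autoImplicit false
set_option linter.unusedSectionVars false
set_option linter.unusedVariables false
set_option linter.style.haveILetI false

namespace Cfsg.Agent.Lib.PMin29.Asm47

open Cfsg Cfsg.Lie Cfsg.Agent.Lib.LTAut33 Cfsg.Agent.Lib.OverU29 Cfsg.Agent.Lib.PCore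
open Cfsg.Agent.Lib.OrthoCount

variable {X : Type*} [Group X] [Finite X] {p : ℕ} [hp : Fact p.Prime]
variable {K : Subgroup X} [hK : K.Normal]

theorem three_false [IsSimpleGroup K] (hX : IsPMinimal p X) (hR : HasSplitR p K) {Γ : Type*} [Group Γ]
    (e : K ≃* Γ) {r : ℕ} (h3 : 3 ≤ r) (hN : HasNodes p r Γ) : False := by
  haveI : Finite Γ := Finite.of_equiv K e.toEquiv
  exact no_three hX hR (HasNodes.mono (hasNodes_of_equiv76 hN e.symm) h3)

theorem two_eq [IsSimpleGroup K] (hX : IsPMinimal p X) (hR : HasSplitR p K) {Γ : Type*} [Group Γ]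
    (e : K ≃* Γ) (hN : HasNodes p 2 Γ) : p = 2 ∧ K ≠ ⊤ := by
  haveI : Finite Γ := Finite.of_equiv K e.toEquiv
  exact two_nodes hX hR (hasNodes_of_equiv76 hN e.symm)

theorem znode_false [IsSimpleGroup K] (hX : IsPMinimal p X) {Γ : Type*} [Group Γ]
    (e : K ≃* Γ) (hN : HasZNode p Γ) : False := by
  haveI : Finite Γ := Finite.of_equiv K e.toEquiv
  exact no_zNode hX (hasZNode_of_equivZ64 hN e.symm)

theorem gap_false [IsSimpleGroup K] (hX : IsPMinimal p X) {Γ : Type*} [Group Γ]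
    (e : K ≃* Γ) (hN : HasIndexGap p Γ) : False := by
  haveI : Finite Γ := Finite.of_equiv K e.toEquiv
  exact no_indexGap hX (HasIndexGap.of_equiv e.symm hN)

theorem coatom_of_split [IsSimpleGroup K] (hX : IsPMinimal p X) (hR : HasSplitR p K) (U : Sylow p K) :
    IsCoatom (Subgroup.normalizer ((up U : Subgroup X) : Set X)) := by
  obtain ⟨P, U0, hU, hne, -⟩ := hR
  obtain ⟨Q, rfl⟩ := exists_sylow_eq hU
  obtain ⟨T, M, h⟩ := exists_setup hX Q
  exact coatom_conj Q U (bn_core h hU hne).1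

theorem hnp_of_dvd {q : ℕ} (hq : q.Prime) (hqp : q ≠ p) (hd : q ∣ Nat.card K) (U : Sylow p K) :
    (U : Subgroup K) ≠ ⊤ := by
  intro hU
  have h1 : IsPGroup p K := by
    have h2 : IsPGroup p ↥(U : Subgroup K) := U.isPGroup'
    rw [hU] at h2
    exact h2.of_equiv Subgroup.topEquiv
  obtain ⟨a, ha⟩ := IsPGroup.iff_card.1 h1
  rw [ha] at hd
  exact hqp ((Nat.prime_dvd_prime_iff_eq hq hp.out).1 (hq.dvd_of_dvd_pow hd))

theorem lie_second [IsSimpleGroup K] (hX : IsPMinimal p X) (hG : IsLieTypeChar p K) :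
    IsLieRankOneChar p K ∨ (p = 2 ∧ K ≠ ⊤ ∧
      ((∃ (F : Type) (_ : Field F) (_ : Fintype F) (_ : CharP F 2),
          Nonempty (↥K ≃* Matrix.ProjectiveSpecialLinearGroup (Fin 3) F)) ∨
       (∃ (F : Type) (_ : Field F) (_ : Fintype F) (_ : CharP F 2), 4 ≤ Fintype.card F ∧
          Nonempty (↥K ≃* Cfsg.PSp 2 F)) ∨
       Nonempty (↥K ≃* ↥(alternatingGroup (Fin 6))))) := by
  have hR : HasSplitR p K := hasSplitR_of_lieType p hG
  rcases hG with hG | hG | hG | hG | hG | hG | hG | hG | hG | hG | hG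
  · obtain ⟨F, _, _, hc, n, hn, h2, ⟨e⟩⟩ := hG
    rcases (by omega : n = 2 ∨ n = 3 ∨ 4 ≤ n) with rfl | rfl | h4
    · exact Or.inl (Or.inl ⟨F, _, _, hc, h2 rfl, ⟨e⟩⟩)
    · obtain ⟨hp2, htop⟩ := two_eq hX hR e (nodes_PSL F 2 p)
      subst hp2
      exact Or.inr ⟨rfl, htop, Or.inl ⟨F, _, _, hc, ⟨e⟩⟩⟩
    · obtain ⟨k, rfl⟩ : ∃ k, n = k + 1 := ⟨n - 1, by omega⟩
      exact (three_false hX hR e (by omega : 3 ≤ k) (nodes_PSL F k p)).elim
  · obtain ⟨F, _, _, hc, m, hm, h3, ⟨e⟩⟩ := hG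
    rcases (by omega : m = 2 ∨ 3 ≤ m) with rfl | h
    · obtain ⟨hp2, htop⟩ := two_eq hX hR e (nodes_PSp (by omega) p)
      subst hp2
      refine Or.inr ⟨rfl, htop, Or.inr (Or.inl ⟨F, _, _, hc, ?_, ⟨e⟩⟩)⟩
      have h33 := h3 rfl
      by_contra hlt
      have h3' : Fintype.card F = 3 := by omega
      have h2 : (2 : F) = 0 := CharTwo.two_eq_zero
      have hcard : ((Fintype.card F : ℕ) : F) = 0 := CharP.cast_card_eq_zero F
      rw [h3'] at hcard
      have h1 : (1 : F) = 0 := by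
        push_cast at hcard
        linear_combination hcard - h2
      exact one_ne_zero h1
    · exact (three_false hX hR e h (nodes_PSp (by omega) p)).elim
  · obtain ⟨F, _, _, hc, n, q, hF, hn, hne, ⟨e⟩⟩ := hG
    rcases (by omega : n = 3 ∨ n = 4 ∨ n = 5 ∨ 6 ≤ n) with rfl | rfl | rfl | h6
    · exact Or.inl (Or.inr (Or.inl ⟨F, _, _, hc, q, hF, fun h => hne ⟨rfl, h⟩, ⟨e⟩⟩))
    · exact (znode_false hX e (zNode_PSU p (Or.inl rfl) hF)).elim
    · exact (znode_false hX e (zNode_PSU p (Or.inr rfl) hF)).elim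
    · exact (three_false hX hR e (by omega : 3 ≤ n / 2) (nodes_PSU p (by omega) hF)).elim
  · obtain ⟨F, _, _, hc, m, hm, hodd, ⟨e⟩⟩ := hG
    have hq : Cfsg.quadFormOdd m F = ⇑(qOdd m F) := funext fun v => (qOdd_apply m v).symm
    rw [hq] at e
    exact (three_false hX hR e hm (nodes_odd (by omega) hodd p)).elim
  · obtain ⟨F, _, _, hc, m, hm, ⟨e⟩⟩ := hG
    have hq : Cfsg.quadFormPlus m F = ⇑(qPlus m F) := funext fun v => (qPlus_apply m v).symm
    haveI : Nonempty (Fin m) := ⟨⟨0, by omega⟩⟩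
    have hOG : Cfsg.Agent.Lib.OrthGroup.O (qPlus m F) ≤ Cfsg.Agent.Lib.OrthGroup.G (qPlus m F) := by
      refine Cfsg.Agent.Lib.OrthGroup.O_le_G (Cfsg.Agent.Lib.ClOrth.odPlus F m).nd
        (Cfsg.Agent.Lib.OrthMatrix.hF_of (n := 2 * m) ?_ ?_)
      · by_cases h : Fintype.card F = 2
        · right
          intro h4
          omega
        · exact Or.inl h
      · simp
        ring
    rw [hq] at e
    exact (three_false hX hR e (by omega : 3 ≤ m) (nodes_plus (by omega) p hOG ⟨m - 1, by omega⟩ (by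
      show m - 1 + 1 = m
      omega))).elim
  · obtain ⟨F, _, _, hc, m, a, b, hm, hab, ⟨e⟩⟩ := hG
    have hq : Cfsg.quadFormMinus (m - 1) F a b = ⇑(qMinus (m - 1) a b) :=
      funext fun v => (qMinus_apply (m - 1) a b v).symm
    rw [hq] at e
    exact (three_false hX hR e (by omega : 3 ≤ m - 1) (nodes_minus (by omega) p a b hab)).elim
  · obtain ⟨F, _, _, hc, h⟩ := hG
    rcases h with ⟨-, ⟨e⟩⟩ | ⟨e⟩ | ⟨e⟩ | ⟨e⟩ | ⟨e⟩
    · obtain ⟨hp2, -⟩ := two_eq hX hR e (nodes_chev F p (D := chevG2) (by simp))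
      subst hp2
      exact (znode_false hX e (zNode_G2_h47 F)).elim
    · exact (three_false hX hR e (by decide : 3 ≤ chevF4.rank) (nodes_chev F p (D := chevF4) (by simp))).elim
    · exact (three_false hX hR e (by decide : 3 ≤ chevE6.rank) (nodes_chev F p (D := chevE6) (by simp))).elim
    · exact (three_false hX hR e (by decide : 3 ≤ chevE7.rank) (nodes_chev F p (D := chevE7) (by simp))).elim
    · exact (three_false hX hR e (by decide : 3 ≤ chevE8.rank) (nodes_chev F p (D := chevE8) (by simp))).elim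
  · obtain ⟨L, _, _, hc, q, hq, h⟩ := hG
    rcases h with ⟨hL, ⟨e⟩⟩ | ⟨hL, ⟨e⟩⟩
    · exact (three_false hX hR e le_rfl (nodes_twE6 p hq hL)).elim
    · exact (gap_false hX e (twD4_gap p hq hL)).elim
  · exact Or.inl (Or.inr (Or.inr (Or.inl ⟨hG.1, hG.2⟩)))
  · obtain ⟨rfl, L, _, _, m, hm, hL, ⟨e⟩⟩ := hG
    exact (gap_false hX e (twF4_indexGap hL)).elim
  · exact Or.inl (Or.inr (Or.inr (Or.inr ⟨hG.1, Or.inl hG.2⟩)))

/-- The main assembly. -/
theorem main47 (hX : IsPMinimal p X) (hKc : IsChevSimple p K) (U : Sylow p K) :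
    IsCoatom (Subgroup.normalizer ((up U : Subgroup X) : Set X)) ∧
    (IsLieRankOneChar p K ∨ (p = 2 ∧ K ≠ ⊤ ∧
      ((∃ (F : Type) (_ : Field F) (_ : Fintype F) (_ : CharP F 2),
          Nonempty (↥K ≃* Matrix.ProjectiveSpecialLinearGroup (Fin 3) F)) ∨
       (∃ (F : Type) (_ : Field F) (_ : Fintype F) (_ : CharP F 2), 4 ≤ Fintype.card F ∧
          Nonempty (↥K ≃* Cfsg.PSp 2 F)) ∨
       Nonempty (↥K ≃* ↥(alternatingGroup (Fin 6)))))) := by
  rcases hKc with hG | ⟨rfl, hc⟩ | ⟨rfl, F, _, _, h8, ⟨e⟩⟩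
  · haveI : IsSimpleGroup K := simple_of_lieType hG
    exact ⟨coatom_of_split hX (hasSplitR_of_lieType p hG) U, lie_second hX hG⟩
  · rcases hc with ⟨e⟩ | ⟨F, _, _, h9, ⟨e⟩⟩ | hT
    · haveI : IsSimpleGroup (alternatingGroup (Fin 6)) := alternatingGroup.isSimpleGroup (by simp)
      haveI : IsSimpleGroup K := e.isSimpleGroup
      have hcard : Nat.card K = 360 := by
        rw [Nat.card_congr e.toEquiv, Nat.card_eq_fintype_card, card_alternatingGroup]
        simp [Nat.factorial]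
      have hnp : ∀ U : Sylow 2 K, (U : Subgroup K) ≠ ⊤ :=
        hnp_of_dvd (q := 3) (by norm_num) (by norm_num) (by rw [hcard]; norm_num)
      obtain ⟨⟨U0, hU0⟩, htop⟩ := pair_case hX (fun N hM hidx => Cfsg.Agent.Lib.OverExc38.caseA e N hM hidx)
        (HasPairData.of_equiv e a6_pairData) hnp
      exact ⟨coatom_conj U0 U hU0, Or.inr ⟨rfl, htop, Or.inr (Or.inr ⟨e⟩)⟩⟩
    · have h9' : Fintype.card F = 3 ^ 2 := by rw [h9]; norm_num
      haveI : IsSimpleGroup (Cfsg.PSU 3 F 3) := Cfsg.Agent.S0283.result h9' 3 le_rfl (by omega)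
      haveI : IsSimpleGroup K := e.isSimpleGroup
      have hcard : Nat.card K = 6048 := by
        rw [Nat.card_congr e.toEquiv]
        have h := Cfsg.Agent.Lib.UnitarySU.card_PSU h9' 3 (by norm_num)
        norm_num [Finset.prod_range_succ] at h
        omega
      have hnp : ∀ U : Sylow 2 K, (U : Subgroup K) ≠ ⊤ :=
        hnp_of_dvd (q := 3) (by norm_num) (by norm_num) (by rw [hcard]; norm_num)
      exact (no_twoChar hX (Tits74.twoChar_of_equiv74 e (u33_twoChar h9)) hnp).elim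
    · obtain ⟨-, hS, -, hcT⟩ := Cfsg.Agent.S1074.result
      obtain ⟨e⟩ := id hT
      haveI := hS
      haveI : IsSimpleGroup K := e.isSimpleGroup
      have hcard : Nat.card K = 2 ^ 11 * 3 ^ 3 * 5 ^ 2 * 13 := by
        rw [Nat.card_congr e.toEquiv, hcT]
      have hnp : ∀ U : Sylow 2 K, (U : Subgroup K) ≠ ⊤ :=
        hnp_of_dvd (q := 3) (by norm_num) (by norm_num) (by rw [hcard]; norm_num)
      exact (no_twoChar hX (tits_twoChar hT) hnp).elim
  · have hcard : Nat.card K = 504 := by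
      rw [Nat.card_congr e.toEquiv]
      have h := Cfsg.Agent.Lib.PSL2Max.card_PSL2_form (K := F)
      rw [h8] at h
      norm_num at h
      omega
    haveI : IsSimpleGroup (Matrix.ProjectiveSpecialLinearGroup (Fin 2) F) :=
      Matrix.ProjectiveSpecialLinearGroup.rank_two_simple (by rw [Nat.card_eq_fintype_card, h8]; norm_num)
    haveI : IsSimpleGroup K := e.isSimpleGroup
    have hnp : ∀ U : Sylow 3 K, (U : Subgroup K) ≠ ⊤ :=
      hnp_of_dvd (q := 2) (by norm_num) (by norm_num) (by rw [hcard]; norm_num)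
    have hnb : ∀ U : Sylow 3 K, (U : Subgroup K) ≠ ⊥ := by
      intro U hU
      apply U.not_dvd_index
      rw [hU, Subgroup.index_bot, hcard]
      norm_num
    obtain ⟨U0, hU0⟩ := local_one hX (fun N hM hidx => Cfsg.Agent.Lib.OverExc38.caseB h8 e N hM hidx)
      (HasLocalOne.of_equiv e (l28_localOne h8)) hnp hnb
    exact ⟨coatom_conj U0 U hU0, Or.inl (Or.inr (Or.inr (Or.inr ⟨rfl, Or.inr ⟨F, _, _, h8, ⟨e⟩⟩⟩)))⟩

end Cfsg.Agent.Lib.PMin29.Asm47
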