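import Mathlib
import Cfsg.Agent.Lib.PMinDefs29
import Cfsg.Agent.Lib.LTAut33F

/-!
# `G₂(q)`, `q` even: the centre of `U` is the long root group `X_{3a+2b}`, fixed by the short node
-/

set_option autoImplicit false
set_option linter.unusedSectionVars false
set_option linter.unusedVariables false
set_option maxRecDepth 100000

namespace Cfsg.Agent.Lib.PMin29

namespace G2Z47

open Cfsg Cfsg.Lie Cfsg.Agent.Lib.Chev Cfsg.Agent.Lib.BNPair Cfsg.Agent.Lib.LTAut33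
  Cfsg.Agent.Lib.StChev50
open Full (Uk rootClosure)

variable {F : Type*} [Field F]

/-- The concrete checks. -/
theorem hG : Full TabG2.T TabG2.X RootG2T.R chevG2 := ⟨RelG2.checks, RootG2.checks⟩

theorem hRN : RootG2T.R.N = 6 := by decide +kernel

theorem hwf : TabG2.X.wf 0 11 = 11 := by decide +kernel

theorem xG_norm {k r : ℕ} (hk : 6 ≤ k) (hr6 : 6 ≤ r) (hr : r < 12) (t : F) :
    hG.c.xG r t ∈ Subgroup.normalizer (Uk chevG2 F k : Set (GL chevG2.Idx F)) := by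
  have hn : chevG2.nroots = 12 := rfl
  have hrn : r < chevG2.nroots := hr
  refine hG.xG_mem_normalizer hrn (fun s => k ≤ s ∧ s < chevG2.nroots) ?_ ?_ t
  · rintro s ⟨h1, h2⟩
    refine ⟨h2, ?_⟩
    rw [RootG2.neg_eq r hr, hn]
    omega
  · rintro s ⟨h1, h2⟩ hsr c hc
    have hne : s ≠ chevG2.neg r := by
      rw [RootG2.neg_eq r hr, hn]
      omega
    have h3 := hG.commTerm_pos hrn h2 hsr hne hc (by rw [hRN]; omega) (by rw [hRN]; omega)
    have h4 := hG.commTerms_spec hrn h2 hsr hne hc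
    exact ⟨by omega, h4.1⟩

theorem Uk_le_norm {k : ℕ} (hk : 6 ≤ k) :
    Uk chevG2 F 6 ≤ Subgroup.normalizer (Uk chevG2 F k : Set (GL chevG2.Idx F)) := by
  show Subgroup.closure _ ≤ _
  refine (Subgroup.closure_le _).2 ?_
  rintro g ⟨s, t, hs, hg⟩
  rw [SetLike.mem_coe, hG.c.eq_xG hg]
  exact xG_norm hk hs.1 hs.2 t

theorem comm_mod {k s τ : ℕ} (hk : 6 ≤ k) (hτ : 6 ≤ τ) (hs6 : 6 ≤ s) (hs : s < 12)
    (hcm : ∀ r < 12, k ≤ r → r ≠ s → ∀ c ∈ chevG2.commTerms s r, τ ≤ c.1) (u : F)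
    {w : GL chevG2.Idx F} (hw : w ∈ Uk chevG2 F k) :
    hG.c.xG s u * w * (hG.c.xG s u)⁻¹ * w⁻¹ ∈ Uk chevG2 F τ := by
  have hn : chevG2.nroots = 12 := rfl
  have hsn : s < chevG2.nroots := hs
  have hnorm : ∀ a ∈ Uk chevG2 F k, ∀ n ∈ Uk chevG2 F τ, a * n * a⁻¹ ∈ Uk chevG2 F τ := by
    intro a ha n hn
    exact (Subgroup.mem_normalizer_iff.1 (Uk_le_norm hτ (hG.Uk_anti hk ha)) n).1 hn
  generalize hx : hG.c.xG s u = x
  refine Subgroup.closure_induction (p := fun a _ => x * a * x⁻¹ * a⁻¹ ∈ Uk chevG2 F τ) ?_ ?_ ?_ ?_ hw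
  · rintro g ⟨r, t, hr, hg⟩
    rw [hG.c.eq_xG hg]
    by_cases hrs : r = s
    · subst hrs
      have e : x * hG.c.xG r t = hG.c.xG r t * x := by
        rw [← hx, hG.c.xG_add, hG.c.xG_add, add_comm]
      have e2 : x * hG.c.xG r t * x⁻¹ * (hG.c.xG r t)⁻¹ = 1 := by
        rw [e]
        group
      rw [e2]
      exact Subgroup.one_mem _
    · have hne : r ≠ chevG2.neg s := by
        rw [RootG2.neg_eq s hs, hn]
        omega
      have e := hG.xG_conj hsn hr.2 hrs hne u t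
      rw [← hx, e]
      have hW : hG.c.wordG (chevG2.commWord F s r (-u) t) ∈ Uk chevG2 F τ := by
        apply hG.c.wordG_mem
        intro p hp
        simp only [ChevalleyDatum.commWord, List.mem_map] at hp
        obtain ⟨c, hc, rfl⟩ := hp
        exact hG.xG_mem_rootClosure ⟨hcm r hr.2 hr.1 hrs c hc, (hG.commTerms_spec hsn hr.2 hrs hne hc).1⟩ _
      have hmem : hG.c.xG r t ∈ Uk chevG2 F k := hG.xG_mem_rootClosure hr t
      exact hnorm _ hmem _ hW
  · simp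
  · intro a b ha hb h1 h2
    have e : x * (a * b) * x⁻¹ * (a * b)⁻¹ = (x * a * x⁻¹ * a⁻¹) * (a * (x * b * x⁻¹ * b⁻¹) * a⁻¹) := by
      group
    rw [e]
    exact Subgroup.mul_mem _ h1 (hnorm a ha _ h2)
  · intro a ha h
    have e : x * a⁻¹ * x⁻¹ * a⁻¹⁻¹ = a⁻¹ * (x * a * x⁻¹ * a⁻¹)⁻¹ * a⁻¹⁻¹ := by
      group
    rw [e]
    exact hnorm a⁻¹ (Subgroup.inv_mem _ ha) _ (Subgroup.inv_mem _ h)

theorem step {k s τ : ℕ} {c : ℤ} {rest : List (ℕ × ℤ × ℕ × ℕ)} (hk : 6 ≤ k) (hk' : k < 12)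
    (hs6 : 6 ≤ s) (hs : s < 12) (hsk : s ≠ k) (hτ6 : 6 ≤ τ) (hτ : τ < 12)
    (ht : chevG2.commTerms k s = (τ, c, 1, 1) :: rest) (hrest : ∀ e ∈ rest, τ + 1 ≤ e.1)
    (hcF : (c : F) ≠ 0)
    (hcm : ∀ r < 12, k + 1 ≤ r → r ≠ s → ∀ c ∈ chevG2.commTerms s r, τ + 1 ≤ c.1)
    {z : GL chevG2.Idx F} (hz : z ∈ Uk chevG2 F k)
    (hc : hG.c.xG s 1 * z = z * hG.c.xG s 1) : z ∈ Uk chevG2 F (k + 1) := by
  have hn : chevG2.nroots = 12 := rfl
  have hkn : k < chevG2.nroots := hk'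
  have hsn : s < chevG2.nroots := hs
  have hne : s ≠ chevG2.neg k := by
    rw [RootG2.neg_eq k hk', hn]
    omega
  obtain ⟨t, rfl⟩ := hG.exists_ordW (12 - k) k (by rw [hn]; omega) (by rw [hRN]; exact hk) z hz
  rw [hG.ordW_succ hkn] at hc ⊢
  have hw : hG.ordW (k + 1) t ∈ Uk chevG2 F (k + 1) := hG.ordW_mem _ _
  generalize hWdef : hG.ordW (k + 1) t = w at hc hw ⊢
  generalize haeq : t k = a at hc ⊢
  have hcomm := hG.xG_comm hkn hsn hsk hne a (1 : F)
  suffices ha0 : a = 0 by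
    rw [ha0, hG.c.xG_zero, one_mul]
    exact hw
  have hWw : hG.c.wordG (chevG2.commWord F k s a 1) =
      (hG.c.xG s 1)⁻¹ * w * ((hG.c.xG s 1)⁻¹)⁻¹ * w⁻¹ := by
    have e1 : hG.c.xG k a * hG.c.xG s 1 * hG.c.wordG (chevG2.commWord F k s a 1) * w =
        hG.c.xG k a * w * hG.c.xG s 1 := by
      rw [← hcomm, mul_assoc (hG.c.xG s 1), hc]
    have e2 : hG.c.xG s 1 * hG.c.wordG (chevG2.commWord F k s a 1) * w = w * hG.c.xG s 1 := by
      have := e1
      simp only [mul_assoc] at this ⊢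
      exact mul_left_cancel this
    have e3 : hG.c.wordG (chevG2.commWord F k s a 1) =
        (hG.c.xG s 1)⁻¹ * (hG.c.xG s 1 * hG.c.wordG (chevG2.commWord F k s a 1) * w) * w⁻¹ := by
      group
    rw [e3, e2]
    group
  have hmod : hG.c.wordG (chevG2.commWord F k s a 1) ∈ Uk chevG2 F (τ + 1) := by
    rw [hWw, hG.c.xG_inv]
    exact comm_mod (k := k + 1) (by omega) (by omega) hs6 hs hcm (-1) hw
  have hsplit : hG.c.wordG (chevG2.commWord F k s a 1) =
      hG.c.xG τ ((c : F) * (-a) ^ 1 * 1 ^ 1) * hG.c.wordG (rest.map fun c =>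
        (c.1, (c.2.1 : F) * (-a) ^ c.2.2.1 * 1 ^ c.2.2.2)) := by
    unfold ChevalleyDatum.commWord
    rw [ht, List.map_cons, Checks.wordG_cons]
  have hrestm : hG.c.wordG (rest.map fun c =>
        (c.1, (c.2.1 : F) * (-a) ^ c.2.2.1 * 1 ^ c.2.2.2)) ∈ Uk chevG2 F (τ + 1) := by
    apply hG.c.wordG_mem
    intro p hp
    simp only [List.mem_map] at hp
    obtain ⟨e, he, rfl⟩ := hp
    have hmem : e ∈ chevG2.commTerms k s := by
      rw [ht]
      exact List.mem_cons_of_mem _ he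
    exact hG.xG_mem_rootClosure ⟨hrest e he, (hG.commTerms_spec hkn hsn hsk hne hmem).1⟩ _
  have hx : hG.c.xG τ ((c : F) * (-a) ^ 1 * 1 ^ 1) ∈ Uk chevG2 F (τ + 1) := by
    have e := hmod
    rw [hsplit] at e
    exact (Subgroup.mul_mem_cancel_right _ hrestm).1 e
  have h0 := hG.xG_not_mem (by rw [hRN]; exact hτ6) hτ hx
  simp only [pow_one, mul_one] at h0
  have h1 : -a = 0 := (mul_eq_zero.1 h0).resolve_left hcF
  exact neg_eq_zero.1 h1

theorem Uk12 {g : GL chevG2.Idx F} (hg : g ∈ Uk chevG2 F 12) : g = 1 := by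
  obtain ⟨t, rfl⟩ := hG.exists_ordW 0 12 rfl (by rw [hRN]; omega) g hg
  exact hG.ordW_of_ge (by decide) t

theorem central_mem [CharP F 2] {z : GL chevG2.Idx F} (hz : z ∈ Uk chevG2 F 6)
    (hc : ∀ s, 6 ≤ s → s < 12 → hG.c.xG s 1 * z = z * hG.c.xG s 1) : ∃ b : F, z = hG.c.xG 11 b := by
  have h2 : (2 : F) = 0 := CharTwo.two_eq_zero
  have h3 : (3 : F) = 1 := by linear_combination h2
  have h7 : z ∈ Uk chevG2 F 7 := step (k := 6) (s := 7) (τ := 8) (c := 1)
    (rest := [(9, 1, 1, 2), (10, -1, 1, 3), (11, -2, 2, 3)]) (by omega) (by omega) (by omega) (by omega)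
    (by omega) (by omega) (by omega) (by decide +kernel) (by decide +kernel) (by simp)
    (by decide +kernel) hz (hc 7 (by omega) (by omega))
  have h8 : z ∈ Uk chevG2 F 8 := step (k := 7) (s := 6) (τ := 8) (c := -1)
    (rest := [(9, 1, 2, 1), (10, 1, 3, 1), (11, 1, 3, 2)]) (by omega) (by omega) (by omega) (by omega)
    (by omega) (by omega) (by omega) (by decide +kernel) (by decide +kernel) (by simp)
    (by decide +kernel) h7 (hc 6 (by omega) (by omega))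
  have h9 : z ∈ Uk chevG2 F 9 := step (k := 8) (s := 9) (τ := 11) (c := 3)
    (rest := []) (by omega) (by omega) (by omega) (by omega)
    (by omega) (by omega) (by omega) (by decide +kernel) (by simp) (by push_cast; rw [h3]; exact one_ne_zero)
    (by decide +kernel) h8 (hc 9 (by omega) (by omega))
  have h10 : z ∈ Uk chevG2 F 10 := step (k := 9) (s := 8) (τ := 11) (c := -3)
    (rest := []) (by omega) (by omega) (by omega) (by omega)
    (by omega) (by omega) (by omega) (by decide +kernel) (by simp)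
    (by push_cast; rw [h3]; exact neg_ne_zero.2 one_ne_zero)
    (by decide +kernel) h9 (hc 8 (by omega) (by omega))
  have h11 : z ∈ Uk chevG2 F 11 := step (k := 10) (s := 6) (τ := 11) (c := -1)
    (rest := []) (by omega) (by omega) (by omega) (by omega)
    (by omega) (by omega) (by omega) (by decide +kernel) (by simp) (by simp)
    (by decide +kernel) h10 (hc 6 (by omega) (by omega))
  obtain ⟨t, rfl⟩ := hG.exists_ordW 1 11 rfl (by rw [hRN]; omega) z h11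
  refine ⟨t 11, ?_⟩
  have e12 : hG.ordW 12 t = 1 := hG.ordW_of_ge (by decide) t
  rw [hG.ordW_succ (k := 11) (by decide)]
  show hG.c.xG 11 (t 11) * hG.ordW 12 t = _
  rw [e12, mul_one]

end G2Z47

/-- `G₂(q)`, `q` even: a node normalizes the centre of `U`. -/
theorem zNode_G2_h47 (F : Type*) [Field F] [Fintype F] [CharP F 2] : HasZNode 2 ↥(Cfsg.Lie.chevG2.group F) := by
  open G2Z47 Cfsg.Lie Cfsg.Agent.Lib.Chev Cfsg.Agent.Lib.StChev50 Cfsg.Agent.Lib.LTAut33 in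
  have : Fact (Nat.Prime 2) := ⟨Nat.prime_two⟩
  refine ⟨hG.bnPair F, Cfsg.Agent.Lib.StChev50.UU chevG2 F, chev_split hG F 2, sig hG F 0,
    sig_mem hG (Finset.mem_range.2 (by decide)), ?_⟩
  intro z hz hzc
  have hU6 : ∀ g : GL chevG2.Idx F, g ∈ chevG2.posUnipotent F ↔ g ∈ Full.Uk chevG2 F 6 := by
    intro g
    rw [hG.U_eq_Uk, hRN]
  have hz' : (z : GL chevG2.Idx F) ∈ Full.Uk chevG2 F 6 := (hU6 _).1 (Subgroup.mem_subgroupOf.1 hz)
  have hmemU : ∀ s, 6 ≤ s → s < 12 → ∀ t : F, hG.c.xG s t ∈ chevG2.posUnipotent F := by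
    intro s h6 h12 t
    rw [hU6]
    exact hG.xG_mem_rootClosure ⟨h6, h12⟩ t
  have hc : ∀ s, 6 ≤ s → s < 12 → hG.c.xG (F := F) s 1 * (z : GL chevG2.Idx F) = (z : GL chevG2.Idx F) * hG.c.xG (F := F) s 1 := by
    intro s h6 h12
    have := hzc ⟨hG.c.xG s 1, Cfsg.Agent.Lib.StChev50.U_le_group hG (hmemU s h6 h12 1)⟩
      (Subgroup.mem_subgroupOf.2 (hmemU s h6 h12 1))
    exact congrArg Subtype.val this
  obtain ⟨b, hb⟩ := central_mem hz' hc
  have hconj : ((sig hG F 0 * z * (sig hG F 0)⁻¹ : ↥(chevG2.group F)) : GL chevG2.Idx F) =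
      hG.c.xG 11 (((TabG2.X.eta 0 11 : ℤ) : F) * b) := by
    have e := hG.nS_conj_xG (F := F) (i := 0) (s := 11) (by decide) (by decide) b
    rw [hwf] at e
    rw [← e, ← hb, ← sig_of_lt hG (F := F) (i := 0) (by decide)]
    rfl
  refine ⟨?_, ?_⟩
  · rw [Subgroup.mem_subgroupOf, hconj]
    exact hmemU 11 (by omega) (by omega) _
  · intro u hu
    apply Subtype.ext
    have hu' : (u : GL chevG2.Idx F) ∈ Full.Uk chevG2 F 6 := (hU6 _).1 (Subgroup.mem_subgroupOf.1 hu)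
    show (u : GL chevG2.Idx F) * ((sig hG F 0 * z * (sig hG F 0)⁻¹ : ↥(chevG2.group F)) : GL chevG2.Idx F) =
      ((sig hG F 0 * z * (sig hG F 0)⁻¹ : ↥(chevG2.group F)) : GL chevG2.Idx F) * u
    rw [hconj]
    have h1 := comm_mod (k := 6) (s := 11) (τ := 12) (by omega) (by omega) (by omega) (by omega)
      (by decide +kernel) (((TabG2.X.eta 0 11 : ℤ) : F) * b) hu'
    have h2 := Uk12 h1
    have h3 := mul_inv_eq_one.1 h2
    have h4 := mul_inv_eq_iff_eq_mul.1 h3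
    exact h4.symm

end Cfsg.Agent.Lib.PMin29
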