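-- PSL_2(13): element orders by enumeration.
import Mathlib
import Cfsg.Agent.Lib.ClassicalSmall
import Cfsg.Agent.Lib.SLTransfer

set_option autoImplicit false

namespace Cfsg.Agent.Lib.PSL213

open Matrix
open scoped MatrixGroups

abbrev Z13 := ZMod 13
abbrev Q4 := Z13 × Z13 × Z13 × Z13

def m2 (x y : Q4) : Q4 :=
  (x.1 * y.1 + x.2.1 * y.2.2.1, x.1 * y.2.1 + x.2.1 * y.2.2.2,
    x.2.2.1 * y.1 + x.2.2.2 * y.2.2.1, x.2.2.1 * y.2.1 + x.2.2.2 * y.2.2.2)

def toM (x : Q4) : Matrix (Fin 2) (Fin 2) Z13 := !![x.1, x.2.1; x.2.2.1, x.2.2.2]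

theorem toM_mul (x y : Q4) : toM x * toM y = toM (m2 x y) := by
  simp [toM, m2]

def isPM (x : Q4) : Bool :=
  decide (x = (1, 0, 0, 1)) || decide (x = (-1, 0, 0, -1))

theorem toM_isPM {x : Q4} (h : isPM x = true) : toM x = 1 ∨ toM x = -1 := by
  simp only [isPM, Bool.or_eq_true, decide_eq_true_eq] at h
  rcases h with rfl | rfl
  · left
    ext i j
    fin_cases i <;> fin_cases j <;> simp [toM]
  · right
    ext i j
    fin_cases i <;> fin_cases j <;> simp [toM]

def p6 (x : Q4) : Q4 := m2 (m2 (m2 x x) x) (m2 (m2 x x) x)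

/-- All elements of `SL₂(13)` have order dividing `6`, `7` or `13` modulo `±1`. -/
theorem chk_orders : ∀ a b c d : Z13, a * d - b * c = 1 →
    (isPM (p6 (a, b, c, d)) || isPM (m2 (p6 (a, b, c, d)) (a, b, c, d)) ||
      isPM (m2 (p6 (a, b, c, d)) (m2 (p6 (a, b, c, d)) (a, b, c, d)))) = true := by
  decide +kernel

abbrev SL13 := Matrix.SpecialLinearGroup (Fin 2) Z13
abbrev PSL13 := ProjectiveSpecialLinearGroup (Fin 2) Z13

theorem mem_center_of_pm {z : SL13} (h : z.1 = 1 ∨ z.1 = -1) : z ∈ Subgroup.center SL13 := by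
  rw [Subgroup.mem_center_iff]
  intro g
  apply Subtype.ext
  rw [Matrix.SpecialLinearGroup.coe_mul, Matrix.SpecialLinearGroup.coe_mul]
  rcases h with h | h <;> simp [h]

theorem entries_of_center {z : SL13} (h : z ∈ Subgroup.center SL13) : z.1 0 0 = z.1 1 1 := by
  obtain ⟨r, _, hr⟩ := (Matrix.SpecialLinearGroup.mem_center_iff).1 h
  rw [← hr]
  simp

theorem pow_one_of_pm (A : SL13) (n : ℕ) (h : (A ^ n).1 = 1 ∨ (A ^ n).1 = -1) :
    (QuotientGroup.mk A : PSL13) ^ n = 1 := by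
  rw [← QuotientGroup.mk_pow]
  exact (QuotientGroup.eq_one_iff _).2 (mem_center_of_pm h)

/-- Element orders in `PSL₂(13)`. -/
theorem orders_PSL13 (y : PSL13) : y ^ 6 = 1 ∨ y ^ 7 = 1 ∨ y ^ 13 = 1 := by
  obtain ⟨A, rfl⟩ := QuotientGroup.mk_surjective y
  set x : Q4 := (A.1 0 0, A.1 0 1, A.1 1 0, A.1 1 1) with hx
  have hA : A.1 = toM x := by
    rw [hx, toM]
    exact (Matrix.eta_fin_two A.1)
  have hdet : A.1 0 0 * A.1 1 1 - A.1 0 1 * A.1 1 0 = 1 := by
    have := A.2
    rwa [Matrix.det_fin_two] at this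
  have h6 : (A ^ 6).1 = toM (p6 x) := by
    have : A ^ 6 = ((A * A) * A) * ((A * A) * A) := by
      simp only [pow_succ, pow_zero, one_mul, mul_assoc]
    rw [this]
    simp only [Matrix.SpecialLinearGroup.coe_mul, hA, toM_mul, p6]
  have h7 : (A ^ 7).1 = toM (m2 (p6 x) x) := by
    have : A ^ 7 = A ^ 6 * A := pow_succ A 6
    rw [this, Matrix.SpecialLinearGroup.coe_mul, h6, hA, toM_mul]
  have h13 : (A ^ 13).1 = toM (m2 (p6 x) (m2 (p6 x) x)) := by
    have : A ^ 13 = A ^ 6 * A ^ 7 := (pow_add A 6 7)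
    rw [this, Matrix.SpecialLinearGroup.coe_mul, h6, h7, toM_mul]
  have hchk := chk_orders _ _ _ _ hdet
  simp only [Bool.or_eq_true] at hchk
  rcases hchk with (h | h) | h
  · left
    exact pow_one_of_pm A 6 (by rw [h6]; exact toM_isPM h)
  · right; left
    exact pow_one_of_pm A 7 (by rw [h7]; exact toM_isPM h)
  · right; right
    exact pow_one_of_pm A 13 (by rw [h13]; exact toM_isPM h)

def A6 : SL13 := ⟨!![2, 0; 0, 7], by decide⟩

theorem A6_pow6 : (A6 ^ 6).1 = -1 := by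
  have : (A6 ^ 6).1 = (!![2, 0; 0, 7] : Matrix (Fin 2) (Fin 2) Z13) ^ 6 := rfl
  rw [this]
  decide +kernel

theorem A6_pow2 : (A6 ^ 2).1 0 0 ≠ (A6 ^ 2).1 1 1 := by
  have : (A6 ^ 2).1 = (!![2, 0; 0, 7] : Matrix (Fin 2) (Fin 2) Z13) ^ 2 := rfl
  rw [this]
  decide +kernel

theorem A6_pow3 : (A6 ^ 3).1 0 0 ≠ (A6 ^ 3).1 1 1 := by
  have : (A6 ^ 3).1 = (!![2, 0; 0, 7] : Matrix (Fin 2) (Fin 2) Z13) ^ 3 := rfl
  rw [this]
  decide +kernel

/-- An element of order 6. -/
theorem order_six : orderOf (QuotientGroup.mk A6 : PSL13) = 6 := by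
  apply orderOf_eq_of_pow_and_pow_div_prime (by norm_num)
  · exact pow_one_of_pm A6 6 (Or.inr A6_pow6)
  · intro p hp hd
    have hp6 : p = 2 ∨ p = 3 := by
      have : p ∣ 2 * 3 := by simpa using hd
      rcases (Nat.Prime.dvd_mul hp).1 this with h | h
      · exact Or.inl ((Nat.prime_dvd_prime_iff_eq hp Nat.prime_two).1 h)
      · exact Or.inr ((Nat.prime_dvd_prime_iff_eq hp Nat.prime_three).1 h)
    rcases hp6 with rfl | rfl
    · intro h
      rw [← QuotientGroup.mk_pow] at h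
      exact A6_pow3 (entries_of_center ((QuotientGroup.eq_one_iff _).1 h))
    · intro h
      rw [← QuotientGroup.mk_pow] at h
      exact A6_pow2 (entries_of_center ((QuotientGroup.eq_one_iff _).1 h))

/-- Products of two distinct primes in `PSL₂(13)`. -/
theorem exists_order_iff (r s : ℕ) (hr : r.Prime) (hs : s.Prime) (hrs : r ≠ s) :
    (∃ y : PSL13, orderOf y = r * s) ↔ r * s = 6 := by
  constructor
  · rintro ⟨y, hy⟩
    have hr2 := hr.two_le
    have hs2 := hs.two_le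
    have aux : ∀ q : ℕ, q.Prime → ¬ r * s ∣ q := by
      intro q hq hd
      have h1 : r = q := (Nat.prime_dvd_prime_iff_eq hr hq).1 ((Nat.dvd_mul_right r s).trans hd)
      have h2 : s = q := (Nat.prime_dvd_prime_iff_eq hs hq).1 ((Nat.dvd_mul_left s r).trans hd)
      exact hrs (h1.trans h2.symm)
    rcases orders_PSL13 y with h | h | h
    · have hd : r * s ∣ 6 := hy ▸ orderOf_dvd_of_pow_eq_one h
      have hle : r * s ≤ 6 := Nat.le_of_dvd (by norm_num) hd
      have hne : r * s ≠ 4 := by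
        intro h4
        have hr4 : r ≤ 4 := by nlinarith
        have hs4 : s ≤ 4 := by nlinarith
        interval_cases r <;> interval_cases s <;> simp_all
      have hge : 4 ≤ r * s := by nlinarith
      have h5 : r * s ≠ 5 := by
        intro h5
        rw [h5] at hd
        omega
      omega
    · exact absurd (hy ▸ orderOf_dvd_of_pow_eq_one h) (aux 7 (by norm_num))
    · exact absurd (hy ▸ orderOf_dvd_of_pow_eq_one h) (aux 13 (by norm_num))
  · intro h
    exact ⟨_, by rw [h]; exact order_six⟩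

end Cfsg.Agent.Lib.PSL213
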