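import Mathlib
import Cfsg.Agent.Lib.PSL2Solv
import Cfsg.Agent.Lib.HallExist
import Cfsg.Agent.Lib.PSL2Poly

/-!
# Hall `{2, 3}`-subgroups of `PSL₂`
-/

set_option autoImplicit false
set_option linter.style.haveILetI false
set_option linter.unusedVariables false
set_option linter.unusedSectionVars false

namespace Cfsg.Agent.Lib.PSL2Hall

open Matrix Subgroup
open Cfsg.Agent.Lib.SL2Core Cfsg.Agent.Lib.DicksonMat Cfsg.Agent.Lib.DicksonAbs Cfsg.Agent.Lib.DicksonStruct
open Cfsg.Agent.Lib.PSL2Max Cfsg.Agent.Lib.PSL2Cnt Cfsg.Agent.Lib.PSL2Coat Cfsg.Agent.Lib.PSL2Nor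
open Cfsg.Agent.Lib.PSL2Solv Cfsg.Agent.Lib.PSL2Poly Cfsg.Agent.Lib.QuatTab Cfsg.Agent.Lib.QuatTabs

/-! ### Arithmetic of the `{2, 3}`-part -/

lemma fac2 (x y : ℕ) : (2 ^ x * 3 ^ y).factorization 2 = x := by
  rw [Nat.factorization_mul (by positivity) (by positivity), Finsupp.add_apply, Nat.Prime.factorization_pow Nat.prime_two,
    Nat.Prime.factorization_pow Nat.prime_three, Finsupp.single_eq_same, Finsupp.single_eq_of_ne (by norm_num), add_zero]

lemma fac3 (x y : ℕ) : (2 ^ x * 3 ^ y).factorization 3 = y := by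
  rw [Nat.factorization_mul (by positivity) (by positivity), Finsupp.add_apply, Nat.Prime.factorization_pow Nat.prime_two,
    Nat.Prime.factorization_pow Nat.prime_three, Finsupp.single_eq_same, Finsupp.single_eq_of_ne (by norm_num), zero_add]

lemma pure_2_3 {h : ℕ} (h0 : h ≠ 0) (hp : ∀ r : ℕ, r.Prime → r ∣ h → r = 2 ∨ r = 3) :
    h = 2 ^ (h.factorization 2) * 3 ^ (h.factorization 3) := by
  apply Nat.eq_of_factorization_eq h0 (by positivity)
  intro r
  by_cases hr2 : r = 2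
  · subst hr2
    rw [fac2]
  by_cases hr3 : r = 3
  · subst hr3
    rw [fac3]
  by_cases hr : r.Prime
  · have h1 : ¬ r ∣ h := fun h2 => (hp r hr h2).elim hr2 hr3
    rw [Nat.factorization_eq_zero_of_not_dvd h1, Nat.factorization_eq_zero_of_not_dvd]
    intro h2
    rcases (Nat.Prime.dvd_mul hr).mp h2 with h3 | h3
    · exact hr2 ((Nat.prime_dvd_prime_iff_eq hr Nat.prime_two).mp (hr.dvd_of_dvd_pow h3))
    · exact hr3 ((Nat.prime_dvd_prime_iff_eq hr Nat.prime_three).mp (hr.dvd_of_dvd_pow h3))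
  · rw [Nat.factorization_eq_zero_of_not_prime _ hr, Nat.factorization_eq_zero_of_not_prime _ hr]

lemma hall_eq {q n h i : ℕ} (hq2 : ¬ 2 ∣ q) (hq3 : ¬ 3 ∣ q) (hn : n ≠ 0) (hN : 2 * h * i = q * n)
    (hprimes : ∀ r : ℕ, r.Prime → r ∣ h → r = 2 ∨ r = 3) (hi2 : ¬ 2 ∣ i) (hi3 : ¬ 3 ∣ i) :
    2 * h = 2 ^ (n.factorization 2) * 3 ^ (n.factorization 3) := by
  have hq0 : q ≠ 0 := by
    rintro rfl
    exact hq2 (dvd_zero 2)
  have hqn : q * n ≠ 0 := mul_ne_zero hq0 hn
  have hh0 : h ≠ 0 := by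
    rintro rfl
    apply hqn
    rw [← hN]
    simp
  have hi0 : i ≠ 0 := by
    rintro rfl
    apply hqn
    rw [← hN]
    simp
  have f2 : (2 * h * i).factorization 2 = (q * n).factorization 2 := by rw [hN]
  have f3 : (2 * h * i).factorization 3 = (q * n).factorization 3 := by rw [hN]
  rw [Nat.factorization_mul (by positivity) hi0, Nat.factorization_mul (by norm_num) hh0, Nat.factorization_mul hq0 hn,
    Finsupp.add_apply, Finsupp.add_apply, Finsupp.add_apply, Nat.factorization_eq_zero_of_not_dvd hi2,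
    Nat.factorization_eq_zero_of_not_dvd hq2, Nat.Prime.factorization_self Nat.prime_two] at f2
  rw [Nat.factorization_mul (by positivity) hi0, Nat.factorization_mul (by norm_num) hh0, Nat.factorization_mul hq0 hn,
    Finsupp.add_apply, Finsupp.add_apply, Finsupp.add_apply, Nat.factorization_eq_zero_of_not_dvd hi3,
    Nat.factorization_eq_zero_of_not_dvd hq3] at f3
  have h23 : Nat.factorization 2 3 = 0 := Nat.factorization_eq_zero_of_not_dvd (by norm_num)
  rw [h23] at f3
  conv_lhs => rw [pure_2_3 hh0 hprimes]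
  have e2 : n.factorization 2 = h.factorization 2 + 1 := by omega
  have e3 : n.factorization 3 = h.factorization 3 := by omega
  rw [e2, e3, pow_succ]
  ring

lemma hall_of_eq {q n h i : ℕ} (hq2 : ¬ 2 ∣ q) (hq3 : ¬ 3 ∣ q) (hn : n ≠ 0) (hN : 2 * h * i = q * n)
    (hA : 2 * h = 2 ^ (n.factorization 2) * 3 ^ (n.factorization 3)) :
    (∀ r : ℕ, r.Prime → r ∣ h → r = 2 ∨ r = 3) ∧ ¬ 2 ∣ i ∧ ¬ 3 ∣ i := by
  have hq0 : q ≠ 0 := by
    rintro rfl
    exact hq2 (dvd_zero 2)
  have hqn : q * n ≠ 0 := mul_ne_zero hq0 hn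
  have hh0 : 2 * h ≠ 0 := by
    intro h0
    apply hqn
    rw [← hN, h0]
    simp
  have hi0 : i ≠ 0 := by
    rintro rfl
    apply hqn
    rw [← hN]
    simp
  refine ⟨?_, ?_, ?_⟩
  · intro r hr hrh
    have h1 : r ∣ 2 ^ (n.factorization 2) * 3 ^ (n.factorization 3) := by
      rw [← hA]
      exact Dvd.dvd.mul_left hrh 2
    rcases (Nat.Prime.dvd_mul hr).mp h1 with h3 | h3
    · exact Or.inl ((Nat.prime_dvd_prime_iff_eq hr Nat.prime_two).mp (hr.dvd_of_dvd_pow h3))
    · exact Or.inr ((Nat.prime_dvd_prime_iff_eq hr Nat.prime_three).mp (hr.dvd_of_dvd_pow h3))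
  · intro h2
    have f2 : (2 * h * i).factorization 2 = (q * n).factorization 2 := by rw [hN]
    rw [Nat.factorization_mul hh0 hi0, Nat.factorization_mul hq0 hn, hA, Finsupp.add_apply, Finsupp.add_apply, fac2,
      Nat.factorization_eq_zero_of_not_dvd hq2] at f2
    have := (Nat.Prime.dvd_iff_one_le_factorization Nat.prime_two hi0).mp h2
    omega
  · intro h2
    have f2 : (2 * h * i).factorization 3 = (q * n).factorization 3 := by rw [hN]
    rw [Nat.factorization_mul hh0 hi0, Nat.factorization_mul hq0 hn, hA, Finsupp.add_apply, Finsupp.add_apply, fac3,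
      Nat.factorization_eq_zero_of_not_dvd hq3] at f2
    have := (Nat.Prime.dvd_iff_one_le_factorization Nat.prime_three hi0).mp h2
    omega

section

variable {F : Type*} [Field F] [Fintype F] (p : ℕ) [hp : Fact p.Prime] [CharP F p]

include p in
lemma card_K_ge (h5 : 5 ≤ p) {K : Type*} [Field K] [Fintype K] {m : ℕ} (hm : Fintype.card K ^ m = Fintype.card F) :
    5 ≤ Fintype.card K ∧ Odd (Fintype.card K) := by
  obtain ⟨n, -, hn⟩ := FiniteField.card F p
  have hq1 : 1 < Fintype.card F := Fintype.one_lt_card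
  have hm0 : m ≠ 0 := by
    rintro rfl
    rw [pow_zero] at hm
    omega
  have hK1 : 1 < Fintype.card K := Fintype.one_lt_card
  obtain ⟨r, hr, hrK⟩ := Nat.exists_prime_and_dvd (n := Fintype.card K) (by omega)
  have h1 : r ∣ p ^ (n : ℕ) := by
    rw [← hn, ← hm]
    exact hrK.trans (dvd_pow_self _ hm0)
  have h2 : r = p := (Nat.prime_dvd_prime_iff_eq hr hp.out).mp (hr.dvd_of_dvd_pow h1)
  subst h2
  refine ⟨h5.trans (Nat.le_of_dvd (by omega) hrK), ?_⟩
  rw [← Nat.not_even_iff_odd]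
  intro hev
  obtain ⟨z, hz⟩ := hev
  have h3 : 2 ∣ Fintype.card K := ⟨z, by omega⟩
  have h4 : 2 ∣ r ^ (n : ℕ) := by
    rw [← hn, ← hm]
    exact h3.trans (dvd_pow_self _ hm0)
  have h6 := (Nat.prime_dvd_prime_iff_eq Nat.prime_two hr).mp (Nat.prime_two.dvd_of_dvd_pow h4)
  omega

include p in
lemma exists_card12 (h5 : 5 ≤ p) : ∃ H : Subgroup (PSL2 F), Nat.card H = 12 := by
  have hp2 : p ≠ 2 := by omega
  obtain ⟨a, b, hab⟩ := exists_ab (F := F) p
  let D : Data F 0 0 := ⟨a, b, 0, hab, by simp, two_ne_of_char p hp2⟩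
  obtain ⟨t1, t2, t3, t4⟩ := tabT_ok
  have hcardH : Nat.card (D.HH gensT) ≤ 12 := by
    have := D.card_HH_le t1 t2 t3 t4
    rwa [tabT_length] at this
  have ha : D.aa ∈ D.HH gensT := D.gen_mem_HH (G := om1) (by simp [gensT])
  have hb : D.bb ∈ D.HH gensT := D.gen_mem_HH (G := om2) (by simp [gensT])
  refine ⟨D.HH gensT, ?_⟩
  rcases D.overgroup_cases_tab p (D.HH gensT) ha hb with ⟨⟨e⟩⟩ | ⟨⟨e⟩⟩ | ⟨⟨e⟩⟩ | ⟨K', _, _, m, hm, h⟩
  · rw [Nat.card_congr e.toEquiv, card_alt4]
  · rw [Nat.card_congr e.toEquiv, card_perm4] at hcardH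
    omega
  · rw [Nat.card_congr e.toEquiv, card_alt5] at hcardH
    omega
  · exfalso
    obtain ⟨h1, h2⟩ := card_K_ge p h5 hm
    have h3 := card_cases (D.HH gensT) h2 h
    have h4 := num_ge (a := 5) (by norm_num) h1
    norm_num at h4
    have h6 : 0 < Nat.card (D.HH gensT) := Nat.card_pos
    omega

include p in
lemma exists_card24 (h5 : 5 ≤ p) (hs : ∃ s : F, s * s = 2) : ∃ H : Subgroup (PSL2 F), Nat.card H = 24 := by
  have hp2 : p ≠ 2 := by omega
  obtain ⟨a, b, hab⟩ := exists_ab (F := F) p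
  obtain ⟨s, hs⟩ := hs
  let D : Data F 0 2 := ⟨a, b, s, hab, by simpa using hs, two_ne_of_char p hp2⟩
  obtain ⟨t1, t2, t3, t4⟩ := tabO_ok
  have hcardH : Nat.card (D.HH gensO) ≤ 24 := by
    have := D.card_HH_le t1 t2 t3 t4
    rwa [tabO_length] at this
  have ha : D.aa ∈ D.HH gensO := D.gen_mem_HH (G := om1) (by simp [gensO])
  have hb : D.bb ∈ D.HH gensO := D.gen_mem_HH (G := om2) (by simp [gensO])
  have hx : proj (D.GS hO) ∈ D.HH gensO := D.gen_mem_HH (by simp [gensO])
  obtain ⟨hx4, hx2⟩ := hO_order D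
  refine ⟨D.HH gensO, ?_⟩
  rcases D.overgroup_cases_tab p (D.HH gensO) ha hb with ⟨⟨e⟩⟩ | ⟨⟨e⟩⟩ | ⟨⟨e⟩⟩ | ⟨K', _, _, m, hm, h⟩
  · exact (no_order4 no_order4_A4 e hx hx4 hx2).elim
  · rw [Nat.card_congr e.toEquiv, card_perm4]
  · exact (no_order4 no_order4_A5 e hx hx4 hx2).elim
  · exfalso
    obtain ⟨h1, h2⟩ := card_K_ge p h5 hm
    have h3 := card_cases (D.HH gensO) h2 h
    have h4 := num_ge (a := 5) (by norm_num) h1
    norm_num at h4
    have h6 : 0 < Nat.card (D.HH gensO) := Nat.card_pos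
    omega

omit [CharP F p] hp in
/-- A split torus. -/
lemma exists_split (h4 : 4 ≤ Fintype.card F) : ∃ A : SL2 F, A ∉ center (SL2 F) ∧ tr A * tr A ≠ 4 ∧
    Nat.card (MM (proj A)) * Nat.gcd 2 (Fintype.card F - 1) = Fintype.card F - 1 := by
  classical
  have hex : ∃ l : F, l ∉ ({0, 1, -1} : Finset F) := by
    by_contra hcon
    push Not at hcon
    have h1 : (Finset.univ : Finset F) ⊆ {0, 1, -1} := fun x _ => hcon x
    have h2 := Finset.card_le_card h1
    rw [Finset.card_univ] at h2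
    have h3 : ({0, 1, -1} : Finset F).card ≤ 3 := Finset.card_le_three
    omega
  obtain ⟨l, hl⟩ := hex
  simp only [Finset.mem_insert, Finset.mem_singleton, not_or] at hl
  obtain ⟨hl0, hl1, hl2⟩ := hl
  have hll : l⁻¹ ≠ l := by
    intro h
    have h1 : l * l = 1 := by
      nth_rewrite 1 [← h]
      exact inv_mul_cancel₀ hl0
    rcases mul_self_eq_one_iff.mp h1 with h2 | h2
    · exact hl1 h2
    · exact hl2 h2
  let A : SL2 F := mk2 l 0 0 l⁻¹ (by field_simp; ring)
  have hA : A ∉ Subgroup.center (SL2 F) := by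
    rw [not_center_iff]
    right; right
    exact fun h => hll h.symm
  have htr : tr A = l + l⁻¹ := by
    rw [ee_tr]
    rfl
  have ht2 : tr A * tr A ≠ 4 := by
    rw [htr]
    intro h4
    have h5 : (l - l⁻¹) * (l - l⁻¹) = 0 := by
      have h6 : l * l⁻¹ = 1 := mul_inv_cancel₀ hl0
      linear_combination h4 - 4 * h6
    exact hll (sub_eq_zero.mp (mul_self_eq_zero.mp h5)).symm
  refine ⟨A, hA, ht2, ?_⟩
  rw [card_MM_mul]
  apply card_TT_split A hA ht2 (l := l)
  rw [htr]
  have h6 : l * l⁻¹ = 1 := mul_inv_cancel₀ hl0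
  linear_combination (-1 : F) * h6

omit [CharP F p] hp in
/-- A nonsplit torus. -/
lemma exists_nonsplit : ∃ A : SL2 F, A ∉ center (SL2 F) ∧ tr A * tr A ≠ 4 ∧
    Nat.card (MM (proj A)) * Nat.gcd 2 (Fintype.card F - 1) = Fintype.card F + 1 := by
  classical
  have hq1 : 1 < Fintype.card F := Fintype.one_lt_card
  have hex : ∃ t : F, ∀ l : F, l * l - t * l + 1 ≠ 0 := by
    by_contra hcon
    push Not at hcon
    choose l hl using hcon
    have hl0 : ∀ t, l t ≠ 0 := by
      intro t h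
      have := hl t
      rw [h] at this
      simp at this
    let f : F → Fˣ := fun t => Units.mk0 (l t) (hl0 t)
    have hf : Function.Injective f := by
      intro s t hst
      have h1 : l s = l t := congrArg Units.val hst
      have h2 := hl s
      have h3 := hl t
      rw [← h1] at h3
      have h4 : (s - t) * l s = 0 := by linear_combination h3 - h2
      exact sub_eq_zero.mp ((mul_eq_zero.mp h4).resolve_right (hl0 s))
    have h1 := Fintype.card_le_of_injective f hf
    rw [Fintype.card_units] at h1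
    omega
  obtain ⟨t, ht⟩ := hex
  let A : SL2 F := comp t
  have hA : A ∉ Subgroup.center (SL2 F) := by
    rw [not_center_iff]
    left
    change (-1 : F) ≠ 0
    exact neg_ne_zero.mpr one_ne_zero
  have htr : tr A = t := by
    rw [ee_tr]
    change (0 : F) + t = t
    ring
  have ht2 : tr A * tr A ≠ 4 := by
    rw [htr]
    intro h4
    have h5 : (t - 2) * (t + 2) = 0 := by linear_combination h4
    rcases mul_eq_zero.mp h5 with h6 | h6
    · apply ht 1
      have : t = 2 := sub_eq_zero.mp h6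
      rw [this]
      ring
    · apply ht (-1)
      have : t = -2 := by linear_combination h6
      rw [this]
      ring
  refine ⟨A, hA, ht2, ?_⟩
  rw [card_MM_mul]
  apply card_TT_nonsplit A hA ht2
  rw [htr]
  exact ht

include p in
/-- A Hall subgroup inside the normalizer of a torus. -/
lemma exists_hall_in_torus {A : SL2 F} (hA : A ∉ center (SL2 F)) (ht : tr A * tr A ≠ 4)
    (hi2 : ¬ 2 ∣ (normalizer ((MM (proj A) : Subgroup (PSL2 F)) : Set (PSL2 F))).index)
    (hi3 : ¬ 3 ∣ (normalizer ((MM (proj A) : Subgroup (PSL2 F)) : Set (PSL2 F))).index) :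
    ∃ H : Subgroup (PSL2 F), (∀ r : ℕ, r.Prime → r ∣ Nat.card H → r = 2 ∨ r = 3) ∧ ¬ 2 ∣ H.index ∧ ¬ 3 ∣ H.index := by
  set N := normalizer ((MM (proj A) : Subgroup (PSL2 F)) : Set (PSL2 F)) with hN
  obtain ⟨e⟩ := dihedral_of_eq_normalizer p hA ht rfl (M := N)
  haveI := isSolvable_dihedral (Nat.card (MM (proj A)))
  haveI : Group.IsSolvable N := isSolvable_of_equiv e
  obtain ⟨H₀, h1, h2⟩ := Cfsg.Agent.Lib.HallExist.exists_hall (fun r => r = 2 ∨ r = 3) N
  refine ⟨H₀.map N.subtype, ?_, ?_, ?_⟩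
  · intro r hr hd
    rw [Subgroup.card_map_of_injective N.subtype_injective] at hd
    exact h1 r hr hd
  · rw [Subgroup.index_map_subtype]
    intro h
    rcases (Nat.Prime.dvd_mul Nat.prime_two).mp h with h3 | h3
    · exact h2 2 Nat.prime_two h3 (Or.inl rfl)
    · exact hi2 h3
  · rw [Subgroup.index_map_subtype]
    intro h
    rcases (Nat.Prime.dvd_mul Nat.prime_three).mp h with h3 | h3
    · exact h2 3 Nat.prime_three h3 (Or.inr rfl)
    · exact hi3 h3

end

end Cfsg.Agent.Lib.PSL2Hall
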