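import Mathlib
import Cfsg.Agent.Lib.SUMinDeg3

/-!
# Counting cosets under the root subgroup of a point stabiliser in `SU`

For a finite group `G`, subgroups `Q`, `K` and `g : G`, the set of cosets `y g K` (`y ∈ Q`) has
`|Q| / |Q ∩ g K g⁻¹|` elements.  For `Q` the group of root elements `mkE v (a • w) s` of `SU_n(q)`,
and `K` a subgroup whose conjugate meets the transvection group of `v` trivially, we bound the
intersection with `Q`, and obtain two disjoint orbits when a torus element moves `F_q`-lines.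
-/

set_option autoImplicit false
set_option linter.unusedSectionVars false
set_option linter.unusedVariables false

namespace Cfsg.Agent.Lib.PSU35A

open Cfsg Cfsg.Agent.Lib.HermForm Cfsg.Agent.Lib.FFNorm Cfsg.Agent.Lib.SUMinDeg Cfsg.Agent.Lib.UnitaryE

section Abstract

variable {G : Type*} [Group G] [Finite G]

/-- A conjugate subgroup. -/
abbrev cj (g : G) (K : Subgroup G) : Subgroup G := K.map (MulAut.conj g).toMonoidHom

lemma mem_cj {g y : G} {K : Subgroup G} : y ∈ cj g K ↔ g⁻¹ * y * g ∈ K := by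
  constructor
  · rintro ⟨k, hk, rfl⟩
    simpa [mul_assoc] using hk
  · intro h
    exact ⟨g⁻¹ * y * g, h, by simp [mul_assoc]⟩

/-- The orbit of the coset `g K` under `Q`. -/
def orb (Q K : Subgroup G) (g : G) : Set (G ⧸ K) :=
  Set.range fun y : Q => (((y : G) * g : G) : G ⧸ K)

lemma card_orb (Q K : Subgroup G) (g : G) :
    Nat.card (orb Q K g) * Nat.card (Q ⊓ cj g K : Subgroup G) = Nat.card Q := by
  classical
  haveI : Fintype G := Fintype.ofFinite G
  let x : G ⧸ K := (g : G ⧸ K)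
  have h1 : Nat.card (MulAction.orbit Q x) * Nat.card (MulAction.stabilizer Q x) = Nat.card Q := by
    have e := MulAction.card_orbit_mul_card_stabilizer_eq_card_group Q x
    simpa [Nat.card_eq_fintype_card] using e
  have h2 : MulAction.orbit Q x = orb Q K g := by
    ext z
    constructor
    · rintro ⟨y, rfl⟩
      exact ⟨y, rfl⟩
    · rintro ⟨y, rfl⟩
      exact ⟨y, rfl⟩
  have h3 : Nat.card (MulAction.stabilizer Q x) = Nat.card (Q ⊓ cj g K : Subgroup G) := by
    refine Nat.card_congr ⟨fun y => ⟨y.1.1, y.1.2, ?_⟩, fun y => ⟨⟨y.1, y.2.1⟩, ?_⟩, ?_, ?_⟩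
    · have h : y.1 • x = x := y.2
      have h4 : (((y.1 : G) * g : G) : G ⧸ K) = (g : G ⧸ K) := h
      rw [QuotientGroup.eq] at h4
      have h5 := K.inv_mem h4
      show (y.1 : G) ∈ cj g K
      rw [mem_cj]
      simpa [mul_assoc] using h5
    · have h : y.1 ∈ cj g K := y.2.2
      rw [mem_cj] at h
      show (((y.1 : G) * g : G) : G ⧸ K) = (g : G ⧸ K)
      rw [QuotientGroup.eq]
      have h5 := K.inv_mem h
      simpa [mul_assoc] using h5
    · intro y
      rfl
    · intro y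
      rfl
  rw [← h2, ← h3]
  exact h1

lemma le_card_orb {Q K : Subgroup G} {g : G} {N d : ℕ} (hd : 0 < d) (hQ : N * d ≤ Nat.card Q)
    (hS : Nat.card (Q ⊓ cj g K : Subgroup G) ≤ d) : N ≤ Nat.card (orb Q K g) := by
  have h := card_orb Q K g
  have h2 : Nat.card (orb Q K g) * Nat.card (Q ⊓ cj g K : Subgroup G) ≤ Nat.card (orb Q K g) * d :=
    Nat.mul_le_mul_left _ hS
  have h3 : N * d ≤ Nat.card (orb Q K g) * d := by omega
  exact Nat.le_of_mul_le_mul_right h3 hd

lemma card_orb_le (Q K : Subgroup G) (g : G) : Nat.card (orb Q K g) ≤ K.index := by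
  rw [Subgroup.index]
  exact Nat.card_le_card_of_injective (fun z : orb Q K g => (z : G ⧸ K)) Subtype.val_injective

lemma card_orb_add_le {Q K : Subgroup G} {g₁ g₂ : G} (h : Disjoint (orb Q K g₁) (orb Q K g₂)) :
    Nat.card (orb Q K g₁) + Nat.card (orb Q K g₂) ≤ K.index := by
  classical
  rw [Subgroup.index]
  have h1 := Nat.card_sum (α := orb Q K g₁) (β := orb Q K g₂)
  rw [← h1]
  refine Nat.card_le_card_of_injective
    (fun z : (orb Q K g₁) ⊕ (orb Q K g₂) => match z with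
      | .inl a => (a.1 : G ⧸ K)
      | .inr a => (a.1 : G ⧸ K)) ?_
  rintro (a | a) (b | b) hab
  · have hab' : a.1 = b.1 := hab
    rw [Subtype.val_injective hab']
  · have hab' : a.1 = b.1 := hab
    exact absurd b.2 (Set.disjoint_left.1 h (hab' ▸ a.2))
  · have hab' : a.1 = b.1 := hab
    exact absurd a.2 (Set.disjoint_left.1 h (hab'.symm ▸ b.2))
  · have hab' : a.1 = b.1 := hab
    rw [Subtype.val_injective hab']

end Abstract

variable {F : Type*} [Field F] [Fintype F] {q n : ℕ}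

/-- Solutions of `x ^ q = x`. -/
lemma card_fix_le (hq : 1 < q) : Nat.card {x : F // x ^ q = x} ≤ q := by
  classical
  have hne : (Polynomial.X ^ q - Polynomial.X : Polynomial F) ≠ 0 := FiniteField.X_pow_card_sub_X_ne_zero F hq
  have hdeg : (Polynomial.X ^ q - Polynomial.X : Polynomial F).natDegree = q :=
    FiniteField.X_pow_card_sub_X_natDegree_eq F hq
  have h1 : Nat.card {x : F // x ^ q = x} ≤ Nat.card ((Polynomial.X ^ q - Polynomial.X : Polynomial F).roots.toFinset) := by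
    refine Nat.card_le_card_of_injective (fun x => ⟨x.1, ?_⟩) ?_
    · rw [Multiset.mem_toFinset, Polynomial.mem_roots hne]
      simp [Polynomial.IsRoot, x.2]
    · intro x y h
      exact Subtype.ext (congrArg (fun z => z.1) h)
  rw [show Nat.card ((Polynomial.X ^ q - Polynomial.X : Polynomial F).roots.toFinset) = _ from
    Nat.card_eq_fintype_card.trans (Fintype.card_coe _)] at h1
  refine h1.trans ((Multiset.toFinset_card_le _).trans ?_)
  exact (Polynomial.card_roots' _).trans hdeg.le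

/-- The configuration: an isotropic `v`, a nonisotropic `w ⊥ v`, a test vector. -/
structure Flag (q : ℕ) (v w x₀ : Fin n → F) : Prop where
  vv : hermForm n F q v v = 0
  wv : hermForm n F q w v = 0
  xv : hermForm n F q x₀ v = 1
  xw : hermForm n F q x₀ w = 0
  ww : hermForm n F q w w ≠ 0

variable (hF : Fintype.card F = q ^ 2) {v w x₀ : Fin n → F}

/-- The coordinate of an element of the root group. -/
noncomputable def cA (x₀ w : Fin n → F) (g : SU n F q) : F :=
  hermForm n F q (act g x₀ - x₀) w / hermForm n F q w w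

include hF

lemma act_x (hd : Flag q v w x₀) {a s : F} (hc : Good q v (a • w) s) :
    act (mkE hF v (a • w) s) x₀ = x₀ + (a • w + s • v) := by
  rw [act_mkE hF hc, hd.xv, one_smul, hermForm_smul_right, hd.xw, mul_zero, zero_smul, sub_zero]

lemma vw_zero (hd : Flag q v w x₀) : hermForm n F q v w = 0 := herm_zero_of_conj hF hd.wv

lemma cA_mkE (hd : Flag q v w x₀) {a s : F} (hc : Good q v (a • w) s) :
    cA x₀ w (mkE hF v (a • w) s) = a := by
  unfold cA
  rw [act_x hF hd hc, add_sub_cancel_left, hermForm_add_left, hermForm_smul_left, hermForm_smul_left,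
    vw_zero hF hd, mul_zero, add_zero, mul_div_assoc, div_self hd.ww, mul_one]

lemma q_ne_zero : q ≠ 0 := by
  have := two_le hF
  omega

/-- The group of root elements. -/
def QQ (hd : Flag q v w x₀) : Subgroup (SU n F q) where
  carrier := {g | ∃ a s : F, Good q v (a • w) s ∧ mkE hF v (a • w) s = g}
  mul_mem' := by
    rintro x y ⟨a, s, hc, rfl⟩ ⟨a', s', hc', rfl⟩
    refine ⟨a + a', s + s' - hermForm n F q (a' • w) (a • w), ?_, ?_⟩
    · rw [add_smul]
      exact good_add hF hc hc'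
    · rw [mkE_mul hF hc hc', add_smul]
  one_mem' := by
    refine ⟨0, 0, ?_, ?_⟩
    · rw [zero_smul]
      exact good_tau hF hd.vv (by rw [zero_pow (q_ne_zero hF), add_zero])
    · rw [zero_smul]
      exact tau_zero hF v hd.vv
  inv_mem' := by
    rintro x ⟨a, s, hc, rfl⟩
    have hc' : Good q v ((-a) • w) (s ^ q) := by
      refine ⟨hd.vv, ?_, ?_⟩
      · rw [hermForm_smul_left, hd.wv, mul_zero]
      · have h2 := hc.2.2
        rw [pow_pow_self hF, hermForm_smul_left, hermForm_smul_right, neg_pow_q hF]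
        rw [hermForm_smul_left, hermForm_smul_right] at h2
        linear_combination h2
    refine ⟨-a, s ^ q, hc', ?_⟩
    rw [neg_smul] at hc' ⊢
    exact (inv_eq_of_mul_eq_one_right (mkE_inv_eq hF hc hc')).symm

lemma mem_QQ (hd : Flag q v w x₀) {g : SU n F q} :
    g ∈ QQ hF hd ↔ ∃ a s : F, Good q v (a • w) s ∧ mkE hF v (a • w) s = g := Iff.rfl

section Inter

variable (hd : Flag q v w x₀) {K : Subgroup (SU n F q)}

include hd

lemma comm_eq (hT : ∀ c : F, c ≠ 0 → c + c ^ q = 0 → tau hF v c ∉ K) {a a' s s' : F}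
    (hc : Good q v (a • w) s) (hc' : Good q v (a' • w) s') (hy : mkE hF v (a • w) s ∈ K)
    (hy' : mkE hF v (a' • w) s' ∈ K) : a * a' ^ q = a' * a ^ q := by
  have h1 := mkE_comm hF hc hc'
  set κ := hermForm n F q (a • w) (a' • w) - hermForm n F q (a' • w) (a • w) with hκ
  have h2 : tau hF v κ = mkE hF v (a • w) s * mkE hF v (a' • w) s' *
      (mkE hF v (a' • w) s' * mkE hF v (a • w) s)⁻¹ := by
    rw [h1, mul_inv_cancel_right]
  have h3 : tau hF v κ ∈ K := by
    rw [h2]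
    exact K.mul_mem (K.mul_mem hy hy') (K.inv_mem (K.mul_mem hy' hy))
  have h4 : κ = 0 := by
    by_contra h0
    exact hT κ h0 (trace_zero_kappa hF _ _) h3
  rw [hκ] at h4
  simp only [hermForm_smul_left, hermForm_smul_right] at h4
  have h5 : (a * a' ^ q - a' * a ^ q) * hermForm n F q w w = 0 := by linear_combination h4
  rcases mul_eq_zero.1 h5 with h6 | h6
  · exact sub_eq_zero.1 h6
  · exact absurd h6 hd.ww

lemma same_a (hT : ∀ c : F, c ≠ 0 → c + c ^ q = 0 → tau hF v c ∉ K) {a s s' : F}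
    (hc : Good q v (a • w) s) (hc' : Good q v (a • w) s') (hy : mkE hF v (a • w) s ∈ K)
    (hy' : mkE hF v (a • w) s' ∈ K) : s = s' := by
  have htr : (s - s') + (s - s') ^ q = 0 := by
    rw [sub_pow_q hF]
    linear_combination hc.2.2 - hc'.2.2
  have h1 := tau_mul hF hd.vv htr hc'
  rw [sub_add_cancel] at h1
  have h2 : tau hF v (s - s') = mkE hF v (a • w) s * (mkE hF v (a • w) s')⁻¹ := by
    rw [← h1, mul_inv_cancel_right]
  have h3 : tau hF v (s - s') ∈ K := by
    rw [h2]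
    exact K.mul_mem hy (K.inv_mem hy')
  by_contra h0
  exact hT _ (sub_ne_zero.2 h0) htr h3

lemma inter_inj (hT : ∀ c : F, c ≠ 0 → c + c ^ q = 0 → tau hF v c ∉ K) {y y' : SU n F q}
    (hy : y ∈ QQ hF hd) (hy' : y' ∈ QQ hF hd) (hyK : y ∈ K) (hyK' : y' ∈ K)
    (h : cA x₀ w y = cA x₀ w y') : y = y' := by
  obtain ⟨a, s, hc, rfl⟩ := hy
  obtain ⟨a', s', hc', rfl⟩ := hy'
  rw [cA_mkE hF hd hc, cA_mkE hF hd hc'] at h
  subst h
  rw [same_a hF hd hT hc hc' hyK hyK']

lemma inter_card_le_one (hT : ∀ c : F, c ≠ 0 → c + c ^ q = 0 → tau hF v c ∉ K)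
    (h0 : ∀ y ∈ QQ hF hd ⊓ K, cA x₀ w y = 0) : Nat.card (QQ hF hd ⊓ K : Subgroup (SU n F q)) ≤ 1 := by
  rw [Finite.card_le_one_iff_subsingleton]
  refine ⟨fun y y' => Subtype.ext ?_⟩
  exact inter_inj hF hd hT y.2.1 y'.2.1 y.2.2 y'.2.2 (by rw [h0 _ y.2, h0 _ y'.2])

lemma inter_card_le (hq : 1 < q) (hT : ∀ c : F, c ≠ 0 → c + c ^ q = 0 → tau hF v c ∉ K) :
    Nat.card (QQ hF hd ⊓ K : Subgroup (SU n F q)) ≤ q := by
  by_cases h0 : ∀ y ∈ QQ hF hd ⊓ K, cA x₀ w y = 0
  · exact (inter_card_le_one hF hd hT h0).trans hq.le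
  · push Not at h0
    obtain ⟨y₀, hy₀, ha₀⟩ := h0
    set a₀ := cA x₀ w y₀ with ha₀def
    refine le_trans ?_ (card_fix_le (F := F) hq)
    have hfix : ∀ y : (QQ hF hd ⊓ K : Subgroup (SU n F q)), (cA x₀ w y.1 / a₀) ^ q = cA x₀ w y.1 / a₀ := by
      intro y
      obtain ⟨a, s, hc, hy⟩ := y.2.1
      obtain ⟨a', s', hc', hy'⟩ := hy₀.1
      have e1 : cA x₀ w y.1 = a := by rw [← hy, cA_mkE hF hd hc]
      have e2 : a₀ = a' := by rw [ha₀def, ← hy', cA_mkE hF hd hc']
      have h3 := comm_eq hF hd hT hc hc' (hy ▸ y.2.2) (hy' ▸ hy₀.2)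
      rw [e1, div_pow]
      rw [e2] at ha₀ ⊢
      have ha₀q : a' ^ q ≠ 0 := pow_ne_zero _ ha₀
      field_simp
      linear_combination -h3
    refine Nat.card_le_card_of_injective
      (fun y : (QQ hF hd ⊓ K : Subgroup (SU n F q)) => (⟨cA x₀ w y.1 / a₀, hfix y⟩ : {x : F // x ^ q = x})) ?_
    intro y y' h
    have h1 : cA x₀ w y.1 / a₀ = cA x₀ w y'.1 / a₀ := congrArg Subtype.val h
    have h2 : cA x₀ w y.1 = cA x₀ w y'.1 := by
      field_simp at h1
      exact h1
    exact Subtype.ext (inter_inj hF hd hT y.2.1 y'.2.1 y.2.2 y'.2.2 h2)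

lemma card_QQ_ge : q ^ 3 ≤ Nat.card (QQ hF hd) := by
  classical
  have hg : ∀ (a : F) (c : Tz hF), Good q v (a • w) (c.1 + sig hF (a • w)) := by
    intro a c
    refine ⟨hd.vv, ?_, ?_⟩
    · rw [hermForm_smul_left, hd.wv, mul_zero]
    · have h1 := sig_spec hF (a • w)
      have h2 : c.1 + c.1 ^ q = 0 := c.2
      rw [add_pow_q hF]
      linear_combination h1 + h2
  have hv0 : v ≠ 0 := by
    rintro rfl
    have := hd.xv
    rw [hermForm_zero_right hF] at this
    exact zero_ne_one this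
  have e : Nat.card (F × Tz hF) = q ^ 3 := by
    rw [Nat.card_prod, Nat.card_eq_fintype_card, Nat.card_eq_fintype_card, hF, card_Tz hF]
    ring
  rw [← e]
  refine Nat.card_le_card_of_injective
    (fun p : F × Tz hF => (⟨mkE hF v (p.1 • w) (p.2.1 + sig hF (p.1 • w)), p.1, _, hg p.1 p.2, rfl⟩ : QQ hF hd)) ?_
  rintro ⟨a, c⟩ ⟨a', c'⟩ h
  have h1 : mkE hF v (a • w) (c.1 + sig hF (a • w)) = mkE hF v (a' • w) (c'.1 + sig hF (a' • w)) :=
    congrArg Subtype.val h
  have h2 : a = a' := by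
    have := congrArg (cA x₀ w) h1
    rwa [cA_mkE hF hd (hg a c), cA_mkE hF hd (hg a' c')] at this
  subst h2
  have h3 := congrArg (fun g => act g x₀) h1
  simp only [act_x hF hd (hg a c), act_x hF hd (hg a c')] at h3
  have h4 : (c.1 + sig hF (a • w)) • v = (c'.1 + sig hF (a • w)) • v := by
    have h5 := add_left_cancel h3
    exact add_left_cancel h5
  have h6 : c.1 + sig hF (a • w) = c'.1 + sig hF (a • w) := smul_left_injective F hv0 h4
  have h7 : c = c' := Subtype.ext (add_right_cancel h6)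
  rw [h7]

end Inter

/-- Rescaling the isotropic vector. -/
lemma mkE_scale {τ : F} {y : Fin n → F} {s : F} (hc : Good q v y s) :
    Good q (τ • v) y s ∧ Good q v (τ ^ q • y) (τ * τ ^ q * s) ∧
    mkE hF (τ • v) y s = mkE hF v (τ ^ q • y) (τ * τ ^ q * s) := by
  have h1 : Good q (τ • v) y s := by
    refine ⟨?_, ?_, hc.2.2⟩
    · rw [hermForm_smul_left, hermForm_smul_right, hc.1]
      ring
    · rw [hermForm_smul_right, hc.2.1]
      ring
  have h2 : Good q v (τ ^ q • y) (τ * τ ^ q * s) := by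
    refine ⟨hc.1, ?_, ?_⟩
    · rw [hermForm_smul_left, hc.2.1]
      ring
    · have h3 := hc.2.2
      rw [hermForm_smul_left, hermForm_smul_right, mul_pow, mul_pow, pow_pow_self hF]
      linear_combination (τ * τ ^ q) * h3
  refine ⟨h1, h2, ?_⟩
  apply ext_act
  intro x
  rw [act_mkE hF h1, act_mkE hF h2]
  simp only [hermForm_smul_right, pow_pow_self hF]
  module

section Main

variable (hd : Flag q v w x₀) {g₀ : SU n F q} {τ μ : F}

include hd

lemma conj_mem (hgv : act g₀ v = τ • v) (hgw : act g₀ w = μ • w) {a s : F} (hc : Good q v (a • w) s) :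
    ∃ s', Good q v ((τ ^ q * μ * a) • w) s' ∧
      g₀ * mkE hF v (a • w) s * g₀⁻¹ = mkE hF v ((τ ^ q * μ * a) • w) s' := by
  have h1 := conj_mkE hF g₀ hc
  have hc' : Good q (act g₀ v) (act g₀ (a • w)) s := by
    refine ⟨?_, ?_, ?_⟩
    · rw [herm_act]; exact hc.1
    · rw [herm_act]; exact hc.2.1
    · rw [herm_act]; exact hc.2.2
  rw [hgv, act_smul, hgw] at h1 hc'
  have hc2 : Good q v (a • μ • w) s := by
    refine ⟨hd.vv, ?_, hc'.2.2⟩
    rw [hermForm_smul_left, hermForm_smul_left, hd.wv, mul_zero, mul_zero]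
  obtain ⟨h3, h4, h5⟩ := mkE_scale hF (τ := τ) hc2
  have e : τ ^ q • a • μ • w = (τ ^ q * μ * a) • w := by
    rw [smul_smul, smul_smul]
    congr 1
    ring
  rw [e] at h4 h5
  refine ⟨_, h4, ?_⟩
  rw [h1, h5, mul_inv_cancel_right]

lemma hT_conj (hτ : τ ≠ 0) (hgv : act g₀ v = τ • v) {K : Subgroup (SU n F q)}
    (hT : ∀ c : F, c ≠ 0 → c + c ^ q = 0 → tau hF v c ∉ K) :
    ∀ c : F, c ≠ 0 → c + c ^ q = 0 → tau hF v c ∉ cj g₀ K := by
  intro c hc0 hc hmem
  rw [mem_cj] at hmem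
  have hτq : τ ^ q ≠ 0 := pow_ne_zero _ hτ
  have hN : τ * τ ^ q ≠ 0 := mul_ne_zero hτ hτq
  have hNq : (τ * τ ^ q) ^ q = τ * τ ^ q := by
    rw [mul_pow, pow_pow_self hF]
    ring
  have hc'0 : c / (τ * τ ^ q) ≠ 0 := div_ne_zero hc0 hN
  have hc' : c / (τ * τ ^ q) + (c / (τ * τ ^ q)) ^ q = 0 := by
    rw [div_pow, hNq, ← add_div, hc, zero_div]
  have h1 := conj_tau hF g₀ hd.vv hc'
  rw [hgv, tau_smul hF hd.vv hc' τ] at h1
  have e : τ * τ ^ q * (c / (τ * τ ^ q)) = c := mul_div_cancel₀ c hN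
  rw [e] at h1
  have h2 : g₀⁻¹ * tau hF v c * g₀ = tau hF v (c / (τ * τ ^ q)) := by
    rw [mul_assoc, ← h1, inv_mul_cancel_left]
  exact hT _ hc'0 hc' (h2 ▸ hmem)

lemma cA_conj {y z : SU n F q} (hy : y ∈ QQ hF hd) (hz : z ∈ QQ hF hd) :
    cA x₀ w (y * z * y⁻¹) = cA x₀ w z := by
  obtain ⟨a, s, hc, rfl⟩ := hy
  obtain ⟨a', s', hc', rfl⟩ := hz
  have h1 := mkE_comm hF hc hc'
  set κ := hermForm n F q (a • w) (a' • w) - hermForm n F q (a' • w) (a • w) with hκ
  have htr : κ + κ ^ q = 0 := trace_zero_kappa hF _ _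
  have h2 := tau_mul hF hd.vv htr hc'
  have h3 : mkE hF v (a • w) s * mkE hF v (a' • w) s' * (mkE hF v (a • w) s)⁻¹ =
      mkE hF v (a' • w) (κ + s') := by
    rw [h1, ← h2, mul_assoc, mul_assoc, mul_inv_cancel, mul_one]
  have hg : Good q v (a' • w) (κ + s') := by
    refine ⟨hd.vv, hc'.2.1, ?_⟩
    rw [add_pow_q hF]
    linear_combination htr + hc'.2.2
  rw [h3, cA_mkE hF hd hg, cA_mkE hF hd hc']

theorem index_ge (hq : 1 < q) (hτ : τ ≠ 0) (hgv : act g₀ v = τ • v) (hgw : act g₀ w = μ • w)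
    (hl : (τ ^ q * μ) ^ q ≠ τ ^ q * μ) {K : Subgroup (SU n F q)} {g₁ : SU n F q}
    (hT : ∀ c : F, c ≠ 0 → c + c ^ q = 0 → tau hF v c ∉ cj g₁ K) :
    2 * q ^ 2 ≤ K.index := by
  have hcj : ∀ x : SU n F q, x ∈ cj (g₀ * g₁) K ↔ x ∈ cj g₀ (cj g₁ K) := by
    intro x
    rw [mem_cj, mem_cj, mem_cj, mul_inv_rev]
    simp only [mul_assoc]
  have hT2 : ∀ c : F, c ≠ 0 → c + c ^ q = 0 → tau hF v c ∉ cj (g₀ * g₁) K := by
    intro c h1 h2 h3
    exact hT_conj hF hd hτ hgv hT c h1 h2 ((hcj _).1 h3)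
  have hQ := card_QQ_ge hF hd
  by_cases h0 : ∀ y ∈ QQ hF hd ⊓ cj g₁ K, cA x₀ w y = 0
  · have h1 := inter_card_le_one hF hd hT h0
    have h2 : q ^ 3 ≤ Nat.card (orb (QQ hF hd) K g₁) :=
      le_card_orb (d := 1) one_pos (by simpa using hQ) h1
    have h3 := card_orb_le (QQ hF hd) K g₁
    have h4 : 2 * q ^ 2 ≤ q ^ 3 := by
      have : q ^ 3 = q * q ^ 2 := by ring
      rw [this]
      exact Nat.mul_le_mul_right _ hq
    omega
  · push Not at h0
    obtain ⟨y₀, hy₀, ha₀⟩ := h0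
    have h1 := inter_card_le hF hd hq hT
    have h2 := inter_card_le hF hd hq hT2
    have hQ' : q ^ 2 * q ≤ Nat.card (QQ hF hd) := by
      have : q ^ 2 * q = q ^ 3 := by ring
      rw [this]
      exact hQ
    have h3 : q ^ 2 ≤ Nat.card (orb (QQ hF hd) K g₁) := le_card_orb (by omega) hQ' h1
    have h4 : q ^ 2 ≤ Nat.card (orb (QQ hF hd) K (g₀ * g₁)) := le_card_orb (by omega) hQ' h2
    have hdis : Disjoint (orb (QQ hF hd) K g₁) (orb (QQ hF hd) K (g₀ * g₁)) := by
      rw [Set.disjoint_left]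
      rintro x ⟨u, rfl⟩ ⟨u', hu'⟩
      have h5 : (((u' : SU n F q) * (g₀ * g₁) : SU n F q) : SU n F q ⧸ K) = (((u : SU n F q) * g₁ : SU n F q) : SU n F q ⧸ K) := hu'
      rw [QuotientGroup.eq] at h5
      set y : SU n F q := (u' : SU n F q)⁻¹ * u with hy
      have hyQ : y ∈ QQ hF hd := (QQ hF hd).mul_mem ((QQ hF hd).inv_mem u'.2) u.2
      have hk : (g₀ * g₁)⁻¹ * y * g₁ ∈ K := by
        have : (g₀ * g₁)⁻¹ * y * g₁ = ((u' : SU n F q) * (g₀ * g₁))⁻¹ * ((u : SU n F q) * g₁) := by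
          rw [hy]
          group
        rw [this]
        exact h5
      obtain ⟨a₀', s₀, hc₀, hy₀'⟩ := hy₀.1
      have ha : cA x₀ w y₀ = a₀' := by rw [← hy₀', cA_mkE hF hd hc₀]
      obtain ⟨s', hc', hz⟩ := conj_mem hF hd hgv hgw hc₀
      rw [hy₀'] at hz
      set z := g₀ * y₀ * g₀⁻¹ with hzdef
      have hzQ : z ∈ QQ hF hd := ⟨_, _, hc', hz.symm⟩
      have hz1 : y⁻¹ * z * y ∈ cj g₁ K := by
        rw [mem_cj]
        have h6 : g₁⁻¹ * y₀ * g₁ ∈ K := mem_cj.1 hy₀.2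
        have h7 : g₁⁻¹ * (y⁻¹ * z * y) * g₁ =
            ((g₀ * g₁)⁻¹ * y * g₁)⁻¹ * (g₁⁻¹ * y₀ * g₁) * ((g₀ * g₁)⁻¹ * y * g₁) := by
          rw [hzdef]
          group
        rw [h7]
        exact K.mul_mem (K.mul_mem (K.inv_mem hk) h6) hk
      have hz2 : y⁻¹ * z * y ∈ QQ hF hd :=
        (QQ hF hd).mul_mem ((QQ hF hd).mul_mem ((QQ hF hd).inv_mem hyQ) hzQ) hyQ
      have hz3 : cA x₀ w (y⁻¹ * z * y) = τ ^ q * μ * a₀' := by
        have h8 := cA_conj hF hd ((QQ hF hd).inv_mem hyQ) hzQ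
        rw [inv_inv] at h8
        rw [h8, hz, cA_mkE hF hd hc']
      obtain ⟨a'', s'', hc'', hz4⟩ := hz2
      rw [← hz4, cA_mkE hF hd hc''] at hz3
      subst hz3
      have h9 := comm_eq hF hd (K := cj g₁ K) hT hc₀ hc'' (hy₀' ▸ hy₀.2) (hz4 ▸ hz1)
      rw [ha] at ha₀
      have ha₀q : a₀' ^ q ≠ 0 := pow_ne_zero _ ha₀
      apply hl
      rw [mul_pow (τ ^ q * μ) a₀'] at h9
      have h10 : (a₀' * a₀' ^ q) * ((τ ^ q * μ) ^ q - τ ^ q * μ) = 0 := by
        linear_combination h9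
      rcases mul_eq_zero.1 h10 with h11 | h11
      · exact absurd h11 (mul_ne_zero ha₀ ha₀q)
      · exact sub_eq_zero.1 h11
    have h5 := card_orb_add_le hdis
    omega

end Main

end Cfsg.Agent.Lib.PSU35A
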