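import Mathlib
import Cfsg.Agent.Lib.PSU35A
import Cfsg.Agent.Lib.F25Code
import Cfsg.Agent.Lib.UnitarySimple

/-!
# Every proper subgroup of `PSU₃(5)` has index at least fifty
-/

set_option autoImplicit false
set_option linter.unusedSectionVars false
set_option linter.unusedVariables false

namespace Cfsg.Agent.Lib.PSU35B

open scoped Matrix
open Cfsg Cfsg.Agent.Lib.HermForm Cfsg.Agent.Lib.FFNorm Cfsg.Agent.Lib.SUMinDeg
  Cfsg.Agent.Lib.PSU35A Cfsg.Agent.Lib.F25Code

/-- The isotropic vector. -/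
def cv : V3 := ⟨1, 1, 5⟩
/-- The nonisotropic vector. -/
def cw : V3 := ⟨1, 4, 0⟩
/-- The test vector. -/
def cx : V3 := ⟨4, 4, 5⟩
/-- The torus element. -/
def cg : M3 := ⟨1, 13, 24, 13, 1, 24, 24, 24, 14⟩

theorem cg_U : M3.IsU cg := by decide +kernel

theorem cg_v : M3.mulV cg cv = V3.scale 7 cv := by decide +kernel
theorem cg_w : M3.mulV cg cw = V3.scale 18 cw := by decide +kernel
theorem h_vv : V3.herm cv cv = 0 := by decide +kernel
theorem h_wv : V3.herm cw cv = 0 := by decide +kernel
theorem h_xv : V3.herm cx cv = 1 := by decide +kernel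
theorem h_xw : V3.herm cx cw = 0 := by decide +kernel
theorem h_ww : V3.herm cw cw = 2 := by decide +kernel
theorem h_n : fmul 7 (ffrob 7) = 2 := by decide +kernel
theorem h_l : fmul (ffrob 7) 18 = 15 := by decide +kernel
theorem h_lf : ffrob 15 = 10 := by decide +kernel
theorem h_inv : fmul 7 11 = 1 := by decide +kernel

variable {F : Type*} [Field F] [Fintype F]

theorem hF' (hF : Fintype.card F = 25) : Fintype.card F = 5 ^ 2 := hF.trans (by norm_num)

/-- A proper subgroup of `PSU` avoids a conjugate of a given non-central element. -/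
lemma exists_conj (hF : Fintype.card F = 25) {H : Subgroup (PSU 3 F 5)} (hH : H ≠ ⊤) {t : SU 3 F 5}
    (ht : t ∉ Subgroup.center (SU 3 F 5)) :
    ∃ g₁ : SU 3 F 5, t ∉ cj g₁ (H.comap (QuotientGroup.mk' (Subgroup.center (SU 3 F 5)))) := by
  by_contra hcon
  push Not at hcon
  haveI hS : IsSimpleGroup (PSU 3 F 5) :=
    Cfsg.Agent.Lib.UnitarySimple.isSimple_PSU (hF' hF) (by norm_num) (by norm_num)
  have h1 : ((QuotientGroup.mk' (Subgroup.center (SU 3 F 5))) t) ∈ H.normalCore := by
    intro b
    obtain ⟨g, rfl⟩ := QuotientGroup.mk'_surjective _ b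
    have h2 := mem_cj.1 (hcon g⁻¹)
    rw [inv_inv] at h2
    have h3 : (QuotientGroup.mk' (Subgroup.center (SU 3 F 5))) (g * t * g⁻¹) ∈ H := h2
    simpa [map_mul, map_inv] using h3
  have h4 : H.normalCore ≠ ⊥ := by
    intro h
    rw [h, Subgroup.mem_bot, QuotientGroup.mk'_apply, QuotientGroup.eq_one_iff] at h1
    exact ht h1
  rcases IsSimpleGroup.eq_bot_or_eq_top_of_normal H.normalCore (Subgroup.normalCore_normal H) with h | h
  · exact h4 h
  · apply hH
    rw [eq_top_iff, ← h]
    exact Subgroup.normalCore_le H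

variable (hF : Fintype.card F = 25) {q : ℕ}

/-- Powers of a transvection. -/
lemma tau_nsmul (hq : Fintype.card F = q ^ 2) {n : ℕ} {v : Fin n → F} {c : F}
    (hv : hermForm n F q v v = 0) (hc : c + c ^ q = 0) (k : ℕ) :
    (k • c) + (k • c) ^ q = 0 ∧ tau hq v (k • c) = (tau hq v c) ^ k := by
  induction k with
  | zero =>
    have h0 : (0 : F) ^ q = 0 := zero_pow (q_ne_zero hq)
    refine ⟨by simp [h0], ?_⟩
    rw [zero_nsmul, tau_zero hq v hv, pow_zero]
  | succ k ih =>
    obtain ⟨h1, h2⟩ := ih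
    have h3 : (k + 1) • c = k • c + c := succ_nsmul c k
    rw [h3]
    refine ⟨?_, ?_⟩
    · rw [add_pow_q hq]
      linear_combination h1 + hc
    · rw [tau_add hq hv h1 hc, h2, pow_succ]

variable (i : F) (hi : i * i = 2)

include hF hi

theorem flag : Flag 5 (toV i cv) (toV i cw) (toV i cx) := by
  have h5 := five_eq_zero hF
  have e2 : val i 2 = (2 : F) := by
    simp [val]
  refine ⟨?_, ?_, ?_, ?_, ?_⟩
  · rw [herm_toV i hi h5, h_vv, val_zero]
  · rw [herm_toV i hi h5, h_wv, val_zero]
  · rw [herm_toV i hi h5, h_xv, val_one]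
  · rw [herm_toV i hi h5, h_xw, val_zero]
  · rw [herm_toV i hi h5, h_ww, e2]
    intro h
    have h1 : (1 : F) = 0 := by linear_combination (-2 : F) * h + h5
    exact one_ne_zero h1

/-- The element `i` has fifth power `-i`. -/
theorem i_frob : i ^ 5 = -i := by
  have h5 := five_eq_zero hF
  have : i ^ 5 = (i * i) * (i * i) * i := by ring
  rw [this, hi]
  linear_combination (i) * h5

theorem i_ne : i ≠ 0 := by
  have h5 := five_eq_zero hF
  rintro rfl
  have h1 : (1 : F) = 0 := by linear_combination 2 * hi + h5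
  exact one_ne_zero h1

/-- The torus element. -/
noncomputable def g0 (hF : Fintype.card F = 25) (i : F) (hi : i * i = 2) : SU 3 F 5 :=
  toSU i hi (five_eq_zero hF) cg cg_U

theorem act_g0_v : act (g0 hF i hi) (toV i cv) = val i 7 • toV i cv := by
  have h5 := five_eq_zero hF
  show toM i cg *ᵥ toV i cv = _
  rw [toM_mulVec i hi h5, cg_v, smul_toV i hi h5]

theorem act_g0_w : act (g0 hF i hi) (toV i cw) = val i 18 • toV i cw := by
  have h5 := five_eq_zero hF
  show toM i cg *ᵥ toV i cw = _
  rw [toM_mulVec i hi h5, cg_w, smul_toV i hi h5]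

/-- A transvection is not central. -/
theorem tau_not_center {c : F} (hc0 : c ≠ 0) (hc : c + c ^ 5 = 0) :
    tau (hF' hF) (toV i cv) c ∉ Subgroup.center (SU 3 F 5) := by
  intro hmem
  have h5 := five_eq_zero hF
  have hd := flag hF i hi
  have h1 := conj_tau (hF' hF) (g0 hF i hi) hd.vv hc
  rw [act_g0_v hF i hi, tau_smul (hF' hF) hd.vv hc] at h1
  have h2 : g0 hF i hi * tau (hF' hF) (toV i cv) c = tau (hF' hF) (toV i cv) c * g0 hF i hi :=
    (Subgroup.mem_center_iff.1 hmem _)
  rw [h2] at h1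
  have h3 := mul_right_cancel h1
  have hN : val i 7 * val i 7 ^ 5 = 2 := by
    rw [← val_frob i hi h5, ← val_mul i hi h5, h_n]
    simp [val]
  rw [hN] at h3
  -- compare the action on the test vector
  have h4 := congrArg (fun g => act g (toV i cx)) h3
  have hc2 : (2 * c) + (2 * c) ^ 5 = 0 := by
    have e : (2 : F) ^ 5 = 2 := by linear_combination (6 : F) * h5
    rw [mul_pow, e]
    linear_combination 2 * hc
  simp only [act_tau (hF' hF) hd.vv hc, act_tau (hF' hF) hd.vv hc2, hd.xv, mul_one] at h4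
  have h6 := add_left_cancel h4
  have hv0 : toV i cv ≠ 0 := by
    intro h
    have := hd.xv
    rw [h, hermForm_zero_right (hF' hF)] at this
    exact zero_ne_one this
  have h7 : c = 2 * c := smul_left_injective F hv0 h6
  apply hc0
  linear_combination -h7

/-- Lower bound in `SU`. -/
theorem index_ge_of {K : Subgroup (SU 3 F 5)} {g₁ : SU 3 F 5}
    (ht : tau (hF' hF) (toV i cv) i ∉ cj g₁ K) : 50 ≤ K.index := by
  have h5 := five_eq_zero hF
  have hd := flag hF i hi
  have hi0 := i_ne hF i hi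
  have hif := i_frob hF i hi
  have hi2 : i + i ^ 5 = 0 := by rw [hif]; ring
  have hT : ∀ c : F, c ≠ 0 → c + c ^ 5 = 0 → tau (hF' hF) (toV i cv) c ∉ cj g₁ K := by
    intro c hc0 hc hmem
    have hcf : c ^ 5 = -c := by linear_combination hc
    have hx : (i / c) ^ 5 = i / c := by
      rw [div_pow, hif, hcf, neg_div_neg_eq]
    have hp : (i / c) * (i / c - 1) * (i / c - 2) * (i / c - 3) * (i / c - 4) = 0 := by
      linear_combination hx + (-2 * (i / c) ^ 4 + 7 * (i / c) ^ 3 - 10 * (i / c) ^ 2 + 5 * (i / c)) * h5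
    have hk : ∃ k : ℕ, i / c = (k : F) := by
      rcases mul_eq_zero.1 hp with hp | hp
      · rcases mul_eq_zero.1 hp with hp | hp
        · rcases mul_eq_zero.1 hp with hp | hp
          · rcases mul_eq_zero.1 hp with hp | hp
            · exact ⟨0, by simpa using hp⟩
            · exact ⟨1, by push_cast; exact sub_eq_zero.1 hp⟩
          · exact ⟨2, by push_cast; exact sub_eq_zero.1 hp⟩
        · exact ⟨3, by push_cast; exact sub_eq_zero.1 hp⟩
      · exact ⟨4, by push_cast; exact sub_eq_zero.1 hp⟩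
    obtain ⟨k, hk⟩ := hk
    have h1 : i = k • c := by
      rw [nsmul_eq_mul, ← hk]
      field_simp
    have h2 := (tau_nsmul (hF' hF) hd.vv hc k).2
    rw [← h1] at h2
    apply ht
    rw [h2]
    exact Subgroup.pow_mem _ hmem k
  have hτ : val i 7 ≠ 0 := by
    intro h
    have h1 := val_mul i hi h5 7 11
    rw [h_inv, val_one, h, zero_mul] at h1
    exact one_ne_zero h1
  have hl : (val i 7 ^ 5 * val i 18) ^ 5 ≠ val i 7 ^ 5 * val i 18 := by
    have e1 : val i 7 ^ 5 * val i 18 = val i 15 := by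
      rw [← val_frob i hi h5, ← val_mul i hi h5, h_l]
    rw [e1, ← val_frob i hi h5, h_lf]
    intro h
    have e2 : val i 10 = 2 * i := by simp [val]
    have e3 : val i 15 = 3 * i := by simp [val]
    rw [e2, e3] at h
    exact hi0 (by linear_combination -h)
  have h := index_ge (hF' hF) hd (by norm_num) hτ (act_g0_v hF i hi) (act_g0_w hF i hi) hl hT
  omega

omit hi in
/-- Every proper subgroup of `PSU₃(5)` has index at least fifty. -/
theorem index_ge_50 (H : Subgroup (PSU 3 F 5)) (hH : H ≠ ⊤) : 50 ≤ H.index := by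
  obtain ⟨i, hi⟩ := exists_i hF
  have hi2 : i + i ^ 5 = 0 := by rw [i_frob hF i hi]; ring
  obtain ⟨g₁, hg⟩ := exists_conj hF hH (tau_not_center hF i hi (i_ne hF i hi) hi2)
  have h := index_ge_of hF i hi hg
  rwa [Subgroup.index_comap_of_surjective H (QuotientGroup.mk'_surjective _)] at h

end Cfsg.Agent.Lib.PSU35B
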