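import Mathlib
import Cfsg.Agent.Lib.PSU35B

/-!
# A subgroup of index fifty in `PSU₃(5)`

We exhibit a set of `105` points permuted by six explicit elements of `SU₃(5)`; its stabiliser is proper, and its
order in `PSU₃(5)` is divisible by `2520`, because of elements of order `7` and `5`, a dihedral subgroup of order
`8` and a subgroup of order `9`.  The bound on indices then forces its index to be `50`.
-/

set_option autoImplicit false
set_option linter.style.longLine false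
set_option linter.unusedSectionVars false
set_option linter.unusedVariables false

namespace Cfsg.Agent.Lib.PSU35C

open scoped Matrix
open Cfsg Cfsg.Agent.Lib.F25Code Cfsg.Agent.Lib.SUMinDeg Cfsg.Agent.Lib.PSU35B

section Abstract

variable {G : Type*} [Group G] [Finite G]

/-- A subgroup containing `x` of order `n` and `y` normalising `⟨x⟩` of prime order modulo `⟨x⟩` has order
divisible by `n * p`. -/
theorem mul_dvd_card (S : Subgroup G) {x y : G} (hx : x ∈ S) (hy : y ∈ S) {n p : ℕ} (hp : p.Prime)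
    (hn : orderOf x = n) (hy1 : ∀ k < n, y ≠ x ^ k) (hyp : y ^ p = 1)
    (hc : y * x * y⁻¹ = x ∨ y * x * y⁻¹ = x⁻¹) : n * p ∣ Nat.card S := by
  classical
  haveI : Fact p.Prime := ⟨hp⟩
  set C : Subgroup G := Subgroup.zpowers x with hC
  have hcz : ∀ k : ℤ, y * x ^ k * y⁻¹ ∈ C := by
    intro k
    rw [← conj_zpow]
    rcases hc with h | h <;> rw [h]
    · exact zpow_mem (Subgroup.mem_zpowers x) k
    · exact zpow_mem (inv_mem (Subgroup.mem_zpowers x)) k
  have hcz' : ∀ k : ℤ, y⁻¹ * x ^ k * y ∈ C := by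
    intro k
    have e : y⁻¹ * x * y = x ∨ y⁻¹ * x * y = x⁻¹ := by
      rcases hc with h | h
      · left
        have : y⁻¹ * (y * x * y⁻¹) * y = x := by group
        rw [h] at this
        exact this
      · right
        have h2 : y * x⁻¹ * y⁻¹ = x := by
          have : y * x⁻¹ * y⁻¹ = (y * x * y⁻¹)⁻¹ := by group
          rw [this, h, inv_inv]
        have : y⁻¹ * (y * x⁻¹ * y⁻¹) * y = x⁻¹ := by group
        rw [h2] at this
        exact this
    have e2 : y⁻¹ * x ^ k * y = (y⁻¹ * x * y) ^ k := by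
      have := conj_zpow (a := y⁻¹) (b := x) (i := k)
      rw [inv_inv] at this
      exact this.symm
    rw [e2]
    rcases e with h | h <;> rw [h]
    · exact zpow_mem (Subgroup.mem_zpowers x) k
    · exact zpow_mem (inv_mem (Subgroup.mem_zpowers x)) k
  have hyN : y ∈ Subgroup.normalizer (C : Set G) := by
    rw [Subgroup.mem_normalizer_iff]
    intro h
    constructor
    · rintro ⟨k, rfl⟩
      exact hcz k
    · rintro ⟨k, hk⟩
      have h2 : h = y⁻¹ * x ^ k * y := by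
        have hk' : (fun n : ℤ => x ^ n) k = x ^ k := rfl
        rw [hk'] at hk
        rw [hk]
        group
      rw [h2]
      exact hcz' k
  have hxN : x ∈ Subgroup.normalizer (C : Set G) := by
    rw [Subgroup.mem_normalizer_iff]
    intro h
    constructor
    · intro hh
      exact mul_mem (mul_mem (Subgroup.mem_zpowers x) hh) (inv_mem (Subgroup.mem_zpowers x))
    · intro hh
      have : h = x⁻¹ * (x * h * x⁻¹) * x := by group
      rw [this]
      exact mul_mem (mul_mem (inv_mem (Subgroup.mem_zpowers x)) hh) (Subgroup.mem_zpowers x)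
  set N : Subgroup G := S ⊓ Subgroup.normalizer (C : Set G) with hN
  have hCN : C ≤ N := by
    intro z hz
    obtain ⟨k, rfl⟩ := hz
    exact zpow_mem (show x ∈ N from ⟨hx, hxN⟩) k
  set C' : Subgroup N := C.subgroupOf N with hC'
  haveI hCn : C'.Normal := by
    refine ⟨fun c hc g => ?_⟩
    have hg : (g : G) ∈ Subgroup.normalizer (C : Set G) := g.2.2
    rw [Subgroup.mem_normalizer_iff] at hg
    exact (hg c).1 hc
  have hcardC : Nat.card C' = n := by
    rw [hC', Nat.card_congr (Subgroup.subgroupOfEquivOfLe hCN).toEquiv, hC, Nat.card_zpowers, hn]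
  let ybar : N ⧸ C' := ((⟨y, hy, hyN⟩ : N) : N ⧸ C')
  have hybar : orderOf ybar = p := by
    apply orderOf_eq_prime
    · have : ybar ^ p = ((((⟨y, hy, hyN⟩ : N) ^ p : N)) : N ⧸ C') := rfl
      rw [this]
      have h2 : ((⟨y, hy, hyN⟩ : N) ^ p : N) = 1 := Subtype.ext hyp
      rw [h2]
      rfl
    · intro h
      have h2 : (⟨y, hy, hyN⟩ : N) ∈ C' := (QuotientGroup.eq_one_iff _).1 h
      have h3 : y ∈ C := h2
      have hnpos : 0 < n := by rw [← hn]; exact orderOf_pos x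
      obtain ⟨k, hk⟩ := h3
      have hk' : x ^ k = y := hk
      have h4 : x ^ (k % (orderOf x : ℤ)) = y := by rw [zpow_mod_orderOf, hk']
      have h5 : 0 ≤ k % (orderOf x : ℤ) := Int.emod_nonneg _ (by rw [hn]; omega)
      have h6 : k % (orderOf x : ℤ) < (orderOf x : ℤ) := Int.emod_lt_of_pos _ (by rw [hn]; omega)
      obtain ⟨j, hj⟩ := Int.eq_ofNat_of_zero_le h5
      rw [hj, zpow_natCast] at h4
      rw [hj] at h6
      have h7 : j < n := by rw [← hn]; exact_mod_cast h6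
      exact hy1 j h7 h4.symm
  have h1 : p ∣ Nat.card (N ⧸ C') := by
    rw [← hybar]
    exact orderOf_dvd_natCard ybar
  have h2 : Nat.card N = Nat.card (N ⧸ C') * Nat.card C' :=
    Subgroup.card_eq_card_quotient_mul_card_subgroup C'
  have h3 : n * p ∣ Nat.card N := by
    rw [h2, hcardC, mul_comm]
    exact Nat.mul_dvd_mul_right h1 n
  exact h3.trans (Subgroup.card_dvd_of_le inf_le_left)

end Abstract

/-- The invariant points. -/
def ptsA : List V3 :=
  [⟨0,1,11⟩, ⟨0,1,12⟩, ⟨0,1,15⟩, ⟨1,0,10⟩, ⟨1,0,18⟩, ⟨1,0,19⟩, ⟨1,1,0⟩, ⟨1,1,12⟩, ⟨1,1,18⟩, ⟨1,2,6⟩, ⟨1,2,9⟩, ⟨1,2,11⟩, ⟨1,2,14⟩, ⟨1,2,15⟩, ⟨1,3,5⟩, ⟨1,3,12⟩, ⟨1,3,13⟩, ⟨1,3,22⟩, ⟨1,3,23⟩, ⟨1,4,2⟩, ⟨1,4,4⟩, ⟨1,4,8⟩, ⟨1,4,17⟩, ⟨1,4,18⟩, ⟨1,4,21⟩, ⟨1,4,22⟩, ⟨1,4,24⟩, ⟨1,5,7⟩, ⟨1,5,9⟩, ⟨1,5,20⟩, ⟨1,6,2⟩, ⟨1,6,6⟩, ⟨1,6,16⟩, ⟨1,6,20⟩, ⟨1,6,22⟩, ⟨1,7,3⟩, ⟨1,7,4⟩, ⟨1,7,5⟩, ⟨1,7,9⟩, ⟨1,7,12⟩, ⟨1,7,17⟩, ⟨1,7,20⟩, ⟨1,7,24⟩, ⟨1,8,0⟩, ⟨1,8,2⟩, ⟨1,8,3⟩, ⟨1,9,4⟩, ⟨1,9,10⟩, ⟨1,9,14⟩, ⟨1,9,17⟩, ⟨1,9,22⟩,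 ⟨1,10,16⟩, ⟨1,10,19⟩, ⟨1,10,20⟩, ⟨1,11,7⟩, ⟨1,11,9⟩, ⟨1,11,11⟩, ⟨1,11,15⟩, ⟨1,11,16⟩, ⟨1,11,20⟩, ⟨1,11,21⟩, ⟨1,11,22⟩, ⟨1,12,13⟩, ⟨1,12,15⟩, ⟨1,12,24⟩, ⟨1,13,1⟩, ⟨1,13,21⟩, ⟨1,13,23⟩, ⟨1,14,0⟩, ⟨1,14,7⟩, ⟨1,14,23⟩, ⟨1,15,1⟩, ⟨1,15,19⟩, ⟨1,15,24⟩, ⟨1,16,6⟩, ⟨1,16,8⟩, ⟨1,16,20⟩, ⟨1,17,3⟩, ⟨1,17,12⟩, ⟨1,17,22⟩, ⟨1,18,3⟩, ⟨1,18,12⟩, ⟨1,18,22⟩, ⟨1,19,5⟩, ⟨1,19,22⟩, ⟨1,19,24⟩, ⟨1,20,3⟩, ⟨1,20,6⟩, ⟨1,20,21⟩, ⟨1,21,2⟩, ⟨1,21,8⟩, ⟨1,21,9⟩, ⟨1,21,10⟩, ⟨1,21,12⟩, ⟨1,22,6⟩, ⟨1,22,13⟩, ⟨1,22,20⟩, ⟨1,23,2⟩, ⟨1,23,11⟩, ⟨1,23,12⟩, ⟨1,24,1⟩, ⟨1,24,12⟩, ⟨1,24,14⟩, ⟨1,24,20⟩, ⟨1,24,21⟩]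

/-- An element. -/
def cg7 : M3 := ⟨23,13,19,0,23,24,2,16,6⟩

/-- An element. -/
def cg5 : M3 := ⟨23,19,4,15,13,16,15,8,22⟩

/-- An element. -/
def cr : M3 := ⟨3,12,18,6,11,24,19,7,17⟩

/-- An element. -/
def cs : M3 := ⟨2,9,16,24,2,11,11,16,0⟩

/-- An element. -/
def ca : M3 := ⟨11,16,0,6,3,11,3,21,16⟩

/-- An element. -/
def cb : M3 := ⟨7,19,1,16,18,10,4,7,5⟩

/-- An element. -/
def cW : M3 := ⟨12,0,0,0,12,0,0,0,12⟩

/-- A point moved by the torus element. -/
def cp : V3 := ⟨0,1,11⟩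

/-- A power giving the inverse of a nonzero code. -/
def finv (x : ℕ) : ℕ := fmul (ffrob (fmul (fmul x x) (fmul x x))) (fmul (fmul x x) x)

/-- Nonzero codes. -/
def nz (x : ℕ) : Prop := fmul x (finv x) = 1

instance (x : ℕ) : Decidable (nz x) := by unfold nz; infer_instance

/-- The first nonzero coordinate. -/
def lead (u : V3) : ℕ := if u.x = 0 then (if u.y = 0 then u.z else u.y) else u.x

/-- One step of the invariance check. -/
def Stp (m : M3) (p : V3) : Prop :=
  nz (lead (M3.mulV m p)) ∧ V3.scale (finv (lead (M3.mulV m p))) (M3.mulV m p) ∈ ptsA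

instance (m : M3) (p : V3) : Decidable (Stp m p) := by unfold Stp; infer_instance

/-- An element of the coded unitary group permuting the points. -/
def Pres (m : M3) : Prop := M3.IsU m ∧ ∀ p ∈ ptsA, Stp m p

instance (m : M3) : Decidable (Pres m) := by unfold Pres; infer_instance

/-- Not scalar. -/
def NS (m : M3) : Prop := nz m.b ∨ nz m.c ∨ nz m.d ∨ nz m.f ∨ nz m.g ∨ nz m.h

instance (m : M3) : Decidable (NS m) := by unfold NS; infer_instance

set_option maxRecDepth 100000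

theorem P7 : Pres cg7 := by decide +kernel
theorem P5 : Pres cg5 := by decide +kernel
theorem Pr : Pres cr := by decide +kernel
theorem Ps : Pres cs := by decide +kernel
theorem Pa : Pres ca := by decide +kernel
theorem Pb : Pres cb := by decide +kernel
theorem UW : M3.IsU cW := by decide +kernel

theorem o7 : M3.pow cg7 7 = M3.one := by decide +kernel
theorem o5 : M3.pow cg5 5 = M3.one := by decide +kernel
theorem or : M3.pow cr 4 = M3.one := by decide +kernel
theorem os : M3.pow cs 2 = M3.one := by decide +kernel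
theorem oa : M3.pow ca 3 = M3.one := by decide +kernel
theorem ob : M3.pow cb 3 = M3.one := by decide +kernel

theorem n7 : NS cg7 := by decide +kernel
theorem n5 : NS cg5 := by decide +kernel
theorem nr : NS (M3.pow cr 2) := by decide +kernel
theorem na : NS ca := by decide +kernel
theorem nrs : ∀ j ∈ [1, 2, 3, 4], NS (M3.mul (M3.pow cr j) cs) := by decide +kernel
theorem nab : ∀ j ∈ [1, 2, 3], NS (M3.mul (M3.pow ca j) cb) := by decide +kernel

theorem rel_rs : M3.mul (M3.mul cr cs) cr = cs := by decide +kernel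
theorem rel_ab : M3.mul cb ca = M3.mul cW (M3.mul ca cb) := by decide +kernel

/-- The `x` coordinate of the cross product. -/
def crx (u v : V3) : ℕ := fadd (fmul u.y v.z) (fmul 4 (fmul u.z v.y))
/-- The `y` coordinate of the cross product. -/
def cry (u v : V3) : ℕ := fadd (fmul u.z v.x) (fmul 4 (fmul u.x v.z))
/-- The `z` coordinate of the cross product. -/
def crz (u v : V3) : ℕ := fadd (fmul u.x v.y) (fmul 4 (fmul u.y v.x))

/-- The image of `cp` under the torus element is not proportional to any of the points. -/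
theorem moved : ∀ p ∈ ptsA, nz (crx (M3.mulV cg cp) p) ∨ nz (cry (M3.mulV cg cp) p) ∨ nz (crz (M3.mulV cg cp) p) := by
  decide +kernel

theorem cp_mem : cp ∈ ptsA := by decide +kernel

section Transfer

variable {F : Type*} [Field F] [Fintype F]

/-- The points in the plane. -/
def Abar (i : F) : Set (Fin 3 → F) := {x | ∃ c : F, c ≠ 0 ∧ ∃ p ∈ ptsA, x = c • toV i p}

/-- The stabiliser of the points. -/
def stabA (i : F) : Subgroup (SU 3 F 5) where
  carrier := {g | ∀ x ∈ Abar i, act g x ∈ Abar i}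
  mul_mem' := by
    intro a b ha hb x hx
    rw [act_mul]
    exact ha _ (hb _ hx)
  one_mem' := by
    intro x hx
    rw [act_one]
    exact hx
  inv_mem' := by
    intro a ha
    have h1 : a * a ^ (orderOf a - 1) = 1 := by
      rw [← pow_succ', Nat.sub_add_cancel (orderOf_pos a), pow_orderOf_eq_one]
    have h2 : a⁻¹ = a ^ (orderOf a - 1) := inv_eq_of_mul_eq_one_right h1
    rw [h2]
    have h3 : ∀ k : ℕ, ∀ x ∈ Abar i, act (a ^ k) x ∈ Abar i := by
      intro k
      induction k with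
      | zero =>
        intro x hx
        rw [pow_zero, act_one]
        exact hx
      | succ k ih =>
        intro x hx
        rw [pow_succ, act_mul]
        exact ih _ (ha _ hx)
    exact h3 _

/-- A code represents an element. -/
def Rep (i : F) (g : SU 3 F 5) (m : M3) : Prop := (g.1.1 : Matrix (Fin 3) (Fin 3) F) = toM i m

variable (hF : Fintype.card F = 25) (i : F) (hi : i * i = 2)

include hF hi

theorem val_ne {x : ℕ} (h : nz x) : val i x ≠ 0 := by
  have h5 := five_eq_zero hF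
  intro h0
  have h1 := val_mul i hi h5 x (finv x)
  rw [show fmul x (finv x) = 1 from h, val_one, h0, zero_mul] at h1
  exact one_ne_zero h1

theorem rep_mul {g g' : SU 3 F 5} {m m' : M3} (h : Rep i g m) (h' : Rep i g' m') :
    Rep i (g * g') (M3.mul m m') := by
  unfold Rep at *
  rw [toM_mul i hi (five_eq_zero hF), ← h, ← h']
  rfl

theorem rep_one : Rep i (1 : SU 3 F 5) M3.one := by
  unfold Rep
  rw [toM_one]
  rfl

theorem rep_pow {g : SU 3 F 5} {m : M3} (h : Rep i g m) (k : ℕ) : Rep i (g ^ k) (M3.pow m k) := by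
  induction k with
  | zero => exact rep_one hF i hi
  | succ k ih =>
    rw [pow_succ]
    exact rep_mul hF i hi ih h

omit hF hi in
theorem rep_eq {g g' : SU 3 F 5} {m : M3} (h : Rep i g m) (h' : Rep i g' m) : g = g' :=
  Subtype.ext (Subtype.ext (h.trans h'.symm))

theorem not_center {g : SU 3 F 5} {m : M3} (h : Rep i g m) (hn : NS m) :
    g ∉ Subgroup.center (SU 3 F 5) := by
  intro hz
  have hq := hF' hF
  have e : ∀ k l : Fin 3, k ≠ l → toM i m k l = 0 := by
    intro k l hkl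
    have h1 := Cfsg.Agent.Lib.UnitarySU.center_offdiag_zero hq g hz hkl
    rwa [h] at h1
  rcases hn with hn | hn | hn | hn | hn | hn
  · exact val_ne hF i hi hn (e 0 1 (by decide))
  · exact val_ne hF i hi hn (e 0 2 (by decide))
  · exact val_ne hF i hi hn (e 1 0 (by decide))
  · exact val_ne hF i hi hn (e 1 2 (by decide))
  · exact val_ne hF i hi hn (e 2 0 (by decide))
  · exact val_ne hF i hi hn (e 2 1 (by decide))

theorem pres_Abar {m : M3} (hm : Pres m) :
    toSU i hi (five_eq_zero hF) m hm.1 ∈ stabA i := by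
  have h5 := five_eq_zero hF
  rintro x ⟨c, hc, p, hp, rfl⟩
  obtain ⟨h1, h2⟩ := hm.2 p hp
  have h3 : act (toSU i hi h5 m hm.1) (toV i p) = toV i (M3.mulV m p) := toM_mulVec i hi h5 m p
  have hd : val i (finv (lead (M3.mulV m p))) ≠ 0 := by
    intro h0
    have h4 := val_mul i hi h5 (lead (M3.mulV m p)) (finv (lead (M3.mulV m p)))
    rw [show fmul _ _ = 1 from h1, val_one, h0, mul_zero] at h4
    exact one_ne_zero h4
  refine ⟨c * (val i (finv (lead (M3.mulV m p))))⁻¹, mul_ne_zero hc (inv_ne_zero hd), _, h2, ?_⟩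
  rw [act_smul, h3, ← smul_toV i hi h5, smul_smul, mul_assoc, inv_mul_cancel₀ hd, mul_one]

omit hi in
theorem center_le : Subgroup.center (SU 3 F 5) ≤ stabA i := by
  intro z hz
  have hq := hF' hF
  have e : ∀ k l : Fin 3, k ≠ l → (z.1.1 : Matrix (Fin 3) (Fin 3) F) k l = 0 := fun k l hkl =>
    Cfsg.Agent.Lib.UnitarySU.center_offdiag_zero hq z hz hkl
  have e1 : (z.1.1 : Matrix (Fin 3) (Fin 3) F) 0 0 = (z.1.1 : Matrix (Fin 3) (Fin 3) F) 1 1 :=
    Cfsg.Agent.Lib.UnitarySU.center_diag_eq hq z hz (by decide)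
  have e2 : (z.1.1 : Matrix (Fin 3) (Fin 3) F) 0 0 = (z.1.1 : Matrix (Fin 3) (Fin 3) F) 2 2 :=
    Cfsg.Agent.Lib.UnitarySU.center_diag_eq hq z hz (by decide)
  set r := (z.1.1 : Matrix (Fin 3) (Fin 3) F) 0 0 with hr
  have hdet : (z.1.1 : Matrix (Fin 3) (Fin 3) F).det = 1 := z.1.2
  rw [Matrix.det_fin_three, e 0 1 (by decide), e 0 2 (by decide), e 1 0 (by decide), e 1 2 (by decide),
    e 2 0 (by decide), e 2 1 (by decide), ← e1, ← e2] at hdet
  have hr0 : r ≠ 0 := by
    intro h0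
    rw [h0] at hdet
    simp at hdet
  have hact : ∀ x : Fin 3 → F, act z x = r • x := by
    intro x
    ext k
    unfold act
    simp only [Matrix.mulVec, dotProduct, Fin.sum_univ_three, Pi.smul_apply, smul_eq_mul]
    fin_cases k
    · simp [e 0 1 (by decide), e 0 2 (by decide), ← hr]
    · simp [e 1 0 (by decide), e 1 2 (by decide), ← e1]
    · simp [e 2 0 (by decide), e 2 1 (by decide), ← e2]
  rintro x ⟨c, hc, p, hp, rfl⟩
  refine ⟨r * c, mul_ne_zero hr0 hc, p, hp, ?_⟩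
  rw [hact, smul_smul]

/-- The torus element is outside the stabiliser. -/
theorem g0_not_mem : g0 hF i hi ∉ stabA i := by
  intro hmem
  have h5 := five_eq_zero hF
  have h1 : toV i cp ∈ Abar i := ⟨1, one_ne_zero, cp, cp_mem, by rw [one_smul]⟩
  obtain ⟨c, hc, p, hp, h2⟩ := hmem _ h1
  have h3 : act (g0 hF i hi) (toV i cp) = toV i (M3.mulV cg cp) := toM_mulVec i hi h5 cg cp
  rw [h3] at h2
  set u := M3.mulV cg cp with hu
  have hx : val i u.x = c * val i p.x := congrFun h2 0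
  have hy : val i u.y = c * val i p.y := congrFun h2 1
  have hz : val i u.z = c * val i p.z := congrFun h2 2
  have hmv := moved p hp
  rw [← hu] at hmv
  rcases hmv with h | h | h
  · apply val_ne hF i hi h
    simp only [crx, val_add i h5, val_mul i hi h5, val_four i h5, hy, hz]
    ring
  · apply val_ne hF i hi h
    simp only [cry, val_add i h5, val_mul i hi h5, val_four i h5, hz, hx]
    ring
  · apply val_ne hF i hi h
    simp only [crz, val_add i h5, val_mul i hi h5, val_four i h5, hx, hy]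
    ring

/-- The subgroup of `PSU`. -/
noncomputable def HH (i : F) : Subgroup (PSU 3 F 5) :=
  (stabA i).map (QuotientGroup.mk' (Subgroup.center (SU 3 F 5)))

omit hF hi in
theorem mk_one_iff {g : SU 3 F 5} :
    (QuotientGroup.mk' (Subgroup.center (SU 3 F 5))) g = 1 ↔ g ∈ Subgroup.center (SU 3 F 5) := by
  rw [QuotientGroup.mk'_apply, QuotientGroup.eq_one_iff]

theorem HH_ne_top : HH i ≠ ⊤ := by
  intro h
  have h1 : (QuotientGroup.mk' (Subgroup.center (SU 3 F 5))) (g0 hF i hi) ∈ HH i := by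
    rw [h]
    trivial
  obtain ⟨y, hy, hy2⟩ := h1
  have h2 : y⁻¹ * g0 hF i hi ∈ Subgroup.center (SU 3 F 5) := by
    rw [← mk_one_iff, map_mul, map_inv, ← hy2, inv_mul_cancel]
  have h3 := (stabA i).mul_mem hy (center_le hF i h2)
  rw [mul_inv_cancel_left] at h3
  exact g0_not_mem hF i hi h3

theorem order_mk {g : SU 3 F 5} {m : M3} {p : ℕ} (hp : p.Prime) (h : Rep i g m)
    (hpow : M3.pow m p = M3.one) (hn : NS m) :
    orderOf ((QuotientGroup.mk' (Subgroup.center (SU 3 F 5))) g) = p := by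
  haveI : Fact p.Prime := ⟨hp⟩
  apply orderOf_eq_prime
  · have h1 : g ^ p = 1 := by
      have h2 := rep_pow hF i hi h p
      rw [hpow] at h2
      exact rep_eq i h2 (rep_one hF i hi)
    rw [← map_pow, h1, map_one]
  · intro h1
    exact not_center hF i hi h hn (mk_one_iff.1 h1)

theorem not_pow {g g' : SU 3 F 5} {m m' : M3} {n : ℕ} (h : Rep i g m) (h' : Rep i g' m')
    (hpow : M3.pow m n = M3.one) (hn : ∀ k < n, NS (M3.mul (M3.pow m (n - k)) m')) :
    ∀ k < n, (QuotientGroup.mk' (Subgroup.center (SU 3 F 5))) g' ≠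
      ((QuotientGroup.mk' (Subgroup.center (SU 3 F 5))) g) ^ k := by
  intro k hk h1
  have h2 : g ^ n = 1 := by
    have h3 := rep_pow hF i hi h n
    rw [hpow] at h3
    exact rep_eq i h3 (rep_one hF i hi)
  apply not_center hF i hi (rep_mul hF i hi (rep_pow hF i hi h (n - k)) h') (hn k hk)
  rw [← mk_one_iff, map_mul, h1, map_pow, ← pow_add, Nat.sub_add_cancel hk.le, ← map_pow, h2, map_one]

omit hi in
/-- The order of `PSU₃(5)`. -/
theorem card_psu : Nat.card (PSU 3 F 5) = 126000 := by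
  have h := Cfsg.Agent.Lib.UnitarySU.card_PSU (hF' hF) 3 (by norm_num)
  have e : (∏ i ∈ Finset.range 3, (if Even i then 5 ^ (i + 1) + 1 else 5 ^ (i + 1) - 1)) = 6 * 24 * 126 := by
    decide
  rw [e] at h
  norm_num at h
  omega

omit hi in
/-- A subgroup of index fifty. -/
theorem exists_index : ∃ H : Subgroup (PSU 3 F 5), H.index = 50 := by
  obtain ⟨i, hi⟩ := exists_i hF
  have h5 := five_eq_zero hF
  refine ⟨HH i, ?_⟩
  have hmem : ∀ {m : M3} (hm : Pres m),
      (QuotientGroup.mk' (Subgroup.center (SU 3 F 5))) (toSU i hi h5 m hm.1) ∈ HH i :=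
    fun hm => ⟨_, pres_Abar hF i hi hm, rfl⟩
  have hrep : ∀ {m : M3} (hm : Pres m), Rep i (toSU i hi h5 m hm.1) m := fun hm => rfl
  have d7 : 7 ∣ Nat.card (HH i) := by
    have h1 := Subgroup.orderOf_dvd_natCard (HH i) (hmem P7)
    rwa [order_mk hF i hi (by norm_num) (hrep P7) o7 n7] at h1
  have d5 : 5 ∣ Nat.card (HH i) := by
    have h1 := Subgroup.orderOf_dvd_natCard (HH i) (hmem P5)
    rwa [order_mk hF i hi (by norm_num) (hrep P5) o5 n5] at h1
  have d8 : 4 * 2 ∣ Nat.card (HH i) := by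
    have hR4 : (toSU i hi h5 cr Pr.1) ^ 4 = 1 := by
      have h3 := rep_pow hF i hi (hrep Pr) 4
      rw [or] at h3
      exact rep_eq i h3 (rep_one hF i hi)
    have hS2 : (toSU i hi h5 cs Ps.1) ^ 2 = 1 := by
      have h3 := rep_pow hF i hi (hrep Ps) 2
      rw [os] at h3
      exact rep_eq i h3 (rep_one hF i hi)
    have hord : orderOf ((QuotientGroup.mk' (Subgroup.center (SU 3 F 5))) (toSU i hi h5 cr Pr.1)) = 4 := by
      have := orderOf_eq_prime_pow (G := PSU 3 F 5) (p := 2) (n := 1)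
        (x := (QuotientGroup.mk' (Subgroup.center (SU 3 F 5))) (toSU i hi h5 cr Pr.1)) ?_ ?_
      · simpa using this
      · haveI : Fact (Nat.Prime 2) := ⟨by norm_num⟩
        intro h1
        rw [pow_one, ← map_pow, mk_one_iff] at h1
        exact not_center hF i hi (rep_pow hF i hi (hrep Pr) 2) nr h1
      · show _ ^ (2 ^ (1 + 1)) = 1
        rw [← map_pow]
        have : (toSU i hi h5 cr Pr.1) ^ (2 ^ (1 + 1)) = 1 := hR4
        rw [this, map_one]
    refine mul_dvd_card (HH i) (hmem Pr) (hmem Ps) (by norm_num) hord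
      (not_pow hF i hi (hrep Pr) (hrep Ps) or ?_) ?_ (Or.inr ?_)
    · intro k hk
      apply nrs
      interval_cases k <;> simp
    · rw [← map_pow, hS2, map_one]
    · -- `x y x = y`
      have h1 : toSU i hi h5 cr Pr.1 * toSU i hi h5 cs Ps.1 * toSU i hi h5 cr Pr.1 = toSU i hi h5 cs Ps.1 := by
        have h2 := rep_mul hF i hi (rep_mul hF i hi (hrep Pr) (hrep Ps)) (hrep Pr)
        rw [rel_rs] at h2
        exact rep_eq i h2 (hrep Ps)
      have h2 := congrArg (QuotientGroup.mk' (Subgroup.center (SU 3 F 5))) h1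
      rw [map_mul, map_mul] at h2
      rw [eq_inv_iff_mul_eq_one]
      set x := (QuotientGroup.mk' (Subgroup.center (SU 3 F 5))) (toSU i hi h5 cr Pr.1)
      set y := (QuotientGroup.mk' (Subgroup.center (SU 3 F 5))) (toSU i hi h5 cs Ps.1)
      have h3 : y * x * y⁻¹ * x = y * (x * y⁻¹ * x) := by group
      have h4 : x * y⁻¹ * x = y⁻¹ := by
        have hy2 : y ^ 2 = 1 := by
          rw [← map_pow, hS2, map_one]
        have hy3 : y⁻¹ = y := by
          rw [inv_eq_iff_mul_eq_one, ← sq, hy2]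
        rw [hy3]
        exact h2
      rw [h3, h4, mul_inv_cancel]
  have d9 : 3 * 3 ∣ Nat.card (HH i) := by
    have hB3 : (toSU i hi h5 cb Pb.1) ^ 3 = 1 := by
      have h3 := rep_pow hF i hi (hrep Pb) 3
      rw [ob] at h3
      exact rep_eq i h3 (rep_one hF i hi)
    refine mul_dvd_card (HH i) (hmem Pa) (hmem Pb) (by norm_num)
      (order_mk hF i hi (by norm_num) (hrep Pa) oa na)
      (not_pow hF i hi (hrep Pa) (hrep Pb) oa ?_) ?_ (Or.inl ?_)
    · intro k hk
      apply nab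
      interval_cases k <;> simp
    · rw [← map_pow, hB3, map_one]
    · -- the commutator is scalar
      have hW : toSU i hi h5 cW UW ∈ Subgroup.center (SU 3 F 5) := by
        rw [Subgroup.mem_center_iff]
        intro g
        apply Subtype.ext
        apply Subtype.ext
        show (g.1.1 : Matrix (Fin 3) (Fin 3) F) * toM i cW = toM i cW * g.1.1
        have e : toM i cW = val i 12 • (1 : Matrix (Fin 3) (Fin 3) F) := by
          ext a b
          fin_cases a <;> fin_cases b <;> simp [toM, cW, val_zero]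
        rw [e]
        simp
      have h1 : toSU i hi h5 cb Pb.1 * toSU i hi h5 ca Pa.1 =
          toSU i hi h5 cW UW * (toSU i hi h5 ca Pa.1 * toSU i hi h5 cb Pb.1) := by
        have h2 := rep_mul hF i hi (hrep Pb) (hrep Pa)
        have h3 := rep_mul hF i hi (show Rep i (toSU i hi h5 cW UW) cW from rfl) (rep_mul hF i hi (hrep Pa) (hrep Pb))
        rw [rel_ab] at h2
        exact rep_eq i h2 h3
      have h2 := congrArg (QuotientGroup.mk' (Subgroup.center (SU 3 F 5))) h1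
      rw [map_mul, map_mul, map_mul, mk_one_iff.2 hW, one_mul] at h2
      rw [h2, mul_inv_cancel_right]
  have h2520 : 2520 ∣ Nat.card (HH i) := by
    have h1 : 7 * 5 ∣ Nat.card (HH i) := Nat.Coprime.mul_dvd_of_dvd_of_dvd (by norm_num) d7 d5
    have h2 : (7 * 5) * (4 * 2) ∣ Nat.card (HH i) := Nat.Coprime.mul_dvd_of_dvd_of_dvd (by norm_num) h1 d8
    have h3 : ((7 * 5) * (4 * 2)) * (3 * 3) ∣ Nat.card (HH i) := Nat.Coprime.mul_dvd_of_dvd_of_dvd (by norm_num) h2 d9
    simpa using h3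
  have hidx := index_ge_50 hF (HH i) (HH_ne_top hF i hi)
  have hcard := Subgroup.card_mul_index (HH i)
  rw [card_psu hF] at hcard
  obtain ⟨t, ht⟩ := h2520
  rw [ht] at hcard
  have ht0 : t ≠ 0 := by
    rintro rfl
    simp at hcard
  have h3 : t * (HH i).index = 50 := by nlinarith
  have h4 : 1 ≤ t := Nat.one_le_iff_ne_zero.2 ht0
  nlinarith

end Transfer

end Cfsg.Agent.Lib.PSU35C
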