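import Mathlib
import Cfsg.Agent.Lib.PSUIdxD

/-!
# Dimension four: analysis of the projection `Y`
-/

set_option autoImplicit false
set_option linter.unusedSectionVars false
set_option linter.unusedVariables false

namespace Cfsg.Agent.Lib.PSUIdx

open Matrix Cfsg Cfsg.Agent.Lib.HermForm Cfsg.Agent.Lib.FFNorm Cfsg.Agent.Lib.UnitaryE
  Cfsg.Agent.Lib.UnitarySU Cfsg.Agent.Lib.SUMinDeg
open scoped Pointwise

variable {F : Type*} [Field F] [Fintype F] {q n e : ℕ}

section Arith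

lemma N_le_pow5 {q : ℕ} (hq : 2 ≤ q) : (q + 1) * (q ^ 3 + 1) ≤ q ^ 5 := by
  obtain ⟨p, rfl⟩ : ∃ p, q = p + 2 := ⟨q - 2, by omega⟩
  ring_nf
  linarith [Nat.zero_le p, Nat.zero_le (p ^ 2), Nat.zero_le (p ^ 3), Nat.zero_le (p ^ 4), Nat.zero_le (p ^ 5)]

lemma N_le_a {q : ℕ} (hq : 3 ≤ q) : (q + 1) * (q ^ 3 + 1) ≤ (q + 2) * (q * (q ^ 2 - 1)) := by
  obtain ⟨p, rfl⟩ : ∃ p, q = p + 3 := ⟨q - 3, by omega⟩
  have h : (p + 3) ^ 2 - 1 = p ^ 2 + 6 * p + 8 := Nat.sub_eq_of_eq_add (by ring)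
  rw [h]
  ring_nf
  nlinarith [Nat.zero_le p, pow_pos (show 0 < p + 1 by omega) 2]

lemma N_le_b {q : ℕ} (hq : 3 ≤ q) : (q + 1) * (q ^ 3 + 1) * (2 * q - 1) ≤ q ^ 3 * (q * (q ^ 2 - 1)) := by
  obtain ⟨p, rfl⟩ : ∃ p, q = p + 3 := ⟨q - 3, by omega⟩
  have h : (p + 3) ^ 2 - 1 = p ^ 2 + 6 * p + 8 := Nat.sub_eq_of_eq_add (by ring)
  have h2 : 2 * (p + 3) - 1 = 2 * p + 5 := by omega
  rw [h, h2]
  ring_nf
  nlinarith [Nat.zero_le p, pow_pos (show 0 < p + 1 by omega) 2, pow_pos (show 0 < p + 1 by omega) 3,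
    pow_pos (show 0 < p + 1 by omega) 4]

/-- The general inequalities. -/
lemma G2_of {Q k i m r z : ℕ} {q : ℕ} (hz : 1 ≤ z) (h : Q * k * i ≤ m * (r * z)) (hk : (q + 2) * z ≤ k * q) :
    Q * i * (q + 2) ≤ m * r * q := by
  have h1 : Q * i * (q + 2) * z ≤ m * r * q * z := by
    calc Q * i * (q + 2) * z = Q * i * ((q + 2) * z) := by ring
      _ ≤ Q * i * (k * q) := Nat.mul_le_mul_left _ hk
      _ = (Q * k * i) * q := by ring
      _ ≤ (m * (r * z)) * q := Nat.mul_le_mul_right _ h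
      _ = m * r * q * z := by ring
  exact Nat.le_of_mul_le_mul_right h1 hz

lemma G1_of {Q k i m r z : ℕ} {q : ℕ} (hq : 1 ≤ q) (hk1 : 1 ≤ k) (hz : 1 ≤ z)
    (h : Q * k * i ≤ m * (r * z)) (hk : z = 1 ∨ (q + 2) * z ≤ k * q) :
    Q * i ≤ m * r := by
  rcases hk with rfl | hk
  · calc Q * i = Q * 1 * i := by ring
      _ ≤ Q * k * i := by gcongr
      _ ≤ m * (r * 1) := h
      _ = m * r := by ring
  · have h2 := G2_of hz h hk
    have h3 : Q * i * q ≤ m * r * q := by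
      calc Q * i * q ≤ Q * i * (q + 2) := by gcongr; omega
        _ ≤ _ := h2
    exact Nat.le_of_mul_le_mul_right h3 hq

end Arith

section SU2b

variable (hF : Fintype.card F = q ^ 2)

/-- Stabiliser of a point in `SU₂`. -/
def Bor (x : Fin 2 → F) : Subgroup (SU 2 F q) where
  carrier := {l | ∃ c : F, c ≠ 0 ∧ act l x = c • x}
  mul_mem' := by
    rintro a b ⟨c, hc, ha⟩ ⟨d, hd, hb⟩
    exact ⟨c * d, mul_ne_zero hc hd, by rw [act_mul, hb, act_smul, ha, smul_smul]; congr 1; ring⟩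
  one_mem' := ⟨1, one_ne_zero, by rw [act_one, one_smul]⟩
  inv_mem' := by
    rintro a ⟨c, hc, ha⟩
    refine ⟨c⁻¹, inv_ne_zero hc, ?_⟩
    have h : act a⁻¹ (act a x) = x := by rw [← act_mul, inv_mul_cancel, act_one]
    rw [ha, act_smul] at h
    rw [← h, smul_smul, inv_mul_cancel₀ hc, one_smul, h]

lemma mem_Bor {x : Fin 2 → F} {l : SU 2 F q} : l ∈ Bor x ↔ ∃ c : F, c ≠ 0 ∧ act l x = c • x := Iff.rfl

include hF

/-- A hyperbolic partner in the plane. -/
lemma exists_partner2 {x : Fin 2 → F} (hx0 : x ≠ 0) (hx : hermForm 2 F q x x = 0) :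
    ∃ x₁ : Fin 2 → F, hermForm 2 F q x₁ x₁ = 0 ∧ hermForm 2 F q x₁ x = 1 := by
  obtain ⟨f, hff, hfe, -⟩ := SUGen.exists_partner hF (t := Fin.elim0) hx linearIndependent_empty_type
    (fun i => i.elim0) (by simpa using hx0)
  exact ⟨f, hff, hfe⟩

/-- The index of the point stabiliser. -/
theorem index_Bor_ge {x : Fin 2 → F} (hx0 : x ≠ 0) (hx : hermForm 2 F q x x = 0) :
    q + 1 ≤ (Bor x : Subgroup (SU 2 F q)).index := by
  classical
  obtain ⟨x₁, h11, h1x⟩ := exists_partner2 hF hx0 hx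
  have hx1 : hermForm 2 F q x x₁ = 1 := by
    rw [← hermForm_conj hF x₁ x, h1x, one_pow]
  have hx₁0 : x₁ ≠ 0 := by
    rintro rfl
    rw [hermForm_zero_left] at h1x
    exact zero_ne_one h1x
  obtain ⟨β₀, hβ₀0, hβ₀⟩ := SUGen.exists_trace_zero hF
  have hβ₀q : β₀ ^ q = -β₀ := by linear_combination hβ₀
  -- elements
  let u : F → SU 2 F q := fun β => tau hF x₁ β
  have hu : ∀ β : Tz hF, act (u β.1) x = x + β.1 • x₁ := by
    intro β
    rw [act_tau hF h11 β.2, hx1, mul_one]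
  let γ : F := -β₀⁻¹
  have hγ : γ + γ ^ q = 0 := by
    simp only [γ, neg_pow_q hF, inv_pow, hβ₀q, inv_neg]
    ring
  let σ : SU 2 F q := tau hF x γ * u β₀
  have hσ : act σ x = β₀ • x₁ := by
    have h1 := hu ⟨β₀, hβ₀⟩
    simp only at h1
    rw [act_mul, h1, act_tau hF hx hγ, hermForm_add_left, hx, hermForm_smul_left, h1x]
    simp only [γ]
    have : -β₀⁻¹ * (0 + β₀ * 1) = -1 := by
      field_simp
      ring
    rw [this]
    simp
  rw [Subgroup.index]
  have hcard : Nat.card (Option (Tz hF)) = q + 1 := by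
    rw [Finite.card_option, Nat.card_eq_fintype_card, card_Tz hF]
  rw [← hcard]
  refine Nat.card_le_card_of_injective (fun o : Option (Tz hF) => match o with
    | none => ((σ : SU 2 F q) : SU 2 F q ⧸ Bor x)
    | some β => ((u β.1 : SU 2 F q) : SU 2 F q ⧸ Bor x)) ?_
  have hkey : ∀ g g' : SU 2 F q, (g : SU 2 F q ⧸ Bor x) = (g' : SU 2 F q ⧸ Bor x) →
      ∃ c : F, c ≠ 0 ∧ act g' x = c • act g x := by
    intro g g' h
    rw [QuotientGroup.eq] at h
    obtain ⟨c, hc, h1⟩ := h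
    refine ⟨c, hc, ?_⟩
    have h2 : act g (act (g⁻¹ * g') x) = act g (c • x) := by rw [h1]
    rw [← act_mul, mul_inv_cancel_left, act_smul] at h2
    exact h2
  have hHx1 : ∀ β : Tz hF, hermForm 2 F q (x + β.1 • x₁) x₁ = 1 := by
    intro β
    rw [hermForm_add_left, hermForm_smul_left, h11, hx1]
    ring
  have hHs : hermForm 2 F q (β₀ • x₁) x₁ = 0 := by
    rw [hermForm_smul_left, h11, mul_zero]
  rintro (_ | β) (_ | β') h
  · rfl
  · exfalso
    obtain ⟨c, hc, h1⟩ := hkey _ _ h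
    simp only [hσ, hu] at h1
    have h2 := congrArg (fun z => hermForm 2 F q z x₁) h1
    simp only [hHx1, hermForm_smul_left, hHs, mul_zero] at h2
    exact one_ne_zero h2
  · exfalso
    obtain ⟨c, hc, h1⟩ := hkey _ _ h
    simp only [hσ, hu] at h1
    have h2 := congrArg (fun z => hermForm 2 F q z x₁) h1
    simp only [hermForm_smul_left, hHx1, h11, mul_zero, mul_one] at h2
    exact hc h2.symm
  · obtain ⟨c, hc, h1⟩ := hkey _ _ h
    simp only [hu] at h1
    have h2 := congrArg (fun z => hermForm 2 F q z x₁) h1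
    simp only [hermForm_smul_left, hHx1, mul_one] at h2
    rw [← h2, one_smul] at h1
    have h3 := add_left_cancel h1
    have h4 : β'.1 = β.1 := smul_left_injective F hx₁0 h3
    congr 1
    exact (Subtype.ext h4).symm

lemma two_eq_zero_of_two (hq : q = 2) : (2 : F) = 0 := by
  obtain ⟨p, hp⟩ := CharP.exists F
  haveI : Fact p.Prime := ⟨CharP.char_is_prime F p⟩
  obtain ⟨n, hn, hc⟩ := FiniteField.card F p
  have hc' : (p : ℕ) ^ (n : ℕ) = 4 := by
    rw [← hc, hF, hq]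
    norm_num
  have h2 : p ∣ 4 := by
    rw [← hc']
    exact dvd_pow_self p n.2.ne'
  have h3 : p ∣ 2 ^ 2 := by
    rw [show (2 : ℕ) ^ 2 = 4 by norm_num]
    exact h2
  have h4 : p = 2 := (Nat.prime_dvd_prime_iff_eq (Fact.out) Nat.prime_two).1 ((Fact.out : p.Prime).dvd_of_dvd_pow h3)
  subst h4
  exact_mod_cast CharP.cast_eq_zero F 2

end SU2b

section Analysis

variable (hF : Fintype.card F = q ^ 2) {α : F} (hα : α ^ q * α = -1)
include hF hα

/-- Number of elements of `K₁` against a level. -/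
lemma card_KK_le (K : Subgroup (SU (2 + 2) F q)) {y₀ : Fin 2 → F} (hy₀ : y₀ ∈ YY hF hα K)
    (ha : hermForm 2 F q y₀ y₀ ≠ 0) :
    Nat.card (KK hF hα K) ≤ Nat.card {y : YY hF hα K // hermForm 2 F q y.1 y.1 = hermForm 2 F q y₀ y₀} := by
  refine Nat.card_le_card_of_injective (fun l => ⟨⟨act l.1 y₀, YY_inv hF hα l.2 hy₀⟩, herm_act _ _ _⟩) ?_
  intro l l' h
  have h1 : act l.1 y₀ = act l'.1 y₀ := by
    have := congrArg (fun y : {y : YY hF hα K // hermForm 2 F q y.1 y.1 = hermForm 2 F q y₀ y₀} => y.1.1) h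
    exact this
  have h2 : act (l.1⁻¹ * l'.1) y₀ = y₀ := by
    rw [act_mul, ← h1, ← act_mul, inv_mul_cancel, act_one]
  have h3 := free_su2 hF ha h2
  apply Subtype.ext
  exact (inv_mul_eq_one.1 h3)

/-- The case of a non-isotropic vector in `Y`. -/
theorem case_noniso (K : Subgroup (SU (2 + 2) F q)) {c : F} (hc : c + c ^ q = 0)
    (hcK : EE (e := 2) hF α 0 c ∉ K) {y₀ : Fin 2 → F} (hy₀ : y₀ ∈ YY hF hα K)
    (ha : hermForm 2 F q y₀ y₀ ≠ 0) : (q + 1) * (q ^ 3 + 1) ≤ K.index := by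
  classical
  have hq := two_le hF
  obtain ⟨k, hk1, hk, H⟩ := mi_param hF hα K (by norm_num) hc hcK
  set r := Nat.card (YY hF hα K) with hr
  set z := Nat.card (ZZ hF hα K) with hz
  set i := (KK hF hα K).index with hi
  set m := K.index with hm
  have hr2 : r ^ 2 ≤ (q ^ 2) ^ 2 := card_sq_le_top hF hc (Z := ZZ hF hα K) (fun h => hcK h.2)
    (fun y hy y' hy' => comm_mem_ZZ hF hα hy' hy)
  have hz1 : 1 ≤ z := Nat.card_pos
  have hi1 : 1 ≤ i := Nat.pos_of_ne_zero (Subgroup.index_ne_zero_of_finite)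
  have hr1 : 1 ≤ r := Nat.card_pos
  have hlvl : i * Nat.card {y : YY hF hα K // hermForm 2 F q y.1 y.1 = hermForm 2 F q y₀ y₀} ≥ q * (q ^ 2 - 1) := by
    have h1 := Subgroup.index_mul_card (KK hF hα K)
    rw [card_SU2 hF] at h1
    rw [← h1]
    exact Nat.mul_le_mul_left _ (card_KK_le hF hα K hy₀ ha)
  have hlr : Nat.card {y : YY hF hα K // hermForm 2 F q y.1 y.1 = hermForm 2 F q y₀ y₀} ≤ r :=
    Nat.card_le_card_of_injective (fun y => y.1) Subtype.val_injective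
  set l := Nat.card {y : YY hF hα K // hermForm 2 F q y.1 y.1 = hermForm 2 F q y₀ y₀} with hl
  by_cases hZ : z = 1
  · -- real case, unless the characteristic is two
    have hZb : ZZ hF hα K = ⊥ := by
      rw [← AddSubgroup.card_eq_one]
      exact hZ
    by_cases h2 : (2 : F) = 0
    · exfalso
      have := norm_mem_ZZ hF hα h2 hy₀
      rw [hZb] at this
      exact ha this
    · have hq3 : 3 ≤ q := by
        by_contra hcon
        have : q = 2 := by omega
        exact h2 (two_eq_zero_of_two hF this)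
      have hreal : ∀ y ∈ YY hF hα K, ∀ y' ∈ YY hF hα K,
          hermForm 2 F q y y' ^ q = hermForm 2 F q y y' := by
        intro y hy y' hy'
        have h3 := comm_mem_ZZ hF hα hy hy'
        rw [hZb, AddSubgroup.mem_bot] at h3
        rw [hermForm_conj hF]
        linear_combination -h3
      have hlev := level_le hF hreal hy₀ ha
      have hl2 : l ≤ 2 * q - 1 := by omega
      have hG1 := G1_of (q := q) (by omega) hk1 hz1 H hk
      have hrq : r ≤ q ^ 2 := by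
        by_contra hcon
        push Not at hcon
        have : (q ^ 2) ^ 2 < r ^ 2 := Nat.pow_lt_pow_left hcon (by norm_num)
        omega
      have h4 : (q ^ 2) ^ 2 * q * (q * (q ^ 2 - 1)) ≤ m * (q ^ 2 * (2 * q - 1)) := by
        calc (q ^ 2) ^ 2 * q * (q * (q ^ 2 - 1)) ≤ (q ^ 2) ^ 2 * q * (i * l) := Nat.mul_le_mul_left _ hlvl
          _ = (q ^ 2) ^ 2 * q * i * l := by ring
          _ ≤ (m * r) * l := Nat.mul_le_mul_right _ hG1
          _ = m * (r * l) := by ring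
          _ ≤ m * (q ^ 2 * (2 * q - 1)) := Nat.mul_le_mul_left _ (Nat.mul_le_mul hrq hl2)
      have h5 : q ^ 3 * (q * (q ^ 2 - 1)) ≤ m * (2 * q - 1) := by
        have h6 : q ^ 3 * (q * (q ^ 2 - 1)) * q ^ 2 ≤ m * (2 * q - 1) * q ^ 2 := by
          calc _ = (q ^ 2) ^ 2 * q * (q * (q ^ 2 - 1)) := by ring
            _ ≤ _ := h4
            _ = _ := by ring
        exact Nat.le_of_mul_le_mul_right h6 (by positivity)
      have h7 := N_le_b hq3
      have h8 : (q + 1) * (q ^ 3 + 1) * (2 * q - 1) ≤ m * (2 * q - 1) := h7.trans h5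
      exact Nat.le_of_mul_le_mul_right h8 (by omega)
  · -- `Z ≠ 1`
    have hk' : (q + 2) * z ≤ k * q := hk.resolve_left hZ
    have hq3 : 3 ≤ q := by
      by_contra hcon
      have hq2 : q = 2 := by omega
      have h2z := two_mul_card_ZZ_le hF hα hc hcK
      have : z ≤ 1 := by
        have : 2 * z ≤ q := h2z
        omega
      omega
    have hG2 := G2_of hz1 H hk'
    have h4 : (q ^ 2) ^ 2 * q * (q + 2) * (q * (q ^ 2 - 1)) ≤ m * ((q ^ 2) ^ 2 * q) := by
      calc (q ^ 2) ^ 2 * q * (q + 2) * (q * (q ^ 2 - 1)) ≤ (q ^ 2) ^ 2 * q * (q + 2) * (i * l) :=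
            Nat.mul_le_mul_left _ hlvl
        _ ≤ (q ^ 2) ^ 2 * q * (q + 2) * (i * r) := by gcongr
        _ = ((q ^ 2) ^ 2 * q * i * (q + 2)) * r := by ring
        _ ≤ (m * r * q) * r := Nat.mul_le_mul_right _ hG2
        _ = m * (r ^ 2 * q) := by ring
        _ ≤ m * ((q ^ 2) ^ 2 * q) := by gcongr
    have h5 : (q + 2) * (q * (q ^ 2 - 1)) ≤ m := by
      have h6 : (q + 2) * (q * (q ^ 2 - 1)) * ((q ^ 2) ^ 2 * q) ≤ m * ((q ^ 2) ^ 2 * q) := by
        calc _ = (q ^ 2) ^ 2 * q * (q + 2) * (q * (q ^ 2 - 1)) := by ring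
          _ ≤ _ := h4
      exact Nat.le_of_mul_le_mul_right h6 (by positivity)
    exact (N_le_a hq3).trans h5

end Analysis

end Cfsg.Agent.Lib.PSUIdx
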