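import Mathlib
import Cfsg.Agent.Lib.PSUIdxE

/-!
# Dimension four: the isotropic cases of `Y`
-/

set_option autoImplicit false
set_option linter.unusedSectionVars false
set_option linter.unusedVariables false

namespace Cfsg.Agent.Lib.PSUIdx

open Matrix Cfsg Cfsg.Agent.Lib.HermForm Cfsg.Agent.Lib.FFNorm Cfsg.Agent.Lib.UnitaryE
  Cfsg.Agent.Lib.UnitarySU Cfsg.Agent.Lib.SUMinDeg
open scoped Pointwise

variable {F : Type*} [Field F] [Fintype F] {q n e : ℕ}

/-- A proper additive subgroup has at most half the elements. -/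
lemma two_mul_card_le {A : Type*} [AddCommGroup A] [Finite A] {H : AddSubgroup A} (hH : H ≠ ⊤) :
    2 * Nat.card H ≤ Nat.card A := by
  have h1 := AddSubgroup.card_mul_index H
  have h2 : H.index ≠ 1 := fun h => hH (AddSubgroup.index_eq_one.1 h)
  have h3 : H.index ≠ 0 := AddSubgroup.index_ne_zero_of_finite
  have h4 : 2 ≤ H.index := by omega
  calc 2 * Nat.card H ≤ H.index * Nat.card H := Nat.mul_le_mul_right _ h4
    _ = Nat.card A := by rw [mul_comm, h1]

section

variable (hF : Fintype.card F = q ^ 2) {α : F} (hα : α ^ q * α = -1)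

/-- The extremal configuration. -/
structure Core (K : Subgroup (SU (2 + 2) F q)) (x : Fin 2 → F) : Prop where
  hx0 : x ≠ 0
  hx : hermForm 2 F q x x = 0
  hZ : ZZ hF hα K = ⊥
  hY : ∀ a : F, a • x ∈ YY hF hα K
  hKK : KK hF hα K = Bor x

/-- The rational span. -/
def WW (hF : Fintype.card F = q ^ 2) (y₁ y₂ : Fin 2 → F) : AddSubgroup (Fin 2 → F) where
  carrier := {y | ∃ a b : F, a ^ q = a ∧ b ^ q = b ∧ y = a • y₁ + b • y₂}
  add_mem' := by
    rintro _ _ ⟨a, b, ha, hb, rfl⟩ ⟨a', b', ha', hb', rfl⟩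
    refine ⟨a + a', b + b', by rw [add_pow_q hF, ha, ha'], by rw [add_pow_q hF, hb, hb'], ?_⟩
    simp only [add_smul]
    abel
  zero_mem' := ⟨0, 0, by rw [zero_pow (by have := two_le hF; omega)], by
    rw [zero_pow (by have := two_le hF; omega)], by simp⟩
  neg_mem' := by
    rintro _ ⟨a, b, ha, hb, rfl⟩
    refine ⟨-a, -b, by rw [neg_pow_q hF, ha], by rw [neg_pow_q hF, hb], ?_⟩
    simp only [neg_smul]
    abel

include hF in
lemma card_WW_le (y₁ y₂ : Fin 2 → F) : Nat.card (WW hF y₁ y₂) ≤ q ^ 2 := by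
  classical
  have h1 := Cfsg.Agent.Lib.HermLines.card_fixed hF
  have h2 : Nat.card ({c : F // c ^ q = c} × {c : F // c ^ q = c}) = q ^ 2 := by
    rw [Nat.card_prod, h1]; ring
  rw [← h2]
  refine Nat.card_le_card_of_surjective (fun p => (⟨p.1.1 • y₁ + p.2.1 • y₂,
    ⟨p.1.1, p.2.1, p.1.2, p.2.2, rfl⟩⟩ : WW hF y₁ y₂)) ?_
  rintro ⟨_, a, b, ha, hb, rfl⟩
  exact ⟨(⟨a, ha⟩, ⟨b, hb⟩), rfl⟩

/-- The configuration with `Y` spanning. -/
structure T2 (K : Subgroup (SU (2 + 2) F q)) (y₁ y₂ : Fin 2 → F) (g : F) : Prop where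
  h11 : hermForm 2 F q y₁ y₁ = 0
  h22 : hermForm 2 F q y₂ y₂ = 0
  h12 : hermForm 2 F q y₁ y₂ = g
  hg0 : g ≠ 0
  hg : g + g ^ q = 0
  m1 : y₁ ∈ YY hF hα K
  m2 : y₂ ∈ YY hF hα K
  hle : YY hF hα K ≤ WW hF y₁ y₂

include hF hα

/-- Either `Y` is in a point, or it spans. -/
theorem iso_dichotomy (K : Subgroup (SU (2 + 2) F q)) (hiso : ∀ y ∈ YY hF hα K, hermForm 2 F q y y = 0)
    {x : Fin 2 → F} (hxY : x ∈ YY hF hα K) (hx0 : x ≠ 0) :
    (∀ y ∈ YY hF hα K, ∃ a : F, y = a • x) ∨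
      ∃ y₂ g, T2 hF hα K x y₂ g := by
  by_cases h : ∀ y ∈ YY hF hα K, ∃ a : F, y = a • x
  · exact Or.inl h
  · right
    push Not at h
    obtain ⟨y₂, hy₂, hne⟩ := h
    have hxx := hiso x hxY
    have h22 := hiso y₂ hy₂
    have hg0 : hermForm 2 F q x y₂ ≠ 0 := by
      intro h0
      obtain ⟨a, ha⟩ := prop2 hF hx0 (herm_zero_of_conj hF h0) hxx hx0
      exact hne a ha
    have htr : ∀ y ∈ YY hF hα K, ∀ y' ∈ YY hF hα K, hermForm 2 F q y y' + hermForm 2 F q y y' ^ q = 0 := by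
      intro y hy y' hy'
      have h1 := hiso (y + y') ((YY hF hα K).add_mem hy hy')
      rw [hermForm_add_left, hermForm_add_right hF, hermForm_add_right hF, hiso y hy, hiso y' hy',
        ← hermForm_conj hF y y'] at h1
      linear_combination h1
    refine ⟨y₂, _, hxx, h22, rfl, hg0, htr x hxY y₂ hy₂, hxY, hy₂, ?_⟩
    intro y hy
    set g := hermForm 2 F q x y₂ with hg
    have hgtr : g ^ q = - g := by
      have := htr x hxY y₂ hy₂
      rw [← hg] at this
      linear_combination this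
    -- normalise
    obtain ⟨f, hf⟩ : ∃ f, f = (g ^ q)⁻¹ • y₂ := ⟨_, rfl⟩
    have hgq : g ^ q ≠ 0 := pow_ne_zero _ hg0
    have hfx : hermForm 2 F q f x = 1 := by
      rw [hf, hermForm_smul_left, ← hermForm_conj hF x y₂, ← hg]
      field_simp
    have hff : hermForm 2 F q f f = 0 := by
      rw [hf, hermForm_smul_left, hermForm_smul_right, h22]
      ring
    have hdec := SUGen.dim2_dec hF hxx hff hfx y
    have hyf : hermForm 2 F q y f = g⁻¹ * hermForm 2 F q y y₂ := by
      rw [hf, hermForm_smul_right, inv_pow, pow_pow_self hF]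
    have hh1 := htr y hy y₂ hy₂
    have hh2 := htr y hy x hxY
    refine ⟨g⁻¹ * hermForm 2 F q y y₂, hermForm 2 F q y x * (g ^ q)⁻¹, ?_, ?_, ?_⟩
    · rw [mul_pow, inv_pow, hgtr]
      have : hermForm 2 F q y y₂ ^ q = - hermForm 2 F q y y₂ := by linear_combination hh1
      rw [this]
      field_simp
    · rw [mul_pow, inv_pow, pow_pow_self hF, hgtr]
      have : hermForm 2 F q y x ^ q = - hermForm 2 F q y x := by linear_combination hh2
      rw [this]
      field_simp
    · rw [hyf, hf, smul_smul] at hdec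
      exact hdec

/-- The case of a point. -/
theorem case_point (K : Subgroup (SU (2 + 2) F q)) {c : F} (hc : c + c ^ q = 0)
    (hcK : EE (e := 2) hF α 0 c ∉ K) (hiso : ∀ y ∈ YY hF hα K, hermForm 2 F q y y = 0)
    {x : Fin 2 → F} (hxY : x ∈ YY hF hα K) (hx0 : x ≠ 0)
    (hpt : ∀ y ∈ YY hF hα K, ∃ a : F, y = a • x) :
    (q + 1) * (q ^ 3 + 1) ≤ K.index ∨ Core hF hα K x := by
  classical
  have hq := two_le hF
  have hxx := hiso x hxY
  obtain ⟨k, hk1, hk, H⟩ := mi_param hF hα K (by norm_num) hc hcK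
  set r := Nat.card (YY hF hα K) with hr
  set z := Nat.card (ZZ hF hα K) with hz
  set m := K.index with hm
  have hz1 : 1 ≤ z := Nat.card_pos
  have hr2 : r ^ 2 ≤ (q ^ 2) ^ 2 := card_sq_le_top hF hc (Z := ZZ hF hα K) (fun h => hcK h.2)
    (fun y hy y' hy' => comm_mem_ZZ hF hα hy' hy)
  have hrq : r ≤ q ^ 2 := by
    by_contra hcon
    push Not at hcon
    have : (q ^ 2) ^ 2 < r ^ 2 := Nat.pow_lt_pow_left hcon (by norm_num)
    omega
  -- `K₁ ≤ Bor x`
  have hle : KK hF hα K ≤ Bor x := by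
    intro l hl
    have h1 := YY_inv hF hα hl hxY
    obtain ⟨a, ha⟩ := hpt _ h1
    refine ⟨a, ?_, ha⟩
    rintro rfl
    rw [zero_smul] at ha
    apply hx0
    have h2 : act l⁻¹ (act l x) = x := by rw [← act_mul, inv_mul_cancel, act_one]
    rw [ha, act_zero] at h2
    exact h2.symm
  have hB := index_Bor_ge hF hx0 hxx
  have hi : (KK hF hα K).relIndex (Bor x) * (Bor x : Subgroup (SU 2 F q)).index = (KK hF hα K).index :=
    Subgroup.relIndex_mul_index hle
  set i := (KK hF hα K).index with hidef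
  have hiq : q + 1 ≤ i := by
    have hrel : 1 ≤ (KK hF hα K).relIndex (Bor x) := Nat.pos_of_ne_zero (by
      intro h0
      rw [h0, zero_mul] at hi
      exact (Subgroup.index_ne_zero_of_finite (H := KK hF hα K)) hi.symm)
    calc q + 1 ≤ 1 * (Bor x : Subgroup (SU 2 F q)).index := by omega
      _ ≤ _ := Nat.mul_le_mul_right _ hrel
      _ = i := hi
  have hG1 := G1_of (q := q) (by omega) hk1 hz1 H hk
  -- the set of scalars
  let S : AddSubgroup F := (YY hF hα K).comap
    { toFun := fun a : F => a • x, map_zero' := zero_smul _ _, map_add' := fun a b => add_smul a b x }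
  have hrS : r = Nat.card S := by
    apply Nat.card_congr
    have hinj : ∀ a b : F, a • x = b • x → a = b := fun a b h => smul_left_injective F hx0 h
    refine Equiv.ofBijective (fun a : S => (⟨a.1 • x, a.2⟩ : YY hF hα K)) ⟨?_, ?_⟩ |>.symm
    · intro a b h
      exact Subtype.ext (hinj _ _ (congrArg Subtype.val h))
    · rintro ⟨y, hy⟩
      obtain ⟨a, rfl⟩ := hpt y hy
      exact ⟨⟨a, hy⟩, rfl⟩
  have hcardF : Nat.card F = q ^ 2 := by rw [Nat.card_eq_fintype_card, hF]
  have hQ : (q ^ 2) ^ 2 * q = q ^ 5 := by ring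
  rw [hQ] at hG1
  have hbd : ∀ {A : ℕ}, A * q ^ 2 ≤ m * 1 * 1 → A * q ^ 2 ≤ m := fun h => by simpa using h
  by_cases hS : S = ⊤
  · -- all scalars
    by_cases hZ : z = 1
    · have hZb : ZZ hF hα K = ⊥ := by
        rw [← AddSubgroup.card_eq_one]
        exact hZ
      by_cases hKK : KK hF hα K = Bor x
      · right
        exact ⟨hx0, hxx, hZb, fun a => by
          have : a ∈ S := by rw [hS]; trivial
          exact this, hKK⟩
      · left
        have hrel2 : 2 ≤ (KK hF hα K).relIndex (Bor x) := by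
          have h1 : (KK hF hα K).relIndex (Bor x) ≠ 1 := by
            intro h
            exact hKK (le_antisymm hle (Subgroup.relIndex_eq_one.1 h))
          have h0 : (KK hF hα K).relIndex (Bor x) ≠ 0 := by
            intro h0
            rw [h0, zero_mul] at hi
            exact (Subgroup.index_ne_zero_of_finite (H := KK hF hα K)) hi.symm
          omega
        have hi2 : 2 * (q + 1) ≤ i := by
          rw [← hi]
          exact Nat.mul_le_mul hrel2 hB
        have h1 : q ^ 3 * (2 * (q + 1)) * q ^ 2 ≤ m * q ^ 2 := by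
          calc _ = q ^ 5 * (2 * (q + 1)) := by ring
            _ ≤ q ^ 5 * i := Nat.mul_le_mul_left _ hi2
            _ ≤ m * r := hG1
            _ ≤ m * q ^ 2 := Nat.mul_le_mul_left _ hrq
        have h2 : q ^ 3 * (2 * (q + 1)) ≤ m := Nat.le_of_mul_le_mul_right h1 (by positivity)
        refine le_trans ?_ h2
        have : q ^ 3 + 1 ≤ 2 * q ^ 3 := by
          have : 1 ≤ q ^ 3 := Nat.one_le_pow _ _ (by omega)
          omega
        calc (q + 1) * (q ^ 3 + 1) ≤ (q + 1) * (2 * q ^ 3) := Nat.mul_le_mul_left _ this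
          _ = _ := by ring
    · left
      have hk' : (q + 2) * z ≤ k * q := hk.resolve_left hZ
      have hG2 := G2_of hz1 H hk'
      rw [hQ] at hG2
      have h1 : q ^ 2 * (q + 1) * (q + 2) * (q ^ 2 * q) ≤ m * (q ^ 2 * q) := by
        calc _ = q ^ 5 * (q + 1) * (q + 2) := by ring
          _ ≤ q ^ 5 * i * (q + 2) := by gcongr
          _ ≤ m * r * q := hG2
          _ ≤ m * q ^ 2 * q := by gcongr
          _ = _ := by ring
      have h2 : q ^ 2 * (q + 1) * (q + 2) ≤ m := Nat.le_of_mul_le_mul_right h1 (by positivity)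
      refine le_trans ?_ h2
      have : q ^ 3 + 1 ≤ q ^ 2 * (q + 2) := by
        have : 1 ≤ q ^ 2 := Nat.one_le_pow _ _ (by omega)
        nlinarith
      calc (q + 1) * (q ^ 3 + 1) ≤ (q + 1) * (q ^ 2 * (q + 2)) := Nat.mul_le_mul_left _ this
        _ = _ := by ring
  · left
    have h2S := two_mul_card_le hS
    rw [hcardF, ← hrS] at h2S
    have h1 : q ^ 3 * (2 * (q + 1)) * q ^ 2 ≤ m * q ^ 2 := by
      calc _ = 2 * (q ^ 5 * (q + 1)) := by ring
        _ ≤ 2 * (q ^ 5 * i) := by gcongr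
        _ ≤ 2 * (m * r) := Nat.mul_le_mul_left _ hG1
        _ = m * (2 * r) := by ring
        _ ≤ m * q ^ 2 := Nat.mul_le_mul_left _ h2S
    have h2 : q ^ 3 * (2 * (q + 1)) ≤ m := Nat.le_of_mul_le_mul_right h1 (by positivity)
    refine le_trans ?_ h2
    have : q ^ 3 + 1 ≤ 2 * q ^ 3 := by
      have : 1 ≤ q ^ 3 := Nat.one_le_pow _ _ (by omega)
      omega
    calc (q + 1) * (q ^ 3 + 1) ≤ (q + 1) * (2 * q ^ 3) := Nat.mul_le_mul_left _ this
      _ = _ := by ring

/-- The spanning case in odd characteristic. -/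
theorem case_span_odd (K : Subgroup (SU (2 + 2) F q)) {c : F} (hc : c + c ^ q = 0)
    (hcK : EE (e := 2) hF α 0 c ∉ K) {y₁ y₂ : Fin 2 → F} {g : F} (hT : T2 hF hα K y₁ y₂ g)
    (h2 : (2 : F) ≠ 0) : (q + 1) * (q ^ 3 + 1) ≤ K.index := by
  classical
  have hq := two_le hF
  obtain ⟨k, hk1, hk, H⟩ := mi_param hF hα K (by norm_num) hc hcK
  have hgq : g ^ q = -g := by linear_combination hT.hg
  have h21 : hermForm 2 F q y₂ y₁ = -g := by
    rw [← hermForm_conj hF y₁ y₂, hT.h12, hgq]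
  have h2q : (2 : F) ^ q = 2 := by
    have : (2 : F) = 1 + 1 := by norm_num
    rw [this, add_pow_q hF, one_pow]
  -- the bound on `Y`
  have hr : Nat.card (YY hF hα K) ^ 2 ≤ q ^ 2 := by
    refine le_trans (card_sq_le_of hF (Z := ZZ hF hα K) (c₁ := c) hT.hle (fun h => hcK h.2)
      (fun y hy y' hy' => comm_mem_ZZ hF hα hy' hy) ?_) (card_WW_le hF y₁ y₂)
    rintro _ ⟨a, b, ha, hb, rfl⟩ hne
    have hform : ∀ a' b' : F, a' ^ q = a' → b' ^ q = b' →
        hermForm 2 F q (a' • y₁ + b' • y₂) (a • y₁ + b • y₂) -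
          hermForm 2 F q (a • y₁ + b • y₂) (a' • y₁ + b' • y₂) = 2 * (a' * b - b' * a) * g := by
      intro a' b' ha' hb'
      simp only [hermForm_add_left, hermForm_add_right hF, hermForm_smul_left, hermForm_smul_right,
        hT.h11, hT.h22, hT.h12, h21, ha, hb, ha', hb']
      ring
    have hcq : c ^ q = -c := by linear_combination hc
    have hg0 := hT.hg0
    by_cases hb0 : b = 0
    · have ha0 : a ≠ 0 := by
        rintro rfl
        apply hne
        simp [hb0]
      refine ⟨(0 : F) • y₁ + (-(c / (2 * a * g))) • y₂, ⟨0, -(c / (2 * a * g)), ?_, ?_, rfl⟩, ?_⟩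
      · rw [zero_pow (by omega)]
      · rw [neg_pow_q hF, div_pow, mul_pow, mul_pow, h2q, ha, hgq, hcq]
        field_simp
      · rw [hform 0 _ (zero_pow (by omega)) ?_, hb0]
        · field_simp
          ring
        · rw [neg_pow_q hF, div_pow, mul_pow, mul_pow, h2q, ha, hgq, hcq]
          field_simp
    · refine ⟨(c / (2 * b * g)) • y₁ + (0 : F) • y₂, ⟨c / (2 * b * g), 0, ?_, ?_, rfl⟩, ?_⟩
      · rw [div_pow, mul_pow, mul_pow, h2q, hb, hgq, hcq]
        field_simp
      · rw [zero_pow (by omega)]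
      · rw [hform _ 0 ?_ (zero_pow (by omega))]
        · field_simp
          ring
        · rw [div_pow, mul_pow, mul_pow, h2q, hb, hgq, hcq]
          field_simp
  have hrq : Nat.card (YY hF hα K) ≤ q := by
    by_contra hcon
    push Not at hcon
    have : q ^ 2 < Nat.card (YY hF hα K) ^ 2 := Nat.pow_lt_pow_left hcon (by norm_num)
    omega
  -- `Z ≠ 1`
  have hZne : Nat.card (ZZ hF hα K) ≠ 1 := by
    intro h1
    have hZb : ZZ hF hα K = ⊥ := by
      rw [← AddSubgroup.card_eq_one]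
      exact h1
    have h3 := comm_mem_ZZ hF hα hT.m1 hT.m2
    rw [hZb, AddSubgroup.mem_bot, hT.h12, h21] at h3
    have h4 : (2 : F) * g = 0 := by linear_combination h3
    exact (mul_ne_zero h2 hT.hg0) h4
  have hz1 : 1 ≤ Nat.card (ZZ hF hα K) := Nat.card_pos
  have hG2 := G2_of hz1 H (hk.resolve_left hZne)
  have hi1 : 1 ≤ (KK hF hα K).index := Nat.pos_of_ne_zero Subgroup.index_ne_zero_of_finite
  set m := K.index with hm
  have h1 : q ^ 3 * (q + 2) * q ^ 2 ≤ m * q ^ 2 := by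
    calc _ = (q ^ 2) ^ 2 * q * 1 * (q + 2) := by ring
      _ ≤ (q ^ 2) ^ 2 * q * (KK hF hα K).index * (q + 2) := by gcongr
      _ ≤ m * Nat.card (YY hF hα K) * q := hG2
      _ ≤ m * q * q := by gcongr
      _ = _ := by ring
  have h2' : q ^ 3 * (q + 2) ≤ m := Nat.le_of_mul_le_mul_right h1 (by positivity)
  refine le_trans ?_ h2'
  have h3 : 1 ≤ q ^ 3 := Nat.one_le_pow _ _ (by omega)
  nlinarith

end

end Cfsg.Agent.Lib.PSUIdx
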