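import Mathlib
import Cfsg.Agent.Lib.PSUIdxF
import Cfsg.Agent.Lib.PSU35A

/-!
# Dimension four: the extremal configuration contains a transvection group
-/

set_option autoImplicit false
set_option linter.unusedSectionVars false
set_option linter.unusedVariables false

namespace Cfsg.Agent.Lib.PSUIdx

open Matrix Cfsg Cfsg.Agent.Lib.HermForm Cfsg.Agent.Lib.FFNorm Cfsg.Agent.Lib.UnitaryE
  Cfsg.Agent.Lib.UnitarySU Cfsg.Agent.Lib.SUMinDeg
open scoped Pointwise

variable {F : Type*} [Field F] [Fintype F] {q n e : ℕ}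

section Gen

variable (hF : Fintype.card F = q ^ 2) {α : F} (hα : α ^ q * α = -1) {K : Subgroup (SU (e + 2) F q)}
include hF hα

/-- Conjugating a root element by an element of `K` of the form `Q · ι`. -/
lemma conj_lift {u₀ u : Fin e → F} {s₀ s : F} {l : SU e F q} (h₀ : Gd q u₀ s₀) (h : Gd q u s)
    (hw : EE hF α u₀ s₀ * iota l ∈ K) (hm : EE hF α u s ∈ K) :
    EE hF α (act l u) ((hermForm e F q u₀ (act l u) - hermForm e F q (act l u) u₀) + s) ∈ K := by
  have h1 := K.mul_mem (K.mul_mem hw hm) (K.inv_mem hw)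
  have h2 : EE hF α u₀ s₀ * iota l * EE hF α u s * (EE hF α u₀ s₀ * iota l)⁻¹ =
      EE hF α u₀ s₀ * (iota l * EE hF α u s * (iota l)⁻¹) * (EE hF α u₀ s₀)⁻¹ := by
    group
  rw [h2, iota_conj hF hα l h, EE_conj hF hα h₀ (Gd_act l h)] at h1
  exact h1

/-- Uniqueness of the central coordinate. -/
lemma EE_uniq (hZ : ZZ hF hα K = ⊥) {u : Fin e → F} {s s' : F} (h : Gd q u s) (h' : Gd q u s')
    (hm : EE hF α u s ∈ K) (hm' : EE hF α u s' ∈ K) : s = s' := by
  have htr : (s - s') + (s - s') ^ q = 0 := by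
    unfold Gd at h h'
    rw [sub_pow_q hF]
    linear_combination h - h'
  have h1 := EE_tau_mul hF hα htr h'
  have h2 : EE (e := e) hF α 0 (s - s') = EE hF α u s * (EE hF α u s')⁻¹ := by
    rw [eq_mul_inv_iff_mul_eq, h1]
    congr 1
    ring
  have h3 : s - s' ∈ ZZ hF hα K := ⟨htr, by rw [h2]; exact K.mul_mem hm (K.inv_mem hm')⟩
  rw [hZ, AddSubgroup.mem_bot] at h3
  exact sub_eq_zero.1 h3

/-- `ι` of a transvection. -/
lemma iota_tau {x : Fin e → F} {c : F} (hx : hermForm e F q x x = 0) (hc : c + c ^ q = 0) :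
    iota (tau hF x c) = tau hF (inc x) c := by
  have hX : hermForm (e + 2) F q (inc x) (inc x) = 0 := by rw [herm_inc hF]; exact hx
  apply ext_act
  intro w
  rw [act_tau hF hX hc, act_iota, act_tau hF hx hc]
  obtain ⟨b, hb⟩ : ∃ b : F, b + b ^ q = -1 :=
    exists_trace_eq hF (t := -1) (by rw [neg_pow_q hF, one_pow])
  have h1 : hermForm e F q (Fin.tail (Fin.tail w)) x = hermForm (e + 2) F q w (inc x) := by
    rw [Cfsg.Agent.Lib.UnitaryBasic.herm_succ, Cfsg.Agent.Lib.UnitaryBasic.herm_succ]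
    have hq := two_le hF
    simp [inc, Fin.tail, zero_pow (show q ≠ 0 by omega)]
  rw [h1]
  ext i
  refine Fin.cases ?_ (fun j => ?_) i
  · simp [inc]
  · refine Fin.cases ?_ (fun k => ?_) j
    · simp [inc]
    · rfl

/-- The transvection with a mixed centre. -/
lemma tau_mixed {x : Fin e → F} {c ρ : F} (hx : hermForm e F q x x = 0) (hc : c + c ^ q = 0) :
    tau hF (ρ • vE α + inc x) c =
      EE (e := e) hF α 0 (c * (ρ * ρ ^ q)) * (EE hF α ((c * ρ ^ q) • x) 0 * iota (tau hF x c)) := by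
  have hv := vE_iso (e := e) hF hα
  have hX : hermForm (e + 2) F q (inc x) (inc x) = 0 := by rw [herm_inc hF]; exact hx
  have hXv := inc_vE (α := α) hF x
  have hvX : hermForm (e + 2) F q (vE α) (inc x) = 0 := vE_inc hF x
  have hz : hermForm (e + 2) F q (ρ • vE α + inc x) (ρ • vE α + inc x) = 0 := by
    simp only [hermForm_add_left, hermForm_add_right hF, hermForm_smul_left, hermForm_smul_right, hv, hX, hXv, hvX]
    ring
  have hcq : c ^ q = -c := by linear_combination hc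
  have hq := two_le hF
  have hNq : (ρ * ρ ^ q) ^ q = ρ * ρ ^ q := by
    rw [mul_pow, pow_pow_self hF]; ring
  have hg0 : Gd q (0 : Fin e → F) (c * (ρ * ρ ^ q)) := Gd_zero hF (by
    rw [mul_pow, hNq, hcq]; ring)
  have hg1 : Gd q ((c * ρ ^ q) • x) (0 : F) := by
    unfold Gd
    rw [hermForm_smul_left, hermForm_smul_right, hx, zero_pow (by omega)]
    ring
  apply ext_act
  intro w
  rw [act_mul, act_mul, iota_tau hF hα hx hc, act_tau hF hX hc, act_EE hF hα hg1, act_EE hF hα hg0,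
    act_tau hF hz hc]
  simp only [inc_zero, add_zero, sub_zero, hermForm_zero_right hF, zero_smul, inc_smul, hermForm_add_left,
    hermForm_smul_left, hermForm_add_right hF, hermForm_smul_right, hXv, hX, hvX, hv, hermForm_sub_left,
    mul_zero, zero_mul, mul_pow, pow_pow_self hF, hcq]
  module

end Gen

section Core

variable (hF : Fintype.card F = q ^ 2) {α : F} (hα : α ^ q * α = -1) {K : Subgroup (SU (2 + 2) F q)}
  {x : Fin 2 → F}

/-- The weak form of the extremal configuration. -/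
structure CoreL (hF : Fintype.card F = q ^ 2) (hα : α ^ q * α = -1) (K : Subgroup (SU (2 + 2) F q))
    (x : Fin 2 → F) : Prop where
  hx0 : x ≠ 0
  hx : hermForm 2 F q x x = 0
  hZ : ZZ hF hα K = ⊥
  hY : ∀ a : F, a • x ∈ YY hF hα K
  hB : Bor x ≤ KK hF hα K

include hF in
lemma Gd_ax (hx : hermForm 2 F q x x = 0) {a s : F} : Gd q (a • x) s ↔ s + s ^ q = 0 := by
  unfold Gd
  rw [hermForm_smul_left, hermForm_smul_right, hx, mul_zero, mul_zero, add_zero]

include hF hα

lemma Core.toL (h : Core hF hα K x) : CoreL hF hα K x :=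
  ⟨h.hx0, h.hx, h.hZ, h.hY, h.hKK.ge⟩

/-- The function `φ`. -/
lemma exists_phi (hC : CoreL hF hα K x) :
    ∃ φ : F → F, (∀ a, φ a + φ a ^ q = 0) ∧ ∀ a, EE hF α (a • x) (φ a) ∈ K := by
  have h : ∀ a : F, ∃ s : F, s + s ^ q = 0 ∧ EE hF α (a • x) s ∈ K := by
    intro a
    obtain ⟨s, hs, hm⟩ := hC.hY a
    exact ⟨s, (Gd_ax hF hC.hx).1 hs, hm⟩
  choose φ h1 h2 using h
  exact ⟨φ, h1, h2⟩

lemma phi_add (hC : CoreL hF hα K x) {φ : F → F} (h1 : ∀ a, φ a + φ a ^ q = 0)
    (h2 : ∀ a, EE hF α (a • x) (φ a) ∈ K) (a b : F) : φ (a + b) = φ a + φ b := by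
  have hg : ∀ a, Gd q (a • x) (φ a) := fun a => (Gd_ax hF hC.hx).2 (h1 a)
  have h3 := EE_mul hF hα (hg a) (hg b)
  rw [hermForm_smul_left, hermForm_smul_right, hC.hx, mul_zero, mul_zero, sub_zero, ← add_smul] at h3
  have h4 : EE hF α ((a + b) • x) (φ a + φ b) ∈ K := by
    rw [← h3]
    exact K.mul_mem (h2 a) (h2 b)
  refine EE_uniq hF hα hC.hZ (hg _) ?_ (h2 _) h4
  rw [Gd_ax hF hC.hx, add_pow_q hF]
  linear_combination h1 a + h1 b

lemma lift_rel (hC : CoreL hF hα K x) {φ : F → F} (h1 : ∀ a, φ a + φ a ^ q = 0)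
    (h2 : ∀ a, EE hF α (a • x) (φ a) ∈ K) {u₀ : Fin 2 → F} {s₀ : F} {l : SU 2 F q} {c : F}
    (h₀ : Gd q u₀ s₀) (hw : EE hF α u₀ s₀ * iota l ∈ K) (hl : act l x = c • x) (a : F) :
    φ (a * c) = (hermForm 2 F q u₀ ((a * c) • x) - hermForm 2 F q ((a * c) • x) u₀) + φ a := by
  have hg : ∀ a, Gd q (a • x) (φ a) := fun a => (Gd_ax hF hC.hx).2 (h1 a)
  have h3 := conj_lift hF hα h₀ (hg a) hw (h2 a)
  have h4 : act l (a • x) = (a * c) • x := by
    rw [act_smul, hl, smul_smul]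
  rw [h4] at h3
  refine EE_uniq hF hα hC.hZ (hg _) ?_ (h2 _) h3
  rw [Gd_ax hF hC.hx]
  have := trace_zero_kappa hF u₀ ((a * c) • x)
  rw [add_pow_q hF]
  linear_combination this + h1 a

omit hα in
lemma exists_frob_ne : ∃ z : F, z ^ q ≠ z := by
  by_contra hcon
  push Not at hcon
  apply frobQ_ne hF
  ext z
  exact hcon z

omit hα in
lemma perp_of (hx0 : x ≠ 0) (hx : hermForm 2 F q x x = 0) {u₀ : Fin 2 → F}
    (h : ∀ a : F, hermForm 2 F q u₀ (a • x) - hermForm 2 F q (a • x) u₀ = 0) : ∃ a₀ : F, u₀ = a₀ • x := by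
  have hform : ∀ a : F, a ^ q * hermForm 2 F q u₀ x - a * hermForm 2 F q u₀ x ^ q = 0 := by
    intro a
    have := h a
    rw [hermForm_smul_left, hermForm_smul_right, ← hermForm_conj hF u₀ x] at this
    exact this
  have h1 := hform 1
  rw [one_pow, one_mul, one_mul] at h1
  obtain ⟨z, hz⟩ := exists_frob_ne hF
  have h2 := hform z
  have h3 : (z ^ q - z) * hermForm 2 F q u₀ x = 0 := by
    linear_combination h2 - z * h1
  have h4 := (mul_eq_zero.1 h3).resolve_left (sub_ne_zero.2 hz)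
  exact prop2 hF hx0 h4 hx hx0

lemma lift_central (hC : CoreL hF hα K x) {φ : F → F} (h1 : ∀ a, φ a + φ a ^ q = 0)
    (h2 : ∀ a, EE hF α (a • x) (φ a) ∈ K) {a₀ s₀ : F} {l : SU 2 F q}
    (h₀ : Gd q (a₀ • x) s₀) (hw : EE hF α (a₀ • x) s₀ * iota l ∈ K) :
    (s₀ - φ a₀) + (s₀ - φ a₀) ^ q = 0 ∧ EE (e := 2) hF α 0 (s₀ - φ a₀) * iota l ∈ K := by
  have hg : Gd q (a₀ • x) (φ a₀) := (Gd_ax hF hC.hx).2 (h1 a₀)
  have htr : (s₀ - φ a₀) + (s₀ - φ a₀) ^ q = 0 := by
    have := (Gd_ax hF hC.hx).1 h₀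
    rw [sub_pow_q hF]
    linear_combination this - h1 a₀
  refine ⟨htr, ?_⟩
  have h3 := EE_tau_mul hF hα htr hg
  have h4 : EE (e := 2) hF α 0 (s₀ - φ a₀) * EE hF α (a₀ • x) (φ a₀) = EE hF α (a₀ • x) s₀ := by
    rw [h3]
    congr 1
    ring
  have h5 : EE (e := 2) hF α 0 (s₀ - φ a₀) * iota l =
      (EE hF α (a₀ • x) (φ a₀))⁻¹ * (EE hF α (a₀ • x) s₀ * iota l) := by
    have h6 : EE hF α (a₀ • x) (φ a₀) * EE (e := 2) hF α 0 (s₀ - φ a₀) = EE hF α (a₀ • x) s₀ := by
      rw [EE_zero_eq_tau hF hα, EE]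
      rw [mul_tau hF (vE_iso hF hα) htr (good_of hα hF hg)]
      congr 1
      ring
    rw [← h6]
    group
  rw [h5]
  exact K.mul_mem (K.inv_mem (h2 a₀)) hw

omit hα in
/-- The transvection lies in the stabiliser. -/
lemma tau_mem_Bor (hx : hermForm 2 F q x x = 0) {β : F} (hβ : β + β ^ q = 0) :
    tau hF x β ∈ (Bor x : Subgroup (SU 2 F q)) := by
  refine ⟨1, one_ne_zero, ?_⟩
  rw [act_tau hF hx hβ, hx, mul_zero, zero_smul, add_zero, one_smul]

/-- The function `f`. -/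
lemma exists_f (hC : CoreL hF hα K x) {φ : F → F} (h1 : ∀ a, φ a + φ a ^ q = 0)
    (h2 : ∀ a, EE hF α (a • x) (φ a) ∈ K) :
    ∃ f : F → F, ∀ β, β + β ^ q = 0 → f β + f β ^ q = 0 ∧ EE (e := 2) hF α 0 (f β) * iota (tau hF x β) ∈ K := by
  have hq := two_le hF
  have h : ∀ β : F, ∃ r : F, β + β ^ q = 0 →
      r + r ^ q = 0 ∧ EE (e := 2) hF α 0 r * iota (tau hF x β) ∈ K := by
    intro β
    by_cases hβ : β + β ^ q = 0
    · obtain ⟨w, ⟨u₀, s₀, h₀, rfl⟩, hw⟩ := hC.hB (tau_mem_Bor hF hC.hx hβ)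
      have hrel := lift_rel hF hα hC h1 h2 (c := 1) h₀ hw (by
        rw [act_tau hF hC.hx hβ, hC.hx, mul_zero, zero_smul, add_zero, one_smul])
      obtain ⟨a₀, rfl⟩ := perp_of hF hC.hx0 hC.hx (u₀ := u₀) (fun a => by
        have := hrel a
        rw [mul_one] at this
        linear_combination -this)
      obtain ⟨h3, h4⟩ := lift_central hF hα hC h1 h2 h₀ hw
      exact ⟨_, fun _ => ⟨h3, h4⟩⟩
    · exact ⟨0, fun h => absurd h hβ⟩
  choose f hf using h
  exact ⟨f, hf⟩

/-- `ι` commutes with the central part. -/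
lemma iota_comm_center {e : ℕ} (l : SU e F q) {c : F} (hc : c + c ^ q = 0) :
    iota l * EE (e := e) hF α 0 c = EE hF α 0 c * iota l := by
  have h := iota_conj hF hα l (Gd_zero (e := e) hF hc)
  rw [act_zero] at h
  exact mul_inv_eq_iff_eq_mul.1 h

lemma center_uniq {e : ℕ} {K : Subgroup (SU (e + 2) F q)} (hZ : ZZ hF hα K = ⊥) {r r' : F}
    {g : SU (e + 2) F q} (hr : r + r ^ q = 0) (hr' : r' + r' ^ q = 0)
    (h : EE (e := e) hF α 0 r * g ∈ K) (h' : EE (e := e) hF α 0 r' * g ∈ K) : r = r' := by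
  have htr : (r - r') + (r - r') ^ q = 0 := by
    rw [sub_pow_q hF]
    linear_combination hr - hr'
  have h1 : EE (e := e) hF α 0 (r - r') * EE hF α 0 r' = EE hF α 0 r := by
    rw [EE_tau_mul hF hα htr (Gd_zero hF hr')]
    congr 1
    ring
  have h2 : EE (e := e) hF α 0 (r - r') ∈ K := by
    have h3 := K.mul_mem h (K.inv_mem h')
    have h4 : EE (e := e) hF α 0 r * g * (EE (e := e) hF α 0 r' * g)⁻¹ = EE (e := e) hF α 0 (r - r') := by
      rw [← h1]
      group
    rwa [h4] at h3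
  have h5 : r - r' ∈ ZZ hF hα K := ⟨htr, h2⟩
  rw [hZ, AddSubgroup.mem_bot] at h5
  exact sub_eq_zero.1 h5

/-- Conjugation among central lifts. -/
lemma center_conj {e : ℕ} {r f : F} (hr : r + r ^ q = 0) (hf : f + f ^ q = 0) (l t : SU e F q) :
    (EE (e := e) hF α 0 r * iota l) * (EE (e := e) hF α 0 f * iota t) * (EE (e := e) hF α 0 r * iota l)⁻¹ =
      EE (e := e) hF α 0 f * iota (l * t * l⁻¹) := by
  have hBD := iota_comm_center hF hα l hf
  have hAD : EE (e := e) hF α 0 r * EE (e := e) hF α 0 f = EE (e := e) hF α 0 f * EE (e := e) hF α 0 r := by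
    have h1 := EE_comm hF hα (Gd_zero (e := e) hF hr) (Gd_zero (e := e) hF hf)
    rw [hermForm_zero_left, sub_self, EE_zero hF hα, one_mul] at h1
    exact h1
  have hAX := iota_comm_center hF hα (l * t * l⁻¹) hr
  have hX : iota (l * t * l⁻¹) = iota l * iota t * (iota l)⁻¹ := by
    simp only [map_mul, map_inv]
  set A := EE (e := e) hF α 0 r
  set D := EE (e := e) hF α 0 f
  calc (A * iota l) * (D * iota t) * (A * iota l)⁻¹ = A * (iota l * D) * iota t * (iota l)⁻¹ * A⁻¹ := by group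
    _ = A * (D * iota l) * iota t * (iota l)⁻¹ * A⁻¹ := by rw [hBD]
    _ = (A * D) * (iota l * iota t * (iota l)⁻¹) * A⁻¹ := by group
    _ = (D * A) * iota (l * t * l⁻¹) * A⁻¹ := by rw [hAD, hX]
    _ = D * (A * iota (l * t * l⁻¹)) * A⁻¹ := by group
    _ = D * (iota (l * t * l⁻¹) * A) * A⁻¹ := by rw [hAX]
    _ = D * iota (l * t * l⁻¹) := by group

/-- Additivity of the central part. -/
lemma f_add (hC : CoreL hF hα K x) {f : F → F}
    (hf : ∀ β, β + β ^ q = 0 → f β + f β ^ q = 0 ∧ EE (e := 2) hF α 0 (f β) * iota (tau hF x β) ∈ K)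
    {β β' : F} (h : β + β ^ q = 0) (h' : β' + β' ^ q = 0) : f (β + β') = f β + f β' := by
  have hs : (β + β') + (β + β') ^ q = 0 := by
    rw [add_pow_q hF]
    linear_combination h + h'
  obtain ⟨h1, h2⟩ := hf β h
  obtain ⟨h3, h4⟩ := hf β' h'
  obtain ⟨h5, h6⟩ := hf _ hs
  have h7 : (f β + f β') + (f β + f β') ^ q = 0 := by
    rw [add_pow_q hF]
    linear_combination h1 + h3
  refine center_uniq hF hα hC.hZ h5 h7 h6 ?_
  have h8 : EE (e := 2) hF α 0 (f β + f β') * iota (tau hF x (β + β')) =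
      (EE (e := 2) hF α 0 (f β) * iota (tau hF x β)) * (EE (e := 2) hF α 0 (f β') * iota (tau hF x β')) := by
    have h9 : iota (tau hF x β) * EE (e := 2) hF α 0 (f β') = EE (e := 2) hF α 0 (f β') * iota (tau hF x β) :=
      iota_comm_center hF hα _ h3
    have h10 : EE (e := 2) hF α 0 (f β + f β') = EE (e := 2) hF α 0 (f β) * EE (e := 2) hF α 0 (f β') := by
      have := EE_mul hF hα (Gd_zero (e := 2) hF h1) (Gd_zero (e := 2) hF h3)
      rw [hermForm_zero_left, sub_zero, add_zero] at this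
      exact this.symm
    rw [h10, tau_add hF hC.hx h h', map_mul]
    calc _ = EE (e := 2) hF α 0 (f β) * (EE (e := 2) hF α 0 (f β') * iota (tau hF x β)) * iota (tau hF x β') := by group
      _ = EE (e := 2) hF α 0 (f β) * (iota (tau hF x β) * EE (e := 2) hF α 0 (f β')) * iota (tau hF x β') := by rw [h9]
      _ = _ := by group
  rw [h8]
  exact K.mul_mem h2 h4

omit hα in
/-- A torus element of `SU₂`. -/
lemma exists_torus_plane {x₁ : Fin 2 → F} (hxx : hermForm 2 F q x x = 0) (h11 : hermForm 2 F q x₁ x₁ = 0)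
    (hx1 : hermForm 2 F q x x₁ = 1) {τ : F} (hτ0 : τ ≠ 0) (hτ : τ ^ q = τ) :
    ∃ d : SU 2 F q, act d x = τ • x := by
  have hinv : (τ⁻¹) ^ q = τ⁻¹ := by rw [inv_pow, hτ]
  have hab : τ * (τ⁻¹) ^ q = 1 := by rw [hinv]; exact mul_inv_cancel₀ hτ0
  have hba : τ⁻¹ * τ ^ q = 1 := by rw [hτ]; exact inv_mul_cancel₀ hτ0
  refine ⟨SUofMatrix (Dm q x x₁ τ τ⁻¹) (by rw [Dm_det hF hxx h11 hx1]; exact mul_inv_cancel₀ hτ0)
    (Dm_unitary hF hxx h11 hx1 hab hba), ?_⟩
  change Dm q x x₁ τ τ⁻¹ *ᵥ x = τ • x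
  rw [Dm_mulVec, hx1, hxx]
  module

omit hα in
lemma exists_tau_ne (hq : 3 ≤ q) : ∃ τ : F, τ ≠ 0 ∧ τ ^ q = τ ∧ τ ≠ 1 := by
  have h1 : Nat.card (FqU hF) = q - 1 := card_FqU hF
  have h2 : 1 < Nat.card (FqU hF) := by omega
  haveI : Nontrivial (FqU hF) := (Finite.one_lt_card_iff_nontrivial).1 h2
  obtain ⟨t, ht⟩ := exists_ne (1 : FqU hF)
  refine ⟨((t.1 : Fˣ) : F), Units.ne_zero _, t.2, ?_⟩
  intro h
  apply ht
  apply Subtype.ext
  apply Units.ext
  exact h

omit hα in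
lemma exists_tau_sq_ne (hq : 4 ≤ q) : ∃ τ : F, τ ≠ 0 ∧ τ ^ q = τ ∧ τ * τ ≠ 1 := by
  classical
  by_contra hcon
  push Not at hcon
  have h1 : Nat.card (FqU hF) = q - 1 := card_FqU hF
  have h2 : Nat.card (FqU hF) ≤ 2 := by
    have h3 : Nat.card (FqU hF) ≤ Nat.card ({1, -1} : Finset F) := by
      refine Nat.card_le_card_of_injective (fun t => ⟨((t.1 : Fˣ) : F), ?_⟩) ?_
      · have h4 := hcon ((t.1 : Fˣ) : F) (Units.ne_zero _) t.2
        have h5 : (((t.1 : Fˣ) : F) - 1) * (((t.1 : Fˣ) : F) + 1) = 0 := by linear_combination h4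
        rcases mul_eq_zero.1 h5 with h6 | h6
        · simp [sub_eq_zero.1 h6]
        · simp [eq_neg_of_add_eq_zero_left h6]
      · intro t t' h
        apply Subtype.ext
        apply Units.ext
        exact congrArg Subtype.val h
    refine h3.trans ?_
    rw [Nat.card_eq_fintype_card, Fintype.card_coe]
    exact Finset.card_le_two
  omega

/-- From the central relation to the transvection group. -/
lemma finish_tz (hC : CoreL hF hα K x) (h0 : ∀ a : F, EE (e := 2) hF α (a • x) 0 ∈ K) {κ : F}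
    (hκ : κ ^ q = κ)
    (hf : ∀ β, β + β ^ q = 0 → EE (e := 2) hF α 0 (κ * β) * iota (tau hF x β) ∈ K) :
    ∃ z : Fin (2 + 2) → F, z ≠ 0 ∧ hermForm (2 + 2) F q z z = 0 ∧
      ∀ c : F, c + c ^ q = 0 → tau hF z c ∈ K := by
  obtain ⟨ρ, hρ⟩ : ∃ ρ : F, ρ * ρ ^ q = κ := by
    by_cases hκ0 : κ = 0
    · refine ⟨0, ?_⟩
      rw [hκ0, zero_mul]
    · obtain ⟨a, -, ha⟩ := SUGen.exists_norm hF κ hκ0 hκ
      exact ⟨a, ha⟩
  obtain ⟨x₁, h11, h1x⟩ := exists_partner2 hF hC.hx0 hC.hx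
  have hx1 : hermForm 2 F q x x₁ = 1 := by
    rw [← hermForm_conj hF x₁ x, h1x, one_pow]
  have hz : hermForm (2 + 2) F q (ρ • vE α + inc x) (ρ • vE α + inc x) = 0 := by
    have hv := vE_iso (e := 2) hF hα
    have hX : hermForm (2 + 2) F q (inc x) (inc x) = 0 := by rw [herm_inc hF]; exact hC.hx
    have hXv := inc_vE (α := α) hF x
    have hvX : hermForm (2 + 2) F q (vE α) (inc x) = 0 := vE_inc hF x
    simp only [hermForm_add_left, hermForm_add_right hF, hermForm_smul_left, hermForm_smul_right, hv, hX, hXv, hvX]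
    ring
  refine ⟨ρ • vE α + inc x, ?_, hz, ?_⟩
  · intro h
    have h2 := congrArg (fun y => hermForm (2 + 2) F q y (inc x₁)) h
    simp only [hermForm_add_left, hermForm_smul_left, vE_inc hF, herm_inc hF, hx1, hermForm_zero_left] at h2
    have : (1 : F) = 0 := by simpa using h2
    exact one_ne_zero this
  · intro c hc
    rw [tau_mixed hF hα hC.hx hc, hρ]
    have hs : c * κ + (c * κ) ^ q = 0 := by
      rw [mul_pow, hκ]
      linear_combination κ * hc
    have h1 := hf c hc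
    have h2 := h0 (c * ρ ^ q)
    have h3 : EE (e := 2) hF α 0 (c * κ) * (EE hF α ((c * ρ ^ q) • x) 0 * iota (tau hF x c)) =
        EE hF α ((c * ρ ^ q) • x) 0 * (EE (e := 2) hF α 0 (κ * c) * iota (tau hF x c)) := by
      have h4 : EE (e := 2) hF α 0 (c * κ) * EE hF α ((c * ρ ^ q) • x) 0 =
          EE hF α ((c * ρ ^ q) • x) 0 * EE (e := 2) hF α 0 (c * κ) := by
        have hg : Gd q ((c * ρ ^ q) • x) (0 : F) := (Gd_ax hF hC.hx).2 (by
          rw [zero_pow (by have := two_le hF; omega), add_zero])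
        have h5 := EE_comm hF hα (Gd_zero (e := 2) hF hs) hg
        rw [hermForm_zero_left, hermForm_zero_right hF, sub_self, EE_zero hF hα, one_mul] at h5
        exact h5
      rw [mul_comm κ c, ← mul_assoc, h4, mul_assoc]
    rw [h3]
    exact K.mul_mem h2 h1

/-- The normalised case. -/
lemma core_norm (hq3 : 3 ≤ q) (hC : CoreL hF hα K x) (h0 : ∀ a : F, EE (e := 2) hF α (a • x) 0 ∈ K) :
    ∃ z : Fin (2 + 2) → F, z ≠ 0 ∧ hermForm (2 + 2) F q z z = 0 ∧
      ∀ c : F, c + c ^ q = 0 → tau hF z c ∈ K := by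
  have hq0 : (0 : F) ^ q = 0 := zero_pow (by omega)
  have h1 : ∀ a : F, (0 : F) + (0 : F) ^ q = 0 := fun _ => by rw [hq0, add_zero]
  obtain ⟨f, hf⟩ := exists_f hF hα hC (φ := fun _ => 0) h1 h0
  obtain ⟨x₁, h11, h1x⟩ := exists_partner2 hF hC.hx0 hC.hx
  have hx1 : hermForm 2 F q x x₁ = 1 := by
    rw [← hermForm_conj hF x₁ x, h1x, one_pow]
  -- a general property of scalars
  have hinv : ∀ τ : F, τ ≠ 0 → τ ^ q = τ → ∀ β, β + β ^ q = 0 → f (τ * τ * β) = f β := by
    intro τ hτ0 hτ β hβ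
    obtain ⟨d, hd⟩ := exists_torus_plane hF hC.hx h11 hx1 hτ0 hτ
    have hdB : d ∈ (Bor x : Subgroup (SU 2 F q)) := ⟨τ, hτ0, hd⟩
    obtain ⟨w, ⟨u₁, s₁, h₁, rfl⟩, hw⟩ := hC.hB hdB
    have hrel := lift_rel hF hα hC (φ := fun _ => 0) h1 h0 h₁ hw hd
    obtain ⟨a₀, rfl⟩ := perp_of hF hC.hx0 hC.hx (u₀ := u₁) (fun a => by
      have h2 := hrel (a * τ⁻¹)
      rw [mul_assoc, inv_mul_cancel₀ hτ0, mul_one] at h2
      linear_combination -h2)
    obtain ⟨h3, h4⟩ := lift_central hF hα hC (φ := fun _ => 0) h1 h0 h₁ hw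
    simp only [sub_zero] at h3 h4
    have hβ' : τ * τ * β + (τ * τ * β) ^ q = 0 := by
      rw [mul_pow, mul_pow, hτ]
      linear_combination τ * τ * hβ
    obtain ⟨h5, h6⟩ := hf β hβ
    obtain ⟨h7, h8⟩ := hf _ hβ'
    have h9 := K.mul_mem (K.mul_mem h4 h6) (K.inv_mem h4)
    rw [center_conj hF hα h3 h5] at h9
    have h10 : d * tau hF x β * d⁻¹ = tau hF x (τ * τ * β) := by
      rw [conj_tau hF d hC.hx hβ, hd, tau_smul hF hC.hx hβ, hτ]
      group
    rw [h10] at h9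
    exact center_uniq hF hα hC.hZ h7 h5 h8 h9
  by_cases hq4 : 4 ≤ q
  · -- all central parts vanish
    obtain ⟨τ, hτ0, hτ, hττ⟩ := exists_tau_sq_ne hF hq4
    have hfz : ∀ β, β + β ^ q = 0 → f β = 0 := by
      intro β hβ
      have hs : τ * τ - 1 ≠ 0 := sub_ne_zero.2 hττ
      have hsq : (τ * τ - 1) ^ q = τ * τ - 1 := by
        rw [sub_pow_q hF, mul_pow, hτ, one_pow]
      set γ := (τ * τ - 1)⁻¹ * β with hγ
      have hγt : γ + γ ^ q = 0 := by
        rw [hγ, mul_pow, inv_pow, hsq]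
        linear_combination (τ * τ - 1)⁻¹ * hβ
      have hγ2 : τ * τ * γ + (τ * τ * γ) ^ q = 0 := by
        rw [mul_pow, mul_pow, hτ]
        linear_combination τ * τ * hγt
      have hγ3 : -γ + (-γ) ^ q = 0 := by
        rw [neg_pow_q hF]
        linear_combination -hγt
      have hβ2 : β = τ * τ * γ + -γ := by
        rw [hγ]
        have hthis := mul_inv_cancel₀ hs
        linear_combination (-β) * hthis
      have h2 := f_add hF hα hC hf hγ2 hγ3
      have h3 := f_add hF hα hC hf hγt hγ3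
      rw [add_neg_cancel] at h3
      have h4 := f_add hF hα hC hf (β := 0) (β' := 0) (by rw [hq0, add_zero]) (by rw [hq0, add_zero])
      rw [add_zero] at h4
      have h5 : f 0 = 0 := by linear_combination -h4
      rw [← hβ2, hinv τ hτ0 hτ γ hγt] at h2
      rw [h2]
      linear_combination -h3 + h5
    refine finish_tz hF hα hC h0 (κ := 0) hq0 ?_
    intro β hβ
    have := (hf β hβ).2
    rw [hfz β hβ] at this
    rwa [zero_mul]
  · -- the field with nine elements
    have hq3' : q = 3 := by omega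
    obtain ⟨β₀, hβ₀0, hβ₀⟩ := SUGen.exists_trace_zero hF
    have hβ₀q : β₀ ^ q = -β₀ := by linear_combination hβ₀
    have hfq := (hf β₀ hβ₀).1
    have h5 : f 0 = 0 := by
      have h4 := f_add hF hα hC hf (β := 0) (β' := 0) (by rw [hq0, add_zero]) (by rw [hq0, add_zero])
      rw [add_zero] at h4
      linear_combination -h4
    refine finish_tz hF hα hC h0 (κ := f β₀ * β₀⁻¹) ?_ ?_
    · rw [mul_pow, inv_pow, hβ₀q]
      have : f β₀ ^ q = - f β₀ := by linear_combination hfq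
      rw [this]
      field_simp
    · intro β hβ
      have hn : (β * β₀⁻¹) ^ q = β * β₀⁻¹ := by
        rw [mul_pow, inv_pow, hβ₀q]
        have : β ^ q = - β := by linear_combination hβ
        rw [this]
        field_simp
      rw [hq3'] at hn
      have hn3 : (β * β₀⁻¹) * ((β * β₀⁻¹) - 1) * ((β * β₀⁻¹) + 1) = 0 := by
        linear_combination hn
      have hfβ : f β = f β₀ * β₀⁻¹ * β := by
        rcases mul_eq_zero.1 hn3 with h6 | h6
        · rcases mul_eq_zero.1 h6 with h7 | h7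
          · have h8 : β = 0 := by
              rcases mul_eq_zero.1 h7 with h9 | h9
              · exact h9
              · exact absurd h9 (inv_ne_zero hβ₀0)
            rw [h8, h5, mul_zero]
          · have h8 : β = β₀ := by
              field_simp at h7
              linear_combination h7
            rw [h8]
            field_simp
        · have h8 : β = -β₀ := by
            field_simp at h6
            linear_combination h6
          have h9 := f_add hF hα hC hf (β := β₀) (β' := -β₀) hβ₀ (by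
            rw [neg_pow_q hF]; linear_combination -hβ₀)
          rw [add_neg_cancel, h5] at h9
          rw [h8]
          have h10 : f (-β₀) = - f β₀ := by linear_combination -h9
          rw [h10]
          field_simp
      have h6 := (hf β hβ).2
      rw [hfβ] at h6
      exact h6

end Core

section Transport

open Cfsg.Agent.Lib.PSU35A (cj mem_cj)

variable (hF : Fintype.card F = q ^ 2) {α : F} (hα : α ^ q * α = -1) {K : Subgroup (SU (e + 2) F q)}
include hF hα

/-- The central part commutes with `Q`. -/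
lemma center_comm_EE {c : F} (hc : c + c ^ q = 0) {y : Fin e → F} {s : F} (h : Gd q y s) :
    EE (e := e) hF α 0 c * EE hF α y s = EE hF α y s * EE (e := e) hF α 0 c := by
  rw [EE_zero_eq_tau hF hα]
  exact commute_tau hF (vE_iso hF hα) hc (good_of hα hF h)

lemma ZZ_cj {y : Fin e → F} {s : F} (h : Gd q y s) : ZZ hF hα (cj (EE hF α y s) K) = ZZ hF hα K := by
  ext c
  rw [mem_ZZ, mem_ZZ, mem_cj]
  constructor
  · rintro ⟨hc, hm⟩
    refine ⟨hc, ?_⟩
    have h1 : (EE hF α y s)⁻¹ * EE (e := e) hF α 0 c * EE hF α y s = EE (e := e) hF α 0 c := by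
      rw [mul_assoc, center_comm_EE hF hα hc h]
      group
    rwa [h1] at hm
  · rintro ⟨hc, hm⟩
    refine ⟨hc, ?_⟩
    have h1 : (EE hF α y s)⁻¹ * EE (e := e) hF α 0 c * EE hF α y s = EE (e := e) hF α 0 c := by
      rw [mul_assoc, center_comm_EE hF hα hc h]
      group
    rwa [h1]

lemma KK_le_cj {w : SU (e + 2) F q} (hw : w ∈ QQ hF hα e) : KK hF hα K ≤ KK hF hα (cj w K) := by
  rintro l ⟨u, hu, hm⟩
  refine ⟨w * u * (iota l * w⁻¹ * (iota l)⁻¹), (QQ hF hα e).mul_mem ((QQ hF hα e).mul_mem hw hu)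
    (hN_QQ hF hα l _ ((QQ hF hα e).inv_mem hw)), ?_⟩
  rw [mem_cj]
  have h1 : w⁻¹ * (w * u * (iota l * w⁻¹ * (iota l)⁻¹) * iota l) * w = u * iota l := by group
  rwa [h1]

/-- Pulling back a transvection group. -/
lemma tz_of_cj {w : SU (e + 2) F q} {z : Fin (e + 2) → F} (h0 : z ≠ 0)
    (hz : hermForm (e + 2) F q z z = 0) (ht : ∀ c : F, c + c ^ q = 0 → tau hF z c ∈ cj w K) :
    ∃ z' : Fin (e + 2) → F, z' ≠ 0 ∧ hermForm (e + 2) F q z' z' = 0 ∧
      ∀ c : F, c + c ^ q = 0 → tau hF z' c ∈ K := by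
  refine ⟨act w⁻¹ z, ?_, by rw [herm_act]; exact hz, ?_⟩
  · intro h
    apply h0
    have h1 : act w (act w⁻¹ z) = z := by rw [← act_mul, mul_inv_cancel, act_one]
    rw [h, act_zero] at h1
    exact h1.symm
  · intro c hc
    have h1 := ht c hc
    rw [mem_cj] at h1
    have h2 := conj_tau hF w⁻¹ hz hc
    have h3 : w⁻¹ * tau hF z c * w = tau hF (act w⁻¹ z) c := by
      rw [h2]
      group
    rwa [h3] at h1

end Transport

section CoreMain

open Cfsg.Agent.Lib.PSU35A (cj mem_cj)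

variable (hF : Fintype.card F = q ^ 2) {α : F} (hα : α ^ q * α = -1) {K : Subgroup (SU (2 + 2) F q)}
  {x : Fin 2 → F}
include hF hα

/-- The configuration contains a transvection group when `q ≥ 3`. -/
theorem core_tz3 (hq3 : 3 ≤ q) (hC : CoreL hF hα K x) :
    ∃ z : Fin (2 + 2) → F, z ≠ 0 ∧ hermForm (2 + 2) F q z z = 0 ∧
      ∀ c : F, c + c ^ q = 0 → tau hF z c ∈ K := by
  obtain ⟨φ, h1, h2⟩ := exists_phi hF hα hC
  have hadd := phi_add hF hα hC h1 h2
  obtain ⟨x₁, h11, h1x⟩ := exists_partner2 hF hC.hx0 hC.hx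
  have hx1 : hermForm 2 F q x x₁ = 1 := by
    rw [← hermForm_conj hF x₁ x, h1x, one_pow]
  obtain ⟨τ, hτ0, hτ, hτ1⟩ := exists_tau_ne hF hq3
  obtain ⟨d, hd⟩ := exists_torus_plane hF hC.hx h11 hx1 hτ0 hτ
  have hdB : d ∈ (Bor x : Subgroup (SU 2 F q)) := ⟨τ, hτ0, hd⟩
  obtain ⟨w, ⟨u₁, s₁, h₁, rfl⟩, hw⟩ := hC.hB hdB
  have hrel := lift_rel hF hα hC h1 h2 h₁ hw hd
  have hτ1' : τ - 1 ≠ 0 := sub_ne_zero.2 hτ1
  set μ : F := -τ * (τ - 1)⁻¹ with hμ
  have hμq : μ ^ q = μ := by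
    rw [hμ, mul_pow, neg_pow_q hF, hτ, inv_pow, sub_pow_q hF, hτ, one_pow]
  have hμe : μ * (τ - 1) = -τ := by
    rw [hμ, mul_assoc, inv_mul_cancel₀ hτ1', mul_one]
  set A := hermForm 2 F q u₁ x with hA
  set B := hermForm 2 F q x u₁ with hB
  have hCa : ∀ a : F, hermForm 2 F q u₁ (a • x) - hermForm 2 F q (a • x) u₁ = a ^ q * A - a * B := by
    intro a
    rw [hermForm_smul_left, hermForm_smul_right]
  -- the additive map
  have hψτ : ∀ a : F, φ (a * τ) + μ * ((a * τ) ^ q * A - (a * τ) * B) = φ a + μ * (a ^ q * A - a * B) := by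
    intro a
    have h3 := hrel a
    rw [hCa] at h3
    rw [h3, mul_pow, hτ]
    linear_combination (a ^ q * A - a * B) * (τ + hμe)
  have hψ0 : ∀ a : F, φ a + μ * (a ^ q * A - a * B) = 0 := by
    intro a
    set a' := a * (τ - 1)⁻¹ with ha'
    have h3 : a' * τ = a' + a := by
      rw [ha']
      have hthis := mul_inv_cancel₀ hτ1'
      linear_combination a * hthis
    have h4 := hψτ a'
    rw [h3, hadd, add_pow_q hF] at h4
    linear_combination h4
  -- the conjugating element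
  set y := μ • u₁ with hy
  obtain ⟨s, hs⟩ : ∃ s : F, s + s ^ q = - hermForm 2 F q y y :=
    exists_trace_eq hF (by rw [neg_pow_q hF, hermForm_conj hF])
  have hg : Gd q y s := by
    unfold Gd
    rw [hs]
    ring
  have hwQ : EE hF α y s ∈ QQ hF hα 2 := ⟨y, s, hg, rfl⟩
  have hq0 : (0 : F) ^ q = 0 := zero_pow (by omega)
  have hg0 : ∀ a : F, Gd q (a • x) (0 : F) := fun a => (Gd_ax hF hC.hx).2 (by rw [hq0, add_zero])
  have hmem : ∀ a : F, EE (e := 2) hF α (a • x) 0 ∈ cj (EE hF α y s) K := by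
    intro a
    rw [mem_cj]
    have hga : Gd q (a • x) (φ a) := (Gd_ax hF hC.hx).2 (h1 a)
    have h3 := EE_conj hF hα hg hga
    have h4 : (hermForm 2 F q y (a • x) - hermForm 2 F q (a • x) y) + φ a = 0 := by
      have h6 := hψ0 a
      rw [hy, hermForm_smul_left, hermForm_smul_right, hermForm_smul_left, hermForm_smul_right, hμq]
      linear_combination h6
    rw [h4] at h3
    rw [← h3]
    have h5 : (EE hF α y s)⁻¹ * (EE hF α y s * EE hF α (a • x) (φ a) * (EE hF α y s)⁻¹) * EE hF α y s =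
        EE hF α (a • x) (φ a) := by group
    rw [h5]
    exact h2 a
  have hC' : CoreL hF hα (cj (EE hF α y s) K) x :=
    ⟨hC.hx0, hC.hx, by rw [ZZ_cj hF hα hg]; exact hC.hZ, fun a => ⟨0, hg0 a, hmem a⟩,
      hC.hB.trans (KK_le_cj hF hα hwQ)⟩
  obtain ⟨z, hz0, hz, ht⟩ := core_norm hF hα hq3 hC' hmem
  exact tz_of_cj hF hα hz0 hz ht

/-- The configuration contains a transvection group when `q = 2`. -/
theorem core_tz2 (hq2 : q = 2) (hC : CoreL hF hα K x) :
    ∃ z : Fin (2 + 2) → F, z ≠ 0 ∧ hermForm (2 + 2) F q z z = 0 ∧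
      ∀ c : F, c + c ^ q = 0 → tau hF z c ∈ K := by
  subst hq2
  have h20 : (2 : F) = 0 := two_eq_zero_of_two hF rfl
  obtain ⟨φ, h1, h2⟩ := exists_phi hF hα hC
  have hadd := phi_add hF hα hC h1 h2
  obtain ⟨f, hf⟩ := exists_f hF hα hC h1 h2
  have hT : ∀ c : F, c + c ^ 2 = 0 → c = 0 ∨ c = 1 := by
    intro c hc
    have h3 : c * (c - 1) = 0 := by linear_combination hc - c * h20
    rcases mul_eq_zero.1 h3 with h4 | h4
    · exact Or.inl h4
    · exact Or.inr (sub_eq_zero.1 h4)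
  have h11 : (1 : F) + 1 ^ 2 = 0 := by linear_combination h20
  obtain ⟨hf1, hf1m⟩ := hf 1 h11
  have hφ0 : φ 0 = 0 := by
    have h3 := hadd 0 0
    rw [add_zero] at h3
    linear_combination -h3
  have hn3 : ∀ σ : F, σ ≠ 0 → σ * σ ^ 2 = 1 := by
    intro σ hσ0
    have h3 := FiniteField.pow_card_sub_one_eq_one σ hσ0
    rw [hF] at h3
    norm_num at h3
    linear_combination h3
  obtain ⟨σ, hσ⟩ : ∃ σ : F, φ σ + f 1 = σ * σ ^ 2 := by
    rcases hT _ hf1 with hf0 | hf0
    · refine ⟨0, ?_⟩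
      rw [hφ0, hf0]
      ring
    · rw [hf0]
      rcases hT _ (h1 1) with h3 | h3
      · refine ⟨1, ?_⟩
        rw [h3]
        ring
      · obtain ⟨a, ha⟩ := exists_frob_ne hF
        have ha0 : a ≠ 0 := by
          rintro rfl
          exact ha (by ring)
        have ha1 : 1 + a ≠ 0 := by
          intro h
          apply ha
          have h4 : a = 1 := by linear_combination h - h20
          rw [h4]
          ring
        rcases hT _ (h1 a) with h4 | h4
        · refine ⟨a, ?_⟩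
          rw [h4, hn3 a ha0]
          ring
        · refine ⟨1 + a, ?_⟩
          rw [hn3 _ ha1, hadd, h3, h4]
          linear_combination h20
  have hρq : (σ ^ 2) ^ 2 = σ := pow_pow_self hF σ
  have hz : hermForm (2 + 2) F 2 ((σ ^ 2) • vE α + inc x) ((σ ^ 2) • vE α + inc x) = 0 := by
    have hv := vE_iso (e := 2) hF hα
    have hX : hermForm (2 + 2) F 2 (inc x) (inc x) = 0 := by rw [herm_inc hF]; exact hC.hx
    have hXv := inc_vE (α := α) hF x
    have hvX : hermForm (2 + 2) F 2 (vE α) (inc x) = 0 := vE_inc hF x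
    simp only [hermForm_add_left, hermForm_add_right hF, hermForm_smul_left, hermForm_smul_right, hv, hX, hXv, hvX]
    ring
  obtain ⟨x₁, h11', h1x⟩ := exists_partner2 hF hC.hx0 hC.hx
  have hx1 : hermForm 2 F 2 x x₁ = 1 := by
    rw [← hermForm_conj hF x₁ x, h1x, one_pow]
  refine ⟨(σ ^ 2) • vE α + inc x, ?_, hz, ?_⟩
  · intro h
    have h2 := congrArg (fun y => hermForm (2 + 2) F 2 y (inc x₁)) h
    simp only [hermForm_add_left, hermForm_smul_left, vE_inc hF, herm_inc hF, hx1, hermForm_zero_left] at h2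
    have : (1 : F) = 0 := by simpa using h2
    exact one_ne_zero this
  · intro c hc
    rcases hT c hc with rfl | rfl
    · rw [tau_zero hF _ hz]
      exact K.one_mem
    · rw [tau_mixed hF hα hC.hx hc, hρq, one_mul, one_mul]
      have hgσ : Gd 2 (σ • x) (φ σ) := (Gd_ax hF hC.hx).2 (h1 σ)
      have hg0 : Gd 2 (σ • x) (0 : F) := (Gd_ax hF hC.hx).2 (by ring)
      have hs : (σ ^ 2 * σ) + (σ ^ 2 * σ) ^ 2 = 0 := by
        rw [mul_pow, hρq]
        linear_combination (σ ^ 2 * σ) * (0 : F) + (σ ^ 2 * σ) * (0 : F) + h20 * (σ ^ 2 * σ) + (σ * σ ^ 2 - σ ^ 2 * σ) * 0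
      have h3 := K.mul_mem (h2 σ) hf1m
      have h4 : EE (e := 2) hF α 0 (σ ^ 2 * σ) * (EE hF α (σ • x) 0 * iota (tau hF x 1)) =
          EE hF α (σ • x) (φ σ) * (EE (e := 2) hF α 0 (f 1) * iota (tau hF x 1)) := by
        rw [← mul_assoc, ← mul_assoc, EE_tau_mul hF hα hs hg0, ← center_comm_EE hF hα hf1 hgσ,
          EE_tau_mul hF hα hf1 hgσ]
        congr 2
        linear_combination -hσ
      rw [h4]
      exact h3

end CoreMain

end Cfsg.Agent.Lib.PSUIdx
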