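import Mathlib
import Cfsg.Agent.Lib.PSUIdxG

/-!
# Dimension four: `Y` spanning a rational form in characteristic two
-/

set_option autoImplicit false
set_option linter.unusedSectionVars false
set_option linter.unusedVariables false

namespace Cfsg.Agent.Lib.PSUIdx

open Matrix Cfsg Cfsg.Agent.Lib.HermForm Cfsg.Agent.Lib.FFNorm Cfsg.Agent.Lib.UnitaryE
  Cfsg.Agent.Lib.UnitarySU Cfsg.Agent.Lib.SUMinDeg
open Cfsg.Agent.Lib.PSU35A (cj mem_cj)
open scoped Pointwise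

variable {F : Type*} [Field F] [Fintype F] {q n e : ℕ}

section CjGen

variable {G : Type*} [Group G] [Finite G]

lemma cj_mul' (a b : G) (K : Subgroup G) : cj (a * b) K = cj a (cj b K) := by
  ext x
  rw [mem_cj, mem_cj, mem_cj]
  have : (a * b)⁻¹ * x * (a * b) = b⁻¹ * (a⁻¹ * x * a) * b := by group
  rw [this]

lemma cj_self' {K : Subgroup G} {h : G} (hh : h ∈ K) : cj h K = K := by
  ext x
  rw [mem_cj]
  constructor
  · intro hx
    have := K.mul_mem (K.mul_mem hh hx) (K.inv_mem hh)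
    convert this using 1
    group
  · intro hx
    exact K.mul_mem (K.mul_mem (K.inv_mem hh) hx) hh

lemma mem_cj_of {K : Subgroup G} {g k : G} (hk : k ∈ K) : g * k * g⁻¹ ∈ cj g K := by
  rw [mem_cj]
  have : g⁻¹ * (g * k * g⁻¹) * g = k := by group
  rwa [this]

end CjGen

section Scale

variable (hF : Fintype.card F = q ^ 2) {α : F} (hα : α ^ q * α = -1) {K : Subgroup (SU (e + 2) F q)}

/-- Elements scaling `v` and the orthogonal part. -/
structure IsScale (α : F) (X : SU (e + 2) F q) (a b : F) : Prop where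
  a0 : a ≠ 0
  b0 : b ≠ 0
  hb : b * b ^ q = 1
  hv : act X (vE α) = a • vE α
  hi : ∀ u : Fin e → F, act X (inc u) = inc (b • u)

lemma IsScale.inv {X : SU (e + 2) F q} {a b : F} (h : IsScale α X a b) : IsScale α X⁻¹ a⁻¹ b⁻¹ := by
  refine ⟨inv_ne_zero h.a0, inv_ne_zero h.b0, ?_, ?_, ?_⟩
  · rw [inv_pow, ← mul_inv, h.hb, inv_one]
  · have h1 : act X⁻¹ (act X (vE α)) = vE α := by rw [← act_mul, inv_mul_cancel, act_one]
    rw [h.hv, act_smul] at h1
    rw [← h1, smul_smul, inv_mul_cancel₀ h.a0, one_smul, h1]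
  · intro u
    have h1 : act X⁻¹ (act X (inc (b⁻¹ • u))) = inc (b⁻¹ • u) := by rw [← act_mul, inv_mul_cancel, act_one]
    rw [h.hi, smul_smul, mul_inv_cancel₀ h.b0, one_smul] at h1
    exact h1

lemma IsScale.mul {X X' : SU (e + 2) F q} {a b a' b' : F} (h : IsScale α X a b) (h' : IsScale α X' a' b') :
    IsScale α (X * X') (a * a') (b * b') := by
  refine ⟨mul_ne_zero h.a0 h'.a0, mul_ne_zero h.b0 h'.b0, ?_, ?_, ?_⟩
  · rw [mul_pow]
    linear_combination (b' * b' ^ q) * h.hb + h'.hb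
  · rw [act_mul, h'.hv, act_smul, h.hv, smul_smul, mul_comm a']
  · intro u
    rw [act_mul, h'.hi, h.hi, smul_smul]

include hF

/-- Scaling the centre of a root element. -/
lemma mkE_smul {v y : Fin n → F} {s a : F} (ha : a ≠ 0) (h : Good q (a • v) y s) :
    mkE hF (a • v) y s = mkE hF v (a ^ q • y) (a * a ^ q * s) := by
  have hvv : hermForm n F q v v = 0 := by
    have := h.1
    rw [hermForm_smul_left, hermForm_smul_right] at this
    exact (mul_eq_zero.1 ((mul_eq_zero.1 this).resolve_left ha)).resolve_left (pow_ne_zero _ ha)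
  have hyv : hermForm n F q y v = 0 := by
    have := h.2.1
    rw [hermForm_smul_right] at this
    exact (mul_eq_zero.1 this).resolve_left (pow_ne_zero _ ha)
  have h2 : Good q v (a ^ q • y) (a * a ^ q * s) := by
    refine ⟨hvv, ?_, ?_⟩
    · rw [hermForm_smul_left, hyv, mul_zero]
    · have := h.2.2
      rw [hermForm_smul_left, hermForm_smul_right, mul_pow, mul_pow, pow_pow_self hF]
      linear_combination (a * a ^ q) * this
  apply ext_act
  intro x
  rw [act_mkE hF h, act_mkE hF h2]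
  simp only [hermForm_smul_right, pow_pow_self hF, smul_add, smul_smul]
  module

lemma Gd_scale {u : Fin e → F} {s a b : F} (hb : b * b ^ q = 1) (h : Gd q u s) :
    Gd q ((a ^ q * b) • u) (a * a ^ q * s) := by
  unfold Gd at *
  rw [hermForm_smul_left, hermForm_smul_right, mul_pow, mul_pow, mul_pow, pow_pow_self hF]
  linear_combination (a * a ^ q) * h + (a * a ^ q * hermForm e F q u u) * hb

include hα

/-- Conjugation by a scaling element. -/
lemma conj_scale {X : SU (e + 2) F q} {a b : F} (hX : IsScale α X a b) {u : Fin e → F} {s : F} (h : Gd q u s) :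
    X * EE hF α u s * X⁻¹ = EE hF α ((a ^ q * b) • u) (a * a ^ q * s) := by
  have h1 := conj_mkE hF X (good_of hα hF h)
  have hg : Good q (act X (vE α)) (act X (inc u)) s := by
    have h3 := good_of hα hF h
    refine ⟨by rw [herm_act]; exact h3.1, by rw [herm_act]; exact h3.2.1, by rw [herm_act]; exact h3.2.2⟩
  unfold EE
  rw [h1, mul_inv_cancel_right]
  rw [hX.hv, hX.hi] at hg ⊢
  rw [mkE_smul hF hX.a0 hg, inc_smul, inc_smul, smul_smul]

lemma YY_cj_Q {w : SU (e + 2) F q} (hw : w ∈ QQ hF hα e) {u : Fin e → F} (hu : u ∈ YY hF hα K) :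
    u ∈ YY hF hα (cj w K) := by
  obtain ⟨s, h, hm⟩ := hu
  obtain ⟨y, s₀, h₀, rfl⟩ := hw
  have h1 := mem_cj_of (g := EE hF α y s₀) hm
  rw [EE_conj hF hα h₀ h] at h1
  exact ⟨_, Gd_trace hF (trace_zero_kappa hF _ _) h, h1⟩

lemma ZZ_cj_Q {w : SU (e + 2) F q} (hw : w ∈ QQ hF hα e) {c : F} (hc : c ∈ ZZ hF hα K) :
    c ∈ ZZ hF hα (cj w K) := by
  obtain ⟨y, s₀, h₀, rfl⟩ := hw
  rw [ZZ_cj hF hα h₀]
  exact hc

lemma YY_cj_iota (l : SU e F q) {u : Fin e → F} (hu : u ∈ YY hF hα K) :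
    act l u ∈ YY hF hα (cj (iota l) K) := by
  obtain ⟨s, h, hm⟩ := hu
  have h1 := mem_cj_of (g := iota l) hm
  rw [iota_conj hF hα l h] at h1
  exact ⟨_, Gd_act l h, h1⟩

lemma ZZ_cj_iota (l : SU e F q) {c : F} (hc : c ∈ ZZ hF hα K) : c ∈ ZZ hF hα (cj (iota l) K) := by
  obtain ⟨h, hm⟩ := hc
  have h1 := mem_cj_of (g := iota l) hm
  rw [iota_conj hF hα l (Gd_zero hF h), act_zero] at h1
  exact ⟨h, h1⟩

lemma YY_cj_scale {X : SU (e + 2) F q} {a b : F} (hX : IsScale α X a b) {u : Fin e → F} (hu : u ∈ YY hF hα K) :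
    (a ^ q * b) • u ∈ YY hF hα (cj X K) := by
  obtain ⟨s, h, hm⟩ := hu
  have h1 := mem_cj_of (g := X) hm
  rw [conj_scale hF hα hX h] at h1
  exact ⟨_, Gd_scale hF hX.hb h, h1⟩

lemma ZZ_cj_scale {X : SU (e + 2) F q} {a b : F} (hX : IsScale α X a b) {c : F} (hc : c ∈ ZZ hF hα K) :
    a * a ^ q * c ∈ ZZ hF hα (cj X K) := by
  obtain ⟨h, hm⟩ := hc
  have hg := Gd_zero (e := e) hF h
  have h1 := mem_cj_of (g := X) hm
  rw [conj_scale hF hα hX hg, smul_zero] at h1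
  have hN : (a * a ^ q) ^ q = a * a ^ q := by
    rw [mul_pow, pow_pow_self hF]; ring
  refine ⟨?_, h1⟩
  rw [mul_pow, hN]
  linear_combination (a * a ^ q) * h

/-- Consequences of the equality of two cosets. -/
lemma coset_scale {X X' : SU (e + 2) F q} {a b a' b' : F} {l l' : SU e F q} {y y' : SU (e + 2) F q}
    (hX : IsScale α X a b) (hX' : IsScale α X' a' b') (hy : y ∈ QQ hF hα e) (hy' : y' ∈ QQ hF hα e)
    (h : (X * (iota l * y))⁻¹ * (X' * (iota l' * y')) ∈ K) :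
    (∀ c ∈ ZZ hF hα K, a⁻¹ * (a⁻¹) ^ q * (a' * a' ^ q * c) ∈ ZZ hF hα K) ∧
    (∀ u ∈ YY hF hα K, act l⁻¹ (((a⁻¹) ^ q * b⁻¹) • ((a' ^ q * b') • act l' u)) ∈ YY hF hα K) := by
  have hK := cj_self' h
  have hdec : (X * (iota l * y))⁻¹ * (X' * (iota l' * y')) =
      y⁻¹ * (iota l⁻¹ * (X⁻¹ * (X' * (iota l' * y')))) := by
    simp only [map_inv]
    group
  rw [hdec, cj_mul', cj_mul', cj_mul', cj_mul', cj_mul'] at hK
  have hyi := (QQ hF hα e).inv_mem hy
  constructor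
  · intro c hc
    have := ZZ_cj_Q hF hα hyi (ZZ_cj_iota hF hα l⁻¹ (ZZ_cj_scale hF hα hX.inv
      (ZZ_cj_scale hF hα hX' (ZZ_cj_iota hF hα l' (ZZ_cj_Q hF hα hy' hc)))))
    rwa [hK] at this
  · intro u hu
    have := YY_cj_Q hF hα hyi (YY_cj_iota hF hα l⁻¹ (YY_cj_scale hF hα hX.inv
      (YY_cj_scale hF hα hX' (YY_cj_iota hF hα l' (YY_cj_Q hF hα hy' hu)))))
    rwa [hK] at this

end Scale

section Plane

variable (hF : Fintype.card F = q ^ 2)

/-- The determinant form on the plane. -/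
def DD2 (u u' : Fin 2 → F) : F := u 0 * u' 1 - u 1 * u' 0

lemma DD2_act (l : SU 2 F q) (u u' : Fin 2 → F) : DD2 (act l u) (act l u') = DD2 u u' := by
  have h := l.1.2
  rw [Matrix.det_fin_two] at h
  unfold DD2 act
  simp only [Matrix.mulVec, dotProduct, Fin.sum_univ_two]
  linear_combination (u 0 * u' 1 - u 1 * u' 0) * h

lemma DD2_smul (a : F) (u u' : Fin 2 → F) : DD2 (a • u) (a • u') = a * a * DD2 u u' := by
  simp only [DD2, Pi.smul_apply, smul_eq_mul]
  ring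

lemma DD2_comb (a b a' b' : F) (y₁ y₂ : Fin 2 → F) :
    DD2 (a • y₁ + b • y₂) (a' • y₁ + b' • y₂) = (a * b' - b * a') * DD2 y₁ y₂ := by
  simp only [DD2, Pi.add_apply, Pi.smul_apply, smul_eq_mul]
  ring

include hF

lemma DD2_ne {y₁ y₂ : Fin 2 → F} (h11 : hermForm 2 F q y₁ y₁ = 0) (h12 : hermForm 2 F q y₁ y₂ ≠ 0) :
    DD2 y₁ y₂ ≠ 0 := by
  intro h0
  unfold DD2 at h0
  have hy0 : y₁ ≠ 0 := by
    rintro rfl
    exact h12 (hermForm_zero_left _)
  by_cases h1 : y₁ 0 = 0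
  · have h2 : y₁ 1 ≠ 0 := by
      intro h2
      apply hy0
      ext i
      fin_cases i
      · exact h1
      · exact h2
    have h3 : y₂ = (y₂ 1 / y₁ 1) • y₁ := by
      ext i
      fin_cases i
      · simp only [Pi.smul_apply, smul_eq_mul, Fin.zero_eta, h1, mul_zero]
        have : y₁ 1 * y₂ 0 = 0 := by rw [h1] at h0; linear_combination -h0
        exact (mul_eq_zero.1 this).resolve_left h2
      · simp only [Pi.smul_apply, smul_eq_mul, Fin.mk_one]
        field_simp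
    rw [h3, hermForm_smul_right, h11, mul_zero] at h12
    exact h12 rfl
  · have h3 : y₂ = (y₂ 0 / y₁ 0) • y₁ := by
      ext i
      fin_cases i
      · simp only [Pi.smul_apply, smul_eq_mul, Fin.zero_eta]
        field_simp
      · simp only [Pi.smul_apply, smul_eq_mul, Fin.mk_one]
        field_simp
        linear_combination h0
    rw [h3, hermForm_smul_right, h11, mul_zero] at h12
    exact h12 rfl

/-- The scalar stabilising a rational form up to isometry. -/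
lemma sigma_one {y₁ y₂ : Fin 2 → F} {g : F} (h11 : hermForm 2 F q y₁ y₁ = 0) (h22 : hermForm 2 F q y₂ y₂ = 0)
    (h12 : hermForm 2 F q y₁ y₂ = g) (hg0 : g ≠ 0) (hg : g + g ^ q = 0) {l : SU 2 F q} {σ : F}
    (hσ : σ * σ ^ q = 1) (h₁ : σ • act l y₁ ∈ WW hF y₁ y₂) (h₂ : σ • act l y₂ ∈ WW hF y₁ y₂) :
    σ * σ = 1 := by
  have hgq : g ^ q = -g := by linear_combination hg
  have h21 : hermForm 2 F q y₂ y₁ = -g := by
    rw [← hermForm_conj hF y₁ y₂, h12, hgq]
  obtain ⟨a, b, ha, hb, e1⟩ := h₁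
  obtain ⟨a', b', ha', hb', e2⟩ := h₂
  have hH : hermForm 2 F q (σ • act l y₁) (σ • act l y₂) = g := by
    rw [hermForm_smul_left, hermForm_smul_right, herm_act, h12]
    linear_combination g * hσ
  rw [e1, e2] at hH
  simp only [hermForm_add_left, hermForm_add_right hF, hermForm_smul_left, hermForm_smul_right, h11, h22, h12, h21,
    ha', hb'] at hH
  have hdet : a * b' - b * a' = 1 := by
    have : (a * b' - b * a' - 1) * g = 0 := by linear_combination hH
    exact sub_eq_zero.1 ((mul_eq_zero.1 this).resolve_right hg0)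
  have hD : DD2 (σ • act l y₁) (σ • act l y₂) = σ * σ * DD2 y₁ y₂ := by
    rw [DD2_smul, DD2_act]
  rw [e1, e2, DD2_comb, hdet, one_mul] at hD
  have hne : DD2 y₁ y₂ ≠ 0 := DD2_ne hF h11 (by rw [h12]; exact hg0)
  have : (σ * σ - 1) * DD2 y₁ y₂ = 0 := by linear_combination -hD
  exact sub_eq_zero.1 ((mul_eq_zero.1 this).resolve_right hne)

end Plane

section Family

variable (hF : Fintype.card F = q ^ 2) {α : F} (hα : α ^ q * α = -1) {K : Subgroup (SU (2 + 2) F q)}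
include hF

/-- Square roots in the subfield. -/
lemma exists_sqrt_even (h2 : (2 : F) = 0) (t : FqU hF) : ∃ m : F, m ≠ 0 ∧ m ^ q = m ∧ m * m = ((t.1 : Fˣ) : F) := by
  have hinj : Function.Injective (fun m : FqU hF => m * m) := by
    intro m m' h
    have h1 : ((m.1 : Fˣ) : F) * ((m.1 : Fˣ) : F) = ((m'.1 : Fˣ) : F) * ((m'.1 : Fˣ) : F) :=
      congrArg (fun x : FqU hF => ((x.1 : Fˣ) : F)) h
    apply Subtype.ext
    apply Units.ext
    have h3 : (((m.1 : Fˣ) : F) - ((m'.1 : Fˣ) : F)) * (((m.1 : Fˣ) : F) - ((m'.1 : Fˣ) : F)) = 0 := by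
      linear_combination h1 + (((m'.1 : Fˣ) : F) * ((m'.1 : Fˣ) : F) - ((m.1 : Fˣ) : F) * ((m'.1 : Fˣ) : F)) * h2
    exact sub_eq_zero.1 (mul_self_eq_zero.1 h3)
  obtain ⟨m, hm⟩ := (Finite.injective_iff_surjective.1 hinj) t
  refine ⟨((m.1 : Fˣ) : F), Units.ne_zero _, m.2, ?_⟩
  rw [← hm]
  rfl

/-- A diagonal element of norm one. -/
lemma exists_DD {ξ : F} (hξ : ξ ≠ 0) (hn : ξ * ξ ^ q = 1) :
    ∃ D : SU (2 + 2) F q, IsScale α D ξ ξ⁻¹ := by
  have hn' : ξ⁻¹ * (ξ⁻¹) ^ q = 1 := by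
    rw [inv_pow, ← mul_inv, hn, inv_one]
  have hdet : (Matrix.diagonal ![ξ, ξ, ξ⁻¹, ξ⁻¹] : Matrix (Fin (2 + 2)) (Fin (2 + 2)) F).det = 1 := by
    rw [Matrix.det_diagonal]
    simp [Fin.prod_univ_succ]
    field_simp
  have hun : ∀ i, Cfsg.Agent.Lib.HermCount.nrm q ((![ξ, ξ, ξ⁻¹, ξ⁻¹] : Fin (2 + 2) → F) i) = 1 := by
    intro i
    fin_cases i
    · exact hn
    · exact hn
    · exact hn'
    · exact hn'
  refine ⟨SUofMatrix _ hdet (diagonal_unitary hun), hξ, inv_ne_zero hξ, hn', ?_, ?_⟩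
  · change Matrix.diagonal ![ξ, ξ, ξ⁻¹, ξ⁻¹] *ᵥ vE α = ξ • vE α
    funext i
    rw [Matrix.mulVec_diagonal]
    have h0 := vE_zero (e := 2) (α := α)
    have h1 := vE_one (e := 2) (α := α)
    fin_cases i
    · simp [h0]
    · simp [h1]
    · have : vE (e := 2) α 2 = 0 := by simp [vE, vv, Pi.single_apply]
      simp [this]
    · have : vE (e := 2) α 3 = 0 := by simp [vE, vv, Pi.single_apply]
      simp [this]
  · intro u
    change Matrix.diagonal ![ξ, ξ, ξ⁻¹, ξ⁻¹] *ᵥ inc u = inc (ξ⁻¹ • u)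
    funext i
    rw [Matrix.mulVec_diagonal]
    fin_cases i
    · simp [inc]
    · simp [inc]
    · rfl
    · rfl

include hα

/-- A scaling element with rational factor. -/
lemma exists_AA {m : F} (hm : m ≠ 0) (hmq : m ^ q = m) :
    ∃ A : SU (2 + 2) F q, IsScale α A m 1 := by
  obtain ⟨b, hb⟩ : ∃ b : F, b + b ^ q = -1 :=
    exists_trace_eq hF (t := -1) (by rw [neg_pow_q hF, one_pow])
  obtain ⟨κ, -, h1, h2⟩ := SUGen.exists_kappa hF (vE_iso (e := 2) hF hα) (wE_iso hF hα hb)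
    (wE_vE hF hα) hm hmq
  refine ⟨κ, hm, one_ne_zero, by rw [one_pow, one_mul], h1, ?_⟩
  intro u
  rw [one_smul]
  exact h2 _ (inc_vE hF u) (inc_wE hF u)

/-- The master inequality with the torus family in characteristic two. -/
theorem mi_even {y₁ y₂ : Fin 2 → F} {g : F} (hT : T2 hF hα K y₁ y₂ g) (h2 : (2 : F) = 0) :
    Nat.card (MulAction.orbit (FqU hF) (ZZ hF hα K)) * (q + 1) *
      ((KK hF hα K).index * (K.subgroupOf (QQ hF hα 2)).index) ≤ K.index := by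
  classical
  have hch : ∀ j : MulAction.orbit (FqU hF) (ZZ hF hα K),
      ∃ (t : FqU hF) (m : F) (A : SU (2 + 2) F q), t • ZZ hF hα K = j.1 ∧ m ≠ 0 ∧ m ^ q = m ∧
        m * m = ((t.1 : Fˣ) : F) ∧ IsScale α A m 1 := by
    rintro ⟨_, t, rfl⟩
    obtain ⟨m, hm, hmq, hmm⟩ := exists_sqrt_even hF h2 t
    obtain ⟨A, hA⟩ := exists_AA hF hα hm hmq
    exact ⟨t, m, A, rfl, hm, hmq, hmm, hA⟩
  choose T M A hT' hM0 hMq hMM hA using hch
  have hDch : ∀ ξ : {u : Fˣ // Cfsg.Agent.Lib.HermCount.nrm q (u : F) = 1},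
      ∃ D : SU (2 + 2) F q, IsScale α D ((ξ.1 : Fˣ) : F) ((ξ.1 : Fˣ) : F)⁻¹ :=
    fun ξ => exists_DD hF (Units.ne_zero _) ξ.2
  choose D hD using hDch
  have hcard : Nat.card (MulAction.orbit (FqU hF) (ZZ hF hα K) ×
      {u : Fˣ // Cfsg.Agent.Lib.HermCount.nrm q (u : F) = 1}) =
      Nat.card (MulAction.orbit (FqU hF) (ZZ hF hα K)) * (q + 1) := by
    rw [Nat.card_prod, card_units_nrm_one hF]
  rw [← hcard]
  apply mi_families (hN_QQ hF hα) (fun j => A j.1 * D j.2)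
  rintro ⟨j, ξ⟩ ⟨j', ξ'⟩ l l' y y' hy hy' h
  rw [QuotientGroup.eq] at h
  have hX := (hA j).mul (hD ξ)
  have hX' := (hA j').mul (hD ξ')
  have hhinv : (A j' * D ξ' * (iota l' * y'))⁻¹ * (A j * D ξ * (iota l * y)) ∈ K := by
    have := K.inv_mem h
    convert this using 1
    group
  obtain ⟨hZ1, hY1⟩ := coset_scale hF hα hX hX' hy hy' h
  obtain ⟨hZ2, -⟩ := coset_scale hF hα hX' hX hy' hy hhinv
  set x : F := ((ξ.1 : Fˣ) : F) with hx
  set x' : F := ((ξ'.1 : Fˣ) : F) with hx'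
  have hx0 : x ≠ 0 := Units.ne_zero _
  have hx'0 : x' ≠ 0 := Units.ne_zero _
  have hxn : x * x ^ q = 1 := ξ.2
  have hxn' : x' * x' ^ q = 1 := ξ'.2
  set m := M j with hm
  set m' := M j' with hm'
  have hm0 : m ≠ 0 := hM0 j
  have hm'0 : m' ≠ 0 := hM0 j'
  have hmq : m ^ q = m := hMq j
  have hm'q : m' ^ q = m' := hMq j'
  have hN : (m * x) * (m * x) ^ q = ((T j).1 : Fˣ) := by
    rw [mul_pow, hmq, ← hMM j]
    linear_combination (m * m) * hxn
  have hN' : (m' * x') * (m' * x') ^ q = ((T j').1 : Fˣ) := by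
    rw [mul_pow, hm'q, ← hMM j']
    linear_combination (m' * m') * hxn'
  have hNi : ∀ w : F, (w * w ^ q) ≠ 0 → w⁻¹ * (w⁻¹) ^ q = (w * w ^ q)⁻¹ := by
    intro w _
    rw [inv_pow, mul_inv]
  have hne : ∀ {w : F}, w ≠ 0 → w * w ^ q ≠ 0 := fun hw => mul_ne_zero hw (pow_ne_zero _ hw)
  -- the `Z`-part
  have hjj : j = j' := by
    apply Subtype.ext
    rw [← hT' j, ← hT' j']
    set t := (T j) with ht
    set t' := (T j') with ht'
    have ht0 : ((t.1 : Fˣ) : F) ≠ 0 := Units.ne_zero _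
    have ht'0 : ((t'.1 : Fˣ) : F) ≠ 0 := Units.ne_zero _
    have hz1 : ∀ c ∈ ZZ hF hα K, ((t.1 : Fˣ) : F)⁻¹ * (((t'.1 : Fˣ) : F) * c) ∈ ZZ hF hα K := by
      intro c hc
      have := hZ1 c hc
      rwa [hNi _ (hne (mul_ne_zero hm0 hx0)), hN, hN'] at this
    have hz2 : ∀ c ∈ ZZ hF hα K, ((t'.1 : Fˣ) : F)⁻¹ * (((t.1 : Fˣ) : F) * c) ∈ ZZ hF hα K := by
      intro c hc
      have := hZ2 c hc
      rwa [hNi _ (hne (mul_ne_zero hm'0 hx'0)), hN, hN'] at this
    have hsm : ∀ (s : FqU hF) (c : F), s • c = ((s.1 : Fˣ) : F) * c := fun _ _ => rfl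
    have hsmi : ∀ (s : FqU hF) (c : F), s⁻¹ • c = ((s.1 : Fˣ) : F)⁻¹ * c := by
      intro s c
      show (((s⁻¹ : FqU hF).1 : Fˣ) : F) * c = _
      simp
    ext c
    constructor
    · intro hc
      obtain ⟨z, hz, rfl⟩ := (AddSubgroup.mem_smul_pointwise_iff_exists _ _ _).1 hc
      refine (AddSubgroup.mem_smul_pointwise_iff_exists _ _ _).2 ⟨_, hz2 z hz, ?_⟩
      rw [hsm, hsm]
      field_simp
    · intro hc
      obtain ⟨z, hz, rfl⟩ := (AddSubgroup.mem_smul_pointwise_iff_exists _ _ _).1 hc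
      refine (AddSubgroup.mem_smul_pointwise_iff_exists _ _ _).2 ⟨_, hz1 z hz, ?_⟩
      rw [hsm, hsm]
      field_simp
  subst hjj
  -- the `Y`-part
  refine Prod.ext rfl ?_
  have hxq : x ^ q = x⁻¹ := by
    field_simp
    linear_combination hxn
  have hx'q : x' ^ q = x'⁻¹ := by
    field_simp
    linear_combination hxn'
  set σ : F := x * x * (x'⁻¹ * x'⁻¹) with hσ
  have hY2 : ∀ u ∈ YY hF hα K, σ • act (l⁻¹ * l') u ∈ YY hF hα K := by
    intro u hu
    have h3 := hY1 u hu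
    rw [act_smul, act_smul, smul_smul, ← act_mul] at h3
    convert h3 using 2
    have hmm : m' = m := rfl
    rw [hmm, hσ, inv_pow, mul_pow, mul_pow, hmq, hxq, hx'q]
    field_simp
  have hσn : σ * σ ^ q = 1 := by
    rw [hσ, mul_pow, mul_pow, mul_pow, inv_pow, hxq, hx'q]
    field_simp
  have h5 := sigma_one hF hT.h11 hT.h22 hT.h12 hT.hg0 hT.hg hσn (hT.hle (hY2 _ hT.m1)) (hT.hle (hY2 _ hT.m2))
  have h6 : (σ - 1) * (σ - 1) = 0 := by
    linear_combination h5 + (1 - σ) * h2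
  have h7 : σ = 1 := sub_eq_zero.1 (mul_self_eq_zero.1 h6)
  have h8 : x * x = x' * x' := by
    rw [hσ] at h7
    field_simp at h7
    linear_combination h7
  have h9 : (x - x') * (x - x') = 0 := by
    linear_combination h8 + (x' * x' - x * x') * h2
  have h10 : x = x' := sub_eq_zero.1 (mul_self_eq_zero.1 h9)
  apply Subtype.ext
  apply Units.ext
  exact h10

/-- The numerical consequences. -/
theorem span_even {c : F} (hc : c + c ^ q = 0) (hcK : EE (e := 2) hF α 0 c ∉ K) {y₁ y₂ : Fin 2 → F} {g : F}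
    (hT : T2 hF hα K y₁ y₂ g) (h2 : (2 : F) = 0) :
    (q + 1) * (q ^ 3 + 1) ≤ K.index ∨
      (ZZ hF hα K = ⊥ ∧ KK hF hα K = ⊤ ∧ WW hF y₁ y₂ ≤ YY hF hα K) := by
  classical
  have hq := two_le hF
  have H1 := mi_even hF hα hT h2
  have H2 := index_ineq hF hα (K := K) (e := 2)
  set k := Nat.card (MulAction.orbit (FqU hF) (ZZ hF hα K)) with hk
  set i := (KK hF hα K).index with hi
  set t := (K.subgroupOf (QQ hF hα 2)).index with ht
  set r := Nat.card (YY hF hα K) with hr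
  set z := Nat.card (ZZ hF hα K) with hz
  set m := K.index with hm
  have hW := card_WW_le hF y₁ y₂
  have hYW : r ≤ Nat.card (WW hF y₁ y₂) := by
    have h3 : YY hF hα K ≤ WW hF y₁ y₂ := hT.hle
    exact Nat.card_le_card_of_injective (AddSubgroup.inclusion h3) (AddSubgroup.inclusion_injective h3)
  have hrq : r ≤ q ^ 2 := hYW.trans hW
  have hz1 : 1 ≤ z := Nat.card_pos
  have hi1 : 1 ≤ i := Nat.pos_of_ne_zero Subgroup.index_ne_zero_of_finite
  have hk1 : 1 ≤ k := by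
    haveI : Nonempty (MulAction.orbit (FqU hF) (ZZ hF hα K)) := ⟨⟨_, MulAction.mem_orbit_self _⟩⟩
    exact Nat.card_pos
  have H3 : (q ^ 5 * (q + 1)) * k * i ≤ m * (r * z) := by
    calc (q ^ 5 * (q + 1)) * k * i = (q ^ 2) ^ 2 * q * (k * (q + 1) * i) := by ring
      _ ≤ (t * (r * z)) * (k * (q + 1) * i) := Nat.mul_le_mul_right _ H2
      _ = (k * (q + 1) * (i * t)) * (r * z) := by ring
      _ ≤ m * (r * z) := Nat.mul_le_mul_right _ H1
  have hq0 : 0 < q := by omega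
  have h13 : 1 ≤ q ^ 3 := Nat.one_le_pow _ _ hq0
  have hN2 : (q + 1) * (q ^ 3 + 1) ≤ q ^ 3 * (2 * (q + 1)) := by nlinarith
  by_cases hZ1 : z = 1
  · have hZb : ZZ hF hα K = ⊥ := by
      rw [← AddSubgroup.card_eq_one]
      exact hZ1
    have hG1 := G1_of (q := q) hq0 hk1 hz1 H3 (Or.inl hZ1)
    by_cases hi2 : i = 1
    · have hKKt : KK hF hα K = ⊤ := Subgroup.index_eq_one.1 hi2
      by_cases hWY : WW hF y₁ y₂ ≤ YY hF hα K
      · exact Or.inr ⟨hZb, hKKt, hWY⟩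
      · left
        have hne : (YY hF hα K).addSubgroupOf (WW hF y₁ y₂) ≠ ⊤ := by
          intro h
          apply hWY
          rw [AddSubgroup.addSubgroupOf_eq_top] at h
          exact h
        have h3 := two_mul_card_le hne
        have h4 : Nat.card ((YY hF hα K).addSubgroupOf (WW hF y₁ y₂)) = r :=
          Nat.card_congr (AddSubgroup.addSubgroupOfEquivOfLe hT.hle).toEquiv
        rw [h4] at h3
        have h5 : q ^ 3 * (2 * (q + 1)) * q ^ 2 ≤ m * q ^ 2 := by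
          calc _ = 2 * (q ^ 5 * (q + 1) * 1) := by ring
            _ ≤ 2 * (q ^ 5 * (q + 1) * i) := by gcongr
            _ ≤ 2 * (m * r) := Nat.mul_le_mul_left _ hG1
            _ = m * (2 * r) := by ring
            _ ≤ m * q ^ 2 := Nat.mul_le_mul_left _ (h3.trans hW)
        exact hN2.trans (Nat.le_of_mul_le_mul_right h5 (by positivity))
    · left
      have hi3 : 2 ≤ i := by omega
      have h5 : q ^ 3 * (2 * (q + 1)) * q ^ 2 ≤ m * q ^ 2 := by
        calc _ = q ^ 5 * (q + 1) * 2 := by ring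
          _ ≤ q ^ 5 * (q + 1) * i := by gcongr
          _ ≤ m * r := hG1
          _ ≤ m * q ^ 2 := Nat.mul_le_mul_left _ hrq
      exact hN2.trans (Nat.le_of_mul_le_mul_right h5 (by positivity))
  · left
    have hZ0 : ZZ hF hα K ≠ ⊥ := by
      intro h
      apply hZ1
      rw [hz, h]
      simp
    have hk' := orbit_ge hF hα K hZ0 hc hcK
    have hG2 := G2_of hz1 H3 hk'
    have h5 : q ^ 2 * (q + 1) * (q + 2) * (q ^ 2 * q) ≤ m * (q ^ 2 * q) := by
      calc _ = q ^ 5 * (q + 1) * 1 * (q + 2) := by ring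
        _ ≤ q ^ 5 * (q + 1) * i * (q + 2) := by gcongr
        _ ≤ m * r * q := hG2
        _ ≤ m * q ^ 2 * q := by gcongr
        _ = _ := by ring
    have h6 : q ^ 2 * (q + 1) * (q + 2) ≤ m := Nat.le_of_mul_le_mul_right h5 (by positivity)
    refine le_trans ?_ h6
    have h7 : q ^ 3 + 1 ≤ q ^ 2 * (q + 2) := by
      have : 1 ≤ q ^ 2 := Nat.one_le_pow _ _ hq0
      nlinarith
    calc (q + 1) * (q ^ 3 + 1) ≤ (q + 1) * (q ^ 2 * (q + 2)) := Nat.mul_le_mul_left _ h7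
      _ = _ := by ring

/-- The residual case is impossible for `q ≥ 3`. -/
theorem residue_contra (hq3 : 3 ≤ q) {y₁ y₂ : Fin 2 → F} {g : F} (hT : T2 hF hα K y₁ y₂ g)
    (hZ : ZZ hF hα K = ⊥) (hKK : KK hF hα K = ⊤) (hW : WW hF y₁ y₂ ≤ YY hF hα K) : False := by
  have hq0 : (0 : F) ^ q = 0 := zero_pow (by omega)
  have hex : ∀ u : Fin 2 → F, ∃ s, u ∈ YY hF hα K → (Gd q u s ∧ EE hF α u s ∈ K) := by
    intro u
    by_cases hu : u ∈ YY hF hα K
    · obtain ⟨s, h1, h2⟩ := hu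
      exact ⟨s, fun _ => ⟨h1, h2⟩⟩
    · exact ⟨0, fun h => absurd h hu⟩
  choose Φ hΦ using hex
  have hadd : ∀ u ∈ YY hF hα K, ∀ u' ∈ YY hF hα K,
      Φ (u + u') = Φ u + Φ u' - hermForm 2 F q u' u := by
    intro u hu u' hu'
    obtain ⟨h1, h2⟩ := hΦ u hu
    obtain ⟨h3, h4⟩ := hΦ u' hu'
    obtain ⟨h5, h6⟩ := hΦ _ ((YY hF hα K).add_mem hu hu')
    have h7 := EE_mul hF hα h1 h3
    have h8 : EE hF α (u + u') (Φ u + Φ u' - hermForm 2 F q u' u) ∈ K := by
      rw [← h7]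
      exact K.mul_mem h2 h4
    exact EE_uniq hF hα hZ h5 (Gd_add hF h1 h3) h6 h8
  have hlift : ∀ l : SU 2 F q, ∃ u₀ : Fin 2 → F, ∀ u ∈ YY hF hα K,
      Φ (act l u) = (hermForm 2 F q u₀ (act l u) - hermForm 2 F q (act l u) u₀) + Φ u := by
    intro l
    have hl : l ∈ KK hF hα K := by rw [hKK]; trivial
    obtain ⟨w, ⟨u₀, s₀, h₀, rfl⟩, hw⟩ := hl
    refine ⟨u₀, fun u hu => ?_⟩
    obtain ⟨h1, h2⟩ := hΦ u hu
    have h3 := conj_lift hF hα h₀ h1 hw h2
    have h4 := Gd_trace hF (trace_zero_kappa hF u₀ (act l u)) (Gd_act l h1)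
    obtain ⟨h5, h6⟩ := hΦ _ (YY_inv hF hα (show l ∈ KK hF hα K by rw [hKK]; trivial) hu)
    exact EE_uniq hF hα hZ h5 h4 h6 h3
  have hgq : g ^ q = -g := by linear_combination hT.hg
  have h21 : hermForm 2 F q y₂ y₁ = -g := by
    rw [← hermForm_conj hF y₁ y₂, hT.h12, hgq]
  have hg0 := hT.hg0
  have hm1 : ∀ a : F, a ^ q = a → a • y₁ ∈ YY hF hα K := fun a ha =>
    hW ⟨a, 0, ha, hq0, by simp⟩
  have hm2 : ∀ b : F, b ^ q = b → b • y₂ ∈ YY hF hα K := fun b hb =>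
    hW ⟨0, b, hq0, hb, by simp⟩
  -- the functional equation
  have hE : ∀ γ b : F, γ ^ q = γ → b ^ q = b →
      Φ ((γ * b) • y₁) - γ * b * b * g = b * (Φ (γ • y₁) - γ * g) := by
    intro γ b hγ hb
    have hβ : (-(γ * g⁻¹)) + (-(γ * g⁻¹)) ^ q = 0 := by
      rw [neg_pow_q hF, mul_pow, inv_pow, hγ, hgq]
      field_simp
      ring
    obtain ⟨u₀, hu₀⟩ := hlift (tau hF y₁ (-(γ * g⁻¹)))
    have hact : ∀ b' : F, act (tau hF y₁ (-(γ * g⁻¹))) (b' • y₂) = b' • y₂ + (γ * b') • y₁ := by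
      intro b'
      rw [act_tau hF hT.h11 hβ, hermForm_smul_left, h21]
      congr 2
      field_simp
    have hform : ∀ b' : F, b' ^ q = b' → Φ ((γ * b') • y₁) - γ * b' * b' * g =
        b' * (hermForm 2 F q u₀ (y₂ + γ • y₁) - hermForm 2 F q (y₂ + γ • y₁) u₀) := by
      intro b' hb'
      have h1 := hu₀ _ (hm2 b' hb')
      rw [hact] at h1
      have hγb : (γ * b') ^ q = γ * b' := by rw [mul_pow, hγ, hb']
      have h2 := hadd _ (hm2 b' hb') _ (hm1 _ hγb)
      rw [h2] at h1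
      have h3 : hermForm 2 F q ((γ * b') • y₁) (b' • y₂) = γ * b' * b' * g := by
        rw [hermForm_smul_left, hermForm_smul_right, hT.h12, hb']
        ring
      have h4 : b' • y₂ + (γ * b') • y₁ = b' • (y₂ + γ • y₁) := by
        rw [smul_add, smul_smul, mul_comm b' γ]
      rw [h3, h4, hermForm_smul_left, hermForm_smul_right, hb'] at h1
      linear_combination h1
    have h1 := hform b hb
    have h2 := hform 1 (one_pow q)
    simp only [mul_one, one_mul] at h2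
    rw [h1, h2]
  obtain ⟨b, hb0, hbq, hb1⟩ := exists_tau_ne hF hq3
  have hbb : (b * b) ^ q = b * b := by rw [mul_pow, hbq]
  have E1 := hE 1 b (one_pow q) hbq
  have E2 := hE b b hbq hbq
  have E3 := hE 1 (b * b) (one_pow q) hbb
  rw [one_mul] at E1 E3
  have h1 : g * b * b * (b - 1) * (b - 1) = 0 := by
    linear_combination E2 + b * E1 - E3
  have hb1' : b - 1 ≠ 0 := sub_ne_zero.2 hb1
  exact (mul_ne_zero (mul_ne_zero (mul_ne_zero (mul_ne_zero hg0 hb0) hb0) hb1') hb1') h1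

end Family

end Cfsg.Agent.Lib.PSUIdx
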