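import Mathlib
import Cfsg.Agent.Lib.PSUIdxH

/-!
# Dimension four: the closure argument and the main bound for `q ≥ 3`
-/

set_option autoImplicit false
set_option linter.unusedSectionVars false
set_option linter.unusedVariables false

namespace Cfsg.Agent.Lib.PSUIdx

open Matrix Cfsg Cfsg.Agent.Lib.HermForm Cfsg.Agent.Lib.FFNorm Cfsg.Agent.Lib.UnitaryE
  Cfsg.Agent.Lib.UnitarySU Cfsg.Agent.Lib.SUMinDeg
open Cfsg.Agent.Lib.PSU35A (cj mem_cj)
open scoped Pointwise

variable {F : Type*} [Field F] [Fintype F] {q n e : ℕ}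

section Cen

variable (hF : Fintype.card F = q ^ 2)

/-- The centres of the transvection groups contained in `K`. -/
def Cen (hF : Fintype.card F = q ^ 2) (K : Subgroup (SU n F q)) : Set (Fin n → F) :=
  {z | z ≠ 0 ∧ hermForm n F q z z = 0 ∧ ∀ c : F, c + c ^ q = 0 → tau hF z c ∈ K}

include hF

lemma Cen_sub_Iso (K : Subgroup (SU n F q)) : Cen hF K ⊆ IsoV n F q := fun _ h => ⟨h.2.1, h.1⟩

lemma act_ne_zero {z : Fin n → F} (g : SU n F q) (h : z ≠ 0) : act g z ≠ 0 := by
  intro h0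
  apply h
  have h1 : act g⁻¹ (act g z) = z := by rw [← act_mul, inv_mul_cancel, act_one]
  rw [h0, act_zero] at h1
  exact h1.symm

lemma Cen_cj {K : Subgroup (SU n F q)} (g : SU n F q) {z : Fin n → F} (hz : z ∈ Cen hF K) :
    act g z ∈ Cen hF (cj g K) := by
  refine ⟨act_ne_zero hF g hz.1, by rw [herm_act]; exact hz.2.1, fun c hc => ?_⟩
  have h1 := mem_cj_of (g := g) (hz.2.2 c hc)
  rw [conj_tau hF g hz.2.1 hc, mul_inv_cancel_right] at h1
  exact h1

lemma Cen_act {K : Subgroup (SU n F q)} {g : SU n F q} (hg : g ∈ K) {z : Fin n → F} (hz : z ∈ Cen hF K) :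
    act g z ∈ Cen hF K := by
  have h := Cen_cj hF g hz
  rwa [cj_self' hg] at h

lemma Cen_smul {K : Subgroup (SU n F q)} {a : F} (ha : a ≠ 0) {z : Fin n → F} (hz : z ∈ Cen hF K) :
    a • z ∈ Cen hF K := by
  refine ⟨smul_ne_zero ha hz.1, by rw [hermForm_smul_left, hermForm_smul_right, hz.2.1]; ring, fun c hc => ?_⟩
  rw [tau_smul hF hz.2.1 hc]
  apply hz.2.2
  rw [mul_pow, mul_pow, pow_pow_self hF]
  linear_combination (a * a ^ q) * hc

lemma orbV_sub_Cen {K : Subgroup (SU n F q)} {z : Fin n → F} (hz : z ∈ Cen hF K) : orbV K z ⊆ Cen hF K := by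
  rintro _ ⟨g, hg, rfl⟩
  exact Cen_act hF hg hz

lemma orbV_disj {K : Subgroup (SU n F q)} {p : Fin n → F} (hp : p ∉ Cen hF K) :
    Disjoint (orbV K p) (Cen hF K) := by
  rw [Set.disjoint_left]
  rintro _ ⟨g, hg, rfl⟩ h
  apply hp
  have h1 := Cen_act hF (K.inv_mem hg) h
  rwa [← act_mul, inv_mul_cancel, act_one] at h1

lemma card_Cen_cj (K : Subgroup (SU n F q)) (g : SU n F q) :
    Nat.card (Cen hF (cj g K)) = Nat.card (Cen hF K) := by
  refine Nat.card_congr ⟨fun z => ⟨act g⁻¹ z.1, ?_⟩, fun z => ⟨act g z.1, Cen_cj hF g z.2⟩, ?_, ?_⟩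
  · have h := Cen_cj hF g⁻¹ z.2
    have h2 : cj g⁻¹ (cj g K) = K := by
      rw [← cj_mul', inv_mul_cancel]
      exact cj_self' K.one_mem
    rwa [h2] at h
  · intro z
    apply Subtype.ext
    show act g (act g⁻¹ z.1) = z.1
    rw [← act_mul, mul_inv_cancel, act_one]
  · intro z
    apply Subtype.ext
    show act g⁻¹ (act g z.1) = z.1
    rw [← act_mul, inv_mul_cancel, act_one]

omit hF in
lemma index_cj (K : Subgroup (SU n F q)) (g : SU n F q) : (cj g K).index = K.index :=
  Subgroup.index_map_of_bijective (MulAut.conj g).bijective K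

end Cen

section QFree

variable (hF : Fintype.card F = q ^ 2) {α : F} (hα : α ^ q * α = -1)
include hF hα

/-- The group `Q` is semiregular on the vectors not orthogonal to `v`. -/
lemma QQ_free {z : Fin (e + 2) → F} (hz : hermForm (e + 2) F q z (vE α) ≠ 0) {y : SU (e + 2) F q}
    (hy : y ∈ QQ hF hα e) (h : act y z = z) : y = 1 := by
  obtain ⟨u, s, h₀, rfl⟩ := hy
  rw [act_EE hF hα h₀] at h
  set a := hermForm (e + 2) F q z (vE α) with ha
  set b := hermForm (e + 2) F q z (inc u) with hb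
  have h1 : a • inc u + (a * s - b) • vE α = 0 := by
    have : z + a • (inc u + s • vE α) - b • vE α - z = 0 := by rw [h, sub_self]
    rw [← this]
    module
  have h2 := congrArg (fun x : Fin (e + 2) → F => Fin.tail (Fin.tail x)) h1
  have ht : ∀ (p r : F) (w : Fin e → F), Fin.tail (Fin.tail (p • inc w + r • vE (e := e) α)) = p • w := by
    intro p r w
    ext i
    have h3 := congrFun (tail_vE (e := e) (α := α)) i
    have h4 := congrFun (tail_inc w) i
    simp only [Fin.tail, Pi.add_apply, Pi.smul_apply, smul_eq_mul, Pi.zero_apply] at h3 h4 ⊢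
    rw [h3, h4]
    ring
  have h3 : a • u = 0 := by
    have h4 := ht a (a * s - b) u
    rw [h4] at h2
    exact h2
  have hu : u = 0 := (smul_eq_zero.1 h3).resolve_left hz
  subst hu
  have hb0 : b = 0 := by rw [hb, inc_zero, hermForm_zero_right hF]
  rw [inc_zero, smul_zero, zero_add, hb0, sub_zero] at h1
  have h5 : a * s = 0 := (smul_eq_zero.1 h1).resolve_right (vE_ne hF hα)
  have hs : s = 0 := (mul_eq_zero.1 h5).resolve_left hz
  rw [hs]
  exact EE_zero hF hα

end QFree

section Closure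

variable (hF : Fintype.card F = q ^ 2)

lemma q4_sub_pos (hq : 2 ≤ q) : 0 < q ^ 4 - 1 := by
  have : 1 < q ^ 4 := Nat.one_lt_pow (by norm_num) (by omega)
  omega

include hF

lemma card_Iso4 : Nat.card (IsoV (2 + 2) F q) = (q ^ 4 - 1) * (q ^ 3 + 1) := by
  exact card_IsoV hF (2 + 2) (by decide)

lemma count_cen (K : Subgroup (SU (2 + 2) F q)) {p : Fin (2 + 2) → F} (hp : p ∈ IsoV (2 + 2) F q)
    (hpC : p ∉ Cen hF K) (ht : (q + 1) * q ^ 3 ≤ (K.subgroupOf (stabV p)).index)
    (hn : K.index < (q + 1) * (q ^ 3 + 1)) : Nat.card (Cen hF K) + 1 ≤ q ^ 4 - 1 := by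
  classical
  have hq := two_le hF
  have hE := q4_sub_pos hq
  have h1 := orb_index hF (by norm_num) hp K
  rw [card_Iso4 hF] at h1
  set A := Nat.card (orbV K p) with hA
  set C := Nat.card (Cen hF K) with hC
  set m := K.index with hm
  set E := q ^ 4 - 1 with hEdef
  have hcard : A + C ≤ E * (q ^ 3 + 1) := by
    have hsub : orbV K p ∪ Cen hF K ⊆ IsoV (2 + 2) F q := by
      apply Set.union_subset _ (Cen_sub_Iso hF K)
      rintro _ ⟨g, -, rfl⟩
      exact ⟨by rw [herm_act]; exact hp.1, act_ne_zero hF g hp.2⟩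
    have h2 := Nat.card_mono (Set.toFinite _) hsub
    rw [card_Iso4 hF] at h2
    refine le_trans (le_of_eq ?_) h2
    rw [Nat.card_coe_set_eq, Set.ncard_union_eq (orbV_disj hF hpC) (Set.toFinite _) (Set.toFinite _),
      ← Nat.card_coe_set_eq, ← Nat.card_coe_set_eq]
  by_contra hcon
  push Not at hcon
  have hCE : E ≤ C := by omega
  have hAE : A ≤ E * q ^ 3 := by
    have : E * (q ^ 3 + 1) = E * q ^ 3 + E := by ring
    omega
  have h3 : (q + 1) * q ^ 3 * (E * (q ^ 3 + 1)) ≤ (E * q ^ 3) * m := by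
    calc _ ≤ (K.subgroupOf (stabV p)).index * (E * (q ^ 3 + 1)) := Nat.mul_le_mul_right _ ht
      _ = A * m := h1.symm
      _ ≤ _ := Nat.mul_le_mul_right _ hAE
  have h4 : ((q + 1) * (q ^ 3 + 1)) * (E * q ^ 3) ≤ m * (E * q ^ 3) := by
    calc _ = (q + 1) * q ^ 3 * (E * (q ^ 3 + 1)) := by ring
      _ ≤ _ := h3
      _ = _ := by ring
  have h5 := Nat.le_of_mul_le_mul_right h4 (by positivity)
  omega

lemma t_le (K : Subgroup (SU (2 + 2) F q)) {a : Fin (2 + 2) → F} (ha : a ∈ Cen hF K)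
    (hC : Nat.card (Cen hF K) + 1 ≤ q ^ 4 - 1) (hn : K.index < (q + 1) * (q ^ 3 + 1)) :
    (K.subgroupOf (stabV a)).index ≤ q := by
  classical
  have hq := two_le hF
  have hE := q4_sub_pos hq
  have h1 := orb_index hF (by norm_num) (Cen_sub_Iso hF K ha) K
  rw [card_Iso4 hF] at h1
  have hA : Nat.card (orbV K a) ≤ Nat.card (Cen hF K) :=
    Nat.card_mono (Set.toFinite _) (orbV_sub_Cen hF ha)
  by_contra hcon
  push Not at hcon
  set E := q ^ 4 - 1 with hEdef
  have h2 : (q + 1) * (E * (q ^ 3 + 1)) ≤ E * K.index := by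
    calc _ ≤ (K.subgroupOf (stabV a)).index * (E * (q ^ 3 + 1)) := Nat.mul_le_mul_right _ hcon
      _ = Nat.card (orbV K a) * K.index := h1.symm
      _ ≤ E * K.index := Nat.mul_le_mul_right _ (by omega)
  have h3 : ((q + 1) * (q ^ 3 + 1)) * E ≤ K.index * E := by
    calc _ = (q + 1) * (E * (q ^ 3 + 1)) := by ring
      _ ≤ _ := h2
      _ = _ := by ring
  have h4 := Nat.le_of_mul_le_mul_right h3 hE
  omega

variable {α : F} (hα : α ^ q * α = -1)
include hα

/-- Orthogonality to the standard vector. -/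
lemma perp_vE (K : Subgroup (SU (2 + 2) F q)) (hv : vE α ∈ Cen hF K)
    (hC : Nat.card (Cen hF K) + 1 ≤ q ^ 4 - 1) (hn : K.index < (q + 1) * (q ^ 3 + 1))
    {z : Fin (2 + 2) → F} (hz : z ∈ Cen hF K) : hermForm (2 + 2) F q z (vE α) = 0 := by
  classical
  by_contra hne
  have hq := two_le hF
  have h1 := t_le hF K hv hC hn
  have h2 := mi_stab hF hα K
  have hi1 : 1 ≤ (KK hF hα K).index := Nat.pos_of_ne_zero Subgroup.index_ne_zero_of_finite
  have h3 : (K.subgroupOf (QQ hF hα 2)).index ≤ q := by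
    calc _ = 1 * (K.subgroupOf (QQ hF hα 2)).index := (one_mul _).symm
      _ ≤ (KK hF hα K).index * (K.subgroupOf (QQ hF hα 2)).index := Nat.mul_le_mul_right _ hi1
      _ ≤ _ := h2
      _ ≤ q := h1
  have h4 := card_QQ_ge hF hα (e := 2)
  have h5 := Subgroup.card_mul_index (K.subgroupOf (QQ hF hα 2))
  have h6 : q ^ 4 ≤ Nat.card (K.subgroupOf (QQ hF hα 2)) := by
    have h7 : q ^ 4 * q ≤ Nat.card (K.subgroupOf (QQ hF hα 2)) * q := by
      calc _ = (q ^ 2) ^ 2 * q := by ring
        _ ≤ _ := h4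
        _ = _ := h5.symm
        _ ≤ _ := Nat.mul_le_mul_left _ h3
    exact Nat.le_of_mul_le_mul_right h7 (by omega)
  have h8 : Nat.card (K.subgroupOf (QQ hF hα 2)) ≤ Nat.card (Cen hF K) := by
    refine Nat.card_le_card_of_injective (fun y => ⟨act (y.1.1) z, Cen_act hF ((Subgroup.mem_subgroupOf).1 y.2) hz⟩) ?_
    intro y y' h
    have h9 : act (y.1.1) z = act (y'.1.1) z := congrArg Subtype.val h
    have h10 : act ((y.1.1)⁻¹ * y'.1.1) z = z := by
      rw [act_mul, ← h9, ← act_mul, inv_mul_cancel, act_one]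
    have h11 := QQ_free hF hα hne ((QQ hF hα 2).mul_mem ((QQ hF hα 2).inv_mem y.1.2) y'.1.2) h10
    apply Subtype.ext
    apply Subtype.ext
    exact (inv_mul_eq_one.1 h11)
  omega

/-- All centres are mutually orthogonal. -/
lemma perp_all (K : Subgroup (SU (2 + 2) F q)) (hC : Nat.card (Cen hF K) + 1 ≤ q ^ 4 - 1)
    (hn : K.index < (q + 1) * (q ^ 3 + 1)) {a z : Fin (2 + 2) → F} (ha : a ∈ Cen hF K) (hz : z ∈ Cen hF K) :
    hermForm (2 + 2) F q z a = 0 := by
  obtain ⟨g, hg⟩ := exists_act_eq hF (n := 2 + 2) (by norm_num) ha.2.1 ha.1 (vE_iso hF hα) (vE_ne hF hα)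
  have h1 := perp_vE hF hα (cj g K) (by rw [← hg]; exact Cen_cj hF g ha)
    (by rw [card_Cen_cj hF]; exact hC) (by rw [index_cj]; exact hn) (Cen_cj hF g hz)
  rwa [← hg, herm_act] at h1

/-- A second independent centre forces a large index in the stabiliser. -/
lemma t_ge_of_two (K : Subgroup (SU (2 + 2) F q)) (hv : vE α ∈ Cen hF K)
    (hperp : ∀ a ∈ Cen hF K, ∀ z ∈ Cen hF K, hermForm (2 + 2) F q z a = 0)
    {b : Fin (2 + 2) → F} (hb : b ∈ Cen hF K) (hbn : ∀ c : F, b ≠ c • vE α) :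
    q + 1 ≤ (K.subgroupOf (stabV (vE α))).index := by
  classical
  obtain ⟨β, hβ⟩ : ∃ β : F, β + β ^ q = -1 :=
    exists_trace_eq hF (t := -1) (by rw [neg_pow_q hF, one_pow])
  have hbv := hperp _ hv _ hb
  have hdec := decomp hF hα hβ b
  rw [hbv, zero_smul, add_zero] at hdec
  set x₀ := rest α β q b with hx₀
  set c₀ := hermForm (2 + 2) F q b (wE α β) with hc₀
  have hx00 : x₀ ≠ 0 := by
    intro h
    apply hbn c₀
    rw [hdec, h, inc_zero, add_zero]
  have hv0 := vE_iso (e := 2) hF hα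
  have hform : ∀ (c c' : F) (y y' : Fin 2 → F), hermForm (2 + 2) F q (c • vE α + inc y) (c' • vE α + inc y') =
      hermForm 2 F q y y' := by
    intro c c' y y'
    simp only [hermForm_add_left, hermForm_add_right hF, hermForm_smul_left, hermForm_smul_right, hv0,
      inc_vE hF, vE_inc hF, herm_inc hF]
    ring
  have hxx : hermForm 2 F q x₀ x₀ = 0 := by
    have := hb.2.1
    rw [hdec, hform] at this
    exact this
  have hle : KK hF hα K ≤ Bor x₀ := by
    rintro l ⟨w, ⟨u, s, h₀, rfl⟩, hw⟩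
    have h1 := Cen_act hF hw hb
    have h2 : act (EE hF α u s * iota l) b = (c₀ - hermForm 2 F q (act l x₀) u) • vE α + inc (act l x₀) := by
      rw [hdec, act_mul, act_add, act_smul, act_iota_vE, act_iota_inc, act_add, act_smul, act_EE_vE hF hα h₀,
        act_EE hF hα h₀, inc_vE hF, herm_inc hF]
      module
    rw [h2] at h1
    have h3 := hperp _ hb _ h1
    rw [hdec, hform] at h3
    obtain ⟨c, hc⟩ := prop2 hF hx00 h3 hxx hx00
    refine ⟨c, ?_, hc⟩
    rintro rfl
    rw [zero_smul] at hc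
    exact act_ne_zero hF l hx00 hc
  have hB := index_Bor_ge hF hx00 hxx
  have hi : (KK hF hα K).relIndex (Bor x₀) * (Bor x₀ : Subgroup (SU 2 F q)).index = (KK hF hα K).index :=
    Subgroup.relIndex_mul_index hle
  have hrel : 1 ≤ (KK hF hα K).relIndex (Bor x₀) := Nat.pos_of_ne_zero (by
    intro h0
    rw [h0, zero_mul] at hi
    exact (Subgroup.index_ne_zero_of_finite (H := KK hF hα K)) hi.symm)
  have h5 := mi_stab hF hα K
  have h6 : 1 ≤ (K.subgroupOf (QQ hF hα 2)).index := Nat.pos_of_ne_zero Subgroup.index_ne_zero_of_finite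
  calc q + 1 ≤ 1 * (Bor x₀ : Subgroup (SU 2 F q)).index := by omega
    _ ≤ (KK hF hα K).relIndex (Bor x₀) * (Bor x₀ : Subgroup (SU 2 F q)).index := Nat.mul_le_mul_right _ hrel
    _ = (KK hF hα K).index := hi
    _ = (KK hF hα K).index * 1 := (mul_one _).symm
    _ ≤ (KK hF hα K).index * (K.subgroupOf (QQ hF hα 2)).index := Nat.mul_le_mul_left _ h6
    _ ≤ _ := h5

/-- The closure theorem. -/
theorem closure4 (K : Subgroup (SU (2 + 2) F q)) (hn : K.index < (q + 1) * (q ^ 3 + 1))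
    {p : Fin (2 + 2) → F} (hp : p ∈ IsoV (2 + 2) F q) (hpC : p ∉ Cen hF K)
    (ht : (q + 1) * q ^ 3 ≤ (K.subgroupOf (stabV p)).index) {a : Fin (2 + 2) → F} (ha : a ∈ Cen hF K) :
    False := by
  classical
  have hq := two_le hF
  have hC := count_cen hF K hp hpC ht hn
  by_cases hall : ∀ z ∈ Cen hF K, ∃ c : F, z = c • a
  · -- only one point
    have h1 := orb_index hF (by norm_num) (Cen_sub_Iso hF K ha) K
    rw [card_Iso4 hF] at h1
    have hA : Nat.card (orbV K a) ≤ Nat.card (Cen hF K) :=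
      Nat.card_mono (Set.toFinite _) (orbV_sub_Cen hF ha)
    have hC2 : Nat.card (Cen hF K) ≤ q ^ 2 - 1 := by
      have h2 : Nat.card (Cen hF K) ≤ Nat.card {c : F // c ≠ 0} := by
        have hch : ∀ z : Cen hF K, ∃ c : F, c ≠ 0 ∧ z.1 = c • a := by
          rintro ⟨z, hz⟩
          obtain ⟨c, hc⟩ := hall z hz
          refine ⟨c, ?_, hc⟩
          rintro rfl
          rw [zero_smul] at hc
          exact hz.1 hc
        choose f hf0 hf using hch
        refine Nat.card_le_card_of_injective (fun z => ⟨f z, hf0 z⟩) ?_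
        intro z z' h
        have h3 : f z = f z' := congrArg Subtype.val h
        apply Subtype.ext
        rw [hf z, hf z', h3]
      refine h2.trans (le_of_eq ?_)
      have h3 : Nat.card {c : F // c ≠ 0} = Fintype.card F - 1 := by
        rw [Nat.card_eq_fintype_card, Fintype.card_subtype_compl]
        simp
      rw [h3, hF]
    have ht1 : 1 ≤ (K.subgroupOf (stabV a)).index := Nat.pos_of_ne_zero Subgroup.index_ne_zero_of_finite
    have hfac : q ^ 4 - 1 = (q ^ 2 - 1) * (q ^ 2 + 1) := by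
      have h2 : 1 ≤ q ^ 2 := Nat.one_le_pow _ _ (by omega)
      obtain ⟨r, hr⟩ : ∃ r, q ^ 2 = r + 1 := ⟨q ^ 2 - 1, by omega⟩
      have h4 : q ^ 4 = (q ^ 2) ^ 2 := by ring
      rw [h4, hr]
      have : (r + 1) ^ 2 - 1 = r * (r + 2) := Nat.sub_eq_of_eq_add (by ring)
      rw [this]
      simp
    have h5 : (q ^ 2 - 1) * ((q ^ 2 + 1) * (q ^ 3 + 1)) ≤ (q ^ 2 - 1) * K.index := by
      calc _ = 1 * ((q ^ 4 - 1) * (q ^ 3 + 1)) := by rw [hfac]; ring
        _ ≤ (K.subgroupOf (stabV a)).index * ((q ^ 4 - 1) * (q ^ 3 + 1)) := Nat.mul_le_mul_right _ ht1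
        _ = _ := h1.symm
        _ ≤ _ := Nat.mul_le_mul_right _ (hA.trans hC2)
    have hpos : 0 < q ^ 2 - 1 := by
      have : 1 < q ^ 2 := Nat.one_lt_pow (by norm_num) (by omega)
      omega
    have h6 := Nat.le_of_mul_le_mul_left h5 hpos
    have h7 : (q + 1) * (q ^ 3 + 1) ≤ (q ^ 2 + 1) * (q ^ 3 + 1) := by
      apply Nat.mul_le_mul_right
      nlinarith
    omega
  · push Not at hall
    obtain ⟨b, hb, hbn⟩ := hall
    obtain ⟨g, hg⟩ := exists_act_eq hF (n := 2 + 2) (by norm_num) ha.2.1 ha.1 (vE_iso hF hα) (vE_ne hF hα)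
    have hv : vE α ∈ Cen hF (cj g K) := by rw [← hg]; exact Cen_cj hF g ha
    have hC' : Nat.card (Cen hF (cj g K)) + 1 ≤ q ^ 4 - 1 := by rw [card_Cen_cj hF]; exact hC
    have hn' : (cj g K).index < (q + 1) * (q ^ 3 + 1) := by rw [index_cj]; exact hn
    have h1 := t_le hF (cj g K) hv hC' hn'
    have h2 := t_ge_of_two hF hα (cj g K) hv (fun a ha z hz => perp_all hF hα (cj g K) hC' hn' ha hz)
      (Cen_cj hF g hb) (by
        intro c hc
        apply hbn c
        have h3 : act g⁻¹ (act g b) = b := by rw [← act_mul, inv_mul_cancel, act_one]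
        rw [hc, act_smul, ← hg, ← act_mul, inv_mul_cancel, act_one] at h3
        exact h3.symm)
    omega

end Closure

section Main

variable (hF : Fintype.card F = q ^ 2) {α : F} (hα : α ^ q * α = -1)
include hF hα

/-- The residual configuration. -/
def Resid (hF : Fintype.card F = q ^ 2) (hα : α ^ q * α = -1) (K : Subgroup (SU (2 + 2) F q)) : Prop :=
  ∃ (y₁ y₂ : Fin 2 → F) (g : F), T2 hF hα K y₁ y₂ g ∧ ZZ hF hα K = ⊥ ∧ KK hF hα K = ⊤ ∧
    WW hF y₁ y₂ ≤ YY hF hα K

/-- The analysis of `Q ∩ K`. -/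
theorem analysis (K : Subgroup (SU (2 + 2) F q)) {c : F} (hc : c + c ^ q = 0)
    (hcK : EE (e := 2) hF α 0 c ∉ K) : (q + 1) * (q ^ 3 + 1) ≤ K.index ∨ Resid hF hα K := by
  classical
  have hq := two_le hF
  by_contra hcon
  push Not at hcon
  obtain ⟨hn, hR⟩ := hcon
  -- non-isotropic vectors
  have hiso : ∀ y ∈ YY hF hα K, hermForm 2 F q y y = 0 := by
    intro y hy
    by_contra hne
    have := case_noniso hF hα K hc hcK hy hne
    omega
  -- `Y ≠ 0`
  have hY : ∃ x ∈ YY hF hα K, x ≠ 0 := by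
    by_contra hno
    push Not at hno
    obtain ⟨k, hk1, hk, H⟩ := mi_param hF hα K (by norm_num) hc hcK
    have hY1 : Nat.card (YY hF hα K) = 1 := by
      rw [AddSubgroup.card_eq_one]
      rw [eq_bot_iff]
      intro y hy
      exact hno y hy
    rw [hY1] at H
    have hz1 : 1 ≤ Nat.card (ZZ hF hα K) := Nat.card_pos
    have hG1 := G1_of (q := q) (by omega) hk1 hz1 (m := K.index) (r := 1) H hk
    have hi1 : 1 ≤ (KK hF hα K).index := Nat.pos_of_ne_zero Subgroup.index_ne_zero_of_finite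
    have h1 : q ^ 5 ≤ K.index := by
      calc q ^ 5 = (q ^ 2) ^ 2 * q * 1 := by ring
        _ ≤ (q ^ 2) ^ 2 * q * (KK hF hα K).index := by gcongr
        _ ≤ K.index * 1 := hG1
        _ = K.index := mul_one _
    have := N_le_pow5 hq
    omega
  obtain ⟨x, hxY, hx0⟩ := hY
  rcases iso_dichotomy hF hα K hiso hxY hx0 with hpt | ⟨y₂, g, hT⟩
  · rcases case_point hF hα K hc hcK hiso hxY hx0 hpt with h | hCore
    · omega
    · -- the configuration gives a transvection group
      have hC := hCore.toL hF hα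
      obtain ⟨z, hz0, hz, ht⟩ : ∃ z : Fin (2 + 2) → F, z ≠ 0 ∧ hermForm (2 + 2) F q z z = 0 ∧
          ∀ c : F, c + c ^ q = 0 → tau hF z c ∈ K := by
        by_cases hq2 : q = 2
        · exact core_tz2 hF hα hq2 hC
        · exact core_tz3 hF hα (by omega) hC
      have hp : vE α ∈ IsoV (2 + 2) F q := vE_mem hF hα
      have hpC : vE α ∉ Cen hF K := by
        intro h
        apply hcK
        rw [EE_zero_eq_tau hF hα]
        exact h.2.2 c hc
      -- the index in the stabiliser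
      have hi : q + 1 ≤ (KK hF hα K).index := by
        rw [hCore.hKK]
        exact index_Bor_ge hF hCore.hx0 hCore.hx
      have hr : Nat.card (YY hF hα K) ≤ q ^ 2 := by
        have h1 : Nat.card (YY hF hα K) ≤ Nat.card F := by
          have hch : ∀ y : YY hF hα K, ∃ a : F, y.1 = a • x := fun y => hpt y.1 y.2
          choose f hf using hch
          refine Nat.card_le_card_of_injective f ?_
          intro y y' h
          apply Subtype.ext
          rw [hf y, hf y', h]
        have hcard : Nat.card F = q ^ 2 := by rw [Nat.card_eq_fintype_card, hF]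
        rwa [hcard] at h1
      have hz1 : Nat.card (ZZ hF hα K) = 1 := by
        rw [hCore.hZ]
        simp
      have h1 := index_ineq hF hα (K := K) (e := 2)
      rw [hz1, mul_one] at h1
      have h2 : q ^ 3 ≤ (K.subgroupOf (QQ hF hα 2)).index := by
        have h3 : q ^ 3 * q ^ 2 ≤ (K.subgroupOf (QQ hF hα 2)).index * q ^ 2 := by
          calc _ = (q ^ 2) ^ 2 * q := by ring
            _ ≤ _ := h1
            _ ≤ _ := Nat.mul_le_mul_left _ hr
        exact Nat.le_of_mul_le_mul_right h3 (by positivity)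
      have h3 := mi_stab hF hα K
      have h4 : (q + 1) * q ^ 3 ≤ (K.subgroupOf (stabV (vE α))).index :=
        (Nat.mul_le_mul hi h2).trans h3
      exact closure4 hF hα K hn hp hpC h4 (a := z) ⟨hz0, hz, ht⟩
  · by_cases h2 : (2 : F) = 0
    · rcases span_even hF hα hc hcK hT h2 with h | ⟨h5, h6, h7⟩
      · omega
      · exact hR ⟨x, y₂, g, hT, h5, h6, h7⟩
    · have := case_span_odd hF hα K hc hcK hT h2
      omega

/-- The case `q ≥ 3` with a missing transvection at the standard vector. -/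
theorem bound_of_missing (hq3 : 3 ≤ q) (K : Subgroup (SU (2 + 2) F q)) {c : F} (hc : c + c ^ q = 0)
    (hcK : EE (e := 2) hF α 0 c ∉ K) : (q + 1) * (q ^ 3 + 1) ≤ K.index := by
  rcases analysis hF hα K hc hcK with h | ⟨y₁, y₂, g, hT, h5, h6, h7⟩
  · exact h
  · exact (residue_contra hF hα hq3 hT h5 h6 h7).elim

omit hα in
/-- A proper subgroup misses a transvection. -/
theorem exists_missing (hn : 3 ≤ n) (h32 : ¬ (n = 3 ∧ q = 2)) {K : Subgroup (SU n F q)} (hK : K ≠ ⊤) :
    ∃ (x : Fin n → F) (c : F), x ≠ 0 ∧ hermForm n F q x x = 0 ∧ c + c ^ q = 0 ∧ tau hF x c ∉ K := by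
  by_contra hcon
  push Not at hcon
  apply hK
  rw [eq_top_iff, ← SUGen.TT_eq_top hF hn h32, SUGen.TT, Subgroup.closure_le]
  rintro A ⟨v, c, hA⟩
  have hsc : c + c ^ q = 0 := by
    have := hA.hs
    rw [hermForm_zero_left, add_zero] at this
    exact this
  have hAt : A = tau hF v c := by
    apply ext_act
    intro x
    have h9 : act A x = x + hermForm n F q x v • (0 + c • v) - hermForm n F q x 0 • v := hA.act_eq x
    rw [act_tau hF hA.hvv hsc, h9, hermForm_zero_right hF, zero_add, zero_smul, sub_zero, smul_smul]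
    congr 2
    ring
  by_cases hv : v = 0
  · have hA1 : A = 1 := by
      apply ext_act
      intro x
      have h9 : act A x = x + hermForm n F q x v • (0 + c • v) - hermForm n F q x 0 • v := hA.act_eq x
      rw [h9, hv, act_one]
      simp [hermForm_zero_right hF]
    rw [hA1]
    exact K.one_mem
  · rw [hAt]
    exact hcon v c hv hA.hvv hsc

/-- Normalising the missing transvection. -/
theorem exists_conj_missing {K : Subgroup (SU (e + 2) F q)} (he : 1 ≤ e) (h32 : ¬ (e + 2 = 3 ∧ q = 2)) (hK : K ≠ ⊤) :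
    ∃ (g : SU (e + 2) F q) (c : F), c + c ^ q = 0 ∧ EE (e := e) hF α 0 c ∉ cj g K := by
  obtain ⟨x, c, hx0, hx, hc, hm⟩ := exists_missing hF (by omega) h32 hK
  obtain ⟨g, hg⟩ := exists_act_eq hF (n := e + 2) (by omega) hx hx0 (vE_iso hF hα) (vE_ne hF hα)
  refine ⟨g, c, hc, ?_⟩
  rw [EE_zero_eq_tau hF hα, mem_cj, ← hg]
  have h1 := conj_tau hF g hx hc
  have h2 : g⁻¹ * tau hF (act g x) c * g = tau hF x c := by
    rw [mul_assoc, ← mul_inv_eq_iff_eq_mul.2 h1]
    group
  rw [h2]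
  exact hm

/-- The bound in `SU₄(q)`, `q ≥ 3`. -/
theorem main4_q3 (hq3 : 3 ≤ q) {K : Subgroup (SU (2 + 2) F q)} (hK : K ≠ ⊤) :
    (q + 1) * (q ^ 3 + 1) ≤ K.index := by
  obtain ⟨g, c, hc, hm⟩ := exists_conj_missing hF hα (e := 2) (by norm_num) (by omega) hK
  have h := bound_of_missing hF hα hq3 (cj g K) hc hm
  rwa [index_cj] at h

end Main

end Cfsg.Agent.Lib.PSUIdx
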