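import Mathlib
import Cfsg.Agent.Lib.PSUIdxI

/-!
# The group `SU₄(2)`: the residual configuration
-/

set_option autoImplicit false
set_option linter.unusedSectionVars false
set_option linter.unusedVariables false

namespace Cfsg.Agent.Lib.PSUIdx

open Matrix Cfsg Cfsg.Agent.Lib.HermForm Cfsg.Agent.Lib.FFNorm Cfsg.Agent.Lib.UnitaryE
  Cfsg.Agent.Lib.UnitarySU Cfsg.Agent.Lib.SUMinDeg
open Cfsg.Agent.Lib.PSU35A (cj mem_cj)
open scoped Pointwise

variable {F : Type*} [Field F] [Fintype F] {q : ℕ}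

section Two

variable (hF : Fintype.card F = 2 ^ 2)
include hF

lemma card_SU4_two : Nat.card (SU (2 + 2) F 2) = 25920 := by
  have h := card_SU hF (2 + 2) (by norm_num)
  have h2 : (2 : ℕ) ^ ((2 + 2) * (2 + 2 - 1) / 2) * ∏ i ∈ Finset.range (2 + 2),
      (if Even i then 2 ^ (i + 1) + 1 else 2 ^ (i + 1) - 1) = 77760 := by decide
  rw [h2] at h
  omega

lemma card_Iso_two : Nat.card (IsoV (2 + 2) F 2) = 135 := by
  rw [card_Iso4 hF]
  norm_num

variable {α : F} (hα : α ^ 2 * α = -1)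
include hα

lemma card_stab_two : Nat.card (stabV (vE (e := 2) α) : Subgroup (SU (2 + 2) F 2)) = 192 := by
  have h1 := index_stabV hF (n := 2 + 2) (by norm_num) (vE_mem hF hα (e := 2))
  have h2 := Subgroup.card_mul_index (stabV (vE (e := 2) α) : Subgroup (SU (2 + 2) F 2))
  rw [h1, card_Iso_two hF, card_SU4_two hF] at h2
  omega

/-- The vector stabiliser in `SU₄(2)`. -/
lemma stab_decomp {s : SU (2 + 2) F 2} (hs : act s (vE α) = vE α) :
    ∃ (y : SU (2 + 2) F 2) (l : SU 2 F 2), y ∈ QQ hF hα 2 ∧ s = y * iota l := by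
  classical
  let f : (QQ hF hα 2) × SU 2 F 2 → (stabV (vE (e := 2) α) : Subgroup (SU (2 + 2) F 2)) := fun p =>
    ⟨p.1.1 * iota p.2, (stabV (vE (e := 2) α)).mul_mem (QQ_le_stab hF hα p.1.2) (iota_mem_stab hF p.2)⟩
  have hinj : Function.Injective f := by
    rintro ⟨⟨_, u, s₁, h₁, rfl⟩, l⟩ ⟨⟨_, u', s₂, h₂, rfl⟩, l'⟩ h
    have h0 : EE hF α u s₁ * iota l = EE hF α u' s₂ * iota l' := congrArg Subtype.val h
    obtain ⟨β, hβ⟩ : ∃ β : F, β + β ^ 2 = -1 :=
      exists_trace_eq hF (t := -1) (by rw [neg_pow_q hF, one_pow])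
    have h1 : act (EE hF α u s₁ * iota l) (wE α β) = wE α β + (inc u + s₁ • vE α) := by
      rw [act_mul, act_iota_wE, act_EE_wE hF hα h₁]
    have h2 : act (EE hF α u' s₂ * iota l') (wE α β) = wE α β + (inc u' + s₂ • vE α) := by
      rw [act_mul, act_iota_wE, act_EE_wE hF hα h₂]
    rw [h0, h2] at h1
    have h3 := add_left_cancel h1
    have h4 := congrArg (fun x => hermForm (2 + 2) F 2 x (wE α β)) h3
    simp only [hermForm_add_left, hermForm_smul_left, inc_wE hF, vE_wE hF hα, zero_add, mul_one] at h4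
    subst h4
    have h5 : u' = u := inc_injective (add_right_cancel h3)
    subst h5
    have h6 : iota l = iota l' := mul_left_cancel h0
    have h7 := iota_injective h6
    subst h7
    rfl
  have hcard : Nat.card (stabV (vE (e := 2) α) : Subgroup (SU (2 + 2) F 2)) ≤ Nat.card ((QQ hF hα 2) × SU 2 F 2) := by
    rw [Nat.card_prod, card_stab_two hF hα, card_SU2 hF]
    have h1 := card_QQ_ge hF hα (e := 2)
    norm_num at h1 ⊢
    omega
  have hbij := Function.Injective.bijective_of_nat_card_le hinj hcard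
  obtain ⟨⟨y, l⟩, h⟩ := hbij.2 ⟨s, hs⟩
  exact ⟨y.1, l, y.2, (congrArg Subtype.val h).symm⟩

lemma one_isScale : IsScale (e := 2) α (1 : SU (2 + 2) F 2) 1 1 :=
  ⟨one_ne_zero, one_ne_zero, by norm_num, by rw [act_one, one_smul], fun u => by rw [act_one, one_smul]⟩

lemma norm_two {ξ : F} (hξ : ξ ≠ 0) : ξ * ξ ^ 2 = 1 := by
  have h3 := FiniteField.pow_card_sub_one_eq_one ξ hξ
  rw [hF] at h3
  norm_num at h3
  linear_combination h3

/-- In the residual configuration no element of `K` scales the vector. -/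
lemma no_scale {K : Subgroup (SU (2 + 2) F 2)} (hR : Resid hF hα K) {g : SU (2 + 2) F 2} (hg : g ∈ K)
    {ξ : F} (hξ : ξ ≠ 0) (h : act g (vE α) = ξ • vE α) : ξ = 1 := by
  obtain ⟨y₁, y₂, g₀, hT, -, -, -⟩ := hR
  have hn := norm_two hF hα hξ
  obtain ⟨D, hD⟩ := exists_DD (α := α) hF hξ hn
  have hs : act (D⁻¹ * g) (vE α) = vE α := by
    rw [act_mul, h, act_smul, hD.inv.hv, smul_smul, mul_inv_cancel₀ hξ, one_smul]
  obtain ⟨y, l, hy, hsd⟩ := stab_decomp hF hα hs
  have hy1 : iota l⁻¹ * y * (iota l⁻¹)⁻¹ ∈ QQ hF hα 2 := hN_QQ hF hα l⁻¹ y hy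
  have hgd : (1 * (iota (1 : SU 2 F 2) * 1))⁻¹ * (D * (iota l * (iota l⁻¹ * y * (iota l⁻¹)⁻¹))) = g := by
    have h3 : g = D * (y * iota l) := by rw [← hsd]; group
    rw [h3]
    simp only [map_inv, map_one]
    group
  have hK : (1 * (iota (1 : SU 2 F 2) * 1))⁻¹ * (D * (iota l * (iota l⁻¹ * y * (iota l⁻¹)⁻¹))) ∈ K := by
    rw [hgd]; exact hg
  obtain ⟨-, hY⟩ := coset_scale hF hα (one_isScale hF hα) hD ((QQ hF hα 2).one_mem) hy1 hK
  have hξ3 : ξ ^ 2 * ξ⁻¹ = ξ := by
    field_simp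
  have hY2 : ∀ u ∈ YY hF hα K, ξ • act l u ∈ YY hF hα K := by
    intro u hu
    have h3 := hY u hu
    simpa [hξ3, act_one] using h3
  have h5 := sigma_one hF hT.h11 hT.h22 hT.h12 hT.hg0 hT.hg hn (hT.hle (hY2 _ hT.m1)) (hT.hle (hY2 _ hT.m2))
  have h6 : ξ * (ξ * ξ) = 1 := by linear_combination hn
  rw [h5, mul_one] at h6
  exact h6

/-- Bounds in the residual configuration. -/
lemma resid_bounds {K : Subgroup (SU (2 + 2) F 2)} (hR : Resid hF hα K) :
    24 ≤ K.index ∧ 8 ≤ (K.subgroupOf (stabV (vE α))).index := by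
  obtain ⟨y₁, y₂, g₀, hT, hZ, hKK, hW⟩ := id hR
  have h2 : (2 : F) = 0 := two_eq_zero_of_two hF rfl
  have H1 := mi_even hF hα hT h2
  have H2 := index_ineq hF hα (K := K) (e := 2)
  have H3 := mi_stab hF hα K
  have hz : Nat.card (ZZ hF hα K) = 1 := by
    rw [hZ]; simp
  have hr : Nat.card (YY hF hα K) ≤ 2 ^ 2 := by
    have h3 : YY hF hα K ≤ WW hF y₁ y₂ := hT.hle
    exact (Nat.card_le_card_of_injective (AddSubgroup.inclusion h3) (AddSubgroup.inclusion_injective h3)).trans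
      (card_WW_le hF y₁ y₂)
  rw [hz, mul_one] at H2
  have ht : 8 ≤ (K.subgroupOf (QQ hF hα 2)).index := by
    by_contra hcon
    push Not at hcon
    have h3 : (K.subgroupOf (QQ hF hα 2)).index * Nat.card (YY hF hα K) ≤ 7 * 4 :=
      Nat.mul_le_mul (by omega) (by simpa using hr)
    norm_num at H2
    omega
  have hi : 1 ≤ (KK hF hα K).index := Nat.pos_of_ne_zero Subgroup.index_ne_zero_of_finite
  have hk : 1 ≤ Nat.card (MulAction.orbit (FqU hF) (ZZ hF hα K)) := by
    haveI : Nonempty (MulAction.orbit (FqU hF) (ZZ hF hα K)) := ⟨⟨_, MulAction.mem_orbit_self _⟩⟩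
    exact Nat.card_pos
  have h8 : 8 ≤ (KK hF hα K).index * (K.subgroupOf (QQ hF hα 2)).index := by
    calc 8 = 1 * 8 := by norm_num
      _ ≤ _ := Nat.mul_le_mul hi ht
  refine ⟨?_, h8.trans H3⟩
  calc 24 = 1 * (2 + 1) * 8 := by norm_num
    _ ≤ Nat.card (MulAction.orbit (FqU hF) (ZZ hF hα K)) * (2 + 1) * ((KK hF hα K).index * (K.subgroupOf (QQ hF hα 2)).index) :=
        Nat.mul_le_mul (Nat.mul_le_mul_right _ hk) h8
    _ ≤ _ := H1

/-- In the residual configuration, no transvection lies in `K`. -/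
theorem no_cen {K : Subgroup (SU (2 + 2) F 2)} (hR : Resid hF hα K) (hn : K.index < 27)
    (hv : vE α ∉ Cen hF K) (z : Fin (2 + 2) → F) : z ∉ Cen hF K := by
  classical
  intro hz
  obtain ⟨hn24, ht8⟩ := resid_bounds hF hα hR
  have hI := orb_index hF (n := 2 + 2) (by norm_num) (vE_mem hF hα) K
  rw [card_Iso_two hF] at hI
  set A := Nat.card (orbV K (vE (e := 2) α)) with hA
  -- the three orbits and the centres
  have hF3 : Nat.card {c : F // c ≠ 0} = 3 := by
    rw [Nat.card_eq_fintype_card, Fintype.card_subtype_compl]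
    simp [hF]
  have hcount : Nat.card (((orbV K (vE (e := 2) α)) × {c : F // c ≠ 0}) ⊕ Cen hF K) ≤ 135 := by
    rw [← card_Iso_two hF]
    refine Nat.card_le_card_of_injective (fun o => match o with
      | Sum.inl p => ⟨p.2.1 • p.1.1, ?_⟩
      | Sum.inr c => ⟨c.1, Cen_sub_Iso hF K c.2⟩) ?_
    · obtain ⟨⟨_, g, -, rfl⟩, c, hc⟩ := p
      refine ⟨?_, smul_ne_zero hc (act_ne_zero hF g (vE_ne hF hα))⟩
      rw [hermForm_smul_left, hermForm_smul_right, herm_act, vE_iso hF hα]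
      ring
    · rintro (⟨⟨_, g, hg, rfl⟩, c, hc⟩ | ⟨w, hw⟩) (⟨⟨_, g', hg', rfl⟩, c', hc'⟩ | ⟨w', hw'⟩) h
      · have h1 : c • act g (vE α) = c' • act g' (vE α) := congrArg Subtype.val h
        have h2 : act (g'⁻¹ * g) (vE α) = (c⁻¹ * c') • vE α := by
          have h3 : act g (vE α) = c⁻¹ • (c' • act g' (vE α)) := by
            rw [← h1, smul_smul, inv_mul_cancel₀ hc, one_smul]
          rw [act_mul, h3, act_smul, act_smul, ← act_mul, inv_mul_cancel, act_one, smul_smul]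
        have h4 := no_scale hF hα hR (K.mul_mem (K.inv_mem hg') hg) (mul_ne_zero (inv_ne_zero hc) hc') h2
        have h5 : c = c' := by
          field_simp at h4
          exact h4.symm
        subst h5
        have h6 : act g (vE α) = act g' (vE α) := smul_right_injective _ hc h1
        simp only [h6]
      · exfalso
        have h1 : c • act g (vE α) = w' := congrArg Subtype.val h
        apply hv
        have h2 := Cen_smul hF (inv_ne_zero hc) (Cen_act hF (K.inv_mem hg) (z := w') hw')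
        rw [← h1, act_smul, ← act_mul, inv_mul_cancel, act_one, smul_smul, inv_mul_cancel₀ hc, one_smul] at h2
        exact h2
      · exfalso
        have h1 : w = c' • act g' (vE α) := congrArg Subtype.val h
        apply hv
        have h2 := Cen_smul hF (inv_ne_zero hc') (Cen_act hF (K.inv_mem hg') (z := w) hw)
        rw [h1, act_smul, ← act_mul, inv_mul_cancel, act_one, smul_smul, inv_mul_cancel₀ hc', one_smul] at h2
        exact h2
      · have h1 : w = w' := congrArg Subtype.val h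
        subst h1
        rfl
  rw [Nat.card_sum, Nat.card_prod, hF3] at hcount
  set C := Nat.card (Cen hF K) with hC
  set m := K.index with hm
  have hA42 : 42 ≤ A := by
    by_contra hcon
    push Not at hcon
    have h1 : A * m ≤ 41 * 26 := Nat.mul_le_mul (by omega) (by omega)
    have h2 : 8 * 135 ≤ (K.subgroupOf (stabV (vE α))).index * 135 := Nat.mul_le_mul_right _ ht8
    omega
  have hC9 : C ≤ 9 := by omega
  have hI2 := orb_index hF (n := 2 + 2) (by norm_num) (Cen_sub_Iso hF K hz) K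
  rw [card_Iso_two hF] at hI2
  have hB : Nat.card (orbV K z) ≤ C := Nat.card_mono (Set.toFinite _) (orbV_sub_Cen hF hz)
  set B := Nat.card (orbV K z) with hBd
  set t := (K.subgroupOf (stabV z)).index with ht
  have ht0 : t ≠ 0 := Subgroup.index_ne_zero_of_finite
  have hI3 : B * m = t * 135 := hI2
  have ht1 : t = 1 := by
    by_contra hcon
    have h2 : 2 * 135 ≤ t * 135 := Nat.mul_le_mul_right _ (by omega)
    have h3 : B * m ≤ 9 * 26 := Nat.mul_le_mul (by omega) (by omega)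
    omega
  rw [ht1] at hI3
  have hm3 : m = 24 ∨ m = 25 ∨ m = 26 := by omega
  rcases hm3 with h | h | h <;> rw [h] at hI3 <;> omega

/-- A proper subgroup of small index contains no transvection. -/
theorem no_cen_all {K : Subgroup (SU (2 + 2) F 2)} (hK : K ≠ ⊤) (hn : K.index < 27)
    (z : Fin (2 + 2) → F) : z ∉ Cen hF K := by
  intro hz
  obtain ⟨x, c, hx0, hx, hc, hm⟩ := exists_missing hF (n := 2 + 2) (by norm_num) (by omega) hK
  obtain ⟨g, hg⟩ := exists_act_eq hF (n := 2 + 2) (by norm_num) hx hx0 (vE_iso hF hα) (vE_ne hF hα)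
  have hcK : EE (e := 2) hF α 0 c ∉ cj g K := by
    rw [EE_zero_eq_tau hF hα, mem_cj, ← hg]
    have h1 := conj_tau hF g hx hc
    have h2 : g⁻¹ * tau hF (act g x) c * g = tau hF x c := by
      rw [mul_assoc, ← mul_inv_eq_iff_eq_mul.2 h1]
      group
    rw [h2]
    exact hm
  have hn' : (cj g K).index < 27 := by rw [index_cj]; exact hn
  have hR : Resid hF hα (cj g K) := (analysis hF hα (cj g K) hc hcK).resolve_left (by
    norm_num
    exact hn')
  have hv : vE α ∉ Cen hF (cj g K) := by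
    intro h
    apply hcK
    rw [EE_zero_eq_tau hF hα]
    exact h.2.2 c hc
  exact no_cen hF hα hR hn' hv _ (Cen_cj hF g hz)

omit hF hα in
/-- Shifting the vector of a root element by a multiple of the centre. -/
lemma mkE_shift {q n : ℕ} (hF : Fintype.card F = q ^ 2) {v y : Fin n → F} {s c : F}
    (hG : Good q v (c • v + y) s) (hyv : hermForm n F q y v = 0) :
    mkE hF v (c • v + y) s = mkE hF v y (s + c - c ^ q) := by
  have hvv := hG.1
  have hvy : hermForm n F q v y = 0 := herm_zero_of_conj hF hyv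
  have hG2 : Good q v y (s + c - c ^ q) := by
    refine ⟨hvv, hyv, ?_⟩
    have h1 := hG.2.2
    simp only [hermForm_add_left, hermForm_add_right hF, hermForm_smul_left, hermForm_smul_right, hvv, hyv, hvy] at h1
    rw [sub_pow_q hF, add_pow_q hF, pow_pow_self hF]
    linear_combination h1
  apply ext_act
  intro x
  rw [act_mkE hF hG, act_mkE hF hG2, hermForm_add_right hF, hermForm_smul_right]
  module

/-- The local structure of `K` at a point of a totally isotropic line. -/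
theorem local_line {K : Subgroup (SU (2 + 2) F 2)} (hn : K.index < 27) {v b : Fin (2 + 2) → F}
    (hv0 : v ≠ 0) (hvv : hermForm (2 + 2) F 2 v v = 0) (hbb : hermForm (2 + 2) F 2 b b = 0)
    (hbv : hermForm (2 + 2) F 2 b v = 0) (hbn : ∀ c : F, b ≠ c • v) (hvC : tau hF v 1 ∉ K) :
    ∃ p₀ s₀ : F, p₀ ≠ 0 ∧ s₀ + s₀ ^ 2 = 0 ∧ mkE hF v (p₀ • b) s₀ ∈ K ∧
      ∀ p s : F, s + s ^ 2 = 0 → mkE hF v (p • b) s ∈ K → (p = 0 ∧ s = 0) ∨ (p = p₀ ∧ s = s₀) := by
  classical
  have h20 : (2 : F) = 0 := two_eq_zero_of_two hF rfl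
  have h11 : (1 : F) + 1 ^ 2 = 0 := by linear_combination h20
  obtain ⟨g, hg⟩ := exists_act_eq hF (n := 2 + 2) (by norm_num) hvv hv0 (vE_iso hF hα) (vE_ne hF hα)
  have hcK : EE (e := 2) hF α 0 1 ∉ cj g K := by
    rw [EE_zero_eq_tau hF hα, mem_cj, ← hg]
    have h1 := conj_tau hF g hvv h11
    have h2 : g⁻¹ * tau hF (act g v) 1 * g = tau hF v 1 := by
      rw [mul_assoc, ← mul_inv_eq_iff_eq_mul.2 h1]
      group
    rw [h2]
    exact hvC
  have hn' : (cj g K).index < 27 := by rw [index_cj]; exact hn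
  obtain ⟨y₁, y₂, g₀, hT, hZ, hKK, hW⟩ : Resid hF hα (cj g K) :=
    (analysis hF hα (cj g K) h11 hcK).resolve_left (by
      norm_num
      exact hn')
  obtain ⟨β, hβ⟩ : ∃ β : F, β + β ^ 2 = -1 :=
    exists_trace_eq hF (t := -1) (by rw [neg_pow_q hF, one_pow])
  have hBv : hermForm (2 + 2) F 2 (act g b) (vE α) = 0 := by
    rw [← hg, herm_act]
    exact hbv
  have hdec := decomp hF hα hβ (act g b)
  rw [hBv, zero_smul, add_zero] at hdec
  set x₀ := rest α β 2 (act g b) with hx₀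
  set c₀ := hermForm (2 + 2) F 2 (act g b) (wE α β) with hc₀
  have hv00 := vE_iso (e := 2) hF hα
  have hform : ∀ (c c' : F) (y y' : Fin 2 → F), hermForm (2 + 2) F 2 (c • vE α + inc y) (c' • vE α + inc y') =
      hermForm 2 F 2 y y' := by
    intro c c' y y'
    simp only [hermForm_add_left, hermForm_add_right hF, hermForm_smul_left, hermForm_smul_right, hv00,
      inc_vE hF, vE_inc hF, herm_inc hF]
    ring
  have hx00 : x₀ ≠ 0 := by
    intro h
    rw [h, inc_zero, add_zero, ← hg] at hdec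
    apply hbn c₀
    have h3 : act g⁻¹ (act g b) = b := by rw [← act_mul, inv_mul_cancel, act_one]
    rw [hdec, act_smul, ← act_mul, inv_mul_cancel, act_one] at h3
    exact h3.symm
  have hxx : hermForm 2 F 2 x₀ x₀ = 0 := by
    have h1 : hermForm (2 + 2) F 2 (act g b) (act g b) = 0 := by rw [herm_act]; exact hbb
    rw [hdec, hform] at h1
    exact h1
  -- the form on `Y`
  have hg₀ : g₀ = 1 := by
    have h1 := hT.hg
    have h2 : g₀ * (g₀ - 1) = 0 := by linear_combination h1 - g₀ * h20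
    exact sub_eq_zero.1 ((mul_eq_zero.1 h2).resolve_left hT.hg0)
  have h12 : hermForm 2 F 2 y₁ y₂ = 1 := by rw [hT.h12, hg₀]
  have h21 : hermForm 2 F 2 y₂ y₁ = 1 := by rw [← hermForm_conj hF y₁ y₂, h12, one_pow]
  have hdx := SUGen.dim2_dec hF hT.h11 hT.h22 h21 x₀
  set A := hermForm 2 F 2 x₀ y₂ with hA
  set C := hermForm 2 F 2 x₀ y₁ with hC
  have hAC : A * C * (A + C) = 0 := by
    have h1 := hxx
    rw [hdx] at h1
    simp only [hermForm_add_left, hermForm_add_right hF, hermForm_smul_left, hermForm_smul_right, hT.h11, hT.h22,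
      h12, h21] at h1
    linear_combination h1
  have hy1 : y₁ ∈ WW hF y₁ y₂ := ⟨1, 0, one_pow 2, by ring, by simp⟩
  have hy2 : y₂ ∈ WW hF y₁ y₂ := ⟨0, 1, by ring, one_pow 2, by simp⟩
  -- the distinguished vector
  obtain ⟨ys, p₀, hysW, hys0, hp₀, hys⟩ : ∃ (ys : Fin 2 → F) (p₀ : F), ys ∈ WW hF y₁ y₂ ∧ ys ≠ 0 ∧ p₀ ≠ 0 ∧
      ys = p₀ • x₀ := by
    have hy10 : y₁ ≠ 0 := by
      rintro h
      rw [h, hermForm_zero_left] at h12
      exact zero_ne_one h12
    have hy20 : y₂ ≠ 0 := by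
      rintro h
      rw [h, hermForm_zero_left] at h21
      exact zero_ne_one h21
    rcases mul_eq_zero.1 hAC with h | h
    · rcases mul_eq_zero.1 h with h | h
      · have hC0 : C ≠ 0 := by
          rintro hC0
          rw [h, hC0, zero_smul, zero_smul, add_zero] at hdx
          exact hx00 hdx
        refine ⟨y₂, C⁻¹, hy2, hy20, inv_ne_zero hC0, ?_⟩
        rw [hdx, h, zero_smul, zero_add, smul_smul, inv_mul_cancel₀ hC0, one_smul]
      · have hA0 : A ≠ 0 := by
          rintro hA0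
          rw [h, hA0, zero_smul, zero_smul, add_zero] at hdx
          exact hx00 hdx
        refine ⟨y₁, A⁻¹, hy1, hy10, inv_ne_zero hA0, ?_⟩
        rw [hdx, h, zero_smul, add_zero, smul_smul, inv_mul_cancel₀ hA0, one_smul]
    · have hAC' : C = A := by linear_combination h - A * h20
      have hA0 : A ≠ 0 := by
        rintro hA0
        rw [hAC', hA0, zero_smul, zero_smul, add_zero] at hdx
        exact hx00 hdx
      refine ⟨y₁ + y₂, A⁻¹, (WW hF y₁ y₂).add_mem hy1 hy2, ?_, inv_ne_zero hA0, ?_⟩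
      · intro h0
        have h3 := congrArg (fun z => hermForm 2 F 2 z y₂) h0
        simp only [hermForm_add_left, h12, hT.h22, hermForm_zero_left] at h3
        have h3' : (1 : F) = 0 := by simpa using h3
        exact one_ne_zero h3'
      · rw [hdx, hAC', ← smul_add, smul_smul, inv_mul_cancel₀ hA0, one_smul]
  -- proportional vectors of the rational form coincide
  have hprop : ∀ u ∈ WW hF y₁ y₂, ∀ c : F, c • u ∈ WW hF y₁ y₂ → u ≠ 0 → c ≠ 0 → c = 1 := by
    rintro _ ⟨a, b', ha, hb', rfl⟩ c ⟨a', b'', ha', hb'', hc⟩ hne hc0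
    have hc1 := congrArg (fun z => hermForm 2 F 2 z y₂) hc
    have hc2 := congrArg (fun z => hermForm 2 F 2 z y₁) hc
    simp only [hermForm_smul_left, hermForm_add_left, hT.h22, hT.h11, h12, h21] at hc1 hc2
    have e1 : c * a = a' := by linear_combination hc1
    have e2 : c * b' = b'' := by linear_combination hc2
    have hc3 : ∀ r r' : F, r ^ 2 = r → r' ^ 2 = r' → r ≠ 0 → c * r = r' → c = 1 := by
      intro r r' hr hr' hr0 h
      have hr1 : r = 1 := by
        have : r * (r - 1) = 0 := by linear_combination hr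
        exact sub_eq_zero.1 ((mul_eq_zero.1 this).resolve_left hr0)
      rw [hr1, mul_one] at h
      subst h
      have : c * (c - 1) = 0 := by linear_combination hr'
      exact sub_eq_zero.1 ((mul_eq_zero.1 this).resolve_left hc0)
    by_cases ha0 : a = 0
    · have hb0 : b' ≠ 0 := by
        rintro rfl
        apply hne
        rw [ha0]
        simp
      exact hc3 b' b'' hb' hb'' hb0 e2
    · exact hc3 a a' ha ha' ha0 e1
  -- the conjugated root element
  have hS : ∀ p s : F, (s + p * c₀ - (p * c₀) ^ 2) + (s + p * c₀ - (p * c₀) ^ 2) ^ 2 = s + s ^ 2 := by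
    intro p s
    have h4 := pow_pow_self hF (p * c₀)
    rw [sub_pow_q hF, add_pow_q hF, h4]
    ring
  have hconj : ∀ p s : F, s + s ^ 2 = 0 →
      g * mkE hF v (p • b) s * g⁻¹ = EE hF α (p • x₀) (s + p * c₀ - (p * c₀) ^ 2) := by
    intro p s hs
    have hG : Good 2 v (p • b) s := by
      refine ⟨hvv, by rw [hermForm_smul_left, hbv, mul_zero], ?_⟩
      rw [hermForm_smul_left, hermForm_smul_right, hbb]
      linear_combination hs
    rw [conj_mkE hF g hG, mul_inv_cancel_right, hg, act_smul, hdec]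
    have h5 : p • (c₀ • vE α + inc x₀) = (p * c₀) • vE α + inc (p • x₀) := by
      rw [smul_add, smul_smul, inc_smul]
    rw [h5]
    have hG' : Good 2 (vE α) ((p * c₀) • vE α + inc (p • x₀)) s := by
      have h6 := hG
      refine ⟨hv00, ?_, ?_⟩
      · simp only [hermForm_add_left, hermForm_smul_left, hv00, inc_vE hF]
        ring
      · simp only [hermForm_add_left, hermForm_add_right hF, hermForm_smul_left, hermForm_smul_right, hv00,
          inc_vE hF, vE_inc hF, herm_inc hF, hxx]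
        linear_combination hs
    rw [mkE_shift hF hG' (inc_vE hF _)]
    rfl
  have hGd : ∀ p s : F, s + s ^ 2 = 0 → Gd 2 (p • x₀) (s + p * c₀ - (p * c₀) ^ 2) := by
    intro p s hs
    unfold Gd
    rw [hS, hermForm_smul_left, hermForm_smul_right, hxx]
    linear_combination hs
  have hmem : ∀ p s : F, s + s ^ 2 = 0 →
      (mkE hF v (p • b) s ∈ K ↔ EE hF α (p • x₀) (s + p * c₀ - (p * c₀) ^ 2) ∈ cj g K) := by
    intro p s hs
    rw [← hconj p s hs, mem_cj]
    have : g⁻¹ * (g * mkE hF v (p • b) s * g⁻¹) * g = mkE hF v (p • b) s := by group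
    rw [this]
  -- the element
  obtain ⟨ss, hss, hssm⟩ := hW hysW
  have hssT : ss + ss ^ 2 = 0 := by
    have h3 := hss
    unfold Gd at h3
    rw [hys, hermForm_smul_left, hermForm_smul_right, hxx] at h3
    linear_combination h3
  set s₀ := ss - p₀ * c₀ + (p₀ * c₀) ^ 2 with hs₀
  have hs₀e : s₀ + p₀ * c₀ - (p₀ * c₀) ^ 2 = ss := by
    rw [hs₀]
    ring
  have hs₀T : s₀ + s₀ ^ 2 = 0 := by
    have h3 := hS p₀ s₀
    rw [hs₀e] at h3
    rw [← h3]
    exact hssT
  refine ⟨p₀, s₀, hp₀, hs₀T, ?_, ?_⟩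
  · rw [hmem p₀ s₀ hs₀T, hs₀e, ← hys]
    exact hssm
  · intro p s hs hm
    rw [hmem p s hs] at hm
    by_cases hp : p = 0
    · left
      refine ⟨hp, ?_⟩
      subst hp
      simp only [zero_smul, zero_mul] at hm
      have h3 : s + 0 - 0 ^ 2 = s := by ring
      rw [h3] at hm
      have h4 : s ∈ ZZ hF hα (cj g K) := ⟨hs, hm⟩
      rw [hZ, AddSubgroup.mem_bot] at h4
      exact h4
    · right
      have h3 : p • x₀ ∈ WW hF y₁ y₂ := hT.hle ⟨_, hGd p s hs, hm⟩
      have h4 : p₀⁻¹ * p = 1 := by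
        refine hprop _ hysW _ ?_ hys0 (mul_ne_zero (inv_ne_zero hp₀) hp)
        have h5 : (p₀⁻¹ * p) • ys = p • x₀ := by
          rw [hys, smul_smul]
          congr 1
          field_simp
        rw [h5]
        exact h3
      have hpp : p = p₀ := by
        field_simp at h4
        exact h4
      refine ⟨hpp, ?_⟩
      subst hpp
      rw [← hys] at hm
      have h5 : s + p * c₀ - (p * c₀) ^ 2 = ss := by
        refine EE_uniq hF hα hZ ?_ hss hm hssm
        have := hGd p s hs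
        rwa [← hys] at this
      rw [hs₀, ← h5]
      ring

end Two

section FourModel

/-- Addition in the field with four elements. -/
def addC (a b : Fin 4) : Fin 4 :=
  (![![0, 1, 2, 3], ![1, 0, 3, 2], ![2, 3, 0, 1], ![3, 2, 1, 0]] : Fin 4 → Fin 4 → Fin 4) a b

/-- Multiplication in the field with four elements. -/
def mulC (a b : Fin 4) : Fin 4 :=
  (![![0, 0, 0, 0], ![0, 1, 2, 3], ![0, 2, 3, 1], ![0, 3, 1, 2]] : Fin 4 → Fin 4 → Fin 4) a b

/-- The covering relation in the model. -/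
def CovC (i : Option (Fin 4)) (s P β : Fin 4) : Prop :=
  match i with
  | none => s = 0
  | some μ => β = addC (addC (mulC P (mulC μ μ)) (mulC (mulC P P) μ)) (mulC s (mulC μ (mulC μ μ)))

instance (i : Option (Fin 4)) (s P β : Fin 4) : Decidable (CovC i s P β) := by
  unfold CovC
  cases i <;> exact inferInstance

lemma model_card : ∀ s P β : Fin 4, (s = 0 ∨ s = 1) → (β = 0 ∨ β = 1) →
    addC (mulC s β) (mulC P (mulC P P)) ≠ 0 →
    (Finset.univ.filter (fun i => CovC i s P β)).card = 3 := by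
  decide

variable (hF : Fintype.card F = 2 ^ 2)
include hF

lemma exists_omega : ∃ ω : F, ω * ω = ω + 1 ∧ ω ≠ 0 ∧ ω ≠ 1 := by
  have h20 : (2 : F) = 0 := two_eq_zero_of_two hF rfl
  obtain ⟨ω, hω⟩ := exists_frob_ne hF
  have h0 : ω ≠ 0 := by
    rintro rfl
    exact hω (by ring)
  have h1 : ω ≠ 1 := by
    rintro rfl
    exact hω (by ring)
  refine ⟨ω, ?_, h0, h1⟩
  have h4 := pow_pow_self hF ω
  have h5 : ω * ((ω - 1) * (ω * ω + ω + 1)) = 0 := by linear_combination h4
  have h6 := (mul_eq_zero.1 ((mul_eq_zero.1 h5).resolve_left h0)).resolve_left (sub_ne_zero.2 h1)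
  linear_combination h6 - (ω + 1) * h20

/-- The identification with the model. -/
def phiC (ω : F) : Fin 4 → F := ![0, 1, ω, ω + 1]

variable {ω : F} (h1 : ω * ω = ω + 1) (h2 : ω ≠ 0) (h3 : ω ≠ 1)
include h1 h2 h3

lemma phiC_add (a b : Fin 4) : phiC ω (addC a b) = phiC ω a + phiC ω b := by
  have h20 : (2 : F) = 0 := two_eq_zero_of_two hF rfl
  fin_cases a <;> fin_cases b <;> simp [addC, phiC] <;> grind

lemma phiC_mul (a b : Fin 4) : phiC ω (mulC a b) = phiC ω a * phiC ω b := by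
  have h20 : (2 : F) = 0 := two_eq_zero_of_two hF rfl
  fin_cases a <;> fin_cases b <;> simp [mulC, phiC] <;> grind

lemma phiC_inj : Function.Injective (phiC ω) := by
  have h20 : (2 : F) = 0 := two_eq_zero_of_two hF rfl
  intro a b h
  fin_cases a <;> fin_cases b <;> simp [phiC] at h ⊢ <;> grind

lemma phiC_bij : Function.Bijective (phiC ω) := by
  refine Function.Injective.bijective_of_nat_card_le (phiC_inj hF h1 h2 h3) ?_
  rw [Nat.card_eq_fintype_card, hF]
  simp

end FourModel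

section Line

variable (hF : Fintype.card F = 2 ^ 2)

/-- An element of the unipotent radical of a line stabiliser. -/
noncomputable def RH (hF : Fintype.card F = 2 ^ 2) (e₁ e₂ : Fin (2 + 2) → F) (s p β : F) : SU (2 + 2) F 2 :=
  mkE hF e₁ (p • e₂) s * tau hF e₂ β

/-- A totally isotropic line with dual vectors. -/
structure LineData (e₁ e₂ f₁ f₂ : Fin (2 + 2) → F) : Prop where
  h11 : hermForm (2 + 2) F 2 e₁ e₁ = 0
  h22 : hermForm (2 + 2) F 2 e₂ e₂ = 0
  h12 : hermForm (2 + 2) F 2 e₁ e₂ = 0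
  hf11 : hermForm (2 + 2) F 2 f₁ e₁ = 1
  hf12 : hermForm (2 + 2) F 2 f₁ e₂ = 0
  hf21 : hermForm (2 + 2) F 2 f₂ e₁ = 0
  hf22 : hermForm (2 + 2) F 2 f₂ e₂ = 1

variable {e₁ e₂ f₁ f₂ : Fin (2 + 2) → F} (L : LineData e₁ e₂ f₁ f₂)

include hF L

lemma LineData.h21 : hermForm (2 + 2) F 2 e₂ e₁ = 0 := herm_zero_of_conj hF L.h12

lemma LineData.e1f1 : hermForm (2 + 2) F 2 e₁ f₁ = 1 := by
  rw [← hermForm_conj hF f₁ e₁, L.hf11, one_pow]

lemma LineData.e2f1 : hermForm (2 + 2) F 2 e₂ f₁ = 0 := herm_zero_of_conj hF L.hf12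

lemma LineData.e1f2 : hermForm (2 + 2) F 2 e₁ f₂ = 0 := herm_zero_of_conj hF L.hf21

lemma LineData.e2f2 : hermForm (2 + 2) F 2 e₂ f₂ = 1 := by
  rw [← hermForm_conj hF f₂ e₂, L.hf22, one_pow]

lemma act_RH {s p β : F} (hs : s + s ^ 2 = 0) (hβ : β + β ^ 2 = 0) (x : Fin (2 + 2) → F) :
    act (RH hF e₁ e₂ s p β) x = x + (s * hermForm (2 + 2) F 2 x e₁ + p ^ 2 * hermForm (2 + 2) F 2 x e₂) • e₁ +
      (p * hermForm (2 + 2) F 2 x e₁ + β * hermForm (2 + 2) F 2 x e₂) • e₂ := by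
  have h20 : (2 : F) = 0 := two_eq_zero_of_two hF rfl
  have h21 := L.h21 hF
  have hG : Good 2 e₁ (p • e₂) s := by
    refine ⟨L.h11, by rw [hermForm_smul_left, h21, mul_zero], ?_⟩
    rw [hermForm_smul_left, hermForm_smul_right, L.h22]
    linear_combination hs
  rw [RH, act_mul, act_tau hF L.h22 hβ, act_mkE hF hG]
  simp only [hermForm_add_left, hermForm_smul_left, hermForm_smul_right, h21, L.h22, mul_zero, add_zero]
  funext i
  simp only [Pi.add_apply, Pi.sub_apply, Pi.smul_apply, smul_eq_mul]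
  linear_combination (-(p ^ 2 * hermForm (2 + 2) F 2 x e₂ * e₁ i)) * h20

lemma RH_inj {s p β s' p' β' : F} (hs : s + s ^ 2 = 0) (hβ : β + β ^ 2 = 0) (hs' : s' + s' ^ 2 = 0)
    (hβ' : β' + β' ^ 2 = 0) (h : RH hF e₁ e₂ s p β = RH hF e₁ e₂ s' p' β') : s = s' ∧ p = p' ∧ β = β' := by
  have h1 := congrArg (fun g => act g f₁) h
  have h2 := congrArg (fun g => act g f₂) h
  simp only [act_RH hF L hs hβ, act_RH hF L hs' hβ', L.hf11, L.hf12, L.hf21, L.hf22] at h1 h2
  have a1 := congrArg (fun z => hermForm (2 + 2) F 2 z f₁) h1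
  have a2 := congrArg (fun z => hermForm (2 + 2) F 2 z f₂) h1
  have a3 := congrArg (fun z => hermForm (2 + 2) F 2 z f₂) h2
  simp only [hermForm_add_left, hermForm_smul_left, L.e1f1 hF, L.e2f1 hF, L.e1f2 hF, L.e2f2 hF] at a1 a2 a3
  refine ⟨by linear_combination a1, by linear_combination a2, by linear_combination a3⟩

lemma mkE_point {μ p' s : F} (hs : s + s ^ 2 = 0) :
    mkE hF (e₁ + μ • e₂) (p' • e₂) s = RH hF e₁ e₂ s (p' + s * μ) (p' * μ ^ 2 + s * μ ^ 3 + p' ^ 2 * μ) := by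
  have h20 : (2 : F) = 0 := two_eq_zero_of_two hF rfl
  have h21 := L.h21 hF
  have hss : s ^ 2 = s := by linear_combination hs - s * h20
  have hμ4 : μ ^ 4 = μ := by
    calc μ ^ 4 = (μ ^ 2) ^ 2 := by ring
      _ = μ := pow_pow_self hF μ
  have hp4 : p' ^ 4 = p' := by
    calc p' ^ 4 = (p' ^ 2) ^ 2 := by ring
      _ = p' := pow_pow_self hF p'
  have hβ : (p' * μ ^ 2 + s * μ ^ 3 + p' ^ 2 * μ) + (p' * μ ^ 2 + s * μ ^ 3 + p' ^ 2 * μ) ^ 2 = 0 := by
    have h6 : (p' * μ ^ 2 + s * μ ^ 3 + p' ^ 2 * μ) ^ 2 = p' * μ ^ 2 + s * μ ^ 3 + p' ^ 2 * μ := by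
      have h7 : μ ^ 6 = μ ^ 3 := by
        calc μ ^ 6 = μ ^ 4 * μ ^ 2 := by ring
          _ = μ * μ ^ 2 := by rw [hμ4]
          _ = μ ^ 3 := by ring
      have h8 : (p' * μ ^ 2 + s * μ ^ 3 + p' ^ 2 * μ) ^ 2 =
          p' ^ 2 * μ ^ 4 + s ^ 2 * μ ^ 6 + p' ^ 4 * μ ^ 2 +
            2 * (p' * μ ^ 2 * (s * μ ^ 3) + p' * μ ^ 2 * (p' ^ 2 * μ) + s * μ ^ 3 * (p' ^ 2 * μ)) := by ring
      rw [h8, h20, zero_mul, add_zero, hμ4, hss, h7, hp4]
      ring
    rw [h6]
    linear_combination (p' * μ ^ 2 + s * μ ^ 3 + p' ^ 2 * μ) * h20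
  have hG : Good 2 (e₁ + μ • e₂) (p' • e₂) s := by
    refine ⟨?_, ?_, ?_⟩
    · simp only [hermForm_add_left, hermForm_add_right hF, hermForm_smul_left, hermForm_smul_right, L.h11, L.h12, h21, L.h22]
      ring
    · simp only [hermForm_add_right hF, hermForm_smul_left, hermForm_smul_right, h21, L.h22]
      ring
    · rw [hermForm_smul_left, hermForm_smul_right, L.h22]
      linear_combination hs
  apply ext_act
  intro x
  rw [act_RH hF L hs hβ, act_mkE hF hG]
  simp only [hermForm_add_right hF, hermForm_smul_right]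
  set a := hermForm (2 + 2) F 2 x e₁
  set b := hermForm (2 + 2) F 2 x e₂
  funext i
  simp only [Pi.add_apply, Pi.sub_apply, Pi.smul_apply, smul_eq_mul, add_pow_two, mul_pow]
  have hss2 : s ^ 2 = s := hss
  rw [hss2]
  linear_combination (-(p' ^ 2 * b * e₁ i + p' * s * μ * b * e₁ i) + (-(μ * b * p' ^ 2 * e₂ i))) * h20

lemma mkE_point_inf {p' s : F} (hs : s + s ^ 2 = 0) :
    mkE hF e₂ (p' • e₁) s = RH hF e₁ e₂ 0 (p' ^ 2) s := by
  have h20 : (2 : F) = 0 := two_eq_zero_of_two hF rfl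
  have h21 := L.h21 hF
  have hp4 : (p' ^ 2) ^ 2 = p' := pow_pow_self hF p'
  have h00 : (0 : F) + 0 ^ 2 = 0 := by ring
  have hG : Good 2 e₂ (p' • e₁) s := by
    refine ⟨L.h22, by rw [hermForm_smul_left, L.h12, mul_zero], ?_⟩
    rw [hermForm_smul_left, hermForm_smul_right, L.h11]
    linear_combination hs
  apply ext_act
  intro x
  rw [act_RH hF L h00 hs, act_mkE hF hG, hp4]
  simp only [hermForm_smul_right]
  set a := hermForm (2 + 2) F 2 x e₁
  set b := hermForm (2 + 2) F 2 x e₂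
  funext i
  simp only [Pi.add_apply, Pi.sub_apply, Pi.smul_apply, smul_eq_mul]
  linear_combination (-(p' ^ 2 * a * e₂ i)) * h20

lemma RH_tau_one {P : F} :
    RH hF e₁ e₂ 1 P (P ^ 3) = tau hF (e₁ + P • e₂) 1 := by
  have h20 : (2 : F) = 0 := two_eq_zero_of_two hF rfl
  have h21 := L.h21 hF
  have h1 : (1 : F) + 1 ^ 2 = 0 := by linear_combination h20
  have hP : P ^ 3 + (P ^ 3) ^ 2 = 0 := by
    have h4 := pow_pow_self hF P
    have h5 : (P ^ 3) ^ 2 = P ^ 3 := by
      calc (P ^ 3) ^ 2 = (P ^ 2) ^ 2 * P ^ 2 := by ring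
        _ = P * P ^ 2 := by rw [h4]
        _ = P ^ 3 := by ring
    rw [h5]
    linear_combination P ^ 3 * h20
  have hz : hermForm (2 + 2) F 2 (e₁ + P • e₂) (e₁ + P • e₂) = 0 := by
    simp only [hermForm_add_left, hermForm_add_right hF, hermForm_smul_left, hermForm_smul_right, L.h11, L.h12, h21, L.h22]
    ring
  apply ext_act
  intro x
  rw [act_RH hF L h1 hP, act_tau hF hz h1]
  simp only [hermForm_add_right hF, hermForm_smul_right]
  funext i
  simp only [Pi.add_apply, Pi.smul_apply, smul_eq_mul]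
  ring

lemma RH_tau_two : RH hF e₁ e₂ 0 0 1 = tau hF e₂ 1 := by
  have h20 : (2 : F) = 0 := two_eq_zero_of_two hF rfl
  have h1 : (1 : F) + 1 ^ 2 = 0 := by linear_combination h20
  have h00 : (0 : F) + 0 ^ 2 = 0 := by ring
  apply ext_act
  intro x
  rw [act_RH hF L h00 h1, act_tau hF L.h22 h1]
  funext i
  simp only [Pi.add_apply, Pi.smul_apply, smul_eq_mul]
  ring

end Line

section LineMain

variable (hF : Fintype.card F = 2 ^ 2) {α : F} (hα : α ^ 2 * α = -1)
variable {e₁ e₂ f₁ f₂ : Fin (2 + 2) → F} (L : LineData e₁ e₂ f₁ f₂)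

/-- Membership in the radical. -/
def AA (hF : Fintype.card F = 2 ^ 2) (K : Subgroup (SU (2 + 2) F 2)) (e₁ e₂ : Fin (2 + 2) → F) (s P β : F) : Prop :=
  s + s ^ 2 = 0 ∧ β + β ^ 2 = 0 ∧ RH hF e₁ e₂ s P β ∈ K

/-- The covering relation. -/
def Cov (i : Option F) (s P β : F) : Prop :=
  match i with
  | none => s = 0
  | some μ => β = P * (μ * μ) + (P * P) * μ + s * (μ * (μ * μ))

include hF

lemma Cen_of_tau {K : Subgroup (SU (2 + 2) F 2)} {z : Fin (2 + 2) → F} (h0 : z ≠ 0)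
    (hz : hermForm (2 + 2) F 2 z z = 0) (ht : tau hF z 1 ∈ K) : z ∈ Cen hF K := by
  have h20 : (2 : F) = 0 := two_eq_zero_of_two hF rfl
  refine ⟨h0, hz, fun c hc => ?_⟩
  have h3 : c * (c - 1) = 0 := by linear_combination hc - c * h20
  rcases mul_eq_zero.1 h3 with h4 | h4
  · rw [h4, tau_zero hF _ hz]
    exact K.one_mem
  · rw [sub_eq_zero.1 h4]
    exact ht

include hα L

lemma LineData.e1_ne : e₁ ≠ 0 := by
  intro h
  have := L.hf11
  rw [h, hermForm_zero_right hF] at this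
  exact zero_ne_one this

lemma LineData.e2_ne : e₂ ≠ 0 := by
  intro h
  have := L.hf22
  rw [h, hermForm_zero_right hF] at this
  exact zero_ne_one this

/-- The covering element at each point. -/
theorem cover_exists {K : Subgroup (SU (2 + 2) F 2)} (hK : K ≠ ⊤) (hn : K.index < 27) (i : Option F) :
    ∃ s P β : F, AA hF K e₁ e₂ s P β ∧ ¬ (s = 0 ∧ P = 0 ∧ β = 0) ∧ Cov i s P β ∧
      ∀ s' P' β' : F, AA hF K e₁ e₂ s' P' β' → Cov i s' P' β' →
        (s' = 0 ∧ P' = 0 ∧ β' = 0) ∨ (s' = s ∧ P' = P ∧ β' = β) := by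
  have h20 : (2 : F) = 0 := two_eq_zero_of_two hF rfl
  have h21 := L.h21 hF
  have hnc := no_cen_all hF hα hK hn
  rcases i with _ | μ
  · -- the point `e₂`
    have hbn : ∀ c : F, e₁ ≠ c • e₂ := by
      intro c h
      have h1 := L.hf11
      rw [h, hermForm_smul_right, L.hf12, mul_zero] at h1
      exact zero_ne_one h1
    have hnt : tau hF e₂ 1 ∉ K := fun h => hnc e₂ (Cen_of_tau hF (L.e2_ne hF hα) L.h22 h)
    obtain ⟨p₀, s₀, hp₀, hs₀, hm, hu⟩ := local_line hF hα hn (L.e2_ne hF hα) L.h22 L.h11 L.h12 hbn hnt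
    have h00 : (0 : F) + 0 ^ 2 = 0 := by ring
    refine ⟨0, p₀ ^ 2, s₀, ⟨h00, hs₀, ?_⟩, ?_, rfl, ?_⟩
    · rw [← mkE_point_inf hF L hs₀]
      exact hm
    · rintro ⟨-, h, -⟩
      exact hp₀ (pow_eq_zero_iff (by norm_num) |>.1 h)
    · rintro s' P' β' ⟨h1, h2, h3⟩ h4
      have h4' : s' = 0 := h4
      subst h4'
      have hP : (P' ^ 2) ^ 2 = P' := pow_pow_self hF P'
      have h5 := mkE_point_inf hF L (p' := P' ^ 2) h2
      rw [hP] at h5
      rw [← h5] at h3
      rcases hu _ _ h2 h3 with ⟨h6, h7⟩ | ⟨h6, h7⟩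
      · left
        refine ⟨rfl, ?_, h7⟩
        exact pow_eq_zero_iff (by norm_num) |>.1 h6
      · right
        refine ⟨rfl, ?_, h7⟩
        rw [← h6, hP]
  · -- the point `e₁ + μ e₂`
    have hv0 : e₁ + μ • e₂ ≠ 0 := by
      intro h
      have h1 := congrArg (fun z => hermForm (2 + 2) F 2 z f₁) h
      simp only [hermForm_add_left, hermForm_smul_left, L.e1f1 hF, L.e2f1 hF, hermForm_zero_left] at h1
      have h2 : (1 : F) = 0 := by simpa using h1
      exact one_ne_zero h2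
    have hvv : hermForm (2 + 2) F 2 (e₁ + μ • e₂) (e₁ + μ • e₂) = 0 := by
      simp only [hermForm_add_left, hermForm_add_right hF, hermForm_smul_left, hermForm_smul_right, L.h11, L.h12, h21, L.h22]
      ring
    have hbv : hermForm (2 + 2) F 2 e₂ (e₁ + μ • e₂) = 0 := by
      simp only [hermForm_add_right hF, hermForm_smul_right, h21, L.h22]
      ring
    have hbn : ∀ c : F, e₂ ≠ c • (e₁ + μ • e₂) := by
      intro c h
      have h1 := congrArg (fun z => hermForm (2 + 2) F 2 z f₁) h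
      simp only [hermForm_add_left, hermForm_smul_left, L.e1f1 hF, L.e2f1 hF] at h1
      have hc : c = 0 := by linear_combination -h1
      rw [hc, zero_smul] at h
      exact L.e2_ne hF hα h
    have hnt : tau hF (e₁ + μ • e₂) 1 ∉ K := fun h => hnc _ (Cen_of_tau hF hv0 hvv h)
    obtain ⟨p₀, s₀, hp₀, hs₀, hm, hu⟩ := local_line hF hα hn hv0 hvv L.h22 hbv hbn hnt
    have hss : s₀ ^ 2 = s₀ := by linear_combination hs₀ - s₀ * h20
    have hmm := mkE_point hF L (μ := μ) (p' := p₀) hs₀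
    have hβ0 : (p₀ * μ ^ 2 + s₀ * μ ^ 3 + p₀ ^ 2 * μ) + (p₀ * μ ^ 2 + s₀ * μ ^ 3 + p₀ ^ 2 * μ) ^ 2 = 0 := by
      have hμ4 : μ ^ 4 = μ := by
        calc μ ^ 4 = (μ ^ 2) ^ 2 := by ring
          _ = μ := pow_pow_self hF μ
      have hp4 : p₀ ^ 4 = p₀ := by
        calc p₀ ^ 4 = (p₀ ^ 2) ^ 2 := by ring
          _ = p₀ := pow_pow_self hF p₀
      have h7 : μ ^ 6 = μ ^ 3 := by
        calc μ ^ 6 = μ ^ 4 * μ ^ 2 := by ring
          _ = μ * μ ^ 2 := by rw [hμ4]
          _ = μ ^ 3 := by ring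
      have h8 : (p₀ * μ ^ 2 + s₀ * μ ^ 3 + p₀ ^ 2 * μ) ^ 2 =
          p₀ ^ 2 * μ ^ 4 + s₀ ^ 2 * μ ^ 6 + p₀ ^ 4 * μ ^ 2 +
            2 * (p₀ * μ ^ 2 * (s₀ * μ ^ 3) + p₀ * μ ^ 2 * (p₀ ^ 2 * μ) + s₀ * μ ^ 3 * (p₀ ^ 2 * μ)) := by ring
      rw [h8, h20, zero_mul, add_zero, hμ4, hss, h7, hp4]
      linear_combination (p₀ * μ ^ 2 + s₀ * μ ^ 3 + p₀ ^ 2 * μ) * h20
    refine ⟨s₀, p₀ + s₀ * μ, p₀ * μ ^ 2 + s₀ * μ ^ 3 + p₀ ^ 2 * μ, ⟨hs₀, hβ0, ?_⟩, ?_, ?_, ?_⟩
    · rw [← hmm]
      exact hm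
    · rintro ⟨h1, h2, -⟩
      rw [h1, zero_mul, add_zero] at h2
      exact hp₀ h2
    · show p₀ * μ ^ 2 + s₀ * μ ^ 3 + p₀ ^ 2 * μ =
        (p₀ + s₀ * μ) * (μ * μ) + ((p₀ + s₀ * μ) * (p₀ + s₀ * μ)) * μ + s₀ * (μ * (μ * μ))
      linear_combination (-(s₀ * μ ^ 3 + p₀ * s₀ * μ ^ 2)) * h20 + (-μ ^ 3) * hss
    · rintro s' P' β' ⟨h1, h2, h3⟩ h4
      have h4' : β' = P' * (μ * μ) + (P' * P') * μ + s' * (μ * (μ * μ)) := h4
      have hss' : s' ^ 2 = s' := by linear_combination h1 - s' * h20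
      have hp' : P' + s' * μ + s' * μ = P' := by linear_combination (s' * μ) * h20
      have hb' : (P' + s' * μ) * μ ^ 2 + s' * μ ^ 3 + (P' + s' * μ) ^ 2 * μ = β' := by
        rw [h4']
        linear_combination (s' * μ ^ 3 + P' * s' * μ ^ 2) * h20 + μ ^ 3 * hss'
      have h5 := mkE_point hF L (μ := μ) (p' := P' + s' * μ) h1
      rw [hp', hb'] at h5
      rw [← h5] at h3
      rcases hu _ _ h1 h3 with ⟨h6, h7⟩ | ⟨h6, h7⟩
      · left
        subst h7
        have hP0 : P' = 0 := by linear_combination h6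
        refine ⟨rfl, hP0, ?_⟩
        rw [h4', hP0]
        ring
      · right
        refine ⟨h7, ?_, ?_⟩
        · linear_combination h6 - μ * h7 - s₀ * μ * h20
        · rw [← hb', h6, h7]

/-- Elements of the radical lying in `K` have rank two. -/
lemma rank_two {K : Subgroup (SU (2 + 2) F 2)} (hK : K ≠ ⊤) (hn : K.index < 27) {s P β : F}
    (hA : AA hF K e₁ e₂ s P β) (hne : ¬ (s = 0 ∧ P = 0 ∧ β = 0)) : s * β + P * (P * P) ≠ 0 := by
  intro h0
  have h20 : (2 : F) = 0 := two_eq_zero_of_two hF rfl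
  have h21 := L.h21 hF
  have hnc := no_cen_all hF hα hK hn
  obtain ⟨hs, hβ, hm⟩ := hA
  have hs01 : s * (s - 1) = 0 := by linear_combination hs - s * h20
  rcases mul_eq_zero.1 hs01 with h | h
  · subst h
    have hP : P = 0 := by
      have h1 : P * (P * P) = 0 := by linear_combination h0
      rcases mul_eq_zero.1 h1 with h2 | h2
      · exact h2
      · exact mul_self_eq_zero.1 h2
    subst hP
    have hβ1 : β * (β - 1) = 0 := by linear_combination hβ - β * h20
    rcases mul_eq_zero.1 hβ1 with h2 | h2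
    · exact hne ⟨rfl, rfl, h2⟩
    · rw [sub_eq_zero.1 h2, RH_tau_two hF L] at hm
      exact hnc e₂ (Cen_of_tau hF (L.e2_ne hF hα) L.h22 hm)
  · have h1 : s = 1 := sub_eq_zero.1 h
    subst h1
    have hβ2 : β = P ^ 3 := by linear_combination h0 - (P ^ 3) * h20
    rw [hβ2, RH_tau_one hF L] at hm
    have hv0 : e₁ + P • e₂ ≠ 0 := by
      intro h
      have h1 := congrArg (fun z => hermForm (2 + 2) F 2 z f₁) h
      simp only [hermForm_add_left, hermForm_smul_left, L.e1f1 hF, L.e2f1 hF, hermForm_zero_left] at h1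
      have h2 : (1 : F) = 0 := by simpa using h1
      exact one_ne_zero h2
    have hvv : hermForm (2 + 2) F 2 (e₁ + P • e₂) (e₁ + P • e₂) = 0 := by
      simp only [hermForm_add_left, hermForm_add_right hF, hermForm_smul_left, hermForm_smul_right, L.h11, L.h12, h21, L.h22]
      ring
    exact hnc _ (Cen_of_tau hF hv0 hvv hm)

omit hα L in
/-- Each element of rank two covers three points. -/
theorem ncard_cov {s P β : F} (hs : s + s ^ 2 = 0) (hβ : β + β ^ 2 = 0) (hr : s * β + P * (P * P) ≠ 0) :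
    Set.ncard {i : Option F | Cov i s P β} = 3 := by
  classical
  have h20 : (2 : F) = 0 := two_eq_zero_of_two hF rfl
  obtain ⟨ω, h1, h2, h3⟩ := exists_omega hF
  have hadd := phiC_add hF h1 h2 h3
  have hmul := phiC_mul hF h1 h2 h3
  have hinj := phiC_inj hF h1 h2 h3
  have hbij := phiC_bij hF h1 h2 h3
  obtain ⟨s₀, rfl⟩ := hbij.2 s
  obtain ⟨P₀, rfl⟩ := hbij.2 P
  obtain ⟨β₀, rfl⟩ := hbij.2 β
  have hφ0 : phiC ω 0 = 0 := rfl
  have hφ1 : phiC ω 1 = 1 := rfl
  have h01 : ∀ x : Fin 4, phiC ω x + phiC ω x ^ 2 = 0 → x = 0 ∨ x = 1 := by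
    intro x hx
    have h5 : phiC ω x * (phiC ω x - 1) = 0 := by linear_combination hx - phiC ω x * h20
    rcases mul_eq_zero.1 h5 with h6 | h6
    · left
      exact hinj (h6.trans hφ0.symm)
    · right
      exact hinj ((sub_eq_zero.1 h6).trans hφ1.symm)
  have hrank : addC (mulC s₀ β₀) (mulC P₀ (mulC P₀ P₀)) ≠ 0 := by
    intro h
    apply hr
    have h5 := congrArg (phiC ω) h
    simp only [hadd, hmul, hφ0] at h5
    exact h5
  have hcard := model_card s₀ P₀ β₀ (h01 _ hs) (h01 _ hβ) hrank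
  have hset : {i : Option F | Cov i (phiC ω s₀) (phiC ω P₀) (phiC ω β₀)} =
      (Option.map (phiC ω)) '' (↑(Finset.univ.filter (fun i => CovC i s₀ P₀ β₀)) : Set (Option (Fin 4))) := by
    ext i
    simp only [Set.mem_setOf_eq, Set.mem_image, Finset.coe_filter, Finset.mem_univ, true_and]
    constructor
    · intro hi
      rcases i with _ | μ
      · refine ⟨none, ?_, rfl⟩
        have h6 : phiC ω s₀ = 0 := hi
        exact hinj (h6.trans hφ0.symm)
      · obtain ⟨μ₀, rfl⟩ := hbij.2 μ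
        refine ⟨some μ₀, ?_, rfl⟩
        apply hinj
        have h6 : phiC ω β₀ = phiC ω P₀ * (phiC ω μ₀ * phiC ω μ₀) + (phiC ω P₀ * phiC ω P₀) * phiC ω μ₀ +
            phiC ω s₀ * (phiC ω μ₀ * (phiC ω μ₀ * phiC ω μ₀)) := hi
        simp only [hadd, hmul]
        exact h6
    · rintro ⟨i₀, hi₀, rfl⟩
      rcases i₀ with _ | μ₀
      · have h6 : s₀ = 0 := hi₀
        show phiC ω s₀ = 0
        rw [h6]
        rfl
      · have h6 : β₀ = addC (addC (mulC P₀ (mulC μ₀ μ₀)) (mulC (mulC P₀ P₀) μ₀))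
            (mulC s₀ (mulC μ₀ (mulC μ₀ μ₀))) := hi₀
        show phiC ω β₀ = phiC ω P₀ * (phiC ω μ₀ * phiC ω μ₀) + (phiC ω P₀ * phiC ω P₀) * phiC ω μ₀ +
            phiC ω s₀ * (phiC ω μ₀ * (phiC ω μ₀ * phiC ω μ₀))
        conv_lhs => rw [h6]
        simp only [hadd, hmul]
  rw [hset, Set.ncard_image_of_injective _ (Option.map_injective hinj), Set.ncard_coe_finset, hcard]

include hα in
omit L in
/-- The bound for `SU₄(2)`. -/
theorem su4_two_bound {K : Subgroup (SU (2 + 2) F 2)} (hK : K ≠ ⊤) : 27 ≤ K.index := by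
  classical
  by_contra hcon
  push Not at hcon
  have hn : K.index < 27 := hcon
  have h20 : (2 : F) = 0 := two_eq_zero_of_two hF rfl
  obtain ⟨β₁, hβ₁⟩ : ∃ β : F, β + β ^ 2 = -1 :=
    exists_trace_eq hF (t := -1) (by rw [neg_pow_q hF, one_pow])
  have hL : LineData (vE (e := 2) α) (inc ![1, α]) (wE α β₁) (inc ![1, 0]) := by
    refine ⟨vE_iso hF hα, ?_, vE_inc hF _, wE_vE hF hα, wE_inc hF _, inc_vE hF _, ?_⟩
    · rw [herm_inc hF, herm2 hF]
      simp only [Matrix.cons_val_zero, Matrix.cons_val_one]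
      linear_combination hα + h20 - h20 + (0 : F)
    · rw [herm_inc hF, herm2 hF]
      simp
  have hfive : Set.ncard (Set.univ : Set (Option F)) = 5 := by
    rw [Set.ncard_univ, Nat.card_eq_fintype_card, Fintype.card_option, hF]
    norm_num
  obtain ⟨s, P, β, hA, hne, hCov, -⟩ := cover_exists hF hα hL hK hn none
  have hS0 := ncard_cov hF hA.1 hA.2.1 (rank_two hF hα hL hK hn hA hne)
  obtain ⟨j, hj⟩ : ∃ j : Option F, ¬ Cov j s P β := by
    by_contra hall
    push Not at hall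
    have h1 : {i : Option F | Cov i s P β} = Set.univ := Set.eq_univ_of_forall hall
    rw [h1, hfive] at hS0
    omega
  obtain ⟨s', P', β', hA', hne', hCov', -⟩ := cover_exists hF hα hL hK hn j
  have hS1 := ncard_cov hF hA'.1 hA'.2.1 (rank_two hF hα hL hK hn hA' hne')
  have hdisj : Disjoint {i : Option F | Cov i s P β} {i : Option F | Cov i s' P' β'} := by
    rw [Set.disjoint_left]
    intro i hi hi'
    obtain ⟨s₂, P₂, β₂, -, -, -, hu⟩ := cover_exists hF hα hL hK hn i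
    have h1 := (hu s P β hA hi).resolve_left hne
    have h2 := (hu s' P' β' hA' hi').resolve_left hne'
    apply hj
    rw [h1.1, h1.2.1, h1.2.2, ← h2.1, ← h2.2.1, ← h2.2.2]
    exact hCov'
  have h3 := Set.ncard_union_eq hdisj (Set.toFinite _) (Set.toFinite _)
  rw [hS0, hS1] at h3
  have h4 := Set.ncard_le_ncard (Set.subset_univ ({i : Option F | Cov i s P β} ∪ {i : Option F | Cov i s' P' β'}))
    (Set.toFinite _)
  rw [hfive, h3] at h4
  omega

end LineMain

section MainFour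

variable (hF : Fintype.card F = q ^ 2)
include hF

/-- The main bound in `SU₄(q)`. -/
theorem main4 {K : Subgroup (SU (2 + 2) F q)} (hK : K ≠ ⊤) : (q + 1) * (q ^ 3 + 1) ≤ K.index := by
  obtain ⟨α, hα0, hα⟩ := SUGen.exists_norm hF (-1 : F) (neg_ne_zero.2 one_ne_zero) (by
    rw [neg_pow_q hF, one_pow])
  have hα' : α ^ q * α = -1 := by rw [mul_comm]; exact hα
  have hq := two_le hF
  by_cases hq2 : q = 2
  · subst hq2
    have := su4_two_bound hF hα' hK
    norm_num
    exact this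
  · exact main4_q3 hF hα' (by omega) hK

end MainFour

end Cfsg.Agent.Lib.PSUIdx
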