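import Mathlib
import Cfsg.Agent.Lib.PSUIdxJ
import Cfsg.Agent.S0829

/-!
# Attaining the minimal index: stabilisers of subspaces
-/

set_option autoImplicit false
set_option linter.unusedSectionVars false
set_option linter.unusedVariables false

namespace Cfsg.Agent.Lib.PSUIdx

open Matrix Cfsg Cfsg.Agent.Lib.HermForm Cfsg.Agent.Lib.FFNorm Cfsg.Agent.Lib.UnitaryE
  Cfsg.Agent.Lib.UnitarySU Cfsg.Agent.Lib.SUMinDeg Module
open Cfsg.Agent.Lib.PSU35A (cj mem_cj)

variable {F : Type*} [Field F] [Fintype F] {q n : ℕ}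

section Center

variable (hF : Fintype.card F = q ^ 2)
include hF

/-- Central elements act as scalars. -/
lemma center_scalar (hn : 1 ≤ n) {z : SU n F q} (hz : z ∈ Subgroup.center (SU n F q)) :
    ∃ c : F, ∀ x : Fin n → F, act z x = c • x := by
  classical
  let i₀ : Fin n := ⟨0, hn⟩
  refine ⟨(z.1.1 : Matrix (Fin n) (Fin n) F) i₀ i₀, fun x => ?_⟩
  funext k
  show ((z.1.1 : Matrix (Fin n) (Fin n) F) *ᵥ x) k = _
  rw [Matrix.mulVec, dotProduct, Finset.sum_eq_single k]
  · by_cases hk : k = i₀
    · rw [hk]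
      rfl
    · have := center_diag_eq hF z hz hk
      simp only [Pi.smul_apply, smul_eq_mul]
      rw [this]
  · intro l _ hl
    rw [center_offdiag_zero hF z hz (Ne.symm hl), zero_mul]
  · simp

/-- A subgroup containing the centre and of a given index gives one in `PSU`. -/
lemma exists_PSU_of {S : Subgroup (SU n F q)} (hc : Subgroup.center (SU n F q) ≤ S) :
    ∃ H : Subgroup (Cfsg.PSU n F q), H.index = S.index ∧ H.comap (QuotientGroup.mk' _) = S := by
  refine ⟨S.map (QuotientGroup.mk' _), ?_, ?_⟩
  · rw [← Subgroup.index_comap_of_surjective _ (QuotientGroup.mk'_surjective _), Subgroup.comap_map_eq,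
      QuotientGroup.ker_mk', sup_eq_left.2 hc]
  · rw [Subgroup.comap_map_eq, QuotientGroup.ker_mk', sup_eq_left.2 hc]

end Center

section LinAct

/-- The linear map of an element. -/
noncomputable def actL (g : SU n F q) : (Fin n → F) →ₗ[F] (Fin n → F) := Matrix.mulVecLin (g.1.1 : Matrix (Fin n) (Fin n) F)

lemma actL_apply (g : SU n F q) (x : Fin n → F) : actL g x = act g x := rfl

lemma actL_mul (g g' : SU n F q) : actL (g * g') = (actL g).comp (actL g') := by
  apply LinearMap.ext
  intro x
  exact act_mul g g' x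

lemma actL_one : actL (1 : SU n F q) = LinearMap.id := by
  apply LinearMap.ext
  intro x
  exact act_one x

/-- The stabiliser of a subspace. -/
noncomputable def stabW (W : Submodule F (Fin n → F)) : Subgroup (SU n F q) where
  carrier := {g | W.map (actL g) = W}
  mul_mem' := by
    intro a b ha hb
    show W.map (actL (a * b)) = W
    rw [actL_mul, Submodule.map_comp, show W.map (actL b) = W from hb, show W.map (actL a) = W from ha]
  one_mem' := by
    show W.map (actL (1 : SU n F q)) = W
    rw [actL_one, Submodule.map_id]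
  inv_mem' := by
    intro a ha
    show W.map (actL a⁻¹) = W
    have h1 : W.map (actL a) = W := ha
    calc W.map (actL a⁻¹) = (W.map (actL a)).map (actL a⁻¹) := by rw [h1]
      _ = W.map ((actL a⁻¹).comp (actL a)) := (Submodule.map_comp _ _ _).symm
      _ = W := by rw [← actL_mul, inv_mul_cancel, actL_one, Submodule.map_id]

lemma stabW_orbit (W : Submodule F (Fin n → F)) (g g' : SU n F q) :
    W.map (actL g) = W.map (actL g') ↔ g⁻¹ * g' ∈ (stabW W : Subgroup (SU n F q)) := by
  constructor
  · intro h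
    show W.map (actL (g⁻¹ * g')) = W
    rw [actL_mul, Submodule.map_comp, ← h, ← Submodule.map_comp, ← actL_mul, inv_mul_cancel, actL_one,
      Submodule.map_id]
  · intro h
    have h1 : W.map (actL (g⁻¹ * g')) = W := h
    calc W.map (actL g) = (W.map (actL (g⁻¹ * g'))).map (actL g) := by rw [h1]
      _ = W.map ((actL g).comp (actL (g⁻¹ * g'))) := (Submodule.map_comp _ _ _).symm
      _ = W.map (actL g') := by rw [← actL_mul, mul_inv_cancel_left]

/-- The index of a stabiliser is bounded by the size of an invariant family of subspaces. -/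
lemma index_stabW_le {W : Submodule F (Fin n → F)} (P : Submodule F (Fin n → F) → Prop)
    (hW : P W) (hP : ∀ (g : SU n F q) (W' : Submodule F (Fin n → F)), P W' → P (W'.map (actL g))) :
    (stabW W : Subgroup (SU n F q)).index ≤ Nat.card {W' : Submodule F (Fin n → F) // P W'} := by
  classical
  haveI : Finite (Submodule F (Fin n → F)) := Cfsg.Agent.Lib.SubCount.finite_submodule
  have h1 := card_orbit_eq (stabW W) (⊤ : Subgroup (SU n F q)) (fun g : SU n F q => W.map (actL g))
    (stabW_orbit W)
  rw [Subgroup.relIndex_top_right] at h1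
  rw [← h1]
  refine Nat.card_le_card_of_injective (fun x => ⟨x.1, ?_⟩) ?_
  · obtain ⟨_, ⟨g, -, rfl⟩⟩ := x
    exact hP g W hW
  · intro x y h
    apply Subtype.ext
    have h2 := congrArg (fun z : {W' : Submodule F (Fin n → F) // P W'} => z.1) h
    exact h2

end LinAct

section Four

variable (hF : Fintype.card F = q ^ 2)
include hF

/-- The bound and the subgroup for dimension four. -/
theorem exists_line_subgroup :
    ∃ H : Subgroup (Cfsg.PSU 4 F q), H ≠ ⊤ ∧ H.index ≤ (q + 1) * (q ^ 3 + 1) := by
  classical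
  have hq := two_le hF
  have hcard := Cfsg.Agent.S0829.result hF
  have hpos : 0 < Nat.card {W : Submodule F (Fin 4 → F) // Module.finrank F W = 2 ∧ ∀ u ∈ W, ∀ v ∈ W, Cfsg.hermForm 4 F q u v = 0} := by
    rw [hcard]
    positivity
  haveI := Nat.card_pos_iff.1 hpos |>.1
  obtain ⟨⟨W, hW2, hWi⟩⟩ : Nonempty {W : Submodule F (Fin 4 → F) // Module.finrank F W = 2 ∧ ∀ u ∈ W, ∀ v ∈ W, Cfsg.hermForm 4 F q u v = 0} := inferInstance
  have hindex : (stabW W : Subgroup (SU 4 F q)).index ≤ (q + 1) * (q ^ 3 + 1) := by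
    rw [← hcard]
    refine index_stabW_le (fun W' => Module.finrank F W' = 2 ∧ ∀ u ∈ W', ∀ v ∈ W', Cfsg.hermForm 4 F q u v = 0)
      ⟨hW2, hWi⟩ ?_
    rintro g W' ⟨h1, h2⟩
    refine ⟨?_, ?_⟩
    · have hinj : Function.Injective (actL g) := by
        intro x y h
        have h3 : act g x = act g y := h
        have h4 := congrArg (act g⁻¹) h3
        simpa [← act_mul, act_one] using h4
      rw [← (LinearEquiv.finrank_eq (Submodule.equivMapOfInjective (actL g) hinj W'))]
      exact h1
    · rintro _ ⟨u, hu, rfl⟩ _ ⟨v, hv, rfl⟩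
      show hermForm 4 F q (act g u) (act g v) = 0
      rw [herm_act]
      exact h2 u hu v hv
  have hcen : Subgroup.center (SU 4 F q) ≤ stabW W := by
    intro z hz
    obtain ⟨c, hc⟩ := center_scalar hF (by norm_num) hz
    have hc0 : c ≠ 0 := by
      rintro rfl
      have h1 := act_mul z⁻¹ z (Pi.single 0 1 : Fin 4 → F)
      rw [inv_mul_cancel, act_one, hc, zero_smul, act_zero] at h1
      have h2 := congrFun h1 0
      simp at h2
    show W.map (actL z) = W
    have hL : actL z = c • LinearMap.id := by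
      apply LinearMap.ext
      intro x
      exact hc x
    rw [hL]
    ext x
    constructor
    · rintro ⟨y, hy, rfl⟩
      exact W.smul_mem c hy
    · intro hx
      refine ⟨c⁻¹ • x, W.smul_mem _ hx, ?_⟩
      show c • (c⁻¹ • x) = x
      rw [smul_smul, mul_inv_cancel₀ hc0, one_smul]
  obtain ⟨H, hH1, hH2⟩ := exists_PSU_of hF hcen
  refine ⟨H, ?_, hH1 ▸ hindex⟩
  -- the subgroup is proper
  rintro rfl
  have hS : (stabW W : Subgroup (SU 4 F q)) = ⊤ := by
    rw [← hH2, Subgroup.comap_top]
  -- find a vector and a partner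
  have hv : ∃ v ∈ W, v ≠ 0 := by
    by_contra hcon
    push Not at hcon
    have : W = ⊥ := (Submodule.eq_bot_iff W).2 hcon
    rw [this, finrank_bot] at hW2
    omega
  obtain ⟨v, hvW, hv0⟩ := hv
  have hvv := hWi v hvW v hvW
  obtain ⟨w, hww, hwv, -⟩ := SUGen.exists_partner hF (t := Fin.elim0) hvv linearIndependent_empty_type
    (fun i => i.elim0) (by simpa using hv0)
  have hw0 : w ≠ 0 := by
    rintro rfl
    rw [hermForm_zero_left] at hwv
    exact zero_ne_one hwv
  obtain ⟨g, hg⟩ := exists_act_eq hF (n := 4) (by norm_num) hvv hv0 hww hw0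
  have hgS : g ∈ (stabW W : Subgroup (SU 4 F q)) := by rw [hS]; trivial
  have h1 : W.map (actL g) = W := hgS
  have h2 : w ∈ W := by
    rw [← h1]
    exact ⟨v, hvW, hg⟩
  have h3 := hWi w h2 v hvW
  rw [hwv] at h3
  exact one_ne_zero h3

end Four

end Cfsg.Agent.Lib.PSUIdx
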