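import Mathlib
import Cfsg.Agent.Lib.PSUIdxJ

/-!
# The regular case: fixed points of a torus element
-/

set_option autoImplicit false
set_option linter.unusedSectionVars false
set_option linter.unusedVariables false

namespace Cfsg.Agent.Lib.PSUIdx

open Matrix Cfsg Cfsg.Agent.Lib.HermForm Cfsg.Agent.Lib.FFNorm Cfsg.Agent.Lib.UnitaryE
  Cfsg.Agent.Lib.UnitarySU Cfsg.Agent.Lib.SUMinDeg
open Cfsg.Agent.Lib.PSU35A (cj mem_cj)

variable {F : Type*} [Field F] [Fintype F] {q n e : ℕ}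

section Abstract

variable {G : Type*} [Group G] [Finite G]

/-- A semisimple element normalising a large subgroup fixes a coset of it. -/
theorem exists_conj_fixed {Q K : Subgroup G} {s : G} {r : ℕ} [hr : Fact r.Prime] (hs : s ^ r = 1)
    (hN : ∀ y ∈ Q, s * y * s⁻¹ ∈ Q) (hN' : ∀ y ∈ Q, s⁻¹ * y * s ∈ Q) (hQK : ∀ y ∈ Q, y ∈ K → y = 1)
    (hm : K.index < 2 * Nat.card Q) (hrQ : ¬ r ∣ Nat.card Q) : ∃ y ∈ Q, y⁻¹ * s * y ∈ K := by
  classical
  haveI : Fintype Q := Fintype.ofFinite _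
  -- the element lies in `Q K`
  have hsQK : ∃ y₀ ∈ Q, y₀⁻¹ * s ∈ K := by
    by_contra hno
    push Not at hno
    have h1 : Nat.card (Q ⊕ Q) ≤ K.index := by
      rw [Subgroup.index]
      refine Nat.card_le_card_of_injective (fun o => match o with
        | Sum.inl y => ((y.1 : G) : G ⧸ K)
        | Sum.inr y => ((y.1 * s : G) : G ⧸ K)) ?_
      rintro (y | y) (y' | y') h
      · rw [QuotientGroup.eq] at h
        have h2 := hQK _ (Q.mul_mem (Q.inv_mem y.2) y'.2) h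
        congr 1
        exact Subtype.ext (inv_mul_eq_one.1 h2)
      · exfalso
        rw [QuotientGroup.eq] at h
        refine hno (y'.1⁻¹ * y.1) (Q.mul_mem (Q.inv_mem y'.2) y.2) ?_
        have h3 : (y'.1⁻¹ * y.1)⁻¹ * s = y.1⁻¹ * (y'.1 * s) := by group
        rwa [h3]
      · exfalso
        rw [QuotientGroup.eq] at h
        refine hno (y.1⁻¹ * y'.1) (Q.mul_mem (Q.inv_mem y.2) y'.2) ?_
        have h3 : (y.1⁻¹ * y'.1)⁻¹ * s = ((y.1 * s)⁻¹ * y'.1)⁻¹ := by group
        rw [h3]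
        exact K.inv_mem h
      · rw [QuotientGroup.eq] at h
        have h3 : s⁻¹ * (y.1⁻¹ * y'.1) * s ∈ K := by
          have : (y.1 * s)⁻¹ * (y'.1 * s) = s⁻¹ * (y.1⁻¹ * y'.1) * s := by group
          rwa [this] at h
        have h4 := hQK _ (hN' _ (Q.mul_mem (Q.inv_mem y.2) y'.2)) h3
        have h5 : y.1⁻¹ * y'.1 = 1 := by
          have h6 : s⁻¹ * (y.1⁻¹ * y'.1) * s = 1 := h4
          have h7 : y.1⁻¹ * y'.1 = s * (s⁻¹ * (y.1⁻¹ * y'.1) * s) * s⁻¹ := by group
          rw [h7, h6]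
          group
        congr 1
        exact Subtype.ext (inv_mul_eq_one.1 h5)
    rw [Nat.card_sum] at h1
    omega
  obtain ⟨y₀, hy₀, hk⟩ := hsQK
  -- the permutation of `Q`
  let f : Function.End Q := fun y => ⟨s * y.1 * s⁻¹ * y₀, Q.mul_mem (hN _ y.2) hy₀⟩
  have hf : ∀ (y : Q), ((s * y.1)⁻¹ * (f y).1) ∈ K := by
    intro y
    have : (s * y.1)⁻¹ * (f y).1 = y.1⁻¹ * (s⁻¹ * s) * y.1 * (s⁻¹ * y₀) := by
      show (s * y.1)⁻¹ * (s * y.1 * s⁻¹ * y₀) = _
      group
    rw [this]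
    have h2 : s⁻¹ * y₀ = (y₀⁻¹ * s)⁻¹ := by group
    have h3 : y.1⁻¹ * (s⁻¹ * s) * y.1 = 1 := by group
    rw [h3, one_mul, h2]
    exact K.inv_mem hk
  have hiter : ∀ (k : ℕ) (y : Q), ((s ^ k * y.1)⁻¹ * ((f ^ k) y).1) ∈ K := by
    intro k
    induction k with
    | zero =>
      intro y
      have h0 : (f ^ 0) y = y := rfl
      rw [h0, pow_zero, one_mul, inv_mul_cancel]
      exact K.one_mem
    | succ k ih =>
      intro y
      have h1 := ih y
      have h2 := hf ((f ^ k) y)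
      have h3 : (f ^ (k + 1)) y = f ((f ^ k) y) := by
        rw [pow_succ']
        rfl
      rw [h3]
      have h4 : (s ^ (k + 1) * y.1)⁻¹ * (f ((f ^ k) y)).1 =
          ((s ^ k * y.1)⁻¹ * ((f ^ k) y).1) * ((s * ((f ^ k) y).1)⁻¹ * (f ((f ^ k) y)).1) := by
        rw [pow_succ']
        group
      rw [h4]
      exact K.mul_mem h1 h2
  have hfr : f ^ r ^ 1 = 1 := by
    rw [pow_one]
    funext y
    have h1 := hiter r y
    rw [hs, one_mul] at h1
    have h2 := hQK _ (Q.mul_mem (Q.inv_mem y.2) ((f ^ r) y).2) h1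
    exact Subtype.ext (inv_mul_eq_one.1 h2).symm
  have hmod := Equiv.Perm.card_fixedPoints_modEq hfr
  have hfix : Fintype.card (Function.fixedPoints f) ≠ 0 := by
    intro h0
    rw [h0] at hmod
    apply hrQ
    rw [Nat.card_eq_fintype_card]
    exact Nat.modEq_zero_iff_dvd.1 hmod
  obtain ⟨⟨y, hy⟩⟩ := Fintype.card_pos_iff.1 (Nat.pos_of_ne_zero hfix)
  refine ⟨y.1, y.2, ?_⟩
  have h1 : s * y.1 * s⁻¹ * y₀ = y.1 := congrArg Subtype.val hy
  have h2 : y.1⁻¹ * s * y.1 = y₀⁻¹ * s := by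
    have h3 : y₀ = s * y.1⁻¹ * s⁻¹ * y.1 := by
      have h4 : y₀ = (s * y.1 * s⁻¹)⁻¹ * (s * y.1 * s⁻¹ * y₀) := by group
      rw [h4, h1]
      group
    rw [h3]
    group
  rw [h2]
  exact hk

end Abstract

section Torus

variable (hF : Fintype.card F = q ^ 2) {α β : F} (hα : α ^ q * α = -1) (hβ : β + β ^ q = -1)
include hF hα hβ

/-- Elements are determined by their action on the frame. -/
lemma ext_frame {g g' : SU (e + 2) F q} (h1 : act g (vE α) = act g' (vE α))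
    (h2 : act g (wE α β) = act g' (wE α β)) (h3 : ∀ u : Fin e → F, act g (inc u) = act g' (inc u)) : g = g' := by
  apply ext_act
  intro x
  rw [decomp hF hα hβ x]
  simp only [act_add, act_smul, h1, h2, h3]

/-- The torus element attached to a rational scalar. -/
lemma exists_torus_scale {c : F} (hc0 : c ≠ 0) (hcq : c ^ q = c) :
    ∃ s : SU (e + 2) F q, IsScale α s c 1 ∧ act s (wE α β) = c⁻¹ • wE α β ∧
      (∀ l : SU e F q, s * iota l = iota l * s) := by
  have hv := vE_iso (e := e) hF hα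
  have hw := wE_iso (e := e) hF hα hβ
  have hvw := vE_wE (e := e) (b := β) hF hα
  have hinv : (c⁻¹) ^ q = c⁻¹ := by rw [inv_pow, hcq]
  have hab : c * (c⁻¹) ^ q = 1 := by rw [hinv]; exact mul_inv_cancel₀ hc0
  have hba : c⁻¹ * c ^ q = 1 := by rw [hcq]; exact inv_mul_cancel₀ hc0
  let s : SU (e + 2) F q := SUofMatrix (Dm q (vE α) (wE α β) c c⁻¹)
    (by rw [Dm_det hF hv hw hvw]; exact mul_inv_cancel₀ hc0) (Dm_unitary hF hv hw hvw hab hba)
  have hact : ∀ x, act s x = x + ((c - 1) * hermForm (e + 2) F q x (wE α β)) • vE α +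
      ((c⁻¹ - 1) * hermForm (e + 2) F q x (vE α)) • wE α β := fun x => Dm_mulVec _ _ _ _ _
  have hsv : act s (vE α) = c • vE α := by
    rw [hact, hvw, hv]
    module
  have hsw : act s (wE α β) = c⁻¹ • wE α β := by
    rw [hact, hw, wE_vE hF hα]
    module
  have hsi : ∀ u : Fin e → F, act s (inc u) = inc u := by
    intro u
    rw [hact, inc_wE hF, inc_vE hF]
    module
  refine ⟨s, ⟨hc0, one_ne_zero, by norm_num, hsv, fun u => by rw [one_smul]; exact hsi u⟩, hsw, fun l => ?_⟩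
  apply ext_frame hF hα hβ
  · rw [act_mul, act_mul, act_iota_vE, hsv, act_smul, act_iota_vE]
  · rw [act_mul, act_mul, act_iota_wE, hsw, act_smul, act_iota_wE]
  · intro u
    rw [act_mul, act_mul, act_iota_inc, hsi, hsi, act_iota_inc]

/-- Powers of the torus element. -/
lemma torus_pow {c : F} {s : SU (e + 2) F q} (hs : IsScale α s c 1) (hsw : act s (wE α β) = c⁻¹ • wE α β)
    {r : ℕ} (hr : c ^ r = 1) : s ^ r = 1 := by
  have h1 : ∀ k : ℕ, act (s ^ k) (vE α) = c ^ k • vE α := by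
    intro k
    induction k with
    | zero => rw [pow_zero, pow_zero, act_one, one_smul]
    | succ k ih => rw [pow_succ, act_mul, hs.hv, act_smul, ih, smul_smul, pow_succ, mul_comm]
  have h2 : ∀ k : ℕ, act (s ^ k) (wE α β) = (c⁻¹) ^ k • wE α β := by
    intro k
    induction k with
    | zero => rw [pow_zero, pow_zero, act_one, one_smul]
    | succ k ih => rw [pow_succ, act_mul, hsw, act_smul, ih, smul_smul, pow_succ, mul_comm]
  have h3 : ∀ (k : ℕ) (u : Fin e → F), act (s ^ k) (inc u) = inc u := by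
    intro k u
    induction k with
    | zero => rw [pow_zero, act_one]
    | succ k ih => rw [pow_succ, act_mul, hs.hi, one_smul, ih]
  apply ext_frame hF hα hβ
  · rw [h1, hr, one_smul, act_one]
  · rw [h2, inv_pow, hr, inv_one, one_smul, act_one]
  · intro u
    rw [h3, act_one]

end Torus

section Regular

variable (hF : Fintype.card F = q ^ 2) {α : F} (hα : α ^ q * α = -1)
include hF hα

/-- The order of `Q`. -/
lemma card_QQ : Nat.card (QQ hF hα e) = (q ^ 2) ^ e * q := by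
  classical
  have hs₀ : ∀ u : Fin e → F, ∃ s : F, Gd q u s := by
    intro u
    obtain ⟨s, hs⟩ := exists_trace_eq hF (t := - hermForm e F q u u) (by
      rw [neg_pow_q hF, hermForm_conj hF])
    exact ⟨s, by unfold Gd; rw [hs]; ring⟩
  choose s₀ hs₀ using hs₀
  have hcard : Nat.card ((Fin e → F) × Tz hF) = (q ^ 2) ^ e * q := by
    rw [Nat.card_prod, Nat.card_eq_fintype_card, Nat.card_eq_fintype_card, Fintype.card_fun, card_Tz hF, hF,
      Fintype.card_fin]
  rw [← hcard]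
  symm
  refine Nat.card_congr (Equiv.ofBijective (fun p => (⟨EE hF α p.1 (p.2.1 + s₀ p.1),
    ⟨_, _, Gd_trace hF p.2.2 (hs₀ p.1), rfl⟩⟩ : QQ hF hα e)) ⟨?_, ?_⟩)
  · rintro ⟨u, c⟩ ⟨u', c'⟩ h
    have h1 := congrArg Subtype.val h
    obtain ⟨h2, h3⟩ := EE_inj hF hα (Gd_trace hF c.2 (hs₀ u)) (Gd_trace hF c'.2 (hs₀ u')) h1
    subst h2
    have h4 : c = c' := Subtype.ext (add_right_cancel h3)
    rw [h4]
  · rintro ⟨_, u, s, h, rfl⟩
    have ht : (s - s₀ u) + (s - s₀ u) ^ q = 0 := by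
      have h1 := hs₀ u
      unfold Gd at h h1
      rw [sub_pow_q hF]
      linear_combination h - h1
    refine ⟨(u, ⟨s - s₀ u, ht⟩), ?_⟩
    apply Subtype.ext
    show EE hF α u (s - s₀ u + s₀ u) = EE hF α u s
    rw [sub_add_cancel]

/-- A rational scalar of prime order. -/
lemma exists_rat_scalar (hq : 3 ≤ q) :
    ∃ (c : F) (r : ℕ), c ≠ 0 ∧ c ≠ 1 ∧ c ^ q = c ∧ c ^ r = 1 ∧ r.Prime ∧ r ∣ q - 1 := by
  have hne : q - 1 ≠ 1 := by omega
  have hr := Nat.minFac_prime hne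
  have hdvd : (q - 1).minFac ∣ Nat.card (FqU hF) := by
    rw [card_FqU hF]
    exact Nat.minFac_dvd _
  haveI : Fact (q - 1).minFac.Prime := ⟨hr⟩
  obtain ⟨t, ht⟩ := exists_prime_orderOf_dvd_card' (G := FqU hF) (q - 1).minFac hdvd
  refine ⟨((t.1 : Fˣ) : F), (q - 1).minFac, Units.ne_zero _, ?_, t.2, ?_, hr, Nat.minFac_dvd _⟩
  · intro h
    have h1 : t = 1 := by
      apply Subtype.ext
      apply Units.ext
      exact h
    rw [h1, orderOf_one] at ht
    exact hr.one_lt.ne ht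
  · have h1 := pow_orderOf_eq_one t
    rw [ht] at h1
    have h2 := congrArg (fun x : FqU hF => ((x.1 : Fˣ) : F)) h1
    simpa using h2

/-- The main statement of the regular case. -/
theorem regular_L0 (hq : 3 ≤ q) (he : 3 ≤ e) {K : Subgroup (SU (e + 2) F q)}
    (hQK : ∀ y ∈ QQ hF hα e, y ∈ K → y = 1) (hKK : KK hF hα K = ⊤)
    (hm : K.index < 2 * ((q ^ 2) ^ e * q)) :
    ∃ y ∈ QQ hF hα e, ∀ l : SU e F q, iota l ∈ cj y K := by
  classical
  obtain ⟨β, hβ⟩ : ∃ β : F, β + β ^ q = -1 :=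
    exists_trace_eq hF (t := -1) (by rw [neg_pow_q hF, one_pow])
  obtain ⟨c, r, hc0, hc1, hcq, hcr, hrp, hrd⟩ := exists_rat_scalar hF hα hq
  obtain ⟨s, hs, hsw, hsl⟩ := exists_torus_scale (e := e) hF hα hβ hc0 hcq
  have hsr := torus_pow hF hα hβ hs hsw hcr
  haveI : Fact r.Prime := ⟨hrp⟩
  have hconj : ∀ {u : Fin e → F} {t : F}, Gd q u t → s * EE hF α u t * s⁻¹ = EE hF α (c • u) (c * c * t) := by
    intro u t h
    have h1 := conj_scale hF hα hs h
    rw [hcq, mul_one] at h1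
    exact h1
  have hb1 : (1 : F) * 1 ^ q = 1 := by simp
  have hN : ∀ y ∈ QQ hF hα e, s * y * s⁻¹ ∈ QQ hF hα e := by
    rintro _ ⟨u, t, h, rfl⟩
    have h1 := conj_scale hF hα hs h
    rw [h1]
    exact ⟨_, _, Gd_scale hF hb1 h, rfl⟩
  have hN' : ∀ y ∈ QQ hF hα e, s⁻¹ * y * s ∈ QQ hF hα e := by
    rintro _ ⟨u, t, h, rfl⟩
    have h1 := conj_scale hF hα hs.inv h
    have h2 : s⁻¹ * EE hF α u t * s = s⁻¹ * EE hF α u t * (s⁻¹)⁻¹ := by rw [inv_inv]
    rw [h2, h1]
    have hb' : (1 : F)⁻¹ * ((1 : F)⁻¹) ^ q = 1 := by simp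
    exact ⟨_, _, Gd_scale hF hb' h, rfl⟩
  have hcardQ := card_QQ hF hα (e := e)
  have hrQ : ¬ r ∣ Nat.card (QQ hF hα e) := by
    rw [hcardQ]
    intro h
    have hqq : r ∣ q := by
      rcases (Nat.Prime.dvd_mul hrp).1 h with h1 | h1
      · have h2 := hrp.dvd_of_dvd_pow h1
        exact hrp.dvd_of_dvd_pow h2
      · exact h1
    have h3 : r ∣ q - (q - 1) := Nat.dvd_sub hqq hrd
    have h4 : q - (q - 1) = 1 := by omega
    rw [h4] at h3
    exact hrp.one_lt.ne' (Nat.dvd_one.1 h3)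
  obtain ⟨y₀, hy₀, hfix⟩ := exists_conj_fixed hsr hN hN' hQK (by rw [hcardQ]; exact hm) hrQ
  refine ⟨y₀, hy₀, ?_⟩
  set K' := cj y₀ K with hK'
  have hsK : s ∈ K' := by
    rw [hK', mem_cj]
    exact hfix
  have hQK' : ∀ y ∈ QQ hF hα e, y ∈ K' → y = 1 := by
    intro y hy hyK
    rw [hK', mem_cj] at hyK
    have hmem : y₀⁻¹ * y * y₀ ∈ QQ hF hα e :=
      (QQ hF hα e).mul_mem ((QQ hF hα e).mul_mem ((QQ hF hα e).inv_mem hy₀) hy) hy₀
    have h1 := hQK _ hmem hyK
    have h2 : y = y₀ * (y₀⁻¹ * y * y₀) * y₀⁻¹ := by group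
    rw [h2, h1]
    group
  have hZ' : ZZ hF hα K' = ⊥ := by
    rw [eq_bot_iff]
    rintro t ⟨ht, hm'⟩
    have h1 := hQK' _ ⟨0, t, Gd_zero hF ht, rfl⟩ hm'
    obtain ⟨h2, h3⟩ := EE_inj hF hα (Gd_zero (e := e) hF ht) (Gd_zero (e := e) hF (c := 0) (by
      rw [zero_pow (by omega), add_zero])) (h1.trans (EE_zero hF hα).symm)
    exact h3
  have hKK' : KK hF hα K' = ⊤ := by
    rw [eq_top_iff, ← hKK]
    exact KK_le_cj hF hα hy₀
  -- lifts are central
  have hlift : ∀ l : SU e F q, ∃ t : F, t + t ^ q = 0 ∧ EE (e := e) hF α 0 t * iota l ∈ K' := by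
    intro l
    have hl : l ∈ KK hF hα K' := by rw [hKK']; trivial
    obtain ⟨_, ⟨u, t, h, rfl⟩, hm'⟩ := hl
    have h1 := K'.mul_mem (K'.mul_mem hsK hm') (K'.inv_mem hsK)
    have h2 : s * (EE hF α u t * iota l) * s⁻¹ = (s * EE hF α u t * s⁻¹) * iota l := by
      have h3 : iota l * s⁻¹ = s⁻¹ * iota l := by
        have h4 := hsl l
        rw [eq_inv_mul_iff_mul_eq, ← mul_assoc, h4, mul_assoc, mul_inv_cancel, mul_one]
      calc s * (EE hF α u t * iota l) * s⁻¹ = s * EE hF α u t * (iota l * s⁻¹) := by group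
        _ = s * EE hF α u t * (s⁻¹ * iota l) := by rw [h3]
        _ = _ := by group
    rw [h2, hconj h] at h1
    have h3 := K'.mul_mem h1 (K'.inv_mem hm')
    have h4 : EE hF α (c • u) (c * c * t) * iota l * (EE hF α u t * iota l)⁻¹ =
        EE hF α (c • u) (c * c * t) * (EE hF α u t)⁻¹ := by group
    rw [h4] at h3
    have hg' : Gd q (c • u) (c * c * t) := by
      have := Gd_scale hF hb1 (a := c) h
      rwa [hcq, mul_one] at this
    have h5 := hQK' _ ((QQ hF hα e).mul_mem ⟨_, _, hg', rfl⟩ ((QQ hF hα e).inv_mem ⟨_, _, h, rfl⟩)) h3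
    have h6 : EE hF α (c • u) (c * c * t) = EE hF α u t := mul_inv_eq_one.1 h5
    obtain ⟨h7, -⟩ := EE_inj hF hα hg' h h6
    have h8 : (c - 1) • u = 0 := by
      rw [sub_smul, one_smul, h7, sub_self]
    have hu : u = 0 := (smul_eq_zero.1 h8).resolve_left (sub_ne_zero.2 hc1)
    subst hu
    have ht : t + t ^ q = 0 := by
      have := h
      unfold Gd at this
      rw [hermForm_zero_left, add_zero] at this
      exact this
    exact ⟨t, ht, hm'⟩
  -- commutators lie in `K'`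
  have hcomm : ∀ a b : SU e F q, iota (a * b * a⁻¹ * b⁻¹) ∈ K' := by
    intro a b
    obtain ⟨t₁, ht₁, hm₁⟩ := hlift a
    obtain ⟨t₂, ht₂, hm₂⟩ := hlift b
    have h1 := K'.mul_mem (K'.mul_mem (K'.mul_mem hm₁ hm₂) (K'.inv_mem hm₁)) (K'.inv_mem hm₂)
    rw [center_conj hF hα ht₁ ht₂] at h1
    have h2 : EE (e := e) hF α 0 t₂ * iota (a * b * a⁻¹) * (EE (e := e) hF α 0 t₂ * iota b)⁻¹ =
        iota (a * b * a⁻¹ * b⁻¹) := by
      have h3 := iota_comm_center hF hα (a * b * a⁻¹ * b⁻¹) ht₂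
      have h4 : iota (a * b * a⁻¹) * (iota b)⁻¹ = iota (a * b * a⁻¹ * b⁻¹) := by
        simp only [map_mul, map_inv]
      calc _ = EE (e := e) hF α 0 t₂ * (iota (a * b * a⁻¹) * (iota b)⁻¹) * (EE (e := e) hF α 0 t₂)⁻¹ := by group
        _ = EE (e := e) hF α 0 t₂ * iota (a * b * a⁻¹ * b⁻¹) * (EE (e := e) hF α 0 t₂)⁻¹ := by rw [h4]
        _ = iota (a * b * a⁻¹ * b⁻¹) * EE (e := e) hF α 0 t₂ * (EE (e := e) hF α 0 t₂)⁻¹ := by rw [h3]
        _ = _ := by group
    rwa [h2] at h1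
  -- hence the whole group
  have hall : (⊤ : Subgroup (SU e F q)) ≤ K'.comap iota := by
    rw [← SUGen.TT_eq_top hF (n := e) he (by omega), SUGen.TT, Subgroup.closure_le]
    rintro A ⟨v, t, hA⟩
    have hsc : t + t ^ q = 0 := by
      have := hA.hs
      rw [hermForm_zero_left, add_zero] at this
      exact this
    have hAt : A = tau hF v t := by
      apply ext_act
      intro x
      have h9 : act A x = x + hermForm e F q x v • (0 + t • v) - hermForm e F q x 0 • v := hA.act_eq x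
      rw [act_tau hF hA.hvv hsc, h9, hermForm_zero_right hF, zero_add, zero_smul, sub_zero, smul_smul]
      congr 2
      ring
    have hmat : ((A : Matrix.SpecialLinearGroup (Fin e) F) : Matrix (Fin e) (Fin e) F) =
        unitaryTransvection e q v t := by
      apply eq_of_mulVec_eq
      intro x
      rw [mulVec_unitaryTransvection]
      have h1 := act_tau hF hA.hvv hsc x
      rw [← hAt] at h1
      exact h1
    obtain ⟨a, b, hab⟩ := mem_commutatorSet hF he A v t hA.hvv hmat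
    show iota A ∈ K'
    rw [← hab]
    rw [commutatorElement_def]
    exact hcomm a b
  exact fun l => hall (Subgroup.mem_top l)

end Regular

end Cfsg.Agent.Lib.PSUIdx
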