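import Mathlib
import Cfsg.Agent.Lib.PSUIdxL

/-!
# Closure in even dimension: level sets, coordinates and families of centres
-/

set_option autoImplicit false
set_option linter.unusedSectionVars false
set_option linter.unusedVariables false

namespace Cfsg.Agent.Lib.PSUIdx

open Matrix Cfsg Cfsg.Agent.Lib.HermForm Cfsg.Agent.Lib.FFNorm Cfsg.Agent.Lib.UnitaryE
  Cfsg.Agent.Lib.UnitarySU Cfsg.Agent.Lib.SUMinDeg
open Cfsg.Agent.Lib.PSU35A (cj mem_cj)

variable {F : Type*} [Field F] [Fintype F] {q n e : ℕ}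

section Lev

/-- Non-zero vectors of a fixed norm. -/
def Lev (n : ℕ) (F : Type*) [Field F] (q : ℕ) (N : F) : Set (Fin n → F) :=
  {x | x ≠ 0 ∧ hermForm n F q x x = N}

variable (hF : Fintype.card F = q ^ 2)
include hF

lemma act_inv_act (g : SU n F q) (x : Fin n → F) : act g⁻¹ (act g x) = x := by
  rw [← act_mul, inv_mul_cancel, act_one]

lemma act_act_inv' (g : SU n F q) (x : Fin n → F) : act g (act g⁻¹ x) = x := by
  rw [← act_mul, mul_inv_cancel, act_one]

lemma card_Lev_ge {n : ℕ} (hn : Even n) (N : F) (hN : N ^ q = N) :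
    q ^ (n - 1) * (q ^ n - 1) ≤ Nat.card (Lev n F q N) := by
  classical
  have hq := two_le hF
  by_cases h0 : N = 0
  · subst h0
    have h1 : Lev n F q 0 = IsoV n F q := by
      ext x
      exact And.comm
    rw [h1, card_IsoV hF n hn]
    have : q ^ (n - 1) * (q ^ n - 1) = (q ^ n - 1) * q ^ (n - 1) := by ring
    rw [this]
    exact Nat.mul_le_mul_left _ (by omega)
  · have h1 := Cfsg.Agent.Lib.HermCount.natCard_herm hF n N hN
    have h2 := Cfsg.Agent.Lib.HermCount.natCard_herm hF n (1 : F) (one_pow q)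
    rw [if_neg h0] at h1
    rw [if_neg (one_ne_zero)] at h2
    have h3 : Nat.card {v : Fin n → F // Cfsg.hermForm n F q v v = N} =
        Nat.card {v : Fin n → F // Cfsg.hermForm n F q v v = 1} := by
      have : (Nat.card {v : Fin n → F // Cfsg.hermForm n F q v v = N} : ℤ) =
        Nat.card {v : Fin n → F // Cfsg.hermForm n F q v v = 1} := by rw [h1, h2]
      exact_mod_cast this
    have h4 := Cfsg.Agent.Lib.HermCount.card_norm_one hF n
    rw [if_pos hn] at h4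
    rw [← h4, ← h3]
    apply le_of_eq
    apply Nat.card_congr
    refine ⟨fun x => ⟨x.1, ?_, x.2⟩, fun x => ⟨x.1, x.2.2⟩, fun _ => rfl, fun _ => rfl⟩
    rintro h
    apply h0
    rw [← x.2, h]
    exact hermForm_zero_left _

/-- Transitivity on vectors of a fixed norm. -/
lemma lev_trans (hn : 3 ≤ n) {x y : Fin n → F} (hx0 : x ≠ 0) (hy0 : y ≠ 0)
    (h : hermForm n F q x x = hermForm n F q y y) : ∃ g : SU n F q, act g x = y := by
  by_cases hN : hermForm n F q x x = 0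
  · exact exists_act_eq hF hn hN hx0 (h ▸ hN) hy0
  · have hNq : (hermForm n F q x x)⁻¹ ^ q = (hermForm n F q x x)⁻¹ := by
      rw [inv_pow, hermForm_conj hF]
    obtain ⟨c, hc0, hc⟩ := SUGen.exists_norm hF (hermForm n F q x x)⁻¹ (inv_ne_zero hN) hNq
    have h1 : hermForm n F q (c • x) (c • x) = 1 := by
      rw [hermForm_smul_left, hermForm_smul_right, ← mul_assoc, hc]
      exact inv_mul_cancel₀ hN
    have h2 : hermForm n F q (c • y) (c • y) = 1 := by
      rw [hermForm_smul_left, hermForm_smul_right, ← mul_assoc, hc, ← h]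
      exact inv_mul_cancel₀ hN
    obtain ⟨A, -, hA⟩ := SUGen.RR_transitive hF hn h1 h2
    refine ⟨A, ?_⟩
    have h3 : act A (c • x) = c • y := hA
    rw [act_smul] at h3
    exact smul_right_injective _ hc0 h3

lemma orbV_top_lev (hn : 3 ≤ n) {y : Fin n → F} (hy0 : y ≠ 0) :
    orbV (⊤ : Subgroup (SU n F q)) y = Lev n F q (hermForm n F q y y) := by
  ext x
  constructor
  · rintro ⟨g, -, rfl⟩
    exact ⟨act_ne_zero hF g hy0, herm_act _ _ _⟩
  · intro hx
    obtain ⟨g, hg⟩ := lev_trans hF hn hy0 hx.1 hx.2.symm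
    exact ⟨g, trivial, hg⟩

lemma index_stabV_lev (hn : 3 ≤ n) {y : Fin n → F} (hy0 : y ≠ 0) :
    (stabV y : Subgroup (SU n F q)).index = Nat.card (Lev n F q (hermForm n F q y y)) := by
  have h := card_orbV (⊤ : Subgroup (SU n F q)) y
  rw [orbV_top_lev hF hn hy0, Subgroup.relIndex_top_right] at h
  exact h.symm

/-- The index formula for any non-zero vector. -/
lemma orb_index_lev (hn : 3 ≤ n) {y : Fin n → F} (hy0 : y ≠ 0) (K : Subgroup (SU n F q)) :
    Nat.card (orbV K y) * K.index =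
      (K.subgroupOf (stabV y)).index * Nat.card (Lev n F q (hermForm n F q y y)) := by
  rw [card_orbV, ← index_stabV_lev hF hn hy0]
  exact relIndex_swap _ _

/-- Only the zero vector is orthogonal to all isotropic vectors. -/
lemma eq_zero_of_perp_iso (hn : 2 ≤ n) {y : Fin n → F}
    (h : ∀ x : Fin n → F, hermForm n F q x x = 0 → x ≠ 0 → hermForm n F q y x = 0) : y = 0 := by
  classical
  have hq := two_le hF
  obtain ⟨α, hα0, hα⟩ := SUGen.exists_norm hF (-1 : F) (neg_ne_zero.2 one_ne_zero) (by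
    rw [neg_pow_q hF, one_pow])
  have hα' : α ^ q * α = -1 := by rw [mul_comm]; exact hα
  obtain ⟨ξ, hξ, hξ2⟩ := Cfsg.Agent.Lib.UnitarySU.exists_nrm_one_sq_ne_one hF
  have hξ' : ξ * ξ ^ q = 1 := hξ
  have hξ1 : ξ ≠ 1 := by
    rintro rfl
    exact hξ2 (one_pow 2)
  have hαξ : (α * ξ) ^ q * (α * ξ) = -1 := by
    rw [mul_pow]
    linear_combination (α ^ q * α) * hξ' + hα'
  ext j
  obtain ⟨i, hij⟩ : ∃ i : Fin n, i ≠ j := by
    by_contra hcon
    push Not at hcon
    have h0 := hcon ⟨0, by omega⟩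
    have h1 := hcon ⟨1, by omega⟩
    have := h0.trans h1.symm
    simp at this
  have key : ∀ a : F, a ^ q * a = -1 → y i + y j * a ^ q = 0 := by
    intro a ha
    have h1 := h (vv a i j) (vv_iso hF ha hij) (by
      intro h0
      have h2 := congrFun h0 i
      rw [vv_left hij] at h2
      exact one_ne_zero h2)
    have h2 : vv a i j = Pi.single i 1 + a • Pi.single j 1 := rfl
    rw [h2, hermForm_add_right hF, hermForm_smul_right, hermForm_single_right hF,
      hermForm_single_right hF] at h1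
    linear_combination h1
  have h1 := key α hα'
  have h2 := key (α * ξ) hαξ
  rw [mul_pow] at h2
  have h3 : y j * (α ^ q * (ξ ^ q - 1)) = 0 := by linear_combination h2 - h1
  have hξq : ξ ^ q - 1 ≠ 0 := by
    intro h0
    apply hξ1
    have h4 : ξ ^ q = 1 := by linear_combination h0
    rw [h4, mul_one] at hξ'
    exact hξ'
  exact (mul_eq_zero.1 h3).resolve_right (mul_ne_zero (pow_ne_zero _ hα0) hξq)

end Lev

section Coord

variable (hF : Fintype.card F = q ^ 2) {α b : F} (hα : α ^ q * α = -1) (hb : b + b ^ q = -1)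

/-- A vector with given coordinates. -/
def mk3 (α b : F) (x y : F) (u : Fin e → F) : Fin (e + 2) → F := x • vE α + y • wE α b + inc u

include hF hα hb

lemma mk3_w (x y : F) (u : Fin e → F) : hermForm (e + 2) F q (mk3 α b x y u) (wE α b) = x := by
  unfold mk3
  rw [hermForm_add_left, hermForm_add_left, hermForm_smul_left, hermForm_smul_left, vE_wE hF hα,
    wE_iso hF hα hb, inc_wE hF]
  ring

lemma mk3_v (x y : F) (u : Fin e → F) : hermForm (e + 2) F q (mk3 α b x y u) (vE α) = y := by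
  unfold mk3
  rw [hermForm_add_left, hermForm_add_left, hermForm_smul_left, hermForm_smul_left, vE_iso hF hα,
    wE_vE hF hα, inc_vE hF]
  ring

lemma mk3_inc (x y : F) (u t : Fin e → F) :
    hermForm (e + 2) F q (mk3 α b x y u) (inc t) = hermForm e F q u t := by
  unfold mk3
  rw [hermForm_add_left, hermForm_add_left, hermForm_smul_left, hermForm_smul_left, vE_inc hF,
    wE_inc hF, herm_inc hF]
  ring

lemma mk3_inj {x y x' y' : F} {u u' : Fin e → F} (h : mk3 α b x y u = mk3 α b x' y' u') :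
    x = x' ∧ y = y' ∧ u = u' := by
  have h1 := mk3_w hF hα hb x y u
  have h2 := mk3_v hF hα hb x y u
  rw [h, mk3_w hF hα hb] at h1
  rw [h, mk3_v hF hα hb] at h2
  refine ⟨h1.symm, h2.symm, ?_⟩
  subst h1 h2
  unfold mk3 at h
  exact inc_injective (add_left_cancel h)

lemma mk3_eq (z : Fin (e + 2) → F) : z = mk3 α b (hermForm (e + 2) F q z (wE α b))
    (hermForm (e + 2) F q z (vE α)) (rest α b q z) := decomp hF hα hb z

lemma rest_mk3 (x y : F) (u : Fin e → F) : rest α b q (mk3 α b x y u) = u := by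
  have h := mk3_eq hF hα hb (mk3 α b x y u)
  rw [mk3_w hF hα hb, mk3_v hF hα hb] at h
  exact (mk3_inj hF hα hb h).2.2.symm

lemma herm3 (x y x' y' : F) (u u' : Fin e → F) :
    hermForm (e + 2) F q (mk3 α b x y u) (mk3 α b x' y' u') =
      x * y' ^ q + y * x' ^ q + hermForm e F q u u' := by
  conv_lhs => rw [show mk3 α b x' y' u' = x' • vE α + y' • wE α b + inc u' from rfl]
  rw [hermForm_add_right hF, hermForm_add_right hF, hermForm_smul_right, hermForm_smul_right,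
    mk3_inc hF hα hb, mk3_w hF hα hb, mk3_v hF hα hb]
  ring

omit hF hα hb in
lemma smul_mk3 (c x y : F) (u : Fin e → F) : c • mk3 α b x y u = mk3 α b (c * x) (c * y) (c • u) := by
  unfold mk3
  rw [inc_smul]
  simp only [smul_add, smul_smul]

omit hb in
lemma act_iota_mk3 (l : SU e F q) (x y : F) (u : Fin e → F) :
    act (iota l) (mk3 α b x y u) = mk3 α b x y (act l u) := by
  unfold mk3
  rw [act_add, act_add, act_smul, act_smul, act_iota_vE, act_iota_wE, act_iota_inc]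

lemma mk3_vE : mk3 (e := e) α b 1 0 0 = vE α := by
  unfold mk3
  rw [inc_zero]
  simp

omit hF hα hb in
lemma mk3_add (x y x' y' : F) (u u' : Fin e → F) :
    mk3 α b x y u + mk3 α b x' y' u' = mk3 α b (x + x') (y + y') (u + u') := by
  unfold mk3
  rw [inc_add]
  simp only [add_smul]
  abel

end Coord

section Family

variable (hF : Fintype.card F = q ^ 2) {α b : F} (hα : α ^ q * α = -1) (hb : b + b ^ q = -1)
include hF hα hb

lemma inc_mem_Cen {K : Subgroup (SU (e + 2) F q)} (hL : ∀ l, iota l ∈ K) {x : Fin e → F}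
    (hx : hermForm e F q x x = 0) (hx0 : x ≠ 0) : inc x ∈ Cen hF K := by
  refine ⟨?_, by rw [herm_inc hF]; exact hx, fun c hc => ?_⟩
  · intro h0
    apply hx0
    apply inc_injective
    rw [h0, inc_zero]
  · rw [← iota_tau hF hα hx hc]
    exact hL _

/-- One family of centres. -/
lemma Cen_family (he : 3 ≤ e) {K : Subgroup (SU (e + 2) F q)} (hL : ∀ l, iota l ∈ K)
    {x y : F} {u : Fin e → F} (hz : mk3 α b x y u ∈ Cen hF K) (hu : u ≠ 0)
    {c : F} (hc : c ≠ 0) {u' : Fin e → F} (hu' : u' ≠ 0)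
    (hN : hermForm e F q u' u' = hermForm e F q u u) :
    mk3 α b (c * x) (c * y) (c • u') ∈ Cen hF K := by
  obtain ⟨l, hl⟩ := lev_trans hF he hu hu' hN.symm
  have h1 := Cen_act hF (hL l) hz
  rw [act_iota_mk3 hF hα, hl] at h1
  have h2 := Cen_smul hF hc h1
  rwa [smul_mk3] at h2

/-- Two families of centres. -/
theorem family_two (he : 3 ≤ e) (hev : Even e) {K : Subgroup (SU (e + 2) F q)} (hL : ∀ l, iota l ∈ K)
    {x₁ y₁ x₂ y₂ : F} {u₁ u₂ : Fin e → F} (h₁ : mk3 α b x₁ y₁ u₁ ∈ Cen hF K)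
    (h₂ : mk3 α b x₂ y₂ u₂ ∈ Cen hF K) (hu₁ : u₁ ≠ 0) (hu₂ : u₂ ≠ 0) (hnp : x₁ * y₂ ≠ x₂ * y₁) :
    2 * ((q ^ 2 - 1) * (q ^ (e - 1) * (q ^ e - 1))) ≤ Nat.card (Cen hF K) := by
  classical
  set N₁ := hermForm e F q u₁ u₁ with hN₁
  set N₂ := hermForm e F q u₂ u₂ with hN₂
  have hcU : Nat.card Fˣ = q ^ 2 - 1 := by
    rw [Nat.card_eq_fintype_card, Fintype.card_units, hF]
  have hL₁ := card_Lev_ge hF hev N₁ (hermForm_conj hF u₁ u₁)
  have hL₂ := card_Lev_ge hF hev N₂ (hermForm_conj hF u₂ u₂)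
  let f₁ : Fˣ × Lev e F q N₁ → Cen hF K := fun p =>
    ⟨mk3 α b (p.1 * x₁) (p.1 * y₁) ((p.1 : F) • p.2.1),
      Cen_family hF hα hb he hL h₁ hu₁ p.1.ne_zero p.2.2.1 p.2.2.2⟩
  let f₂ : Fˣ × Lev e F q N₂ → Cen hF K := fun p =>
    ⟨mk3 α b (p.1 * x₂) (p.1 * y₂) ((p.1 : F) • p.2.1),
      Cen_family hF hα hb he hL h₂ hu₂ p.1.ne_zero p.2.2.1 p.2.2.2⟩
  have hne₁ : x₁ ≠ 0 ∨ y₁ ≠ 0 := by
    by_contra hcon
    push Not at hcon
    apply hnp
    rw [hcon.1, hcon.2]
    ring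
  have hne₂ : x₂ ≠ 0 ∨ y₂ ≠ 0 := by
    by_contra hcon
    push Not at hcon
    apply hnp
    rw [hcon.1, hcon.2]
    ring
  have inj : ∀ {x y : F} {N : F}, (x ≠ 0 ∨ y ≠ 0) → ∀ (p p' : Fˣ × Lev e F q N),
      mk3 α b (p.1 * x) (p.1 * y) ((p.1 : F) • p.2.1) = mk3 α b (p'.1 * x) (p'.1 * y) ((p'.1 : F) • p'.2.1) →
      p = p' := by
    intro x y N hne p p' h
    obtain ⟨h1, h2, h3⟩ := mk3_inj hF hα hb h
    have hc : (p.1 : F) = p'.1 := by
      rcases hne with h0 | h0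
      · exact mul_right_cancel₀ h0 h1
      · exact mul_right_cancel₀ h0 h2
    have hc' : p.1 = p'.1 := Units.ext hc
    rw [hc] at h3
    have h4 : p.2.1 = p'.2.1 := smul_right_injective _ p'.1.ne_zero h3
    exact Prod.ext hc' (Subtype.ext h4)
  have hf₁ : Function.Injective f₁ := fun p p' h => inj hne₁ p p' (congrArg Subtype.val h)
  have hf₂ : Function.Injective f₂ := fun p p' h => inj hne₂ p p' (congrArg Subtype.val h)
  have hdisj : ∀ p p', f₁ p ≠ f₂ p' := by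
    intro p p' h
    obtain ⟨h1, h2, -⟩ := mk3_inj hF hα hb (congrArg Subtype.val h)
    apply hnp
    have hp : (p.1 : F) ≠ 0 := p.1.ne_zero
    apply mul_left_cancel₀ hp
    calc (p.1 : F) * (x₁ * y₂) = (p.1 * x₁) * y₂ := by ring
      _ = (p'.1 * x₂) * y₂ := by rw [h1]
      _ = x₂ * (p'.1 * y₂) := by ring
      _ = x₂ * (p.1 * y₁) := by rw [h2]
      _ = _ := by ring
  have hinj := Function.Injective.sumElim hf₁ hf₂ hdisj
  have hle := Nat.card_le_card_of_injective _ hinj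
  rw [Nat.card_sum, Nat.card_prod, Nat.card_prod, hcU] at hle
  set P := q ^ (e - 1) * (q ^ e - 1) with hP
  calc 2 * ((q ^ 2 - 1) * P) = (q ^ 2 - 1) * P + (q ^ 2 - 1) * P := by ring
    _ ≤ (q ^ 2 - 1) * Nat.card (Lev e F q N₁) + (q ^ 2 - 1) * Nat.card (Lev e F q N₂) := by gcongr
    _ ≤ _ := hle

end Family

section Pure

variable (hF : Fintype.card F = q ^ 2) {α b : F} (hα : α ^ q * α = -1) (hb : b + b ^ q = -1)

omit [Fintype F] in
/-- Pairing of a pure isotropic vector with a non-proportional one. -/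
lemma pair_ne (hq : q ≠ 0) {x₁ y₁ x₂ y₂ : F} (hiso : x₁ * y₁ ^ q + y₁ * x₁ ^ q = 0)
    (hnp : x₁ * y₂ ≠ x₂ * y₁) : x₂ * y₁ ^ q + y₂ * x₁ ^ q ≠ 0 := by
  intro h0
  have hD : x₁ * y₂ - x₂ * y₁ ≠ 0 := sub_ne_zero.2 hnp
  have h1 : x₁ ^ q * (x₁ * y₂ - x₂ * y₁) = 0 := by linear_combination x₁ * h0 - x₂ * hiso
  have h2 : y₁ ^ q * (x₁ * y₂ - x₂ * y₁) = 0 := by linear_combination y₂ * hiso - y₁ * h0
  have h3 : x₁ = 0 := (pow_eq_zero_iff hq).1 ((mul_eq_zero.1 h1).resolve_right hD)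
  have h4 : y₁ = 0 := (pow_eq_zero_iff hq).1 ((mul_eq_zero.1 h2).resolve_right hD)
  apply hD
  rw [h3, h4]
  ring

include hF hα hb

lemma iso_of_mem {K : Subgroup (SU (e + 2) F q)} {x y : F} {u : Fin e → F}
    (h : mk3 α b x y u ∈ Cen hF K) : x * y ^ q + y * x ^ q + hermForm e F q u u = 0 := by
  have := h.2.1
  rwa [herm3 hF hα hb] at this

/-- The action of a transvection in coordinates. -/
lemma act_tau_mk3 {K : Subgroup (SU (e + 2) F q)} {x₁ y₁ x₂ y₂ θ : F} {u₁ u₂ : Fin e → F}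
    (h₁ : mk3 α b x₁ y₁ u₁ ∈ Cen hF K) (hθ : θ + θ ^ q = 0) :
    act (tau hF (mk3 α b x₁ y₁ u₁) θ) (mk3 α b x₂ y₂ u₂) =
      mk3 α b (x₂ + θ * (x₂ * y₁ ^ q + y₂ * x₁ ^ q + hermForm e F q u₂ u₁) * x₁)
        (y₂ + θ * (x₂ * y₁ ^ q + y₂ * x₁ ^ q + hermForm e F q u₂ u₁) * y₁)
        (u₂ + (θ * (x₂ * y₁ ^ q + y₂ * x₁ ^ q + hermForm e F q u₂ u₁)) • u₁) := by
  rw [act_tau hF h₁.2.1 hθ, herm3 hF hα hb, smul_mk3, mk3_add]

/-- A pure centre moves a mixed centre to a second family. -/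
lemma mixed_partner {K : Subgroup (SU (e + 2) F q)} {x₁ y₁ x₂ y₂ : F} {u₂ : Fin e → F}
    (h₁ : mk3 α b x₁ y₁ 0 ∈ Cen hF K) (h₂ : mk3 α b x₂ y₂ u₂ ∈ Cen hF K) (hnp : x₁ * y₂ ≠ x₂ * y₁) :
    ∃ x₃ y₃ : F, mk3 α b x₃ y₃ u₂ ∈ Cen hF K ∧ x₂ * y₃ ≠ x₃ * y₂ := by
  have hq := two_le hF
  obtain ⟨θ, hθ0, hθ⟩ := SUGen.exists_trace_zero hF
  have hiso := iso_of_mem hF hα hb h₁
  rw [hermForm_zero_left, add_zero] at hiso
  have hg := pair_ne (by omega) hiso hnp
  have h3 := Cen_act hF (h₁.2.2 θ hθ) h₂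
  rw [act_tau_mk3 hF hα hb h₁ hθ, hermForm_zero_right hF, add_zero, smul_zero, add_zero] at h3
  refine ⟨_, _, h3, ?_⟩
  intro h0
  apply hnp
  have h4 : (θ * (x₂ * y₁ ^ q + y₂ * x₁ ^ q)) * (x₁ * y₂ - x₂ * y₁) = 0 := by
    linear_combination -h0
  have h5 := (mul_eq_zero.1 h4).resolve_left (mul_ne_zero hθ0 hg)
  linear_combination h5

/-- Two pure centres force `v` to be a centre. -/
lemma pure_pair {K : Subgroup (SU (e + 2) F q)} {x₁ y₁ x₂ y₂ : F}
    (h₁ : mk3 α b x₁ y₁ 0 ∈ Cen hF K) (h₂ : mk3 α b x₂ y₂ 0 ∈ Cen hF K) (hnp : x₁ * y₂ ≠ x₂ * y₁) :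
    vE α ∈ Cen hF K := by
  have hq := two_le hF
  have hiso₁ := iso_of_mem hF hα hb h₁
  have hiso₂ := iso_of_mem hF hα hb h₂
  rw [hermForm_zero_left, add_zero] at hiso₁ hiso₂
  have hg := pair_ne (by omega) hiso₁ hnp
  have hv : ∀ {c : F}, c ≠ 0 → mk3 α b c 0 (0 : Fin e → F) ∈ Cen hF K → vE α ∈ Cen hF K := by
    intro c hc h
    have h3 := Cen_smul hF (inv_ne_zero hc) h
    rw [smul_mk3, inv_mul_cancel₀ hc, mul_zero, smul_zero, mk3_vE hF hα hb] at h3
    exact h3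
  by_cases hy₁ : y₁ = 0
  · subst hy₁
    have hx₁ : x₁ ≠ 0 := by
      rintro rfl
      apply hnp
      ring
    exact hv hx₁ h₁
  · set μ : F := - y₂ / y₁ with hμ
    set g : F := x₂ * y₁ ^ q + y₂ * x₁ ^ q with hgdef
    have hgq : g ^ q = x₂ ^ q * y₁ + y₂ ^ q * x₁ := by
      rw [hgdef, add_pow_q hF, mul_pow, mul_pow, pow_pow_self hF, pow_pow_self hF]
    have hy₁q : y₁ ^ q ≠ 0 := pow_ne_zero _ hy₁
    have hμq : μ ^ q = - y₂ ^ q / y₁ ^ q := by
      rw [hμ, div_pow, neg_pow_q hF]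
    have hgq0 : g ^ q ≠ 0 := pow_ne_zero _ hg
    set θ : F := μ / g with hθdef
    have key : μ * g ^ q + μ ^ q * g = 0 := by
      have h : (μ * g ^ q + μ ^ q * g) * (y₁ * y₁ ^ q) = 0 := by
        have e1 : μ * y₁ = -y₂ := by rw [hμ]; field_simp
        have e2 : μ ^ q * y₁ ^ q = -y₂ ^ q := by rw [hμq]; field_simp
        rw [hgq, hgdef]
        linear_combination (y₁ ^ q * (x₂ ^ q * y₁ + y₂ ^ q * x₁)) * e1 +
          (y₁ * (x₂ * y₁ ^ q + y₂ * x₁ ^ q)) * e2 + (-y₁ * y₁ ^ q) * hiso₂ - (y₂ * y₂ ^ q) * hiso₁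
      exact (mul_eq_zero.1 h).resolve_right (mul_ne_zero hy₁ hy₁q)
    have hθ : θ + θ ^ q = 0 := by
      rw [hθdef, div_pow]
      have : μ / g + μ ^ q / g ^ q = (μ * g ^ q + μ ^ q * g) / (g * g ^ q) := by
        field_simp
      rw [this, key, zero_div]
    have h3 := Cen_act hF (h₁.2.2 θ hθ) h₂
    rw [act_tau_mk3 hF hα hb h₁ hθ, hermForm_zero_right hF, add_zero, smul_zero, add_zero,
      ← hgdef, hθdef, div_mul_cancel₀ _ hg] at h3
    have h4 : y₂ + μ * y₁ = 0 := by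
      rw [hμ]
      field_simp
      ring
    rw [h4] at h3
    refine hv ?_ h3
    intro h0
    apply hnp
    rw [hμ] at h0
    field_simp at h0
    linear_combination -h0

end Pure

section Perp

variable (hF : Fintype.card F = q ^ 2) {α b : F} (hα : α ^ q * α = -1) (hb : b + b ^ q = -1)

/-- Vectors orthogonal to all centres. -/
def Perp (hF : Fintype.card F = q ^ 2) (K : Subgroup (SU n F q)) (y : Fin n → F) : Prop :=
  ∀ z ∈ Cen hF K, hermForm n F q y z = 0

include hF in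
lemma Perp_act {K : Subgroup (SU n F q)} {g : SU n F q} (hg : g ∈ K) {y : Fin n → F}
    (hy : Perp hF K y) : Perp hF K (act g y) := by
  intro z hz
  have h1 := hy _ (Cen_act hF (K.inv_mem hg) hz)
  rw [← herm_act g, act_act_inv' hF] at h1
  exact h1

include hF hα hb

lemma rest_of_perp (he : 2 ≤ e) {K : Subgroup (SU (e + 2) F q)} (hL : ∀ l, iota l ∈ K)
    {y : Fin (e + 2) → F} (hy : Perp hF K y) : rest α b q y = 0 := by
  apply eq_zero_of_perp_iso hF he
  intro x hx hx0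
  have h1 := hy _ (inc_mem_Cen hF hα hb hL hx hx0)
  rw [mk3_eq hF hα hb y, mk3_inc hF hα hb] at h1
  exact h1

/-- If no centre has a plane component, the orbit of `v` is small. -/
lemma card_orb_of_zero (he : 2 ≤ e) {K : Subgroup (SU (e + 2) F q)} (hL : ∀ l, iota l ∈ K)
    (h0 : ∀ z ∈ Cen hF K, hermForm (e + 2) F q z (vE α) = 0) :
    Nat.card (orbV K (vE (e := e) α)) ≤ q ^ 4 := by
  classical
  have hP : Perp hF K (vE (e := e) α) := by
    intro z hz
    rw [← hermForm_conj hF z, h0 z hz]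
    exact zero_pow (by have := two_le hF; omega)
  have hcard : Nat.card (F × F) = q ^ 4 := by
    rw [Nat.card_prod, Nat.card_eq_fintype_card, hF]
    ring
  rw [← hcard]
  refine Nat.card_le_card_of_injective
    (fun z => (hermForm (e + 2) F q z.1 (wE α b), hermForm (e + 2) F q z.1 (vE α))) ?_
  rintro ⟨_, g, hg, rfl⟩ ⟨_, g', hg', rfl⟩ h
  apply Subtype.ext
  have h1 := rest_of_perp hF hα hb he hL (Perp_act hF hg hP)
  have h2 := rest_of_perp hF hα hb he hL (Perp_act hF hg' hP)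
  have h3 := mk3_eq hF hα hb (act g (vE (e := e) α))
  have h4 := mk3_eq hF hα hb (act g' (vE (e := e) α))
  rw [h1] at h3
  rw [h2] at h4
  simp only [Prod.mk.injEq] at h
  show act g (vE (e := e) α) = act g' (vE (e := e) α)
  rw [h3, h4, h.1, h.2]

/-- If all centres have proportional plane components, `K` fixes a line. -/
lemma line_case (he : 2 ≤ e) {K : Subgroup (SU (e + 2) F q)} (hL : ∀ l, iota l ∈ K)
    {x₀ y₀ : F} {u₀ : Fin e → F} (h₀ : mk3 α b x₀ y₀ u₀ ∈ Cen hF K) (hne : x₀ ≠ 0 ∨ y₀ ≠ 0)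
    (hpar : ∀ z ∈ Cen hF K,
      x₀ * hermForm (e + 2) F q z (vE α) = hermForm (e + 2) F q z (wE α b) * y₀) :
    ∃ b₁ : Fin (e + 2) → F, b₁ ≠ 0 ∧ ∀ g ∈ K, ∃ t : F, act g b₁ = t • b₁ := by
  have hq := two_le hF
  set b₁ : Fin (e + 2) → F := mk3 α b (x₀ ^ q) (-y₀ ^ q) 0 with hb₁
  have hP : Perp hF K b₁ := by
    intro z hz
    obtain ⟨x, y, u, rfl⟩ : ∃ x y u, z = mk3 α b x y u := ⟨_, _, _, mk3_eq hF hα hb z⟩
    have h1 := hpar _ hz
    rw [mk3_v hF hα hb, mk3_w hF hα hb] at h1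
    rw [hb₁, herm3 hF hα hb, hermForm_zero_left, add_zero]
    have h2 : (x₀ * y - x * y₀) ^ q = 0 := by
      rw [h1, sub_self, zero_pow (by omega)]
    rw [sub_pow_q hF, mul_pow, mul_pow] at h2
    linear_combination h2
  have hb0 : b₁ ≠ 0 := by
    intro h0
    have h1 := mk3_w hF hα hb (x₀ ^ q) (-y₀ ^ q) (0 : Fin e → F)
    have h2 := mk3_v hF hα hb (x₀ ^ q) (-y₀ ^ q) (0 : Fin e → F)
    rw [← hb₁, h0, hermForm_zero_left] at h1 h2
    rcases hne with h3 | h3
    · exact pow_ne_zero q h3 h1.symm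
    · apply pow_ne_zero q h3
      linear_combination h2
  refine ⟨b₁, hb0, fun g hg => ?_⟩
  have hP' := Perp_act hF hg hP
  have h1 := rest_of_perp hF hα hb he hL hP'
  have h2 := mk3_eq hF hα hb (act g b₁)
  rw [h1] at h2
  set a := hermForm (e + 2) F q (act g b₁) (wE α b) with ha
  set c := hermForm (e + 2) F q (act g b₁) (vE α) with hc
  have h3 := hP' _ h₀
  rw [h2, herm3 hF hα hb, hermForm_zero_left, add_zero] at h3
  by_cases hx0 : x₀ = 0
  · have hy0 : y₀ ≠ 0 := hne.resolve_left (not_not.2 hx0)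
    have hyq : y₀ ^ q ≠ 0 := pow_ne_zero _ hy0
    rw [hx0, zero_pow (by omega), mul_zero, add_zero] at h3
    have ha0 : a = 0 := (mul_eq_zero.1 h3).resolve_right hyq
    refine ⟨-c / y₀ ^ q, ?_⟩
    rw [h2, ha0, hb₁, smul_mk3, smul_zero, hx0, zero_pow (by omega), mul_zero]
    congr 1
    field_simp
  · have hxq : x₀ ^ q ≠ 0 := pow_ne_zero _ hx0
    refine ⟨a / x₀ ^ q, ?_⟩
    rw [h2, hb₁, smul_mk3, smul_zero]
    congr 1
    · field_simp
    · field_simp
      linear_combination h3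

omit hα hb in
lemma card_orb_line_iso {K : Subgroup (SU n F q)} {b₁ : Fin n → F} (hb₁ : b₁ ≠ 0)
    (h : ∀ g ∈ K, ∃ t : F, act g b₁ = t • b₁) : Nat.card (orbV K b₁) ≤ q ^ 2 - 1 := by
  classical
  have hcU : Nat.card Fˣ = q ^ 2 - 1 := by
    rw [Nat.card_eq_fintype_card, Fintype.card_units, hF]
  rw [← hcU]
  refine le_trans (Nat.card_mono (Set.toFinite _) ?_) (Finite.card_range_le (fun t : Fˣ => (t : F) • b₁))
  rintro _ ⟨g, hg, rfl⟩
  obtain ⟨t, ht⟩ := h g hg
  have ht0 : t ≠ 0 := by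
    rintro rfl
    rw [zero_smul] at ht
    exact act_ne_zero hF g hb₁ ht
  exact ⟨Units.mk0 t ht0, ht.symm⟩

omit hα hb in
lemma card_orb_line_aniso {K : Subgroup (SU n F q)} {b₁ : Fin n → F} (hN : hermForm n F q b₁ b₁ ≠ 0)
    (h : ∀ g ∈ K, ∃ t : F, act g b₁ = t • b₁) : Nat.card (orbV K b₁) ≤ q + 1 := by
  classical
  have hcU := Cfsg.Agent.Lib.UnitarySU.card_units_nrm_one hF
  rw [← hcU]
  refine le_trans (Nat.card_mono (Set.toFinite _) ?_) (Finite.card_range_le
    (fun t : {u : Fˣ // Cfsg.Agent.Lib.HermCount.nrm q (u : F) = 1} => ((t.1 : Fˣ) : F) • b₁))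
  rintro _ ⟨g, hg, rfl⟩
  obtain ⟨t, ht⟩ := h g hg
  have h1 := herm_act g b₁ b₁
  have ht0 : t ≠ 0 := by
    rintro rfl
    rw [zero_smul] at ht
    rw [ht, hermForm_zero_left] at h1
    exact hN h1.symm
  refine ⟨⟨Units.mk0 t ht0, ?_⟩, ht.symm⟩
  show t * t ^ q = 1
  have ht' : act g b₁ = t • b₁ := ht
  rw [ht', hermForm_smul_left, hermForm_smul_right] at h1
  have h2 : (t * t ^ q - 1) * hermForm n F q b₁ b₁ = 0 := by linear_combination h1
  have h3 := (mul_eq_zero.1 h2).resolve_right hN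
  linear_combination h3

end Perp

section Closure

/-- The arithmetic of the two families. -/
lemma family_arith {q T : ℕ} (hq : 3 ≤ q) (hT : q ^ 3 ≤ T) :
    (q ^ 3 * T - 1) * (q ^ 2 * T + 1) ≤
      2 * ((q ^ 2 - 1) * (T * (q * T - 1))) + q ^ 2 * T ^ 2 * q * (q ^ 2 - 1) := by
  have h1 : 1 ≤ q ^ 2 := Nat.one_le_pow _ _ (by omega)
  have hT1 : 1 ≤ T := le_trans (Nat.one_le_pow _ _ (by omega)) hT
  have h2 : 1 ≤ q * T := Nat.mul_pos (by omega) hT1
  have h3 : 1 ≤ q ^ 3 * T := Nat.mul_pos (by positivity) hT1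
  zify [h1, h2, h3]
  have hq' : (3 : ℤ) ≤ q := by exact_mod_cast hq
  have hT' : (q : ℤ) ^ 3 ≤ T := by exact_mod_cast hT
  set Q : ℤ := (q : ℤ)
  set S : ℤ := (T : ℤ)
  have hQ3 : 27 ≤ Q ^ 3 := by nlinarith [mul_self_nonneg (Q - 3), mul_self_nonneg Q]
  have hS : 0 ≤ S := by nlinarith
  -- the difference
  have key : 0 ≤ Q ^ 3 * S ^ 2 - 2 * Q * S ^ 2 - Q ^ 3 * S - Q ^ 2 * S + 2 * S + 1 := by
    have e1 : Q ^ 3 + Q ^ 2 ≤ Q * S := by
      have : Q * Q ^ 3 ≤ Q * S := by nlinarith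
      nlinarith [pow_pos (show (0:ℤ) < Q by linarith) 2, pow_pos (show (0:ℤ) < Q by linarith) 3]
    have e2 : Q * S ≤ (Q ^ 3 - 2 * Q) * S := by
      have : Q ≤ Q ^ 3 - 2 * Q := by nlinarith
      exact mul_le_mul_of_nonneg_right this hS
    have e3 : (Q ^ 3 + Q ^ 2) * S ≤ ((Q ^ 3 - 2 * Q) * S) * S := by
      apply mul_le_mul_of_nonneg_right (le_trans e1 e2) hS
    nlinarith
  nlinarith

variable (hF : Fintype.card F = q ^ 2) {α : F} (hα : α ^ q * α = -1)
include hF hα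

/-- The closure theorem in even dimension. -/
theorem closure_even (hq : 3 ≤ q) (he : 4 ≤ e) (hev : Even e) {K : Subgroup (SU (e + 2) F q)}
    (hL : ∀ l, iota l ∈ K) (hQK : ∀ y ∈ QQ hF hα e, y ∈ K → y = 1)
    (hn : K.index * (q ^ 2 - 1) < (q ^ (e + 2) - 1) * (q ^ (e + 1) + 1)) : False := by
  classical
  obtain ⟨b, hb⟩ : ∃ b : F, b + b ^ q = -1 :=
    exists_trace_eq hF (t := -1) (by rw [neg_pow_q hF, one_pow])
  have hev2 : Even (e + 2) := hev.add (by decide)
  set X := (q ^ (e + 2) - 1) * (q ^ (e + 1) + 1) with hX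
  have hIso : Nat.card (IsoV (e + 2) F q) = X := card_IsoV hF (e + 2) hev2
  set m := K.index with hm
  have hm0 : 0 < m := Nat.pos_of_ne_zero Subgroup.index_ne_zero_of_finite
  have hn3 : 3 ≤ e + 2 := by omega
  have hv := vE_mem (e := e) hF hα
  -- `v` is not a centre
  have hvC : vE α ∉ Cen hF K := by
    intro h
    obtain ⟨θ, hθ0, hθ⟩ := SUGen.exists_trace_zero hF
    have h1 := h.2.2 θ hθ
    rw [← EE_zero_eq_tau hF hα] at h1
    have h2 := hQK _ ⟨0, θ, Gd_zero hF hθ, rfl⟩ h1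
    obtain ⟨-, h3⟩ := EE_inj hF hα (Gd_zero (e := e) hF hθ) (Gd_zero (e := e) hF (c := 0) (by
      rw [zero_pow (by have := two_le hF; omega), add_zero])) (h2.trans (EE_zero hF hα).symm)
    exact hθ0 h3
  -- the orbit of `v` is large
  have hA : (q ^ 2) ^ e * q * (q ^ 2 - 1) < Nat.card (orbV K (vE (e := e) α)) := by
    have h1 := orb_index hF hn3 hv K
    rw [hIso] at h1
    have h2 := mi_stab hF hα K
    have hbot : K.subgroupOf (QQ hF hα e) = ⊥ := by
      rw [eq_bot_iff]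
      intro y hy
      rw [Subgroup.mem_subgroupOf] at hy
      rw [Subgroup.mem_bot]
      exact Subtype.ext (hQK _ y.2 hy)
    rw [hbot, Subgroup.index_bot, card_QQ hF hα] at h2
    have h3 : (q ^ 2) ^ e * q ≤ (K.subgroupOf (stabV (vE (e := e) α))).index := by
      refine le_trans ?_ h2
      exact Nat.le_mul_of_pos_left _ (Nat.pos_of_ne_zero Subgroup.index_ne_zero_of_finite)
    by_contra hcon
    push Not at hcon
    have h4 : (q ^ 2) ^ e * q * X ≤ (q ^ 2) ^ e * q * (q ^ 2 - 1) * m := by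
      calc (q ^ 2) ^ e * q * X ≤ (K.subgroupOf (stabV (vE (e := e) α))).index * X :=
            Nat.mul_le_mul_right _ h3
        _ = Nat.card (orbV K (vE (e := e) α)) * m := h1.symm
        _ ≤ _ := Nat.mul_le_mul_right _ hcon
    have h5 : (q ^ 2) ^ e * q * X ≤ (q ^ 2) ^ e * q * (m * (q ^ 2 - 1)) := by
      calc _ ≤ _ := h4
        _ = _ := by ring
    have h6 := Nat.le_of_mul_le_mul_left h5 (by have := two_le hF; positivity)
    omega
  have hAC : Nat.card (orbV K (vE (e := e) α)) + Nat.card (Cen hF K) ≤ X := by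
    have hsub : orbV K (vE (e := e) α) ∪ Cen hF K ⊆ IsoV (e + 2) F q := by
      apply Set.union_subset _ (Cen_sub_Iso hF K)
      rintro _ ⟨g, -, rfl⟩
      exact ⟨by rw [herm_act]; exact hv.1, act_ne_zero hF g hv.2⟩
    have h2 := Nat.card_mono (Set.toFinite _) hsub
    rw [hIso] at h2
    refine le_trans (le_of_eq ?_) h2
    simp only [Nat.card_coe_set_eq]
    rw [Set.ncard_union_eq (orbV_disj hF hvC) (Set.toFinite _) (Set.toFinite _)]
  -- two families are too many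
  have hfamily : ¬ (2 * ((q ^ 2 - 1) * (q ^ (e - 1) * (q ^ e - 1))) ≤ Nat.card (Cen hF K)) := by
    intro h
    have hT : q ^ 3 ≤ q ^ (e - 1) := Nat.pow_le_pow_right (by omega) (by omega)
    have h1 := family_arith hq hT
    obtain ⟨e', rfl⟩ : ∃ e', e = e' + 1 := ⟨e - 1, by omega⟩
    simp only [Nat.add_sub_cancel] at *
    have e1 : q ^ 3 * q ^ e' = q ^ (e' + 1 + 2) := by ring
    have e2 : q ^ 2 * q ^ e' = q ^ (e' + 1 + 1) := by ring
    have e3 : q * q ^ e' = q ^ (e' + 1) := by ring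
    have e4 : q ^ 2 * (q ^ e') ^ 2 * q * (q ^ 2 - 1) = (q ^ 2) ^ (e' + 1) * q * (q ^ 2 - 1) := by ring
    rw [e1, e2, e3, e4] at h1
    omega
  by_cases hT : ∃ (x₁ y₁ x₂ y₂ : F) (u₁ u₂ : Fin e → F), mk3 α b x₁ y₁ u₁ ∈ Cen hF K ∧
      mk3 α b x₂ y₂ u₂ ∈ Cen hF K ∧ x₁ * y₂ ≠ x₂ * y₁
  · obtain ⟨x₁, y₁, x₂, y₂, u₁, u₂, h₁, h₂, hnp⟩ := hT
    apply hfamily
    by_cases hu₁ : u₁ = 0
    · subst hu₁
      by_cases hu₂ : u₂ = 0
      · subst hu₂
        exact absurd (pure_pair hF hα hb h₁ h₂ hnp) hvC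
      · obtain ⟨x₃, y₃, h₃, hnp'⟩ := mixed_partner hF hα hb h₁ h₂ hnp
        exact family_two hF hα hb (by omega) hev hL h₂ h₃ hu₂ hu₂ hnp'
    · by_cases hu₂ : u₂ = 0
      · subst hu₂
        obtain ⟨x₃, y₃, h₃, hnp'⟩ := mixed_partner hF hα hb h₂ h₁ hnp.symm
        exact family_two hF hα hb (by omega) hev hL h₁ h₃ hu₁ hu₁ hnp'
      · exact family_two hF hα hb (by omega) hev hL h₁ h₂ hu₁ hu₂ hnp
  · push Not at hT
    by_cases h0 : ∃ (x₀ y₀ : F) (u₀ : Fin e → F), mk3 α b x₀ y₀ u₀ ∈ Cen hF K ∧ (x₀ ≠ 0 ∨ y₀ ≠ 0)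
    · obtain ⟨x₀, y₀, u₀, h₀, hne⟩ := h0
      have hpar : ∀ z ∈ Cen hF K,
          x₀ * hermForm (e + 2) F q z (vE α) = hermForm (e + 2) F q z (wE α b) * y₀ := by
        intro z hz
        have hz' := hz
        rw [mk3_eq hF hα hb z] at hz'
        exact hT _ _ _ _ _ _ h₀ hz'
      obtain ⟨b₁, hb₁, hline⟩ := line_case hF hα hb (by omega) hL h₀ hne hpar
      have hpos : 1 ≤ (K.subgroupOf (stabV b₁)).index :=
        Nat.pos_of_ne_zero Subgroup.index_ne_zero_of_finite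
      by_cases hN : hermForm (e + 2) F q b₁ b₁ = 0
      · have h1 := orb_index hF hn3 (u := b₁) ⟨hN, hb₁⟩ K
        rw [hIso] at h1
        have h2 := card_orb_line_iso hF hb₁ hline
        have h3 : X ≤ (q ^ 2 - 1) * m := by
          calc X ≤ (K.subgroupOf (stabV b₁)).index * X := Nat.le_mul_of_pos_left _ hpos
            _ = Nat.card (orbV K b₁) * m := h1.symm
            _ ≤ _ := Nat.mul_le_mul_right _ h2
        have h4 : (q ^ 2 - 1) * m = m * (q ^ 2 - 1) := by ring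
        omega
      · have h1 := orb_index_lev hF hn3 hb₁ K
        have h2 := card_orb_line_aniso hF hN hline
        have h3 := card_Lev_ge hF hev2 _ (hermForm_conj hF b₁ b₁)
        have h4 : q ^ (e + 1) * (q ^ (e + 2) - 1) ≤ (q + 1) * m := by
          calc q ^ (e + 1) * (q ^ (e + 2) - 1) ≤ Nat.card (Lev (e + 2) F q (hermForm (e + 2) F q b₁ b₁)) := h3
            _ ≤ (K.subgroupOf (stabV b₁)).index * Nat.card (Lev (e + 2) F q (hermForm (e + 2) F q b₁ b₁)) :=
                Nat.le_mul_of_pos_left _ hpos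
            _ = Nat.card (orbV K b₁) * m := h1.symm
            _ ≤ _ := Nat.mul_le_mul_right _ h2
        set E := q ^ (e + 2) - 1 with hE
        have hE0 : 0 < E := by
          have : 1 < q ^ (e + 2) := Nat.one_lt_pow (by omega) (by omega)
          omega
        have h5 : (q - 1) * (q ^ (e + 1) * E) ≤ E * (q ^ (e + 1) + 1) := by
          have h6 : (q - 1) * ((q + 1) * m) = m * (q ^ 2 - 1) := by
            obtain ⟨p, rfl⟩ : ∃ p, q = p + 1 := ⟨q - 1, by omega⟩
            have : (p + 1) ^ 2 - 1 = p * (p + 2) := Nat.sub_eq_of_eq_add (by ring)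
            rw [this]
            simp only [Nat.add_sub_cancel]
            ring
          calc _ ≤ (q - 1) * ((q + 1) * m) := Nat.mul_le_mul_left _ h4
            _ = _ := h6
            _ ≤ _ := hn.le
        have h6 : E * ((q - 1) * q ^ (e + 1)) ≤ E * (q ^ (e + 1) + 1) := by
          calc _ = (q - 1) * (q ^ (e + 1) * E) := by ring
            _ ≤ _ := h5
        have h7 := Nat.le_of_mul_le_mul_left h6 hE0
        -- a strict inequality was available
        have h8 : (q - 1) * (q ^ (e + 1) * E) < E * (q ^ (e + 1) + 1) := by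
          have h6 : (q - 1) * ((q + 1) * m) = m * (q ^ 2 - 1) := by
            obtain ⟨p, rfl⟩ : ∃ p, q = p + 1 := ⟨q - 1, by omega⟩
            have : (p + 1) ^ 2 - 1 = p * (p + 2) := Nat.sub_eq_of_eq_add (by ring)
            rw [this]
            simp only [Nat.add_sub_cancel]
            ring
          calc _ ≤ (q - 1) * ((q + 1) * m) := Nat.mul_le_mul_left _ h4
            _ = _ := h6
            _ < _ := hn
        have h9 : E * ((q - 1) * q ^ (e + 1)) < E * (q ^ (e + 1) + 1) := by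
          calc _ = (q - 1) * (q ^ (e + 1) * E) := by ring
            _ < _ := h8
        have h10 := Nat.lt_of_mul_lt_mul_left h9
        have h11 : 2 * q ^ (e + 1) ≤ (q - 1) * q ^ (e + 1) := Nat.mul_le_mul_right _ (by omega)
        have h12 : 1 ≤ q ^ (e + 1) := Nat.one_le_pow _ _ (by omega)
        omega
    · push Not at h0
      have hzero : ∀ z ∈ Cen hF K, hermForm (e + 2) F q z (vE α) = 0 := by
        intro z hz
        have hz' := hz
        rw [mk3_eq hF hα hb z] at hz'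
        exact (h0 _ _ _ hz').2
      have h1 := card_orb_of_zero hF hα hb (by omega) hL hzero
      have h2 : q ^ 4 ≤ (q ^ 2) ^ e := by
        rw [← pow_mul]
        exact Nat.pow_le_pow_right (by omega) (by omega)
      have h3 : 1 ≤ q * (q ^ 2 - 1) := by
        have : 1 < q ^ 2 := Nat.one_lt_pow (by norm_num) (by omega)
        exact Nat.mul_pos (by omega) (by omega)
      have h4 : q ^ 4 ≤ (q ^ 2) ^ e * q * (q ^ 2 - 1) := by
        calc q ^ 4 ≤ (q ^ 2) ^ e * 1 := by omega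
          _ ≤ (q ^ 2) ^ e * (q * (q ^ 2 - 1)) := Nat.mul_le_mul_left _ h3
          _ = _ := by ring
      omega

end Closure

end Cfsg.Agent.Lib.PSUIdx
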