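import Mathlib
import Cfsg.Agent.Lib.PSUIdxM
import Cfsg.Agent.Lib.PSUIdxK

/-!
# The induction in even dimension, and attaining the bound
-/

set_option autoImplicit false
set_option linter.unusedSectionVars false
set_option linter.unusedVariables false

namespace Cfsg.Agent.Lib.PSUIdx

open Matrix Cfsg Cfsg.Agent.Lib.HermForm Cfsg.Agent.Lib.FFNorm Cfsg.Agent.Lib.UnitaryE
  Cfsg.Agent.Lib.UnitarySU Cfsg.Agent.Lib.SUMinDeg
open Cfsg.Agent.Lib.PSU35A (cj mem_cj)

variable {F : Type*} [Field F] [Fintype F] {q n e : ℕ}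

section Arith

/-- First arithmetic bound. -/
lemma step_arith1 {q T : ℕ} (hq : 3 ≤ q) (hT : 1 ≤ T) :
    (q ^ 3 * T - 1) * (q ^ 2 * T + 1) ≤ (q ^ 2 * T * ((q + 1) * (T + 1))) * (q ^ 2 - 1) := by
  have h1 : 1 ≤ q ^ 2 := Nat.one_le_pow _ _ (by omega)
  have h3 : 1 ≤ q ^ 3 * T := Nat.mul_pos (by positivity) hT
  zify [h1, h3]
  have hq' : (3 : ℤ) ≤ q := by exact_mod_cast hq
  have hT' : (1 : ℤ) ≤ T := by exact_mod_cast hT
  set Q : ℤ := (q : ℤ)
  set S : ℤ := (T : ℤ)
  have hQ0 : 0 < Q := by linarith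
  have hS0 : 0 < S := by linarith
  -- difference is `Q⁴S²−Q³S²−Q²S²+Q⁵S+Q⁴S−2Q³S+1`
  have e1 : 0 ≤ Q ^ 2 * S ^ 2 * (Q ^ 2 - Q - 1) := by
    have : 0 ≤ Q ^ 2 - Q - 1 := by nlinarith
    positivity
  have e2 : 0 ≤ Q ^ 3 * S * (Q ^ 2 + Q - 2) := by
    have : 0 ≤ Q ^ 2 + Q - 2 := by nlinarith
    positivity
  nlinarith

/-- Second arithmetic bound. -/
lemma step_arith2 {q T : ℕ} (hq : 3 ≤ q) (hT : 1 ≤ T) :
    (q ^ 3 * T - 1) * (q ^ 2 * T + 1) ≤ (q ^ 2 * T ^ 2 * (q + 2)) * (q ^ 2 - 1) := by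
  have h1 : 1 ≤ q ^ 2 := Nat.one_le_pow _ _ (by omega)
  have h3 : 1 ≤ q ^ 3 * T := Nat.mul_pos (by positivity) hT
  zify [h1, h3]
  have hq' : (3 : ℤ) ≤ q := by exact_mod_cast hq
  have hT' : (1 : ℤ) ≤ T := by exact_mod_cast hT
  set Q : ℤ := (q : ℤ)
  set S : ℤ := (T : ℤ)
  have hQ0 : 0 < Q := by linarith
  have hS0 : 0 < S := by linarith
  have e1 : 0 ≤ Q ^ 2 * S * (S * (2 * Q ^ 2 - Q - 2) - Q) := by
    have h2 : Q ≤ 2 * Q ^ 2 - Q - 2 := by nlinarith
    have h4 : 0 ≤ S * (2 * Q ^ 2 - Q - 2) - Q := by nlinarith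
    positivity
  nlinarith [mul_pos (pow_pos hQ0 2) hS0]

/-- Third arithmetic bound. -/
lemma step_arith3 {q T : ℕ} (hq : 3 ≤ q) (hT : 1 ≤ T) :
    (q ^ 3 * T - 1) * (q ^ 2 * T + 1) ≤ (2 * (q ^ 2 * T ^ 2 * q)) * (q ^ 2 - 1) := by
  have h1 : 1 ≤ q ^ 2 := Nat.one_le_pow _ _ (by omega)
  have h3 : 1 ≤ q ^ 3 * T := Nat.mul_pos (by positivity) hT
  zify [h1, h3]
  have hq' : (3 : ℤ) ≤ q := by exact_mod_cast hq
  have hT' : (1 : ℤ) ≤ T := by exact_mod_cast hT
  set Q : ℤ := (q : ℤ)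
  set S : ℤ := (T : ℤ)
  have hQ0 : 0 < Q := by linarith
  have hS0 : 0 < S := by linarith
  have e1 : 0 ≤ Q ^ 3 * S * (S * (Q ^ 2 - 2) - 1) := by
    have h2 : 1 ≤ Q ^ 2 - 2 := by nlinarith
    have h4 : 0 ≤ S * (Q ^ 2 - 2) - 1 := by nlinarith
    positivity
  nlinarith [mul_pos (pow_pos hQ0 2) hS0]

end Arith

section Step

variable (hF : Fintype.card F = q ^ 2) {α : F} (hα : α ^ q * α = -1)
include hF hα

/-- The inductive step when a transvection at `v` is missing. -/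
theorem step_core (hq : 3 ≤ q) (he : 4 ≤ e) (hev : Even e)
    (IH : ∀ K : Subgroup (SU e F q), K ≠ ⊤ → (q + 1) * (q ^ (e - 1) + 1) ≤ K.index)
    (K : Subgroup (SU (e + 2) F q)) {c : F} (hc : c + c ^ q = 0)
    (hcK : EE (e := e) hF α 0 c ∉ K) :
    (q ^ (e + 2) - 1) * (q ^ (e + 1) + 1) ≤ K.index * (q ^ 2 - 1) := by
  classical
  by_contra hn
  push Not at hn
  obtain ⟨k, hk1, hk, H⟩ := mi_param hF hα K (by omega) hc hcK
  have hr2 := card_sq_le_top hF hc (Z := ZZ hF hα K) (fun h => hcK h.2)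
    (fun y hy y' hy' => comm_mem_ZZ hF hα hy' hy)
  set r := Nat.card (YY hF hα K) with hr
  set z := Nat.card (ZZ hF hα K) with hz
  set m := K.index with hm
  set i := (KK hF hα K).index with hi
  have hz1 : 1 ≤ z := Nat.card_pos
  have hq0 : 0 < q := by omega
  set T := q ^ (e - 1) with hT
  have hT1 : 1 ≤ T := Nat.one_le_pow _ _ hq0
  have hT3 : q ^ 3 ≤ T := Nat.pow_le_pow_right hq0 (by omega)
  have h1 : q ^ e = q * T := by
    rw [hT, ← pow_succ']
    congr 1
    omega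
  have h2 : q ^ (e + 1) = q ^ 2 * T := by
    rw [pow_succ, h1]
    ring
  have h3 : q ^ (e + 2) = q ^ 3 * T := by
    rw [pow_add, h1]
    ring
  have h4 : (q ^ 2) ^ e = q ^ 2 * T ^ 2 := by
    rw [← pow_mul, mul_comm, pow_mul, h1]
    ring
  rw [h2, h3] at hn
  have hrq : r ≤ q * T := by
    by_contra hcon
    push Not at hcon
    have h5 : (q * T) ^ 2 < r ^ 2 := Nat.pow_lt_pow_left hcon (by norm_num)
    have h6 : (q * T) ^ 2 = (q ^ 2) ^ e := by
      rw [h4]
      ring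
    omega
  by_cases hKK : KK hF hα K = ⊤
  · have hi1 : i = 1 := by
      rw [hi, hKK]
      exact Subgroup.index_top
    by_cases hY : ∃ y ∈ YY hF hα K, y ≠ 0
    · obtain ⟨y, hyY, hy0⟩ := hY
      have hx : ∃ x : Fin e → F, hermForm e F q x x = 0 ∧ x ≠ 0 ∧ hermForm e F q y x ≠ 0 := by
        by_contra hcon
        push Not at hcon
        exact hy0 (eq_zero_of_perp_iso hF (by omega) (fun x hx hx0 => hcon x hx hx0))
      obtain ⟨x, hxx, hx0, hyx⟩ := hx
      obtain ⟨θ, hθ0, hθ⟩ := SUGen.exists_trace_zero hF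
      have hl : ∀ (l : SU e F q) {u : Fin e → F}, u ∈ YY hF hα K → act l u ∈ YY hF hα K :=
        fun l u hu => YY_inv hF hα (by rw [hKK]; trivial) hu
      set a := θ * hermForm e F q y x with ha
      have ha0 : a ≠ 0 := mul_ne_zero hθ0 hyx
      have h5 : a • x ∈ YY hF hα K := by
        have h6 := (YY hF hα K).sub_mem (hl (tau hF x θ) hyY) hyY
        rw [act_tau hF hxx hθ y, add_sub_cancel_left] at h6
        exact h6
      have h6 : ∀ x' ∈ IsoV e F q, x' ∈ YY hF hα K := by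
        intro x' hx'
        obtain ⟨l, hl'⟩ := exists_act_eq hF (n := e) (by omega) (x := a • x) (y := x')
          (by rw [hermForm_smul_left, hermForm_smul_right, hxx]; ring) (smul_ne_zero ha0 hx0)
          hx'.1 hx'.2
        rw [← hl']
        exact hl l h5
      have h7 : Nat.card (IsoV e F q) ≤ r :=
        Nat.card_le_card_of_injective (fun x : IsoV e F q => (⟨x.1, h6 x.1 x.2⟩ : YY hF hα K))
          (fun x x' h => Subtype.ext (congrArg (fun t : YY hF hα K => t.1) h))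
      rw [card_IsoV hF e hev, ← hT, h1] at h7
      have h8 : 1 ≤ q * T := Nat.mul_pos hq0 hT1
      have h9 : 2 ≤ T := le_trans (by
        calc 2 ≤ 3 ^ 3 := by norm_num
          _ ≤ q ^ 3 := Nat.pow_le_pow_left hq 3) hT3
      obtain ⟨P, hP⟩ : ∃ P, q * T = P + 1 := ⟨q * T - 1, by omega⟩
      rw [hP] at h7 hrq
      simp only [Nat.add_sub_cancel] at h7
      have h10 : P * (T + 1) ≤ P + 1 := le_trans h7 hrq
      have h11 : 2 ≤ P := by
        have : 3 * 2 ≤ q * T := Nat.mul_le_mul hq h9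
        omega
      nlinarith
    · push Not at hY
      have hY' : YY hF hα K = ⊥ := by
        rw [eq_bot_iff]
        intro y hy
        exact hY y hy
      have hr1 : r = 1 := by
        rw [hr, hY']
        simp
      by_cases hZ : ZZ hF hα K = ⊥
      · have hQK : ∀ y ∈ QQ hF hα e, y ∈ K → y = 1 := by
          rintro _ ⟨u, s, h, rfl⟩ hmem
          have hu := hY u ⟨s, h, hmem⟩
          subst hu
          have hs : s ∈ ZZ hF hα K := by
            refine ⟨?_, hmem⟩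
            have := h
            unfold Gd at this
            rw [hermForm_zero_left, add_zero] at this
            exact this
          rw [hZ] at hs
          have hs0 : s = 0 := hs
          rw [hs0]
          exact EE_zero hF hα
        have hm2 : m < 2 * ((q ^ 2) ^ e * q) := by
          have h5 := step_arith3 hq hT1
          by_contra hcon
          push Not at hcon
          rw [h4] at hcon
          have h6 := Nat.mul_le_mul_right (q ^ 2 - 1) hcon
          omega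
        obtain ⟨y₀, hy₀, hfix⟩ := regular_L0 hF hα hq (by omega) hQK hKK hm2
        refine closure_even hF hα hq he hev (K := cj y₀ K) hfix ?_ ?_
        · intro y hy hyK
          rw [mem_cj] at hyK
          have hmem : y₀⁻¹ * y * y₀ ∈ QQ hF hα e :=
            (QQ hF hα e).mul_mem ((QQ hF hα e).mul_mem ((QQ hF hα e).inv_mem hy₀) hy) hy₀
          have h5 := hQK _ hmem hyK
          have h6 : y = y₀ * (y₀⁻¹ * y * y₀) * y₀⁻¹ := by group
          rw [h6, h5]
          group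
        · rw [index_cj, h2, h3]
          exact hn
      · have hz' : z ≠ 1 := fun h => hZ (AddSubgroup.eq_bot_of_card_eq _ h)
        have hk' := hk.resolve_left hz'
        have hG := G2_of hz1 H hk'
        rw [hi1, hr1] at hG
        have h5 : (q ^ 2) ^ e * (q + 2) ≤ m := by
          have h6 : (q ^ 2) ^ e * (q + 2) * q ≤ m * q := by
            calc _ = (q ^ 2) ^ e * q * 1 * (q + 2) := by ring
              _ ≤ m * 1 * q := hG
              _ = m * q := by ring
          exact Nat.le_of_mul_le_mul_right h6 hq0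
        rw [h4] at h5
        have h6 := step_arith2 hq hT1
        have h7 := Nat.mul_le_mul_right (q ^ 2 - 1) h5
        omega
  · have hi2 := IH _ hKK
    have hG := G1_of (q := q) hq0 hk1 hz1 H hk
    have hqT : 0 < q * T := Nat.mul_pos hq0 hT1
    have h5 : q ^ 2 * T * i ≤ m := by
      have h6 : (q ^ 2 * T * i) * (q * T) ≤ m * (q * T) := by
        calc _ = (q ^ 2) ^ e * q * i := by rw [h4]; ring
          _ ≤ m * r := hG
          _ ≤ _ := Nat.mul_le_mul_left _ hrq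
      exact Nat.le_of_mul_le_mul_right h6 hqT
    have h6 : q ^ 2 * T * ((q + 1) * (T + 1)) ≤ m := le_trans (Nat.mul_le_mul_left _ hi2) h5
    have h7 := step_arith1 hq hT1
    have h8 := Nat.mul_le_mul_right (q ^ 2 - 1) h6
    omega

end Step

section Main

variable (hF : Fintype.card F = q ^ 2)
include hF

/-- The inductive step. -/
theorem step (hq : 3 ≤ q) (he : 4 ≤ e) (hev : Even e)
    (IH : ∀ K : Subgroup (SU e F q), K ≠ ⊤ → (q + 1) * (q ^ (e - 1) + 1) ≤ K.index)
    {K : Subgroup (SU (e + 2) F q)} (hK : K ≠ ⊤) :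
    (q ^ (e + 2) - 1) * (q ^ (e + 1) + 1) ≤ K.index * (q ^ 2 - 1) := by
  obtain ⟨α, hα0, hα⟩ := SUGen.exists_norm hF (-1 : F) (neg_ne_zero.2 one_ne_zero) (by
    rw [neg_pow_q hF, one_pow])
  have hα' : α ^ q * α = -1 := by rw [mul_comm]; exact hα
  obtain ⟨g, c, hc, hm⟩ := exists_conj_missing hF hα' (e := e) (by omega) (by omega) hK
  have h := step_core hF hα' hq he hev IH (cj g K) hc hm
  rwa [index_cj] at h

omit hF in
/-- The bound for the projective points from the bound for the lines. -/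
lemma bound_of_step_arith {q a m : ℕ} (hq : 3 ≤ q) (ha : 6 ≤ a)
    (h : (q ^ a - 1) * (q ^ (a - 1) + 1) ≤ m * (q ^ 2 - 1)) :
    (q + 1) * (q ^ (a - 1) + 1) ≤ m := by
  by_contra hcon
  push Not at hcon
  have h1 : 1 < q ^ 2 := Nat.one_lt_pow (by norm_num) (by omega)
  have h2 : m * (q ^ 2 - 1) < (q + 1) * (q ^ (a - 1) + 1) * (q ^ 2 - 1) :=
    Nat.mul_lt_mul_of_pos_right hcon (by omega)
  have h3 : (q ^ a - 1) * (q ^ (a - 1) + 1) < ((q + 1) * (q ^ 2 - 1)) * (q ^ (a - 1) + 1) := by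
    calc _ ≤ _ := h
      _ < _ := h2
      _ = _ := by ring
  have h4 := Nat.lt_of_mul_lt_mul_right h3
  have h5 : q ^ 6 ≤ q ^ a := Nat.pow_le_pow_right (by omega) ha
  have h6 : (q + 1) * (q ^ 2 - 1) + 1 ≤ q ^ 6 := by
    obtain ⟨p, rfl⟩ : ∃ p, q = p + 3 := ⟨q - 3, by omega⟩
    have : (p + 3) ^ 2 - 1 = p ^ 2 + 6 * p + 8 := Nat.sub_eq_of_eq_add (by ring)
    rw [this]
    ring_nf
    nlinarith [Nat.zero_le p, Nat.zero_le (p ^ 2), Nat.zero_le (p ^ 3), Nat.zero_le (p ^ 4),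
      Nat.zero_le (p ^ 5), Nat.zero_le (p ^ 6)]
  omega

/-- The line bound in all even dimensions. -/
theorem bound_even (hq : 3 ≤ q) : ∀ (e : ℕ), Even e → 4 ≤ e → ∀ K : Subgroup (SU e F q), K ≠ ⊤ →
    (q + 1) * (q ^ (e - 1) + 1) ≤ K.index := by
  intro e
  induction e using Nat.strong_induction_on with
  | _ e ih =>
    intro hev he K hK
    by_cases h4 : e = 4
    · subst h4
      exact main4 hF (K := K) hK
    · obtain ⟨e₀, rfl⟩ : ∃ e₀, e = e₀ + 2 := ⟨e - 2, by omega⟩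
      have hev₀ : Even e₀ := by
        rcases hev with ⟨a, ha⟩
        exact ⟨a - 1, by omega⟩
      have he₀ : 4 ≤ e₀ := by
        rcases hev with ⟨a, ha⟩
        omega
      have h1 := step hF hq he₀ hev₀ (ih e₀ (by omega) hev₀ he₀) hK
      exact bound_of_step_arith hq (by omega) h1

end Main

section Line

variable (hF : Fintype.card F = q ^ 2)

/-- The stabiliser of a line. -/
def BorN (x : Fin n → F) : Subgroup (SU n F q) where
  carrier := {l | ∃ c : F, c ≠ 0 ∧ act l x = c • x}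
  mul_mem' := by
    rintro a b ⟨c, hc, ha⟩ ⟨d, hd, hb⟩
    exact ⟨c * d, mul_ne_zero hc hd, by rw [act_mul, hb, act_smul, ha, smul_smul]; congr 1; ring⟩
  one_mem' := ⟨1, one_ne_zero, by rw [act_one, one_smul]⟩
  inv_mem' := by
    rintro a ⟨c, hc, h⟩
    refine ⟨c⁻¹, inv_ne_zero hc, ?_⟩
    have h1 : act a⁻¹ (act a x) = x := by rw [← act_mul, inv_mul_cancel, act_one]
    rw [h, act_smul] at h1
    show act a⁻¹ x = c⁻¹ • x
    rw [← h1, smul_smul, inv_mul_cancel₀ hc, one_smul, h1]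

include hF

/-- The index of a line stabiliser. -/
theorem index_BorN (hn : 3 ≤ n) {x : Fin n → F} (hx : x ∈ IsoV n F q) :
    (q ^ 2 - 1) * (BorN x : Subgroup (SU n F q)).index = Nat.card (IsoV n F q) := by
  classical
  have hle : (stabV x : Subgroup (SU n F q)) ≤ BorN x := by
    intro g hg
    exact ⟨1, one_ne_zero, by rw [one_smul]; exact hg⟩
  have h1 := Subgroup.relIndex_mul_index hle
  rw [index_stabV hF hn hx, ← card_orbV] at h1
  rw [← h1]
  congr 1
  have hcU : Nat.card Fˣ = q ^ 2 - 1 := by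
    rw [Nat.card_eq_fintype_card, Fintype.card_units, hF]
  rw [← hcU]
  apply Nat.card_congr
  refine (Equiv.ofBijective (fun t : Fˣ => (⟨(t : F) • x, ?_⟩ : orbV (BorN x) x)) ⟨?_, ?_⟩)
  · have hy : (t : F) • x ∈ IsoV n F q :=
      ⟨by rw [hermForm_smul_left, hermForm_smul_right, hx.1]; ring, smul_ne_zero t.ne_zero hx.2⟩
    obtain ⟨g, hg⟩ := exists_act_eq hF hn hx.1 hx.2 hy.1 hy.2
    exact ⟨g, ⟨t, t.ne_zero, hg⟩, hg⟩
  · intro t t' h
    have h2 := congrArg Subtype.val h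
    exact Units.ext (smul_left_injective F hx.2 h2)
  · rintro ⟨_, g, ⟨c, hc, hg⟩, rfl⟩
    exact ⟨Units.mk0 c hc, Subtype.ext hg.symm⟩

/-- The line stabiliser contains the centre. -/
lemma center_le_BorN (hn : 1 ≤ n) (x : Fin n → F) (hx : x ≠ 0) :
    Subgroup.center (SU n F q) ≤ BorN x := by
  intro z hz
  obtain ⟨c, hc⟩ := center_scalar hF hn hz
  refine ⟨c, ?_, hc x⟩
  rintro rfl
  have h1 := hc x
  rw [zero_smul] at h1
  exact act_ne_zero hF z hx h1

end Line

end Cfsg.Agent.Lib.PSUIdx
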