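import Mathlib
import Cfsg.Agent.Lib.PSUIdxN

/-!
# Odd dimension: counts and the closure theorem
-/

set_option autoImplicit false
set_option linter.unusedSectionVars false
set_option linter.unusedVariables false

namespace Cfsg.Agent.Lib.PSUIdx

open Matrix Cfsg Cfsg.Agent.Lib.HermForm Cfsg.Agent.Lib.FFNorm Cfsg.Agent.Lib.UnitaryE
  Cfsg.Agent.Lib.UnitarySU Cfsg.Agent.Lib.SUMinDeg
open Cfsg.Agent.Lib.PSU35A (cj mem_cj)

variable {F : Type*} [Field F] [Fintype F] {q n e : ℕ}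

section Counts

variable (hF : Fintype.card F = q ^ 2)
include hF

lemma card_IsoV_odd (n : ℕ) (hn : Odd n) :
    Nat.card (IsoV n F q) = (q ^ n + 1) * (q ^ (n - 1) - 1) := by
  classical
  have h1 := Cfsg.Agent.Lib.HermCount.card_isotropic hF n
  rw [if_neg (Nat.not_even_iff_odd.2 hn)] at h1
  have h2 := Cfsg.Agent.Lib.HermLines.card_split (fun w : Fin n → F => hermForm n F q w w = 0) (fun w => w ≠ 0)
  have h3 : Nat.card {w : Fin n → F // hermForm n F q w w = 0 ∧ ¬ w ≠ 0} = 1 := by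
    rw [Nat.card_eq_one_iff_unique]
    refine ⟨⟨?_⟩, ⟨⟨0, ?_, by simp⟩⟩⟩
    · rintro ⟨x, hx, hx'⟩ ⟨y, hy, hy'⟩
      apply Subtype.ext
      push Not at hx' hy'
      exact hx'.trans hy'.symm
    · rw [hermForm_zero_left]
  have h4 : Nat.card (IsoV n F q) = Nat.card {w : Fin n → F // hermForm n F q w w = 0 ∧ w ≠ 0} := rfl
  omega

lemma card_Lev_odd_ne {n : ℕ} (hn : Odd n) {N : F} (hN : N ^ q = N) (h0 : N ≠ 0) :
    Nat.card (Lev n F q N) = q ^ (n - 1) * (q ^ n + 1) := by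
  classical
  have h1 := Cfsg.Agent.Lib.HermCount.natCard_herm hF n N hN
  have h2 := Cfsg.Agent.Lib.HermCount.natCard_herm hF n (1 : F) (one_pow q)
  rw [if_neg h0] at h1
  rw [if_neg (one_ne_zero)] at h2
  have h3 : Nat.card {v : Fin n → F // Cfsg.hermForm n F q v v = N} =
      Nat.card {v : Fin n → F // Cfsg.hermForm n F q v v = 1} := by
    have : (Nat.card {v : Fin n → F // Cfsg.hermForm n F q v v = N} : ℤ) =
      Nat.card {v : Fin n → F // Cfsg.hermForm n F q v v = 1} := by rw [h1, h2]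
    exact_mod_cast this
  have h4 := Cfsg.Agent.Lib.HermCount.card_norm_one hF n
  rw [if_neg (Nat.not_even_iff_odd.2 hn)] at h4
  rw [← h4, ← h3]
  apply Nat.card_congr
  refine ⟨fun x => ⟨x.1, x.2.2⟩, fun x => ⟨x.1, ?_, x.2⟩, fun _ => rfl, fun _ => rfl⟩
  rintro h
  apply h0
  rw [← x.2, h]
  exact hermForm_zero_left _

lemma card_Lev_ge_odd {n : ℕ} (hn : Odd n) (N : F) (hN : N ^ q = N) :
    (q ^ n + 1) * (q ^ (n - 1) - 1) ≤ Nat.card (Lev n F q N) := by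
  by_cases h0 : N = 0
  · subst h0
    have h1 : Lev n F q 0 = IsoV n F q := by
      ext x
      exact And.comm
    rw [h1, card_IsoV_odd hF n hn]
  · rw [card_Lev_odd_ne hF hn hN h0]
    rw [mul_comm]
    exact Nat.mul_le_mul_right _ (by omega)

end Counts

section Family

variable (hF : Fintype.card F = q ^ 2) {α b : F} (hα : α ^ q * α = -1) (hb : b + b ^ q = -1)
include hF hα hb

/-- Two families of centres, in general form. -/
theorem family_two_gen (he : 3 ≤ e) {P : ℕ} (hP : ∀ N : F, N ^ q = N → P ≤ Nat.card (Lev e F q N))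
    {K : Subgroup (SU (e + 2) F q)} (hL : ∀ l, iota l ∈ K)
    {x₁ y₁ x₂ y₂ : F} {u₁ u₂ : Fin e → F} (h₁ : mk3 α b x₁ y₁ u₁ ∈ Cen hF K)
    (h₂ : mk3 α b x₂ y₂ u₂ ∈ Cen hF K) (hu₁ : u₁ ≠ 0) (hu₂ : u₂ ≠ 0) (hnp : x₁ * y₂ ≠ x₂ * y₁) :
    2 * ((q ^ 2 - 1) * P) ≤ Nat.card (Cen hF K) := by
  classical
  set N₁ := hermForm e F q u₁ u₁ with hN₁
  set N₂ := hermForm e F q u₂ u₂ with hN₂
  have hcU : Nat.card Fˣ = q ^ 2 - 1 := by
    rw [Nat.card_eq_fintype_card, Fintype.card_units, hF]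
  have hL₁ := hP N₁ (hermForm_conj hF u₁ u₁)
  have hL₂ := hP N₂ (hermForm_conj hF u₂ u₂)
  let f₁ : Fˣ × Lev e F q N₁ → Cen hF K := fun p =>
    ⟨mk3 α b (p.1 * x₁) (p.1 * y₁) ((p.1 : F) • p.2.1),
      Cen_family hF hα hb he hL h₁ hu₁ p.1.ne_zero p.2.2.1 p.2.2.2⟩
  let f₂ : Fˣ × Lev e F q N₂ → Cen hF K := fun p =>
    ⟨mk3 α b (p.1 * x₂) (p.1 * y₂) ((p.1 : F) • p.2.1),
      Cen_family hF hα hb he hL h₂ hu₂ p.1.ne_zero p.2.2.1 p.2.2.2⟩
  have hne₁ : x₁ ≠ 0 ∨ y₁ ≠ 0 := by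
    by_contra hcon
    push Not at hcon
    apply hnp
    rw [hcon.1, hcon.2]
    ring
  have hne₂ : x₂ ≠ 0 ∨ y₂ ≠ 0 := by
    by_contra hcon
    push Not at hcon
    apply hnp
    rw [hcon.1, hcon.2]
    ring
  have inj : ∀ {x y : F} {N : F}, (x ≠ 0 ∨ y ≠ 0) → ∀ (p p' : Fˣ × Lev e F q N),
      mk3 α b (p.1 * x) (p.1 * y) ((p.1 : F) • p.2.1) = mk3 α b (p'.1 * x) (p'.1 * y) ((p'.1 : F) • p'.2.1) →
      p = p' := by
    intro x y N hne p p' h
    obtain ⟨h1, h2, h3⟩ := mk3_inj hF hα hb h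
    have hc : (p.1 : F) = p'.1 := by
      rcases hne with h0 | h0
      · exact mul_right_cancel₀ h0 h1
      · exact mul_right_cancel₀ h0 h2
    have hc' : p.1 = p'.1 := Units.ext hc
    rw [hc] at h3
    have h4 : p.2.1 = p'.2.1 := smul_right_injective _ p'.1.ne_zero h3
    exact Prod.ext hc' (Subtype.ext h4)
  have hf₁ : Function.Injective f₁ := fun p p' h => inj hne₁ p p' (congrArg Subtype.val h)
  have hf₂ : Function.Injective f₂ := fun p p' h => inj hne₂ p p' (congrArg Subtype.val h)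
  have hdisj : ∀ p p', f₁ p ≠ f₂ p' := by
    intro p p' h
    obtain ⟨h1, h2, -⟩ := mk3_inj hF hα hb (congrArg Subtype.val h)
    apply hnp
    have hp : (p.1 : F) ≠ 0 := p.1.ne_zero
    apply mul_left_cancel₀ hp
    calc (p.1 : F) * (x₁ * y₂) = (p.1 * x₁) * y₂ := by ring
      _ = (p'.1 * x₂) * y₂ := by rw [h1]
      _ = x₂ * (p'.1 * y₂) := by ring
      _ = x₂ * (p.1 * y₁) := by rw [h2]
      _ = _ := by ring
  have hinj := Function.Injective.sumElim hf₁ hf₂ hdisj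
  have hle := Nat.card_le_card_of_injective _ hinj
  rw [Nat.card_sum, Nat.card_prod, Nat.card_prod, hcU] at hle
  calc 2 * ((q ^ 2 - 1) * P) = (q ^ 2 - 1) * P + (q ^ 2 - 1) * P := by ring
    _ ≤ (q ^ 2 - 1) * Nat.card (Lev e F q N₁) + (q ^ 2 - 1) * Nat.card (Lev e F q N₂) := by gcongr
    _ ≤ _ := hle

end Family

section Perp

variable (hF : Fintype.card F = q ^ 2) {α b : F} (hα : α ^ q * α = -1) (hb : b + b ^ q = -1)
include hF hα hb

lemma rest_of_perp' (he : 2 ≤ e) {K : Subgroup (SU (e + 2) F q)} (hinc : ∀ x : Fin e → F, hermForm e F q x x = 0 → x ≠ 0 → inc x ∈ Cen hF K)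
    {y : Fin (e + 2) → F} (hy : Perp hF K y) : rest α b q y = 0 := by
  apply eq_zero_of_perp_iso hF he
  intro x hx hx0
  have h1 := hy _ (hinc x hx hx0)
  rw [mk3_eq hF hα hb y, mk3_inc hF hα hb] at h1
  exact h1

/-- If no centre has a plane component, the orbit of `v` is small. -/
lemma card_orb_of_zero' (he : 2 ≤ e) {K : Subgroup (SU (e + 2) F q)} (hinc : ∀ x : Fin e → F, hermForm e F q x x = 0 → x ≠ 0 → inc x ∈ Cen hF K)
    (h0 : ∀ z ∈ Cen hF K, hermForm (e + 2) F q z (vE α) = 0) :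
    Nat.card (orbV K (vE (e := e) α)) ≤ q ^ 4 := by
  classical
  have hP : Perp hF K (vE (e := e) α) := by
    intro z hz
    rw [← hermForm_conj hF z, h0 z hz]
    exact zero_pow (by have := two_le hF; omega)
  have hcard : Nat.card (F × F) = q ^ 4 := by
    rw [Nat.card_prod, Nat.card_eq_fintype_card, hF]
    ring
  rw [← hcard]
  refine Nat.card_le_card_of_injective
    (fun z => (hermForm (e + 2) F q z.1 (wE α b), hermForm (e + 2) F q z.1 (vE α))) ?_
  rintro ⟨_, g, hg, rfl⟩ ⟨_, g', hg', rfl⟩ h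
  apply Subtype.ext
  have h1 := rest_of_perp' hF hα hb he hinc (Perp_act hF hg hP)
  have h2 := rest_of_perp' hF hα hb he hinc (Perp_act hF hg' hP)
  have h3 := mk3_eq hF hα hb (act g (vE (e := e) α))
  have h4 := mk3_eq hF hα hb (act g' (vE (e := e) α))
  rw [h1] at h3
  rw [h2] at h4
  simp only [Prod.mk.injEq] at h
  show act g (vE (e := e) α) = act g' (vE (e := e) α)
  rw [h3, h4, h.1, h.2]

/-- If all centres have proportional plane components, `K` fixes a line. -/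
lemma line_case' (he : 2 ≤ e) {K : Subgroup (SU (e + 2) F q)} (hinc : ∀ x : Fin e → F, hermForm e F q x x = 0 → x ≠ 0 → inc x ∈ Cen hF K)
    {x₀ y₀ : F} {u₀ : Fin e → F} (h₀ : mk3 α b x₀ y₀ u₀ ∈ Cen hF K) (hne : x₀ ≠ 0 ∨ y₀ ≠ 0)
    (hpar : ∀ z ∈ Cen hF K,
      x₀ * hermForm (e + 2) F q z (vE α) = hermForm (e + 2) F q z (wE α b) * y₀) :
    ∃ b₁ : Fin (e + 2) → F, b₁ ≠ 0 ∧ ∀ g ∈ K, ∃ t : F, act g b₁ = t • b₁ := by
  have hq := two_le hF
  set b₁ : Fin (e + 2) → F := mk3 α b (x₀ ^ q) (-y₀ ^ q) 0 with hb₁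
  have hP : Perp hF K b₁ := by
    intro z hz
    obtain ⟨x, y, u, rfl⟩ : ∃ x y u, z = mk3 α b x y u := ⟨_, _, _, mk3_eq hF hα hb z⟩
    have h1 := hpar _ hz
    rw [mk3_v hF hα hb, mk3_w hF hα hb] at h1
    rw [hb₁, herm3 hF hα hb, hermForm_zero_left, add_zero]
    have h2 : (x₀ * y - x * y₀) ^ q = 0 := by
      rw [h1, sub_self, zero_pow (by omega)]
    rw [sub_pow_q hF, mul_pow, mul_pow] at h2
    linear_combination h2
  have hb0 : b₁ ≠ 0 := by
    intro h0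
    have h1 := mk3_w hF hα hb (x₀ ^ q) (-y₀ ^ q) (0 : Fin e → F)
    have h2 := mk3_v hF hα hb (x₀ ^ q) (-y₀ ^ q) (0 : Fin e → F)
    rw [← hb₁, h0, hermForm_zero_left] at h1 h2
    rcases hne with h3 | h3
    · exact pow_ne_zero q h3 h1.symm
    · apply pow_ne_zero q h3
      linear_combination h2
  refine ⟨b₁, hb0, fun g hg => ?_⟩
  have hP' := Perp_act hF hg hP
  have h1 := rest_of_perp' hF hα hb he hinc hP'
  have h2 := mk3_eq hF hα hb (act g b₁)
  rw [h1] at h2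
  set a := hermForm (e + 2) F q (act g b₁) (wE α b) with ha
  set c := hermForm (e + 2) F q (act g b₁) (vE α) with hc
  have h3 := hP' _ h₀
  rw [h2, herm3 hF hα hb, hermForm_zero_left, add_zero] at h3
  by_cases hx0 : x₀ = 0
  · have hy0 : y₀ ≠ 0 := hne.resolve_left (not_not.2 hx0)
    have hyq : y₀ ^ q ≠ 0 := pow_ne_zero _ hy0
    rw [hx0, zero_pow (by omega), mul_zero, add_zero] at h3
    have ha0 : a = 0 := (mul_eq_zero.1 h3).resolve_right hyq
    refine ⟨-c / y₀ ^ q, ?_⟩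
    rw [h2, ha0, hb₁, smul_mk3, smul_zero, hx0, zero_pow (by omega), mul_zero]
    congr 1
    field_simp
  · have hxq : x₀ ^ q ≠ 0 := pow_ne_zero _ hx0
    refine ⟨a / x₀ ^ q, ?_⟩
    rw [h2, hb₁, smul_mk3, smul_zero]
    congr 1
    · field_simp
    · field_simp
      linear_combination h3

end Perp

section Closure

variable (hF : Fintype.card F = q ^ 2) {α : F} (hα : α ^ q * α = -1)
include hF hα

/-- If `K` meets `Q` trivially, `v` is not a centre. -/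
lemma vE_not_Cen {K : Subgroup (SU (e + 2) F q)} (hQK : ∀ y ∈ QQ hF hα e, y ∈ K → y = 1) :
    vE α ∉ Cen hF K := by
  intro h
  obtain ⟨θ, hθ0, hθ⟩ := SUGen.exists_trace_zero hF
  have h1 := h.2.2 θ hθ
  rw [← EE_zero_eq_tau hF hα] at h1
  have h2 := hQK _ ⟨0, θ, Gd_zero hF hθ, rfl⟩ h1
  obtain ⟨-, h3⟩ := EE_inj hF hα (Gd_zero (e := e) hF hθ) (Gd_zero (e := e) hF (c := 0) (by
    rw [zero_pow (by have := two_le hF; omega), add_zero])) (h2.trans (EE_zero hF hα).symm)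
  exact hθ0 h3

/-- The orbit of `v` is large. -/
lemma orb_large (he : 1 ≤ e) {K : Subgroup (SU (e + 2) F q)} (hQK : ∀ y ∈ QQ hF hα e, y ∈ K → y = 1)
    (hn : K.index * (q ^ 2 - 1) < Nat.card (IsoV (e + 2) F q)) :
    (q ^ 2) ^ e * q * (q ^ 2 - 1) < Nat.card (orbV K (vE (e := e) α)) := by
  have hv := vE_mem (e := e) hF hα
  have h1 := orb_index hF (n := e + 2) (by omega) hv K
  set X := Nat.card (IsoV (e + 2) F q) with hX
  set m := K.index with hm
  have h2 := mi_stab hF hα K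
  have hbot : K.subgroupOf (QQ hF hα e) = ⊥ := by
    rw [eq_bot_iff]
    intro y hy
    rw [Subgroup.mem_subgroupOf] at hy
    rw [Subgroup.mem_bot]
    exact Subtype.ext (hQK _ y.2 hy)
  rw [hbot, Subgroup.index_bot, card_QQ hF hα] at h2
  have h3 : (q ^ 2) ^ e * q ≤ (K.subgroupOf (stabV (vE (e := e) α))).index := by
    refine le_trans ?_ h2
    exact Nat.le_mul_of_pos_left _ (Nat.pos_of_ne_zero Subgroup.index_ne_zero_of_finite)
  by_contra hcon
  push Not at hcon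
  have h4 : (q ^ 2) ^ e * q * X ≤ (q ^ 2) ^ e * q * (q ^ 2 - 1) * m := by
    calc (q ^ 2) ^ e * q * X ≤ (K.subgroupOf (stabV (vE (e := e) α))).index * X :=
          Nat.mul_le_mul_right _ h3
      _ = Nat.card (orbV K (vE (e := e) α)) * m := h1.symm
      _ ≤ _ := Nat.mul_le_mul_right _ hcon
  have h5 : (q ^ 2) ^ e * q * X ≤ (q ^ 2) ^ e * q * (m * (q ^ 2 - 1)) := by
    calc _ ≤ _ := h4
      _ = _ := by ring
  have h6 := Nat.le_of_mul_le_mul_left h5 (by have := two_le hF; positivity)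
  omega

/-- The count of isotropic vectors. -/
lemma orb_add_Cen {K : Subgroup (SU (e + 2) F q)} (hvC : vE α ∉ Cen hF K) :
    Nat.card (orbV K (vE (e := e) α)) + Nat.card (Cen hF K) ≤ Nat.card (IsoV (e + 2) F q) := by
  have hv := vE_mem (e := e) hF hα
  have hsub : orbV K (vE (e := e) α) ∪ Cen hF K ⊆ IsoV (e + 2) F q := by
    apply Set.union_subset _ (Cen_sub_Iso hF K)
    rintro _ ⟨g, -, rfl⟩
    exact ⟨by rw [herm_act]; exact hv.1, act_ne_zero hF g hv.2⟩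
  have h2 := Nat.card_mono (Set.toFinite _) hsub
  refine le_trans (le_of_eq ?_) h2
  simp only [Nat.card_coe_set_eq]
  rw [Set.ncard_union_eq (orbV_disj hF hvC) (Set.toFinite _) (Set.toFinite _)]

/-- The bound for the number of centres. -/
lemma card_Cen_lt (he : 1 ≤ e) {K : Subgroup (SU (e + 2) F q)} (hQK : ∀ y ∈ QQ hF hα e, y ∈ K → y = 1)
    (hn : K.index * (q ^ 2 - 1) < Nat.card (IsoV (e + 2) F q)) :
    Nat.card (Cen hF K) + (q ^ 2) ^ e * q * (q ^ 2 - 1) < Nat.card (IsoV (e + 2) F q) := by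
  have h1 := orb_large hF hα he hQK hn
  have h2 := orb_add_Cen hF hα (vE_not_Cen hF hα hQK)
  omega

/-- The closure argument when all plane components are proportional. -/
theorem closure_prop (he : 2 ≤ e) (hodd : Odd (e + 2)) {b : F} (hb : b + b ^ q = -1)
    {K : Subgroup (SU (e + 2) F q)} (hinc : ∀ x : Fin e → F, hermForm e F q x x = 0 → x ≠ 0 → inc x ∈ Cen hF K)
    (hQK : ∀ y ∈ QQ hF hα e, y ∈ K → y = 1)
    (hn : K.index * (q ^ 2 - 1) < Nat.card (IsoV (e + 2) F q))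
    (hT : ∀ (x₁ y₁ x₂ y₂ : F) (u₁ u₂ : Fin e → F), mk3 α b x₁ y₁ u₁ ∈ Cen hF K →
      mk3 α b x₂ y₂ u₂ ∈ Cen hF K → x₁ * y₂ = x₂ * y₁) : False := by
  classical
  have hq := two_le hF
  set m := K.index with hm
  have hn3 : 3 ≤ e + 2 := by omega
  have hA := orb_large hF hα (by omega) hQK hn
  by_cases h0 : ∃ (x₀ y₀ : F) (u₀ : Fin e → F), mk3 α b x₀ y₀ u₀ ∈ Cen hF K ∧ (x₀ ≠ 0 ∨ y₀ ≠ 0)
  · obtain ⟨x₀, y₀, u₀, h₀, hne⟩ := h0
    have hpar : ∀ z ∈ Cen hF K,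
        x₀ * hermForm (e + 2) F q z (vE α) = hermForm (e + 2) F q z (wE α b) * y₀ := by
      intro z hz
      have hz' := hz
      rw [mk3_eq hF hα hb z] at hz'
      exact hT _ _ _ _ _ _ h₀ hz'
    obtain ⟨b₁, hb₁, hline⟩ := line_case' hF hα hb (by omega) hinc h₀ hne hpar
    have hpos : 1 ≤ (K.subgroupOf (stabV b₁)).index :=
      Nat.pos_of_ne_zero Subgroup.index_ne_zero_of_finite
    by_cases hN : hermForm (e + 2) F q b₁ b₁ = 0
    · have h1 := orb_index hF hn3 (u := b₁) ⟨hN, hb₁⟩ K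
      have h2 := card_orb_line_iso hF hb₁ hline
      have h3 : Nat.card (IsoV (e + 2) F q) ≤ (q ^ 2 - 1) * m := by
        calc Nat.card (IsoV (e + 2) F q) ≤ (K.subgroupOf (stabV b₁)).index * Nat.card (IsoV (e + 2) F q) :=
              Nat.le_mul_of_pos_left _ hpos
          _ = Nat.card (orbV K b₁) * m := h1.symm
          _ ≤ _ := Nat.mul_le_mul_right _ h2
      have h4 : (q ^ 2 - 1) * m = m * (q ^ 2 - 1) := by ring
      omega
    · have h1 := orb_index_lev hF hn3 hb₁ K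
      have h2 := card_orb_line_aniso hF hN hline
      have h3 := card_Lev_odd_ne hF hodd (hermForm_conj hF b₁ b₁) hN
      rw [card_IsoV_odd hF _ hodd] at hn
      have h4 : q ^ (e + 2 - 1) * (q ^ (e + 2) + 1) ≤ (q + 1) * m := by
        calc q ^ (e + 2 - 1) * (q ^ (e + 2) + 1) = Nat.card (Lev (e + 2) F q (hermForm (e + 2) F q b₁ b₁)) := h3.symm
          _ ≤ (K.subgroupOf (stabV b₁)).index * Nat.card (Lev (e + 2) F q (hermForm (e + 2) F q b₁ b₁)) :=
              Nat.le_mul_of_pos_left _ hpos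
          _ = Nat.card (orbV K b₁) * m := h1.symm
          _ ≤ _ := Nat.mul_le_mul_right _ h2
      set E := q ^ (e + 2) + 1 with hE
      set R := q ^ (e + 2 - 1) with hR
      have h6 : (q - 1) * ((q + 1) * m) = m * (q ^ 2 - 1) := by
        obtain ⟨p, rfl⟩ : ∃ p, q = p + 1 := ⟨q - 1, by omega⟩
        have : (p + 1) ^ 2 - 1 = p * (p + 2) := Nat.sub_eq_of_eq_add (by ring)
        rw [this]
        simp only [Nat.add_sub_cancel]
        ring
      have h7 : E * (R - 1) ≤ m * (q ^ 2 - 1) := by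
        have h8 : R - 1 ≤ (q - 1) * R := by
          have : 1 * R ≤ (q - 1) * R := Nat.mul_le_mul_right _ (by omega)
          omega
        calc E * (R - 1) ≤ E * ((q - 1) * R) := Nat.mul_le_mul_left _ h8
          _ = (q - 1) * (R * E) := by ring
          _ ≤ (q - 1) * ((q + 1) * m) := Nat.mul_le_mul_left _ h4
          _ = _ := h6
      omega
  · push Not at h0
    have hzero : ∀ z ∈ Cen hF K, hermForm (e + 2) F q z (vE α) = 0 := by
      intro z hz
      have hz' := hz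
      rw [mk3_eq hF hα hb z] at hz'
      exact (h0 _ _ _ hz').2
    have h1 := card_orb_of_zero' hF hα hb (by omega) hinc hzero
    have h2 : q ^ 4 ≤ (q ^ 2) ^ e := by
      rw [← pow_mul]
      exact Nat.pow_le_pow_right (by omega) (by omega)
    have h3 : 1 ≤ q * (q ^ 2 - 1) := by
      have : 1 < q ^ 2 := Nat.one_lt_pow (by norm_num) (by omega)
      exact Nat.mul_pos (by omega) (by omega)
    have h4 : q ^ 4 ≤ (q ^ 2) ^ e * q * (q ^ 2 - 1) := by
      calc q ^ 4 ≤ (q ^ 2) ^ e * 1 := by omega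
        _ ≤ (q ^ 2) ^ e * (q * (q ^ 2 - 1)) := Nat.mul_le_mul_left _ h3
        _ = _ := by ring
    omega

omit hF hα in
/-- The arithmetic of the two families in odd dimension. -/
lemma family_arith_odd {q T : ℕ} (hq : 2 ≤ q) (hT : q ^ 2 ≤ T) :
    (q ^ 3 * T + 1) * (q ^ 2 * T - 1) ≤
      2 * ((q ^ 2 - 1) * ((q * T + 1) * (T - 1))) + q ^ 2 * T ^ 2 * q * (q ^ 2 - 1) := by
  have h1 : 1 ≤ q ^ 2 := Nat.one_le_pow _ _ (by omega)
  have hT1 : 1 ≤ T := le_trans h1 hT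
  have h3 : 1 ≤ q ^ 2 * T := Nat.mul_pos (by positivity) hT1
  zify [h1, hT1, h3]
  have hq' : (2 : ℤ) ≤ q := by exact_mod_cast hq
  have hT' : (q : ℤ) ^ 2 ≤ T := by exact_mod_cast hT
  set Q : ℤ := (q : ℤ)
  set S : ℤ := (T : ℤ)
  have hQ0 : 0 < Q := by linarith
  have hQ2 : 4 ≤ Q ^ 2 := by nlinarith
  have hS : 4 ≤ S := by linarith
  -- difference is `S²(Q³ - 2Q) - S(Q³ - Q² - 2Q + 2) - 2Q² + 3`
  have e1 : Q ≤ Q ^ 3 - 2 * Q := by nlinarith
  have e2 : Q ^ 3 ≤ Q * S := by nlinarith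
  have e3 : Q * S ≤ (Q ^ 3 - 2 * Q) * S := mul_le_mul_of_nonneg_right e1 (by linarith)
  have e4 : Q ^ 3 * S ≤ (Q ^ 3 - 2 * Q) * S * S := by
    apply mul_le_mul_of_nonneg_right (le_trans e2 e3) (by linarith)
  have e5 : 0 ≤ S * (Q ^ 2 + 2 * Q - 2) - 2 * Q ^ 2 + 3 := by nlinarith
  nlinarith

/-- The closure theorem in odd dimension. -/
theorem closure_odd (he : 3 ≤ e) (hodd : Odd (e + 2)) {K : Subgroup (SU (e + 2) F q)}
    (hL : ∀ l, iota l ∈ K) (hQK : ∀ y ∈ QQ hF hα e, y ∈ K → y = 1)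
    (hn : K.index * (q ^ 2 - 1) < Nat.card (IsoV (e + 2) F q)) : False := by
  classical
  obtain ⟨b, hb⟩ : ∃ b : F, b + b ^ q = -1 :=
    exists_trace_eq hF (t := -1) (by rw [neg_pow_q hF, one_pow])
  have hq := two_le hF
  have hodd' : Odd e := by
    rcases hodd with ⟨a, ha⟩
    exact ⟨a - 1, by omega⟩
  have hC := card_Cen_lt hF hα (by omega) hQK hn
  have hvC := vE_not_Cen hF hα hQK
  refine closure_prop hF hα (by omega) hodd hb (fun x hx hx0 => inc_mem_Cen hF hα hb hL hx hx0) hQK hn ?_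
  intro x₁ y₁ x₂ y₂ u₁ u₂ h₁ h₂
  by_contra hnp
  have hfam : 2 * ((q ^ 2 - 1) * ((q ^ e + 1) * (q ^ (e - 1) - 1))) ≤ Nat.card (Cen hF K) := by
    have hP : ∀ N : F, N ^ q = N → (q ^ e + 1) * (q ^ (e - 1) - 1) ≤ Nat.card (Lev e F q N) :=
      fun N hN => card_Lev_ge_odd hF hodd' N hN
    by_cases hu₁ : u₁ = 0
    · subst hu₁
      by_cases hu₂ : u₂ = 0
      · subst hu₂
        exact absurd (pure_pair hF hα hb h₁ h₂ hnp) hvC
      · obtain ⟨x₃, y₃, h₃, hnp'⟩ := mixed_partner hF hα hb h₁ h₂ hnp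
        exact family_two_gen hF hα hb (by omega) hP hL h₂ h₃ hu₂ hu₂ hnp'
    · by_cases hu₂ : u₂ = 0
      · subst hu₂
        obtain ⟨x₃, y₃, h₃, hnp'⟩ := mixed_partner hF hα hb h₂ h₁ (Ne.symm hnp)
        exact family_two_gen hF hα hb (by omega) hP hL h₁ h₃ hu₁ hu₁ hnp'
      · exact family_two_gen hF hα hb (by omega) hP hL h₁ h₂ hu₁ hu₂ hnp
  rw [card_IsoV_odd hF _ hodd] at hC
  have hT : q ^ 2 ≤ q ^ (e - 1) := Nat.pow_le_pow_right (by omega) (by omega)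
  have h1 := family_arith_odd hq hT
  obtain ⟨e', rfl⟩ : ∃ e', e = e' + 1 := ⟨e - 1, by omega⟩
  simp only [Nat.add_sub_cancel] at *
  have e1 : q ^ 3 * q ^ e' = q ^ (e' + 1 + 2) := by ring
  have e2 : q ^ 2 * q ^ e' = q ^ (e' + 1 + 1) := by ring
  have e3 : q * q ^ e' = q ^ (e' + 1) := by ring
  have e4 : q ^ 2 * (q ^ e') ^ 2 * q * (q ^ 2 - 1) = (q ^ 2) ^ (e' + 1) * q * (q ^ 2 - 1) := by ring
  rw [e1, e2, e3, e4] at h1
  have e5 : e' + 1 + 2 - 1 = e' + 1 + 1 := by omega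
  rw [e5] at hC
  omega

end Closure

end Cfsg.Agent.Lib.PSUIdx
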