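import Mathlib
import Cfsg.Agent.Lib.PSUIdxO

/-!
# The regular case over the field of four elements
-/

set_option autoImplicit false
set_option linter.unusedSectionVars false
set_option linter.unusedVariables false

namespace Cfsg.Agent.Lib.PSUIdx

open Matrix Cfsg Cfsg.Agent.Lib.HermForm Cfsg.Agent.Lib.FFNorm Cfsg.Agent.Lib.UnitaryE
  Cfsg.Agent.Lib.UnitarySU Cfsg.Agent.Lib.SUMinDeg
open Cfsg.Agent.Lib.PSU35A (cj mem_cj)

variable {F : Type*} [Field F] [Fintype F] {q n e : ℕ}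

section Top

variable (hF : Fintype.card F = q ^ 2)
include hF

/-- A transvection is a commutator. -/
lemma tau_commutator (he : 3 ≤ e) {v : Fin e → F} {t : F} (hv : hermForm e F q v v = 0)
    (ht : t + t ^ q = 0) : ∃ a b : SU e F q, a * b * a⁻¹ * b⁻¹ = tau hF v t := by
  have hmat : ((tau hF v t : SU e F q) : Matrix.SpecialLinearGroup (Fin e) F).1 =
      unitaryTransvection e q v t := by
    apply eq_of_mulVec_eq
    intro x
    rw [mulVec_unitaryTransvection]
    exact act_tau hF hv ht x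
  obtain ⟨a, b, hab⟩ := mem_commutatorSet hF he _ v t hv hmat
  exact ⟨a, b, by rw [← hab, commutatorElement_def]⟩

/-- A subgroup containing all transvections is everything. -/
lemma top_of_tau (he : 3 ≤ e) (h32 : ¬ (e = 3 ∧ q = 2)) {S : Subgroup (SU e F q)}
    (h : ∀ (v : Fin e → F) (t : F), hermForm e F q v v = 0 → t + t ^ q = 0 → tau hF v t ∈ S) : S = ⊤ := by
  rw [eq_top_iff, ← SUGen.TT_eq_top hF (n := e) he h32, SUGen.TT, Subgroup.closure_le]
  rintro A ⟨v, t, hA⟩
  have hsc : t + t ^ q = 0 := by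
    have := hA.hs
    rw [hermForm_zero_left, add_zero] at this
    exact this
  have hAt : A = tau hF v t := by
    apply ext_act
    intro x
    have h9 : act A x = x + hermForm e F q x v • (0 + t • v) - hermForm e F q x 0 • v := hA.act_eq x
    rw [act_tau hF hA.hvv hsc, h9, hermForm_zero_right hF, zero_add, zero_smul, sub_zero, smul_smul]
    congr 2
    ring
  rw [hAt]
  exact h v t hA.hvv hsc

end Top

section Sg

variable (hF : Fintype.card F = q ^ 2) {α : F} (hα : α ^ q * α = -1)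

/-- The elements of the Levi factor with a central lift to `K`. -/
def Sg (hF : Fintype.card F = q ^ 2) (hα : α ^ q * α = -1) (K : Subgroup (SU (e + 2) F q)) :
    Subgroup (SU e F q) where
  carrier := {l | ∃ t : F, t + t ^ q = 0 ∧ EE (e := e) hF α 0 t * iota l ∈ K}
  mul_mem' := by
    rintro a b ⟨t, ht, hm⟩ ⟨t', ht', hm'⟩
    refine ⟨t + t', by rw [add_pow_q hF]; linear_combination ht + ht', ?_⟩
    have h1 := EE_mul hF hα (Gd_zero (e := e) hF ht) (Gd_zero (e := e) hF ht')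
    rw [hermForm_zero_left, sub_zero, add_zero] at h1
    rw [← h1, map_mul]
    have h2 := iota_comm_center hF hα a ht'
    have h3 := K.mul_mem hm hm'
    have h4 : EE (e := e) hF α 0 t * EE (e := e) hF α 0 t' * (iota a * iota b) =
        EE (e := e) hF α 0 t * (EE (e := e) hF α 0 t' * iota a) * iota b := by group
    rw [h4, ← h2]
    have h5 : EE (e := e) hF α 0 t * iota a * (EE (e := e) hF α 0 t' * iota b) =
        EE (e := e) hF α 0 t * (iota a * EE (e := e) hF α 0 t') * iota b := by group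
    rwa [h5] at h3
  one_mem' := ⟨0, by rw [zero_pow (by have := two_le hF; omega), add_zero], by
    rw [EE_zero hF hα, map_one, mul_one]
    exact K.one_mem⟩
  inv_mem' := by
    rintro a ⟨t, ht, hm⟩
    have htq : t ^ q = -t := by linear_combination ht
    refine ⟨-t, by rw [neg_pow_q hF]; linear_combination -ht, ?_⟩
    have h1 := K.inv_mem hm
    rw [_root_.mul_inv_rev, EE_inv hF hα (Gd_zero (e := e) hF ht), neg_zero, htq] at h1
    have h2 := iota_comm_center hF hα a⁻¹ (c := -t) (by rw [neg_pow_q hF]; linear_combination -ht)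
    rw [map_inv] at h2 ⊢
    rw [← h2]
    exact h1

lemma mem_Sg {K : Subgroup (SU (e + 2) F q)} {l : SU e F q} :
    l ∈ Sg hF hα K ↔ ∃ t : F, t + t ^ q = 0 ∧ EE (e := e) hF α 0 t * iota l ∈ K := Iff.rfl

include hF hα

/-- Elements commuting with a fixed-point-free element have central lifts. -/
theorem Sg_of_comm {K : Subgroup (SU (e + 2) F q)} (hQK : ∀ y ∈ QQ hF hα e, y ∈ K → y = 1)
    (hKK : KK hF hα K = ⊤) {g l : SU e F q} (hg : g ∈ Sg hF hα K)
    (hfix : ∀ u : Fin e → F, act g u = u → u = 0) (hcomm : l * g = g * l) : l ∈ Sg hF hα K := by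
  have hl : l ∈ KK hF hα K := by rw [hKK]; trivial
  obtain ⟨_, ⟨u, t, h, rfl⟩, hm⟩ := hl
  obtain ⟨t', ht', hm'⟩ := hg
  set E := EE hF α u t with hE
  set Z := EE (e := e) hF α 0 t' with hZ
  have hLZ : iota l * Z = Z * iota l := iota_comm_center hF hα l ht'
  have hGZ : iota g * Z = Z * iota g := iota_comm_center hF hα g ht'
  have hEZ : E * Z = Z * E := by
    have h1 := EE_comm hF hα h (Gd_zero (e := e) hF ht')
    rw [hermForm_zero_right hF, hermForm_zero_left, sub_self, EE_zero hF hα, one_mul] at h1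
    exact h1
  have hLG : iota l * iota g = iota g * iota l := by
    rw [← map_mul, hcomm, map_mul]
  have hcm := K.mul_mem (K.mul_mem (K.mul_mem hm hm') (K.inv_mem hm)) (K.inv_mem hm')
  have hX : E * iota l * (Z * iota g) * (E * iota l)⁻¹ * (Z * iota g)⁻¹ = E * (iota g * E⁻¹ * (iota g)⁻¹) := by
    have e1 : iota l * (Z * iota g) * (iota l)⁻¹ = Z * iota g := by
      calc iota l * (Z * iota g) * (iota l)⁻¹ = (iota l * Z) * iota g * (iota l)⁻¹ := by group
        _ = Z * (iota l * iota g) * (iota l)⁻¹ := by rw [hLZ]; group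
        _ = Z * (iota g * iota l) * (iota l)⁻¹ := by rw [hLG]
        _ = Z * iota g := by group
    have e2 : E * (Z * iota g) * E⁻¹ * (Z * iota g)⁻¹ = E * (iota g * E⁻¹ * (iota g)⁻¹) := by
      have : E * (Z * iota g) * E⁻¹ * (Z * iota g)⁻¹ = (E * Z) * iota g * E⁻¹ * (iota g)⁻¹ * Z⁻¹ := by group
      rw [this, hEZ]
      have hc : Z * (E * (iota g * E⁻¹ * (iota g)⁻¹)) = (E * (iota g * E⁻¹ * (iota g)⁻¹)) * Z := by
        have hEi : Z * E⁻¹ = E⁻¹ * Z := by
          rw [eq_inv_mul_iff_mul_eq, ← mul_assoc, hEZ, mul_assoc, mul_inv_cancel, mul_one]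
        have hGi : Z * (iota g)⁻¹ = (iota g)⁻¹ * Z := by
          rw [eq_inv_mul_iff_mul_eq, ← mul_assoc, hGZ, mul_assoc, mul_inv_cancel, mul_one]
        calc Z * (E * (iota g * E⁻¹ * (iota g)⁻¹)) = (Z * E) * iota g * E⁻¹ * (iota g)⁻¹ := by group
          _ = E * (Z * iota g) * E⁻¹ * (iota g)⁻¹ := by rw [← hEZ]; group
          _ = E * (iota g * Z) * E⁻¹ * (iota g)⁻¹ := by rw [hGZ]
          _ = E * iota g * (Z * E⁻¹) * (iota g)⁻¹ := by group
          _ = E * iota g * E⁻¹ * (Z * (iota g)⁻¹) := by rw [hEi]; group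
          _ = _ := by rw [hGi]; group
      calc Z * E * iota g * E⁻¹ * (iota g)⁻¹ * Z⁻¹ = (Z * (E * (iota g * E⁻¹ * (iota g)⁻¹))) * Z⁻¹ := by group
        _ = _ := by rw [hc]; group
    calc _ = E * (iota l * (Z * iota g) * (iota l)⁻¹) * E⁻¹ * (Z * iota g)⁻¹ := by group
      _ = _ := by rw [e1, e2]
  rw [hX] at hcm
  have hgE : iota g * E * (iota g)⁻¹ = EE hF α (act g u) t := iota_conj hF hα g h
  have h1 : iota g * E⁻¹ * (iota g)⁻¹ = (EE hF α (act g u) t)⁻¹ := by
    rw [← hgE]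
    group
  rw [h1] at hcm
  have h2 := hQK _ ((QQ hF hα e).mul_mem ⟨u, t, h, rfl⟩ ((QQ hF hα e).inv_mem
    ⟨act g u, t, Gd_act g h, rfl⟩)) hcm
  have h3 : E = EE hF α (act g u) t := mul_inv_eq_one.1 h2
  obtain ⟨h4, -⟩ := EE_inj hF hα h (Gd_act g h) h3
  have hu : u = 0 := hfix u h4.symm
  subst hu
  have ht : t + t ^ q = 0 := by
    have := h
    unfold Gd at this
    rw [hermForm_zero_left, add_zero] at this
    exact this
  exact ⟨t, ht, hm⟩

/-- Central lifts from a scaling element commuting with the Levi factor. -/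
theorem Sg_top_of_scale {K : Subgroup (SU (e + 2) F q)} (hQK : ∀ y ∈ QQ hF hα e, y ∈ K → y = 1)
    (hKK : KK hF hα K = ⊤) {s : SU (e + 2) F q} {a b : F} (hs : IsScale α s a b)
    (hc : a ^ q * b ≠ 1) (hsK : s ∈ K) (hsl : ∀ l : SU e F q, s * iota l = iota l * s) :
    Sg hF hα K = ⊤ := by
  rw [eq_top_iff]
  intro l _
  have hl : l ∈ KK hF hα K := by rw [hKK]; trivial
  obtain ⟨_, ⟨u, t, h, rfl⟩, hm'⟩ := hl
  have h1 := K.mul_mem (K.mul_mem hsK hm') (K.inv_mem hsK)
  have h2 : s * (EE hF α u t * iota l) * s⁻¹ = (s * EE hF α u t * s⁻¹) * iota l := by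
    have h3 : iota l * s⁻¹ = s⁻¹ * iota l := by
      have h4 := hsl l
      rw [eq_inv_mul_iff_mul_eq, ← mul_assoc, h4, mul_assoc, mul_inv_cancel, mul_one]
    calc s * (EE hF α u t * iota l) * s⁻¹ = s * EE hF α u t * (iota l * s⁻¹) := by group
      _ = s * EE hF α u t * (s⁻¹ * iota l) := by rw [h3]
      _ = _ := by group
  rw [h2, conj_scale hF hα hs h] at h1
  have h3 := K.mul_mem h1 (K.inv_mem hm')
  have h4 : EE hF α ((a ^ q * b) • u) (a * a ^ q * t) * iota l * (EE hF α u t * iota l)⁻¹ =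
      EE hF α ((a ^ q * b) • u) (a * a ^ q * t) * (EE hF α u t)⁻¹ := by group
  rw [h4] at h3
  have hg' : Gd q ((a ^ q * b) • u) (a * a ^ q * t) := Gd_scale hF hs.hb h
  have h5 := hQK _ ((QQ hF hα e).mul_mem ⟨_, _, hg', rfl⟩ ((QQ hF hα e).inv_mem ⟨_, _, h, rfl⟩)) h3
  have h6 : EE hF α ((a ^ q * b) • u) (a * a ^ q * t) = EE hF α u t := mul_inv_eq_one.1 h5
  obtain ⟨h7, -⟩ := EE_inj hF hα hg' h h6
  have h8 : (a ^ q * b - 1) • u = 0 := by
    rw [sub_smul, one_smul, h7, sub_self]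
  have hu : u = 0 := (smul_eq_zero.1 h8).resolve_left (sub_ne_zero.2 hc)
  subst hu
  have ht : t + t ^ q = 0 := by
    have := h
    unfold Gd at this
    rw [hermForm_zero_left, add_zero] at this
    exact this
  exact ⟨t, ht, hm'⟩

/-- Commutators of elements with central lifts lie in `K`. -/
theorem comm_of_Sg {K : Subgroup (SU (e + 2) F q)} (h : Sg hF hα K = ⊤) (a b : SU e F q) :
    iota (a * b * a⁻¹ * b⁻¹) ∈ K := by
  have hlift : ∀ l : SU e F q, l ∈ Sg hF hα K := fun l => by rw [h]; trivial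
  obtain ⟨t₁, ht₁, hm₁⟩ := hlift a
  obtain ⟨t₂, ht₂, hm₂⟩ := hlift b
  have h1 := K.mul_mem (K.mul_mem (K.mul_mem hm₁ hm₂) (K.inv_mem hm₁)) (K.inv_mem hm₂)
  rw [center_conj hF hα ht₁ ht₂] at h1
  have h2 : EE (e := e) hF α 0 t₂ * iota (a * b * a⁻¹) * (EE (e := e) hF α 0 t₂ * iota b)⁻¹ =
      iota (a * b * a⁻¹ * b⁻¹) := by
    have h3 := iota_comm_center hF hα (a * b * a⁻¹ * b⁻¹) ht₂
    have h4 : iota (a * b * a⁻¹) * (iota b)⁻¹ = iota (a * b * a⁻¹ * b⁻¹) := by
      simp only [map_mul, map_inv]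
    calc _ = EE (e := e) hF α 0 t₂ * (iota (a * b * a⁻¹) * (iota b)⁻¹) * (EE (e := e) hF α 0 t₂)⁻¹ := by group
      _ = EE (e := e) hF α 0 t₂ * iota (a * b * a⁻¹ * b⁻¹) * (EE (e := e) hF α 0 t₂)⁻¹ := by rw [h4]
      _ = iota (a * b * a⁻¹ * b⁻¹) * EE (e := e) hF α 0 t₂ * (EE (e := e) hF α 0 t₂)⁻¹ := by rw [h3]
      _ = _ := by group
  rwa [h2] at h1

/-- All transvections of the Levi factor lie in `K`. -/
theorem iota_tau_mem {K : Subgroup (SU (e + 2) F q)} (he : 3 ≤ e) (h : Sg hF hα K = ⊤)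
    {v : Fin e → F} {t : F} (hv : hermForm e F q v v = 0) (ht : t + t ^ q = 0) :
    iota (tau hF v t) ∈ K := by
  obtain ⟨a, b, hab⟩ := tau_commutator hF he hv ht
  rw [← hab]
  exact comm_of_Sg hF hα h a b

/-- The whole Levi factor lies in `K`. -/
theorem iota_all_mem {K : Subgroup (SU (e + 2) F q)} (he : 3 ≤ e) (h32 : ¬ (e = 3 ∧ q = 2))
    (h : Sg hF hα K = ⊤) (l : SU e F q) : iota l ∈ K := by
  have hall : K.comap iota = ⊤ :=
    top_of_tau hF he h32 (fun v t hv ht => iota_tau_mem hF hα he h hv ht)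
  have : l ∈ K.comap iota := by rw [hall]; trivial
  exact this

/-- Passing to a conjugate by an element of `Q`. -/
lemma QK_cj {K : Subgroup (SU (e + 2) F q)} (hQK : ∀ y ∈ QQ hF hα e, y ∈ K → y = 1)
    {y₀ : SU (e + 2) F q} (hy₀ : y₀ ∈ QQ hF hα e) : ∀ y ∈ QQ hF hα e, y ∈ cj y₀ K → y = 1 := by
  intro y hy hyK
  rw [mem_cj] at hyK
  have hmem : y₀⁻¹ * y * y₀ ∈ QQ hF hα e :=
    (QQ hF hα e).mul_mem ((QQ hF hα e).mul_mem ((QQ hF hα e).inv_mem hy₀) hy) hy₀
  have h1 := hQK _ hmem hyK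
  have h2 : y = y₀ * (y₀⁻¹ * y * y₀) * y₀⁻¹ := by group
  rw [h2, h1]
  group

lemma KK_cj_top {K : Subgroup (SU (e + 2) F q)} (hKK : KK hF hα K = ⊤)
    {y₀ : SU (e + 2) F q} (hy₀ : y₀ ∈ QQ hF hα e) : KK hF hα (cj y₀ K) = ⊤ := by
  rw [eq_top_iff, ← hKK]
  exact KK_le_cj hF hα hy₀

end Sg

section Omega

variable (hF : Fintype.card F = q ^ 2) {α β : F} (hα : α ^ q * α = -1) (hβ : β + β ^ q = -1)
  {ω : F}

include hF in
/-- The element of norm one and order three over the field of four elements. -/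
lemma exists_omega_two (hq : q = 2) : ∃ ω : F, ω ≠ 0 ∧ ω ≠ 1 ∧ ω * ω ^ q = 1 ∧ ω ^ 3 = 1 ∧ ω ^ 2 ≠ 1 := by
  obtain ⟨ξ, hξ, hξ2⟩ := Cfsg.Agent.Lib.UnitarySU.exists_nrm_one_sq_ne_one hF
  have hξ' : ξ * ξ ^ q = 1 := hξ
  have h3 : ξ ^ 3 = 1 := by
    rw [hq] at hξ'
    linear_combination hξ'
  refine ⟨ξ, ?_, ?_, hξ', h3, hξ2⟩
  · rintro rfl
    rw [zero_pow (by omega), mul_zero] at hξ'
    exact zero_ne_one hξ'
  · rintro rfl
    exact hξ2 (one_pow 2)

include hF hα hβ in
/-- A scaling element commuting with the Levi factor. -/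
lemma exists_scale_omega (hω0 : ω ≠ 0) (hω : ω * ω ^ q = 1) (hω3 : ω ^ 3 = 1) :
    ∃ s : SU (e + 2) F q, IsScale α s (ω ^ (e + 3)) ω ∧ act s (wE α β) = ω ^ (e + 3) • wE α β ∧
      (∀ l : SU e F q, s * iota l = iota l * s) ∧ s ^ 3 = 1 := by
  have hv := vE_iso (e := e) hF hα
  have hw := wE_iso (e := e) hF hα hβ
  have hvw := vE_wE (e := e) (b := β) hF hα
  set a : F := ω ^ (e + 2) with ha
  have ha0 : a ≠ 0 := pow_ne_zero _ hω0
  have haa : a * a ^ q = 1 := by
    rw [ha, ← pow_mul, mul_comm (e + 2) q, pow_mul, ← mul_pow, hω, one_pow]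
  let M : Matrix (Fin (e + 2)) (Fin (e + 2)) F := ω • Dm q (vE α) (wE α β) a a
  have hdet : M.det = 1 := by
    show (ω • Dm q (vE α) (wE α β) a a).det = 1
    rw [Matrix.det_smul, Dm_det hF hv hw hvw, Fintype.card_fin, ha]
    have : ω ^ (e + 2) * (ω ^ (e + 2) * ω ^ (e + 2)) = (ω ^ 3) ^ (e + 2) := by ring
    rw [this, hω3, one_pow]
  have hiso : ∀ x y : Fin (e + 2) → F, hermForm (e + 2) F q (M *ᵥ x) (M *ᵥ y) = hermForm (e + 2) F q x y := by
    intro x y
    have h1 : ∀ z, M *ᵥ z = ω • (Dm q (vE α) (wE α β) a a *ᵥ z) := fun z => Matrix.smul_mulVec _ _ _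
    rw [h1, h1, hermForm_smul_left, hermForm_smul_right, Dm_unitary hF hv hw hvw haa haa]
    linear_combination (hermForm (e + 2) F q x y) * hω
  let s : SU (e + 2) F q := SUofMatrix M hdet hiso
  have hact : ∀ x, act s x = ω • (x + ((a - 1) * hermForm (e + 2) F q x (wE α β)) • vE α +
      ((a - 1) * hermForm (e + 2) F q x (vE α)) • wE α β) := fun x => by
    show M *ᵥ x = _
    rw [show M *ᵥ x = ω • (Dm q (vE α) (wE α β) a a *ᵥ x) from Matrix.smul_mulVec _ _ _, Dm_mulVec]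
  have hωa : ω * a = ω ^ (e + 3) := by
    rw [ha]
    ring
  have hsv : act s (vE α) = ω ^ (e + 3) • vE α := by
    rw [hact, hvw, hv, ← hωa]
    module
  have hsw : act s (wE α β) = ω ^ (e + 3) • wE α β := by
    rw [hact, hw, wE_vE hF hα, ← hωa]
    module
  have hsi : ∀ u : Fin e → F, act s (inc u) = inc (ω • u) := by
    intro u
    rw [hact, inc_wE hF, inc_vE hF, inc_smul]
    module
  have hω9 : ∀ x : Fin (e + 2) → F, (ω ^ (e + 3)) ^ 3 • x = x := by
    intro x
    have : (ω ^ (e + 3)) ^ 3 = (ω ^ 3) ^ (e + 3) := by ring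
    rw [this, hω3, one_pow, one_smul]
  refine ⟨s, ⟨pow_ne_zero _ hω0, hω0, hω, hsv, hsi⟩, hsw, fun l => ?_, ?_⟩
  · apply ext_frame hF hα hβ
    · rw [act_mul, act_mul, act_iota_vE, hsv, act_smul, act_iota_vE]
    · rw [act_mul, act_mul, act_iota_wE, hsw, act_smul, act_iota_wE]
    · intro u
      rw [act_mul, act_mul, act_iota_inc, hsi, hsi, act_iota_inc, act_smul]
  · apply ext_frame hF hα hβ
    · rw [pow_three, act_mul, act_mul, act_one]
      simp only [hsv, act_smul, smul_smul]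
      have : ω ^ (e + 3) * (ω ^ (e + 3) * ω ^ (e + 3)) = (ω ^ (e + 3)) ^ 3 := by ring
      first
        | rw [this, hω9]
        | (rw [show ω ^ (e + 3) * ω ^ (e + 3) * ω ^ (e + 3) = (ω ^ (e + 3)) ^ 3 by ring, hω9])
    · rw [pow_three, act_mul, act_mul, act_one]
      simp only [hsw, act_smul, smul_smul]
      have : ω ^ (e + 3) * (ω ^ (e + 3) * ω ^ (e + 3)) = (ω ^ (e + 3)) ^ 3 := by ring
      first
        | rw [this, hω9]
        | (rw [show ω ^ (e + 3) * ω ^ (e + 3) * ω ^ (e + 3) = (ω ^ (e + 3)) ^ 3 by ring, hω9])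
    · intro u
      rw [pow_three, act_mul, act_mul, hsi, hsi, hsi, act_one, smul_smul, smul_smul]
      have : ω * ω * ω = ω ^ 3 := by ring
      rw [this, hω3, one_smul]

end Omega

section Diag

variable (hF : Fintype.card F = q ^ 2) {ω : F}

/-- The diagonal of an element of `SU`. -/
def dgS (ω : F) (S : Finset (Fin e)) : Fin e → F := fun k => if k ∈ S then ω ^ 2 else ω

include hF in
/-- A diagonal element with two exceptional eigenvalues. -/
lemma exists_gS (hω0 : ω ≠ 0) (hω : ω * ω ^ q = 1) (hω3 : ω ^ 3 = 1) (h3 : 3 ∣ e + 2) (S : Finset (Fin e))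
    (hS : S.card = 2) : ∃ g : SU e F q, ∀ (x : Fin e → F) (k : Fin e), act g x k = dgS ω S k * x k := by
  classical
  have hdet : (Matrix.diagonal (dgS ω S)).det = 1 := by
    rw [Matrix.det_diagonal]
    have h1 : ∀ k, dgS ω S k = ω * (if k ∈ S then ω else 1) := by
      intro k
      unfold dgS
      split_ifs
      · ring
      · ring
    rw [Finset.prod_congr rfl (fun k _ => h1 k), Finset.prod_mul_distrib, Finset.prod_const,
      Finset.prod_ite_mem, Finset.prod_const, Finset.card_univ, Fintype.card_fin]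
    have h2 : Finset.univ ∩ S = S := Finset.univ_inter S
    rw [h2, hS, ← pow_add]
    obtain ⟨c, hc⟩ := h3
    rw [hc, pow_mul, hω3, one_pow]
  have hun : ∀ k, Cfsg.Agent.Lib.HermCount.nrm q (dgS ω S k) = 1 := by
    intro k
    show dgS ω S k * dgS ω S k ^ q = 1
    unfold dgS
    split_ifs
    · rw [← pow_mul, mul_comm 2 q, pow_mul, ← mul_pow, hω, one_pow]
    · exact hω
  refine ⟨SUofMatrix _ hdet (diagonal_unitary hun), fun x k => ?_⟩
  show (Matrix.diagonal (dgS ω S) *ᵥ x) k = _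
  rw [Matrix.mulVec_diagonal]

lemma dgS_ne_one (hω1 : ω ≠ 1) (hω2 : ω ^ 2 ≠ 1) (S : Finset (Fin e)) (k : Fin e) : dgS ω S k ≠ 1 := by
  unfold dgS
  split_ifs
  · exact hω2
  · exact hω1

end Diag

section RegularOne

variable (hF : Fintype.card F = q ^ 2) {α : F} (hα : α ^ q * α = -1)
include hF hα

/-- The case of `3 ∣ e + 2`. -/
theorem Sg_top_three {e' : ℕ} (he' : 4 ≤ e') (hq : q = 2) (h3 : 3 ∣ e' + 2 + 2)
    {K : Subgroup (SU (e' + 2 + 2) F q)}
    (hQK : ∀ y ∈ QQ hF hα (e' + 2), y ∈ K → y = 1) (hKK : KK hF hα K = ⊤)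
    {ω : F} (hω0 : ω ≠ 0) (hω1 : ω ≠ 1) (hω : ω * ω ^ q = 1) (hω3 : ω ^ 3 = 1) (hω2 : ω ^ 2 ≠ 1)
    {g₁ : SU (e' + 2) F q} (hg₁ : ∀ (x : Fin (e' + 2) → F) (k : Fin (e' + 2)),
      act g₁ x k = dgS ω {0, 1} k * x k) (hg₁K : iota g₁ ∈ K) : Sg hF hα K = ⊤ := by
  classical
  have hF' : Fintype.card F = q ^ 2 := hF
  have hq0 : q ≠ 0 := by omega
  -- `g₁` has central lift
  have hg₁S : g₁ ∈ Sg hF hα K := by
    refine ⟨0, by rw [zero_pow hq0, add_zero], ?_⟩
    rw [EE_zero hF hα, one_mul]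
    exact hg₁K
  have hcommd : ∀ {S S' : Finset (Fin (e' + 2))} {a b : SU (e' + 2) F q},
      (∀ x k, act a x k = dgS ω S k * x k) → (∀ x k, act b x k = dgS ω S' k * x k) → a * b = b * a := by
    intro S S' a b ha hb
    apply ext_act
    intro x
    funext k
    rw [act_mul, act_mul, ha, hb, hb, ha]
    ring
  have hfix : ∀ {S : Finset (Fin (e' + 2))} {a : SU (e' + 2) F q},
      (∀ x k, act a x k = dgS ω S k * x k) → ∀ u : Fin (e' + 2) → F, act a u = u → u = 0 := by
    intro S a ha u hu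
    funext k
    have h1 := congrFun hu k
    rw [ha] at h1
    have h2 : (dgS ω S k - 1) * u k = 0 := by linear_combination h1
    exact (mul_eq_zero.1 h2).resolve_left (sub_ne_zero.2 (dgS_ne_one hω1 hω2 S k))
  -- the inner Levi factor
  have hinner : ∀ l : SU e' F q, iota l ∈ Sg hF hα K := by
    intro l
    refine Sg_of_comm hF hα hQK hKK hg₁S (hfix hg₁) ?_
    apply ext_act
    intro x
    rw [act_mul, act_mul]
    funext k
    rw [hg₁, act_iota, act_iota, ]
    refine Fin.cases ?_ (fun j => ?_) k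
    · show (Fin.cons _ _ : Fin (e' + 2) → F) 0 = _
      simp only [Fin.cons_zero]
      rw [hg₁]
    · refine Fin.cases ?_ (fun j' => ?_) j
      · simp only [Fin.cons_succ, Fin.cons_zero]
        rw [hg₁]
        rfl
      · simp only [Fin.cons_succ]
        have h1 : Fin.tail (Fin.tail (act g₁ x)) = ω • Fin.tail (Fin.tail x) := by
          funext t
          show act g₁ x t.succ.succ = ω * x t.succ.succ
          rw [hg₁]
          have hd : dgS ω {0, 1} t.succ.succ = ω := by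
            unfold dgS
            rw [if_neg]
            simp only [Finset.mem_insert, Finset.mem_singleton, not_or]
            exact ⟨Fin.succ_ne_zero _, fun h => by
              have := Fin.succ_injective _ (show (t.succ : Fin (e' + 1)).succ = (0 : Fin (e' + 1)).succ from h)
              exact Fin.succ_ne_zero _ this⟩
          rw [hd]
        rw [h1, act_smul]
        show (ω • act l (Fin.tail (Fin.tail x))) j' = dgS ω {0, 1} j'.succ.succ * act l (Fin.tail (Fin.tail x)) j'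
        unfold dgS
        rw [if_neg]
        · rfl
        · simp only [Finset.mem_insert, Finset.mem_singleton, not_or]
          exact ⟨Fin.succ_ne_zero _, fun h => by
            have := Fin.succ_injective _ (show (j'.succ : Fin (e' + 1)).succ = (0 : Fin (e' + 1)).succ from h)
            exact Fin.succ_ne_zero _ this⟩
  -- the second diagonal element
  set i₂ : Fin (e' + 2) := (⟨2, by omega⟩ : Fin e').succ.succ with hi₂
  set i₃ : Fin (e' + 2) := (⟨3, by omega⟩ : Fin e').succ.succ with hi₃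
  have hi23 : i₂ ≠ i₃ := by
    intro h
    have := congrArg Fin.val h
    simp [hi₂, hi₃] at this
  have hS₂ : ({i₂, i₃} : Finset (Fin (e' + 2))).card = 2 := Finset.card_pair hi23
  obtain ⟨g₂, hg₂⟩ := exists_gS hF hω0 hω hω3 (e := e' + 2) h3 {i₂, i₃} hS₂
  have hg₂S : g₂ ∈ Sg hF hα K :=
    Sg_of_comm hF hα hQK hKK hg₁S (hfix hg₁) (hcommd hg₂ hg₁)
  -- transvections vanishing on the exceptional coordinates
  have htau : ∀ (y : Fin (e' + 2) → F) (c : F), hermForm (e' + 2) F q y y = 0 → c + c ^ q = 0 → y i₂ = 0 → y i₃ = 0 →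
      tau hF y c ∈ Sg hF hα K := by
    intro y c hy hc h2 h3'
    refine Sg_of_comm hF hα hQK hKK hg₂S (hfix hg₂) ?_
    have h4 : act g₂ y = ω • y := by
      funext k
      rw [hg₂]
      show _ = ω * y k
      by_cases hk : k ∈ ({i₂, i₃} : Finset (Fin (e' + 2)))
      · rw [Finset.mem_insert, Finset.mem_singleton] at hk
        rcases hk with rfl | rfl
        · rw [h2]; ring
        · rw [h3']; ring
      · unfold dgS
        rw [if_neg hk]
    have h5 := conj_tau hF g₂ hy hc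
    rw [h4, tau_smul hF hy hc, hω, one_mul] at h5
    exact h5.symm
  -- the general transvection
  refine top_of_tau hF (by omega) (by omega) ?_
  intro x c hx hc
  set u := Fin.tail (Fin.tail x) with hu
  by_cases hu0 : u = 0
  · refine htau x c hx hc ?_ ?_
    · exact congrFun hu0 _
    · exact congrFun hu0 _
  · -- move `u` to the first coordinates
    have hj : ∃ u' : Fin e' → F, u' ≠ 0 ∧ hermForm e' F q u' u' = hermForm e' F q u u ∧
        u' ⟨2, by omega⟩ = 0 ∧ u' ⟨3, by omega⟩ = 0 := by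
      by_cases hN : hermForm e' F q u u = 0
      · have hij : (⟨0, by omega⟩ : Fin e') ≠ ⟨1, by omega⟩ := by simp
        refine ⟨vv α ⟨0, by omega⟩ ⟨1, by omega⟩, ?_, ?_, ?_, ?_⟩
        · intro h0
          have := congrFun h0 ⟨0, by omega⟩
          rw [vv_left hij] at this
          exact one_ne_zero this
        · rw [hN]
          exact vv_iso hF hα hij
        · exact vv_other (by simp) (by simp)
        · exact vv_other (by simp) (by simp)
      · obtain ⟨d, hd0, hd⟩ := SUGen.exists_norm hF (hermForm e' F q u u) hN (hermForm_conj hF u u)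
        refine ⟨d • Pi.single ⟨0, by omega⟩ 1, ?_, ?_, ?_, ?_⟩
        · intro h0
          have := congrFun h0 ⟨0, by omega⟩
          simp at this
          exact hd0 this
        · rw [hermForm_smul_left, hermForm_smul_right, herm_single_self hF, mul_one]
          exact hd
        · simp [Pi.single_apply]
        · simp [Pi.single_apply]
    obtain ⟨u', hu'0, hu'N, hu'2, hu'3⟩ := hj
    obtain ⟨l, hl⟩ := lev_trans hF (n := e') (by omega) hu0 hu'0 hu'N.symm
    have hlS := hinner l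
    have hy2 : act (iota l) x i₂ = 0 := by
      rw [act_iota, hi₂]
      simp only [Fin.cons_succ]
      rw [← hu, hl]
      exact hu'2
    have hy3 : act (iota l) x i₃ = 0 := by
      rw [act_iota, hi₃]
      simp only [Fin.cons_succ]
      rw [← hu, hl]
      exact hu'3
    have h5 := htau (act (iota l) x) c (by rw [herm_act]; exact hx) hc hy2 hy3
    have h6 := conj_tau hF (iota l) hx hc
    have h7 : tau hF x c = (iota l)⁻¹ * tau hF (act (iota l) x) c * iota l := by
      rw [mul_assoc, ← h6]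
      group
    rw [h7]
    exact (Sg hF hα K).mul_mem ((Sg hF hα K).mul_mem ((Sg hF hα K).inv_mem hlS) h5) hlS

end RegularOne

section Regular

variable (hF : Fintype.card F = q ^ 2) {α : F} (hα : α ^ q * α = -1)
include hF hα

/-- Three does not divide the order of `Q` over the field of four elements. -/
lemma three_not_dvd (hq : q = 2) : ¬ 3 ∣ Nat.card (QQ hF hα e) := by
  rw [card_QQ hF hα, hq]
  intro h
  have hp : Nat.Prime 3 := by norm_num
  rcases (Nat.Prime.dvd_mul hp).1 h with h1 | h1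
  · have h2 := hp.dvd_of_dvd_pow h1
    norm_num at h2
  · norm_num at h1

/-- The regular case over the field of four elements. -/
theorem regular_q2 (hq : q = 2) (he : 3 ≤ e) (h4 : e ≠ 4) {K : Subgroup (SU (e + 2) F q)}
    (hQK : ∀ y ∈ QQ hF hα e, y ∈ K → y = 1) (hKK : KK hF hα K = ⊤)
    (hm : K.index < 2 * ((q ^ 2) ^ e * q)) :
    ∃ y ∈ QQ hF hα e, Sg hF hα (cj y K) = ⊤ := by
  classical
  obtain ⟨β, hβ⟩ : ∃ β : F, β + β ^ q = -1 :=
    exists_trace_eq hF (t := -1) (by rw [neg_pow_q hF, one_pow])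
  obtain ⟨ω, hω0, hω1, hω, hω3, hω2⟩ := exists_omega_two hF hq
  haveI : Fact (Nat.Prime 3) := ⟨by norm_num⟩
  have hcardQ := card_QQ hF hα (e := e)
  have hm' : K.index < 2 * Nat.card (QQ hF hα e) := by rw [hcardQ]; exact hm
  by_cases h3 : 3 ∣ e + 2
  · -- the diagonal element
    obtain ⟨e', rfl⟩ : ∃ e', e = e' + 2 := ⟨e - 2, by omega⟩
    have he' : 4 ≤ e' := by omega
    have hS₁ : ({0, 1} : Finset (Fin (e' + 2))).card = 2 := Finset.card_pair (by simp)
    obtain ⟨g₁, hg₁⟩ := exists_gS hF hω0 hω hω3 (e := e' + 2) h3 {0, 1} hS₁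
    have hg3 : g₁ ^ 3 = 1 := by
      apply ext_act
      intro x
      funext k
      rw [pow_three, act_mul, act_mul, hg₁, hg₁, hg₁, act_one]
      have h5 : dgS ω {0, 1} k * (dgS ω {0, 1} k * dgS ω {0, 1} k) = 1 := by
        unfold dgS
        split_ifs
        · have : ω ^ 2 * (ω ^ 2 * ω ^ 2) = (ω ^ 3) ^ 2 := by ring
          rw [this, hω3, one_pow]
        · have : ω * (ω * ω) = ω ^ 3 := by ring
          rw [this, hω3]
      linear_combination (x k) * h5
    have hs3 : (iota g₁) ^ 3 = 1 := by rw [← map_pow, hg3, map_one]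
    have hN := hN_QQ hF hα g₁
    have hN' : ∀ y ∈ QQ hF hα (e' + 2), (iota g₁)⁻¹ * y * iota g₁ ∈ QQ hF hα (e' + 2) := by
      intro y hy
      have := hN_QQ hF hα g₁⁻¹ y hy
      rwa [map_inv, inv_inv] at this
    obtain ⟨y₀, hy₀, hfix⟩ := exists_conj_fixed hs3 hN hN' hQK hm' (three_not_dvd hF hα hq)
    refine ⟨y₀, hy₀, ?_⟩
    refine Sg_top_three hF hα he' hq h3 (QK_cj hF hα hQK hy₀) (KK_cj_top hF hα hKK hy₀) hω0 hω1 hω hω3 hω2 hg₁ ?_
    rw [mem_cj]
    exact hfix
  · -- the scaling element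
    obtain ⟨s, hs, hsw, hsl, hs3⟩ := exists_scale_omega (e := e) hF hα hβ hω0 hω hω3
    have hN : ∀ y ∈ QQ hF hα e, s * y * s⁻¹ ∈ QQ hF hα e := by
      rintro _ ⟨u, t, h, rfl⟩
      rw [conj_scale hF hα hs h]
      exact ⟨_, _, Gd_scale hF hs.hb h, rfl⟩
    have hN' : ∀ y ∈ QQ hF hα e, s⁻¹ * y * s ∈ QQ hF hα e := by
      rintro _ ⟨u, t, h, rfl⟩
      have h1 := conj_scale hF hα hs.inv h
      rw [inv_inv] at h1
      rw [h1]
      exact ⟨_, _, Gd_scale hF hs.inv.hb h, rfl⟩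
    obtain ⟨y₀, hy₀, hfix⟩ := exists_conj_fixed hs3 hN hN' hQK hm' (three_not_dvd hF hα hq)
    refine ⟨y₀, hy₀, ?_⟩
    refine Sg_top_of_scale hF hα (QK_cj hF hα hQK hy₀) (KK_cj_top hF hα hKK hy₀) hs ?_ (by rw [mem_cj]; exact hfix) hsl
    -- the scalar on `Q/Z`
    rw [hq]
    have h6 : ω ^ 2 * ω = 1 := by linear_combination hω3
    have h7 : (ω ^ (e + 3)) ^ 2 * ω = ω ^ (2 * e + 1) := by
      have : (ω ^ (e + 3)) ^ 2 * ω = (ω ^ 3) ^ 2 * ω ^ (2 * e + 1) := by ring
      rw [this, hω3]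
      ring
    rw [h7]
    have hr : (2 * e + 1) % 3 = 1 ∨ (2 * e + 1) % 3 = 2 := by omega
    have h8 : ω ^ (2 * e + 1) = ω ^ ((2 * e + 1) % 3) := by
      conv_lhs => rw [← Nat.div_add_mod (2 * e + 1) 3, pow_add, pow_mul, hω3, one_pow, one_mul]
    rw [h8]
    rcases hr with hr | hr <;> rw [hr]
    · simpa using hω1
    · exact hω2

end Regular

end Cfsg.Agent.Lib.PSUIdx
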