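import Mathlib
import Cfsg.Agent.Lib.PSUIdxP

/-!
# Three dimensions: subgroups of the natural module
-/

set_option autoImplicit false
set_option linter.unusedSectionVars false
set_option linter.unusedVariables false

namespace Cfsg.Agent.Lib.PSUIdx

open Matrix Cfsg Cfsg.Agent.Lib.HermForm Cfsg.Agent.Lib.FFNorm Cfsg.Agent.Lib.UnitaryE
  Cfsg.Agent.Lib.UnitarySU Cfsg.Agent.Lib.SUMinDeg
open Cfsg.Agent.Lib.PSU35A (cj mem_cj)

variable {F : Type*} [Field F] [Fintype F] {q n e : ℕ}

section General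

/-- A count through fibres. -/
lemma card_le_mul_fibres {A B : Type*} [Finite A] [Finite B] (f : A → B) (n : ℕ)
    (h : ∀ b, Nat.card {x // f x = b} ≤ n) : Nat.card A ≤ n * Nat.card B := by
  classical
  haveI := Fintype.ofFinite A
  haveI := Fintype.ofFinite B
  rw [Nat.card_eq_fintype_card, Nat.card_eq_fintype_card, ← Fintype.card_congr (Equiv.sigmaFiberEquiv f),
    Fintype.card_sigma]
  calc _ ≤ ∑ b : B, n := Finset.sum_le_sum (fun b _ => by
        rw [← Nat.card_eq_fintype_card]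
        exact h b)
    _ = _ := by simp [mul_comm]

end General

section Witt

variable (hF : Fintype.card F = q ^ 2)
include hF

/-- Isotropic vectors orthogonal to an isotropic vector in dimension three are proportional to it. -/
theorem witt3 {x w : Fin (1 + 2) → F} (hx : hermForm (1 + 2) F q x x = 0) (hx0 : x ≠ 0)
    (hw : hermForm (1 + 2) F q w w = 0) (hwx : hermForm (1 + 2) F q w x = 0) : ∃ c : F, w = c • x := by
  have hq := two_le hF
  obtain ⟨α, hα0, hα⟩ := SUGen.exists_norm hF (-1 : F) (neg_ne_zero.2 one_ne_zero) (by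
    rw [neg_pow_q hF, one_pow])
  have hα' : α ^ q * α = -1 := by rw [mul_comm]; exact hα
  obtain ⟨b, hb⟩ : ∃ b : F, b + b ^ q = -1 :=
    exists_trace_eq hF (t := -1) (by rw [neg_pow_q hF, one_pow])
  obtain ⟨g, hg⟩ := exists_act_eq hF (n := 1 + 2) (by norm_num) hx hx0 (vE_iso hF hα') (vE_ne hF hα')
  have h1 : hermForm (1 + 2) F q (act g w) (vE α) = 0 := by
    rw [← hg, herm_act]
    exact hwx
  have h2 : hermForm (1 + 2) F q (act g w) (act g w) = 0 := by
    rw [herm_act]
    exact hw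
  have h3 := mk3_eq hF hα' hb (act g w)
  rw [h1] at h3
  set p := hermForm (1 + 2) F q (act g w) (wE α b) with hp
  set u := rest α b q (act g w) with hu
  rw [h3, herm3 hF hα' hb] at h2
  have h4 : hermForm 1 F q u u = 0 := by
    rw [zero_pow (by omega)] at h2
    linear_combination h2
  have h5 : u = 0 := by
    funext i
    have hi : i = 0 := Subsingleton.elim _ _
    subst hi
    have h6 : u 0 * u 0 ^ q = 0 := by
      have : hermForm 1 F q u u = u 0 * u 0 ^ q := by
        simp [hermForm]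
      rw [← this, h4]
    rcases mul_eq_zero.1 h6 with h7 | h7
    · exact h7
    · exact (pow_eq_zero_iff (by omega)).1 h7
  refine ⟨p, ?_⟩
  have h7 : act g w = act g (p • x) := by
    rw [act_smul, hg, h3, h5]
    unfold mk3
    rw [inc_zero]
    simp
  have h8 := congrArg (act g⁻¹) h7
  rwa [act_inv_act hF, act_inv_act hF] at h8

/-- An element fixing a non-degenerate pair is trivial. -/
theorem free_pair {g : SU (2 + 1) F q} {a b : Fin (2 + 1) → F} (ha : hermForm (2 + 1) F q a a ≠ 0)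
    (hd : hermForm (2 + 1) F q a a * hermForm (2 + 1) F q b b ≠
      hermForm (2 + 1) F q a b * hermForm (2 + 1) F q b a)
    (hga : act g a = a) (hgb : act g b = b) : g = 1 := by
  have hq := two_le hF
  set c := hermForm (2 + 1) F q a a with hc
  have hcq : c⁻¹ ^ q = c⁻¹ := by rw [inv_pow, hc, hermForm_conj hF]
  obtain ⟨d, hd0, hdn⟩ := SUGen.exists_norm hF c⁻¹ (inv_ne_zero ha) hcq
  have h1 : hermForm (2 + 1) F q (d • a) (d • a) = 1 := by
    rw [hermForm_smul_left, hermForm_smul_right, ← hc, ← mul_assoc, hdn]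
    exact inv_mul_cancel₀ ha
  obtain ⟨A, -, hA⟩ := SUGen.RR_transitive hF (by norm_num) h1
    (Cfsg.Agent.Lib.UnitaryBasic.herm_e0_e0 hF (n := 2))
  have hA' : act A (d • a) = Cfsg.Agent.Lib.UnitaryBasic.e0 2 F := hA
  set g' : SU (2 + 1) F q := A * g * A⁻¹ with hg'
  have hA'' : act A⁻¹ (Cfsg.Agent.Lib.UnitaryBasic.e0 2 F) = d • a := by
    rw [← hA', act_inv_act hF]
  have hg'e : act g' (Cfsg.Agent.Lib.UnitaryBasic.e0 2 F) = Cfsg.Agent.Lib.UnitaryBasic.e0 2 F := by
    rw [hg', act_mul, act_mul, hA'', act_smul, hga, hA']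
  obtain ⟨C, hC⟩ := SUGen.exists_extSU hF g' hg'e
  set k := hermForm (2 + 1) F q b a / c with hk
  set b' := b + (-k) • a with hb'
  have hb'a : hermForm (2 + 1) F q b' a = 0 := by
    rw [hb', hermForm_add_left, hermForm_smul_left, ← hc, hk]
    field_simp
    ring
  have hab' : hermForm (2 + 1) F q a b' = 0 := herm_zero_of_conj hF hb'a
  have hNb' : hermForm (2 + 1) F q b' b' ≠ 0 := by
    intro h0
    apply hd
    have h3 : hermForm (2 + 1) F q b' b' = hermForm (2 + 1) F q b b' := by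
      conv_lhs => rw [hb', hermForm_add_left, hermForm_smul_left, hab']
      ring
    have hkq : k ^ q = hermForm (2 + 1) F q a b / c := by
      rw [hk, div_pow, hermForm_conj hF, hc, hermForm_conj hF]
    have h2 : hermForm (2 + 1) F q b' b' = hermForm (2 + 1) F q b b -
        hermForm (2 + 1) F q a b / c * hermForm (2 + 1) F q b a := by
      rw [h3, hb', hermForm_add_right hF, hermForm_smul_right, neg_pow_q hF, hkq]
      ring
    rw [h2] at h0
    field_simp at h0
    linear_combination h0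
  have hgb' : act g b' = b' := by
    rw [hb', act_add, act_smul, hga, hgb]
  set b'' := act A b' with hb''
  have h4 : hermForm (2 + 1) F q b'' (Cfsg.Agent.Lib.UnitaryBasic.e0 2 F) = 0 := by
    rw [← hA', hb'', herm_act, hermForm_smul_right, hb'a, mul_zero]
  have h5 : b'' 0 = 0 := by
    have h6 := herm_zero_of_conj hF h4
    rw [Cfsg.Agent.Lib.UnitaryBasic.herm_e0_left hF] at h6
    exact (pow_eq_zero_iff (by omega)).1 h6
  have hNt : hermForm 2 F q (Fin.tail b'') (Fin.tail b'') ≠ 0 := by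
    have h6 : hermForm (2 + 1) F q b'' b'' = hermForm 2 F q (Fin.tail b'') (Fin.tail b'') := by
      rw [Cfsg.Agent.Lib.UnitaryBasic.herm_succ, h5]
      ring
    rw [← h6, hb'', herm_act]
    exact hNb'
  have h7 : act g' b'' = b'' := by
    rw [hg', act_mul, act_mul, hb'', act_inv_act hF, hgb']
  have h8 : act C (Fin.tail b'') = Fin.tail b'' := by
    rw [← hC] at h7
    have h9 : SUGen.act (SUGen.extSU C) b'' = Fin.cons (b'' 0) (SUGen.act C (Fin.tail b'')) :=
      SUGen.act_extSU C b''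
    have h10 : SUGen.act (SUGen.extSU C) b'' = b'' := h7
    rw [h9] at h10
    have h11 := congrArg Fin.tail h10
    rw [Fin.tail_cons] at h11
    exact h11
  have h9 : C = 1 := free_su2 hF hNt h8
  rw [h9, map_one] at hC
  have h10 : A * g * A⁻¹ = 1 := hC.symm
  have h11 : A * g = A := mul_inv_eq_one.1 h10
  exact mul_eq_left.1 h11

end Witt

section Perp

variable (hF : Fintype.card F = q ^ 2)

/-- The orthogonal part of `Y` together with a rational line. -/
def perpAdd (hF : Fintype.card F = q ^ 2) (Y : AddSubgroup (Fin e → F)) (a : Fin e → F) :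
    AddSubgroup (Fin e → F) where
  carrier := {z | ∃ y ∈ Y, hermForm e F q y a = 0 ∧ ∃ t : F, t ^ q = t ∧ z = y + t • a}
  add_mem' := by
    rintro _ _ ⟨y, hy, h, t, ht, rfl⟩ ⟨y', hy', h', t', ht', rfl⟩
    refine ⟨y + y', Y.add_mem hy hy', by rw [hermForm_add_left, h, h', add_zero], t + t', ?_, ?_⟩
    · rw [add_pow_q hF, ht, ht']
    · rw [add_smul]
      abel
  zero_mem' := ⟨0, Y.zero_mem, hermForm_zero_left _, 0,
    zero_pow (by have := two_le hF; omega), by simp⟩
  neg_mem' := by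
    rintro _ ⟨y, hy, h, t, ht, rfl⟩
    refine ⟨-y, Y.neg_mem hy, ?_, -t, ?_, ?_⟩
    · have : (-y : Fin e → F) = (-1 : F) • y := by simp
      rw [this, hermForm_smul_left, h, mul_zero]
    · rw [neg_pow_q hF, ht]
    · rw [neg_smul]
      abel

include hF

/-- The orthogonal complement in `Y` of an anisotropic vector is small. -/
theorem perp_card {Y : AddSubgroup (Fin e → F)} {Z : AddSubgroup F} {c₁ : F} (hc : c₁ + c₁ ^ q = 0)
    (hc₁ : c₁ ∉ Z) (hB : ∀ y ∈ Y, ∀ y' ∈ Y, hermForm e F q y' y - hermForm e F q y y' ∈ Z)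
    {a : Fin e → F} (hN : hermForm e F q a a ≠ 0) :
    Nat.card {y : Y // hermForm e F q y.1 a = 0} * q ≤ q ^ e := by
  classical
  have hq := two_le hF
  have hB' : ∀ z ∈ perpAdd hF Y a, ∀ z' ∈ perpAdd hF Y a,
      hermForm e F q z' z - hermForm e F q z z' ∈ Z := by
    rintro _ ⟨y, hy, h, t, ht, rfl⟩ _ ⟨y', hy', h', t', ht', rfl⟩
    have h1 : hermForm e F q a y = 0 := herm_zero_of_conj hF h
    have h2 : hermForm e F q a y' = 0 := herm_zero_of_conj hF h'
    have h3 : hermForm e F q (y' + t' • a) (y + t • a) - hermForm e F q (y + t • a) (y' + t' • a) =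
        hermForm e F q y' y - hermForm e F q y y' := by
      simp only [hermForm_add_left, hermForm_add_right hF, hermForm_smul_left, hermForm_smul_right,
        h, h', h1, h2, ht, ht']
      ring
    rw [h3]
    exact hB y hy y' hy'
  have hr2 := card_sq_le_top hF hc hc₁ hB'
  have hr : Nat.card (perpAdd hF Y a) ≤ q ^ e := by
    by_contra hcon
    push Not at hcon
    have h5 : (q ^ e) ^ 2 < Nat.card (perpAdd hF Y a) ^ 2 := Nat.pow_lt_pow_left hcon (by norm_num)
    have h6 : (q ^ e) ^ 2 = (q ^ 2) ^ e := by ring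
    omega
  refine le_trans ?_ hr
  have hfix := Cfsg.Agent.Lib.HermLines.card_fixed hF
  have h0 : Nat.card ({y : Y // hermForm e F q y.1 a = 0} × {c : F // c ^ q = c}) ≤ Nat.card (perpAdd hF Y a) := by
    refine Nat.card_le_card_of_injective (fun p => ⟨p.1.1.1 + p.2.1 • a,
      ⟨p.1.1.1, p.1.1.2, p.1.2, p.2.1, p.2.2, rfl⟩⟩) ?_
    rintro ⟨y, t⟩ ⟨y', t'⟩ h
    have h1 : y.1.1 + t.1 • a = y'.1.1 + t'.1 • a := congrArg Subtype.val h
    have h2 := congrArg (fun z => hermForm e F q z a) h1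
    simp only [hermForm_add_left, hermForm_smul_left, y.2, y'.2, zero_add] at h2
    have h3 : t.1 = t'.1 := mul_right_cancel₀ hN h2
    rw [h3] at h1
    have h4 : y.1.1 = y'.1.1 := add_right_cancel h1
    have h5 : y = y' := Subtype.ext (Subtype.ext h4)
    have h6 : t = t' := Subtype.ext h3
    rw [h5, h6]
  rw [Nat.card_prod, hfix] at h0
  exact h0

/-- The fibres of the form on `Y` are small. -/
theorem coset_card {Y : AddSubgroup (Fin e → F)} (a : Fin e → F) (g : F) :
    Nat.card {y : Y // hermForm e F q y.1 a = g} ≤ Nat.card {y : Y // hermForm e F q y.1 a = 0} := by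
  classical
  by_cases hne : Nonempty {y : Y // hermForm e F q y.1 a = g}
  · obtain ⟨y₀⟩ := hne
    refine Nat.card_le_card_of_injective (fun y => ⟨y.1 - y₀.1, ?_⟩) ?_
    · show hermForm e F q (y.1.1 - y₀.1.1) a = 0
      rw [hermForm_sub_left, y.2, y₀.2, sub_self]
    · intro y y' h
      have h1 : y.1 - y₀.1 = y'.1 - y₀.1 := congrArg Subtype.val h
      exact Subtype.ext (sub_left_inj.1 h1)
  · rw [not_nonempty_iff] at hne
    rw [Nat.card_of_isEmpty]
    exact Nat.zero_le _

end Perp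

section Levi3

variable (hF : Fintype.card F = q ^ 2)
include hF

/-- The order of `SU₃`. -/
lemma card_SU3 : Nat.card (SU 3 F q) = q ^ 3 * ((q ^ 2 - 1) * (q ^ 3 + 1)) := by
  have h := card_SU hF 3 (by norm_num)
  have hq := two_le hF
  simp only [Finset.prod_range_succ, Finset.prod_range_zero, one_mul] at h
  have e0 : Even 0 := by decide
  have e1 : ¬ Even (0 + 1) := by decide
  have e2 : Even (1 + 1) := by decide
  norm_num at h
  have h2 : (q + 1) * Nat.card (SU 3 F q) = (q + 1) * (q ^ 3 * ((q ^ 2 - 1) * (q ^ 3 + 1))) := by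
    rw [h]
    ring
  exact Nat.eq_of_mul_eq_mul_left (by omega) h2

/-- Elements of a subgroup preserving `Y`, counted through a non-degenerate pair. -/
theorem card_L_le {Y : AddSubgroup (Fin 3 → F)} {L : Subgroup (SU 3 F q)}
    (hL : ∀ l ∈ L, ∀ y ∈ Y, act l y ∈ Y) {P : ℕ}
    (hP : ∀ a' ∈ Y, hermForm 3 F q a' a' ≠ 0 → Nat.card {y : Y // hermForm 3 F q y.1 a' = 0} ≤ P)
    {a b : Fin 3 → F} (ha : a ∈ Y) (hb : b ∈ Y) (hN : hermForm 3 F q a a ≠ 0)
    (hd : hermForm 3 F q a a * hermForm 3 F q b b ≠ hermForm 3 F q a b * hermForm 3 F q b a) :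
    Nat.card L ≤ P * Nat.card {y : Y // hermForm 3 F q y.1 y.1 = hermForm 3 F q a a} := by
  classical
  refine card_le_mul_fibres (fun l : L => (⟨⟨act l.1 a, hL l.1 l.2 a ha⟩, herm_act _ _ _⟩ :
    {y : Y // hermForm 3 F q y.1 y.1 = hermForm 3 F q a a})) P ?_
  rintro ⟨⟨a', ha'⟩, hNa'⟩
  have hNa'' : hermForm 3 F q a' a' ≠ 0 := by
    have : hermForm 3 F q a' a' = hermForm 3 F q a a := hNa'
    rw [this]
    exact hN
  refine le_trans ?_ (hP a' ha' hNa'')
  refine le_trans ?_ (coset_card hF (Y := Y) a' (hermForm 3 F q b a))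
  refine Nat.card_le_card_of_injective (fun l => ⟨⟨act l.1.1 b, hL l.1.1 l.1.2 b hb⟩, ?_⟩) ?_
  · have h1 : act l.1.1 a = a' := by
      have := congrArg (fun y : {y : Y // hermForm 3 F q y.1 y.1 = hermForm 3 F q a a} => y.1.1) l.2
      exact this
    show hermForm 3 F q (act l.1.1 b) a' = _
    have h2 := herm_act l.1.1 b a
    rw [h1] at h2
    exact h2
  · rintro ⟨l, hl⟩ ⟨l', hl'⟩ h
    have h1 : act l.1 a = a' := congrArg (fun y : {y : Y // hermForm 3 F q y.1 y.1 = hermForm 3 F q a a} => y.1.1) hl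
    have h2 : act l'.1 a = a' := congrArg (fun y : {y : Y // hermForm 3 F q y.1 y.1 = hermForm 3 F q a a} => y.1.1) hl'
    have h3 : act l.1 b = act l'.1 b := congrArg (fun y : {y : Y // hermForm 3 F q y.1 a' = hermForm 3 F q b a} => y.1.1) h
    have h4 : act (l.1⁻¹ * l'.1) a = a := by
      rw [act_mul, h2, ← h1, act_inv_act hF]
    have h5 : act (l.1⁻¹ * l'.1) b = b := by
      rw [act_mul, ← h3, act_inv_act hF]
    have h6 : l.1⁻¹ * l'.1 = 1 := free_pair hF hN hd h4 h5
    have h7 : l.1 = l'.1 := inv_mul_eq_one.1 h6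
    apply Subtype.ext
    exact Subtype.ext h7

/-- The main inequality for a non-degenerate pair. -/
theorem T1_bound {Y : AddSubgroup (Fin 3 → F)} {L : Subgroup (SU 3 F q)}
    (hL : ∀ l ∈ L, ∀ y ∈ Y, act l y ∈ Y) {Z : AddSubgroup F} {c₁ : F} (hc : c₁ + c₁ ^ q = 0)
    (hc₁ : c₁ ∉ Z) (hB : ∀ y ∈ Y, ∀ y' ∈ Y, hermForm 3 F q y' y - hermForm 3 F q y y' ∈ Z)
    {a b : Fin 3 → F} (ha : a ∈ Y) (hb : b ∈ Y) (hN : hermForm 3 F q a a ≠ 0)
    (hd : hermForm 3 F q a a * hermForm 3 F q b b ≠ hermForm 3 F q a b * hermForm 3 F q b a) :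
    q * ((q ^ 2 - 1) * (q ^ 3 + 1)) ≤
      Nat.card {y : Y // hermForm 3 F q y.1 y.1 = hermForm 3 F q a a} * L.index := by
  have hq := two_le hF
  have hP : ∀ a' ∈ Y, hermForm 3 F q a' a' ≠ 0 → Nat.card {y : Y // hermForm 3 F q y.1 a' = 0} ≤ q ^ 2 := by
    intro a' _ ha'
    have h1 := perp_card hF hc hc₁ hB ha'
    have h2 : Nat.card {y : Y // hermForm 3 F q y.1 a' = 0} * q ≤ q ^ 2 * q := by
      calc _ ≤ _ := h1
        _ = _ := by ring
    exact Nat.le_of_mul_le_mul_right h2 (by omega)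
  have h1 := card_L_le hF hL hP ha hb hN hd
  have h2 := Subgroup.index_mul_card L
  rw [card_SU3 hF] at h2
  set C := Nat.card {y : Y // hermForm 3 F q y.1 y.1 = hermForm 3 F q a a} with hC
  set A := (q ^ 2 - 1) * (q ^ 3 + 1) with hA
  have h3 : q ^ 2 * (q * A) ≤ q ^ 2 * (C * L.index) := by
    calc q ^ 2 * (q * A) = q ^ 3 * A := by ring
      _ = L.index * Nat.card L := h2.symm
      _ ≤ L.index * (q ^ 2 * C) := Nat.mul_le_mul_left _ h1
      _ = _ := by ring
  exact Nat.le_of_mul_le_mul_left h3 (by positivity)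

/-- The count through one vector. -/
theorem one_step {Y : AddSubgroup (Fin 3 → F)} {L : Subgroup (SU 3 F q)}
    (hL : ∀ l ∈ L, ∀ y ∈ Y, act l y ∈ Y) {y : Fin 3 → F} (hy : y ∈ Y) (hy0 : y ≠ 0) :
    (q ^ 3 + 1) * (q ^ 2 - 1) + 1 ≤ (Nat.card Y - 1) * L.index + 1 := by
  classical
  have h1 := orb_index_lev hF (n := 3) (by norm_num) hy0 L
  have h2 := card_Lev_ge_odd hF (n := 3) (by decide) (hermForm 3 F q y y) (hermForm_conj hF y y)
  have hpos : 1 ≤ (L.subgroupOf (stabV y)).index := Nat.pos_of_ne_zero Subgroup.index_ne_zero_of_finite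
  have h3 : Nat.card (orbV L y) + 1 ≤ Nat.card Y := by
    rw [← Finite.card_option (α := orbV L y)]
    refine Nat.card_le_card_of_injective (fun o : Option (orbV L y) => match o with
      | none => (0 : Y)
      | some z => ⟨z.1, ?_⟩) ?_
    · rcases z with ⟨z, g, hg, rfl⟩
      exact hL g hg y hy
    · rintro (_ | ⟨z, hz⟩) (_ | ⟨z', hz'⟩) h
      · rfl
      · exfalso
        have h4 : (0 : Fin 3 → F) = z' := congrArg Subtype.val h
        obtain ⟨g, hg, hz⟩ := hz'
        rw [← hz] at h4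
        exact act_ne_zero hF g hy0 h4.symm
      · exfalso
        have h4 : z = (0 : Fin 3 → F) := congrArg Subtype.val h
        obtain ⟨g, hg, hz⟩ := hz
        rw [← hz] at h4
        exact act_ne_zero hF g hy0 h4
      · have h4 : z = z' := congrArg Subtype.val h
        subst h4
        rfl
  have h5 : Nat.card (orbV L y) ≤ Nat.card Y - 1 := by omega
  have h6 : (q ^ 3 + 1) * (q ^ 2 - 1) ≤ (Nat.card Y - 1) * L.index := by
    calc (q ^ 3 + 1) * (q ^ 2 - 1) = (q ^ 3 + 1) * (q ^ (3 - 1) - 1) := rfl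
      _ ≤ Nat.card (Lev 3 F q (hermForm 3 F q y y)) := h2
      _ ≤ (L.subgroupOf (stabV y)).index * Nat.card (Lev 3 F q (hermForm 3 F q y y)) :=
          Nat.le_mul_of_pos_left _ hpos
      _ = Nat.card (orbV L y) * L.index := h1.symm
      _ ≤ _ := Nat.mul_le_mul_right _ h5
  omega

/-- A radical vector gives a line stabiliser. -/
theorem L_le_Bor {Y : AddSubgroup (Fin 3 → F)} {L : Subgroup (SU 3 F q)}
    (hL : ∀ l ∈ L, ∀ y ∈ Y, act l y ∈ Y) {x : Fin 3 → F} (hx : x ∈ Y) (hx0 : x ≠ 0)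
    (hxx : hermForm 3 F q x x = 0) (hperp : ∀ y ∈ Y, hermForm 3 F q y x = 0) : L ≤ BorN x := by
  intro l hl
  have h1 := hperp _ (hL l hl x hx)
  obtain ⟨c, hc⟩ := witt3 hF (x := x) (w := act l x) hxx hx0 (by
    show hermForm 3 F q (act l x) (act l x) = 0
    rw [herm_act]
    exact hxx) h1
  refine ⟨c, ?_, hc⟩
  rintro rfl
  rw [zero_smul] at hc
  exact act_ne_zero hF l hx0 hc

/-- The index of a line stabiliser in dimension three. -/
lemma index_Bor3 {x : Fin 3 → F} (hx0 : x ≠ 0) (hxx : hermForm 3 F q x x = 0) :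
    (BorN x : Subgroup (SU 3 F q)).index = q ^ 3 + 1 := by
  have hq := two_le hF
  have h1 := index_BorN hF (n := 3) (by norm_num) (x := x) ⟨hxx, hx0⟩
  rw [card_IsoV_odd hF 3 (by decide)] at h1
  have h2 : 1 < q ^ 2 := Nat.one_lt_pow (by norm_num) (by omega)
  have h3 : (q ^ 2 - 1) * (BorN x : Subgroup (SU 3 F q)).index = (q ^ 2 - 1) * (q ^ 3 + 1) := by
    rw [h1]
    show (q ^ 3 + 1) * (q ^ 2 - 1) = _
    ring
  exact Nat.eq_of_mul_eq_mul_left (by omega) h3

lemma index_ge_of_le_Bor {L : Subgroup (SU 3 F q)} {x : Fin 3 → F} (hx0 : x ≠ 0)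
    (hxx : hermForm 3 F q x x = 0) (hle : L ≤ BorN x) : q ^ 3 + 1 ≤ L.index := by
  have h1 := Subgroup.relIndex_mul_index hle
  rw [index_Bor3 hF hx0 hxx] at h1
  have h2 : 1 ≤ L.relIndex (BorN x) := Nat.pos_of_ne_zero (by
    intro h0
    rw [h0, zero_mul] at h1
    exact (Subgroup.index_ne_zero_of_finite (H := L)) h1.symm)
  calc q ^ 3 + 1 = 1 * (q ^ 3 + 1) := (one_mul _).symm
    _ ≤ L.relIndex (BorN x) * (q ^ 3 + 1) := Nat.mul_le_mul_right _ h2
    _ = _ := h1

lemma index_ge_two_of_lt_Bor {L : Subgroup (SU 3 F q)} {x : Fin 3 → F} (hx0 : x ≠ 0)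
    (hxx : hermForm 3 F q x x = 0) (hle : L ≤ BorN x) (hne : L ≠ BorN x) : 2 * (q ^ 3 + 1) ≤ L.index := by
  have h1 := Subgroup.relIndex_mul_index hle
  rw [index_Bor3 hF hx0 hxx] at h1
  have h2 : 1 ≤ L.relIndex (BorN x) := Nat.pos_of_ne_zero (by
    intro h0
    rw [h0, zero_mul] at h1
    exact (Subgroup.index_ne_zero_of_finite (H := L)) h1.symm)
  have h3 : L.relIndex (BorN x) ≠ 1 := by
    intro h4
    apply hne
    exact le_antisymm hle (Subgroup.relIndex_eq_one.1 h4)
  have h4 : 2 ≤ L.relIndex (BorN x) := by omega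
  calc 2 * (q ^ 3 + 1) ≤ L.relIndex (BorN x) * (q ^ 3 + 1) := Nat.mul_le_mul_right _ h4
    _ = _ := h1

end Levi3

section Torus3

variable (hF : Fintype.card F = q ^ 2)
include hF

/-- A scalar and the induced norm one element. -/
lemma exists_a_nu : ∃ a ν : F, a ≠ 0 ∧ ν * ν ^ q = 1 ∧ ν ^ 2 ≠ 1 ∧ a * (a ^ q)⁻¹ * ν = 1 := by
  classical
  have hq := two_le hF
  obtain ⟨g, hg⟩ := IsCyclic.exists_generator (α := Fˣ)
  have hord : orderOf g = q ^ 2 - 1 := by
    rw [orderOf_eq_card_of_forall_mem_zpowers hg, Nat.card_eq_fintype_card, Fintype.card_units, hF]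
  set a : F := (g : F) with ha
  have ha0 : a ≠ 0 := g.ne_zero
  have haq0 : a ^ q ≠ 0 := pow_ne_zero _ ha0
  have haq : (a ^ q) ^ q = a := pow_pow_self hF a
  refine ⟨a, a ^ q * a⁻¹, ha0, ?_, ?_, ?_⟩
  · rw [mul_pow, inv_pow, haq]
    field_simp
  · intro h
    obtain ⟨p, rfl⟩ : ∃ p, q = p + 1 := ⟨q - 1, by omega⟩
    have h1 : (a ^ p) ^ 2 = 1 := by
      have h2 : a ^ (p + 1) * a⁻¹ = a ^ p := by
        rw [pow_succ]
        field_simp
      rwa [h2] at h
    have h3 : g ^ (p * 2) = 1 := by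
      apply Units.ext
      rw [pow_mul]
      simpa using h1
    have h4 := orderOf_dvd_of_pow_eq_one h3
    rw [hord] at h4
    have hp : 1 ≤ p := by omega
    have h5 := Nat.le_of_dvd (by omega) h4
    have h6 : (p + 1) ^ 2 - 1 = p * p + p * 2 := Nat.sub_eq_of_eq_add (by ring)
    rw [h6] at h5
    nlinarith
  · field_simp

variable {α β : F} (hα : α ^ q * α = -1) (hβ : β + β ^ q = -1)
include hα hβ

/-- The diagonal element in dimension three. -/
lemma exists_D1 {a ν : F} (ha : a ≠ 0) (hν : ν * ν ^ q = 1) (hdet : a * (a ^ q)⁻¹ * ν = 1) :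
    ∃ D : SU (1 + 2) F q, IsScale (e := 1) α D a ν := by
  classical
  have hq := two_le hF
  have hv := vE_iso (e := 1) hF hα
  have hw := wE_iso (e := 1) hF hα hβ
  have hvw := vE_wE (e := 1) (b := β) hF hα
  have haq0 : a ^ q ≠ 0 := pow_ne_zero _ ha
  set b : F := (a ^ q)⁻¹ with hb
  have hab : a * b ^ q = 1 := by
    rw [hb, inv_pow, pow_pow_self hF]
    exact mul_inv_cancel₀ ha
  have hba : b * a ^ q = 1 := by
    rw [hb]
    exact inv_mul_cancel₀ haq0
  have hν0 : ν ≠ 0 := by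
    rintro rfl
    rw [zero_mul] at hν
    exact zero_ne_one hν
  let d : Fin (1 + 2) → F := Function.update 1 2 ν
  have hd : ∀ l, Cfsg.Agent.Lib.HermCount.nrm q (d l) = 1 := by
    intro l
    by_cases hl : l = 2
    · subst hl
      have h2 : d 2 = ν := by simp [d]
      rw [h2]
      exact hν
    · simp only [d, Function.update_of_ne hl, Pi.one_apply]
      simp [Cfsg.Agent.Lib.HermCount.nrm]
  have hdetM : (Dm q (vE α) (wE α β) a b * Matrix.diagonal d).det = 1 := by
    rw [Matrix.det_mul, Dm_det hF hv hw hvw, Matrix.det_diagonal]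
    have h1 : ∏ l, d l = ν := by
      rw [Finset.prod_eq_single (2 : Fin (1 + 2))]
      · simp [d]
      · intro l _ hl
        simp [d, Function.update_of_ne hl]
      · simp
    rw [h1]
    exact hdet
  have hiso : ∀ x y : Fin (1 + 2) → F, hermForm (1 + 2) F q ((Dm q (vE α) (wE α β) a b * Matrix.diagonal d) *ᵥ x)
      ((Dm q (vE α) (wE α β) a b * Matrix.diagonal d) *ᵥ y) = hermForm (1 + 2) F q x y := by
    intro x y
    rw [← Matrix.mulVec_mulVec, ← Matrix.mulVec_mulVec, Dm_unitary hF hv hw hvw hab hba, diagonal_unitary hd]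
  have hdx : ∀ x : Fin (1 + 2) → F, x 2 = 0 → Matrix.diagonal d *ᵥ x = x := by
    intro x hx
    funext l
    rw [Matrix.mulVec_diagonal]
    by_cases hl : l = 2
    · subst hl
      rw [hx, mul_zero]
    · simp [d, Function.update_of_ne hl]
  refine ⟨SUofMatrix _ hdetM hiso, ha, hν0, hν, ?_, ?_⟩
  · change (Dm q (vE α) (wE α β) a b * Matrix.diagonal d) *ᵥ vE α = a • vE α
    have hv2 : vE (e := 1) α 2 = 0 := by
      show vv α 0 1 2 = 0
      exact vv_other (by decide) (by decide)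
    rw [← Matrix.mulVec_mulVec, hdx _ hv2, Dm_mulVec, hvw, hv]
    simp only [mul_one, mul_zero, zero_smul, add_zero]
    module
  · intro u
    change (Dm q (vE α) (wE α β) a b * Matrix.diagonal d) *ᵥ inc u = inc (ν • u)
    have h1 : Matrix.diagonal d *ᵥ inc u = inc (ν • u) := by
      funext k
      rw [Matrix.mulVec_diagonal]
      refine Fin.cases ?_ (fun j => ?_) k
      · simp [inc]
      · refine Fin.cases ?_ (fun t => ?_) j
        · simp [inc]
        · have ht : t = 0 := Subsingleton.elim _ _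
          subst ht
          show d 2 * u 0 = ν * u 0
          simp [d]
    rw [← Matrix.mulVec_mulVec, h1, Dm_mulVec, inc_wE hF, inc_vE hF]
    simp

omit hα hβ in
/-- An element scaling an isotropic vector and acting by a non-real scalar on its orthogonal quotient. -/
theorem exists_scale3 {x y₀ : Fin (1 + 2) → F} (hx : hermForm (1 + 2) F q x x = 0) (hx0 : x ≠ 0)
    (hy : hermForm (1 + 2) F q y₀ x = 0) :
    ∃ (d : SU (1 + 2) F q) (ν c t : F), ν * ν ^ q = 1 ∧ ν ^ 2 ≠ 1 ∧ c ≠ 0 ∧ act d x = c • x ∧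
      act d y₀ = ν • y₀ + t • x := by
  have hq := two_le hF
  obtain ⟨α, hα0, hα⟩ := SUGen.exists_norm hF (-1 : F) (neg_ne_zero.2 one_ne_zero) (by
    rw [neg_pow_q hF, one_pow])
  have hα' : α ^ q * α = -1 := by rw [mul_comm]; exact hα
  obtain ⟨β, hβ⟩ : ∃ b : F, b + b ^ q = -1 :=
    exists_trace_eq hF (t := -1) (by rw [neg_pow_q hF, one_pow])
  obtain ⟨a, ν, ha0, hν, hν2, hdet⟩ := exists_a_nu hF
  obtain ⟨D, hD⟩ := exists_D1 hF hα' hβ ha0 hν hdet
  obtain ⟨g, hg⟩ := exists_act_eq hF (n := 1 + 2) (by norm_num) hx hx0 (vE_iso hF hα') (vE_ne hF hα')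
  have h1 : hermForm (1 + 2) F q (act g y₀) (vE α) = 0 := by
    rw [← hg, herm_act]
    exact hy
  have h3 := mk3_eq hF hα' hβ (act g y₀)
  rw [h1] at h3
  set p := hermForm (1 + 2) F q (act g y₀) (wE α β) with hp
  set u := rest α β q (act g y₀) with hu
  have h4 : act g y₀ = p • vE α + inc u := by
    rw [h3]
    unfold mk3
    simp
  have hgx : act g⁻¹ (vE α) = x := by
    rw [← hg, act_inv_act hF]
  have h5 : act g⁻¹ (inc u) = y₀ - p • x := by
    have h7 : act g⁻¹ (p • vE α + inc u) = y₀ := by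
      rw [← h4, act_inv_act hF]
    rw [act_add, act_smul, hgx] at h7
    rw [← h7]
    abel
  refine ⟨g⁻¹ * D * g, ν, a, p * a - ν * p, hν, hν2, ha0, ?_, ?_⟩
  · rw [act_mul, act_mul, hg, hD.hv, act_smul, hgx]
  · rw [act_mul, act_mul, h4, act_add, act_smul, hD.hv, hD.hi, act_add, act_smul, act_smul, hgx, inc_smul, act_smul,
      h5]
    module

end Torus3

section LBor

variable (hF : Fintype.card F = q ^ 2)
include hF

/-- A subgroup preserving a real `Y` is not the whole line stabiliser. -/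
theorem L_ne_Bor {Y : AddSubgroup (Fin 3 → F)} {L : Subgroup (SU 3 F q)}
    (hκ : ∀ y ∈ Y, ∀ y' ∈ Y, hermForm 3 F q y y' = hermForm 3 F q y' y)
    (hL : ∀ l ∈ L, ∀ y ∈ Y, act l y ∈ Y) {x : Fin 3 → F} (hx0 : x ≠ 0)
    (hxx : hermForm 3 F q x x = 0) (hperp : ∀ y ∈ Y, hermForm 3 F q y x = 0)
    (hbig : q ^ 2 < Nat.card Y) : L ≠ BorN x := by
  classical
  intro hEq
  have hex : ∃ y₀ ∈ Y, ∀ c : F, y₀ ≠ c • x := by
    by_contra hcon
    push Not at hcon
    have hch : ∀ y : Y, ∃ c : F, y.1 = c • x := fun y => hcon y.1 y.2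
    choose f hf using hch
    have h1 : Nat.card Y ≤ Nat.card F := by
      refine Nat.card_le_card_of_injective f ?_
      intro y y' h
      apply Subtype.ext
      rw [hf y, hf y', h]
    rw [Nat.card_eq_fintype_card (α := F), hF] at h1
    omega
  obtain ⟨y₀, hy₀, hne⟩ := hex
  have hy₀x := hperp y₀ hy₀
  have hxy₀ : hermForm 3 F q x y₀ = 0 := herm_zero_of_conj hF hy₀x
  have hN : hermForm 3 F q y₀ y₀ ≠ 0 := by
    intro h0
    obtain ⟨c, hc⟩ := witt3 hF (x := x) (w := y₀) hxx hx0 h0 hy₀x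
    exact hne c hc
  obtain ⟨d, ν, c, t, hν, hν2, hc0, hdx, hdy⟩ := exists_scale3 hF (x := x) (y₀ := y₀) hxx hx0 hy₀x
  have hd : d ∈ L := by
    rw [hEq]
    exact ⟨c, hc0, hdx⟩
  have hm := hL d hd y₀ hy₀
  have h1 := hκ _ hm y₀ hy₀
  have hdy' : act d y₀ = ν • y₀ + t • x := hdy
  rw [hdy', hermForm_add_left, hermForm_smul_left, hermForm_smul_left, hxy₀, hermForm_add_right hF,
    hermForm_smul_right, hermForm_smul_right, hy₀x] at h1
  have h2 : (ν - ν ^ q) * hermForm 3 F q y₀ y₀ = 0 := by linear_combination h1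
  have h3 : ν = ν ^ q := sub_eq_zero.1 ((mul_eq_zero.1 h2).resolve_right hN)
  apply hν2
  rw [pow_two]
  nth_rewrite 2 [h3]
  exact hν

/-- Mixtures of elements of `Y` with a rational coefficient. -/
def mixAdd (Y : AddSubgroup (Fin e → F)) (t : F) : AddSubgroup (Fin e → F) where
  carrier := {z | ∃ y ∈ Y, ∃ y' ∈ Y, z = y + t • y'}
  add_mem' := by
    rintro _ _ ⟨y, hy, y', hy', rfl⟩ ⟨u, hu, u', hu', rfl⟩
    refine ⟨y + u, Y.add_mem hy hu, y' + u', Y.add_mem hy' hu', ?_⟩
    rw [smul_add]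
    abel
  zero_mem' := ⟨0, Y.zero_mem, 0, Y.zero_mem, by simp⟩
  neg_mem' := by
    rintro _ ⟨y, hy, y', hy', rfl⟩
    refine ⟨-y, Y.neg_mem hy, -y', Y.neg_mem hy', ?_⟩
    rw [smul_neg]
    abel

/-- A maximal real `Y` is closed under rational scalars. -/
theorem Fq_closed {Y : AddSubgroup (Fin e → F)}
    (hκ : ∀ y ∈ Y, ∀ y' ∈ Y, hermForm e F q y y' = hermForm e F q y' y) (hr : q ^ e ≤ Nat.card Y)
    {t : F} (ht : t ^ q = t) {y : Fin e → F} (hy : y ∈ Y) : t • y ∈ Y := by
  classical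
  obtain ⟨c₁, hc₁0, hc₁⟩ := SUGen.exists_trace_zero hF
  have hB : ∀ z ∈ mixAdd Y t, ∀ z' ∈ mixAdd Y t, hermForm e F q z' z - hermForm e F q z z' ∈ (⊥ : AddSubgroup F) := by
    rintro _ ⟨u, hu, u', hu', rfl⟩ _ ⟨w, hw, w', hw', rfl⟩
    rw [AddSubgroup.mem_bot]
    simp only [hermForm_add_left, hermForm_add_right hF, hermForm_smul_left, hermForm_smul_right, ht]
    rw [hκ w hw u hu, hκ w hw u' hu', hκ w' hw' u hu, hκ w' hw' u' hu']
    ring
  have hr2 := card_sq_le_top hF hc₁ (Z := ⊥) (by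
    rw [AddSubgroup.mem_bot]
    exact hc₁0) hB
  have hle : Y ≤ mixAdd Y t := fun u hu => ⟨u, hu, 0, Y.zero_mem, by simp⟩
  have hcard : Nat.card (mixAdd Y t) ≤ Nat.card Y := by
    have h1 : Nat.card (mixAdd Y t) ≤ q ^ e := by
      by_contra hcon
      push Not at hcon
      have h5 : (q ^ e) ^ 2 < Nat.card (mixAdd Y t) ^ 2 := Nat.pow_lt_pow_left hcon (by norm_num)
      have h6 : (q ^ e) ^ 2 = (q ^ 2) ^ e := by ring
      omega
    omega
  have hEq : Y = mixAdd Y t := AddSubgroup.eq_of_le_of_card_ge hle hcard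
  rw [hEq]
  exact ⟨0, Y.zero_mem, y, hy, by simp⟩

end LBor

section Level

variable (hF : Fintype.card F = q ^ 2)

omit [Fintype F] in
lemma roots_two_aux [Finite F] {A B C : F} (hA : A ≠ 0) : Nat.card {t : F // A * t ^ 2 + B * t + C = 0} ≤ 2 := by
  classical
  haveI := Fintype.ofFinite F
  by_contra hcon
  push Not at hcon
  rw [Nat.card_eq_fintype_card, Fintype.card_subtype] at hcon
  obtain ⟨a, b, c, ha, hb, hc, hab, hac, hbc⟩ := Finset.two_lt_card_iff.1 hcon
  simp only [Finset.mem_filter, Finset.mem_univ, true_and] at ha hb hc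
  have h1 : (a - b) * (A * (a + b) + B) = 0 := by linear_combination ha - hb
  have h2 : (a - c) * (A * (a + c) + B) = 0 := by linear_combination ha - hc
  have h3 := (mul_eq_zero.1 h1).resolve_left (sub_ne_zero.2 hab)
  have h4 := (mul_eq_zero.1 h2).resolve_left (sub_ne_zero.2 hac)
  have h5 : A * (b - c) = 0 := by linear_combination h3 - h4
  exact hbc (sub_eq_zero.1 ((mul_eq_zero.1 h5).resolve_left hA))

omit [Fintype F] in
lemma roots_one_aux [Finite F] (h2 : (2 : F) = 0) {A B C : F} (hA : A ≠ 0) (hB : B = 0) :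
    Nat.card {t : F // A * t ^ 2 + B * t + C = 0} ≤ 1 := by
  classical
  haveI := Fintype.ofFinite F
  by_contra hcon
  push Not at hcon
  rw [Nat.card_eq_fintype_card, Fintype.card_subtype] at hcon
  obtain ⟨a, b, ha, hb, hab⟩ := Finset.one_lt_card_iff.1 hcon
  simp only [Finset.mem_filter, Finset.mem_univ, true_and] at ha hb
  rw [hB] at ha hb
  have h1 : A * ((a - b) * (a - b)) = 0 := by
    linear_combination ha - hb + (-A * b * (a - b)) * h2
  have h3 := (mul_eq_zero.1 h1).resolve_left hA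
  exact hab (sub_eq_zero.1 (mul_self_eq_zero.1 h3))

include hF

/-- The map to the roots of a quadratic. -/
theorem level_fibre {Y : AddSubgroup (Fin e → F)}
    (hκ : ∀ y ∈ Y, ∀ y' ∈ Y, hermForm e F q y y' = hermForm e F q y' y)
    (hcl : ∀ t : F, t ^ q = t → ∀ y ∈ Y, t • y ∈ Y) {a : Fin e → F} (ha : a ∈ Y) (N₀ : F)
    {n₀ : ℕ} (hroots : ∀ w : Fin e → F, Nat.card {t : F // hermForm e F q a a * t ^ 2 +
      (-2 * hermForm e F q w a) * t + (hermForm e F q w w - N₀) = 0} ≤ n₀) :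
    Nat.card {y : Y // hermForm e F q y.1 y.1 = N₀} * q ≤ n₀ * Nat.card Y := by
  classical
  have hfix := Cfsg.Agent.Lib.HermLines.card_fixed hF
  have h0 : Nat.card ({y : Y // hermForm e F q y.1 y.1 = N₀} × {c : F // c ^ q = c}) ≤ n₀ * Nat.card Y := by
    refine card_le_mul_fibres (fun p => (⟨p.1.1.1 + p.2.1 • a, Y.add_mem p.1.1.2 (hcl p.2.1 p.2.2 a ha)⟩ : Y)) n₀ ?_
    rintro ⟨w, hw⟩
    refine le_trans ?_ (hroots w)
    refine Nat.card_le_card_of_injective (fun p => ⟨p.1.2.1, ?_⟩) ?_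
    · obtain ⟨⟨y, t⟩, hp⟩ := p
      have h1 : y.1.1 + t.1 • a = w := congrArg Subtype.val hp
      have h2 : y.1.1 = w - t.1 • a := by rw [← h1]; abel
      have h3 := y.2
      rw [h2] at h3
      have ht := t.2
      show hermForm e F q a a * t.1 ^ 2 + (-2 * hermForm e F q w a) * t.1 + (hermForm e F q w w - N₀) = 0
      have hwa := hκ w hw a ha
      simp only [hermForm_sub_left, hermForm_sub_right hF, hermForm_smul_left, hermForm_smul_right, ht, ← hwa] at h3
      linear_combination h3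
    · rintro ⟨⟨y, t⟩, hp⟩ ⟨⟨y', t'⟩, hp'⟩ h
      have h1 : y.1.1 + t.1 • a = w := congrArg Subtype.val hp
      have h2 : y'.1.1 + t'.1 • a = w := congrArg Subtype.val hp'
      have h3 : t.1 = t'.1 := by
        have := congrArg Subtype.val h
        exact this
      have h4 : t = t' := Subtype.ext h3
      subst h4
      have h5 : y.1.1 = y'.1.1 := add_right_cancel (h1.trans h2.symm)
      have h6 : y = y' := Subtype.ext (Subtype.ext h5)
      subst h6
      rfl
  rw [Nat.card_prod, hfix] at h0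
  exact h0

end Level

section Tri

variable (hF : Fintype.card F = q ^ 2)
include hF

/-- The structure of a non-zero additive subgroup of the natural module. -/
theorem trichotomy {Y : AddSubgroup (Fin 3 → F)} (hY : ∃ y ∈ Y, y ≠ 0) :
    (∃ a ∈ Y, ∃ b ∈ Y, hermForm 3 F q a a ≠ 0 ∧
      hermForm 3 F q a a * hermForm 3 F q b b ≠ hermForm 3 F q a b * hermForm 3 F q b a) ∨
    (∃ x ∈ Y, x ≠ 0 ∧ hermForm 3 F q x x = 0 ∧ ∀ y ∈ Y, hermForm 3 F q y x = 0) ∨
    Nat.card Y ≤ q ^ 2 := by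
  classical
  have hq := two_le hF
  by_contra hcon
  push Not at hcon
  obtain ⟨hT1, hT2, hT3⟩ := hcon
  have hz : ∀ {u : F}, u * u ^ q = 0 → u = 0 := by
    intro u h
    rcases mul_eq_zero.1 h with h1 | h1
    · exact h1
    · exact (pow_eq_zero_iff (by omega)).1 h1
  by_cases hani : ∃ a ∈ Y, hermForm 3 F q a a ≠ 0
  · obtain ⟨a, ha, hNa⟩ := hani
    have key : ∀ a' ∈ Y, hermForm 3 F q a' a' ≠ 0 → ∀ b ∈ Y, hermForm 3 F q b b = 0 → hermForm 3 F q b a' = 0 := by
      intro a' ha' hN' b hb hbb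
      have h1 := hT1 a' ha' b hb hN'
      rw [hbb, mul_zero, ← hermForm_conj hF b a', mul_comm] at h1
      exact hz h1.symm
    have key' : ∀ b ∈ Y, hermForm 3 F q b a = 0 → hermForm 3 F q b b = 0 := by
      intro b hb hba
      have h1 := hT1 a ha b hb hNa
      rw [hba, mul_zero] at h1
      exact (mul_eq_zero.1 h1).resolve_left hNa
    by_cases hiso : ∃ x ∈ Y, x ≠ 0 ∧ hermForm 3 F q x x = 0
    · obtain ⟨x, hx, hx0, hxx⟩ := hiso
      obtain ⟨y, hy, hyx⟩ := hT2 x hx hx0 hxx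
      apply hyx
      by_cases hNy : hermForm 3 F q y y = 0
      · have hya := key a ha hNa y hy hNy
        have hay : hermForm 3 F q a y = 0 := herm_zero_of_conj hF hya
        have hN : hermForm 3 F q (y + a) (y + a) ≠ 0 := by
          rw [hermForm_add_left, hermForm_add_right hF, hermForm_add_right hF, hNy, hya, hay]
          simpa using hNa
        have h1 := key (y + a) (Y.add_mem hy ha) hN x hx hxx
        have h2 := key a ha hNa x hx hxx
        have h3 : hermForm 3 F q a x = 0 := herm_zero_of_conj hF h2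
        have h4 : hermForm 3 F q (y + a) x = 0 := herm_zero_of_conj hF h1
        rw [hermForm_add_left, h3, add_zero] at h4
        exact h4
      · have h1 := key y hy hNy x hx hxx
        exact herm_zero_of_conj hF h1
    · push Not at hiso
      have : Nat.card Y ≤ Nat.card F := by
        refine Nat.card_le_card_of_injective (fun y : Y => hermForm 3 F q y.1 a) ?_
        intro y y' h
        have h1 : hermForm 3 F q y.1 a = hermForm 3 F q y'.1 a := h
        have h2 : hermForm 3 F q (y.1 - y'.1) a = 0 := by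
          rw [hermForm_sub_left, h1, sub_self]
        have h3 := key' _ (Y.sub_mem y.2 y'.2) h2
        by_contra hne
        have h4 : y.1 - y'.1 ≠ 0 := by
          intro h5
          apply hne
          exact Subtype.ext (sub_eq_zero.1 h5)
        exact hiso _ (Y.sub_mem y.2 y'.2) h4 h3
      rw [Nat.card_eq_fintype_card (α := F), hF] at this
      omega
  · push Not at hani
    obtain ⟨x, hx, hx0⟩ := hY
    obtain ⟨y₀, hy₀, hy₀x⟩ := hT2 x hx hx0 (hani x hx)
    have htr : ∀ y ∈ Y, ∀ y' ∈ Y, hermForm 3 F q y y' + hermForm 3 F q y y' ^ q = 0 := by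
      intro y hy y' hy'
      have h1 := hani _ (Y.add_mem hy hy')
      rw [hermForm_add_left, hermForm_add_right hF, hermForm_add_right hF, hani y hy, hani y' hy',
        ← hermForm_conj hF y y'] at h1
      linear_combination h1
    have hcard : Nat.card (Tz hF × Tz hF) = q ^ 2 := by
      rw [Nat.card_prod, Nat.card_eq_fintype_card, card_Tz hF]
      ring
    have : Nat.card Y ≤ Nat.card (Tz hF × Tz hF) := by
      refine Nat.card_le_card_of_injective (fun y : Y => ((⟨hermForm 3 F q y.1 x, htr _ y.2 _ hx⟩ : Tz hF),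
        (⟨hermForm 3 F q y.1 y₀, htr _ y.2 _ hy₀⟩ : Tz hF))) ?_
      intro y y' h
      have h1 : hermForm 3 F q y.1 x = hermForm 3 F q y'.1 x := congrArg (fun p => p.1.1) h
      have h2 : hermForm 3 F q y.1 y₀ = hermForm 3 F q y'.1 y₀ := congrArg (fun p => p.2.1) h
      have h3 : hermForm 3 F q (y.1 - y'.1) x = 0 := by rw [hermForm_sub_left, h1, sub_self]
      have h4 : hermForm 3 F q (y.1 - y'.1) y₀ = 0 := by rw [hermForm_sub_left, h2, sub_self]
      obtain ⟨c, hc⟩ := witt3 hF (x := x) (w := y.1 - y'.1) (hani x hx) hx0 (hani _ (Y.sub_mem y.2 y'.2)) h3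
      have hc' : y.1 - y'.1 = c • x := hc
      rw [hc', hermForm_smul_left] at h4
      have h5 : hermForm 3 F q x y₀ ≠ 0 := by
        intro h0
        exact hy₀x (herm_zero_of_conj hF h0)
      have h6 : c = 0 := (mul_eq_zero.1 h4).resolve_right h5
      rw [h6, zero_smul] at hc'
      exact Subtype.ext (sub_eq_zero.1 hc')
    rw [hcard] at this
    omega

/-- The order of an additive subgroup is a power of the characteristic. -/
theorem card_dichotomy {Y : AddSubgroup (Fin 3 → F)} (hr : Nat.card Y ≤ q ^ 3) :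
    Nat.card Y = q ^ 3 ∨ 2 * Nat.card Y ≤ q ^ 3 := by
  classical
  have hq := two_le hF
  obtain ⟨p, hp⟩ := CharP.exists F
  haveI hpp : Fact p.Prime := ⟨CharP.char_is_prime F p⟩
  obtain ⟨n, hn, hc⟩ := FiniteField.card F p
  have hc' : (p : ℕ) ^ (n : ℕ) = q ^ 2 := by rw [← hc, hF]
  have h1 : q ∣ p ^ (n : ℕ) := by
    rw [hc']
    exact dvd_pow_self q (by norm_num)
  obtain ⟨f, -, rfl⟩ := (Nat.dvd_prime_pow hpp.out).1 h1
  have h2 : Nat.card Y ∣ Nat.card (Fin 3 → F) := AddSubgroup.card_addSubgroup_dvd_card Y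
  have h3 : Nat.card (Fin 3 → F) = p ^ (f * 6) := by
    rw [Nat.card_eq_fintype_card, Fintype.card_fun, hF, Fintype.card_fin]
    ring
  rw [h3] at h2
  obtain ⟨k, -, hk⟩ := (Nat.dvd_prime_pow hpp.out).1 h2
  rw [hk] at hr ⊢
  have h4 : (p ^ f) ^ 3 = p ^ (f * 3) := by ring
  rw [h4] at hr ⊢
  by_cases hk3 : k = f * 3
  · left
    rw [hk3]
  · right
    have hp2 : 2 ≤ p := hpp.out.two_le
    have hk4 : k < f * 3 := by
      by_contra hcon
      push Not at hcon
      have : f * 3 < k := by omega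
      have h5 : p ^ (f * 3) < p ^ k := Nat.pow_lt_pow_right (by omega) this
      omega
    calc 2 * p ^ k ≤ p * p ^ k := Nat.mul_le_mul_right _ hp2
      _ = p ^ (k + 1) := by ring
      _ ≤ p ^ (f * 3) := Nat.pow_le_pow_right (by omega) hk4

end Tri

end Cfsg.Agent.Lib.PSUIdx
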