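import Mathlib
import Cfsg.Agent.Lib.CharKernel
import Cfsg.Agent.Lib.CharCentral
import Cfsg.Agent.Lib.BlockIdem
import Cfsg.Agent.Lib.CharCoprime
import Cfsg.Agent.Lib.Clifford
import Cfsg.Agent.Lib.PDegKernel71b
import Cfsg.Agent.Lib.PSolv
import Cfsg.Agent.Lib.PCore
import Cfsg.Agent.Lib.DegreeDiv

/-!
# Characters over a central character, all of degree prime to `p`

The key claim for the derived length of a Sylow subgroup of a `p`-solvable group: if `Z` is a central
`p`-subgroup of `X`, and `λ` a faithful linear character of `Z` such that all the irreducible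
characters of `X` over `λ` have degree prime to `p`, then the Sylow `p`-subgroups of `X` are normal
and abelian.
-/

set_option autoImplicit false
set_option linter.unusedVariables false
set_option linter.unusedSectionVars false
set_option linter.style.haveILetI false
set_option linter.unusedSimpArgs false

namespace Cfsg.Agent.Lib.PSingCount

open Cfsg Cfsg.Agent.Lib.CharBasic Cfsg.Agent.Lib.CharInduction Cfsg.Agent.Lib.CharInd
open Cfsg.Agent.Lib.CharKernel Cfsg.Agent.Lib.PCore Cfsg.Agent.Lib.PSolv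
open scoped ComplexConjugate commutatorElement

universe u v

section Over

variable {X : Type u} {Z : Type v} [Group X] [Group Z] (ι : Z →* X) (lam : Z →* ℂˣ)

/-- `χ` lies over `lam`. -/
def IsOver (χ : X → ℂ) : Prop := ∀ z, χ (ι z) = χ 1 * ((lam z : ℂˣ) : ℂ)

variable [Fintype X] [Fintype Z]

/-- The character `z ↦ χ(ι z)/χ(1) * (lam z)⁻¹`. -/
noncomputable def ratioHom {χ : X → ℂ} (hχ : IsIrrCharacter X χ) (hc : ∀ z x, ι z * x = x * ι z) : Z →* ℂ where
  toFun z := χ (ι z) / χ 1 * (((lam z)⁻¹ : ℂˣ) : ℂ)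
  map_one' := by
    have h0 := Cfsg.Agent.Lib.BlockIdem.irr_one_ne_zero' hχ
    simp [h0]
  map_mul' a b := by
    have h0 := Cfsg.Agent.Lib.BlockIdem.irr_one_ne_zero' hχ
    have h1 := Cfsg.Agent.Lib.CharCentral.central_mul hχ (hc a) (ι b)
    rw [map_mul, map_mul, mul_inv, Units.val_mul]
    field_simp
    linear_combination h1

theorem ratioHom_eq_one {χ : X → ℂ} (hχ : IsIrrCharacter X χ) (hc : ∀ z x, ι z * x = x * ι z) :
    ratioHom ι lam hχ hc = 1 ↔ IsOver ι lam χ := by
  have h0 := Cfsg.Agent.Lib.BlockIdem.irr_one_ne_zero' hχ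
  constructor
  · intro h z
    have h1 := DFunLike.congr_fun h z
    simp only [ratioHom, MonoidHom.mk'_apply, MonoidHom.one_apply, OneHom.toFun_eq_coe, OneHom.coe_mk, MonoidHom.coe_mk] at h1
    have h2 : ((lam z : ℂˣ) : ℂ) * (((lam z)⁻¹ : ℂˣ) : ℂ) = 1 := by simp
    field_simp at h1
    have h3 : (((lam z)⁻¹ : ℂˣ) : ℂ) = ((lam z : ℂˣ) : ℂ)⁻¹ := by simp
    rw [h3] at h1
    field_simp at h1
    linear_combination h1
  · intro h
    ext z
    simp only [ratioHom, MonoidHom.mk'_apply, MonoidHom.one_apply, OneHom.toFun_eq_coe, OneHom.coe_mk, MonoidHom.coe_mk]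
    rw [h z]
    simp [h0]

open scoped Classical in
/-- The projection onto the part over `lam`. -/
theorem sum_lam_inv {χ : X → ℂ} (hχ : IsIrrCharacter X χ) (hc : ∀ z x, ι z * x = x * ι z) :
    ∑ z : Z, (((lam z)⁻¹ : ℂˣ) : ℂ) * χ (ι z) = if IsOver ι lam χ then (Fintype.card Z : ℂ) * χ 1 else 0 := by
  have h0 := Cfsg.Agent.Lib.BlockIdem.irr_one_ne_zero' hχ
  have h1 : ∀ z : Z, (((lam z)⁻¹ : ℂˣ) : ℂ) * χ (ι z) = χ 1 * ratioHom ι lam hχ hc z := by
    intro z
    simp only [ratioHom, MonoidHom.mk'_apply, OneHom.toFun_eq_coe, OneHom.coe_mk, MonoidHom.coe_mk]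
    field_simp
  simp only [h1]
  rw [← Finset.mul_sum, sum_hom_units]
  by_cases h : IsOver ι lam χ
  · rw [if_pos ((ratioHom_eq_one ι lam hχ hc).mpr h), if_pos h]
    ring
  · rw [if_neg (fun h2 => h ((ratioHom_eq_one ι lam hχ hc).mp h2)), if_neg h]
    simp

open scoped Classical in
theorem sum_over_formula (hc : ∀ z x, ι z * x = x * ι z) (x : X) :
    (Fintype.card Z : ℂ) * ∑ χ : IrrCharacter X, (if IsOver ι lam (χ : X → ℂ) then (χ : X → ℂ) 1 * (χ : X → ℂ) x else 0) =
      (Nat.card X : ℂ) * ∑ z : Z, if ι z * x = 1 then (((lam z)⁻¹ : ℂˣ) : ℂ) else 0 := by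
  have h1 : ∑ z : Z, (((lam z)⁻¹ : ℂˣ) : ℂ) * ∑ χ : IrrCharacter X, (χ : X → ℂ) 1 * (χ : X → ℂ) (ι z * x) =
      (Nat.card X : ℂ) * ∑ z : Z, if ι z * x = 1 then (((lam z)⁻¹ : ℂˣ) : ℂ) else 0 := by
    rw [Finset.mul_sum]
    refine Finset.sum_congr rfl fun z _ => ?_
    rw [sum_irr_deg_mul]
    split_ifs <;> ring
  rw [← h1]
  have h2 : ∀ (z : Z) (χ : IrrCharacter X), (χ : X → ℂ) 1 * (χ : X → ℂ) (ι z * x) = (χ : X → ℂ) (ι z) * (χ : X → ℂ) x :=
    fun z χ => Cfsg.Agent.Lib.CharCentral.central_mul χ.2 (hc z) x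
  simp only [h2, Finset.mul_sum]
  rw [Finset.sum_comm]
  refine Finset.sum_congr rfl fun χ _ => ?_
  have h3 := sum_lam_inv ι lam χ.2 hc
  calc (Fintype.card Z : ℂ) * (if IsOver ι lam (χ : X → ℂ) then (χ : X → ℂ) 1 * (χ : X → ℂ) x else 0)
      = (if IsOver ι lam (χ : X → ℂ) then (Fintype.card Z : ℂ) * (χ : X → ℂ) 1 else 0) * (χ : X → ℂ) x := by
        split_ifs <;> ring
    _ = (∑ z : Z, (((lam z)⁻¹ : ℂˣ) : ℂ) * (χ : X → ℂ) (ι z)) * (χ : X → ℂ) x := by rw [h3]
    _ = _ := by
        rw [Finset.sum_mul]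
        refine Finset.sum_congr rfl fun z _ => ?_
        ring

open scoped Classical in
/-- The elements in the kernels of all characters over `lam` are trivial. -/
theorem eq_one_of_forall_over (hc : ∀ z x, ι z * x = x * ι z) (hinj : Function.Injective ι)
    (hlam : Function.Injective lam) {x : X}
    (hx : ∀ χ : IrrCharacter X, IsOver ι lam (χ : X → ℂ) → (χ : X → ℂ) x = (χ : X → ℂ) 1) : x = 1 := by
  have hX : (Nat.card X : ℂ) ≠ 0 := by exact_mod_cast Nat.card_pos.ne'
  have h1 := sum_over_formula ι lam hc x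
  have h2 := sum_over_formula ι lam hc (1 : X)
  have h3 : ∑ χ : IrrCharacter X, (if IsOver ι lam (χ : X → ℂ) then (χ : X → ℂ) 1 * (χ : X → ℂ) x else 0) =
      ∑ χ : IrrCharacter X, (if IsOver ι lam (χ : X → ℂ) then (χ : X → ℂ) 1 * (χ : X → ℂ) 1 else 0) := by
    refine Finset.sum_congr rfl fun χ _ => ?_
    split_ifs with h
    · rw [hx χ h]
    · rfl
  rw [h3, h2] at h1
  have h4 := mul_left_cancel₀ hX h1
  have h5 : ∑ z : Z, (if ι z * 1 = 1 then (((lam z)⁻¹ : ℂˣ) : ℂ) else 0) = 1 := by
    rw [Finset.sum_eq_single 1]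
    · simp
    · intro b _ hb
      rw [if_neg]
      intro h
      rw [mul_one] at h
      exact hb (hinj (h.trans (map_one ι).symm))
    · intro h
      exact absurd (Finset.mem_univ _) h
  rw [h5] at h4
  by_contra hx1
  -- the sum on the right is `1`, so there is a term
  have h6 : ∃ z, ι z * x = 1 := by
    by_contra hcon
    push Not at hcon
    have : ∑ z : Z, (if ι z * x = 1 then (((lam z)⁻¹ : ℂˣ) : ℂ) else 0) = 0 :=
      Finset.sum_eq_zero fun z _ => if_neg (hcon z)
    rw [this] at h4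
    exact one_ne_zero h4
  obtain ⟨z₀, hz₀⟩ := h6
  have h7 : ∑ z : Z, (if ι z * x = 1 then (((lam z)⁻¹ : ℂˣ) : ℂ) else 0) = (((lam z₀)⁻¹ : ℂˣ) : ℂ) := by
    rw [Finset.sum_eq_single z₀]
    · rw [if_pos hz₀]
    · intro b _ hb
      rw [if_neg]
      intro h
      apply hb
      apply hinj
      exact mul_right_cancel (h.trans hz₀.symm)
    · intro h
      exact absurd (Finset.mem_univ _) h
  rw [h7] at h4
  have h8 : (lam z₀)⁻¹ = 1 := Units.ext (by simpa using h4)
  have h9 : lam z₀ = 1 := inv_eq_one.mp h8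
  have h10 : z₀ = 1 := hlam (h9.trans (map_one lam).symm)
  rw [h10, map_one, one_mul] at hz₀
  exact hx1 hz₀

open scoped Classical in
/-- There is a character over `lam`. -/
theorem exists_over_lam (hc : ∀ z x, ι z * x = x * ι z) (hinj : Function.Injective ι) :
    ∃ χ : IrrCharacter X, IsOver ι lam (χ : X → ℂ) := by
  have hX : (Nat.card X : ℂ) ≠ 0 := by exact_mod_cast Nat.card_pos.ne'
  by_contra hcon
  push Not at hcon
  have h2 := sum_over_formula ι lam hc (1 : X)
  have h3 : ∑ χ : IrrCharacter X, (if IsOver ι lam (χ : X → ℂ) then (χ : X → ℂ) 1 * (χ : X → ℂ) 1 else 0) = 0 :=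
    Finset.sum_eq_zero fun χ _ => if_neg (hcon χ)
  rw [h3, mul_zero] at h2
  have h5 : ∑ z : Z, (if ι z * 1 = 1 then (((lam z)⁻¹ : ℂˣ) : ℂ) else 0) = 1 := by
    rw [Finset.sum_eq_single 1]
    · simp
    · intro b _ hb
      rw [if_neg]
      intro h
      rw [mul_one] at h
      exact hb (hinj (h.trans (map_one ι).symm))
    · intro h
      exact absurd (Finset.mem_univ _) h
  rw [h5, mul_one] at h2
  exact hX h2.symm

open scoped Classical in
/-- A character of a subgroup meeting `Z` trivially lies under a character over `lam`. -/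
theorem exists_over_both (hc : ∀ z x, ι z * x = x * ι z) (hinj : Function.Injective ι) (Y : Subgroup X) [Fintype Y]
    (hY : ∀ z, ι z ∈ Y → z = 1) {β : Y → ℂ} (hβ : IsIrrCharacter Y β) :
    ∃ χ : IrrCharacter X, IsOver ι lam (χ : X → ℂ) ∧ classInner (fun y : Y => (χ : X → ℂ) y) β ≠ 0 := by
  by_contra hcon
  push Not at hcon
  set τ := indFun Y β with hτ
  have hτc : IsCharacter X τ := indFun_isCharacter Y (IsIrrCharacter.isCharacter hβ)
  obtain ⟨m, hm⟩ := exists_nat_decomp hτc
  have h1 : ∑ z : Z, (((lam z)⁻¹ : ℂˣ) : ℂ) * τ (ι z) = τ 1 := by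
    rw [Finset.sum_eq_single 1]
    · simp
    · intro z _ hz
      have h2 : τ (ι z) = 0 := by
        apply indFun_eq_zero_of_not_conj
        intro x
        have h3 : x⁻¹ * ι z * x = ι z := by
          rw [mul_assoc, hc z x]
          group
        rw [h3]
        exact fun h => hz (hY z h)
      rw [h2, mul_zero]
    · intro h
      exact absurd (Finset.mem_univ _) h
  have h3 : ∀ i : IrrCharacter X, IsOver ι lam (i : X → ℂ) → m i = 0 := by
    intro i hi
    have h4 := hcon i hi
    have h5 : classInner τ (i : X → ℂ) = classInner β (fun y : Y => (i : X → ℂ) y) :=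
      frobenius Y β (isClassFunction_of_isCharacter (IsIrrCharacter.isCharacter i.2))
    have h6 : classInner β (fun y : Y => (i : X → ℂ) y) = 0 := by
      rw [← classInner_conj_symm, h4, map_zero]
    rw [h6, hm, Cfsg.Agent.Lib.CharBasic.classInner_sum_left] at h5
    have h7 : ∑ j : IrrCharacter X, classInner (m j • (j : X → ℂ)) (i : X → ℂ) = (m i : ℂ) := by
      rw [Finset.sum_eq_single i]
      · rw [show (m i • (i : X → ℂ)) = (m i : ℂ) • (i : X → ℂ) by
          funext g
          simp, classInner_smul_left, classInner_irr_self i.2, mul_one]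
      · intro j _ hj
        rw [show (m j • (j : X → ℂ)) = (m j : ℂ) • (j : X → ℂ) by
          funext g
          simp, classInner_smul_left, classInner_irr_ne j.2 i.2 (fun h => hj (Subtype.ext h)), mul_zero]
      · intro h
        exact absurd (Finset.mem_univ _) h
    rw [h7] at h5
    exact_mod_cast h5
  have h4 : ∑ z : Z, (((lam z)⁻¹ : ℂˣ) : ℂ) * τ (ι z) = 0 := by
    have h5 : ∀ z, τ (ι z) = ∑ i : IrrCharacter X, (m i : ℂ) * (i : X → ℂ) (ι z) := by
      intro z
      rw [hm]
      simp [Finset.sum_apply]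
    simp only [h5, Finset.mul_sum]
    rw [Finset.sum_comm]
    refine Finset.sum_eq_zero fun i _ => ?_
    have h6 := sum_lam_inv ι lam i.2 hc
    calc ∑ z : Z, (((lam z)⁻¹ : ℂˣ) : ℂ) * ((m i : ℂ) * (i : X → ℂ) (ι z))
        = (m i : ℂ) * ∑ z : Z, (((lam z)⁻¹ : ℂˣ) : ℂ) * (i : X → ℂ) (ι z) := by
          rw [Finset.mul_sum]
          refine Finset.sum_congr rfl fun z _ => ?_
          ring
      _ = 0 := by
          rw [h6]
          by_cases hi : IsOver ι lam (i : X → ℂ)
          · rw [h3 i hi]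
            simp
          · rw [if_neg hi, mul_zero]
  rw [h1, hτ, indFun_one] at h4
  have h5 : β 1 ≠ 0 := Cfsg.Agent.Lib.BlockIdem.irr_one_ne_zero' hβ
  have h6 : (Y.index : ℂ) ≠ 0 := by
    exact_mod_cast Subgroup.index_ne_zero_of_finite
  exact (mul_ne_zero h6 h5) h4

end Over

/-! ### The hypothesis -/

section Hyp

/-- The hypothesis of the claim. -/
structure Hyp (p : ℕ) {X : Type u} {Z : Type v} [Group X] [Group Z] (ι : Z →* X) (lam : Z →* ℂˣ) : Prop where
  inj : Function.Injective ι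
  central : ∀ z x, ι z * x = x * ι z
  pgrp : IsPGroup p Z
  lam_inj : Function.Injective lam
  deg : ∀ χ : IrrCharacter X, IsOver ι lam (χ : X → ℂ) → ¬ p ∣ charDegree (χ : X → ℂ)

variable {X : Type u} {Z : Type v} [Group X] [Group Z] {ι : Z →* X} {lam : Z →* ℂˣ} {p : ℕ}

theorem charDegree_comp {Y : Type*} [Group Y] (f : Y →* X) (χ : X → ℂ) :
    charDegree (χ ∘ f) = charDegree χ := by
  simp [charDegree]

/-- Passing to a quotient by a normal subgroup avoiding `Z`. -/
theorem Hyp.quot [Finite X] (h : Hyp p ι lam) (R : Subgroup X) [R.Normal] (hR : ∀ z, ι z ∈ R → z = 1) :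
    Hyp p ((QuotientGroup.mk' R).comp ι) lam where
  inj := by
    rw [injective_iff_map_eq_one]
    intro z hz
    apply hR
    exact (QuotientGroup.eq_one_iff _).mp hz
  central := by
    intro z x
    obtain ⟨y, rfl⟩ := QuotientGroup.mk_surjective x
    show ((ι z : X) : X ⧸ R) * (y : X ⧸ R) = (y : X ⧸ R) * ((ι z : X) : X ⧸ R)
    rw [← QuotientGroup.mk_mul, ← QuotientGroup.mk_mul, h.central]
  pgrp := h.pgrp
  lam_inj := h.lam_inj
  deg := by
    intro χ hχ
    let f := QuotientGroup.mk' R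
    have h1 := h.deg ⟨(χ : X ⧸ R → ℂ) ∘ f, isIrrCharacter_comp_of_surjective f
      (QuotientGroup.mk'_surjective R) χ.2⟩ (by
      intro z
      have h2 := hχ z
      show (χ : X ⧸ R → ℂ) (f (ι z)) = (χ : X ⧸ R → ℂ) (f 1) * _
      rw [map_one]
      exact h2)
    have h3 := charDegree_comp f (χ : X ⧸ R → ℂ)
    simp only at h1
    rwa [h3] at h1

variable [Finite X] [hp : Fact p.Prime]

/-- Commutators of a normal `p`-subgroup lie in the kernels. -/
theorem Hyp.comm_trivial (h : Hyp p ι lam) (M : Subgroup X) [hM : M.Normal] (hMp : IsPGroup p M) :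
    ∀ a ∈ M, ∀ b ∈ M, a * b = b * a := by
  classical
  intro a ha b hb
  letI := Fintype.ofFinite X
  haveI : Finite Z := by
    exact Finite.of_injective ι h.inj
  letI := Fintype.ofFinite Z
  obtain ⟨P⟩ : Nonempty (Sylow p X) := inferInstance
  have hMP : M ≤ (P : Subgroup X) := hMp.le_sylow_of_normal P
  have hc : ⁅a, b⁆ ∈ ⁅M, M⁆ := Subgroup.commutator_mem_commutator ha hb
  have hn : (⁅M, M⁆ : Subgroup X).Normal := Subgroup.commutator_normal _ _
  have hcore : ⁅a, b⁆ ∈ ((⊥ : Subgroup X) ⊔ ⁅(P : Subgroup X), (P : Subgroup X)⁆).normalCore := by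
    have h1 : (⁅M, M⁆ : Subgroup X) ≤ ((⊥ : Subgroup X) ⊔ ⁅(P : Subgroup X), (P : Subgroup X)⁆).normalCore := by
      apply Subgroup.normal_le_normalCore.mpr
      rw [bot_sup_eq]
      exact Subgroup.commutator_mono hMP hMP
    exact h1 hc
  have h1 : ⁅a, b⁆ = 1 := by
    apply eq_one_of_forall_over ι lam h.central h.inj h.lam_inj
    intro χ hχ
    exact Cfsg.Agent.Lib.PDegKernel71.core_le_ker p P ⊥ (bot_inf_eq _) χ (h.deg χ hχ) hcore
  exact commutatorElement_eq_one_iff_mul_comm.mp h1

theorem Hyp.map_mem_pCore (h : Hyp p ι lam) (z : Z) : ι z ∈ pCore p X := by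
  apply le_pCore (N := ι.range)
  · constructor
    rintro _ ⟨w, rfl⟩ g
    refine ⟨w, ?_⟩
    rw [← h.central w g]
    group
  · exact IsPGroup.of_surjective h.pgrp ι.rangeRestrict ι.rangeRestrict_surjective
  · exact ⟨z, rfl⟩

end Hyp

/-! ### The claim -/

section Claim

theorem eq_one_of_central_commutator {X : Type*} [Group X] [Finite X] {p : ℕ} [hp : Fact p.Prime] (M L : Subgroup X)
    (hML : M ≤ L) (hcomm : ∀ a ∈ M, ∀ b ∈ M, a * b = b * a) (hidx : ¬ p ∣ M.relIndex L) {w : X}
    (hw : w ∈ ⁅M, L⁆) (hwL : w ∈ L) (hcen : ∀ x, w * x = x * w) {k : ℕ} (hwp : w ^ p ^ k = 1) : w = 1 := by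
  classical
  let H : Subgroup L := M.subgroupOf L
  letI : CommGroup H :=
    { (inferInstance : Group H) with
      mul_comm := by
        rintro ⟨a, ha⟩ ⟨b, hb⟩
        apply Subtype.ext
        apply Subtype.ext
        exact hcomm _ ha _ hb }
  let ϕ : H →* H := { toFun := id, map_one' := rfl, map_mul' := fun _ _ => rfl }
  let V : L →* H := MonoidHom.transfer ϕ
  have h1 : ⁅M, L⁆ ≤ V.ker.map L.subtype := by
    rw [Subgroup.commutator_le]
    intro m hm l hl
    refine ⟨⁅(⟨m, hML hm⟩ : L), (⟨l, hl⟩ : L)⁆, ?_, rfl⟩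
    show V ⁅(⟨m, hML hm⟩ : L), (⟨l, hl⟩ : L)⁆ = 1
    rw [map_commutatorElement]
    exact commutatorElement_eq_one_iff_mul_comm.mpr (mul_comm _ _)
  obtain ⟨v, hv, rfl⟩ := h1 hw
  have hv1 : V v = 1 := hv
  have hcenv : ∀ (n : ℕ) (g₀ : L), g₀⁻¹ * v ^ n * g₀ ∈ H → g₀⁻¹ * v ^ n * g₀ = v ^ n := by
    intro n g₀ _
    have h2 : Commute v g₀ := by
      apply Subtype.ext
      exact hcen _
    have h3 : Commute (v ^ n) g₀ := h2.pow_left n
    rw [mul_assoc, h3.eq]
    group
  have h4 := MonoidHom.transfer_eq_pow ϕ v hcenv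
  have h5 : v ^ H.index = 1 := by
    have h6 : (V v : H) = ⟨v ^ H.index, MonoidHom.transfer_eq_pow_aux v hcenv⟩ := h4
    rw [hv1] at h6
    exact (congrArg Subtype.val h6).symm
  have h6 : (v : X) ^ H.index = 1 := by
    have := congrArg Subtype.val h5
    simpa using this
  have h7 : (H.index).Coprime (p ^ k) := by
    apply Nat.Coprime.pow_right
    apply Nat.Coprime.symm
    exact (Nat.Prime.coprime_iff_not_dvd hp.out).mpr hidx
  have h8 := Nat.eq_one_of_dvd_coprimes h7 (orderOf_dvd_of_pow_eq_one h6) (orderOf_dvd_of_pow_eq_one hwp)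
  exact orderOf_eq_one_iff.mp h8

variable {Z : Type v} [Group Z] (lam : Z →* ℂˣ) {p : ℕ} [hp : Fact p.Prime]

/-- A `p`-element, a power of `p` killing it. -/
theorem eq_one_of_not_dvd_card {X : Type*} [Group X] {Q : Subgroup X} [Finite Q] (hQ : ¬ p ∣ Nat.card Q) {q : X}
    (hq : q ∈ Q) {k : ℕ} (hk : q ^ p ^ k = 1) : q = 1 := by
  have h1 : q ^ Nat.card Q = 1 := Subtype.ext_iff.mp (pow_card_eq_one' (x := (⟨q, hq⟩ : Q)))
  have hc : Nat.Coprime (p ^ k) (Nat.card Q) :=
    Nat.Coprime.pow_left _ ((Nat.Prime.coprime_iff_not_dvd hp.out).mpr hQ)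
  exact orderOf_eq_one_iff.mp (Nat.eq_one_of_dvd_coprimes hc (orderOf_dvd_of_pow_eq_one hk)
    (orderOf_dvd_of_pow_eq_one h1))

theorem exists_pow_eq_one_of_mem {X : Type*} [Group X] {P : Subgroup X} (hP : IsPGroup p P) {x : X} (hx : x ∈ P) :
    ∃ k, x ^ p ^ k = 1 := by
  obtain ⟨k, hk⟩ := hP ⟨x, hx⟩
  exact ⟨k, by simpa [Subtype.ext_iff] using hk⟩

theorem claim : ∀ (n : ℕ) (X : Type u) [Group X] [Finite X] (ι : Z →* X), Nat.card X = n → Hyp p ι lam →
    IsPSolvable p X → ∀ P : Sylow p X, (P : Subgroup X).Normal := by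
  intro n
  induction n using Nat.strong_induction_on with
  | _ n ih =>
  intro X _ _ ι hn h hsol P
  classical
  letI := Fintype.ofFinite X
  haveI : Finite Z := Finite.of_injective ι h.inj
  letI := Fintype.ofFinite Z
  have hquot : ∀ (R : Subgroup X) [R.Normal], R ≠ ⊥ → (∀ z, ι z ∈ R → z = 1) →
      ((P : Subgroup X).map (QuotientGroup.mk' R)).Normal := by
    intro R _ hR hav
    have hlt : Nat.card (X ⧸ R) < n := by
      rw [← hn]
      have h1 := Subgroup.card_mul_index R
      have h2 : Nat.card (X ⧸ R) = R.index := rfl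
      have h3 : Nat.card R ≠ 1 := fun h4 => hR (Subgroup.card_eq_one.mp h4)
      have h4 : 0 < Nat.card R := Nat.card_pos
      have h5 : 0 < R.index := Nat.pos_of_ne_zero Subgroup.index_ne_zero_of_finite
      rw [h2, ← h1]
      have h6 : 2 ≤ Nat.card R := by omega
      nlinarith
    exact ih _ hlt (X ⧸ R) _ rfl (h.quot R hav) (isPSolvable_quotient hsol R)
      (P.mapSurjective (QuotientGroup.mk'_surjective R))
  have hpp := hp.out
  by_cases hQ : pPrimeCore p X = ⊥
  · -- trivial `O_{p'}`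
    have hMn : (pCore p X).Normal := inferInstance
    have hMp : IsPGroup p (pCore p X) := isPGroup_pCore p
    have hMab := h.comm_trivial (pCore p X) hMp
    have hMP : pCore p X ≤ (P : Subgroup X) := pCore_le_sylow p P
    by_cases hMtop : pCore p X = ⊤
    · have h1 : (P : Subgroup X) = ⊤ := top_le_iff.mp (hMtop ▸ hMP)
      rw [h1]
      infer_instance
    · let π := QuotientGroup.mk' (pCore p X)
      have hπ : Function.Surjective π := QuotientGroup.mk'_surjective _
      have hcore : pPrimeCore p (X ⧸ pCore p X) ≠ ⊥ := by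
        intro h1
        have h2 := centralizer_pCore_le_of_pSolvable (isPSolvable_quotient hsol (pCore p X)) h1
        have h3 : pCore p (X ⧸ pCore p X) = ⊥ := pCore_quotient_pCore p
        rw [h3] at h2
        apply hMtop
        rw [eq_top_iff]
        intro x _
        have h4 : π x ∈ Subgroup.centralizer (((⊥ : Subgroup (X ⧸ pCore p X)) : Subgroup _) : Set (X ⧸ pCore p X)) := by
          rw [Subgroup.mem_centralizer_iff]
          intro w hw
          have : w = 1 := by simpa using hw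
          rw [this]
          simp
        have h5 := h2 h4
        have h6 : π x = 1 := Subgroup.mem_bot.mp h5
        exact (QuotientGroup.eq_one_iff _).mp h6
      let L : Subgroup X := (pPrimeCore p (X ⧸ pCore p X)).comap π
      haveI hLn : L.Normal := Subgroup.Normal.comap inferInstance π
      have hML : pCore p X ≤ L := by
        intro x hx
        have : π x = 1 := (QuotientGroup.eq_one_iff _).mpr hx
        show π x ∈ pPrimeCore p (X ⧸ pCore p X)
        rw [this]
        exact Subgroup.one_mem _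
      have hidx : ¬ p ∣ (pCore p X).relIndex L := by
        have h1 : (pCore p X).relIndex L = Nat.card (pPrimeCore p (X ⧸ pCore p X)) := by
          have h2 := Subgroup.relIndex_mul_index hML
          have h3 : L.index = (pPrimeCore p (X ⧸ pCore p X)).index :=
            Subgroup.index_comap_of_surjective _ hπ
          have h4 := Subgroup.card_mul_index (pPrimeCore p (X ⧸ pCore p X))
          have h5 : (pCore p X).index = Nat.card (X ⧸ pCore p X) := rfl
          rw [h3, h5, ← h4, mul_comm (Nat.card _)] at h2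
          rw [mul_comm ((pPrimeCore p (X ⧸ pCore p X)).index)] at h2
          exact Nat.eq_of_mul_eq_mul_right (Nat.pos_of_ne_zero Subgroup.index_ne_zero_of_finite) h2
        rw [h1]
        exact not_dvd_card_pPrimeCore p
      have hUM : ⁅pCore p X, L⁆ ≤ pCore p X := Subgroup.commutator_le_left _ _
      have hUne : ⁅pCore p X, L⁆ ≠ ⊥ := by
        intro h1
        have h2 : L ≤ Subgroup.centralizer (pCore p X : Set X) := by
          intro l hl
          rw [Subgroup.mem_centralizer_iff]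
          intro m hm
          have h3 : ⁅m, l⁆ = 1 := by
            have := Subgroup.commutator_mem_commutator hm hl
            rw [h1] at this
            exact Subgroup.mem_bot.mp this
          exact commutatorElement_eq_one_iff_mul_comm.mp h3
        have h3 := h2.trans (centralizer_pCore_le_of_pSolvable hsol hQ)
        apply hcore
        rw [eq_bot_iff]
        intro q hq
        obtain ⟨x, rfl⟩ := hπ q
        have h4 : x ∈ L := hq
        exact Subgroup.mem_bot.mpr ((QuotientGroup.eq_one_iff _).mpr (h3 h4))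
      have hav : ∀ z, ι z ∈ ⁅pCore p X, L⁆ → z = 1 := by
        intro z hz
        obtain ⟨k, hk⟩ := h.pgrp z
        have h1 : ι z ^ p ^ k = 1 := by
          rw [← map_pow, hk, map_one]
        have h2 := eq_one_of_central_commutator (pCore p X) L hML hMab hidx hz (hML (hUM hz))
          (h.central z) h1
        exact h.inj (h2.trans (map_one ι).symm)
      have hUn : (⁅pCore p X, L⁆ : Subgroup X).Normal := Subgroup.commutator_normal _ _
      have hN := hquot ⁅pCore p X, L⁆ hUne hav
      constructor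
      intro t ht g
      have h1 : QuotientGroup.mk' (⁅pCore p X, L⁆ : Subgroup X) (g * t * g⁻¹) ∈
          (P : Subgroup X).map (QuotientGroup.mk' (⁅pCore p X, L⁆ : Subgroup X)) := by
        rw [map_mul, map_mul, map_inv]
        exact hN.conj_mem _ ⟨t, ht, rfl⟩ _
      obtain ⟨t', ht', e⟩ := h1
      have h2 : t'⁻¹ * (g * t * g⁻¹) ∈ (⁅pCore p X, L⁆ : Subgroup X) := QuotientGroup.eq.mp e
      have h3 : g * t * g⁻¹ = t' * (t'⁻¹ * (g * t * g⁻¹)) := by group
      rw [h3]
      exact Subgroup.mul_mem _ ht' (hMP (hUM h2))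
  · -- nontrivial `O_{p'}`
    have hQn : (pPrimeCore p X).Normal := inferInstance
    have hQp : ¬ p ∣ Nat.card (pPrimeCore p X) := not_dvd_card_pPrimeCore p
    have hav : ∀ z, ι z ∈ pPrimeCore p X → z = 1 := by
      intro z hz
      obtain ⟨k, hk⟩ := h.pgrp z
      have h1 : ι z ^ p ^ k = 1 := by
        rw [← map_pow, hk, map_one]
      exact h.inj ((eq_one_of_not_dvd_card hQp hz h1).trans (map_one ι).symm)
    have hN := hquot (pPrimeCore p X) hQ hav
    -- the image of the conjugates of `P`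
    have hconj : ∀ (g t : X), t ∈ (P : Subgroup X) → ∃ t' ∈ (P : Subgroup X), ∃ q ∈ pPrimeCore p X,
        g * t * g⁻¹ = t' * q := by
      intro g t ht
      have h1 : QuotientGroup.mk' (pPrimeCore p X) (g * t * g⁻¹) ∈
          (P : Subgroup X).map (QuotientGroup.mk' (pPrimeCore p X)) := by
        rw [map_mul, map_mul, map_inv]
        exact hN.conj_mem _ ⟨t, ht, rfl⟩ _
      obtain ⟨t', ht', e⟩ := h1
      have h2 : t'⁻¹ * (g * t * g⁻¹) ∈ pPrimeCore p X := QuotientGroup.eq.mp e
      exact ⟨t', ht', _, h2, by group⟩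
    letI : Fintype (pPrimeCore p X) := Fintype.ofFinite _
    -- `P` fixes all characters of `O_{p'}`
    have hfix : ∀ (β : pPrimeCore p X → ℂ), IsIrrCharacter (pPrimeCore p X) β → ∀ x ∈ (P : Subgroup X),
        conjBy (pPrimeCore p X) hQn x β = β := by
      intro β hβ x hx
      obtain ⟨χ, hχ, hne⟩ := exists_over_both ι lam h.central h.inj (pPrimeCore p X) hav hβ
      have hdeg := h.deg χ hχ
      let T := Cfsg.Agent.Lib.DegreeDiv.inertia (pPrimeCore p X) hQn β
      have hT : ∀ g : X, g ∈ T ↔ ∀ n : pPrimeCore p X, β ⟨g * n * g⁻¹, hQn.conj_mem (n : X) n.2 g⟩ = β n :=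
        fun g => Iff.rfl
      have hQT : pPrimeCore p X ≤ T := by
        intro n hn m
        have h1 := isClassFunction_of_isCharacter (IsIrrCharacter.isCharacter hβ) m ⟨n, hn⟩
        exact h1
      obtain ⟨d, hd, hd0⟩ := Cfsg.Agent.Lib.CharCoprime.inertia_index_dvd (pPrimeCore p X) T hβ hT hQT χ.2 hne
      have hidx : ¬ p ∣ T.index := by
        intro h1
        apply hdeg
        have h2 : charDegree (χ : X → ℂ) = T.index * d := by
          have h3 := one_eq_charDegree (IsIrrCharacter.isCharacter χ.2)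
          rw [hd] at h3
          exact_mod_cast h3.symm
        rw [h2]
        exact h1.mul_right _
      -- a conjugate of `P` lies in `T`
      have hfp : (MulAction.fixedPoints (P : Subgroup X) (X ⧸ T)).Nonempty :=
        IsPGroup.nonempty_fixed_point_of_prime_not_dvd_card P.isPGroup' (X ⧸ T) hidx
      obtain ⟨q, hq⟩ := hfp
      obtain ⟨g, rfl⟩ := QuotientGroup.mk_surjective q
      have hgT : ∀ t ∈ (P : Subgroup X), g⁻¹ * t * g ∈ T := by
        intro t ht
        have h1 := hq ⟨t, ht⟩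
        have h2 : ((t * g : X) : X ⧸ T) = (g : X ⧸ T) := h1
        have h3 := QuotientGroup.eq.mp h2.symm
        have h4 : g⁻¹ * (t * g) = g⁻¹ * t * g := by group
        rwa [h4] at h3
      -- so `P ≤ T`
      have hPT : (P : Subgroup X) ≤ T := by
        intro t ht
        obtain ⟨t', ht', q, hq, e⟩ := hconj g t ht
        have h1 : t = (g⁻¹ * t' * g) * (g⁻¹ * q * g) := by
          have h2 : t = g⁻¹ * (g * t * g⁻¹) * g := by group
          rw [h2, e]
          group
        rw [h1]
        refine T.mul_mem (hgT t' ht') (hQT ?_)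
        have := hQn.conj_mem q hq g⁻¹
        simpa using this
      funext n
      exact (hT x).mp (hPT hx) n
    have hPN : ∀ x ∈ (P : Subgroup X), ∀ n ∈ pPrimeCore p X, x * n * x⁻¹ ∈ pPrimeCore p X :=
      fun x _ n hn => hQn.conj_mem n hn x
    have hcomm := Cfsg.Agent.Lib.CharCoprime.commute_of_fixes_classes (P : Subgroup X) (pPrimeCore p X)
      P.isPGroup' hQp hPN (fun x hx n => Cfsg.Agent.Lib.CharCoprime.isConj_of_fixes_irr (pPrimeCore p X) hQn x
        (fun θ hθ => hfix θ hθ x hx) n)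
    constructor
    intro t ht g
    obtain ⟨t', ht', q, hq, e⟩ := hconj g t ht
    obtain ⟨a, ha⟩ := exists_pow_eq_one_of_mem P.isPGroup' ht
    obtain ⟨b, hb⟩ := exists_pow_eq_one_of_mem P.isPGroup' ht'
    have hc : Commute t' q := hcomm t' ht' q hq
    have hw : (g * t * g⁻¹) ^ p ^ (a + b) = 1 := by
      rw [conj_pow, pow_add, pow_mul, ha]
      simp
    rw [e, hc.mul_pow] at hw
    have ht2 : t' ^ p ^ (a + b) = 1 := by
      rw [add_comm, pow_add, pow_mul, hb, one_pow]
    rw [ht2, one_mul] at hw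
    have hq1 := eq_one_of_not_dvd_card hQp hq hw
    rw [e, hq1, mul_one]
    exact ht'

/-- **The claim**: the Sylow subgroups are normal and abelian. -/
theorem claim_abelian {X : Type u} [Group X] [Finite X] {ι : Z →* X} (h : Hyp p ι lam)
    (hsol : IsPSolvable p X) (P : Sylow p X) : (P : Subgroup X).Normal ∧
      ∀ a ∈ (P : Subgroup X), ∀ b ∈ (P : Subgroup X), a * b = b * a := by
  have h1 := claim lam _ X ι rfl h hsol P
  exact ⟨h1, h.comm_trivial (P : Subgroup X) P.isPGroup'⟩

end Claim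

end Cfsg.Agent.Lib.PSingCount
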