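import Mathlib
import Cfsg.Agent.Lib.PSingCount
import Cfsg.Agent.Lib.CharTwist

/-!
# The derived length of a Sylow subgroup and the number of characters of degree divisible by `p`

`p`-solvable groups: `P^(n+1) = 1` for `n` the number of irreducible characters of degree divisible by `p`.
-/

set_option autoImplicit false
set_option linter.unusedVariables false
set_option linter.unusedSectionVars false
set_option linter.style.haveILetI false
set_option linter.unusedSimpArgs false

namespace Cfsg.Agent.Lib.PSingCount2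

open Cfsg Cfsg.Agent.Lib.CharBasic Cfsg.Agent.Lib.CharInduction Cfsg.Agent.Lib.CharInd
open Cfsg.Agent.Lib.CharKernel Cfsg.Agent.Lib.PCore Cfsg.Agent.Lib.PSolv Cfsg.Agent.Lib.PSingCount
open scoped ComplexConjugate commutatorElement

universe u

section Count

variable {G H : Type*} [Group G] [Group H] [Finite G] [Finite H] {p : ℕ}

/-- Inflation, on the characters of degree divisible by `p`. -/
noncomputable def infl (f : G →* H) (hf : Function.Surjective f) (χ : {χ : IrrCharacter H // p ∣ charDegree (χ : H → ℂ)}) :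
    {χ : IrrCharacter G // p ∣ charDegree (χ : G → ℂ)} :=
  ⟨⟨(χ.1 : H → ℂ) ∘ f, isIrrCharacter_comp_of_surjective f hf χ.1.2⟩, by
    have h := charDegree_comp f (χ.1 : H → ℂ)
    show p ∣ charDegree ((χ.1 : H → ℂ) ∘ f)
    rw [h]
    exact χ.2⟩

theorem infl_injective (f : G →* H) (hf : Function.Surjective f) :
    Function.Injective (infl (p := p) f hf) := by
  intro a b h
  have h1 : (a.1 : H → ℂ) ∘ f = (b.1 : H → ℂ) ∘ f := congrArg (fun x => ((x.1 : IrrCharacter G) : G → ℂ)) h
  apply Subtype.ext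
  apply Subtype.ext
  exact hf.injective_comp_right h1

theorem count_le (f : G →* H) (hf : Function.Surjective f) :
    Nat.card {χ : IrrCharacter H // p ∣ charDegree (χ : H → ℂ)} ≤
      Nat.card {χ : IrrCharacter G // p ∣ charDegree (χ : G → ℂ)} :=
  Nat.card_le_card_of_injective _ (infl_injective f hf)

theorem count_lt (f : G →* H) (hf : Function.Surjective f) (χ₀ : IrrCharacter G)
    (hd : p ∣ charDegree (χ₀ : G → ℂ)) {x : G} (hx : f x = 1) (hne : (χ₀ : G → ℂ) x ≠ (χ₀ : G → ℂ) 1) :
    Nat.card {χ : IrrCharacter H // p ∣ charDegree (χ : H → ℂ)} <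
      Nat.card {χ : IrrCharacter G // p ∣ charDegree (χ : G → ℂ)} := by
  classical
  letI : Fintype {χ : IrrCharacter H // p ∣ charDegree (χ : H → ℂ)} := Fintype.ofFinite _
  letI : Fintype {χ : IrrCharacter G // p ∣ charDegree (χ : G → ℂ)} := Fintype.ofFinite _
  rw [Nat.card_eq_fintype_card, Nat.card_eq_fintype_card]
  apply Fintype.card_lt_of_injective_of_notMem _ (infl_injective f hf) (b := ⟨χ₀, hd⟩)
  rintro ⟨a, ha⟩
  have h1 : (a.1 : H → ℂ) ∘ f = (χ₀ : G → ℂ) :=
    congrArg (fun x => ((x.1 : IrrCharacter G) : G → ℂ)) ha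
  apply hne
  rw [← h1]
  show (a.1 : H → ℂ) (f x) = (a.1 : H → ℂ) (f 1)
  rw [hx, map_one]

end Count

section Derived

variable {A B : Type*} [Group A] [Group B]

theorem derived_eq_bot_of_injective (f : A →* B) (hf : Function.Injective f) {k : ℕ}
    (h : derivedSeries B k = ⊥) : derivedSeries A k = ⊥ := by
  rw [eq_bot_iff]
  intro x hx
  have h1 : f x ∈ derivedSeries B k :=
    map_derivedSeries_le_derivedSeries f k ⟨x, hx, rfl⟩
  rw [h] at h1
  have h2 : f x = f 1 := by
    rw [map_one]
    exact Subgroup.mem_bot.mp h1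
  exact Subgroup.mem_bot.mpr (hf h2)

/-- A term of the derived series mapping into a commutative subgroup. -/
theorem derived_succ_eq_bot (f : A →* B) (hf : Function.Injective f) (N : Subgroup B)
    (hN : ∀ a ∈ N, ∀ b ∈ N, a * b = b * a) {k : ℕ} (h : ∀ x ∈ derivedSeries A k, f x ∈ N) :
    derivedSeries A (k + 1) = ⊥ := by
  rw [derivedSeries_succ, eq_bot_iff, Subgroup.commutator_le]
  intro x hx y hy
  have h1 := hN _ (h x hx) _ (h y hy)
  have h2 : f x * f y = f y * f x := h1
  rw [← map_mul, ← map_mul] at h2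
  have h3 := hf h2
  exact Subgroup.mem_bot.mpr (commutatorElement_eq_one_iff_mul_comm.mpr h3)

/-- A quotient group image of a Sylow subgroup. -/
theorem derived_le_ker_of_map {G H : Type*} [Group G] [Group H] (f : G →* H) (P : Subgroup G) {k : ℕ}
    (h : derivedSeries (P.map f) k = ⊥) : ∀ x ∈ derivedSeries P k, f (x : G) = 1 := by
  intro x hx
  have h1 : (f.subgroupMap P) x ∈ derivedSeries (P.map f) k :=
    map_derivedSeries_le_derivedSeries (f.subgroupMap P) k ⟨x, hx, rfl⟩
  rw [h] at h1
  have h2 := Subgroup.mem_bot.mp h1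
  exact congrArg Subtype.val h2

end Derived

section Stab

variable {G : Type u} [Group G] [Finite G] {p : ℕ} [hp : Fact p.Prime]

/-- Commutators of a Sylow subgroup lie in `N`, if all the characters not trivial on the normal abelian
`p`-subgroup `N` have degree prime to `p`. -/
theorem commutator_mem_of_stab (hsol : IsPSolvable p G) (N : Subgroup G) [hN : N.Normal]
    (hNp : IsPGroup p N) (hNab : ∀ a ∈ N, ∀ b ∈ N, a * b = b * a) (hNne : N ≠ ⊥)
    (hdeg : ∀ χ : IrrCharacter G, (∃ x ∈ N, (χ : G → ℂ) x ≠ (χ : G → ℂ) 1) → ¬ p ∣ charDegree (χ : G → ℂ))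
    (P : Sylow p G) {a b : G} (ha : a ∈ (P : Subgroup G)) (hb : b ∈ (P : Subgroup G)) : ⁅a, b⁆ ∈ N := by
  classical
  letI := Fintype.ofFinite G
  letI : Fintype N := Fintype.ofFinite _
  -- a nontrivial linear character of `N`
  obtain ⟨β, hβne⟩ : ∃ β : N →* ℂˣ, β ≠ 1 := by
    obtain ⟨x, hx⟩ := Subgroup.ne_bot_iff_exists_ne_one.mp hNne
    letI : CommGroup N :=
      { (inferInstance : Group N) with
        mul_comm := by
          rintro ⟨c, hc⟩ ⟨d, hd⟩
          apply Subtype.ext
          exact hNab c hc d hd }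
    obtain ⟨l, hl⟩ := Cfsg.Agent.Lib.CharTwist.exists_hom_ne_one (Q := N) (x := x) hx
    refine ⟨l, fun h => hl ?_⟩
    rw [h]
    rfl
  let βc : N → ℂ := fun n => ((β n : ℂˣ) : ℂ)
  have hβc : IsIrrCharacter N βc := isIrrCharacter_of_hom β
  have hβc1 : βc 1 = 1 := by simp [βc]
  let T : Subgroup G := Cfsg.Agent.Lib.DegreeDiv.inertia N hN βc
  have hT : ∀ g : G, g ∈ T ↔ ∀ n : N, βc ⟨g * n * g⁻¹, hN.conj_mem (n : G) n.2 g⟩ = βc n := fun g => Iff.rfl
  have hNT : N ≤ T := by
    intro n hn m
    have h1 := isClassFunction_of_isCharacter (IsIrrCharacter.isCharacter hβc) m ⟨n, hn⟩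
    exact h1
  letI : Fintype T := Fintype.ofFinite _
  -- the kernel
  have hT' : ∀ (t : T) (n : N), β ⟨(t : G) * n * (t : G)⁻¹, hN.conj_mem (n : G) n.2 t⟩ = β n := by
    intro t n
    have h1 := (hT t).mp t.2 n
    exact Units.ext h1
  let K₀ : Subgroup T := (β.ker.map N.subtype).subgroupOf T
  have hmemK₀ : ∀ t : T, t ∈ K₀ ↔ ∃ h : (t : G) ∈ N, β ⟨t, h⟩ = 1 := by
    intro t
    constructor
    · rintro ⟨n, hn, e⟩
      have e' : (n : G) = (t : G) := e
      have h1 : (t : G) ∈ N := by
        rw [← e']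
        exact n.2
      refine ⟨h1, ?_⟩
      have h2 : (⟨t, h1⟩ : N) = n := Subtype.ext e'.symm
      rw [h2]
      exact hn
    · rintro ⟨h, h1⟩
      exact ⟨⟨t, h⟩, h1, rfl⟩
  haveI hK₀n : K₀.Normal := by
    constructor
    intro k hk t
    obtain ⟨h, h1⟩ := (hmemK₀ k).mp hk
    have h2 : ((t * k * t⁻¹ : T) : G) ∈ N := by
      have := hN.conj_mem k h t
      simpa using this
    refine (hmemK₀ _).mpr ⟨h2, ?_⟩
    have h3 := hT' t ⟨k, h⟩
    rw [h1] at h3
    rw [← h3]
    congr 1
  have hmem' : ∀ (t : T) (g : G) (e : (t : G) = g) (h : g ∈ N), β ⟨g, h⟩ = 1 → t ∈ K₀ := by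
    rintro t _ rfl h hβ
    exact (hmemK₀ t).mpr ⟨h, hβ⟩
  let X := T ⧸ K₀
  let mk : T →* X := QuotientGroup.mk' K₀
  have hmk : Function.Surjective mk := QuotientGroup.mk'_surjective K₀
  let Z := N ⧸ β.ker
  let lam : Z →* ℂˣ := QuotientGroup.kerLift β
  have hincl : β.ker ≤ K₀.comap (Subgroup.inclusion hNT) := by
    intro n hn
    exact (hmemK₀ _).mpr ⟨n.2, hn⟩
  let ι : Z →* X := QuotientGroup.map β.ker K₀ (Subgroup.inclusion hNT) hincl
  have hιmk : ∀ n : N, ι (n : Z) = mk (Subgroup.inclusion hNT n) := fun n => rfl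
  have hlam : ∀ n : N, lam (n : Z) = β n := fun n => rfl
  -- induced characters
  have hind : ∀ φ : IrrCharacter X, IsOver ι lam (φ : X → ℂ) → ¬ p ∣ T.index * charDegree (φ : X → ℂ) := by
    intro φ hφ
    let φ' : T → ℂ := (φ : X → ℂ) ∘ mk
    have hφ' : IsIrrCharacter T φ' := isIrrCharacter_comp_of_surjective mk hmk φ.2
    have hφ1 : φ' 1 = (φ : X → ℂ) 1 := by
      show (φ : X → ℂ) (mk 1) = _
      rw [map_one]
    have hvals : (fun n : N => φ' ⟨(n : G), hNT n.2⟩) = φ' 1 • βc := by
      funext n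
      have h1 := hφ (n : Z)
      rw [hιmk, hlam] at h1
      show (φ : X → ℂ) (mk (Subgroup.inclusion hNT n)) = _
      rw [h1, hφ1]
      rfl
    have hover : classInner (fun n : N => φ' ⟨(n : G), hNT n.2⟩) βc ≠ 0 := by
      rw [hvals, classInner_smul_left, classInner_irr_self hβc, mul_one]
      exact Cfsg.Agent.Lib.BlockIdem.irr_one_ne_zero' hφ'
    obtain ⟨h1, h2⟩ := Cfsg.Agent.Lib.Clifford.indFun_irr_of_over N T hβc hT hNT hφ' hover
    have h3 : ¬ p ∣ charDegree (indFun T φ') := by
      apply hdeg ⟨_, h1⟩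
      by_contra hcon
      push Not at hcon
      -- trivial on `N`
      have h4 : (fun n : N => indFun T φ' n) = indFun T φ' 1 • (fun _ : N => (1 : ℂ)) := by
        funext n
        have := hcon n n.2
        simp only [Pi.smul_apply, smul_eq_mul, mul_one]
        exact this
      rw [h4, classInner_smul_left] at h2
      have h5 : classInner (fun _ : N => (1 : ℂ)) βc = 0 := by
        apply classInner_irr_ne (Cfsg.Agent.Lib.PDegKernel71.oneIrr71 N).2 hβc
        intro h6
        apply hβne
        ext n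
        have h7 : (1 : ℂ) = ((β n : ℂˣ) : ℂ) := congrFun h6 n
        simpa using h7.symm
      rw [h5, mul_zero] at h2
      exact hover h2.symm
    have h4 : charDegree (indFun T φ') = T.index * charDegree (φ : X → ℂ) := by
      have h5 : indFun T φ' 1 = ((T.index * charDegree (φ : X → ℂ) : ℕ) : ℂ) := by
        rw [indFun_one, hφ1, one_eq_charDegree (IsIrrCharacter.isCharacter φ.2)]
        push_cast
        rfl
      show ⌊(indFun T φ' 1).re⌋₊ = _
      rw [h5, Complex.natCast_re, Nat.floor_natCast]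
    rwa [h4] at h3
  have hY : Hyp p ι lam :=
    { inj := by
        rw [injective_iff_map_eq_one]
        intro z hz
        obtain ⟨n, rfl⟩ := QuotientGroup.mk_surjective z
        rw [hιmk] at hz
        have h1 : Subgroup.inclusion hNT n ∈ K₀ := (QuotientGroup.eq_one_iff _).mp hz
        obtain ⟨h, h2⟩ := (hmemK₀ _).mp h1
        exact (QuotientGroup.eq_one_iff _).mpr h2
      central := by
        intro z x
        obtain ⟨n, rfl⟩ := QuotientGroup.mk_surjective z
        obtain ⟨t, rfl⟩ := QuotientGroup.mk_surjective x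
        rw [hιmk]
        show mk (Subgroup.inclusion hNT n) * mk t = mk t * mk (Subgroup.inclusion hNT n)
        rw [← map_mul, ← map_mul]
        apply QuotientGroup.eq.mpr
        have hmem : (t : G)⁻¹ * (n : G)⁻¹ * (t : G) ∈ N := by
          have := hN.conj_mem _ (N.inv_mem n.2) (t : G)⁻¹
          simpa using this
        have h1 := hT' t⁻¹ n⁻¹
        have e : (((Subgroup.inclusion hNT n * t)⁻¹ * (t * Subgroup.inclusion hNT n) : T) : G) =
            (t : G)⁻¹ * (n : G)⁻¹ * (t : G) * (n : G) := by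
          simp [Subgroup.inclusion]
          group
        have hmem2 : (t : G)⁻¹ * (n : G)⁻¹ * (t : G) * (n : G) ∈ N := N.mul_mem hmem n.2
        refine hmem' _ _ e hmem2 ?_
        have e2 : (⟨(t : G)⁻¹ * (n : G)⁻¹ * (t : G) * (n : G), hmem2⟩ : N) =
            ⟨((t⁻¹ : T) : G) * ((n⁻¹ : N) : G) * ((t⁻¹ : T) : G)⁻¹, hN.conj_mem _ (n⁻¹ : N).2 _⟩ * n := by
          apply Subtype.ext
          simp
        rw [e2, map_mul, h1, map_inv, inv_mul_cancel]
      pgrp := hNp.to_quotient _
      lam_inj := QuotientGroup.kerLift_injective β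
      deg := by
        intro χ hχ h1
        exact hind χ hχ (h1.mul_left _) }
  letI : Fintype X := Fintype.ofFinite _
  letI : Fintype Z := Fintype.ofFinite _
  have hXsol : IsPSolvable p X := isPSolvable_quotient (isPSolvable_subgroup hsol T) K₀
  obtain ⟨φ, hφ⟩ := exists_over_lam ι lam hY.central hY.inj
  have hidx : ¬ p ∣ T.index := fun h => hind φ hφ (h.mul_right _)
  have hfp : (MulAction.fixedPoints (P : Subgroup G) (G ⧸ T)).Nonempty :=
    IsPGroup.nonempty_fixed_point_of_prime_not_dvd_card P.isPGroup' (G ⧸ T) hidx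
  obtain ⟨q, hq⟩ := hfp
  obtain ⟨g, rfl⟩ := QuotientGroup.mk_surjective q
  have hgT : ∀ t ∈ (P : Subgroup G), g⁻¹ * t * g ∈ T := by
    intro t ht
    have h1 := hq ⟨t, ht⟩
    have h2 : ((t * g : G) : G ⧸ T) = (g : G ⧸ T) := h1
    have h3 := QuotientGroup.eq.mp h2.symm
    have h4 : g⁻¹ * (t * g) = g⁻¹ * t * g := by group
    rwa [h4] at h3
  let W : Subgroup X := (((P : Subgroup G).map (MulAut.conj g⁻¹).toMonoidHom).subgroupOf T).map mk
  have hW : IsPGroup p W := by
    apply IsPGroup.map
    exact IsPGroup.comap_of_injective ((P.isPGroup').map _) T.subtype Subtype.val_injective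
  obtain ⟨S, hS⟩ := hW.exists_le_sylow
  obtain ⟨-, hSab⟩ := claim_abelian lam hY hXsol S
  have hmemW : ∀ t (ht : t ∈ (P : Subgroup G)), mk ⟨g⁻¹ * t * g, hgT t ht⟩ ∈ W := by
    intro t ht
    refine ⟨⟨g⁻¹ * t * g, hgT t ht⟩, ?_, rfl⟩
    refine Subgroup.mem_subgroupOf.mpr ⟨t, ht, ?_⟩
    simp [MulAut.conj_apply]
  have h1 := hSab _ (hS (hmemW a ha)) _ (hS (hmemW b hb))
  rw [← map_mul, ← map_mul] at h1
  have h2 : (⟨g⁻¹ * a * g, hgT a ha⟩ * ⟨g⁻¹ * b * g, hgT b hb⟩ : T)⁻¹ *
      (⟨g⁻¹ * b * g, hgT b hb⟩ * ⟨g⁻¹ * a * g, hgT a ha⟩) ∈ K₀ := QuotientGroup.eq.mp h1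
  obtain ⟨h3, -⟩ := (hmemK₀ _).mp h2
  have e : ⁅a, b⁆ = (a * b * (g * (((⟨g⁻¹ * a * g, hgT a ha⟩ * ⟨g⁻¹ * b * g, hgT b hb⟩ : T)⁻¹ *
      (⟨g⁻¹ * b * g, hgT b hb⟩ * ⟨g⁻¹ * a * g, hgT a ha⟩) : T) : G) * g⁻¹) * (a * b)⁻¹)⁻¹ := by
    simp [commutatorElement_def]
    group
  rw [e]
  exact N.inv_mem (hN.conj_mem _ (hN.conj_mem _ h3 g) _)

end Stab

section Main

variable {p : ℕ} [hp : Fact p.Prime]

/-- The main theorem. -/
theorem main : ∀ (n : ℕ) (G : Type u) [Group G] [Finite G], Nat.card G = n → IsPSolvable p G →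
    ∀ P : Sylow p G, derivedSeries (P : Subgroup G)
      (Nat.card {χ : IrrCharacter G // p ∣ charDegree (χ : G → ℂ)} + 1) = ⊥ := by
  intro n
  induction n using Nat.strong_induction_on with
  | _ n ih =>
  intro G _ _ hn hsol P
  classical
  -- a nontrivial normal subgroup
  have hquot : ∀ (R : Subgroup G) [R.Normal], R ≠ ⊥ →
      ∀ k, Nat.card {χ : IrrCharacter (G ⧸ R) // p ∣ charDegree (χ : G ⧸ R → ℂ)} + 1 ≤ k →
      derivedSeries ((P : Subgroup G).map (QuotientGroup.mk' R)) k = ⊥ := by
    intro R _ hR k hk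
    have hlt : Nat.card (G ⧸ R) < n := by
      rw [← hn]
      have h1 := Subgroup.card_mul_index R
      have h2 : Nat.card (G ⧸ R) = R.index := rfl
      have h3 : Nat.card R ≠ 1 := fun h4 => hR (Subgroup.card_eq_one.mp h4)
      have h4 : 0 < Nat.card R := Nat.card_pos
      have h5 : 0 < R.index := Nat.pos_of_ne_zero Subgroup.index_ne_zero_of_finite
      rw [h2, ← h1]
      have h6 : 2 ≤ Nat.card R := by omega
      nlinarith
    have h1 := ih _ hlt (G ⧸ R) rfl (isPSolvable_quotient hsol R)
      (P.mapSurjective (QuotientGroup.mk'_surjective R))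
    exact le_bot_iff.mp (le_of_le_of_eq (derivedSeries_antitone _ hk) h1)
  by_cases hQ : pPrimeCore p G = ⊥
  · by_cases hM : pCore p G = ⊥
    · -- `G` is trivial
      have h1 := centralizer_pCore_le_of_pSolvable hsol hQ
      rw [hM] at h1
      have h2 : ∀ x : G, x = 1 := by
        intro x
        have h3 : x ∈ Subgroup.centralizer (((⊥ : Subgroup G) : Subgroup G) : Set G) := by
          rw [Subgroup.mem_centralizer_iff]
          intro w hw
          have : w = 1 := by simpa using hw
          rw [this]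
          simp
        exact Subgroup.mem_bot.mp (h1 h3)
      rw [eq_bot_iff]
      intro x _
      exact Subgroup.mem_bot.mpr (Subtype.ext (h2 _))
    · -- the centre of `O_p(G)`
      let N : Subgroup G := pCore p G ⊓ Subgroup.centralizer (pCore p G : Set G)
      haveI hMn : (pCore p G).Normal := inferInstance
      haveI hNn : N.Normal := Subgroup.normal_inf_normal _ _
      have hNp : IsPGroup p N := (isPGroup_pCore p).to_le inf_le_left
      have hNab : ∀ a ∈ N, ∀ b ∈ N, a * b = b * a := fun a ha b hb =>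
        (Subgroup.mem_centralizer_iff.mp hb.2) a ha.1
      have hNne : N ≠ ⊥ := by
        haveI : Nontrivial (pCore p G) := (Subgroup.nontrivial_iff_ne_bot _).mpr hM
        haveI := (isPGroup_pCore (G := G) p).center_nontrivial
        obtain ⟨x, hx⟩ := exists_ne (1 : Subgroup.center (pCore p G))
        intro h1
        apply hx
        have h2 : (((x : pCore p G) : G)) ∈ N := by
          refine ⟨(x : pCore p G).2, Subgroup.mem_centralizer_iff.mpr ?_⟩
          intro m hm
          have := congrArg Subtype.val ((Subgroup.mem_center_iff.mp x.2) ⟨m, hm⟩)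
          exact this
        rw [h1] at h2
        apply Subtype.ext
        apply Subtype.ext
        exact Subgroup.mem_bot.mp h2
      have hNP : N ≤ (P : Subgroup G) := inf_le_left.trans (pCore_le_sylow p P)
      by_cases h2a : ∃ χ : IrrCharacter G, p ∣ charDegree (χ : G → ℂ) ∧ ∃ x ∈ N, (χ : G → ℂ) x ≠ (χ : G → ℂ) 1
      · obtain ⟨χ₀, hd, x, hx, hne⟩ := h2a
        have hlt := count_lt (p := p) (QuotientGroup.mk' N) (QuotientGroup.mk'_surjective N) χ₀ hd
          ((QuotientGroup.eq_one_iff _).mpr hx) hne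
        have h1 := hquot N hNne _ hlt
        have h2 := derived_le_ker_of_map (QuotientGroup.mk' N) (P : Subgroup G) h1
        apply derived_succ_eq_bot (P : Subgroup G).subtype Subtype.val_injective N hNab
        intro y hy
        exact (QuotientGroup.eq_one_iff _).mp (h2 y hy)
      · push Not at h2a
        have hdeg : ∀ χ : IrrCharacter G, (∃ x ∈ N, (χ : G → ℂ) x ≠ (χ : G → ℂ) 1) →
            ¬ p ∣ charDegree (χ : G → ℂ) := by
          rintro χ ⟨x, hx, hne⟩ hd
          exact hne (h2a χ hd x hx)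
        by_cases hn0 : Nat.card {χ : IrrCharacter G // p ∣ charDegree (χ : G → ℂ)} = 0
        · -- all degrees prime to `p`
          rw [hn0, zero_add, derivedSeries_one]
          haveI hem : IsEmpty {χ : IrrCharacter G // p ∣ charDegree (χ : G → ℂ)} := by
            have h1 := (Nat.card_eq_zero (α := {χ : IrrCharacter G // p ∣ charDegree (χ : G → ℂ)})).mp hn0
            rcases h1 with h1 | h1
            · exact h1
            · exact absurd (inferInstance : Finite {χ : IrrCharacter G // p ∣ charDegree (χ : G → ℂ)})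
                (not_finite_iff_infinite.mpr h1)
          have hY : Hyp p (1 : PUnit.{u + 1} →* G) (1 : PUnit.{u + 1} →* ℂˣ) :=
            { inj := fun a b _ => Subsingleton.elim a b
              central := by
                intro z x
                simp
              pgrp := fun g => ⟨0, Subsingleton.elim _ _⟩
              lam_inj := fun a b _ => Subsingleton.elim a b
              deg := fun χ _ hd => hem.false ⟨χ, hd⟩ }
          obtain ⟨-, hab⟩ := claim_abelian (1 : PUnit.{u + 1} →* ℂˣ) hY hsol P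
          rw [eq_bot_iff, commutator_eq_closure]
          rw [Subgroup.closure_le]
          rintro _ ⟨a, b, rfl⟩
          have h3 := hab a a.2 b b.2
          exact Subgroup.mem_bot.mpr (commutatorElement_eq_one_iff_mul_comm.mpr (Subtype.ext h3))
        · -- the stabilizer of a nontrivial linear character
          have h2 : derivedSeries (P : Subgroup G) 2 = ⊥ := by
            apply derived_succ_eq_bot (k := 1) (P : Subgroup G).subtype Subtype.val_injective N hNab
            intro y hy
            rw [derivedSeries_one] at hy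
            have h3 : commutator (P : Subgroup G) ≤ N.comap (P : Subgroup G).subtype := by
              rw [commutator_eq_closure, Subgroup.closure_le]
              rintro _ ⟨a, b, rfl⟩
              exact commutator_mem_of_stab hsol N hNp hNab hNne hdeg P a.2 b.2
            exact h3 hy
          rw [eq_bot_iff, ← h2]
          apply derivedSeries_antitone
          omega
  · -- `O_{p'}`
    have h1 := hquot (pPrimeCore p G) hQ _ (Nat.succ_le_succ (count_le (p := p) (QuotientGroup.mk' (pPrimeCore p G))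
      (QuotientGroup.mk'_surjective _)))
    have h2 := derived_le_ker_of_map (QuotientGroup.mk' (pPrimeCore p G)) (P : Subgroup G) h1
    rw [eq_bot_iff]
    intro y hy
    have h3 := h2 y hy
    have h4 : (y : G) ∈ pPrimeCore p G := (QuotientGroup.eq_one_iff _).mp h3
    obtain ⟨k, hk⟩ := Cfsg.Agent.Lib.PSingCount.exists_pow_eq_one_of_mem P.isPGroup' y.2
    have h5 := Cfsg.Agent.Lib.PSingCount.eq_one_of_not_dvd_card (not_dvd_card_pPrimeCore p) h4 hk
    exact Subgroup.mem_bot.mpr (Subtype.ext h5)

end Main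

end Cfsg.Agent.Lib.PSingCount2
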