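import Mathlib
import Cfsg.Agent.Lib.PalfyE
import Cfsg.Agent.Lib.NVTwo

/-!
# Pálfy's three primes theorem: the case of a minimal normal subgroup with a complement
-/

set_option autoImplicit false
set_option linter.unusedSectionVars false
set_option linter.unusedVariables false
set_option linter.style.haveILetI false

namespace Cfsg.Agent.Lib.PalfyF

open Cfsg Cfsg.Agent.Lib Cfsg.Agent.Lib.NVOrbit Cfsg.Agent.Lib.PCore
open Cfsg.Agent.Lib.PalfyA Cfsg.Agent.Lib.PalfyB Cfsg.Agent.Lib.PalfyC Cfsg.Agent.Lib.NVChar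
open Cfsg.Agent.Lib.PalfyD Cfsg.Agent.Lib.PalfyE Cfsg.Agent.Lib.MinNormalPrim
open Cfsg.Agent.Lib.CharBasic Cfsg.Agent.Lib.CharKernel Cfsg.Agent.Lib.CharInd
open scoped commutatorElement Pointwise

universe u

attribute [local instance] Fintype.ofFinite

section Mod

variable {G : Type u} [Group G] [Finite G] {N : Subgroup G} [hN : N.Normal]

/-- The action of a subgroup on the dual of `N`. -/
noncomputable abbrev phi (N L : Subgroup G) [N.Normal] : L →* Gam (Dual N) :=
  (rho N).comp L.subtype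

theorem phi_smul_apply (L : Subgroup G) (x : L) (a : Dual N) (n : N) :
    (Additive.toMul (phi N L x • a)) n = (Additive.toMul a) ⟨(x : G)⁻¹ * n * x, by
      have := hN.conj_mem _ n.2 (x : G)⁻¹
      simpa using this⟩ :=
  rho_smul_apply N (x : G) a n

/-- Stabilisers in terms of conjugation. -/
theorem mem_stab_phi {L : Subgroup G} {a : Dual N} {x : L} : x ∈ stab (phi N L) a ↔
    ∀ n : N, (Additive.toMul a) ⟨x * n * (x : G)⁻¹, hN.conj_mem n n.2 x⟩ = (Additive.toMul a) n := by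
  rw [mem_stab]
  constructor
  · intro h n
    have h1 := phi_smul_apply L x a ⟨x * n * (x : G)⁻¹, hN.conj_mem n n.2 x⟩
    rw [h] at h1
    rw [h1]
    congr 1
    apply Subtype.ext
    show (x : G)⁻¹ * (x * n * (x : G)⁻¹) * x = n
    group
  · intro h
    apply Additive.toMul.injective
    apply MonoidHom.ext
    intro m
    rw [phi_smul_apply]
    have h1 := h ⟨(x : G)⁻¹ * m * x, by
      have := hN.conj_mem _ m.2 (x : G)⁻¹
      simpa using this⟩
    rw [← h1]
    congr 1
    apply Subtype.ext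
    show (x : G) * ((x : G)⁻¹ * m * x) * (x : G)⁻¹ = m
    group

theorem stab_eq_stabT {L : Subgroup G} (r : G →* L) (a : Dual N) :
    stab (phi N L) a = stabT r L.subtype N (fun n => ((Additive.toMul a n : ℂˣ) : ℂ)) := by
  ext x
  rw [mem_stab_phi, mem_stabT]
  constructor
  · intro h n
    exact congrArg _ (h n)
  · intro h n
    exact Units.ext (h n)

/-- The annihilator in `N` of a subgroup of the dual. -/
def annih (W : AddSubgroup (Dual N)) : Subgroup G where
  carrier := {g | ∃ h : g ∈ N, ∀ w ∈ W, (Additive.toMul w) ⟨g, h⟩ = 1}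
  mul_mem' := by
    rintro a b ⟨ha, ha'⟩ ⟨hb, hb'⟩
    refine ⟨N.mul_mem ha hb, fun w hw => ?_⟩
    have h1 : (⟨a * b, N.mul_mem ha hb⟩ : N) = ⟨a, ha⟩ * ⟨b, hb⟩ := rfl
    rw [h1, map_mul, ha' w hw, hb' w hw, one_mul]
  one_mem' := ⟨N.one_mem, fun w _ => map_one _⟩
  inv_mem' := by
    rintro a ⟨ha, ha'⟩
    refine ⟨N.inv_mem ha, fun w hw => ?_⟩
    have h1 : (⟨a⁻¹, N.inv_mem ha⟩ : N) = (⟨a, ha⟩ : N)⁻¹ := rfl
    rw [h1, map_inv, ha' w hw, inv_one]

/-- The module dual to a minimal normal subgroup is irreducible. -/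
theorem dual_irr (hmin : IsMinNormal N) (hab : ∀ a ∈ N, ∀ b ∈ N, a * b = b * a) {L : Subgroup G}
    (hdec : ∀ g : G, ∃ k : G, (∀ n ∈ N, k * n = n * k) ∧ ∃ l ∈ L, g = k * l)
    (W : AddSubgroup (Dual N)) (hW : ∀ x : L, ∀ w ∈ W, phi N L x • w ∈ W) : W = ⊥ ∨ W = ⊤ := by
  have hnorm : (annih W).Normal := by
    constructor
    rintro n ⟨hn, hn'⟩ g
    obtain ⟨k, hk, l, hl, rfl⟩ := hdec g
    have h1 : l * n * l⁻¹ ∈ N := hN.conj_mem n hn l
    have h2 : (k * l) * n * (k * l)⁻¹ = l * n * l⁻¹ := by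
      have h3 := hk _ h1
      calc (k * l) * n * (k * l)⁻¹ = (k * (l * n * l⁻¹)) * k⁻¹ := by group
        _ = ((l * n * l⁻¹) * k) * k⁻¹ := by rw [h3]
        _ = _ := by group
    rw [h2]
    refine ⟨h1, fun w hw => ?_⟩
    have h4 := hW ⟨l⁻¹, L.inv_mem hl⟩ w hw
    have h5 := hn' _ h4
    rw [phi_smul_apply] at h5
    rw [← h5]
    congr 1
    apply Subtype.ext
    show l * n * l⁻¹ = l⁻¹⁻¹ * n * l⁻¹
    rw [inv_inv]
  have hle : annih W ≤ N := fun g hg => hg.1
  rcases hmin.2.2 _ hnorm hle with h | h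
  · right
    obtain ⟨hfin, hcard⟩ := NVTwo.card_dual N hab
    haveI := hfin
    let e : N → (Multiplicative W →* ℂˣ) := fun n =>
      { toFun := fun w => (Additive.toMul ((Multiplicative.toAdd w : W) : Dual N)) n
        map_one' := rfl
        map_mul' := fun a b => rfl }
    have he : Function.Injective e := by
      intro n m hnm
      have h1 : (n : G) * (m : G)⁻¹ ∈ annih W := by
        refine ⟨N.mul_mem n.2 (N.inv_mem m.2), fun w hw => ?_⟩
        have h2 := DFunLike.congr_fun hnm (Multiplicative.ofAdd (⟨w, hw⟩ : W))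
        have h3 : (Additive.toMul w) n = (Additive.toMul w) m := h2
        have h4 : (⟨(n : G) * (m : G)⁻¹, N.mul_mem n.2 (N.inv_mem m.2)⟩ : N) = n * m⁻¹ := rfl
        rw [h4, map_mul, map_inv, h3, mul_inv_cancel]
      rw [h] at h1
      have h2 := mul_inv_eq_one.1 (Subgroup.mem_bot.1 h1)
      exact Subtype.ext h2
    have hc1 : Nat.card (Multiplicative W →* ℂˣ) = Nat.card W := by
      haveI : NeZero (Monoid.exponent (Multiplicative W)) := ⟨Monoid.exponent_ne_zero_of_finite⟩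
      exact CommGroup.card_monoidHom_of_hasEnoughRootsOfUnity (Multiplicative W) ℂ
    haveI : Finite (Multiplicative W →* ℂˣ) :=
      Nat.finite_of_card_ne_zero (by rw [hc1]; exact Nat.card_pos.ne')
    have hc2 := Nat.card_le_card_of_injective e he
    apply AddSubgroup.eq_top_of_card_eq
    apply le_antisymm (AddSubgroup.card_le_card_addGroup W)
    rw [hcard, ← hc1]
    exact hc2
  · left
    rw [eq_bot_iff]
    intro w hw
    rw [AddSubgroup.mem_bot]
    apply Additive.toMul.injective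
    apply MonoidHom.ext
    intro n
    have h1 : (n : G) ∈ annih W := by
      rw [h]
      exact n.2
    obtain ⟨h2, h3⟩ := h1
    exact h3 w hw

theorem htA_dual {t : ℕ} (htN : ∀ a ∈ N, a ^ t = 1) (a : Dual N) : t • a = 0 := by
  apply Additive.toMul.injective
  apply MonoidHom.ext
  intro n
  show (Additive.toMul a n) ^ t = 1
  rw [← map_pow]
  have h1 : n ^ t = 1 := Subtype.ext (htN n n.2)
  rw [h1, map_one]

theorem toMul_ne_one {a : Dual N} (ha : a ≠ 0) : Additive.toMul a ≠ 1 := fun h =>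
  ha (Additive.toMul.injective h)

theorem H1_of_lin [Group.IsSolvable G] {L : Subgroup G} {r : G →* L} (hR : Ret r L.subtype N) {s ν : ℕ}
    [hν : Fact ν.Prime] (hcop : s.Coprime ν) (hO : OverDvd N s)
    (hno : ∀ χ : IrrCharacter G, ¬ s * ν ∣ charDegree (χ : G → ℂ)) : H1 (phi N L) ν := by
  intro a ha
  have hδ : Additive.toMul a ≠ 1 := toMul_ne_one ha
  set T := stabT r L.subtype N (fun n => ((Additive.toMul a n : ℂˣ) : ℂ)) with hT
  have hkey : ∀ β : IrrCharacter T, ¬ ν ∣ T.index * charDegree (β : T → ℂ) := by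
    intro β hd
    obtain ⟨χ, h1, h2⟩ := hR.exists_irr_lin (Additive.toMul a) β.2
    have h3 := hO _ hδ χ h2
    exact hno χ (by
      rw [h1]
      rw [h1] at h3
      exact hcop.mul_dvd_of_dvd_of_dvd h3 hd)
  have hβ₀ : ¬ ν ∣ T.index := fun h =>
    hkey ⟨_, isIrrCharacter_one⟩ (h.trans (Dvd.intro _ rfl))
  have hdeg : ∀ β : IrrCharacter T, ¬ ν ∣ charDegree (β : T → ℂ) := fun β h =>
    hkey β (h.trans (Dvd.intro_left _ rfl))
  obtain ⟨P, hP, hu⟩ := H1_local T hβ₀ hdeg
  rw [stab_eq_stabT r]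
  exact ⟨P, hP, hu⟩

theorem Ret.index_eq {X : Type u} [Group X] [Finite X] {r : G →* X} {s : X →* G} {K : Subgroup G}
    (h : Ret r s K) : K.index = Nat.card X := by
  have h1 : r.ker = K := by
    ext g
    exact h.ker g
  rw [← h1, Subgroup.index_ker, MonoidHom.range_eq_top_of_surjective r h.surj, Subgroup.card_top]

/-- The case where the Sylow subgroup acts fixed point freely on the minimal normal subgroup. -/
theorem false_of_typ2 [Group.IsSolvable G] {s u v : ℕ} (hb : Bad G s u v) (hNmin : IsMinNormal N)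
    (huniq : ∀ M : Subgroup G, M.Normal → M ≠ ⊥ → N ≤ M) (h : Typ2 N s) : False := by
  haveI : Fact s.Prime := ⟨hb.ps⟩
  haveI : Fact u.Prime := ⟨hb.pu⟩
  haveI : Fact v.Prime := ⟨hb.pv⟩
  have hab := minNormal_abelian hNmin
  obtain ⟨t, ht, htN⟩ := hNmin.exists_prime_pow_eq_one hab
  haveI : Fact t.Prime := ⟨ht⟩
  obtain ⟨S⟩ : Nonempty (Sylow s G) := inferInstance
  let L := Subgroup.normalizer ((S : Subgroup G) : Set G)
  have hdisj : ∀ x ∈ N, x ∈ L → x = 1 := by
    intro x hxN hxL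
    have h1 : x ∈ N ⊓ Subgroup.centralizer ((S : Subgroup G) : Set G) := by
      refine ⟨hxN, Subgroup.mem_centralizer_iff.2 fun y hy => ?_⟩
      have h2 : ⁅x, y⁆ ∈ N := by
        rw [commutatorElement_def]
        have h5 : x * y * x⁻¹ * y⁻¹ = x * (y * x⁻¹ * y⁻¹) := by group
        rw [h5]
        exact N.mul_mem hxN (hN.conj_mem _ (N.inv_mem hxN) y)
      have h3 : ⁅x, y⁆ ∈ (S : Subgroup G) := by
        rw [commutatorElement_def]
        exact (S : Subgroup G).mul_mem ((Subgroup.mem_normalizer_iff.1 hxL y).1 hy)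
          ((S : Subgroup G).inv_mem hy)
      have h4 := sylow_coprime_inf h.cop S h2 h3
      exact (commutatorElement_eq_one_iff_mul_comm.1 h4).symm
    rw [h.cen S] at h1
    exact h1
  have hdec : ∀ g : G, ∃ k ∈ N, ∃ l ∈ L, g = k * l := by
    intro g
    obtain ⟨l, hl, n, hn, rfl⟩ := exists_mul_of_sup_top (h.sup S) g
    exact ⟨l * n * l⁻¹, hN.conj_mem n hn l, l, hl, by group⟩
  obtain ⟨r, hr1, hr2⟩ := exists_retract hdisj hdec
  have hR : Ret r L.subtype N := ⟨hr1, hr2⟩
  obtain ⟨hfin, hcard⟩ := NVTwo.card_dual N hab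
  haveI := hfin
  have hO := overDvd_of_typ2 h.cop h.cen
  have hinj : Function.Injective (phi N L) := by
    rw [injective_iff_map_eq_one]
    intro x hx
    have h1 : ∀ m : N, (x : G) * m * (x : G)⁻¹ = m := NVTwo.conj_eq_of_rho_eq_one N hab hx
    let C : Subgroup G := L ⊓ Subgroup.centralizer (N : Set G)
    have hCn : C.Normal := by
      constructor
      rintro c ⟨hc1, hc2⟩ g
      obtain ⟨k, hk, l, hl, rfl⟩ := hdec g
      have hd : l * c * l⁻¹ ∈ Subgroup.centralizer (N : Set G) := by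
        refine Subgroup.mem_centralizer_iff.2 fun n hn => ?_
        have h2 := Subgroup.mem_centralizer_iff.1 hc2 (l⁻¹ * n * l)
          (by simpa using hN.conj_mem n hn l⁻¹)
        calc n * (l * c * l⁻¹) = l * ((l⁻¹ * n * l) * c) * l⁻¹ := by group
          _ = l * (c * (l⁻¹ * n * l)) * l⁻¹ := by rw [h2]
          _ = l * c * l⁻¹ * n := by group
      have h3 := Subgroup.mem_centralizer_iff.1 hd k hk
      have h4 : (k * l) * c * (k * l)⁻¹ = l * c * l⁻¹ := by
        calc (k * l) * c * (k * l)⁻¹ = (k * (l * c * l⁻¹)) * k⁻¹ := by group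
          _ = ((l * c * l⁻¹) * k) * k⁻¹ := by rw [h3]
          _ = _ := by group
      rw [h4]
      exact ⟨L.mul_mem (L.mul_mem hl hc1) (L.inv_mem hl), hd⟩
    have hxC : (x : G) ∈ C := by
      refine ⟨x.2, Subgroup.mem_centralizer_iff.2 fun n hn => ?_⟩
      have h2 := h1 ⟨n, hn⟩
      have h3 : (x : G) * n = n * x := by
        rw [← mul_inv_eq_iff_eq_mul]
        exact h2
      exact h3.symm
    by_cases hC : C = ⊥
    · rw [hC] at hxC
      exact Subtype.ext hxC
    · exfalso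
      have hNC := huniq C hCn hC
      apply hNmin.2.1
      rw [eq_bot_iff]
      intro n hn
      exact hdisj n hn (hNC hn).1
  have hirr : ∀ W : AddSubgroup (Dual N), (∀ x : L, ∀ w ∈ W, phi N L x • w ∈ W) → W = ⊥ ∨ W = ⊤ := by
    refine dual_irr hNmin hab ?_
    intro g
    obtain ⟨k, hk, l, hl, hg⟩ := hdec g
    exact ⟨k, fun n hn => hab k hk n hn, l, hl, hg⟩
  have hsu : s.Coprime u := (Nat.coprime_primes hb.ps hb.pu).2 hb.su
  have hsv : s.Coprime v := (Nat.coprime_primes hb.ps hb.pv).2 hb.sv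
  have hd : ∀ {q : ℕ}, s.Coprime q → (∃ χ : IrrCharacter G, q ∣ charDegree (χ : G → ℂ)) →
      (∀ χ : IrrCharacter G, ¬ s * q ∣ charDegree (χ : G → ℂ)) → q ∣ Nat.card L := by
    intro q h1 h2 h3
    obtain ⟨χ, h4, h5⟩ := rho_quot hab h1 hO h2 h3
    have h6 := CharKernel.charDegree_dvd_index N χ.2 h5
    rw [Ret.index_eq hR] at h6
    exact h4.trans h6
  have hB : BHyp (phi N L) t u v :=
    ⟨hinj, htA_dual htN, hirr, hb.uv, H1_of_lin hR hsu hO hb.nsu, H1_of_lin hR hsv hO hb.nsv,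
      hd hsu hb.ru hb.nsu, hd hsv hb.rv hb.nsv⟩
  haveI : Nontrivial (Dual N) := by
    rw [← Finite.one_lt_card_iff_nontrivial, hcard]
    exact (Subgroup.one_lt_card_iff_ne_bot N).2 hNmin.2.1
  refine false_of_BHyp hB fun χ hχ => ?_
  obtain ⟨χ', h1⟩ := irr_comp r hR.surj χ
  exact hb.nuv χ' (by rw [h1]; exact hχ)

end Mod

end Cfsg.Agent.Lib.PalfyF
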