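import Mathlib
import Cfsg.Agent.Lib.PalfyF

/-!
# Pálfy's three primes theorem: counting fixed points
-/

set_option autoImplicit false
set_option linter.unusedSectionVars false
set_option linter.unusedVariables false
set_option linter.style.haveILetI false

namespace Cfsg.Agent.Lib.PalfyG

open Cfsg Cfsg.Agent.Lib Cfsg.Agent.Lib.NVOrbit Cfsg.Agent.Lib.PCore
open Cfsg.Agent.Lib.PalfyA Cfsg.Agent.Lib.PalfyB Cfsg.Agent.Lib.PalfyC Cfsg.Agent.Lib.NVChar
open Cfsg.Agent.Lib.PalfyD Cfsg.Agent.Lib.PalfyE Cfsg.Agent.Lib.PalfyF Cfsg.Agent.Lib.MinNormalPrim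
open Cfsg.Agent.Lib.CharBasic Cfsg.Agent.Lib.CharKernel Cfsg.Agent.Lib.CharInd
open scoped commutatorElement Pointwise

universe u

section Count

variable {A : Type u} [AddCommGroup A] {H : Type u} [Group H] {φ : H →* Gam A}

/-- The fixed points in an additive subgroup. -/
def fixB (φ : H →* Gam A) (B : AddSubgroup A) (P : Subgroup H) : AddSubgroup A where
  carrier := {b | b ∈ B ∧ ∀ x ∈ P, φ x • b = b}
  add_mem' := by
    rintro a b ⟨ha, ha'⟩ ⟨hb, hb'⟩
    refine ⟨B.add_mem ha hb, fun x hx => ?_⟩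
    rw [smul_add, ha' x hx, hb' x hx]
  zero_mem' := ⟨B.zero_mem, fun x _ => smul_zero _⟩
  neg_mem' := by
    rintro a ⟨ha, ha'⟩
    refine ⟨B.neg_mem ha, fun x hx => ?_⟩
    rw [smul_neg, ha' x hx]

theorem card_eq_nonzero (M : Type u) [AddGroup M] [Finite M] :
    Nat.card M = Nat.card {b : M // b ≠ 0} + 1 := by
  classical
  rw [← Finite.card_option]
  exact (Nat.card_congr (Equiv.optionSubtypeNe (0 : M))).symm

theorem card_nonzero_fix_le [Finite A] {B : AddSubgroup A} (hB : ∀ x : H, ∀ b ∈ B, φ x • b ∈ B)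
    {P P' : Subgroup H} (g : H) (hP : ∀ x ∈ P', g⁻¹ * x * g ∈ P) :
    Nat.card (fixB φ B P) ≤ Nat.card (fixB φ B P') := by
  refine Nat.card_le_card_of_injective
    (fun b => (⟨φ g • (b : A), hB g _ b.2.1, ?_⟩ : fixB φ B P')) ?_
  · intro x hx
    have h1 := b.2.2 _ (hP x hx)
    have h2 : φ x * φ g = φ g * φ (g⁻¹ * x * g) := by
      rw [← map_mul, ← map_mul]
      congr 1
      group
    rw [← mul_smul, h2, mul_smul, h1]
  · intro b c hbc
    have h1 : φ g • (b : A) = φ g • (c : A) := congrArg Subtype.val hbc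
    exact Subtype.ext (smul_left_cancel _ h1)

variable {v : ℕ} [hv : Fact v.Prime]

/-- The fixed points of Sylow subgroups partition a module. -/
theorem count [Finite A] [Finite H] (B : AddSubgroup A) (hB : ∀ x : H, ∀ b ∈ B, φ x • b ∈ B)
    (h : ∀ b ∈ B, b ≠ 0 → ∃ P : Sylow v H, (P : Subgroup H) ≤ stab φ b ∧
      ∀ Q : Sylow v H, (Q : Subgroup H) ≤ stab φ b → Q = P) (P₀ : Sylow v H) :
    Nat.card B = Nat.card (Sylow v H) * (Nat.card (fixB φ B P₀) - 1) + 1 := by
  classical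
  letI : Fintype (Sylow v H) := Fintype.ofFinite _
  have hne : ∀ b : {b : B // b ≠ 0}, ((b : B) : A) ≠ 0 := fun b h0 => b.2 (Subtype.ext h0)
  let f : {b : B // b ≠ 0} → Sylow v H := fun b => (h _ b.1.2 (hne b)).choose
  have hf1 : ∀ b : {b : B // b ≠ 0}, ((f b : Sylow v H) : Subgroup H) ≤ stab φ ((b : B) : A) := fun b =>
    (h _ b.1.2 (hne b)).choose_spec.1
  have hf2 : ∀ b : {b : B // b ≠ 0}, ∀ Q : Sylow v H, (Q : Subgroup H) ≤ stab φ ((b : B) : A) → Q = f b :=
    fun b => (h _ b.1.2 (hne b)).choose_spec.2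
  have hfib : ∀ P : Sylow v H, Nat.card {b : {b : B // b ≠ 0} // f b = P} =
      Nat.card {b : fixB φ B P // b ≠ 0} := by
    intro P
    apply Nat.card_congr
    refine
      { toFun := fun b => ⟨⟨((b.1 : {b : B // b ≠ 0}) : B), (b.1.1 : B).2, ?_⟩, ?_⟩
        invFun := fun b => ⟨⟨⟨(b.1 : A), b.1.2.1⟩, ?_⟩, ?_⟩
        left_inv := ?_
        right_inv := ?_ }
    · intro x hx
      have h1 := hf1 b.1
      rw [b.2] at h1
      exact h1 hx
    · intro h0
      have h1 := congrArg Subtype.val h0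
      exact hne b.1 h1
    · intro h0
      have h1 := congrArg Subtype.val h0
      exact b.2 (Subtype.ext h1)
    · symm
      exact hf2 _ P (fun x hx => b.1.2.2 x hx)
    · intro b
      rfl
    · intro b
      rfl
  have hconj : ∀ P : Sylow v H, Nat.card (fixB φ B P) = Nat.card (fixB φ B P₀) := by
    intro P
    obtain ⟨g, hg⟩ := MulAction.exists_smul_eq H P₀ P
    have hP : (P : Subgroup H) = MulAut.conj g • (P₀ : Subgroup H) := by
      rw [← hg]
      rfl
    have hmem : ∀ y, y ∈ (P : Subgroup H) ↔ g⁻¹ * y * g ∈ (P₀ : Subgroup H) := by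
      intro y
      rw [hP, Subgroup.mem_pointwise_smul_iff_inv_smul_mem]
      simp [MulAut.smul_def]
    apply le_antisymm
    · refine card_nonzero_fix_le hB g⁻¹ ?_
      intro x hx
      rw [hmem]
      have h3 : g⁻¹ * (g⁻¹⁻¹ * x * g⁻¹) * g = x := by group
      rw [h3]
      exact hx
    · refine card_nonzero_fix_le hB g ?_
      intro x hx
      exact (hmem x).1 hx
  have h1 : Nat.card {b : B // b ≠ 0} =
      Nat.card (Sylow v H) * (Nat.card (fixB φ B P₀) - 1) := by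
    rw [← Nat.card_congr (Equiv.sigmaFiberEquiv f), Nat.card_sigma]
    simp only [hfib]
    have h2 : ∀ P : Sylow v H, Nat.card {b : fixB φ B P // b ≠ 0} = Nat.card (fixB φ B P₀) - 1 := by
      intro P
      have h3 := card_eq_nonzero (fixB φ B P)
      rw [hconj P] at h3
      omega
    simp only [h2]
    rw [Finset.sum_const, Finset.card_univ, smul_eq_mul, Nat.card_eq_fintype_card (α := Sylow v H)]
  rw [card_eq_nonzero B, h1]

/-- The numerical contradiction. -/
theorem numeric {s e f a b n : ℕ} (hs : 2 ≤ s) (h1 : s ^ e = n * (s ^ a - 1) + 1)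
    (h2 : s ^ f = n * (s ^ b - 1) + 1) (hab : a < b) (hn : 2 ≤ n) (hbf : b ≤ f) (hae : a ≤ e)
    (ha : 1 ≤ a) : False := by
  have hsa : ∀ k : ℕ, 1 ≤ s ^ k := fun k => Nat.one_le_pow _ _ (by omega)
  have hsa2 : 2 ≤ s ^ a := by
    calc 2 ≤ s := hs
      _ = s ^ 1 := (pow_one s).symm
      _ ≤ s ^ a := Nat.pow_le_pow_right (by omega) ha
  zify [hsa a, hsa b] at h1 h2
  have hsz : (2 : ℤ) ≤ s := by exact_mod_cast hs
  obtain ⟨z, rfl⟩ : ∃ z, b = a + 1 + z := ⟨b - (a + 1), by omega⟩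
  obtain ⟨w, rfl⟩ : ∃ w, f = a + 1 + z + w := ⟨f - (a + 1 + z), by omega⟩
  have hdvd : (s : ℤ) ^ (a + 1) ∣ (n : ℤ) - 1 := by
    refine ⟨n * (s : ℤ) ^ z - (s : ℤ) ^ (z + w), ?_⟩
    have e1 : (s : ℤ) ^ (a + 1 + z + w) = (s : ℤ) ^ (a + 1) * (s : ℤ) ^ (z + w) := by ring
    have e2 : (s : ℤ) ^ (a + 1 + z) = (s : ℤ) ^ (a + 1) * (s : ℤ) ^ z := by ring
    rw [e1] at h2
    rw [e2] at h2
    linear_combination h2
  obtain ⟨k, hk⟩ := hdvd
  have hn' : (n : ℤ) = 1 + (s : ℤ) ^ (a + 1) * k := by linarith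
  rcases Nat.lt_or_ge a e with hlt | hle
  · obtain ⟨y, rfl⟩ : ∃ y, e = a + 1 + y := ⟨e - (a + 1), by omega⟩
    have e3 : (s : ℤ) ^ (a + 1 + y) = (s : ℤ) ^ (a + 1) * (s : ℤ) ^ y := by ring
    rw [e3, hn'] at h1
    have hpos : (0 : ℤ) < (s : ℤ) ^ a := by positivity
    have h4 : (s : ℤ) * ((s : ℤ) ^ y - k * ((s : ℤ) ^ a - 1)) = 1 := by
      have h5 : (s : ℤ) ^ a * ((s : ℤ) * ((s : ℤ) ^ y - k * ((s : ℤ) ^ a - 1))) = (s : ℤ) ^ a * 1 := by
        rw [pow_succ] at h1
        linear_combination h1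
      exact mul_left_cancel₀ hpos.ne' h5
    have h6 : (s : ℤ) ∣ 1 := ⟨_, h4.symm⟩
    have h7 := Int.le_of_dvd one_pos h6
    linarith
  · have hea : e = a := le_antisymm hle hae
    subst hea
    have h5 : ((s : ℤ) ^ e - 1) * ((n : ℤ) - 1) = 0 := by linear_combination -h1
    have h6 : (2 : ℤ) ≤ (s : ℤ) ^ e := by exact_mod_cast hsa2
    have h7 : (2 : ℤ) ≤ n := by exact_mod_cast hn
    have h8 : (0 : ℤ) < ((s : ℤ) ^ e - 1) * ((n : ℤ) - 1) := by
      apply mul_pos <;> linarith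
    linarith

end Count

section Sep

/-- Separating a point from a subgroup by a linear character. -/
theorem exists_hom_sep {M : Type*} [Group M] [Finite M] (hc : ∀ x y : M, x * y = y * x) (K : Subgroup M)
    {x : M} (hx : x ∉ K) : ∃ l : M →* ℂˣ, (∀ k ∈ K, l k = 1) ∧ l x ≠ 1 := by
  letI instM : CommGroup M := { (inferInstance : Group M) with mul_comm := hc }
  have hd : (x : M ⧸ K) ≠ 1 := fun h => hx ((QuotientGroup.eq_one_iff x).1 h)
  haveI : NeZero (Monoid.exponent (M ⧸ K)) := ⟨Monoid.exponent_ne_zero_of_finite⟩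
  obtain ⟨l, hl⟩ := CommGroup.exists_apply_ne_one_of_hasEnoughRootsOfUnity (M ⧸ K) ℂ hd
  refine ⟨l.comp (QuotientGroup.mk' K), ?_, hl⟩
  intro k hk
  show l (k : M ⧸ K) = 1
  rw [(QuotientGroup.eq_one_iff k).2 hk, map_one]

/-- Linear characters of a finite group form a finite set. -/
theorem finite_dual (M : Type*) [Group M] [Finite M] : Finite (M →* ℂˣ) := by
  haveI : NeZero (Monoid.exponent (Abelianization M)) := ⟨Monoid.exponent_ne_zero_of_finite⟩
  have h1 := CommGroup.card_monoidHom_of_hasEnoughRootsOfUnity (Abelianization M) ℂ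
  haveI : Finite (Abelianization M →* ℂˣ) :=
    Nat.finite_of_card_ne_zero (by rw [h1]; exact Nat.card_pos.ne')
  exact Finite.of_equiv _ (Abelianization.lift (G := M) (A := ℂˣ)).symm

/-- A group is not the union of two proper subgroups. -/
theorem exists_not_mem_two {M : Type*} [AddGroup M] (B₁ B₂ : AddSubgroup M) {a b : M} (ha : a ∉ B₁)
    (hb : b ∉ B₂) : ∃ c, c ∉ B₁ ∧ c ∉ B₂ := by
  by_cases h1 : a ∈ B₂
  · by_cases h2 : b ∈ B₁
    · refine ⟨a + b, ?_, ?_⟩
      · intro h3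
        apply ha
        have h4 := B₁.add_mem h3 (B₁.neg_mem h2)
        simpa using h4
      · intro h3
        apply hb
        have h4 := B₂.add_mem (B₂.neg_mem h1) h3
        simpa using h4
    · exact ⟨b, h2, hb⟩
  · exact ⟨a, ha, h1⟩

end Sep

end Cfsg.Agent.Lib.PalfyG
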