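import Mathlib
import Cfsg.Agent.Lib.PalfyG

/-!
# Pálfy's three primes theorem: the case of a normal Sylow subgroup with commutator subgroup minimal
-/

set_option autoImplicit false
set_option linter.unusedSectionVars false
set_option linter.unusedVariables false
set_option linter.style.haveILetI false

namespace Cfsg.Agent.Lib.PalfyH

open Cfsg Cfsg.Agent.Lib Cfsg.Agent.Lib.NVOrbit Cfsg.Agent.Lib.PCore
open Cfsg.Agent.Lib.PalfyA Cfsg.Agent.Lib.PalfyB Cfsg.Agent.Lib.PalfyC Cfsg.Agent.Lib.NVChar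
open Cfsg.Agent.Lib.PalfyD Cfsg.Agent.Lib.PalfyE Cfsg.Agent.Lib.PalfyF Cfsg.Agent.Lib.PalfyG
open Cfsg.Agent.Lib.MinNormalPrim
open Cfsg.Agent.Lib.CharBasic Cfsg.Agent.Lib.CharKernel Cfsg.Agent.Lib.CharInd
open scoped commutatorElement Pointwise

universe u

attribute [local instance] Fintype.ofFinite

section CI

variable {G : Type u} [Group G] [Finite G] {N S L : Subgroup G} [hN : N.Normal] [hS : S.Normal]
  {r : G →* L} {s : ℕ}

/-- The setting. -/
structure CI (N S L : Subgroup G) (r : G →* L) (s : ℕ) : Prop where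
  pS : IsPGroup s S
  eq : N = ⁅S, S⁆
  cen : ∀ n ∈ N, ∀ y ∈ S, n * y = y * n
  ret : Ret r L.subtype S
  cop : (Nat.card S).Coprime (Nat.card L)

theorem CI.comm_mem (h : CI N S L r s) {y z : G} (hy : y ∈ S) (hz : z ∈ S) : ⁅y, z⁆ ∈ N := by
  rw [h.eq]
  exact Subgroup.commutator_mem_commutator hy hz

theorem CI.le (h : CI N S L r s) : N ≤ S := by
  rw [h.eq]
  exact Subgroup.commutator_le_self S

theorem CI.hab (h : CI N S L r s) : ∀ a ∈ N, ∀ b ∈ N, a * b = b * a :=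
  fun a ha b hb => h.cen a ha b (h.le hb)

/-- The commutator map. -/
def cc (h : CI N S L r s) (y z : S) : N := ⟨⁅(y : G), (z : G)⁆, h.comm_mem y.2 z.2⟩

theorem cc_coe (h : CI N S L r s) (y z : S) : ((cc h y z : N) : G) = ⁅(y : G), (z : G)⁆ := rfl

theorem cc_mul_right (h : CI N S L r s) (y z z' : S) : cc h y (z * z') = cc h y z * cc h y z' := by
  apply Subtype.ext
  show ⁅(y : G), (z : G) * (z' : G)⁆ = ⁅(y : G), (z : G)⁆ * ⁅(y : G), (z' : G)⁆
  have hn := h.comm_mem y.2 z'.2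
  have hc := h.cen _ hn _ (S.inv_mem z.2)
  simp only [commutatorElement_def] at hc ⊢
  calc (y : G) * (z * z') * (y : G)⁻¹ * ((z : G) * z')⁻¹
      = y * z * (y : G)⁻¹ * (((y : G) * z' * (y : G)⁻¹ * (z' : G)⁻¹) * (z : G)⁻¹) := by group
    _ = y * z * (y : G)⁻¹ * ((z : G)⁻¹ * ((y : G) * z' * (y : G)⁻¹ * (z' : G)⁻¹)) := by rw [hc]
    _ = _ := by group

theorem cc_mul_left (h : CI N S L r s) (y y' z : S) : cc h (y * y') z = cc h y z * cc h y' z := by
  apply Subtype.ext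
  show ⁅(y : G) * (y' : G), (z : G)⁆ = ⁅(y : G), (z : G)⁆ * ⁅(y' : G), (z : G)⁆
  have hn := h.comm_mem y'.2 z.2
  have hn1 := h.comm_mem y.2 z.2
  have hc := h.cen _ hn _ y.2
  have hc2 := h.hab _ hn _ hn1
  rw [← hc2]
  simp only [commutatorElement_def] at hc ⊢
  calc (y : G) * y' * z * ((y : G) * y')⁻¹ * (z : G)⁻¹
      = y * (((y' : G) * z * (y' : G)⁻¹ * (z : G)⁻¹) * (z * (y : G)⁻¹ * (z : G)⁻¹)) := by group
    _ = (y * ((y' : G) * z * (y' : G)⁻¹ * (z : G)⁻¹)) * (z * (y : G)⁻¹ * (z : G)⁻¹) := by group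
    _ = (((y' : G) * z * (y' : G)⁻¹ * (z : G)⁻¹) * y) * (z * (y : G)⁻¹ * (z : G)⁻¹) := by rw [hc]
    _ = _ := by group

/-- The commutator map in the second variable. -/
def cmL (h : CI N S L r s) (y : S) : S →* N := MonoidHom.mk' (cc h y) (cc_mul_right h y)

/-- The commutator map in the first variable. -/
def cmR (h : CI N S L r s) (z : S) : S →* N := MonoidHom.mk' (fun y => cc h y z)
  (fun y y' => cc_mul_left h y y' z)

@[simp] theorem cmL_apply (h : CI N S L r s) (y z : S) : cmL h y z = cc h y z := rfl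

@[simp] theorem cmR_apply (h : CI N S L r s) (y z : S) : cmR h z y = cc h y z := rfl

theorem cc_symm (h : CI N S L r s) (y z : S) : cc h y z = (cc h z y)⁻¹ := by
  apply Subtype.ext
  show ⁅(y : G), (z : G)⁆ = ⁅(z : G), (y : G)⁆⁻¹
  rw [commutatorElement_inv]

/-- Conjugation on `S`. -/
noncomputable def cj (S : Subgroup G) [hS : S.Normal] (x : G) : S →* S :=
  (MulAut.conjNormal x : MulAut S).toMonoidHom

@[simp] theorem cj_coe (x : G) (y : S) : ((cj S x y : S) : G) = x * y * x⁻¹ :=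
  MulAut.conjNormal_apply x y

theorem cc_cj (h : CI N S L r s) (x : G) (y z : S) :
    ((cc h (cj S x y) (cj S x z) : N) : G) = x * (cc h y z) * x⁻¹ := by
  rw [cc_coe, cc_coe, cj_coe, cj_coe]
  simp only [commutatorElement_def]
  group

/-- Characters of `N` restricted to the subgroup of `S`. -/
def res (N S : Subgroup G) (a : Dual N) : N.subgroupOf S →* ℂˣ :=
  (Additive.toMul a).comp
    { toFun := fun n => ⟨((n : S) : G), n.2⟩
      map_one' := rfl
      map_mul' := fun _ _ => rfl }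

theorem res_apply (a : Dual N) (n : N.subgroupOf S) :
    res N S a n = Additive.toMul a ⟨((n : S) : G), n.2⟩ := rfl

theorem CI.res_ne_one (h : CI N S L r s) {a : Dual N} (ha : a ≠ 0) : res N S a ≠ 1 := by
  intro h1
  apply ha
  apply Additive.toMul.injective
  apply MonoidHom.ext
  intro n
  have h2 := DFunLike.congr_fun h1 ⟨⟨n, h.le n.2⟩, n.2⟩
  exact h2

/-- A character of `S` over a character of `N`. -/
def Ov (θ : S → ℂ) (a : Dual N) : Prop :=
  classInner (fun n : N.subgroupOf S => θ n) (fun n => ((res N S a n : ℂˣ) : ℂ)) ≠ 0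

theorem CI.nonlinear [hs : Fact s.Prime] (h : CI N S L r s) {θ : S → ℂ} (hθ : IsIrrCharacter S θ)
    {a : Dual N} (ha : a ≠ 0) (hov : Ov θ a) : s ∣ charDegree θ := by
  have hp : IsPGroup s S := h.pS
  rcases CharCentral.pGroup_degree_one_or_dvd hp hθ with h1 | h1
  · exfalso
    have hc := IsIrrCharacter.isCharacter hθ
    have h2 : θ 1 = 1 := by
      rw [one_eq_charDegree hc, h1]
      simp
    obtain ⟨f, hf⟩ := exists_hom_of_degree_one hc h2
    apply hov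
    apply over_of_ker (N.subgroupOf S) _ (res N S a) (h.res_ne_one ha)
    intro n hn
    have h3 : ((n : S) : G) ∈ ⁅S, S⁆ := by
      rw [← h.eq]
      exact hn
    have h4 := hom_comm_eq_one S f h3 n.2
    rw [hf, hf, map_one]
    have h5 : f n = 1 := h4
    rw [h5]
  · exact h1

theorem CI.central (h : CI N S L r s) {θ : S → ℂ} (hθ : IsIrrCharacter S θ) {a : Dual N}
    (hov : Ov θ a) (n : N.subgroupOf S) : θ n = θ 1 * ((res N S a n : ℂˣ) : ℂ) := by
  have hinv : ∀ (g : S) (n : N.subgroupOf S),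
      (fun n => ((res N S a n : ℂˣ) : ℂ)) (⟨g * n * g⁻¹, (inferInstance : (N.subgroupOf S).Normal).conj_mem _ n.2 g⟩ : N.subgroupOf S) =
        (fun n => ((res N S a n : ℂˣ) : ℂ)) n := by
    intro g n
    show ((res N S a _ : ℂˣ) : ℂ) = _
    congr 2
    apply Subtype.ext
    apply Subtype.ext
    show (g : G) * n * (g : G)⁻¹ = n
    have h6 : (((n : S) : G)) * (g : G) = (g : G) * ((n : S) : G) := h.cen _ n.2 _ g.2
    rw [← h6]
    group
  obtain ⟨e, he0, hres, he⟩ := Clifford.restrict_eq_smul_of_invariant (N.subgroupOf S)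
    (isIrrCharacter_of_hom (res N S a)) hinv hθ hov
  have h1 := congrFun hres n
  have h2 := congrFun hres 1
  simp only [Pi.smul_apply, smul_eq_mul] at h1 h2
  rw [h1]
  have h3 : ((res N S a 1 : ℂˣ) : ℂ) = 1 := by
    rw [map_one]
    rfl
  have h4 : θ 1 = e := by
    have h5 : ((1 : N.subgroupOf S) : S) = 1 := rfl
    rw [h5] at h2
    rw [h2, h3, mul_one]
  rw [h4]

/-- Existence of an invariant character over a character of `N`. -/
theorem CI.exists_theta [Group.IsSolvable G] (h : CI N S L r s) (a : Dual N) :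
    ∃ θ : IrrCharacter S, Ov (θ : S → ℂ) a ∧
      ∀ x : L, x ∈ stab (phi N L) a → ∀ y : S, (θ : S → ℂ) (cj S x y) = (θ : S → ℂ) y := by
  let f : L →* MulAut S := (MulAut.conjNormal (H := S)).comp L.subtype
  let A : Subgroup (MulAut S) := (stab (phi N L) a).map f
  have hAsolv : Group.IsSolvable A :=
    Group.isSolvable_of_surjective (f.subgroupMap_surjective (stab (phi N L) a))
  have hcardA : Nat.card A ∣ Nat.card L :=
    (Subgroup.card_dvd_of_surjective (f.subgroupMap (stab (phi N L) a))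
      (f.subgroupMap_surjective _)).trans (Subgroup.card_subgroup_dvd_card _)
  have hcop : (Nat.card S).Coprime (Nat.card A) := Nat.Coprime.coprime_dvd_right hcardA h.cop
  obtain ⟨χ, hχ⟩ := GlaubAbove.exists_inv_over (Nat.card A) S A (N.subgroupOf S) rfl hAsolv hcop
    inferInstance
    (by
      rintro _ ⟨x, hx, rfl⟩ y hy
      show (x : G) * y * (x : G)⁻¹ ∈ N
      exact hN.conj_mem _ hy _)
    ⟨_, isIrrCharacter_of_hom (res N S a)⟩
    (by
      rintro _ ⟨t, ht, rfl⟩ n n' hn'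
      show ((res N S a n' : ℂˣ) : ℂ) = ((res N S a n : ℂˣ) : ℂ)
      congr 1
      have h1 := mem_stab_phi.1 ht ⟨((n : S) : G), n.2⟩
      rw [res_apply, res_apply, ← h1]
      congr 1
      apply Subtype.ext
      show ((n' : S) : G) = (t : G) * ((n : S) : G) * (t : G)⁻¹
      rw [hn']
      rfl)
  refine ⟨χ.1, hχ, ?_⟩
  intro x hx y
  exact χ.2 _ ⟨x, hx, rfl⟩ y

theorem CI.stabT_eq (h : CI N S L r s) {θ : S → ℂ} (hθ : IsIrrCharacter S θ) {a : Dual N}
    (hov : Ov θ a) (hinv : ∀ x : L, x ∈ stab (phi N L) a → ∀ y : S, θ (cj S x y) = θ y) :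
    stabT r L.subtype S θ = stab (phi N L) a := by
  ext x
  rw [mem_stabT]
  constructor
  · intro h1
    rw [mem_stab_phi]
    intro n
    have h2 := h1 ⟨n, h.le n.2⟩
    have h3 := h.central hθ hov ⟨⟨n, h.le n.2⟩, n.2⟩
    have h4 := h.central hθ hov ⟨⟨x * n * (x : G)⁻¹, hS.conj_mem _ (h.le n.2) x⟩, hN.conj_mem _ n.2 x⟩
    have h5 : θ 1 ≠ 0 := Clifford.irr_degree_ne_zero hθ
    apply Units.ext
    apply mul_left_cancel₀ h5
    have h6 : θ ⟨x * n * (x : G)⁻¹, hS.conj_mem _ (h.le n.2) x⟩ = θ ⟨n, h.le n.2⟩ := h2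
    have h7 : θ ⟨x * n * (x : G)⁻¹, hS.conj_mem _ (h.le n.2) x⟩ =
        θ 1 * ((res N S a ⟨⟨x * n * (x : G)⁻¹, hS.conj_mem _ (h.le n.2) x⟩, hN.conj_mem _ n.2 x⟩ : ℂˣ) : ℂ) := h4
    have h8 : θ ⟨n, h.le n.2⟩ = θ 1 * ((res N S a ⟨⟨n, h.le n.2⟩, n.2⟩ : ℂˣ) : ℂ) := h3
    rw [h6, h8] at h7
    exact h7.symm
  · intro h1 y
    exact hinv x h1 y

theorem CI.H1 [Group.IsSolvable G] [hs : Fact s.Prime] (h : CI N S L r s) {ν : ℕ} [hν : Fact ν.Prime]
    (hsν : s.Coprime ν) (hno : ∀ χ : IrrCharacter G, ¬ s * ν ∣ charDegree (χ : G → ℂ)) :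
    H1 (phi N L) ν := by
  intro a ha
  obtain ⟨θ, hov, hinv⟩ := h.exists_theta a
  have hd := h.nonlinear θ.2 ha hov
  have hTe := h.stabT_eq θ.2 hov hinv
  rw [← hTe]
  set T := stabT r L.subtype S (θ : S → ℂ) with hT
  have hkey : ∀ β : IrrCharacter T, ¬ ν ∣ T.index * charDegree (β : T → ℂ) := by
    intro β hd2
    obtain ⟨χ, h1, -⟩ := h.ret.exists_irr_cop h.cop θ.2 β.2
    refine hno χ ?_
    rw [h1, mul_comm s ν, mul_comm _ (charDegree (θ : S → ℂ)), mul_comm ν]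
    exact mul_dvd_mul hd hd2
  have hβ₀ : ¬ ν ∣ T.index := fun h1 =>
    hkey ⟨_, isIrrCharacter_one⟩ (h1.trans (Dvd.intro _ rfl))
  have hdeg : ∀ β : IrrCharacter T, ¬ ν ∣ charDegree (β : T → ℂ) := fun β h1 =>
    hkey β (h1.trans (Dvd.intro_left _ rfl))
  exact H1_local T hβ₀ hdeg

/-- Primes in degrees divide the order of the complement. -/
theorem CI.dvd_card (h : CI N S L r s) {ν : ℕ} (hsν : s.Coprime ν) (hO : OverDvd N s)
    (hq : ∃ χ : IrrCharacter G, ν ∣ charDegree (χ : G → ℂ))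
    (hno : ∀ χ : IrrCharacter G, ¬ s * ν ∣ charDegree (χ : G → ℂ)) : ν ∣ Nat.card L := by
  obtain ⟨χ, h1, h2⟩ := rho_quot h.hab hsν hO hq hno
  obtain ⟨χ', h3, h4⟩ := exists_quotient_irr N χ.2 h2
  have h5 : charDegree χ' = charDegree (χ : G → ℂ) := by
    simp only [charDegree]
    have h6 := h4 1
    rw [QuotientGroup.mk_one] at h6
    rw [h6]
  let π := QuotientGroup.mk' N
  have hπ : Function.Surjective π := QuotientGroup.mk'_surjective N
  haveI hSb : (S.map π).Normal := Subgroup.Normal.map hS π hπ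
  have hcomm : ∀ a b : S.map π, a * b = b * a := by
    rintro ⟨_, y, hy, rfl⟩ ⟨_, z, hz, rfl⟩
    apply Subtype.ext
    show π y * π z = π z * π y
    rw [← commutatorElement_eq_one_iff_mul_comm, ← map_commutatorElement]
    exact (QuotientGroup.eq_one_iff _).2 (h.comm_mem hy hz)
  have h6 := McKayTools.ito_dvd (S.map π) hcomm h3
  have h7 : (S.map π).index = S.index := by
    rw [Subgroup.index_map, MonoidHom.range_eq_top_of_surjective π hπ, Subgroup.index_top, mul_one,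
      QuotientGroup.ker_mk', sup_eq_left.2 h.le]
  rw [h7, Ret.index_eq h.ret, h5] at h6
  exact h1.trans h6

/-- Coprime conjugation. -/
theorem CI.conj_eq (h : CI N S L r s) {x y : G} (hx : x ∈ L) (hy : y ∈ S)
    (hxN : ∀ n ∈ N, x * n = n * x) (hd : x * y * x⁻¹ * y⁻¹ ∈ N) : x * y * x⁻¹ = y := by
  set d := x * y * x⁻¹ * y⁻¹ with hdd
  have h1 : x * y * x⁻¹ = y * d := by
    have h2 := h.cen d hd y hy
    rw [← h2, hdd]
    group
  have hc : Commute x d := hxN d hd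
  have hcop : (orderOf x).Coprime (orderOf d) := by
    have h3 : orderOf x ∣ Nat.card L := by
      have h4 := orderOf_dvd_natCard (⟨x, hx⟩ : L)
      rwa [Subgroup.orderOf_mk] at h4
    have h5 : orderOf d ∣ Nat.card S := by
      have h4 := orderOf_dvd_natCard (⟨d, h.le hd⟩ : S)
      rwa [Subgroup.orderOf_mk] at h4
    exact (Nat.Coprime.coprime_dvd_left h5 (Nat.Coprime.coprime_dvd_right h3 h.cop)).symm
  have h6 := OddLocalA.eq_one_of_conj_eq_mul x y d h1 hc hcop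
  rw [h1, h6, mul_one]

/-- Elements outside `N` are detected by linear characters of `S`. -/
theorem CI.exists_dual_ne (h : CI N S L r s) (d : S) (hd : (d : G) ∉ N) : ∃ μ : S →* ℂˣ, μ d ≠ 1 ∧
    ∀ n : S, (n : G) ∈ N → μ n = 1 := by
  have hc : ∀ x y : S ⧸ N.subgroupOf S, x * y = y * x := by
    intro x y
    obtain ⟨x, rfl⟩ := QuotientGroup.mk_surjective x
    obtain ⟨y, rfl⟩ := QuotientGroup.mk_surjective y
    rw [← commutatorElement_eq_one_iff_mul_comm]
    have h1 : ⁅((x : S) : S ⧸ N.subgroupOf S), ((y : S) : S ⧸ N.subgroupOf S)⁆ =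
        ((⁅x, y⁆ : S) : S ⧸ N.subgroupOf S) := rfl
    rw [h1, QuotientGroup.eq_one_iff]
    exact h.comm_mem x.2 y.2
  have hd' : ((d : S) : S ⧸ N.subgroupOf S) ∉ (⊥ : Subgroup (S ⧸ N.subgroupOf S)) := by
    intro h1
    apply hd
    have h2 := (QuotientGroup.eq_one_iff d).1 h1
    exact h2
  obtain ⟨l, -, hl⟩ := exists_hom_sep hc ⊥ hd'
  refine ⟨l.comp (QuotientGroup.mk' _), hl, ?_⟩
  intro n hn
  show l (n : S ⧸ N.subgroupOf S) = 1
  rw [(QuotientGroup.eq_one_iff n).2 hn, map_one]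

/-- If all linear characters are fixed then `x` centralises `S`. -/
theorem CI.comm_of_fix_all (h : CI N S L r s) {x : L} (hxN : ∀ n ∈ N, (x : G) * n = n * x)
    (hfix : ∀ μ : Dual S, phi S L x • μ = μ) (y : G) (hy : y ∈ S) : (x : G) * y = y * x := by
  have hd : (x : G) * y * (x : G)⁻¹ * y⁻¹ ∈ N := by
    by_contra hn
    have hmem : (x : G) * y * (x : G)⁻¹ * y⁻¹ ∈ S :=
      S.mul_mem (hS.conj_mem _ hy _) (S.inv_mem hy)
    obtain ⟨μ, hμ, -⟩ := h.exists_dual_ne ⟨_, hmem⟩ hn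
    apply hμ
    have h1 := hfix (Additive.ofMul μ)
    have h2 := phi_smul_apply L x (Additive.ofMul μ) ⟨(x : G) * y * (x : G)⁻¹, hS.conj_mem _ hy _⟩
    rw [h1] at h2
    have h3 : μ ⟨(x : G) * y * (x : G)⁻¹, hS.conj_mem _ hy _⟩ = μ ⟨y, hy⟩ := by
      refine h2.trans ?_
      show μ _ = μ _
      congr 1
      apply Subtype.ext
      show (x : G)⁻¹ * ((x : G) * y * (x : G)⁻¹) * x = y
      group
    have h4 : (⟨(x : G) * y * (x : G)⁻¹ * y⁻¹, hmem⟩ : S) =
        ⟨(x : G) * y * (x : G)⁻¹, hS.conj_mem _ hy _⟩ * (⟨y, hy⟩ : S)⁻¹ := rfl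
    rw [h4, map_mul, map_inv, h3, mul_inv_cancel]
  have h5 := h.conj_eq x.2 hy hxN hd
  calc (x : G) * y = ((x : G) * y * (x : G)⁻¹) * x := by group
    _ = y * x := by rw [h5]

end CI

section Range

variable {A : Type u} [AddCommGroup A] [Finite A] {H : Type u} [Group H] [Finite H] {φ : H →* Gam A}

theorem H1_range {ν : ℕ} [hν : Fact ν.Prime] (hH : H1 φ ν) : H1 φ.range.subtype ν := by
  intro a ha
  obtain ⟨P, hP, hPu⟩ := hH a ha
  have hq : Function.Surjective φ.rangeRestrict := φ.rangeRestrict_surjective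
  refine ⟨P.mapSurjective hq, ?_, ?_⟩
  · rintro _ ⟨x, hx, rfl⟩
    exact hP hx
  · intro Q hQ
    obtain ⟨Q₀, rfl⟩ := Sylow.mapSurjective_surjective hq ν Q
    have h1 : (Q₀ : Subgroup H) ≤ stab φ a := fun x hx => hQ ⟨x, hx, rfl⟩
    rw [hPu Q₀ h1]

theorem dvd_card_range {ν : ℕ} [hν : Fact ν.Prime] (P : Sylow ν H) (hP : ¬ (P : Subgroup H) ≤ φ.ker) :
    ν ∣ Nat.card φ.range := by
  obtain ⟨x, hx, hx1⟩ := Set.not_subset.1 hP
  obtain ⟨k, hk⟩ := exists_pow_of_mem_sylow P hx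
  have h1 : φ.rangeRestrict x ≠ 1 := fun h2 => hx1 (by
    show φ x = 1
    exact congrArg Subtype.val h2)
  have h2 : (φ.rangeRestrict x) ^ (ν ^ k) = 1 := by
    rw [← map_pow, hk, map_one]
  have h3 := orderOf_dvd_of_pow_eq_one h2
  obtain ⟨j, -, hj⟩ := (Nat.dvd_prime_pow hν.out).1 h3
  have h4 : j ≠ 0 := by
    rintro rfl
    apply h1
    rw [pow_zero] at hj
    exact orderOf_eq_one_iff.1 hj
  have h5 : ν ∣ orderOf (φ.rangeRestrict x) := by
    rw [hj]
    exact dvd_pow_self ν h4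
  exact h5.trans (orderOf_dvd_natCard _)

theorem normal_of_unique {ν : ℕ} [hν : Fact ν.Prime] (P : Sylow ν H) (hu : ∀ Q : Sylow ν H, Q = P)
    (g : H) {x : H} (hx : x ∈ (P : Subgroup H)) : g * x * g⁻¹ ∈ (P : Subgroup H) := by
  have h1 : g • P = P := hu _
  have h2 : g * x * g⁻¹ ∈ ((g • P : Sylow ν H) : Subgroup H) := by
    rw [Sylow.coe_subgroup_smul, Subgroup.mem_pointwise_smul_iff_inv_smul_mem]
    simpa [MulAut.smul_def, mul_assoc] using hx
  rwa [h1] at h2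

theorem unique_of_le_ker {ν : ℕ} [hν : Fact ν.Prime] [Nontrivial A] (hH : H1 φ ν) (P₀ : Sylow ν H)
    (hP : (P₀ : Subgroup H) ≤ φ.ker) (Q : Sylow ν H) : Q = P₀ := by
  obtain ⟨a, ha⟩ := exists_ne (0 : A)
  obtain ⟨P, hP1, hP2⟩ := hH a ha
  have hle : φ.ker ≤ stab φ a := by
    intro x hx
    show φ x • a = a
    rw [(MonoidHom.mem_ker).1 hx, one_smul]
  rw [hP2 P₀ (hP.trans hle), hP2 Q ?_]
  obtain ⟨g, rfl⟩ := MulAction.exists_smul_eq H P₀ Q
  intro x hx
  apply hle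
  have h1 : g⁻¹ * x * g ∈ (P₀ : Subgroup H) := by
    rw [Sylow.coe_subgroup_smul, Subgroup.mem_pointwise_smul_iff_inv_smul_mem] at hx
    simpa [MulAut.smul_def, mul_assoc] using hx
  have h2 := (MonoidHom.mem_ker).1 (hP h1)
  rw [MonoidHom.mem_ker]
  have h3 : x = g * (g⁻¹ * x * g) * g⁻¹ := by group
  rw [h3, map_mul, map_mul, h2, mul_one, ← map_mul, mul_inv_cancel, map_one]

end Range

section CI2

variable {G : Type u} [Group G] [Finite G] {N S L : Subgroup G} [hN : N.Normal] [hS : S.Normal]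
  {r : G →* L} {s u v : ℕ}

theorem CI.hdec (h : CI N S L r s) (g : G) : ∃ k : G, (∀ n ∈ N, k * n = n * k) ∧ ∃ l ∈ L, g = k * l := by
  refine ⟨g * (L.subtype (r g))⁻¹, ?_, (r g : G), (r g).2, by
    show g = g * (L.subtype (r g))⁻¹ * L.subtype (r g)
    group⟩
  intro n hn
  exact (h.cen n hn _ (h.ret.mem g)).symm

theorem CI.nontriv (h : CI N S L r s) (hNmin : IsMinNormal N) : Nontrivial (Dual N) := by
  obtain ⟨hfin, hcard⟩ := NVTwo.card_dual N h.hab
  haveI := hfin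
  rw [← Finite.one_lt_card_iff_nontrivial, hcard]
  exact (Subgroup.one_lt_card_iff_ne_bot N).2 hNmin.2.1

/-- Both primes act non-trivially on the dual of `N`. -/
theorem CI.false_c [Group.IsSolvable G] [hs : Fact s.Prime] [hu : Fact u.Prime] [hv : Fact v.Prime]
    (hb : Bad G s u v) (h : CI N S L r s) (hNmin : IsMinNormal N) (U₀ : Sylow u L) (V₀ : Sylow v L)
    (hU : ¬ (U₀ : Subgroup L) ≤ (phi N L).ker) (hV : ¬ (V₀ : Subgroup L) ≤ (phi N L).ker) : False := by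
  have hab := h.hab
  obtain ⟨hfin, hcard⟩ := NVTwo.card_dual N hab
  haveI := hfin
  obtain ⟨t, ht, htN⟩ := hNmin.exists_prime_pow_eq_one hab
  haveI : Fact t.Prime := ⟨ht⟩
  haveI := h.nontriv hNmin
  have hsu : s.Coprime u := (Nat.coprime_primes hb.ps hb.pu).2 hb.su
  have hsv : s.Coprime v := (Nat.coprime_primes hb.ps hb.pv).2 hb.sv
  let R := (phi N L).range
  haveI : Group.IsSolvable R :=
    Group.isSolvable_of_surjective (phi N L).rangeRestrict_surjective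
  have hirr : ∀ W : AddSubgroup (Dual N), (∀ x : R, ∀ w ∈ W, R.subtype x • w ∈ W) → W = ⊥ ∨ W = ⊤ := by
    intro W hW
    refine dual_irr hNmin hab h.hdec W ?_
    intro x w hw
    exact hW ⟨phi N L x, x, rfl⟩ w hw
  have hB : BHyp R.subtype t u v :=
    ⟨Subtype.val_injective, htA_dual htN, hirr, hb.uv, H1_range (h.H1 hsu hb.nsu),
      H1_range (h.H1 hsv hb.nsv), dvd_card_range U₀ hU, dvd_card_range V₀ hV⟩
  refine false_of_BHyp hB fun χ hχ => ?_
  obtain ⟨χ₁, h1⟩ := irr_comp (phi N L).rangeRestrict (phi N L).rangeRestrict_surjective χ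
  obtain ⟨χ₂, h2⟩ := irr_comp r h.ret.surj χ₁
  exact hb.nuv χ₂ (by rw [h2, h1]; exact hχ)

/-- The index of a stabiliser of a linear character of `S` divides a degree. -/
theorem CI.index_dvd_deg (h : CI N S L r s) (c : Dual S) :
    ∃ χ : IrrCharacter G, (stab (phi S L) c).index ∣ charDegree (χ : G → ℂ) := by
  rw [stab_eq_stabT r c]
  obtain ⟨χ, h1, -⟩ := h.ret.exists_irr_lin (Additive.toMul c) (β := fun _ => 1) isIrrCharacter_one
  exact ⟨χ, by rw [h1]; exact Dvd.intro _ rfl⟩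

/-- Moved points. -/
theorem CI.moved (h : CI N S L r s) (hCL : ∀ x ∈ L, (∀ y ∈ S, x * y = y * x) → x = 1) {x : L} (hx : x ≠ 1)
    (hxN : ∀ n ∈ N, (x : G) * n = n * x) : ∃ μ : Dual S, phi S L x • μ ≠ μ := by
  by_contra hc
  push Not at hc
  apply hx
  exact Subtype.ext (hCL x x.2 (h.comm_of_fix_all hxN hc))

theorem CI.cent_of_ker (h : CI N S L r s) {x : L} (hx : x ∈ (phi N L).ker) (n : G) (hn : n ∈ N) :
    (x : G) * n = n * x := by
  have h1 := NVTwo.conj_eq_of_rho_eq_one N h.hab ((MonoidHom.mem_ker).1 hx) ⟨n, hn⟩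
  rw [← mul_inv_eq_iff_eq_mul]
  exact h1

theorem dvd_index_of_unique {ν : ℕ} [hν : Fact ν.Prime] {H : Type u} [Group H] [Finite H]
    (P₀ : Sylow ν H) (hu : ∀ Q : Sylow ν H, Q = P₀) (T : Subgroup H) (hT : ¬ (P₀ : Subgroup H) ≤ T) :
    ν ∣ T.index := by
  by_contra hc
  obtain ⟨Q, hQ⟩ := SylowCommute2.exists_sylow_le_of_not_dvd_index T hc
  rw [hu Q] at hQ
  exact hT hQ

/-- Both primes act trivially on the dual of `N`. -/
theorem CI.false_a [Group.IsSolvable G] [hs : Fact s.Prime] [hu : Fact u.Prime] [hv : Fact v.Prime]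
    (hb : Bad G s u v) (h : CI N S L r s) (hNmin : IsMinNormal N)
    (hCL : ∀ x ∈ L, (∀ y ∈ S, x * y = y * x) → x = 1) (hO : OverDvd N s) (U₀ : Sylow u L) (V₀ : Sylow v L)
    (hU : (U₀ : Subgroup L) ≤ (phi N L).ker) (hV : (V₀ : Subgroup L) ≤ (phi N L).ker) : False := by
  have hsu : s.Coprime u := (Nat.coprime_primes hb.ps hb.pu).2 hb.su
  have hsv : s.Coprime v := (Nat.coprime_primes hb.ps hb.pv).2 hb.sv
  have huv : u.Coprime v := (Nat.coprime_primes hb.pu hb.pv).2 hb.uv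
  obtain ⟨hfin, hcard⟩ := NVTwo.card_dual N h.hab
  haveI := hfin
  haveI := h.nontriv hNmin
  have hUu := unique_of_le_ker (h.H1 hsu hb.nsu) U₀ hU
  have hVu := unique_of_le_ker (h.H1 hsv hb.nsv) V₀ hV
  have key : ∀ {ν : ℕ} [Fact ν.Prime] (P₀ : Sylow ν L), (P₀ : Subgroup L) ≤ (phi N L).ker →
      ν ∣ Nat.card L → ∃ μ : Dual S, μ ∉ fixB (phi S L) ⊤ (P₀ : Subgroup L) := by
    intro ν _ P₀ hP hd
    obtain ⟨x, hx⟩ := Subgroup.ne_bot_iff_exists_ne_one.1 (P₀.ne_bot_of_dvd_card hd)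
    have hx1 : (x : L) ≠ 1 := fun h1 => hx (Subtype.ext h1)
    obtain ⟨μ, hμ⟩ := h.moved hCL hx1 (h.cent_of_ker (hP x.2))
    exact ⟨μ, fun h1 => hμ (h1.2 _ x.2)⟩
  obtain ⟨μ₁, hμ₁⟩ := key U₀ hU (h.dvd_card hsu hO hb.ru hb.nsu)
  obtain ⟨μ₂, hμ₂⟩ := key V₀ hV (h.dvd_card hsv hO hb.rv hb.nsv)
  obtain ⟨c, hc1, hc2⟩ := exists_not_mem_two _ _ hμ₁ hμ₂
  obtain ⟨χ, hχ⟩ := h.index_dvd_deg c
  have h1 : u ∣ (stab (phi S L) c).index := by
    refine dvd_index_of_unique U₀ hUu _ fun h2 => hc1 ⟨trivial, fun x hx => h2 hx⟩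
  have h2 : v ∣ (stab (phi S L) c).index := by
    refine dvd_index_of_unique V₀ hVu _ fun h2 => hc2 ⟨trivial, fun x hx => h2 hx⟩
  exact hb.nuv χ (huv.mul_dvd_of_dvd_of_dvd (h1.trans hχ) (h2.trans hχ))

end CI2

end Cfsg.Agent.Lib.PalfyH
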