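import Mathlib
import Cfsg.Agent.Lib.PalfyH

/-!
# Pálfy's three primes theorem: a prime acting trivially on the commutator subgroup
-/

set_option autoImplicit false
set_option linter.unusedSectionVars false
set_option linter.unusedVariables false
set_option linter.style.haveILetI false

namespace Cfsg.Agent.Lib.PalfyI

open Cfsg Cfsg.Agent.Lib Cfsg.Agent.Lib.NVOrbit Cfsg.Agent.Lib.PCore
open Cfsg.Agent.Lib.PalfyA Cfsg.Agent.Lib.PalfyB Cfsg.Agent.Lib.PalfyC Cfsg.Agent.Lib.NVChar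
open Cfsg.Agent.Lib.PalfyD Cfsg.Agent.Lib.PalfyE Cfsg.Agent.Lib.PalfyF Cfsg.Agent.Lib.PalfyG
open Cfsg.Agent.Lib.PalfyH
open Cfsg.Agent.Lib.MinNormalPrim
open Cfsg.Agent.Lib.CharBasic Cfsg.Agent.Lib.CharKernel Cfsg.Agent.Lib.CharInd
open scoped commutatorElement Pointwise

universe u

attribute [local instance] Fintype.ofFinite

section Rad

variable {G : Type u} [Group G] [Finite G] {N S L : Subgroup G} [hN : N.Normal] [hS : S.Normal]
  {r : G →* L} {s : ℕ}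

/-- The radical of the commutator form attached to a character of `N`. -/
def radS (h : CI N S L r s) (a : Dual N) : Subgroup S where
  carrier := {y | ∀ z : S, Additive.toMul a (cc h y z) = 1}
  mul_mem' := by
    intro y y' hy hy' z
    rw [cc_mul_left, map_mul, hy z, hy' z, one_mul]
  one_mem' := by
    intro z
    have h1 : cc h 1 z = 1 := (cmR h z).map_one
    rw [h1, map_one]
  inv_mem' := by
    intro y hy z
    have h1 : cc h y⁻¹ z = (cc h y z)⁻¹ := (cmR h z).map_inv y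
    rw [h1, map_inv, hy z, inv_one]

theorem radS_normal (h : CI N S L r s) (a : Dual N) : (radS h a).Normal := by
  constructor
  intro y hy g z
  have h1 : cc h g⁻¹ z = (cc h g z)⁻¹ := (cmR h z).map_inv g
  rw [cc_mul_left, cc_mul_left, h1, map_mul, map_mul, map_inv, hy z, mul_one, mul_inv_cancel]

theorem CI.rad [Fact s.Prime] (h : CI N S L r s) {U : Subgroup G} (hUN : ∀ x ∈ U, ∀ n ∈ N, x * n = n * x)
    (hfx : ∀ θ : IrrCharacter S, ∀ a : Dual N, a ≠ 0 → Ov (θ : S → ℂ) a → ∀ x ∈ U, ∀ y : S,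
      (θ : S → ℂ) (cj S x y) = (θ : S → ℂ) y)
    {a : Dual N} (ha : a ≠ 0) (m : S) (hm : ∀ y : S, Additive.toMul a (cc h m y) = 1) {x : G} (hx : x ∈ U) :
    x * m * x⁻¹ * (m : G)⁻¹ ∈ N := by
  by_contra hd
  let T := radS h a
  haveI hTn : T.Normal := radS_normal h a
  have hmT : m ∈ T := hm
  have hcjT : ∀ t ∈ T, cj S x t ∈ T := by
    intro t ht z
    have h1 : cj S x (cj S x⁻¹ z) = z := by
      apply Subtype.ext
      rw [cj_coe, cj_coe]
      group
    have h2 : cc h (cj S x t) z = cc h t (cj S x⁻¹ z) := by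
      apply Subtype.ext
      have h3 := cc_cj h x t (cj S x⁻¹ z)
      rw [h1] at h3
      rw [h3]
      have h4 := hUN x hx _ (cc h t (cj S x⁻¹ z)).2
      rw [h4]
      group
    rw [h2]
    exact ht _
  let d : S := cj S x m * m⁻¹
  have hdT : d ∈ T := T.mul_mem (hcjT m hmT) (T.inv_mem hmT)
  have hdG : (d : G) = x * m * x⁻¹ * (m : G)⁻¹ := by
    show ((cj S x m : S) : G) * (m : G)⁻¹ = _
    rw [cj_coe]
  rw [← hdG] at hd
  let J : Subgroup T := (N.subgroupOf S).subgroupOf T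
  let fJ : J →* ℂˣ := (res N S a).comp
    { toFun := fun j => ⟨((j : T) : S), j.2⟩
      map_one' := rfl
      map_mul' := fun _ _ => rfl }
  have hJ : ∀ g k : T, g * k * g⁻¹ * k⁻¹ ∈ J := by
    intro g k
    exact h.comm_mem g.1.2 k.1.2
  have hf : ∀ g k : T, fJ ⟨g * k * g⁻¹ * k⁻¹, hJ g k⟩ = 1 := by
    intro g k
    exact g.2 (k : S)
  obtain ⟨F, hF⟩ := TwoDeg2.exists_hom_extend J fJ hJ hf
  obtain ⟨μ, hμ, hμN⟩ := h.exists_dual_ne d hd
  have hζ : ∃ ζ : T →* ℂˣ, (∀ j : J, ζ j = fJ j) ∧ ζ ⟨d, hdT⟩ ≠ 1 := by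
    by_cases hFd : F ⟨d, hdT⟩ = 1
    · refine ⟨F * μ.comp T.subtype, ?_, ?_⟩
      · intro j
        rw [MonoidHom.mul_apply, hF j]
        have h1 : (μ.comp T.subtype) (j : T) = 1 := hμN _ j.2
        rw [h1, mul_one]
      · rw [MonoidHom.mul_apply, hFd, one_mul]
        exact hμ
    · exact ⟨F, hF, hFd⟩
  obtain ⟨ζ, hζ1, hζ2⟩ := hζ
  obtain ⟨θ, hθ, hover⟩ := CharCoprime.exists_over T (isIrrCharacter_of_hom ζ)
  have hNT : N.subgroupOf S ≤ T := by
    intro n hn z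
    have h1 : cc h n z = 1 := by
      apply Subtype.ext
      show ⁅(n : G), (z : G)⁆ = 1
      rw [commutatorElement_eq_one_iff_mul_comm]
      exact h.cen _ hn _ z.2
    rw [h1, map_one]
  let ι : N.subgroupOf S →* T := Subgroup.inclusion hNT
  have hov : Ov θ a := by
    have h1 := SylowCommute2.over_trans ι (isCharacter_restrict T (IsIrrCharacter.isCharacter hθ))
      (isIrrCharacter_of_hom ζ) hover (isIrrCharacter_of_hom (res N S a)) (by
        have h2 : (fun t : T => ((ζ t : ℂˣ) : ℂ)) ∘ ι = fun n => ((res N S a n : ℂˣ) : ℂ) := by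
          funext n
          show ((ζ (ι n) : ℂˣ) : ℂ) = _
          have h3 := hζ1 ⟨ι n, n.2⟩
          have h4 : ζ (ι n) = res N S a n := h3
          rw [h4]
        rw [h2, classInner_irr_self (isIrrCharacter_of_hom _)]
        exact one_ne_zero)
    exact h1
  have hinv : ∀ (g : S) (t : T), (fun t => ((ζ t : ℂˣ) : ℂ)) (⟨g * t * g⁻¹, hTn.conj_mem _ t.2 g⟩ : T) =
      (fun t => ((ζ t : ℂˣ) : ℂ)) t := by
    intro g t
    show ((ζ _ : ℂˣ) : ℂ) = _
    congr 1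
    have hj : (⟨g * t * g⁻¹, hTn.conj_mem _ t.2 g⟩ * t⁻¹ : T) ∈ J := by
      show ((((g : S) * (t : S) * g⁻¹ * (t : S)⁻¹ : S)) : G) ∈ N
      exact h.comm_mem g.2 t.1.2
    have h1 : (⟨g * t * g⁻¹, hTn.conj_mem _ t.2 g⟩ : T) =
        (⟨g * t * g⁻¹, hTn.conj_mem _ t.2 g⟩ * t⁻¹ : T) * t := by group
    rw [h1, map_mul]
    have h2 := hζ1 ⟨_, hj⟩
    have h3 : ζ (⟨g * t * g⁻¹, hTn.conj_mem _ t.2 g⟩ * t⁻¹ : T) = Additive.toMul a (cc h g t) := h2
    rw [h3, cc_symm, map_inv]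
    have h4 : Additive.toMul a (cc h (t : S) g) = 1 := t.2 g
    rw [h4, inv_one, one_mul]
  obtain ⟨e, he0, hres, -⟩ := Clifford.restrict_eq_smul_of_invariant T (isIrrCharacter_of_hom ζ) hinv hθ hover
  have hfix := hfx ⟨θ, hθ⟩ a ha hov x hx m
  have h1 := congrFun hres ⟨cj S x m, hcjT m hmT⟩
  have h2 := congrFun hres ⟨m, hmT⟩
  simp only [Pi.smul_apply, smul_eq_mul] at h1 h2
  have he : (e : ℂ) ≠ 0 := by exact_mod_cast he0
  have h3 : ζ ⟨cj S x m, hcjT m hmT⟩ = ζ ⟨m, hmT⟩ := by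
    apply Units.ext
    apply mul_left_cancel₀ he
    rw [← h1, ← h2]
    exact hfix
  apply hζ2
  have h4 : (⟨d, hdT⟩ : T) = ⟨cj S x m, hcjT m hmT⟩ * (⟨m, hmT⟩ : T)⁻¹ := rfl
  rw [h4, map_mul, map_inv, h3, mul_inv_cancel]

end Rad

section UD

variable {G : Type u} [Group G] [Finite G] {N S L : Subgroup G} [hN : N.Normal] [hS : S.Normal]
  {r : G →* L} {s : ℕ}

/-- The data of the normal subgroup acting trivially on `N`. -/
structure UD (h : CI N S L r s) (U : Subgroup G) : Prop where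
  le : U ≤ L
  nrm : ∀ l ∈ L, ∀ x ∈ U, l * x * l⁻¹ ∈ U
  cenN : ∀ x ∈ U, ∀ n ∈ N, x * n = n * x
  cop : (Nat.card U).Coprime (Nat.card S)
  rad : ∀ a : Dual N, a ≠ 0 → ∀ m : S, (∀ y : S, Additive.toMul a (cc h m y) = 1) →
    ∀ x ∈ U, x * m * x⁻¹ * (m : G)⁻¹ ∈ N

variable {h : CI N S L r s} {U : Subgroup G}

theorem UD.sup [Group.IsSolvable G] (hU : UD h U) :
    ⁅S, U⁆ ⊔ (S ⊓ Subgroup.centralizer (U : Set G)) = S :=
  Glauberman.commutator_sup_inf_centralizer Subgroup.le_normalizer_of_normal hU.cop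
    (Or.inl inferInstance)

theorem UD.le_of [Group.IsSolvable G] (hU : UD h U) {K : Subgroup G} (h1 : ⁅S, U⁆ ≤ K)
    (h2 : S ⊓ Subgroup.centralizer (U : Set G) ≤ K) : S ≤ K := by
  have hs := hU.sup
  calc S = ⁅S, U⁆ ⊔ (S ⊓ Subgroup.centralizer (U : Set G)) := hs.symm
    _ ≤ K := sup_le h1 h2

theorem UD.comm_CD (hU : UD h U) {c d : G} (hc : c ∈ S) (hcU : c ∈ Subgroup.centralizer (U : Set G))
    (hd : d ∈ ⁅S, U⁆) : c * d = d * c := by
  have hle : ⁅S, U⁆ ≤ Subgroup.centralizer {c} := by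
    rw [Subgroup.commutator_le]
    intro y hy x hx
    rw [Subgroup.mem_centralizer_singleton_iff]
    let c' : S := ⟨c, hc⟩
    let y' : S := ⟨y, hy⟩
    have h3 : cj S x c' = c' := by
      apply Subtype.ext
      rw [cj_coe]
      have h4 := Subgroup.mem_centralizer_iff.1 hcU x hx
      show x * c * x⁻¹ = c
      rw [h4]
      group
    have h1 : cc h c' (cj S x y'⁻¹) = cc h c' y'⁻¹ := by
      apply Subtype.ext
      have h2 := cc_cj h x c' y'⁻¹
      rw [h3] at h2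
      rw [h2]
      have h4 := hU.cenN x hx _ (cc h c' y'⁻¹).2
      rw [h4]
      group
    have key : cc h c' (y' * cj S x y'⁻¹) = 1 := by
      rw [cc_mul_right, h1, ← cc_mul_right, mul_inv_cancel]
      exact (cmL h c').map_one
    have h5 : ⁅c, y * (x * y⁻¹ * x⁻¹)⁆ = 1 := by
      have h6 := congrArg Subtype.val key
      simpa [cc, y', c', cj_coe, mul_assoc] using h6
    have h7 := commutatorElement_eq_one_iff_mul_comm.1 h5
    rw [commutatorElement_def]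
    have h8 : y * x * y⁻¹ * x⁻¹ = y * (x * y⁻¹ * x⁻¹) := by group
    rw [h8]
    exact h7.symm
  have h9 := hle hd
  rw [Subgroup.mem_centralizer_singleton_iff] at h9
  exact h9.symm

theorem UD.inf_le (hU : UD h U) {c : G} (hc : c ∈ S) (hcU : c ∈ Subgroup.centralizer (U : Set G))
    (hd : c ∈ ⁅S, U⁆) : c ∈ N := by
  by_contra hn
  obtain ⟨μ, hμ, -⟩ := h.exists_dual_ne ⟨c, hc⟩ hn
  let f : S →* ℂˣ := ∏ x : U, μ.comp (cj S (x : G))
  have hfa : ∀ y, f y = ∏ x : U, μ (cj S x y) := fun y => by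
    simp only [f, MonoidHom.finsetProd_apply, MonoidHom.comp_apply]
  have hfc : ∀ (x₀ : U) (y : S), f (cj S x₀ y) = f y := by
    intro x₀ y
    rw [hfa, hfa]
    refine Fintype.prod_equiv (Equiv.mulRight x₀) _ _ ?_
    intro x
    congr 1
    apply Subtype.ext
    rw [cj_coe, cj_coe, Equiv.coe_mulRight, cj_coe]
    simp only [Subgroup.coe_mul]
    group
  have hD : ⁅S, U⁆ ≤ f.ker.map S.subtype := by
    rw [Subgroup.commutator_le]
    intro y hy x hx
    refine ⟨⟨y, hy⟩ * cj S x (⟨y, hy⟩ : S)⁻¹, ?_, ?_⟩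
    · show f _ = 1
      rw [map_mul, map_inv, map_inv]
      rw [hfc ⟨x, hx⟩ ⟨y, hy⟩, mul_inv_cancel]
    · show y * ((cj S x (⟨y, hy⟩ : S)⁻¹ : S) : G) = _
      rw [cj_coe, commutatorElement_def]
      show y * (x * y⁻¹ * x⁻¹) = _
      group
  obtain ⟨w, hw, hwc⟩ := hD hd
  have hw' : w = ⟨c, hc⟩ := Subtype.ext hwc
  subst hw'
  have h1 : f ⟨c, hc⟩ = 1 := hw
  have h2 : f ⟨c, hc⟩ = μ ⟨c, hc⟩ ^ Nat.card U := by
    rw [hfa, Nat.card_eq_fintype_card, ← Finset.card_univ, ← Finset.prod_const]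
    refine Finset.prod_congr rfl fun x _ => ?_
    congr 1
    apply Subtype.ext
    rw [cj_coe]
    have h4 := Subgroup.mem_centralizer_iff.1 hcU x x.2
    show (x : G) * c * (x : G)⁻¹ = c
    rw [h4]
    group
  rw [h1] at h2
  have h3 : μ ⟨c, hc⟩ ^ Nat.card S = 1 := by
    rw [← map_pow, pow_card_eq_one', map_one]
  have h4 := Nat.eq_one_of_dvd_coprimes hU.cop (orderOf_dvd_of_pow_eq_one h2.symm)
    (orderOf_dvd_of_pow_eq_one h3)
  exact hμ (orderOf_eq_one_iff.1 h4)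

theorem UD.mem_N (hU : UD h U) {a : Dual N} (ha : a ≠ 0) (d : S) (hd : (d : G) ∈ ⁅S, U⁆)
    (hr : ∀ y : S, Additive.toMul a (cc h d y) = 1) : (d : G) ∈ N := by
  refine hU.inf_le d.2 ?_ hd
  refine Subgroup.mem_centralizer_iff.2 fun x hx => ?_
  have h1 := hU.rad a ha d hr x hx
  have h2 := h.conj_eq (hU.le hx) d.2 (hU.cenN x hx) h1
  calc x * d = (x * d * x⁻¹) * x := by group
    _ = d * x := by rw [h2]

theorem UD.surj [Group.IsSolvable G] (hU : UD h U) (a₀ : S) (ha₀D : (a₀ : G) ∈ ⁅S, U⁆)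
    (ha₀N : (a₀ : G) ∉ N) (n : N) : ∃ d : S, (d : G) ∈ ⁅S, U⁆ ∧ cc h a₀ d = n := by
  by_contra hc
  push Not at hc
  let Im : Subgroup N := ((⁅S, U⁆ : Subgroup G).subgroupOf S).map (cmL h a₀)
  have hn : n ∉ Im := by
    rintro ⟨d, hd, hdn⟩
    exact hc d hd hdn
  obtain ⟨l, hl1, hl2⟩ := exists_hom_sep (fun x y : N => Subtype.ext (h.hab _ x.2 _ y.2)) Im hn
  have hl0 : (Additive.ofMul l : Dual N) ≠ 0 := by
    intro h0
    apply hl2
    have h1 : l = 1 := Additive.ofMul.injective h0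
    rw [h1]
    rfl
  apply ha₀N
  refine hU.mem_N hl0 a₀ ha₀D ?_
  intro y
  show l (cc h a₀ y) = 1
  have hle : S ≤ (l.comp (cmL h a₀)).ker.map S.subtype := by
    apply hU.le_of
    · intro d hd
      have hdS : d ∈ S := Subgroup.commutator_le_left S U hd
      refine ⟨⟨d, hdS⟩, ?_, rfl⟩
      exact hl1 _ ⟨⟨d, hdS⟩, hd, rfl⟩
    · rintro c ⟨hc1, hc2⟩
      refine ⟨⟨c, hc1⟩, ?_, rfl⟩
      show l (cc h a₀ ⟨c, hc1⟩) = 1
      have h1 : cc h a₀ ⟨c, hc1⟩ = 1 := by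
        apply Subtype.ext
        show ⁅(a₀ : G), c⁆ = 1
        rw [commutatorElement_eq_one_iff_mul_comm]
        exact (hU.comm_CD hc1 hc2 ha₀D).symm
      rw [h1, map_one]
  obtain ⟨w, hw, hwc⟩ := hle y.2
  have h1 : w = y := Subtype.ext hwc
  subst h1
  exact hw

end UD

section XH

variable {G : Type u} [Group G] [Finite G] {N S L : Subgroup G} [hN : N.Normal] [hS : S.Normal]
  {r : G →* L} {s : ℕ}

/-- The linear characters of `S` trivial on the centraliser of `U`. -/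
def XH (S U : Subgroup G) : AddSubgroup (Dual S) where
  carrier := {μ | ∀ c : S, (c : G) ∈ Subgroup.centralizer (U : Set G) → Additive.toMul μ c = 1}
  add_mem' := by
    intro a b ha hb c hc
    show Additive.toMul a c * Additive.toMul b c = 1
    rw [ha c hc, hb c hc, one_mul]
  zero_mem' := fun c _ => rfl
  neg_mem' := by
    intro a ha c hc
    show (Additive.toMul a c)⁻¹ = 1
    rw [ha c hc, inv_one]

theorem mu_cj_of_fix {K L : Subgroup G} [hK : K.Normal] {x : L} {μ : Dual K} (hfix : phi K L x • μ = μ)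
    (z : K) : Additive.toMul μ (cj K x z) = Additive.toMul μ z := by
  have h1 := phi_smul_apply L x μ (cj K x z)
  rw [hfix] at h1
  rw [h1]
  congr 1
  apply Subtype.ext
  show (x : G)⁻¹ * ((cj K x z : K) : G) * x = z
  rw [cj_coe]
  group

variable {h : CI N S L r s} {U : Subgroup G}

theorem UD.XH_inv (hU : UD h U) (x : L) {μ : Dual S} (hμ : μ ∈ XH S U) : phi S L x • μ ∈ XH S U := by
  intro c hc
  rw [phi_smul_apply]
  refine hμ _ (Subgroup.mem_centralizer_iff.2 fun w hw => ?_)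
  have h1 := hU.nrm x x.2 w hw
  have h2 := Subgroup.mem_centralizer_iff.1 hc _ h1
  show w * ((x : G)⁻¹ * c * x) = ((x : G)⁻¹ * c * x) * w
  calc w * ((x : G)⁻¹ * c * x) = (x : G)⁻¹ * (((x : G) * w * (x : G)⁻¹) * c) * x := by group
    _ = (x : G)⁻¹ * (c * ((x : G) * w * (x : G)⁻¹)) * x := by rw [h2]
    _ = _ := by group

theorem UD.eq_zero_of_trivD [Group.IsSolvable G] (hU : UD h U) {μ : Dual S} (hμ : μ ∈ XH S U)
    (ht : ∀ d : S, (d : G) ∈ ⁅S, U⁆ → Additive.toMul μ d = 1) : μ = 0 := by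
  have hle : S ≤ (Additive.toMul μ).ker.map S.subtype := by
    apply hU.le_of
    · intro d hd
      have hdS : d ∈ S := Subgroup.commutator_le_left S U hd
      exact ⟨⟨d, hdS⟩, ht ⟨d, hdS⟩ hd, rfl⟩
    · rintro c ⟨hc1, hc2⟩
      exact ⟨⟨c, hc1⟩, hμ ⟨c, hc1⟩ hc2, rfl⟩
  apply Additive.toMul.injective
  apply MonoidHom.ext
  intro y
  obtain ⟨w, hw, hwc⟩ := hle y.2
  have h1 : w = y := Subtype.ext hwc
  subst h1
  exact hw

theorem UD.eq_zero_of_fix [Group.IsSolvable G] (hU : UD h U) {μ : Dual S} (hμ : μ ∈ XH S U)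
    (hfix : ∀ x : L, (x : G) ∈ U → phi S L x • μ = μ) : μ = 0 := by
  refine hU.eq_zero_of_trivD hμ ?_
  intro d hd
  have hle : ⁅S, U⁆ ≤ (Additive.toMul μ).ker.map S.subtype := by
    rw [Subgroup.commutator_le]
    intro y hy x hx
    refine ⟨⟨y, hy⟩ * cj S x (⟨y, hy⟩ : S)⁻¹, ?_, ?_⟩
    · show Additive.toMul μ _ = 1
      have h1 := mu_cj_of_fix (hfix ⟨x, hU.le hx⟩ hx) (⟨y, hy⟩ : S)⁻¹
      rw [map_mul]
      have h2 : Additive.toMul μ (cj S x (⟨y, hy⟩ : S)⁻¹) = Additive.toMul μ (⟨y, hy⟩ : S)⁻¹ := h1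
      rw [h2, ← map_mul, mul_inv_cancel, map_one]
    · show y * ((cj S x (⟨y, hy⟩ : S)⁻¹ : S) : G) = _
      rw [cj_coe, commutatorElement_def]
      show y * (x * y⁻¹ * x⁻¹) = _
      group
  obtain ⟨w, hw, hwc⟩ := hle hd
  have h1 : w = d := Subtype.ext hwc
  subst h1
  exact hw

end XH

end Cfsg.Agent.Lib.PalfyI
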