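import Mathlib
import Cfsg.Agent.Lib.PalfyI

/-!
# Pálfy's three primes theorem: comparing fixed points on two modules
-/

set_option autoImplicit false
set_option linter.unusedSectionVars false
set_option linter.unusedVariables false
set_option linter.style.haveILetI false

namespace Cfsg.Agent.Lib.PalfyJ

open Cfsg Cfsg.Agent.Lib Cfsg.Agent.Lib.NVOrbit Cfsg.Agent.Lib.PCore
open Cfsg.Agent.Lib.PalfyA Cfsg.Agent.Lib.PalfyB Cfsg.Agent.Lib.PalfyC Cfsg.Agent.Lib.NVChar
open Cfsg.Agent.Lib.PalfyD Cfsg.Agent.Lib.PalfyE Cfsg.Agent.Lib.PalfyF Cfsg.Agent.Lib.PalfyG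
open Cfsg.Agent.Lib.PalfyH Cfsg.Agent.Lib.PalfyI
open Cfsg.Agent.Lib.MinNormalPrim
open Cfsg.Agent.Lib.CharBasic Cfsg.Agent.Lib.CharKernel Cfsg.Agent.Lib.CharInd
open scoped commutatorElement Pointwise

universe u

attribute [local instance] Fintype.ofFinite

section Lt

variable {G : Type u} [Group G] [Finite G] {N S L : Subgroup G} [hN : N.Normal] [hS : S.Normal]
  {r : G →* L} {s : ℕ}

theorem card_hom_abelian {M : Type u} [Group M] [Finite M] (hc : ∀ x y : M, x * y = y * x) :
    Nat.card (M →* ℂˣ) = Nat.card M := by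
  letI instM : CommGroup M := { (inferInstance : Group M) with mul_comm := hc }
  haveI : NeZero (Monoid.exponent M) := ⟨Monoid.exponent_ne_zero_of_finite⟩
  exact CommGroup.card_monoidHom_of_hasEnoughRootsOfUnity M ℂ

theorem comm_le_ker {K L : Subgroup G} [hK : K.Normal] {W : Subgroup L} {μ : Dual K}
    (hfix : ∀ x ∈ W, phi K L x • μ = μ) :
    ⁅K, W.map L.subtype⁆ ≤ (Additive.toMul μ).ker.map K.subtype := by
  rw [Subgroup.commutator_le]
  rintro y hy _ ⟨x, hx, rfl⟩
  refine ⟨⟨y, hy⟩ * cj K x (⟨y, hy⟩ : K)⁻¹, ?_, ?_⟩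
  · show Additive.toMul μ _ = 1
    have h1 := mu_cj_of_fix (hfix x hx) (⟨y, hy⟩ : K)⁻¹
    rw [map_mul]
    have h2 : Additive.toMul μ (cj K x (⟨y, hy⟩ : K)⁻¹) = Additive.toMul μ (⟨y, hy⟩ : K)⁻¹ := h1
    rw [h2, ← map_mul, mul_inv_cancel, map_one]
  · show y * ((cj K x (⟨y, hy⟩ : K)⁻¹ : K) : G) = _
    rw [cj_coe, commutatorElement_def]
    show y * ((x : G) * y⁻¹ * (x : G)⁻¹) = _
    show _ = y * (L.subtype x) * y⁻¹ * (L.subtype x)⁻¹
    show _ = y * (x : G) * y⁻¹ * (x : G)⁻¹
    group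

variable {h : CI N S L r s} {U : Subgroup G}

theorem UD.card_lt [Group.IsSolvable G] (hU : UD h U) (V₀ : Subgroup L)
    (hVcop : (Nat.card V₀).Coprime (Nat.card S))
    {lam : Dual N} (hlam : lam ∈ fixB (phi N L) ⊤ V₀) (hlam0 : lam ≠ 0)
    {μ₀ : Dual S} (hμ₀ : μ₀ ∈ fixB (phi S L) (XH S U) V₀) (hμ₀0 : μ₀ ≠ 0) :
    Nat.card (fixB (phi N L) ⊤ V₀) < Nat.card (fixB (phi S L) (XH S U) V₀) := by
  haveI hfN : Finite (Dual N) := (NVTwo.card_dual N h.hab).1
  haveI hfS : Finite (Dual S) := by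
    haveI := finite_dual S
    exact Finite.of_equiv _ Additive.ofMul
  let V : Subgroup G := V₀.map L.subtype
  have hVL : V ≤ L := by
    rintro _ ⟨x, _, rfl⟩
    exact x.2
  have hVm : ∀ x ∈ V, ∃ x' ∈ V₀, (x' : G) = x := by
    rintro _ ⟨x, hx, rfl⟩
    exact ⟨x, hx, rfl⟩
  have hcardV : Nat.card V = Nat.card V₀ := Subgroup.card_map_of_injective L.subtype_injective
  have hVcop' : (Nat.card V).Coprime (Nat.card S) := by
    rw [hcardV]
    exact hVcop
  let D : Subgroup G := ⁅S, U⁆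
  have hDS : D ≤ S := Subgroup.commutator_le_left S U
  have hLS : ∀ l : G, S.map (MulAut.conj l).toMonoidHom = S := by
    intro l
    apply Subgroup.mem_normalizer_iff_map_conj_eq.1
    rw [Subgroup.normalizer_eq_top]
    trivial
  have hLU : ∀ l ∈ L, U.map (MulAut.conj l).toMonoidHom = U := by
    intro l hl
    apply Subgroup.mem_normalizer_iff_map_conj_eq.1
    refine Subgroup.mem_normalizer_iff.2 fun w => ⟨fun hw => hU.nrm l hl w hw, fun hw => ?_⟩
    have h1 := hU.nrm l⁻¹ (L.inv_mem hl) _ hw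
    have h2 : l⁻¹ * (l * w * l⁻¹) * l⁻¹⁻¹ = w := by group
    rwa [h2] at h1
  have hLD : ∀ l ∈ L, l ∈ Subgroup.normalizer (D : Set G) := by
    intro l hl
    apply Subgroup.mem_normalizer_iff_map_conj_eq.2
    show (⁅S, U⁆ : Subgroup G).map (MulAut.conj l).toMonoidHom = ⁅S, U⁆
    rw [Subgroup.map_commutator, hLS, hLU l hl]
  have hVD : V ≤ Subgroup.normalizer (D : Set G) := fun x hx => hLD x (hVL hx)
  have hVcopD : (Nat.card V).Coprime (Nat.card D) :=
    Nat.Coprime.coprime_dvd_right (Subgroup.card_dvd_of_le hDS) hVcop'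
  have hsplit := Glauberman.commutator_sup_inf_centralizer hVD hVcopD (Or.inl inferInstance)
  let D₁ : Subgroup G := D ⊓ Subgroup.centralizer (V : Set G)
  have hD₁S : D₁ ≤ S := inf_le_left.trans hDS
  -- an element of `D₁` outside `N`
  have ha₀ : ∃ a₀ : D₁, Additive.toMul μ₀ ⟨a₀, hD₁S a₀.2⟩ ≠ 1 := by
    by_contra hc
    push Not at hc
    apply hμ₀0
    refine hU.eq_zero_of_trivD hμ₀.1 ?_
    intro d hd
    have hle : D ≤ (Additive.toMul μ₀).ker.map S.subtype := by
      calc D = ⁅D, V⁆ ⊔ D₁ := hsplit.symm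
        _ ≤ _ := by
          apply sup_le
          · exact (Subgroup.commutator_mono hDS le_rfl).trans (comm_le_ker (W := V₀) hμ₀.2)
          · intro c hc'
            exact ⟨⟨c, hD₁S hc'⟩, hc ⟨c, hc'⟩, rfl⟩
    obtain ⟨w, hw, hwc⟩ := hle hd
    have h1 : w = d := Subtype.ext hwc
    subst h1
    exact hw
  obtain ⟨a₀, ha₀μ⟩ := ha₀
  have ha₀N : (a₀ : G) ∉ N := by
    intro hn
    apply ha₀μ
    have h1 : (a₀ : G) ∈ ⁅S, S⁆ := by
      rw [← h.eq]
      exact hn
    exact hom_comm_eq_one S (Additive.toMul μ₀) h1 (hD₁S a₀.2)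
  let tS : D₁ →* S := Subgroup.inclusion hD₁S
  have htS : ∀ d : D₁, ((tS d : S) : G) = d := fun d => rfl
  let a₀' : S := tS a₀
  -- the first map
  let f₀ : D₁ →* (S →* ℂˣ) := MonoidHom.mk' (fun d => (Additive.toMul lam).comp (cmL h (tS d))) (by
    intro d d'
    apply MonoidHom.ext
    intro y
    show Additive.toMul lam (cc h (tS d * tS d') y) =
      Additive.toMul lam (cc h (tS d) y) * Additive.toMul lam (cc h (tS d') y)
    rw [cc_mul_left, map_mul])
  have hf₀ : ∀ (d : D₁) (y : S), f₀ d y = Additive.toMul lam (cc h (tS d) y) := fun d y => rfl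
  have hE : ∀ d : D₁, (Additive.ofMul (f₀ d) : Dual S) ∈ fixB (phi S L) (XH S U) V₀ := by
    intro d
    refine ⟨?_, ?_⟩
    · intro c hc
      show f₀ d c = 1
      rw [hf₀]
      have h1 : cc h (tS d) c = 1 := by
        apply Subtype.ext
        show ⁅(d : G), (c : G)⁆ = 1
        rw [commutatorElement_eq_one_iff_mul_comm]
        exact (hU.comm_CD c.2 hc d.2.1).symm
      rw [h1, map_one]
    · intro x hx
      apply Additive.toMul.injective
      apply MonoidHom.ext
      intro y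
      rw [phi_smul_apply]
      show f₀ d _ = f₀ d y
      rw [hf₀, hf₀]
      have hcj : cj S x (tS d) = tS d := by
        apply Subtype.ext
        rw [cj_coe]
        have h1 := Subgroup.mem_centralizer_iff.1 d.2.2 (x : G) ⟨x, hx, rfl⟩
        show (x : G) * d * (x : G)⁻¹ = d
        rw [h1]
        group
      set y' : S := ⟨(x : G)⁻¹ * y * x, by
        have h1 := hS.conj_mem _ y.2 (x : G)⁻¹
        simpa using h1⟩ with hy'
      have hcjy : cj S x y' = y := by
        apply Subtype.ext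
        rw [cj_coe]
        show (x : G) * ((x : G)⁻¹ * y * x) * (x : G)⁻¹ = y
        group
      have h2 := cc_cj h x (tS d) y'
      rw [hcj, hcjy] at h2
      have h3 : cj N x (cc h (tS d) y') = cc h (tS d) y := by
        apply Subtype.ext
        rw [cj_coe, h2]
      have h4 := mu_cj_of_fix (hlam.2 x hx) (cc h (tS d) y')
      rw [h3] at h4
      exact h4.symm
  have hKf : ∀ d : D₁, d ∈ f₀.ker ↔ (d : G) ∈ N := by
    intro d
    constructor
    · intro hd
      refine hU.mem_N hlam0 (tS d) d.2.1 ?_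
      intro y
      have h1 : f₀ d = 1 := hd
      have h2 := DFunLike.congr_fun h1 y
      rw [hf₀] at h2
      exact h2
    · intro hd
      show f₀ d = 1
      apply MonoidHom.ext
      intro y
      rw [hf₀]
      have h1 : cc h (tS d) y = 1 := by
        apply Subtype.ext
        show ⁅(d : G), (y : G)⁆ = 1
        rw [commutatorElement_eq_one_iff_mul_comm]
        exact h.cen _ hd _ y.2
      rw [h1, map_one]
      rfl
  -- the second map
  let g₀ : D₁ →* N := (cmL h a₀').comp tS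
  have hg₀ : ∀ d : D₁, g₀ d = cc h a₀' (tS d) := fun d => rfl
  have hsurj : ∀ n : N, (n : G) ∈ Subgroup.centralizer (V : Set G) → ∃ d : D₁, g₀ d = n := by
    intro n hn
    obtain ⟨d', hd', hd'n⟩ := hU.surj a₀' a₀.2.1 ha₀N n
    let M : Subgroup G := D ⊓ Subgroup.centralizer {(a₀ : G)}
    have hMD : M ≤ D := inf_le_left
    have hcca : ∀ {w : G} (hw : w ∈ S), w ∈ Subgroup.centralizer {(a₀ : G)} ↔ cc h a₀' ⟨w, hw⟩ = 1 := by
      intro w hw
      rw [Subgroup.mem_centralizer_singleton_iff]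
      constructor
      · intro h1
        apply Subtype.ext
        show ⁅(a₀ : G), w⁆ = 1
        rw [commutatorElement_eq_one_iff_mul_comm]
        exact h1.symm
      · intro h1
        have h2 : ⁅(a₀ : G), w⁆ = 1 := congrArg Subtype.val h1
        exact (commutatorElement_eq_one_iff_mul_comm.1 h2).symm
    have hMn : D ≤ Subgroup.normalizer (M : Set G) := by
      intro d hd
      have hkey : ∀ d ∈ D, ∀ m ∈ M, d * m * d⁻¹ ∈ M := by
        intro d hd m hm
        refine ⟨D.mul_mem (D.mul_mem hd hm.1) (D.inv_mem hd), ?_⟩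
        have hdS := hDS hd
        have hmS := hDS hm.1
        have h1 := (hcca hmS).1 hm.2
        refine (hcca (S.mul_mem (S.mul_mem hdS hmS) (S.inv_mem hdS))).2 ?_
        have e1 : (⟨d * m * d⁻¹, S.mul_mem (S.mul_mem hdS hmS) (S.inv_mem hdS)⟩ : S) =
            ⟨d, hdS⟩ * ⟨m, hmS⟩ * (⟨d, hdS⟩ : S)⁻¹ := rfl
        rw [e1, cc_mul_right, cc_mul_right, h1, mul_one, ← cc_mul_right, mul_inv_cancel]
        exact (cmL h a₀').map_one
      refine Subgroup.mem_normalizer_iff.2 fun m => ⟨fun hm => hkey d hd m hm, fun hm => ?_⟩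
      have h1 := hkey d⁻¹ (D.inv_mem hd) _ hm
      have h2 : d⁻¹ * (d * m * d⁻¹) * d⁻¹⁻¹ = m := by group
      rwa [h2] at h1
    have hMV : V ≤ Subgroup.normalizer (M : Set G) := by
      intro x hx
      have hxa : x * a₀ = a₀ * x := Subgroup.mem_centralizer_iff.1 a₀.2.2 x hx
      have hkey : ∀ x : G, x ∈ V → x * a₀ = a₀ * x → ∀ m ∈ M, x * m * x⁻¹ ∈ M := by
        intro x hx hxa m hm
        refine ⟨?_, ?_⟩
        · exact (Subgroup.mem_normalizer_iff.1 (hVD hx) m).1 hm.1
        · refine Subgroup.mem_centralizer_singleton_iff.2 ?_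
          have hma := Subgroup.mem_centralizer_singleton_iff.1 hm.2
          calc x * m * x⁻¹ * a₀ = x * m * (x⁻¹ * a₀) := by group
            _ = x * m * (a₀ * x⁻¹) := by
                have h1 : x⁻¹ * a₀ = a₀ * x⁻¹ := by
                  rw [inv_mul_eq_iff_eq_mul, ← mul_assoc, hxa]
                  group
                rw [h1]
            _ = x * (m * a₀) * x⁻¹ := by group
            _ = x * (a₀ * m) * x⁻¹ := by rw [hma]
            _ = (x * a₀) * m * x⁻¹ := by group
            _ = a₀ * x * m * x⁻¹ := by rw [hxa]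
            _ = a₀ * (x * m * x⁻¹) := by group
      refine Subgroup.mem_normalizer_iff.2 fun m => ⟨fun hm => hkey x hx hxa m hm, fun hm => ?_⟩
      have hxa' : x⁻¹ * a₀ = a₀ * x⁻¹ := by
        rw [inv_mul_eq_iff_eq_mul, ← mul_assoc, hxa]
        group
      have h1 := hkey x⁻¹ (V.inv_mem hx) hxa' _ hm
      have h2 : x⁻¹ * (x * m * x⁻¹) * x⁻¹⁻¹ = m := by group
      rwa [h2] at h1
    have hfix : ∀ x ∈ V, x * d' * x⁻¹ * (d' : G)⁻¹ ∈ M := by
      intro x hx
      have h1 : x * d' * x⁻¹ ∈ D := (Subgroup.mem_normalizer_iff.1 (hVD hx) d').1 hd'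
      refine ⟨D.mul_mem h1 (D.inv_mem hd'), ?_⟩
      have hS1 := hDS h1
      have hS2 := d'.2
      refine (hcca (S.mul_mem hS1 (S.inv_mem hS2))).2 ?_
      have e1 : (⟨x * d' * x⁻¹ * (d' : G)⁻¹, S.mul_mem hS1 (S.inv_mem hS2)⟩ : S) =
          ⟨x * d' * x⁻¹, hS1⟩ * d'⁻¹ := rfl
      have e2 : (⟨x * d' * x⁻¹, hS1⟩ : S) = cj S x d' := by
        apply Subtype.ext
        rw [cj_coe]
      have e3 : cj S x a₀' = a₀' := by
        apply Subtype.ext
        rw [cj_coe]
        have h2 := Subgroup.mem_centralizer_iff.1 a₀.2.2 x hx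
        show x * a₀ * x⁻¹ = a₀
        rw [h2]
        group
      have h3 := cc_cj h x a₀' d'
      rw [e3] at h3
      have h4 : cc h a₀' (cj S x d') = cc h a₀' d' := by
        apply Subtype.ext
        rw [h3, hd'n]
        have h5 := Subgroup.mem_centralizer_iff.1 hn x hx
        rw [h5]
        group
      rw [e1, e2, cc_mul_right, h4, ← cc_mul_right, mul_inv_cancel]
      exact (cmL h a₀').map_one
    obtain ⟨c, hc, hcM⟩ := Glauberman.exists_mem_centralizer_of_coset_fixed hVcopD (Or.inl inferInstance)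
      hMD hMn hMV d' hd' hfix
    refine ⟨⟨c, hc⟩, ?_⟩
    rw [hg₀, ← hd'n]
    have hcS : c ∈ S := hDS hc.1
    have h1 := (hcca (hDS hcM.1)).1 hcM.2
    have e1 : (⟨(d' : G)⁻¹ * c, hDS hcM.1⟩ : S) = d'⁻¹ * tS ⟨c, hc⟩ := rfl
    rw [e1, cc_mul_right] at h1
    have h2 : cc h a₀' d'⁻¹ = (cc h a₀' d')⁻¹ := (cmL h a₀').map_inv d'
    rw [h2] at h1
    exact (inv_mul_eq_one.1 h1).symm
  have hle : f₀.ker ≤ g₀.ker := by
    intro d hd
    have h1 := (hKf d).1 hd
    show g₀ d = 1
    rw [hg₀]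
    apply Subtype.ext
    show ⁅(a₀ : G), (d : G)⁆ = 1
    rw [commutatorElement_eq_one_iff_mul_comm]
    exact (h.cen _ h1 _ (hD₁S a₀.2)).symm
  have hnle : ¬ g₀.ker ≤ f₀.ker := by
    intro h1
    have h2 : a₀ ∈ g₀.ker := by
      show g₀ a₀ = 1
      rw [hg₀]
      apply Subtype.ext
      show ⁅(a₀ : G), (a₀ : G)⁆ = 1
      exact commutatorElement_self _
    exact ha₀N ((hKf a₀).1 (h1 h2))
  -- counting
  let CN : Subgroup G := N ⊓ Subgroup.centralizer (V : Set G)
  have hc1 : Nat.card (fixB (phi N L) ⊤ V₀) ≤ Nat.card CN := by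
    have hNcop : (Nat.card V).Coprime (Nat.card N) :=
      Nat.Coprime.coprime_dvd_right (Subgroup.card_dvd_of_le h.le) hVcop'
    have hNsplit := Glauberman.commutator_sup_inf_centralizer (K := N) (A := V)
      Subgroup.le_normalizer_of_normal hNcop (Or.inl inferInstance)
    have hCNc : ∀ x y : CN, x * y = y * x := fun x y => Subtype.ext (h.hab _ x.2.1 _ y.2.1)
    rw [← card_hom_abelian hCNc]
    haveI := finite_dual CN
    let e : fixB (phi N L) ⊤ V₀ → (CN →* ℂˣ) := fun l =>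
      (Additive.toMul (l : Dual N)).comp (Subgroup.inclusion inf_le_left)
    refine Nat.card_le_card_of_injective e ?_
    intro l l' hll'
    have hm := (fixB (phi N L) ⊤ V₀).sub_mem l.2 l'.2
    set m : Dual N := (l : Dual N) - l' with hmd
    have hNle : N ≤ (Additive.toMul m).ker.map N.subtype := by
      calc N = ⁅N, V⁆ ⊔ CN := hNsplit.symm
        _ ≤ _ := by
          apply sup_le
          · exact comm_le_ker (W := V₀) hm.2
          · intro c hc
            refine ⟨⟨c, hc.1⟩, ?_, rfl⟩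
            have h1 := DFunLike.congr_fun hll' ⟨c, hc⟩
            have h2 : Additive.toMul (l : Dual N) ⟨c, hc.1⟩ = Additive.toMul (l' : Dual N) ⟨c, hc.1⟩ := h1
            show (Additive.toMul (l : Dual N) ⟨c, hc.1⟩) * (Additive.toMul (l' : Dual N) ⟨c, hc.1⟩)⁻¹ = 1
            rw [h2, mul_inv_cancel]
    have hm0 : m = 0 := by
      apply Additive.toMul.injective
      apply MonoidHom.ext
      intro y
      obtain ⟨w, hw, hwc⟩ := hNle y.2
      have h1 : w = y := Subtype.ext hwc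
      subst h1
      exact hw
    exact Subtype.ext (sub_eq_zero.1 hm0)
  have hc2 : Nat.card CN ≤ Nat.card g₀.range := by
    refine Nat.card_le_card_of_injective (fun n : CN => (⟨⟨n, n.2.1⟩, ?_⟩ : g₀.range)) ?_
    · obtain ⟨d, hd⟩ := hsurj ⟨n, n.2.1⟩ n.2.2
      exact ⟨d, hd⟩
    · intro n n' hnn
      have h1 := congrArg (fun z : g₀.range => ((z : N) : G)) hnn
      exact Subtype.ext h1
  have hc3 : g₀.ker.index = Nat.card g₀.range := Subgroup.index_ker g₀
  have hc4 : g₀.ker.index < f₀.ker.index := by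
    have h1 := Subgroup.relIndex_mul_index hle
    have h2 : f₀.ker.relIndex g₀.ker ≠ 1 := fun h3 => hnle (Subgroup.relIndex_eq_one.1 h3)
    have h3 : f₀.ker.relIndex g₀.ker ≠ 0 := by
      intro h4
      rw [h4, zero_mul] at h1
      exact Subgroup.index_ne_zero_of_finite h1.symm
    have h4 : 0 < g₀.ker.index := Nat.pos_of_ne_zero Subgroup.index_ne_zero_of_finite
    rw [← h1]
    nlinarith [Nat.lt_of_le_of_ne (Nat.pos_of_ne_zero h3) (Ne.symm h2)]
  have hc5 : f₀.ker.index = Nat.card f₀.range := Subgroup.index_ker f₀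
  have hc6 : Nat.card f₀.range ≤ Nat.card (fixB (phi S L) (XH S U) V₀) := by
    refine Nat.card_le_card_of_injective
      (fun l : f₀.range => (⟨Additive.ofMul (l : S →* ℂˣ), ?_⟩ : fixB (phi S L) (XH S U) V₀)) ?_
    · obtain ⟨l, d, hd⟩ := l
      subst hd
      exact hE d
    · intro l l' hll
      have h1 := congrArg (fun z : fixB (phi S L) (XH S U) V₀ => Additive.toMul (z : Dual S)) hll
      exact Subtype.ext h1
  omega

end Lt

end Cfsg.Agent.Lib.PalfyJ
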