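import Mathlib
import Cfsg.Agent.Lib.PalfyJ
import Cfsg.Agent.Lib.BrolineGT

/-!
# Pálfy's three primes theorem: the end of the argument
-/

set_option autoImplicit false
set_option linter.unusedSectionVars false
set_option linter.unusedVariables false
set_option linter.style.haveILetI false

namespace Cfsg.Agent.Lib.PalfyK

open Cfsg Cfsg.Agent.Lib Cfsg.Agent.Lib.NVOrbit Cfsg.Agent.Lib.PCore
open Cfsg.Agent.Lib.PalfyA Cfsg.Agent.Lib.PalfyB Cfsg.Agent.Lib.PalfyC Cfsg.Agent.Lib.NVChar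
open Cfsg.Agent.Lib.PalfyD Cfsg.Agent.Lib.PalfyE Cfsg.Agent.Lib.PalfyF Cfsg.Agent.Lib.PalfyG
open Cfsg.Agent.Lib.PalfyH Cfsg.Agent.Lib.PalfyI Cfsg.Agent.Lib.PalfyJ
open Cfsg.Agent.Lib.MinNormalPrim
open Cfsg.Agent.Lib.CharBasic Cfsg.Agent.Lib.CharKernel Cfsg.Agent.Lib.CharInd
open scoped commutatorElement Pointwise

universe u

attribute [local instance] Fintype.ofFinite

section B

variable {G : Type u} [Group G] [Finite G] {N S L : Subgroup G} [hN : N.Normal] [hS : S.Normal]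
  {r : G →* L} {s u v : ℕ}

theorem card_addSubgroup_pow {A : Type u} [AddCommGroup A] [Finite A] {s : ℕ} [hs : Fact s.Prime]
    (hA : ∀ x : A, ∃ k : ℕ, s ^ k • x = 0) (B : AddSubgroup A) : ∃ e : ℕ, Nat.card B = s ^ e := by
  have hp : IsPGroup s (Multiplicative B) := by
    intro x
    obtain ⟨k, hk⟩ := hA ((Multiplicative.toAdd x : B) : A)
    refine ⟨k, ?_⟩
    apply Multiplicative.toAdd.injective
    apply Subtype.ext
    exact hk
  obtain ⟨e, he⟩ := IsPGroup.iff_card.1 hp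
  exact ⟨e, he⟩

theorem dual_kill {K : Subgroup G} {s : ℕ} [hs : Fact s.Prime] (hK : IsPGroup s K) (μ : Dual K) :
    ∃ k : ℕ, s ^ k • μ = 0 := by
  obtain ⟨k, hk⟩ := IsPGroup.iff_card.1 hK
  refine ⟨k, ?_⟩
  apply Additive.toMul.injective
  apply MonoidHom.ext
  intro y
  show (Additive.toMul μ y) ^ (s ^ k) = 1
  rw [← map_pow, ← hk, pow_card_eq_one', map_one]

/-- One prime acts trivially on the dual of `N`, the other one does not. -/
theorem CI.false_b [Group.IsSolvable G] [hs : Fact s.Prime] [hu : Fact u.Prime] [hv : Fact v.Prime]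
    (hb : Bad G s u v) (h : CI N S L r s) (hNmin : IsMinNormal N)
    (hCL : ∀ x ∈ L, (∀ y ∈ S, x * y = y * x) → x = 1) (hO : OverDvd N s) (U₀ : Sylow u L) (V₀ : Sylow v L)
    (hU : (U₀ : Subgroup L) ≤ (phi N L).ker) (hV : ¬ (V₀ : Subgroup L) ≤ (phi N L).ker) : False := by
  have hsu : s.Coprime u := (Nat.coprime_primes hb.ps hb.pu).2 hb.su
  have hsv : s.Coprime v := (Nat.coprime_primes hb.ps hb.pv).2 hb.sv
  have huv : u.Coprime v := (Nat.coprime_primes hb.pu hb.pv).2 hb.uv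
  obtain ⟨hfin, hcardN⟩ := NVTwo.card_dual N h.hab
  haveI := hfin
  haveI hfS : Finite (Dual S) := by
    haveI := finite_dual S
    exact Finite.of_equiv _ Additive.ofMul
  haveI := h.nontriv hNmin
  have hH1u := h.H1 hsu hb.nsu
  have hH1v := h.H1 hsv hb.nsv
  have hUu := unique_of_le_ker hH1u U₀ hU
  let U : Subgroup G := (U₀ : Subgroup L).map L.subtype
  have hUm : ∀ x ∈ U, ∃ x' ∈ (U₀ : Subgroup L), (x' : G) = x := by
    rintro _ ⟨x, hx, rfl⟩
    exact ⟨x, hx, rfl⟩
  have hUN : ∀ x ∈ U, ∀ n ∈ N, x * n = n * x := by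
    intro x hx n hn
    obtain ⟨x', hx', rfl⟩ := hUm x hx
    exact h.cent_of_ker (hU hx') n hn
  have hfx : ∀ θ : IrrCharacter S, ∀ a : Dual N, a ≠ 0 → Ov (θ : S → ℂ) a → ∀ x ∈ U, ∀ y : S,
      (θ : S → ℂ) (cj S x y) = (θ : S → ℂ) y := by
    intro θ a ha hov x hx y
    obtain ⟨x', hx', rfl⟩ := hUm x hx
    have hd := h.nonlinear θ.2 ha hov
    have hle : (U₀ : Subgroup L) ≤ stabT r L.subtype S (θ : S → ℂ) := by
      by_contra hc
      have h1 := dvd_index_of_unique U₀ hUu _ hc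
      obtain ⟨χ, h2, -⟩ := h.ret.exists_irr_cop h.cop θ.2 (β := fun _ => 1) isIrrCharacter_one
      apply hb.nsu χ
      rw [h2, mul_comm s u, mul_comm _ (charDegree (θ : S → ℂ)), mul_comm u]
      exact mul_dvd_mul hd (h1.trans (Dvd.intro _ rfl))
    have h3 := mem_stabT.1 (hle hx') y
    refine Eq.trans ?_ h3
    congr 1
  have hUD : UD h U := by
    refine ⟨?_, ?_, hUN, ?_, fun a ha m hm x hx => PalfyI.CI.rad h hUN hfx ha m hm hx⟩
    · rintro _ ⟨x, _, rfl⟩
      exact x.2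
    · rintro l hl _ ⟨x, hx, rfl⟩
      exact ⟨⟨l, hl⟩ * x * (⟨l, hl⟩ : L)⁻¹, normal_of_unique U₀ hUu _ hx, rfl⟩
    · have h1 : Nat.card U = Nat.card (U₀ : Subgroup L) :=
        Subgroup.card_map_of_injective L.subtype_injective
      rw [h1]
      exact (Nat.Coprime.coprime_dvd_right (Subgroup.card_subgroup_dvd_card _) h.cop).symm
  -- `X` is nonzero
  obtain ⟨μ₁, hμ₁X, hμ₁0⟩ : ∃ μ ∈ XH S U, μ ≠ 0 := by
    have hd := h.dvd_card hsu hO hb.ru hb.nsu
    obtain ⟨x, hx⟩ := Subgroup.ne_bot_iff_exists_ne_one.1 (U₀.ne_bot_of_dvd_card hd)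
    have hx1 : (x : L) ≠ 1 := fun h1 => hx (Subtype.ext h1)
    obtain ⟨μ, hμ⟩ := h.moved hCL hx1 (h.cent_of_ker (hU x.2))
    refine ⟨phi S L x • μ - μ, ?_, sub_ne_zero.2 hμ⟩
    intro c hc
    show (Additive.toMul (phi S L x • μ)) c * (Additive.toMul μ c)⁻¹ = 1
    rw [phi_smul_apply]
    have h1 : (⟨((x : L) : G)⁻¹ * c * (x : L), by
        have h2 := hS.conj_mem _ c.2 ((x : L) : G)⁻¹
        simpa using h2⟩ : S) = c := by
      apply Subtype.ext
      have h3 := Subgroup.mem_centralizer_iff.1 hc ((x : L) : G) ⟨x, x.2, rfl⟩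
      show ((x : L) : G)⁻¹ * c * (x : L) = c
      rw [mul_assoc, ← h3]
      group
    rw [h1, mul_inv_cancel]
  -- the primes `v` on `X`
  have hX1 : ∀ μ ∈ XH S U, μ ≠ 0 → ∃ P : Sylow v L, (P : Subgroup L) ≤ stab (phi S L) μ ∧
      ∀ Q : Sylow v L, (Q : Subgroup L) ≤ stab (phi S L) μ → Q = P := by
    intro μ hμ hμ0
    rw [stab_eq_stabT r μ]
    set T := stabT r L.subtype S (fun n => ((Additive.toMul μ n : ℂˣ) : ℂ)) with hT
    have hind : u ∣ T.index := by
      refine dvd_index_of_unique U₀ hUu T fun hle => hμ0 ?_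
      refine hUD.eq_zero_of_fix hμ ?_
      intro x hx
      obtain ⟨x', hx', hxx⟩ := hUm _ hx
      have h1 : x' = x := Subtype.ext hxx
      subst h1
      have h2 := hle hx'
      rw [hT, ← stab_eq_stabT r μ] at h2
      exact h2
    have hkey : ∀ β : IrrCharacter T, ¬ v ∣ T.index * charDegree (β : T → ℂ) := by
      intro β hd
      obtain ⟨χ, h1, -⟩ := h.ret.exists_irr_lin (Additive.toMul μ) β.2
      refine hb.nuv χ ?_
      rw [h1]
      exact huv.mul_dvd_of_dvd_of_dvd (hind.trans (Dvd.intro _ rfl)) hd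
    have hβ₀ : ¬ v ∣ T.index := fun h1 =>
      hkey ⟨_, isIrrCharacter_one⟩ (h1.trans (Dvd.intro _ rfl))
    have hdeg : ∀ β : IrrCharacter T, ¬ v ∣ charDegree (β : T → ℂ) := fun β h1 =>
      hkey β (h1.trans (Dvd.intro_left _ rfl))
    exact H1_local T hβ₀ hdeg
  -- counting
  have hcA := count (φ := phi N L) (⊤ : AddSubgroup (Dual N)) (fun _ _ _ => trivial)
    (fun b _ hb0 => hH1v b hb0) V₀
  have hcX := count (φ := phi S L) (XH S U) (fun x b hb => hUD.XH_inv x hb) hX1 V₀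
  set n := Nat.card (Sylow v L) with hn
  set cA := Nat.card (fixB (phi N L) ⊤ (V₀ : Subgroup L)) with hcAd
  set cX := Nat.card (fixB (phi S L) (XH S U) (V₀ : Subgroup L)) with hcXd
  have hcardA1 : 1 < Nat.card (⊤ : AddSubgroup (Dual N)) := by
    rw [AddSubgroup.card_top, Finite.one_lt_card_iff_nontrivial]
    infer_instance
  have hcardX1 : 1 < Nat.card (XH S U) := by
    rw [Finite.one_lt_card_iff_nontrivial]
    exact ⟨⟨⟨μ₁, hμ₁X⟩, 0, fun h1 => hμ₁0 (congrArg Subtype.val h1)⟩⟩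
  have hcA1 : 1 < cA := by
    by_contra hc
    have h1 : cA - 1 = 0 := by omega
    rw [h1, mul_zero] at hcA
    omega
  have hcX1 : 1 < cX := by
    by_contra hc
    have h1 : cX - 1 = 0 := by omega
    rw [h1, mul_zero] at hcX
    omega
  have hexists : ∀ (M : Type u) [AddCommGroup M] [Finite M], 1 < Nat.card M → ∃ x : M, x ≠ 0 := by
    intro M _ _ h1
    rw [Finite.one_lt_card_iff_nontrivial] at h1
    exact exists_ne 0
  obtain ⟨lam, hlam⟩ := hexists _ hcA1
  obtain ⟨μ₀, hμ₀⟩ := hexists _ hcX1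
  have hlt := PalfyJ.UD.card_lt hUD (V₀ : Subgroup L)
    (Nat.Coprime.coprime_dvd_right (Subgroup.card_subgroup_dvd_card _) h.cop).symm lam.2
    (fun h0 => hlam (Subtype.ext h0)) μ₀.2 (fun h0 => hμ₀ (Subtype.ext h0))
  -- `n` is at least two
  have hn2 : 2 ≤ n := by
    have hn0 : n ≠ 0 := Nat.card_pos.ne'
    have hn1 : n ≠ 1 := by
      intro hn1
      rw [hn1, one_mul] at hcA
      have h1 : Nat.card (⊤ : AddSubgroup (Dual N)) = cA := by omega
      have h2 : fixB (phi N L) ⊤ (V₀ : Subgroup L) = ⊤ := by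
        apply AddSubgroup.eq_top_of_card_eq
        rw [← hcAd, ← h1, AddSubgroup.card_top]
      apply hV
      intro x hx
      apply units_eq_one_of_fix
      intro a
      have h3 : a ∈ fixB (phi N L) ⊤ (V₀ : Subgroup L) := by
        rw [h2]
        trivial
      exact h3.2 x hx
    omega
  -- powers of `s`
  have hpN : IsPGroup s N := h.pS.to_le h.le
  obtain ⟨e, he⟩ := card_addSubgroup_pow (A := Dual N) (dual_kill hpN) ⊤
  obtain ⟨a, ha⟩ := card_addSubgroup_pow (A := Dual N) (dual_kill hpN) (fixB (phi N L) ⊤ (V₀ : Subgroup L))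
  obtain ⟨f, hf⟩ := card_addSubgroup_pow (A := Dual S) (dual_kill h.pS) (XH S U)
  obtain ⟨b, hbb⟩ := card_addSubgroup_pow (A := Dual S) (dual_kill h.pS) (fixB (phi S L) (XH S U) (V₀ : Subgroup L))
  have hs2 : 2 ≤ s := hs.out.two_le
  have hle1 : cA ≤ Nat.card (⊤ : AddSubgroup (Dual N)) :=
    AddSubgroup.card_le_of_le (fun x hx => hx.1)
  have hle2 : cX ≤ Nat.card (XH S U) := AddSubgroup.card_le_of_le (fun x hx => hx.1)
  rw [← hcAd] at ha
  rw [← hcXd] at hbb
  rw [he, ha] at hcA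
  rw [hf, hbb] at hcX
  have hlt' : cA < cX := hlt
  have hab : a < b := by
    rw [ha, hbb] at hlt'
    exact (Nat.pow_lt_pow_iff_right hs2).1 hlt'
  have hbf : b ≤ f := by
    rw [hbb, hf] at hle2
    exact (Nat.pow_le_pow_iff_right hs2).1 hle2
  have hae : a ≤ e := by
    rw [ha, he] at hle1
    exact (Nat.pow_le_pow_iff_right hs2).1 hle1
  have ha1 : 1 ≤ a := by
    rcases Nat.eq_zero_or_pos a with h0 | h0
    · rw [h0, pow_zero] at ha
      omega
    · exact h0
  exact numeric hs2 hcA hcX hab hn2 hbf hae ha1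

end B

section Main

variable {G : Type u} [Group G] [Finite G] {N : Subgroup G} [hN : N.Normal] {s u v : ℕ}

/-- The case of a normal Sylow subgroup. -/
theorem false_of_typ1 [Group.IsSolvable G] (hb : Bad G s u v) (hNmin : IsMinNormal N)
    (huniq : ∀ M : Subgroup G, M.Normal → M ≠ ⊥ → N ≤ M) {S : Subgroup G} (hT : Typ1 N S s) : False := by
  haveI : Fact s.Prime := ⟨hb.ps⟩
  haveI : Fact u.Prime := ⟨hb.pu⟩
  haveI : Fact v.Prime := ⟨hb.pv⟩
  haveI hS : S.Normal := hT.nK
  have hNS : N ≤ S := by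
    rw [hT.eq]
    exact Subgroup.commutator_le_self S
  -- `N` is central in `S`
  have hcen : ∀ n ∈ N, ∀ y ∈ S, n * y = y * n := by
    have hnorm : (N ⊓ Subgroup.centralizer (S : Set G)).Normal := inferInstance
    haveI : Group.IsNilpotent S := hT.p.isNilpotent
    have hne : N.subgroupOf S ≠ ⊥ := by
      intro h1
      apply hNmin.2.1
      rw [eq_bot_iff]
      intro n hn
      have h2 : (⟨n, hNS hn⟩ : S) ∈ N.subgroupOf S := hn
      rw [h1] at h2
      exact congrArg Subtype.val (Subgroup.mem_bot.1 h2)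
    have h3 := BrolineGT.inf_center_ne_bot (N.subgroupOf S) hne
    obtain ⟨z, hz⟩ := Subgroup.ne_bot_iff_exists_ne_one.1 h3
    have hz1 : ((z : S) : G) ≠ 1 := fun h4 => hz (Subtype.ext (Subtype.ext h4))
    have hzN : ((z : S) : G) ∈ N := z.2.1
    have hzC : ((z : S) : G) ∈ Subgroup.centralizer (S : Set G) := by
      refine Subgroup.mem_centralizer_iff.2 fun y hy => ?_
      have h5 := Subgroup.mem_center_iff.1 z.2.2 ⟨y, hy⟩
      exact congrArg Subtype.val h5
    rcases hNmin.2.2 _ hnorm inf_le_left with h6 | h6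
    · exfalso
      have h7 : ((z : S) : G) ∈ N ⊓ Subgroup.centralizer (S : Set G) := ⟨hzN, hzC⟩
      rw [h6] at h7
      exact hz1 h7
    · intro n hn y hy
      rw [← h6] at hn
      exact (Subgroup.mem_centralizer_iff.1 hn.2 y hy).symm
  -- the complement
  have hcop₀ : (Nat.card S).Coprime S.index := by
    obtain ⟨k, hk⟩ := IsPGroup.iff_card.1 hT.p
    rw [hk]
    exact Nat.Coprime.pow_left k ((Nat.Prime.coprime_iff_not_dvd hb.ps).2 hT.idx)
  obtain ⟨L, hL⟩ := Subgroup.exists_right_complement'_of_coprime hcop₀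
  have hdisj : ∀ x ∈ S, x ∈ L → x = 1 := fun x h1 h2 => Subgroup.disjoint_def.1 hL.disjoint h1 h2
  have hdec : ∀ g : G, ∃ k ∈ S, ∃ l ∈ L, g = k * l := by
    intro g
    have h1 : L ⊔ S = ⊤ := by
      rw [sup_comm]
      exact hL.sup_eq_top
    obtain ⟨l, hl, n, hn, rfl⟩ := exists_mul_of_sup_top h1 g
    exact ⟨l * n * l⁻¹, hS.conj_mem n hn l, l, hl, by group⟩
  obtain ⟨r, hr1, hr2⟩ := exists_retract hdisj hdec
  have hcop : (Nat.card S).Coprime (Nat.card L) := by
    have h1 := hL.symm.index_eq_card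
    rwa [h1] at hcop₀
  have h : CI N S L r s := ⟨hT.p, hT.eq, hcen, ⟨hr1, hr2⟩, hcop⟩
  have hCL : ∀ x ∈ L, (∀ y ∈ S, x * y = y * x) → x = 1 := by
    intro x hxL hxS
    let C : Subgroup G := L ⊓ Subgroup.centralizer (S : Set G)
    have hCn : C.Normal := by
      constructor
      rintro c ⟨hc1, hc2⟩ g
      obtain ⟨k, hk, l, hl, rfl⟩ := hdec g
      have hd : l * c * l⁻¹ ∈ Subgroup.centralizer (S : Set G) := by
        refine Subgroup.mem_centralizer_iff.2 fun n hn => ?_
        have h2 := Subgroup.mem_centralizer_iff.1 hc2 (l⁻¹ * n * l)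
          (by simpa using hS.conj_mem n hn l⁻¹)
        calc n * (l * c * l⁻¹) = l * ((l⁻¹ * n * l) * c) * l⁻¹ := by group
          _ = l * (c * (l⁻¹ * n * l)) * l⁻¹ := by rw [h2]
          _ = l * c * l⁻¹ * n := by group
      have h3 := Subgroup.mem_centralizer_iff.1 hd k hk
      have h4 : (k * l) * c * (k * l)⁻¹ = l * c * l⁻¹ := by
        calc (k * l) * c * (k * l)⁻¹ = (k * (l * c * l⁻¹)) * k⁻¹ := by group
          _ = ((l * c * l⁻¹) * k) * k⁻¹ := by rw [h3]
          _ = _ := by group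
      rw [h4]
      exact ⟨L.mul_mem (L.mul_mem hl hc1) (L.inv_mem hl), hd⟩
    have hxC : x ∈ C := by
      refine ⟨hxL, Subgroup.mem_centralizer_iff.2 fun n hn => ?_⟩
      exact (hxS n hn).symm
    by_cases hC : C = ⊥
    · rw [hC] at hxC
      exact hxC
    · exfalso
      have hNC := huniq C hCn hC
      apply hNmin.2.1
      rw [eq_bot_iff]
      intro n hn
      exact hdisj n (hNS hn) (hNC hn).1
  have hO := overDvd_of_typ1 hT.p hT.eq
  obtain ⟨U₀⟩ : Nonempty (Sylow u L) := inferInstance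
  obtain ⟨V₀⟩ : Nonempty (Sylow v L) := inferInstance
  by_cases hU : (U₀ : Subgroup L) ≤ (phi N L).ker
  · by_cases hV : (V₀ : Subgroup L) ≤ (phi N L).ker
    · exact h.false_a hb hNmin hCL hO U₀ V₀ hU hV
    · exact CI.false_b hb h hNmin hCL hO U₀ V₀ hU hV
  · by_cases hV : (V₀ : Subgroup L) ≤ (phi N L).ker
    · exact CI.false_b hb.swap23 h hNmin hCL hO V₀ U₀ hV hU
    · exact h.false_c hb hNmin U₀ V₀ hU hV

/-- A minimal counterexample does not exist. -/
theorem false_of_bad [Group.IsSolvable G] (hb : Bad G s u v) (hNmin : IsMinNormal N)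
    (huniq : ∀ M : Subgroup G, M.Normal → M ≠ ⊥ → N ≤ M) (hq : NoDeg N s) : False := by
  haveI : Fact s.Prime := ⟨hb.ps⟩
  rcases dichotomy hNmin hq hb.rs with ⟨K, hK⟩ | h
  · exact false_of_typ1 hb hNmin huniq hK
  · exact false_of_typ2 hb hNmin huniq h

/-- **Pálfy's theorem**, in the contrapositive form. -/
theorem not_bad (n : ℕ) : ∀ (G : Type u) [Group G] [Finite G] [Group.IsSolvable G] (s u v : ℕ),
    Nat.card G = n → ¬ Bad G s u v := by
  induction n using Nat.strong_induction_on with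
  | _ n ih =>
    intro G _ _ _ s u v hn hb
    -- quotients
    have hq : ∀ (M : Subgroup G) [M.Normal], IsMinNormal M → NoDeg M s ∨ NoDeg M u ∨ NoDeg M v := by
      intro M _ hM
      by_contra hc
      push Not at hc
      obtain ⟨h1, h2, h3⟩ := hc
      simp only [NoDeg] at h1 h2 h3
      push Not at h1 h2 h3
      have hcard : Nat.card (G ⧸ M) < n := by
        rw [← hn, ← Subgroup.index_eq_card]
        have h4 := Subgroup.card_mul_index M
        have h5 : 1 < Nat.card M := (Subgroup.one_lt_card_iff_ne_bot M).2 hM.2.1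
        have h6 : 0 < M.index := Nat.pos_of_ne_zero Subgroup.index_ne_zero_of_finite
        nlinarith
      have hπ := QuotientGroup.mk'_surjective M
      have hno : ∀ {a : ℕ}, (∀ χ : IrrCharacter G, ¬ a ∣ charDegree (χ : G → ℂ)) →
          ∀ χ : IrrCharacter (G ⧸ M), ¬ a ∣ charDegree (χ : G ⧸ M → ℂ) := by
        intro a ha χ hχ
        obtain ⟨χ', h7⟩ := irr_comp (QuotientGroup.mk' M) hπ χ
        exact ha χ' (by rw [h7]; exact hχ)
      exact ih _ hcard (G ⧸ M) s u v rfl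
        ⟨hb.ps, hb.pu, hb.pv, hb.su, hb.sv, hb.uv, h1, h2, h3, hno hb.nsu, hno hb.nsv, hno hb.nuv⟩
    -- a nontrivial group
    have hnt : (⊤ : Subgroup G) ≠ ⊥ := by
      intro h1
      obtain ⟨χ, hχ⟩ := hb.rs
      have h2 : ∀ x : G, x = 1 := fun x => by
        have h3 : x ∈ (⊥ : Subgroup G) := by
          rw [← h1]
          trivial
        exact h3
      haveI : Subsingleton G := ⟨fun a b => by rw [h2 a, h2 b]⟩
      have h4 := CharKernel.charDegree_dvd_index (⊤ : Subgroup G) χ.2 (fun x _ => by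
        rw [Subsingleton.elim x 1])
      rw [Subgroup.index_top] at h4
      exact hb.ps.one_lt.ne' (Nat.dvd_one.1 (hχ.trans h4))
    obtain ⟨N, -, hNmin⟩ := exists_minNormal_le (⊤ : Subgroup G) inferInstance hnt
    haveI hNn : N.Normal := hNmin.1
    have huniq : ∀ M : Subgroup G, M.Normal → M ≠ ⊥ → N ≤ M := by
      intro M hMn hMb
      obtain ⟨N', hN'M, hN'⟩ := exists_minNormal_le M hMn hMb
      haveI hN'n : N'.Normal := hN'.1
      by_cases he : N = N'
      · rw [he]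
        exact hN'M
      · exact (hb.no_two_min hNmin hN' he (hq N hNmin) (hq N' hN')).elim
    rcases hq N hNmin with h | h | h
    · exact false_of_bad hb hNmin huniq h
    · exact false_of_bad hb.swap12 hNmin huniq h
    · exact false_of_bad hb.swap23.swap12 hNmin huniq h

end Main

end Cfsg.Agent.Lib.PalfyK
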