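import Mathlib
import Cfsg.Prelude.Def_LocalEven
import Cfsg.Agent.Lib.InvolvesAPI
import Cfsg.Agent.Lib.Replacement

/-!
# Two "transvections" on a four-group produce a section `S₄`
-/

set_option autoImplicit false
set_option linter.unusedSectionVars false
set_option linter.style.haveILetI false

open scoped commutatorElement

namespace Cfsg.Agent.Lib.PermFourSection

open Cfsg Cfsg.Agent.Lib.InvolvesAPI

variable {Y : Type*} [Group Y] [Finite Y]

theorem card_four {W : Subgroup Y} {w w' : Y}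
    (hW : ∀ x, x ∈ W ↔ x = 1 ∨ x = w ∨ x = w' ∨ x = w * w')
    (hw1 : w ≠ 1) (hw'1 : w' ≠ 1) (hne : w ≠ w') (hww1 : w * w' ≠ 1) (hww2 : w * w' ≠ w)
    (hww3 : w * w' ≠ w') : Nat.card W = 4 := by
  classical
  letI : Fintype W := Fintype.ofFinite W
  rw [Nat.card_eq_fintype_card]
  have h : ∀ x, x ∈ ({1, w, w', w * w'} : Finset Y) ↔ x ∈ W := by
    intro x
    rw [hW]
    simp
  rw [show Fintype.card W = Fintype.card {x // x ∈ W} from rfl, Fintype.card_of_subtype _ h]
  rw [Finset.card_insert_of_notMem, Finset.card_insert_of_notMem, Finset.card_insert_of_notMem,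
    Finset.card_singleton]
  · simp [hww3.symm]
  · simp [hne, hww2.symm]
  · simp [hw1.symm, hw'1.symm, hww1.symm]

/-- **The `S₄` section.** -/
theorem main (W : Subgroup Y) [hWn : W.Normal] {w w' a a' : Y}
    (hW : ∀ x, x ∈ W ↔ x = 1 ∨ x = w ∨ x = w' ∨ x = w * w')
    (hw : w * w = 1) (hw' : w' * w' = 1) (hc : w * w' = w' * w) (hw1 : w ≠ 1) (hw'1 : w' ≠ 1)
    (hne : w ≠ w')
    (h1 : a * w * a⁻¹ = w) (h2 : a * w' * a⁻¹ = w * w')
    (h3 : a' * w' * a'⁻¹ = w') (h4 : a' * w * a'⁻¹ = w * w') :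
    Involves (Equiv.Perm (Fin 4)) Y := by
  classical
  have hww1 : w * w' ≠ 1 := by
    intro h
    apply hne
    calc w = w * (w' * w') := by rw [hw', mul_one]
      _ = (w * w') * w' := by group
      _ = w' := by rw [h, one_mul]
  have hww2 : w * w' ≠ w := by
    intro h
    apply hw'1
    have : w * w' = w * 1 := by rw [h, mul_one]
    exact mul_left_cancel this
  have hww3 : w * w' ≠ w' := by
    intro h
    apply hw1
    have : w * w' = 1 * w' := by rw [h, one_mul]
    exact mul_right_cancel this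
  have hcard : Nat.card W = 4 := card_four hW hw1 hw'1 hne hww1 hww2 hww3
  have hmw : w ∈ W := (hW _).mpr (by simp)
  have hmw' : w' ∈ W := (hW _).mpr (by simp)
  have hmww : w * w' ∈ W := W.mul_mem hmw hmw'
  letI : Fintype W := Fintype.ofFinite W
  let ρ : Y →* Equiv.Perm W := (MulAut.toPerm W).comp (MulAut.conjNormal (H := W))
  have hρ : ∀ (y : Y) (x : W), ((ρ y x : W) : Y) = y * x * y⁻¹ := by
    intro y x
    exact MulAut.conjNormal_apply y x
  have hww' : w * (w * w') = w' := by rw [← mul_assoc, hw, one_mul]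
  have hww'' : (w * w') * w' = w := by rw [mul_assoc, hw', mul_one]
  have h5 : a * (w * w') * a⁻¹ = w' := by
    calc a * (w * w') * a⁻¹ = (a * w * a⁻¹) * (a * w' * a⁻¹) := by group
      _ = w' := by rw [h1, h2, hww']
  have h6 : a' * (w * w') * a'⁻¹ = w := by
    calc a' * (w * w') * a'⁻¹ = (a' * w * a'⁻¹) * (a' * w' * a'⁻¹) := by group
      _ = w := by rw [h3, h4, hww'']
  -- the signs
  have hsa : Equiv.Perm.sign (ρ a) = -1 := by
    have : ρ a = Equiv.swap (⟨w', hmw'⟩ : W) ⟨w * w', hmww⟩ := by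
      ext x
      have hx := (hW _).mp x.2
      rcases hx with hx | hx | hx | hx
      · have e : x = 1 := Subtype.ext hx
        rw [e, Equiv.swap_apply_of_ne_of_ne]
        · simp [hρ]
        · intro h; exact hw'1 (congrArg Subtype.val h).symm
        · intro h; exact hww1 (congrArg Subtype.val h).symm
      · have e : x = ⟨w, hmw⟩ := Subtype.ext hx
        rw [e, Equiv.swap_apply_of_ne_of_ne]
        · simpa [hρ] using h1
        · intro h; exact hne (congrArg Subtype.val h)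
        · intro h; exact hww2 (congrArg Subtype.val h).symm
      · have e : x = ⟨w', hmw'⟩ := Subtype.ext hx
        rw [e, Equiv.swap_apply_left]
        simpa [hρ] using h2
      · have e : x = ⟨w * w', hmww⟩ := Subtype.ext hx
        rw [e, Equiv.swap_apply_right]
        simpa [hρ] using h5
    rw [this, Equiv.Perm.sign_swap]
    intro h
    exact hww3 (congrArg Subtype.val h).symm
  have hsa' : Equiv.Perm.sign (ρ a') = -1 := by
    have : ρ a' = Equiv.swap (⟨w, hmw⟩ : W) ⟨w * w', hmww⟩ := by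
      ext x
      have hx := (hW _).mp x.2
      rcases hx with hx | hx | hx | hx
      · have e : x = 1 := Subtype.ext hx
        rw [e, Equiv.swap_apply_of_ne_of_ne]
        · simp [hρ]
        · intro h; exact hw1 (congrArg Subtype.val h).symm
        · intro h; exact hww1 (congrArg Subtype.val h).symm
      · have e : x = ⟨w, hmw⟩ := Subtype.ext hx
        rw [e, Equiv.swap_apply_left]
        simpa [hρ] using h4
      · have e : x = ⟨w', hmw'⟩ := Subtype.ext hx
        rw [e, Equiv.swap_apply_of_ne_of_ne]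
        · simpa [hρ] using h3
        · intro h; exact hne (congrArg Subtype.val h).symm
        · intro h; exact hww3 (congrArg Subtype.val h).symm
      · have e : x = ⟨w * w', hmww⟩ := Subtype.ext hx
        rw [e, Equiv.swap_apply_right]
        simpa [hρ] using h6
    rw [this, Equiv.Perm.sign_swap]
    intro h
    exact hww2 (congrArg Subtype.val h).symm
  -- the element `g` of order three on `W`
  set g : Y := a * a' with hg
  have g1 : g * w * g⁻¹ = w' := by
    calc g * w * g⁻¹ = a * (a' * w * a'⁻¹) * a⁻¹ := by rw [hg]; group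
      _ = w' := by rw [h4, h5]
  have g2 : g * w' * g⁻¹ = w * w' := by
    calc g * w' * g⁻¹ = a * (a' * w' * a'⁻¹) * a⁻¹ := by rw [hg]; group
      _ = w * w' := by rw [h3, h2]
  have g3 : g * (w * w') * g⁻¹ = w := by
    calc g * (w * w') * g⁻¹ = a * (a' * (w * w') * a'⁻¹) * a⁻¹ := by rw [hg]; group
      _ = w := by rw [h6, h1]
  have hW1 : ∀ x, x ∈ W → x * x = 1 := by
    intro x hx
    rcases (hW x).mp hx with rfl | rfl | rfl | rfl
    · simp
    · exact hw
    · exact hw'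
    · calc w * w' * (w * w') = (w * w') * (w' * w) := by rw [hc]
        _ = w * (w' * w') * w := by group
        _ = 1 := by rw [hw', mul_one, hw]
  -- conjugation by `g ^ 3` is trivial on `W`
  have g4 : ∀ x ∈ W, g ^ 3 * x * (g ^ 3)⁻¹ = x := by
    intro x hx
    have e : g ^ 3 * x * (g ^ 3)⁻¹ = g * (g * (g * x * g⁻¹) * g⁻¹) * g⁻¹ := by
      rw [pow_three]; simp only [mul_inv_rev, mul_assoc]
    rw [e]
    rcases (hW x).mp hx with rfl | rfl | rfl | rfl
    · simp
    · rw [g1, g2, g3]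
    · rw [g2, g3, g1]
    · rw [g3, g1, g2]
  -- the three-element
  obtain ⟨k, m', hm', hord⟩ := Nat.exists_eq_pow_mul_and_not_dvd (orderOf_pos g).ne' 3 (by norm_num)
  set g₃ : Y := g ^ m' with hg₃
  have hg₃pow : g₃ ^ 3 ^ k = 1 := by
    rw [hg₃, ← pow_mul, mul_comm, ← hord, pow_orderOf_eq_one]
  -- no fixed points of `g₃` on `W`
  have hfix : ∀ x ∈ W, g₃ * x * g₃⁻¹ = x → x = 1 := by
    intro x hx hfx
    have hm : m' = 3 * (m' / 3) + m' % 3 := (Nat.div_add_mod m' 3).symm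
    have hr0 : m' % 3 ≠ 0 := by
      intro h
      exact hm' (Nat.dvd_of_mod_eq_zero h)
    have hpow3 : ∀ (q : ℕ) (z : Y), z ∈ W → (g ^ 3) ^ q * z * ((g ^ 3) ^ q)⁻¹ = z := by
      intro q z hz
      induction q with
      | zero => simp
      | succ q ih =>
        have e : (g ^ 3) ^ (q + 1) * z * ((g ^ 3) ^ (q + 1))⁻¹ =
            (g ^ 3) ^ q * (g ^ 3 * z * (g ^ 3)⁻¹) * ((g ^ 3) ^ q)⁻¹ := by
          rw [pow_succ]; group
        rw [e, g4 z hz, ih]
    have hact : g₃ * x * g₃⁻¹ = g ^ (m' % 3) * x * (g ^ (m' % 3))⁻¹ := by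
      have e : g₃ = g ^ (m' % 3) * (g ^ 3) ^ (m' / 3) := by
        rw [hg₃, ← pow_mul, ← pow_add, add_comm]
        congr 1
      rw [e]
      calc g ^ (m' % 3) * (g ^ 3) ^ (m' / 3) * x * (g ^ (m' % 3) * (g ^ 3) ^ (m' / 3))⁻¹
          = g ^ (m' % 3) * ((g ^ 3) ^ (m' / 3) * x * ((g ^ 3) ^ (m' / 3))⁻¹) * (g ^ (m' % 3))⁻¹ := by
            group
        _ = _ := by rw [hpow3 _ x hx]
    rw [hact] at hfx
    have hlt : m' % 3 < 3 := Nat.mod_lt _ (by norm_num)
    by_contra hx1
    have hcases : m' % 3 = 1 ∨ m' % 3 = 2 := by omega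
    have e2 : ∀ z, g ^ 2 * z * (g ^ 2)⁻¹ = g * (g * z * g⁻¹) * g⁻¹ := fun z => by
      rw [pow_two]; simp only [mul_inv_rev, mul_assoc]
    rcases hcases with hr | hr
    · rw [hr, pow_one] at hfx
      rcases (hW x).mp hx with rfl | rfl | rfl | rfl
      · exact hx1 rfl
      · rw [g1] at hfx; exact hne hfx.symm
      · rw [g2] at hfx; exact hww3 hfx
      · rw [g3] at hfx; exact hww2 hfx.symm
    · rw [hr, e2] at hfx
      rcases (hW x).mp hx with rfl | rfl | rfl | rfl
      · exact hx1 rfl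
      · rw [g1, g2] at hfx; exact hww2 hfx
      · rw [g2, g3] at hfx; exact hne hfx
      · rw [g3, g1] at hfx; exact hww3 hfx.symm
  -- the sign homomorphism
  let sgn : Y →* ℤˣ := (Equiv.Perm.sign).comp ρ
  let E : Subgroup Y := sgn.ker
  have hEn : E.Normal := MonoidHom.normal_ker _
  have hgE : g ∈ E := by
    show sgn g = 1
    show Equiv.Perm.sign (ρ g) = 1
    rw [hg, map_mul, map_mul, hsa, hsa']
    decide
  have hg₃E : g₃ ∈ E := E.pow_mem hgE _
  have hg₃p : IsPGroup 3 (Subgroup.zpowers g₃) := by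
    have h1 : orderOf g₃ ∣ 3 ^ k := orderOf_dvd_of_pow_eq_one hg₃pow
    obtain ⟨j, -, hj⟩ := (Nat.dvd_prime_pow Nat.prime_three).mp h1
    apply IsPGroup.of_card (n := j)
    rw [Nat.card_zpowers, hj]
  haveI : Fact (Nat.Prime 3) := ⟨Nat.prime_three⟩
  have hZ₃ : IsPGroup 3 ((Subgroup.zpowers g₃).subgroupOf E) :=
    hg₃p.comap_of_injective _ (Subgroup.subtype_injective _)
  obtain ⟨P, hP⟩ := hZ₃.exists_le_sylow
  set P' : Subgroup Y := (P : Subgroup E).map E.subtype with hP'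
  have hg₃P' : g₃ ∈ P' := by
    refine ⟨⟨g₃, hg₃E⟩, hP ?_, rfl⟩
    rw [Subgroup.mem_subgroupOf]
    exact Subgroup.mem_zpowers _
  have hP'p : IsPGroup 3 P' := P.isPGroup'.map _
  set M : Subgroup Y := Subgroup.normalizer (P' : Set Y) with hM
  have hfrat : M ⊔ E = ⊤ := Sylow.normalizer_sup_eq_top P
  have hg₃M : g₃ ∈ M := Subgroup.le_normalizer hg₃P'
  -- an odd element in `M`
  obtain ⟨m₀, hm₀, hsm₀⟩ : ∃ m₀ ∈ M, Equiv.Perm.sign (ρ m₀) = -1 := by
    have ha : a ∈ ((M ⊔ E : Subgroup Y) : Set Y) := by rw [hfrat]; trivial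
    rw [Subgroup.mul_normal, Set.mem_mul] at ha
    obtain ⟨m₀, hm₀, e, he, rfl⟩ := ha
    refine ⟨m₀, hm₀, ?_⟩
    have he' : Equiv.Perm.sign (ρ e) = 1 := he
    rw [map_mul, map_mul, he', mul_one] at hsa
    exact hsa
  -- `W ⊓ M = 1`
  have hWP : ∀ y, y ∈ W → y ∈ P' → y = 1 := by
    intro y hy hyP
    obtain ⟨j, hj⟩ := hP'p ⟨y, hyP⟩
    have h2 : y ^ 3 ^ j = 1 := by
      have := congrArg Subtype.val hj
      simpa using this
    have h3 : y ^ 2 = 1 := by rw [pow_two]; exact hW1 y hy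
    have h4 := (pow_gcd_eq_one (a := y)).mpr ⟨h2, h3⟩
    have h5 : Nat.gcd (3 ^ j) 2 = 1 := Nat.Coprime.pow_left j (by norm_num)
    rwa [h5, pow_one] at h4
  have hWM : ∀ x, x ∈ W → x ∈ M → x = 1 := by
    intro x hx hxM
    apply hfix x hx
    have h1 : x * g₃ * x⁻¹ * g₃⁻¹ ∈ W := by
      have e : x * g₃ * x⁻¹ * g₃⁻¹ = x * (g₃ * x⁻¹ * g₃⁻¹) := by group
      rw [e]
      exact W.mul_mem hx (hWn.conj_mem _ (W.inv_mem hx) g₃)
    have h2 : x * g₃ * x⁻¹ * g₃⁻¹ ∈ P' :=
      P'.mul_mem ((Subgroup.mem_normalizer_iff.mp hxM g₃).mp hg₃P') (P'.inv_mem hg₃P')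
    have h3 := hWP _ h1 h2
    have h4 : x * g₃ = g₃ * x := by
      have h5 : x * g₃ * x⁻¹ = g₃ := by
        calc x * g₃ * x⁻¹ = (x * g₃ * x⁻¹ * g₃⁻¹) * g₃ := by group
          _ = g₃ := by rw [h3, one_mul]
      calc x * g₃ = (x * g₃ * x⁻¹) * x := by group
        _ = g₃ * x := by rw [h5]
    rw [← h4]
    group
  -- the action of `M` on `W`
  set Ĥ : Subgroup Y := M ⊔ W with hĤ
  have hMW : M ≤ Subgroup.normalizer (W : Set Y) := by
    rw [Subgroup.normalizer_eq_top_iff.mpr hWn]; exact le_top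
  have hMWinf : M ⊓ W = ⊥ := by
    rw [eq_bot_iff]
    rintro x ⟨hx1, hx2⟩
    rw [Subgroup.mem_bot]
    exact hWM x hx2 hx1
  have hcardĤ : Nat.card Ĥ = Nat.card M * 4 := by
    have h := Cfsg.Agent.Lib.Replacement.card_sup_mul_card_inf M W hMW
    rw [hMWinf, hcard] at h
    simpa using h
  -- the number of elements of `M` acting nontrivially
  let f₂ : M →* Equiv.Perm W := ρ.comp M.subtype
  have hr6 : 6 ≤ Nat.card f₂.range := by
    have hpos : 0 < Nat.card f₂.range := Nat.card_pos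
    have h3 : 3 ∣ Nat.card f₂.range := by
      have hτ : f₂ ⟨g₃, hg₃M⟩ ∈ f₂.range := ⟨_, rfl⟩
      have h4 : orderOf (⟨_, hτ⟩ : f₂.range) ∣ Nat.card f₂.range := orderOf_dvd_natCard _
      have hne1 : f₂ ⟨g₃, hg₃M⟩ ≠ 1 := by
        intro h
        have h5 := congrArg (fun σ : Equiv.Perm W => ((σ ⟨w, hmw⟩ : W) : Y)) h
        simp only [f₂, MonoidHom.comp_apply, Subgroup.subtype_apply, hρ, Equiv.Perm.coe_one, id] at h5
        exact hw1 (hfix w hmw h5)
      have h6 : f₂ ⟨g₃, hg₃M⟩ ^ 3 ^ k = 1 := by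
        rw [← map_pow]
        have : (⟨g₃, hg₃M⟩ : M) ^ 3 ^ k = 1 := Subtype.ext hg₃pow
        rw [this, map_one]
      have h7 : orderOf (f₂ ⟨g₃, hg₃M⟩) ∣ 3 ^ k := orderOf_dvd_of_pow_eq_one h6
      obtain ⟨j, -, hj⟩ := (Nat.dvd_prime_pow Nat.prime_three).mp h7
      have hj0 : j ≠ 0 := by
        rintro rfl
        rw [pow_zero, orderOf_eq_one_iff] at hj
        exact hne1 hj
      have h8 : orderOf (⟨_, hτ⟩ : f₂.range) = orderOf (f₂ ⟨g₃, hg₃M⟩) := Subgroup.orderOf_mk _ _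
      rw [h8, hj] at h4
      exact (dvd_pow_self 3 hj0).trans h4
    have h2 : 2 ∣ Nat.card f₂.range := by
      have hτ : f₂ ⟨m₀, hm₀⟩ ∈ f₂.range := ⟨_, rfl⟩
      have h4 : (⟨_, hτ⟩ : f₂.range) ^ Nat.card f₂.range = 1 := pow_card_eq_one'
      have h5 : (f₂ ⟨m₀, hm₀⟩) ^ Nat.card f₂.range = 1 := congrArg Subtype.val h4
      have h6 : (Equiv.Perm.sign (f₂ ⟨m₀, hm₀⟩)) ^ Nat.card f₂.range = 1 := by
        rw [← map_pow, h5, map_one]
      have h7 : Equiv.Perm.sign (f₂ ⟨m₀, hm₀⟩) = -1 := hsm₀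
      rw [h7] at h6
      by_contra hodd
      have h8 : Odd (Nat.card f₂.range) := Nat.not_even_iff_odd.mp (fun h => hodd h.two_dvd)
      rw [h8.neg_one_pow] at h6
      exact absurd h6 (by decide)
    have h6 : 6 ∣ Nat.card f₂.range := by
      have : (6 : ℕ) = 2 * 3 := rfl
      rw [this]
      exact Nat.Coprime.mul_dvd_of_dvd_of_dvd (by norm_num) h2 h3
    exact Nat.le_of_dvd hpos h6
  have hker₂ : Nat.card f₂.ker * Nat.card f₂.range = Nat.card M := by
    rw [← Subgroup.index_ker f₂]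
    exact Subgroup.card_mul_index _
  -- the coset action
  let M₁ : Subgroup ↥Ĥ := M.subgroupOf Ĥ
  let f : ↥Ĥ →* Equiv.Perm (↥Ĥ ⧸ M₁) := MulAction.toPermHom ↥Ĥ (↥Ĥ ⧸ M₁)
  have hidx : M₁.index = 4 := by
    have h1 := Subgroup.card_mul_index M₁
    have h2 : Nat.card M₁ = Nat.card M :=
      Nat.card_congr (Subgroup.subgroupOfEquivOfLe (le_sup_left : M ≤ Ĥ)).toEquiv
    rw [h2] at h1
    have h3 : Nat.card ↥Ĥ = Nat.card M * 4 := hcardĤ
    rw [h3] at h1
    exact Nat.eq_of_mul_eq_mul_left Nat.card_pos h1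
  have hcardQ : Nat.card (↥Ĥ ⧸ M₁) = 4 := hidx
  -- the kernel of the coset action is small
  have hkerf : ∀ x : ↥Ĥ, x ∈ f.ker → (x : Y) ∈ M ∧ ∀ v ∈ W, (x : Y) * v = v * x := by
    intro x hx
    have hx1 : ∀ c : ↥Ĥ ⧸ M₁, x • c = c := by
      intro c
      have : f x c = c := by
        rw [MonoidHom.mem_ker.mp hx]; rfl
      exact this
    have hxM : (x : Y) ∈ M := by
      have h1 := hx1 ((1 : ↥Ĥ) : ↥Ĥ ⧸ M₁)
      have h2 : ((x * 1 : ↥Ĥ) : ↥Ĥ ⧸ M₁) = ((1 : ↥Ĥ) : ↥Ĥ ⧸ M₁) := h1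
      rw [QuotientGroup.eq] at h2
      have h3 := M₁.inv_mem h2
      have e : ((x * 1 : ↥Ĥ)⁻¹ * 1)⁻¹ = x := by simp
      rw [e] at h3
      exact h3
    refine ⟨hxM, fun v hv => ?_⟩
    let v₁ : ↥Ĥ := ⟨v, (le_sup_right : W ≤ Ĥ) hv⟩
    have h1 := hx1 (v₁ : ↥Ĥ ⧸ M₁)
    have h2 : ((x * v₁ : ↥Ĥ) : ↥Ĥ ⧸ M₁) = (v₁ : ↥Ĥ ⧸ M₁) := h1
    rw [QuotientGroup.eq] at h2
    have h3 : v₁⁻¹ * (x * v₁) ∈ M₁ := by
      have h4 := M₁.inv_mem h2
      have e : ((x * v₁)⁻¹ * v₁)⁻¹ = v₁⁻¹ * (x * v₁) := by rw [mul_inv_rev, inv_inv]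
      rw [e] at h4
      exact h4
    have h4 : v⁻¹ * ((x : Y) * v) ∈ M := h3
    have h5 : v⁻¹ * ((x : Y) * v) * (x : Y)⁻¹ ∈ M := M.mul_mem h4 (M.inv_mem hxM)
    have h6 : v⁻¹ * ((x : Y) * v) * (x : Y)⁻¹ ∈ W := by
      have e : v⁻¹ * ((x : Y) * v) * (x : Y)⁻¹ = v⁻¹ * ((x : Y) * v * (x : Y)⁻¹) := by group
      rw [e]
      exact W.mul_mem (W.inv_mem hv) (hWn.conj_mem v hv x)
    have h7 := hWM _ h6 h5
    have h8 : (x : Y) * v * (x : Y)⁻¹ = v := by
      have e : (x : Y) * v * (x : Y)⁻¹ = v * (v⁻¹ * ((x : Y) * v) * (x : Y)⁻¹) := by group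
      rw [e, h7, mul_one]
    calc (x : Y) * v = ((x : Y) * v * (x : Y)⁻¹) * x := by group
      _ = v * x := by rw [h8]
  have hkercard : Nat.card f.ker ≤ Nat.card f₂.ker := by
    let ψ : f.ker → f₂.ker := fun x => ⟨⟨(x : ↥Ĥ), (hkerf x x.2).1⟩, by
      rw [MonoidHom.mem_ker]
      ext z
      show ((ρ ((x : ↥Ĥ) : Y) z : W) : Y) = z
      rw [hρ, (hkerf x x.2).2 z z.2]
      group⟩
    apply Nat.card_le_card_of_injective ψ
    intro x y hxy
    have := congrArg (fun t : f₂.ker => (((t : M) : Y))) hxy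
    exact Subtype.ext (Subtype.ext this)
  have hrange : 24 ≤ Nat.card f.range := by
    have h1 : Nat.card f.ker * Nat.card f.range = Nat.card ↥Ĥ := by
      rw [← Subgroup.index_ker f]
      exact Subgroup.card_mul_index _
    have h3 : Nat.card ↥Ĥ = Nat.card M * 4 := hcardĤ
    rw [h3, ← hker₂] at h1
    have hkp : 0 < Nat.card f.ker := Nat.card_pos
    by_contra hlt
    push Not at hlt
    have h5 : Nat.card f.ker * Nat.card f.range < Nat.card f.ker * 24 :=
      Nat.mul_lt_mul_of_pos_left hlt hkp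
    have h6 : Nat.card f.ker * 24 ≤ Nat.card f₂.ker * Nat.card f₂.range * 4 := by
      calc Nat.card f.ker * 24 = Nat.card f.ker * 6 * 4 := by ring
        _ ≤ Nat.card f₂.ker * Nat.card f₂.range * 4 :=
          Nat.mul_le_mul_right 4 (Nat.mul_le_mul hkercard hr6)
    omega
  have hcardperm : Nat.card (Equiv.Perm (↥Ĥ ⧸ M₁)) = 24 := by
    rw [Nat.card_perm, hcardQ]
    rfl
  have hsurj : Function.Surjective f := by
    rw [← MonoidHom.range_eq_top]
    apply Subgroup.eq_top_of_card_eq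
    apply le_antisymm (Subgroup.card_le_card_group _)
    rw [hcardperm]
    exact hrange
  let e : (↥Ĥ ⧸ M₁) ≃ Fin 4 := Finite.equivFinOfCardEq hcardQ
  exact involves_of_surj Ĥ ((Equiv.permCongrHom e).toMonoidHom.comp f)
    ((Equiv.permCongrHom e).surjective.comp hsurj)

/-- **The `S₄` section**, element form in an arbitrary finite group. -/
theorem of_elements {X : Type*} [Group X] [Finite X] {w w' a a' : X}
    (hw : w * w = 1) (hw' : w' * w' = 1) (hc : w * w' = w' * w) (hw1 : w ≠ 1) (hw'1 : w' ≠ 1)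
    (hne : w ≠ w')
    (h1 : a * w * a⁻¹ = w) (h2 : a * w' * a⁻¹ = w * w')
    (h3 : a' * w' * a'⁻¹ = w') (h4 : a' * w * a'⁻¹ = w * w') :
    Involves (Equiv.Perm (Fin 4)) X := by
  have hww' : w * (w * w') = w' := by rw [← mul_assoc, hw, one_mul]
  have hww'' : (w * w') * w' = w := by rw [mul_assoc, hw', mul_one]
  let W : Subgroup X :=
    { carrier := {x | x = 1 ∨ x = w ∨ x = w' ∨ x = w * w'}
      one_mem' := Or.inl rfl
      mul_mem' := by
        intro x y hx hy
        have hx' : x = 1 ∨ x = w ∨ x = w' ∨ x = w * w' := hx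
        have hy' : y = 1 ∨ y = w ∨ y = w' ∨ y = w * w' := hy
        show x * y = 1 ∨ x * y = w ∨ x * y = w' ∨ x * y = w * w'
        have e1 : w' * (w * w') = w := by
          calc w' * (w * w') = (w' * w) * w' := by group
            _ = (w * w') * w' := by rw [hc]
            _ = w := hww''
        have e2 : w * w' * w = w' := by
          calc w * w' * w = w * (w' * w) := by group
            _ = w * (w * w') := by rw [hc]
            _ = w' := hww'
        have e4 : w' * w = w * w' := hc.symm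
        have e3 : w * w' * (w * w') = 1 := by
          calc w * w' * (w * w') = (w * w') * (w' * w) := by rw [hc]
            _ = w * (w' * w') * w := by group
            _ = 1 := by rw [hw', mul_one, hw]
        rcases hx' with hx' | hx' | hx' | hx' <;> rcases hy' with hy' | hy' | hy' | hy' <;>
          rw [hx', hy'] <;>
          simp only [one_mul, mul_one, hw, hw', hww', hww'', e1, e2, e3, e4, true_or, or_true]
      inv_mem' := by
        intro x hx
        have hx' : x = 1 ∨ x = w ∨ x = w' ∨ x = w * w' := hx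
        show x⁻¹ = 1 ∨ x⁻¹ = w ∨ x⁻¹ = w' ∨ x⁻¹ = w * w'
        have e1 : w⁻¹ = w := inv_eq_of_mul_eq_one_left hw
        have e2 : w'⁻¹ = w' := inv_eq_of_mul_eq_one_left hw'
        have e3 : (w * w')⁻¹ = w * w' := by
          apply inv_eq_of_mul_eq_one_left
          calc w * w' * (w * w') = (w * w') * (w' * w) := by rw [hc]
            _ = w * (w' * w') * w := by group
            _ = 1 := by rw [hw', mul_one, hw]
        rcases hx' with hx' | hx' | hx' | hx' <;> rw [hx'] <;>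
          simp only [inv_one, e1, e2, e3, true_or, or_true] }
  have hmem : ∀ x, x ∈ W ↔ x = 1 ∨ x = w ∨ x = w' ∨ x = w * w' := fun x => Iff.rfl
  have hmw : w ∈ W := (hmem _).mpr (by simp)
  have hmw' : w' ∈ W := (hmem _).mpr (by simp)
  have hmww : w * w' ∈ W := W.mul_mem hmw hmw'
  have h5 : a * (w * w') * a⁻¹ = w' := by
    calc a * (w * w') * a⁻¹ = (a * w * a⁻¹) * (a * w' * a⁻¹) := by group
      _ = w' := by rw [h1, h2, hww']
  have h6 : a' * (w * w') * a'⁻¹ = w := by
    calc a' * (w * w') * a'⁻¹ = (a' * w * a'⁻¹) * (a' * w' * a'⁻¹) := by group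
      _ = w := by rw [h3, h4, hww'']
  have hnorm : ∀ b : X, (∀ x ∈ W, b * x * b⁻¹ ∈ W) → b ∈ Subgroup.normalizer (W : Set X) := by
    intro b hb
    have hle : W.map (MulAut.conj b).toMonoidHom ≤ W := by
      rintro _ ⟨x, hx, rfl⟩
      exact hb x hx
    have heq : W.map (MulAut.conj b).toMonoidHom = W :=
      Subgroup.eq_of_le_of_card_ge hle (by
        rw [Subgroup.card_map_of_injective (MulAut.conj b).injective])
    rw [Subgroup.mem_normalizer_iff]
    intro z
    constructor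
    · intro hz
      rw [← heq]
      exact ⟨z, hz, rfl⟩
    · intro hz
      rw [← heq] at hz
      obtain ⟨y, hy, hyz⟩ := hz
      have : y = z := by
        have h7 : b * y * b⁻¹ = b * z * b⁻¹ := hyz
        simpa using h7
      rwa [← this]
  have haN : a ∈ Subgroup.normalizer (W : Set X) := by
    apply hnorm
    rintro x (rfl | rfl | rfl | rfl)
    · simp [W.one_mem]
    · rw [h1]; exact hmw
    · rw [h2]; exact hmww
    · rw [h5]; exact hmw'
  have ha'N : a' ∈ Subgroup.normalizer (W : Set X) := by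
    apply hnorm
    rintro x (rfl | rfl | rfl | rfl)
    · simp [W.one_mem]
    · rw [h4]; exact hmww
    · rw [h3]; exact hmw'
    · rw [h6]; exact hmw
  set N : Subgroup X := Subgroup.normalizer (W : Set X) with hN
  have hWN : W ≤ N := Subgroup.le_normalizer
  have hWn : (W.subgroupOf N).Normal := Subgroup.normal_subgroupOf_of_le_normalizer le_rfl
  have key : Involves (Equiv.Perm (Fin 4)) N := by
    apply main (W.subgroupOf N) (w := ⟨w, hWN hmw⟩) (w' := ⟨w', hWN hmw'⟩) (a := ⟨a, haN⟩)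
      (a' := ⟨a', ha'N⟩)
    · intro x
      rw [Subgroup.mem_subgroupOf, hmem]
      simp only [Subtype.ext_iff, Subgroup.coe_one, Subgroup.coe_mul]
    · exact Subtype.ext hw
    · exact Subtype.ext hw'
    · exact Subtype.ext hc
    · intro h; exact hw1 (congrArg Subtype.val h)
    · intro h; exact hw'1 (congrArg Subtype.val h)
    · intro h; exact hne (congrArg Subtype.val h)
    · exact Subtype.ext h1
    · exact Subtype.ext h2
    · exact Subtype.ext h3
    · exact Subtype.ext h4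
  exact involves_of_le key

end Cfsg.Agent.Lib.PermFourSection
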