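import Mathlib
import Cfsg.Prelude.Def_CaseTheorems
import Cfsg.Agent.Lib.LocalCore
import Cfsg.Agent.Lib.QSLocal
import Cfsg.Agent.Lib.Subnormal
import Cfsg.Agent.Lib.SylowConjLemmas

/-!
# Quasisimple subgroups of symmetric groups normalized by 3-cycles
-/

set_option autoImplicit false
set_option linter.unusedSectionVars false

namespace Cfsg.Agent.Lib.PermQS

open Equiv Equiv.Perm Cfsg
open scoped commutatorElement Pointwise

variable {α : Type*} [Fintype α] [DecidableEq α]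

/-- A perfect subgroup has no central cycle. -/
theorem false_of_central_cycle {E : Subgroup (Perm α)} (hperf : ⁅E, E⁆ = E) {c : Perm α} (hc : c.IsCycle)
    (hcE : c ∈ E) (hcomm : ∀ e ∈ E, e * c = c * e) : False := by
  obtain ⟨a, ha, -⟩ := id hc
  have hpt : ∀ e ∈ E, ∀ i : ℤ, e ((c ^ i) a) = (c ^ i) (e a) := by
    intro e he i
    have h1 : Commute e c := hcomm e he
    have h2 := h1.zpow_right i
    exact congrFun (congrArg DFunLike.coe h2.eq) a
  have hsame : ∀ e ∈ E, ∃ i : ℤ, (c ^ i) a = e a := by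
    intro e he
    have h1 : c (e a) ≠ e a := by
      intro h
      apply ha
      have h2 : e (c a) = c (e a) := congrFun (congrArg DFunLike.coe (hcomm e he)) a
      rw [h] at h2
      exact e.injective h2
    exact hc.sameCycle ha h1
  have hcp : ∀ e₁ ∈ E, ∀ e₂ ∈ E, e₁ (e₂ a) = e₂ (e₁ a) := by
    intro e₁ h₁ e₂ h₂
    obtain ⟨i, hi⟩ := hsame e₁ h₁
    obtain ⟨j, hj⟩ := hsame e₂ h₂
    rw [← hj, hpt e₁ h₁ j, ← hi, hpt e₂ h₂ i, ← hj, ← Perm.mul_apply, ← Perm.mul_apply, ← zpow_add,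
      ← zpow_add, add_comm]
  have hle : ⁅E, E⁆ ≤ MulAction.stabilizer (Perm α) a := by
    rw [Subgroup.commutator_le]
    intro e₁ h₁ e₂ h₂
    rw [MulAction.mem_stabilizer_iff, Perm.smul_def, commutatorElement_def]
    have h3 := hcp e₁⁻¹ (E.inv_mem h₁) e₂⁻¹ (E.inv_mem h₂)
    simp only [Perm.mul_apply]
    rw [h3]
    simp
  rw [hperf] at hle
  have h4 := hle hcE
  rw [MulAction.mem_stabilizer_iff, Perm.smul_def] at h4
  exact ha h4

/-- A transitive group generated by 3-cycles is primitive. -/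
theorem isPreprimitive_closure {β : Type*} [Fintype β] [DecidableEq β] {S : Set (Perm β)}
    (hS : ∀ s ∈ S, IsThreeCycle s) (htr : ∀ x y : β, ∃ g ∈ Subgroup.closure S, g x = y) :
    MulAction.IsPreprimitive (Subgroup.closure S) β := by
  haveI hpt : MulAction.IsPretransitive (Subgroup.closure S) β := by
    refine ⟨fun x y => ?_⟩
    obtain ⟨g, hg, hgx⟩ := htr x y
    exact ⟨⟨g, hg⟩, hgx⟩
  refine { isTrivialBlock_of_isBlock := ?_ }
  intro B hB
  by_cases hall : ∀ s (hs : s ∈ S), (⟨s, Subgroup.subset_closure hs⟩ : Subgroup.closure S) • B = B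
  · -- `B` is invariant
    have hle : Subgroup.closure S ≤ MulAction.stabilizer (Perm β) B := by
      rw [Subgroup.closure_le]
      intro s hs
      exact hall s hs
    rcases B.eq_empty_or_nonempty with rfl | ⟨x, hx⟩
    · left; simp
    · right
      apply Set.eq_univ_of_forall
      intro y
      obtain ⟨g, hg, hgx⟩ := htr x y
      have h1 : g • B = B := hle hg
      rw [← h1, ← hgx]
      exact ⟨x, hx, rfl⟩
  · push Not at hall
    obtain ⟨s, hs, hne⟩ := hall
    have hdisj := (MulAction.isBlock_iff_smul_eq_or_disjoint.mp hB _).resolve_left hne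
    have hd : ∀ z ∈ B, s z ∉ B := fun z hz hsz => Set.disjoint_left.mp hdisj ⟨z, hz, rfl⟩ hsz
    left
    intro x hx y hy
    have h3 := hS s hs
    by_contra hxy
    have hsx : s x ≠ x := fun h => hd x hx (by rwa [h])
    have hsy : s y ≠ y := fun h => hd y hy (by rwa [h])
    obtain ⟨i, hi⟩ := h3.isCycle.sameCycle hsx hsy
    have hord : orderOf s = 3 := h3.orderOf
    have hi2 : (s ^ (i % 3)) x = y := by
      have h6 : s ^ (i % 3) = s ^ i := by
        have := zpow_mod_orderOf s i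
        rw [hord] at this
        exact_mod_cast this
      rw [h6]; exact hi
    have hr : i % 3 = 0 ∨ i % 3 = 1 ∨ i % 3 = 2 := by omega
    rcases hr with hr | hr | hr
    · rw [hr] at hi2
      exact hxy (by simpa using hi2)
    · rw [hr] at hi2
      apply hd x hx
      have : s x = y := by simpa using hi2
      rwa [this]
    · rw [hr] at hi2
      apply hd y hy
      have h5 : s y = x := by
        rw [← hi2, ← Perm.mul_apply]
        have : s * s ^ (2 : ℤ) = 1 := by
          rw [← pow_orderOf_eq_one s, hord]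
          group
        rw [this]; rfl
      rwa [h5]

/-- Groups generated by 3-cycles with connected supports are alternating groups. -/
theorem closure_eq_alt {S : Set (Perm α)} (hS : ∀ s ∈ S, IsThreeCycle s) {s₀ : Perm α} (hs₀ : s₀ ∈ S)
    (Ω₁ : Finset α) (hsupp : ∀ s ∈ S, ∀ x, s x ≠ x → x ∈ Ω₁)
    (htr : ∀ x ∈ Ω₁, ∀ y ∈ Ω₁, ∃ g ∈ Subgroup.closure S, g x = y) :
    Subgroup.closure S =
      (alternatingGroup {x // x ∈ Ω₁}).map (ofSubtype : Perm {x // x ∈ Ω₁} →* Perm α) := by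
  classical
  set S₁ : Set (Perm {x // x ∈ Ω₁}) := {t | (ofSubtype t : Perm α) ∈ S} with hS₁
  have hpres : ∀ s ∈ S, ∀ x, s x ∈ Ω₁ ↔ x ∈ Ω₁ := by
    intro s hs x
    constructor
    · intro h
      by_contra hx
      have h1 : s x = x := by
        by_contra hne
        exact hx (hsupp s hs x hne)
      rw [h1] at h
      exact hx h
    · intro h
      by_contra hx
      have h1 : s (s x) = s x := by
        by_contra hne
        exact hx (hsupp s hs _ hne)
      exact hx (by rwa [s.injective h1])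
  have hlift : ∀ s ∈ S, ∃ t ∈ S₁, (ofSubtype t : Perm α) = s := by
    intro s hs
    refine ⟨s.subtypePerm (hpres s hs), ?_, ?_⟩
    · show ofSubtype _ ∈ S
      rw [ofSubtype_subtypePerm (hpres s hs) (hsupp s hs)]
      exact hs
    · exact ofSubtype_subtypePerm _ (hsupp s hs)
  have himg : (ofSubtype : Perm {x // x ∈ Ω₁} →* Perm α) '' S₁ = S := by
    ext s
    constructor
    · rintro ⟨t, ht, rfl⟩
      exact ht
    · intro hs
      obtain ⟨t, ht, rfl⟩ := hlift s hs
      exact ⟨t, ht, rfl⟩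
  have hcl : Subgroup.closure S = (Subgroup.closure S₁).map ofSubtype := by
    rw [MonoidHom.map_closure, himg]
  have h3 : ∀ t ∈ S₁, IsThreeCycle t := by
    intro t ht
    have := hS _ ht
    unfold IsThreeCycle at this ⊢
    rwa [cycleType_ofSubtype] at this
  have htr₁ : ∀ x y : {x // x ∈ Ω₁}, ∃ g ∈ Subgroup.closure S₁, g x = y := by
    intro x y
    obtain ⟨g, hg, hgx⟩ := htr x.1 x.2 y.1 y.2
    rw [hcl] at hg
    obtain ⟨t, ht, rfl⟩ := hg
    refine ⟨t, ht, Subtype.ext ?_⟩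
    rw [← hgx]
    exact (ofSubtype_apply_coe t x).symm
  have hprim := isPreprimitive_closure h3 htr₁
  obtain ⟨t₀, ht₀, -⟩ := hlift s₀ hs₀
  have hle := alternatingGroup_le_of_isPreprimitive_of_isThreeCycle_mem hprim (h3 t₀ ht₀)
    (Subgroup.subset_closure ht₀)
  have hle2 : Subgroup.closure S₁ ≤ alternatingGroup _ :=
    (Subgroup.closure_le _).mpr (fun t ht => (h3 t ht).mem_alternatingGroup)
  rw [hcl, le_antisymm hle2 hle]

set_option maxRecDepth 100000 in
theorem solvable_S4 : Group.IsSolvable (Perm (Fin 4)) := by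
  let V : Subgroup (Perm (Fin 4)) :=
    { carrier := {a | sign a = 1 ∧ a * a = 1}
      one_mem' := by simp
      mul_mem' := by
        have : ∀ a b : Perm (Fin 4), (sign a = 1 ∧ a * a = 1) → (sign b = 1 ∧ b * b = 1) →
          (sign (a * b) = 1 ∧ (a * b) * (a * b) = 1) := by decide
        exact fun {a b} ha hb => this a b ha hb
      inv_mem' := by
        intro a ha
        have h1 : a⁻¹ = a := inv_eq_of_mul_eq_one_left ha.2
        rw [h1]
        exact ha }
  have h1 : derivedSeries (Perm (Fin 4)) 1 ≤ alternatingGroup (Fin 4) := by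
    rw [derivedSeries_succ, derivedSeries_zero, Subgroup.commutator_le]
    intro a _ b _
    rw [mem_alternatingGroup, map_commutatorElement, commutatorElement_eq_one_iff_commute]
    exact Commute.all _ _
  have h2 : derivedSeries (Perm (Fin 4)) 2 ≤ V := by
    have h0 : ∀ a b : Perm (Fin 4), sign a = 1 → sign b = 1 →
        (sign ⁅a, b⁆ = 1 ∧ ⁅a, b⁆ * ⁅a, b⁆ = 1) := by decide
    rw [derivedSeries_succ]
    refine le_trans (Subgroup.commutator_mono h1 h1) ?_
    rw [Subgroup.commutator_le]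
    intro a ha b hb
    exact h0 a b ha hb
  have h3 : derivedSeries (Perm (Fin 4)) 3 ≤ ⊥ := by
    have h0 : ∀ a b : Perm (Fin 4), (sign a = 1 ∧ a * a = 1) → (sign b = 1 ∧ b * b = 1) →
        ⁅a, b⁆ = 1 := by decide
    rw [derivedSeries_succ]
    refine le_trans (Subgroup.commutator_mono h2 h2) ?_
    rw [Subgroup.commutator_le]
    intro a ha b hb
    rw [Subgroup.mem_bot]
    exact h0 a b ha hb
  exact ⟨3, le_bot_iff.mp h3⟩

theorem solvable_perm_of_card_le_four {β : Type*} [Fintype β] [DecidableEq β] (h : Fintype.card β ≤ 4) :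
    Group.IsSolvable (Perm β) := by
  have h4 : Fintype.card β ≤ Fintype.card (Fin 4) := by simpa using h
  obtain ⟨f⟩ := Function.Embedding.nonempty_of_card_le h4
  haveI := solvable_S4
  exact Group.isSolvable_of_isSolvable_injective (Equiv.Perm.viaEmbeddingHom_injective f)

/-- A nontrivial perfect subgroup of `Alt(Ω₁)` normalized by `Alt(Ω₁)` is `Alt(Ω₁)`. -/
theorem eq_of_le_alt {E : Subgroup (Perm α)} (hperf : ⁅E, E⁆ = E) (hne : E ≠ ⊥) (Ω₁ : Finset α)
    (hle : E ≤ (alternatingGroup {x // x ∈ Ω₁}).map (ofSubtype : Perm {x // x ∈ Ω₁} →* Perm α))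
    (hn : (alternatingGroup {x // x ∈ Ω₁}).map (ofSubtype : Perm {x // x ∈ Ω₁} →* Perm α) ≤
      Subgroup.normalizer (E : Set (Perm α))) :
    5 ≤ Ω₁.card ∧ E = (alternatingGroup {x // x ∈ Ω₁}).map (ofSubtype : Perm {x // x ∈ Ω₁} →* Perm α) := by
  classical
  set f : Perm {x // x ∈ Ω₁} →* Perm α := ofSubtype with hf
  have hfinj : Function.Injective f := ofSubtype_injective
  set E' : Subgroup (Perm {x // x ∈ Ω₁}) := E.comap f with hE'
  have hmap : E'.map f = E := by
    apply Subgroup.map_comap_eq_self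
    exact hle.trans (Subgroup.map_le_range _ _)
  have hperf' : ⁅E', E'⁆ = E' := by
    apply Subgroup.map_injective hfinj
    rw [Subgroup.map_commutator, hmap, hperf]
  have hne' : E' ≠ ⊥ := by
    rintro h
    apply hne
    rw [← hmap, h, Subgroup.map_bot]
  have h5 : 5 ≤ Ω₁.card := by
    by_contra hlt
    have h4 : Fintype.card {x // x ∈ Ω₁} ≤ 4 := by
      rw [Fintype.card_coe]
      omega
    haveI := solvable_perm_of_card_le_four h4
    have := Group.IsSolvable.commutator_lt_of_ne_bot hne'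
    rw [hperf'] at this
    exact lt_irrefl _ this
  refine ⟨h5, ?_⟩
  have hE'A : E' ≤ alternatingGroup {x // x ∈ Ω₁} := by
    intro x hx
    obtain ⟨a, ha, hax⟩ := hle hx
    rwa [← hfinj hax]
  haveI hsimple : IsSimpleGroup (alternatingGroup {x // x ∈ Ω₁}) := by
    apply alternatingGroup.isSimpleGroup
    rw [Nat.card_eq_fintype_card, Fintype.card_coe]
    exact h5
  haveI hN : (E'.subgroupOf (alternatingGroup {x // x ∈ Ω₁})).Normal := by
    constructor
    intro x hx a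
    rw [Subgroup.mem_subgroupOf] at hx ⊢
    show f _ ∈ E
    have h1 : f (a : Perm {x // x ∈ Ω₁}) ∈ Subgroup.normalizer (E : Set (Perm α)) :=
      hn ⟨a, a.2, rfl⟩
    have h2 := (Subgroup.mem_normalizer_iff.mp h1 (f x)).mp hx
    simpa [map_mul, map_inv] using h2
  rcases IsSimpleGroup.eq_bot_or_eq_top_of_normal (E'.subgroupOf (alternatingGroup {x // x ∈ Ω₁})) hN with h | h
  · exfalso
    apply hne'
    rw [eq_bot_iff]
    intro x hx
    have h2 : (⟨x, hE'A hx⟩ : alternatingGroup {x // x ∈ Ω₁}) ∈ E'.subgroupOf (alternatingGroup {x // x ∈ Ω₁}) :=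
      Subgroup.mem_subgroupOf.mpr hx
    rw [h, Subgroup.mem_bot] at h2
    exact Subgroup.mem_bot.mpr (congrArg Subtype.val h2)
  · have h2 : alternatingGroup {x // x ∈ Ω₁} ≤ E' := Subgroup.subgroupOf_eq_top.mp h
    apply le_antisymm hle
    rw [← hmap]
    exact Subgroup.map_mono h2

theorem conj_mem_closure {S : Set (Perm α)} {g : Perm α} (h : ∀ s ∈ S, g * s * g⁻¹ ∈ S) {x : Perm α}
    (hx : x ∈ Subgroup.closure S) : g * x * g⁻¹ ∈ Subgroup.closure S := by
  induction hx using Subgroup.closure_induction with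
  | mem s hs => exact Subgroup.subset_closure (h s hs)
  | one => simp
  | mul a b _ _ ha hb =>
    have e : g * (a * b) * g⁻¹ = (g * a * g⁻¹) * (g * b * g⁻¹) := by group
    rw [e]
    exact Subgroup.mul_mem _ ha hb
  | inv a _ ha =>
    have e : g * a⁻¹ * g⁻¹ = (g * a * g⁻¹)⁻¹ := by group
    rw [e]
    exact Subgroup.inv_mem _ ha

/-- A quasisimple subgroup of `Sym(α)` normalized but not centralized by a 3-cycle is `Alt(Ω₁)`
in its natural action. -/
theorem exists_alt_of_threeCycle {E : Subgroup (Perm α)} (hE : IsQuasisimple E) {c : Perm α} (hc : IsThreeCycle c)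
    (hcN : c ∈ Subgroup.normalizer (E : Set (Perm α))) (hne : ∃ e ∈ E, e * c ≠ c * e) :
    ∃ Ω₁ : Finset α, 5 ≤ Ω₁.card ∧
      E = (alternatingGroup {x // x ∈ Ω₁}).map (ofSubtype : Perm {x // x ∈ Ω₁} →* Perm α) := by
  classical
  have hperf : ⁅E, E⁆ = E := Cfsg.Agent.Lib.QSLocal.comm_self_of_qs hE
  set S : Set (Perm α) := {x | ∃ e ∈ E, x = e * c * e⁻¹} with hSdef
  set L : Subgroup (Perm α) := Subgroup.closure S with hL
  have hcS : c ∈ S := ⟨1, E.one_mem, by simp⟩
  have hS3 : ∀ s ∈ S, IsThreeCycle s := by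
    rintro s ⟨e, _, rfl⟩
    unfold IsThreeCycle at hc ⊢
    rw [cycleType_conj]
    exact hc
  have hconjS : ∀ e ∈ E, ∀ s ∈ S, e * s * e⁻¹ ∈ S := by
    rintro e he s ⟨e', he', rfl⟩
    exact ⟨e * e', E.mul_mem he he', by group⟩
  have hconjL : ∀ e ∈ E, ∀ x ∈ L, e * x * e⁻¹ ∈ L := fun e he x hx => conj_mem_closure (hconjS e he) hx
  have hcL : c ∈ L := Subgroup.subset_closure hcS
  have hEL : E ≤ L := by
    set K : Subgroup (Perm α) := L ⊓ E with hK
    have hnK : E ≤ Subgroup.normalizer (K : Set (Perm α)) := by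
      intro e he
      apply Cfsg.Agent.Lib.Subnormal.mem_normalizer_of_conj_mem
      rintro x ⟨hx1, hx2⟩
      exact ⟨hconjL e he x hx1, E.mul_mem (E.mul_mem he hx2) (E.inv_mem he)⟩
    rcases Cfsg.Agent.Lib.QSLocal.qs_dichotomy hE inf_le_right hnK with h | h
    · exact h.trans inf_le_left
    · exfalso
      have hcom : ⁅E, Subgroup.zpowers c⁆ ≤ K := by
        rw [Subgroup.commutator_le]
        intro e he y hy
        have hyL : y ∈ L := (Subgroup.zpowers_le.mpr hcL) hy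
        have hyN : y ∈ Subgroup.normalizer (E : Set (Perm α)) := (Subgroup.zpowers_le.mpr hcN) hy
        rw [commutatorElement_def]
        refine ⟨L.mul_mem (hconjL e he y hyL) (L.inv_mem hyL), ?_⟩
        have e1 : e * y * e⁻¹ * y⁻¹ = e * (y * e⁻¹ * y⁻¹) := by group
        rw [e1]
        exact E.mul_mem he ((Subgroup.mem_normalizer_iff.mp hyN _).mp (E.inv_mem he))
      have h0 := Cfsg.Agent.Lib.QSLocal.comm_eq_bot_of_central hperf
        (D := Subgroup.zpowers c) (fun x hx f hf => h.2 x (hcom hx) f hf)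
      rw [Subgroup.commutator_eq_bot_iff_le_centralizer] at h0
      obtain ⟨e, he, hne'⟩ := hne
      apply hne'
      have h1 := Subgroup.mem_centralizer_iff.mp (h0 he) c (Subgroup.mem_zpowers c)
      exact h1.symm
  have hLN : L ≤ Subgroup.normalizer (E : Set (Perm α)) := by
    rw [hL, Subgroup.closure_le]
    rintro s ⟨e, he, rfl⟩
    have hen : e ∈ Subgroup.normalizer (E : Set (Perm α)) := Subgroup.le_normalizer he
    exact Subgroup.mul_mem _ (Subgroup.mul_mem _ hen hcN) (Subgroup.inv_mem _ hen)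
  obtain ⟨a₀, ha₀, -⟩ := id hc.isCycle
  set Ω₁ : Finset α := Finset.univ.filter (fun x => ∃ g ∈ L, g a₀ = x) with hΩ
  have hmem : ∀ x, x ∈ Ω₁ ↔ ∃ g ∈ L, g a₀ = x := by
    intro x
    simp [hΩ]
  have hsupp : ∀ s ∈ S, ∀ x, s x ≠ x → x ∈ Ω₁ := by
    rintro s ⟨e, he, rfl⟩ x hx
    have h1 : c (e⁻¹ x) ≠ e⁻¹ x := by
      intro h
      apply hx
      show e (c (e⁻¹ x)) = x
      rw [h]
      simp
    obtain ⟨i, hi⟩ := hc.isCycle.sameCycle ha₀ h1
    rw [hmem]
    refine ⟨e * c ^ i, L.mul_mem (hEL he) (L.zpow_mem hcL i), ?_⟩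
    rw [Perm.mul_apply, hi]
    simp
  have htr : ∀ x ∈ Ω₁, ∀ y ∈ Ω₁, ∃ g ∈ Subgroup.closure S, g x = y := by
    intro x hx y hy
    obtain ⟨g₁, hg₁, rfl⟩ := (hmem x).mp hx
    obtain ⟨g₂, hg₂, rfl⟩ := (hmem y).mp hy
    refine ⟨g₂ * g₁⁻¹, L.mul_mem hg₂ (L.inv_mem hg₁), ?_⟩
    simp
  have hLalt := closure_eq_alt hS3 hcS Ω₁ hsupp htr
  have hEne : E ≠ ⊥ := by
    rintro rfl
    obtain ⟨e, he, hne'⟩ := hne
    rw [Subgroup.mem_bot] at he
    rw [he] at hne'
    simp at hne'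
  obtain ⟨h5, hEq⟩ := eq_of_le_alt hperf hEne Ω₁ (by rw [← hLalt]; exact hEL)
    (by rw [← hLalt]; exact hLN)
  exact ⟨Ω₁, h5, hEq⟩

theorem exists_threeCycle_conj (P : Sylow 3 (Perm α)) (K : Subgroup (Perm α))
    (hPK : (P : Subgroup (Perm α)) ≤ K) {d : Perm α} (hd : IsThreeCycle d) (hdK : d ∈ K) :
    ∃ k ∈ K, k * d * k⁻¹ ∈ (P : Subgroup (Perm α)) := by
  haveI : Fact (Nat.Prime 3) := ⟨Nat.prime_three⟩
  have hT : IsPGroup 3 (Subgroup.zpowers d) :=
    IsPGroup.of_card (n := 1) (by rw [Nat.card_zpowers, hd.orderOf]; norm_num)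
  obtain ⟨k, hk, hkT⟩ := Cfsg.Agent.Lib.SylowConjLemmas.exists_conj_mem_of_le P K hPK _ hT
    (Subgroup.zpowers_le.mpr hdK)
  exact ⟨k, hk, hkT d (Subgroup.mem_zpowers d)⟩

theorem isThreeCycle_conj {g d : Perm α} (hd : IsThreeCycle d) : IsThreeCycle (g * d * g⁻¹) := by
  unfold IsThreeCycle at hd ⊢
  rw [cycleType_conj]
  exact hd

/-- The elementary facts about `F*(H)` for `H ≤ Sym(α)`. -/
theorem fstar_facts {H : Subgroup (Perm α)} (hF : IsQuasisimple ↥(generalizedFittingSubgroup ↥H)) :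
    IsQuasisimple ((generalizedFittingSubgroup ↥H).map H.subtype) ∧
      H ≤ Subgroup.normalizer (((generalizedFittingSubgroup ↥H).map H.subtype : Subgroup (Perm α)) : Set (Perm α)) ∧
      ∀ x ∈ H, (∀ e ∈ (generalizedFittingSubgroup ↥H).map H.subtype, e * x = x * e) →
        x ∈ (generalizedFittingSubgroup ↥H).map H.subtype := by
  refine ⟨?_, ?_, ?_⟩
  · exact Cfsg.Agent.Lib.LocalCore.qs_of_mulEquiv
      (Subgroup.equivMapOfInjective _ _ H.subtype_injective) hF
  · intro h hh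
    apply Cfsg.Agent.Lib.Subnormal.mem_normalizer_of_conj_mem
    rintro _ ⟨e, he, rfl⟩
    refine ⟨⟨h, hh⟩ * e * ⟨h, hh⟩⁻¹, ?_, by simp⟩
    exact (Cfsg.Agent.Lib.LocalCore.generalizedFitting_normal).conj_mem e he _
  · intro x hx hc
    have h1 : (⟨x, hx⟩ : H) ∈ Subgroup.centralizer ((generalizedFittingSubgroup ↥H : Subgroup H) : Set H) := by
      rw [Subgroup.mem_centralizer_iff]
      intro e he
      apply Subtype.ext
      exact hc e.1 ⟨e, he, rfl⟩
    exact ⟨⟨x, hx⟩, Cfsg.Agent.Lib.LocalCore.centralizer_generalizedFitting_le h1, rfl⟩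

/-- A point of `Ω₁` is moved by `Alt(Ω₁)`. -/
theorem exists_alt_moves {Ω₁ : Finset α} (h5 : 5 ≤ Ω₁.card) {x : α} (hx : x ∈ Ω₁) :
    ∃ t ∈ alternatingGroup {x // x ∈ Ω₁}, (ofSubtype t : Perm α) x ≠ x := by
  have h1 : 2 < (Ω₁.erase x).card := by
    rw [Finset.card_erase_of_mem hx]
    omega
  obtain ⟨y, hy, z, hz, -, -, hyz, -, -⟩ := Finset.two_lt_card.mp h1
  rw [Finset.mem_erase] at hy hz
  have hxy : (⟨x, hx⟩ : {x // x ∈ Ω₁}) ≠ ⟨y, hy.2⟩ := fun h => hy.1 (congrArg Subtype.val h).symm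
  have hxz : (⟨x, hx⟩ : {x // x ∈ Ω₁}) ≠ ⟨z, hz.2⟩ := fun h => hz.1 (congrArg Subtype.val h).symm
  have hyz' : (⟨y, hy.2⟩ : {x // x ∈ Ω₁}) ≠ ⟨z, hz.2⟩ := fun h => hyz (congrArg Subtype.val h)
  refine ⟨swap ⟨x, hx⟩ ⟨y, hy.2⟩ * swap ⟨x, hx⟩ ⟨z, hz.2⟩,
    (isThreeCycle_swap_mul_swap_same hxy hxz hyz').mem_alternatingGroup, ?_⟩
  rw [ofSubtype_apply_of_mem _ hx]
  intro h
  have h2 : (swap (⟨x, hx⟩ : {x // x ∈ Ω₁}) ⟨y, hy.2⟩ * swap (⟨x, hx⟩ : {x // x ∈ Ω₁}) ⟨z, hz.2⟩) ⟨x, hx⟩ = ⟨x, hx⟩ :=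
    Subtype.ext h
  simp only [Perm.mul_apply, swap_apply_left] at h2
  rw [swap_apply_of_ne_of_ne (Ne.symm hxz) (Ne.symm hyz')] at h2
  exact hxz h2.symm

theorem swap_mem_stab {Ω₁ : Finset α} {a b : α} (ha : a ∉ Ω₁) (hb : b ∉ Ω₁) (u : α) :
    swap a b u ∈ Ω₁ ↔ u ∈ Ω₁ := by
  rw [swap_apply_def]
  split_ifs with h1 h2
  · subst h1
    simp [ha, hb]
  · subst h2
    simp [ha, hb]
  · rfl

/-- The Sylow-3 theorem. -/
theorem main_three {H : Subgroup (Perm α)} (hF : IsQuasisimple ↥(generalizedFittingSubgroup ↥H))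
    (P : Sylow 3 (Perm α)) (hP : (P : Subgroup (Perm α)) ≤ H) (hcard : 3 ≤ Fintype.card α) :
    ∃ Ω₁ : Finset α, Fintype.card α ≤ Ω₁.card + 2 ∧
      Nonempty (↥(generalizedFittingSubgroup ↥H) ≃* alternatingGroup {x // x ∈ Ω₁}) := by
  classical
  obtain ⟨hEq, hENH, hcent⟩ := fstar_facts hF
  set E : Subgroup (Perm α) := (generalizedFittingSubgroup ↥H).map H.subtype with hE
  have hperf : ⁅E, E⁆ = E := Cfsg.Agent.Lib.QSLocal.comm_self_of_qs hEq
  have hnc : ∀ c ∈ H, IsThreeCycle c → ∃ e ∈ E, e * c ≠ c * e := by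
    intro c hc h3
    by_contra hcon
    push Not at hcon
    exact false_of_central_cycle hperf h3.isCycle (hcent c hc hcon) hcon
  -- a 3-cycle in `P`
  have h2card : 2 < (Finset.univ : Finset α).card := by
    rw [Finset.card_univ]; omega
  obtain ⟨a, -, b, -, c', -, hab, hac, hbc⟩ := Finset.two_lt_card.mp h2card
  have hd₀ := isThreeCycle_swap_mul_swap_same hab hac hbc
  obtain ⟨k, -, hk⟩ := exists_threeCycle_conj P ⊤ le_top hd₀ (Subgroup.mem_top _)
  have h3c := isThreeCycle_conj (g := k) hd₀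
  set c : Perm α := k * (swap a b * swap a c') * k⁻¹ with hc
  have hcH : c ∈ H := hP hk
  obtain ⟨Ω₁, h5, hEq'⟩ := exists_alt_of_threeCycle hEq h3c (hENH hcH) (hnc c hcH h3c)
  have hEsupp : ∀ e ∈ E, ∀ x, e x ≠ x → x ∈ Ω₁ := by
    intro e he x hx
    rw [hEq'] at he
    obtain ⟨t, -, rfl⟩ := he
    by_contra hnot
    exact hx (ofSubtype_apply_of_not_mem t hnot)
  have hEmove : ∀ x ∈ Ω₁, ∃ e ∈ E, e x ≠ x := by
    intro x hx
    obtain ⟨t, ht, hne⟩ := exists_alt_moves h5 hx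
    refine ⟨ofSubtype t, ?_, hne⟩
    rw [hEq']
    exact ⟨t, ht, rfl⟩
  have hHpres : ∀ h ∈ H, ∀ x ∈ Ω₁, h x ∈ Ω₁ := by
    intro h hh x hx
    obtain ⟨e, he, hne⟩ := hEmove x hx
    have h1 : h * e * h⁻¹ ∈ E := (Subgroup.mem_normalizer_iff.mp (hENH hh) e).mp he
    apply hEsupp _ h1
    intro h2
    apply hne
    apply h.injective
    simpa using h2
  have hEpres : ∀ e ∈ E, ∀ x ∈ Ω₁, e x ∈ Ω₁ := by
    intro e he x hx
    by_contra hnot
    have h1 : e (e x) = e x := by
      by_contra hne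
      exact hnot (hEsupp e he _ hne)
    exact hnot (by rwa [e.injective h1])
  let eE : ↥(generalizedFittingSubgroup ↥H) ≃* E := Subgroup.equivMapOfInjective _ _ H.subtype_injective
  let eA : alternatingGroup {x // x ∈ Ω₁} ≃* E :=
    (Subgroup.equivMapOfInjective _ _ ofSubtype_injective).trans (MulEquiv.subgroupCongr hEq'.symm)
  refine ⟨Ω₁, ?_, ⟨eE.trans eA.symm⟩⟩
  by_contra hlt
  have h3 : 2 < (Ω₁ᶜ).card := by
    rw [Finset.card_compl]
    omega
  obtain ⟨x, hx, y, hy, z, hz, hxy, hxz, hyz⟩ := Finset.two_lt_card.mp h3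
  rw [Finset.mem_compl] at hx hy hz
  have h3d := isThreeCycle_swap_mul_swap_same hxy hxz hyz
  let Y : Subgroup (Perm α) :=
    { carrier := {g | ∀ u, g u ∈ Ω₁ ↔ u ∈ Ω₁}
      one_mem' := fun u => Iff.rfl
      mul_mem' := fun {g₁ g₂} h₁ h₂ u => by
        rw [Perm.mul_apply]
        exact (h₁ _).trans (h₂ _)
      inv_mem' := fun {g} hg u => by
        have := hg (g⁻¹ u)
        rw [show g (g⁻¹ u) = u by simp] at this
        exact this.symm }
  have hPY : (P : Subgroup (Perm α)) ≤ Y := by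
    intro g hg u
    constructor
    · intro h1
      have h2 := hHpres g⁻¹ (H.inv_mem (hP hg)) _ h1
      simpa using h2
    · exact hHpres g (hP hg) u
  have hdY : swap x y * swap x z ∈ Y := by
    intro u
    rw [Perm.mul_apply]
    exact (swap_mem_stab hx hy _).trans (swap_mem_stab hx hz _)
  obtain ⟨w, hwY, hw⟩ := exists_threeCycle_conj P Y hPY h3d hdY
  have h3d' := isThreeCycle_conj (g := w) h3d
  set d : Perm α := w * (swap x y * swap x z) * w⁻¹ with hd
  have hdH : d ∈ H := hP hw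
  have hdfix : ∀ u ∈ Ω₁, d u = u := by
    intro u hu
    have h1 : w⁻¹ u ∈ Ω₁ := (Y.inv_mem hwY u).mpr hu
    have h2 : w⁻¹ u ≠ x := fun h => hx (h ▸ h1)
    have h3 : w⁻¹ u ≠ y := fun h => hy (h ▸ h1)
    have h4 : w⁻¹ u ≠ z := fun h => hz (h ▸ h1)
    rw [hd]
    simp only [Perm.mul_apply]
    rw [swap_apply_of_ne_of_ne h2 h4, swap_apply_of_ne_of_ne h2 h3]
    simp
  have hdY' : d ∈ Y := hPY hw
  have hcomm : ∀ e ∈ E, e * d = d * e := by
    intro e he
    ext u
    simp only [Perm.mul_apply]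
    by_cases hu : u ∈ Ω₁
    · rw [hdfix u hu, hdfix _ (hEpres e he u hu)]
    · have h1 : e u = u := by
        by_contra hne
        exact hu (hEsupp e he u hne)
      have h2 : d u ∉ Ω₁ := fun h => hu ((hdY' u).mp h)
      have h4 : e (d u) = d u := by
        by_contra hne
        exact h2 (hEsupp e he _ hne)
      rw [h1, h4]
  have hdE := hcent d hdH hcomm
  have hd1 : d = 1 := by
    apply Equiv.ext
    intro u
    by_cases hu : u ∈ Ω₁
    · exact hdfix u hu
    · by_contra hne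
      exact hu (hEsupp d hdE u hne)
  have h4 := h3d'.orderOf
  rw [hd1, orderOf_one] at h4
  omega

end Cfsg.Agent.Lib.PermQS
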