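import Mathlib
import Cfsg.Prelude.Def_LieTypeDatum
import Cfsg.Agent.Lib.PgoInndiag
import Cfsg.Agent.Lib.AutPOm.OddCount
import Cfsg.Agent.Lib.AutPSL.Split

/-!
# Involutory graph automorphisms of `PΩ^±` modulo the inner automorphisms
-/

set_option autoImplicit false
set_option linter.unusedSectionVars false
set_option linter.unusedSimpArgs false
set_option linter.unusedVariables false

namespace Cfsg.Agent.Lib.PgoGraphInv

open QuadraticMap Cfsg.Agent.Lib.OrthoBasic Cfsg.Agent.Lib.OrthoSiegel Cfsg.Agent.Lib.OrthoGen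
  Cfsg.Agent.Lib.OrthoIndex Cfsg.Agent.Lib.OrthoSimple Cfsg.Agent.Lib.OrthoCount Cfsg.Agent.Lib.OrthoOrder
  Cfsg.Agent.Lib.OrthoFinal Cfsg.Agent.Lib.OrthoChar Cfsg.Agent.Lib.PgoPsi Cfsg.Agent.Lib.PgoGroup
  Cfsg.Agent.Lib.PgoSim Cfsg.Agent.Lib.OrthoCardFinal Cfsg.Agent.Lib.PgoFamilies
  Cfsg.Agent.Lib.PgoInndiag
open Cfsg Matrix

/-! ### Counting classes by an index -/

section generic

variable {X : Type*} [Group X]

/-- The subgroup `K · C_H(x)` of `H`. -/
def supC (H K : Subgroup X) (x : X) : Subgroup H :=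
  K.subgroupOf H ⊔ (Subgroup.centralizer {x}).subgroupOf H

lemma mem_supC {H K : Subgroup X} (hN : (K.subgroupOf H).Normal) {x : X} (h : H) :
    h ∈ supC H K x ↔ ∃ k c : H, (k : X) ∈ K ∧ Commute (c : X) x ∧ h = k * c := by
  unfold supC
  haveI := hN
  rw [Subgroup.mem_sup_of_normal_left]
  constructor
  · rintro ⟨k, hk, c, hc, rfl⟩
    refine ⟨k, c, hk, ?_, rfl⟩
    have h1 := Subgroup.mem_centralizer_singleton_iff.1 (Subgroup.mem_subgroupOf.1 hc)
    exact h1
  · rintro ⟨k, c, hk, hc, rfl⟩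
    refine ⟨k, Subgroup.mem_subgroupOf.2 hk, c, ?_, rfl⟩
    apply Subgroup.mem_subgroupOf.2
    exact Subgroup.mem_centralizer_singleton_iff.2 hc.eq

lemma normal_of_comm {H K : Subgroup X} (hcomm : ∀ a b : H, a * b * a⁻¹ * b⁻¹ ∈ K.subgroupOf H) :
    (K.subgroupOf H).Normal := by
  constructor
  intro n hn g
  have h1 := (K.subgroupOf H).mul_mem (hcomm g n) hn
  simpa using h1

lemma normal_sup_of_comm {H K : Subgroup X} (hcomm : ∀ a b : H, a * b * a⁻¹ * b⁻¹ ∈ K.subgroupOf H) (x : X) :
    (supC H K x).Normal := by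
  constructor
  intro n hn g
  have h0 : K.subgroupOf H ≤ supC H K x := le_sup_left
  have h1 := (supC H K x).mul_mem (h0 (hcomm g n)) hn
  simpa using h1

theorem count_eq_index (H K : Subgroup X) (hKH : K ≤ H)
    (hcomm : ∀ a b : H, a * b * a⁻¹ * b⁻¹ ∈ K.subgroupOf H) (x : X) :
    splitClassCount H K x = (supC H K x).index := by
  have hN := normal_of_comm hcomm
  haveI hS := normal_sup_of_comm hcomm x
  have hR : H.subtype.range = H := Subgroup.range_subtype H
  have h := Cfsg.Agent.Lib.AutPSL.split_count (H.subtype) K x (by rw [hR]; exact hKH)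
    (by
      intro k hk g
      have h1 := hN.conj_mem ⟨k, hKH hk⟩ (Subgroup.mem_subgroupOf.2 hk) g
      exact Subgroup.mem_subgroupOf.1 h1)
    (QuotientGroup.mk' (supC H K x)) (QuotientGroup.mk'_surjective _)
    (by
      intro g
      rw [QuotientGroup.mk'_apply, QuotientGroup.eq_one_iff, mem_supC hN]
      rfl)
  rw [hR] at h
  rw [h]
  rfl

lemma index_dvd {H K : Subgroup X} (x : X) : (supC H K x).index ∣ (K.subgroupOf H).index :=
  Subgroup.index_dvd_of_le le_sup_left

/-- Index two. -/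
lemma count_of_two (H K : Subgroup X) (hKH : K ≤ H)
    (hcomm : ∀ a b : H, a * b * a⁻¹ * b⁻¹ ∈ K.subgroupOf H) (x : X) (h2 : (K.subgroupOf H).index = 2) :
    splitClassCount H K x = 1 ∨ splitClassCount H K x = 2 := by
  rw [count_eq_index H K hKH hcomm]
  have h := index_dvd (H := H) (K := K) x
  rw [h2] at h
  exact (Nat.dvd_prime Nat.prime_two).1 h

/-- All the centraliser is in `K`. -/
lemma count_of_le (H K : Subgroup X) (hKH : K ≤ H)
    (hcomm : ∀ a b : H, a * b * a⁻¹ * b⁻¹ ∈ K.subgroupOf H) (x : X)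
    (hc : ∀ c : H, Commute (c : X) x → (c : X) ∈ K) :
    splitClassCount H K x = (K.subgroupOf H).index := by
  rw [count_eq_index H K hKH hcomm]
  congr 1
  apply le_antisymm
  · apply sup_le le_rfl
    intro c hc'
    apply Subgroup.mem_subgroupOf.2
    apply hc
    exact Subgroup.mem_centralizer_singleton_iff.1 (Subgroup.mem_subgroupOf.1 hc')
  · exact le_sup_left

/-- Index four, with a proper intermediate subgroup. -/
lemma count_of_four (H K : Subgroup X) (hKH : K ≤ H)
    (hcomm : ∀ a b : H, a * b * a⁻¹ * b⁻¹ ∈ K.subgroupOf H) (x : X) (h4 : (K.subgroupOf H).index = 4)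
    (hc : ∃ c : H, Commute (c : X) x ∧ (c : X) ∉ K)
    (hne : ∃ h : H, ¬ ∃ k c : H, (k : X) ∈ K ∧ Commute (c : X) x ∧ h = k * c) :
    splitClassCount H K x = 2 := by
  rw [count_eq_index H K hKH hcomm]
  have hN := normal_of_comm hcomm
  have h1 : (supC H K x).index ≠ 1 := by
    intro h
    obtain ⟨g, hg⟩ := hne
    apply hg
    have : supC H K x = ⊤ := Subgroup.index_eq_one.1 h
    rw [← mem_supC hN, this]
    exact Subgroup.mem_top g
  have h2 : (supC H K x).index ≠ 4 := by
    intro h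
    have hle : K.subgroupOf H ≤ supC H K x := le_sup_left
    have h3 := Subgroup.relIndex_mul_index hle
    rw [h, h4] at h3
    have h5 : (K.subgroupOf H).relIndex (supC H K x) = 1 := by omega
    have h6 : supC H K x ≤ K.subgroupOf H := Subgroup.relIndex_eq_one.1 h5
    obtain ⟨c, hc1, hc2⟩ := hc
    apply hc2
    have h7 : c ∈ supC H K x := (mem_supC hN c).2 ⟨1, c, by simp [K.one_mem], hc1, by simp⟩
    exact Subgroup.mem_subgroupOf.1 (h6 h7)
  have h3 : (supC H K x).index ∣ 4 := by
    rw [← h4]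
    exact index_dvd x
  have h4' : (supC H K x).index ≤ 4 := Nat.le_of_dvd (by norm_num) h3
  interval_cases hk : (supC H K x).index <;> first | rfl | omega

end generic

/-! ### Characteristic polynomials of matrices with scalar square -/

section charpoly

variable {ι : Type} [Fintype ι] [DecidableEq ι] {F : Type*} [Field F]

open Polynomial

lemma charpoly_mul_neg (M : Matrix ι ι F) {l : F} (hM : M * M = Matrix.scalar ι l) :
    M.charpoly * (-M).charpoly = (X ^ 2 - C l) ^ Fintype.card ι := by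
  unfold Matrix.charpoly
  rw [← Matrix.det_mul]
  have h : charmatrix M * charmatrix (-M) = Matrix.scalar ι (X ^ 2 - C l : F[X]) := by
    have e : charmatrix (-M) = Matrix.scalar ι (X : F[X]) + (C : F →+* F[X]).mapMatrix M := by
      rw [charmatrix]
      rw [map_neg, sub_neg_eq_add]
    have e1 : (C : F →+* F[X]).mapMatrix M * (C : F →+* F[X]).mapMatrix M = Matrix.scalar ι (C l) := by
      rw [← map_mul, hM]
      ext i j
      simp [Matrix.scalar_apply, Matrix.diagonal_apply, apply_ite]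
    have e2 : (C : F →+* F[X]).mapMatrix M * Matrix.scalar ι (X : F[X]) = Matrix.scalar ι (X : F[X]) * (C : F →+* F[X]).mapMatrix M :=
      (Matrix.scalar_commute _ (fun r' => Commute.all _ _) _).symm
    rw [e, charmatrix, sub_mul, mul_add, mul_add, e1, e2, map_sub, pow_two, map_mul]
    abel
  rw [h, Matrix.scalar_apply, Matrix.det_diagonal, Finset.prod_const, Finset.card_univ]

lemma det_of_charpoly {M : Matrix ι ι F} {l : F} {n : ℕ} (hn : Fintype.card ι = 2 * n)
    (h : M.charpoly = (X ^ 2 - C l) ^ n) : M.det = (-l) ^ n := by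
  rw [Matrix.det_eq_sign_charpoly_coeff, h, hn, pow_mul]
  simp only [even_two, Even.neg_pow, one_pow, Units.val_one, one_mul]
  rw [Polynomial.coeff_zero_eq_eval_zero, eval_pow]
  simp

/-- If `M` and `-M` have the same characteristic polynomial. -/
lemma det_of_neg (h2 : (2 : F) ≠ 0) {M : Matrix ι ι F} {l : F} {n : ℕ} (hn : Fintype.card ι = 2 * n)
    (hM : M * M = Matrix.scalar ι l) (hneg : (-M).charpoly = M.charpoly) : M.det = (-l) ^ n := by
  apply det_of_charpoly hn
  have h1 := charpoly_mul_neg M hM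
  rw [hneg, hn, pow_mul'] at h1
  have hmon : (X ^ 2 - C l : F[X]).Monic := monic_X_pow_sub_C l (by norm_num)
  have h3 : M.charpoly ^ 2 = ((X ^ 2 - C l : F[X]) ^ n) ^ 2 := by rw [pow_two, h1, pow_two, ← pow_two]
    
  rcases sq_eq_sq_iff_eq_or_eq_neg.1 h3 with h4 | h4
  · exact h4
  · exfalso
    have hm1 : M.charpoly.Monic := Matrix.charpoly_monic M
    have hm2 : ((X ^ 2 - C l : F[X]) ^ n).Monic := hmon.pow n
    have h5 : M.charpoly.leadingCoeff = 1 := hm1
    rw [h4, leadingCoeff_neg, hm2.leadingCoeff] at h5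
    apply h2
    have : (-1 : F) = 1 := h5
    linear_combination -this

/-- If `l` is not a square. -/
lemma det_of_nonsq {M : Matrix ι ι F} {l : F} {n : ℕ} (hn : Fintype.card ι = 2 * n)
    (hM : M * M = Matrix.scalar ι l) (hl : ¬ IsSquare l) : M.det = (-l) ^ n := by
  apply det_of_charpoly hn
  have h1 := charpoly_mul_neg M hM
  have hirr : Irreducible (X ^ 2 - C l : F[X]) := by
    apply X_pow_sub_C_irreducible_of_prime Nat.prime_two
    intro b hb
    exact hl ⟨b, by rw [← hb]; ring⟩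
  have hd : M.charpoly ∣ (X ^ 2 - C l : F[X]) ^ Fintype.card ι := ⟨_, h1.symm⟩
  obtain ⟨i, hi, hass⟩ := (dvd_prime_pow hirr.prime _).1 hd
  have hmon : (X ^ 2 - C l : F[X]).Monic := monic_X_pow_sub_C l (by norm_num)
  have heq : M.charpoly = (X ^ 2 - C l : F[X]) ^ i :=
    eq_of_monic_of_associated (Matrix.charpoly_monic M) (hmon.pow i) hass
  have hdeg := congrArg natDegree heq
  rw [Matrix.charpoly_natDegree_eq_dim, hmon.natDegree_pow, natDegree_X_pow_sub_C, hn] at hdeg
  have : i = n := by omega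
  rw [heq, this]

end charpoly

/-! ### The setting of similarities -/

section data

variable {F : Type*} [Field F] [Fintype F] {ι : Type} [Fintype ι] [DecidableEq ι] {f : (ι → F) → F}
  {Q : QuadraticForm F (ι → F)} {n : ℕ}

open Cfsg.Agent.Lib.PgoSim.Data

lemma isSquare_val_iff (c : Fˣ) : IsSquare (c : F) ↔ IsSquare c := by
  constructor
  · rintro ⟨d, hd⟩
    have hd0 : d ≠ 0 := by
      rintro rfl
      rw [mul_zero] at hd
      exact c.ne_zero hd
    exact ⟨Units.mk0 d hd0, Units.ext hd⟩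
  · rintro ⟨d, hd⟩
    exact ⟨d, by rw [hd]; rfl⟩

/-- The action of a similarity on vectors. -/
def ap (g : CO f) (v : ι → F) : ι → F := ((g : GL ι F) : Matrix ι ι F) *ᵥ v

lemma ap_mul (a b : CO f) (v : ι → F) : ap (a * b) v = ap a (ap b v) := by
  change (((a : GL ι F) * (b : GL ι F) : GL ι F) : Matrix ι ι F) *ᵥ v = _
  rw [Units.val_mul, ← Matrix.mulVec_mulVec]
  rfl

lemma ap_one (v : ι → F) : ap (1 : CO f) v = v := by
  change ((1 : GL ι F) : Matrix ι ι F) *ᵥ v = v
  simp

lemma ap_add (g : CO f) (u v : ι → F) : ap g (u + v) = ap g u + ap g v := Matrix.mulVec_add _ _ _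

lemma ap_sub (g : CO f) (u v : ι → F) : ap g (u - v) = ap g u - ap g v := Matrix.mulVec_sub _ _ _

lemma ap_smul (g : CO f) (c : F) (v : ι → F) : ap g (c • v) = c • ap g v := Matrix.mulVec_smul _ _ _

lemma ap_scalC (D : Data f Q n) (l : Fˣ) (v : ι → F) : ap (D.scalC l) v = (l : F) • v := scalGL_apply l v

lemma Q_ap (D : Data f Q n) (g : CO f) (v : ι → F) : Q (ap g v) = D.multC g * Q v := by
  rw [← D.hf, ← D.hf]
  exact D.multC_spec g v

lemma polar_ap (D : Data f Q n) (g : CO f) (u v : ι → F) :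
    polar Q (ap g u) (ap g v) = D.multC g * polar Q u v := by
  simp only [polar, ← ap_add, Q_ap D]
  ring

lemma ext_ap {a b : CO f} (h : ∀ v, ap a v = ap b v) : a = b := by
  apply Subtype.ext
  apply Units.ext
  apply Matrix.mulVec_injective
  funext v
  exact h v

lemma ap_rA (D : Data f Q n) {x : ι → F} (hx : Q x ≠ 0) (v : ι → F) :
    ap (isoC (D.rA hx)) v = reflLin Q x v := D.rA_apply hx v

lemma sim_reflLin (D : Data f Q n) (g : CO f) {x : ι → F} (hx : Q x ≠ 0) (v : ι → F) :
    ap g (reflLin Q x v) = reflLin Q (ap g x) (ap g v) := by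
  rw [reflLin_apply, reflLin_apply, ap_sub, ap_smul, polar_ap D, Q_ap D]
  congr 2
  have := (D.multC g).ne_zero
  field_simp

lemma Q_ap_ne (D : Data f Q n) (g : CO f) {x : ι → F} (hx : Q x ≠ 0) : Q (ap g x) ≠ 0 := by
  rw [Q_ap D]
  exact mul_ne_zero (D.multC g).ne_zero hx

/-- Conjugation of a reflection. -/
lemma conj_rA (D : Data f Q n) (g : CO f) {x : ι → F} (hx : Q x ≠ 0) :
    g * isoC (D.rA hx) = isoC (D.rA (Q_ap_ne D g hx)) * g := by
  apply ext_ap
  intro v
  rw [ap_mul, ap_mul, ap_rA, ap_rA, sim_reflLin D g hx]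

/-- A reflection in an eigenvector commutes with the similarity. -/
lemma comm_rA (D : Data f Q n) (g : CO f) {x : ι → F} (hx : Q x ≠ 0) {κ : F} (hκ : κ ≠ 0)
    (h : ap g x = κ • x) : g * isoC (D.rA hx) = isoC (D.rA hx) * g := by
  apply ext_ap
  intro v
  rw [ap_mul, ap_mul, ap_rA, ap_rA, sim_reflLin D g hx, h, reflLin_smul hκ hx]

/-- The similarity in terms of `gram`. -/
lemma charpoly_neg_of_sq (D : Data f Q n) (g : CO f) {l : Fˣ} (hg : g * g = D.scalC l) (hl : l = - D.multC g) :
    (-(((g : GL ι F) : Matrix ι ι F))).charpoly = (((g : GL ι F) : Matrix ι ι F)).charpoly := by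
  set M : Matrix ι ι F := ((g : GL ι F) : Matrix ι ι F) with hM
  have hsim : ∀ v, Q (M *ᵥ v) = (D.multC g : F) * Q v := fun v => Q_ap D g v
  have h1 := AutPOm.gram_sim hsim
  set J := AutPOm.gram Q with hJ
  have hJ0 : J.det ≠ 0 := AutPOm.det_gram_ne D.hQ
  have hMM : M * M = (l : F) • (1 : Matrix ι ι F) := by
    have h2 := congrArg (fun x : CO f => ((x : GL ι F) : Matrix ι ι F)) hg
    simp only [scalC_coe] at h2
    rw [show (scalGL (ι := ι) l : GL ι F).1 = Matrix.scalar ι (l : F) from rfl] at h2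
    have e : (((g * g : CO f) : GL ι F) : Matrix ι ι F) = M * M := rfl
    rw [e] at h2
    rw [h2]
    ext i j
    simp [Matrix.scalar_apply, Matrix.diagonal_apply, Matrix.one_apply]
  have h3 : Mᵀ * J = - (J * M) := by
    have h4 : Mᵀ * J * M * M = (D.multC g : F) • (J * M) := by
      rw [h1, Matrix.smul_mul]
    rw [mul_assoc, hMM, hl, Matrix.mul_smul, mul_one] at h4
    simp only [Units.val_neg] at h4
    have hc := (D.multC g).ne_zero
    have h5 : (D.multC g : F) • (Mᵀ * J + J * M) = 0 := by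
      rw [smul_add, ← h4]
      simp
    rcases smul_eq_zero.1 h5 with h6 | h6
    · exact absurd h6 hc
    · exact eq_neg_of_add_eq_zero_left h6
  let U : (Matrix ι ι F)ˣ := Matrix.GeneralLinearGroup.mkOfDetNeZero J hJ0
  have hU : (U : Matrix ι ι F) = J := rfl
  have h7 : (U : Matrix ι ι F) * (-M) * (U : Matrix ι ι F)⁻¹ = Mᵀ := by
    have h8 : (U : Matrix ι ι F) * (-M) = Mᵀ * (U : Matrix ι ι F) := by
      rw [hU, h3]
      simp
    rw [h8, ← Matrix.coe_units_inv, mul_assoc, Units.mul_inv, mul_one]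
  rw [← Matrix.charpoly_units_conj U (-M), h7, Matrix.charpoly_transpose]

/-- The classification of elements with scalar square and non-trivial `delta`. -/
theorem classify (D : Data f Q n) (g : CO f) (hδ : D.delta g = -1) {l : Fˣ} (hg : g * g = D.scalC l) :
    (∃ e : CO f, psiO f e = psiO f g ∧ D.multC e = 1 ∧ e * e = 1 ∧ D.delta e = -1) ∨
      (Odd n ∧ ¬ IsSquare (D.multC g) ∧ g * g = D.scalC (D.multC g)) := by
  have h2 := char_ne_two_of_odd D.hodd
  have hMM : ((g : GL ι F) : Matrix ι ι F) * ((g : GL ι F) : Matrix ι ι F) = Matrix.scalar ι (l : F) := by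
    have h3 := congrArg (fun x : CO f => ((x : GL ι F) : Matrix ι ι F)) hg
    exact h3
  set c := D.multC g with hc
  have hcl : c * c = l * l := by
    have h3 := congrArg D.multC hg
    rwa [map_mul, multC_scalC] at h3
  have hdelta : ∀ d : Fˣ, ((g : GL ι F) : Matrix ι ι F).det = ((d ^ n : Fˣ) : F) → D.delta g = d ^ n * (c ^ n)⁻¹ := by
    intro d hd
    rw [delta_apply, detC_apply]
    congr 1
    apply Units.ext
    exact hd
  have hcl' : (c : F) * c = l * l := by
    have h3 := congrArg Units.val hcl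
    simpa using h3
  have hcases : c = l ∨ c = -l := by
    rcases mul_self_eq_mul_self_iff.1 hcl' with h3 | h3
    · exact Or.inl (Units.ext h3)
    · exact Or.inr (Units.ext (by simpa using h3))
  rcases hcases with hl | hl
  · by_cases hs : IsSquare c
    · left
      obtain ⟨ω, hω⟩ := hs
      have hcomm : ∀ (k : Fˣ) (x : CO f), D.scalC k * x = x * D.scalC k := by
        intro k x
        apply Subtype.ext
        exact scalGL_comm k _
      refine ⟨D.scalC ω⁻¹ * g, ?_, ?_, ?_, ?_⟩
      · rw [map_mul, D.psiO_scalC, one_mul]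
      · rw [map_mul, multC_scalC, ← hc, hω]
        group
      · have e1 : (D.scalC ω⁻¹ * g) * (D.scalC ω⁻¹ * g) = D.scalC ω⁻¹ * D.scalC ω⁻¹ * (g * g) := by
          calc (D.scalC ω⁻¹ * g) * (D.scalC ω⁻¹ * g) = D.scalC ω⁻¹ * (g * D.scalC ω⁻¹) * g := by
                simp only [mul_assoc]
            _ = D.scalC ω⁻¹ * (D.scalC ω⁻¹ * g) * g := by rw [← hcomm]
            _ = _ := by simp only [mul_assoc]
        rw [e1, hg]
        have e2 : ∀ a b : Fˣ, D.scalC a * D.scalC b = D.scalC (a * b) := by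
          intro a b
          apply Subtype.ext
          exact (scalGL_mul a b).symm
        rw [e2, e2, ← hl, hω]
        have e3 : ω⁻¹ * ω⁻¹ * (ω * ω) = 1 := by group
        rw [e3, D.scalC_one]
      · rw [map_mul, delta_scalC, one_mul, hδ]
    · right
      refine ⟨?_, hs, by rw [← hl] at hg; exact hg⟩
      have hns : ¬ IsSquare (l : F) := by
        rw [isSquare_val_iff, ← hl]
        exact hs
      have hdet := det_of_nonsq D.hcard hMM hns
      have h3 : D.delta g = (-1) ^ n := by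
        have h4 := hdelta (-l) (by rw [hdet]; simp)
        rw [h4, ← hl, neg_pow c n]
        group
      rw [hδ] at h3
      by_contra hodd
      rw [Nat.not_odd_iff_even] at hodd
      rw [hodd.neg_one_pow] at h3
      exact D.neg_ne_one h3
  · exfalso
    have hneg := charpoly_neg_of_sq D g hg (by rw [← hc, hl, neg_neg])
    have hdet := det_of_neg h2 D.hcard hMM hneg
    have h4 := hdelta c (by
      rw [hdet, hl]
      simp)
    rw [hδ, mul_inv_cancel] at h4
    exact D.neg_ne_one h4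

/-! ### Type I: isometries with square one -/

lemma isoC_mul (a b : isometryGroup F f) : isoC (a * b) = isoC a * isoC b := rfl

/-- Nondegenerate subspaces. -/
def NDsub (Q : QuadraticForm F (ι → F)) (Y : Submodule F (ι → F)) : Prop :=
  ∀ a ∈ Y, a ≠ 0 → ∃ b ∈ Y, polar Q a b ≠ 0

lemma exists_Q_ne_of_ND {Y : Submodule F (ι → F)} (hY : NDsub Q Y) (hne : Y ≠ ⊥) : ∃ x ∈ Y, Q x ≠ 0 := by
  obtain ⟨a, ha, ha0⟩ := Y.exists_mem_ne_zero_of_ne_bot hne
  obtain ⟨b, hb, hab⟩ := hY a ha ha0
  by_contra hall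
  push Not at hall
  apply hab
  have h1 := hall a ha
  have h2 := hall b hb
  have h3 := hall (a + b) (Y.add_mem ha hb)
  rw [Q_add, h1, h2] at h3
  simpa using h3

/-- The orthogonal complement of a vector in a subspace. -/
def perpIn (Q : QuadraticForm F (ι → F)) (Y : Submodule F (ι → F)) (x : ι → F) : Submodule F (ι → F) where
  carrier := {v | v ∈ Y ∧ polar Q v x = 0}
  add_mem' := by
    rintro a b ⟨ha, ha'⟩ ⟨hb, hb'⟩
    exact ⟨Y.add_mem ha hb, by rw [polar_add_left, ha', hb', add_zero]⟩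
  zero_mem' := ⟨Y.zero_mem, by simp⟩
  smul_mem' := by
    rintro c a ⟨ha, ha'⟩
    exact ⟨Y.smul_mem c ha, by rw [polar_smul_l, ha', mul_zero]⟩

lemma ND_perp (h2 : (2 : F) ≠ 0) {Y : Submodule F (ι → F)} (hY : NDsub Q Y) {x : ι → F} (hxY : x ∈ Y) (hx : Q x ≠ 0) :
    NDsub Q (perpIn Q Y x) := by
  have hxx : polar Q x x ≠ 0 := by
    rw [polar_self']
    exact mul_ne_zero h2 hx
  rintro a ⟨ha, ha'⟩ ha0
  obtain ⟨b, hb, hab⟩ := hY a ha ha0
  refine ⟨b - (polar Q b x / polar Q x x) • x, ⟨Y.sub_mem hb (Y.smul_mem _ hxY), ?_⟩, ?_⟩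
  · rw [polar_sub_left, polar_smul_l]
    field_simp
    ring
  · rw [polar_sub_right, polar_smul_r, ha', mul_zero, sub_zero]
    exact hab

lemma perp_ne_bot (h2 : (2 : F) ≠ 0) {Y : Submodule F (ι → F)} (hdim : 2 ≤ Module.finrank F Y) {x : ι → F} (hxY : x ∈ Y)
    (hx : Q x ≠ 0) : perpIn Q Y x ≠ ⊥ := by
  have hxx : polar Q x x ≠ 0 := by
    rw [polar_self']
    exact mul_ne_zero h2 hx
  intro hbot
  have h1 : Module.finrank F Y ≤ 1 := by
    apply finrank_le_one (⟨x, hxY⟩ : Y)
    rintro ⟨a, ha⟩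
    refine ⟨polar Q a x / polar Q x x, ?_⟩
    apply Subtype.ext
    have h3 : a - (polar Q a x / polar Q x x) • x ∈ perpIn Q Y x := by
      refine ⟨Y.sub_mem ha (Y.smul_mem _ hxY), ?_⟩
      rw [polar_sub_left, polar_smul_l]
      field_simp
      ring
    rw [hbot, Submodule.mem_bot, sub_eq_zero] at h3
    exact h3.symm
  omega

/-- Two values in different square classes on a non-degenerate subspace of dimension at least two. -/
lemma exists_two_values (hodd : Odd (Fintype.card F)) {Y : Submodule F (ι → F)} (hY : NDsub Q Y)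
    (hdim : 2 ≤ Module.finrank F Y) {ν : F} (hν : ¬ IsSquare ν) :
    ∃ x ∈ Y, ∃ z ∈ Y, ∃ hx : Q x ≠ 0, ∃ hz : Q z ≠ 0, ¬ IsSquare (Q x * Q z) := by
  have h2 := char_ne_two_of_odd hodd
  have hν0 : ν ≠ 0 := by
    rintro rfl
    exact hν ⟨0, by simp⟩
  have hne : Y ≠ ⊥ := by
    rintro rfl
    simp at hdim
  obtain ⟨x, hxY, hx⟩ := exists_Q_ne_of_ND hY hne
  obtain ⟨y, hy, hyQ⟩ := exists_Q_ne_of_ND (ND_perp h2 hY hxY hx) (perp_ne_bot h2 hdim hxY hx)
  have hyY : y ∈ Y := hy.1
  have hyx : polar Q y x = 0 := hy.2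
  have hcard : Fintype.card F % 2 = 1 := Nat.odd_iff.1 hodd
  obtain ⟨α, β, hαβ⟩ := FiniteField.exists_root_sum_quadratic
    (f := Polynomial.C (Q x) * Polynomial.X ^ 2 - Polynomial.C (ν * Q x))
    (g := Polynomial.C (Q y) * Polynomial.X ^ 2)
    (by compute_degree!) (by compute_degree!) hcard
  simp only [Polynomial.eval_sub, Polynomial.eval_mul, Polynomial.eval_C, Polynomial.eval_pow, Polynomial.eval_X] at hαβ
  have hz : Q (α • x + β • y) = ν * Q x := by
    rw [Q_add, Q_smul, Q_smul, polar_smul_l, polar_smul_r, polar_comm Q x y, hyx]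
    linear_combination hαβ
  refine ⟨x, hxY, α • x + β • y, Y.add_mem (Y.smul_mem _ hxY) (Y.smul_mem _ hyY), hx, ?_, ?_⟩
  · rw [hz]
    exact mul_ne_zero hν0 hx
  · rw [hz]
    rintro ⟨d, hd⟩
    apply hν
    refine ⟨d / Q x, ?_⟩
    field_simp
    linear_combination hd

/-- Eigenspaces. -/
def eigen (e : CO f) (ε : F) : Submodule F (ι → F) where
  carrier := {v | ap e v = ε • v}
  add_mem' := by
    intro a b ha hb
    change ap e (a + b) = _
    rw [ap_add, ha, hb, smul_add]
  zero_mem' := by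
    change ap e 0 = _
    simp [ap]
  smul_mem' := by
    intro c a ha
    change ap e (c • a) = _
    rw [ap_smul, ha, smul_comm]

section eigen

variable (D : Data f Q n) {e : CO f} (he1 : D.multC e = 1) (he2 : e * e = 1)

include he2 in
lemma ap_ap_e (v : ι → F) : ap e (ap e v) = v := by
  rw [← ap_mul, he2, ap_one]

include D he1 he2 in
lemma polar_ap_e {x : ι → F} {ε : F} (hε : ε * ε = 1) (hx : x ∈ eigen e ε) (v : ι → F) :
    polar Q x (ap e v) = ε * polar Q x v := by
  have h1 := polar_ap D e x (ap e v)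
  rw [ap_ap_e he2, he1] at h1
  have hx' : ap e x = ε • x := hx
  rw [hx', polar_smul_l] at h1
  simp only [Units.val_one, one_mul] at h1
  exact h1.symm

include D he1 he2 in
lemma ND_eigen {ε : F} (h2 : (2 : F) ≠ 0) (hε : ε * ε = 1) : NDsub Q (eigen e ε) := by
  intro a ha ha0
  obtain ⟨w, hw⟩ := D.hQ a ha0
  refine ⟨(2⁻¹ : F) • (w + ε • ap e w), ?_, ?_⟩
  · change ap e _ = _
    rw [ap_smul, ap_add, ap_smul, ap_ap_e he2, smul_comm ε (2⁻¹ : F)]
    congr 1
    rw [smul_add, smul_smul, hε, one_smul, add_comm]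
  · rw [polar_smul_r, polar_add_right, polar_smul_r, polar_ap_e D he1 he2 hε ha]
    have : (2 : F)⁻¹ * (polar Q a w + ε * (ε * polar Q a w)) = polar Q a w := by
      rw [← mul_assoc, hε]
      field_simp
      ring
    rw [this]
    exact hw

include he2 in
lemma sup_eigen (h2 : (2 : F) ≠ 0) : eigen e (1 : F) ⊔ eigen e (-1 : F) = ⊤ := by
  rw [eq_top_iff]
  intro v _
  have h3 : v = (2⁻¹ : F) • (v + ap e v) + (2⁻¹ : F) • (v - ap e v) := by
    rw [← smul_add]
    have : v + ap e v + (v - ap e v) = (2 : F) • v := by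
      rw [two_smul]
      abel
    rw [this, smul_smul, inv_mul_cancel₀ h2, one_smul]
  rw [h3]
  apply Submodule.add_mem_sup
  · change ap e _ = _
    rw [ap_smul, ap_add, ap_ap_e he2, one_smul, add_comm]
  · change ap e _ = _
    rw [ap_smul, ap_sub, ap_ap_e he2, smul_comm, neg_smul, one_smul, neg_sub]

end eigen

/-- An element of `SO \ Ω` commuting with `e`. -/
theorem exists_t_I (D : Data f Q n) (hn : 2 ≤ n) {e : CO f} (he1 : D.multC e = 1) (he2 : e * e = 1) :
    ∃ t : isometryGroup F f, Matrix.GeneralLinearGroup.det (t : GL ι F) = 1 ∧ chi Q (D.toOG t) = -1 ∧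
      Commute (isoC t) e := by
  have h2 := char_ne_two_of_odd D.hodd
  have hdim : 2 ≤ Module.finrank F (eigen e (1 : F)) ∨ 2 ≤ Module.finrank F (eigen e (-1 : F)) := by
    have h1 := Submodule.finrank_add_le_finrank_add_finrank (eigen e (1 : F)) (eigen e (-1 : F))
    rw [sup_eigen he2 h2, finrank_top, Module.finrank_fintype_fun_eq_card, D.hcard] at h1
    omega
  have hν := D.ν_not_square
  have key : ∀ ε : F, ε * ε = 1 → 2 ≤ Module.finrank F (eigen e ε) → ∃ t : isometryGroup F f,
      Matrix.GeneralLinearGroup.det (t : GL ι F) = 1 ∧ chi Q (D.toOG t) = -1 ∧ Commute (isoC t) e := by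
    intro ε hε hd
    have hε0 : ε ≠ 0 := by
      rintro rfl
      simp at hε
    obtain ⟨x, hxY, z, hzY, hx, hz, hns⟩ := exists_two_values D.hodd (ND_eigen D he1 he2 h2 hε) hd hν
    refine ⟨D.rA hx * D.rA hz, ?_, ?_, ?_⟩
    · rw [Subgroup.coe_mul, map_mul, D.rA_det, D.rA_det]
      simp
    · rw [map_mul, D.toOG_rA, D.toOG_rA]
      exact chi_refl_mul D.hodd D.hQ D.hgen D.fr hx hz hns
    · have c1 : Commute (isoC (D.rA hx)) e := (comm_rA D e hx hε0 hxY).symm
      have c2 : Commute (isoC (D.rA hz)) e := (comm_rA D e hz hε0 hzY).symm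
      rw [isoC_mul]
      exact c1.mul_left c2
  rcases hdim with h | h
  · exact key 1 (one_mul 1) h
  · exact key (-1) (by rw [neg_mul_neg, one_mul]) h

/-! ### Type II: self-adjoint similarities with non-square multiplier -/

section chevalley

open MvPolynomial in
/-- The quadratic polynomial attached to a matrix. -/
noncomputable def bPoly (A : Matrix ι ι F) : MvPolynomial ι F := ∑ i, ∑ j, C (A i j) * X i * X j

lemma eval_bPoly (A : Matrix ι ι F) (v : ι → F) : MvPolynomial.eval v (bPoly A) = v ⬝ᵥ (A *ᵥ v) := by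
  simp only [bPoly, map_sum, map_mul, MvPolynomial.eval_C, MvPolynomial.eval_X, dotProduct, Matrix.mulVec, Finset.mul_sum]
  apply Finset.sum_congr rfl
  intro i _
  apply Finset.sum_congr rfl
  intro j _
  ring

lemma totalDegree_bPoly (A : Matrix ι ι F) : (bPoly A).totalDegree ≤ 2 := by
  refine (MvPolynomial.totalDegree_finsetSum _ _).trans (Finset.sup_le ?_)
  intro i _
  refine (MvPolynomial.totalDegree_finsetSum _ _).trans (Finset.sup_le ?_)
  intro j _
  refine (MvPolynomial.totalDegree_mul _ _).trans ?_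
  have h1 : (MvPolynomial.C (A i j) * MvPolynomial.X i : MvPolynomial ι F).totalDegree ≤ 1 := by
    refine (MvPolynomial.totalDegree_mul _ _).trans ?_
    rw [MvPolynomial.totalDegree_C, MvPolynomial.totalDegree_X]
  rw [MvPolynomial.totalDegree_X]
  omega

/-- A common singular vector of the form and of `v ↦ B(v, g v)`. -/
lemma exists_common_zero (D : Data f Q n) (hn : 3 ≤ n) (g : CO f) :
    ∃ e : ι → F, e ≠ 0 ∧ Q e = 0 ∧ polar Q e (ap g e) = 0 := by
  classical
  have h2 := char_ne_two_of_odd D.hodd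
  obtain ⟨p, hp⟩ := CharP.exists F
  haveI : Fact p.Prime := ⟨CharP.char_is_prime F p⟩
  set M : Matrix ι ι F := ((g : GL ι F) : Matrix ι ι F) with hM
  set J := AutPOm.gram Q with hJ
  have hpol : ∀ v w, polar Q v w = v ⬝ᵥ (J *ᵥ w) := AutPOm.polar_eq_gram Q
  have hdvd := char_dvd_card_solutions_of_add_lt (K := F) p (f₁ := bPoly J) (f₂ := bPoly (J * M)) (by
    have h1 := totalDegree_bPoly J
    have h3 := totalDegree_bPoly (J * M)
    rw [D.hcard]
    omega)
  have hzero : ∃ x : {x : ι → F // MvPolynomial.eval x (bPoly J) = 0 ∧ MvPolynomial.eval x (bPoly (J * M)) = 0}, (x : ι → F) ≠ 0 := by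
    by_contra hall
    push Not at hall
    have h0 : {x : ι → F // MvPolynomial.eval x (bPoly J) = 0 ∧ MvPolynomial.eval x (bPoly (J * M)) = 0} := ⟨0, by
      rw [eval_bPoly, eval_bPoly]
      simp⟩
    have : Fintype.card {x : ι → F // MvPolynomial.eval x (bPoly J) = 0 ∧ MvPolynomial.eval x (bPoly (J * M)) = 0} = 1 := by
      rw [Fintype.card_eq_one_iff]
      refine ⟨h0, fun y => ?_⟩
      apply Subtype.ext
      rw [hall y, hall h0]
    rw [this] at hdvd
    exact (Fact.out : p.Prime).one_lt.ne' (Nat.dvd_one.1 hdvd)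
  obtain ⟨⟨e, he1, he2⟩, he0⟩ := hzero
  refine ⟨e, he0, ?_, ?_⟩
  · rw [eval_bPoly, ← hpol, polar_self'] at he1
    exact (mul_eq_zero.1 he1).resolve_left h2
  · rw [eval_bPoly, ← Matrix.mulVec_mulVec, ← hpol] at he2
    exact he2

/-- The vector of type II. -/
lemma exists_a_II (D : Data f Q n) (hn : 3 ≤ n) (g : CO f) {c : Fˣ} (hc0 : D.multC g = c) (hc : ¬ IsSquare c)
    (hg2 : g * g = D.scalC c) : ∃ a : ι → F, Q a ≠ 0 ∧ polar Q a (ap g a) = 0 := by
  have h2 := char_ne_two_of_odd D.hodd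
  have hcF : (c : F) ≠ 0 := c.ne_zero
  have hns : ¬ IsSquare (c : F) := by rwa [isSquare_val_iff]
  obtain ⟨e, he0, hQe, hBe⟩ := exists_common_zero D hn g
  have gg : ∀ v, ap g (ap g v) = (c : F) • v := by
    intro v
    rw [← ap_mul, hg2, ap_scalC]
  have sim : ∀ u v, polar Q (ap g u) (ap g v) = c * polar Q u v := by
    intro u v
    rw [polar_ap D, hc0]
  have sa : ∀ u v, polar Q (ap g u) v = polar Q u (ap g v) := by
    intro u v
    have h1 := sim u (ap g v)
    rw [gg, polar_smul_r] at h1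
    exact mul_left_cancel₀ hcF h1
  have hee : polar Q e e = 0 := polar_self_zero hQe
  have hQge : Q (ap g e) = 0 := by rw [Q_ap D, hQe, mul_zero]
  have hgg : polar Q (ap g e) (ap g e) = 0 := by rw [sim, hee, mul_zero]
  obtain ⟨y, hey⟩ : ∃ y, polar Q e y = 1 := by
    obtain ⟨y₀, hy₀⟩ := D.hQ e he0
    refine ⟨(polar Q e y₀)⁻¹ • y₀, ?_⟩
    rw [polar_smul_r]
    field_simp
  obtain ⟨y1, hey1, hegy1⟩ : ∃ y1, polar Q e y1 = 1 ∧ polar Q e (ap g y1) = 0 := by
    obtain ⟨A, hA⟩ : ∃ A, polar Q e (ap g y) = A := ⟨_, rfl⟩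
    have hD₀0 : (c : F) - A ^ 2 ≠ 0 := by
      intro h
      apply hns
      refine ⟨A, ?_⟩
      rw [← pow_two]
      exact sub_eq_zero.1 h
    refine ⟨((c : F) / ((c : F) - A ^ 2)) • y + (-A / ((c : F) - A ^ 2)) • ap g y, ?_, ?_⟩
    · rw [polar_add_right, polar_smul_r, polar_smul_r, hey, hA]
      field_simp
      ring
    · rw [ap_add, ap_smul, ap_smul, gg, polar_add_right, polar_smul_r, polar_smul_r, polar_smul_r, hey, hA]
      field_simp
      ring
  obtain ⟨q1, hq1⟩ : ∃ q1, Q y1 = q1 := ⟨_, rfl⟩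
  obtain ⟨r1, hr1⟩ : ∃ r1, polar Q y1 (ap g y1) = r1 := ⟨_, rfl⟩
  obtain ⟨α, hα⟩ : ∃ α, α = - q1 := ⟨_, rfl⟩
  obtain ⟨β, hβ⟩ : ∃ β, β = - r1 / (2 * (c : F)) := ⟨_, rfl⟩
  have hβc : r1 + 2 * β * c = 0 := by
    rw [hβ]
    field_simp
    ring
  obtain ⟨w, hw⟩ : ∃ w, w = α • e + β • ap g e := ⟨_, rfl⟩
  have hgw : ap g w = α • ap g e + (β * c) • e := by
    rw [hw, ap_add, ap_smul, ap_smul, gg, smul_smul]
  have hQw : Q w = 0 := by
    rw [hw, Q_add, Q_smul, Q_smul, polar_smul_l, polar_smul_r, hQe, hQge, hBe]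
    ring
  have hey2 : polar Q e (y1 + w) = 1 := by
    rw [polar_add_right, hey1, hw, polar_add_right, polar_smul_r, polar_smul_r, hee, hBe]
    ring
  have hQy2 : Q (y1 + w) = 0 := by
    rw [Q_add, hQw, hw, polar_add_right, polar_smul_r, polar_smul_r, polar_comm Q y1 e, hey1,
      polar_comm Q y1 (ap g e), sa, hegy1, hq1, hα]
    ring
  have hegy2 : polar Q e (ap g (y1 + w)) = 0 := by
    rw [ap_add, polar_add_right, hegy1, hgw, polar_add_right, polar_smul_r, polar_smul_r, hBe, hee]
    ring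
  have hy2y2 : polar Q (y1 + w) (ap g (y1 + w)) = 0 := by
    rw [ap_add, polar_add_left, polar_add_right, polar_add_right, hr1, hgw]
    have e1 : polar Q y1 (α • ap g e + (β * c) • e) = β * c := by
      rw [polar_add_right, polar_smul_r, polar_smul_r, polar_comm Q y1 (ap g e), sa, hegy1, polar_comm Q y1 e, hey1]
      ring
    have e2 : polar Q w (ap g y1) = β * c := by
      rw [hw, polar_add_left, polar_smul_l, polar_smul_l, hegy1, sa, ← ap_mul, hg2, ap_scalC, polar_smul_r, hey1]
      ring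
    have e3 : polar Q w (α • ap g e + (β * c) • e) = 0 := by
      rw [hw]
      simp only [polar_add_left, polar_add_right, polar_smul_l, polar_smul_r, hBe, hee, hgg, polar_comm Q (ap g e) e]
      ring
    rw [e1, e2, e3]
    linear_combination hβc
  refine ⟨e + (y1 + w), ?_, ?_⟩
  · rw [Q_add, hQe, hQy2, hey2]
    simp
  · rw [ap_add, polar_add_left, polar_add_right, polar_add_right, hBe, hegy2, hy2y2, polar_comm Q (y1 + w) (ap g e), sa, hegy2]
    ring

end chevalley

/-- An element of `SO \ Ω` commuting with `g` of type II. -/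
theorem exists_t_II (D : Data f Q n) (hn : 3 ≤ n) (g : CO f) (hc : ¬ IsSquare (D.multC g))
    (hg2 : g * g = D.scalC (D.multC g)) :
    ∃ t : isometryGroup F f, Matrix.GeneralLinearGroup.det (t : GL ι F) = 1 ∧ chi Q (D.toOG t) = -1 ∧
      Commute (isoC t) g := by
  obtain ⟨a, ha, hag⟩ := exists_a_II D hn g rfl hc hg2
  have hz := Q_ap_ne D g ha
  have hns : ¬ IsSquare (D.multC g : F) := by rwa [isSquare_val_iff]
  refine ⟨D.rA ha * D.rA hz, ?_, ?_, ?_⟩
  · rw [Subgroup.coe_mul, map_mul, D.rA_det, D.rA_det]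
    simp
  · rw [map_mul, D.toOG_rA, D.toOG_rA]
    apply chi_refl_mul D.hodd D.hQ D.hgen D.fr ha hz
    rw [Q_ap D]
    rintro ⟨d, hd⟩
    apply hns
    refine ⟨d / Q a, ?_⟩
    field_simp
    linear_combination hd
  · have h1 : g * isoC (D.rA ha) = isoC (D.rA hz) * g := conj_rA D g ha
    have h2 : g * isoC (D.rA hz) = isoC (D.rA ha) * g := by
      apply ext_ap
      intro v
      have hgg : ap g (ap g a) = ((D.multC g : Fˣ) : F) • a := by
        rw [← ap_mul, hg2, ap_scalC]
      rw [ap_mul, ap_mul, ap_rA, ap_rA, sim_reflLin D g hz, hgg, reflLin_smul (D.multC g).ne_zero ha]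
    have h3 : isoC (D.rA hz) * isoC (D.rA ha) = isoC (D.rA ha) * isoC (D.rA hz) := by
      apply ext_ap
      intro v
      rw [ap_mul, ap_mul, ap_rA, ap_rA, ap_rA, ap_rA]
      exact (reflLin_comm hag v).symm
    rw [Commute, SemiconjBy, isoC_mul]
    calc isoC (D.rA ha) * isoC (D.rA hz) * g = isoC (D.rA ha) * (g * isoC (D.rA ha)) := by
          rw [h1, mul_assoc]
      _ = g * isoC (D.rA hz) * isoC (D.rA ha) := by rw [h2, mul_assoc]
      _ = g * (isoC (D.rA hz) * isoC (D.rA ha)) := by rw [mul_assoc]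
      _ = _ := by rw [h3]

/-! ### Conjugation of isometries by similarities -/

/-- Conjugation of isometries by a similarity. -/
noncomputable def conjI (z : CO f) : isometryGroup F f →* isometryGroup F f :=
  (PgoGroup.conjAut (isometryGroup F f) (CO f) (fun _ hg _ ha => conj_mem_isometry f hg ha) z).toMonoidHom

lemma conjI_coe (z : CO f) (a : isometryGroup F f) :
    ((conjI z a : isometryGroup F f) : GL ι F) = (z : GL ι F) * (a : GL ι F) * (z : GL ι F)⁻¹ := rfl

lemma conjI_rA (D : Data f Q n) (z : CO f) {x : ι → F} (hx : Q x ≠ 0) :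
    conjI z (D.rA hx) = D.rA (Q_ap_ne D z hx) := by
  apply Subtype.ext
  rw [conjI_coe]
  have h1 := congrArg (fun y : CO f => (y : GL ι F)) (conj_rA D z hx)
  have h2 : (z : GL ι F) * (D.rA hx : GL ι F) = (D.rA (Q_ap_ne D z hx) : GL ι F) * (z : GL ι F) := h1
  rw [h2]
  group

/-- The formula for `chi` of a conjugate under a similarity with non-square multiplier. -/
theorem chi_conj (D : Data f Q n) (z : CO f) (hz : ¬ IsSquare (D.multC z)) (b : OG Q) :
    (chi Q (D.toOG (conjI z (D.toOG.symm b))) = chi Q b ∧ detO Q b = 1) ∨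
      (chi Q (D.toOG (conjI z (D.toOG.symm b))) = - chi Q b ∧ detO Q b = -1) := by
  have hzF : ¬ IsSquare ((D.multC z : Fˣ) : F) := by rwa [isSquare_val_iff]
  have h2F := char_ne_two_of_odd D.hodd
  have hb : b ∈ genR Q := by
    rw [D.hgen]
    exact Subgroup.mem_top b
  induction hb using Subgroup.closure_induction with
  | mem x hx =>
    rcases hx with ⟨e, y, hs⟩ | ⟨x', hs⟩
    · left
      have hE : x ∈ siegelE Q := IsSiegel.mem hs
      have ha : D.toOG.symm x ∈ Omega F f := by
        rw [D.mem_omega_iff']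
        simpa using hE
      have hc : conjI z (D.toOG.symm x) = ((conjOmega f z ⟨_, ha⟩ : Omega F f) : isometryGroup F f) := by
        apply Subtype.ext
        rw [conjI_coe, conjOmega_coe]
      rw [hc, D.chi_omega (conjOmega f z ⟨_, ha⟩).2, hom_E (chi Q) D.hQ D.fr hE, hom_E (detO Q) D.hQ D.fr hE]
      exact ⟨rfl, rfl⟩
    · right
      have hx' := hs.1
      have hxe : x = refl D.hQ hx' := OG_ext (fun v => hs.2 v)
      subst hxe
      have e1 : D.toOG.symm (refl D.hQ hx') = D.rA hx' := rfl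
      rw [e1, conjI_rA, D.toOG_rA]
      constructor
      · have h1 : chi Q (refl D.hQ (Q_ap_ne D z hx') * refl D.hQ hx') = -1 := by
          apply chi_refl_mul D.hodd D.hQ D.hgen D.fr
          rw [Q_ap D]
          rintro ⟨d, hd⟩
          apply hzF
          refine ⟨d / Q x', ?_⟩
          field_simp
          linear_combination hd
        rw [map_mul] at h1
        have h3 : chi Q (refl D.hQ hx') * chi Q (refl D.hQ hx') = 1 := Int.units_mul_self _
        calc chi Q (refl D.hQ (Q_ap_ne D z hx'))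
            = chi Q (refl D.hQ (Q_ap_ne D z hx')) * (chi Q (refl D.hQ hx') * chi Q (refl D.hQ hx')) := by
              rw [h3, mul_one]
          _ = (chi Q (refl D.hQ (Q_ap_ne D z hx')) * chi Q (refl D.hQ hx')) * chi Q (refl D.hQ hx') := by
              rw [mul_assoc]
          _ = _ := by rw [h1]; simp
      · apply Units.ext
        rw [detO_refl D.hQ hx' h2F]
        simp
  | one =>
    left
    simp
  | mul x y _ _ hx hy =>
    have hneg1 : (-1 : Fˣ) * (-1) = 1 := by simp
    have e : D.toOG (conjI z (D.toOG.symm (x * y))) =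
        D.toOG (conjI z (D.toOG.symm x)) * D.toOG (conjI z (D.toOG.symm y)) := by
      rw [map_mul, map_mul, map_mul]
    rcases hx with ⟨h1, h2⟩ | ⟨h1, h2⟩ <;> rcases hy with ⟨h3, h4⟩ | ⟨h3, h4⟩
    · left
      rw [e, map_mul, map_mul, h1, h3, map_mul, h2, h4]
      simp
    · right
      rw [e, map_mul, map_mul, h1, h3, map_mul, h2, h4]
      simp
    · right
      rw [e, map_mul, map_mul, h1, h3, map_mul, h2, h4]
      simp
    · left
      rw [e, map_mul, map_mul, h1, h3, map_mul, h2, h4]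
      simp
  | inv x _ hx =>
    have e : D.toOG (conjI z (D.toOG.symm x⁻¹)) = (D.toOG (conjI z (D.toOG.symm x)))⁻¹ := by
      rw [map_inv, map_inv, map_inv]
    rcases hx with ⟨h1, h2⟩ | ⟨h1, h2⟩
    · left
      rw [e, map_inv, map_inv, h1, map_inv, h2]
      simp
    · right
      rw [e, map_inv, map_inv, h1, map_inv, h2]
      simp

/-- A similarity with non-square multiplier does not commute with an isometry of determinant `-1`. -/
lemma not_comm_of_det (D : Data f Q n) (z : CO f) (hz : ¬ IsSquare (D.multC z)) (a : isometryGroup F f)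
    (hdet : Matrix.GeneralLinearGroup.det (a : GL ι F) = -1) (hc : conjI z a = a) : False := by
  have h := chi_conj D z hz (D.toOG a)
  rw [MulEquiv.symm_apply_apply, hc, D.detO_toOG, hdet] at h
  rcases h with ⟨_, h1⟩ | ⟨h1, _⟩
  · exact D.neg_ne_one h1
  · rcases Int.units_eq_one_or (chi Q (D.toOG a)) with h3 | h3 <;> rw [h3] at h1 <;> exact absurd h1 (by decide)

/-! ### The counts -/

/-- The inner-diagonal group. -/
noncomputable abbrev Gd (D : Data f Q n) : Subgroup (MulAut (POmega F f)) := D.delta.ker.map (psiO f)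

lemma comm_of_hom {H A : Type*} [Group H] [CommGroup A] {K : Subgroup H} (φ : H →* A) (h : φ.ker = K) (a b : H) :
    a * b * a⁻¹ * b⁻¹ ∈ K := by
  rw [← h, MonoidHom.mem_ker, map_mul, map_mul, map_mul, map_inv, map_inv, mul_comm (φ a) (φ b), mul_assoc (φ b),
    mul_inv_cancel, mul_one, mul_inv_cancel]

lemma hcomm_Gd (D : Data f Q n) (a b : Gd D) :
    a * b * a⁻¹ * b⁻¹ ∈ (Inn (POmega F f)).subgroupOf (Gd D) := by
  obtain ⟨h1, h2, h3⟩ := Data.exists_inndiag D
  by_cases hneg : negEl Q ∈ siegelE Q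
  · rcases Int.units_eq_one_or (chi Q (D.toOG D.ρA)) with h | h
    · obtain ⟨φ, _, hk⟩ := h3 hneg h
      exact comm_of_hom φ hk a b
    · obtain ⟨φ, _, hk⟩ := h2 hneg h
      exact comm_of_hom φ hk a b
  · obtain ⟨φ, _, hk⟩ := h1 hneg
    exact comm_of_hom φ hk a b

lemma Gd_mem (D : Data f Q n) {g : CO f} (hg : D.delta g = 1) : psiO f g ∈ Gd D := ⟨g, hg, rfl⟩

lemma Gd_le (D : Data f Q n) : Gd D ≤ pgoAut F f := Data.le_pgo D

/-- The elements of `Gd` do not all commute with `psiO g` modulo `Inn`, when `-1 ∈ Ω`. -/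
lemma exists_not_comm (D : Data f Q n) (hneg : negEl Q ∈ siegelE Q) (g : CO f) (hδ : D.delta g = -1) :
    ∃ h : Gd D, ¬ ∃ k c : Gd D, (k : MulAut (POmega F f)) ∈ Inn (POmega F f) ∧
      Commute (c : MulAut (POmega F f)) (psiO f g) ∧ h = k * c := by
  by_contra hall
  push Not at hall
  obtain ⟨φ, hsurj, hker⟩ := D.exists_phi_dihedral hneg
  set u : pgoAut F f := piP f g with hu
  have hinn : ∀ x : pgoAut F f, (x : MulAut (POmega F f)) ∈ Inn (POmega F f) → φ x = 1 := by
    intro x hx
    have : x ∈ φ.ker := by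
      rw [hker]
      exact Subgroup.mem_subgroupOf.2 hx
    exact this
  have hGd : ∀ x : pgoAut F f, (x : MulAut (POmega F f)) ∈ Gd D → Commute (φ x) (φ u) := by
    intro x hx
    obtain ⟨k, c, hk, hc, he⟩ := hall ⟨x, hx⟩
    have e1 : x = ⟨k, Gd_le D k.2⟩ * ⟨c, Gd_le D c.2⟩ := by
      apply Subtype.ext
      exact congrArg (fun y : Gd D => (y : MulAut (POmega F f))) he
    rw [e1, map_mul, hinn _ hk, one_mul]
    have : Commute (⟨c, Gd_le D c.2⟩ : pgoAut F f) u := by
      apply Subtype.ext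
      exact hc.eq
    exact this.map φ
  have hGG : ∀ x y : pgoAut F f, (x : MulAut (POmega F f)) ∈ Gd D → (y : MulAut (POmega F f)) ∈ Gd D →
      Commute (φ x) (φ y) := by
    intro x y hx hy
    have h1 := hcomm_Gd D ⟨x, hx⟩ ⟨y, hy⟩
    have h2 := hinn (x * y * x⁻¹ * y⁻¹) (Subgroup.mem_subgroupOf.1 h1)
    rw [map_mul, map_mul, map_mul, map_inv, map_inv] at h2
    change φ x * φ y = φ y * φ x
    have h3 : φ x * φ y * (φ x)⁻¹ = φ y := eq_of_mul_inv_eq_one h2
    calc φ x * φ y = (φ x * φ y * (φ x)⁻¹) * φ x := by group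
      _ = φ y * φ x := by rw [h3]
  have hcases : ∀ x : pgoAut F f, (x : MulAut (POmega F f)) ∈ Gd D ∨ ((x * u : pgoAut F f) : MulAut (POmega F f)) ∈ Gd D := by
    intro x
    obtain ⟨g', rfl⟩ := piP_surj x
    rcases D.delta_values g' with h | h
    · left
      exact Gd_mem D h
    · right
      have : D.delta (g' * g) = 1 := by
        rw [map_mul, h, hδ]
        simp
      have h3 := Gd_mem D this
      rw [map_mul] at h3
      exact h3
  have hcen : ∀ x : pgoAut F f, Commute (φ x) (φ u) := by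
    intro x
    rcases hcases x with h | h
    · exact hGd x h
    · have h1 := hGd _ h
      rw [map_mul] at h1
      have h2 : φ x = φ x * φ u * (φ u)⁻¹ := by group
      rw [h2]
      exact h1.mul_left (Commute.refl _).inv_left
  have hGany : ∀ x y : pgoAut F f, (x : MulAut (POmega F f)) ∈ Gd D → Commute (φ x) (φ y) := by
    intro x y hx
    rcases hcases y with h | h
    · exact hGG x y hx h
    · have h1 := hGG x _ hx h
      rw [map_mul] at h1
      have h2 : φ y = φ y * φ u * (φ u)⁻¹ := by group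
      rw [h2]
      exact h1.mul_right (hGd x hx).inv_right
  have hany : ∀ x y : pgoAut F f, Commute (φ x) (φ y) := by
    intro x y
    rcases hcases x with h | h
    · exact hGany x y h
    · have h1 := hGany _ y h
      rw [map_mul] at h1
      have h2 : φ x = φ x * φ u * (φ u)⁻¹ := by group
      rw [h2]
      exact h1.mul_left (hcen y).symm.inv_left
  obtain ⟨x, hx⟩ := hsurj (DihedralGroup.r 1)
  obtain ⟨y, hy⟩ := hsurj (DihedralGroup.sr 0)
  have h := hany x y
  rw [hx, hy] at h
  exact absurd h.eq (by decide)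

/-- The count when `-1 ∈ Ω`. -/
theorem count_mem (D : Data f Q n) (hn : 3 ≤ n) (hneg : negEl Q ∈ siegelE Q) (g : CO f) (hδ : D.delta g = -1)
    {l : Fˣ} (hg : g * g = D.scalC l) :
    splitClassCount (Gd D) (Inn (POmega F f)) (psiO f g) = 2 := by
  have h4 : ((Inn (POmega F f)).subgroupOf (Gd D)).index = 4 := Data.relIndex_Gd D (D.relIndex_two hneg)
  apply count_of_four _ _ (Data.Inn_le D) (hcomm_Gd D) _ h4 _ (exists_not_comm D hneg g hδ)
  have hex : ∃ t : isometryGroup F f, Matrix.GeneralLinearGroup.det (t : GL ι F) = 1 ∧ chi Q (D.toOG t) = -1 ∧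
      Commute (psiO f (isoC t)) (psiO f g) := by
    rcases classify D g hδ hg with ⟨e, he, he1, he2, _⟩ | ⟨_, hc, hg2⟩
    · obtain ⟨t, h1, h2, h3⟩ := exists_t_I D (by omega) he1 he2
      exact ⟨t, h1, h2, by rw [← he]; exact h3.map (psiO f)⟩
    · obtain ⟨t, h1, h2, h3⟩ := exists_t_II D hn g hc hg2
      exact ⟨t, h1, h2, h3.map (psiO f)⟩
  obtain ⟨t, h1, h2, h3⟩ := hex
  refine ⟨⟨psiO f (isoC t), Gd_mem D (by rw [delta_isoC]; exact h1)⟩, h3, ?_⟩
  intro hmem
  have := (D.inn_iff_chi hneg t h1).1 hmem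
  rw [h2] at this
  exact absurd this (by decide)

/-- The count when `-1 ∉ Ω`. -/
theorem count_not_mem (D : Data f Q n) (hneg : negEl Q ∉ siegelE Q) (x : MulAut (POmega F f)) :
    splitClassCount (Gd D) (Inn (POmega F f)) x = 1 ∨ splitClassCount (Gd D) (Inn (POmega F f)) x = 2 := by
  have h2 : ((Inn (POmega F f)).subgroupOf (Gd D)).index = 2 := Data.relIndex_Gd D (D.relIndex_one hneg)
  exact count_of_two _ _ (Data.Inn_le D) (hcomm_Gd D) _ h2

/-- The count when `-1 ∉ Ω` and `n` is even. -/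
theorem count_even (D : Data f Q n) (hneg : negEl Q ∉ siegelE Q) (hev : Even n) (g : CO f) (hδ : D.delta g = -1)
    {l : Fˣ} (hg : g * g = D.scalC l) :
    splitClassCount (Gd D) (Inn (POmega F f)) (psiO f g) = 2 := by
  have h2 : ((Inn (POmega F f)).subgroupOf (Gd D)).index = 2 := Data.relIndex_Gd D (D.relIndex_one hneg)
  rw [← h2]
  apply count_of_le _ _ (Data.Inn_le D) (hcomm_Gd D)
  rintro ⟨c, z, hz, rfl⟩ hc
  obtain ⟨e, he, he1, he2, he3⟩ : ∃ e : CO f, psiO f e = psiO f g ∧ D.multC e = 1 ∧ e * e = 1 ∧ D.delta e = -1 := by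
    rcases classify D g hδ hg with h | ⟨ho, _, _⟩
    · exact h
    · exact absurd hev (Nat.not_even_iff_odd.2 ho)
  by_cases hs : IsSquare (D.multC z)
  · obtain ⟨k, a, rfl⟩ := D.decomp z hs
    apply D.pso_le_Inn hneg
    rw [psoAut_eq]
    have hz' : D.delta (isoC a) = 1 := by
      have : D.delta (D.scalC k * isoC a) = 1 := hz
      rwa [map_mul, delta_scalC, one_mul] at this
    refine ⟨isoC a, ⟨a.2, ?_⟩, ?_⟩
    · rw [delta_isoC] at hz'
      exact hz'
    · change psiO f (isoC a) = psiO f (D.scalC k * isoC a)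
      rw [map_mul, D.psiO_scalC, one_mul]
  · exfalso
    change Commute (psiO f z) (psiO f g) at hc
    rw [← he] at hc
    have h1 : psiO f (z * e * z⁻¹) = psiO f e := by
      rw [map_mul, map_mul, map_inv, hc.eq]
      group
    obtain ⟨k, hk⟩ := (D.psiO_eq_iff _ _).1 h1
    have h3 : k * k = 1 := by
      have h4 := congrArg D.multC hk
      rw [map_mul, map_mul, map_mul, map_inv, he1, multC_scalC] at h4
      simpa using h4.symm
    let a : isometryGroup F f := ⟨e, D.mem_isometry_of_mult e he1⟩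
    have hdet : Matrix.GeneralLinearGroup.det (a : GL ι F) = -1 := by
      rw [← he3, ← D.delta_isoC]
      rfl
    rcases D.mul_self_eq_one_units k h3 with rfl | rfl
    · apply not_comm_of_det D z hs a hdet
      apply Subtype.ext
      rw [D.scalC_one, mul_one] at hk
      rw [conjI_coe]
      exact congrArg Subtype.val hk
    · -- `e` is conjugate to `-e`
      set M : Matrix ι ι F := ((e : GL ι F) : Matrix ι ι F) with hM
      have hMM : M * M = Matrix.scalar ι (1 : F) := by
        have h5 := congrArg (fun x : CO f => ((x : GL ι F) : Matrix ι ι F)) he2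
        simpa using h5
      have hneg' : (-M).charpoly = M.charpoly := by
        have h6 : ((z : GL ι F) : Matrix ι ι F) * M * (((z : GL ι F)⁻¹ : GL ι F) : Matrix ι ι F) = -M := by
          have h7 : ((z * e * z⁻¹ : CO f) : GL ι F).1 = ((e * D.scalC (-1) : CO f) : GL ι F).1 := by rw [hk]
          have h8 : ((e * D.scalC (-1) : CO f) : GL ι F).1 = M * Matrix.scalar ι ((-1 : Fˣ) : F) := rfl
          have h9 : ((z * e * z⁻¹ : CO f) : GL ι F).1 = ((z : GL ι F) : Matrix ι ι F) * M * (((z : GL ι F)⁻¹ : GL ι F) : Matrix ι ι F) := rfl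
          rw [← h9, h7, h8]
          ext i j
          simp [Matrix.scalar_apply, Matrix.mul_apply, Matrix.diagonal_apply]
        rw [← h6, Matrix.coe_units_inv]
        exact Matrix.charpoly_units_conj _ M
      have hd := det_of_neg (char_ne_two_of_odd D.hodd) D.hcard hMM hneg'
      rw [neg_eq_neg_one_mul] at hd
      simp only [mul_one] at hd
      rw [hev.neg_one_pow] at hd
      have h10 : ((Matrix.GeneralLinearGroup.det (a : GL ι F) : Fˣ) : F) = M.det := rfl
      rw [hdet, hd] at h10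
      apply char_ne_two_of_odd D.hodd
      simp only [Units.val_neg, Units.val_one] at h10
      linear_combination -h10

end data

end Cfsg.Agent.Lib.PgoGraphInv
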