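/-
PresIsoQD: two groups with a cyclic subgroup of index two and an involution outside acting by the same power map
are isomorphic; in particular two quasi-dihedral groups of the same order are isomorphic.
-/
import Mathlib
import Cfsg.Prelude.Def_CaseTheorems

set_option autoImplicit false

namespace Cfsg.Agent.Lib.PresIsoQD

open Cfsg

section

variable {A B : Type*} [Group A] [Group B]

lemma conj_pow_aux {x y : A} {r : ℕ} (hr : y * x * y⁻¹ = x ^ r) (k : ℕ) : y * x ^ k * y⁻¹ = x ^ (r * k) := by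
  rw [← conj_pow, hr, pow_mul]

/-- The graph of the isomorphism. -/
def graphSub (x y : A) (x' y' : B) (N r : ℕ) (hN : 0 < N) (hx : x ^ N = 1) (hx' : x' ^ N = 1) (hy : y * y = 1)
    (hy' : y' * y' = 1) (hr : y * x * y⁻¹ = x ^ r) (hr' : y' * x' * y'⁻¹ = x' ^ r) : Subgroup (A × B) where
  carrier := {d | ∃ k : ℕ, d = (x ^ k, x' ^ k) ∨ d = (x ^ k * y, x' ^ k * y')}
  mul_mem' := by
    have hyi : y⁻¹ = y := inv_eq_of_mul_eq_one_left hy
    have hyi' : y'⁻¹ = y' := inv_eq_of_mul_eq_one_left hy'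
    have h1 : ∀ b : ℕ, y * x ^ b = x ^ (r * b) * y := fun b => by
      have := conj_pow_aux hr b
      rw [hyi] at this
      rw [← this, mul_assoc, hy, mul_one]
    have h1' : ∀ b : ℕ, y' * x' ^ b = x' ^ (r * b) * y' := fun b => by
      have := conj_pow_aux hr' b
      rw [hyi'] at this
      rw [← this, mul_assoc, hy', mul_one]
    rintro _ _ ⟨a, rfl | rfl⟩ ⟨b, rfl | rfl⟩
    · exact ⟨a + b, Or.inl (by simp [pow_add])⟩
    · exact ⟨a + b, Or.inr (by simp [pow_add, mul_assoc])⟩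
    · refine ⟨a + r * b, Or.inr ?_⟩
      apply Prod.ext
      · show x ^ a * y * x ^ b = x ^ (a + r * b) * y
        rw [mul_assoc, h1, ← mul_assoc, pow_add]
      · show x' ^ a * y' * x' ^ b = x' ^ (a + r * b) * y'
        rw [mul_assoc, h1', ← mul_assoc, pow_add]
    · refine ⟨a + r * b, Or.inl ?_⟩
      apply Prod.ext
      · show x ^ a * y * (x ^ b * y) = x ^ (a + r * b)
        rw [mul_assoc, ← mul_assoc y, h1, mul_assoc, hy, mul_one, pow_add]
      · show x' ^ a * y' * (x' ^ b * y') = x' ^ (a + r * b)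
        rw [mul_assoc, ← mul_assoc y', h1', mul_assoc, hy', mul_one, pow_add]
  one_mem' := ⟨0, Or.inl (by rw [pow_zero, pow_zero]; rfl)⟩
  inv_mem' := by
    have hyi : y⁻¹ = y := inv_eq_of_mul_eq_one_left hy
    have hyi' : y'⁻¹ = y' := inv_eq_of_mul_eq_one_left hy'
    have h1 : ∀ b : ℕ, y * x ^ b = x ^ (r * b) * y := fun b => by
      have := conj_pow_aux hr b
      rw [hyi] at this
      rw [← this, mul_assoc, hy, mul_one]
    have h1' : ∀ b : ℕ, y' * x' ^ b = x' ^ (r * b) * y' := fun b => by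
      have := conj_pow_aux hr' b
      rw [hyi'] at this
      rw [← this, mul_assoc, hy', mul_one]
    have hinv : ∀ k : ℕ, (x ^ k)⁻¹ = x ^ (N * k - k) := by
      intro k
      have hle : k ≤ N * k := Nat.le_mul_of_pos_left _ hN
      apply inv_eq_of_mul_eq_one_left
      rw [← pow_add, Nat.sub_add_cancel hle, pow_mul, hx, one_pow]
    have hinv' : ∀ k : ℕ, (x' ^ k)⁻¹ = x' ^ (N * k - k) := by
      intro k
      have hle : k ≤ N * k := Nat.le_mul_of_pos_left _ hN
      apply inv_eq_of_mul_eq_one_left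
      rw [← pow_add, Nat.sub_add_cancel hle, pow_mul, hx', one_pow]
    rintro _ ⟨k, rfl | rfl⟩
    · refine ⟨N * k - k, Or.inl ?_⟩
      apply Prod.ext
      · exact hinv k
      · exact hinv' k
    · refine ⟨r * (N * k - k), Or.inr ?_⟩
      apply Prod.ext
      · show (x ^ k * y)⁻¹ = _
        rw [mul_inv_rev, hyi, hinv, h1]
      · show (x' ^ k * y')⁻¹ = _
        rw [mul_inv_rev, hyi', hinv', h1']

theorem iso_of_pres (x y : A) (x' y' : B) (N r : ℕ) (hN : 0 < N) (ho : orderOf x = N) (ho' : orderOf x' = N)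
    (hy : y * y = 1) (hy' : y' * y' = 1) (hr : y * x * y⁻¹ = x ^ r) (hr' : y' * x' * y'⁻¹ = x' ^ r)
    (hn : ∀ s : A, ∃ k : ℕ, s = x ^ k ∨ s = x ^ k * y) (hn' : ∀ s : B, ∃ k : ℕ, s = x' ^ k ∨ s = x' ^ k * y')
    (hyx : ∀ k : ℕ, x ^ k * y ≠ 1) (hyx' : ∀ k : ℕ, x' ^ k * y' ≠ 1) : Nonempty (A ≃* B) := by
  have hx : x ^ N = 1 := by rw [← ho]; exact pow_orderOf_eq_one x
  have hx' : x' ^ N = 1 := by rw [← ho']; exact pow_orderOf_eq_one x'
  let D := graphSub x y x' y' N r hN hx hx' hy hy' hr hr'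
  let p₁ : D →* A := (MonoidHom.fst A B).comp D.subtype
  let p₂ : D →* B := (MonoidHom.snd A B).comp D.subtype
  have hb₁ : Function.Bijective p₁ := by
    constructor
    · rw [injective_iff_map_eq_one]
      rintro ⟨d, k, rfl | rfl⟩ h
      · have h1 : x ^ k = 1 := h
        have h2 : N ∣ k := by rw [← ho]; exact orderOf_dvd_of_pow_eq_one h1
        obtain ⟨c, rfl⟩ := h2
        apply Subtype.ext
        show (x ^ (N * c), x' ^ (N * c)) = 1
        rw [pow_mul, pow_mul, hx, hx', one_pow, one_pow]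
        rfl
      · exact absurd h (hyx k)
    · intro s
      obtain ⟨k, rfl | rfl⟩ := hn s
      · exact ⟨⟨(x ^ k, x' ^ k), k, Or.inl rfl⟩, rfl⟩
      · exact ⟨⟨(x ^ k * y, x' ^ k * y'), k, Or.inr rfl⟩, rfl⟩
  have hb₂ : Function.Bijective p₂ := by
    constructor
    · rw [injective_iff_map_eq_one]
      rintro ⟨d, k, rfl | rfl⟩ h
      · have h1 : x' ^ k = 1 := h
        have h2 : N ∣ k := by rw [← ho']; exact orderOf_dvd_of_pow_eq_one h1
        obtain ⟨c, rfl⟩ := h2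
        apply Subtype.ext
        show (x ^ (N * c), x' ^ (N * c)) = 1
        rw [pow_mul, pow_mul, hx, hx', one_pow, one_pow]
        rfl
      · exact absurd h (hyx' k)
    · intro s
      obtain ⟨k, rfl | rfl⟩ := hn' s
      · exact ⟨⟨(x ^ k, x' ^ k), k, Or.inl rfl⟩, rfl⟩
      · exact ⟨⟨(x ^ k * y, x' ^ k * y'), k, Or.inr rfl⟩, rfl⟩
  exact ⟨(MulEquiv.ofBijective p₁ hb₁).symm.trans (MulEquiv.ofBijective p₂ hb₂)⟩

/-- Normal forms in a quasi-dihedral group. -/
theorem qd_normal [Finite A] {n : ℕ} (hn : 3 ≤ n) (hc : Nat.card A = 2 ^ (n + 1)) {x y : A} (ho : orderOf x = 2 ^ n)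
    (hoy : orderOf y = 2) (hr : y * x * y⁻¹ = x ^ (2 ^ (n - 1) - 1)) :
    y * y = 1 ∧ (∀ s : A, ∃ k : ℕ, s = x ^ k ∨ s = x ^ k * y) ∧ ∀ k : ℕ, x ^ k * y ≠ 1 := by
  have hyy : y * y = 1 := by
    rw [← pow_two, ← hoy]
    exact pow_orderOf_eq_one y
  have hyi : y⁻¹ = y := inv_eq_of_mul_eq_one_left hyy
  have hyn : y ∉ Subgroup.zpowers x := by
    intro hm
    obtain ⟨i, rfl⟩ := hm
    have h1 : (x ^ i) * x * (x ^ i)⁻¹ = x := by
      have : x ^ i * x = x * x ^ i := (Commute.zpow_left (Commute.refl x) i)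
      rw [this]
      group
    simp only [] at hr
    have hr' : x = x ^ (2 ^ (n - 1) - 1) := h1.symm.trans hr
    have h4 : 4 ≤ 2 ^ (n - 1) := by
      have : (2 : ℕ) ^ 2 ≤ 2 ^ (n - 1) := Nat.pow_le_pow_right (by norm_num) (by omega)
      simpa using this
    have h2 : x ^ (2 ^ (n - 1) - 2) = 1 := by
      have e : 2 ^ (n - 1) - 1 = (2 ^ (n - 1) - 2) + 1 := by omega
      rw [e, pow_succ] at hr'
      have := mul_eq_right.1 hr'.symm
      exact this
    have h3 := orderOf_dvd_of_pow_eq_one h2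
    rw [ho] at h3
    have h5 := Nat.le_of_dvd (by omega) h3
    have h6 : 2 ^ (n - 1) ≤ 2 ^ n := Nat.pow_le_pow_right (by norm_num) (by omega)
    omega
  have hidx : (Subgroup.zpowers x).index = 2 := by
    have h1 := Subgroup.card_mul_index (Subgroup.zpowers x)
    rw [Nat.card_zpowers, ho, hc, pow_succ] at h1
    exact Nat.eq_of_mul_eq_mul_left (by positivity) h1
  have hpw : ∀ s ∈ Subgroup.zpowers x, ∃ k : ℕ, s = x ^ k := by
    intro s hs
    have hfin : IsOfFinOrder x := by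
      rw [← orderOf_pos_iff, ho]
      positivity
    have h1 := hfin.mem_powers_iff_mem_zpowers.2 hs
    obtain ⟨k, hk⟩ := h1
    exact ⟨k, hk.symm⟩
  refine ⟨hyy, fun s => ?_, fun k h => ?_⟩
  · by_cases hs : s ∈ Subgroup.zpowers x
    · obtain ⟨k, hk⟩ := hpw s hs
      exact ⟨k, Or.inl hk⟩
    · have h1 : s * y ∈ Subgroup.zpowers x := by
        have := Subgroup.mul_mem_iff_of_index_two hidx (a := s) (b := y)
        exact this.2 (iff_of_false hs hyn)
      obtain ⟨k, hk⟩ := hpw _ h1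
      refine ⟨k, Or.inr ?_⟩
      rw [← hk, mul_assoc, hyy, mul_one]
  · apply hyn
    have h1 : y = (x ^ k)⁻¹ := eq_inv_of_mul_eq_one_right h
    rw [h1]
    exact Subgroup.inv_mem _ (Subgroup.pow_mem _ (Subgroup.mem_zpowers x) _)

/-- Two quasi-dihedral groups of the same order are isomorphic. -/
theorem qd_iso [Finite A] [Finite B] (hA : IsQuasiDihedral A) (hB : IsQuasiDihedral B)
    (hc : Nat.card A = Nat.card B) : Nonempty (A ≃* B) := by
  obtain ⟨n, hn, hcA, x, y, ho, hoy, hr⟩ := hA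
  obtain ⟨n', hn', hcB, x', y', ho', hoy', hr'⟩ := hB
  have hnn : n = n' := by
    rw [hcA, hcB] at hc
    have := Nat.pow_right_injective (le_refl 2) hc
    omega
  subst hnn
  obtain ⟨h1, h2, h3⟩ := qd_normal hn hcA ho hoy hr
  obtain ⟨h1', h2', h3'⟩ := qd_normal hn hcB ho' hoy' hr'
  exact iso_of_pres x y x' y' (2 ^ n) (2 ^ (n - 1) - 1) (by positivity) ho ho' h1 h1' hr hr' h2 h2' h3 h3'

end

end Cfsg.Agent.Lib.PresIsoQD
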