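import Mathlib

/-!
# Normal `p`-subgroups all of whose abelian normal subgroups are central and cyclic have class two
-/

set_option autoImplicit false
set_option linter.all false

namespace Cfsg.Agent.Lib.PrimClass2

open Subgroup

universe u

variable {H : Type u} [Group H]

theorem central_conj {z : H} (hz : z ∈ center H) (a : H) : a * z * a⁻¹ = z := by
  rw [(Subgroup.mem_center_iff.mp hz a)]
  group

theorem central_conj' {z : H} (hz : z ∈ center H) (a : H) : z * a * z⁻¹ = a := by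
  rw [← (Subgroup.mem_center_iff.mp hz a)]
  group

/-- The second centre of `P`, relative to the centre of `H`. -/
def Z2 (P : Subgroup H) : Subgroup H where
  carrier := {x | x ∈ P ∧ ∀ y ∈ P, x * y * x⁻¹ * y⁻¹ ∈ center H}
  one_mem' := ⟨P.one_mem, fun y _ => by simp [Subgroup.one_mem]⟩
  mul_mem' := by
    rintro a b ⟨ha, ha'⟩ ⟨hb, hb'⟩
    refine ⟨P.mul_mem ha hb, fun y hy => ?_⟩
    have h1 := ha' y hy
    have h2 := hb' y hy
    have h3 : a * b * y * (a * b)⁻¹ * y⁻¹ =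
        a * (b * y * b⁻¹ * y⁻¹) * a⁻¹ * (a * y * a⁻¹ * y⁻¹) := by group
    rw [h3, central_conj h2]
    exact mul_mem h2 h1
  inv_mem' := by
    rintro a ⟨ha, ha'⟩
    refine ⟨P.inv_mem ha, fun y hy => ?_⟩
    have h1 := ha' y hy
    have h3 : a⁻¹ * y * a⁻¹⁻¹ * y⁻¹ = a⁻¹ * (a * y * a⁻¹ * y⁻¹)⁻¹ * a⁻¹⁻¹ := by group
    rw [h3, central_conj (inv_mem h1)]
    exact inv_mem h1

theorem mem_Z2 {P : Subgroup H} {x : H} :
    x ∈ Z2 P ↔ x ∈ P ∧ ∀ y ∈ P, x * y * x⁻¹ * y⁻¹ ∈ center H := Iff.rfl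

instance Z2_normal (P : Subgroup H) [hP : P.Normal] : (Z2 P).Normal := by
  constructor
  rintro x ⟨hx, hx'⟩ g
  refine ⟨hP.conj_mem x hx g, fun y hy => ?_⟩
  have h1 := hx' (g⁻¹ * y * g) (by simpa using hP.conj_mem y hy g⁻¹)
  have h2 : g * x * g⁻¹ * y * (g * x * g⁻¹)⁻¹ * y⁻¹ =
      g * (x * (g⁻¹ * y * g) * x⁻¹ * (g⁻¹ * y * g)⁻¹) * g⁻¹ := by group
  rw [h2, central_conj h1]
  exact h1

/-- The main theorem. -/
theorem commutator_central [Finite H] {p : ℕ} [Fact p.Prime] (P : Subgroup H) [hPn : P.Normal]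
    (hP : IsPGroup p P)
    (hab : ∀ A : Subgroup H, A.Normal → (∀ a ∈ A, ∀ b ∈ A, a * b = b * a) → A ≤ center H)
    (lam : ↥(P ⊓ center H) →* ℂˣ) (hlam : Function.Injective lam) :
    ∀ x ∈ P, ∀ y ∈ P, x * y * x⁻¹ * y⁻¹ ∈ center H := by
  classical
  set Z := Z2 P with hZ
  haveI hZn : Z.Normal := Z2_normal P
  have hZP : Z ≤ P := fun x hx => hx.1
  -- the centralizer `C` of `Z` in `P`
  set C : Subgroup H := P ⊓ centralizer (Z : Set H) with hC
  haveI hCn : C.Normal := by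
    haveI : (centralizer (Z : Set H)).Normal := Subgroup.normal_centralizer
    exact Subgroup.normal_inf_normal P _
  have hmemC : ∀ {w : H}, w ∈ C ↔ w ∈ P ∧ ∀ x ∈ Z, x * w = w * x := by
    intro w
    constructor
    · rintro ⟨h1, h2⟩
      exact ⟨h1, fun x hx => (Subgroup.mem_centralizer_iff.mp h2 x hx)⟩
    · rintro ⟨h1, h2⟩
      exact ⟨h1, Subgroup.mem_centralizer_iff.mpr (fun x hx => h2 x hx)⟩
  -- the centre of `Z` is central
  have hD : Z ⊓ centralizer (Z : Set H) ≤ center H := by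
    haveI : (centralizer (Z : Set H)).Normal := Subgroup.normal_centralizer
    apply hab _ (Subgroup.normal_inf_normal _ _)
    rintro a ⟨ha, -⟩ b ⟨hb, hb'⟩
    exact (Subgroup.mem_centralizer_iff.mp hb' a ha)
  -- the commutator with a fixed element
  have hcomm_mem : ∀ x ∈ Z, ∀ y ∈ P, x * y * x⁻¹ * y⁻¹ ∈ P ⊓ center H := by
    intro x hx y hy
    refine ⟨?_, hx.2 y hy⟩
    exact P.mul_mem (P.mul_mem (P.mul_mem (hZP hx) hy) (P.inv_mem (hZP hx))) (P.inv_mem hy)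
  let T₀ : Subgroup ↥Z := (center H).subgroupOf Z
  haveI hT₀ : T₀.Normal := by
    haveI : (center H).Normal := inferInstance
    exact Subgroup.normal_subgroupOf
  let g : (y : H) → y ∈ P → ↥Z →* ℂˣ := fun y hy =>
    { toFun := fun x => lam ⟨(x : H) * y * (x : H)⁻¹ * y⁻¹, hcomm_mem x x.2 y hy⟩
      map_one' := by
        have : (⟨((1 : ↥Z) : H) * y * ((1 : ↥Z) : H)⁻¹ * y⁻¹, hcomm_mem _ (1 : ↥Z).2 y hy⟩ :
            ↥(P ⊓ center H)) = 1 := by
          apply Subtype.ext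
          simp
        rw [this, map_one]
      map_mul' := by
        intro a b
        rw [← map_mul]
        congr 1
        apply Subtype.ext
        simp only [Subgroup.coe_mul, MulMemClass.coe_mul]
        have h3 : (a : H) * b * y * ((a : H) * b)⁻¹ * y⁻¹ =
            a * ((b : H) * y * (b : H)⁻¹ * y⁻¹) * (a : H)⁻¹ * ((a : H) * y * (a : H)⁻¹ * y⁻¹) := by
          group
        rw [h3, central_conj (hcomm_mem b b.2 y hy).2, (Subgroup.mem_center_iff.mp (hcomm_mem a a.2 y hy).2 _)] }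
  have hgdef : ∀ (y : H) (hy : y ∈ P) (x : ↥Z),
      g y hy x = lam ⟨(x : H) * y * (x : H)⁻¹ * y⁻¹, hcomm_mem x x.2 y hy⟩ := fun _ _ _ => rfl
  have hgker : ∀ (y : H) (hy : y ∈ P), ∀ t ∈ T₀, g y hy t = 1 := by
    intro y hy t ht
    rw [hgdef y hy t]
    have : (⟨(t : H) * y * (t : H)⁻¹ * y⁻¹, hcomm_mem t t.2 y hy⟩ : ↥(P ⊓ center H)) = 1 := by
      apply Subtype.ext
      have ht' : (t : H) ∈ center H := ht
      simp only [OneMemClass.coe_one]
      rw [(Subgroup.mem_center_iff.mp ht' y).symm]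
      group
    rw [this, map_one]
  -- the quotient is commutative
  letI : CommGroup (↥Z ⧸ T₀) :=
    { (inferInstance : Group (↥Z ⧸ T₀)) with
      mul_comm := by
        intro a b
        induction a using QuotientGroup.induction_on with
        | H a =>
        induction b using QuotientGroup.induction_on with
        | H b =>
        rw [← QuotientGroup.mk_mul, ← QuotientGroup.mk_mul, QuotientGroup.eq]
        show (((a * b)⁻¹ * (b * a) : ↥Z) : H) ∈ center H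
        have h1 := a.2.2 (b : H) (hZP b.2)
        have h2 : (((a * b)⁻¹ * (b * a) : ↥Z) : H) =
            ((a : H) * b)⁻¹ * ((a : H) * b * (a : H)⁻¹ * (b : H)⁻¹)⁻¹ * ((a : H) * b)⁻¹⁻¹ := by
          simp only [Subgroup.coe_mul, InvMemClass.coe_inv]
          group
        rw [h2, central_conj (inv_mem h1)]
        exact inv_mem h1 }
  let f : (y : H) → y ∈ P → ((↥Z ⧸ T₀) →* ℂˣ) := fun y hy => QuotientGroup.lift T₀ (g y hy) (hgker y hy)
  have hfdef : ∀ (y : H) (hy : y ∈ P) (x : ↥Z), f y hy (x : ↥Z ⧸ T₀) = g y hy x := fun _ _ _ => rfl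
  -- the map from the quotient to its dual is bijective
  let Φ : (↥Z ⧸ T₀) → ((↥Z ⧸ T₀) →* ℂˣ) := fun q => f (q.out : H) (hZP q.out.2)
  have hΦinj : Function.Injective Φ := by
    intro q q' hqq
    have hq1 : ∀ x : ↥Z, g (q.out : H) (hZP q.out.2) x = g (q'.out : H) (hZP q'.out.2) x := by
      intro x
      exact DFunLike.congr_fun hqq (x : ↥Z ⧸ T₀)
    have hq2 : ∀ x : ↥Z, (x : H) * (q.out : H) * (x : H)⁻¹ * (q.out : H)⁻¹ =
        (x : H) * (q'.out : H) * (x : H)⁻¹ * (q'.out : H)⁻¹ := by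
      intro x
      have := hlam (hq1 x)
      exact congrArg Subtype.val this
    have hq3 : (q'.out : H)⁻¹ * (q.out : H) ∈ Z ⊓ centralizer (Z : Set H) := by
      refine ⟨Z.mul_mem (Z.inv_mem q'.out.2) q.out.2, Subgroup.mem_centralizer_iff.mpr ?_⟩
      intro x hx
      have h1 := hq2 ⟨x, hx⟩
      simp only at h1
      set u := (q.out : H)
      set v := (q'.out : H)
      have hc1 := (hx.2 u (hZP q.out.2))
      have hc2 := (hx.2 v (hZP q'.out.2))
      have h5 : x * u * x⁻¹ = (x * v * x⁻¹ * v⁻¹) * u := by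
        rw [← h1]
        group
      have h6 : x * (v⁻¹ * u) * x⁻¹ = v⁻¹ * u := by
        have h7 : x * (v⁻¹ * u) * x⁻¹ = (x * v * x⁻¹)⁻¹ * (x * u * x⁻¹) := by group
        rw [h7, h5]
        group
      calc x * (v⁻¹ * u) = x * (v⁻¹ * u) * x⁻¹ * x := by group
        _ = v⁻¹ * u * x := by rw [h6]
    have hq4 : (q'.out : H)⁻¹ * (q.out : H) ∈ center H := hD hq3
    have hq5 : q' = q := by
      rw [← QuotientGroup.out_eq' q', ← QuotientGroup.out_eq' q]
      rw [QuotientGroup.eq]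
      exact hq4
    exact hq5.symm
  have hcard : Nat.card ((↥Z ⧸ T₀) →* ℂˣ) = Nat.card (↥Z ⧸ T₀) :=
    CommGroup.card_monoidHom_of_hasEnoughRootsOfUnity (↥Z ⧸ T₀) ℂ
  have hΦsurj : Function.Surjective Φ :=
    (Function.Injective.bijective_of_nat_card_le hΦinj hcard.le).2
  -- every element of `P` is in `C Z`
  have hsplit : ∀ y ∈ P, ∃ u ∈ Z, y * u⁻¹ ∈ C := by
    intro y hy
    obtain ⟨q, hq⟩ := hΦsurj (f y hy)
    refine ⟨(q.out : H), q.out.2, ?_⟩
    rw [hmemC]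
    refine ⟨P.mul_mem hy (P.inv_mem (hZP q.out.2)), fun x hx => ?_⟩
    have h1 : g (q.out : H) (hZP q.out.2) ⟨x, hx⟩ = g y hy ⟨x, hx⟩ :=
      DFunLike.congr_fun hq ((⟨x, hx⟩ : ↥Z) : ↥Z ⧸ T₀)
    have h2 := congrArg Subtype.val (hlam h1)
    simp only at h2
    set u := (q.out : H)
    have h5 : x * y * x⁻¹ = (x * u * x⁻¹ * u⁻¹) * y := by
      rw [h2]
      group
    have h6 : x * (y * u⁻¹) * x⁻¹ = y * u⁻¹ := by
      have h7 : x * (y * u⁻¹) * x⁻¹ = (x * y * x⁻¹) * (x * u * x⁻¹)⁻¹ := by group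
      have hcc := (hx.2 u (hZP q.out.2))
      have h8 : x * u * x⁻¹ = (x * u * x⁻¹ * u⁻¹) * u := by group
      have h9 : (x * u * x⁻¹ * u⁻¹) * (y * u⁻¹) * (x * u * x⁻¹ * u⁻¹)⁻¹ = y * u⁻¹ := by
        rw [← (Subgroup.mem_center_iff.mp hcc (y * u⁻¹))]
        group
      rw [h7, h5, h8, ← h9]
      generalize (x * u * x⁻¹ * u⁻¹) = c
      group
    calc x * (y * u⁻¹) = x * (y * u⁻¹) * x⁻¹ * x := by group
      _ = y * u⁻¹ * x := by rw [h6]
  -- `C` is central
  have hCcen : C ≤ center H := by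
    by_contra hne
    have hnot : ¬ (C ≤ center H) := hne
    let C₀ : Subgroup ↥C := (center H).subgroupOf C
    haveI hC₀ : C₀.Normal := Subgroup.normal_subgroupOf
    haveI : Nontrivial (↥C ⧸ C₀) := by
      rw [QuotientGroup.nontrivial_iff]
      intro htop
      apply hnot
      intro c hc
      have : (⟨c, hc⟩ : ↥C) ∈ C₀ := by rw [htop]; trivial
      exact this
    have hCp : IsPGroup p ↥C := hP.to_le (inf_le_left)
    have hQ : IsPGroup p (↥C ⧸ C₀) := hCp.to_quotient C₀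
    haveI : Nontrivial (center (↥C ⧸ C₀)) := hQ.center_nontrivial
    obtain ⟨c, hc⟩ := exists_ne (1 : center (↥C ⧸ C₀))
    obtain ⟨y, hy⟩ := QuotientGroup.mk_surjective ((c : ↥C ⧸ C₀))
    have hyn : (y : H) ∉ center H := by
      intro hyc
      have h1 : (y : ↥C ⧸ C₀) = 1 := (QuotientGroup.eq_one_iff y).mpr hyc
      rw [h1] at hy
      exact hc (Subtype.ext hy.symm)
    have hyc : ∀ w : ↥C, (y : H) * w * (y : H)⁻¹ * (w : H)⁻¹ ∈ center H := by
      intro w
      have h1 : ((y * w * y⁻¹ * w⁻¹ : ↥C) : ↥C ⧸ C₀) = 1 := by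
        simp only [QuotientGroup.mk_mul, QuotientGroup.mk_inv, hy]
        have h2 : (c : ↥C ⧸ C₀) * (w : ↥C ⧸ C₀) = (w : ↥C ⧸ C₀) * (c : ↥C ⧸ C₀) :=
          (Subgroup.mem_center_iff.mp c.2 _).symm
        rw [h2]
        group
      have h3 := (QuotientGroup.eq_one_iff _).mp h1
      exact h3
    have hyP : (y : H) ∈ P := y.2.1
    have hyZ : (y : H) ∈ Z := by
      refine ⟨hyP, fun w hw => ?_⟩
      obtain ⟨u, hu, hwu⟩ := hsplit w hw
      have h1 := hyc ⟨w * u⁻¹, hwu⟩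
      simp only at h1
      have hyu : (y : H) * u = u * y := ((hmemC.mp y.2).2 u hu).symm
      have h2 : (y : H) * w * (y : H)⁻¹ * w⁻¹ =
          (y : H) * (w * u⁻¹) * (y : H)⁻¹ * (w * u⁻¹)⁻¹ * (w * (u⁻¹ * ((y : H) * u * (y : H)⁻¹) * w⁻¹)) *
            (w * u⁻¹ * u * w⁻¹)⁻¹ := by
        group
      rw [hyu] at h2
      have h3 : w * (u⁻¹ * (u * (y : H) * (y : H)⁻¹) * w⁻¹) = 1 := by group
      have h4 : (w * u⁻¹ * u * w⁻¹) = 1 := by group
      rw [h3, h4] at h2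
      simp only [mul_one, inv_one] at h2
      rw [h2]
      exact h1
    apply hyn
    apply hD
    exact ⟨hyZ, y.2.2⟩
  -- conclusion
  intro x hx y hy
  obtain ⟨u, hu, hxu⟩ := hsplit x hx
  have hc : x * u⁻¹ ∈ center H := hCcen hxu
  have h1 := hu.2 y hy
  have h4 : (x * u⁻¹) * (u * y * u⁻¹) * (x * u⁻¹)⁻¹ = u * y * u⁻¹ := central_conj' hc _
  have h3 : x * y * x⁻¹ * y⁻¹ = u * y * u⁻¹ * y⁻¹ := by
    have h5 : x * y * x⁻¹ * y⁻¹ = ((x * u⁻¹) * (u * y * u⁻¹) * (x * u⁻¹)⁻¹) * y⁻¹ := by group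
    rw [h5, h4]
  rw [h3]
  exact h1

end Cfsg.Agent.Lib.PrimClass2
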