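import Mathlib

/-!
# A `q`-group acting on a finite abelian `q'`-group without fixed points

Some element has at most `√|V|` fixed points.
-/

set_option autoImplicit false
set_option linter.all false

namespace Cfsg.Agent.Lib.PrimFixB

open Subgroup

universe u v

variable {A : Type u} [Group A] {V : Type v} [CommGroup V]

/-- The fixed points of `g`. -/
def fixS (ρ : A →* MulAut V) (g : A) : Subgroup V where
  carrier := {v | ρ g v = v}
  one_mem' := by simp
  mul_mem' := by
    intro a b ha hb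
    simp only [Set.mem_setOf_eq] at *
    rw [map_mul, ha, hb]
  inv_mem' := by
    intro a ha
    simp only [Set.mem_setOf_eq] at *
    rw [map_inv, ha]

theorem mem_fixS {ρ : A →* MulAut V} {g : A} {v : V} : v ∈ fixS ρ g ↔ ρ g v = v := Iff.rfl

/-- The kernel of the action on `W`. -/
def kerOn (ρ : A →* MulAut V) (W : Subgroup V) : Subgroup A where
  carrier := {a | ∀ v ∈ W, ρ a v = v}
  one_mem' := by simp
  mul_mem' := by
    intro a b ha hb v hv
    simp only [map_mul, MulAut.mul_apply]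
    rw [hb v hv, ha v hv]
  inv_mem' := by
    intro a ha v hv
    have h := ha v hv
    rw [map_inv, MulAut.inv_def, MulEquiv.symm_apply_eq]
    exact h.symm

theorem mem_kerOn {ρ : A →* MulAut V} {W : Subgroup V} {a : A} :
    a ∈ kerOn ρ W ↔ ∀ v ∈ W, ρ a v = v := Iff.rfl

theorem kerOn_normal (ρ : A →* MulAut V) (W : Subgroup V)
    (hW : ∀ a, ∀ v ∈ W, ρ a v ∈ W) : (kerOn ρ W).Normal := by
  constructor
  intro n hn g v hv
  simp only [map_mul, MulAut.mul_apply]
  have h1 : ρ g⁻¹ v ∈ W := hW _ _ hv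
  rw [hn _ h1, map_inv, MulAut.inv_def]
  simp

/-- Two subgroups with trivial intersection inside a third one. -/
theorem card_mul_le {S T W : Subgroup V} [Finite V] (hS : S ≤ W) (hT : T ≤ W) (h : S ⊓ T = ⊥) :
    Nat.card S * Nat.card T ≤ Nat.card W := by
  rw [← Nat.card_prod]
  refine Nat.card_le_card_of_injective
    (fun x : S × T => (⟨(x.1 : V) * (x.2 : V), W.mul_mem (hS x.1.2) (hT x.2.2)⟩ : W)) ?_
  rintro ⟨⟨s, hs⟩, ⟨t, ht⟩⟩ ⟨⟨s', hs'⟩, ⟨t', ht'⟩⟩ hxy
  simp only [Subtype.mk.injEq] at hxy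
  have h0 : s'⁻¹ * s * t = t' := by
    rw [mul_assoc, hxy, inv_mul_cancel_left]
  have h1 : s'⁻¹ * s = t' * t⁻¹ := eq_mul_inv_of_mul_eq h0
  have h2 : s'⁻¹ * s ∈ S ⊓ T :=
    ⟨S.mul_mem (S.inv_mem hs') hs, by rw [h1]; exact T.mul_mem ht' (T.inv_mem ht)⟩
  rw [h, Subgroup.mem_bot] at h2
  have h3 : s = s' := by
    rw [inv_mul_eq_one] at h2
    exact h2.symm
  have h4 : t = t' := by
    rw [h2] at h1
    exact (mul_inv_eq_one.mp h1.symm).symm
  subst h3 h4
  rfl

/-- The key induction. -/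
theorem main_aux [Finite A] [Finite V] {q : ℕ} [hq : Fact q.Prime] (hA : IsPGroup q A)
    (hc : Nat.Coprime (Nat.card V) q) (ρ : A →* MulAut V) :
    ∀ (n : ℕ) (W : Subgroup V), (∀ a, ∀ v ∈ W, ρ a v ∈ W) →
      (∀ v ∈ W, (∀ a, ρ a v = v) → v = 1) → (kerOn ρ W).index = n →
      ∃ g : A, Nat.card (W ⊓ fixS ρ g : Subgroup V) ^ 2 ≤ Nat.card W := by
  classical
  intro n
  induction n using Nat.strong_induction_on with
  | _ n ih =>
    intro W hW hfix hn
    haveI hKn : (kerOn ρ W).Normal := kerOn_normal ρ W hW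
    by_cases hK1 : kerOn ρ W = ⊤
    · -- `W` is trivial
      have hWbot : W = ⊥ := by
        rw [eq_bot_iff]
        intro v hv
        rw [Subgroup.mem_bot]
        refine hfix v hv (fun a => ?_)
        have : a ∈ kerOn ρ W := by rw [hK1]; trivial
        exact this v hv
      refine ⟨1, ?_⟩
      subst hWbot
      simp
    set K := kerOn ρ W with hKdef
    -- a central element of order `q` in the quotient
    haveI : Nontrivial (A ⧸ K) := by
      rw [QuotientGroup.nontrivial_iff]
      exact hK1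
    have hQ : IsPGroup q (A ⧸ K) := hA.to_quotient K
    haveI : Nontrivial (Subgroup.center (A ⧸ K)) := hQ.center_nontrivial
    have hcd : q ∣ Nat.card (Subgroup.center (A ⧸ K)) := by
      have hpg : IsPGroup q (Subgroup.center (A ⧸ K)) := hQ.to_subgroup _
      obtain ⟨k, hk⟩ := IsPGroup.iff_card.mp hpg
      have h1 : Nat.card (Subgroup.center (A ⧸ K)) ≠ 1 := Finite.one_lt_card.ne'
      have h2 : k ≠ 0 := by
        rintro rfl
        simp at hk
        exact h1 (by simpa using hk)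
      rw [hk]
      exact dvd_pow_self q h2
    obtain ⟨c, hco⟩ := exists_prime_orderOf_dvd_card' (G := Subgroup.center (A ⧸ K)) q hcd
    obtain ⟨z, hzc⟩ := QuotientGroup.mk_surjective ((c : A ⧸ K))
    have hzK : z ∉ K := by
      intro hz
      have h1 : (z : A ⧸ K) = 1 := (QuotientGroup.eq_one_iff z).mpr hz
      rw [h1] at hzc
      have h2 : c = 1 := Subtype.ext hzc.symm
      rw [h2, orderOf_one] at hco
      exact hq.out.one_lt.ne hco
    have hzq : z ^ q ∈ K := by
      rw [← QuotientGroup.eq_one_iff, QuotientGroup.mk_pow, hzc]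
      have : c ^ q = 1 := by rw [← hco]; exact pow_orderOf_eq_one c
      have h2 := congrArg (fun x : Subgroup.center (A ⧸ K) => (x : A ⧸ K)) this
      simpa using h2
    have hzcomm : ∀ a : A, ∀ v ∈ W, ρ a (ρ z v) = ρ z (ρ a v) := by
      intro a v hv
      have h1 : (z * a)⁻¹ * (a * z) ∈ K := by
        rw [← QuotientGroup.eq_one_iff]
        simp only [QuotientGroup.mk_mul, QuotientGroup.mk_inv, hzc]
        have h2 : (c : A ⧸ K) * (a : A ⧸ K) = (a : A ⧸ K) * (c : A ⧸ K) :=
          (Subgroup.mem_center_iff.mp c.2 _).symm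
        rw [h2]
        group
      have h3 := h1 v hv
      have h4 : ρ ((z * a)⁻¹ * (a * z)) v = (ρ (z * a))⁻¹ (ρ (a * z) v) := by
        simp [map_mul]
      rw [h4, MulAut.inv_def, MulEquiv.symm_apply_eq] at h3
      simpa [map_mul] using h3
    have hzpow : ∀ (i : ℕ) (a : A), ∀ v ∈ W, ρ a (ρ (z ^ i) v) = ρ (z ^ i) (ρ a v) := by
      intro i
      induction i with
      | zero => intro a v _; simp
      | succ i ih2 =>
        intro a v hv
        rw [pow_succ, map_mul, MulAut.mul_apply, MulAut.mul_apply, ih2 a _ (hW _ _ hv),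
          hzcomm a v hv]
    have hzqact : ∀ v ∈ W, ρ (z ^ q) v = v := fun v hv => hzq v hv
    -- the norm map
    let N : V →* V :=
      { toFun := fun v => ∏ i ∈ Finset.range q, ρ (z ^ i) v
        map_one' := by simp
        map_mul' := by
          intro a b
          simp only [map_mul, Finset.prod_mul_distrib] }
    have hNdef : ∀ v, N v = ∏ i ∈ Finset.range q, ρ (z ^ i) v := fun v => rfl
    have hNW : ∀ v ∈ W, N v ∈ W := by
      intro v hv
      rw [hNdef]
      exact W.prod_mem (fun i _ => hW _ _ hv)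
    have hNz : ∀ v ∈ W, ρ z (N v) = N v := by
      intro v hv
      rw [hNdef, map_prod]
      have h1 : ∀ i, ρ z (ρ (z ^ i) v) = ρ (z ^ (i + 1)) v := by
        intro i
        rw [pow_succ', map_mul, MulAut.mul_apply]
      simp only [h1]
      have h2 := Finset.prod_range_succ (fun i => ρ (z ^ i) v) q
      have h3 := Finset.prod_range_succ' (fun i => ρ (z ^ i) v) q
      simp only [pow_zero, map_one, MulAut.one_apply] at h3
      rw [h2, hzqact v hv] at h3
      exact (mul_right_cancel h3).symm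
    have hNg : ∀ g : A, ∀ v ∈ W, ρ g v = v → ρ g (N v) = N v := by
      intro g v hv hg
      rw [hNdef, map_prod]
      refine Finset.prod_congr rfl (fun i _ => ?_)
      rw [hzpow i g v hv, hg]
    have hNfix : ∀ v, ρ z v = v → N v = v ^ q := by
      intro v hv
      have h1 : ∀ i : ℕ, ρ (z ^ i) v = v := by
        intro i
        induction i with
        | zero => simp
        | succ i ih2 => rw [pow_succ, map_mul, MulAut.mul_apply, hv, ih2]
      rw [hNdef]
      simp only [h1, Finset.prod_const, Finset.card_range]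
    -- roots
    obtain ⟨m, hm⟩ : ∃ m : ℕ, ∀ x : V, (x ^ m) ^ q = x := by
      by_cases h1 : 1 < Nat.card V
      · obtain ⟨m, hm⟩ := Nat.exists_mul_mod_eq_one_of_coprime hc.symm h1
        refine ⟨m, fun x => ?_⟩
        rw [← pow_mul, mul_comm m q, ← pow_mod_natCard, hm.2, pow_one]
      · refine ⟨0, fun x => ?_⟩
        haveI : Subsingleton V := (Finite.card_le_one_iff_subsingleton).mp (not_lt.mp h1)
        exact Subsingleton.elim _ _
    have hqinj : ∀ x : V, x ^ q = 1 → x = 1 := by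
      intro x hx
      have := hm x
      rw [← pow_mul, mul_comm, pow_mul, hx, one_pow] at this
      exact this.symm
    -- the two pieces
    set C : Subgroup V := W ⊓ fixS ρ z with hC
    set U : Subgroup V := W ⊓ N.ker with hU
    have hCU : C ⊓ U = ⊥ := by
      rw [eq_bot_iff]
      rintro v ⟨⟨hv1, hv2⟩, ⟨-, hv3⟩⟩
      rw [Subgroup.mem_bot]
      have h1 : N v = 1 := hv3
      rw [hNfix v hv2] at h1
      exact hqinj v h1
    have hCinv : ∀ a, ∀ v ∈ C, ρ a v ∈ C := by
      rintro a v ⟨hv1, hv2⟩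
      refine ⟨hW _ _ hv1, ?_⟩
      show ρ z (ρ a v) = ρ a v
      rw [← hzcomm a v hv1, show ρ z v = v from hv2]
    have hCfix : ∀ v ∈ C, (∀ a, ρ a v = v) → v = 1 := fun v hv h => hfix v hv.1 h
    have hKC : kerOn ρ W < kerOn ρ C := by
      refine lt_of_le_of_ne (fun a ha v hv => ha v hv.1) (fun hE => hzK ?_)
      rw [hKdef, hE]
      exact fun v hv => hv.2
    have hidx : (kerOn ρ C).index < n := by
      have h1 : (kerOn ρ W).relIndex (kerOn ρ C) * (kerOn ρ C).index = (kerOn ρ W).index :=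
        Subgroup.relIndex_mul_index hKC.le
      have h2 : (kerOn ρ W).relIndex (kerOn ρ C) ≠ 1 := by
        rw [Ne, Subgroup.relIndex_eq_one]
        exact not_le_of_gt hKC
      have h3 : (kerOn ρ W).index ≠ 0 := Subgroup.index_ne_zero_of_finite
      have h4 : (kerOn ρ C).index ≠ 0 := Subgroup.index_ne_zero_of_finite
      have h5 : (kerOn ρ W).relIndex (kerOn ρ C) ≠ 0 := by
        intro h; rw [h, zero_mul] at h1; exact h3 h1.symm
      have h6 : 2 ≤ (kerOn ρ W).relIndex (kerOn ρ C) := by omega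
      rw [← hn, ← h1]
      nlinarith [Nat.pos_of_ne_zero h4]
    obtain ⟨g₁, hg₁⟩ := ih _ hidx C hCinv hCfix rfl
    -- the two candidates
    have hUmul : Nat.card (U ⊓ fixS ρ g₁ : Subgroup V) * Nat.card (U ⊓ fixS ρ (g₁ * z) : Subgroup V)
        ≤ Nat.card U := by
      apply card_mul_le inf_le_left inf_le_left
      rw [eq_bot_iff]
      rintro v ⟨⟨hv1, hv2⟩, ⟨-, hv3⟩⟩
      have h1 : ρ g₁ v = v := hv2
      have h2 : ρ g₁ (ρ z v) = v := by simpa [map_mul] using (show ρ (g₁ * z) v = v from hv3)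
      have h3 : ρ z v = v := by
        apply (ρ g₁).injective
        rw [h2, h1]
      have h4 : v ∈ C ⊓ U := ⟨⟨hv1.1, h3⟩, hv1⟩
      rw [hCU] at h4
      exact h4
    obtain ⟨g, hg0, hgU⟩ : ∃ g : A, (∀ v ∈ C, ρ g v = ρ g₁ v) ∧
        Nat.card (U ⊓ fixS ρ g : Subgroup V) ^ 2 ≤ Nat.card U := by
      by_cases h : Nat.card (U ⊓ fixS ρ g₁ : Subgroup V) ^ 2 ≤ Nat.card U
      · exact ⟨g₁, fun _ _ => rfl, h⟩
      · refine ⟨g₁ * z, ?_, ?_⟩
        · intro v hv
          simp only [map_mul, MulAut.mul_apply]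
          rw [show ρ z v = v from hv.2]
        · by_contra h'
          push Not at h h'
          have h1 := hUmul
          set a := Nat.card (U ⊓ fixS ρ g₁ : Subgroup V)
          set b := Nat.card (U ⊓ fixS ρ (g₁ * z) : Subgroup V)
          set u := Nat.card U
          have h2 : u * u < (a * b) * (a * b) := by
            have : u * u < a ^ 2 * b ^ 2 := Nat.mul_lt_mul'' h h'
            calc u * u < a ^ 2 * b ^ 2 := this
              _ = (a * b) * (a * b) := by ring
          have h3 : (a * b) * (a * b) ≤ u * u := Nat.mul_le_mul h1 h1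
          omega
    refine ⟨g, ?_⟩
    -- the injection
    have hCg : Nat.card (C ⊓ fixS ρ g : Subgroup V) = Nat.card (C ⊓ fixS ρ g₁ : Subgroup V) := by
      have : (C ⊓ fixS ρ g : Subgroup V) = C ⊓ fixS ρ g₁ := by
        ext v
        constructor
        · rintro ⟨h1, h2⟩
          refine ⟨h1, ?_⟩
          show ρ g₁ v = v
          rw [← hg0 v h1]
          exact h2
        · rintro ⟨h1, h2⟩
          refine ⟨h1, ?_⟩
          show ρ g v = v
          rw [hg0 v h1]
          exact h2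
      rw [this]
    have hinj : Nat.card (W ⊓ fixS ρ g : Subgroup V) ≤
        Nat.card (C ⊓ fixS ρ g : Subgroup V) * Nat.card (U ⊓ fixS ρ g : Subgroup V) := by
      rw [← Nat.card_prod]
      have hpi1 : ∀ v : (W ⊓ fixS ρ g : Subgroup V), (N v) ^ m ∈ (C ⊓ fixS ρ g : Subgroup V) := by
        rintro ⟨v, hv1, hv2⟩
        refine ⟨⟨W.pow_mem (hNW v hv1) m, ?_⟩, ?_⟩
        · show ρ z ((N v) ^ m) = (N v) ^ m
          rw [map_pow, hNz v hv1]
        · show ρ g ((N v) ^ m) = (N v) ^ m
          rw [map_pow, hNg g v hv1 hv2]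
      have hpi2 : ∀ v : (W ⊓ fixS ρ g : Subgroup V),
          (v : V) * ((N v) ^ m)⁻¹ ∈ (U ⊓ fixS ρ g : Subgroup V) := by
        intro v
        obtain ⟨⟨hh1, hh2⟩, hh3⟩ := hpi1 v
        obtain ⟨v, hv1, hv2⟩ := v
        refine ⟨⟨W.mul_mem hv1 (W.inv_mem hh1), ?_⟩, ?_⟩
        · show N (v * ((N v) ^ m)⁻¹) = 1
          rw [map_mul, map_inv, hNfix _ hh2, hm]
          simp
        · show ρ g (v * ((N v) ^ m)⁻¹) = v * ((N v) ^ m)⁻¹
          rw [map_mul, map_inv, show ρ g v = v from hv2, show ρ g ((N v) ^ m) = (N v) ^ m from hh3]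
      refine Nat.card_le_card_of_injective
        (fun v => ((⟨_, hpi1 v⟩ : (C ⊓ fixS ρ g : Subgroup V)),
          (⟨_, hpi2 v⟩ : (U ⊓ fixS ρ g : Subgroup V)))) ?_
      intro v w hvw
      simp only [Prod.mk.injEq, Subtype.mk.injEq] at hvw
      obtain ⟨h1, h2⟩ := hvw
      rw [h1] at h2
      exact Subtype.ext (mul_right_cancel h2)
    have hCUcard : Nat.card C * Nat.card U ≤ Nat.card W :=
      card_mul_le inf_le_left inf_le_left hCU
    rw [hCg] at hinj
    set w := Nat.card (W ⊓ fixS ρ g : Subgroup V)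
    set c := Nat.card (C ⊓ fixS ρ g₁ : Subgroup V)
    set u := Nat.card (U ⊓ fixS ρ g : Subgroup V)
    calc w ^ 2 ≤ (c * u) ^ 2 := Nat.pow_le_pow_left hinj 2
      _ = c ^ 2 * u ^ 2 := by ring
      _ ≤ Nat.card C * Nat.card U := Nat.mul_le_mul hg₁ hgU
      _ ≤ Nat.card W := hCUcard

/-- A `q`-group acting on a finite abelian `q'`-group without non-trivial fixed points has an
element with at most `√|V|` fixed points. -/
theorem exists_small_fix [Finite A] [Finite V] {q : ℕ} [hq : Fact q.Prime] (hA : IsPGroup q A)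
    (hc : Nat.Coprime (Nat.card V) q) (ρ : A →* MulAut V)
    (hfix : ∀ v : V, (∀ a, ρ a v = v) → v = 1) :
    ∃ g : A, Nat.card (fixS ρ g) ^ 2 ≤ Nat.card V := by
  obtain ⟨g, hg⟩ := main_aux hA hc ρ _ ⊤ (fun _ _ _ => trivial) (fun v _ h => hfix v h) rfl
  refine ⟨g, ?_⟩
  simpa using hg

/-- The same for an action of a group whose image in `Aut V` is a `q`-group. -/
theorem exists_small_fix' {B : Type u} [Group B] [Finite B] [Finite V] {q : ℕ} [hq : Fact q.Prime]
    (hc : Nat.Coprime (Nat.card V) q) (τ : B →* MulAut V)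
    (hB : ∀ b : B, ∃ k : ℕ, τ (b ^ q ^ k) = 1)
    (hfix : ∀ v : V, (∀ b, τ b v = v) → v = 1) :
    ∃ b : B, Nat.card (fixS τ b) ^ 2 ≤ Nat.card V := by
  have hR : IsPGroup q τ.range := by
    rintro ⟨_, b, rfl⟩
    obtain ⟨k, hk⟩ := hB b
    refine ⟨k, Subtype.ext ?_⟩
    simpa using hk
  obtain ⟨⟨_, b, rfl⟩, hg⟩ := exists_small_fix hR hc (τ.range.subtype) (by
    intro v hv
    refine hfix v (fun b => hv ⟨_, b, rfl⟩))
  refine ⟨b, ?_⟩
  have h1 : fixS τ b = fixS τ.range.subtype ⟨τ b, b, rfl⟩ := by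
    ext v
    rfl
  rw [h1]
  exact hg

end Cfsg.Agent.Lib.PrimFixB
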