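import Mathlib
import Cfsg.Agent.Lib.PrimFixB
import Cfsg.Agent.Lib.PrimClass2

set_option autoImplicit false
set_option linter.all false

namespace Cfsg.Agent.Lib.PrimMetaA

open Subgroup Cfsg.Agent.Lib.PrimFixB

universe u v

section X

variable {H : Type u} [Group H] [Finite H] {V : Type v} [CommGroup V] [Finite V]

/-- Small fixed points for an action covered by two normal subgroups. -/
theorem exists_small_fix_of_cover {p q : ℕ} [hp : Fact p.Prime] [hq : Fact q.Prime] (hVp : IsPGroup p V)
    (hpq : p ≠ q) (ρ : H →* MulAut V) (Rp Rq : Subgroup H) [hRqn : Rq.Normal]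
    (hRR : ∀ h : H, ∃ a ∈ Rq, ∃ b ∈ Rp, h = a * b)
    (hRp : ∀ x ∈ Rp, ∃ k : ℕ, ρ (x ^ p ^ k) = 1) (hRq : ∀ x ∈ Rq, ∃ k : ℕ, ρ (x ^ q ^ k) = 1)
    (hfix : ∀ v : V, (∀ h, ρ h v = v) → v = 1) :
    ∃ x ∈ Rq, Nat.card (fixS ρ x) ^ 2 ≤ Nat.card V := by
  classical
  have hc : Nat.Coprime (Nat.card V) q := by
    obtain ⟨n, hn⟩ := IsPGroup.iff_card.mp hVp
    rw [hn]
    exact Nat.Coprime.pow_left n ((Nat.coprime_primes hp.out hq.out).mpr hpq)
  obtain ⟨⟨x, hx⟩, hb⟩ := exists_small_fix' (B := ↥Rq) hc (ρ.comp Rq.subtype)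
    (by
      rintro ⟨b, hb⟩
      obtain ⟨k, hk⟩ := hRq b hb
      exact ⟨k, by simpa using hk⟩)
    (by
      intro v hv
      by_contra hne
      -- the fixed points of `Rq`
      let Y : Subgroup V :=
        { carrier := {w | ∀ r ∈ Rq, ρ r w = w}
          one_mem' := by intro r _; simp
          mul_mem' := by
            intro a b ha hb r hr
            rw [map_mul, ha r hr, hb r hr]
          inv_mem' := by
            intro a ha r hr
            rw [map_inv, ha r hr] }
      have hYinv : ∀ h : H, ∀ w ∈ Y, ρ h w ∈ Y := by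
        intro h w hw r hr
        have h1 : h⁻¹ * r * h ∈ Rq := by
          have := hRqn.conj_mem r hr h⁻¹
          simpa using this
        have h2 : r * h = h * (h⁻¹ * r * h) := by group
        have h3 := hw _ h1
        calc ρ r (ρ h w) = ρ (r * h) w := by simp [map_mul]
          _ = ρ h (ρ (h⁻¹ * r * h) w) := by rw [h2, map_mul]; rfl
          _ = ρ h w := by rw [h3]
      let B : Subgroup (MulAut V) := (ρ.comp Rp.subtype).range
      have hB : IsPGroup p B := by
        rintro ⟨_, ⟨b, hb⟩, rfl⟩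
        obtain ⟨k, hk⟩ := hRp b hb
        refine ⟨k, Subtype.ext ?_⟩
        simpa using hk
      letI act : MulAction B Y :=
        { smul := fun b y => ⟨(b : MulAut V) (y : V), by
            obtain ⟨_, ⟨c, hc⟩, rfl⟩ := b
            exact hYinv c _ y.2⟩
          one_smul := by
            intro y
            apply Subtype.ext
            rfl
          mul_smul := by
            intro a b y
            apply Subtype.ext
            rfl }
      have hsmul : ∀ (b : B) (y : Y), ((b • y : Y) : V) = (b : MulAut V) (y : V) := fun _ _ => rfl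
      haveI : Finite Y := inferInstance
      have hmod := hB.card_modEq_card_fixedPoints (α := Y)
      have hYp : IsPGroup p Y := hVp.to_subgroup Y
      have hvY : v ∈ Y := fun r hr => hv ⟨r, hr⟩
      have hYdvd : p ∣ Nat.card Y := by
        obtain ⟨n, hn⟩ := IsPGroup.iff_card.mp hYp
        have h0 : n ≠ 0 := by
          rintro rfl
          have h1 : Nat.card Y = 1 := by simpa using hn
          have h2 := (Nat.card_eq_one_iff_unique.mp h1).1
          have h3 : (⟨v, hvY⟩ : Y) = 1 := h2.elim _ _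
          exact hne (congrArg Subtype.val h3)
        rw [hn]
        exact dvd_pow_self p h0
      have hfp : p ∣ Nat.card (MulAction.fixedPoints B Y) := by
        rw [Nat.ModEq] at hmod
        have h1 : Nat.card Y % p = 0 := Nat.mod_eq_zero_of_dvd hYdvd
        exact Nat.dvd_of_mod_eq_zero (hmod ▸ h1)
      have h1mem : (1 : Y) ∈ MulAction.fixedPoints B Y := by
        intro b
        apply Subtype.ext
        simp [hsmul]
      haveI : Finite (MulAction.fixedPoints B Y) := inferInstance
      have hcardgt : 1 < Nat.card (MulAction.fixedPoints B Y) := by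
        have h2 : 0 < Nat.card (MulAction.fixedPoints B Y) := Nat.card_pos_iff.mpr ⟨⟨⟨1, h1mem⟩⟩, inferInstance⟩
        have h3 := Nat.le_of_dvd h2 hfp
        have h4 := hp.out.two_le
        omega
      obtain ⟨⟨w, hw⟩, hw1⟩ : ∃ w : MulAction.fixedPoints B Y, w ≠ ⟨1, h1mem⟩ := by
        haveI : Nontrivial (MulAction.fixedPoints B Y) := (Finite.one_lt_card_iff_nontrivial).mp hcardgt
        exact exists_ne _
      have hwne : (w : V) ≠ 1 := by
        intro h
        apply hw1
        apply Subtype.ext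
        apply Subtype.ext
        exact h
      apply hwne
      apply hfix
      intro h
      obtain ⟨a, ha, b, hb, rfl⟩ := hRR h
      have h5 : ρ b (w : V) = w := by
        have := hw ⟨ρ b, ⟨b, hb⟩, rfl⟩
        exact congrArg Subtype.val this
      rw [map_mul, MulAut.mul_apply, h5]
      exact w.2 a ha)
  refine ⟨x, hx, ?_⟩
  have h1 : fixS ρ x = fixS (ρ.comp Rq.subtype) ⟨x, hx⟩ := by
    ext v
    rfl
  rw [h1]
  exact hb

end X

section V

variable {H : Type u} [Group H]

/-- The conjugation action on `P / Z(P)`. -/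
noncomputable def rhoAut (P : Subgroup H) [hP : P.Normal] (h : H) : (↥P ⧸ center ↥P) ≃* (↥P ⧸ center ↥P) :=
  QuotientGroup.congr (center ↥P) (center ↥P) (MulAut.conjNormal h) (by
    exact (Subgroup.characteristic_iff_map_eq.mp inferInstance) _)

theorem rhoAut_mk (P : Subgroup H) [hP : P.Normal] (h : H) (x : ↥P) :
    rhoAut P h (x : ↥P ⧸ center ↥P) = ((MulAut.conjNormal h x : ↥P) : ↥P ⧸ center ↥P) := rfl

/-- The commutative structure on `P / Z(P)` in class two. -/
abbrev commV (P : Subgroup H) (h2 : ∀ x ∈ P, ∀ y ∈ P, x * y * x⁻¹ * y⁻¹ ∈ center H) :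
    CommGroup (↥P ⧸ center ↥P) :=
  { (inferInstance : Group (↥P ⧸ center ↥P)) with
    mul_comm := by
      intro a b
      induction a using QuotientGroup.induction_on with
      | H a =>
      induction b using QuotientGroup.induction_on with
      | H b =>
      rw [← QuotientGroup.mk_mul, ← QuotientGroup.mk_mul, QuotientGroup.eq, Subgroup.mem_center_iff]
      intro c
      apply Subtype.ext
      have h1 := h2 a a.2 b b.2
      have h3 : (((a * b)⁻¹ * (b * a) : ↥P) : H) =
          ((a : H) * b)⁻¹ * ((a : H) * b * (a : H)⁻¹ * (b : H)⁻¹)⁻¹ * ((a : H) * b)⁻¹⁻¹ := by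
        simp only [Subgroup.coe_mul, InvMemClass.coe_inv]
        group
      have h4 : (((a * b)⁻¹ * (b * a) : ↥P) : H) ∈ center H := by
        rw [h3, Cfsg.Agent.Lib.PrimClass2.central_conj (inv_mem h1)]
        exact inv_mem h1
      exact Subgroup.mem_center_iff.mp h4 (c : H) }

/-- The action as a homomorphism. -/
noncomputable def rhoV (P : Subgroup H) [hP : P.Normal] : H →* MulAut (↥P ⧸ center ↥P) where
  toFun := rhoAut P
  map_one' := by
    ext x
    induction x using QuotientGroup.induction_on with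
    | H x =>
    rw [rhoAut_mk]
    simp
  map_mul' := by
    intro a b
    ext x
    induction x using QuotientGroup.induction_on with
    | H x =>
    rw [MulAut.mul_apply, rhoAut_mk, rhoAut_mk, rhoAut_mk]
    simp

theorem rhoV_mk (P : Subgroup H) [hP : P.Normal] (h : H) (x : ↥P) :
    rhoV P h (x : ↥P ⧸ center ↥P) = ((MulAut.conjNormal h x : ↥P) : ↥P ⧸ center ↥P) := rfl

end V

section PPart

variable {H : Type u} [Group H] [Finite H]

theorem inv_mul_eq_of_central {a b : H} (h : a * b⁻¹ ∈ center H) : a⁻¹ * b = (a * b⁻¹)⁻¹ := by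
  have h5 := Cfsg.Agent.Lib.PrimClass2.central_conj (inv_mem h) (b⁻¹)
  rw [← h5]
  group

theorem central_of_inv_mul {a b : H} (h : a⁻¹ * b ∈ center H) : a * b⁻¹ ∈ center H := by
  have h5 := Cfsg.Agent.Lib.PrimClass2.central_conj (inv_mem h) b
  have h6 : a * b⁻¹ = b * (a⁻¹ * b)⁻¹ * b⁻¹ := by group
  rw [h6, h5]
  exact inv_mem h

/-- The relative index in a normal subgroup divides the index. -/
theorem relIndex_dvd_index_of_normal_right (C P : Subgroup H) [hP : P.Normal] :
    C.relIndex P ∣ C.index := by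
  have h1 : C.relIndex (P ⊔ C) * (P ⊔ C).index = C.index :=
    Subgroup.relIndex_mul_index le_sup_right
  have h2 : C.relIndex (P ⊔ C) = C.relIndex P := by
    have h3 : (P ⊓ C).relIndex P * P.relIndex (P ⊔ C) = (P ⊓ C).relIndex (P ⊔ C) :=
      Subgroup.relIndex_mul_relIndex _ _ _ inf_le_left le_sup_left
    have h4 : (P ⊓ C).relIndex C * C.relIndex (P ⊔ C) = (P ⊓ C).relIndex (P ⊔ C) :=
      Subgroup.relIndex_mul_relIndex _ _ _ inf_le_right le_sup_right
    have h5 : P.relIndex (P ⊔ C) = P.relIndex C := Subgroup.relIndex_sup_left C P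
    have h6 : (P ⊓ C).relIndex C = P.relIndex C := Subgroup.inf_relIndex_right P C
    have h7 : (P ⊓ C).relIndex P = C.relIndex P := by
      rw [inf_comm]
      exact Subgroup.inf_relIndex_right C P
    have h8 : P.relIndex C ≠ 0 := by
      show (P.subgroupOf C).index ≠ 0
      exact Subgroup.index_ne_zero_of_finite
    rw [h7, h5] at h3
    rw [h6] at h4
    have h9 : P.relIndex C * C.relIndex (P ⊔ C) = P.relIndex C * C.relIndex P := by
      rw [h4, ← h3]
      ring
    exact Nat.eq_of_mul_eq_mul_left (Nat.pos_of_ne_zero h8) h9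
  rw [← h1, h2]
  exact dvd_mul_right _ _

/-- The element of `Rq` moving `P / Z(P)` a lot. -/
theorem exists_p_part {p q : ℕ} [hp : Fact p.Prime] [hq : Fact q.Prime] (hpq : p ≠ q)
    (P F Rp Rq : Subgroup H) [hPn : P.Normal] [hRqn : Rq.Normal] (hP : IsPGroup p P)
    (hab : ∀ A : Subgroup H, A.Normal → (∀ a ∈ A, ∀ b ∈ A, a * b = b * a) → A ≤ center H)
    (h2 : ∀ x ∈ P, ∀ y ∈ P, x * y * x⁻¹ * y⁻¹ ∈ center H)
    (hFact : ∀ f ∈ F, ∀ x ∈ P, f * x * f⁻¹ * x⁻¹ ∈ center H)
    (hRR : ∀ h : H, ∃ a ∈ Rq, ∃ b ∈ Rp, h = a * b)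
    (hRp : ∀ x ∈ Rp, ∃ k : ℕ, x ^ p ^ k ∈ F) (hRq : ∀ x ∈ Rq, ∃ k : ℕ, x ^ q ^ k ∈ F) :
    ∃ x ∈ Rq, ∀ d : ℕ, (∃ s : ℕ, d = p ^ s) → d ^ 2 ≤ (center ↥P).index →
      ∀ (g : H) (m : ℕ) (f : H), f ∈ F → g ^ m = x * f →
        d ∣ (centralizer ({g} : Set H)).relIndex P := by
  classical
  letI instV : CommGroup (↥P ⧸ center ↥P) := commV P h2
  let ρ : H →* MulAut (↥P ⧸ center ↥P) := rhoV P
  have hρ : ∀ (h : H) (x : ↥P), ρ h (x : ↥P ⧸ center ↥P) =
      ((MulAut.conjNormal h x : ↥P) : ↥P ⧸ center ↥P) := fun h x => rfl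
  have hVp : IsPGroup p (↥P ⧸ center ↥P) := hP.to_quotient _
  -- central elements of `P` are central
  have hcen : ∀ z : ↥P, z ∈ center ↥P → (z : H) ∈ center H := by
    intro z hz
    have h1 : (center ↥P).map P.subtype ≤ center H := by
      apply hab _ inferInstance
      rintro _ ⟨a, ha, rfl⟩ _ ⟨b, hb, rfl⟩
      have := Subgroup.mem_center_iff.mp ha b
      exact (congrArg Subtype.val this).symm
    exact h1 ⟨z, hz, rfl⟩
  have hcen' : ∀ z : ↥P, (z : H) ∈ center H → z ∈ center ↥P := by
    intro z hz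
    rw [Subgroup.mem_center_iff]
    intro c
    apply Subtype.ext
    exact Subgroup.mem_center_iff.mp hz (c : H)
  -- `F` acts trivially
  have hρF : ∀ f ∈ F, ρ f = 1 := by
    intro f hf
    ext x
    induction x using QuotientGroup.induction_on with
    | H x =>
    rw [hρ, MulAut.one_apply]
    rw [QuotientGroup.eq]
    apply hcen'
    have h1 := hFact f hf x x.2
    have h4 : (((MulAut.conjNormal f x : ↥P)⁻¹ * x : ↥P) : H) = (f * x * f⁻¹ * (x : H)⁻¹)⁻¹ := by
      simp only [Subgroup.coe_mul, InvMemClass.coe_inv, MulAut.conjNormal_apply]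
      exact inv_mul_eq_of_central h1
    rw [h4]
    exact inv_mem h1
  -- no fixed points
  have hfix : ∀ v : ↥P ⧸ center ↥P, (∀ h, ρ h v = v) → v = 1 := by
    intro v hv
    induction v using QuotientGroup.induction_on with
    | H w =>
    have hconj : ∀ h : H, h * w * h⁻¹ * (w : H)⁻¹ ∈ center H := by
      intro h
      have h1 := hv h
      rw [hρ, QuotientGroup.eq] at h1
      have h3 := hcen _ h1
      simp only [Subgroup.coe_mul, InvMemClass.coe_inv, MulAut.conjNormal_apply] at h3
      exact central_of_inv_mul h3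
    let L : Subgroup H :=
      { carrier := {u | ∃ k : ℤ, ∃ z ∈ center H, u = (w : H) ^ k * z}
        one_mem' := ⟨0, 1, one_mem _, by simp⟩
        mul_mem' := by
          rintro _ _ ⟨k, z, hz, rfl⟩ ⟨l, z', hz', rfl⟩
          refine ⟨k + l, z * z', mul_mem hz hz', ?_⟩
          rw [zpow_add]
          have := Subgroup.mem_center_iff.mp hz ((w : H) ^ l)
          calc (w : H) ^ k * z * ((w : H) ^ l * z') = (w : H) ^ k * (z * (w : H) ^ l) * z' := by group
            _ = (w : H) ^ k * ((w : H) ^ l * z) * z' := by rw [← this]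
            _ = _ := by group
        inv_mem' := by
          rintro _ ⟨k, z, hz, rfl⟩
          refine ⟨-k, z⁻¹, inv_mem hz, ?_⟩
          rw [mul_inv_rev, zpow_neg]
          exact (Subgroup.mem_center_iff.mp (inv_mem hz) _).symm }
    have hLn : L.Normal := by
      constructor
      rintro _ ⟨k, z, hz, rfl⟩ h
      obtain hc := hconj h
      set c := h * (w : H) * h⁻¹ * (w : H)⁻¹ with hcdef
      have h1 : h * (w : H) * h⁻¹ = c * w := by rw [hcdef]; group
      have h2 : h * (w : H) ^ k * h⁻¹ = (c * w) ^ k := by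
        rw [← h1]
        simp [conj_zpow]
      have hcom : Commute c (w : H) := (Subgroup.mem_center_iff.mp hc (w : H)).symm
      refine ⟨k, c ^ k * z, mul_mem (zpow_mem hc k) hz, ?_⟩
      calc h * ((w : H) ^ k * z) * h⁻¹ = (h * (w : H) ^ k * h⁻¹) * (h * z * h⁻¹) := by group
        _ = (c * w) ^ k * z := by rw [h2, Cfsg.Agent.Lib.PrimClass2.central_conj hz]
        _ = c ^ k * (w : H) ^ k * z := by rw [hcom.mul_zpow]
        _ = (w : H) ^ k * (c ^ k * z) := by
          rw [← (Subgroup.mem_center_iff.mp (zpow_mem hc k) _)]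
          group
    have hLc : L ≤ center H := by
      apply hab L hLn
      rintro _ ⟨k, z, hz, rfl⟩ _ ⟨l, z', hz', rfl⟩
      have h1 := Subgroup.mem_center_iff.mp hz ((w : H) ^ l)
      have h2 := Subgroup.mem_center_iff.mp hz' ((w : H) ^ k)
      have h3 := Subgroup.mem_center_iff.mp hz z'
      calc (w : H) ^ k * z * ((w : H) ^ l * z') = (w : H) ^ k * (z * (w : H) ^ l) * z' := by group
        _ = (w : H) ^ k * ((w : H) ^ l * z) * z' := by rw [← h1]
        _ = ((w : H) ^ k * (w : H) ^ l) * (z * z') := by group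
        _ = ((w : H) ^ l * (w : H) ^ k) * (z' * z) := by
          rw [← zpow_add, ← zpow_add, add_comm, h3]
        _ = (w : H) ^ l * ((w : H) ^ k * z') * z := by group
        _ = (w : H) ^ l * (z' * (w : H) ^ k) * z := by rw [← h2]
        _ = _ := by group
    have hwc : (w : H) ∈ center H := hLc ⟨1, 1, one_mem _, by simp⟩
    exact (QuotientGroup.eq_one_iff w).mpr (hcen' w hwc)
  obtain ⟨x, hx, hS⟩ := exists_small_fix_of_cover hVp hpq ρ Rp Rq hRR
    (fun y hy => by
      obtain ⟨k, hk⟩ := hRp y hy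
      exact ⟨k, hρF _ hk⟩)
    (fun y hy => by
      obtain ⟨k, hk⟩ := hRq y hy
      exact ⟨k, hρF _ hk⟩) hfix
  refine ⟨x, hx, ?_⟩
  rintro d ⟨s, rfl⟩ hd g m f hf hgm
  set S := fixS ρ x with hSdef
  let π : ↥P →* (↥P ⧸ center ↥P) := QuotientGroup.mk' (center ↥P)
  have hπ : Function.Surjective π := QuotientGroup.mk'_surjective _
  have hN : (centralizer ({g} : Set H)).subgroupOf P ≤ S.comap π := by
    intro u hu
    have hu' : (u : H) ∈ centralizer ({g} : Set H) := hu
    have hgu : g * (u : H) = u * g := by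
      have := Subgroup.mem_centralizer_iff.mp hu' g rfl
      exact this
    have hcomm : Commute (g ^ m) (u : H) := (show Commute g (u : H) from hgu).pow_left m
    have hxe : x = g ^ m * f⁻¹ := by rw [hgm]; group
    show ρ x (π u) = π u
    rw [hxe, map_mul, hρF f⁻¹ (F.inv_mem hf), mul_one]
    show ρ (g ^ m) (u : ↥P ⧸ center ↥P) = u
    rw [hρ]
    congr 1
    apply Subtype.ext
    simp only [MulAut.conjNormal_apply]
    rw [hcomm.eq]
    group
  have hdvd : S.index ∣ (centralizer ({g} : Set H)).relIndex P := by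
    have h1 := Subgroup.index_dvd_of_le hN
    rwa [Subgroup.index_comap_of_surjective _ hπ] at h1
  set i := (centralizer ({g} : Set H)).relIndex P with hi
  have hi0 : i ≠ 0 := by
    show ((centralizer ({g} : Set H)).subgroupOf P).index ≠ 0
    exact Subgroup.index_ne_zero_of_finite
  have hai : S.index ≤ i := Nat.le_of_dvd (Nat.pos_of_ne_zero hi0) hdvd
  have hv : S.index * Nat.card S = Nat.card (↥P ⧸ center ↥P) := Subgroup.index_mul_card S
  have hv2 : (center ↥P).index = Nat.card (↥P ⧸ center ↥P) := Subgroup.index_eq_card _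
  rw [hv2] at hd
  set v := Nat.card (↥P ⧸ center ↥P) with hvdef
  set a := S.index
  set c := Nat.card S
  have hvpos : 0 < v := Nat.card_pos
  have hav : v ≤ a ^ 2 := by
    have h1 : v * v ≤ a ^ 2 * v := by
      calc v * v = a ^ 2 * c ^ 2 := by rw [← hv]; ring
        _ ≤ a ^ 2 * v := Nat.mul_le_mul_left _ hS
    exact Nat.le_of_mul_le_mul_right h1 hvpos
  have hdi : p ^ s ≤ i := by
    have h1 : (p ^ s) ^ 2 ≤ i ^ 2 := by
      calc (p ^ s) ^ 2 ≤ v := hd
        _ ≤ a ^ 2 := hav
        _ ≤ i ^ 2 := Nat.pow_le_pow_left hai 2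
    exact (Nat.pow_le_pow_iff_left (by norm_num)).mp h1
  have hicard : i ∣ Nat.card ↥P := Subgroup.index_dvd_card _
  obtain ⟨n, hn⟩ := IsPGroup.iff_card.mp hP
  rw [hn] at hicard
  obtain ⟨t, -, ht⟩ := (Nat.dvd_prime_pow hp.out).mp hicard
  rw [ht] at hdi ⊢
  exact pow_dvd_pow p ((Nat.pow_le_pow_iff_right hp.out.one_lt).mp hdi)

end PPart

end Cfsg.Agent.Lib.PrimMetaA
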