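import Mathlib
import Cfsg.Agent.Lib.PrimMetaA
import Cfsg.Agent.Lib.CharBasic
import Cfsg.Agent.Lib.CharCentral
import Cfsg.Agent.Lib.CharKernel
import Cfsg.Agent.Lib.DegreeDiv
import Cfsg.Agent.Lib.CoprimeDeg
import Cfsg.Agent.Lib.Clifford

/-!
# Primitive faithful characters: the degree divides a class size when `G / F` is a `{p,q}`-nilpotent group
-/

set_option autoImplicit false
set_option linter.all false

namespace Cfsg.Agent.Lib.PrimMetaB

open Subgroup Cfsg Cfsg.Agent.Lib.CharBasic Cfsg.Agent.Lib.PrimMetaA Cfsg.Agent.Lib.CharKernel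

universe u

variable {H : Type u} [Group H] [Fintype H]

/-- Abelian normal subgroups are central and embed in `ℂˣ`. -/
theorem abelian_normal {χ : H → ℂ} (hχ : IsIrrCharacter H χ) (hf : ∀ g, χ g = χ 1 → g = 1)
    (hom : ∀ M : Subgroup H, M.Normal → ∃ (φ : M → ℂ) (e : ℕ), IsIrrCharacter M φ ∧
      (fun m : M => χ m) = (e : ℂ) • φ)
    (A : Subgroup H) (hA : A.Normal) (hc : ∀ a ∈ A, ∀ b ∈ A, a * b = b * a) :
    A ≤ center H ∧ ∃ lam : A →* ℂˣ, Function.Injective lam := by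
  classical
  obtain ⟨φ, e, hφ, hres⟩ := hom A hA
  have hcen : center ↥A = ⊤ := by
    rw [eq_top_iff]
    intro a _
    rw [Subgroup.mem_center_iff]
    intro b
    apply Subtype.ext
    exact hc _ b.2 _ a.2
  have hd : charDegree φ = 1 := by
    have h1 := Cfsg.Agent.Lib.CharCentral.card_center_mul_sq_le hφ
    rw [hcen] at h1
    have h2 : Nat.card (⊤ : Subgroup ↥A) = Nat.card ↥A := Nat.card_congr Subgroup.topEquiv.toEquiv
    rw [h2] at h1
    have h3 : 0 < Nat.card ↥A := Nat.card_pos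
    have h4 : charDegree φ ^ 2 ≤ 1 := by
      by_contra h5
      push Not at h5
      nlinarith
    have h5 := charDegree_pos hφ
    nlinarith
  have hφ1 : φ 1 = 1 := by
    rw [one_eq_charDegree (IsIrrCharacter.isCharacter hφ), hd]
    simp
  obtain ⟨lam, hlam⟩ := exists_hom_of_degree_one (IsIrrCharacter.isCharacter hφ) hφ1
  have hval : ∀ a : A, χ a = e * lam a := by
    intro a
    have := congrFun hres a
    simpa [hlam] using this
  have hχ1 : χ 1 = e := by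
    have := hval 1
    simpa using this
  have he : (e : ℂ) ≠ 0 := by
    rw [← hχ1]
    exact Cfsg.Agent.Lib.Clifford.irr_degree_ne_zero hχ
  have hker : ∀ a : A, lam a = 1 → (a : H) = 1 := by
    intro a ha
    apply hf
    rw [hval, ha, hχ1]
    simp
  constructor
  · intro a ha
    rw [Subgroup.mem_center_iff]
    intro h
    have hcl := isClassFunction_of_isCharacter (IsIrrCharacter.isCharacter hχ)
    have hb : h * a * h⁻¹ ∈ A := hA.conj_mem a ha h
    have h1 : χ (h * a * h⁻¹) = χ a := hcl a h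
    have h2 := hval ⟨_, hb⟩
    have h3 := hval ⟨a, ha⟩
    simp only at h2 h3
    rw [h1, h3] at h2
    have h4 : ((lam ⟨a, ha⟩ : ℂˣ) : ℂ) = lam ⟨_, hb⟩ := mul_left_cancel₀ he h2
    have h5 : lam ⟨a, ha⟩ = lam ⟨_, hb⟩ := Units.ext h4
    have h6 : lam (⟨_, hb⟩ * (⟨a, ha⟩ : A)⁻¹) = 1 := by
      rw [map_mul, map_inv, ← h5]
      simp
    have h7 := hker _ h6
    simp only [Subgroup.coe_mul, InvMemClass.coe_inv] at h7
    have h8 : h * a * h⁻¹ = a := mul_inv_eq_one.mp h7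
    calc h * a = h * a * h⁻¹ * h := by group
      _ = a * h := by rw [h8]
  · refine ⟨lam, ?_⟩
    intro a b hab
    have h1 : lam (a * b⁻¹) = 1 := by
      rw [map_mul, map_inv, hab]
      simp
    have h2 := hker _ h1
    simp only [Subgroup.coe_mul, InvMemClass.coe_inv] at h2
    exact Subtype.ext (mul_inv_eq_one.mp h2)

/-- The `p`-part of the degree is bounded by `P / Z(P)`. -/
theorem degree_part {p q : ℕ} [hp : Fact p.Prime] [hq : Fact q.Prime] {χ : H → ℂ}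
    (F P Q : Subgroup H) [hFn : F.Normal] [hPn : P.Normal] (hPF : P ≤ F) (hQF : Q ≤ F)
    (hP : IsPGroup p P) (hQ : IsPGroup q Q) (hF : ∀ f ∈ F, ∃ a ∈ P, ∃ b ∈ Q, f = a * b)
    (hirr : IsIrrCharacter F (fun f : F => χ f)) :
    ∃ s t : ℕ, charDegree χ = p ^ s * q ^ t ∧ (p ^ s) ^ 2 ≤ (center ↥P).index := by
  classical
  letI : Fintype F := Fintype.ofFinite _
  let N : Subgroup ↥F := P.subgroupOf F
  haveI hNn : N.Normal := Subgroup.normal_subgroupOf
  letI : Fintype N := Fintype.ofFinite _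
  have hθc := IsIrrCharacter.isCharacter hirr
  obtain ⟨φ, hφ⟩ := Cfsg.Agent.Lib.CoprimeDeg.exists_constituent (G := F) N (χ := fun f : F => χ f) hθc
    (Cfsg.Agent.Lib.Clifford.irr_degree_ne_zero (G := F) (χ := fun f : F => χ f) hirr)
  have hc : (fun f : F => χ f) 1 = (charDegree χ : ℂ) := by
    have h1 := one_eq_charDegree (G := F) hθc
    have h2 : charDegree (fun f : F => χ f) = charDegree χ := rfl
    rw [← h2]
    exact h1
  have hd := one_eq_charDegree (IsIrrCharacter.isCharacter φ.2)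
  obtain ⟨h1, h2⟩ := Cfsg.Agent.Lib.DegreeDiv.degree_div N hirr φ.2 hφ hc hd
  set d := charDegree (φ : N → ℂ) with hddef
  let e : N ≃* P := Subgroup.subgroupOfEquivOfLe hPF
  -- `d` is a power of `p`
  obtain ⟨n, hn⟩ := IsPGroup.iff_card.mp hP
  have hdcard : d ∣ p ^ n := by
    rw [← hn, ← Nat.card_congr e.toEquiv]
    exact charDegree_dvd_card φ.2
  obtain ⟨s, -, hs⟩ := (Nat.dvd_prime_pow hp.out).mp hdcard
  -- the index of `N` is a power of `q`
  obtain ⟨m, hm⟩ := IsPGroup.iff_card.mp hQ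
  let τ : ↥Q →* (↥F ⧸ N) := (QuotientGroup.mk' N).comp (Subgroup.inclusion hQF)
  have hτ : Function.Surjective τ := by
    intro x
    induction x using QuotientGroup.induction_on with
    | H f =>
    obtain ⟨a, ha, b, hb, hab⟩ := hF f f.2
    refine ⟨⟨b, hb⟩, ?_⟩
    show ((⟨b, hQF hb⟩ : ↥F) : ↥F ⧸ N) = (f : ↥F ⧸ N)
    rw [QuotientGroup.eq]
    show (((⟨b, hQF hb⟩ : ↥F)⁻¹ * f : ↥F) : H) ∈ P
    simp only [Subgroup.coe_mul, InvMemClass.coe_inv]
    rw [hab]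
    have := hPn.conj_mem a ha b⁻¹
    convert this using 1
    group
  have hidx : N.index ∣ q ^ m := by
    rw [← hm, Subgroup.index_eq_card]
    exact Subgroup.card_dvd_of_surjective τ hτ
  have hcd := h2.trans hidx
  obtain ⟨t, -, ht⟩ := (Nat.dvd_prime_pow hq.out).mp hcd
  refine ⟨s, t, ?_, ?_⟩
  · have h3 := Nat.div_mul_cancel h1
    rw [ht, hs] at h3
    rw [← h3]
    ring
  · rw [← hs]
    have h3 := Cfsg.Agent.Lib.CharCentral.card_center_mul_sq_le φ.2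
    have h4 : Nat.card (center ↥N) = Nat.card (center ↥P) :=
      Nat.card_congr (Subgroup.centerCongr e).toEquiv
    have h5 : Nat.card N = Nat.card P := Nat.card_congr e.toEquiv
    rw [h4, h5, ← Subgroup.card_mul_index (center ↥P)] at h3
    exact Nat.le_of_mul_le_mul_left h3 Nat.card_pos

/-- The main theorem for faithful characters. -/
theorem main_faithful {p q : ℕ} [hp : Fact p.Prime] [hq : Fact q.Prime] (hpq : p ≠ q) {χ : H → ℂ}
    (hχ : IsIrrCharacter H χ) (hf : ∀ g, χ g = χ 1 → g = 1)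
    (hom : ∀ M : Subgroup H, M.Normal → ∃ (φ : M → ℂ) (e : ℕ), IsIrrCharacter M φ ∧
      (fun m : M => χ m) = (e : ℂ) • φ)
    (F P Q Rp Rq : Subgroup H) [hFn : F.Normal] [hPn : P.Normal] [hQn : Q.Normal] [hRpn : Rp.Normal]
    [hRqn : Rq.Normal] (hPF : P ≤ F) (hQF : Q ≤ F)
    (hP : IsPGroup p P) (hQ : IsPGroup q Q) (hF : ∀ f ∈ F, ∃ a ∈ P, ∃ b ∈ Q, f = a * b)
    (hPQ : ∀ a ∈ P, ∀ b ∈ Q, a * b = b * a)
    (hRR : ∀ h : H, ∃ a ∈ Rq, ∃ b ∈ Rp, h = a * b)
    (hRp : ∀ x ∈ Rp, ∃ k : ℕ, x ^ p ^ k ∈ F) (hRq : ∀ x ∈ Rq, ∃ k : ℕ, x ^ q ^ k ∈ F)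
    (hirr : IsIrrCharacter F (fun f : F => χ f)) :
    ∃ g : H, charDegree χ ∣ (centralizer ({g} : Set H)).index := by
  classical
  have hab : ∀ A : Subgroup H, A.Normal → (∀ a ∈ A, ∀ b ∈ A, a * b = b * a) → A ≤ center H :=
    fun A hA hc => (abelian_normal hχ hf hom A hA hc).1
  -- class two
  have hclass : ∀ (p' : ℕ) [Fact p'.Prime] (P' : Subgroup H) [P'.Normal], IsPGroup p' P' →
      ∀ x ∈ P', ∀ y ∈ P', x * y * x⁻¹ * y⁻¹ ∈ center H := by
    intro p' _ P' _ hP'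
    obtain ⟨lam, hlam⟩ := (abelian_normal hχ hf hom (P' ⊓ center H) inferInstance (by
      rintro a ⟨-, ha⟩ b ⟨-, -⟩
      exact (Subgroup.mem_center_iff.mp ha b).symm)).2
    exact Cfsg.Agent.Lib.PrimClass2.commutator_central P' hP' hab lam hlam
  have h2P := hclass p P hP
  have h2Q := hclass q Q hQ
  -- the action of `F`
  have hFactP : ∀ f ∈ F, ∀ x ∈ P, f * x * f⁻¹ * x⁻¹ ∈ center H := by
    intro f hf' x hx
    obtain ⟨a, ha, b, hb, rfl⟩ := hF f hf'
    have h1 := h2P a ha x hx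
    have h3 : b * x = x * b := (hPQ x hx b hb).symm
    have h4 : a * b * x * (a * b)⁻¹ * x⁻¹ = a * x * a⁻¹ * x⁻¹ := by
      calc a * b * x * (a * b)⁻¹ * x⁻¹ = a * (b * x) * b⁻¹ * a⁻¹ * x⁻¹ := by group
        _ = a * (x * b) * b⁻¹ * a⁻¹ * x⁻¹ := by rw [h3]
        _ = _ := by group
    rw [h4]
    exact h1
  have hFactQ : ∀ f ∈ F, ∀ x ∈ Q, f * x * f⁻¹ * x⁻¹ ∈ center H := by
    intro f hf' x hx
    obtain ⟨a, ha, b, hb, rfl⟩ := hF f hf'
    have h1 := h2Q b hb x hx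
    have h3 : a * x = x * a := hPQ a ha x hx
    have h4 : a * b * x * (a * b)⁻¹ * x⁻¹ = b * x * b⁻¹ * x⁻¹ := by
      have h6 : a * b = b * a := hPQ a ha b hb
      rw [h6]
      calc b * a * x * (b * a)⁻¹ * x⁻¹ = b * (a * x) * a⁻¹ * b⁻¹ * x⁻¹ := by group
        _ = b * (x * a) * a⁻¹ * b⁻¹ * x⁻¹ := by rw [h3]
        _ = _ := by group
    rw [h4]
    exact h1
  have hRR' : ∀ h : H, ∃ a ∈ Rp, ∃ b ∈ Rq, h = a * b := by
    intro h
    obtain ⟨a, ha, b, hb, hab'⟩ := hRR h⁻¹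
    refine ⟨b⁻¹, Rp.inv_mem hb, a⁻¹, Rq.inv_mem ha, ?_⟩
    rw [← mul_inv_rev, ← hab', inv_inv]
  obtain ⟨x, hx, hxP⟩ := exists_p_part hpq P F Rp Rq hP hab h2P hFactP hRR hRp hRq
  obtain ⟨y, hy, hyQ⟩ := exists_p_part hpq.symm Q F Rq Rp hQ hab h2Q hFactQ hRR' hRq hRp
  -- the element
  have hRR0 : ∀ w ∈ Rp ⊓ Rq, w ∈ F := by
    rintro w ⟨hw1, hw2⟩
    obtain ⟨k, hk⟩ := hRp w hw1
    obtain ⟨l, hl⟩ := hRq w hw2
    have hc : Nat.Coprime (p ^ k) (q ^ l) :=
      Nat.Coprime.pow k l ((Nat.coprime_primes hp.out hq.out).mpr hpq)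
    have key : ∀ a b : ℕ, Nat.Coprime a b → w ^ a ∈ F → w ^ b ∈ F → w ∈ F := by
      intro a b hab' ha hb
      have h2 : w ^ ((a.gcd b : ℕ) : ℤ) = (w ^ a) ^ (a.gcdA b) * (w ^ b) ^ (a.gcdB b) := by
        rw [Nat.gcd_eq_gcd_ab, zpow_add, zpow_mul, zpow_mul, zpow_natCast, zpow_natCast]
      rw [hab'.gcd_eq_one] at h2
      simp only [Nat.cast_one, zpow_one] at h2
      rw [h2]
      exact F.mul_mem (F.zpow_mem ha _) (F.zpow_mem hb _)
    exact key _ _ hc hk hl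
  -- commutation modulo `F`
  have hcomm : x * y * x⁻¹ * y⁻¹ ∈ F := by
    apply hRR0
    constructor
    · have h1 := hRpn.conj_mem y hy x
      exact Rp.mul_mem h1 (Rp.inv_mem hy)
    · have h1 := hRqn.conj_mem x⁻¹ (Rq.inv_mem hx) y
      have h2 : x * y * x⁻¹ * y⁻¹ = x * (y * x⁻¹ * y⁻¹) := by group
      rw [h2]
      exact Rq.mul_mem hx h1
  let π : H →* H ⧸ F := QuotientGroup.mk' F
  have hπker : ∀ w, π w = 1 ↔ w ∈ F := fun w => QuotientGroup.eq_one_iff w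
  have hcomm' : Commute (π x) (π y) := by
    have h1 : π (x * y * x⁻¹ * y⁻¹) = 1 := (hπker _).mpr hcomm
    simp only [map_mul, map_inv] at h1
    have h2 : π x * π y = π y * π x := by
      have h3 : π x * π y * (π x)⁻¹ = π y := by
        exact mul_inv_eq_one.mp h1
      calc π x * π y = π x * π y * (π x)⁻¹ * π x := by group
        _ = π y * π x := by rw [h3]
    exact h2
  obtain ⟨k, hk⟩ := hRq x hx
  obtain ⟨l, hl⟩ := hRp y hy
  have hxk : π x ^ q ^ k = 1 := by rw [← map_pow]; exact (hπker _).mpr hk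
  have hyl : π y ^ p ^ l = 1 := by rw [← map_pow]; exact (hπker _).mpr hl
  have hc : Nat.Coprime (q ^ k) (p ^ l) :=
    Nat.Coprime.pow k l ((Nat.coprime_primes hq.out hp.out).mpr hpq.symm)
  set g := x * y with hg
  -- powers of `g`
  have hpow1 : ∃ (m : ℕ) (f : H), f ∈ F ∧ g ^ m = x * f := by
    let m := Nat.chineseRemainder hc 1 0
    have hm1 : (m : ℕ) ≡ 1 [MOD q ^ k] := m.2.1
    have hm2 : (m : ℕ) ≡ 0 [MOD p ^ l] := m.2.2
    refine ⟨m, x⁻¹ * g ^ (m : ℕ), ?_, (mul_inv_cancel_left x _).symm⟩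
    rw [← hπker, map_mul, map_inv, map_pow, hg, map_mul, hcomm'.mul_pow]
    have h1 : π x ^ (m : ℕ) = π x := by
      have := (orderOf_dvd_of_pow_eq_one hxk)
      have h3 := pow_eq_pow_iff_modEq.mpr (hm1.of_dvd this)
      simpa using h3
    have h2 : π y ^ (m : ℕ) = 1 := by
      have := (orderOf_dvd_of_pow_eq_one hyl)
      have h3 := pow_eq_pow_iff_modEq.mpr (hm2.of_dvd this)
      simpa using h3
    rw [h1, h2]
    simp
  have hpow2 : ∃ (m : ℕ) (f : H), f ∈ F ∧ g ^ m = y * f := by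
    let m := Nat.chineseRemainder hc 0 1
    have hm1 : (m : ℕ) ≡ 0 [MOD q ^ k] := m.2.1
    have hm2 : (m : ℕ) ≡ 1 [MOD p ^ l] := m.2.2
    refine ⟨m, y⁻¹ * g ^ (m : ℕ), ?_, (mul_inv_cancel_left y _).symm⟩
    rw [← hπker, map_mul, map_inv, map_pow, hg, map_mul, hcomm'.mul_pow]
    have h1 : π x ^ (m : ℕ) = 1 := by
      have := (orderOf_dvd_of_pow_eq_one hxk)
      have h3 := pow_eq_pow_iff_modEq.mpr (hm1.of_dvd this)
      simpa using h3
    have h2 : π y ^ (m : ℕ) = π y := by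
      have := (orderOf_dvd_of_pow_eq_one hyl)
      have h3 := pow_eq_pow_iff_modEq.mpr (hm2.of_dvd this)
      simpa using h3
    rw [h1, h2]
    simp
  refine ⟨g, ?_⟩
  obtain ⟨s, t, hst, hs⟩ := degree_part (p := p) (q := q) F P Q hPF hQF hP hQ hF hirr
  obtain ⟨t', s', hst', ht'⟩ := degree_part (χ := χ) (p := q) (q := p) F Q P hQF hPF hQ hP (by
    intro f hf'
    obtain ⟨a, ha, b, hb, rfl⟩ := hF f hf'
    exact ⟨b, hb, a, ha, hPQ a ha b hb⟩) hirr
  -- compare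
  have hcpq : Nat.Coprime (q ^ t) (p ^ s') :=
    Nat.Coprime.pow _ _ ((Nat.coprime_primes hq.out hp.out).mpr hpq.symm)
  have hqq : q ^ t ∣ q ^ t' := hcpq.dvd_of_dvd_mul_right (by
    rw [← hst', hst]
    exact dvd_mul_left _ _)
  obtain ⟨m, f, hfF, hgm⟩ := hpow1
  obtain ⟨m', f', hfF', hgm'⟩ := hpow2
  have hd1 := hxP (p ^ s) ⟨s, rfl⟩ hs g m f hfF hgm
  have hd2 := hyQ (q ^ t') ⟨t', rfl⟩ ht' g m' f' hfF' hgm'
  have hi1 := hd1.trans (relIndex_dvd_index_of_normal_right (centralizer ({g} : Set H)) P)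
  have hi2 := hd2.trans (relIndex_dvd_index_of_normal_right (centralizer ({g} : Set H)) Q)
  have hcop : Nat.Coprime (p ^ s) (q ^ t') :=
    Nat.Coprime.pow _ _ ((Nat.coprime_primes hp.out hq.out).mpr hpq)
  rw [hst]
  exact (mul_dvd_mul_left _ hqq).trans (hcop.mul_dvd_of_dvd_of_dvd hi1 hi2)

end Cfsg.Agent.Lib.PrimMetaB
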