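import Mathlib
import Cfsg.Agent.Lib.PrimMetaB
import Cfsg.Agent.Lib.RelMono
import Cfsg.Agent.Lib.GlaubSyl1
import Cfsg.Agent.Lib.PCore
import Cfsg.Agent.S0857

/-!
# Primitive characters: reduction steps
-/

set_option autoImplicit false
set_option linter.all false

namespace Cfsg.Agent.Lib.PrimMetaC

open Subgroup Cfsg Cfsg.Agent.Lib.CharBasic Cfsg.Agent.Lib.CharKernel Cfsg.Agent.Lib.CharInd
  Cfsg.Agent.Lib.Clifford Cfsg.Agent.Lib.BrauerInd Cfsg.Agent.Lib.DegreeDiv

universe u

section Hom

variable {G : Type u} [Group G] [Fintype G]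

/-- A primitive character is homogeneous on normal subgroups. -/
theorem hom_of_prim {χ : G → ℂ} (hχ : IsIrrCharacter G χ)
    (hprim : ¬ ∃ (H : Subgroup G), H ≠ ⊤ ∧ ∃ θ : ↥H → ℂ, IsCharacter ↥H θ ∧ indFun H θ = χ) :
    ∀ M : Subgroup G, M.Normal → ∃ (φ : M → ℂ) (e : ℕ), IsIrrCharacter M φ ∧
      (fun m : M => χ m) = (e : ℂ) • φ := by
  classical
  intro M hM
  haveI := hM
  have hχc := IsIrrCharacter.isCharacter hχ
  haveI : Fintype M := Fintype.ofFinite _
  have hχM := isCharacter_restrict M hχc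
  obtain ⟨φ, hφ, hcon⟩ := exists_constituent hχM (by simpa using irr_degree_ne_zero hχ)
  let T := inertia M hM φ
  have hMT : M ≤ T := le_inertia M hM (IsIrrCharacter.isCharacter hφ)
  by_cases hT : T = ⊤
  · have hinv : ∀ (g : G) (n : M), φ ⟨g * n * g⁻¹, hM.conj_mem (n : G) n.2 g⟩ = φ n := by
      intro g n
      have : g ∈ T := by rw [hT]; trivial
      exact this n
    obtain ⟨e, -, hres, -⟩ := restrict_eq_smul_of_invariant M hφ hinv hχ hcon
    exact ⟨φ, e, hφ, hres⟩
  · exfalso
    haveI : Fintype T := Fintype.ofFinite _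
    obtain ⟨ψ, hψ, hind, -⟩ := exists_inertia_char M T hφ (mem_inertia M hM φ) hMT hχ hcon
    exact hprim ⟨T, hT, ψ, IsIrrCharacter.isCharacter hψ, hind⟩

/-- Homogeneity descends to quotients. -/
theorem hom_quot {H : Type u} [Group H] [Fintype H] (π : G →* H) (hπ : Function.Surjective π)
    {χ : G → ℂ} {χ' : H → ℂ} (hχ' : IsIrrCharacter H χ') (hrel : ∀ g, χ' (π g) = χ g)
    (hom : ∀ M : Subgroup G, M.Normal → ∃ (φ : M → ℂ) (e : ℕ), IsIrrCharacter M φ ∧
      (fun m : M => χ m) = (e : ℂ) • φ) :
    ∀ M : Subgroup H, M.Normal → ∃ (φ : M → ℂ) (e : ℕ), IsIrrCharacter M φ ∧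
      (fun m : M => χ' m) = (e : ℂ) • φ := by
  classical
  intro M hM
  haveI := hM
  haveI : Fintype M := Fintype.ofFinite _
  have hχc := IsIrrCharacter.isCharacter hχ'
  have hχM := isCharacter_restrict M hχc
  obtain ⟨φ₁, hφ₁, hcon⟩ := exists_constituent hχM (by simpa using irr_degree_ne_zero hχ')
  let M₀ : Subgroup G := M.comap π
  haveI hM₀ : M₀.Normal := hM.comap π
  haveI : Fintype M₀ := Fintype.ofFinite _
  obtain ⟨φ₀, e, hφ₀, hres⟩ := hom M₀ hM₀
  let πM : ↥M₀ →* ↥M := π.subgroupComap M
  have hπM : Function.Surjective πM := π.subgroupComap_surjective_of_surjective M hπ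
  have hφ₂ : IsIrrCharacter M₀ (φ₁ ∘ πM) := isIrrCharacter_comp_of_surjective πM hπM hφ₁
  have hinfl : classInner (fun m : M₀ => χ m) (φ₁ ∘ πM) = classInner (fun m : M => χ' m) φ₁ := by
    have h1 := Cfsg.Agent.Lib.GlaubSyl1.classInner_infl πM hπM (fun m : M => χ' m) φ₁
    have h2 : (fun m : M₀ => χ m) = fun i : M₀ => χ' (πM i : H) := by
      funext i
      exact (hrel i).symm
    rw [h2]
    show classInner (fun i => χ' (πM i : H)) (fun i => φ₁ (πM i)) = _
    convert h1
  have hcon2 : classInner (fun m : M₀ => χ m) (φ₁ ∘ πM) ≠ 0 := by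
    rw [hinfl]
    exact hcon
  have hEq : φ₀ = φ₁ ∘ πM := by
    by_contra hne
    apply hcon2
    rw [hres, classInner_smul_left, classInner_irr_ne hφ₀ hφ₂ hne, mul_zero]
  refine ⟨φ₁, e, hφ₁, ?_⟩
  funext m
  obtain ⟨m₀, rfl⟩ := hπM m
  have h1 := congrFun hres m₀
  simp only [Pi.smul_apply, smul_eq_mul] at h1 ⊢
  rw [hEq] at h1
  show χ' (π m₀) = _
  rw [hrel, h1]
  rfl

end Hom

section Nilp

variable {H : Type u} [Group H] [Fintype H]

/-- The restriction to a normal subgroup with nilpotent quotient is irreducible. -/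
theorem irr_restrict_nilp (F : Subgroup H) [hF : F.Normal] (hnil : Group.IsNilpotent (H ⧸ F))
    {χ : H → ℂ} (hχ : IsIrrCharacter H χ)
    (hom : ∀ M : Subgroup H, M.Normal → ∃ (φ : M → ℂ) (e : ℕ), IsIrrCharacter M φ ∧
      (fun m : M => χ m) = (e : ℂ) • φ) :
    ∀ (n : ℕ) (N : Subgroup H), N.Normal → F ≤ N → N.index = n →
      IsIrrCharacter N (fun m : N => χ m) := by
  classical
  have hcl := isClassFunction_of_isCharacter (IsIrrCharacter.isCharacter hχ)
  intro n
  induction n using Nat.strong_induction_on with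
  | _ n ih =>
    intro N hN hFN hn
    haveI := hN
    by_cases hNT : N = ⊤
    · subst hNT
      exact isIrrCharacter_comp_of_surjective (⊤ : Subgroup H).subtype
        (fun g => ⟨⟨g, trivial⟩, rfl⟩) hχ
    haveI : Nontrivial (H ⧸ N) := by
      rw [QuotientGroup.nontrivial_iff]
      exact hNT
    haveI hQn : Group.IsNilpotent (H ⧸ N) :=
      nilpotent_of_surjective (QuotientGroup.map F N (MonoidHom.id H) (by
        intro x hx
        exact hFN hx)) (by
        intro y
        induction y using QuotientGroup.induction_on with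
        | H y => exact ⟨(y : H ⧸ F), rfl⟩)
    have hcne : center (H ⧸ N) ≠ ⊥ := Group.IsNilpotent.center_ne_bot (H ⧸ N)
    haveI : Nontrivial (center (H ⧸ N)) := (Subgroup.nontrivial_iff_ne_bot _).mpr hcne
    have hc1 : Nat.card (center (H ⧸ N)) ≠ 1 := Finite.one_lt_card.ne'
    obtain ⟨r, hr, hrd⟩ := Nat.exists_prime_and_dvd hc1
    haveI : Fact r.Prime := ⟨hr⟩
    obtain ⟨c, hco⟩ := exists_prime_orderOf_dvd_card' (G := center (H ⧸ N)) r hrd
    have hco' : orderOf (c : H ⧸ N) = r := by rw [Subgroup.orderOf_coe, hco]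
    let C : Subgroup (H ⧸ N) := zpowers (c : H ⧸ N)
    haveI hCn : C.Normal := by
      constructor
      intro x hx g
      have hx' : x ∈ center (H ⧸ N) := by
        have hle : C ≤ center (H ⧸ N) := by
          rw [Subgroup.zpowers_le]
          exact c.2
        exact hle hx
      have : g * x * g⁻¹ = x := Cfsg.Agent.Lib.PrimClass2.central_conj hx' g
      rw [this]
      exact hx
    let M : Subgroup H := C.comap (QuotientGroup.mk' N)
    haveI hMn : M.Normal := hCn.comap _
    have hNM : N ≤ M := by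
      intro x hx
      show (QuotientGroup.mk' N) x ∈ C
      have : (QuotientGroup.mk' N) x = 1 := (QuotientGroup.eq_one_iff x).mpr hx
      rw [this]
      exact one_mem _
    have hCcard : Nat.card C = r := by rw [Nat.card_zpowers, hco']
    have hMidx : M.index = C.index := Subgroup.index_comap_of_surjective _ (QuotientGroup.mk'_surjective N)
    have hCidx : Nat.card C * C.index = N.index := by
      rw [Subgroup.card_mul_index]
      rfl
    have hrel : N.relIndex M = r := by
      have h1 : N.relIndex M * M.index = N.index := Subgroup.relIndex_mul_index hNM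
      rw [hMidx, ← hCidx, hCcard] at h1
      have h2 : C.index ≠ 0 := Subgroup.index_ne_zero_of_finite
      exact Nat.eq_of_mul_eq_mul_right (Nat.pos_of_ne_zero h2) h1
    have hMlt : M.index < n := by
      have h1 : N.relIndex M * M.index = N.index := Subgroup.relIndex_mul_index hNM
      rw [hrel] at h1
      have h2 : M.index ≠ 0 := Subgroup.index_ne_zero_of_finite
      rw [← hn, ← h1]
      have := hr.two_le
      nlinarith [Nat.pos_of_ne_zero h2]
    have hirrM := ih _ hMlt M hMn (hFN.trans hNM) rfl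
    have hNMlt : N < M := by
      refine lt_of_le_of_ne hNM ?_
      intro hE
      rw [← hE, Subgroup.relIndex_self] at hrel
      exact hr.one_lt.ne hrel
    haveI : Fintype M := Fintype.ofFinite _
    have hchief : ∀ M' : Subgroup H, M'.Normal → N ≤ M' → M' ≤ M → M' = N ∨ M' = M := by
      intro M' _ h1 h2
      have h3 : N.relIndex M' * M'.relIndex M = N.relIndex M := Subgroup.relIndex_mul_relIndex _ _ _ h1 h2
      rw [hrel] at h3
      have h5 : N.relIndex M' ∣ r := ⟨_, h3.symm⟩
      rcases (Nat.dvd_prime hr).mp h5 with h4 | h4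
      · left
        exact le_antisymm (Subgroup.relIndex_eq_one.mp h4) h1
      · right
        rw [h4] at h3
        have h6 : M'.relIndex M = 1 := Nat.eq_of_mul_eq_mul_left hr.pos (by rw [h3, mul_one])
        exact le_antisymm h2 (Subgroup.relIndex_eq_one.mp h6)
    have hab : ⁅M, M⁆ ≤ N := by
      rw [Subgroup.commutator_le]
      intro a ha b hb
      rw [← QuotientGroup.eq_one_iff]
      have ha' : (a : H ⧸ N) ∈ C := ha
      have hb' : (b : H ⧸ N) ∈ C := hb
      have hcen : C ≤ center (H ⧸ N) := by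
        rw [Subgroup.zpowers_le]
        exact c.2
      have h1 := Subgroup.mem_center_iff.mp (hcen ha') (b : H ⧸ N)
      simp only [commutatorElement_def, QuotientGroup.mk_mul, QuotientGroup.mk_inv]
      rw [← h1]
      group
    have hinv : ∀ (g : H) (n : M), (fun m : M => χ m) ⟨g * n * g⁻¹, hMn.conj_mem (n : H) n.2 g⟩ =
        (fun m : M => χ m) n := by
      intro g n
      exact hcl (n : H) g
    rcases Cfsg.Agent.S0857.result M N hNMlt hchief hab _ hirrM hinv with h | ⟨φ, e, hφ, hres, he⟩ |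
      ⟨S, hS, hcard, hsum⟩
    · exact h
    · exfalso
      rw [hrel] at he
      have h1 : e ∣ r := by
        rw [← he]
        exact dvd_pow_self e two_ne_zero
      rcases (Nat.dvd_prime hr).mp h1 with h2 | h2
      · rw [h2] at he
        simp at he
        exact hr.one_lt.ne he
      · rw [h2] at he
        have := hr.two_le
        nlinarith
    · exfalso
      obtain ⟨φ', e', hφ', hres'⟩ := hom N hN
      have h1 : 1 < S.card := by
        rw [hcard, hrel]
        exact hr.one_lt
      exact Cfsg.Agent.Lib.RelMono.not_homogeneous_of_two (χ := fun m : N => χ m) hS h1 hφ' (by rw [← hsum]; exact hres')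

end Nilp

section Split

variable {N : Type u} [Group N] [Finite N]

/-- A nilpotent group of order `p^a q^b` is the product of its Sylow subgroups. -/
theorem exists_split (hnil : Group.IsNilpotent N) {p q : ℕ} [hp : Fact p.Prime] [hq : Fact q.Prime]
    (hprimes : ∀ r : ℕ, r.Prime → r ∣ Nat.card N → r = p ∨ r = q) :
    ∃ A B : Subgroup N, A.Characteristic ∧ B.Characteristic ∧ IsPGroup p A ∧ IsPGroup q B ∧
      ∀ n : N, ∃ a ∈ A, ∃ b ∈ B, n = a * b := by
  classical
  obtain ⟨P⟩ : Nonempty (Sylow p N) := inferInstance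
  obtain ⟨Q⟩ : Nonempty (Sylow q N) := inferInstance
  have hPn : (P : Subgroup N).Normal :=
    ((Group.isNilpotent_of_finite_tfae (G := N)).out 0 3 rfl rfl).mp hnil p hp P
  have hQn : (Q : Subgroup N).Normal :=
    ((Group.isNilpotent_of_finite_tfae (G := N)).out 0 3 rfl rfl).mp hnil q hq Q
  have htop : (P : Subgroup N) ⊔ (Q : Subgroup N) = ⊤ := by
    apply Cfsg.Agent.Lib.PCore.eq_top_of_forall_sylow_le
    intro r hr
    obtain ⟨R⟩ : Nonempty (Sylow r N) := inferInstance
    by_cases hrd : r ∣ Nat.card N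
    · rcases hprimes r hr.out hrd with rfl | rfl
      · exact ⟨P, le_sup_left⟩
      · exact ⟨Q, le_sup_right⟩
    · refine ⟨R, ?_⟩
      have hR1 : (R : Subgroup N) = ⊥ := by
        have h1 := Subgroup.card_subgroup_dvd_card (R : Subgroup N)
        obtain ⟨k, hk⟩ := IsPGroup.iff_card.mp R.isPGroup'
        rw [hk] at h1
        have hk0 : k = 0 := by
          by_contra h0
          exact hrd ((dvd_pow_self r h0).trans h1)
        rw [hk0, pow_zero] at hk
        exact Subgroup.eq_bot_of_card_eq _ hk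
      rw [hR1]
      exact bot_le
  refine ⟨P, Q, Sylow.characteristic_of_normal P hPn, Sylow.characteristic_of_normal Q hQn,
    P.isPGroup', Q.isPGroup', fun n => ?_⟩
  have h1 : n ∈ ((P : Subgroup N) ⊔ (Q : Subgroup N) : Subgroup N) := by rw [htop]; trivial
  have h2 : n ∈ (↑((P : Subgroup N) ⊔ (Q : Subgroup N)) : Set N) := h1
  rw [Subgroup.normal_mul] at h2
  obtain ⟨a, ha, b, hb, hab⟩ := Set.mem_mul.mp h2
  exact ⟨a, ha, b, hb, hab.symm⟩

end Split

end Cfsg.Agent.Lib.PrimMetaC
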