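import Mathlib
import Cfsg.Agent.Lib.PrimMetaC

/-!
# Primitive characters of solvable groups: the `p`-part of the degree and chief factors
-/

set_option autoImplicit false
set_option linter.all false

namespace Cfsg.Agent.Lib.PrimChief

open Subgroup Cfsg Cfsg.Agent.Lib.PrimFixB
open scoped commutatorElement

universe u v

section Fixed

variable {A : Type u} [Group A] {V : Type v} [CommGroup V] [Finite V]

/-- A `p`-group acting on a nontrivial `p`-group has a nontrivial fixed point. -/
theorem exists_fixed_ne_one [Finite A] {p : ℕ} [hp : Fact p.Prime] (hA : IsPGroup p A) (hV : IsPGroup p V)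
    [Nontrivial V] (ρ : A →* MulAut V) : ∃ v : V, v ≠ 1 ∧ ∀ a, ρ a v = v := by
  classical
  letI act : MulAction A V := MulAction.compHom V ρ
  have hsmul : ∀ (a : A) (v : V), a • v = ρ a v := fun _ _ => rfl
  have hmod := hA.card_modEq_card_fixedPoints (α := V)
  have hVd : p ∣ Nat.card V := by
    obtain ⟨n, hn⟩ := IsPGroup.iff_card.mp hV
    have h0 : n ≠ 0 := by
      rintro rfl
      have h1 : Nat.card V = 1 := by simpa using hn
      exact Finite.one_lt_card.ne' h1
    rw [hn]
    exact dvd_pow_self p h0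
  have hfp : p ∣ Nat.card (MulAction.fixedPoints A V) := by
    rw [Nat.ModEq] at hmod
    have h1 : Nat.card V % p = 0 := Nat.mod_eq_zero_of_dvd hVd
    exact Nat.dvd_of_mod_eq_zero (hmod ▸ h1)
  have h1mem : (1 : V) ∈ MulAction.fixedPoints A V := by
    intro a
    rw [hsmul, map_one]
  have h2 : 0 < Nat.card (MulAction.fixedPoints A V) :=
    Nat.card_pos_iff.mpr ⟨⟨⟨1, h1mem⟩⟩, inferInstance⟩
  have hcardgt : 1 < Nat.card (MulAction.fixedPoints A V) := by
    have h3 := Nat.le_of_dvd h2 hfp
    have h4 := hp.out.two_le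
    omega
  haveI : Nontrivial (MulAction.fixedPoints A V) := (Finite.one_lt_card_iff_nontrivial).mp hcardgt
  obtain ⟨⟨w, hw⟩, hw1⟩ := exists_ne (⟨1, h1mem⟩ : MulAction.fixedPoints A V)
  refine ⟨w, fun h => hw1 (Subtype.ext h), fun a => hw a⟩

end Fixed

section Solv

variable {X : Type u} [Group X] [Finite X]

/-- A nontrivial solvable group has a nontrivial normal `r`-subgroup. -/
theorem exists_normal_pgroup (hs : Group.IsSolvable X) [Nontrivial X] :
    ∃ (r : ℕ) (_ : Fact r.Prime) (R : Subgroup X), R.Normal ∧ R ≠ ⊥ ∧ IsPGroup r R := by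
  classical
  have hex : ∃ n, derivedSeries X n = ⊥ := hs.solvable
  let n := Nat.find hex
  have hn : derivedSeries X n = ⊥ := Nat.find_spec hex
  have hn0 : n ≠ 0 := by
    intro h0
    rw [h0] at hn
    have : (⊤ : Subgroup X) = ⊥ := hn
    exact top_ne_bot this
  obtain ⟨m, hm⟩ := Nat.exists_eq_succ_of_ne_zero hn0
  let D := derivedSeries X m
  have hDne : D ≠ ⊥ := by
    intro h
    have : n ≤ m := Nat.find_min' hex h
    omega
  have hDn : D.Normal := derivedSeries_normal X m
  have hDc : ∀ a ∈ D, ∀ b ∈ D, a * b = b * a := by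
    intro a ha b hb
    have h1 : ⁅a, b⁆ ∈ derivedSeries X (m + 1) := by
      rw [derivedSeries_succ]
      exact Subgroup.commutator_mem_commutator ha hb
    rw [← Nat.succ_eq_add_one, ← hm, hn, Subgroup.mem_bot, commutatorElement_eq_one_iff_mul_comm] at h1
    exact h1
  haveI : Nontrivial D := (Subgroup.nontrivial_iff_ne_bot _).mpr hDne
  have hc1 : Nat.card D ≠ 1 := Finite.one_lt_card.ne'
  obtain ⟨r, hr, hrd⟩ := Nat.exists_prime_and_dvd hc1
  haveI hrF : Fact r.Prime := ⟨hr⟩
  obtain ⟨S⟩ : Nonempty (Sylow r D) := inferInstance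
  haveI hSn : (S : Subgroup D).Normal := by
    constructor
    intro x hx g
    have : g * x * g⁻¹ = x := by
      have h1 : g * x = x * g := Subtype.ext (hDc _ g.2 _ x.2)
      rw [h1]
      group
    rw [this]
    exact hx
  haveI hSc : (S : Subgroup D).Characteristic := Sylow.characteristic_of_normal S hSn
  refine ⟨r, hrF, (S : Subgroup D).map D.subtype, inferInstance, ?_, S.isPGroup'.map _⟩
  intro hbot
  have hS1 : (S : Subgroup D) = ⊥ := by
    rw [Subgroup.map_eq_bot_iff_of_injective _ D.subtype_injective] at hbot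
    exact hbot
  have h3 := Sylow.ne_bot_of_dvd_card S hrd
  exact h3 hS1

end Solv

section SumFix

variable {G : Type u} [Group G] [Fintype G] {W : Type v} [CommGroup W] [Finite W]

theorem card_sub_eq_pow {p : ℕ} [hp : Fact p.Prime] (hW : IsPGroup p W) (S : Subgroup W) :
    Nat.card S = p ^ (Nat.card S).factorization p := by
  obtain ⟨k, hk⟩ := IsPGroup.iff_card.mp (hW.to_subgroup S)
  rw [hk, hp.out.factorization_pow]
  simp

/-- Product formula as an inequality. -/
theorem card_mul_le_card_mul_inf (A B : Subgroup W) :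
    Nat.card A * Nat.card B ≤ Nat.card W * Nat.card (A ⊓ B : Subgroup W) := by
  have h1 : Nat.card (A ⊓ B : Subgroup W) * A.relIndex B = Nat.card B := by
    have h0 : A.subgroupOf B = (A ⊓ B).subgroupOf B := (Subgroup.inf_subgroupOf_right A B).symm
    have h2 : Nat.card (A.subgroupOf B) = Nat.card (A ⊓ B : Subgroup W) := by
      rw [h0]
      exact Nat.card_congr (Subgroup.subgroupOfEquivOfLe inf_le_right).toEquiv
    rw [← h2]
    exact Subgroup.card_mul_index (A.subgroupOf B)
  have h3 : A.relIndex B ∣ A.index := Subgroup.relIndex_dvd_index_of_normal A B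
  have h4 : A.relIndex B ≤ A.index := Nat.le_of_dvd (Nat.pos_of_ne_zero Subgroup.index_ne_zero_of_finite) h3
  have h5 : Nat.card A * A.index = Nat.card W := Subgroup.card_mul_index A
  calc Nat.card A * Nat.card B = Nat.card A * (Nat.card (A ⊓ B : Subgroup W) * A.relIndex B) := by rw [h1]
    _ ≤ Nat.card A * (Nat.card (A ⊓ B : Subgroup W) * A.index) := by gcongr
    _ = (Nat.card A * A.index) * Nat.card (A ⊓ B : Subgroup W) := by ring
    _ = _ := by rw [h5]

/-- The averaging inequality. -/
theorem sum_fix_le {p : ℕ} [hp : Fact p.Prime] (hW : IsPGroup p W) (ρ : G →* MulAut W) (w : ℕ)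
    (hw : Nat.card W = p ^ w) (z : G) (hz : Nat.card (fixS ρ z) ^ 2 ≤ Nat.card W) :
    4 * ∑ g : G, (Nat.card (fixS ρ g)).factorization p ≤ 3 * (Fintype.card G * w) := by
  classical
  set f : G → ℕ := fun g => (Nat.card (fixS ρ g)).factorization p with hf
  have hcard : ∀ g, Nat.card (fixS ρ g) = p ^ f g := fun g => card_sub_eq_pow hW _
  have hpair : ∀ g, f g + f (g * z) ≤ w + f z := by
    intro g
    have h1 := card_mul_le_card_mul_inf (fixS ρ g) (fixS ρ (g * z))
    have h2 : (fixS ρ g ⊓ fixS ρ (g * z) : Subgroup W) ≤ fixS ρ z := by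
      rintro v ⟨hv1, hv2⟩
      have h3 : ρ g v = v := hv1
      have h4 : ρ (g * z) v = v := hv2
      rw [map_mul, MulAut.mul_apply] at h4
      show ρ z v = v
      apply (ρ g).injective
      rw [h4, h3]
    have h5 : Nat.card (fixS ρ g ⊓ fixS ρ (g * z) : Subgroup W) ≤ Nat.card (fixS ρ z) :=
      Subgroup.card_le_of_le h2
    have h6 : p ^ (f g + f (g * z)) ≤ p ^ (w + f z) := by
      rw [pow_add, pow_add, ← hcard, ← hcard, ← hcard, ← hw]
      exact h1.trans (Nat.mul_le_mul_left _ h5)
    exact (Nat.pow_le_pow_iff_right hp.out.one_lt).mp h6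
  have hzw : 2 * f z ≤ w := by
    have h1 : p ^ (f z * 2) ≤ p ^ w := by
      rw [pow_mul, ← hcard, ← hw]
      exact hz
    have := (Nat.pow_le_pow_iff_right hp.out.one_lt).mp h1
    omega
  have hsum : ∑ g : G, f (g * z) = ∑ g : G, f g :=
    Fintype.sum_equiv (Equiv.mulRight z) _ _ (fun _ => rfl)
  have h2 : ∑ g : G, (f g + f (g * z)) ≤ ∑ _g : G, (w + f z) :=
    Finset.sum_le_sum (fun g _ => hpair g)
  rw [Finset.sum_add_distrib, hsum, Finset.sum_const, Finset.card_univ, smul_eq_mul] at h2
  set S := ∑ g : G, f g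
  set n := Fintype.card G
  have h3 : 2 * S ≤ n * (w + f z) := by omega
  calc 4 * S = 2 * (2 * S) := by ring
    _ ≤ 2 * (n * (w + f z)) := Nat.mul_le_mul_left _ h3
    _ = n * (2 * w + 2 * f z) := by ring
    _ ≤ n * (2 * w + w) := by gcongr
    _ = 3 * (n * w) := by ring

end SumFix

section Small

variable {G : Type u} [Group G] [Finite G] {W : Type v} [CommGroup W] [Finite W]

/-- An irreducible nontrivial module for a solvable group has an element with few fixed points. -/
theorem exists_small_z (hs : Group.IsSolvable G) {p : ℕ} [hp : Fact p.Prime] (hW : IsPGroup p W)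
    (ρ : G →* MulAut W) (hinv : ∀ Y : Subgroup W, (∀ g, ∀ y ∈ Y, ρ g y ∈ Y) → Y = ⊥ ∨ Y = ⊤)
    (hnp : ¬ (Nat.card W).Prime) [hnt : Nontrivial W] :
    ∃ z : G, Nat.card (fixS ρ z) ^ 2 ≤ Nat.card W := by
  classical
  by_cases htriv : ∀ g, ρ g = 1
  · exfalso
    have hVd : p ∣ Nat.card W := by
      obtain ⟨n, hn⟩ := IsPGroup.iff_card.mp hW
      have h0 : n ≠ 0 := by
        rintro rfl
        have h1 : Nat.card W = 1 := by simpa using hn
        exact Finite.one_lt_card.ne' h1
      rw [hn]
      exact dvd_pow_self p h0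
    obtain ⟨v, hv⟩ := exists_prime_orderOf_dvd_card' (G := W) p hVd
    rcases hinv (zpowers v) (by
      intro g y hy
      rw [htriv g]
      exact hy) with h | h
    · have : v = 1 := by
        have h1 : v ∈ zpowers v := mem_zpowers v
        rw [h] at h1
        exact h1
      rw [this, orderOf_one] at hv
      exact hp.out.one_lt.ne hv
    · apply hnp
      have h1 : Nat.card W = orderOf v := by
        rw [← Nat.card_zpowers, h]
        exact Nat.card_congr Subgroup.topEquiv.toEquiv.symm
      rw [h1, hv]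
      exact hp.out
  · push Not at htriv
    obtain ⟨g₀, hg₀⟩ := htriv
    let X : Subgroup (MulAut W) := ρ.range
    haveI : Nontrivial X := by
      refine ⟨⟨⟨ρ g₀, g₀, rfl⟩, 1, fun h => hg₀ ?_⟩⟩
      exact congrArg Subtype.val h
    have hXs : Group.IsSolvable X := solvable_of_surjective (f := ρ.rangeRestrict) ρ.rangeRestrict_surjective
    obtain ⟨r, hrF, R, hRn, hRne, hRp⟩ := exists_normal_pgroup hXs
    let τ : ↥R →* MulAut W := X.subtype.comp R.subtype
    have hτ : ∀ (a : R), τ a = ((a : X) : MulAut W) := fun _ => rfl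
    let Y : Subgroup W :=
      { carrier := {v | ∀ a : R, τ a v = v}
        one_mem' := by intro a; simp
        mul_mem' := by
          intro a b ha hb c
          rw [map_mul, ha c, hb c]
        inv_mem' := by
          intro a ha c
          rw [map_inv, ha c] }
    have hYinv : ∀ g, ∀ y ∈ Y, ρ g y ∈ Y := by
      intro g y hy a
      let g' : X := ⟨ρ g, g, rfl⟩
      have h1 : g'⁻¹ * (a : X) * g'⁻¹⁻¹ ∈ R := hRn.conj_mem _ a.2 g'⁻¹
      have h2 := hy ⟨_, h1⟩
      have h3 : τ a (ρ g y) = ρ g (((g'⁻¹ * (a : X) * g'⁻¹⁻¹ : X) : MulAut W) y) := by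
        rw [hτ]
        have h4 : ((g'⁻¹ * (a : X) * g'⁻¹⁻¹ : X) : MulAut W) = (ρ g)⁻¹ * ((a : X) : MulAut W) * ρ g := by
          simp [g']
        rw [h4]
        simp
      rw [h3]
      have h5 : ((g'⁻¹ * (a : X) * g'⁻¹⁻¹ : X) : MulAut W) y = y := h2
      rw [h5]
    have hYbot : Y = ⊥ := by
      rcases hinv Y hYinv with h | h
      · exact h
      · exfalso
        apply hRne
        rw [eq_bot_iff]
        intro a ha
        rw [Subgroup.mem_bot]
        apply Subtype.ext
        ext v
        have h1 : v ∈ Y := by rw [h]; trivial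
        exact h1 ⟨a, ha⟩
    have hrp : r ≠ p := by
      rintro rfl
      obtain ⟨v, hv1, hv2⟩ := exists_fixed_ne_one hRp hW τ
      have h1 : v ∈ Y := hv2
      rw [hYbot] at h1
      exact hv1 h1
    have hc : Nat.Coprime (Nat.card W) r := by
      obtain ⟨n, hn⟩ := IsPGroup.iff_card.mp hW
      rw [hn]
      exact Nat.Coprime.pow_left n ((Nat.coprime_primes hp.out hrF.out).mpr hrp.symm)
    obtain ⟨b, hb⟩ := exists_small_fix' (B := ↥R) (V := W) hc τ
      (by
        intro b
        obtain ⟨k, hk⟩ := hRp b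
        refine ⟨k, ?_⟩
        rw [hk, map_one])
      (by
        intro v hv
        have h1 : v ∈ Y := hv
        rw [hYbot] at h1
        exact h1)
    obtain ⟨z, hz⟩ := (b : X).2
    refine ⟨z, ?_⟩
    have h1 : fixS ρ z = fixS τ b := by
      ext v
      show ρ z v = v ↔ τ b v = v
      rw [hτ, ← hz]
    rw [h1]
    exact hb

end Small

end Cfsg.Agent.Lib.PrimChief
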