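import Mathlib
import Cfsg.Agent.Lib.PrimChief

/-!
# Primitive characters of solvable groups: `χ(1)_p` divides the square of a class size `p`-part
-/

set_option autoImplicit false
set_option linter.all false

namespace Cfsg.Agent.Lib.PrimChiefB

open Subgroup Cfsg Cfsg.Agent.Lib.PrimFixB Cfsg.Agent.Lib.PrimChief Cfsg.Agent.Lib.CharBasic
  Cfsg.Agent.Lib.CharKernel Cfsg.Agent.Lib.PrimMetaA Cfsg.Agent.Lib.Clifford
open scoped commutatorElement

universe u

section Action

variable {G : Type u} [Group G]

/-- Conjugation on a section. -/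
noncomputable def rhoAutQ (K L : Subgroup G) [hK : K.Normal] [hL : L.Normal] (h : G) :
    (↥K ⧸ L.subgroupOf K) ≃* (↥K ⧸ L.subgroupOf K) :=
  QuotientGroup.congr (L.subgroupOf K) (L.subgroupOf K) (MulAut.conjNormal h) (by
    ext x
    constructor
    · rintro ⟨y, hy, rfl⟩
      have h1 : (y : G) ∈ L := hy
      exact hL.conj_mem _ h1 h
    · intro hx
      have h1 : (x : G) ∈ L := hx
      refine ⟨(MulAut.conjNormal h)⁻¹ x, ?_, by simp⟩
      show (((MulAut.conjNormal h)⁻¹ x : ↥K) : G) ∈ L
      rw [← map_inv, MulAut.conjNormal_apply]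
      exact hL.conj_mem _ h1 h⁻¹)

theorem rhoAutQ_mk (K L : Subgroup G) [hK : K.Normal] [hL : L.Normal] (h : G) (x : ↥K) :
    rhoAutQ K L h (x : ↥K ⧸ L.subgroupOf K) = ((MulAut.conjNormal h x : ↥K) : ↥K ⧸ L.subgroupOf K) := rfl

/-- The commutative structure on a section with abelian quotient. -/
abbrev commQ (K L : Subgroup G) [hL : L.Normal] (hab : ⁅K, K⁆ ≤ L) : CommGroup (↥K ⧸ L.subgroupOf K) :=
  { (inferInstance : Group (↥K ⧸ L.subgroupOf K)) with
    mul_comm := by
      intro a b
      induction a using QuotientGroup.induction_on with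
      | H a =>
      induction b using QuotientGroup.induction_on with
      | H b =>
      rw [← QuotientGroup.mk_mul, ← QuotientGroup.mk_mul, QuotientGroup.eq]
      show (((a * b)⁻¹ * (b * a) : ↥K) : G) ∈ L
      apply hab
      have h1 : (((a * b)⁻¹ * (b * a) : ↥K) : G) = ⁅((b : G))⁻¹, ((a : G))⁻¹⁆ := by
        simp only [Subgroup.coe_mul, InvMemClass.coe_inv, commutatorElement_def]
        group
      rw [h1]
      exact Subgroup.commutator_mem_commutator (K.inv_mem b.2) (K.inv_mem a.2) }

/-- The action as a homomorphism. -/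
noncomputable def rhoQ (K L : Subgroup G) [hK : K.Normal] [hL : L.Normal] :
    G →* MulAut (↥K ⧸ L.subgroupOf K) where
  toFun := rhoAutQ K L
  map_one' := by
    ext x
    induction x using QuotientGroup.induction_on with
    | H x =>
    rw [rhoAutQ_mk]
    simp
  map_mul' := by
    intro a b
    ext x
    induction x using QuotientGroup.induction_on with
    | H x =>
    rw [MulAut.mul_apply, rhoAutQ_mk, rhoAutQ_mk, rhoAutQ_mk]
    simp

theorem rhoQ_mk (K L : Subgroup G) [hK : K.Normal] [hL : L.Normal] (h : G) (x : ↥K) :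
    rhoQ K L h (x : ↥K ⧸ L.subgroupOf K) = ((MulAut.conjNormal h x : ↥K) : ↥K ⧸ L.subgroupOf K) := rfl

end Action

section Chain

variable {G : Type u} [Group G] [Finite G]

/-- The chain formula for the relative index of a centralizer. -/
theorem relIndex_chain (C K L : Subgroup G) [hL : L.Normal] (hLK : L ≤ K) :
    C.relIndex K = C.relIndex L * (L ⊔ (K ⊓ C)).relIndex K := by
  set C' := K ⊓ C with hC'
  have h1 : C.relIndex K = C'.relIndex K := by
    rw [hC', inf_comm]
    exact (Subgroup.inf_relIndex_right C K).symm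
  have hle : L ⊔ C' ≤ K := sup_le hLK inf_le_left
  have h2 : C'.relIndex (L ⊔ C') * (L ⊔ C').relIndex K = C'.relIndex K :=
    Subgroup.relIndex_mul_relIndex _ _ _ le_sup_right hle
  have h3 : C'.relIndex (L ⊔ C') = C'.relIndex L := by
    have h4 : (L ⊓ C').relIndex L * L.relIndex (L ⊔ C') = (L ⊓ C').relIndex (L ⊔ C') :=
      Subgroup.relIndex_mul_relIndex _ _ _ inf_le_left le_sup_left
    have h5 : (L ⊓ C').relIndex C' * C'.relIndex (L ⊔ C') = (L ⊓ C').relIndex (L ⊔ C') :=
      Subgroup.relIndex_mul_relIndex _ _ _ inf_le_right le_sup_right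
    have h6 : L.relIndex (L ⊔ C') = L.relIndex C' := Subgroup.relIndex_sup_left C' L
    have h7 : (L ⊓ C').relIndex C' = L.relIndex C' := Subgroup.inf_relIndex_right L C'
    have h8 : (L ⊓ C').relIndex L = C'.relIndex L := by
      rw [inf_comm]
      exact Subgroup.inf_relIndex_right C' L
    have h9 : L.relIndex C' ≠ 0 := by
      show (L.subgroupOf C').index ≠ 0
      exact Subgroup.index_ne_zero_of_finite
    rw [h8, h6] at h4
    rw [h7] at h5
    have h10 : L.relIndex C' * C'.relIndex (L ⊔ C') = L.relIndex C' * C'.relIndex L := by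
      rw [h5, ← h4]
      ring
    exact Nat.eq_of_mul_eq_mul_left (Nat.pos_of_ne_zero h9) h10
  have h4 : C'.relIndex L = C.relIndex L := by
    have h5 : C' ⊓ L = C ⊓ L := by
      rw [hC', inf_comm K C, inf_assoc, inf_eq_right.mpr hLK]
    rw [← Subgroup.inf_relIndex_right C' L, h5, Subgroup.inf_relIndex_right]
  rw [h1, ← h2, h3, h4]

end Chain

section Local

variable {G : Type u} [Group G] [Fintype G]

theorem factorization_relIndex_mono (g : G) (N L : Subgroup G) [L.Normal] (hLN : L ≤ N) (p : ℕ) :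
    ((centralizer ({g} : Set G)).relIndex L).factorization p ≤
      ((centralizer ({g} : Set G)).relIndex N).factorization p := by
  have h1 := relIndex_chain (centralizer ({g} : Set G)) N L hLN
  have h2 : (centralizer ({g} : Set G)).relIndex L ≠ 0 := by
    show (_ : Subgroup _).index ≠ 0
    exact Subgroup.index_ne_zero_of_finite
  have h3 : (L ⊔ (N ⊓ (centralizer ({g} : Set G)))).relIndex N ≠ 0 := by
    show (_ : Subgroup _).index ≠ 0
    exact Subgroup.index_ne_zero_of_finite
  rw [h1, Nat.factorization_mul h2 h3]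
  simp

theorem local_pt (N L : Subgroup G) [hN : N.Normal] [hL : L.Normal] (hLN : L ≤ N) (hab : ⁅N, N⁆ ≤ L)
    {p : ℕ} [hp : Fact p.Prime] (w : ℕ) (hw : Nat.card (↥N ⧸ L.subgroupOf N) = p ^ w) (g : G) :
    letI := commQ N L hab
    ((centralizer ({g} : Set G)).relIndex L).factorization p + w ≤
      ((centralizer ({g} : Set G)).relIndex N).factorization p +
        (Nat.card (fixS (rhoQ N L) g)).factorization p := by
  classical
  letI instW : CommGroup (↥N ⧸ L.subgroupOf N) := commQ N L hab
  set C := centralizer ({g} : Set G) with hC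
  set E := L ⊔ (N ⊓ C) with hE
  have hch := relIndex_chain C N L hLN
  let ρ : G →* MulAut (↥N ⧸ L.subgroupOf N) := rhoQ N L
  let π : ↥N →* (↥N ⧸ L.subgroupOf N) := QuotientGroup.mk' (L.subgroupOf N)
  have hπ : Function.Surjective π := QuotientGroup.mk'_surjective _
  have hle : E.subgroupOf N ≤ (fixS ρ g).comap π := by
    intro x hx
    have hx' : (x : G) ∈ L ⊔ (N ⊓ C) := hx
    have hx2 : (x : G) ∈ ((L ⊔ (N ⊓ C) : Subgroup G) : Set G) := hx'
    rw [Subgroup.normal_mul, Set.mem_mul] at hx2
    obtain ⟨l, hl, c, hc, hlc⟩ := hx2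
    have hl' : l ∈ L := hl
    have hc' : c ∈ N ⊓ C := hc
    have hcg : g * c = c * g := by
      have h1 : c ∈ centralizer ({g} : Set G) := hc'.2
      rw [Subgroup.mem_centralizer_iff] at h1
      exact (h1 g (by simp))
    show ρ g (π x) = π x
    have h1 : ρ g (π x) = ((MulAut.conjNormal g x : ↥N) : ↥N ⧸ L.subgroupOf N) := rfl
    rw [h1]
    show ((MulAut.conjNormal g x : ↥N) : ↥N ⧸ L.subgroupOf N) = (x : ↥N ⧸ L.subgroupOf N)
    rw [QuotientGroup.eq]
    show (((MulAut.conjNormal g x : ↥N)⁻¹ * x : ↥N) : G) ∈ L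
    have h2 : (((MulAut.conjNormal g x : ↥N)⁻¹ * x : ↥N) : G) = c⁻¹ * (g * l⁻¹ * g⁻¹ * l) * c := by
      simp only [Subgroup.coe_mul, InvMemClass.coe_inv, MulAut.conjNormal_apply, ← hlc]
      have h3 : c * g⁻¹ = g⁻¹ * c := by
        rw [mul_inv_eq_iff_eq_mul, mul_assoc, ← hcg, ← mul_assoc, inv_mul_cancel, one_mul]
      have h4 : g * (l * c) * g⁻¹ = g * l * g⁻¹ * c := by
        rw [mul_assoc g, mul_assoc l, h3, ← mul_assoc l, ← mul_assoc g]
        simp only [mul_assoc]
      rw [h4]
      group
    rw [h2]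
    have h5 : g * l⁻¹ * g⁻¹ ∈ L := hL.conj_mem _ (L.inv_mem hl') g
    have h6 : g * l⁻¹ * g⁻¹ * l ∈ L := L.mul_mem h5 hl'
    have h7 := hL.conj_mem _ h6 c⁻¹
    simpa using h7
  have hidx : (fixS ρ g).index ∣ E.relIndex N := by
    have h1 : ((fixS ρ g).comap π).index = (fixS ρ g).index :=
      Subgroup.index_comap_of_surjective _ hπ
    rw [← h1]
    exact Subgroup.index_dvd_of_le hle
  have hmul : Nat.card (fixS ρ g) * (fixS ρ g).index = p ^ w := by
    rw [Subgroup.card_mul_index, hw]
  have hne1 : Nat.card (fixS ρ g) ≠ 0 := Nat.card_pos.ne'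
  have hne2 : (fixS ρ g).index ≠ 0 := Subgroup.index_ne_zero_of_finite
  have hE0 : E.relIndex N ≠ 0 := by
    show (_ : Subgroup _).index ≠ 0
    exact Subgroup.index_ne_zero_of_finite
  have hL0 : C.relIndex L ≠ 0 := by
    show (_ : Subgroup _).index ≠ 0
    exact Subgroup.index_ne_zero_of_finite
  have h8 : (Nat.card (fixS ρ g)).factorization p + ((fixS ρ g).index).factorization p = w := by
    have := congrArg (fun n => n.factorization p) hmul
    simp only [Nat.factorization_mul hne1 hne2, hp.out.factorization_pow] at this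
    simpa using this
  have h9 : ((fixS ρ g).index).factorization p ≤ (E.relIndex N).factorization p :=
    (Nat.factorization_le_iff_dvd hne2 hE0).mpr hidx p
  have h10 : (C.relIndex N).factorization p =
      (C.relIndex L).factorization p + (E.relIndex N).factorization p := by
    rw [hch, Nat.factorization_mul hL0 hE0]
    rfl
  show (C.relIndex L).factorization p + w ≤ (C.relIndex N).factorization p +
    (Nat.card (fixS ρ g)).factorization p
  omega

/-- The summed form. -/
theorem local_ineq (hs : Group.IsSolvable G) (N L : Subgroup G) [hN : N.Normal] [hL : L.Normal]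
    (hLN : L < N) (hab : ⁅N, N⁆ ≤ L) {p : ℕ} [hp : Fact p.Prime]
    (hinvW : letI := commQ N L hab; ∀ Y : Subgroup (↥N ⧸ L.subgroupOf N),
      (∀ g, ∀ y ∈ Y, rhoQ N L g y ∈ Y) → Y = ⊥ ∨ Y = ⊤)
    (hW : IsPGroup p (↥N ⧸ L.subgroupOf N)) (u : ℕ)
    (hu : Nat.card (↥N ⧸ L.subgroupOf N) = p ^ (2 * u)) (hu1 : 1 ≤ u) :
    Fintype.card G * u + 2 * ∑ g : G, ((centralizer ({g} : Set G)).relIndex L).factorization p ≤
      2 * ∑ g : G, ((centralizer ({g} : Set G)).relIndex N).factorization p := by
  classical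
  letI instW : CommGroup (↥N ⧸ L.subgroupOf N) := commQ N L hab
  let ρ : G →* MulAut (↥N ⧸ L.subgroupOf N) := rhoQ N L
  haveI hnt : Nontrivial (↥N ⧸ L.subgroupOf N) := by
    have h1 : 1 < Nat.card (↥N ⧸ L.subgroupOf N) := by
      rw [hu]
      exact Nat.one_lt_pow (by omega) hp.out.one_lt
    exact Finite.one_lt_card_iff_nontrivial.mp h1
  have hnp : ¬ (Nat.card (↥N ⧸ L.subgroupOf N)).Prime := by
    rw [hu]
    exact Nat.Prime.not_prime_pow (by omega)
  obtain ⟨z, hz⟩ := exists_small_z hs hW ρ hinvW hnp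
  have h4 := sum_fix_le hW ρ (2 * u) hu z hz
  have hpt : ∀ g : G, ((centralizer ({g} : Set G)).relIndex L).factorization p + 2 * u ≤
      ((centralizer ({g} : Set G)).relIndex N).factorization p +
        (Nat.card (fixS ρ g)).factorization p := fun g => local_pt N L hLN.le hab (2 * u) hu g
  have hsum := Finset.sum_le_sum (fun g (_ : g ∈ (Finset.univ : Finset G)) => hpt g)
  rw [Finset.sum_add_distrib, Finset.sum_add_distrib, Finset.sum_const, Finset.card_univ,
    smul_eq_mul] at hsum
  set SL := ∑ g : G, ((centralizer ({g} : Set G)).relIndex L).factorization p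
  set SN := ∑ g : G, ((centralizer ({g} : Set G)).relIndex N).factorization p
  set Sf := ∑ g : G, (Nat.card (fixS ρ g)).factorization p
  set n := Fintype.card G
  have h5 : n * (2 * u) = 2 * (n * u) := by ring
  have h6 : 3 * (n * (2 * u)) = 6 * (n * u) := by ring
  rw [h5] at hsum
  rw [h6] at h4
  omega

theorem sum_contradiction {X : Type u} [Group X] [Fintype X] {F : Finset (X → ℂ)}
    (hF : ∀ φ ∈ F, IsIrrCharacter X φ) (h1 : 1 < F.card) {ψ : X → ℂ} (hψ : IsIrrCharacter X ψ)
    {a b : ℕ} (ha : a ≠ 0) (h : (a : ℂ) • (∑ φ ∈ F, φ) = (b : ℂ) • ψ) : False := by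
  classical
  obtain ⟨c, hc, d, hd, hcd⟩ := Finset.one_lt_card.mp h1
  have key : ∀ c ∈ F, c = ψ := by
    intro c hc
    by_contra hne
    have h3 : classInner ((a : ℂ) • (∑ φ ∈ F, φ)) c = a := by
      have : (∑ φ ∈ F, φ) = ∑ φ ∈ F, (fun x => φ x) := rfl
      rw [classInner_smul_left, classInner_sum_left, Finset.sum_eq_single c]
      · rw [classInner_irr_self (hF c hc), mul_one]
      · intro d hd hdc
        exact classInner_irr_ne (hF d hd) (hF c hc) hdc
      · intro hc'
        exact absurd hc hc'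
    rw [h, classInner_smul_left, classInner_irr_ne hψ (hF c hc) (Ne.symm hne), mul_zero] at h3
    exact ha (by exact_mod_cast h3.symm)
  exact hcd ((key c hc).trans (key d hd).symm)

end Local

section Key

variable {G : Type u} [Group G] [Fintype G]

/-- Invariant subgroups of a chief section are trivial. -/
theorem hinvW_of_chief (N L : Subgroup G) [hN : N.Normal] [hL : L.Normal] (hLN : L ≤ N)
    (hchief : ∀ M : Subgroup G, M.Normal → L ≤ M → M ≤ N → M = L ∨ M = N)
    (Y : Subgroup (↥N ⧸ L.subgroupOf N))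
    (hY : ∀ g, ∀ y ∈ Y, rhoQ N L g y ∈ Y) : Y = ⊥ ∨ Y = ⊤ := by
  classical
  let π : ↥N →* (↥N ⧸ L.subgroupOf N) := QuotientGroup.mk' (L.subgroupOf N)
  have hπ : Function.Surjective π := QuotientGroup.mk'_surjective _
  let T : Subgroup G := (Y.comap π).map N.subtype
  have hTn : T.Normal := by
    constructor
    rintro _ ⟨x, hx, rfl⟩ g
    refine ⟨MulAut.conjNormal g x, ?_, ?_⟩
    · have h1 := hY g (π x) hx
      exact h1
    · simp
  have hLT : L ≤ T := by
    intro l hl
    refine ⟨⟨l, hLN hl⟩, ?_, rfl⟩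
    have h1 : π ⟨l, hLN hl⟩ = 1 := (QuotientGroup.eq_one_iff _).mpr hl
    show π ⟨l, hLN hl⟩ ∈ Y
    rw [h1]
    exact Y.one_mem
  have hTN : T ≤ N := by
    rintro _ ⟨x, _, rfl⟩
    exact x.2
  rcases hchief T hTn hLT hTN with h | h
  · left
    rw [eq_bot_iff]
    intro y hy
    obtain ⟨x, rfl⟩ := hπ y
    have h1 : (x : G) ∈ T := ⟨x, hy, rfl⟩
    rw [h] at h1
    rw [Subgroup.mem_bot]
    exact (QuotientGroup.eq_one_iff _).mpr h1
  · right
    rw [eq_top_iff]
    intro y _
    obtain ⟨x, rfl⟩ := hπ y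
    have h1 : (x : G) ∈ T := by rw [h]; exact x.2
    obtain ⟨x', hx', hxx⟩ := h1
    have : x' = x := Subtype.ext hxx
    rw [← this]
    exact hx'

/-- A chief section is a `p`-group or has order prime to `p`. -/
theorem pgroup_or_coprime (N L : Subgroup G) [hN : N.Normal] [hL : L.Normal] (hLN : L ≤ N)
    (hab : ⁅N, N⁆ ≤ L) (hchief : ∀ M : Subgroup G, M.Normal → L ≤ M → M ≤ N → M = L ∨ M = N)
    (p : ℕ) [hp : Fact p.Prime] :
    IsPGroup p (↥N ⧸ L.subgroupOf N) ∨ ¬ p ∣ Nat.card (↥N ⧸ L.subgroupOf N) := by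
  classical
  letI instW : CommGroup (↥N ⧸ L.subgroupOf N) := commQ N L hab
  let Y : Subgroup (↥N ⧸ L.subgroupOf N) := CommGroup.primaryComponent _ p
  have hYinv : ∀ g, ∀ y ∈ Y, rhoQ N L g y ∈ Y := by
    intro g y hy
    obtain ⟨n, hn⟩ := hy
    refine ⟨n, ?_⟩
    rw [← map_pow, hn, map_one]
  rcases hinvW_of_chief N L hLN hchief Y hYinv with h | h
  · right
    intro hd
    obtain ⟨v, hv⟩ := exists_prime_orderOf_dvd_card' (G := ↥N ⧸ L.subgroupOf N) p hd
    have h1 : v ∈ Y := ⟨1, by rw [pow_one, ← hv]; exact pow_orderOf_eq_one v⟩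
    rw [h, Subgroup.mem_bot] at h1
    rw [h1, orderOf_one] at hv
    exact hp.out.one_lt.ne hv
  · left
    intro v
    have h1 : v ∈ Y := by rw [h]; trivial
    exact h1

/-- The key inequality, by induction along a chief series. -/
theorem key (hs : Group.IsSolvable G) {χ : G → ℂ} (hcl : IsClassFunction G χ) (hne : χ 1 ≠ 0)
    (hom : ∀ M : Subgroup G, M.Normal → ∃ (φ : M → ℂ) (e : ℕ), IsIrrCharacter M φ ∧
      (fun m : M => χ m) = (e : ℂ) • φ) {p : ℕ} [hp : Fact p.Prime] :
    ∀ (k : ℕ) (N : Subgroup G), N.Normal → Nat.card N = k → ∀ (φ : N → ℂ) (e : ℕ),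
      IsIrrCharacter N φ → (fun m : N => χ m) = (e : ℂ) • φ →
      Fintype.card G * (charDegree φ).factorization p ≤
        2 * ∑ g : G, ((centralizer ({g} : Set G)).relIndex N).factorization p := by
  classical
  intro k
  induction k using Nat.strong_induction_on with
  | _ k ih =>
    intro N hN hk φ e hφ hres
    by_cases hbot : N = ⊥
    · subst hbot
      have h1 : charDegree φ ∣ Nat.card (⊥ : Subgroup G) := charDegree_dvd_card hφ
      rw [Nat.card_unique, Nat.dvd_one] at h1
      rw [h1]
      simp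
    have hfin : ({L : Subgroup G | L.Normal ∧ L < N}).Finite := Set.toFinite _
    obtain ⟨L, hLmax⟩ := hfin.exists_maximal
      ⟨⊥, inferInstance, bot_lt_iff_ne_bot.mpr hbot⟩
    obtain ⟨hLn, hLN⟩ := hLmax.prop
    have hchief : ∀ M : Subgroup G, M.Normal → L ≤ M → M ≤ N → M = L ∨ M = N := by
      intro M hM hLM hMN
      by_cases hE : M = N
      · exact Or.inr hE
      · left
        exact hLmax.eq_of_ge ⟨hM, lt_of_le_of_ne hMN hE⟩ hLM
    have hsq : Group.IsSolvable (G ⧸ (⊥ : Subgroup G)) :=
      solvable_of_surjective (f := QuotientGroup.mk' (⊥ : Subgroup G))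
        (QuotientGroup.mk'_surjective _)
    have hab : ⁅N, N⁆ ≤ L := Cfsg.Agent.Lib.RelMono.commutator_le_of_chief hsq bot_le hLN hchief
    have hcardlt : Nat.card L < k := by
      rw [← hk]
      by_contra hcon
      exact hLN.ne (Subgroup.eq_of_le_of_card_ge hLN.le (not_lt.mp hcon))
    have he0 : e ≠ 0 := by
      rintro rfl
      have h1 := congrFun hres (1 : N)
      apply hne
      simpa using h1
    have heC : (e : ℂ) ≠ 0 := by exact_mod_cast he0
    have hinv : ∀ (g : G) (n : N), φ ⟨g * n * g⁻¹, hN.conj_mem (n : G) n.2 g⟩ = φ n := by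
      intro g n
      have h1 := congrFun hres ⟨g * n * g⁻¹, hN.conj_mem (n : G) n.2 g⟩
      have h2 := congrFun hres n
      simp only [Pi.smul_apply, smul_eq_mul] at h1 h2
      have h3 : χ (g * n * g⁻¹) = χ n := hcl (n : G) g
      rw [h3, h2] at h1
      exact (mul_left_cancel₀ heC h1).symm
    have hmono : ∑ g : G, ((centralizer ({g} : Set G)).relIndex L).factorization p ≤
        ∑ g : G, ((centralizer ({g} : Set G)).relIndex N).factorization p :=
      Finset.sum_le_sum (fun g _ => factorization_relIndex_mono g N L hLN.le p)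
    rcases Cfsg.Agent.S0857.result N L hLN hchief hab φ hφ hinv with h | ⟨ψ, e', hψ, hres', he'⟩ |
      ⟨F, hF, hcard, hsum⟩
    · have h1 := ih _ hcardlt L hLn rfl _ e h (by
        funext m
        exact congrFun hres ⟨(m : G), hLN.le m.2⟩)
      have h2 : charDegree (fun x : L => φ ⟨(x : G), hLN.le x.2⟩) = charDegree φ := rfl
      rw [h2] at h1
      omega
    · have hdeg : charDegree φ = e' * charDegree ψ := by
        have h1 := congrFun hres' (1 : L)
        have h2 : φ 1 = (e' : ℂ) * ψ 1 := h1
        rw [one_eq_charDegree (IsIrrCharacter.isCharacter hφ),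
          one_eq_charDegree (IsIrrCharacter.isCharacter hψ)] at h2
        exact_mod_cast h2
      have hdφ : charDegree φ ≠ 0 := (charDegree_pos hφ).ne'
      have hdψ : charDegree ψ ≠ 0 := (charDegree_pos hψ).ne'
      have he'0 : e' ≠ 0 := by
        rintro rfl
        rw [zero_mul] at hdeg
        exact hdφ hdeg
      have h1 := ih _ hcardlt L hLn rfl ψ (e * e') hψ (by
        funext m
        have h2 := congrFun hres ⟨(m : G), hLN.le m.2⟩
        have h3 := congrFun hres' m
        simp only [Pi.smul_apply, smul_eq_mul] at h2 h3 ⊢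
        rw [h2, h3]
        push_cast
        ring)
      have hfac : (charDegree φ).factorization p = e'.factorization p +
          (charDegree ψ).factorization p := by
        rw [hdeg, Nat.factorization_mul he'0 hdψ]
        rfl
      have hcardW : Nat.card (↥N ⧸ L.subgroupOf N) = e' ^ 2 := by
        rw [he']
        rfl
      rcases pgroup_or_coprime N L hLN.le hab hchief p with hW | hW
      · -- the `p`-chief factor
        obtain ⟨w, hw⟩ := IsPGroup.iff_card.mp hW
        have hdvd : e' ∣ p ^ w := by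
          rw [← hw, hcardW]
          exact dvd_pow_self e' (by norm_num)
        obtain ⟨u, -, rfl⟩ := (Nat.dvd_prime_pow hp.out).mp hdvd
        have hw2 : Nat.card (↥N ⧸ L.subgroupOf N) = p ^ (2 * u) := by
          rw [hcardW, ← pow_mul, mul_comm]
        have hu1 : 1 ≤ u := by
          by_contra hcon
          have hu0 : u = 0 := by omega
          rw [hu0] at hw2
          have h5 : L.relIndex N = 1 := by
            have h6 : L.relIndex N = Nat.card (↥N ⧸ L.subgroupOf N) := rfl
            rw [h6, hw2]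
            simp
          rw [Subgroup.relIndex_eq_one] at h5
          exact not_le_of_gt hLN h5
        have h7 := local_ineq hs N L hLN hab (hinvW_of_chief N L hLN.le hchief) hW u hw2 hu1
        have h8 : (p ^ u).factorization p = u := by
          rw [hp.out.factorization_pow]
          simp
        rw [hfac, h8, mul_add]
        omega
      · -- the `p'`-chief factor
        have h5 : e'.factorization p = 0 := by
          apply Nat.factorization_eq_zero_of_not_dvd
          intro hd
          apply hW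
          rw [hcardW]
          exact hd.trans (dvd_pow_self e' (by norm_num))
        rw [hfac, h5, zero_add]
        omega
    · exfalso
      obtain ⟨ψ, e₁, hψ, hres₁⟩ := hom L hLn
      have h1 : 1 < F.card := by
        rw [hcard]
        have hne0 : L.relIndex N ≠ 0 := by
          show (L.subgroupOf N).index ≠ 0
          exact Subgroup.index_ne_zero_of_finite
        have hne1 : L.relIndex N ≠ 1 := by
          rw [Ne, Subgroup.relIndex_eq_one]
          exact not_le_of_gt hLN
        omega
      refine sum_contradiction (b := e₁) hF h1 hψ he0 ?_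
      rw [← hsum, ← hres₁]
      funext m
      have h2 := congrFun hres ⟨(m : G), hLN.le m.2⟩
      simpa using h2.symm

/-- The main theorem. -/
theorem main (hs : Group.IsSolvable G) {χ : G → ℂ} (hχ : IsIrrCharacter G χ)
    (hprim : ¬ ∃ (H : Subgroup G), H ≠ ⊤ ∧ ∃ θ : ↥H → ℂ, IsCharacter ↥H θ ∧ indFun H θ = χ)
    (p : ℕ) [hp : Fact p.Prime] :
    ∃ g : G, (charDegree χ).factorization p ≤
      3 * ((centralizer ({g} : Set G)).index).factorization p := by
  classical
  have hom := Cfsg.Agent.Lib.PrimMetaC.hom_of_prim hχ hprim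
  have hcl := Cfsg.Agent.Lib.CharBasic.isClassFunction_of_isCharacter (IsIrrCharacter.isCharacter hχ)
  have hne : χ 1 ≠ 0 := irr_degree_ne_zero hχ
  have htop : IsIrrCharacter (⊤ : Subgroup G) (fun m : (⊤ : Subgroup G) => χ m) :=
    isIrrCharacter_comp_of_surjective (⊤ : Subgroup G).subtype
      (fun g => ⟨⟨g, trivial⟩, rfl⟩) hχ
  have h1 := key hs hcl hne hom (p := p) _ ⊤ inferInstance rfl _ 1 htop (by simp)
  have h2 : charDegree (fun m : (⊤ : Subgroup G) => χ m) = charDegree χ := rfl
  rw [h2] at h1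
  by_contra hcon
  push Not at hcon
  have h3 : ∑ g : G, 2 * ((centralizer ({g} : Set G)).relIndex ⊤).factorization p <
      ∑ _g : G, (charDegree χ).factorization p := by
    apply Finset.sum_lt_sum_of_nonempty Finset.univ_nonempty
    intro g _
    have h4 := hcon g
    rw [Subgroup.relIndex_top_right]
    omega
  rw [Finset.sum_const, Finset.card_univ, smul_eq_mul, ← Finset.mul_sum] at h3
  omega

end Key

end Cfsg.Agent.Lib.PrimChiefB
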