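import Cfsg.Agent.Lib.PrimeGraphExt

/-!
# Prime graph extensions from sections of permutation modules

If `G` acts on a finite set `X` and `W` is an invariant additive group of functions `X → ZMod p`
containing a nonconstant function, then `G` acts on `V = W / constants`, realised as the group of
differences `(x, y) ↦ f x - f y`.
-/

set_option autoImplicit false
set_option linter.unusedSectionVars false
set_option linter.style.haveILetI false

namespace Cfsg.Agent.Lib.PrimeGraphPerm

open Cfsg.Agent.Lib.PrimeGraphExt

variable {G : Type*} [Group G] {X : Type*} [MulAction G X] {p : ℕ}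

/-- Differences. -/
def delta (p : ℕ) (X : Type*) : (X → ZMod p) →+ (X → X → ZMod p) where
  toFun f := fun x y => f x - f y
  map_zero' := by
    funext x y
    simp
  map_add' f g := by
    funext x y
    simp only [Pi.add_apply]
    ring

/-- The group of differences of elements of `W`. -/
def diffGroup (W : AddSubgroup (X → ZMod p)) : AddSubgroup (X → X → ZMod p) :=
  W.map (delta p X)

/-- The action on differences. -/
def diffAct (W : AddSubgroup (X → ZMod p))
    (hinv : ∀ (g : G) (f : X → ZMod p), f ∈ W → (fun x => f (g⁻¹ • x)) ∈ W) (g : G) :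
    diffGroup W →+ diffGroup W where
  toFun u := ⟨fun x y => u.1 (g⁻¹ • x) (g⁻¹ • y), by
    obtain ⟨f, hf, hu⟩ := u.2
    refine ⟨fun x => f (g⁻¹ • x), hinv g f hf, ?_⟩
    funext x y
    have := congrFun (congrFun hu (g⁻¹ • x)) (g⁻¹ • y)
    exact this⟩
  map_zero' := rfl
  map_add' _ _ := rfl

/-- The action as a homomorphism to `MulAut`. -/
def diffHom (W : AddSubgroup (X → ZMod p))
    (hinv : ∀ (g : G) (f : X → ZMod p), f ∈ W → (fun x => f (g⁻¹ • x)) ∈ W) :
    G →* MulAut (Multiplicative (diffGroup W)) where
  toFun g := AddEquiv.toMultiplicative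
    { toFun := diffAct W hinv g
      invFun := diffAct W hinv g⁻¹
      left_inv := fun u => by
        apply Subtype.ext
        funext x y
        simp [diffAct]
      right_inv := fun u => by
        apply Subtype.ext
        funext x y
        simp [diffAct]
      map_add' := (diffAct W hinv g).map_add }
  map_one' := by
    ext u
    simp [diffAct]
  map_mul' a b := by
    ext u
    simp [diffAct, mul_smul]

theorem exists_large_of_perm_submodule [Finite G] [Finite X] [hp : Fact p.Prime]
    (W : AddSubgroup (X → ZMod p))
    (hinv : ∀ (g : G) (f : X → ZMod p), f ∈ W → (fun x => f (g⁻¹ • x)) ∈ W)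
    (hnc : ∃ f ∈ W, ∃ x y, f x ≠ f y) (hpG : p ∣ Nat.card G)
    (hfix : ∀ s : ℕ, s.Prime → s ≠ p → ∀ g : G, orderOf g = s → ∀ f ∈ W,
      (∀ x, f (g • x) = f x) → (∃ x y, f x ≠ f y) → ∃ x : G, orderOf x = p * s) (N : ℕ) :
    ∃ (H : Type) (_ : Group H) (_ : Fintype H), N < Fintype.card H ∧ SameGraph G H := by
  classical
  haveI : Finite (X → X → ZMod p) := inferInstance
  haveI : Nontrivial (Multiplicative (diffGroup W)) := by
    obtain ⟨f, hf, x, y, hxy⟩ := hnc
    refine ⟨⟨Multiplicative.ofAdd ⟨delta p X f, f, hf, rfl⟩, 1, ?_⟩⟩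
    intro h
    have h1 : delta p X f = 0 := congrArg (fun u : Multiplicative (diffGroup W) => (u.toAdd).1) h
    have h2 := congrFun (congrFun h1 x) y
    simp only [delta, AddMonoidHom.mk'_apply, Pi.zero_apply] at h2
    exact hxy (sub_eq_zero.mp h2)
  refine exists_large_sameGraph (diffHom W hinv) hp.out hpG ?_ ?_ N
  · intro v
    apply Multiplicative.toAdd.injective
    apply Subtype.ext
    funext x y
    show (p : ℕ) • (Multiplicative.toAdd v).1 x y = 0
    rw [nsmul_eq_mul]
    simp
  · intro s hs hsp g hg v hv hgv
    obtain ⟨f, hf, hfv⟩ := (Multiplicative.toAdd v).2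
    have hv' : ∀ x y, (Multiplicative.toAdd v).1 x y = f x - f y := fun x y =>
      (congrFun (congrFun hfv x) y).symm
    -- the invariance
    have hfix1 : ∀ x y, f (g⁻¹ • x) - f (g⁻¹ • y) = f x - f y := by
      intro x y
      have h1 : (Multiplicative.toAdd (diffHom W hinv g v)).1 x y =
          (Multiplicative.toAdd v).1 x y := by rw [hgv]
      have h2 : (Multiplicative.toAdd (diffHom W hinv g v)).1 x y =
          (Multiplicative.toAdd v).1 (g⁻¹ • x) (g⁻¹ • y) := rfl
      rw [h2, hv', hv'] at h1
      exact h1
    -- the constant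
    obtain ⟨c, hc⟩ : ∃ c : ZMod p, ∀ x, f (g⁻¹ • x) = f x + c := by
      by_cases hX : Nonempty X
      · obtain ⟨x₀⟩ := hX
        refine ⟨f (g⁻¹ • x₀) - f x₀, fun x => ?_⟩
        have := hfix1 x x₀
        linear_combination this
      · exact ⟨0, fun x => (hX ⟨x⟩).elim⟩
    have hpow : ∀ (k : ℕ) (x : X), f ((g⁻¹) ^ k • x) = f x + (k : ZMod p) * c := by
      intro k
      induction k with
      | zero => intro x; simp
      | succ k ih =>
        intro x
        rw [pow_succ, mul_smul, ih, hc]
        push_cast
        ring
    have hc0 : c = 0 := by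
      by_cases hX : Nonempty X
      · obtain ⟨x₀⟩ := hX
        have h1 := hpow s x₀
        have h2 : (g⁻¹) ^ s = 1 := by
          rw [inv_pow, ← hg, pow_orderOf_eq_one, inv_one]
        rw [h2, one_smul] at h1
        have h3 : (s : ZMod p) * c = 0 := by linear_combination -h1
        have h4 : (s : ZMod p) ≠ 0 := by
          intro h
          rw [ZMod.natCast_eq_zero_iff] at h
          exact hsp ((Nat.prime_dvd_prime_iff_eq hp.out hs).mp h).symm
        exact (mul_eq_zero.mp h3).resolve_left h4
      · by_contra
        obtain ⟨_, _, x, _, _⟩ := hnc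
        exact hX ⟨x⟩
    have hfg : ∀ x, f (g • x) = f x := by
      intro x
      have := hc (g • x)
      rw [inv_smul_smul, hc0, add_zero] at this
      exact this.symm
    have hne : ∃ x y, f x ≠ f y := by
      by_contra hcon
      push Not at hcon
      apply hv
      apply Multiplicative.toAdd.injective
      apply Subtype.ext
      funext x y
      show (Multiplicative.toAdd v).1 x y = 0
      rw [hv', hcon x y, sub_self]
    exact hfix s hs hsp g hg f hf hfg hne

end Cfsg.Agent.Lib.PrimeGraphPerm
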