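import Mathlib
import Cfsg.Prelude.Def_HallClasses
import Cfsg.Agent.Lib.PComplement

/-!
# Pronormality of overgroups of Sylow subgroups

Reduction of the pronormality of all overgroups of Sylow `p`-subgroups of `G` to `A`, `G/A` and
`N_G(T)/T` for a Sylow `p`-subgroup `T` of the normal subgroup `A`.
-/

set_option autoImplicit false
set_option linter.style.haveILetI false
set_option linter.unusedSectionVars false

open Cfsg

namespace Cfsg.Agent.Lib.PronormalSylow

section basics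

variable {G : Type*} [Group G]

/-- `g H g⁻¹` -/
def cj (g : G) (H : Subgroup G) : Subgroup G := H.map (MulAut.conj g).toMonoidHom

theorem mem_cj {H : Subgroup G} {g x : G} : x ∈ cj g H ↔ g⁻¹ * x * g ∈ H := by
  unfold cj
  constructor
  · rintro ⟨y, hy, rfl⟩
    simpa [MulAut.conj_apply, mul_assoc] using hy
  · intro h
    exact ⟨_, h, by simp [MulAut.conj_apply, mul_assoc]⟩

theorem conj_mem_cj {H : Subgroup G} {g x : G} (hx : x ∈ H) : g * x * g⁻¹ ∈ cj g H := by
  rw [mem_cj]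
  simpa [mul_assoc] using hx

theorem cj_mul (a b : G) (H : Subgroup G) : cj (a * b) H = cj a (cj b H) := by
  ext x
  rw [mem_cj, mem_cj, mem_cj]
  have : (a * b)⁻¹ * x * (a * b) = b⁻¹ * (a⁻¹ * x * a) * b := by group
  rw [this]

@[simp] theorem cj_one (H : Subgroup G) : cj 1 H = H := by
  ext x
  rw [mem_cj]
  simp

theorem cj_inv_cj (g : G) (H : Subgroup G) : cj g⁻¹ (cj g H) = H := by
  rw [← cj_mul]
  simp

theorem cj_cj_inv (g : G) (H : Subgroup G) : cj g (cj g⁻¹ H) = H := by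
  rw [← cj_mul]
  simp

theorem cj_mono {H K : Subgroup G} (g : G) (h : H ≤ K) : cj g H ≤ cj g K :=
  Subgroup.map_mono h

theorem exists_of_mem_cj {H : Subgroup G} {g x : G} (hx : x ∈ cj g H) :
    ∃ y ∈ H, x = g * y * g⁻¹ :=
  ⟨g⁻¹ * x * g, mem_cj.mp hx, by group⟩

theorem cj_sup (g : G) (H K : Subgroup G) : cj g (H ⊔ K) = cj g H ⊔ cj g K :=
  Subgroup.map_sup _ _ _

theorem cj_eq_self_iff {H : Subgroup G} {n : G} :
    cj n H = H ↔ n ∈ Subgroup.normalizer (H : Set G) := by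
  rw [Subgroup.mem_normalizer_iff]
  constructor
  · intro h x
    constructor
    · intro hx
      rw [← h]
      exact conj_mem_cj hx
    · intro hx
      rw [← h, mem_cj] at hx
      simpa [mul_assoc] using hx
  · intro hn
    ext x
    rw [mem_cj]
    have h1 := hn (n⁻¹ * x * n)
    have h2 : n * (n⁻¹ * x * n) * n⁻¹ = x := by group
    rw [h2] at h1
    exact h1

theorem cj_of_mem {H : Subgroup G} {h : G} (hh : h ∈ H) : cj h H = H := by
  rw [cj_eq_self_iff]
  exact Subgroup.le_normalizer hh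

theorem cj_le_of_mem {H J : Subgroup G} {g : G} (hg : g ∈ J) (hH : H ≤ J) : cj g H ≤ J := by
  intro x hx
  obtain ⟨y, hy, rfl⟩ := exists_of_mem_cj hx
  exact J.mul_mem (J.mul_mem hg (hH hy)) (J.inv_mem hg)

theorem map_cj {Q : Type*} [Group Q] (f : G →* Q) (g : G) (H : Subgroup G) :
    (cj g H).map f = cj (f g) (H.map f) := by
  unfold cj
  ext x
  constructor
  · rintro ⟨_, ⟨y, hy, rfl⟩, rfl⟩
    refine ⟨f y, ⟨y, hy, rfl⟩, ?_⟩
    simp [MulAut.conj_apply]
  · rintro ⟨_, ⟨y, hy, rfl⟩, rfl⟩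
    refine ⟨_, ⟨y, hy, rfl⟩, ?_⟩
    simp [MulAut.conj_apply]

/-- `H` and `gHg⁻¹` are conjugate in the subgroup they generate. -/
def PR (H : Subgroup G) (g : G) : Prop :=
  ∃ z ∈ H ⊔ cj g H, cj g H = cj z H

theorem isPronormal_iff {H : Subgroup G} : IsPronormal H ↔ ∀ g, PR H g := Iff.rfl

theorem PR.congr {H : Subgroup G} {g g' : G} (e : cj g H = cj g' H) (h : PR H g') : PR H g := by
  obtain ⟨z, hz, hz2⟩ := h
  exact ⟨z, by rwa [e], by rwa [e]⟩

theorem PR.of_normalizer {H : Subgroup G} {n : G} (hn : n ∈ Subgroup.normalizer (H : Set G)) :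
    PR H n := by
  refine ⟨1, Subgroup.one_mem _, ?_⟩
  rw [cj_eq_self_iff.mpr hn]
  simp

/-- The chain rule. -/
theorem PR.chain {H : Subgroup G} {y n : G} (hy : y ∈ H ⊔ cj (y * n) H) (h : PR H n) :
    PR H (y * n) := by
  obtain ⟨z, hz, hz2⟩ := h
  set J := H ⊔ cj (y * n) H with hJ
  have h1 : cj n H ≤ J := by
    have h2 : cj n H = cj y⁻¹ (cj (y * n) H) := by
      rw [← cj_mul]
      simp
    rw [h2]
    exact cj_le_of_mem (J.inv_mem hy) le_sup_right
  have h3 : H ⊔ cj n H ≤ J := sup_le le_sup_left h1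
  refine ⟨y * z, J.mul_mem hy (h3 hz), ?_⟩
  rw [cj_mul, hz2, cj_mul]

theorem isPronormal_cj {K : Subgroup G} (h : IsPronormal K) (c : G) : IsPronormal (cj c K) := by
  rw [isPronormal_iff] at h ⊢
  intro g
  obtain ⟨z, hz, hz2⟩ := h (c⁻¹ * g * c)
  have e : cj g (cj c K) = cj c (cj (c⁻¹ * g * c) K) := by
    rw [← cj_mul, ← cj_mul]
    congr 1
    group
  refine ⟨c * z * c⁻¹, ?_, ?_⟩
  · rw [e, ← cj_sup]
    exact conj_mem_cj hz
  · rw [e, hz2, ← cj_mul, ← cj_mul]
    congr 1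
    group

theorem isPronormal_map_of_surjective {M Q : Type*} [Group M] [Group Q] {φ : M →* Q}
    (hφ : Function.Surjective φ) {K : Subgroup M} (h : IsPronormal K) :
    IsPronormal (K.map φ) := by
  rw [isPronormal_iff] at h ⊢
  intro g
  obtain ⟨g, rfl⟩ := hφ g
  obtain ⟨z, hz, hz2⟩ := h g
  refine ⟨φ z, ?_, ?_⟩
  · have : (K ⊔ cj g K).map φ = K.map φ ⊔ cj (φ g) (K.map φ) := by
      rw [Subgroup.map_sup, map_cj]
    rw [← this]
    exact Subgroup.mem_map_of_mem φ hz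
  · rw [← map_cj, hz2, map_cj]

theorem isPronormal_of_map_injective {M : Type*} [Group M] {f : M →* G}
    (hf : Function.Injective f) {K : Subgroup M} (h : IsPronormal (K.map f)) : IsPronormal K := by
  rw [isPronormal_iff] at h ⊢
  intro g
  obtain ⟨z, hz, hz2⟩ := h (f g)
  have hj : K.map f ⊔ cj (f g) (K.map f) = (K ⊔ cj g K).map f := by
    rw [Subgroup.map_sup, map_cj]
  rw [hj] at hz
  obtain ⟨z', hz', rfl⟩ := hz
  refine ⟨z', hz', ?_⟩
  apply Subgroup.map_injective hf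
  rw [map_cj, hz2, map_cj]

end basics

section sylow

variable {G : Type*} [Group G] [Finite G] {p : ℕ} [Fact p.Prime]

theorem card_cj (g : G) (H : Subgroup G) : Nat.card (cj g H) = Nat.card H := by
  unfold cj
  exact Subgroup.card_map_of_injective (MulEquiv.injective _)

omit [Finite G] [Fact p.Prime] in
theorem isPGroup_cj {T : Subgroup G} (hT : IsPGroup p T) (g : G) : IsPGroup p (cj g T) :=
  hT.map _

/-- Two maximal `p`-subgroups of `X` are conjugate in `X`. -/
theorem exists_conj_of_max {X T T2 : Subgroup G} (hTX : T ≤ X) (hT2X : T2 ≤ X)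
    (hT : IsPGroup p T) (hT2 : IsPGroup p T2)
    (hmax : ∀ Q : Subgroup G, Q ≤ X → IsPGroup p Q → T ≤ Q → Q = T)
    (hmax2 : ∀ Q : Subgroup G, Q ≤ X → IsPGroup p Q → T2 ≤ Q → Q = T2) :
    ∃ c ∈ X, T2 = cj c T := by
  have key : ∀ {R : Subgroup G}, R ≤ X → IsPGroup p R →
      (∀ Q : Subgroup G, Q ≤ X → IsPGroup p Q → R ≤ Q → Q = R) →
      ∃ S : Sylow p X, (S : Subgroup X) = R.subgroupOf X := by
    intro R hRX hR hRm
    refine ⟨{ toSubgroup := R.subgroupOf X
              isPGroup' := hR.comap_subtype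
              is_maximal' := ?_ }, rfl⟩
    intro Q hQ hle
    have h1 : Q.map X.subtype ≤ X := Subgroup.map_subtype_le Q
    have h2 : IsPGroup p (Q.map X.subtype) := hQ.map _
    have h3 : R ≤ Q.map X.subtype := by
      intro x hx
      exact ⟨⟨x, hRX hx⟩, hle (by simpa [Subgroup.mem_subgroupOf] using hx), rfl⟩
    have h4 := hRm _ h1 h2 h3
    rw [← h4]
    exact (Subgroup.comap_map_eq_self_of_injective X.subtype_injective Q).symm
  obtain ⟨S1, hS1⟩ := key hTX hT hmax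
  obtain ⟨S2, hS2⟩ := key hT2X hT2 hmax2
  obtain ⟨c, hc⟩ := MulAction.exists_smul_eq X S1 S2
  refine ⟨c, c.2, ?_⟩
  have hS : ∀ x : X, x ∈ (S2 : Subgroup X) ↔ c⁻¹ * x * c ∈ (S1 : Subgroup X) := by
    intro x
    rw [← hc, Sylow.coe_subgroup_smul, Subgroup.mem_pointwise_smul_iff_inv_smul_mem]
    simp [MulAut.smul_def]
  ext x
  rw [mem_cj]
  constructor
  · intro hx
    have h1 : (⟨x, hT2X hx⟩ : X) ∈ (S2 : Subgroup X) := by
      rw [hS2]
      simpa [Subgroup.mem_subgroupOf] using hx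
    rw [hS, hS1] at h1
    simpa [Subgroup.mem_subgroupOf] using h1
  · intro hx
    have hxX : x ∈ X := by
      have h1 := X.mul_mem (X.mul_mem c.2 (hTX hx)) (X.inv_mem c.2)
      simpa [mul_assoc] using h1
    have h1 : (⟨x, hxX⟩ : X) ∈ (S2 : Subgroup X) := by
      rw [hS, hS1]
      simpa [Subgroup.mem_subgroupOf] using hx
    rw [hS2] at h1
    simpa [Subgroup.mem_subgroupOf] using h1

omit [Finite G] in
theorem sylow_max {A : Subgroup G} (T₀ : Sylow p A) {Q : Subgroup G} (hQA : Q ≤ A)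
    (hQ : IsPGroup p Q) (hTQ : (T₀ : Subgroup A).map A.subtype ≤ Q) :
    Q = (T₀ : Subgroup A).map A.subtype := by
  have h1 : IsPGroup p (Q.subgroupOf A) := hQ.comap_subtype
  have h2 : (T₀ : Subgroup A) ≤ Q.subgroupOf A := by
    intro x hx
    rw [Subgroup.mem_subgroupOf]
    exact hTQ ⟨x, hx, rfl⟩
  have h3 := T₀.is_maximal' h1 h2
  rw [← h3]
  exact (Subgroup.map_subgroupOf_eq_of_le hQA).symm

/-- A `p`-subgroup normalizing ... a Sylow subgroup containing `T` normalizes `T`. -/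
theorem sylow_le_normalizer {A : Subgroup G} [A.Normal] (T₀ : Sylow p A) (P : Subgroup G)
    (hP : IsPGroup p P) (hTP : (T₀ : Subgroup A).map A.subtype ≤ P) :
    P ≤ Subgroup.normalizer (((T₀ : Subgroup A).map A.subtype : Subgroup G) : Set G) := by
  set T := (T₀ : Subgroup A).map A.subtype with hT
  have hTA : T ≤ A := Subgroup.map_subtype_le _
  have h1 : P ⊓ A = T := by
    apply sylow_max T₀ inf_le_right (hP.to_le inf_le_left)
    exact le_inf hTP hTA
  intro x hx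
  rw [← cj_eq_self_iff, ← h1]
  apply le_antisymm
  · intro y hy
    obtain ⟨w, hw, rfl⟩ := exists_of_mem_cj hy
    exact ⟨P.mul_mem (P.mul_mem hx hw.1) (P.inv_mem hx), ‹A.Normal›.conj_mem w hw.2 x⟩
  · intro y hy
    rw [mem_cj]
    have hy' : x⁻¹ * y * x = x⁻¹ * y * x⁻¹⁻¹ := by simp
    rw [hy']
    exact ⟨P.mul_mem (P.mul_mem (P.inv_mem hx) hy.1) (P.inv_mem (P.inv_mem hx)),
      ‹A.Normal›.conj_mem y hy.2 x⁻¹⟩

/-- The lifting from the quotient of the normalizer. -/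
theorem lift_normalizer_quot (T : Subgroup G)
    [inst : (T.subgroupOf (Subgroup.normalizer (T : Set G))).Normal]
    {H₁ : Subgroup G} (hH₁ : H₁ ≤ Subgroup.normalizer (T : Set G)) (hTH₁ : T ≤ H₁)
    (hK : IsPronormal ((H₁.subgroupOf (Subgroup.normalizer (T : Set G))).map
      (QuotientGroup.mk' (T.subgroupOf (Subgroup.normalizer (T : Set G))))))
    {m : G} (hm : m ∈ Subgroup.normalizer (T : Set G)) :
    ∃ z ∈ H₁ ⊔ cj m H₁, cj m H₁ = cj z H₁ := by
  set N := Subgroup.normalizer (T : Set G) with hN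
  set T' := T.subgroupOf N with hT'
  set π' := QuotientGroup.mk' T' with hπ'
  set H₁' := H₁.subgroupOf N with hH₁'
  let m' : N := ⟨m, hm⟩
  have hH₁map : H₁'.map N.subtype = H₁ := Subgroup.map_subgroupOf_eq_of_le hH₁
  obtain ⟨xb, hxb, hxb2⟩ := hK (π' m')
  have hjoin : H₁'.map π' ⊔ cj (π' m') (H₁'.map π') = (H₁' ⊔ cj m' H₁').map π' := by
    rw [Subgroup.map_sup, map_cj]
  change xb ∈ H₁'.map π' ⊔ cj (π' m') (H₁'.map π') at hxb
  change cj (π' m') (H₁'.map π') = cj xb (H₁'.map π') at hxb2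
  rw [hjoin] at hxb
  obtain ⟨z', hz', rfl⟩ := hxb
  rw [← map_cj, ← map_cj] at hxb2
  have hker : π'.ker = T' := QuotientGroup.ker_mk' T'
  have hTH₁' : T' ≤ H₁' := by
    intro x hx
    rw [hH₁', Subgroup.mem_subgroupOf]
    exact hTH₁ hx
  have hcjT : ∀ g : N, T' ≤ cj g H₁' := by
    intro g x hx
    rw [mem_cj]
    apply hTH₁'
    have := inst.conj_mem x hx g⁻¹
    simpa using this
  have heq : cj m' H₁' = cj z' H₁' := by
    apply Subgroup.map_injective_of_ker_le π' (by rw [hker]; exact hcjT _)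
      (by rw [hker]; exact hcjT _) hxb2
  refine ⟨(z' : G), ?_, ?_⟩
  · have h1 : (H₁' ⊔ cj m' H₁').map N.subtype = H₁ ⊔ cj m H₁ := by
      rw [Subgroup.map_sup, map_cj, hH₁map]
      rfl
    rw [← h1]
    exact Subgroup.mem_map_of_mem _ hz'
  · have h1 := congrArg (Subgroup.map N.subtype) heq
    rw [map_cj, map_cj, hH₁map] at h1
    exact h1

theorem coe_smul_eq_cj (P : Sylow p G) (c : G) : ((c • P : Sylow p G) : Subgroup G) = cj c P := by
  ext x
  rw [Sylow.coe_subgroup_smul, Subgroup.mem_pointwise_smul_iff_inv_smul_mem, mem_cj]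
  simp [MulAut.smul_def]

theorem core2 (A : Subgroup G) [A.Normal]
    (hA : ∀ K : Subgroup ↥A, (∃ P : Sylow p ↥A, (P : Subgroup ↥A) ≤ K) → IsPronormal K)
    (hQ : ∀ K : Subgroup (G ⧸ A), (∃ P : Sylow p (G ⧸ A), (P : Subgroup (G ⧸ A)) ≤ K) →
      IsPronormal K)
    (T₀ : Sylow p ↥A) (T : Subgroup G) (hT : (T₀ : Subgroup ↥A).map A.subtype = T)
    [inst : (T.subgroupOf (Subgroup.normalizer (T : Set G))).Normal]
    (hi : ∀ K : Subgroup (↥(Subgroup.normalizer (T : Set G)) ⧸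
        T.subgroupOf (Subgroup.normalizer (T : Set G))),
      (∃ P : Sylow p (↥(Subgroup.normalizer (T : Set G)) ⧸
        T.subgroupOf (Subgroup.normalizer (T : Set G))), (P : Subgroup _) ≤ K) → IsPronormal K)
    (hii : ∀ K : Subgroup G, (∃ P : Sylow p G, (P : Subgroup G) ≤ K) →
      (Subgroup.normalizer (K : Set G)).map (QuotientGroup.mk' A) =
        Subgroup.normalizer ((K.map (QuotientGroup.mk' A) : Subgroup (G ⧸ A)) : Set (G ⧸ A)))
    {H : Subgroup G} (P : Sylow p G) (hTP : T ≤ P) (hPH : (P : Subgroup G) ≤ H) :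
    IsPronormal H := by
  have hTA : T ≤ A := by
    rw [← hT]
    exact Subgroup.map_subtype_le _
  have hTp : IsPGroup p T := by
    rw [← hT]
    exact T₀.2.map _
  have hTmax : ∀ Q : Subgroup G, Q ≤ A → IsPGroup p Q → T ≤ Q → Q = T := by
    intro Q h1 h2 h3
    rw [← hT] at h3 ⊢
    exact sylow_max T₀ h1 h2 h3
  set N := Subgroup.normalizer (T : Set G) with hN
  have hPN : (P : Subgroup G) ≤ N := by
    have := sylow_le_normalizer T₀ (P : Subgroup G) P.2 (by rw [hT]; exact hTP)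
    rwa [hT] at this
  set H₀ := H ⊓ A with hH₀
  have hTH₀ : T ≤ H₀ := le_inf (hTP.trans hPH) hTA
  have hH₀A : H₀ ≤ A := inf_le_right
  have hH₀norm : ∀ x ∈ H, cj x H₀ = H₀ := by
    intro x hx
    apply le_antisymm
    · intro y hy
      obtain ⟨w, hw, rfl⟩ := exists_of_mem_cj hy
      exact ⟨H.mul_mem (H.mul_mem hx hw.1) (H.inv_mem hx), ‹A.Normal›.conj_mem w hw.2 x⟩
    · intro y hy
      rw [mem_cj]
      have hy' : x⁻¹ * y * x = x⁻¹ * y * x⁻¹⁻¹ := by simp
      rw [hy']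
      exact ⟨H.mul_mem (H.mul_mem (H.inv_mem hx) hy.1) (H.inv_mem (H.inv_mem hx)),
        ‹A.Normal›.conj_mem y hy.2 x⁻¹⟩
  -- Frattini for `T` in `H₀`
  have L1 : ∀ n : G, cj n H₀ = H₀ → ∃ c ∈ H₀, cj n T = cj c T := by
    intro n hn
    apply exists_conj_of_max hTH₀ (by rw [← hn]; exact cj_mono n hTH₀) hTp (isPGroup_cj hTp n)
    · intro Q h1 h2 h3
      exact hTmax Q (h1.trans hH₀A) h2 h3
    · intro Q h1 h2 h3
      have h4 : cj n⁻¹ H₀ = H₀ := by
        conv_lhs => rw [← hn]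
        exact cj_inv_cj n H₀
      have h5 : cj n⁻¹ Q = T := by
        apply hTmax
        · exact (by rw [← h4]; exact cj_mono _ h1 : cj n⁻¹ Q ≤ H₀).trans hH₀A
        · exact isPGroup_cj h2 _
        · rw [← cj_inv_cj n T]
          exact cj_mono _ h3
      rw [← h5, cj_cj_inv]
  set H₁ := H ⊓ N with hH₁
  have hH₁H : H₁ ≤ H := inf_le_left
  have hH₁N : H₁ ≤ N := inf_le_right
  have hPH₁ : (P : Subgroup G) ≤ H₁ := le_inf hPH hPN
  have hTH₁ : T ≤ H₁ := hTP.trans hPH₁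
  have hKpron : IsPronormal ((H₁.subgroupOf N).map
      (QuotientGroup.mk' (T.subgroupOf N))) := by
    apply hi
    refine ⟨(P.subtype hPN).mapSurjective (f := QuotientGroup.mk' (T.subgroupOf N))
      (QuotientGroup.mk'_surjective _), ?_⟩
    rw [Sylow.coe_mapSurjective]
    apply Subgroup.map_mono
    rw [Sylow.coe_subtype]
    intro x hx
    rw [Subgroup.mem_subgroupOf] at hx ⊢
    exact hPH₁ hx
  have stepD : ∀ m : G, cj m T = T → cj m H₀ = H₀ → PR H m := by
    intro m hmT hmH₀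
    have hmN : m ∈ N := cj_eq_self_iff.mp hmT
    obtain ⟨z, hz, hz2⟩ := lift_normalizer_quot T hH₁N hTH₁ hKpron hmN
    set n₁ := z⁻¹ * m with hn₁
    have e : m = z * n₁ := by rw [hn₁]; group
    have hzJ : z ∈ H ⊔ cj (z * n₁) H := by
      rw [← e]
      exact (sup_le (hH₁H.trans le_sup_left) ((cj_mono m hH₁H).trans le_sup_right)) hz
    rw [e]
    apply PR.chain hzJ
    apply PR.of_normalizer
    have hminv : cj m⁻¹ H₀ = H₀ := by
      conv_lhs => rw [← hmH₀]
      exact cj_inv_cj m H₀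
    have hzH₀ : cj z H₀ = H₀ := by
      rw [cj_eq_self_iff]
      have hle : H₁ ⊔ cj m H₁ ≤ Subgroup.normalizer (H₀ : Set G) := by
        apply sup_le
        · intro x hx
          exact cj_eq_self_iff.mp (hH₀norm x hx.1)
        · intro y hy
          obtain ⟨w, hw, rfl⟩ := exists_of_mem_cj hy
          rw [← cj_eq_self_iff, cj_mul, cj_mul, hminv, hH₀norm w hw.1, hmH₀]
      exact hle hz
    have hzinv : cj z⁻¹ H₀ = H₀ := by
      conv_lhs => rw [← hzH₀]
      exact cj_inv_cj z H₀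
    have hn₁H₀ : cj n₁ H₀ = H₀ := by
      rw [hn₁, cj_mul, hmH₀, hzinv]
    have hn₁H₁ : cj n₁ H₁ = H₁ := by
      rw [hn₁, cj_mul, hz2, cj_inv_cj]
    rw [← cj_eq_self_iff]
    apply Subgroup.eq_of_le_of_card_ge _ (by rw [card_cj])
    intro y hy
    obtain ⟨x, hx, rfl⟩ := exists_of_mem_cj hy
    obtain ⟨c₀, hc₀, hc₀2⟩ := L1 x (hH₀norm x hx)
    have hc₀H : c₀ ∈ H := hc₀.1
    set x₁ := c₀⁻¹ * x with hx₁
    have hx₁N : x₁ ∈ N := by
      rw [← cj_eq_self_iff, hx₁, cj_mul, hc₀2, cj_inv_cj]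
    have hx₁H₁ : x₁ ∈ H₁ := ⟨H.mul_mem (H.inv_mem hc₀H) hx, hx₁N⟩
    have hxe : n₁ * x * n₁⁻¹ = (n₁ * c₀ * n₁⁻¹) * (n₁ * x₁ * n₁⁻¹) := by
      rw [hx₁]; group
    rw [hxe]
    apply H.mul_mem
    · have h1 : n₁ * c₀ * n₁⁻¹ ∈ cj n₁ H₀ := conj_mem_cj hc₀
      rw [hn₁H₀] at h1
      exact h1.1
    · have h1 : n₁ * x₁ * n₁⁻¹ ∈ cj n₁ H₁ := conj_mem_cj hx₁H₁
      rw [hn₁H₁] at h1
      exact h1.1
  have stepC : ∀ n : G, cj n H₀ = H₀ → PR H n := by
    intro n hn
    obtain ⟨c, hc, hc2⟩ := L1 n hn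
    set m := c⁻¹ * n with hm
    have e : n = c * m := by rw [hm]; group
    rw [e]
    apply PR.chain (Subgroup.mem_sup_left hc.1)
    apply stepD
    · rw [hm, cj_mul, hc2, cj_inv_cj]
    · have hcinv : cj c⁻¹ H₀ = H₀ := cj_of_mem (H₀.inv_mem hc)
      rw [hm, cj_mul, hn, hcinv]
  have stepB : ∀ a ∈ A, PR H a := by
    intro a ha
    have hK : IsPronormal (H.subgroupOf A) := by
      apply hA
      refine ⟨T₀, ?_⟩
      intro x hx
      rw [Subgroup.mem_subgroupOf]
      apply (hTP.trans hPH)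
      rw [← hT]
      exact ⟨x, hx, rfl⟩
    have hmapH₀ : (H.subgroupOf A).map A.subtype = H₀ := Subgroup.subgroupOf_map_subtype H A
    obtain ⟨b', hb', hb2⟩ := (isPronormal_iff.mp hK) ⟨a, ha⟩
    set b : G := (b' : G) with hb
    have h1 : b ∈ H₀ ⊔ cj a H₀ := by
      have h2 : (H.subgroupOf A ⊔ cj ⟨a, ha⟩ (H.subgroupOf A)).map A.subtype = H₀ ⊔ cj a H₀ := by
        rw [Subgroup.map_sup, map_cj, hmapH₀]
        rfl
      rw [← h2]
      exact Subgroup.mem_map_of_mem _ hb'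
    have h3 : cj a H₀ = cj b H₀ := by
      have h2 := congrArg (Subgroup.map A.subtype) hb2
      rw [map_cj, map_cj, hmapH₀] at h2
      exact h2
    set n := b⁻¹ * a with hn
    have e : a = b * n := by rw [hn]; group
    have hbJ : b ∈ H ⊔ cj (b * n) H := by
      rw [← e]
      exact (sup_le (inf_le_left.trans le_sup_left) ((cj_mono a inf_le_left).trans le_sup_right)) h1
    rw [e]
    apply PR.chain hbJ
    apply stepC
    rw [hn, cj_mul, h3, cj_inv_cj]
  -- step A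
  rw [isPronormal_iff]
  intro g
  let π := QuotientGroup.mk' A
  have hπ : Function.Surjective π := QuotientGroup.mk'_surjective A
  have hK : IsPronormal (H.map π) := by
    apply hQ
    refine ⟨P.mapSurjective (f := π) hπ, ?_⟩
    rw [Sylow.coe_mapSurjective]
    exact Subgroup.map_mono hPH
  obtain ⟨xb, hxb, hxb2⟩ := (isPronormal_iff.mp hK) (π g)
  have hjoin : H.map π ⊔ cj (π g) (H.map π) = (H ⊔ cj g H).map π := by
    rw [Subgroup.map_sup, map_cj]
  rw [hjoin] at hxb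
  obtain ⟨y, hy, rfl⟩ := hxb
  set n := y⁻¹ * g with hn
  have e : g = y * n := by rw [hn]; group
  rw [e]
  apply PR.chain (by rw [← e]; exact hy)
  have hπn : π n ∈ Subgroup.normalizer ((H.map π : Subgroup (G ⧸ A)) : Set (G ⧸ A)) := by
    rw [← cj_eq_self_iff, hn, map_mul, cj_mul, hxb2, map_inv, cj_inv_cj]
  rw [← hii H ⟨P, hPH⟩] at hπn
  obtain ⟨h, hh, hh2⟩ := hπn
  have hker : n * h⁻¹ ∈ A := by
    rw [← QuotientGroup.eq_one_iff]
    have : ((n * h⁻¹ : G) : G ⧸ A) = π n * (π h)⁻¹ := rfl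
    rw [this, ← hh2]
    exact mul_inv_cancel (π h)
  apply PR.congr _ (stepB _ hker)
  have e2 : n = (n * h⁻¹) * h := by group
  conv_lhs => rw [e2]
  rw [cj_mul, cj_eq_self_iff.mpr hh]

/-- Reverse direction in general: all overgroups of Sylow subgroups of `G` are pronormal. -/
theorem core (A : Subgroup G) [A.Normal]
    (hA : ∀ K : Subgroup ↥A, (∃ P : Sylow p ↥A, (P : Subgroup ↥A) ≤ K) → IsPronormal K)
    (hQ : ∀ K : Subgroup (G ⧸ A), (∃ P : Sylow p (G ⧸ A), (P : Subgroup (G ⧸ A)) ≤ K) →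
      IsPronormal K)
    (T : Subgroup G) (hT : ∃ P : Sylow p ↥A, (P : Subgroup ↥A).map A.subtype = T)
    [inst : (T.subgroupOf (Subgroup.normalizer (T : Set G))).Normal]
    (hi : ∀ K : Subgroup (↥(Subgroup.normalizer (T : Set G)) ⧸
        T.subgroupOf (Subgroup.normalizer (T : Set G))),
      (∃ P : Sylow p (↥(Subgroup.normalizer (T : Set G)) ⧸
        T.subgroupOf (Subgroup.normalizer (T : Set G))), (P : Subgroup _) ≤ K) → IsPronormal K)
    (hii : ∀ K : Subgroup G, (∃ P : Sylow p G, (P : Subgroup G) ≤ K) →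
      (Subgroup.normalizer (K : Set G)).map (QuotientGroup.mk' A) =
        Subgroup.normalizer ((K.map (QuotientGroup.mk' A) : Subgroup (G ⧸ A)) : Set (G ⧸ A))) :
    ∀ K : Subgroup G, (∃ P : Sylow p G, (P : Subgroup G) ≤ K) → IsPronormal K := by
  rintro H ⟨P, hPH⟩
  obtain ⟨T₀, hT₀⟩ := hT
  obtain ⟨R, hR⟩ := Cfsg.Agent.Lib.PComplement.exists_sylow_subgroupOf P A
  obtain ⟨a, ha⟩ := MulAction.exists_smul_eq A R T₀
  set c : G := (a : G) with hc
  have hTP : T ≤ ((c • P : Sylow p G) : Subgroup G) := by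
    rw [coe_smul_eq_cj, ← hT₀]
    rintro _ ⟨t, ht, rfl⟩
    rw [mem_cj]
    have h1 : t ∈ (T₀ : Subgroup A) := ht
    rw [← ha, Sylow.coe_subgroup_smul, Subgroup.mem_pointwise_smul_iff_inv_smul_mem, hR,
      Subgroup.mem_subgroupOf] at h1
    simpa [MulAut.smul_def] using h1
  have hPH' : ((c • P : Sylow p G) : Subgroup G) ≤ cj c H := by
    rw [coe_smul_eq_cj]
    exact cj_mono c hPH
  have h1 := core2 A hA hQ T₀ T hT₀ hi hii (c • P) hTP hPH'
  have h2 := isPronormal_cj h1 c⁻¹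
  rwa [cj_inv_cj] at h2

theorem map_normalizer_le {Q : Type*} [Group Q] {π : G →* Q} (hπ : Function.Surjective π)
    (K : Subgroup G) :
    (Subgroup.normalizer (K : Set G)).map π ≤ Subgroup.normalizer ((K.map π : Subgroup Q) : Set Q) := by
  rintro _ ⟨n, hn, rfl⟩
  rw [← cj_eq_self_iff, ← map_cj, cj_eq_self_iff.mpr hn]

/-- Forward direction, part (i). -/
theorem forward_i (A : Subgroup G) [A.Normal]
    (T : Subgroup G) (hT : ∃ P : Sylow p ↥A, (P : Subgroup ↥A).map A.subtype = T)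
    [inst : (T.subgroupOf (Subgroup.normalizer (T : Set G))).Normal]
    (hall : ∀ K : Subgroup G, (∃ P : Sylow p G, (P : Subgroup G) ≤ K) → IsPronormal K) :
    ∀ K : Subgroup (↥(Subgroup.normalizer (T : Set G)) ⧸
        T.subgroupOf (Subgroup.normalizer (T : Set G))),
      (∃ P : Sylow p (↥(Subgroup.normalizer (T : Set G)) ⧸
        T.subgroupOf (Subgroup.normalizer (T : Set G))), (P : Subgroup _) ≤ K) → IsPronormal K := by
  rintro K ⟨Sb, hSb⟩
  obtain ⟨T₀, rfl⟩ := hT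
  set T := (T₀ : Subgroup A).map A.subtype with hTdef
  set N := Subgroup.normalizer (T : Set G) with hN
  set π' := QuotientGroup.mk' (T.subgroupOf N) with hπ'
  have hTp : IsPGroup p T := T₀.2.map _
  have hπ's : Function.Surjective π' := QuotientGroup.mk'_surjective _
  have hker : IsPGroup p π'.ker := by
    rw [hπ', QuotientGroup.ker_mk']
    exact hTp.comap_subtype
  obtain ⟨P₀, hP₀⟩ := hTp.exists_le_sylow
  have hP₀N : (P₀ : Subgroup G) ≤ N := sylow_le_normalizer T₀ _ P₀.2 hP₀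
  have hNidx : ¬ p ∣ N.index := fun h =>
    P₀.not_dvd_index (h.trans (Subgroup.index_dvd_of_le hP₀N))
  set R := (Sb : Subgroup _).comap π' with hR
  have hRp : IsPGroup p R := Sb.2.comap_of_ker_isPGroup π' hker
  have hRidx : ¬ p ∣ R.index := by
    rw [hR, Subgroup.index_comap_of_surjective _ hπ's]
    exact Sb.not_dvd_index
  set R2 := R.map N.subtype with hR2
  have hR2p : IsPGroup p R2 := hRp.map _
  have hR2idx : ¬ p ∣ R2.index := by
    rw [hR2, Subgroup.index_map_subtype, (Fact.out : p.Prime).dvd_mul]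
    tauto
  have h1 : IsPronormal ((K.comap π').map N.subtype) := by
    apply hall
    refine ⟨hR2p.toSylow hR2idx, ?_⟩
    rw [IsPGroup.toSylow_coe]
    exact Subgroup.map_mono (Subgroup.comap_mono hSb)
  have h2 : IsPronormal (K.comap π') := isPronormal_of_map_injective N.subtype_injective h1
  have h3 := isPronormal_map_of_surjective hπ's h2
  rwa [Subgroup.map_comap_eq_self_of_surjective hπ's] at h3

/-- Forward direction, part (ii). -/
theorem forward_ii (A : Subgroup G) [A.Normal]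
    (hall : ∀ K : Subgroup G, (∃ P : Sylow p G, (P : Subgroup G) ≤ K) → IsPronormal K) :
    ∀ K : Subgroup G, (∃ P : Sylow p G, (P : Subgroup G) ≤ K) →
      (Subgroup.normalizer (K : Set G)).map (QuotientGroup.mk' A) =
        Subgroup.normalizer ((K.map (QuotientGroup.mk' A) : Subgroup (G ⧸ A)) : Set (G ⧸ A)) := by
  intro K hK
  let π := QuotientGroup.mk' A
  have hπ : Function.Surjective π := QuotientGroup.mk'_surjective A
  apply le_antisymm (map_normalizer_le hπ K)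
  intro gb hgb
  obtain ⟨g, rfl⟩ := hπ gb
  obtain ⟨x, hx, hx2⟩ := (isPronormal_iff.mp (hall K hK)) g
  have hcj : cj (π g) (K.map π) = K.map π := cj_eq_self_iff.mpr hgb
  have hxK : π x ∈ K.map π := by
    have h1 : K ⊔ cj g K ≤ (K.map π).comap π := by
      apply sup_le
      · exact Subgroup.le_comap_map _ _
      · rw [← Subgroup.map_le_iff_le_comap, map_cj, hcj]
    exact h1 hx
  obtain ⟨k, hk, hk2⟩ := hxK
  have hn : x⁻¹ * g ∈ Subgroup.normalizer (K : Set G) := by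
    rw [← cj_eq_self_iff, cj_mul, hx2, cj_inv_cj]
  refine ⟨k * (x⁻¹ * g), Subgroup.mul_mem _ (Subgroup.le_normalizer hk) hn, ?_⟩
  rw [map_mul, hk2, ← map_mul]
  congr 1
  group

/-- Overgroups of self-normalizing Sylow subgroups are pronormal. -/
theorem pronormal_of_selfnorm
    (hS : ∀ P : Sylow p G, Subgroup.normalizer ((P : Subgroup G) : Set G) = P) :
    ∀ K : Subgroup G, (∃ P : Sylow p G, (P : Subgroup G) ≤ K) → IsPronormal K := by
  rintro K ⟨P, hP⟩
  rw [isPronormal_iff]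
  intro g
  set J := K ⊔ cj g K with hJ
  have hPJ : (P : Subgroup G) ≤ J := hP.trans le_sup_left
  have hgP : cj g (P : Subgroup G) ≤ J := (cj_mono g hP).trans le_sup_right
  have hmax : ∀ (R : Sylow p G) (Q : Subgroup G), Q ≤ J → IsPGroup p Q → (R : Subgroup G) ≤ Q →
      Q = R := fun R Q _ h2 h3 => R.is_maximal' h2 h3
  obtain ⟨x, hx, hx2⟩ := exists_conj_of_max hPJ hgP P.2 (isPGroup_cj P.2 g) (hmax P)
    (by
      rw [← coe_smul_eq_cj]
      exact hmax (g • P))
  refine ⟨x, hx, ?_⟩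
  have hn : x⁻¹ * g ∈ Subgroup.normalizer (((P : Subgroup G)) : Set G) := by
    rw [← cj_eq_self_iff, cj_mul, hx2, cj_inv_cj]
  rw [hS] at hn
  have e : g = x * (x⁻¹ * g) := by group
  conv_lhs => rw [e]
  rw [cj_mul, cj_of_mem (hP hn)]

/-- Part (ii) for self-normalizing Sylow subgroups. -/
theorem hii_of_selfnorm (A : Subgroup G) [A.Normal]
    (hS : ∀ P : Sylow p (G ⧸ A), Subgroup.normalizer ((P : Subgroup (G ⧸ A)) : Set (G ⧸ A)) = P) :
    ∀ K : Subgroup G, (∃ P : Sylow p G, (P : Subgroup G) ≤ K) →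
      (Subgroup.normalizer (K : Set G)).map (QuotientGroup.mk' A) =
        Subgroup.normalizer ((K.map (QuotientGroup.mk' A) : Subgroup (G ⧸ A)) : Set (G ⧸ A)) := by
  rintro K ⟨P, hP⟩
  let π := QuotientGroup.mk' A
  have hπ : Function.Surjective π := QuotientGroup.mk'_surjective A
  apply le_antisymm (map_normalizer_le hπ K)
  intro gb hgb
  have hcj : cj gb (K.map π) = K.map π := cj_eq_self_iff.mpr hgb
  let Sb : Sylow p (G ⧸ A) := P.mapSurjective (f := π) hπ
  have hSb : (Sb : Subgroup (G ⧸ A)) ≤ K.map π := by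
    show (P : Subgroup G).map π ≤ _
    exact Subgroup.map_mono hP
  have hmax : ∀ (R : Sylow p (G ⧸ A)) (Q : Subgroup (G ⧸ A)), Q ≤ K.map π → IsPGroup p Q →
      (R : Subgroup _) ≤ Q → Q = R := fun R Q _ h2 h3 => R.is_maximal' h2 h3
  obtain ⟨x, hx, hx2⟩ := exists_conj_of_max hSb (by rw [← hcj]; exact cj_mono gb hSb) Sb.2
    (isPGroup_cj Sb.2 gb) (hmax Sb) (by
      rw [← coe_smul_eq_cj]
      exact hmax (gb • Sb))
  have hn : x⁻¹ * gb ∈ Subgroup.normalizer ((Sb : Subgroup (G ⧸ A)) : Set (G ⧸ A)) := by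
    rw [← cj_eq_self_iff, cj_mul, hx2, cj_inv_cj]
  rw [hS] at hn
  have h1 : gb ∈ K.map π := by
    have e : gb = x * (x⁻¹ * gb) := by group
    rw [e]
    exact Subgroup.mul_mem _ hx (hSb hn)
  exact Subgroup.map_mono Subgroup.le_normalizer h1

end sylow

end Cfsg.Agent.Lib.PronormalSylow
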