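import Mathlib
import Cfsg.Agent.Lib.St2Pres

set_option autoImplicit false

namespace Cfsg.Agent.Lib.PrsSL2

variable {F Γ : Type*} [Field F] [Group Γ]

abbrev SL2 (F : Type*) [Field F] := Matrix.SpecialLinearGroup (Fin 2) F

theorem exists_hom [Finite F] (x y : F → Γ)
    (hx : ∀ s t, x s * x t = x (s + t)) (hy : ∀ s t, y s * y t = y (s + t))
    (cx : ∀ t u, t ≠ 0 → (x t * y (-t⁻¹) * x t) * x u * (x t * y (-t⁻¹) * x t)⁻¹ = y (-(t⁻¹ ^ 2 * u)))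
    (cy : ∀ t u, t ≠ 0 → (y t * x (-t⁻¹) * y t) * y u * (y t * x (-t⁻¹) * y t)⁻¹ = x (-(t⁻¹ ^ 2 * u))) :
    ∃ ψ : SL2 F →* Γ, (∀ t, ψ (St2.mx F (true, t)) = x t) ∧ (∀ t, ψ (St2.mx F (false, t)) = y t) := by
  classical
  obtain ⟨e, he1, he2⟩ := St2.main F
  let f : Bool × F → Γ := fun p => if p.1 then x p.2 else y p.2
  have hf : ∀ r ∈ St2.rels F, FreeGroup.lift f r = 1 := by
    rintro r (⟨b, t, u, rfl⟩ | ⟨b, t, u, ht, rfl⟩)
    · cases b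
      · simp only [map_mul, map_inv, FreeGroup.lift_apply_of, f]
        simp [hy]
      · simp only [map_mul, map_inv, FreeGroup.lift_apply_of, f]
        simp [hx]
    · cases b
      · simp only [map_mul, map_inv, FreeGroup.lift_apply_of, f]
        simpa [mul_inv_eq_one] using cy t u ht
      · simp only [map_mul, map_inv, FreeGroup.lift_apply_of, f]
        simpa [mul_inv_eq_one] using cx t u ht
  let ψ₀ : PresentedGroup (St2.rels F) →* Γ := PresentedGroup.toGroup hf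
  refine ⟨ψ₀.comp e.symm.toMonoidHom, ?_, ?_⟩
  · intro t
    have : e (PresentedGroup.of (true, t)) = St2.mx F (true, t) := Subtype.ext (he1 t)
    simp only [MonoidHom.comp_apply, MulEquiv.coe_toMonoidHom]
    rw [← this, MulEquiv.symm_apply_apply]
    simp [ψ₀, f, PresentedGroup.toGroup.of]
  · intro t
    have : e (PresentedGroup.of (false, t)) = St2.mx F (false, t) := Subtype.ext (he2 t)
    simp only [MonoidHom.comp_apply, MulEquiv.coe_toMonoidHom]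
    rw [← this, MulEquiv.symm_apply_apply]
    simp [ψ₀, f, PresentedGroup.toGroup.of]

/-- Torus-Weyl data. -/
structure TD (F Γ : Type*) [Field F] [Group Γ] where
  ζ : F
  hζ : ζ ≠ 0
  gen : ∀ t : F, t ≠ 0 → ∃ k : ℕ, t = ζ ^ k
  x : F → Γ
  h : Γ
  τ : Γ
  add : ∀ s t, x s * x t = x (s + t)
  hx : ∀ t, h * x t * h⁻¹ = x (ζ ^ 2 * t)
  hτ : h * τ = τ * h⁻¹
  B1 : x 1 * (τ * x 1 * τ⁻¹) * x 1 = τ
  B2 : x ζ * (τ * x ζ⁻¹ * τ⁻¹) * x ζ = h * τ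

namespace TD

variable (D : TD F Γ)

lemma x_zero : D.x 0 = 1 := by
  have := D.add 0 0
  rw [add_zero] at this
  exact mul_eq_left.1 this

lemma x_neg (t : F) : D.x (-t) = (D.x t)⁻¹ := by
  rw [eq_inv_iff_mul_eq_one, D.add, neg_add_cancel, x_zero]

/-- the lower unipotent elements -/
def y (v : F) : Γ := D.τ * D.x (-v) * D.τ⁻¹

lemma y_add (s t : F) : D.y s * D.y t = D.y (s + t) := by
  simp only [y]
  calc D.τ * D.x (-s) * D.τ⁻¹ * (D.τ * D.x (-t) * D.τ⁻¹)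
      = D.τ * (D.x (-s) * D.x (-t)) * D.τ⁻¹ := by group
    _ = _ := by rw [D.add, neg_add]

/-- `w t`. -/
def w (t : F) : Γ := D.x t * (D.τ * D.x t⁻¹ * D.τ⁻¹) * D.x t

lemma w_eq (t : F) : D.w t = D.x t * D.y (-t⁻¹) * D.x t := by
  simp [w, y]

lemma h_inv_x (t : F) : D.h⁻¹ * D.x t * D.h = D.x ((D.ζ ^ 2)⁻¹ * t) := by
  have := D.hx ((D.ζ ^ 2)⁻¹ * t)
  rw [mul_inv_cancel_left₀ (pow_ne_zero 2 D.hζ)] at this
  rw [← this]; group

lemma h_w {t : F} (ht : t ≠ 0) : D.h * D.w t * D.h⁻¹ = D.w (D.ζ ^ 2 * t) := by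
  have hτ' : D.h * D.τ = D.τ * D.h⁻¹ := D.hτ
  have hτ'' : D.τ⁻¹ * D.h⁻¹ = D.h * D.τ⁻¹ := by
    have := congrArg (fun a => a⁻¹) hτ'
    simpa using this
  have key : D.h * (D.τ * D.x t⁻¹ * D.τ⁻¹) * D.h⁻¹ = D.τ * D.x (D.ζ ^ 2 * t)⁻¹ * D.τ⁻¹ := by
    have e : (D.ζ ^ 2 * t)⁻¹ = (D.ζ ^ 2)⁻¹ * t⁻¹ := mul_inv _ _
    rw [e, ← D.h_inv_x]
    calc D.h * (D.τ * D.x t⁻¹ * D.τ⁻¹) * D.h⁻¹
        = (D.h * D.τ) * D.x t⁻¹ * (D.τ⁻¹ * D.h⁻¹) := by group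
      _ = (D.τ * D.h⁻¹) * D.x t⁻¹ * (D.h * D.τ⁻¹) := by rw [hτ', hτ'']
      _ = _ := by group
  calc D.h * D.w t * D.h⁻¹
      = (D.h * D.x t * D.h⁻¹) * (D.h * (D.τ * D.x t⁻¹ * D.τ⁻¹) * D.h⁻¹) * (D.h * D.x t * D.h⁻¹) := by
        simp only [w]; group
    _ = _ := by rw [D.hx, key]; rfl

lemma h_pow_τ (k : ℕ) : D.h * (D.h ^ k * D.τ) * D.h⁻¹ = D.h ^ (k + 2) * D.τ := by
  have hτ' : D.τ * D.h⁻¹ = D.h * D.τ := D.hτ.symm
  calc D.h * (D.h ^ k * D.τ) * D.h⁻¹ = D.h * D.h ^ k * (D.τ * D.h⁻¹) := by group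
    _ = D.h * D.h ^ k * (D.h * D.τ) := by rw [hτ']
    _ = _ := by rw [pow_add]; group

lemma w_pow (k : ℕ) : D.w (D.ζ ^ k) = D.h ^ k * D.τ := by
  induction k using Nat.strong_induction_on with
  | _ k ih =>
    match k, ih with
    | 0, _ =>
      simp only [pow_zero, one_mul, w, inv_one]
      exact D.B1
    | 1, _ =>
      simp only [pow_one, w]
      exact D.B2
    | k + 2, ih =>
      have h1 := ih k (by omega)
      have h2 := D.h_w (pow_ne_zero k D.hζ)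
      rw [h1, D.h_pow_τ] at h2
      rw [pow_add, mul_comm, ← h2]

lemma w_neg (t : F) : D.w (-t) = (D.w t)⁻¹ := by
  simp only [w, inv_neg, x_neg, mul_inv_rev, mul_assoc, inv_inv]

lemma w_one : D.w 1 = D.τ := by
  simpa using D.w_pow 0

lemma hpow_x (k : ℕ) (t : F) : D.h ^ k * D.x t * (D.h ^ k)⁻¹ = D.x ((D.ζ ^ k) ^ 2 * t) := by
  induction k generalizing t with
  | zero => simp
  | succ k ih =>
    calc D.h ^ (k + 1) * D.x t * (D.h ^ (k + 1))⁻¹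
        = D.h ^ k * (D.h * D.x t * D.h⁻¹) * (D.h ^ k)⁻¹ := by
          rw [pow_succ]; group
      _ = _ := by
        rw [D.hx, ih]; congr 1; ring

/-- `τ²` commutes with the upper root group. -/
lemma τ_sq_comm (t : F) : D.τ * D.τ * D.x t = D.x t * (D.τ * D.τ) := by
  obtain ⟨k, hk⟩ := D.gen (-1) (neg_ne_zero.2 one_ne_zero)
  have h1 : D.w (-1) = D.h ^ k * D.τ := by rw [hk, D.w_pow]
  rw [w_neg, w_one] at h1
  have h2 : (D.τ * D.τ)⁻¹ = D.h ^ k := by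
    calc (D.τ * D.τ)⁻¹ = D.τ⁻¹ * D.τ⁻¹ := mul_inv_rev _ _
      _ = D.h ^ k * D.τ * D.τ⁻¹ := by nth_rewrite 1 [h1]; rfl
      _ = _ := by group
  have h3 : D.h ^ k * D.x t * (D.h ^ k)⁻¹ = D.x t := by
    rw [hpow_x, ← hk]; simp
  rw [← h2] at h3
  simp only [inv_inv] at h3
  calc D.τ * D.τ * D.x t = D.τ * D.τ * ((D.τ * D.τ)⁻¹ * D.x t * (D.τ * D.τ)) := by rw [h3]
    _ = _ := by group

lemma τ_y (v : F) : D.τ * D.y v * D.τ⁻¹ = D.x (-v) := by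
  simp only [y]
  have := D.τ_sq_comm (-v)
  calc D.τ * (D.τ * D.x (-v) * D.τ⁻¹) * D.τ⁻¹ = (D.τ * D.τ * D.x (-v)) * (D.τ * D.τ)⁻¹ := by group
    _ = _ := by rw [this]; group

lemma τinv_y (v : F) : D.τ⁻¹ * D.y v * D.τ = D.x (-v) := by
  simp only [y]; group

lemma τ_x (u : F) : D.τ * D.x u * D.τ⁻¹ = D.y (-u) := by
  simp [y]

lemma cx {t : F} (ht : t ≠ 0) (u : F) :
    (D.x t * D.y (-t⁻¹) * D.x t) * D.x u * (D.x t * D.y (-t⁻¹) * D.x t)⁻¹ = D.y (-(t⁻¹ ^ 2 * u)) := by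
  obtain ⟨k, rfl⟩ := D.gen t ht
  rw [← w_eq, w_pow]
  have h1 : D.h ^ k * D.τ = D.τ * (D.h ^ k)⁻¹ := by
    have hτ' : D.h * D.τ = D.τ * D.h⁻¹ := D.hτ
    clear ht
    induction k with
    | zero => simp
    | succ k ih =>
      calc D.h ^ (k + 1) * D.τ = D.h ^ k * (D.h * D.τ) := by rw [pow_succ]; group
        _ = D.h ^ k * D.τ * D.h⁻¹ := by rw [hτ']; group
        _ = D.τ * (D.h ^ k)⁻¹ * D.h⁻¹ := by rw [ih]
        _ = _ := by rw [pow_succ]; group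
  have h2 : (D.h ^ k)⁻¹ * D.x u * D.h ^ k = D.x (((D.ζ ^ k)⁻¹) ^ 2 * u) := by
    have := D.hpow_x k (((D.ζ ^ k)⁻¹) ^ 2 * u)
    have hz : (D.ζ ^ k) ^ 2 * (((D.ζ ^ k)⁻¹) ^ 2 * u) = u := by
      have : D.ζ ^ k ≠ 0 := pow_ne_zero k D.hζ
      field_simp
    rw [hz] at this
    rw [← this]; group
  have h3 : D.y (-(((D.ζ ^ k)⁻¹) ^ 2 * u)) = D.τ * D.x (((D.ζ ^ k)⁻¹) ^ 2 * u) * D.τ⁻¹ := by
    simp [y]
  rw [h3, ← h2, h1]
  group

lemma cy {t : F} (ht : t ≠ 0) (v : F) :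
    (D.y t * D.x (-t⁻¹) * D.y t) * D.y v * (D.y t * D.x (-t⁻¹) * D.y t)⁻¹ = D.x (-(t⁻¹ ^ 2 * v)) := by
  have h1 : D.y t * D.x (-t⁻¹) * D.y t = D.τ * (D.x (-t) * D.y (-(-t)⁻¹) * D.x (-t)) * D.τ⁻¹ := by
    have e1 : -(-t)⁻¹ = t⁻¹ := by simp
    rw [e1]
    have e2 : D.x (-t⁻¹) = D.τ * D.y t⁻¹ * D.τ⁻¹ := (D.τ_y _).symm
    rw [e2]
    simp only [y]
    group
  have h2 := D.cx (neg_ne_zero.2 ht) (-v)
  have e3 : -((-t)⁻¹ ^ 2 * -v) = t⁻¹ ^ 2 * v := by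
    simp [neg_sq]
  rw [e3] at h2
  rw [h1]
  have h3 := D.τ_y (t⁻¹ ^ 2 * v)
  rw [← h3, ← h2, ← D.τinv_y v]
  group

end TD


/-! ### Matrices -/

/-- upper unipotent -/
abbrev xm (t : F) : SL2 F := St2.mx F (true, t)
/-- lower unipotent -/
abbrev ym (t : F) : SL2 F := St2.mx F (false, t)

/-- torus generator -/
def hm (ζ : F) (hζ : ζ ≠ 0) : SL2 F :=
  ⟨!![ζ, 0; 0, ζ⁻¹], by simp [Matrix.det_fin_two_of, hζ]⟩

/-- Weyl element -/
def τm (F : Type*) [Field F] : SL2 F :=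
  ⟨!![0, 1; -1, 0], by simp [Matrix.det_fin_two_of]⟩

lemma xm_add (s t : F) : xm s * xm t = xm (s + t) := St2.mx_add true s t

lemma xm_zero : xm (0 : F) = 1 := by
  have := xm_add (0 : F) 0
  rw [add_zero] at this
  exact mul_eq_left.1 this

lemma τm_inv_coe : ((τm F)⁻¹ : SL2 F).1 = !![0, -1; 1, 0] := by
  rw [Matrix.SpecialLinearGroup.coe_inv]
  simp [τm, Matrix.adjugate_fin_two]

lemma hm_inv_coe (ζ : F) (hζ : ζ ≠ 0) : ((hm ζ hζ)⁻¹ : SL2 F).1 = !![ζ⁻¹, 0; 0, ζ] := by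
  rw [Matrix.SpecialLinearGroup.coe_inv]
  simp [hm, Matrix.adjugate_fin_two]

lemma τm_xm_τm (t : F) : τm F * xm (-t) * (τm F)⁻¹ = ym t := by
  apply Subtype.ext
  simp only [Matrix.SpecialLinearGroup.coe_mul, τm_inv_coe]
  simp [τm, Matrix.mul_fin_two]

lemma hm_xm (ζ : F) (hζ : ζ ≠ 0) (t : F) : hm ζ hζ * xm t * (hm ζ hζ)⁻¹ = xm (ζ ^ 2 * t) := by
  apply Subtype.ext
  simp only [Matrix.SpecialLinearGroup.coe_mul, hm_inv_coe]
  simp [hm, Matrix.mul_fin_two, hζ]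
  ring

lemma hm_τm (ζ : F) (hζ : ζ ≠ 0) : hm ζ hζ * τm F = τm F * (hm ζ hζ)⁻¹ := by
  apply Subtype.ext
  simp only [Matrix.SpecialLinearGroup.coe_mul, hm_inv_coe]
  simp [hm, τm, Matrix.mul_fin_two, hζ]

lemma B1m : xm (1 : F) * (τm F * xm 1 * (τm F)⁻¹) * xm 1 = τm F := by
  apply Subtype.ext
  simp only [Matrix.SpecialLinearGroup.coe_mul, τm_inv_coe]
  simp [τm, Matrix.mul_fin_two]

lemma B2m (ζ : F) (hζ : ζ ≠ 0) :
    xm ζ * (τm F * xm ζ⁻¹ * (τm F)⁻¹) * xm ζ = hm ζ hζ * τm F := by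
  apply Subtype.ext
  simp only [Matrix.SpecialLinearGroup.coe_mul, τm_inv_coe]
  simp [hm, τm, Matrix.mul_fin_two]
  field_simp
  simp

/-- Generators' images. -/
def f0 (ζ : F) (hζ : ζ ≠ 0) : Fin 3 → SL2 F := ![xm 1, hm ζ hζ, τm F]

/-- The map from the free group. -/
def φ0 (ζ : F) (hζ : ζ ≠ 0) : FreeGroup (Fin 3) →* SL2 F := FreeGroup.lift (f0 ζ hζ)

/-! ### A hom from TD data -/

theorem TD.exists_psi [Finite F] (D : TD F Γ) :
    ∃ ψ : SL2 F →* Γ, (∀ t, ψ (xm t) = D.x t) ∧ (∀ t, ψ (ym t) = D.y t) ∧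
      ψ (τm F) = D.τ ∧ ψ (hm D.ζ D.hζ) = D.h := by
  obtain ⟨ψ, h1, h2⟩ := exists_hom (Γ := Γ) D.x D.y D.add D.y_add
    (fun t u ht => D.cx ht u) (fun t u ht => D.cy ht u)
  have h3 : ψ (τm F) = D.τ := by
    have e : τm F = xm (1 : F) * (τm F * xm 1 * (τm F)⁻¹) * xm 1 := B1m.symm
    have e2 : τm F * xm (1 : F) * (τm F)⁻¹ = ym (-1) := by
      have := τm_xm_τm (-1 : F)
      rwa [neg_neg] at this
    rw [e, e2, map_mul, map_mul, h1, h2]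
    have := D.w_one
    rw [TD.w_eq] at this
    simpa using this
  refine ⟨ψ, h1, h2, h3, ?_⟩
  have e : hm D.ζ D.hζ = (xm D.ζ * (τm F * xm D.ζ⁻¹ * (τm F)⁻¹) * xm D.ζ) * (τm F)⁻¹ := by
    rw [B2m D.ζ D.hζ]; group
  have e2 : τm F * xm D.ζ⁻¹ * (τm F)⁻¹ = ym (-D.ζ⁻¹) := by
    have := τm_xm_τm (-D.ζ⁻¹)
    rwa [neg_neg] at this
  rw [e, e2, map_mul, map_mul, map_mul, map_inv, h1, h2, h3]
  have := D.B2
  have e3 : D.τ * D.x D.ζ⁻¹ * D.τ⁻¹ = D.y (-D.ζ⁻¹) := by simp [TD.y]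
  rw [e3] at this
  rw [this]; group

/-! ### The isomorphism -/

theorem iso_quot [Finite F] (N : Subgroup (SL2 F)) [N.Normal] (R : Set (FreeGroup (Fin 3)))
    (ζ : F) (hζ : ζ ≠ 0) (hR : ∀ r ∈ R, φ0 ζ hζ r ∈ N) (D : TD F (PresentedGroup R))
    (hDζ : D.ζ = ζ) (hDh : D.h = PresentedGroup.of 1) (hDτ : D.τ = PresentedGroup.of 2)
    (hD1 : D.x 1 = PresentedGroup.of 0)
    (hgen : ∀ t, ∃ w, PresentedGroup.mk R w = D.x t ∧ φ0 ζ hζ w = xm t)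
    (hN : ∀ ψ : SL2 F →* PresentedGroup R, (∀ t, ψ (xm t) = D.x t) → (∀ t, ψ (ym t) = D.y t) →
      ψ (τm F) = D.τ → ψ (hm ζ hζ) = D.h → ∀ c ∈ N, ψ c = 1) :
    Nonempty (PresentedGroup R ≃* SL2 F ⧸ N) := by
  subst hDζ
  obtain ⟨ψ, h1, h2, h3, h4⟩ := D.exists_psi
  have hN' := hN ψ h1 h2 h3 h4
  let f : Fin 3 → SL2 F ⧸ N := fun i => QuotientGroup.mk' N (f0 D.ζ hζ i)
  have hlift : ∀ w, FreeGroup.lift f w = QuotientGroup.mk' N (φ0 D.ζ hζ w) := by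
    intro w
    have : FreeGroup.lift f = (QuotientGroup.mk' N).comp (φ0 D.ζ hζ) := by
      apply FreeGroup.ext_hom
      intro i
      simp [f, φ0]
    rw [this]; rfl
  have hf : ∀ r ∈ R, FreeGroup.lift f r = 1 := by
    intro r hr
    rw [hlift]
    exact (QuotientGroup.eq_one_iff _).2 (hR r hr)
  let φ : PresentedGroup R →* SL2 F ⧸ N := PresentedGroup.toGroup hf
  have hφ : ∀ w, φ (PresentedGroup.mk R w) = QuotientGroup.mk' N (φ0 D.ζ hζ w) := by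
    intro w
    rw [← hlift]
    rfl
  let ψ' : SL2 F ⧸ N →* PresentedGroup R := QuotientGroup.lift N ψ hN'
  have hψ' : ∀ A, ψ' (QuotientGroup.mk' N A) = ψ A := fun A => rfl
  have e1 : ψ'.comp φ = MonoidHom.id _ := by
    apply PresentedGroup.ext
    intro i
    simp only [MonoidHom.comp_apply, MonoidHom.id_apply]
    have : φ (PresentedGroup.of i) = QuotientGroup.mk' N (f0 D.ζ hζ i) :=
      PresentedGroup.toGroup.of hf
    rw [this, hψ']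
    fin_cases i
    · show ψ (xm 1) = _
      rw [h1, hD1]; rfl
    · show ψ (hm D.ζ hζ) = _
      rw [h4, hDh]; rfl
    · show ψ (τm F) = _
      rw [h3, hDτ]; rfl
  have hx : ∀ t, φ (D.x t) = QuotientGroup.mk' N (xm t) := by
    intro t
    obtain ⟨w, hw1, hw2⟩ := hgen t
    rw [← hw1, hφ, hw2]
  have hτ : φ D.τ = QuotientGroup.mk' N (τm F) := by
    rw [hDτ]
    exact PresentedGroup.toGroup.of hf
  have e2 : φ.comp ψ' = MonoidHom.id _ := by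
    apply QuotientGroup.monoidHom_ext
    apply MonoidHom.ext
    intro A
    simp only [MonoidHom.comp_apply, MonoidHom.id_apply]
    rw [hψ']
    have hA := St2.mx_surj A
    have : (φ.comp ψ) = QuotientGroup.mk' N := by
      apply MonoidHom.ext
      intro B
      have hB := St2.mx_surj B
      induction hB using Subgroup.closure_induction with
      | mem x hx' =>
        obtain ⟨⟨b, t⟩, rfl⟩ := hx'
        cases b
        · show φ (ψ (ym t)) = _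
          rw [h2, TD.y, map_mul, map_mul, map_inv, hτ, hx, ← map_inv, ← map_mul, ← map_mul,
            τm_xm_τm]
        · show φ (ψ (xm t)) = _
          rw [h1, hx]
      | one => simp
      | mul x y _ _ hx hy =>
        rw [map_mul, hx, hy, map_mul]
      | inv x _ hx =>
        rw [map_inv, hx, map_inv]
    exact congrArg (fun k => k A) this
  exact ⟨MonoidHom.toMulEquiv φ ψ' e1 e2⟩

/-- Version for `SL₂` itself. -/
theorem iso_SL2 [Finite F] (R : Set (FreeGroup (Fin 3)))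
    (ζ : F) (hζ : ζ ≠ 0) (hR : ∀ r ∈ R, φ0 ζ hζ r = 1) (D : TD F (PresentedGroup R))
    (hDζ : D.ζ = ζ) (hDh : D.h = PresentedGroup.of 1) (hDτ : D.τ = PresentedGroup.of 2)
    (hD1 : D.x 1 = PresentedGroup.of 0)
    (hgen : ∀ t, ∃ w, PresentedGroup.mk R w = D.x t ∧ φ0 ζ hζ w = xm t) :
    Nonempty (PresentedGroup R ≃* SL2 F) := by
  obtain ⟨e⟩ := iso_quot (⊥ : Subgroup (SL2 F)) R ζ hζ
    (fun r hr => by simpa using hR r hr) D hDζ hDh hDτ hD1 hgen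
    (fun ψ _ _ _ _ c hc => by
      rw [Subgroup.mem_bot] at hc
      rw [hc, map_one])
  exact ⟨e.trans (QuotientGroup.quotientBot)⟩

/-- Version for `PSL₂`. -/
theorem iso_PSL2 [Finite F] (R : Set (FreeGroup (Fin 3)))
    (ζ : F) (hζ : ζ ≠ 0) (hR : ∀ r ∈ R, φ0 ζ hζ r ∈ Subgroup.center (SL2 F))
    (D : TD F (PresentedGroup R))
    (hDζ : D.ζ = ζ) (hDh : D.h = PresentedGroup.of 1) (hDτ : D.τ = PresentedGroup.of 2)
    (hD1 : D.x 1 = PresentedGroup.of 0)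
    (hgen : ∀ t, ∃ w, PresentedGroup.mk R w = D.x t ∧ φ0 ζ hζ w = xm t)
    (k : ℕ) (hk : ((hm ζ hζ ^ k : SL2 F) : Matrix (Fin 2) (Fin 2) F) = -1)
    (hhk : D.h ^ k = 1) :
    Nonempty (PresentedGroup R ≃* Matrix.ProjectiveSpecialLinearGroup (Fin 2) F) := by
  refine iso_quot (Subgroup.center (SL2 F)) R ζ hζ hR D hDζ hDh hDτ hD1 hgen ?_
  intro ψ _ _ _ h4 c hc
  obtain ⟨r, hr, hr'⟩ := Matrix.SpecialLinearGroup.mem_center_iff.1 hc
  have hr2 : (r - 1) * (r + 1) = 0 := by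
    have : r ^ 2 = 1 := by simpa using hr
    linear_combination this
  rcases mul_eq_zero.1 hr2 with h | h
  · have : r = 1 := sub_eq_zero.1 h
    subst this
    have : c = 1 := by
      apply Subtype.ext
      rw [← hr']
      simp
    rw [this, map_one]
  · have : r = -1 := eq_neg_of_add_eq_zero_left h
    subst this
    have : c = hm ζ hζ ^ k := by
      apply Subtype.ext
      rw [hk, ← hr']
      ext i j
      fin_cases i <;> fin_cases j <;> simp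
    rw [this, map_pow, h4, hhk]

end Cfsg.Agent.Lib.PrsSL2
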