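import Mathlib
import Cfsg.Agent.Lib.PrsSL2A

set_option autoImplicit false

namespace Cfsg.Agent.Lib.PrsSL2

open Polynomial

section Grp
variable {Γ : Type*} [Group Γ]

/-- conjugates of `u` under powers of `h` -/
def vv (h u : Γ) (i : ℤ) : Γ := h ^ i * u * h ^ (-i)

variable (h u : Γ)

lemma vv_zero : vv h u 0 = u := by simp [vv]

lemma vv_conj (d i : ℤ) : h ^ d * vv h u i * h ^ (-d) = vv h u (i + d) := by
  simp only [vv]
  group

lemma vv_conj1 (i : ℤ) : h * vv h u i * h⁻¹ = vv h u (i + 1) := by
  simpa using vv_conj h u 1 i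

lemma comm_shift {a b : ℤ} (d : ℤ) (H : Commute (vv h u a) (vv h u b)) :
    Commute (vv h u (a + d)) (vv h u (b + d)) := by
  rw [← vv_conj h u d a, ← vv_conj h u d b]
  have := H.eq
  unfold Commute SemiconjBy
  calc h ^ d * vv h u a * h ^ (-d) * (h ^ d * vv h u b * h ^ (-d))
      = h ^ d * (vv h u a * vv h u b) * h ^ (-d) := by group
    _ = h ^ d * (vv h u b * vv h u a) * h ^ (-d) := by rw [this]
    _ = _ := by group

lemma comm_sym {d : ℤ} (H : Commute (vv h u 0) (vv h u d)) : Commute (vv h u 0) (vv h u (-d)) := by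
  have := comm_shift h u (-d) H
  simp only [zero_add, add_neg_cancel] at this
  exact this.symm

/-- The triangle lemma: `u` commutes with every `vv (a n)`. -/
theorem lat {n m : ℤ} (hn : Commute (vv h u 0) (vv h u n))
    (tri : vv h u 0 * vv h u n = vv h u m) (a : ℤ) : Commute (vv h u 0) (vv h u (a * n)) := by
  have tri' : ∀ i : ℤ, vv h u i * vv h u (i + n) = vv h u (i + m) := by
    intro i
    have e1 : h ^ i * (vv h u 0 * vv h u n) * h ^ (-i) = h ^ i * vv h u m * h ^ (-i) := by rw [tri]
    have e2 := vv_conj h u i 0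
    have e3 := vv_conj h u i n
    have e4 := vv_conj h u i m
    rw [zero_add] at e2
    rw [add_comm n i] at e3
    rw [add_comm m i] at e4
    rw [← e2, ← e3, ← e4, ← e1]
    group
  -- the rules
  have R1 : ∀ d, Commute (vv h u 0) (vv h u d) → Commute (vv h u 0) (vv h u (d + n)) →
      Commute (vv h u 0) (vv h u (d + m)) := by
    intro d h1 h2
    rw [← tri']
    exact h1.mul_right h2
  have R2 : ∀ d, Commute (vv h u 0) (vv h u (d + n)) → Commute (vv h u 0) (vv h u (d + m)) →
      Commute (vv h u 0) (vv h u d) := by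
    intro d h1 h2
    have e : vv h u d = vv h u (d + m) * (vv h u (d + n))⁻¹ := by
      rw [← tri']; group
    rw [e]
    exact h2.mul_right h1.inv_right
  have R3 : ∀ d, Commute (vv h u 0) (vv h u d) → Commute (vv h u 0) (vv h u (d + m)) →
      Commute (vv h u 0) (vv h u (d + n)) := by
    intro d h1 h2
    have e : vv h u (d + n) = (vv h u d)⁻¹ * vv h u (d + m) := by
      rw [← tri']; group
    rw [e]
    exact h1.inv_right.mul_right h2
  -- two-step induction upward
  have step : ∀ a : ℤ, Commute (vv h u 0) (vv h u (a * n)) →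
      Commute (vv h u 0) (vv h u ((a + 1) * n)) → Commute (vv h u 0) (vv h u ((a + 2) * n)) := by
    intro a h1 h2
    have e1 : a * n + n = (a + 1) * n := by ring
    have h3 : Commute (vv h u 0) (vv h u (a * n + m)) := R1 _ h1 (by rw [e1]; exact h2)
    have h4 : Commute (vv h u 0) (vv h u (-((a + 1) * n + m))) := by
      apply R2
      · have : -((a + 1) * n + m) + n = -(a * n + m) := by ring
        rw [this]
        exact comm_sym h u h3
      · have : -((a + 1) * n + m) + m = -((a + 1) * n) := by ring
        rw [this]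
        exact comm_sym h u h2
    have h5 : Commute (vv h u 0) (vv h u ((a + 1) * n + m)) := by
      have := comm_sym h u h4
      rwa [neg_neg] at this
    have h6 := R3 _ h2 h5
    have : (a + 1) * n + n = (a + 2) * n := by ring
    rwa [this] at h6
  have h0 : Commute (vv h u 0) (vv h u ((0 : ℤ) * n)) := by
    simp
  have h1 : Commute (vv h u 0) (vv h u ((1 : ℤ) * n)) := by
    simpa using hn
  have up : ∀ k : ℕ, Commute (vv h u 0) (vv h u ((k : ℤ) * n)) ∧
      Commute (vv h u 0) (vv h u (((k : ℤ) + 1) * n)) := by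
    intro k
    induction k with
    | zero => exact ⟨by simpa using h0, by simpa using h1⟩
    | succ k ih =>
      refine ⟨by push_cast; exact ih.2, ?_⟩
      have := step k ih.1 ih.2
      push_cast
      have e : ((k : ℤ) + 1 + 1) = k + 2 := by ring
      rw [e]
      exact this
  obtain ⟨k, rfl | rfl⟩ := Int.eq_nat_or_neg a
  · exact (up k).1
  · have := comm_sym h u (up k).1
    rwa [show -((k : ℤ) * n) = -(k : ℤ) * n by ring] at this

/-- Iterated products. -/
def pr (ι : ℕ → ℤ) (c : ℕ → ℕ) : ℕ → Γ
  | 0 => 1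
  | N + 1 => pr ι c N * (vv h u (ι N)) ^ c N

lemma pr_conj (ι : ℕ → ℤ) (c : ℕ → ℕ) (d : ℤ) (N : ℕ) :
    h ^ d * pr h u ι c N * h ^ (-d) = pr h u (fun j => ι j + d) c N := by
  induction N with
  | zero => simp [pr]
  | succ N ih =>
    simp only [pr]
    rw [← ih, ← vv_conj h u d (ι N)]
    have e : (h ^ d * vv h u (ι N) * h ^ (-d)) ^ c N = h ^ d * (vv h u (ι N)) ^ c N * h ^ (-d) := by
      have := conj_pow (a := h ^ d) (b := vv h u (ι N)) (i := c N)
      simpa [zpow_neg] using this
    rw [e]
    group

lemma pr_comm (ι : ℕ → ℤ) (c : ℕ → ℕ) (z : Γ) (N : ℕ) (hz : ∀ j < N, Commute z (vv h u (ι j))) :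
    Commute z (pr h u ι c N) := by
  induction N with
  | zero => simp [pr]
  | succ N ih =>
    simp only [pr]
    exact (ih fun j hj => hz j (by omega)).mul_right ((hz N (by omega)).pow_right _)

/-- From the lattice and an expression of `vv 1`, full commutativity. -/
theorem comm_all {n : ℤ} (hL : ∀ a : ℤ, Commute (vv h u 0) (vv h u (a * n)))
    (c : ℕ → ℕ) (N : ℕ) (hrel : vv h u 1 = pr h u (fun j => (j : ℤ) * n) c N) (d : ℤ) :
    Commute (vv h u 0) (vv h u d) := by
  have main : ∀ (k : ℕ) (a : ℤ), Commute (vv h u 0) (vv h u (a * n + k)) := by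
    intro k
    induction k with
    | zero => intro a; simpa using hL a
    | succ k ih =>
      intro a
      have e : vv h u (a * n + ((k + 1 : ℕ) : ℤ)) =
          h ^ (a * n + k) * pr h u (fun j => (j : ℤ) * n) c N * h ^ (-(a * n + k)) := by
        rw [← hrel, vv_conj]
        congr 1
        push_cast
        ring
      rw [e, pr_conj]
      apply pr_comm
      intro j _
      have := ih (a + j)
      rwa [show (a + (j : ℤ)) * n + k = (j : ℤ) * n + (a * n + k) by ring] at this
  obtain ⟨k, rfl | rfl⟩ := Int.eq_nat_or_neg d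
  · simpa using main k 0
  · have := comm_sym h u (d := k) (by simpa using main k 0)
    exact this

/-- All conjugates commute. -/
theorem comm_of_base (H : ∀ d, Commute (vv h u 0) (vv h u d)) (i j : ℤ) :
    Commute (vv h u i) (vv h u j) := by
  have := comm_shift h u i (H (j - i))
  simpa using this

end Grp

end Cfsg.Agent.Lib.PrsSL2
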