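import Mathlib
import Cfsg.Agent.Lib.PrsSL2B

set_option autoImplicit false

namespace Cfsg.Agent.Lib.PrsSL2

open Polynomial

section L0
variable (p : ℕ) [Fact p.Prime]

theorem exists_L1 {M : Type*} [AddCommGroup M] [Module (ZMod p) M] (v : ℕ → M) :
    ∃ L : (ZMod p)[X] → M, (∀ f g, L (f + g) = L f + L g) ∧
      (∀ (j : ℕ) (c : ZMod p), L (monomial j c) = c • v j) ∧
      (∀ (c : ZMod p) f, L (C c * f) = c • L f) := by
  let L₁ := (basisMonomials (ZMod p)).constr (ZMod p) v
  refine ⟨fun f => L₁ f, fun f g => map_add _ _ _, fun j c => ?_, fun c f => ?_⟩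
  · have e : (monomial j c : (ZMod p)[X]) = c • (basisMonomials (ZMod p)) j := by
      rw [coe_basisMonomials, smul_monomial, smul_eq_mul, mul_one]
    show L₁ _ = _
    rw [e, map_smul, Module.Basis.constr_basis]
  · show L₁ _ = _
    rw [C_mul', map_smul]

theorem exists_L0 {A : Type*} [CommGroup A] (v : ℕ → A) (hA : ∀ a : A, a ^ p = 1) :
    ∃ L : (ZMod p)[X] → A,
      (∀ f g, L (f + g) = L f * L g) ∧
      (∀ (j : ℕ) (c : ZMod p), L (monomial j c) = (v j) ^ c.val) ∧
      (∀ (c : ZMod p) f, L (C c * f) = (L f) ^ c.val) := by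
  classical
  haveI hp : NeZero p := ⟨(Fact.out : p.Prime).ne_zero⟩
  let inst : Module (ZMod p) (Additive A) := AddCommGroup.zmodModule (n := p) (fun x => by
    show Additive.ofMul (x.toMul ^ p) = 0
    rw [hA]; rfl)
  obtain ⟨L₁, h1, h2, h3⟩ := @exists_L1 p _ (Additive A) _ inst (fun j => Additive.ofMul (v j))
  have hs : ∀ (c : ZMod p) (x : Additive A), (@HSMul.hSMul _ _ _ (@instHSMul _ _ inst.toSMul) c x) = c.val • x := by
    intro c x
    conv_lhs => rw [← ZMod.natCast_zmod_val c]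
    exact @Nat.cast_smul_eq_nsmul (ZMod p) _ _ _ inst c.val x
  refine ⟨fun f => (L₁ f).toMul, ?_, ?_, ?_⟩
  · intro f g
    show (L₁ (f + g)).toMul = _
    rw [h1]
    rfl
  · intro j c
    show (L₁ (monomial j c)).toMul = _
    rw [h2, hs]
    rfl
  · intro c f
    show (L₁ (C c * f)).toMul = _
    rw [h3, hs]
    rfl

end L0

section LG
variable {Γ : Type*} [Group Γ] (h u : Γ) (p : ℕ) [Fact p.Prime]

lemma vv_pow (hp : u ^ p = 1) (i : ℤ) : (vv h u i) ^ p = 1 := by
  have := conj_pow (a := h ^ i) (b := u) (i := p)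
  simp only [vv, zpow_neg]
  rw [this, hp]
  group

theorem exists_L (hc : ∀ i j, Commute (vv h u i) (vv h u j)) (hp : u ^ p = 1) :
    ∃ L : (ZMod p)[X] → Γ,
      (∀ f g, L (f + g) = L f * L g) ∧
      (∀ (j : ℕ) (c : ZMod p), L (monomial j c) = (vv h u j) ^ c.val) ∧
      (∀ f, L (X * f) = h * L f * h⁻¹) ∧
      (∀ (c : ZMod p) f, L (C c * f) = (L f) ^ c.val) := by
  classical
  let k : Set Γ := Set.range (vv h u)
  have hcomm : ∀ x ∈ k, ∀ y ∈ k, x * y = y * x := by
    rintro _ ⟨i, rfl⟩ _ ⟨j, rfl⟩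
    exact (hc i j).eq
  letI CG : CommGroup (Subgroup.closure k) := Subgroup.closureCommGroupOfComm hcomm
  have hexp : ∀ z : Subgroup.closure k, z ^ p = 1 := by
    rintro ⟨z, hz⟩
    induction hz using Subgroup.closure_induction with
    | mem x hx =>
      obtain ⟨i, rfl⟩ := hx
      apply Subtype.ext
      simpa using vv_pow h u p hp i
    | one => exact one_pow _
    | mul x y hx hy ihx ihy =>
      have : (⟨x * y, Subgroup.mul_mem _ hx hy⟩ : Subgroup.closure k) = ⟨x, hx⟩ * ⟨y, hy⟩ := rfl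
      rw [this, mul_pow, ihx, ihy, one_mul]
    | inv x hx ih =>
      have : (⟨x⁻¹, Subgroup.inv_mem _ hx⟩ : Subgroup.closure k) = (⟨x, hx⟩)⁻¹ := rfl
      rw [this, inv_pow, ih, inv_one]
  obtain ⟨L₀, h1, h2, h3⟩ := exists_L0 p (A := Subgroup.closure k)
    (fun j => ⟨vv h u j, Subgroup.subset_closure ⟨_, rfl⟩⟩) hexp
  have hA : ∀ f g, ((L₀ (f + g) : Subgroup.closure k) : Γ) = (L₀ f : Γ) * (L₀ g : Γ) := by
    intro f g
    rw [h1]
    rfl
  have hM : ∀ (j : ℕ) (c : ZMod p), ((L₀ (monomial j c) : Subgroup.closure k) : Γ) = (vv h u j) ^ c.val := by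
    intro j c
    rw [h2]
    rfl
  have hX : ∀ f, ((L₀ (X * f) : Subgroup.closure k) : Γ) = h * (L₀ f : Γ) * h⁻¹ := by
    intro f
    induction f using Polynomial.induction_on' with
    | add f g hf hg =>
      rw [mul_add, hA, hA, hf, hg]
      group
    | monomial j c =>
      have e : (X : (ZMod p)[X]) * monomial j c = monomial (j + 1) c := by
        rw [← C_mul_X_pow_eq_monomial, ← C_mul_X_pow_eq_monomial, pow_succ]
        ring
      rw [e, hM, hM]
      have := conj_pow (a := h) (b := vv h u j) (i := c.val)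
      rw [← this, vv_conj1]
      push_cast
      rfl
  have hC : ∀ (c : ZMod p) f, ((L₀ (C c * f) : Subgroup.closure k) : Γ) = (L₀ f : Γ) ^ c.val := by
    intro c f
    rw [h3]
    rfl
  exact ⟨fun f => (L₀ f : Γ), hA, hM, hX, hC⟩

end LG

section Words

/-- generators -/
def gu : FreeGroup (Fin 3) := FreeGroup.of 0
/-- generators -/
def gh : FreeGroup (Fin 3) := FreeGroup.of 1
/-- generators -/
def gτ : FreeGroup (Fin 3) := FreeGroup.of 2
/-- conjugates of `gu` -/
def gU (j : ℕ) : FreeGroup (Fin 3) := gh ^ j * gu * (gh ^ j)⁻¹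

lemma map_gU {G : Type*} [Group G] (π : FreeGroup (Fin 3) →* G) (j : ℕ) :
    π (gU j) = vv (π gh) (π gu) j := by
  simp [gU, vv, zpow_neg]

variable (p : ℕ) [Fact p.Prime]

/-- partial words attached to a polynomial -/
def wdA (ι : ℕ → ℕ) (f : (ZMod p)[X]) : ℕ → FreeGroup (Fin 3)
  | 0 => 1
  | N + 1 => wdA ι f N * (gU (ι N)) ^ (f.coeff N).val

/-- word attached to a polynomial -/
def wd (ι : ℕ → ℕ) (f : (ZMod p)[X]) : FreeGroup (Fin 3) := wdA p ι f (f.natDegree + 1)

lemma wdA_pr {G : Type*} [Group G] (π : FreeGroup (Fin 3) →* G) (ι : ℕ → ℕ) (f : (ZMod p)[X])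
    (N : ℕ) : π (wdA p ι f N) = pr (π gh) (π gu) (fun j => (ι j : ℤ)) (fun j => (f.coeff j).val) N := by
  induction N with
  | zero => simp [wdA, pr]
  | succ N ih =>
    simp only [wdA, pr, map_mul, map_pow, ih, map_gU]

theorem wd_eval {A G : Type*} [Ring A] [Algebra (ZMod p) A] [Group G] (π : FreeGroup (Fin 3) →* G)
    (Y : A → G) (hY : ∀ s t, Y (s + t) = Y s * Y t) (β : A) (ι : ℕ → ℕ)
    (hβ : ∀ j, π (gU (ι j)) = Y (β ^ j)) (f : (ZMod p)[X]) :
    π (wd p ι f) = Y (aeval β f) := by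
  haveI hp : NeZero p := ⟨(Fact.out : p.Prime).ne_zero⟩
  have h0 : Y 0 = 1 := by
    have := hY 0 0
    rw [add_zero] at this
    exact (mul_eq_left.1 this.symm)
  have hn : ∀ (n : ℕ) (t : A), Y (n • t) = (Y t) ^ n := by
    intro n t
    induction n with
    | zero => simp [h0]
    | succ n ih => rw [succ_nsmul, hY, ih, pow_succ]
  have hc : ∀ (c : ZMod p) (t : A), Y (c • t) = (Y t) ^ c.val := by
    intro c t
    have : c • t = c.val • t := by
      conv_lhs => rw [← ZMod.natCast_zmod_val c]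
      exact Nat.cast_smul_eq_nsmul (ZMod p) c.val t
    rw [this, hn]
  have main : ∀ N, π (wdA p ι f N) = Y (∑ i ∈ Finset.range N, f.coeff i • β ^ i) := by
    intro N
    induction N with
    | zero => simp [wdA, h0]
    | succ N ih =>
      rw [Finset.sum_range_succ, hY, ← ih, hc, ← hβ]
      simp [wdA]
  rw [wd, main, aeval_eq_sum_range]

end Words

section X
variable {Γ : Type*} [Group Γ] {F : Type*} [Field F] (h : Γ) (p : ℕ) [Fact p.Prime] [Algebra (ZMod p) F]

theorem exists_x (g : F) (hgen : ∀ t : F, ∃ f : (ZMod p)[X], aeval g f = t) (L : (ZMod p)[X] → Γ)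
    (h1 : ∀ f g, L (f + g) = L f * L g)
    (h3 : ∀ f, L (X * f) = h * L f * h⁻¹)
    (h4 : ∀ (c : ZMod p) f, L (C c * f) = (L f) ^ c.val)
    (hm : L (minpoly (ZMod p) g) = 1) :
    ∃ x : F → Γ, (∀ s t, x s * x t = x (s + t)) ∧ (∀ f, x (aeval g f) = L f) ∧
      (∀ t, h * x t * h⁻¹ = x (g * t)) := by
  classical
  set m := minpoly (ZMod p) g with hmdef
  have hXp : ∀ (j : ℕ) f, L (X ^ j * f) = h ^ j * L f * (h ^ j)⁻¹ := by
    intro j f
    induction j with
    | zero => simp
    | succ j ih =>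
      rw [pow_succ', mul_assoc, h3, ih, pow_succ']
      group
  have hms : ∀ s, L (m * s) = 1 := by
    intro s
    induction s using Polynomial.induction_on' with
    | add s s' hs hs' => rw [mul_add, h1, hs, hs', one_mul]
    | monomial j c =>
      have e : m * monomial j c = C c * (X ^ j * m) := by
        rw [← C_mul_X_pow_eq_monomial]; ring
      rw [e, h4, hXp, hm]
      simp
  have hwd : ∀ f f' : (ZMod p)[X], aeval g f = aeval g f' → L f = L f' := by
    intro f f' hff
    have hd : m ∣ f - f' := minpoly.dvd _ _ (by simp [hff])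
    obtain ⟨s, hs⟩ := hd
    have : f = f' + m * s := by rw [← hs]; ring
    rw [this, h1, hms, mul_one]
  let sec : F → (ZMod p)[X] := fun t => Classical.choose (hgen t)
  have hsec : ∀ t, aeval g (sec t) = t := fun t => Classical.choose_spec (hgen t)
  refine ⟨fun t => L (sec t), ?_, ?_, ?_⟩
  · intro s t
    simp only
    rw [← h1]
    apply hwd
    simp [hsec]
  · intro f
    simp only
    exact hwd _ _ (hsec _)
  · intro t
    simp only
    rw [← h3]
    apply hwd
    simp [hsec]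

end X

end Cfsg.Agent.Lib.PrsSL2
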