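import Mathlib
import Cfsg.Agent.Lib.PrsSL2C

set_option autoImplicit false

namespace Cfsg.Agent.Lib.PrsSL2

open Polynomial

section Fields
variable {F : Type*} [Field F] [Finite F] (p : ℕ) [Fact p.Prime] [Algebra (ZMod p) F]

theorem gen_or (β : F) : (∀ t : F, ∃ f : (ZMod p)[X], aeval β f = t) ∨
    ∃ r k : ℕ, r * r ≤ Nat.card F ∧ 1 < r ∧ r = p ^ k ∧
      ∀ f : (ZMod p)[X], (aeval β f) ^ r = aeval β f := by
  classical
  haveI : Module.Finite (ZMod p) F := Module.Finite.of_finite
  have halg : IsAlgebraic (ZMod p) β := IsAlgebraic.of_finite _ _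
  let K : IntermediateField (ZMod p) F := IntermediateField.adjoin (ZMod p) {β}
  have hK : ∀ t : F, t ∈ K ↔ ∃ f : (ZMod p)[X], aeval β f = t := by
    intro t
    rw [← IntermediateField.mem_toSubalgebra,
      IntermediateField.adjoin_simple_toSubalgebra_of_isAlgebraic halg,
      Algebra.adjoin_singleton_eq_range_aeval]
    simp
  by_cases hT : K = ⊤
  · left
    intro t
    exact (hK t).1 (by rw [hT]; trivial)
  · right
    haveI : Finite K := Finite.of_injective (fun x : K => (x : F)) Subtype.val_injective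
    haveI : Fintype K := Fintype.ofFinite K
    refine ⟨Nat.card K, Module.finrank (ZMod p) K, ?_, Finite.one_lt_card, ?_, ?_⟩
    · have h1 : Nat.card F = Nat.card K ^ Module.finrank K F := Module.natCard_eq_pow_finrank
      have h2 : Module.finrank K F ≠ 1 := by
        intro h
        exact hT (IntermediateField.finrank_eq_one_iff_eq_top.1 h)
      have h3 : 0 < Module.finrank K F := Module.finrank_pos
      have h4 : 2 ≤ Module.finrank K F := by omega
      rw [h1, ← pow_two]
      exact Nat.pow_le_pow_right Finite.card_pos h4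
    · have h1 : Nat.card K = Nat.card (ZMod p) ^ Module.finrank (ZMod p) K :=
        Module.natCard_eq_pow_finrank
      rwa [Nat.card_zmod] at h1
    · intro f
      have hm : aeval β f ∈ K := (hK _).2 ⟨f, rfl⟩
      have := FiniteField.pow_card (⟨aeval β f, hm⟩ : K)
      rw [← Nat.card_eq_fintype_card] at this
      exact congrArg (fun z : K => (z : F)) this

theorem exists_gen : ∃ ζ : F, ζ ≠ 0 ∧ (∀ t : F, t ≠ 0 → ∃ k : ℕ, t = ζ ^ k) ∧
    orderOf ζ = Nat.card F - 1 := by
  classical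
  haveI : Fintype F := Fintype.ofFinite F
  obtain ⟨γ, hγ⟩ := IsCyclic.exists_generator (α := Fˣ)
  refine ⟨γ, γ.ne_zero, ?_, ?_⟩
  · intro t ht
    have h1 : Units.mk0 t ht ∈ Subgroup.zpowers γ := hγ _
    rw [← mem_powers_iff_mem_zpowers] at h1
    obtain ⟨k, hk⟩ := h1
    refine ⟨k, ?_⟩
    have := congrArg (fun z : Fˣ => (z : F)) hk
    simpa using this.symm
  · rw [orderOf_units, orderOf_eq_card_of_forall_mem_zpowers hγ, Nat.card_units]

variable {p}

lemma num1 {q r : ℕ} (hr : r * r ≤ q) (h1 : 1 < r) (hle : q - 1 ≤ 2 * (r - 1)) : False := by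
  obtain ⟨s, rfl⟩ : ∃ s, r = s + 2 := ⟨r - 2, by omega⟩
  have e : s + 2 - 1 = s + 1 := by omega
  rw [e] at hle
  have hq1 : 1 ≤ q := by nlinarith
  obtain ⟨q', rfl⟩ : ∃ q', q = q' + 1 := ⟨q - 1, by omega⟩
  simp only [Nat.add_sub_cancel] at hle
  nlinarith

lemma num2 {q r : ℕ} (hr : r * r ≤ q) (h1 : 1 < r) (hle : q - 1 ≤ 2 * (r + 1)) (hq : 9 < q) : False := by
  have hr3 : r ≤ 3 := by
    by_contra hc
    have : 4 ≤ r := by omega
    have h2 : q - 1 + 1 = q := by omega
    nlinarith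
  omega

theorem gen_g (ζ : F) (h0 : ζ ≠ 0) (hord : orderOf ζ = Nat.card F - 1) :
    ∀ t : F, ∃ f : (ZMod p)[X], aeval (ζ ^ 2) f = t := by
  rcases gen_or p (ζ ^ 2) with h | ⟨r, k, hr, h1r, _, hf⟩
  · exact h
  · exfalso
    have h2 : (ζ ^ 2) ^ r = ζ ^ 2 := by simpa using hf X
    have h3 : ζ ^ (2 * (r - 1)) = 1 := by
      have e : (ζ ^ 2) ^ r = ζ ^ (2 * (r - 1)) * ζ ^ 2 := by
        rw [← pow_mul, ← pow_add]
        congr 1
        obtain ⟨s, rfl⟩ : ∃ s, r = s + 1 := ⟨r - 1, by omega⟩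
        simp
        ring
      rw [e] at h2
      exact mul_eq_right₀ (pow_ne_zero 2 h0) |>.1 h2
    have h4 := orderOf_le_of_pow_eq_one (by omega) h3
    rw [hord] at h4
    exact num1 hr h1r h4

theorem gen_a [CharP F p] (ζ : F) (h0 : ζ ≠ 0) (hord : orderOf ζ = Nat.card F - 1) (hq : 9 < Nat.card F)
    (a : F) (ha : 4 * a + 2 = ζ ^ 2 + (ζ ^ 2)⁻¹) :
    ∀ t : F, ∃ f : (ZMod p)[X], aeval a f = t := by
  rcases gen_or p a with h | ⟨r, k, hr, h1r, hrk, hf⟩
  · exact h
  · exfalso
    set g := ζ ^ 2 with hg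
    have hg0 : g ≠ 0 := pow_ne_zero 2 h0
    have h2 : (g + g⁻¹) ^ r = g + g⁻¹ := by
      have := hf (C 4 * X + C 2)
      have e : aeval a (C 4 * X + C 2 : (ZMod p)[X]) = 4 * a + 2 := by
        simp [map_ofNat]
      rw [e, ha] at this
      exact this
    rw [hrk, add_pow_char_pow, ← hrk, inv_pow] at h2
    set A := g ^ r with hA
    have hA0 : A ≠ 0 := pow_ne_zero r hg0
    have h3 : (A - g) * (A * g - 1) = 0 := by
      field_simp at h2
      linear_combination h2
    rcases mul_eq_zero.1 h3 with h | h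
    · have hAg : A = g := sub_eq_zero.1 h
      have h5 : ζ ^ (2 * (r - 1)) = 1 := by
        have e : A = ζ ^ (2 * (r - 1)) * ζ ^ 2 := by
          rw [hA, hg, ← pow_mul, ← pow_add]
          congr 1
          obtain ⟨s, rfl⟩ : ∃ s, r = s + 1 := ⟨r - 1, by omega⟩
          simp
          ring
        rw [e] at hAg
        exact mul_eq_right₀ (pow_ne_zero 2 h0) |>.1 hAg
      have h6 := orderOf_le_of_pow_eq_one (by omega) h5
      rw [hord] at h6
      exact num1 hr h1r h6
    · have h5 : ζ ^ (2 * (r + 1)) = 1 := by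
        have e : ζ ^ (2 * (r + 1)) = A * g := by
          rw [hA, hg, ← pow_mul, ← pow_add]
          congr 1
        rw [e]
        linear_combination h
      have h6 := orderOf_le_of_pow_eq_one (by omega) h5
      rw [hord] at h6
      exact num2 hr h1r h6 hq

end Fields

end Cfsg.Agent.Lib.PrsSL2
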