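import Mathlib
import Cfsg.Agent.Lib.PrsSL2D

set_option autoImplicit false

namespace Cfsg.Agent.Lib.PrsSL2

open Polynomial

section Assembly
variable {F : Type*} [Field F] (p : ℕ) [Fact p.Prime] [Algebra (ZMod p) F]

lemma φ0_gu (ζ : F) (hζ : ζ ≠ 0) : φ0 ζ hζ gu = xm 1 := by simp [φ0, gu, f0]
lemma φ0_gh (ζ : F) (hζ : ζ ≠ 0) : φ0 ζ hζ gh = hm ζ hζ := by simp [φ0, gh, f0]
lemma φ0_gτ (ζ : F) (hζ : ζ ≠ 0) : φ0 ζ hζ gτ = τm F := by simp [φ0, gτ, f0]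

lemma φ0_gU (ζ : F) (hζ : ζ ≠ 0) (j : ℕ) : φ0 ζ hζ (gU j) = xm ((ζ ^ 2) ^ j) := by
  induction j with
  | zero => simp [gU, φ0_gu]
  | succ j ih =>
    have e : gU (j + 1) = gh * gU j * gh⁻¹ := by
      simp only [gU, pow_succ']
      group
    rw [e, map_mul, map_mul, map_inv, φ0_gh, ih, hm_xm]
    congr 2
    ring

omit [Algebra (ZMod p) F] in
lemma xm_pow (t : F) (k : ℕ) : xm t ^ k = xm ((k : F) * t) := by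
  induction k with
  | zero => simp [xm_zero]
  | succ k ih =>
    rw [pow_succ, ih, xm_add]
    congr 2
    push_cast
    ring

lemma φ0_wd (ζ : F) (hζ : ζ ≠ 0) (ι : ℕ → ℕ) (β : F) (hβ : ∀ j, (ζ ^ 2) ^ (ι j) = β ^ j)
    (f : (ZMod p)[X]) : φ0 ζ hζ (wd p ι f) = xm (aeval β f) :=
  wd_eval p (φ0 ζ hζ) (xm (F := F)) (fun s t => (xm_add s t).symm) β ι
    (fun j => by rw [φ0_gU, hβ]) f

/-- relator -/
def rComm (n : ℕ) : FreeGroup (Fin 3) := gu * gU n * gu⁻¹ * (gU n)⁻¹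
/-- relator -/
def rTri (n m : ℕ) : FreeGroup (Fin 3) := gu * gU n * (gU m)⁻¹
/-- relator -/
def r4 (n : ℕ) (fa : (ZMod p)[X]) : FreeGroup (Fin 3) := (gU 1)⁻¹ * wd p (fun j => j * n) fa
/-- relator -/
def r6 : FreeGroup (Fin 3) := gτ⁻¹ * gh * gτ * gh
/-- relator -/
def r7 : FreeGroup (Fin 3) := gu * (gτ * gu * gτ⁻¹) * gu * gτ⁻¹
/-- relator -/
def r8 (f₁ f₂ : (ZMod p)[X]) : FreeGroup (Fin 3) :=
  wd p id f₁ * (gτ * wd p id f₂ * gτ⁻¹) * wd p id f₁ * gτ⁻¹ * gh⁻¹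

omit [Algebra (ZMod p) F] in
lemma φ0_rComm (ζ : F) (hζ : ζ ≠ 0) (n : ℕ) : φ0 ζ hζ (rComm n) = 1 := by
  simp only [rComm, map_mul, map_inv, φ0_gu, φ0_gU]
  rw [xm_add, mul_assoc, ← mul_inv_rev, xm_add, add_comm]
  group

omit [Algebra (ZMod p) F] in
lemma φ0_rTri (ζ : F) (hζ : ζ ≠ 0) (n m : ℕ) (h : 1 + (ζ ^ 2) ^ n = (ζ ^ 2) ^ m) :
    φ0 ζ hζ (rTri n m) = 1 := by
  simp only [rTri, map_mul, map_inv, φ0_gu, φ0_gU]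
  rw [xm_add, h]
  group

lemma φ0_r4 (ζ : F) (hζ : ζ ≠ 0) (n : ℕ) (fa : (ZMod p)[X]) (h : aeval ((ζ ^ 2) ^ n) fa = ζ ^ 2) :
    φ0 ζ hζ (r4 p n fa) = 1 := by
  rw [r4, map_mul, map_inv, φ0_wd p ζ hζ (fun j => j * n) ((ζ ^ 2) ^ n) (fun j => pow_mul' _ j n),
    h, φ0_gU, pow_one]
  group

omit [Algebra (ZMod p) F] in
lemma φ0_r6 (ζ : F) (hζ : ζ ≠ 0) : φ0 ζ hζ r6 = 1 := by
  simp only [r6, map_mul, map_inv, φ0_gh, φ0_gτ]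
  rw [mul_assoc _ (hm ζ hζ), hm_τm]
  group

omit [Algebra (ZMod p) F] in
lemma φ0_r7 (ζ : F) (hζ : ζ ≠ 0) : φ0 ζ hζ r7 = 1 := by
  simp only [r7, map_mul, map_inv, φ0_gu, φ0_gτ]
  rw [B1m]
  group

lemma φ0_r8 (ζ : F) (hζ : ζ ≠ 0) (f₁ f₂ : (ZMod p)[X]) (h1 : aeval (ζ ^ 2) f₁ = ζ)
    (h2 : aeval (ζ ^ 2) f₂ = ζ⁻¹) : φ0 ζ hζ (r8 p f₁ f₂) = 1 := by
  simp only [r8, map_mul, map_inv, φ0_gh, φ0_gτ]
  rw [φ0_wd p ζ hζ id (ζ ^ 2) (fun j => rfl), φ0_wd p ζ hζ id (ζ ^ 2) (fun j => rfl), h1, h2, B2m ζ hζ]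
  group

lemma φ0_r5 (ζ : F) (hζ : ζ ≠ 0) : φ0 ζ hζ (wd p id (minpoly (ZMod p) (ζ ^ 2))) = 1 := by
  rw [φ0_wd p ζ hζ id (ζ ^ 2) (fun j => rfl), minpoly.aeval, xm_zero]

omit [Algebra (ZMod p) F] in
lemma φ0_gu_pow [CharP F p] (ζ : F) (hζ : ζ ≠ 0) : φ0 ζ hζ (gu ^ p) = 1 := by
  rw [map_pow, φ0_gu, xm_pow, CharP.cast_eq_zero F p, zero_mul, xm_zero]

lemma hm_pow_coe (ζ : F) (hζ : ζ ≠ 0) (k : ℕ) :
    ((hm ζ hζ ^ k : SL2 F) : Matrix (Fin 2) (Fin 2) F) = !![ζ ^ k, 0; 0, ζ⁻¹ ^ k] := by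
  induction k with
  | zero =>
    ext i j
    fin_cases i <;> fin_cases j <;> simp
  | succ k ih =>
    rw [pow_succ, Matrix.SpecialLinearGroup.coe_mul, ih]
    simp [hm, Matrix.mul_fin_two, pow_succ]

/-- Step 1: the additive map. -/
theorem step1 {G : Type*} [Group G] (π : FreeGroup (Fin 3) →* G) (g : F)
    (hgen : ∀ t : F, ∃ f : (ZMod p)[X], aeval g f = t)
    (hc : ∀ i j, Commute (vv (π gh) (π gu) i) (vv (π gh) (π gu) j))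
    (hp : (π gu) ^ p = 1)
    (hm : π (wd p id (minpoly (ZMod p) g)) = 1) :
    ∃ x : F → G, (∀ s t, x s * x t = x (s + t)) ∧ (∀ f : (ZMod p)[X], x (aeval g f) = π (wd p id f)) ∧
      (∀ t, π gh * x t * (π gh)⁻¹ = x (g * t)) ∧ x 1 = π gu := by
  haveI hp' : NeZero p := ⟨(Fact.out : p.Prime).ne_zero⟩
  haveI : Fact (1 < p) := ⟨(Fact.out : p.Prime).one_lt⟩
  obtain ⟨L, h1, h2, h3, h4⟩ := exists_L (π gh) (π gu) p hc hp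
  have hwd : ∀ f : (ZMod p)[X], π (wd p id f) = L f := by
    intro f
    have := wd_eval p π L h1 (X : (ZMod p)[X]) id (fun j => by
      rw [← monomial_one_right_eq_X_pow, h2, ZMod.val_one, pow_one, map_gU]; rfl) f
    rwa [aeval_X_left_apply] at this
  obtain ⟨x, hx1, hx2, hx3⟩ := exists_x (π gh) p g hgen L h1 h3 h4 (by rw [← hwd]; exact hm)
  refine ⟨x, hx1, fun f => by rw [hx2, hwd], hx3, ?_⟩
  have := hx2 (monomial 0 1)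
  rw [h2, ZMod.val_one, pow_one] at this
  simpa [vv_zero] using this

/-- The `TD` structure. -/
def mkTD {G : Type*} [Group G] (π : FreeGroup (Fin 3) →* G) (ζ : F) (hζ0 : ζ ≠ 0)
    (gen : ∀ t : F, t ≠ 0 → ∃ k : ℕ, t = ζ ^ k) (x : F → G)
    (hadd : ∀ s t, x s * x t = x (s + t)) (hx : ∀ t, π gh * x t * (π gh)⁻¹ = x (ζ ^ 2 * t))
    (hx1 : x 1 = π gu) (h6 : π r6 = 1) (h7 : π r7 = 1)
    (hB2 : x ζ * (π gτ * x ζ⁻¹ * (π gτ)⁻¹) * x ζ = π gh * π gτ) : TD F G where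
  ζ := ζ
  hζ := hζ0
  gen := gen
  x := x
  h := π gh
  τ := π gτ
  add := hadd
  hx := hx
  hτ := by
    simp only [r6, map_mul, map_inv] at h6
    have : (π gτ)⁻¹ * π gh * π gτ = (π gh)⁻¹ := eq_inv_of_mul_eq_one_left h6
    rw [← this]
    group
  B1 := by
    rw [hx1]
    simp only [r7, map_mul, map_inv] at h7
    exact mul_inv_eq_one.1 h7
  B2 := hB2

/-- What we need in the presented group. -/
def GoodH {G : Type*} [Group G] (π : FreeGroup (Fin 3) →* G) (ζ : F) : Prop :=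
  ∃ x : F → G, (∀ s t, x s * x t = x (s + t)) ∧
    (∀ f : (ZMod p)[X], x (aeval (ζ ^ 2) f) = π (wd p id f)) ∧
    (∀ t, π gh * x t * (π gh)⁻¹ = x (ζ ^ 2 * t)) ∧ x 1 = π gu ∧ π r6 = 1 ∧ π r7 = 1 ∧
    x ζ * (π gτ * x ζ⁻¹ * (π gτ)⁻¹) * x ζ = π gh * π gτ

theorem sl2_of_good [Finite F] (R : Set (FreeGroup (Fin 3))) (ζ : F) (hζ0 : ζ ≠ 0)
    (gen : ∀ t : F, t ≠ 0 → ∃ k : ℕ, t = ζ ^ k)
    (hg : ∀ t : F, ∃ f : (ZMod p)[X], aeval (ζ ^ 2) f = t)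
    (hR : ∀ r ∈ R, φ0 ζ hζ0 r = 1) (hG : GoodH p (PresentedGroup.mk R) ζ) :
    Nonempty (PresentedGroup R ≃* SL2 F) := by
  obtain ⟨x, h1, h2, h3, h4, h6, h7, h8⟩ := hG
  refine iso_SL2 R ζ hζ0 hR (mkTD (PresentedGroup.mk R) ζ hζ0 gen x h1 h3 h4 h6 h7 h8) rfl rfl rfl h4 ?_
  intro t
  obtain ⟨f, rfl⟩ := hg t
  refine ⟨wd p id f, (h2 f).symm, ?_⟩
  exact φ0_wd p ζ hζ0 id (ζ ^ 2) (fun j => rfl) f

theorem psl2_of_good [Finite F] (R : Set (FreeGroup (Fin 3))) (ζ : F) (hζ0 : ζ ≠ 0)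
    (gen : ∀ t : F, t ≠ 0 → ∃ k : ℕ, t = ζ ^ k)
    (hg : ∀ t : F, ∃ f : (ZMod p)[X], aeval (ζ ^ 2) f = t)
    (hR : ∀ r ∈ R, φ0 ζ hζ0 r ∈ Subgroup.center (SL2 F)) (hG : GoodH p (PresentedGroup.mk R) ζ)
    (k : ℕ) (hk : ((hm ζ hζ0 ^ k : SL2 F) : Matrix (Fin 2) (Fin 2) F) = -1)
    (hhk : PresentedGroup.mk R (gh ^ k) = 1) :
    Nonempty (PresentedGroup R ≃* Matrix.ProjectiveSpecialLinearGroup (Fin 2) F) := by
  obtain ⟨x, h1, h2, h3, h4, h6, h7, h8⟩ := hG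
  refine iso_PSL2 R ζ hζ0 hR (mkTD (PresentedGroup.mk R) ζ hζ0 gen x h1 h3 h4 h6 h7 h8) rfl rfl rfl h4 ?_
    k hk ?_
  · intro t
    obtain ⟨f, rfl⟩ := hg t
    refine ⟨wd p id f, (h2 f).symm, ?_⟩
    exact φ0_wd p ζ hζ0 id (ζ ^ 2) (fun j => rfl) f
  · show (PresentedGroup.mk R gh) ^ k = 1
    rw [← map_pow]
    exact hhk

end Assembly

end Cfsg.Agent.Lib.PrsSL2
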