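import Mathlib
import Cfsg.Agent.Lib.PrsSL2E

set_option autoImplicit false

namespace Cfsg.Agent.Lib.PrsSL2

open Polynomial

section Comm
variable (p : ℕ) [Fact p.Prime]
variable {G : Type*} [Group G] (π : FreeGroup (Fin 3) →* G)

lemma comm_of_rComm (n : ℕ) (h : π (rComm n) = 1) :
    Commute (vv (π gh) (π gu) 0) (vv (π gh) (π gu) n) := by
  simp only [rComm, map_mul, map_inv, map_gU] at h
  rw [vv_zero]
  have h1 := mul_inv_eq_one.1 h
  have h2 := mul_inv_eq_iff_eq_mul.1 h1
  exact h2

/-- Window recursion for a monic polynomial relation. -/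
theorem comm_monic (mp : (ZMod p)[X]) (hmp : mp.Monic) (hr : π (wd p id mp) = 1)
    (hbase : ∀ j < mp.natDegree, Commute (vv (π gh) (π gu) 0) (vv (π gh) (π gu) j)) (d : ℤ) :
    Commute (vv (π gh) (π gu) 0) (vv (π gh) (π gu) d) := by
  haveI : Fact (1 < p) := ⟨(Fact.out : p.Prime).one_lt⟩
  set N := mp.natDegree with hN
  set H := π gh
  set U := π gu
  have hr' : pr H U (fun j => (j : ℤ)) (fun j => (mp.coeff j).val) N * vv H U N = 1 := by
    have := wdA_pr p π id mp (N + 1)
    have hr2 : π (wdA p id mp (N + 1)) = 1 := hr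
    rw [hr2] at this
    simp only [pr, id] at this
    rw [hmp.coeff_natDegree, ZMod.val_one, pow_one] at this
    exact this.symm
  have shift : ∀ k : ℤ, pr H U (fun j => (j : ℤ) + k) (fun j => (mp.coeff j).val) N * vv H U (N + k) = 1 := by
    intro k
    rw [← pr_conj, ← vv_conj]
    calc _ = H ^ k * (pr H U (fun j => (j : ℤ)) (fun j => (mp.coeff j).val) N * vv H U N) * H ^ (-k) := by group
      _ = _ := by rw [hr']; group
  have main : ∀ k : ℕ, Commute (vv H U 0) (vv H U k) := by
    intro k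
    induction k using Nat.strong_induction_on with
    | _ k ih =>
      by_cases hk : k < N
      · exact hbase k hk
      · obtain ⟨k', rfl⟩ : ∃ k', k = k' + N := ⟨k - N, by omega⟩
        have h1 := shift k'
        have h2 : vv H U ((N : ℤ) + k') = (pr H U (fun j => (j : ℤ) + k') (fun j => (mp.coeff j).val) N)⁻¹ :=
          eq_inv_of_mul_eq_one_right h1
        have e : (((k' + N : ℕ) : ℤ)) = (N : ℤ) + k' := by push_cast; ring
        rw [e, h2]
        apply Commute.inv_right
        apply pr_comm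
        intro j hj
        have := ih (j + k') (by omega)
        simpa using this
  obtain ⟨k, rfl | rfl⟩ := Int.eq_nat_or_neg d
  · exact main k
  · exact comm_sym H U (main k)

/-- Full commutativity from the triangle relator and the expression of `u₁`. -/
theorem comm_tri (n m : ℕ) (fa : (ZMod p)[X]) (h2 : π (rComm n) = 1) (h3 : π (rTri n m) = 1)
    (h4 : π (r4 p n fa) = 1) (i j : ℤ) :
    Commute (vv (π gh) (π gu) i) (vv (π gh) (π gu) j) := by
  set H := π gh
  set U := π gu
  have hn := comm_of_rComm π n h2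
  have tri : vv H U 0 * vv H U n = vv H U m := by
    simp only [rTri, map_mul, map_inv, map_gU] at h3
    rw [vv_zero]
    exact mul_inv_eq_one.1 h3
  have hL := lat H U hn tri
  have hrel : vv H U 1 = pr H U (fun j => (j : ℤ) * n) (fun j => (fa.coeff j).val) (fa.natDegree + 1) := by
    simp only [r4, map_mul, map_inv, map_gU, wd] at h4
    rw [wdA_pr] at h4
    have h5 := inv_mul_eq_one.1 h4
    have e : (fun j : ℕ => (((j * n : ℕ) : ℤ))) = fun j : ℕ => (j : ℤ) * n := by
      funext j; push_cast; ring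
    rw [e] at h5
    simpa using h5
  exact comm_of_base H U (comm_all H U hL _ _ hrel) i j

end Comm

section Odd
variable {F : Type*} [Field F] [Finite F] (p : ℕ) [Fact p.Prime] [Algebra (ZMod p) F]

/-- The Bruhat-type data gives `GoodH`. -/
theorem good_of_list [CharP F p] (R : Set (FreeGroup (Fin 3))) (ζ : F) (h0 : ζ ≠ 0)
    (hg : ∀ t : F, ∃ f : (ZMod p)[X], aeval (ζ ^ 2) f = t)
    (f₁ f₂ : (ZMod p)[X]) (h1 : aeval (ζ ^ 2) f₁ = ζ) (h2 : aeval (ζ ^ 2) f₂ = ζ⁻¹)
    (hc : ∀ i j, Commute (vv (PresentedGroup.mk R gh) (PresentedGroup.mk R gu) i)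
      (vv (PresentedGroup.mk R gh) (PresentedGroup.mk R gu) j))
    (hu : gu ^ p ∈ R) (h5 : wd p id (minpoly (ZMod p) (ζ ^ 2)) ∈ R) (h6 : r6 ∈ R) (h7 : r7 ∈ R)
    (h8 : r8 p f₁ f₂ ∈ R) : GoodH p (PresentedGroup.mk R) ζ := by
  set π := PresentedGroup.mk R
  obtain ⟨x, hx1, hx2, hx3, hx4⟩ := step1 p π (ζ ^ 2) hg hc
    (by rw [← map_pow]; exact PresentedGroup.one_of_mem hu)
    (PresentedGroup.one_of_mem h5)
  refine ⟨x, hx1, hx2, hx3, hx4, PresentedGroup.one_of_mem h6, PresentedGroup.one_of_mem h7, ?_⟩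
  have h9 : π (r8 p f₁ f₂) = 1 := PresentedGroup.one_of_mem h8
  simp only [r8, map_mul, map_inv] at h9
  rw [← hx2, ← hx2, h1, h2] at h9
  have h10 := mul_inv_eq_one.1 h9
  exact mul_inv_eq_iff_eq_mul.1 h10

theorem odd_core [CharP F p] (hp2 : p ≠ 2) (ζ : F) (h0 : ζ ≠ 0)
    (gen : ∀ t : F, t ≠ 0 → ∃ k : ℕ, t = ζ ^ k) (hord : orderOf ζ = Nat.card F - 1)
    (A : List (FreeGroup (Fin 3))) (hlen : A.length ≤ 3) (hA0 : ∀ r ∈ A, φ0 ζ h0 r = 1)
    (hA1 : ∀ (G : Type) [Group G] (π : FreeGroup (Fin 3) →* G), (∀ r ∈ A, π r = 1) → (π gu) ^ p = 1 →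
      π (wd p id (minpoly (ZMod p) (ζ ^ 2))) = 1 →
      ∀ i j, Commute (vv (π gh) (π gu) i) (vv (π gh) (π gu) j)) :
    (∃ rels : Finset (FreeGroup (Fin 3)), rels.card ≤ 9 ∧
      Nonempty (PresentedGroup (↑rels : Set (FreeGroup (Fin 3))) ≃* SL2 F)) ∧
    (∃ rels : Finset (FreeGroup (Fin 3)), rels.card ≤ 9 ∧
      Nonempty (PresentedGroup (↑rels : Set (FreeGroup (Fin 3))) ≃*
        Matrix.ProjectiveSpecialLinearGroup (Fin 2) F)) := by
  classical
  have hg := gen_g (p := p) ζ h0 hord
  obtain ⟨f₁, h1⟩ := hg ζ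
  obtain ⟨f₂, h2⟩ := hg ζ⁻¹
  set mp := minpoly (ZMod p) (ζ ^ 2) with hmp
  let l : List (FreeGroup (Fin 3)) := A ++ [gu ^ p, wd p id mp, r6, r7, r8 p f₁ f₂]
  have hl : ∀ r ∈ l, φ0 ζ h0 r = 1 := by
    intro r hr
    simp only [l, List.mem_append, List.mem_cons, List.not_mem_nil, or_false] at hr
    rcases hr with hr | rfl | rfl | rfl | rfl | rfl
    · exact hA0 r hr
    · exact φ0_gu_pow p ζ h0
    · exact φ0_r5 p ζ h0
    · exact φ0_r6 ζ h0
    · exact φ0_r7 ζ h0
    · exact φ0_r8 p ζ h0 f₁ f₂ h1 h2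
  have hlen' : l.length ≤ 8 := by
    simp only [l, List.length_append, List.length_cons, List.length_nil]
    omega
  have good : ∀ R : Set (FreeGroup (Fin 3)), (∀ r ∈ l, r ∈ R) → GoodH p (PresentedGroup.mk R) ζ := by
    intro R hR
    have hmem : ∀ r ∈ A, r ∈ R := fun r hr => hR r (by simp [l, hr])
    have hu : gu ^ p ∈ R := hR _ (by simp [l])
    have h5 : wd p id mp ∈ R := hR _ (by simp [l])
    exact good_of_list p R ζ h0 hg f₁ f₂ h1 h2
      (hA1 _ _ (fun r hr => PresentedGroup.one_of_mem (hmem r hr))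
        (by rw [← map_pow]; exact PresentedGroup.one_of_mem hu)
        (PresentedGroup.one_of_mem h5))
      hu h5 (hR _ (by simp [l])) (hR _ (by simp [l])) (hR _ (by simp [l]))
  constructor
  · refine ⟨l.toFinset, (List.toFinset_card_le l).trans (by omega), ?_⟩
    apply sl2_of_good p _ ζ h0 gen hg
    · intro r hr
      exact hl r (by simpa using hr)
    · exact good _ (fun r hr => by simpa using hr)
  · let k := (Nat.card F - 1) / 2
    have hq : 3 ≤ Nat.card F := by
      have h2' : 2 ≤ Nat.card F := Finite.one_lt_card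
      by_contra hlt
      have h3 : Nat.card F = 2 := by omega
      have : (2 : F) = 0 := by
        haveI : Fintype F := Fintype.ofFinite F
        have := FiniteField.cast_card_eq_zero F
        rw [← Nat.card_eq_fintype_card, h3] at this
        exact_mod_cast this
      have hd : p ∣ 2 := (CharP.cast_eq_zero_iff F p 2).1 (by exact_mod_cast this)
      exact hp2 ((Nat.prime_dvd_prime_iff_eq Fact.out Nat.prime_two).1 hd)
    have hodd : Odd (Nat.card F) := by
      haveI : Fintype F := Fintype.ofFinite F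
      rw [Nat.card_eq_fintype_card]
      by_contra hne
      rw [Nat.not_odd_iff_even] at hne
      have h2d : 2 ∣ Fintype.card F := hne.two_dvd
      obtain ⟨n, hn⟩ := FiniteField.card F p
      rw [hn.2] at h2d
      have := (Nat.prime_dvd_prime_iff_eq Nat.prime_two Fact.out).1 (Nat.Prime.dvd_of_dvd_pow Nat.prime_two h2d)
      exact hp2 this.symm
    have h2k : 2 * k = Nat.card F - 1 := by
      obtain ⟨c, hc⟩ := hodd
      simp only [k]
      omega
    have hk0 : ζ ^ k ≠ 1 := by
      intro h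
      have hk' : 0 < k := by omega
      have := orderOf_le_of_pow_eq_one hk' h
      omega
    have hk1 : ζ ^ k = -1 := by
      have h3 : (ζ ^ k) ^ 2 = 1 := by
        rw [← pow_mul, mul_comm, h2k, ← hord, pow_orderOf_eq_one]
      have h4 : (ζ ^ k - 1) * (ζ ^ k + 1) = 0 := by linear_combination h3
      rcases mul_eq_zero.1 h4 with h | h
      · exact absurd (sub_eq_zero.1 h) hk0
      · exact eq_neg_of_add_eq_zero_left h
    have hk2 : ((hm ζ h0 ^ k : SL2 F) : Matrix (Fin 2) (Fin 2) F) = -1 := by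
      rw [hm_pow_coe, inv_pow, hk1]
      ext i j
      fin_cases i <;> fin_cases j <;> simp
    refine ⟨(l ++ [gh ^ k]).toFinset, (List.toFinset_card_le _).trans (by simp; omega), ?_⟩
    apply psl2_of_good p _ ζ h0 gen hg
    · intro r hr
      simp only [Finset.mem_coe, List.mem_toFinset, List.mem_append, List.mem_singleton] at hr
      rcases hr with hr | rfl
      · rw [hl r hr]
        exact Subgroup.one_mem _
      · rw [map_pow, φ0_gh]
        rw [Matrix.SpecialLinearGroup.mem_center_iff]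
        refine ⟨-1, by simp, ?_⟩
        rw [hk2]
        ext i j
        fin_cases i <;> fin_cases j <;> simp
    · exact good _ (fun r hr => by simp [hr])
    · exact hk2
    · exact PresentedGroup.one_of_mem (by simp)

end Odd

end Cfsg.Agent.Lib.PrsSL2
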