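import Mathlib
import Cfsg.Agent.Lib.PrsSL2F

set_option autoImplicit false

namespace Cfsg.Agent.Lib.PrsSL2

open Polynomial

section OddMain
variable {F : Type*} [Field F] [Finite F] (p : ℕ) [Fact p.Prime] [Algebra (ZMod p) F]

theorem exists_params [CharP F p] (hp2 : p ≠ 2) (ζ : F) (h0 : ζ ≠ 0)
    (gen : ∀ t : F, t ≠ 0 → ∃ k : ℕ, t = ζ ^ k) (hord : orderOf ζ = Nat.card F - 1)
    (hq : 9 < Nat.card F) :
    ∃ (n m : ℕ) (a : F), 4 * a + 2 = ζ ^ 2 + (ζ ^ 2)⁻¹ ∧ a = (ζ ^ 2) ^ n ∧ 1 + a = (ζ ^ 2) ^ m := by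
  have h2 : (2 : F) ≠ 0 := by
    intro h
    have hd : p ∣ 2 := (CharP.cast_eq_zero_iff F p 2).1 (by exact_mod_cast h)
    exact hp2 ((Nat.prime_dvd_prime_iff_eq Fact.out Nat.prime_two).1 hd)
  have hs : (ζ⁻¹ - ζ) / 2 ≠ 0 := by
    intro h
    have h3 : ζ ^ 2 = 1 := by
      rw [div_eq_zero_iff] at h
      rcases h with h | h
      · field_simp at h
        linear_combination -h
      · exact absurd h h2
    have := orderOf_le_of_pow_eq_one (by norm_num) h3
    omega
  have hw : (ζ⁻¹ + ζ) / 2 ≠ 0 := by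
    intro h
    have h3 : ζ ^ 4 = 1 := by
      rw [div_eq_zero_iff] at h
      rcases h with h | h
      · field_simp at h
        have e : ζ ^ 2 = -1 := by linear_combination h
        calc ζ ^ 4 = (ζ ^ 2) ^ 2 := by ring
          _ = 1 := by rw [e]; ring
      · exact absurd h h2
    have := orderOf_le_of_pow_eq_one (by norm_num) h3
    omega
  obtain ⟨n, hn⟩ := gen _ hs
  obtain ⟨m, hm⟩ := gen _ hw
  refine ⟨n, m, ((ζ⁻¹ - ζ) / 2) ^ 2, ?_, ?_, ?_⟩
  · field_simp
    ring
  · rw [hn, ← pow_mul, ← pow_mul, mul_comm]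
  · rw [← pow_mul, mul_comm, pow_mul, ← hm]
    field_simp
    ring

theorem odd_main [CharP F p] (hp2 : p ≠ 2) :
    (∃ rels : Finset (FreeGroup (Fin 3)), rels.card ≤ 9 ∧
      Nonempty (PresentedGroup (↑rels : Set (FreeGroup (Fin 3))) ≃* SL2 F)) ∧
    (∃ rels : Finset (FreeGroup (Fin 3)), rels.card ≤ 9 ∧
      Nonempty (PresentedGroup (↑rels : Set (FreeGroup (Fin 3))) ≃*
        Matrix.ProjectiveSpecialLinearGroup (Fin 2) F)) := by
  classical
  obtain ⟨ζ, h0, gen, hord⟩ := exists_gen (F := F)
  by_cases hq : Nat.card F ≤ 9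
  · have hdeg : (minpoly (ZMod p) (ζ ^ 2)).natDegree ≤ 2 := by
      haveI : Module.Finite (ZMod p) F := Module.Finite.of_finite
      have h1 := minpoly.natDegree_le (A := ZMod p) (ζ ^ 2)
      have h2 : Nat.card F = p ^ Module.finrank (ZMod p) F := by
        have : Nat.card F = Nat.card (ZMod p) ^ Module.finrank (ZMod p) F := Module.natCard_eq_pow_finrank
        rwa [Nat.card_zmod] at this
      have h3 : 3 ≤ p := by
        have := (Fact.out : p.Prime).two_le
        omega
      by_contra hc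
      have h4 : 3 ≤ Module.finrank (ZMod p) F := by omega
      have h5 : 3 ^ 3 ≤ p ^ Module.finrank (ZMod p) F :=
        (Nat.pow_le_pow_left h3 3).trans (Nat.pow_le_pow_right (by omega) h4)
      omega
    refine odd_core p hp2 ζ h0 gen hord [rComm 1] (by simp) ?_ ?_
    · intro r hr
      simp only [List.mem_singleton] at hr
      subst hr
      exact φ0_rComm ζ h0 1
    · intro G _ π hA hp hm i j
      have h1 : π (rComm 1) = 1 := hA _ (by simp)
      apply comm_of_base
      apply comm_monic p π _ (minpoly.monic (IsIntegral.of_finite _ _)) hm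
      intro j hj
      have : j = 0 ∨ j = 1 := by omega
      rcases this with rfl | rfl
      · simp
      · simpa using comm_of_rComm π 1 h1
  · have hq' : 9 < Nat.card F := by omega
    obtain ⟨n, m, a, ha1, ha2, ha3⟩ := exists_params p hp2 ζ h0 gen hord hq'
    obtain ⟨fa, hfa⟩ := gen_a (p := p) ζ h0 hord hq' a ha1 (ζ ^ 2)
    refine odd_core p hp2 ζ h0 gen hord [rComm n, rTri n m, r4 p n fa] (by simp) ?_ ?_
    · intro r hr
      simp only [List.mem_cons, List.not_mem_nil, or_false] at hr
      rcases hr with rfl | rfl | rfl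
      · exact φ0_rComm ζ h0 n
      · exact φ0_rTri ζ h0 n m (by rw [← ha2]; exact ha3)
      · exact φ0_r4 p ζ h0 n fa (by rw [← ha2]; exact hfa)
    · intro G _ π hA _ _ i j
      exact comm_tri p π n m fa (hA _ (by simp)) (hA _ (by simp)) (hA _ (by simp)) i j

end OddMain

section Char2
variable {F : Type*} [Field F] [Finite F] [Algebra (ZMod 2) F]

lemma L_mul {Γ : Type*} [Group Γ] (h : Γ) (p : ℕ) (L : (ZMod p)[X] → Γ)
    (h1 : ∀ f g, L (f + g) = L f * L g)
    (h3 : ∀ f, L (X * f) = h * L f * h⁻¹)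
    (h4 : ∀ (c : ZMod p) f, L (C c * f) = (L f) ^ c.val)
    (T : (ZMod p)[X]) (hT : L T = 1) (s : (ZMod p)[X]) : L (T * s) = 1 := by
  have hXp : ∀ (j : ℕ) f, L (X ^ j * f) = h ^ j * L f * (h ^ j)⁻¹ := by
    intro j f
    induction j with
    | zero => simp
    | succ j ih =>
      rw [pow_succ', mul_assoc, h3, ih, pow_succ']
      group
  induction s using Polynomial.induction_on' with
  | add s s' hs hs' => rw [mul_add, h1, hs, hs', one_mul]
  | monomial j c =>
    have e : T * monomial j c = C c * (X ^ j * T) := by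
      rw [← C_mul_X_pow_eq_monomial]; ring
    rw [e, h4, hXp, hT]
    simp

theorem char2_B2 {G : Type*} [Group G] (x : F → G) (h τ : G) (ζ : F) (h0 : ζ ≠ 0)
    (hadd : ∀ s t, x s * x t = x (s + t)) (hx : ∀ t, h * x t * h⁻¹ = x (ζ ^ 2 * t))
    (hτ : h * τ = τ * h⁻¹) (B1 : x 1 * (τ * x 1 * τ⁻¹) * x 1 = τ) (k : ℕ)
    (hk1 : h ^ (2 * k) = h) (hz : (ζ ^ 2) ^ k = ζ) :
    x ζ * (τ * x ζ⁻¹ * τ⁻¹) * x ζ = h * τ := by
  let w : F → G := fun t => x t * (τ * x t⁻¹ * τ⁻¹) * x t
  have hg : ζ ^ 2 ≠ 0 := pow_ne_zero 2 h0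
  have hinv : ∀ t, h⁻¹ * x t * h = x ((ζ ^ 2)⁻¹ * t) := by
    intro t
    have := hx ((ζ ^ 2)⁻¹ * t)
    rw [mul_inv_cancel_left₀ hg] at this
    rw [← this]; group
  have hτ'' : τ⁻¹ * h⁻¹ = h * τ⁻¹ := by
    have := congrArg (fun a => a⁻¹) hτ
    simpa using this
  have hw : ∀ t, h * w t * h⁻¹ = w (ζ ^ 2 * t) := by
    intro t
    have key : h * (τ * x t⁻¹ * τ⁻¹) * h⁻¹ = τ * x (ζ ^ 2 * t)⁻¹ * τ⁻¹ := by
      have e : (ζ ^ 2 * t)⁻¹ = (ζ ^ 2)⁻¹ * t⁻¹ := mul_inv _ _
      rw [e, ← hinv]
      calc h * (τ * x t⁻¹ * τ⁻¹) * h⁻¹ = (h * τ) * x t⁻¹ * (τ⁻¹ * h⁻¹) := by group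
        _ = (τ * h⁻¹) * x t⁻¹ * (h * τ⁻¹) := by rw [hτ, hτ'']
        _ = _ := by group
    calc h * w t * h⁻¹
        = (h * x t * h⁻¹) * (h * (τ * x t⁻¹ * τ⁻¹) * h⁻¹) * (h * x t * h⁻¹) := by
          simp only [w]; group
      _ = _ := by rw [hx, key]
  have hτ3 : τ * h⁻¹ = h * τ := hτ.symm
  have hj : ∀ j : ℕ, w ((ζ ^ 2) ^ j) = h ^ (2 * j) * τ := by
    intro j
    induction j with
    | zero =>
      simp only [pow_zero, mul_zero, one_mul, w, inv_one]
      exact B1
    | succ j ih =>
      rw [pow_succ', ← hw, ih]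
      calc h * (h ^ (2 * j) * τ) * h⁻¹ = h * h ^ (2 * j) * (τ * h⁻¹) := by group
        _ = h * h ^ (2 * j) * (h * τ) := by rw [hτ3]
        _ = _ := by
          have : 2 * (j + 1) = 2 * j + 2 := by ring
          rw [this, pow_add]
          group
  have := hj k
  rw [hz, hk1] at this
  exact this

theorem char2_main [CharP F 2] :
    (∃ rels : Finset (FreeGroup (Fin 3)), rels.card ≤ 5 ∧
      Nonempty (PresentedGroup (↑rels : Set (FreeGroup (Fin 3))) ≃* SL2 F)) ∧
    (∃ rels : Finset (FreeGroup (Fin 3)), rels.card ≤ 5 ∧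
      Nonempty (PresentedGroup (↑rels : Set (FreeGroup (Fin 3))) ≃*
        Matrix.ProjectiveSpecialLinearGroup (Fin 2) F)) := by
  classical
  obtain ⟨ζ, h0, gen, hord⟩ := exists_gen (F := F)
  have hg := gen_g (p := 2) ζ h0 hord
  set mp := minpoly (ZMod 2) (ζ ^ 2) with hmp
  set q := Nat.card F with hqdef
  have hq2 : 2 ≤ q := Finite.one_lt_card
  obtain ⟨k, hk⟩ : 2 ∣ q := by
    haveI : Fintype F := Fintype.ofFinite F
    have := FiniteField.cast_card_eq_zero F
    rw [← Nat.card_eq_fintype_card] at this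
    exact (CharP.cast_eq_zero_iff F 2 q).1 this
  have hpowq : ζ ^ q = ζ := by
    haveI : Fintype F := Fintype.ofFinite F
    rw [hqdef, Nat.card_eq_fintype_card]
    exact FiniteField.pow_card ζ
  have hz : (ζ ^ 2) ^ k = ζ := by
    rw [← pow_mul, ← hk, hpowq]
  have hneg : (-1 : F) = 1 := CharTwo.neg_eq 1
  have hGoal : ∃ l : List (FreeGroup (Fin 3)), l.length ≤ 5 ∧ (∀ r ∈ l, φ0 ζ h0 r = 1) ∧
      GoodH 2 (PresentedGroup.mk (↑l.toFinset : Set (FreeGroup (Fin 3)))) ζ := by
    by_cases hq : q = 2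
    · -- the field with two elements
      have hζ1 : ζ = 1 := by
        have : orderOf ζ = 1 := by rw [hord, hq]
        exact orderOf_eq_one_iff.1 this
      refine ⟨[gu ^ 2, r7, gh, wd 2 id mp], by simp, ?_, ?_⟩
      · intro r hr
        simp only [List.mem_cons, List.not_mem_nil, or_false] at hr
        rcases hr with rfl | rfl | rfl | rfl
        · exact φ0_gu_pow 2 ζ h0
        · exact φ0_r7 ζ h0
        · rw [φ0_gh]
          subst hζ1
          apply Subtype.ext
          ext i j
          fin_cases i <;> fin_cases j <;> simp [hm]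
        · exact φ0_r5 2 ζ h0
      · set R : Set (FreeGroup (Fin 3)) := ↑([gu ^ 2, r7, gh, wd 2 id mp] : List (FreeGroup (Fin 3))).toFinset
        have hmem : ∀ r ∈ ([gu ^ 2, r7, gh, wd 2 id mp] : List (FreeGroup (Fin 3))), PresentedGroup.mk R r = 1 := by
          intro r hr
          apply PresentedGroup.one_of_mem
          simpa [R] using hr
        set π := PresentedGroup.mk R
        have hh : π gh = 1 := hmem _ (by simp)
        have hu : π gu ^ 2 = 1 := by rw [← map_pow]; exact hmem _ (by simp)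
        have h7 : π r7 = 1 := hmem _ (by simp)
        have hc : ∀ i j, Commute (vv (π gh) (π gu) i) (vv (π gh) (π gu) j) := by
          intro i j
          simp [vv, hh]
        obtain ⟨x, hx1, hx2, hx3, hx4⟩ := step1 2 π (ζ ^ 2) hg hc hu (hmem (wd 2 id mp) (by simp))
        refine ⟨x, hx1, hx2, hx3, hx4, ?_, h7, ?_⟩
        · simp [r6, hh]
        · rw [hh, one_mul, hζ1, inv_one, hx4]
          simp only [r7, map_mul, map_inv] at h7
          exact mul_inv_eq_one.1 h7
    · have hq4 : 4 ≤ q := by omega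
      have hg1 : 1 + ζ ^ 2 ≠ 0 := by
        intro h
        have h1 : ζ ^ 2 = 1 := by
          have : ζ ^ 2 = -1 := by linear_combination h
          rw [this, hneg]
        have := orderOf_le_of_pow_eq_one (by norm_num) h1
        omega
      obtain ⟨m₀, hm₀⟩ := gen _ hg1
      have hm : 1 + (ζ ^ 2) ^ 1 = (ζ ^ 2) ^ (k * m₀) := by
        rw [pow_mul, hz, pow_one, hm₀]
      set m := k * m₀ with hmdef
      have hU : (ζ ^ (q - 1)) = 1 := by rw [← hord, pow_orderOf_eq_one]
      refine ⟨[gu ^ 2, rTri 1 m, wd 2 id mp * gh ^ (q - 1), r6, r7], by simp, ?_, ?_⟩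
      · intro r hr
        simp only [List.mem_cons, List.not_mem_nil, or_false] at hr
        rcases hr with rfl | rfl | rfl | rfl | rfl
        · exact φ0_gu_pow 2 ζ h0
        · exact φ0_rTri ζ h0 1 m hm
        · rw [map_mul, φ0_r5, one_mul, map_pow, φ0_gh]
          apply Subtype.ext
          rw [hm_pow_coe, inv_pow, hU]
          ext i j
          fin_cases i <;> fin_cases j <;> simp
        · exact φ0_r6 ζ h0
        · exact φ0_r7 ζ h0
      · set R : Set (FreeGroup (Fin 3)) :=
          ↑([gu ^ 2, rTri 1 m, wd 2 id mp * gh ^ (q - 1), r6, r7] : List (FreeGroup (Fin 3))).toFinset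
        have hmem : ∀ r ∈ ([gu ^ 2, rTri 1 m, wd 2 id mp * gh ^ (q - 1), r6, r7] : List (FreeGroup (Fin 3))),
            PresentedGroup.mk R r = 1 := by
          intro r hr
          apply PresentedGroup.one_of_mem
          simpa [R] using hr
        set π := PresentedGroup.mk R
        set H := π gh
        set U := π gu
        have hu : U ^ 2 = 1 := by
          show π gu ^ 2 = 1
          rw [← map_pow]; exact hmem _ (by simp)
        have h6 : π r6 = 1 := hmem _ (by simp)
        have h7 : π r7 = 1 := hmem _ (by simp)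
        have tri : vv H U 0 * vv H U (1 : ℕ) = vv H U m := by
          have := hmem (rTri 1 m) (by simp)
          simp only [rTri, map_mul, map_inv, map_gU] at this
          rw [vv_zero]
          exact mul_inv_eq_one.1 this
        have hv2 : ∀ i, vv H U i ^ 2 = 1 := vv_pow H U 2 hu
        have hn : Commute (vv H U 0) (vv H U (1 : ℕ)) := by
          have h1 : (vv H U 0 * vv H U (1 : ℕ)) ^ 2 = 1 := by rw [tri]; exact hv2 _
          have h2 := hv2 0
          have h3 := hv2 ((1 : ℕ) : ℤ)
          rw [pow_two] at h1 h2 h3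
          have e1 : (vv H U 0)⁻¹ = vv H U 0 := inv_eq_of_mul_eq_one_left h2
          have e2 : (vv H U (1 : ℕ))⁻¹ = vv H U (1 : ℕ) := inv_eq_of_mul_eq_one_left h3
          have h4 := eq_inv_of_mul_eq_one_left h1
          rw [mul_inv_rev, e1, e2] at h4
          exact h4
        have hL := lat H U hn tri
        have hc : ∀ i j, Commute (vv H U i) (vv H U j) := by
          apply comm_of_base
          intro d
          simpa using hL d
        obtain ⟨L, l1, l2, l3, l4⟩ := exists_L H U 2 hc hu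
        have hwd : ∀ f : (ZMod 2)[X], π (wd 2 id f) = L f := by
          intro f
          have := wd_eval 2 π L l1 (X : (ZMod 2)[X]) id (fun j => by
            rw [← monomial_one_right_eq_X_pow, l2, ZMod.val_one, pow_one, map_gU]; rfl) f
          rwa [aeval_X_left_apply] at this
        have hL0 : L 0 = 1 := by
          have := l1 0 0
          rw [add_zero] at this
          exact mul_eq_left.1 this.symm
        have hE : L mp * H ^ (q - 1) = 1 := by
          have := hmem (wd 2 id mp * gh ^ (q - 1)) (by simp)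
          rw [map_mul, map_pow, hwd] at this
          exact this
        have hP : H * L mp * H⁻¹ = L mp := by
          have e : L mp = (H ^ (q - 1))⁻¹ := eq_inv_of_mul_eq_one_left hE
          rw [e]
          have : Commute H (H ^ (q - 1))⁻¹ := ((Commute.refl H).pow_right _).inv_right
          rw [this.eq]
          group
        have hXp : ∀ j : ℕ, L (X ^ j * mp) = L mp := by
          intro j
          induction j with
          | zero => simp
          | succ j ih =>
            rw [pow_succ', mul_assoc, l3, ih, hP]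
        have hT : L (1 + X + X ^ m) = 1 := by
          rw [l1, l1]
          have a0 : L 1 = vv H U 0 := by
            have := l2 0 1
            rw [monomial_zero_one, ZMod.val_one, pow_one] at this
            simpa using this
          have a1 : L X = vv H U (1 : ℕ) := by
            have := l2 1 1
            rw [monomial_one_one_eq_X, ZMod.val_one, pow_one] at this
            exact this
          have a2 : L (X ^ m) = vv H U m := by
            have := l2 m 1
            rw [monomial_one_right_eq_X_pow, ZMod.val_one, pow_one] at this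
            exact this
          rw [a0, a1, a2, tri, ← pow_two, hv2]
        have hTm := L_mul H 2 L l1 l3 l4 _ hT mp
        have e : (1 + X + X ^ m) * mp = mp + X * mp + X ^ m * mp := by ring
        rw [e, l1, l1, hXp, l3, hP] at hTm
        have hPP : L mp * L mp = 1 := by
          rw [← l1, CharTwo.add_self_eq_zero, hL0]
        rw [hPP, one_mul] at hTm
        have hH : H ^ (q - 1) = 1 := by
          rw [hTm, one_mul] at hE
          exact hE
        have hm1 : π (wd 2 id mp) = 1 := by rw [hwd, hTm]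
        obtain ⟨x, hx1, hx2, hx3, hx4⟩ := step1 2 π (ζ ^ 2) hg hc hu hm1
        refine ⟨x, hx1, hx2, hx3, hx4, h6, h7, ?_⟩
        have hτ : H * π gτ = π gτ * H⁻¹ := by
          simp only [r6, map_mul, map_inv] at h6
          have : (π gτ)⁻¹ * H * π gτ = H⁻¹ := eq_inv_of_mul_eq_one_left h6
          rw [← this]
          group
        have B1 : x 1 * (π gτ * x 1 * (π gτ)⁻¹) * x 1 = π gτ := by
          rw [hx4]
          simp only [r7, map_mul, map_inv] at h7
          exact mul_inv_eq_one.1 h7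
        refine char2_B2 x H (π gτ) ζ h0 hx1 hx3 hτ B1 k ?_ hz
        rw [← hk]
        have : q = (q - 1) + 1 := by omega
        rw [this, pow_succ]
        simp [hH]
  obtain ⟨l, hlen, hl, hgood⟩ := hGoal
  constructor
  · refine ⟨l.toFinset, (List.toFinset_card_le l).trans hlen, ?_⟩
    apply sl2_of_good 2 _ ζ h0 gen hg
    · intro r hr
      exact hl r (by simpa using hr)
    · exact hgood
  · refine ⟨l.toFinset, (List.toFinset_card_le l).trans hlen, ?_⟩
    apply psl2_of_good 2 _ ζ h0 gen hg _ hgood 0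
    · rw [pow_zero]
      ext i j
      fin_cases i <;> fin_cases j <;> simp [hneg]
    · simp
    · intro r hr
      rw [hl r (by simpa using hr)]
      exact Subgroup.one_mem _

end Char2

/-- The statement. -/
theorem main {F : Type*} [Field F] [Fintype F] :
    (∃ rels : Finset (FreeGroup (Fin 3)), rels.card ≤ 9 ∧ Nonempty (PresentedGroup (↑rels : Set (FreeGroup (Fin 3))) ≃* Matrix.SpecialLinearGroup (Fin 2) F)) ∧ (∃ rels : Finset (FreeGroup (Fin 3)), rels.card ≤ 9 ∧ Nonempty (PresentedGroup (↑rels : Set (FreeGroup (Fin 3))) ≃* Matrix.ProjectiveSpecialLinearGroup (Fin 2) F)) ∧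
    (CharP F 2 → ∃ rels : Finset (FreeGroup (Fin 3)), rels.card ≤ 5 ∧ Nonempty (PresentedGroup (↑rels : Set (FreeGroup (Fin 3))) ≃* Matrix.ProjectiveSpecialLinearGroup (Fin 2) F)) := by
  classical
  obtain ⟨p, hp⟩ := CharP.exists F
  haveI : Fact p.Prime := ⟨CharP.char_is_prime F p⟩
  letI : Algebra (ZMod p) F := ZMod.algebra F p
  by_cases hp2 : p = 2
  · subst hp2
    obtain ⟨⟨r1, h1, e1⟩, ⟨r2, h2, e2⟩⟩ := char2_main (F := F)
    exact ⟨⟨r1, h1.trans (by norm_num), e1⟩, ⟨r2, h2.trans (by norm_num), e2⟩, fun _ => ⟨r2, h2, e2⟩⟩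
  · obtain ⟨h1, h2⟩ := odd_main p (F := F) hp2
    refine ⟨h1, h2, fun h => ?_⟩
    exact absurd (CharP.eq F hp h) hp2

end Cfsg.Agent.Lib.PrsSL2
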