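import Mathlib
import Cfsg.Agent.Lib.StN5

/-!
# Steinberg relations from the torus action and few base relations
-/

set_option autoImplicit false

namespace Cfsg.Agent.Lib.PrsSLn

section GrpCalc
variable {G : Type*} [Group G]

lemma gp1 {w p q e C : G} (h1 : p * w * p⁻¹ * w⁻¹ = e) (h2 : Commute w q) (h3 : Commute e q)
    (hC : p * q * p⁻¹ * q⁻¹ = C) (h4 : Commute e C) : Commute w C := by
  have a1 : w * p = e⁻¹ * p * w := by rw [← h1]; group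
  have a2 : w * p⁻¹ = p⁻¹ * e * w := by rw [← h1]; group
  have a3 : w * q = q * w := h2.eq
  have a4 : w * q⁻¹ = q⁻¹ * w := h2.inv_right.eq
  have a5 : e * q⁻¹ = q⁻¹ * e := h3.inv_right.eq
  have a6 : e * C = C * e := h4.eq
  show w * C = C * w
  rw [← hC] at a6 ⊢
  calc w * (p * q * p⁻¹ * q⁻¹) = (w * p) * q * p⁻¹ * q⁻¹ := by group
    _ = e⁻¹ * p * (w * q) * p⁻¹ * q⁻¹ := by rw [a1]; group
    _ = e⁻¹ * p * q * (w * p⁻¹) * q⁻¹ := by rw [a3]; group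
    _ = e⁻¹ * p * q * p⁻¹ * e * (w * q⁻¹) := by rw [a2]; group
    _ = e⁻¹ * p * q * p⁻¹ * (e * q⁻¹) * w := by rw [a4]; group
    _ = e⁻¹ * p * q * p⁻¹ * q⁻¹ * e * w := by rw [a5]; group
    _ = e⁻¹ * (e * (p * q * p⁻¹ * q⁻¹)) * w := by
        rw [a6]; group
    _ = _ := by group

lemma gp2 {a b z A B C : G} (h1 : a * z * a⁻¹ * z⁻¹ = A) (h2 : b * z * b⁻¹ * z⁻¹ = B)
    (h3 : (a * b) * z * (a * b)⁻¹ * z⁻¹ = C) (h4 : B * A = C) : Commute a B := by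
  have e : a * B * a⁻¹ * A = C := by
    rw [← h3, ← h1, ← h2]; group
  have : a * B * a⁻¹ = B := by
    rw [← h4] at e
    exact mul_right_cancel e
  show a * B = B * a
  rw [mul_inv_eq_iff_eq_mul] at this
  exact this

lemma gp3 {y p q e z : G} (h1 : Commute y p) (h2 : y * q * y⁻¹ * q⁻¹ = e)
    (h3 : p * q * p⁻¹ * q⁻¹ = z) (h4 : Commute e p) (h5 : Commute e z) : Commute y z := by
  have a1 : y * p * y⁻¹ = p := by rw [h1.eq]; group
  have a2 : y * q * y⁻¹ = e * q := by rw [← h2]; group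
  have e1 : y * z * y⁻¹ = (y * p * y⁻¹) * (y * q * y⁻¹) * (y * p * y⁻¹)⁻¹ * (y * q * y⁻¹)⁻¹ := by
    rw [← h3]; group
  rw [a1, a2] at e1
  have e2 : p * (e * q) * p⁻¹ * (e * q)⁻¹ = e * z * e⁻¹ := by
    have : p * e = e * p := h4.eq.symm
    calc p * (e * q) * p⁻¹ * (e * q)⁻¹ = (p * e) * q * p⁻¹ * q⁻¹ * e⁻¹ := by group
      _ = e * (p * q * p⁻¹ * q⁻¹) * e⁻¹ := by rw [this]; group
      _ = _ := by rw [h3]
  rw [e2, h5.eq] at e1
  show y * z = z * y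
  have e3 : y * z = z * e * e⁻¹ * y := by
    calc y * z = (y * z * y⁻¹) * y := by group
      _ = _ := by rw [e1]
  rw [e3]
  group

lemma gp4 {a b c e z s : G} (h1 : a * b * a⁻¹ * b⁻¹ = e) (h2 : Commute a c)
    (h3 : b * c * b⁻¹ * c⁻¹ = z) (h4 : Commute e z) (h5 : e * c * e⁻¹ * c⁻¹ = s) (h6 : Commute z s) :
    a * z * a⁻¹ * z⁻¹ = s := by
  have a1 : a * b * a⁻¹ = e * b := by rw [← h1]; group
  have a2 : a * c * a⁻¹ = c := by rw [h2.eq]; group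
  have e1 : a * z * a⁻¹ = (a * b * a⁻¹) * (a * c * a⁻¹) * (a * b * a⁻¹)⁻¹ * (a * c * a⁻¹)⁻¹ := by
    rw [← h3]; group
  rw [a1, a2] at e1
  have e2 : e * b * c * (e * b)⁻¹ * c⁻¹ = e * z * e⁻¹ * s := by
    rw [← h3, ← h5]; group
  have e3 : e * z * e⁻¹ * s = z * s := by
    rw [h4.eq]
    group
  rw [e2, e3] at e1
  rw [e1, h6.eq]
  group

end GrpCalc

/-- The data. -/
structure ScalData (I F Γ : Type*) [Field F] [Group Γ] where
  x : I → I → F → Γ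
  T : I → I → Γ
  ζ : F
  hζ : ζ ≠ 0
  add : ∀ {i j : I}, i ≠ j → ∀ s t, x i j s * x i j t = x i j (s + t)
  H1 : ∀ {i j k : I}, i ≠ j → i ≠ k → j ≠ k → ∀ t, T i k * x i j t * (T i k)⁻¹ = x i j (ζ * t)
  H2 : ∀ {i j k : I}, i ≠ j → i ≠ k → j ≠ k → ∃ l, l ≠ i ∧ l ≠ j ∧ l ≠ k ∧ ∀ t, Commute (T i l) (x j k t)
  H3 : ∀ {i j k l : I}, i ≠ j → i ≠ k → i ≠ l → j ≠ k → j ≠ l → k ≠ l →
    (∀ t s, Commute (x i j t) (x k l s)) ∨ (∀ t s, Commute (x i l t) (x k j s))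
  A0 : ∀ {i j k : I}, i ≠ j → i ≠ k → j ≠ k →
    x i j 1 * x j k ζ * (x i j 1)⁻¹ * (x j k ζ)⁻¹ = x i k ζ
  C0 : ∀ {i j k : I}, i ≠ j → i ≠ k → j ≠ k → Commute (x i k ζ) (x j k ζ)
  gen : ∀ t : F, t ≠ 0 → ∃ k : ℕ, t = ζ ^ k
  out : ∀ i j k : I, ∃ l, l ≠ i ∧ l ≠ j ∧ l ≠ k

namespace ScalData
variable {I F Γ : Type*} [Field F] [Group Γ] (D : ScalData I F Γ)

lemma x_zero {i j : I} (h : i ≠ j) : D.x i j 0 = 1 := by
  have := D.add h 0 0
  rw [add_zero] at this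
  exact mul_eq_left.1 this

/-- `A₁` -/
lemma A1 {i j k : I} (hij : i ≠ j) (hik : i ≠ k) (hjk : j ≠ k) (t : F) :
    D.x i j t * D.x j k D.ζ * (D.x i j t)⁻¹ * (D.x j k D.ζ)⁻¹ = D.x i k (t * D.ζ) := by
  by_cases ht : t = 0
  · subst ht
    rw [D.x_zero hij, zero_mul, D.x_zero hik]
    group
  obtain ⟨a, rfl⟩ := D.gen t ht
  induction a with
  | zero =>
    rw [pow_zero, one_mul]
    exact D.A0 hij hik hjk
  | succ a ih =>
    obtain ⟨l, hli, hlj, hlk, hc⟩ := D.H2 hij hik hjk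
    have ih' := ih (pow_ne_zero _ D.hζ)
    have e1 := D.H1 hij hli.symm hlj.symm (D.ζ ^ a)
    have e2 := D.H1 hik hli.symm hlk.symm (D.ζ ^ a * D.ζ)
    have e3 := hc D.ζ
    have e5 : D.T i l * D.x j k D.ζ * (D.T i l)⁻¹ = D.x j k D.ζ := by rw [e3.eq]; group
    have e6 : D.ζ ^ (a + 1) * D.ζ = D.ζ * (D.ζ ^ a * D.ζ) := by ring
    have e7 : D.ζ ^ (a + 1) = D.ζ * D.ζ ^ a := by ring
    rw [e6, e7, ← e2, ← e1, ← ih']
    conv_lhs => rw [← e5]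
    group

/-- `B` -/
lemma B {i j k : I} (hij : i ≠ j) (hik : i ≠ k) (hjk : j ≠ k) (t r : F) :
    Commute (D.x i j t) (D.x i k r) := by
  have hr : r = (r / D.ζ) * D.ζ := by
    field_simp [D.hζ]
  rw [hr]
  refine gp2 (D.A1 hij hik hjk t) (D.A1 hij hik hjk (r / D.ζ)) ?_ ?_ (z := D.x j k D.ζ) (b := D.x i j (r / D.ζ))
    (C := D.x i k ((t + r / D.ζ) * D.ζ))
  · rw [D.add hij]
    exact D.A1 hij hik hjk _
  · rw [D.add hik]
    congr 1
    ring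

/-- `C₁` -/
lemma C1 {i j k : I} (hij : i ≠ j) (hik : i ≠ k) (hjk : j ≠ k) (r : F) :
    Commute (D.x i k r) (D.x j k D.ζ) := by
  by_cases hr : r = 0
  · subst hr
    rw [D.x_zero hik]
    exact Commute.one_left _
  have hr' : ∃ a : ℕ, r = D.ζ ^ a * D.ζ := by
    obtain ⟨a, ha⟩ := D.gen (r / D.ζ) (div_ne_zero hr D.hζ)
    refine ⟨a, ?_⟩
    rw [← ha]
    field_simp [D.hζ]
  obtain ⟨a, rfl⟩ := hr'
  induction a with
  | zero =>
    rw [pow_zero, one_mul]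
    exact D.C0 hij hik hjk
  | succ a ih =>
    obtain ⟨l, hli, hlj, hlk, hc⟩ := D.H2 hij hik hjk
    have ih' := ih (mul_ne_zero (pow_ne_zero _ D.hζ) D.hζ)
    have e2 := D.H1 hik hli.symm hlk.symm (D.ζ ^ a * D.ζ)
    have e3 := hc D.ζ
    have e5 : D.T i l * D.x j k D.ζ * (D.T i l)⁻¹ = D.x j k D.ζ := by rw [e3.eq]; group
    have e6 : D.ζ ^ (a + 1) * D.ζ = D.ζ * (D.ζ ^ a * D.ζ) := by ring
    rw [e6, ← e2]
    have ih2 := ih'.eq
    show _ * _ = _ * _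
    calc D.T i l * D.x i k (D.ζ ^ a * D.ζ) * (D.T i l)⁻¹ * D.x j k D.ζ
        = D.T i l * (D.x i k (D.ζ ^ a * D.ζ) * D.x j k D.ζ) * (D.T i l)⁻¹ := by
          conv_lhs => rw [← e5]
          group
      _ = D.T i l * (D.x j k D.ζ * D.x i k (D.ζ ^ a * D.ζ)) * (D.T i l)⁻¹ := by rw [ih2]
      _ = _ := by
          conv_rhs => rw [← e5]
          group

/-- `D₁` -/
lemma D1 {i j a b : I} (hij : i ≠ j) (hia : i ≠ a) (hib : i ≠ b) (hja : j ≠ a) (hjb : j ≠ b) (hab : a ≠ b)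
    (t : F) : Commute (D.x i j t) (D.x a b D.ζ) := by
  rcases D.H3 hij hia hib hja hjb hab with h | h
  · exact h _ _
  · have hr : (t / D.ζ) * D.ζ = t := by
      field_simp [D.hζ]
    have c1 := D.A1 hia hij hja.symm (t / D.ζ)
    have c2 := D.A1 hia hib hab (t / D.ζ)
    rw [hr] at c1 c2
    exact (gp1 c2 (D.B hab hja.symm hjb.symm D.ζ D.ζ) (h t D.ζ) c1 (D.B hib hij hjb.symm t t)).symm

/-- The inductive statement. -/
lemma step {r : F} 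
    (hA : ∀ {i j l : I}, i ≠ j → i ≠ l → j ≠ l → ∀ t,
      D.x i j t * D.x j l r * (D.x i j t)⁻¹ * (D.x j l r)⁻¹ = D.x i l (t * r))
    (hC : ∀ {i j l : I}, i ≠ j → i ≠ l → j ≠ l → ∀ t, Commute (D.x i l t) (D.x j l r))
    (hD : ∀ {i j a b : I}, i ≠ j → i ≠ a → i ≠ b → j ≠ a → j ≠ b → a ≠ b → ∀ t,
      Commute (D.x i j t) (D.x a b r)) :
    (∀ {i j l : I}, i ≠ j → i ≠ l → j ≠ l → ∀ t,
      D.x i j t * D.x j l (r * D.ζ) * (D.x i j t)⁻¹ * (D.x j l (r * D.ζ))⁻¹ = D.x i l (t * (r * D.ζ))) ∧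
    (∀ {i j l : I}, i ≠ j → i ≠ l → j ≠ l → ∀ t, Commute (D.x i l t) (D.x j l (r * D.ζ))) ∧
    (∀ {i j a b : I}, i ≠ j → i ≠ a → i ≠ b → j ≠ a → j ≠ b → a ≠ b → ∀ t,
      Commute (D.x i j t) (D.x a b (r * D.ζ))) := by
  have hC' : ∀ {i j m : I}, i ≠ j → i ≠ m → j ≠ m → ∀ t, Commute (D.x i m t) (D.x j m (r * D.ζ)) := by
    intro i j m hij him hjm t
    obtain ⟨l, hli, hlj, hlm⟩ := D.out i j m
    rw [← D.A1 hlj.symm hjm hlm r]
    have a1 : Commute (D.x i m t) (D.x j l r) := hD him hij hli.symm hjm.symm hlm.symm hlj.symm t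
    have a2 : Commute (D.x i m t) (D.x l m D.ζ) := D.C1 hli.symm him hlm t
    exact ((a1.mul_right a2).mul_right a1.inv_right).mul_right a2.inv_right
  have hD' : ∀ {i j a b : I}, i ≠ j → i ≠ a → i ≠ b → j ≠ a → j ≠ b → a ≠ b → ∀ t,
      Commute (D.x i j t) (D.x a b (r * D.ζ)) := by
    intro i j a b hij hia hib hja hjb hab t
    have c0 := hC' hia hib hab (t * D.ζ)
    refine gp3 (p := D.x a j r) (q := D.x j b D.ζ) (e := D.x i b (t * D.ζ)) ?_ ?_ ?_ ?_ c0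
    · exact hC hia hij hja.symm t
    · exact D.A1 hij hib hjb t
    · exact D.A1 hja.symm hab hjb r
    · exact hD hib hia hij hab.symm hjb.symm hja.symm _
  refine ⟨?_, hC', hD'⟩
  intro i j m hij him hjm t
  obtain ⟨l, hli, hlj, hlm⟩ := D.out i j m
  refine gp4 (b := D.x j l r) (c := D.x l m D.ζ) (e := D.x i l (t * r)) ?_ ?_ ?_ ?_ ?_ ?_
  · exact hA hij hli.symm hlj.symm t
  · exact D1 D hij hli.symm him hlj.symm hjm hlm t
  · exact D.A1 hlj.symm hjm hlm r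
  · exact hD' hli.symm hij him hlj hlm hjm _
  · have := D.A1 hli.symm him hlm (t * r)
    rw [← mul_assoc t r D.ζ]
    exact this
  · exact (hC' hij him hjm _).symm

/-- All relations for powers. -/
lemma all_pow (k : ℕ) :
    (∀ {i j l : I}, i ≠ j → i ≠ l → j ≠ l → ∀ t,
      D.x i j t * D.x j l (D.ζ ^ k * D.ζ) * (D.x i j t)⁻¹ * (D.x j l (D.ζ ^ k * D.ζ))⁻¹ = D.x i l (t * (D.ζ ^ k * D.ζ))) ∧
    (∀ {i j l : I}, i ≠ j → i ≠ l → j ≠ l → ∀ t, Commute (D.x i l t) (D.x j l (D.ζ ^ k * D.ζ))) ∧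
    (∀ {i j a b : I}, i ≠ j → i ≠ a → i ≠ b → j ≠ a → j ≠ b → a ≠ b → ∀ t,
      Commute (D.x i j t) (D.x a b (D.ζ ^ k * D.ζ))) := by
  induction k with
  | zero =>
    simp only [pow_zero, one_mul]
    exact ⟨fun h1 h2 h3 t => D.A1 h1 h2 h3 t, fun h1 h2 h3 t => D.C1 h1 h2 h3 t,
      fun h1 h2 h3 h4 h5 h6 t => D.D1 h1 h2 h3 h4 h5 h6 t⟩
  | succ k ih =>
    have := D.step (r := D.ζ ^ k * D.ζ) ih.1 ih.2.1 ih.2.2
    rw [show D.ζ ^ (k + 1) * D.ζ = D.ζ ^ k * D.ζ * D.ζ by ring]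
    exact this

lemma exists_pow {r : F} (hr : r ≠ 0) : ∃ k : ℕ, r = D.ζ ^ k * D.ζ := by
  obtain ⟨a, ha⟩ := D.gen (r / D.ζ) (div_ne_zero hr D.hζ)
  refine ⟨a, ?_⟩
  rw [← ha]
  field_simp [D.hζ]

/-- The Steinberg relations hold. -/
def toData : StN.Data I F Γ where
  x := D.x
  add := D.add
  comm := by
    classical
    intro i j k l hij hkl hjk hil t u
    by_cases h1 : i = k
    · subst h1
      by_cases h2 : j = l
      · subst h2
        rw [D.add hij, D.add hij, add_comm]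
      · exact (D.B hij hil h2 t u)
    · by_cases h2 : j = l
      · subst h2
        by_cases hu : u = 0
        · subst hu
          rw [D.x_zero hkl]
          simp
        · obtain ⟨m, rfl⟩ := D.exists_pow hu
          exact (D.all_pow m).2.1 h1 hij hkl.symm.symm t
      · by_cases hu : u = 0
        · subst hu
          rw [D.x_zero hkl]
          simp
        · obtain ⟨m, rfl⟩ := D.exists_pow hu
          exact (D.all_pow m).2.2 hij h1 hil hjk h2 hkl t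
  comm' := by
    intro i j l hij hjl hil t u
    by_cases hu : u = 0
    · subst hu
      rw [D.x_zero hjl, mul_zero, D.x_zero hil]
      group
    · obtain ⟨m, rfl⟩ := D.exists_pow hu
      exact (D.all_pow m).1 hij hil hjl t

end ScalData

end Cfsg.Agent.Lib.PrsSLn
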