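import Mathlib
import Cfsg.Agent.Lib.PrsSLnA

/-!
# Points and alternating permutations; equivariant families
-/

set_option autoImplicit false

namespace Cfsg.Agent.Lib.PrsSLn

open Equiv Equiv.Perm

/-- Four distinct points. -/
structure Pts (n : ℕ) where
  e1 : Fin n
  e2 : Fin n
  e3 : Fin n
  e4 : Fin n
  h12 : e1 ≠ e2
  h13 : e1 ≠ e3
  h14 : e1 ≠ e4
  h23 : e2 ≠ e3
  h24 : e2 ≠ e4
  h34 : e3 ≠ e4

/-- The alternating group. -/
abbrev Alt (n : ℕ) := alternatingGroup (Fin n)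

variable {n : ℕ}

lemma exists_perm_fin {m : ℕ} (x y : Fin m → Fin n) (hx : Function.Injective x)
    (hy : Function.Injective y) : ∃ π : Perm (Fin n), ∀ i, π (x i) = y i := by
  exact Equiv.Perm.exists_extending_pair x y hx hy

lemma exists_perm4 {a1 a2 a3 a4 b1 b2 b3 b4 : Fin n}
    (h12 : a1 ≠ a2) (h13 : a1 ≠ a3) (h14 : a1 ≠ a4) (h23 : a2 ≠ a3) (h24 : a2 ≠ a4) (h34 : a3 ≠ a4)
    (k12 : b1 ≠ b2) (k13 : b1 ≠ b3) (k14 : b1 ≠ b4) (k23 : b2 ≠ b3) (k24 : b2 ≠ b4) (k34 : b3 ≠ b4) :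
    ∃ π : Perm (Fin n), π a1 = b1 ∧ π a2 = b2 ∧ π a3 = b3 ∧ π a4 = b4 := by
  obtain ⟨π, hπ⟩ := exists_perm_fin ![a1, a2, a3, a4] ![b1, b2, b3, b4]
    (by
      intro i j
      fin_cases i <;> fin_cases j <;> simp_all [Ne.symm])
    (by
      intro i j
      fin_cases i <;> fin_cases j <;> simp_all [Ne.symm])
  exact ⟨π, hπ 0, hπ 1, hπ 2, hπ 3⟩

lemma exists_perm3 {a1 a2 a3 b1 b2 b3 : Fin n}
    (h12 : a1 ≠ a2) (h13 : a1 ≠ a3) (h23 : a2 ≠ a3)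
    (k12 : b1 ≠ b2) (k13 : b1 ≠ b3) (k23 : b2 ≠ b3) :
    ∃ π : Perm (Fin n), π a1 = b1 ∧ π a2 = b2 ∧ π a3 = b3 := by
  obtain ⟨π, hπ⟩ := exists_perm_fin ![a1, a2, a3] ![b1, b2, b3]
    (by
      intro i j
      fin_cases i <;> fin_cases j <;> simp_all [Ne.symm])
    (by
      intro i j
      fin_cases i <;> fin_cases j <;> simp_all [Ne.symm])
  exact ⟨π, hπ 0, hπ 1, hπ 2⟩

lemma exists_perm2 {a1 a2 b1 b2 : Fin n} (h12 : a1 ≠ a2) (k12 : b1 ≠ b2) :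
    ∃ π : Perm (Fin n), π a1 = b1 ∧ π a2 = b2 := by
  obtain ⟨π, hπ⟩ := exists_perm_fin ![a1, a2] ![b1, b2]
    (by
      intro i j
      fin_cases i <;> fin_cases j <;> simp_all [Ne.symm])
    (by
      intro i j
      fin_cases i <;> fin_cases j <;> simp_all [Ne.symm])
  exact ⟨π, hπ 0, hπ 1⟩

/-- Even permutation. -/
def evn (π : Perm (Fin n)) (h : sign π = 1) : Alt n := ⟨π, mem_alternatingGroup.2 h⟩

lemma sign_cases (π : Perm (Fin n)) {a b : Fin n} (hab : a ≠ b) :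
    sign π = 1 ∨ sign (π * swap a b) = 1 := by
  rcases Int.units_eq_one_or (sign π) with h | h
  · exact Or.inl h
  · right
    rw [Perm.sign_mul, h, sign_swap hab]
    rfl

namespace Pts
variable (P : Pts n)

lemma even2 {i j : Fin n} (hij : i ≠ j) : ∃ σ : Alt n, σ.1 P.e1 = i ∧ σ.1 P.e2 = j := by
  obtain ⟨π, h1, h2⟩ := exists_perm2 P.h12 hij
  rcases sign_cases π P.h34 with h | h
  · exact ⟨evn π h, h1, h2⟩
  · refine ⟨evn _ h, ?_, ?_⟩
    · simp only [evn, Perm.coe_mul, Function.comp_apply]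
      rw [swap_apply_of_ne_of_ne P.h13 P.h14, h1]
    · simp only [evn, Perm.coe_mul, Function.comp_apply]
      rw [swap_apply_of_ne_of_ne P.h23 P.h24, h2]

lemma even3 {i j k : Fin n} (hij : i ≠ j) (hik : i ≠ k) (hjk : j ≠ k) :
    ∃ σ : Alt n, σ.1 P.e1 = i ∧ σ.1 P.e2 = j ∧ (σ.1 P.e3 = k ∨ σ.1 P.e4 = k) := by
  obtain ⟨π, h1, h2, h3⟩ := exists_perm3 P.h12 P.h13 P.h23 hij hik hjk
  rcases sign_cases π P.h34 with h | h
  · exact ⟨evn π h, h1, h2, Or.inl h3⟩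
  · refine ⟨evn _ h, ?_, ?_, Or.inr ?_⟩
    · simp only [evn, Perm.coe_mul, Function.comp_apply]
      rw [swap_apply_of_ne_of_ne P.h13 P.h14, h1]
    · simp only [evn, Perm.coe_mul, Function.comp_apply]
      rw [swap_apply_of_ne_of_ne P.h23 P.h24, h2]
    · simp only [evn, Perm.coe_mul, Function.comp_apply]
      rw [swap_apply_right, h3]

lemma even3' {i j k : Fin n} (hij : i ≠ j) (hik : i ≠ k) (hjk : j ≠ k) :
    ∃ σ : Alt n, (σ.1 P.e1 = i ∧ σ.1 P.e2 = j ∧ σ.1 P.e3 = k) ∨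
      (σ.1 P.e1 = j ∧ σ.1 P.e2 = i ∧ σ.1 P.e3 = k) := by
  obtain ⟨π, h1, h2, h3⟩ := exists_perm3 P.h12 P.h13 P.h23 hij hik hjk
  rcases sign_cases π P.h12 with h | h
  · exact ⟨evn π h, Or.inl ⟨h1, h2, h3⟩⟩
  · refine ⟨evn _ h, Or.inr ⟨?_, ?_, ?_⟩⟩
    · simp only [evn, Perm.coe_mul, Function.comp_apply]
      rw [swap_apply_left, h2]
    · simp only [evn, Perm.coe_mul, Function.comp_apply]
      rw [swap_apply_right, h1]
    · simp only [evn, Perm.coe_mul, Function.comp_apply]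
      rw [swap_apply_of_ne_of_ne P.h13.symm P.h23.symm, h3]

lemma even4 {i j k l : Fin n} (hij : i ≠ j) (hik : i ≠ k) (hil : i ≠ l) (hjk : j ≠ k) (hjl : j ≠ l)
    (hkl : k ≠ l) : ∃ σ : Alt n, (σ.1 P.e1 = i ∧ σ.1 P.e2 = j ∧ σ.1 P.e3 = k ∧ σ.1 P.e4 = l) ∨
      (σ.1 P.e1 = i ∧ σ.1 P.e2 = l ∧ σ.1 P.e3 = k ∧ σ.1 P.e4 = j) := by
  obtain ⟨π, h1, h2, h3, h4⟩ := exists_perm4 P.h12 P.h13 P.h14 P.h23 P.h24 P.h34 hij hik hil hjk hjl hkl
  rcases sign_cases π P.h24 with h | h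
  · exact ⟨evn π h, Or.inl ⟨h1, h2, h3, h4⟩⟩
  · refine ⟨evn _ h, Or.inr ⟨?_, ?_, ?_, ?_⟩⟩
    · simp only [evn, Perm.coe_mul, Function.comp_apply]
      rw [swap_apply_of_ne_of_ne P.h12 P.h14, h1]
    · simp only [evn, Perm.coe_mul, Function.comp_apply]
      rw [swap_apply_left, h4]
    · simp only [evn, Perm.coe_mul, Function.comp_apply]
      rw [swap_apply_of_ne_of_ne P.h23.symm P.h34, h3]
    · simp only [evn, Perm.coe_mul, Function.comp_apply]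
      rw [swap_apply_right, h2]

lemma even4' {i j k l : Fin n} (hij : i ≠ j) (hik : i ≠ k) (hil : i ≠ l) (hjk : j ≠ k) (hjl : j ≠ l)
    (hkl : k ≠ l) : ∃ σ : Alt n, (σ.1 P.e1 = i ∧ σ.1 P.e2 = j ∧ σ.1 P.e3 = k ∧ σ.1 P.e4 = l) ∨
      (σ.1 P.e1 = j ∧ σ.1 P.e2 = i ∧ σ.1 P.e3 = k ∧ σ.1 P.e4 = l) := by
  obtain ⟨π, h1, h2, h3, h4⟩ := exists_perm4 P.h12 P.h13 P.h14 P.h23 P.h24 P.h34 hij hik hil hjk hjl hkl
  rcases sign_cases π P.h12 with h | h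
  · exact ⟨evn π h, Or.inl ⟨h1, h2, h3, h4⟩⟩
  · refine ⟨evn _ h, Or.inr ⟨?_, ?_, ?_, ?_⟩⟩
    · simp only [evn, Perm.coe_mul, Function.comp_apply]
      rw [swap_apply_left, h2]
    · simp only [evn, Perm.coe_mul, Function.comp_apply]
      rw [swap_apply_right, h1]
    · simp only [evn, Perm.coe_mul, Function.comp_apply]
      rw [swap_apply_of_ne_of_ne P.h13.symm P.h23.symm, h3]
    · simp only [evn, Perm.coe_mul, Function.comp_apply]
      rw [swap_apply_of_ne_of_ne P.h14.symm P.h24.symm, h4]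

/-- With a fifth point outside a triple. -/
lemma even5 {i j k l m : Fin n} (hij : i ≠ j) (hik : i ≠ k) (hjk : j ≠ k)
    (hli : l ≠ i) (hlj : l ≠ j) (hlk : l ≠ k) (hmi : m ≠ i) (hmj : m ≠ j) (hmk : m ≠ k) (hlm : l ≠ m) :
    ∃ σ : Alt n, σ.1 P.e1 = i ∧ (σ.1 P.e2 = l ∨ σ.1 P.e2 = m) ∧ σ.1 P.e3 = j ∧ σ.1 P.e4 = k := by
  obtain ⟨π, h1, h2, h3, h4⟩ := exists_perm4 P.h12 P.h13 P.h14 P.h23 P.h24 P.h34 hli.symm hij hik hlj hlk hjk
  rcases Int.units_eq_one_or (sign π) with h | h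
  · exact ⟨evn π h, h1, Or.inl h2, h3, h4⟩
  · have hs : sign (swap l m * π) = 1 := by
      rw [Perm.sign_mul, h, sign_swap hlm]
      rfl
    refine ⟨evn _ hs, ?_, Or.inr ?_, ?_, ?_⟩
    · simp only [evn, Perm.coe_mul, Function.comp_apply]
      rw [h1, swap_apply_of_ne_of_ne hli.symm hmi.symm]
    · simp only [evn, Perm.coe_mul, Function.comp_apply]
      rw [h2, swap_apply_left]
    · simp only [evn, Perm.coe_mul, Function.comp_apply]
      rw [h3, swap_apply_of_ne_of_ne hlj.symm hmj.symm]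
    · simp only [evn, Perm.coe_mul, Function.comp_apply]
      rw [h4, swap_apply_of_ne_of_ne hlk.symm hmk.symm]

end Pts

/-- An equivariant family. -/
structure Eqv (n : ℕ) (F Γ : Type*) [Field F] [Group Γ] where
  P : Pts n
  ρ : Alt n →* Γ
  X : F → Γ
  H : Γ
  ζ : F
  hζ : ζ ≠ 0
  add : ∀ s t, X s * X t = X (s + t)
  stabX : ∀ σ : Alt n, σ.1 P.e1 = P.e1 → σ.1 P.e2 = P.e2 → ∀ t, Commute (ρ σ) (X t)
  stabH : ∀ σ : Alt n, σ.1 P.e1 = P.e1 → σ.1 P.e2 = P.e2 → Commute (ρ σ) H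
  gen : ∀ t : F, t ≠ 0 → ∃ k : ℕ, t = ζ ^ k

lemma conj_conj_mul {Γ : Type*} [Group Γ] (a b c : Γ) : (a * b) * c * (a * b)⁻¹ = a * (b * c * b⁻¹) * a⁻¹ := by
  group

namespace Eqv
variable {F Γ : Type*} [Field F] [Group Γ] (E : Eqv n F Γ)

open Classical in
/-- The root elements. -/
noncomputable def x (i j : Fin n) (t : F) : Γ :=
  if h : i ≠ j then
    E.ρ (Classical.choose (E.P.even2 h)) * E.X t * (E.ρ (Classical.choose (E.P.even2 h)))⁻¹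
  else 1

open Classical in
/-- The torus elements. -/
noncomputable def T (i j : Fin n) : Γ :=
  if h : i ≠ j then
    E.ρ (Classical.choose (E.P.even2 h)) * E.H * (E.ρ (Classical.choose (E.P.even2 h)))⁻¹
  else 1

lemma x_eq (σ : Alt n) {i j : Fin n} (hi : σ.1 E.P.e1 = i) (hj : σ.1 E.P.e2 = j) (t : F) :
    E.x i j t = E.ρ σ * E.X t * (E.ρ σ)⁻¹ := by
  have h : i ≠ j := by
    rw [← hi, ← hj]
    exact fun e => E.P.h12 (σ.1.injective e)
  rw [x, dif_pos h]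
  set g := Classical.choose (E.P.even2 h) with hg
  have hs := Classical.choose_spec (E.P.even2 h)
  rw [← hg] at hs
  have hτ := E.stabX (g⁻¹ * σ)
    (by
      show g.1⁻¹ (σ.1 E.P.e1) = _
      rw [hi, ← hs.1]
      simp)
    (by
      show g.1⁻¹ (σ.1 E.P.e2) = _
      rw [hj, ← hs.2]
      simp) t
  have e : E.ρ σ = E.ρ g * E.ρ (g⁻¹ * σ) := by
    rw [← map_mul]
    simp
  rw [e, conj_conj_mul, hτ.eq]
  group

lemma T_eq (σ : Alt n) {i j : Fin n} (hi : σ.1 E.P.e1 = i) (hj : σ.1 E.P.e2 = j) :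
    E.T i j = E.ρ σ * E.H * (E.ρ σ)⁻¹ := by
  have h : i ≠ j := by
    rw [← hi, ← hj]
    exact fun e => E.P.h12 (σ.1.injective e)
  rw [T, dif_pos h]
  set g := Classical.choose (E.P.even2 h) with hg
  have hs := Classical.choose_spec (E.P.even2 h)
  rw [← hg] at hs
  have hτ := E.stabH (g⁻¹ * σ)
    (by
      show g.1⁻¹ (σ.1 E.P.e1) = _
      rw [hi, ← hs.1]
      simp)
    (by
      show g.1⁻¹ (σ.1 E.P.e2) = _
      rw [hj, ← hs.2]
      simp)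
  have e : E.ρ σ = E.ρ g * E.ρ (g⁻¹ * σ) := by
    rw [← map_mul]
    simp
  rw [e, conj_conj_mul, hτ.eq]
  group

lemma x_conj (g : Alt n) {i j : Fin n} (hij : i ≠ j) (t : F) :
    E.ρ g * E.x i j t * (E.ρ g)⁻¹ = E.x (g.1 i) (g.1 j) t := by
  obtain ⟨σ, h1, h2⟩ := E.P.even2 hij
  rw [E.x_eq σ h1 h2, E.x_eq (g * σ) (by show g.1 (σ.1 _) = _; rw [h1]) (by show g.1 (σ.1 _) = _; rw [h2]),
    map_mul, conj_conj_mul]

lemma T_conj (g : Alt n) {i j : Fin n} (hij : i ≠ j) :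
    E.ρ g * E.T i j * (E.ρ g)⁻¹ = E.T (g.1 i) (g.1 j) := by
  obtain ⟨σ, h1, h2⟩ := E.P.even2 hij
  rw [E.T_eq σ h1 h2, E.T_eq (g * σ) (by show g.1 (σ.1 _) = _; rw [h1]) (by show g.1 (σ.1 _) = _; rw [h2]),
    map_mul, conj_conj_mul]

/-- Conjugation preserves commuting. -/
lemma comm_conj {a b : Γ} (g : Γ) (h : Commute a b) : Commute (g * a * g⁻¹) (g * b * g⁻¹) := by
  show _ * _ = _ * _
  calc g * a * g⁻¹ * (g * b * g⁻¹) = g * (a * b) * g⁻¹ := by group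
    _ = g * (b * a) * g⁻¹ := by rw [h.eq]
    _ = _ := by group

/-- Conjugation of a commutator. -/
lemma comm4_conj {a b c : Γ} (g : Γ) (h : a * b * a⁻¹ * b⁻¹ = c) :
    (g * a * g⁻¹) * (g * b * g⁻¹) * (g * a * g⁻¹)⁻¹ * (g * b * g⁻¹)⁻¹ = g * c * g⁻¹ := by
  rw [← h]; group

lemma add_x {i j : Fin n} (h : i ≠ j) (s t : F) : E.x i j s * E.x i j t = E.x i j (s + t) := by
  obtain ⟨σ, h1, h2⟩ := E.P.even2 h
  rw [E.x_eq σ h1 h2, E.x_eq σ h1 h2, E.x_eq σ h1 h2, ← E.add]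
  group

/-- The facts at the base points. -/
structure Base where
  b123 : ∀ t, E.T E.P.e1 E.P.e3 * E.x E.P.e1 E.P.e2 t * (E.T E.P.e1 E.P.e3)⁻¹ = E.x E.P.e1 E.P.e2 (E.ζ * t)
  b124 : ∀ t, E.T E.P.e1 E.P.e4 * E.x E.P.e1 E.P.e2 t * (E.T E.P.e1 E.P.e4)⁻¹ = E.x E.P.e1 E.P.e2 (E.ζ * t)
  bD1 : ∀ t s, Commute (E.x E.P.e1 E.P.e2 t) (E.x E.P.e3 E.P.e4 s)
  bD2 : ∀ t, Commute (E.T E.P.e1 E.P.e2) (E.x E.P.e3 E.P.e4 t)
  bA3 : E.x E.P.e1 E.P.e2 1 * E.x E.P.e2 E.P.e3 E.ζ * (E.x E.P.e1 E.P.e2 1)⁻¹ * (E.x E.P.e2 E.P.e3 E.ζ)⁻¹ = E.x E.P.e1 E.P.e3 E.ζ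
  bA4 : E.x E.P.e1 E.P.e2 1 * E.x E.P.e2 E.P.e4 E.ζ * (E.x E.P.e1 E.P.e2 1)⁻¹ * (E.x E.P.e2 E.P.e4 E.ζ)⁻¹ = E.x E.P.e1 E.P.e4 E.ζ
  bC : Commute (E.x E.P.e1 E.P.e3 E.ζ) (E.x E.P.e2 E.P.e3 E.ζ)
  hT : 5 ≤ n ∨ ∀ i j : Fin n, i ≠ j → E.T j i = (E.T i j)⁻¹

variable {E}

lemma exists_out (hn : 4 ≤ n) (i j k : Fin n) : ∃ l, l ≠ i ∧ l ≠ j ∧ l ≠ k := by
  have : ({i, j, k} : Finset (Fin n)).card < (Finset.univ : Finset (Fin n)).card := by
    rw [Finset.card_univ, Fintype.card_fin]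
    exact (Finset.card_le_three).trans_lt (by omega)
  obtain ⟨l, -, hl⟩ := Finset.exists_mem_notMem_of_card_lt_card this
  simp only [Finset.mem_insert, Finset.mem_singleton, not_or] at hl
  exact ⟨l, hl.1, hl.2.1, hl.2.2⟩

lemma exists_out2 (hn : 5 ≤ n) (i j k : Fin n) : ∃ l m, l ≠ i ∧ l ≠ j ∧ l ≠ k ∧ m ≠ i ∧ m ≠ j ∧ m ≠ k ∧ l ≠ m := by
  have h1 : ({i, j, k} : Finset (Fin n)).card < (Finset.univ : Finset (Fin n)).card := by
    rw [Finset.card_univ, Fintype.card_fin]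
    exact (Finset.card_le_three).trans_lt (by omega)
  obtain ⟨l, -, hl⟩ := Finset.exists_mem_notMem_of_card_lt_card h1
  have h2 : ({i, j, k, l} : Finset (Fin n)).card < (Finset.univ : Finset (Fin n)).card := by
    rw [Finset.card_univ, Fintype.card_fin]
    exact (Finset.card_le_four).trans_lt (by omega)
  obtain ⟨m, -, hm⟩ := Finset.exists_mem_notMem_of_card_lt_card h2
  simp only [Finset.mem_insert, Finset.mem_singleton, not_or] at hl hm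
  exact ⟨l, m, hl.1, hl.2.1, hl.2.2, hm.1, hm.2.1, hm.2.2.1, fun e => hm.2.2.2 e.symm⟩

/-- The family satisfies the hypotheses of `ScalData`. -/
noncomputable def toScal (hn : 4 ≤ n) (B : E.Base) : ScalData (Fin n) F Γ where
  x := E.x
  T := E.T
  ζ := E.ζ
  hζ := E.hζ
  add := E.add_x
  H1 := by
    intro i j k hij hik hjk t
    obtain ⟨σ, h1, h2, h3 | h3⟩ := E.P.even3 hij hik hjk
    · have := congrArg (fun a => E.ρ σ * a * (E.ρ σ)⁻¹) (B.b123 t)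
      rw [E.x_conj σ E.P.h12, h1, h2] at this
      rw [← this, ← h1, ← h2, ← h3, ← E.x_conj σ E.P.h12, ← E.T_conj σ E.P.h13]
      group
    · have := congrArg (fun a => E.ρ σ * a * (E.ρ σ)⁻¹) (B.b124 t)
      rw [E.x_conj σ E.P.h12, h1, h2] at this
      rw [← this, ← h1, ← h2, ← h3, ← E.x_conj σ E.P.h12, ← E.T_conj σ E.P.h14]
      group
  H2 := by
    intro i j k hij hik hjk
    rcases B.hT with h5 | hT
    · obtain ⟨l, m, h1, h2, h3, h4, h5, h6, h7⟩ := exists_out2 h5 i j k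
      obtain ⟨σ, s1, s2, s3, s4⟩ := E.P.even5 hij hik hjk h1 h2 h3 h4 h5 h6 h7
      have key : ∀ t, Commute (E.T i (σ.1 E.P.e2)) (E.x j k t) := by
        intro t
        have := comm_conj (E.ρ σ) (B.bD2 t)
        rw [E.T_conj σ E.P.h12, E.x_conj σ E.P.h34, s1, s3, s4] at this
        exact this
      rcases s2 with s2 | s2
      · rw [s2] at key
        exact ⟨l, h1, h2, h3, key⟩
      · rw [s2] at key
        exact ⟨m, h4, h5, h6, key⟩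
    · obtain ⟨l, h1, h2, h3⟩ := exists_out hn i j k
      refine ⟨l, h1, h2, h3, fun t => ?_⟩
      obtain ⟨σ, s | s⟩ := E.P.even4' h1.symm hij hik h2 h3 hjk
      · have := comm_conj (E.ρ σ) (B.bD2 t)
        rw [E.T_conj σ E.P.h12, E.x_conj σ E.P.h34, s.1, s.2.1, s.2.2.1, s.2.2.2] at this
        exact this
      · have := comm_conj (E.ρ σ) (B.bD2 t)
        rw [E.T_conj σ E.P.h12, E.x_conj σ E.P.h34, s.1, s.2.1, s.2.2.1, s.2.2.2] at this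
        rw [hT l i h1]
        exact this.inv_left
  H3 := by
    intro i j k l hij hik hil hjk hjl hkl
    obtain ⟨σ, s | s⟩ := E.P.even4 hij hik hil hjk hjl hkl
    · left
      intro t u
      have := comm_conj (E.ρ σ) (B.bD1 t u)
      rw [E.x_conj σ E.P.h12, E.x_conj σ E.P.h34, s.1, s.2.1, s.2.2.1, s.2.2.2] at this
      exact this
    · right
      intro t u
      have := comm_conj (E.ρ σ) (B.bD1 t u)
      rw [E.x_conj σ E.P.h12, E.x_conj σ E.P.h34, s.1, s.2.1, s.2.2.1, s.2.2.2] at this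
      exact this
  A0 := by
    intro i j k hij hik hjk
    obtain ⟨σ, h1, h2, h3 | h3⟩ := E.P.even3 hij hik hjk
    · have := comm4_conj (E.ρ σ) B.bA3
      rw [E.x_conj σ E.P.h12, E.x_conj σ E.P.h13, E.x_conj σ E.P.h23, h1, h2, h3] at this
      exact this
    · have := comm4_conj (E.ρ σ) B.bA4
      rw [E.x_conj σ E.P.h12, E.x_conj σ E.P.h14, E.x_conj σ E.P.h24, h1, h2, h3] at this
      exact this
  C0 := by
    intro i j k hij hik hjk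
    obtain ⟨σ, s | s⟩ := E.P.even3' hij hik hjk
    · have := comm_conj (E.ρ σ) B.bC
      rw [E.x_conj σ E.P.h13, E.x_conj σ E.P.h23, s.1, s.2.1, s.2.2] at this
      exact this
    · have := comm_conj (E.ρ σ) B.bC
      rw [E.x_conj σ E.P.h13, E.x_conj σ E.P.h23, s.1, s.2.1, s.2.2] at this
      exact this.symm
  gen := E.gen
  out := exists_out hn

end Eqv

end Cfsg.Agent.Lib.PrsSLn
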