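import Mathlib
import Cfsg.Agent.Lib.PrsSLnB
import Cfsg.Agent.Lib.PrsSL2G

/-!
# From the base relations to the equivariant family
-/

set_option autoImplicit false

namespace Cfsg.Agent.Lib.PrsSLn

open Equiv Equiv.Perm Polynomial
open Cfsg.Agent.Lib.PrsSL2

variable {n : ℕ}

namespace Pts
variable (P : Pts n)

/-- `e₂ → e₃ → e₄ → e₂` -/
def σ₃ : Alt n := evn (swap P.e2 P.e3 * swap P.e3 P.e4) (by
  rw [Perm.sign_mul, sign_swap P.h23, sign_swap P.h34]; rfl)
/-- `e₂ → e₄ → e₃ → e₂` -/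
def σ₄ : Alt n := evn (swap P.e2 P.e4 * swap P.e4 P.e3) (by
  rw [Perm.sign_mul, sign_swap P.h24, sign_swap P.h34.symm]; rfl)
/-- `e₁ → e₂ → e₃ → e₁` -/
def c : Alt n := evn (swap P.e1 P.e2 * swap P.e2 P.e3) (by
  rw [Perm.sign_mul, sign_swap P.h12, sign_swap P.h23]; rfl)
/-- `e₁ → e₂ → e₄ → e₁` -/
def c₄ : Alt n := evn (swap P.e1 P.e2 * swap P.e2 P.e4) (by
  rw [Perm.sign_mul, sign_swap P.h12, sign_swap P.h24]; rfl)
/-- `(e₁ e₃)(e₂ e₄)` -/
def π₀ : Alt n := evn (swap P.e1 P.e3 * swap P.e2 P.e4) (by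
  rw [Perm.sign_mul, sign_swap P.h13, sign_swap P.h24]; rfl)
/-- `(e₁ e₂)(e₃ e₄)` -/
def κ : Alt n := evn (swap P.e1 P.e2 * swap P.e3 P.e4) (by
  rw [Perm.sign_mul, sign_swap P.h12, sign_swap P.h34]; rfl)
/-- `e₁ → e₃ → e₄ → e₁` -/
def c₃₂ : Alt n := evn (swap P.e1 P.e3 * swap P.e3 P.e4) (by
  rw [Perm.sign_mul, sign_swap P.h13, sign_swap P.h34]; rfl)

lemma σ₃_e1 : (P.σ₃).1 P.e1 = P.e1 := by
  simp only [σ₃, evn, Perm.coe_mul, Function.comp_apply]
  rw [swap_apply_of_ne_of_ne P.h13 P.h14, swap_apply_of_ne_of_ne P.h12 P.h13]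
lemma σ₃_e2 : (P.σ₃).1 P.e2 = P.e3 := by
  simp only [σ₃, evn, Perm.coe_mul, Function.comp_apply]
  rw [swap_apply_of_ne_of_ne P.h23 P.h24, swap_apply_left]
lemma σ₄_e1 : (P.σ₄).1 P.e1 = P.e1 := by
  simp only [σ₄, evn, Perm.coe_mul, Function.comp_apply]
  rw [swap_apply_of_ne_of_ne P.h14 P.h13, swap_apply_of_ne_of_ne P.h12 P.h14]
lemma σ₄_e2 : (P.σ₄).1 P.e2 = P.e4 := by
  simp only [σ₄, evn, Perm.coe_mul, Function.comp_apply]
  rw [swap_apply_of_ne_of_ne P.h24 P.h23, swap_apply_left]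
lemma c_e1 : (P.c).1 P.e1 = P.e2 := by
  simp only [c, evn, Perm.coe_mul, Function.comp_apply]
  rw [swap_apply_of_ne_of_ne P.h12 P.h13, swap_apply_left]
lemma c_e2 : (P.c).1 P.e2 = P.e3 := by
  simp only [c, evn, Perm.coe_mul, Function.comp_apply]
  rw [swap_apply_left, swap_apply_of_ne_of_ne P.h13.symm P.h23.symm]
lemma c₄_e1 : (P.c₄).1 P.e1 = P.e2 := by
  simp only [c₄, evn, Perm.coe_mul, Function.comp_apply]
  rw [swap_apply_of_ne_of_ne P.h12 P.h14, swap_apply_left]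
lemma c₄_e2 : (P.c₄).1 P.e2 = P.e4 := by
  simp only [c₄, evn, Perm.coe_mul, Function.comp_apply]
  rw [swap_apply_left, swap_apply_of_ne_of_ne P.h14.symm P.h24.symm]
lemma π₀_e1 : (P.π₀).1 P.e1 = P.e3 := by
  simp only [π₀, evn, Perm.coe_mul, Function.comp_apply]
  rw [swap_apply_of_ne_of_ne P.h12 P.h14, swap_apply_left]
lemma π₀_e2 : (P.π₀).1 P.e2 = P.e4 := by
  simp only [π₀, evn, Perm.coe_mul, Function.comp_apply]
  rw [swap_apply_left, swap_apply_of_ne_of_ne P.h14.symm P.h34.symm]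
lemma π₀_e3 : (P.π₀).1 P.e3 = P.e1 := by
  simp only [π₀, evn, Perm.coe_mul, Function.comp_apply]
  rw [swap_apply_of_ne_of_ne P.h23.symm P.h34, swap_apply_right]
lemma π₀_e4 : (P.π₀).1 P.e4 = P.e2 := by
  simp only [π₀, evn, Perm.coe_mul, Function.comp_apply]
  rw [swap_apply_right, swap_apply_of_ne_of_ne P.h12.symm P.h23]
lemma κ_e1 : (P.κ).1 P.e1 = P.e2 := by
  simp only [κ, evn, Perm.coe_mul, Function.comp_apply]
  rw [swap_apply_of_ne_of_ne P.h13 P.h14, swap_apply_left]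
lemma κ_e2 : (P.κ).1 P.e2 = P.e1 := by
  simp only [κ, evn, Perm.coe_mul, Function.comp_apply]
  rw [swap_apply_of_ne_of_ne P.h23 P.h24, swap_apply_right]
lemma κ_e3 : (P.κ).1 P.e3 = P.e4 := by
  simp only [κ, evn, Perm.coe_mul, Function.comp_apply]
  rw [swap_apply_left, swap_apply_of_ne_of_ne P.h14.symm P.h24.symm]
lemma c₃₂_e1 : (P.c₃₂).1 P.e1 = P.e3 := by
  simp only [c₃₂, evn, Perm.coe_mul, Function.comp_apply]
  rw [swap_apply_of_ne_of_ne P.h13 P.h14, swap_apply_left]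
lemma c₃₂_e2 : (P.c₃₂).1 P.e2 = P.e2 := by
  simp only [c₃₂, evn, Perm.coe_mul, Function.comp_apply]
  rw [swap_apply_of_ne_of_ne P.h23 P.h24, swap_apply_of_ne_of_ne P.h12.symm P.h23]

end Pts

section Gp
variable {G : Type*} [Group G]

/-- conjugation -/
def cj (g a : G) : G := g * a * g⁻¹

lemma cj_mul (g a b : G) : cj g (a * b) = cj g a * cj g b := by simp only [cj]; group
lemma cj_inv (g a : G) : cj g a⁻¹ = (cj g a)⁻¹ := by simp only [cj]; group
lemma cj_cj (g g' a : G) : cj g (cj g' a) = cj (g * g') a := by simp only [cj]; group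
lemma cj_one (a : G) : cj 1 a = a := by simp [cj]
lemma cj_comm {g a : G} (h : Commute g a) : cj g a = a := by simp [cj, h.eq]
lemma comm_cj {a b : G} (g : G) (h : Commute a b) : Commute (cj g a) (cj g b) := Eqv.comm_conj g h
lemma cj_inj {g a b : G} (h : cj g a = cj g b) : a = b := by
  simpa [cj] using h
lemma comm_of_cj {a b : G} (g : G) (h : Commute (cj g a) (cj g b)) : Commute a b := by
  have := comm_cj g⁻¹ h
  simpa [cj_cj, cj_one] using this

lemma comm_cj_of {g a : G} (h : cj g a = a) : Commute g a := by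
  simp only [cj, mul_inv_eq_iff_eq_mul] at h
  exact h

/-- Conjugates of `vv`. -/
lemma cj_pow (g a : G) (k : ℕ) : cj g (a ^ k) = (cj g a) ^ k := by
  simp [cj, conj_pow]

end Gp

section Add
variable {F Γ : Type*} [Field F] [Group Γ] (p : ℕ) [Fact p.Prime] [Algebra (ZMod p) F]

/-- powers are multiples -/
lemma add_pow_val (Y : F → Γ) (hY : ∀ s t, Y s * Y t = Y (s + t)) (c : ZMod p) (t : F) :
    Y (c • t) = (Y t) ^ c.val := by
  haveI hp : NeZero p := ⟨(Fact.out : p.Prime).ne_zero⟩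
  have h0 : Y 0 = 1 := by
    have := hY 0 0
    rw [add_zero] at this
    exact mul_eq_left.1 this
  have hn : ∀ (n : ℕ) (t : F), Y (n • t) = (Y t) ^ n := by
    intro n t
    induction n with
    | zero => simp [h0]
    | succ n ih => rw [succ_nsmul, ← hY, ih, pow_succ]
  have : c • t = c.val • t := by
    conv_lhs => rw [← ZMod.natCast_zmod_val c]
    exact Nat.cast_smul_eq_nsmul (ZMod p) c.val t
  rw [this, hn]

/-- Additive maps agreeing on powers of a field generator agree. -/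
theorem add_ext (β : F) (hgen : ∀ t : F, ∃ f : (ZMod p)[X], aeval β f = t) (Y₁ Y₂ : F → Γ)
    (h₁ : ∀ s t, Y₁ s * Y₁ t = Y₁ (s + t)) (h₂ : ∀ s t, Y₂ s * Y₂ t = Y₂ (s + t))
    (h : ∀ j : ℕ, Y₁ (β ^ j) = Y₂ (β ^ j)) (t : F) : Y₁ t = Y₂ t := by
  obtain ⟨f, rfl⟩ := hgen t
  induction f using Polynomial.induction_on' with
  | add f g hf hg =>
    rw [map_add, ← h₁, ← h₂, hf, hg]
  | monomial j c =>
    rw [aeval_monomial, ← Algebra.smul_def, add_pow_val p Y₁ h₁, add_pow_val p Y₂ h₂, h]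

/-- Elements commuting with generators of the root group. -/
lemma gen_sq (ζ : F) (hgen : ∀ t : F, ∃ f : (ZMod p)[X], aeval (ζ ^ 2) f = t) :
    ∀ t : F, ∃ f : (ZMod p)[X], aeval ζ f = t := by
  intro t
  obtain ⟨f, rfl⟩ := hgen t
  refine ⟨f.comp (X ^ 2), ?_⟩
  rw [aeval_comp]
  simp

end Add

section Pr
variable {Γ : Type*} [Group Γ]

lemma map_vv {G : Type*} [Group G] (π : Γ →* G) (h u : Γ) (i : ℤ) : π (vv h u i) = vv (π h) (π u) i := by
  simp [vv]

lemma map_pr {G : Type*} [Group G] (π : Γ →* G) (h u : Γ) (ι : ℕ → ℤ) (c : ℕ → ℕ) (N : ℕ) :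
    π (pr h u ι c N) = pr (π h) (π u) ι c N := by
  induction N with
  | zero => simp [pr]
  | succ N ih => simp [pr, ih, map_vv]

variable {F : Type*} [Field F] (p : ℕ) [Fact p.Prime] [Algebra (ZMod p) F]

/-- The word of a polynomial. -/
def wP (T u : Γ) (f : (ZMod p)[X]) : Γ :=
  pr T u (fun j => (j : ℤ)) (fun j => (f.coeff j).val) (f.natDegree + 1)

lemma map_wP {G : Type*} [Group G] (π : Γ →* G) (T u : Γ) (f : (ZMod p)[X]) :
    π (wP p T u f) = wP p (π T) (π u) f := map_pr π _ _ _ _ _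

/-- Values of the word of a polynomial. -/
lemma wP_eval (T u : Γ) (Y : F → Γ) (hY : ∀ s t, Y s * Y t = Y (s + t)) (β : F)
    (hβ : ∀ j : ℕ, vv T u j = Y (β ^ j)) (f : (ZMod p)[X]) :
    wP p T u f = Y (aeval β f) := by
  haveI hp : NeZero p := ⟨(Fact.out : p.Prime).ne_zero⟩
  have h0 : Y 0 = 1 := by
    have := hY 0 0
    rw [add_zero] at this
    exact mul_eq_left.1 this
  have main : ∀ N, pr T u (fun j => (j : ℤ)) (fun j => (f.coeff j).val) N =
      Y (∑ i ∈ Finset.range N, f.coeff i • β ^ i) := by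
    intro N
    induction N with
    | zero => simp [pr, h0]
    | succ N ih =>
      rw [Finset.sum_range_succ, ← hY, ← ih, add_pow_val p Y hY, ← hβ]
      rfl
  rw [wP, main, aeval_eq_sum_range]

/-- The additive map attached to commuting conjugates. -/
theorem exists_X (T u : Γ) (ζ : F) (hgen : ∀ t : F, ∃ f : (ZMod p)[X], aeval ζ f = t)
    (hc : ∀ i j : ℤ, Commute (vv T u i) (vv T u j)) (hp : u ^ p = 1)
    (hm : wP p T u (minpoly (ZMod p) ζ) = 1) :
    ∃ X : F → Γ, (∀ s t, X s * X t = X (s + t)) ∧ (∀ t, T * X t * T⁻¹ = X (ζ * t)) ∧ X 1 = u := by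
  haveI hp' : NeZero p := ⟨(Fact.out : p.Prime).ne_zero⟩
  haveI : Fact (1 < p) := ⟨(Fact.out : p.Prime).one_lt⟩
  obtain ⟨L, h1, h2, h3, h4⟩ := exists_L T u p hc hp
  have hL0 : L 0 = 1 := by
    have := h1 0 0
    rw [add_zero] at this
    exact mul_eq_left.1 this.symm
  have hLwP : ∀ f : (ZMod p)[X], wP p T u f = L f := by
    intro f
    have main : ∀ N, pr T u (fun j => (j : ℤ)) (fun j => (f.coeff j).val) N =
        L (∑ i ∈ Finset.range N, monomial i (f.coeff i)) := by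
      intro N
      induction N with
      | zero => simp [pr, hL0]
      | succ N ih =>
        rw [Finset.sum_range_succ, h1, ← ih, h2]
        rfl
    rw [wP, main, ← as_sum_range' f (f.natDegree + 1) (Nat.lt_succ_self _)]
  obtain ⟨x, hx1, hx2, hx3⟩ := exists_x T p ζ hgen L h1 h3 h4 (by rw [← hLwP]; exact hm)
  refine ⟨x, hx1, hx3, ?_⟩
  have := hx2 (monomial 0 1)
  rw [h2, ZMod.val_one, pow_one] at this
  simpa [vv_zero] using this

end Pr

end Cfsg.Agent.Lib.PrsSLn
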