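import Mathlib
import Cfsg.Agent.Lib.PrsSLnC

/-!
# Matrix computations in `SL_n`
-/

set_option autoImplicit false

namespace Cfsg.Agent.Lib.PrsSLn

open Matrix Equiv Equiv.Perm
open scoped MatrixGroups commutatorElement

variable {n : ℕ} {F : Type*} [Field F]

/-- shorthand -/
abbrev SLn (n : ℕ) (F : Type*) [Field F] := Matrix.SpecialLinearGroup (Fin n) F

lemma sl_ext {A B : SLn n F} (h : ∀ (v : Fin n → F) (a : Fin n), (A.1 *ᵥ v) a = (B.1 *ᵥ v) a) : A = B := by
  apply Subtype.ext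
  apply Matrix.ext_iff_mulVec.2
  intro v
  funext a
  exact h v a

lemma act_mul (A B : SLn n F) (v : Fin n → F) : (A * B).1 *ᵥ v = A.1 *ᵥ (B.1 *ᵥ v) := by
  rw [Matrix.SpecialLinearGroup.coe_mul, Matrix.mulVec_mulVec]

/-- conjugation from an intertwining identity -/
lemma conj_of_mul {G : Type*} [Group G] {A B C : G} (h : A * B = C * A) : cj A B = C := by
  simp only [cj, h]
  group

/-- transvections -/
abbrev tv {i j : Fin n} (h : i ≠ j) (t : F) : SLn n F := Matrix.SpecialLinearGroup.transvection h t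

lemma tv_act {i j : Fin n} (h : i ≠ j) (t : F) (v : Fin n → F) (a : Fin n) :
    ((tv h t).1 *ᵥ v) a = v a + if a = i then t * v j else 0 := by
  rw [Matrix.SpecialLinearGroup.transvection_coe, Matrix.add_mulVec, Matrix.one_mulVec]
  simp only [Pi.add_apply, Matrix.single_mulVec]
  by_cases ha : a = i
  · subst ha
    simp
  · simp [ha]

/-- diagonal -/
noncomputable abbrev dg {i j : Fin n} (h : i ≠ j) (d : F) (hd : d ≠ 0) : SLn n F :=
  Matrix.SpecialLinearGroup.diag2n h d hd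

lemma dg_act {i j : Fin n} (h : i ≠ j) (d : F) (hd : d ≠ 0) (v : Fin n → F) (a : Fin n) :
    ((dg h d hd).1 *ᵥ v) a = (if a = i then d else if a = j then d⁻¹ else 1) * v a := by
  rw [Matrix.SpecialLinearGroup.diag2n_coe, Matrix.mulVec_diagonal]

/-- permutations -/
noncomputable def Pm : Alt n →* SLn n F where
  toFun σ := ⟨(σ.1⁻¹).permMatrix F, by
    rw [Matrix.det_permutation, Perm.sign_inv, mem_alternatingGroup.1 σ.2]
    simp⟩
  map_one' := by
    apply Subtype.ext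
    simp
  map_mul' σ τ := by
    apply Subtype.ext
    show ((σ.1 * τ.1)⁻¹).permMatrix F = (σ.1⁻¹).permMatrix F * (τ.1⁻¹).permMatrix F
    apply Matrix.ext_iff_mulVec.2
    intro v
    rw [← Matrix.mulVec_mulVec]
    simp only [Matrix.permMatrix_mulVec]
    rfl

lemma Pm_act (σ : Alt n) (v : Fin n → F) (a : Fin n) : ((Pm σ).1 *ᵥ v) a = v (σ.1⁻¹ a) := by
  show ((σ.1⁻¹).permMatrix F *ᵥ v) a = _
  rw [Matrix.permMatrix_mulVec]
  rfl

lemma Pm_tv (σ : Alt n) {i j : Fin n} (h : i ≠ j) (t : F) :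
    cj (Pm σ) (tv h t) = tv (fun e => h (σ.1.injective e) : σ.1 i ≠ σ.1 j) t := by
  apply conj_of_mul
  apply sl_ext
  intro v a
  rw [act_mul, act_mul, Pm_act, tv_act, tv_act, Pm_act, Pm_act]
  have e1 : (σ.1⁻¹ a = i) ↔ (a = σ.1 i) := by
    rw [Perm.inv_eq_iff_eq]
  simp only [e1]
  simp

lemma Pm_dg (σ : Alt n) {i j : Fin n} (h : i ≠ j) (d : F) (hd : d ≠ 0) :
    cj (Pm σ) (dg h d hd) = dg (fun e => h (σ.1.injective e) : σ.1 i ≠ σ.1 j) d hd := by
  apply conj_of_mul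
  apply sl_ext
  intro v a
  rw [act_mul, act_mul, Pm_act, dg_act, dg_act, Pm_act]
  have e1 : (σ.1⁻¹ a = i) ↔ (a = σ.1 i) := by
    rw [Perm.inv_eq_iff_eq]
  have e2 : (σ.1⁻¹ a = j) ↔ (a = σ.1 j) := by
    rw [Perm.inv_eq_iff_eq]
  simp only [e1, e2]

lemma dg_tv_fst {i j k : Fin n} (hik : i ≠ k) (hij : i ≠ j) (hjk : j ≠ k) (d : F) (hd : d ≠ 0) (t : F) :
    cj (dg hik d hd) (tv hij t) = tv hij (d * t) := by
  apply conj_of_mul
  apply sl_ext
  intro v a
  rw [act_mul, act_mul, dg_act, tv_act, tv_act, dg_act, dg_act]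
  by_cases h1 : a = i
  · subst h1
    simp [hij.symm, hjk]
    ring
  · simp [h1]

lemma dg_tv_same {i j : Fin n} (hij : i ≠ j) (d : F) (hd : d ≠ 0) (t : F) :
    cj (dg hij d hd) (tv hij t) = tv hij (d ^ 2 * t) := by
  apply conj_of_mul
  apply sl_ext
  intro v a
  rw [act_mul, act_mul, dg_act, tv_act, tv_act, dg_act, dg_act]
  by_cases h1 : a = i
  · subst h1
    simp [hij.symm]
    field_simp
  · simp [h1]

lemma dg_tv_disj {i j k l : Fin n} (hij : i ≠ j) (hkl : k ≠ l) (h1 : k ≠ i) (h2 : k ≠ j) (h3 : l ≠ i) (h4 : l ≠ j)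
    (d : F) (hd : d ≠ 0) (t : F) : cj (dg hij d hd) (tv hkl t) = tv hkl t := by
  apply conj_of_mul
  apply sl_ext
  intro v a
  rw [act_mul, act_mul, dg_act, tv_act, tv_act, dg_act, dg_act]
  by_cases ha : a = k
  · subst ha
    simp [h1, h2, h3.symm, h4.symm, h3, h4]
  · simp [ha]

lemma dg_comm {i j k l : Fin n} (hij : i ≠ j) (hkl : k ≠ l) (d e : F) (hd : d ≠ 0) (he : e ≠ 0) :
    Commute (dg hij d hd) (dg hkl e he) := by
  show _ * _ = _ * _
  apply sl_ext
  intro v a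
  rw [act_mul, act_mul, dg_act, dg_act, dg_act, dg_act]
  ring

lemma dg_inv {i j : Fin n} (hij : i ≠ j) (d : F) (hd : d ≠ 0) :
    dg hij.symm d hd = (dg hij d hd)⁻¹ := by
  rw [eq_inv_iff_mul_eq_one]
  apply sl_ext
  intro v a
  rw [act_mul, dg_act, dg_act]
  simp only [Matrix.SpecialLinearGroup.coe_one, Matrix.one_mulVec]
  by_cases h1 : a = i
  · subst h1
    simp [hij, hd]
  · by_cases h2 : a = j
    · subst h2
      simp [hij.symm, hd, h1]
    · simp [h1, h2]

lemma tv_add {i j : Fin n} (h : i ≠ j) (s t : F) : tv h s * tv h t = tv h (s + t) := by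
  apply Subtype.ext
  rw [Matrix.SpecialLinearGroup.coe_mul]
  exact Matrix.transvection_mul_transvection_same _ _ h s t

lemma tv_zero {i j : Fin n} (h : i ≠ j) : tv h (0 : F) = 1 :=
  Matrix.SpecialLinearGroup.transvection_coeff_zero h

lemma tv_comm_ne {i j k l : Fin n} (hij : i ≠ j) (hkl : k ≠ l) (h1 : j ≠ k) (h2 : i ≠ l) (s t : F) :
    Commute (tv hij s) (tv hkl t) := by
  show _ * _ = _ * _
  apply Subtype.ext
  simp only [Matrix.SpecialLinearGroup.coe_mul]
  exact StN.tv_comm h1 h2.symm s t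

lemma tv_commutator {i j l : Fin n} (hij : i ≠ j) (hjl : j ≠ l) (hil : i ≠ l) (s t : F) :
    ⁅tv hij s, tv hjl t⁆ = tv hil (s * t) := by
  rw [commutatorElement_def]
  have := StN.tv_comm' (K := F) hil.symm hjl.symm s t
  have e : tv hij s * tv hjl t = tv hil (s * t) * tv hjl t * tv hij s := by
    apply Subtype.ext
    simp only [Matrix.SpecialLinearGroup.coe_mul]
    exact this
  rw [e]
  group

lemma c_inv_act (P : Pts n) : (P.c).1⁻¹ P.e1 = P.e3 ∧ (P.c).1⁻¹ P.e2 = P.e1 ∧ (P.c).1⁻¹ P.e3 = P.e2 ∧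
    ∀ a, a ≠ P.e1 → a ≠ P.e2 → a ≠ P.e3 → (P.c).1⁻¹ a = a := by
  have e : (P.c).1⁻¹ = swap P.e2 P.e3 * swap P.e1 P.e2 := by
    show (swap P.e1 P.e2 * swap P.e2 P.e3)⁻¹ = _
    rw [_root_.mul_inv_rev, swap_inv, swap_inv]
  rw [e]
  simp only [Perm.coe_mul, Function.comp_apply]
  refine ⟨?_, ?_, ?_, ?_⟩
  · rw [swap_apply_left, swap_apply_left]
  · rw [swap_apply_right, swap_apply_of_ne_of_ne P.h12 P.h13]
  · rw [swap_apply_of_ne_of_ne P.h13.symm P.h23.symm, swap_apply_right]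
  · intro a h1 h2 h3
    rw [swap_apply_of_ne_of_ne h1 h2, swap_apply_of_ne_of_ne h2 h3]

/-- The Weyl relation. -/
lemma M_id (P : Pts n) (ζ : F) (hζ : ζ ≠ 0) :
    tv P.h12 (-ζ) * tv P.h12.symm ζ⁻¹ * tv P.h12 (-ζ) * tv P.h23 (-1) * tv P.h23.symm 1 * tv P.h23 (-1) =
      dg P.h12 ζ hζ * Pm P.c := by
  obtain ⟨c1, c2, c3, c4⟩ := c_inv_act P
  have h12 := P.h12
  have h13 := P.h13
  have h23 := P.h23
  apply sl_ext
  intro v a
  simp only [act_mul, tv_act, dg_act, Pm_act]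
  by_cases h1 : a = P.e1
  · subst h1
    simp only [if_true, h12, h13, h12.symm, h13.symm, h23, h23.symm, if_false, c1]
    field_simp
    ring
  · by_cases h2 : a = P.e2
    · subst h2
      simp only [if_true, h12, h13, h12.symm, h13.symm, h23, h23.symm, if_false, c2]
      field_simp
      ring
    · by_cases h3 : a = P.e3
      · subst h3
        simp only [if_true, h12, h13, h12.symm, h13.symm, h23, h23.symm, if_false, c3]
        field_simp
        ring
      · simp only [h1, h2, h3, if_false, if_true, h12, h13, h12.symm, h13.symm, h23, h23.symm, c4 a h1 h2 h3]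
        ring

end Cfsg.Agent.Lib.PrsSLn
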