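import Mathlib
import Cfsg.Agent.Lib.PrsSLnD
import Cfsg.Agent.Lib.ClassicalSL

/-!
# From the relations in a group to a homomorphism from `SL_n`
-/

set_option autoImplicit false

namespace Cfsg.Agent.Lib.PrsSLn

open Equiv Equiv.Perm Polynomial
open Cfsg.Agent.Lib.PrsSL2
open scoped commutatorElement

variable {n : ℕ} {F Γ : Type*} [Field F] [Group Γ]

/-- A homomorphism from the Steinberg relations. -/
theorem exists_hom_StN [Finite F] (hn : 3 ≤ n) (D : StN.Data (Fin n) F Γ) :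
    ∃ ψ : SLn n F →* Γ, ∀ (i j : Fin n) (h : i ≠ j) (t : F), ψ (tv h t) = D.x i j t := by
  classical
  obtain ⟨e, he⟩ := StN.main (K := F) n hn
  have hrel : ∀ r ∈ StN.relsN F n, FreeGroup.lift (fun a : StN.Idx n × F => D.x a.1.1.1 a.1.1.2 a.2) r = 1 := by
    rintro r ((⟨a, t, u, rfl⟩ | ⟨a, b, t, u, h1, h2, rfl⟩) | ⟨a, b, h, t, u, h1, rfl⟩)
    · simp only [map_mul, map_inv, FreeGroup.lift_apply_of, mul_inv_eq_one]
      exact D.add a.2 t u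
    · simp only [map_mul, map_inv, FreeGroup.lift_apply_of, mul_inv_eq_one]
      rw [mul_inv_eq_iff_eq_mul]
      exact D.comm a.2 b.2 h2 h1 t u
    · obtain ⟨⟨i, j⟩, hij⟩ := a
      obtain ⟨⟨j', l⟩, hjl⟩ := b
      simp only at h1 h hij hjl
      subst h1
      simp only [map_mul, map_inv, FreeGroup.lift_apply_of, mul_inv_eq_one]
      exact D.comm' hij hjl h t u
  refine ⟨(PresentedGroup.toGroup hrel).comp e.symm.toMonoidHom, ?_⟩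
  intro i j h t
  have e1 : tv h t = e (PresentedGroup.of (⟨(i, j), h⟩, t)) := by
    apply Subtype.ext
    rw [he]
    rfl
  simp only [MonoidHom.comp_apply, MulEquiv.coe_toMonoidHom]
  rw [e1, MulEquiv.symm_apply_apply, PresentedGroup.toGroup.of]

/-- The relations in a group. -/
structure GHyp (n : ℕ) (F Γ : Type*) [Field F] [Group Γ] (p : ℕ) [Fact p.Prime] [Algebra (ZMod p) F] where
  P : Pts n
  ρ : Alt n →* Γ
  u : Γ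
  h : Γ
  ζ : F
  hζ : ζ ≠ 0
  gen : ∀ t : F, t ≠ 0 → ∃ k : ℕ, t = ζ ^ k
  hg : ∀ t : F, ∃ f : (ZMod p)[X], aeval (ζ ^ 2) f = t
  r1 : u ^ p = 1
  hc : ∀ i j : ℤ, Commute (vv (cj (ρ P.σ₄) h) u i) (vv (cj (ρ P.σ₄) h) u j)
  r4 : wP p (cj (ρ P.σ₄) h) u (minpoly (ZMod p) ζ) = 1
  r5 : cj h u = vv (cj (ρ P.σ₄) h) u (2 : ℕ)
  r6 : Commute h (cj (ρ P.σ₄) h)
  stabU : ∀ σ : Alt n, σ.1 P.e1 = P.e1 → σ.1 P.e2 = P.e2 → Commute (ρ σ) u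
  stabH : ∀ σ : Alt n, σ.1 P.e1 = P.e1 → σ.1 P.e2 = P.e2 → Commute (ρ σ) h
  r11 : Commute u (cj (ρ P.π₀) u)
  r12 : Commute h (cj (ρ P.π₀) u)
  r13 : Commute h (cj (ρ P.π₀) h)
  rA : ⁅u, cj (ρ P.c) (vv (cj (ρ P.σ₄) h) u (1 : ℕ))⁆ = cj (ρ P.σ₃) (vv (cj (ρ P.σ₄) h) u (1 : ℕ))
  rC : Commute (cj (ρ P.σ₃) (vv (cj (ρ P.σ₄) h) u (1 : ℕ))) (cj (ρ P.c) (vv (cj (ρ P.σ₄) h) u (1 : ℕ)))
  alt : (5 ≤ n) ∨ (cj (cj (ρ P.σ₃) h) u = vv (cj (ρ P.σ₄) h) u (1 : ℕ) ∧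
    ⁅u, cj (ρ P.c₄) (vv (cj (ρ P.σ₄) h) u (1 : ℕ))⁆ = cj (ρ P.σ₄) (vv (cj (ρ P.σ₄) h) u (1 : ℕ)) ∧
    cj (ρ P.κ) h = h⁻¹)

namespace GHyp

variable {p : ℕ} [Fact p.Prime] [Algebra (ZMod p) F] (G : GHyp n F Γ p)

/-- the torus element `T₁₄` -/
def T : Γ := cj (G.ρ G.P.σ₄) G.h

/-- The additive data. -/
structure XD where
  X : F → Γ
  add : ∀ s t, X s * X t = X (s + t)
  conj : ∀ t, G.T * X t * G.T⁻¹ = X (G.ζ * t)
  one : X 1 = G.u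

variable {G}

lemma exists_XD : Nonempty G.XD := by
  obtain ⟨X, h1, h2, h3⟩ := exists_X p G.T G.u G.ζ (gen_sq p G.ζ G.hg) G.hc G.r1 G.r4
  exact ⟨⟨X, h1, h2, h3⟩⟩

namespace XD
variable (D : G.XD)

lemma X_pow (j : ℕ) : D.X (G.ζ ^ j) = vv G.T G.u j := by
  induction j with
  | zero => simpa [vv_zero] using D.one
  | succ j ih =>
    rw [pow_succ', ← D.conj, ih, vv_conj1]
    push_cast
    rfl

lemma h_act (t : F) : G.h * D.X t * G.h⁻¹ = D.X (G.ζ ^ 2 * t) := by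
  refine add_ext p G.ζ (gen_sq p G.ζ G.hg) (fun t => G.h * D.X t * G.h⁻¹) (fun t => D.X (G.ζ ^ 2 * t)) ?_ ?_ ?_ t
  · intro s t
    rw [← D.add]
    group
  · intro s t
    rw [D.add, mul_add]
  · intro j
    rw [← pow_add, D.X_pow, add_comm 2 j, D.X_pow]
    have hc : Commute G.h G.T := G.r6
    have h1 : G.h * (G.T ^ (j : ℤ)) = G.T ^ (j : ℤ) * G.h := (hc.zpow_right _).eq
    have h2 : G.T ^ (-(j : ℤ)) * G.h⁻¹ = G.h⁻¹ * G.T ^ (-(j : ℤ)) := ((hc.zpow_right _).inv_left).symm.eq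
    have e : vv G.T G.u ((j + 2 : ℕ) : ℤ) = G.T ^ (j : ℤ) * (vv G.T G.u (2 : ℕ)) * G.T ^ (-(j : ℤ)) := by
      rw [vv_conj]
      congr 1
      push_cast
      ring
    have r5 : cj G.h G.u = vv G.T G.u (2 : ℕ) := G.r5
    rw [e, ← r5]
    simp only [vv, cj]
    calc G.h * (G.T ^ (j : ℤ) * G.u * G.T ^ (-(j : ℤ))) * G.h⁻¹
        = (G.h * G.T ^ (j : ℤ)) * G.u * (G.T ^ (-(j : ℤ)) * G.h⁻¹) := by group
      _ = (G.T ^ (j : ℤ) * G.h) * G.u * (G.h⁻¹ * G.T ^ (-(j : ℤ))) := by rw [h1, h2]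
      _ = _ := by group

lemma X_g (i : ℕ) : D.X ((G.ζ ^ 2) ^ i) = vv G.h G.u i := by
  induction i with
  | zero => simpa [vv_zero] using D.one
  | succ i ih =>
    rw [pow_succ', ← D.h_act, ih, vv_conj1]
    push_cast
    rfl

lemma comm_X {z : Γ} (hu : Commute z G.u) (hh : Commute z G.h) (t : F) : Commute z (D.X t) := by
  have := add_ext p (G.ζ ^ 2) G.hg (fun t => z * D.X t * z⁻¹) (fun t => D.X t) ?_ D.add ?_ t
  · rw [mul_inv_eq_iff_eq_mul] at this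
    exact this
  · intro s t
    rw [← D.add]
    group
  · intro j
    rw [X_g]
    simp only [vv]
    rw [mul_inv_eq_iff_eq_mul]
    have h1 := (hh.zpow_right (j : ℤ)).eq
    have h2 := (hh.zpow_right (-(j : ℤ))).eq
    calc z * (G.h ^ (j : ℤ) * G.u * G.h ^ (-(j : ℤ))) = (z * G.h ^ (j : ℤ)) * G.u * G.h ^ (-(j : ℤ)) := by group
      _ = G.h ^ (j : ℤ) * (z * G.u) * G.h ^ (-(j : ℤ)) := by rw [h1]; group
      _ = G.h ^ (j : ℤ) * G.u * (z * G.h ^ (-(j : ℤ))) := by rw [hu.eq]; group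
      _ = _ := by rw [h2]; group

/-- The equivariant family. -/
def E : Eqv n F Γ where
  P := G.P
  ρ := G.ρ
  X := D.X
  H := G.h
  ζ := G.ζ
  hζ := G.hζ
  add := D.add
  stabX := fun σ h1 h2 t => D.comm_X (G.stabU σ h1 h2) (G.stabH σ h1 h2) t
  stabH := G.stabH
  gen := G.gen

lemma x12 (t : F) : D.E.x G.P.e1 G.P.e2 t = D.X t := by
  refine (D.E.x_eq 1 (i := G.P.e1) (j := G.P.e2) rfl rfl t).trans ?_
  simp [E]

lemma T12 : D.E.T G.P.e1 G.P.e2 = G.h := by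
  refine (D.E.T_eq 1 (i := G.P.e1) (j := G.P.e2) rfl rfl).trans ?_
  simp [E]

lemma T14 : D.E.T G.P.e1 G.P.e4 = G.T := by
  exact D.E.T_eq G.P.σ₄ G.P.σ₄_e1 G.P.σ₄_e2

lemma T13 : D.E.T G.P.e1 G.P.e3 = cj (G.ρ G.P.σ₃) G.h := by
  exact D.E.T_eq G.P.σ₃ G.P.σ₃_e1 G.P.σ₃_e2

lemma x13 (t : F) : D.E.x G.P.e1 G.P.e3 t = cj (G.ρ G.P.σ₃) (D.X t) := by
  exact D.E.x_eq G.P.σ₃ G.P.σ₃_e1 G.P.σ₃_e2 t

lemma x14 (t : F) : D.E.x G.P.e1 G.P.e4 t = cj (G.ρ G.P.σ₄) (D.X t) := by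
  exact D.E.x_eq G.P.σ₄ G.P.σ₄_e1 G.P.σ₄_e2 t

lemma x23 (t : F) : D.E.x G.P.e2 G.P.e3 t = cj (G.ρ G.P.c) (D.X t) := by
  exact D.E.x_eq G.P.c G.P.c_e1 G.P.c_e2 t

lemma x24 (t : F) : D.E.x G.P.e2 G.P.e4 t = cj (G.ρ G.P.c₄) (D.X t) := by
  exact D.E.x_eq G.P.c₄ G.P.c₄_e1 G.P.c₄_e2 t

lemma x34 (t : F) : D.E.x G.P.e3 G.P.e4 t = cj (G.ρ G.P.π₀) (D.X t) := by
  exact D.E.x_eq G.P.π₀ G.P.π₀_e1 G.P.π₀_e2 t

lemma T34 : D.E.T G.P.e3 G.P.e4 = cj (G.ρ G.P.π₀) G.h := by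
  exact D.E.T_eq G.P.π₀ G.P.π₀_e1 G.P.π₀_e2

lemma ρ_E : D.E.ρ = G.ρ := rfl

lemma X_ζ : D.X G.ζ = vv G.T G.u (1 : ℕ) := by
  have := D.X_pow 1
  rwa [pow_one] at this

lemma V_eq : cj (G.ρ G.P.π₀) G.u = D.E.x G.P.e3 G.P.e4 1 := by
  rw [x34, D.one]

lemma S1 : Commute (D.E.T G.P.e3 G.P.e4) (D.E.x G.P.e1 G.P.e2 1) := by
  have h0 : Commute (D.E.T G.P.e1 G.P.e2) (D.E.x G.P.e3 G.P.e4 1) := by
    rw [T12, ← D.V_eq]
    exact G.r12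
  have := Eqv.comm_conj (D.E.ρ G.P.π₀) h0
  rwa [D.E.T_conj G.P.π₀ G.P.h12, D.E.x_conj G.P.π₀ G.P.h34, G.P.π₀_e1,
    G.P.π₀_e2, G.P.π₀_e3,
    G.P.π₀_e4] at this

lemma S2 (t : F) : Commute (D.E.T G.P.e3 G.P.e4) (D.X t) := by
  apply D.comm_X
  · have := D.S1
    rwa [x12, D.one] at this
  · rw [T34]
    exact G.r13.symm

lemma bD2 (t : F) : Commute (D.E.T G.P.e1 G.P.e2) (D.E.x G.P.e3 G.P.e4 t) := by
  have h0 := D.S2 t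
  rw [← D.x12] at h0
  have := Eqv.comm_conj (D.E.ρ G.P.π₀) h0
  rwa [D.E.T_conj G.P.π₀ G.P.h34, D.E.x_conj G.P.π₀ G.P.h12, G.P.π₀_e3,
    G.P.π₀_e4, G.P.π₀_e1,
    G.P.π₀_e2] at this

lemma S4 (t : F) : Commute (D.E.x G.P.e3 G.P.e4 1) (D.X t) := by
  apply D.comm_X
  · rw [← D.V_eq]
    exact G.r11.symm
  · rw [← D.V_eq]
    exact G.r12.symm

lemma S5 (t : F) : Commute (D.E.x G.P.e3 G.P.e4 t) G.u := by
  have h0 := D.S4 t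
  rw [← D.x12] at h0
  have := Eqv.comm_conj (D.E.ρ G.P.π₀) h0
  rw [D.E.x_conj G.P.π₀ G.P.h34, D.E.x_conj G.P.π₀ G.P.h12, G.P.π₀_e3,
    G.P.π₀_e4, G.P.π₀_e1,
    G.P.π₀_e2, D.x12, D.one] at this
  exact this.symm

lemma bD1 (t s : F) : Commute (D.E.x G.P.e1 G.P.e2 t) (D.E.x G.P.e3 G.P.e4 s) := by
  rw [D.x12]
  apply Commute.symm
  apply D.comm_X (D.S5 s)
  have := D.bD2 s
  rw [D.T12] at this
  exact this.symm

lemma b124 (t : F) : D.E.T G.P.e1 G.P.e4 * D.E.x G.P.e1 G.P.e2 t * (D.E.T G.P.e1 G.P.e4)⁻¹ =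
    D.E.x G.P.e1 G.P.e2 (G.ζ * t) := by
  rw [D.T14, D.x12, D.x12]
  exact D.conj t

lemma bA3 : D.E.x G.P.e1 G.P.e2 1 * D.E.x G.P.e2 G.P.e3 G.ζ * (D.E.x G.P.e1 G.P.e2 1)⁻¹ *
    (D.E.x G.P.e2 G.P.e3 G.ζ)⁻¹ = D.E.x G.P.e1 G.P.e3 G.ζ := by
  rw [D.x12, D.x23, D.x13, D.one, D.X_ζ, ← commutatorElement_def]
  exact G.rA

lemma bC : Commute (D.E.x G.P.e1 G.P.e3 G.ζ) (D.E.x G.P.e2 G.P.e3 G.ζ) := by
  rw [D.x23, D.x13, D.X_ζ]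
  exact G.rC

lemma hpow_act (i : ℕ) (t : F) : G.h ^ (i : ℤ) * D.X t * G.h ^ (-(i : ℤ)) = D.X ((G.ζ ^ 2) ^ i * t) := by
  induction i with
  | zero => simp
  | succ i ih =>
    have e : (G.ζ ^ 2) ^ (i + 1) * t = G.ζ ^ 2 * ((G.ζ ^ 2) ^ i * t) := by ring
    rw [e, ← D.h_act, ← ih]
    push_cast
    group

/-- The case of at least five points. -/
lemma base5 (h5 : 5 ≤ n) : Nonempty D.E.Base := by
  have h1 : ({G.P.e1, G.P.e2, G.P.e3, G.P.e4} : Finset (Fin n)).card < (Finset.univ : Finset (Fin n)).card := by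
    rw [Finset.card_univ, Fintype.card_fin]
    exact (Finset.card_le_four).trans_lt (by omega)
  obtain ⟨e5, -, he⟩ := Finset.exists_mem_notMem_of_card_lt_card h1
  simp only [Finset.mem_insert, Finset.mem_singleton, not_or] at he
  obtain ⟨h15, h25, h35, h45⟩ := he
  let s : Alt n := evn (swap G.P.e3 e5 * swap e5 G.P.e4) (by
    rw [Perm.sign_mul, sign_swap (Ne.symm h35), sign_swap h45]; rfl)
  let s' : Alt n := evn (swap G.P.e3 G.P.e4 * swap G.P.e4 e5) (by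
    rw [Perm.sign_mul, sign_swap G.P.h34, sign_swap (Ne.symm h45)]; rfl)
  have s1 : s.1 G.P.e1 = G.P.e1 := by
    simp only [s, evn, Perm.coe_mul, Function.comp_apply]
    rw [swap_apply_of_ne_of_ne (Ne.symm h15) G.P.h14, swap_apply_of_ne_of_ne G.P.h13 (Ne.symm h15)]
  have s2 : s.1 G.P.e2 = G.P.e2 := by
    simp only [s, evn, Perm.coe_mul, Function.comp_apply]
    rw [swap_apply_of_ne_of_ne (Ne.symm h25) G.P.h24, swap_apply_of_ne_of_ne G.P.h23 (Ne.symm h25)]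
  have s4 : s.1 G.P.e4 = G.P.e3 := by
    simp only [s, evn, Perm.coe_mul, Function.comp_apply]
    rw [swap_apply_right, swap_apply_right]
  have s'1 : s'.1 G.P.e1 = G.P.e1 := by
    simp only [s', evn, Perm.coe_mul, Function.comp_apply]
    rw [swap_apply_of_ne_of_ne G.P.h14 (Ne.symm h15), swap_apply_of_ne_of_ne G.P.h13 G.P.h14]
  have s'2 : s'.1 G.P.e2 = G.P.e2 := by
    simp only [s', evn, Perm.coe_mul, Function.comp_apply]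
    rw [swap_apply_of_ne_of_ne G.P.h24 (Ne.symm h25), swap_apply_of_ne_of_ne G.P.h23 G.P.h24]
  have s'3 : s'.1 G.P.e3 = G.P.e4 := by
    simp only [s', evn, Perm.coe_mul, Function.comp_apply]
    rw [swap_apply_of_ne_of_ne G.P.h34 (Ne.symm h35), swap_apply_left]
  refine ⟨⟨?_, D.b124, D.bD1, D.bD2, D.bA3, ?_, D.bC, Or.inl h5⟩⟩
  · intro t
    have : D.E.ρ s * (D.E.T G.P.e1 G.P.e4 * D.E.x G.P.e1 G.P.e2 t * (D.E.T G.P.e1 G.P.e4)⁻¹) * (D.E.ρ s)⁻¹ =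
        D.E.ρ s * D.E.x G.P.e1 G.P.e2 (G.ζ * t) * (D.E.ρ s)⁻¹ := by rw [D.b124]
    have e1 : D.E.ρ s * (D.E.T G.P.e1 G.P.e4 * D.E.x G.P.e1 G.P.e2 t * (D.E.T G.P.e1 G.P.e4)⁻¹) * (D.E.ρ s)⁻¹ =
        (D.E.ρ s * D.E.T G.P.e1 G.P.e4 * (D.E.ρ s)⁻¹) * (D.E.ρ s * D.E.x G.P.e1 G.P.e2 t * (D.E.ρ s)⁻¹) *
          (D.E.ρ s * D.E.T G.P.e1 G.P.e4 * (D.E.ρ s)⁻¹)⁻¹ := by group
    rw [e1, D.E.T_conj s G.P.h14, D.E.x_conj s G.P.h12, D.E.x_conj s G.P.h12, s1, s2, s4] at this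
    exact this
  · have := Eqv.comm4_conj (D.E.ρ s') D.bA3
    rw [D.E.x_conj s' G.P.h12, D.E.x_conj s' G.P.h23, D.E.x_conj s' G.P.h13, s'1, s'2, s'3] at this
    exact this

/-- The case of four points. -/
lemma base4 (h : cj (cj (G.ρ G.P.σ₃) G.h) G.u = vv (cj (G.ρ G.P.σ₄) G.h) G.u (1 : ℕ) ∧
    ⁅G.u, cj (G.ρ G.P.c₄) (vv (cj (G.ρ G.P.σ₄) G.h) G.u (1 : ℕ))⁆ = cj (G.ρ G.P.σ₄) (vv (cj (G.ρ G.P.σ₄) G.h) G.u (1 : ℕ)) ∧
    cj (G.ρ G.P.κ) G.h = G.h⁻¹) : Nonempty D.E.Base := by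
  obtain ⟨h1, h2, h3⟩ := h
  have hZ : Commute (cj (G.ρ G.P.σ₃) G.h) G.h := by
    have h0 : Commute (D.E.T G.P.e1 G.P.e2) (D.E.T G.P.e1 G.P.e4) := by
      rw [D.T12, D.T14]
      exact G.r6
    have := Eqv.comm_conj (D.E.ρ G.P.σ₃) h0
    have e4 : (G.P.σ₃).1 G.P.e4 = G.P.e2 := by
      simp only [Pts.σ₃, evn, Perm.coe_mul, Function.comp_apply]
      rw [swap_apply_right, swap_apply_right]
    rw [D.E.T_conj G.P.σ₃ G.P.h12, D.E.T_conj G.P.σ₃ G.P.h14, G.P.σ₃_e1,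
      G.P.σ₃_e2, e4, D.T13, D.T12] at this
    exact this
  refine ⟨⟨?_, D.b124, D.bD1, D.bD2, D.bA3, ?_, D.bC, Or.inr ?_⟩⟩
  · intro t
    show D.E.T G.P.e1 G.P.e3 * D.E.x G.P.e1 G.P.e2 t * (D.E.T G.P.e1 G.P.e3)⁻¹ = D.E.x G.P.e1 G.P.e2 (G.ζ * t)
    rw [D.T13, D.x12, D.x12]
    set Z := cj (G.ρ G.P.σ₃) G.h with hZdef
    refine add_ext p (G.ζ ^ 2) G.hg (fun t => Z * D.X t * Z⁻¹) (fun t => D.X (G.ζ * t)) ?_ ?_ ?_ t
    · intro s t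
      rw [← D.add]
      group
    · intro s t
      rw [D.add, mul_add]
    · intro j
      show Z * D.X ((G.ζ ^ 2) ^ j) * Z⁻¹ = D.X (G.ζ * (G.ζ ^ 2) ^ j)
      rw [D.X_g, mul_comm G.ζ, ← D.hpow_act, D.X_ζ]
      have h1' : Z * G.u * Z⁻¹ = vv G.T G.u (1 : ℕ) := h1
      rw [← h1']
      simp only [vv]
      have c1 := (hZ.zpow_right (j : ℤ)).eq
      have c2 := (hZ.zpow_right (-(j : ℤ))).eq
      calc Z * (G.h ^ (j : ℤ) * G.u * G.h ^ (-(j : ℤ))) * Z⁻¹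
          = (Z * G.h ^ (j : ℤ)) * G.u * (G.h ^ (-(j : ℤ)) * Z⁻¹) := by group
        _ = (G.h ^ (j : ℤ) * Z) * G.u * (Z⁻¹ * (Z * G.h ^ (-(j : ℤ))) * Z⁻¹) := by rw [c1]; group
        _ = (G.h ^ (j : ℤ) * Z) * G.u * (Z⁻¹ * (G.h ^ (-(j : ℤ)) * Z) * Z⁻¹) := by rw [c2]
        _ = _ := by group
  · show D.E.x G.P.e1 G.P.e2 1 * D.E.x G.P.e2 G.P.e4 G.ζ * (D.E.x G.P.e1 G.P.e2 1)⁻¹ *
      (D.E.x G.P.e2 G.P.e4 G.ζ)⁻¹ = D.E.x G.P.e1 G.P.e4 G.ζ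
    rw [D.x12, D.x24, D.x14, D.one, D.X_ζ, ← commutatorElement_def]
    exact h2
  · intro i j hij
    obtain ⟨σ, s1, s2⟩ := D.E.P.even2 hij
    have e1 := D.E.T_conj σ D.E.P.h12.symm
    rw [s1, s2] at e1
    have e2 : D.E.T D.E.P.e2 D.E.P.e1 = G.h⁻¹ := by
      refine (D.E.T_eq G.P.κ G.P.κ_e1 G.P.κ_e2).trans ?_
      exact h3
    rw [← e1, e2, D.E.T_eq σ s1 s2]
    show _ = _
    have : D.E.H = G.h := rfl
    rw [this]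
    group

/-- The base facts. -/
lemma base (hn : 4 ≤ n) : Nonempty D.E.Base := by
  rcases G.alt with h | h
  · exact D.base5 h
  · exact D.base4 h

end XD

/-- The main output: a homomorphism from `SL_n`. -/
theorem exists_psi [Finite F] (hn : 4 ≤ n) (G : GHyp n F Γ p) :
    ∃ ψ : SLn n F →* Γ, (∀ j : ℕ, ψ (tv G.P.h12 (G.ζ ^ j)) = vv G.T G.u j) ∧
      ∀ (σ : Alt n) (g : SLn n F), cj (G.ρ σ) (ψ g) = ψ (cj (Pm σ) g) := by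
  obtain ⟨D⟩ := exists_XD (G := G)
  obtain ⟨B⟩ := D.base hn
  obtain ⟨ψ, hψ⟩ := exists_hom_StN (n := n) (by omega) (Eqv.toScal hn B).toData
  have hψ' : ∀ (i j : Fin n) (h : i ≠ j) (t : F), ψ (tv h t) = D.E.x i j t := hψ
  refine ⟨ψ, ?_, ?_⟩
  · intro j
    rw [hψ', D.x12, D.X_pow]
  · intro σ g
    have hg : g ∈ (⊤ : Subgroup (SLn n F)) := Subgroup.mem_top g
    rw [← ClassicalSL.closure_transvection_eq_top] at hg
    induction hg using Subgroup.closure_induction with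
    | mem x hx =>
      obtain ⟨i, j, h, c, rfl⟩ := hx
      rw [Pm_tv, hψ', hψ', cj]
      exact D.E.x_conj σ h c
    | one => simp [cj]
    | mul x y _ _ hx hy =>
      rw [map_mul, cj_mul, hx, hy, cj_mul, map_mul]
    | inv x _ hx =>
      rw [map_inv, cj_inv, hx, cj_inv, map_inv]

end GHyp

end Cfsg.Agent.Lib.PrsSLn
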