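import Mathlib
import Cfsg.Agent.Lib.PrsSLnE

/-!
# From the homomorphism to an isomorphism
-/

set_option autoImplicit false

namespace Cfsg.Agent.Lib.PrsSLn

open Equiv Equiv.Perm Polynomial
open Cfsg.Agent.Lib.PrsSL2
open scoped commutatorElement

variable {n : ℕ} {F Γ : Type*} [Field F] [Group Γ]

/-- A normal subgroup of the alternating group containing a three-cycle is everything. -/
lemma three_cycle_top (N : Subgroup (Alt n)) (hN : N.Normal) {a b d : Fin n} (hab : a ≠ b) (had : a ≠ d)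
    (hbd : b ≠ d) (c₀ : Alt n) (hc₀ : c₀.1 = swap a b * swap a d) (hmem : c₀ ∈ N) : N = ⊤ := by
  have hc3 : IsThreeCycle (swap a b * swap a d) := isThreeCycle_swap_mul_swap_same hab had hbd
  have key : ∀ t : Perm (Fin n), IsThreeCycle t → ∀ ht : t ∈ alternatingGroup (Fin n),
      (⟨t, ht⟩ : Alt n) ∈ N := by
    intro t ht hmem'
    obtain ⟨π, hπ⟩ := isConj_iff.1 (isConj_iff_cycleType_eq.2 (hc3.trans ht.symm))
    rcases Int.units_eq_one_or (sign π) with h | h
    · have := hN.conj_mem c₀ hmem (evn π h)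
      convert this using 1
      apply Subtype.ext
      show t = π * c₀.1 * π⁻¹
      rw [hc₀, hπ]
    · have hs : sign (π * swap a b) = 1 := by
        rw [Perm.sign_mul, h, sign_swap hab]; rfl
      have := hN.conj_mem c₀⁻¹ (N.inv_mem hmem) (evn _ hs)
      convert this using 1
      apply Subtype.ext
      show t = (π * swap a b) * (c₀.1)⁻¹ * (π * swap a b)⁻¹
      rw [hc₀, ← hπ, _root_.mul_inv_rev, _root_.mul_inv_rev, swap_inv, swap_inv]
      have e : swap a b * swap a b = (1 : Perm (Fin n)) := swap_mul_self a b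
      calc π * (swap a b * swap a d) * π⁻¹
          = π * (swap a b * swap a b) * swap a b * swap a d * π⁻¹ := by rw [e]; group
        _ = π * swap a b * (swap a d * swap a b) * (swap a b * π⁻¹) := by
            simp only [mul_assoc]
            rw [← mul_assoc (swap a b) (swap a b), e, one_mul]
            simp [mul_assoc, e]
  rw [eq_top_iff]
  rintro ⟨x, hx⟩ -
  have hx' : x ∈ Subgroup.closure {σ : Perm (Fin n) | IsThreeCycle σ} := by
    rw [closure_three_cycles_eq_alternating]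
    exact hx
  have hcl : ∀ y (hy : y ∈ Subgroup.closure {σ : Perm (Fin n) | IsThreeCycle σ}),
      y ∈ alternatingGroup (Fin n) := by
    intro y hy
    rwa [closure_three_cycles_eq_alternating] at hy
  induction hx' using Subgroup.closure_induction with
  | mem y hy => exact key y hy hx
  | one => exact N.one_mem
  | mul y z hy hz ihy ihz => exact N.mul_mem (ihy (hcl y hy)) (ihz (hcl z hz))
  | inv y hy ih => exact N.inv_mem (ih (hcl y hy))

lemma vv_dg (P : Pts n) (ζ : F) (hζ : ζ ≠ 0) (j : ℕ) :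
    vv (dg P.h14 ζ hζ) (tv P.h12 1) j = tv P.h12 (ζ ^ j) := by
  induction j with
  | zero => simp [vv_zero]
  | succ j ih =>
    have := vv_conj1 (dg P.h14 ζ hζ) (tv P.h12 1) j
    have e : ((j + 1 : ℕ) : ℤ) = (j : ℤ) + 1 := by push_cast; rfl
    rw [e, ← this, ih]
    have h2 := dg_tv_fst P.h14 P.h12 P.h24 ζ hζ (ζ ^ j)
    rw [cj] at h2
    rw [h2, pow_succ']

/-- swap computation -/
lemma swap_conj_perm (s : Perm (Fin n)) (a b d : Fin n) :
    s * (swap a b * swap b d) * s⁻¹ = swap (s a) (s b) * swap (s b) (s d) := by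
  rw [swap_apply_apply, swap_apply_apply]
  group

section Bij
variable {p : ℕ} [Fact p.Prime] [Algebra (ZMod p) F] [Finite F]

/-- The Weyl-type relation in the group. -/
def GHyp.MRel (G : GHyp n F Γ p) (k₁ k₂ k₃ : ℕ) : Prop :=
  vv G.T G.u k₁ * cj (G.ρ G.P.κ) (vv G.T G.u k₃) * vv G.T G.u k₁ * cj (G.ρ G.P.c) (vv G.T G.u k₂) *
    cj (G.ρ G.P.c₃₂) G.u * cj (G.ρ G.P.c) (vv G.T G.u k₂) = G.h * G.ρ G.P.c

theorem GHyp.bij (hn : 4 ≤ n) (G : GHyp n F Γ p) (φ : Γ →* SLn n F)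
    (hφu : φ G.u = tv G.P.h12 1) (hφh : φ G.h = dg G.P.h12 G.ζ G.hζ)
    (hφρ : ∀ σ, φ (G.ρ σ) = Pm σ)
    (hgen : ∀ K : Subgroup Γ, G.u ∈ K → G.h ∈ K → (∀ σ, G.ρ σ ∈ K) → K = ⊤)
    {k₁ k₂ k₃ : ℕ} (hM : G.MRel k₁ k₂ k₃) : Function.Bijective φ := by
  classical
  obtain ⟨ψ, hψ1, hψ2⟩ := G.exists_psi hn
  have cjφ : ∀ a b : Γ, φ (cj a b) = cj (φ a) (φ b) := by
    intro a b
    simp [cj]
  have hφT : φ G.T = dg G.P.h14 G.ζ G.hζ := by
    have : G.T = cj (G.ρ G.P.σ₄) G.h := rfl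
    rw [this, cjφ, hφρ, hφh, Pm_dg]
    have e1 := G.P.σ₄_e1
    have e2 := G.P.σ₄_e2
    generalize_proofs h1
    revert h1
    rw [e1, e2]
    intro _
    rfl
  -- Step A
  have hA0 : ∀ j : ℕ, φ (ψ (tv G.P.h12 (G.ζ ^ j))) = tv G.P.h12 (G.ζ ^ j) := by
    intro j
    rw [hψ1, map_vv, hφT, hφu, vv_dg]
  have hA1 : ∀ t : F, φ (ψ (tv G.P.h12 t)) = tv G.P.h12 t := by
    intro t
    refine add_ext p G.ζ (gen_sq p G.ζ G.hg) (fun t => φ (ψ (tv G.P.h12 t))) (fun t => tv G.P.h12 t) ?_ ?_ hA0 t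
    · intro s t
      rw [← map_mul, ← map_mul, tv_add]
    · intro s t
      exact tv_add _ _ _
  have hA2 : ∀ (σ : Alt n) (g : SLn n F), φ (ψ g) = g → φ (ψ (cj (Pm σ) g)) = cj (Pm σ) g := by
    intro σ g hg
    rw [← hψ2, cjφ, hφρ, hg]
  have hA : ∀ g : SLn n F, φ (ψ g) = g := by
    intro g
    have hg : g ∈ (⊤ : Subgroup (SLn n F)) := Subgroup.mem_top g
    rw [← ClassicalSL.closure_transvection_eq_top] at hg
    induction hg using Subgroup.closure_induction with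
    | mem x hx =>
      obtain ⟨i, j, h, c, rfl⟩ := hx
      obtain ⟨σ, s1, s2⟩ := G.P.even2 h
      have e1 : tv h c = cj (Pm σ) (tv G.P.h12 c) := by
        rw [Pm_tv]
        subst s1 s2
        rfl
      show φ (ψ (tv h c)) = tv h c
      rw [e1]
      exact hA2 σ _ (hA1 c)
    | one => simp
    | mul x y _ _ hx hy => rw [map_mul, map_mul, hx, hy]
    | inv x _ hx => rw [map_inv, map_inv, hx]
  -- Step B
  let K : Subgroup Γ := ψ.range
  have hKψ : ∀ g, ψ g ∈ K := fun g => ⟨g, rfl⟩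
  have hKcj : ∀ (σ : Alt n) {a : Γ}, a ∈ K → cj (G.ρ σ) a ∈ K := by
    rintro σ _ ⟨g, rfl⟩
    rw [hψ2]
    exact hKψ _
  have hKU : ∀ j : ℕ, vv G.T G.u j ∈ K := by
    intro j
    rw [← hψ1]
    exact hKψ _
  have hKu : G.u ∈ K := by
    have := hKU 0
    simpa [vv_zero] using this
  have hKhc : G.h * G.ρ G.P.c ∈ K := by
    rw [← hM]
    exact K.mul_mem (K.mul_mem (K.mul_mem (K.mul_mem (K.mul_mem (hKU _) (hKcj _ (hKU _))) (hKU _))
      (hKcj _ (hKU _))) (hKcj _ hKu)) (hKcj _ (hKU _))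
  have hNn : (K.comap G.ρ).Normal := by
    constructor
    intro x hx g
    rw [Subgroup.mem_comap] at hx ⊢
    rw [map_mul, map_mul, map_inv]
    exact hKcj g hx
  have hN : K.comap G.ρ = ⊤ := by
    rcases G.alt with h5 | ⟨-, -, h3⟩
    · -- at least five points
      have h1 : ({G.P.e1, G.P.e2, G.P.e3, G.P.e4} : Finset (Fin n)).card < (Finset.univ : Finset (Fin n)).card := by
        rw [Finset.card_univ, Fintype.card_fin]
        exact (Finset.card_le_four).trans_lt (by omega)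
      obtain ⟨e5, -, he⟩ := Finset.exists_mem_notMem_of_card_lt_card h1
      simp only [Finset.mem_insert, Finset.mem_singleton, not_or] at he
      obtain ⟨h15, h25, h35, h45⟩ := he
      let s : Alt n := evn (swap G.P.e3 e5 * swap e5 G.P.e4) (by
        rw [Perm.sign_mul, sign_swap (Ne.symm h35), sign_swap h45]; rfl)
      have s1 : s.1 G.P.e1 = G.P.e1 := by
        simp only [s, evn, Perm.coe_mul, Function.comp_apply]
        rw [swap_apply_of_ne_of_ne (Ne.symm h15) G.P.h14, swap_apply_of_ne_of_ne G.P.h13 (Ne.symm h15)]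
      have s2 : s.1 G.P.e2 = G.P.e2 := by
        simp only [s, evn, Perm.coe_mul, Function.comp_apply]
        rw [swap_apply_of_ne_of_ne (Ne.symm h25) G.P.h24, swap_apply_of_ne_of_ne G.P.h23 (Ne.symm h25)]
      have s3 : s.1 G.P.e3 = e5 := by
        simp only [s, evn, Perm.coe_mul, Function.comp_apply]
        rw [swap_apply_of_ne_of_ne (Ne.symm h35) G.P.h34, swap_apply_left]
      have hs := G.stabH s s1 s2
      have h4 : G.ρ ((G.P.c)⁻¹ * (s * G.P.c * s⁻¹)) ∈ K := by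
        have a1 := hKcj s hKhc
        have a2 := K.mul_mem (K.inv_mem hKhc) a1
        have e : (G.h * G.ρ G.P.c)⁻¹ * cj (G.ρ s) (G.h * G.ρ G.P.c) =
            G.ρ ((G.P.c)⁻¹ * (s * G.P.c * s⁻¹)) := by
          simp only [map_mul, map_inv, cj]
          have : G.ρ s * G.h = G.h * G.ρ s := hs.eq
          calc (G.h * G.ρ G.P.c)⁻¹ * (G.ρ s * (G.h * G.ρ G.P.c) * (G.ρ s)⁻¹)
              = (G.h * G.ρ G.P.c)⁻¹ * ((G.ρ s * G.h) * G.ρ G.P.c * (G.ρ s)⁻¹) := by group
            _ = (G.h * G.ρ G.P.c)⁻¹ * ((G.h * G.ρ s) * G.ρ G.P.c * (G.ρ s)⁻¹) := by rw [this]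
            _ = _ := by group
        rw [← e]
        exact a2
      refine three_cycle_top (K.comap G.ρ) hNn (a := G.P.e2) (b := G.P.e3) (d := e5) G.P.h23
        (Ne.symm h25) (Ne.symm h35) _ ?_ h4
      have e1 : ((G.P.c)⁻¹ * (s * G.P.c * s⁻¹)).1 = (swap G.P.e2 G.P.e3 * swap G.P.e1 G.P.e2) *
          (s.1 * (swap G.P.e1 G.P.e2 * swap G.P.e2 G.P.e3) * s.1⁻¹) := by
        show (swap G.P.e1 G.P.e2 * swap G.P.e2 G.P.e3)⁻¹ * _ = _
        rw [_root_.mul_inv_rev, swap_inv, swap_inv]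
        rfl
      rw [e1, swap_conj_perm, s1, s2, s3, mul_assoc, ← mul_assoc (swap G.P.e1 G.P.e2), swap_mul_self, one_mul]
    · -- four points
      have a1 : G.ρ G.P.c * G.h ∈ K := by
        have := hKcj G.P.c hKhc
        have e : cj (G.ρ G.P.c) (G.h * G.ρ G.P.c) = G.ρ G.P.c * G.h := by
          simp only [cj]; group
        rwa [e] at this
      have a2 : G.h⁻¹ * G.ρ (G.P.κ * G.P.c * (G.P.κ)⁻¹) ∈ K := by
        have := hKcj G.P.κ hKhc
        have e : cj (G.ρ G.P.κ) (G.h * G.ρ G.P.c) = G.h⁻¹ * G.ρ (G.P.κ * G.P.c * (G.P.κ)⁻¹) := by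
          rw [cj_mul, h3]
          simp only [cj, map_mul, map_inv]
        rwa [e] at this
      have a3 : G.ρ (G.P.c * (G.P.κ * G.P.c * (G.P.κ)⁻¹)) ∈ K := by
        have := K.mul_mem a1 a2
        have e : G.ρ G.P.c * G.h * (G.h⁻¹ * G.ρ (G.P.κ * G.P.c * (G.P.κ)⁻¹)) =
            G.ρ (G.P.c * (G.P.κ * G.P.c * (G.P.κ)⁻¹)) := by
          rw [map_mul G.ρ G.P.c]
          group
        rwa [e] at this
      refine three_cycle_top (K.comap G.ρ) hNn (a := G.P.e1) (b := G.P.e3) (d := G.P.e4) G.P.h13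
        G.P.h14 G.P.h34 _ ?_ a3
      have e1 : (G.P.c * (G.P.κ * G.P.c * (G.P.κ)⁻¹)).1 = (swap G.P.e1 G.P.e2 * swap G.P.e2 G.P.e3) *
          ((G.P.κ).1 * (swap G.P.e1 G.P.e2 * swap G.P.e2 G.P.e3) * (G.P.κ).1⁻¹) := rfl
      rw [e1, swap_conj_perm, G.P.κ_e1, G.P.κ_e2, G.P.κ_e3, swap_comm G.P.e2 G.P.e1]
      have e2 : swap G.P.e1 G.P.e2 * swap G.P.e2 G.P.e3 * (swap G.P.e1 G.P.e2 * swap G.P.e1 G.P.e4) =
          (swap G.P.e1 G.P.e2 * swap G.P.e2 G.P.e3 * (swap G.P.e1 G.P.e2)⁻¹) * swap G.P.e1 G.P.e4 := by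
        rw [swap_inv]
        group
      rw [e2, ← swap_apply_apply, swap_apply_right, swap_apply_of_ne_of_ne G.P.h13.symm G.P.h23.symm]
  have hKρ : ∀ σ, G.ρ σ ∈ K := by
    intro σ
    have : σ ∈ K.comap G.ρ := by rw [hN]; trivial
    exact this
  have hKh : G.h ∈ K := by
    have := K.mul_mem hKhc (K.inv_mem (hKρ G.P.c))
    simpa using this
  have hK : K = ⊤ := hgen K hKu hKh hKρ
  constructor
  · intro a b hab
    obtain ⟨x, rfl⟩ : a ∈ K := by rw [hK]; trivial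
    obtain ⟨y, rfl⟩ : b ∈ K := by rw [hK]; trivial
    rw [hA, hA] at hab
    rw [hab]
  · intro g
    exact ⟨ψ g, hA g⟩

end Bij

end Cfsg.Agent.Lib.PrsSLn
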