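import Mathlib
import Cfsg.Agent.Lib.PrsSLnF

/-!
# The relators
-/

set_option autoImplicit false

namespace Cfsg.Agent.Lib.PrsSLn

open Equiv Equiv.Perm Polynomial
open Cfsg.Agent.Lib.PrsSL2
open scoped commutatorElement

variable {n : ℕ}

lemma map_cj {G G' : Type*} [Group G] [Group G'] (π : G →* G') (a b : G) : π (cj a b) = cj (π a) (π b) := by
  simp [cj]

section Words
variable {G : Type*} [Group G] (P : Pts n)

/-- torus element -/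
def TT (h : G) (S : Alt n → G) : G := cj (S P.σ₄) h

/-- conjugates of `u` -/
def UU (u h : G) (S : Alt n → G) (j : ℕ) : G := vv (TT P h S) u j

variable (p : ℕ) [Fact p.Prime]

/-- The main relators. -/
def rCore (mp : (ZMod p)[X]) (k₁ k₂ k₃ : ℕ) (u h : G) (S : Alt n → G) : List G :=
  [ u ^ p,
    wP p (TT P h S) u mp,
    cj h u * (UU P u h S 2)⁻¹,
    ⁅h, TT P h S⁆,
    ⁅u, cj (S P.π₀) u⁆,
    ⁅h, cj (S P.π₀) u⁆,
    ⁅h, cj (S P.π₀) h⁆,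
    ⁅u, cj (S P.c) (UU P u h S 1)⁆ * (cj (S P.σ₃) (UU P u h S 1))⁻¹,
    ⁅cj (S P.σ₃) (UU P u h S 1), cj (S P.c) (UU P u h S 1)⁆,
    UU P u h S k₁ * cj (S P.κ) (UU P u h S k₃) * UU P u h S k₁ * cj (S P.c) (UU P u h S k₂) *
      cj (S P.c₃₂) u * cj (S P.c) (UU P u h S k₂) * (h * S P.c)⁻¹ ]

/-- The relators for the additive structure. -/
def rAdd (m : ℕ) (u h : G) (S : Alt n → G) : List G :=
  [ ⁅UU P u h S 0, UU P u h S 1⁆, UU P u h S 0 * UU P u h S 1 * (UU P u h S m)⁻¹ ]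

/-- The relators for the stabilizer. -/
def rStab (s₁ s₂ : Alt n) (u h : G) (S : Alt n → G) : List G :=
  [ ⁅u, S s₁⁆, ⁅u, S s₂⁆, ⁅h, S s₁⁆, ⁅h, S s₂⁆ ]

/-- The relators for four points. -/
def rFour (u h : G) (S : Alt n → G) : List G :=
  [ cj (cj (S P.σ₃) h) u * (UU P u h S 1)⁻¹,
    ⁅u, cj (S P.c₄) (UU P u h S 1)⁆ * (cj (S P.σ₄) (UU P u h S 1))⁻¹,
    cj (S P.κ) h * h ]

/-- All relators -/
def rAll (mp : (ZMod p)[X]) (k₁ k₂ k₃ m : ℕ) (s₁ s₂ : Alt n) (q4 five : Bool) (u h : G) (S : Alt n → G) : List G :=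
  rCore P p mp k₁ k₂ k₃ u h S ++ (if q4 then rAdd P m u h S else []) ++
    (if five then rStab s₁ s₂ u h S else rFour P u h S)

lemma rAll_length (mp : (ZMod p)[X]) (k₁ k₂ k₃ m : ℕ) (s₁ s₂ : Alt n) (q4 five : Bool) (u h : G) (S : Alt n → G) :
    (rAll P p mp k₁ k₂ k₃ m s₁ s₂ q4 five u h S).length ≤ if five then 16 else 15 := by
  cases q4 <;> cases five <;> simp [rAll, rCore, rAdd, rStab, rFour]

lemma map_TT {G' : Type*} [Group G'] (π : G →* G') (h : G) (S : Alt n → G) :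
    π (TT P h S) = TT P (π h) (π ∘ S) := by
  simp [TT, map_cj]

lemma map_UU {G' : Type*} [Group G'] (π : G →* G') (u h : G) (S : Alt n → G) (j : ℕ) :
    π (UU P u h S j) = UU P (π u) (π h) (π ∘ S) j := by
  simp only [UU, map_vv, map_TT]

lemma map_rAll {G' : Type*} [Group G'] (π : G →* G') (mp : (ZMod p)[X]) (k₁ k₂ k₃ m : ℕ) (s₁ s₂ : Alt n)
    (q4 five : Bool) (u h : G) (S : Alt n → G) :
    (rAll P p mp k₁ k₂ k₃ m s₁ s₂ q4 five u h S).map π =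
      rAll P p mp k₁ k₂ k₃ m s₁ s₂ q4 five (π u) (π h) (π ∘ S) := by
  cases q4 <;> cases five <;>
    simp [rAll, rCore, rAdd, rStab, rFour, map_cj, map_UU, map_TT, map_wP, map_commutatorElement]

end Words

section Eval
variable {F : Type*} [Field F] (P : Pts n)

lemma Pm_tv2 (σ : Alt n) {i j k l : Fin n} (h : i ≠ j) (h' : k ≠ l) (e1 : σ.1 i = k) (e2 : σ.1 j = l) (t : F) :
    cj (Pm σ) (tv h t) = tv h' t := by
  subst e1 e2
  exact Pm_tv σ h t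

lemma Pm_dg2 (σ : Alt n) {i j k l : Fin n} (h : i ≠ j) (h' : k ≠ l) (e1 : σ.1 i = k) (e2 : σ.1 j = l) (d : F)
    (hd : d ≠ 0) : cj (Pm σ) (dg h d hd) = dg h' d hd := by
  subst e1 e2
  exact Pm_dg σ h d hd

lemma TT_eval (ζ : F) (hζ : ζ ≠ 0) : TT P (dg P.h12 ζ hζ) (Pm : Alt n → SLn n F) = dg P.h14 ζ hζ :=
  Pm_dg2 P.σ₄ _ _ P.σ₄_e1 P.σ₄_e2 ζ hζ

lemma UU_eval (ζ : F) (hζ : ζ ≠ 0) (j : ℕ) :
    UU P (tv P.h12 1) (dg P.h12 ζ hζ) (Pm : Alt n → SLn n F) j = tv P.h12 (ζ ^ j) := by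
  rw [UU, TT_eval, vv_dg]

lemma comm_one_of_cj {G : Type*} [Group G] {a b : G} (h : cj a b = b) : ⁅a, b⁆ = 1 := by
  rw [commutatorElement_def]
  simp only [cj] at h
  rw [h]
  group

lemma comm_one_of_cj' {G : Type*} [Group G] {a b : G} (h : cj b a = a) : ⁅a, b⁆ = 1 := by
  rw [commutatorElement_eq_one_iff_commute]
  simp only [cj, mul_inv_eq_iff_eq_mul] at h
  exact h.symm

lemma tv_pow {i j : Fin n} (h : i ≠ j) (t : F) (k : ℕ) : tv h t ^ k = tv h ((k : F) * t) := by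
  induction k with
  | zero => simp [tv_zero]
  | succ k ih =>
    rw [pow_succ, ih, tv_add]
    congr 1
    push_cast
    ring

variable (p : ℕ) [Fact p.Prime] [Algebra (ZMod p) F]

theorem eval_rAll [CharP F p] (ζ : F) (hζ : ζ ≠ 0) {k₁ k₂ k₃ m : ℕ} {s₁ s₂ : Alt n} {q4 five : Bool}
    (hk₁ : ζ ^ k₁ = -ζ) (hk₂ : ζ ^ k₂ = -1) (hk₃ : ζ ^ k₃ = ζ⁻¹)
    (hq4 : q4 = true → ζ ^ m = 1 + ζ)
    (hfive : five = true → (s₁.1 P.e1 = P.e1 ∧ s₁.1 P.e2 = P.e2) ∧ (s₂.1 P.e1 = P.e1 ∧ s₂.1 P.e2 = P.e2)) :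
    ∀ r ∈ rAll P p (minpoly (ZMod p) ζ) k₁ k₂ k₃ m s₁ s₂ q4 five (tv P.h12 (1 : F)) (dg P.h12 ζ hζ) Pm, r = 1 := by
  have hU := UU_eval P ζ hζ
  have hT := TT_eval P ζ hζ
  have e23 : ∀ t : F, cj (Pm P.c) (tv P.h12 t) = tv P.h23 t := fun t => Pm_tv2 P.c _ _ P.c_e1 P.c_e2 t
  have e13 : ∀ t : F, cj (Pm P.σ₃) (tv P.h12 t) = tv P.h13 t := fun t => Pm_tv2 P.σ₃ _ _ P.σ₃_e1 P.σ₃_e2 t
  have e14 : ∀ t : F, cj (Pm P.σ₄) (tv P.h12 t) = tv P.h14 t := fun t => Pm_tv2 P.σ₄ _ _ P.σ₄_e1 P.σ₄_e2 t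
  have e24 : ∀ t : F, cj (Pm P.c₄) (tv P.h12 t) = tv P.h24 t := fun t => Pm_tv2 P.c₄ _ _ P.c₄_e1 P.c₄_e2 t
  have e34 : ∀ t : F, cj (Pm P.π₀) (tv P.h12 t) = tv P.h34 t := fun t => Pm_tv2 P.π₀ _ _ P.π₀_e1 P.π₀_e2 t
  have e21 : ∀ t : F, cj (Pm P.κ) (tv P.h12 t) = tv P.h12.symm t := fun t => Pm_tv2 P.κ _ _ P.κ_e1 P.κ_e2 t
  have e32 : ∀ t : F, cj (Pm P.c₃₂) (tv P.h12 t) = tv P.h23.symm t := fun t => Pm_tv2 P.c₃₂ _ _ P.c₃₂_e1 P.c₃₂_e2 t
  have dπ : cj (Pm P.π₀) (dg P.h12 ζ hζ) = dg P.h34 ζ hζ := Pm_dg2 P.π₀ _ _ P.π₀_e1 P.π₀_e2 ζ hζ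
  intro r hr
  simp only [rAll, List.mem_append] at hr
  rcases hr with (hr | hr) | hr
  · simp only [rCore, List.mem_cons, List.not_mem_nil, or_false] at hr
    rcases hr with rfl | rfl | rfl | rfl | rfl | rfl | rfl | rfl | rfl | rfl
    · rw [tv_pow, CharP.cast_eq_zero F p, zero_mul, tv_zero]
    · rw [wP_eval p _ _ (fun t : F => tv P.h12 t) (fun s t => tv_add P.h12 s t) ζ
        (fun j => by rw [← UU_eval P ζ hζ j]; rfl), minpoly.aeval, tv_zero]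
    · rw [hU, dg_tv_same, mul_one]
      group
    · rw [hT]
      exact commutatorElement_eq_one_iff_commute.2 (dg_comm _ _ _ _ _ _)
    · rw [e34]
      exact commutatorElement_eq_one_iff_commute.2 (tv_comm_ne _ _ P.h23 P.h14 _ _)
    · rw [e34]
      exact comm_one_of_cj (dg_tv_disj _ _ P.h13.symm P.h23.symm P.h14.symm P.h24.symm _ _ _)
    · rw [dπ]
      exact commutatorElement_eq_one_iff_commute.2 (dg_comm _ _ _ _ _ _)
    · rw [hU, e23, e13, tv_commutator P.h12 P.h23 P.h13, one_mul]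
      group
    · rw [hU, e23, e13]
      exact commutatorElement_eq_one_iff_commute.2 (tv_comm_ne _ _ P.h23.symm P.h13 _ _)
    · rw [hU, hU, hU, e23, e21, e32, hk₁, hk₂, hk₃, M_id P ζ hζ]
      group
  · cases q4
    · simp at hr
    · simp only [if_true, rAdd, List.mem_cons, List.not_mem_nil, or_false] at hr
      rcases hr with rfl | rfl
      · rw [hU, hU]
        apply commutatorElement_eq_one_iff_commute.2
        show _ * _ = _ * _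
        rw [tv_add, tv_add, add_comm]
      · rw [hU, hU, hU, tv_add, hq4 rfl]
        simp
  · cases five
    · simp only [Bool.false_eq_true, if_false, rFour, List.mem_cons, List.not_mem_nil, or_false] at hr
      have d13 : cj (Pm P.σ₃) (dg P.h12 ζ hζ) = dg P.h13 ζ hζ := Pm_dg2 P.σ₃ _ _ P.σ₃_e1 P.σ₃_e2 ζ hζ
      have d21 : cj (Pm P.κ) (dg P.h12 ζ hζ) = (dg P.h12 ζ hζ)⁻¹ := by
        rw [Pm_dg2 P.κ P.h12 P.h12.symm P.κ_e1 P.κ_e2 ζ hζ, dg_inv]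
      rcases hr with rfl | rfl | rfl
      · rw [d13, dg_tv_fst P.h13 P.h12 P.h23, hU]
        simp
      · rw [hU, e24, e14, tv_commutator P.h12 P.h24 P.h14, one_mul]
        group
      · rw [d21]
        group
    · obtain ⟨⟨a1, a2⟩, ⟨b1, b2⟩⟩ := hfive rfl
      simp only [if_true, rStab, List.mem_cons, List.not_mem_nil, or_false] at hr
      rcases hr with rfl | rfl | rfl | rfl
      · exact comm_one_of_cj' (Pm_tv2 s₁ _ _ a1 a2 _)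
      · exact comm_one_of_cj' (Pm_tv2 s₂ _ _ b1 b2 _)
      · exact comm_one_of_cj' (Pm_dg2 s₁ _ _ a1 a2 _ _)
      · exact comm_one_of_cj' (Pm_dg2 s₂ _ _ b1 b2 _ _)

end Eval

end Cfsg.Agent.Lib.PrsSLn
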