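import Mathlib
import Cfsg.Agent.Lib.PrsSLnG

/-!
# From the relators to the hypotheses
-/

set_option autoImplicit false

namespace Cfsg.Agent.Lib.PrsSLn

open Equiv Equiv.Perm Polynomial
open Cfsg.Agent.Lib.PrsSL2
open scoped commutatorElement

variable {n : ℕ}

section CommMonic
variable {Γ : Type*} [Group Γ] (p : ℕ) [Fact p.Prime]

/-- Window recursion for a monic polynomial relation. -/
theorem comm_monic' (H U : Γ) (mp : (ZMod p)[X]) (hmp : mp.Monic) (hr : wP p H U mp = 1)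
    (hbase : ∀ j < mp.natDegree, Commute (vv H U 0) (vv H U j)) (d : ℤ) :
    Commute (vv H U 0) (vv H U d) := by
  haveI : Fact (1 < p) := ⟨(Fact.out : p.Prime).one_lt⟩
  set N := mp.natDegree with hN
  have hr' : pr H U (fun j => (j : ℤ)) (fun j => (mp.coeff j).val) N * vv H U N = 1 := by
    have hr2 : pr H U (fun j => (j : ℤ)) (fun j => (mp.coeff j).val) (N + 1) = 1 := hr
    simp only [pr] at hr2
    rw [hmp.coeff_natDegree, ZMod.val_one, pow_one] at hr2
    exact hr2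
  have shift : ∀ k : ℤ, pr H U (fun j => (j : ℤ) + k) (fun j => (mp.coeff j).val) N * vv H U (N + k) = 1 := by
    intro k
    rw [← pr_conj, ← vv_conj]
    calc _ = H ^ k * (pr H U (fun j => (j : ℤ)) (fun j => (mp.coeff j).val) N * vv H U N) * H ^ (-k) := by group
      _ = _ := by rw [hr']; group
  have main : ∀ k : ℕ, Commute (vv H U 0) (vv H U k) := by
    intro k
    induction k using Nat.strong_induction_on with
    | _ k ih =>
      by_cases hk : k < N
      · exact hbase k hk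
      · obtain ⟨k', rfl⟩ : ∃ k', k = k' + N := ⟨k - N, by omega⟩
        have h1 := shift k'
        have h2 : vv H U ((N : ℤ) + k') = (pr H U (fun j => (j : ℤ) + k') (fun j => (mp.coeff j).val) N)⁻¹ :=
          eq_inv_of_mul_eq_one_right h1
        have e : (((k' + N : ℕ) : ℤ)) = (N : ℤ) + k' := by push_cast; ring
        rw [e, h2]
        apply Commute.inv_right
        apply pr_comm
        intro j hj
        have := ih (j + k') (by omega)
        simpa using this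
  obtain ⟨k, rfl | rfl⟩ := Int.eq_nat_or_neg d
  · exact main k
  · exact comm_sym H U (main k)

end CommMonic

section Hyp
variable {F Γ : Type*} [Field F] [Group Γ] (P : Pts n) (p : ℕ) [Fact p.Prime] [Algebra (ZMod p) F] [Finite F]

/-- The structure from the relators. -/
noncomputable def mkG (ρ : Alt n →* Γ) (u h : Γ) (ζ : F) (hζ : ζ ≠ 0)
    (gen : ∀ t : F, t ≠ 0 → ∃ k : ℕ, t = ζ ^ k)
    (hg : ∀ t : F, ∃ f : (ZMod p)[X], aeval (ζ ^ 2) f = t)
    {k₁ k₂ k₃ m : ℕ} {s₁ s₂ : Alt n} {q4 five : Bool}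
    (hR : ∀ r ∈ rAll P p (minpoly (ZMod p) ζ) k₁ k₂ k₃ m s₁ s₂ q4 five u h ρ, r = 1)
    (hq4 : q4 = false → (minpoly (ZMod p) ζ).natDegree = 1)
    (h5 : five = true → 5 ≤ n)
    (hS : ∀ σ : Alt n, σ.1 P.e1 = P.e1 → σ.1 P.e2 = P.e2 → Commute (ρ σ) u ∧ Commute (ρ σ) h) :
    GHyp n F Γ p where
  P := P
  ρ := ρ
  u := u
  h := h
  ζ := ζ
  hζ := hζ
  gen := gen
  hg := hg
  r1 := hR (u ^ p) (by simp [rAll, rCore])
  hc := by
    have hr4 : wP p (TT P h ρ) u (minpoly (ZMod p) ζ) = 1 := hR _ (by simp [rAll, rCore])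
    have hint : IsIntegral (ZMod p) ζ := by
      haveI : Module.Finite (ZMod p) F := Module.Finite.of_finite
      exact IsIntegral.of_finite _ _
    apply comm_of_base
    cases q4
    · intro d
      refine comm_monic' p _ _ _ (minpoly.monic hint) hr4 ?_ d
      rw [hq4 rfl]
      intro j hj
      have : j = 0 := by omega
      subst this
      exact Commute.refl _
    · have h1 := hR ⁅UU P u h ρ 0, UU P u h ρ 1⁆ (by simp [rAll, rAdd])
      have h2 := hR (UU P u h ρ 0 * UU P u h ρ 1 * (UU P u h ρ m)⁻¹) (by simp [rAll, rAdd])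
      have hn : Commute (vv (TT P h ρ) u 0) (vv (TT P h ρ) u (1 : ℕ)) := by
        have := commutatorElement_eq_one_iff_commute.1 h1
        simpa [UU] using this
      have tri : vv (TT P h ρ) u 0 * vv (TT P h ρ) u (1 : ℕ) = vv (TT P h ρ) u m := by
        have := mul_inv_eq_one.1 h2
        simpa [UU] using this
      intro d
      have := lat (TT P h ρ) u hn tri d
      rw [Nat.cast_one, mul_one] at this
      exact this
  r4 := hR (wP p (TT P h ρ) u (minpoly (ZMod p) ζ)) (by simp [rAll, rCore])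
  r5 := by
    have := hR (cj h u * (UU P u h ρ 2)⁻¹) (by simp [rAll, rCore])
    exact mul_inv_eq_one.1 this
  r6 := by
    have := hR ⁅h, TT P h ρ⁆ (by simp [rAll, rCore])
    exact commutatorElement_eq_one_iff_commute.1 this
  stabU := fun σ h1 h2 => (hS σ h1 h2).1
  stabH := fun σ h1 h2 => (hS σ h1 h2).2
  r11 := commutatorElement_eq_one_iff_commute.1 (hR ⁅u, cj (ρ P.π₀) u⁆ (by simp [rAll, rCore]))
  r12 := commutatorElement_eq_one_iff_commute.1 (hR ⁅h, cj (ρ P.π₀) u⁆ (by simp [rAll, rCore]))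
  r13 := commutatorElement_eq_one_iff_commute.1 (hR ⁅h, cj (ρ P.π₀) h⁆ (by simp [rAll, rCore]))
  rA := by
    have := hR (⁅u, cj (ρ P.c) (UU P u h ρ 1)⁆ * (cj (ρ P.σ₃) (UU P u h ρ 1))⁻¹) (by simp [rAll, rCore])
    exact mul_inv_eq_one.1 this
  rC := commutatorElement_eq_one_iff_commute.1 (hR ⁅cj (ρ P.σ₃) (UU P u h ρ 1), cj (ρ P.c) (UU P u h ρ 1)⁆ (by simp [rAll, rCore]))
  alt := by
    cases five
    · right
      refine ⟨?_, ?_, ?_⟩
      · have := hR (cj (cj (ρ P.σ₃) h) u * (UU P u h ρ 1)⁻¹) (by simp [rAll, rFour])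
        exact mul_inv_eq_one.1 this
      · have := hR (⁅u, cj (ρ P.c₄) (UU P u h ρ 1)⁆ * (cj (ρ P.σ₄) (UU P u h ρ 1))⁻¹) (by simp [rAll, rFour])
        exact mul_inv_eq_one.1 this
      · have := hR (cj (ρ P.κ) h * h) (by simp [rAll, rFour])
        exact eq_inv_of_mul_eq_one_left this
    · exact Or.inl (h5 rfl)

lemma mkG_MRel (ρ : Alt n →* Γ) (u h : Γ) (ζ : F) (hζ : ζ ≠ 0)
    (gen : ∀ t : F, t ≠ 0 → ∃ k : ℕ, t = ζ ^ k)
    (hg : ∀ t : F, ∃ f : (ZMod p)[X], aeval (ζ ^ 2) f = t)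
    {k₁ k₂ k₃ m : ℕ} {s₁ s₂ : Alt n} {q4 five : Bool}
    (hR : ∀ r ∈ rAll P p (minpoly (ZMod p) ζ) k₁ k₂ k₃ m s₁ s₂ q4 five u h ρ, r = 1)
    (hq4 : q4 = false → (minpoly (ZMod p) ζ).natDegree = 1)
    (h5 : five = true → 5 ≤ n)
    (hS : ∀ σ : Alt n, σ.1 P.e1 = P.e1 → σ.1 P.e2 = P.e2 → Commute (ρ σ) u ∧ Commute (ρ σ) h) :
    (mkG P p ρ u h ζ hζ gen hg hR hq4 h5 hS).MRel k₁ k₂ k₃ := by
  have := hR (UU P u h ρ k₁ * cj (ρ P.κ) (UU P u h ρ k₃) * UU P u h ρ k₁ * cj (ρ P.c) (UU P u h ρ k₂) *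
      cj (ρ P.c₃₂) u * cj (ρ P.c) (UU P u h ρ k₂) * (h * ρ P.c)⁻¹) (by simp [rAll, rCore])
  exact mul_inv_eq_one.1 this

/-- Stabilizer relators. -/
lemma stab_comm {G : Type*} [Group G] (ρ : Alt n →* G) {s₁ s₂ : Alt n} {z : G}
    (h1 : ⁅z, ρ s₁⁆ = 1) (h2 : ⁅z, ρ s₂⁆ = 1) {σ : Alt n} (hσ : σ ∈ Subgroup.closure ({s₁, s₂} : Set (Alt n))) :
    Commute (ρ σ) z := by
  have h3 : Subgroup.closure ({s₁, s₂} : Set (Alt n)) ≤ (Subgroup.centralizer ({z} : Set G)).comap ρ := by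
    rw [Subgroup.closure_le]
    intro s hs
    have : s = s₁ ∨ s = s₂ := by simpa using hs
    rcases this with rfl | rfl
    · simp only [SetLike.mem_coe, Subgroup.mem_comap, Subgroup.mem_centralizer_singleton_iff]
      exact (commutatorElement_eq_one_iff_commute.1 h1).symm.eq
    · simp only [SetLike.mem_coe, Subgroup.mem_comap, Subgroup.mem_centralizer_singleton_iff]
      exact (commutatorElement_eq_one_iff_commute.1 h2).symm.eq
  have := h3 hσ
  simp only [Subgroup.mem_comap, Subgroup.mem_centralizer_singleton_iff] at this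
  exact this

end Hyp

end Cfsg.Agent.Lib.PrsSLn
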