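import Mathlib
import Cfsg.Agent.Lib.PrsSLnH

/-!
# Assembly of the presentation of `SL_n`
-/

set_option autoImplicit false

namespace Cfsg.Agent.Lib.PrsSLn

open Equiv Equiv.Perm Polynomial
open Cfsg.Agent.Lib.PrsSL2
open scoped commutatorElement

variable {n : ℕ}

/-- The group presented is `SL_n` via an evaluation of the generators. -/
def GoodPres {m : ℕ} (F : Type*) [Field F] (n : ℕ) (rels : Set (FreeGroup (Fin m))) : Prop :=
  ∃ (f : Fin m → SLn n F) (hf : ∀ r ∈ rels, FreeGroup.lift f r = 1),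
    Function.Bijective (PresentedGroup.toGroup hf)

lemma GoodPres.iso {m : ℕ} {F : Type*} [Field F] {rels : Set (FreeGroup (Fin m))}
    (h : GoodPres F n rels) : Nonempty (PresentedGroup rels ≃* SLn n F) := by
  obtain ⟨f, hf, hb⟩ := h
  exact ⟨MulEquiv.ofBijective _ hb⟩

section Main
variable {F : Type*} [Field F] [Finite F] (P : Pts n) (p : ℕ) [Fact p.Prime] [CharP F p] [Algebra (ZMod p) F]
variable {m : ℕ}

/-- The embedding of the free group on two letters. -/
def ιF (hm : 4 ≤ m) : FreeGroup (Fin 2) →* FreeGroup (Fin m) :=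
  FreeGroup.map (fun i => ⟨i.1 + 2, by omega⟩)

/-- The values of the generators. -/
noncomputable def fGen (hm : 4 ≤ m) (R_A : Set (FreeGroup (Fin 2))) (e_A : PresentedGroup R_A ≃* Alt n)
    (ζ : F) (hζ : ζ ≠ 0) : Fin m → SLn n F := fun i =>
  if i.1 = 0 then tv P.h12 1 else if i.1 = 1 then dg P.h12 ζ hζ else
    if i.1 = 2 then Pm (e_A (PresentedGroup.of 0)) else
      if i.1 = 3 then Pm (e_A (PresentedGroup.of 1)) else 1

theorem exists_good (hn : 4 ≤ n) (hm : 4 ≤ m) (R_A : Finset (FreeGroup (Fin 2)))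
    (e_A : PresentedGroup (R_A : Set (FreeGroup (Fin 2))) ≃* Alt n)
    (ζ : F) (hζ : ζ ≠ 0) (gen : ∀ t : F, t ≠ 0 → ∃ k : ℕ, t = ζ ^ k)
    (hg : ∀ t : F, ∃ f : (ZMod p)[X], aeval (ζ ^ 2) f = t)
    {k₁ k₂ k₃ m' : ℕ} {s₁ s₂ : Alt n} {q4 five : Bool}
    (hk₁ : ζ ^ k₁ = -ζ) (hk₂ : ζ ^ k₂ = -1) (hk₃ : ζ ^ k₃ = ζ⁻¹)
    (hq4 : q4 = true → ζ ^ m' = 1 + ζ)
    (hq4' : q4 = false → (minpoly (ZMod p) ζ).natDegree = 1)
    (hfive : five = true → 5 ≤ n ∧ ((s₁.1 P.e1 = P.e1 ∧ s₁.1 P.e2 = P.e2) ∧ (s₂.1 P.e1 = P.e1 ∧ s₂.1 P.e2 = P.e2)) ∧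
      ∀ σ : Alt n, σ.1 P.e1 = P.e1 → σ.1 P.e2 = P.e2 → σ ∈ Subgroup.closure ({s₁, s₂} : Set (Alt n)))
    (hfour : five = false → ∀ σ : Alt n, σ.1 P.e1 = P.e1 → σ.1 P.e2 = P.e2 → σ = 1) :
    ∃ rels : Finset (FreeGroup (Fin m)), rels.card ≤ R_A.card + (if five then 16 else 15) + (m - 4) ∧
      GoodPres F n (rels : Set (FreeGroup (Fin m))) := by
  classical
  set ι := ιF hm with hι
  let Rs : Set (FreeGroup (Fin 2)) := R_A
  choose rw hrw using fun σ : Alt n => (PresentedGroup.mk_surjective Rs (e_A.symm σ))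
  let S : Alt n → FreeGroup (Fin m) := fun σ => ι (rw σ)
  let fu : FreeGroup (Fin m) := FreeGroup.of ⟨0, by omega⟩
  let fh : FreeGroup (Fin m) := FreeGroup.of ⟨1, by omega⟩
  let L := rAll P p (minpoly (ZMod p) ζ) k₁ k₂ k₃ m' s₁ s₂ q4 five fu fh S
  let kill : ℕ → FreeGroup (Fin m) := fun k => if h : k + 4 < m then FreeGroup.of ⟨k + 4, h⟩ else 1
  let rels : Finset (FreeGroup (Fin m)) := (R_A.image ι) ∪ L.toFinset ∪ (Finset.range (m - 4)).image kill
  let f : Fin m → SLn n F := fGen P hm Rs e_A ζ hζ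
  let φ₀ : FreeGroup (Fin m) →* SLn n F := FreeGroup.lift f
  have hφι : ∀ w, φ₀ (ι w) = Pm (e_A (PresentedGroup.mk Rs w)) := by
    intro w
    have : φ₀.comp ι = (Pm.comp e_A.toMonoidHom).comp (PresentedGroup.mk Rs) := by
      ext i
      fin_cases i
      · simp [φ₀, ι, ιF, f, fGen, PresentedGroup.of]
      · simp [φ₀, ι, ιF, f, fGen, PresentedGroup.of]
    exact DFunLike.congr_fun this w
  have hφS : ∀ σ, φ₀ (S σ) = Pm σ := by
    intro σ
    show φ₀ (ι (rw σ)) = _
    rw [hφι, hrw, MulEquiv.apply_symm_apply]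
  have hφu : φ₀ fu = tv P.h12 1 := by simp [φ₀, fu, f, fGen]
  have hφh : φ₀ fh = dg P.h12 ζ hζ := by simp [φ₀, fh, f, fGen]
  have hL : ∀ r ∈ L, φ₀ r = 1 := by
    intro r hr
    have h1 : φ₀ r ∈ L.map φ₀ := List.mem_map_of_mem hr
    rw [map_rAll, hφu, hφh] at h1
    have h2 : (φ₀ ∘ S) = (Pm : Alt n → SLn n F) := funext hφS
    rw [h2] at h1
    exact eval_rAll P p ζ hζ hk₁ hk₂ hk₃ hq4 (fun h => (hfive h).2.1) _ h1
  have hrels : ∀ r ∈ (rels : Set (FreeGroup (Fin m))), FreeGroup.lift f r = 1 := by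
    intro r hr
    have hr' : r ∈ rels := by exact_mod_cast hr
    simp only [rels, Finset.mem_union, Finset.mem_image, List.mem_toFinset] at hr'
    rcases hr' with (⟨w, hw, rfl⟩ | hr2) | ⟨k, hk, rfl⟩
    · show φ₀ (ι w) = 1
      rw [hφι, PresentedGroup.one_of_mem (rels := Rs) (by exact_mod_cast hw)]
      simp
    · exact hL r hr2
    · have hk' : k + 4 < m := by
        have := Finset.mem_range.1 hk
        omega
      simp only [kill, dif_pos hk', FreeGroup.lift_apply_of]
      simp only [f, fGen]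
      rw [if_neg (by simp), if_neg (by simp), if_neg (by simp), if_neg (by simp)]
  refine ⟨rels, ?_, f, hrels, ?_⟩
  · have c1 : (R_A.image ι).card ≤ R_A.card := Finset.card_image_le
    have c2 : L.toFinset.card ≤ if five then 16 else 15 :=
      (List.toFinset_card_le L).trans (rAll_length P p _ _ _ _ _ _ _ _ _ _ _ _)
    have c3 : ((Finset.range (m - 4)).image kill).card ≤ m - 4 := by
      refine Finset.card_image_le.trans ?_
      simp
    have c4 := Finset.card_union_le ((R_A.image ι) ∪ L.toFinset) ((Finset.range (m - 4)).image kill)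
    have c5 := Finset.card_union_le (R_A.image ι) L.toFinset
    show ((R_A.image ι) ∪ L.toFinset ∪ (Finset.range (m - 4)).image kill).card ≤ _
    omega
  -- the group
  let Rr : Set (FreeGroup (Fin m)) := (rels : Set (FreeGroup (Fin m)))
  let π : FreeGroup (Fin m) →* PresentedGroup Rr := PresentedGroup.mk Rr
  have hπrels : ∀ r ∈ rels, π r = 1 := by
    intro r hr
    exact PresentedGroup.one_of_mem (by exact_mod_cast hr)
  have hρ₀ : ∀ r ∈ Rs, FreeGroup.lift (fun i => π (ι (FreeGroup.of i))) r = 1 := by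
    intro r hr
    have e : FreeGroup.lift (fun i => π (ι (FreeGroup.of i))) = π.comp ι := by
      ext i
      simp
    rw [e]
    apply hπrels
    simp only [rels, Finset.mem_union, Finset.mem_image]
    exact Or.inl (Or.inl ⟨r, by exact_mod_cast hr, rfl⟩)
  let ρ₀ : PresentedGroup Rs →* PresentedGroup Rr := PresentedGroup.toGroup hρ₀
  let ρ : Alt n →* PresentedGroup Rr := ρ₀.comp e_A.symm.toMonoidHom
  have hρι : ∀ w, π (ι w) = ρ₀ (PresentedGroup.mk Rs w) := by
    intro w
    have : π.comp ι = ρ₀.comp (PresentedGroup.mk Rs) := by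
      apply FreeGroup.ext_hom
      intro i
      exact (PresentedGroup.toGroup.of hρ₀).symm
    exact DFunLike.congr_fun this w
  have hπS : ∀ σ, π (S σ) = ρ σ := by
    intro σ
    show π (ι (rw σ)) = _
    rw [hρι, hrw]
    rfl
  have hRπ : ∀ r ∈ rAll P p (minpoly (ZMod p) ζ) k₁ k₂ k₃ m' s₁ s₂ q4 five (π fu) (π fh) ρ, r = 1 := by
    intro r hr
    have h2 : (π ∘ S) = (ρ : Alt n → PresentedGroup Rr) := funext hπS
    rw [← h2, ← map_rAll] at hr
    obtain ⟨r', hr', rfl⟩ := List.mem_map.1 hr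
    apply hπrels
    simp only [rels, Finset.mem_union, List.mem_toFinset]
    exact Or.inl (Or.inr hr')
  have hS : ∀ σ : Alt n, σ.1 P.e1 = P.e1 → σ.1 P.e2 = P.e2 → Commute (ρ σ) (π fu) ∧ Commute (ρ σ) (π fh) := by
    intro σ h1 h2
    cases hfv : five
    · rw [hfour hfv σ h1 h2]
      simp
    · have hσ := (hfive hfv).2.2 σ h1 h2
      subst hfv
      constructor
      · refine stab_comm ρ ?_ ?_ hσ
        · exact hRπ _ (by simp [rAll, rStab])
        · exact hRπ _ (by simp [rAll, rStab])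
      · refine stab_comm ρ ?_ ?_ hσ
        · exact hRπ _ (by simp [rAll, rStab])
        · exact hRπ _ (by simp [rAll, rStab])
  let G : GHyp n F (PresentedGroup Rr) p := mkG P p ρ (π fu) (π fh) ζ hζ gen hg hRπ hq4' (fun h => (hfive h).1) hS
  have hM : G.MRel k₁ k₂ k₃ := mkG_MRel P p ρ (π fu) (π fh) ζ hζ gen hg hRπ hq4' (fun h => (hfive h).1) hS
  let φ : PresentedGroup Rr →* SLn n F := PresentedGroup.toGroup hrels
  have hφπ : ∀ w, φ (π w) = φ₀ w := by
    intro w
    have : φ.comp π = φ₀ := by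
      apply FreeGroup.ext_hom
      intro i
      exact (PresentedGroup.toGroup.of hrels).trans (by simp [φ₀])
    exact DFunLike.congr_fun this w
  refine GHyp.bij hn G φ ?_ ?_ ?_ ?_ hM
  · show φ (π fu) = _
    rw [hφπ, hφu]
    rfl
  · show φ (π fh) = _
    rw [hφπ, hφh]
    rfl
  · intro σ
    show φ (ρ σ) = _
    rw [← hπS, hφπ, hφS]
  · intro K h1 h2 h3
    have m0 : 0 < m := by omega
    have m1 : 1 < m := by omega
    have m2 : 2 < m := by omega
    have m3 : 3 < m := by omega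
    rw [eq_top_iff, ← PresentedGroup.closure_range_of, Subgroup.closure_le]
    rintro _ ⟨i, rfl⟩
    have c : i.1 = 0 ∨ i.1 = 1 ∨ i.1 = 2 ∨ i.1 = 3 ∨ 4 ≤ i.1 := by omega
    rcases c with c | c | c | c | c
    · have : i = ⟨0, m0⟩ := Fin.ext c
      subst this
      exact h1
    · have : i = ⟨1, m1⟩ := Fin.ext c
      subst this
      exact h2
    · have : i = ⟨2, m2⟩ := Fin.ext c
      subst this
      have e : PresentedGroup.of (rels := Rr) (⟨2, m2⟩ : Fin m) = π (ι (FreeGroup.of 0)) := by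
        simp [ι, ιF, π, PresentedGroup.of]
      show PresentedGroup.of _ ∈ K
      rw [e, hρι]
      have : ρ₀ (PresentedGroup.mk Rs (FreeGroup.of 0)) = ρ (e_A (PresentedGroup.mk Rs (FreeGroup.of 0))) := by
        simp [ρ]
      rw [this]
      exact h3 _
    · have : i = ⟨3, m3⟩ := Fin.ext c
      subst this
      have e : PresentedGroup.of (rels := Rr) (⟨3, m3⟩ : Fin m) = π (ι (FreeGroup.of 1)) := by
        simp [ι, ιF, π, PresentedGroup.of]
      show PresentedGroup.of _ ∈ K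
      rw [e, hρι]
      have : ρ₀ (PresentedGroup.mk Rs (FreeGroup.of 1)) = ρ (e_A (PresentedGroup.mk Rs (FreeGroup.of 1))) := by
        simp [ρ]
      rw [this]
      exact h3 _
    · have hk : i.1 - 4 + 4 < m := by
        have := i.2
        omega
      have e : PresentedGroup.of (rels := Rr) i = 1 := by
        apply hπrels
        simp only [rels, Finset.mem_union, Finset.mem_image, Finset.mem_range]
        refine Or.inr ⟨i.1 - 4, by have := i.2; omega, ?_⟩
        simp only [kill, dif_pos hk]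
        congr 1
        apply Fin.ext
        simp
        omega
      show PresentedGroup.of _ ∈ K
      rw [e]
      exact K.one_mem

end Main

end Cfsg.Agent.Lib.PrsSLn
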