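import Mathlib
import Cfsg.Agent.Lib.PrsSLnI
import Cfsg.Agent.Lib.Pres.Final
import Cfsg.Agent.Lib.PrsSL2G

/-!
# Presentations of `SL_n` and `PSL_n`
-/

set_option autoImplicit false

namespace Cfsg.Agent.Lib.PrsSLn

open Equiv Equiv.Perm Polynomial
open Cfsg.Agent.Lib.PrsSL2
open scoped commutatorElement

variable {n : ℕ}

/-- Generators of a two point stabilizer. -/
theorem exists_stab_gens (P : Pts n) : ∃ s₁ s₂ : Alt n,
    ((s₁.1 P.e1 = P.e1 ∧ s₁.1 P.e2 = P.e2) ∧ (s₂.1 P.e1 = P.e1 ∧ s₂.1 P.e2 = P.e2)) ∧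
    ∀ σ : Alt n, σ.1 P.e1 = P.e1 → σ.1 P.e2 = P.e2 → σ ∈ Subgroup.closure ({s₁, s₂} : Set (Alt n)) := by
  classical
  obtain ⟨R, -, ⟨e⟩⟩ := (Pres.Final.all_pres (n - 2)).2
  let p : Fin n → Prop := fun i => i ≠ P.e1 ∧ i ≠ P.e2
  have hcard : Fintype.card {i // p i} = n - 2 := by
    rw [Fintype.card_subtype]
    have : (Finset.univ.filter p) = Finset.univ \ {P.e1, P.e2} := by
      ext i
      simp [p, not_or]
    rw [this, Finset.card_sdiff, Finset.card_univ, Fintype.card_fin]
    have : (({P.e1, P.e2} : Finset (Fin n)) ∩ Finset.univ).card = 2 := by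
      rw [Finset.inter_univ, Finset.card_pair P.h12]
    omega
  have hcard2 : Fintype.card (Fin (n - 2)) = Fintype.card {i // p i} := by
    rw [hcard, Fintype.card_fin]
  let f : Fin (n - 2) ≃ {i // p i} := Fintype.equivOfCardEq hcard2
  let A' := alternatingGroup (Fin (n - 2))
  let a : A' := e (PresentedGroup.of 0)
  let b : A' := e (PresentedGroup.of 1)
  have hcl : Subgroup.closure ({a, b} : Set A') = ⊤ := by
    have h1 := PresentedGroup.closure_range_of (R : Set (FreeGroup (Fin 2)))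
    have h2 := congrArg (Subgroup.map e.toMonoidHom) h1
    rw [MonoidHom.map_closure] at h2
    have h3 : (⇑e.toMonoidHom '' Set.range (PresentedGroup.of (rels := (R : Set (FreeGroup (Fin 2)))))) = {a, b} := by
      ext x
      simp only [Set.mem_image, Set.mem_range, Set.mem_insert_iff, Set.mem_singleton_iff]
      constructor
      · rintro ⟨_, ⟨i, rfl⟩, rfl⟩
        fin_cases i
        · exact Or.inl rfl
        · exact Or.inr rfl
      · rintro (rfl | rfl)
        · exact ⟨_, ⟨0, rfl⟩, rfl⟩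
        · exact ⟨_, ⟨1, rfl⟩, rfl⟩
    rw [h3] at h2
    rw [h2, ← MonoidHom.range_eq_map]
    exact MonoidHom.range_eq_top.2 e.surjective
  let j : A' →* Alt n :=
    ((Equiv.Perm.extendDomainHom f).comp A'.subtype).codRestrict (alternatingGroup (Fin n)) (fun x => by
      show Equiv.Perm.extendDomain x.1 f ∈ alternatingGroup (Fin n)
      rw [mem_alternatingGroup, Equiv.Perm.sign_extendDomain]
      exact mem_alternatingGroup.1 x.2)
  have hfix1 : ∀ x : A', (j x).1 P.e1 = P.e1 := by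
    intro x
    show Equiv.Perm.extendDomain x.1 f P.e1 = P.e1
    exact Equiv.Perm.extendDomain_apply_not_subtype _ _ (by simp [p])
  have hfix2 : ∀ x : A', (j x).1 P.e2 = P.e2 := by
    intro x
    show Equiv.Perm.extendDomain x.1 f P.e2 = P.e2
    exact Equiv.Perm.extendDomain_apply_not_subtype _ _ (by simp [p])
  refine ⟨j a, j b, ⟨⟨hfix1 a, hfix2 a⟩, ⟨hfix1 b, hfix2 b⟩⟩, ?_⟩
  intro σ h1 h2
  have hp : ∀ x, p (σ.1 x) ↔ p x := by
    intro x
    simp only [p]
    constructor
    · rintro ⟨a1, a2⟩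
      refine ⟨fun e => a1 ?_, fun e => a2 ?_⟩
      · rw [e, h1]
      · rw [e, h2]
    · rintro ⟨a1, a2⟩
      refine ⟨fun e => a1 ?_, fun e => a2 ?_⟩
      · exact σ.1.injective (e.trans h1.symm)
      · exact σ.1.injective (e.trans h2.symm)
  let τ : Perm (Fin (n - 2)) := f.permCongr.symm (σ.1.subtypePerm hp)
  have hτ : Equiv.Perm.extendDomain τ f = σ.1 := by
    ext x
    by_cases hx : p x
    · have e1 : x = (f (f.symm ⟨x, hx⟩) : {i // p i}).1 := by simp
      conv_lhs => rw [e1]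
      rw [Equiv.Perm.extendDomain_apply_image]
      simp [τ, Equiv.permCongr]
    · rw [Equiv.Perm.extendDomain_apply_not_subtype _ _ hx]
      have : ¬ p (σ.1 x) := fun h => hx ((hp x).1 h)
      by_contra hne
      simp only [p, not_and_or, not_not] at hx this
      rcases hx with rfl | rfl
      · exact hne (by rw [h1])
      · exact hne (by rw [h2])
  have hτA : τ ∈ alternatingGroup (Fin (n - 2)) := by
    rw [mem_alternatingGroup, ← Equiv.Perm.sign_extendDomain τ f, hτ]
    exact mem_alternatingGroup.1 σ.2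
  have hj : σ = j ⟨τ, hτA⟩ := by
    apply Subtype.ext
    exact hτ.symm
  rw [hj]
  have hmem : (⟨τ, hτA⟩ : A') ∈ Subgroup.closure ({a, b} : Set A') := by
    rw [hcl]; trivial
  have := Subgroup.mem_map_of_mem j hmem
  rw [MonoidHom.map_closure] at this
  have e2 : (⇑j '' {a, b}) = {j a, j b} := by
    simp [Set.image_pair]
  rwa [e2] at this

/-- The standard points. -/
def stdPts (hn : 4 ≤ n) : Pts n where
  e1 := ⟨0, by omega⟩
  e2 := ⟨1, by omega⟩
  e3 := ⟨2, by omega⟩
  e4 := ⟨3, by omega⟩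
  h12 := by simp [Fin.ext_iff]
  h13 := by simp [Fin.ext_iff]
  h14 := by simp [Fin.ext_iff]
  h23 := by simp [Fin.ext_iff]
  h24 := by simp [Fin.ext_iff]
  h34 := by simp [Fin.ext_iff]

section Params
variable {F : Type*} [Field F] [Finite F]

/-- The general existence with all parameters chosen. -/
theorem sl_gen (hn : 4 ≤ n) {m : ℕ} (hm : 4 ≤ m) (P : Pts n) (R_A : Finset (FreeGroup (Fin 2)))
    (e_A : PresentedGroup (R_A : Set (FreeGroup (Fin 2))) ≃* Alt n)
    {s₁ s₂ : Alt n} {five : Bool}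
    (hfive : five = true → 5 ≤ n ∧ ((s₁.1 P.e1 = P.e1 ∧ s₁.1 P.e2 = P.e2) ∧ (s₂.1 P.e1 = P.e1 ∧ s₂.1 P.e2 = P.e2)) ∧
      ∀ σ : Alt n, σ.1 P.e1 = P.e1 → σ.1 P.e2 = P.e2 → σ ∈ Subgroup.closure ({s₁, s₂} : Set (Alt n)))
    (hfour : five = false → ∀ σ : Alt n, σ.1 P.e1 = P.e1 → σ.1 P.e2 = P.e2 → σ = 1) :
    ∃ rels : Finset (FreeGroup (Fin m)), rels.card ≤ R_A.card + (if five then 16 else 15) + (m - 4) ∧
      GoodPres F n (rels : Set (FreeGroup (Fin m))) := by
  classical
  obtain ⟨p, hp⟩ := CharP.exists F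
  haveI : Fact p.Prime := ⟨CharP.char_is_prime F p⟩
  letI : Algebra (ZMod p) F := ZMod.algebra F p
  obtain ⟨ζ, h0, gen, hord⟩ := exists_gen (F := F)
  have hg := gen_g (p := p) ζ h0 hord
  obtain ⟨k₁, hk₁⟩ := gen (-ζ) (neg_ne_zero.2 h0)
  obtain ⟨k₂, hk₂⟩ := gen (-1) (by simp)
  obtain ⟨k₃, hk₃⟩ := gen ζ⁻¹ (inv_ne_zero h0)
  by_cases hq : 4 ≤ Nat.card F
  · have h1 : 1 + ζ ≠ 0 := by
      intro h
      have e : ζ = -1 := by linear_combination h
      have h2 : ζ ^ 2 = 1 := by rw [e]; ring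
      have := orderOf_le_of_pow_eq_one (by norm_num) h2
      omega
    obtain ⟨m', hm'⟩ := gen _ h1
    exact exists_good P p hn hm R_A e_A ζ h0 gen hg (q4 := true) hk₁.symm hk₂.symm hk₃.symm
      (fun _ => hm'.symm) (by simp) hfive hfour
  · have h1 : (minpoly (ZMod p) ζ).natDegree = 1 := by
      haveI : Module.Finite (ZMod p) F := Module.Finite.of_finite
      have h2 := minpoly.natDegree_le (A := ZMod p) ζ
      have h3 : Nat.card F = p ^ Module.finrank (ZMod p) F := by
        have : Nat.card F = Nat.card (ZMod p) ^ Module.finrank (ZMod p) F := Module.natCard_eq_pow_finrank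
        rwa [Nat.card_zmod] at this
      have h4 : 2 ≤ p := (Fact.out : p.Prime).two_le
      have h5 : Module.finrank (ZMod p) F ≤ 1 := by
        by_contra hc
        have h6 : 2 ≤ Module.finrank (ZMod p) F := by omega
        have h7 : 2 ^ 2 ≤ p ^ Module.finrank (ZMod p) F :=
          (Nat.pow_le_pow_left h4 2).trans (Nat.pow_le_pow_right (by omega) h6)
        omega
      have h8 := minpoly.natDegree_pos (IsIntegral.of_finite (ZMod p) ζ)
      omega
    exact exists_good P p hn hm R_A e_A ζ h0 gen hg (q4 := false) (m' := 0) hk₁.symm hk₂.symm hk₃.symm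
      (by simp) (fun _ => h1) hfive hfour

theorem sl_five (hn : 5 ≤ n) {m : ℕ} (hm : 4 ≤ m) (R_A : Finset (FreeGroup (Fin 2)))
    (e_A : PresentedGroup (R_A : Set (FreeGroup (Fin 2))) ≃* Alt n) :
    ∃ rels : Finset (FreeGroup (Fin m)), rels.card ≤ R_A.card + 16 + (m - 4) ∧
      GoodPres F n (rels : Set (FreeGroup (Fin m))) := by
  obtain ⟨s₁, s₂, h1, h2⟩ := exists_stab_gens (stdPts (n := n) (by omega))
  obtain ⟨rels, h3, h4⟩ := sl_gen (F := F) (by omega) hm (stdPts (n := n) (by omega)) R_A e_A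
    (five := true) (s₁ := s₁) (s₂ := s₂) (fun _ => ⟨hn, h1, h2⟩) (by simp)
  exact ⟨rels, by simpa using h3, h4⟩

lemma stab4 (σ : Alt 4) (h1 : σ.1 0 = 0) (h2 : σ.1 1 = 1) : σ = 1 := by
  revert σ
  decide +kernel

theorem sl_four {m : ℕ} (hm : 4 ≤ m) (R_A : Finset (FreeGroup (Fin 2)))
    (e_A : PresentedGroup (R_A : Set (FreeGroup (Fin 2))) ≃* Alt 4) :
    ∃ rels : Finset (FreeGroup (Fin m)), rels.card ≤ R_A.card + 15 + (m - 4) ∧
      GoodPres F 4 (rels : Set (FreeGroup (Fin m))) := by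
  obtain ⟨rels, h3, h4⟩ := sl_gen (F := F) (n := 4) (by omega) hm (stdPts (by omega)) R_A e_A
    (five := false) (s₁ := 1) (s₂ := 1) (by simp) (fun _ σ h1 h2 => stab4 σ h1 h2)
  exact ⟨rels, by simpa using h3, h4⟩

end Params

section PSL
variable {F : Type*} [Field F] [Finite F]

theorem center_gen (hn : 1 ≤ n) : ∃ z₀ ∈ Subgroup.center (SLn n F), ∀ z ∈ Subgroup.center (SLn n F),
    ∃ k : ℤ, z = z₀ ^ k := by
  classical
  haveI : Fintype F := Fintype.ofFinite F
  let i : Fin n := ⟨0, by omega⟩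
  let E := Matrix.SpecialLinearGroup.center_equiv_rootsOfUnity' (n := Fin n) (R := F) i
  haveI : IsCyclic (Subgroup.center (SLn n F)) := isCyclic_of_surjective E.symm E.symm.surjective
  obtain ⟨g, hg⟩ := IsCyclic.exists_generator (α := Subgroup.center (SLn n F))
  refine ⟨g.1, g.2, fun z hz => ?_⟩
  obtain ⟨k, hk⟩ := Subgroup.mem_zpowers_iff.1 (hg ⟨z, hz⟩)
  refine ⟨k, ?_⟩
  have := congrArg Subtype.val hk
  simpa using this.symm

/-- Passing to `PSL_n`. -/
theorem psl_of_good {m : ℕ} (hn : 1 ≤ n) (rels : Finset (FreeGroup (Fin m)))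
    (h : GoodPres F n (rels : Set (FreeGroup (Fin m)))) :
    ∃ rels' : Finset (FreeGroup (Fin m)), rels'.card ≤ rels.card + 1 ∧
      Nonempty (PresentedGroup (rels' : Set (FreeGroup (Fin m))) ≃*
        Matrix.ProjectiveSpecialLinearGroup (Fin n) F) := by
  classical
  obtain ⟨f, hf, hb⟩ := h
  set Φ := PresentedGroup.toGroup hf with hΦ
  have hΦmk : ∀ w, Φ (PresentedGroup.mk _ w) = FreeGroup.lift f w := by
    intro w
    have : Φ.comp (PresentedGroup.mk _) = FreeGroup.lift f := by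
      apply FreeGroup.ext_hom
      intro i
      show Φ (PresentedGroup.of i) = _
      rw [PresentedGroup.toGroup.of, FreeGroup.lift_apply_of]
    exact DFunLike.congr_fun this w
  obtain ⟨z₀, hz₀, hgen⟩ := center_gen (n := n) (F := F) hn
  obtain ⟨g₀, hg₀⟩ := hb.2 z₀
  obtain ⟨W, rfl⟩ := PresentedGroup.mk_surjective _ g₀
  rw [hΦmk] at hg₀
  let rels' : Finset (FreeGroup (Fin m)) := insert W rels
  refine ⟨rels', Finset.card_insert_le _ _, ?_⟩
  let N := Subgroup.center (SLn n F)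
  let q : SLn n F →* Matrix.ProjectiveSpecialLinearGroup (Fin n) F := QuotientGroup.mk' N
  have hlift : FreeGroup.lift (fun i => q (f i)) = q.comp (FreeGroup.lift f) := by
    apply FreeGroup.ext_hom
    intro i
    simp
  have hrels' : ∀ r ∈ (rels' : Set (FreeGroup (Fin m))), FreeGroup.lift (fun i => q (f i)) r = 1 := by
    intro r hr
    have hr' : r ∈ rels' := by exact_mod_cast hr
    rw [hlift]
    simp only [rels', Finset.mem_insert] at hr'
    rcases hr' with rfl | hr'
    · show q (FreeGroup.lift f r) = 1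
      rw [hg₀]
      exact (QuotientGroup.eq_one_iff _).2 hz₀
    · show q (FreeGroup.lift f r) = 1
      rw [hf r (by exact_mod_cast hr')]
      simp
  let θ : PresentedGroup (rels' : Set (FreeGroup (Fin m))) →* Matrix.ProjectiveSpecialLinearGroup (Fin n) F :=
    PresentedGroup.toGroup hrels'
  -- the inverse
  have hinc : ∀ r ∈ (rels : Set (FreeGroup (Fin m))),
      FreeGroup.lift (PresentedGroup.of (rels := (rels' : Set (FreeGroup (Fin m))))) r = 1 := by
    intro r hr
    have e : FreeGroup.lift (PresentedGroup.of (rels := (rels' : Set (FreeGroup (Fin m))))) =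
        PresentedGroup.mk _ := by
      apply FreeGroup.ext_hom
      intro i
      simp [PresentedGroup.of]
    rw [e]
    apply PresentedGroup.one_of_mem
    simp only [rels', Finset.coe_insert]
    exact Or.inr hr
  let inc : PresentedGroup (rels : Set (FreeGroup (Fin m))) →* PresentedGroup (rels' : Set (FreeGroup (Fin m))) :=
    PresentedGroup.toGroup hinc
  let Φe := MulEquiv.ofBijective Φ hb
  let ξ : SLn n F →* PresentedGroup (rels' : Set (FreeGroup (Fin m))) := inc.comp Φe.symm.toMonoidHom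
  have hincmk : ∀ w, inc (PresentedGroup.mk _ w) = PresentedGroup.mk _ w := by
    intro w
    have : inc.comp (PresentedGroup.mk _) = PresentedGroup.mk _ := by
      apply FreeGroup.ext_hom
      intro i
      exact PresentedGroup.toGroup.of hinc
    exact DFunLike.congr_fun this w
  have hξ : ∀ w, ξ (FreeGroup.lift f w) = PresentedGroup.mk _ w := by
    intro w
    show inc (Φe.symm (FreeGroup.lift f w)) = _
    have : Φe.symm (FreeGroup.lift f w) = PresentedGroup.mk _ w := by
      rw [MulEquiv.symm_apply_eq]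
      exact (hΦmk w).symm
    rw [this, hincmk]
  have hξz : ξ z₀ = 1 := by
    rw [← hg₀, hξ]
    apply PresentedGroup.one_of_mem
    simp [rels']
  have hN : ∀ c ∈ N, ξ c = 1 := by
    intro c hc
    obtain ⟨k, rfl⟩ := hgen c hc
    rw [map_zpow, hξz, one_zpow]
  let ξ' : Matrix.ProjectiveSpecialLinearGroup (Fin n) F →* PresentedGroup (rels' : Set (FreeGroup (Fin m))) :=
    QuotientGroup.lift N ξ hN
  refine ⟨MonoidHom.toMulEquiv θ ξ' ?_ ?_⟩
  · apply PresentedGroup.ext
    intro i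
    have e1 : θ (PresentedGroup.of i) = q (f i) := PresentedGroup.toGroup.of _
    simp only [MonoidHom.comp_apply, MonoidHom.id_apply]
    rw [e1]
    show ξ (f i) = _
    have := hξ (FreeGroup.of i)
    rw [FreeGroup.lift_apply_of] at this
    exact this
  · apply MonoidHom.ext
    intro x
    obtain ⟨A, rfl⟩ := QuotientGroup.mk'_surjective N x
    obtain ⟨g, rfl⟩ := hb.2 A
    obtain ⟨w, rfl⟩ := PresentedGroup.mk_surjective _ g
    rw [hΦmk]
    simp only [MonoidHom.comp_apply, MonoidHom.id_apply]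
    have e1 : ξ' (QuotientGroup.mk' N (FreeGroup.lift f w)) = PresentedGroup.mk _ w := hξ w
    rw [e1]
    have e2 : θ (PresentedGroup.mk _ w) = FreeGroup.lift (fun i => q (f i)) w := by
      have : θ.comp (PresentedGroup.mk _) = FreeGroup.lift (fun i => q (f i)) := by
        apply FreeGroup.ext_hom
        intro i
        show θ (PresentedGroup.of i) = _
        rw [PresentedGroup.toGroup.of, FreeGroup.lift_apply_of]
      exact DFunLike.congr_fun this w
    rw [e2, hlift]
    rfl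

end PSL

/-- The statement. -/
theorem main88 {F : Type*} [Field F] [Fintype F] (n : ℕ) (hn : 4 ≤ n) :
    (∃ rels : Finset (FreeGroup (Fin 7)), rels.card ≤ 25 ∧ Nonempty (PresentedGroup (↑rels : Set (FreeGroup (Fin 7))) ≃* Matrix.SpecialLinearGroup (Fin n) F)) ∧ (∃ rels : Finset (FreeGroup (Fin 7)), rels.card ≤ 26 ∧ Nonempty (PresentedGroup (↑rels : Set (FreeGroup (Fin 7))) ≃* Matrix.ProjectiveSpecialLinearGroup (Fin n) F)) ∧
    (∃ rels : Finset (FreeGroup (Fin 6)), rels.card ≤ 21 ∧ Nonempty (PresentedGroup (↑rels : Set (FreeGroup (Fin 6))) ≃* Matrix.SpecialLinearGroup (Fin 4) F)) ∧ (∃ rels : Finset (FreeGroup (Fin 6)), rels.card ≤ 22 ∧ Nonempty (PresentedGroup (↑rels : Set (FreeGroup (Fin 6))) ≃* Matrix.SpecialLinearGroup (Fin 5) F)) := by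
  classical
  have hA4 : ∃ R : Finset (FreeGroup (Fin 2)), R.card ≤ 4 ∧
      Nonempty (PresentedGroup (R : Set (FreeGroup (Fin 2))) ≃* Alt 4) :=
    ⟨Pres.SmallCert.relF Pres.SmallData.rlA4, (Pres.SmallCert.card_relF _).trans (by decide), Pres.SmallData.presA4⟩
  have hA5 : ∃ R : Finset (FreeGroup (Fin 2)), R.card ≤ 4 ∧
      Nonempty (PresentedGroup (R : Set (FreeGroup (Fin 2))) ≃* Alt 5) :=
    ⟨Pres.SmallCert.relF Pres.SmallData.rlA5, (Pres.SmallCert.card_relF _).trans (by decide), Pres.SmallData.presA5⟩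
  obtain ⟨R4, hR4, ⟨e4⟩⟩ := hA4
  obtain ⟨R5, hR5, ⟨e5⟩⟩ := hA5
  have hmain : ∃ rels : Finset (FreeGroup (Fin 7)), rels.card ≤ 25 ∧
      GoodPres F n (rels : Set (FreeGroup (Fin 7))) := by
    by_cases h5 : 5 ≤ n
    · obtain ⟨R, hR, ⟨e⟩⟩ := (Pres.Final.all_pres n).2
      obtain ⟨rels, h1, h2⟩ := sl_five (F := F) h5 (m := 7) (by norm_num) R e
      exact ⟨rels, by omega, h2⟩
    · have : n = 4 := by omega
      subst this
      obtain ⟨rels, h1, h2⟩ := sl_four (F := F) (m := 7) (by norm_num) R4 e4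
      exact ⟨rels, by omega, h2⟩
  obtain ⟨rels, h1, h2⟩ := hmain
  refine ⟨⟨rels, h1, h2.iso⟩, ?_, ?_, ?_⟩
  · obtain ⟨rels', h3, h4⟩ := psl_of_good (by omega) rels h2
    exact ⟨rels', by omega, h4⟩
  · obtain ⟨rels', h3, h4⟩ := sl_four (F := F) (m := 6) (by norm_num) R4 e4
    exact ⟨rels', by omega, h4.iso⟩
  · obtain ⟨rels', h3, h4⟩ := sl_five (F := F) (n := 5) (by norm_num) (m := 6) (by norm_num) R5 e5
    exact ⟨rels', by omega, h4.iso⟩

end Cfsg.Agent.Lib.PrsSLn
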