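import Mathlib
import Cfsg.Agent.Lib.PrsSLnJ

/-!
# `SL_3`: the relations between three root groups
-/

set_option autoImplicit false

namespace Cfsg.Agent.Lib.PrsSL3

open Polynomial
open Cfsg.Agent.Lib.PrsSL2 Cfsg.Agent.Lib.PrsSLn
open scoped commutatorElement

section Gp
variable {G : Type*} [Group G]

lemma gpB {a z e : G} (h1 : a * z * a⁻¹ * z⁻¹ = e) (h2 : a⁻¹ * z * a * z⁻¹ = e⁻¹) : Commute a e := by
  have h3 : a⁻¹ * (z * a * z⁻¹) = (z * a * z⁻¹) * a⁻¹ := by
    calc a⁻¹ * (z * a * z⁻¹) = a⁻¹ * z * a * z⁻¹ := by group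
      _ = e⁻¹ := h2
      _ = (a * z * a⁻¹ * z⁻¹)⁻¹ := by rw [h1]
      _ = _ := by group
  have h4 : Commute a (z * a * z⁻¹) := by
    have : Commute a⁻¹ (z * a * z⁻¹) := h3
    simpa using this.inv_left
  have h5 : e = a * (z * a * z⁻¹)⁻¹ := by
    rw [← h1]; group
  rw [h5]
  exact (Commute.refl a).mul_right h4.inv_right

lemma gpC {a z e : G} (h1 : a * z * a⁻¹ * z⁻¹ = e) (h2 : a * z⁻¹ * a⁻¹ * z = e⁻¹) : Commute z e := by
  have h3 : (a * z * a⁻¹)⁻¹ * z = z * (a * z * a⁻¹)⁻¹ := by
    calc (a * z * a⁻¹)⁻¹ * z = a * z⁻¹ * a⁻¹ * z := by group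
      _ = e⁻¹ := h2
      _ = (a * z * a⁻¹ * z⁻¹)⁻¹ := by rw [h1]
      _ = _ := by group
  have h4 : Commute z (a * z * a⁻¹)⁻¹ := h3.symm
  have h5 : e = (a * z * a⁻¹) * z⁻¹ := by
    rw [← h1]
  rw [h5]
  have h6 : Commute z (a * z * a⁻¹) := by simpa using h4.inv_right
  exact h6.mul_right (Commute.refl z).inv_right

end Gp

section Lat
variable {F Γ : Type*} [Field F] [Group Γ] (p : ℕ) [Fact p.Prime] [Algebra (ZMod p) F]

/-- The three root maps and the commutator relation on a lattice. -/
structure Tri (F Γ : Type*) [Field F] [Group Γ] where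
  a : F → Γ
  b : F → Γ
  e : F → Γ
  ha : ∀ s t, a s * a t = a (s + t)
  hb : ∀ s t, b s * b t = b (s + t)
  he : ∀ s t, e s * e t = e (s + t)

namespace Tri
variable {p} (D : Tri F Γ)

lemma zero_of {Y : F → Γ} (h : ∀ s t, Y s * Y t = Y (s + t)) : Y 0 = 1 := by
  have := h 0 0
  rw [add_zero] at this
  exact mul_eq_left.1 this

lemma neg_of {Y : F → Γ} (h : ∀ s t, Y s * Y t = Y (s + t)) (t : F) : Y (-t) = (Y t)⁻¹ := by
  rw [eq_inv_iff_mul_eq_one, h, neg_add_cancel, zero_of h]

/-- The relation. -/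
def P (t s : F) : Prop := ⁅D.a t, D.b s⁆ = D.e (t * s)

theorem lat3 (β : F) (hgen : ∀ t : F, ∃ f : (ZMod p)[X], aeval β f = t) {k : ℕ} (hk : β ^ k = -1)
    (hPa : ∀ t : F, t ≠ 0 → ∀ j : ℕ, D.P t (t * β ^ j))
    (hPb : ∀ t : F, t ≠ 0 → ∀ j : ℕ, D.P (t * β ^ j) t) :
    (∀ t r, Commute (D.a t) (D.e r)) ∧ (∀ s r, Commute (D.b s) (D.e r)) ∧ (∀ t s, D.P t s) := by
  have hB : ∀ t r, Commute (D.a t) (D.e r) := by
    intro t r
    by_cases ht : t = 0
    · subst ht
      rw [zero_of D.ha]
      exact Commute.one_left _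
    have key := add_ext p β hgen (fun r' => D.a t * D.e (t * t * r') * (D.a t)⁻¹) (fun r' => D.e (t * t * r'))
      (fun s u => by
        show D.a t * D.e (t * t * s) * (D.a t)⁻¹ * (D.a t * D.e (t * t * u) * (D.a t)⁻¹) = _
        rw [mul_add, ← D.he]
        group)
      (fun s u => by
        show D.e (t * t * s) * D.e (t * t * u) = _
        rw [D.he, mul_add])
      (fun j => by
        show D.a t * D.e (t * t * β ^ j) * (D.a t)⁻¹ = D.e (t * t * β ^ j)
        have e1 := hPa t ht j
        have e2 := hPa (-t) (neg_ne_zero.2 ht) (j + k)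
        have e3 : -t * β ^ (j + k) = t * β ^ j := by
          rw [pow_add, hk]; ring
        rw [P, e3, neg_of D.ha] at e2
        have e4 : -t * (t * β ^ j) = -(t * (t * β ^ j)) := by ring
        rw [e4, neg_of D.he] at e2
        rw [P, commutatorElement_def] at e1
        rw [commutatorElement_def, inv_inv] at e2
        have := gpB e1 e2
        rw [mul_assoc t t, this.eq]
        group)
      (r / (t * t))
    have e5 : t * t * (r / (t * t)) = r := by
      field_simp
    simp only [e5] at key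
    exact mul_inv_eq_iff_eq_mul.1 key
  have hC : ∀ s r, Commute (D.b s) (D.e r) := by
    intro s r
    by_cases hs : s = 0
    · subst hs
      rw [zero_of D.hb]
      exact Commute.one_left _
    have key := add_ext p β hgen (fun r' => D.b s * D.e (s * s * r') * (D.b s)⁻¹) (fun r' => D.e (s * s * r'))
      (fun x u => by
        show D.b s * D.e (s * s * x) * (D.b s)⁻¹ * (D.b s * D.e (s * s * u) * (D.b s)⁻¹) = _
        rw [mul_add, ← D.he]
        group)
      (fun x u => by
        show D.e (s * s * x) * D.e (s * s * u) = _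
        rw [D.he, mul_add])
      (fun j => by
        show D.b s * D.e (s * s * β ^ j) * (D.b s)⁻¹ = D.e (s * s * β ^ j)
        have e1 := hPb s hs j
        have e2 := hPb (-s) (neg_ne_zero.2 hs) (j + k)
        have e3 : -s * β ^ (j + k) = s * β ^ j := by
          rw [pow_add, hk]; ring
        rw [P, e3, neg_of D.hb] at e2
        have e4 : s * β ^ j * -s = -(s * β ^ j * s) := by ring
        rw [e4, neg_of D.he] at e2
        rw [P, commutatorElement_def] at e1
        rw [commutatorElement_def, inv_inv] at e2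
        have := gpC e1 e2
        have e6 : s * s * β ^ j = s * β ^ j * s := by ring
        rw [e6, this.eq]
        group)
      (r / (s * s))
    have e5 : s * s * (r / (s * s)) = r := by
      field_simp
    simp only [e5] at key
    exact mul_inv_eq_iff_eq_mul.1 key
  refine ⟨hB, hC, ?_⟩
  intro t s
  by_cases ht : t = 0
  · subst ht
    rw [P, zero_of D.ha, zero_mul, zero_of D.he]
    group
  have key := add_ext p β hgen (fun s' => D.a t * D.b (t * s') * (D.a t)⁻¹) (fun s' => D.e (t * (t * s')) * D.b (t * s'))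
    (fun x u => by
      show D.a t * D.b (t * x) * (D.a t)⁻¹ * (D.a t * D.b (t * u) * (D.a t)⁻¹) = _
      rw [mul_add, ← D.hb]
      group)
    (fun x u => by
      show D.e (t * (t * x)) * D.b (t * x) * (D.e (t * (t * u)) * D.b (t * u)) = _
      have := (hC (t * x) (t * (t * u))).eq
      calc D.e (t * (t * x)) * D.b (t * x) * (D.e (t * (t * u)) * D.b (t * u))
          = D.e (t * (t * x)) * (D.b (t * x) * D.e (t * (t * u))) * D.b (t * u) := by group
        _ = D.e (t * (t * x)) * (D.e (t * (t * u)) * D.b (t * x)) * D.b (t * u) := by rw [this]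
        _ = (D.e (t * (t * x)) * D.e (t * (t * u))) * (D.b (t * x) * D.b (t * u)) := by group
        _ = _ := by
            rw [D.he, D.hb]
            congr 2
            · ring
            · ring)
    (fun j => by
      show D.a t * D.b (t * β ^ j) * (D.a t)⁻¹ = D.e (t * (t * β ^ j)) * D.b (t * β ^ j)
      have e1 := hPa t ht j
      rw [P, commutatorElement_def] at e1
      rw [← e1]
      group)
    (s / t)
  have e5 : t * (s / t) = s := by
    field_simp
  simp only [e5] at key
  rw [P, commutatorElement_def, key]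
  group

end Tri

end Lat

end Cfsg.Agent.Lib.PrsSL3
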