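import Mathlib
import Cfsg.Agent.Lib.PrsSL3A

/-!
# `SL_3`: consequences of the relations in a group
-/

set_option autoImplicit false

namespace Cfsg.Agent.Lib.PrsSL3

open Polynomial
open Cfsg.Agent.Lib.PrsSL2 Cfsg.Agent.Lib.PrsSLn
open scoped commutatorElement

/-- braid computation -/
lemma braid_comm {G : Type*} [Group G] {u τ : G} (h : u * cj τ u * u = τ) : Commute (τ * τ) u := by
  set v := cj τ u with hv
  have e1 : τ * u = v * τ := by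
    simp only [hv, cj]; group
  have e2 : v * u * v = u * v * u := by
    have h1 : v * (u * v * u) = (u * v * u) * u := by
      rw [h]
      exact e1.symm
    have h2 : v * u * v * u = u * v * u * u := by
      rw [← h1]; group
    exact mul_right_cancel h2
  have e3 : τ * v = u * τ := by
    rw [← h]
    calc u * v * u * v = u * (v * u * v) := by group
      _ = u * (u * v * u) := by rw [e2]
      _ = _ := by group
  show τ * τ * u = u * (τ * τ)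
  calc τ * τ * u = τ * (τ * u) := by group
    _ = τ * (v * τ) := by rw [e1]
    _ = (τ * v) * τ := by group
    _ = (u * τ) * τ := by rw [e3]
    _ = _ := by group

lemma cj_eq_iff {G : Type*} [Group G] {g a b : G} : cj g a = b ↔ g * a = b * g := by
  simp only [cj, mul_inv_eq_iff_eq_mul]

lemma cj_hom {G : Type*} [Group G] (g : G) : ∃ f : G →* G, ∀ a, f a = cj g a :=
  ⟨(MulAut.conj g).toMonoidHom, fun a => by simp [cj, MulAut.conj_apply]⟩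

lemma cj_pow' {G : Type*} [Group G] (g a : G) (k : ℕ) : cj g (a ^ k) = (cj g a) ^ k := cj_pow g a k

/-- Scaling powers. -/
lemma scale_pow {F G : Type*} [Field F] [Group G] {z : G} {Y : F → G} {α : F}
    (h : ∀ t, cj z (Y t) = Y (α * t)) (k : ℕ) (t : F) : cj (z ^ k) (Y t) = Y (α ^ k * t) := by
  induction k generalizing t with
  | zero => simp [cj_one]
  | succ k ih =>
    rw [pow_succ, ← cj_cj, h, ih]
    congr 1
    ring

/-- The relations in a group. -/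
structure H3 (F Γ : Type*) [Field F] [Group Γ] (p : ℕ) [Fact p.Prime] [Algebra (ZMod p) F] where
  u : Γ
  h : Γ
  τ : Γ
  c : Γ
  ζ : F
  hζ : ζ ≠ 0
  gen : ∀ t : F, t ≠ 0 → ∃ k : ℕ, t = ζ ^ k
  hg : ∀ t : F, ∃ f : (ZMod p)[X], aeval (ζ ^ 2) f = t
  k : ℕ
  hk : ζ ^ k = -1
  r1 : u ^ p = 1
  hc : ∀ i j : ℤ, Commute (vv (cj c⁻¹ h)⁻¹ u i) (vv (cj c⁻¹ h)⁻¹ u j)
  r4 : wP p (cj c⁻¹ h)⁻¹ u (minpoly (ZMod p) ζ) = 1
  r5 : cj h u = vv (cj c⁻¹ h)⁻¹ u (2 : ℕ)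
  rc : cj (cj c h) (vv (cj c⁻¹ h)⁻¹ u (1 : ℕ)) = u
  ra : Commute h (cj c h)
  c3 : c ^ 3 = 1
  link : τ⁻¹ * c * τ * c = (cj c⁻¹ h) ^ k
  r6 : τ⁻¹ * h * τ = h⁻¹
  b1 : u * cj τ u * u = τ

namespace H3

variable {F Γ : Type*} [Field F] [Group Γ] {p : ℕ} [Fact p.Prime] [Algebra (ZMod p) F] (G : H3 F Γ p)

/-- torus element -/
def T23 : Γ := cj G.c G.h
/-- torus element -/
def T31 : Γ := cj G.c⁻¹ G.h
/-- torus element -/
def T : Γ := (G.T31)⁻¹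

lemma cc : G.c * G.c = G.c⁻¹ := by
  rw [eq_inv_iff_mul_eq_one]
  have := G.c3
  rw [pow_succ, pow_two] at this
  exact this

lemma cci : G.c⁻¹ * G.c⁻¹ = G.c := by
  have := G.cc
  rw [← this]
  calc G.c * G.c * (G.c * G.c) = (G.c * G.c * G.c) * G.c := by group
    _ = G.c := by
      have h3 := G.c3
      rw [pow_succ, pow_two] at h3
      rw [h3, one_mul]

lemma c_T23 : cj G.c G.T23 = G.T31 := by
  rw [T23, cj_cj, cc]; rfl
lemma c_T31 : cj G.c G.T31 = G.h := by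
  rw [T31, cj_cj]; simp [cj_one]
lemma ci_h : cj G.c⁻¹ G.h = G.T31 := rfl
lemma ci_T23 : cj G.c⁻¹ G.T23 = G.h := by
  rw [T23, cj_cj]; simp [cj_one]
lemma ci_T31 : cj G.c⁻¹ G.T31 = G.T23 := by
  rw [T31, cj_cj, cci]; rfl

lemma comm_T23_T31 : Commute G.T23 G.T31 := by
  have := comm_cj G.c G.ra
  have e : cj G.c (cj G.c G.h) = G.T31 := G.c_T23
  rw [e] at this
  exact this

lemma comm_T31_h : Commute G.T31 G.h := by
  have := comm_cj G.c⁻¹ G.ra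
  have e : cj G.c⁻¹ (cj G.c G.h) = G.h := G.ci_T23
  rw [e] at this
  exact this

lemma τ_h : cj G.τ G.h = G.h⁻¹ := by
  have h1 := G.r6
  have h2 : G.τ⁻¹ * G.h⁻¹ * G.τ = G.h := by
    have := congrArg (fun a => a⁻¹) h1
    simpa [mul_assoc] using this
  calc cj G.τ G.h = G.τ * (G.τ⁻¹ * G.h⁻¹ * G.τ) * G.τ⁻¹ := by rw [h2]; rfl
    _ = _ := by group

lemma τ_hi : cj G.τ G.h⁻¹ = G.h := by
  rw [cj_inv, τ_h, inv_inv]

/-- The additive data. -/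
structure XD where
  X : F → Γ
  add : ∀ s t, X s * X t = X (s + t)
  conj : ∀ t, cj G.T (X t) = X (G.ζ * t)
  one : X 1 = G.u

variable {G}

lemma exists_XD : Nonempty G.XD := by
  obtain ⟨X, h1, h2, h3⟩ := exists_X p G.T G.u G.ζ (gen_sq p G.ζ G.hg) G.hc G.r1 G.r4
  exact ⟨⟨X, h1, h2, h3⟩⟩

namespace XD
variable (D : G.XD)

lemma zero : D.X 0 = 1 := Tri.zero_of D.add

lemma neg (t : F) : D.X (-t) = (D.X t)⁻¹ := Tri.neg_of D.add t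

lemma X_pow (j : ℕ) : D.X (G.ζ ^ j) = vv G.T G.u j := by
  induction j with
  | zero => simpa [vv_zero] using D.one
  | succ j ih =>
    rw [pow_succ', ← D.conj, ih]
    have := vv_conj1 G.T G.u j
    rw [cj, this]
    push_cast
    rfl

/-- `T₃₁` scales by the inverse. -/
lemma act_T31 (t : F) : cj G.T31 (D.X t) = D.X (G.ζ⁻¹ * t) := by
  have h1 := D.conj (G.ζ⁻¹ * t)
  rw [mul_inv_cancel_left₀ G.hζ] at h1
  rw [← h1, T, cj_cj]
  simp [cj_one]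

lemma act_T31i (t : F) : cj G.T31⁻¹ (D.X t) = D.X (G.ζ * t) := D.conj t

lemma act_h (t : F) : cj G.h (D.X t) = D.X (G.ζ ^ 2 * t) := by
  refine add_ext p G.ζ (gen_sq p G.ζ G.hg) (fun t => cj G.h (D.X t)) (fun t => D.X (G.ζ ^ 2 * t)) ?_ ?_ ?_ t
  · intro s t
    show cj G.h (D.X s) * cj G.h (D.X t) = cj G.h (D.X (s + t))
    rw [← D.add, cj_mul]
  · intro s t
    show D.X (G.ζ ^ 2 * s) * D.X (G.ζ ^ 2 * t) = _
    rw [D.add, mul_add]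
  · intro j
    show cj G.h (D.X (G.ζ ^ j)) = D.X (G.ζ ^ 2 * G.ζ ^ j)
    rw [← pow_add, D.X_pow, add_comm 2 j, D.X_pow]
    have hcT : Commute G.h G.T := G.comm_T31_h.symm.inv_right
    have e : vv G.T G.u ((j + 2 : ℕ) : ℤ) = G.T ^ (j : ℤ) * (vv G.T G.u (2 : ℕ)) * G.T ^ (-(j : ℤ)) := by
      rw [vv_conj]
      congr 1
      push_cast
      ring
    have r5 : cj G.h G.u = vv G.T G.u (2 : ℕ) := G.r5
    rw [e, ← r5]
    have h1 : G.h * (G.T ^ (j : ℤ)) = G.T ^ (j : ℤ) * G.h := (hcT.zpow_right _).eq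
    have h2 : G.T ^ (-(j : ℤ)) * G.h⁻¹ = G.h⁻¹ * G.T ^ (-(j : ℤ)) := ((hcT.zpow_right _).inv_left).symm.eq
    simp only [vv, cj]
    calc G.h * (G.T ^ (j : ℤ) * G.u * G.T ^ (-(j : ℤ))) * G.h⁻¹
        = (G.h * G.T ^ (j : ℤ)) * G.u * (G.T ^ (-(j : ℤ)) * G.h⁻¹) := by group
      _ = (G.T ^ (j : ℤ) * G.h) * G.u * (G.h⁻¹ * G.T ^ (-(j : ℤ))) := by rw [h1, h2]
      _ = _ := by group

lemma act_hi (t : F) : cj G.h⁻¹ (D.X t) = D.X ((G.ζ ^ 2)⁻¹ * t) := by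
  have h1 := D.act_h ((G.ζ ^ 2)⁻¹ * t)
  rw [mul_inv_cancel_left₀ (pow_ne_zero 2 G.hζ)] at h1
  rw [← h1, cj_cj]
  simp [cj_one]

lemma act_T23 (t : F) : cj G.T23 (D.X t) = D.X (G.ζ⁻¹ * t) := by
  have key : ∀ t, cj G.T23 (D.X (G.ζ * t)) = D.X t := by
    intro t
    refine add_ext p G.ζ (gen_sq p G.ζ G.hg) (fun t => cj G.T23 (D.X (G.ζ * t))) (fun t => D.X t) ?_ D.add ?_ t
    · intro s t
      show cj G.T23 (D.X (G.ζ * s)) * cj G.T23 (D.X (G.ζ * t)) = cj G.T23 (D.X (G.ζ * (s + t)))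
      rw [← cj_mul, D.add, mul_add]
    · intro j
      show cj G.T23 (D.X (G.ζ * G.ζ ^ j)) = D.X (G.ζ ^ j)
      rw [← pow_succ', D.X_pow, D.X_pow]
      have hcT : Commute G.T23 G.T := G.comm_T23_T31.inv_right
      have e : vv G.T G.u ((j + 1 : ℕ) : ℤ) = G.T ^ (j : ℤ) * (vv G.T G.u (1 : ℕ)) * G.T ^ (-(j : ℤ)) := by
        rw [vv_conj]
        congr 1
        push_cast
        ring
      have rc : cj G.T23 (vv G.T G.u (1 : ℕ)) = G.u := G.rc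
      rw [e]
      have h1 : G.T23 * (G.T ^ (j : ℤ)) = G.T ^ (j : ℤ) * G.T23 := (hcT.zpow_right _).eq
      have h2 : G.T ^ (-(j : ℤ)) * G.T23⁻¹ = G.T23⁻¹ * G.T ^ (-(j : ℤ)) := ((hcT.zpow_right _).inv_left).symm.eq
      conv_rhs => rw [vv, ← rc]
      simp only [cj]
      calc G.T23 * (G.T ^ (j : ℤ) * vv G.T G.u (1 : ℕ) * G.T ^ (-(j : ℤ))) * G.T23⁻¹
          = (G.T23 * G.T ^ (j : ℤ)) * vv G.T G.u (1 : ℕ) * (G.T ^ (-(j : ℤ)) * G.T23⁻¹) := by group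
        _ = (G.T ^ (j : ℤ) * G.T23) * vv G.T G.u (1 : ℕ) * (G.T23⁻¹ * G.T ^ (-(j : ℤ))) := by rw [h1, h2]
        _ = _ := by group
  have := key (G.ζ⁻¹ * t)
  rwa [mul_inv_cancel_left₀ G.hζ] at this

lemma act_T23i (t : F) : cj G.T23⁻¹ (D.X t) = D.X (G.ζ * t) := by
  have h1 := D.act_T23 (G.ζ * t)
  rw [inv_mul_cancel_left₀ G.hζ] at h1
  rw [← h1, cj_cj]
  simp [cj_one]

lemma X_g (i : ℕ) : D.X ((G.ζ ^ 2) ^ i) = vv G.h G.u i := by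
  induction i with
  | zero => simpa [vv_zero] using D.one
  | succ i ih =>
    rw [pow_succ', ← D.act_h, ih, cj, vv_conj1]
    push_cast
    rfl

lemma comm_X {z : Γ} (hu : Commute z G.u) (hh : Commute z G.h) (t : F) : Commute z (D.X t) := by
  have := add_ext p (G.ζ ^ 2) G.hg (fun t => z * D.X t * z⁻¹) (fun t => D.X t) ?_ D.add ?_ t
  · rw [mul_inv_eq_iff_eq_mul] at this
    exact this
  · intro s t
    rw [← D.add]
    group
  · intro j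
    rw [X_g]
    simp only [vv]
    rw [mul_inv_eq_iff_eq_mul]
    have h1 := (hh.zpow_right (j : ℤ)).eq
    have h2 := (hh.zpow_right (-(j : ℤ))).eq
    calc z * (G.h ^ (j : ℤ) * G.u * G.h ^ (-(j : ℤ))) = (z * G.h ^ (j : ℤ)) * G.u * G.h ^ (-(j : ℤ)) := by group
      _ = G.h ^ (j : ℤ) * (z * G.u) * G.h ^ (-(j : ℤ)) := by rw [h1]; group
      _ = G.h ^ (j : ℤ) * G.u * (z * G.h ^ (-(j : ℤ))) := by rw [hu.eq]; group
      _ = _ := by rw [h2]; group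

lemma ττ_h : Commute (G.τ * G.τ) G.h := by
  have e1 : G.τ * G.h = G.h⁻¹ * G.τ := cj_eq_iff.1 G.τ_h
  have e2 : G.τ * G.h⁻¹ = G.h * G.τ := cj_eq_iff.1 G.τ_hi
  show G.τ * G.τ * G.h = G.h * (G.τ * G.τ)
  calc G.τ * G.τ * G.h = G.τ * (G.τ * G.h) := by group
    _ = G.τ * (G.h⁻¹ * G.τ) := by rw [e1]
    _ = (G.τ * G.h⁻¹) * G.τ := by group
    _ = (G.h * G.τ) * G.τ := by rw [e2]
    _ = _ := by group

lemma ττ_X (t : F) : cj (G.τ * G.τ) (D.X t) = D.X t :=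
  cj_comm (D.comm_X (braid_comm G.b1) ττ_h t)

lemma neg_inv : G.ζ⁻¹ ^ G.k = -1 := by
  rw [inv_pow, G.hk]
  norm_num

/-- The elements `y`. -/
lemma act_y (t : F) : cj (G.T31 ^ G.k) (D.X t) = D.X (-t) := by
  rw [scale_pow D.act_T31, neg_inv]
  simp

lemma act_z (t : F) : cj (G.T23 ^ G.k) (D.X t) = D.X (-t) := by
  rw [scale_pow D.act_T23, neg_inv]
  simp

end XD

section Weyl

variable (G)

lemma τc : G.τ * G.c = G.c⁻¹ * G.τ * G.T31 ^ G.k := by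
  have h1 : G.τ⁻¹ * G.c * G.τ * G.c = G.T31 ^ G.k := G.link
  rw [← h1]
  group

lemma comm_y_h : Commute (G.T31 ^ G.k) G.h := G.comm_T31_h.pow_left _
lemma comm_z_h : Commute (G.T23 ^ G.k) G.h := (G.ra.symm).pow_left _

lemma τ_T23 : cj G.τ G.T23 = G.T31⁻¹ := by
  show cj G.τ (cj G.c G.h) = _
  rw [cj_cj, τc, ← cj_cj, cj_comm (comm_y_h G), ← cj_cj, τ_h, cj_inv]
  rfl

lemma c_y : cj G.c⁻¹ (G.T31 ^ G.k) = G.T23 ^ G.k := by
  rw [cj_pow, ci_T31]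

lemma τci : G.τ * G.c⁻¹ = G.c * G.τ * G.T31 ^ G.k * G.T23 ^ G.k := by
  have e1 : G.T31 ^ G.k * G.c = G.c * G.T23 ^ G.k := by
    rw [← c_y G]
    simp only [cj]
    group
  calc G.τ * G.c⁻¹ = G.τ * (G.c * G.c) := by rw [cc]
    _ = (G.τ * G.c) * G.c := by group
    _ = G.c⁻¹ * G.τ * (G.T31 ^ G.k * G.c) := by rw [τc]; group
    _ = G.c⁻¹ * (G.τ * G.c) * G.T23 ^ G.k := by rw [e1]; group
    _ = (G.c⁻¹ * G.c⁻¹) * G.τ * G.T31 ^ G.k * G.T23 ^ G.k := by rw [τc]; group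
    _ = _ := by rw [cci]

lemma τ_T31 : cj G.τ G.T31 = G.T23⁻¹ := by
  show cj G.τ (cj G.c⁻¹ G.h) = _
  rw [cj_cj, τci, ← cj_cj, cj_comm (comm_z_h G), ← cj_cj, cj_comm (comm_y_h G), ← cj_cj, τ_h, cj_inv]
  rfl

lemma τ_T23i : cj G.τ G.T23⁻¹ = G.T31 := by
  rw [cj_inv, τ_T23, inv_inv]

lemma τ_T31i : cj G.τ G.T31⁻¹ = G.T23 := by
  rw [cj_inv, τ_T31, inv_inv]

end Weyl

namespace XD
variable (D : G.XD)

/-- root elements -/
def x23 (t : F) : Γ := cj G.c (D.X t)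
/-- root elements -/
def x31 (t : F) : Γ := cj G.c⁻¹ (D.X t)
/-- root elements -/
def x21 (t : F) : Γ := cj G.τ (D.X (-t))
/-- root elements -/
def x32 (t : F) : Γ := cj (G.c * G.τ) (D.X (-t))
/-- root elements -/
def x13 (t : F) : Γ := cj (G.c⁻¹ * G.τ) (D.X (-t))

lemma τ_x23 (s : F) : cj G.τ (D.x23 s) = D.x13 s := by
  rw [x23, cj_cj, τc, ← cj_cj, D.act_y]
  rfl

lemma T31_x21 (t : F) : cj G.T31 (D.x21 t) = D.x21 (G.ζ * t) := by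
  have e : G.T31 * G.τ = G.τ * G.T23⁻¹ := (cj_eq_iff.1 (τ_T23i G)).symm
  rw [x21, cj_cj, e, ← cj_cj, D.act_T23i, x21]
  congr 2
  ring

lemma T23_x21 (t : F) : cj G.T23 (D.x21 t) = D.x21 (G.ζ * t) := by
  have e : G.T23 * G.τ = G.τ * G.T31⁻¹ := (cj_eq_iff.1 (τ_T31i G)).symm
  rw [x21, cj_cj, e, ← cj_cj, D.act_T31i, x21]
  congr 2
  ring

lemma τ_x13 (r : F) : cj G.τ (D.x13 r) = D.x23 (-r) := by
  have h1 : cj G.τ (D.X (-r)) = D.x21 r := rfl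
  rw [x13, cj_cj, ← mul_assoc, τci]
  have e : cj (G.c * G.τ * G.T31 ^ G.k * G.T23 ^ G.k * G.τ) (D.X (-r)) =
      cj G.c (cj G.τ (cj (G.T31 ^ G.k) (cj (G.T23 ^ G.k) (cj G.τ (D.X (-r)))))) := by
    simp only [cj_cj]
    congr 1
    group
  rw [e, h1, scale_pow D.T23_x21, G.hk, scale_pow D.T31_x21, G.hk]
  have e2 : (-1 : F) * (-1 * r) = r := by ring
  rw [e2]
  show cj G.c (cj G.τ (cj G.τ (D.X (-r)))) = cj G.c (D.X (-r))
  rw [cj_cj G.τ G.τ, D.ττ_X]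

lemma h_x23 (s : F) : cj G.h (D.x23 s) = D.x23 (G.ζ⁻¹ * s) := by
  have e : G.h * G.c = G.c * G.T31 := (cj_eq_iff.1 (c_T31 G)).symm
  rw [x23, cj_cj, e, ← cj_cj, D.act_T31]
  rfl

lemma h_x13 (r : F) : cj G.h (D.x13 r) = D.x13 (G.ζ * r) := by
  have e1 : G.h * G.c⁻¹ = G.c⁻¹ * G.T23 := (cj_eq_iff.1 (ci_T23 G)).symm
  have e2 : G.T23 * G.τ = G.τ * G.T31⁻¹ := (cj_eq_iff.1 (τ_T31i G)).symm
  have e3 : G.h * (G.c⁻¹ * G.τ) = (G.c⁻¹ * G.τ) * G.T31⁻¹ := by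
    calc G.h * (G.c⁻¹ * G.τ) = (G.h * G.c⁻¹) * G.τ := by group
      _ = G.c⁻¹ * (G.T23 * G.τ) := by rw [e1]; group
      _ = _ := by rw [e2]; group
  rw [x13, cj_cj, e3, ← cj_cj, D.act_T31i, x13]
  congr 2
  ring

lemma T23_x23 (s : F) : cj G.T23 (D.x23 s) = D.x23 (G.ζ ^ 2 * s) := by
  have e : G.T23 * G.c = G.c * G.h := by
    have : cj G.c G.h = G.T23 := rfl
    exact (cj_eq_iff.1 this).symm
  rw [x23, cj_cj, e, ← cj_cj, D.act_h]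
  rfl

lemma T23_x13 (r : F) : cj G.T23 (D.x13 r) = D.x13 (G.ζ * r) := by
  have e1 : G.T23 * G.c⁻¹ = G.c⁻¹ * G.T31 := (cj_eq_iff.1 (ci_T31 G)).symm
  have e2 : G.T31 * G.τ = G.τ * G.T23⁻¹ := (cj_eq_iff.1 (τ_T23i G)).symm
  have e3 : G.T23 * (G.c⁻¹ * G.τ) = (G.c⁻¹ * G.τ) * G.T23⁻¹ := by
    calc G.T23 * (G.c⁻¹ * G.τ) = (G.T23 * G.c⁻¹) * G.τ := by group
      _ = G.c⁻¹ * (G.T31 * G.τ) := by rw [e1]; group
      _ = _ := by rw [e2]; group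
  rw [x13, cj_cj, e3, ← cj_cj, D.act_T23i, x13]
  congr 2
  ring

lemma cj_add {z : Γ} (s t : F) : cj z (D.X s) * cj z (D.X t) = cj z (D.X (s + t)) := by
  rw [← cj_mul, D.add]

/-- The triple of root maps. -/
def tri : Tri F Γ where
  a := D.X
  b := D.x23
  e := D.x13
  ha := D.add
  hb := fun s t => by
    simp only [x23]
    exact D.cj_add s t
  he := fun s t => by
    simp only [x13]
    rw [D.cj_add, neg_add]

lemma comm_conj' (g a b : Γ) : ⁅cj g a, cj g b⁆ = cj g ⁅a, b⁆ := by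
  simp only [cj, commutatorElement_def]
  group

lemma P_h {t s : F} (h : D.tri.P t s) : D.tri.P (G.ζ ^ 2 * t) (G.ζ⁻¹ * s) := by
  have hz := G.hζ
  show ⁅D.X (G.ζ ^ 2 * t), D.x23 (G.ζ⁻¹ * s)⁆ = D.x13 (G.ζ ^ 2 * t * (G.ζ⁻¹ * s))
  have h1 : ⁅D.X t, D.x23 s⁆ = D.x13 (t * s) := h
  rw [← D.act_h, ← D.h_x23, comm_conj', h1, D.h_x13]
  congr 1
  field_simp

lemma P_T {t s : F} (h : D.tri.P t s) : D.tri.P (G.ζ⁻¹ * t) (G.ζ ^ 2 * s) := by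
  have hz := G.hζ
  show ⁅D.X (G.ζ⁻¹ * t), D.x23 (G.ζ ^ 2 * s)⁆ = D.x13 (G.ζ⁻¹ * t * (G.ζ ^ 2 * s))
  have h1 : ⁅D.X t, D.x23 s⁆ = D.x13 (t * s) := h
  rw [← D.act_T23, ← D.T23_x23, comm_conj', h1, D.T23_x13]
  congr 1
  field_simp

lemma P_z {t s : F} (h : D.tri.P t s) : D.tri.P (G.ζ * t) (G.ζ * s) := by
  have hz := G.hζ
  have := D.P_T (D.P_h h)
  have e1 : G.ζ⁻¹ * (G.ζ ^ 2 * t) = G.ζ * t := by field_simp
  have e2 : G.ζ ^ 2 * (G.ζ⁻¹ * s) = G.ζ * s := by field_simp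
  rwa [e1, e2] at this

lemma P_a {t s : F} (h : D.tri.P t s) : D.tri.P (G.ζ ^ 3 * t) s := by
  have hz := G.hζ
  have := D.P_T (D.P_h (D.P_h h))
  have e1 : G.ζ⁻¹ * (G.ζ ^ 2 * (G.ζ ^ 2 * t)) = G.ζ ^ 3 * t := by field_simp
  have e2 : G.ζ ^ 2 * (G.ζ⁻¹ * (G.ζ⁻¹ * s)) = s := by field_simp
  rwa [e1, e2] at this

lemma P_b {t s : F} (h : D.tri.P t s) : D.tri.P t (G.ζ ^ 3 * s) := by
  have hz := G.hζ
  have := D.P_h (D.P_T (D.P_T h))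
  have e1 : G.ζ ^ 2 * (G.ζ⁻¹ * (G.ζ⁻¹ * t)) = t := by field_simp
  have e2 : G.ζ⁻¹ * (G.ζ ^ 2 * (G.ζ ^ 2 * s)) = G.ζ ^ 3 * s := by field_simp
  rwa [e1, e2] at this

lemma P_pow {t s : F} (h : D.tri.P t s) (m : ℕ) : D.tri.P (G.ζ ^ m * t) (G.ζ ^ m * s) := by
  induction m with
  | zero => simpa using h
  | succ m ih =>
    have := D.P_z ih
    rwa [← mul_assoc, ← mul_assoc, ← pow_succ', ] at this

/-- The case `β = ζ³`. -/
lemma lat_cube (hb : D.tri.P 1 1) (hgen : ∀ t : F, ∃ f : (ZMod p)[X], aeval (G.ζ ^ 3) f = t) :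
    (∀ t r, Commute (D.X t) (D.x13 r)) ∧ (∀ s r, Commute (D.x23 s) (D.x13 r)) ∧ (∀ t s, D.tri.P t s) := by
  have hdiag : ∀ t : F, t ≠ 0 → D.tri.P t t := by
    intro t ht
    obtain ⟨m, rfl⟩ := G.gen t ht
    have := D.P_pow hb m
    simpa using this
  refine D.tri.lat3 (p := p) (G.ζ ^ 3) hgen (k := G.k) ?_ ?_ ?_
  · rw [← pow_mul, mul_comm, pow_mul, G.hk]
    ring
  · intro t ht j
    induction j with
    | zero => simpa using hdiag t ht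
    | succ j ih =>
      have := D.P_b ih
      have e : (G.ζ ^ 3) * (t * (G.ζ ^ 3) ^ j) = t * (G.ζ ^ 3) ^ (j + 1) := by ring
      rwa [e] at this
  · intro t ht j
    induction j with
    | zero => simpa using hdiag t ht
    | succ j ih =>
      have := D.P_a ih
      have e : (G.ζ ^ 3) * (t * (G.ζ ^ 3) ^ j) = t * (G.ζ ^ 3) ^ (j + 1) := by ring
      rwa [e] at this

/-- The case of `F₄`: all pairs. -/
lemma lat_all (hb : ∀ t s : F, t ≠ 0 → s ≠ 0 → D.tri.P t s) (hgen : ∀ t : F, ∃ f : (ZMod p)[X], aeval G.ζ f = t) :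
    (∀ t r, Commute (D.X t) (D.x13 r)) ∧ (∀ s r, Commute (D.x23 s) (D.x13 r)) ∧ (∀ t s, D.tri.P t s) := by
  have hz := G.hζ
  refine D.tri.lat3 (p := p) G.ζ hgen (k := G.k) G.hk ?_ ?_
  · intro t ht j
    exact hb _ _ ht (mul_ne_zero ht (pow_ne_zero _ hz))
  · intro t ht j
    exact hb _ _ (mul_ne_zero ht (pow_ne_zero _ hz)) ht

end XD

end H3

end Cfsg.Agent.Lib.PrsSL3
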