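import Mathlib
import Cfsg.Agent.Lib.PrsSL3B

/-!
# `SL_3`: the Steinberg relations and the homomorphism
-/

set_option autoImplicit false

namespace Cfsg.Agent.Lib.PrsSL3

open Polynomial Equiv Equiv.Perm
open Cfsg.Agent.Lib.PrsSL2 Cfsg.Agent.Lib.PrsSLn
open scoped commutatorElement

namespace H3

variable {F Γ : Type*} [Field F] [Group Γ] {p : ℕ} [Fact p.Prime] [Algebra (ZMod p) F] {G : H3 F Γ p}

namespace XD
variable (D : G.XD)

/-- All root elements. -/
def xx (a b : Fin 3) (t : F) : Γ :=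
  (![![1, D.X t, D.x13 t], ![D.x21 t, 1, D.x23 t], ![D.x31 t, D.x32 t, 1]] : Fin 3 → Fin 3 → Γ) a b

lemma rot_X (t : F) : cj G.c (D.X t) = D.x23 t := rfl
lemma rot_x23 (t : F) : cj G.c (D.x23 t) = D.x31 t := by
  rw [x23, cj_cj, cc]; rfl
lemma rot_x31 (t : F) : cj G.c (D.x31 t) = D.X t := by
  rw [x31, cj_cj]; simp [cj_one]
lemma rot_x21 (t : F) : cj G.c (D.x21 t) = D.x32 t := by
  rw [x21, cj_cj]; rfl
lemma rot_x32 (t : F) : cj G.c (D.x32 t) = D.x13 t := by
  rw [x32, cj_cj, ← mul_assoc, cc]; rfl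
lemma rot_x13 (t : F) : cj G.c (D.x13 t) = D.x21 t := by
  rw [x13, cj_cj]
  simp only [mul_inv_cancel_left]
  rfl

lemma add_x23 (s t : F) : D.x23 s * D.x23 t = D.x23 (s + t) := D.tri.hb s t
lemma add_x13 (s t : F) : D.x13 s * D.x13 t = D.x13 (s + t) := D.tri.he s t
lemma add_x31 (s t : F) : D.x31 s * D.x31 t = D.x31 (s + t) := by
  rw [← rot_x23, ← rot_x23, ← rot_x23, ← cj_mul, add_x23]
lemma add_x21 (s t : F) : D.x21 s * D.x21 t = D.x21 (s + t) := by
  rw [← rot_x13, ← rot_x13, ← rot_x13, ← cj_mul, add_x13]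
lemma add_x32 (s t : F) : D.x32 s * D.x32 t = D.x32 (s + t) := by
  rw [← rot_x21, ← rot_x21, ← rot_x21, ← cj_mul, add_x21]

lemma self_comm {Y : F → Γ} (h : ∀ s t, Y s * Y t = Y (s + t)) (s t : F) : Commute (Y s) (Y t) := by
  show _ * _ = _ * _
  rw [h, h, add_comm]

/-- The other commutator relation. -/
lemma Aprime (h : ∀ t s, D.tri.P t s) (t s : F) : ⁅D.x21 t, D.x13 s⁆ = D.x23 (t * s) := by
  have h1 : ⁅D.X (-t), D.x23 s⁆ = D.x13 (-t * s) := h (-t) s
  have h2 := congrArg (cj G.τ) h1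
  rw [← comm_conj', D.τ_x23, D.τ_x13] at h2
  have e : -(-t * s) = t * s := by ring
  rw [e] at h2
  exact h2

/-- The Steinberg relations. -/
def data (hL : (∀ t r, Commute (D.X t) (D.x13 r)) ∧ (∀ s r, Commute (D.x23 s) (D.x13 r)) ∧ (∀ t s, D.tri.P t s)) :
    StN.Data (Fin 3) F Γ where
  x := D.xx
  add := by
    intro i j hij s t
    have hc : ∀ i : Fin 3, i = 0 ∨ i = 1 ∨ i = 2 := by decide
    rcases hc i with rfl | rfl | rfl <;> rcases hc j with rfl | rfl | rfl <;>
      first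
        | exact absurd rfl hij
        | exact D.add s t
        | exact D.add_x23 s t
        | exact D.add_x13 s t
        | exact D.add_x31 s t
        | exact D.add_x21 s t
        | exact D.add_x32 s t
  comm := by
    intro i j k l hij hkl hjk hil t u
    obtain ⟨hB, hC, hA⟩ := hL
    have hc : ∀ i : Fin 3, i = 0 ∨ i = 1 ∨ i = 2 := by decide
    have B1 : ∀ t r, Commute (D.x23 t) (D.x21 r) := by
      intro t r
      have := comm_cj G.c (hB t r)
      rwa [rot_X, rot_x13] at this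
    have B2 : ∀ t r, Commute (D.x31 t) (D.x32 r) := by
      intro t r
      have := comm_cj G.c (B1 t r)
      rwa [rot_x23, rot_x21] at this
    have C1 : ∀ t r, Commute (D.x31 t) (D.x21 r) := by
      intro t r
      have := comm_cj G.c (hC t r)
      rwa [rot_x23, rot_x13] at this
    have C2 : ∀ t r, Commute (D.X t) (D.x32 r) := by
      intro t r
      have := comm_cj G.c (C1 t r)
      rwa [rot_x31, rot_x21] at this
    rcases hc i with rfl | rfl | rfl <;> rcases hc j with rfl | rfl | rfl <;>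
      rcases hc k with rfl | rfl | rfl <;> rcases hc l with rfl | rfl | rfl <;>
      first
        | exact absurd rfl hij
        | exact absurd rfl hkl
        | exact absurd rfl hjk
        | exact absurd rfl hil
        | exact (self_comm D.add t u).eq
        | exact (self_comm D.add_x23 t u).eq
        | exact (self_comm D.add_x13 t u).eq
        | exact (self_comm D.add_x31 t u).eq
        | exact (self_comm D.add_x21 t u).eq
        | exact (self_comm D.add_x32 t u).eq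
        | exact (hB t u).eq
        | exact (hB u t).symm.eq
        | exact (hC t u).eq
        | exact (hC u t).symm.eq
        | exact (B1 t u).eq
        | exact (B1 u t).symm.eq
        | exact (B2 t u).eq
        | exact (B2 u t).symm.eq
        | exact (C1 t u).eq
        | exact (C1 u t).symm.eq
        | exact (C2 t u).eq
        | exact (C2 u t).symm.eq
  comm' := by
    intro i j l hij hjl hil t u
    obtain ⟨hB, hC, hA⟩ := hL
    have hc : ∀ i : Fin 3, i = 0 ∨ i = 1 ∨ i = 2 := by decide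
    have A0 : ∀ t s, ⁅D.X t, D.x23 s⁆ = D.x13 (t * s) := hA
    have A1 : ∀ t s, ⁅D.x23 t, D.x31 s⁆ = D.x21 (t * s) := by
      intro t s
      have := congrArg (cj G.c) (A0 t s)
      rwa [← comm_conj', rot_X, rot_x23, rot_x13] at this
    have A2 : ∀ t s, ⁅D.x31 t, D.X s⁆ = D.x32 (t * s) := by
      intro t s
      have := congrArg (cj G.c) (A1 t s)
      rwa [← comm_conj', rot_x23, rot_x31, rot_x21] at this
    have A3 : ∀ t s, ⁅D.x21 t, D.x13 s⁆ = D.x23 (t * s) := D.Aprime hA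
    have A4 : ∀ t s, ⁅D.x32 t, D.x21 s⁆ = D.x31 (t * s) := by
      intro t s
      have := congrArg (cj G.c) (A3 t s)
      rwa [← comm_conj', rot_x21, rot_x13, rot_x23] at this
    have A5 : ∀ t s, ⁅D.x13 t, D.x32 s⁆ = D.X (t * s) := by
      intro t s
      have := congrArg (cj G.c) (A4 t s)
      rwa [← comm_conj', rot_x32, rot_x21, rot_x31] at this
    rcases hc i with rfl | rfl | rfl <;> rcases hc j with rfl | rfl | rfl <;>
      rcases hc l with rfl | rfl | rfl <;>
      first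
        | exact absurd rfl hij
        | exact absurd rfl hjl
        | exact absurd rfl hil
        | exact A0 t u
        | exact A1 t u
        | exact A2 t u
        | exact A3 t u
        | exact A4 t u
        | exact A5 t u

end XD

/-- The hypotheses on the base commutator relation. -/
def BaseP (G : H3 F Γ p) : Prop :=
  (⁅G.u, cj G.c G.u⁆ = cj (G.c⁻¹ * G.τ) G.u⁻¹ ∧ ∀ t : F, ∃ f : (ZMod p)[X], aeval (G.ζ ^ 3) f = t) ∨
  ((∀ i : ℕ, i < 3 → ⁅G.u, cj G.c (vv G.T G.u i)⁆ = cj (G.c⁻¹ * G.τ) (vv G.T G.u i)⁻¹) ∧ G.ζ ^ 3 = 1 ∧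
    ∀ t : F, ∃ f : (ZMod p)[X], aeval G.ζ f = t)

namespace XD
variable (D : G.XD)

lemma P_one_pow (i : ℕ) (h : ⁅G.u, cj G.c (vv G.T G.u i)⁆ = cj (G.c⁻¹ * G.τ) (vv G.T G.u i)⁻¹) :
    D.tri.P 1 (G.ζ ^ i) := by
  show ⁅D.X 1, D.x23 (G.ζ ^ i)⁆ = D.x13 (1 * G.ζ ^ i)
  rw [D.one, one_mul, x23, x13, D.neg, D.X_pow]
  exact h

lemma hLat (hP : G.BaseP) :
    (∀ t r, Commute (D.X t) (D.x13 r)) ∧ (∀ s r, Commute (D.x23 s) (D.x13 r)) ∧ (∀ t s, D.tri.P t s) := by
  rcases hP with ⟨h1, h2⟩ | ⟨h1, h2, h3⟩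
  · refine D.lat_cube ?_ h2
    have := D.P_one_pow 0 (by simpa [vv_zero] using h1)
    simpa using this
  · refine D.lat_all ?_ h3
    intro t s ht hs
    obtain ⟨m, rfl⟩ := G.gen t ht
    obtain ⟨a, ha⟩ := G.gen (s / G.ζ ^ m) (div_ne_zero hs ht)
    have hz : G.ζ ^ a = G.ζ ^ (a % 3) := by
      conv_lhs => rw [← Nat.div_add_mod a 3, pow_add, pow_mul, h2, one_pow, one_mul]
    have h4 := D.P_pow (D.P_one_pow (a % 3) (h1 _ (Nat.mod_lt _ (by norm_num)))) m
    rw [← hz, ← ha, mul_one, mul_div_cancel₀ _ ht] at h4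
    exact h4

end XD

/-- The rotation. -/
def c₀ : Alt 3 := evn (swap 0 1 * swap 1 2) (by decide)

lemma c₀_0 : c₀.1 0 = 1 := by decide
lemma c₀_1 : c₀.1 1 = 2 := by decide
lemma c₀_2 : c₀.1 2 = 0 := by decide

/-- indices -/
lemma h01 : (0 : Fin 3) ≠ 1 := by decide
lemma h10 : (1 : Fin 3) ≠ 0 := by decide

theorem exists_psi3 [Finite F] (G : H3 F Γ p) (hP : G.BaseP) :
    ∃ ψ : SLn 3 F →* Γ, (∀ j : ℕ, ψ (tv h01 (G.ζ ^ j)) = vv G.T G.u j) ∧
      (∀ j : ℕ, ψ (tv h10 (-G.ζ ^ j)) = cj G.τ (vv G.T G.u j)) ∧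
      ∀ g : SLn 3 F, cj G.c (ψ g) = ψ (cj (Pm c₀) g) := by
  obtain ⟨D⟩ := exists_XD (G := G)
  obtain ⟨ψ, hψ⟩ := exists_hom_StN (n := 3) (by norm_num) (D.data (D.hLat hP))
  have hψ' : ∀ (i j : Fin 3) (h : i ≠ j) (t : F), ψ (tv h t) = D.xx i j t := hψ
  refine ⟨ψ, ?_, ?_, ?_⟩
  · intro j
    rw [hψ', ← D.X_pow]
    rfl
  · intro j
    rw [hψ', ← D.X_pow]
    show D.x21 _ = _
    rw [XD.x21, neg_neg]
  · intro g
    have hg : g ∈ (⊤ : Subgroup (SLn 3 F)) := Subgroup.mem_top g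
    rw [← ClassicalSL.closure_transvection_eq_top] at hg
    induction hg using Subgroup.closure_induction with
    | mem x hx =>
      obtain ⟨i, j, h, c, rfl⟩ := hx
      have hrot : ∀ (a b : Fin 3) (hab : a ≠ b) (t : F),
          cj (Pm c₀) (tv hab t) = tv (fun e => hab (c₀.1.injective e) : c₀.1 a ≠ c₀.1 b) t :=
        fun a b hab t => Pm_tv c₀ hab t
      show cj G.c (ψ (tv h c)) = ψ (cj (Pm c₀) (tv h c))
      rw [hrot, hψ', hψ']
      have hc : ∀ i : Fin 3, i = 0 ∨ i = 1 ∨ i = 2 := by decide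
      rcases hc i with rfl | rfl | rfl <;> rcases hc j with rfl | rfl | rfl <;>
        first
          | exact absurd rfl h
          | exact D.rot_X c
          | exact D.rot_x23 c
          | exact D.rot_x31 c
          | exact D.rot_x21 c
          | exact D.rot_x32 c
          | exact D.rot_x13 c
    | one => simp [cj]
    | mul x y _ _ hx hy =>
      rw [map_mul, cj_mul, hx, hy, cj_mul, map_mul]
    | inv x _ hx =>
      rw [map_inv, cj_inv, hx, cj_inv, map_inv]

end H3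

end Cfsg.Agent.Lib.PrsSL3
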