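import Mathlib
import Cfsg.Agent.Lib.PrsSL3C

/-!
# `SL_3`: matrix computations
-/

set_option autoImplicit false

namespace Cfsg.Agent.Lib.PrsSL3

open Polynomial Equiv Equiv.Perm Matrix
open Cfsg.Agent.Lib.PrsSL2 Cfsg.Agent.Lib.PrsSLn
open scoped commutatorElement
open H3 (c₀ c₀_0 c₀_1 c₀_2 h01 h10)

section Mat
variable {F : Type*} [Field F]

lemma h12 : (1 : Fin 3) ≠ 2 := by decide
lemma h21 : (2 : Fin 3) ≠ 1 := by decide
lemma h02 : (0 : Fin 3) ≠ 2 := by decide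
lemma h20 : (2 : Fin 3) ≠ 0 := by decide

/-- Weyl element -/
def τM (F : Type*) [Field F] : SLn 3 F := tv h01 1 * tv h10 (-1) * tv h01 1

lemma τM_act (v : Fin 3 → F) (a : Fin 3) :
    ((τM F).1 *ᵥ v) a = if a = 0 then v 1 else if a = 1 then -v 0 else v a := by
  simp only [τM, act_mul, tv_act]
  have hc : ∀ i : Fin 3, i = 0 ∨ i = 1 ∨ i = 2 := by decide
  rcases hc a with rfl | rfl | rfl <;> simp [h10, h01]
  all_goals ring

lemma c₀_inv (a : Fin 3) : (c₀.1)⁻¹ a = a + 2 := by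
  revert a
  decide

lemma τM_tv (s : F) : cj (τM F) (tv h01 s) = tv h10 (-s) := by
  apply conj_of_mul
  apply sl_ext
  intro v a
  simp only [act_mul, τM_act, tv_act]
  have hc : ∀ i : Fin 3, i = 0 ∨ i = 1 ∨ i = 2 := by decide
  rcases hc a with rfl | rfl | rfl <;> simp [h10, h01]
  · ring

lemma dg_mul {i j : Fin 3} (h : i ≠ j) (d e : F) (hd : d ≠ 0) (he : e ≠ 0) :
    dg h d hd * dg h e he = dg h (d * e) (mul_ne_zero hd he) := by
  apply sl_ext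
  intro v a
  rw [act_mul, dg_act, dg_act, dg_act]
  by_cases h1 : a = i
  · simp [h1]
    ring
  · by_cases h2 : a = j
    · subst h2
      simp [h1]
      field_simp
    · simp [h1, h2]

lemma dg_pow {i j : Fin 3} (h : i ≠ j) (d : F) (hd : d ≠ 0) (k : ℕ) :
    (dg h d hd) ^ k = dg h (d ^ k) (pow_ne_zero k hd) := by
  induction k with
  | zero =>
    apply sl_ext
    intro v a
    rw [pow_zero, dg_act]
    simp
  | succ k ih =>
    rw [pow_succ, ih, dg_mul]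
    simp only [pow_succ]

lemma dg_tv_snd {i j k : Fin 3} (hjk : j ≠ k) (hij : i ≠ j) (hik : i ≠ k) (d : F) (hd : d ≠ 0) (t : F) :
    cj (dg hjk d hd) (tv hij t) = tv hij (d⁻¹ * t) := by
  apply conj_of_mul
  apply sl_ext
  intro v a
  rw [act_mul, act_mul, dg_act, tv_act, tv_act, dg_act, dg_act]
  by_cases h1 : a = i
  · subst h1
    simp [hij, hik]
    field_simp
  · simp [h1]

/-- The torus element. -/
lemma T_eval (ζ : F) (hζ : ζ ≠ 0) : (cj (Pm c₀)⁻¹ (dg h01 ζ hζ))⁻¹ = dg h02 ζ hζ := by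
  have e1 : cj (Pm c₀)⁻¹ (dg h01 ζ hζ) = dg h20 ζ hζ := by
    rw [← map_inv]
    refine Pm_dg2 c₀⁻¹ _ _ ?_ ?_ ζ hζ
    · decide
    · decide
  rw [e1, ← dg_inv]

lemma vv_eval (ζ : F) (hζ : ζ ≠ 0) (j : ℕ) :
    vv (dg h02 ζ hζ) (tv h01 1) j = tv h01 (ζ ^ j) := by
  induction j with
  | zero => simp [vv_zero]
  | succ j ih =>
    have := vv_conj1 (dg h02 ζ hζ) (tv h01 1) j
    have e : ((j + 1 : ℕ) : ℤ) = (j : ℤ) + 1 := by push_cast; rfl
    rw [e, ← this, ih]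
    have h2 := dg_tv_fst h02 h01 h12 ζ hζ (ζ ^ j)
    rw [cj] at h2
    rw [h2, pow_succ']

/-- The Weyl relation. -/
lemma M3 (ζ : F) (hζ : ζ ≠ 0) :
    tv h01 (-ζ) * tv h10 ζ⁻¹ * tv h01 (-ζ) * tv h12 (-1) * tv h21 1 * tv h12 (-1) =
      dg h01 ζ hζ * Pm c₀ := by
  apply sl_ext
  intro v a
  simp only [act_mul, tv_act, dg_act, Pm_act, c₀_inv]
  have hc : ∀ i : Fin 3, i = 0 ∨ i = 1 ∨ i = 2 := by decide
  rcases hc a with rfl | rfl | rfl
  · simp [h01, h02, h12, h10, h20, h21]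
    try field_simp
    try ring
  · simp [h01, h02, h12, h10, h20, h21]
    try field_simp
    try ring
  · simp [h01, h02, h12, h10, h20, h21]
    try field_simp
    try ring

/-- The link. -/
lemma link_M (ζ : F) (hζ : ζ ≠ 0) {k : ℕ} (hk : ζ ^ k = -1) :
    (τM F)⁻¹ * Pm c₀ * τM F * Pm c₀ = (cj (Pm c₀)⁻¹ (dg h01 ζ hζ)) ^ k := by
  have e1 : cj (Pm c₀)⁻¹ (dg h01 ζ hζ) = dg h20 ζ hζ := by
    rw [← map_inv]
    refine Pm_dg2 c₀⁻¹ _ _ ?_ ?_ ζ hζ
    · decide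
    · decide
  rw [e1, dg_pow]
  have e2 : Pm c₀ * τM F * Pm c₀ = τM F * dg h20 (ζ ^ k) (pow_ne_zero k hζ) := by
    apply sl_ext
    intro v a
    simp only [act_mul, τM_act, dg_act, Pm_act, c₀_inv]
    rw [hk]
    have hc : ∀ i : Fin 3, i = 0 ∨ i = 1 ∨ i = 2 := by decide
    rcases hc a with rfl | rfl | rfl
    · simp [h01, h02, h12, h10, h20, h21]
    · simp [h01, h02, h12, h10, h20, h21]
    · simp [h01, h02, h12, h10, h20, h21]
  calc (τM F)⁻¹ * Pm c₀ * τM F * Pm c₀ = (τM F)⁻¹ * (Pm c₀ * τM F * Pm c₀) := by group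
    _ = _ := by rw [e2]; group

lemma r6_M (ζ : F) (hζ : ζ ≠ 0) : (τM F)⁻¹ * dg h01 ζ hζ * τM F = (dg h01 ζ hζ)⁻¹ := by
  have e2 : dg h01 ζ hζ * τM F = τM F * (dg h01 ζ hζ)⁻¹ := by
    rw [← dg_inv]
    apply sl_ext
    intro v a
    simp only [act_mul, τM_act, dg_act]
    have hc : ∀ i : Fin 3, i = 0 ∨ i = 1 ∨ i = 2 := by decide
    rcases hc a with rfl | rfl | rfl
    · simp [h01, h02, h12, h10, h20, h21]
    · simp [h01, h02, h12, h10, h20, h21]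
    · simp [h01, h02, h12, h10, h20, h21]
  rw [mul_assoc, e2]
  group

end Mat

end Cfsg.Agent.Lib.PrsSL3
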