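import Mathlib
import Cfsg.Agent.Lib.PrsSL3D

/-!
# `SL_3`: the isomorphism
-/

set_option autoImplicit false

namespace Cfsg.Agent.Lib.PrsSL3

open Polynomial Equiv Equiv.Perm Matrix
open Cfsg.Agent.Lib.PrsSL2 Cfsg.Agent.Lib.PrsSLn
open scoped commutatorElement
open H3 (c₀ c₀_0 c₀_1 c₀_2 h01 h10)

section Bij
variable {F Γ : Type*} [Field F] [Group Γ] {p : ℕ} [Fact p.Prime] [Algebra (ZMod p) F]

theorem H3.bij3 [Finite F] (G : H3 F Γ p) (hP : G.BaseP) (φ : Γ →* SLn 3 F)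
    (hφu : φ G.u = tv h01 1) (hφh : φ G.h = dg h01 G.ζ G.hζ) (hφτ : φ G.τ = τM F) (hφc : φ G.c = Pm c₀)
    (hgen : ∀ K : Subgroup Γ, G.u ∈ K → G.h ∈ K → G.τ ∈ K → G.c ∈ K → K = ⊤)
    {k₁ k₃ : ℕ}
    (hM : vv G.T G.u k₁ * cj G.τ (vv G.T G.u k₃) * vv G.T G.u k₁ * cj G.c (vv G.T G.u G.k) *
      cj (G.c * G.τ) (vv G.T G.u G.k) * cj G.c (vv G.T G.u G.k) = G.h * G.c) :
    Function.Bijective φ := by
  classical
  obtain ⟨ψ, hψ1, hψ2, hψ3⟩ := G.exists_psi3 hP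
  have cjφ : ∀ a b : Γ, φ (cj a b) = cj (φ a) (φ b) := fun a b => map_cj φ a b
  have hφT : φ G.T = dg h02 G.ζ G.hζ := by
    show φ (cj G.c⁻¹ G.h)⁻¹ = _
    rw [map_inv, cjφ, map_inv, hφc, hφh, T_eval]
  have hA0 : ∀ j : ℕ, φ (ψ (tv h01 (G.ζ ^ j))) = tv h01 (G.ζ ^ j) := by
    intro j
    rw [hψ1, map_vv, hφT, hφu, vv_eval]
  have hgz := gen_sq p G.ζ G.hg
  have hA1 : ∀ t : F, φ (ψ (tv h01 t)) = tv h01 t := by
    intro t
    refine add_ext p G.ζ hgz (fun t => φ (ψ (tv h01 t))) (fun t => tv h01 t) ?_ ?_ hA0 t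
    · intro s t
      rw [← map_mul, ← map_mul, tv_add]
    · intro s t
      exact tv_add _ _ _
  have hB0 : ∀ j : ℕ, φ (ψ (tv h10 (-G.ζ ^ j))) = tv h10 (-G.ζ ^ j) := by
    intro j
    rw [hψ2, cjφ, hφτ, map_vv, hφT, hφu, vv_eval, τM_tv]
  have hB1 : ∀ t : F, φ (ψ (tv h10 t)) = tv h10 t := by
    intro t
    have := add_ext p G.ζ hgz (fun t => φ (ψ (tv h10 (-t)))) (fun t => tv h10 (-t)) ?_ ?_ hB0 (-t)
    · simpa using this
    · intro s t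
      rw [← map_mul, ← map_mul, tv_add, neg_add]
    · intro s t
      rw [tv_add, neg_add]
  have hA2 : ∀ g : SLn 3 F, φ (ψ g) = g → φ (ψ (cj (Pm c₀) g)) = cj (Pm c₀) g := by
    intro g hg
    rw [← hψ3, cjφ, hφc, hg]
  have hA12 : ∀ t : F, φ (ψ (tv h12 t)) = tv h12 t := by
    intro t
    rw [← Pm_tv2 c₀ h01 h12 c₀_0 c₀_1 t]
    exact hA2 _ (hA1 t)
  have hA20 : ∀ t : F, φ (ψ (tv h20 t)) = tv h20 t := by
    intro t
    rw [← Pm_tv2 c₀ h12 h20 c₀_1 c₀_2 t]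
    exact hA2 _ (hA12 t)
  have hA21 : ∀ t : F, φ (ψ (tv h21 t)) = tv h21 t := by
    intro t
    rw [← Pm_tv2 c₀ h10 h21 c₀_1 c₀_0 t]
    exact hA2 _ (hB1 t)
  have hA02 : ∀ t : F, φ (ψ (tv h02 t)) = tv h02 t := by
    intro t
    rw [← Pm_tv2 c₀ h21 h02 c₀_2 c₀_1 t]
    exact hA2 _ (hA21 t)
  have hA : ∀ g : SLn 3 F, φ (ψ g) = g := by
    intro g
    have hg : g ∈ (⊤ : Subgroup (SLn 3 F)) := Subgroup.mem_top g
    rw [← ClassicalSL.closure_transvection_eq_top] at hg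
    induction hg using Subgroup.closure_induction with
    | mem x hx =>
      obtain ⟨i, j, h, c, rfl⟩ := hx
      show φ (ψ (tv h c)) = tv h c
      have hc : ∀ i j : Fin 3, i ≠ j → (i = 0 ∧ j = 1) ∨ (i = 1 ∧ j = 0) ∨ (i = 1 ∧ j = 2) ∨
          (i = 2 ∧ j = 1) ∨ (i = 2 ∧ j = 0) ∨ (i = 0 ∧ j = 2) := by decide
      rcases hc i j h with ⟨rfl, rfl⟩ | ⟨rfl, rfl⟩ | ⟨rfl, rfl⟩ | ⟨rfl, rfl⟩ | ⟨rfl, rfl⟩ | ⟨rfl, rfl⟩
      · exact hA1 c
      · exact hB1 c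
      · exact hA12 c
      · exact hA21 c
      · exact hA20 c
      · exact hA02 c
    | one => simp
    | mul x y _ _ hx hy => rw [map_mul, map_mul, hx, hy]
    | inv x _ hx => rw [map_inv, map_inv, hx]
  -- Step B
  let K : Subgroup Γ := ψ.range
  have hKψ : ∀ g, ψ g ∈ K := fun g => ⟨g, rfl⟩
  have hKcj : ∀ {a : Γ}, a ∈ K → cj G.c a ∈ K := by
    rintro _ ⟨g, rfl⟩
    rw [hψ3]
    exact hKψ _
  have hKci : ∀ {a : Γ}, a ∈ K → cj G.c⁻¹ a ∈ K := by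
    intro a ha
    have e : cj G.c⁻¹ a = cj G.c (cj G.c a) := by
      rw [← G.cc]
      simp [cj, mul_assoc]
    rw [e]
    exact hKcj (hKcj ha)
  have hKU : ∀ j : ℕ, vv G.T G.u j ∈ K := by
    intro j
    rw [← hψ1]
    exact hKψ _
  have hKV : ∀ j : ℕ, cj G.τ (vv G.T G.u j) ∈ K := by
    intro j
    rw [← hψ2]
    exact hKψ _
  have hKu : G.u ∈ K := by
    have := hKU 0
    simpa [vv_zero] using this
  have hKτ : G.τ ∈ K := by
    rw [← G.b1]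
    have := hKV 0
    have e : cj G.τ G.u ∈ K := by simpa [vv_zero] using this
    exact K.mul_mem (K.mul_mem hKu e) hKu
  have hKhc : G.h * G.c ∈ K := by
    rw [← hM]
    have e : ∀ j : ℕ, cj (G.c * G.τ) (vv G.T G.u j) ∈ K := by
      intro j
      have : cj (G.c * G.τ) (vv G.T G.u j) = cj G.c (cj G.τ (vv G.T G.u j)) := by
        simp [cj, mul_assoc]
      rw [this]
      exact hKcj (hKV j)
    exact K.mul_mem (K.mul_mem (K.mul_mem (K.mul_mem (K.mul_mem (hKU _) (hKV _)) (hKU _))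
      (hKcj (hKU _))) (e _)) (hKcj (hKU _))
  have hKc : G.c ∈ K := by
    have h1 : G.τ⁻¹ * (G.h * G.c) * cj G.c⁻¹ G.τ ∈ K := K.mul_mem (K.mul_mem (K.inv_mem hKτ) hKhc) (hKci hKτ)
    have h2 : G.τ⁻¹ * (G.h * G.c) * cj G.c⁻¹ G.τ = cj G.c (G.h * G.c)⁻¹ * (G.c * G.c) := by
      have h3 : G.τ⁻¹ * G.h * G.τ = G.h⁻¹ := G.r6
      simp only [cj, inv_inv]
      calc G.τ⁻¹ * (G.h * G.c) * (G.c⁻¹ * G.τ * G.c) = (G.τ⁻¹ * G.h * G.τ) * G.c := by group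
        _ = G.h⁻¹ * G.c := by rw [h3]
        _ = _ := by group
    rw [h2] at h1
    have h4 : G.c * G.c ∈ K := by
      have := K.mul_mem (K.inv_mem (hKcj (K.inv_mem hKhc))) h1
      simpa using this
    rw [G.cc] at h4
    simpa using K.inv_mem h4
  have hKh : G.h ∈ K := by
    have := K.mul_mem hKhc (K.inv_mem hKc)
    simpa using this
  have hK : K = ⊤ := hgen K hKu hKh hKτ hKc
  have hψs : Function.Surjective ψ := MonoidHom.range_eq_top.1 hK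
  have hinj : Function.Injective φ := by
    intro x y hxy
    obtain ⟨a, rfl⟩ := hψs x
    obtain ⟨b, rfl⟩ := hψs y
    rw [hA, hA] at hxy
    rw [hxy]
  exact ⟨hinj, fun g => ⟨ψ g, hA g⟩⟩

end Bij

end Cfsg.Agent.Lib.PrsSL3
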