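import Mathlib
import Cfsg.Agent.Lib.PrsSL3E

/-!
# `SL_3`: the relators
-/

set_option autoImplicit false

namespace Cfsg.Agent.Lib.PrsSL3

open Polynomial Equiv Equiv.Perm Matrix
open Cfsg.Agent.Lib.PrsSL2 Cfsg.Agent.Lib.PrsSLn
open scoped commutatorElement
open H3 (c₀ c₀_0 c₀_1 c₀_2 h01 h10)

section Words
variable {G : Type*} [Group G]

/-- torus element -/
def rT (h c : G) : G := (cj c⁻¹ h)⁻¹

/-- conjugates of `u` -/
def rU (u h c : G) (j : ℕ) : G := vv (rT h c) u j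

variable (p : ℕ) [Fact p.Prime]

/-- The main relators. -/
def rCore3 (mp : (ZMod p)[X]) (k k₁ k₃ : ℕ) (u h τ c : G) : List G :=
  [ u ^ p,
    wP p (rT h c) u mp,
    cj h u * (rU u h c 2)⁻¹,
    cj (cj c h) (rU u h c 1) * u⁻¹,
    ⁅h, cj c h⁆,
    c ^ 3,
    τ⁻¹ * c * τ * c * ((cj c⁻¹ h) ^ k)⁻¹,
    τ⁻¹ * h * τ * h,
    u * cj τ u * u * τ⁻¹,
    ⁅u, cj c u⁆ * (cj (c⁻¹ * τ) u⁻¹)⁻¹,
    rU u h c k₁ * cj τ (rU u h c k₃) * rU u h c k₁ * cj c (rU u h c k) * cj (c * τ) (rU u h c k) *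
      cj c (rU u h c k) * (h * c)⁻¹,
    ⁅rU u h c 0, rU u h c 1⁆ ]

/-- Extra relators (`big`: additive structure; `four`: the case `q = 4`). -/
def rExtra3 (m : ℕ) (big four : Bool) (u h τ c : G) : List G :=
  if big then [rU u h c 0 * rU u h c 1 * (rU u h c m)⁻¹]
  else if four then
    [⁅u, cj c (rU u h c 1)⁆ * (cj (c⁻¹ * τ) (rU u h c 1)⁻¹)⁻¹,
     ⁅u, cj c (rU u h c 2)⁆ * (cj (c⁻¹ * τ) (rU u h c 2)⁻¹)⁻¹]
  else []

/-- All relators -/
def rAll3 (mp : (ZMod p)[X]) (k k₁ k₃ m : ℕ) (big four : Bool) (u h τ c : G) : List G :=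
  rCore3 p mp k k₁ k₃ u h τ c ++ rExtra3 m big four u h τ c

lemma rAll3_length (mp : (ZMod p)[X]) (k k₁ k₃ m : ℕ) (big four : Bool) (u h τ c : G) :
    (rAll3 p mp k k₁ k₃ m big four u h τ c).length ≤ 14 := by
  cases big <;> cases four <;> simp [rAll3, rCore3, rExtra3]

lemma map_rT {G' : Type*} [Group G'] (π : G →* G') (h c : G) : π (rT h c) = rT (π h) (π c) := by
  simp [rT, map_cj]

lemma map_rU {G' : Type*} [Group G'] (π : G →* G') (u h c : G) (j : ℕ) :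
    π (rU u h c j) = rU (π u) (π h) (π c) j := by
  simp only [rU, map_vv, map_rT]

lemma map_rAll3 {G' : Type*} [Group G'] (π : G →* G') (mp : (ZMod p)[X]) (k k₁ k₃ m : ℕ) (big four : Bool)
    (u h τ c : G) :
    (rAll3 p mp k k₁ k₃ m big four u h τ c).map π = rAll3 p mp k k₁ k₃ m big four (π u) (π h) (π τ) (π c) := by
  cases big <;> cases four <;>
    simp [rAll3, rCore3, rExtra3, map_cj, map_rU, map_rT, map_wP, map_commutatorElement]

end Words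

section Eval
variable {F : Type*} [Field F]

lemma rT_eval (ζ : F) (hζ : ζ ≠ 0) : rT (dg h01 ζ hζ) (Pm c₀) = dg h02 ζ hζ := T_eval ζ hζ

lemma rU_eval (ζ : F) (hζ : ζ ≠ 0) (j : ℕ) :
    rU (tv h01 1) (dg h01 ζ hζ) (Pm c₀) j = tv h01 (ζ ^ j) := by
  rw [rU, rT_eval, vv_eval]

lemma τ_01 (s : F) : cj (τM F) (tv h01 s) = tv h10 (-s) := τM_tv s

lemma tv_inv' {n : ℕ} {i j : Fin n} (h : i ≠ j) (t : F) : (tv h t)⁻¹ = tv h (-t) := by
  rw [inv_eq_iff_mul_eq_one, tv_add, add_neg_cancel, tv_zero]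

lemma rot_02 (s : F) : cj ((Pm c₀)⁻¹ * τM F) (tv h01 s) = tv h02 (-s) := by
  have e : cj ((Pm c₀)⁻¹ * τM F) (tv h01 s) = cj (Pm c₀)⁻¹ (cj (τM F) (tv h01 s)) := by
    simp [cj, mul_assoc]
  rw [e, τM_tv, ← map_inv]
  exact Pm_tv2 c₀⁻¹ _ _ (by decide) (by decide) _

lemma comm_eval (s : F) :
    ⁅tv h01 (1 : F), cj (Pm c₀) (tv h01 s)⁆ * (cj ((Pm c₀)⁻¹ * τM F) (tv h01 s)⁻¹)⁻¹ = 1 := by
  rw [Pm_tv2 c₀ h01 h12 c₀_0 c₀_1 s, tv_commutator h01 h12 h02, tv_inv', rot_02]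
  simp

variable (p : ℕ) [Fact p.Prime] [Algebra (ZMod p) F]

lemma c₀_cube : (c₀ : Alt 3) ^ 3 = 1 := by decide

theorem eval_rAll3 [CharP F p] (ζ : F) (hζ : ζ ≠ 0) {k k₁ k₃ m : ℕ} {big four : Bool}
    (hk : ζ ^ k = -1) (hk₁ : ζ ^ k₁ = -ζ) (hk₃ : ζ ^ k₃ = -ζ⁻¹) (hm : big = true → ζ ^ m = 1 + ζ) :
    ∀ r ∈ rAll3 p (minpoly (ZMod p) ζ) k k₁ k₃ m big four (tv h01 (1 : F)) (dg h01 ζ hζ) (τM F) (Pm c₀), r = 1 := by
  have hU := rU_eval ζ hζ
  have hT := rT_eval ζ hζ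
  have e12 : ∀ t : F, cj (Pm c₀) (tv h01 t) = tv h12 t := fun t => Pm_tv2 c₀ h01 h12 c₀_0 c₀_1 t
  have e21 : ∀ t : F, cj (Pm c₀) (tv h10 t) = tv h21 t := fun t => Pm_tv2 c₀ h10 h21 c₀_1 c₀_0 t
  have d12 : cj (Pm c₀) (dg h01 ζ hζ) = dg h12 ζ hζ := Pm_dg2 c₀ h01 h12 c₀_0 c₀_1 ζ hζ
  intro r hr
  simp only [rAll3, List.mem_append] at hr
  rcases hr with hr | hr
  · simp only [rCore3, List.mem_cons, List.not_mem_nil, or_false] at hr
    rcases hr with rfl | rfl | rfl | rfl | rfl | rfl | rfl | rfl | rfl | rfl | rfl | rfl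
    · rw [tv_pow, CharP.cast_eq_zero F p, zero_mul, tv_zero]
    · rw [wP_eval p _ _ (fun t : F => tv h01 t) (fun s t => tv_add h01 s t) ζ
        (fun j => by rw [rT_eval, vv_eval]), minpoly.aeval, tv_zero]
    · rw [hU, dg_tv_same, mul_one]
      group
    · rw [d12, hU, dg_tv_snd h12 h01 h02]
      simp [hζ, inv_mul_cancel₀]
    · rw [d12]
      exact commutatorElement_eq_one_iff_commute.2 (dg_comm _ _ _ _ _ _)
    · rw [← map_pow, c₀_cube, map_one]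
    · rw [link_M ζ hζ hk]
      group
    · rw [r6_M]
      group
    · rw [τM_tv, τM]
      group
    · have := comm_eval (1 : F)
      exact this
    · rw [hU, hU, hU, hk, hk₁, hk₃]
      have e1 : cj (Pm c₀ * τM F) (tv h01 (-1 : F)) = tv h21 (1 : F) := by
        have : cj (Pm c₀ * τM F) (tv h01 (-1 : F)) = cj (Pm c₀) (cj (τM F) (tv h01 (-1 : F))) := by
          simp [cj, mul_assoc]
        rw [this, τM_tv, e21, neg_neg]
      rw [e1, e12, τM_tv, neg_neg, M3 ζ hζ]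
      group
    · rw [hU, hU]
      apply commutatorElement_eq_one_iff_commute.2
      show _ * _ = _ * _
      rw [tv_add, tv_add, add_comm]
  · cases big
    · cases four
      · simp [rExtra3] at hr
      · simp only [rExtra3, Bool.false_eq_true, if_false, if_true, List.mem_cons, List.not_mem_nil, or_false] at hr
        rcases hr with rfl | rfl
        · rw [hU]
          exact comm_eval _
        · rw [hU]
          exact comm_eval _
    · simp only [rExtra3, if_true, List.mem_cons, List.not_mem_nil, or_false] at hr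
      rcases hr with rfl
      rw [hU, hU, hU, tv_add, hm rfl]
      simp

end Eval

end Cfsg.Agent.Lib.PrsSL3
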