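import Mathlib
import Cfsg.Agent.Lib.PrsSL3F
import Cfsg.Agent.Lib.PrsSLnJ

/-!
# `SL_3`: assembly
-/

set_option autoImplicit false

namespace Cfsg.Agent.Lib.PrsSL3

open Polynomial Equiv Equiv.Perm Matrix
open Cfsg.Agent.Lib.PrsSL2 Cfsg.Agent.Lib.PrsSLn
open scoped commutatorElement
open H3 (c₀ c₀_0 c₀_1 c₀_2 h01 h10)

section Hyp
variable {F Γ : Type*} [Field F] [Group Γ] (p : ℕ) [Fact p.Prime] [Algebra (ZMod p) F] [Finite F]

/-- The structure from the relators. -/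
noncomputable def mkH3 (u h τ c : Γ) (ζ : F) (hζ : ζ ≠ 0)
    (gen : ∀ t : F, t ≠ 0 → ∃ k : ℕ, t = ζ ^ k)
    (hg : ∀ t : F, ∃ f : (ZMod p)[X], aeval (ζ ^ 2) f = t)
    {k k₁ k₃ m : ℕ} {big four : Bool} (hk : ζ ^ k = -1)
    (hR : ∀ r ∈ rAll3 p (minpoly (ZMod p) ζ) k k₁ k₃ m big four u h τ c, r = 1)
    (hbig : big = false → (minpoly (ZMod p) ζ).natDegree ≤ 2) : H3 F Γ p where
  u := u
  h := h
  τ := τ
  c := c
  ζ := ζ
  hζ := hζ
  gen := gen
  hg := hg
  k := k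
  hk := hk
  r1 := hR (u ^ p) (by simp [rAll3, rCore3])
  hc := by
    have hr4 : wP p (rT h c) u (minpoly (ZMod p) ζ) = 1 := hR _ (by simp [rAll3, rCore3])
    have hint : IsIntegral (ZMod p) ζ := by
      haveI : Module.Finite (ZMod p) F := Module.Finite.of_finite
      exact IsIntegral.of_finite _ _
    apply comm_of_base
    have h1 := hR ⁅rU u h c 0, rU u h c 1⁆ (by simp [rAll3, rCore3])
    have hn : Commute (vv (rT h c) u 0) (vv (rT h c) u (1 : ℕ)) := by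
      have := commutatorElement_eq_one_iff_commute.1 h1
      simpa [rU] using this
    cases big
    · intro d
      refine comm_monic' p _ _ _ (minpoly.monic hint) hr4 ?_ d
      intro j hj
      have h2 := hbig rfl
      have : j = 0 ∨ j = 1 := by omega
      rcases this with rfl | rfl
      · exact Commute.refl _
      · exact hn
    · have h2 := hR (rU u h c 0 * rU u h c 1 * (rU u h c m)⁻¹) (by simp [rAll3, rExtra3])
      have tri : vv (rT h c) u 0 * vv (rT h c) u (1 : ℕ) = vv (rT h c) u m := by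
        have := mul_inv_eq_one.1 h2
        simpa [rU] using this
      intro d
      have := lat (rT h c) u hn tri d
      rw [Nat.cast_one, mul_one] at this
      exact this
  r4 := hR (wP p (rT h c) u (minpoly (ZMod p) ζ)) (by simp [rAll3, rCore3])
  r5 := mul_inv_eq_one.1 (hR (cj h u * (rU u h c 2)⁻¹) (by simp [rAll3, rCore3]))
  rc := mul_inv_eq_one.1 (hR (cj (cj c h) (rU u h c 1) * u⁻¹) (by simp [rAll3, rCore3]))
  ra := commutatorElement_eq_one_iff_commute.1 (hR ⁅h, cj c h⁆ (by simp [rAll3, rCore3]))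
  c3 := hR (c ^ 3) (by simp [rAll3, rCore3])
  link := mul_inv_eq_one.1 (hR (τ⁻¹ * c * τ * c * ((cj c⁻¹ h) ^ k)⁻¹) (by simp [rAll3, rCore3]))
  r6 := eq_inv_of_mul_eq_one_left (hR (τ⁻¹ * h * τ * h) (by simp [rAll3, rCore3]))
  b1 := mul_inv_eq_one.1 (hR (u * cj τ u * u * τ⁻¹) (by simp [rAll3, rCore3]))

lemma mkH3_base (u h τ c : Γ) (ζ : F) (hζ : ζ ≠ 0)
    (gen : ∀ t : F, t ≠ 0 → ∃ k : ℕ, t = ζ ^ k)
    (hg : ∀ t : F, ∃ f : (ZMod p)[X], aeval (ζ ^ 2) f = t)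
    {k k₁ k₃ m : ℕ} {big four : Bool} (hk : ζ ^ k = -1)
    (hR : ∀ r ∈ rAll3 p (minpoly (ZMod p) ζ) k k₁ k₃ m big four u h τ c, r = 1)
    (hbig : big = false → (minpoly (ZMod p) ζ).natDegree ≤ 2)
    (hcube : four = false → ∀ t : F, ∃ f : (ZMod p)[X], aeval (ζ ^ 3) f = t)
    (hfour : four = true → big = false ∧ ζ ^ 3 = 1) :
    (mkH3 p u h τ c ζ hζ gen hg hk hR hbig).BaseP := by
  have h0 : ⁅u, cj c u⁆ = cj (c⁻¹ * τ) u⁻¹ :=
    mul_inv_eq_one.1 (hR (⁅u, cj c u⁆ * (cj (c⁻¹ * τ) u⁻¹)⁻¹) (by simp [rAll3, rCore3]))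
  cases four
  · exact Or.inl ⟨h0, hcube rfl⟩
  · obtain ⟨h1, h2⟩ := hfour rfl
    subst h1
    refine Or.inr ⟨?_, h2, gen_sq p ζ hg⟩
    have h3 : ∀ i : ℕ, i = 1 ∨ i = 2 → ⁅u, cj c (rU u h c i)⁆ = cj (c⁻¹ * τ) (rU u h c i)⁻¹ := by
      rintro i (rfl | rfl)
      · exact mul_inv_eq_one.1 (hR (⁅u, cj c (rU u h c 1)⁆ * (cj (c⁻¹ * τ) (rU u h c 1)⁻¹)⁻¹)
          (by simp [rAll3, rExtra3]))
      · exact mul_inv_eq_one.1 (hR (⁅u, cj c (rU u h c 2)⁆ * (cj (c⁻¹ * τ) (rU u h c 2)⁻¹)⁻¹)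
          (by simp [rAll3, rExtra3]))
    intro i hi
    have : i = 0 ∨ i = 1 ∨ i = 2 := by omega
    rcases this with rfl | hi'
    · show ⁅u, cj c (vv _ u ((0 : ℕ) : ℤ))⁆ = cj (c⁻¹ * τ) (vv _ u ((0 : ℕ) : ℤ))⁻¹
      simpa [vv_zero] using h0
    · exact h3 i hi'

end Hyp

section Assembly
variable {F : Type*} [Field F] [Finite F] (p : ℕ) [Fact p.Prime] [CharP F p] [Algebra (ZMod p) F]

/-- The values of the generators. -/
noncomputable def fG3 (ζ : F) (hζ : ζ ≠ 0) : Fin 4 → SLn 3 F :=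
  ![tv h01 1, dg h01 ζ hζ, τM F, Pm c₀]

theorem good3_gen (ζ : F) (hζ : ζ ≠ 0)
    (gen : ∀ t : F, t ≠ 0 → ∃ k : ℕ, t = ζ ^ k)
    (hg : ∀ t : F, ∃ f : (ZMod p)[X], aeval (ζ ^ 2) f = t)
    {k k₁ k₃ m : ℕ} {big four : Bool} (hk : ζ ^ k = -1) (hk₁ : ζ ^ k₁ = -ζ) (hk₃ : ζ ^ k₃ = -ζ⁻¹)
    (hm : big = true → ζ ^ m = 1 + ζ)
    (hbig : big = false → (minpoly (ZMod p) ζ).natDegree ≤ 2)
    (hcube : four = false → ∀ t : F, ∃ f : (ZMod p)[X], aeval (ζ ^ 3) f = t)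
    (hfour : four = true → big = false ∧ ζ ^ 3 = 1) :
    ∃ rels : Finset (FreeGroup (Fin 4)), rels.card ≤ 14 ∧ GoodPres F 3 (rels : Set (FreeGroup (Fin 4))) := by
  classical
  let fu : FreeGroup (Fin 4) := FreeGroup.of 0
  let fh : FreeGroup (Fin 4) := FreeGroup.of 1
  let fτ : FreeGroup (Fin 4) := FreeGroup.of 2
  let fc : FreeGroup (Fin 4) := FreeGroup.of 3
  let L := rAll3 p (minpoly (ZMod p) ζ) k k₁ k₃ m big four fu fh fτ fc
  let rels : Finset (FreeGroup (Fin 4)) := L.toFinset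
  let f : Fin 4 → SLn 3 F := fG3 ζ hζ
  let φ₀ : FreeGroup (Fin 4) →* SLn 3 F := FreeGroup.lift f
  have hφu : φ₀ fu = tv h01 1 := by simp [φ₀, fu, f, fG3]
  have hφh : φ₀ fh = dg h01 ζ hζ := by simp [φ₀, fh, f, fG3]
  have hφτ : φ₀ fτ = τM F := by simp [φ₀, fτ, f, fG3]
  have hφc : φ₀ fc = Pm c₀ := by simp [φ₀, fc, f, fG3]
  have hrels : ∀ r ∈ (rels : Set (FreeGroup (Fin 4))), FreeGroup.lift f r = 1 := by
    intro r hr
    have hr' : r ∈ L := by simpa [rels] using hr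
    have h1 : φ₀ r ∈ L.map φ₀ := List.mem_map_of_mem hr'
    rw [map_rAll3, hφu, hφh, hφτ, hφc] at h1
    exact eval_rAll3 p ζ hζ hk hk₁ hk₃ hm _ h1
  refine ⟨rels, (List.toFinset_card_le L).trans (rAll3_length p _ _ _ _ _ _ _ _ _ _ _), f, hrels, ?_⟩
  let Rr : Set (FreeGroup (Fin 4)) := (rels : Set (FreeGroup (Fin 4)))
  let π : FreeGroup (Fin 4) →* PresentedGroup Rr := PresentedGroup.mk Rr
  have hRπ : ∀ r ∈ rAll3 p (minpoly (ZMod p) ζ) k k₁ k₃ m big four (π fu) (π fh) (π fτ) (π fc), r = 1 := by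
    intro r hr
    rw [← map_rAll3] at hr
    obtain ⟨r', hr', rfl⟩ := List.mem_map.1 hr
    apply PresentedGroup.one_of_mem
    simpa [Rr, rels] using hr'
  let G : H3 F (PresentedGroup Rr) p := mkH3 p (π fu) (π fh) (π fτ) (π fc) ζ hζ gen hg hk hRπ hbig
  have hP : G.BaseP := mkH3_base p _ _ _ _ ζ hζ gen hg hk hRπ hbig hcube hfour
  let φ : PresentedGroup Rr →* SLn 3 F := PresentedGroup.toGroup hrels
  have hφπ : ∀ w, φ (π w) = φ₀ w := by
    intro w
    have : φ.comp π = φ₀ := by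
      apply FreeGroup.ext_hom
      intro i
      exact (PresentedGroup.toGroup.of hrels).trans (by simp [φ₀])
    exact DFunLike.congr_fun this w
  have hM : vv G.T G.u k₁ * cj G.τ (vv G.T G.u k₃) * vv G.T G.u k₁ * cj G.c (vv G.T G.u G.k) *
      cj (G.c * G.τ) (vv G.T G.u G.k) * cj G.c (vv G.T G.u G.k) = G.h * G.c :=
    mul_inv_eq_one.1 (hRπ (rU (π fu) (π fh) (π fc) k₁ * cj (π fτ) (rU (π fu) (π fh) (π fc) k₃) *
      rU (π fu) (π fh) (π fc) k₁ * cj (π fc) (rU (π fu) (π fh) (π fc) k) *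
      cj (π fc * π fτ) (rU (π fu) (π fh) (π fc) k) * cj (π fc) (rU (π fu) (π fh) (π fc) k) *
      (π fh * π fc)⁻¹) (by simp [rAll3, rCore3]))
  refine H3.bij3 G hP φ ?_ ?_ ?_ ?_ ?_ hM
  · show φ (π fu) = _
    rw [hφπ, hφu]
  · show φ (π fh) = _
    rw [hφπ, hφh]
    rfl
  · show φ (π fτ) = _
    rw [hφπ, hφτ]
  · show φ (π fc) = _
    rw [hφπ, hφc]
  · intro K h1 h2 h3 h4
    rw [eq_top_iff, ← PresentedGroup.closure_range_of, Subgroup.closure_le]
    rintro _ ⟨i, rfl⟩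
    fin_cases i
    · exact h1
    · exact h2
    · exact h3
    · exact h4

end Assembly

section Params
variable {F : Type*} [Field F] [Finite F]

lemma gen_cube (p : ℕ) [Fact p.Prime] [Algebra (ZMod p) F] (ζ : F) (h0 : ζ ≠ 0)
    (hord : orderOf ζ = Nat.card F - 1) (hq : Nat.card F ≠ 4) :
    ∀ t : F, ∃ f : (ZMod p)[X], aeval (ζ ^ 3) f = t := by
  rcases gen_or p (ζ ^ 3) with h | ⟨r, k, hr, h1r, _, hf⟩
  · exact h
  · exfalso
    have h2 : (ζ ^ 3) ^ r = ζ ^ 3 := by simpa using hf X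
    have h3 : ζ ^ (3 * (r - 1)) = 1 := by
      have e : (ζ ^ 3) ^ r = ζ ^ (3 * (r - 1)) * ζ ^ 3 := by
        rw [← pow_mul, ← pow_add]
        congr 1
        obtain ⟨s, rfl⟩ : ∃ s, r = s + 1 := ⟨r - 1, by omega⟩
        simp
        ring
      rw [e] at h2
      exact mul_eq_right₀ (pow_ne_zero 3 h0) |>.1 h2
    have h4 := orderOf_le_of_pow_eq_one (by omega) h3
    rw [hord] at h4
    have h5 : r = 2 := by
      by_contra hne
      have h6 : 3 ≤ r := by omega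
      obtain ⟨s, rfl⟩ : ∃ s, r = s + 3 := ⟨r - 3, by omega⟩
      have : s * s + 6 * s + 9 ≤ Nat.card F := by nlinarith
      have h7 : 3 * (s + 3 - 1) = 3 * s + 6 := by omega
      omega
    subst h5
    have h8 : Nat.card F = 4 := by
      have h9 : 4 ≤ Nat.card F := hr
      omega
    exact hq h8

/-- `SL_3` has a presentation with four generators and at most fourteen relators. -/
theorem good3 : ∃ rels : Finset (FreeGroup (Fin 4)), rels.card ≤ 14 ∧
    GoodPres F 3 (rels : Set (FreeGroup (Fin 4))) := by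
  classical
  obtain ⟨p, hp⟩ := CharP.exists F
  haveI : Fact p.Prime := ⟨CharP.char_is_prime F p⟩
  letI : Algebra (ZMod p) F := ZMod.algebra F p
  obtain ⟨ζ, h0, gen, hord⟩ := exists_gen (F := F)
  have hg := gen_g (p := p) ζ h0 hord
  obtain ⟨k, hk⟩ := gen (-1) (by simp)
  obtain ⟨k₁, hk₁⟩ := gen (-ζ) (neg_ne_zero.2 h0)
  obtain ⟨k₃, hk₃⟩ := gen (-ζ⁻¹) (neg_ne_zero.2 (inv_ne_zero h0))
  have hcard : 1 < Nat.card F := Finite.one_lt_card
  have hdeg : Nat.card F ≤ 4 → (minpoly (ZMod p) ζ).natDegree ≤ 2 := by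
    intro hq
    haveI : Module.Finite (ZMod p) F := Module.Finite.of_finite
    have h2 := minpoly.natDegree_le (A := ZMod p) ζ
    have h3 : Nat.card F = p ^ Module.finrank (ZMod p) F := by
      have : Nat.card F = Nat.card (ZMod p) ^ Module.finrank (ZMod p) F := Module.natCard_eq_pow_finrank
      rwa [Nat.card_zmod] at this
    have h4 : 2 ≤ p := (Fact.out : p.Prime).two_le
    have h5 : Module.finrank (ZMod p) F ≤ 2 := by
      by_contra hc
      have h6 : 3 ≤ Module.finrank (ZMod p) F := by omega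
      have h7 : 2 ^ 3 ≤ p ^ Module.finrank (ZMod p) F :=
        (Nat.pow_le_pow_left h4 3).trans (Nat.pow_le_pow_right (by omega) h6)
      omega
    omega
  by_cases hq5 : 5 ≤ Nat.card F
  · have h1 : 1 + ζ ≠ 0 := by
      intro h
      have e : ζ = -1 := by linear_combination h
      have h2 : ζ ^ 2 = 1 := by rw [e]; ring
      have := orderOf_le_of_pow_eq_one (by norm_num) h2
      omega
    obtain ⟨m, hm⟩ := gen _ h1
    exact good3_gen p ζ h0 gen hg (big := true) (four := false) hk.symm hk₁.symm hk₃.symm (fun _ => hm.symm)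
      (by simp) (fun _ => gen_cube p ζ h0 hord (by omega)) (by simp)
  · by_cases hq4 : Nat.card F = 4
    · have h3 : ζ ^ 3 = 1 := by
        have := pow_orderOf_eq_one ζ
        rw [hord, hq4] at this
        exact this
      exact good3_gen p ζ h0 gen hg (big := false) (four := true) (m := 0) hk.symm hk₁.symm hk₃.symm (by simp)
        (fun _ => hdeg (by omega)) (by simp) (fun _ => ⟨rfl, h3⟩)
    · exact good3_gen p ζ h0 gen hg (big := false) (four := false) (m := 0) hk.symm hk₁.symm hk₃.symm (by simp)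
        (fun _ => hdeg (by omega)) (fun _ => gen_cube p ζ h0 hord hq4) (by simp)

end Params

end Cfsg.Agent.Lib.PrsSL3
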