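import Mathlib
import Cfsg.Agent.S2402
import Cfsg.Agent.S2403
import Cfsg.Agent.Lib.PrsSL3G

/-!
# Two generator presentations of `PSL_n`
-/

set_option autoImplicit false

namespace Cfsg.Agent.Lib.PrsPSLTwo

open Matrix

/-- A group with a presentation on `m` letters and generated by two elements has a presentation
on two letters with two more relators. -/
theorem two_gen_pres {T : Type*} [Group T] {m : ℕ} (R : Finset (FreeGroup (Fin m)))
    (e : PresentedGroup (R : Set (FreeGroup (Fin m))) ≃* T) (a b : T)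
    (hab : Subgroup.closure ({a, b} : Set T) = ⊤) :
    ∃ R' : Finset (FreeGroup (Fin 2)), R'.card ≤ R.card + 2 ∧
      Nonempty (PresentedGroup (R' : Set (FreeGroup (Fin 2))) ≃* T) := by
  classical
  let ab : Fin 2 → T := ![a, b]
  have hrab : Set.range ab = {a, b} := by
    ext x
    simp [ab, Fin.exists_fin_two, eq_comm, or_comm]
  let gi : Fin m → T := fun i => e (PresentedGroup.of i)
  have hsurjab : Function.Surjective (FreeGroup.lift ab) := by
    rw [FreeGroup.lift_surjective_iff_closure_range_eq_top, hrab, hab]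
  have hegi : ∀ w, e (PresentedGroup.mk _ w) = FreeGroup.lift gi w := by
    intro w
    have : (e.toMonoidHom).comp (PresentedGroup.mk (R : Set (FreeGroup (Fin m)))) = FreeGroup.lift gi := by
      ext i
      simp [gi, PresentedGroup.of]
    rw [← this]
    rfl
  have hsurjg : Function.Surjective (FreeGroup.lift gi) := by
    intro t
    obtain ⟨w, hw⟩ := PresentedGroup.mk_surjective _ (e.symm t)
    refine ⟨w, ?_⟩
    rw [← hegi, hw, MulEquiv.apply_symm_apply]
  choose W hW using fun i => hsurjab (gi i)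
  choose v hv using fun j => hsurjg (ab j)
  let sb : FreeGroup (Fin m) →* FreeGroup (Fin 2) := FreeGroup.lift W
  have hsb : ∀ w, FreeGroup.lift ab (sb w) = FreeGroup.lift gi w := by
    intro w
    have : (FreeGroup.lift ab).comp sb = FreeGroup.lift gi := by
      apply FreeGroup.ext_hom
      intro i
      simp [sb, hW]
    exact DFunLike.congr_fun this w
  let ex : Fin 2 → FreeGroup (Fin 2) := fun j => FreeGroup.of j * (sb (v j))⁻¹
  let R' : Finset (FreeGroup (Fin 2)) := R.image sb ∪ {ex 0, ex 1}
  have hcard : R'.card ≤ R.card + 2 := by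
    have h1 := Finset.card_union_le (R.image sb) {ex 0, ex 1}
    have h2 : (R.image sb).card ≤ R.card := Finset.card_image_le
    have h3 : ({ex 0, ex 1} : Finset (FreeGroup (Fin 2))).card ≤ 2 := Finset.card_le_two
    show (R.image sb ∪ {ex 0, ex 1}).card ≤ _
    omega
  refine ⟨R', hcard, ?_⟩
  let S : Set (FreeGroup (Fin 2)) := (R' : Set (FreeGroup (Fin 2)))
  have hR' : ∀ r ∈ S, FreeGroup.lift ab r = 1 := by
    intro r hr
    have hr' : r ∈ R' := by exact_mod_cast hr
    simp only [R', Finset.mem_union, Finset.mem_image, Finset.mem_insert, Finset.mem_singleton] at hr'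
    rcases hr' with ⟨s, hs, rfl⟩ | rfl | rfl
    · rw [hsb, ← hegi, PresentedGroup.one_of_mem (rels := (R : Set (FreeGroup (Fin m)))) (by exact_mod_cast hs), map_one]
    · simp only [ex, map_mul, map_inv, FreeGroup.lift_apply_of, hsb, hv]
      simp
    · simp only [ex, map_mul, map_inv, FreeGroup.lift_apply_of, hsb, hv]
      simp
  have hπ1 : ∀ r ∈ R', PresentedGroup.mk S r = 1 := fun r hr =>
    PresentedGroup.one_of_mem (by exact_mod_cast hr)
  let α : PresentedGroup S →* T := PresentedGroup.toGroup hR'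
  have hαmk : ∀ w, α (PresentedGroup.mk S w) = FreeGroup.lift ab w := by
    intro w
    have : α.comp (PresentedGroup.mk S) = FreeGroup.lift ab := by
      apply FreeGroup.ext_hom
      intro i
      exact (PresentedGroup.toGroup.of hR').trans (by simp)
    exact DFunLike.congr_fun this w
  have hmksb : FreeGroup.lift (fun i => PresentedGroup.mk S (W i)) = (PresentedGroup.mk S).comp sb := by
    apply FreeGroup.ext_hom
    intro i
    simp [sb]
  have hβ : ∀ s ∈ (R : Set (FreeGroup (Fin m))), FreeGroup.lift (fun i => PresentedGroup.mk S (W i)) s = 1 := by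
    intro s hs
    rw [hmksb]
    apply hπ1
    simp only [R', Finset.mem_union, Finset.mem_image]
    exact Or.inl ⟨s, by exact_mod_cast hs, rfl⟩
  let β₀ : PresentedGroup (R : Set (FreeGroup (Fin m))) →* PresentedGroup S := PresentedGroup.toGroup hβ
  have hβmk : ∀ w, β₀ (PresentedGroup.mk _ w) = PresentedGroup.mk S (sb w) := by
    intro w
    have : β₀.comp (PresentedGroup.mk _) = (PresentedGroup.mk S).comp sb := by
      rw [← hmksb]
      apply FreeGroup.ext_hom
      intro i
      exact (PresentedGroup.toGroup.of hβ).trans (by simp)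
    exact DFunLike.congr_fun this w
  let β : T →* PresentedGroup S := β₀.comp e.symm.toMonoidHom
  have hβgi : ∀ w, β (FreeGroup.lift gi w) = PresentedGroup.mk S (sb w) := by
    intro w
    rw [← hegi]
    show β₀ (e.symm (e _)) = _
    rw [MulEquiv.symm_apply_apply, hβmk]
  have h1 : α.comp β = MonoidHom.id T := by
    ext t
    obtain ⟨w, rfl⟩ := hsurjg t
    show α (β _) = _
    rw [hβgi, hαmk, hsb]
    rfl
  have h2 : β.comp α = MonoidHom.id _ := by
    apply PresentedGroup.ext
    intro j
    show β (α (PresentedGroup.of j)) = _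
    have e1 : α (PresentedGroup.of j) = ab j := (PresentedGroup.toGroup.of hR')
    rw [e1, ← hv, hβgi]
    have e2 : PresentedGroup.mk S (ex j) = 1 := by
      apply hπ1
      simp only [R', Finset.mem_union, Finset.mem_insert, Finset.mem_singleton]
      right
      fin_cases j
      · exact Or.inl rfl
      · exact Or.inr rfl
    simp only [ex, map_mul, map_inv] at e2
    have e3 := mul_inv_eq_one.1 e2
    rw [← e3]
    rfl
  exact ⟨(MonoidHom.toMulEquiv α β h2 h1)⟩

section Gen
variable {K : Type*} [Field K]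

lemma det_w (n : ℕ) :
    (Matrix.of (fun i j : Fin (n + 1) => if j.val = i.val + 1 then (1 : K) else if i.val = n ∧ j.val = 0 then (-1) ^ n else 0)).det = 1 := by
  have hw : Cfsg.Agent.Lib.SLGen.cycW n K = diagonal (Cfsg.Agent.Lib.SLGen.cycEps n K) * (finRotate (n + 1)).toPEquiv.toMatrix := by
    ext r c
    rw [Cfsg.Agent.Lib.SLGen.cycW_apply, Matrix.diagonal_mul, PEquiv.toMatrix_apply]
    simp only [Equiv.toPEquiv_apply, Option.mem_def, Option.some.injEq, finRotate_succ_apply]
    by_cases h : c = r + 1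
    · simp [h]
    · have : ¬ r + 1 = c := fun h' => h h'.symm
      simp [h, this]
  show (Cfsg.Agent.Lib.SLGen.cycW n K).det = 1
  rw [hw, det_mul, det_diagonal, det_permutation, sign_finRotate]
  have e : ∏ i : Fin (n + 1), Cfsg.Agent.Lib.SLGen.cycEps n K i = (-1) ^ n := by
    rw [Finset.prod_eq_single (Fin.last n)]
    · simp [Cfsg.Agent.Lib.SLGen.cycEps]
    · intro b _ hb
      have : b.val ≠ n := fun h => hb (Fin.ext h)
      simp [Cfsg.Agent.Lib.SLGen.cycEps, this]
    · simp
  rw [e]
  simp
  rw [← mul_pow]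
  simp

/-- the monomial element -/
def wEl (n : ℕ) (K : Type*) [Field K] : SpecialLinearGroup (Fin (n + 1)) K :=
  ⟨_, det_w n⟩

lemma psl_two_gen [Fintype K] (n : ℕ) (hn : 1 ≤ n) :
    ∃ a b : ProjectiveSpecialLinearGroup (Fin (n + 1)) K, Subgroup.closure ({a, b} : Set _) = ⊤ := by
  classical
  have h01 : (0 : Fin (n + 1)) ≠ 1 := by
    intro h
    have := congrArg Fin.val h
    rw [Fin.val_zero, Fin.val_one'] at this
    rw [Nat.mod_eq_of_lt (by omega)] at this
    omega
  let x : SpecialLinearGroup (Fin (n + 1)) K := SpecialLinearGroup.transvection h01 1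
  have hx : (x : Matrix (Fin (n + 1)) (Fin (n + 1)) K) = Matrix.transvection (0 : Fin (n + 1)) (1 : Fin (n + 1)) 1 := rfl
  let w := wEl n K
  have hw : (w : Matrix (Fin (n + 1)) (Fin (n + 1)) K) =
      Matrix.of (fun i j => if j.val = i.val + 1 then 1 else if i.val = n ∧ j.val = 0 then (-1) ^ n else 0) := rfl
  let q : SpecialLinearGroup (Fin (n + 1)) K →* ProjectiveSpecialLinearGroup (Fin (n + 1)) K :=
    QuotientGroup.mk' _
  have key : ∀ a b : SpecialLinearGroup (Fin (n + 1)) K,
      Subgroup.closure ({a, b} : Set (SpecialLinearGroup (Fin (n + 1)) K)) ⊔ Subgroup.center _ = ⊤ →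
      Subgroup.closure ({q a, q b} : Set _) = ⊤ := by
    intro a b h
    have h1 := congrArg (Subgroup.map q) h
    rw [Subgroup.map_sup, Subgroup.map_top_of_surjective _ (QuotientGroup.mk'_surjective _), MonoidHom.map_closure] at h1
    have h2 : Subgroup.map q (Subgroup.center _) = ⊥ := by
      rw [Subgroup.map_eq_bot_iff]
      intro z hz
      exact (QuotientGroup.eq_one_iff z).2 hz
    rw [h2, sup_bot_eq, Set.image_pair] at h1
    exact h1
  by_cases hK : 3 < Fintype.card K
  · haveI : IsCyclic Kˣ := inferInstance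
    obtain ⟨k, hk⟩ := IsCyclic.exists_generator (α := Kˣ)
    let d : Fin (n + 1) → K := fun i => if i.val = 0 then (k : K) else if i.val = 1 then ((k⁻¹ : Kˣ) : K) else 1
    have v1 : ((1 : Fin (n + 1)) : ℕ) = 1 := by
      rw [Fin.val_one', Nat.mod_eq_of_lt (by omega)]
    have hd : (diagonal d).det = 1 := by
      rw [det_diagonal, Finset.prod_eq_mul 0 1 h01]
      · have d0 : d 0 = (k : K) := by simp [d]
        have d1 : d 1 = ((k⁻¹ : Kˣ) : K) := by
          show (if ((1 : Fin (n + 1)) : ℕ) = 0 then (k : K) else if ((1 : Fin (n + 1)) : ℕ) = 1 then ((k⁻¹ : Kˣ) : K) else 1) = _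
          rw [v1]
          simp
        rw [d0, d1, ← Units.val_mul, mul_inv_cancel, Units.val_one]
      · rintro c - ⟨h1, h2⟩
        have h3 : c.val ≠ 0 := fun h => h1 (Fin.ext (by simpa using h))
        have h4 : c.val ≠ 1 := fun h => h2 (Fin.ext (by rw [h, v1]))
        show (if c.val = 0 then (k : K) else if c.val = 1 then ((k⁻¹ : Kˣ) : K) else 1) = 1
        rw [if_neg h3, if_neg h4]
      · simp
      · simp
    let h : SpecialLinearGroup (Fin (n + 1)) K := ⟨diagonal d, hd⟩
    have := Cfsg.Agent.S2402.result hK n hn k hk h x w rfl hx hw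
    exact ⟨_, _, key _ _ this⟩
  · have := Cfsg.Agent.S2403.result (by omega) n hn x w hx hw
    exact ⟨_, _, key _ _ this⟩

end Gen

/-- For every finite field F and `n ≥ 2` the group `PSL_n(F)` has a presentation with two generators
and at most 80 relators. -/
theorem main {F : Type*} [Field F] [Fintype F] (n : ℕ) (hn : 2 ≤ n) :
    ∃ rels : Finset (FreeGroup (Fin 2)), rels.card ≤ 80 ∧
      Nonempty (PresentedGroup (↑rels : Set (FreeGroup (Fin 2))) ≃* Matrix.ProjectiveSpecialLinearGroup (Fin n) F) := by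
  obtain ⟨m, rfl⟩ : ∃ m, n = m + 1 := ⟨n - 1, by omega⟩
  obtain ⟨a, b, hab⟩ := psl_two_gen (K := F) m (by omega)
  have gen : ∀ {k : ℕ} (R : Finset (FreeGroup (Fin k))),
      R.card ≤ 78 → Nonempty (PresentedGroup (R : Set (FreeGroup (Fin k))) ≃*
        Matrix.ProjectiveSpecialLinearGroup (Fin (m + 1)) F) →
      ∃ rels : Finset (FreeGroup (Fin 2)), rels.card ≤ 80 ∧
      Nonempty (PresentedGroup (↑rels : Set (FreeGroup (Fin 2))) ≃* Matrix.ProjectiveSpecialLinearGroup (Fin (m + 1)) F) := by
    rintro k R hR ⟨e⟩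
    obtain ⟨R', h1, h2⟩ := two_gen_pres R e a b hab
    exact ⟨R', by omega, h2⟩
  by_cases h2 : m + 1 = 2
  · obtain rfl : m = 1 := by omega
    obtain ⟨-, ⟨R, h1, h2⟩, -⟩ := Cfsg.Agent.Lib.PrsSL2.main (F := F)
    exact gen R (by omega) h2
  · by_cases h3 : m + 1 = 3
    · obtain rfl : m = 2 := by omega
      obtain ⟨R, h1, h2⟩ := Cfsg.Agent.Lib.PrsSL3.good3 (F := F)
      obtain ⟨R', h3, h4⟩ := Cfsg.Agent.Lib.PrsSLn.psl_of_good (by omega) R h2
      exact gen R' (by omega) h4
    · obtain ⟨-, ⟨R, h1, h2⟩, -, -⟩ := Cfsg.Agent.Lib.PrsSLn.main88 (F := F) (m + 1) (by omega)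
      exact gen R (by omega) h2

end Cfsg.Agent.Lib.PrsPSLTwo
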