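import Mathlib
import Cfsg.Agent.Lib.SpN3

/-!
# Steinberg relations of `Sp_{2m}`: subgroups generated by root elements
-/

set_option autoImplicit false
set_option linter.unusedVariables false
set_option linter.unusedSectionVars false

namespace Cfsg.Agent.Lib.SpN

open Cfsg.Agent.Lib.SpRoot (sg sg_swap sg_mul_self sg_ne_zero)

namespace Data

variable {m : ℕ} {K Γ : Type*} [Field K] [Group Γ] (D : Data m K Γ)

/-- The subgroup generated by some root elements. -/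
def rt (P : Ix m → Ix m → Prop) (Q : Ix m → Prop) : Subgroup Γ :=
  Subgroup.closure ({g | ∃ a b t, Sh a b ∧ P a b ∧ g = D.X a b t} ∪ {g | ∃ a t, Q a ∧ g = D.L a t})

variable {P P' : Ix m → Ix m → Prop} {Q Q' : Ix m → Prop} {a b : Ix m}

lemma rtX (hab : Sh a b) (h : P a b) (t : K) : D.X a b t ∈ D.rt P Q :=
  Subgroup.subset_closure (Or.inl ⟨a, b, t, hab, h, rfl⟩)

lemma rtX' (hab : Sh a b) (h : P b a) (t : K) : D.X a b t ∈ D.rt P Q := by
  rw [D.Xsym hab]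
  exact D.rtX hab.symm h t

lemma rtL (h : Q a) (t : K) : D.L a t ∈ D.rt P Q :=
  Subgroup.subset_closure (Or.inr ⟨a, t, h, rfl⟩)

lemma rt_le {B : Subgroup Γ} (h1 : ∀ a b t, Sh a b → P a b → D.X a b t ∈ B)
    (h2 : ∀ a t, Q a → D.L a t ∈ B) : D.rt P Q ≤ B := by
  rw [rt, Subgroup.closure_le]
  rintro _ (⟨a, b, t, hab, h, rfl⟩ | ⟨a, t, h, rfl⟩)
  · exact h1 a b t hab h
  · exact h2 a t h

lemma rt_mono (h1 : ∀ a b, Sh a b → P a b → P' a b) (h2 : ∀ a, Q a → Q' a) : D.rt P Q ≤ D.rt P' Q' :=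
  D.rt_le (fun a b t hab h => D.rtX hab (h1 a b hab h) t) (fun a t h => D.rtL (h2 a h) t)

theorem rt_ind {R : Γ → Prop} (h1 : R 1) (hx : ∀ a b t y, Sh a b → P a b → R y → R (D.X a b t * y))
    (hl : ∀ a t y, Q a → R y → R (D.L a t * y)) {g : Γ} (hg : g ∈ D.rt P Q) : R g := by
  induction hg using Subgroup.closure_induction_left with
  | one => exact h1
  | mul_left x hx' y hy ih =>
    rcases hx' with ⟨a, b, t, hab, h, rfl⟩ | ⟨a, t, h, rfl⟩
    · exact hx a b t y hab h ih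
    · exact hl a t y h ih
  | inv_mul_cancel x hx' y hy ih =>
    rcases hx' with ⟨a, b, t, hab, h, rfl⟩ | ⟨a, t, h, rfl⟩
    · rw [D.X_inv hab]
      exact hx a b (-t) y hab h ih
    · rw [D.L_inv]
      exact hl a (-t) y h ih

lemma rt_conj {B : Subgroup Γ} (g : Γ) (h1 : ∀ a b t, Sh a b → P a b → g * D.X a b t * g⁻¹ ∈ B)
    (h2 : ∀ a t, Q a → g * D.L a t * g⁻¹ ∈ B) {τ : Γ} (hτ : τ ∈ D.rt P Q) : g * τ * g⁻¹ ∈ B := by
  have key : D.rt P Q ≤ B.comap (MulAut.conj g).toMonoidHom :=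
    D.rt_le (fun a b t hab h => by simpa [Subgroup.mem_comap, MulAut.conj_apply] using h1 a b t hab h)
      (fun a t h => by simpa [Subgroup.mem_comap, MulAut.conj_apply] using h2 a t h)
  simpa [Subgroup.mem_comap, MulAut.conj_apply] using key hτ

lemma rt_normal {T : Subgroup Γ}
    (h1 : ∀ a b t, Sh a b → P a b → ∀ τ ∈ T, D.X a b t * τ * (D.X a b t)⁻¹ ∈ T)
    (h2 : ∀ a t, Q a → ∀ τ ∈ T, D.L a t * τ * (D.L a t)⁻¹ ∈ T) {l : Γ} (hl : l ∈ D.rt P Q) :
    ∀ τ ∈ T, l * τ * l⁻¹ ∈ T := by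
  refine D.rt_ind (R := fun l => ∀ τ ∈ T, l * τ * l⁻¹ ∈ T) ?_ ?_ ?_ hl
  · intro τ hτ
    simpa using hτ
  · intro a b t y hab hP ih τ hτ
    have := h1 a b t hab hP _ (ih τ hτ)
    convert this using 1
    group
  · intro a t y hP ih τ hτ
    have := h2 a t hP _ (ih τ hτ)
    convert this using 1
    group

namespace Acts

variable {D} {g : Γ} {π : Ix m → Ix m} {c : Ix m → K}

lemma conj_rt (A : D.Acts g π c) (h1 : ∀ x y, Sh x y → P x y → P' (π x) (π y) ∨ P' (π y) (π x))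
    (h2 : ∀ x, Q x → Q' (π x)) {τ : Γ} (hτ : τ ∈ D.rt P Q) : g * τ * g⁻¹ ∈ D.rt P' Q' := by
  refine D.rt_conj g ?_ ?_ hτ
  · intro x y t hxy hP
    rw [A.X hxy]
    rcases h1 x y hxy hP with h | h
    · exact D.rtX (A.sh hxy) h _
    · exact D.rtX' (A.sh hxy) h _
  · intro x t hQ
    rw [A.Lg]
    exact D.rtL (h2 x hQ) _

end Acts

/-- The Levi subgroup. -/
def LL (J : Finset (Ix m)) : Subgroup Γ := D.rt (fun x y => x ∈ J ∧ y ∈ J) (fun x => x ∈ J)

/-- The root group of a point. -/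
def QQ (J : Finset (Ix m)) (n : Ix m) : Subgroup Γ := D.rt (fun x y => x = n ∧ y ∈ J) (fun x => x = n)

/-- The stabilizer of a point. -/
def HI (J : Finset (Ix m)) (n : Ix m) : Subgroup Γ :=
  D.rt (fun x y => (x ∈ J ∧ y ∈ J) ∨ (x = n ∧ y ∈ J)) (fun x => x ∈ J ∨ x = n)

/-- A part of `QQ`. -/
def TP (J : Finset (Ix m)) (n j : Ix m) : Subgroup Γ :=
  D.rt (fun x y => x = n ∧ y ∈ J ∧ y ≠ j) (fun x => x = n)

variable {J : Finset (Ix m)} {n : Ix m}

lemma QQ_L (t : K) : D.L n t ∈ D.QQ J n := D.rtL (Q := fun x => x = n) rfl t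

lemma TP_L {j : Ix m} (t : K) : D.L n t ∈ D.TP J n j := D.rtL (Q := fun x => x = n) rfl t

lemma LL_le_HI : D.LL J ≤ D.HI J n :=
  D.rt_mono (fun _ _ _ h => Or.inl h) (fun _ h => Or.inl h)

lemma QQ_le_HI : D.QQ J n ≤ D.HI J n :=
  D.rt_mono (fun _ _ _ h => Or.inr h) (fun _ h => Or.inr h)

lemma TP_le_QQ {j : Ix m} : D.TP J n j ≤ D.QQ J n :=
  D.rt_mono (fun _ _ _ h => ⟨h.1, h.2.1⟩) (fun _ h => h)

section Normal

variable (hJ : ∀ x ∈ J, x.swap ∈ J) (hn : n ∉ J)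
include hJ hn

omit hJ in
lemma ne_of_mem {x : Ix m} (hx : x ∈ J) : x ≠ n := fun h => hn (h ▸ hx)

lemma ne_sw_of_mem {x : Ix m} (hx : x ∈ J) : x ≠ n.swap := by
  rintro rfl
  have := hJ _ hx
  rw [sw_sw] at this
  exact hn this

lemma sh_of_mem {x : Ix m} (hx : x ∈ J) : Sh n x :=
  ⟨(ne_of_mem hn hx).symm, ne_sw_of_mem hJ hn hx⟩

lemma mem_X {b : Ix m} (hb : b ∈ J) (t : K) : D.X n b t ∈ D.QQ J n :=
  D.rtX (sh_of_mem hJ hn hb) ⟨rfl, hb⟩ t

lemma mem_X' {b : Ix m} (hb : b ∈ J) (t : K) : D.X b n t ∈ D.QQ J n :=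
  D.rtX' (sh_of_mem hJ hn hb).symm ⟨rfl, hb⟩ t

/-- Root elements of `L` normalize the root group of a point. -/
lemma LL_conj_QQ {l τ : Γ} (hl : l ∈ D.LL J) (hτ : τ ∈ D.QQ J n) : l * τ * l⁻¹ ∈ D.QQ J n := by
  have fne : ∀ {x}, x ∈ J → n ≠ x := fun hx => (ne_of_mem hn hx).symm
  have fsw : ∀ {x}, x ∈ J → n ≠ x.swap := fun hx => fne (hJ _ hx)
  refine D.rt_normal ?_ ?_ hl τ hτ
  · rintro x y t hxy ⟨hx, hy⟩ τ hτ
    refine D.rt_conj _ ?_ ?_ hτ
    · rintro c b u hcb ⟨rfl, hb⟩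
      by_cases h1 : b = x.swap
      · subst h1
        have h2 := D.relC hxy.symm (d := c) (fne hy) (fsw hy) (fne hx) (fsw hx) t u
        rw [D.Xsym hxy, D.Xsym hcb, h2]
        exact Subgroup.mul_mem _ (D.mem_X' hJ hn hb _) (D.mem_X' hJ hn hy _)
      · by_cases h3 : b = y.swap
        · subst h3
          have h2 := D.relC hxy (d := c) (fne hx) (fsw hx) (fne hy) (fsw hy) t u
          rw [D.Xsym hcb, h2]
          exact Subgroup.mul_mem _ (D.mem_X' hJ hn hb _) (D.mem_X' hJ hn hx _)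
        · rw [D.commXX hxy hcb (fsw hx) (fsw hy) h1 h3]
          rw [mul_inv_cancel_right]
          exact D.mem_X hJ hn hb _
    · rintro c u rfl
      rw [D.commXL hxy (fsw hx) (fsw hy), mul_inv_cancel_right]
      exact D.QQ_L _
  · rintro x t hx τ hτ
    refine D.rt_conj _ ?_ ?_ hτ
    · rintro c b u hcb ⟨rfl, hb⟩
      by_cases h1 : b = x.swap
      · subst h1
        have h2 := D.relD' hcb u t
        rw [sw_sw] at h2
        rw [h2]
        exact Subgroup.mul_mem _ (Subgroup.mul_mem _ (D.mem_X' hJ hn hx _) (D.QQ_L _)) (D.mem_X hJ hn hb _)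
      · have h2 := D.commXL hcb (c := x) (ne_sw_symm (fsw hx)) (ne_sw_symm (show b ≠ x.swap from h1)) u t
        rw [← h2, mul_inv_cancel_right]
        exact D.mem_X hJ hn hb _
    · rintro c u rfl
      rw [D.commLL (fsw hx), mul_inv_cancel_right]
      exact D.QQ_L _

/-- Decomposition of the stabilizer. -/
lemma HI_split {g : Γ} (hg : g ∈ D.HI J n) : ∃ q ∈ D.QQ J n, ∃ l ∈ D.LL J, g = q * l := by
  refine D.rt_ind (R := fun g => ∃ q ∈ D.QQ J n, ∃ l ∈ D.LL J, g = q * l) ?_ ?_ ?_ hg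
  · exact ⟨1, Subgroup.one_mem _, 1, Subgroup.one_mem _, by simp⟩
  · rintro x y t g hxy (⟨hx, hy⟩ | ⟨rfl, hy⟩) ⟨q, hq, l, hl, rfl⟩
    · have hm : D.X x y t ∈ D.LL J := D.rtX hxy ⟨hx, hy⟩ t
      exact ⟨D.X x y t * q * (D.X x y t)⁻¹, D.LL_conj_QQ hJ hn hm hq, D.X x y t * l,
        Subgroup.mul_mem _ hm hl, by group⟩
    · exact ⟨D.X x y t * q, Subgroup.mul_mem _ (D.mem_X hJ hn hy t) hq, l, hl, by group⟩
  · rintro x t g (hx | rfl) ⟨q, hq, l, hl, rfl⟩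
    · have hm : D.L x t ∈ D.LL J := D.rtL hx t
      exact ⟨D.L x t * q * (D.L x t)⁻¹, D.LL_conj_QQ hJ hn hm hq, D.L x t * l,
        Subgroup.mul_mem _ hm hl, by group⟩
    · exact ⟨D.L x t * q, Subgroup.mul_mem _ (D.QQ_L t) hq, l, hl, by group⟩

/-- `TP` is normalized by root elements of `QQ`. -/
lemma TP_split {j : Ix m} (hj : j ∈ J) {τ : Γ} (hτ : τ ∈ D.QQ J n) :
    ∃ τ₀ ∈ D.TP J n j, ∃ z : K, τ = τ₀ * D.X n j z := by
  have hs := sh_of_mem hJ hn hj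
  have conjA : ∀ t, ∀ τ₀ ∈ D.TP J n j, D.X n j t * τ₀ * (D.X n j t)⁻¹ ∈ D.TP J n j := by
    intro t τ₀ hτ₀
    refine D.rt_conj _ ?_ ?_ hτ₀
    · rintro x y u hxy ⟨rfl, hy, hyj⟩
      by_cases h1 : y = j.swap
      · subst h1
        have h2 := D.relC' hs t u
        rw [D.Xsym hxy, h2]
        have hjj : x ≠ j := (ne_of_mem hn hj).symm
        exact Subgroup.mul_mem _ (D.rtX' hxy.symm ⟨rfl, hy, hyj⟩ _) (D.TP_L _)
      · rw [D.commXX hs hxy (sw_ne x).symm (ne_of_mem hn (hJ _ hj)).symm (ne_sw_of_mem hJ hn hy) h1, mul_inv_cancel_right]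
        exact D.rtX hxy ⟨rfl, hy, hyj⟩ _
    · rintro x u rfl
      rw [D.commXL hs (sw_ne x).symm (ne_of_mem hn (hJ _ hj)).symm, mul_inv_cancel_right]
      exact D.TP_L _
  refine D.rt_ind (R := fun τ => ∃ τ₀ ∈ D.TP J n j, ∃ z : K, τ = τ₀ * D.X n j z) ?_ ?_ ?_ hτ
  · exact ⟨1, Subgroup.one_mem _, 0, by simp [D.X_zero hs]⟩
  · rintro x y t g hxy ⟨rfl, hy⟩ ⟨τ₀, hτ₀, z, rfl⟩
    by_cases hyj : y = j
    · subst hyj
      refine ⟨D.X x y t * τ₀ * (D.X x y t)⁻¹, conjA t τ₀ hτ₀, t + z, ?_⟩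
      rw [← D.addX hs]
      group
    · exact ⟨D.X x y t * τ₀, Subgroup.mul_mem _ (D.rtX hxy ⟨rfl, hy, hyj⟩ t) hτ₀, z, by group⟩
  · rintro x t g rfl ⟨τ₀, hτ₀, z, rfl⟩
    exact ⟨D.L x t * τ₀, Subgroup.mul_mem _ (D.TP_L t) hτ₀, z, by group⟩

/-- Bound for the size of the root group of a point. -/
lemma exists_cover_QQ_aux [Finite K] (S : Finset (Ix m)) (hS : S ⊆ J) :
    ∃ F : Finset Γ, F.card ≤ Nat.card K ^ (S.card + 1) ∧ ∀ g ∈ D.QQ S n, g ∈ F := by
  classical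
  haveI := Fintype.ofFinite K
  induction S using Finset.induction_on with
  | empty =>
    refine ⟨(Finset.univ : Finset K).image (D.L n), ?_, ?_⟩
    · refine Finset.card_image_le.trans ?_
      rw [Finset.card_univ, ← Nat.card_eq_fintype_card]
      simp
    · intro g hg
      have : ∃ t, g = D.L n t := by
        refine D.rt_ind (R := fun g => ∃ t, g = D.L n t) ⟨0, (D.L_zero n).symm⟩ ?_ ?_ hg
        · rintro x y t g hxy ⟨_, hy⟩ _
          simp at hy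
        · rintro x t g rfl ⟨u, rfl⟩
          exact ⟨t + u, D.addL _ _ _⟩
      obtain ⟨t, rfl⟩ := this
      simp
  | insert b S hb ih =>
    have hS' : S ⊆ J := fun x hx => hS (Finset.mem_insert_of_mem hx)
    have hbJ : b ∈ J := hS (Finset.mem_insert_self _ _)
    obtain ⟨F, hF, hg⟩ := ih hS'
    have hsb : Sh n b := sh_of_mem hJ hn hbJ
    have key : ∀ g ∈ D.QQ (insert b S) n, ∃ t, ∃ g' ∈ D.QQ S n, g = D.X n b t * g' := by
      intro g hg
      refine D.rt_ind (R := fun g => ∃ t, ∃ g' ∈ D.QQ S n, g = D.X n b t * g') ?_ ?_ ?_ hg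
      · exact ⟨0, 1, Subgroup.one_mem _, by simp [D.X_zero hsb]⟩
      · rintro x y u g hxy ⟨rfl, hy⟩ ⟨t, g', hg', rfl⟩
        rcases Finset.mem_insert.1 hy with rfl | hyS
        · exact ⟨u + t, g', hg', by rw [← mul_assoc, D.addX hxy]⟩
        · have hyJ := hS' hyS
          have hmem : D.X x y u ∈ D.QQ S x := D.rtX hxy ⟨rfl, hyS⟩ u
          by_cases hby : b = y.swap
          · subst hby
            have h2 := D.relC' hxy u t
            have h3 : D.X x y u * D.X x y.swap t = D.X x y.swap t * D.L x (2 * sg y * u * t) * D.X x y u := by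
              rw [mul_inv_eq_iff_eq_mul] at h2
              rw [D.Xsym hsb t]
              exact h2
            refine ⟨t, D.L x (2 * sg y * u * t) * (D.X x y u * g'),
              Subgroup.mul_mem _ (D.QQ_L _) (Subgroup.mul_mem _ hmem hg'), ?_⟩
            rw [← mul_assoc, h3]
            group
          · refine ⟨t, D.X x y u * g', Subgroup.mul_mem _ hmem hg', ?_⟩
            rw [← mul_assoc, ← mul_assoc, D.commXX hxy hsb (sw_ne x).symm (ne_of_mem hn (hJ _ hyJ)).symm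
              (ne_sw_of_mem hJ hn hbJ) hby]
      · rintro x u g rfl ⟨t, g', hg', rfl⟩
        refine ⟨t, D.L x u * g', Subgroup.mul_mem _ (D.QQ_L _) hg', ?_⟩
        rw [← mul_assoc, ← mul_assoc, ← D.commXL hsb (sw_ne x).symm (ne_of_mem hn (hJ _ hbJ)).symm]
    refine ⟨((Finset.univ : Finset K) ×ˢ F).image fun p => D.X n b p.1 * p.2, ?_, ?_⟩
    · refine Finset.card_image_le.trans ?_
      rw [Finset.card_product, Finset.card_univ, ← Nat.card_eq_fintype_card,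
        Finset.card_insert_of_notMem hb, pow_succ' _ (S.card + 1)]
      exact Nat.mul_le_mul_left _ hF
    · intro g hg'
      obtain ⟨t, g₁, hg₁, rfl⟩ := key g hg'
      simp only [Finset.mem_image, Finset.mem_product, Finset.mem_univ, true_and]
      exact ⟨(t, g₁), hg _ hg₁, rfl⟩

lemma exists_cover_QQ [Finite K] : ∃ F : Finset Γ, F.card ≤ Nat.card K ^ (J.card + 1) ∧ ∀ g ∈ D.QQ J n, g ∈ F :=
  D.exists_cover_QQ_aux hJ hn J (Finset.Subset.refl _)

end Normal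

end Data

end Cfsg.Agent.Lib.SpN
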