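import Mathlib
import Cfsg.Agent.Lib.SpN4

/-!
# Steinberg relations of `Sp_{2m}`: conjugation facts for the inductive step
-/

set_option autoImplicit false
set_option linter.unusedVariables false
set_option linter.unusedSectionVars false

namespace Cfsg.Agent.Lib.SpN

open Cfsg.Agent.Lib.SpRoot (sg sg_swap sg_mul_self sg_ne_zero)

namespace Data

variable {m : ℕ} {K Γ : Type*} [Field K] [Group Γ] (D : Data m K Γ)

section Mem

variable {J : Finset (Ix m)} (hJ : ∀ x ∈ J, x.swap ∈ J)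
include hJ

lemma wL_mem_LL {x : Ix m} (hx : x ∈ J) (t : K) : D.wL x t ∈ D.LL J :=
  Subgroup.mul_mem _ (Subgroup.mul_mem _ (D.rtL hx t) (D.rtL (hJ _ hx) _)) (D.rtL hx t)

lemma dd_mem_LL {x : Ix m} (hx : x ∈ J) (t : K) : D.dd x t ∈ D.LL J :=
  Subgroup.mul_mem _ (D.wL_mem_LL hJ hx _) (D.wL_mem_LL hJ hx _)

lemma wS_mem_LL {x y : Ix m} (hx : x ∈ J) (hy : y ∈ J) (hxy : Sh x y) (t : K) : D.wS x y t ∈ D.LL J :=
  Subgroup.mul_mem _ (Subgroup.mul_mem _ (D.rtX hxy ⟨hx, hy⟩ t) (D.rtX hxy.ss ⟨hJ _ hx, hJ _ hy⟩ _))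
    (D.rtX hxy ⟨hx, hy⟩ t)

end Mem

/-- A group element fixing the root elements of `L` commutes with it. -/
lemma comm_LL {J : Finset (Ix m)} {g : Γ} {π : Ix m → Ix m} {c : Ix m → K} (A : D.Acts g π c)
    (h1 : ∀ x ∈ J, π x = x) (h2 : ∀ x ∈ J, c x = 1) {l : Γ} (hl : l ∈ D.LL J) : g * l = l * g := by
  refine D.rt_ind (R := fun l => g * l = l * g) (by simp) ?_ ?_ hl
  · rintro x y t l hxy ⟨hx, hy⟩ ih
    have := A.X hxy t
    rw [h1 x hx, h1 y hy, h2 x hx, h2 y hy, one_mul, one_mul, mul_inv_eq_iff_eq_mul] at this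
    rw [← mul_assoc, this, mul_assoc, ih, mul_assoc]
  · rintro x t l hx ih
    have := A.Lg x t
    rw [h1 x hx, h2 x hx, one_mul, one_mul, mul_inv_eq_iff_eq_mul] at this
    rw [← mul_assoc, this, mul_assoc, ih, mul_assoc]

/-- The configuration of the inductive step. -/
structure Ctx (J : Finset (Ix m)) (a j : Ix m) : Prop where
  hJ : ∀ x ∈ J, x.swap ∈ J
  ha : a ∉ J
  hj : j ∈ J
  hall : ∀ x : Ix m, ∃ b, Sh x b

namespace Ctx

variable {J : Finset (Ix m)} {a j : Ix m} (C : Ctx J a j)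
include C

lemma ha' : a.swap ∉ J := fun h => C.ha (by simpa [sw_sw] using C.hJ _ h)
lemma hj' : j.swap ∈ J := C.hJ _ C.hj

lemma ne1 {x : Ix m} (hx : x ∈ J) : x ≠ a := fun h => C.ha (h ▸ hx)
lemma ne2 {x : Ix m} (hx : x ∈ J) : x ≠ a.swap := fun h => C.ha' (h ▸ hx)

lemma sh1 {x : Ix m} (hx : x ∈ J) : Sh a x := ⟨(C.ne1 hx).symm, C.ne2 hx⟩
lemma sh2 {x : Ix m} (hx : x ∈ J) : Sh a.swap x := ⟨(C.ne2 hx).symm, by rw [sw_sw]; exact C.ne1 hx⟩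
lemma sh : Sh a j := C.sh1 C.hj
lemma sh' : Sh a j.swap := C.sh1 C.hj'

lemma hm : (-1 : K) ≠ 0 := neg_ne_zero.2 one_ne_zero

end Ctx

section Conj

variable {J : Finset (Ix m)} {a j : Ix m} (C : Ctx J a j)
include C

lemma s_acts : D.Acts (D.wS a j (1 : K)) (piS a j) (cS a j 1) := D.acts_wS C.sh one_ne_zero

lemma si_acts : D.Acts (D.wS a j (-1 : K)) (piS a j) (cS a j (-1)) := D.acts_wS C.sh C.hm

lemma s_inv : (D.wS a j (1 : K))⁻¹ = D.wS a j (-1) := D.wS_inv C.sh 1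

/-- `T` absorbed by `s`. -/
lemma s_TP {τ : Γ} (hτ : τ ∈ D.TP J a j.swap) : (D.wS a j (1 : K))⁻¹ * τ * D.wS a j 1 ∈ D.HI J a.swap := by
  have A := D.si_acts C
  have e : (D.wS a j (1 : K))⁻¹ * τ * D.wS a j 1 = D.wS a j (-1) * τ * (D.wS a j (-1 : K))⁻¹ := by
    rw [← D.s_inv C, inv_inv]
  rw [e]
  refine A.conj_rt ?_ ?_ hτ
  · rintro x y hxy ⟨hx, hy, hyj⟩
    subst x
    rw [piS_a C.sh]
    by_cases h : y = j
    · subst y
      rw [piS_b C.sh]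
      exact Or.inr (Or.inr ⟨rfl, C.hj'⟩)
    · rw [piS_off ⟨(C.ne1 hy), hyj, h, C.ne2 hy⟩]
      exact Or.inl (Or.inl ⟨C.hj', hy⟩)
  · rintro x rfl
    rw [piS_a C.sh]
    exact Or.inl C.hj'

/-- The conjugate of the part of `T` off `j`. -/
lemma s_TP' {τ : Γ} (hτ : τ ∈ D.TP J a j) : D.wS a j (1 : K) * τ * (D.wS a j (1 : K))⁻¹ ∈ D.HI J a := by
  have A := D.s_acts C
  refine A.conj_rt ?_ ?_ hτ
  · rintro x y hxy ⟨hx, hy, hyj⟩
    subst x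
    rw [piS_a C.sh]
    by_cases h : y = j.swap
    · subst y
      rw [piS_b' C.sh]
      exact Or.inr (Or.inr ⟨rfl, C.hj'⟩)
    · rw [piS_off ⟨(C.ne1 hy), h, hyj, C.ne2 hy⟩]
      exact Or.inl (Or.inl ⟨C.hj', hy⟩)
  · rintro x rfl
    rw [piS_a C.sh]
    exact Or.inl C.hj'

lemma wL_T {τ : Γ} (hτ : τ ∈ D.QQ J a) {c : K} (hc : c ≠ 0) :
    (D.wL a c)⁻¹ * τ * D.wL a c ∈ D.QQ J a.swap := by
  have A := D.acts_wL (a := a) (neg_ne_zero.2 hc) C.hall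
  have e : (D.wL a c)⁻¹ * τ * D.wL a c = D.wL a (-c) * τ * (D.wL a (-c))⁻¹ := by
    rw [← D.wL_inv, inv_inv]
  rw [e]
  refine A.conj_rt ?_ ?_ hτ
  · rintro x y hxy ⟨rfl, hy⟩
    rw [piL_a, piL_off ⟨C.ne1 hy, C.ne2 hy⟩]
    exact Or.inl ⟨rfl, hy⟩
  · rintro x rfl
    rw [piL_a]

lemma dd_T {τ : Γ} (hτ : τ ∈ D.QQ J a) {c : K} (hc : c ≠ 0) :
    D.dd a c * τ * (D.dd a c)⁻¹ ∈ D.QQ J a := by
  have A := D.acts_dd C.hall a hc
  refine A.conj_rt ?_ ?_ hτ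
  · rintro x y hxy ⟨rfl, hy⟩
    exact Or.inl ⟨rfl, hy⟩
  · rintro x rfl
    rfl

lemma dd_comm_L {l : Γ} (hl : l ∈ D.LL J) {c : K} (hc : c ≠ 0) : D.dd a c * l = l * D.dd a c :=
  D.comm_LL (D.acts_dd C.hall a hc) (fun _ _ => rfl) (fun x hx => cD_off a c ⟨C.ne1 hx, C.ne2 hx⟩) hl

lemma wL_comm_L {l : Γ} (hl : l ∈ D.LL J) {c : K} (hc : c ≠ 0) : D.wL a c * l = l * D.wL a c :=
  D.comm_LL (D.acts_wL hc C.hall) (fun x hx => piL_off ⟨C.ne1 hx, C.ne2 hx⟩)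
    (fun x hx => cL_off c ⟨C.ne1 hx, C.ne2 hx⟩) hl

lemma s_dd_a (c : K) : D.wS a j (1 : K) * D.dd a c * (D.wS a j (1 : K))⁻¹ = D.dd j.swap c := by
  rw [D.conj_dd (D.s_acts C) a c (cS_sq C.sh _), piS_a C.sh]

lemma s_dd_j' (c : K) : D.wS a j (1 : K) * D.dd j.swap c * (D.wS a j (1 : K))⁻¹ = D.dd a c := by
  rw [D.conj_dd (D.s_acts C) _ c (cS_sq C.sh _), piS_b' C.sh]

lemma s_wL_a (c : K) : D.wS a j (1 : K) * D.wL a c * (D.wS a j (1 : K))⁻¹ = D.wL j.swap c := by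
  rw [(D.s_acts C).wL, cS_sq C.sh, piS_a C.sh, one_mul]

lemma s_wL_j' (c : K) : D.wS a j (1 : K) * D.wL j.swap c * (D.wS a j (1 : K))⁻¹ = D.wL a c := by
  rw [(D.s_acts C).wL, cS_sq C.sh, piS_b' C.sh, one_mul]

lemma s_X_a (z : K) : D.wS a j (1 : K) * D.X a j z * (D.wS a j (1 : K))⁻¹ =
    D.X a.swap j.swap (sg a * sg j * z) := by
  rw [D.T10 C.sh one_ne_zero]
  simp

lemma s_X_a' (f : K) : D.wS a j (1 : K) * D.X a j.swap f * (D.wS a j (1 : K))⁻¹ = D.X a j.swap (-f) :=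
  D.T5 C.sh one_ne_zero f

/-- `dd a e * s = s * dd j̄ e`. -/
lemma dd_s (e : K) : D.dd a e * D.wS a j (1 : K) = D.wS a j 1 * D.dd j.swap e := by
  rw [← D.s_dd_j' C e]
  group

lemma dd_wL' [Finite K] {c e : K} (hc : c ≠ 0) (he : e ≠ 0) : D.dd a e * D.wL a c = D.wL a (e * c) :=
  D.dd_wL C.hall a he hc

variable {D}

/-- First kind of cosets. -/
def Y1 (D : Data m K Γ) (J : Finset (Ix m)) (a n : Ix m) (g : Γ) : Prop :=
  ∃ τ ∈ D.QQ J a, ∃ c : K, c ≠ 0 ∧ ∃ y ∈ D.HI J n, g = τ * D.dd a c * y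

/-- Last kind of cosets. -/
def Y3 (D : Data m K Γ) (J : Finset (Ix m)) (a n : Ix m) (g : Γ) : Prop :=
  ∃ c : K, c ≠ 0 ∧ ∃ y ∈ D.HI J n, g = D.wL a c * y

/-- Middle kind of cosets. -/
def Y2 (D : Data m K Γ) (J : Finset (Ix m)) (a n j : Ix m) (g : Γ) : Prop :=
  ∃ l ∈ D.LL J, ∃ f : K, ∃ y ∈ D.HI J n, g = l * D.X a j.swap f * D.wS a j 1 * y

/-- All the cosets. -/
def YY (D : Data m K Γ) (J : Finset (Ix m)) (a j : Ix m) (g : Γ) : Prop :=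
  Y1 D J a a.swap g ∨ Y3 D J a a.swap g ∨ Y2 D J a a.swap j g

/-- Left multiplication preserves the cosets. -/
def RR (D : Data m K Γ) (J : Finset (Ix m)) (a j : Ix m) (g : Γ) : Prop :=
  ∀ y, YY D J a j y → YY D J a j (g * y)

omit C in
lemma RR.mul {g h : Γ} (hg : RR D J a j g) (hh : RR D J a j h) : RR D J a j (g * h) := fun y hy => by
  rw [mul_assoc]
  exact hg _ (hh _ hy)

omit C in
lemma RR.one : RR D J a j 1 := fun y hy => by simpa using hy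

variable [Finite K]

lemma L_R {l : Γ} (hl : l ∈ D.LL J) : RR D J a j l := by
  rintro g (⟨τ, hτ, c, hc, y, hy, rfl⟩ | ⟨c, hc, y, hy, rfl⟩ | ⟨l', hl', f, y, hy, rfl⟩)
  · refine Or.inl ⟨l * τ * l⁻¹, D.LL_conj_QQ C.hJ C.ha hl hτ, c, hc, l * y,
      Subgroup.mul_mem _ (D.LL_le_HI hl) hy, ?_⟩
    have := D.dd_comm_L C hl hc
    calc l * (τ * D.dd a c * y) = l * τ * l⁻¹ * (l * D.dd a c) * y := by group
      _ = l * τ * l⁻¹ * (D.dd a c * l) * y := by rw [this]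
      _ = _ := by group
  · refine Or.inr (Or.inl ⟨c, hc, l * y, Subgroup.mul_mem _ (D.LL_le_HI hl) hy, ?_⟩)
    rw [← mul_assoc, ← D.wL_comm_L C hl hc, mul_assoc]
  · exact Or.inr (Or.inr ⟨l * l', Subgroup.mul_mem _ hl hl', f, y, hy, by group⟩)

lemma T_R {τ₀ : Γ} (hτ₀ : τ₀ ∈ D.QQ J a) : RR D J a j τ₀ := by
  rintro g (⟨τ, hτ, c, hc, y, hy, rfl⟩ | ⟨c, hc, y, hy, rfl⟩ | ⟨l, hl, f, y, hy, rfl⟩)
  · exact Or.inl ⟨τ₀ * τ, Subgroup.mul_mem _ hτ₀ hτ, c, hc, y, hy, by group⟩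
  · refine Or.inr (Or.inl ⟨c, hc, (D.wL a c)⁻¹ * τ₀ * D.wL a c * y,
      Subgroup.mul_mem _ (D.QQ_le_HI (D.wL_T C hτ₀ hc)) hy, by group⟩)
  · -- `τ₀ * l * Bq f * s * y`
    have h1 : l⁻¹ * τ₀ * l ∈ D.QQ J a := by
      have := D.LL_conj_QQ C.hJ C.ha (Subgroup.inv_mem _ hl) hτ₀
      simpa using this
    have h2 : (l⁻¹ * τ₀ * l * D.X a j.swap f)⁻¹ ∈ D.QQ J a :=
      Subgroup.inv_mem _ (Subgroup.mul_mem _ h1 (D.mem_X C.hJ C.ha C.hj' f))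
    obtain ⟨τ₂, hτ₂, z, hz⟩ := D.TP_split C.hJ C.ha C.hj' h2
    have h3 : l⁻¹ * τ₀ * l * D.X a j.swap f = D.X a j.swap (-z) * τ₂⁻¹ := by
      have := congrArg (·⁻¹) hz
      simp only [inv_inv, mul_inv_rev, D.X_inv C.sh', neg_neg] at this
      exact this
    have h4 := D.s_TP C (Subgroup.inv_mem _ hτ₂)
    refine Or.inr (Or.inr ⟨l, hl, -z, (D.wS a j (1 : K))⁻¹ * τ₂⁻¹ * D.wS a j 1 * y,
      Subgroup.mul_mem _ h4 hy, ?_⟩)
    calc τ₀ * (l * D.X a j.swap f * D.wS a j 1 * y)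
        = l * (l⁻¹ * τ₀ * l * D.X a j.swap f) * D.wS a j 1 * y := by group
      _ = l * (D.X a j.swap (-z) * τ₂⁻¹) * D.wS a j 1 * y := by rw [h3]
      _ = _ := by group

lemma dd_R {e : K} (he : e ≠ 0) : RR D J a j (D.dd a e) := by
  have hm : (-1 : K) ≠ 0 := neg_ne_zero.2 one_ne_zero
  rintro g (⟨τ, hτ, c, hc, y, hy, rfl⟩ | ⟨c, hc, y, hy, rfl⟩ | ⟨l, hl, f, y, hy, rfl⟩)
  · refine Or.inl ⟨D.dd a e * τ * (D.dd a e)⁻¹, D.dd_T C hτ he, e * c, mul_ne_zero he hc, y, hy, ?_⟩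
    rw [← D.dd_mul C.hall a he hc]
    group
  · refine Or.inr (Or.inl ⟨e * c, mul_ne_zero he hc, y, hy, ?_⟩)
    rw [← mul_assoc, D.dd_wL' C hc he]
  · have hy1 : D.dd j.swap e * y ∈ D.HI J a.swap :=
      Subgroup.mul_mem _ (D.LL_le_HI (D.dd_mem_LL C.hJ C.hj' e)) hy
    refine Or.inr (Or.inr ⟨l, hl, cD a e a * cD a e j.swap * f, D.dd j.swap e * y, hy1, ?_⟩)
    have h1 := (D.acts_dd C.hall a he).X C.sh' f
    have h2 := D.dd_comm_L C hl he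
    rw [mul_inv_eq_iff_eq_mul] at h1
    calc D.dd a e * (l * D.X a j.swap f * D.wS a j 1 * y)
        = (D.dd a e * l) * D.X a j.swap f * D.wS a j 1 * y := by group
      _ = l * (D.dd a e * D.X a j.swap f) * D.wS a j 1 * y := by rw [h2]; group
      _ = l * (D.X a j.swap (cD a e a * cD a e j.swap * f) * D.dd a e) * D.wS a j 1 * y := by rw [h1]
      _ = l * D.X a j.swap (cD a e a * cD a e j.swap * f) * (D.dd a e * D.wS a j 1) * y := by group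
      _ = l * D.X a j.swap (cD a e a * cD a e j.swap * f) * (D.wS a j 1 * D.dd j.swap e) * y := by rw [D.dd_s C]
      _ = _ := by group

lemma TL_R {g : Γ} (hg : g ∈ D.HI J a) : RR D J a j g := by
  obtain ⟨q, hq, l, hl, rfl⟩ := D.HI_split C.hJ C.ha hg
  exact (T_R C hq).mul (L_R C hl)

lemma s_YY {y : Γ} (hy : y ∈ D.HI J a.swap) : YY D J a j (D.wS a j 1 * y) :=
  Or.inr (Or.inr ⟨1, Subgroup.one_mem _, 0, y, hy, by rw [D.X_zero C.sh', one_mul, one_mul]⟩)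

open Cfsg.Agent.Lib.St2 in
open Cfsg.Agent.Lib.StN in
lemma P1 (v : K) {y : Γ} (hy : y ∈ D.HI J a.swap) :
    YY D J a j (D.X a.swap j.swap v * D.wS a j 1 * y) := by
  by_cases hv : v = 0
  · subst hv
    rw [D.X_zero C.sh.ss, one_mul]
    exact Or.inr (Or.inr ⟨1, Subgroup.one_mem _, 0, y, hy, by rw [D.X_zero C.sh', one_mul, one_mul]⟩)
  · obtain ⟨ψ, h1, h2, h3⟩ := D.exists_psiS C.sh
    have hκ : (sg a * sg j : K) * (sg a * sg j) = 1 := by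
      have h5 := sg_mul_self (K := K) a
      have h6 := sg_mul_self (K := K) j
      linear_combination (sg j * sg j) * h5 + h6
    have hκ0 : (sg a * sg j : K) ≠ 0 := mul_ne_zero (sg_ne_zero a) (sg_ne_zero j)
    set e : K := -(sg a * sg j) * v with he'
    have he : e ≠ 0 := mul_ne_zero (neg_ne_zero.2 hκ0) hv
    have h4 : ψ (mx K (false, e)) = D.X a.swap j.swap v := by
      rw [h2, he']
      congr 1
      linear_combination v * hκ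
    have h5 := congrArg ψ (I1 he)
    simp only [map_mul, h1, h3, h4] at h5
    have h6 : ψ (MD e⁻¹) = D.dd a e⁻¹ * D.dd j e⁻¹ := by
      rw [MD, map_mul, h3, h3, D.h_short C.hall C.sh (inv_ne_zero he)]
    rw [h6, h2] at h5
    refine Or.inl ⟨D.X a j e⁻¹, D.mem_X C.hJ C.ha C.hj _, e⁻¹, inv_ne_zero he,
      D.dd j e⁻¹ * D.X a.swap j.swap (-(sg a * sg j) * -e⁻¹) * y, ?_, ?_⟩
    · refine Subgroup.mul_mem _ (Subgroup.mul_mem _ (D.LL_le_HI (D.dd_mem_LL C.hJ C.hj _)) ?_) hy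
      exact D.QQ_le_HI (D.mem_X C.hJ C.ha' C.hj' _)
    · rw [h5]
      group

open Cfsg.Agent.Lib.St2 in
lemma P2 {c : K} (hc : c ≠ 0) (f : K) {y : Γ} (hy : y ∈ D.HI J a.swap) :
    YY D J a j (D.wL a c * D.X a j.swap f * y) := by
  by_cases hf : f = 0
  · subst hf
    rw [D.X_zero C.sh', mul_one]
    exact Or.inr (Or.inl ⟨c, hc, y, hy, rfl⟩)
  · obtain ⟨ψ, h1, h2, h3⟩ := D.exists_psiS C.sh'
    rw [sw_sw] at h2
    set p : K := -(sg a * sg j.swap) * f⁻¹ with hp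
    have h4 := congrArg ψ (I7 hf)
    simp only [map_mul, h1, h2, h3] at h4
    rw [← hp] at h4
    have hσ : (sg j : K) ≠ 0 := sg_ne_zero j
    have h6 := sg_mul_self (K := K) j
    set r : K := -sg j * f with hr
    have hr0 : r ≠ 0 := mul_ne_zero (neg_ne_zero.2 hσ) hf
    have h7 := D.conj_wL_wS C.hall C.sh hr0 (one_ne_zero (α := K))
    have h8 : -sg j * r * 1 = f := by
      rw [hr]
      linear_combination f * h6
    rw [h8] at h7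
    set W := D.wL j.swap r with hW
    have hWL : W ∈ D.LL J := D.wL_mem_LL C.hJ C.hj' _
    have h9 : D.wL a c * D.X a.swap j p * (D.wL a c)⁻¹ = D.X a j (sg a * c * p) :=
      D.TL2 hc (C.ne1 C.hj) (C.ne2 C.hj) p
    have h10 : D.wL a c * W = W * D.wL a c := D.wL_comm_L C hWL hc
    have h11 : D.wL a c * D.wS a j 1 = D.wS a j 1 * D.wL j.swap c := by
      rw [← D.s_wL_j' C c]
      group
    have hY : YY D J a j (D.wS a j 1 * (D.wL j.swap c * W⁻¹ * D.X a.swap j p * y)) := by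
      refine s_YY C ?_
      exact Subgroup.mul_mem _ (Subgroup.mul_mem _ (Subgroup.mul_mem _ (D.LL_le_HI (D.wL_mem_LL C.hJ C.hj' _))
          (Subgroup.inv_mem _ (D.LL_le_HI hWL))) (D.QQ_le_HI (D.mem_X C.hJ C.ha' C.hj _))) hy
    have := (T_R C (D.mem_X C.hJ C.ha C.hj (sg a * c * p))).mul (L_R C hWL) _ hY
    convert this using 1
    calc D.wL a c * D.X a j.swap f * y
        = D.wL a c * (D.X a.swap j p * D.wS a j.swap f * D.X a.swap j p) * y := by rw [h4]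
      _ = (D.wL a c * D.X a.swap j p * (D.wL a c)⁻¹) * D.wL a c * D.wS a j.swap f * D.X a.swap j p * y := by group
      _ = D.X a j (sg a * c * p) * D.wL a c * (W * D.wS a j 1 * W⁻¹) * D.X a.swap j p * y := by rw [h9, h7]
      _ = D.X a j (sg a * c * p) * (D.wL a c * W) * D.wS a j 1 * W⁻¹ * D.X a.swap j p * y := by group
      _ = D.X a j (sg a * c * p) * W * (D.wL a c * D.wS a j 1) * W⁻¹ * D.X a.swap j p * y := by rw [h10]; group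
      _ = D.X a j (sg a * c * p) * W * (D.wS a j 1 * D.wL j.swap c) * W⁻¹ * D.X a.swap j p * y := by rw [h11]
      _ = _ := by group

lemma s_Y3 {c : K} (hc : c ≠ 0) {y : Γ} (hy : y ∈ D.HI J a.swap) :
    YY D J a j (D.wS a j 1 * (D.wL a c * y)) := by
  refine Or.inr (Or.inr ⟨D.wL j.swap c, D.wL_mem_LL C.hJ C.hj' _, 0, y, hy, ?_⟩)
  rw [D.X_zero C.sh', mul_one, ← D.s_wL_a C c]
  group

lemma s_Y1 {τ : Γ} (hτ : τ ∈ D.QQ J a) {c : K} (hc : c ≠ 0) {y : Γ} (hy : y ∈ D.HI J a.swap) :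
    YY D J a j (D.wS a j 1 * (τ * D.dd a c * y)) := by
  obtain ⟨τ₀, hτ₀, z, rfl⟩ := D.TP_split C.hJ C.ha C.hj hτ
  have hμ := D.s_TP' C hτ₀
  set s := D.wS a j (1 : K) with hs
  have h1 : s * D.X a j z * s⁻¹ = D.X a.swap j.swap (sg a * sg j * z) := D.s_X_a C z
  have h2 : s * D.dd a c * s⁻¹ = D.dd j.swap c := D.s_dd_a C c
  set v := sg a * sg j * z with hv
  have A := (D.acts_dd C.hall j.swap hc).X C.sh.ss (c⁻¹ * v)
  rw [cD_a, cD_off j.swap c (x := a.swap) ⟨(C.ne2 C.hj').symm, (C.ne2 C.hj).symm |> fun h => by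
    rw [sw_sw]; exact h⟩, one_mul, show c * (c⁻¹ * v) = v by field_simp, mul_inv_eq_iff_eq_mul] at A
  have hK := (TL_R C hμ).mul (L_R C (D.dd_mem_LL C.hJ C.hj' c (K := K))) _ (P1 C (c⁻¹ * v) hy)
  convert hK using 1
  calc s * (τ₀ * D.X a j z * D.dd a c * y)
      = (s * τ₀ * s⁻¹) * (s * D.X a j z * s⁻¹) * (s * D.dd a c * s⁻¹) * s * y := by group
    _ = (s * τ₀ * s⁻¹) * (D.X a.swap j.swap v * D.dd j.swap c) * s * y := by rw [h1, h2]; group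
    _ = (s * τ₀ * s⁻¹) * (D.dd j.swap c * D.X a.swap j.swap (c⁻¹ * v)) * s * y := by rw [A]
    _ = _ := by rw [← hs]; group

/-- The smaller index set. -/
def Jp (J : Finset (Ix m)) (j : Ix m) : Finset (Ix m) := (J.erase j).erase j.swap

omit C in
lemma mem_Jp {x : Ix m} : x ∈ Jp J j ↔ x ∈ J ∧ x ≠ j ∧ x ≠ j.swap := by
  simp only [Jp, Finset.mem_erase]
  tauto

lemma Jp_swap {x : Ix m} (hx : x ∈ Jp J j) : x.swap ∈ Jp J j := by
  obtain ⟨h1, h2, h3⟩ := mem_Jp.1 hx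
  refine mem_Jp.2 ⟨C.hJ _ h1, ?_, sw_ne_sw h2⟩
  rintro rfl
  exact h3 (sw_sw x).symm

lemma Jp_off {x : Ix m} (hx : x ∈ Jp J j) : x ≠ a ∧ x ≠ j.swap ∧ x ≠ j ∧ x ≠ a.swap := by
  obtain ⟨h1, h2, h3⟩ := mem_Jp.1 hx
  exact ⟨C.ne1 h1, h3, h2, C.ne2 h1⟩

/-- The group containing the conjugates of the stabilizer. -/
def EE (D : Data m K Γ) (J : Finset (Ix m)) (a j : Ix m) : Subgroup Γ :=
  D.rt (fun x y => (x ∈ Jp J j ∧ y ∈ Jp J j) ∨ (x = j ∧ y ∈ Jp J j) ∨ (x = a ∧ y ∈ Jp J j) ∨ (x = a ∧ y = j))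
    (fun x => x ∈ Jp J j ∨ x = j ∨ x = a)

omit [Finite K] in
lemma EE_s {e : Γ} (he : e ∈ EE D J a j) : (D.wS a j (1 : K))⁻¹ * e * D.wS a j 1 ∈ D.HI J a.swap := by
  have A := D.si_acts C
  have h : (D.wS a j (1 : K))⁻¹ * e * D.wS a j 1 = D.wS a j (-1) * e * (D.wS a j (-1 : K))⁻¹ := by
    rw [← D.s_inv C, inv_inv]
  rw [h]
  refine A.conj_rt ?_ ?_ he
  · rintro x y hxy (⟨hx, hy⟩ | ⟨rfl, hy⟩ | ⟨rfl, hy⟩ | ⟨rfl, rfl⟩)
    · rw [piS_off (Jp_off C hx), piS_off (Jp_off C hy)]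
      exact Or.inl (Or.inl ⟨(mem_Jp.1 hx).1, (mem_Jp.1 hy).1⟩)
    · rw [piS_b C.sh, piS_off (Jp_off C hy)]
      exact Or.inl (Or.inr ⟨rfl, (mem_Jp.1 hy).1⟩)
    · rw [piS_a C.sh, piS_off (Jp_off C hy)]
      exact Or.inl (Or.inl ⟨C.hj', (mem_Jp.1 hy).1⟩)
    · rw [piS_a C.sh, piS_b C.sh]
      exact Or.inr (Or.inr ⟨rfl, C.hj'⟩)
  · rintro x (hx | rfl | rfl)
    · rw [piS_off (Jp_off C hx)]
      exact Or.inl (mem_Jp.1 hx).1
    · rw [piS_b C.sh]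
      exact Or.inr rfl
    · rw [piS_a C.sh]
      exact Or.inl C.hj'

omit [Finite K] in
lemma HI_EE {y' : Γ} (hy' : y' ∈ D.HI (Jp J j) j) (f : K) :
    (D.X a j.swap f)⁻¹ * y' * D.X a j.swap f ∈ EE D J a j := by
  have e : (D.X a j.swap f)⁻¹ * y' * D.X a j.swap f = D.X a j.swap (-f) * y' * (D.X a j.swap (-f))⁻¹ := by
    rw [D.X_inv C.sh', D.X_inv C.sh', neg_neg]
  rw [e]
  have hs := C.sh'
  refine D.rt_conj _ ?_ ?_ hy'
  · rintro x y t hxy (⟨hx, hy⟩ | ⟨rfl, hy⟩)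
    · obtain ⟨h1, h2, h3, h4⟩ := Jp_off C hx
      obtain ⟨h5, h6, h7, h8⟩ := Jp_off C hy
      rw [D.commXX hs hxy h4 (by simpa [sw_sw] using h2 |> fun _ => h3) h8 (by simpa [sw_sw] using h7), mul_inv_cancel_right]
      exact D.rtX hxy (Or.inl ⟨hx, hy⟩) t
    · obtain ⟨h5, h6, h7, h8⟩ := Jp_off C hy
      have h2 := D.relC hs (d := y) h5 h8 h6 (by simpa [sw_sw] using h7) (-f) t
      rw [sw_sw] at h2
      rw [h2]
      exact Subgroup.mul_mem _ (D.rtX hxy (Or.inr (Or.inl ⟨rfl, hy⟩)) t)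
        (D.rtX ⟨h5.symm, h8⟩ (Or.inr (Or.inr (Or.inl ⟨rfl, hy⟩))) _)
  · rintro x t (hx | rfl)
    · obtain ⟨h1, h2, h3, h4⟩ := Jp_off C hx
      rw [D.commXL hs h4 (by simpa [sw_sw] using h3), mul_inv_cancel_right]
      exact D.rtL (Or.inl hx) t
    · have h2 := D.relD hs (-f) t
      rw [sw_sw] at h2
      rw [h2]
      refine Subgroup.mul_mem _ (Subgroup.mul_mem _ (D.rtL (Or.inr (Or.inl rfl)) t) ?_) (D.rtL (Or.inr (Or.inr rfl)) _)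
      exact D.rtX' C.sh.symm (Or.inr (Or.inr (Or.inr ⟨rfl, rfl⟩))) _

omit [Finite K] in
/-- Absorption of the stabilizer. -/
lemma absorb {y' : Γ} (hy' : y' ∈ D.HI (Jp J j) j) (f : K) {y : Γ} (hy : y ∈ D.HI J a.swap) :
    ∃ y₂ ∈ D.HI J a.swap, y' * D.X a j.swap f * D.wS a j 1 * y = D.X a j.swap f * D.wS a j 1 * y₂ := by
  have h1 := HI_EE C hy' f
  have h2 := EE_s C h1
  refine ⟨_, Subgroup.mul_mem _ h2 hy, ?_⟩
  group

end Conj

end Data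

end Cfsg.Agent.Lib.SpN
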