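import Mathlib
import Cfsg.Agent.Lib.SpN5
import Cfsg.Agent.Lib.StN2

/-!
# Steinberg relations of `Sp_{2m}`: the closure of the cosets
-/

set_option autoImplicit false
set_option linter.unusedVariables false
set_option linter.unusedSectionVars false

namespace Cfsg.Agent.Lib.SpN

open Cfsg.Agent.Lib.SpRoot (sg sg_swap sg_mul_self sg_ne_zero)

namespace Data

variable {m : ℕ} {K Γ : Type*} [Field K] [Group Γ] {D : Data m K Γ} [Finite K]
variable {J : Finset (Ix m)} {a j : Ix m} (C : Ctx J a j)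
include C

lemma s_QQ {τ : Γ} (hτ : τ ∈ D.QQ (Jp J j) j.swap) :
    D.wS a j (1 : K) * τ * (D.wS a j (1 : K))⁻¹ ∈ D.QQ J a := by
  refine (D.s_acts C).conj_rt ?_ ?_ hτ
  · rintro x y hxy ⟨rfl, hy⟩
    rw [piS_b' C.sh, piS_off (Jp_off C hy)]
    exact Or.inl ⟨rfl, (mem_Jp.1 hy).1⟩
  · rintro x rfl
    rw [piS_b' C.sh]

lemma s_sq_form {y₂ : Γ} : D.wS a j (1 : K) * D.wS a j 1 * y₂ = D.dd a (-1) * (D.dd j (-1) * y₂) := by
  rw [D.wS_sq C.hall C.sh]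
  group

lemma YY_sq {y : Γ} (hy : y ∈ D.HI J a.swap) : YY D J a j (D.dd a (-1) * (D.dd j (-1 : K) * y)) := by
  have hm : (-1 : K) ≠ 0 := neg_ne_zero.2 one_ne_zero
  refine Or.inl ⟨1, Subgroup.one_mem _, -1, hm, D.dd j (-1) * y,
    Subgroup.mul_mem _ (D.LL_le_HI (D.dd_mem_LL C.hJ C.hj _)) hy, by group⟩

lemma case1 {τ' : Γ} (hτ' : τ' ∈ D.QQ (Jp J j) j.swap) {c : K} (hc : c ≠ 0) (f : K) {y₂ : Γ}
    (hy₂ : y₂ ∈ D.HI J a.swap) :
    YY D J a j (D.wS a j 1 * (τ' * D.dd j.swap c * (D.X a j.swap f * D.wS a j 1 * y₂))) := by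
  have h := (T_R C (s_QQ C hτ')).mul ((dd_R C hc).mul (T_R C (D.mem_X C.hJ C.ha C.hj' (-f)))) _ (YY_sq C hy₂)
  convert h using 1
  calc D.wS a j 1 * (τ' * D.dd j.swap c * (D.X a j.swap f * D.wS a j 1 * y₂))
      = (D.wS a j 1 * τ' * (D.wS a j 1)⁻¹) * (D.wS a j 1 * D.dd j.swap c * (D.wS a j 1)⁻¹) *
        (D.wS a j 1 * D.X a j.swap f * (D.wS a j 1)⁻¹) * (D.wS a j 1 * D.wS a j 1 * y₂) := by group
    _ = _ := by
      rw [D.s_dd_j' C, D.s_X_a' C, s_sq_form C]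
      group

lemma case3 {c : K} (hc : c ≠ 0) (f : K) {y₂ : Γ} (hy₂ : y₂ ∈ D.HI J a.swap) :
    YY D J a j (D.wS a j 1 * (D.wL j.swap c * (D.X a j.swap f * D.wS a j 1 * y₂))) := by
  have hm : (-1 : K) ≠ 0 := neg_ne_zero.2 one_ne_zero
  have hc' : c / -1 ≠ 0 := div_ne_zero hc hm
  have h := P2 C hc' f (y := D.dd j (-1) * y₂) (Subgroup.mul_mem _ (D.LL_le_HI (D.dd_mem_LL C.hJ C.hj _)) hy₂)
  convert h using 1
  have h1 := (D.acts_dd C.hall a hm).X C.sh' f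
  rw [cD_a, cD_off a (-1 : K) (x := j.swap) ⟨C.ne1 C.hj', C.ne2 C.hj'⟩, mul_one, mul_inv_eq_iff_eq_mul] at h1
  have h2 : D.X a j.swap (-f) * D.dd a (-1) = D.dd a (-1) * D.X a j.swap f := by
    rw [h1]
    congr 2
    ring
  calc D.wS a j 1 * (D.wL j.swap c * (D.X a j.swap f * D.wS a j 1 * y₂))
      = (D.wS a j 1 * D.wL j.swap c * (D.wS a j 1)⁻¹) *
        (D.wS a j 1 * D.X a j.swap f * (D.wS a j 1)⁻¹) * (D.wS a j 1 * D.wS a j 1 * y₂) := by group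
    _ = D.wL a c * D.X a j.swap (-f) * (D.dd a (-1) * (D.dd j (-1) * y₂)) := by
      rw [D.s_wL_j' C, D.s_X_a' C, s_sq_form C]
    _ = D.wL a c * (D.X a j.swap (-f) * D.dd a (-1)) * (D.dd j (-1) * y₂) := by group
    _ = (D.wL a c * D.dd a (-1)) * D.X a j.swap f * (D.dd j (-1) * y₂) := by rw [h2]; group
    _ = _ := by rw [D.wL_dd C.hall a hm hc]

lemma case2 {j₂ : Ix m} (hj₂ : j₂ ∈ Jp J j) {l' : Γ} (hl' : l' ∈ D.LL (Jp J j)) (f' f : K) {y₂ : Γ}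
    (hy₂ : y₂ ∈ D.HI J a.swap) :
    YY D J a j (D.wS a j 1 * (l' * D.X j.swap j₂.swap f' * D.wS j.swap j₂ 1 * (D.X a j.swap f * D.wS a j 1 * y₂))) := by
  have hm : (-1 : K) ≠ 0 := neg_ne_zero.2 one_ne_zero
  obtain ⟨h2J, h2a, h2b⟩ := mem_Jp.1 hj₂
  have h2' : j₂.swap ∈ Jp J j := Jp_swap C hj₂
  have h2J' : j₂.swap ∈ J := C.hJ _ h2J
  have S1 : Sh j.swap j₂ := ⟨h2b.symm, by rw [sw_sw]; exact h2a⟩
  have S2 : Sh j.swap j₂.swap := S1.sr
  have S3 : Sh a j₂ := C.sh1 h2J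
  have A := D.s_acts C
  -- s commutes with l'
  have hcomm : D.wS a j (1 : K) * l' = l' * D.wS a j 1 :=
    D.comm_LL A (fun x hx => piS_off (Jp_off C hx)) (fun x hx => cS_off 1 (Jp_off C hx)) hl'
  -- the root element
  have e1 := A.X S2 f'
  rw [piS_b' C.sh, piS_off (Jp_off C h2')] at e1
  have hτ : D.X a j₂.swap (cS a j 1 j.swap * cS a j 1 j₂.swap * f') ∈ D.QQ J a := D.mem_X C.hJ C.ha h2J' _
  -- the Weyl element
  have e2 := A.wS S1 (t := (1 : K)) one_ne_zero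
  rw [piS_b' C.sh, piS_off (Jp_off C hj₂), cS_b' C.sh, cS_off 1 (Jp_off C hj₂)] at e2
  set ρ : K := sg j * 1 * 1 * 1 with hρ
  have hρ0 : ρ ≠ 0 := by
    rw [hρ]
    simpa using sg_ne_zero j
  have hρρ : ρ * ρ = 1 := by
    rw [hρ]
    have h6 := sg_mul_self (K := K) j
    linear_combination h6
  have A₂ := D.acts_wS S3 hρ0
  -- the action of `w₂`
  have e3 := A₂.X C.sh' (-f)
  rw [piS_a S3, piS_off (a := a) (b := j₂) (x := j.swap) ⟨C.ne1 C.hj', sw_ne_sw h2a.symm, h2b.symm, C.ne2 C.hj'⟩] at e3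
  have hl3 : D.X j₂.swap j.swap (cS a j₂ ρ a * cS a j₂ ρ j.swap * -f) ∈ D.LL J :=
    D.rtX (A₂.sh C.sh' |> fun h => by
      rwa [piS_a S3, piS_off (a := a) (b := j₂) (x := j.swap) ⟨C.ne1 C.hj', sw_ne_sw h2a.symm, h2b.symm, C.ne2 C.hj'⟩] at h)
      ⟨h2J', C.hj'⟩ _
  have hsq : cS a j₂ ρ a * cS a j₂ ρ a = 1 := by
    rw [cS_a S3]
    have h6 := sg_mul_self (K := K) j₂
    have : (-sg j₂ * ρ⁻¹) * (-sg j₂ * ρ⁻¹) = (sg j₂ * sg j₂) * (ρ⁻¹ * ρ⁻¹) := by ring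
    rw [this, h6, one_mul, ← mul_inv, hρρ, inv_one]
  have e4 := D.conj_dd A₂ a (-1) hsq
  rw [piS_a S3] at e4
  -- `w₂` in terms of `s`
  have A₃ := D.acts_wS S1 hm
  have e5 := A₃.wS C.sh (t := (1 : K)) one_ne_zero
  have h21 := piS_a' S1
  have h22 := cS_a' S1 (-1 : K)
  rw [sw_sw] at h21 h22
  rw [piS_off (a := j.swap) (b := j₂) (x := a) ⟨(C.ne1 C.hj').symm, (C.ne1 h2J').symm, (C.ne1 h2J).symm, by
      rw [sw_sw]; exact (C.ne1 C.hj).symm⟩, h21, h22, cS_off (a := j.swap) (b := j₂) (x := a) (-1) ⟨(C.ne1 C.hj').symm, (C.ne1 h2J').symm, (C.ne1 h2J).symm, by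
      rw [sw_sw]; exact (C.ne1 C.hj).symm⟩, sg_sw] at e5
  have hi : (D.wS j.swap j₂ (1 : K))⁻¹ = D.wS j.swap j₂ (-1) := D.wS_inv S1 1
  rw [← hi, inv_inv] at e5
  have e6 : D.wS a j₂ ρ = (D.wS j.swap j₂ (1 : K))⁻¹ * D.wS a j 1 * D.wS j.swap j₂ 1 := by
    rw [e5]
    congr 1
    rw [hρ]
    ring
  have hs1 : D.wS j.swap j₂ (1 : K) ∈ D.LL J := D.wS_mem_LL C.hJ C.hj' h2J S1 _
  have hZ : D.wS j.swap j₂ 1 * (D.dd j (-1) * y₂) ∈ D.HI J a.swap :=
    Subgroup.mul_mem _ (D.LL_le_HI hs1) (Subgroup.mul_mem _ (D.LL_le_HI (D.dd_mem_LL C.hJ C.hj _)) hy₂)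
  have hL' : l' ∈ D.LL J := D.rt_mono (fun x y _ h => ⟨(mem_Jp.1 h.1).1, (mem_Jp.1 h.2).1⟩) (fun x h => (mem_Jp.1 h).1) hl'
  have h := (L_R C hL').mul ((T_R C hτ).mul ((L_R C hl3).mul ((L_R C (D.dd_mem_LL C.hJ h2J' (-1 : K))).mul
    (L_R C (Subgroup.inv_mem _ hs1))))) _ (s_YY C hZ)
  convert h using 1
  calc D.wS a j 1 * (l' * D.X j.swap j₂.swap f' * D.wS j.swap j₂ 1 * (D.X a j.swap f * D.wS a j 1 * y₂))
      = (D.wS a j 1 * l') * D.X j.swap j₂.swap f' * D.wS j.swap j₂ 1 * (D.X a j.swap f * D.wS a j 1 * y₂) := by group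
    _ = l' * (D.wS a j 1 * D.X j.swap j₂.swap f' * (D.wS a j 1)⁻¹) *
        (D.wS a j 1 * D.wS j.swap j₂ 1 * (D.wS a j 1)⁻¹) * (D.wS a j 1 * D.X a j.swap f * (D.wS a j 1)⁻¹) *
        (D.wS a j 1 * D.wS a j 1 * y₂) := by
      rw [hcomm]
      group
    _ = l' * D.X a j₂.swap (cS a j 1 j.swap * cS a j 1 j₂.swap * f') * D.wS a j₂ ρ * D.X a j.swap (-f) *
        (D.dd a (-1) * (D.dd j (-1) * y₂)) := by
      rw [e1, e2, D.s_X_a' C, s_sq_form C]
    _ = l' * D.X a j₂.swap (cS a j 1 j.swap * cS a j 1 j₂.swap * f') *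
        (D.wS a j₂ ρ * D.X a j.swap (-f) * (D.wS a j₂ ρ)⁻¹) * (D.wS a j₂ ρ * D.dd a (-1) * (D.wS a j₂ ρ)⁻¹) *
        (D.wS a j₂ ρ * (D.dd j (-1) * y₂)) := by group
    _ = l' * D.X a j₂.swap (cS a j 1 j.swap * cS a j 1 j₂.swap * f') *
        D.X j₂.swap j.swap (cS a j₂ ρ a * cS a j₂ ρ j.swap * -f) * D.dd j₂.swap (-1) *
        (D.wS a j₂ ρ * (D.dd j (-1) * y₂)) := by rw [e3, e4]
    _ = _ := by rw [e6]; group

/-- The induction hypothesis. -/
def IHyp (D : Data m K Γ) (J : Finset (Ix m)) (j : Ix m) : Prop :=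
  ∀ l ∈ D.LL J, Y1 D (Jp J j) j.swap j l ∨ Y3 D (Jp J j) j.swap j l ∨ ∃ j₂ ∈ Jp J j, Y2 D (Jp J j) j.swap j j₂ l

lemma s_Y2 (hI : IHyp D J j) {l : Γ} (hl : l ∈ D.LL J) (f : K) {y : Γ} (hy : y ∈ D.HI J a.swap) :
    YY D J a j (D.wS a j 1 * (l * D.X a j.swap f * D.wS a j 1 * y)) := by
  rcases hI l hl with ⟨τ', hτ', c, hc, y', hy', rfl⟩ | ⟨c, hc, y', hy', rfl⟩ | ⟨j₂, hj₂, l', hl', f', y', hy', rfl⟩
  · obtain ⟨y₂, hy₂, e⟩ := absorb C hy' f hy
    have h := case1 C hτ' hc f hy₂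
    rw [← e] at h
    convert h using 1
    group
  · obtain ⟨y₂, hy₂, e⟩ := absorb C hy' f hy
    have h := case3 C hc f hy₂
    rw [← e] at h
    convert h using 1
    group
  · obtain ⟨y₂, hy₂, e⟩ := absorb C hy' f hy
    have h := case2 C hj₂ hl' f' f hy₂
    rw [← e] at h
    convert h using 1
    group

lemma s_R (hI : IHyp D J j) : RR D J a j (D.wS a j 1) := by
  rintro g (⟨τ, hτ, c, hc, y, hy, rfl⟩ | ⟨c, hc, y, hy, rfl⟩ | ⟨l, hl, f, y, hy, rfl⟩)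
  · exact s_Y1 C hτ hc hy
  · exact s_Y3 C hc hy
  · exact s_Y2 C hI hl f hy

lemma si_R (hI : IHyp D J j) : RR D J a j (D.wS a j 1)⁻¹ := by
  have hm : (-1 : K) ≠ 0 := neg_ne_zero.2 one_ne_zero
  have e : (D.wS a j (1 : K))⁻¹ = D.wS a j 1 * (D.dd j (-1))⁻¹ * (D.dd a (-1))⁻¹ := by
    have h := D.wS_sq C.hall C.sh
    have h2 : (D.dd j (-1 : K))⁻¹ * (D.dd a (-1))⁻¹ = (D.wS a j 1 * D.wS a j 1)⁻¹ := by
      rw [h]
      group
    rw [mul_assoc, h2]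
    group
  rw [e, D.dd_inv C.hall a hm, inv_neg, inv_one]
  exact ((s_R C hI).mul (L_R C (Subgroup.inv_mem _ (D.dd_mem_LL C.hJ C.hj _)))).mul (dd_R C hm)

lemma gen_X (hI : IHyp D J j) {b : Ix m} (hb : b ∈ J) (t : K) : RR D J a j (D.X a.swap b t) := by
  have hm : (-1 : K) ≠ 0 := neg_ne_zero.2 one_ne_zero
  have A := D.s_acts C
  have hκ : (sg a * sg j : K) * (sg a * sg j) = 1 := by
    have h5 := sg_mul_self (K := K) a
    have h6 := sg_mul_self (K := K) j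
    linear_combination (sg j * sg j) * h5 + h6
  have base : ∀ t : K, RR D J a j (D.X a.swap j.swap t) := by
    intro t
    have h1 := D.s_X_a C (sg a * sg j * t)
    have e : sg a * sg j * (sg a * sg j * t) = t := by
      linear_combination t * hκ
    rw [e] at h1
    rw [← h1]
    exact ((s_R C hI).mul (T_R C (D.mem_X C.hJ C.ha C.hj _))).mul (si_R C hI)
  by_cases h1 : b = j.swap
  · subst h1
    exact base t
  · by_cases h2 : b = j
    · subst h2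
      have hone : (1 : K) ≠ 0 := one_ne_zero
      have A' := D.acts_wL (a := b) hone C.hall
      have e := A'.X (C.sh2 C.hj') (sg b * t)
      rw [piL_off (x := a.swap) ⟨(C.ne2 C.hj).symm, (C.ne2 C.hj').symm⟩, piL_a', cL_a', cL_off 1 (x := a.swap) ⟨(C.ne2 C.hj).symm, (C.ne2 C.hj').symm⟩] at e
      have h6 := sg_mul_self (K := K) b
      have e2 : (1 : K) * (sg b * 1) * (sg b * t) = t := by
        linear_combination t * h6
      rw [e2] at e
      rw [← e]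
      have hW := D.wL_mem_LL C.hJ C.hj (1 : K)
      exact ((L_R C hW).mul (base _)).mul (L_R C (Subgroup.inv_mem _ hW))
    · have S : Sh j b := ⟨Ne.symm h2, h1⟩
      have hoff : b ≠ a ∧ b ≠ j.swap ∧ b ≠ j ∧ b ≠ a.swap := ⟨C.ne1 hb, h1, h2, C.ne2 hb⟩
      have e := A.X S (-sg a * t)
      rw [piS_b C.sh, piS_off hoff, cS_b C.sh, cS_off 1 hoff] at e
      have h5 := sg_mul_self (K := K) a
      have e2 : -sg a * (1 : K)⁻¹ * 1 * (-sg a * t) = t := by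
        rw [inv_one]
        linear_combination t * h5
      rw [e2] at e
      rw [← e]
      exact ((s_R C hI).mul (L_R C (D.rtX S ⟨C.hj, hb⟩ _))).mul (si_R C hI)

lemma gen_L (hI : IHyp D J j) (t : K) : RR D J a j (D.L a.swap t) := by
  have e := (D.s_acts C).Lg j t
  rw [piS_b C.sh, cS_sq C.sh, one_mul] at e
  rw [← e]
  exact ((s_R C hI).mul (L_R C (D.rtL C.hj _))).mul (si_R C hI)

omit C in
lemma mem_ins {x : Ix m} : x ∈ insert a (insert a.swap J) ↔ x ∈ J ∨ x = a ∨ x = a.swap := by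
  simp only [Finset.mem_insert]
  tauto

lemma all_R (hI : IHyp D J j) {g : Γ} (hg : g ∈ D.LL (insert a (insert a.swap J))) : RR D J a j g := by
  refine D.rt_ind (R := fun g => RR D J a j g) RR.one ?_ ?_ hg
  · rintro x y t g hxy ⟨hx, hy⟩ ih
    refine RR.mul ?_ ih
    rcases mem_ins.1 hx with hx' | hx' | hx' <;> rcases mem_ins.1 hy with hy' | hy' | hy' <;> (try subst x) <;> (try subst y)
    · exact L_R C (D.rtX hxy ⟨hx', hy'⟩ t)
    · exact T_R C (D.mem_X' C.hJ C.ha hx' t)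
    · rw [D.Xsym hxy]
      exact gen_X C hI hx' t
    · exact T_R C (D.mem_X C.hJ C.ha hy' t)
    · exact absurd rfl hxy.1
    · exact absurd rfl hxy.2
    · exact gen_X C hI hy' t
    · exact absurd (sw_sw _).symm hxy.2
    · exact absurd rfl hxy.1
  · rintro x t g hx ih
    refine RR.mul ?_ ih
    rcases mem_ins.1 hx with hx' | hx' | hx'
    · exact L_R C (D.rtL hx' t)
    · subst x
      exact T_R C (D.QQ_L t)
    · subst x
      exact gen_L C hI t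

/-- The closure theorem. -/
theorem Y_all (hI : IHyp D J j) {g : Γ} (hg : g ∈ D.LL (insert a (insert a.swap J))) : YY D J a j g := by
  have h1 : YY D J a j 1 := Or.inl ⟨1, Subgroup.one_mem _, 1, one_ne_zero, 1, Subgroup.one_mem _, by
    rw [D.dd_one C.hall]; simp⟩
  have := all_R C hI hg 1 h1
  simpa using this

/-- The inductive step of the covering. -/
theorem step_cover (hI : IHyp D J j) {R : Finset Γ}
    (hR : ∀ g ∈ D.LL J, ∃ r ∈ R, ∃ h ∈ D.HI (Jp J j) j, g = r * h) :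
    ∃ F : Finset Γ, F.card ≤ Nat.card K ^ (J.card + 1) * (Nat.card K - 1) + R.card * Nat.card K + (Nat.card K - 1) ∧
      ∀ g ∈ D.LL (insert a (insert a.swap J)), ∃ r ∈ F, ∃ y ∈ D.HI J a.swap, g = r * y := by
  classical
  haveI := Fintype.ofFinite K
  obtain ⟨FT, hFT, hT⟩ := D.exists_cover_QQ C.hJ C.ha
  let F1 : Finset Γ := (FT ×ˢ (Finset.univ : Finset Kˣ)).image fun p => p.1 * D.dd a (p.2 : K)
  let F2 : Finset Γ := (R ×ˢ (Finset.univ : Finset K)).image fun p => p.1 * D.X a j.swap p.2 * D.wS a j 1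
  let F3 : Finset Γ := (Finset.univ : Finset Kˣ).image fun c : Kˣ => D.wL a (c : K)
  refine ⟨F1 ∪ F2 ∪ F3, ?_, ?_⟩
  · refine (Finset.card_union_le _ _).trans (Nat.add_le_add ((Finset.card_union_le _ _).trans (Nat.add_le_add ?_ ?_)) ?_)
    · refine Finset.card_image_le.trans ?_
      rw [Finset.card_product, Finset.card_univ, ← Nat.card_eq_fintype_card, Nat.card_units]
      exact Nat.mul_le_mul_right _ hFT
    · refine Finset.card_image_le.trans ?_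
      rw [Finset.card_product, Finset.card_univ, ← Nat.card_eq_fintype_card]
    · refine Finset.card_image_le.trans ?_
      rw [Finset.card_univ, ← Nat.card_eq_fintype_card, Nat.card_units]
  · intro g hg
    rcases Y_all C hI hg with ⟨τ, hτ, c, hc, y, hy, rfl⟩ | ⟨c, hc, y, hy, rfl⟩ | ⟨l, hl, f, y, hy, rfl⟩
    · refine ⟨τ * D.dd a c, Finset.mem_union_left _ (Finset.mem_union_left _ ?_), y, hy, rfl⟩
      simp only [F1, Finset.mem_image, Finset.mem_product, Finset.mem_univ, and_true]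
      exact ⟨(τ, Units.mk0 c hc), hT τ hτ, rfl⟩
    · refine ⟨D.wL a c, Finset.mem_union_right _ ?_, y, hy, rfl⟩
      simp only [F3, Finset.mem_image, Finset.mem_univ, true_and]
      exact ⟨Units.mk0 c hc, rfl⟩
    · obtain ⟨r, hr, h0, hh0, rfl⟩ := hR l hl
      obtain ⟨y₂, hy₂, e⟩ := absorb C hh0 f hy
      refine ⟨r * D.X a j.swap f * D.wS a j 1, Finset.mem_union_left _ (Finset.mem_union_right _ ?_), y₂, hy₂, ?_⟩
      · simp only [F2, Finset.mem_image, Finset.mem_product, Finset.mem_univ, and_true]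
        exact ⟨(r, f), hr, rfl⟩
      · calc r * h0 * D.X a j.swap f * D.wS a j 1 * y = r * (h0 * D.X a j.swap f * D.wS a j 1 * y) := by group
          _ = r * (D.X a j.swap f * D.wS a j 1 * y₂) := by rw [e]
          _ = _ := by group

end Data

end Cfsg.Agent.Lib.SpN
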