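import Mathlib
import Cfsg.Agent.Lib.SpN6

/-!
# Steinberg relations of `Sp_{2m}`: the induction
-/

set_option autoImplicit false
set_option linter.unusedVariables false
set_option linter.unusedSectionVars false

namespace Cfsg.Agent.Lib.SpN

open Cfsg.Agent.Lib.SpRoot (sg sg_swap sg_mul_self sg_ne_zero)

/-- The order of `Sp_{2k}(q)`. -/
def NS (q : ℕ) : ℕ → ℕ
  | 0 => 1
  | k + 1 => (q ^ (2 * k + 2) - 1) * q ^ (2 * k + 1) * NS q k

namespace Data

variable {m : ℕ} {K Γ : Type*} [Field K] [Group Γ] (D : Data m K Γ) [Finite K]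
variable (hall : ∀ x : Ix m, ∃ b, Sh x b)

open Cfsg.Agent.Lib.St2 Cfsg.Agent.Lib.StN in
include hall in
theorem base_ind (a : Ix m) :
    (∀ g ∈ D.LL (insert a (insert a.swap (∅ : Finset (Ix m)))), Y1 D ∅ a a.swap g ∨ Y3 D ∅ a a.swap g) ∧
    ∃ F : Finset Γ, F.card ≤ Nat.card K ^ 2 - 1 ∧
      ∀ g ∈ D.LL (insert a (insert a.swap (∅ : Finset (Ix m)))), ∃ r ∈ F, ∃ y ∈ D.HI ∅ a.swap, g = r * y := by
  classical
  haveI := Fintype.ofFinite K
  obtain ⟨ψ, h1, h2, h3, h4⟩ := D.exists_psiL hall a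
  have hle : D.LL (insert a (insert a.swap (∅ : Finset (Ix m)))) ≤ ψ.range := by
    refine D.rt_le ?_ ?_
    · rintro x y t hxy ⟨hx, hy⟩
      simp only [Finset.mem_insert, Finset.notMem_empty, or_false] at hx hy
      rcases hx with rfl | rfl <;> rcases hy with rfl | rfl
      · exact absurd rfl hxy.1
      · exact absurd rfl hxy.2
      · exact absurd (sw_sw _).symm hxy.2
      · exact absurd rfl hxy.1
    · rintro x t hx
      simp only [Finset.mem_insert, Finset.notMem_empty, or_false] at hx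
      rcases hx with rfl | rfl
      · exact ⟨mx K (true, t), h1 t⟩
      · refine ⟨mx K (false, -t), ?_⟩
        rw [h2, neg_neg]
  have key : ∀ g ∈ D.LL (insert a (insert a.swap (∅ : Finset (Ix m)))),
      (∃ z c v : K, c ≠ 0 ∧ g = D.L a z * D.dd a c * D.L a.swap (-v)) ∨
      (∃ c v : K, c ≠ 0 ∧ g = D.wL a c * D.L a.swap (-v)) := by
    intro g hg
    obtain ⟨A, rfl⟩ := hle hg
    rcases decomp A with ⟨z, c, v, hc, rfl⟩ | ⟨c, v, hc, rfl⟩
    · exact Or.inl ⟨z, c, v, hc, by rw [map_mul, map_mul, h1, h2, h4]⟩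
    · exact Or.inr ⟨c, v, hc, by rw [map_mul, h2, h3]⟩
  have hQ : ∀ z : K, D.L a z ∈ D.QQ (∅ : Finset (Ix m)) a := fun z => D.QQ_L z
  have hH : ∀ v : K, D.L a.swap v ∈ D.HI (∅ : Finset (Ix m)) a.swap := fun v => D.rtL (Or.inr rfl) v
  refine ⟨?_, ?_⟩
  · intro g hg
    rcases key g hg with ⟨z, c, v, hc, rfl⟩ | ⟨c, v, hc, rfl⟩
    · exact Or.inl ⟨_, hQ z, c, hc, _, hH _, rfl⟩
    · exact Or.inr ⟨c, hc, _, hH _, rfl⟩
  · have hq : 1 ≤ Nat.card K := Nat.card_pos
    let F1 : Finset Γ := ((Finset.univ : Finset K) ×ˢ (Finset.univ : Finset Kˣ)).image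
      fun p => D.L a p.1 * D.dd a (p.2 : K)
    let F2 : Finset Γ := (Finset.univ : Finset Kˣ).image (fun c : Kˣ => D.wL a (c : K))
    refine ⟨F1 ∪ F2, ?_, ?_⟩
    · refine (Finset.card_union_le _ _).trans ?_
      have c1 : F1.card ≤ Nat.card K * (Nat.card K - 1) := by
        refine Finset.card_image_le.trans ?_
        rw [Finset.card_product, Finset.card_univ, Finset.card_univ, ← Nat.card_eq_fintype_card,
          ← Nat.card_eq_fintype_card, Nat.card_units]
      have c2 : F2.card ≤ Nat.card K - 1 := by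
        refine Finset.card_image_le.trans ?_
        rw [Finset.card_univ, ← Nat.card_eq_fintype_card, Nat.card_units]
      refine (Nat.add_le_add c1 c2).trans (le_of_eq ?_)
      generalize Nat.card K = q at hq
      obtain ⟨q, rfl⟩ : ∃ r, q = r + 1 := ⟨q - 1, by omega⟩
      simp only [Nat.add_sub_cancel]
      have : (q + 1) ^ 2 = (q + 1) * q + q + 1 := by ring
      omega
    · intro g hg
      rcases key g hg with ⟨z, c, v, hc, rfl⟩ | ⟨c, v, hc, rfl⟩
      · refine ⟨D.L a z * D.dd a c, Finset.mem_union_left _ ?_, _, hH _, rfl⟩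
        simp only [F1, Finset.mem_image, Finset.mem_product, Finset.mem_univ, and_true]
        exact ⟨(z, Units.mk0 c hc), trivial, rfl⟩
      · refine ⟨D.wL a c, Finset.mem_union_right _ ?_, _, hH _, rfl⟩
        simp only [F2, Finset.mem_image, Finset.mem_univ, true_and]
        exact ⟨Units.mk0 c hc, rfl⟩

lemma ins_Jp {J : Finset (Ix m)} {j : Ix m} (hj : j ∈ J) (hj' : j.swap ∈ J) :
    insert j.swap (insert j.swap.swap (Jp J j)) = J := by
  ext x
  simp only [sw_sw, Finset.mem_insert, mem_Jp]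
  constructor
  · rintro (rfl | rfl | h)
    · exact hj'
    · exact hj
    · exact h.1
  · intro h
    by_cases h1 : x = j.swap
    · exact Or.inl h1
    · by_cases h2 : x = j
      · exact Or.inr (Or.inl h2)
      · exact Or.inr (Or.inr ⟨h, h2, h1⟩)

lemma card_Jp {J : Finset (Ix m)} {j : Ix m} (hj : j ∈ J) (hj' : j.swap ∈ J) :
    (Jp J j).card + 2 = J.card := by
  have h1 : j.swap ∈ J.erase j := Finset.mem_erase.2 ⟨sw_ne j, hj'⟩
  have h2 := Finset.card_erase_add_one h1
  have h3 := Finset.card_erase_add_one hj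
  simp only [Jp]
  omega

lemma Jp_sw {J : Finset (Ix m)} {j : Ix m} (hJ : ∀ x ∈ J, x.swap ∈ J) {x : Ix m} (hx : x ∈ Jp J j) :
    x.swap ∈ Jp J j := by
  obtain ⟨h1, h2, h3⟩ := mem_Jp.1 hx
  refine mem_Jp.2 ⟨hJ _ h1, ?_, sw_ne_sw h2⟩
  rintro rfl
  exact h3 (sw_sw x).symm

include hall in
/-- The main induction. -/
theorem main_ind : ∀ (k : ℕ) (J : Finset (Ix m)), J.card = 2 * k → (∀ x ∈ J, x.swap ∈ J) →
    (Finite (D.LL J) ∧ Nat.card (D.LL J) ≤ NS (Nat.card K) k) ∧
    ∀ a, a ∉ J →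
      (∀ g ∈ D.LL (insert a (insert a.swap J)),
        Y1 D J a a.swap g ∨ Y3 D J a a.swap g ∨ ∃ j ∈ J, Y2 D J a a.swap j g) ∧
      ∃ F : Finset Γ, F.card ≤ Nat.card K ^ (2 * k + 2) - 1 ∧
        ∀ g ∈ D.LL (insert a (insert a.swap J)), ∃ r ∈ F, ∃ y ∈ D.HI J a.swap, g = r * y := by
  intro k
  induction k with
  | zero =>
    intro J hcard hJ
    have hJe : J = ∅ := Finset.card_eq_zero.1 (by simpa using hcard)
    subst hJe
    refine ⟨?_, ?_⟩
    · have hb : D.LL (∅ : Finset (Ix m)) = ⊥ := by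
        rw [eq_bot_iff]
        refine D.rt_le ?_ ?_
        · rintro x y t hxy ⟨hx, _⟩
          simp at hx
        · rintro x t hx
          simp at hx
      rw [hb]
      exact ⟨inferInstance, by simp [NS]⟩
    · intro a _
      obtain ⟨h1, F, hF, h2⟩ := D.base_ind hall a
      refine ⟨?_, F, by simpa using hF, h2⟩
      intro g hg
      rcases h1 g hg with h | h
      · exact Or.inl h
      · exact Or.inr (Or.inl h)
  | succ k ih =>
    intro J hcard hJ
    have hq : 1 ≤ Nat.card K := Nat.card_pos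
    have hne : J.Nonempty := Finset.card_pos.1 (by omega)
    obtain ⟨j, hj⟩ := hne
    have hj' := hJ _ hj
    have hc' : (Jp J j).card = 2 * k := by
      have := card_Jp hj hj'
      omega
    have hJ' : ∀ x ∈ Jp J j, x.swap ∈ Jp J j := fun x hx => Jp_sw hJ hx
    obtain ⟨⟨hfin, hcd⟩, hrest⟩ := ih (Jp J j) hc' hJ'
    have hjb : j.swap ∉ Jp J j := fun h => (mem_Jp.1 h).2.2 rfl
    obtain ⟨hY, R, hR, hcov⟩ := hrest j.swap hjb
    rw [ins_Jp hj hj'] at hY hcov
    simp only [sw_sw] at hY hcov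
    have hI : IHyp D J j := hY
    have hn : j ∉ Jp J j := fun h => (mem_Jp.1 h).2.1 rfl
    refine ⟨?_, ?_⟩
    · -- the bound on the order
      obtain ⟨FU, hFU, hU⟩ := D.exists_cover_QQ hJ' hn
      have hsplit : ∀ g ∈ D.HI (Jp J j) j, ∃ r ∈ FU, ∃ y ∈ D.LL (Jp J j), g = r * y := by
        intro g hg
        obtain ⟨q, hq', l, hl, rfl⟩ := D.HI_split hJ' hn hg
        exact ⟨q, hU q hq', l, hl, rfl⟩
      obtain ⟨hHfin, hHcard⟩ := Cfsg.Agent.Lib.StN.Data.card_le_of_cover hfin hsplit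
      obtain ⟨hLfin, hLcard⟩ := Cfsg.Agent.Lib.StN.Data.card_le_of_cover hHfin hcov
      refine ⟨hLfin, hLcard.trans ?_⟩
      rw [hc'] at hFU
      calc R.card * Nat.card (D.HI (Jp J j) j)
          ≤ (Nat.card K ^ (2 * k + 2) - 1) * (Nat.card K ^ (2 * k + 1) * NS (Nat.card K) k) :=
            Nat.mul_le_mul hR (hHcard.trans (Nat.mul_le_mul hFU hcd))
        _ = _ := by
            rw [NS, mul_assoc]
    · intro a ha
      have C : Ctx J a j := ⟨hJ, ha, hj, hall⟩
      refine ⟨?_, ?_⟩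
      · intro g hg
        rcases Y_all C hI hg with h | h | h
        · exact Or.inl h
        · exact Or.inr (Or.inl h)
        · exact Or.inr (Or.inr ⟨j, hj, h⟩)
      · obtain ⟨F, hF, hFc⟩ := step_cover C hI hcov
        refine ⟨F, hF.trans ?_, hFc⟩
        rw [hcard]
        refine (Nat.add_le_add_right (Nat.add_le_add_left (Nat.mul_le_mul_right _ hR) _) _).trans (le_of_eq ?_)
        generalize Nat.card K = q at hq
        obtain ⟨q, rfl⟩ : ∃ r, q = r + 1 := ⟨q - 1, by omega⟩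
        simp only [Nat.add_sub_cancel]
        have hp : 1 ≤ (q + 1) ^ (2 * k + 2) := Nat.one_le_pow _ _ (by omega)
        obtain ⟨P, hP⟩ : ∃ P, (q + 1) ^ (2 * k + 2) = P + 1 := ⟨_, (Nat.sub_add_cancel hp).symm⟩
        have e1 : (q + 1) ^ (2 * (k + 1) + 1) = (P + 1) * (q + 1) := by
          rw [← hP]; ring
        have e2 : (q + 1) ^ (2 * (k + 1) + 2) = (P + 1) * (q + 1) * (q + 1) := by
          rw [← hP]; ring
        have e3 : (q + 1) ^ (2 * (k + 1)) = P + 1 := by
          rw [← hP]; ring_nf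
        rw [e1, e2, hP]
        simp only [Nat.add_sub_cancel]
        have : (P + 1) * (q + 1) * (q + 1) = (P + 1) * (q + 1) * q + P * (q + 1) + q + 1 := by ring
        omega

include hall in
/-- The order bound. -/
theorem card_LL_univ : Finite (D.LL (Finset.univ : Finset (Ix m))) ∧
    Nat.card (D.LL (Finset.univ : Finset (Ix m))) ≤ NS (Nat.card K) m :=
  (D.main_ind hall m Finset.univ (by simp [Finset.card_univ]; ring) (fun _ _ => Finset.mem_univ _)).1

end Data

end Cfsg.Agent.Lib.SpN
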