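import Mathlib
import Cfsg.Agent.Lib.SpN7
import Cfsg.Agent.Lib.SpRoot
import Cfsg.Agent.Lib.SpOrder

/-!
# The Steinberg presentation of `Sp_{2m}`: the model
-/

set_option autoImplicit false
set_option linter.unusedVariables false
set_option linter.unusedSectionVars false

namespace Cfsg.Agent.Lib.SpN

open Matrix Cfsg.Agent.Lib.SpBasic
open Cfsg.Agent.Lib.SpRoot

variable {K : Type*} [Field K] {m : ℕ}

local notation "Sp'" => Matrix.symplecticGroup (Fin m) K
local notation "I'" => (Fin m ⊕ Fin m)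

section Vec

variable (v w x z : Fin m ⊕ Fin m → K)

lemma T_add_smul (h : ω v w = 0) (l u : K) :
    (T (v + l • w) u : Sp') = T v u * B v w (l * u) * T w (l * l * u) := by
  have h' : ω w v = 0 := by rw [ω_comm, h, neg_zero]
  apply Sp_ext
  intro y
  rw [mul_smul, mul_smul, T_smul, T_smul, T_smul, B_smul h]
  simp only [ω_add_right, ω_add_left, ω_smul_right, ω_smul_left, ω_self, h, h', mul_zero, add_zero, zero_add, smul_add]
  ext s
  simp only [Pi.add_apply, Pi.smul_apply, smul_eq_mul]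
  ring

lemma B_add_smul_self (h : ω v w = 0) (l u : K) :
    (B (v + l • w) w u : Sp') = B v w u * T w (2 * l * u) := by
  have h' : ω w v = 0 := by rw [ω_comm, h, neg_zero]
  have h2 : ω (v + l • w) w = 0 := by
    rw [ω_add_left, ω_smul_left, ω_self, h]
    simp
  apply Sp_ext
  intro y
  rw [mul_smul, T_smul, B_smul h2, B_smul h]
  simp only [ω_add_right, ω_add_left, ω_smul_right, ω_smul_left, ω_self, h, h', mul_zero, add_zero, zero_add, smul_add]
  ext s
  simp only [Pi.add_apply, Pi.smul_apply, smul_eq_mul]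
  ring

lemma B_add_smul_other (h1 : ω v z = 0) (h2 : ω w z = 0) (h3 : ω v w = 0) (l u : K) :
    (B (v + l • w) z u : Sp') = B v z u * B w z (l * u) := by
  have h1' : ω z v = 0 := by rw [ω_comm, h1, neg_zero]
  have h2' : ω z w = 0 := by rw [ω_comm, h2, neg_zero]
  have h3' : ω w v = 0 := by rw [ω_comm, h3, neg_zero]
  have h4 : ω (v + l • w) z = 0 := by
    rw [ω_add_left, ω_smul_left, h1, h2]
    simp
  apply Sp_ext
  intro y
  rw [mul_smul, B_smul h1, B_smul h2, B_smul h4]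
  simp only [ω_add_right, ω_add_left, ω_smul_right, ω_smul_left, ω_self, h1, h2, h3, h1', h2', h3', mul_zero,
    add_zero, zero_add, smul_add]
  ext s
  simp only [Pi.add_apply, Pi.smul_apply, smul_eq_mul]
  ring

lemma B_comm_B (h0 : ω v w = 0) (h0' : ω x z = 0) (h1 : ω v x = 0) (h2 : ω v z = 0) (h3 : ω w x = 0) (h4 : ω w z = 0)
    (t u : K) : (B v w t : Sp') * B x z u = B x z u * B v w t := by
  have h1' : ω x v = 0 := by rw [ω_comm, h1, neg_zero]
  have h2' : ω z v = 0 := by rw [ω_comm, h2, neg_zero]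
  have h3' : ω x w = 0 := by rw [ω_comm, h3, neg_zero]
  have h4' : ω z w = 0 := by rw [ω_comm, h4, neg_zero]
  apply Sp_ext
  intro y
  rw [mul_smul, mul_smul, B_smul h0, B_smul h0, B_smul h0', B_smul h0']
  simp only [ω_add_right, ω_add_left, ω_smul_right, ω_smul_left, ω_self, h1, h2, h3, h4, h1', h2', h3', h4', mul_zero,
    add_zero, zero_add, smul_add]
  abel

lemma T_comm_T (h : ω v w = 0) (t u : K) : (T v t : Sp') * T w u = T w u * T v t := by
  have h' : ω w v = 0 := by rw [ω_comm, h, neg_zero]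
  apply Sp_ext
  intro y
  rw [mul_smul, mul_smul, T_smul, T_smul, T_smul, T_smul]
  simp only [ω_add_right, ω_smul_right, h, h', mul_zero, add_zero]
  abel

end Vec

section Basis

lemma ω_ee (a b : I') : ω (e a : I' → K) (e b) = if b = a.swap then sg a else 0 := by
  rw [ω_e_left, e_apply]
  by_cases h : b = a.swap
  · subst h
    simp
  · have h2 : a.swap ≠ b := fun e => h e.symm
    simp [h, h2]

lemma ω_ee0 {a b : I'} (h : b ≠ a.swap) : ω (e a : I' → K) (e b) = 0 := by
  rw [ω_ee, if_neg h]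

/-- The action of `B` on a dual basis vector. -/
lemma B_e_swap {a b : I'} (hab : Sh a b) (t : K) :
    (B (e a) (e b) t : Sp') • (e b.swap : I' → K) = e b.swap + (t * sg b) • e a := by
  have h0 : ω (e a : I' → K) (e b) = 0 := ω_ee0 hab.2
  rw [B_smul h0, ω_ee0 (b := b.swap) (sw_ne_sw (Ne.symm hab.1)) |> fun h => h, ω_ee]
  simp only [if_true, zero_smul, add_zero]
  rw [smul_smul]

lemma B_e_off {a b d : I'} (hab : Sh a b) (h1 : d ≠ a.swap) (h2 : d ≠ b.swap) (t : K) :
    (B (e a) (e b) t : Sp') • (e d : I' → K) = e d := by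
  have h0 : ω (e a : I' → K) (e b) = 0 := ω_ee0 hab.2
  rw [B_smul h0, ω_ee0 h1, ω_ee0 h2]
  simp

end Basis

lemma rel_C {a b d : I'} (hab : Sh a b) (h1 : d ≠ a) (h2 : d ≠ a.swap) (h3 : d ≠ b) (h4 : d ≠ b.swap) (t u : K) :
    (B (e a) (e b) t : Sp') * B (e b.swap) (e d) u * (B (e a) (e b) t)⁻¹ =
      B (e b.swap) (e d) u * B (e a) (e d) (sg b * t * u) := by
  have hg := B_conj (B (e a) (e b) t : Sp') (e b.swap) (e d) u
  rw [hg, B_e_swap hab, B_e_off hab h2 h4]
  have hd : Sh b.swap d := ⟨Ne.symm h4, by simpa [sw_sw] using h3⟩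
  rw [B_add_smul_other _ _ _ (ω_ee0 hd.2) (ω_ee0 h2) (ω_ee0 (by rw [sw_sw]; exact hab.1))]
  congr 2
  ring

lemma rel_C' {a b : I'} (hab : Sh a b) (t u : K) :
    (B (e a) (e b) t : Sp') * B (e b.swap) (e a) u * (B (e a) (e b) t)⁻¹ =
      B (e b.swap) (e a) u * T (e a) (2 * sg b * t * u) := by
  have hg := B_conj (B (e a) (e b) t : Sp') (e b.swap) (e a) u
  rw [hg, B_e_swap hab, B_e_off hab (sw_ne a).symm (ne_sw_symm hab.2),
    B_add_smul_self _ _ (ω_ee0 (by rw [sw_sw]; exact hab.1))]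
  congr 2
  ring

lemma rel_D {a b : I'} (hab : Sh a b) (t u : K) :
    (B (e a) (e b) t : Sp') * T (e b.swap) u * (B (e a) (e b) t)⁻¹ =
      T (e b.swap) u * B (e b.swap) (e a) (sg b * t * u) * T (e a) (t * t * u) := by
  have hg := T_conj (B (e a) (e b) t : Sp') (e b.swap) u
  rw [hg, B_e_swap hab, T_add_smul _ _ (ω_ee0 (by rw [sw_sw]; exact hab.1))]
  congr 2
  · congr 1
    ring
  · have := sg_mul_self (K := K) b
    linear_combination (t * t * u) * this

/-- The model. -/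
noncomputable def modelD (K : Type*) [Field K] (m : ℕ) : Data m K (Matrix.symplecticGroup (Fin m) K) where
  X a b t := B (e a) (e b) t
  L a t := T (e a) t
  Xsym {a b} h t := B_comm _ _ (ω_ee0 h.2) t
  addX {a b} h s t := B_add (ω_ee0 h.2) s t
  addL a s t := T_mul _ s t
  commXX {a b c d} hab hcd h1 h2 h3 h4 t u :=
    B_comm_B _ _ _ _ (ω_ee0 hab.2) (ω_ee0 hcd.2) (ω_ee0 h1) (ω_ee0 h3) (ω_ee0 h2) (ω_ee0 h4) t u
  commXL {a b c} hab h1 h2 t u := (T_comm_B (ω_ee0 hab.2) (ω_ee0 (ne_sw_symm h1)) (ω_ee0 (ne_sw_symm h2)) u t).symm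
  commLL {a c} h t u := T_comm_T _ _ (ω_ee0 h) t u
  relC := rel_C
  relC' := rel_C'
  relD := rel_D

end Cfsg.Agent.Lib.SpN
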