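import Mathlib
import Cfsg.Agent.Lib.SpN8
import Cfsg.Agent.Lib.SpN7
import Cfsg.Agent.Lib.SpOrder

/-!
# The Steinberg presentation of `Sp_{2m}`
-/

set_option autoImplicit false
set_option linter.unusedVariables false
set_option linter.unusedSectionVars false

namespace Cfsg.Agent.Lib.SpN

open Matrix Cfsg.Agent.Lib.SpBasic
open Cfsg.Agent.Lib.SpRoot

section Gen

variable {K : Type*} [Field K] {m : ℕ}

open Classical in
/-- The root elements generate. -/
lemma reduce_vec (G₀ : Subgroup (Matrix.symplecticGroup (Fin m) K))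
    (hX : ∀ a b t, Sh a b → (B (e a) (e b) t : Matrix.symplecticGroup (Fin m) K) ∈ G₀)
    (hL : ∀ a t, (T (e a) t : Matrix.symplecticGroup (Fin m) K) ∈ G₀) (a : Ix m) :
    ∀ (n : ℕ) (u : Ix m → K), u a ≠ 0 →
      (Finset.univ.filter (fun b => u b ≠ 0 ∧ b ≠ a ∧ b ≠ a.swap)).card ≤ n →
      ∃ g ∈ G₀, g • u = u a • e a := by
  classical
  have hsa : (sg a.swap : K) ≠ 0 := sg_ne_zero _
  intro n
  induction n with
  | zero =>
    intro u hu hc
    have h0 : ∀ b, b ≠ a → b ≠ a.swap → u b = 0 := by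
      intro b h1 h2
      by_contra h3
      have : b ∈ Finset.univ.filter (fun b => u b ≠ 0 ∧ b ≠ a ∧ b ≠ a.swap) := by
        simp [h1, h2, h3]
      rw [Nat.le_zero, Finset.card_eq_zero] at hc
      rw [hc] at this
      simp at this
    refine ⟨T (e a.swap) (-(u a.swap) / (sg a.swap * u a)), hL _ _, ?_⟩
    rw [T_e]
    ext s
    simp only [Pi.add_apply, Pi.smul_apply, smul_eq_mul, e_apply, sw_sw]
    by_cases h1 : s = a
    · subst h1
      simp [(sw_ne s).symm]
    · by_cases h2 : s = a.swap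
      · subst h2
        simp [sw_ne a]
        field_simp
        ring
      · simp [h1, h2, h0 s h1 h2]
  | succ n ih =>
    intro u hu hc
    by_cases hne : (Finset.univ.filter (fun b => u b ≠ 0 ∧ b ≠ a ∧ b ≠ a.swap)).Nonempty
    · obtain ⟨b, hb⟩ := hne
      simp only [Finset.mem_filter, Finset.mem_univ, true_and] at hb
      obtain ⟨hb0, hba, hba'⟩ := hb
      have S : Sh a.swap b := ⟨hba'.symm, by rwa [sw_sw]⟩
      set t : K := -(u b) / (sg a.swap * u a) with ht
      set g : Matrix.symplecticGroup (Fin m) K := B (e a.swap) (e b) t with hg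
      have h0 : ω (e a.swap : Ix m → K) (e b) = 0 := ω_ee0 S.2
      have hact : ∀ s, (g • u) s = u s + t * (sg b * u b.swap * (if s = a.swap then 1 else 0) +
          sg a.swap * u a * (if s = b then 1 else 0)) := by
        intro s
        rw [hg, B_smul h0, ω_e_left, ω_e_left, sw_sw]
        simp only [Pi.add_apply, Pi.smul_apply, smul_eq_mul, e_apply]
      have ha1 : (g • u) a = u a := by
        rw [hact, if_neg (sw_ne a).symm, if_neg hba.symm]
        simp
      have hb1 : (g • u) b = 0 := by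
        rw [hact, if_neg hba', if_pos rfl, ht]
        field_simp
        ring
      have hsub : (Finset.univ.filter (fun s => (g • u) s ≠ 0 ∧ s ≠ a ∧ s ≠ a.swap)) ⊂
          (Finset.univ.filter (fun s => u s ≠ 0 ∧ s ≠ a ∧ s ≠ a.swap)) := by
        rw [Finset.ssubset_iff_of_subset]
        · refine ⟨b, by simp [hb0, hba, hba'], by simp [hb1]⟩
        · intro s hs
          simp only [Finset.mem_filter, Finset.mem_univ, true_and] at hs ⊢
          obtain ⟨h1, h2, h3⟩ := hs
          refine ⟨?_, h2, h3⟩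
          have hsb : s ≠ b := by
            rintro rfl
            exact h1 hb1
          rw [hact, if_neg h3, if_neg hsb] at h1
          simpa using h1
      have hc' := Finset.card_lt_card hsub
      obtain ⟨g', hg', e'⟩ := ih (g • u) (by rw [ha1]; exact hu) (by omega)
      refine ⟨g' * g, mul_mem hg' (hX _ _ _ S), ?_⟩
      rw [mul_smul, e', ha1]
    · rw [Finset.not_nonempty_iff_eq_empty] at hne
      exact ih u hu (by rw [hne]; simp)

lemma T_mem_roots (G₀ : Subgroup (Matrix.symplecticGroup (Fin m) K))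
    (hX : ∀ a b t, Sh a b → (B (e a) (e b) t : Matrix.symplecticGroup (Fin m) K) ∈ G₀)
    (hL : ∀ a t, (T (e a) t : Matrix.symplecticGroup (Fin m) K) ∈ G₀) (u : Ix m → K) (c : K) :
    (T u c : Matrix.symplecticGroup (Fin m) K) ∈ G₀ := by
  by_cases hu : u = 0
  · subst hu
    rw [T_zero_left]
    exact one_mem _
  · obtain ⟨a, ha⟩ : ∃ a, u a ≠ 0 := by
      by_contra h
      push Not at h
      exact hu (funext h)
    obtain ⟨g, hg, e'⟩ := reduce_vec G₀ hX hL a _ u ha le_rfl
    have h1 := T_conj g u c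
    rw [e', T_smul_vec] at h1
    have h2 : (T u c : Matrix.symplecticGroup (Fin m) K) = g⁻¹ * T (e a) (u a ^ 2 * c) * g := by
      rw [← h1]
      group
    rw [h2]
    exact mul_mem (mul_mem (inv_mem hg) (hL _ _)) hg

theorem roots_top (G₀ : Subgroup (Matrix.symplecticGroup (Fin m) K))
    (hX : ∀ a b t, Sh a b → (B (e a) (e b) t : Matrix.symplecticGroup (Fin m) K) ∈ G₀)
    (hL : ∀ a t, (T (e a) t : Matrix.symplecticGroup (Fin m) K) ∈ G₀) : G₀ = ⊤ := by
  rw [eq_top_iff, ← G_top, G, Subgroup.closure_le]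
  rintro _ ⟨u, -, c, rfl⟩
  exact T_mem_roots G₀ hX hL u c

end Gen

section Pres

/-- Generators. -/
abbrev Gn (K : Type*) (m : ℕ) := (Ix m × Ix m × K) ⊕ (Ix m × K)

variable {K : Type*} [Field K] {m : ℕ}

/-- Short generator. -/
def gX (a b : Ix m) (t : K) : FreeGroup (Gn K m) := FreeGroup.of (Sum.inl (a, b, t))

/-- Long generator. -/
def gL (a : Ix m) (t : K) : FreeGroup (Gn K m) := FreeGroup.of (Sum.inr (a, t))

/-- The relators. -/
inductive IsRel : FreeGroup (Gn K m) → Prop
  | r0 {a b : Ix m} (h : ¬ Sh a b) (t : K) : IsRel (gX a b t)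
  | r1 {a b : Ix m} (h : Sh a b) (t : K) : IsRel (gX a b t * (gX b a t)⁻¹)
  | r2 {a b : Ix m} (h : Sh a b) (s t : K) : IsRel (gX a b s * gX a b t * (gX a b (s + t))⁻¹)
  | r3 (a : Ix m) (s t : K) : IsRel (gL a s * gL a t * (gL a (s + t))⁻¹)
  | r4 {a b c d : Ix m} (hab : Sh a b) (hcd : Sh c d) (h1 : c ≠ a.swap) (h2 : c ≠ b.swap)
      (h3 : d ≠ a.swap) (h4 : d ≠ b.swap) (t u : K) :
      IsRel (gX a b t * gX c d u * (gX c d u * gX a b t)⁻¹)
  | r5 {a b c : Ix m} (hab : Sh a b) (h1 : c ≠ a.swap) (h2 : c ≠ b.swap) (t u : K) :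
      IsRel (gX a b t * gL c u * (gL c u * gX a b t)⁻¹)
  | r6 {a c : Ix m} (h : c ≠ a.swap) (t u : K) : IsRel (gL a t * gL c u * (gL c u * gL a t)⁻¹)
  | r7 {a b d : Ix m} (hab : Sh a b) (h1 : d ≠ a) (h2 : d ≠ a.swap) (h3 : d ≠ b) (h4 : d ≠ b.swap)
      (t u : K) :
      IsRel (gX a b t * gX b.swap d u * (gX a b t)⁻¹ * (gX b.swap d u * gX a d (sg b * t * u))⁻¹)
  | r8 {a b : Ix m} (hab : Sh a b) (t u : K) :
      IsRel (gX a b t * gX b.swap a u * (gX a b t)⁻¹ * (gX b.swap a u * gL a (2 * sg b * t * u))⁻¹)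
  | r9 {a b : Ix m} (hab : Sh a b) (t u : K) :
      IsRel (gX a b t * gL b.swap u * (gX a b t)⁻¹ *
        (gL b.swap u * gX b.swap a (sg b * t * u) * gL a (t * t * u))⁻¹)

/-- The assignment of a datum. -/
noncomputable def fOf {Γ : Type*} [Group Γ] (D : Data m K Γ) : Gn K m → Γ := by
  classical
  exact fun g => match g with
    | Sum.inl (a, b, t) => if Sh a b then D.X a b t else 1
    | Sum.inr (a, t) => D.L a t

lemma fOf_gX {Γ : Type*} [Group Γ] (D : Data m K Γ) {a b : Ix m} (h : Sh a b) (t : K) :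
    FreeGroup.lift (fOf D) (gX a b t) = D.X a b t := by
  simp only [gX, FreeGroup.lift_apply_of, fOf, if_pos h]

lemma fOf_gX' {Γ : Type*} [Group Γ] (D : Data m K Γ) {a b : Ix m} (h : ¬ Sh a b) (t : K) :
    FreeGroup.lift (fOf D) (gX a b t) = 1 := by
  simp only [gX, FreeGroup.lift_apply_of, fOf, if_neg h]

lemma fOf_gL {Γ : Type*} [Group Γ] (D : Data m K Γ) (a : Ix m) (t : K) :
    FreeGroup.lift (fOf D) (gL a t) = D.L a t := by
  simp only [gL, FreeGroup.lift_apply_of, fOf]

lemma Sh.sb {a b d : Ix m} (h1 : d ≠ b) (h2 : d ≠ b.swap) : Sh b.swap d :=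
  ⟨fun e => h2 e.symm, by rw [sw_sw]; exact h1⟩

lemma Sh.ad {a d : Ix m} (h1 : d ≠ a) (h2 : d ≠ a.swap) : Sh a d :=
  ⟨fun e => h1 e.symm, fun e => h2 e⟩

lemma lift_rel {Γ : Type*} [Group Γ] (D : Data m K Γ) {r : FreeGroup (Gn K m)} (hr : IsRel r) :
    FreeGroup.lift (fOf D) r = 1 := by
  cases hr with
  | r0 h t => exact fOf_gX' D h t
  | r1 h t =>
    rw [map_mul, map_inv, fOf_gX D h, fOf_gX D h.symm, D.Xsym h, mul_inv_cancel]
  | r2 h s t =>
    simp only [map_mul, map_inv, fOf_gX D h, mul_inv_eq_one, D.addX h]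
  | r3 a s t =>
    simp only [map_mul, map_inv, fOf_gL D, mul_inv_eq_one, D.addL]
  | r4 hab hcd h1 h2 h3 h4 t u =>
    simp only [map_mul, map_inv, fOf_gX D hab, fOf_gX D hcd, mul_inv_eq_one]
    exact D.commXX hab hcd h1 h2 h3 h4 t u
  | r5 hab h1 h2 t u =>
    simp only [map_mul, map_inv, fOf_gX D hab, fOf_gL D, mul_inv_eq_one]
    exact D.commXL hab h1 h2 t u
  | r6 h t u =>
    simp only [map_mul, map_inv, fOf_gL D, mul_inv_eq_one]
    exact D.commLL h t u
  | @r7 a b d hab h1 h2 h3 h4 t u =>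
    have S1 : Sh b.swap d := Sh.sb (a := a) h3 h4
    have S2 : Sh a d := Sh.ad h1 h2
    simp only [map_mul, map_inv, fOf_gX D hab, fOf_gX D S1, fOf_gX D S2, mul_inv_eq_one]
    exact D.relC hab h1 h2 h3 h4 t u
  | @r8 a b hab t u =>
    have S1 : Sh b.swap a := hab.symm.sl
    simp only [map_mul, map_inv, fOf_gX D hab, fOf_gX D S1, fOf_gL D, mul_inv_eq_one]
    exact D.relC' hab t u
  | @r9 a b hab t u =>
    have S1 : Sh b.swap a := hab.symm.sl
    simp only [map_mul, map_inv, fOf_gX D hab, fOf_gX D S1, fOf_gL D, mul_inv_eq_one]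
    exact D.relD hab t u

/-- The presented group carries a datum. -/
noncomputable def presD (K : Type*) [Field K] (m : ℕ) :
    Data m K (PresentedGroup {r : FreeGroup (Gn K m) | IsRel r}) where
  X a b t := PresentedGroup.of (Sum.inl (a, b, t))
  L a t := PresentedGroup.of (Sum.inr (a, t))
  Xsym {a b} h t := by
    have := PresentedGroup.one_of_mem (rels := {r : FreeGroup (Gn K m) | IsRel r}) (IsRel.r1 h t)
    simp only [gX, map_mul, map_inv, mul_inv_eq_one] at this
    exact this
  addX {a b} h s t := by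
    have := PresentedGroup.one_of_mem (rels := {r : FreeGroup (Gn K m) | IsRel r}) (IsRel.r2 h s t)
    simp only [gX, map_mul, map_inv, mul_inv_eq_one] at this
    exact this
  addL a s t := by
    have := PresentedGroup.one_of_mem (rels := {r : FreeGroup (Gn K m) | IsRel r}) (IsRel.r3 a s t)
    simp only [gL, map_mul, map_inv, mul_inv_eq_one] at this
    exact this
  commXX {a b c d} hab hcd h1 h2 h3 h4 t u := by
    have := PresentedGroup.one_of_mem (rels := {r : FreeGroup (Gn K m) | IsRel r})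
      (IsRel.r4 hab hcd h1 h2 h3 h4 t u)
    simp only [gX, map_mul, map_inv, mul_inv_eq_one] at this
    exact this
  commXL {a b c} hab h1 h2 t u := by
    have := PresentedGroup.one_of_mem (rels := {r : FreeGroup (Gn K m) | IsRel r})
      (IsRel.r5 hab h1 h2 t u)
    simp only [gX, gL, map_mul, map_inv, mul_inv_eq_one] at this
    exact this
  commLL {a c} h t u := by
    have := PresentedGroup.one_of_mem (rels := {r : FreeGroup (Gn K m) | IsRel r})
      (IsRel.r6 h t u)
    simp only [gL, map_mul, map_inv, mul_inv_eq_one] at this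
    exact this
  relC {a b d} hab h1 h2 h3 h4 t u := by
    have := PresentedGroup.one_of_mem (rels := {r : FreeGroup (Gn K m) | IsRel r})
      (IsRel.r7 hab h1 h2 h3 h4 t u)
    simp only [gX, map_mul, map_inv, mul_inv_eq_one] at this
    exact this
  relC' {a b} hab t u := by
    have := PresentedGroup.one_of_mem (rels := {r : FreeGroup (Gn K m) | IsRel r})
      (IsRel.r8 hab t u)
    simp only [gX, gL, map_mul, map_inv, mul_inv_eq_one] at this
    exact this
  relD {a b} hab t u := by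
    have := PresentedGroup.one_of_mem (rels := {r : FreeGroup (Gn K m) | IsRel r})
      (IsRel.r9 hab t u)
    simp only [gX, gL, map_mul, map_inv, mul_inv_eq_one] at this
    exact this

lemma LL_univ : (presD K m).LL (Finset.univ : Finset (Ix m)) = ⊤ := by
  classical
  rw [eq_top_iff, ← PresentedGroup.closure_range_of, Subgroup.closure_le]
  rintro _ ⟨(⟨a, b, t⟩ | ⟨a, t⟩), rfl⟩
  · by_cases h : Sh a b
    · exact (presD K m).rtX h ⟨Finset.mem_univ _, Finset.mem_univ _⟩ t
    · have := PresentedGroup.one_of_mem (rels := {r : FreeGroup (Gn K m) | IsRel r}) (IsRel.r0 h t)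
      simp only [gX] at this
      change PresentedGroup.mk _ (FreeGroup.of _) ∈ _
      rw [this]
      exact one_mem _
  · exact (presD K m).rtL (Finset.mem_univ _) t

lemma hall_of (hm : 2 ≤ m) (x : Ix m) : ∃ b : Ix m, Sh x b := by
  obtain ⟨i, j, hij⟩ : ∃ i j : Fin m, i ≠ j :=
    ⟨⟨0, by omega⟩, ⟨1, by omega⟩, by simp [Fin.ext_iff]⟩
  rcases x with x | x
  · by_cases hx : x = i
    · subst hx
      exact ⟨Sum.inl j, by simp [Sh, hij]⟩
    · exact ⟨Sum.inl i, by simp [Sh, hx]⟩
  · by_cases hx : x = i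
    · subst hx
      exact ⟨Sum.inr j, by simp [Sh, hij]⟩
    · exact ⟨Sum.inr i, by simp [Sh, hx]⟩

lemma NS_eq (q k : ℕ) : NS q k = q ^ (k ^ 2) * ∏ i ∈ Finset.range k, (q ^ (2 * (i + 1)) - 1) := by
  induction k with
  | zero => simp [NS]
  | succ k ih =>
    rw [NS, ih, Finset.prod_range_succ, show 2 * (k + 1) = 2 * k + 2 by ring,
      show (k + 1) ^ 2 = (2 * k + 1) + k ^ 2 by ring, pow_add]
    ring

/-- The map to the symplectic group. -/
noncomputable def toSp (K : Type*) [Field K] (m : ℕ) :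
    PresentedGroup {r : FreeGroup (Gn K m) | IsRel r} →* Matrix.symplecticGroup (Fin m) K :=
  PresentedGroup.toGroup (f := fOf (modelD K m)) (fun _ hr => lift_rel (modelD K m) hr)

lemma toSp_surj : Function.Surjective (toSp K m) := by
  rw [← MonoidHom.range_eq_top]
  apply roots_top
  · intro a b t h
    refine ⟨PresentedGroup.of (Sum.inl (a, b, t)), ?_⟩
    rw [toSp, PresentedGroup.toGroup.of]
    simp only [fOf, if_pos h]
    rfl
  · intro a t
    refine ⟨PresentedGroup.of (Sum.inr (a, t)), ?_⟩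
    rw [toSp, PresentedGroup.toGroup.of]
    rfl

lemma toSp_bij [Finite K] (hm : 2 ≤ m) : Function.Bijective (toSp K m) := by
  classical
  haveI := Fintype.ofFinite K
  obtain ⟨hfin, hc⟩ := (presD K m).card_LL_univ (hall_of hm)
  rw [LL_univ] at hc hfin
  haveI hG : Finite (PresentedGroup {r : FreeGroup (Gn K m) | IsRel r}) :=
    Finite.of_equiv _ Subgroup.topEquiv.toEquiv
  rw [Subgroup.card_top, NS_eq, Nat.card_eq_fintype_card (α := K), ← SpOrder.card_Sp] at hc
  exact Function.Surjective.bijective_of_nat_card_le toSp_surj hc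

/-- The Steinberg presentation of `Sp_{2m}(K)`: any datum comes from a homomorphism. -/
theorem exists_hom_SpN {K : Type*} [Field K] [Finite K] {m : ℕ} (hm : 2 ≤ m) {Γ : Type*} [Group Γ]
    (D : Data m K Γ) :
    ∃ ψ : Matrix.symplecticGroup (Fin m) K →* Γ,
      (∀ a t, ψ (T (e a) t) = D.L a t) ∧
      ∀ a b t, Sh a b → ψ (B (e a) (e b) t) = D.X a b t := by
  classical
  let ε := MulEquiv.ofBijective (toSp K m) (toSp_bij hm)
  let ρ : PresentedGroup {r : FreeGroup (Gn K m) | IsRel r} →* Γ :=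
    PresentedGroup.toGroup (f := fOf D) (fun _ hr => lift_rel D hr)
  refine ⟨ρ.comp ε.symm.toMonoidHom, ?_, ?_⟩
  · intro a t
    have h : ε (PresentedGroup.of (Sum.inr (a, t))) = T (e a) t := by
      rw [show ε _ = toSp K m _ from MulEquiv.ofBijective_apply _ _ _, toSp, PresentedGroup.toGroup.of]
      rfl
    change ρ (ε.symm _) = _
    rw [← h, MulEquiv.symm_apply_apply, PresentedGroup.toGroup.of]
    rfl
  · intro a b t hab
    have h : ε (PresentedGroup.of (Sum.inl (a, b, t))) = B (e a) (e b) t := by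
      rw [show ε _ = toSp K m _ from MulEquiv.ofBijective_apply _ _ _, toSp, PresentedGroup.toGroup.of]
      simp only [fOf, if_pos hab]
      rfl
    change ρ (ε.symm _) = _
    rw [← h, MulEquiv.symm_apply_apply, PresentedGroup.toGroup.of]
    simp only [fOf, if_pos hab]

end Pres

end Cfsg.Agent.Lib.SpN
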