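import Mathlib
import Cfsg.Agent.Lib.SpN9
import Cfsg.Agent.Lib.SLGen
import Cfsg.Agent.Lib.PrsSL2D

/-!
# Presentations of symplectic groups: matrix lemmas
-/

set_option autoImplicit false

namespace Cfsg.Agent.Lib.PrsSp

open Matrix Polynomial
open Cfsg.Agent.Lib.St2 (mx mx_true mx_false mx_add mx_surj)
open Cfsg.Agent.Lib.StN (MW MD coe_MW coe_MD I4 I5)
open Cfsg.Agent.Lib.SpN (I6 I9 I10)

/-- `SL_n`. -/
abbrev SLN (n : ℕ) (K : Type*) [Field K] := SpecialLinearGroup (Fin n) K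

/-- `SL_2`. -/
abbrev SLT (K : Type*) [Field K] := SpecialLinearGroup (Fin 2) K

variable {n : ℕ} {K : Type*} [Field K]

lemma sl_eq {a b : SLN n K} (h : (a : Matrix (Fin n) (Fin n) K) = b) : a = b := Subtype.ext h

/-- A monomial element of `SL_n`: `μ e_j = c_j e_{σ j}`. -/
structure Mono (μ : SLN n K) (σ : Equiv.Perm (Fin n)) (c : Fin n → K) : Prop where
  entry : ∀ i j, (μ : Matrix (Fin n) (Fin n) K) i j = if i = σ j then c j else 0
  ne : ∀ j, c j ≠ 0

namespace Mono

variable {μ ν : SLN n K} {σ τ : Equiv.Perm (Fin n)} {c d : Fin n → K}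

lemma one' : Mono (1 : SLN n K) 1 (fun _ => 1) where
  entry i j := by
    rw [Matrix.SpecialLinearGroup.coe_one, Matrix.one_apply]
    rfl
  ne _ := one_ne_zero

lemma mul (M : Mono μ σ c) (N : Mono ν τ d) : Mono (μ * ν) (σ * τ) (fun j => c (τ j) * d j) where
  entry i j := by
    rw [Matrix.SpecialLinearGroup.coe_mul, Matrix.mul_apply, Finset.sum_eq_single (τ j)]
    · rw [M.entry, N.entry, if_pos rfl, Equiv.Perm.mul_apply]
      split_ifs <;> simp
    · intro k _ hk
      rw [N.entry, if_neg hk, mul_zero]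
    · simp
  ne j := mul_ne_zero (M.ne _) (N.ne _)

lemma inv_entry (M : Mono μ σ c) (k s : Fin n) :
    ((μ⁻¹ : SLN n K) : Matrix (Fin n) (Fin n) K) k s = if σ k = s then (c k)⁻¹ else 0 := by
  have h : ((μ * μ⁻¹ : SLN n K) : Matrix (Fin n) (Fin n) K) (σ k) s = (1 : Matrix (Fin n) (Fin n) K) (σ k) s := by
    rw [mul_inv_cancel]
    rfl
  rw [Matrix.SpecialLinearGroup.coe_mul, Matrix.mul_apply, Finset.sum_eq_single k] at h
  · rw [M.entry, if_pos rfl, Matrix.one_apply] at h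
    have hc := M.ne k
    split_ifs at h with h1
    · rw [if_pos h1]
      field_simp
      linear_combination h
    · rw [if_neg h1]
      simpa [hc] using h
  · intro b _ hb
    rw [M.entry, if_neg (fun e => hb (σ.injective e).symm), zero_mul]
  · simp

lemma inv (M : Mono μ σ c) : Mono μ⁻¹ σ⁻¹ (fun j => (c (σ⁻¹ j))⁻¹) where
  entry i j := by
    rw [M.inv_entry]
    by_cases h : σ i = j
    · subst h
      simp
    · rw [if_neg h, if_neg]
      intro e
      apply h
      rw [e]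
      simp
  ne j := inv_ne_zero (M.ne _)

lemma mul_tv (M : Mono μ σ c) {i j : Fin n} (h : i ≠ j) (t : K) :
    μ * SpecialLinearGroup.transvection h t =
      SpecialLinearGroup.transvection (σ.injective.ne h) (c i * t * (c j)⁻¹) * μ := by
  apply sl_eq
  rw [Matrix.SpecialLinearGroup.coe_mul, Matrix.SpecialLinearGroup.coe_mul]
  change (μ : Matrix (Fin n) (Fin n) K) * Matrix.transvection i j t =
    Matrix.transvection (σ i) (σ j) (c i * t * (c j)⁻¹) * (μ : Matrix (Fin n) (Fin n) K)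
  ext r s
  have hj := M.ne j
  by_cases hs : s = j
  · subst hs
    rw [Matrix.mul_transvection_apply_same]
    by_cases hr : r = σ i
    · subst hr
      rw [Matrix.transvection_mul_apply_same, M.entry, M.entry, M.entry, if_pos rfl, if_pos rfl,
        if_neg (fun e => h (σ.injective e))]
      field_simp
    · rw [Matrix.transvection_mul_apply_of_ne _ _ _ _ hr, M.entry r i, if_neg hr]
      ring
  · rw [Matrix.mul_transvection_apply_of_ne _ _ _ _ hs]
    by_cases hr : r = σ i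
    · subst hr
      rw [Matrix.transvection_mul_apply_same, M.entry (σ j) s,
        if_neg (fun e => hs (σ.injective e).symm)]
      ring
    · rw [Matrix.transvection_mul_apply_of_ne _ _ _ _ hr]

lemma conj_tv (M : Mono μ σ c) {i j : Fin n} (h : i ≠ j) (t : K) :
    μ * SpecialLinearGroup.transvection h t * μ⁻¹ =
      SpecialLinearGroup.transvection (σ.injective.ne h) (c i * t * (c j)⁻¹) := by
  rw [M.mul_tv h t]
  group

lemma conj_entry (M : Mono μ σ c) (g : SLN n K) (a b : Fin n) :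
    ((μ * g * μ⁻¹ : SLN n K) : Matrix (Fin n) (Fin n) K) (σ a) (σ b) = c a * (g : Matrix (Fin n) (Fin n) K) a b * (c b)⁻¹ := by
  rw [Matrix.SpecialLinearGroup.coe_mul, Matrix.SpecialLinearGroup.coe_mul, Matrix.mul_apply,
    Finset.sum_eq_single b]
  · rw [M.inv_entry, if_pos rfl, Matrix.mul_apply, Finset.sum_eq_single a]
    · rw [M.entry, if_pos rfl]
    · intro k _ hk
      rw [M.entry, if_neg (fun e => hk (σ.injective e).symm), zero_mul]
    · simp
  · intro k _ hk
    rw [M.inv_entry, if_neg (fun e => hk (σ.injective e)), mul_zero]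
  · simp

end Mono

/-- The monomial element attached to `i ≠ j`. -/
def wW {i j : Fin n} (h : i ≠ j) : SLN n K :=
  SpecialLinearGroup.transvection h 1 * SpecialLinearGroup.transvection h.symm (-1) *
    SpecialLinearGroup.transvection h 1

lemma wW_coe {i j : Fin n} (h : i ≠ j) :
    ((wW h : SLN n K) : Matrix (Fin n) (Fin n) K) =
      1 + Matrix.single i j 1 - Matrix.single j i 1 - Matrix.single i i 1 - Matrix.single j j 1 := by
  rw [wW, Matrix.SpecialLinearGroup.coe_mul, Matrix.SpecialLinearGroup.coe_mul]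
  change Matrix.transvection i j 1 * Matrix.transvection j i (-1) * Matrix.transvection i j 1 = _
  simp only [Matrix.transvection, Matrix.add_mul, Matrix.mul_add, Matrix.one_mul, Matrix.mul_one,
    Matrix.single_mul_single_same, Matrix.single_mul_single_of_ne _ _ _ _ h,
    Matrix.single_mul_single_of_ne _ _ _ _ h.symm]
  ext r s
  simp only [Matrix.add_apply, Matrix.sub_apply, Matrix.single_apply, Matrix.zero_apply]
  split_ifs <;> simp <;> ring

lemma mono_wW {i j : Fin n} (h : i ≠ j) :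
    Mono (wW h : SLN n K) (Equiv.swap i j) (fun k => if k = i then -1 else 1) where
  entry r s := by
    rw [wW_coe]
    simp only [Matrix.add_apply, Matrix.sub_apply, Matrix.single_apply, Matrix.one_apply]
    have hji := h.symm
    by_cases h1 : s = i
    · subst h1
      rw [Equiv.swap_apply_left]
      by_cases h2 : r = j
      · subst h2
        simp [hji, h]
      · by_cases h3 : r = s
        · subst h3
          simp [h2, h, hji]
        · have h3' : s ≠ r := fun e => h3 e.symm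
          have h2' : j ≠ r := fun e => h2 e.symm
          simp [h2, h3, h3', h2', h, hji]
    · by_cases h2 : s = j
      · subst h2
        rw [Equiv.swap_apply_right, if_neg h1]
        by_cases h3 : r = i
        · subst h3
          simp [h, hji]
        · by_cases h4 : r = s
          · subst h4
            simp [h3, h, hji, h1]
          · have h3' : i ≠ r := fun e => h3 e.symm
            have h4' : s ≠ r := fun e => h4 e.symm
            simp [h3, h4, h3', h4', h, hji]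
      · rw [Equiv.swap_apply_of_ne_of_ne h1 h2, if_neg h1]
        have h1' : i ≠ s := fun e => h1 e.symm
        have h2' : j ≠ s := fun e => h2 e.symm
        simp [h1, h2, h1', h2']
  ne k := by
    split_ifs
    · exact neg_ne_zero.2 one_ne_zero
    · exact one_ne_zero

/-- The diagonal element `diag(c, c⁻¹)` on the coordinates `i, j`. -/
def dn {i j : Fin n} (h : i ≠ j) (c : K) (hc : c ≠ 0) : SLN n K :=
  ⟨Matrix.diagonal (fun k => if k = i then c else if k = j then c⁻¹ else 1), by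
    rw [Matrix.det_diagonal, Finset.prod_eq_mul i j h]
    · rw [if_pos rfl, if_neg h.symm, if_pos rfl]
      exact mul_inv_cancel₀ hc
    · intro k _ hk
      rw [if_neg hk.1, if_neg hk.2]
    · simp
    · simp⟩

lemma mono_dn {i j : Fin n} (h : i ≠ j) (c : K) (hc : c ≠ 0) :
    Mono (dn h c hc) 1 (fun k => if k = i then c else if k = j then c⁻¹ else 1) where
  entry r s := by
    change Matrix.diagonal _ r s = _
    rw [Matrix.diagonal_apply]
    by_cases h' : r = s
    · subst h'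
      simp
    · simp [h']
  ne k := by
    split_ifs
    · exact hc
    · exact inv_ne_zero hc
    · exact one_ne_zero

lemma dn_mul {i j : Fin n} (h : i ≠ j) {c d : K} (hc : c ≠ 0) (hd : d ≠ 0) :
    dn h c hc * dn h d hd = dn h (c * d) (mul_ne_zero hc hd) := by
  apply sl_eq
  rw [Matrix.SpecialLinearGroup.coe_mul]
  change Matrix.diagonal _ * Matrix.diagonal _ = Matrix.diagonal _
  rw [Matrix.diagonal_mul_diagonal]
  congr 1
  funext k
  split_ifs
  · rfl
  · rw [mul_inv]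
  · simp

lemma dn_one {i j : Fin n} (h : i ≠ j) : dn h (1 : K) one_ne_zero = 1 := by
  apply sl_eq
  change Matrix.diagonal _ = 1
  rw [← Matrix.diagonal_one]
  congr 1
  funext k
  split_ifs <;> simp

lemma dn_inv {i j : Fin n} (h : i ≠ j) {c : K} (hc : c ≠ 0) :
    (dn h c hc)⁻¹ = dn h c⁻¹ (inv_ne_zero hc) := by
  rw [inv_eq_iff_mul_eq_one, dn_mul]
  simp only [mul_inv_cancel₀ hc]
  exact dn_one h

/-- The matrices of the block `1 ⊕ SL_{n-1}`. -/
def IsBlk (i0 : Fin n) (g : SLN n K) : Prop :=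
  (g : Matrix (Fin n) (Fin n) K) i0 i0 = 1 ∧
    ∀ j, j ≠ i0 → (g : Matrix (Fin n) (Fin n) K) i0 j = 0 ∧ (g : Matrix (Fin n) (Fin n) K) j i0 = 0

lemma Mono.isBlk {μ : SLN n K} {σ : Equiv.Perm (Fin n)} {c : Fin n → K} (M : Mono μ σ c) {i0 : Fin n}
    (h1 : σ i0 = i0) (h2 : c i0 = 1) : IsBlk i0 μ := by
  refine ⟨by rw [M.entry, if_pos h1.symm, h2], fun j hj => ⟨?_, ?_⟩⟩
  · rw [M.entry, if_neg]
    intro e
    apply hj
    apply σ.injective
    rw [← e, h1]
  · rw [M.entry, h1, if_neg hj]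

lemma tv_isBlk {i0 i j : Fin n} (h : i ≠ j) (hi : i ≠ i0) (hj : j ≠ i0) (t : K) :
    IsBlk i0 (SpecialLinearGroup.transvection h t : SLN n K) := by
  change (Matrix.transvection i j t) i0 i0 = 1 ∧ ∀ k, k ≠ i0 → (Matrix.transvection i j t) i0 k = 0 ∧ (Matrix.transvection i j t) k i0 = 0
  simp only [Matrix.transvection, Matrix.add_apply, Matrix.one_apply, Matrix.single_apply]
  have hi' : i0 ≠ i := fun e => hi e.symm
  have hj' : i0 ≠ j := fun e => hj e.symm
  refine ⟨by simp [hi, hj, hi', hj'], fun k hk => ?_⟩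
  have hk' : i0 ≠ k := fun e => hk e.symm
  simp [hi, hj, hi', hj', hk, hk']

lemma IsBlk.conj {i0 : Fin n} {g μ : SLN n K} {σ : Equiv.Perm (Fin n)} {c : Fin n → K}
    (hg : IsBlk i0 g) (M : Mono μ σ c) (h1 : σ i0 = i0) : IsBlk i0 (μ * g * μ⁻¹) := by
  refine ⟨?_, fun j hj => ?_⟩
  · have := M.conj_entry g i0 i0
    rw [h1] at this
    rw [this, hg.1, mul_one, mul_inv_cancel₀ (M.ne _)]
  · obtain ⟨b, rfl⟩ := σ.surjective j
    have hb : b ≠ i0 := by
      rintro rfl
      exact hj h1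
    have e1 := M.conj_entry g i0 b
    have e2 := M.conj_entry g b i0
    rw [h1] at e1 e2
    obtain ⟨h3, h4⟩ := hg.2 b hb
    rw [e1, e2, h3, h4]
    simp

section Two

open Cfsg.Agent.Lib.StN

/-- Conjugation by the diagonal element of `SL_2`. -/
def Ad (c : K) (x : SLT K) : SLT K := MD c * x * (MD c)⁻¹

lemma MD_inv {c : K} (hc : c ≠ 0) : (MD c)⁻¹ = MD c⁻¹ := by
  rw [inv_eq_iff_mul_eq_one, I4 hc (inv_ne_zero hc), mul_inv_cancel₀ hc, I5]

lemma Ad_coe {c : K} (hc : c ≠ 0) (x : SLT K) :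
    ((Ad c x : SLT K) : Matrix (Fin 2) (Fin 2) K) = !![(x : Matrix (Fin 2) (Fin 2) K) 0 0, c ^ 2 * (x : Matrix (Fin 2) (Fin 2) K) 0 1;
      (c⁻¹) ^ 2 * (x : Matrix (Fin 2) (Fin 2) K) 1 0, (x : Matrix (Fin 2) (Fin 2) K) 1 1] := by
  rw [Ad, MD_inv hc, Matrix.SpecialLinearGroup.coe_mul, Matrix.SpecialLinearGroup.coe_mul, coe_MD hc,
    coe_MD (inv_ne_zero hc)]
  ext i j
  rw [Matrix.mul_apply, Fin.sum_univ_two, Matrix.mul_apply, Matrix.mul_apply, Fin.sum_univ_two,
    Fin.sum_univ_two]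
  fin_cases i <;> fin_cases j <;> simp <;> field_simp

lemma Ad_congr {c d : K} (hc : c ≠ 0) (hd : d ≠ 0) (h : c ^ 2 = d ^ 2) (x : SLT K) :
    Ad c x = Ad d x := by
  apply Subtype.ext
  rw [Ad_coe hc, Ad_coe hd, inv_pow, inv_pow, h]

lemma Ad_of_sq {c : K} (hc : c ≠ 0) (h : c ^ 2 = 1) (x : SLT K) : Ad c x = x := by
  rw [Ad_congr hc one_ne_zero (by rw [h]; ring) x, Ad, I5]
  simp

lemma Ad_mul' (c : K) (x y : SLT K) : Ad c (x * y) = Ad c x * Ad c y := by
  simp only [Ad]
  group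

lemma Ad_Ad {c d : K} (hc : c ≠ 0) (hd : d ≠ 0) (x : SLT K) : Ad c (Ad d x) = Ad (c * d) x := by
  simp only [Ad]
  rw [← I4 hc hd]
  group

lemma Ad_one' (x : SLT K) : Ad (1 : K) x = x := Ad_of_sq one_ne_zero (by ring) x

lemma Ad_mx_true {c : K} (hc : c ≠ 0) (t : K) : Ad c (mx K (true, t)) = mx K (true, c ^ 2 * t) := by
  apply Subtype.ext
  rw [Ad_coe hc]
  ext i j
  fin_cases i <;> fin_cases j <;> simp

lemma Ad_mx_false {c : K} (hc : c ≠ 0) (t : K) :
    Ad c (mx K (false, t)) = mx K (false, (c⁻¹) ^ 2 * t) := by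
  apply Subtype.ext
  rw [Ad_coe hc]
  ext i j
  fin_cases i <;> fin_cases j <;> simp

lemma Ad_MW {c t : K} (hc : c ≠ 0) (ht : t ≠ 0) : Ad c (MW t) = MW (c ^ 2 * t) := by
  apply Subtype.ext
  rw [Ad_coe hc, coe_MW ht, coe_MW (mul_ne_zero (pow_ne_zero 2 hc) ht)]
  ext i j
  fin_cases i <;> fin_cases j <;> simp <;> field_simp

lemma Ad_MD {c d : K} (hc : c ≠ 0) (hd : d ≠ 0) : Ad c (MD d) = MD d := by
  apply Subtype.ext
  rw [Ad_coe hc, coe_MD hd]
  ext i j
  fin_cases i <;> fin_cases j <;> simp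

lemma MW_true (t : K) : MW (1 : K) * mx K (true, t) * (MW (1 : K))⁻¹ = mx K (false, -t) := by
  rw [mul_inv_eq_iff_eq_mul]
  apply Subtype.ext
  simp only [Matrix.SpecialLinearGroup.coe_mul, coe_MW (one_ne_zero (α := K)), mx_true, mx_false,
    Matrix.mul_fin_two]
  ext i j
  fin_cases i <;> fin_cases j <;> simp

lemma MW_false (t : K) : MW (1 : K) * mx K (false, t) * (MW (1 : K))⁻¹ = mx K (true, -t) := by
  rw [mul_inv_eq_iff_eq_mul]
  apply Subtype.ext
  simp only [Matrix.SpecialLinearGroup.coe_mul, coe_MW (one_ne_zero (α := K)), mx_true, mx_false,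
    Matrix.mul_fin_two]
  ext i j
  fin_cases i <;> fin_cases j <;> simp

lemma MD_MW {c : K} (hc : c ≠ 0) : MD c * MW (1 : K) = MW (1 : K) * (MD c)⁻¹ := by
  rw [MD_inv hc, I9 hc one_ne_zero, I10 (inv_ne_zero hc) one_ne_zero]
  simp

lemma MW_sq : MW (1 : K) * MW 1 = MD (-1) := by
  rw [I6 one_ne_zero one_ne_zero]
  simp

end Two

section Gen

variable (ζ : K)

/-- The additive span of the powers of `ζ²` is everything. -/
def AddGen : Prop := AddSubgroup.closure (Set.range fun j : ℕ => (ζ ^ 2) ^ j) = ⊤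

variable {ζ}

lemma AddGen.ind (H : AddGen ζ) {P : K → Prop} (h0 : P 0) (hadd : ∀ s t, P s → P t → P (s + t))
    (hneg : ∀ s, P s → P (-s)) (hp : ∀ j : ℕ, P ((ζ ^ 2) ^ j)) (t : K) : P t := by
  have ht : t ∈ AddSubgroup.closure (Set.range fun j : ℕ => (ζ ^ 2) ^ j) := by
    rw [H]
    exact AddSubgroup.mem_top t
  induction ht using AddSubgroup.closure_induction with
  | mem x hx =>
    obtain ⟨j, rfl⟩ := hx
    exact hp j
  | zero => exact h0
  | add x y _ _ hx hy => exact hadd x y hx hy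
  | neg x _ hx => exact hneg x hx

/-- Additive maps agreeing on the powers of `ζ²` agree. -/
lemma AddGen.ext (H : AddGen ζ) {Γ : Type*} [Group Γ] {Y₁ Y₂ : K → Γ}
    (h₁ : ∀ s t, Y₁ s * Y₁ t = Y₁ (s + t)) (h₂ : ∀ s t, Y₂ s * Y₂ t = Y₂ (s + t))
    (h : ∀ j : ℕ, Y₁ ((ζ ^ 2) ^ j) = Y₂ ((ζ ^ 2) ^ j)) (t : K) : Y₁ t = Y₂ t := by
  have z1 : Y₁ 0 = 1 := by
    have := h₁ 0 0
    rw [add_zero] at this
    exact mul_eq_left.1 this
  have z2 : Y₂ 0 = 1 := by
    have := h₂ 0 0
    rw [add_zero] at this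
    exact mul_eq_left.1 this
  have i1 : ∀ s, Y₁ (-s) = (Y₁ s)⁻¹ := by
    intro s
    rw [eq_inv_iff_mul_eq_one, h₁, neg_add_cancel, z1]
  have i2 : ∀ s, Y₂ (-s) = (Y₂ s)⁻¹ := by
    intro s
    rw [eq_inv_iff_mul_eq_one, h₂, neg_add_cancel, z2]
  refine H.ind (P := fun t => Y₁ t = Y₂ t) (by rw [z1, z2]) ?_ ?_ h t
  · intro s t e1 e2
    have e1' : Y₁ s = Y₂ s := e1
    have e2' : Y₁ t = Y₂ t := e2
    change Y₁ (s + t) = Y₂ (s + t)
    rw [← h₁, ← h₂, e1', e2']
  · intro s e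
    have e' : Y₁ s = Y₂ s := e
    change Y₁ (-s) = Y₂ (-s)
    rw [i1, i2, e']

lemma addGen_of_poly {p : ℕ} [Fact p.Prime] [Algebra (ZMod p) K]
    (hg : ∀ t : K, ∃ f : (ZMod p)[X], aeval (ζ ^ 2) f = t) : AddGen ζ := by
  have key : ∀ f : (ZMod p)[X], aeval (ζ ^ 2) f ∈
      AddSubgroup.closure (Set.range fun j : ℕ => (ζ ^ 2) ^ j) := by
    intro f
    induction f using Polynomial.induction_on' with
    | add f g hf hg' =>
      rw [map_add]
      exact add_mem hf hg'
    | monomial j c =>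
      haveI hp : NeZero p := ⟨(Fact.out : p.Prime).ne_zero⟩
      rw [aeval_monomial, ← Algebra.smul_def]
      have : c • (ζ ^ 2) ^ j = c.val • (ζ ^ 2) ^ j := by
        conv_lhs => rw [← ZMod.natCast_zmod_val c]
        exact Nat.cast_smul_eq_nsmul (ZMod p) c.val _
      rw [this]
      have h : (ζ ^ 2) ^ j ∈ AddSubgroup.closure (Set.range fun j : ℕ => (ζ ^ 2) ^ j) :=
        AddSubgroup.subset_closure ⟨j, rfl⟩
      exact nsmul_mem h _
  rw [AddGen, eq_top_iff]
  intro t _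
  obtain ⟨f, rfl⟩ := hg t
  exact key f

/-- Existence of a generator with all the properties. -/
lemma exists_zeta [Finite K] : ∃ ζ : K, ζ ≠ 0 ∧ (∀ t : K, t ≠ 0 → ∃ k : ℕ, t = ζ ^ k) ∧ AddGen ζ := by
  obtain ⟨p, hp⟩ := CharP.exists K
  haveI : Fact p.Prime := ⟨CharP.char_is_prime K p⟩
  letI : Algebra (ZMod p) K := ZMod.algebra K p
  obtain ⟨ζ, h0, gen, hord⟩ := Cfsg.Agent.Lib.PrsSL2.exists_gen (F := K)
  exact ⟨ζ, h0, gen, addGen_of_poly (Cfsg.Agent.Lib.PrsSL2.gen_g (p := p) ζ h0 hord)⟩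

lemma mx_zero (b : Bool) : mx K (b, 0) = 1 := by
  apply Subtype.ext
  cases b <;> simp only [mx_true, mx_false] <;> ext i j <;> fin_cases i <;> fin_cases j <;> simp

lemma mx_neg (b : Bool) (t : K) : mx K (b, -t) = (mx K (b, t))⁻¹ := by
  rw [eq_inv_iff_mul_eq_one, mx_add, neg_add_cancel, mx_zero]

/-- The generating set of `SL_2`. -/
lemma sl2_gen (H : AddGen ζ) (h0 : ζ ≠ 0) (S : Subgroup (SLT K))
    (h1 : ∀ k : ℕ, Ad (ζ ^ k) (mx K (true, 1)) ∈ S) (h2 : ∀ k : ℕ, Ad (ζ ^ k) (MW 1) ∈ S) : S = ⊤ := by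
  have hτ : MW (1 : K) ∈ S := by
    have := h2 0
    rwa [pow_zero, Ad_one'] at this
  have hu : ∀ t, mx K (true, t) ∈ S := by
    refine H.ind ?_ ?_ ?_ ?_
    · rw [mx_zero]
      exact S.one_mem
    · intro s t hs ht
      rw [← mx_add]
      exact S.mul_mem hs ht
    · intro s hs
      rw [mx_neg]
      exact S.inv_mem hs
    · intro j
      have := h1 j
      rw [Ad_mx_true (pow_ne_zero j h0), mul_one, ← pow_mul, mul_comm, pow_mul] at this
      exact this
  have hl : ∀ t, mx K (false, t) ∈ S := by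
    intro t
    have := MW_true (K := K) (-t)
    rw [neg_neg] at this
    rw [← this]
    exact S.mul_mem (S.mul_mem hτ (hu _)) (S.inv_mem hτ)
  rw [eq_top_iff]
  intro A _
  have hA := mx_surj A
  refine (Subgroup.closure_le S).2 ?_ hA
  rintro _ ⟨⟨b, t⟩, rfl⟩
  cases b
  · exact hl t
  · exact hu t

lemma sl2_mx_top (S : Subgroup (SLT K)) (h : ∀ b t, mx K (b, t) ∈ S) : S = ⊤ := by
  rw [eq_top_iff]
  intro A _
  refine (Subgroup.closure_le S).2 ?_ (mx_surj A)
  rintro _ ⟨⟨b, t⟩, rfl⟩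
  exact h b t

end Gen

end Cfsg.Agent.Lib.PrsSp
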