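import Mathlib
import Cfsg.Agent.Lib.PrsSpA

/-!
# Presentations of symplectic groups: the data and the first consequences
-/

set_option autoImplicit false
set_option linter.unusedSectionVars false

namespace Cfsg.Agent.Lib.PrsSp

open Matrix
open Cfsg.Agent.Lib.St2 (mx mx_true mx_false mx_add mx_surj)
open Cfsg.Agent.Lib.StN (MW MD coe_MW coe_MD I4 I5)

section Gp

variable {Γ : Type*} [Group Γ]

lemma comm_conj' {a b : Γ} (d : Γ) (h : Commute a b) : Commute (d * a * d⁻¹) (d * b * d⁻¹) := by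
  have := h.eq
  show _ * _ = _ * _
  calc d * a * d⁻¹ * (d * b * d⁻¹) = d * (a * b) * d⁻¹ := by group
    _ = d * (b * a) * d⁻¹ := by rw [this]
    _ = _ := by group

/-- Elements whose image commutes with a given element. -/
def cmS {G : Type*} [Group G] (f : G →* Γ) (z : Γ) : Subgroup G where
  carrier := {x | Commute z (f x)}
  mul_mem' := by
    intro a b ha hb
    show Commute z (f (a * b))
    rw [map_mul]
    exact Commute.mul_right ha hb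
  one_mem' := by
    show Commute z (f 1)
    rw [map_one]
    exact Commute.one_right z
  inv_mem' := by
    intro a ha
    show Commute z (f a⁻¹)
    rw [map_inv]
    exact Commute.inv_right ha

lemma mem_cmS {G : Type*} [Group G] {f : G →* Γ} {z : Γ} {x : G} : x ∈ cmS f z ↔ Commute z (f x) :=
  Iff.rfl

end Gp

variable {K : Type*} [Field K]

lemma MD_pow {ζ : K} (h0 : ζ ≠ 0) (k : ℕ) : MD (ζ ^ k) = (MD ζ) ^ k := by
  induction k with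
  | zero => simp [I5]
  | succ k ih => rw [pow_succ, pow_succ, ← ih, I4 (pow_ne_zero k h0) h0]

lemma sl2_gen' {ζ : K} (H : AddGen ζ) (h0 : ζ ≠ 0) (S : Subgroup (SLT K))
    (h1 : mx K (true, 1) ∈ S) (h2 : MW 1 ∈ S) (h3 : MD ζ ∈ S) : S = ⊤ := by
  have hd : ∀ k : ℕ, MD (ζ ^ k) ∈ S := by
    intro k
    rw [MD_pow h0]
    exact S.pow_mem h3 k
  apply sl2_gen H h0 S
  · intro k
    exact S.mul_mem (S.mul_mem (hd k) h1) (S.inv_mem (hd k))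
  · intro k
    exact S.mul_mem (S.mul_mem (hd k) h2) (S.inv_mem (hd k))

lemma dn_congr {n : ℕ} {i j : Fin n} (h : i ≠ j) {c d : K} (e : c = d) (hc : c ≠ 0) (hd : d ≠ 0) :
    dn h c hc = dn h d hd := by
  subst e
  rfl

/-- A monomial element with the given images of two points. -/
lemma exists_mono2 {n : ℕ} {i j a b : Fin n} (hij : i ≠ j) (hab : a ≠ b) :
    ∃ (μ : SLN n K) (σ : Equiv.Perm (Fin n)) (c : Fin n → K),
      Mono μ σ c ∧ (∀ k, c k ^ 2 = 1) ∧ σ i = a ∧ σ j = b := by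
  -- a first element with i ↦ a
  have hW : ∀ {x y : Fin n}, ∃ (μ : SLN n K) (c : Fin n → K), Mono μ (Equiv.swap x y) c ∧ ∀ k, c k ^ 2 = 1 := by
    intro x y
    by_cases h : x = y
    · subst h
      refine ⟨1, fun _ => 1, ?_, fun _ => by ring⟩
      rw [Equiv.swap_self]
      exact Mono.one'
    · refine ⟨wW h, _, mono_wW h, fun k => ?_⟩
      split_ifs <;> ring
  obtain ⟨μ₁, c₁, M₁, hc₁⟩ := hW (x := a) (y := i)
  have hne : Equiv.swap a i j ≠ a := by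
    intro e
    have : Equiv.swap a i j = Equiv.swap a i i := by rw [e, Equiv.swap_apply_right]
    exact hij ((Equiv.swap a i).injective this).symm
  obtain ⟨μ₂, c₂, M₂, hc₂⟩ := hW (x := b) (y := Equiv.swap a i j)
  refine ⟨μ₂ * μ₁, _, _, M₂.mul M₁, fun k => ?_, ?_, ?_⟩
  · rw [mul_pow, hc₂, hc₁, one_mul]
  · rw [Equiv.Perm.mul_apply, Equiv.swap_apply_right]
    exact Equiv.swap_apply_of_ne_of_ne hab hne.symm
  · rw [Equiv.Perm.mul_apply, Equiv.swap_apply_right]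

/-- The configuration. -/
structure Cfg (n : ℕ) (K Γ : Type*) [Field K] [Group Γ] where
  A : SLN n K →* Γ
  B : SLT K →* Γ
  i0 : Fin n
  i1 : Fin n
  h01 : i0 ≠ i1
  ζ : K
  ζ0 : ζ ≠ 0
  gen : ∀ t : K, t ≠ 0 → ∃ k : ℕ, t = ζ ^ k
  agen : AddGen ζ
  rZ1 : B (MD ζ) * B (mx K (true, 1)) * (B (MD ζ))⁻¹ =
    A (dn h01 ζ ζ0) * B (mx K (true, 1)) * (A (dn h01 ζ ζ0))⁻¹
  rZ2 : B (MD ζ) * B (MW 1) * (B (MD ζ))⁻¹ = A (dn h01 ζ ζ0) * B (MW 1) * (A (dn h01 ζ ζ0))⁻¹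
  rZ3 : A (dn h01 ζ ζ0) * B (MD ζ) = B (MD ζ) * A (dn h01 ζ ζ0)
  rSub : ∀ g, IsBlk i0 g → Commute (A g) (B (mx K (true, 1))) ∧ Commute (A g) (B (MW 1))
  rK : ∀ g' ∈ ({mx K (true, 1), MW 1} : Set (SLT K)), ∀ g ∈ ({mx K (true, 1), MW 1, MD ζ} : Set (SLT K)),
    Commute (A (wW h01.symm) * B g' * (A (wW h01.symm))⁻¹) (B g)
  rS : Commute (A (SpecialLinearGroup.transvection h01 1)) (B (mx K (true, 1)))
  rW : (B (MW 1) * (A (wW h01.symm) * B (MW 1) * (A (wW h01.symm))⁻¹)) *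
      A (SpecialLinearGroup.transvection h01 1) *
      (B (MW 1) * (A (wW h01.symm) * B (MW 1) * (A (wW h01.symm))⁻¹))⁻¹ =
    A (SpecialLinearGroup.transvection h01.symm (-1))
  rD : A (SpecialLinearGroup.transvection h01 1) * (A (wW h01.symm) * B (mx K (true, 1)) * (A (wW h01.symm))⁻¹) *
      (A (SpecialLinearGroup.transvection h01 1))⁻¹ =
    (A (wW h01.symm) * B (mx K (true, 1)) * (A (wW h01.symm))⁻¹) *
      (B (MW 1) * A (SpecialLinearGroup.transvection h01.symm (-1)) * (B (MW 1))⁻¹) * B (mx K (true, 1))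
  rC : A (SpecialLinearGroup.transvection h01 1) *
      (B (MW 1) * A (SpecialLinearGroup.transvection h01.symm (-1)) * (B (MW 1))⁻¹) *
      (A (SpecialLinearGroup.transvection h01 1))⁻¹ =
    (B (MW 1) * A (SpecialLinearGroup.transvection h01.symm (-1)) * (B (MW 1))⁻¹) * B (mx K (true, 2))
  rH1 : B (MD ζ) * A (SpecialLinearGroup.transvection h01 1) * (B (MD ζ))⁻¹ =
    A (SpecialLinearGroup.transvection h01 ζ)
  rH2 : B (MD ζ) * A (SpecialLinearGroup.transvection h01.symm 1) * (B (MD ζ))⁻¹ =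
    A (SpecialLinearGroup.transvection h01.symm ζ⁻¹)

namespace Cfg

variable {n : ℕ} {Γ : Type*} [Group Γ] (C : Cfg n K Γ)

/-- The diagonal element of `SL_n`. -/
abbrev hh : Γ := C.A (dn C.h01 C.ζ C.ζ0)

/-- The diagonal element of `SL_2`. -/
abbrev hp : Γ := C.B (MD C.ζ)

/-- The element centralizing the `SL_2`. -/
abbrev zz : Γ := C.hh⁻¹ * C.hp

lemma z_comm (x : SLT K) : Commute C.zz (C.B x) := by
  have hS : cmS C.B C.zz = ⊤ := by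
    apply sl2_gen' C.agen C.ζ0
    · rw [mem_cmS]
      show C.hh⁻¹ * C.hp * _ = _ * (C.hh⁻¹ * C.hp)
      have e : C.hh⁻¹ * C.hp * C.B (mx K (true, 1)) =
          C.hh⁻¹ * (C.hp * C.B (mx K (true, 1)) * C.hp⁻¹) * C.hp := by group
      rw [e, C.rZ1]
      group
    · rw [mem_cmS]
      show C.hh⁻¹ * C.hp * _ = _ * (C.hh⁻¹ * C.hp)
      have e : C.hh⁻¹ * C.hp * C.B (MW 1) =
          C.hh⁻¹ * (C.hp * C.B (MW 1) * C.hp⁻¹) * C.hp := by group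
      rw [e, C.rZ2]
      group
    · rw [mem_cmS]
      show C.hh⁻¹ * C.hp * C.hp = C.hp * (C.hh⁻¹ * C.hp)
      have e : C.hh⁻¹ * C.hp = C.hp * C.hh⁻¹ := by
        calc C.hh⁻¹ * C.hp = C.hh⁻¹ * (C.hp * C.hh) * C.hh⁻¹ := by group
          _ = C.hh⁻¹ * (C.hh * C.hp) * C.hh⁻¹ := by rw [← C.rZ3]
          _ = _ := by group
      calc C.hh⁻¹ * C.hp * C.hp = (C.hp * C.hh⁻¹) * C.hp := by rw [e]
        _ = _ := by group
  have : x ∈ cmS C.B C.zz := by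
    rw [hS]
    exact Subgroup.mem_top x
  exact this

lemma hB (x : SLT K) : C.hh * C.B x * C.hh⁻¹ = C.B (Ad C.ζ x) := by
  have h1 : C.hp = C.hh * C.zz := by
    show _ = C.hh * (C.hh⁻¹ * C.hp)
    group
  have h2 : C.B (Ad C.ζ x) = C.hp * C.B x * C.hp⁻¹ := by
    rw [Ad, map_mul, map_mul, map_inv]
  rw [h2, h1]
  have h3 := (C.z_comm x).eq
  calc C.hh * C.B x * C.hh⁻¹ = C.hh * (C.B x * C.zz * C.zz⁻¹) * C.hh⁻¹ := by group
    _ = C.hh * (C.zz * C.B x * C.zz⁻¹) * C.hh⁻¹ := by rw [h3]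
    _ = _ := by group

/-- The action of the diagonal elements on the `SL_2`. -/
lemma dnB {c : K} (hc : c ≠ 0) (x : SLT K) :
    C.A (dn C.h01 c hc) * C.B x * (C.A (dn C.h01 c hc))⁻¹ = C.B (Ad c x) := by
  obtain ⟨k, rfl⟩ := C.gen c hc
  induction k generalizing x with
  | zero =>
    have : dn C.h01 (C.ζ ^ 0) hc = 1 := by
      rw [dn_congr C.h01 (pow_zero C.ζ) hc one_ne_zero, dn_one]
    rw [this, pow_zero, Ad_one']
    simp
  | succ k ih =>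
    have e : dn C.h01 (C.ζ ^ (k + 1)) hc =
        dn C.h01 (C.ζ ^ k) (pow_ne_zero k C.ζ0) * dn C.h01 C.ζ C.ζ0 := by
      rw [dn_mul]
      exact dn_congr _ (pow_succ _ _) _ _
    have e2 : C.A (dn C.h01 (C.ζ ^ (k + 1)) hc) * C.B x * (C.A (dn C.h01 (C.ζ ^ (k + 1)) hc))⁻¹ =
        C.A (dn C.h01 (C.ζ ^ k) (pow_ne_zero k C.ζ0)) * (C.hh * C.B x * C.hh⁻¹) *
          (C.A (dn C.h01 (C.ζ ^ k) (pow_ne_zero k C.ζ0)))⁻¹ := by
      rw [e, map_mul]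
      group
    rw [e2, C.hB, ih _ (pow_ne_zero k C.ζ0), Ad_Ad (pow_ne_zero k C.ζ0) C.ζ0, pow_succ]

lemma blk_B {g : SLN n K} (hg : IsBlk C.i0 g) (x : SLT K) : Commute (C.A g) (C.B x) := by
  have key : ∀ (c : K) (hc : c ≠ 0) (y : SLT K),
      Commute (C.A (dn C.h01 c⁻¹ (inv_ne_zero hc) * g * (dn C.h01 c⁻¹ (inv_ne_zero hc))⁻¹)) (C.B y) →
      Commute (C.A g) (C.B (Ad c y)) := by
    intro c hc y h
    have h1 := comm_conj' (C.A (dn C.h01 c hc)) h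
    rw [C.dnB hc] at h1
    convert h1 using 1
    rw [map_mul, map_mul, map_inv, ← dn_inv C.h01 hc]
    simp only [map_inv, inv_inv]
    group
  have hblk : ∀ (c : K) (hc : c ≠ 0), IsBlk C.i0 (dn C.h01 c⁻¹ (inv_ne_zero hc) * g * (dn C.h01 c⁻¹ (inv_ne_zero hc))⁻¹) := by
    intro c hc
    exact hg.conj (mono_dn C.h01 c⁻¹ (inv_ne_zero hc)) rfl
  have hS : cmS C.B (C.A g) = ⊤ := by
    apply sl2_gen C.agen C.ζ0
    · intro k
      rw [mem_cmS]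
      exact key _ (pow_ne_zero k C.ζ0) _ (C.rSub _ (hblk _ (pow_ne_zero k C.ζ0))).1
    · intro k
      rw [mem_cmS]
      exact key _ (pow_ne_zero k C.ζ0) _ (C.rSub _ (hblk _ (pow_ne_zero k C.ζ0))).2
  have : x ∈ cmS C.B (C.A g) := by
    rw [hS]
    exact Subgroup.mem_top x
  exact this

/-- Monomial elements fixing the first point act on the `SL_2` through its torus. -/
lemma mono_B {μ : SLN n K} {σ : Equiv.Perm (Fin n)} {c : Fin n → K} (M : Mono μ σ c)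
    (h1 : σ C.i0 = C.i0) (x : SLT K) :
    C.A μ * C.B x * (C.A μ)⁻¹ = C.B (Ad (c C.i0) x) := by
  have hc := M.ne C.i0
  set d := dn C.h01 (c C.i0) hc with hd
  have hd' : d⁻¹ = dn C.h01 (c C.i0)⁻¹ (inv_ne_zero hc) := dn_inv C.h01 hc
  have M' := (mono_dn C.h01 (c C.i0)⁻¹ (inv_ne_zero hc)).mul M
  rw [← hd'] at M'
  have hb : IsBlk C.i0 (d⁻¹ * μ) := by
    apply M'.isBlk
    · rw [Equiv.Perm.mul_apply, h1]
      rfl
    · simp only [h1, if_true]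
      exact inv_mul_cancel₀ hc
  have e : μ = d * (d⁻¹ * μ) := by group
  have h3 := (C.blk_B hb x).eq
  have e2 : C.A μ * C.B x * (C.A μ)⁻¹ = C.A d * (C.A (d⁻¹ * μ) * C.B x * (C.A (d⁻¹ * μ))⁻¹) * (C.A d)⁻¹ := by
    conv_lhs => rw [e]
    rw [map_mul]
    group
  rw [e2, h3]
  have e3 : C.B x * C.A (d⁻¹ * μ) * (C.A (d⁻¹ * μ))⁻¹ = C.B x := by group
  rw [e3, hd, C.dnB]

lemma mono_B' {μ : SLN n K} {σ : Equiv.Perm (Fin n)} {c : Fin n → K} (M : Mono μ σ c)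
    (h1 : σ C.i0 = C.i0) (h2 : c C.i0 ^ 2 = 1) (x : SLT K) : Commute (C.A μ) (C.B x) := by
  have h := C.mono_B M h1 x
  rw [Ad_of_sq (M.ne _) h2, mul_inv_eq_iff_eq_mul] at h
  exact h

/-- The monomial elements moving the first point. -/
def mm (i : Fin n) : SLN n K := if h : i = C.i0 then 1 else wW h

lemma mm_i0 : C.mm C.i0 = 1 := dif_pos rfl

lemma mono_mm (i : Fin n) : ∃ c : Fin n → K, Mono (C.mm i) (Equiv.swap i C.i0) c ∧ ∀ k, c k ^ 2 = 1 := by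
  by_cases h : i = C.i0
  · subst h
    refine ⟨fun _ => 1, ?_, fun _ => by ring⟩
    rw [Equiv.swap_self, C.mm_i0]
    exact Mono.one'
  · refine ⟨fun k => if k = i then -1 else 1, ?_, fun k => ?_⟩
    · rw [mm, dif_neg h]
      exact mono_wW h
    · dsimp only
      split_ifs <;> ring

/-- The conjugates of the `SL_2`. -/
def Bi (i : Fin n) : SLT K →* Γ := (MulAut.conj (C.A (C.mm i))).toMonoidHom.comp C.B

lemma Bi_apply (i : Fin n) (x : SLT K) : C.Bi i x = C.A (C.mm i) * C.B x * (C.A (C.mm i))⁻¹ := rfl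

lemma Bi_i0 (x : SLT K) : C.Bi C.i0 x = C.B x := by
  rw [Bi_apply, mm_i0]
  simp

lemma Bi_i1 (x : SLT K) : C.Bi C.i1 x = C.A (wW C.h01.symm) * C.B x * (C.A (wW C.h01.symm))⁻¹ := by
  rw [Bi_apply, mm, dif_neg C.h01.symm]

/-- The action of monomial elements on the conjugates of `SL_2`. -/
lemma Bi_conj {μ : SLN n K} {σ : Equiv.Perm (Fin n)} {c : Fin n → K} (M : Mono μ σ c) (i : Fin n)
    (x : SLT K) : C.A μ * C.Bi i x * (C.A μ)⁻¹ = C.Bi (σ i) (Ad (c i) x) := by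
  obtain ⟨c₁, M₁, h₁⟩ := C.mono_mm i
  obtain ⟨c₂, M₂, h₂⟩ := C.mono_mm (σ i)
  have M' := (M₂.inv.mul M).mul M₁
  have hfix : ((Equiv.swap (σ i) C.i0)⁻¹ * σ * Equiv.swap i C.i0) C.i0 = C.i0 := by
    simp
  have hB := C.mono_B M' hfix x
  have e4 : C.A μ * C.A (C.mm i) = C.A (C.mm (σ i)) * C.A ((C.mm (σ i))⁻¹ * μ * C.mm i) := by
    rw [← map_mul, ← map_mul]
    congr 1
    group
  have e3 : C.A μ * C.Bi i x * (C.A μ)⁻¹ =
      (C.A μ * C.A (C.mm i)) * C.B x * (C.A μ * C.A (C.mm i))⁻¹ := by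
    rw [Bi_apply]
    group
  rw [e3, e4]
  have e5 : ∀ (a b y : Γ), (a * b) * y * (a * b)⁻¹ = a * (b * y * b⁻¹) * a⁻¹ := by
    intro a b y
    group
  rw [e5, hB, Bi_apply, Ad_congr (M'.ne _) (M.ne i) ?_ x]
  simp only [Equiv.swap_apply_right, Equiv.Perm.mul_apply, mul_pow, inv_pow, h₁, h₂, inv_one, one_mul,
    mul_one]

lemma conj_comm' {E a w : Γ} (h : Commute (E * a * E⁻¹) w) : Commute a (E⁻¹ * w * E) := by
  have := comm_conj' E⁻¹ h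
  simpa [mul_assoc] using this

lemma Bi1_B_gen {g' : SLT K} (hg : g' ∈ ({mx K (true, 1), MW 1} : Set (SLT K))) (x : SLT K) :
    Commute (C.Bi C.i1 g') (C.B x) := by
  have hS : cmS C.B (C.Bi C.i1 g') = ⊤ := by
    apply sl2_gen' C.agen C.ζ0
    · rw [mem_cmS, Bi_i1]
      exact C.rK g' hg _ (by simp)
    · rw [mem_cmS, Bi_i1]
      exact C.rK g' hg _ (by simp)
    · rw [mem_cmS, Bi_i1]
      exact C.rK g' hg _ (by simp)
  have : x ∈ cmS C.B (C.Bi C.i1 g') := by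
    rw [hS]
    exact Subgroup.mem_top x
  exact this

lemma B_Bi1 (x y : SLT K) : Commute (C.B x) (C.Bi C.i1 y) := by
  have key : ∀ (c : K) (hc : c ≠ 0) (g' : SLT K), g' ∈ ({mx K (true, 1), MW 1} : Set (SLT K)) →
      Commute (C.B x) (C.Bi C.i1 (Ad c g')) := by
    intro c hc g' hg'
    have h1 := C.Bi_conj (mono_dn C.h01 c⁻¹ (inv_ne_zero hc)) C.i1 g'
    simp only [Equiv.Perm.coe_one, id_eq, if_neg C.h01.symm, if_true, inv_inv] at h1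
    rw [← h1, ← dn_inv C.h01 hc, map_inv, inv_inv]
    apply conj_comm'
    rw [C.dnB hc]
    exact (C.Bi1_B_gen hg' _).symm
  have hS : cmS (C.Bi C.i1) (C.B x) = ⊤ := by
    apply sl2_gen C.agen C.ζ0
    · intro k
      exact key _ (pow_ne_zero k C.ζ0) _ (by simp)
    · intro k
      exact key _ (pow_ne_zero k C.ζ0) _ (by simp)
  have : y ∈ cmS (C.Bi C.i1) (C.B x) := by
    rw [hS]
    exact Subgroup.mem_top y
  exact this

/-- The action of signed monomial elements. -/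
lemma mono_Bi' {μ : SLN n K} {σ : Equiv.Perm (Fin n)} {c : Fin n → K} (M : Mono μ σ c)
    (hc : ∀ k, c k ^ 2 = 1) (i : Fin n) (x : SLT K) :
    C.A μ * C.Bi i x * (C.A μ)⁻¹ = C.Bi (σ i) x := by
  rw [C.Bi_conj M, Ad_of_sq (M.ne i) (hc i)]

lemma B_Bi {j : Fin n} (hj : j ≠ C.i0) (x y : SLT K) : Commute (C.B x) (C.Bi j y) := by
  obtain ⟨ν, σ, c, M, hc, h1, h2⟩ := exists_mono2 (K := K) C.h01 hj.symm
  have h3 := C.mono_Bi' M hc C.i1 y
  rw [h2] at h3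
  rw [← h3]
  have h4 := comm_conj' (C.A ν) (C.B_Bi1 x y)
  have h5 := C.mono_B' M h1 (hc _) x
  rw [h5.eq] at h4
  simpa using h4

lemma Bi_comm {i j : Fin n} (h : i ≠ j) (x y : SLT K) : Commute (C.Bi i x) (C.Bi j y) := by
  obtain ⟨c, M, hc⟩ := C.mono_mm i
  have hσ : Equiv.swap i C.i0 j ≠ C.i0 := by
    intro e
    have : Equiv.swap i C.i0 j = Equiv.swap i C.i0 i := by
      rw [e, Equiv.swap_apply_left]
    exact h ((Equiv.swap i C.i0).injective this).symm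
  have h1 := C.mono_Bi' M hc (Equiv.swap i C.i0 j) y
  rw [Equiv.swap_apply_self] at h1
  rw [← h1, Bi_apply C i x]
  exact comm_conj' _ (C.B_Bi hσ x y)

/-- The root elements of `SL_n`. -/
def xx (i j : Fin n) (t : K) : Γ :=
  if h : i ≠ j then C.A (SpecialLinearGroup.transvection h t) else 1

lemma xx_of {i j : Fin n} (h : i ≠ j) (t : K) :
    C.xx i j t = C.A (SpecialLinearGroup.transvection h t) := dif_pos h

lemma xx_self (i : Fin n) (t : K) : C.xx i i t = 1 := by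
  rw [xx, dif_neg (by simp)]

lemma tv_add {i j : Fin n} (h : i ≠ j) (s t : K) :
    (SpecialLinearGroup.transvection h s * SpecialLinearGroup.transvection h t : SLN n K) =
      SpecialLinearGroup.transvection h (s + t) := by
  apply sl_eq
  rw [Matrix.SpecialLinearGroup.coe_mul]
  exact Matrix.transvection_mul_transvection_same _ _ h s t

lemma xx_add {i j : Fin n} (h : i ≠ j) (s t : K) : C.xx i j s * C.xx i j t = C.xx i j (s + t) := by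
  rw [xx_of C h, xx_of C h, xx_of C h, ← map_mul, tv_add]

lemma xx_zero (i j : Fin n) : C.xx i j 0 = 1 := by
  by_cases h : i = j
  · subst h
    exact C.xx_self _ _
  · have := C.xx_add h 0 0
    rw [add_zero] at this
    exact mul_eq_left.1 this

lemma xx_inv (i j : Fin n) (t : K) : (C.xx i j t)⁻¹ = C.xx i j (-t) := by
  by_cases h : i = j
  · subst h
    simp [xx_self]
  · rw [inv_eq_iff_mul_eq_one, C.xx_add h, add_neg_cancel, xx_zero]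

lemma mono_xx {μ : SLN n K} {σ : Equiv.Perm (Fin n)} {c : Fin n → K} (M : Mono μ σ c)
    (i j : Fin n) (t : K) :
    C.A μ * C.xx i j t * (C.A μ)⁻¹ = C.xx (σ i) (σ j) (c i * t * (c j)⁻¹) := by
  by_cases h : i = j
  · subst h
    simp [xx_self]
  · rw [xx_of C h, xx_of C (σ.injective.ne h), ← map_inv, ← map_mul, ← map_mul, M.conj_tv h]

lemma mono_xx' {μ : SLN n K} {σ : Equiv.Perm (Fin n)} {c : Fin n → K} (M : Mono μ σ c)
    (i j : Fin n) (t : K) :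
    C.xx (σ i) (σ j) t = C.A μ * C.xx i j ((c i)⁻¹ * t * c j) * (C.A μ)⁻¹ := by
  rw [C.mono_xx M]
  congr 1
  have h1 := M.ne i
  have h2 := M.ne j
  field_simp

/-- Root elements away from a point commute with its `SL_2`. -/
lemma x_Bi {i j k : Fin n} (hi : k ≠ i) (hj : k ≠ j) (t : K) (x : SLT K) :
    Commute (C.xx i j t) (C.Bi k x) := by
  by_cases h : i = j
  · subst h
    rw [xx_self]
    exact Commute.one_left _
  obtain ⟨c, M, hc⟩ := C.mono_mm k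
  set σ := Equiv.swap k C.i0 with hσ
  have hs : ∀ a, σ (σ a) = a := fun a => Equiv.swap_apply_self _ _ a
  have hne : ∀ {a}, k ≠ a → σ a ≠ C.i0 := by
    intro a ha e
    have : σ a = σ k := by
      rw [e, hσ, Equiv.swap_apply_left]
    exact ha (σ.injective this).symm
  have hab : σ i ≠ σ j := σ.injective.ne h
  have h1 : C.xx i j t = C.A (C.mm k) * C.xx (σ i) (σ j) ((c (σ i))⁻¹ * t * c (σ j)) * (C.A (C.mm k))⁻¹ := by
    have := C.mono_xx' M (σ i) (σ j) t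
    rwa [hs, hs] at this
  rw [h1, Bi_apply]
  apply comm_conj'
  rw [xx_of C hab]
  exact C.blk_B (tv_isBlk hab (hne hi) (hne hj) _) x

lemma hp_comm_dn {c : K} (hc : c ≠ 0) : Commute C.hp (C.A (dn C.h01 c hc)) := by
  have := C.dnB hc (MD C.ζ)
  rw [Ad_MD hc C.ζ0, mul_inv_eq_iff_eq_mul] at this
  exact this.symm

lemma dn_x01 {c : K} (hc : c ≠ 0) (t : K) :
    C.A (dn C.h01 c hc) * C.xx C.i0 C.i1 t * (C.A (dn C.h01 c hc))⁻¹ = C.xx C.i0 C.i1 (c ^ 2 * t) := by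
  have := C.mono_xx (mono_dn C.h01 c hc) C.i0 C.i1 t
  simp only [Equiv.Perm.coe_one, id_eq, if_true, if_neg C.h01.symm, inv_inv] at this
  rw [this]
  congr 1
  ring

lemma dn_x10 {c : K} (hc : c ≠ 0) (t : K) :
    C.A (dn C.h01 c hc) * C.xx C.i1 C.i0 t * (C.A (dn C.h01 c hc))⁻¹ = C.xx C.i1 C.i0 ((c⁻¹) ^ 2 * t) := by
  have := C.mono_xx (mono_dn C.h01 c hc) C.i1 C.i0 t
  simp only [Equiv.Perm.coe_one, id_eq, if_true, if_neg C.h01.symm] at this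
  rw [this]
  congr 1
  have := inv_ne_zero hc
  field_simp

/-- The torus on `x_{01}`. -/
lemma hp_x01 (t : K) : C.hp * C.xx C.i0 C.i1 t * C.hp⁻¹ = C.xx C.i0 C.i1 (C.ζ * t) := by
  refine C.agen.ext (Y₁ := fun t => C.hp * C.xx C.i0 C.i1 t * C.hp⁻¹) (Y₂ := fun t => C.xx C.i0 C.i1 (C.ζ * t))
    ?_ ?_ ?_ t
  · intro s t
    rw [← C.xx_add C.h01 s t]
    group
  · intro s t
    rw [C.xx_add C.h01, mul_add]
  · intro j
    have hc : C.ζ ^ j ≠ 0 := pow_ne_zero j C.ζ0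
    have e1 : (C.ζ ^ 2) ^ j = (C.ζ ^ j) ^ 2 * 1 := by
      rw [mul_one, ← pow_mul, ← pow_mul, mul_comm]
    rw [e1, ← C.dn_x01 hc]
    have h3 := (C.hp_comm_dn hc).eq
    have e2 : C.hp * (C.A (dn C.h01 _ hc) * C.xx C.i0 C.i1 1 * (C.A (dn C.h01 _ hc))⁻¹) * C.hp⁻¹ =
        C.A (dn C.h01 _ hc) * (C.hp * C.xx C.i0 C.i1 1 * C.hp⁻¹) * (C.A (dn C.h01 _ hc))⁻¹ := by
      calc _ = (C.hp * C.A (dn C.h01 _ hc)) * C.xx C.i0 C.i1 1 * (C.hp * C.A (dn C.h01 _ hc))⁻¹ := by group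
        _ = (C.A (dn C.h01 _ hc) * C.hp) * C.xx C.i0 C.i1 1 * (C.A (dn C.h01 _ hc) * C.hp)⁻¹ := by rw [h3]
        _ = _ := by group
    rw [e2, xx_of C C.h01 1, C.rH1, ← xx_of C C.h01, C.dn_x01 hc]
    congr 1
    ring

lemma hp_x10 (t : K) : C.hp * C.xx C.i1 C.i0 t * C.hp⁻¹ = C.xx C.i1 C.i0 (C.ζ⁻¹ * t) := by
  refine C.agen.ext (Y₁ := fun t => C.hp * C.xx C.i1 C.i0 t * C.hp⁻¹) (Y₂ := fun t => C.xx C.i1 C.i0 (C.ζ⁻¹ * t))
    ?_ ?_ ?_ t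
  · intro s t
    rw [← C.xx_add C.h01.symm s t]
    group
  · intro s t
    rw [C.xx_add C.h01.symm, mul_add]
  · intro j
    have hc' : C.ζ ^ j ≠ 0 := pow_ne_zero j C.ζ0
    have hc : (C.ζ ^ j)⁻¹ ≠ 0 := inv_ne_zero hc'
    have e1 : (C.ζ ^ 2) ^ j = ((C.ζ ^ j)⁻¹⁻¹) ^ 2 * 1 := by
      rw [mul_one, inv_inv, ← pow_mul, ← pow_mul, mul_comm]
    rw [e1, ← C.dn_x10 hc]
    have h3 := (C.hp_comm_dn hc).eq
    have e2 : C.hp * (C.A (dn C.h01 _ hc) * C.xx C.i1 C.i0 1 * (C.A (dn C.h01 _ hc))⁻¹) * C.hp⁻¹ =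
        C.A (dn C.h01 _ hc) * (C.hp * C.xx C.i1 C.i0 1 * C.hp⁻¹) * (C.A (dn C.h01 _ hc))⁻¹ := by
      calc _ = (C.hp * C.A (dn C.h01 _ hc)) * C.xx C.i1 C.i0 1 * (C.hp * C.A (dn C.h01 _ hc))⁻¹ := by group
        _ = (C.A (dn C.h01 _ hc) * C.hp) * C.xx C.i1 C.i0 1 * (C.A (dn C.h01 _ hc) * C.hp)⁻¹ := by rw [h3]
        _ = _ := by group
    rw [e2, xx_of C C.h01.symm 1, C.rH2, ← xx_of C C.h01.symm, C.dn_x10 hc]
    congr 1
    ring


lemma hh_inv : C.hh⁻¹ = C.A (dn C.h01 C.ζ⁻¹ (inv_ne_zero C.ζ0)) := by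
  rw [← map_inv, dn_inv]

lemma zz_x01 (t : K) : C.zz * C.xx C.i0 C.i1 t * C.zz⁻¹ = C.xx C.i0 C.i1 (C.ζ⁻¹ * t) := by
  have e : C.zz * C.xx C.i0 C.i1 t * C.zz⁻¹ = C.hh⁻¹ * (C.hp * C.xx C.i0 C.i1 t * C.hp⁻¹) * C.hh⁻¹⁻¹ := by
    show (C.hh⁻¹ * C.hp) * _ * (C.hh⁻¹ * C.hp)⁻¹ = _
    group
  rw [e, C.hp_x01, hh_inv, C.dn_x01]
  congr 1
  have := C.ζ0
  field_simp

lemma zz_x10 (t : K) : C.zz * C.xx C.i1 C.i0 t * C.zz⁻¹ = C.xx C.i1 C.i0 (C.ζ * t) := by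
  have e : C.zz * C.xx C.i1 C.i0 t * C.zz⁻¹ = C.hh⁻¹ * (C.hp * C.xx C.i1 C.i0 t * C.hp⁻¹) * C.hh⁻¹⁻¹ := by
    show (C.hh⁻¹ * C.hp) * _ * (C.hh⁻¹ * C.hp)⁻¹ = _
    group
  rw [e, C.hp_x10, hh_inv, C.dn_x10]
  congr 1
  have := C.ζ0
  field_simp

lemma MD_x01 {c : K} (hc : c ≠ 0) (t : K) :
    C.B (MD c) * C.xx C.i0 C.i1 t * (C.B (MD c))⁻¹ = C.xx C.i0 C.i1 (c * t) := by
  obtain ⟨k, rfl⟩ := C.gen c hc
  induction k generalizing t with
  | zero =>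
    simp [I5]
  | succ k ih =>
    have e : MD (C.ζ ^ (k + 1)) = MD (C.ζ ^ k) * MD C.ζ := by
      rw [I4 (pow_ne_zero k C.ζ0) C.ζ0, pow_succ]
    have e2 : C.B (MD (C.ζ ^ (k + 1))) * C.xx C.i0 C.i1 t * (C.B (MD (C.ζ ^ (k + 1))))⁻¹ =
        C.B (MD (C.ζ ^ k)) * (C.hp * C.xx C.i0 C.i1 t * C.hp⁻¹) * (C.B (MD (C.ζ ^ k)))⁻¹ := by
      rw [e, map_mul]
      group
    rw [e2, C.hp_x01, ih _ (pow_ne_zero k C.ζ0), pow_succ]
    congr 1
    ring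

lemma MD_x10 {c : K} (hc : c ≠ 0) (t : K) :
    C.B (MD c) * C.xx C.i1 C.i0 t * (C.B (MD c))⁻¹ = C.xx C.i1 C.i0 (c⁻¹ * t) := by
  obtain ⟨k, rfl⟩ := C.gen c hc
  induction k generalizing t with
  | zero =>
    simp [I5]
  | succ k ih =>
    have e : MD (C.ζ ^ (k + 1)) = MD (C.ζ ^ k) * MD C.ζ := by
      rw [I4 (pow_ne_zero k C.ζ0) C.ζ0, pow_succ]
    have e2 : C.B (MD (C.ζ ^ (k + 1))) * C.xx C.i1 C.i0 t * (C.B (MD (C.ζ ^ (k + 1))))⁻¹ =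
        C.B (MD (C.ζ ^ k)) * (C.hp * C.xx C.i1 C.i0 t * C.hp⁻¹) * (C.B (MD (C.ζ ^ k)))⁻¹ := by
      rw [e, map_mul]
      group
    rw [e2, C.hp_x10, ih _ (pow_ne_zero k C.ζ0), pow_succ]
    congr 1
    rw [mul_inv]
    ring

lemma conj_swap' {a b : Γ} (h : Commute a b) (y : Γ) : a * (b * y * b⁻¹) * a⁻¹ = b * (a * y * a⁻¹) * b⁻¹ := by
  calc a * (b * y * b⁻¹) * a⁻¹ = (a * b) * y * (a * b)⁻¹ := by group
    _ = (b * a) * y * (b * a)⁻¹ := by rw [h.eq]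
    _ = _ := by group

lemma inv_of_sq {x : K} (h : x ^ 2 = 1) : x⁻¹ = x := by
  have h0 : x ≠ 0 := by
    rintro rfl
    simp at h
  field_simp
  rw [← h]

lemma MD_x0j {j : Fin n} (hj : j ≠ C.i0) {c : K} (hc : c ≠ 0) (t : K) :
    C.B (MD c) * C.xx C.i0 j t * (C.B (MD c))⁻¹ = C.xx C.i0 j (c * t) := by
  obtain ⟨ν, σ, d, M, hd, h1, h2⟩ := exists_mono2 (K := K) C.h01 hj.symm
  have e1 : ∀ s, C.xx C.i0 j s = C.A ν * C.xx C.i0 C.i1 ((d C.i0)⁻¹ * s * d C.i1) * (C.A ν)⁻¹ := by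
    intro s
    have := C.mono_xx' M C.i0 C.i1 s
    rwa [h1, h2] at this
  rw [e1, e1, conj_swap' (C.mono_B' M h1 (hd _) _).symm, C.MD_x01 hc]
  congr 3
  ring

lemma MD_xj0 {j : Fin n} (hj : j ≠ C.i0) {c : K} (hc : c ≠ 0) (t : K) :
    C.B (MD c) * C.xx j C.i0 t * (C.B (MD c))⁻¹ = C.xx j C.i0 (c⁻¹ * t) := by
  obtain ⟨ν, σ, d, M, hd, h1, h2⟩ := exists_mono2 (K := K) C.h01 hj.symm
  have e1 : ∀ s, C.xx j C.i0 s = C.A ν * C.xx C.i1 C.i0 ((d C.i1)⁻¹ * s * d C.i0) * (C.A ν)⁻¹ := by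
    intro s
    have := C.mono_xx' M C.i1 C.i0 s
    rwa [h1, h2] at this
  rw [e1, e1, conj_swap' (C.mono_B' M h1 (hd _) _).symm, C.MD_x10 hc]
  congr 3
  ring

/-- The long Weyl elements. -/
def tau (i : Fin n) : Γ := C.Bi i (MW 1)

lemma tau_i0 : C.tau C.i0 = C.B (MW 1) := C.Bi_i0 _

lemma tau0_sq : C.tau C.i0 * C.tau C.i0 = C.B (MD (-1)) := by
  rw [tau_i0, ← map_mul, MW_sq]

lemma hm0 : (-1 : K) ≠ 0 := neg_ne_zero.2 one_ne_zero

lemma tau_x0j {j : Fin n} (hj : j ≠ C.i0) (t : K) :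
    (C.tau C.i0 * C.tau C.i0) * C.xx C.i0 j t * (C.tau C.i0 * C.tau C.i0)⁻¹ = C.xx C.i0 j (-t) := by
  rw [tau0_sq, C.MD_x0j hj hm0]
  congr 1
  ring

lemma tau_xj0 {j : Fin n} (hj : j ≠ C.i0) (t : K) :
    (C.tau C.i0 * C.tau C.i0) * C.xx j C.i0 t * (C.tau C.i0 * C.tau C.i0)⁻¹ = C.xx j C.i0 (-t) := by
  rw [tau0_sq, C.MD_xj0 hj hm0]
  congr 1
  simp

lemma tau_conj {μ : SLN n K} {σ : Equiv.Perm (Fin n)} {c : Fin n → K} (M : Mono μ σ c)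
    (hc : ∀ k, c k ^ 2 = 1) (i : Fin n) : C.A μ * C.tau i * (C.A μ)⁻¹ = C.tau (σ i) :=
  C.mono_Bi' M hc i _

lemma conj_sq (g a y : Γ) : (g * a * g⁻¹ * (g * a * g⁻¹)) * (g * y * g⁻¹) * (g * a * g⁻¹ * (g * a * g⁻¹))⁻¹ =
    g * ((a * a) * y * (a * a)⁻¹) * g⁻¹ := by
  group

lemma tau_sq_left {i j : Fin n} (h : i ≠ j) (t : K) :
    (C.tau i * C.tau i) * C.xx i j t * (C.tau i * C.tau i)⁻¹ = C.xx i j (-t) := by
  obtain ⟨c, M, hc⟩ := C.mono_mm i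
  set σ := Equiv.swap i C.i0 with hσ
  have hs : σ C.i0 = i := Equiv.swap_apply_right _ _
  have hs2 : σ (σ j) = j := Equiv.swap_apply_self _ _ _
  have hne : σ j ≠ C.i0 := by
    intro e
    apply h
    rw [← hs, ← e, hs2]
  have e1 : ∀ s, C.xx i j s = C.A (C.mm i) * C.xx C.i0 (σ j) ((c C.i0)⁻¹ * s * c (σ j)) * (C.A (C.mm i))⁻¹ := by
    intro s
    have := C.mono_xx' M C.i0 (σ j) s
    rwa [hs, hs2] at this
  have e2 := C.tau_conj M hc C.i0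
  rw [hs] at e2
  rw [← e2, e1, e1, conj_sq, C.tau_x0j hne]
  congr 3
  ring

lemma tau_sq_right {i j : Fin n} (h : i ≠ j) (t : K) :
    (C.tau j * C.tau j) * C.xx i j t * (C.tau j * C.tau j)⁻¹ = C.xx i j (-t) := by
  obtain ⟨c, M, hc⟩ := C.mono_mm j
  set σ := Equiv.swap j C.i0 with hσ
  have hs : σ C.i0 = j := Equiv.swap_apply_right _ _
  have hs2 : σ (σ i) = i := Equiv.swap_apply_self _ _ _
  have hne : σ i ≠ C.i0 := by
    intro e
    apply h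
    rw [← hs2, e, hs]
  have e1 : ∀ s, C.xx i j s = C.A (C.mm j) * C.xx (σ i) C.i0 ((c (σ i))⁻¹ * s * c C.i0) * (C.A (C.mm j))⁻¹ := by
    intro s
    have := C.mono_xx' M (σ i) C.i0 s
    rwa [hs, hs2] at this
  have e2 := C.tau_conj M hc C.i0
  rw [hs] at e2
  rw [← e2, e1, e1, conj_sq, C.tau_xj0 hne]
  congr 3
  ring

lemma hp_tau0 : C.hp * C.tau C.i0 = C.tau C.i0 * C.hp⁻¹ := by
  rw [tau_i0, hp, ← map_mul, ← map_inv, ← map_mul, MD_MW C.ζ0]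

lemma hp_tau1 : Commute C.hp (C.tau C.i1) := C.B_Bi1 _ _

lemma W_base (s : K) :
    (C.tau C.i0 * C.tau C.i1) * C.xx C.i0 C.i1 s * (C.tau C.i0 * C.tau C.i1)⁻¹ = C.xx C.i1 C.i0 (-s) := by
  set g := C.tau C.i0 * C.tau C.i1 with hg
  have hgh : C.hp * g = g * C.hp⁻¹ := by
    rw [hg, ← mul_assoc, hp_tau0, mul_assoc, mul_assoc, ← (C.hp_tau1.inv_left).eq]
  have step : ∀ s, g * C.xx C.i0 C.i1 s * g⁻¹ = C.xx C.i1 C.i0 (-s) →
      g * C.xx C.i0 C.i1 (C.ζ⁻¹ * s) * g⁻¹ = C.xx C.i1 C.i0 (-(C.ζ⁻¹ * s)) := by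
    intro s h
    have e1 : C.xx C.i0 C.i1 (C.ζ⁻¹ * s) = C.hp⁻¹ * C.xx C.i0 C.i1 s * C.hp := by
      have := C.hp_x01 (C.ζ⁻¹ * s)
      rw [← mul_assoc, mul_inv_cancel₀ C.ζ0, one_mul] at this
      rw [← this]
      group
    have e2 : g * (C.hp⁻¹ * C.xx C.i0 C.i1 s * C.hp) * g⁻¹ = C.hp * (g * C.xx C.i0 C.i1 s * g⁻¹) * C.hp⁻¹ := by
      calc _ = (g * C.hp⁻¹) * C.xx C.i0 C.i1 s * (g * C.hp⁻¹)⁻¹ := by group
        _ = (C.hp * g) * C.xx C.i0 C.i1 s * (C.hp * g)⁻¹ := by rw [hgh]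
        _ = _ := by group
    rw [e1, e2, h, C.hp_x10]
    congr 1
    ring
  have h1 : g * C.xx C.i0 C.i1 1 * g⁻¹ = C.xx C.i1 C.i0 (-1) := by
    rw [hg, xx_of C C.h01, xx_of C C.h01.symm, tau_i0, tau, Bi_i1]
    exact C.rW
  have hpow : ∀ k : ℕ, g * C.xx C.i0 C.i1 ((C.ζ⁻¹) ^ k) * g⁻¹ = C.xx C.i1 C.i0 (-(C.ζ⁻¹) ^ k) := by
    intro k
    induction k with
    | zero => simpa using h1
    | succ k ih =>
      have := step _ ih
      rw [pow_succ']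
      exact this
  by_cases hs : s = 0
  · subst hs
    simp [xx_zero]
  · obtain ⟨k, hk⟩ := C.gen s⁻¹ (inv_ne_zero hs)
    have : s = (C.ζ⁻¹) ^ k := by
      rw [inv_pow, ← hk, inv_inv]
    rw [this]
    exact hpow k

lemma W_gen {i j : Fin n} (h : i ≠ j) (s : K) :
    (C.tau i * C.tau j) * C.xx i j s * (C.tau i * C.tau j)⁻¹ = C.xx j i (-s) := by
  obtain ⟨μ, σ, c, M, hc, h1, h2⟩ := exists_mono2 (K := K) C.h01 h
  have e1 := C.mono_xx' M C.i0 C.i1 s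
  have e2 := C.mono_xx' M C.i1 C.i0 (-s)
  have e3 := C.tau_conj M hc C.i0
  have e4 := C.tau_conj M hc C.i1
  rw [h1] at e3
  rw [h2] at e4
  rw [h1, h2] at e1 e2
  rw [e1, e2, ← e3, ← e4]
  have e5 : ∀ (g a b y : Γ), (g * a * g⁻¹ * (g * b * g⁻¹)) * (g * y * g⁻¹) * (g * a * g⁻¹ * (g * b * g⁻¹))⁻¹ =
      g * ((a * b) * y * (a * b)⁻¹) * g⁻¹ := by
    intro g a b y
    group
  rw [e5, C.W_base, inv_of_sq (hc _), inv_of_sq (hc _)]
  congr 3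
  ring

end Cfg

end Cfsg.Agent.Lib.PrsSp
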