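import Mathlib
import Cfsg.Agent.Lib.PrsSpB

/-!
# Presentations of symplectic groups: the root elements and the action of the Weyl group
-/

set_option autoImplicit false
set_option linter.unusedSectionVars false

namespace Cfsg.Agent.Lib.PrsSp

open Matrix
open Cfsg.Agent.Lib.St2 (mx mx_true mx_false mx_add mx_surj)
open Cfsg.Agent.Lib.StN (MW MD coe_MW coe_MD I4 I5)
open Cfsg.Agent.Lib.SpN (Ix Sh sw_sw sw_ne sw_inj sw_ne_sw ne_sw_symm)
open Cfsg.Agent.Lib.SpRoot (sg sg_swap sg_mul_self sg_ne_zero)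

variable {n : ℕ} {K Γ : Type*} [Field K] [Group Γ]

section PAct

/-- Action of an element on a collection of root elements. -/
structure PAct (X : Ix n → Ix n → K → Γ) (L : Ix n → K → Γ) (g : Γ) (π : Ix n → Ix n) (c : Ix n → K) :
    Prop where
  sw : ∀ x, π x.swap = (π x).swap
  inj : Function.Injective π
  rel : ∀ x, c x * c x.swap = sg x * sg (π x)
  Xc : ∀ {x y}, Sh x y → ∀ u, g * X x y u * g⁻¹ = X (π x) (π y) (c x * c y * u)
  Lc : ∀ x u, g * L x u * g⁻¹ = L (π x) (c x * c x * u)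

namespace PAct

variable {X : Ix n → Ix n → K → Γ} {L : Ix n → K → Γ} {g g' : Γ} {π π' : Ix n → Ix n} {c c' : Ix n → K}

lemma sh (A : PAct X L g π c) {x y : Ix n} (h : Sh x y) : Sh (π x) (π y) := by
  refine ⟨fun e => h.1 (A.inj e), ?_⟩
  rw [← A.sw]
  exact fun e => h.2 (A.inj e)

lemma c_ne (A : PAct X L g π c) (x : Ix n) : c x ≠ 0 := by
  intro h0
  have := A.rel x
  rw [h0, zero_mul] at this
  exact mul_ne_zero (sg_ne_zero x) (sg_ne_zero (π x)) this.symm

lemma congr (A : PAct X L g π c) (h1 : ∀ x, π x = π' x) (h2 : ∀ x, c x = c' x) : PAct X L g π' c' := by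
  have e1 : π = π' := funext h1
  have e2 : c = c' := funext h2
  rw [← e1, ← e2]
  exact A

lemma mul (A : PAct X L g π c) (B : PAct X L g' π' c') :
    PAct X L (g * g') (fun x => π (π' x)) (fun x => c (π' x) * c' x) where
  sw x := by rw [B.sw, A.sw]
  inj := A.inj.comp B.inj
  rel x := by
    have h1 := A.rel (π' x)
    have h2 := B.rel x
    have h3 := sg_mul_self (K := K) (π' x)
    rw [B.sw]
    linear_combination (c' x * c' x.swap) * h1 + (sg (π' x) * sg (π (π' x))) * h2 +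
      (sg x * sg (π (π' x))) * h3
  Xc {x y} h u := by
    have e : g * g' * X x y u * (g * g')⁻¹ = g * (g' * X x y u * g'⁻¹) * g⁻¹ := by group
    rw [e, B.Xc h, A.Xc (B.sh h)]
    congr 1
    ring
  Lc x u := by
    have e : g * g' * L x u * (g * g')⁻¹ = g * (g' * L x u * g'⁻¹) * g⁻¹ := by group
    rw [e, B.Lc, A.Lc]
    congr 1
    ring

lemma one : PAct X L 1 (fun x => x) (fun _ => 1) where
  sw _ := rfl
  inj := fun _ _ h => h
  rel x := by
    have := sg_mul_self (K := K) x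
    rw [this]
    ring
  Xc {x y} _ u := by simp
  Lc x u := by simp

lemma X' (A : PAct X L g π c) {a b : Ix n} (h : Sh a b) (t : K) :
    X (π a) (π b) t = g * X a b (t / (c a * c b)) * g⁻¹ := by
  rw [A.Xc h]
  congr 1
  have h1 := A.c_ne a
  have h2 := A.c_ne b
  field_simp

lemma L' (A : PAct X L g π c) (a : Ix n) (t : K) :
    L (π a) t = g * L a (t / (c a * c a)) * g⁻¹ := by
  rw [A.Lc]
  congr 1
  have h1 := A.c_ne a
  field_simp

lemma T_add (A : PAct X L g π c) {a b : Ix n} (h : Sh a b)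
    (R : ∀ s t, X a b s * X a b t = X a b (s + t)) (s t : K) :
    X (π a) (π b) s * X (π a) (π b) t = X (π a) (π b) (s + t) := by
  rw [A.X' h, A.X' h, A.X' h, add_div, ← R]
  group

lemma T_commXX (A : PAct X L g π c) {a b c' d : Ix n} (h : Sh a b) (h' : Sh c' d)
    (R : ∀ t u, X a b t * X c' d u = X c' d u * X a b t) (t u : K) :
    X (π a) (π b) t * X (π c') (π d) u = X (π c') (π d) u * X (π a) (π b) t := by
  rw [A.X' h, A.X' h']
  exact comm_conj' g (R _ _)

lemma T_commXL (A : PAct X L g π c) {a b c' : Ix n} (h : Sh a b)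
    (R : ∀ t u, X a b t * L c' u = L c' u * X a b t) (t u : K) :
    X (π a) (π b) t * L (π c') u = L (π c') u * X (π a) (π b) t := by
  rw [A.X' h, A.L']
  exact comm_conj' g (R _ _)

lemma T_commLL (A : PAct X L g π c) {a c' : Ix n}
    (R : ∀ t u, L a t * L c' u = L c' u * L a t) (t u : K) :
    L (π a) t * L (π c') u = L (π c') u * L (π a) t := by
  rw [A.L', A.L']
  exact comm_conj' g (R _ _)

lemma val_C {ca cd cb cb' sb sb' t u : K} (h1 : ca ≠ 0) (h2 : cd ≠ 0) (h3 : cb ≠ 0) (h4 : cb' ≠ 0)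
    (rel : cb * cb' = sb * sb') (hs : sb' * sb' = 1) :
    ca * cd * (sb * (t / (ca * cb)) * (u / (cb' * cd))) = sb' * t * u := by
  have e : ca * cd * (sb * (t / (ca * cb)) * (u / (cb' * cd))) = sb * t * u / (cb * cb') := by
    field_simp
  rw [e, rel]
  have h5 : sb' ≠ 0 := by
    rintro rfl
    simp at hs
  have h6 : sb ≠ 0 := by
    rintro rfl
    rw [zero_mul] at rel
    exact mul_ne_zero h3 h4 rel
  field_simp
  linear_combination (-(t * u)) * hs

lemma T_relC (A : PAct X L g π c) {a b d : Ix n} (hab : Sh a b) (hbd : Sh b.swap d) (had : Sh a d)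
    (R : ∀ t u, X a b t * X b.swap d u * (X a b t)⁻¹ = X b.swap d u * X a d (sg b * t * u)) (t u : K) :
    X (π a) (π b) t * X (π b).swap (π d) u * (X (π a) (π b) t)⁻¹ =
      X (π b).swap (π d) u * X (π a) (π d) (sg (π b) * t * u) := by
  rw [← A.sw]
  have e : sg (π b) * t * u = c a * c d * (sg b * (t / (c a * c b)) * (u / (c b.swap * c d))) :=
    (val_C (A.c_ne a) (A.c_ne d) (A.c_ne b) (A.c_ne _) (A.rel b) (sg_mul_self _)).symm
  rw [e, ← A.Xc had, A.X' hab, A.X' hbd]
  have := R (t / (c a * c b)) (u / (c b.swap * c d))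
  calc _ = g * (X a b (t / (c a * c b)) * X b.swap d (u / (c b.swap * c d)) * (X a b (t / (c a * c b)))⁻¹) * g⁻¹ := by
        group
    _ = _ := by
        rw [this]
        group

lemma T_relC' (A : PAct X L g π c) {a b : Ix n} (hab : Sh a b) (hba : Sh b.swap a)
    (R : ∀ t u, X a b t * X b.swap a u * (X a b t)⁻¹ = X b.swap a u * L a (2 * sg b * t * u)) (t u : K) :
    X (π a) (π b) t * X (π b).swap (π a) u * (X (π a) (π b) t)⁻¹ =
      X (π b).swap (π a) u * L (π a) (2 * sg (π b) * t * u) := by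
  rw [← A.sw]
  have e : 2 * sg (π b) * t * u = c a * c a * (2 * sg b * (t / (c a * c b)) * (u / (c b.swap * c a))) := by
    have := val_C (t := 2 * t) (u := u) (A.c_ne a) (A.c_ne a) (A.c_ne b) (A.c_ne _) (A.rel b) (sg_mul_self (K := K) (π b))
    rw [show 2 * sg (π b) * t * u = sg (π b) * (2 * t) * u by ring, ← this]
    ring
  rw [e, ← A.Lc, A.X' hab, A.X' hba]
  have := R (t / (c a * c b)) (u / (c b.swap * c a))
  calc _ = g * (X a b (t / (c a * c b)) * X b.swap a (u / (c b.swap * c a)) * (X a b (t / (c a * c b)))⁻¹) * g⁻¹ := by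
        group
    _ = _ := by
        rw [this]
        group

lemma val_D1 {ca cb cb' sb sb' t u : K} (h1 : ca ≠ 0) (h3 : cb ≠ 0) (h4 : cb' ≠ 0)
    (rel : cb * cb' = sb * sb') (hs : sb' * sb' = 1) :
    cb' * ca * (sb * (t / (ca * cb)) * (u / (cb' * cb'))) = sb' * t * u := by
  have := val_C (ca := cb') (cd := ca) (cb := cb) (cb' := cb') (sb := sb) (sb' := sb') (t := t) (u := u)
    h4 h1 h3 h4 rel hs
  rw [← this]
  field_simp

lemma val_D2 {ca cb cb' sb sb' t u : K} (h1 : ca ≠ 0) (h3 : cb ≠ 0) (h4 : cb' ≠ 0)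
    (rel : cb * cb' = sb * sb') (hs : sb' * sb' = 1) (hs2 : sb * sb = 1) :
    ca * ca * ((t / (ca * cb)) * (t / (ca * cb)) * (u / (cb' * cb'))) = t * t * u := by
  have e : ca * ca * ((t / (ca * cb)) * (t / (ca * cb)) * (u / (cb' * cb'))) =
      t * t * u / ((cb * cb') * (cb * cb')) := by
    field_simp
  rw [e, rel]
  have h5 : (sb * sb') * (sb * sb') = 1 := by
    calc (sb * sb') * (sb * sb') = (sb * sb) * (sb' * sb') := by ring
      _ = 1 := by rw [hs, hs2]; ring
  rw [h5, div_one]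

lemma T_relD (A : PAct X L g π c) {a b : Ix n} (hab : Sh a b) (hba : Sh b.swap a)
    (R : ∀ t u, X a b t * L b.swap u * (X a b t)⁻¹ = L b.swap u * X b.swap a (sg b * t * u) * L a (t * t * u))
    (t u : K) :
    X (π a) (π b) t * L (π b).swap u * (X (π a) (π b) t)⁻¹ =
      L (π b).swap u * X (π b).swap (π a) (sg (π b) * t * u) * L (π a) (t * t * u) := by
  rw [← A.sw]
  have e1 : sg (π b) * t * u = c b.swap * c a * (sg b * (t / (c a * c b)) * (u / (c b.swap * c b.swap))) :=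
    (val_D1 (A.c_ne a) (A.c_ne b) (A.c_ne _) (A.rel b) (sg_mul_self _)).symm
  have e2 : t * t * u = c a * c a * ((t / (c a * c b)) * (t / (c a * c b)) * (u / (c b.swap * c b.swap))) :=
    (val_D2 (A.c_ne a) (A.c_ne b) (A.c_ne _) (A.rel b) (sg_mul_self _) (sg_mul_self _)).symm
  rw [e1, e2, ← A.Xc hba, ← A.Lc, A.X' hab, A.L']
  have := R (t / (c a * c b)) (u / (c b.swap * c b.swap))
  calc _ = g * (X a b (t / (c a * c b)) * L b.swap (u / (c b.swap * c b.swap)) * (X a b (t / (c a * c b)))⁻¹) * g⁻¹ := by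
        group
    _ = _ := by
        rw [this]
        group

end PAct

end PAct

namespace Cfg

variable (C : Cfg n K Γ)

/-- The short root elements. -/
def XF : Ix n → Ix n → K → Γ
  | Sum.inl i, Sum.inr j, t => C.xx i j t
  | Sum.inr j, Sum.inl i, t => C.xx i j t
  | Sum.inl i, Sum.inl j, t => C.tau j * C.xx i j (-t) * (C.tau j)⁻¹
  | Sum.inr i, Sum.inr j, t => C.tau i * C.xx i j t * (C.tau i)⁻¹

/-- The long root elements. -/
def LF : Ix n → K → Γ
  | Sum.inl i, t => C.Bi i (mx K (true, t))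
  | Sum.inr i, t => C.Bi i (mx K (false, -t))

lemma tau_comm {i j : Fin n} (h : i ≠ j) : Commute (C.tau i) (C.tau j) := C.Bi_comm h _ _

lemma XF_symm {a b : Ix n} (h : Sh a b) (t : K) : C.XF a b t = C.XF b a t := by
  rcases a with i | i <;> rcases b with j | j
  · have hij : i ≠ j := fun e => h.1 (by rw [e])
    change C.tau j * C.xx i j (-t) * (C.tau j)⁻¹ = C.tau i * C.xx j i (-t) * (C.tau i)⁻¹
    have h1 := C.W_gen hij (-t)
    rw [neg_neg] at h1
    have h2 := C.tau_sq_right hij.symm (-t)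
    rw [neg_neg] at h2
    calc C.tau j * C.xx i j (-t) * (C.tau j)⁻¹
        = (C.tau i)⁻¹ * ((C.tau i * C.tau j) * C.xx i j (-t) * (C.tau i * C.tau j)⁻¹) * C.tau i := by group
      _ = (C.tau i)⁻¹ * C.xx j i t * C.tau i := by rw [h1]
      _ = (C.tau i)⁻¹ * ((C.tau i * C.tau i) * C.xx j i (-t) * (C.tau i * C.tau i)⁻¹) * C.tau i := by rw [h2]
      _ = _ := by group
  · rfl
  · rfl
  · have hij : i ≠ j := fun e => h.1 (by rw [e])
    change C.tau i * C.xx i j t * (C.tau i)⁻¹ = C.tau j * C.xx j i t * (C.tau j)⁻¹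
    have h1 := C.W_gen hij t
    have h2 := C.tau_sq_left hij.symm t
    have h3 := (C.tau_comm hij).eq
    rw [h3] at h1
    calc C.tau i * C.xx i j t * (C.tau i)⁻¹
        = (C.tau j)⁻¹ * ((C.tau j * C.tau i) * C.xx i j t * (C.tau j * C.tau i)⁻¹) * C.tau j := by group
      _ = (C.tau j)⁻¹ * C.xx j i (-t) * C.tau j := by rw [h1]
      _ = (C.tau j)⁻¹ * ((C.tau j * C.tau j) * C.xx j i t * (C.tau j * C.tau j)⁻¹) * C.tau j := by
          rw [h2]
      _ = _ := by group

/-- Signed monomial elements act. -/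
lemma act_mono {μ : SLN n K} {σ : Equiv.Perm (Fin n)} {c : Fin n → K} (M : Mono μ σ c)
    (hc : ∀ k, c k ^ 2 = 1) :
    PAct C.XF C.LF (C.A μ) (Sum.map σ σ) (Sum.elim c c) where
  sw x := by cases x <;> rfl
  inj := Function.Injective.sumMap σ.injective σ.injective
  rel x := by
    have h : ∀ k, c k * c k = 1 := fun k => by rw [← pow_two, hc]
    rcases x with i | i
    · simp [sg, h]
    · simp [sg, h]
  Xc {x y} h u := by
    have e1 : ∀ k, (c k)⁻¹ = c k := fun k => Cfg.inv_of_sq (hc k)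
    have conj : ∀ (g a y : Γ), g * (a * y * a⁻¹) * g⁻¹ = (g * a * g⁻¹) * (g * y * g⁻¹) * (g * a * g⁻¹)⁻¹ := by
      intro g a y
      group
    rcases x with i | i <;> rcases y with j | j
    · change C.A μ * (C.tau j * C.xx i j (-u) * (C.tau j)⁻¹) * (C.A μ)⁻¹ =
        C.tau (σ j) * C.xx (σ i) (σ j) (-(c i * c j * u)) * (C.tau (σ j))⁻¹
      rw [conj, C.tau_conj M hc, C.mono_xx M, e1]
      congr 3
      ring
    · change C.A μ * C.xx i j u * (C.A μ)⁻¹ = C.xx (σ i) (σ j) (c i * c j * u)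
      rw [C.mono_xx M, e1]
      congr 1
      ring
    · change C.A μ * C.xx j i u * (C.A μ)⁻¹ = C.xx (σ j) (σ i) (c i * c j * u)
      rw [C.mono_xx M, e1]
      congr 1
      ring
    · change C.A μ * (C.tau i * C.xx i j u * (C.tau i)⁻¹) * (C.A μ)⁻¹ =
        C.tau (σ i) * C.xx (σ i) (σ j) (c i * c j * u) * (C.tau (σ i))⁻¹
      rw [conj, C.tau_conj M hc, C.mono_xx M, e1]
      congr 3
      ring
  Lc x u := by
    have e1 : ∀ k, c k * c k = 1 := fun k => by rw [← pow_two, hc]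
    rcases x with i | i
    · change C.A μ * C.Bi i (mx K (true, u)) * (C.A μ)⁻¹ = C.Bi (σ i) (mx K (true, c i * c i * u))
      rw [C.mono_Bi' M hc, e1, one_mul]
    · change C.A μ * C.Bi i (mx K (false, -u)) * (C.A μ)⁻¹ = C.Bi (σ i) (mx K (false, -(c i * c i * u)))
      rw [C.mono_Bi' M hc, e1, one_mul]

end Cfg

/-- The index of a root. -/
def ixOf : Ix n → Fin n := Sum.elim id id

/-- Change of sign on a set of indices. -/
def fl (S : Finset (Fin n)) (a : Ix n) : Ix n := if ixOf a ∈ S then a.swap else a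

lemma ixOf_swap (a : Ix n) : ixOf a.swap = ixOf a := by
  cases a <;> rfl

lemma ixOf_fl (S : Finset (Fin n)) (a : Ix n) : ixOf (fl S a) = ixOf a := by
  rw [fl]
  split_ifs
  · exact ixOf_swap a
  · rfl

lemma fl_swap (S : Finset (Fin n)) (a : Ix n) : fl S a.swap = (fl S a).swap := by
  simp only [fl, ixOf_swap]
  split_ifs <;> rfl

lemma fl_fl (S : Finset (Fin n)) (a : Ix n) : fl S (fl S a) = a := by
  rw [fl, ixOf_fl, fl]
  split_ifs
  · exact Sum.swap_swap a
  · rfl

lemma fl_inj (S : Finset (Fin n)) : Function.Injective (fl S) := by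
  intro a b h
  have := congrArg (fl S) h
  rwa [fl_fl, fl_fl] at this

lemma fl_inl {S : Finset (Fin n)} {i : Fin n} (h : i ∈ S) : fl S (Sum.inl i) = Sum.inr i := by
  rw [fl, if_pos (by exact h)]
  rfl

lemma fl_inr {S : Finset (Fin n)} {i : Fin n} (h : i ∈ S) : fl S (Sum.inr i) = Sum.inl i := by
  rw [fl, if_pos (by exact h)]
  rfl

lemma fl_inl' {S : Finset (Fin n)} {i : Fin n} (h : i ∉ S) : fl S (Sum.inl i) = Sum.inl i := by
  rw [fl, if_neg (by exact h)]

lemma fl_inr' {S : Finset (Fin n)} {i : Fin n} (h : i ∉ S) : fl S (Sum.inr i) = Sum.inr i := by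
  rw [fl, if_neg (by exact h)]

lemma exists_fl (P Q : Finset (Ix n)) (hP : ∀ x ∈ P, x.swap ∉ P) (hQ : ∀ y ∈ Q, y.swap ∉ Q)
    (hPQ : ∀ x ∈ P, x ∉ Q) :
    ∃ S : Finset (Fin n), (∀ x ∈ P, fl S x = Sum.inl (ixOf x)) ∧ (∀ y ∈ Q, fl S y = Sum.inr (ixOf y)) := by
  classical
  refine ⟨Finset.univ.filter (fun i => Sum.inr i ∈ P ∨ Sum.inl i ∈ Q), ?_, ?_⟩
  · rintro (i | i) hx
    · apply fl_inl'
      simp only [Finset.mem_filter, Finset.mem_univ, true_and, not_or]
      exact ⟨hP _ hx, hPQ _ hx⟩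
    · apply fl_inr
      simp only [Finset.mem_filter, Finset.mem_univ, true_and]
      exact Or.inl hx
  · rintro (i | i) hy
    · apply fl_inl
      simp only [Finset.mem_filter, Finset.mem_univ, true_and]
      exact Or.inr hy
    · apply fl_inr'
      simp only [Finset.mem_filter, Finset.mem_univ, true_and, not_or]
      exact ⟨fun h => hPQ _ h hy, hQ _ hy⟩

end Cfsg.Agent.Lib.PrsSp
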