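import Mathlib
import Cfsg.Agent.Lib.PrsSpC

/-!
# Presentations of symplectic groups: Weyl elements act; the base relations
-/

set_option autoImplicit false
set_option linter.unusedSectionVars false

namespace Cfsg.Agent.Lib.PrsSp

open Matrix
open Cfsg.Agent.Lib.St2 (mx mx_true mx_false mx_add mx_surj)
open Cfsg.Agent.Lib.StN (MW MD coe_MW coe_MD I4 I5)
open Cfsg.Agent.Lib.SpN (Ix Sh sw_sw sw_ne sw_inj sw_ne_sw ne_sw_symm)
open Cfsg.Agent.Lib.SpRoot (sg sg_swap sg_mul_self sg_ne_zero)

variable {n : ℕ} {K Γ : Type*} [Field K] [Group Γ]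

lemma sh_fl (S : Finset (Fin n)) {a b : Ix n} (h : Sh a b) : Sh (fl S a) (fl S b) := by
  refine ⟨fun e => h.1 (fl_inj S e), ?_⟩
  rw [← fl_swap]
  exact fun e => h.2 (fl_inj S e)

lemma lift_fl (σ : Equiv.Perm (Fin n)) (i : Fin n) (x : Ix n) :
    Sum.map σ σ (fl {i} (Sum.map (⇑(σ⁻¹)) (⇑(σ⁻¹)) x)) = fl {σ i} x := by
  classical
  rcases x with j | j
  · by_cases h : j = σ i
    · subst h
      have : (σ⁻¹ (σ i)) = i := by simp
      simp only [Sum.map_inl, this]
      rw [fl_inl (by simp), fl_inl (by simp)]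
      rfl
    · have h2 : σ⁻¹ j ≠ i := by
        intro e
        apply h
        rw [← e]
        simp
      simp only [Sum.map_inl]
      rw [fl_inl' (by simpa using h2), fl_inl' (by simpa using h)]
      simp
  · by_cases h : j = σ i
    · subst h
      have : (σ⁻¹ (σ i)) = i := by simp
      simp only [Sum.map_inr, this]
      rw [fl_inr (by simp), fl_inr (by simp)]
      rfl
    · have h2 : σ⁻¹ j ≠ i := by
        intro e
        apply h
        rw [← e]
        simp
      simp only [Sum.map_inr]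
      rw [fl_inr' (by simpa using h2), fl_inr' (by simpa using h)]
      simp

lemma fl_insert {S : Finset (Fin n)} {k : Fin n} (hk : k ∉ S) (x : Ix n) :
    fl {k} (fl S x) = fl (insert k S) x := by
  by_cases hx : ixOf x = k
  · have h1 : ixOf x ∉ S := by rwa [hx]
    have h2 : fl S x = x := by rw [fl, if_neg h1]
    rw [h2, fl, fl, if_pos (by simp [hx]), if_pos (by simp [hx])]
  · rw [fl, ixOf_fl, if_neg (by simpa using hx)]
    simp only [fl, Finset.mem_insert, hx, false_or]

lemma ix_ne {a b : Ix n} (h : Sh a b) : ixOf a ≠ ixOf b := by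
  rcases a with i | i <;> rcases b with j | j
  · intro e
    have e' : i = j := e
    exact h.1 (by rw [e'])
  · intro e
    have e' : i = j := e
    exact h.2 (by rw [e']; rfl)
  · intro e
    have e' : i = j := e
    exact h.2 (by rw [e']; rfl)
  · intro e
    have e' : i = j := e
    exact h.1 (by rw [e'])

namespace Cfg

variable (C : Cfg n K Γ)

/-- The scalars of `τ₀`. -/
def c0 (a : Ix n) : K := if a = Sum.inr C.i0 then -1 else 1

lemma c0_inl (i : Fin n) : C.c0 (Sum.inl i) = 1 := by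
  simp [c0]

lemma c0_inr0 : C.c0 (Sum.inr C.i0) = -1 := by
  simp [c0]

lemma c0_inr {i : Fin n} (h : i ≠ C.i0) : C.c0 (Sum.inr i) = 1 := by
  simp [c0, h]

lemma conj_fix {a b y : Γ} (h1 : Commute a b) (h2 : Commute a y) : a * (b * y * b⁻¹) * a⁻¹ = b * y * b⁻¹ := by
  rw [conj_swap' h1, h2.eq]
  group

lemma act_tau : PAct C.XF C.LF (C.tau C.i0) (fl {C.i0}) C.c0 where
  sw := fl_swap _
  inj := fl_inj _
  rel x := by
    rcases x with i | i <;> by_cases h : i = C.i0
    · subst h
      change C.c0 (Sum.inl C.i0) * C.c0 (Sum.inr C.i0) = _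
      rw [c0_inl, c0_inr0, fl_inl (by simp)]
      simp [sg]
    · change C.c0 (Sum.inl i) * C.c0 (Sum.inr i) = _
      rw [c0_inl, c0_inr C h, fl_inl' (by simpa using h)]
      simp [sg]
    · subst h
      change C.c0 (Sum.inr C.i0) * C.c0 (Sum.inl C.i0) = _
      rw [c0_inl, c0_inr0, fl_inr (by simp)]
      simp [sg]
    · change C.c0 (Sum.inr i) * C.c0 (Sum.inl i) = _
      rw [c0_inl, c0_inr C h, fl_inr' (by simpa using h)]
      simp [sg]
  Xc {x y} h u := by
    have key1 : ∀ i j, i ≠ j → ∀ u, C.tau C.i0 * C.xx i j u * (C.tau C.i0)⁻¹ =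
        C.XF (fl {C.i0} (Sum.inl i)) (fl {C.i0} (Sum.inr j)) (C.c0 (Sum.inl i) * C.c0 (Sum.inr j) * u) := by
      intro i j hij u
      by_cases hi : i = C.i0
      · subst hi
        rw [fl_inl (by simp), fl_inr' (by simpa using hij.symm), c0_inl, c0_inr C hij.symm, one_mul, one_mul]
        rfl
      by_cases hj : j = C.i0
      · subst hj
        rw [fl_inl' (by simpa using hi), fl_inr (by simp), c0_inl, c0_inr0]
        change _ = C.tau C.i0 * C.xx i C.i0 (-(1 * -1 * u)) * (C.tau C.i0)⁻¹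
        congr 3
        ring
      · rw [fl_inl' (by simpa using hi), fl_inr' (by simpa using hj), c0_inl, c0_inr C hj, one_mul, one_mul]
        change _ = C.xx i j u
        have := (C.x_Bi (i := i) (j := j) (k := C.i0) (Ne.symm hi) (Ne.symm hj) u (MW 1)).eq
        rw [← tau] at this
        rw [← this]
        group
    have key2 : ∀ i j, i ≠ j → ∀ u, C.tau C.i0 * C.XF (Sum.inl i) (Sum.inl j) u * (C.tau C.i0)⁻¹ =
        C.XF (fl {C.i0} (Sum.inl i)) (fl {C.i0} (Sum.inl j)) (C.c0 (Sum.inl i) * C.c0 (Sum.inl j) * u) := by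
      have k0 : ∀ i, i ≠ C.i0 → ∀ u, C.tau C.i0 * C.XF (Sum.inl i) (Sum.inl C.i0) u * (C.tau C.i0)⁻¹ = C.xx i C.i0 u := by
        intro i hi u
        have := C.tau_sq_right hi (-u)
        rw [neg_neg] at this
        rw [← this]
        change C.tau C.i0 * (C.tau C.i0 * C.xx i C.i0 (-u) * (C.tau C.i0)⁻¹) * (C.tau C.i0)⁻¹ = _
        group
      intro i j hij u
      rw [c0_inl, c0_inl, one_mul, one_mul]
      by_cases hj : j = C.i0
      · subst hj
        rw [fl_inl' (by simpa using hij), fl_inl (by simp), k0 i hij u]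
        rfl
      by_cases hi : i = C.i0
      · subst hi
        have S : Sh (Sum.inl C.i0 : Ix n) (Sum.inl j) := ⟨by simpa using hij, by simp⟩
        rw [C.XF_symm S, k0 j hj u, fl_inl (by simp), fl_inl' (by simpa using hj)]
        rfl
      · rw [fl_inl' (by simpa using hi), fl_inl' (by simpa using hj)]
        change C.tau C.i0 * (C.tau j * C.xx i j (-u) * (C.tau j)⁻¹) * (C.tau C.i0)⁻¹ = _
        rw [conj_fix (C.tau_comm (Ne.symm hj))]
        · rfl
        · exact C.x_Bi (Ne.symm hi) (Ne.symm hj) _ _ |>.symm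
    have key3 : ∀ i j, i ≠ j → ∀ u, C.tau C.i0 * C.XF (Sum.inr i) (Sum.inr j) u * (C.tau C.i0)⁻¹ =
        C.XF (fl {C.i0} (Sum.inr i)) (fl {C.i0} (Sum.inr j)) (C.c0 (Sum.inr i) * C.c0 (Sum.inr j) * u) := by
      have k0 : ∀ j, j ≠ C.i0 → ∀ u, C.tau C.i0 * C.XF (Sum.inr C.i0) (Sum.inr j) u * (C.tau C.i0)⁻¹ = C.xx C.i0 j (-u) := by
        intro j hj u
        rw [← C.tau_sq_left (Ne.symm hj) u]
        change C.tau C.i0 * (C.tau C.i0 * C.xx C.i0 j u * (C.tau C.i0)⁻¹) * (C.tau C.i0)⁻¹ = _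
        group
      intro i j hij u
      by_cases hi : i = C.i0
      · subst hi
        rw [fl_inr (by simp), fl_inr' (by simpa using hij.symm), k0 j hij.symm u, c0_inr0, c0_inr C hij.symm]
        change _ = C.xx C.i0 j _
        congr 1
        ring
      by_cases hj : j = C.i0
      · subst hj
        have S : Sh (Sum.inr i : Ix n) (Sum.inr C.i0) := ⟨by simpa using hij, by simp⟩
        rw [C.XF_symm S, k0 i hi u, fl_inr' (by simpa using hi), fl_inr (by simp), c0_inr0, c0_inr C hi]
        change _ = C.xx C.i0 i _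
        congr 1
        ring
      · rw [fl_inr' (by simpa using hi), fl_inr' (by simpa using hj), c0_inr C hi, c0_inr C hj, one_mul, one_mul]
        change C.tau C.i0 * (C.tau i * C.xx i j u * (C.tau i)⁻¹) * (C.tau C.i0)⁻¹ = _
        rw [conj_fix (C.tau_comm (Ne.symm hi))]
        · rfl
        · exact C.x_Bi (Ne.symm hi) (Ne.symm hj) _ _ |>.symm
    rcases x with i | i <;> rcases y with j | j
    · exact key2 i j (fun e => h.1 (by rw [e])) u
    · exact key1 i j (ix_ne h) u
    · have := key1 j i (ix_ne h).symm u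
      have S : Sh (fl {C.i0} (Sum.inl j : Ix n)) (fl {C.i0} (Sum.inr i)) := sh_fl _ h.symm
      rw [C.XF_symm S, mul_comm (C.c0 (Sum.inl j))] at this
      exact this
    · exact key3 i j (fun e => h.1 (by rw [e])) u
  Lc x u := by
    rcases x with i | i
    · rw [c0_inl, one_mul, one_mul]
      by_cases hi : i = C.i0
      · subst hi
        rw [fl_inl (by simp)]
        change C.tau C.i0 * C.Bi C.i0 (mx K (true, u)) * (C.tau C.i0)⁻¹ = C.Bi C.i0 (mx K (false, -u))
        rw [tau, ← map_inv, ← map_mul, ← map_mul, MW_true]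
      · rw [fl_inl' (by simpa using hi)]
        change C.tau C.i0 * C.Bi i (mx K (true, u)) * (C.tau C.i0)⁻¹ = C.Bi i (mx K (true, u))
        have e : C.tau C.i0 * C.Bi i (mx K (true, u)) = C.Bi i (mx K (true, u)) * C.tau C.i0 :=
          (C.Bi_comm (Ne.symm hi) (MW 1) _).eq
        rw [e]
        exact mul_inv_cancel_right _ _
    · by_cases hi : i = C.i0
      · subst hi
        rw [fl_inr (by simp), c0_inr0]
        change C.tau C.i0 * C.Bi C.i0 (mx K (false, -u)) * (C.tau C.i0)⁻¹ = C.Bi C.i0 (mx K (true, -1 * -1 * u))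
        rw [tau, ← map_inv, ← map_mul, ← map_mul, MW_false]
        congr 2
        ring_nf
      · rw [fl_inr' (by simpa using hi), c0_inr C hi, one_mul, one_mul]
        change C.tau C.i0 * C.Bi i (mx K (false, -u)) * (C.tau C.i0)⁻¹ = C.Bi i (mx K (false, -u))
        have e : C.tau C.i0 * C.Bi i (mx K (false, -u)) = C.Bi i (mx K (false, -u)) * C.tau C.i0 :=
          (C.Bi_comm (Ne.symm hi) (MW 1) _).eq
        rw [e]
        exact mul_inv_cancel_right _ _

lemma act_fl1 (k : Fin n) : ∃ c', PAct C.XF C.LF (C.tau k) (fl {k}) c' := by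
  obtain ⟨c, M, hc⟩ := C.mono_mm k
  have A1 := C.act_mono M hc
  have A3 := C.act_mono M.inv (fun j => by rw [inv_pow, hc, inv_one])
  have B := (A1.mul C.act_tau).mul A3
  have e : C.A (C.mm k) * C.tau C.i0 * C.A (C.mm k)⁻¹ = C.tau k := by
    rw [tau, tau, Bi_i0, Bi_apply, map_inv]
  rw [e] at B
  refine ⟨_, B.congr (π' := fl {k}) ?_ (fun _ => rfl)⟩
  intro x
  have := lift_fl (Equiv.swap k C.i0) C.i0 x
  rw [Equiv.swap_apply_right] at this
  exact this

lemma act_fl (S : Finset (Fin n)) : ∃ g c', PAct C.XF C.LF g (fl S) c' := by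
  classical
  induction S using Finset.induction_on with
  | empty =>
    refine ⟨1, _, PAct.one.congr ?_ (fun _ => rfl)⟩
    intro x
    simp [fl]
  | insert k S hk ih =>
    obtain ⟨g, c', A⟩ := ih
    obtain ⟨c'', B⟩ := C.act_fl1 k
    exact ⟨_, _, (B.mul A).congr (fun x => fl_insert hk x) (fun _ => rfl)⟩

lemma exists_act {a b : Ix n} (h : Sh a b) :
    ∃ g π c', PAct C.XF C.LF g π c' ∧ π (Sum.inl C.i0) = a ∧ π (Sum.inr C.i1) = b := by
  classical
  obtain ⟨μ, σ, c, M, hc, h1, h2⟩ := exists_mono2 (K := K) C.h01 (ix_ne h)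
  obtain ⟨S, hS1, hS2⟩ := exists_fl {a} {b} (by simpa using sw_ne a) (by simpa using sw_ne b) (by simpa using h.1)
  obtain ⟨g, c', A⟩ := C.act_fl S
  refine ⟨_, _, _, A.mul (C.act_mono M hc), ?_, ?_⟩
  · simp only [Sum.map_inl, h1]
    rw [← hS1 a (by simp), fl_fl]
  · simp only [Sum.map_inr, h2]
    rw [← hS2 b (by simp), fl_fl]

end Cfg

end Cfsg.Agent.Lib.PrsSp
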