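import Mathlib
import Cfsg.Agent.Lib.PrsSpD

/-!
# Presentations of symplectic groups: the base relations
-/

set_option autoImplicit false
set_option linter.unusedSectionVars false

namespace Cfsg.Agent.Lib.PrsSp

open Matrix
open Cfsg.Agent.Lib.St2 (mx mx_true mx_false mx_add mx_surj)
open Cfsg.Agent.Lib.StN (MW MD coe_MW coe_MD I4 I5)
open Cfsg.Agent.Lib.SpN (Ix Sh sw_sw sw_ne sw_inj sw_ne_sw ne_sw_symm)
open Cfsg.Agent.Lib.SpRoot (sg sg_swap sg_mul_self sg_ne_zero)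

variable {n : ℕ} {K Γ : Type*} [Field K] [Group Γ]

lemma conj3 (g a b : Γ) : g * (a * b * a⁻¹) * g⁻¹ = (g * a * g⁻¹) * (g * b * g⁻¹) * (g * a * g⁻¹)⁻¹ := by
  group

lemma conj2 (g a b : Γ) : g * (a * b) * g⁻¹ = (g * a * g⁻¹) * (g * b * g⁻¹) := by
  group

lemma conj_rel3 (g : Γ) {a b c : Γ} (h : a * b * a⁻¹ = c) :
    (g * a * g⁻¹) * (g * b * g⁻¹) * (g * a * g⁻¹)⁻¹ = g * c * g⁻¹ := by
  subst h
  group

namespace Cfg

variable (C : Cfg n K Γ)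

/-- The root element for `ε₁ + ε₀`. -/
def YY (v : K) : Γ := C.tau C.i0 * C.xx C.i1 C.i0 (-v) * (C.tau C.i0)⁻¹

/-- The long root element at `0`. -/
def L0 (s : K) : Γ := C.Bi C.i0 (mx K (true, s))

/-- The long root element at `1`. -/
def L1 (s : K) : Γ := C.Bi C.i1 (mx K (true, s))

lemma YY_eq (v : K) : C.YY v = C.XF (Sum.inl C.i1) (Sum.inl C.i0) v := rfl

lemma L0_eq (s : K) : C.L0 s = C.LF (Sum.inl C.i0) s := rfl

lemma L1_eq (s : K) : C.L1 s = C.LF (Sum.inl C.i1) s := rfl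

lemma L0_B (s : K) : C.L0 s = C.B (mx K (true, s)) := C.Bi_i0 _

lemma L0_add (s t : K) : C.L0 s * C.L0 t = C.L0 (s + t) := by
  rw [L0, L0, L0, ← map_mul, mx_add]

lemma L1_add (s t : K) : C.L1 s * C.L1 t = C.L1 (s + t) := by
  rw [L1, L1, L1, ← map_mul, mx_add]

lemma L0_zero : C.L0 0 = 1 := by
  rw [L0, mx_zero, map_one]

lemma L1_zero : C.L1 0 = 1 := by
  rw [L1, mx_zero, map_one]

lemma L0_neg (s : K) : C.L0 (-s) = (C.L0 s)⁻¹ := by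
  rw [L0, L0, mx_neg, map_inv]

lemma YY_add (s t : K) : C.YY s * C.YY t = C.YY (s + t) := by
  have e : C.YY s * C.YY t = C.tau C.i0 * (C.xx C.i1 C.i0 (-s) * C.xx C.i1 C.i0 (-t)) * (C.tau C.i0)⁻¹ := by
    rw [YY, YY]
    group
  rw [e, C.xx_add C.h01.symm, YY, neg_add]

lemma YY_zero : C.YY 0 = 1 := by
  rw [YY, neg_zero, xx_zero]
  group

lemma hp_YY (v : K) : C.hp * C.YY v * C.hp⁻¹ = C.YY (C.ζ * v) := by
  have h1 : C.hp⁻¹ * C.xx C.i1 C.i0 (-v) * C.hp = C.xx C.i1 C.i0 (C.ζ * (-v)) := by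
    have := C.hp_x10 (C.ζ * (-v))
    rw [← mul_assoc, inv_mul_cancel₀ C.ζ0, one_mul] at this
    rw [← this]
    group
  calc C.hp * C.YY v * C.hp⁻¹ = (C.hp * C.tau C.i0) * C.xx C.i1 C.i0 (-v) * (C.hp * C.tau C.i0)⁻¹ := by
        rw [YY]
        group
    _ = (C.tau C.i0 * C.hp⁻¹) * C.xx C.i1 C.i0 (-v) * (C.tau C.i0 * C.hp⁻¹)⁻¹ := by rw [hp_tau0]
    _ = C.tau C.i0 * (C.hp⁻¹ * C.xx C.i1 C.i0 (-v) * C.hp) * (C.tau C.i0)⁻¹ := by group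
    _ = _ := by
        rw [h1, YY]
        congr 3
        ring

lemma zz_tau : Commute C.zz (C.tau C.i0) := by
  rw [tau_i0]
  exact C.z_comm _

lemma zz_YY (v : K) : C.zz * C.YY v * C.zz⁻¹ = C.YY (C.ζ * v) := by
  rw [YY, conj_swap' C.zz_tau, C.zz_x10, YY]
  congr 3
  ring

lemma hp_L0 (s : K) : C.hp * C.L0 s * C.hp⁻¹ = C.L0 (C.ζ ^ 2 * s) := by
  rw [L0_B, L0_B, hp, ← map_inv, ← map_mul, ← map_mul, ← Ad_mx_true C.ζ0]
  rfl

lemma zz_L0 (s : K) : C.zz * C.L0 s * C.zz⁻¹ = C.L0 s := by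
  rw [L0_B, (C.z_comm _).eq]
  group

lemma hp_L1 (s : K) : C.hp * C.L1 s * C.hp⁻¹ = C.L1 s := by
  have : C.hp * C.L1 s = C.L1 s * C.hp := (C.B_Bi1 _ _).eq
  rw [this]
  group

lemma zz_L1 (s : K) : C.zz * C.L1 s * C.zz⁻¹ = C.L1 (C.ζ ^ 2 * s) := by
  have e : C.zz * C.L1 s * C.zz⁻¹ = C.hh⁻¹ * (C.hp * C.L1 s * C.hp⁻¹) * C.hh⁻¹⁻¹ := by
    show (C.hh⁻¹ * C.hp) * _ * (C.hh⁻¹ * C.hp)⁻¹ = _
    group
  rw [e, hp_L1, hh_inv, L1, C.Bi_conj (mono_dn C.h01 C.ζ⁻¹ (inv_ne_zero C.ζ0))]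
  simp only [Equiv.Perm.coe_one, id_eq, if_neg C.h01.symm, if_true, inv_inv]
  rw [Ad_mx_true C.ζ0]
  rfl

/-- The torus element. -/
abbrev Tp : Γ := C.hp * C.zz

lemma Tp_conj (y : Γ) : C.Tp * y * C.Tp⁻¹ = C.hp * (C.zz * y * C.zz⁻¹) * C.hp⁻¹ := by
  group

lemma Tp_x01 (t : K) : C.Tp * C.xx C.i0 C.i1 t * C.Tp⁻¹ = C.xx C.i0 C.i1 t := by
  rw [Tp_conj, C.zz_x01, C.hp_x01, ← mul_assoc, mul_inv_cancel₀ C.ζ0, one_mul]

lemma Tp_YY (v : K) : C.Tp * C.YY v * C.Tp⁻¹ = C.YY (C.ζ ^ 2 * v) := by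
  rw [Tp_conj, C.zz_YY, C.hp_YY]
  congr 1
  ring

lemma Tp_L0 (s : K) : C.Tp * C.L0 s * C.Tp⁻¹ = C.L0 (C.ζ ^ 2 * s) := by
  rw [Tp_conj, C.zz_L0, C.hp_L0]

lemma Tp_L1 (s : K) : C.Tp * C.L1 s * C.Tp⁻¹ = C.L1 (C.ζ ^ 2 * s) := by
  rw [Tp_conj, C.zz_L1, C.hp_L1]

lemma pow_step {P : K → Prop} (h1 : P 1) (step : ∀ t, P t → P (C.ζ ^ 2 * t)) (j : ℕ) :
    P ((C.ζ ^ 2) ^ j) := by
  induction j with
  | zero => simpa using h1
  | succ j ih =>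
    rw [pow_succ']
    exact step _ ih

/-- The first commutation. -/
lemma comm1 (t s : K) : Commute (C.xx C.i0 C.i1 t) (C.L0 s) := by
  have h11 : Commute (C.xx C.i0 C.i1 1) (C.L0 1) := by
    rw [xx_of C C.h01, L0_B]
    exact C.rS
  have zs : ∀ t s, Commute (C.xx C.i0 C.i1 t) (C.L0 s) → Commute (C.xx C.i0 C.i1 (C.ζ⁻¹ * t)) (C.L0 s) := by
    intro t s h
    have := comm_conj' C.zz h
    rwa [C.zz_x01, C.zz_L0] at this
  have Ts : ∀ t s, Commute (C.xx C.i0 C.i1 t) (C.L0 s) → Commute (C.xx C.i0 C.i1 t) (C.L0 (C.ζ ^ 2 * s)) := by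
    intro t s h
    have := comm_conj' C.Tp h
    rwa [C.Tp_x01, C.Tp_L0] at this
  have hk : ∀ k : ℕ, Commute (C.xx C.i0 C.i1 ((C.ζ⁻¹) ^ k)) (C.L0 1) := by
    intro k
    induction k with
    | zero => simpa using h11
    | succ k ih =>
      rw [pow_succ']
      exact zs _ _ ih
  have ht : ∀ t, Commute (C.xx C.i0 C.i1 t) (C.L0 1) := by
    intro t
    by_cases h0 : t = 0
    · subst h0
      rw [xx_zero]
      exact Commute.one_left _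
    · obtain ⟨k, hk'⟩ := C.gen t⁻¹ (inv_ne_zero h0)
      have e : t = (C.ζ⁻¹) ^ k := by
        rw [inv_pow, ← hk', inv_inv]
      rw [e]
      exact hk k
  have hj : ∀ j : ℕ, Commute (C.xx C.i0 C.i1 t) (C.L0 ((C.ζ ^ 2) ^ j)) :=
    C.pow_step (P := fun s => Commute (C.xx C.i0 C.i1 t) (C.L0 s)) (ht t) (fun s h => Ts t s h)
  refine C.agen.ind (P := fun s => Commute (C.xx C.i0 C.i1 t) (C.L0 s)) ?_ ?_ ?_ hj s
  · change Commute _ (C.L0 0)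
    rw [L0_zero]
    exact Commute.one_right _
  · intro a b ha hb
    change Commute _ (C.L0 (a + b))
    rw [← L0_add]
    exact Commute.mul_right ha hb
  · intro a ha
    change Commute _ (C.L0 (-a))
    rw [L0_neg]
    exact Commute.inv_right ha


lemma tau1_L0 (s : K) : Commute (C.tau C.i1) (C.L0 s) := C.Bi_comm C.h01.symm _ _

lemma tau0_L1 (s : K) : Commute (C.tau C.i0) (C.L1 s) := C.Bi_comm C.h01 _ _

lemma comm_YY_L0 (v s : K) : Commute (C.YY v) (C.L0 s) := by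
  set g := C.tau C.i0 * C.tau C.i1 with hg
  have h1 : g * C.xx C.i0 C.i1 v * g⁻¹ = C.xx C.i1 C.i0 (-v) := C.W_base v
  have h2 : g * C.L0 s * g⁻¹ = C.tau C.i0 * C.L0 s * (C.tau C.i0)⁻¹ := by
    have : C.tau C.i1 * C.L0 s = C.L0 s * C.tau C.i1 := (C.tau1_L0 s).eq
    calc g * C.L0 s * g⁻¹ = C.tau C.i0 * (C.tau C.i1 * C.L0 s * (C.tau C.i1)⁻¹) * (C.tau C.i0)⁻¹ := by
          rw [hg]
          group
      _ = _ := by
          rw [this]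
          group
  have h3 := comm_conj' g (C.comm1 v s)
  rw [h1, h2] at h3
  have h4 := comm_conj' (C.tau C.i0) h3
  have h5 : C.tau C.i0 * (C.tau C.i0 * C.L0 s * (C.tau C.i0)⁻¹) * (C.tau C.i0)⁻¹ = C.L0 s := by
    have e1 : C.tau C.i0 * C.L0 s * (C.tau C.i0)⁻¹ = C.B (mx K (false, -s)) := by
      rw [tau_i0, L0_B, ← map_inv, ← map_mul, ← map_mul, MW_true]
    rw [e1, tau_i0, L0_B, ← map_inv, ← map_mul, ← map_mul, MW_false, neg_neg]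
  rw [h5] at h4
  exact h4

lemma comm_L1_x10 (u r : K) : Commute (C.L1 u) (C.xx C.i1 C.i0 r) := by
  obtain ⟨c, M, hc⟩ := C.mono_mm C.i1
  have h1 := C.mono_xx' M C.i0 C.i1 r
  rw [Equiv.swap_apply_right, Equiv.swap_apply_left] at h1
  rw [h1, L1, Bi_apply]
  apply comm_conj'
  have := (C.comm1 ((c C.i0)⁻¹ * r * c C.i1) u).symm
  rwa [L0_B] at this

lemma comm_L1_YY (u v : K) : Commute (C.L1 u) (C.YY v) := by
  have h1 := comm_conj' (C.tau C.i0) (C.comm_L1_x10 u (-v))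
  have h2 : C.tau C.i0 * C.L1 u * (C.tau C.i0)⁻¹ = C.L1 u := by
    rw [(C.tau0_L1 u).eq]
    group
  rwa [h2] at h1

lemma comm_L1_L0 (u s : K) : Commute (C.L1 u) (C.L0 s) := C.Bi_comm C.h01.symm _ _

/-- The relation `C'` at the base position. -/
lemma relC_base (t v : K) :
    C.xx C.i0 C.i1 t * C.YY v * (C.xx C.i0 C.i1 t)⁻¹ = C.YY v * C.L0 (2 * t * v) := by
  have h11 : C.xx C.i0 C.i1 1 * C.YY 1 * (C.xx C.i0 C.i1 1)⁻¹ = C.YY 1 * C.L0 (2 * 1 * 1) := by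
    rw [xx_of C C.h01, YY, xx_of C C.h01.symm, tau_i0, L0_B]
    simpa using C.rC
  have Ts : ∀ t v, C.xx C.i0 C.i1 t * C.YY v * (C.xx C.i0 C.i1 t)⁻¹ = C.YY v * C.L0 (2 * t * v) →
      C.xx C.i0 C.i1 t * C.YY (C.ζ ^ 2 * v) * (C.xx C.i0 C.i1 t)⁻¹ = C.YY (C.ζ ^ 2 * v) * C.L0 (2 * t * (C.ζ ^ 2 * v)) := by
    intro t v h
    have e := conj_rel3 C.Tp h
    rw [conj2 C.Tp, C.Tp_x01, C.Tp_YY, C.Tp_L0] at e
    rw [e]
    congr 2
    ring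
  have hs : ∀ t v, C.xx C.i0 C.i1 t * C.YY v * (C.xx C.i0 C.i1 t)⁻¹ = C.YY v * C.L0 (2 * t * v) →
      C.xx C.i0 C.i1 (C.ζ * t) * C.YY (C.ζ * v) * (C.xx C.i0 C.i1 (C.ζ * t))⁻¹ =
        C.YY (C.ζ * v) * C.L0 (2 * (C.ζ * t) * (C.ζ * v)) := by
    intro t v h
    have e := conj_rel3 C.hp h
    rw [conj2 C.hp, C.hp_x01, C.hp_YY, C.hp_L0] at e
    rw [e]
    congr 2
    ring
  have h1 : ∀ v, C.xx C.i0 C.i1 1 * C.YY v * (C.xx C.i0 C.i1 1)⁻¹ = C.YY v * C.L0 (2 * 1 * v) := by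
    intro v
    refine C.agen.ext (Y₁ := fun v => C.xx C.i0 C.i1 1 * C.YY v * (C.xx C.i0 C.i1 1)⁻¹)
      (Y₂ := fun v => C.YY v * C.L0 (2 * 1 * v)) ?_ ?_ ?_ v
    · intro a b
      rw [← YY_add]
      group
    · intro a b
      have := (C.comm_YY_L0 b (2 * 1 * a)).eq
      calc C.YY a * C.L0 (2 * 1 * a) * (C.YY b * C.L0 (2 * 1 * b))
          = C.YY a * (C.L0 (2 * 1 * a) * C.YY b) * C.L0 (2 * 1 * b) := by group
        _ = C.YY a * (C.YY b * C.L0 (2 * 1 * a)) * C.L0 (2 * 1 * b) := by rw [this]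
        _ = (C.YY a * C.YY b) * (C.L0 (2 * 1 * a) * C.L0 (2 * 1 * b)) := by group
        _ = _ := by
            rw [YY_add, L0_add]
            congr 2
            ring
    · exact C.pow_step (P := fun v => C.xx C.i0 C.i1 1 * C.YY v * (C.xx C.i0 C.i1 1)⁻¹ = C.YY v * C.L0 (2 * 1 * v))
        h11 (fun v h => Ts 1 v h)
  have hk : ∀ (k : ℕ) (v : K), C.xx C.i0 C.i1 (C.ζ ^ k) * C.YY v * (C.xx C.i0 C.i1 (C.ζ ^ k))⁻¹ =
      C.YY v * C.L0 (2 * C.ζ ^ k * v) := by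
    intro k
    induction k with
    | zero => simpa using h1
    | succ k ih =>
      intro v
      have := hs _ _ (ih (C.ζ⁻¹ * v))
      rw [← mul_assoc C.ζ C.ζ⁻¹, mul_inv_cancel₀ C.ζ0, one_mul] at this
      rw [pow_succ', this]
  by_cases ht : t = 0
  · subst ht
    rw [xx_zero]
    simp [L0_zero]
  · obtain ⟨k, rfl⟩ := C.gen t ht
    exact hk k v

/-- The relation `D` at the base position. -/
lemma relD_base (t u : K) :
    C.xx C.i0 C.i1 t * C.L1 u * (C.xx C.i0 C.i1 t)⁻¹ = C.L1 u * C.YY (t * u) * C.L0 (t * t * u) := by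
  have h11 : C.xx C.i0 C.i1 1 * C.L1 1 * (C.xx C.i0 C.i1 1)⁻¹ = C.L1 1 * C.YY (1 * 1) * C.L0 (1 * 1 * 1) := by
    rw [xx_of C C.h01, L1, YY, xx_of C C.h01.symm, tau_i0, L0_B, Bi_i1]
    simpa using C.rD
  have Ts : ∀ t u, C.xx C.i0 C.i1 t * C.L1 u * (C.xx C.i0 C.i1 t)⁻¹ = C.L1 u * C.YY (t * u) * C.L0 (t * t * u) →
      C.xx C.i0 C.i1 t * C.L1 (C.ζ ^ 2 * u) * (C.xx C.i0 C.i1 t)⁻¹ =
        C.L1 (C.ζ ^ 2 * u) * C.YY (t * (C.ζ ^ 2 * u)) * C.L0 (t * t * (C.ζ ^ 2 * u)) := by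
    intro t u h
    have e := conj_rel3 C.Tp h
    rw [conj2 C.Tp, conj2 C.Tp, C.Tp_x01, C.Tp_YY, C.Tp_L0, C.Tp_L1] at e
    rw [show t * (C.ζ ^ 2 * u) = C.ζ ^ 2 * (t * u) by ring,
      show t * t * (C.ζ ^ 2 * u) = C.ζ ^ 2 * (t * t * u) by ring]
    exact e
  have hs : ∀ t u, C.xx C.i0 C.i1 t * C.L1 u * (C.xx C.i0 C.i1 t)⁻¹ = C.L1 u * C.YY (t * u) * C.L0 (t * t * u) →
      C.xx C.i0 C.i1 (C.ζ * t) * C.L1 u * (C.xx C.i0 C.i1 (C.ζ * t))⁻¹ =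
        C.L1 u * C.YY (C.ζ * t * u) * C.L0 (C.ζ * t * (C.ζ * t) * u) := by
    intro t u h
    have e := conj_rel3 C.hp h
    rw [conj2 C.hp, conj2 C.hp, C.hp_x01, C.hp_YY, C.hp_L0, C.hp_L1] at e
    rw [show C.ζ * t * u = C.ζ * (t * u) by ring,
      show C.ζ * t * (C.ζ * t) * u = C.ζ ^ 2 * (t * t * u) by ring]
    exact e
  have h1 : ∀ u, C.xx C.i0 C.i1 1 * C.L1 u * (C.xx C.i0 C.i1 1)⁻¹ = C.L1 u * C.YY (1 * u) * C.L0 (1 * 1 * u) := by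
    intro u
    refine C.agen.ext (Y₁ := fun u => C.xx C.i0 C.i1 1 * C.L1 u * (C.xx C.i0 C.i1 1)⁻¹)
      (Y₂ := fun u => C.L1 u * C.YY (1 * u) * C.L0 (1 * 1 * u)) ?_ ?_ ?_ u
    · intro a b
      rw [← L1_add]
      group
    · intro a b
      have c1 := (C.comm_YY_L0 (1 * a) (1 * 1 * b)).symm.eq
      have c2 := (C.comm_L1_YY b (1 * a)).symm.eq
      have c3 := (C.comm_L1_L0 b (1 * 1 * a)).symm.eq
      have c4 := (C.comm_YY_L0 (1 * b) (1 * 1 * a)).eq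
      calc C.L1 a * C.YY (1 * a) * C.L0 (1 * 1 * a) * (C.L1 b * C.YY (1 * b) * C.L0 (1 * 1 * b))
          = C.L1 a * C.YY (1 * a) * (C.L0 (1 * 1 * a) * C.L1 b) * C.YY (1 * b) * C.L0 (1 * 1 * b) := by group
        _ = C.L1 a * (C.YY (1 * a) * C.L1 b) * C.L0 (1 * 1 * a) * C.YY (1 * b) * C.L0 (1 * 1 * b) := by
            rw [c3]
            group
        _ = C.L1 a * C.L1 b * C.YY (1 * a) * (C.L0 (1 * 1 * a) * C.YY (1 * b)) * C.L0 (1 * 1 * b) := by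
            rw [c2]
            group
        _ = (C.L1 a * C.L1 b) * (C.YY (1 * a) * C.YY (1 * b)) * (C.L0 (1 * 1 * a) * C.L0 (1 * 1 * b)) := by
            rw [← c4]
            group
        _ = _ := by
            rw [L1_add, YY_add, L0_add]
            congr 3
            · ring
            · ring
    · exact C.pow_step (P := fun u => C.xx C.i0 C.i1 1 * C.L1 u * (C.xx C.i0 C.i1 1)⁻¹ = C.L1 u * C.YY (1 * u) * C.L0 (1 * 1 * u))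
        h11 (fun v h => Ts 1 v h)
  have hk : ∀ (k : ℕ) (u : K), C.xx C.i0 C.i1 (C.ζ ^ k) * C.L1 u * (C.xx C.i0 C.i1 (C.ζ ^ k))⁻¹ =
      C.L1 u * C.YY (C.ζ ^ k * u) * C.L0 (C.ζ ^ k * C.ζ ^ k * u) := by
    intro k
    induction k with
    | zero => simpa using h1
    | succ k ih =>
      intro u
      rw [pow_succ']
      exact hs _ _ (ih u)
  by_cases ht : t = 0
  · subst ht
    rw [xx_zero]
    simp [L0_zero, YY_zero]
  · obtain ⟨k, rfl⟩ := C.gen t ht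
    exact hk k u

end Cfg

end Cfsg.Agent.Lib.PrsSp
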