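import Mathlib
import Cfsg.Agent.Lib.PrsSpE
import Cfsg.Agent.Lib.StN5

/-!
# Presentations of symplectic groups: the Steinberg relations hold
-/

set_option autoImplicit false
set_option linter.unusedSectionVars false

namespace Cfsg.Agent.Lib.PrsSp

open Matrix
open Cfsg.Agent.Lib.St2 (mx mx_true mx_false mx_add mx_surj)
open Cfsg.Agent.Lib.StN (MW MD coe_MW coe_MD I4 I5 tv_comm tv_comm')
open Cfsg.Agent.Lib.SpN (Ix Sh sw_sw sw_ne sw_inj sw_ne_sw ne_sw_symm)
open Cfsg.Agent.Lib.SpRoot (sg sg_swap sg_mul_self sg_ne_zero)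

variable {n : ℕ} {K Γ : Type*} [Field K] [Group Γ]

lemma sl_comm {i j k l : Fin n} (h : i ≠ j) (h' : k ≠ l) (hjk : j ≠ k) (hli : l ≠ i) (t u : K) :
    Commute (SpecialLinearGroup.transvection h t : SLN n K) (SpecialLinearGroup.transvection h' u) := by
  apply sl_eq
  rw [Matrix.SpecialLinearGroup.coe_mul, Matrix.SpecialLinearGroup.coe_mul]
  exact tv_comm hjk hli t u

lemma sl_comm' {i j l : Fin n} (h : i ≠ j) (h' : j ≠ l) (h'' : i ≠ l) (t u : K) :
    (SpecialLinearGroup.transvection h t * SpecialLinearGroup.transvection h' u : SLN n K) =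
      SpecialLinearGroup.transvection h'' (t * u) * SpecialLinearGroup.transvection h' u *
        SpecialLinearGroup.transvection h t := by
  apply sl_eq
  simp only [Matrix.SpecialLinearGroup.coe_mul]
  exact tv_comm' h''.symm h'.symm t u

namespace Cfg

variable (C : Cfg n K Γ)

lemma xx_comm {i j k l : Fin n} (hjk : j ≠ k) (hli : l ≠ i) (t u : K) :
    Commute (C.xx i j t) (C.xx k l u) := by
  by_cases h : i = j
  · subst h
    rw [xx_self]
    exact Commute.one_left _
  by_cases h' : k = l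
  · subst h'
    rw [xx_self]
    exact Commute.one_right _
  rw [xx_of C h, xx_of C h']
  exact (sl_comm h h' hjk hli t u).map C.A

lemma xx_rel {i j k : Fin n} (h : i ≠ j) (h' : j ≠ k) (h'' : i ≠ k) (t u : K) :
    C.xx i j t * C.xx j k u * (C.xx i j t)⁻¹ = C.xx j k u * C.xx i k (t * u) := by
  have e := congrArg C.A (sl_comm' h h' h'' t u)
  simp only [map_mul] at e
  have hc := (C.xx_comm (i := i) (j := k) (k := j) (l := k) h'.symm h''.symm (t * u) u).eq
  rw [xx_of C h'', xx_of C h'] at hc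
  rw [xx_of C h, xx_of C h', xx_of C h'', e, hc]
  group

lemma LF_add (a : Ix n) (s t : K) : C.LF a s * C.LF a t = C.LF a (s + t) := by
  rcases a with i | i
  · change C.Bi i _ * C.Bi i _ = C.Bi i _
    rw [← map_mul, mx_add]
  · change C.Bi i _ * C.Bi i _ = C.Bi i _
    rw [← map_mul, mx_add, neg_add]

lemma S01 : Sh (Sum.inl C.i0 : Ix n) (Sum.inr C.i1) :=
  ⟨by simp, by simpa using C.h01.symm⟩

lemma XF_add {a b : Ix n} (h : Sh a b) (s t : K) : C.XF a b s * C.XF a b t = C.XF a b (s + t) := by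
  obtain ⟨g, π, c, A, ha, hb⟩ := C.exists_act h
  have := A.T_add C.S01 (fun s t => C.xx_add C.h01 s t) s t
  rwa [ha, hb] at this

lemma commXX_main {a b c d : Ix n} (hab : Sh a b) (hcd : Sh c d) (h1 : c ≠ a.swap) (h2 : c ≠ b.swap)
    (h3 : d ≠ a.swap) (h4 : d ≠ b.swap) (h5 : c ≠ b) (h6 : d ≠ a) (t u : K) :
    C.XF a b t * C.XF c d u = C.XF c d u * C.XF a b t := by
  classical
  obtain ⟨S, hS1, hS2⟩ := exists_fl (n := n) {a, c} {b, d}
    (by
      simp only [Finset.mem_insert, Finset.mem_singleton, not_or]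
      rintro x (rfl | rfl)
      · exact ⟨sw_ne _, h1.symm⟩
      · exact ⟨(ne_sw_symm h1).symm, sw_ne _⟩)
    (by
      simp only [Finset.mem_insert, Finset.mem_singleton, not_or]
      rintro x (rfl | rfl)
      · exact ⟨sw_ne _, h4.symm⟩
      · exact ⟨(ne_sw_symm h4).symm, sw_ne _⟩)
    (by
      simp only [Finset.mem_insert, Finset.mem_singleton, not_or]
      rintro x (rfl | rfl)
      · exact ⟨hab.1, h6.symm⟩
      · exact ⟨h5, hcd.1⟩)
  have ea := hS1 a (by simp)
  have ec := hS1 c (by simp)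
  have eb := hS2 b (by simp)
  have ed := hS2 d (by simp)
  obtain ⟨g, c', A⟩ := C.act_fl S
  have := A.T_commXX (a := fl S a) (b := fl S b) (c' := fl S c) (d := fl S d) (sh_fl S hab) (sh_fl S hcd)
    (by
      intro t u
      rw [ea, eb, ec, ed]
      refine C.xx_comm ?_ ?_ t u
      · intro e
        apply h2
        apply fl_inj S
        rw [fl_swap, eb, ec, e]
        rfl
      · intro e
        apply h3
        apply fl_inj S
        rw [fl_swap, ea, ed, e]
        rfl) t u
  simpa only [fl_fl] using this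

lemma XF_commXX {a b c d : Ix n} (hab : Sh a b) (hcd : Sh c d) (h1 : c ≠ a.swap) (h2 : c ≠ b.swap)
    (h3 : d ≠ a.swap) (h4 : d ≠ b.swap) (t u : K) :
    C.XF a b t * C.XF c d u = C.XF c d u * C.XF a b t := by
  by_cases e1 : c = b
  · subst e1
    by_cases e2 : d = a
    · subst e2
      rw [C.XF_symm hcd, C.XF_add hab, C.XF_add hab, add_comm]
    · rw [C.XF_symm hcd]
      exact C.commXX_main hab hcd.symm h3 h4 h1 h2 (Ne.symm hcd.1) hab.1.symm t u
  · by_cases e2 : d = a
    · subst e2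
      rw [C.XF_symm hcd]
      exact C.commXX_main hab hcd.symm h3 h4 h1 h2 hab.1 hcd.1 t u
    · exact C.commXX_main hab hcd h1 h2 h3 h4 e1 e2 t u

lemma XF_relC {a b d : Ix n} (hab : Sh a b) (h1 : d ≠ a) (h2 : d ≠ a.swap) (h3 : d ≠ b) (h4 : d ≠ b.swap) (t u : K) :
    C.XF a b t * C.XF b.swap d u * (C.XF a b t)⁻¹ = C.XF b.swap d u * C.XF a d (sg b * t * u) := by
  classical
  obtain ⟨S, hS1, hS2⟩ := exists_fl (n := n) {a} {b, d}
    (by simpa using sw_ne a)
    (by
      simp only [Finset.mem_insert, Finset.mem_singleton, not_or]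
      rintro x (rfl | rfl)
      · exact ⟨sw_ne _, h4.symm⟩
      · exact ⟨(ne_sw_symm h4).symm, sw_ne _⟩)
    (by
      simp only [Finset.mem_insert, Finset.mem_singleton, not_or]
      rintro x rfl
      exact ⟨hab.1, h1.symm⟩)
  have ea := hS1 a (by simp)
  have eb := hS2 b (by simp)
  have ed := hS2 d (by simp)
  obtain ⟨g, c', A⟩ := C.act_fl S
  have Sad : Sh a d := ⟨h1.symm, h2⟩
  have Sbd : Sh b.swap d := ⟨h4.symm, by rw [sw_sw]; exact h3⟩
  have Sbd' : Sh (fl S b).swap (fl S d) := by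
    rw [← fl_swap]
    exact sh_fl S Sbd
  have := A.T_relC (a := fl S a) (b := fl S b) (d := fl S d) (sh_fl S hab) Sbd' (sh_fl S Sad)
    (by
      intro t u
      rw [ea, eb, ed]
      have n1 : ixOf a ≠ ixOf b := ix_ne hab
      have n2 : ixOf b ≠ ixOf d := by
        have := ix_ne Sbd
        rwa [ixOf_swap] at this
      have n3 : ixOf a ≠ ixOf d := ix_ne Sad
      have : (sg (Sum.inr (ixOf b) : Ix n) : K) = 1 := rfl
      rw [this, one_mul]
      exact C.xx_rel n1 n2 n3 t u) t u
  simp only [fl_fl] at this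
  have e : (fl S (fl S b)).swap = b.swap := by rw [fl_fl]
  simpa only [fl_fl] using this

lemma XF_relC' {a b : Ix n} (hab : Sh a b) (t u : K) :
    C.XF a b t * C.XF b.swap a u * (C.XF a b t)⁻¹ = C.XF b.swap a u * C.LF a (2 * sg b * t * u) := by
  obtain ⟨g, π, c, A, ha, hb⟩ := C.exists_act hab
  have S' : Sh (Sum.inr C.i1 : Ix n).swap (Sum.inl C.i0) := ⟨by simpa using C.h01.symm, by simp⟩
  have := A.T_relC' C.S01 S'
    (by
      intro t u
      have h := C.relC_base t u
      have e : (sg (Sum.inr C.i1 : Ix n) : K) = 1 := rfl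
      rw [e, mul_one]
      exact h) t u
  rwa [ha, hb] at this

lemma XF_relD {a b : Ix n} (hab : Sh a b) (t u : K) :
    C.XF a b t * C.LF b.swap u * (C.XF a b t)⁻¹ =
      C.LF b.swap u * C.XF b.swap a (sg b * t * u) * C.LF a (t * t * u) := by
  obtain ⟨g, π, c, A, ha, hb⟩ := C.exists_act hab
  have S' : Sh (Sum.inr C.i1 : Ix n).swap (Sum.inl C.i0) := ⟨by simpa using C.h01.symm, by simp⟩
  have := A.T_relD C.S01 S'
    (by
      intro t u
      have h := C.relD_base t u
      have e : (sg (Sum.inr C.i1 : Ix n) : K) = 1 := rfl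
      rw [e, one_mul]
      exact h) t u
  rwa [ha, hb] at this

lemma XF_commXL {a b c : Ix n} (hab : Sh a b) (h1 : c ≠ a.swap) (h2 : c ≠ b.swap) (t u : K) :
    C.XF a b t * C.LF c u = C.LF c u * C.XF a b t := by
  classical
  have base : ∀ {a b : Ix n}, Sh a b → ∀ t u, C.XF a b t * C.LF a u = C.LF a u * C.XF a b t := by
    intro a b hab t u
    obtain ⟨g, π, c, A, ha, hb⟩ := C.exists_act hab
    have := A.T_commXL (c' := Sum.inl C.i0) C.S01 (fun t u => (C.comm1 t u).eq) t u
    rwa [ha, hb] at this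
  by_cases e1 : c = a
  · subst e1
    exact base hab t u
  by_cases e2 : c = b
  · subst e2
    rw [C.XF_symm hab]
    exact base hab.symm t u
  obtain ⟨S, hS1, hS2⟩ := exists_fl (n := n) {a, c} {b}
    (by
      simp only [Finset.mem_insert, Finset.mem_singleton, not_or]
      rintro x (rfl | rfl)
      · exact ⟨sw_ne _, h1.symm⟩
      · exact ⟨(ne_sw_symm h1).symm, sw_ne _⟩)
    (by simpa using sw_ne b)
    (by
      simp only [Finset.mem_insert, Finset.mem_singleton]
      rintro x (rfl | rfl)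
      · exact hab.1
      · exact e2)
  have ea := hS1 a (by simp)
  have ec := hS1 c (by simp)
  have eb := hS2 b (by simp)
  obtain ⟨g, c', A⟩ := C.act_fl S
  have := A.T_commXL (a := fl S a) (b := fl S b) (c' := fl S c) (sh_fl S hab)
    (by
      intro t u
      rw [ea, eb, ec]
      refine C.x_Bi ?_ ?_ t _
      · intro e
        apply e1
        apply fl_inj S
        rw [ea, ec, e]
      · intro e
        apply h2
        apply fl_inj S
        rw [fl_swap, eb, ec, e]
        rfl) t u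
  simpa only [fl_fl] using this

lemma LF_commLL {a c : Ix n} (h : c ≠ a.swap) (t u : K) :
    C.LF a t * C.LF c u = C.LF c u * C.LF a t := by
  classical
  by_cases e1 : c = a
  · subst e1
    rw [C.LF_add, C.LF_add, add_comm]
  obtain ⟨S, hS1, hS2⟩ := exists_fl (n := n) {a, c} ∅
    (by
      simp only [Finset.mem_insert, Finset.mem_singleton, not_or]
      rintro x (rfl | rfl)
      · exact ⟨sw_ne _, h.symm⟩
      · exact ⟨(ne_sw_symm h).symm, sw_ne _⟩)
    (by simp)
    (by simp)
  have ea := hS1 a (by simp)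
  have ec := hS1 c (by simp)
  obtain ⟨g, c', A⟩ := C.act_fl S
  have := A.T_commLL (a := fl S a) (c' := fl S c)
    (by
      intro t u
      rw [ea, ec]
      refine C.Bi_comm ?_ _ _
      intro e
      apply e1
      apply fl_inj S
      rw [ea, ec, e]) t u
  simpa only [fl_fl] using this

/-- The Steinberg relations hold. -/
def toData : Cfsg.Agent.Lib.SpN.Data n K Γ where
  X := C.XF
  L := C.LF
  Xsym := C.XF_symm
  addX := C.XF_add
  addL := C.LF_add
  commXX := C.XF_commXX
  commXL := C.XF_commXL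
  commLL := C.LF_commLL
  relC := C.XF_relC
  relC' := C.XF_relC'
  relD := C.XF_relD

theorem exists_hom [Finite K] :
    ∃ ψ : Matrix.symplecticGroup (Fin n) K →* Γ,
      (∀ a t, ψ (Cfsg.Agent.Lib.SpBasic.T (Cfsg.Agent.Lib.SpRoot.e a) t) = C.LF a t) ∧
      ∀ a b t, Sh a b → ψ (Cfsg.Agent.Lib.SpRoot.B (Cfsg.Agent.Lib.SpRoot.e a) (Cfsg.Agent.Lib.SpRoot.e b) t) = C.XF a b t := by
  have h2 : 2 ≤ n := by
    have h1 := C.i0.2
    have h2 := C.i1.2
    have h3 : C.i0.val ≠ C.i1.val := fun e => C.h01 (Fin.ext e)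
    omega
  exact Cfsg.Agent.Lib.SpN.exists_hom_SpN h2 C.toData

end Cfg

end Cfsg.Agent.Lib.PrsSp
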