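import Mathlib
import Cfsg.Agent.Lib.PrsSpF

/-!
# Presentations of symplectic groups: the model
-/

set_option autoImplicit false
set_option linter.unusedSectionVars false

namespace Cfsg.Agent.Lib.PrsSp

open Matrix
open Cfsg.Agent.Lib.St2 (mx mx_true mx_false mx_add mx_surj)
open Cfsg.Agent.Lib.StN (MW MD coe_MW coe_MD I4 I5)
open Cfsg.Agent.Lib.SpN (Ix Sh sw_sw sw_ne sw_inj sw_ne_sw ne_sw_symm modelD hall_of ω_ee0 T_comm_T)
open Cfsg.Agent.Lib.SpN.Data (piL cL piL_a piL_a' piL_off cL_a cL_a' cL_off cD cD_a cD_a' cD_off)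
open Cfsg.Agent.Lib.SpRoot (sg sg_swap sg_mul_self sg_ne_zero e e_apply coe_apply_eq B_coe B_conj B_smul_vec)
open Cfsg.Agent.Lib.SpBasic (T T_conj T_smul_vec Sp_ext)

variable {n : ℕ} {K : Type*} [Field K]

/-- The symplectic group. -/
local notation "SpG" => Matrix.symplecticGroup (Fin n) K

/-- The block of the inverse transpose. -/
def hT (g : SLN n K) : Matrix (Fin n) (Fin n) K := ((g⁻¹ : SLN n K) : Matrix (Fin n) (Fin n) K)ᵀ

lemma sl_mul_inv (g : SLN n K) :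
    (g : Matrix (Fin n) (Fin n) K) * ((g⁻¹ : SLN n K) : Matrix (Fin n) (Fin n) K) = 1 := by
  rw [← Matrix.SpecialLinearGroup.coe_mul, mul_inv_cancel]
  rfl

lemma sl_inv_mul (g : SLN n K) :
    ((g⁻¹ : SLN n K) : Matrix (Fin n) (Fin n) K) * (g : Matrix (Fin n) (Fin n) K) = 1 := by
  rw [← Matrix.SpecialLinearGroup.coe_mul, inv_mul_cancel]
  rfl

/-- The embedding of `SL_n` in `Sp_{2n}`. -/
def emb : SLN n K →* SpG where
  toFun g := ⟨fromBlocks (g : Matrix (Fin n) (Fin n) K) 0 0 (hT g), by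
    rw [SymplecticGroup.mem_iff, Matrix.J, fromBlocks_multiply, fromBlocks_transpose, fromBlocks_multiply]
    simp only [mul_zero, add_zero, mul_neg, mul_one, zero_mul, zero_add, neg_zero, one_mul]
    have h1 : (g : Matrix (Fin n) (Fin n) K) * (hT g)ᵀ = 1 := by
      rw [hT, transpose_transpose, sl_mul_inv]
    have h2 : hT g * (g : Matrix (Fin n) (Fin n) K)ᵀ = 1 := by
      rw [hT, ← transpose_mul, sl_mul_inv, transpose_one]
    simp [h1, h2]⟩
  map_one' := by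
    apply Subtype.ext
    simp only [hT, inv_one, Matrix.SpecialLinearGroup.coe_one, transpose_one]
    exact fromBlocks_one
  map_mul' g g' := by
    apply Subtype.ext
    change fromBlocks _ 0 0 _ = fromBlocks _ 0 0 _ * fromBlocks _ 0 0 _
    rw [fromBlocks_multiply]
    simp only [mul_zero, add_zero, zero_mul, zero_add, Matrix.SpecialLinearGroup.coe_mul, hT, _root_.mul_inv_rev,
      transpose_mul]

lemma emb_apply_ll (g : SLN n K) (i j : Fin n) :
    (emb g : SpG).1 (Sum.inl i) (Sum.inl j) = (g : Matrix (Fin n) (Fin n) K) i j := rfl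

lemma emb_apply_rr (g : SLN n K) (i j : Fin n) :
    (emb g : SpG).1 (Sum.inr i) (Sum.inr j) = ((g⁻¹ : SLN n K) : Matrix (Fin n) (Fin n) K) j i := rfl

lemma emb_apply_lr (g : SLN n K) (i j : Fin n) : (emb g : SpG).1 (Sum.inl i) (Sum.inr j) = 0 := rfl

lemma emb_apply_rl (g : SLN n K) (i j : Fin n) : (emb g : SpG).1 (Sum.inr i) (Sum.inl j) = 0 := rfl

lemma emb_e_inl {μ : SLN n K} {σ : Equiv.Perm (Fin n)} {c : Fin n → K} (M : Mono μ σ c) (j : Fin n) :
    (emb μ : SpG) • (e (Sum.inl j) : Ix n → K) = c j • e (Sum.inl (σ j)) := by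
  ext r
  rw [← coe_apply_eq, Pi.smul_apply, e_apply, smul_eq_mul]
  rcases r with i | i
  · rw [emb_apply_ll, M.entry]
    simp
  · rw [emb_apply_rl]
    simp

lemma emb_e_inr {μ : SLN n K} {σ : Equiv.Perm (Fin n)} {c : Fin n → K} (M : Mono μ σ c) (j : Fin n) :
    (emb μ : SpG) • (e (Sum.inr j) : Ix n → K) = (c j)⁻¹ • e (Sum.inr (σ j)) := by
  ext r
  rw [← coe_apply_eq, Pi.smul_apply, e_apply, smul_eq_mul]
  rcases r with i | i
  · rw [emb_apply_lr]
    simp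
  · rw [emb_apply_rr, M.inv_entry]
    by_cases h : σ j = i
    · subst h
      simp
    · have : i ≠ σ j := fun e => h e.symm
      simp [h, this]

lemma IsBlk.inv_entry {i0 : Fin n} {g : SLN n K} (hg : IsBlk i0 g) (s : Fin n) :
    ((g⁻¹ : SLN n K) : Matrix (Fin n) (Fin n) K) i0 s = if i0 = s then 1 else 0 := by
  have h := congrFun (congrFun (sl_mul_inv g) i0) s
  rw [Matrix.mul_apply, Finset.sum_eq_single i0] at h
  · rw [hg.1, one_mul, Matrix.one_apply] at h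
    exact h
  · intro b _ hb
    rw [(hg.2 b hb).1, zero_mul]
  · simp

lemma emb_blk_inl {i0 : Fin n} {g : SLN n K} (hg : IsBlk i0 g) :
    (emb g : SpG) • (e (Sum.inl i0) : Ix n → K) = e (Sum.inl i0) := by
  ext r
  rw [← coe_apply_eq, e_apply]
  rcases r with i | i
  · rw [emb_apply_ll]
    by_cases h : i = i0
    · subst h
      simp [hg.1]
    · simp [h, (hg.2 i h).2]
  · rw [emb_apply_rl]
    simp

lemma emb_blk_inr {i0 : Fin n} {g : SLN n K} (hg : IsBlk i0 g) :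
    (emb g : SpG) • (e (Sum.inr i0) : Ix n → K) = e (Sum.inr i0) := by
  ext r
  rw [← coe_apply_eq, e_apply]
  rcases r with i | i
  · rw [emb_apply_lr]
    simp
  · rw [emb_apply_rr, hg.inv_entry]
    by_cases h : i = i0
    · subst h
      simp
    · have h' : i0 ≠ i := fun e => h e.symm
      simp [h, h']

lemma tv_inv' {i j : Fin n} (h : i ≠ j) (t : K) :
    (SpecialLinearGroup.transvection h t : SLN n K)⁻¹ = SpecialLinearGroup.transvection h (-t) := by
  rw [inv_eq_iff_mul_eq_one, Cfg.tv_add, add_neg_cancel]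
  apply sl_eq
  change Matrix.transvection i j 0 = 1
  simp

lemma emb_tv {i j : Fin n} (h : i ≠ j) (t : K) :
    (emb (SpecialLinearGroup.transvection h t) : SpG) =
      Cfsg.Agent.Lib.SpRoot.B (e (Sum.inl i)) (e (Sum.inr j)) t := by
  apply Subtype.ext
  have hne : (Sum.inr j : Ix n) ≠ (Sum.inl i : Ix n).swap := by
    simpa using h.symm
  rw [B_coe hne]
  ext r s
  rcases r with a | a <;> rcases s with b | b
  · rw [emb_apply_ll]
    change (Matrix.transvection i j t) a b = _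
    simp [Matrix.transvection, Matrix.add_apply, Matrix.single_apply, Matrix.one_apply, sg]
  · rw [emb_apply_lr]
    simp [Matrix.add_apply, Matrix.single_apply, Matrix.one_apply]
  · rw [emb_apply_rl]
    simp [Matrix.add_apply, Matrix.single_apply, Matrix.one_apply]
  · rw [emb_apply_rr, tv_inv']
    change (Matrix.transvection i j (-t)) b a = _
    simp only [Matrix.transvection, Matrix.add_apply, Matrix.single_apply, Matrix.one_apply, sg]
    by_cases h1 : a = b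
    · subst h1
      have h2 : ¬ (i = a ∧ j = a) := fun h3 => h (h3.1.trans h3.2.symm)
      by_cases h3 : i = a <;> by_cases h4 : j = a <;> simp_all
    · have h1' : b ≠ a := fun e => h1 e.symm
      by_cases h3 : i = b <;> by_cases h4 : j = a <;> simp_all <;> ring


section Model

variable {i0 i1 : Fin n} {Bm : SLT K →* Matrix.symplecticGroup (Fin n) K}
  (hB1 : ∀ t, Bm (mx K (true, t)) = T (e (Sum.inl i0)) t)
  (hB2 : ∀ t, Bm (mx K (false, t)) = T (e (Sum.inr i0)) (-t))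

include hB1 hB2

lemma B_MW (t : K) : Bm (MW t) = (modelD K n).wL (Sum.inl i0) t := by
  rw [MW, map_mul, map_mul, hB1, hB2, neg_neg]
  rfl

lemma B_MD (c : K) : Bm (MD c) = (modelD K n).dd (Sum.inl i0) c := by
  rw [MD, map_mul, B_MW hB1 hB2, B_MW hB1 hB2]
  rfl

lemma mono_conj {μ : SLN n K} {σ : Equiv.Perm (Fin n)} {c : Fin n → K} (M : Mono μ σ c)
    (h : σ i0 = i0) (x : SLT K) :
    (emb μ : SpG) * Bm x * (emb μ)⁻¹ = Bm (Ad (c i0) x) := by
  let φ₁ : SLT K →* SpG := (MulAut.conj (emb μ : SpG)).toMonoidHom.comp Bm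
  let φ₂ : SLT K →* SpG := Bm.comp (MulAut.conj (MD (c i0))).toMonoidHom
  have hS : φ₁.eqLocus φ₂ = ⊤ := by
    apply sl2_mx_top
    rintro (_ | _) t
    · change (emb μ : SpG) * Bm (mx K (false, t)) * (emb μ)⁻¹ = Bm (Ad (c i0) (mx K (false, t)))
      rw [hB2, T_conj, emb_e_inr M, h, Ad_mx_false (M.ne _), hB2, T_smul_vec]
      congr 1
      ring
    · change (emb μ : SpG) * Bm (mx K (true, t)) * (emb μ)⁻¹ = Bm (Ad (c i0) (mx K (true, t)))
      rw [hB1, T_conj, emb_e_inl M, h, Ad_mx_true (M.ne _), hB1, T_smul_vec]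
  have : x ∈ φ₁.eqLocus φ₂ := by
    rw [hS]
    exact Subgroup.mem_top x
  exact this

lemma blk_conj {g : SLN n K} (hg : IsBlk i0 g) (x : SLT K) : Commute (emb g : SpG) (Bm x) := by
  have hS : cmS Bm (emb g : SpG) = ⊤ := by
    apply sl2_mx_top
    rintro (_ | _) t
    · rw [mem_cmS, hB2, Commute, SemiconjBy, ← mul_inv_eq_iff_eq_mul, T_conj, emb_blk_inr hg]
    · rw [mem_cmS, hB1, Commute, SemiconjBy, ← mul_inv_eq_iff_eq_mul, T_conj, emb_blk_inl hg]
  have : x ∈ cmS Bm (emb g : SpG) := by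
    rw [hS]
    exact Subgroup.mem_top x
  exact this

lemma L_commute {a : Ix n} (ha : ixOf a ≠ i0) (s : K) (x : SLT K) :
    Commute ((modelD K n).L a s) (Bm x) := by
  have hS : cmS Bm ((modelD K n).L a s) = ⊤ := by
    apply sl2_mx_top
    rintro (_ | _) t
    · rw [mem_cmS, hB2]
      refine (modelD K n).commLL (a := a) (c := Sum.inr i0) ?_ s (-t)
      intro h
      apply ha
      have := congrArg ixOf h
      rw [ixOf_swap] at this
      exact this.symm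
    · rw [mem_cmS, hB1]
      refine (modelD K n).commLL (a := a) (c := Sum.inl i0) ?_ s t
      intro h
      apply ha
      have := congrArg ixOf h
      rw [ixOf_swap] at this
      exact this.symm
  have : x ∈ cmS Bm ((modelD K n).L a s) := by
    rw [hS]
    exact Subgroup.mem_top x
  exact this

lemma conj_L_inl {μ : SLN n K} {σ : Equiv.Perm (Fin n)} {c : Fin n → K} (M : Mono μ σ c)
    (hc : ∀ k, c k ^ 2 = 1) (t : K) :
    (emb μ : SpG) * (modelD K n).L (Sum.inl i0) t * (emb μ)⁻¹ = (modelD K n).L (Sum.inl (σ i0)) t := by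
  change (emb μ : SpG) * T (e (Sum.inl i0)) t * (emb μ)⁻¹ = T (e (Sum.inl (σ i0))) t
  rw [T_conj, emb_e_inl M, T_smul_vec, hc, one_mul]

lemma conj_L_inr {μ : SLN n K} {σ : Equiv.Perm (Fin n)} {c : Fin n → K} (M : Mono μ σ c)
    (hc : ∀ k, c k ^ 2 = 1) (t : K) :
    (emb μ : SpG) * (modelD K n).L (Sum.inr i0) t * (emb μ)⁻¹ = (modelD K n).L (Sum.inr (σ i0)) t := by
  change (emb μ : SpG) * T (e (Sum.inr i0)) t * (emb μ)⁻¹ = T (e (Sum.inr (σ i0))) t
  rw [T_conj, emb_e_inr M, T_smul_vec, inv_pow, hc, inv_one, one_mul]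

lemma conj_wL {μ : SLN n K} {σ : Equiv.Perm (Fin n)} {c : Fin n → K} (M : Mono μ σ c)
    (hc : ∀ k, c k ^ 2 = 1) (t : K) :
    (emb μ : SpG) * (modelD K n).wL (Sum.inl i0) t * (emb μ)⁻¹ = (modelD K n).wL (Sum.inl (σ i0)) t := by
  have e1 : ∀ (g a b : SpG), g * (a * b * a) * g⁻¹ = (g * a * g⁻¹) * (g * b * g⁻¹) * (g * a * g⁻¹) := by
    intro g a b
    group
  rw [Cfsg.Agent.Lib.SpN.Data.wL, e1]
  have e2 := conj_L_inl hB1 hB2 (i0 := i0) M hc
  have e3 := conj_L_inr hB1 hB2 (i0 := i0) M hc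
  rw [e2]
  change (modelD K n).L _ t * ((emb μ : SpG) * (modelD K n).L (Sum.inr i0) t⁻¹ * (emb μ)⁻¹) * _ = _
  rw [e3]
  rfl

lemma comm_Bi {μ : SLN n K} {σ : Equiv.Perm (Fin n)} {c : Fin n → K} (M : Mono μ σ c)
    (hc : ∀ k, c k ^ 2 = 1) (h : σ i0 ≠ i0) (x y : SLT K) :
    Commute ((emb μ : SpG) * Bm y * (emb μ)⁻¹) (Bm x) := by
  let φ : SLT K →* SpG := (MulAut.conj (emb μ : SpG)).toMonoidHom.comp Bm
  have hS : cmS φ (Bm x) = ⊤ := by
    apply sl2_mx_top
    rintro (_ | _) t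
    · rw [mem_cmS]
      change Commute (Bm x) ((emb μ : SpG) * Bm (mx K (false, t)) * (emb μ)⁻¹)
      rw [hB2]
      have := conj_L_inr hB1 hB2 (i0 := i0) M hc (-t)
      change (emb μ : SpG) * T (e (Sum.inr i0)) (-t) * (emb μ)⁻¹ = _ at this
      rw [this]
      exact (L_commute hB1 hB2 (a := Sum.inr (σ i0)) h _ x).symm
    · rw [mem_cmS]
      change Commute (Bm x) ((emb μ : SpG) * Bm (mx K (true, t)) * (emb μ)⁻¹)
      rw [hB1]
      have := conj_L_inl hB1 hB2 (i0 := i0) M hc t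
      change (emb μ : SpG) * T (e (Sum.inl i0)) t * (emb μ)⁻¹ = _ at this
      rw [this]
      exact (L_commute hB1 hB2 (a := Sum.inl (σ i0)) h _ x).symm
  have : y ∈ cmS φ (Bm x) := by
    rw [hS]
    exact Subgroup.mem_top y
  exact Commute.symm this

end Model


section Eval

variable (hall : ∀ x : Ix n, ∃ b, Sh x b)

lemma cL_ll (i : Fin n) : cL (Sum.inl i : Ix n) (1 : K) (Sum.inl i) = 1 := by
  rw [cL_a]
  simp [sg]

lemma cL_lr (i : Fin n) : cL (Sum.inl i : Ix n) (1 : K) (Sum.inr i) = -1 := by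
  have := cL_a' (a := (Sum.inl i : Ix n)) (1 : K)
  simpa [sg] using this

lemma piL_ll (i : Fin n) : piL (Sum.inl i : Ix n) (Sum.inl i) = Sum.inr i := piL_a

lemma piL_lr (i : Fin n) : piL (Sum.inl i : Ix n) (Sum.inr i) = Sum.inl i := piL_a'

lemma off_l {i j : Fin n} (h : j ≠ i) : (Sum.inl j : Ix n) ≠ Sum.inl i ∧ (Sum.inl j : Ix n) ≠ (Sum.inl i : Ix n).swap := by
  simpa using h

lemma off_r {i j : Fin n} (h : j ≠ i) : (Sum.inr j : Ix n) ≠ Sum.inl i ∧ (Sum.inr j : Ix n) ≠ (Sum.inl i : Ix n).swap := by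
  simpa using h

include hall

/-- `w_j` on `x_{ij}`. -/
lemma wX1 {i j : Fin n} (h : i ≠ j) (u : K) :
    (modelD K n).wL (Sum.inl j) 1 * (modelD K n).X (Sum.inl i) (Sum.inr j) u * ((modelD K n).wL (Sum.inl j) 1)⁻¹ =
      (modelD K n).X (Sum.inl i) (Sum.inl j) (-u) := by
  have S : Sh (Sum.inl i : Ix n) (Sum.inr j) := ⟨by simp, by simpa using h.symm⟩
  rw [((modelD K n).acts_wL (one_ne_zero (α := K)) hall (a := Sum.inl j)).X S, piL_off (off_l h), piL_lr,
    cL_off _ (off_l h), cL_lr]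
  congr 1
  ring

/-- `w_i` on `x_{ij}`. -/
lemma wX2 {i j : Fin n} (h : i ≠ j) (u : K) :
    (modelD K n).wL (Sum.inl i) 1 * (modelD K n).X (Sum.inl i) (Sum.inr j) u * ((modelD K n).wL (Sum.inl i) 1)⁻¹ =
      (modelD K n).X (Sum.inr i) (Sum.inr j) u := by
  have S : Sh (Sum.inl i : Ix n) (Sum.inr j) := ⟨by simp, by simpa using h.symm⟩
  rw [((modelD K n).acts_wL (one_ne_zero (α := K)) hall (a := Sum.inl i)).X S, piL_ll, piL_off (off_r h.symm),
    cL_ll, cL_off _ (off_r h.symm)]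
  congr 1
  ring

/-- `w_i` on `y_{ij}`. -/
lemma wX3 {i j : Fin n} (h : i ≠ j) (u : K) :
    (modelD K n).wL (Sum.inl i) 1 * (modelD K n).X (Sum.inl i) (Sum.inl j) u * ((modelD K n).wL (Sum.inl i) 1)⁻¹ =
      (modelD K n).X (Sum.inr i) (Sum.inl j) u := by
  have S : Sh (Sum.inl i : Ix n) (Sum.inl j) := ⟨by simpa using h, by simp⟩
  rw [((modelD K n).acts_wL (one_ne_zero (α := K)) hall (a := Sum.inl i)).X S, piL_ll, piL_off (off_l h.symm),
    cL_ll, cL_off _ (off_l h.symm)]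
  congr 1
  ring

/-- The torus on `x`. -/
lemma dX1 {i j k : Fin n} (h : i ≠ j) (h1 : k ≠ i) (h2 : k ≠ j) {c : K} (hc : c ≠ 0) (u : K) :
    (modelD K n).dd (Sum.inl k) c * (modelD K n).X (Sum.inl i) (Sum.inr j) u * ((modelD K n).dd (Sum.inl k) c)⁻¹ =
      (modelD K n).X (Sum.inl i) (Sum.inr j) u := by
  have S : Sh (Sum.inl i : Ix n) (Sum.inr j) := ⟨by simp, by simpa using h.symm⟩
  rw [((modelD K n).acts_dd hall (Sum.inl k) hc).X S, cD_off _ _ (off_l h1.symm), cD_off _ _ (off_r h2.symm)]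
  congr 1
  ring

lemma dX2 {i j : Fin n} (h : i ≠ j) {c : K} (hc : c ≠ 0) (u : K) :
    (modelD K n).dd (Sum.inl i) c * (modelD K n).X (Sum.inl i) (Sum.inr j) u * ((modelD K n).dd (Sum.inl i) c)⁻¹ =
      (modelD K n).X (Sum.inl i) (Sum.inr j) (c * u) := by
  have S : Sh (Sum.inl i : Ix n) (Sum.inr j) := ⟨by simp, by simpa using h.symm⟩
  rw [((modelD K n).acts_dd hall (Sum.inl i) hc).X S, cD_a, cD_off _ _ (off_r h.symm)]
  congr 1
  ring

lemma dX3 {i j : Fin n} (h : i ≠ j) {c : K} (hc : c ≠ 0) (u : K) :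
    (modelD K n).dd (Sum.inl j) c * (modelD K n).X (Sum.inl i) (Sum.inr j) u * ((modelD K n).dd (Sum.inl j) c)⁻¹ =
      (modelD K n).X (Sum.inl i) (Sum.inr j) (c⁻¹ * u) := by
  have S : Sh (Sum.inl i : Ix n) (Sum.inr j) := ⟨by simp, by simpa using h.symm⟩
  have e := cD_a' (Sum.inl j : Ix n) c
  rw [((modelD K n).acts_dd hall (Sum.inl j) hc).X S, cD_off _ _ (off_l h)]
  change (modelD K n).X _ _ (1 * cD (Sum.inl j : Ix n) c (Sum.inl j : Ix n).swap * u) = _
  rw [e, one_mul]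

end Eval

section Rel

variable (hall : ∀ x : Ix n, ∃ b, Sh x b)

include hall

lemma Y_model {i0 i1 : Fin n} (h01 : i0 ≠ i1) :
    (modelD K n).wL (Sum.inl i0) 1 * (modelD K n).X (Sum.inl i1) (Sum.inr i0) (-1) *
        ((modelD K n).wL (Sum.inl i0) 1)⁻¹ = (modelD K n).X (Sum.inl i1) (Sum.inl i0) 1 := by
  rw [wX1 hall h01.symm, neg_neg]

lemma rW_model {i0 i1 : Fin n} (h01 : i0 ≠ i1) :
    ((modelD K n).wL (Sum.inl i0) 1 * (modelD K n).wL (Sum.inl i1) 1) *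
      (modelD K n).X (Sum.inl i0) (Sum.inr i1) 1 *
      ((modelD K n).wL (Sum.inl i0) 1 * (modelD K n).wL (Sum.inl i1) 1)⁻¹ =
    (modelD K n).X (Sum.inl i1) (Sum.inr i0) (-1) := by
  have h1 := wX1 hall h01 (1 : K)
  have h2 := wX3 hall h01 (-1 : K)
  have S : Sh (Sum.inr i0 : Ix n) (Sum.inl i1) := ⟨by simp, by simpa using h01.symm⟩
  rw [(modelD K n).Xsym S] at h2
  rw [← h2, ← h1]
  group

lemma rD_model {i0 i1 : Fin n} (h01 : i0 ≠ i1) :
    (modelD K n).X (Sum.inl i0) (Sum.inr i1) 1 * (modelD K n).L (Sum.inl i1) 1 *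
      ((modelD K n).X (Sum.inl i0) (Sum.inr i1) 1)⁻¹ =
    (modelD K n).L (Sum.inl i1) 1 *
      ((modelD K n).wL (Sum.inl i0) 1 * (modelD K n).X (Sum.inl i1) (Sum.inr i0) (-1) *
        ((modelD K n).wL (Sum.inl i0) 1)⁻¹) * T (e (Sum.inl i0)) 1 := by
  rw [Y_model hall h01]
  have S : Sh (Sum.inl i0 : Ix n) (Sum.inr i1) := ⟨by simp, by simpa using h01.symm⟩
  have := (modelD K n).relD S (1 : K) 1
  simp [sg] at this
  exact this

lemma rC_model {i0 i1 : Fin n} (h01 : i0 ≠ i1) :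
    (modelD K n).X (Sum.inl i0) (Sum.inr i1) 1 *
      ((modelD K n).wL (Sum.inl i0) 1 * (modelD K n).X (Sum.inl i1) (Sum.inr i0) (-1) *
        ((modelD K n).wL (Sum.inl i0) 1)⁻¹) *
      ((modelD K n).X (Sum.inl i0) (Sum.inr i1) 1)⁻¹ =
    ((modelD K n).wL (Sum.inl i0) 1 * (modelD K n).X (Sum.inl i1) (Sum.inr i0) (-1) *
        ((modelD K n).wL (Sum.inl i0) 1)⁻¹) * T (e (Sum.inl i0)) 2 := by
  rw [Y_model hall h01]
  have S : Sh (Sum.inl i0 : Ix n) (Sum.inr i1) := ⟨by simp, by simpa using h01.symm⟩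
  have := (modelD K n).relC' S (1 : K) 1
  simp [sg] at this
  exact this

end Rel

section Conj1

variable {i0 i1 : Fin n} {Bm : SLT K →* Matrix.symplecticGroup (Fin n) K}
  (hB1 : ∀ t, Bm (mx K (true, t)) = T (e (Sum.inl i0)) t)
  (hB2 : ∀ t, Bm (mx K (false, t)) = T (e (Sum.inr i0)) (-t))

include hB1 hB2

lemma B_conj1 (h01 : i0 ≠ i1) :
    (emb (wW h01.symm) : SpG) * Bm (MW 1) * (emb (wW h01.symm))⁻¹ = (modelD K n).wL (Sum.inl i1) 1 := by
  have := conj_wL hB1 hB2 (i0 := i0) (mono_wW h01.symm) (fun k => by split_ifs <;> ring) (1 : K)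
  rw [B_MW hB1 hB2, this, Equiv.swap_apply_right]

lemma conj_mx1 (h01 : i0 ≠ i1) :
    (emb (wW h01.symm) : SpG) * Bm (mx K (true, 1)) * (emb (wW h01.symm))⁻¹ = (modelD K n).L (Sum.inl i1) 1 := by
  have := conj_L_inl hB1 hB2 (i0 := i0) (mono_wW h01.symm) (fun k => by split_ifs <;> ring) (1 : K)
  rw [hB1]
  change (emb (wW h01.symm) : SpG) * (modelD K n).L (Sum.inl i0) 1 * (emb (wW h01.symm))⁻¹ = _
  rw [this, Equiv.swap_apply_right]

end Conj1

/-- The model configuration. -/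
noncomputable def mC {i0 i1 : Fin n} {Bm : SLT K →* Matrix.symplecticGroup (Fin n) K}
    (hB1 : ∀ t, Bm (mx K (true, t)) = T (e (Sum.inl i0)) t)
    (hB2 : ∀ t, Bm (mx K (false, t)) = T (e (Sum.inr i0)) (-t))
    (h01 : i0 ≠ i1) (hall : ∀ x : Ix n, ∃ b, Sh x b) {ζ : K} (ζ0 : ζ ≠ 0)
    (gen : ∀ t : K, t ≠ 0 → ∃ k : ℕ, t = ζ ^ k) (agen : AddGen ζ) :
    Cfg n K (Matrix.symplecticGroup (Fin n) K) where
  A := emb
  B := Bm
  i0 := i0
  i1 := i1
  h01 := h01
  ζ := ζ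
  ζ0 := ζ0
  gen := gen
  agen := agen
  rZ1 := by
    have := mono_conj hB1 hB2 (mono_dn h01 ζ ζ0) (i0 := i0) rfl (mx K (true, 1))
    simp only [if_true] at this
    rw [this, Ad, map_mul, map_mul, map_inv]
  rZ2 := by
    have := mono_conj hB1 hB2 (mono_dn h01 ζ ζ0) (i0 := i0) rfl (MW 1)
    simp only [if_true] at this
    rw [this, Ad, map_mul, map_mul, map_inv]
  rZ3 := by
    have := mono_conj hB1 hB2 (mono_dn h01 ζ ζ0) (i0 := i0) rfl (MD ζ)
    simp only [if_true] at this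
    rw [Ad_MD ζ0 ζ0, mul_inv_eq_iff_eq_mul] at this
    exact this
  rSub g hg := ⟨blk_conj hB1 hB2 hg _, blk_conj hB1 hB2 hg _⟩
  rK g' _ g _ := comm_Bi hB1 hB2 (mono_wW h01.symm)
    (fun k => by split_ifs <;> ring) (by simpa using h01.symm) g g'
  rS := by
    rw [emb_tv, hB1]
    exact (modelD K n).commXL (a := Sum.inl i0) (b := Sum.inr i1) (c := Sum.inl i0)
      ⟨by simp, by simpa using h01.symm⟩ (by simp) (by simpa using h01) 1 1
  rW := by
    rw [B_conj1 hB1 hB2 h01, B_MW hB1 hB2, emb_tv, emb_tv]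
    exact rW_model hall h01
  rD := by
    rw [conj_mx1 hB1 hB2 h01, B_MW hB1 hB2, emb_tv, emb_tv, hB1]
    exact rD_model hall h01
  rC := by
    rw [B_MW hB1 hB2, emb_tv, emb_tv, hB1]
    exact rC_model hall h01
  rH1 := by
    rw [emb_tv, emb_tv, B_MD hB1 hB2]
    have := dX2 hall h01 ζ0 (1 : K)
    rw [mul_one] at this
    exact this
  rH2 := by
    rw [emb_tv, emb_tv, B_MD hB1 hB2]
    have := dX3 hall h01.symm ζ0 (1 : K)
    rw [mul_one] at this
    exact this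

section ModelRoots

variable {i0 i1 : Fin n} {Bm : SLT K →* Matrix.symplecticGroup (Fin n) K}
  (hB1 : ∀ t, Bm (mx K (true, t)) = T (e (Sum.inl i0)) t)
  (hB2 : ∀ t, Bm (mx K (false, t)) = T (e (Sum.inr i0)) (-t))
  (h01 : i0 ≠ i1) (hall : ∀ x : Ix n, ∃ b, Sh x b) {ζ : K} (ζ0 : ζ ≠ 0)
  (gen : ∀ t : K, t ≠ 0 → ∃ k : ℕ, t = ζ ^ k) (agen : AddGen ζ)

lemma model_LF (a : Ix n) (t : K) : (mC hB1 hB2 h01 hall ζ0 gen agen).LF a t = T (e a) t := by
  rcases a with i | i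
  · obtain ⟨c, M, hc⟩ := (mC hB1 hB2 h01 hall ζ0 gen agen).mono_mm i
    have M' : Mono ((mC hB1 hB2 h01 hall ζ0 gen agen).mm i) (Equiv.swap i i0) c := M
    change (emb _ : SpG) * Bm (mx K (true, t)) * (emb _)⁻¹ = _
    have h := conj_L_inl hB1 hB2 (i0 := i0) M' hc t
    rw [hB1]
    change (emb _ : SpG) * T (e (Sum.inl i0)) t * (emb _)⁻¹ = _ at h
    rw [h, Equiv.swap_apply_right]
    rfl
  · obtain ⟨c, M, hc⟩ := (mC hB1 hB2 h01 hall ζ0 gen agen).mono_mm i
    have M' : Mono ((mC hB1 hB2 h01 hall ζ0 gen agen).mm i) (Equiv.swap i i0) c := M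
    change (emb _ : SpG) * Bm (mx K (false, -t)) * (emb _)⁻¹ = _
    have h := conj_L_inr hB1 hB2 (i0 := i0) M' hc t
    rw [hB2, neg_neg]
    change (emb _ : SpG) * T (e (Sum.inr i0)) t * (emb _)⁻¹ = _ at h
    rw [h, Equiv.swap_apply_right]
    rfl

lemma model_tau (j : Fin n) : (mC hB1 hB2 h01 hall ζ0 gen agen).tau j = (modelD K n).wL (Sum.inl j) 1 := by
  obtain ⟨c, M, hc⟩ := (mC hB1 hB2 h01 hall ζ0 gen agen).mono_mm j
  have M' : Mono ((mC hB1 hB2 h01 hall ζ0 gen agen).mm j) (Equiv.swap j i0) c := M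
  have h := conj_wL hB1 hB2 (i0 := i0) M' hc (1 : K)
  change (emb _ : SpG) * Bm (MW 1) * (emb _)⁻¹ = _
  rw [B_MW hB1 hB2, h, Equiv.swap_apply_right]

lemma model_xx {i j : Fin n} (h : i ≠ j) (t : K) :
    (mC hB1 hB2 h01 hall ζ0 gen agen).xx i j t = (modelD K n).X (Sum.inl i) (Sum.inr j) t := by
  rw [Cfg.xx_of _ h]
  exact emb_tv h t

lemma model_XF {a b : Ix n} (S : Sh a b) (t : K) :
    (mC hB1 hB2 h01 hall ζ0 gen agen).XF a b t = Cfsg.Agent.Lib.SpRoot.B (e a) (e b) t := by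
  rcases a with i | i <;> rcases b with j | j
  · have hij : i ≠ j := fun e => S.1 (by rw [e])
    change (mC hB1 hB2 h01 hall ζ0 gen agen).tau j * (mC hB1 hB2 h01 hall ζ0 gen agen).xx i j (-t) *
      ((mC hB1 hB2 h01 hall ζ0 gen agen).tau j)⁻¹ = _
    rw [model_tau, model_xx hB1 hB2 h01 hall ζ0 gen agen hij, wX1 hall hij, neg_neg]
    rfl
  · have hij : i ≠ j := fun e => S.2 (by rw [e]; rfl)
    exact model_xx hB1 hB2 h01 hall ζ0 gen agen hij t
  · have hij : j ≠ i := fun e => S.2 (by rw [e]; rfl)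
    change (mC hB1 hB2 h01 hall ζ0 gen agen).xx j i t = _
    rw [model_xx hB1 hB2 h01 hall ζ0 gen agen hij]
    exact (modelD K n).Xsym S.symm t
  · have hij : i ≠ j := fun e => S.1 (by rw [e])
    change (mC hB1 hB2 h01 hall ζ0 gen agen).tau i * (mC hB1 hB2 h01 hall ζ0 gen agen).xx i j t *
      ((mC hB1 hB2 h01 hall ζ0 gen agen).tau i)⁻¹ = _
    rw [model_tau, model_xx hB1 hB2 h01 hall ζ0 gen agen hij, wX2 hall hij]
    rfl

end ModelRoots

end Cfsg.Agent.Lib.PrsSp
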