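import Mathlib
import Cfsg.Agent.Lib.PrsSpG

/-!
# Presentations of symplectic groups: the assembly
-/

set_option autoImplicit false
set_option linter.unusedSectionVars false

namespace Cfsg.Agent.Lib.PrsSp

open Matrix
open Cfsg.Agent.Lib.St2 (mx mx_true mx_false mx_add mx_surj)
open Cfsg.Agent.Lib.StN (MW MD coe_MW coe_MD I4 I5)
open Cfsg.Agent.Lib.SpN (Ix Sh sw_sw sw_ne sw_inj sw_ne_sw ne_sw_symm modelD hall_of ω_ee0 T_comm_T roots_top)
open Cfsg.Agent.Lib.SpRoot (sg sg_swap sg_mul_self sg_ne_zero e e_apply coe_apply_eq B_coe B_conj B_smul_vec)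
open Cfsg.Agent.Lib.SpBasic (T T_conj T_smul_vec Sp_ext)

section Cross

variable {n : ℕ} {K Γ Γ' : Type*} [Field K] [Group Γ] [Group Γ']

/-- The equations linking the two subgroups. -/
def crossE (i0 i1 : Fin n) (h01 : i0 ≠ i1) (ζ : K) (ζ0 : ζ ≠ 0) (a : SLN n K → Γ) (b : SLT K → Γ) :
    List (Γ × Γ) :=
  [ (b (MD ζ) * b (mx K (true, 1)) * (b (MD ζ))⁻¹, a (dn h01 ζ ζ0) * b (mx K (true, 1)) * (a (dn h01 ζ ζ0))⁻¹),
    (b (MD ζ) * b (MW 1) * (b (MD ζ))⁻¹, a (dn h01 ζ ζ0) * b (MW 1) * (a (dn h01 ζ ζ0))⁻¹),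
    (a (dn h01 ζ ζ0) * b (MD ζ), b (MD ζ) * a (dn h01 ζ ζ0)),
    (a (wW h01.symm) * b (mx K (true, 1)) * (a (wW h01.symm))⁻¹ * b (mx K (true, 1)),
      b (mx K (true, 1)) * (a (wW h01.symm) * b (mx K (true, 1)) * (a (wW h01.symm))⁻¹)),
    (a (wW h01.symm) * b (mx K (true, 1)) * (a (wW h01.symm))⁻¹ * b (MW 1),
      b (MW 1) * (a (wW h01.symm) * b (mx K (true, 1)) * (a (wW h01.symm))⁻¹)),
    (a (wW h01.symm) * b (mx K (true, 1)) * (a (wW h01.symm))⁻¹ * b (MD ζ),
      b (MD ζ) * (a (wW h01.symm) * b (mx K (true, 1)) * (a (wW h01.symm))⁻¹)),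
    (a (wW h01.symm) * b (MW 1) * (a (wW h01.symm))⁻¹ * b (mx K (true, 1)),
      b (mx K (true, 1)) * (a (wW h01.symm) * b (MW 1) * (a (wW h01.symm))⁻¹)),
    (a (wW h01.symm) * b (MW 1) * (a (wW h01.symm))⁻¹ * b (MW 1),
      b (MW 1) * (a (wW h01.symm) * b (MW 1) * (a (wW h01.symm))⁻¹)),
    (a (wW h01.symm) * b (MW 1) * (a (wW h01.symm))⁻¹ * b (MD ζ),
      b (MD ζ) * (a (wW h01.symm) * b (MW 1) * (a (wW h01.symm))⁻¹)),
    (a (SpecialLinearGroup.transvection h01 1) * b (mx K (true, 1)),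
      b (mx K (true, 1)) * a (SpecialLinearGroup.transvection h01 1)),
    ((b (MW 1) * (a (wW h01.symm) * b (MW 1) * (a (wW h01.symm))⁻¹)) *
      a (SpecialLinearGroup.transvection h01 1) *
      (b (MW 1) * (a (wW h01.symm) * b (MW 1) * (a (wW h01.symm))⁻¹))⁻¹,
      a (SpecialLinearGroup.transvection h01.symm (-1))),
    (a (SpecialLinearGroup.transvection h01 1) * (a (wW h01.symm) * b (mx K (true, 1)) * (a (wW h01.symm))⁻¹) *
      (a (SpecialLinearGroup.transvection h01 1))⁻¹,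
      (a (wW h01.symm) * b (mx K (true, 1)) * (a (wW h01.symm))⁻¹) *
      (b (MW 1) * a (SpecialLinearGroup.transvection h01.symm (-1)) * (b (MW 1))⁻¹) * b (mx K (true, 1))),
    (a (SpecialLinearGroup.transvection h01 1) *
      (b (MW 1) * a (SpecialLinearGroup.transvection h01.symm (-1)) * (b (MW 1))⁻¹) *
      (a (SpecialLinearGroup.transvection h01 1))⁻¹,
      (b (MW 1) * a (SpecialLinearGroup.transvection h01.symm (-1)) * (b (MW 1))⁻¹) * b (mx K (true, 2))),
    (b (MD ζ) * a (SpecialLinearGroup.transvection h01 1) * (b (MD ζ))⁻¹,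
      a (SpecialLinearGroup.transvection h01 ζ)),
    (b (MD ζ) * a (SpecialLinearGroup.transvection h01.symm 1) * (b (MD ζ))⁻¹,
      a (SpecialLinearGroup.transvection h01.symm ζ⁻¹)) ]

lemma crossE_length (i0 i1 : Fin n) (h01 : i0 ≠ i1) (ζ : K) (ζ0 : ζ ≠ 0) (a : SLN n K → Γ) (b : SLT K → Γ) :
    (crossE i0 i1 h01 ζ ζ0 a b).length = 15 := rfl

lemma crossE_map (f : Γ →* Γ') (i0 i1 : Fin n) (h01 : i0 ≠ i1) (ζ : K) (ζ0 : ζ ≠ 0) (a : SLN n K → Γ)
    (b : SLT K → Γ) :
    (crossE i0 i1 h01 ζ ζ0 a b).map (Prod.map f f) = crossE i0 i1 h01 ζ ζ0 (fun g => f (a g)) (fun g => f (b g)) := by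
  simp only [crossE, List.map_cons, List.map_nil, Prod.map_apply, map_mul, map_inv]

/-- The equations for the block subgroup. -/
def subE (S : List (SLN n K)) (a : SLN n K → Γ) (b : SLT K → Γ) : List (Γ × Γ) :=
  S.flatMap fun s => [(a s * b (mx K (true, 1)), b (mx K (true, 1)) * a s), (a s * b (MW 1), b (MW 1) * a s)]

lemma subE_length (S : List (SLN n K)) (a : SLN n K → Γ) (b : SLT K → Γ) :
    (subE S a b).length = 2 * S.length := by
  induction S with
  | nil => rfl
  | cons s S ih =>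
    rw [subE, List.flatMap_cons, List.length_append, ← subE, ih, List.length_cons]
    simp only [List.length_cons, List.length_nil]
    ring

lemma subE_cons (s : SLN n K) (S : List (SLN n K)) (a : SLN n K → Γ) (b : SLT K → Γ) :
    subE (s :: S) a b = [(a s * b (mx K (true, 1)), b (mx K (true, 1)) * a s), (a s * b (MW 1), b (MW 1) * a s)] ++
      subE S a b := by
  rw [subE, List.flatMap_cons, subE]

lemma subE_map (f : Γ →* Γ') (S : List (SLN n K)) (a : SLN n K → Γ) (b : SLT K → Γ) :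
    (subE S a b).map (Prod.map f f) = subE S (fun g => f (a g)) (fun g => f (b g)) := by
  induction S with
  | nil => rfl
  | cons s S ih =>
    rw [subE_cons, subE_cons, List.map_append, ih]
    simp only [List.map_cons, List.map_nil, Prod.map_apply, map_mul]

lemma subE_holds {S : List (SLN n K)} {a : SLN n K → Γ} {b : SLT K → Γ}
    (h : ∀ p ∈ subE S a b, p.1 = p.2) (s : SLN n K) (hs : s ∈ S) :
    a s * b (mx K (true, 1)) = b (mx K (true, 1)) * a s ∧ a s * b (MW 1) = b (MW 1) * a s := by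
  constructor
  · exact h (a s * b (mx K (true, 1)), b (mx K (true, 1)) * a s)
      (List.mem_flatMap.2 ⟨s, hs, by simp⟩)
  · exact h (a s * b (MW 1), b (MW 1) * a s)
      (List.mem_flatMap.2 ⟨s, hs, by simp⟩)

/-- A configuration from the equations. -/
def Cfg.ofCross (A : SLN n K →* Γ) (B : SLT K →* Γ) (i0 i1 : Fin n) (h01 : i0 ≠ i1) (ζ : K) (ζ0 : ζ ≠ 0)
    (gen : ∀ t : K, t ≠ 0 → ∃ k : ℕ, t = ζ ^ k) (agen : AddGen ζ)
    (S : List (SLN n K)) (hS : ∀ g, IsBlk i0 g → g ∈ Subgroup.closure {s | s ∈ S})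
    (h1 : ∀ p ∈ crossE i0 i1 h01 ζ ζ0 (fun g => A g) (fun g => B g), p.1 = p.2)
    (h2 : ∀ p ∈ subE S (fun g => A g) (fun g => B g), p.1 = p.2) : Cfg n K Γ :=
  have H := h1
  { A := A
    B := B
    i0 := i0
    i1 := i1
    h01 := h01
    ζ := ζ
    ζ0 := ζ0
    gen := gen
    agen := agen
    rZ1 := by
      simp only [crossE, List.forall_mem_cons] at H
      exact H.1
    rZ2 := by
      simp only [crossE, List.forall_mem_cons] at H
      exact H.2.1
    rZ3 := by
      simp only [crossE, List.forall_mem_cons] at H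
      exact H.2.2.1
    rSub := by
      intro g hg
      have hS' : ∀ x : SLT K, (∀ s ∈ S, Commute (A s) (B x)) → Commute (A g) (B x) := by
        intro x hx
        have hmem : g ∈ (Subgroup.centralizer {B x}).comap A := by
          refine (Subgroup.closure_le _).2 ?_ (hS g hg)
          intro s hs
          rw [SetLike.mem_coe, Subgroup.mem_comap, Subgroup.mem_centralizer_singleton_iff]
          exact (hx s hs)
        rw [Subgroup.mem_comap, Subgroup.mem_centralizer_singleton_iff] at hmem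
        exact hmem
      exact ⟨hS' _ fun s hs => (subE_holds h2 s hs).1, hS' _ fun s hs => (subE_holds h2 s hs).2⟩
    rK := by
      simp only [crossE, List.forall_mem_cons] at H
      obtain ⟨-, -, -, h4, h5, h6, h7, h8, h9, -⟩ := H
      rintro g' (rfl | rfl) g (rfl | rfl | rfl)
      · exact h4
      · exact h5
      · exact h6
      · exact h7
      · exact h8
      · exact h9
    rS := by
      simp only [crossE, List.forall_mem_cons] at H
      exact H.2.2.2.2.2.2.2.2.2.1
    rW := by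
      simp only [crossE, List.forall_mem_cons] at H
      exact H.2.2.2.2.2.2.2.2.2.2.1
    rD := by
      simp only [crossE, List.forall_mem_cons] at H
      exact H.2.2.2.2.2.2.2.2.2.2.2.1
    rC := by
      simp only [crossE, List.forall_mem_cons] at H
      exact H.2.2.2.2.2.2.2.2.2.2.2.2.1
    rH1 := by
      simp only [crossE, List.forall_mem_cons] at H
      exact H.2.2.2.2.2.2.2.2.2.2.2.2.2.1
    rH2 := by
      simp only [crossE, List.forall_mem_cons] at H
      exact H.2.2.2.2.2.2.2.2.2.2.2.2.2.2.1 }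

lemma Cfg.crossE_holds (C : Cfg n K Γ) :
    ∀ p ∈ crossE C.i0 C.i1 C.h01 C.ζ C.ζ0 (fun g => C.A g) (fun g => C.B g), p.1 = p.2 := by
  simp only [crossE, List.forall_mem_cons]
  refine ⟨C.rZ1, C.rZ2, C.rZ3, C.rK _ (by simp) _ (by simp), C.rK _ (by simp) _ (by simp), C.rK _ (by simp) _ (by simp),
    C.rK _ (by simp) _ (by simp), C.rK _ (by simp) _ (by simp), C.rK _ (by simp) _ (by simp), C.rS, C.rW, C.rD, C.rC,
    C.rH1, C.rH2, ?_⟩
  simp

/-- Membership of the root elements in a subgroup containing the images. -/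
lemma Cfg.LF_mem (C : Cfg n K Γ) (G₀ : Subgroup Γ) (hA : ∀ g, C.A g ∈ G₀) (hB : ∀ x, C.B x ∈ G₀)
    (a : Ix n) (t : K) : C.LF a t ∈ G₀ := by
  rcases a with i | i
  · exact mul_mem (mul_mem (hA _) (hB _)) (inv_mem (hA _))
  · exact mul_mem (mul_mem (hA _) (hB _)) (inv_mem (hA _))

lemma Cfg.tau_mem (C : Cfg n K Γ) (G₀ : Subgroup Γ) (hA : ∀ g, C.A g ∈ G₀) (hB : ∀ x, C.B x ∈ G₀) (i : Fin n) :
    C.tau i ∈ G₀ := mul_mem (mul_mem (hA _) (hB _)) (inv_mem (hA _))

lemma Cfg.xx_mem (C : Cfg n K Γ) (G₀ : Subgroup Γ) (hA : ∀ g, C.A g ∈ G₀) (i j : Fin n) (t : K) :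
    C.xx i j t ∈ G₀ := by
  by_cases h : i = j
  · subst h
    rw [C.xx_self]
    exact one_mem _
  · rw [C.xx_of h]
    exact hA _

lemma Cfg.XF_mem (C : Cfg n K Γ) (G₀ : Subgroup Γ) (hA : ∀ g, C.A g ∈ G₀) (hB : ∀ x, C.B x ∈ G₀)
    (a b : Ix n) (t : K) : C.XF a b t ∈ G₀ := by
  rcases a with i | i <;> rcases b with j | j
  · exact mul_mem (mul_mem (C.tau_mem G₀ hA hB _) (C.xx_mem G₀ hA _ _ _)) (inv_mem (C.tau_mem G₀ hA hB _))
  · exact C.xx_mem G₀ hA _ _ _
  · exact C.xx_mem G₀ hA _ _ _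
  · exact mul_mem (mul_mem (C.tau_mem G₀ hA hB _) (C.xx_mem G₀ hA _ _ _)) (inv_mem (C.tau_mem G₀ hA hB _))

end Cross

section PresHelpers

variable {α β H Γ : Type*} [Group H] [Group Γ]

lemma lift_map_pres (R : Set (FreeGroup α)) (e : PresentedGroup R ≃* H) (E : H →* Γ) (ι : α → β) (f : β → Γ)
    (hf : ∀ i, f (ι i) = E (e (PresentedGroup.of i))) (w : FreeGroup α) :
    FreeGroup.lift f (FreeGroup.map ι w) = E (e (PresentedGroup.mk R w)) := by
  have h : (FreeGroup.lift f).comp (FreeGroup.map ι) =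
      (E.comp e.toMonoidHom).comp (PresentedGroup.mk R) := by
    ext i
    simpa [PresentedGroup.of] using hf i
  exact DFunLike.congr_fun h w

lemma exists_hom_of_pres (R : Set (FreeGroup α)) (e : PresentedGroup R ≃* H) (ι : α → β)
    (q : FreeGroup β →* Γ) (hq : ∀ r ∈ R, q (FreeGroup.map ι r) = 1) :
    ∃ A : H →* Γ, ∀ w, A (e (PresentedGroup.mk R w)) = q (FreeGroup.map ι w) := by
  have hlift : ∀ w, FreeGroup.lift (fun i => q (FreeGroup.of (ι i))) w = q (FreeGroup.map ι w) := by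
    intro w
    have h : FreeGroup.lift (fun i => q (FreeGroup.of (ι i))) = q.comp (FreeGroup.map ι) := by
      ext i
      simp
    exact DFunLike.congr_fun h w
  have hr : ∀ r ∈ R, FreeGroup.lift (fun i => q (FreeGroup.of (ι i))) r = 1 := by
    intro r hr
    rw [hlift, hq r hr]
  refine ⟨(PresentedGroup.toGroup hr).comp e.symm.toMonoidHom, fun w => ?_⟩
  rw [MonoidHom.comp_apply]
  change PresentedGroup.toGroup hr (e.symm (e (PresentedGroup.mk R w))) = _
  rw [MulEquiv.symm_apply_apply, ← hlift]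
  rfl

lemma holds_of_map (q : Γ →* H) (L : List (Γ × Γ)) (h : ∀ p ∈ L, q (p.1 * p.2⁻¹) = 1) :
    ∀ p ∈ L.map (Prod.map q q), p.1 = p.2 := by
  intro p hp
  obtain ⟨p₀, hp₀, rfl⟩ := List.mem_map.1 hp
  have := h p₀ hp₀
  rw [map_mul, map_inv, mul_inv_eq_one] at this
  exact this

end PresHelpers

section Assemble

variable {n k l : ℕ} {K : Type*} [Field K]

theorem assemble [Finite K] (h2 : 2 ≤ n) {i0 i1 : Fin n} (h01 : i0 ≠ i1)
    (RA : Finset (FreeGroup (Fin k))) (eA : PresentedGroup (RA : Set (FreeGroup (Fin k))) ≃* SLN n K)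
    (RB : Finset (FreeGroup (Fin l))) (eB : PresentedGroup (RB : Set (FreeGroup (Fin l))) ≃* SLT K)
    (S : List (SLN n K)) (hS1 : ∀ s ∈ S, IsBlk i0 s)
    (hS2 : ∀ g, IsBlk i0 g → g ∈ Subgroup.closure {s | s ∈ S}) :
    ∃ rels : Finset (FreeGroup (Fin k ⊕ Fin l)), rels.card ≤ RA.card + RB.card + (15 + 2 * S.length) ∧
      Nonempty (PresentedGroup (rels : Set (FreeGroup (Fin k ⊕ Fin l))) ≃* Matrix.symplecticGroup (Fin n) K) := by
  classical
  obtain ⟨ζ, ζ0, gen, agen⟩ := exists_zeta (K := K)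
  have hall : ∀ x : Ix n, ∃ b, Sh x b := hall_of h2
  obtain ⟨Bm, hB1, hB2', -, -⟩ := (modelD K n).exists_psiL hall (Sum.inl i0)
  have hB2 : ∀ t, Bm (mx K (false, t)) = T (e (Sum.inr i0)) (-t) := hB2'
  have hB1' : ∀ t, Bm (mx K (true, t)) = T (e (Sum.inl i0)) t := hB1
  let M : Cfg n K (Matrix.symplecticGroup (Fin n) K) := mC hB1' hB2 h01 hall ζ0 gen agen
  let ιA : FreeGroup (Fin k) →* FreeGroup (Fin k ⊕ Fin l) := FreeGroup.map Sum.inl
  let ιB : FreeGroup (Fin l) →* FreeGroup (Fin k ⊕ Fin l) := FreeGroup.map Sum.inr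
  choose wa hwa using fun g : SLN n K => PresentedGroup.mk_surjective (RA : Set (FreeGroup (Fin k))) (eA.symm g)
  choose wb hwb using fun g : SLT K => PresentedGroup.mk_surjective (RB : Set (FreeGroup (Fin l))) (eB.symm g)
  let a : SLN n K → FreeGroup (Fin k ⊕ Fin l) := fun g => ιA (wa g)
  let b : SLT K → FreeGroup (Fin k ⊕ Fin l) := fun g => ιB (wb g)
  let eqs := crossE i0 i1 h01 ζ ζ0 a b ++ subE S a b
  let rels : Finset (FreeGroup (Fin k ⊕ Fin l)) :=
    RA.image ιA ∪ RB.image ιB ∪ (eqs.map fun p => p.1 * p.2⁻¹).toFinset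
  refine ⟨rels, ?_, ?_⟩
  · refine (Finset.card_union_le _ _).trans (add_le_add ((Finset.card_union_le _ _).trans
      (add_le_add Finset.card_image_le Finset.card_image_le)) ((List.toFinset_card_le _).trans ?_))
    simp only [eqs, List.length_map, List.length_append, crossE_length, subE_length, le_refl]
  let q : FreeGroup (Fin k ⊕ Fin l) →* PresentedGroup (rels : Set (FreeGroup (Fin k ⊕ Fin l))) :=
    PresentedGroup.mk (rels : Set (FreeGroup (Fin k ⊕ Fin l)))
  have hq : ∀ r ∈ rels, q r = 1 := fun r hr => PresentedGroup.one_of_mem (by exact_mod_cast hr)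
  obtain ⟨AP, hAP⟩ := exists_hom_of_pres (RA : Set (FreeGroup (Fin k))) eA Sum.inl q (fun r hr => hq _ (by
    simp only [rels, Finset.mem_union, Finset.mem_image]
    exact Or.inl (Or.inl ⟨r, by exact_mod_cast hr, rfl⟩)))
  obtain ⟨BP, hBP⟩ := exists_hom_of_pres (RB : Set (FreeGroup (Fin l))) eB Sum.inr q (fun r hr => hq _ (by
    simp only [rels, Finset.mem_union, Finset.mem_image]
    exact Or.inl (Or.inr ⟨r, by exact_mod_cast hr, rfl⟩)))
  have hAa : ∀ g, AP g = q (a g) := by
    intro g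
    have := hAP (wa g)
    rw [hwa, MulEquiv.apply_symm_apply] at this
    exact this
  have hBb : ∀ g, BP g = q (b g) := by
    intro g
    have := hBP (wb g)
    rw [hwb, MulEquiv.apply_symm_apply] at this
    exact this
  have hE : ∀ p ∈ eqs, q (p.1 * p.2⁻¹) = 1 := fun p hp => hq _ (by
    simp only [rels, Finset.mem_union, List.mem_toFinset, List.mem_map]
    exact Or.inr ⟨p, hp, rfl⟩)
  have h1 : ∀ p ∈ crossE i0 i1 h01 ζ ζ0 (fun g => AP g) (fun g => BP g), p.1 = p.2 := by
    have e1 : (fun g => AP g) = fun g => q (a g) := funext hAa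
    have e2 : (fun g => BP g) = fun g => q (b g) := funext hBb
    rw [e1, e2, ← crossE_map]
    exact holds_of_map q _ fun p hp => hE p (List.mem_append_left _ hp)
  have h2' : ∀ p ∈ subE S (fun g => AP g) (fun g => BP g), p.1 = p.2 := by
    have e1 : (fun g => AP g) = fun g => q (a g) := funext hAa
    have e2 : (fun g => BP g) = fun g => q (b g) := funext hBb
    rw [e1, e2, ← subE_map]
    exact holds_of_map q _ fun p hp => hE p (List.mem_append_right _ hp)
  let CP : Cfg n K (PresentedGroup (rels : Set (FreeGroup (Fin k ⊕ Fin l)))) :=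
    Cfg.ofCross AP BP i0 i1 h01 ζ ζ0 gen agen S hS2 h1 h2'
  obtain ⟨ψ, hψL, hψX⟩ := CP.exists_hom
  let f : Fin k ⊕ Fin l → Matrix.symplecticGroup (Fin n) K :=
    Sum.elim (fun i => emb (eA (PresentedGroup.of i))) (fun j => Bm (eB (PresentedGroup.of j)))
  have hfA : ∀ w, FreeGroup.lift f (ιA w) = emb (eA (PresentedGroup.mk _ w)) :=
    lift_map_pres _ eA emb Sum.inl f (fun i => rfl)
  have hfB : ∀ w, FreeGroup.lift f (ιB w) = Bm (eB (PresentedGroup.mk _ w)) :=
    lift_map_pres _ eB Bm Sum.inr f (fun i => rfl)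
  have hfa : ∀ g, FreeGroup.lift f (a g) = emb g := by
    intro g
    rw [hfA, hwa, MulEquiv.apply_symm_apply]
  have hfb : ∀ g, FreeGroup.lift f (b g) = Bm g := by
    intro g
    rw [hfB, hwb, MulEquiv.apply_symm_apply]
  have hrel : ∀ r ∈ (rels : Set (FreeGroup (Fin k ⊕ Fin l))), FreeGroup.lift f r = 1 := by
    intro r hr
    have hr' : r ∈ rels := by exact_mod_cast hr
    simp only [rels, Finset.mem_union, Finset.mem_image, List.mem_toFinset, List.mem_map] at hr'
    rcases hr' with (⟨w, hw, rfl⟩ | ⟨w, hw, rfl⟩) | ⟨p, hp, rfl⟩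
    · rw [hfA, PresentedGroup.one_of_mem (by exact_mod_cast hw), map_one, map_one]
    · rw [hfB, PresentedGroup.one_of_mem (by exact_mod_cast hw), map_one, map_one]
    · rw [map_mul, map_inv, mul_inv_eq_one]
      rcases List.mem_append.1 hp with hp | hp
      · have hp' := List.mem_map_of_mem (f := Prod.map (FreeGroup.lift f) (FreeGroup.lift f)) hp
        rw [crossE_map, funext hfa, funext hfb] at hp'
        exact M.crossE_holds _ hp'
      · have hp' := List.mem_map_of_mem (f := Prod.map (FreeGroup.lift f) (FreeGroup.lift f)) hp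
        rw [subE_map, funext hfa, funext hfb] at hp'
        obtain ⟨s, hs, hp''⟩ := List.mem_flatMap.1 hp'
        have hc := fun x => blk_conj hB1' hB2 (hS1 s hs) x
        simp only [List.mem_cons, List.not_mem_nil, or_false] at hp''
        rcases hp'' with hp'' | hp''
        · have := congrArg Prod.fst hp''
          have h4 := congrArg Prod.snd hp''
          simp only [Prod.map_fst, Prod.map_snd] at this h4
          rw [this, h4]
          exact hc _
        · have := congrArg Prod.fst hp''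
          have h4 := congrArg Prod.snd hp''
          simp only [Prod.map_fst, Prod.map_snd] at this h4
          rw [this, h4]
          exact hc _
  let φ := PresentedGroup.toGroup hrel
  have hφq : ∀ w, φ (q w) = FreeGroup.lift f w := fun w => rfl
  have hφA : ∀ g, φ (AP g) = emb g := fun g => by rw [hAa, hφq, hfa]
  have hφB : ∀ g, φ (BP g) = Bm g := fun g => by rw [hBb, hφq, hfb]
  have hψA : ∀ g, ψ (emb g) = AP g := by
    have hS : (ψ.comp emb).eqLocus AP = ⊤ := by
      apply Cfsg.Agent.Lib.SLGen.eq_top_of_forall_transvection_mem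
      intro i j hij t
      change ψ (emb (SpecialLinearGroup.transvection hij t)) = AP _
      rw [emb_tv, hψX _ _ _ ⟨by simp, by simpa using hij.symm⟩]
      change CP.xx i j t = _
      rw [CP.xx_of hij]
      rfl
    intro g
    have : g ∈ (ψ.comp emb).eqLocus AP := by
      rw [hS]
      exact Subgroup.mem_top g
    exact this
  have hψB : ∀ g, ψ (Bm g) = BP g := by
    have hS : (ψ.comp Bm).eqLocus BP = ⊤ := by
      apply sl2_mx_top
      rintro (_ | _) t
      · change ψ (Bm (mx K (false, t))) = BP _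
        rw [hB2, hψL]
        change CP.Bi CP.i0 (mx K (false, - -t)) = _
        rw [CP.Bi_i0, neg_neg]
        rfl
      · change ψ (Bm (mx K (true, t))) = BP _
        rw [hB1', hψL]
        change CP.Bi CP.i0 (mx K (true, t)) = _
        rw [CP.Bi_i0]
        rfl
    intro g
    have : g ∈ (ψ.comp Bm).eqLocus BP := by
      rw [hS]
      exact Subgroup.mem_top g
    exact this
  have hψφ : ψ.comp φ = MonoidHom.id _ := by
    apply PresentedGroup.ext
    rintro (i | j)
    · change ψ (φ (PresentedGroup.of (Sum.inl i))) = PresentedGroup.of (Sum.inl i)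
      have e1 : φ (PresentedGroup.of (Sum.inl i)) = emb (eA (PresentedGroup.of i)) := PresentedGroup.toGroup.of hrel
      rw [e1, hψA]
      exact (hAP (FreeGroup.of i)).trans (by simp [q, PresentedGroup.of])
    · change ψ (φ (PresentedGroup.of (Sum.inr j))) = PresentedGroup.of (Sum.inr j)
      have e1 : φ (PresentedGroup.of (Sum.inr j)) = Bm (eB (PresentedGroup.of j)) := PresentedGroup.toGroup.of hrel
      rw [e1, hψB]
      exact (hBP (FreeGroup.of j)).trans (by simp [q, PresentedGroup.of])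
  have hsurj : φ.range = ⊤ := by
    have hA' : ∀ g, M.A g ∈ φ.range := fun g => ⟨AP g, hφA g⟩
    have hB' : ∀ x, M.B x ∈ φ.range := fun x => ⟨BP x, hφB x⟩
    apply roots_top
    · intro u v t hS
      rw [← model_XF hB1' hB2 h01 hall ζ0 gen agen hS t]
      exact M.XF_mem _ hA' hB' _ _ _
    · intro u t
      rw [← model_LF hB1' hB2 h01 hall ζ0 gen agen u t]
      exact M.LF_mem _ hA' hB' _ _
  refine ⟨MulEquiv.ofBijective φ ⟨?_, MonoidHom.range_eq_top.1 hsurj⟩⟩
  intro x y hxy
  have := congrArg ψ hxy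
  have e1 := DFunLike.congr_fun hψφ x
  have e2 := DFunLike.congr_fun hψφ y
  change ψ (φ x) = x at e1
  change ψ (φ y) = y at e2
  rw [← e1, ← e2]
  exact this

end Assemble

end Cfsg.Agent.Lib.PrsSp
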