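import Mathlib
import Cfsg.Agent.Lib.PrsSpH
import Cfsg.Agent.Lib.SpCenter
import Cfsg.Agent.Lib.PrsPSLTwo

/-!
# Presentations of symplectic groups: block generators and generic Tietze moves
-/

set_option autoImplicit false
set_option linter.unusedSectionVars false

namespace Cfsg.Agent.Lib.PrsSp

open Matrix

section Tietze

variable {α β H : Type*} [Group H]

lemma pres_reindex (e : α ≃ β) (R : Finset (FreeGroup α)) (E : PresentedGroup (R : Set (FreeGroup α)) ≃* H) :
    ∃ R' : Finset (FreeGroup β), R'.card ≤ R.card ∧ Nonempty (PresentedGroup (R' : Set (FreeGroup β)) ≃* H) := by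
  classical
  refine ⟨R.image (FreeGroup.freeGroupCongr e), Finset.card_image_le, ?_⟩
  rw [Finset.coe_image]
  exact ⟨(PresentedGroup.equivPresentedGroup _ e).symm.trans E⟩

lemma pres_pad (R : Finset (FreeGroup α)) (E : PresentedGroup (R : Set (FreeGroup α)) ≃* H) :
    ∃ R' : Finset (FreeGroup (Option α)), R'.card ≤ R.card + 1 ∧
      Nonempty (PresentedGroup (R' : Set (FreeGroup (Option α))) ≃* H) := by
  classical
  let R' : Finset (FreeGroup (Option α)) := insert (FreeGroup.of none) (R.image (FreeGroup.map some))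
  refine ⟨R', ?_, ?_⟩
  · refine (Finset.card_insert_le _ _).trans ?_
    exact Nat.add_le_add_right Finset.card_image_le 1
  let f : Option α → H := fun x => Option.elim x 1 (fun a => E (PresentedGroup.of a))
  have hf : ∀ w, FreeGroup.lift f (FreeGroup.map some w) = E (PresentedGroup.mk _ w) :=
    lift_map_pres _ E (MonoidHom.id H) some f (fun _ => rfl)
  have hrel : ∀ r ∈ (R' : Set (FreeGroup (Option α))), FreeGroup.lift f r = 1 := by
    intro r hr
    have hr' : r ∈ R' := by exact_mod_cast hr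
    simp only [R', Finset.mem_insert, Finset.mem_image] at hr'
    rcases hr' with rfl | ⟨w, hw, rfl⟩
    · simp [f]
    · rw [hf, PresentedGroup.one_of_mem (by exact_mod_cast hw), map_one]
  obtain ⟨ψ, hψ⟩ := exists_hom_of_pres (R : Set (FreeGroup α)) E some (PresentedGroup.mk (R' : Set (FreeGroup (Option α))))
    (fun r hr => PresentedGroup.one_of_mem (by
      have : FreeGroup.map some r ∈ R' := Finset.mem_insert_of_mem (Finset.mem_image_of_mem _ (by exact_mod_cast hr))
      exact_mod_cast this))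
  let φ := PresentedGroup.toGroup hrel
  refine ⟨MonoidHom.toMulEquiv φ ψ ?_ ?_⟩
  · apply PresentedGroup.ext
    rintro (_ | a)
    · have e1 : φ (PresentedGroup.of none) = 1 := PresentedGroup.toGroup.of hrel
      simp only [MonoidHom.comp_apply, MonoidHom.id_apply]
      rw [e1, map_one]
      refine (PresentedGroup.one_of_mem ?_).symm
      have : FreeGroup.of none ∈ R' := Finset.mem_insert_self _ _
      exact_mod_cast this
    · have e1 : φ (PresentedGroup.of (some a)) = E (PresentedGroup.of a) := PresentedGroup.toGroup.of hrel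
      simp only [MonoidHom.comp_apply, MonoidHom.id_apply]
      rw [e1]
      exact (hψ (FreeGroup.of a)).trans (by simp [PresentedGroup.of])
  · apply MonoidHom.ext
    intro x
    obtain ⟨w, hw⟩ := PresentedGroup.mk_surjective _ (E.symm x)
    have hx : x = E (PresentedGroup.mk _ w) := by rw [hw, MulEquiv.apply_symm_apply]
    simp only [MonoidHom.comp_apply, MonoidHom.id_apply]
    rw [hx, hψ]
    exact hf w

lemma pres_quot (R : Finset (FreeGroup α)) (E : PresentedGroup (R : Set (FreeGroup α)) ≃* H) (N : Subgroup H)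
    [N.Normal] (z : H) (hz : z ∈ N) (hN : ∀ c ∈ N, c = 1 ∨ c = z) :
    ∃ R' : Finset (FreeGroup α), R'.card ≤ R.card + 1 ∧
      Nonempty (PresentedGroup (R' : Set (FreeGroup α)) ≃* H ⧸ N) := by
  classical
  obtain ⟨W, hW⟩ := PresentedGroup.mk_surjective _ (E.symm z)
  have hW' : E (PresentedGroup.mk _ W) = z := by rw [hW, MulEquiv.apply_symm_apply]
  let R' : Finset (FreeGroup α) := insert W R
  refine ⟨R', Finset.card_insert_le _ _, ?_⟩
  let q : H →* H ⧸ N := QuotientGroup.mk' N
  let f : α → H ⧸ N := fun a => q (E (PresentedGroup.of a))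
  have hf : ∀ w, FreeGroup.lift f w = q (E (PresentedGroup.mk _ w)) := by
    intro w
    have := lift_map_pres (R : Set (FreeGroup α)) E q id f (fun _ => rfl) w
    rwa [FreeGroup.map.id] at this
  have hrel : ∀ r ∈ (R' : Set (FreeGroup α)), FreeGroup.lift f r = 1 := by
    intro r hr
    have hr' : r ∈ R' := by exact_mod_cast hr
    rw [hf]
    simp only [R', Finset.mem_insert] at hr'
    rcases hr' with rfl | hw
    · rw [hW']
      exact (QuotientGroup.eq_one_iff _).2 hz
    · rw [PresentedGroup.one_of_mem (by exact_mod_cast hw), map_one, map_one]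
  obtain ⟨ψ, hψ⟩ := exists_hom_of_pres (R : Set (FreeGroup α)) E id (PresentedGroup.mk (R' : Set (FreeGroup α)))
    (fun r hr => by
      rw [FreeGroup.map.id]
      exact PresentedGroup.one_of_mem (by
        have : r ∈ R' := Finset.mem_insert_of_mem (by exact_mod_cast hr)
        exact_mod_cast this))
  have hψ' : ∀ w, ψ (E (PresentedGroup.mk _ w)) = PresentedGroup.mk _ w := by
    intro w
    rw [hψ, FreeGroup.map.id]
  have hψN : ∀ c ∈ N, ψ c = 1 := by
    intro c hc
    rcases hN c hc with rfl | rfl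
    · exact map_one _
    · rw [← hW', hψ']
      exact PresentedGroup.one_of_mem (by
        have : W ∈ R' := Finset.mem_insert_self _ _
        exact_mod_cast this)
  let φ := PresentedGroup.toGroup hrel
  let ξ : H ⧸ N →* PresentedGroup (R' : Set (FreeGroup α)) := QuotientGroup.lift N ψ hψN
  refine ⟨MonoidHom.toMulEquiv φ ξ ?_ ?_⟩
  · apply PresentedGroup.ext
    intro a
    have e1 : φ (PresentedGroup.of a) = q (E (PresentedGroup.of a)) := PresentedGroup.toGroup.of hrel
    simp only [MonoidHom.comp_apply, MonoidHom.id_apply]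
    rw [e1]
    exact hψ' (FreeGroup.of a)
  · apply MonoidHom.ext
    intro x
    obtain ⟨g, rfl⟩ := QuotientGroup.mk'_surjective N x
    obtain ⟨w, hw⟩ := PresentedGroup.mk_surjective _ (E.symm g)
    have hx : g = E (PresentedGroup.mk _ w) := by rw [hw, MulEquiv.apply_symm_apply]
    simp only [MonoidHom.comp_apply, MonoidHom.id_apply]
    rw [hx]
    have e1 : ξ (QuotientGroup.mk' N (E (PresentedGroup.mk _ w))) = PresentedGroup.mk _ w := hψ' w
    rw [e1]
    exact hf w

end Tietze

section Blk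

variable {K : Type*} [Field K] {m : ℕ}

/-- The block matrix. -/
def blkM (g : Matrix (Fin m) (Fin m) K) : Matrix (Fin (m + 1)) (Fin (m + 1)) K :=
  Matrix.of fun i j => Fin.cases (Fin.cases 1 (fun _ => 0) j) (fun i' => Fin.cases 0 (fun j' => g i' j') j) i

@[simp] lemma blkM_00 (g : Matrix (Fin m) (Fin m) K) : blkM g 0 0 = 1 := rfl
@[simp] lemma blkM_0s (g : Matrix (Fin m) (Fin m) K) (j : Fin m) : blkM g 0 j.succ = 0 := rfl
@[simp] lemma blkM_s0 (g : Matrix (Fin m) (Fin m) K) (i : Fin m) : blkM g i.succ 0 = 0 := rfl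
@[simp] lemma blkM_ss (g : Matrix (Fin m) (Fin m) K) (i j : Fin m) : blkM g i.succ j.succ = g i j := rfl

lemma blkM_mul (a b : Matrix (Fin m) (Fin m) K) : blkM (a * b) = blkM a * blkM b := by
  ext i j
  refine Fin.cases ?_ (fun i' => ?_) i <;> refine Fin.cases ?_ (fun j' => ?_) j <;>
    simp [Matrix.mul_apply, Fin.sum_univ_succ]

lemma blkM_one : blkM (1 : Matrix (Fin m) (Fin m) K) = 1 := by
  ext i j
  refine Fin.cases ?_ (fun i' => ?_) i <;> refine Fin.cases ?_ (fun j' => ?_) j <;>
    simp [Matrix.one_apply, Fin.succ_ne_zero, (Fin.succ_ne_zero _).symm]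

lemma det_blkM (g : Matrix (Fin m) (Fin m) K) : (blkM g).det = g.det := by
  rw [Matrix.det_succ_row_zero, Fin.sum_univ_succ]
  simp only [blkM_00, blkM_0s, mul_zero, zero_mul, Finset.sum_const_zero, add_zero, Fin.val_zero, pow_zero, one_mul,
    Fin.zero_succAbove]
  congr 1

/-- The block embedding. -/
def blk : SLN m K →* SLN (m + 1) K where
  toFun g := ⟨blkM (g : Matrix (Fin m) (Fin m) K), by rw [det_blkM]; exact g.2⟩
  map_one' := sl_eq (by exact blkM_one)
  map_mul' a b := sl_eq (by exact blkM_mul _ _)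

lemma blk_isBlk (g : SLN m K) : IsBlk 0 (blk g) := by
  refine ⟨rfl, fun j hj => ?_⟩
  obtain ⟨j', rfl⟩ := Fin.exists_succ_eq.2 hj
  exact ⟨rfl, rfl⟩

lemma exists_blk {g : SLN (m + 1) K} (hg : IsBlk 0 g) : ∃ g' : SLN m K, blk g' = g := by
  let g₀ : Matrix (Fin m) (Fin m) K := (g : Matrix (Fin (m + 1)) (Fin (m + 1)) K).submatrix Fin.succ Fin.succ
  have e : blkM g₀ = (g : Matrix (Fin (m + 1)) (Fin (m + 1)) K) := by
    ext i j
    refine Fin.cases ?_ (fun i' => ?_) i <;> refine Fin.cases ?_ (fun j' => ?_) j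
    · exact hg.1.symm
    · exact (hg.2 _ (Fin.succ_ne_zero _)).1.symm
    · exact (hg.2 _ (Fin.succ_ne_zero _)).2.symm
    · rfl
  have hd : g₀.det = 1 := by
    rw [← det_blkM, e]
    exact g.2
  exact ⟨⟨g₀, hd⟩, sl_eq e⟩

/-- The cyclic element. -/
def cycEl (m : ℕ) (K : Type*) [Field K] : SLN (m + 1) K :=
  ⟨Cfsg.Agent.Lib.SLGen.cycW m K, Cfsg.Agent.Lib.PrsPSLTwo.det_w m⟩

lemma exists_blkGen [Finite K] (hm : 1 ≤ m) :
    ∃ S : List (SLN (m + 2) K), S.length = 3 ∧ (∀ s ∈ S, IsBlk 0 s) ∧
      ∀ g, IsBlk 0 g → g ∈ Subgroup.closure {s | s ∈ S} := by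
  obtain ⟨ζ, ζ0, -, agen⟩ := exists_zeta (K := K)
  have h01 : (0 : Fin (m + 1)) ≠ 1 := by
    haveI : NeZero m := ⟨by omega⟩
    exact fun h => by simpa [Fin.ext_iff] using h
  let x : SLN (m + 1) K := SpecialLinearGroup.transvection h01 1
  let d : SLN (m + 1) K := dn h01 ζ ζ0
  let S : List (SLN (m + 2) K) := [blk (cycEl m K), blk x, blk d]
  refine ⟨S, rfl, ?_, ?_⟩
  · intro s hs
    simp only [S, List.mem_cons, List.not_mem_nil, or_false] at hs
    rcases hs with rfl | rfl | rfl <;> exact blk_isBlk _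
  intro g hg
  obtain ⟨g', rfl⟩ := exists_blk hg
  let H : Subgroup (SLN (m + 1) K) := (Subgroup.closure {s | s ∈ S}).comap blk
  have hmem : ∀ a, blk a ∈ S → a ∈ H := fun a ha => Subgroup.subset_closure ha
  have hx : ∀ t : K, SpecialLinearGroup.transvection h01 t ∈ H := by
    intro t
    refine agen.ind (P := fun t => SpecialLinearGroup.transvection h01 t ∈ H) ?_ ?_ ?_ ?_ t
    · have : (SpecialLinearGroup.transvection h01 0 : SLN (m + 1) K) = 1 := by
        apply sl_eq
        change Matrix.transvection _ _ 0 = 1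
        simp
      rw [this]
      exact one_mem _
    · intro s t hs ht
      rw [← Cfg.tv_add]
      exact mul_mem hs ht
    · intro s hs
      rw [← tv_inv']
      exact inv_mem hs
    · intro j
      induction j with
      | zero =>
        rw [pow_zero]
        exact hmem _ (by simp [S, x])
      | succ j ih =>
        have hd : d ∈ H := hmem _ (by simp [S, d])
        have h2 := mul_mem (mul_mem hd ih) (inv_mem hd)
        have h3 := (mono_dn h01 ζ ζ0).conj_tv h01 ((ζ ^ 2) ^ j)
        have e3 : (if (0 : Fin (m + 1)) = 0 then ζ else if (0 : Fin (m + 1)) = 1 then ζ⁻¹ else 1) * (ζ ^ 2) ^ j *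
            (if (1 : Fin (m + 1)) = 0 then ζ else if (1 : Fin (m + 1)) = 1 then ζ⁻¹ else 1)⁻¹ = (ζ ^ 2) ^ (j + 1) := by
          rw [if_pos rfl, if_neg h01.symm, if_pos rfl, inv_inv]
          ring
        rw [e3] at h3
        rw [h3] at h2
        exact h2
  have htop := Cfsg.Agent.Lib.SLGen.eq_top_of_cycW_mem hm H (cycEl m K) rfl (hmem _ (by simp [S])) h01 hx
  have : g' ∈ H := by
    rw [htop]
    exact Subgroup.mem_top _
  exact this

end Blk

end Cfsg.Agent.Lib.PrsSp
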