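import Mathlib
import Cfsg.Agent.Lib.PrsSpI
import Cfsg.Agent.Lib.PrsSLnJ
import Cfsg.Agent.Lib.PrsSL3G
import Cfsg.Agent.Lib.PrsSL2G

/-!
# Presentations of symplectic groups: the final statements
-/

set_option autoImplicit false
set_option linter.unusedSectionVars false

namespace Cfsg.Agent.Lib.PrsSp

variable {K : Type*} [Field K] [Fintype K]

lemma psp_of_sp {α : Type*} {n : ℕ} (hn : 1 ≤ n) (R : Finset (FreeGroup α))
    (E : PresentedGroup (R : Set (FreeGroup α)) ≃* Matrix.symplecticGroup (Fin n) K) :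
    ∃ R' : Finset (FreeGroup α), R'.card ≤ R.card + 1 ∧
      Nonempty (PresentedGroup (R' : Set (FreeGroup α)) ≃* Cfsg.PSp n K) := by
  haveI : Nonempty (Fin n) := ⟨⟨0, by omega⟩⟩
  exact pres_quot R E _ Cfsg.Agent.Lib.SpCenter.negOne Cfsg.Agent.Lib.SpCenter.negOne_mem_center
    (fun c hc => Cfsg.Agent.Lib.SpCenter.mem_center_iff.1 hc)

theorem sp_two : ∃ rels : Finset (FreeGroup (Fin 6)), rels.card ≤ 33 ∧
    Nonempty (PresentedGroup (rels : Set (FreeGroup (Fin 6))) ≃* Matrix.symplecticGroup (Fin 2) K) := by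
  obtain ⟨⟨RA, hA, ⟨eA⟩⟩, -⟩ := Cfsg.Agent.Lib.PrsSL2.main (F := K)
  have h01 : (0 : Fin 2) ≠ 1 := by decide
  have hS : ∀ g : SLN 2 K, IsBlk 0 g → g ∈ Subgroup.closure {s | s ∈ ([] : List (SLN 2 K))} := by
    intro g hg
    have h1 : g = 1 := by
      obtain ⟨g', rfl⟩ := exists_blk hg
      have h2 : g' = 1 := by
        apply sl_eq
        ext i j
        have h3 : (g' : Matrix (Fin 1) (Fin 1) K).det = 1 := g'.2
        rw [Matrix.det_fin_one] at h3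
        have hi : i = 0 := Subsingleton.elim _ _
        have hj : j = 0 := Subsingleton.elim _ _
        subst hi hj
        simpa using h3
      rw [h2, map_one]
    rw [h1]
    exact one_mem _
  obtain ⟨R, hR, ⟨E⟩⟩ := assemble (K := K) (le_refl 2) h01 RA eA RA eA [] (by simp) hS
  obtain ⟨R', hR', hE'⟩ := pres_reindex (finSumFinEquiv (m := 3) (n := 3)) R E
  refine ⟨R', hR'.trans (hR.trans ?_), hE'⟩
  simp only [List.length_nil]
  omega

theorem sp_big {n k : ℕ} (hn : 3 ≤ n) (RA : Finset (FreeGroup (Fin k)))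
    (eA : PresentedGroup (RA : Set (FreeGroup (Fin k))) ≃* SLN n K) :
    ∃ rels : Finset (FreeGroup (Fin (k + 3))), rels.card ≤ RA.card + 30 ∧
      Nonempty (PresentedGroup (rels : Set (FreeGroup (Fin (k + 3)))) ≃* Matrix.symplecticGroup (Fin n) K) := by
  obtain ⟨m, rfl⟩ : ∃ m, n = m + 2 := ⟨n - 2, by omega⟩
  obtain ⟨⟨RB, hB, ⟨eB⟩⟩, -⟩ := Cfsg.Agent.Lib.PrsSL2.main (F := K)
  have h01 : (0 : Fin (m + 2)) ≠ 1 := by simp
  obtain ⟨S, hS0, hS1, hS2⟩ := exists_blkGen (K := K) (m := m) (by omega)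
  obtain ⟨R, hR, ⟨E⟩⟩ := assemble (K := K) (by omega : 2 ≤ m + 2) h01 RA eA RB eB S hS1 hS2
  obtain ⟨R', hR', hE'⟩ := pres_reindex (finSumFinEquiv (m := k) (n := 3)) R E
  refine ⟨R', hR'.trans (hR.trans ?_), hE'⟩
  rw [hS0]
  omega

theorem sp_three : ∃ rels : Finset (FreeGroup (Fin 8)), rels.card ≤ 45 ∧
    Nonempty (PresentedGroup (rels : Set (FreeGroup (Fin 8))) ≃* Matrix.symplecticGroup (Fin 3) K) := by
  obtain ⟨RA, hA, hG⟩ := Cfsg.Agent.Lib.PrsSL3.good3 (F := K)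
  obtain ⟨eA⟩ := hG.iso
  obtain ⟨R, hR, ⟨E⟩⟩ := sp_big (K := K) (n := 3) (k := 4) (le_refl 3) RA eA
  obtain ⟨R₁, hR₁, ⟨E₁⟩⟩ := pres_pad R E
  obtain ⟨R', hR', hE'⟩ := pres_reindex (finSuccEquiv 7).symm R₁ E₁
  refine ⟨R', hR'.trans (hR₁.trans ?_), hE'⟩
  omega

end Cfsg.Agent.Lib.PrsSp
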