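import Mathlib
import Cfsg.Agent.Lib.PrsSpJ
import Cfsg.Agent.Lib.DnM3

/-!
# Presentations of `Ω⁺_{2n}`: the configuration and the flip elements
-/

set_option autoImplicit false
set_option linter.unusedSectionVars false
set_option linter.unusedVariables false

namespace Cfsg.Agent.Lib.PrsOm

open Matrix
open Cfsg.Agent.Lib.PrsSp (SLN Mono wW dn mono_wW mono_dn dn_mul dn_one dn_inv exists_mono2 IsBlk AddGen sl_eq comm_conj'
  tv_isBlk wW_coe cmS mem_cmS dn_congr)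
open Cfsg.Agent.Lib.PrsSp.Cfg (conj_swap')

variable {n : ℕ} {K : Type*} [Field K]

/-- A transvection. -/
abbrev tv {i j : Fin n} (h : i ≠ j) (t : K) : SLN n K := SpecialLinearGroup.transvection h t

section Perm

lemma exists_perm_fin {k : ℕ} (f g : Fin k → Fin n) (hf : Function.Injective f) (hg : Function.Injective g) :
    ∃ σ : Equiv.Perm (Fin n), ∀ i, σ (f i) = g i := by
  classical
  let e : {x // x ∈ Set.range f} ≃ {x // x ∈ Set.range g} :=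
    (Equiv.ofInjective f hf).symm.trans (Equiv.ofInjective g hg)
  refine ⟨e.extendSubtype, fun i => ?_⟩
  rw [Equiv.extendSubtype_apply_of_mem e (f i) ⟨i, rfl⟩]
  change ((Equiv.ofInjective g hg) ((Equiv.ofInjective f hf).symm ⟨f i, ⟨i, rfl⟩⟩) : Fin n) = g i
  rw [Equiv.ofInjective_symm_apply]
  rfl

lemma exists_mono_perm (σ : Equiv.Perm (Fin n)) :
    ∃ (μ : SLN n K) (c : Fin n → K), Mono μ σ c ∧ ∀ k, c k ^ 2 = 1 := by
  induction σ using Equiv.Perm.swap_induction_on with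
  | one => exact ⟨1, fun _ => 1, Mono.one', fun _ => by ring⟩
  | swap_mul f x y hxy ih =>
    obtain ⟨μ, c, M, hc⟩ := ih
    refine ⟨wW hxy * μ, _, (mono_wW hxy).mul M, fun k => ?_⟩
    rw [mul_pow, hc, mul_one]
    split_ifs <;> ring

lemma inj4 {i j k l : Fin n} (h1 : i ≠ j) (h2 : i ≠ k) (h3 : i ≠ l) (h4 : j ≠ k) (h5 : j ≠ l) (h6 : k ≠ l) :
    Function.Injective ![i, j, k, l] := by
  intro x y
  fin_cases x <;> fin_cases y <;> simp [h1, h2, h3, h4, h5, h6, h1.symm, h2.symm, h3.symm, h4.symm, h5.symm, h6.symm]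

lemma inj3 {i j k : Fin n} (h1 : i ≠ j) (h2 : i ≠ k) (h4 : j ≠ k) :
    Function.Injective ![i, j, k] := by
  intro x y
  fin_cases x <;> fin_cases y <;> simp [h1, h2, h4, h1.symm, h2.symm, h4.symm]

lemma exists_mono4 {i j k l a b c d : Fin n} (h1 : i ≠ j) (h2 : i ≠ k) (h3 : i ≠ l) (h4 : j ≠ k) (h5 : j ≠ l) (h6 : k ≠ l)
    (h1' : a ≠ b) (h2' : a ≠ c) (h3' : a ≠ d) (h4' : b ≠ c) (h5' : b ≠ d) (h6' : c ≠ d) :
    ∃ (μ : SLN n K) (σ : Equiv.Perm (Fin n)) (e : Fin n → K), Mono μ σ e ∧ (∀ k, e k ^ 2 = 1) ∧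
      σ i = a ∧ σ j = b ∧ σ k = c ∧ σ l = d := by
  obtain ⟨σ, hσ⟩ := exists_perm_fin _ _ (inj4 h1 h2 h3 h4 h5 h6) (inj4 h1' h2' h3' h4' h5' h6')
  obtain ⟨μ, e, M, he⟩ := exists_mono_perm (K := K) σ
  exact ⟨μ, σ, e, M, he, hσ 0, hσ 1, hσ 2, hσ 3⟩

lemma exists_mono3 {i j k a b c : Fin n} (h1 : i ≠ j) (h2 : i ≠ k) (h4 : j ≠ k)
    (h1' : a ≠ b) (h2' : a ≠ c) (h4' : b ≠ c) :
    ∃ (μ : SLN n K) (σ : Equiv.Perm (Fin n)) (e : Fin n → K), Mono μ σ e ∧ (∀ k, e k ^ 2 = 1) ∧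
      σ i = a ∧ σ j = b ∧ σ k = c := by
  obtain ⟨σ, hσ⟩ := exists_perm_fin _ _ (inj3 h1 h2 h4) (inj3 h1' h2' h4')
  obtain ⟨μ, e, M, he⟩ := exists_mono_perm (K := K) σ
  exact ⟨μ, σ, e, M, he, hσ 0, hσ 1, hσ 2⟩

end Perm

section MonoExtra

variable {μ ν : SLN n K} {σ τ : Equiv.Perm (Fin n)} {c d : Fin n → K}

lemma mono_congr (M : Mono μ σ c) (h1 : σ = τ) (h2 : ∀ k, c k = d k) : Mono μ τ d := by
  subst h1
  have : c = d := funext h2
  rwa [← this]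

lemma sign_mul (hc : ∀ k, c k ^ 2 = 1) (hd : ∀ k, d k ^ 2 = 1) (τ : Equiv.Perm (Fin n)) :
    ∀ k, (c (τ k) * d k) ^ 2 = 1 := fun k => by rw [mul_pow, hc, hd, one_mul]

lemma sign_inv (hc : ∀ k, c k ^ 2 = 1) (σ : Equiv.Perm (Fin n)) :
    ∀ k, ((c (σ⁻¹ k))⁻¹) ^ 2 = 1 := fun k => by rw [inv_pow, hc, inv_one]

lemma sign_inv_eq {x : K} (h : x ^ 2 = 1) : x⁻¹ = x := Cfsg.Agent.Lib.PrsSp.Cfg.inv_of_sq h

/-- Conjugation of a block element. -/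
lemma IsBlk.conj2 {i : Fin n} {g : SLN n K} (hg : IsBlk i g) (M : Mono μ σ c) : IsBlk (σ i) (μ * g * μ⁻¹) := by
  refine ⟨?_, fun j hj => ?_⟩
  · rw [M.conj_entry g i i, hg.1, mul_one, mul_inv_cancel₀ (M.ne _)]
  · obtain ⟨b, rfl⟩ := σ.surjective j
    have hb : b ≠ i := by
      rintro rfl
      exact hj rfl
    have e1 := M.conj_entry g i b
    have e2 := M.conj_entry g b i
    obtain ⟨h3, h4⟩ := hg.2 b hb
    rw [e1, e2, h3, h4]
    simp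

/-- Conjugation of the torus. -/
lemma mono_conj_dn (M : Mono μ σ c) {i j : Fin n} (h : i ≠ j) (x : K) (hx : x ≠ 0) :
    μ * dn h x hx * μ⁻¹ = dn (σ.injective.ne h) x hx := by
  rw [mul_inv_eq_iff_eq_mul]
  apply sl_eq
  rw [Matrix.SpecialLinearGroup.coe_mul, Matrix.SpecialLinearGroup.coe_mul]
  change (μ : Matrix (Fin n) (Fin n) K) * Matrix.diagonal _ = Matrix.diagonal _ * (μ : Matrix (Fin n) (Fin n) K)
  ext r s
  rw [Matrix.mul_diagonal, Matrix.diagonal_mul, M.entry]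
  by_cases hr : r = σ s
  · subst hr
    rw [if_pos rfl]
    simp only [σ.injective.eq_iff]
    ring
  · rw [if_neg hr]
    ring

lemma wW_alt {i j : Fin n} (h : i ≠ j) : tv h.symm (-1) * tv h 1 * tv h.symm (-1) = (wW h : SLN n K) := by
  apply sl_eq
  rw [wW_coe, Matrix.SpecialLinearGroup.coe_mul, Matrix.SpecialLinearGroup.coe_mul]
  change Matrix.transvection j i (-1) * Matrix.transvection i j 1 * Matrix.transvection j i (-1) = _
  simp only [Matrix.transvection, Matrix.add_mul, Matrix.mul_add, Matrix.one_mul, Matrix.mul_one,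
    Matrix.single_mul_single_same, Matrix.single_mul_single_of_ne _ _ _ _ h,
    Matrix.single_mul_single_of_ne _ _ _ _ h.symm]
  ext r s
  simp only [Matrix.add_apply, Matrix.sub_apply, Matrix.single_apply, Matrix.zero_apply]
  split_ifs <;> simp <;> ring

end MonoExtra

/-- The sign-monomial element swapping `i,j` with a sign at `k`. -/
def kap {i j k : Fin n} (h : i ≠ j) (h' : i ≠ k) : SLN n K :=
  wW h * dn h' (-1) (neg_ne_zero.2 one_ne_zero)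

lemma mono_kap {i j k : Fin n} (h : i ≠ j) (h' : i ≠ k) (h'' : j ≠ k) :
    Mono (kap h h' : SLN n K) (Equiv.swap i j) (fun x => if x = k then -1 else 1) := by
  refine mono_congr ((mono_wW h).mul (mono_dn h' (-1 : K) (neg_ne_zero.2 one_ne_zero))) (by simp) ?_
  intro x
  simp only [Equiv.Perm.coe_one, id_eq]
  by_cases hx : x = i
  · subst hx
    simp [h'.symm, h']
  by_cases hx2 : x = k
  · subst hx2
    simp [hx, h'.symm]
  · simp [hx, hx2]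

/-- The configuration. -/
structure CfD (n : ℕ) (K Γ : Type*) [Field K] [Group Γ] where
  A : SLN n K →* Γ
  t : Γ
  i0 : Fin n
  i1 : Fin n
  i2 : Fin n
  i3 : Fin n
  h01 : i0 ≠ i1
  h02 : i0 ≠ i2
  h03 : i0 ≠ i3
  h12 : i1 ≠ i2
  h13 : i1 ≠ i3
  h23 : i2 ≠ i3
  ζ : K
  ζ0 : ζ ≠ 0
  gen : ∀ t : K, t ≠ 0 → ∃ k : ℕ, t = ζ ^ k
  agen : AddGen ζ
  rS : ∀ g, IsBlk i0 g → IsBlk i1 g → Commute t (A g)
  rX : t * A (tv h01 1) * t⁻¹ = A (tv h01.symm (-1))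
  rH : t * A (dn h01 ζ ζ0) * t⁻¹ = (A (dn h01 ζ ζ0))⁻¹
  rK : Commute t (A (kap h01 h02))
  rW : t * (A (wW h02) * t * (A (wW h02))⁻¹) = A (wW h12) * t * (A (wW h12))⁻¹
  rE : Commute (A (tv h01 1)) ((A (wW h02) * t * (A (wW h02))⁻¹) * A (tv h01 1) * (A (wW h02) * t * (A (wW h02))⁻¹)⁻¹)
  rF : n ≤ 4 → Commute (A (tv h23 1)) ((A (wW h02) * t * (A (wW h02))⁻¹) * A (tv h01 1) * (A (wW h02) * t * (A (wW h02))⁻¹)⁻¹)

namespace CfD

variable {Γ : Type*} [Group Γ] (C : CfD n K Γ)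

/-- The root elements of `SL_n`. -/
def xx (i j : Fin n) (t : K) : Γ :=
  if h : i ≠ j then C.A (tv h t) else 1

lemma xx_of {i j : Fin n} (h : i ≠ j) (t : K) : C.xx i j t = C.A (tv h t) := dif_pos h

lemma xx_self (i : Fin n) (t : K) : C.xx i i t = 1 := by
  rw [xx, dif_neg (by simp)]

lemma xx_add {i j : Fin n} (h : i ≠ j) (s t : K) : C.xx i j s * C.xx i j t = C.xx i j (s + t) := by
  rw [xx_of C h, xx_of C h, xx_of C h, ← map_mul, Cfsg.Agent.Lib.PrsSp.Cfg.tv_add]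

lemma xx_add' (i j : Fin n) (s t : K) : C.xx i j s * C.xx i j t = C.xx i j (s + t) := by
  by_cases h : i = j
  · subst h
    simp [xx_self]
  · exact C.xx_add h s t

lemma xx_zero (i j : Fin n) : C.xx i j 0 = 1 := by
  have := C.xx_add' i j 0 0
  rw [add_zero] at this
  exact mul_eq_left.1 this

lemma xx_inv (i j : Fin n) (t : K) : (C.xx i j t)⁻¹ = C.xx i j (-t) := by
  rw [inv_eq_iff_mul_eq_one, C.xx_add', add_neg_cancel, xx_zero]

lemma mono_xx {μ : SLN n K} {σ : Equiv.Perm (Fin n)} {c : Fin n → K} (M : Mono μ σ c)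
    (i j : Fin n) (t : K) :
    C.A μ * C.xx i j t * (C.A μ)⁻¹ = C.xx (σ i) (σ j) (c i * t * (c j)⁻¹) := by
  by_cases h : i = j
  · subst h
    simp [xx_self]
  · rw [xx_of C h, xx_of C (σ.injective.ne h), ← map_inv, ← map_mul, ← map_mul, M.conj_tv h]

lemma mono_xx' {μ : SLN n K} {σ : Equiv.Perm (Fin n)} {c : Fin n → K} (M : Mono μ σ c)
    (i j : Fin n) (t : K) :
    C.xx (σ i) (σ j) t = C.A μ * C.xx i j ((c i)⁻¹ * t * c j) * (C.A μ)⁻¹ := by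
  rw [C.mono_xx M]
  congr 1
  have h1 := M.ne i
  have h2 := M.ne j
  field_simp

/-- Diagonal elements on root elements. -/
lemma dn_x01 {i j : Fin n} (h : i ≠ j) (x : K) (hx : x ≠ 0) (s : K) :
    C.A (dn h x hx) * C.xx i j s * (C.A (dn h x hx))⁻¹ = C.xx i j (x * x * s) := by
  rw [C.mono_xx (mono_dn h x hx)]
  simp only [Equiv.Perm.coe_one, id_eq, if_true, if_neg h.symm, inv_inv]
  congr 1
  ring

lemma dn_x10 {i j : Fin n} (h : i ≠ j) (x : K) (hx : x ≠ 0) (s : K) :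
    C.A (dn h x hx) * C.xx j i s * (C.A (dn h x hx))⁻¹ = C.xx j i (x⁻¹ * x⁻¹ * s) := by
  rw [C.mono_xx (mono_dn h x hx)]
  simp only [Equiv.Perm.coe_one, id_eq, if_true, if_neg h.symm]
  congr 1
  ring

/-- `t` inverts the torus. -/
lemma t_dn {x : K} (hx : x ≠ 0) :
    C.t * C.A (dn C.h01 x hx) * C.t⁻¹ = (C.A (dn C.h01 x hx))⁻¹ := by
  obtain ⟨k, rfl⟩ := C.gen x hx
  induction k with
  | zero =>
    have : dn C.h01 (C.ζ ^ 0) hx = 1 := by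
      rw [dn_congr C.h01 (pow_zero C.ζ) hx one_ne_zero, dn_one]
    rw [this, map_one]
    simp
  | succ k ih =>
    have e : dn C.h01 (C.ζ ^ (k + 1)) hx = dn C.h01 (C.ζ ^ k) (pow_ne_zero k C.ζ0) * dn C.h01 C.ζ C.ζ0 := by
      rw [dn_mul]
      exact dn_congr C.h01 (pow_succ C.ζ k) _ _
    rw [e, map_mul, _root_.mul_inv_rev]
    have h1 := ih (pow_ne_zero k C.ζ0)
    have h2 := C.rH
    have h3 : Commute (C.A (dn C.h01 (C.ζ ^ k) (pow_ne_zero k C.ζ0))) (C.A (dn C.h01 C.ζ C.ζ0)) := by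
      show _ * _ = _ * _
      rw [← map_mul, ← map_mul, dn_mul, dn_mul]
      exact congrArg C.A (dn_congr C.h01 (mul_comm _ _) _ _)
    calc C.t * (C.A (dn C.h01 (C.ζ ^ k) (pow_ne_zero k C.ζ0)) * C.A (dn C.h01 C.ζ C.ζ0)) * C.t⁻¹
        = (C.t * C.A (dn C.h01 (C.ζ ^ k) (pow_ne_zero k C.ζ0)) * C.t⁻¹) * (C.t * C.A (dn C.h01 C.ζ C.ζ0) * C.t⁻¹) := by group
      _ = (C.A (dn C.h01 (C.ζ ^ k) (pow_ne_zero k C.ζ0)))⁻¹ * (C.A (dn C.h01 C.ζ C.ζ0))⁻¹ := by rw [h1, h2]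
      _ = _ := by
        rw [← h3.inv_inv.eq]

/-- `t` on root elements. -/
lemma t_x01 (s : K) : C.t * C.xx C.i0 C.i1 s * C.t⁻¹ = C.xx C.i1 C.i0 (-s) := by
  refine C.agen.ext (Y₁ := fun s => C.t * C.xx C.i0 C.i1 s * C.t⁻¹) (Y₂ := fun s => C.xx C.i1 C.i0 (-s)) ?_ ?_ ?_ s
  · intro a b
    rw [← C.xx_add' C.i0 C.i1]
    group
  · intro a b
    rw [C.xx_add', neg_add]
  · intro j
    induction j with
    | zero =>
      rw [pow_zero, C.xx_of C.h01, C.xx_of C.h01.symm]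
      exact C.rX
    | succ j ih =>
      have e1 := C.dn_x01 C.h01 C.ζ C.ζ0 ((C.ζ ^ 2) ^ j)
      have e2 := C.dn_x10 C.h01 C.ζ⁻¹ (inv_ne_zero C.ζ0) (-(C.ζ ^ 2) ^ j)
      have hz : (C.ζ ^ 2) ^ (j + 1) = C.ζ * C.ζ * (C.ζ ^ 2) ^ j := by ring
      have hz2 : (C.ζ⁻¹)⁻¹ * (C.ζ⁻¹)⁻¹ * (-(C.ζ ^ 2) ^ j) = -(C.ζ * C.ζ * (C.ζ ^ 2) ^ j) := by
        rw [inv_inv]
        ring
      rw [hz2, ← dn_inv] at e2
      rw [hz, ← e1]
      calc C.t * (C.A (dn C.h01 C.ζ C.ζ0) * C.xx C.i0 C.i1 ((C.ζ ^ 2) ^ j) * (C.A (dn C.h01 C.ζ C.ζ0))⁻¹) * C.t⁻¹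
          = (C.t * C.A (dn C.h01 C.ζ C.ζ0) * C.t⁻¹) * (C.t * C.xx C.i0 C.i1 ((C.ζ ^ 2) ^ j) * C.t⁻¹) *
            (C.t * C.A (dn C.h01 C.ζ C.ζ0) * C.t⁻¹)⁻¹ := by group
        _ = _ := by
          rw [C.rH, ih, ← e2, map_inv, inv_inv]

lemma kap_x01 (s : K) : C.A (kap C.h01 C.h02) * C.xx C.i0 C.i1 s * (C.A (kap C.h01 C.h02))⁻¹ = C.xx C.i1 C.i0 s := by
  rw [C.mono_xx (mono_kap C.h01 C.h02 C.h12)]
  simp [if_neg C.h02, if_neg C.h12]

lemma kap_x10 (s : K) : C.A (kap C.h01 C.h02) * C.xx C.i1 C.i0 s * (C.A (kap C.h01 C.h02))⁻¹ = C.xx C.i0 C.i1 s := by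
  rw [C.mono_xx (mono_kap C.h01 C.h02 C.h12)]
  simp [if_neg C.h02, if_neg C.h12]

lemma t_x10 (s : K) : C.t * C.xx C.i1 C.i0 s * C.t⁻¹ = C.xx C.i0 C.i1 (-s) := by
  rw [← C.kap_x01 s, ← C.kap_x10 (-s), ← C.t_x01 s, ]
  rw [conj_swap' C.rK]

/-- The Weyl element commutes with `t`. -/
lemma t_wW : Commute C.t (C.A (wW C.h01)) := by
  show _ * _ = _ * _
  rw [← mul_inv_eq_iff_eq_mul]
  have e1 : C.t * C.A (tv C.h01 1) * C.t⁻¹ = C.A (tv C.h01.symm (-1)) := C.rX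
  have e2 : C.t * C.A (tv C.h01.symm (-1)) * C.t⁻¹ = C.A (tv C.h01 1) := by
    have := C.t_x10 (-1)
    rw [C.xx_of C.h01.symm, C.xx_of C.h01, neg_neg] at this
    exact this
  calc C.t * C.A (wW C.h01) * C.t⁻¹
      = C.t * (C.A (tv C.h01 1) * C.A (tv C.h01.symm (-1)) * C.A (tv C.h01 1)) * C.t⁻¹ := by
        rw [wW, map_mul, map_mul]
    _ = (C.t * C.A (tv C.h01 1) * C.t⁻¹) * (C.t * C.A (tv C.h01.symm (-1)) * C.t⁻¹) * (C.t * C.A (tv C.h01 1) * C.t⁻¹) := by group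
    _ = C.A (tv C.h01.symm (-1) * tv C.h01 1 * tv C.h01.symm (-1)) := by
        rw [e1, e2, map_mul, map_mul]
    _ = _ := by rw [wW_alt]

lemma neg_one_ne : (-1 : K) ≠ 0 := neg_ne_zero.2 one_ne_zero

lemma t_d01 : Commute C.t (C.A (dn C.h01 (-1) neg_one_ne)) := by
  have := C.t_dn (x := (-1 : K)) neg_one_ne
  rw [mul_inv_eq_iff_eq_mul] at this
  rw [Commute, SemiconjBy, this]
  have e : (dn C.h01 (-1) neg_one_ne : SLN n K)⁻¹ = dn C.h01 (-1) neg_one_ne := by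
    rw [dn_inv]
    exact dn_congr C.h01 (by simp) _ _
  rw [← map_inv, e]

lemma t_d02 : Commute C.t (C.A (dn C.h02 (-1) neg_one_ne)) := by
  have e : dn C.h02 (-1) neg_one_ne = (wW C.h01)⁻¹ * (kap C.h01 C.h02 : SLN n K) := by
    rw [kap]
    group
  rw [e, map_mul, map_inv]
  exact (C.t_wW.inv_right).mul_right C.rK

end CfD

end Cfsg.Agent.Lib.PrsOm
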