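import Mathlib
import Cfsg.Agent.Lib.PrsOmA

/-!
# Presentations of `Ω⁺_{2n}`: the flip elements
-/

set_option autoImplicit false
set_option linter.unusedSectionVars false
set_option linter.unusedVariables false

namespace Cfsg.Agent.Lib.PrsOm

open Matrix
open Cfsg.Agent.Lib.PrsSp (SLN Mono wW dn mono_wW mono_dn dn_mul dn_one dn_inv exists_mono2 IsBlk AddGen sl_eq comm_conj'
  tv_isBlk wW_coe cmS mem_cmS dn_congr)
open Cfsg.Agent.Lib.PrsSp.Cfg (conj_swap')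

variable {n : ℕ} {K : Type*} [Field K]

namespace CfD

variable {Γ : Type*} [Group Γ] (C : CfD n K Γ)

lemma blk_mul {μ : SLN n K} {σ : Equiv.Perm (Fin n)} {c : Fin n → K} (M : Mono μ σ c)
    (h0 : σ C.i0 = C.i0) (h1 : σ C.i1 = C.i1) {e : SLN n K} {σe : Equiv.Perm (Fin n)} {ce : Fin n → K}
    (Me : Mono e σe ce) (h0e : σe C.i0 = C.i0) (h1e : σe C.i1 = C.i1) (he : Commute C.t (C.A e))
    (hc0 : c C.i0 * ce C.i0 = 1) (hc1 : c C.i1 * ce C.i1 = 1) : Commute C.t (C.A μ) := by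
  have M' := M.mul Me
  have b0 : IsBlk C.i0 (μ * e) := M'.isBlk (by simp [h0, h0e]) (by simpa [h0e] using hc0)
  have b1 : IsBlk C.i1 (μ * e) := M'.isBlk (by simp [h1, h1e]) (by simpa [h1e] using hc1)
  have h2 := C.rS _ b0 b1
  have e1 : C.A μ = C.A (μ * e) * (C.A e)⁻¹ := by
    rw [map_mul]
    group
  rw [e1]
  exact h2.mul_right he.inv_right

lemma sq_cases {x : K} (h : x ^ 2 = 1) : x = 1 ∨ x = -1 := by
  rw [pow_two] at h
  exact mul_self_eq_one_iff.1 h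

lemma comm_fix {μ : SLN n K} {σ : Equiv.Perm (Fin n)} {c : Fin n → K} (M : Mono μ σ c)
    (hc : ∀ k, c k ^ 2 = 1) (h0 : σ C.i0 = C.i0) (h1 : σ C.i1 = C.i1) : Commute C.t (C.A μ) := by
  have n1 : (-1 : K) ≠ 0 := neg_one_ne
  have h10 : C.i1 ≠ C.i0 := C.h01.symm
  have h20 : C.i2 ≠ C.i0 := C.h02.symm
  have h21 : C.i2 ≠ C.i1 := C.h12.symm
  rcases sq_cases (hc C.i0) with a | a <;> rcases sq_cases (hc C.i1) with b | b
  · exact C.rS _ (M.isBlk h0 a) (M.isBlk h1 b)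
  · refine C.blk_mul M h0 h1 ((mono_dn C.h01 (-1) n1).mul (mono_dn C.h02 (-1) n1)) (by simp) (by simp)
      (by rw [map_mul]; exact C.t_d01.mul_right C.t_d02) ?_ ?_
    · simp [a]
    · simp [b, h10, C.h12]
  · refine C.blk_mul M h0 h1 (mono_dn C.h02 (-1) n1) (by simp) (by simp) C.t_d02 ?_ ?_
    · simp [a]
    · simp [b, h10, C.h12]
  · refine C.blk_mul M h0 h1 (mono_dn C.h01 (-1) n1) (by simp) (by simp) C.t_d01 ?_ ?_
    · simp [a]
    · simp [b, h10]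

lemma comm_of_mono {μ : SLN n K} {σ : Equiv.Perm (Fin n)} {c : Fin n → K} (M : Mono μ σ c)
    (hc : ∀ k, c k ^ 2 = 1) (h : (σ C.i0 = C.i0 ∧ σ C.i1 = C.i1) ∨ (σ C.i0 = C.i1 ∧ σ C.i1 = C.i0)) :
    Commute C.t (C.A μ) := by
  rcases h with ⟨h0, h1⟩ | ⟨h0, h1⟩
  · exact C.comm_fix M hc h0 h1
  · have K' := mono_kap (K := K) C.h01 C.h02 C.h12
    have M' := M.mul K'
    have hs : ∀ k : Fin n, ((if k = C.i2 then -1 else 1 : K)) ^ 2 = 1 := fun k => by split_ifs <;> ring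
    have h2 := C.comm_fix M' (sign_mul hc hs _) (by simp [h1]) (by simp [h0])
    have e1 : C.A μ = C.A (μ * kap C.h01 C.h02) * (C.A (kap C.h01 C.h02))⁻¹ := by
      rw [map_mul]
      group
    rw [e1]
    exact h2.mul_right C.rK.inv_right

lemma exists_tau {i j : Fin n} (h : i ≠ j) : ∃ g : Γ, ∀ (μ : SLN n K) (σ : Equiv.Perm (Fin n)) (c : Fin n → K),
    Mono μ σ c → (∀ k, c k ^ 2 = 1) → ((σ C.i0 = i ∧ σ C.i1 = j) ∨ (σ C.i0 = j ∧ σ C.i1 = i)) →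
    C.A μ * C.t * (C.A μ)⁻¹ = g := by
  obtain ⟨μ₀, σ₀, c₀, M₀, hc₀, e1, e2⟩ := exists_mono2 (K := K) C.h01 h
  refine ⟨C.A μ₀ * C.t * (C.A μ₀)⁻¹, ?_⟩
  intro μ σ c M hc hσ
  have M' := M₀.inv.mul M
  have h0 : σ₀.symm i = C.i0 := by rw [← e1]; simp
  have h1 : σ₀.symm j = C.i1 := by rw [← e2]; simp
  have hcomm := C.comm_of_mono M' (sign_mul (sign_inv hc₀ σ₀) hc _) (by
    rcases hσ with ⟨a, b⟩ | ⟨a, b⟩
    · left
      simp [a, b, h0, h1]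
    · right
      simp [a, b, h0, h1])
  have e3 : C.A μ = C.A μ₀ * C.A (μ₀⁻¹ * μ) := by
    rw [map_mul, map_inv]
    group
  rw [e3]
  have e4 := hcomm.eq
  calc C.A μ₀ * C.A (μ₀⁻¹ * μ) * C.t * (C.A μ₀ * C.A (μ₀⁻¹ * μ))⁻¹
      = C.A μ₀ * (C.A (μ₀⁻¹ * μ) * C.t) * (C.A μ₀ * C.A (μ₀⁻¹ * μ))⁻¹ := by group
    _ = C.A μ₀ * (C.t * C.A (μ₀⁻¹ * μ)) * (C.A μ₀ * C.A (μ₀⁻¹ * μ))⁻¹ := by rw [e4]
    _ = _ := by group

open Classical in
/-- The flip attached to a pair of coordinates. -/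
noncomputable def tau (i j : Fin n) : Γ :=
  if h : i ≠ j then Classical.choose (C.exists_tau h) else 1

lemma tau_self (i : Fin n) : C.tau i i = 1 := by
  rw [tau, dif_neg (by simp)]

lemma tau_eq {μ : SLN n K} {σ : Equiv.Perm (Fin n)} {c : Fin n → K} (M : Mono μ σ c)
    (hc : ∀ k, c k ^ 2 = 1) {i j : Fin n} (hh : (σ C.i0 = i ∧ σ C.i1 = j) ∨ (σ C.i0 = j ∧ σ C.i1 = i)) :
    C.A μ * C.t * (C.A μ)⁻¹ = C.tau i j := by
  have h : i ≠ j := by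
    rcases hh with ⟨rfl, rfl⟩ | ⟨rfl, rfl⟩
    · exact σ.injective.ne C.h01
    · exact σ.injective.ne C.h01.symm
  rw [tau, dif_pos h]
  exact Classical.choose_spec (C.exists_tau h) μ σ c M hc hh

lemma tau_symm (i j : Fin n) : C.tau i j = C.tau j i := by
  by_cases h : i = j
  · rw [h]
  · obtain ⟨μ, σ, c, M, hc, e1, e2⟩ := exists_mono2 (K := K) C.h01 h
    rw [← C.tau_eq M hc (Or.inl ⟨e1, e2⟩), C.tau_eq M hc (Or.inr ⟨e1, e2⟩)]

lemma tau_base : C.tau C.i0 C.i1 = C.t := by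
  rw [← C.tau_eq (Mono.one') (fun _ => by ring) (i := C.i0) (j := C.i1) (Or.inl ⟨rfl, rfl⟩)]
  simp

lemma tau_conj {μ : SLN n K} {σ : Equiv.Perm (Fin n)} {c : Fin n → K} (M : Mono μ σ c)
    (hc : ∀ k, c k ^ 2 = 1) (i j : Fin n) : C.A μ * C.tau i j * (C.A μ)⁻¹ = C.tau (σ i) (σ j) := by
  by_cases h : i = j
  · subst h
    simp [tau_self]
  · obtain ⟨μ₀, σ₀, c₀, M₀, hc₀, e1, e2⟩ := exists_mono2 (K := K) C.h01 h
    rw [← C.tau_eq M₀ hc₀ (Or.inl ⟨e1, e2⟩),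
      ← C.tau_eq (M.mul M₀) (sign_mul hc hc₀ _) (i := σ i) (j := σ j) (Or.inl ⟨by simp [e1], by simp [e2]⟩), map_mul]
    group

lemma s_wW {i j : Fin n} (h : i ≠ j) : ∀ k : Fin n, ((if k = i then -1 else 1 : K)) ^ 2 = 1 :=
  fun k => by split_ifs <;> ring

lemma tau_rW : C.tau C.i0 C.i1 * C.tau C.i1 C.i2 = C.tau C.i0 C.i2 := by
  have e1 := C.tau_eq (mono_wW (K := K) C.h02) (s_wW C.h02) (i := C.i1) (j := C.i2)
    (Or.inr ⟨Equiv.swap_apply_left _ _, Equiv.swap_apply_of_ne_of_ne C.h01.symm C.h12⟩)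
  have e2 := C.tau_eq (mono_wW (K := K) C.h12) (s_wW C.h12) (i := C.i0) (j := C.i2)
    (Or.inl ⟨Equiv.swap_apply_of_ne_of_ne C.h01 C.h02, Equiv.swap_apply_left _ _⟩)
  rw [← e1, ← e2, tau_base]
  exact C.rW

lemma tau_trans {i j k : Fin n} (h1 : i ≠ j) (h2 : i ≠ k) (h3 : j ≠ k) :
    C.tau i j * C.tau j k = C.tau i k := by
  obtain ⟨μ, σ, c, M, hc, e1, e2, e3⟩ := exists_mono3 (K := K) C.h01 C.h02 C.h12 h1 h2 h3
  have h := C.tau_rW
  have e : C.A μ * (C.tau C.i0 C.i1 * C.tau C.i1 C.i2) * (C.A μ)⁻¹ = C.A μ * C.tau C.i0 C.i2 * (C.A μ)⁻¹ := by rw [h]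
  have e4 : C.A μ * (C.tau C.i0 C.i1 * C.tau C.i1 C.i2) * (C.A μ)⁻¹ =
      (C.A μ * C.tau C.i0 C.i1 * (C.A μ)⁻¹) * (C.A μ * C.tau C.i1 C.i2 * (C.A μ)⁻¹) := by group
  rw [e4, C.tau_conj M hc, C.tau_conj M hc, C.tau_conj M hc, e1, e2, e3] at e
  exact e

include C in
lemma third (j k : Fin n) : ∃ i : Fin n, i ≠ j ∧ i ≠ k := by
  by_cases h1 : C.i0 = j
  · by_cases h2 : C.i1 = k
    · exact ⟨C.i2, by rw [← h1]; exact C.h02.symm, by rw [← h2]; exact C.h12.symm⟩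
    · exact ⟨C.i1, by rw [← h1]; exact C.h01.symm, h2⟩
  · by_cases h2 : C.i0 = k
    · by_cases h3 : C.i1 = j
      · exact ⟨C.i2, by rw [← h3]; exact C.h12.symm, by rw [← h2]; exact C.h02.symm⟩
      · exact ⟨C.i1, h3, by rw [← h2]; exact C.h01.symm⟩
    · exact ⟨C.i0, h1, h2⟩

lemma tau_sq (j k : Fin n) : C.tau j k * C.tau j k = 1 := by
  by_cases h : j = k
  · subst h
    simp [tau_self]
  obtain ⟨i, h1, h2⟩ := C.third j k
  have e1 := C.tau_trans h1 h2 h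
  have e2 := C.tau_trans h2 h1 (Ne.symm h)
  rw [← e1, mul_assoc] at e2
  have e3 := mul_eq_left.1 e2
  rwa [C.tau_symm k j] at e3

lemma tau_inv (j k : Fin n) : (C.tau j k)⁻¹ = C.tau j k :=
  inv_eq_of_mul_eq_one_left (C.tau_sq j k)

lemma tau_adj {i j k : Fin n} (h1 : i ≠ j) (h2 : i ≠ k) (h3 : j ≠ k) : Commute (C.tau i j) (C.tau j k) := by
  show _ * _ = _ * _
  rw [C.tau_trans h1 h2 h3, C.tau_symm j k, C.tau_symm i j, C.tau_trans h3.symm h2.symm h1.symm, C.tau_symm]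

lemma tau_eq_s (i j : Fin n) : C.tau i j = C.tau i C.i0 * C.tau j C.i0 := by
  by_cases h : i = j
  · subst h
    rw [C.tau_sq, tau_self]
  by_cases h1 : i = C.i0
  · subst h1
    rw [tau_self, one_mul, tau_symm]
  by_cases h2 : j = C.i0
  · subst h2
    rw [tau_self, mul_one]
  · rw [C.tau_symm j, C.tau_trans h1 h (Ne.symm h2)]

lemma s_comm (i j : Fin n) : Commute (C.tau i C.i0) (C.tau j C.i0) := by
  by_cases h : i = j
  · subst h
    exact Commute.refl _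
  by_cases h1 : i = C.i0
  · subst h1
    rw [tau_self]
    exact Commute.one_left _
  by_cases h2 : j = C.i0
  · subst h2
    rw [tau_self]
    exact Commute.one_right _
  · rw [C.tau_symm j]
    exact C.tau_adj h1 h (Ne.symm h2)

lemma tau_comm (i j k l : Fin n) : Commute (C.tau i j) (C.tau k l) := by
  rw [C.tau_eq_s i j, C.tau_eq_s k l]
  exact ((C.s_comm _ _).mul_right (C.s_comm _ _)).mul_left ((C.s_comm _ _).mul_right (C.s_comm _ _))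

/-- Conjugation by `τ` of elements of `SL_n` acting on other coordinates. -/
lemma tau_blk {p q : Fin n} {g : SLN n K} (hp : IsBlk p g) (hq : IsBlk q g) : Commute (C.tau p q) (C.A g) := by
  by_cases h : p = q
  · subst h
    rw [tau_self]
    exact Commute.one_left _
  obtain ⟨μ, σ, c, M, hc, e1, e2⟩ := exists_mono2 (K := K) C.h01 h
  have h0 : σ⁻¹ p = C.i0 := by rw [← e1]; simp
  have h1 : σ⁻¹ q = C.i1 := by rw [← e2]; simp
  have b0 := IsBlk.conj2 hp M.inv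
  have b1 := IsBlk.conj2 hq M.inv
  rw [h0] at b0
  rw [h1] at b1
  have h2 := C.rS _ b0 b1
  have h3 := comm_conj' (C.A μ) h2
  rw [C.tau_eq M hc (Or.inl ⟨e1, e2⟩)] at h3
  have e3 : C.A μ * C.A (μ⁻¹ * g * μ⁻¹⁻¹) * (C.A μ)⁻¹ = C.A g := by
    simp only [map_mul, map_inv]
    group
  rwa [e3] at h3

lemma tau_xx {p q i j : Fin n} (h1 : i ≠ p) (h2 : i ≠ q) (h3 : j ≠ p) (h4 : j ≠ q) (s : K) :
    Commute (C.tau p q) (C.xx i j s) := by
  by_cases h : i = j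
  · subst h
    rw [xx_self]
    exact Commute.one_right _
  · rw [C.xx_of h]
    exact C.tau_blk (tv_isBlk h h1 h3 s) (tv_isBlk h h2 h4 s)

lemma tau_x {i j : Fin n} (h : i ≠ j) (s : K) :
    C.tau i j * C.xx i j s * (C.tau i j)⁻¹ = C.xx j i (-s) := by
  obtain ⟨μ, σ, c, M, hc, e1, e2⟩ := exists_mono2 (K := K) C.h01 h
  have e3 := C.mono_xx' M C.i0 C.i1 s
  rw [e1, e2] at e3
  rw [e3, ← C.tau_eq M hc (Or.inl ⟨e1, e2⟩)]
  set u := (c C.i0)⁻¹ * s * c C.i1 with hu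
  have e4 : (C.A μ * C.t * (C.A μ)⁻¹) * (C.A μ * C.xx C.i0 C.i1 u * (C.A μ)⁻¹) * (C.A μ * C.t * (C.A μ)⁻¹)⁻¹ =
      C.A μ * (C.t * C.xx C.i0 C.i1 u * C.t⁻¹) * (C.A μ)⁻¹ := by group
  rw [e4, C.t_x01, C.mono_xx M, e1, e2]
  congr 1
  rw [hu, sign_inv_eq (hc C.i0)]
  have h0 := hc C.i0
  have h1 := hc C.i1
  linear_combination (-(s * c C.i1 * c C.i1)) * h0 + (-s) * h1

lemma tau_dn {i j : Fin n} (h : i ≠ j) {x : K} (hx : x ≠ 0) :
    C.tau i j * C.A (dn h x hx) * (C.tau i j)⁻¹ = (C.A (dn h x hx))⁻¹ := by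
  obtain ⟨μ, σ, c, M, hc, e1, e2⟩ := exists_mono2 (K := K) C.h01 h
  subst e1 e2
  have e3 := mono_conj_dn M C.h01 x hx
  rw [← e3, ← C.tau_eq M hc (Or.inl ⟨rfl, rfl⟩)]
  simp only [map_mul, map_inv]
  have e4 := C.t_dn hx
  calc (C.A μ * C.t * (C.A μ)⁻¹) * (C.A μ * C.A (dn C.h01 x hx) * (C.A μ)⁻¹) * (C.A μ * C.t * (C.A μ)⁻¹)⁻¹
      = C.A μ * (C.t * C.A (dn C.h01 x hx) * C.t⁻¹) * (C.A μ)⁻¹ := by group
    _ = _ := by
        rw [e4]
        group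

/-- Sign-monomial element commuting with all flips it fixes. -/
lemma tau_sign_diag {μ : SLN n K} {c : Fin n → K} (M : Mono μ 1 c) (hc : ∀ k, c k ^ 2 = 1) (i j : Fin n) :
    Commute (C.tau i j) (C.A μ) := by
  have := C.tau_conj M hc i j
  simp only [Equiv.Perm.coe_one, id_eq] at this
  rw [mul_inv_eq_iff_eq_mul] at this
  exact this.symm

end CfD

end Cfsg.Agent.Lib.PrsOm
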