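import Mathlib
import Cfsg.Agent.Lib.PrsOmB

/-!
# Presentations of `Ω⁺_{2n}`: the root elements and the even flips
-/

set_option autoImplicit false
set_option linter.unusedSectionVars false
set_option linter.unusedVariables false

namespace Cfsg.Agent.Lib.PrsOm

open Matrix
open Cfsg.Agent.Lib.PrsSp (SLN Mono wW dn mono_wW mono_dn dn_mul dn_one dn_inv exists_mono2 IsBlk AddGen sl_eq comm_conj'
  tv_isBlk wW_coe cmS mem_cmS dn_congr fl fl_inl fl_inr fl_inl' fl_inr' fl_fl fl_swap fl_inj ixOf ixOf_swap ixOf_fl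
  exists_fl sh_fl fl_insert ix_ne)
open Cfsg.Agent.Lib.PrsSp.Cfg (conj_swap')
open Cfsg.Agent.Lib.SpN (Ix Sh sw_sw sw_ne sw_inj sw_ne_sw ne_sw_symm)

variable {n : ℕ} {K : Type*} [Field K]

namespace CfD

variable {Γ : Type*} [Group Γ] (C : CfD n K Γ)

lemma conj2 (a b x : Γ) : a * (b * x * b⁻¹) * a⁻¹ = (a * b) * x * (a * b)⁻¹ := by group

lemma conj_comm {a b x : Γ} (h : Commute b x) : (a * b) * x * (a * b)⁻¹ = a * x * a⁻¹ := by
  have e : b * x * b⁻¹ = x := by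
    rw [h.eq]
    group
  rw [← conj2, e]

/-- A coordinate different from two given ones. -/
noncomputable def thd (i j : Fin n) : Fin n := Classical.choose (C.third i j)

lemma thd_ne1 (i j : Fin n) : C.thd i j ≠ i := (Classical.choose_spec (C.third i j)).1

lemma thd_ne2 (i j : Fin n) : C.thd i j ≠ j := (Classical.choose_spec (C.third i j)).2

/-- The root element `X(l_i, l_j)`. -/
noncomputable def yy (i j : Fin n) (s : K) : Γ :=
  C.tau j (C.thd i j) * C.xx i j s * (C.tau j (C.thd i j))⁻¹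

/-- The root element `X(r_i, r_j)`. -/
noncomputable def zz (i j : Fin n) (s : K) : Γ :=
  C.tau i (C.thd i j) * C.xx i j s * (C.tau i (C.thd i j))⁻¹

lemma yy_eq {i j r : Fin n} (hi : r ≠ i) (hj : r ≠ j) (s : K) :
    C.yy i j s = C.tau j r * C.xx i j s * (C.tau j r)⁻¹ := by
  set k := C.thd i j with hk
  have h1 : k ≠ i := C.thd_ne1 i j
  have h2 : k ≠ j := C.thd_ne2 i j
  by_cases hr : r = k
  · rw [hr]
    rfl
  · rw [yy, ← hk, ← C.tau_trans (Ne.symm h2) (Ne.symm hj) (Ne.symm hr), conj_comm]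
    exact C.tau_xx (Ne.symm h1) (Ne.symm hi) (Ne.symm h2) (Ne.symm hj) s

lemma zz_eq {i j r : Fin n} (hi : r ≠ i) (hj : r ≠ j) (s : K) :
    C.zz i j s = C.tau i r * C.xx i j s * (C.tau i r)⁻¹ := by
  set k := C.thd i j with hk
  have h1 : k ≠ i := C.thd_ne1 i j
  have h2 : k ≠ j := C.thd_ne2 i j
  by_cases hr : r = k
  · rw [hr]
    rfl
  · rw [zz, ← hk, ← C.tau_trans (Ne.symm h1) (Ne.symm hi) (Ne.symm hr), conj_comm]
    exact C.tau_xx (Ne.symm h1) (Ne.symm hi) (Ne.symm h2) (Ne.symm hj) s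

lemma yy_add (i j : Fin n) (s t : K) : C.yy i j s * C.yy i j t = C.yy i j (s + t) := by
  simp only [yy]
  rw [← C.xx_add']
  group

lemma zz_add (i j : Fin n) (s t : K) : C.zz i j s * C.zz i j t = C.zz i j (s + t) := by
  simp only [zz]
  rw [← C.xx_add']
  group

section Act

variable {i j r : Fin n} (h : i ≠ j) (hi : r ≠ i) (hj : r ≠ j) (s : K)
include h hi hj

lemma Y1 : C.tau i r * C.yy i j s * (C.tau i r)⁻¹ = C.xx j i (-s) := by
  rw [C.yy_eq hi hj, conj2, C.tau_symm j r, C.tau_trans (Ne.symm hi) h hj, C.tau_x h]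

lemma Y2 : C.tau j r * C.yy i j s * (C.tau j r)⁻¹ = C.xx i j s := by
  rw [C.yy_eq hi hj, conj2, C.tau_sq]
  simp

lemma Y3 : C.tau i j * C.yy i j s * (C.tau i j)⁻¹ = C.zz i j s := by
  rw [C.yy_eq hi hj, conj2, C.tau_trans h (Ne.symm hi) (Ne.symm hj), C.zz_eq hi hj]

lemma Z1 : C.tau i r * C.zz i j s * (C.tau i r)⁻¹ = C.xx i j s := by
  rw [C.zz_eq hi hj, conj2, C.tau_sq]
  simp

lemma Z2 : C.tau j r * C.zz i j s * (C.tau j r)⁻¹ = C.xx j i (-s) := by
  rw [C.zz_eq hi hj, conj2, C.tau_symm i r, C.tau_trans (Ne.symm hj) h.symm hi, C.tau_symm j i,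
    C.tau_x h]

lemma Z3 : C.tau i j * C.zz i j s * (C.tau i j)⁻¹ = C.yy i j s := by
  rw [C.zz_eq hi hj, conj2, C.tau_symm i j, C.tau_trans h.symm (Ne.symm hj) (Ne.symm hi), C.yy_eq hi hj]

end Act

lemma Y4 {i j p q : Fin n} (h1 : i ≠ p) (h2 : i ≠ q) (h3 : j ≠ p) (h4 : j ≠ q) (s : K) :
    C.tau p q * C.yy i j s * (C.tau p q)⁻¹ = C.yy i j s := by
  rw [yy, conj2, (C.tau_comm p q j (C.thd i j)).eq, conj_comm (C.tau_xx h1 h2 h3 h4 s)]

lemma Z4 {i j p q : Fin n} (h1 : i ≠ p) (h2 : i ≠ q) (h3 : j ≠ p) (h4 : j ≠ q) (s : K) :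
    C.tau p q * C.zz i j s * (C.tau p q)⁻¹ = C.zz i j s := by
  rw [zz, conj2, (C.tau_comm p q i (C.thd i j)).eq, conj_comm (C.tau_xx h1 h2 h3 h4 s)]

/-- The root elements of `D_n`. -/
noncomputable def XF : Ix n → Ix n → K → Γ
  | Sum.inl i, Sum.inr j, s => C.xx i j s
  | Sum.inr j, Sum.inl i, s => C.xx i j (-s)
  | Sum.inl i, Sum.inl j, s => C.yy i j s
  | Sum.inr i, Sum.inr j, s => C.zz i j s

lemma yy_symm {i j : Fin n} (h : i ≠ j) (s : K) : C.yy i j s = C.yy j i (-s) := by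
  set k := C.thd i j with hk
  have h1 : k ≠ i := C.thd_ne1 i j
  have h2 : k ≠ j := C.thd_ne2 i j
  rw [C.yy_eq (i := j) (j := i) h2 h1, ← C.tau_x h, conj2, C.tau_symm i k, C.tau_trans h1 h2 h, C.yy_eq h1 h2,
    C.tau_symm j k]

lemma zz_symm {i j : Fin n} (h : i ≠ j) (s : K) : C.zz i j s = C.zz j i (-s) := by
  set k := C.thd i j with hk
  have h1 : k ≠ i := C.thd_ne1 i j
  have h2 : k ≠ j := C.thd_ne2 i j
  rw [C.zz_eq (i := j) (j := i) h2 h1, ← C.tau_x h, conj2, C.tau_symm j k, C.tau_symm i j, C.tau_trans h2 h1 h.symm,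
    C.zz_eq h1 h2, C.tau_symm i k]

lemma sh_ll {i j : Fin n} (h : Sh (Sum.inl i : Ix n) (Sum.inl j)) : i ≠ j := fun e => h.1 (by rw [e])

lemma sh_rr {i j : Fin n} (h : Sh (Sum.inr i : Ix n) (Sum.inr j)) : i ≠ j := fun e => h.1 (by rw [e])

lemma sh_lr {i j : Fin n} (h : Sh (Sum.inl i : Ix n) (Sum.inr j)) : i ≠ j := ix_ne h

lemma XF_symm {a b : Ix n} (h : Sh a b) (t : K) : C.XF a b t = C.XF b a (-t) := by
  rcases a with i | i <;> rcases b with j | j
  · exact C.yy_symm (sh_ll h) t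
  · change C.xx i j t = C.xx i j (- -t)
    rw [neg_neg]
  · rfl
  · exact C.zz_symm (sh_rr h) t

lemma XF_add {a b : Ix n} (h : Sh a b) (s t : K) : C.XF a b s * C.XF a b t = C.XF a b (s + t) := by
  rcases a with i | i <;> rcases b with j | j
  · exact C.yy_add i j s t
  · exact C.xx_add' i j s t
  · change C.xx j i (-s) * C.xx j i (-t) = C.xx j i (-(s + t))
    rw [C.xx_add', neg_add]
  · exact C.zz_add i j s t

/-- `g` flips the coordinates in `S`. -/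
def Flip (g : Γ) (S : Finset (Fin n)) : Prop :=
  ∀ {a b : Ix n}, Sh a b → ∀ s : K, g * C.XF a b s * g⁻¹ = C.XF (fl S a) (fl S b) s

variable {C}

lemma Flip.eq' {g : Γ} {S : Finset (Fin n)} (F : C.Flip g S) {a b : Ix n} (h : Sh a b) (s : K) :
    C.XF a b s = g * C.XF (fl S a) (fl S b) s * g⁻¹ := by
  have := F (sh_fl S h) s
  rw [fl_fl, fl_fl] at this
  exact this.symm

lemma Flip.mul {g g' : Γ} {S S' : Finset (Fin n)} (F : C.Flip g S) (F' : C.Flip g' S') {T : Finset (Fin n)}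
    (hT : ∀ x, fl S (fl S' x) = fl T x) : C.Flip (g * g') T := by
  intro a b h s
  rw [← conj2, F' h, F (sh_fl S' h), hT, hT]

lemma flip_one : C.Flip 1 ∅ := by
  intro a b h s
  simp [fl]

variable (C)

lemma other {i p q : Fin n} (h : i ∈ ({p, q} : Finset (Fin n))) (hpq : p ≠ q) :
    ∃ r, r ≠ i ∧ r ∈ ({p, q} : Finset (Fin n)) ∧ C.tau p q = C.tau i r := by
  simp only [Finset.mem_insert, Finset.mem_singleton] at h
  rcases h with rfl | rfl
  · exact ⟨q, hpq.symm, by simp, rfl⟩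
  · exact ⟨p, hpq, by simp, C.tau_symm _ _⟩

lemma pair_eq {i j p q : Fin n} (h : i ≠ j) (hi : i ∈ ({p, q} : Finset (Fin n))) (hj : j ∈ ({p, q} : Finset (Fin n))) :
    C.tau p q = C.tau i j := by
  simp only [Finset.mem_insert, Finset.mem_singleton] at hi hj
  rcases hi with rfl | rfl <;> rcases hj with rfl | rfl
  · exact absurd rfl h
  · rfl
  · exact C.tau_symm _ _
  · exact absurd rfl h

lemma ne_of_mem_not_mem {x y : Fin n} {S : Finset (Fin n)} (h1 : x ∈ S) (h2 : y ∉ S) : x ≠ y := by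
  rintro rfl
  exact h2 h1

lemma not_mem_pair {i p q : Fin n} (h : i ∉ ({p, q} : Finset (Fin n))) : i ≠ p ∧ i ≠ q := by
  simpa using h

/-- The action on the three kinds of roots. -/
lemma flip_lr {p q i j : Fin n} (hpq : p ≠ q) (h : i ≠ j) (s : K) :
    C.tau p q * C.xx i j s * (C.tau p q)⁻¹ =
      C.XF (fl {p, q} (Sum.inl i)) (fl {p, q} (Sum.inr j)) s := by
  by_cases hi : i ∈ ({p, q} : Finset (Fin n)) <;> by_cases hj : j ∈ ({p, q} : Finset (Fin n))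
  · rw [fl_inl hi, fl_inr hj, C.pair_eq h hi hj, C.tau_x h]
    rfl
  · obtain ⟨r, h1, h2, h3⟩ := C.other hi hpq
    rw [fl_inl hi, fl_inr' hj, h3, ← C.zz_eq h1 (ne_of_mem_not_mem h2 hj)]
    rfl
  · obtain ⟨r, h1, h2, h3⟩ := C.other hj hpq
    rw [fl_inl' hi, fl_inr hj, h3, ← C.yy_eq (ne_of_mem_not_mem h2 hi) h1]
    rfl
  · obtain ⟨a1, a2⟩ := not_mem_pair hi
    obtain ⟨a3, a4⟩ := not_mem_pair hj
    rw [fl_inl' hi, fl_inr' hj, (C.tau_xx a1 a2 a3 a4 s).eq]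
    simp
    rfl

lemma flip_ll {p q i j : Fin n} (hpq : p ≠ q) (h : i ≠ j) (s : K) :
    C.tau p q * C.yy i j s * (C.tau p q)⁻¹ =
      C.XF (fl {p, q} (Sum.inl i)) (fl {p, q} (Sum.inl j)) s := by
  by_cases hi : i ∈ ({p, q} : Finset (Fin n)) <;> by_cases hj : j ∈ ({p, q} : Finset (Fin n))
  · rw [fl_inl hi, fl_inl hj, C.pair_eq h hi hj, C.Y3 h (C.thd_ne1 i j) (C.thd_ne2 i j)]
    rfl
  · obtain ⟨r, h1, h2, h3⟩ := C.other hi hpq
    rw [fl_inl hi, fl_inl' hj, h3, C.Y1 h h1 (ne_of_mem_not_mem h2 hj)]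
    change _ = C.xx j i (-s)
    rfl
  · obtain ⟨r, h1, h2, h3⟩ := C.other hj hpq
    rw [fl_inl' hi, fl_inl hj, h3, C.Y2 h (ne_of_mem_not_mem h2 hi) h1]
    rfl
  · obtain ⟨a1, a2⟩ := not_mem_pair hi
    obtain ⟨a3, a4⟩ := not_mem_pair hj
    rw [fl_inl' hi, fl_inl' hj, C.Y4 a1 a2 a3 a4]
    rfl

lemma flip_rr {p q i j : Fin n} (hpq : p ≠ q) (h : i ≠ j) (s : K) :
    C.tau p q * C.zz i j s * (C.tau p q)⁻¹ =
      C.XF (fl {p, q} (Sum.inr i)) (fl {p, q} (Sum.inr j)) s := by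
  by_cases hi : i ∈ ({p, q} : Finset (Fin n)) <;> by_cases hj : j ∈ ({p, q} : Finset (Fin n))
  · rw [fl_inr hi, fl_inr hj, C.pair_eq h hi hj, C.Z3 h (C.thd_ne1 i j) (C.thd_ne2 i j)]
    rfl
  · obtain ⟨r, h1, h2, h3⟩ := C.other hi hpq
    rw [fl_inr hi, fl_inr' hj, h3, C.Z1 h h1 (ne_of_mem_not_mem h2 hj)]
    rfl
  · obtain ⟨r, h1, h2, h3⟩ := C.other hj hpq
    rw [fl_inr' hi, fl_inr hj, h3, C.Z2 h (ne_of_mem_not_mem h2 hi) h1]
    rfl
  · obtain ⟨a1, a2⟩ := not_mem_pair hi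
    obtain ⟨a3, a4⟩ := not_mem_pair hj
    rw [fl_inr' hi, fl_inr' hj, C.Z4 a1 a2 a3 a4]
    rfl

/-- The flip of a pair of coordinates. -/
lemma flip_tau {p q : Fin n} (hpq : p ≠ q) : C.Flip (C.tau p q) {p, q} := by
  intro a b h s
  rcases a with i | i <;> rcases b with j | j
  · exact C.flip_ll hpq (sh_ll h) s
  · exact C.flip_lr hpq (sh_lr h) s
  · have h' : Sh (Sum.inl j : Ix n) (Sum.inr i) := h.symm
    have e := C.flip_lr hpq (sh_lr h') (-s)
    change C.tau p q * C.xx j i (-s) * (C.tau p q)⁻¹ = _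
    rw [e, C.XF_symm (sh_fl _ h')]
    rw [neg_neg]
  · exact C.flip_rr hpq (sh_rr h) s

/-- Even flips. -/
lemma exists_flip_even : ∀ (k : ℕ) (S : Finset (Fin n)), S.card = 2 * k → ∃ g, C.Flip g S := by
  classical
  intro k
  induction k with
  | zero =>
    intro S hS
    have : S = ∅ := Finset.card_eq_zero.1 (by simpa using hS)
    subst this
    exact ⟨1, flip_one⟩
  | succ k ih =>
    intro S hS
    obtain ⟨p, hp⟩ : S.Nonempty := Finset.card_pos.1 (by omega)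
    have h1 : (S.erase p).card = 2 * k + 1 := by
      rw [Finset.card_erase_of_mem hp]
      omega
    obtain ⟨q, hq⟩ : (S.erase p).Nonempty := Finset.card_pos.1 (by omega)
    have h2 : ((S.erase p).erase q).card = 2 * k := by
      rw [Finset.card_erase_of_mem hq]
      omega
    obtain ⟨g, hg⟩ := ih _ h2
    have hpq : p ≠ q := (Finset.ne_of_mem_erase hq).symm
    refine ⟨_, Flip.mul (C.flip_tau hpq) hg ?_⟩
    intro x
    have hpT : p ∉ insert q ((S.erase p).erase q) := by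
      simp [hpq]
    have e1 : fl {p, q} (fl ((S.erase p).erase q) x) = fl {p} (fl {q} (fl ((S.erase p).erase q) x)) := by
      rw [fl_insert (S := {q}) (k := p) (by simpa using hpq)]
    have hqT : q ∉ (S.erase p).erase q := Finset.notMem_erase q _
    rw [e1, fl_insert hqT, fl_insert hpT, Finset.insert_erase hq, Finset.insert_erase hp]

lemma exists_flip (P Q : Finset (Ix n)) (hP : ∀ x ∈ P, x.swap ∉ P) (hQ : ∀ y ∈ Q, y.swap ∉ Q)
    (hPQ : ∀ x ∈ P, x ∉ Q) {r : Fin n} (hr1 : ∀ x ∈ P, ixOf x ≠ r) (hr2 : ∀ x ∈ Q, ixOf x ≠ r) :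
    ∃ (S : Finset (Fin n)) (g : Γ), C.Flip g S ∧ (∀ x ∈ P, fl S x = Sum.inl (ixOf x)) ∧
      (∀ y ∈ Q, fl S y = Sum.inr (ixOf y)) := by
  classical
  obtain ⟨S, hS1, hS2⟩ := exists_fl P Q hP hQ hPQ
  rcases Nat.even_or_odd' S.card with ⟨k, hk | hk⟩
  · obtain ⟨g, hg⟩ := C.exists_flip_even k S hk
    exact ⟨S, g, hg, hS1, hS2⟩
  · have key : ∃ S' : Finset (Fin n), (∃ k', S'.card = 2 * k') ∧ ∀ x : Ix n, ixOf x ≠ r → fl S' x = fl S x := by
      by_cases hm : r ∈ S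
      · refine ⟨S.erase r, ⟨k, by rw [Finset.card_erase_of_mem hm]; omega⟩, ?_⟩
        intro x hx
        simp only [fl, Finset.mem_erase, hx, ne_eq, not_false_eq_true, true_and]
      · refine ⟨insert r S, ⟨k + 1, by rw [Finset.card_insert_of_notMem hm]; omega⟩, ?_⟩
        intro x hx
        simp only [fl, Finset.mem_insert, hx, false_or]
    obtain ⟨S', ⟨k', hk'⟩, hS'⟩ := key
    obtain ⟨g, hg⟩ := C.exists_flip_even k' S' hk'
    refine ⟨S', g, hg, ?_, ?_⟩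
    · intro x hx
      rw [hS' x (hr1 x hx), hS1 x hx]
    · intro x hx
      rw [hS' x (hr2 x hx), hS2 x hx]

end CfD

end Cfsg.Agent.Lib.PrsOm
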