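import Mathlib
import Cfsg.Agent.Lib.PrsOmC

/-!
# Presentations of `Ω⁺_{2n}`: the Steinberg relations hold
-/

set_option autoImplicit false
set_option linter.unusedSectionVars false
set_option linter.unusedVariables false

namespace Cfsg.Agent.Lib.PrsOm

open Matrix
open Cfsg.Agent.Lib.PrsSp (SLN Mono wW dn mono_wW mono_dn dn_mul dn_one dn_inv exists_mono2 IsBlk AddGen sl_eq comm_conj'
  tv_isBlk wW_coe cmS mem_cmS dn_congr fl fl_inl fl_inr fl_inl' fl_inr' fl_fl fl_swap fl_inj ixOf ixOf_swap ixOf_fl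
  exists_fl sh_fl fl_insert ix_ne sl_comm sl_comm')
open Cfsg.Agent.Lib.PrsSp.Cfg (conj_swap')
open Cfsg.Agent.Lib.SpN (Ix Sh sw_sw sw_ne sw_inj sw_ne_sw ne_sw_symm)

variable {n : ℕ} {K : Type*} [Field K]

section Scale

variable {Γ : Type*} [Group Γ]

/-- Scaling from one commutation to all. -/
lemma scale_comm {ζ : K} (ζ0 : ζ ≠ 0) (agen : AddGen ζ) {X Y : K → Γ}
    (hX : ∀ s t, X s * X t = X (s + t)) (hY : ∀ s t, Y s * Y t = Y (s + t))
    (hg : ∀ c : K, c ≠ 0 → ∃ g : Γ, (∀ s, g * X s * g⁻¹ = X (c * s)) ∧ ∀ u, g * Y u * g⁻¹ = Y (c * u))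
    (hh : ∀ c : K, c ≠ 0 → ∃ h : Γ, (∀ s, h * X s * h⁻¹ = X (c⁻¹ * s)) ∧ ∀ u, h * Y u * h⁻¹ = Y (c * u))
    (h11 : Commute (X 1) (Y 1)) : ∀ s u, Commute (X s) (Y u) := by
  have X0 : X 0 = 1 := by
    have := hX 0 0
    rw [add_zero] at this
    exact mul_eq_left.1 this
  have Y0 : Y 0 = 1 := by
    have := hY 0 0
    rw [add_zero] at this
    exact mul_eq_left.1 this
  have Xn : ∀ s, X (-s) = (X s)⁻¹ := fun s => by
    rw [eq_inv_iff_mul_eq_one, hX, neg_add_cancel, X0]
  have Yn : ∀ s, Y (-s) = (Y s)⁻¹ := fun s => by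
    rw [eq_inv_iff_mul_eq_one, hY, neg_add_cancel, Y0]
  have stepX : ∀ (c : K), c ≠ 0 → ∀ s u, Commute (X s) (Y u) → Commute (X (c * c * s)) (Y u) := by
    intro c hc s u h
    obtain ⟨g, g1, g2⟩ := hg c hc
    obtain ⟨k, k1, k2⟩ := hh c⁻¹ (inv_ne_zero hc)
    have h1 := comm_conj' k (comm_conj' g h)
    rw [g1, g2, k1, k2, inv_inv, ← mul_assoc c⁻¹, inv_mul_cancel₀ hc, one_mul, ← mul_assoc] at h1
    exact h1
  have stepY : ∀ (c : K), c ≠ 0 → ∀ s u, Commute (X s) (Y u) → Commute (X s) (Y (c * c * u)) := by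
    intro c hc s u h
    obtain ⟨g, g1, g2⟩ := hg c hc
    obtain ⟨k, k1, k2⟩ := hh c hc
    have h1 := comm_conj' k (comm_conj' g h)
    rw [g1, g2, k1, k2, ← mul_assoc c⁻¹, inv_mul_cancel₀ hc, one_mul, ← mul_assoc] at h1
    exact h1
  have h1 : ∀ j : ℕ, Commute (X ((ζ ^ 2) ^ j)) (Y 1) := by
    intro j
    induction j with
    | zero => simpa using h11
    | succ j ih =>
      have := stepX ζ ζ0 _ _ ih
      rwa [show ζ * ζ * (ζ ^ 2) ^ j = (ζ ^ 2) ^ (j + 1) by ring] at this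
  have h2 : ∀ (j l : ℕ), Commute (X ((ζ ^ 2) ^ j)) (Y ((ζ ^ 2) ^ l)) := by
    intro j l
    induction l with
    | zero => simpa using h1 j
    | succ l ih =>
      have := stepY ζ ζ0 _ _ ih
      rwa [show ζ * ζ * (ζ ^ 2) ^ l = (ζ ^ 2) ^ (l + 1) by ring] at this
  have h3 : ∀ (j : ℕ) (u : K), Commute (X ((ζ ^ 2) ^ j)) (Y u) := by
    intro j u
    refine agen.ind (P := fun u => Commute (X ((ζ ^ 2) ^ j)) (Y u)) ?_ ?_ ?_ (h2 j) u
    · change Commute _ (Y 0)
      rw [Y0]
      exact Commute.one_right _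
    · intro a b ha hb
      change Commute _ (Y (a + b))
      rw [← hY]
      exact ha.mul_right hb
    · intro a ha
      change Commute _ (Y (-a))
      rw [Yn]
      exact ha.inv_right
  intro s u
  refine agen.ind (P := fun s => Commute (X s) (Y u)) ?_ ?_ ?_ (fun j => h3 j u) s
  · change Commute (X 0) _
    rw [X0]
    exact Commute.one_left _
  · intro a b ha hb
    change Commute (X (a + b)) _
    rw [← hX]
    exact ha.mul_left hb
  · intro a ha
    change Commute (X (-a)) _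
    rw [Xn]
    exact ha.inv_left

end Scale

namespace CfD

variable {Γ : Type*} [Group Γ] (C : CfD n K Γ)

lemma xx_comm {i j k l : Fin n} (hjk : j ≠ k) (hli : l ≠ i) (t u : K) :
    Commute (C.xx i j t) (C.xx k l u) := by
  by_cases h : i = j
  · subst h
    rw [xx_self]
    exact Commute.one_left _
  by_cases h' : k = l
  · subst h'
    rw [xx_self]
    exact Commute.one_right _
  rw [xx_of C h, xx_of C h']
  exact (sl_comm h h' hjk hli t u).map C.A

lemma xx_rel {i j k : Fin n} (h : i ≠ j) (h' : j ≠ k) (h'' : i ≠ k) (t u : K) :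
    C.xx i j t * C.xx j k u * (C.xx i j t)⁻¹ = C.xx j k u * C.xx i k (t * u) := by
  have e := congrArg C.A (sl_comm' h h' h'' t u)
  simp only [map_mul] at e
  have hc := (C.xx_comm (i := i) (j := k) (k := j) (l := k) h'.symm h''.symm (t * u) u).eq
  rw [xx_of C h'', xx_of C h'] at hc
  rw [xx_of C h, xx_of C h', xx_of C h'', e, hc]
  group

lemma mono_yy {μ : SLN n K} {σ : Equiv.Perm (Fin n)} {c : Fin n → K} (M : Mono μ σ c)
    (hc : ∀ k, c k ^ 2 = 1) (i j : Fin n) (s : K) :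
    C.A μ * C.yy i j s * (C.A μ)⁻¹ = C.yy (σ i) (σ j) (c i * s * (c j)⁻¹) := by
  have h1 := C.thd_ne1 i j
  have h2 := C.thd_ne2 i j
  rw [C.yy_eq h1 h2, C.yy_eq (σ.injective.ne h1) (σ.injective.ne h2), ← C.tau_conj M hc, ← C.mono_xx M]
  group

section Base

variable {X : K → Γ} (hX : ∀ s t, X s * X t = X (s + t))
  (hg : ∀ (c : K) (hc : c ≠ 0) (s : K), C.A (dn C.h03 c hc) * X s * (C.A (dn C.h03 c hc))⁻¹ = X (c * s))
  (hh : ∀ (c : K) (hc : c ≠ 0) (s : K), C.A (dn C.h12 c hc) * X s * (C.A (dn C.h12 c hc))⁻¹ = X (c⁻¹ * s))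
  (h11 : Commute (X 1) (C.yy C.i0 C.i1 1))

include hX hg hh h11

lemma comm_Y : ∀ s u, Commute (X s) (C.yy C.i0 C.i1 u) := by
  refine scale_comm C.ζ0 C.agen hX (fun s t => C.yy_add _ _ s t) ?_ ?_ h11
  · intro c hc
    refine ⟨C.A (dn C.h03 c hc), hg c hc, fun u => ?_⟩
    have e := fun u => C.yy_eq (i := C.i0) (j := C.i1) (r := C.i2) C.h02.symm C.h12.symm u
    have M := mono_dn C.h03 c hc
    have b1 : IsBlk C.i1 (dn C.h03 c hc) := M.isBlk rfl (by simp [C.h01.symm, C.h13])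
    have b2 : IsBlk C.i2 (dn C.h03 c hc) := M.isBlk rfl (by simp [C.h02.symm, C.h23])
    have hcomm := C.tau_blk b1 b2
    rw [e, e, conj_swap' hcomm.symm, C.mono_xx M]
    simp only [Equiv.Perm.coe_one, id_eq, if_true, if_neg C.h01.symm, if_neg C.h13, inv_one, mul_one]
  · intro c hc
    refine ⟨C.A (dn C.h12 c hc), hh c hc, fun u => ?_⟩
    have e := fun u => C.yy_eq (i := C.i0) (j := C.i1) (r := C.i2) C.h02.symm C.h12.symm u
    have h5 := C.tau_dn C.h12 hc
    rw [C.tau_inv] at h5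
    have h6 : C.A (dn C.h12 c hc) * C.tau C.i1 C.i2 = C.tau C.i1 C.i2 * (C.A (dn C.h12 c hc))⁻¹ := by
      rw [← h5]
      have := C.tau_sq C.i1 C.i2
      calc C.A (dn C.h12 c hc) * C.tau C.i1 C.i2
          = (C.tau C.i1 C.i2 * C.tau C.i1 C.i2) * (C.A (dn C.h12 c hc) * C.tau C.i1 C.i2) := by rw [this, one_mul]
        _ = _ := by group
    rw [e, e, CfD.conj2, h6, ← CfD.conj2, ← map_inv, dn_inv, C.mono_xx (mono_dn C.h12 c⁻¹ (inv_ne_zero hc))]
    simp only [Equiv.Perm.coe_one, id_eq, if_true, if_neg C.h01, if_neg C.h02, inv_inv, one_mul]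
    rw [mul_comm u c]

end Base

lemma yy_base (u : K) : C.yy C.i0 C.i1 u =
    (C.A (wW C.h02) * C.t * (C.A (wW C.h02))⁻¹) * C.xx C.i0 C.i1 u * (C.A (wW C.h02) * C.t * (C.A (wW C.h02))⁻¹)⁻¹ := by
  have e1 := C.tau_eq (mono_wW (K := K) C.h02) (s_wW C.h02) (i := C.i1) (j := C.i2)
    (Or.inr ⟨Equiv.swap_apply_left _ _, Equiv.swap_apply_of_ne_of_ne C.h01.symm C.h12⟩)
  rw [e1]
  exact C.yy_eq C.h02.symm C.h12.symm u

lemma comm_xy0 : ∀ s u, Commute (C.xx C.i0 C.i1 s) (C.yy C.i0 C.i1 u) := by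
  refine C.comm_Y (fun s t => C.xx_add' _ _ s t) ?_ ?_ ?_
  · intro c hc s
    rw [C.mono_xx (mono_dn C.h03 c hc)]
    simp only [Equiv.Perm.coe_one, id_eq, if_true, if_neg C.h01.symm, if_neg C.h13, inv_one, mul_one]
  · intro c hc s
    rw [C.mono_xx (mono_dn C.h12 c hc)]
    simp only [Equiv.Perm.coe_one, id_eq, if_true, if_neg C.h01, if_neg C.h02, one_mul]
    rw [mul_comm]
  · rw [C.yy_base, C.xx_of C.h01]
    exact C.rE

lemma comm_xyF (hn : n ≤ 4) : ∀ s u, Commute (C.xx C.i2 C.i3 s) (C.yy C.i0 C.i1 u) := by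
  refine C.comm_Y (fun s t => C.xx_add' _ _ s t) ?_ ?_ ?_
  · intro c hc s
    rw [C.mono_xx (mono_dn C.h03 c hc)]
    simp only [Equiv.Perm.coe_one, id_eq, if_true, if_neg C.h02.symm, if_neg C.h23, if_neg C.h03.symm, inv_inv, one_mul]
    rw [mul_comm]
  · intro c hc s
    rw [C.mono_xx (mono_dn C.h12 c hc)]
    simp only [Equiv.Perm.coe_one, id_eq, if_true, if_neg C.h13.symm, if_neg C.h23.symm, if_neg C.h12.symm, inv_one, mul_one]
  · rw [C.yy_base, C.xx_of C.h23, C.xx_of C.h01]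
    exact C.rF hn

lemma comm_xy {i j : Fin n} (h : i ≠ j) (s u : K) : Commute (C.xx i j s) (C.yy i j u) := by
  obtain ⟨μ, σ, c, M, hc, e1, e2⟩ := exists_mono2 (K := K) C.h01 h
  have h1 := comm_conj' (C.A μ) (C.comm_xy0 (c C.i0 * s * (c C.i1)⁻¹) (c C.i0 * u * (c C.i1)⁻¹))
  rw [C.mono_xx M, C.mono_yy M hc, e1, e2] at h1
  have a1 := hc C.i0
  have a2 := hc C.i1
  have a3 : (c C.i1)⁻¹ = c C.i1 := sign_inv_eq a2
  rw [a3] at h1
  have e3 : ∀ x : K, c C.i0 * (c C.i0 * x * c C.i1) * c C.i1 = x := fun x => by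
    linear_combination (x * c C.i1 ^ 2) * a1 + x * a2
  rwa [e3, e3] at h1

lemma comm_xyF' (hn : n ≤ 4) {i j k l : Fin n} (h1 : i ≠ j) (h2 : i ≠ k) (h3 : i ≠ l) (h4 : j ≠ k) (h5 : j ≠ l) (h6 : k ≠ l)
    (s u : K) : Commute (C.xx i j s) (C.yy k l u) := by
  obtain ⟨μ, σ, c, M, hc, e1, e2, e3, e4⟩ := exists_mono4 (K := K) C.h23 C.h02.symm C.h12.symm C.h03.symm C.h13.symm C.h01
    h1 h2 h3 h4 h5 h6
  have h7 := comm_conj' (C.A μ) (C.comm_xyF hn (c C.i2 * s * (c C.i3)⁻¹) (c C.i0 * u * (c C.i1)⁻¹))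
  rw [C.mono_xx M, C.mono_yy M hc, e1, e2, e3, e4] at h7
  rw [sign_inv_eq (hc _), sign_inv_eq (hc _)] at h7
  have e5 : ∀ (a b x : K), a ^ 2 = 1 → b ^ 2 = 1 → a * (a * x * b) * b = x := fun a b x ha hb => by
    linear_combination (x * b ^ 2) * ha + x * hb
  rwa [e5 _ _ _ (hc _) (hc _), e5 _ _ _ (hc _) (hc _)] at h7

include C in
lemma avoid3 (x y z : Fin n) : ∃ r : Fin n, r ≠ x ∧ r ≠ y ∧ r ≠ z := by
  classical
  by_contra hno
  push Not at hno
  have hsub : ({C.i0, C.i1, C.i2, C.i3} : Finset (Fin n)) ⊆ {x, y, z} := by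
    intro r hr
    simp only [Finset.mem_insert, Finset.mem_singleton]
    by_cases h1 : r = x
    · exact Or.inl h1
    by_cases h2 : r = y
    · exact Or.inr (Or.inl h2)
    · exact Or.inr (Or.inr (hno r h1 h2))
  have h1 := Finset.card_le_card hsub
  have h2 : ({C.i0, C.i1, C.i2, C.i3} : Finset (Fin n)).card = 4 := by
    rw [Finset.card_insert_of_notMem, Finset.card_insert_of_notMem, Finset.card_pair C.h23]
    · simp [C.h12, C.h13]
    · simp [C.h01, C.h02, C.h03]
  have h3 : ({x, y, z} : Finset (Fin n)).card ≤ 3 := Finset.card_le_three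
  omega

lemma Flip.conj_rel {g a b c d : Γ} (h : a * b * a⁻¹ = c * d) :
    (g * a * g⁻¹) * (g * b * g⁻¹) * (g * a * g⁻¹)⁻¹ = (g * c * g⁻¹) * (g * d * g⁻¹) := by
  calc _ = g * (a * b * a⁻¹) * g⁻¹ := by group
    _ = _ := by
      rw [h]
      group

lemma XF_relC {a b d : Ix n} (hab : Sh a b) (h1 : d ≠ a) (h2 : d ≠ a.swap) (h3 : d ≠ b) (h4 : d ≠ b.swap) (t u : K) :
    C.XF a b t * C.XF b.swap d u * (C.XF a b t)⁻¹ = C.XF b.swap d u * C.XF a d (t * u) := by
  classical
  obtain ⟨r, r1, r2, r3⟩ := C.avoid3 (ixOf a) (ixOf b) (ixOf d)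
  obtain ⟨S, g, F, hS1, hS2⟩ := C.exists_flip {a} {b, d}
    (by simpa using sw_ne a)
    (by
      simp only [Finset.mem_insert, Finset.mem_singleton, not_or]
      rintro x (rfl | rfl)
      · exact ⟨sw_ne _, h4.symm⟩
      · exact ⟨(ne_sw_symm h4).symm, sw_ne _⟩)
    (by
      simp only [Finset.mem_insert, Finset.mem_singleton, not_or]
      rintro x rfl
      exact ⟨hab.1, h1.symm⟩) (r := r)
    (by
      simp only [Finset.mem_singleton]
      rintro x rfl
      exact r1.symm)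
    (by
      simp only [Finset.mem_insert, Finset.mem_singleton]
      rintro x (rfl | rfl)
      · exact r2.symm
      · exact r3.symm)
  have ea := hS1 a (by simp)
  have eb := hS2 b (by simp)
  have ed := hS2 d (by simp)
  have Sad : Sh a d := ⟨h1.symm, h2⟩
  have Sbd : Sh b.swap d := ⟨h4.symm, by rw [sw_sw]; exact h3⟩
  have eb' : fl S b.swap = Sum.inl (ixOf b) := by
    rw [fl_swap, eb]
    rfl
  have n1 : ixOf a ≠ ixOf b := ix_ne hab
  have n2 : ixOf b ≠ ixOf d := by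
    have := ix_ne Sbd
    rwa [ixOf_swap] at this
  have n3 : ixOf a ≠ ixOf d := ix_ne Sad
  rw [F.eq' hab, F.eq' Sbd, F.eq' Sad, ea, eb, ed, eb']
  exact Flip.conj_rel (C.xx_rel n1 n2 n3 t u)

lemma XF_relC' {a b : Ix n} (hab : Sh a b) (t u : K) :
    C.XF a b t * C.XF b.swap a u = C.XF b.swap a u * C.XF a b t := by
  classical
  obtain ⟨r, r1, r2, -⟩ := C.avoid3 (ixOf a) (ixOf b) (ixOf b)
  obtain ⟨S, g, F, hS1, hS2⟩ := C.exists_flip {a} {b}
    (by simpa using sw_ne a)
    (by simpa using sw_ne b)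
    (by simpa using hab.1) (r := r)
    (by
      simp only [Finset.mem_singleton]
      rintro x rfl
      exact r1.symm)
    (by
      simp only [Finset.mem_singleton]
      rintro x rfl
      exact r2.symm)
  have ea := hS1 a (by simp)
  have eb := hS2 b (by simp)
  have Sba : Sh b.swap a := hab.symm.sl
  have eb' : fl S b.swap = Sum.inl (ixOf b) := by
    rw [fl_swap, eb]
    rfl
  have n1 : ixOf a ≠ ixOf b := ix_ne hab
  rw [F.eq' hab, F.eq' Sba, ea, eb, eb']
  have h5 : C.XF (Sum.inl (ixOf b)) (Sum.inl (ixOf a)) u = C.yy (ixOf a) (ixOf b) (-u) := by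
    rw [C.yy_symm n1, neg_neg]
    rfl
  rw [h5]
  exact comm_conj' g (C.comm_xy n1 t (-u))

lemma commXX_main {a b c d : Ix n} (hab : Sh a b) (hcd : Sh c d) (h1 : c ≠ a.swap) (h2 : c ≠ b.swap)
    (h3 : d ≠ a.swap) (h4 : d ≠ b.swap) (h5 : c ≠ b) (h6 : d ≠ a) (t u : K) :
    C.XF a b t * C.XF c d u = C.XF c d u * C.XF a b t := by
  classical
  have hP : ∀ x ∈ ({a, c} : Finset (Ix n)), x.swap ∉ ({a, c} : Finset (Ix n)) := by
    simp only [Finset.mem_insert, Finset.mem_singleton, not_or]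
    rintro x (rfl | rfl)
    · exact ⟨sw_ne _, h1.symm⟩
    · exact ⟨(ne_sw_symm h1).symm, sw_ne _⟩
  have hQ : ∀ y ∈ ({b, d} : Finset (Ix n)), y.swap ∉ ({b, d} : Finset (Ix n)) := by
    simp only [Finset.mem_insert, Finset.mem_singleton, not_or]
    rintro x (rfl | rfl)
    · exact ⟨sw_ne _, h4.symm⟩
    · exact ⟨(ne_sw_symm h4).symm, sw_ne _⟩
  have hPQ : ∀ x ∈ ({a, c} : Finset (Ix n)), x ∉ ({b, d} : Finset (Ix n)) := by
    simp only [Finset.mem_insert, Finset.mem_singleton, not_or]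
    rintro x (rfl | rfl)
    · exact ⟨hab.1, h6.symm⟩
    · exact ⟨h5, hcd.1⟩
  have n1 : ixOf a ≠ ixOf b := ix_ne hab
  have n2 : ixOf c ≠ ixOf d := ix_ne hcd
  -- the normal form
  have main : ∀ (S : Finset (Fin n)) (g : Γ), C.Flip g S → (∀ x ∈ ({a, c} : Finset (Ix n)), fl S x = Sum.inl (ixOf x)) →
      (∀ y ∈ ({b, d} : Finset (Ix n)), fl S y = Sum.inr (ixOf y)) →
      C.XF a b t * C.XF c d u = C.XF c d u * C.XF a b t := by
    intro S g F hS1 hS2
    have ea := hS1 a (by simp)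
    have ec := hS1 c (by simp)
    have eb := hS2 b (by simp)
    have ed := hS2 d (by simp)
    rw [F.eq' hab, F.eq' hcd, ea, eb, ec, ed]
    refine comm_conj' g (C.xx_comm ?_ ?_ t u)
    · intro e
      apply h2
      apply fl_inj S
      rw [fl_swap, eb, ec, e]
      rfl
    · intro e
      apply h3
      apply fl_inj S
      rw [fl_swap, ea, ed, e]
      rfl
  by_cases hr : ∃ r : Fin n, r ≠ ixOf a ∧ r ≠ ixOf b ∧ r ≠ ixOf c ∧ r ≠ ixOf d
  · obtain ⟨r, r1, r2, r3, r4⟩ := hr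
    obtain ⟨S, g, F, hS1, hS2⟩ := C.exists_flip _ _ hP hQ hPQ (r := r)
      (by
        simp only [Finset.mem_insert, Finset.mem_singleton]
        rintro x (rfl | rfl)
        · exact r1.symm
        · exact r3.symm)
      (by
        simp only [Finset.mem_insert, Finset.mem_singleton]
        rintro x (rfl | rfl)
        · exact r2.symm
        · exact r4.symm)
    exact main S g F hS1 hS2
  · -- all coordinates are used
    push Not at hr
    have hn : n ≤ 4 := by
      have hsub : (Finset.univ : Finset (Fin n)) ⊆ {ixOf a, ixOf b, ixOf c, ixOf d} := by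
        intro r _
        simp only [Finset.mem_insert, Finset.mem_singleton]
        by_cases e1 : r = ixOf a
        · exact Or.inl e1
        by_cases e2 : r = ixOf b
        · exact Or.inr (Or.inl e2)
        by_cases e3 : r = ixOf c
        · exact Or.inr (Or.inr (Or.inl e3))
        · exact Or.inr (Or.inr (Or.inr (hr r e1 e2 e3)))
      have h7 := Finset.card_le_card hsub
      have h8 : ({ixOf a, ixOf b, ixOf c, ixOf d} : Finset (Fin n)).card ≤ 4 := Finset.card_le_four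
      simp only [Finset.card_univ, Fintype.card_fin] at h7
      omega
    have dist : ∀ (x y z w : Fin n), (∀ r, r = x ∨ r = y ∨ r = z ∨ r = w) → y ≠ z ∧ y ≠ w ∧ z ≠ w ∧ x ≠ y ∧ x ≠ z ∧ x ≠ w := by
      intro x y z w hall
      have aux : ∀ (p q r' : Fin n), (∀ r, r = p ∨ r = q ∨ r = r') → False := by
        intro p q r' hh
        obtain ⟨r, r1, r2, r3⟩ := C.avoid3 p q r'
        rcases hh r with h | h | h
        · exact r1 h
        · exact r2 h
        · exact r3 h
      refine ⟨?_, ?_, ?_, ?_, ?_, ?_⟩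
      · rintro rfl
        exact aux x y w (fun r => by rcases hall r with h | h | h | h <;> tauto)
      · rintro rfl
        exact aux x y z (fun r => by rcases hall r with h | h | h | h <;> tauto)
      · rintro rfl
        exact aux x y z (fun r => by rcases hall r with h | h | h | h <;> tauto)
      · rintro rfl
        exact aux x z w (fun r => by rcases hall r with h | h | h | h <;> tauto)
      · rintro rfl
        exact aux x y w (fun r => by rcases hall r with h | h | h | h <;> tauto)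
      · rintro rfl
        exact aux x y z (fun r => by rcases hall r with h | h | h | h <;> tauto)
    obtain ⟨d1, d2, d3, d4, d5, d6⟩ := dist (ixOf a) (ixOf b) (ixOf c) (ixOf d) (fun r => by
      by_cases e1 : r = ixOf a
      · exact Or.inl e1
      by_cases e2 : r = ixOf b
      · exact Or.inr (Or.inl e2)
      by_cases e3 : r = ixOf c
      · exact Or.inr (Or.inr (Or.inl e3))
      · exact Or.inr (Or.inr (Or.inr (hr r e1 e2 e3))))
    obtain ⟨S, hS1, hS2⟩ := exists_fl _ _ hP hQ hPQ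
    rcases Nat.even_or_odd' S.card with ⟨k, hk | hk⟩
    · obtain ⟨g, F⟩ := C.exists_flip_even k S hk
      exact main S g F hS1 hS2
    · -- the odd case: use the extra relation
      have ed0 := hS2 d (by simp)
      have key : ∃ S' : Finset (Fin n), (∃ k', S'.card = 2 * k') ∧ (∀ x : Ix n, ixOf x ≠ ixOf d → fl S' x = fl S x) ∧
          fl S' d = Sum.inl (ixOf d) := by
        have hd1 : (Sum.inr (ixOf d) : Ix n).swap = Sum.inl (ixOf d) := rfl
        by_cases hm : ixOf d ∈ S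
        · refine ⟨S.erase (ixOf d), ⟨k, by rw [Finset.card_erase_of_mem hm]; omega⟩, ?_, ?_⟩
          · intro x hx
            simp only [fl, Finset.mem_erase, hx, ne_eq, not_false_eq_true, true_and]
          · have e1 : fl S d = d.swap := by
              rw [fl, if_pos hm]
            have e2 : fl (S.erase (ixOf d)) d = d := by
              rw [fl, if_neg (Finset.notMem_erase _ _)]
            rw [e2, ← sw_sw d, ← e1, ed0]
            rfl
        · refine ⟨insert (ixOf d) S, ⟨k + 1, by rw [Finset.card_insert_of_notMem hm]; omega⟩, ?_, ?_⟩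
          · intro x hx
            simp only [fl, Finset.mem_insert, hx, false_or]
          · have e1 : fl S d = d := by
              rw [fl, if_neg hm]
            have e2 : fl (insert (ixOf d) S) d = d.swap := by
              rw [fl, if_pos (Finset.mem_insert_self _ _)]
            rw [e2, ← e1, ed0]
            rfl
      obtain ⟨S', ⟨k', hk'⟩, hS', hSd⟩ := key
      obtain ⟨g, F⟩ := C.exists_flip_even k' S' hk'
      have ea : fl S' a = Sum.inl (ixOf a) := by
        rw [hS' a d6]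
        exact hS1 a (by simp)
      have eb : fl S' b = Sum.inr (ixOf b) := by
        rw [hS' b d2]
        exact hS2 b (by simp)
      have ec : fl S' c = Sum.inl (ixOf c) := by
        rw [hS' c d3]
        exact hS1 c (by simp)
      rw [F.eq' hab, F.eq' hcd, ea, eb, ec, hSd]
      exact comm_conj' g (C.comm_xyF' hn n1 d5 d6 d1 d2 d3 t u)

lemma XF_commXX {a b c d : Ix n} (hab : Sh a b) (hcd : Sh c d) (h1 : c ≠ a.swap) (h2 : c ≠ b.swap)
    (h3 : d ≠ a.swap) (h4 : d ≠ b.swap) (t u : K) :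
    C.XF a b t * C.XF c d u = C.XF c d u * C.XF a b t := by
  by_cases e1 : c = b
  · subst e1
    by_cases e2 : d = a
    · subst e2
      rw [C.XF_symm hcd, C.XF_add hab, C.XF_add hab, add_comm]
    · rw [C.XF_symm hcd]
      exact C.commXX_main hab hcd.symm h3 h4 h1 h2 (Ne.symm hcd.1) hab.1.symm _ _
  · by_cases e2 : d = a
    · subst e2
      rw [C.XF_symm hcd]
      exact C.commXX_main hab hcd.symm h3 h4 h1 h2 hab.1 hcd.1 _ _
    · exact C.commXX_main hab hcd h1 h2 h3 h4 e1 e2 t u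

/-- The Steinberg relations hold. -/
noncomputable def toData : Cfsg.Agent.Lib.DnN.Data n K Γ where
  X := C.XF
  Xsym := C.XF_symm
  addX := C.XF_add
  commXX := C.XF_commXX
  relC := C.XF_relC
  relC' := C.XF_relC'

variable {C}

lemma flip_wS {g : Γ} {S : Finset (Fin n)} (F : C.Flip g S) {a b : Ix n} (h : Sh a b) (t : K) :
    g * C.toData.wS a b t * g⁻¹ = C.toData.wS (fl S a) (fl S b) t := by
  have e1 := F h t
  have e2 := F h.ss t⁻¹
  rw [fl_swap, fl_swap] at e2
  change g * (C.XF a b t * C.XF a.swap b.swap t⁻¹ * C.XF a b t) * g⁻¹ =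
    C.XF (fl S a) (fl S b) t * C.XF (fl S a).swap (fl S b).swap t⁻¹ * C.XF (fl S a) (fl S b) t
  rw [← e1, ← e2]
  group

lemma flip_hh {g : Γ} {S : Finset (Fin n)} (F : C.Flip g S) {a b : Ix n} (h : Sh a b) (c : K) :
    g * C.toData.hh a b c * g⁻¹ = C.toData.hh (fl S a) (fl S b) c := by
  have e1 := flip_wS F h c
  have e2 := flip_wS F h (-1)
  change g * (C.toData.wS a b c * C.toData.wS a b (-1)) * g⁻¹ =
    C.toData.wS (fl S a) (fl S b) c * C.toData.wS (fl S a) (fl S b) (-1)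
  rw [← e1, ← e2]
  group

variable (C)

lemma wW_sq {i j : Fin n} (h : i ≠ j) :
    (wW h.symm * wW h.symm : SLN n K) = dn h (-1) neg_one_ne := by
  apply sl_eq
  ext r s
  have M := (mono_wW (K := K) h.symm).mul (mono_wW (K := K) h.symm)
  rw [M.entry]
  change _ = Matrix.diagonal _ r s
  rw [Matrix.diagonal_apply]
  have e : (Equiv.swap j i * Equiv.swap j i : Equiv.Perm (Fin n)) s = s := by simp
  rw [e]
  by_cases hrs : r = s
  · subst hrs
    rw [if_pos rfl, if_pos rfl]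
    by_cases h1 : r = i
    · subst h1
      simp [h.symm, h]
    · by_cases h2 : r = j
      · subst h2
        simp [h.symm, h]
      · simp [h1, h2, Equiv.swap_apply_of_ne_of_ne h2 h1]
  · rw [if_neg hrs, if_neg hrs]

/-- The value of the spin element. -/
lemma hh_lr {i j : Fin n} (h : i ≠ j) :
    C.toData.hh (Sum.inl i) (Sum.inr j) (-1) = C.A (dn h (-1) neg_one_ne) := by
  have e : C.toData.wS (Sum.inl i) (Sum.inr j) (-1) = C.A (wW h.symm) := by
    rw [← wW_alt h.symm]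
    change C.XF (Sum.inl i) (Sum.inr j) (-1) * C.XF (Sum.inr i) (Sum.inl j) (-1)⁻¹ * C.XF (Sum.inl i) (Sum.inr j) (-1) = _
    change C.xx i j (-1) * C.xx j i (-(-1)⁻¹) * C.xx i j (-1) = _
    have e2 : -(-1 : K)⁻¹ = 1 := by simp
    rw [e2, C.xx_of h, C.xx_of h.symm, map_mul, map_mul]
  change C.toData.wS (Sum.inl i) (Sum.inr j) (-1) * C.toData.wS (Sum.inl i) (Sum.inr j) (-1) = _
  rw [e, ← map_mul, wW_sq]

lemma hh_rr {i j : Fin n} (h : i ≠ j) :
    C.toData.hh (Sum.inr i) (Sum.inr j) (-1) = C.A (dn h (-1) neg_one_ne) := by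
  obtain ⟨r, r1, r2, -⟩ := C.avoid3 i j j
  have F : C.Flip (C.tau i r) {i, r} := C.flip_tau (Ne.symm r1)
  have S : Sh (Sum.inl i : Ix n) (Sum.inr j) := ⟨by simp, by simpa using h.symm⟩
  have e := flip_hh F S (-1)
  rw [fl_inl (by simp), fl_inr' (by simp [Ne.symm h, Ne.symm r2]), hh_lr C h] at e
  rw [← e]
  have hs : ∀ k : Fin n, ((if k = i then (-1 : K) else if k = j then (-1)⁻¹ else 1)) ^ 2 = 1 := by
    intro k
    split_ifs <;> simp
  rw [(C.tau_sign_diag (mono_dn h (-1) neg_one_ne) hs i r).eq]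
  group

/-- The spin relation. -/
lemma toData_zz : Cfsg.Agent.Lib.DnN.Data.Zz C.toData := by
  classical
  intro y x hs
  obtain ⟨r, r1, r2, -⟩ := C.avoid3 (ixOf y) (ixOf x) (ixOf x)
  obtain ⟨S, g, F, hS1, hS2⟩ := C.exists_flip {y} {x}
    (by simpa using sw_ne y)
    (by simpa using sw_ne x)
    (by simpa using hs.1) (r := r)
    (by
      simp only [Finset.mem_singleton]
      rintro x rfl
      exact r1.symm)
    (by
      simp only [Finset.mem_singleton]
      rintro x rfl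
      exact r2.symm)
  have ey := hS1 y (by simp)
  have ex := hS2 x (by simp)
  have ey' : fl S y.swap = Sum.inr (ixOf y) := by
    rw [fl_swap, ey]
    rfl
  have n1 : ixOf y ≠ ixOf x := ix_ne hs
  have e1 := flip_hh F hs (-1)
  have e2 := flip_hh F hs.sl (-1)
  rw [ey, ex, hh_lr C n1] at e1
  rw [ey', ex, hh_rr C n1] at e2
  have e3 : C.toData.hh y x (-1) * C.toData.hh y.swap x (-1) = g⁻¹ * ((g * C.toData.hh y x (-1) * g⁻¹) * (g * C.toData.hh y.swap x (-1) * g⁻¹)) * g := by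
    group
  rw [e3, e1, e2, ← map_mul, dn_mul]
  have e4 : dn n1 ((-1 : K) * -1) (mul_ne_zero neg_one_ne neg_one_ne) = 1 := by
    rw [dn_congr n1 (by simp : (-1 : K) * -1 = 1) _ one_ne_zero, dn_one]
  rw [e4, map_one]
  group

end CfD

end Cfsg.Agent.Lib.PrsOm
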