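import Mathlib
import Cfsg.Agent.Lib.PrsOmD

/-!
# Presentations of `Ω⁺_{2n}`: the model
-/

set_option autoImplicit false
set_option linter.unusedSectionVars false
set_option linter.unusedVariables false

namespace Cfsg.Agent.Lib.PrsOm

open Matrix
open QuadraticMap Cfsg.Agent.Lib.OrthoBasic Cfsg.Agent.Lib.OrthoSiegel Cfsg.Agent.Lib.OrthoGen
  Cfsg.Agent.Lib.OrthoCount Cfsg.Agent.Lib.OrthoOrder
open Cfsg.Agent.Lib.PrsSp (SLN Mono wW dn mono_wW mono_dn dn_mul dn_one dn_inv exists_mono2 IsBlk AddGen sl_eq comm_conj'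
  tv_isBlk wW_coe cmS mem_cmS dn_congr fl fl_inl fl_inr fl_inl' fl_inr' fl_fl fl_swap fl_inj ixOf ixOf_swap ixOf_fl
  exists_fl sh_fl fl_insert ix_ne sl_comm sl_comm' hT sl_mul_inv sl_inv_mul)
open Cfsg.Agent.Lib.DnN (Good EE EE_apply EE_conj EE_mem ev ev_apply ev_self ev_ne polar_ev Q_ev good_ev ndg XX XX_apply
  modelD OG_ext_ev wS_ev_a wS_ev_a' wS_ev_b wS_ev_b' wS_ev_off)
open Cfsg.Agent.Lib.SpN (Ix Sh sw_sw sw_ne sw_inj sw_ne_sw ne_sw_symm)

variable {n : ℕ} {K : Type*} [Field K] [Fintype K]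

/-- The action of `SL_n`. -/
noncomputable def embLin (g : SLN n K) : (Ix n → K) →ₗ[K] (Ix n → K) :=
  Matrix.toLin' (fromBlocks (g : Matrix (Fin n) (Fin n) K) 0 0 (hT g))

lemma embLin_inl (g : SLN n K) (v : Ix n → K) (i : Fin n) :
    embLin g v (Sum.inl i) = ((g : Matrix (Fin n) (Fin n) K) *ᵥ (v ∘ Sum.inl)) i := by
  simp [embLin, Matrix.toLin'_apply, fromBlocks_mulVec]

lemma embLin_inr (g : SLN n K) (v : Ix n → K) (i : Fin n) :
    embLin g v (Sum.inr i) = (hT g *ᵥ (v ∘ Sum.inr)) i := by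
  simp [embLin, Matrix.toLin'_apply, fromBlocks_mulVec]

lemma embLin_Q (g : SLN n K) (v : Ix n → K) : qPlus n K (embLin g v) = qPlus n K v := by
  rw [qPlus_apply, qPlus_apply]
  simp only [Cfsg.quadFormPlus, embLin_inl, embLin_inr]
  change (((g : Matrix (Fin n) (Fin n) K) *ᵥ (v ∘ Sum.inl)) ⬝ᵥ (hT g *ᵥ (v ∘ Sum.inr))) =
    ((v ∘ Sum.inl) ⬝ᵥ (v ∘ Sum.inr))
  have e1 : (g : Matrix (Fin n) (Fin n) K) *ᵥ (v ∘ Sum.inl) = (v ∘ Sum.inl) ᵥ* (g : Matrix (Fin n) (Fin n) K)ᵀ :=
    (Matrix.vecMul_transpose _ _).symm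
  rw [e1, ← Matrix.dotProduct_mulVec, Matrix.mulVec_mulVec, hT, ← Matrix.transpose_mul, sl_inv_mul, transpose_one,
    Matrix.one_mulVec]

/-- The embedding of `SL_n`. -/
noncomputable def emb : SLN n K →* OG (qPlus n K) where
  toFun g := OG.ofLinear ndg (embLin g) (embLin_Q g)
  map_one' := by
    apply OG_ext
    intro x
    funext y
    rcases y with i | i
    · change embLin 1 x (Sum.inl i) = _
      rw [embLin_inl]
      simp
    · change embLin 1 x (Sum.inr i) = _
      rw [embLin_inr]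
      simp [hT]
  map_mul' g g' := by
    apply OG_ext
    intro x
    funext y
    rcases y with i | i
    · change embLin (g * g') x (Sum.inl i) = embLin g (embLin g' x) (Sum.inl i)
      rw [embLin_inl, embLin_inl]
      have : (embLin g' x) ∘ Sum.inl = (g' : Matrix (Fin n) (Fin n) K) *ᵥ (x ∘ Sum.inl) := by
        funext j
        exact embLin_inl g' x j
      rw [this, Matrix.mulVec_mulVec, Matrix.SpecialLinearGroup.coe_mul]
    · change embLin (g * g') x (Sum.inr i) = embLin g (embLin g' x) (Sum.inr i)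
      rw [embLin_inr, embLin_inr]
      have : (embLin g' x) ∘ Sum.inr = hT g' *ᵥ (x ∘ Sum.inr) := by
        funext j
        exact embLin_inr g' x j
      rw [this, Matrix.mulVec_mulVec]
      congr 2
      simp only [hT, _root_.mul_inv_rev, Matrix.SpecialLinearGroup.coe_mul, transpose_mul]

lemma emb_apply (g : SLN n K) (v : Ix n → K) :
    ((emb g : OG (qPlus n K)) : (Ix n → K) ≃ₗ[K] (Ix n → K)) v = embLin g v := rfl

lemma emb_ev_inl {μ : SLN n K} {σ : Equiv.Perm (Fin n)} {c : Fin n → K} (M : Mono μ σ c) (j : Fin n) :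
    ((emb μ : OG (qPlus n K)) : (Ix n → K) ≃ₗ[K] (Ix n → K)) (ev (Sum.inl j)) = c j • ev (Sum.inl (σ j)) := by
  rw [emb_apply]
  funext y
  rcases y with i | i
  · rw [embLin_inl]
    have e : ((ev (Sum.inl j) : Ix n → K) ∘ Sum.inl) = Pi.single j 1 := by
      funext k
      simp [ev, Pi.single_apply]
    rw [e, Matrix.mulVec_single_one]
    change (μ : Matrix (Fin n) (Fin n) K) i j = _
    rw [M.entry]
    simp [ev, Pi.single_apply]
  · rw [embLin_inr]
    have e : ((ev (Sum.inl j) : Ix n → K) ∘ Sum.inr) = 0 := by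
      funext k
      simp [ev, Pi.single_apply]
    rw [e, Matrix.mulVec_zero]
    simp [ev, Pi.single_apply]

lemma emb_ev_inr {μ : SLN n K} {σ : Equiv.Perm (Fin n)} {c : Fin n → K} (M : Mono μ σ c) (j : Fin n) :
    ((emb μ : OG (qPlus n K)) : (Ix n → K) ≃ₗ[K] (Ix n → K)) (ev (Sum.inr j)) = (c j)⁻¹ • ev (Sum.inr (σ j)) := by
  rw [emb_apply]
  funext y
  rcases y with i | i
  · rw [embLin_inl]
    have e : ((ev (Sum.inr j) : Ix n → K) ∘ Sum.inl) = 0 := by
      funext k
      simp [ev, Pi.single_apply]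
    rw [e, Matrix.mulVec_zero]
    simp [ev, Pi.single_apply]
  · rw [embLin_inr]
    have e : ((ev (Sum.inr j) : Ix n → K) ∘ Sum.inr) = Pi.single j 1 := by
      funext k
      simp [ev, Pi.single_apply]
    rw [e, Matrix.mulVec_single_one]
    change ((μ⁻¹ : SLN n K) : Matrix (Fin n) (Fin n) K) j i = _
    rw [M.inv_entry]
    by_cases h : σ j = i
    · subst h
      simp [ev]
    · have h' : i ≠ σ j := fun e => h e.symm
      simp [ev, Pi.single_apply, h, h']

lemma tv_mulVec {i j : Fin n} (h : i ≠ j) (t : K) (a : Fin n → K) :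
    ((tv h t : SLN n K) : Matrix (Fin n) (Fin n) K) *ᵥ a = a + Pi.single i (t * a j) := by
  change Matrix.transvection i j t *ᵥ a = _
  rw [Matrix.transvection, Matrix.add_mulVec, Matrix.one_mulVec, Matrix.single_mulVec]
  rfl

lemma hT_tv {i j : Fin n} (h : i ≠ j) (t : K) :
    hT (tv h t) = ((tv h.symm (-t) : SLN n K) : Matrix (Fin n) (Fin n) K) := by
  rw [hT, Cfsg.Agent.Lib.PrsSp.tv_inv']
  change (Matrix.transvection i j (-t))ᵀ = Matrix.transvection j i (-t)
  rw [Matrix.transvection, Matrix.transvection, Matrix.transpose_add, Matrix.transpose_one, Matrix.transpose_single]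

lemma emb_tv {i j : Fin n} (h : i ≠ j) (t : K) :
    (emb (tv h t) : OG (qPlus n K)) = XX (Sum.inl i) (Sum.inr j) t := by
  have S : Sh (Sum.inl i : Ix n) (Sum.inr j) := ⟨by simp, by simpa using h.symm⟩
  apply OG_ext
  intro x
  rw [emb_apply, XX_apply S]
  funext y
  rcases y with k | k
  · rw [embLin_inl, tv_mulVec]
    by_cases hk : k = i
    · subst hk
      simp [ev, Pi.single_apply]
    · simp [ev, Pi.single_apply, hk]
  · rw [embLin_inr, hT_tv, tv_mulVec]
    by_cases hk : k = j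
    · subst hk
      simp [ev, Pi.single_apply, Function.comp_def]
    · simp [ev, Pi.single_apply, hk]

lemma emb_mem (g : SLN n K) : (emb g : OG (qPlus n K)) ∈ siegelE (qPlus n K) := by
  have hS : (siegelE (qPlus n K)).comap emb = ⊤ := by
    apply Cfsg.Agent.Lib.SLGen.eq_top_of_forall_transvection_mem
    intro i j hij t
    change emb (tv hij t) ∈ siegelE (qPlus n K)
    rw [emb_tv]
    exact EE_mem ndg (good_ev (by simpa using hij)) t
  have : g ∈ (siegelE (qPlus n K)).comap emb := by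
    rw [hS]
    exact Subgroup.mem_top g
  exact this

section Flip

/-- The flip linear map. -/
noncomputable def flipLin (S : Finset (Fin n)) : (Ix n → K) →ₗ[K] (Ix n → K) := LinearMap.funLeft K K (fl S)

lemma flipLin_apply (S : Finset (Fin n)) (v : Ix n → K) (x : Ix n) : flipLin S v x = v (fl S x) := rfl

lemma flipLin_Q (S : Finset (Fin n)) (v : Ix n → K) : qPlus n K (flipLin S v) = qPlus n K v := by
  rw [qPlus_apply, qPlus_apply]
  simp only [Cfsg.quadFormPlus, flipLin_apply]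
  apply Finset.sum_congr rfl
  intro i _
  by_cases h : i ∈ S
  · rw [fl_inl h, fl_inr h, mul_comm]
  · rw [fl_inl' h, fl_inr' h]

/-- The flip element. -/
noncomputable def flipEl (S : Finset (Fin n)) : OG (qPlus n K) := OG.ofLinear ndg (flipLin S) (flipLin_Q S)

lemma flipEl_apply (S : Finset (Fin n)) (v : Ix n → K) (x : Ix n) :
    ((flipEl S : OG (qPlus n K)) : (Ix n → K) ≃ₗ[K] (Ix n → K)) v x = v (fl S x) := rfl

lemma flipEl_ev (S : Finset (Fin n)) (c : Ix n) :
    ((flipEl S : OG (qPlus n K)) : (Ix n → K) ≃ₗ[K] (Ix n → K)) (ev c) = ev (fl S c) := by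
  funext x
  rw [flipEl_apply, ev_apply, ev_apply]
  by_cases h : x = fl S c
  · rw [if_pos h, h, fl_fl, if_pos rfl]
  · rw [if_neg h, if_neg]
    intro e
    apply h
    rw [← e, fl_fl]

lemma flipEl_mul {S S' T : Finset (Fin n)} (h : ∀ x, fl S' (fl S x) = fl T x) :
    (flipEl S * flipEl S' : OG (qPlus n K)) = flipEl T := by
  apply OG_ext
  intro v
  funext x
  rw [Subgroup.coe_mul, LinearEquiv.mul_apply, flipEl_apply, flipEl_apply, flipEl_apply, h]

lemma flipEl_XX (S : Finset (Fin n)) {a b : Ix n} (h : Sh a b) (t : K) :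
    flipEl S * XX a b t * (flipEl S)⁻¹ = XX (fl S a) (fl S b) t := by
  have e := EE_conj ndg (good_ev (K := K) (ne_sw_symm h.2)) (flipEl S) t
  rw [flipEl_ev, flipEl_ev] at e
  exact e

lemma emb_flip {μ : SLN n K} {σ : Equiv.Perm (Fin n)} {c : Fin n → K} (M : Mono μ σ c) (hc : ∀ k, c k ^ 2 = 1)
    {S S' : Finset (Fin n)} (h : ∀ k, k ∈ S ↔ σ k ∈ S') :
    emb μ * flipEl S * (emb μ)⁻¹ = (flipEl S' : OG (qPlus n K)) := by
  rw [mul_inv_eq_iff_eq_mul]
  apply OG_ext_ev
  intro d
  simp only [Subgroup.coe_mul, LinearEquiv.mul_apply]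
  rcases d with k | k
  · rw [emb_ev_inl M, map_smul, flipEl_ev, flipEl_ev]
    by_cases hk : k ∈ S
    · have hk' : σ k ∈ S' := (h k).1 hk
      rw [fl_inl hk, fl_inl hk', emb_ev_inr M, sign_inv_eq (hc k)]
    · have hk' : σ k ∉ S' := fun e => hk ((h k).2 e)
      rw [fl_inl' hk, fl_inl' hk', emb_ev_inl M]
  · rw [emb_ev_inr M, map_smul, flipEl_ev, flipEl_ev]
    by_cases hk : k ∈ S
    · have hk' : σ k ∈ S' := (h k).1 hk
      rw [fl_inr hk, fl_inr hk', emb_ev_inl M, sign_inv_eq (hc k)]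
    · have hk' : σ k ∉ S' := fun e => hk ((h k).2 e)
      rw [fl_inr' hk, fl_inr' hk', emb_ev_inr M]

lemma emb_flip_pair {μ : SLN n K} {σ : Equiv.Perm (Fin n)} {c : Fin n → K} (M : Mono μ σ c) (hc : ∀ k, c k ^ 2 = 1)
    (p q : Fin n) :
    emb μ * flipEl {p, q} * (emb μ)⁻¹ = (flipEl {σ p, σ q} : OG (qPlus n K)) := by
  refine emb_flip M hc ?_
  intro k
  simp only [Finset.mem_insert, Finset.mem_singleton, σ.injective.eq_iff]

/-- The flip of a pair is in the Siegel group. -/
lemma flip_eq {p q : Fin n} (h : p ≠ q) :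
    (flipEl {p, q} : OG (qPlus n K)) = (modelD n K).wS (Sum.inl p) (Sum.inl q) 1 * emb (wW h.symm) := by
  have S : Sh (Sum.inl p : Ix n) (Sum.inl q) := ⟨by simpa using h, by simp⟩
  have M := mono_wW (K := K) h.symm
  have h1 : (1 : K) ≠ 0 := one_ne_zero
  apply OG_ext_ev
  intro d
  rw [flipEl_ev]
  simp only [Subgroup.coe_mul, LinearEquiv.mul_apply]
  rcases d with k | k
  · rw [emb_ev_inl M, map_smul]
    by_cases hp : k = p
    · subst hp
      rw [fl_inl (by simp), Equiv.swap_apply_right, if_neg h]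
      have := wS_ev_b (K := K) S h1
      rw [one_smul, this]
      simp
    by_cases hq : k = q
    · subst hq
      rw [fl_inl (by simp), Equiv.swap_apply_left, if_pos rfl]
      have := wS_ev_a (K := K) S h1
      rw [this]
      simp
    · rw [fl_inl' (by simp [hp, hq]), Equiv.swap_apply_of_ne_of_ne hq hp, if_neg hq, one_smul,
        wS_ev_off S 1 ⟨by simpa using hp, by simp, by simpa using hq, by simp⟩]
  · rw [emb_ev_inr M, map_smul]
    by_cases hp : k = p
    · subst hp
      rw [fl_inr (by simp), Equiv.swap_apply_right, if_neg h]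
      have := wS_ev_b' (K := K) S h1
      simp only [inv_one, one_smul]
      exact (this.trans (one_smul _ _)).symm
    by_cases hq : k = q
    · subst hq
      rw [fl_inr (by simp), Equiv.swap_apply_left, if_pos rfl]
      have := wS_ev_a' (K := K) S h1
      simp only [inv_neg, inv_one, neg_smul, one_smul, map_neg]
      rw [show (Sum.inr p : Ix n) = (Sum.inl p : Ix n).swap from rfl, this]
      simp
    · rw [fl_inr' (by simp [hp, hq]), Equiv.swap_apply_of_ne_of_ne hq hp, if_neg hq, inv_one, one_smul,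
        wS_ev_off S 1 ⟨by simp, by simpa using hq, by simp, by simpa using hp⟩]

lemma flip_mem {p q : Fin n} (h : p ≠ q) : (flipEl {p, q} : OG (qPlus n K)) ∈ siegelE (qPlus n K) := by
  rw [flip_eq h]
  have S : Sh (Sum.inl p : Ix n) (Sum.inl q) := ⟨by simpa using h, by simp⟩
  refine mul_mem ?_ (emb_mem _)
  have e1 : ∀ {a b : Ix n} (t : K), Sh a b → XX a b t ∈ siegelE (qPlus n K) := fun t hs =>
    EE_mem ndg (good_ev (ne_sw_symm hs.2)) t
  exact mul_mem (mul_mem (e1 _ S) (e1 _ S.ss)) (e1 _ S)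

end Flip

end Cfsg.Agent.Lib.PrsOm
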