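import Mathlib
import Cfsg.Agent.Lib.PrsOmE

/-!
# Presentations of `Ω⁺_{2n}`: the model configuration
-/

set_option autoImplicit false
set_option linter.unusedSectionVars false
set_option linter.unusedVariables false

namespace Cfsg.Agent.Lib.PrsOm

open Matrix
open QuadraticMap Cfsg.Agent.Lib.OrthoBasic Cfsg.Agent.Lib.OrthoSiegel Cfsg.Agent.Lib.OrthoGen
  Cfsg.Agent.Lib.OrthoCount Cfsg.Agent.Lib.OrthoOrder
open Cfsg.Agent.Lib.PrsSp (SLN Mono wW dn mono_wW mono_dn dn_mul dn_one dn_inv exists_mono2 IsBlk AddGen sl_eq comm_conj'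
  tv_isBlk wW_coe cmS mem_cmS dn_congr fl fl_inl fl_inr fl_inl' fl_inr' fl_fl fl_swap fl_inj ixOf ixOf_swap ixOf_fl
  exists_fl sh_fl fl_insert ix_ne sl_comm sl_comm' hT sl_mul_inv sl_inv_mul)
open Cfsg.Agent.Lib.DnN (Good EE EE_apply EE_conj EE_mem ev ev_apply ev_self ev_ne polar_ev Q_ev good_ev ndg XX XX_apply
  modelD OG_ext_ev wS_ev_a wS_ev_a' wS_ev_b wS_ev_b' wS_ev_off)
open Cfsg.Agent.Lib.SpN (Ix Sh sw_sw sw_ne sw_inj sw_ne_sw ne_sw_symm)

variable {n : ℕ} {K : Type*} [Field K] [Fintype K]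

omit [Fintype K] in
lemma IsBlk_inv {p : Fin n} {g : SLN n K} (hg : IsBlk p g) : IsBlk p (g⁻¹ : SLN n K) := by
  have row : ∀ s, ((g⁻¹ : SLN n K) : Matrix (Fin n) (Fin n) K) p s = if p = s then 1 else 0 :=
    fun s => Cfsg.Agent.Lib.PrsSp.IsBlk.inv_entry hg s
  have col : ∀ s, ((g⁻¹ : SLN n K) : Matrix (Fin n) (Fin n) K) s p = if s = p then 1 else 0 := by
    intro s
    have h := congrFun (congrFun (sl_inv_mul g) s) p
    rw [Matrix.mul_apply, Finset.sum_eq_single p] at h
    · rw [hg.1, mul_one, Matrix.one_apply] at h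
      exact h
    · intro b _ hb
      rw [(hg.2 b hb).2, mul_zero]
    · simp
  refine ⟨by rw [row, if_pos rfl], fun j hj => ⟨?_, ?_⟩⟩
  · rw [row, if_neg (Ne.symm hj)]
  · rw [col, if_neg hj]

omit [Fintype K] in
lemma blk_row {p : Fin n} {g : SLN n K} (hg : IsBlk p g) (k : Fin n) :
    (g : Matrix (Fin n) (Fin n) K) p k = if k = p then 1 else 0 := by
  by_cases h : k = p
  · rw [h, if_pos rfl, hg.1]
  · rw [if_neg h, (hg.2 k h).1]

omit [Fintype K] in
lemma blk_col {p : Fin n} {g : SLN n K} (hg : IsBlk p g) (k : Fin n) :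
    (g : Matrix (Fin n) (Fin n) K) k p = if k = p then 1 else 0 := by
  by_cases h : k = p
  · rw [h, if_pos rfl, hg.1]
  · rw [if_neg h, (hg.2 k h).2]

omit [Fintype K] in
lemma mulVec_row {M : Matrix (Fin n) (Fin n) K} {i : Fin n} (h : ∀ k, M i k = if k = i then 1 else 0) (w : Fin n → K) :
    (M *ᵥ w) i = w i := by
  simp only [Matrix.mulVec, dotProduct, h]
  simp

omit [Fintype K] in
lemma mulVec_congr {M : Matrix (Fin n) (Fin n) K} {i : Fin n} {u w : Fin n → K} (h : ∀ k, M i k ≠ 0 → u k = w k) :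
    (M *ᵥ u) i = (M *ᵥ w) i := by
  simp only [Matrix.mulVec, dotProduct]
  apply Finset.sum_congr rfl
  intro k _
  by_cases h0 : M i k = 0
  · rw [h0, zero_mul, zero_mul]
  · rw [h k h0]

lemma flip_comm_blk {S : Finset (Fin n)} {g : SLN n K} (hS : ∀ s ∈ S, IsBlk s g) :
    Commute (flipEl S : OG (qPlus n K)) (emb g) := by
  show _ * _ = _ * _
  apply OG_ext
  intro v
  funext x
  simp only [Subgroup.coe_mul, LinearEquiv.mul_apply]
  rw [flipEl_apply, emb_apply, emb_apply]
  rcases x with i | i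
  · by_cases hi : i ∈ S
    · rw [fl_inl hi, embLin_inl, embLin_inr, mulVec_row (fun k => blk_row (hS i hi) k),
        mulVec_row (fun k => by rw [hT, transpose_apply]; exact blk_col (IsBlk_inv (hS i hi)) k)]
      change _ = v (fl S (Sum.inl i))
      rw [fl_inl hi]
      rfl
    · rw [fl_inl' hi, embLin_inl, embLin_inl]
      symm
      apply mulVec_congr
      intro k hk
      change v (fl S (Sum.inl k)) = v (Sum.inl k)
      have hkS : k ∉ S := by
        intro hk2
        apply hk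
        rw [blk_col (hS k hk2)]
        rw [if_neg]
        rintro rfl
        exact hi hk2
      rw [fl_inl' hkS]
  · by_cases hi : i ∈ S
    · rw [fl_inr hi, embLin_inl, embLin_inr, mulVec_row (fun k => blk_row (hS i hi) k),
        mulVec_row (fun k => by rw [hT, transpose_apply]; exact blk_col (IsBlk_inv (hS i hi)) k)]
      change _ = v (fl S (Sum.inr i))
      rw [fl_inr hi]
      rfl
    · rw [fl_inr' hi, embLin_inr, embLin_inr]
      symm
      apply mulVec_congr
      intro k hk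
      change v (fl S (Sum.inr k)) = v (Sum.inr k)
      have hkS : k ∉ S := by
        intro hk2
        apply hk
        rw [hT, transpose_apply, blk_row (IsBlk_inv (hS k hk2))]
        rw [if_neg]
        rintro rfl
        exact hi hk2
      rw [fl_inr' hkS]

lemma flip_dn {i j : Fin n} (h : i ≠ j) {c : K} (hc : c ≠ 0) :
    flipEl {i, j} * emb (dn h c hc) * (flipEl {i, j})⁻¹ = ((emb (dn h c hc))⁻¹ : OG (qPlus n K)) := by
  rw [← map_inv, dn_inv, mul_inv_eq_iff_eq_mul]
  apply OG_ext_ev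
  intro d
  simp only [Subgroup.coe_mul, LinearEquiv.mul_apply]
  have M1 := mono_dn h c hc
  have M2 := mono_dn h c⁻¹ (inv_ne_zero hc)
  rcases d with k | k
  · rw [emb_ev_inl M1, map_smul, flipEl_ev, flipEl_ev]
    simp only [Equiv.Perm.coe_one, id_eq]
    by_cases h1 : k = i
    · subst h1
      rw [fl_inl (by simp), emb_ev_inr M2]
      simp
    by_cases h2 : k = j
    · subst h2
      rw [fl_inl (by simp), emb_ev_inr M2]
      simp [h1]
    · rw [fl_inl' (by simp [h1, h2]), emb_ev_inl M2]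
      simp [h1, h2]
  · rw [emb_ev_inr M1, map_smul, flipEl_ev, flipEl_ev]
    simp only [Equiv.Perm.coe_one, id_eq]
    by_cases h1 : k = i
    · subst h1
      rw [fl_inr (by simp), emb_ev_inl M2]
      simp
    by_cases h2 : k = j
    · subst h2
      rw [fl_inr (by simp), emb_ev_inl M2]
      simp [h1]
    · rw [fl_inr' (by simp [h1, h2]), emb_ev_inr M2]
      simp [h1, h2]

omit [Fintype K] in
lemma fl_tri {a b c : Fin n} (h1 : a ≠ b) (h2 : a ≠ c) (h3 : b ≠ c) (x : Ix n) :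
    fl {c, b} (fl {a, b} x) = fl {a, c} x := by
  have e : ∀ (S T : Finset (Fin n)) (y : Ix n), fl T (fl S y) =
      if (ixOf y ∈ S ↔ ixOf y ∈ T) then y else y.swap := by
    intro S T y
    rw [fl, ixOf_fl, fl]
    by_cases h4 : ixOf y ∈ S <;> by_cases h5 : ixOf y ∈ T <;> simp [h4, h5, sw_sw]
  rw [e, fl]
  by_cases h4 : ixOf x = a
  · simp [h4, h1, h2, h1.symm, h2.symm]
  by_cases h5 : ixOf x = b
  · simp [h5, h1.symm, h3]
  by_cases h6 : ixOf x = c
  · simp [h6, h2.symm, h3.symm]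
  · simp [h4, h5, h6]

section Cfg

variable {i0 i1 i2 i3 : Fin n} (h01 : i0 ≠ i1) (h02 : i0 ≠ i2) (h03 : i0 ≠ i3) (h12 : i1 ≠ i2) (h13 : i1 ≠ i3) (h23 : i2 ≠ i3)

/-- The embedding to the Siegel group. -/
noncomputable def A₀ : SLN n K →* siegelE (qPlus n K) := MonoidHom.codRestrict emb _ emb_mem

lemma A₀_coe (g : SLN n K) : ((A₀ g : siegelE (qPlus n K)) : OG (qPlus n K)) = emb g := rfl

/-- The flip in the Siegel group. -/
noncomputable def tt {p q : Fin n} (h : p ≠ q) : siegelE (qPlus n K) := ⟨flipEl {p, q}, flip_mem h⟩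

lemma tt_coe {p q : Fin n} (h : p ≠ q) : ((tt h : siegelE (qPlus n K)) : OG (qPlus n K)) = flipEl {p, q} := rfl

lemma tt_conj_wW02 : A₀ (wW h02) * tt h01 * (A₀ (wW h02))⁻¹ = (tt (Ne.symm h12) : siegelE (qPlus n K)) := by
  apply Subtype.ext
  change emb (wW h02) * flipEl {i0, i1} * (emb (wW h02))⁻¹ = flipEl {i2, i1}
  have hs : ∀ k : Fin n, ((if k = i0 then -1 else 1 : K)) ^ 2 = 1 := fun k => by split_ifs <;> ring
  rw [emb_flip_pair (mono_wW h02) hs, Equiv.swap_apply_left, Equiv.swap_apply_of_ne_of_ne h01.symm h12]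

lemma tt_conj_wW12 : A₀ (wW h12) * tt h01 * (A₀ (wW h12))⁻¹ = (tt h02 : siegelE (qPlus n K)) := by
  apply Subtype.ext
  change emb (wW h12) * flipEl {i0, i1} * (emb (wW h12))⁻¹ = flipEl {i0, i2}
  have hs : ∀ k : Fin n, ((if k = i1 then -1 else 1 : K)) ^ 2 = 1 := fun k => by split_ifs <;> ring
  rw [emb_flip_pair (mono_wW h12) hs, Equiv.swap_apply_left, Equiv.swap_apply_of_ne_of_ne h01 h02]

lemma tt_rW : tt h01 * tt (Ne.symm h12) = (tt h02 : siegelE (qPlus n K)) := by
  apply Subtype.ext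
  exact flipEl_mul (fl_tri h01 h02 h12)

variable {ζ : K} (ζ0 : ζ ≠ 0) (gen : ∀ t : K, t ≠ 0 → ∃ k : ℕ, t = ζ ^ k) (agen : AddGen ζ)

/-- The model configuration. -/
noncomputable def mC : CfD n K (siegelE (qPlus n K)) where
  A := A₀
  t := tt h01
  i0 := i0
  i1 := i1
  i2 := i2
  i3 := i3
  h01 := h01
  h02 := h02
  h03 := h03
  h12 := h12
  h13 := h13
  h23 := h23
  ζ := ζ
  ζ0 := ζ0
  gen := gen
  agen := agen
  rS g h0 h1 := by
    apply Subtype.ext
    refine flip_comm_blk ?_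
    intro s hs
    simp only [Finset.mem_insert, Finset.mem_singleton] at hs
    rcases hs with rfl | rfl
    · exact h0
    · exact h1
  rX := by
    apply Subtype.ext
    change flipEl {i0, i1} * emb (tv h01 1) * (flipEl {i0, i1})⁻¹ = emb (tv h01.symm (-1))
    have S : Sh (Sum.inl i0 : Ix n) (Sum.inr i1) := ⟨by simp, by simpa using h01.symm⟩
    rw [emb_tv, emb_tv, flipEl_XX _ S, fl_inl (by simp), fl_inr (by simp)]
    exact (modelD n K).Xsym (a := Sum.inr i0) (b := Sum.inl i1) ⟨by simp, by simpa using h01.symm⟩ 1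
  rH := by
    apply Subtype.ext
    exact flip_dn h01 ζ0
  rK := by
    apply Subtype.ext
    change flipEl {i0, i1} * emb (kap h01 h02) = emb (kap h01 h02) * flipEl {i0, i1}
    have hs : ∀ k : Fin n, ((if k = i2 then -1 else 1 : K)) ^ 2 = 1 := fun k => by split_ifs <;> ring
    have e := emb_flip_pair (mono_kap (K := K) h01 h02 h12) hs i0 i1
    rw [Equiv.swap_apply_left, Equiv.swap_apply_right, Finset.pair_comm i1 i0, mul_inv_eq_iff_eq_mul] at e
    exact e.symm
  rW := by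
    rw [tt_conj_wW02 h01 h02 h12, tt_conj_wW12 h01 h02 h12]
    exact tt_rW h01 h02 h12
  rE := by
    rw [tt_conj_wW02 h01 h02 h12]
    apply Subtype.ext
    change emb (tv h01 1) * (flipEl {i2, i1} * emb (tv h01 1) * (flipEl {i2, i1})⁻¹) =
      (flipEl {i2, i1} * emb (tv h01 1) * (flipEl {i2, i1})⁻¹) * emb (tv h01 1)
    have S : Sh (Sum.inl i0 : Ix n) (Sum.inr i1) := ⟨by simp, by simpa using h01.symm⟩
    rw [emb_tv, flipEl_XX _ S, fl_inl' (by simp [h01, h02]), fl_inr (by simp)]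
    have S' : Sh (Sum.inl i0 : Ix n) (Sum.inl i1) := ⟨by simpa using h01, by simp⟩
    have e := (modelD n K).relC' S 1 (-1)
    have e2 := (modelD n K).Xsym S' 1
    change (modelD n K).X (Sum.inl i0) (Sum.inr i1) 1 * (modelD n K).X (Sum.inl i1) (Sum.inl i0) (-1) =
      (modelD n K).X (Sum.inl i1) (Sum.inl i0) (-1) * (modelD n K).X (Sum.inl i0) (Sum.inr i1) 1 at e
    rw [← e2] at e
    exact e
  rF := by
    intro _
    rw [tt_conj_wW02 h01 h02 h12]
    apply Subtype.ext
    change emb (tv h23 1) * (flipEl {i2, i1} * emb (tv h01 1) * (flipEl {i2, i1})⁻¹) =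
      (flipEl {i2, i1} * emb (tv h01 1) * (flipEl {i2, i1})⁻¹) * emb (tv h23 1)
    have S : Sh (Sum.inl i0 : Ix n) (Sum.inr i1) := ⟨by simp, by simpa using h01.symm⟩
    rw [emb_tv h01, emb_tv h23, flipEl_XX _ S, fl_inl' (by simp [h01, h02]), fl_inr (by simp)]
    have S' : Sh (Sum.inl i0 : Ix n) (Sum.inl i1) := ⟨by simpa using h01, by simp⟩
    have S2 : Sh (Sum.inl i2 : Ix n) (Sum.inr i3) := ⟨by simp, by simpa using h23.symm⟩
    exact (modelD n K).commXX S2 S' (by simp) (by simpa using h03) (by simp) (by simpa using h13) 1 1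

end Cfg

end Cfsg.Agent.Lib.PrsOm
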