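import Mathlib
import Cfsg.Agent.Lib.PrsOmF

/-!
# Presentations of `Ω⁺_{2n}`: the relators and the assembly
-/

set_option autoImplicit false
set_option linter.unusedSectionVars false
set_option linter.unusedVariables false

namespace Cfsg.Agent.Lib.PrsOm

open Matrix
open QuadraticMap Cfsg.Agent.Lib.OrthoBasic Cfsg.Agent.Lib.OrthoSiegel Cfsg.Agent.Lib.OrthoGen
  Cfsg.Agent.Lib.OrthoCount Cfsg.Agent.Lib.OrthoOrder
open Cfsg.Agent.Lib.PrsSp (SLN Mono wW dn mono_wW mono_dn dn_mul dn_one dn_inv exists_mono2 IsBlk AddGen sl_eq comm_conj'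
  tv_isBlk wW_coe cmS mem_cmS dn_congr fl fl_inl fl_inr fl_inl' fl_inr' fl_fl fl_swap fl_inj ixOf ixOf_swap ixOf_fl
  exists_fl sh_fl fl_insert ix_ne sl_comm sl_comm' hT sl_mul_inv sl_inv_mul)
open Cfsg.Agent.Lib.DnN (Good EE EE_apply EE_conj EE_mem ev ev_apply ev_self ev_ne polar_ev Q_ev good_ev ndg XX XX_apply
  modelD OG_ext_ev wS_ev_a wS_ev_a' wS_ev_b wS_ev_b' wS_ev_off siegelE_le exists_hom_E')
open Cfsg.Agent.Lib.SpN (Ix Sh sw_sw sw_ne sw_inj sw_ne_sw ne_sw_symm)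

section Group

variable {Γ : Type*} [Group Γ]

lemma pow_mod1 {x : Γ} {p m : ℕ} (hx : x ^ p = 1) (hm : m ≡ 1 [MOD p]) : x ^ m = x := by
  have h1 := pow_eq_pow_mod m hx
  have h2 := pow_eq_pow_mod 1 hx
  rw [pow_one] at h2
  calc x ^ m = x ^ (m % p) := h1
    _ = x ^ (1 % p) := by rw [show m % p = 1 % p from hm]
    _ = x := h2.symm

lemma pow_mod0 {x : Γ} {p m : ℕ} (hx : x ^ p = 1) (hm : m ≡ 0 [MOD p]) : x ^ m = 1 := by
  have h1 := pow_eq_pow_mod m hx
  rw [h1, hm]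
  simp

/-- Separation of coprime commuting parts. -/
lemma crt_sep {t u v u' v' : Γ} {p N : ℕ} (h1 : Commute u v) (h2 : Commute u' v') (hu : u ^ p = 1) (hu' : u' ^ p = 1)
    (hv : v ^ N = 1) (hv' : v' ^ N = 1) (hc : Nat.Coprime p N) (h : t * (u * v) * t⁻¹ = u' * v') :
    t * u * t⁻¹ = u' ∧ t * v * t⁻¹ = v' := by
  constructor
  · obtain ⟨m, hm1, hm2⟩ := Nat.chineseRemainder hc 1 0
    have e := congrArg (fun x => x ^ m) h
    simp only [conj_pow, h1.mul_pow, h2.mul_pow] at e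
    rwa [pow_mod1 hu hm1, pow_mod1 hu' hm1, pow_mod0 hv hm2, pow_mod0 hv' hm2, mul_one, mul_one] at e
  · obtain ⟨m, hm1, hm2⟩ := Nat.chineseRemainder hc 0 1
    have e := congrArg (fun x => x ^ m) h
    simp only [conj_pow, h1.mul_pow, h2.mul_pow] at e
    rwa [pow_mod0 hu hm1, pow_mod0 hu' hm1, pow_mod1 hv hm2, pow_mod1 hv' hm2, one_mul, one_mul] at e

end Group

section Sl

variable {n : ℕ} {K : Type*} [Field K]

lemma tv_zero {i j : Fin n} (h : i ≠ j) : (tv h (0 : K) : SLN n K) = 1 := by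
  apply sl_eq
  change Matrix.transvection i j 0 = 1
  simp

lemma tv_pow {i j : Fin n} (h : i ≠ j) (s : K) (k : ℕ) : (tv h s : SLN n K) ^ k = tv h ((k : K) * s) := by
  induction k with
  | zero => simp [tv_zero]
  | succ k ih =>
    rw [pow_succ, ih, Cfsg.Agent.Lib.PrsSp.Cfg.tv_add]
    congr 1
    push_cast
    ring

lemma dn_pow {i j : Fin n} (h : i ≠ j) {c : K} (hc : c ≠ 0) (k : ℕ) :
    (dn h c hc : SLN n K) ^ k = dn h (c ^ k) (pow_ne_zero k hc) := by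
  induction k with
  | zero =>
    rw [pow_zero, dn_congr h (pow_zero c) _ one_ne_zero, dn_one]
  | succ k ih =>
    rw [pow_succ, ih, dn_mul]
    exact dn_congr h (pow_succ c k).symm _ _

lemma dn_comm_tv {a b i j : Fin n} (hab : a ≠ b) (hij : i ≠ j) (ia : i ≠ a) (ib : i ≠ b) (ja : j ≠ a) (jb : j ≠ b) {c : K}
    (hc : c ≠ 0) (s : K) : Commute (dn hab c hc) (tv hij s) := by
  show _ * _ = _ * _
  have e := (mono_dn hab c hc).mul_tv hij s
  simp only [if_neg ia, if_neg ib, if_neg ja, if_neg jb, one_mul, inv_one, mul_one] at e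
  exact e

end Sl

section Cross

variable {n : ℕ} {K Γ Γ' : Type*} [Field K] [Group Γ] [Group Γ']

variable {i0 i1 i2 i3 : Fin n} (h01 : i0 ≠ i1) (h02 : i0 ≠ i2) (h03 : i0 ≠ i3) (h12 : i1 ≠ i2) (h13 : i1 ≠ i3) (h23 : i2 ≠ i3)
  {ζ : K} (ζ0 : ζ ≠ 0) (s₁ : SLN n K)

/-- The six equations. -/
def crossO (a : SLN n K → Γ) (t : Γ) : List (Γ × Γ) :=
  [ (t * a (kap h01 h02), a (kap h01 h02) * t),
    (t * (a (wW h02) * t * (a (wW h02))⁻¹), a (wW h12) * t * (a (wW h12))⁻¹),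
    (t * (a (tv h01 1) * a (dn h23 ζ ζ0)) * t⁻¹, a (tv h01.symm (-1)) * a (dn h23 ζ ζ0)),
    (t * (a (tv h23 1) * a (dn h01 ζ ζ0)) * t⁻¹, a (tv h23 1) * (a (dn h01 ζ ζ0))⁻¹),
    (t * a s₁, a s₁ * t),
    (a (tv h01 1) * ((a (wW h02) * t * (a (wW h02))⁻¹) * a (tv h01 1) * (a (wW h02) * t * (a (wW h02))⁻¹)⁻¹),
      ((a (wW h02) * t * (a (wW h02))⁻¹) * a (tv h01 1) * (a (wW h02) * t * (a (wW h02))⁻¹)⁻¹) * a (tv h01 1)) ]

/-- The extra equation for `n = 4`. -/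
def crossF (a : SLN n K → Γ) (t : Γ) : List (Γ × Γ) :=
  if n ≤ 4 then
    [(a (tv h23 1) * ((a (wW h02) * t * (a (wW h02))⁻¹) * a (tv h01 1) * (a (wW h02) * t * (a (wW h02))⁻¹)⁻¹),
      ((a (wW h02) * t * (a (wW h02))⁻¹) * a (tv h01 1) * (a (wW h02) * t * (a (wW h02))⁻¹)⁻¹) * a (tv h23 1))]
  else []

lemma crossO_length (a : SLN n K → Γ) (t : Γ) : (crossO h01 h02 h12 h23 ζ0 s₁ a t).length = 6 := rfl

lemma crossF_length (a : SLN n K → Γ) (t : Γ) : (crossF h01 h02 h23 a t).length = if n ≤ 4 then 1 else 0 := by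
  unfold crossF
  split_ifs <;> rfl

lemma crossO_map (f : Γ →* Γ') (a : SLN n K → Γ) (t : Γ) :
    (crossO h01 h02 h12 h23 ζ0 s₁ a t).map (Prod.map f f) =
      crossO h01 h02 h12 h23 ζ0 s₁ (fun g => f (a g)) (f t) := by
  simp only [crossO, List.map_cons, List.map_nil, Prod.map_apply, map_mul, map_inv]

lemma crossF_map (f : Γ →* Γ') (a : SLN n K → Γ) (t : Γ) :
    (crossF h01 h02 h23 a t).map (Prod.map f f) = crossF h01 h02 h23 (fun g => f (a g)) (f t) := by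
  unfold crossF
  split_ifs
  · simp only [List.map_cons, List.map_nil, Prod.map_apply, map_mul, map_inv]
  · rfl

include h03 h13 in
/-- The configuration from the equations. -/
lemma ofCross_aux (A : SLN n K →* Γ) (t : Γ) {p N : ℕ} (hp : (p : K) = 0) (hN : ζ ^ N = 1) (hc : Nat.Coprime p N)
    (H : ∀ q ∈ crossO h01 h02 h12 h23 ζ0 s₁ (fun g => A g) t, q.1 = q.2) :
    (t * A (tv h01 1) * t⁻¹ = A (tv h01.symm (-1))) ∧ (t * A (dn h01 ζ ζ0) * t⁻¹ = (A (dn h01 ζ ζ0))⁻¹) ∧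
      Commute t (A (tv h23 1)) ∧ Commute t (A (dn h23 ζ ζ0)) ∧ Commute t (A s₁) ∧ Commute t (A (kap h01 h02)) ∧
      (t * (A (wW h02) * t * (A (wW h02))⁻¹) = A (wW h12) * t * (A (wW h12))⁻¹) ∧
      Commute (A (tv h01 1)) ((A (wW h02) * t * (A (wW h02))⁻¹) * A (tv h01 1) * (A (wW h02) * t * (A (wW h02))⁻¹)⁻¹) := by
  simp only [crossO, List.forall_mem_cons] at H
  obtain ⟨e1, e2, e3, e4, e5, e6, -⟩ := H
  have ox : ∀ {a b : Fin n} (h : a ≠ b), (A (tv h 1)) ^ p = 1 := by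
    intro a b h
    rw [← map_pow, tv_pow, hp, zero_mul, tv_zero, map_one]
  have oy : ∀ {a b : Fin n} (h : a ≠ b), (A (tv h (-1))) ^ p = 1 := by
    intro a b h
    rw [← map_pow, tv_pow, hp, zero_mul, tv_zero, map_one]
  have od : ∀ {a b : Fin n} (h : a ≠ b), (A (dn h ζ ζ0)) ^ N = 1 := by
    intro a b h
    rw [← map_pow, dn_pow, dn_congr h hN _ one_ne_zero, dn_one, map_one]
  have h10 := h01.symm
  have h20 := h02.symm
  have h30 := h03.symm
  have h21 := h12.symm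
  have h31 := h13.symm
  have c1 : Commute (A (tv h01 1)) (A (dn h23 ζ ζ0)) := ((dn_comm_tv h23 h01 h02 h03 h12 h13 ζ0 1).symm).map A
  have c2 : Commute (A (tv h01.symm (-1))) (A (dn h23 ζ ζ0)) := ((dn_comm_tv h23 h01.symm h12 h13 h02 h03 ζ0 (-1)).symm).map A
  have c3 : Commute (A (tv h23 1)) (A (dn h01 ζ ζ0)) := ((dn_comm_tv h01 h23 h20 h21 h30 h31 ζ0 1).symm).map A
  obtain ⟨a1, a2⟩ := crt_sep c1 c2 (ox h01) (oy h01.symm) (od h23) (od h23) hc e3
  have hinv : (A (dn h01 ζ ζ0))⁻¹ ^ N = 1 := by rw [inv_pow, od h01, inv_one]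
  obtain ⟨a3, a4⟩ := crt_sep c3 c3.inv_right (ox h23) (ox h23) (od h01) hinv hc e4
  refine ⟨a1, a4, ?_, ?_, e5, e1, e2, e6⟩
  · rw [Commute, SemiconjBy, ← mul_inv_eq_iff_eq_mul]
    exact a3
  · rw [Commute, SemiconjBy, ← mul_inv_eq_iff_eq_mul]
    exact a2

/-- The configuration from the equations. -/
noncomputable def CfD.ofCross (A : SLN n K →* Γ) (t : Γ) {p N : ℕ} (hp : (p : K) = 0) (hN : ζ ^ N = 1) (hc : Nat.Coprime p N)
    (gen : ∀ t : K, t ≠ 0 → ∃ k : ℕ, t = ζ ^ k) (agen : AddGen ζ)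
    (hS : ∀ g, IsBlk i0 g → IsBlk i1 g → g ∈ Subgroup.closure ({s₁, tv h23 1, dn h23 ζ ζ0} : Set (SLN n K)))
    (H : ∀ q ∈ crossO h01 h02 h12 h23 ζ0 s₁ (fun g => A g) t, q.1 = q.2)
    (H' : ∀ q ∈ crossF h01 h02 h23 (fun g => A g) t, q.1 = q.2) : CfD n K Γ :=
  have H₀ := ofCross_aux h01 h02 h03 h12 h13 h23 ζ0 s₁ A t hp hN hc H
  { A := A
    t := t
    i0 := i0
    i1 := i1
    i2 := i2
    i3 := i3
    h01 := h01
    h02 := h02
    h03 := h03
    h12 := h12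
    h13 := h13
    h23 := h23
    ζ := ζ
    ζ0 := ζ0
    gen := gen
    agen := agen
    rS := by
      intro g h0 h1
      have hle : Subgroup.closure ({s₁, tv h23 1, dn h23 ζ ζ0} : Set (SLN n K)) ≤ cmS A t := by
        rw [Subgroup.closure_le]
        rintro x (rfl | rfl | rfl)
        · exact H₀.2.2.2.2.1
        · exact H₀.2.2.1
        · exact H₀.2.2.2.1
      exact hle (hS g h0 h1)
    rX := H₀.1
    rH := H₀.2.1
    rK := H₀.2.2.2.2.2.1
    rW := H₀.2.2.2.2.2.2.1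
    rE := H₀.2.2.2.2.2.2.2
    rF := by
      intro hn
      unfold crossF at H'
      rw [if_pos hn] at H'
      exact H' _ (List.mem_singleton.2 rfl) }

lemma CfD.crossO_holds (C : CfD n K Γ) {s₁ : SLN n K} (b0 : IsBlk C.i0 s₁) (b1 : IsBlk C.i1 s₁) :
    ∀ q ∈ crossO C.h01 C.h02 C.h12 C.h23 C.ζ0 s₁ (fun g => C.A g) C.t, q.1 = q.2 := by
  have cT : Commute C.t (C.A (tv C.h23 1)) :=
    C.rS _ (tv_isBlk _ C.h02.symm C.h03.symm 1) (tv_isBlk _ C.h12.symm C.h13.symm 1)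
  have cD : Commute C.t (C.A (dn C.h23 C.ζ C.ζ0)) :=
    C.rS _ ((mono_dn C.h23 C.ζ C.ζ0).isBlk rfl (by simp [C.h02, C.h03]))
      ((mono_dn C.h23 C.ζ C.ζ0).isBlk rfl (by simp [C.h12, C.h13]))
  have conj_mul' : ∀ u v : Γ, C.t * (u * v) * C.t⁻¹ = (C.t * u * C.t⁻¹) * (C.t * v * C.t⁻¹) := fun u v => by group
  simp only [crossO, List.forall_mem_cons]
  refine ⟨C.rK, C.rW, ?_, ?_, C.rS _ b0 b1, C.rE, ?_⟩
  · rw [conj_mul', C.rX, cD.eq, mul_inv_cancel_right]
  · rw [conj_mul', C.rH, cT.eq, mul_inv_cancel_right]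
  · simp

lemma CfD.crossF_holds (C : CfD n K Γ) :
    ∀ q ∈ crossF C.h01 C.h02 C.h23 (fun g => C.A g) C.t, q.1 = q.2 := by
  unfold crossF
  split_ifs with hn
  · intro q hq
    rw [List.mem_singleton] at hq
    subst hq
    exact C.rF hn
  · simp

end Cross

section Model

variable {n : ℕ} {K Γ : Type*} [Field K] [Fintype K] [Group Γ]

/-- The image of the model flip. -/
lemma psi_t (C : CfD n K Γ) (ψ : siegelE (qPlus n K) →* Γ)
    (hψ : ∀ a b t (h : Sh a b), ψ ⟨XX a b t, EE_mem ndg (good_ev (ne_sw_symm h.2)) t⟩ = C.XF a b t)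
    (hA : ∀ g, ψ (A₀ g) = C.A g) : ψ (tt C.h01) = C.t := by
  set τ := ψ (tt C.h01) with hτ
  set g := C.t⁻¹ * τ with hg
  have ht : τ = C.t * g := by rw [hg, mul_inv_cancel_left]
  have hconj : ∀ {a b : Ix n} (h : Sh a b) (s : K), τ * C.XF a b s * τ⁻¹ = C.XF (fl {C.i0, C.i1} a) (fl {C.i0, C.i1} b) s := by
    intro a b h s
    have hs := sh_fl {C.i0, C.i1} h
    rw [← hψ a b s h, ← hψ _ _ s hs, hτ, ← map_inv, ← map_mul, ← map_mul]
    congr 1
    apply Subtype.ext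
    exact flipEl_XX _ h s
  have hconj' : ∀ {a b : Ix n} (h : Sh a b) (s : K), C.t * C.XF a b s * C.t⁻¹ = C.XF (fl {C.i0, C.i1} a) (fl {C.i0, C.i1} b) s := by
    intro a b h s
    have := C.flip_tau C.h01 h s
    rwa [C.tau_base] at this
  have hgX : ∀ {a b : Ix n} (h : Sh a b) (s : K), Commute g (C.XF a b s) := by
    intro a b h s
    have e := (hconj h s).trans (hconj' h s).symm
    rw [ht] at e
    show g * _ = _ * g
    have e2 : C.t * g * C.XF a b s * (C.t * g)⁻¹ = C.t * (g * C.XF a b s * g⁻¹) * C.t⁻¹ := by group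
    rw [e2] at e
    have e3 : g * C.XF a b s * g⁻¹ = C.XF a b s := by
      have e4 := mul_right_cancel e
      exact mul_left_cancel e4
    rw [mul_inv_eq_iff_eq_mul] at e3
    exact e3
  have hall : ∀ x : siegelE (qPlus n K), Commute g (ψ x) := by
    let H : Subgroup (siegelE (qPlus n K)) := (Subgroup.centralizer {g}).comap ψ
    have hle : siegelE (qPlus n K) ≤ H.map (siegelE (qPlus n K)).subtype := by
      apply Cfsg.Agent.Lib.DnN.siegelE_le
      intro a b t h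
      refine ⟨⟨XX a b t, EE_mem ndg (good_ev (ne_sw_symm h.2)) t⟩, ?_, rfl⟩
      change ψ _ ∈ Subgroup.centralizer {g}
      rw [hψ a b t h, Subgroup.mem_centralizer_singleton_iff]
      exact (hgX h t).eq.symm
    intro x
    obtain ⟨y, hy, hyx⟩ := hle x.2
    have : y = x := Subtype.ext hyx
    subst this
    have hy' : ψ y ∈ Subgroup.centralizer {g} := hy
    rw [Subgroup.mem_centralizer_singleton_iff] at hy'
    exact hy'.symm
  have hgA : ∀ h, Commute g (C.A h) := fun h => by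
    rw [← hA]
    exact hall _
  have hgτ : Commute g τ := hall _
  have hgt : Commute g C.t := by
    have e : C.t = τ * g⁻¹ := by rw [ht, mul_inv_cancel_right]
    rw [e]
    exact hgτ.mul_right (Commute.refl g).inv_right
  have hmodel : τ * (C.A (wW C.h02) * τ * (C.A (wW C.h02))⁻¹) = C.A (wW C.h12) * τ * (C.A (wW C.h12))⁻¹ := by
    have e1 : (tt C.h01 : siegelE (qPlus n K)) * (A₀ (wW C.h02) * tt C.h01 * (A₀ (wW C.h02))⁻¹) = A₀ (wW C.h12) * tt C.h01 * (A₀ (wW C.h12))⁻¹ := by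
      rw [tt_conj_wW02 (K := K) C.h01 C.h02 C.h12, tt_conj_wW12 (K := K) C.h01 C.h02 C.h12]
      exact tt_rW (K := K) C.h01 C.h02 C.h12
    have e2 := congrArg ψ e1
    simp only [map_mul, map_inv, hA] at e2
    exact e2
  have key : ∀ u : Γ, Commute g u → u * (C.t * g) * u⁻¹ = (u * C.t * u⁻¹) * g := by
    intro u hu
    have : u * (C.t * g) * u⁻¹ = u * C.t * (g * u⁻¹) := by group
    rw [this, (hu.inv_right).eq]
    group
  rw [ht, key _ (hgA _), key _ (hgA _)] at hmodel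
  have e5 : C.t * g * ((C.A (wW C.h02) * C.t * (C.A (wW C.h02))⁻¹) * g) =
      (C.t * (C.A (wW C.h02) * C.t * (C.A (wW C.h02))⁻¹)) * (g * g) := by
    have hc : Commute g (C.A (wW C.h02) * C.t * (C.A (wW C.h02))⁻¹) :=
      ((hgA _).mul_right hgt).mul_right (hgA _).inv_right
    calc C.t * g * ((C.A (wW C.h02) * C.t * (C.A (wW C.h02))⁻¹) * g)
        = C.t * (g * (C.A (wW C.h02) * C.t * (C.A (wW C.h02))⁻¹)) * g := by group
      _ = C.t * ((C.A (wW C.h02) * C.t * (C.A (wW C.h02))⁻¹) * g) * g := by rw [hc.eq]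
      _ = _ := by group
  rw [e5, C.rW] at hmodel
  have e6 : g * g = g := mul_left_cancel hmodel
  have e7 : g = 1 := by
    simpa using e6
  rw [ht, e7, mul_one]

/-- Generation of the Siegel group. -/
lemma range_top {i0 i1 : Fin n} (h01 : i0 ≠ i1) (hav : ∀ x y : Fin n, ∃ r, r ≠ x ∧ r ≠ y)
    {R : Subgroup (siegelE (qPlus n K))} (hA : ∀ g, A₀ g ∈ R) (ht : tt h01 ∈ R) : R = ⊤ := by
  classical
  have hflip : ∀ {p q : Fin n} (hpq : p ≠ q), tt hpq ∈ R := by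
    intro p q hpq
    obtain ⟨μ, σ, c, M, hc, h1, h2⟩ := exists_mono2 (K := K) h01 hpq
    have e : A₀ μ * tt h01 * (A₀ μ)⁻¹ = tt hpq := by
      apply Subtype.ext
      change emb μ * flipEl {i0, i1} * (emb μ)⁻¹ = flipEl {p, q}
      rw [emb_flip_pair M hc, h1, h2]
    rw [← e]
    exact mul_mem (mul_mem (hA _) ht) (inv_mem (hA _))
  have hlr : ∀ {i j : Fin n} (h : i ≠ j) (t : K) (hm), (⟨XX (Sum.inl i) (Sum.inr j) t, hm⟩ : siegelE (qPlus n K)) ∈ R := by
    intro i j h t hm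
    have e : (⟨XX (Sum.inl i) (Sum.inr j) t, hm⟩ : siegelE (qPlus n K)) = A₀ (tv h t) := by
      apply Subtype.ext
      exact (emb_tv h t).symm
    rw [e]
    exact hA _
  have hfl : ∀ {p q : Fin n} (hpq : p ≠ q) {a b : Ix n} (h : Sh a b) (t : K) (hm) (hm'),
      (⟨XX a b t, hm⟩ : siegelE (qPlus n K)) ∈ R → (⟨XX (fl {p, q} a) (fl {p, q} b) t, hm'⟩ : siegelE (qPlus n K)) ∈ R := by
    intro p q hpq a b h t hm hm' hR
    have e : (⟨XX (fl {p, q} a) (fl {p, q} b) t, hm'⟩ : siegelE (qPlus n K)) = tt hpq * ⟨XX a b t, hm⟩ * (tt hpq)⁻¹ := by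
      apply Subtype.ext
      exact (flipEl_XX _ h t).symm
    rw [e]
    exact mul_mem (mul_mem (hflip hpq) hR) (inv_mem (hflip hpq))
  have hle : siegelE (qPlus n K) ≤ R.map (siegelE (qPlus n K)).subtype := by
    apply Cfsg.Agent.Lib.DnN.siegelE_le
    intro a b t h
    refine ⟨⟨XX a b t, EE_mem ndg (good_ev (ne_sw_symm h.2)) t⟩, ?_, rfl⟩
    rcases a with i | i <;> rcases b with j | j
    · -- `X(l_i, l_j)`
      have hij : i ≠ j := CfD.sh_ll h
      obtain ⟨r, hr1, hr2⟩ := hav i j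
      have S : Sh (Sum.inl i : Ix n) (Sum.inr j) := ⟨by simp, by simpa using hij.symm⟩
      have hq := hfl (p := j) (q := r) (Ne.symm hr2) S t (EE_mem ndg (good_ev (ne_sw_symm S.2)) t)
        (by
          rw [fl_inl' (by simp [hij, hr1.symm]), fl_inr (by simp)]
          exact EE_mem ndg (good_ev (ne_sw_symm h.2)) t)
        (hlr hij t _)
      simp only [fl_inl' (show i ∉ ({j, r} : Finset (Fin n)) by simp [hij, hr1.symm]), fl_inr (show j ∈ ({j, r} : Finset (Fin n)) by simp)] at hq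
      exact hq
    · exact hlr (CfD.sh_lr h) t _
    · -- `X(r_i, l_j)`
      have hji : j ≠ i := (CfD.sh_lr (h.symm))
      have S : Sh (Sum.inl i : Ix n) (Sum.inr j) := ⟨by simp, by simpa using hji⟩
      have hq := hfl (p := i) (q := j) hji.symm S t (EE_mem ndg (good_ev (ne_sw_symm S.2)) t)
        (by
          rw [fl_inl (by simp), fl_inr (by simp)]
          exact EE_mem ndg (good_ev (ne_sw_symm h.2)) t)
        (hlr hji.symm t _)
      simp only [fl_inl (show i ∈ ({i, j} : Finset (Fin n)) by simp), fl_inr (show j ∈ ({i, j} : Finset (Fin n)) by simp)] at hq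
      exact hq
    · -- `X(r_i, r_j)`
      have hij : i ≠ j := CfD.sh_rr h
      obtain ⟨r, hr1, hr2⟩ := hav i j
      have S : Sh (Sum.inl i : Ix n) (Sum.inr j) := ⟨by simp, by simpa using hij.symm⟩
      have hq := hfl (p := i) (q := r) (Ne.symm hr1) S t (EE_mem ndg (good_ev (ne_sw_symm S.2)) t)
        (by
          rw [fl_inl (by simp), fl_inr' (by simp [hij.symm, hr2.symm])]
          exact EE_mem ndg (good_ev (ne_sw_symm h.2)) t)
        (hlr hij t _)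
      simp only [fl_inl (show i ∈ ({i, r} : Finset (Fin n)) by simp), fl_inr' (show j ∉ ({i, r} : Finset (Fin n)) by simp [hij.symm, hr2.symm])] at hq
      exact hq
  rw [eq_top_iff]
  intro x _
  obtain ⟨y, hy, hyx⟩ := hle x.2
  have : y = x := Subtype.ext hyx
  rwa [← this]

/-- The SL part of the morphism. -/
lemma psi_A (C : CfD n K Γ) (ψ : siegelE (qPlus n K) →* Γ)
    (hψ : ∀ a b t (h : Sh a b), ψ ⟨XX a b t, EE_mem ndg (good_ev (ne_sw_symm h.2)) t⟩ = C.XF a b t) :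
    ∀ g, ψ (A₀ g) = C.A g := by
  have hS : (ψ.comp A₀).eqLocus C.A = ⊤ := by
    apply Cfsg.Agent.Lib.SLGen.eq_top_of_forall_transvection_mem
    intro i j hij t
    change ψ (A₀ (tv hij t)) = C.A _
    have S : Sh (Sum.inl i : Ix n) (Sum.inr j) := ⟨by simp, by simpa using hij.symm⟩
    have e : A₀ (tv hij t) = (⟨XX (Sum.inl i) (Sum.inr j) t, EE_mem ndg (good_ev (ne_sw_symm S.2)) t⟩ : siegelE (qPlus n K)) := by
      apply Subtype.ext
      exact emb_tv hij t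
    rw [e, hψ _ _ _ S]
    change C.xx i j t = _
    rw [C.xx_of hij]
  intro g
  have : g ∈ (ψ.comp A₀).eqLocus C.A := by
    rw [hS]
    exact Subgroup.mem_top g
  exact this

end Model

end Cfsg.Agent.Lib.PrsOm
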