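import Mathlib
import Cfsg.Agent.Lib.PrsOmG

/-!
# Presentations of `Ω⁺_{2n}`: the assembly
-/

set_option autoImplicit false
set_option linter.unusedSectionVars false
set_option linter.unusedVariables false

namespace Cfsg.Agent.Lib.PrsOm

open Matrix
open QuadraticMap Cfsg.Agent.Lib.OrthoBasic Cfsg.Agent.Lib.OrthoSiegel Cfsg.Agent.Lib.OrthoGen
  Cfsg.Agent.Lib.OrthoCount Cfsg.Agent.Lib.OrthoOrder
open Cfsg.Agent.Lib.PrsSp (SLN Mono wW dn mono_wW mono_dn dn_mul dn_one dn_inv exists_mono2 IsBlk AddGen sl_eq comm_conj'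
  tv_isBlk wW_coe cmS mem_cmS dn_congr fl fl_inl fl_inr fl_inl' fl_inr' fl_fl fl_swap fl_inj ixOf ixOf_swap ixOf_fl
  exists_fl sh_fl fl_insert ix_ne sl_comm sl_comm' hT sl_mul_inv sl_inv_mul exists_zeta lift_map_pres exists_hom_of_pres
  holds_of_map blk blkM blkM_00 blkM_0s blkM_s0 blkM_ss blk_isBlk exists_blk cycEl)
open Cfsg.Agent.Lib.DnN (Good EE EE_apply EE_conj EE_mem ev ev_apply ev_self ev_ne polar_ev Q_ev good_ev ndg XX XX_apply
  modelD OG_ext_ev wS_ev_a wS_ev_a' wS_ev_b wS_ev_b' wS_ev_off siegelE_le exists_hom_E')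
open Cfsg.Agent.Lib.SpN (Ix Sh sw_sw sw_ne sw_inj sw_ne_sw ne_sw_symm)

section Assemble

variable {m k : ℕ} {K : Type*} [Field K] [Fintype K]

lemma crossO_map' {n : ℕ} {K Γ Γ' : Type*} [Field K] [Group Γ] [Group Γ'] {i0 i1 i2 i3 : Fin n} (h01 : i0 ≠ i1) (h02 : i0 ≠ i2)
    (h12 : i1 ≠ i2) (h23 : i2 ≠ i3) {ζ : K} (ζ0 : ζ ≠ 0) (s₁ : SLN n K) (f : Γ →* Γ') (a : SLN n K → Γ) (t : Γ)
    (a' : SLN n K → Γ') (t' : Γ') (ha : ∀ g, f (a g) = a' g) (ht : f t = t') :
    (crossO h01 h02 h12 h23 ζ0 s₁ a t).map (Prod.map f f) = crossO h01 h02 h12 h23 ζ0 s₁ a' t' := by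
  obtain rfl : a' = fun g => f (a g) := funext fun g => (ha g).symm
  subst ht
  exact crossO_map h01 h02 h12 h23 ζ0 s₁ f a t

lemma crossF_map' {n : ℕ} {K Γ Γ' : Type*} [Field K] [Group Γ] [Group Γ'] {i0 i1 i2 i3 : Fin n} (h01 : i0 ≠ i1) (h02 : i0 ≠ i2)
    (h23 : i2 ≠ i3) (f : Γ →* Γ') (a : SLN n K → Γ) (t : Γ)
    (a' : SLN n K → Γ') (t' : Γ') (ha : ∀ g, f (a g) = a' g) (ht : f t = t') :
    (crossF h01 h02 h23 a t).map (Prod.map f f) = crossF h01 h02 h23 a' t' := by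
  obtain rfl : a' = fun g => f (a g) := funext fun g => (ha g).symm
  subst ht
  exact crossF_map h01 h02 h23 f a t

lemma coprime_card_sub_one {p : ℕ} [CharP K p] : Nat.Coprime p (Fintype.card K - 1) := by
  have hpp := CharP.char_is_prime K p
  obtain ⟨e, -, he⟩ := FiniteField.card K p
  rw [he, hpp.coprime_iff_not_dvd]
  intro h
  have h1 : p ∣ p ^ (e : ℕ) := dvd_pow_self p e.ne_zero
  have h2 : 1 ≤ p ^ (e : ℕ) := Nat.one_le_pow _ _ hpp.pos
  have h3 := Nat.dvd_sub h1 h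
  have h4 : p ^ (e : ℕ) - (p ^ (e : ℕ) - 1) = 1 := by omega
  rw [h4] at h3
  exact hpp.one_lt.ne' (Nat.dvd_one.1 h3)

set_option maxHeartbeats 2000000 in
theorem assembleO {i0 i1 i2 i3 : Fin (m + 3)}
    (h01 : i0 ≠ i1) (h02 : i0 ≠ i2) (h03 : i0 ≠ i3) (h12 : i1 ≠ i2) (h13 : i1 ≠ i3) (h23 : i2 ≠ i3)
    (s₁ : SLN (m + 3) K) (b0 : IsBlk i0 s₁) (b1 : IsBlk i1 s₁)
    (hS : ∀ (ζ : K) (ζ0 : ζ ≠ 0), AddGen ζ → ∀ g, IsBlk i0 g → IsBlk i1 g →
      g ∈ Subgroup.closure ({s₁, tv h23 1, dn h23 ζ ζ0} : Set (SLN (m + 3) K)))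
    (RA : Finset (FreeGroup (Fin k))) (eA : PresentedGroup (RA : Set (FreeGroup (Fin k))) ≃* SLN (m + 3) K) :
    ∃ rels : Finset (FreeGroup (Fin k ⊕ Unit)), rels.card ≤ RA.card + (6 + if m + 3 ≤ 4 then 1 else 0) ∧
      Nonempty (PresentedGroup (rels : Set (FreeGroup (Fin k ⊕ Unit))) ≃* siegelE (qPlus (m + 3) K)) := by
  classical
  obtain ⟨ζ, ζ0, gen, agen⟩ := exists_zeta (K := K)
  obtain ⟨p, hp⟩ := CharP.exists K
  have hp0 : ((p : ℕ) : K) = 0 := CharP.cast_eq_zero K p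
  have hN : ζ ^ (Fintype.card K - 1) = 1 := FiniteField.pow_card_sub_one_eq_one ζ ζ0
  have hc : Nat.Coprime p (Fintype.card K - 1) := coprime_card_sub_one (K := K)
  let M : CfD (m + 3) K (siegelE (qPlus (m + 3) K)) := mC h01 h02 h03 h12 h13 h23 ζ0 gen agen
  let ι : FreeGroup (Fin k) →* FreeGroup (Fin k ⊕ Unit) := FreeGroup.map Sum.inl
  choose wa hwa using fun g : SLN (m + 3) K => PresentedGroup.mk_surjective (RA : Set (FreeGroup (Fin k))) (eA.symm g)
  let a : SLN (m + 3) K → FreeGroup (Fin k ⊕ Unit) := fun g => ι (wa g)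
  let t : FreeGroup (Fin k ⊕ Unit) := FreeGroup.of (Sum.inr ())
  let eqs := crossO h01 h02 h12 h23 ζ0 s₁ a t ++ crossF h01 h02 h23 a t
  let rels : Finset (FreeGroup (Fin k ⊕ Unit)) := RA.image ι ∪ (eqs.map fun p => p.1 * p.2⁻¹).toFinset
  refine ⟨rels, ?_, ?_⟩
  · refine (Finset.card_union_le _ _).trans (add_le_add Finset.card_image_le ((List.toFinset_card_le _).trans ?_))
    simp only [eqs, List.length_map, List.length_append, crossO_length, crossF_length, le_refl]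
  let q : FreeGroup (Fin k ⊕ Unit) →* PresentedGroup (rels : Set (FreeGroup (Fin k ⊕ Unit))) :=
    PresentedGroup.mk (rels : Set (FreeGroup (Fin k ⊕ Unit)))
  have hq : ∀ r ∈ rels, q r = 1 := fun r hr => PresentedGroup.one_of_mem (by exact_mod_cast hr)
  obtain ⟨AP, hAP⟩ := exists_hom_of_pres (RA : Set (FreeGroup (Fin k))) eA Sum.inl q (fun r hr => hq _ (by
    simp only [rels, Finset.mem_union, Finset.mem_image]
    exact Or.inl ⟨r, by exact_mod_cast hr, rfl⟩))
  have hAa : ∀ g, AP g = q (a g) := by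
    intro g
    have := hAP (wa g)
    rw [hwa, MulEquiv.apply_symm_apply] at this
    exact this
  have hE : ∀ p ∈ eqs, q (p.1 * p.2⁻¹) = 1 := fun p hp => hq _ (by
    simp only [rels, Finset.mem_union, List.mem_toFinset, List.mem_map]
    exact Or.inr ⟨p, hp, rfl⟩)
  have h1 : ∀ p ∈ crossO h01 h02 h12 h23 ζ0 s₁ (fun g => AP g) (q t), p.1 = p.2 := by
    have e1 : (fun g => AP g) = fun g => q (a g) := funext hAa
    rw [e1, ← crossO_map]
    exact holds_of_map q _ fun p hp => hE p (List.mem_append_left _ hp)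
  have h2 : ∀ p ∈ crossF h01 h02 h23 (fun g => AP g) (q t), p.1 = p.2 := by
    have e1 : (fun g => AP g) = fun g => q (a g) := funext hAa
    rw [e1, ← crossF_map]
    exact holds_of_map q _ fun p hp => hE p (List.mem_append_right _ hp)
  let CP : CfD (m + 3) K (PresentedGroup (rels : Set (FreeGroup (Fin k ⊕ Unit)))) :=
    CfD.ofCross h01 h02 h03 h12 h13 h23 ζ0 s₁ AP (q t) hp0 hN hc gen agen (hS ζ ζ0 agen) h1 h2
  obtain ⟨ψ, hψ⟩ := exists_hom_E' m CP.toData CP.toData_zz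
  have hψ' : ∀ (a b : Ix (m + 3)) (t : K) (h : Sh a b), ψ ⟨XX a b t, EE_mem ndg (good_ev (ne_sw_symm h.2)) t⟩ = CP.XF a b t := hψ
  let f : Fin k ⊕ Unit → siegelE (qPlus (m + 3) K) :=
    Sum.elim (fun i => A₀ (eA (PresentedGroup.of i))) (fun _ => tt h01)
  have hfA : ∀ w, FreeGroup.lift f (ι w) = A₀ (eA (PresentedGroup.mk _ w)) :=
    lift_map_pres _ eA A₀ Sum.inl f (fun i => rfl)
  have hfa : ∀ g, FreeGroup.lift f (a g) = A₀ g := by
    intro g
    rw [hfA, hwa, MulEquiv.apply_symm_apply]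
  have hft : FreeGroup.lift f t = tt h01 := by
    simp [t, f]
  have hrel : ∀ r ∈ (rels : Set (FreeGroup (Fin k ⊕ Unit))), FreeGroup.lift f r = 1 := by
    intro r hr
    have hr' : r ∈ rels := by exact_mod_cast hr
    simp only [rels, Finset.mem_union, Finset.mem_image, List.mem_toFinset, List.mem_map] at hr'
    rcases hr' with ⟨w, hw, rfl⟩ | ⟨p, hp, rfl⟩
    · rw [hfA, PresentedGroup.one_of_mem (by exact_mod_cast hw), map_one, map_one]
    · rw [map_mul, map_inv, mul_inv_eq_one]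
      rcases List.mem_append.1 hp with hp | hp
      · have hp' := List.mem_map_of_mem (f := Prod.map (FreeGroup.lift f) (FreeGroup.lift f)) hp
        have e := crossO_map' h01 h02 h12 h23 ζ0 s₁ (FreeGroup.lift f) a t (fun g => A₀ g) (tt h01) hfa hft
        rw [e] at hp'
        exact M.crossO_holds b0 b1 _ hp'
      · have hp' := List.mem_map_of_mem (f := Prod.map (FreeGroup.lift f) (FreeGroup.lift f)) hp
        have e := crossF_map' h01 h02 h23 (FreeGroup.lift f) a t (fun g => A₀ g) (tt h01) hfa hft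
        rw [e] at hp'
        exact M.crossF_holds _ hp'
  let φ := PresentedGroup.toGroup hrel
  have hφq : ∀ w, φ (q w) = FreeGroup.lift f w := fun w => rfl
  have hφA : ∀ g, φ (AP g) = A₀ g := fun g => by rw [hAa, hφq, hfa]
  have hφt : φ (q t) = tt h01 := by rw [hφq, hft]
  have hψA : ∀ g, ψ (A₀ g) = AP g := psi_A CP ψ hψ'
  have hψt : ψ (tt h01) = q t := psi_t CP ψ hψ' hψA
  have hψφ : ψ.comp φ = MonoidHom.id _ := by
    apply PresentedGroup.ext
    rintro (i | ⟨⟩)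
    · change ψ (φ (PresentedGroup.of (Sum.inl i))) = PresentedGroup.of (Sum.inl i)
      have e1 : φ (PresentedGroup.of (Sum.inl i)) = A₀ (eA (PresentedGroup.of i)) := PresentedGroup.toGroup.of hrel
      rw [e1, hψA]
      exact (hAP (FreeGroup.of i)).trans (by simp [q, PresentedGroup.of])
    · change ψ (φ (PresentedGroup.of (Sum.inr ()))) = PresentedGroup.of (Sum.inr ())
      have e1 : φ (PresentedGroup.of (Sum.inr ())) = tt h01 := PresentedGroup.toGroup.of hrel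
      rw [e1, hψt]
      rfl
  have hsurj : φ.range = ⊤ :=
    range_top h01 (fun x y => M.third x y) (fun g => ⟨AP g, hφA g⟩) ⟨q t, hφt⟩
  refine ⟨MulEquiv.ofBijective φ ⟨?_, MonoidHom.range_eq_top.1 hsurj⟩⟩
  intro x y hxy
  have := congrArg ψ hxy
  have e1 := DFunLike.congr_fun hψφ x
  have e2 := DFunLike.congr_fun hψφ y
  change ψ (φ x) = x at e1
  change ψ (φ y) = y at e2
  rw [← e1, ← e2]
  exact this

end Assemble

section Blk

variable {K : Type*} [Field K] {m : ℕ}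

lemma blk_tv {i j : Fin m} (h : i ≠ j) (h' : i.succ ≠ j.succ) (t : K) :
    blk (tv h t) = (tv h' t : SLN (m + 1) K) := by
  apply sl_eq
  change blkM (Matrix.transvection i j t) = Matrix.transvection i.succ j.succ t
  ext a b
  refine Fin.cases ?_ (fun a' => ?_) a <;> refine Fin.cases ?_ (fun b' => ?_) b <;>
    simp [Matrix.transvection, Matrix.add_apply, Matrix.one_apply, Matrix.single_apply, Fin.succ_ne_zero,
      (Fin.succ_ne_zero _).symm, Fin.succ_inj]

lemma blk_dn {i j : Fin m} (h : i ≠ j) (h' : i.succ ≠ j.succ) (c : K) (hc : c ≠ 0) :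
    blk (dn h c hc) = (dn h' c hc : SLN (m + 1) K) := by
  apply sl_eq
  change blkM (Matrix.diagonal (fun k => if k = i then c else if k = j then c⁻¹ else 1)) =
    Matrix.diagonal (fun k => if k = i.succ then c else if k = j.succ then c⁻¹ else 1)
  ext a b
  refine Fin.cases ?_ (fun a' => ?_) a <;> refine Fin.cases ?_ (fun b' => ?_) b <;>
    simp [Matrix.diagonal_apply, Fin.succ_ne_zero, (Fin.succ_ne_zero _).symm, Fin.succ_inj]

lemma blk_isBlk_succ {p : Fin m} {g : SLN m K} (hg : IsBlk p g) : IsBlk p.succ (blk g) := by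
  refine ⟨hg.1, fun j hj => ?_⟩
  refine Fin.cases ?_ (fun j' => ?_) j hj
  · intro _
    exact ⟨rfl, rfl⟩
  · intro hj'
    exact hg.2 j' (fun e => hj' (by rw [e]))

lemma isBlk_of_succ {p : Fin m} {g : SLN m K} (hg : IsBlk p.succ (blk g)) : IsBlk p g := by
  refine ⟨hg.1, fun j hj => ?_⟩
  exact hg.2 j.succ (fun e => hj (Fin.succ_injective _ e))

lemma blk2_gen (hm : 1 ≤ m) {ζ : K} (ζ0 : ζ ≠ 0) (agen : AddGen ζ) {i j : Fin (m + 1)} (h01 : (0 : Fin (m + 1)) ≠ 1)
    (h23 : (0 : Fin (m + 1)).succ.succ ≠ (1 : Fin (m + 1)).succ.succ) (g : SLN (m + 3) K) (h0 : IsBlk 0 g)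
    (h1 : IsBlk (Fin.succ 0) g) :
    g ∈ Subgroup.closure ({blk (blk (cycEl m K)), tv h23 1, dn h23 ζ ζ0} : Set (SLN (m + 3) K)) := by
  obtain ⟨g', rfl⟩ := exists_blk h0
  have h1' := isBlk_of_succ h1
  obtain ⟨g'', rfl⟩ := exists_blk h1'
  let S : Set (SLN (m + 3) K) := {blk (blk (cycEl m K)), tv h23 1, dn h23 ζ ζ0}
  let φ : SLN (m + 1) K →* SLN (m + 3) K := blk.comp blk
  let H : Subgroup (SLN (m + 1) K) := (Subgroup.closure S).comap φ
  have h12 : (0 : Fin (m + 1)).succ ≠ (1 : Fin (m + 1)).succ := fun e => h01 (Fin.succ_injective _ e)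
  have e1 : φ (tv h01 1) = tv h23 1 := by
    change blk (blk (tv h01 1)) = _
    rw [blk_tv h01 h12, blk_tv h12 h23]
  have e2 : φ (dn h01 ζ ζ0) = dn h23 ζ ζ0 := by
    change blk (blk (dn h01 ζ ζ0)) = _
    rw [blk_dn h01 h12, blk_dn h12 h23]
  have mem0 : cycEl m K ∈ H := by
    change φ (cycEl m K) ∈ Subgroup.closure S
    exact Subgroup.subset_closure (Or.inl rfl)
  have mem1 : tv h01 (1 : K) ∈ H := by
    change φ (tv h01 1) ∈ Subgroup.closure S
    rw [e1]
    exact Subgroup.subset_closure (by simp [S])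
  have mem2 : dn h01 ζ ζ0 ∈ H := by
    change φ (dn h01 ζ ζ0) ∈ Subgroup.closure S
    rw [e2]
    exact Subgroup.subset_closure (by simp [S])
  have hx : ∀ t : K, tv h01 t ∈ H := by
    intro t
    refine agen.ind (P := fun t => tv h01 t ∈ H) ?_ ?_ ?_ ?_ t
    · rw [tv_zero]
      exact one_mem _
    · intro s t hs ht
      change SpecialLinearGroup.transvection h01 (s + t) ∈ H
      rw [← Cfsg.Agent.Lib.PrsSp.Cfg.tv_add]
      exact mul_mem hs ht
    · intro s hs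
      change SpecialLinearGroup.transvection h01 (-s) ∈ H
      rw [← Cfsg.Agent.Lib.PrsSp.tv_inv']
      exact inv_mem hs
    · intro j
      induction j with
      | zero =>
        rw [pow_zero]
        exact mem1
      | succ j ih =>
        have h2 := mul_mem (mul_mem mem2 ih) (inv_mem mem2)
        have h3 := (mono_dn h01 ζ ζ0).conj_tv h01 ((ζ ^ 2) ^ j)
        have e3 : (if (0 : Fin (m + 1)) = 0 then ζ else if (0 : Fin (m + 1)) = 1 then ζ⁻¹ else 1) * (ζ ^ 2) ^ j *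
            (if (1 : Fin (m + 1)) = 0 then ζ else if (1 : Fin (m + 1)) = 1 then ζ⁻¹ else 1)⁻¹ = (ζ ^ 2) ^ (j + 1) := by
          rw [if_pos rfl, if_neg h01.symm, if_pos rfl, inv_inv]
          ring
        rw [e3] at h3
        rw [h3] at h2
        exact h2
  have htop := Cfsg.Agent.Lib.SLGen.eq_top_of_cycW_mem hm H (cycEl m K) rfl mem0 h01 hx
  have : g'' ∈ H := by
    rw [htop]
    exact Subgroup.mem_top _
  exact this

end Blk

section Main

variable {m k : ℕ} {K : Type*} [Field K] [Fintype K]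

theorem omega_pres (hm : 1 ≤ m) (RA : Finset (FreeGroup (Fin k)))
    (eA : PresentedGroup (RA : Set (FreeGroup (Fin k))) ≃* SLN (m + 3) K) :
    ∃ rels : Finset (FreeGroup (Fin k ⊕ Unit)), rels.card ≤ RA.card + (6 + if m + 3 ≤ 4 then 1 else 0) ∧
      Nonempty (PresentedGroup (rels : Set (FreeGroup (Fin k ⊕ Unit))) ≃* siegelE (qPlus (m + 3) K)) := by
  have h01' : (0 : Fin (m + 1)) ≠ 1 := by
    haveI : NeZero m := ⟨by omega⟩
    exact fun h => by simpa [Fin.ext_iff] using h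
  have h0 : (0 : Fin (m + 3)) ≠ Fin.succ 0 := (Fin.succ_ne_zero _).symm
  have h0' : ∀ x : Fin (m + 2), (0 : Fin (m + 3)) ≠ Fin.succ x := fun x => (Fin.succ_ne_zero _).symm
  have h1' : ∀ x : Fin (m + 1), (Fin.succ (0 : Fin (m + 2))) ≠ Fin.succ (Fin.succ x) := fun x e =>
    (Fin.succ_ne_zero x) (Fin.succ_injective _ e).symm
  have h23 : (0 : Fin (m + 1)).succ.succ ≠ (1 : Fin (m + 1)).succ.succ :=
    fun e => h01' (Fin.succ_injective _ (Fin.succ_injective _ e))
  refine assembleO (K := K) (i0 := 0) (i1 := Fin.succ 0) (i2 := (0 : Fin (m + 1)).succ.succ)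
    (i3 := (1 : Fin (m + 1)).succ.succ) h0 (h0' _) (h0' _) (h1' _) (h1' _) h23
    (blk (blk (cycEl m K))) (blk_isBlk _) (blk_isBlk_succ (blk_isBlk _)) ?_ RA eA
  intro ζ ζ0 agen g hg0 hg1
  exact blk2_gen (i := 0) (j := 0) hm ζ0 agen h01' h23 g hg0 hg1

end Main

end Cfsg.Agent.Lib.PrsOm
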