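import Mathlib
import Cfsg.Agent.Lib.PrsOmH
import Cfsg.Agent.Lib.OrthoFinal
import Cfsg.Agent.Lib.OrthoChar

/-!
# Presentations of `Ω⁺_{2n}`: the final statements
-/

set_option autoImplicit false
set_option linter.unusedSectionVars false
set_option linter.unusedVariables false

namespace Cfsg.Agent.Lib.PrsOm

open Matrix
open QuadraticMap Cfsg.Agent.Lib.OrthoBasic Cfsg.Agent.Lib.OrthoSiegel Cfsg.Agent.Lib.OrthoGen
  Cfsg.Agent.Lib.OrthoCount Cfsg.Agent.Lib.OrthoOrder Cfsg.Agent.Lib.OrthoSimple Cfsg.Agent.Lib.OrthoFinal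
open Cfsg.Agent.Lib.OrthoChar (negEl negEl_apply)
open Cfsg.Agent.Lib.PrsSp (SLN pres_reindex pres_pad pres_quot)

section Final

variable {F : Type*} [Field F] [Fintype F]

lemma hE_plus (m : ℕ) : commutator (OG (qPlus (m + 3) F)) = siegelE (qPlus (m + 3) F) := by
  obtain ⟨fr⟩ := framePlus (F := F) m
  exact omega_eq_E (nondeg_qPlus _) (genR_qPlus _) fr

/-- `Ω` is the Siegel group. -/
noncomputable def omegaE (m : ℕ) : Cfsg.Omega F (Cfsg.quadFormPlus (m + 3) F) ≃* siegelE (qPlus (m + 3) F) :=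
  let e := isoOG (Cfsg.quadFormPlus (m + 3) F) (qPlus (m + 3) F) (fun v => (qPlus_apply _ v).symm)
  (e.subgroupMap (commutator _)).trans (MulEquiv.subgroupCongr (by
    rw [← hE_plus m, ← map_commutator_equiv e]
    rfl))

lemma pomega_of_omega {α : Type*} (m : ℕ) (R : Finset (FreeGroup α))
    (E : PresentedGroup (R : Set (FreeGroup α)) ≃* siegelE (qPlus (m + 3) F)) :
    ∃ R' : Finset (FreeGroup α), R'.card ≤ R.card + 1 ∧
      Nonempty (PresentedGroup (R' : Set (FreeGroup α)) ≃* Cfsg.POmega F (Cfsg.quadFormPlus (m + 3) F)) := by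
  classical
  obtain ⟨fr⟩ := framePlus (F := F) m
  have hQ := nondeg_qPlus (F := F) (m + 3)
  have hf : ∀ v, Cfsg.quadFormPlus (m + 3) F v = qPlus (m + 3) F v := fun v => (qPlus_apply _ v).symm
  set Q := qPlus (m + 3) F with hQdef
  have hsc : ∀ c : siegelE Q, c ∈ Subgroup.center (siegelE Q) → c = 1 ∨ (c : OG Q) = negEl Q := by
    intro c hc
    obtain ⟨l, hl, hv⟩ := center_scalar hQ fr c hc
    have h2 : l = 1 ∨ l = -1 := by
      have : (l - 1) * (l + 1) = 0 := by linear_combination hl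
      rcases mul_eq_zero.1 this with h | h
      · exact Or.inl (sub_eq_zero.1 h)
      · exact Or.inr (eq_neg_of_add_eq_zero_left h)
    rcases h2 with rfl | rfl
    · left
      apply Subtype.ext
      apply OG_ext
      intro v
      rw [hv, one_smul]
      rfl
    · right
      apply OG_ext
      intro v
      rw [hv, neg_smul, one_smul, negEl_apply]
  have hz : ∃ z : siegelE Q, z ∈ Subgroup.center (siegelE Q) ∧ ∀ c ∈ Subgroup.center (siegelE Q), c = 1 ∨ c = z := by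
    by_cases hneg : negEl Q ∈ siegelE Q
    · refine ⟨⟨negEl Q, hneg⟩, ?_, ?_⟩
      · apply scalar_center (l := (-1 : F))
        intro v
        change ((negEl Q : OG Q) : (Fin (m + 3) ⊕ Fin (m + 3) → F) ≃ₗ[F] (Fin (m + 3) ⊕ Fin (m + 3) → F)) v = _
        rw [negEl_apply, neg_smul, one_smul]
      · intro c hc
        rcases hsc c hc with h | h
        · exact Or.inl h
        · exact Or.inr (Subtype.ext h)
    · refine ⟨1, one_mem _, ?_⟩
      intro c hc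
      rcases hsc c hc with h | h
      · exact Or.inl h
      · exact absurd (h ▸ c.2) hneg
  obtain ⟨z, hz1, hz2⟩ := hz
  obtain ⟨R', hR', ⟨E'⟩⟩ := pres_quot R E (Subgroup.center (siegelE Q)) z hz1 hz2
  exact ⟨R', hR', ⟨E'.trans (pomegaEquiv (V := Unit) _ _ hf (hE_plus m)).symm⟩⟩

lemma reindex7 {k : ℕ} {H : Type*} [Group H] (R : Finset (FreeGroup (Fin k ⊕ Unit)))
    (E : PresentedGroup (R : Set (FreeGroup (Fin k ⊕ Unit))) ≃* H) :
    ∃ R' : Finset (FreeGroup (Fin (k + 1))), R'.card ≤ R.card ∧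
      Nonempty (PresentedGroup (R' : Set (FreeGroup (Fin (k + 1)))) ≃* H) :=
  pres_reindex ((Equiv.sumCongr (Equiv.refl _) finOneEquiv.symm).trans finSumFinEquiv) R E

lemma pad8 {k : ℕ} {H : Type*} [Group H] (R : Finset (FreeGroup (Fin k)))
    (E : PresentedGroup (R : Set (FreeGroup (Fin k))) ≃* H) :
    ∃ R' : Finset (FreeGroup (Fin (k + 1))), R'.card ≤ R.card + 1 ∧
      Nonempty (PresentedGroup (R' : Set (FreeGroup (Fin (k + 1)))) ≃* H) := by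
  obtain ⟨R₁, hR₁, ⟨E₁⟩⟩ := pres_pad R E
  obtain ⟨R', hR', hE'⟩ := pres_reindex (finSuccEquiv k).symm R₁ E₁
  exact ⟨R', hR'.trans hR₁, hE'⟩

/-- The presentation of the Siegel group with eight generators. -/
theorem siegel_pres (n : ℕ) (hn : 4 ≤ n) :
    (∃ rels : Finset (FreeGroup (Fin 8)), rels.card ≤ 31 ∧
      Nonempty (PresentedGroup (rels : Set (FreeGroup (Fin 8))) ≃* siegelE (qPlus n F))) ∧
    (n ≤ 5 → ∃ rels : Finset (FreeGroup (Fin 8)), rels.card ≤ 29 ∧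
      Nonempty (PresentedGroup (rels : Set (FreeGroup (Fin 8))) ≃* siegelE (qPlus n F))) := by
  obtain ⟨⟨R7, hR7, ⟨e7⟩⟩, -, ⟨R4, hR4, ⟨e4⟩⟩, ⟨R5, hR5, ⟨e5⟩⟩⟩ := Cfsg.Agent.Lib.PrsSLn.main88 (F := F) n hn
  have h4 : ∀ (_ : n = 4), ∃ rels : Finset (FreeGroup (Fin 8)), rels.card ≤ 29 ∧
      Nonempty (PresentedGroup (rels : Set (FreeGroup (Fin 8))) ≃* siegelE (qPlus n F)) := by
    rintro rfl
    obtain ⟨R, hR, ⟨E⟩⟩ := omega_pres (m := 1) (K := F) (le_refl 1) R4 e4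
    obtain ⟨R₁, hR₁, ⟨E₁⟩⟩ := reindex7 R E
    obtain ⟨R₂, hR₂, ⟨E₂⟩⟩ := pad8 R₁ E₁
    refine ⟨R₂, ?_, ⟨E₂⟩⟩
    rw [if_pos (by norm_num)] at hR
    omega
  have h5 : ∀ (_ : n = 5), ∃ rels : Finset (FreeGroup (Fin 8)), rels.card ≤ 29 ∧
      Nonempty (PresentedGroup (rels : Set (FreeGroup (Fin 8))) ≃* siegelE (qPlus n F)) := by
    rintro rfl
    obtain ⟨R, hR, ⟨E⟩⟩ := omega_pres (m := 2) (K := F) (by norm_num) R5 e5
    obtain ⟨R₁, hR₁, ⟨E₁⟩⟩ := reindex7 R E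
    obtain ⟨R₂, hR₂, ⟨E₂⟩⟩ := pad8 R₁ E₁
    refine ⟨R₂, ?_, ⟨E₂⟩⟩
    rw [if_neg (by norm_num)] at hR
    omega
  have hsmall : n ≤ 5 → ∃ rels : Finset (FreeGroup (Fin 8)), rels.card ≤ 29 ∧
      Nonempty (PresentedGroup (rels : Set (FreeGroup (Fin 8))) ≃* siegelE (qPlus n F)) := by
    intro h
    have : n = 4 ∨ n = 5 := by omega
    rcases this with h' | h'
    · exact h4 h'
    · exact h5 h'
  refine ⟨?_, hsmall⟩
  by_cases hle : n ≤ 5
  · obtain ⟨R, hR, hE⟩ := hsmall hle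
    exact ⟨R, by omega, hE⟩
  · obtain ⟨m, rfl⟩ : ∃ m, n = m + 3 := ⟨n - 3, by omega⟩
    obtain ⟨R, hR, ⟨E⟩⟩ := omega_pres (m := m) (K := F) (by omega) R7 e7
    obtain ⟨R₁, hR₁, ⟨E₁⟩⟩ := reindex7 R E
    refine ⟨R₁, ?_, ⟨E₁⟩⟩
    rw [if_neg (by omega)] at hR
    omega

/-- The statement. -/
theorem main_omega (n : ℕ) (hn : 4 ≤ n) :
    (∃ rels : Finset (FreeGroup (Fin 8)), rels.card ≤ 31 ∧ Nonempty (PresentedGroup (↑rels : Set (FreeGroup (Fin 8))) ≃* ↥(Cfsg.Omega F (Cfsg.quadFormPlus n F)))) ∧ (∃ rels : Finset (FreeGroup (Fin 8)), rels.card ≤ 32 ∧ Nonempty (PresentedGroup (↑rels : Set (FreeGroup (Fin 8))) ≃* Cfsg.POmega F (Cfsg.quadFormPlus n F))) ∧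
    (n ≤ 5 → (∃ rels : Finset (FreeGroup (Fin 8)), rels.card ≤ 29 ∧ Nonempty (PresentedGroup (↑rels : Set (FreeGroup (Fin 8))) ≃* ↥(Cfsg.Omega F (Cfsg.quadFormPlus n F)))) ∧ (∃ rels : Finset (FreeGroup (Fin 8)), rels.card ≤ 30 ∧ Nonempty (PresentedGroup (↑rels : Set (FreeGroup (Fin 8))) ≃* Cfsg.POmega F (Cfsg.quadFormPlus n F)))) := by
  obtain ⟨m, rfl⟩ : ∃ m, n = m + 3 := ⟨n - 3, by omega⟩
  obtain ⟨⟨R, hR, ⟨E⟩⟩, hs⟩ := siegel_pres (F := F) (m + 3) hn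
  refine ⟨⟨R, hR, ⟨E.trans (omegaE m).symm⟩⟩, ?_, ?_⟩
  · obtain ⟨R', hR', hE'⟩ := pomega_of_omega m R E
    exact ⟨R', by omega, hE'⟩
  · intro h
    obtain ⟨R, hR, ⟨E⟩⟩ := hs h
    refine ⟨⟨R, hR, ⟨E.trans (omegaE m).symm⟩⟩, ?_⟩
    obtain ⟨R', hR', hE'⟩ := pomega_of_omega m R E
    exact ⟨R', by omega, hE'⟩

end Final

end Cfsg.Agent.Lib.PrsOm
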