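import Mathlib

/-!
# Presentations of special unitary groups: the abstract Bruhat argument
-/

set_option autoImplicit false
set_option linter.unusedSectionVars false
set_option linter.unusedVariables false

namespace Cfsg.Agent.Lib.PrsSU

open Subgroup
open scoped commutatorElement

section Basic

variable {Γ : Type*} [Group Γ]

/-- If `X` normalises `Y`, the elements of `⟨Y, X⟩` are products `y * x`. -/
theorem mul_decomp (Y X : Subgroup Γ) (h : ∀ x ∈ X, ∀ y ∈ Y, x * y * x⁻¹ ∈ Y) {g : Γ}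
    (hg : g ∈ closure ((Y : Set Γ) ∪ X)) : ∃ y ∈ Y, ∃ x ∈ X, g = y * x := by
  induction hg using Subgroup.closure_induction_left with
  | one => exact ⟨1, Y.one_mem, 1, X.one_mem, by simp⟩
  | mul_left a ha b hb ih =>
    obtain ⟨y, hy, x, hx, rfl⟩ := ih
    rcases ha with ha | ha
    · exact ⟨a * y, Y.mul_mem ha hy, x, hx, by group⟩
    · exact ⟨a * y * a⁻¹, h a ha y hy, a * x, X.mul_mem ha hx, by group⟩
  | inv_mul_cancel a ha b hb ih =>
    obtain ⟨y, hy, x, hx, rfl⟩ := ih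
    rcases ha with ha | ha
    · exact ⟨a⁻¹ * y, Y.mul_mem (Y.inv_mem ha) hy, x, hx, by group⟩
    · refine ⟨a⁻¹ * y * a⁻¹⁻¹, ?_, a⁻¹ * x, X.mul_mem (X.inv_mem ha) hx, by group⟩
      exact h a⁻¹ (X.inv_mem ha) y hy

/-- Conjugation into a subgroup extends from generators. -/
theorem conj_closure_mem {S : Set Γ} {W : Subgroup Γ} (g : Γ) (h : ∀ y ∈ S, g * y * g⁻¹ ∈ W) {y : Γ}
    (hy : y ∈ closure S) : g * y * g⁻¹ ∈ W := by
  induction hy using Subgroup.closure_induction with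
  | mem x hx => exact h x hx
  | one => simp [W.one_mem]
  | mul a b _ _ ha hb =>
    have := W.mul_mem ha hb
    convert this using 1
    group
  | inv a _ ha =>
    have := W.inv_mem ha
    convert this using 1
    group

/-- Elements commuting with generators commute with the closure. -/
theorem commute_closure {S : Set Γ} (g : Γ) (h : ∀ y ∈ S, Commute g y) {y : Γ}
    (hy : y ∈ closure S) : Commute g y := by
  induction hy using Subgroup.closure_induction with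
  | mem x hx => exact h x hx
  | one => exact Commute.one_right g
  | mul a b _ _ ha hb => exact ha.mul_right hb
  | inv a _ ha => exact ha.inv_right

/-- The same for two closures. -/
theorem commute_closure₂ {S S' : Set Γ} (h : ∀ x ∈ S, ∀ y ∈ S', Commute x y) {x y : Γ}
    (hx : x ∈ closure S) (hy : y ∈ closure S') : Commute x y := by
  apply Commute.symm
  refine commute_closure y (fun z hz => ?_) hx
  exact (commute_closure z (fun w hw => h z hz w hw) hy).symm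

lemma conj_mul_conj (g a b : Γ) : g * (a * b) * g⁻¹ = (g * a * g⁻¹) * (g * b * g⁻¹) := by group

lemma conj_inv' (g a : Γ) : g * a⁻¹ * g⁻¹ = (g * a * g⁻¹)⁻¹ := by group

lemma conj_cm (g a b : Γ) : g * ⁅a, b⁆ * g⁻¹ = ⁅g * a * g⁻¹, g * b * g⁻¹⁆ := by
  simp only [commutatorElement_def]
  group

lemma cm_mul_left (a b c : Γ) : ⁅a * b, c⁆ = a * ⁅b, c⁆ * a⁻¹ * ⁅a, c⁆ := by
  simp only [commutatorElement_def]
  group

lemma cm_mul_right (a b c : Γ) : ⁅a, b * c⁆ = ⁅a, b⁆ * (b * ⁅a, c⁆ * b⁻¹) := by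
  simp only [commutatorElement_def]
  group

lemma cm_inv (a b : Γ) : ⁅a, b⁆⁻¹ = ⁅b, a⁆ := by
  simp only [commutatorElement_def]
  group

lemma comm_iff_cm {a b : Γ} : Commute a b ↔ ⁅a, b⁆ = 1 := by
  rw [commutatorElement_eq_one_iff_commute]

lemma conj_eq_cm_mul (a b : Γ) : a * b * a⁻¹ = ⁅a, b⁆ * b := by
  simp only [commutatorElement_def]
  group

lemma conj_eq_mul_cm (a b : Γ) : a * b * a⁻¹ = b * (b⁻¹ * ⁅a, b⁆ * b) := by
  simp only [commutatorElement_def]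
  group

lemma Commute.conj_eq {a b : Γ} (h : Commute a b) : a * b * a⁻¹ = b := by
  rw [h.eq]
  group

lemma conj_comm {g a b : Γ} (h : Commute a b) : Commute (g * a * g⁻¹) (g * b * g⁻¹) := by
  have := h.eq
  show _ * _ = _ * _
  calc g * a * g⁻¹ * (g * b * g⁻¹) = g * (a * b) * g⁻¹ := by group
    _ = g * (b * a) * g⁻¹ := by rw [this]
    _ = _ := by group

end Basic

/-- The data for the Bruhat decomposition. -/
structure TitsD (Γ : Type*) [Group Γ] (ι : Type*) where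
  U : Subgroup Γ
  T : Subgroup Γ
  N : Subgroup Γ
  X : ι → Subgroup Γ
  Y : ι → Subgroup Γ
  s : ι → Γ
  T_le_N : T ≤ N
  s_mem : ∀ i, s i ∈ N
  T_U : ∀ t ∈ T, ∀ u ∈ U, t * u * t⁻¹ ∈ U
  dec : ∀ i, ∀ u ∈ U, ∃ y ∈ Y i, ∃ x ∈ X i, u = y * x
  X_le : ∀ i, X i ≤ U
  s_Y : ∀ i, ∀ y ∈ Y i, s i * y * (s i)⁻¹ ∈ U
  ri : ∀ i, ∀ x ∈ X i, x ≠ 1 → ∃ x₁ ∈ U, ∃ t ∈ T, ∃ x₂ ∈ X i, s i * x = x₁ * (s i * t * x₂ * s i)
  dich : ∀ i, ∀ n ∈ N, (∀ x ∈ X i, n⁻¹ * x * n ∈ U) ∨ (∀ x ∈ X i, (s i * n)⁻¹ * x * (s i * n) ∈ U)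
  s_sq : ∀ i, s i * s i ∈ T
  gen : closure ((T : Set Γ) ∪ U ∪ Set.range s) = ⊤

namespace TitsD

variable {Γ : Type*} [Group Γ] {ι : Type*} (D : TitsD Γ ι)

/-- The double coset property. -/
def P (g : Γ) : Prop := ∃ u₁ ∈ D.U, ∃ n ∈ D.N, ∃ u₂ ∈ D.U, g = u₁ * n * u₂

lemma P_U {u g : Γ} (hu : u ∈ D.U) (h : D.P g) : D.P (u * g) := by
  obtain ⟨u₁, h1, n, hn, u₂, h2, rfl⟩ := h
  exact ⟨u * u₁, D.U.mul_mem hu h1, n, hn, u₂, h2, by group⟩

lemma P_T {t g : Γ} (ht : t ∈ D.T) (h : D.P g) : D.P (t * g) := by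
  obtain ⟨u₁, h1, n, hn, u₂, h2, rfl⟩ := h
  exact ⟨t * u₁ * t⁻¹, D.T_U t ht u₁ h1, t * n, D.N.mul_mem (D.T_le_N ht) hn, u₂, h2, by group⟩

lemma P_s (i : ι) {g : Γ} (h : D.P g) : D.P (D.s i * g) := by
  obtain ⟨u₁, h1, n, hn, u₂, h2, rfl⟩ := h
  obtain ⟨y, hy, x, hx, rfl⟩ := D.dec i u₁ h1
  have hs := D.s_mem i
  have key : D.P (D.s i * x * n * u₂) := by
    by_cases hx1 : x = 1
    · subst hx1
      exact ⟨1, D.U.one_mem, D.s i * n, D.N.mul_mem hs hn, u₂, h2, by group⟩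
    rcases D.dich i n hn with hd | hd
    · exact ⟨1, D.U.one_mem, D.s i * n, D.N.mul_mem hs hn, n⁻¹ * x * n * u₂, D.U.mul_mem (hd x hx) h2, by group⟩
    · obtain ⟨x₁, hx₁, t, ht, x₂, hx₂, e⟩ := D.ri i x hx hx1
      refine ⟨x₁, hx₁, D.s i * t * (D.s i * n), D.N.mul_mem (D.N.mul_mem hs (D.T_le_N ht)) (D.N.mul_mem hs hn),
        (D.s i * n)⁻¹ * x₂ * (D.s i * n) * u₂, D.U.mul_mem (hd x₂ hx₂) h2, ?_⟩
      rw [e]
      group
  have := D.P_U (D.s_Y i y hy) key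
  convert this using 1
  group

/-- The Bruhat decomposition. -/
theorem bruhat (g : Γ) : D.P g := by
  have hg : g ∈ closure ((D.T : Set Γ) ∪ D.U ∪ Set.range D.s) := by
    rw [D.gen]
    exact mem_top g
  induction hg using Subgroup.closure_induction_left with
  | one => exact ⟨1, D.U.one_mem, 1, D.N.one_mem, 1, D.U.one_mem, by simp⟩
  | mul_left a ha b hb ih =>
    rcases ha with (ha | ha) | ⟨i, rfl⟩
    · exact D.P_T ha ih
    · exact D.P_U ha ih
    · exact D.P_s i ih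
  | inv_mul_cancel a ha b hb ih =>
    rcases ha with (ha | ha) | ⟨i, rfl⟩
    · exact D.P_T (D.T.inv_mem ha) ih
    · exact D.P_U (D.U.inv_mem ha) ih
    · have h1 := D.P_s i ih
      have h2 := D.P_T (D.T.inv_mem (D.s_sq i)) h1
      convert h2 using 1
      group

/-- The injectivity criterion. -/
theorem inj_of {G : Type*} [Group G] (φ : Γ →* G)
    (H : ∀ n ∈ D.N, ∀ u ∈ D.U, φ n = φ u → n = 1 ∧ u = 1) : Function.Injective φ := by
  rw [injective_iff_map_eq_one]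
  intro g hg
  obtain ⟨u₁, h1, n, hn, u₂, h2, rfl⟩ := D.bruhat g
  have e : φ n = φ (u₁⁻¹ * u₂⁻¹) := by
    simp only [map_mul, map_inv] at hg ⊢
    calc φ n = (φ u₁)⁻¹ * (φ u₁ * φ n * φ u₂) * (φ u₂)⁻¹ := by group
      _ = _ := by rw [hg]; group
  obtain ⟨rfl, h4⟩ := H n hn _ (D.U.mul_mem (D.U.inv_mem h1) (D.U.inv_mem h2)) e
  have : u₂ = u₁⁻¹ := by
    have e2 : u₁⁻¹ * u₂⁻¹ = 1 := h4
    rw [mul_eq_one_iff_inv_eq] at e2
    rw [inv_inv] at e2
    rw [e2, inv_inv]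
  subst this
  group

end TitsD

end Cfsg.Agent.Lib.PrsSU
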