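import Mathlib

set_option autoImplicit false
set_option linter.unusedSectionVars false
set_option linter.unusedSimpArgs false
set_option linter.unusedVariables false

/-!
# The unitary group in a Witt basis: the form and the Eichler elements

We work with an involution `σ` of the field `K` and the form `⟨u, v⟩ = ∑ u i * σ (v (rev i))` on `K^n`.
For an isotropic `v`, `w ⟂ v` and `a + σ a + ⟨w, w⟩ = 0`, the Eichler element is
`x ↦ x + ⟨x, v⟩ (w + a v) - ⟨x, w⟩ v`.
-/

namespace Cfsg.Agent.Lib.SUWitt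

open Matrix

variable {K : Type*} [Field K] {n : ℕ} (σ : K →+* K)

/-- The properties of the involution that we use. -/
structure Invol (σ : K →+* K) : Prop where
  invol : ∀ x, σ (σ x) = x
  ne_id : ∃ c, σ c ≠ c
  norm_surj : ∀ y, σ y = y → ∃ c, c * σ c = y
  trace_surj : ∀ y, σ y = y → ∃ a, a + σ a = y

/-- The form. -/
def hJ (u v : Fin n → K) : K := ∑ i, u i * σ (v i.rev)

/-- The dual vector of `v`. -/
def dual (v : Fin n → K) : Fin n → K := fun k => σ (v k.rev)

variable {σ}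

theorem hJ_eq_dot (u v : Fin n → K) : hJ σ u v = u ⬝ᵥ dual σ v := rfl

theorem hJ_eq_dot' (u v : Fin n → K) : hJ σ u v = dual σ v ⬝ᵥ u := by
  rw [hJ_eq_dot, dotProduct_comm]

theorem hJ_add_left (u u' v : Fin n → K) : hJ σ (u + u') v = hJ σ u v + hJ σ u' v := by
  simp [hJ, add_mul, Finset.sum_add_distrib]

theorem hJ_add_right (u v v' : Fin n → K) : hJ σ u (v + v') = hJ σ u v + hJ σ u v' := by
  simp [hJ, mul_add, Finset.sum_add_distrib]

theorem hJ_smul_left (c : K) (u v : Fin n → K) : hJ σ (c • u) v = c * hJ σ u v := by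
  simp [hJ, Finset.mul_sum, mul_assoc]

theorem hJ_smul_right (c : K) (u v : Fin n → K) : hJ σ u (c • v) = σ c * hJ σ u v := by
  simp only [hJ, Pi.smul_apply, smul_eq_mul, map_mul, Finset.mul_sum]
  exact Finset.sum_congr rfl fun i _ => by ring

theorem hJ_zero_left (v : Fin n → K) : hJ σ 0 v = 0 := by simp [hJ]

theorem hJ_zero_right (v : Fin n → K) : hJ σ v 0 = 0 := by simp [hJ]

theorem hJ_neg_left (u v : Fin n → K) : hJ σ (-u) v = - hJ σ u v := by
  simp [hJ, Finset.sum_neg_distrib]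

theorem hJ_neg_right (u v : Fin n → K) : hJ σ u (-v) = - hJ σ u v := by
  simp [hJ, Finset.sum_neg_distrib]

theorem hJ_sub_left (u u' v : Fin n → K) : hJ σ (u - u') v = hJ σ u v - hJ σ u' v := by
  rw [sub_eq_add_neg, hJ_add_left, hJ_neg_left, sub_eq_add_neg]

theorem hJ_sub_right (u v v' : Fin n → K) : hJ σ u (v - v') = hJ σ u v - hJ σ u v' := by
  rw [sub_eq_add_neg, hJ_add_right, hJ_neg_right, sub_eq_add_neg]

theorem hJ_conj (hσ : ∀ x, σ (σ x) = x) (u v : Fin n → K) : σ (hJ σ u v) = hJ σ v u := by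
  simp only [hJ, map_sum, map_mul, hσ]
  rw [← Equiv.sum_comp Fin.revPerm]
  refine Finset.sum_congr rfl fun i _ => ?_
  simp [mul_comm]

/-- The standard basis. -/
def e (i : Fin n) : Fin n → K := Pi.single i 1

theorem e_apply (i k : Fin n) : (e i : Fin n → K) k = if k = i then 1 else 0 := by
  simp [e, Pi.single_apply]

theorem hJ_e_right (u : Fin n → K) (j : Fin n) : hJ σ u (e j) = u j.rev := by
  simp only [hJ, e_apply]
  rw [Finset.sum_eq_single j.rev]
  · simp
  · intro i _ hi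
    have : i.rev ≠ j := fun h => hi (by rw [← h, Fin.rev_rev])
    simp [this]
  · simp

theorem hJ_e_left (i : Fin n) (v : Fin n → K) : hJ σ (e i) v = σ (v i.rev) := by
  simp only [hJ, e_apply]
  rw [Finset.sum_eq_single i]
  · simp
  · intro k _ hk
    simp [hk]
  · simp

theorem hJ_e_e (i j : Fin n) : hJ σ (e i : Fin n → K) (e j) = if i = j.rev then 1 else 0 := by
  rw [hJ_e_right, e_apply]
  by_cases h : j.rev = i
  · simp [h]
  · simp [h, Ne.symm h]

theorem hJ_nondeg {x : Fin n → K} (h : ∀ y, hJ σ x y = 0) : x = 0 := by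
  ext k
  have := h (e k.rev)
  rwa [hJ_e_right, Fin.rev_rev] at this

/-- Two matrices with the same action on vectors are equal. -/
theorem mat_ext {A B : Matrix (Fin n) (Fin n) K} (h : ∀ x, A *ᵥ x = B *ᵥ x) : A = B := by
  ext r s
  have := congrFun (h (e s)) r
  simpa [e, Matrix.mulVec_single_one] using this

/-- Two matrices with the same action on the basis are equal. -/
theorem mat_ext' {A B : Matrix (Fin n) (Fin n) K} (h : ∀ s, A *ᵥ e s = B *ᵥ e s) : A = B := by
  ext r s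
  have := congrFun (h s) r
  simpa [e, Matrix.mulVec_single_one] using this

theorem mulVec_e_apply (A : Matrix (Fin n) (Fin n) K) (r s : Fin n) : (A *ᵥ e s) r = A r s := by
  simp [e, Matrix.mulVec_single_one]

/-- The conditions for the Eichler element. -/
def Cond (σ : K →+* K) (v w : Fin n → K) (a : K) : Prop :=
  hJ σ v v = 0 ∧ hJ σ w v = 0 ∧ a + σ a + hJ σ w w = 0

/-- The matrix of the Eichler element. -/
def eM (σ : K →+* K) (v w : Fin n → K) (a : K) : Matrix (Fin n) (Fin n) K :=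
  1 + vecMulVec (w + a • v) (dual σ v) - vecMulVec v (dual σ w)

theorem eM_mulVec (v w : Fin n → K) (a : K) (x : Fin n → K) :
    eM σ v w a *ᵥ x = x + hJ σ x v • (w + a • v) - hJ σ x w • v := by
  unfold eM
  rw [sub_mulVec, add_mulVec, one_mulVec, vecMulVec_mulVec, vecMulVec_mulVec, hJ_eq_dot', hJ_eq_dot' x w]
  ext k
  simp [mul_comm]

theorem eM_apply (v w : Fin n → K) (a : K) (r s : Fin n) :
    eM σ v w a r s = (1 : Matrix (Fin n) (Fin n) K) r s + (w r + a * v r) * σ (v s.rev) - v r * σ (w s.rev) := by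
  simp [eM, vecMulVec_apply, dual]

section cond
variable (hσ : ∀ x, σ (σ x) = x) {v w : Fin n → K} {a : K}
include hσ

theorem eM_pres (h : Cond σ v w a) (x y : Fin n → K) :
    hJ σ (eM σ v w a *ᵥ x) (eM σ v w a *ᵥ y) = hJ σ x y := by
  obtain ⟨h1, h2, h3⟩ := h
  have h2' : hJ σ v w = 0 := by
    rw [← hJ_conj hσ, h2, map_zero]
  rw [eM_mulVec, eM_mulVec]
  simp only [hJ_sub_left, hJ_sub_right, hJ_add_left, hJ_add_right, hJ_smul_left, hJ_smul_right, h1, h2, h2', map_add,
    map_sub, map_mul, hσ]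
  rw [← hJ_conj hσ y v, ← hJ_conj hσ y w]
  have h4 : hJ σ w w = - a - σ a := by linear_combination h3
  rw [h4]
  ring

theorem eM_det (h : Cond σ v w a) : (eM σ v w a).det = 1 := by
  obtain ⟨h1, h2, h3⟩ := h
  have h2' : hJ σ v w = 0 := by
    rw [← hJ_conj hσ, h2, map_zero]
  let X : Matrix (Fin n) (Fin 2) K := Matrix.of fun k i => ![(w + a • v) k, v k] i
  let Y : Matrix (Fin 2) (Fin n) K := Matrix.of fun i k => ![dual σ v k, - dual σ w k] i
  have hXY : eM σ v w a = 1 + X * Y := by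
    ext r s
    simp only [eM, Matrix.add_apply, Matrix.sub_apply, vecMulVec_apply, Matrix.mul_apply, Fin.sum_univ_two, X, Y,
      Matrix.of_apply, Matrix.cons_val_zero, Matrix.cons_val_one]
    simp
    ring
  have hYX : Y * X = !![0, 0; - hJ σ (w + a • v) w, 0] := by
    ext i j
    fin_cases i <;> fin_cases j
    · show ∑ k, dual σ v k * (w + a • v) k = 0
      have : hJ σ (w + a • v) v = 0 := by rw [hJ_add_left, hJ_smul_left, h1, h2]; ring
      rw [← this, hJ_eq_dot', dotProduct]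
    · show ∑ k, dual σ v k * v k = 0
      rw [← h1, hJ_eq_dot', dotProduct]
    · show ∑ k, (- dual σ w k) * (w + a • v) k = - hJ σ (w + a • v) w
      rw [hJ_eq_dot', dotProduct, ← Finset.sum_neg_distrib]
      exact Finset.sum_congr rfl fun k _ => by ring
    · show ∑ k, (- dual σ w k) * v k = 0
      have : ∑ k, dual σ w k * v k = 0 := by
        rw [← h2', hJ_eq_dot', dotProduct]
      simp only [neg_mul, Finset.sum_neg_distrib, this, neg_zero]
  rw [hXY, Matrix.det_one_add_mul_comm, hYX, Matrix.det_fin_two]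
  simp

end cond

/-- A model of the special unitary group. -/
structure Model (σ : K →+* K) (Gt : Type*) [Group Gt] where
  toM : Gt →* Matrix (Fin n) (Fin n) K
  inj : Function.Injective toM
  hσ : Invol σ
  pres : ∀ g x y, hJ σ (toM g *ᵥ x) (toM g *ᵥ y) = hJ σ x y
  det : ∀ g, (toM g).det = 1
  realize : ∀ A : Matrix (Fin n) (Fin n) K, (∀ x y, hJ σ (A *ᵥ x) (A *ᵥ y) = hJ σ x y) → A.det = 1 → ∃ g, toM g = A

variable {Gt : Type*} [Group Gt] (D : Model (n := n) σ Gt)

namespace Model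

open Classical in
/-- The Eichler element. -/
noncomputable def E (v w : Fin n → K) (a : K) : Gt :=
  if h : Cond σ v w a then
    Classical.choose (D.realize (eM σ v w a) (eM_pres D.hσ.invol h) (eM_det D.hσ.invol h))
  else 1

variable {D}

theorem toM_E {v w : Fin n → K} {a : K} (h : Cond σ v w a) : D.toM (D.E v w a) = eM σ v w a := by
  unfold E
  rw [dif_pos h]
  exact Classical.choose_spec (D.realize (eM σ v w a) (eM_pres D.hσ.invol h) (eM_det D.hσ.invol h))

theorem act_E {v w : Fin n → K} {a : K} (h : Cond σ v w a) (x : Fin n → K) :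
    D.toM (D.E v w a) *ᵥ x = x + hJ σ x v • (w + a • v) - hJ σ x w • v := by
  rw [toM_E h, eM_mulVec]

/-- Extensionality through the action on vectors. -/
theorem G_ext {g g' : Gt} (h : ∀ x, D.toM g *ᵥ x = D.toM g' *ᵥ x) : g = g' :=
  D.inj (mat_ext h)

theorem G_ext' {g g' : Gt} (h : ∀ s, D.toM g *ᵥ e s = D.toM g' *ᵥ e s) : g = g' :=
  D.inj (mat_ext' h)

theorem act_mul (g g' : Gt) (x : Fin n → K) : D.toM (g * g') *ᵥ x = D.toM g *ᵥ (D.toM g' *ᵥ x) := by
  rw [map_mul, Matrix.mulVec_mulVec]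

theorem act_one (x : Fin n → K) : D.toM 1 *ᵥ x = x := by
  rw [map_one, Matrix.one_mulVec]

theorem act_inv_act (g : Gt) (x : Fin n → K) : D.toM g⁻¹ *ᵥ (D.toM g *ᵥ x) = x := by
  rw [← act_mul, inv_mul_cancel, act_one]

theorem act_act_inv (g : Gt) (x : Fin n → K) : D.toM g *ᵥ (D.toM g⁻¹ *ᵥ x) = x := by
  rw [← act_mul, mul_inv_cancel, act_one]

/-- The form under the inverse. -/
theorem pres_inv (g : Gt) (x y : Fin n → K) : hJ σ (D.toM g⁻¹ *ᵥ x) y = hJ σ x (D.toM g *ᵥ y) := by
  rw [← D.pres g, act_act_inv]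

theorem Cond.smul_act {v w : Fin n → K} {a : K} (h : Cond σ v w a) (g : Gt) :
    Cond σ (D.toM g *ᵥ v) (D.toM g *ᵥ w) a := by
  obtain ⟨h1, h2, h3⟩ := h
  exact ⟨by rw [D.pres, h1], by rw [D.pres, h2], by rw [D.pres, h3]⟩

/-- Conjugation of an Eichler element. -/
theorem E_conj {v w : Fin n → K} {a : K} (h : Cond σ v w a) (g : Gt) :
    g * D.E v w a * g⁻¹ = D.E (D.toM g *ᵥ v) (D.toM g *ᵥ w) a := by
  apply G_ext (D := D)
  intro x
  rw [act_E (Cond.smul_act h g), act_mul, act_mul, act_E h, Matrix.mulVec_sub, Matrix.mulVec_add, Matrix.mulVec_smul,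
    Matrix.mulVec_smul, Matrix.mulVec_add, Matrix.mulVec_smul, act_act_inv, ← D.pres g (D.toM g⁻¹ *ᵥ x) v,
    ← D.pres g (D.toM g⁻¹ *ᵥ x) w, act_act_inv]

/-- Multiplication of Eichler elements with the same isotropic vector. -/
theorem E_mul {v w w' : Fin n → K} {a a' : K} (h : Cond σ v w a) (h' : Cond σ v w' a') :
    D.E v w a * D.E v w' a' = D.E v (w + w') (a + a' - hJ σ w' w) := by
  have hσ := D.hσ.invol
  obtain ⟨h1, h2, h3⟩ := id h
  obtain ⟨-, h2', h3'⟩ := id h'
  have hvw : hJ σ v w = 0 := by rw [← hJ_conj hσ, h2, map_zero]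
  have hvw' : hJ σ v w' = 0 := by rw [← hJ_conj hσ, h2', map_zero]
  have hc : Cond σ v (w + w') (a + a' - hJ σ w' w) := by
    refine ⟨h1, by rw [hJ_add_left, h2, h2', add_zero], ?_⟩
    simp only [hJ_add_left, hJ_add_right, map_sub, map_add, hJ_conj hσ]
    linear_combination h3 + h3'
  apply G_ext (D := D)
  intro x
  rw [act_mul, act_E h, act_E h', act_E hc]
  simp only [hJ_sub_left, hJ_add_left, hJ_smul_left, h1, h2', hvw', hvw, hJ_add_right]
  have : hJ σ w' w = hJ σ w' w := rfl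
  ext k
  simp only [Pi.sub_apply, Pi.add_apply, Pi.smul_apply, smul_eq_mul]
  ring

theorem E_zero_eq_one {v : Fin n → K} (hv : hJ σ v v = 0) : D.E v 0 0 = 1 := by
  have hc : Cond σ v 0 (0 : K) := ⟨hv, hJ_zero_left _, by simp [hJ_zero_left]⟩
  apply G_ext (D := D)
  intro x
  rw [act_E hc, act_one]
  simp [hJ_zero_right]

/-- Scaling the isotropic vector. -/
theorem E_smul_v {v w : Fin n → K} {a : K} (h : Cond σ v w a) (c : K) :
    D.E (c • v) w a = D.E v (σ c • w) (a * (c * σ c)) := by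
  have hσ := D.hσ.invol
  obtain ⟨h1, h2, h3⟩ := id h
  have hc1 : Cond σ (c • v) w a := by
    refine ⟨?_, ?_, h3⟩
    · rw [hJ_smul_left, hJ_smul_right, h1]; ring
    · rw [hJ_smul_right, h2]; ring
  have hc2 : Cond σ v (σ c • w) (a * (c * σ c)) := by
    refine ⟨h1, ?_, ?_⟩
    · rw [hJ_smul_left, h2]; ring
    · rw [hJ_smul_left, hJ_smul_right, hσ]
      simp only [map_mul, hσ]
      linear_combination (c * σ c) * h3
  apply G_ext (D := D)
  intro x
  rw [act_E hc1, act_E hc2]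
  simp only [hJ_smul_right, hσ]
  ext k
  simp only [Pi.sub_apply, Pi.add_apply, Pi.smul_apply, smul_eq_mul]
  ring

/-- The symmetry of the short root elements. -/
theorem E_symm {v w : Fin n → K} (hv : hJ σ v v = 0) (hw : hJ σ w w = 0) (hvw : hJ σ w v = 0) (c : K) :
    D.E v (c • w) 0 = D.E w ((- σ c) • v) 0 := by
  have hσ := D.hσ.invol
  have hvw' : hJ σ v w = 0 := by rw [← hJ_conj hσ, hvw, map_zero]
  have hc1 : Cond σ v (c • w) (0 : K) := by
    refine ⟨hv, ?_, ?_⟩
    · rw [hJ_smul_left, hvw, mul_zero]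
    · rw [hJ_smul_left, hJ_smul_right, hw]; simp
  have hc2 : Cond σ w ((- σ c) • v) (0 : K) := by
    refine ⟨hw, ?_, ?_⟩
    · rw [hJ_smul_left, hvw', mul_zero]
    · rw [hJ_smul_left, hJ_smul_right, hv]; simp
  apply G_ext (D := D)
  intro x
  rw [act_E hc1, act_E hc2]
  simp only [hJ_smul_right, map_neg, hσ]
  ext k
  simp only [Pi.sub_apply, Pi.add_apply, Pi.smul_apply, smul_eq_mul, map_zero]
  ring

/-- A long root element of a sum of two orthogonal isotropic vectors. -/
theorem T_add {v u : Fin n → K} {a : K} (hv : hJ σ v v = 0) (hu : hJ σ u u = 0) (huv : hJ σ u v = 0) (ha : a + σ a = 0) :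
    D.E (v + u) 0 a = D.E v 0 a * D.E u 0 a * D.E v (a • u) 0 := by
  have hσ := D.hσ.invol
  have hvu : hJ σ v u = 0 := by rw [← hJ_conj hσ, huv, map_zero]
  have hc0 : Cond σ (v + u) 0 a := by
    refine ⟨?_, hJ_zero_left _, by rw [hJ_zero_left, add_zero, ha]⟩
    simp only [hJ_add_left, hJ_add_right, hv, hu, huv, hvu, add_zero]
  have hc1 : Cond σ v 0 a := ⟨hv, hJ_zero_left _, by rw [hJ_zero_left, add_zero, ha]⟩
  have hc2 : Cond σ u 0 a := ⟨hu, hJ_zero_left _, by rw [hJ_zero_left, add_zero, ha]⟩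
  have hc3 : Cond σ v (a • u) (0 : K) := by
    refine ⟨hv, ?_, ?_⟩
    · rw [hJ_smul_left, huv, mul_zero]
    · rw [hJ_smul_left, hJ_smul_right, hu]; simp
  have hsa : σ a = - a := by linear_combination ha
  apply G_ext (D := D)
  intro x
  rw [act_mul, act_mul, act_E hc0, act_E hc1, act_E hc2, act_E hc3]
  simp only [hJ_add_left, hJ_add_right, hJ_sub_left, hJ_smul_left, hJ_smul_right, hJ_zero_right, hJ_zero_left, hv, hu, huv, hvu, hsa]
  ext k
  simp only [Pi.sub_apply, Pi.add_apply, Pi.smul_apply, smul_eq_mul, Pi.zero_apply]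
  ring

/-- The third power of `E - 1` vanishes, and `E` has order dividing `p ^ 2`. -/
theorem E_pow {v w : Fin n → K} {a : K} (h : Cond σ v w a) (p : ℕ) [hp : Fact p.Prime] [CharP K p] :
    (D.E v w a) ^ p ^ 2 = 1 := by
  have hσ := D.hσ.invol
  obtain ⟨h1, h2, h3⟩ := id h
  have hvw : hJ σ v w = 0 := by rw [← hJ_conj hσ, h2, map_zero]
  apply D.inj
  rw [map_pow, map_one, toM_E h]
  rcases isEmpty_or_nonempty (Fin n) with hι | hι
  · ext i
    exact (hι.false i).elim
  have : CharP (Matrix (Fin n) (Fin n) K) p := Matrix.charP p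
  have hp2 : p.Prime := hp.out
  let N : Matrix (Fin n) (Fin n) K := eM σ v w a - 1
  have hN : ∀ x, N *ᵥ x = hJ σ x v • (w + a • v) - hJ σ x w • v := by
    intro x
    simp only [N, Matrix.sub_mulVec, Matrix.one_mulVec, eM_mulVec]
    ext k
    simp
    ring
  have hN1 : ∀ x, hJ σ (N *ᵥ x) v = 0 := by
    intro x
    rw [hN]
    simp only [hJ_sub_left, hJ_add_left, hJ_smul_left, h1, h2]
    ring
  have hN2 : ∀ x, N *ᵥ (N *ᵥ (N *ᵥ x)) = 0 := by
    intro x
    rw [hN (N *ᵥ (N *ᵥ x)), hN1]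
    have h4 : hJ σ (N *ᵥ (N *ᵥ x)) w = 0 := by
      rw [hN (N *ᵥ x), hN1]
      simp only [hJ_sub_left, hJ_add_left, hJ_smul_left, hvw, zero_smul, zero_sub, add_zero, mul_zero, sub_zero, neg_zero,
        hJ_neg_left, mul_zero]
    rw [h4]
    simp
  have hN3 : N ^ 3 = 0 := by
    apply mat_ext
    intro x
    rw [pow_succ, pow_succ, pow_one, ← Matrix.mulVec_mulVec, ← Matrix.mulVec_mulVec, hN2, Matrix.zero_mulVec]
  have hNA : eM σ v w a = N + 1 := by simp [N]
  have h3p : 3 ≤ p ^ 2 := by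
    have := hp2.two_le
    nlinarith
  have hpow : N ^ p ^ 2 = 0 := by
    obtain ⟨k, hk⟩ := Nat.exists_eq_add_of_le h3p
    rw [hk, pow_add, hN3, zero_mul]
  have hcomm : Commute N (1 : Matrix (Fin n) (Fin n) K) := Commute.one_right N
  rw [hNA, add_pow_char_pow_of_commute p 2 hcomm, hpow, zero_add, one_pow]

end Model

end Cfsg.Agent.Lib.SUWitt
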