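import Mathlib
import Cfsg.Agent.Lib.PrsSUA
import Cfsg.Agent.Lib.SUWitt1

/-!
# Presentations of special unitary groups: the abstract root layer
-/

set_option autoImplicit false
set_option linter.unusedSectionVars false
set_option linter.unusedVariables false

namespace Cfsg.Agent.Lib.PrsSU

open Subgroup Sum
open scoped commutatorElement

/-- Signed indices. -/
abbrev Ix (m : ℕ) := Fin m ⊕ Fin m

section IxS

variable {m : ℕ}

/-- The opposite index. -/
def bar (a : Ix m) : Ix m := a.swap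

/-- The absolute value of an index. -/
def ab (a : Ix m) : Fin m := Sum.elim id id a

/-- The height of an index. -/
def ht (a : Ix m) : ℤ := Sum.elim (fun i : Fin m => ((i : ℕ) : ℤ) + 1) (fun i : Fin m => -(((i : ℕ) : ℤ) + 1)) a

@[simp] lemma bar_inl (i : Fin m) : bar (inl i : Ix m) = inr i := rfl
@[simp] lemma bar_inr (i : Fin m) : bar (inr i : Ix m) = inl i := rfl
@[simp] lemma bar_bar (a : Ix m) : bar (bar a) = a := by cases a <;> rfl
@[simp] lemma ab_inl (i : Fin m) : ab (inl i : Ix m) = i := rfl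
@[simp] lemma ab_inr (i : Fin m) : ab (inr i : Ix m) = i := rfl
@[simp] lemma ab_bar (a : Ix m) : ab (bar a) = ab a := by cases a <;> rfl
@[simp] lemma ht_inl (i : Fin m) : ht (inl i : Ix m) = ((i : ℕ) : ℤ) + 1 := rfl
@[simp] lemma ht_inr (i : Fin m) : ht (inr i : Ix m) = -(((i : ℕ) : ℤ) + 1) := rfl
@[simp] lemma ht_bar (a : Ix m) : ht (bar a) = - ht a := by cases a <;> simp

lemma ab_eq_iff {a b : Ix m} : ab a = ab b ↔ a = b ∨ a = bar b := by
  constructor
  · intro h
    cases a <;> cases b <;> simp_all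
  · rintro (rfl | rfl) <;> simp

lemma ht_ne_zero (a : Ix m) : ht a ≠ 0 := by
  cases a with
  | inl i => simp only [ht_inl]; omega
  | inr i => simp only [ht_inr]; omega

lemma bar_ne (a : Ix m) : bar a ≠ a := by cases a <;> simp

lemma ht_pos_iff {a : Ix m} : 0 < ht a ↔ ∃ i, a = inl i := by
  cases a with
  | inl i =>
    simp only [ht_inl]
    constructor
    · intro _
      exact ⟨i, rfl⟩
    · intro _
      omega
  | inr i =>
    simp only [ht_inr]
    constructor
    · intro h
      omega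
    · rintro ⟨j, hj⟩
      cases hj

lemma sum_ne_zero {a b : Ix m} (h : ab a ≠ ab b) : ht a + ht b ≠ 0 := by
  cases a <;> cases b <;> simp at h ⊢ <;> intro e <;> apply h <;> apply Fin.ext <;> omega

end IxS

section Defs

variable {Γ : Type*} [Group Γ] {m : ℕ}

/-- The generating set of the height filtration. -/
def USet (M : Ix m → Subgroup Γ) (X : Ix m → Ix m → Subgroup Γ) (h : ℤ) : Set Γ :=
  {x | ∃ a, h ≤ ht a ∧ x ∈ M a} ∪ {x | ∃ a b, ab a ≠ ab b ∧ h ≤ ht a + ht b ∧ x ∈ X a b}

/-- The height filtration. -/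
def Uh (M : Ix m → Subgroup Γ) (X : Ix m → Ix m → Subgroup Γ) (h : ℤ) : Subgroup Γ := closure (USet M X h)

/-- The action on roots. -/
def ActsOn (M : Ix m → Subgroup Γ) (X : Ix m → Ix m → Subgroup Γ) (n : Γ) (π : Equiv.Perm (Ix m)) : Prop :=
  (∀ a, ∀ x ∈ M a, n * x * n⁻¹ ∈ M (π a)) ∧ ∀ a b, ∀ x ∈ X a b, n * x * n⁻¹ ∈ X (π a) (π b)

/-- The simple reflections. -/
def refl {m' : ℕ} : Option (Fin m') → Equiv.Perm (Ix (m' + 1))
  | none => Equiv.swap (inl 0) (inr 0)
  | some k => Equiv.sumCongr (Equiv.swap k.castSucc k.succ) (Equiv.swap k.castSucc k.succ)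

/-- The simple root groups. -/
def Xs {m' : ℕ} (M : Ix (m' + 1) → Subgroup Γ) (X : Ix (m' + 1) → Ix (m' + 1) → Subgroup Γ) :
    Option (Fin m') → Subgroup Γ
  | none => M (inl 0)
  | some k => X (inl k.succ) (inr k.castSucc)

/-- The complement of a simple root group. -/
def Yg {m' : ℕ} (M : Ix (m' + 1) → Subgroup Γ) (X : Ix (m' + 1) → Ix (m' + 1) → Subgroup Γ)
    (i : Option (Fin m')) : Subgroup Γ :=
  closure (USet M X 2 ∪ {x | ∃ j, j ≠ i ∧ x ∈ Xs M X j})

lemma mem_USet_M {M : Ix m → Subgroup Γ} {X : Ix m → Ix m → Subgroup Γ} {h : ℤ} {a : Ix m} {x : Γ}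
    (ha : h ≤ ht a) (hx : x ∈ M a) : x ∈ USet M X h := Or.inl ⟨a, ha, hx⟩

lemma mem_USet_X {M : Ix m → Subgroup Γ} {X : Ix m → Ix m → Subgroup Γ} {h : ℤ} {a b : Ix m} {x : Γ}
    (hab : ab a ≠ ab b) (ha : h ≤ ht a + ht b) (hx : x ∈ X a b) : x ∈ USet M X h := Or.inr ⟨a, b, hab, ha, hx⟩

end Defs

lemma val_swap {m' : ℕ} (k : Fin m') (p : Fin (m' + 1)) :
    ((Equiv.swap k.castSucc k.succ p : Fin (m' + 1)) : ℕ) =
      if (p : ℕ) = (k : ℕ) then (k : ℕ) + 1 else if (p : ℕ) = (k : ℕ) + 1 then (k : ℕ) else (p : ℕ) := by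
  rw [Equiv.swap_apply_def]
  by_cases h1 : p = k.castSucc
  · subst h1
    simp
  · have h1' : (p : ℕ) ≠ k := fun e => h1 (Fin.ext (by simpa using e))
    by_cases h2 : p = k.succ
    · subst h2
      rw [if_neg h1, if_pos rfl, if_neg h1', if_pos (by simp)]
      simp
    · have h2' : (p : ℕ) ≠ k + 1 := fun e => h2 (Fin.ext (by simpa using e))
      rw [if_neg h1, if_neg h2, if_neg h1', if_neg h2']

lemma refl_some_inl {m' : ℕ} (k : Fin m') (p : Fin (m' + 1)) :
    refl (some k) (inl p : Ix (m' + 1)) = inl (Equiv.swap k.castSucc k.succ p) := rfl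

lemma refl_some_inr {m' : ℕ} (k : Fin m') (p : Fin (m' + 1)) :
    refl (some k) (inr p : Ix (m' + 1)) = inr (Equiv.swap k.castSucc k.succ p) := rfl

lemma refl_none_inl {m' : ℕ} (p : Fin (m' + 1)) :
    refl (none : Option (Fin m')) (inl p : Ix (m' + 1)) = if p = 0 then inr 0 else inl p := by
  by_cases h : p = 0
  · subst h
    simp [refl]
  · rw [if_neg h]
    simp [refl, Equiv.swap_apply_def, h]

lemma refl_none_inr {m' : ℕ} (p : Fin (m' + 1)) :
    refl (none : Option (Fin m')) (inr p : Ix (m' + 1)) = if p = 0 then inl 0 else inr p := by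
  by_cases h : p = 0
  · subst h
    simp [refl]
  · rw [if_neg h]
    simp [refl, Equiv.swap_apply_def, h]

lemma refl_signed {m' : ℕ} (i : Option (Fin m')) (a : Ix (m' + 1)) : refl i (bar a) = bar (refl i a) := by
  cases i with
  | none =>
    simp only [refl]
    cases a with
    | inl p =>
      by_cases h : p = 0
      · subst h
        simp
      · simp [Equiv.swap_apply_def, h]
    | inr p =>
      by_cases h : p = 0
      · subst h
        simp
      · simp [Equiv.swap_apply_def, h]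
  | some k =>
    cases a <;> simp [refl]

lemma refl_refl {m' : ℕ} (i : Option (Fin m')) (a : Ix (m' + 1)) : refl i (refl i a) = a := by
  cases i with
  | none => simp [refl]
  | some k => cases a <;> simp [refl]

lemma ab_refl_ne {m' : ℕ} (i : Option (Fin m')) {a b : Ix (m' + 1)} (h : ab a ≠ ab b) :
    ab (refl i a) ≠ ab (refl i b) := by
  intro e
  rw [ab_eq_iff] at e
  apply h
  rw [ab_eq_iff]
  rcases e with e | e
  · left
    exact (refl i).injective e
  · right
    rw [← refl_signed] at e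
    exact (refl i).injective e

/-- The abstract data of the root groups. -/
structure RootD (Γ : Type*) [Group Γ] (m' : ℕ) where
  M : Ix (m' + 1) → Subgroup Γ
  X : Ix (m' + 1) → Ix (m' + 1) → Subgroup Γ
  T : Subgroup Γ
  N : Subgroup Γ
  s : Option (Fin m') → Γ
  X_symm : ∀ a b, ∀ x ∈ X a b, x ∈ X b a
  F2 : ∀ a b, ab a ≠ ab b → ∀ x ∈ X a b, ∀ u ∈ M a, Commute x u
  F3 : ∀ a b c, ab a ≠ ab b → ab c ≠ ab a → ab c ≠ ab b → ∀ x ∈ X a b, ∀ u ∈ M c, Commute x u
  F4 : ∀ a b, ab a ≠ ab b → ∀ u ∈ M (bar a), ∀ x ∈ X a b, ∃ r₁ ∈ M b, ∃ r₂ ∈ X b (bar a), ⁅u, x⁆ = r₁ * r₂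
  F5 : ∀ a b c, ab a ≠ ab b → ab a ≠ ab c → ab b ≠ ab c → ∀ x ∈ X a b, ∀ y ∈ X a c, Commute x y
  F6 : ∀ a b c d, ab a ≠ ab b → ab c ≠ ab d → ab a ≠ ab c → ab a ≠ ab d → ab b ≠ ab c → ab b ≠ ab d →
    ∀ x ∈ X a b, ∀ y ∈ X c d, Commute x y
  F7 : ∀ a b c, ab a ≠ ab b → ab a ≠ ab c → ab b ≠ ab c → ∀ x ∈ X a b, ∀ y ∈ X (bar a) c, ⁅x, y⁆ ∈ X b c
  F8 : ∀ a b, ab a ≠ ab b → ∀ x ∈ X a (bar b), ∀ y ∈ X a b, ⁅x, y⁆ ∈ M a
  X_comm : ∀ a b, ab a ≠ ab b → ∀ x ∈ X a b, ∀ y ∈ X a b, Commute x y
  MM : ∀ a b, ab a ≠ ab b → ∀ u ∈ M a, ∀ v ∈ M b, ⁅u, v⁆ ∈ X a b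
  T_le_N : T ≤ N
  T_act : ∀ t ∈ T, ActsOn M X t 1
  act : ∀ n ∈ N, ∃ π : Equiv.Perm (Ix (m' + 1)), (∀ a, π (bar a) = bar (π a)) ∧ ActsOn M X n π ∧ ActsOn M X n⁻¹ π⁻¹
  s_mem : ∀ i, s i ∈ N
  s_act : ∀ i, ActsOn M X (s i) (refl i) ∧ ActsOn M X (s i)⁻¹ (refl i)
  s_sq : ∀ i, s i * s i ∈ T
  ri : ∀ i, ∀ x ∈ Xs M X i, x ≠ 1 → ∃ x₁ ∈ Xs M X i, ∃ t ∈ T, ∃ x₂ ∈ Xs M X i, s i * x = x₁ * (s i * t * x₂ * s i)
  gen : closure ((T : Set Γ) ∪ Uh M X 1 ∪ Set.range s) = ⊤

namespace RootD

variable {Γ : Type*} [Group Γ] {m' : ℕ} (D : RootD Γ m')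

/-- The unipotent subgroup. -/
def U : Subgroup Γ := Uh D.M D.X 1

lemma one_mem_U2 : (1 : Γ) ∈ Uh D.M D.X 2 := one_mem _

lemma M_U {a : Ix (m' + 1)} {h : ℤ} (ha : h ≤ ht a) {x : Γ} (hx : x ∈ D.M a) : x ∈ Uh D.M D.X h :=
  subset_closure (mem_USet_M ha hx)

lemma X_U {a b : Ix (m' + 1)} {h : ℤ} (hab : ab a ≠ ab b) (ha : h ≤ ht a + ht b) {x : Γ} (hx : x ∈ D.X a b) :
    x ∈ Uh D.M D.X h :=
  subset_closure (mem_USet_X hab ha hx)

lemma cf_F4 {a b : Ix (m' + 1)} (hab : ab a ≠ ab b) (h1 : 0 < ht a + ht b) (hc : 0 < ht (bar a)) {x u : Γ}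
    (hx : x ∈ D.X a b) (hu : u ∈ D.M (bar a)) : ⁅x, u⁆ ∈ Uh D.M D.X 2 := by
  obtain ⟨r₁, h₁, r₂, h₂, e⟩ := D.F4 a b hab u hu x hx
  have e' : ⁅x, u⁆ = (r₁ * r₂)⁻¹ := by rw [← e, cm_inv]
  rw [e']
  simp only [ht_bar] at hc
  refine inv_mem (mul_mem (D.M_U (by omega) h₁) (D.X_U ?_ ?_ h₂))
  · simpa using hab.symm
  · simp only [ht_bar]
    omega

/-- Commutators of root groups with the groups `M`. -/
lemma cf_XM {a b c : Ix (m' + 1)} (hab : ab a ≠ ab b) (h1 : 0 < ht a + ht b) (hc : 0 < ht c) {x u : Γ}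
    (hx : x ∈ D.X a b) (hu : u ∈ D.M c) : ⁅x, u⁆ ∈ Uh D.M D.X 2 := by
  by_cases c1 : c = a
  · subst c1
    rw [comm_iff_cm.1 (D.F2 c b hab x hx u hu)]
    exact one_mem _
  by_cases c2 : c = b
  · subst c2
    rw [comm_iff_cm.1 (D.F2 c a hab.symm x (D.X_symm _ _ _ hx) u hu)]
    exact one_mem _
  by_cases c3 : c = bar a
  · subst c3
    exact D.cf_F4 hab h1 hc hx hu
  by_cases c4 : c = bar b
  · subst c4
    exact D.cf_F4 hab.symm (by omega) hc (D.X_symm _ _ _ hx) hu
  have n1 : ab c ≠ ab a := fun e => by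
    rcases ab_eq_iff.1 e with e | e
    · exact c1 e
    · exact c3 e
  have n2 : ab c ≠ ab b := fun e => by
    rcases ab_eq_iff.1 e with e | e
    · exact c2 e
    · exact c4 e
  rw [comm_iff_cm.1 (D.F3 a b c hab n1 n2 x hx u hu)]
  exact one_mem _

lemma cf_same {a b d : Ix (m' + 1)} (hab : ab a ≠ ab b) (had : ab a ≠ ab d) (h1 : 0 < ht a + ht b)
    (h2 : 0 < ht a + ht d) {x y : Γ} (hx : x ∈ D.X a b) (hy : y ∈ D.X a d) : ⁅x, y⁆ ∈ Uh D.M D.X 2 := by
  by_cases c1 : d = b
  · subst c1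
    rw [comm_iff_cm.1 (D.X_comm a d hab x hx y hy)]
    exact one_mem _
  by_cases c2 : d = bar b
  · subst c2
    have := D.F8 a b hab y hy x hx
    have e : ⁅x, y⁆ = ⁅y, x⁆⁻¹ := by rw [cm_inv]
    rw [e]
    refine inv_mem (D.M_U ?_ this)
    have h3 := ht_ne_zero b
    simp only [ht_bar] at h2
    omega
  have n : ab b ≠ ab d := fun e => by
    rcases ab_eq_iff.1 e with e | e
    · exact c1 e.symm
    · exact c2 (by rw [e, bar_bar])
  rw [comm_iff_cm.1 (D.F5 a b d hab had n x hx y hy)]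
  exact one_mem _

lemma cf_bar {a b d : Ix (m' + 1)} (hab : ab a ≠ ab b) (had : ab a ≠ ab d) (h1 : 0 < ht a + ht b)
    (h2 : 0 < ht (bar a) + ht d) {x y : Γ} (hx : x ∈ D.X a b) (hy : y ∈ D.X (bar a) d) : ⁅x, y⁆ ∈ Uh D.M D.X 2 := by
  by_cases c1 : d = b
  · subst c1
    exact D.cf_same (a := d) (b := a) (d := bar a) hab.symm (by simpa using hab.symm) (by omega) (by omega)
      (D.X_symm _ _ _ hx) (D.X_symm _ _ _ hy)
  by_cases c2 : d = bar b
  · subst c2
    simp only [ht_bar] at h2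
    omega
  have n : ab b ≠ ab d := fun e => by
    rcases ab_eq_iff.1 e with e | e
    · exact c1 e.symm
    · exact c2 (by rw [e, bar_bar])
  refine D.X_U n ?_ (D.F7 a b d hab had n x hx y hy)
  simp only [ht_bar] at h2
  omega

/-- Commutators of root groups. -/
lemma cf_XX {a b c d : Ix (m' + 1)} (hab : ab a ≠ ab b) (hcd : ab c ≠ ab d) (h1 : 0 < ht a + ht b)
    (h2 : 0 < ht c + ht d) {x y : Γ} (hx : x ∈ D.X a b) (hy : y ∈ D.X c d) : ⁅x, y⁆ ∈ Uh D.M D.X 2 := by
  have hx' := D.X_symm _ _ _ hx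
  have hy' := D.X_symm _ _ _ hy
  by_cases c1 : ab c = ab a
  · rcases ab_eq_iff.1 c1 with e | e
    · subst e
      exact D.cf_same hab hcd h1 h2 hx hy
    · subst e
      exact D.cf_bar hab (by simpa using hcd) h1 h2 hx hy
  by_cases c2 : ab c = ab b
  · rcases ab_eq_iff.1 c2 with e | e
    · subst e
      exact D.cf_same hab.symm hcd (by omega) h2 hx' hy
    · subst e
      exact D.cf_bar hab.symm (by simpa using hcd) (by omega) h2 hx' hy
  by_cases c3 : ab d = ab a
  · rcases ab_eq_iff.1 c3 with e | e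
    · subst e
      exact D.cf_same hab hcd.symm h1 (by omega) hx hy'
    · subst e
      exact D.cf_bar hab (by simpa using hcd.symm) h1 (by omega) hx hy'
  by_cases c4 : ab d = ab b
  · rcases ab_eq_iff.1 c4 with e | e
    · subst e
      exact D.cf_same hab.symm hcd.symm (by omega) (by omega) hx' hy'
    · subst e
      exact D.cf_bar hab.symm (by simpa using hcd.symm) (by omega) (by omega) hx' hy'
  rw [comm_iff_cm.1 (D.F6 a b c d hab hcd (Ne.symm c1) (Ne.symm c3) (Ne.symm c2) (Ne.symm c4) x hx y hy)]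
  exact one_mem _

lemma cm_inv_mem {W : Subgroup Γ} {x y : Γ} (h : ⁅x, y⁆ ∈ W) : ⁅y, x⁆ ∈ W := by
  rw [← cm_inv]
  exact inv_mem h

lemma inl_inj_ht {m : ℕ} {a : Ix m} (h : 0 < ht a) : ∃ i, a = inl i := ht_pos_iff.1 h

/-- Uh 2 lies in the complement. -/
lemma Uh2_le (i : Option (Fin m')) : Uh D.M D.X 2 ≤ Yg D.M D.X i :=
  closure_mono (fun _ h => Or.inl h)

/-- The simple root groups normalise the complement: commutators. -/
lemma cf_main (i : Option (Fin m')) {x y : Γ} (hx : x ∈ Xs D.M D.X i)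
    (hy : y ∈ USet D.M D.X 2 ∪ {x | ∃ j, j ≠ i ∧ x ∈ Xs D.M D.X j}) : ⁅x, y⁆ ∈ Uh D.M D.X 2 := by
  have hnode : ∀ k : Fin m', ab (inl k.succ : Ix (m' + 1)) ≠ ab (inr k.castSucc : Ix (m' + 1)) := by
    intro k
    simp only [ab_inl, ab_inr]
    intro e
    have := congrArg Fin.val e
    simp at this
  have hs : ∀ k : Fin m', 0 < ht (inl k.succ : Ix (m' + 1)) + ht (inr k.castSucc : Ix (m' + 1)) := by
    intro k
    simp
  cases i with
  | none =>
    change x ∈ D.M (inl 0) at hx
    have hxM : ∀ a b, ab a ≠ ab b → 0 < ht a + ht b → y ∈ D.X a b → ⁅x, y⁆ ∈ Uh D.M D.X 2 := by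
      intro a b hab h hy
      exact cm_inv_mem (D.cf_XM hab h (by simp) hy hx)
    rcases hy with (⟨a, ha, hy⟩ | ⟨a, b, hab, h, hy⟩) | ⟨j, hj, hy⟩
    · have n : ab (inl 0 : Ix (m' + 1)) ≠ ab a := by
        intro e
        rcases ab_eq_iff.1 e with e | e
        · subst e
          simp at ha
        · have : a = inr 0 := by rw [← bar_bar a, ← e]; simp
          subst this
          simp at ha
      refine D.X_U n ?_ (D.MM _ _ n x hx y hy)
      simp only [ht_inl]
      simp
      omega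
    · exact hxM a b hab (by omega) hy
    · cases j with
      | none => exact absurd rfl hj
      | some k => exact hxM _ _ (hnode k) (hs k) hy
  | some k =>
    change x ∈ D.X _ _ at hx
    rcases hy with (⟨a, ha, hy⟩ | ⟨a, b, hab, h, hy⟩) | ⟨j, hj, hy⟩
    · exact D.cf_XM (hnode k) (hs k) (by omega) hx hy
    · exact D.cf_XX (hnode k) hab (hs k) (by omega) hx hy
    · cases j with
      | none => exact D.cf_XM (hnode k) (hs k) (by simp) hx hy
      | some k' => exact D.cf_XX (hnode k) (hnode k') (hs k) (hs k') hx hy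

/-- The simple root groups normalise the complement. -/
lemma Xs_norm (i : Option (Fin m')) : ∀ x ∈ Xs D.M D.X i, ∀ y ∈ Yg D.M D.X i, x * y * x⁻¹ ∈ Yg D.M D.X i := by
  intro x hx y hy
  refine conj_closure_mem x ?_ hy
  intro z hz
  rw [conj_eq_cm_mul]
  exact mul_mem (D.Uh2_le i (D.cf_main i hx hz)) (subset_closure hz)

/-- Every positive root group is in the complement or is the simple root group. -/
lemma U_le (i : Option (Fin m')) : Uh D.M D.X 1 ≤ closure ((Yg D.M D.X i : Set Γ) ∪ Xs D.M D.X i) := by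
  have hY : ∀ {x : Γ}, x ∈ Yg D.M D.X i → x ∈ closure ((Yg D.M D.X i : Set Γ) ∪ Xs D.M D.X i) :=
    fun h => subset_closure (Or.inl h)
  have hX : ∀ (j : Option (Fin m')) {x : Γ}, x ∈ Xs D.M D.X j →
      x ∈ closure ((Yg D.M D.X i : Set Γ) ∪ Xs D.M D.X i) := by
    intro j x h
    by_cases e : j = i
    · subst e
      exact subset_closure (Or.inr h)
    · exact hY (subset_closure (Or.inr ⟨j, e, h⟩))
  have h2 : ∀ {x : Γ}, x ∈ USet D.M D.X 2 → x ∈ closure ((Yg D.M D.X i : Set Γ) ∪ Xs D.M D.X i) :=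
    fun h => hY (subset_closure (Or.inl h))
  refine (closure_le _).2 ?_
  rintro x (⟨a, ha, hx⟩ | ⟨a, b, hab, h, hx⟩)
  · by_cases h' : 2 ≤ ht a
    · exact h2 (mem_USet_M h' hx)
    · obtain ⟨p, rfl⟩ := ht_pos_iff.1 (show 0 < ht a by omega)
      have : p = 0 := by
        apply Fin.ext
        simp at h' ⊢
        omega
      subst this
      exact hX none hx
  · by_cases h' : 2 ≤ ht a + ht b
    · exact h2 (mem_USet_X hab h' hx)
    · have h1 : ht a + ht b = 1 := by omega
      cases a with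
      | inl p =>
        cases b with
        | inl r =>
          exfalso
          simp at h1 hab
          omega
        | inr r =>
          simp at h1
          have hp : (r : ℕ) < m' := by
            have := p.2
            omega
          obtain ⟨k, rfl, rfl⟩ : ∃ k : Fin m', p = k.succ ∧ r = k.castSucc := by
            refine ⟨⟨r, hp⟩, ?_, ?_⟩ <;> apply Fin.ext <;> simp <;> omega
          exact hX (some k) hx
      | inr p =>
        cases b with
        | inr r =>
          exfalso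
          simp at h1
          omega
        | inl r =>
          simp at h1
          have hp : (p : ℕ) < m' := by
            have := r.2
            omega
          obtain ⟨k, rfl, rfl⟩ : ∃ k : Fin m', r = k.succ ∧ p = k.castSucc := by
            refine ⟨⟨p, hp⟩, ?_, ?_⟩ <;> apply Fin.ext <;> simp <;> omega
          exact hX (some k) (D.X_symm _ _ _ hx)

lemma Xs_le_U (i : Option (Fin m')) : Xs D.M D.X i ≤ Uh D.M D.X 1 := by
  intro x hx
  cases i with
  | none => exact D.M_U (by simp) hx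
  | some k => exact D.X_U (by
      simp only [ab_inl, ab_inr]
      intro e
      have := congrArg Fin.val e
      simp at this) (by simp) hx

/-- Images under the simple reflections of the complement. -/
lemma s_gen (i : Option (Fin m')) {y : Γ} (hy : y ∈ USet D.M D.X 2 ∪ {x | ∃ j, j ≠ i ∧ x ∈ Xs D.M D.X j}) :
    D.s i * y * (D.s i)⁻¹ ∈ Uh D.M D.X 1 := by
  obtain ⟨⟨hM, hX⟩, -⟩ := D.s_act i
  have hXpos : ∀ a b, ab a ≠ ab b → 0 < ht (refl i a) + ht (refl i b) → ∀ x ∈ D.X a b,
      D.s i * x * (D.s i)⁻¹ ∈ Uh D.M D.X 1 := by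
    intro a b hab h x hx
    exact D.X_U (ab_refl_ne i hab) (by omega) (hX a b x hx)
  have hMpos : ∀ a, 0 < ht (refl i a) → ∀ x ∈ D.M a, D.s i * x * (D.s i)⁻¹ ∈ Uh D.M D.X 1 := by
    intro a h x hx
    exact D.M_U (by omega) (hM a x hx)
  have hval0 : ∀ p : Fin (m' + 1), p = 0 ↔ (p : ℕ) = 0 := fun p => by
    constructor
    · rintro rfl
      rfl
    · intro h
      exact Fin.ext h
  rcases hy with (⟨a, ha, hy⟩ | ⟨a, b, hab, h, hy⟩) | ⟨j, hj, hy⟩
  · refine hMpos a ?_ y hy
    obtain ⟨p, rfl⟩ := ht_pos_iff.1 (show 0 < ht a by omega)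
    simp only [ht_inl] at ha
    cases i with
    | none =>
      rw [refl_none_inl, if_neg (by rw [hval0]; omega)]
      simp only [ht_inl]
      omega
    | some k =>
      rw [refl_some_inl]
      simp only [ht_inl]
      omega
  · refine hXpos a b hab ?_ y hy
    cases i with
    | none =>
      cases a with
      | inl p =>
        cases b with
        | inl r =>
          rw [refl_none_inl, refl_none_inl]
          simp only [ab_inl, hval0, ne_eq, ht_inl, Fin.ext_iff] at hab h ⊢
          split_ifs <;> simp only [ht_inl, ht_inr, Fin.val_zero] <;> omega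
        | inr r =>
          rw [refl_none_inl, refl_none_inr]
          simp only [ab_inl, ab_inr, hval0, ne_eq, ht_inl, ht_inr, Fin.ext_iff] at hab h ⊢
          split_ifs <;> simp only [ht_inl, ht_inr, Fin.val_zero] <;> omega
      | inr p =>
        cases b with
        | inl r =>
          rw [refl_none_inr, refl_none_inl]
          simp only [ab_inl, ab_inr, hval0, ne_eq, ht_inl, ht_inr, Fin.ext_iff] at hab h ⊢
          split_ifs <;> simp only [ht_inl, ht_inr, Fin.val_zero] <;> omega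
        | inr r =>
          exfalso
          simp only [ht_inr] at h
          omega
    | some k =>
      cases a with
      | inl p =>
        cases b with
        | inl r =>
          rw [refl_some_inl, refl_some_inl]
          simp only [ht_inl]
          omega
        | inr r =>
          rw [refl_some_inl, refl_some_inr]
          simp only [ab_inl, ab_inr, ne_eq, ht_inl, ht_inr, Fin.ext_iff] at hab h ⊢
          rw [val_swap, val_swap]
          split_ifs <;> omega
      | inr p =>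
        cases b with
        | inl r =>
          rw [refl_some_inr, refl_some_inl]
          simp only [ab_inl, ab_inr, ne_eq, ht_inl, ht_inr, Fin.ext_iff] at hab h ⊢
          rw [val_swap, val_swap]
          split_ifs <;> omega
        | inr r =>
          exfalso
          simp only [ht_inr] at h
          omega
  · cases j with
    | none =>
      refine hMpos _ ?_ y hy
      cases i with
      | none => exact absurd rfl hj
      | some k =>
        rw [refl_some_inl]
        simp only [ht_inl]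
        omega
    | some k' =>
      have hn : ab (inl k'.succ : Ix (m' + 1)) ≠ ab (inr k'.castSucc : Ix (m' + 1)) := by
        simp only [ab_inl, ab_inr]
        intro e
        have := congrArg Fin.val e
        simp at this
      refine hXpos _ _ hn ?_ y hy
      cases i with
      | none =>
        rw [refl_none_inl, refl_none_inr, if_neg (Fin.succ_ne_zero _)]
        by_cases h0 : k'.castSucc = 0
        · rw [if_pos h0]
          have h0' : (k' : ℕ) = 0 := by simpa [hval0] using h0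
          simp only [ht_inl, Fin.val_zero, Fin.val_succ]
          omega
        · rw [if_neg h0]
          simp only [ht_inl, ht_inr, Fin.val_succ, Fin.val_castSucc]
          omega
      | some k =>
        have hk : k' ≠ k := fun e => hj (by rw [e])
        have hk' : (k' : ℕ) ≠ k := fun e => hk (Fin.ext e)
        rw [refl_some_inl, refl_some_inr]
        simp only [ht_inl, ht_inr]
        rw [val_swap, val_swap]
        simp only [Fin.val_succ, Fin.val_castSucc]
        split_ifs <;> omega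

/-- The data for the Bruhat decomposition. -/
def toTits : TitsD Γ (Option (Fin m')) where
  U := Uh D.M D.X 1
  T := D.T
  N := D.N
  X := Xs D.M D.X
  Y := Yg D.M D.X
  s := D.s
  T_le_N := D.T_le_N
  s_mem := D.s_mem
  T_U := by
    intro t ht' u hu
    refine conj_closure_mem t ?_ hu
    rintro y (⟨a, ha, hy⟩ | ⟨a, b, hab, h, hy⟩)
    · exact D.M_U ha ((D.T_act t ht').1 a y hy)
    · exact D.X_U hab h ((D.T_act t ht').2 a b y hy)
  dec := by
    intro i u hu
    exact mul_decomp _ _ (D.Xs_norm i) (D.U_le i hu)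
  X_le := D.Xs_le_U
  s_Y := by
    intro i y hy
    exact conj_closure_mem _ (fun z hz => D.s_gen i hz) hy
  ri := by
    intro i x hx h1
    obtain ⟨x₁, h₁, t, ht', x₂, h₂, e⟩ := D.ri i x hx h1
    exact ⟨x₁, D.Xs_le_U i h₁, t, ht', x₂, h₂, e⟩
  dich := by
    intro i n hn
    obtain ⟨π, hπ, h1, h2⟩ := D.act n hn
    have hπ' : ∀ a, π⁻¹ (bar a) = bar (π⁻¹ a) := by
      intro a
      apply π.injective
      rw [hπ]
      simp
    have hsn : ∀ x, (D.s i * n)⁻¹ * x * (D.s i * n) = n⁻¹ * ((D.s i)⁻¹ * x * (D.s i)⁻¹⁻¹) * n⁻¹⁻¹ := by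
      intro x
      group
    have hn1 : ∀ x, n⁻¹ * x * n = n⁻¹ * x * n⁻¹⁻¹ := by
      intro x
      group
    obtain ⟨-, h3⟩ := D.s_act i
    cases i with
    | none =>
      have hpos := ht_ne_zero (π⁻¹ (inl 0))
      by_cases hh : 0 < ht (π⁻¹ (inl 0))
      · left
        intro x hx
        rw [hn1]
        exact D.M_U (by omega) (h2.1 _ x hx)
      · right
        intro x hx
        rw [hsn]
        have e1 := h3.1 _ x hx
        have e2 := h2.1 _ _ e1
        refine D.M_U ?_ e2
        have e3 : refl (none : Option (Fin m')) (inl 0) = bar (inl 0) := by simp [refl]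
        rw [e3, hπ', ht_bar]
        omega
    | some k =>
      have hn : ab (inl k.succ : Ix (m' + 1)) ≠ ab (inr k.castSucc : Ix (m' + 1)) := by
        simp only [ab_inl, ab_inr]
        intro e
        have := congrArg Fin.val e
        simp at this
      have hn' : ab (π⁻¹ (inl k.succ)) ≠ ab (π⁻¹ (inr k.castSucc)) := by
        intro e
        rcases ab_eq_iff.1 e with e | e
        · have := π⁻¹.injective e
          simp at this
        · rw [← hπ'] at e
          have := π⁻¹.injective e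
          simp at this
          have := congrArg Fin.val this
          simp at this
      have hpos := sum_ne_zero hn'
      by_cases hh : 0 < ht (π⁻¹ (inl k.succ)) + ht (π⁻¹ (inr k.castSucc))
      · left
        intro x hx
        rw [hn1]
        exact D.X_U hn' (by omega) (h2.2 _ _ x hx)
      · right
        intro x hx
        rw [hsn]
        have e1 := h3.2 _ _ x hx
        have e2 := h2.2 _ _ _ e1
        have e5 : refl (some k) (inl k.succ : Ix (m' + 1)) = inl k.castSucc := by simp [refl]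
        have e6 : refl (some k) (inr k.castSucc : Ix (m' + 1)) = inr k.succ := by simp [refl]
        rw [e5, e6] at e2
        have e7 : (inl k.castSucc : Ix (m' + 1)) = bar (inr k.castSucc) := rfl
        have e8 : (inr k.succ : Ix (m' + 1)) = bar (inl k.succ) := rfl
        rw [e7, e8, hπ', hπ'] at e2
        refine D.X_symm _ _ _ e2 |> fun e2' => D.X_U (a := bar (π⁻¹ (inl k.succ))) (b := bar (π⁻¹ (inr k.castSucc))) ?_ ?_ e2'
        · simpa using hn'
        · simp only [ht_bar]
          omega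
  s_sq := D.s_sq
  gen := D.gen

/-- The Bruhat injectivity criterion. -/
theorem inj_of {G : Type*} [Group G] (φ : Γ →* G)
    (H : ∀ n ∈ D.N, ∀ u ∈ Uh D.M D.X 1, φ n = φ u → n = 1 ∧ u = 1) : Function.Injective φ :=
  D.toTits.inj_of φ H

end RootD

end Cfsg.Agent.Lib.PrsSU
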