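import Mathlib
import Cfsg.Agent.Lib.PrsSUB

/-!
# Presentations of special unitary groups: injectivity on the unipotent part
-/

set_option autoImplicit false
set_option linter.unusedSectionVars false
set_option linter.unusedVariables false

namespace Cfsg.Agent.Lib.PrsSU

open Subgroup Sum Cfsg.Agent.Lib.SUWitt
open scoped commutatorElement Matrix

section Chain

variable {Γ : Type*} [Group Γ]

/-- Normalising extends from inverse-closed generators. -/
lemma norm_closure {S : Set Γ} {C : Subgroup Γ} (h : ∀ x ∈ S, ∀ y ∈ C, x * y * x⁻¹ ∈ C) (hinv : ∀ x ∈ S, x⁻¹ ∈ S) :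
    ∀ x ∈ closure S, ∀ y ∈ C, x * y * x⁻¹ ∈ C := by
  intro x hx
  induction hx using Subgroup.closure_induction_left with
  | one =>
    intro y hy
    simpa using hy
  | mul_left a ha b hb ih =>
    intro y hy
    have := h a ha _ (ih y hy)
    convert this using 1
    group
  | inv_mul_cancel a ha b hb ih =>
    intro y hy
    have := h a⁻¹ (hinv a ha) _ (ih y hy)
    convert this using 1
    group

end Chain

variable {Γ : Type*} [Group Γ] {m' : ℕ} (D : RootD Γ m')
variable {F : Type*} [Field F] {n : ℕ} {σ : F →+* F} {Gt : Type*} [Group Gt] (Mo : Model (n := n) σ Gt)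
  (φ : Γ →* Gt) (idx : Ix (m' + 1) → Fin n)

/-- What we need of the model. -/
structure ModelHyp : Prop where
  idx_inj : Function.Injective idx
  idx_rev : ∀ a, (idx a).rev = idx (bar a)
  hX : ∀ a b, ab a ≠ ab b → ∀ x ∈ D.X a b, ∃ c : F, φ x = Mo.E (e (idx a)) (c • e (idx b)) 0 ∧ (c = 0 → x = 1)
  hM : ∀ k, ∀ x ∈ D.M (inl k), ∃ (w : Fin n → F) (c : F), Cond σ (e (idx (inl k))) w c ∧
    φ x = Mo.E (e (idx (inl k))) w c ∧ (∀ b, w (idx b) = 0) ∧ (w = 0 → c = 0 → x = 1)
  hN : ∀ g ∈ D.N, (∀ s, Mo.toM (φ g) s s = 1) → g = 1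

namespace ModelHyp

variable {D Mo φ idx} (H : ModelHyp D Mo φ idx)
include H

lemma e_rev_eq (a : Ix (m' + 1)) {s : Fin n} (h : s.rev = idx a) : s = idx (bar a) := by
  rw [← H.idx_rev, ← h, Fin.rev_rev]

lemma hJ_vec (a b : Ix (m' + 1)) : hJ σ (e (idx a) : Fin n → F) (e (idx b)) = if a = bar b then 1 else 0 := by
  rw [hJ_e_e, H.idx_rev]
  by_cases h : a = bar b
  · simp [h]
  · rw [if_neg h, if_neg]
    exact fun e => h (H.idx_inj e)

lemma cond_X {a b : Ix (m' + 1)} (hab : ab a ≠ ab b) (c : F) : Cond σ (e (idx a)) (c • e (idx b)) 0 := by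
  have n1 : a ≠ bar a := (bar_ne a).symm
  have n2 : b ≠ bar a := fun e => hab (by rw [e]; simp)
  have n3 : b ≠ bar b := (bar_ne b).symm
  refine ⟨by rw [H.hJ_vec, if_neg n1], ?_, ?_⟩
  · rw [hJ_smul_left, H.hJ_vec, if_neg n2, mul_zero]
  · rw [hJ_smul_left, hJ_smul_right, H.hJ_vec, if_neg n3]
    simp

lemma e_idx_ne {a b : Ix (m' + 1)} (h : a ≠ b) : (e (idx a) : Fin n → F) (idx b) = 0 := by
  rw [e_apply, if_neg]
  exact fun e => h (H.idx_inj e).symm

lemma e_idx_self (a : Ix (m' + 1)) : (e (idx a) : Fin n → F) (idx a) = 1 := by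
  rw [e_apply, if_pos rfl]

end ModelHyp

/-- The level function. -/
noncomputable def lev (idx : Ix (m' + 1) → Fin n) (r : Fin n) : ℤ := by
  classical
  exact if h : ∃ a, idx a = r then ht (Classical.choose h) else 0

lemma lev_idx (hi : Function.Injective idx) (a : Ix (m' + 1)) : lev idx (idx a) = ht a := by
  classical
  have h : ∃ b, idx b = idx a := ⟨a, rfl⟩
  unfold lev
  rw [dif_pos h, hi (Classical.choose_spec h)]

lemma lev_not {idx : Ix (m' + 1) → Fin n} {r : Fin n} (h : ∀ a, idx a ≠ r) : lev idx r = 0 := by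
  classical
  unfold lev
  rw [dif_neg]
  rintro ⟨a, ha⟩
  exact h a ha

/-- Unitriangular matrices. -/
def Tri (idx : Ix (m' + 1) → Fin n) (A : Matrix (Fin n) (Fin n) F) : Prop :=
  (∀ s, A s s = 1) ∧ ∀ r s, r ≠ s → A r s ≠ 0 → lev idx s < lev idx r

lemma Tri_one : Tri idx (1 : Matrix (Fin n) (Fin n) F) := by
  constructor
  · intro s
    simp
  · intro r s h h'
    simp [Matrix.one_apply, h] at h'

lemma Tri_mul {A B : Matrix (Fin n) (Fin n) F} (hA : Tri idx A) (hB : Tri idx B) : Tri idx (A * B) := by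
  classical
  have key : ∀ r s t, A r t ≠ 0 → B t s ≠ 0 → (r = t ∨ lev idx t < lev idx r) ∧ (t = s ∨ lev idx s < lev idx t) := by
    intro r s t h1 h2
    constructor
    · by_cases e : r = t
      · exact Or.inl e
      · exact Or.inr (hA.2 r t e h1)
    · by_cases e : t = s
      · exact Or.inl e
      · exact Or.inr (hB.2 t s e h2)
  constructor
  · intro s
    rw [Matrix.mul_apply, Finset.sum_eq_single s]
    · rw [hA.1, hB.1, one_mul]
    · intro t _ ht
      by_contra hne
      obtain ⟨h1, h2⟩ := key s s t (left_ne_zero_of_mul hne) (right_ne_zero_of_mul hne)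
      rcases h1 with h1 | h1
      · exact ht h1.symm
      · rcases h2 with h2 | h2
        · exact ht h2
        · omega
    · simp
  · intro r s hrs h
    rw [Matrix.mul_apply] at h
    obtain ⟨t, -, ht⟩ := Finset.exists_ne_zero_of_sum_ne_zero h
    obtain ⟨h1, h2⟩ := key r s t (left_ne_zero_of_mul ht) (right_ne_zero_of_mul ht)
    rcases h1 with rfl | h1
    · rcases h2 with rfl | h2
      · exact absurd rfl hrs
      · exact h2
    · rcases h2 with rfl | h2
      · exact h1
      · omega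

namespace ModelHyp

variable {D Mo φ idx} (H : ModelHyp D Mo φ idx)
include H

lemma tri_X {a b : Ix (m' + 1)} (hab : ab a ≠ ab b) (h1 : 0 < ht a + ht b) (c : F) :
    Tri idx (eM σ (e (idx a)) (c • e (idx b)) 0) := by
  have hab1 : idx b ≠ idx (bar a) := fun e => hab (by rw [H.idx_inj e]; simp)
  have hab2 : idx a ≠ idx (bar b) := fun e => hab (by rw [H.idx_inj e]; simp)
  have entry : ∀ r s, eM σ (e (idx a)) (c • e (idx b)) 0 r s = (1 : Matrix (Fin n) (Fin n) F) r s +
      (c * (if r = idx b then 1 else 0)) * (if s = idx (bar a) then 1 else 0) -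
      (if r = idx a then 1 else 0) * (σ c * (if s = idx (bar b) then 1 else 0)) := by
    intro r s
    rw [eM_apply]
    have e1 : ∀ d : Ix (m' + 1), (e (idx d) : Fin n → F) s.rev = if s = idx (bar d) then 1 else 0 := by
      intro d
      rw [e_apply]
      by_cases h : s = idx (bar d)
      · rw [if_pos h, if_pos]
        rw [h, H.idx_rev]
        simp
      · rw [if_neg h, if_neg]
        intro h'
        exact h (H.e_rev_eq d h')
    simp only [Pi.smul_apply, smul_eq_mul, zero_mul, add_zero, map_mul, e1, e_apply]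
    split_ifs <;> simp
  constructor
  · intro s
    rw [entry]
    have t1 : (c * (if s = idx b then 1 else 0)) * (if s = idx (bar a) then 1 else 0) = 0 := by
      by_cases h : s = idx b
      · rw [if_neg (show ¬ s = idx (bar a) from fun e => hab1 (h.symm.trans e))]
        simp
      · simp [h]
    have t2 : (if s = idx a then 1 else 0) * (σ c * (if s = idx (bar b) then 1 else 0)) = 0 := by
      by_cases h : s = idx a
      · rw [if_neg (show ¬ s = idx (bar b) from fun e => hab2 (h.symm.trans e))]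
        simp
      · simp [h]
    rw [t1, t2]
    simp
  · intro r s hrs h
    rw [entry, Matrix.one_apply_ne hrs] at h
    by_cases c1 : r = idx b ∧ s = idx (bar a)
    · obtain ⟨rfl, rfl⟩ := c1
      rw [lev_idx idx H.idx_inj, lev_idx idx H.idx_inj, ht_bar]
      omega
    by_cases c2 : r = idx a ∧ s = idx (bar b)
    · obtain ⟨rfl, rfl⟩ := c2
      rw [lev_idx idx H.idx_inj, lev_idx idx H.idx_inj, ht_bar]
      omega
    exfalso
    apply h
    have t1 : (c * (if r = idx b then 1 else 0)) * (if s = idx (bar a) then 1 else 0) = 0 := by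
      by_cases h1 : r = idx b
      · rw [if_neg (fun e => c1 ⟨h1, e⟩)]
        simp
      · simp [h1]
    have t2 : (if r = idx a then 1 else 0) * (σ c * (if s = idx (bar b) then 1 else 0)) = 0 := by
      by_cases h1 : r = idx a
      · rw [if_neg (fun e => c2 ⟨h1, e⟩)]
        simp
      · simp [h1]
    rw [t1, t2]
    simp

lemma tri_M {k : Fin (m' + 1)} {w : Fin n → F} {c : F} (hw : ∀ b, w (idx b) = 0) :
    Tri idx (eM σ (e (idx (inl k))) w c) := by
  have hne : idx (inr k : Ix (m' + 1)) ≠ idx (inl k) := fun e => by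
    have := H.idx_inj e
    cases this
  have entry : ∀ r s, eM σ (e (idx (inl k))) w c r s = (1 : Matrix (Fin n) (Fin n) F) r s +
      (w r + c * (if r = idx (inl k) then 1 else 0)) * (if s = idx (inr k) then 1 else 0) -
      (if r = idx (inl k) then 1 else 0) * σ (w s.rev) := by
    intro r s
    rw [eM_apply]
    have e1 : (e (idx (inl k)) : Fin n → F) s.rev = if s = idx (inr k) then 1 else 0 := by
      rw [e_apply]
      by_cases h : s = idx (inr k)
      · rw [if_pos h, if_pos]
        rw [h, H.idx_rev]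
        simp
      · rw [if_neg h, if_neg]
        intro h'
        exact h (H.e_rev_eq _ h')
    simp only [e1, e_apply]
    split_ifs <;> simp
  constructor
  · intro s
    rw [entry]
    have t1 : (w s + c * (if s = idx (inl k) then 1 else 0)) * (if s = idx (inr k) then 1 else 0) = 0 := by
      by_cases h : s = idx (inr k)
      · subst h
        rw [if_neg hne, hw]
        simp
      · simp [h]
    have t2 : (if s = idx (inl k) then 1 else 0) * σ (w s.rev) = 0 := by
      by_cases h : s = idx (inl k)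
      · subst h
        rw [H.idx_rev, hw]
        simp
      · simp [h]
    rw [t1, t2]
    simp
  · intro r s hrs h
    rw [entry, Matrix.one_apply_ne hrs, zero_add] at h
    by_cases c1 : s = idx (inr k)
    · subst c1
      rw [lev_idx idx H.idx_inj]
      simp only [ht_inr]
      by_cases c2 : ∃ a, idx a = r
      · obtain ⟨a, rfl⟩ := c2
        have c3 : a = inl k := by
          by_contra c3
          apply h
          rw [hw, if_neg (fun e => c3 (H.idx_inj e))]
          simp
        subst c3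
        rw [lev_idx idx H.idx_inj]
        simp only [ht_inl]
        omega
      · rw [lev_not (fun a e => c2 ⟨a, e⟩)]
        omega
    · rw [if_neg c1, mul_zero, zero_sub, neg_ne_zero] at h
      have h1 := left_ne_zero_of_mul h
      have h2 := right_ne_zero_of_mul h
      have c2 : r = idx (inl k) := by
        by_contra c2
        rw [if_neg c2] at h1
        exact h1 rfl
      subst c2
      rw [lev_idx idx H.idx_inj]
      simp only [ht_inl]
      have c3 : ∀ a, idx a ≠ s := by
        rintro a rfl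
        rw [H.idx_rev, hw] at h2
        simp at h2
      rw [lev_not c3]
      omega

/-- The unipotent part is unitriangular. -/
lemma U_tri {u : Γ} (hu : u ∈ Uh D.M D.X 1) : Tri idx (Mo.toM (φ u)) := by
  have hgen : ∀ x ∈ USet D.M D.X 1, Tri idx (Mo.toM (φ x)) := by
    rintro x (⟨a, ha, hx⟩ | ⟨a, b, hab, h, hx⟩)
    · obtain ⟨k, rfl⟩ := ht_pos_iff.1 (show 0 < ht a by omega)
      obtain ⟨w, c, h1, h2, h3, -⟩ := H.hM k x hx
      rw [h2, Model.toM_E h1]
      exact H.tri_M h3
    · obtain ⟨c, h1, -⟩ := H.hX a b hab x hx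
      rw [h1, Model.toM_E (H.cond_X hab c)]
      exact H.tri_X hab (by omega) c
  have hinv : ∀ x ∈ USet D.M D.X 1, x⁻¹ ∈ USet D.M D.X 1 := by
    rintro x (⟨a, ha, hx⟩ | ⟨a, b, hab, h, hx⟩)
    · exact Or.inl ⟨a, ha, inv_mem hx⟩
    · exact Or.inr ⟨a, b, hab, h, inv_mem hx⟩
  induction hu using Subgroup.closure_induction_left with
  | one =>
    rw [map_one, map_one]
    exact Tri_one idx
  | mul_left a ha b hb ih =>
    rw [map_mul, map_mul]
    exact Tri_mul idx (hgen a ha) ih
  | inv_mul_cancel a ha b hb ih =>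
    rw [map_mul, map_mul]
    exact Tri_mul idx (hgen _ (hinv a ha)) ih

lemma cond_add {v w w' : Fin n → F} {a a' : F} (h : Cond σ v w a) (h' : Cond σ v w' a') :
    Cond σ v (w + w') (a + a' - hJ σ w' w) := by
  have hσ := Mo.hσ.invol
  obtain ⟨h1, h2, h3⟩ := id h
  obtain ⟨-, h2', h3'⟩ := id h'
  refine ⟨h1, by rw [hJ_add_left, h2, h2', add_zero], ?_⟩
  simp only [hJ_add_left, hJ_add_right, map_sub, map_add, hJ_conj hσ]
  linear_combination h3 + h3'

lemma cond_neg {v w : Fin n → F} {a : F} (h : Cond σ v w a) : Cond σ v (-w) (σ a) := by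
  have hσ := Mo.hσ.invol
  obtain ⟨h1, h2, h3⟩ := id h
  refine ⟨h1, by rw [hJ_neg_left, h2, neg_zero], ?_⟩
  rw [hJ_neg_left, hJ_neg_right, hσ]
  linear_combination h3

lemma E_inv {v w : Fin n → F} {a : F} (h : Cond σ v w a) : (Mo.E v w a)⁻¹ = Mo.E v (-w) (σ a) := by
  rw [inv_eq_iff_mul_eq_one, Model.E_mul h (H.cond_neg h)]
  have e1 : w + -w = 0 := by simp
  have e2 : a + σ a - hJ σ (-w) w = 0 := by
    rw [hJ_neg_left]
    linear_combination h.2.2
  rw [e1, e2]
  exact Model.E_zero_eq_one h.1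

/-- Action on the opposite basis vector. -/
lemma act_E_opp {k : Fin (m' + 1)} {w : Fin n → F} {c : F} (h : Cond σ (e (idx (inl k))) w c)
    (hw : w (idx (inl k)) = 0) :
    Mo.toM (Mo.E (e (idx (inl k))) w c) *ᵥ e (idx (inr k)) = e (idx (inr k)) + w + c • e (idx (inl k)) := by
  rw [Model.act_E h, H.hJ_vec, if_pos (by simp), hJ_e_left, H.idx_rev]
  simp only [bar_inr, hw, map_zero, zero_smul, sub_zero, one_smul]
  rw [add_assoc]

/-- Reading off the parameters. -/
lemma E_params {k : Fin (m' + 1)} {w : Fin n → F} {c : F} (h : Cond σ (e (idx (inl k))) w c)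
    (hw : w (idx (inl k)) = 0) (hE : Mo.toM (Mo.E (e (idx (inl k))) w c) *ᵥ e (idx (inr k)) = e (idx (inr k))) :
    w = 0 ∧ c = 0 := by
  rw [H.act_E_opp h hw] at hE
  have h1 : w + c • e (idx (inl k)) = 0 := by
    have : e (idx (inr k)) + (w + c • e (idx (inl k))) = e (idx (inr k)) := by
      rw [← add_assoc]
      exact hE
    simpa using this
  have h2 := congrFun h1 (idx (inl k))
  simp only [Pi.add_apply, Pi.smul_apply, smul_eq_mul, hw, H.e_idx_self, Pi.zero_apply, zero_add, mul_one] at h2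
  subst h2
  simpa using h1

end ModelHyp

section Q

/-- Part of the radical of a point stabiliser. -/
def Sb (k : Fin (m' + 1)) (B : Finset (Ix (m' + 1))) : Subgroup Γ :=
  closure ((D.M (inl k) : Set Γ) ∪ {x | ∃ b ∈ B, x ∈ D.X (inl k) b})

/-- The roots below `k`. -/
def Bk (k : Fin (m' + 1)) : Finset (Ix (m' + 1)) := Finset.univ.filter (fun b => ab b < k)

/-- The product of the radicals below `k₀`. -/
def Ub (k₀ : ℕ) : Subgroup Γ :=
  closure ({x | ∃ i : Fin (m' + 1), (i : ℕ) < k₀ ∧ x ∈ D.M (inl i)} ∪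
    {x | ∃ (i : Fin (m' + 1)) (b : Ix (m' + 1)), (i : ℕ) < k₀ ∧ ab b < i ∧ x ∈ D.X (inl i) b})

end Q

namespace ModelHyp

variable {D Mo φ idx} (H : ModelHyp D Mo φ idx)
include H

/-- The shape of the images. -/
lemma Sb_form {k : Fin (m' + 1)} {B : Finset (Ix (m' + 1))} (hB : ∀ b ∈ B, ab b ≠ k) {g : Γ} (hg : g ∈ Sb D k B) :
    ∃ (w : Fin n → F) (c : F), Cond σ (e (idx (inl k))) w c ∧ φ g = Mo.E (e (idx (inl k))) w c ∧
      ∀ b, b ∉ B → w (idx b) = 0 := by
  have hv : hJ σ (e (idx (inl k)) : Fin n → F) (e (idx (inl k))) = 0 := by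
    rw [H.hJ_vec, if_neg]
    exact (bar_ne _).symm
  induction hg using Subgroup.closure_induction with
  | mem x hx =>
    rcases hx with hx | ⟨b₀, hb₀, hx⟩
    · obtain ⟨w, c, h1, h2, h3, -⟩ := H.hM k x hx
      exact ⟨w, c, h1, h2, fun b _ => h3 b⟩
    · have hne : ab (inl k : Ix (m' + 1)) ≠ ab b₀ := fun e => hB b₀ hb₀ e.symm
      obtain ⟨c, h1, -⟩ := H.hX _ _ hne x hx
      refine ⟨c • e (idx b₀), 0, H.cond_X hne c, h1, fun b hb => ?_⟩
      have : b₀ ≠ b := fun e => hb (e ▸ hb₀)
      simp [H.e_idx_ne this]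
  | one =>
    refine ⟨0, 0, ⟨hv, hJ_zero_left _, by simp [hJ_zero_left]⟩, ?_, fun _ _ => rfl⟩
    rw [map_one, Model.E_zero_eq_one hv]
  | mul a b _ _ ha hb =>
    obtain ⟨w, c, h1, h2, h3⟩ := ha
    obtain ⟨w', c', h1', h2', h3'⟩ := hb
    refine ⟨w + w', _, H.cond_add h1 h1', ?_, fun b hb => ?_⟩
    · rw [map_mul, h2, h2', Model.E_mul h1 h1']
    · simp [h3 b hb, h3' b hb]
  | inv a _ ha =>
    obtain ⟨w, c, h1, h2, h3⟩ := ha
    refine ⟨-w, σ c, H.cond_neg h1, ?_, fun b hb => ?_⟩
    · rw [map_inv, h2, H.E_inv h1]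
    · simp [h3 b hb]

lemma Sb_inj {k : Fin (m' + 1)} (B : Finset (Ix (m' + 1))) (hB : ∀ b ∈ B, ab b ≠ k) :
    ∀ g ∈ Sb D k B, φ g = 1 → g = 1 := by
  classical
  induction B using Finset.induction_on with
  | empty =>
    intro g hg h1
    have hg' : g ∈ D.M (inl k) := by
      refine (closure_le _).2 ?_ hg
      rintro x (hx | ⟨b, hb, -⟩)
      · exact hx
      · simp at hb
    obtain ⟨w, c, h2, h3, h4, h5⟩ := H.hM k g hg'
    have hE : Mo.toM (Mo.E (e (idx (inl k))) w c) *ᵥ e (idx (inr k)) = e (idx (inr k)) := by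
      rw [← h3, h1, Model.act_one]
    obtain ⟨h6, h7⟩ := H.E_params h2 (h4 _) hE
    exact h5 h6 h7
  | insert b B hb ih =>
    intro g hg h1
    have hB' : ∀ b' ∈ B, ab b' ≠ k := fun b' hb' => hB b' (Finset.mem_insert_of_mem hb')
    have hbk : ab (inl k : Ix (m' + 1)) ≠ ab b := fun e => hB b (Finset.mem_insert_self _ _) e.symm
    have hle : g ∈ closure ((Sb D k B : Set Γ) ∪ D.X (inl k) b) := by
      refine (closure_le _).2 ?_ hg
      rintro x (hx | ⟨b', hb', hx⟩)
      · exact subset_closure (Or.inl (subset_closure (Or.inl hx)))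
      · rcases Finset.mem_insert.1 hb' with rfl | hb'
        · exact subset_closure (Or.inr hx)
        · exact subset_closure (Or.inl (subset_closure (Or.inr ⟨b', hb', hx⟩)))
    have hnorm : ∀ x ∈ D.X (inl k) b, ∀ y ∈ Sb D k B, x * y * x⁻¹ ∈ Sb D k B := by
      intro x hx y hy
      refine conj_closure_mem x ?_ hy
      rintro z (hz | ⟨b', hb', hz⟩)
      · rw [Commute.conj_eq (D.F2 _ _ hbk x hx z hz)]
        exact subset_closure (Or.inl hz)
      · have hne : b' ≠ b := fun e => hb (e ▸ hb')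
        have hb'k : ab (inl k : Ix (m' + 1)) ≠ ab b' := fun e => hB' b' hb' e.symm
        by_cases c : b' = bar b
        · subst c
          have hx' : x ∈ D.X (inl k) (bar (bar b)) := by simpa using hx
          have := D.F8 (inl k) (bar b) hb'k x hx' z hz
          rw [conj_eq_cm_mul]
          exact mul_mem (subset_closure (Or.inl this)) (subset_closure (Or.inr ⟨_, hb', hz⟩))
        · have hn : ab b ≠ ab b' := fun e => by
            rcases ab_eq_iff.1 e with e | e
            · exact hne e.symm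
            · exact c (by rw [e, bar_bar])
          rw [Commute.conj_eq (D.F5 _ _ _ hbk hb'k hn x hx z hz)]
          exact subset_closure (Or.inr ⟨_, hb', hz⟩)
    obtain ⟨y, hy, x, hx, rfl⟩ := mul_decomp _ _ hnorm hle
    obtain ⟨w, c, h2, h3, h4⟩ := H.Sb_form hB' hy
    obtain ⟨c', h5, h6⟩ := H.hX _ _ hbk x hx
    have hcond := H.cond_X hbk c'
    have hp : φ (y * x) = Mo.E (e (idx (inl k))) (w + c' • e (idx b)) (c + 0 - hJ σ (c' • e (idx b)) w) := by
      rw [map_mul, h3, h5, Model.E_mul h2 hcond]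
    have hc0 := H.cond_add h2 hcond
    have hnot : inl k ∉ B := fun h => hB' _ h rfl
    have hnot' : (inl k : Ix (m' + 1)) ≠ b := fun e => hbk (by rw [e])
    have hE : Mo.toM (Mo.E (e (idx (inl k))) (w + c' • e (idx b)) (c + 0 - hJ σ (c' • e (idx b)) w)) *ᵥ e (idx (inr k)) =
        e (idx (inr k)) := by
      rw [← hp, h1, Model.act_one]
    have hw : (w + c' • (e (idx b) : Fin n → F)) (idx (inl k)) = 0 := by
      simp [h4 _ hnot, H.e_idx_ne hnot'.symm]
    obtain ⟨h7, -⟩ := H.E_params hc0 hw hE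
    have h8 := congrFun h7 (idx b)
    simp only [Pi.add_apply, Pi.smul_apply, smul_eq_mul, h4 b hb, H.e_idx_self, Pi.zero_apply, zero_add, mul_one] at h8
    have hx1 : x = 1 := h6 h8
    subst hx1
    rw [mul_one] at h1 ⊢
    exact ih hB' y hy h1

/-- The radicals below fix the opposite vectors. -/
lemma Ub_fix {k₀ : ℕ} {j : Fin (m' + 1)} (hj : k₀ ≤ j) {g : Γ} (hg : g ∈ Ub D k₀) :
    Mo.toM (φ g) *ᵥ e (idx (inr j)) = e (idx (inr j)) := by
  induction hg using Subgroup.closure_induction with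
  | mem x hx =>
    rcases hx with ⟨i, hi, hx⟩ | ⟨i, b, hi, hb, hx⟩
    · obtain ⟨w, c, h1, h2, h3, -⟩ := H.hM i x hx
      rw [h2, Model.act_E h1, H.hJ_vec, if_neg, hJ_e_left, H.idx_rev]
      · simp [h3]
      · intro e
        cases e
        omega
    · have hne : ab (inl i : Ix (m' + 1)) ≠ ab b := fun e => by
        rw [← e] at hb
        simp at hb
      obtain ⟨c, h1, -⟩ := H.hX _ _ hne x hx
      rw [h1, Model.act_E (H.cond_X hne c), H.hJ_vec, if_neg, hJ_smul_right, H.hJ_vec, if_neg]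
      · simp
      · intro e
        have : b = inl j := by rw [← bar_bar b, ← e]; simp
        subst this
        simp at hb
        have : (i : ℕ) < j := by omega
        exact absurd hb (by rw [Fin.lt_def]; omega)
      · intro e
        cases e
        omega
  | one => rw [map_one, Model.act_one]
  | mul a b _ _ ha hb => rw [map_mul, Model.act_mul, hb, ha]
  | inv a _ ha =>
    have := Model.act_inv_act (D := Mo) (φ a) (e (idx (inr j)))
    rw [ha] at this
    rw [map_inv]
    exact this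

lemma Ub_inv {k₀ : ℕ} {x : Γ} (hx : x ∈ ({x | ∃ i : Fin (m' + 1), (i : ℕ) < k₀ ∧ x ∈ D.M (inl i)} ∪
    {x | ∃ (i : Fin (m' + 1)) (b : Ix (m' + 1)), (i : ℕ) < k₀ ∧ ab b < i ∧ x ∈ D.X (inl i) b})) :
    x⁻¹ ∈ ({x | ∃ i : Fin (m' + 1), (i : ℕ) < k₀ ∧ x ∈ D.M (inl i)} ∪
    {x | ∃ (i : Fin (m' + 1)) (b : Ix (m' + 1)), (i : ℕ) < k₀ ∧ ab b < i ∧ x ∈ D.X (inl i) b}) := by
  rcases hx with ⟨i, hi, hx⟩ | ⟨i, b, hi, hb, hx⟩
  · exact Or.inl ⟨i, hi, inv_mem hx⟩
  · exact Or.inr ⟨i, b, hi, hb, inv_mem hx⟩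

end ModelHyp

section Norm

variable {D}

lemma Bk_mem {k : Fin (m' + 1)} {b : Ix (m' + 1)} : b ∈ Bk k ↔ ab b < k := by
  simp [Bk]

lemma Bk_ne {k : Fin (m' + 1)} : ∀ b ∈ Bk k, ab b ≠ k := by
  intro b hb
  have := Bk_mem.1 hb
  exact ne_of_lt this

/-- The lower radicals normalise the radical. -/
lemma Ub_norm (k : Fin (m' + 1)) : ∀ x ∈ Ub D k, ∀ y ∈ Sb D k (Bk k), x * y * x⁻¹ ∈ Sb D k (Bk k) := by
  refine norm_closure ?_ (fun x hx => ?_)
  · intro u hu q hq
    refine conj_closure_mem u ?_ hq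
    have hM : ∀ {z : Γ}, z ∈ D.M (inl k) → z ∈ Sb D k (Bk k) := fun h => subset_closure (Or.inl h)
    have hX : ∀ {z : Γ} {b : Ix (m' + 1)}, ab b < k → z ∈ D.X (inl k) b → z ∈ Sb D k (Bk k) :=
      fun hb h => subset_closure (Or.inr ⟨_, Bk_mem.2 hb, h⟩)
    rintro z (hz | ⟨b, hb, hz⟩)
    · rcases hu with ⟨i, hi, hu⟩ | ⟨i, c, hi, hc, hu⟩
      · have hik : i < k := hi
        have hn : ab (inl i : Ix (m' + 1)) ≠ ab (inl k : Ix (m' + 1)) := ne_of_lt hik
        rw [conj_eq_cm_mul]
        refine mul_mem (hX (b := inl i) hik ?_) (hM hz)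
        exact D.X_symm _ _ _ (D.MM _ _ hn u hu z hz)
      · have hik : i < k := hi
        have h1 : ab (inl i : Ix (m' + 1)) ≠ ab c := (ne_of_lt hc).symm
        have h2 : ab (inl k : Ix (m' + 1)) ≠ ab (inl i : Ix (m' + 1)) := (ne_of_lt hik).symm
        have h3 : ab (inl k : Ix (m' + 1)) ≠ ab c := (ne_of_lt (hc.trans hik)).symm
        rw [Commute.conj_eq (D.F3 _ _ _ h1 h2 h3 u hu z hz)]
        exact hM hz
    · have hbk : ab b < k := Bk_mem.1 hb
      have hkb : ab (inl k : Ix (m' + 1)) ≠ ab b := (ne_of_lt hbk).symm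
      rcases hu with ⟨i, hi, hu⟩ | ⟨i, c, hi, hc, hu⟩
      · have hik : i < k := hi
        have h2 : ab (inl k : Ix (m' + 1)) ≠ ab (inl i : Ix (m' + 1)) := (ne_of_lt hik).symm
        by_cases c1 : b = inl i
        · subst c1
          rw [Commute.conj_eq (Commute.symm (D.F2 _ _ h2.symm _ (D.X_symm _ _ _ hz) _ hu))]
          exact hX hbk hz
        by_cases c2 : b = inr i
        · subst c2
          have hz' : z ∈ D.X (inr i) (inl k) := D.X_symm _ _ _ hz
          obtain ⟨r₁, h₁, r₂, h₂, e⟩ := D.F4 (inr i) (inl k) h2.symm u hu z hz'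
          rw [conj_eq_cm_mul, e]
          exact mul_mem (mul_mem (hM h₁) (hX (b := inl i) hik h₂)) (hX hbk hz)
        · have hn : ab (inl i : Ix (m' + 1)) ≠ ab b := fun e => by
            rcases ab_eq_iff.1 e with e | e
            · exact c1 e.symm
            · apply c2
              rw [← bar_bar b, ← e]
              rfl
          rw [Commute.conj_eq (Commute.symm (D.F3 _ _ _ hkb h2.symm hn _ hz _ hu))]
          exact hX hbk hz
      · have hik : i < k := hi
        have h1 : ab (inl i : Ix (m' + 1)) ≠ ab c := (ne_of_lt hc).symm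
        have h2 : ab (inl k : Ix (m' + 1)) ≠ ab (inl i : Ix (m' + 1)) := (ne_of_lt hik).symm
        have h3 : ab (inl k : Ix (m' + 1)) ≠ ab c := (ne_of_lt (hc.trans hik)).symm
        have hck : ab c < k := hc.trans hik
        by_cases c1 : b = inl i
        · subst c1
          rw [Commute.conj_eq (D.F5 _ _ _ h1 h2.symm h3.symm _ hu _ (D.X_symm _ _ _ hz))]
          exact hX hbk hz
        by_cases c2 : b = inr i
        · subst c2
          have hz' : z ∈ D.X (bar (inl i)) (inl k) := D.X_symm _ _ _ hz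
          have := D.F7 (inl i) c (inl k) h1 h2.symm h3.symm u hu z hz'
          rw [conj_eq_cm_mul]
          exact mul_mem (hX hck (D.X_symm _ _ _ this)) (hX hbk hz)
        by_cases c3 : b = c
        · subst c3
          rw [Commute.conj_eq (D.F5 _ _ _ h1.symm hkb.symm h2.symm _ (D.X_symm _ _ _ hu) _ (D.X_symm _ _ _ hz))]
          exact hX hbk hz
        by_cases c4 : b = bar c
        · subst c4
          have hu' : u ∈ D.X c (inl i) := D.X_symm _ _ _ hu
          have hz' : z ∈ D.X (bar c) (inl k) := D.X_symm _ _ _ hz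
          have := D.F7 c (inl i) (inl k) h1.symm h3.symm h2.symm u hu' z hz'
          rw [conj_eq_cm_mul]
          exact mul_mem (hX (b := inl i) hik (D.X_symm _ _ _ this)) (hX hbk hz)
        · have n1 : ab (inl i : Ix (m' + 1)) ≠ ab b := fun e => by
            rcases ab_eq_iff.1 e with e | e
            · exact c1 e.symm
            · apply c2
              rw [← bar_bar b, ← e]
              rfl
          have n2 : ab c ≠ ab b := fun e => by
            rcases ab_eq_iff.1 e with e | e
            · exact c3 e.symm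
            · apply c4
              rw [e, bar_bar]
          rw [Commute.conj_eq (D.F6 _ _ _ _ h1 hkb h2.symm n1 h3.symm n2 _ hu _ hz)]
          exact hX hbk hz
  · rcases hx with ⟨i, hi, hx⟩ | ⟨i, b, hi, hb, hx⟩
    · exact Or.inl ⟨i, hi, inv_mem hx⟩
    · exact Or.inr ⟨i, b, hi, hb, inv_mem hx⟩

lemma Ub_succ (k : Fin (m' + 1)) : Ub D ((k : ℕ) + 1) ≤ closure ((Sb D k (Bk k) : Set Γ) ∪ Ub D k) := by
  refine (closure_le _).2 ?_
  rintro x (⟨i, hi, hx⟩ | ⟨i, b, hi, hb, hx⟩)
  · by_cases e : i = k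
    · subst e
      exact subset_closure (Or.inl (subset_closure (Or.inl hx)))
    · have : (i : ℕ) < k := by
        have : (i : ℕ) ≠ k := fun e' => e (Fin.ext e')
        omega
      exact subset_closure (Or.inr (subset_closure (Or.inl ⟨i, this, hx⟩)))
  · by_cases e : i = k
    · subst e
      exact subset_closure (Or.inl (subset_closure (Or.inr ⟨b, Bk_mem.2 hb, hx⟩)))
    · have : (i : ℕ) < k := by
        have : (i : ℕ) ≠ k := fun e' => e (Fin.ext e')
        omega
      exact subset_closure (Or.inr (subset_closure (Or.inr ⟨i, b, this, hb, hx⟩)))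

lemma U_le_Ub : Uh D.M D.X 1 ≤ Ub D (m' + 1) := by
  refine (closure_le _).2 ?_
  rintro x (⟨a, ha, hx⟩ | ⟨a, b, hab, h, hx⟩)
  · obtain ⟨k, rfl⟩ := ht_pos_iff.1 (show 0 < ht a by omega)
    exact subset_closure (Or.inl ⟨k, k.2, hx⟩)
  · cases a with
    | inl p =>
      cases b with
      | inl r =>
        by_cases c : r < p
        · exact subset_closure (Or.inr ⟨p, inl r, p.2, c, hx⟩)
        · have c' : p < r := lt_of_le_of_ne (not_lt.1 c) hab
          exact subset_closure (Or.inr ⟨r, inl p, r.2, c', D.X_symm _ _ _ hx⟩)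
      | inr r =>
        have c : r < p := by
          simp only [ht_inl, ht_inr] at h
          rw [Fin.lt_def]
          omega
        exact subset_closure (Or.inr ⟨p, inr r, p.2, c, hx⟩)
    | inr p =>
      cases b with
      | inl r =>
        have c : p < r := by
          simp only [ht_inl, ht_inr] at h
          rw [Fin.lt_def]
          omega
        exact subset_closure (Or.inr ⟨r, inr p, r.2, c, D.X_symm _ _ _ hx⟩)
      | inr r =>
        exfalso
        simp only [ht_inr] at h
        omega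

end Norm

namespace ModelHyp

variable {D Mo φ idx} (H : ModelHyp D Mo φ idx)
include H

lemma Ub_inj (k₀ : ℕ) (hk : k₀ ≤ m' + 1) : ∀ g ∈ Ub D k₀, φ g = 1 → g = 1 := by
  induction k₀ with
  | zero =>
    intro g hg _
    have : Ub D 0 ≤ ⊥ := by
      refine (closure_le _).2 ?_
      rintro x (⟨i, hi, -⟩ | ⟨i, b, hi, -⟩) <;> omega
    simpa using this hg
  | succ k₀ ih =>
    intro g hg h1
    have hk' : k₀ < m' + 1 := hk
    let k : Fin (m' + 1) := ⟨k₀, hk'⟩
    have hg' : g ∈ closure ((Sb D k (Bk k) : Set Γ) ∪ Ub D k) := Ub_succ k hg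
    obtain ⟨y, hy, x, hx, rfl⟩ := mul_decomp _ _ (Ub_norm k) hg'
    obtain ⟨w, c, h2, h3, h4⟩ := H.Sb_form Bk_ne hy
    have hfix := H.Ub_fix (j := k) (le_refl _) hx
    have hE : Mo.toM (Mo.E (e (idx (inl k))) w c) *ᵥ e (idx (inr k)) = e (idx (inr k)) := by
      have : Mo.toM (φ (y * x)) *ᵥ e (idx (inr k)) = e (idx (inr k)) := by
        rw [h1, Model.act_one]
      rw [map_mul, Model.act_mul, hfix, h3] at this
      exact this
    have hw0 : w (idx (inl k)) = 0 := h4 _ (by simp [Bk_mem])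
    obtain ⟨h5, h6⟩ := H.E_params h2 hw0 hE
    subst h5 h6
    have hv : hJ σ (e (idx (inl k)) : Fin n → F) (e (idx (inl k))) = 0 := h2.1
    have hy1 : φ y = 1 := by rw [h3, Model.E_zero_eq_one hv]
    have hy2 := H.Sb_inj _ Bk_ne y hy hy1
    subst hy2
    rw [one_mul] at h1 ⊢
    exact ih (by omega) x hx h1

/-- The main injectivity theorem. -/
theorem injective : Function.Injective φ := by
  refine D.inj_of φ ?_
  intro g hg u hu e
  have h1 : Tri idx (Mo.toM (φ g)) := by
    rw [e]
    exact H.U_tri hu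
  have hg1 : g = 1 := H.hN g hg h1.1
  subst hg1
  refine ⟨rfl, H.Ub_inj _ le_rfl u (U_le_Ub hu) ?_⟩
  rw [← e, map_one]

end ModelHyp

end Cfsg.Agent.Lib.PrsSU
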