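import Mathlib
import Cfsg.Prelude.Def_Classical

/-!
# Presentations of `SU_3(q)`: the model group
-/

set_option autoImplicit false
set_option linter.unusedSectionVars false
set_option linter.unusedVariables false

namespace Cfsg.Agent.Lib.PrsU3

open Matrix

section Model

variable {F : Type*} [Field F] (σ : F →+* F)

/-- The Hermitian form with antidiagonal Gram matrix. -/
def fJ (u v : Fin 3 → F) : F := u 0 * σ (v 2) + u 1 * σ (v 1) + u 2 * σ (v 0)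

/-- The unitary group of the form. -/
def GJ : Subgroup (SpecialLinearGroup (Fin 3) F) := Cfsg.preserving (Cfsg.slToMat 3 F) (fJ σ)

variable {σ}

lemma GJ_ext {g h : GJ σ} (H : ∀ i j, g.1.1 i j = h.1.1 i j) : g = h := by
  apply Subtype.ext
  apply Subtype.ext
  ext i j
  exact H i j

lemma mem_GJ_iff (g : SpecialLinearGroup (Fin 3) F) :
    g ∈ GJ σ ↔ ∀ u v, fJ σ (g.1 *ᵥ u) (g.1 *ᵥ v) = fJ σ u v := Iff.rfl

lemma GJ_mul_apply (g h : GJ σ) (i j : Fin 3) :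
    (g * h).1.1 i j = g.1.1 i 0 * h.1.1 0 j + g.1.1 i 1 * h.1.1 1 j + g.1.1 i 2 * h.1.1 2 j := by
  change (g.1.1 * h.1.1) i j = _
  rw [Matrix.mul_apply, Fin.sum_univ_three]

lemma GJ_one_apply (i j : Fin 3) : (1 : GJ σ).1.1 i j = if i = j then 1 else 0 := by
  change (1 : Matrix (Fin 3) (Fin 3) F) i j = _
  rw [Matrix.one_apply]

variable (σ)

/-- Upper unitriangular matrices. -/
def Mm (a b : F) : Matrix (Fin 3) (Fin 3) F := !![1, -σ a, b; 0, 1, a; 0, 0, 1]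

/-- Diagonal matrices. -/
def Dm (d : F) : Matrix (Fin 3) (Fin 3) F := !![d, 0, 0; 0, σ d * d⁻¹, 0; 0, 0, (σ d)⁻¹]

/-- The Weyl element. -/
def Wm (δ : F) : Matrix (Fin 3) (Fin 3) F := !![0, 0, δ; 0, 1, 0; -δ⁻¹, 0, 0]

variable {σ}

lemma mulVec3 (A : Matrix (Fin 3) (Fin 3) F) (u : Fin 3 → F) (i : Fin 3) :
    (A *ᵥ u) i = A i 0 * u 0 + A i 1 * u 1 + A i 2 * u 2 := by
  simp [Matrix.mulVec, dotProduct, Fin.sum_univ_three]

lemma det_Mm (a b : F) : (Mm σ a b).det = 1 := by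
  simp [Mm, Matrix.det_fin_three]

lemma mem_Mm (hσ : ∀ x, σ (σ x) = x) {a b : F} (h : a * σ a + b + σ b = 0) (u v : Fin 3 → F) :
    fJ σ (Mm σ a b *ᵥ u) (Mm σ a b *ᵥ v) = fJ σ u v := by
  simp [fJ, mulVec3, Mm, map_add, map_mul, map_neg, hσ]
  linear_combination (u 2 * σ (v 2)) * h

/-- The element of the root group. -/
def MG (hσ : ∀ x, σ (σ x) = x) (a b : F) (h : a * σ a + b + σ b = 0) : GJ σ :=
  ⟨⟨Mm σ a b, det_Mm a b⟩, fun u v => mem_Mm hσ h u v⟩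

lemma MG_apply (hσ : ∀ x, σ (σ x) = x) (a b : F) (h : a * σ a + b + σ b = 0) :
    (MG hσ a b h).1.1 = Mm σ a b := rfl

lemma det_Dm (hσ : ∀ x, σ (σ x) = x) {d : F} (hd : d ≠ 0) : (Dm σ d).det = 1 := by
  have h2 : σ d ≠ 0 := fun e => hd (by rw [← hσ d, e, map_zero])
  simp [Dm, Matrix.det_fin_three]
  field_simp

lemma mem_Dm (hσ : ∀ x, σ (σ x) = x) {d : F} (hd : d ≠ 0) (u v : Fin 3 → F) :
    fJ σ (Dm σ d *ᵥ u) (Dm σ d *ᵥ v) = fJ σ u v := by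
  have h2 : σ d ≠ 0 := fun e => hd (by rw [← hσ d, e, map_zero])
  simp [fJ, mulVec3, Dm, map_add, map_mul, map_inv₀, hσ]
  field_simp

/-- The torus. -/
def DU (hσ : ∀ x, σ (σ x) = x) : Fˣ →* GJ σ where
  toFun d := ⟨⟨Dm σ d, det_Dm hσ d.ne_zero⟩, fun u v => mem_Dm hσ d.ne_zero u v⟩
  map_one' := by
    apply GJ_ext
    intro i j
    fin_cases i <;> fin_cases j <;> simp [Dm, GJ_one_apply]
  map_mul' d e := by
    apply GJ_ext
    intro i j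
    rw [GJ_mul_apply]
    have h1 : ((d : F)) ≠ 0 := d.ne_zero
    have h2 : ((e : F)) ≠ 0 := e.ne_zero
    have h3 : σ (d : F) ≠ 0 := fun e' => h1 (by rw [← hσ d, e', map_zero])
    have h4 : σ (e : F) ≠ 0 := fun e' => h2 (by rw [← hσ e, e', map_zero])
    change Dm σ ((d * e : Fˣ) : F) i j = Dm σ d i 0 * Dm σ e 0 j + Dm σ d i 1 * Dm σ e 1 j + Dm σ d i 2 * Dm σ e 2 j
    fin_cases i <;> fin_cases j <;> simp [Dm, map_mul] <;> field_simp

lemma DU_apply (hσ : ∀ x, σ (σ x) = x) (d : Fˣ) : (DU hσ d).1.1 = Dm σ d := rfl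

lemma det_Wm {δ : F} (hδ : δ ≠ 0) : (Wm δ : Matrix (Fin 3) (Fin 3) F).det = 1 := by
  simp [Wm, Matrix.det_fin_three, hδ]

lemma mem_Wm (hσ : ∀ x, σ (σ x) = x) {δ : F} (hδ : δ ≠ 0) (hδ' : σ δ = -δ) (u v : Fin 3 → F) :
    fJ σ (Wm δ *ᵥ u) (Wm δ *ᵥ v) = fJ σ u v := by
  simp [fJ, mulVec3, Wm, map_add, map_mul, map_inv₀, hσ, hδ']
  field_simp
  ring

/-- The Weyl element. -/
def WG (hσ : ∀ x, σ (σ x) = x) {δ : F} (hδ : δ ≠ 0) (hδ' : σ δ = -δ) : GJ σ :=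
  ⟨⟨Wm δ, det_Wm hδ⟩, fun u v => mem_Wm hσ hδ hδ' u v⟩

lemma WG_apply (hσ : ∀ x, σ (σ x) = x) {δ : F} (hδ : δ ≠ 0) (hδ' : σ δ = -δ) :
    (WG hσ hδ hδ').1.1 = Wm δ := rfl

section Rels

variable (hσ : ∀ x, σ (σ x) = x)
include hσ

lemma sig_ne {x : F} (hx : x ≠ 0) : σ x ≠ 0 := fun e => hx (by rw [← hσ x, e, map_zero])

lemma MG_congr {a a' b b' : F} (h : a * σ a + b + σ b = 0) (h' : a' * σ a' + b' + σ b' = 0) (ha : a = a') (hb : b = b') :
    MG hσ a b h = MG hσ a' b' h' := by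
  subst ha hb
  rfl

lemma isU_mul {a b c d : F} (h : a * σ a + b + σ b = 0) (h' : c * σ c + d + σ d = 0) :
    (a + c) * σ (a + c) + (b + d - σ a * c) + σ (b + d - σ a * c) = 0 := by
  simp only [map_add, map_sub, map_mul, hσ]
  linear_combination h + h'

lemma MG_mul {a b c d : F} (h : a * σ a + b + σ b = 0) (h' : c * σ c + d + σ d = 0) :
    MG hσ a b h * MG hσ c d h' = MG hσ (a + c) (b + d - σ a * c) (isU_mul hσ h h') := by
  apply GJ_ext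
  intro i j
  rw [GJ_mul_apply]
  change Mm σ a b i 0 * Mm σ c d 0 j + Mm σ a b i 1 * Mm σ c d 1 j + Mm σ a b i 2 * Mm σ c d 2 j = Mm σ (a + c) (b + d - σ a * c) i j
  fin_cases i <;> fin_cases j <;> simp [Mm, map_add] <;> ring

omit hσ in
lemma isU_zero : (0 : F) * σ 0 + 0 + σ 0 = 0 := by simp

lemma MG_zero : MG hσ 0 0 (isU_zero (σ := σ)) = 1 := by
  apply GJ_ext
  intro i j
  rw [GJ_one_apply]
  change Mm σ 0 0 i j = _
  fin_cases i <;> fin_cases j <;> simp [Mm]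

lemma isU_inv {a b : F} (h : a * σ a + b + σ b = 0) : (-a) * σ (-a) + σ b + σ (σ b) = 0 := by
  simp only [map_neg, hσ]
  linear_combination h

lemma MG_inv {a b : F} (h : a * σ a + b + σ b = 0) : (MG hσ a b h)⁻¹ = MG hσ (-a) (σ b) (isU_inv hσ h) := by
  rw [inv_eq_iff_mul_eq_one, MG_mul]
  rw [← MG_zero hσ]
  apply MG_congr
  · ring
  · linear_combination h

lemma isU_conj {d : F} (hd : d ≠ 0) {a b : F} (h : a * σ a + b + σ b = 0) :
    (σ d * σ d * d⁻¹ * a) * σ (σ d * σ d * d⁻¹ * a) + (d * σ d * b) + σ (d * σ d * b) = 0 := by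
  simp only [map_mul, map_inv₀, hσ]
  have h2 := sig_ne hσ hd
  field_simp
  linear_combination (d * σ d) * h

lemma DU_MG (d : Fˣ) {a b : F} (h : a * σ a + b + σ b = 0) :
    DU hσ d * MG hσ a b h * (DU hσ d)⁻¹ = MG hσ (σ d * σ d * (d : F)⁻¹ * a) (d * σ d * b) (isU_conj hσ d.ne_zero h) := by
  rw [mul_inv_eq_iff_eq_mul]
  apply GJ_ext
  intro i j
  rw [GJ_mul_apply, GJ_mul_apply]
  have h1 : ((d : F)) ≠ 0 := d.ne_zero
  have h3 := sig_ne hσ h1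
  change Dm σ d i 0 * Mm σ a b 0 j + Dm σ d i 1 * Mm σ a b 1 j + Dm σ d i 2 * Mm σ a b 2 j =
    Mm σ _ _ i 0 * Dm σ d 0 j + Mm σ _ _ i 1 * Dm σ d 1 j + Mm σ _ _ i 2 * Dm σ d 2 j
  fin_cases i <;> fin_cases j <;> simp [Dm, Mm, map_mul, map_inv₀, hσ] <;> field_simp

lemma WG_DU {δ : F} (hδ : δ ≠ 0) (hδ' : σ δ = -δ) (d : Fˣ) :
    WG hσ hδ hδ' * DU hσ d * (WG hσ hδ hδ')⁻¹ = DU hσ (Units.mk0 (σ d) (sig_ne hσ d.ne_zero))⁻¹ := by
  rw [mul_inv_eq_iff_eq_mul]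
  apply GJ_ext
  intro i j
  rw [GJ_mul_apply, GJ_mul_apply]
  have h1 : ((d : F)) ≠ 0 := d.ne_zero
  have h3 := sig_ne hσ h1
  change Wm δ i 0 * Dm σ d 0 j + Wm δ i 1 * Dm σ d 1 j + Wm δ i 2 * Dm σ d 2 j =
    Dm σ _ i 0 * Wm δ 0 j + Dm σ _ i 1 * Wm δ 1 j + Dm σ _ i 2 * Wm δ 2 j
  fin_cases i <;> fin_cases j <;> simp [Dm, Wm, map_mul, map_inv₀, hσ] <;> field_simp

lemma WG_sq {δ : F} (hδ : δ ≠ 0) (hδ' : σ δ = -δ) : WG hσ hδ hδ' * WG hσ hδ hδ' = DU hσ (-1) := by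
  apply GJ_ext
  intro i j
  rw [GJ_mul_apply]
  change Wm δ i 0 * Wm δ 0 j + Wm δ i 1 * Wm δ 1 j + Wm δ i 2 * Wm δ 2 j = Dm σ ((-1 : Fˣ) : F) i j
  fin_cases i <;> fin_cases j <;> simp [Dm, Wm, hδ]

omit hσ in
lemma GJ_rel (g : GJ σ) (j k : Fin 3) :
    g.1.1 0 j * σ (g.1.1 2 k) + g.1.1 1 j * σ (g.1.1 1 k) + g.1.1 2 j * σ (g.1.1 0 k) =
      if j.val + k.val = 2 then 1 else 0 := by
  have h := g.2 (Pi.single j 1) (Pi.single k 1)
  have e : ∀ l : Fin 3, (g.1 : Matrix (Fin 3) (Fin 3) F) *ᵥ (Pi.single l 1) = fun i => g.1.1 i l := by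
    intro l
    funext i
    simp
  change fJ σ (g.1.1 *ᵥ _) (g.1.1 *ᵥ _) = fJ σ _ _ at h
  rw [e, e] at h
  simp only [fJ] at h
  rw [h]
  fin_cases j <;> fin_cases k <;> simp

omit hσ in
lemma GJ_det (g : GJ σ) : (g.1.1 : Matrix (Fin 3) (Fin 3) F).det = 1 := g.1.2

/-- The Borel subgroup, the stabiliser of the first coordinate line. -/
def BJ (σ : F →+* F) : Subgroup (GJ σ) where
  carrier := {g | g.1.1 1 0 = 0 ∧ g.1.1 2 0 = 0}
  mul_mem' {a b} ha hb := by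
    constructor
    · rw [GJ_mul_apply, ha.1, hb.1, hb.2]
      simp
    · rw [GJ_mul_apply, ha.2, hb.1, hb.2]
      simp
  one_mem' := by
    constructor <;> rw [GJ_one_apply] <;> simp
  inv_mem' {a} ha := by
    have e1 : ∀ i : Fin 3, (a⁻¹ * a).1.1 i 0 = a⁻¹.1.1 i 0 * a.1.1 0 0 := by
      intro i
      rw [GJ_mul_apply, ha.1, ha.2]
      ring
    have e2 : (a⁻¹ * a).1.1 = 1 := by
      rw [inv_mul_cancel]
      rfl
    have h0 : a.1.1 0 0 ≠ 0 := by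
      intro h
      have := e1 0
      rw [e2, h, mul_zero] at this
      simp at this
    constructor
    · have := e1 1
      rw [e2] at this
      simpa [h0] using this.symm
    · have := e1 2
      rw [e2] at this
      simpa [h0] using this.symm

omit hσ in
lemma mem_BJ {g : GJ σ} : g ∈ BJ σ ↔ g.1.1 1 0 = 0 ∧ g.1.1 2 0 = 0 := Iff.rfl

lemma MG_mem (a b : F) (h : a * σ a + b + σ b = 0) : MG hσ a b h ∈ BJ σ := by
  constructor <;> simp [MG_apply, Mm]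

lemma DU_mem (d : Fˣ) : DU hσ d ∈ BJ σ := by
  constructor <;> simp [DU_apply, Dm]

lemma BJ_decomp {g : GJ σ} (hg : g ∈ BJ σ) :
    ∃ (a b : F) (h : a * σ a + b + σ b = 0) (d : Fˣ), g = MG hσ a b h * DU hσ d := by
  obtain ⟨h10, h20⟩ := hg
  have hdet := GJ_det g
  rw [Matrix.det_fin_three, h10, h20] at hdet
  simp only [zero_mul, mul_zero, sub_zero, add_zero, zero_add] at hdet
  have hl : g.1.1 0 0 ≠ 0 := by
    intro e
    rw [e] at hdet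
    simp at hdet
  have r01 := GJ_rel g 0 1
  have r02 := GJ_rel g 0 2
  have r12 := GJ_rel g 1 2
  have r22 := GJ_rel g 2 2
  simp only [h10, h20] at r01 r02 r12 r22
  simp at r01 r02 r12 r22
  have h21 : g.1.1 2 1 = 0 := by
    rcases r01 with h | h
    · exact absurd h hl
    · exact h
  obtain ⟨l, hl'⟩ : ∃ l, g.1.1 0 0 = l := ⟨_, rfl⟩
  rw [hl'] at hl r02 hdet
  have hsl := sig_ne hσ hl
  have h22 : g.1.1 2 2 = (σ l)⁻¹ := by
    have := congrArg σ r02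
    simp only [map_mul, hσ, map_one] at this
    field_simp
    linear_combination this
  have hs22 : σ (g.1.1 2 2) = l⁻¹ := by
    rw [h22, map_inv₀, hσ]
  have h11 : g.1.1 1 1 = σ l * l⁻¹ := by
    rw [h21, h22] at hdet
    field_simp at hdet ⊢
    linear_combination hdet
  have h01 : g.1.1 0 1 = - σ (g.1.1 1 2) * σ l := by
    rw [h21, hs22, h11] at r12
    field_simp at r12
    linear_combination r12
  let a := g.1.1 1 2 * σ l
  let b := g.1.1 0 2 * σ l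
  have hU : a * σ a + b + σ b = 0 := by
    simp only [a, b, map_mul, hσ]
    rw [hs22, h22] at r22
    field_simp at r22
    linear_combination r22
  refine ⟨a, b, hU, Units.mk0 l hl, ?_⟩
  apply GJ_ext
  intro i j
  rw [GJ_mul_apply]
  change _ = Mm σ a b i 0 * Dm σ l 0 j + Mm σ a b i 1 * Dm σ l 1 j + Mm σ a b i 2 * Dm σ l 2 j
  fin_cases i <;> fin_cases j <;> simp [Mm, Dm, a, b, map_mul, hσ, h10, h20, h21, h22, h11, h01, hsl, hl, hl'] <;> field_simp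

section Bruhat

variable {δ : F} (hδ : δ ≠ 0) (hδ' : σ δ = -δ)

include hδ'

lemma isU_fa {a b : F} (h : a * σ a + b + σ b = 0) (hb : b ≠ 0) :
    (-(a * δ / b)) * σ (-(a * δ / b)) + (-(δ ^ 2 / b)) + σ (-(δ ^ 2 / b)) = 0 := by
  have h2 := sig_ne hσ hb
  simp only [map_neg, map_div₀, map_mul, map_pow, hδ']
  field_simp
  linear_combination (-δ ^ 2) * h

lemma isU_ga {a b : F} (h : a * σ a + b + σ b = 0) (hb : b ≠ 0) :
    (a * δ / σ b) * σ (a * δ / σ b) + (-(δ ^ 2 / b)) + σ (-(δ ^ 2 / b)) = 0 := by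
  have h2 := sig_ne hσ hb
  simp only [map_neg, map_div₀, map_mul, map_pow, hδ', hσ]
  field_simp
  linear_combination (-δ ^ 2) * h

include hδ

lemma d_ne {b : F} (hb : b ≠ 0) : δ / σ b ≠ 0 := div_ne_zero hδ (sig_ne hσ hb)

/-- The big-cell formula. -/
lemma WG_MG {a b : F} (h : a * σ a + b + σ b = 0) (hb : b ≠ 0) :
    WG hσ hδ hδ' * MG hσ a b h * WG hσ hδ hδ' =
      MG hσ (-(a * δ / b)) (-(δ ^ 2 / b)) (isU_fa hσ hδ' h hb) * DU hσ (Units.mk0 (δ / σ b) (d_ne hσ hδ hδ' hb)) *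
        WG hσ hδ hδ' * MG hσ (a * δ / σ b) (-(δ ^ 2 / b)) (isU_ga hσ hδ' h hb) := by
  have h2 := sig_ne hσ hb
  apply GJ_ext
  intro i j
  change (Wm δ * Mm σ a b * Wm δ) i j = (Mm σ (-(a * δ / b)) (-(δ ^ 2 / b)) * Dm σ (δ / σ b) * Wm δ * Mm σ (a * δ / σ b) (-(δ ^ 2 / b))) i j
  fin_cases i <;> fin_cases j <;> simp [Matrix.mul_apply, Fin.sum_univ_three, Wm, Mm, Dm, hδ', hσ, map_mul, map_div₀, map_neg, map_inv₀] <;> field_simp
  · ring
  · linear_combination (-δ ^ 2) * h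
  · linear_combination h
  · ring

lemma WG_not_mem : WG hσ hδ hδ' ∉ BJ σ := by
  intro h
  have := h.2
  simp [WG_apply, Wm, hδ] at this

/-- The inverse of the Weyl element. -/
lemma WG_inv : (WG hσ hδ hδ')⁻¹ = DU hσ (-1) * WG hσ hδ hδ' := by
  have h1 : DU hσ (-1 : Fˣ) * DU hσ (-1 : Fˣ) = 1 := by
    rw [← map_mul]
    simp
  symm
  apply eq_inv_of_mul_eq_one_left
  rw [mul_assoc, WG_sq hσ hδ hδ', h1]

/-- Conjugation of the torus by the inverse of the Weyl element. -/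
lemma WG_inv_DU (d : Fˣ) : ∃ e : Fˣ, (WG hσ hδ hδ')⁻¹ * DU hσ d * WG hσ hδ hδ' = DU hσ e := by
  refine ⟨(Units.mk0 (σ d) (sig_ne hσ d.ne_zero))⁻¹, ?_⟩
  have h := WG_DU hσ hδ hδ' (Units.mk0 (σ d) (sig_ne hσ d.ne_zero))⁻¹
  have e : (Units.mk0 (σ ((Units.mk0 (σ d) (sig_ne hσ d.ne_zero))⁻¹ : Fˣ)) (sig_ne hσ (Units.ne_zero _)))⁻¹ = d := by
    ext
    simp [hσ]
  rw [e] at h
  rw [← h]
  group

lemma big_unique {β₁ β₂ β₁' β₂' : GJ σ} (h1 : β₁ ∈ BJ σ) (h2 : β₂ ∈ BJ σ) (h1' : β₁' ∈ BJ σ) (h2' : β₂' ∈ BJ σ)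
    (e : β₁ * WG hσ hδ hδ' * β₂ = β₁' * WG hσ hδ hδ' * β₂') :
    (∃ d : Fˣ, β₁ = β₁' * DU hσ d) ∧ (∃ d : Fˣ, β₂ = DU hσ d * β₂') := by
  set W := WG hσ hδ hδ' with hW
  have hτ : β₁'⁻¹ * β₁ ∈ BJ σ := mul_mem (inv_mem h1') h1
  have hκ : β₂' * β₂⁻¹ ∈ BJ σ := mul_mem h2' (inv_mem h2)
  set τ := β₁'⁻¹ * β₁ with hτdef
  set κ := β₂' * β₂⁻¹ with hκdef
  have e1 : τ * W = W * κ := by
    rw [hτdef, hκdef]
    calc β₁'⁻¹ * β₁ * W = β₁'⁻¹ * (β₁ * W * β₂) * β₂⁻¹ := by group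
      _ = β₁'⁻¹ * (β₁' * W * β₂') * β₂⁻¹ := by rw [e]
      _ = _ := by group
  have e2 : ∀ i : Fin 3, τ.1.1 i 2 * (-δ⁻¹) = (Wm δ : Matrix (Fin 3) (Fin 3) F) i 0 * κ.1.1 0 0 := by
    intro i
    have := congrArg (fun g : GJ σ => g.1.1 i 0) e1
    simp only [GJ_mul_apply] at this
    rw [hκ.1, hκ.2] at this
    have hWa : W.1.1 = Wm δ := rfl
    rw [hWa] at this
    have w00 : (Wm δ : Matrix (Fin 3) (Fin 3) F) 0 0 = 0 := by simp [Wm]
    have w10 : (Wm δ : Matrix (Fin 3) (Fin 3) F) 1 0 = 0 := by simp [Wm]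
    have w20 : (Wm δ : Matrix (Fin 3) (Fin 3) F) 2 0 = -δ⁻¹ := by simp [Wm]
    rw [w00, w10, w20] at this
    simpa using this
  have t02 : τ.1.1 0 2 = 0 := by
    have := e2 0
    have w00 : (Wm δ : Matrix (Fin 3) (Fin 3) F) 0 0 = 0 := by simp [Wm]
    rw [w00] at this
    simpa [hδ] using this
  have t12 : τ.1.1 1 2 = 0 := by
    have := e2 1
    have w10 : (Wm δ : Matrix (Fin 3) (Fin 3) F) 1 0 = 0 := by simp [Wm]
    rw [w10] at this
    simpa [hδ] using this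
  obtain ⟨a, b, hab, d, ed⟩ := BJ_decomp hσ hτ
  have hd : (d : F) ≠ 0 := d.ne_zero
  have hsd := sig_ne hσ hd
  have ent : ∀ i j, τ.1.1 i j = Mm σ a b i 0 * Dm σ d 0 j + Mm σ a b i 1 * Dm σ d 1 j + Mm σ a b i 2 * Dm σ d 2 j := by
    intro i j
    rw [ed, GJ_mul_apply]
    rfl
  have ha : a = 0 := by
    have := ent 1 2
    rw [t12] at this
    simpa [Mm, Dm, hsd] using this.symm
  have hb : b = 0 := by
    have := ent 0 2
    rw [t02] at this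
    simpa [Mm, Dm, hsd] using this.symm
  subst ha hb
  have hτ' : τ = DU hσ d := by
    rw [ed, MG_zero, one_mul]
  constructor
  · refine ⟨d, ?_⟩
    rw [← hτ', hτdef]
    group
  · obtain ⟨e', he'⟩ := WG_inv_DU hσ hδ hδ' d
    refine ⟨e'⁻¹, ?_⟩
    have hκ' : κ = DU hσ e' := by
      rw [← he', ← hτ', ← hW, mul_assoc, e1]
      group
    rw [map_inv, ← hκ', hκdef]
    group

/-- The Bruhat decomposition. -/
lemma bruhat (g : GJ σ) : g ∈ BJ σ ∨ ∃ β₁ ∈ BJ σ, ∃ β₂ ∈ BJ σ, g = β₁ * WG hσ hδ hδ' * β₂ := by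
  have r00 := GJ_rel g 0 0
  simp at r00
  by_cases hz : g.1.1 2 0 = 0
  · left
    rw [hz] at r00
    simp at r00
    exact ⟨r00, hz⟩
  · right
    set z := g.1.1 2 0 with hzdef
    have hsz := sig_ne hσ hz
    let a := g.1.1 1 0 / z
    let b := g.1.1 0 0 / z
    have hab : a * σ a + b + σ b = 0 := by
      simp only [a, b, map_div₀]
      field_simp
      linear_combination r00
    set M := MG hσ a b hab with hM
    have hβ : WG hσ hδ hδ' * M⁻¹ * g ∈ BJ σ := by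
      have e : ∀ i, (M⁻¹ * g).1.1 i 0 = Mm σ (-a) (σ b) i 0 * g.1.1 0 0 + Mm σ (-a) (σ b) i 1 * g.1.1 1 0 + Mm σ (-a) (σ b) i 2 * g.1.1 2 0 := by
        intro i
        rw [hM, MG_inv, GJ_mul_apply]
        rfl
      have h4 : g.1.1 1 0 = a * z := by
        simp only [a]
        field_simp
      have h5 : g.1.1 0 0 = b * z := by
        simp only [b]
        field_simp
      have e1' : (M⁻¹ * g).1.1 1 0 = 0 := by
        rw [e 1, h4, ← hzdef]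
        simp [Mm]
      have e0' : (M⁻¹ * g).1.1 0 0 = 0 := by
        rw [e 0, h4, h5, ← hzdef]
        simp [Mm, hσ]
        linear_combination z * hab
      rw [mul_assoc]
      obtain ⟨k, hk⟩ : ∃ k, M⁻¹ * g = k := ⟨_, rfl⟩
      rw [hk] at e1' e0' ⊢
      constructor
      · rw [GJ_mul_apply, WG_apply]
        simp [Wm, e1']
      · rw [GJ_mul_apply, WG_apply]
        simp [Wm, e0']
    refine ⟨M * DU hσ (-1), mul_mem (MG_mem hσ _ _ _) (DU_mem hσ _), _, hβ, ?_⟩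
    have e3 := WG_inv hσ hδ hδ'
    calc g = M * (WG hσ hδ hδ')⁻¹ * (WG hσ hδ hδ' * M⁻¹ * g) := by group
      _ = _ := by
        rw [e3]
        group

end Bruhat

end Rels

end Model

end Cfsg.Agent.Lib.PrsU3
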