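import Mathlib
import Cfsg.Agent.Lib.PrsU3A

/-!
# Presentations of `SU_3(q)`: the Moufang closure
-/

set_option autoImplicit false
set_option linter.unusedSectionVars false
set_option linter.unusedVariables false

namespace Cfsg.Agent.Lib.PrsU3

section Moufang

variable {F : Type*} [Field F] {σ : F →+* F} (hσ : ∀ x, σ (σ x) = x)

/-- Root elements in the Borel subgroup. -/
def MB (a b : F) (h : a * σ a + b + σ b = 0) : BJ σ := ⟨MG hσ a b h, MG_mem hσ a b h⟩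

/-- Torus elements in the Borel subgroup. -/
def DB : Fˣ →* BJ σ := (DU hσ).codRestrict (BJ σ) (DU_mem hσ)

/-- The Frobenius on units. -/
def sU (d : Fˣ) : Fˣ := Units.mk0 (σ d) (sig_ne hσ d.ne_zero)

lemma sU_coe (d : Fˣ) : ((sU hσ d : Fˣ) : F) = σ d := rfl

lemma sU_sU (d : Fˣ) : sU hσ (sU hσ d) = d := by
  ext
  simp [sU, hσ]

lemma sU_inv (d : Fˣ) : sU hσ d⁻¹ = (sU hσ d)⁻¹ := by
  ext
  simp [sU]

lemma DB_coe (d : Fˣ) : ((DB hσ d : BJ σ) : GJ σ) = DU hσ d := rfl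

lemma MB_coe (a b : F) (h : a * σ a + b + σ b = 0) : ((MB hσ a b h : BJ σ) : GJ σ) = MG hσ a b h := rfl

lemma MB_mul {a b c d : F} (h : a * σ a + b + σ b = 0) (h' : c * σ c + d + σ d = 0) :
    MB hσ a b h * MB hσ c d h' = MB hσ (a + c) (b + d - σ a * c) (isU_mul hσ h h') :=
  Subtype.ext (MG_mul hσ h h')

lemma MB_congr {a a' b b' : F} (h : a * σ a + b + σ b = 0) (h' : a' * σ a' + b' + σ b' = 0)
    (ha : a = a') (hb : b = b') : MB hσ a b h = MB hσ a' b' h' := by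
  subst ha hb
  rfl

lemma MB_zero : MB hσ 0 0 (isU_zero (σ := σ)) = 1 := Subtype.ext (MG_zero hσ)

lemma MB_inv {a b : F} (h : a * σ a + b + σ b = 0) : (MB hσ a b h)⁻¹ = MB hσ (-a) (σ b) (isU_inv hσ h) :=
  Subtype.ext (MG_inv hσ h)

lemma DB_MB (d : Fˣ) {a b : F} (h : a * σ a + b + σ b = 0) :
    DB hσ d * MB hσ a b h * (DB hσ d)⁻¹ =
      MB hσ (σ d * σ d * (d : F)⁻¹ * a) (d * σ d * b) (isU_conj hσ d.ne_zero h) :=
  Subtype.ext (DU_MG hσ d h)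

lemma BB_decomp (β : BJ σ) : ∃ (a b : F) (h : a * σ a + b + σ b = 0) (d : Fˣ), β = MB hσ a b h * DB hσ d := by
  obtain ⟨a, b, h, d, e⟩ := BJ_decomp hσ β.2
  exact ⟨a, b, h, d, Subtype.ext e⟩

/-- The data of the Moufang closure argument. -/
structure MD {δ : F} (hδ : δ ≠ 0) (hδ' : σ δ = -δ) (Γ : Type*) [Group Γ] where
  φ : Γ →* GJ σ
  ι : BJ σ →* Γ
  w : Γ
  hι : ∀ β, φ (ι β) = β.1
  hw : φ w = WG hσ hδ hδ'
  hwD : ∀ d : Fˣ, w * ι (DB hσ d) * w⁻¹ = ι (DB hσ (sU hσ d)⁻¹)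
  hw2 : w * w = ι (DB hσ (-1))

variable {hσ} {δ : F} {hδ : δ ≠ 0} {hδ' : σ δ = -δ} {Γ : Type*} [Group Γ] (D : MD hσ hδ hδ' Γ)

namespace MD

/-- The statement that the element lies in the good set. -/
def E (β : BJ σ) : Prop := ∃ β₁ β₂ : BJ σ, D.w * D.ι β * D.w = D.ι β₁ * D.w * D.ι β₂

lemma m_sq : DB hσ (-1) * DB hσ (-1) = 1 := by
  rw [← map_mul]
  simp

lemma w_inv : D.w⁻¹ = D.ι (DB hσ (-1)) * D.w := by
  symm
  apply eq_inv_of_mul_eq_one_left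
  rw [mul_assoc, D.hw2, ← map_mul, m_sq, map_one]

lemma winv_D (d : Fˣ) : D.w⁻¹ * D.ι (DB hσ d) * D.w = D.ι (DB hσ (sU hσ d)⁻¹) := by
  have h := D.hwD (sU hσ d)⁻¹
  have e : (sU hσ (sU hσ d)⁻¹)⁻¹ = d := by
    rw [sU_inv, sU_sU, inv_inv]
  rw [e] at h
  rw [← h]
  group

lemma E_T {β : BJ σ} (d d' : Fˣ) (h : D.E β) : D.E (DB hσ d * β * DB hσ d') := by
  obtain ⟨β₁, β₂, e⟩ := h
  refine ⟨DB hσ (sU hσ d)⁻¹ * β₁, β₂ * DB hσ (sU hσ d')⁻¹, ?_⟩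
  rw [map_mul, map_mul, map_mul, map_mul, ← D.hwD d, ← D.winv_D d']
  calc D.w * (D.ι (DB hσ d) * D.ι β * D.ι (DB hσ d')) * D.w
      = (D.w * D.ι (DB hσ d) * D.w⁻¹) * (D.w * D.ι β * D.w) * (D.w⁻¹ * D.ι (DB hσ d') * D.w) := by group
    _ = _ := by rw [e]; group

lemma E_inv {β : BJ σ} (h : D.E β) : D.E β⁻¹ := by
  obtain ⟨β₁, β₂, e⟩ := h
  have hm := D.w_inv
  have e1 : D.E (β⁻¹ * DB hσ (-1)) := by
    refine ⟨(DB hσ (-1))⁻¹ * β₂⁻¹ * DB hσ (-1), β₁⁻¹, ?_⟩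
    have e2 := congrArg (fun g => g⁻¹) e
    simp only [mul_inv_rev] at e2
    rw [← mul_assoc, hm] at e2
    simp only [map_mul, map_inv]
    have e3 : D.ι (DB hσ (-1)) * D.w * (D.ι β)⁻¹ * (D.ι (DB hσ (-1)) * D.w) = (D.ι β₂)⁻¹ * (D.ι (DB hσ (-1)) * D.w) * (D.ι β₁)⁻¹ := by
      simpa [mul_assoc] using e2
    have : D.w * ((D.ι β)⁻¹ * D.ι (DB hσ (-1))) * D.w =
        (D.ι (DB hσ (-1)))⁻¹ * (D.ι (DB hσ (-1)) * D.w * (D.ι β)⁻¹ * (D.ι (DB hσ (-1)) * D.w)) := by group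
    rw [this, e3]
    group
  have := D.E_T 1 (-1)⁻¹ e1
  rw [map_one, one_mul, mul_assoc, ← map_mul] at this
  simpa using this

lemma E_flip {β β₁ β₂ : BJ σ} (e : D.w * D.ι β * D.w = D.ι β₁ * D.w * D.ι β₂) : D.E β₁ ∧ D.E β₂ := by
  constructor
  · refine ⟨DB hσ (-1) * β, β₂⁻¹, ?_⟩
    rw [map_mul, map_inv, ← D.hw2]
    have : D.ι β₁ = D.w * D.ι β * D.w * (D.ι β₂)⁻¹ * D.w⁻¹ := by
      rw [e]; group
    nth_rewrite 1 [this]
    group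
  · refine ⟨β₁⁻¹, β * DB hσ (-1), ?_⟩
    rw [map_mul, map_inv, ← D.hw2]
    have : D.w * D.ι β₂ = (D.ι β₁)⁻¹ * (D.w * D.ι β * D.w) := by
      rw [e]; group
    rw [this]
    group

lemma E_mul {β₁ β₂ a₁ b₁ a₂ b₂ : BJ σ} (e1 : D.w * D.ι β₁ * D.w = D.ι a₁ * D.w * D.ι b₁)
    (e2 : D.w * D.ι β₂ * D.w = D.ι a₂ * D.w * D.ι b₂)
    (h : D.E (b₁ * (DB hσ (-1))⁻¹ * a₂)) : D.E (β₁ * β₂) := by
  obtain ⟨c₁, c₂, e3⟩ := h
  refine ⟨a₁ * c₁, c₂ * b₂, ?_⟩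
  have hi : (D.ι (DB hσ (-1)))⁻¹ = D.w⁻¹ * D.w⁻¹ := by
    rw [← D.hw2]; group
  simp only [map_mul, map_inv] at e3 ⊢
  rw [hi] at e3
  calc D.w * (D.ι β₁ * D.ι β₂) * D.w = (D.w * D.ι β₁ * D.w) * (D.w⁻¹ * D.w⁻¹) * (D.w * D.ι β₂ * D.w) := by group
    _ = D.ι a₁ * (D.w * (D.ι b₁ * (D.w⁻¹ * D.w⁻¹) * D.ι a₂) * D.w) * D.ι b₂ := by rw [e1, e2]; group
    _ = _ := by rw [e3]; group

/-- Valid parameter version. -/
def EM (a b : F) : Prop := ∃ h : a * σ a + b + σ b = 0, D.E (MB hσ a b h)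

lemma EM_T {a b : F} (h : D.EM a b) (d : Fˣ) : D.EM (σ d * σ d * (d : F)⁻¹ * a) (d * σ d * b) := by
  obtain ⟨h1, h2⟩ := h
  refine ⟨isU_conj hσ d.ne_zero h1, ?_⟩
  have h3 := D.E_T d d⁻¹ h2
  rw [map_inv, DB_MB] at h3
  exact h3

lemma EM_inv {a b : F} (h : D.EM a b) : D.EM (-a) (σ b) := by
  obtain ⟨h1, h2⟩ := h
  refine ⟨isU_inv hσ h1, ?_⟩
  have h3 := D.E_inv h2
  rwa [MB_inv] at h3

/-- The shape of the big-cell decomposition. -/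
lemma E_form {a b : F} (h : a * σ a + b + σ b = 0) (hb : b ≠ 0) (hE : D.E (MB hσ a b h)) :
    ∃ d d' : Fˣ, D.w * D.ι (MB hσ a b h) * D.w =
      D.ι (MB hσ (-(a * δ / b)) (-(δ ^ 2 / b)) (isU_fa hσ hδ' h hb) * DB hσ d) * D.w *
        D.ι (DB hσ d' * MB hσ (a * δ / σ b) (-(δ ^ 2 / b)) (isU_ga hσ hδ' h hb)) := by
  obtain ⟨β₁, β₂, e⟩ := hE
  have e' := congrArg D.φ e
  simp only [map_mul, D.hι, D.hw] at e'
  rw [MB_coe, WG_MG hσ hδ hδ' h hb] at e'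
  have u := big_unique hσ hδ hδ' (mul_mem (MG_mem hσ _ _ _) (DU_mem hσ _)) (MG_mem hσ _ _ _) β₁.2 β₂.2 e'
  obtain ⟨⟨d, hd⟩, ⟨d', hd'⟩⟩ := u
  refine ⟨(Units.mk0 (δ / σ b) (d_ne hσ hδ hδ' hb)) * d⁻¹, d'⁻¹, ?_⟩
  have h1 : β₁ = MB hσ (-(a * δ / b)) (-(δ ^ 2 / b)) (isU_fa hσ hδ' h hb) * DB hσ ((Units.mk0 (δ / σ b) (d_ne hσ hδ hδ' hb)) * d⁻¹) := by
    apply Subtype.ext
    have : (β₁ : GJ σ) = (MG hσ (-(a * δ / b)) (-(δ ^ 2 / b)) (isU_fa hσ hδ' h hb) * DU hσ (Units.mk0 (δ / σ b) (d_ne hσ hδ hδ' hb))) * (DU hσ d)⁻¹ := by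
      rw [hd]; group
    rw [this, Subgroup.coe_mul, DB_coe, MB_coe, map_mul, map_inv]
    group
  have h2 : β₂ = DB hσ d'⁻¹ * MB hσ (a * δ / σ b) (-(δ ^ 2 / b)) (isU_ga hσ hδ' h hb) := by
    apply Subtype.ext
    have : (β₂ : GJ σ) = (DU hσ d')⁻¹ * MG hσ (a * δ / σ b) (-(δ ^ 2 / b)) (isU_ga hσ hδ' h hb) := by
      rw [hd']; group
    rw [this, Subgroup.coe_mul, DB_coe, MB_coe, map_inv]
  rw [e, h1, h2]

/-- The flip rule. -/
lemma EM_flip {a b : F} (h : D.EM a b) (hb : b ≠ 0) : D.EM (a * δ / σ b) (-(δ ^ 2 / b)) := by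
  obtain ⟨h1, h2⟩ := h
  obtain ⟨d, d', e⟩ := D.E_form h1 hb h2
  refine ⟨isU_ga hσ hδ' h1 hb, ?_⟩
  have := (D.E_flip e).2
  have h3 := D.E_T d'⁻¹ 1 this
  rw [map_one, mul_one, ← mul_assoc, ← map_mul] at h3
  simpa using h3

/-- The addition rule. -/
lemma EM_add {a b c : F} (h : D.EM a b) (hb : b ≠ 0) (hc : c ≠ 0) (hcc : σ c = -c) (hC : D.EM 0 c)
    (h2 : D.EM (a * δ / σ b) (-(δ ^ 2 / b) + -(δ ^ 2 / c))) : D.EM a (b + c) := by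
  obtain ⟨h1, h1E⟩ := h
  obtain ⟨hc1, hcE⟩ := hC
  obtain ⟨h21, h22⟩ := h2
  have hU : a * σ a + (b + c) + σ (b + c) = 0 := by
    rw [map_add, hcc]
    linear_combination h1
  refine ⟨hU, ?_⟩
  obtain ⟨d₁, d₁', e₁⟩ := D.E_form h1 hb h1E
  obtain ⟨d₂, d₂', e₂⟩ := D.E_form hc1 hc hcE
  have hprod : MB hσ a b h1 * MB hσ 0 c hc1 = MB hσ a (b + c) hU := by
    rw [MB_mul]
    apply MB_congr
    · ring
    · ring
  rw [← hprod]
  refine D.E_mul e₁ e₂ ?_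
  -- the middle term
  have hm : (DB hσ (-1))⁻¹ * MB hσ (-(0 * δ / c)) (-(δ ^ 2 / c)) (isU_fa hσ hδ' hc1 hc) * DB hσ (-1) =
      MB hσ (-(0 * δ / c)) (-(δ ^ 2 / c)) (isU_fa hσ hδ' hc1 hc) := by
    have hinv : (-1 : Fˣ)⁻¹ = -1 := by simp
    have h3 := DB_MB hσ (-1 : Fˣ) (isU_fa hσ hδ' hc1 hc)
    rw [← map_inv, hinv] at h3 ⊢
    rw [h3]
    apply MB_congr
    · simp
    · simp
  have e0 : DB hσ d₁' * MB hσ (a * δ / σ b) (-(δ ^ 2 / b)) (isU_ga hσ hδ' h1 hb) * (DB hσ (-1))⁻¹ *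
      (MB hσ (-(0 * δ / c)) (-(δ ^ 2 / c)) (isU_fa hσ hδ' hc1 hc) * DB hσ d₂) =
      DB hσ d₁' * (MB hσ (a * δ / σ b) (-(δ ^ 2 / b)) (isU_ga hσ hδ' h1 hb) * MB hσ (-(0 * δ / c)) (-(δ ^ 2 / c)) (isU_fa hσ hδ' hc1 hc)) * DB hσ ((-1)⁻¹ * d₂) := by
    obtain ⟨M₀, hM₀⟩ : ∃ M₀, M₀ = MB hσ (-(0 * δ / c)) (-(δ ^ 2 / c)) (isU_fa hσ hδ' hc1 hc) := ⟨_, rfl⟩
    rw [← hM₀] at hm ⊢
    have hm2 : (DB hσ (-1))⁻¹ * M₀ = M₀ * (DB hσ (-1))⁻¹ := by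
      calc (DB hσ (-1))⁻¹ * M₀ = ((DB hσ (-1))⁻¹ * M₀ * DB hσ (-1)) * (DB hσ (-1))⁻¹ := by group
        _ = _ := by rw [hm]
    rw [map_mul, map_inv]
    obtain ⟨M₁, hM₁⟩ : ∃ M₁, M₁ = MB hσ (a * δ / σ b) (-(δ ^ 2 / b)) (isU_ga hσ hδ' h1 hb) := ⟨_, rfl⟩
    rw [← hM₁]
    calc DB hσ d₁' * M₁ * (DB hσ (-1))⁻¹ * (M₀ * DB hσ d₂) = DB hσ d₁' * M₁ * ((DB hσ (-1))⁻¹ * M₀) * DB hσ d₂ := by group
      _ = _ := by rw [hm2]; group
  rw [mul_assoc (DB hσ d₁') _ _] at e0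
  have e1 := D.E_T d₁' ((-1)⁻¹ * d₂) h22
  have e3 : MB hσ (a * δ / σ b) (-(δ ^ 2 / b) + -(δ ^ 2 / c)) h21 =
      MB hσ (a * δ / σ b) (-(δ ^ 2 / b)) (isU_ga hσ hδ' h1 hb) * MB hσ (-(0 * δ / c)) (-(δ ^ 2 / c)) (isU_fa hσ hδ' hc1 hc) := by
    rw [MB_mul]
    apply MB_congr
    · simp
    · simp
  rw [e3] at e1
  convert e1 using 1
  rw [← e0]
  group

/-- The `b`-coordinate attached to `a,y`. -/
def bY (σ : F →+* F) (a y : F) : F := a * σ a * y / (1 - y)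

omit hσ in
lemma y_facts {y : F} (hy : y * σ y = 1) (hy1 : y ≠ 1) : y ≠ 0 ∧ σ y = y⁻¹ ∧ 1 - y ≠ 0 := by
  have h0 : y ≠ 0 := left_ne_zero_of_mul_eq_one hy
  refine ⟨h0, ?_, sub_ne_zero.2 hy1.symm⟩
  field_simp
  linear_combination hy

lemma bY_isU (hσ : ∀ x, σ (σ x) = x) (a : F) {y : F} (hy : y * σ y = 1) (hy1 : y ≠ 1) :
    a * σ a + bY σ a y + σ (bY σ a y) = 0 := by
  obtain ⟨h0, h1, h2⟩ := y_facts hy hy1
  have h3 : y - 1 ≠ 0 := sub_ne_zero.2 hy1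
  simp only [bY, map_div₀, map_mul, map_sub, map_one, hσ, h1]
  field_simp
  ring

/-- The predicate in the coordinates `y,a`. -/
def PP (y a : F) : Prop := D.EM a (bY σ a y)

lemma PP_T {y a : F} (hy : y * σ y = 1) (hy1 : y ≠ 1) (h : D.PP y a) (d : Fˣ) :
    D.PP y (σ d * σ d * (d : F)⁻¹ * a) := by
  have h1 := D.EM_T h d
  have e : (d : F) * σ d * bY σ a y = bY σ (σ d * σ d * (d : F)⁻¹ * a) y := by
    obtain ⟨h0, h2, h3⟩ := y_facts hy hy1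
    have h4 : (d : F) ≠ 0 := d.ne_zero
    have h5 := sig_ne hσ h4
    simp only [bY, map_mul, map_inv₀, hσ]
    field_simp
  rw [e] at h1
  exact h1

lemma PP_inv {y a : F} (hy : y * σ y = 1) (hy1 : y ≠ 1) (h : D.PP y a) : D.PP y⁻¹ (-a) := by
  have h1 := D.EM_inv h
  obtain ⟨h0, h2, h3⟩ := y_facts hy hy1
  have h4 : y - 1 ≠ 0 := sub_ne_zero.2 hy1
  have e : σ (bY σ a y) = bY σ (-a) y⁻¹ := by
    simp only [bY, map_div₀, map_mul, map_sub, map_one, map_neg, hσ, h2]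
    field_simp
  rw [e] at h1
  exact h1

lemma bY_ne (hσ : ∀ x, σ (σ x) = x) {a y : F} (ha : a ≠ 0) (hy : y * σ y = 1) (hy1 : y ≠ 1) : bY σ a y ≠ 0 := by
  obtain ⟨h0, h2, h3⟩ := y_facts hy hy1
  have h5 := sig_ne hσ ha
  simp only [bY]
  exact div_ne_zero (mul_ne_zero (mul_ne_zero ha h5) h0) h3

lemma PP_flip {y a : F} (ha : a ≠ 0) (hy : y * σ y = 1) (hy1 : y ≠ 1) (h : D.PP y a) :
    D.PP y⁻¹ (a * δ / σ (bY σ a y)) := by
  have h1 := D.EM_flip h (bY_ne hσ ha hy hy1)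
  obtain ⟨h0, h2, h3⟩ := y_facts hy hy1
  have h4 : y - 1 ≠ 0 := sub_ne_zero.2 hy1
  have h5 := sig_ne hσ ha
  have e : -(δ ^ 2 / bY σ a y) = bY σ (a * δ / σ (bY σ a y)) y⁻¹ := by
    simp only [bY, map_div₀, map_mul, map_sub, map_one, map_inv₀, hσ, h2, hδ']
    field_simp
  rw [e] at h1
  exact h1

lemma PP_f {y a : F} (ha : a ≠ 0) (hy : y * σ y = 1) (hy1 : y ≠ 1) (h : D.PP y a) :
    D.PP y (δ * (1 - y) / σ a) := by
  have h0' := y_facts hy hy1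
  obtain ⟨h0, h2, h3⟩ := h0'
  have hy' : y⁻¹ * σ y⁻¹ = 1 := by
    rw [map_inv₀, h2]
    field_simp
  have hy1' : y⁻¹ ≠ 1 := by
    intro e
    exact hy1 (by rw [← inv_inv y, e, inv_one])
  have h1 := D.PP_inv hy' hy1' (D.PP_flip ha hy hy1 h)
  rw [inv_inv] at h1
  have h4 : y - 1 ≠ 0 := sub_ne_zero.2 hy1
  have h5 := sig_ne hσ ha
  have e : -(a * δ / σ (bY σ a y)) = δ * (1 - y) / σ a := by
    simp only [bY, map_div₀, map_mul, map_sub, map_one, hσ, h2]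
    field_simp
    ring
  rw [e] at h1
  exact h1

lemma PP_mul {y a : F} (ha : a ≠ 0) (hy : y * σ y = 1) (hy1 : y ≠ 1) (h : D.PP y a) :
    D.PP y (y * a) := by
  have h1 := D.PP_f ha hy hy1 h
  obtain ⟨h0, h2, h3⟩ := y_facts hy hy1
  have h5 := sig_ne hσ ha
  have ha' : δ * (1 - y) / σ a ≠ 0 := div_ne_zero (mul_ne_zero hδ h3) h5
  have h6 := D.PP_f ha' hy hy1 h1
  have h4 : y - 1 ≠ 0 := sub_ne_zero.2 hy1
  have e : δ * (1 - y) / σ (δ * (1 - y) / σ a) = y * a := by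
    simp only [map_div₀, map_mul, map_sub, map_one, hσ, h2, hδ']
    field_simp
    ring
  rw [e] at h6
  exact h6

lemma PP_add {y y₁ a : F} (ha : a ≠ 0) (hy : y * σ y = 1) (hy1 : y ≠ 1) (hy₁ : y₁ * σ y₁ = 1) (hy₁1 : y₁ ≠ 1)
    (hyy : y * y₁ ≠ 1) (hC : ∀ c : F, c ≠ 0 → σ c = -c → D.EM 0 c)
    (h : D.PP y a) (h' : D.PP y₁ (a * δ / σ (bY σ a y))) : D.PP (y * y₁) a := by
  obtain ⟨h0, h2, h3⟩ := y_facts hy hy1
  obtain ⟨h0₁, h2₁, h3₁⟩ := y_facts hy₁ hy₁1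
  have h3' : 1 - y * y₁ ≠ 0 := sub_ne_zero.2 hyy.symm
  have h4 : y - 1 ≠ 0 := sub_ne_zero.2 hy1
  have h4₁ : y₁ - 1 ≠ 0 := sub_ne_zero.2 hy₁1
  have hsa := sig_ne hσ ha
  have hN : a * σ a ≠ 0 := mul_ne_zero ha hsa
  obtain ⟨c, hc⟩ : ∃ c, c = bY σ a (y * y₁) - bY σ a y := ⟨_, rfl⟩
  have hcval : c = a * σ a * y * (y₁ - 1) / ((1 - y) * (1 - y * y₁)) := by
    rw [hc]
    simp only [bY]
    field_simp
    ring
  have hc0 : c ≠ 0 := by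
    rw [hcval]
    exact div_ne_zero (mul_ne_zero (mul_ne_zero hN h0) h4₁) (mul_ne_zero h3 h3')
  have hcc : σ c = -c := by
    have hy2 : (y * y₁) * σ (y * y₁) = 1 := by
      rw [map_mul]
      linear_combination y₁ * σ y₁ * hy + hy₁
    have e1 := bY_isU hσ a hy hy1
    have e2 := bY_isU hσ a hy2 hyy
    rw [hc, map_sub]
    linear_combination e2 - e1
  have hb := bY_ne hσ ha hy hy1
  have e : -(δ ^ 2 / bY σ a y) + -(δ ^ 2 / c) = bY σ (a * δ / σ (bY σ a y)) y₁ := by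
    rw [hcval]
    simp only [bY, map_div₀, map_mul, map_sub, map_one, map_inv₀, hσ, h2, hδ']
    field_simp
    ring
  have h5 := D.EM_add h hb hc0 hcc (hC c hc0 hcc) (by rw [e]; exact h')
  have e2 : bY σ a y + c = bY σ a (y * y₁) := by
    rw [hc]; ring
  rw [e2] at h5
  exact h5

/-- All the relevant elements are in the good set. -/
theorem all_PP {s₀ : F} (hs : s₀ * σ s₀ = 1) (hs1 : s₀ ≠ 1) (hmu : ∀ y : F, y * σ y = 1 → ∃ k : ℕ, y = s₀ ^ k)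
    (hN : ∀ a : F, a ≠ 0 → ∃ d : Fˣ, (d : F) * σ d = a * σ a)
    (hC : ∀ c : F, c ≠ 0 → σ c = -c → D.EM 0 c) (hbase : D.PP s₀ 1)
    {y : F} (hy : y * σ y = 1) (hy1 : y ≠ 1) {a : F} (ha : a ≠ 0) : D.PP y a := by
  have hs0 : s₀ ≠ 0 := left_ne_zero_of_mul_eq_one hs
  -- first `y = s₀`
  have h1 : ∀ k : ℕ, D.PP s₀ (s₀ ^ k) := by
    intro k
    induction k with
    | zero => simpa using hbase
    | succ k ih =>
      have := D.PP_mul (pow_ne_zero k hs0) hs hs1 ih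
      rwa [← pow_succ'] at this
  have h2 : ∀ a : F, a ≠ 0 → D.PP s₀ a := by
    intro a ha
    obtain ⟨d, hd⟩ := hN a ha
    have h3 := sig_ne hσ d.ne_zero
    have h4 : (d : F) ≠ 0 := d.ne_zero
    have h5 := sig_ne hσ ha
    obtain ⟨k, hk⟩ := hmu (a * d / (σ d * σ d)) (by
      simp only [map_div₀, map_mul, hσ]
      field_simp
      linear_combination -hd)
    have h6 := D.PP_T hs hs1 (h1 k) d
    rw [← hk] at h6
    have e : σ d * σ d * (d : F)⁻¹ * (a * d / (σ d * σ d)) = a := by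
      field_simp
    rw [e] at h6
    exact h6
  have h3 : ∀ k : ℕ, s₀ ^ k ≠ 1 → ∀ a : F, a ≠ 0 → D.PP (s₀ ^ k) a := by
    intro k
    induction k with
    | zero => intro h; exact absurd (pow_zero _) h
    | succ k ih =>
      intro hk a ha
      by_cases hk1 : s₀ ^ k = 1
      · rw [pow_succ, hk1, one_mul]
        exact h2 a ha
      · have hnk : s₀ ^ k * σ (s₀ ^ k) = 1 := by
          rw [map_pow, ← mul_pow, hs, one_pow]
        rw [pow_succ] at hk ⊢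
        refine D.PP_add ha hnk hk1 hs hs1 hk hC (ih hk1 a ha) (h2 _ ?_)
        exact div_ne_zero (mul_ne_zero ha hδ) (sig_ne hσ (bY_ne hσ ha hnk hk1))
  obtain ⟨k, rfl⟩ := hmu y hy
  exact h3 k hy1 a ha

/-- All root elements are in the good set. -/
theorem all_EM {s₀ : F} (hs : s₀ * σ s₀ = 1) (hs1 : s₀ ≠ 1) (hmu : ∀ y : F, y * σ y = 1 → ∃ k : ℕ, y = s₀ ^ k)
    (hN : ∀ a : F, a ≠ 0 → ∃ d : Fˣ, (d : F) * σ d = a * σ a)
    (hC : ∀ c : F, c ≠ 0 → σ c = -c → D.EM 0 c) (hbase : D.PP s₀ 1)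
    {a b : F} (h : a * σ a + b + σ b = 0) (hab : a ≠ 0 ∨ b ≠ 0) : D.EM a b := by
  by_cases ha : a = 0
  · subst ha
    have hb : b ≠ 0 := by simpa using hab
    exact hC b hb (by linear_combination h)
  · have hsa := sig_ne hσ ha
    have hN0 : a * σ a ≠ 0 := mul_ne_zero ha hsa
    have hb : b ≠ 0 := by
      rintro rfl
      apply hN0
      simpa using h
    have hsb := sig_ne hσ hb
    have hy : (-b / σ b) * σ (-b / σ b) = 1 := by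
      simp only [map_div₀, map_neg, hσ]
      field_simp
    have hy1 : -b / σ b ≠ 1 := by
      intro e
      rw [div_eq_one_iff_eq hsb] at e
      apply hN0
      linear_combination h + e
    have := D.all_PP hs hs1 hmu hN hC hbase hy hy1 ha
    have hbb : b + σ b ≠ 0 := by
      intro e
      apply hN0
      linear_combination h - e
    have e : bY σ a (-b / σ b) = b := by
      simp only [bY]
      have e3 : σ b + b = -(a * σ a) := by linear_combination h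
      have e1 : 1 - -b / σ b = -(a * σ a) / σ b := by
        rw [← e3]
        field_simp
        ring
      rw [e1]
      field_simp
    rw [PP, e] at this
    exact this

/-- The set of normal forms. -/
def CC (g : Γ) : Prop := (∃ β, g = D.ι β) ∨ ∃ β₁ β₂, g = D.ι β₁ * D.w * D.ι β₂

/-- The closure of the Bruhat cells. -/
theorem all_CC {s₀ : F} (hs : s₀ * σ s₀ = 1) (hs1 : s₀ ≠ 1) (hmu : ∀ y : F, y * σ y = 1 → ∃ k : ℕ, y = s₀ ^ k)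
    (hN : ∀ a : F, a ≠ 0 → ∃ d : Fˣ, (d : F) * σ d = a * σ a)
    (hC : ∀ c : F, c ≠ 0 → σ c = -c → D.EM 0 c) (hbase : D.PP s₀ 1)
    (hgen : Subgroup.closure (Set.range D.ι ∪ {D.w}) = ⊤) (g : Γ) : D.CC g := by
  have hR : ∀ (g : Γ) (β : BJ σ), D.CC g → D.CC (g * D.ι β) := by
    rintro g β (⟨β', rfl⟩ | ⟨β₁, β₂, rfl⟩)
    · left
      exact ⟨β' * β, by rw [map_mul]⟩
    · right
      exact ⟨β₁, β₂ * β, by rw [map_mul]; group⟩
  have hW : ∀ g : Γ, D.CC g → D.CC (g * D.w) := by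
    rintro g (⟨β', rfl⟩ | ⟨β₁, β₂, rfl⟩)
    · right
      exact ⟨β', 1, by simp⟩
    · obtain ⟨a, b, h, d, rfl⟩ := BB_decomp hσ β₂
      by_cases hab : a ≠ 0 ∨ b ≠ 0
      · obtain ⟨_, c₁, c₂, e⟩ := D.all_EM hs hs1 hmu hN hC hbase h hab
        right
        refine ⟨β₁ * c₁, c₂ * DB hσ (sU hσ d)⁻¹, ?_⟩
        simp only [map_mul]
        rw [← D.winv_D d]
        calc D.ι β₁ * D.w * (D.ι (MB hσ a b h) * D.ι (DB hσ d)) * D.w
            = D.ι β₁ * (D.w * D.ι (MB hσ a b h) * D.w) * (D.w⁻¹ * D.ι (DB hσ d) * D.w) := by group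
          _ = _ := by rw [e]; group
      · have ha : a = 0 := by
          by_contra hc
          exact hab (Or.inl hc)
        have hb : b = 0 := by
          by_contra hc
          exact hab (Or.inr hc)
        subst ha hb
        left
        refine ⟨β₁ * (DB hσ (sU hσ d)⁻¹ * DB hσ (-1)), ?_⟩
        have e : MB hσ 0 0 h = 1 := MB_zero hσ
        rw [e, one_mul]
        simp only [map_mul]
        rw [← D.hw2, ← D.hwD d]
        group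
  have h1 : D.CC 1 := Or.inl ⟨1, by simp⟩
  have hg : g ∈ Subgroup.closure (Set.range D.ι ∪ {D.w}) := by
    rw [hgen]
    trivial
  induction hg using Subgroup.closure_induction_right with
  | one => exact h1
  | mul_right x y _ hy ih =>
    rcases hy with ⟨β, rfl⟩ | hy
    · exact hR _ _ ih
    · rw [Set.mem_singleton_iff] at hy
      subst hy
      exact hW _ ih
  | mul_inv_cancel x y _ hy ih =>
    rcases hy with ⟨β, rfl⟩ | hy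
    · rw [← map_inv]
      exact hR _ _ ih
    · rw [Set.mem_singleton_iff] at hy
      subst hy
      rw [D.w_inv, ← mul_assoc]
      exact hW _ (hR _ _ ih)

/-- The main conclusion: the map to the model is an isomorphism. -/
theorem bijective {s₀ : F} (hs : s₀ * σ s₀ = 1) (hs1 : s₀ ≠ 1) (hmu : ∀ y : F, y * σ y = 1 → ∃ k : ℕ, y = s₀ ^ k)
    (hN : ∀ a : F, a ≠ 0 → ∃ d : Fˣ, (d : F) * σ d = a * σ a)
    (hC : ∀ c : F, c ≠ 0 → σ c = -c → D.EM 0 c) (hbase : D.PP s₀ 1)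
    (hgen : Subgroup.closure (Set.range D.ι ∪ {D.w}) = ⊤) : Function.Bijective D.φ := by
  constructor
  · rw [injective_iff_map_eq_one]
    intro g hg
    rcases D.all_CC hs hs1 hmu hN hC hbase hgen g with ⟨β, rfl⟩ | ⟨β₁, β₂, rfl⟩
    · rw [D.hι] at hg
      have : β = 1 := Subtype.ext hg
      rw [this, map_one]
    · exfalso
      simp only [map_mul, D.hι, D.hw] at hg
      have : WG hσ hδ hδ' = (β₁ : GJ σ)⁻¹ * (β₂ : GJ σ)⁻¹ := by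
        rw [← mul_inv_eq_one, mul_inv_rev, inv_inv, inv_inv]
        calc WG hσ hδ hδ' * ((β₂ : GJ σ) * (β₁ : GJ σ)) = (β₁ : GJ σ)⁻¹ * ((β₁ : GJ σ) * WG hσ hδ hδ' * (β₂ : GJ σ)) * (β₁ : GJ σ) := by group
          _ = 1 := by rw [hg]; group
      apply WG_not_mem hσ hδ hδ'
      rw [this]
      exact mul_mem (inv_mem β₁.2) (inv_mem β₂.2)
  · intro g
    rcases bruhat hσ hδ hδ' g with h | ⟨β₁, h1, β₂, h2, rfl⟩
    · exact ⟨D.ι ⟨g, h⟩, D.hι _⟩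
    · refine ⟨D.ι ⟨β₁, h1⟩ * D.w * D.ι ⟨β₂, h2⟩, ?_⟩
      simp only [map_mul, D.hι, D.hw]

end MD

end Moufang

end Cfsg.Agent.Lib.PrsU3
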