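import Mathlib
import Cfsg.Agent.Lib.PrsSUC
import Cfsg.Agent.Lib.PrsU3B

/-!
# Presentations of special unitary groups: the three dimensional building block
-/

set_option autoImplicit false
set_option linter.unusedSectionVars false
set_option linter.unusedVariables false

namespace Cfsg.Agent.Lib.PrsSU

open Subgroup Cfsg.Agent.Lib.SUWitt Cfsg.Agent.Lib.PrsU3
open scoped commutatorElement Matrix

variable {F : Type*} [Field F] {σ : F →+* F} (hσ : ∀ x, σ (σ x) = x)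

/-- The unipotent subgroup of the block. -/
def UU : Subgroup (GJ σ) where
  carrier := {g | ∃ a b, ∃ h : a * σ a + b + σ b = 0, g = MG hσ a b h}
  mul_mem' := by
    rintro _ _ ⟨a, b, h, rfl⟩ ⟨c, d, h', rfl⟩
    exact ⟨_, _, _, MG_mul hσ h h'⟩
  one_mem' := ⟨0, 0, isU_zero, (MG_zero hσ).symm⟩
  inv_mem' := by
    rintro _ ⟨a, b, h, rfl⟩
    exact ⟨_, _, _, MG_inv hσ h⟩

lemma MG_mem_UU (a b : F) (h : a * σ a + b + σ b = 0) : MG hσ a b h ∈ UU hσ := ⟨a, b, h, rfl⟩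

/-- Frobenius on units. -/
abbrev su (d : Fˣ) : Fˣ := sU hσ d

lemma MG_cast {a a' b b' : F} (h : a * σ a + b + σ b = 0) (ha : a = a') (hb : b = b') :
    ∃ h' : a' * σ a' + b' + σ b' = 0, MG hσ a b h = MG hσ a' b' h' := by
  subst ha hb
  exact ⟨h, rfl⟩

/-- The `DU`-normalisation of UU. -/
lemma DU_UU (d : Fˣ) {g : GJ σ} (hg : g ∈ UU hσ) : DU hσ d * g * (DU hσ d)⁻¹ ∈ UU hσ := by
  obtain ⟨a, b, h, rfl⟩ := hg
  rw [DU_MG]
  exact MG_mem_UU hσ _ _ _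

section Comm

variable {hσ}

lemma MG_comm {a b c d : F} (h : a * σ a + b + σ b = 0) (h' : c * σ c + d + σ d = 0) :
    ∃ hz : (0 : F) * σ 0 + (σ c * a - σ a * c) + σ (σ c * a - σ a * c) = 0,
      ⁅MG hσ a b h, MG hσ c d h'⁆ = MG hσ 0 (σ c * a - σ a * c) hz := by
  have hz : (0 : F) * σ 0 + (σ c * a - σ a * c) + σ (σ c * a - σ a * c) = 0 := by
    simp only [map_sub, map_mul, hσ, map_zero]
    ring
  refine ⟨hz, ?_⟩
  rw [commutatorElement_def, MG_inv hσ h, MG_inv hσ h', MG_mul hσ h h', MG_mul hσ (isU_mul hσ h h') (isU_inv hσ h),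
    MG_mul hσ (isU_mul hσ (isU_mul hσ h h') (isU_inv hσ h)) (isU_inv hσ h')]
  apply MG_congr
  · ring
  · simp only [map_add, map_sub, map_neg, map_mul, hσ]
    linear_combination h + h'

/-- Elements of the centre of the block are commutators. -/
lemma Z_is_comm (hI : Invol σ) {δ : F} (hδ : δ ≠ 0) (hδ' : σ δ = -δ) {z : F} (hz : (0 : F) * σ 0 + z + σ z = 0) :
    ∃ a b h c d h', MG hI.invol 0 z hz = ⁅MG hI.invol a b h, MG hI.invol c d h'⁆ := by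
  have hσ := hI.invol
  have hz' : σ z = - z := by
    simp only [map_zero, mul_zero, zero_add] at hz
    linear_combination hz
  have h1 : σ (z / δ) = z / δ := by
    rw [map_div₀, hz', hδ']
    field_simp
  obtain ⟨a', ha'⟩ := hI.trace_surj _ h1
  have ha : (δ * a') - σ (δ * a') = z := by
    rw [map_mul, hδ']
    have : z = δ * (z / δ) := by field_simp
    rw [this, ← ha']
    ring
  obtain ⟨b, hb⟩ := hI.trace_surj (- ((δ * a') * σ (δ * a'))) (by simp only [map_neg, map_mul, hσ]; ring)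
  obtain ⟨d, hd⟩ := hI.trace_surj (- ((1 : F) * σ 1)) (by simp)
  have h3 : (δ * a') * σ (δ * a') + b + σ b = 0 := by linear_combination hb
  have h4 : (1 : F) * σ 1 + d + σ d = 0 := by linear_combination hd
  obtain ⟨hz2, e⟩ := MG_comm (hσ := hI.invol) h3 h4
  refine ⟨_, _, h3, _, _, h4, ?_⟩
  rw [e]
  apply MG_congr _ _ _ rfl
  simp only [map_one, one_mul, mul_one]
  exact ha.symm

end Comm

section Gen

variable {hσ}

/-- Existence of root elements. -/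
lemma exists_MG (hI : Invol σ) (c : F) : ∃ d, c * σ c + d + σ d = 0 := by
  have hσ := hI.invol
  obtain ⟨b, hb⟩ := hI.trace_surj (- (c * σ c)) (by simp only [map_neg, map_mul, hσ]; ring)
  exact ⟨b, by linear_combination hb⟩

/-- Subgroups meeting all the cosets of the centre contain the unipotent group. -/
lemma UU_le_of (hI : Invol σ) {δ : F} (hδ : δ ≠ 0) (hδ' : σ δ = -δ) (H : Subgroup (GJ σ))
    (hx : ∀ x, ∃ y h, MG hI.invol x y h ∈ H) : UU hI.invol ≤ H := by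
  rintro _ ⟨a, b, h, rfl⟩
  obtain ⟨y, hy, hm⟩ := hx a
  have hZ : ∀ z (hz : (0 : F) * σ 0 + z + σ z = 0), MG hI.invol 0 z hz ∈ H := by
    intro z hz
    obtain ⟨a₁, b₁, h₁, c₁, d₁, h₁', e⟩ := Z_is_comm hI hδ hδ' hz
    rw [e, commutatorElement_def]
    obtain ⟨y₁, hy₁, hm₁⟩ := hx a₁
    obtain ⟨y₂, hy₂, hm₂⟩ := hx c₁
    -- the commutator only depends on the first coordinates
    obtain ⟨hz1, e1⟩ := MG_comm (hσ := hI.invol) h₁ h₁'
    obtain ⟨hz2, e2⟩ := MG_comm (hσ := hI.invol) hy₁ hy₂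
    rw [← commutatorElement_def, e1, ← e2, commutatorElement_def]
    exact mul_mem (mul_mem (mul_mem hm₁ hm₂) (inv_mem hm₁)) (inv_mem hm₂)
  have hz : (0 : F) * σ 0 + (b - y) + σ (b - y) = 0 := by
    simp only [map_sub, map_zero, mul_zero, zero_add]
    linear_combination h - hy
  have e : MG hI.invol a b h = MG hI.invol a y hy * MG hI.invol 0 (b - y) hz := by
    rw [MG_mul hI.invol hy hz]
    apply MG_congr
    · ring
    · ring
  rw [e]
  exact mul_mem hm (hZ _ _)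

/-- Generation from the scalars of the fixed field. -/
lemma U_of_K (hI : Invol σ) (H : Subgroup (GJ σ)) {b₀ ν₀ d₀ : F} (h₀ : (1 : F) * σ 1 + b₀ + σ b₀ = 0)
    (hν : ν₀ * σ ν₀ + d₀ + σ d₀ = 0) (hσν : σ ν₀ ≠ ν₀) (hy₀ : MG hI.invol 1 b₀ h₀ ∈ H) (hν₀ : MG hI.invol ν₀ d₀ hν ∈ H)
    (hK : ∀ a : F, σ a = a → a ≠ 0 → ∀ x y h, MG hI.invol x y h ∈ H → ∃ y' h', MG hI.invol (a * x) y' h' ∈ H) :
    ∀ x, ∃ y h, MG hI.invol x y h ∈ H := by
  have hσ := hI.invol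
  have hK' : ∀ a : F, σ a = a → ∀ x y h, MG hI.invol x y h ∈ H → ∃ y' h', MG hI.invol (a * x) y' h' ∈ H := by
    intro a ha x y h hm
    by_cases h0 : a = 0
    · subst h0
      refine ⟨0, by simp, ?_⟩
      have : MG hI.invol ((0 : F) * x) 0 (by simp) = 1 := by
        rw [← MG_zero hI.invol]
        apply MG_congr
        · ring
        · rfl
      rw [this]
      exact one_mem _
    · exact hK a ha h0 x y h hm
  intro x
  have hne : ν₀ - σ ν₀ ≠ 0 := fun e => hσν (by linear_combination -e)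
  let a₂ := (x - σ x) / (ν₀ - σ ν₀)
  have ha₂ : σ a₂ = a₂ := by
    simp only [a₂, map_div₀, map_sub, hσ]
    have hne' : σ ν₀ - ν₀ ≠ 0 := fun e => hσν (by linear_combination e)
    field_simp
    ring
  let a₁ := x - a₂ * ν₀
  have ha₁ : σ a₁ = a₁ := by
    simp only [a₁, map_sub, map_mul, ha₂]
    have : a₂ * (ν₀ - σ ν₀) = x - σ x := by
      simp only [a₂]
      field_simp
    linear_combination this
  obtain ⟨y₁, h₁, m₁⟩ := hK' a₁ ha₁ _ _ _ hy₀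
  obtain ⟨y₂, h₂, m₂⟩ := hK' a₂ ha₂ _ _ _ hν₀
  have := mul_mem m₁ m₂
  rw [MG_mul hI.invol h₁ h₂] at this
  have e : a₁ * 1 + a₂ * ν₀ = x := by
    simp only [a₁]
    ring
  obtain ⟨h', e'⟩ := MG_cast hI.invol (isU_mul hI.invol h₁ h₂) e rfl
  rw [e'] at this
  exact ⟨_, h', this⟩

end Gen

section Adm

variable (σ) in
/-- The middle diagonal matrix. -/
def dMid (ε : F) : Matrix (Fin 3) (Fin 3) F := !![1, 0, 0; 0, ε, 0; 0, 0, 1]

lemma dMid_det (ε : F) : (dMid ε : Matrix (Fin 3) (Fin 3) F).det = ε := by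
  simp [dMid, Matrix.det_fin_three]

lemma dMid_mul (ε ε' : F) : (dMid ε : Matrix (Fin 3) (Fin 3) F) * dMid ε' = dMid (ε * ε') := by
  ext i j
  fin_cases i <;> fin_cases j <;> simp [dMid, Matrix.mul_apply, Fin.sum_univ_three]

lemma dMid_one : (dMid 1 : Matrix (Fin 3) (Fin 3) F) = 1 := by
  ext i j
  fin_cases i <;> fin_cases j <;> simp [dMid]

lemma dMid_pres {ε : F} (hε : ε * σ ε = 1) (u v : Fin 3 → F) :
    fJ σ (dMid ε *ᵥ u) (dMid ε *ᵥ v) = fJ σ u v := by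
  simp [fJ, mulVec3, dMid, map_add, map_mul]
  linear_combination (u 1 * σ (v 1)) * hε

/-- Conjugation by the middle diagonal matrix. -/
def AdE (ε : Fˣ) (hε : (ε : F) * σ ε = 1) : GJ σ →* GJ σ where
  toFun g := ⟨⟨dMid (ε : F) * g.1.1 * dMid ((ε⁻¹ : Fˣ) : F), by
      rw [Matrix.det_mul, Matrix.det_mul, dMid_det, dMid_det, g.1.2]
      simp⟩, by
    intro u v
    have hε' : ((ε⁻¹ : Fˣ) : F) * σ ((ε⁻¹ : Fˣ) : F) = 1 := by
      have h1 : (ε : F) ≠ 0 := ε.ne_zero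
      have h2 : σ (ε : F) ≠ 0 := fun e => by
        rw [e, mul_zero] at hε
        exact zero_ne_one hε
      simp only [Units.val_inv_eq_inv_val, map_inv₀]
      field_simp
      linear_combination -hε
    change fJ σ ((dMid (ε : F) * g.1.1 * dMid ((ε⁻¹ : Fˣ) : F)) *ᵥ u) ((dMid (ε : F) * g.1.1 * dMid ((ε⁻¹ : Fˣ) : F)) *ᵥ v) = fJ σ u v
    simp only [← Matrix.mulVec_mulVec]
    rw [dMid_pres hε, (mem_GJ_iff g.1).1 g.2, dMid_pres hε']⟩
  map_one' := by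
    apply GJ_ext
    intro i j
    change (dMid (ε : F) * (1 : Matrix (Fin 3) (Fin 3) F) * dMid ((ε⁻¹ : Fˣ) : F)) i j = _
    rw [mul_one, dMid_mul, ← Units.val_mul, mul_inv_cancel, Units.val_one, dMid_one]
    rfl
  map_mul' g h := by
    apply GJ_ext
    intro i j
    change (dMid (ε : F) * (g.1.1 * h.1.1) * dMid ((ε⁻¹ : Fˣ) : F)) i j =
      (dMid (ε : F) * g.1.1 * dMid ((ε⁻¹ : Fˣ) : F) * (dMid (ε : F) * h.1.1 * dMid ((ε⁻¹ : Fˣ) : F))) i j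
    have : dMid (ε : F) * g.1.1 * dMid ((ε⁻¹ : Fˣ) : F) * (dMid (ε : F) * h.1.1 * dMid ((ε⁻¹ : Fˣ) : F)) =
        dMid (ε : F) * g.1.1 * (dMid ((ε⁻¹ : Fˣ) : F) * dMid (ε : F)) * h.1.1 * dMid ((ε⁻¹ : Fˣ) : F) := by
      simp only [Matrix.mul_assoc]
    rw [this, dMid_mul, ← Units.val_mul, inv_mul_cancel, Units.val_one, dMid_one]
    simp only [Matrix.mul_one, Matrix.mul_assoc]

/-- The norm one element `σ l / l`. -/
def eps (l : Fˣ) : Fˣ := sU hσ l * l⁻¹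

lemma eps_coe (l : Fˣ) : ((eps hσ l : Fˣ) : F) = σ l * (l : F)⁻¹ := by
  simp [eps, sU_coe]

lemma eps_norm (l : Fˣ) : ((eps hσ l : Fˣ) : F) * σ ((eps hσ l : Fˣ) : F) = 1 := by
  have h1 : (l : F) ≠ 0 := l.ne_zero
  have h2 := sig_ne hσ h1
  rw [eps_coe]
  simp only [map_mul, map_inv₀, hσ]
  field_simp

/-- The middle conjugation attached to `l`. -/
def AdD (l : Fˣ) : GJ σ →* GJ σ := AdE (eps hσ l) (eps_norm hσ l)

lemma AdD_apply (l : Fˣ) (g : GJ σ) : (AdD hσ l g).1.1 =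
    dMid ((eps hσ l : Fˣ) : F) * g.1.1 * dMid (((eps hσ l)⁻¹ : Fˣ) : F) := rfl

include hσ in
lemma isU_Ad (l : Fˣ) {a b : F} (h : a * σ a + b + σ b = 0) :
    (σ l * (l : F)⁻¹ * a) * σ (σ l * (l : F)⁻¹ * a) + b + σ b = 0 := by
  have h1 : (l : F) ≠ 0 := l.ne_zero
  have h2 := sig_ne hσ h1
  simp only [map_mul, map_inv₀, hσ]
  field_simp
  linear_combination h

lemma AdD_MG (l : Fˣ) {a b : F} (h : a * σ a + b + σ b = 0) :
    AdD hσ l (MG hσ a b h) = MG hσ (σ l * (l : F)⁻¹ * a) b (isU_Ad hσ l h) := by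
  apply GJ_ext
  intro i j
  rw [AdD_apply]
  have h1 : (l : F) ≠ 0 := l.ne_zero
  have h2 := sig_ne hσ h1
  change (dMid ((eps hσ l : Fˣ) : F) * Mm σ a b * dMid (((eps hσ l)⁻¹ : Fˣ) : F)) i j = Mm σ _ _ i j
  have e1 : ((eps hσ l : Fˣ) : F) = σ l * (l : F)⁻¹ := eps_coe hσ l
  have e2 : (((eps hσ l)⁻¹ : Fˣ) : F) = (l : F) * (σ l)⁻¹ := by
    rw [Units.val_inv_eq_inv_val, e1]
    field_simp
  rw [e1, e2]
  fin_cases i <;> fin_cases j <;>
    simp [Matrix.mul_apply, Fin.sum_univ_three, dMid, Mm, map_mul, map_inv₀, hσ] <;> field_simp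

lemma AdD_DU (l d : Fˣ) : AdD hσ l (DU hσ d) = DU hσ d := by
  apply GJ_ext
  intro i j
  rw [AdD_apply]
  have h1 : (l : F) ≠ 0 := l.ne_zero
  have h2 := sig_ne hσ h1
  change (dMid ((eps hσ l : Fˣ) : F) * Dm σ d * dMid (((eps hσ l)⁻¹ : Fˣ) : F)) i j = Dm σ _ i j
  have e1 : ((eps hσ l : Fˣ) : F) = σ l * (l : F)⁻¹ := eps_coe hσ l
  have e2 : (((eps hσ l)⁻¹ : Fˣ) : F) = (l : F) * (σ l)⁻¹ := by
    rw [Units.val_inv_eq_inv_val, e1]
    field_simp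
  rw [e1, e2]
  fin_cases i <;> fin_cases j <;>
    simp [Matrix.mul_apply, Fin.sum_univ_three, dMid, Dm] <;> field_simp

lemma AdD_W (l : Fˣ) {δ : F} (hδ : δ ≠ 0) (hδ' : σ δ = -δ) : AdD hσ l (WG hσ hδ hδ') = WG hσ hδ hδ' := by
  apply GJ_ext
  intro i j
  rw [AdD_apply]
  have h1 : (l : F) ≠ 0 := l.ne_zero
  have h2 := sig_ne hσ h1
  change (dMid ((eps hσ l : Fˣ) : F) * Wm δ * dMid (((eps hσ l)⁻¹ : Fˣ) : F)) i j = Wm δ i j
  have e1 : ((eps hσ l : Fˣ) : F) = σ l * (l : F)⁻¹ := eps_coe hσ l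
  have e2 : (((eps hσ l)⁻¹ : Fˣ) : F) = (l : F) * (σ l)⁻¹ := by
    rw [Units.val_inv_eq_inv_val, e1]
    field_simp
  rw [e1, e2]
  fin_cases i <;> fin_cases j <;>
    simp [Matrix.mul_apply, Fin.sum_univ_three, dMid, Wm] <;> field_simp

lemma AdD_one (g : GJ σ) : AdD hσ 1 g = g := by
  apply GJ_ext
  intro i j
  rw [AdD_apply]
  have e1 : ((eps hσ (1 : Fˣ) : Fˣ) : F) = 1 := by
    rw [eps_coe]
    simp
  have e2 : (((eps hσ (1 : Fˣ))⁻¹ : Fˣ) : F) = 1 := by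
    rw [Units.val_inv_eq_inv_val, e1]
    simp
  rw [e1, e2, dMid_one]
  simp

lemma AdD_mul (l l' : Fˣ) (g : GJ σ) : AdD hσ (l * l') g = AdD hσ l (AdD hσ l' g) := by
  apply GJ_ext
  intro i j
  rw [AdD_apply, AdD_apply, AdD_apply]
  have h1 : (l : F) ≠ 0 := l.ne_zero
  have h2 := sig_ne hσ h1
  have h1' : (l' : F) ≠ 0 := l'.ne_zero
  have h2' := sig_ne hσ h1'
  have e1 : ((eps hσ (l * l') : Fˣ) : F) = ((eps hσ l : Fˣ) : F) * ((eps hσ l' : Fˣ) : F) := by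
    simp only [eps_coe, Units.val_mul, map_mul]
    field_simp
  have e2 : (((eps hσ (l * l'))⁻¹ : Fˣ) : F) = (((eps hσ l')⁻¹ : Fˣ) : F) * (((eps hσ l)⁻¹ : Fˣ) : F) := by
    simp only [Units.val_inv_eq_inv_val, e1]
    rw [mul_inv, mul_comm]
  rw [e1, e2, ← dMid_mul, ← dMid_mul]
  simp only [Matrix.mul_assoc]

lemma AdD_UU (l : Fˣ) {g : GJ σ} (hg : g ∈ UU hσ) : AdD hσ l g ∈ UU hσ := by
  obtain ⟨a, b, h, rfl⟩ := hg
  rw [AdD_MG]
  exact MG_mem_UU hσ _ _ _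

lemma AdD_inv_self (l : Fˣ) (g : GJ σ) : AdD hσ l⁻¹ (AdD hσ l g) = g := by
  rw [← AdD_mul, inv_mul_cancel, AdD_one]

lemma AdD_self_inv (l : Fˣ) (g : GJ σ) : AdD hσ l (AdD hσ l⁻¹ g) = g := by
  rw [← AdD_mul, mul_inv_cancel, AdD_one]

end Adm

section RI

variable {δ : F} (hδ : δ ≠ 0) (hδ' : σ δ = -δ)

/-- The big cell identity. -/
lemma W_ri {g : GJ σ} (hg : g ∈ UU hσ) (hne : g ≠ 1) :
    ∃ m₁ ∈ UU hσ, ∃ d : Fˣ, ∃ m₂ ∈ UU hσ, WG hσ hδ hδ' * g = m₁ * (WG hσ hδ hδ' * DU hσ d * m₂ * WG hσ hδ hδ') := by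
  obtain ⟨a, b, h, rfl⟩ := hg
  have hb : b ≠ 0 := by
    rintro rfl
    apply hne
    have ha : a = 0 := by
      have h3 : a * σ a = 0 := by simpa using h
      rcases mul_eq_zero.1 h3 with h4 | h4
      · exact h4
      · have := congrArg σ h4
        rwa [hσ, map_zero] at this
    subst ha
    exact MG_zero hσ
  have key := WG_MG hσ hδ hδ' h hb
  obtain ⟨e, he⟩ := WG_inv_DU hσ hδ hδ' (Units.mk0 (δ / σ b) (d_ne hσ hδ hδ' hb))
  have mem1 := MG_mem_UU hσ _ _ (isU_fa hσ hδ' h hb)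
  have mem2 := MG_mem_UU hσ _ _ (isU_ga hσ hδ' h hb)
  generalize MG hσ (-(a * δ / b)) (-(δ ^ 2 / b)) (isU_fa hσ hδ' h hb) = m₁ at key mem1
  generalize MG hσ (a * δ / σ b) (-(δ ^ 2 / b)) (isU_ga hσ hδ' h hb) = m₂ at key mem2
  generalize DU hσ (Units.mk0 (δ / σ b) (d_ne hσ hδ hδ' hb)) = D at key he
  have hinv := WG_inv hσ hδ hδ'
  generalize WG hσ hδ hδ' = W at *
  refine ⟨m₁, mem1, e * (-1), _, DU_UU hσ (-1)⁻¹ mem2, ?_⟩
  have e1 : D * W = W * DU hσ e := by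
    rw [← he]
    group
  have e2 : W * MG hσ a b h = m₁ * D * W * m₂ * W⁻¹ := by
    rw [← key]
    group
  rw [e2, hinv, map_mul]
  have hmm : DU hσ (-1 : Fˣ)⁻¹ = (DU hσ (-1 : Fˣ))⁻¹ := map_inv _ _
  calc m₁ * D * W * m₂ * (DU hσ (-1) * W) = m₁ * (D * W) * m₂ * (DU hσ (-1) * W) := by group
    _ = m₁ * (W * DU hσ e) * m₂ * (DU hσ (-1) * W) := by rw [e1]
    _ = _ := by
      rw [hmm]
      group

end RI

end Cfsg.Agent.Lib.PrsSU
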