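import Mathlib
import Cfsg.Agent.Lib.PrsSUD

/-!
# Presentations of special unitary groups: the odd dimensional configuration
-/

set_option autoImplicit false
set_option linter.unusedSectionVars false
set_option linter.unusedVariables false

namespace Cfsg.Agent.Lib.PrsSU

open Subgroup Sum Cfsg.Agent.Lib.SUWitt Cfsg.Agent.Lib.PrsU3
open scoped commutatorElement

section Gen

variable {G Γ' : Type*} [Group G] [Group Γ']

/-- A multiplicative map to a commutative set kills commutators. -/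
lemma hom_cm (S : Subgroup G) (f : G → Γ') (hm : ∀ a ∈ S, ∀ b ∈ S, f (a * b) = f a * f b)
    (hc : ∀ a ∈ S, ∀ b ∈ S, Commute (f a) (f b)) {a b : G} (ha : a ∈ S) (hb : b ∈ S) : f ⁅a, b⁆ = 1 := by
  have h1 : f 1 = 1 := by
    have := hm 1 (one_mem _) 1 (one_mem _)
    rw [mul_one] at this
    exact mul_eq_left.1 this.symm
  have hinv : ∀ a ∈ S, f a⁻¹ = (f a)⁻¹ := by
    intro a ha
    have := hm a ha a⁻¹ (inv_mem ha)
    rw [mul_inv_cancel, h1] at this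
    exact eq_inv_of_mul_eq_one_right this.symm
  rw [commutatorElement_def, hm _ (mul_mem (mul_mem ha hb) (inv_mem ha)) _ (inv_mem hb),
    hm _ (mul_mem ha hb) _ (inv_mem ha), hm _ ha _ hb, hinv _ ha, hinv _ hb, (hc a ha b hb).eq]
  group

end Gen

section Defs

variable {F : Type*} [Field F] {σ : F →+* F} (hσ : ∀ x, σ (σ x) = x) {δ : F} (hδ : δ ≠ 0) (hδ' : σ δ = -δ) {b₀ : F}
  (hb₀ : (1 : F) * σ 1 + b₀ + σ b₀ = 0) {Γ : Type*} [Group Γ] {m : ℕ} (κ : Fin m → GJ σ →* Γ)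

/-- The short root element. -/
def xbK (i j : Fin m) : Γ := ⁅κ i (MG hσ 1 b₀ hb₀), κ j (MG hσ 1 b₀ hb₀)⁆

/-- Its conjugates. -/
def YK (i j : Fin m) (c : Fˣ) : Γ := κ j (DU hσ c) * xbK hσ hb₀ κ i j * (κ j (DU hσ c))⁻¹

/-- The other short root element. -/
def xaK (i j : Fin m) : Γ :=
  κ j (WG hσ hδ hδ') * xbK hσ hb₀ κ i j * (κ j (WG hσ hδ hδ'))⁻¹

end Defs

/-- The configuration in the odd dimensional case. -/
structure OCfg (Γ : Type*) [Group Γ] {F : Type*} [Field F] {σ : F →+* F} (hσ : ∀ x, σ (σ x) = x) {δ : F} (hδ : δ ≠ 0)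
    (hδ' : σ δ = -δ) {b₀ : F} (hb₀ : (1 : F) * σ 1 + b₀ + σ b₀ = 0) (m' : ℕ) where
  ρ : Equiv.Perm (Fin (m' + 1)) →* Γ
  κ : Fin (m' + 1) → GJ σ →* Γ
  ρκ : ∀ τ i g, ρ τ * κ i g * (ρ τ)⁻¹ = κ (τ i) g
  wκ : ∀ i j, i ≠ j → ∀ g, Commute (κ i (WG hσ hδ hδ')) (κ j g)
  tκ : ∀ i j, i ≠ j → ∀ l g, κ i (DU hσ l) * κ j g * (κ i (DU hσ l))⁻¹ = κ j (AdD hσ l g)
  c4 : ∀ i j, i ≠ j → Commute (xbK hσ hb₀ κ i j) (κ j (MG hσ 1 b₀ hb₀))
  c5 : ∀ i j, i ≠ j → ∀ l, Commute (κ i (DU hσ l) * κ j (DU hσ (sU hσ l)⁻¹)) (xbK hσ hb₀ κ i j)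
  c6 : ∀ i j k, i ≠ j → k ≠ i → k ≠ j → ∀ g, Commute (xbK hσ hb₀ κ i j) (κ k g)
  hY : ∃ ν₀ d₀, ∃ h : ν₀ * σ ν₀ + d₀ + σ d₀ = 0, σ ν₀ ≠ ν₀ ∧ ∀ i j, i ≠ j →
    Commute (xbK hσ hb₀ κ i j) (κ j (MG hσ ν₀ d₀ h))
  pt2 : ∀ i j, i ≠ j → ∀ c : Fˣ, ∃ d, ∃ h : (c : F) * σ c + d + σ d = 0,
    ⁅κ i (MG hσ c d h), κ j (MG hσ 1 b₀ hb₀)⁆ = YK hσ hb₀ κ i j c
  c7 : ∀ i j, i ≠ j → ∃ r ∈ (UU hσ).map (κ i), ∃ c : Fˣ,
    ⁅κ j (MG hσ 1 b₀ hb₀), xaK hσ hδ hδ' hb₀ κ i j⁆ = r * YK hσ hb₀ κ i j c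
  hZ : ∃ ν₁ d₁, ∃ h : ν₁ * σ ν₁ + d₁ + σ d₁ = 0, σ ν₁ ≠ ν₁ ∧ ∀ i j, i ≠ j → ∃ r ∈ (UU hσ).map (κ i), ∃ c : Fˣ,
    ⁅κ j (MG hσ ν₁ d₁ h), xaK hσ hδ hδ' hb₀ κ i j⁆ = r * YK hσ hb₀ κ i j c
  c8 : ∀ i j, i ≠ j → ∃ l t : Fˣ, ρ (Equiv.swap i j) * xaK hσ hδ hδ' hb₀ κ i j =
    (κ j (DU hσ l) * xaK hσ hδ hδ' hb₀ κ i j * (κ j (DU hσ l))⁻¹) *
      (ρ (Equiv.swap i j) * (κ i (DU hσ t) * κ j (DU hσ (-t⁻¹))) *
        (κ j (DU hσ l) * xaK hσ hδ hδ' hb₀ κ i j * (κ j (DU hσ l))⁻¹) * ρ (Equiv.swap i j))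
  gen : closure (Set.range ρ ∪ Set.range (κ 0)) = ⊤

namespace OCfg

variable {F : Type*} [Field F] {σ : F →+* F} {hσ : ∀ x, σ (σ x) = x} {δ : F} {hδ : δ ≠ 0} {hδ' : σ δ = -δ} {b₀ : F}
  {hb₀ : (1 : F) * σ 1 + b₀ + σ b₀ = 0} {Γ : Type*} [Group Γ] {m' : ℕ} (C : OCfg Γ hσ hδ hδ' hb₀ m')

/-- Torus elements. -/
abbrev t (i : Fin (m' + 1)) (l : Fˣ) : Γ := C.κ i (DU hσ l)

/-- Weyl elements. -/
abbrev w (i : Fin (m' + 1)) : Γ := C.κ i (WG hσ hδ hδ')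

/-- The standard root element. -/
abbrev y (i : Fin (m' + 1)) : Γ := C.κ i (MG hσ 1 b₀ hb₀)

/-- The short root element. -/
abbrev xb (i j : Fin (m' + 1)) : Γ := xbK hσ hb₀ C.κ i j

/-- The short root elements. -/
abbrev Y (i j : Fin (m' + 1)) (c : Fˣ) : Γ := YK hσ hb₀ C.κ i j c

/-- The other short root element. -/
abbrev xa (i j : Fin (m' + 1)) : Γ := xaK hσ hδ hδ' hb₀ C.κ i j

/-- The positive block. -/
abbrev Mp (i : Fin (m' + 1)) : Subgroup Γ := (UU hσ).map (C.κ i)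

lemma mem_Mp {i : Fin (m' + 1)} {u : Γ} : u ∈ C.Mp i ↔ ∃ g ∈ UU hσ, C.κ i g = u := Iff.rfl

lemma κ_MG_mem (i : Fin (m' + 1)) (a b : F) (h : a * σ a + b + σ b = 0) : C.κ i (MG hσ a b h) ∈ C.Mp i :=
  ⟨_, MG_mem_UU hσ a b h, rfl⟩

lemma t_mul (i : Fin (m' + 1)) (l l' : Fˣ) : C.t i (l * l') = C.t i l * C.t i l' := by
  simp [t]

lemma t_inv (i : Fin (m' + 1)) (l : Fˣ) : C.t i l⁻¹ = (C.t i l)⁻¹ := by
  simp [t]

lemma t_one (i : Fin (m' + 1)) : C.t i 1 = 1 := by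
  simp [t]

lemma t_comm (i j : Fin (m' + 1)) (l l' : Fˣ) : Commute (C.t i l) (C.t j l') := by
  by_cases e : i = j
  · subst e
    show C.t i l * C.t i l' = C.t i l' * C.t i l
    rw [← t_mul, ← t_mul, mul_comm]
  · have h := C.tκ i j e l (DU hσ l')
    rw [AdD_DU] at h
    exact mul_inv_eq_iff_eq_mul.1 h

lemma t_κ_same (i : Fin (m' + 1)) (l : Fˣ) {a b : F} (h : a * σ a + b + σ b = 0) :
    C.t i l * C.κ i (MG hσ a b h) * (C.t i l)⁻¹ =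
      C.κ i (MG hσ (σ l * σ l * (l : F)⁻¹ * a) (l * σ l * b) (isU_conj hσ l.ne_zero h)) := by
  rw [← DU_MG hσ l h]
  simp only [t, map_mul, map_inv]

lemma t_κ_ne {i j : Fin (m' + 1)} (hij : i ≠ j) (l : Fˣ) {a b : F} (h : a * σ a + b + σ b = 0) :
    C.t i l * C.κ j (MG hσ a b h) * (C.t i l)⁻¹ = C.κ j (MG hσ (σ l * (l : F)⁻¹ * a) b (isU_Ad hσ l h)) := by
  rw [C.tκ i j hij, AdD_MG]

lemma t_Mp (k j : Fin (m' + 1)) (l : Fˣ) {u : Γ} (hu : u ∈ C.Mp j) : C.t k l * u * (C.t k l)⁻¹ ∈ C.Mp j := by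
  obtain ⟨g, ⟨a, b, h, rfl⟩, rfl⟩ := hu
  by_cases e : k = j
  · subst e
    rw [t_κ_same]
    exact C.κ_MG_mem _ _ _ _
  · rw [t_κ_ne _ e]
    exact C.κ_MG_mem _ _ _ _

lemma conj_prod (a b x : Γ) : (a * b) * x * (a * b)⁻¹ = a * (b * x * b⁻¹) * a⁻¹ := by group

lemma conj_inv_eq {a x z : Γ} (h : a * x * a⁻¹ = z) : a⁻¹ * z * a = x := by
  rw [← h]
  group

/-- The torus on the short root element. -/
lemma t_xb {i j : Fin (m' + 1)} (hij : i ≠ j) (l : Fˣ) : C.t i l * C.xb i j * (C.t i l)⁻¹ = C.Y i j (sU hσ l) := by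
  have h := C.c5 i j hij l
  have e : C.t i l = C.t j (sU hσ l) * (C.t i l * C.t j (sU hσ l)⁻¹) := by
    rw [t_inv]
    have := (C.t_comm i j l (sU hσ l)).eq
    calc C.t i l = C.t i l * C.t j (sU hσ l) * (C.t j (sU hσ l))⁻¹ := by group
      _ = _ := by rw [this]; group
  rw [e, conj_prod, Commute.conj_eq h]
  rfl

lemma Y_def (i j : Fin (m' + 1)) (c : Fˣ) : C.Y i j c = C.t j c * C.xb i j * (C.t j c)⁻¹ := rfl

lemma Y_one (i j : Fin (m' + 1)) : C.Y i j 1 = C.xb i j := by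
  rw [Y_def, t_one]
  simp

lemma t_Y_j (i j : Fin (m' + 1)) (l c : Fˣ) : C.t j l * C.Y i j c * (C.t j l)⁻¹ = C.Y i j (l * c) := by
  rw [Y_def, Y_def, t_mul, conj_prod]

lemma t_Y_i {i j : Fin (m' + 1)} (hij : i ≠ j) (l c : Fˣ) :
    C.t i l * C.Y i j c * (C.t i l)⁻¹ = C.Y i j (sU hσ l * c) := by
  rw [mul_comm, ← t_Y_j, ← t_xb C hij, Y_def]
  have := (C.t_comm i j l c).eq
  calc C.t i l * (C.t j c * C.xb i j * (C.t j c)⁻¹) * (C.t i l)⁻¹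
      = (C.t i l * C.t j c) * C.xb i j * (C.t i l * C.t j c)⁻¹ := by group
    _ = (C.t j c * C.t i l) * C.xb i j * (C.t j c * C.t i l)⁻¹ := by rw [this]
    _ = _ := by group

lemma t_Y_k {i j k : Fin (m' + 1)} (hij : i ≠ j) (hki : k ≠ i) (hkj : k ≠ j) (l c : Fˣ) :
    C.t k l * C.Y i j c * (C.t k l)⁻¹ = C.Y i j c := by
  rw [Y_def, ← conj_prod, (C.t_comm k j l c).eq, conj_prod, Commute.conj_eq (C.c6 i j k hij hki hkj _).symm]


/-- Two torus elements on a block. -/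
lemma tt_κ {i j : Fin (m' + 1)} (hij : i ≠ j) (l r : Fˣ) {x y : F} (h : x * σ x + y + σ y = 0) :
    (C.t i l * C.t j r) * C.κ j (MG hσ x y h) * (C.t i l * C.t j r)⁻¹ =
      C.κ j (MG hσ (σ l * (l : F)⁻¹ * (σ r * σ r * (r : F)⁻¹ * x)) (r * σ r * y)
        (isU_Ad hσ l (isU_conj hσ r.ne_zero h))) := by
  rw [conj_prod, t_κ_same, t_κ_ne C hij]

lemma tt_κ' {i j : Fin (m' + 1)} (hij : i ≠ j) (l r : Fˣ) {x y : F} (h : x * σ x + y + σ y = 0) :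
    (C.t i l * C.t j r) * C.κ i (MG hσ x y h) * (C.t i l * C.t j r)⁻¹ =
      C.κ i (MG hσ (σ r * (r : F)⁻¹ * (σ l * σ l * (l : F)⁻¹ * x)) (l * σ l * y)
        (isU_Ad hσ r (isU_conj hσ l.ne_zero h))) := by
  rw [(C.t_comm i j l r).eq, conj_prod, t_κ_same, t_κ_ne C hij.symm]

/-- The subgroup of elements commuting with `z` under `f`. -/
def cmH (f : GJ σ →* Γ) (z : Γ) : Subgroup (GJ σ) where
  carrier := {g | Commute z (f g)}
  mul_mem' {a b} ha hb := by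
    show Commute z (f (a * b))
    rw [map_mul]
    exact Commute.mul_right ha hb
  one_mem' := by
    show Commute z (f 1)
    rw [map_one]
    exact Commute.one_right z
  inv_mem' {a} ha := by
    show Commute z (f a⁻¹)
    rw [map_inv]
    exact Commute.inv_right ha

lemma mem_cmH {f : GJ σ →* Γ} {z : Γ} {g : GJ σ} : g ∈ cmH f z ↔ Commute z (f g) := Iff.rfl

section Derive

variable (hI : Invol σ)
include hI

/-- The torus stabiliser of the short root element acts by scalars of the fixed field. -/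
lemma K_act {i j : Fin (m' + 1)} (hij : i ≠ j) {a : F} (ha : σ a = a) (ha0 : a ≠ 0) {x y : F}
    (h : x * σ x + y + σ y = 0) : ∃ y', ∃ h' : (a * x) * σ (a * x) + y' + σ y' = 0,
      (C.t i (Units.mk0 a ha0)⁻¹ * C.t j (sU hσ (Units.mk0 a ha0)⁻¹)⁻¹) * C.κ j (MG hσ x y h) *
        (C.t i (Units.mk0 a ha0)⁻¹ * C.t j (sU hσ (Units.mk0 a ha0)⁻¹)⁻¹)⁻¹ = C.κ j (MG hσ (a * x) y' h') := by
  rw [tt_κ C hij]
  have e : (σ ((Units.mk0 a ha0)⁻¹ : Fˣ) * (((Units.mk0 a ha0)⁻¹ : Fˣ) : F)⁻¹ *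
      (σ (((sU hσ (Units.mk0 a ha0)⁻¹)⁻¹ : Fˣ) : F) * σ (((sU hσ (Units.mk0 a ha0)⁻¹)⁻¹ : Fˣ) : F) *
        (((sU hσ (Units.mk0 a ha0)⁻¹)⁻¹ : Fˣ) : F)⁻¹ * x)) = a * x := by
    simp only [Units.val_inv_eq_inv_val, sU_coe, Units.val_mk0, map_inv₀, ha, inv_inv]
    field_simp
  obtain ⟨h', e'⟩ := MG_cast hσ (isU_Ad hσ _ (isU_conj hσ (Units.ne_zero _) h)) e rfl
  exact ⟨_, h', by rw [e']⟩

/-- The short root element commutes with the second block. -/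
lemma xb_comm_j {i j : Fin (m' + 1)} (hij : i ≠ j) {g : GJ σ} (hg : g ∈ UU hσ) : Commute (C.xb i j) (C.κ j g) := by
  obtain ⟨ν₀, d₀, hν, hσν, hνc⟩ := C.hY
  have hle : UU hσ ≤ cmH (C.κ j) (C.xb i j) := by
    refine UU_le_of hI hδ hδ' _ (U_of_K hI _ hb₀ hν hσν (C.c4 i j hij) (hνc i j hij) ?_)
    intro a ha ha0 x y h hm
    obtain ⟨y', h', e⟩ := C.K_act hI hij ha ha0 h
    refine ⟨y', h', ?_⟩
    rw [mem_cmH, ← e]
    have hc := C.c5 i j hij (Units.mk0 a ha0)⁻¹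
    have := conj_comm (g := C.t i (Units.mk0 a ha0)⁻¹ * C.t j (sU hσ (Units.mk0 a ha0)⁻¹)⁻¹) (mem_cmH.1 hm)
    rwa [Commute.conj_eq hc] at this
  exact hle hg

/-- The short root element commutes with the first block. -/
lemma xb_comm_i {i j : Fin (m' + 1)} (hij : i ≠ j) {g : GJ σ} (hg : g ∈ UU hσ) : Commute (C.xb i j) (C.κ i g) := by
  have := C.xb_comm_j hI hij.symm hg
  have e : C.xb j i = (C.xb i j)⁻¹ := by
    simp only [xb, xbK]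
    rw [cm_inv]
  rw [e] at this
  have := this.inv_left
  simpa using this

/-- Conjugates commute with the blocks. -/
lemma Y_comm_i {i j : Fin (m' + 1)} (hij : i ≠ j) (c : Fˣ) {u : Γ} (hu : u ∈ C.Mp i) : Commute (C.Y i j c) u := by
  have h1 : (C.t j c)⁻¹ * u * (C.t j c) ∈ C.Mp i := by
    have := C.t_Mp j i c⁻¹ hu
    rw [t_inv] at this
    simpa using this
  obtain ⟨g, hg, e⟩ := h1
  have h2 := C.xb_comm_i hI hij hg
  rw [e] at h2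
  have h3 := conj_comm (g := C.t j c) h2
  have e2 : C.t j c * ((C.t j c)⁻¹ * u * C.t j c) * (C.t j c)⁻¹ = u := by group
  rwa [e2] at h3

lemma Y_comm_j {i j : Fin (m' + 1)} (hij : i ≠ j) (c : Fˣ) {u : Γ} (hu : u ∈ C.Mp j) : Commute (C.Y i j c) u := by
  have h1 : (C.t j c)⁻¹ * u * (C.t j c) ∈ C.Mp j := by
    have := C.t_Mp j j c⁻¹ hu
    rw [t_inv] at this
    simpa using this
  obtain ⟨g, hg, e⟩ := h1
  have h2 := C.xb_comm_j hI hij hg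
  rw [e] at h2
  have h3 := conj_comm (g := C.t j c) h2
  have e2 : C.t j c * ((C.t j c)⁻¹ * u * C.t j c) * (C.t j c)⁻¹ = u := by group
  rwa [e2] at h3

omit hI in
/-- The short root elements lie in the group generated by the two blocks. -/
lemma Y_mem_sup {i j : Fin (m' + 1)} (c : Fˣ) :
    C.Y i j c ∈ closure ((C.Mp i : Set Γ) ∪ C.Mp j) := by
  have hi : C.t j c * C.y i * (C.t j c)⁻¹ ∈ C.Mp i := C.t_Mp j i c (C.κ_MG_mem _ _ _ _)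
  have hj : C.t j c * C.y j * (C.t j c)⁻¹ ∈ C.Mp j := C.t_Mp j j c (C.κ_MG_mem _ _ _ _)
  have e : C.Y i j c = ⁅C.t j c * C.y i * (C.t j c)⁻¹, C.t j c * C.y j * (C.t j c)⁻¹⁆ := by
    rw [← conj_cm]
    rfl
  rw [e, commutatorElement_def]
  have h1 : C.t j c * C.y i * (C.t j c)⁻¹ ∈ closure ((C.Mp i : Set Γ) ∪ C.Mp j) := subset_closure (Or.inl hi)
  have h2 : C.t j c * C.y j * (C.t j c)⁻¹ ∈ closure ((C.Mp i : Set Γ) ∪ C.Mp j) := subset_closure (Or.inr hj)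
  exact mul_mem (mul_mem (mul_mem h1 h2) (inv_mem h1)) (inv_mem h2)

/-- The short root elements commute with each other. -/
lemma Y_comm_Y {i j : Fin (m' + 1)} (hij : i ≠ j) (c c' : Fˣ) : Commute (C.Y i j c) (C.Y i j c') := by
  refine commute_closure _ ?_ (C.Y_mem_sup c')
  rintro z (hz | hz)
  · exact C.Y_comm_i hI hij c hz
  · exact C.Y_comm_j hI hij c hz

omit hI in
/-- The group of the short root elements. -/
def A0 (i j : Fin (m' + 1)) : Subgroup Γ := closure (Set.range (C.Y i j))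

lemma A0_comm_i {i j : Fin (m' + 1)} (hij : i ≠ j) {x u : Γ} (hx : x ∈ C.A0 i j) (hu : u ∈ C.Mp i) : Commute x u := by
  apply Commute.symm
  refine commute_closure _ ?_ hx
  rintro _ ⟨c, rfl⟩
  exact (C.Y_comm_i hI hij c hu).symm

lemma A0_comm_j {i j : Fin (m' + 1)} (hij : i ≠ j) {x u : Γ} (hx : x ∈ C.A0 i j) (hu : u ∈ C.Mp j) : Commute x u := by
  apply Commute.symm
  refine commute_closure _ ?_ hx
  rintro _ ⟨c, rfl⟩
  exact (C.Y_comm_j hI hij c hu).symm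

lemma A0_comm {i j : Fin (m' + 1)} (hij : i ≠ j) {x x' : Γ} (hx : x ∈ C.A0 i j) (hx' : x' ∈ C.A0 i j) : Commute x x' := by
  refine commute_closure₂ ?_ hx hx'
  rintro _ ⟨c, rfl⟩ _ ⟨c', rfl⟩
  exact C.Y_comm_Y hI hij c c'

lemma A0_t {i j : Fin (m' + 1)} (hij : i ≠ j) (k : Fin (m' + 1)) (l : Fˣ) {x : Γ} (hx : x ∈ C.A0 i j) :
    C.t k l * x * (C.t k l)⁻¹ ∈ C.A0 i j := by
  refine conj_closure_mem _ ?_ hx
  rintro _ ⟨c, rfl⟩
  by_cases h1 : k = j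
  · subst h1
    rw [t_Y_j]
    exact subset_closure ⟨_, rfl⟩
  by_cases h2 : k = i
  · subst h2
    rw [t_Y_i C hij]
    exact subset_closure ⟨_, rfl⟩
  rw [t_Y_k C hij h2 h1]
  exact subset_closure ⟨_, rfl⟩

/-- The first commutator subgroup. -/
def H₁ {i j : Fin (m' + 1)} (hij : i ≠ j) : Subgroup (GJ σ) where
  carrier := {g | g ∈ UU hσ ∧ ⁅C.κ i g, C.y j⁆ ∈ C.A0 i j}
  mul_mem' := by
    rintro a b ⟨ha, ha'⟩ ⟨hb, hb'⟩
    refine ⟨mul_mem ha hb, ?_⟩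
    rw [map_mul, cm_mul_left, Commute.conj_eq (C.A0_comm_i hI hij hb' ⟨a, ha, rfl⟩).symm]
    exact mul_mem hb' ha'
  one_mem' := by
    refine ⟨one_mem _, ?_⟩
    rw [map_one, commutatorElement_one_left]
    exact one_mem _
  inv_mem' := by
    rintro a ⟨ha, ha'⟩
    refine ⟨inv_mem ha, ?_⟩
    have e : ⁅C.κ i a⁻¹, C.y j⁆ = (C.κ i a)⁻¹ * ⁅C.κ i a, C.y j⁆⁻¹ * C.κ i a := by
      rw [map_inv]
      simp only [commutatorElement_def]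
      group
    have hc := C.A0_comm_i hI hij (inv_mem ha') (show C.κ i a⁻¹ ∈ C.Mp i from ⟨a⁻¹, inv_mem ha, rfl⟩)
    rw [e]
    have e2 : (C.κ i a)⁻¹ * ⁅C.κ i a, C.y j⁆⁻¹ * C.κ i a = ⁅C.κ i a, C.y j⁆⁻¹ := by
      rw [map_inv] at hc
      have := Commute.conj_eq hc.symm
      simpa using this
    rw [e2]
    exact inv_mem ha'

lemma f1_mem {i j : Fin (m' + 1)} (hij : i ≠ j) {g : GJ σ} (hg : g ∈ UU hσ) : ⁅C.κ i g, C.y j⁆ ∈ C.A0 i j := by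
  have hle : UU hσ ≤ C.H₁ hI hij := by
    refine UU_le_of hI hδ hδ' _ ?_
    intro x
    by_cases h0 : x = 0
    · subst h0
      refine ⟨0, isU_zero, ?_⟩
      rw [MG_zero]
      exact one_mem _
    · obtain ⟨d, h, e⟩ := C.pt2 i j hij (Units.mk0 x h0)
      refine ⟨d, h, MG_mem_UU hσ _ _ _, ?_⟩
      change ⁅C.κ i (MG hσ x d h), C.y j⁆ ∈ _
      have e' : ⁅C.κ i (MG hσ x d h), C.y j⁆ = C.Y i j (Units.mk0 x h0) := e
      rw [e']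
      exact subset_closure ⟨_, rfl⟩
  exact (hle hg).2

lemma f1_mul {i j : Fin (m' + 1)} (hij : i ≠ j) {g g' : GJ σ} (hg : g ∈ UU hσ) (hg' : g' ∈ UU hσ) :
    ⁅C.κ i (g * g'), C.y j⁆ = ⁅C.κ i g, C.y j⁆ * ⁅C.κ i g', C.y j⁆ := by
  rw [map_mul, cm_mul_left, Commute.conj_eq (C.A0_comm_i hI hij (C.f1_mem hI hij hg') ⟨g, hg, rfl⟩).symm]
  exact (C.A0_comm hI hij (C.f1_mem hI hij hg') (C.f1_mem hI hij hg)).eq

lemma f1_Z {i j : Fin (m' + 1)} (hij : i ≠ j) {z : F} (hz : (0 : F) * σ 0 + z + σ z = 0) :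
    ⁅C.κ i (MG hσ 0 z hz), C.y j⁆ = 1 := by
  obtain ⟨a, b, h, c, d, h', e⟩ := Z_is_comm hI hδ hδ' hz
  have e' : MG hσ 0 z hz = ⁅MG hσ a b h, MG hσ c d h'⁆ := e
  rw [e']
  exact hom_cm (UU hσ) (fun g => ⁅C.κ i g, C.y j⁆) (fun _ ha _ hb => C.f1_mul hI hij ha hb)
    (fun _ ha _ hb => C.A0_comm hI hij (C.f1_mem hI hij ha) (C.f1_mem hI hij hb))
    (MG_mem_UU hσ _ _ _) (MG_mem_UU hσ _ _ _)

omit hI in
/-- The additive parametrisation. -/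
noncomputable def Yf (i j : Fin (m' + 1)) (c : F) : Γ := by
  classical
  exact if h : c = 0 then 1 else C.Y i j (Units.mk0 c h)

omit hI in
lemma Yf_zero (i j : Fin (m' + 1)) : C.Yf i j 0 = 1 := by
  classical
  simp [Yf]

omit hI in
lemma Yf_unit (i j : Fin (m' + 1)) (c : Fˣ) : C.Yf i j c = C.Y i j c := by
  classical
  unfold Yf
  rw [dif_neg c.ne_zero]
  congr 1
  ext
  rfl

omit hI in
lemma Yf_ne (i j : Fin (m' + 1)) {c : F} (h : c ≠ 0) : C.Yf i j c = C.Y i j (Units.mk0 c h) := by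
  rw [← Yf_unit]
  rfl

omit hI in
lemma isU_sub {a b y : F} (h : a * σ a + b + σ b = 0) (hy : a * σ a + y + σ y = 0) :
    (0 : F) * σ 0 + (b - y) + σ (b - y) = 0 := by
  simp only [map_sub, map_zero, mul_zero, zero_add]
  linear_combination h - hy

omit hI in
lemma MG_split {a b y : F} (h : a * σ a + b + σ b = 0) (hy : a * σ a + y + σ y = 0) :
    MG hσ a b h = MG hσ a y hy * MG hσ 0 (b - y) (isU_sub h hy) := by
  rw [MG_mul hσ hy]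
  apply MG_congr
  · ring
  · ring

/-- The value of the commutator with the standard element. -/
lemma f1_val {i j : Fin (m' + 1)} (hij : i ≠ j) {c d : F} (h : c * σ c + d + σ d = 0) :
    ⁅C.κ i (MG hσ c d h), C.y j⁆ = C.Yf i j c := by
  by_cases h0 : c = 0
  · subst h0
    rw [Yf_zero]
    exact C.f1_Z hI hij h
  · obtain ⟨d₁, h₁0, e⟩ := C.pt2 i j hij (Units.mk0 c h0)
    have h₁ : c * σ c + d₁ + σ d₁ = 0 := h₁0
    have e' : ⁅C.κ i (MG hσ c d₁ h₁), C.y j⁆ = C.Y i j (Units.mk0 c h0) := e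
    rw [MG_split (hσ := hσ) h h₁, C.f1_mul hI hij (MG_mem_UU hσ _ _ _) (MG_mem_UU hσ _ _ _), e', C.f1_Z hI hij, mul_one,
      Yf_ne C i j h0]

lemma Yf_add {i j : Fin (m' + 1)} (hij : i ≠ j) (c c' : F) : C.Yf i j (c + c') = C.Yf i j c * C.Yf i j c' := by
  obtain ⟨d, h⟩ := exists_MG hI c
  obtain ⟨d', h'⟩ := exists_MG hI c'
  rw [← C.f1_val hI hij h, ← C.f1_val hI hij h', ← C.f1_mul hI hij (MG_mem_UU hσ _ _ _) (MG_mem_UU hσ _ _ _), MG_mul hσ h h',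
    C.f1_val hI hij]

lemma Yf_mem_A0 {i j : Fin (m' + 1)} (hij : i ≠ j) (c : F) : C.Yf i j c ∈ C.A0 i j := by
  by_cases h : c = 0
  · subst h
    rw [Yf_zero]
    exact one_mem _
  · rw [Yf_ne C i j h]
    exact subset_closure ⟨_, rfl⟩

omit hI in
lemma t_Yf_j {i j : Fin (m' + 1)} (l : Fˣ) (c : F) : C.t j l * C.Yf i j c * (C.t j l)⁻¹ = C.Yf i j (l * c) := by
  by_cases h : c = 0
  · subst h
    rw [Yf_zero, mul_zero, Yf_zero]
    group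
  · rw [Yf_ne C i j h, t_Y_j]
    have e : (l : F) * c = ((l * Units.mk0 c h : Fˣ) : F) := rfl
    rw [e, Yf_unit]

omit hI in
lemma t_Yf_i {i j : Fin (m' + 1)} (hij : i ≠ j) (l : Fˣ) (c : F) :
    C.t i l * C.Yf i j c * (C.t i l)⁻¹ = C.Yf i j (σ l * c) := by
  by_cases h : c = 0
  · subst h
    rw [Yf_zero, mul_zero, Yf_zero]
    group
  · rw [Yf_ne C i j h, t_Y_i C hij]
    have e : σ (l : F) * c = ((sU hσ l * Units.mk0 c h : Fˣ) : F) := rfl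
    rw [e, Yf_unit]

omit hI in
lemma t_Yf_k {i j k : Fin (m' + 1)} (hij : i ≠ j) (hki : k ≠ i) (hkj : k ≠ j) (l : Fˣ) (c : F) :
    C.t k l * C.Yf i j c * (C.t k l)⁻¹ = C.Yf i j c := by
  by_cases h : c = 0
  · subst h
    rw [Yf_zero]
    group
  · rw [Yf_ne C i j h, t_Y_k C hij hki hkj]

/-- The second commutator subgroup. -/
def H₂ {i j : Fin (m' + 1)} (hij : i ≠ j) : Subgroup (GJ σ) where
  carrier := {g | g ∈ UU hσ ∧ ∀ u ∈ UU hσ, ⁅C.κ i u, C.κ j g⁆ ∈ C.A0 i j}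
  mul_mem' := by
    rintro a b ⟨ha, ha'⟩ ⟨hb, hb'⟩
    refine ⟨mul_mem ha hb, fun u hu => ?_⟩
    rw [map_mul, cm_mul_right, Commute.conj_eq (C.A0_comm_j hI hij (hb' u hu) ⟨a, ha, rfl⟩).symm]
    exact mul_mem (ha' u hu) (hb' u hu)
  one_mem' := by
    refine ⟨one_mem _, fun u hu => ?_⟩
    rw [map_one, commutatorElement_one_right]
    exact one_mem _
  inv_mem' := by
    rintro a ⟨ha, ha'⟩
    refine ⟨inv_mem ha, fun u hu => ?_⟩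
    have e : ⁅C.κ i u, C.κ j a⁻¹⁆ = (C.κ j a)⁻¹ * ⁅C.κ i u, C.κ j a⁆⁻¹ * C.κ j a := by
      rw [map_inv]
      simp only [commutatorElement_def]
      group
    have hc := C.A0_comm_j hI hij (inv_mem (ha' u hu)) (show C.κ j a⁻¹ ∈ C.Mp j from ⟨a⁻¹, inv_mem ha, rfl⟩)
    rw [e]
    have e2 : (C.κ j a)⁻¹ * ⁅C.κ i u, C.κ j a⁆⁻¹ * C.κ j a = ⁅C.κ i u, C.κ j a⁆⁻¹ := by
      rw [map_inv] at hc
      have := Commute.conj_eq hc.symm
      simpa using this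
    rw [e2]
    exact inv_mem (ha' u hu)

/-- The torus element used to move the second coordinate. -/
lemma orbit_y {i j : Fin (m' + 1)} (hij : i ≠ j) (l : Fˣ) :
    ∃ B, ∃ hB : (σ l : F) * σ (σ l) + B + σ B = 0,
      (C.t i l⁻¹ * C.t j l) * C.y j * (C.t i l⁻¹ * C.t j l)⁻¹ = C.κ j (MG hσ (σ l) B hB) := by
  rw [tt_κ C hij]
  have h1 : (l : F) ≠ 0 := l.ne_zero
  have h2 := sig_ne hσ h1
  have e : (σ ((l⁻¹ : Fˣ) : F) * (((l⁻¹ : Fˣ) : F))⁻¹ * (σ (l : F) * σ l * (l : F)⁻¹ * 1)) = σ l := by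
    simp only [Units.val_inv_eq_inv_val, map_inv₀, inv_inv]
    field_simp
  obtain ⟨h', e'⟩ := MG_cast hσ (isU_Ad hσ _ (isU_conj hσ (Units.ne_zero _) hb₀)) e rfl
  exact ⟨_, h', by rw [e']⟩

/-- The action of the same torus element on the first block. -/
lemma orbit_u {i j : Fin (m' + 1)} (hij : i ≠ j) (l : Fˣ) {c d : F} (h : c * σ c + d + σ d = 0) :
    ∃ B, ∃ hB : (σ l * c) * σ (σ l * c) + B + σ B = 0,
      (C.t i l * C.t j l⁻¹) * C.κ i (MG hσ c d h) * (C.t i l * C.t j l⁻¹)⁻¹ = C.κ i (MG hσ (σ l * c) B hB) := by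
  rw [tt_κ' C hij]
  have h1 : (l : F) ≠ 0 := l.ne_zero
  have h2 := sig_ne hσ h1
  have e : (σ ((l⁻¹ : Fˣ) : F) * (((l⁻¹ : Fˣ) : F))⁻¹ * (σ (l : F) * σ l * (l : F)⁻¹ * c)) = σ l * c := by
    simp only [Units.val_inv_eq_inv_val, map_inv₀, inv_inv]
    field_simp
  obtain ⟨h', e'⟩ := MG_cast hσ (isU_Ad hσ _ (isU_conj hσ (Units.ne_zero _) h)) e rfl
  exact ⟨_, h', by rw [e']⟩

lemma f2_mem {i j : Fin (m' + 1)} (hij : i ≠ j) {g u : GJ σ} (hg : g ∈ UU hσ) (hu : u ∈ UU hσ) :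
    ⁅C.κ i u, C.κ j g⁆ ∈ C.A0 i j := by
  have hle : UU hσ ≤ C.H₂ hI hij := by
    refine UU_le_of hI hδ hδ' _ ?_
    intro x
    by_cases h0 : x = 0
    · subst h0
      refine ⟨0, isU_zero, ?_⟩
      rw [MG_zero]
      exact one_mem _
    · let l : Fˣ := sU hσ (Units.mk0 x h0)
      have hl : σ (l : F) = x := by
        simp only [l, sU_coe, Units.val_mk0, hσ]
      obtain ⟨B, hB, e⟩ := C.orbit_y hI hij l
      obtain ⟨h', e'⟩ := MG_cast hσ hB hl rfl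
      refine ⟨B, h', MG_mem_UU hσ _ _ _, fun u hu => ?_⟩
      rw [← e', ← e]
      obtain ⟨a, b, h, rfl⟩ := hu
      set E := C.t i l⁻¹ * C.t j l with hE
      have hE' : E⁻¹ = C.t i l * C.t j l⁻¹ := by
        rw [hE, mul_inv_rev, t_inv, t_inv]
        have := (C.t_comm i j l (l⁻¹)).eq
        rw [t_inv] at this
        simpa using this.symm
      obtain ⟨B', hB', e2⟩ := C.orbit_u hI hij l h
      have e3 : C.κ i (MG hσ a b h) = E * C.κ i (MG hσ (σ l * a) B' hB') * E⁻¹ := by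
        rw [← e2, ← hE']
        group
      rw [e3, ← conj_cm]
      have := C.f1_mem hI hij (MG_mem_UU hσ _ _ hB')
      have h4 : C.A0 i j = C.A0 i j := rfl
      rw [hE]
      rw [conj_prod]
      exact C.A0_t hI hij _ _ (C.A0_t hI hij _ _ this)
  exact (hle hg).2 u hu

lemma f2_mul {i j : Fin (m' + 1)} (hij : i ≠ j) {u g g' : GJ σ} (hu : u ∈ UU hσ) (hg : g ∈ UU hσ) (hg' : g' ∈ UU hσ) :
    ⁅C.κ i u, C.κ j (g * g')⁆ = ⁅C.κ i u, C.κ j g⁆ * ⁅C.κ i u, C.κ j g'⁆ := by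
  rw [map_mul, cm_mul_right, Commute.conj_eq (C.A0_comm_j hI hij (C.f2_mem hI hij hg' hu) ⟨g, hg, rfl⟩).symm]

lemma f2_Z {i j : Fin (m' + 1)} (hij : i ≠ j) {u : GJ σ} (hu : u ∈ UU hσ) {z : F} (hz : (0 : F) * σ 0 + z + σ z = 0) :
    ⁅C.κ i u, C.κ j (MG hσ 0 z hz)⁆ = 1 := by
  obtain ⟨a, b, h, c, d, h', e⟩ := Z_is_comm hI hδ hδ' hz
  have e' : MG hσ 0 z hz = ⁅MG hσ a b h, MG hσ c d h'⁆ := e
  rw [e']
  exact hom_cm (UU hσ) (fun g => ⁅C.κ i u, C.κ j g⁆) (fun _ ha _ hb => C.f2_mul hI hij hu ha hb)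
    (fun _ ha _ hb => C.A0_comm hI hij (C.f2_mem hI hij ha hu) (C.f2_mem hI hij hb hu))
    (MG_mem_UU hσ _ _ _) (MG_mem_UU hσ _ _ _)

/-- The commutator formula. -/
theorem comm_val {i j : Fin (m' + 1)} (hij : i ≠ j) {c d c' d' : F} (h : c * σ c + d + σ d = 0)
    (h' : c' * σ c' + d' + σ d' = 0) : ⁅C.κ i (MG hσ c d h), C.κ j (MG hσ c' d' h')⁆ = C.Yf i j (c * σ c') := by
  by_cases h0 : c' = 0
  · subst h0
    rw [map_zero, mul_zero, Yf_zero]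
    exact C.f2_Z hI hij (MG_mem_UU hσ _ _ _) h'
  · let l : Fˣ := sU hσ (Units.mk0 c' h0)
    have hl : σ (l : F) = c' := by
      simp only [l, sU_coe, Units.val_mk0, hσ]
    obtain ⟨B, hB, e⟩ := C.orbit_y hI hij l
    obtain ⟨h2, e'⟩ := MG_cast hσ hB hl rfl
    rw [MG_split (hσ := hσ) h' h2, C.f2_mul hI hij (MG_mem_UU hσ _ _ _) (MG_mem_UU hσ _ _ _) (MG_mem_UU hσ _ _ _),
      C.f2_Z hI hij (MG_mem_UU hσ _ _ _), mul_one, ← e', ← e]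
    have hE' : (C.t i l⁻¹ * C.t j l)⁻¹ = C.t i l * C.t j l⁻¹ := by
      rw [mul_inv_rev, t_inv, t_inv]
      have := (C.t_comm i j l (l⁻¹)).eq
      rw [t_inv] at this
      simpa using this.symm
    obtain ⟨B', hB', e2⟩ := C.orbit_u hI hij l h
    have e3 : C.κ i (MG hσ c d h) = (C.t i l⁻¹ * C.t j l) * C.κ i (MG hσ (σ l * c) B' hB') * (C.t i l⁻¹ * C.t j l)⁻¹ := by
      rw [← e2, ← hE']
      group
    rw [e3, ← conj_cm, C.f1_val hI hij, conj_prod, t_Yf_j, t_Yf_i C hij]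
    congr 1
    simp only [l, sU_coe, Units.val_mk0, Units.val_inv_eq_inv_val, sU_coe]
    have : c' ≠ 0 := h0
    have h5 := sig_ne hσ h0
    simp only [hσ, map_inv₀, mul_inv_rev]
    field_simp

end Derive

end OCfg

end Cfsg.Agent.Lib.PrsSU
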