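import Mathlib
import Cfsg.Agent.Lib.PrsSUE

/-!
# Presentations of special unitary groups: the signed root groups in odd dimension
-/

set_option autoImplicit false
set_option linter.unusedSectionVars false
set_option linter.unusedVariables false

namespace Cfsg.Agent.Lib.PrsSU

open Subgroup Sum Cfsg.Agent.Lib.SUWitt Cfsg.Agent.Lib.PrsU3
open scoped commutatorElement

section Act

variable {Γ : Type*} [Group Γ] {m : ℕ} (M : Ix m → Subgroup Γ)

/-- The action on the groups `M`. -/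
def ActsM (n : Γ) (π : Equiv.Perm (Ix m)) : Prop := ∀ a, ∀ x ∈ M a, n * x * n⁻¹ ∈ M (π a)

/-- The two sided action. -/
def Act2 (n : Γ) (π : Equiv.Perm (Ix m)) : Prop := ActsM M n π ∧ ActsM M n⁻¹ π⁻¹

variable {M}

lemma ActsM_mul {n n' : Γ} {π π' : Equiv.Perm (Ix m)} (h : ActsM M n π) (h' : ActsM M n' π') :
    ActsM M (n * n') (π * π') := by
  intro a x hx
  have := h _ _ (h' a x hx)
  have e : n * n' * x * (n * n')⁻¹ = n * (n' * x * n'⁻¹) * n⁻¹ := by group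
  rw [e]
  exact this

lemma Act2_mul {n n' : Γ} {π π' : Equiv.Perm (Ix m)} (h : Act2 M n π) (h' : Act2 M n' π') :
    Act2 M (n * n') (π * π') := by
  refine ⟨ActsM_mul h.1 h'.1, ?_⟩
  rw [mul_inv_rev, mul_inv_rev]
  exact ActsM_mul h'.2 h.2

lemma Act2_inv {n : Γ} {π : Equiv.Perm (Ix m)} (h : Act2 M n π) : Act2 M n⁻¹ π⁻¹ := by
  refine ⟨h.2, ?_⟩
  rw [inv_inv, inv_inv]
  exact h.1

lemma Act2_one : Act2 M (1 : Γ) 1 := by
  constructor <;> intro a x hx <;> simpa using hx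

/-- The root groups. -/
def XOf (M : Ix m → Subgroup Γ) (a b : Ix m) : Subgroup Γ :=
  closure {g | ∃ u ∈ M a, ∃ v ∈ M b, g = ⁅u, v⁆}

lemma cm_mem_XOf {a b : Ix m} {u v : Γ} (hu : u ∈ M a) (hv : v ∈ M b) : ⁅u, v⁆ ∈ XOf M a b :=
  subset_closure ⟨u, hu, v, hv, rfl⟩

lemma XOf_symm {a b : Ix m} {x : Γ} (hx : x ∈ XOf M a b) : x ∈ XOf M b a := by
  induction hx using Subgroup.closure_induction with
  | mem x hx =>
    obtain ⟨u, hu, v, hv, rfl⟩ := hx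
    rw [← cm_inv]
    exact inv_mem (cm_mem_XOf hv hu)
  | one => exact one_mem _
  | mul a b _ _ ha hb => exact mul_mem ha hb
  | inv a _ ha => exact inv_mem ha

lemma XOf_act {n : Γ} {π : Equiv.Perm (Ix m)} (h : ActsM M n π) {a b : Ix m} {x : Γ} (hx : x ∈ XOf M a b) :
    n * x * n⁻¹ ∈ XOf M (π a) (π b) := by
  refine conj_closure_mem n ?_ hx
  rintro _ ⟨u, hu, v, hv, rfl⟩
  rw [conj_cm]
  exact cm_mem_XOf (h a u hu) (h b v hv)

lemma ActsOn_of {n : Γ} {π : Equiv.Perm (Ix m)} (h : ActsM M n π) : ActsOn M (XOf M) n π :=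
  ⟨h, fun a b x hx => XOf_act h hx⟩

end Act

/-- The lift of a permutation. -/
def lift {m : ℕ} (τ : Equiv.Perm (Fin m)) : Equiv.Perm (Ix m) := Equiv.sumCongr τ τ

/-- The sign change. -/
def flip {m : ℕ} (k : Fin m) : Equiv.Perm (Ix m) := Equiv.swap (inl k) (inr k)

@[simp] lemma lift_inl {m : ℕ} (τ : Equiv.Perm (Fin m)) (i : Fin m) : lift τ (inl i) = inl (τ i) := rfl
@[simp] lemma lift_inr {m : ℕ} (τ : Equiv.Perm (Fin m)) (i : Fin m) : lift τ (inr i) = inr (τ i) := rfl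

lemma lift_inv {m : ℕ} (τ : Equiv.Perm (Fin m)) : (lift τ)⁻¹ = lift τ⁻¹ := by
  apply Equiv.ext
  intro a
  rw [Equiv.Perm.inv_eq_iff_eq]
  cases a <;> simp

lemma flip_inv {m : ℕ} (k : Fin m) : (flip k)⁻¹ = flip k := by
  simp [flip]

lemma flip_inl_self {m : ℕ} (k : Fin m) : flip k (inl k) = inr k := by simp [flip]

lemma flip_inr_self {m : ℕ} (k : Fin m) : flip k (inr k) = inl k := by simp [flip]

lemma flip_of_ne {m : ℕ} {k : Fin m} {a : Ix m} (h : ab a ≠ k) : flip k a = a := by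
  unfold flip
  apply Equiv.swap_apply_of_ne_of_ne
  · rintro rfl
    exact h rfl
  · rintro rfl
    exact h rfl

/-- Signed permutations. -/
def Signed {m : ℕ} (π : Equiv.Perm (Ix m)) : Prop := ∀ a, π (bar a) = bar (π a)

lemma Signed_one {m : ℕ} : Signed (1 : Equiv.Perm (Ix m)) := fun _ => rfl

lemma Signed_mul {m : ℕ} {π π' : Equiv.Perm (Ix m)} (h : Signed π) (h' : Signed π') : Signed (π * π') := by
  intro a
  simp [h' a, h _]

lemma Signed_inv {m : ℕ} {π : Equiv.Perm (Ix m)} (h : Signed π) : Signed π⁻¹ := by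
  intro a
  apply π.injective
  rw [h]
  simp

lemma Signed_lift {m : ℕ} (τ : Equiv.Perm (Fin m)) : Signed (lift τ) := by
  intro a
  cases a <;> simp

lemma Signed_flip {m : ℕ} (k : Fin m) : Signed (flip k) := by
  intro a
  by_cases h : ab a = k
  · subst h
    cases a <;> simp [flip_inl_self, flip_inr_self]
  · rw [flip_of_ne h, flip_of_ne (by simpa using h)]

lemma refl_some_eq {m' : ℕ} (k : Fin m') : refl (some k) = lift (Equiv.swap k.castSucc k.succ) := rfl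

lemma refl_none_eq {m' : ℕ} : refl (none : Option (Fin m')) = flip 0 := rfl

namespace OCfg

variable {F : Type*} [Field F] {σ : F →+* F} {hσ : ∀ x, σ (σ x) = x} {δ : F} {hδ : δ ≠ 0} {hδ' : σ δ = -δ} {b₀ : F}
  {hb₀ : (1 : F) * σ 1 + b₀ + σ b₀ = 0} {Γ : Type*} [Group Γ] {m' : ℕ} (C : OCfg Γ hσ hδ hδ' hb₀ m')

/-- The negative block. -/
def Mn (i : Fin (m' + 1)) : Subgroup Γ := (C.Mp i).map (MulAut.conj (C.w i)).toMonoidHom

lemma mem_Mn {i : Fin (m' + 1)} {u : Γ} : u ∈ C.Mn i ↔ ∃ u' ∈ C.Mp i, C.w i * u' * (C.w i)⁻¹ = u := Iff.rfl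

/-- The signed blocks. -/
def M : Ix (m' + 1) → Subgroup Γ
  | inl i => C.Mp i
  | inr i => C.Mn i

@[simp] lemma M_inl (i : Fin (m' + 1)) : C.M (inl i) = C.Mp i := rfl
@[simp] lemma M_inr (i : Fin (m' + 1)) : C.M (inr i) = C.Mn i := rfl

lemma M_sub {a : Ix (m' + 1)} {u : Γ} (hu : u ∈ C.M a) : ∃ g, u = C.κ (ab a) g := by
  cases a with
  | inl i =>
    obtain ⟨g, -, rfl⟩ := hu
    exact ⟨g, rfl⟩
  | inr i =>
    obtain ⟨u', ⟨g, -, rfl⟩, rfl⟩ := C.mem_Mn.1 hu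
    exact ⟨WG hσ hδ hδ' * g * (WG hσ hδ hδ')⁻¹, by simp⟩

/-- The root groups. -/
abbrev X : Ix (m' + 1) → Ix (m' + 1) → Subgroup Γ := XOf C.M

lemma t_w_ne {k j : Fin (m' + 1)} (h : k ≠ j) (l : Fˣ) : C.t k l * C.w j * (C.t k l)⁻¹ = C.w j := by
  rw [C.tκ k j h, AdD_W]

lemma t_w_same (k : Fin (m' + 1)) (l : Fˣ) : C.w k * C.t k l * (C.w k)⁻¹ = C.t k (sU hσ l)⁻¹ := by
  have := congrArg (C.κ k) (WG_DU hσ hδ hδ' l)
  rw [map_mul, map_mul, map_inv] at this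
  exact this

lemma act_t_M (k : Fin (m' + 1)) (l : Fˣ) : ActsM C.M (C.t k l) 1 := by
  intro a x hx
  cases a with
  | inl j => exact C.t_Mp k j l hx
  | inr j =>
    obtain ⟨u', hu', rfl⟩ := C.mem_Mn.1 hx
    show _ ∈ C.Mn j
    by_cases e : k = j
    · subst e
      obtain ⟨d, hd⟩ := WG_inv_DU hσ hδ hδ' l
      have hd' : (C.w k)⁻¹ * C.t k l * C.w k = C.t k d := by
        have := congrArg (C.κ k) hd
        simpa using this
      have e1 : C.t k l * (C.w k * u' * (C.w k)⁻¹) * (C.t k l)⁻¹ =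
          C.w k * (C.t k d * u' * (C.t k d)⁻¹) * (C.w k)⁻¹ := by
        rw [← hd']
        group
      rw [e1]
      exact C.mem_Mn.2 ⟨_, C.t_Mp k k d hu', rfl⟩
    · have e1 : C.t k l * (C.w j * u' * (C.w j)⁻¹) * (C.t k l)⁻¹ =
          (C.t k l * C.w j * (C.t k l)⁻¹) * (C.t k l * u' * (C.t k l)⁻¹) * (C.t k l * C.w j * (C.t k l)⁻¹)⁻¹ := by
        group
      rw [e1, C.t_w_ne e]
      exact C.mem_Mn.2 ⟨_, C.t_Mp k j l hu', rfl⟩

lemma act_t (k : Fin (m' + 1)) (l : Fˣ) : Act2 C.M (C.t k l) 1 := by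
  refine ⟨C.act_t_M k l, ?_⟩
  rw [← t_inv, inv_one]
  exact C.act_t_M k l⁻¹

lemma act_ρ_M (τ : Equiv.Perm (Fin (m' + 1))) : ActsM C.M (C.ρ τ) (lift τ) := by
  intro a x hx
  cases a with
  | inl i =>
    obtain ⟨g, hg, rfl⟩ := hx
    rw [C.ρκ]
    exact ⟨g, hg, rfl⟩
  | inr i =>
    obtain ⟨u', ⟨g, hg, rfl⟩, rfl⟩ := C.mem_Mn.1 hx
    have e1 : C.ρ τ * (C.w i * C.κ i g * (C.w i)⁻¹) * (C.ρ τ)⁻¹ =
        (C.ρ τ * C.w i * (C.ρ τ)⁻¹) * (C.ρ τ * C.κ i g * (C.ρ τ)⁻¹) * (C.ρ τ * C.w i * (C.ρ τ)⁻¹)⁻¹ := by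
      group
    change _ ∈ C.Mn (τ i)
    rw [e1, C.ρκ, C.ρκ]
    exact C.mem_Mn.2 ⟨_, ⟨g, hg, rfl⟩, rfl⟩

lemma act_ρ (τ : Equiv.Perm (Fin (m' + 1))) : Act2 C.M (C.ρ τ) (lift τ) := by
  refine ⟨C.act_ρ_M τ, ?_⟩
  rw [← map_inv, lift_inv]
  exact C.act_ρ_M τ⁻¹

lemma w_sq (k : Fin (m' + 1)) : C.w k * C.w k = C.t k (-1) := by
  rw [← map_mul, WG_sq]

lemma act_w_M (k : Fin (m' + 1)) : ActsM C.M (C.w k) (flip k) := by
  intro a x hx
  by_cases e : ab a = k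
  · subst e
    cases a with
    | inl i =>
      change C.w i * x * (C.w i)⁻¹ ∈ C.M (flip i (inl i))
      rw [flip_inl_self]
      exact C.mem_Mn.2 ⟨x, hx, rfl⟩
    | inr i =>
      change C.w i * x * (C.w i)⁻¹ ∈ C.M (flip i (inr i))
      rw [flip_inr_self]
      obtain ⟨u', hu', rfl⟩ := C.mem_Mn.1 hx
      have e1 : C.w i * (C.w i * u' * (C.w i)⁻¹) * (C.w i)⁻¹ = (C.w i * C.w i) * u' * (C.w i * C.w i)⁻¹ := by group
      change _ ∈ C.Mp i
      rw [e1, C.w_sq]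
      exact C.t_Mp _ _ _ hu'
  · rw [flip_of_ne e]
    obtain ⟨g, rfl⟩ := C.M_sub hx
    rw [Commute.conj_eq (C.wκ k (ab a) (Ne.symm e) g)]
    exact hx

lemma act_w (k : Fin (m' + 1)) : Act2 C.M (C.w k) (flip k) := by
  refine ⟨C.act_w_M k, ?_⟩
  have e : (C.w k)⁻¹ = C.t k (-1) * C.w k := by
    have := congrArg (C.κ k) (WG_inv hσ hδ hδ')
    rw [map_inv, map_mul] at this
    exact this
  rw [e, flip_inv, ← one_mul (flip k)]
  exact ActsM_mul (C.act_t_M k (-1)) (C.act_w_M k)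

/-- Moving signs. -/
def gS : Ix (m' + 1) → Γ
  | inl _ => 1
  | inr i => C.w i

/-- Moving signs. -/
def fS : Ix (m' + 1) → Equiv.Perm (Ix (m' + 1))
  | inl _ => 1
  | inr i => flip i

lemma act_gS (a : Ix (m' + 1)) : Act2 C.M (C.gS a) (fS a) := by
  cases a with
  | inl i => exact Act2_one
  | inr i => exact C.act_w i

lemma fS_signed (a : Ix (m' + 1)) : Signed (fS a) := by
  cases a with
  | inl i => exact Signed_one
  | inr i => exact Signed_flip i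

lemma fS_self (a : Ix (m' + 1)) : fS a (inl (ab a)) = a := by
  cases a with
  | inl i => rfl
  | inr i => exact flip_inl_self i

lemma fS_ne {a c : Ix (m' + 1)} (h : ab c ≠ ab a) : fS a c = c := by
  cases a with
  | inl i => rfl
  | inr i => exact flip_of_ne h

/-- Transport of one index. -/
lemma move2 (a b : Ix (m' + 1)) (hab : ab a ≠ ab b) : ∃ (n : Γ) (π : Equiv.Perm (Ix (m' + 1))), Act2 C.M n π ∧ Signed π ∧
    π (inl (ab a)) = a ∧ π (inl (ab b)) = b := by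
  refine ⟨C.gS a * C.gS b, fS a * fS b, Act2_mul (C.act_gS a) (C.act_gS b), Signed_mul (fS_signed a) (fS_signed b), ?_, ?_⟩
  · rw [Equiv.Perm.mul_apply, fS_ne (a := b) (c := inl (ab a)) hab, fS_self]
  · rw [Equiv.Perm.mul_apply, fS_self, fS_ne hab.symm]

lemma move3 (a b c : Ix (m' + 1)) (hab : ab a ≠ ab b) (hac : ab a ≠ ab c) (hbc : ab b ≠ ab c) :
    ∃ (n : Γ) (π : Equiv.Perm (Ix (m' + 1))), Act2 C.M n π ∧ Signed π ∧
    π (inl (ab a)) = a ∧ π (inl (ab b)) = b ∧ π (inl (ab c)) = c := by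
  refine ⟨C.gS a * C.gS b * C.gS c, fS a * fS b * fS c, Act2_mul (Act2_mul (C.act_gS a) (C.act_gS b)) (C.act_gS c),
    Signed_mul (Signed_mul (fS_signed a) (fS_signed b)) (fS_signed c), ?_, ?_, ?_⟩
  · rw [Equiv.Perm.mul_apply, Equiv.Perm.mul_apply, fS_ne (a := c) (c := inl (ab a)) hac,
      fS_ne (a := b) (c := inl (ab a)) hab, fS_self]
  · rw [Equiv.Perm.mul_apply, Equiv.Perm.mul_apply, fS_ne (a := c) (c := inl (ab b)) hbc, fS_self, fS_ne hab.symm]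
  · rw [Equiv.Perm.mul_apply, Equiv.Perm.mul_apply, fS_self, fS_ne hbc.symm, fS_ne hac.symm]

lemma inv_apply_of {π : Equiv.Perm (Ix (m' + 1))} {a b : Ix (m' + 1)} (h : π a = b) : π⁻¹ b = a := by
  rw [← h]
  simp

lemma back_X {n : Γ} {π : Equiv.Perm (Ix (m' + 1))} (h : Act2 C.M n π) {a b a' b' : Ix (m' + 1)} (ha : π a' = a)
    (hb : π b' = b) {x : Γ} (hx : x ∈ C.X a b) : n⁻¹ * x * n ∈ C.X a' b' := by
  have := XOf_act h.2 hx
  rw [inv_apply_of ha, inv_apply_of hb, inv_inv] at this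
  exact this

lemma back_M {n : Γ} {π : Equiv.Perm (Ix (m' + 1))} (h : Act2 C.M n π) {a a' : Ix (m' + 1)} (ha : π a' = a) {x : Γ}
    (hx : x ∈ C.M a) : n⁻¹ * x * n ∈ C.M a' := by
  have := h.2 a x hx
  rw [inv_apply_of ha, inv_inv] at this
  exact this

lemma forth_X {n : Γ} {π : Equiv.Perm (Ix (m' + 1))} (h : Act2 C.M n π) {a b a' b' : Ix (m' + 1)} (ha : π a' = a)
    (hb : π b' = b) {x : Γ} (hx : x ∈ C.X a' b') : n * x * n⁻¹ ∈ C.X a b := by
  have := XOf_act h.1 hx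
  rwa [ha, hb] at this

lemma forth_M {n : Γ} {π : Equiv.Perm (Ix (m' + 1))} (h : Act2 C.M n π) {a a' : Ix (m' + 1)} (ha : π a' = a) {x : Γ}
    (hx : x ∈ C.M a') : n * x * n⁻¹ ∈ C.M a := by
  have := h.1 a' x hx
  rwa [ha] at this

lemma comm_back {n x u : Γ} (h : Commute (n⁻¹ * x * n) (n⁻¹ * u * n)) : Commute x u := by
  have := conj_comm (g := n) h
  have e1 : ∀ z : Γ, n * (n⁻¹ * z * n) * n⁻¹ = z := fun z => by group
  rwa [e1, e1] at this

section Derive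

variable (hI : Invol σ)
include hI

/-- The canonical root group. -/
lemma X_canon {i j : Fin (m' + 1)} (hij : i ≠ j) {x : Γ} (hx : x ∈ C.X (inl i) (inl j)) : ∃ c, x = C.Yf i j c := by
  induction hx using Subgroup.closure_induction with
  | mem x hx =>
    obtain ⟨u, ⟨g, ⟨a, b, h, rfl⟩, rfl⟩, v, ⟨g', ⟨a', b', h', rfl⟩, rfl⟩, rfl⟩ := hx
    exact ⟨_, C.comm_val hI hij h h'⟩
  | one => exact ⟨0, (C.Yf_zero i j).symm⟩
  | mul a b _ _ ha hb =>
    obtain ⟨c, rfl⟩ := ha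
    obtain ⟨c', rfl⟩ := hb
    exact ⟨c + c', (C.Yf_add hI hij c c').symm⟩
  | inv a _ ha =>
    obtain ⟨c, rfl⟩ := ha
    refine ⟨-c, ?_⟩
    have := C.Yf_add hI hij c (-c)
    rw [add_neg_cancel, Yf_zero] at this
    exact (eq_inv_of_mul_eq_one_right this.symm).symm ▸ rfl

lemma Yf_neg {i j : Fin (m' + 1)} (hij : i ≠ j) (c : F) : C.Yf i j (-c) = (C.Yf i j c)⁻¹ := by
  have := C.Yf_add hI hij c (-c)
  rw [add_neg_cancel, Yf_zero] at this
  exact eq_inv_of_mul_eq_one_right this.symm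

/-- Commutator form of the elements of the canonical root group. -/
lemma Yf_form {i j : Fin (m' + 1)} (hij : i ≠ j) (c : F) : ∃ u ∈ C.Mp i, ∃ v ∈ C.Mp j, C.Yf i j c = ⁅u, v⁆ := by
  obtain ⟨d, h⟩ := exists_MG hI c
  exact ⟨_, C.κ_MG_mem i c d h, _, C.κ_MG_mem j 1 b₀ hb₀, (C.f1_val hI hij h).symm⟩

lemma Yf_mem {i j : Fin (m' + 1)} (hij : i ≠ j) (c : F) : C.Yf i j c ∈ C.X (inl i) (inl j) := by
  obtain ⟨u, hu, v, hv, e⟩ := C.Yf_form hI hij c
  rw [e]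
  exact cm_mem_XOf hu hv

/-- F2 in canonical position. -/
lemma F2c {i j : Fin (m' + 1)} (hij : i ≠ j) {x u : Γ} (hx : x ∈ C.X (inl i) (inl j)) (hu : u ∈ C.Mp i) : Commute x u := by
  obtain ⟨c, rfl⟩ := C.X_canon hI hij hx
  exact C.A0_comm_i hI hij (C.Yf_mem_A0 hI hij c) hu

lemma F3c {i j k : Fin (m' + 1)} (hij : i ≠ j) (hki : k ≠ i) (hkj : k ≠ j) {x : Γ} (hx : x ∈ C.X (inl i) (inl j)) (g : GJ σ) :
    Commute x (C.κ k g) := by
  obtain ⟨c, rfl⟩ := C.X_canon hI hij hx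
  by_cases h : c = 0
  · subst h
    rw [Yf_zero]
    exact Commute.one_left _
  · rw [Yf_ne C i j h]
    let l := Units.mk0 c h
    have e1 : (C.t j l)⁻¹ * C.κ k g * C.t j l = C.κ k (AdD hσ l⁻¹ g) := by
      have := C.tκ j k hkj.symm l⁻¹ g
      simp only [map_inv, inv_inv] at this
      exact this
    have h2 := C.c6 i j k hij hki hkj (AdD hσ l⁻¹ g)
    rw [← e1] at h2
    have h3 := conj_comm (g := C.t j l) h2
    have e2 : C.t j l * ((C.t j l)⁻¹ * C.κ k g * C.t j l) * (C.t j l)⁻¹ = C.κ k g := by group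
    rwa [e2] at h3

end Derive

end OCfg

end Cfsg.Agent.Lib.PrsSU
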