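import Mathlib
import Cfsg.Agent.Lib.PrsSUF

/-!
# Presentations of special unitary groups: the root data in odd dimension
-/

set_option autoImplicit false
set_option linter.unusedSectionVars false
set_option linter.unusedVariables false

namespace Cfsg.Agent.Lib.PrsSU

open Subgroup Sum Cfsg.Agent.Lib.SUWitt Cfsg.Agent.Lib.PrsU3
open scoped commutatorElement

namespace OCfg

variable {F : Type*} [Field F] {σ : F →+* F} {hσ : ∀ x, σ (σ x) = x} {δ : F} {hδ : δ ≠ 0} {hδ' : σ δ = -δ} {b₀ : F}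
  {hb₀ : (1 : F) * σ 1 + b₀ + σ b₀ = 0} {Γ : Type*} [Group Γ] {m' : ℕ} (C : OCfg Γ hσ hδ hδ' hb₀ m')

section Derive

variable (hI : Invol σ)
include hI

lemma F2 (a b : Ix (m' + 1)) (hab : ab a ≠ ab b) {x u : Γ} (hx : x ∈ C.X a b) (hu : u ∈ C.M a) : Commute x u := by
  obtain ⟨n, π, h, hs, e1, e2⟩ := C.move2 a b hab
  exact comm_back (C.F2c hI hab (C.back_X h e1 e2 hx) (C.back_M h e1 hu))

lemma F2' (a b : Ix (m' + 1)) (hab : ab a ≠ ab b) {x u : Γ} (hx : x ∈ C.X a b) (hu : u ∈ C.M b) : Commute x u :=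
  C.F2 hI b a hab.symm (XOf_symm hx) hu

lemma F3 (a b c : Ix (m' + 1)) (hab : ab a ≠ ab b) (hca : ab c ≠ ab a) (hcb : ab c ≠ ab b) {x u : Γ} (hx : x ∈ C.X a b)
    (hu : u ∈ C.M c) : Commute x u := by
  obtain ⟨n, π, h, hs, e1, e2, e3⟩ := C.move3 a b c hab hca.symm hcb.symm
  have h3 := C.back_M h e3 hu
  obtain ⟨g, hg⟩ := C.M_sub h3
  refine comm_back (n := n) ?_
  rw [hg]
  exact C.F3c hI hab hca hcb (C.back_X h e1 e2 hx) g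

lemma X_comm (a b : Ix (m' + 1)) (hab : ab a ≠ ab b) {x y : Γ} (hx : x ∈ C.X a b) (hy : y ∈ C.X a b) : Commute x y := by
  obtain ⟨n, π, h, hs, e1, e2⟩ := C.move2 a b hab
  obtain ⟨c, hc⟩ := C.X_canon hI hab (C.back_X h e1 e2 hx)
  obtain ⟨c', hc'⟩ := C.X_canon hI hab (C.back_X h e1 e2 hy)
  refine comm_back (n := n) ?_
  rw [hc, hc']
  exact C.A0_comm hI hab (C.Yf_mem_A0 hI hab c) (C.Yf_mem_A0 hI hab c')

lemma X_form (a b : Ix (m' + 1)) (hab : ab a ≠ ab b) {x : Γ} (hx : x ∈ C.X a b) : ∃ u ∈ C.M a, ∃ v ∈ C.M b, x = ⁅u, v⁆ := by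
  obtain ⟨n, π, h, hs, e1, e2⟩ := C.move2 a b hab
  obtain ⟨c, hc⟩ := C.X_canon hI hab (C.back_X h e1 e2 hx)
  obtain ⟨u, hu, v, hv, e⟩ := C.Yf_form hI hab c
  refine ⟨_, C.forth_M h e1 (a' := inl (ab a)) hu, _, C.forth_M h e2 (a' := inl (ab b)) hv, ?_⟩
  rw [← conj_cm, ← e, ← hc]
  group

/-- The target of the commutators. -/
def Pc {i j : Fin (m' + 1)} (hij : i ≠ j) : Subgroup Γ where
  carrier := {g | ∃ r ∈ C.Mp i, ∃ c, g = r * C.Yf i j c}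
  mul_mem' := by
    rintro _ _ ⟨r, hr, c, rfl⟩ ⟨r', hr', c', rfl⟩
    refine ⟨r * r', mul_mem hr hr', c + c', ?_⟩
    rw [C.Yf_add hI hij]
    have := (C.A0_comm_i hI hij (C.Yf_mem_A0 hI hij c) hr').eq
    calc r * C.Yf i j c * (r' * C.Yf i j c') = r * (C.Yf i j c * r') * C.Yf i j c' := by group
      _ = r * (r' * C.Yf i j c) * C.Yf i j c' := by rw [this]
      _ = _ := by group
  one_mem' := ⟨1, one_mem _, 0, by rw [Yf_zero, one_mul]⟩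
  inv_mem' := by
    rintro _ ⟨r, hr, c, rfl⟩
    refine ⟨r⁻¹, inv_mem hr, -c, ?_⟩
    rw [C.Yf_neg hI hij, mul_inv_rev]
    have := (C.A0_comm_i hI hij (inv_mem (C.Yf_mem_A0 hI hij c)) (inv_mem hr)).eq
    exact this

lemma Pc_t {i j : Fin (m' + 1)} (hij : i ≠ j) (k : Fin (m' + 1)) (l : Fˣ) {g : Γ} (hg : g ∈ C.Pc hI hij) :
    C.t k l * g * (C.t k l)⁻¹ ∈ C.Pc hI hij := by
  obtain ⟨r, hr, c, rfl⟩ := hg
  rw [conj_mul_conj]
  refine ⟨_, C.t_Mp k i l hr, ?_⟩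
  by_cases h1 : k = j
  · subst h1
    exact ⟨_, by rw [t_Yf_j]⟩
  by_cases h2 : k = i
  · subst h2
    exact ⟨_, by rw [t_Yf_i C hij]⟩
  exact ⟨_, by rw [t_Yf_k C hij h2 h1]⟩

lemma Pc_u {i j : Fin (m' + 1)} (hij : i ≠ j) {u : Γ} (hu : u ∈ C.Mp j) {g : Γ} (hg : g ∈ C.Pc hI hij) :
    u * g * u⁻¹ ∈ C.Pc hI hij := by
  obtain ⟨r, ⟨g₁, ⟨a, b, h, rfl⟩, rfl⟩, c, rfl⟩ := hg
  obtain ⟨g₂, ⟨a', b', h', rfl⟩, rfl⟩ := hu
  have e1 := C.comm_val hI hij h h'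
  have e2 : C.κ j (MG hσ a' b' h') * C.κ i (MG hσ a b h) * (C.κ j (MG hσ a' b' h'))⁻¹ =
      C.κ i (MG hσ a b h) * C.Yf i j (-(a * σ a')) := by
    rw [C.Yf_neg hI hij, conj_eq_cm_mul, ← cm_inv, e1]
    exact (C.A0_comm_i hI hij (inv_mem (C.Yf_mem_A0 hI hij _)) (C.κ_MG_mem i a b h)).eq
  have e3 := Commute.conj_eq ((C.A0_comm_j hI hij (C.Yf_mem_A0 hI hij c) (C.κ_MG_mem j a' b' h')).symm)
  rw [conj_mul_conj, e2, e3, mul_assoc, ← C.Yf_add hI hij]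
  exact ⟨_, C.κ_MG_mem _ _ _ _, _, rfl⟩

/-- The torus elements stabilising the other short root element. -/
lemma s_xa {i j : Fin (m' + 1)} (hij : i ≠ j) (l : Fˣ) :
    (C.t i l * C.t j l) * C.xa i j * (C.t i l * C.t j l)⁻¹ = C.xa i j := by
  have e1 : C.w j * C.t i l * (C.w j)⁻¹ = C.t i l := Commute.conj_eq (C.wκ j i hij.symm _)
  have e2 : C.w j * C.t j (sU hσ l)⁻¹ * (C.w j)⁻¹ = C.t j l := by
    rw [t_w_same, sU_inv, sU_sU, inv_inv]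
  have e3 : C.t i l * C.t j l = C.w j * (C.t i l * C.t j (sU hσ l)⁻¹) * (C.w j)⁻¹ := by
    rw [conj_mul_conj, e1, e2]
  have h := Commute.conj_eq (C.c5 i j hij l)
  have e4 : C.xa i j = C.w j * C.xb i j * (C.w j)⁻¹ := rfl
  rw [e3, e4]
  calc _ = C.w j * ((C.t i l * C.t j (sU hσ l)⁻¹) * C.xb i j * (C.t i l * C.t j (sU hσ l)⁻¹)⁻¹) * (C.w j)⁻¹ := by group
    _ = _ := by rw [h]

/-- The third commutator subgroup. -/
def H₃ {i j : Fin (m' + 1)} (hij : i ≠ j) : Subgroup (GJ σ) where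
  carrier := {g | g ∈ UU hσ ∧ ⁅C.κ j g, C.xa i j⁆ ∈ C.Pc hI hij}
  mul_mem' := by
    rintro a b ⟨ha, ha'⟩ ⟨hb, hb'⟩
    refine ⟨mul_mem ha hb, ?_⟩
    rw [map_mul, cm_mul_left]
    exact mul_mem (C.Pc_u hI hij ⟨a, ha, rfl⟩ hb') ha'
  one_mem' := by
    refine ⟨one_mem _, ?_⟩
    rw [map_one, commutatorElement_one_left]
    exact one_mem _
  inv_mem' := by
    rintro a ⟨ha, ha'⟩
    refine ⟨inv_mem ha, ?_⟩
    have e : ⁅C.κ j a⁻¹, C.xa i j⁆ = (C.κ j a)⁻¹ * ⁅C.κ j a, C.xa i j⁆⁻¹ * (C.κ j a)⁻¹⁻¹ := by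
      rw [map_inv]
      simp only [commutatorElement_def]
      group
    rw [e]
    have hu : (C.κ j a)⁻¹ ∈ C.Mp j := by
      rw [← map_inv]
      exact ⟨a⁻¹, inv_mem ha, rfl⟩
    exact C.Pc_u hI hij hu (inv_mem ha')

lemma f3_mem {i j : Fin (m' + 1)} (hij : i ≠ j) {g : GJ σ} (hg : g ∈ UU hσ) : ⁅C.κ j g, C.xa i j⁆ ∈ C.Pc hI hij := by
  obtain ⟨ν₁, d₁, hν, hσν, hνc⟩ := C.hZ
  have hle : UU hσ ≤ C.H₃ hI hij := by
    refine UU_le_of hI hδ hδ' _ (U_of_K hI _ hb₀ hν hσν ?_ ?_ ?_)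
    · refine ⟨MG_mem_UU hσ _ _ _, ?_⟩
      obtain ⟨r, hr, c, e⟩ := C.c7 i j hij
      change ⁅C.y j, C.xa i j⁆ ∈ _
      rw [show ⁅C.y j, C.xa i j⁆ = r * C.Y i j c from e, ← Yf_unit]
      exact ⟨r, hr, _, rfl⟩
    · refine ⟨MG_mem_UU hσ _ _ _, ?_⟩
      obtain ⟨r, hr, c, e⟩ := hνc i j hij
      change ⁅C.κ j (MG hσ ν₁ d₁ hν), C.xa i j⁆ ∈ _
      rw [show ⁅C.κ j (MG hσ ν₁ d₁ hν), C.xa i j⁆ = r * C.Y i j c from e, ← Yf_unit]
      exact ⟨r, hr, _, rfl⟩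
    · rintro a ha ha0 x y h ⟨-, hm⟩
      let A : Fˣ := Units.mk0 a ha0
      have hA : σ (A : F) = A := ha
      have h1 := C.tt_κ hij A A h
      have e : σ (A : F) * (A : F)⁻¹ * (σ (A : F) * σ (A : F) * (A : F)⁻¹ * x) = a * x := by
        rw [hA]
        have : (A : F) = a := rfl
        rw [this]
        field_simp
      obtain ⟨h', e'⟩ := MG_cast hσ (isU_Ad hσ A (isU_conj hσ A.ne_zero h)) e rfl
      refine ⟨_, h', MG_mem_UU hσ _ _ _, ?_⟩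
      rw [← e', ← h1]
      have h2 := C.s_xa hI hij A
      have e2 : ⁅(C.t i A * C.t j A) * C.κ j (MG hσ x y h) * (C.t i A * C.t j A)⁻¹, C.xa i j⁆ =
          (C.t i A * C.t j A) * ⁅C.κ j (MG hσ x y h), C.xa i j⁆ * (C.t i A * C.t j A)⁻¹ := by
        conv_lhs => rw [← h2]
        rw [← conj_cm]
      rw [e2, conj_prod]
      exact C.Pc_t hI hij _ _ (C.Pc_t hI hij _ _ hm)
  exact (hle hg).2

/-- The elements of the other root group. -/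
lemma xY_form {i j : Fin (m' + 1)} (hij : i ≠ j) {x : Γ} (hx : x ∈ C.X (inl i) (inr j)) :
    x = 1 ∨ ∃ l : Fˣ, x = C.t j l * C.xa i j * (C.t j l)⁻¹ := by
  have e1 : flip j (inl i) = inl i := flip_of_ne hij
  have e2 : flip j (inl j) = inr j := flip_inl_self j
  have h1 := C.back_X (C.act_w j) e1 e2 hx
  obtain ⟨c, hc⟩ := C.X_canon hI hij h1
  have h2 : x = C.w j * C.Yf i j c * (C.w j)⁻¹ := by
    rw [← hc]
    group
  by_cases h0 : c = 0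
  · subst h0
    rw [Yf_zero] at h2
    left
    rw [h2]
    group
  · right
    refine ⟨(sU hσ (Units.mk0 c h0))⁻¹, ?_⟩
    rw [h2, Yf_ne C i j h0, ← t_w_same, Y_def]
    show _ = _ * (C.w j * C.xb i j * (C.w j)⁻¹) * _
    group

/-- F4 in canonical position. -/
lemma F4c {i j : Fin (m' + 1)} (hij : i ≠ j) {u x : Γ} (hu : u ∈ C.Mp j) (hx : x ∈ C.X (inr j) (inl i)) :
    ∃ r₁ ∈ C.Mp i, ∃ r₂ ∈ C.X (inl i) (inl j), ⁅u, x⁆ = r₁ * r₂ := by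
  rcases C.xY_form hI hij (XOf_symm hx) with rfl | ⟨l, rfl⟩
  · exact ⟨1, one_mem _, 1, one_mem _, by simp⟩
  · have h1 : (C.t j l)⁻¹ * u * C.t j l ∈ C.Mp j := by
      have := C.t_Mp j j l⁻¹ hu
      rw [t_inv] at this
      simpa using this
    obtain ⟨g, hg, e⟩ := h1
    have h2 := C.f3_mem hI hij hg
    rw [e] at h2
    have h3 := C.Pc_t hI hij j l h2
    rw [conj_cm] at h3
    have e2 : C.t j l * ((C.t j l)⁻¹ * u * C.t j l) * (C.t j l)⁻¹ = u := by group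
    rw [e2] at h3
    obtain ⟨r, hr, c, e3⟩ := h3
    exact ⟨r, hr, _, C.Yf_mem hI hij c, e3⟩

/-- F4 in general position. -/
lemma F4 (a b : Ix (m' + 1)) (hab : ab a ≠ ab b) {u x : Γ} (hu : u ∈ C.M (bar a)) (hx : x ∈ C.X a b) :
    ∃ r₁ ∈ C.M b, ∃ r₂ ∈ C.X b (bar a), ⁅u, x⁆ = r₁ * r₂ := by
  have hab' : ab b ≠ ab (bar a) := by simpa using hab.symm
  obtain ⟨n, π, h, hs, e1, e2⟩ := C.move2 b (bar a) hab'
  have e3 : π (inr (ab (bar a))) = a := by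
    have := hs (inl (ab (bar a)))
    rw [bar_inl] at this
    rw [this, e2, bar_bar]
  have hu' := C.back_M h e2 hu
  have hx' := C.back_X h e3 e1 hx
  obtain ⟨r₁, h₁, r₂, h₂, e⟩ := C.F4c hI hab' hu' hx'
  refine ⟨_, C.forth_M h e1 (a' := inl (ab b)) h₁, _, C.forth_X h e1 e2 h₂, ?_⟩
  have e9 : ∀ z : Γ, n * (n⁻¹ * z * n) * n⁻¹ = z := fun z => by group
  rw [← conj_mul_conj, ← e, conj_cm, e9, e9]

lemma F5 (a b c : Ix (m' + 1)) (hab : ab a ≠ ab b) (hac : ab a ≠ ab c) (hbc : ab b ≠ ab c) {x y : Γ} (hx : x ∈ C.X a b)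
    (hy : y ∈ C.X a c) : Commute x y := by
  refine commute_closure _ ?_ hy
  rintro _ ⟨u, hu, v, hv, rfl⟩
  have h1 := C.F2 hI a b hab hx hu
  have h2 := C.F3 hI a b c hab hac.symm hbc.symm hx hv
  rw [commutatorElement_def]
  exact ((h1.mul_right h2).mul_right h1.inv_right).mul_right h2.inv_right

lemma F6 (a b c d : Ix (m' + 1)) (hab : ab a ≠ ab b) (hcd : ab c ≠ ab d) (hac : ab a ≠ ab c) (had : ab a ≠ ab d)
    (hbc : ab b ≠ ab c) (hbd : ab b ≠ ab d) {x y : Γ} (hx : x ∈ C.X a b) (hy : y ∈ C.X c d) : Commute x y := by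
  refine commute_closure _ ?_ hy
  rintro _ ⟨u, hu, v, hv, rfl⟩
  have h1 := C.F3 hI a b c hab hac.symm hbc.symm hx hu
  have h2 := C.F3 hI a b d hab had.symm hbd.symm hx hv
  rw [commutatorElement_def]
  exact ((h1.mul_right h2).mul_right h1.inv_right).mul_right h2.inv_right

lemma F7 (a b c : Ix (m' + 1)) (hab : ab a ≠ ab b) (hac : ab a ≠ ab c) (hbc : ab b ≠ ab c) {x y : Γ} (hx : x ∈ C.X a b)
    (hy : y ∈ C.X (bar a) c) : ⁅x, y⁆ ∈ C.X b c := by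
  have hac' : ab (bar a) ≠ ab c := by simpa using hac
  have hab' : ab b ≠ ab (bar a) := by simpa using hab.symm
  obtain ⟨u, hu, v, hv, rfl⟩ := C.X_form hI _ _ hac' hy
  have hxv := C.F3 hI a b c hab hac.symm hbc.symm hx hv
  obtain ⟨r₁, h₁, r₂, h₂, e⟩ := C.F4 hI a b hab hu hx
  have hr : Commute r₂ r₁ := C.F2 hI b (bar a) hab' h₂ h₁
  -- the conjugate of `u`
  have e1 : x * u * x⁻¹ = r₁⁻¹ * r₂⁻¹ * u := by
    have : ⁅u, x⁆⁻¹ = r₂⁻¹ * r₁⁻¹ := by rw [e, mul_inv_rev]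
    have e3 : r₂⁻¹ * r₁⁻¹ = r₁⁻¹ * r₂⁻¹ := (hr.inv_inv).eq
    rw [← e3, ← this]
    simp only [commutatorElement_def]
    group
  have hq₁ : r₁⁻¹ ∈ C.M b := inv_mem h₁
  have hq₂ : r₂⁻¹ ∈ C.X b (bar a) := inv_mem h₂
  have hy : ⁅u, v⁆ ∈ C.X (bar a) c := cm_mem_XOf hu hv
  -- `q₁` and `q₂` commute with the commutator
  have c1 : Commute r₁⁻¹ ⁅u, v⁆ := (C.F3 hI (bar a) c b hac' hab' hbc hy hq₁).symm
  have c2 : Commute r₂⁻¹ ⁅u, v⁆ := C.F5 hI (bar a) b c hab'.symm hac' hbc (XOf_symm hq₂) hy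
  have c3 : Commute r₂⁻¹ v := C.F3 hI b (bar a) c hab' hbc.symm (hac'.symm) hq₂ hv
  have hfin : ⁅r₁⁻¹, v⁆ ∈ C.X b c := cm_mem_XOf hq₁ hv
  have c4 : Commute ⁅u, v⁆ ⁅r₁⁻¹, v⁆ := C.F5 hI c (bar a) b hac'.symm hbc.symm hab'.symm (XOf_symm hy) (XOf_symm hfin)
  have e2 : x * ⁅u, v⁆ * x⁻¹ = ⁅r₁⁻¹ * r₂⁻¹ * u, v⁆ := by
    rw [conj_cm, e1, Commute.conj_eq hxv]
  have e5 : ⁅r₁⁻¹ * r₂⁻¹ * u, v⁆ = ⁅r₁⁻¹, v⁆ * ⁅u, v⁆ := by
    have e6 : ⁅r₂⁻¹ * u, v⁆ = ⁅u, v⁆ := by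
      rw [cm_mul_left, comm_iff_cm.1 c3, mul_one, Commute.conj_eq c2]
    rw [mul_assoc, cm_mul_left, e6, Commute.conj_eq c1]
    exact (c4.symm).eq.symm ▸ (c4.eq)
  have e7 : ⁅x, ⁅u, v⁆⁆ = ⁅r₁⁻¹, v⁆ := by
    rw [commutatorElement_def x, e2, e5]
    group
  rw [e7]
  exact hfin

lemma F8 (a b : Ix (m' + 1)) (hab : ab a ≠ ab b) {x y : Γ} (hx : x ∈ C.X a (bar b)) (hy : y ∈ C.X a b) : ⁅x, y⁆ ∈ C.M a := by
  have hab' : ab (bar b) ≠ ab a := by simpa using hab.symm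
  obtain ⟨s, hs, v, hv, rfl⟩ := C.X_form hI _ _ hab hy
  have hxs : Commute x s := C.F2 hI a (bar b) (by simpa using hab) hx hs
  have hv' : v ∈ C.M (bar (bar b)) := by simpa using hv
  obtain ⟨r₁, h₁, r₂, h₂, e⟩ := C.F4 hI (bar b) a hab' hv' (XOf_symm hx)
  have h₂' : r₂ ∈ C.X a b := by simpa using h₂
  have hr : Commute r₂ r₁ := C.F2 hI a b hab h₂' h₁
  have e1 : x * v * x⁻¹ = r₁⁻¹ * r₂⁻¹ * v := by
    have : ⁅v, x⁆⁻¹ = r₂⁻¹ * r₁⁻¹ := by rw [e, mul_inv_rev]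
    have e3 : r₂⁻¹ * r₁⁻¹ = r₁⁻¹ * r₂⁻¹ := (hr.inv_inv).eq
    rw [← e3, ← this]
    simp only [commutatorElement_def]
    group
  have hq₁ : r₁⁻¹ ∈ C.M a := inv_mem h₁
  have hq₂ : r₂⁻¹ ∈ C.X a b := inv_mem h₂'
  have hy : ⁅s, v⁆ ∈ C.X a b := cm_mem_XOf hs hv
  have c1 : Commute r₁⁻¹ ⁅s, v⁆ := (C.F2 hI a b hab hy hq₁).symm
  have c2 : Commute r₂⁻¹ ⁅s, v⁆ := C.X_comm hI a b hab hq₂ hy
  have c3 : Commute s r₂⁻¹ := (C.F2 hI a b hab hq₂ hs).symm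
  have e2 : x * ⁅s, v⁆ * x⁻¹ = ⁅s, r₁⁻¹ * r₂⁻¹ * v⁆ := by
    rw [conj_cm, e1, Commute.conj_eq hxs]
  have e5 : ⁅s, r₁⁻¹ * r₂⁻¹ * v⁆ = ⁅s, r₁⁻¹⁆ * ⁅s, v⁆ := by
    rw [mul_assoc, cm_mul_right, cm_mul_right s r₂⁻¹ v, comm_iff_cm.1 c3, one_mul, Commute.conj_eq c2, Commute.conj_eq c1]
  have e7 : ⁅x, ⁅s, v⁆⁆ = ⁅s, r₁⁻¹⁆ := by
    rw [commutatorElement_def x, e2, e5]
    group
  rw [e7, commutatorElement_def]
  exact mul_mem (mul_mem (mul_mem hs hq₁) (inv_mem hs)) (inv_mem hq₁)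

end Derive

/-- Torus generators. -/
def Tgen : Set Γ := {x | ∃ k l, x = C.t k l}

/-- The torus. -/
def TT : Subgroup Γ := closure C.Tgen

/-- The monomial group. -/
def NN : Subgroup Γ := closure (C.Tgen ∪ Set.range C.ρ ∪ Set.range C.w)

/-- The simple reflections. -/
def ss : Option (Fin m') → Γ
  | none => C.w 0
  | some k => C.ρ (Equiv.swap k.castSucc k.succ)

lemma TT_act {t : Γ} (ht : t ∈ C.TT) : Act2 C.M t 1 := by
  induction ht using Subgroup.closure_induction with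
  | mem x hx =>
    obtain ⟨k, l, rfl⟩ := hx
    exact C.act_t k l
  | one => exact Act2_one
  | mul a b _ _ ha hb =>
    have := Act2_mul ha hb
    rwa [mul_one] at this
  | inv a _ ha =>
    have := Act2_inv ha
    rwa [inv_one] at this

lemma NN_act {n : Γ} (hn : n ∈ C.NN) : ∃ π, Signed π ∧ Act2 C.M n π := by
  induction hn using Subgroup.closure_induction with
  | mem x hx =>
    rcases hx with (⟨k, l, rfl⟩ | ⟨τ, rfl⟩) | ⟨k, rfl⟩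
    · exact ⟨1, Signed_one, C.act_t k l⟩
    · exact ⟨_, Signed_lift τ, C.act_ρ τ⟩
    · exact ⟨_, Signed_flip k, C.act_w k⟩
  | one => exact ⟨1, Signed_one, Act2_one⟩
  | mul a b _ _ ha hb =>
    obtain ⟨π, h1, h2⟩ := ha
    obtain ⟨π', h1', h2'⟩ := hb
    exact ⟨_, Signed_mul h1 h1', Act2_mul h2 h2'⟩
  | inv a _ ha =>
    obtain ⟨π, h1, h2⟩ := ha
    exact ⟨_, Signed_inv h1, Act2_inv h2⟩

lemma ss_act (i : Option (Fin m')) : Act2 C.M (C.ss i) (refl i) ∧ (refl i)⁻¹ = refl i := by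
  constructor
  · cases i with
    | none => exact C.act_w 0
    | some k => exact C.act_ρ _
  · apply Equiv.ext
    intro a
    rw [Equiv.Perm.inv_eq_iff_eq, refl_refl]

lemma ss_mem (i : Option (Fin m')) : C.ss i ∈ C.NN := by
  cases i with
  | none => exact subset_closure (Or.inr ⟨0, rfl⟩)
  | some k => exact subset_closure (Or.inl (Or.inr ⟨_, rfl⟩))

lemma ss_sq (i : Option (Fin m')) : C.ss i * C.ss i ∈ C.TT := by
  cases i with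
  | none =>
    change C.w 0 * C.w 0 ∈ _
    rw [w_sq]
    exact subset_closure ⟨0, -1, rfl⟩
  | some k =>
    change C.ρ _ * C.ρ _ ∈ _
    rw [← map_mul, Equiv.swap_mul_self, map_one]
    exact one_mem _

lemma ri_none {x : Γ} (hx : x ∈ C.M (inl 0)) (h1 : x ≠ 1) : ∃ x₁ ∈ C.M (inl 0), ∃ t ∈ C.TT, ∃ x₂ ∈ C.M (inl 0),
    C.ss none * x = x₁ * (C.ss none * t * x₂ * C.ss none) := by
  obtain ⟨g, hg, rfl⟩ := hx
  have hg1 : g ≠ 1 := by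
    rintro rfl
    exact h1 (map_one _)
  obtain ⟨m₁, h₁, d, m₂, h₂, e⟩ := W_ri hσ hδ hδ' hg hg1
  refine ⟨_, ⟨m₁, h₁, rfl⟩, C.t 0 d, subset_closure ⟨0, d, rfl⟩, _, ⟨m₂, h₂, rfl⟩, ?_⟩
  have := congrArg (C.κ 0) e
  simp only [map_mul] at this
  exact this

section RI

variable (hI : Invol σ)
include hI

lemma TT_X {t : Γ} (ht : t ∈ C.TT) {a b : Ix (m' + 1)} {x : Γ} (hx : x ∈ C.X a b) : t * x * t⁻¹ ∈ C.X a b :=
  XOf_act (C.TT_act ht).1 hx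

lemma xa_mem {i j : Fin (m' + 1)} (hij : i ≠ j) : C.xa i j ∈ C.X (inl i) (inr j) := by
  have e1 : flip j (inl i) = inl i := flip_of_ne hij
  have e2 : flip j (inl j) = inr j := flip_inl_self j
  refine C.forth_X (C.act_w j) e1 e2 ?_
  exact cm_mem_XOf (C.κ_MG_mem i 1 b₀ hb₀) (C.κ_MG_mem j 1 b₀ hb₀)

lemma ri_X {i j : Fin (m' + 1)} (hij : i ≠ j) {x : Γ} (hx : x ∈ C.X (inl i) (inr j)) (h1 : x ≠ 1) :
    ∃ x₁ ∈ C.X (inl i) (inr j), ∃ t ∈ C.TT, ∃ x₂ ∈ C.X (inl i) (inr j),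
      C.ρ (Equiv.swap i j) * x = x₁ * (C.ρ (Equiv.swap i j) * t * x₂ * C.ρ (Equiv.swap i j)) := by
  rcases C.xY_form hI hij hx with rfl | ⟨l₀, rfl⟩
  · exact absurd rfl h1
  obtain ⟨l, t, e⟩ := C.c8 i j hij
  set s := C.ρ (Equiv.swap i j) with hs
  have hsinv : s⁻¹ = s := by
    rw [hs, ← map_inv, Equiv.swap_inv]
  have hE : s * C.t j l₀ * s⁻¹ = C.t i l₀ := by
    rw [hs, C.ρκ]
    simp
  have hE2 : s * C.t j l₀ = C.t i l₀ * s := by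
    rw [← hE]
    group
  obtain ⟨r, hr⟩ : ∃ r, r = C.t j l * C.xa i j * (C.t j l)⁻¹ := ⟨_, rfl⟩
  have hr1 : r ∈ C.X (inl i) (inr j) := by
    rw [hr]
    exact C.TT_X hI (subset_closure ⟨j, l, rfl⟩) (C.xa_mem hI hij)
  have e' : s * C.xa i j = r * (s * (C.t i t * C.t j (-t⁻¹)) * r * s) := by
    rw [hr]
    exact e
  have hT : ∀ k (z : Fˣ), C.t k z ∈ C.TT := fun k z => subset_closure ⟨k, z, rfl⟩
  refine ⟨C.t i l₀ * r * (C.t i l₀)⁻¹, C.TT_X hI (hT _ _) hr1,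
    C.t j l₀ * (C.t i t * C.t j (-t⁻¹)) * (C.t i l₀)⁻¹,
    mul_mem (mul_mem (hT _ _) (mul_mem (hT _ _) (hT _ _))) (inv_mem (hT _ _)),
    C.t i l₀ * r * (C.t i l₀)⁻¹, C.TT_X hI (hT _ _) hr1, ?_⟩
  have e3 : s * (C.t j l₀ * C.xa i j * (C.t j l₀)⁻¹) = C.t i l₀ * (s * C.xa i j) * (C.t j l₀)⁻¹ := by
    rw [← mul_assoc, ← mul_assoc, hE2]
    group
  rw [e3, e']
  have e4 : s * (C.t j l₀)⁻¹⁻¹ = C.t i l₀ * s := by
    rw [inv_inv]
    exact hE2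
  have e5 : s * (C.t j l₀ * (C.t i t * C.t j (-t⁻¹)) * (C.t i l₀)⁻¹) * (C.t i l₀ * r * (C.t i l₀)⁻¹) * s =
      C.t i l₀ * (s * (C.t i t * C.t j (-t⁻¹)) * r * s) * (C.t j l₀)⁻¹ := by
    have e6 : (C.t i l₀)⁻¹ * s = s * (C.t j l₀)⁻¹ := by
      rw [eq_mul_inv_iff_mul_eq, mul_assoc, hE2]
      group
    calc s * (C.t j l₀ * (C.t i t * C.t j (-t⁻¹)) * (C.t i l₀)⁻¹) * (C.t i l₀ * r * (C.t i l₀)⁻¹) * s
        = (s * C.t j l₀) * (C.t i t * C.t j (-t⁻¹)) * r * ((C.t i l₀)⁻¹ * s) := by group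
      _ = (C.t i l₀ * s) * (C.t i t * C.t j (-t⁻¹)) * r * (s * (C.t j l₀)⁻¹) := by rw [hE2, e6]
      _ = _ := by group
  rw [e5]
  group

lemma ri_all (i : Option (Fin m')) {x : Γ} (hx : x ∈ Xs C.M C.X i) (h1 : x ≠ 1) :
    ∃ x₁ ∈ Xs C.M C.X i, ∃ t ∈ C.TT, ∃ x₂ ∈ Xs C.M C.X i, C.ss i * x = x₁ * (C.ss i * t * x₂ * C.ss i) := by
  cases i with
  | none => exact C.ri_none hx h1
  | some k =>
    have hne : k.succ ≠ k.castSucc := by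
      intro e
      have := congrArg Fin.val e
      simp at this
    have := C.ri_X hI hne hx h1
    rw [Equiv.swap_comm] at this
    exact this

lemma gen_all : closure ((C.TT : Set Γ) ∪ Uh C.M C.X 1 ∪ Set.range C.ss) = ⊤ := by
  rw [eq_top_iff, ← C.gen, closure_le]
  set Hh := closure ((C.TT : Set Γ) ∪ Uh C.M C.X 1 ∪ Set.range C.ss) with hHh
  have hT : ∀ {x : Γ}, x ∈ C.TT → x ∈ Hh := fun h => subset_closure (Or.inl (Or.inl h))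
  have hU : ∀ {x : Γ}, x ∈ Uh C.M C.X 1 → x ∈ Hh := fun h => subset_closure (Or.inl (Or.inr h))
  have hS : ∀ i, C.ss i ∈ Hh := fun i => subset_closure (Or.inr ⟨i, rfl⟩)
  rintro x (⟨τ, rfl⟩ | ⟨g, rfl⟩)
  · have h1 : (⊤ : Submonoid (Equiv.Perm (Fin (m' + 1)))) ≤ (Hh.comap C.ρ).toSubmonoid := by
      rw [← Equiv.Perm.mclosure_swap_castSucc_succ m', Submonoid.closure_le]
      rintro _ ⟨k, rfl⟩
      exact hS (some k)
    exact h1 (Submonoid.mem_top τ)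
  · have hB : ∀ {β : GJ σ}, β ∈ BJ σ → C.κ 0 β ∈ Hh := by
      intro β hβ
      obtain ⟨a, b, h, d, rfl⟩ := BJ_decomp hσ hβ
      rw [map_mul]
      refine mul_mem (hU ?_) (hT (subset_closure ⟨0, d, rfl⟩))
      exact subset_closure (mem_USet_M (a := inl 0) (by simp) (C.κ_MG_mem 0 a b h))
    rcases bruhat hσ hδ hδ' g with h | ⟨β₁, h1, β₂, h2, rfl⟩
    · exact hB h
    · rw [map_mul, map_mul]
      exact mul_mem (mul_mem (hB h1) (hS none)) (hB h2)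

/-- The root data. -/
def toRootD : RootD Γ m' where
  M := C.M
  X := C.X
  T := C.TT
  N := C.NN
  s := C.ss
  X_symm := fun a b x hx => XOf_symm hx
  F2 := fun a b hab x hx u hu => C.F2 hI a b hab hx hu
  F3 := fun a b c hab h1 h2 x hx u hu => C.F3 hI a b c hab h1 h2 hx hu
  F4 := fun a b hab u hu x hx => C.F4 hI a b hab hu hx
  F5 := fun a b c h1 h2 h3 x hx y hy => C.F5 hI a b c h1 h2 h3 hx hy
  F6 := fun a b c d h1 h2 h3 h4 h5 h6 x hx y hy => C.F6 hI a b c d h1 h2 h3 h4 h5 h6 hx hy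
  F7 := fun a b c h1 h2 h3 x hx y hy => C.F7 hI a b c h1 h2 h3 hx hy
  F8 := fun a b h x hx y hy => C.F8 hI a b h hx hy
  X_comm := fun a b h x hx y hy => C.X_comm hI a b h hx hy
  MM := fun a b _ u hu v hv => cm_mem_XOf hu hv
  T_le_N := closure_mono (fun _ h => Or.inl (Or.inl h))
  T_act := fun t ht => ActsOn_of (C.TT_act ht).1
  act := by
    intro n hn
    obtain ⟨π, h1, h2⟩ := C.NN_act hn
    exact ⟨π, h1, ActsOn_of h2.1, ActsOn_of h2.2⟩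
  s_mem := C.ss_mem
  s_act := by
    intro i
    obtain ⟨h1, h2⟩ := C.ss_act i
    refine ⟨ActsOn_of h1.1, ?_⟩
    have := h1.2
    rw [h2] at this
    exact ActsOn_of this
  s_sq := C.ss_sq
  ri := fun i x hx h1 => C.ri_all hI i hx h1
  gen := C.gen_all hI

end RI

end OCfg

end Cfsg.Agent.Lib.PrsSU
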