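import Mathlib
import Cfsg.Agent.Lib.PrsSUG

/-!
# Presentations of special unitary groups: blocks and permutations in a model
-/

set_option autoImplicit false
set_option linter.unusedSectionVars false
set_option linter.unusedVariables false

namespace Cfsg.Agent.Lib.PrsSU

open Subgroup Sum Cfsg.Agent.Lib.SUWitt Cfsg.Agent.Lib.PrsU3
open scoped Matrix

variable {F : Type*} [Field F] {n : ℕ} {σ : F →+* F} {Gt : Type*} [Group Gt] (Mo : Model (n := n) σ Gt)

section Block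

variable (f : Fin 3 → Fin n) (hf : Function.Injective f) (hrev : ∀ t, f t.rev = (f t).rev)

variable (F) in
/-- The inclusion of coordinates. -/
def Pm (f : Fin 3 → Fin n) : Matrix (Fin n) (Fin 3) F := Matrix.of fun r t => if r = f t then 1 else 0

variable (F) in
/-- The restriction of coordinates. -/
def Qm (f : Fin 3 → Fin n) : Matrix (Fin 3) (Fin n) F := Matrix.of fun t r => if r = f t then 1 else 0

include hf in
lemma Qm_Pm : Qm F f * Pm F f = (1 : Matrix (Fin 3) (Fin 3) F) := by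
  ext s t
  rw [Matrix.mul_apply]
  simp only [Qm, Pm, Matrix.of_apply]
  rw [Finset.sum_eq_single (f s)]
  · simp only [if_true]
    by_cases h : s = t
    · subst h
      simp
    · rw [if_neg (fun e => h (hf e)), Matrix.one_apply_ne h]
      simp
  · intro r _ hr
    simp [hr]
  · simp

lemma Qm_mulVec (x : Fin n → F) (t : Fin 3) : (Qm F f *ᵥ x) t = x (f t) := by
  simp [Qm, Matrix.mulVec, dotProduct]

lemma Pm_mulVec (a : Fin 3 → F) : Pm F f *ᵥ a = a 0 • e (f 0) + a 1 • e (f 1) + a 2 • e (f 2) := by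
  ext r
  simp [Pm, Matrix.mulVec, dotProduct, Fin.sum_univ_three, e_apply]

/-- The block matrix. -/
def Ab (f : Fin 3 → Fin n) (g : GJ σ) : Matrix (Fin n) (Fin n) F := 1 + Pm F f * (g.1.1 - 1) * Qm F f

lemma Ab_mulVec (g : GJ σ) (x : Fin n → F) : Ab f g *ᵥ x = x + Pm F f *ᵥ ((g.1.1 - 1) *ᵥ (Qm F f *ᵥ x)) := by
  simp [Ab, Matrix.add_mulVec, Matrix.mulVec_mulVec, Matrix.mul_assoc]

include hf in
lemma Ab_mul (g h : GJ σ) : Ab f (g * h) = Ab f g * Ab f h := by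
  have e1 : (g * h).1.1 = g.1.1 * h.1.1 := rfl
  have key : Pm F f * (g.1.1 - 1) * Qm F f * (Pm F f * (h.1.1 - 1) * Qm F f) = Pm F f * ((g.1.1 - 1) * (h.1.1 - 1)) * Qm F f := by
    calc Pm F f * (g.1.1 - 1) * Qm F f * (Pm F f * (h.1.1 - 1) * Qm F f)
        = Pm F f * (g.1.1 - 1) * (Qm F f * Pm F f) * (h.1.1 - 1) * Qm F f := by simp only [Matrix.mul_assoc]
      _ = _ := by rw [Qm_Pm f hf, Matrix.mul_one]; simp only [Matrix.mul_assoc]
  unfold Ab
  have e2 : (1 + Pm F f * (g.1.1 - 1) * Qm F f) * (1 + Pm F f * (h.1.1 - 1) * Qm F f) =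
      1 + Pm F f * (g.1.1 - 1) * Qm F f + Pm F f * (h.1.1 - 1) * Qm F f +
        Pm F f * (g.1.1 - 1) * Qm F f * (Pm F f * (h.1.1 - 1) * Qm F f) := by
    simp only [Matrix.add_mul, Matrix.mul_add, Matrix.one_mul, Matrix.mul_one]
    abel
  rw [e2, e1, key]
  have : g.1.1 * h.1.1 - 1 = (g.1.1 - 1) + (h.1.1 - 1) + (g.1.1 - 1) * (h.1.1 - 1) := by
    simp only [sub_mul, mul_sub, one_mul, mul_one]
    abel
  rw [this, Matrix.mul_add, Matrix.mul_add, Matrix.add_mul, Matrix.add_mul]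
  abel

lemma Ab_one : Ab f (1 : GJ σ) = 1 := by
  unfold Ab
  have : (1 : GJ σ).1.1 = 1 := rfl
  rw [this]
  simp

include hf in
lemma Ab_det (g : GJ σ) : (Ab f g).det = 1 := by
  unfold Ab
  rw [Matrix.det_one_add_mul_comm, ← Matrix.mul_assoc, Qm_Pm f hf, Matrix.one_mul]
  simp only [add_sub_cancel]
  exact g.1.2

lemma fJ_add_left (u u' v : Fin 3 → F) : fJ σ (u + u') v = fJ σ u v + fJ σ u' v := by
  simp [fJ]
  ring

lemma fJ_add_right (u v v' : Fin 3 → F) : fJ σ u (v + v') = fJ σ u v + fJ σ u v' := by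
  simp [fJ]
  ring

include hrev in
lemma hJ_P_right (x : Fin n → F) (b : Fin 3 → F) : hJ σ x (Pm F f *ᵥ b) = fJ σ (Qm F f *ᵥ x) b := by
  have r0 : (f 0).rev = f 2 := (hrev 0).symm
  have r1 : (f 1).rev = f 1 := (hrev 1).symm
  have r2 : (f 2).rev = f 0 := (hrev 2).symm
  rw [Pm_mulVec]
  simp only [hJ_add_right, hJ_smul_right, hJ_e_right, fJ, Qm_mulVec, r0, r1, r2]
  ring

include hrev in
lemma hJ_P_left (a : Fin 3 → F) (y : Fin n → F) : hJ σ (Pm F f *ᵥ a) y = fJ σ a (Qm F f *ᵥ y) := by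
  have r0 : (f 0).rev = f 2 := (hrev 0).symm
  have r1 : (f 1).rev = f 1 := (hrev 1).symm
  have r2 : (f 2).rev = f 0 := (hrev 2).symm
  rw [Pm_mulVec]
  simp only [hJ_add_left, hJ_smul_left, hJ_e_left, fJ, Qm_mulVec, r0, r1, r2]

include hf in
lemma Qm_Pm_mulVec (a : Fin 3 → F) : Qm F f *ᵥ (Pm F f *ᵥ a) = a := by
  rw [Matrix.mulVec_mulVec, Qm_Pm f hf, Matrix.one_mulVec]

include hf hrev in
lemma Ab_pres (g : GJ σ) (x y : Fin n → F) : hJ σ (Ab f g *ᵥ x) (Ab f g *ᵥ y) = hJ σ x y := by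
  rw [Ab_mulVec, Ab_mulVec, hJ_add_left, hJ_add_right, hJ_add_right, hJ_P_right f hrev, hJ_P_right f hrev,
    hJ_P_left f hrev, Qm_Pm_mulVec f hf]
  have h := (mem_GJ_iff g.1).1 g.2 (Qm F f *ᵥ x) (Qm F f *ᵥ y)
  have e1 : ∀ u : Fin 3 → F, g.1.1 *ᵥ u = u + (g.1.1 - 1) *ᵥ u := by
    intro u
    rw [Matrix.sub_mulVec, Matrix.one_mulVec]
    abel
  change fJ σ (g.1.1 *ᵥ _) (g.1.1 *ᵥ _) = _ at h
  rw [e1 (Qm F f *ᵥ x), e1 (Qm F f *ᵥ y), fJ_add_left, fJ_add_right, fJ_add_right] at h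
  linear_combination h

/-- The block homomorphism. -/
noncomputable def blockM (hf : Function.Injective f) (hrev : ∀ t, f t.rev = (f t).rev) : GJ σ →* Gt :=
  MonoidHom.mk' (fun g => Classical.choose (Mo.realize (Ab f g) (Ab_pres f hf hrev g) (Ab_det f hf g))) (by
    intro g h
    apply Mo.inj
    rw [map_mul, Classical.choose_spec (Mo.realize (Ab f (g * h)) (Ab_pres f hf hrev _) (Ab_det f hf _)),
      Classical.choose_spec (Mo.realize (Ab f g) (Ab_pres f hf hrev _) (Ab_det f hf _)),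
      Classical.choose_spec (Mo.realize (Ab f h) (Ab_pres f hf hrev _) (Ab_det f hf _)), Ab_mul f hf])

lemma toM_blockM (g : GJ σ) : Mo.toM (blockM Mo f hf hrev g) = Ab f g :=
  Classical.choose_spec (Mo.realize (Ab f g) (Ab_pres f hf hrev _) (Ab_det f hf _))

lemma blockM_act (g : GJ σ) (x : Fin n → F) :
    Mo.toM (blockM Mo f hf hrev g) *ᵥ x = x + Pm F f *ᵥ ((g.1.1 - 1) *ᵥ (Qm F f *ᵥ x)) := by
  rw [toM_blockM, Ab_mulVec]

lemma Qm_e_self (t : Fin 3) (hf : Function.Injective f) : Qm F f *ᵥ (e (f t) : Fin n → F) = e t := by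
  ext s
  rw [Qm_mulVec, e_apply, e_apply]
  by_cases h : s = t
  · subst h
    simp
  · rw [if_neg h, if_neg (fun e => h (hf e))]

lemma Qm_e_off {s : Fin n} (h : ∀ t, s ≠ f t) : Qm F f *ᵥ (e s : Fin n → F) = 0 := by
  ext t
  rw [Qm_mulVec, e_apply, if_neg (h t).symm]
  rfl

lemma blockM_e (g : GJ σ) (t : Fin 3) : Mo.toM (blockM Mo f hf hrev g) *ᵥ e (f t) =
    g.1.1 0 t • e (f 0) + g.1.1 1 t • e (f 1) + g.1.1 2 t • e (f 2) := by
  rw [blockM_act, Qm_e_self f t hf, Pm_mulVec]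
  have h : ∀ s, ((g.1.1 - 1) *ᵥ (e t : Fin 3 → F)) s = g.1.1 s t - if s = t then 1 else 0 := by
    intro s
    rw [mulVec_e_apply, Matrix.sub_apply, Matrix.one_apply]
  simp only [h, sub_smul]
  fin_cases t <;> simp <;> abel

lemma blockM_off (g : GJ σ) {s : Fin n} (h : ∀ t, s ≠ f t) : Mo.toM (blockM Mo f hf hrev g) *ᵥ e s = e s := by
  rw [blockM_act, Qm_e_off f h]
  simp

include hf hrev in
lemma hJ_f_f (s t : Fin 3) : hJ σ (e (f s) : Fin n → F) (e (f t)) = if s = t.rev then 1 else 0 := by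
  rw [hJ_e_e, ← hrev t]
  by_cases h : s = t.rev
  · simp [h]
  · rw [if_neg h, if_neg (fun e => h (hf e))]

lemma rev_fin3 : (0 : Fin 3).rev = 2 ∧ (1 : Fin 3).rev = 1 ∧ (2 : Fin 3).rev = 0 := by decide

include hf hrev in
lemma cond_block {a b : F} (h : a * σ a + b + σ b = 0) : Cond σ (e (f 0)) (a • e (f 1)) b := by
  obtain ⟨h0, h1, h2⟩ := rev_fin3
  refine ⟨?_, ?_, ?_⟩
  · rw [hJ_f_f f hf hrev, if_neg (by decide)]
  · rw [hJ_smul_left, hJ_f_f f hf hrev, if_neg (by decide), mul_zero]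
  · rw [hJ_smul_left, hJ_smul_right, hJ_f_f f hf hrev, if_pos (by decide)]
    linear_combination h

lemma blockM_MG (hσ : ∀ x, σ (σ x) = x) {a b : F} (h : a * σ a + b + σ b = 0) :
    blockM Mo f hf hrev (MG hσ a b h) = Mo.E (e (f 0)) (a • e (f 1)) b := by
  obtain ⟨h0, h1, h2⟩ := rev_fin3
  apply Model.G_ext (D := Mo)
  intro x
  rw [blockM_act, Model.act_E (cond_block f hf hrev h), Pm_mulVec]
  have e1 : hJ σ x (e (f 0)) = x (f 2) := by
    rw [hJ_e_right, ← hrev, h0]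
  have e2 : hJ σ x (a • e (f 1)) = σ a * x (f 1) := by
    rw [hJ_smul_right, hJ_e_right, ← hrev, h1]
  rw [e1, e2]
  have e3 : ∀ s, (((MG hσ a b h).1.1 - 1) *ᵥ (Qm F f *ᵥ x)) s =
      (Mm σ a b - 1) s 0 * x (f 0) + (Mm σ a b - 1) s 1 * x (f 1) + (Mm σ a b - 1) s 2 * x (f 2) := by
    intro s
    rw [mulVec3]
    simp only [Qm_mulVec]
    rfl
  rw [e3, e3, e3]
  simp [Mm, Matrix.one_apply]
  ext r
  simp
  ring

lemma blockM_DU (hσ : ∀ x, σ (σ x) = x) (d : Fˣ) (t : Fin 3) :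
    Mo.toM (blockM Mo f hf hrev (DU hσ d)) *ᵥ e (f t) = (Dm σ (d : F)) t t • e (f t) := by
  rw [blockM_e, DU_apply]
  fin_cases t <;> simp [Dm]

lemma blockM_W (hσ : ∀ x, σ (σ x) = x) {δ : F} (hδ : δ ≠ 0) (hδ' : σ δ = -δ) :
    Mo.toM (blockM Mo f hf hrev (WG hσ hδ hδ')) *ᵥ e (f 0) = (-δ⁻¹) • e (f 2) ∧
    Mo.toM (blockM Mo f hf hrev (WG hσ hδ hδ')) *ᵥ e (f 1) = e (f 1) ∧
    Mo.toM (blockM Mo f hf hrev (WG hσ hδ hδ')) *ᵥ e (f 2) = δ • e (f 0) := by
  refine ⟨?_, ?_, ?_⟩ <;> rw [blockM_e, WG_apply] <;> simp [Wm]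

end Block

section Perm

/-- The permutation matrix. -/
def permMat (F : Type*) [Field F] {n : ℕ} (p : Equiv.Perm (Fin n)) : Matrix (Fin n) (Fin n) F :=
  Matrix.of fun r s => if r = p s then 1 else 0

lemma permMat_mulVec (p : Equiv.Perm (Fin n)) (x : Fin n → F) : permMat F p *ᵥ x = fun r => x (p⁻¹ r) := by
  ext r
  simp only [Matrix.mulVec, dotProduct, permMat, Matrix.of_apply]
  rw [Finset.sum_eq_single (p⁻¹ r)]
  · simp
  · intro s _ hs
    rw [if_neg, zero_mul]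
    rintro rfl
    exact hs (by simp)
  · simp

lemma permMat_e (p : Equiv.Perm (Fin n)) (s : Fin n) : permMat F p *ᵥ (e s : Fin n → F) = e (p s) := by
  rw [permMat_mulVec]
  ext r
  rw [e_apply, e_apply]
  by_cases h : r = p s
  · subst h
    simp
  · rw [if_neg h, if_neg]
    rintro rfl
    exact h (by simp)

lemma permMat_mul (p p' : Equiv.Perm (Fin n)) : permMat F (p * p') = permMat F p * permMat F p' := by
  apply mat_ext'
  intro s
  rw [← Matrix.mulVec_mulVec, permMat_e, permMat_e, permMat_e]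
  rfl

lemma permMat_det (p : Equiv.Perm (Fin n)) (hs : Equiv.Perm.sign p = 1) : (permMat F p).det = 1 := by
  have e1 : permMat F p = (p⁻¹).permMatrix F := by
    apply mat_ext
    intro x
    rw [permMat_mulVec, Matrix.permMatrix_mulVec]
    rfl
  rw [e1, Matrix.det_permutation, Equiv.Perm.sign_inv, hs]
  simp

lemma permMat_pres (p : Equiv.Perm (Fin n)) (hp : ∀ s : Fin n, p s.rev = (p s).rev) (x y : Fin n → F) :
    hJ σ (permMat F p *ᵥ x) (permMat F p *ᵥ y) = hJ σ x y := by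
  rw [permMat_mulVec, permMat_mulVec]
  simp only [hJ]
  rw [← Equiv.sum_comp p]
  refine Finset.sum_congr rfl fun s _ => ?_
  rw [← hp]
  simp

/-- The element of a permutation. -/
noncomputable def permM (p : Equiv.Perm (Fin n)) (hp : ∀ s : Fin n, p s.rev = (p s).rev) (hs : Equiv.Perm.sign p = 1) : Gt :=
  Classical.choose (Mo.realize (permMat F p) (permMat_pres p hp) (permMat_det p hs))

lemma toM_permM (p : Equiv.Perm (Fin n)) (hp : ∀ s : Fin n, p s.rev = (p s).rev) (hs : Equiv.Perm.sign p = 1) :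
    Mo.toM (permM Mo p hp hs) = permMat F p :=
  Classical.choose_spec (Mo.realize (permMat F p) (permMat_pres p hp) (permMat_det p hs))

lemma permM_e (p : Equiv.Perm (Fin n)) (hp : ∀ s : Fin n, p s.rev = (p s).rev) (hs : Equiv.Perm.sign p = 1) (s : Fin n) :
    Mo.toM (permM Mo p hp hs) *ᵥ e s = e (p s) := by
  rw [toM_permM, permMat_e]

end Perm

end Cfsg.Agent.Lib.PrsSU
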