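import Mathlib
import Cfsg.Agent.Lib.PrsSUH

/-!
# Presentations of special unitary groups: the odd dimensional model
-/

set_option autoImplicit false
set_option linter.unusedSectionVars false
set_option linter.unusedVariables false

namespace Cfsg.Agent.Lib.PrsSU

open Subgroup Sum Cfsg.Agent.Lib.SUWitt Cfsg.Agent.Lib.PrsU3
open scoped Matrix commutatorElement

section EGen

variable {F : Type*} [Field F] {n : ℕ} {σ : F →+* F} {Gt : Type*} [Group Gt] {Mo : Model (n := n) σ Gt}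

/-- Commutators of Eichler elements. -/
lemma E_comm_gen {v v' m : Fin n → F} (hv : hJ σ v v = 0) (hv' : hJ σ v' v' = 0) (hvv' : hJ σ v v' = 0)
    (hm : hJ σ m m = 1) (hmv : hJ σ m v = 0) (hmv' : hJ σ m v' = 0) {a b a' b' : F} (h : a * σ a + b + σ b = 0)
    (h' : a' * σ a' + b' + σ b' = 0) :
    ⁅Mo.E v (a • m) b, Mo.E v' (a' • m) b'⁆ = Mo.E v ((a * σ a') • v') 0 := by
  have hσ := Mo.hσ.invol
  have hv'v : hJ σ v' v = 0 := by rw [← hJ_conj hσ, hvv', map_zero]
  have hvm : hJ σ v m = 0 := by rw [← hJ_conj hσ, hmv, map_zero]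
  have hv'm : hJ σ v' m = 0 := by rw [← hJ_conj hσ, hmv', map_zero]
  have c1 : Cond σ v (a • m) b := ⟨hv, by rw [hJ_smul_left, hmv, mul_zero], by
    rw [hJ_smul_left, hJ_smul_right, hm]
    linear_combination h⟩
  have c2 : Cond σ v' (a' • m) b' := ⟨hv', by rw [hJ_smul_left, hmv', mul_zero], by
    rw [hJ_smul_left, hJ_smul_right, hm]
    linear_combination h'⟩
  have e1 : Mo.toM (Mo.E v (a • m) b) *ᵥ v' = v' := by
    rw [Model.act_E c1, hv'v, hJ_smul_right, hv'm]
    simp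
  have e2 : Mo.toM (Mo.E v (a • m) b) *ᵥ (a' • m) = a' • m - (a' * σ a) • v := by
    rw [Model.act_E c1, hJ_smul_left, hJ_smul_left, hJ_smul_right, hm, hmv]
    ext k
    simp
  have c3 : Cond σ v' (a' • m - (a' * σ a) • v) b' := by
    have := Model.Cond.smul_act (D := Mo) c2 (Mo.E v (a • m) b)
    rwa [e1, e2] at this
  have c4 : Cond σ v' (-(a' • m)) (σ b') := by
    refine ⟨hv', ?_, ?_⟩
    · rw [hJ_neg_left, hJ_smul_left, hmv', mul_zero, neg_zero]
    · rw [hJ_neg_left, hJ_neg_right, hJ_smul_left, hJ_smul_right, hm, hσ]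
      linear_combination h'
  have hE : (Mo.E v' (a' • m) b')⁻¹ = Mo.E v' (-(a' • m)) (σ b') := by
    rw [inv_eq_iff_mul_eq_one, Model.E_mul c2 c4]
    have e3 : a' • m + -(a' • m) = 0 := by simp
    have e4 : b' + σ b' - hJ σ (-(a' • m)) (a' • m) = 0 := by
      rw [hJ_neg_left, hJ_smul_left, hJ_smul_right, hm]
      linear_combination h'
    rw [e3, e4]
    exact Model.E_zero_eq_one hv'
  rw [commutatorElement_def, Model.E_conj c2, e1, e2, hE, Model.E_mul c3 c4]
  have e3 : a' • m - (a' * σ a) • v + -(a' • m) = (-(a' * σ a)) • v := by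
    ext k
    simp
    ring
  have e4 : b' + σ b' - hJ σ (-(a' • m)) (a' • m - (a' * σ a) • v) = 0 := by
    rw [hJ_neg_left, hJ_smul_left, hJ_sub_right, hJ_smul_right, hJ_smul_right, hm, hmv]
    simp only [mul_zero, sub_zero, mul_one]
    linear_combination h'
  rw [e3, e4, Model.E_symm hv' hv hvv']
  congr 2
  simp only [map_neg, map_mul, hσ, neg_neg]
  ring

/-- The second commutator formula. -/
lemma E_comm_2 {v v' f' m : Fin n → F} (hv : hJ σ v v = 0) (hv' : hJ σ v' v' = 0) (hf' : hJ σ f' f' = 0)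
    (hvv' : hJ σ v v' = 0) (hvf' : hJ σ v f' = 0) (hf'v' : hJ σ f' v' = 1)
    (hm : hJ σ m m = 1) (hmv : hJ σ m v = 0) (hmv' : hJ σ m v' = 0) (hmf' : hJ σ m f' = 0) {c d : F} (u : F)
    (h : c * σ c + d + σ d = 0) :
    ⁅Mo.E v' (c • m) d, Mo.E v (u • f') 0⁆ = Mo.E v ((u * c) • m) (u * σ u * σ d) * Mo.E v ((u * d) • v') 0 := by
  have hσ := Mo.hσ.invol
  have hv'v : hJ σ v' v = 0 := by rw [← hJ_conj hσ, hvv', map_zero]
  have hf'v : hJ σ f' v = 0 := by rw [← hJ_conj hσ, hvf', map_zero]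
  have hv'f' : hJ σ v' f' = 1 := by rw [← hJ_conj hσ, hf'v', map_one]
  have hvm : hJ σ v m = 0 := by rw [← hJ_conj hσ, hmv, map_zero]
  have hv'm : hJ σ v' m = 0 := by rw [← hJ_conj hσ, hmv', map_zero]
  have hf'm : hJ σ f' m = 0 := by rw [← hJ_conj hσ, hmf', map_zero]
  have c1 : Cond σ v' (c • m) d := ⟨hv', by rw [hJ_smul_left, hmv', mul_zero], by
    rw [hJ_smul_left, hJ_smul_right, hm]
    linear_combination h⟩
  have c2 : Cond σ v (u • f') 0 := ⟨hv, by rw [hJ_smul_left, hf'v, mul_zero], by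
    rw [hJ_smul_left, hJ_smul_right, hf']
    simp⟩
  have e1 : Mo.toM (Mo.E v' (c • m) d) *ᵥ v = v := by
    rw [Model.act_E c1, hvv', hJ_smul_right, hvm]
    simp
  have e2 : Mo.toM (Mo.E v' (c • m) d) *ᵥ (u • f') = u • f' + (u * c) • m + (u * d) • v' := by
    rw [Model.act_E c1, hJ_smul_left, hJ_smul_left, hJ_smul_right, hf'v', hf'm]
    ext k
    simp
    ring
  have c3 : Cond σ v (u • f' + (u * c) • m + (u * d) • v') 0 := by
    have := Model.Cond.smul_act (D := Mo) c2 (Mo.E v' (c • m) d)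
    rwa [e1, e2] at this
  have c4 : Cond σ v (-(u • f')) (σ 0) := by
    refine ⟨hv, ?_, ?_⟩
    · rw [hJ_neg_left, hJ_smul_left, hf'v, mul_zero, neg_zero]
    · rw [hJ_neg_left, hJ_neg_right, hJ_smul_left, hJ_smul_right, hf']
      simp
  have hE : (Mo.E v (u • f') 0)⁻¹ = Mo.E v (-(u • f')) (σ 0) := by
    rw [inv_eq_iff_mul_eq_one, Model.E_mul c2 c4]
    have e3 : u • f' + -(u • f') = 0 := by simp
    have e4 : (0 : F) + σ 0 - hJ σ (-(u • f')) (u • f') = 0 := by
      rw [hJ_neg_left, hJ_smul_left, hJ_smul_right, hf']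
      simp
    rw [e3, e4]
    exact Model.E_zero_eq_one hv
  have c5 : Cond σ v ((u * c) • m) (u * σ u * σ d) := ⟨hv, by rw [hJ_smul_left, hmv, mul_zero], by
    rw [hJ_smul_left, hJ_smul_right, hm]
    simp only [map_mul, hσ]
    linear_combination (u * σ u) * h⟩
  have c6 : Cond σ v ((u * d) • v') 0 := ⟨hv, by rw [hJ_smul_left, hv'v, mul_zero], by
    rw [hJ_smul_left, hJ_smul_right, hv']
    simp⟩
  rw [commutatorElement_def, Model.E_conj c2, e1, e2, hE, Model.E_mul c3 c4, Model.E_mul c5 c6]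
  congr 1
  · ext k
    simp
    ring
  · simp only [hJ_add_right, hJ_neg_left, hJ_smul_left, hJ_smul_right, hf', hf'm, hf'v', hv'm, map_mul, map_zero, hσ]
    ring

/-- A conjugate by an element fixing the vectors. -/
lemma E_fix {v w : Fin n → F} {a : F} (h : Cond σ v w a) {g : Gt} (h1 : Mo.toM g *ᵥ v = v) (h2 : Mo.toM g *ᵥ w = w) :
    Commute g (Mo.E v w a) := by
  have := Model.E_conj (D := Mo) h g
  rw [h1, h2] at this
  exact mul_inv_eq_iff_eq_mul.1 this

end EGen

section OddIdx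

variable {m' : ℕ}

/-- The odd dimension. -/
abbrev nO (m' : ℕ) : ℕ := 2 * (m' + 1) + 1

/-- The coordinates of the signed indices. -/
def idxO : Ix (m' + 1) → Fin (nO m')
  | inl i => ⟨i, by have := i.2; simp only [nO]; omega⟩
  | inr i => ⟨2 * (m' + 1) - i, by simp only [nO]; omega⟩

/-- The middle coordinate. -/
def midO (m' : ℕ) : Fin (nO m') := ⟨m' + 1, by simp only [nO]; omega⟩

lemma idxO_rev (a : Ix (m' + 1)) : (idxO a).rev = idxO (bar a) := by
  apply Fin.ext
  cases a with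
  | inl i =>
    have := i.2
    simp only [Fin.val_rev, idxO, bar_inl, nO]
    omega
  | inr i =>
    have := i.2
    simp only [Fin.val_rev, idxO, bar_inr, nO]
    omega

lemma midO_rev : (midO m').rev = midO m' := by
  apply Fin.ext
  simp only [Fin.val_rev, midO, nO]
  omega

lemma idxO_inj : Function.Injective (idxO (m' := m')) := by
  intro a b h
  have h' := congrArg Fin.val h
  cases a with
  | inl i =>
    cases b with
    | inl j =>
      simp only [idxO] at h'
      rw [Fin.ext h']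
    | inr j =>
      have := i.2
      have := j.2
      simp only [idxO] at h'
      omega
  | inr i =>
    cases b with
    | inl j =>
      have := i.2
      have := j.2
      simp only [idxO] at h'
      omega
    | inr j =>
      have := i.2
      have := j.2
      simp only [idxO] at h'
      have : (i : ℕ) = j := by omega
      rw [Fin.ext this]

lemma idxO_ne_mid (a : Ix (m' + 1)) : idxO a ≠ midO m' := by
  intro h
  have h' := congrArg Fin.val h
  cases a with
  | inl i =>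
    have := i.2
    simp only [idxO, midO] at h'
    omega
  | inr i =>
    have := i.2
    simp only [idxO, midO] at h'
    omega

lemma idxO_cases (s : Fin (nO m')) : s = midO m' ∨ ∃ a, s = idxO a := by
  by_cases h1 : (s : ℕ) < m' + 1
  · right
    exact ⟨inl ⟨s, h1⟩, Fin.ext rfl⟩
  · by_cases h2 : (s : ℕ) = m' + 1
    · left
      exact Fin.ext h2
    · right
      have := s.2
      simp only [nO] at this
      have h3 : 2 * (m' + 1) - (s : ℕ) < m' + 1 := by omega
      refine ⟨inr ⟨2 * (m' + 1) - s, h3⟩, Fin.ext ?_⟩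
      simp only [idxO]
      omega

/-- The block of an index. -/
def fB (i : Fin (m' + 1)) : Fin 3 → Fin (nO m') := ![idxO (inl i), midO m', idxO (inr i)]

lemma fB_0 (i : Fin (m' + 1)) : fB i 0 = idxO (inl i) := rfl
lemma fB_1 (i : Fin (m' + 1)) : fB i 1 = midO m' := rfl
lemma fB_2 (i : Fin (m' + 1)) : fB i 2 = idxO (inr i) := rfl

lemma fB_inj (i : Fin (m' + 1)) : Function.Injective (fB i) := by
  intro s t h
  fin_cases s <;> fin_cases t <;> first
    | rfl
    | (exfalso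
       simp only [Fin.zero_eta, Fin.mk_one, Fin.reduceFinMk, fB_0, fB_1, fB_2] at h
       first
        | exact idxO_ne_mid _ h
        | exact idxO_ne_mid _ h.symm
        | exact absurd (idxO_inj h) (by simp))

lemma fB_rev (i : Fin (m' + 1)) (t : Fin 3) : fB i t.rev = (fB i t).rev := by
  fin_cases t
  · change fB i 2 = (fB i 0).rev
    rw [fB_0, fB_2, idxO_rev]
    rfl
  · change fB i 1 = (fB i 1).rev
    rw [fB_1, midO_rev]
  · change fB i 0 = (fB i 2).rev
    rw [fB_0, fB_2, idxO_rev]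
    rfl

lemma fB_off {i : Fin (m' + 1)} {a : Ix (m' + 1)} (h : ab a ≠ i) (t : Fin 3) : idxO a ≠ fB i t := by
  fin_cases t
  · intro e
    have : a = inl i := idxO_inj (show idxO a = idxO (inl i) from e)
    subst this
    exact h rfl
  · exact idxO_ne_mid a
  · intro e
    have : a = inr i := idxO_inj (show idxO a = idxO (inr i) from e)
    subst this
    exact h rfl

/-- The equivalence of coordinates. -/
noncomputable def eO (m' : ℕ) : Ix (m' + 1) ⊕ Unit ≃ Fin (nO m') :=
  Equiv.ofBijective (Sum.elim idxO (fun _ => midO m')) (by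
    constructor
    · rintro (a | _) (b | _) h
      · rw [idxO_inj h]
      · exact absurd h (idxO_ne_mid a)
      · exact absurd h.symm (idxO_ne_mid b)
      · rfl
    · intro s
      rcases idxO_cases s with rfl | ⟨a, rfl⟩
      · exact ⟨inr (), rfl⟩
      · exact ⟨inl a, rfl⟩)

/-- The permutation of coordinates. -/
noncomputable def permN (τ : Equiv.Perm (Fin (m' + 1))) : Equiv.Perm (Fin (nO m')) :=
  (eO m').permCongr (Equiv.sumCongr (lift τ) (Equiv.refl Unit))

lemma permN_idx (τ : Equiv.Perm (Fin (m' + 1))) (a : Ix (m' + 1)) : permN τ (idxO a) = idxO (lift τ a) := by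
  have e1 : idxO a = eO m' (inl a) := rfl
  have e2 : idxO (lift τ a) = eO m' (inl (lift τ a)) := rfl
  rw [e1, e2, permN, Equiv.permCongr_apply, Equiv.symm_apply_apply]
  rfl

lemma permN_mid (τ : Equiv.Perm (Fin (m' + 1))) : permN τ (midO m') = midO m' := by
  have e1 : midO m' = eO m' (inr ()) := rfl
  rw [e1, permN, Equiv.permCongr_apply, Equiv.symm_apply_apply]
  rfl

lemma permN_mul (τ τ' : Equiv.Perm (Fin (m' + 1))) : permN (τ * τ') = permN τ * permN τ' := by
  ext s
  congr 1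
  rcases idxO_cases s with rfl | ⟨a, rfl⟩
  · simp [permN_mid]
  · rw [Equiv.Perm.mul_apply, permN_idx, permN_idx, permN_idx]
    cases a <;> rfl

lemma permN_rev (τ : Equiv.Perm (Fin (m' + 1))) (s : Fin (nO m')) : permN τ s.rev = (permN τ s).rev := by
  rcases idxO_cases s with rfl | ⟨a, rfl⟩
  · rw [midO_rev, permN_mid, midO_rev]
  · rw [idxO_rev, permN_idx, permN_idx, idxO_rev, Signed_lift]

lemma permN_sign (τ : Equiv.Perm (Fin (m' + 1))) : Equiv.Perm.sign (permN τ) = 1 := by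
  rw [permN, Equiv.Perm.sign_permCongr, Equiv.Perm.sign_sumCongr]
  have e1 : lift τ = Equiv.sumCongr τ τ := rfl
  have e2 : (Equiv.refl Unit) = (1 : Equiv.Perm Unit) := rfl
  rw [e1, Equiv.Perm.sign_sumCongr, e2, map_one, mul_one]
  exact Int.units_mul_self _

lemma permN_fB (τ : Equiv.Perm (Fin (m' + 1))) (i : Fin (m' + 1)) (t : Fin 3) : permN τ (fB i t) = fB (τ i) t := by
  fin_cases t
  · exact permN_idx τ (inl i)
  · exact permN_mid τ
  · exact permN_idx τ (inr i)

section OddModel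

variable {F : Type*} [Field F] {σ : F →+* F} {Gt : Type*} [Group Gt] (Mo : Model (n := nO m') σ Gt)

/-- The block homomorphisms of the model. -/
noncomputable def κM (i : Fin (m' + 1)) : GJ σ →* Gt := blockM Mo (fB i) (fB_inj i) (fB_rev i)

/-- The permutation homomorphism of the model. -/
noncomputable def ρM : Equiv.Perm (Fin (m' + 1)) →* Gt :=
  MonoidHom.mk' (fun τ => permM Mo (permN τ) (permN_rev τ) (permN_sign τ)) (by
    intro τ τ'
    apply Mo.inj
    rw [map_mul, toM_permM, toM_permM, toM_permM, permN_mul, permMat_mul])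

lemma ρM_e (τ : Equiv.Perm (Fin (m' + 1))) (s : Fin (nO m')) : Mo.toM (ρM Mo τ) *ᵥ e s = e (permN τ s) :=
  permM_e Mo (permN τ) (permN_rev τ) (permN_sign τ) s

/-- The basis vectors of the signed indices. -/
abbrev vec (a : Ix (m' + 1)) : Fin (nO m') → F := e (idxO a)

/-- The middle basis vector. -/
abbrev vM (F : Type*) [Field F] (m' : ℕ) : Fin (nO m') → F := e (midO m')

lemma hJ_vec_vec (a b : Ix (m' + 1)) : hJ σ (vec a : Fin (nO m') → F) (vec b) = if a = bar b then 1 else 0 := by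
  rw [hJ_e_e, idxO_rev]
  by_cases h : a = bar b
  · simp [h]
  · rw [if_neg h, if_neg]
    exact fun e => h (idxO_inj e)

lemma hJ_vec_ne {a b : Ix (m' + 1)} (h : a ≠ bar b) : hJ σ (vec a : Fin (nO m') → F) (vec b) = 0 := by
  rw [hJ_vec_vec, if_neg h]

lemma hJ_vec_bar (a : Ix (m' + 1)) : hJ σ (vec (bar a) : Fin (nO m') → F) (vec a) = 1 := by
  rw [hJ_vec_vec, if_pos rfl]

lemma hJ_vM_vM : hJ σ (vM F m') (vM F m') = 1 := by
  rw [hJ_e_e, midO_rev, if_pos rfl]

lemma hJ_vM_vec (a : Ix (m' + 1)) : hJ σ (vM F m') (vec a) = 0 := by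
  rw [hJ_e_e, idxO_rev, if_neg]
  exact (idxO_ne_mid _).symm

lemma hJ_vec_vM (a : Ix (m' + 1)) : hJ σ (vec a) (vM F m') = 0 := by
  rw [hJ_e_e, midO_rev, if_neg]
  exact idxO_ne_mid _

lemma κM_e (i : Fin (m' + 1)) (g : GJ σ) (t : Fin 3) : Mo.toM (κM Mo i g) *ᵥ e (fB i t) =
    g.1.1 0 t • e (fB i 0) + g.1.1 1 t • e (fB i 1) + g.1.1 2 t • e (fB i 2) :=
  blockM_e Mo _ _ _ g t

lemma κM_off (i : Fin (m' + 1)) (g : GJ σ) {a : Ix (m' + 1)} (h : ab a ≠ i) : Mo.toM (κM Mo i g) *ᵥ vec a = vec a :=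
  blockM_off Mo _ _ _ g (fun t => fB_off h t)

variable (hσ : ∀ x, σ (σ x) = x) {δ : F} (hδ : δ ≠ 0) (hδ' : σ δ = -δ)

lemma κM_MG (i : Fin (m' + 1)) {a b : F} (h : a * σ a + b + σ b = 0) :
    κM Mo i (MG hσ a b h) = Mo.E (vec (inl i)) (a • vM F m') b :=
  blockM_MG Mo _ _ _ hσ h

lemma cond_MG (i : Fin (m' + 1)) {a b : F} (h : a * σ a + b + σ b = 0) :
    Cond σ (vec (inl i) : Fin (nO m') → F) (a • vM F m') b :=
  cond_block (fB i) (fB_inj i) (fB_rev i) h

lemma κM_DU_inl (i : Fin (m' + 1)) (d : Fˣ) : Mo.toM (κM Mo i (DU hσ d)) *ᵥ vec (inl i) = (d : F) • vec (inl i) := by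
  have h := blockM_DU Mo (fB i) (fB_inj i) (fB_rev i) hσ d 0
  simp [Dm] at h
  exact h

lemma κM_DU_inr (i : Fin (m' + 1)) (d : Fˣ) :
    Mo.toM (κM Mo i (DU hσ d)) *ᵥ vec (inr i) = (σ (d : F))⁻¹ • vec (inr i) := by
  have h := blockM_DU Mo (fB i) (fB_inj i) (fB_rev i) hσ d 2
  simp [Dm] at h
  exact h

lemma κM_DU_mid (i : Fin (m' + 1)) (d : Fˣ) :
    Mo.toM (κM Mo i (DU hσ d)) *ᵥ vM F m' = (σ (d : F) * (d : F)⁻¹) • vM F m' := by
  have h := blockM_DU Mo (fB i) (fB_inj i) (fB_rev i) hσ d 1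
  simp [Dm] at h
  exact h

lemma κM_W_inl (i : Fin (m' + 1)) : Mo.toM (κM Mo i (WG hσ hδ hδ')) *ᵥ vec (inl i) = (-δ⁻¹) • vec (inr i) :=
  (blockM_W Mo (fB i) (fB_inj i) (fB_rev i) hσ hδ hδ').1

lemma κM_W_mid (i : Fin (m' + 1)) : Mo.toM (κM Mo i (WG hσ hδ hδ')) *ᵥ vM F m' = vM F m' :=
  (blockM_W Mo (fB i) (fB_inj i) (fB_rev i) hσ hδ hδ').2.1

lemma κM_W_inr (i : Fin (m' + 1)) : Mo.toM (κM Mo i (WG hσ hδ hδ')) *ᵥ vec (inr i) = δ • vec (inl i) :=
  (blockM_W Mo (fB i) (fB_inj i) (fB_rev i) hσ hδ hδ').2.2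

/-- Equivariance of the blocks. -/
lemma ρM_κM (τ : Equiv.Perm (Fin (m' + 1))) (i : Fin (m' + 1)) (g : GJ σ) :
    ρM Mo τ * κM Mo i g * (ρM Mo τ)⁻¹ = κM Mo (τ i) g := by
  rw [mul_inv_eq_iff_eq_mul]
  apply Model.G_ext' (D := Mo)
  intro s
  rw [Model.act_mul, Model.act_mul, ρM_e]
  rcases idxO_cases s with rfl | ⟨a, rfl⟩
  · rw [permN_mid, show midO m' = fB i 1 from rfl, κM_e]
    simp only [Matrix.mulVec_add, Matrix.mulVec_smul, ρM_e, permN_fB]
    rw [show fB i 1 = midO m' from rfl, ← fB_1 (τ i), κM_e]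
  · by_cases h : ab a = i
    · cases a with
      | inl j =>
        obtain rfl : j = i := h
        rw [permN_idx, lift_inl]
        change Mo.toM _ *ᵥ Mo.toM _ *ᵥ e (fB j 0) = Mo.toM _ *ᵥ e (fB (τ j) 0)
        rw [κM_e, κM_e]
        simp only [Matrix.mulVec_add, Matrix.mulVec_smul, ρM_e, permN_fB]
      | inr j =>
        obtain rfl : j = i := h
        rw [permN_idx, lift_inr]
        change Mo.toM _ *ᵥ Mo.toM _ *ᵥ e (fB j 2) = Mo.toM _ *ᵥ e (fB (τ j) 2)
        rw [κM_e, κM_e]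
        simp only [Matrix.mulVec_add, Matrix.mulVec_smul, ρM_e, permN_fB]
    · rw [κM_off _ _ _ h, permN_idx, ρM_e, permN_idx]
      symm
      apply κM_off
      intro e
      apply h
      cases a with
      | inl j => exact τ.injective e
      | inr j => exact τ.injective e

/-- The element `W` commutes with the other blocks. -/
lemma W_comm_κM {i j : Fin (m' + 1)} (hij : i ≠ j) (g : GJ σ) :
    Commute (κM Mo i (WG hσ hδ hδ')) (κM Mo j g) := by
  have hfix : ∀ t, Mo.toM (κM Mo i (WG hσ hδ hδ')) *ᵥ e (fB j t) = e (fB j t) := by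
    intro t
    fin_cases t
    · exact κM_off Mo i _ (a := inl j) hij.symm
    · exact κM_W_mid Mo hσ hδ hδ' i
    · exact κM_off Mo i _ (a := inr j) hij.symm
  apply Model.G_ext' (D := Mo)
  intro s
  rw [Model.act_mul, Model.act_mul]
  have hblock : ∀ t, Mo.toM (κM Mo i (WG hσ hδ hδ')) *ᵥ Mo.toM (κM Mo j g) *ᵥ e (fB j t) =
      Mo.toM (κM Mo j g) *ᵥ Mo.toM (κM Mo i (WG hσ hδ hδ')) *ᵥ e (fB j t) := by
    intro t
    rw [hfix t, κM_e]
    simp only [Matrix.mulVec_add, Matrix.mulVec_smul, hfix]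
  rcases idxO_cases s with rfl | ⟨a, rfl⟩
  · exact hblock 1
  · by_cases h : ab a = j
    · cases a with
      | inl k =>
        obtain rfl : k = j := h
        exact hblock 0
      | inr k =>
        obtain rfl : k = j := h
        exact hblock 2
    · rw [κM_off Mo j g h]
      by_cases h2 : ab a = i
      · cases a with
        | inl k =>
          obtain rfl : k = i := h2
          change _ *ᵥ vec (inl k) = Mo.toM _ *ᵥ Mo.toM _ *ᵥ vec (inl k)
          rw [κM_W_inl, Matrix.mulVec_smul, κM_off Mo j g (a := inr k) hij]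
        | inr k =>
          obtain rfl : k = i := h2
          change _ *ᵥ vec (inr k) = Mo.toM _ *ᵥ Mo.toM _ *ᵥ vec (inr k)
          rw [κM_W_inr, Matrix.mulVec_smul, κM_off Mo j g (a := inl k) hij]
      · rw [κM_off Mo i _ h2, κM_off Mo j g h]

/-- The entries of the middle conjugation. -/
lemma AdD_entry (l : Fˣ) (g : GJ σ) (r t : Fin 3) : (AdD hσ l g).1.1 r t =
    (dMid ((eps hσ l : Fˣ) : F)) r r * g.1.1 r t * (dMid (((eps hσ l)⁻¹ : Fˣ) : F)) t t := by
  rw [AdD_apply]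
  simp only [Matrix.mul_apply, Fin.sum_univ_three]
  fin_cases r <;> fin_cases t <;> simp [dMid]

/-- The action of a torus element on another block. -/
lemma t_other {i j : Fin (m' + 1)} (hij : i ≠ j) (l : Fˣ) (t : Fin 3) :
    Mo.toM (κM Mo i (DU hσ l)) *ᵥ e (fB j t) = (dMid ((eps hσ l : Fˣ) : F)) t t • e (fB j t) := by
  fin_cases t
  · have := κM_off Mo i (DU hσ l) (a := inl j) hij.symm
    simpa [dMid, fB_0] using this
  · have := κM_DU_mid Mo hσ i l
    simpa [dMid, fB_1, eps_coe] using this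
  · have := κM_off Mo i (DU hσ l) (a := inr j) hij.symm
    simpa [dMid, fB_2] using this

/-- The torus acts by the middle conjugation. -/
lemma t_κM {i j : Fin (m' + 1)} (hij : i ≠ j) (l : Fˣ) (g : GJ σ) :
    κM Mo i (DU hσ l) * κM Mo j g * (κM Mo i (DU hσ l))⁻¹ = κM Mo j (AdD hσ l g) := by
  rw [mul_inv_eq_iff_eq_mul]
  apply Model.G_ext' (D := Mo)
  intro s
  rw [Model.act_mul, Model.act_mul]
  have hblock : ∀ t, Mo.toM (κM Mo i (DU hσ l)) *ᵥ Mo.toM (κM Mo j g) *ᵥ e (fB j t) =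
      Mo.toM (κM Mo j (AdD hσ l g)) *ᵥ Mo.toM (κM Mo i (DU hσ l)) *ᵥ e (fB j t) := by
    intro t
    rw [t_other Mo hσ hij l t, Matrix.mulVec_smul, κM_e, κM_e]
    simp only [Matrix.mulVec_add, Matrix.mulVec_smul, t_other Mo hσ hij l, AdD_entry]
    have h1 : ((eps hσ l : Fˣ) : F) ≠ 0 := Units.ne_zero _
    have h2 : (((eps hσ l)⁻¹ : Fˣ) : F) * ((eps hσ l : Fˣ) : F) = 1 := by
      rw [← Units.val_mul, inv_mul_cancel, Units.val_one]
    have h3 : (dMid ((eps hσ l : Fˣ) : F) t t) * (dMid (((eps hσ l)⁻¹ : Fˣ) : F) t t) = 1 := by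
      fin_cases t <;> simp [dMid, mul_comm, h2]
    ext k
    simp only [Pi.add_apply, Pi.smul_apply, smul_eq_mul]
    linear_combination (-(dMid ((eps hσ l : Fˣ) : F) 0 0 * g.1.1 0 t * e (fB j 0) k +
      dMid ((eps hσ l : Fˣ) : F) 1 1 * g.1.1 1 t * e (fB j 1) k +
      dMid ((eps hσ l : Fˣ) : F) 2 2 * g.1.1 2 t * e (fB j 2) k)) * h3
  rcases idxO_cases s with rfl | ⟨a, rfl⟩
  · exact hblock 1
  · by_cases h : ab a = j
    · cases a with
      | inl k =>
        obtain rfl : k = j := h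
        exact hblock 0
      | inr k =>
        obtain rfl : k = j := h
        exact hblock 2
    · rw [κM_off Mo j g h]
      by_cases h2 : ab a = i
      · cases a with
        | inl k =>
          obtain rfl : k = i := h2
          change _ *ᵥ vec (inl k) = _ *ᵥ Mo.toM _ *ᵥ vec (inl k)
          rw [κM_DU_inl, Matrix.mulVec_smul, κM_off Mo j _ (a := inl k) hij]
        | inr k =>
          obtain rfl : k = i := h2
          change _ *ᵥ vec (inr k) = _ *ᵥ Mo.toM _ *ᵥ vec (inr k)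
          rw [κM_DU_inr, Matrix.mulVec_smul, κM_off Mo j _ (a := inr k) hij]
      · rw [κM_off Mo i _ h2, κM_off Mo j _ h]

end OddModel

end OddIdx

end Cfsg.Agent.Lib.PrsSU
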