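import Mathlib
import Cfsg.Agent.Lib.PrsSUI

/-!
# Presentations of special unitary groups: the odd dimensional model, its relations
-/

set_option autoImplicit false
set_option linter.unusedSectionVars false
set_option linter.unusedVariables false

namespace Cfsg.Agent.Lib.PrsSU

open Subgroup Sum Cfsg.Agent.Lib.SUWitt Cfsg.Agent.Lib.PrsU3
open scoped Matrix commutatorElement

variable {m' : ℕ} {F : Type*} [Field F] {σ : F →+* F} {Gt : Type*} [Group Gt] (Mo : Model (n := nO m') σ Gt)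
variable (hσ : ∀ x, σ (σ x) = x) {δ : F} (hδ : δ ≠ 0) (hδ' : σ δ = -δ) {b₀ : F} (hb₀ : (1 : F) * σ 1 + b₀ + σ b₀ = 0)

section Basic

lemma condX {a b : Ix (m' + 1)} (hab : ab a ≠ ab b) (x : F) : Cond σ (vec a : Fin (nO m') → F) (x • vec b) 0 := by
  refine ⟨hJ_vec_ne (bar_ne a).symm, ?_, ?_⟩
  · rw [hJ_smul_left, hJ_vec_ne, mul_zero]
    rintro rfl
    exact hab (by simp)
  · rw [hJ_smul_left, hJ_smul_right, hJ_vec_ne (bar_ne b).symm]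
    simp

lemma E_X_fix {a b c : Ix (m' + 1)} (hab : ab a ≠ ab b) (x : F) (h1 : c ≠ bar a) (h2 : c ≠ bar b) :
    Mo.toM (Mo.E (vec a) (x • vec b) 0) *ᵥ vec c = vec c := by
  rw [Model.act_E (condX hab x), hJ_vec_ne h1, hJ_smul_right, hJ_vec_ne h2]
  simp

lemma E_X_mid {a b : Ix (m' + 1)} (hab : ab a ≠ ab b) (x : F) :
    Mo.toM (Mo.E (vec a) (x • vec b) 0) *ᵥ vM F m' = vM F m' := by
  rw [Model.act_E (condX hab x), hJ_vM_vec, hJ_smul_right, hJ_vM_vec]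
  simp

lemma E_X_bar {a b : Ix (m' + 1)} (hab : ab a ≠ ab b) (x : F) :
    Mo.toM (Mo.E (vec a) (x • vec b) 0) *ᵥ vec (bar a) = vec (bar a) + x • vec b := by
  have hne : bar a ≠ bar b := fun e => hab (by
    have := congrArg bar e
    simp only [bar_bar] at this
    rw [this])
  rw [Model.act_E (condX hab x), hJ_vec_bar, hJ_smul_right, hJ_vec_ne hne]
  simp

lemma E_X_bar' {a b : Ix (m' + 1)} (hab : ab a ≠ ab b) (x : F) :
    Mo.toM (Mo.E (vec a) (x • vec b) 0) *ᵥ vec (bar b) = vec (bar b) - σ x • vec a := by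
  have hne : bar b ≠ bar a := fun e => hab (by
    have := congrArg bar e
    simp only [bar_bar] at this
    rw [this])
  rw [Model.act_E (condX hab x), hJ_vec_ne hne, hJ_smul_right, hJ_vec_bar]
  simp

/-- The commutator of two blocks. -/
lemma M_comm {i j : Fin (m' + 1)} (hij : i ≠ j) {c d c' d' : F} (h : c * σ c + d + σ d = 0)
    (h' : c' * σ c' + d' + σ d' = 0) :
    ⁅κM Mo i (MG hσ c d h), κM Mo j (MG hσ c' d' h')⁆ = Mo.E (vec (inl i)) ((c * σ c') • vec (inl j)) 0 := by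
  rw [κM_MG, κM_MG]
  refine E_comm_gen (hJ_vec_ne (bar_ne _).symm) (hJ_vec_ne (bar_ne _).symm) (hJ_vec_ne (by simp)) hJ_vM_vM (hJ_vM_vec _)
    (hJ_vM_vec _) h h'

lemma M_xb {i j : Fin (m' + 1)} (hij : i ≠ j) :
    xbK hσ hb₀ (κM Mo) i j = Mo.E (vec (inl i)) ((1 : F) • vec (inl j)) 0 := by
  unfold xbK
  rw [M_comm Mo hσ hij]
  simp

lemma M_Y {i j : Fin (m' + 1)} (hij : i ≠ j) (c : Fˣ) :
    YK hσ hb₀ (κM Mo) i j c = Mo.E (vec (inl i)) ((c : F) • vec (inl j)) 0 := by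
  unfold YK
  rw [M_xb Mo hσ hb₀ hij, Model.E_conj (condX (by simpa using hij) _), κM_off Mo j _ (a := inl i) hij, Matrix.mulVec_smul,
    κM_DU_inl]
  simp

lemma M_xa {i j : Fin (m' + 1)} (hij : i ≠ j) :
    xaK hσ hδ hδ' hb₀ (κM Mo) i j = Mo.E (vec (inl i)) ((-δ⁻¹) • vec (inr j)) 0 := by
  unfold xaK
  rw [M_xb Mo hσ hb₀ hij, Model.E_conj (condX (by simpa using hij) _), κM_off Mo j _ (a := inl i) hij, Matrix.mulVec_smul,
    κM_W_inl]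
  simp

/-- Short root elements commute with the block of the second index. -/
lemma M_X_comm {i j : Fin (m' + 1)} (hij : i ≠ j) (x : F) {a b : F} (h : a * σ a + b + σ b = 0) :
    Commute (Mo.E (vec (inl i)) (x • vec (inl j)) 0) (κM Mo j (MG hσ a b h)) := by
  rw [κM_MG]
  have hn : ab (inl i : Ix (m' + 1)) ≠ ab (inl j) := hij
  refine E_fix (cond_MG j h) (E_X_fix Mo hn x (by simp) (by simp)) ?_
  rw [Matrix.mulVec_smul, E_X_mid Mo hn]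

/-- The torus elements fixing the short root element. -/
lemma M_c5 {i j : Fin (m' + 1)} (hij : i ≠ j) (l : Fˣ) :
    Commute (κM Mo i (DU hσ l) * κM Mo j (DU hσ (sU hσ l)⁻¹)) (xbK hσ hb₀ (κM Mo) i j) := by
  have hn : ab (inl i : Ix (m' + 1)) ≠ ab (inl j) := hij
  rw [M_xb Mo hσ hb₀ hij]
  have h1 := Model.E_conj (D := Mo) (condX hn (1 : F)) (κM Mo i (DU hσ l) * κM Mo j (DU hσ (sU hσ l)⁻¹))
  have e1 : Mo.toM (κM Mo i (DU hσ l) * κM Mo j (DU hσ (sU hσ l)⁻¹)) *ᵥ vec (inl i) = (l : F) • vec (inl i) := by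
    rw [Model.act_mul, κM_off Mo j _ (a := inl i) hij, κM_DU_inl]
  have e2 : Mo.toM (κM Mo i (DU hσ l) * κM Mo j (DU hσ (sU hσ l)⁻¹)) *ᵥ ((1 : F) • vec (inl j)) =
      (σ (l : F))⁻¹ • vec (inl j) := by
    rw [Model.act_mul, Matrix.mulVec_smul, Matrix.mulVec_smul, κM_DU_inl, Matrix.mulVec_smul,
      κM_off Mo i _ (a := inl j) hij.symm]
    simp [sU_coe]
  rw [e1, e2] at h1
  have c1 : Cond σ (vec (inl i) : Fin (nO m') → F) ((σ (l : F))⁻¹ • vec (inl j)) 0 := condX hn _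
  rw [Model.E_smul_v c1] at h1
  have e3 : σ (l : F) • (σ (l : F))⁻¹ • (vec (inl j) : Fin (nO m') → F) = (1 : F) • vec (inl j) := by
    rw [smul_smul, mul_inv_cancel₀ (sig_ne hσ l.ne_zero)]
  rw [e3, zero_mul] at h1
  exact mul_inv_eq_iff_eq_mul.1 h1

/-- Short root elements commute with the other blocks. -/
lemma M_c6 {i j k : Fin (m' + 1)} (hij : i ≠ j) (hki : k ≠ i) (hkj : k ≠ j) (g : GJ σ) :
    Commute (xbK hσ hb₀ (κM Mo) i j) (κM Mo k g) := by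
  have hn : ab (inl i : Ix (m' + 1)) ≠ ab (inl j) := hij
  rw [M_xb Mo hσ hb₀ hij]
  refine (E_fix (condX hn _) (κM_off Mo k g (a := inl i) hki.symm) ?_).symm
  rw [Matrix.mulVec_smul, κM_off Mo k g (a := inl j) hkj.symm]

/-- The second commutator formula for blocks. -/
lemma M_comm2 {i j : Fin (m' + 1)} (hij : i ≠ j) {c d : F} (h : c * σ c + d + σ d = 0) :
    ∃ h' : (-δ⁻¹ * c) * σ (-δ⁻¹ * c) + (-δ⁻¹ * σ (-δ⁻¹) * σ d) + σ (-δ⁻¹ * σ (-δ⁻¹) * σ d) = 0,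
      ⁅κM Mo j (MG hσ c d h), xaK hσ hδ hδ' hb₀ (κM Mo) i j⁆ =
      κM Mo i (MG hσ (-δ⁻¹ * c) (-δ⁻¹ * σ (-δ⁻¹) * σ d) h') * Mo.E (vec (inl i)) ((-δ⁻¹ * d) • vec (inl j)) 0 := by
  have h' : (-δ⁻¹ * c) * σ (-δ⁻¹ * c) + (-δ⁻¹ * σ (-δ⁻¹) * σ d) + σ (-δ⁻¹ * σ (-δ⁻¹) * σ d) = 0 := by
    simp only [map_mul, hσ]
    linear_combination (-δ⁻¹ * σ (-δ⁻¹)) * h
  refine ⟨h', ?_⟩
  rw [M_xa Mo hσ hδ hδ' hb₀ hij, κM_MG, κM_MG]
  exact E_comm_2 (hJ_vec_ne (bar_ne _).symm) (hJ_vec_ne (bar_ne _).symm) (hJ_vec_ne (bar_ne _).symm) (hJ_vec_ne (by simp))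
    (hJ_vec_ne (by simpa using hij)) (hJ_vec_bar _) hJ_vM_vM (hJ_vM_vec _) (hJ_vM_vec _) (hJ_vM_vec _) _ h

include hσ in
lemma b_ne_zero {c d : F} (hc : c ≠ 0) (h : c * σ c + d + σ d = 0) : d ≠ 0 := by
  rintro rfl
  have : c * σ c = 0 := by simpa using h
  rcases mul_eq_zero.1 this with h1 | h1
  · exact hc h1
  · exact sig_ne hσ hc h1

/-- The first part of the rank one identity. -/
lemma M_c7 {i j : Fin (m' + 1)} (hij : i ≠ j) {c d : F} (hc : c ≠ 0) (h : c * σ c + d + σ d = 0) :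
    ∃ r ∈ (UU hσ).map (κM Mo i), ∃ c' : Fˣ, ⁅κM Mo j (MG hσ c d h), xaK hσ hδ hδ' hb₀ (κM Mo) i j⁆ =
      r * YK hσ hb₀ (κM Mo) i j c' := by
  obtain ⟨h', e⟩ := M_comm2 Mo hσ hδ hδ' hb₀ hij h
  have hd := b_ne_zero hσ hc h
  have h3 : -δ⁻¹ * d ≠ 0 := mul_ne_zero (neg_ne_zero.2 (inv_ne_zero hδ)) hd
  refine ⟨_, ⟨_, MG_mem_UU hσ _ _ h', rfl⟩, Units.mk0 _ h3, ?_⟩
  rw [e, M_Y Mo hσ hb₀ hij]
  rfl

end Basic

section RI

/-- The computation behind the rank one identity. -/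
lemma ri_abstract {i j : Fin (m' + 1)} (hδ : δ ≠ 0) (s X₀ X₁ D : Gt)
    (hs_i : Mo.toM s *ᵥ vec (inl i) = vec (inl j)) (hs_j : Mo.toM s *ᵥ vec (inl j) = vec (inl i))
    (hs_i' : Mo.toM s *ᵥ vec (inr i) = vec (inr j)) (hs_j' : Mo.toM s *ᵥ vec (inr j) = vec (inr i))
    (hs_m : Mo.toM s *ᵥ vM F m' = vM F m')
    (hs_o : ∀ a : Ix (m' + 1), ab a ≠ i → ab a ≠ j → Mo.toM s *ᵥ vec a = vec a)
    (a1 : Mo.toM X₀ *ᵥ vec (inl i) = vec (inl i))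
    (a2 : Mo.toM X₀ *ᵥ vec (inl j) = vec (inl j) - δ • vec (inl i))
    (a3 : Mo.toM X₀ *ᵥ vec (inr i) = vec (inr i) + (-δ) • vec (inr j))
    (a4 : Mo.toM X₀ *ᵥ vec (inr j) = vec (inr j))
    (am : Mo.toM X₀ *ᵥ vM F m' = vM F m')
    (ao : ∀ a : Ix (m' + 1), ab a ≠ i → ab a ≠ j → Mo.toM X₀ *ᵥ vec a = vec a)
    (b1 : Mo.toM X₁ *ᵥ vec (inl i) = vec (inl i))
    (b2 : Mo.toM X₁ *ᵥ vec (inl j) = vec (inl j) - δ⁻¹ • vec (inl i))
    (b3 : Mo.toM X₁ *ᵥ vec (inr i) = vec (inr i) + (-δ⁻¹) • vec (inr j))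
    (b4 : Mo.toM X₁ *ᵥ vec (inr j) = vec (inr j))
    (bm : Mo.toM X₁ *ᵥ vM F m' = vM F m')
    (bo : ∀ a : Ix (m' + 1), ab a ≠ i → ab a ≠ j → Mo.toM X₁ *ᵥ vec a = vec a)
    (D_i : Mo.toM D *ᵥ vec (inl i) = (-δ⁻¹) • vec (inl i))
    (D_j : Mo.toM D *ᵥ vec (inl j) = δ • vec (inl j))
    (D_i' : Mo.toM D *ᵥ vec (inr i) = δ • vec (inr i))
    (D_j' : Mo.toM D *ᵥ vec (inr j) = (-δ⁻¹) • vec (inr j))
    (D_m : Mo.toM D *ᵥ vM F m' = vM F m')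
    (D_o : ∀ a : Ix (m' + 1), ab a ≠ i → ab a ≠ j → Mo.toM D *ᵥ vec a = vec a) :
    s * X₁ = X₀ * (s * D * X₀ * s) := by
  apply Model.G_ext' (D := Mo)
  intro r
  simp only [Model.act_mul]
  rcases idxO_cases r with rfl | ⟨a, rfl⟩
  · rw [hs_m, am, D_m, hs_m, am, bm, hs_m]
  by_cases h1 : ab a = i
  · cases a with
    | inl k =>
      obtain rfl : k = i := h1
      change Mo.toM s *ᵥ Mo.toM X₁ *ᵥ vec (inl k) = Mo.toM X₀ *ᵥ Mo.toM s *ᵥ Mo.toM D *ᵥ Mo.toM X₀ *ᵥ Mo.toM s *ᵥ vec (inl k)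
      simp only [hs_i, a2, b1, Matrix.mulVec_sub, Matrix.mulVec_smul, D_j, D_i, hs_i, hs_j, a1, a2]
      ext z
      simp only [Pi.add_apply, Pi.sub_apply, Pi.smul_apply, smul_eq_mul]
      field_simp
      ring
    | inr k =>
      obtain rfl : k = i := h1
      change Mo.toM s *ᵥ Mo.toM X₁ *ᵥ vec (inr k) = Mo.toM X₀ *ᵥ Mo.toM s *ᵥ Mo.toM D *ᵥ Mo.toM X₀ *ᵥ Mo.toM s *ᵥ vec (inr k)
      simp only [hs_i', a4, b3, Matrix.mulVec_add, Matrix.mulVec_smul, D_j', hs_i', hs_j', a3, a4]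
      ext z
      simp only [Pi.add_apply, Pi.sub_apply, Pi.smul_apply, smul_eq_mul]
      field_simp
      ring
  by_cases h2 : ab a = j
  · cases a with
    | inl k =>
      obtain rfl : k = j := h2
      change Mo.toM s *ᵥ Mo.toM X₁ *ᵥ vec (inl k) = Mo.toM X₀ *ᵥ Mo.toM s *ᵥ Mo.toM D *ᵥ Mo.toM X₀ *ᵥ Mo.toM s *ᵥ vec (inl k)
      simp only [hs_j, a1, b2, Matrix.mulVec_sub, Matrix.mulVec_smul, D_i, hs_i, hs_j, a2]
      ext z
      simp only [Pi.add_apply, Pi.sub_apply, Pi.smul_apply, smul_eq_mul]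
      field_simp
      ring
    | inr k =>
      obtain rfl : k = j := h2
      change Mo.toM s *ᵥ Mo.toM X₁ *ᵥ vec (inr k) = Mo.toM X₀ *ᵥ Mo.toM s *ᵥ Mo.toM D *ᵥ Mo.toM X₀ *ᵥ Mo.toM s *ᵥ vec (inr k)
      simp only [hs_j', a3, b4, Matrix.mulVec_add, Matrix.mulVec_smul, D_i', D_j', hs_i', hs_j', a3, a4]
      ext z
      simp only [Pi.add_apply, Pi.sub_apply, Pi.smul_apply, smul_eq_mul]
      field_simp
      ring
  · change Mo.toM s *ᵥ Mo.toM X₁ *ᵥ vec a = Mo.toM X₀ *ᵥ Mo.toM s *ᵥ Mo.toM D *ᵥ Mo.toM X₀ *ᵥ Mo.toM s *ᵥ vec a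
    rw [hs_o a h1 h2, ao a h1 h2, D_o a h1 h2, hs_o a h1 h2, ao a h1 h2, bo a h1 h2, hs_o a h1 h2]

/-- The rank one identity in the model. -/
lemma M_c8 {i j : Fin (m' + 1)} (hij : i ≠ j) :
    ∃ l t : Fˣ, ρM Mo (Equiv.swap i j) * xaK hσ hδ hδ' hb₀ (κM Mo) i j =
    (κM Mo j (DU hσ l) * xaK hσ hδ hδ' hb₀ (κM Mo) i j * (κM Mo j (DU hσ l))⁻¹) *
      (ρM Mo (Equiv.swap i j) * (κM Mo i (DU hσ t) * κM Mo j (DU hσ (-t⁻¹))) *
        (κM Mo j (DU hσ l) * xaK hσ hδ hδ' hb₀ (κM Mo) i j * (κM Mo j (DU hσ l))⁻¹) * ρM Mo (Equiv.swap i j)) := by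
  have hδi : δ⁻¹ ≠ 0 := inv_ne_zero hδ
  have hsδ : σ δ⁻¹ = -δ⁻¹ := by
    rw [map_inv₀, hδ']
    exact inv_neg
  let u : F := -δ⁻¹
  have hu : u ≠ 0 := neg_ne_zero.2 hδi
  have hsu : σ u = δ⁻¹ := by
    simp only [u, map_neg, hsδ, neg_neg]
  let l : Fˣ := Units.mk0 (δ⁻¹ * δ⁻¹) (mul_ne_zero hδi hδi)
  let t : Fˣ := Units.mk0 (-δ⁻¹) hu
  refine ⟨l, t, ?_⟩
  have hn : ab (inl i : Ix (m' + 1)) ≠ ab (inr j) := hij
  rw [M_xa Mo hσ hδ hδ' hb₀ hij]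
  have e1 : κM Mo j (DU hσ l) * Mo.E (vec (inl i)) ((-δ⁻¹) • vec (inr j)) 0 * (κM Mo j (DU hσ l))⁻¹ =
      Mo.E (vec (inl i)) ((-δ) • vec (inr j)) 0 := by
    rw [Model.E_conj (condX hn _), κM_off Mo j _ (a := inl i) hij, Matrix.mulVec_smul, κM_DU_inr]
    congr 1
    rw [smul_smul]
    congr 1
    simp only [l, Units.val_mk0, map_mul, hsδ]
    field_simp
  rw [e1]
  let X₀ := Mo.E (vec (inl i)) ((-δ) • vec (inr j)) 0
  let X₁ := Mo.E (vec (inl i)) ((-δ⁻¹) • vec (inr j)) 0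
  let s := ρM Mo (Equiv.swap i j)
  have hsp : ∀ a : Ix (m' + 1), Mo.toM s *ᵥ vec a = vec (lift (Equiv.swap i j) a) := by
    intro a
    rw [ρM_e, permN_idx]
  have hs_i : Mo.toM s *ᵥ vec (inl i) = vec (inl j) := by
    rw [hsp]
    simp
  have hs_j : Mo.toM s *ᵥ vec (inl j) = vec (inl i) := by
    rw [hsp]
    simp
  have hs_i' : Mo.toM s *ᵥ vec (inr i) = vec (inr j) := by
    rw [hsp]
    simp
  have hs_j' : Mo.toM s *ᵥ vec (inr j) = vec (inr i) := by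
    rw [hsp]
    simp
  have hs_m : Mo.toM s *ᵥ vM F m' = vM F m' := by
    rw [ρM_e, permN_mid]
  -- the action of the root elements
  have X_act : ∀ x : F, (Mo.toM (Mo.E (vec (inl i)) (x • vec (inr j)) 0) *ᵥ vec (inl i) = vec (inl i)) ∧
      (Mo.toM (Mo.E (vec (inl i)) (x • vec (inr j)) 0) *ᵥ vec (inl j) = vec (inl j) - σ x • vec (inl i)) ∧
      (Mo.toM (Mo.E (vec (inl i)) (x • vec (inr j)) 0) *ᵥ vec (inr i) = vec (inr i) + x • vec (inr j)) ∧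
      (Mo.toM (Mo.E (vec (inl i)) (x • vec (inr j)) 0) *ᵥ vec (inr j) = vec (inr j)) := by
    intro x
    refine ⟨E_X_fix Mo hn x (by simp) (by simpa using hij), ?_, ?_, E_X_fix Mo hn x (by simpa using hij.symm) (by simp)⟩
    · exact E_X_bar' Mo hn x
    · exact E_X_bar Mo hn x
  obtain ⟨a1, a2, a3, a4⟩ := X_act (-δ)
  obtain ⟨b1, b2, b3, b4⟩ := X_act (-δ⁻¹)
  have sa : σ (-δ) = δ := by rw [map_neg, hδ', neg_neg]
  have sb : σ (-δ⁻¹) = δ⁻¹ := by rw [map_neg, hsδ, neg_neg]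
  rw [sa] at a2
  rw [sb] at b2
  -- the torus element
  have hD : ∀ a : Ix (m' + 1), ab a ≠ i → ab a ≠ j →
      Mo.toM (κM Mo i (DU hσ t) * κM Mo j (DU hσ (-t⁻¹))) *ᵥ vec a = vec a := by
    intro a h1 h2
    rw [Model.act_mul, κM_off Mo j _ h2, κM_off Mo i _ h1]
  have ht : ((t : Fˣ) : F) = -δ⁻¹ := rfl
  have ht' : (((-t⁻¹ : Fˣ)) : F) = δ := by
    simp [ht]
  have hst : σ ((t : Fˣ) : F) = δ⁻¹ := by rw [ht, sb]
  have hst' : σ (((-t⁻¹ : Fˣ)) : F) = -δ := by rw [ht', hδ']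
  have D_i : Mo.toM (κM Mo i (DU hσ t) * κM Mo j (DU hσ (-t⁻¹))) *ᵥ vec (inl i) = (-δ⁻¹) • vec (inl i) := by
    rw [Model.act_mul, κM_off Mo j _ (a := inl i) hij, κM_DU_inl, ht]
  have D_j : Mo.toM (κM Mo i (DU hσ t) * κM Mo j (DU hσ (-t⁻¹))) *ᵥ vec (inl j) = δ • vec (inl j) := by
    rw [Model.act_mul, κM_DU_inl, ht', Matrix.mulVec_smul, κM_off Mo i _ (a := inl j) hij.symm]
  have D_i' : Mo.toM (κM Mo i (DU hσ t) * κM Mo j (DU hσ (-t⁻¹))) *ᵥ vec (inr i) = δ • vec (inr i) := by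
    rw [Model.act_mul, κM_off Mo j _ (a := inr i) hij, κM_DU_inr, hst, inv_inv]
  have D_j' : Mo.toM (κM Mo i (DU hσ t) * κM Mo j (DU hσ (-t⁻¹))) *ᵥ vec (inr j) = (-δ⁻¹) • vec (inr j) := by
    rw [Model.act_mul, κM_DU_inr, hst', Matrix.mulVec_smul, κM_off Mo i _ (a := inr j) hij.symm, inv_neg]
  have D_m : Mo.toM (κM Mo i (DU hσ t) * κM Mo j (DU hσ (-t⁻¹))) *ᵥ vM F m' = vM F m' := by
    rw [Model.act_mul, κM_DU_mid, Matrix.mulVec_smul, κM_DU_mid, smul_smul, hst', hst, ht', ht]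
    have : (-δ * (δ:F)⁻¹ * (δ⁻¹ * (-δ⁻¹)⁻¹)) = 1 := by
      field_simp
    rw [this, one_smul]
  have hmX : ∀ x : F, Mo.toM (Mo.E (vec (inl i)) (x • vec (inr j)) 0) *ᵥ vM F m' = vM F m' := fun x => E_X_mid Mo hn x
  have hoX : ∀ (x : F) (a : Ix (m' + 1)), ab a ≠ i → ab a ≠ j → Mo.toM (Mo.E (vec (inl i)) (x • vec (inr j)) 0) *ᵥ vec a = vec a := by
    intro x a h1 h2
    refine E_X_fix Mo hn x ?_ ?_
    · rintro rfl
      exact h1 rfl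
    · rintro rfl
      exact h2 rfl
  have ham := hmX (-δ)
  have hbm := hmX (-δ⁻¹)
  have hao := hoX (-δ)
  have hbo := hoX (-δ⁻¹)
  have hso : ∀ a : Ix (m' + 1), ab a ≠ i → ab a ≠ j → Mo.toM s *ᵥ vec a = vec a := by
    intro a h1 h2
    rw [hsp]
    congr 1
    cases a with
    | inl k =>
      have h1' : k ≠ i := h1
      have h2' : k ≠ j := h2
      rw [lift_inl, Equiv.swap_apply_of_ne_of_ne h1' h2']
    | inr k =>
      have h1' : k ≠ i := h1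
      have h2' : k ≠ j := h2
      rw [lift_inr, Equiv.swap_apply_of_ne_of_ne h1' h2']
  exact ri_abstract Mo hδ s X₀ X₁ _ hs_i hs_j hs_i' hs_j' hs_m hso a1 a2 a3 a4 ham hao b1 b2 b3 b4 hbm hbo D_i D_j D_i' D_j' D_m hD

end RI

end Cfsg.Agent.Lib.PrsSU
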