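import Mathlib
import Cfsg.Agent.Lib.SUWitt1
import Cfsg.Agent.Lib.UnipCrit

set_option autoImplicit false
set_option linter.unusedSectionVars false
set_option linter.unusedSimpArgs false
set_option linter.unusedVariables false

/-!
# The unitary group in a Witt basis: rank functions, root elements, center, centralizers of radicals
-/

namespace Cfsg.Agent.Lib.SUWitt

open Matrix Cfsg.Agent.Lib.UnipCrit

variable {K : Type*} [Field K] {n : ℕ} {σ : K →+* K}
variable {Gt : Type*} [Group Gt] {D : Model (n := n) σ Gt}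

/-- The rank function. -/
def ρ (n : ℕ) : Fin n → ℕ := fun i => i

@[simp] theorem ρ_apply (i : Fin n) : ρ n i = i := rfl

theorem ρ_injective : Function.Injective (ρ n) := fun _ _ h => Fin.ext h

/-- The coarsening attached to the `t`-th simple root. -/
def fc (n t s : ℕ) : ℕ :=
  if s = t + 1 ∨ (s = n - 1 - t ∧ n - 2 - t = t + 1) then t else if s = n - 1 - t then n - 2 - t else s

theorem fc_spec (n t s : ℕ) : (s = t + 1 ∧ fc n t s = t) ∨ (s ≠ t + 1 ∧ s = n - 1 - t ∧ n - 2 - t = t + 1 ∧ fc n t s = t) ∨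
    (s ≠ t + 1 ∧ s = n - 1 - t ∧ n - 2 - t ≠ t + 1 ∧ fc n t s = n - 2 - t) ∨
    (s ≠ t + 1 ∧ s ≠ n - 1 - t ∧ fc n t s = s) := by
  unfold fc
  by_cases h1 : s = t + 1
  · left
    exact ⟨h1, if_pos (Or.inl h1)⟩
  · by_cases h2 : s = n - 1 - t
    · by_cases h3 : n - 2 - t = t + 1
      · right; left
        exact ⟨h1, h2, h3, if_pos (Or.inr ⟨h2, h3⟩)⟩
      · right; right; left
        refine ⟨h1, h2, h3, ?_⟩
        rw [if_neg (by tauto), if_pos h2]
    · right; right; right
      refine ⟨h1, h2, ?_⟩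
      rw [if_neg (by tauto), if_neg h2]

theorem fc_mono {t : ℕ} (ht : t < n / 2) {s s' : ℕ} (h : s < s') : fc n t s ≤ fc n t s' := by
  have h1 := fc_spec n t s
  have h2 := fc_spec n t s'
  omega

/-- The rank function of the `t`-th minimal parabolic subgroup. -/
def rc (t : Fin (n / 2)) (a : Fin n) : ℕ := fc n t a

theorem rc_mono (t : Fin (n / 2)) (a b : Fin n) (h : ρ n b < ρ n a) : rc t b ≤ rc t a := fc_mono t.2 h

section shapes

variable {ι : Type*} [Fintype ι] [DecidableEq ι]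

theorem isBlk_single3 {r : ι → ℕ} {k l k₂ l₂ k₃ l₃ : ι} (α β γ : K) (h : r k < r l) (h₂ : r k₂ < r l₂) (h₃ : r k₃ < r l₃) :
    IsBlk r (1 + Matrix.single k l α + Matrix.single k₂ l₂ β + Matrix.single k₃ l₃ γ) := by
  refine ⟨fun a b hab => ?_, fun a b hab => ?_⟩
  · rw [Matrix.add_apply, Matrix.add_apply, Matrix.add_apply, Matrix.one_apply_ne, Matrix.single_apply_of_ne,
      Matrix.single_apply_of_ne, Matrix.single_apply_of_ne, add_zero, add_zero, add_zero]
    · rintro ⟨rfl, rfl⟩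
      omega
    · rintro ⟨rfl, rfl⟩
      omega
    · rintro ⟨rfl, rfl⟩
      omega
    · rintro rfl
      exact lt_irrefl _ hab
  · rw [Matrix.add_apply, Matrix.add_apply, Matrix.add_apply, Matrix.one_apply, Matrix.single_apply_of_ne,
      Matrix.single_apply_of_ne, Matrix.single_apply_of_ne, add_zero, add_zero, add_zero]
    · rintro ⟨rfl, rfl⟩
      omega
    · rintro ⟨rfl, rfl⟩
      omega
    · rintro ⟨rfl, rfl⟩
      omega

theorem isPar_single3 {r : ι → ℕ} {k l k₂ l₂ k₃ l₃ : ι} (α β γ : K) (h : r l ≥ r k) (h₂ : r l₂ ≥ r k₂) (h₃ : r l₃ ≥ r k₃) :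
    IsPar r (1 + Matrix.single k l α + Matrix.single k₂ l₂ β + Matrix.single k₃ l₃ γ) := by
  intro a b hab
  rw [Matrix.add_apply, Matrix.add_apply, Matrix.add_apply, Matrix.one_apply_ne, Matrix.single_apply_of_ne,
    Matrix.single_apply_of_ne, Matrix.single_apply_of_ne, add_zero, add_zero, add_zero]
  · rintro ⟨rfl, rfl⟩
    omega
  · rintro ⟨rfl, rfl⟩
    omega
  · rintro ⟨rfl, rfl⟩
    omega
  · rintro rfl
    exact lt_irrefl _ hab

end shapes

theorem vecMulVec_e (c : K) (j k : Fin n) : vecMulVec (c • e j) (e k) = Matrix.single j k c := by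
  ext r s
  rw [vecMulVec_apply, Matrix.single_apply]
  simp only [Pi.smul_apply, smul_eq_mul, e_apply]
  by_cases h1 : r = j
  · by_cases h2 : s = k
    · simp [h1, h2]
    · simp [h2, Ne.symm h2]
  · simp [h1, Ne.symm h1]

theorem dual_e (hσ : ∀ x, σ (σ x) = x) (i : Fin n) : dual σ (e i : Fin n → K) = e i.rev := by
  ext k
  simp only [dual, e_apply, Fin.rev_eq_iff]
  split_ifs <;> simp

theorem dual_smul (c : K) (v : Fin n → K) : dual σ (c • v) = σ c • dual σ v := by
  ext k
  simp [dual]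

/-- The matrix of a general root element. -/
theorem eM_R (hσ : ∀ x, σ (σ x) = x) (i j : Fin n) (c a : K) : eM σ (e i) (c • e j) a =
    1 + Matrix.single j i.rev c + Matrix.single i i.rev a + Matrix.single i j.rev (- σ c) := by
  unfold eM
  rw [dual_e hσ, dual_smul, dual_e hσ, Matrix.add_vecMulVec, vecMulVec_e, vecMulVec_e, Matrix.vecMulVec_smul]
  have h : vecMulVec (e i) (e j.rev) = Matrix.single i j.rev (1 : K) := by
    rw [← vecMulVec_e, one_smul]
  rw [h, Matrix.smul_single, smul_eq_mul, mul_one, ← Matrix.single_neg]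
  simp only [sub_eq_add_neg, add_assoc]

theorem eM_T (hσ : ∀ x, σ (σ x) = x) (i : Fin n) (a : K) : eM σ (e i) 0 a = 1 + Matrix.single i i.rev a := by
  have h := eM_R hσ i i 0 a
  rw [zero_smul] at h
  rw [h]
  simp

/-- The conditions for a general root element. -/
theorem cond_R {i j : Fin n} {c a : K} (hi : i ≠ i.rev) (hj : j ≠ i.rev)
    (ha : a + σ a + c * σ c * (if j = j.rev then 1 else 0) = 0) : Cond σ (e i) (c • e j) a := by
  refine ⟨?_, ?_, ?_⟩
  · rw [hJ_e_e, if_neg hi]
  · rw [hJ_smul_left, hJ_e_e, if_neg hj, mul_zero]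
  · rw [hJ_smul_left, hJ_smul_right, hJ_e_e]
    linear_combination ha

theorem cond_T {i : Fin n} {a : K} (hi : i ≠ i.rev) (ha : a + σ a = 0) : Cond σ (e i) 0 a := by
  refine ⟨?_, hJ_zero_left _, ?_⟩
  · rw [hJ_e_e, if_neg hi]
  · rw [hJ_zero_left, add_zero, ha]

theorem toM_R {i j : Fin n} {c a : K} (hi : i ≠ i.rev) (hj : j ≠ i.rev)
    (ha : a + σ a + c * σ c * (if j = j.rev then 1 else 0) = 0) : D.toM (D.E (e i) (c • e j) a) =
    1 + Matrix.single j i.rev c + Matrix.single i i.rev a + Matrix.single i j.rev (- σ c) := by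
  rw [Model.toM_E (cond_R hi hj ha), eM_R D.hσ.invol]

theorem toM_T {i : Fin n} {a : K} (hi : i ≠ i.rev) (ha : a + σ a = 0) : D.toM (D.E (e i) 0 a) =
    1 + Matrix.single i i.rev a := by
  rw [Model.toM_E (cond_T hi ha), eM_T D.hσ.invol]

theorem T_blk {r : Fin n → ℕ} {i : Fin n} {a : K} (hi : r i < r i.rev) (hi' : i ≠ i.rev) (ha : a + σ a = 0) :
    IsBlk r (D.toM (D.E (e i) 0 a)) := by
  rw [toM_T hi' ha]
  exact isBlk_single1 _ hi

theorem R_blk {r : Fin n → ℕ} {i j : Fin n} {c a : K} (hi : i ≠ i.rev) (hj : j ≠ i.rev)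
    (ha : a + σ a + c * σ c * (if j = j.rev then 1 else 0) = 0) (h1 : r j < r i.rev) (h2 : r i < r i.rev)
    (h3 : r i < r j.rev) : IsBlk r (D.toM (D.E (e i) (c • e j) a)) := by
  rw [toM_R hi hj ha]
  exact isBlk_single3 _ _ _ h1 h2 h3

theorem T_par {r : Fin n → ℕ} {i : Fin n} {a : K} (hi : r i ≤ r i.rev) (hi' : i ≠ i.rev) (ha : a + σ a = 0) :
    IsPar r (D.toM (D.E (e i) 0 a)) := by
  rw [toM_T hi' ha]
  exact isPar_single1 _ hi

theorem R_par {r : Fin n → ℕ} {i j : Fin n} {c a : K} (hi : i ≠ i.rev) (hj : j ≠ i.rev)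
    (ha : a + σ a + c * σ c * (if j = j.rev then 1 else 0) = 0) (h1 : r j ≤ r i.rev) (h2 : r i ≤ r i.rev)
    (h3 : r i ≤ r j.rev) : IsPar r (D.toM (D.E (e i) (c • e j) a)) := by
  rw [toM_R hi hj ha]
  exact isPar_single3 _ _ _ h1 h2 h3

/-- A nonzero trace zero element. -/
theorem exists_theta (D : Model (n := n) σ Gt) : ∃ θ : K, θ ≠ 0 ∧ θ + σ θ = 0 := by
  obtain ⟨c, hc⟩ := D.hσ.ne_id
  refine ⟨c - σ c, sub_ne_zero.mpr (Ne.symm hc), ?_⟩
  rw [map_sub, D.hσ.invol]
  ring

/-- Existence of the parameter `a`. -/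
theorem exists_a (D : Model (n := n) σ Gt) (c : K) (δ : K) (hδ : σ δ = δ) : ∃ a : K, a + σ a + c * σ c * δ = 0 := by
  have h : σ (-(c * σ c * δ)) = -(c * σ c * δ) := by
    simp only [map_neg, map_mul, D.hσ.invol, hδ]
    ring
  obtain ⟨a, ha⟩ := D.hσ.trace_surj _ h
  exact ⟨a, by rw [ha]; ring⟩

theorem exists_a' (D : Model (n := n) σ Gt) (c : K) (j : Fin n) :
    ∃ a : K, a + σ a + c * σ c * (if j = j.rev then 1 else 0) = 0 := by
  apply exists_a D
  split_ifs <;> simp

/-- Commuting with a long root element. -/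
theorem comm_T {g : Gt} {i : Fin n} {a : K} (hi : i ≠ i.rev) (ha : a + σ a = 0) (ha0 : a ≠ 0)
    (h : g * D.E (e i) 0 a = D.E (e i) 0 a * g) :
    (∀ s, s ≠ i.rev → D.toM g i.rev s = 0) ∧ (∀ r, r ≠ i → D.toM g r i = 0) ∧ D.toM g i i = D.toM g i.rev i.rev := by
  apply comm1 ha0
  have h1 := congrArg D.toM h
  rw [map_mul, map_mul, toM_T hi ha, Matrix.mul_add, Matrix.add_mul, Matrix.mul_one, Matrix.one_mul] at h1
  exact add_left_cancel h1

/-- Commuting with a general root element: the entries. -/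
theorem comm_R_entry {g : Gt} {i j : Fin n} {c a : K} (hi : i ≠ i.rev) (hj : j ≠ i.rev)
    (ha : a + σ a + c * σ c * (if j = j.rev then 1 else 0) = 0)
    (h : g * D.E (e i) (c • e j) a = D.E (e i) (c • e j) a * g) (r s : Fin n) :
    (if s = i.rev then D.toM g r j * c else 0) + (if s = i.rev then D.toM g r i * a else 0) +
      (if s = j.rev then D.toM g r i * (- σ c) else 0) =
    (if r = j then c * D.toM g i.rev s else 0) + (if r = i then a * D.toM g i.rev s else 0) +
      (if r = i then (- σ c) * D.toM g j.rev s else 0) := by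
  have h1 := congrArg D.toM h
  rw [map_mul, map_mul, toM_R hi hj ha] at h1
  have h2 := congrFun (congrFun h1 r) s
  simp only [Matrix.mul_add, Matrix.add_mul, Matrix.mul_one, Matrix.one_mul, Matrix.add_apply, mul_single_apply',
    single_mul_apply'] at h2
  linear_combination h2

/-- The relations from commuting with a general root element, row `i`. -/
theorem comm_R {g : Gt} {i j : Fin n} {c a : K} (hi : i ≠ i.rev) (hj : j ≠ i.rev) (hij : i ≠ j)
    (ha : a + σ a + c * σ c * (if j = j.rev then 1 else 0) = 0)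
    (h : g * D.E (e i) (c • e j) a = D.E (e i) (c • e j) a * g) :
    (∀ s, s ≠ i.rev → s ≠ j.rev → a * D.toM g i.rev s = σ c * D.toM g j.rev s) ∧
    (a * D.toM g i.rev j.rev = σ c * (D.toM g j.rev j.rev - D.toM g i i)) ∧
    (D.toM g i j * c + D.toM g i i * a = a * D.toM g i.rev i.rev - σ c * D.toM g j.rev i.rev) := by
  have hrev : i.rev ≠ j.rev := fun h' => hij (Fin.rev_injective h')
  refine ⟨fun s h1 h2 => ?_, ?_, ?_⟩
  · have := comm_R_entry hi hj ha h i s
    simp only [if_neg h1, if_neg h2, if_neg hij, if_true, zero_add, add_zero] at this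
    linear_combination - this
  · have := comm_R_entry hi hj ha h i j.rev
    simp only [if_neg hrev.symm, if_neg hij, if_true, zero_add, add_zero] at this
    linear_combination - this
  · have := comm_R_entry hi hj ha h i i.rev
    simp only [if_neg hrev, if_neg hij, if_true, zero_add, add_zero] at this
    linear_combination this

end Cfsg.Agent.Lib.SUWitt
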