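import Mathlib
import Cfsg.Agent.Lib.SUWitt2

set_option autoImplicit false
set_option linter.unusedSectionVars false
set_option linter.unusedSimpArgs false
set_option linter.unusedVariables false

/-!
# The unitary group in a Witt basis: center, roots, scalars, centralizers of radicals
-/

namespace Cfsg.Agent.Lib.SUWitt

open Matrix Cfsg.Agent.Lib.UnipCrit

variable {K : Type*} [Field K] {n : ℕ} {σ : K →+* K}
variable {Gt : Type*} [Group Gt] {D : Model (n := n) σ Gt}

theorem rev_val (i : Fin n) : (i.rev : ℕ) = n - 1 - i := by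
  rw [Fin.val_rev]
  have := i.2
  omega

theorem ne_rev_of_lt {i : Fin n} (h : (i : ℕ) < i.rev) : i ≠ i.rev := fun h' => by
  rw [← h'] at h
  exact lt_irrefl _ h

theorem fin_ne_of_val {i j : Fin n} (h : (i : ℕ) ≠ j) : i ≠ j := fun h' => h (by rw [h'])

/-- Central elements are scalars. -/
theorem center_scalar (hn : 2 ≤ n) (z : Gt) (hz : z ∈ Subgroup.center Gt) : ∃ c : K, D.toM z = c • 1 := by
  have hcomm : ∀ g : Gt, z * g = g * z := fun g => (Subgroup.mem_center_iff.mp hz g).symm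
  obtain ⟨θ, hθ0, hθ⟩ := exists_theta D
  have hT : ∀ i : Fin n, i ≠ i.rev → _ := fun i hi => comm_T (D := D) (g := z) hi hθ hθ0 (hcomm _)
  let i₀ : Fin n := ⟨0, by omega⟩
  have hi₀ : i₀ ≠ i₀.rev := ne_rev_of_lt (by rw [rev_val]; simp only [i₀]; omega)
  have hd : ∀ k, D.toM z k k = D.toM z i₀ i₀ := by
    intro k
    by_cases h0 : k = i₀
    · rw [h0]
    by_cases h1 : k = i₀.rev
    · rw [h1]
      exact (hT i₀ hi₀).2.2.symm
    · obtain ⟨a, ha⟩ := exists_a' D (1 : K) k.rev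
      have hj : k.rev ≠ i₀.rev := fun h => h0 (Fin.rev_injective h)
      have hij : i₀ ≠ k.rev := fun h => h1 (by rw [h, Fin.rev_rev])
      have h2 := (comm_R (D := D) (g := z) hi₀ hj hij ha (hcomm _)).2.1
      rw [Fin.rev_rev, (hT i₀ hi₀).1 k h1, mul_zero, map_one, one_mul] at h2
      exact (sub_eq_zero.mp h2.symm)
  refine ⟨D.toM z i₀ i₀, ?_⟩
  ext r s
  rw [Matrix.smul_apply]
  by_cases hrs : r = s
  · subst hrs
    rw [hd, Matrix.one_apply_eq, smul_eq_mul, mul_one]
  · rw [Matrix.one_apply_ne hrs, smul_zero]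
    by_cases hs : s = s.rev
    · have hr : r.rev ≠ r.rev.rev := by
        rw [Fin.rev_rev]
        intro h
        apply hrs
        have h2 : (r : ℕ) = r.rev := by rw [h]
        have h3 : (s : ℕ) = s.rev := by rw [← hs]
        rw [rev_val] at h2 h3
        have := r.2
        have := s.2
        exact Fin.ext (by omega)
      have := (hT r.rev hr).1 s
      rw [Fin.rev_rev] at this
      exact this (Ne.symm hrs)
    · exact (hT s hs).2.1 r hrs

/-- The root elements. -/
theorem hasRoots (D : Model (n := n) σ Gt) : HasRoots D.toM (ρ n) := by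
  intro k l hkl
  have hkl' : (k : ℕ) < l := hkl
  have hne : k ≠ l := fin_ne_of_val (by omega)
  have hk2 := k.2
  have hl2 := l.2
  obtain ⟨θ, hθ0, hθ⟩ := exists_theta D
  by_cases hlk : l = k.rev
  · subst hlk
    have hk : k ≠ k.rev := hne
    refine ⟨D.E (e k) 0 θ, θ, hθ0, T_blk hkl hk hθ, ?_, fun s h1 h2 _ => ?_⟩
    · rw [toM_T hk hθ, Matrix.add_apply, Matrix.one_apply_ne hk, Matrix.single_apply_same, zero_add]
    · rw [toM_T hk hθ, Matrix.add_apply, Matrix.one_apply_ne (Ne.symm h1),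
        Matrix.single_apply_of_ne _ _ _ _ _ (fun h => h2 h.2.symm), add_zero]
  have hkl3 : k ≠ l.rev := fun h => hlk (by rw [h, Fin.rev_rev])
  by_cases hkk : (k : ℕ) < k.rev
  · have hk : k ≠ k.rev := ne_rev_of_lt hkk
    have hj : l.rev ≠ k.rev := fun h => hne (Fin.rev_injective h).symm
    obtain ⟨a, ha, ha0⟩ : ∃ a : K, a + σ a + (1 : K) * σ 1 * (if l.rev = l.rev.rev then 1 else 0) = 0 ∧ (l ≠ l.rev → a = 0) := by
      by_cases hmid : l = l.rev
      · obtain ⟨a, ha⟩ := exists_a' D (1 : K) l.rev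
        exact ⟨a, ha, fun h => absurd hmid h⟩
      · refine ⟨0, ?_, fun _ => rfl⟩
        rw [if_neg, map_zero]
        · ring
        · rw [Fin.rev_rev]
          exact Ne.symm hmid
    refine ⟨D.E (e k) ((1 : K) • e l.rev) a, -1, neg_ne_zero.mpr one_ne_zero, ?_, ?_, fun s h1 h2 h3 => ?_⟩
    · refine R_blk hk hj ha ?_ hkk ?_
      · simp only [ρ_apply, rev_val]
        omega
      · simp only [ρ_apply, rev_val]
        omega
    · rw [toM_R hk hj ha, Fin.rev_rev, Matrix.add_apply, Matrix.add_apply, Matrix.add_apply, Matrix.one_apply_ne hne,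
        Matrix.single_apply_of_ne _ _ _ _ _ (fun h => hkl3 h.1.symm),
        Matrix.single_apply_of_ne _ _ _ _ _ (fun h => hlk h.2.symm), Matrix.single_apply_same, map_one]
      ring
    · rw [toM_R hk hj ha, Fin.rev_rev, Matrix.add_apply, Matrix.add_apply, Matrix.add_apply, Matrix.one_apply_ne (Ne.symm h1),
        Matrix.single_apply_of_ne _ _ _ _ _ (fun h => hkl3 h.1.symm),
        Matrix.single_apply_of_ne _ _ _ _ _ (fun h => h2 h.2.symm), zero_add, zero_add, add_zero]
      by_cases hs : s = k.rev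
      · have hmid : l ≠ l.rev := by
          intro h
          have h4 : (l : ℕ) = l.rev := by rw [← h]
          have h5 : (s : ℕ) = k.rev := by rw [hs]
          have h3' : (s : ℕ) < l := h3
          rw [rev_val] at h4 h5
          omega
        rw [ha0 hmid, Matrix.single_zero, Matrix.zero_apply]
      · exact Matrix.single_apply_of_ne _ _ _ _ _ (fun h => hs h.2.symm)
  · have hl : l.rev ≠ l.rev.rev := by
      rw [Fin.rev_rev]
      intro h
      have h4 : (l : ℕ) = l.rev := by rw [h]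
      rw [rev_val] at h4 hkk
      omega
    have hj : k ≠ l.rev.rev := by rwa [Fin.rev_rev]
    obtain ⟨a, ha⟩ := exists_a' D (1 : K) k
    refine ⟨D.E (e l.rev) ((1 : K) • e k) a, 1, one_ne_zero, ?_, ?_, fun s h1 h2 h3 => ?_⟩
    · refine R_blk hl hj ha ?_ ?_ ?_
      · simp only [ρ_apply, Fin.rev_rev]
        exact hkl'
      · simp only [ρ_apply, Fin.rev_rev]
        rw [rev_val] at hkk ⊢
        omega
      · simp only [ρ_apply, rev_val]
        omega
    · rw [toM_R hl hj ha, Fin.rev_rev, Matrix.add_apply, Matrix.add_apply, Matrix.add_apply, Matrix.one_apply_ne hne,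
        Matrix.single_apply_same, Matrix.single_apply_of_ne _ _ _ _ _ (fun h => hkl3 h.1.symm),
        Matrix.single_apply_of_ne _ _ _ _ _ (fun h => hkl3 h.1.symm)]
      ring
    · rw [toM_R hl hj ha, Fin.rev_rev, Matrix.add_apply, Matrix.add_apply, Matrix.add_apply, Matrix.one_apply_ne (Ne.symm h1),
        Matrix.single_apply_of_ne _ _ _ _ _ (fun h => h2 h.2.symm), Matrix.single_apply_of_ne _ _ _ _ _ (fun h => hkl3 h.1.symm),
        Matrix.single_apply_of_ne _ _ _ _ _ (fun h => hkl3 h.1.symm)]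
      ring

/-- The diagonal entries of an upper triangular element. -/
theorem diag_mul (g : Gt) (hg : IsPar (ρ n) (D.toM g)) (i : Fin n) :
    D.toM g i i * σ (D.toM g i.rev i.rev) = 1 := by
  have h := D.pres g (e i) (e i.rev)
  rw [hJ_e_e, Fin.rev_rev, if_pos rfl] at h
  rw [← h, hJ, Finset.sum_eq_single i]
  · rw [mulVec_e_apply, mulVec_e_apply]
  · intro k _ hk
    rw [mulVec_e_apply, mulVec_e_apply]
    rcases lt_or_gt_of_ne (fun h' => hk (Fin.ext h') : (k : ℕ) ≠ i) with h1 | h1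
    · rw [show D.toM g k.rev i.rev = 0 from hg _ _ (by
        simp only [ρ_apply, rev_val]
        have := i.2
        omega), map_zero, mul_zero]
    · rw [show D.toM g k i = 0 from hg _ _ h1, zero_mul]
  · simp

/-- Scalar elements. -/
theorem exists_scalar (c : K) (hc : c * σ c = 1) (hcn : c ^ n = 1) : ∃ z : Gt, z ∈ Subgroup.center Gt ∧ D.toM z = c • 1 := by
  have h1 : ∀ x y, hJ σ ((c • (1 : Matrix (Fin n) (Fin n) K)) *ᵥ x) ((c • (1 : Matrix (Fin n) (Fin n) K)) *ᵥ y) = hJ σ x y := by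
    intro x y
    rw [Matrix.smul_mulVec, Matrix.smul_mulVec, Matrix.one_mulVec, Matrix.one_mulVec, hJ_smul_left, hJ_smul_right,
      ← mul_assoc, hc, one_mul]
  have h2 : (c • (1 : Matrix (Fin n) (Fin n) K)).det = 1 := by
    rw [Matrix.det_smul, Matrix.det_one, mul_one, Fintype.card_fin, hcn]
  obtain ⟨z, hz⟩ := D.realize _ h1 h2
  refine ⟨z, ?_, hz⟩
  rw [Subgroup.mem_center_iff]
  intro g
  apply D.inj
  rw [map_mul, map_mul, hz]
  simp

/-- The scalar part of an upper triangular element with constant diagonal. -/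
theorem scalar_part (hn : 1 ≤ n) (A : Gt) (c : K) (hA : IsPar (ρ n) (D.toM A)) (hd : ∀ a, D.toM A a a = c) :
    c ≠ 0 ∧ ∃ w : Gt, D.toM w = c⁻¹ • D.toM A ∧ prj Gt w = prj Gt A := by
  let i₀ : Fin n := ⟨0, by omega⟩
  have h1 : c * σ c = 1 := by
    have := diag_mul A hA i₀
    rwa [hd, hd] at this
  have hc0 : c ≠ 0 := by
    rintro rfl
    simp at h1
  have h2 : c ^ n = 1 := by
    have h3 : (D.toM A).det = 1 := D.det A
    rw [Matrix.det_of_isUpperTriangular (fun a b hab => hA a b hab)] at h3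
    simpa [hd] using h3
  have h4 : c⁻¹ * σ c⁻¹ = 1 := by
    rw [map_inv₀, ← mul_inv, h1, inv_one]
  have h5 : c⁻¹ ^ n = 1 := by
    rw [inv_pow, h2, inv_one]
  obtain ⟨z, hzc, hz⟩ := exists_scalar (D := D) c⁻¹ h4 h5
  refine ⟨hc0, z * A, ?_, ?_⟩
  · rw [map_mul, hz, Matrix.smul_mul, Matrix.one_mul]
  · rw [map_mul, prj_eq_one_iff.mpr hzc, one_mul]

/-- The criterion's scalar hypothesis. -/
theorem hscal (hn : 1 ≤ n) (A : Gt) (c : K) (hA : IsPar (ρ n) (D.toM A)) (hd : ∀ a, D.toM A a a = c) :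
    ∃ w, IsBlk (ρ n) (D.toM w) ∧ prj Gt w = prj Gt A := by
  obtain ⟨hc0, w, hw, hwp⟩ := scalar_part hn A c hA hd
  refine ⟨w, ⟨fun a b hab => ?_, fun a b hab => ?_⟩, hwp⟩
  · rw [hw, Matrix.smul_apply, hA a b hab, smul_zero]
  · have hab' := ρ_injective hab
    subst hab'
    rw [hw, Matrix.smul_apply, hd, if_pos rfl, smul_eq_mul, inv_mul_cancel₀ hc0]

/-- The radical of a minimal parabolic subgroup is self-centralizing, modulo the center. -/
theorem self_centralizing (hn : 4 ≤ n) (t : Fin (n / 2)) (A : Gt)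
    (hA : ∀ v, IsBlk (rc t) (D.toM v) → A * v = v * A) :
    ∃ w, IsBlk (rc t) (D.toM w) ∧ prj Gt w = prj Gt A := by
  have ht := t.2
  obtain ⟨θ, hθ0, hθ⟩ := exists_theta D
  let i₀ : Fin n := ⟨0, by omega⟩
  have hi₀v : (i₀ : ℕ) = 0 := rfl
  have hi₀ : i₀ ≠ i₀.rev := ne_rev_of_lt (by rw [rev_val, hi₀v]; omega)
  -- long roots
  have hL : ∀ i : Fin n, (i : ℕ) < i.rev → ¬ ((i : ℕ) = t ∧ (t : ℕ) + 1 = n / 2) →
      (∀ s, s ≠ i.rev → D.toM A i.rev s = 0) ∧ (∀ r, r ≠ i → D.toM A r i = 0) ∧ D.toM A i i = D.toM A i.rev i.rev := by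
    intro i hi hne
    refine comm_T (ne_rev_of_lt hi) hθ hθ0 (hA _ (T_blk ?_ (ne_rev_of_lt hi) hθ))
    have := i.2
    rw [rev_val] at hi
    simp only [rc, rev_val]
    have h1 := fc_spec n t i
    have h2 := fc_spec n t (n - 1 - i)
    omega
  have hL0 := hL i₀ (by rw [rev_val, hi₀v]; omega) (by rw [hi₀v]; omega)
  -- short roots
  have hS : ∀ (j : Fin n) (a : K), j ≠ i₀ → j ≠ i₀.rev → ¬ ((t : ℕ) = 0 ∧ (j.rev : ℕ) = 1) →
      a + σ a + (1 : K) * σ 1 * (if j = j.rev then 1 else 0) = 0 →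
      (∀ s, s ≠ i₀.rev → s ≠ j.rev → a * D.toM A i₀.rev s = σ 1 * D.toM A j.rev s) ∧
      (a * D.toM A i₀.rev j.rev = σ 1 * (D.toM A j.rev j.rev - D.toM A i₀ i₀)) := by
    intro j a h1 h2 h3 ha
    have h4 := comm_R (D := D) (g := A) hi₀ h2 (Ne.symm h1) ha (hA _ (R_blk hi₀ h2 ha ?_ ?_ ?_))
    · exact ⟨h4.1, h4.2.1⟩
    all_goals
      have h5 : (j : ℕ) ≠ 0 := fun h => h1 (Fin.ext h)
      have h6 : (j : ℕ) ≠ n - 1 := fun h => h2 (Fin.ext (by rw [rev_val, hi₀v]; omega))
      have := j.2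
      rw [rev_val] at h3
      simp only [rc, rev_val, hi₀v]
      have h7 := fc_spec n t j
      have h8 := fc_spec n t (n - 1 - j)
      have h9 := fc_spec n t 0
      have h10 := fc_spec n t (n - 1 - 0)
      omega
  have hF3 : ∀ k : Fin n, k ≠ i₀ → k ≠ i₀.rev → ¬ ((t : ℕ) = 0 ∧ (k : ℕ) = 1) → ∀ s, s ≠ i₀.rev → s ≠ k → D.toM A k s = 0 := by
    intro k h1 h2 h3 s hs1 hs2
    obtain ⟨a, ha⟩ := exists_a' D (1 : K) k.rev
    have h4 := (hS k.rev a (fun h => h2 (by rw [← h, Fin.rev_rev])) (fun h => h1 (Fin.rev_injective h))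
      (by rwa [Fin.rev_rev]) ha).1 s hs1 (by rwa [Fin.rev_rev])
    rw [Fin.rev_rev, hL0.1 s hs1, mul_zero, map_one, one_mul] at h4
    exact h4.symm
  have hF4 : ∀ k : Fin n, k ≠ i₀ → k ≠ i₀.rev → ¬ ((t : ℕ) = 0 ∧ (k : ℕ) = 1) → D.toM A k k = D.toM A i₀ i₀ := by
    intro k h1 h2 h3
    obtain ⟨a, ha⟩ := exists_a' D (1 : K) k.rev
    have h4 := (hS k.rev a (fun h => h2 (by rw [← h, Fin.rev_rev])) (fun h => h1 (Fin.rev_injective h))
      (by rwa [Fin.rev_rev]) ha).2
    rw [Fin.rev_rev, hL0.1 k h2, mul_zero, map_one, one_mul] at h4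
    exact sub_eq_zero.mp h4.symm
  have hne0 : ∀ k : Fin n, (k : ℕ) ≠ 0 → k ≠ i₀ := fun k h h' => h (by rw [h'])
  have hne1 : ∀ k : Fin n, (k : ℕ) ≠ n - 1 → k ≠ i₀.rev := fun k h h' => h (by rw [h', rev_val, hi₀v]; omega)
  have hd : ∀ k, D.toM A k k = D.toM A i₀ i₀ := by
    intro k
    by_cases h0 : k = i₀
    · rw [h0]
    by_cases h1 : k = i₀.rev
    · rw [h1]
      exact hL0.2.2.symm
    by_cases h2 : (t : ℕ) = 0 ∧ (k : ℕ) = 1
    · have h3 : (k : ℕ) < k.rev := by
        rw [rev_val]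
        omega
      have h4 := (hL k h3 (by omega)).2.2
      rw [h4]
      refine hF4 k.rev (hne0 _ ?_) (hne1 _ ?_) ?_
      all_goals
        rw [rev_val]
        omega
    · exact hF4 k h0 h1 h2
  have hup : IsPar (ρ n) (D.toM A) := by
    intro r s hsr
    have hsr' : (s : ℕ) < r := hsr
    have hr := r.2
    by_cases h1 : r = i₀.rev
    · subst h1
      exact hL0.1 s (fin_ne_of_val (by omega))
    have h0 : r ≠ i₀ := hne0 r (by omega)
    by_cases h2 : (t : ℕ) = 0 ∧ (r : ℕ) = 1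
    · have hs : s = i₀ := Fin.ext (by rw [hi₀v]; omega)
      rw [hs]
      exact hL0.2.1 r h0
    · refine hF3 r h0 h1 h2 s (hne1 s (by omega)) (fin_ne_of_val (by omega))
  have hblock : ∀ a b : Fin n, rc t a = rc t b → (a : ℕ) < b → D.toM A a b = 0 := by
    intro a b hab hlt
    have ha := a.2
    have hb := b.2
    simp only [rc] at hab
    have h1 := fc_spec n t a
    have h2 := fc_spec n t b
    by_cases hlast : (t : ℕ) + 1 = n / 2
    · refine hF3 a (hne0 _ (by omega)) (hne1 _ (by omega)) (by omega) b (hne1 _ (by omega)) (fin_ne_of_val (by omega))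
    · by_cases hb1 : (b : ℕ) = t + 1
      · refine (hL b (by rw [rev_val]; omega) (by omega)).2.1 a (fin_ne_of_val (by omega))
      · have hb2 : (a : ℕ) = n - 2 - t ∧ (b : ℕ) = n - 1 - t := by omega
        have h3 := (hL a.rev (by rw [rev_val, Fin.rev_rev]; omega) (by rw [rev_val]; omega)).1 b
        rw [Fin.rev_rev] at h3
        exact h3 (fin_ne_of_val (by omega))
  obtain ⟨hc0, w, hw, hwp⟩ := scalar_part (by omega) A _ hup hd
  refine ⟨w, ⟨fun a b hab => ?_, fun a b hab => ?_⟩, hwp⟩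
  · have h1 : ρ n b < ρ n a := by
      by_contra hcon
      rcases eq_or_lt_of_le (not_lt.mp hcon) with h | h
      · have := ρ_injective h
        subst this
        exact lt_irrefl _ hab
      · have := fc_mono (n := n) t.2 h
        exact absurd hab (not_lt.mpr this)
    rw [hw, Matrix.smul_apply, hup a b h1, smul_zero]
  · rw [hw, Matrix.smul_apply]
    by_cases h : a = b
    · subst h
      rw [if_pos rfl, hd a, smul_eq_mul, inv_mul_cancel₀ hc0]
    · rw [if_neg h]
      rcases lt_or_gt_of_ne (fun h' => h (Fin.ext h') : (a : ℕ) ≠ b) with h1 | h1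
      · rw [hblock a b hab h1, smul_zero]
      · rw [hup a b h1, smul_zero]

end Cfsg.Agent.Lib.SUWitt
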