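import Mathlib
import Cfsg.Agent.Lib.SUWitt3

set_option autoImplicit false
set_option linter.unusedSectionVars false
set_option linter.unusedSimpArgs false
set_option linter.unusedVariables false

/-!
# The unitary group in a Witt basis: Weyl elements and torus elements as products of root elements
-/

namespace Cfsg.Agent.Lib.SUWitt

open Matrix Cfsg.Agent.Lib.UnipCrit

variable {K : Type*} [Field K] {n : ℕ} {σ : K →+* K}
variable {Gt : Type*} [Group Gt] {D : Model (n := n) σ Gt}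

/-- The action of a root element on a basis vector. -/
theorem act_R {i j : Fin n} {c a : K} (hc : Cond σ (e i) (c • e j) a) (k : Fin n) :
    D.toM (D.E (e i) (c • e j) a) *ᵥ e k =
      e k + (if k = i.rev then c • e j + a • e i else 0) - (if k = j.rev then σ c • e i else 0) := by
  rw [Model.act_E hc, hJ_e_e, hJ_smul_right, hJ_e_e]
  congr 1
  · split_ifs <;> simp
  · split_ifs <;> simp

/-- The action of a long root element on a basis vector. -/
theorem act_T {i : Fin n} {a : K} (hc : Cond σ (e i) 0 a) (k : Fin n) :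
    D.toM (D.E (e i) 0 a) *ᵥ e k = e k + (if k = i.rev then a • e i else 0) := by
  rw [Model.act_E hc, hJ_e_e, hJ_zero_right]
  split_ifs <;> simp

/-! ### Type A -/

/-- The root element for `e_i - e_i'`. -/
noncomputable def xA (D : Model (n := n) σ Gt) (i i' : Fin n) (c : K) : Gt := D.E (e i) (c • e i'.rev) 0

/-- The conditions for type `A` elements. -/
structure PairA (i i' : Fin n) : Prop where
  hi : i ≠ i.rev
  hi' : i' ≠ i'.rev
  hne : i ≠ i'
  hne2 : i ≠ i'.rev

theorem PairA.symm {i i' : Fin n} (h : PairA i i') : PairA i' i :=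
  ⟨h.hi', h.hi, Ne.symm h.hne, fun h' => h.hne2 (by rw [h', Fin.rev_rev])⟩

theorem PairA.cond {i i' : Fin n} (h : PairA i i') (c : K) : Cond σ (e i) (c • e i'.rev) 0 := by
  refine cond_R h.hi (fun h' => h.hne (Fin.rev_injective h').symm) ?_
  rw [if_neg (by rw [Fin.rev_rev]; exact Ne.symm h.hi'), map_zero]
  ring

theorem act_xA {i i' : Fin n} (h : PairA i i') (c : K) (k : Fin n) :
    D.toM (xA D i i' c) *ᵥ e k =
      e k + (if k = i.rev then c • e i'.rev else 0) - (if k = i' then σ c • e i else 0) := by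
  unfold xA
  rw [act_R (h.cond c), Fin.rev_rev, zero_smul, add_zero]

theorem xA_i' {i i' : Fin n} (h : PairA i i') (c : K) :
    D.toM (xA D i i' c) *ᵥ e i' = e i' - σ c • e i := by
  rw [act_xA h, if_neg (fun h' => h.hne2 (by rw [h', Fin.rev_rev])), if_pos rfl, add_zero]

theorem xA_ib {i i' : Fin n} (h : PairA i i') (c : K) :
    D.toM (xA D i i' c) *ᵥ e i.rev = e i.rev + c • e i'.rev := by
  rw [act_xA h, if_pos rfl, if_neg (fun h' => h.hne2 (by rw [← h', Fin.rev_rev])), sub_zero]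

theorem xA_other {i i' : Fin n} (h : PairA i i') (c : K) {k : Fin n} (h1 : k ≠ i.rev) (h2 : k ≠ i') :
    D.toM (xA D i i' c) *ᵥ e k = e k := by
  rw [act_xA h, if_neg h1, if_neg h2, add_zero, sub_zero]

/-- The Weyl element of type `A`. -/
noncomputable def nA (D : Model (n := n) σ Gt) (i i' : Fin n) (c : K) : Gt :=
  xA D i i' c * xA D i' i (- c⁻¹) * xA D i i' c

section
variable {i i' : Fin n} (h : PairA i i') {c : K} (hc : c ≠ 0)
include h hc

theorem nA_i : D.toM (nA D i i' c) *ᵥ e i = (σ c)⁻¹ • e i' := by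
  have hσ := D.hσ.invol
  have hsc : σ c ≠ 0 := fun h' => hc (by simpa using h')
  unfold nA
  rw [Model.act_mul, Model.act_mul, xA_other h _ h.hi h.hne, xA_i' h.symm, Matrix.mulVec_sub, Matrix.mulVec_smul,
    xA_other h _ h.hi h.hne, xA_i' h]
  simp only [map_neg, map_inv₀]
  ext r
  simp only [Pi.sub_apply, Pi.smul_apply, smul_eq_mul]
  field_simp
  ring

theorem nA_i' : D.toM (nA D i i' c) *ᵥ e i' = (- σ c) • e i := by
  have hσ := D.hσ.invol
  have hsc : σ c ≠ 0 := fun h' => hc (by simpa using h')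
  unfold nA
  rw [Model.act_mul, Model.act_mul, xA_i' h, Matrix.mulVec_sub, Matrix.mulVec_smul, xA_i' h.symm,
    xA_other h.symm _ h.hi' (Ne.symm h.hne)]
  simp only [Matrix.mulVec_sub, Matrix.mulVec_smul, xA_i' h, xA_other h _ h.hi h.hne, map_neg, map_inv₀]
  ext r
  simp only [Pi.sub_apply, Pi.smul_apply, smul_eq_mul]
  field_simp
  ring

theorem nA_ib : D.toM (nA D i i' c) *ᵥ e i.rev = c • e i'.rev := by
  have hσ := D.hσ.invol
  have h3 : i'.rev ≠ i' := Ne.symm h.hi'
  have h4 : i.rev ≠ i' := fun h' => h.hne2 (by rw [← h', Fin.rev_rev])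
  have h5 : i.rev ≠ i'.rev := fun h' => h.hne (Fin.rev_injective h')
  have h6 : i'.rev ≠ i.rev := Ne.symm h5
  unfold nA
  rw [Model.act_mul, Model.act_mul, xA_ib h, Matrix.mulVec_add, Matrix.mulVec_smul, xA_other h.symm _ h5 (Ne.symm h.hi), xA_ib h.symm]
  simp only [Matrix.mulVec_add, Matrix.mulVec_smul, xA_ib h, xA_other h _ h6 h3]
  ext r
  simp only [Pi.add_apply, Pi.smul_apply, smul_eq_mul]
  field_simp
  ring

theorem nA_i'b : D.toM (nA D i i' c) *ᵥ e i'.rev = (- c⁻¹) • e i.rev := by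
  have hσ := D.hσ.invol
  have h3 : i'.rev ≠ i' := Ne.symm h.hi'
  have h5 : i.rev ≠ i'.rev := fun h' => h.hne (Fin.rev_injective h')
  have h6 : i'.rev ≠ i.rev := Ne.symm h5
  unfold nA
  rw [Model.act_mul, Model.act_mul, xA_other h _ h6 h3, xA_ib h.symm, Matrix.mulVec_add, Matrix.mulVec_smul, xA_other h _ h6 h3, xA_ib h]
  ext r
  simp only [Pi.add_apply, Pi.smul_apply, smul_eq_mul]
  field_simp
  ring

theorem nA_other {k : Fin n} (h1 : k ≠ i) (h2 : k ≠ i') (h3 : k ≠ i.rev) (h4 : k ≠ i'.rev) :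
    D.toM (nA D i i' c) *ᵥ e k = e k := by
  unfold nA
  rw [Model.act_mul, Model.act_mul, xA_other h _ h3 h2, xA_other h.symm _ h4 h1, xA_other h _ h3 h2]

end

/-- The torus element of type `A`. -/
noncomputable def torA (D : Model (n := n) σ Gt) (i i' : Fin n) (c : K) : Gt :=
  nA D i i' (σ c) * nA D i i' (-1)

section
variable {i i' : Fin n} (h : PairA i i') {c : K} (hc : c ≠ 0)
include h hc

theorem torA_i : D.toM (torA D i i' c) *ᵥ e i = c • e i := by
  have hσ := D.hσ.invol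
  have hsc : σ c ≠ 0 := fun h' => hc (by simpa using h')
  unfold torA
  rw [Model.act_mul, nA_i h (neg_ne_zero.mpr one_ne_zero), Matrix.mulVec_smul, nA_i' h hsc, hσ]
  ext r
  simp

theorem torA_i' : D.toM (torA D i i' c) *ᵥ e i' = c⁻¹ • e i' := by
  have hσ := D.hσ.invol
  have hsc : σ c ≠ 0 := fun h' => hc (by simpa using h')
  unfold torA
  rw [Model.act_mul, nA_i' h (neg_ne_zero.mpr one_ne_zero), Matrix.mulVec_smul, nA_i h hsc, hσ]
  ext r
  simp

theorem torA_ib : D.toM (torA D i i' c) *ᵥ e i.rev = (σ c)⁻¹ • e i.rev := by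
  have hσ := D.hσ.invol
  have hsc : σ c ≠ 0 := fun h' => hc (by simpa using h')
  unfold torA
  rw [Model.act_mul, nA_ib h (neg_ne_zero.mpr one_ne_zero), Matrix.mulVec_smul, nA_i'b h hsc]
  ext r
  simp

theorem torA_i'b : D.toM (torA D i i' c) *ᵥ e i'.rev = σ c • e i'.rev := by
  have hσ := D.hσ.invol
  have hsc : σ c ≠ 0 := fun h' => hc (by simpa using h')
  unfold torA
  rw [Model.act_mul, nA_i'b h (neg_ne_zero.mpr one_ne_zero), Matrix.mulVec_smul, nA_ib h hsc]
  ext r
  simp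

theorem torA_other {k : Fin n} (h1 : k ≠ i) (h2 : k ≠ i') (h3 : k ≠ i.rev) (h4 : k ≠ i'.rev) :
    D.toM (torA D i i' c) *ᵥ e k = e k := by
  have hsc : σ c ≠ 0 := fun h' => hc (by simpa using h')
  unfold torA
  rw [Model.act_mul, nA_other h (neg_ne_zero.mpr one_ne_zero) h1 h2 h3 h4, nA_other h hsc h1 h2 h3 h4]

end

/-! ### Types `B` and `C` -/

/-- The data for the last simple root. -/
structure DataC (D : Model (n := n) σ Gt) (t m : Fin n) (s a : K) : Prop where
  ht : t ≠ t.rev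
  hm1 : m ≠ t
  hm2 : m ≠ t.rev
  hs : s ≠ 0 → m = m.rev
  ha0 : a ≠ 0
  ha : a + σ a + s * σ s = 0

section C
variable {t m : Fin n} {s a : K}

theorem DataC.cond_gen (_h : DataC D t m s a) {i : Fin n} {c b : K} (hi : i ≠ i.rev) (hm : m ≠ i.rev) (hcs : c ≠ 0 → m = m.rev)
    (hb : b + σ b + c * σ c = 0) : Cond σ (e i) (c • e m) b := by
  refine cond_R hi hm ?_
  by_cases hc : c = 0
  · subst hc
    rw [map_zero] at *
    simpa using hb
  · rw [if_pos (hcs hc), mul_one]
    exact hb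

/-- Action with a vector in the fixed point direction. -/
theorem act_Rm {i : Fin n} {c b : K} (hcond : Cond σ (e i) (c • e m) b) (hcs : c ≠ 0 → m = m.rev) (k : Fin n) :
    D.toM (D.E (e i) (c • e m) b) *ᵥ e k =
      e k + (if k = i.rev then c • e m + b • e i else 0) - (if k = m then σ c • e i else 0) := by
  rw [act_R hcond]
  congr 1
  by_cases hc : c = 0
  · subst hc
    simp
  · rw [← hcs hc]

/-- The three factors of the Weyl element of type `C`. -/
noncomputable def nC (D : Model (n := n) σ Gt) (t m : Fin n) (s a : K) : Gt :=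
  D.E (e t) (s • e m) a * D.E (e t.rev) ((- s * (σ a)⁻¹) • e m) (σ a)⁻¹ * D.E (e t) ((s * a * (σ a)⁻¹) • e m) a

variable (h : DataC D t m s a)
include h

theorem DataC.scalars : σ a ≠ 0 ∧ (σ a)⁻¹ + σ (σ a)⁻¹ + (- s * (σ a)⁻¹) * σ (- s * (σ a)⁻¹) = 0 ∧
    a + σ a + (s * a * (σ a)⁻¹) * σ (s * a * (σ a)⁻¹) = 0 := by
  have hσ := D.hσ.invol
  have h0 := h.ha0
  have hsa : σ a ≠ 0 := fun h' => h0 (by simpa using h')
  refine ⟨hsa, ?_, ?_⟩
  · simp only [map_mul, map_neg, map_inv₀, hσ]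
    field_simp
    linear_combination h.ha
  · simp only [map_mul, map_inv₀, hσ]
    field_simp
    linear_combination h.ha

theorem DataC.cond1 : Cond σ (e t) (s • e m) a := h.cond_gen h.ht h.hm2 h.hs h.ha

theorem DataC.cond2 : Cond σ (e t.rev) ((- s * (σ a)⁻¹) • e m) (σ a)⁻¹ := by
  refine h.cond_gen (i := t.rev) (fun h' => h.ht (by rw [Fin.rev_rev] at h'; exact h'.symm)) (by rw [Fin.rev_rev]; exact h.hm1) ?_ h.scalars.2.1
  intro hc
  apply h.hs
  rintro rfl
  simp at hc

theorem DataC.cond3 : Cond σ (e t) ((s * a * (σ a)⁻¹) • e m) a := by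
  refine h.cond_gen h.ht h.hm2 ?_ h.scalars.2.2
  intro hc
  apply h.hs
  rintro rfl
  simp at hc

theorem nC_t : D.toM (nC D t m s a) *ᵥ e t = (σ a)⁻¹ • e t.rev := by
  have hσ := D.hσ.invol
  obtain ⟨hsa, -, -⟩ := h.scalars
  have hrr : t.rev.rev = t := Fin.rev_rev t
  unfold nC
  rw [Model.act_mul, Model.act_mul, act_Rm h.cond3 (fun hc => h.hs (by rintro rfl; simp at hc)), if_neg h.ht, if_neg (Ne.symm h.hm1),
    add_zero, sub_zero, act_Rm h.cond2 (fun hc => h.hs (by rintro rfl; simp at hc)), hrr, if_pos rfl, if_neg (Ne.symm h.hm1), sub_zero]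
  simp only [Matrix.mulVec_add, Matrix.mulVec_smul, act_Rm h.cond1 h.hs, if_neg h.ht, if_neg (Ne.symm h.hm1), if_neg h.hm2, if_true, add_zero, sub_zero,
    if_neg (Ne.symm h.hm2), if_neg h.hm1]
  ext r
  simp only [Pi.add_apply, Pi.sub_apply, Pi.smul_apply, smul_eq_mul, map_mul, map_neg]
  field_simp
  linear_combination (e t r) * h.ha

theorem nC_tb : D.toM (nC D t m s a) *ᵥ e t.rev = a • e t := by
  have hσ := D.hσ.invol
  obtain ⟨hsa, -, -⟩ := h.scalars
  have h0 := h.ha0
  have hrr : t.rev.rev = t := Fin.rev_rev t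
  have htt : t.rev ≠ t := Ne.symm h.ht
  have hms : m = t.rev → False := h.hm2
  unfold nC
  rw [Model.act_mul, Model.act_mul, act_Rm h.cond3 (fun hc => h.hs (by rintro rfl; simp at hc)), if_pos rfl, if_neg (Ne.symm h.hm2), sub_zero]
  simp only [Matrix.mulVec_add, Matrix.mulVec_sub, Matrix.mulVec_smul, act_Rm h.cond2 (fun hc => h.hs (by rintro rfl; simp at hc)), hrr,
    act_Rm h.cond1 h.hs, if_neg h.ht, if_neg h.hm1, if_neg h.hm2, if_neg htt, if_neg (Ne.symm h.hm1), if_neg (Ne.symm h.hm2),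
    if_true, add_zero, sub_zero, map_mul, map_neg, map_inv₀, hσ]
  ext r
  simp only [Pi.add_apply, Pi.sub_apply, Pi.smul_apply, smul_eq_mul, map_mul, map_neg]
  field_simp
  linear_combination (e t.rev r + s * e m r + a * e t r) * h.ha

theorem nC_m : D.toM (nC D t m s a) *ᵥ e m = (- σ a * a⁻¹) • e m := by
  have hσ := D.hσ.invol
  obtain ⟨hsa, -, -⟩ := h.scalars
  have h0 := h.ha0
  have hrr : t.rev.rev = t := Fin.rev_rev t
  have htt : t.rev ≠ t := Ne.symm h.ht
  unfold nC
  rw [Model.act_mul, Model.act_mul, act_Rm h.cond3 (fun hc => h.hs (by rintro rfl; simp at hc)), if_neg h.hm2, if_pos rfl, add_zero]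
  simp only [Matrix.mulVec_add, Matrix.mulVec_sub, Matrix.mulVec_smul, act_Rm h.cond2 (fun hc => h.hs (by rintro rfl; simp at hc)), hrr,
    act_Rm h.cond1 h.hs, if_neg h.ht, if_neg h.hm1, if_neg h.hm2, if_neg htt, if_neg (Ne.symm h.hm1), if_neg (Ne.symm h.hm2),
    if_true, add_zero, sub_zero, map_mul, map_neg, map_inv₀, hσ]
  ext r
  simp only [Pi.add_apply, Pi.sub_apply, Pi.smul_apply, smul_eq_mul, map_mul, map_neg]
  field_simp
  linear_combination (e m r - σ s * e t r) * h.ha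

theorem nC_other {k : Fin n} (h1 : k ≠ t) (h2 : k ≠ t.rev) (h3 : k ≠ m) : D.toM (nC D t m s a) *ᵥ e k = e k := by
  have hrr : t.rev.rev = t := Fin.rev_rev t
  unfold nC
  rw [Model.act_mul, Model.act_mul, act_Rm h.cond3 (fun hc => h.hs (by rintro rfl; simp at hc)), if_neg h2, if_neg h3, add_zero, sub_zero,
    act_Rm h.cond2 (fun hc => h.hs (by rintro rfl; simp at hc)), hrr, if_neg h1, if_neg h3, add_zero, sub_zero,
    act_Rm h.cond1 h.hs, if_neg h2, if_neg h3, add_zero, sub_zero]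

/-- The torus element of type `C`: the parameter `θ` is a nonzero trace zero element. -/
noncomputable def torC (D : Model (n := n) σ Gt) (t m : Fin n) (s a θ : K) : Gt :=
  nC D t m s a * nC D t m 0 θ

variable {θ : K} (hθ0 : θ ≠ 0) (hθ : θ + σ θ = 0)
include hθ0 hθ

theorem DataC.theta : DataC D t m 0 θ :=
  ⟨h.ht, h.hm1, h.hm2, fun h' => absurd rfl h', hθ0, by simpa using hθ⟩

theorem torC_t : D.toM (torC D t m s a θ) *ᵥ e t = (a * (σ θ)⁻¹) • e t := by
  unfold torC
  rw [Model.act_mul, nC_t (h.theta hθ0 hθ), Matrix.mulVec_smul, nC_tb h, smul_smul, mul_comm]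

theorem torC_tb : D.toM (torC D t m s a θ) *ᵥ e t.rev = (θ * (σ a)⁻¹) • e t.rev := by
  unfold torC
  rw [Model.act_mul, nC_tb (h.theta hθ0 hθ), Matrix.mulVec_smul, nC_t h, smul_smul]

theorem torC_m : D.toM (torC D t m s a θ) *ᵥ e m = (- σ a * a⁻¹) • e m := by
  have hsθ : σ θ = - θ := by linear_combination hθ
  unfold torC
  rw [Model.act_mul, nC_m (h.theta hθ0 hθ), Matrix.mulVec_smul, nC_m h, smul_smul, hsθ]
  congr 1
  field_simp

theorem torC_other {k : Fin n} (h1 : k ≠ t) (h2 : k ≠ t.rev) (h3 : k ≠ m) : D.toM (torC D t m s a θ) *ᵥ e k = e k := by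
  unfold torC
  rw [Model.act_mul, nC_other (h.theta hθ0 hθ) h1 h2 h3, nC_other h h1 h2 h3]

end C

end Cfsg.Agent.Lib.SUWitt
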