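import Mathlib
import Cfsg.Agent.Lib.SUWitt4

set_option autoImplicit false
set_option linter.unusedSectionVars false
set_option linter.unusedSimpArgs false
set_option linter.unusedVariables false

/-!
# The unitary group in a Witt basis: the Borel subgroup is generated by `U` and the local torus elements
-/

namespace Cfsg.Agent.Lib.SUWitt

open Matrix Cfsg.Agent.Lib.UnipCrit Cfsg.Agent.Lib.PSLFusionBasic

variable {K : Type*} [Field K] {n : ℕ} {σ : K →+* K}
variable {Gt : Type*} [Group Gt] {D : Model (n := n) σ Gt}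

/-- The `p`-elements of the `t`-th minimal parabolic used for generation. -/
def Yt (D : Model (n := n) σ Gt) (t : Fin (n / 2)) : Set Gt :=
  {y | ∃ (v w : Fin n → K) (a : K), Cond σ v w a ∧ y = D.E v w a ∧ IsPar (rc t) (D.toM y)}

theorem isPar_inv [Finite Gt] {r : Fin n → ℕ} {y : Gt} (hy : IsPar r (D.toM y)) : IsPar r (D.toM y⁻¹) := by
  let M : Submonoid Gt :=
    { carrier := {g | IsPar r (D.toM g)}
      one_mem' := by
        show IsPar r (D.toM 1)
        rw [map_one]
        exact IsPar.one r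
      mul_mem' := by
        intro a b ha hb
        show IsPar r (D.toM (a * b))
        rw [map_mul]
        exact IsPar.mul ha hb }
  exact inv_mem_of_finite M hy

theorem hY [Finite Gt] (p : ℕ) [Fact p.Prime] [CharP K p] (t : Fin (n / 2)) (y : Gt) (hy : y ∈ Yt D t) :
    IsPar (rc t) (D.toM y) ∧ IsPar (rc t) (D.toM y⁻¹) ∧ ∃ k : ℕ, y ^ p ^ k = 1 := by
  obtain ⟨v, w, a, hc, rfl, hP⟩ := hy
  exact ⟨hP, isPar_inv hP, 2, Model.E_pow hc p⟩

/-- Elements acting diagonally on the basis. -/
theorem eq_diagonal {h : Gt} {d : Fin n → K} (hd : ∀ l, D.toM h *ᵥ e l = d l • e l) : D.toM h = Matrix.diagonal d := by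
  apply mat_ext'
  intro s
  rw [hd]
  ext r
  rw [mulVec_e_apply, Matrix.diagonal_apply, Pi.smul_apply, e_apply, smul_eq_mul]
  by_cases hrs : r = s
  · simp [hrs]
  · simp [hrs]

theorem normalizes_of_diag [Finite Gt] {h : Gt} {d : Fin n → K} (hd : ∀ l, D.toM h *ᵥ e l = d l • e l) (u : Gt)
    (hu : IsBlk (ρ n) (D.toM u)) : IsBlk (ρ n) (D.toM (h * u * h⁻¹)) := by
  have h1 : IsPar (ρ n) (D.toM h) := by
    rw [eq_diagonal hd]
    intro a b hab
    apply Matrix.diagonal_apply_ne
    rintro rfl
    exact lt_irrefl _ hab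
  rw [map_mul, map_mul]
  refine IsBlk.conj h1 (isPar_inv h1) ?_ hu
  rw [← map_mul, mul_inv_cancel, map_one]

/-- Upper triangular elements lie in any subgroup containing `U` and enough torus elements. -/
theorem upper_mem [Finite Gt] (H : Subgroup Gt) (hU : blkSub D.toM (ρ n) ≤ H)
    (hStep : ∀ (k : ℕ) (hk : k < n / 2) (c : K), c ≠ 0 → (k + 1 = n / 2 → n % 2 = 0 → σ c = c) →
      ∃ h ∈ H, ∃ d : Fin n → K, (∀ l, D.toM h *ᵥ e l = d l • e l) ∧ (∀ l : Fin n, (l : ℕ) < k → d l = 1) ∧
        d ⟨k, by omega⟩ = c) {A : Gt} (hA : IsPar (ρ n) (D.toM A)) : A ∈ H := by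
  have hσ := D.hσ.invol
  have hrevd : ∀ (A : Gt), IsPar (ρ n) (D.toM A) → ∀ l : Fin n, D.toM A l.rev l.rev = 1 → D.toM A l l = 1 := by
    intro A hA l hl
    have h1 := diag_mul (D := D) A hA l.rev
    rw [hl, Fin.rev_rev, one_mul] at h1
    have h2 := congrArg σ h1
    rwa [hσ, map_one] at h2
  have key : ∀ (j k : ℕ), k + j = n / 2 → ∀ A : Gt, IsPar (ρ n) (D.toM A) → (∀ l : Fin n, (l : ℕ) < k → D.toM A l l = 1) → A ∈ H := by
    intro j
    induction j with
    | zero =>
      intro k hk A hA hl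
      apply hU
      have hd : ∀ l : Fin n, D.toM A l l = 1 := by
        have h1 : ∀ l : Fin n, l ≠ l.rev → D.toM A l l = 1 := by
          intro l hne
          by_cases h2 : (l : ℕ) < k
          · exact hl l h2
          · apply hrevd A hA
            apply hl
            have h3 : (l : ℕ) ≠ l.rev := fun h' => hne (Fin.ext h')
            have := l.2
            rw [rev_val] at h3 ⊢
            omega
        intro l
        by_cases h2 : l = l.rev
        · have h3 : (D.toM A).det = 1 := D.det A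
          rw [Matrix.det_of_isUpperTriangular (fun a b hab => hA a b hab), Finset.prod_eq_single l] at h3
          · exact h3
          · intro b _ hb
            apply h1
            intro h4
            apply hb
            have h5 : (b : ℕ) = b.rev := by rw [← h4]
            have h6 : (l : ℕ) = l.rev := by rw [← h2]
            rw [rev_val] at h5 h6
            have := b.2
            have := l.2
            exact Fin.ext (by omega)
          · simp
        · exact h1 l h2
      refine ⟨hA, fun a b hab => ?_⟩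
      have := ρ_injective hab
      subst this
      rw [hd, if_pos rfl]
    | succ j ih =>
      intro k hk A hA hl
      have hkn : k < n / 2 := by omega
      have hkn' : k < n := by omega
      let i : Fin n := ⟨k, hkn'⟩
      have hc0 : D.toM A i i ≠ 0 := by
        intro h
        have := diag_mul (D := D) A hA i
        rw [h, zero_mul] at this
        exact zero_ne_one this
      have hlast : k + 1 = n / 2 → n % 2 = 0 → σ (D.toM A i i)⁻¹ = (D.toM A i i)⁻¹ := by
        intro h1 h2
        have h3 : (D.toM A).det = 1 := D.det A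
        have hne : i ≠ i.rev := ne_rev_of_lt (by
          rw [rev_val]
          simp only [i]
          omega)
        rw [Matrix.det_of_isUpperTriangular (fun a b hab => hA a b hab), Finset.prod_eq_mul i i.rev hne] at h3
        · have h4 := diag_mul (D := D) A hA i
          have h5 : D.toM A i.rev i.rev = (D.toM A i i)⁻¹ := eq_inv_of_mul_eq_one_right h3
          rw [h5] at h4
          exact eq_inv_of_mul_eq_one_right h4
        · intro b _ hb
          have hb1 : (b : ℕ) ≠ k := fun h' => hb.1 (Fin.ext h')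
          have hb2 : (b : ℕ) ≠ n - 1 - k := fun h' => hb.2 (Fin.ext (by rw [rev_val]; exact h'))
          by_cases h6 : (b : ℕ) < k
          · exact hl b h6
          · apply hrevd A hA
            apply hl
            have := b.2
            rw [rev_val]
            omega
        · simp
        · simp
      obtain ⟨h, hH, d, hd, hd1, hd2⟩ := hStep k hkn _ (inv_ne_zero hc0) hlast
      have hdiag := eq_diagonal hd
      have hent : ∀ r s, D.toM (h * A) r s = d r * D.toM A r s := by
        intro r s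
        rw [map_mul, hdiag, Matrix.diagonal_mul]
      have h1 : h * A ∈ H := by
        refine ih (k + 1) (by omega) _ ?_ ?_
        · intro a b hab
          rw [hent, hA a b hab, mul_zero]
        · intro l hlk
          rw [hent]
          by_cases hlk2 : (l : ℕ) < k
          · rw [hd1 l hlk2, one_mul, hl l hlk2]
          · have : l = i := Fin.ext (by simp only [i]; omega)
            rw [this, hd2, inv_mul_cancel₀ hc0]
      have h2 : A = h⁻¹ * (h * A) := by group
      rw [h2]
      exact H.mul_mem (H.inv_mem hH) h1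
  exact key (n / 2) 0 (by omega) A hA (fun l hl => absurd hl (Nat.not_lt_zero _))

/-- The root elements of type `A` in the `t`-th parabolic. -/
theorem xA_mem {t : Fin (n / 2)} {i i' : Fin n} (h : PairA i i') (c : K) (h1 : rc t i'.rev ≤ rc t i.rev) (h2 : rc t i ≤ rc t i.rev)
    (h3 : rc t i ≤ rc t i') : xA D i i' c ∈ Yt D t := by
  refine ⟨_, _, _, h.cond c, rfl, ?_⟩
  refine R_par h.hi (fun h' => h.hne (Fin.rev_injective h').symm) ?_ h1 h2 ?_
  · rw [if_neg (by rw [Fin.rev_rev]; exact Ne.symm h.hi'), map_zero]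
    ring
  · rwa [Fin.rev_rev]

theorem nA_mem {t : Fin (n / 2)} {i i' : Fin n} (h : PairA i i') (c : K) (h1 : rc t i'.rev ≤ rc t i.rev) (h2 : rc t i ≤ rc t i.rev)
    (h3 : rc t i ≤ rc t i') (h1' : rc t i.rev ≤ rc t i'.rev) (h2' : rc t i' ≤ rc t i'.rev)
    (h3' : rc t i' ≤ rc t i) : nA D i i' c ∈ Subgroup.closure (Yt D t) := by
  unfold nA
  exact mul_mem (mul_mem (Subgroup.subset_closure (xA_mem h c h1 h2 h3))
    (Subgroup.subset_closure (xA_mem h.symm _ h1' h2' h3'))) (Subgroup.subset_closure (xA_mem h c h1 h2 h3))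

theorem nC_mem {t' : Fin (n / 2)} {t m : Fin n} {s a : K} (h : DataC D t m s a) (h1 : rc t' m ≤ rc t' t.rev) (h2 : rc t' t ≤ rc t' t.rev)
    (h3 : rc t' t ≤ rc t' m.rev) (h4 : rc t' m ≤ rc t' t) (h5 : rc t' t.rev ≤ rc t' t) (h6 : rc t' t.rev ≤ rc t' m.rev) :
    nC D t m s a ∈ Subgroup.closure (Yt D t') := by
  unfold nC
  have hif : ∀ c b : K, b + σ b + c * σ c = 0 → (c ≠ 0 → m = m.rev) → b + σ b + c * σ c * (if m = m.rev then 1 else 0) = 0 := by
    intro c b hb hcs
    by_cases hc : c = 0
    · subst hc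
      simpa using hb
    · rw [if_pos (hcs hc), mul_one]
      exact hb
  have hrr : t.rev.rev = t := Fin.rev_rev t
  have hA : D.E (e t) (s • e m) a ∈ Yt D t' :=
    ⟨_, _, _, h.cond1, rfl, R_par h.ht h.hm2 (hif _ _ h.ha h.hs) h1 h2 h3⟩
  have hC : D.E (e t) ((s * a * (σ a)⁻¹) • e m) a ∈ Yt D t' :=
    ⟨_, _, _, h.cond3, rfl, R_par h.ht h.hm2 (hif _ _ h.scalars.2.2 (fun hc => h.hs (by rintro rfl; simp at hc))) h1 h2 h3⟩
  have hB : D.E (e t.rev) ((- s * (σ a)⁻¹) • e m) (σ a)⁻¹ ∈ Yt D t' := by
    refine ⟨_, _, _, h.cond2, rfl, R_par (by rw [hrr]; exact Ne.symm h.ht) (by rw [hrr]; exact h.hm1)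
      (hif _ _ h.scalars.2.1 (fun hc => h.hs (by rintro rfl; simp at hc))) ?_ ?_ ?_⟩
    · rwa [hrr]
    · rwa [hrr]
    · exact h6
  exact mul_mem (mul_mem (Subgroup.subset_closure hA) (Subgroup.subset_closure hB)) (Subgroup.subset_closure hC)

theorem arith_even {n k : ℕ} (hn : 4 ≤ n) (hk2 : k + 1 = n / 2) (hodd : n % 2 = 0) :
    fc n k 0 ≤ fc n k (n - 1 - k) ∧ fc n k k ≤ fc n k (n - 1 - k) ∧ fc n k k ≤ fc n k (n - 1 - 0) ∧ fc n k 0 ≤ fc n k k ∧
      fc n k (n - 1 - k) ≤ fc n k k ∧ fc n k (n - 1 - k) ≤ fc n k (n - 1 - 0) := by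
  have a1 := fc_spec n k k
  have a3 := fc_spec n k (n - 1 - k)
  have a4 := fc_spec n k 0
  have a5 := fc_spec n k (n - 1 - 0)
  omega

theorem arith_odd {n k : ℕ} (hn : 4 ≤ n) (hk2 : k + 1 = n / 2) (hodd : ¬ n % 2 = 0) :
    fc n k (k + 1) ≤ fc n k (n - 1 - k) ∧ fc n k k ≤ fc n k (n - 1 - k) ∧ fc n k k ≤ fc n k (n - 1 - (k + 1)) ∧ fc n k (k + 1) ≤ fc n k k ∧
      fc n k (n - 1 - k) ≤ fc n k k ∧ fc n k (n - 1 - k) ≤ fc n k (n - 1 - (k + 1)) := by
  have a1 := fc_spec n k k
  have a3 := fc_spec n k (n - 1 - k)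
  have a4 := fc_spec n k (k + 1)
  have a5 := fc_spec n k (n - 1 - (k + 1))
  omega

/-- The criterion's generation hypothesis. -/
theorem upper_gen [Finite Gt] (hn : 4 ≤ n) (A : Gt) (hA : IsPar (ρ n) (D.toM A)) :
    A ∈ Subgroup.closure ((blkSub D.toM (ρ n) : Set Gt) ∪
      {h | ∃ t : Fin (n / 2), h ∈ Subgroup.closure (Yt D t) ∧
        ∀ u, IsBlk (ρ n) (D.toM u) → IsBlk (ρ n) (D.toM (h * u * h⁻¹))}) := by
  have hσ := D.hσ.invol
  set H := Subgroup.closure ((blkSub D.toM (ρ n) : Set Gt) ∪
      {h | ∃ t : Fin (n / 2), h ∈ Subgroup.closure (Yt D t) ∧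
        ∀ u, IsBlk (ρ n) (D.toM u) → IsBlk (ρ n) (D.toM (h * u * h⁻¹))}) with hHdef
  have hU : blkSub D.toM (ρ n) ≤ H := by
    intro u hu
    exact Subgroup.subset_closure (Or.inl hu)
  refine upper_mem H hU ?_ hA
  intro k hk c hc hlast
  have hkn : k < n := by omega
  let t : Fin (n / 2) := ⟨k, hk⟩
  let i : Fin n := ⟨k, hkn⟩
  have hiv : (i : ℕ) = k := rfl
  have hib : (i.rev : ℕ) = n - 1 - k := rev_val i
  have hsc : σ c ≠ 0 := fun h' => hc (by simpa using h')
  by_cases hk1 : k + 1 < n / 2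
  · let i' : Fin n := ⟨k + 1, by omega⟩
    have hi'v : (i' : ℕ) = k + 1 := rfl
    have hi'b : (i'.rev : ℕ) = n - 1 - (k + 1) := rev_val i'
    have hP : PairA i i' := ⟨fin_ne_of_val (by omega), fin_ne_of_val (by omega), fin_ne_of_val (by omega),
      fin_ne_of_val (by omega)⟩
    have hspec := fun s => fc_spec n k s
    have hmem : torA D i i' c ∈ Subgroup.closure (Yt D t) := by
      unfold torA
      have a1 := hspec k
      have a2 := hspec (k + 1)
      have a3 := hspec (n - 1 - k)
      have a4 := hspec (n - 1 - (k + 1))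
      refine mul_mem (nA_mem hP _ ?_ ?_ ?_ ?_ ?_ ?_) (nA_mem hP _ ?_ ?_ ?_ ?_ ?_ ?_)
      all_goals
        simp only [rc, hiv, hib, hi'v, hi'b, t]
        omega
    let d : Fin n → K := fun l => if l = i then c else if l = i' then c⁻¹ else if l = i'.rev then σ c else if l = i.rev then (σ c)⁻¹ else 1
    have hd : ∀ l, D.toM (torA D i i' c) *ᵥ e l = d l • e l := by
      intro l
      simp only [d]
      by_cases h1 : l = i
      · subst h1
        rw [if_pos rfl, torA_i hP hc]
      rw [if_neg h1]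
      by_cases h2 : l = i'
      · subst h2
        rw [if_pos rfl, torA_i' hP hc]
      rw [if_neg h2]
      by_cases h3 : l = i'.rev
      · subst h3
        rw [if_pos rfl, torA_i'b hP hc]
      rw [if_neg h3]
      by_cases h4 : l = i.rev
      · subst h4
        rw [if_pos rfl, torA_ib hP hc]
      rw [if_neg h4, one_smul, torA_other hP hc h1 h2 h4 h3]
    refine ⟨torA D i i' c, Subgroup.subset_closure (Or.inr ⟨t, hmem, normalizes_of_diag hd⟩), d, hd, ?_, ?_⟩
    · intro l hl
      simp only [d]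
      rw [if_neg (fin_ne_of_val (by omega)), if_neg (fin_ne_of_val (by omega)), if_neg (fin_ne_of_val (by omega)),
        if_neg (fin_ne_of_val (by omega))]
    · simp only [d]
      rw [if_pos rfl]
  · have hk2 : k + 1 = n / 2 := by omega
    obtain ⟨θ, hθ0, hθ⟩ := exists_theta D
    have hsθ : σ θ = - θ := by linear_combination hθ
    have ha0 : - c * θ ≠ 0 := mul_ne_zero (neg_ne_zero.mpr hc) hθ0
    have hsa : σ (- c * θ) = σ c * θ := by
      rw [map_mul, map_neg, hsθ]
      ring
    have hi : i ≠ i.rev := fin_ne_of_val (by omega)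
    -- the choice of `m` and `s`
    obtain ⟨m, s, hD, hmr1, hmr2, hmr3, hmr4, hmr5, hmr6, hml⟩ : ∃ (m : Fin n) (s : K), DataC D i m s (- c * θ) ∧
        rc t m ≤ rc t i.rev ∧ rc t i ≤ rc t i.rev ∧ rc t i ≤ rc t m.rev ∧ rc t m ≤ rc t i ∧ rc t i.rev ≤ rc t i ∧ rc t i.rev ≤ rc t m.rev ∧
        (∀ l : Fin n, (l : ℕ) < k → l = m → σ c * c⁻¹ = 1) := by
      by_cases hodd : n % 2 = 0
      · have hcc := hlast hk2 hodd
        let m : Fin n := ⟨0, by omega⟩
        have hmv : (m : ℕ) = 0 := rfl
        have hmb : (m.rev : ℕ) = n - 1 - 0 := rev_val m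
        have hrci : rc t i = fc n k k := rfl
        have hrcib : rc t i.rev = fc n k (n - 1 - k) := by
          show fc n k (i.rev : ℕ) = _
          rw [hib]
        have hrcm : rc t m = fc n k 0 := rfl
        have hrcmb : rc t m.rev = fc n k (n - 1 - 0) := by
          show fc n k (m.rev : ℕ) = _
          rw [hmb]
        have a1 := arith_even hn hk2 hodd
        rw [← hrci, ← hrcib, ← hrcm, ← hrcmb] at a1
        refine ⟨m, 0, ⟨hi, fin_ne_of_val (by omega), fin_ne_of_val (by omega), fun h => absurd rfl h, ha0, ?_⟩, a1.1, a1.2.1, a1.2.2.1, a1.2.2.2.1, a1.2.2.2.2.1, a1.2.2.2.2.2, ?_⟩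
        · rw [hsa, hcc]
          ring
        · intro l _ _
          rw [hcc, mul_inv_cancel₀ hc]
      · let m : Fin n := ⟨k + 1, by omega⟩
        have hmv : (m : ℕ) = k + 1 := rfl
        have hmb : (m.rev : ℕ) = n - 1 - (k + 1) := rev_val m
        have hy : σ (- (- c * θ + σ (- c * θ))) = - (- c * θ + σ (- c * θ)) := by
          simp only [map_neg, map_add, hσ]
          ring
        obtain ⟨s, hs⟩ := D.hσ.norm_surj _ hy
        have hmm : m = m.rev := Fin.ext (by rw [hmb, hmv]; omega)
        have hrci : rc t i = fc n k k := rfl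
        have hrcib : rc t i.rev = fc n k (n - 1 - k) := by
          show fc n k (i.rev : ℕ) = _
          rw [hib]
        have hrcm : rc t m = fc n k (k + 1) := rfl
        have hrcmb : rc t m.rev = fc n k (n - 1 - (k + 1)) := by
          show fc n k (m.rev : ℕ) = _
          rw [hmb]
        have a1 := arith_odd hn hk2 hodd
        rw [← hrci, ← hrcib, ← hrcm, ← hrcmb] at a1
        refine ⟨m, s, ⟨hi, fin_ne_of_val (by omega), fin_ne_of_val (by omega), fun _ => hmm, ha0, ?_⟩, a1.1, a1.2.1, a1.2.2.1, a1.2.2.2.1, a1.2.2.2.2.1, a1.2.2.2.2.2, ?_⟩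
        · rw [hs]
          ring
        · intro l hl hlm
          rw [hlm, hmv] at hl
          omega
    have hmem : torC D i m s (- c * θ) θ ∈ Subgroup.closure (Yt D t) := by
      unfold torC
      refine mul_mem (nC_mem hD hmr1 hmr2 hmr3 hmr4 hmr5 hmr6) (nC_mem (hD.theta hθ0 hθ) hmr1 hmr2 hmr3 hmr4 hmr5 hmr6)
    let d : Fin n → K := fun l => if l = i then c else if l = i.rev then (σ c)⁻¹ else if l = m then σ c * c⁻¹ else 1
    have hd : ∀ l, D.toM (torC D i m s (- c * θ) θ) *ᵥ e l = d l • e l := by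
      intro l
      simp only [d]
      by_cases h1 : l = i
      · subst h1
        rw [if_pos rfl, torC_t hD hθ0 hθ, hsθ]
        congr 1
        field_simp
      rw [if_neg h1]
      by_cases h2 : l = i.rev
      · subst h2
        rw [if_pos rfl, torC_tb hD hθ0 hθ, hsa]
        congr 1
        field_simp
      rw [if_neg h2]
      by_cases h3 : l = m
      · subst h3
        rw [if_pos rfl, torC_m hD hθ0 hθ, hsa]
        congr 1
        field_simp
      rw [if_neg h3, one_smul, torC_other hD hθ0 hθ h1 h2 h3]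
    refine ⟨torC D i m s (- c * θ) θ, Subgroup.subset_closure (Or.inr ⟨t, hmem, normalizes_of_diag hd⟩), d, hd, ?_, ?_⟩
    · intro l hl
      simp only [d]
      rw [if_neg (fin_ne_of_val (by omega)), if_neg (fin_ne_of_val (by omega))]
      by_cases hlm : l = m
      · rw [if_pos hlm]
        exact hml l hl hlm
      · rw [if_neg hlm]
    · simp only [d]
      rw [if_pos rfl]

end Cfsg.Agent.Lib.SUWitt
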