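import Mathlib
import Cfsg.Agent.Lib.SUWitt5

set_option autoImplicit false
set_option linter.unusedSectionVars false
set_option linter.unusedSimpArgs false
set_option linter.unusedVariables false

/-!
# The unitary group in a Witt basis: the center of `U`, and generation of `U` by root elements
-/

namespace Cfsg.Agent.Lib.SUWitt

open Matrix Cfsg.Agent.Lib.UnipCrit Cfsg.Agent.Lib.PSLFusionBasic

variable {K : Type*} [Field K] {n : ℕ} {σ : K →+* K}
variable {Gt : Type*} [Group Gt] {D : Model (n := n) σ Gt}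

/-- The entries of the product with a root element. -/
theorem R_mul_apply {i j : Fin n} {c a : K} (hi : i ≠ i.rev) (hj : j ≠ i.rev)
    (ha : a + σ a + c * σ c * (if j = j.rev then 1 else 0) = 0) (M : Matrix (Fin n) (Fin n) K) (r s : Fin n) :
    (D.toM (D.E (e i) (c • e j) a) * M) r s = M r s + (if r = j then c * M i.rev s else 0) +
      (if r = i then a * M i.rev s else 0) + (if r = i then (- σ c) * M j.rev s else 0) := by
  rw [toM_R hi hj ha]
  simp only [Matrix.add_mul, Matrix.one_mul, Matrix.add_apply, single_mul_apply']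

theorem T_mul_apply {i : Fin n} {a : K} (hi : i ≠ i.rev) (ha : a + σ a = 0) (M : Matrix (Fin n) (Fin n) K) (r s : Fin n) :
    (D.toM (D.E (e i) 0 a) * M) r s = M r s + (if r = i then a * M i.rev s else 0) := by
  rw [toM_T hi ha]
  simp only [Matrix.add_mul, Matrix.one_mul, Matrix.add_apply, single_mul_apply']

/-- The relation between dual entries at the lowest height. -/
theorem dual_entry [Finite Gt] (hσ : ∀ x, σ (σ x) = x) (u : Gt) (hu : IsBlk (ρ n) (D.toM u)) {h : ℕ}
    (hP : ∀ a b, ρ n a < ρ n b → ρ n b < ρ n a + h → D.toM u a b = 0) {k l : Fin n} (hkl : (k : ℕ) < l)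
    (hh : (l : ℕ) = k + h) : D.toM u k l + σ (D.toM u l.rev k.rev) = 0 := by
  have hne : k ≠ l := fin_ne_of_val (by omega)
  have h1 := D.pres u (e l) (e k.rev)
  rw [hJ_e_e, Fin.rev_rev, if_neg (Ne.symm hne), hJ, Finset.sum_eq_add l k (Ne.symm hne)] at h1
  · simp only [mulVec_e_apply] at h1
    have hd : ∀ a, D.toM u a a = 1 := fun a => by
      have := hu.2 a a rfl
      rwa [if_pos rfl] at this
    rw [hd, hd, map_one, one_mul, mul_one] at h1
    linear_combination h1
  · intro s _ hs
    simp only [mulVec_e_apply]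
    have hs1 : (s : ℕ) ≠ l := fun h' => hs.1 (Fin.ext h')
    have hs2 : (s : ℕ) ≠ k := fun h' => hs.2 (Fin.ext h')
    by_cases h2 : (l : ℕ) < s
    · rw [show D.toM u s l = 0 from hu.1 s l h2, zero_mul]
    · by_cases h3 : (k : ℕ) < s
      · rw [hP s l (by show (s : ℕ) < l; omega) (by show (l : ℕ) < s + h; omega), zero_mul]
      · have h4 : (k.rev : ℕ) < s.rev := by
          rw [rev_val, rev_val]
          have := k.2
          have := s.2
          omega
        rw [show D.toM u s.rev k.rev = 0 from hu.1 _ _ h4, map_zero, mul_zero]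
  · simp
  · simp

/-- Central elements of `U` are long root elements for the highest root. -/
theorem central_form (hn : 4 ≤ n) (i₀ : Fin n) (h0 : (i₀ : ℕ) = 0) [Finite Gt] (u : Gt)
    (hu : IsBlk (ρ n) (D.toM u)) (hcomm : ∀ v, IsBlk (ρ n) (D.toM v) → u * v = v * u) :
    ∃ y : K, y + σ y = 0 ∧ u = D.E (e i₀) 0 y := by
  have hσ := D.hσ.invol
  obtain ⟨θ, hθ0, hθ⟩ := exists_theta D
  have hrev0 : (i₀.rev : ℕ) = n - 1 := by rw [rev_val, h0]; omega
  have hi₀ : i₀ ≠ i₀.rev := fin_ne_of_val (by omega)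
  have hd : ∀ a, D.toM u a a = 1 := fun a => by
    have := hu.2 a a rfl
    rwa [if_pos rfl] at this
  have hT0 := comm_T (D := D) (g := u) hi₀ hθ hθ0 (hcomm _ (T_blk (by simp only [ρ_apply]; omega) hi₀ hθ))
  have hS : ∀ (j : Fin n) (c a : K), j ≠ i₀ → j ≠ i₀.rev →
      a + σ a + c * σ c * (if j = j.rev then 1 else 0) = 0 →
      (∀ s, s ≠ i₀.rev → s ≠ j.rev → σ c * D.toM u j.rev s = 0) ∧
      (D.toM u i₀ j * c = - σ c * D.toM u j.rev i₀.rev) := by
    intro j c a h1 h2 ha
    have hjv : (j : ℕ) ≠ 0 := fun h' => h1 (Fin.ext (by omega))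
    have hjv2 : (j : ℕ) ≠ n - 1 := fun h' => h2 (Fin.ext (by omega))
    have hj2 := j.2
    have h4 := comm_R (D := D) (g := u) hi₀ h2 (Ne.symm h1) ha (hcomm _ (R_blk hi₀ h2 ha ?_ ?_ ?_))
    · refine ⟨fun s hs1 hs2 => ?_, ?_⟩
      · have := h4.1 s hs1 hs2
        rw [hT0.1 s hs1, mul_zero] at this
        exact this.symm
      · have := h4.2.2
        rw [hd, hd] at this
        linear_combination this
    all_goals
      simp only [ρ_apply, rev_val]
      omega
  -- the entries off the diagonal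
  have hrow : ∀ k : Fin n, k ≠ i₀ → k ≠ i₀.rev → (∀ s, s ≠ k → D.toM u k s = 0) ∧ D.toM u i₀ k.rev = 0 := by
    intro k h1 h2
    have h3 : k.rev ≠ i₀ := fun h => h2 (by rw [← h, Fin.rev_rev])
    have h4 : k.rev ≠ i₀.rev := fun h => h1 (Fin.rev_injective h)
    obtain ⟨a, ha⟩ := exists_a' D (1 : K) k.rev
    obtain ⟨c, hc⟩ := D.hσ.ne_id
    obtain ⟨b, hb⟩ := exists_a' D c k.rev
    have hA := hS k.rev 1 a h3 h4 ha
    have hB := hS k.rev c b h3 h4 hb
    rw [Fin.rev_rev] at hA hB
    have h5 := hA.2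
    have h6 := hB.2
    rw [map_one, mul_one] at h5
    have h7 : (c - σ c) * D.toM u k i₀.rev = 0 := by
      rw [h5] at h6
      linear_combination -h6
    have h8 : D.toM u k i₀.rev = 0 := (mul_eq_zero.mp h7).resolve_left (sub_ne_zero.mpr (Ne.symm hc))
    refine ⟨fun s hs => ?_, ?_⟩
    · by_cases hs0 : s = i₀.rev
      · rw [hs0]
        exact h8
      · have := hA.1 s hs0 hs
        rwa [map_one, one_mul] at this
    · rw [h5, h8]
      ring
  set y := D.toM u i₀ i₀.rev with hy
  have hcol : ∀ r s : Fin n, r ≠ s → ¬ (r = i₀ ∧ s = i₀.rev) → D.toM u r s = 0 := by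
    intro r s hrs hnot
    by_cases h1 : r = i₀
    · rw [h1] at hrs hnot ⊢
      by_cases h2 : s = i₀
      · exact absurd h2.symm hrs
      · have h3 : s ≠ i₀.rev := fun h => hnot ⟨rfl, h⟩
        have h4 := (hrow s.rev (fun h => h3 (by rw [← h, Fin.rev_rev])) (fun h => h2 (Fin.rev_injective h))).2
        rwa [Fin.rev_rev] at h4
    · by_cases h2 : r = i₀.rev
      · rw [h2] at hrs ⊢
        exact hT0.1 s (Ne.symm hrs)
      · exact (hrow r h1 h2).1 s (Ne.symm hrs)
  have hmat : D.toM u = 1 + Matrix.single i₀ i₀.rev y := by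
    ext r s
    rw [Matrix.add_apply, Matrix.one_apply]
    by_cases h1 : r = i₀ ∧ s = i₀.rev
    · rw [h1.1, h1.2, Matrix.single_apply_same, if_neg hi₀, zero_add]
    · rw [Matrix.single_apply_of_ne _ _ _ _ _ (fun h => h1 ⟨h.1.symm, h.2.symm⟩), add_zero]
      by_cases h2 : r = s
      · subst h2
        rw [hd, if_pos rfl]
      · rw [if_neg h2, hcol r s h2 h1]
  have hyt : y + σ y = 0 := by
    have h1 := dual_entry hσ u hu (h := n - 1) (k := i₀) (l := i₀.rev) ?_ (by rw [rev_val, h0]; omega) (by omega)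
    · rwa [Fin.rev_rev] at h1
    · intro a b hab hb
      have hab' : (a : ℕ) < b := hab
      have hb' : (b : ℕ) < a + (n - 1) := hb
      refine hcol a b (fin_ne_of_val (by omega)) ?_
      rintro ⟨h2, h3⟩
      rw [h2, h3] at hb'
      omega
  refine ⟨y, hyt, D.inj ?_⟩
  rw [toM_T hi₀ hyt, hmat]

/-- One clearing step with a root element. -/
theorem step_R [Finite Gt] (u : Gt) (hu : IsBlk (ρ n) (D.toM u)) (h : ℕ)
    (hP : ∀ a b, ρ n a < ρ n b → ρ n b < ρ n a + h → D.toM u a b = 0) {i j : Fin n} (hi : (i : ℕ) < i.rev) (h1 : (i : ℕ) < j.rev)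
    (h2 : (j : ℕ) < i.rev) (hij : i ≠ j) (hh : (j.rev : ℕ) = i + h) :
    ∃ (c a : K), (a + σ a + c * σ c * (if j = j.rev then 1 else 0) = 0) ∧
      IsBlk (ρ n) (D.toM (D.E (e i) (c • e j) a * u)) ∧
      (∀ a' b', ρ n a' < ρ n b' → ρ n b' < ρ n a' + h → D.toM (D.E (e i) (c • e j) a * u) a' b' = 0) ∧
      (∀ a' b', ρ n a' < ρ n b' → ρ n b' = ρ n a' + h → D.toM (D.E (e i) (c • e j) a * u) a' b' ≠ 0 → D.toM u a' b' ≠ 0) ∧
      D.toM (D.E (e i) (c • e j) a * u) j i.rev = 0 ∧ D.toM (D.E (e i) (c • e j) a * u) i j.rev = 0 := by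
  have hσ := D.hσ.invol
  have hi' : i ≠ i.rev := ne_rev_of_lt hi
  have hj' : j ≠ i.rev := fin_ne_of_val (by omega)
  have hd : ∀ a, D.toM u a a = 1 := fun a => by
    have := hu.2 a a rfl
    rwa [if_pos rfl] at this
  have hlow : ∀ a b : Fin n, (b : ℕ) < a → D.toM u a b = 0 := fun a b hab => hu.1 a b hab
  have hPP : ∀ a b : Fin n, (a : ℕ) < b → (b : ℕ) < a + h → D.toM u a b = 0 := fun a b hab hb => hP a b hab hb
  have hiv := i.2
  have hjv := j.2
  have h2o := h2
  rw [rev_val] at hi h1 h2 hh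
  set c := - D.toM u j i.rev with hc
  obtain ⟨a, ha, ha0⟩ : ∃ a : K, a + σ a + c * σ c * (if j = j.rev then 1 else 0) = 0 ∧ (j ≠ j.rev → a = 0) := by
    by_cases hmid : j = j.rev
    · obtain ⟨a, ha⟩ := exists_a' D c j
      exact ⟨a, ha, fun h => absurd hmid h⟩
    · refine ⟨0, ?_, fun _ => rfl⟩
      rw [if_neg hmid, map_zero]
      ring
  have hij2 : (i : ℕ) ≠ j := fun h' => hij (Fin.ext h')
  have hdual := dual_entry hσ u hu hP (k := i) (l := j.rev) (by rw [rev_val]; omega) (by rw [rev_val]; omega)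
  rw [Fin.rev_rev] at hdual
  have hsc : σ c = D.toM u i j.rev := by
    rw [hc, map_neg]
    linear_combination - hdual
  have hent : ∀ r s, D.toM (D.E (e i) (c • e j) a * u) r s = D.toM u r s + (if r = j then c * D.toM u i.rev s else 0) +
      (if r = i then a * D.toM u i.rev s else 0) + (if r = i then (- σ c) * D.toM u j.rev s else 0) := by
    intro r s
    rw [map_mul, R_mul_apply hi' hj' ha]
  have hA : ∀ s : Fin n, (s : ℕ) < j.rev → a * D.toM u i.rev s = 0 := by
    intro s hs
    by_cases hmid : j = j.rev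
    · have h3 : (j : ℕ) = j.rev := by rw [← hmid]
      rw [hlow i.rev s (by rw [rev_val] at hs h3 ⊢; omega), mul_zero]
    · rw [ha0 hmid, zero_mul]
  have hz1 : D.toM (D.E (e i) (c • e j) a * u) j i.rev = 0 := by
    rw [hent, if_pos rfl, if_neg (Ne.symm hij), if_neg (Ne.symm hij), hd, hc]
    ring
  have hz2 : D.toM (D.E (e i) (c • e j) a * u) i j.rev = 0 := by
    rw [hent, if_neg hij, if_pos rfl, if_pos rfl, hd, hsc]
    by_cases hmid : j = j.rev
    · have h3 : (j : ℕ) = j.rev := by rw [← hmid]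
      rw [hlow i.rev j.rev (by rw [rev_val] at h3 ⊢; rw [rev_val]; omega), mul_zero]
      ring
    · rw [ha0 hmid, zero_mul]
      ring
  refine ⟨c, a, ha, ?_, ?_, ?_, hz1, hz2⟩
  · rw [map_mul]
    refine IsBlk.mul (R_blk hi' hj' ha h2o (by simp only [ρ_apply, rev_val]; omega) ?_) hu
    simp only [ρ_apply, rev_val]
    omega
  · intro a' b' hab hb
    have hab' : (a' : ℕ) < b' := hab
    have hb' : (b' : ℕ) < a' + h := hb
    rw [hent, hPP a' b' hab' hb', zero_add]
    have t1 : (if a' = j then c * D.toM u i.rev b' else 0) = 0 := by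
      by_cases h3 : a' = j
      · subst h3
        rw [if_pos rfl, hlow i.rev b' (by rw [rev_val]; omega), mul_zero]
      · rw [if_neg h3]
    have t2 : (if a' = i then a * D.toM u i.rev b' else 0) = 0 := by
      by_cases h3 : a' = i
      · subst h3
        rw [if_pos rfl]
        exact hA b' (by rw [rev_val]; omega)
      · rw [if_neg h3]
    have t3 : (if a' = i then (- σ c) * D.toM u j.rev b' else 0) = 0 := by
      by_cases h3 : a' = i
      · subst h3
        rw [if_pos rfl, hlow j.rev b' (by rw [rev_val]; omega), mul_zero]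
      · rw [if_neg h3]
    rw [t1, t2, t3]
    ring
  · intro a' b' hab hb hne
    have hab' : (a' : ℕ) < b' := hab
    have hb' : (b' : ℕ) = a' + h := hb
    by_cases h3 : a' = j
    · subst h3
      have h4 : b' = i.rev := Fin.ext (by rw [rev_val]; omega)
      rw [h4] at hne
      exact absurd hz1 hne
    · by_cases h4 : a' = i
      · subst h4
        have h5 : b' = j.rev := Fin.ext (by rw [rev_val]; omega)
        rw [h5] at hne
        exact absurd hz2 hne
      · rwa [hent, if_neg h3, if_neg h4, if_neg h4, add_zero, add_zero, add_zero] at hne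

/-- `U` is generated by root elements. -/
theorem U_le_of_roots [Finite Gt] (H : Subgroup Gt)
    (hE : ∀ (i j : Fin n) (c a : K), (i : ℕ) < i.rev → (i : ℕ) < j.rev → (j : ℕ) < i.rev → i ≠ j →
      a + σ a + c * σ c * (if j = j.rev then 1 else 0) = 0 → D.E (e i) (c • e j) a ∈ H)
    (hT : ∀ (i : Fin n) (a : K), (i : ℕ) < i.rev → a + σ a = 0 → D.E (e i) 0 a ∈ H) :
    blkSub D.toM (ρ n) ≤ H := by
  have hσ := D.hσ.invol
  refine blk_le_of_step D.inj H ?_
  intro u hu h hP k l hkl hh hc
  have hkl' : (k : ℕ) < l := hkl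
  have hh' : (l : ℕ) = k + h := hh
  have hkv := k.2
  have hlv := l.2
  have hd : ∀ a, D.toM u a a = 1 := fun a => by
    have := hu.2 a a rfl
    rwa [if_pos rfl] at this
  have hlow : ∀ a b : Fin n, (b : ℕ) < a → D.toM u a b = 0 := fun a b hab => hu.1 a b hab
  have hPP : ∀ a b : Fin n, (a : ℕ) < b → (b : ℕ) < a + h → D.toM u a b = 0 := fun a b hab hb => hP a b hab hb
  by_cases hlk : l = k.rev
  · subst hlk
    have hk : k ≠ k.rev := fin_ne_of_val (by omega)
    have hdual := dual_entry hσ u hu hP hkl hh'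
    rw [Fin.rev_rev] at hdual
    set y := D.toM u k k.rev with hy
    have hty : - y + σ (- y) = 0 := by
      rw [map_neg]
      linear_combination - hdual
    have hent : ∀ r s, D.toM (D.E (e k) 0 (- y) * u) r s = D.toM u r s + (if r = k then - y * D.toM u k.rev s else 0) := by
      intro r s
      rw [map_mul, T_mul_apply hk hty]
    refine ⟨D.E (e k) 0 (- y), hT k _ hkl hty, ?_, ?_, ?_, ?_⟩
    · rw [map_mul]
      exact IsBlk.mul (T_blk hkl hk hty) hu
    · intro a b hab hb
      have hab' : (a : ℕ) < b := hab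
      have hb' : (b : ℕ) < a + h := hb
      rw [hent, hPP a b hab' hb', zero_add]
      by_cases h3 : a = k
      · subst h3
        rw [if_pos rfl, hlow _ b (by omega), mul_zero]
      · rw [if_neg h3]
    · intro a b hab hb hne
      have hab' : (a : ℕ) < b := hab
      have hb' : (b : ℕ) = a + h := hb
      by_cases h3 : a = k
      · subst h3
        have h4 : b = a.rev := Fin.ext (by omega)
        rw [h4, hent, if_pos rfl, hd, ← hy] at hne
        exact absurd (by ring) hne
      · rwa [hent, if_neg h3, add_zero] at hne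
    · rw [hent, if_pos rfl, hd, ← hy]
      ring
  · have hne2 : k ≠ l.rev := fun h' => hlk (by rw [h', Fin.rev_rev])
    by_cases hkk : (k : ℕ) < k.rev
    · obtain ⟨c, a, ha, h1, h2, h3, -, h5⟩ := step_R u hu h hP (i := k) (j := l.rev) hkk
        (by rw [Fin.rev_rev]; exact hkl') (by rw [rev_val, rev_val]; omega) hne2 (by rw [Fin.rev_rev]; exact hh')
      rw [Fin.rev_rev] at h5
      exact ⟨_, hE k l.rev c a hkk (by rw [Fin.rev_rev]; exact hkl') (by rw [rev_val, rev_val]; omega) hne2 ha, h1, h2, h3, h5⟩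
    · have h6 : (l.rev : ℕ) < l.rev.rev := by
        rw [Fin.rev_rev, rev_val]
        rw [rev_val] at hkk
        omega
      have h7 : (l.rev : ℕ) < k.rev := by
        rw [rev_val, rev_val]
        omega
      obtain ⟨c, a, ha, h1, h2, h3, h4, -⟩ := step_R u hu h hP (i := l.rev) (j := k) h6 h7
        (by rw [Fin.rev_rev]; exact hkl') (Ne.symm hne2) (by rw [rev_val, rev_val]; omega)
      rw [Fin.rev_rev] at h4
      exact ⟨_, hE l.rev k c a h6 h7 (by rw [Fin.rev_rev]; exact hkl') (Ne.symm hne2) ha, h1, h2, h3, h4⟩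

end Cfsg.Agent.Lib.SUWitt
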