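import Mathlib
import Cfsg.Agent.Lib.SUWitt6

set_option autoImplicit false
set_option linter.unusedSectionVars false
set_option linter.unusedSimpArgs false
set_option linter.unusedVariables false

/-!
# The unitary group in a Witt basis: the fusion system of `PSU` is simple
-/

namespace Cfsg.Agent.Lib.SUWitt

open Matrix Cfsg.Agent.Lib.UnipCrit Cfsg.Agent.Lib.PSLFusionBasic Cfsg.Agent.Lib.FusionSimpleCrit

variable {K : Type*} [Field K] {n : ℕ} {σ : K →+* K}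
variable {Gt : Type*} [Group Gt] {D : Model (n := n) σ Gt}

section closure
variable [Finite Gt] (Hs : Subgroup Gt)
  (hconj : ∀ t ∈ Hs, ∀ g : Gt, IsBlk (ρ n) (D.toM (g * t * g⁻¹)) → g * t * g⁻¹ ∈ Hs)
include hconj

/-- From one long root element for the highest root to all of them. -/
theorem step1 (hn : 4 ≤ n) {i₀ : Fin n} (h0 : (i₀ : ℕ) = 0) {y : K} (hy0 : y ≠ 0) (hy : y + σ y = 0) (hstart : D.E (e i₀) 0 y ∈ Hs)
    {a : K} (ha : a + σ a = 0) : D.E (e i₀) 0 a ∈ Hs := by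
  have hσ := D.hσ.invol
  have hrev0 : (i₀.rev : ℕ) = n - 1 := by rw [rev_val, h0]; omega
  have hi₀ : i₀ ≠ i₀.rev := fin_ne_of_val (by omega)
  by_cases ha0 : a = 0
  · subst ha0
    rw [Model.E_zero_eq_one (by rw [hJ_e_e, if_neg hi₀])]
    exact Hs.one_mem
  have hsy : σ y = - y := by linear_combination hy
  have hsa : σ a = - a := by linear_combination ha
  have hr : σ (a * y⁻¹) = a * y⁻¹ := by
    rw [map_mul, map_inv₀, hsy, hsa]
    field_simp
  obtain ⟨c, hc⟩ := D.hσ.norm_surj _ hr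
  have hc0 : c ≠ 0 := by
    rintro rfl
    rw [zero_mul] at hc
    exact (mul_ne_zero ha0 (inv_ne_zero hy0)) hc.symm
  let i₁ : Fin n := ⟨1, by omega⟩
  have hi₁ : (i₁ : ℕ) = 1 := rfl
  have hi₁b : (i₁.rev : ℕ) = n - 1 - 1 := rev_val i₁
  have hP : PairA i₀ i₁ := ⟨hi₀, fin_ne_of_val (by omega), fin_ne_of_val (by omega), fin_ne_of_val (by omega)⟩
  have hcy : Cond σ (e i₀) (0 : Fin n → K) y := cond_T hi₀ hy
  have h1 : torA D i₀ i₁ c * D.E (e i₀) 0 y * (torA D i₀ i₁ c)⁻¹ = D.E (e i₀) 0 a := by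
    rw [Model.E_conj hcy, torA_i hP hc0, Matrix.mulVec_zero, Model.E_smul_v hcy, smul_zero, hc]
    congr 1
    field_simp
  rw [← h1]
  apply hconj _ hstart
  rw [h1]
  exact T_blk (by simp only [ρ_apply]; omega) hi₀ ha

theorem step2 (hn : 4 ≤ n) {i₀ : Fin n} (h0 : (i₀ : ℕ) = 0) (hT0 : ∀ a : K, a + σ a = 0 → D.E (e i₀) 0 a ∈ Hs)
    {i : Fin n} (hi : (i : ℕ) < i.rev) {a : K} (ha : a + σ a = 0) : D.E (e i) 0 a ∈ Hs := by
  have hσ := D.hσ.invol
  have hrev0 : (i₀.rev : ℕ) = n - 1 := by rw [rev_val, h0]; omega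
  have hi₀ : i₀ ≠ i₀.rev := fin_ne_of_val (by omega)
  by_cases h1 : i = i₀
  · rw [h1]
    exact hT0 a ha
  have hiv : (i : ℕ) ≠ 0 := fun h' => h1 (Fin.ext (by omega))
  have hib := rev_val i
  have hiv2 := i.2
  have hP : PairA i₀ i := ⟨hi₀, ne_rev_of_lt hi, Ne.symm h1, fin_ne_of_val (by omega)⟩
  have hcy : Cond σ (e i₀) (0 : Fin n → K) a := cond_T hi₀ ha
  have h2 : nA D i₀ i 1 * D.E (e i₀) 0 a * (nA D i₀ i 1)⁻¹ = D.E (e i) 0 a := by
    rw [Model.E_conj hcy, nA_i hP one_ne_zero, Matrix.mulVec_zero, map_one, inv_one, one_smul]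
  rw [← h2]
  apply hconj _ (hT0 a ha)
  rw [h2]
  exact T_blk hi (ne_rev_of_lt hi) ha

/-- Short root elements from long root elements. -/
theorem step3 (hθ' : ∃ θ : K, θ ≠ 0 ∧ θ + σ θ = 0) (hT : ∀ (i : Fin n) (a : K), (i : ℕ) < i.rev → a + σ a = 0 → D.E (e i) 0 a ∈ Hs)
    {i j : Fin n} (hij : (i : ℕ) < j) (hj : (j : ℕ) < j.rev) (s : K) : D.E (e i) (s • e j) 0 ∈ Hs := by
  have hσ := D.hσ.invol
  obtain ⟨θ, hθ0, hθ⟩ := hθ'
  have hsθ : σ θ = - θ := by linear_combination hθ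
  have hiv2 := i.2
  have hjv2 := j.2
  have hib := rev_val i
  have hjb := rev_val j
  have hi : (i : ℕ) < i.rev := by omega
  have hne : i ≠ j := fin_ne_of_val (by omega)
  have hne2 : i ≠ j.rev := fin_ne_of_val (by omega)
  have hne3 : i.rev ≠ j.rev := fun h => hne (Fin.rev_injective h)
  have hi' : i ≠ i.rev := ne_rev_of_lt hi
  have hj' : j ≠ j.rev := ne_rev_of_lt hj
  set c := s * θ⁻¹ with hc
  have hcs : θ * c = s := by
    rw [hc]
    field_simp
  have hJvv : hJ σ (e i : Fin n → K) (e i) = 0 := by rw [hJ_e_e, if_neg hi']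
  have hJuu : hJ σ (c • e j : Fin n → K) (c • e j) = 0 := by
    rw [hJ_smul_left, hJ_smul_right, hJ_e_e, if_neg hj']
    ring
  have hJuv : hJ σ (c • e j : Fin n → K) (e i) = 0 := by
    rw [hJ_smul_left, hJ_e_e, if_neg (fin_ne_of_val (by omega)), mul_zero]
  have hadd := Model.T_add (D := D) hJvv hJuu hJuv hθ
  have hcu : Cond σ (e j : Fin n → K) 0 θ := cond_T hj' hθ
  have hrr : θ * (c * σ c) + σ (θ * (c * σ c)) = 0 := by
    simp only [map_mul, hσ, hsθ]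
    ring
  have h1 : D.E (c • e j) 0 θ = D.E (e j) 0 (θ * (c * σ c)) := by
    rw [Model.E_smul_v hcu, smul_zero]
  have h2 : D.E (c • e j) 0 θ ∈ Hs := by
    rw [h1]
    exact hT j _ (by omega) hrr
  have h3 : D.E (e i) 0 θ ∈ Hs := hT i _ hi hθ
  have h4 : θ • (c • e j : Fin n → K) = s • e j := by
    rw [smul_smul, hcs]
  rw [h4] at hadd
  -- the conjugating element
  let t : K := - σ c
  have hg : Cond σ (e j : Fin n → K) (t • e i.rev) 0 := by
    refine cond_R hj' hne3 ?_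
    rw [if_neg (by rw [Fin.rev_rev]; exact Ne.symm hi'), map_zero]
    ring
  let g : Gt := D.E (e j) (t • e i.rev) 0
  have hgi : D.toM g *ᵥ e i = e i + c • e j := by
    simp only [g]
    rw [act_R hg, Fin.rev_rev, if_neg (fin_ne_of_val (by omega)), if_pos rfl, add_zero]
    simp only [t, map_neg, hσ]
    ext r
    simp
  have hcT : Cond σ (e i : Fin n → K) 0 θ := cond_T hi' hθ
  have h5 : g * D.E (e i) 0 θ * g⁻¹ = D.E (e i + c • e j) 0 θ := by
    rw [Model.E_conj hcT, hgi, Matrix.mulVec_zero]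
  have hblk : IsBlk (ρ n) (D.toM (D.E (e i + c • e j) 0 θ)) := by
    rw [hadd, map_mul, map_mul, h1]
    refine IsBlk.mul (IsBlk.mul (T_blk hi hi' hθ) (T_blk (by simp only [ρ_apply]; omega) hj' hrr)) ?_
    refine R_blk hi' (fin_ne_of_val (by omega)) ?_ (by simp only [ρ_apply]; omega) hi (by simp only [ρ_apply]; omega)
    rw [if_neg hj', map_zero]
    ring
  have h6 : D.E (e i + c • e j) 0 θ ∈ Hs := by
    rw [← h5]
    apply hconj _ h3
    rw [h5]
    exact hblk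
  have h7 : D.E (e i) (s • e j) 0 = (D.E (e i) 0 θ * D.E (c • e j) 0 θ)⁻¹ * D.E (e i + c • e j) 0 θ := by
    rw [hadd]
    group
  rw [h7]
  exact Hs.mul_mem (Hs.inv_mem (Hs.mul_mem h3 h2)) h6

/-- The root elements for `e_i - e_j`, from the flip. -/
theorem step4 (hθ' : ∃ θ : K, θ ≠ 0 ∧ θ + σ θ = 0) (h3 : ∀ (i j : Fin n), (i : ℕ) < j → (j : ℕ) < j.rev → ∀ s : K, D.E (e i) (s • e j) 0 ∈ Hs)
    {i j : Fin n} (hij : (i : ℕ) < j) (hj : (j : ℕ) < j.rev) (s : K) : D.E (e i) (s • e j.rev) 0 ∈ Hs := by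
  have hσ := D.hσ.invol
  obtain ⟨θ, hθ0, hθ⟩ := hθ'
  have hsθ : σ θ = - θ := by linear_combination hθ
  have hsθ0 : σ θ ≠ 0 := by
    rw [hsθ]
    exact neg_ne_zero.mpr hθ0
  have hiv2 := i.2
  have hjv2 := j.2
  have hib := rev_val i
  have hjb := rev_val j
  have hi : (i : ℕ) < i.rev := by omega
  have hne : i ≠ j := fin_ne_of_val (by omega)
  have hne2 : i ≠ j.rev := fin_ne_of_val (by omega)
  have hi' : i ≠ i.rev := ne_rev_of_lt hi
  have hj' : j ≠ j.rev := ne_rev_of_lt hj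
  have hdata : DataC D j i 0 θ := ⟨hj', hne, hne2, fun h => absurd rfl h, hθ0, by simpa using hθ⟩
  have hcd : Cond σ (e i) ((s * σ θ) • e j) (0 : K) := by
    refine cond_R hi' (fin_ne_of_val (by omega)) ?_
    rw [if_neg hj', map_zero]
    ring
  have h1 : nC D j i 0 θ * D.E (e i) ((s * σ θ) • e j) 0 * (nC D j i 0 θ)⁻¹ = D.E (e i) (s • e j.rev) 0 := by
    rw [Model.E_conj hcd, nC_m hdata, Matrix.mulVec_smul, nC_t hdata, smul_smul, hsθ]
    have h2 : - (- θ) * θ⁻¹ = 1 := by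
      field_simp
    have h3' : s * -θ * (-θ)⁻¹ = s := by
      field_simp
    rw [h2, one_smul, h3']
  rw [← h1]
  apply hconj _ (h3 i j hij hj _)
  rw [h1]
  have hj2 : j.rev ≠ j.rev.rev := by
    rw [Fin.rev_rev]
    exact Ne.symm hj'
  refine R_blk hi' (fin_ne_of_val (by omega)) ?_ (by simp only [ρ_apply]; omega) hi (by simp only [ρ_apply, Fin.rev_rev]; omega)
  rw [if_neg hj2, map_zero]
  ring

/-- The root elements for the fixed point direction. -/
theorem step5 (hθ' : ∃ θ : K, θ ≠ 0 ∧ θ + σ θ = 0) (hT : ∀ (i : Fin n) (a : K), (i : ℕ) < i.rev → a + σ a = 0 → D.E (e i) 0 a ∈ Hs)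
    (h3 : ∀ (i j : Fin n), (i : ℕ) < j → (j : ℕ) < j.rev → ∀ s : K, D.E (e i) (s • e j) 0 ∈ Hs)
    (h4 : ∀ (i j : Fin n), (i : ℕ) < j → (j : ℕ) < j.rev → ∀ s : K, D.E (e i) (s • e j.rev) 0 ∈ Hs)
    {i j m : Fin n} (hij : (i : ℕ) < j) (hjm : (j : ℕ) < m) (hm : m = m.rev) (s b : K) (hb : b + σ b + s * σ s = 0) :
    D.E (e i) (s • e m) b ∈ Hs := by
  have hσ := D.hσ.invol
  have hiv2 := i.2
  have hjv2 := j.2
  have hmv2 := m.2
  have hib := rev_val i
  have hjb := rev_val j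
  have hmb : (m : ℕ) = m.rev := by rw [← hm]
  rw [rev_val] at hmb
  have hi : (i : ℕ) < i.rev := by omega
  have hj : (j : ℕ) < j.rev := by omega
  have hne : i ≠ j := fin_ne_of_val (by omega)
  have hne2 : i ≠ j.rev := fin_ne_of_val (by omega)
  have hi' : i ≠ i.rev := ne_rev_of_lt hi
  have hj' : j ≠ j.rev := ne_rev_of_lt hj
  have hjmn : j ≠ m := fin_ne_of_val (by omega)
  have him : i ≠ m := fin_ne_of_val (by omega)
  obtain ⟨r, hr⟩ := exists_a D (1 : K) 1 (map_one σ)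
  simp only [map_one, mul_one] at hr
  -- the conjugating element
  have hg : Cond σ (e j.rev : Fin n → K) ((1 : K) • e m) r := by
    refine cond_R (by rw [Fin.rev_rev]; exact Ne.symm hj') (by rw [Fin.rev_rev]; exact Ne.symm hjmn) ?_
    rw [if_pos hm, map_one]
    linear_combination hr
  let g : Gt := D.E (e j.rev) ((1 : K) • e m) r
  have hgj : D.toM g *ᵥ e j = e j + (e m + r • e j.rev) := by
    simp only [g]
    rw [act_R hg, Fin.rev_rev, if_pos rfl, ← hm, if_neg hjmn, sub_zero, one_smul]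
  have hgi : D.toM g *ᵥ e i = e i := by
    simp only [g]
    rw [act_R hg, Fin.rev_rev, if_neg hne, ← hm, if_neg him, add_zero, sub_zero]
  set w₁ : Fin n → K := s • e j with hw₁
  set w₂ : Fin n → K := (s * r) • e j.rev with hw₂
  set w₃ : Fin n → K := s • e m with hw₃
  have hc1 : Cond σ (e i) w₁ (0 : K) := by
    refine cond_R hi' (fin_ne_of_val (by omega)) ?_
    rw [if_neg hj', map_zero]
    ring
  have hc2 : Cond σ (e i) w₂ (0 : K) := by
    refine cond_R hi' (fin_ne_of_val (by omega)) ?_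
    rw [if_neg (by rw [Fin.rev_rev]; exact Ne.symm hj'), map_zero]
    ring
  set b₀ : K := s * r * σ s with hb₀
  have hb₀c : b₀ + σ b₀ + s * σ s = 0 := by
    simp only [hb₀, map_mul, hσ]
    linear_combination (s * σ s) * hr
  have hc3 : Cond σ (e i) w₃ b₀ := by
    refine cond_R hi' (fin_ne_of_val (by omega)) ?_
    rw [if_pos hm, mul_one]
    exact hb₀c
  have hJ21 : hJ σ w₂ w₁ = s * r * σ s := by
    rw [hw₁, hw₂, hJ_smul_left, hJ_smul_right, hJ_e_e, if_pos rfl]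
    ring
  have hm1 : D.E (e i) w₁ 0 * D.E (e i) w₂ 0 = D.E (e i) (w₁ + w₂) (- b₀) := by
    rw [Model.E_mul hc1 hc2, hJ21]
    congr 1
    rw [hb₀]
    ring
  have hc12 : Cond σ (e i) (w₁ + w₂) (- b₀) := by
    have hσ' := hσ
    refine ⟨hc1.1, by rw [hJ_add_left, hc1.2.1, hc2.2.1, add_zero], ?_⟩
    have h12 : hJ σ w₁ w₂ = σ (s * r * σ s) := by
      rw [← hJ21, hJ_conj hσ]
    have h11 : hJ σ w₁ w₁ = 0 := by
      rw [hw₁, hJ_smul_left, hJ_smul_right, hJ_e_e, if_neg hj']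
      ring
    have h22 : hJ σ w₂ w₂ = 0 := by
      rw [hw₂, hJ_smul_left, hJ_smul_right, hJ_e_e, Fin.rev_rev, if_neg (Ne.symm hj')]
      ring
    simp only [hJ_add_left, hJ_add_right, h11, h22, h12, hJ21, map_neg, hb₀]
    ring
  have hJ3 : hJ σ w₃ (w₁ + w₂) = 0 := by
    rw [hJ_add_right, hw₁, hw₂, hw₃, hJ_smul_left, hJ_smul_left, hJ_smul_right, hJ_smul_right, hJ_e_e, hJ_e_e, Fin.rev_rev,
      if_neg (Ne.symm hjmn), if_neg (fin_ne_of_val (by omega))]
    ring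
  have hm2 : D.E (e i) (w₁ + w₂) (- b₀) * D.E (e i) w₃ b₀ = D.E (e i) (w₁ + w₂ + w₃) 0 := by
    rw [Model.E_mul hc12 hc3, hJ3]
    congr 1
    ring
  have hW : D.toM g *ᵥ w₁ = w₁ + w₂ + w₃ := by
    rw [hw₁, Matrix.mulVec_smul, hgj]
    ext k
    simp only [hw₂, hw₃, Pi.smul_apply, Pi.add_apply, smul_eq_mul]
    ring
  have hconj1 : g * D.E (e i) w₁ 0 * g⁻¹ = D.E (e i) (w₁ + w₂ + w₃) 0 := by
    rw [Model.E_conj hc1, hgi, hW]
  have hb1 : D.E (e i) w₁ 0 ∈ Hs := h3 i j hij hj s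
  have hb2 : D.E (e i) w₂ 0 ∈ Hs := h4 i j hij hj _
  have hm3 : D.E (e i) (w₁ + w₂ + w₃) 0 ∈ Hs := by
    rw [← hconj1]
    apply hconj _ hb1
    rw [hconj1, ← hm2, ← hm1, map_mul, map_mul]
    refine IsBlk.mul (IsBlk.mul ?_ ?_) ?_
    · refine R_blk hi' (fin_ne_of_val (by omega)) ?_ (by simp only [ρ_apply]; omega) hi (by simp only [ρ_apply]; omega)
      rw [if_neg hj', map_zero]
      ring
    · refine R_blk hi' (fin_ne_of_val (by omega)) ?_ (by simp only [ρ_apply]; omega) hi (by simp only [ρ_apply, Fin.rev_rev]; omega)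
      rw [if_neg (by rw [Fin.rev_rev]; exact Ne.symm hj'), map_zero]
      ring
    · refine R_blk hi' (fin_ne_of_val (by omega)) ?_ (by simp only [ρ_apply]; omega) hi (by simp only [ρ_apply, ← hm]; omega)
      rw [if_pos hm, mul_one]
      exact hb₀c
  have hb3 : D.E (e i) w₃ b₀ ∈ Hs := by
    have h5 : D.E (e i) w₃ b₀ = (D.E (e i) w₁ 0 * D.E (e i) w₂ 0)⁻¹ * D.E (e i) (w₁ + w₂ + w₃) 0 := by
      rw [← hm2, hm1]
      group
    rw [h5]
    exact Hs.mul_mem (Hs.inv_mem (Hs.mul_mem hb1 hb2)) hm3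
  have hd : (b - b₀) + σ (b - b₀) = 0 := by
    rw [map_sub]
    linear_combination hb - hb₀c
  have hcd : Cond σ (e i) (0 : Fin n → K) (b - b₀) := cond_T hi' hd
  have h6 : D.E (e i) w₃ b = D.E (e i) w₃ b₀ * D.E (e i) 0 (b - b₀) := by
    rw [Model.E_mul hc3 hcd, add_zero, hJ_zero_left]
    congr 1
    ring
  rw [h6]
  exact Hs.mul_mem hb3 (hT i _ hi hd)

/-- **From one long root element for the highest root to all of `U`.** -/
theorem long_gives_all (hn : 4 ≤ n) {i₀ : Fin n} (h0 : (i₀ : ℕ) = 0) {y : K} (hy0 : y ≠ 0) (hy : y + σ y = 0) (hstart : D.E (e i₀) 0 y ∈ Hs) :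
    blkSub D.toM (ρ n) ≤ Hs := by
  have hσ := D.hσ.invol
  have hθ' := exists_theta D
  have hT0 : ∀ a : K, a + σ a = 0 → D.E (e i₀) 0 a ∈ Hs := fun a ha => step1 Hs hconj hn h0 hy0 hy hstart ha
  have hT : ∀ (i : Fin n) (a : K), (i : ℕ) < i.rev → a + σ a = 0 → D.E (e i) 0 a ∈ Hs :=
    fun i a hi ha => step2 Hs hconj hn h0 hT0 hi ha
  have h3 : ∀ (i j : Fin n), (i : ℕ) < j → (j : ℕ) < j.rev → ∀ s : K, D.E (e i) (s • e j) 0 ∈ Hs :=
    fun i j hij hj s => step3 Hs hconj hθ' hT hij hj s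
  have h4 : ∀ (i j : Fin n), (i : ℕ) < j → (j : ℕ) < j.rev → ∀ s : K, D.E (e i) (s • e j.rev) 0 ∈ Hs :=
    fun i j hij hj s => step4 Hs hconj hθ' h3 hij hj s
  refine U_le_of_roots Hs ?_ hT
  intro i j c a hi hij1 hij2 hne ha
  have hi' : i ≠ i.rev := ne_rev_of_lt hi
  have hiv2 := i.2
  have hjv2 := j.2
  have hib := rev_val i
  have hjb := rev_val j
  by_cases hmid : j = j.rev
  · rw [if_pos hmid, mul_one] at ha
    have hmb : (j : ℕ) = j.rev := by rw [← hmid]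
    have hi0 : (i₀.rev : ℕ) = n - 1 := by rw [rev_val, h0]; omega
    have hi₀ : i₀ ≠ i₀.rev := fin_ne_of_val (by omega)
    have hbase : D.E (e i₀) (c • e j) a ∈ Hs :=
      step5 Hs hconj hθ' hT h3 h4 (i := i₀) (j := ⟨1, by omega⟩) (m := j) (by simp [h0]) (by show 1 < (j : ℕ); omega) hmid c a ha
    by_cases h1 : i = i₀
    · rw [h1]
      exact hbase
    · have hP : PairA i₀ i := ⟨hi₀, hi', Ne.symm h1, fin_ne_of_val (by omega)⟩
      have hcb : Cond σ (e i₀) (c • e j) a := by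
        refine cond_R hi₀ (fin_ne_of_val (by omega)) ?_
        rw [if_pos hmid, mul_one]
        exact ha
      have h2 : nA D i₀ i 1 * D.E (e i₀) (c • e j) a * (nA D i₀ i 1)⁻¹ = D.E (e i) (c • e j) a := by
        rw [Model.E_conj hcb, Matrix.mulVec_smul, nA_i hP one_ne_zero, nA_other hP one_ne_zero (fin_ne_of_val (by omega))
          (Ne.symm hne) (fin_ne_of_val (by omega)) (fin_ne_of_val (by omega)), map_one, inv_one, one_smul]
      rw [← h2]
      apply hconj _ hbase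
      rw [h2]
      refine R_blk hi' (fin_ne_of_val (by omega)) ?_ hij2 hi hij1
      rw [if_pos hmid, mul_one]
      exact ha
  · rw [if_neg hmid, mul_zero, add_zero] at ha
    have hcT : Cond σ (e i) (0 : Fin n → K) a := cond_T hi' ha
    have hc0 : Cond σ (e i) (c • e j) (0 : K) := by
      refine cond_R hi' (fin_ne_of_val (by omega)) ?_
      rw [if_neg hmid, map_zero]
      ring
    have h1 : D.E (e i) (c • e j) a = D.E (e i) (c • e j) 0 * D.E (e i) 0 a := by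
      rw [Model.E_mul hc0 hcT, add_zero, hJ_zero_left]
      congr 1
      ring
    rw [h1]
    refine Hs.mul_mem ?_ (hT i a hi ha)
    have hjj : (j : ℕ) ≠ j.rev := fun h => hmid (Fin.ext h)
    by_cases hlt : (j : ℕ) < j.rev
    · rcases lt_or_gt_of_ne (fun h => hne (Fin.ext h) : (i : ℕ) ≠ j) with h2 | h2
      · exact h3 i j h2 hlt c
      · have hJ1 : hJ σ (e j : Fin n → K) (e i) = 0 := by
          rw [hJ_e_e, if_neg (fin_ne_of_val (by omega))]
        rw [Model.E_symm (by rw [hJ_e_e, if_neg hi']) (by rw [hJ_e_e, if_neg hmid]) hJ1 c]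
        exact h3 j i h2 (by omega) _
    · have h5 := h4 i j.rev hij1 (by rw [Fin.rev_rev]; omega) c
      rwa [Fin.rev_rev] at h5

end closure

/-- The final dichotomy for fusion-closed subgroups. -/
theorem closed_dichotomy [Finite Gt] (p : ℕ) [hp : Fact p.Prime] [CharP K p] (hn : 4 ≤ n)
    (Ts : Subgroup (Gt ⧸ Subgroup.center Gt)) (hT : Ts ≤ (blkSub D.toM (ρ n)).map (prj Gt))
    (hc : FusionClosed ((blkSub D.toM (ρ n)).map (prj Gt)) Ts) :
    Ts = ⊥ ∨ Ts = (blkSub D.toM (ρ n)).map (prj Gt) := by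
  classical
  by_cases hbot : Ts = ⊥
  · exact Or.inl hbot
  right
  apply le_antisymm hT
  let Ub := (blkSub D.toM (ρ n)).map (prj Gt)
  have hP : IsPGroup p Ub := by
    rintro ⟨_, u, hu, rfl⟩
    obtain ⟨m, hm⟩ := pow_eq_one_of_blk p D.inj hu
    refine ⟨m, Subtype.ext ?_⟩
    show (prj Gt u) ^ p ^ m = 1
    rw [← map_pow, hm, map_one]
  have hnorm : (Ts.subgroupOf Ub).Normal := by
    refine ⟨fun t ht g => ?_⟩
    rw [Subgroup.mem_subgroupOf] at ht ⊢
    exact hc _ ht _ (Ub.mul_mem (Ub.mul_mem g.2 t.2) (Ub.inv_mem g.2))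
  have hne : Ts.subgroupOf Ub ≠ ⊥ := by
    intro h
    apply hbot
    rw [eq_bot_iff]
    intro t ht
    have h1 : (⟨t, hT ht⟩ : Ub) ∈ Ts.subgroupOf Ub := Subgroup.mem_subgroupOf.mpr ht
    rw [h, Subgroup.mem_bot] at h1
    exact congrArg Subtype.val h1
  obtain ⟨z, hzT, hz1, hzc⟩ := Cfsg.Agent.Lib.PuigBasic.exists_mem_center_of_normal hP _ hne
  obtain ⟨⟨_, u, hu, rfl⟩, hzdef⟩ : ∃ z' : Ub, z' = z := ⟨z, rfl⟩
  subst hzdef
  have htT : prj Gt u ∈ Ts := Subgroup.mem_subgroupOf.mp hzT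
  have hne1 : prj Gt u ≠ 1 := fun h => hz1 (Subtype.ext h)
  let i₀ : Fin n := ⟨0, by omega⟩
  have : Nonempty (Fin n) := ⟨i₀⟩
  have hcenter := center_scalar (D := D) (by omega)
  have hcomm : ∀ v, IsBlk (ρ n) (D.toM v) → u * v = v * u := by
    intro v hv
    obtain ⟨m, hm⟩ := pow_eq_one_of_blk p D.inj hv
    have h1 := Subgroup.mem_center_iff.mp hzc ⟨prj Gt v, v, hv, rfl⟩
    have h2 : prj Gt v * prj Gt u = prj Gt u * prj Gt v := congrArg Subtype.val h1
    exact comm_of_prj_comm D.inj hcenter h2.symm hm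
  obtain ⟨y, hy, hue⟩ := central_form hn i₀ rfl u hu hcomm
  have hi₀0 : (i₀ : ℕ) = 0 := rfl
  have hrev0 : (i₀.rev : ℕ) = n - 1 := by rw [rev_val, hi₀0]; omega
  have hi₀ : i₀ ≠ i₀.rev := fin_ne_of_val (by omega)
  have hy0 : y ≠ 0 := by
    rintro rfl
    apply hne1
    rw [hue, Model.E_zero_eq_one (by rw [hJ_e_e, if_neg hi₀]), map_one]
  let Hs : Subgroup Gt := Ts.comap (prj Gt)
  have hconj : ∀ t ∈ Hs, ∀ g : Gt, IsBlk (ρ n) (D.toM (g * t * g⁻¹)) → g * t * g⁻¹ ∈ Hs := by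
    intro t ht g hg
    show prj Gt (g * t * g⁻¹) ∈ Ts
    rw [map_mul, map_mul, map_inv]
    apply hc _ ht
    rw [← map_inv, ← map_mul, ← map_mul]
    exact ⟨_, hg, rfl⟩
  have huH : u ∈ Hs := htT
  have hfin := long_gives_all Hs hconj hn (i₀ := i₀) rfl hy0 hy (hue ▸ huH)
  rintro _ ⟨v, hv, rfl⟩
  exact hfin hv

/-- The image of `U` is not trivial. -/
theorem Ubar_ne_bot [Finite Gt] (hn : 4 ≤ n) : (blkSub D.toM (ρ n)).map (prj Gt) ≠ ⊥ := by
  intro h
  have hσ := D.hσ.invol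
  obtain ⟨θ, hθ0, hθ⟩ := exists_theta D
  let i₀ : Fin n := ⟨0, by omega⟩
  have hi₀0 : (i₀ : ℕ) = 0 := rfl
  have hrev0 : (i₀.rev : ℕ) = n - 1 := by rw [rev_val, hi₀0]; omega
  have hi₀ : i₀ ≠ i₀.rev := fin_ne_of_val (by omega)
  have h1 : D.E (e i₀) 0 θ ∈ blkSub D.toM (ρ n) := T_blk (by simp only [ρ_apply]; omega) hi₀ hθ
  have h2 : prj Gt (D.E (e i₀) 0 θ) ∈ (blkSub D.toM (ρ n)).map (prj Gt) := ⟨_, h1, rfl⟩
  rw [h, Subgroup.mem_bot, prj_eq_one_iff] at h2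
  obtain ⟨c, hc⟩ := center_scalar (D := D) (by omega) _ h2
  have h3 := congrFun (congrFun hc i₀) i₀.rev
  rw [toM_T hi₀ hθ, Matrix.smul_apply, Matrix.one_apply_ne hi₀, smul_zero, Matrix.add_apply,
    Matrix.one_apply_ne hi₀, Matrix.single_apply_same, zero_add] at h3
  exact hθ0 h3

/-- **The `p`-fusion system of `PSU_n` is simple, for a model of `SU_n`.** -/
theorem main [Finite Gt] (D : Model (n := n) σ Gt) (p : ℕ) [hp : Fact p.Prime] [CharP K p] (hn : 4 ≤ n)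
    (S : Sylow p (Gt ⧸ Subgroup.center Gt)) :
    (Cfsg.groupFusionSystem (S : Subgroup (Gt ⧸ Subgroup.center Gt))).IsSimple p := by
  let i₀ : Fin n := ⟨0, by omega⟩
  have : Nonempty (Fin n) := ⟨i₀⟩
  exact isSimple_generic D.inj (center_scalar (D := D) (by omega)) ρ_injective (hasRoots D) (fun A c hA hd => hscal (by omega) A c hA hd)
    rc rc_mono (fun t A hA => self_centralizing hn t A hA) (Yt D) (hY p) (upper_gen hn) (Ubar_ne_bot hn)
    (closed_dichotomy p hn) S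

end Cfsg.Agent.Lib.SUWitt
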