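import Mathlib
import Cfsg.Agent.Lib.SUWitt7
import Cfsg.Agent.Lib.HermFrame
import Cfsg.Agent.Lib.HermForm
import Cfsg.Agent.Lib.FFNorm
import Cfsg.Agent.Lib.HermCount

set_option autoImplicit false
set_option linter.unusedSectionVars false
set_option linter.unusedSimpArgs false
set_option linter.unusedVariables false

/-!
# The concrete model of `SU_n(q)` in a Witt basis
-/

namespace Cfsg.Agent.Lib.SUWitt

open Matrix Cfsg Module

variable {K : Type*} [Field K] [Fintype K] {q n : ℕ}

/-- The Frobenius `x ↦ x ^ q` is a proper involution with surjective norm and trace. -/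
theorem invol_frobQ (hK : Fintype.card K = q ^ 2) : Invol (Cfsg.Agent.Lib.HermForm.frobQ hK) := by
  classical
  have hσ : ∀ x : K, Cfsg.Agent.Lib.HermForm.frobQ hK (Cfsg.Agent.Lib.HermForm.frobQ hK x) = x := by
    intro x
    simp only [Cfsg.Agent.Lib.HermForm.frobQ_apply]
    exact Cfsg.Agent.Lib.HermCount.pow_q_pow_q hK x
  have hq2 : 2 ≤ q := Cfsg.Agent.Lib.HermCount.two_le_q hK
  have hne : ∃ c : K, Cfsg.Agent.Lib.HermForm.frobQ hK c ≠ c := by
    by_contra hcon
    push Not at hcon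
    obtain ⟨g, hg⟩ := IsCyclic.exists_generator (α := Kˣ)
    have h1 : orderOf g = Nat.card Kˣ := orderOf_eq_card_of_forall_mem_zpowers hg
    have h2 : Nat.card Kˣ = q ^ 2 - 1 := by
      rw [Nat.card_eq_fintype_card, Fintype.card_units, hK]
    have h3 : g ^ q = g := by
      ext
      simpa using hcon (g : K)
    have h4 : g ^ (q - 1) = 1 := by
      have h5 : g ^ (q - 1) * g = g := by
        rw [← pow_succ, Nat.sub_add_cancel (by omega), h3]
      exact mul_eq_right.mp h5
    have h6 := Nat.le_of_dvd (by omega) (orderOf_dvd_of_pow_eq_one h4)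
    rw [h1, h2] at h6
    have : q ^ 2 = q * q := by ring
    have : 2 * q ≤ q * q := Nat.mul_le_mul_right q hq2
    omega
  refine ⟨hσ, hne, ?_, ?_⟩
  · intro y hy
    by_cases hy0 : y = 0
    · exact ⟨0, by simp [hy0]⟩
    · obtain ⟨c, -, hc⟩ := Cfsg.Agent.Lib.FFNorm.exists_norm_eq hK hy0 hy
      exact ⟨c, by rw [← hc, pow_succ, Cfsg.Agent.Lib.HermForm.frobQ_apply]; ring⟩
  · intro y hy
    obtain ⟨c, hc⟩ : ∃ c : K, c + Cfsg.Agent.Lib.HermForm.frobQ hK c ≠ 0 := by
      by_contra hcon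
      push Not at hcon
      obtain ⟨c, hc⟩ := hne
      apply hc
      have h1 := hcon 1
      rw [map_one] at h1
      have h2 := hcon c
      linear_combination h2 - c * h1
    set t := c + Cfsg.Agent.Lib.HermForm.frobQ hK c with ht
    have hft : Cfsg.Agent.Lib.HermForm.frobQ hK t = t := by
      rw [ht, map_add, hσ]
      ring
    refine ⟨c * y * t⁻¹, ?_⟩
    rw [map_mul, map_mul, map_inv₀, hft, hy]
    field_simp
    rw [ht]

/-- The form is Hermitian. -/
theorem isHerm_hJ (hK : Fintype.card K = q ^ 2) :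
    Cfsg.Agent.Lib.HermFrame.IsHerm q (hJ (n := n) (Cfsg.Agent.Lib.HermForm.frobQ hK)) := by
  have hσ := (invol_frobQ hK).invol
  refine ⟨hJ_add_left, hJ_smul_left, fun u v => ?_, fun x hx => hJ_nondeg hx⟩
  have := hJ_conj hσ u v
  simpa using this

/-- The concrete model. -/
noncomputable def modelSU (hK : Fintype.card K = q ^ 2) (e₀ : (Fin n → K) ≃ₗ[K] (Fin n → K))
    (he : ∀ u v, hJ (Cfsg.Agent.Lib.HermForm.frobQ hK) u v = hermForm n K q (e₀ u) (e₀ v)) :
    Model (n := n) (Cfsg.Agent.Lib.HermForm.frobQ hK) (SU n K q) := by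
  let P : Matrix (Fin n) (Fin n) K := LinearMap.toMatrix' e₀.toLinearMap
  let Q : Matrix (Fin n) (Fin n) K := LinearMap.toMatrix' e₀.symm.toLinearMap
  have hPv : ∀ x, P *ᵥ x = e₀ x := fun x => by simp [P, LinearMap.toMatrix'_mulVec]
  have hQv : ∀ x, Q *ᵥ x = e₀.symm x := fun x => by simp [Q, LinearMap.toMatrix'_mulVec]
  have hQP : Q * P = 1 := by
    apply mat_ext
    intro x
    rw [← Matrix.mulVec_mulVec, hPv, hQv, Matrix.one_mulVec, LinearEquiv.symm_apply_apply]
  have hPQ : P * Q = 1 := by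
    apply mat_ext
    intro x
    rw [← Matrix.mulVec_mulVec, hPv, hQv, Matrix.one_mulVec, LinearEquiv.apply_symm_apply]
  let toM : SU n K q →* Matrix (Fin n) (Fin n) K :=
    { toFun := fun g => Q * ((g : Matrix.SpecialLinearGroup (Fin n) K) : Matrix (Fin n) (Fin n) K) * P
      map_one' := by
        show Q * ((1 : Matrix.SpecialLinearGroup (Fin n) K) : Matrix (Fin n) (Fin n) K) * P = 1
        rw [Matrix.SpecialLinearGroup.coe_one, Matrix.mul_one, hQP]
      map_mul' := by
        intro g g'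
        show Q * (((g : Matrix.SpecialLinearGroup (Fin n) K) * (g' : Matrix.SpecialLinearGroup (Fin n) K) : Matrix.SpecialLinearGroup (Fin n) K) : Matrix (Fin n) (Fin n) K) * P = _
        rw [Matrix.SpecialLinearGroup.coe_mul]
        calc Q * (((g : Matrix.SpecialLinearGroup (Fin n) K) : Matrix (Fin n) (Fin n) K) * ((g' : Matrix.SpecialLinearGroup (Fin n) K) : Matrix (Fin n) (Fin n) K)) * P
            = Q * ((g : Matrix.SpecialLinearGroup (Fin n) K) : Matrix (Fin n) (Fin n) K) * (P * Q) * ((g' : Matrix.SpecialLinearGroup (Fin n) K) : Matrix (Fin n) (Fin n) K) * P := by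
              rw [hPQ]
              simp only [Matrix.mul_one, Matrix.mul_assoc]
          _ = _ := by
              simp only [Matrix.mul_assoc] }
  have htoM : ∀ (g : SU n K q) x, toM g *ᵥ x = e₀.symm (((g : Matrix.SpecialLinearGroup (Fin n) K) : Matrix (Fin n) (Fin n) K) *ᵥ e₀ x) := by
    intro g x
    show (Q * ((g : Matrix.SpecialLinearGroup (Fin n) K) : Matrix (Fin n) (Fin n) K) * P) *ᵥ x = _
    rw [← Matrix.mulVec_mulVec, ← Matrix.mulVec_mulVec, hPv, hQv]
  refine
    { toM := toM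
      inj := ?_
      hσ := invol_frobQ hK
      pres := ?_
      det := ?_
      realize := ?_ }
  · intro g g' h
    have h1 : (P * (Q * ((g : Matrix.SpecialLinearGroup (Fin n) K) : Matrix (Fin n) (Fin n) K) * P) * Q) =
        (P * (Q * ((g' : Matrix.SpecialLinearGroup (Fin n) K) : Matrix (Fin n) (Fin n) K) * P) * Q) := by
      have h2 : Q * ((g : Matrix.SpecialLinearGroup (Fin n) K) : Matrix (Fin n) (Fin n) K) * P =
        Q * ((g' : Matrix.SpecialLinearGroup (Fin n) K) : Matrix (Fin n) (Fin n) K) * P := h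
      rw [h2]
    have h3 : ∀ M : Matrix (Fin n) (Fin n) K, P * (Q * M * P) * Q = M := by
      intro M
      calc P * (Q * M * P) * Q = (P * Q) * M * (P * Q) := by simp only [Matrix.mul_assoc]
        _ = M := by rw [hPQ, Matrix.one_mul, Matrix.mul_one]
    rw [h3, h3] at h1
    exact Subtype.ext (Subtype.ext h1)
  · intro g x y
    rw [htoM, htoM, he, LinearEquiv.apply_symm_apply, LinearEquiv.apply_symm_apply, he]
    exact g.2 (e₀ x) (e₀ y)
  · intro g
    show (Q * ((g : Matrix.SpecialLinearGroup (Fin n) K) : Matrix (Fin n) (Fin n) K) * P).det = 1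
    rw [Matrix.det_mul, Matrix.det_mul, (g : Matrix.SpecialLinearGroup (Fin n) K).2, mul_one, ← Matrix.det_mul, hQP,
      Matrix.det_one]
  · intro A hA hdet
    have hdet' : (P * A * Q).det = 1 := by
      rw [Matrix.det_mul, Matrix.det_mul, hdet, mul_one, ← Matrix.det_mul, hPQ, Matrix.det_one]
    let g₀ : Matrix.SpecialLinearGroup (Fin n) K := ⟨P * A * Q, hdet'⟩
    have hg₀ : g₀ ∈ SU n K q := by
      intro u v
      show hermForm n K q ((P * A * Q) *ᵥ u) ((P * A * Q) *ᵥ v) = _
      have h1 : ∀ w, (P * A * Q) *ᵥ w = e₀ (A *ᵥ e₀.symm w) := by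
        intro w
        rw [← Matrix.mulVec_mulVec, ← Matrix.mulVec_mulVec, hQv, hPv]
      rw [h1, h1, ← he, hA, he, LinearEquiv.apply_symm_apply, LinearEquiv.apply_symm_apply]
    refine ⟨⟨g₀, hg₀⟩, ?_⟩
    show Q * (P * A * Q) * P = A
    calc Q * (P * A * Q) * P = (Q * P) * A * (Q * P) := by simp only [Matrix.mul_assoc]
      _ = A := by rw [hQP, Matrix.one_mul, Matrix.mul_one]

/-- **The `p`-fusion system of `PSU_n(q)` is simple.** -/
theorem psu_main (p : ℕ) [Fact p.Prime] [CharP K p] (hK : Fintype.card K = q ^ 2) (hn : 4 ≤ n)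
    (S : Sylow p (Cfsg.PSU n K q)) :
    (Cfsg.groupFusionSystem (S : Subgroup (Cfsg.PSU n K q))).IsSimple p := by
  obtain ⟨e₀, he⟩ := Cfsg.Agent.Lib.HermFrame.exists_equiv (K := K) (q := q) hK (V := Fin n → K) (d := n) (by simp) (isHerm_hJ hK)
  exact main (modelSU hK e₀ he) p hn S

end Cfsg.Agent.Lib.SUWitt
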