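import Mathlib
import Cfsg.Agent.Lib.PrsSUJ
import Cfsg.Agent.Lib.SUWitt8
import Cfsg.Agent.Lib.SUGen

/-!
# Presentations of special unitary groups: generation of the model
-/

set_option autoImplicit false
set_option linter.unusedSectionVars false
set_option linter.unusedVariables false

namespace Cfsg.Agent.Lib.PrsSU

open Subgroup Sum Cfsg.Agent.Lib.SUWitt Cfsg.Agent.Lib.PrsU3
open scoped Matrix commutatorElement

section Generic

variable {n : ℕ} {F : Type*} [Field F] {σ : F →+* F} {Gt : Type*} [Group Gt] (D : Model (n := n) σ Gt)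

/-- The Eichler element along its own direction. -/
lemma E_self {v : Fin n → F} (hv : hJ σ v v = 0) (c a : F) (h : Cond σ v (c • v) a) :
    D.E v (c • v) a = D.E v 0 (a + c - σ c) := by
  have hσ := D.hσ.invol
  have h' : Cond σ v 0 (a + c - σ c) := by
    refine ⟨hv, hJ_zero_left _, ?_⟩
    obtain ⟨-, -, h3⟩ := h
    rw [hJ_smul_left, hJ_smul_right, hv] at h3
    rw [hJ_zero_left]
    simp only [map_add, map_sub, hσ]
    linear_combination h3
  apply Model.G_ext (D := D)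
  intro x
  rw [Model.act_E h, Model.act_E h', hJ_smul_right, hJ_zero_right]
  ext r
  simp only [Pi.add_apply, Pi.sub_apply, Pi.smul_apply, smul_eq_mul, Pi.zero_apply]
  ring

/-- The element with trivial data. -/
lemma E_zero_zero {c : F} (h : c + σ c = 0) : D.E (0 : Fin n → F) 0 c = 1 := by
  have h' : Cond σ (0 : Fin n → F) 0 c := by
    refine ⟨hJ_zero_left _, hJ_zero_left _, ?_⟩
    rw [hJ_zero_left]
    linear_combination h
  apply Model.G_ext (D := D)
  intro x
  rw [Model.act_E h', Model.act_one]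
  simp [hJ_zero_right]

/-- All root elements from the coordinate ones. -/
lemma E_all {i₀ : Fin n} (hi₀ : i₀ ≠ i₀.rev) (H : Subgroup Gt)
    (hT : ∀ a, a + σ a = 0 → D.E (e i₀) 0 a ∈ H)
    (hS : ∀ s, s ≠ i₀ → s ≠ i₀.rev → ∀ c a : F, Cond σ (e i₀) (c • e s) a → D.E (e i₀) (c • e s) a ∈ H) :
    ∀ w a, Cond σ (e i₀) w a → D.E (e i₀) w a ∈ H := by
  classical
  have hσ := D.hσ.invol
  have hv : hJ σ (e i₀ : Fin n → F) (e i₀) = 0 := by
    rw [hJ_e_e, if_neg hi₀]
  -- the property closed under addition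
  let S : (Fin n → F) → Prop := fun w => hJ σ w (e i₀) = 0 ∧ ∀ a, Cond σ (e i₀) w a → D.E (e i₀) w a ∈ H
  have hsolve : ∀ w : Fin n → F, ∃ a, a + σ a + hJ σ w w = 0 := by
    intro w
    obtain ⟨a, ha⟩ := D.hσ.trace_surj (- hJ σ w w) (by rw [map_neg, hJ_conj hσ])
    exact ⟨a, by linear_combination ha⟩
  have hadd : ∀ w w', S w → S w' → S (w + w') := by
    intro w w' hw hw'
    refine ⟨by rw [hJ_add_left, hw.1, hw'.1, add_zero], ?_⟩
    intro a ha
    obtain ⟨a₁, h₁⟩ := hsolve w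
    obtain ⟨a₂, h₂⟩ := hsolve w'
    have c₁ : Cond σ (e i₀) w a₁ := ⟨hv, hw.1, h₁⟩
    have c₂ : Cond σ (e i₀) w' a₂ := ⟨hv, hw'.1, h₂⟩
    have e₁ := Model.E_mul (D := D) c₁ c₂
    have hm : D.E (e i₀) (w + w') (a₁ + a₂ - hJ σ w' w) ∈ H := by
      rw [← e₁]
      exact H.mul_mem (hw.2 _ c₁) (hw'.2 _ c₂)
    have c₃ : Cond σ (e i₀) (w + w') (a₁ + a₂ - hJ σ w' w) := by
      refine ⟨hv, ha.2.1, ?_⟩
      rw [hJ_add_left, hJ_add_right, hJ_add_right]
      simp only [map_add, map_sub, hJ_conj hσ]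
      linear_combination h₁ + h₂
    have c₄ : Cond σ (e i₀) (0 : Fin n → F) (a - (a₁ + a₂ - hJ σ w' w)) := by
      refine ⟨hv, hJ_zero_left _, ?_⟩
      have h5 := ha.2.2
      have h6 := c₃.2.2
      rw [hJ_zero_left]
      generalize a₁ + a₂ - hJ σ w' w = X at h6
      simp only [map_sub]
      linear_combination h5 - h6
    have e₂ := Model.E_mul (D := D) c₃ c₄
    rw [add_zero, hJ_zero_left, sub_zero] at e₂
    have e₃ : a₁ + a₂ - hJ σ w' w + (a - (a₁ + a₂ - hJ σ w' w)) = a := by ring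
    rw [e₃] at e₂
    rw [← e₂]
    refine H.mul_mem hm (hT _ ?_)
    have h5 := c₄.2.2
    rw [hJ_zero_left] at h5
    linear_combination h5
  have hzero : S 0 := by
    refine ⟨hJ_zero_left _, ?_⟩
    intro a ha
    refine hT a ?_
    have := ha.2.2
    rw [hJ_zero_left] at this
    linear_combination this
  have hterm : ∀ (w : Fin n → F), hJ σ w (e i₀) = 0 → ∀ s, S (w s • e s) := by
    intro w hw s
    by_cases h1 : s = i₀.rev
    · have : w s = 0 := by
        rw [hJ_e_right] at hw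
        rw [h1, hw]
      rw [this, zero_smul]
      exact hzero
    · have hort : hJ σ (w s • e s : Fin n → F) (e i₀) = 0 := by
        rw [hJ_smul_left, hJ_e_e, if_neg h1, mul_zero]
      refine ⟨hort, ?_⟩
      intro a ha
      by_cases h2 : s = i₀
      · subst h2
        rw [E_self D hv _ _ ha]
        refine hT _ ?_
        have h3 := ha.2.2
        rw [hJ_smul_left, hJ_smul_right, hv] at h3
        simp only [map_add, map_sub, hσ]
        linear_combination h3
      · exact hS s h2 h1 _ _ ha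
  intro w a ha
  have hw : w = ∑ s, w s • e s := by
    ext r
    simp only [Finset.sum_apply, Pi.smul_apply, smul_eq_mul, e_apply]
    simp
  have hall : S (∑ s, w s • e s) := by
    refine Finset.sum_induction _ S hadd hzero (fun s _ => hterm w ha.2.1 s)
  rw [← hw] at hall
  exact hall.2 a ha

/-- A nonzero isotropic vector has a coordinate which is not fixed by the reversal. -/
lemma exists_coord (hσ : ∀ x, σ (σ x) = x) {v : Fin n → F} (hv : v ≠ 0) (hvv : hJ σ v v = 0) :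
    ∃ j, j ≠ j.rev ∧ v j ≠ 0 := by
  by_contra hcon
  push_neg at hcon
  have h0 : ∀ j, j ≠ j.rev → v j = 0 := hcon
  obtain ⟨j, hj⟩ : ∃ j, v j ≠ 0 := by
    by_contra h
    push_neg at h
    exact hv (funext h)
  have hjr : j = j.rev := by
    by_contra h
    exact hj (h0 j h)
  have hsum : hJ σ v v = v j * σ (v j) := by
    unfold hJ
    rw [Finset.sum_eq_single j]
    · rw [← hjr]
    · intro k _ hk
      have hkr : k ≠ k.rev := by
        intro h
        apply hk
        have h1 : (k : ℕ) = n - 1 - k := by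
          conv_lhs => rw [h]
          rw [Fin.val_rev]
          have := k.2
          omega
        have h2 : (j : ℕ) = n - 1 - j := by
          conv_lhs => rw [hjr]
          rw [Fin.val_rev]
          have := j.2
          omega
        have := k.2
        have := j.2
        exact Fin.ext (by omega)
      rw [h0 k hkr, zero_mul]
    · simp
  rw [hsum] at hvv
  rcases mul_eq_zero.1 hvv with h | h
  · exact hj h
  · apply hj
    have := congrArg σ h
    rwa [hσ, map_zero] at this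

/-- All transvections lie in a subgroup containing the root elements at one index and enough moves. -/
lemma transv_mem {i₀ : Fin n} (hi₀ : i₀ ≠ i₀.rev) (H : Subgroup Gt)
    (hE : ∀ w a, Cond σ (e i₀) w a → D.E (e i₀) w a ∈ H)
    (hmove : ∀ k, k ≠ k.rev → ∃ h ∈ H, ∃ u : F, u ≠ 0 ∧ D.toM h *ᵥ e k = u • e i₀) :
    ∀ v c, hJ σ v v = 0 → c + σ c = 0 → D.E v 0 c ∈ H := by
  classical
  have hσ := D.hσ.invol
  have hv₀ : hJ σ (e i₀ : Fin n → F) (e i₀) = 0 := by
    rw [hJ_e_e, if_neg hi₀]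
  intro v c hvv hc
  by_cases hv0 : v = 0
  · subst hv0
    rw [E_zero_zero D hc]
    exact H.one_mem
  obtain ⟨j, hj, hvj⟩ := exists_coord hσ hv0 hvv
  have hkr : j.rev ≠ j.rev.rev := by
    rw [Fin.rev_rev]
    exact fun e => hj e.symm
  obtain ⟨h, hH, u, hu, hhu⟩ := hmove j.rev hkr
  let v' := D.toM h *ᵥ v
  have hv'v' : hJ σ v' v' = 0 := by
    simp only [v']
    rw [D.pres, hvv]
  have hsu : σ u ≠ 0 := fun e => hu (by simpa [hσ] using congrArg σ e)
  have hα : hJ σ v' (e i₀) = (σ u)⁻¹ * v j := by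
    have h1 : (e i₀ : Fin n → F) = u⁻¹ • (D.toM h *ᵥ e j.rev) := by
      rw [hhu, smul_smul, inv_mul_cancel₀ hu, one_smul]
    simp only [v']
    rw [h1, hJ_smul_right, D.pres, hJ_e_right, Fin.rev_rev, map_inv₀]
  set α := hJ σ v' (e i₀) with hαdef
  have hα0 : α ≠ 0 := by
    rw [hα]
    exact mul_ne_zero (inv_ne_zero hsu) hvj
  have hαc : v' i₀.rev = α := by
    rw [hαdef, hJ_e_right]
  -- the first root element
  let β := v' i₀
  let w : Fin n → F := (-α⁻¹) • (v' - α • e i₀.rev - β • e i₀)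
  have hw0 : hJ σ w (e i₀) = 0 := by
    simp only [w]
    rw [hJ_smul_left, hJ_sub_left, hJ_sub_left, hJ_smul_left, hJ_smul_left, hJ_e_e, hJ_e_e, if_pos rfl, if_neg hi₀,
      ← hαdef]
    ring
  obtain ⟨a, ha⟩ := D.hσ.trace_surj (- hJ σ w w) (by rw [map_neg, hJ_conj hσ])
  have c₁ : Cond σ (e i₀) w a := ⟨hv₀, hw0, by linear_combination ha⟩
  let g₁ := D.E (e i₀) w a
  have hg₁ : g₁ ∈ H := hE _ _ c₁
  have hform : hJ σ v' (e i₀) = α := rfl
  let β' : F := α * a - hJ σ v' w + β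
  have e₁ : D.toM g₁ *ᵥ v' = α • e i₀.rev + β' • e i₀ := by
    simp only [g₁]
    rw [Model.act_E c₁, hform]
    simp only [w, β', β]
    ext r
    simp only [Pi.add_apply, Pi.sub_apply, Pi.smul_apply, smul_eq_mul]
    generalize hJ σ v' ((-α⁻¹) • (v' - α • e i₀.rev - v' i₀ • e i₀)) = z
    field_simp
    ring
  -- the second root element
  have hv'' : hJ σ (α • e i₀.rev + β' • e i₀ : Fin n → F) (α • e i₀.rev + β' • e i₀) = 0 := by
    rw [← e₁, D.pres, hv'v']
  have hrel : α * σ β' + β' * σ α = 0 := by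
    rw [hJ_add_left, hJ_add_right, hJ_add_right] at hv''
    simp only [hJ_smul_left, hJ_smul_right, hJ_e_e, Fin.rev_rev, if_true] at hv''
    rw [if_neg (fun e => hi₀ e.symm), if_neg hi₀] at hv''
    linear_combination hv''
  let a' : F := - β' * α⁻¹
  have hsα : σ α ≠ 0 := fun e => hα0 (by simpa [hσ] using congrArg σ e)
  have ha' : a' + σ a' = 0 := by
    simp only [a', map_mul, map_neg, map_inv₀]
    field_simp
    linear_combination - hrel
  have c₂ : Cond σ (e i₀) (0 : Fin n → F) a' := by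
    refine ⟨hv₀, hJ_zero_left _, ?_⟩
    rw [hJ_zero_left]
    linear_combination ha'
  let g₂ := D.E (e i₀) 0 a'
  have hg₂ : g₂ ∈ H := hE _ _ c₂
  have e₂ : D.toM g₂ *ᵥ (α • e i₀.rev + β' • e i₀) = α • e i₀.rev := by
    simp only [g₂]
    rw [Model.act_E c₂, hJ_add_left, hJ_smul_left, hJ_smul_left, hJ_e_e, hJ_e_e, if_pos rfl, if_neg hi₀,
      hJ_zero_right]
    simp only [a']
    ext r
    simp only [Pi.add_apply, Pi.sub_apply, Pi.smul_apply, smul_eq_mul, Pi.zero_apply]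
    field_simp
    ring
  -- the third one
  have hkr' : i₀.rev ≠ i₀.rev.rev := by
    rw [Fin.rev_rev]
    exact fun e => hi₀ e.symm
  obtain ⟨g₃, hg₃, u₃, hu₃, e₃⟩ := hmove i₀.rev hkr'
  have e₄ : D.toM (g₃ * g₂ * g₁ * h) *ᵥ v = (α * u₃) • e i₀ := by
    rw [Model.act_mul, Model.act_mul, Model.act_mul]
    change D.toM g₃ *ᵥ D.toM g₂ *ᵥ D.toM g₁ *ᵥ v' = _
    rw [e₁, e₂, Matrix.mulVec_smul, e₃, smul_smul]
  set g := g₃ * g₂ * g₁ * h with hg
  have hgH : g ∈ H := H.mul_mem (H.mul_mem (H.mul_mem hg₃ hg₂) hg₁) hH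
  have c₅ : Cond σ v 0 c := by
    refine ⟨hvv, hJ_zero_left _, ?_⟩
    rw [hJ_zero_left]
    linear_combination hc
  have e₅ := Model.E_conj (D := D) c₅ g
  rw [e₄, Matrix.mulVec_zero] at e₅
  have c₆ : Cond σ (e i₀ : Fin n → F) 0 c := ⟨hv₀, hJ_zero_left _, c₅.2.2⟩
  rw [Model.E_smul_v c₆, smul_zero] at e₅
  have e₆ : D.E v 0 c = g⁻¹ * D.E (e i₀) 0 (c * ((α * u₃) * σ (α * u₃))) * g := by
    rw [← e₅]
    group
  rw [e₆]
  refine H.mul_mem (H.mul_mem (H.inv_mem hgH) (hE _ _ ?_)) hgH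
  refine ⟨hv₀, hJ_zero_left _, ?_⟩
  rw [hJ_zero_left]
  simp only [map_mul, hσ]
  have : σ c = - c := by linear_combination hc
  rw [this]
  ring

end Generic

section Top

variable {K : Type*} [Field K] [Fintype K] {q n : ℕ}

/-- Transvections generate. -/
lemma model_top (hK : Fintype.card K = q ^ 2) (e₀ : (Fin n → K) ≃ₗ[K] (Fin n → K))
    (he : ∀ u v, hJ (Cfsg.Agent.Lib.HermForm.frobQ hK) u v = Cfsg.hermForm n K q (e₀ u) (e₀ v))
    (hn : 3 ≤ n) (h32 : ¬ (n = 3 ∧ q = 2)) (H : Subgroup (Cfsg.SU n K q))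
    (h : ∀ v c, hJ (Cfsg.Agent.Lib.HermForm.frobQ hK) v v = 0 → c + (Cfsg.Agent.Lib.HermForm.frobQ hK) c = 0 →
      (modelSU hK e₀ he).E v 0 c ∈ H) : H = ⊤ := by
  rw [eq_top_iff, ← SUGen.TT_eq_top hK hn h32, SUGen.TT, Subgroup.closure_le]
  rintro A ⟨v, c, hA⟩
  have hq0 : (0 : K) ^ q = 0 := zero_pow (by
    have := Cfsg.Agent.Lib.HermCount.two_le_q hK
    omega)
  have hz : Cfsg.hermForm n K q (0 : Fin n → K) 0 = 0 := by
    simp [Cfsg.hermForm]
  have hc' : c + (Cfsg.Agent.Lib.HermForm.frobQ hK) c = 0 := by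
    have h1 := hA.hs
    rw [hz, add_zero] at h1
    simpa using h1
  let v' := e₀.symm v
  have hv' : hJ (Cfsg.Agent.Lib.HermForm.frobQ hK) v' v' = 0 := by
    simp only [v']
    rw [he, LinearEquiv.apply_symm_apply]
    exact hA.hvv
  have hc₀ : Cond (Cfsg.Agent.Lib.HermForm.frobQ hK) v' 0 c := by
    refine ⟨hv', hJ_zero_left _, ?_⟩
    rw [hJ_zero_left]
    linear_combination hc'
  have hAE : A = (modelSU hK e₀ he).E v' 0 c := by
    apply (modelSU hK e₀ he).inj
    apply mat_ext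
    intro x
    rw [Model.act_E hc₀]
    have hact : (modelSU hK e₀ he).toM A *ᵥ x = e₀.symm (SUGen.act A (e₀ x)) := by
      show (LinearMap.toMatrix' e₀.symm.toLinearMap * ((A : Matrix.SpecialLinearGroup (Fin n) K) : Matrix (Fin n) (Fin n) K) *
        LinearMap.toMatrix' e₀.toLinearMap) *ᵥ x = _
      rw [← Matrix.mulVec_mulVec, ← Matrix.mulVec_mulVec, LinearMap.toMatrix'_mulVec, LinearMap.toMatrix'_mulVec]
      rfl
    rw [hact, hA.act_eq]
    have h1 : hJ (Cfsg.Agent.Lib.HermForm.frobQ hK) x v' = Cfsg.hermForm n K q (e₀ x) v := by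
      simp only [v']
      rw [he, LinearEquiv.apply_symm_apply]
    rw [h1]
    have h2 : Cfsg.hermForm n K q (e₀ x) 0 = 0 := by
      simp [Cfsg.hermForm, hq0]
    rw [h2]
    simp only [v', map_add, map_sub, map_smul, LinearEquiv.symm_apply_apply, zero_smul, sub_zero, zero_add, smul_eq_mul, hJ_zero_right]
  rw [hAE]
  exact h v' c hv' hc'

end Top

section OddGen

variable {m' : ℕ} {F : Type*} [Field F] {σ : F →+* F} {Gt : Type*} [Group Gt] (Mo : Model (n := nO m') σ Gt)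
variable (hσ : ∀ x, σ (σ x) = x) {δ : F} (hδ : δ ≠ 0) (hδ' : σ δ = -δ)

/-- The generators contain all the blocks. -/
lemma odd_κ_mem (H : Subgroup Gt) (hρ : ∀ τ, ρM Mo τ ∈ H) (hκ : ∀ g, κM Mo 0 g ∈ H) (i : Fin (m' + 1)) (g : GJ σ) :
    κM Mo i g ∈ H := by
  have h := ρM_κM Mo (Equiv.swap 0 i) 0 g
  rw [Equiv.swap_apply_left] at h
  rw [← h]
  exact H.mul_mem (H.mul_mem (hρ _) (hκ g)) (H.inv_mem (hρ _))

include hσ hδ hδ'

/-- All short root elements at the first index lie in the group. -/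
lemma odd_short_mem (H : Subgroup Gt) (hρ : ∀ τ, ρM Mo τ ∈ H) (hκ : ∀ g, κM Mo 0 g ∈ H) {b : Ix (m' + 1)}
    (hb : ab b ≠ 0) (c : F) : Mo.E (vec (inl 0)) (c • vec b) 0 ∈ H := by
  have hK := odd_κ_mem Mo H hρ hκ
  have key : ∀ j : Fin (m' + 1), (0 : Fin (m' + 1)) ≠ j → ∀ c : F, Mo.E (vec (inl 0)) (c • vec (inl j)) 0 ∈ H := by
    intro j hj c
    obtain ⟨d, hd⟩ := Mo.hσ.trace_surj (- (c * σ c)) (by simp [hσ, mul_comm (σ c)])
    obtain ⟨b₀, hb₀⟩ := Mo.hσ.trace_surj (- ((1 : F) * σ 1)) (by simp)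
    have h1 : c * σ c + d + σ d = 0 := by linear_combination hd
    have h2 : (1 : F) * σ 1 + b₀ + σ b₀ = 0 := by linear_combination hb₀
    have h3 := M_comm Mo hσ hj h1 h2
    rw [map_one, mul_one] at h3
    rw [← h3, commutatorElement_def]
    exact H.mul_mem (H.mul_mem (H.mul_mem (hK _ _) (hK _ _)) (H.inv_mem (hK _ _))) (H.inv_mem (hK _ _))
  cases b with
  | inl j => exact key j (Ne.symm hb) c
  | inr j =>
    have hj : (0 : Fin (m' + 1)) ≠ j := Ne.symm hb
    have hne : ab (inl 0 : Ix (m' + 1)) ≠ ab (inl j) := hj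
    have h1 := key j hj (c * (-δ))
    have h2 := Model.E_conj (D := Mo) (condX hne (c * (-δ))) (κM Mo j (WG hσ hδ hδ'))
    rw [κM_off Mo j _ (a := inl 0) hj, Matrix.mulVec_smul, κM_W_inl, smul_smul] at h2
    have e1 : c * -δ * -δ⁻¹ = c := by
      field_simp
    rw [e1] at h2
    rw [← h2]
    exact H.mul_mem (H.mul_mem (hK _ _) h1) (H.inv_mem (hK _ _))

/-- All transvections lie in the group generated. -/
lemma odd_transv (H : Subgroup Gt) (hρ : ∀ τ, ρM Mo τ ∈ H) (hκ : ∀ g, κM Mo 0 g ∈ H) :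
    ∀ (v : Fin (nO m') → F) (c : F), hJ σ v v = 0 → c + σ c = 0 → Mo.E v 0 c ∈ H := by
  have hK := odd_κ_mem Mo H hρ hκ
  let i₀ : Fin (nO m') := idxO (inl 0)
  have hrev : i₀.rev = idxO (inr 0) := idxO_rev _
  have hi₀ : i₀ ≠ i₀.rev := by
    rw [hrev]
    intro h
    exact (bar_ne (inl 0 : Ix (m' + 1))) (idxO_inj h).symm
  have hT : ∀ a : F, a + σ a = 0 → Mo.E (e i₀) 0 a ∈ H := by
    intro a ha
    have h0 : (0 : F) * σ 0 + a + σ a = 0 := by
      simp [ha]
    have := κM_MG Mo hσ 0 h0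
    rw [zero_smul] at this
    change Mo.E (vec (inl 0)) 0 a ∈ H
    rw [← this]
    exact hK _ _
  have hS : ∀ s, s ≠ i₀ → s ≠ i₀.rev → ∀ c a : F, Cond σ (e i₀) (c • e s) a → Mo.E (e i₀) (c • e s) a ∈ H := by
    intro s h1 h2 c a hc
    rcases idxO_cases s with rfl | ⟨b, rfl⟩
    · have h3 := hc.2.2
      rw [hJ_smul_left, hJ_smul_right, hJ_vM_vM] at h3
      have h0 : c * σ c + a + σ a = 0 := by linear_combination h3
      change Mo.E (vec (inl 0)) (c • vM F m') a ∈ H
      rw [← κM_MG Mo hσ 0 h0]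
      exact hK _ _
    · have hb : ab b ≠ 0 := by
        cases b with
        | inl j =>
          intro h
          obtain rfl : j = 0 := h
          exact h1 rfl
        | inr j =>
          intro h
          obtain rfl : j = 0 := h
          exact h2 hrev.symm
      have h3 := hc.2.2
      rw [hJ_smul_left, hJ_smul_right, hJ_vec_ne (bar_ne b).symm] at h3
      have ha : a + σ a = 0 := by linear_combination h3
      have hne : ab (inl 0 : Ix (m' + 1)) ≠ ab b := Ne.symm hb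
      have c₁ := condX (σ := σ) hne c
      have c₂ : Cond σ (vec (inl 0) : Fin (nO m') → F) 0 a := by
        refine ⟨hc.1, hJ_zero_left _, ?_⟩
        rw [hJ_zero_left]
        linear_combination ha
      have e₁ := Model.E_mul (D := Mo) c₁ c₂
      rw [add_zero, hJ_zero_left, sub_zero, zero_add] at e₁
      change Mo.E (vec (inl 0)) (c • vec b) a ∈ H
      rw [← e₁]
      exact H.mul_mem (odd_short_mem Mo hσ hδ hδ' H hρ hκ hb c) (hT a ha)
  have hE := E_all Mo hi₀ H hT hS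
  refine transv_mem Mo hi₀ H hE ?_
  intro k hk
  rcases idxO_cases k with rfl | ⟨a, rfl⟩
  · exact absurd midO_rev.symm hk
  · cases a with
    | inl j =>
      refine ⟨ρM Mo (Equiv.swap j 0), hρ _, 1, one_ne_zero, ?_⟩
      rw [ρM_e, permN_idx, one_smul]
      simp [i₀]
    | inr j =>
      refine ⟨ρM Mo (Equiv.swap j 0) * κM Mo j (WG hσ hδ hδ'), H.mul_mem (hρ _) (hK _ _), δ, hδ, ?_⟩
      rw [Model.act_mul, κM_W_inr, Matrix.mulVec_smul, ρM_e, permN_idx]
      simp [i₀]

end OddGen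

end Cfsg.Agent.Lib.PrsSU
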