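import Mathlib
import Cfsg.Agent.Lib.PrsSUK
import Cfsg.Agent.Lib.PrsSUG
import Cfsg.Agent.Lib.PrsSUC

/-!
# Presentations of special unitary groups: injectivity in the odd dimensional case
-/

set_option autoImplicit false
set_option linter.unusedSectionVars false
set_option linter.unusedVariables false

namespace Cfsg.Agent.Lib.PrsSU

open Subgroup Sum Cfsg.Agent.Lib.SUWitt Cfsg.Agent.Lib.PrsU3
open scoped Matrix commutatorElement

section DgDef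

variable {F : Type*} [Field F] {σ : F →+* F} (hσ : ∀ x, σ (σ x) = x) {δ : F} (hδ : δ ≠ 0) (hδ' : σ δ = -δ)

/-- The monomial part of the small group. -/
def Dg : Subgroup (GJ σ) where
  carrier := {g | ∃ l, g = DU hσ l ∨ g = DU hσ l * WG hσ hδ hδ'}
  one_mem' := ⟨1, Or.inl (by simp)⟩
  mul_mem' := by
    have hW : ∀ l : Fˣ, WG hσ hδ hδ' * DU hσ l = DU hσ (sU hσ l)⁻¹ * WG hσ hδ hδ' := by
      intro l
      have := WG_DU hσ hδ hδ' l
      rw [mul_inv_eq_iff_eq_mul] at this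
      exact this
    rintro _ _ ⟨l, rfl | rfl⟩ ⟨l', rfl | rfl⟩
    · exact ⟨l * l', Or.inl (by simp)⟩
    · exact ⟨l * l', Or.inr (by simp [mul_assoc])⟩
    · refine ⟨l * (sU hσ l')⁻¹, Or.inr ?_⟩
      rw [mul_assoc, hW, map_mul, mul_assoc]
    · refine ⟨l * (sU hσ l')⁻¹ * (-1), Or.inl ?_⟩
      have e : DU hσ l * WG hσ hδ hδ' * (DU hσ l' * WG hσ hδ hδ') =
          DU hσ l * (WG hσ hδ hδ' * DU hσ l') * WG hσ hδ hδ' := by group
      rw [e, hW, map_mul, map_mul, mul_assoc, mul_assoc, ← WG_sq hσ hδ hδ']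
      simp only [mul_assoc]
  inv_mem' := by
    have hW : ∀ l : Fˣ, WG hσ hδ hδ' * DU hσ l = DU hσ (sU hσ l)⁻¹ * WG hσ hδ hδ' := by
      intro l
      have := WG_DU hσ hδ hδ' l
      rw [mul_inv_eq_iff_eq_mul] at this
      exact this
    rintro _ ⟨l, rfl | rfl⟩
    · exact ⟨l⁻¹, Or.inl (by simp)⟩
    · refine ⟨-1 * (sU hσ l⁻¹)⁻¹, Or.inr ?_⟩
      rw [mul_inv_rev, WG_inv, mul_assoc, ← map_inv, hW, map_mul, mul_assoc]

lemma Dg_DU (l : Fˣ) : DU hσ l ∈ Dg hσ hδ hδ' := ⟨l, Or.inl rfl⟩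

lemma Dg_WG : WG hσ hδ hδ' ∈ Dg hσ hδ hδ' := ⟨1, Or.inr (by simp)⟩

lemma AdD_Dg (l : Fˣ) {g : GJ σ} (hg : g ∈ Dg hσ hδ hδ') : AdD hσ l g = g := by
  obtain ⟨l', rfl | rfl⟩ := hg
  · exact AdD_DU hσ l l'
  · rw [map_mul, AdD_DU, AdD_W]

end DgDef

lemma vec_self' {m' : ℕ} {F : Type*} [Field F] (a : Ix (m' + 1)) : (vec a : Fin (nO m') → F) (idxO a) = 1 := by
  simp [e_apply]

lemma vec_ne' {m' : ℕ} {F : Type*} [Field F] {a b : Ix (m' + 1)} (h : b ≠ a) : (vec a : Fin (nO m') → F) (idxO b) = 0 := by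
  show (e (idxO a) : Fin (nO m') → F) (idxO b) = 0
  rw [e_apply, if_neg]
  exact fun e => h (idxO_inj e)

namespace OCfg

variable {F : Type*} [Field F] {σ : F →+* F} {hσ : ∀ x, σ (σ x) = x} {δ : F} {hδ : δ ≠ 0} {hδ' : σ δ = -δ} {b₀ : F}
  {hb₀ : (1 : F) * σ 1 + b₀ + σ b₀ = 0} {Γ : Type*} [Group Γ] {m' : ℕ} (C : OCfg Γ hσ hδ hδ' hb₀ m')

lemma Dg_comm {i j : Fin (m' + 1)} (hij : i ≠ j) {d d' : GJ σ} (hd : d ∈ Dg hσ hδ hδ') (hd' : d' ∈ Dg hσ hδ hδ') :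
    Commute (C.κ i d) (C.κ j d') := by
  have h1 : ∀ l : Fˣ, Commute (C.κ i (DU hσ l)) (C.κ j d') := by
    intro l
    have := C.tκ i j hij l d'
    rw [AdD_Dg hσ hδ hδ' l hd'] at this
    exact mul_inv_eq_iff_eq_mul.1 this
  have h2 : Commute (C.κ i (WG hσ hδ hδ')) (C.κ j d') := C.wκ i j hij d'
  obtain ⟨l, rfl | rfl⟩ := hd
  · exact h1 l
  · rw [map_mul]
    exact (h1 l).mul_left h2

/-- The monomial blocks up to a given index. -/
def RR (k : ℕ) : Subgroup Γ :=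
  closure {g | ∃ i : Fin (m' + 1), (i : ℕ) < k ∧ ∃ d ∈ Dg hσ hδ hδ', g = C.κ i d}

lemma RR_zero : C.RR 0 = ⊥ := by
  unfold RR
  rw [closure_eq_bot_iff]
  rintro g ⟨i, hi, -⟩
  omega

lemma RR_κ {k : ℕ} {i : Fin (m' + 1)} (hi : (i : ℕ) < k) {d : GJ σ} (hd : d ∈ Dg hσ hδ hδ') : C.κ i d ∈ C.RR k :=
  subset_closure ⟨i, hi, d, hd, rfl⟩

lemma RR_comm {k : ℕ} {i : Fin (m' + 1)} (hi : k ≤ i) {d : GJ σ} (hd : d ∈ Dg hσ hδ hδ') {r : Γ} (hr : r ∈ C.RR k) :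
    Commute (C.κ i d) r := by
  induction hr using Subgroup.closure_induction with
  | mem x hx =>
    obtain ⟨j, hj, d', hd', rfl⟩ := hx
    exact C.Dg_comm (by
      intro e
      rw [e] at hi
      omega) hd hd'
  | one => exact Commute.one_right _
  | mul a b _ _ ha hb => exact ha.mul_right hb
  | inv a _ ha => exact ha.inv_right

lemma RR_step {k : ℕ} (hk : k < m' + 1) {r : Γ} (hr : r ∈ C.RR (k + 1)) :
    ∃ r' ∈ C.RR k, ∃ d ∈ Dg hσ hδ hδ', r = r' * C.κ ⟨k, hk⟩ d := by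
  induction hr using Subgroup.closure_induction with
  | mem x hx =>
    obtain ⟨j, hj, d', hd', rfl⟩ := hx
    by_cases e : (j : ℕ) = k
    · obtain rfl : j = ⟨k, hk⟩ := Fin.ext e
      exact ⟨1, one_mem _, d', hd', by simp⟩
    · exact ⟨C.κ j d', C.RR_κ (by omega) hd', 1, one_mem _, by simp⟩
  | one => exact ⟨1, one_mem _, 1, one_mem _, by simp⟩
  | mul a b _ _ ha hb =>
    obtain ⟨r₁, h₁, d₁, hd₁, rfl⟩ := ha
    obtain ⟨r₂, h₂, d₂, hd₂, rfl⟩ := hb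
    refine ⟨r₁ * r₂, mul_mem h₁ h₂, d₁ * d₂, mul_mem hd₁ hd₂, ?_⟩
    have hc := C.RR_comm (i := ⟨k, hk⟩) le_rfl hd₁ h₂
    rw [map_mul]
    calc r₁ * C.κ ⟨k, hk⟩ d₁ * (r₂ * C.κ ⟨k, hk⟩ d₂) = r₁ * (C.κ ⟨k, hk⟩ d₁ * r₂) * C.κ ⟨k, hk⟩ d₂ := by group
      _ = r₁ * (r₂ * C.κ ⟨k, hk⟩ d₁) * C.κ ⟨k, hk⟩ d₂ := by rw [hc.eq]
      _ = _ := by group
  | inv a _ ha =>
    obtain ⟨r₁, h₁, d₁, hd₁, rfl⟩ := ha
    refine ⟨r₁⁻¹, inv_mem h₁, d₁⁻¹, inv_mem hd₁, ?_⟩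
    have hc := C.RR_comm (i := ⟨k, hk⟩) le_rfl (inv_mem hd₁) (inv_mem h₁)
    rw [mul_inv_rev, ← map_inv]
    exact hc.eq

lemma RR_conj (τ : Equiv.Perm (Fin (m' + 1))) {r : Γ} (hr : r ∈ C.RR (m' + 1)) :
    C.ρ τ * r * (C.ρ τ)⁻¹ ∈ C.RR (m' + 1) := by
  refine conj_closure_mem _ ?_ hr
  rintro _ ⟨i, hi, d, hd, rfl⟩
  rw [C.ρκ]
  exact subset_closure ⟨_, (τ i).2, d, hd, rfl⟩

/-- The normal form in the monomial group. -/
lemma NN_form {g : Γ} (hg : g ∈ C.NN) : ∃ r ∈ C.RR (m' + 1), ∃ τ, g = r * C.ρ τ := by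
  induction hg using Subgroup.closure_induction with
  | mem x hx =>
    rcases hx with (⟨k, l, rfl⟩ | ⟨τ, rfl⟩) | ⟨k, rfl⟩
    · exact ⟨_, C.RR_κ k.2 (Dg_DU hσ hδ hδ' l), 1, by simp⟩
    · exact ⟨1, one_mem _, τ, by simp⟩
    · exact ⟨_, C.RR_κ k.2 (Dg_WG hσ hδ hδ'), 1, by simp⟩
  | one => exact ⟨1, one_mem _, 1, by simp⟩
  | mul a b _ _ ha hb =>
    obtain ⟨r₁, h₁, τ₁, rfl⟩ := ha
    obtain ⟨r₂, h₂, τ₂, rfl⟩ := hb
    refine ⟨r₁ * (C.ρ τ₁ * r₂ * (C.ρ τ₁)⁻¹), mul_mem h₁ (C.RR_conj τ₁ h₂), τ₁ * τ₂, ?_⟩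
    rw [map_mul]
    group
  | inv a _ ha =>
    obtain ⟨r₁, h₁, τ₁, rfl⟩ := ha
    refine ⟨C.ρ τ₁⁻¹ * r₁⁻¹ * (C.ρ τ₁⁻¹)⁻¹, C.RR_conj τ₁⁻¹ (inv_mem h₁), τ₁⁻¹, ?_⟩
    rw [map_inv]
    group

section Map

variable {Gt : Type*} [Group Gt] (Mo : Model (n := nO m') σ Gt) (φ : Γ →* Gt)
  (hφκ : ∀ i g, φ (C.κ i g) = κM Mo i g)

include hφκ

/-- The image of the elements of the blocks fix the later indices. -/
lemma RR_fix {k : ℕ} {r : Γ} (hr : r ∈ C.RR k) (c : Ix (m' + 1)) (hc : k ≤ ab c) :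
    Mo.toM (φ r) *ᵥ vec c = vec c := by
  induction hr using Subgroup.closure_induction with
  | mem x hx =>
    obtain ⟨j, hj, d', hd', rfl⟩ := hx
    rw [hφκ]
    apply κM_off
    intro e
    rw [e] at hc
    omega
  | one => simp [Model.act_one]
  | mul a b _ _ ha hb => rw [map_mul, Model.act_mul, hb, ha]
  | inv a _ ha =>
    rw [map_inv]
    conv_lhs => rw [← ha]
    rw [Model.act_inv_act]

/-- The images of the blocks preserve the block structure. -/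
lemma RR_block {k : ℕ} {r : Γ} (hr : r ∈ C.RR k) (c : Ix (m' + 1)) :
    ∃ u : F, Mo.toM (φ r) *ᵥ vec c = u • vec c ∨ Mo.toM (φ r) *ᵥ vec c = u • vec (bar c) := by
  have hgen : ∀ (j : Fin (m' + 1)) (d : GJ σ), d ∈ Dg hσ hδ hδ' → ∀ c : Ix (m' + 1),
      ∃ u : F, Mo.toM (φ (C.κ j d)) *ᵥ vec c = u • vec c ∨ Mo.toM (φ (C.κ j d)) *ᵥ vec c = u • vec (bar c) := by
    intro j d hd c
    rw [hφκ]
    by_cases e : ab c = j
    · cases c with
      | inl i =>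
        obtain rfl : i = j := e
        obtain ⟨l, rfl | rfl⟩ := hd
        · exact ⟨_, Or.inl (κM_DU_inl Mo hσ i l)⟩
        · refine ⟨(-δ⁻¹) * (σ l)⁻¹, Or.inr ?_⟩
          rw [map_mul, Model.act_mul, κM_W_inl Mo hσ hδ hδ', Matrix.mulVec_smul, κM_DU_inr, smul_smul]
          rfl
      | inr i =>
        obtain rfl : i = j := e
        obtain ⟨l, rfl | rfl⟩ := hd
        · exact ⟨_, Or.inl (κM_DU_inr Mo hσ i l)⟩
        · refine ⟨δ * l, Or.inr ?_⟩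
          rw [map_mul, Model.act_mul, κM_W_inr Mo hσ hδ hδ', Matrix.mulVec_smul, κM_DU_inl, smul_smul]
          rfl
    · exact ⟨1, Or.inl (by rw [κM_off Mo j d e, one_smul])⟩
  have hmul : ∀ (A B : Gt), (∀ c : Ix (m' + 1), ∃ u : F, Mo.toM A *ᵥ vec c = u • vec c ∨ Mo.toM A *ᵥ vec c = u • vec (bar c)) →
      (∀ c : Ix (m' + 1), ∃ u : F, Mo.toM B *ᵥ vec c = u • vec c ∨ Mo.toM B *ᵥ vec c = u • vec (bar c)) →
      ∀ c : Ix (m' + 1), ∃ u : F, Mo.toM (A * B) *ᵥ vec c = u • vec c ∨ Mo.toM (A * B) *ᵥ vec c = u • vec (bar c) := by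
    intro A B hA hB c
    rw [Model.act_mul]
    obtain ⟨u, hu⟩ := hB c
    rcases hu with hu | hu
    · rw [hu, Matrix.mulVec_smul]
      obtain ⟨u', hu'⟩ := hA c
      rcases hu' with hu' | hu'
      · exact ⟨u * u', Or.inl (by rw [hu', smul_smul])⟩
      · exact ⟨u * u', Or.inr (by rw [hu', smul_smul])⟩
    · rw [hu, Matrix.mulVec_smul]
      obtain ⟨u', hu'⟩ := hA (bar c)
      rcases hu' with hu' | hu'
      · exact ⟨u * u', Or.inr (by rw [hu', smul_smul])⟩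
      · refine ⟨u * u', Or.inl ?_⟩
        rw [bar_bar] at hu'
        rw [hu', smul_smul]
  revert c
  induction hr using Subgroup.closure_induction'' with
  | mem x hx =>
    obtain ⟨j, hj, d', hd', rfl⟩ := hx
    exact hgen j d' hd'
  | inv_mem x hx =>
    obtain ⟨j, hj, d', hd', rfl⟩ := hx
    rw [← map_inv]
    exact hgen j _ (inv_mem hd')
  | one =>
    intro c
    exact ⟨1, Or.inl (by simp [Model.act_one])⟩
  | mul a b _ _ ha hb =>
    rw [map_mul]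
    exact hmul _ _ ha hb

/-- Injectivity on the blocks. -/
lemma RR_inj (k : ℕ) (hk : k ≤ m' + 1) {r : Γ} (hr : r ∈ C.RR k)
    (hd : ∀ i : Fin (m' + 1), (i : ℕ) < k → Mo.toM (φ r) (idxO (inl i)) (idxO (inl i)) = 1) : r = 1 := by
  induction k generalizing r with
  | zero =>
    rw [RR_zero] at hr
    exact hr
  | succ k ih =>
    have hk' : k < m' + 1 := by omega
    obtain ⟨r', hr', d, hd', rfl⟩ := C.RR_step hk' hr
    have hi : ∀ c : Ix (m' + 1), ab c = ⟨k, hk'⟩ → Mo.toM (φ r') *ᵥ vec c = vec c := by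
      intro c hc
      refine C.RR_fix Mo φ hφκ hr' c ?_
      rw [hc]
    have h0 : (Mo.toM (φ (r' * C.κ ⟨k, hk'⟩ d)) *ᵥ e (idxO (inl ⟨k, hk'⟩))) (idxO (inl ⟨k, hk'⟩)) = 1 := by
      rw [mulVec_e_apply]
      exact hd ⟨k, hk'⟩ (by simp)
    rw [map_mul, Model.act_mul, hφκ] at h0
    have hid : d = 1 := by
      obtain ⟨l, rfl | rfl⟩ := hd'
      · change (Mo.toM (φ r') *ᵥ Mo.toM (κM Mo ⟨k, hk'⟩ (DU hσ l)) *ᵥ vec (inl ⟨k, hk'⟩)) _ = _ at h0
        rw [κM_DU_inl, Matrix.mulVec_smul, hi _ rfl, Pi.smul_apply, smul_eq_mul, vec_self', mul_one] at h0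
        have : l = 1 := Units.ext (by simpa using h0)
        rw [this, map_one]
      · exfalso
        change (Mo.toM (φ r') *ᵥ Mo.toM (κM Mo ⟨k, hk'⟩ (DU hσ l * WG hσ hδ hδ')) *ᵥ vec (inl ⟨k, hk'⟩)) _ = _ at h0
        rw [map_mul, Model.act_mul, κM_W_inl Mo hσ hδ hδ', Matrix.mulVec_smul, κM_DU_inr, Matrix.mulVec_smul,
          Matrix.mulVec_smul, hi (inr _) rfl, Pi.smul_apply, smul_eq_mul, Pi.smul_apply, smul_eq_mul, vec_ne' (by simp), mul_zero,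
          mul_zero] at h0
        exact zero_ne_one h0
    subst hid
    rw [map_one, mul_one] at hd ⊢
    refine ih (by omega) hr' ?_
    intro i hi'
    exact hd i (by omega)

/-- Injectivity on the monomial group. -/
lemma NN_inj {g : Γ} (hg : g ∈ C.NN) (hφρ : ∀ τ, φ (C.ρ τ) = ρM Mo τ) (hd : ∀ s, Mo.toM (φ g) s s = 1) : g = 1 := by
  obtain ⟨r, hr, τ, rfl⟩ := C.NN_form hg
  have hτ : τ = 1 := by
    apply Equiv.ext
    intro j
    by_contra hne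
    have h0 : (Mo.toM (φ (r * C.ρ τ)) *ᵥ e (idxO (inl j))) (idxO (inl j)) = 1 := by
      rw [mulVec_e_apply]
      exact hd _
    rw [map_mul, Model.act_mul, hφρ, ρM_e, permN_idx] at h0
    obtain ⟨u, hu⟩ := C.RR_block Mo φ hφκ hr (inl (τ j))
    have h1 : Mo.toM (φ r) *ᵥ e (idxO (lift τ (inl j))) = Mo.toM (φ r) *ᵥ vec (inl (τ j)) := rfl
    rw [h1] at h0
    rcases hu with hu | hu
    · rw [hu, Pi.smul_apply, smul_eq_mul, vec_ne', mul_zero] at h0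
      · exact zero_ne_one h0
      · intro e
        exact hne (Sum.inl_injective e).symm
    · rw [hu, Pi.smul_apply, smul_eq_mul, vec_ne', mul_zero] at h0
      · exact zero_ne_one h0
      · simp
  subst hτ
  rw [map_one, mul_one] at hd ⊢
  refine C.RR_inj Mo φ hφκ _ le_rfl hr ?_
  intro i _
  exact hd _

/-- The image of the canonical root elements. -/
lemma φ_Yf {i j : Fin (m' + 1)} (hij : i ≠ j) (c : F) :
    φ (C.Yf i j c) = Mo.E (vec (inl i)) (c • vec (inl j)) 0 := by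
  by_cases h : c = 0
  · subst h
    rw [Yf_zero, map_one, zero_smul, Model.E_zero_eq_one (hJ_vec_ne (bar_ne _).symm)]
  · rw [Yf_ne C i j h]
    have e1 : φ (C.Y i j (Units.mk0 c h)) = YK hσ hb₀ (κM Mo) i j (Units.mk0 c h) := by
      simp only [Y, YK, xbK, map_mul, map_inv, map_commutatorElement, hφκ]
    rw [e1, M_Y Mo hσ hb₀ hij]
    rfl

/-- The action of the sign changing elements. -/
lemma φ_gS (a : Ix (m' + 1)) : (∃ u : F, u ≠ 0 ∧ Mo.toM (φ (C.gS a)) *ᵥ vec (inl (ab a)) = u • vec a) ∧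
    ∀ c : Ix (m' + 1), ab c ≠ ab a → Mo.toM (φ (C.gS a)) *ᵥ vec c = vec c := by
  cases a with
  | inl i =>
    refine ⟨⟨1, one_ne_zero, ?_⟩, ?_⟩
    · simp [gS, Model.act_one]
    · intro c _
      simp [gS, Model.act_one]
  | inr i =>
    refine ⟨⟨-δ⁻¹, neg_ne_zero.2 (inv_ne_zero hδ), ?_⟩, ?_⟩
    · change Mo.toM (φ (C.κ i (WG hσ hδ hδ'))) *ᵥ vec (inl i) = _
      rw [hφκ, κM_W_inl Mo hσ hδ hδ']
    · intro c hc
      change Mo.toM (φ (C.κ i (WG hσ hδ hδ'))) *ᵥ vec c = _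
      rw [hφκ, κM_off Mo i _ hc]

end Map

section Hyp

variable {Gt : Type*} [Group Gt] (Mo : Model (n := nO m') σ Gt) (φ : Γ →* Gt)
  (hφρ : ∀ τ, φ (C.ρ τ) = ρM Mo τ) (hφκ : ∀ i g, φ (C.κ i g) = κM Mo i g) (hI : Invol σ)

include hφρ hφκ

/-- The hypotheses of the injectivity theorem. -/
lemma modelHyp : ModelHyp (C.toRootD hI) Mo φ idxO where
  idx_inj := idxO_inj
  idx_rev := idxO_rev
  hX := by
    intro a b hab x hx
    change x ∈ C.X a b at hx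
    have hab' : ab (inl (ab a) : Ix (m' + 1)) ≠ ab (inl (ab b)) := hab
    have hπ : Act2 C.M (C.gS a * C.gS b) (fS a * fS b) := Act2_mul (C.act_gS a) (C.act_gS b)
    have h1 : (fS a * fS b) (inl (ab a)) = a := by
      rw [Equiv.Perm.mul_apply, fS_ne (a := b) (c := inl (ab a)) hab, fS_self]
    have h2 : (fS a * fS b) (inl (ab b)) = b := by
      rw [Equiv.Perm.mul_apply, fS_self, fS_ne hab.symm]
    have h3 := C.back_X hπ h1 h2 hx
    obtain ⟨c, hc⟩ := C.X_canon hI hab h3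
    obtain ⟨⟨u, hu, eu⟩, fu⟩ := C.φ_gS Mo φ hφκ a
    obtain ⟨⟨v, hv, ev⟩, fv⟩ := C.φ_gS Mo φ hφκ b
    have hx' : x = (C.gS a * C.gS b) * C.Yf (ab a) (ab b) c * (C.gS a * C.gS b)⁻¹ := by
      rw [← hc]
      group
    have hE : φ x = Mo.E (vec a) ((σ u * c * v) • vec b) 0 := by
      rw [hx', map_mul, map_mul, map_inv, C.φ_Yf Mo φ hφκ hab, Model.E_conj (condX hab' c), Matrix.mulVec_smul,
        map_mul, Model.act_mul, Model.act_mul, fv _ hab', eu, ev, Matrix.mulVec_smul, fu _ (by exact hab.symm), smul_smul]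
      have cc : Cond σ (vec a) ((c * v) • vec b) 0 := condX hab _
      rw [Model.E_smul_v cc, zero_mul, smul_smul]
      congr 2
      ring
    refine ⟨σ u * c * v, hE, ?_⟩
    intro h0
    have hsu : σ u ≠ 0 := sig_ne hσ hu
    have hc0 : c = 0 := by
      rcases mul_eq_zero.1 h0 with h' | h'
      · exact (mul_eq_zero.1 h').resolve_left hsu
      · exact absurd h' hv
    rw [hc0, Yf_zero] at hx'
    rw [hx']
    simp
  hM := by
    intro k x hx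
    obtain ⟨g, ⟨a, b, h, rfl⟩, rfl⟩ := hx
    refine ⟨a • vM F m', b, cond_MG k h, ?_, ?_, ?_⟩
    · rw [hφκ, κM_MG Mo hσ k h]
    · intro c
      have : (vM F m') (idxO c) = 0 := by
        show (e (midO m') : Fin (nO m') → F) (idxO c) = 0
        rw [e_apply, if_neg (idxO_ne_mid c)]
      rw [Pi.smul_apply, smul_eq_mul, this, mul_zero]
    · intro h1 h2
      have ha : a = 0 := by
        have := congrFun h1 (midO m')
        simpa [e_apply] using this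
      subst ha
      subst h2
      rw [show MG hσ 0 0 h = 1 from MG_zero hσ, map_one]
  hN := by
    intro g hg hd
    exact C.NN_inj Mo φ hφκ hg hφρ hd

include hI in
/-- Injectivity in the odd dimensional case. -/
theorem odd_injective : Function.Injective φ := (C.modelHyp Mo φ hφρ hφκ hI).injective

end Hyp

end OCfg

end Cfsg.Agent.Lib.PrsSU
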