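import Mathlib
import Cfsg.Agent.Lib.PrsSUL

/-!
# Presentations of special unitary groups: from base relations to the configuration
-/

set_option autoImplicit false
set_option linter.unusedSectionVars false
set_option linter.unusedVariables false

namespace Cfsg.Agent.Lib.PrsSU

open Subgroup Sum Cfsg.Agent.Lib.SUWitt Cfsg.Agent.Lib.PrsU3
open scoped Matrix commutatorElement

section Perms

variable {α : Type*} [DecidableEq α]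

lemma exists_perm2 {a b i j : α} (hab : a ≠ b) (hij : i ≠ j) : ∃ τ : Equiv.Perm α, τ a = i ∧ τ b = j := by
  let τ₁ := Equiv.swap a i
  have h1 : τ₁ a = i := Equiv.swap_apply_left a i
  have h2 : τ₁ b ≠ i := by
    rw [← h1]
    exact fun e => hab (τ₁.injective e).symm
  refine ⟨Equiv.swap (τ₁ b) j * τ₁, ?_, ?_⟩
  · rw [Equiv.Perm.mul_apply, h1]
    exact Equiv.swap_apply_of_ne_of_ne h2.symm hij
  · rw [Equiv.Perm.mul_apply]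
    exact Equiv.swap_apply_left _ _

lemma exists_perm3 {a b c i j k : α} (hab : a ≠ b) (hac : a ≠ c) (hbc : b ≠ c) (hij : i ≠ j) (hik : i ≠ k) (hjk : j ≠ k) :
    ∃ τ : Equiv.Perm α, τ a = i ∧ τ b = j ∧ τ c = k := by
  obtain ⟨τ₁, h1, h2⟩ := exists_perm2 hab hij
  have h3 : τ₁ c ≠ i := by
    rw [← h1]
    exact fun e => hac (τ₁.injective e).symm
  have h4 : τ₁ c ≠ j := by
    rw [← h2]
    exact fun e => hbc (τ₁.injective e).symm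
  refine ⟨Equiv.swap (τ₁ c) k * τ₁, ?_, ?_, ?_⟩
  · rw [Equiv.Perm.mul_apply, h1]
    exact Equiv.swap_apply_of_ne_of_ne h3.symm hik
  · rw [Equiv.Perm.mul_apply, h2]
    exact Equiv.swap_apply_of_ne_of_ne h4.symm hjk
  · rw [Equiv.Perm.mul_apply]
    exact Equiv.swap_apply_left _ _

end Perms

section Aux

variable {Γ : Type*} [Group Γ]

lemma comm_aux {a b x : Γ} (hc : a * b = b * a) (h : a * b⁻¹ * x = x * (a * b⁻¹)) : a * x * a⁻¹ = b * x * b⁻¹ := by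
  have hc' : a * b⁻¹ = b⁻¹ * a := by
    rw [eq_inv_mul_iff_mul_eq, ← mul_assoc, ← hc]
    group
  calc a * x * a⁻¹ = b * (b⁻¹ * a * x) * a⁻¹ := by group
    _ = b * (a * b⁻¹ * x) * a⁻¹ := by rw [hc']
    _ = b * (x * (a * b⁻¹)) * a⁻¹ := by rw [h]
    _ = b * x * (b⁻¹ * a) * a⁻¹ := by
      rw [hc']
      group
    _ = b * x * b⁻¹ := by group

lemma conj_conj_comm {a b x : Γ} (h : a * b = b * a) : a * (b * x * b⁻¹) * a⁻¹ = b * (a * x * a⁻¹) * b⁻¹ := by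
  calc a * (b * x * b⁻¹) * a⁻¹ = (a * b) * x * (a * b)⁻¹ := by group
    _ = (b * a) * x * (b * a)⁻¹ := by rw [h]
    _ = _ := by group

lemma conj_mul_eq (a b x : Γ) : (a * b) * x * (a * b)⁻¹ = a * (b * x * b⁻¹) * a⁻¹ := by group

end Aux

section Base

variable {F : Type*} [Field F] {σ : F →+* F} (hσ : ∀ x, σ (σ x) = x) {δ : F} (hδ : δ ≠ 0) (hδ' : σ δ = -δ) {b₀ : F}
  (hb₀ : (1 : F) * σ 1 + b₀ + σ b₀ = 0) {Γ : Type*} [Group Γ] {m'' : ℕ}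

/-- The block homomorphisms. -/
def kF (A : Equiv.Perm (Fin (m'' + 1 + 1)) →* Γ) (B : GJ σ →* Γ) (i : Fin (m'' + 1 + 1)) : GJ σ →* Γ :=
  (MulAut.conj (A (Equiv.swap 0 i))).toMonoidHom.comp B

lemma kF_apply (A : Equiv.Perm (Fin (m'' + 1 + 1)) →* Γ) (B : GJ σ →* Γ) (i : Fin (m'' + 1 + 1)) (g : GJ σ) :
    kF A B i g = A (Equiv.swap 0 i) * B g * (A (Equiv.swap 0 i))⁻¹ := rfl

lemma kF_zero (A : Equiv.Perm (Fin (m'' + 1 + 1)) →* Γ) (B : GJ σ →* Γ) (g : GJ σ) : kF A B 0 g = B g := by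
  rw [kF_apply, Equiv.swap_self]
  change A 1 * B g * (A 1)⁻¹ = B g
  simp

/-- Conjugates of the short root element. -/
lemma xbK_conj {m : ℕ} {κ : Fin m → GJ σ →* Γ} (R : Γ) (τ : Equiv.Perm (Fin m))
    (h : ∀ i g, R * κ i g * R⁻¹ = κ (τ i) g) (i j : Fin m) :
    R * xbK hσ hb₀ κ i j * R⁻¹ = xbK hσ hb₀ κ (τ i) (τ j) := by
  unfold xbK
  rw [conj_cm, h, h]

lemma YK_conj {m : ℕ} {κ : Fin m → GJ σ →* Γ} (R : Γ) (τ : Equiv.Perm (Fin m))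
    (h : ∀ i g, R * κ i g * R⁻¹ = κ (τ i) g) (i j : Fin m) (c : Fˣ) :
    R * YK hσ hb₀ κ i j c * R⁻¹ = YK hσ hb₀ κ (τ i) (τ j) c := by
  unfold YK
  rw [← xbK_conj hσ hb₀ R τ h, ← h j]
  group

lemma xaK_conj {m : ℕ} {κ : Fin m → GJ σ →* Γ} (R : Γ) (τ : Equiv.Perm (Fin m))
    (h : ∀ i g, R * κ i g * R⁻¹ = κ (τ i) g) (i j : Fin m) :
    R * xaK hσ hδ hδ' hb₀ κ i j * R⁻¹ = xaK hσ hδ hδ' hb₀ κ (τ i) (τ j) := by
  unfold xaK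
  rw [← xbK_conj hσ hb₀ R τ h, ← h j]
  group

/-- The relations at the base position. -/
structure OCore (Γ : Type*) [Group Γ] {F : Type*} [Field F] {σ : F →+* F} (hσ : ∀ x, σ (σ x) = x) {δ : F} (hδ : δ ≠ 0)
    (hδ' : σ δ = -δ) {b₀ : F} (hb₀ : (1 : F) * σ 1 + b₀ + σ b₀ = 0) (m'' : ℕ) where
  A : Equiv.Perm (Fin (m'' + 1 + 1)) →* Γ
  B : GJ σ →* Γ
  gen : closure (Set.range A ∪ Set.range B) = ⊤
  r1 : ∀ π : Equiv.Perm (Fin (m'' + 1 + 1)), π 0 = 0 → ∀ g, Commute (A π) (B g)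
  r2 : ∀ g, Commute (B (WG hσ hδ hδ')) (kF A B 1 g)
  r3 : ∀ l g, B (DU hσ l) * kF A B 1 g * (B (DU hσ l))⁻¹ = kF A B 1 (AdD hσ l g)
  r4 : Commute (xbK hσ hb₀ (kF A B) 0 1) (kF A B 1 (MG hσ 1 b₀ hb₀))
  r5 : ∀ l, Commute (B (DU hσ l) * kF A B 1 (DU hσ (sU hσ l)⁻¹)) (xbK hσ hb₀ (kF A B) 0 1)
  r6 : ∀ k : Fin (m'' + 1 + 1), k ≠ 0 → k ≠ 1 → ∀ g, Commute (xbK hσ hb₀ (kF A B) 0 1) (kF A B k g)
  r7 : ∃ r ∈ (UU hσ).map B, ∃ c : Fˣ,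
    ⁅kF A B 1 (MG hσ 1 b₀ hb₀), xaK hσ hδ hδ' hb₀ (kF A B) 0 1⁆ = r * YK hσ hb₀ (kF A B) 0 1 c
  r8 : ∃ l t : Fˣ, A (Equiv.swap 0 1) * xaK hσ hδ hδ' hb₀ (kF A B) 0 1 =
    (kF A B 1 (DU hσ l) * xaK hσ hδ hδ' hb₀ (kF A B) 0 1 * (kF A B 1 (DU hσ l))⁻¹) *
      (A (Equiv.swap 0 1) * (B (DU hσ t) * kF A B 1 (DU hσ (-t⁻¹))) *
        (kF A B 1 (DU hσ l) * xaK hσ hδ hδ' hb₀ (kF A B) 0 1 * (kF A B 1 (DU hσ l))⁻¹) * A (Equiv.swap 0 1))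

/-- The relations at the base position, together with the special elements. -/
structure OBase (Γ : Type*) [Group Γ] {F : Type*} [Field F] {σ : F →+* F} (hσ : ∀ x, σ (σ x) = x) {δ : F} (hδ : δ ≠ 0)
    (hδ' : σ δ = -δ) {b₀ : F} (hb₀ : (1 : F) * σ 1 + b₀ + σ b₀ = 0) (m'' : ℕ) extends OCore Γ hσ hδ hδ' hb₀ m'' where
  hY : ∃ ν₀ d₀, ∃ h : ν₀ * σ ν₀ + d₀ + σ d₀ = 0, σ ν₀ ≠ ν₀ ∧ Commute (xbK hσ hb₀ (kF A B) 0 1) (kF A B 1 (MG hσ ν₀ d₀ h))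
  pt2 : ∀ c : Fˣ, ∃ d, ∃ h : (c : F) * σ c + d + σ d = 0,
    ⁅B (MG hσ c d h), kF A B 1 (MG hσ 1 b₀ hb₀)⁆ = YK hσ hb₀ (kF A B) 0 1 c
  hZ : ∃ ν₁ d₁, ∃ h : ν₁ * σ ν₁ + d₁ + σ d₁ = 0, σ ν₁ ≠ ν₁ ∧ ∃ r ∈ (UU hσ).map B, ∃ c : Fˣ,
    ⁅kF A B 1 (MG hσ ν₁ d₁ h), xaK hσ hδ hδ' hb₀ (kF A B) 0 1⁆ = r * YK hσ hb₀ (kF A B) 0 1 c

namespace OCore

variable {hσ} {hδ} {hδ'} {hb₀} (C : OCore Γ hσ hδ hδ' hb₀ m'')

lemma ρκ (τ : Equiv.Perm (Fin (m'' + 1 + 1))) (i : Fin (m'' + 1 + 1)) (g : GJ σ) :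
    C.A τ * kF C.A C.B i g * (C.A τ)⁻¹ = kF C.A C.B (τ i) g := by
  let π : Equiv.Perm (Fin (m'' + 1 + 1)) := (Equiv.swap 0 (τ i))⁻¹ * τ * Equiv.swap 0 i
  have hπ : π 0 = 0 := by
    simp [π, Equiv.Perm.mul_apply]
  have e1 : τ * Equiv.swap 0 i = Equiv.swap 0 (τ i) * π := by
    simp [π, mul_assoc]
  have e2 : C.A τ * C.A (Equiv.swap 0 i) = C.A (Equiv.swap 0 (τ i)) * C.A π := by
    rw [← map_mul, ← map_mul, e1]
  rw [kF_apply, kF_apply]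
  have h := (C.r1 π hπ g).eq
  calc C.A τ * (C.A (Equiv.swap 0 i) * C.B g * (C.A (Equiv.swap 0 i))⁻¹) * (C.A τ)⁻¹
      = (C.A τ * C.A (Equiv.swap 0 i)) * C.B g * (C.A τ * C.A (Equiv.swap 0 i))⁻¹ := by group
    _ = C.A (Equiv.swap 0 (τ i)) * (C.A π * C.B g) * (C.A π)⁻¹ * (C.A (Equiv.swap 0 (τ i)))⁻¹ := by
        rw [e2]
        group
    _ = _ := by
        rw [h]
        group

lemma perm2 {i j : Fin (m'' + 1 + 1)} (hij : i ≠ j) : ∃ τ : Equiv.Perm (Fin (m'' + 1 + 1)), τ 0 = i ∧ τ 1 = j :=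
  exists_perm2 (by simp) hij

/-- The conjugation by a permutation in a form that applies. -/
lemma conj2 {τ : Equiv.Perm (Fin (m'' + 1 + 1))} {i j : Fin (m'' + 1 + 1)} (h0 : τ 0 = i) (h1 : τ 1 = j) :
    C.A τ * xbK hσ hb₀ (kF C.A C.B) 0 1 * (C.A τ)⁻¹ = xbK hσ hb₀ (kF C.A C.B) i j := by
  rw [xbK_conj hσ hb₀ _ τ (C.ρκ τ), h0, h1]

lemma conjY {τ : Equiv.Perm (Fin (m'' + 1 + 1))} {i j : Fin (m'' + 1 + 1)} (h0 : τ 0 = i) (h1 : τ 1 = j) (c : Fˣ) :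
    C.A τ * YK hσ hb₀ (kF C.A C.B) 0 1 c * (C.A τ)⁻¹ = YK hσ hb₀ (kF C.A C.B) i j c := by
  rw [YK_conj hσ hb₀ _ τ (C.ρκ τ), h0, h1]

lemma conjX {τ : Equiv.Perm (Fin (m'' + 1 + 1))} {i j : Fin (m'' + 1 + 1)} (h0 : τ 0 = i) (h1 : τ 1 = j) :
    C.A τ * xaK hσ hδ hδ' hb₀ (kF C.A C.B) 0 1 * (C.A τ)⁻¹ = xaK hσ hδ hδ' hb₀ (kF C.A C.B) i j := by
  rw [xaK_conj hσ hδ hδ' hb₀ _ τ (C.ρκ τ), h0, h1]

lemma conjB {τ : Equiv.Perm (Fin (m'' + 1 + 1))} {i : Fin (m'' + 1 + 1)} (h0 : τ 0 = i) (g : GJ σ) :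
    C.A τ * C.B g * (C.A τ)⁻¹ = kF C.A C.B i g := by
  rw [← kF_zero C.A C.B g, C.ρκ, h0]

lemma conjK {τ : Equiv.Perm (Fin (m'' + 1 + 1))} {j : Fin (m'' + 1 + 1)} (h1 : τ 1 = j) (g : GJ σ) :
    C.A τ * kF C.A C.B 1 g * (C.A τ)⁻¹ = kF C.A C.B j g := by
  rw [C.ρκ, h1]

/-- The mapped unipotent element. -/
lemma conj_r {τ : Equiv.Perm (Fin (m'' + 1 + 1))} {i : Fin (m'' + 1 + 1)} (h0 : τ 0 = i) {r : Γ}
    (hr : r ∈ (UU hσ).map C.B) : C.A τ * r * (C.A τ)⁻¹ ∈ (UU hσ).map (kF C.A C.B i) := by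
  obtain ⟨g, hg, rfl⟩ := hr
  exact ⟨g, hg, (C.conjB h0 g).symm⟩

abbrev K (i : Fin (m'' + 1 + 1)) : GJ σ →* Γ := kF C.A C.B i

lemma wκ' {i j : Fin (m'' + 1 + 1)} (hij : i ≠ j) (g : GJ σ) : Commute (C.K i (WG hσ hδ hδ')) (C.K j g) := by
  obtain ⟨τ, h0, h1⟩ := OCore.perm2 hij
  have := conj_comm (g := C.A τ) (C.r2 g)
  rwa [C.conjB h0, C.conjK h1] at this

lemma tκ' {i j : Fin (m'' + 1 + 1)} (hij : i ≠ j) (l : Fˣ) (g : GJ σ) :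
    C.K i (DU hσ l) * C.K j g * (C.K i (DU hσ l))⁻¹ = C.K j (AdD hσ l g) := by
  obtain ⟨τ, h0, h1⟩ := OCore.perm2 hij
  have := congrArg (fun x => C.A τ * x * (C.A τ)⁻¹) (C.r3 l g)
  rw [conj_mul_conj, conj_mul_conj, conj_inv', C.conjB h0, C.conjK h1, C.conjK h1] at this
  exact this

lemma t_comm' (i j : Fin (m'' + 1 + 1)) (l l' : Fˣ) : Commute (C.K i (DU hσ l)) (C.K j (DU hσ l')) := by
  by_cases e : i = j
  · subst e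
    show _ * _ = _ * _
    rw [← map_mul, ← map_mul, ← map_mul, ← map_mul, mul_comm]
  · have h := C.tκ' e l (DU hσ l')
    rw [AdD_DU] at h
    exact mul_inv_eq_iff_eq_mul.1 h

lemma c6' {k : Fin (m'' + 1 + 1)} (h0 : k ≠ 0) (h1 : k ≠ 1) (g : GJ σ) : Commute (xbK hσ hb₀ C.K 0 1) (C.K k g) :=
  C.r6 k h0 h1 g

/-- The torus acts on the short root element. -/
lemma t0_xb (l : Fˣ) : C.K 0 (DU hσ l) * xbK hσ hb₀ C.K 0 1 * (C.K 0 (DU hσ l))⁻¹ = YK hσ hb₀ C.K 0 1 (sU hσ l) := by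
  have h := (C.r5 l).eq
  rw [← kF_zero C.A C.B (DU hσ l)] at h
  change C.K 0 (DU hσ l) * C.K 1 (DU hσ (sU hσ l)⁻¹) * xbK hσ hb₀ C.K 0 1 =
    xbK hσ hb₀ C.K 0 1 * (C.K 0 (DU hσ l) * C.K 1 (DU hσ (sU hσ l)⁻¹)) at h
  have e : C.K 1 (DU hσ (sU hσ l)⁻¹) = (C.K 1 (DU hσ (sU hσ l)))⁻¹ := by
    rw [map_inv, map_inv]
  rw [e] at h
  exact comm_aux (C.t_comm' 0 1 l (sU hσ l)).eq h

lemma Y_t1 (u c : Fˣ) : C.K 1 (DU hσ u) * YK hσ hb₀ C.K 0 1 c * (C.K 1 (DU hσ u))⁻¹ = YK hσ hb₀ C.K 0 1 (u * c) := by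
  unfold YK
  rw [map_mul, map_mul, mul_inv_rev]
  group

lemma Y_t0 (z c : Fˣ) : C.K 0 (DU hσ z) * YK hσ hb₀ C.K 0 1 c * (C.K 0 (DU hσ z))⁻¹ = YK hσ hb₀ C.K 0 1 (sU hσ z * c) := by
  rw [mul_comm (sU hσ z) c, ← Y_t1 C c (sU hσ z), ← C.t0_xb z]
  conv_lhs => unfold YK
  exact conj_conj_comm (C.t_comm' 0 1 z c).eq

lemma t0_same (z : Fˣ) {a b : F} (h : a * σ a + b + σ b = 0) :
    C.K 0 (DU hσ z) * C.K 0 (MG hσ a b h) * (C.K 0 (DU hσ z))⁻¹ =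
      C.K 0 (MG hσ (σ z * σ z * (z : F)⁻¹ * a) (z * σ z * b) (isU_conj hσ z.ne_zero h)) := by
  rw [← DU_MG hσ z h]
  simp only [map_mul, map_inv]

lemma t1_same (z : Fˣ) {a b : F} (h : a * σ a + b + σ b = 0) :
    C.K 1 (DU hσ z) * C.K 1 (MG hσ a b h) * (C.K 1 (DU hσ z))⁻¹ =
      C.K 1 (MG hσ (σ z * σ z * (z : F)⁻¹ * a) (z * σ z * b) (isU_conj hσ z.ne_zero h)) := by
  rw [← DU_MG hσ z h]
  simp only [map_mul, map_inv]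

lemma t_ne {i j : Fin (m'' + 1 + 1)} (hij : i ≠ j) (l : Fˣ) {a b : F} (h : a * σ a + b + σ b = 0) :
    C.K i (DU hσ l) * C.K j (MG hσ a b h) * (C.K i (DU hσ l))⁻¹ = C.K j (MG hσ (σ l * (l : F)⁻¹ * a) b (isU_Ad hσ l h)) := by
  rw [C.tκ' hij, AdD_MG]

end OCore

section Third

variable {hσ} {hδ} {hδ'} {hb₀}

/-- An element with non-fixed ratio. -/
lemma exists_ratio (hI : Invol σ) : ∃ l : Fˣ, σ (σ l * (l : F)⁻¹ * 1) ≠ σ l * (l : F)⁻¹ * 1 := by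
  by_contra hcon
  push_neg at hcon
  have hσ := hI.invol
  have key : ∀ x : F, x ≠ 0 → x * x = σ x * σ x := by
    intro x hx
    have h1 := hcon (Units.mk0 x hx)
    simp only [Units.val_mk0, map_mul, map_inv₀, hσ, map_one, mul_one] at h1
    have h2 := sig_ne hσ hx
    field_simp at h1
    linear_combination h1
  obtain ⟨c, hc⟩ := hI.ne_id
  have hc0 : c ≠ 0 := by
    rintro rfl
    simp at hc
  have h1 := key c hc0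
  have h2 : (c - σ c) * (c + σ c) = 0 := by linear_combination h1
  have h3 : c + σ c = 0 := (mul_eq_zero.1 h2).resolve_left (sub_ne_zero.2 hc.symm)
  have hsc : σ c = - c := by linear_combination h3
  have hc1 : c + 1 ≠ 0 := by
    intro h
    have : c = -1 := by linear_combination h
    rw [this] at hc
    simp at hc
  have h4 := key (c + 1) hc1
  rw [map_add, map_one, hsc] at h4
  have h5 : 4 * c = 0 := by linear_combination h4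
  have h6 : (4 : F) = 0 := (mul_eq_zero.1 h5).resolve_right hc0
  have h7 : (2 : F) = 0 := by
    have : (2 : F) * 2 = 0 := by linear_combination h6
    exact mul_self_eq_zero.1 this
  apply hc
  rw [hsc]
  linear_combination (-c) * h7

variable (hI : Invol σ) (C : OCore Γ hσ hδ hδ' hb₀ m'') {k : Fin (m'' + 1 + 1)} (hk0 : k ≠ 0) (hk1 : k ≠ 1)

include hk0 hk1

lemma third_xb (l : Fˣ) : C.K k (DU hσ l) * xbK hσ hb₀ C.K 0 1 * (C.K k (DU hσ l))⁻¹ = xbK hσ hb₀ C.K 0 1 := by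
  rw [mul_inv_eq_iff_eq_mul]
  exact (C.c6' hk0 hk1 (DU hσ l)).eq.symm

lemma third_Y (l c : Fˣ) : C.K k (DU hσ l) * YK hσ hb₀ C.K 0 1 c * (C.K k (DU hσ l))⁻¹ = YK hσ hb₀ C.K 0 1 c := by
  unfold YK
  rw [conj_conj_comm (C.t_comm' k 1 l c).eq, third_xb C hk0 hk1]

lemma third_xa (l : Fˣ) : C.K k (DU hσ l) * xaK hσ hδ hδ' hb₀ C.K 0 1 * (C.K k (DU hσ l))⁻¹ = xaK hσ hδ hδ' hb₀ C.K 0 1 := by
  unfold xaK
  have hc : C.K k (DU hσ l) * C.K 1 (WG hσ hδ hδ') = C.K 1 (WG hσ hδ hδ') * C.K k (DU hσ l) := by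
    have := C.tκ' hk1 l (WG hσ hδ hδ')
    rw [AdD_W] at this
    exact mul_inv_eq_iff_eq_mul.1 this
  rw [conj_conj_comm hc, third_xb C hk0 hk1]

/-- The three special elements. -/
lemma third_pt2 (c : Fˣ) : ∃ d, ∃ h : (c : F) * σ c + d + σ d = 0,
    ⁅C.K 0 (MG hσ c d h), C.K 1 (MG hσ 1 b₀ hb₀)⁆ = YK hσ hb₀ C.K 0 1 c := by
  let l : Fˣ := sU hσ c
  have hsl : σ (l : F) = c := hσ c
  let lc : F := σ c
  have hl : (l : F) = σ c := rfl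
  have hc0 : (c : F) ≠ 0 := c.ne_zero
  have hl0 : σ (c : F) ≠ 0 := sig_ne hσ hc0
  have h' := isU_conj hσ l.ne_zero (isU_Ad hσ l⁻¹ hb₀)
  have ea : σ (l : F) * σ l * (l : F)⁻¹ * (σ ((l⁻¹ : Fˣ) : F) * ((l⁻¹ : Fˣ) : F)⁻¹ * 1) = c := by
    simp only [Units.val_inv_eq_inv_val, map_inv₀, hsl, inv_inv, hl, hσ]
    field_simp
  rw [ea] at h'
  refine ⟨_, h', ?_⟩
  have e0 : C.K k (DU hσ l⁻¹) * C.K 0 (MG hσ 1 b₀ hb₀) * (C.K k (DU hσ l⁻¹))⁻¹ = _ := C.t_ne hk0 l⁻¹ hb₀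
  have e1 := C.t0_same l (isU_Ad hσ l⁻¹ hb₀)
  have e2 : C.K k (DU hσ l⁻¹) * C.K 1 (MG hσ 1 b₀ hb₀) * (C.K k (DU hσ l⁻¹))⁻¹ = _ := C.t_ne hk1 l⁻¹ hb₀
  have e3 : C.K 0 (DU hσ l) * C.K 1 (MG hσ (σ ((l⁻¹ : Fˣ) : F) * ((l⁻¹ : Fˣ) : F)⁻¹ * 1) b₀ (isU_Ad hσ l⁻¹ hb₀)) *
      (C.K 0 (DU hσ l))⁻¹ = _ := C.t_ne (by simp) l (isU_Ad hσ l⁻¹ hb₀)
  have e4 : C.K 1 (MG hσ (σ (l : F) * (l : F)⁻¹ * (σ ((l⁻¹ : Fˣ) : F) * ((l⁻¹ : Fˣ) : F)⁻¹ * 1)) b₀ (isU_Ad hσ l (isU_Ad hσ l⁻¹ hb₀))) =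
      C.K 1 (MG hσ 1 b₀ hb₀) := by
    congr 1
    apply MG_congr
    · simp only [Units.val_inv_eq_inv_val, map_inv₀, hsl, inv_inv]
      field_simp
    · rfl
  have e5 : C.K 0 (MG hσ _ _ (isU_conj hσ l.ne_zero (isU_Ad hσ l⁻¹ hb₀))) = C.K 0 (MG hσ c _ h') := by
    congr 1
    apply MG_congr
    · exact ea
    · rfl
  -- the conjugating element
  have e6 : (C.K 0 (DU hσ l) * C.K k (DU hσ l⁻¹)) * xbK hσ hb₀ C.K 0 1 * (C.K 0 (DU hσ l) * C.K k (DU hσ l⁻¹))⁻¹ =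
      YK hσ hb₀ C.K 0 1 c := by
    have := C.t0_xb l
    rw [show sU hσ l = c from sU_sU hσ c] at this
    rw [conj_mul_eq, third_xb C hk0 hk1, this]
  have e7 : (C.K 0 (DU hσ l) * C.K k (DU hσ l⁻¹)) * C.K 0 (MG hσ 1 b₀ hb₀) * (C.K 0 (DU hσ l) * C.K k (DU hσ l⁻¹))⁻¹ =
      C.K 0 (MG hσ c _ h') := by
    rw [conj_mul_eq, e0, e1, e5]
  have e8 : (C.K 0 (DU hσ l) * C.K k (DU hσ l⁻¹)) * C.K 1 (MG hσ 1 b₀ hb₀) * (C.K 0 (DU hσ l) * C.K k (DU hσ l⁻¹))⁻¹ =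
      C.K 1 (MG hσ 1 b₀ hb₀) := by
    rw [conj_mul_eq, e2, e3, e4]
  rw [← e6, ← e7, ← e8, ← conj_cm]
  rfl

include hI in
lemma third_hY : ∃ ν₀ d₀, ∃ h : ν₀ * σ ν₀ + d₀ + σ d₀ = 0, σ ν₀ ≠ ν₀ ∧
    ∃ l : Fˣ, C.K k (DU hσ l) * C.K 1 (MG hσ 1 b₀ hb₀) * (C.K k (DU hσ l))⁻¹ = C.K 1 (MG hσ ν₀ d₀ h) := by
  obtain ⟨l, hl⟩ := exists_ratio hI
  exact ⟨_, _, isU_Ad hσ l hb₀, hl, l, C.t_ne hk1 l hb₀⟩

/-- The base relations with a third index. -/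
def toBase3 : OBase Γ hσ hδ hδ' hb₀ m'' :=
  have hex := third_hY hI C hk0 hk1
  { toOCore := C
    hY := by
      obtain ⟨ν₀, d₀, h, h1, l, e⟩ := hex
      refine ⟨ν₀, d₀, h, h1, ?_⟩
      have := conj_comm (g := C.K k (DU hσ l)) C.r4
      rwa [e, show C.K k (DU hσ l) * xbK hσ hb₀ (kF C.A C.B) 0 1 * (C.K k (DU hσ l))⁻¹ = xbK hσ hb₀ (kF C.A C.B) 0 1 from
        third_xb C hk0 hk1 l] at this
    pt2 := by
      intro c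
      obtain ⟨d, h, e⟩ := third_pt2 C hk0 hk1 c
      refine ⟨d, h, ?_⟩
      rw [← kF_zero C.A C.B]
      exact e
    hZ := by
      obtain ⟨ν₀, d₀, h, h1, l, e⟩ := hex
      refine ⟨ν₀, d₀, h, h1, ?_⟩
      obtain ⟨r, ⟨g, hg, rfl⟩, c, e'⟩ := C.r7
      refine ⟨C.B (AdD hσ l g), ⟨_, AdD_UU hσ l hg, rfl⟩, c, ?_⟩
      have := congrArg (fun x => C.K k (DU hσ l) * x * (C.K k (DU hσ l))⁻¹) e'
      change C.K k (DU hσ l) * _ * (C.K k (DU hσ l))⁻¹ = C.K k (DU hσ l) * (C.B g * YK hσ hb₀ C.K 0 1 c) * (C.K k (DU hσ l))⁻¹ at this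
      rw [conj_cm, conj_mul_conj, third_Y C hk0 hk1, e, ← kF_zero C.A C.B g, C.tκ' hk0, kF_zero] at this
      rw [← this]
      exact congrArg _ (third_xa C hk0 hk1 l).symm }

end Third


namespace OBase

variable {hσ} {hδ} {hδ'} {hb₀} (C : OBase Γ hσ hδ hδ' hb₀ m'')

/-- The configuration from the base relations. -/
def toCfg : OCfg Γ hσ hδ hδ' hb₀ (m'' + 1) where
  ρ := C.A
  κ := kF C.A C.B
  ρκ := C.ρκ
  wκ := by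
    intro i j hij g
    obtain ⟨τ, h0, h1⟩ := OCore.perm2 hij
    have := conj_comm (g := C.A τ) (C.r2 g)
    rwa [C.conjB h0, C.conjK h1] at this
  tκ := by
    intro i j hij l g
    obtain ⟨τ, h0, h1⟩ := OCore.perm2 hij
    have := congrArg (fun x => C.A τ * x * (C.A τ)⁻¹) (C.r3 l g)
    rw [conj_mul_conj, conj_mul_conj, conj_inv', C.conjB h0, C.conjK h1, C.conjK h1] at this
    exact this
  c4 := by
    intro i j hij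
    obtain ⟨τ, h0, h1⟩ := OCore.perm2 hij
    have := conj_comm (g := C.A τ) C.r4
    rwa [C.conj2 h0 h1, C.conjK h1] at this
  c5 := by
    intro i j hij l
    obtain ⟨τ, h0, h1⟩ := OCore.perm2 hij
    have := conj_comm (g := C.A τ) (C.r5 l)
    rwa [C.conj2 h0 h1, conj_mul_conj, C.conjB h0, C.conjK h1] at this
  c6 := by
    intro i j k hij hki hkj g
    have hn0 : (0 : Fin (m'' + 1 + 1)) ≠ 1 := by simp
    obtain ⟨τ, h0, h1⟩ := OCore.perm2 hij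
    let k' := τ⁻¹ k
    have hk' : τ k' = k := by simp [k']
    have h2 : k' ≠ 0 := by
      intro e
      rw [e, h0] at hk'
      exact hki hk'.symm
    have h3 : k' ≠ 1 := by
      intro e
      rw [e, h1] at hk'
      exact hkj hk'.symm
    have := conj_comm (g := C.A τ) (C.r6 k' h2 h3 g)
    rwa [C.conj2 h0 h1, C.ρκ, hk'] at this
  hY := by
    obtain ⟨ν₀, d₀, h, h1, h2⟩ := C.hY
    refine ⟨ν₀, d₀, h, h1, ?_⟩
    intro i j hij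
    obtain ⟨τ, h0, h1'⟩ := OCore.perm2 hij
    have := conj_comm (g := C.A τ) h2
    rwa [C.conj2 h0 h1', C.conjK h1'] at this
  pt2 := by
    intro i j hij c
    obtain ⟨d, h, e⟩ := C.pt2 c
    refine ⟨d, h, ?_⟩
    obtain ⟨τ, h0, h1⟩ := OCore.perm2 hij
    have := congrArg (fun x => C.A τ * x * (C.A τ)⁻¹) e
    rwa [conj_cm, C.conjB h0, C.conjK h1, C.conjY h0 h1] at this
  c7 := by
    intro i j hij
    obtain ⟨r, hr, c, e⟩ := C.r7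
    obtain ⟨τ, h0, h1⟩ := OCore.perm2 hij
    refine ⟨_, C.conj_r h0 hr, c, ?_⟩
    have := congrArg (fun x => C.A τ * x * (C.A τ)⁻¹) e
    rwa [conj_cm, conj_mul_conj, C.conjK h1, C.conjX h0 h1, C.conjY h0 h1] at this
  hZ := by
    obtain ⟨ν₁, d₁, h, h1, r, hr, c, e⟩ := C.hZ
    refine ⟨ν₁, d₁, h, h1, ?_⟩
    intro i j hij
    obtain ⟨τ, h0, h1'⟩ := OCore.perm2 hij
    refine ⟨_, C.conj_r h0 hr, c, ?_⟩
    have := congrArg (fun x => C.A τ * x * (C.A τ)⁻¹) e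
    rwa [conj_cm, conj_mul_conj, C.conjK h1', C.conjX h0 h1', C.conjY h0 h1'] at this
  c8 := by
    intro i j hij
    obtain ⟨l, t, e⟩ := C.r8
    refine ⟨l, t, ?_⟩
    obtain ⟨τ, h0, h1⟩ := OCore.perm2 hij
    have hsw : C.A τ * C.A (Equiv.swap 0 1) * (C.A τ)⁻¹ = C.A (Equiv.swap i j) := by
      rw [← h0, ← h1, Equiv.swap_apply_apply, map_mul, map_mul, map_inv]
    have := congrArg (fun x => C.A τ * x * (C.A τ)⁻¹) e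
    simp only [conj_mul_conj, conj_inv', hsw, C.conjK h1, C.conjX h0 h1, C.conjB h0] at this
    exact this
  gen := by
    rw [eq_top_iff, ← C.gen, closure_le]
    rintro x (⟨π, rfl⟩ | ⟨g, rfl⟩)
    · exact subset_closure (Or.inl ⟨π, rfl⟩)
    · refine subset_closure (Or.inr ⟨g, ?_⟩)
      exact kF_zero _ _ _

end OBase

section Five

variable {hσ} {hδ} {hδ'} {hb₀} (C : OCore Γ hσ hδ hδ' hb₀ m'')

/-- One step for the fifth powers. -/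
lemma five_step (a x : Fˣ) {d : F} (h : (a : F) * σ (a : F) + d + σ d = 0)
    (e : ⁅C.K 0 (MG hσ (a : F) d h), C.K 1 (MG hσ 1 b₀ hb₀)⁆ = YK hσ hb₀ C.K 0 1 a) :
    ∃ d, ∃ h : ((a * x ^ 5 : Fˣ) : F) * σ ((a * x ^ 5 : Fˣ) : F) + d + σ d = 0,
      ⁅C.K 0 (MG hσ ((a * x ^ 5 : Fˣ) : F) d h), C.K 1 (MG hσ 1 b₀ hb₀)⁆ = YK hσ hb₀ C.K 0 1 (a * x ^ 5) := by
  have hx0 : (x : F) ≠ 0 := x.ne_zero
  have hsx0 : σ (x : F) ≠ 0 := sig_ne hσ hx0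
  have hb' : (((a * x ^ 5 : Fˣ) : F)) = a * (x : F) ^ 5 := by simp
  let z : Fˣ := x * (sU hσ x) ^ 4
  let u : Fˣ := x * (sU hσ x)⁻¹
  have hz : (z : F) = x * (σ x) ^ 4 := by simp [z, sU_coe]
  have hu : (u : F) = x * (σ x)⁻¹ := by simp [u, sU_coe]
  have hsz : σ (z : F) = σ x * (x : F) ^ 4 := by
    rw [hz, map_mul, map_pow, hσ]
  have hsu : σ (u : F) = σ x * (x : F)⁻¹ := by
    rw [hu, map_mul, map_inv₀, hσ]
  -- the conjugating element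
  have e1 : (C.K 0 (DU hσ z) * C.K 1 (DU hσ u)) * C.K 1 (MG hσ 1 b₀ hb₀) * (C.K 0 (DU hσ z) * C.K 1 (DU hσ u))⁻¹ =
      C.K 1 (MG hσ 1 b₀ hb₀) := by
    rw [conj_mul_eq, C.t1_same u hb₀, C.t_ne (by simp) z]
    congr 1
    apply MG_congr
    · rw [hsz, hsu, hz, hu]
      field_simp
    · rw [hsu, hu]
      field_simp
  have e2 := C.t_ne (i := 1) (j := 0) (by simp) u h
  have e3 := C.t0_same z (isU_Ad hσ u h)
  have e4 : (C.K 0 (DU hσ z) * C.K 1 (DU hσ u)) * C.K 0 (MG hσ a d h) * (C.K 0 (DU hσ z) * C.K 1 (DU hσ u))⁻¹ =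
      C.K 0 (MG hσ (σ (z : F) * σ z * (z : F)⁻¹ * (σ u * (u : F)⁻¹ * a)) (z * σ z * d) (isU_conj hσ z.ne_zero (isU_Ad hσ u h))) := by
    rw [conj_mul_eq, e2, e3]
  have e5 : (C.K 0 (DU hσ z) * C.K 1 (DU hσ u)) * YK hσ hb₀ C.K 0 1 a * (C.K 0 (DU hσ z) * C.K 1 (DU hσ u))⁻¹ =
      YK hσ hb₀ C.K 0 1 (a * x ^ 5) := by
    rw [conj_mul_eq, C.Y_t1, C.Y_t0]
    congr 1
    ext
    simp only [Units.val_mul, sU_coe, Units.val_pow_eq_pow_val]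
    rw [hsz, hu]
    field_simp
  have ha' : (σ (z : F) * σ z * (z : F)⁻¹ * (σ u * (u : F)⁻¹ * a)) = ((a * x ^ 5 : Fˣ) : F) := by
    rw [hb', hsz, hsu, hz, hu]
    field_simp
  have h' := isU_conj hσ z.ne_zero (isU_Ad hσ u h)
  rw [ha'] at h'
  refine ⟨_, h', ?_⟩
  have e6 := congrArg (fun y => (C.K 0 (DU hσ z) * C.K 1 (DU hσ u)) * y * (C.K 0 (DU hσ z) * C.K 1 (DU hσ u))⁻¹) e
  simp only [conj_cm, e1, e4, e5] at e6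
  rw [← e6]
  congr 2
  apply MG_congr
  · exact ha'.symm
  · rfl

/-- The special elements from five classes. -/
lemma five_pt2 (ζ : Fˣ) (hζ : ∀ x : Fˣ, ∃ k : ℕ, x = ζ ^ k)
    (E : ∀ r : ℕ, r < 5 → ∃ d, ∃ h : ((ζ ^ r : Fˣ) : F) * σ ((ζ ^ r : Fˣ) : F) + d + σ d = 0,
      ⁅C.K 0 (MG hσ ((ζ ^ r : Fˣ) : F) d h), C.K 1 (MG hσ 1 b₀ hb₀)⁆ = YK hσ hb₀ C.K 0 1 (ζ ^ r)) (c : Fˣ) :
    ∃ d, ∃ h : (c : F) * σ c + d + σ d = 0, ⁅C.K 0 (MG hσ c d h), C.K 1 (MG hσ 1 b₀ hb₀)⁆ = YK hσ hb₀ C.K 0 1 c := by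
  obtain ⟨k, rfl⟩ := hζ c
  obtain ⟨d, h, e⟩ := E (k % 5) (Nat.mod_lt _ (by norm_num))
  have hc : ζ ^ k = ζ ^ (k % 5) * (ζ ^ (k / 5)) ^ 5 := by
    rw [← pow_mul, ← pow_add, Nat.mod_add_div']
  rw [hc]
  exact five_step C _ _ h e

end Five

end Base

end Cfsg.Agent.Lib.PrsSU
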