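import Mathlib
import Cfsg.Agent.Lib.PrsSUM
import Cfsg.Agent.Lib.PrsSpH

/-!
# Presentations of special unitary groups: the relators in odd dimension
-/

set_option autoImplicit false
set_option linter.unusedSectionVars false
set_option linter.unusedVariables false

namespace Cfsg.Agent.Lib.PrsSU

open Subgroup Sum Cfsg.Agent.Lib.SUWitt Cfsg.Agent.Lib.PrsU3
open scoped Matrix commutatorElement

section Words

variable {F : Type*} [Field F] {σ : F →+* F} (hσ : ∀ x, σ (σ x) = x) {δ : F} (hδ : δ ≠ 0) (hδ' : σ δ = -δ) {b₀ : F}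
  (hb₀ : (1 : F) * σ 1 + b₀ + σ b₀ = 0) {m'' : ℕ} {W W' : Type*} [Group W] [Group W']
  (a : Equiv.Perm (Fin (m'' + 1 + 1)) → W) (b : GJ σ → W)

/-- The block words. -/
def wk (i : Fin (m'' + 1 + 1)) (g : GJ σ) : W := a (Equiv.swap 0 i) * b g * (a (Equiv.swap 0 i))⁻¹

/-- The word of the short root element. -/
def wxb : W := ⁅b (MG hσ 1 b₀ hb₀), wk a b 1 (MG hσ 1 b₀ hb₀)⁆

/-- The word of the other short root element. -/
def wxa : W := wk a b 1 (WG hσ hδ hδ') * wxb hσ hb₀ a b * (wk a b 1 (WG hσ hδ hδ'))⁻¹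

/-- The word of the conjugates. -/
def wY (c : Fˣ) : W := wk a b 1 (DU hσ c) * wxb hσ hb₀ a b * (wk a b 1 (DU hσ c))⁻¹

/-- The word of the conjugates of the other one. -/
def wxl (l : Fˣ) : W := wk a b 1 (DU hσ l) * wxa hσ hδ hδ' hb₀ a b * (wk a b 1 (DU hσ l))⁻¹

variable (f : W →* W')

lemma wk_map (i : Fin (m'' + 1 + 1)) (g : GJ σ) : wk (fun x => f (a x)) (fun x => f (b x)) i g = f (wk a b i g) := by
  simp only [wk, map_mul, map_inv]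

lemma wxb_map : wxb hσ hb₀ (fun x => f (a x)) (fun x => f (b x)) = f (wxb hσ hb₀ a b) := by
  simp only [wxb, map_commutatorElement, wk_map]

lemma wxa_map : wxa hσ hδ hδ' hb₀ (fun x => f (a x)) (fun x => f (b x)) = f (wxa hσ hδ hδ' hb₀ a b) := by
  simp only [wxa, map_mul, map_inv, wxb_map, wk_map]

lemma wY_map (c : Fˣ) : wY hσ hb₀ (fun x => f (a x)) (fun x => f (b x)) c = f (wY hσ hb₀ a b c) := by
  simp only [wY, map_mul, map_inv, wxb_map, wk_map]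

lemma wxl_map (c : Fˣ) : wxl hσ hδ hδ' hb₀ (fun x => f (a x)) (fun x => f (b x)) c = f (wxl hσ hδ hδ' hb₀ a b c) := by
  simp only [wxl, map_mul, map_inv, wxa_map, wk_map]

end Words

/-- The parameters of the relators. -/
structure OD {F : Type*} [Field F] (σ : F →+* F) (m'' : ℕ) where
  ζ : Fˣ
  G : List (GJ σ)
  S : List (Equiv.Perm (Fin (m'' + 1 + 1)))
  a₁ : F
  b₁ : F
  h₁ : a₁ * σ a₁ + b₁ + σ b₁ = 0
  c₁ : Fˣ
  lr : Fˣ
  tr : Fˣ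

/-- The extra relators. -/
inductive OX {F : Type*} [Field F] (σ : F →+* F) (m'' : ℕ) (ζ : Fˣ) where
  | third (k : Fin (m'' + 1 + 1)) (hk0 : k ≠ 0) (hk1 : k ≠ 1) : OX σ m'' ζ
  | five (hm : ∀ k : Fin (m'' + 1 + 1), k = 0 ∨ k = 1) (d : ℕ → F)
      (hd : ∀ r : ℕ, ((ζ ^ r : Fˣ) : F) * σ ((ζ ^ r : Fˣ) : F) + d r + σ (d r) = 0)
      (ν₀ d₀ : F) (h₀ : ν₀ * σ ν₀ + d₀ + σ d₀ = 0) (hν : σ ν₀ ≠ ν₀) (a₂ b₂ : F) (h₂ : a₂ * σ a₂ + b₂ + σ b₂ = 0) (c₂ : Fˣ) :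
      OX σ m'' ζ

section Lists

variable {F : Type*} [Field F] {σ : F →+* F} (hσ : ∀ x, σ (σ x) = x) {δ : F} (hδ : δ ≠ 0) (hδ' : σ δ = -δ) {b₀ : F}
  (hb₀ : (1 : F) * σ 1 + b₀ + σ b₀ = 0) {m'' : ℕ} {W W' : Type*} [Group W] [Group W'] (D : OD σ m'')
  (a : Equiv.Perm (Fin (m'' + 1 + 1)) → W) (b : GJ σ → W)

/-- The core relators. -/
def eqCore : List (W × W) :=
  D.G.map (fun g => (b (WG hσ hδ hδ') * wk a b 1 g, wk a b 1 g * b (WG hσ hδ hδ'))) ++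
  D.G.map (fun g => (b (DU hσ D.ζ) * wk a b 1 g * (b (DU hσ D.ζ))⁻¹, wk a b 1 (AdD hσ D.ζ g))) ++
  [(wxb hσ hb₀ a b * wk a b 1 (MG hσ 1 b₀ hb₀), wk a b 1 (MG hσ 1 b₀ hb₀) * wxb hσ hb₀ a b),
   ((b (DU hσ D.ζ) * wk a b 1 (DU hσ (sU hσ D.ζ)⁻¹)) * wxb hσ hb₀ a b,
      wxb hσ hb₀ a b * (b (DU hσ D.ζ) * wk a b 1 (DU hσ (sU hσ D.ζ)⁻¹))),
   (⁅wk a b 1 (MG hσ 1 b₀ hb₀), wxa hσ hδ hδ' hb₀ a b⁆, b (MG hσ D.a₁ D.b₁ D.h₁) * wY hσ hb₀ a b D.c₁),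
   (a (Equiv.swap 0 1) * wxa hσ hδ hδ' hb₀ a b,
     wxl hσ hδ hδ' hb₀ a b D.lr * (a (Equiv.swap 0 1) * (b (DU hσ D.tr) * wk a b 1 (DU hσ (-D.tr⁻¹))) *
       wxl hσ hδ hδ' hb₀ a b D.lr * a (Equiv.swap 0 1)))]

/-- The relators for the stabiliser. -/
def eqS : List (W × W) := D.S.flatMap fun s => D.G.map fun g => (a s * b g, b g * a s)

/-- The extra relators. -/
def eqX : OX σ m'' D.ζ → List (W × W)
  | .third k _ _ => D.G.map fun g => (wxb hσ hb₀ a b * wk a b k g, wk a b k g * wxb hσ hb₀ a b)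
  | .five _ d hd ν₀ d₀ h₀ _ a₂ b₂ h₂ c₂ =>
    ([1, 2, 3, 4] : List ℕ).map (fun r => (⁅b (MG hσ ((D.ζ ^ r : Fˣ) : F) (d r) (hd r)), wk a b 1 (MG hσ 1 b₀ hb₀)⁆,
      wY hσ hb₀ a b (D.ζ ^ r))) ++
    [(wxb hσ hb₀ a b * wk a b 1 (MG hσ ν₀ d₀ h₀), wk a b 1 (MG hσ ν₀ d₀ h₀) * wxb hσ hb₀ a b),
     (⁅wk a b 1 (MG hσ ν₀ d₀ h₀), wxa hσ hδ hδ' hb₀ a b⁆, b (MG hσ a₂ b₂ h₂) * wY hσ hb₀ a b c₂)]

/-- All relators. -/
def eqAll (X : OX σ m'' D.ζ) : List (W × W) :=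
  eqCore hσ hδ hδ' hb₀ D a b ++ eqS D a b ++ eqX hσ hδ hδ' hb₀ D a b X

lemma eqCore_length : (eqCore hσ hδ hδ' hb₀ D a b).length = 2 * D.G.length + 4 := by
  simp only [eqCore, List.length_append, List.length_map, List.length_cons, List.length_nil]
  ring

lemma eqS_length : (eqS D a b).length = D.S.length * D.G.length := by
  simp only [eqS, List.length_flatMap, List.length_map]
  induction D.S with
  | nil => simp
  | cons s S ih =>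
    simp only [List.map_cons, List.sum_cons, List.length_cons, ih]
    ring

/-- The number of extra relators. -/
def OX.len (n : ℕ) {ζ : Fˣ} : OX σ m'' ζ → ℕ
  | .third _ _ _ => n
  | .five _ _ _ _ _ _ _ _ _ _ _ => 6

lemma eqX_length (X : OX σ m'' D.ζ) : (eqX hσ hδ hδ' hb₀ D a b X).length = X.len D.G.length := by
  cases X with
  | third k hk0 hk1 => simp [eqX, OX.len]
  | five hm d hd ν₀ d₀ h₀ hν a₂ b₂ h₂ c₂ => simp [eqX, OX.len]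

variable (f : W →* W')

lemma eqCore_map : (eqCore hσ hδ hδ' hb₀ D a b).map (Prod.map f f) =
    eqCore hσ hδ hδ' hb₀ D (fun x => f (a x)) (fun x => f (b x)) := by
  simp only [eqCore, List.map_append, List.map_map, Function.comp_def, Prod.map_apply, List.map_cons, List.map_nil,
    map_mul, map_inv, map_commutatorElement, wk_map, wxb_map, wxa_map, wY_map, wxl_map]

lemma eqS_map : (eqS D a b).map (Prod.map f f) = eqS D (fun x => f (a x)) (fun x => f (b x)) := by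
  simp only [eqS, List.map_flatMap, List.map_map, Function.comp_def, Prod.map_apply, map_mul]

lemma eqX_map (X : OX σ m'' D.ζ) : (eqX hσ hδ hδ' hb₀ D a b X).map (Prod.map f f) =
    eqX hσ hδ hδ' hb₀ D (fun x => f (a x)) (fun x => f (b x)) X := by
  cases X with
  | third k hk0 hk1 =>
    simp only [eqX, List.map_map, Function.comp_def, Prod.map_apply, map_mul, wk_map, wxb_map]
  | five hm d hd ν₀ d₀ h₀ hν a₂ b₂ h₂ c₂ =>
    simp only [eqX, List.map_append, List.map_map, Function.comp_def, Prod.map_apply, List.map_cons, List.map_nil,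
      map_mul, map_commutatorElement, wk_map, wxb_map, wxa_map, wY_map]

lemma eqAll_map (X : OX σ m'' D.ζ) : (eqAll hσ hδ hδ' hb₀ D a b X).map (Prod.map f f) =
    eqAll hσ hδ hδ' hb₀ D (fun x => f (a x)) (fun x => f (b x)) X := by
  simp only [eqAll, List.map_append, eqCore_map, eqS_map, eqX_map]

end Lists

section FromEqs

variable {F : Type*} [Field F] {σ : F →+* F} {hσ : ∀ x, σ (σ x) = x} {δ : F} {hδ : δ ≠ 0} {hδ' : σ δ = -δ} {b₀ : F}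
  {hb₀ : (1 : F) * σ 1 + b₀ + σ b₀ = 0} {m'' : ℕ} {Γ : Type*} [Group Γ] (D : OD σ m'')
  (A : Equiv.Perm (Fin (m'' + 1 + 1)) →* Γ) (B : GJ σ →* Γ)

lemma wk_eq (i : Fin (m'' + 1 + 1)) (g : GJ σ) : wk A B i g = kF A B i g := rfl

lemma wxb_eq : wxb hσ hb₀ A B = xbK hσ hb₀ (kF A B) 0 1 := by
  unfold wxb xbK
  rw [kF_zero, wk_eq]

lemma wxa_eq : wxa hσ hδ hδ' hb₀ A B = xaK hσ hδ hδ' hb₀ (kF A B) 0 1 := by
  unfold wxa xaK
  rw [wxb_eq, wk_eq]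

lemma wY_eq (c : Fˣ) : wY hσ hb₀ A B c = YK hσ hb₀ (kF A B) 0 1 c := by
  unfold wY YK
  rw [wxb_eq, wk_eq]

lemma wxl_eq (c : Fˣ) : wxl hσ hδ hδ' hb₀ A B c = kF A B 1 (DU hσ c) * xaK hσ hδ hδ' hb₀ (kF A B) 0 1 * (kF A B 1 (DU hσ c))⁻¹ := by
  unfold wxl
  rw [wxa_eq, wk_eq]

/-- Commuting on generators. -/
lemma comm_of_gen {G : Type*} [Group G] {L : List G} (hL : closure {g | g ∈ L} = ⊤) (f : G →* Γ) (x : Γ)
    (h : ∀ g ∈ L, Commute x (f g)) (g : G) : Commute x (f g) := by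
  have h1 : g ∈ (centralizer {x}).comap f := by
    have hle : closure {g | g ∈ L} ≤ (centralizer {x}).comap f := by
      rw [closure_le]
      intro s hs
      rw [SetLike.mem_coe, mem_comap, mem_centralizer_singleton_iff]
      exact (h s hs).eq.symm
    apply hle
    rw [hL]
    exact mem_top g
  rw [mem_comap, mem_centralizer_singleton_iff] at h1
  exact h1.symm

/-- Equality on generators. -/
lemma eq_of_gen {G : Type*} [Group G] {L : List G} (hL : closure {g | g ∈ L} = ⊤) (f f' : G →* Γ)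
    (h : ∀ g ∈ L, f g = f' g) (g : G) : f g = f' g := by
  have hle : closure {g | g ∈ L} ≤ f.eqLocus f' := by
    rw [closure_le]
    intro s hs
    exact h s hs
  have : g ∈ f.eqLocus f' := by
    apply hle
    rw [hL]
    exact mem_top g
  exact this

/-- Equivariance from the first relation. -/
lemma kF_conj (r1 : ∀ π : Equiv.Perm (Fin (m'' + 1 + 1)), π 0 = 0 → ∀ g, Commute (A π) (B g))
    (τ : Equiv.Perm (Fin (m'' + 1 + 1))) (i : Fin (m'' + 1 + 1)) (g : GJ σ) :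
    A τ * kF A B i g * (A τ)⁻¹ = kF A B (τ i) g := by
  let π : Equiv.Perm (Fin (m'' + 1 + 1)) := (Equiv.swap 0 (τ i))⁻¹ * τ * Equiv.swap 0 i
  have hπ : π 0 = 0 := by
    simp [π, Equiv.Perm.mul_apply]
  have e1 : τ * Equiv.swap 0 i = Equiv.swap 0 (τ i) * π := by
    simp [π, mul_assoc]
  have e2 : A τ * A (Equiv.swap 0 i) = A (Equiv.swap 0 (τ i)) * A π := by
    rw [← map_mul, ← map_mul, e1]
  rw [kF_apply, kF_apply]
  have h := (r1 π hπ g).eq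
  calc A τ * (A (Equiv.swap 0 i) * B g * (A (Equiv.swap 0 i))⁻¹) * (A τ)⁻¹
      = (A τ * A (Equiv.swap 0 i)) * B g * (A τ * A (Equiv.swap 0 i))⁻¹ := by group
    _ = A (Equiv.swap 0 (τ i)) * (A π * B g) * (A π)⁻¹ * (A (Equiv.swap 0 (τ i)))⁻¹ := by
        rw [e2]
        group
    _ = _ := by
        rw [h]
        group

lemma sU_mul' (hσ : ∀ x, σ (σ x) = x) (a b : Fˣ) : sU hσ (a * b) = sU hσ a * sU hσ b := by
  ext
  simp [sU_coe]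

variable (hσ hδ hδ' hb₀) in
/-- The core from the relators. -/
def OCore.ofEqs (gen : closure (Set.range A ∪ Set.range B) = ⊤) (hζ : ∀ x : Fˣ, ∃ k : ℕ, x = D.ζ ^ k)
    (hG : closure {g | g ∈ D.G} = ⊤) (hS1 : ∀ s ∈ D.S, s 0 = 0) (hS2 : ∀ π : Equiv.Perm (Fin (m'' + 1 + 1)), π 0 = 0 → π ∈ closure {s | s ∈ D.S})
    (hc : ∀ p ∈ eqCore hσ hδ hδ' hb₀ D A B, p.1 = p.2) (hs : ∀ p ∈ eqS D A B, p.1 = p.2)
    (h6 : ∀ k : Fin (m'' + 1 + 1), k ≠ 0 → k ≠ 1 → ∀ g, Commute (xbK hσ hb₀ (kF A B) 0 1) (kF A B k g)) :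
    OCore Γ hσ hδ hδ' hb₀ m'' :=
  have r1 : ∀ π : Equiv.Perm (Fin (m'' + 1 + 1)), π 0 = 0 → ∀ g, Commute (A π) (B g) := by
    intro π hπ g
    have h1 : ∀ s ∈ D.S, ∀ g, Commute (A s) (B g) := by
      intro s hs' g
      refine comm_of_gen hG B _ ?_ g
      intro g' hg'
      exact hs (A s * B g', B g' * A s) (List.mem_flatMap.2 ⟨s, hs', List.mem_map.2 ⟨g', hg', rfl⟩⟩)
    have h2 := hS2 π hπ
    clear hπ
    induction h2 using Subgroup.closure_induction with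
    | mem x hx => exact h1 x hx g
    | one =>
      rw [map_one]
      exact Commute.one_left _
    | mul a b _ _ ha hb =>
      rw [map_mul]
      exact ha.mul_left hb
    | inv a _ ha =>
      rw [map_inv]
      exact ha.inv_left
  have h2 : ∀ g ∈ D.G, Commute (B (WG hσ hδ hδ')) (kF A B 1 g) := fun g hg =>
    hc _ (List.mem_append_left _ (List.mem_append_left _ (List.mem_map.2 ⟨g, hg, rfl⟩)))
  have h3 : ∀ g ∈ D.G, B (DU hσ D.ζ) * kF A B 1 g * (B (DU hσ D.ζ))⁻¹ = kF A B 1 (AdD hσ D.ζ g) := fun g hg =>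
    hc _ (List.mem_append_left _ (List.mem_append_right _ (List.mem_map.2 ⟨g, hg, rfl⟩)))
  have h4 := fun p hp => hc p (List.mem_append_right _ hp)
  have r3ζ : ∀ g, B (DU hσ D.ζ) * kF A B 1 g * (B (DU hσ D.ζ))⁻¹ = kF A B 1 (AdD hσ D.ζ g) := by
    intro g
    exact eq_of_gen hG ((MulAut.conj (B (DU hσ D.ζ))).toMonoidHom.comp (kF A B 1)) ((kF A B 1).comp (AdD hσ D.ζ)) h3 g
  have r3 : ∀ l g, B (DU hσ l) * kF A B 1 g * (B (DU hσ l))⁻¹ = kF A B 1 (AdD hσ l g) := by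
    intro l g
    obtain ⟨k, rfl⟩ := hζ l
    induction k generalizing g with
    | zero =>
      simp only [pow_zero, map_one, one_mul, inv_one, mul_one, AdD_one]
    | succ k ih =>
      rw [pow_succ', map_mul, map_mul, AdD_mul, ← r3ζ, ← ih]
      group
  { A := A
    B := B
    gen := gen
    r1 := r1
    r2 := comm_of_gen hG (kF A B 1) _ h2
    r3 := r3
    r4 := by
      have := h4 (wxb hσ hb₀ A B * wk A B 1 (MG hσ 1 b₀ hb₀), wk A B 1 (MG hσ 1 b₀ hb₀) * wxb hσ hb₀ A B) (by simp)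
      rw [wxb_eq] at this
      exact this
    r5 := by
      have h5 := h4 ((B (DU hσ D.ζ) * wk A B 1 (DU hσ (sU hσ D.ζ)⁻¹)) * wxb hσ hb₀ A B,
        wxb hσ hb₀ A B * (B (DU hσ D.ζ) * wk A B 1 (DU hσ (sU hσ D.ζ)⁻¹))) (by simp)
      rw [wxb_eq] at h5
      have h5' : Commute (B (DU hσ D.ζ) * kF A B 1 (DU hσ (sU hσ D.ζ)⁻¹)) (xbK hσ hb₀ (kF A B) 0 1) := h5
      intro l
      obtain ⟨k, rfl⟩ := hζ l
      induction k with
      | zero =>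
        have : sU hσ ((1 : Fˣ)) = 1 := by
          ext
          simp [sU_coe]
        simp [this]
      | succ k ih =>
        have e : B (DU hσ (D.ζ ^ (k + 1))) * kF A B 1 (DU hσ (sU hσ (D.ζ ^ (k + 1)))⁻¹) =
            (B (DU hσ D.ζ) * kF A B 1 (DU hσ (sU hσ D.ζ)⁻¹)) * (B (DU hσ (D.ζ ^ k)) * kF A B 1 (DU hσ (sU hσ (D.ζ ^ k))⁻¹)) := by
          have hcc : Commute (kF A B 1 (DU hσ (sU hσ D.ζ)⁻¹)) (B (DU hσ (D.ζ ^ k))) := by
            have := r3 (D.ζ ^ k) (DU hσ (sU hσ D.ζ)⁻¹)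
            rw [AdD_DU] at this
            exact (mul_inv_eq_iff_eq_mul.1 this).symm
          rw [pow_succ', sU_mul', mul_inv, map_mul, map_mul, map_mul]
          calc _ = B (DU hσ D.ζ) * (B (DU hσ (D.ζ ^ k)) * kF A B 1 (DU hσ (sU hσ D.ζ)⁻¹)) * kF A B 1 (DU hσ (sU hσ (D.ζ ^ k))⁻¹) := by
                simp only [mul_assoc, map_mul]
            _ = B (DU hσ D.ζ) * (kF A B 1 (DU hσ (sU hσ D.ζ)⁻¹) * B (DU hσ (D.ζ ^ k))) * kF A B 1 (DU hσ (sU hσ (D.ζ ^ k))⁻¹) := by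
                rw [hcc.eq]
            _ = _ := by simp only [mul_assoc]
        rw [e]
        exact h5'.mul_left ih
    r6 := h6
    r7 := by
      have h7 := h4 (⁅wk A B 1 (MG hσ 1 b₀ hb₀), wxa hσ hδ hδ' hb₀ A B⁆, B (MG hσ D.a₁ D.b₁ D.h₁) * wY hσ hb₀ A B D.c₁) (by simp)
      rw [wxa_eq, wY_eq] at h7
      exact ⟨_, ⟨_, MG_mem_UU hσ _ _ D.h₁, rfl⟩, D.c₁, h7⟩
    r8 := by
      have h8 := h4 (A (Equiv.swap 0 1) * wxa hσ hδ hδ' hb₀ A B,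
        wxl hσ hδ hδ' hb₀ A B D.lr * (A (Equiv.swap 0 1) * (B (DU hσ D.tr) * wk A B 1 (DU hσ (-D.tr⁻¹))) *
          wxl hσ hδ hδ' hb₀ A B D.lr * A (Equiv.swap 0 1))) (by simp)
      rw [wxa_eq, wxl_eq] at h8
      exact ⟨D.lr, D.tr, h8⟩ }

lemma r1_of (hG : closure {g | g ∈ D.G} = ⊤) (hS2 : ∀ π : Equiv.Perm (Fin (m'' + 1 + 1)), π 0 = 0 → π ∈ closure {s | s ∈ D.S})
    (hs : ∀ p ∈ eqS D A B, p.1 = p.2) : ∀ π : Equiv.Perm (Fin (m'' + 1 + 1)), π 0 = 0 → ∀ g, Commute (A π) (B g) := by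
  intro π hπ g
  have h1 : ∀ s ∈ D.S, ∀ g, Commute (A s) (B g) := by
    intro s hs' g
    refine comm_of_gen hG B _ ?_ g
    intro g' hg'
    exact hs (A s * B g', B g' * A s) (List.mem_flatMap.2 ⟨s, hs', List.mem_map.2 ⟨g', hg', rfl⟩⟩)
  have h2 := hS2 π hπ
  clear hπ
  induction h2 using Subgroup.closure_induction with
  | mem x hx => exact h1 x hx g
  | one =>
    rw [map_one]
    exact Commute.one_left _
  | mul a b _ _ ha hb =>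
    rw [map_mul]
    exact ha.mul_left hb
  | inv a _ ha =>
    rw [map_inv]
    exact ha.inv_left

variable (hb₀) in
lemma five_E (ζ : Fˣ) (d : ℕ → F) (hd : ∀ r : ℕ, ((ζ ^ r : Fˣ) : F) * σ ((ζ ^ r : Fˣ) : F) + d r + σ (d r) = 0)
    (hx : ∀ r ∈ ([1, 2, 3, 4] : List ℕ), ⁅B (MG hσ ((ζ ^ r : Fˣ) : F) (d r) (hd r)), kF A B 1 (MG hσ 1 b₀ hb₀)⁆ =
      YK hσ hb₀ (kF A B) 0 1 (ζ ^ r)) (r : ℕ) (hr : r < 5) :
    ∃ d, ∃ h : ((ζ ^ r : Fˣ) : F) * σ ((ζ ^ r : Fˣ) : F) + d + σ d = 0,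
      ⁅kF A B 0 (MG hσ ((ζ ^ r : Fˣ) : F) d h), kF A B 1 (MG hσ 1 b₀ hb₀)⁆ = YK hσ hb₀ (kF A B) 0 1 (ζ ^ r) := by
  by_cases h0 : r = 0
  · subst h0
    have h' : ((ζ ^ 0 : Fˣ) : F) * σ ((ζ ^ 0 : Fˣ) : F) + b₀ + σ b₀ = 0 := by
      simpa using hb₀
    refine ⟨b₀, h', ?_⟩
    have e1 : MG hσ ((ζ ^ 0 : Fˣ) : F) b₀ h' = MG hσ 1 b₀ hb₀ := MG_congr hσ _ _ (by simp) rfl
    rw [e1]
    simp [YK, xbK]
  · refine ⟨d r, hd r, ?_⟩
    rw [kF_zero]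
    apply hx
    simp only [List.mem_cons, List.not_mem_nil, or_false]
    omega

variable (hσ hδ hδ' hb₀) in
/-- The base relations from all the relators. -/
def OBase.ofEqs (hI : Invol σ) (X : OX σ m'' D.ζ) (gen : closure (Set.range A ∪ Set.range B) = ⊤)
    (hζ : ∀ x : Fˣ, ∃ k : ℕ, x = D.ζ ^ k)
    (hG : closure {g | g ∈ D.G} = ⊤) (hS1 : ∀ s ∈ D.S, s 0 = 0) (hS2 : ∀ π : Equiv.Perm (Fin (m'' + 1 + 1)), π 0 = 0 → π ∈ closure {s | s ∈ D.S})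
    (h : ∀ p ∈ eqAll hσ hδ hδ' hb₀ D A B X, p.1 = p.2) : OBase Γ hσ hδ hδ' hb₀ m'' :=
  have hc : ∀ p ∈ eqCore hσ hδ hδ' hb₀ D A B, p.1 = p.2 := fun p hp =>
    h p (List.mem_append_left _ (List.mem_append_left _ hp))
  have hs : ∀ p ∈ eqS D A B, p.1 = p.2 := fun p hp =>
    h p (List.mem_append_left _ (List.mem_append_right _ hp))
  have hx : ∀ p ∈ eqX hσ hδ hδ' hb₀ D A B X, p.1 = p.2 := fun p hp =>
    h p (List.mem_append_right _ hp)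
  have r1 := r1_of D A B hG hS2 hs
  match X, hx with
  | .third k hk0 hk1, hx =>
    toBase3 hI (OCore.ofEqs hσ hδ hδ' hb₀ D A B gen hζ hG hS1 hS2 hc hs (by
      intro k' h0 h1 g
      have hbase : ∀ g, Commute (xbK hσ hb₀ (kF A B) 0 1) (kF A B k g) := by
        refine comm_of_gen hG (kF A B k) _ ?_
        intro g hg
        have := hx (wxb hσ hb₀ A B * wk A B k g, wk A B k g * wxb hσ hb₀ A B) (List.mem_map.2 ⟨g, hg, rfl⟩)
        rw [wxb_eq] at this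
        exact this
      obtain ⟨π, e0, e1, e2⟩ := exists_perm3 (a := (0 : Fin (m'' + 1 + 1))) (b := 1) (c := k) (i := 0) (j := 1) (k := k')
        (by simp) hk0.symm hk1.symm (by simp) h0.symm h1.symm
      have := conj_comm (g := A π) (hbase g)
      rwa [xbK_conj hσ hb₀ _ π (kF_conj A B r1 π), e0, e1, kF_conj A B r1, e2] at this)) hk0 hk1
  | .five hm d hd ν₀ d₀ h₀ hν a₂ b₂ h₂ c₂, hx =>
    { toOCore := OCore.ofEqs hσ hδ hδ' hb₀ D A B gen hζ hG hS1 hS2 hc hs (by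
        intro k' h0 h1 g
        rcases hm k' with e | e
        · exact absurd e h0
        · exact absurd e h1)
      hY := by
        refine ⟨ν₀, d₀, h₀, hν, ?_⟩
        have := hx (wxb hσ hb₀ A B * wk A B 1 (MG hσ ν₀ d₀ h₀), wk A B 1 (MG hσ ν₀ d₀ h₀) * wxb hσ hb₀ A B) (by simp [eqX])
        rw [wxb_eq] at this
        exact this
      pt2 := by
        intro c
        obtain ⟨d', h', e'⟩ := five_pt2 (OCore.ofEqs hσ hδ hδ' hb₀ D A B gen hζ hG hS1 hS2 hc hs (by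
          intro k' h0 h1 g
          rcases hm k' with e | e
          · exact absurd e h0
          · exact absurd e h1)) D.ζ hζ (five_E hb₀ A B D.ζ d hd (by
            intro r hr
            have := hx (⁅B (MG hσ ((D.ζ ^ r : Fˣ) : F) (d r) (hd r)), wk A B 1 (MG hσ 1 b₀ hb₀)⁆, wY hσ hb₀ A B (D.ζ ^ r))
              (List.mem_append_left _ (List.mem_map.2 ⟨r, hr, rfl⟩))
            rw [wY_eq] at this
            exact this)) c
        refine ⟨d', h', ?_⟩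
        have e'' : ⁅kF A B 0 (MG hσ c d' h'), kF A B 1 (MG hσ 1 b₀ hb₀)⁆ = YK hσ hb₀ (kF A B) 0 1 c := e'
        rw [kF_zero] at e''
        exact e''
      hZ := by
        refine ⟨ν₀, d₀, h₀, hν, B (MG hσ a₂ b₂ h₂), ⟨_, MG_mem_UU hσ _ _ h₂, rfl⟩, c₂, ?_⟩
        have := hx (⁅wk A B 1 (MG hσ ν₀ d₀ h₀), wxa hσ hδ hδ' hb₀ A B⁆, B (MG hσ a₂ b₂ h₂) * wY hσ hb₀ A B c₂) (by simp [eqX])
        rw [wxa_eq, wY_eq] at this
        exact this }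

lemma OBase.ofEqs_A (hI : Invol σ) (X : OX σ m'' D.ζ) (gen : closure (Set.range A ∪ Set.range B) = ⊤)
    (hζ : ∀ x : Fˣ, ∃ k : ℕ, x = D.ζ ^ k)
    (hG : closure {g | g ∈ D.G} = ⊤) (hS1 : ∀ s ∈ D.S, s 0 = 0) (hS2 : ∀ π : Equiv.Perm (Fin (m'' + 1 + 1)), π 0 = 0 → π ∈ closure {s | s ∈ D.S})
    (h : ∀ p ∈ eqAll hσ hδ hδ' hb₀ D A B X, p.1 = p.2) :
    (OBase.ofEqs hσ hδ hδ' hb₀ D A B hI X gen hζ hG hS1 hS2 h).A = A := by
  cases X <;> rfl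

lemma OBase.ofEqs_B (hI : Invol σ) (X : OX σ m'' D.ζ) (gen : closure (Set.range A ∪ Set.range B) = ⊤)
    (hζ : ∀ x : Fˣ, ∃ k : ℕ, x = D.ζ ^ k)
    (hG : closure {g | g ∈ D.G} = ⊤) (hS1 : ∀ s ∈ D.S, s 0 = 0) (hS2 : ∀ π : Equiv.Perm (Fin (m'' + 1 + 1)), π 0 = 0 → π ∈ closure {s | s ∈ D.S})
    (h : ∀ p ∈ eqAll hσ hδ hδ' hb₀ D A B X, p.1 = p.2) :
    (OBase.ofEqs hσ hδ hδ' hb₀ D A B hI X gen hζ hG hS1 hS2 h).B = B := by
  cases X <;> rfl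

end FromEqs

section Model

variable {F : Type*} [Field F] {σ : F →+* F} (hσ : ∀ x, σ (σ x) = x) {δ : F} (hδ : δ ≠ 0) (hδ' : σ δ = -δ) {b₀ : F}
  (hb₀ : (1 : F) * σ 1 + b₀ + σ b₀ = 0) {m'' : ℕ} {Gt : Type*} [Group Gt] (Mo : Model (n := nO (m'' + 1)) σ Gt) (D : OD σ m'')

lemma wk_model (i : Fin (m'' + 1 + 1)) (g : GJ σ) : wk (ρM Mo) (κM Mo 0) i g = κM Mo i g := by
  unfold wk
  rw [ρM_κM, Equiv.swap_apply_left]

lemma wxb_model : wxb hσ hb₀ (ρM Mo) (κM Mo 0) = xbK hσ hb₀ (κM Mo) 0 1 := by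
  unfold wxb xbK
  rw [wk_model]

lemma wxa_model : wxa hσ hδ hδ' hb₀ (ρM Mo) (κM Mo 0) = xaK hσ hδ hδ' hb₀ (κM Mo) 0 1 := by
  unfold wxa xaK
  rw [wk_model, wxb_model]

lemma wY_model (c : Fˣ) : wY hσ hb₀ (ρM Mo) (κM Mo 0) c = YK hσ hb₀ (κM Mo) 0 1 c := by
  unfold wY YK
  rw [wk_model, wxb_model]

lemma wxl_model (c : Fˣ) : wxl hσ hδ hδ' hb₀ (ρM Mo) (κM Mo 0) c =
    κM Mo 1 (DU hσ c) * xaK hσ hδ hδ' hb₀ (κM Mo) 0 1 * (κM Mo 1 (DU hσ c))⁻¹ := by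
  unfold wxl
  rw [wk_model, wxa_model]

lemma n01 : (0 : Fin (m'' + 1 + 1)) ≠ 1 := by simp

/-- The core relators hold in the model. -/
lemma model_core (h1 : ⁅κM Mo 1 (MG hσ 1 b₀ hb₀), xaK hσ hδ hδ' hb₀ (κM Mo) 0 1⁆ =
      κM Mo 0 (MG hσ D.a₁ D.b₁ D.h₁) * YK hσ hb₀ (κM Mo) 0 1 D.c₁)
    (h2 : ρM Mo (Equiv.swap 0 1) * xaK hσ hδ hδ' hb₀ (κM Mo) 0 1 =
      (κM Mo 1 (DU hσ D.lr) * xaK hσ hδ hδ' hb₀ (κM Mo) 0 1 * (κM Mo 1 (DU hσ D.lr))⁻¹) *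
      (ρM Mo (Equiv.swap 0 1) * (κM Mo 0 (DU hσ D.tr) * κM Mo 1 (DU hσ (-D.tr⁻¹))) *
        (κM Mo 1 (DU hσ D.lr) * xaK hσ hδ hδ' hb₀ (κM Mo) 0 1 * (κM Mo 1 (DU hσ D.lr))⁻¹) * ρM Mo (Equiv.swap 0 1))) :
    ∀ p ∈ eqCore hσ hδ hδ' hb₀ D (ρM Mo) (κM Mo 0), p.1 = p.2 := by
  intro p hp
  simp only [eqCore, List.mem_append, List.mem_map, List.mem_cons, List.not_mem_nil, or_false] at hp
  rcases hp with (⟨g, hg, rfl⟩ | ⟨g, hg, rfl⟩) | (rfl | rfl | rfl | rfl)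
  · show κM Mo 0 _ * wk _ _ 1 g = wk _ _ 1 g * κM Mo 0 _
    rw [wk_model]
    exact (W_comm_κM Mo hσ hδ hδ' n01 g).eq
  · show κM Mo 0 _ * wk _ _ 1 g * (κM Mo 0 _)⁻¹ = wk _ _ 1 _
    rw [wk_model, wk_model]
    exact t_κM Mo hσ n01 _ g
  · show wxb hσ hb₀ _ _ * wk _ _ 1 _ = wk _ _ 1 _ * wxb hσ hb₀ _ _
    rw [wk_model, wxb_model, M_xb Mo hσ hb₀ n01]
    exact M_X_comm Mo hσ n01 _ _
  · show (κM Mo 0 _ * wk _ _ 1 _) * wxb hσ hb₀ _ _ = wxb hσ hb₀ _ _ * (κM Mo 0 _ * wk _ _ 1 _)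
    rw [wk_model, wxb_model]
    exact M_c5 Mo hσ hb₀ n01 D.ζ
  · show ⁅wk _ _ 1 _, wxa hσ hδ hδ' hb₀ _ _⁆ = κM Mo 0 _ * wY hσ hb₀ _ _ _
    rw [wk_model, wxa_model, wY_model]
    exact h1
  · show ρM Mo _ * wxa hσ hδ hδ' hb₀ _ _ = wxl hσ hδ hδ' hb₀ _ _ _ * (ρM Mo _ * (κM Mo 0 _ * wk _ _ 1 _) * wxl hσ hδ hδ' hb₀ _ _ _ * ρM Mo _)
    rw [wk_model, wxa_model, wxl_model]
    exact h2

lemma model_S (hS1 : ∀ s ∈ D.S, s 0 = 0) : ∀ p ∈ eqS D (ρM Mo) (κM Mo 0), p.1 = p.2 := by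
  intro p hp
  obtain ⟨s, hs, hp⟩ := List.mem_flatMap.1 hp
  obtain ⟨g, hg, rfl⟩ := List.mem_map.1 hp
  have := ρM_κM Mo s 0 g
  rw [hS1 s hs] at this
  exact mul_inv_eq_iff_eq_mul.1 this

/-- The extra relators hold in the model. -/
def OX.good (X : OX σ m'' D.ζ) : Prop :=
  match X with
  | .third _ _ _ => True
  | .five _ d hd ν₀ d₀ h₀ _ a₂ b₂ h₂ c₂ =>
    ⁅κM Mo 1 (MG hσ ν₀ d₀ h₀), xaK hσ hδ hδ' hb₀ (κM Mo) 0 1⁆ = κM Mo 0 (MG hσ a₂ b₂ h₂) * YK hσ hb₀ (κM Mo) 0 1 c₂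

lemma model_X (X : OX σ m'' D.ζ) (hX : OX.good hσ hδ hδ' hb₀ Mo D X) : ∀ p ∈ eqX hσ hδ hδ' hb₀ D (ρM Mo) (κM Mo 0) X, p.1 = p.2 := by
  cases X with
  | third k hk0 hk1 =>
    intro p hp
    obtain ⟨g, hg, rfl⟩ := List.mem_map.1 hp
    show wxb hσ hb₀ _ _ * wk _ _ k g = wk _ _ k g * wxb hσ hb₀ _ _
    rw [wk_model, wxb_model]
    exact (M_c6 Mo hσ hb₀ n01 hk0 hk1 g).eq
  | five hm d hd ν₀ d₀ h₀ hν a₂ b₂ h₂ c₂ =>
    intro p hp
    rcases List.mem_append.1 hp with hp | hp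
    · obtain ⟨r, hr, rfl⟩ := List.mem_map.1 hp
      show ⁅κM Mo 0 _, wk _ _ 1 _⁆ = wY hσ hb₀ _ _ _
      rw [wk_model, wY_model, M_Y Mo hσ hb₀ n01, M_comm Mo hσ n01, map_one, mul_one]
    · simp only [List.mem_cons, List.not_mem_nil, or_false] at hp
      rcases hp with rfl | rfl
      · show wxb hσ hb₀ _ _ * wk _ _ 1 _ = wk _ _ 1 _ * wxb hσ hb₀ _ _
        rw [wk_model, wxb_model, M_xb Mo hσ hb₀ n01]
        exact M_X_comm Mo hσ n01 _ _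
      · show ⁅wk _ _ 1 _, wxa hσ hδ hδ' hb₀ _ _⁆ = κM Mo 0 _ * wY hσ hb₀ _ _ _
        rw [wk_model, wxa_model, wY_model]
        exact hX

end Model

end Cfsg.Agent.Lib.PrsSU
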