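import Mathlib
import Cfsg.Agent.Lib.PrsSUN

/-!
# Presentations of special unitary groups: the assembly in odd dimension
-/

set_option autoImplicit false
set_option linter.unusedSectionVars false
set_option linter.unusedVariables false

namespace Cfsg.Agent.Lib.PrsSU

open Subgroup Sum Cfsg.Agent.Lib.SUWitt Cfsg.Agent.Lib.PrsU3
open scoped Matrix commutatorElement
open Cfsg.Agent.Lib.PrsSp (lift_map_pres exists_hom_of_pres holds_of_map)

section Assemble

variable {F : Type*} [Field F] {σ : F →+* F} (hσ : ∀ x, σ (σ x) = x) {δ : F} (hδ : δ ≠ 0) (hδ' : σ δ = -δ) {b₀ : F}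
  (hb₀ : (1 : F) * σ 1 + b₀ + σ b₀ = 0) {m'' : ℕ} {Gt : Type*} [Group Gt] (Mo : Model (n := nO (m'' + 1)) σ Gt) (D : OD σ m'')

include hσ hδ hδ' hb₀ in
theorem assembleO {k l : ℕ} (hI : Invol σ)
    (hT : ∀ H : Subgroup Gt, (∀ (v : Fin (nO (m'' + 1)) → F) (c : F), hJ σ v v = 0 → c + σ c = 0 → Mo.E v 0 c ∈ H) → H = ⊤)
    (RA : Finset (FreeGroup (Fin k))) (eA : PresentedGroup (RA : Set (FreeGroup (Fin k))) ≃* Equiv.Perm (Fin (m'' + 1 + 1)))
    (RB : Finset (FreeGroup (Fin l))) (eB : PresentedGroup (RB : Set (FreeGroup (Fin l))) ≃* GJ σ)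
    (X : OX σ m'' D.ζ) (hζ : ∀ x : Fˣ, ∃ k : ℕ, x = D.ζ ^ k) (hG : closure {g | g ∈ D.G} = ⊤)
    (hS1 : ∀ s ∈ D.S, s 0 = 0) (hS2 : ∀ π : Equiv.Perm (Fin (m'' + 1 + 1)), π 0 = 0 → π ∈ closure {s | s ∈ D.S})
    (h1 : ⁅κM Mo 1 (MG hσ 1 b₀ hb₀), xaK hσ hδ hδ' hb₀ (κM Mo) 0 1⁆ =
      κM Mo 0 (MG hσ D.a₁ D.b₁ D.h₁) * YK hσ hb₀ (κM Mo) 0 1 D.c₁)
    (h2 : ρM Mo (Equiv.swap 0 1) * xaK hσ hδ hδ' hb₀ (κM Mo) 0 1 =
      (κM Mo 1 (DU hσ D.lr) * xaK hσ hδ hδ' hb₀ (κM Mo) 0 1 * (κM Mo 1 (DU hσ D.lr))⁻¹) *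
      (ρM Mo (Equiv.swap 0 1) * (κM Mo 0 (DU hσ D.tr) * κM Mo 1 (DU hσ (-D.tr⁻¹))) *
        (κM Mo 1 (DU hσ D.lr) * xaK hσ hδ hδ' hb₀ (κM Mo) 0 1 * (κM Mo 1 (DU hσ D.lr))⁻¹) * ρM Mo (Equiv.swap 0 1)))
    (hX : OX.good hσ hδ hδ' hb₀ Mo D X) :
    ∃ rels : Finset (FreeGroup (Fin k ⊕ Fin l)),
      rels.card ≤ RA.card + RB.card + (2 * D.G.length + 4 + D.S.length * D.G.length + X.len D.G.length) ∧
      Nonempty (PresentedGroup (rels : Set (FreeGroup (Fin k ⊕ Fin l))) ≃* Gt) := by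
  classical
  let ιA : FreeGroup (Fin k) →* FreeGroup (Fin k ⊕ Fin l) := FreeGroup.map Sum.inl
  let ιB : FreeGroup (Fin l) →* FreeGroup (Fin k ⊕ Fin l) := FreeGroup.map Sum.inr
  choose wa hwa using fun g : Equiv.Perm (Fin (m'' + 1 + 1)) => PresentedGroup.mk_surjective (RA : Set (FreeGroup (Fin k))) (eA.symm g)
  choose wb hwb using fun g : GJ σ => PresentedGroup.mk_surjective (RB : Set (FreeGroup (Fin l))) (eB.symm g)
  let a : Equiv.Perm (Fin (m'' + 1 + 1)) → FreeGroup (Fin k ⊕ Fin l) := fun g => ιA (wa g)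
  let b : GJ σ → FreeGroup (Fin k ⊕ Fin l) := fun g => ιB (wb g)
  let eqs := eqAll hσ hδ hδ' hb₀ D a b X
  let rels : Finset (FreeGroup (Fin k ⊕ Fin l)) :=
    RA.image ιA ∪ RB.image ιB ∪ (eqs.map fun p => p.1 * p.2⁻¹).toFinset
  refine ⟨rels, ?_, ?_⟩
  · refine (Finset.card_union_le _ _).trans (add_le_add ((Finset.card_union_le _ _).trans
      (add_le_add Finset.card_image_le Finset.card_image_le)) ((List.toFinset_card_le _).trans ?_))
    simp only [eqs, List.length_map, eqAll, List.length_append, eqCore_length, eqS_length]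
    have := eqX_length hσ hδ hδ' hb₀ D a b X
    omega
  let q : FreeGroup (Fin k ⊕ Fin l) →* PresentedGroup (rels : Set (FreeGroup (Fin k ⊕ Fin l))) :=
    PresentedGroup.mk (rels : Set (FreeGroup (Fin k ⊕ Fin l)))
  have hq : ∀ r ∈ rels, q r = 1 := fun r hr => PresentedGroup.one_of_mem (by exact_mod_cast hr)
  obtain ⟨AP, hAP⟩ := exists_hom_of_pres (RA : Set (FreeGroup (Fin k))) eA Sum.inl q (fun r hr => hq _ (by
    simp only [rels, Finset.mem_union, Finset.mem_image]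
    exact Or.inl (Or.inl ⟨r, by exact_mod_cast hr, rfl⟩)))
  obtain ⟨BP, hBP⟩ := exists_hom_of_pres (RB : Set (FreeGroup (Fin l))) eB Sum.inr q (fun r hr => hq _ (by
    simp only [rels, Finset.mem_union, Finset.mem_image]
    exact Or.inl (Or.inr ⟨r, by exact_mod_cast hr, rfl⟩)))
  have hAa : ∀ g, AP g = q (a g) := by
    intro g
    have := hAP (wa g)
    rw [hwa, MulEquiv.apply_symm_apply] at this
    exact this
  have hBb : ∀ g, BP g = q (b g) := by
    intro g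
    have := hBP (wb g)
    rw [hwb, MulEquiv.apply_symm_apply] at this
    exact this
  have hE : ∀ p ∈ eqs, q (p.1 * p.2⁻¹) = 1 := fun p hp => hq _ (by
    simp only [rels, Finset.mem_union, List.mem_toFinset, List.mem_map]
    exact Or.inr ⟨p, hp, rfl⟩)
  have hAll : ∀ p ∈ eqAll hσ hδ hδ' hb₀ D (fun g => AP g) (fun g => BP g) X, p.1 = p.2 := by
    have e1 : (fun g => AP g) = fun g => q (a g) := funext hAa
    have e2 : (fun g => BP g) = fun g => q (b g) := funext hBb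
    rw [e1, e2, ← eqAll_map]
    exact holds_of_map q _ fun p hp => hE p hp
  -- the generators
  have hgen : closure (Set.range AP ∪ Set.range BP) = ⊤ := by
    rw [eq_top_iff, ← PresentedGroup.closure_range_of, closure_le]
    rintro _ ⟨i | j, rfl⟩
    · refine subset_closure (Or.inl ⟨eA (PresentedGroup.of i), ?_⟩)
      exact (hAP (FreeGroup.of i)).trans (by simp [q, PresentedGroup.of])
    · refine subset_closure (Or.inr ⟨eB (PresentedGroup.of j), ?_⟩)
      exact (hBP (FreeGroup.of j)).trans (by simp [q, PresentedGroup.of])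
  let CB := OBase.ofEqs hσ hδ hδ' hb₀ D AP BP hI X hgen hζ hG hS1 hS2 hAll
  let C := OBase.toCfg CB
  -- the map to the model
  let f : Fin k ⊕ Fin l → Gt :=
    Sum.elim (fun i => ρM Mo (eA (PresentedGroup.of i))) (fun j => κM Mo 0 (eB (PresentedGroup.of j)))
  have hfA : ∀ w, FreeGroup.lift f (ιA w) = ρM Mo (eA (PresentedGroup.mk _ w)) :=
    lift_map_pres _ eA (ρM Mo) Sum.inl f (fun i => rfl)
  have hfB : ∀ w, FreeGroup.lift f (ιB w) = κM Mo 0 (eB (PresentedGroup.mk _ w)) :=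
    lift_map_pres _ eB (κM Mo 0) Sum.inr f (fun i => rfl)
  have hfa : ∀ g, FreeGroup.lift f (a g) = ρM Mo g := by
    intro g
    rw [hfA, hwa, MulEquiv.apply_symm_apply]
  have hfb : ∀ g, FreeGroup.lift f (b g) = κM Mo 0 g := by
    intro g
    rw [hfB, hwb, MulEquiv.apply_symm_apply]
  have hrel : ∀ r ∈ (rels : Set (FreeGroup (Fin k ⊕ Fin l))), FreeGroup.lift f r = 1 := by
    intro r hr
    have hr' : r ∈ rels := by exact_mod_cast hr
    simp only [rels, Finset.mem_union, Finset.mem_image, List.mem_toFinset, List.mem_map] at hr'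
    rcases hr' with (⟨w, hw, rfl⟩ | ⟨w, hw, rfl⟩) | ⟨p, hp, rfl⟩
    · rw [hfA, PresentedGroup.one_of_mem (by exact_mod_cast hw), map_one, map_one]
    · rw [hfB, PresentedGroup.one_of_mem (by exact_mod_cast hw), map_one, map_one]
    · rw [map_mul, map_inv, mul_inv_eq_one]
      have hp' := List.mem_map_of_mem (f := Prod.map (FreeGroup.lift f) (FreeGroup.lift f)) hp
      rw [eqAll_map, funext hfa, funext hfb] at hp'
      rcases List.mem_append.1 hp' with hp'' | hp''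
      · rcases List.mem_append.1 hp'' with hp3 | hp3
        · exact model_core hσ hδ hδ' hb₀ Mo D h1 h2 _ hp3
        · exact model_S Mo D hS1 _ hp3
      · exact model_X hσ hδ hδ' hb₀ Mo D X hX _ hp''
  let φ := PresentedGroup.toGroup hrel
  have hφq : ∀ w, φ (q w) = FreeGroup.lift f w := fun w => rfl
  have hφA : ∀ g, φ (AP g) = ρM Mo g := fun g => by rw [hAa, hφq, hfa]
  have hφB : ∀ g, φ (BP g) = κM Mo 0 g := fun g => by rw [hBb, hφq, hfb]
  have hCA : CB.A = AP := OBase.ofEqs_A D AP BP hI X hgen hζ hG hS1 hS2 hAll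
  have hCB : CB.B = BP := OBase.ofEqs_B D AP BP hI X hgen hζ hG hS1 hS2 hAll
  have hφκ : ∀ i g, φ (C.κ i g) = κM Mo i g := by
    intro i g
    change φ (kF CB.A CB.B i g) = _
    rw [hCA, hCB, kF_apply, map_mul, map_mul, map_inv, hφA, hφB, ρM_κM, Equiv.swap_apply_left]
  have hφρ : ∀ τ, φ (C.ρ τ) = ρM Mo τ := by
    intro τ
    change φ (CB.A τ) = _
    rw [hCA, hφA]
  have hinj : Function.Injective φ := OCfg.odd_injective C Mo φ hφρ hφκ hI
  have hsurj : φ.range = ⊤ := by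
    apply hT
    exact odd_transv Mo hσ hδ hδ' φ.range (fun τ => ⟨_, hφA τ⟩) (fun g => ⟨_, hφB g⟩)
  exact ⟨MulEquiv.ofBijective φ ⟨hinj, MonoidHom.range_eq_top.1 hsurj⟩⟩

end Assemble

end Cfsg.Agent.Lib.PrsSU
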