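import Mathlib
import Cfsg.Agent.Lib.PrsSUO
import Cfsg.Agent.Lib.PrsSpI
import Cfsg.Agent.Lib.Pres.Final

/-!
# Presentations of special unitary groups: the odd dimensional statement
-/

set_option autoImplicit false
set_option linter.unusedSectionVars false
set_option linter.unusedVariables false

namespace Cfsg.Agent.Lib.PrsSU

open Subgroup Sum Cfsg.Agent.Lib.SUWitt Cfsg.Agent.Lib.PrsU3
open scoped Matrix commutatorElement

section Stab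

/-- The stabiliser of the first point. -/
def stabι (k : ℕ) : Equiv.Perm (Fin k) →* Equiv.Perm (Fin (k + 1)) :=
  MonoidHom.mk' (fun π => Equiv.Perm.decomposeFin.symm (0, π)) (by
    intro a b
    ext x
    congr 1
    refine Fin.cases ?_ (fun y => ?_) x
    · simp
    · simp [Equiv.Perm.decomposeFin_symm_apply_succ])

lemma stabι_zero (k : ℕ) (π : Equiv.Perm (Fin k)) : stabι k π 0 = 0 := by
  simp [stabι]

lemma stabι_surj (k : ℕ) (π : Equiv.Perm (Fin (k + 1))) (h : π 0 = 0) : ∃ e, stabι k e = π := by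
  obtain ⟨⟨p, e⟩, he⟩ := Equiv.Perm.decomposeFin.symm.surjective π
  have hp : p = 0 := by
    rw [← h, ← he]
    simp
  subst hp
  exact ⟨e, he⟩

lemma stab_gen (k : ℕ) (a b : Equiv.Perm (Fin k)) (hab : closure ({a, b} : Set (Equiv.Perm (Fin k))) = ⊤)
    (π : Equiv.Perm (Fin (k + 1))) (h : π 0 = 0) : π ∈ closure {s | s ∈ [stabι k a, stabι k b]} := by
  obtain ⟨e, rfl⟩ := stabι_surj k π h
  have h1 : e ∈ closure ({a, b} : Set (Equiv.Perm (Fin k))) := by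
    rw [hab]
    exact mem_top e
  have h2 : stabι k e ∈ (closure ({a, b} : Set (Equiv.Perm (Fin k)))).map (stabι k) := ⟨e, h1, rfl⟩
  rw [MonoidHom.map_closure] at h2
  convert h2 using 2
  ext x
  simp [Set.image_pair]

/-- Two generators from a presentation. -/
lemma two_gen_of_pres {H : Type*} [Group H] (R : Finset (FreeGroup (Fin 2))) (e : PresentedGroup (R : Set (FreeGroup (Fin 2))) ≃* H) :
    closure ({e (PresentedGroup.of 0), e (PresentedGroup.of 1)} : Set H) = ⊤ := by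
  rw [eq_top_iff]
  intro x _
  obtain ⟨y, rfl⟩ := e.surjective x
  have hy : y ∈ closure (Set.range (PresentedGroup.of (rels := (R : Set (FreeGroup (Fin 2)))))) := by
    rw [PresentedGroup.closure_range_of]
    exact mem_top y
  have h2 : e y ∈ (closure (Set.range (PresentedGroup.of (rels := (R : Set (FreeGroup (Fin 2))))))).map e.toMonoidHom :=
    ⟨y, hy, rfl⟩
  rw [MonoidHom.map_closure] at h2
  convert h2 using 2
  ext z
  simp only [Set.mem_insert_iff, Set.mem_singleton_iff, Set.mem_image, Set.mem_range, exists_exists_eq_and]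
  constructor
  · rintro (rfl | rfl)
    · exact ⟨0, rfl⟩
    · exact ⟨1, rfl⟩
  · rintro ⟨i, rfl⟩
    fin_cases i
    · exact Or.inl rfl
    · exact Or.inr rfl

end Stab

section Final

variable {F : Type*} [Field F] [Fintype F] {q : ℕ} (hF : Fintype.card F = q ^ 2)

/-- A generator of the multiplicative group. -/
lemma exists_genF : ∃ ζ : Fˣ, ∀ x : Fˣ, ∃ k : ℕ, x = ζ ^ k := by
  obtain ⟨ζ, hζ⟩ := IsCyclic.exists_generator (α := Fˣ)
  refine ⟨ζ, fun x => ?_⟩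
  obtain ⟨k, hk⟩ := (mem_powers_iff_mem_zpowers).2 (hζ x)
  exact ⟨k, hk.symm⟩

local notation "σQ" => Cfsg.Agent.Lib.HermForm.frobQ hF

include hF

/-- The odd dimensional theorem, in a form with the input of the small group. -/
theorem su_odd_core {k l : ℕ} (m'' : ℕ)
    (RA : Finset (FreeGroup (Fin k))) (eA : PresentedGroup (RA : Set (FreeGroup (Fin k))) ≃* Equiv.Perm (Fin (m'' + 1 + 1)))
    (RB : Finset (FreeGroup (Fin l))) (eB : PresentedGroup (RB : Set (FreeGroup (Fin l))) ≃* GJ σQ)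
    (g₁ g₂ : GJ σQ) (hg : closure ({g₁, g₂} : Set (GJ σQ)) = ⊤)
    (S : List (Equiv.Perm (Fin (m'' + 1 + 1)))) (hS1 : ∀ s ∈ S, s 0 = 0) (hS2 : ∀ π : Equiv.Perm (Fin (m'' + 1 + 1)), π 0 = 0 → π ∈ closure {s | s ∈ S})
    (nX : ℕ) (hX : ((∃ k : Fin (m'' + 1 + 1), k ≠ 0 ∧ k ≠ 1) ∧ nX = 2) ∨ ((∀ k : Fin (m'' + 1 + 1), k = 0 ∨ k = 1) ∧ nX = 6)) :
    ∃ rels : Finset (FreeGroup (Fin k ⊕ Fin l)),
      rels.card ≤ RA.card + RB.card + (8 + S.length * 2 + nX) ∧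
      Nonempty (PresentedGroup (rels : Set (FreeGroup (Fin k ⊕ Fin l))) ≃* Cfsg.SU (nO (m'' + 1)) F q) := by
  classical
  have hI := invol_frobQ hF
  have hσ := hI.invol
  obtain ⟨e₀, he⟩ := Cfsg.Agent.Lib.HermFrame.exists_equiv (K := F) (q := q) hF (V := Fin (nO (m'' + 1)) → F) (d := nO (m'' + 1)) (by simp) (isHerm_hJ hF)
  let Mo := modelSU hF e₀ he
  obtain ⟨δ, hδ, hδt⟩ := exists_theta Mo
  have hδ' : σQ δ = -δ := by linear_combination hδt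
  obtain ⟨b₀, hb₀⟩ := exists_MG hI 1
  obtain ⟨ζ, hζ⟩ := exists_genF (F := F)
  have n01 : (0 : Fin (m'' + 1 + 1)) ≠ 1 := by simp
  obtain ⟨h₁, e₁⟩ := M_comm2 Mo hσ hδ hδ' hb₀ n01 hb₀
  have hb0 : b₀ ≠ 0 := b_ne_zero hσ one_ne_zero hb₀
  have hc₁ : -δ⁻¹ * b₀ ≠ 0 := mul_ne_zero (neg_ne_zero.2 (inv_ne_zero hδ)) hb0
  have h1 : ⁅κM Mo 1 (MG hσ 1 b₀ hb₀), xaK hσ hδ hδ' hb₀ (κM Mo) 0 1⁆ =
      κM Mo 0 (MG hσ _ _ h₁) * YK hσ hb₀ (κM Mo) 0 1 (Units.mk0 _ hc₁) := by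
    rw [e₁, M_Y Mo hσ hb₀ n01]
    rfl
  obtain ⟨lr, tr, h2⟩ := M_c8 Mo hσ hδ hδ' hb₀ n01
  let D : OD σQ m'' :=
    { ζ := ζ, G := [g₁, g₂], S := S, a₁ := _, b₁ := _, h₁ := h₁, c₁ := Units.mk0 _ hc₁, lr := lr, tr := tr }
  have hG : closure {g | g ∈ D.G} = ⊤ := by
    rw [← hg]
    congr 1
    ext x
    simp [D]
  have hn3 : 3 ≤ nO (m'' + 1) := by
    simp only [nO]
    omega
  have hT := model_top hF e₀ he hn3 (by
    simp only [nO]
    omega)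
  rcases hX with ⟨⟨k₀, hk0, hk1⟩, rfl⟩ | ⟨hm, rfl⟩
  · let X : OX σQ m'' D.ζ := .third k₀ hk0 hk1
    obtain ⟨R, hR, hE⟩ := assembleO hσ hδ hδ' hb₀ Mo D hI hT RA eA RB eB X hζ hG hS1 hS2 h1 h2 trivial
    exact ⟨R, hR, hE⟩
  · obtain ⟨c, hc⟩ := hI.ne_id
    have hc0 : c ≠ 0 := by
      rintro rfl
      exact hc (map_zero _)
    obtain ⟨d₀, hd₀⟩ := exists_MG hI c
    obtain ⟨h₂, e₂⟩ := M_comm2 Mo hσ hδ hδ' hb₀ n01 hd₀
    have hd0 : d₀ ≠ 0 := b_ne_zero hσ hc0 hd₀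
    have hc₂ : -δ⁻¹ * d₀ ≠ 0 := mul_ne_zero (neg_ne_zero.2 (inv_ne_zero hδ)) hd0
    choose d hd using fun r : ℕ => exists_MG hI ((D.ζ ^ r : Fˣ) : F)
    let X : OX σQ m'' D.ζ := .five hm d hd c d₀ hd₀ hc _ _ h₂ (Units.mk0 _ hc₂)
    have hgood : OX.good hσ hδ hδ' hb₀ Mo D X := by
      show ⁅κM Mo 1 (MG hσ c d₀ hd₀), xaK hσ hδ hδ' hb₀ (κM Mo) 0 1⁆ =
        κM Mo 0 (MG hσ _ _ h₂) * YK hσ hb₀ (κM Mo) 0 1 (Units.mk0 _ hc₂)
      rw [e₂, M_Y Mo hσ hb₀ n01]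
      rfl
    obtain ⟨R, hR, hE⟩ := assembleO hσ hδ hδ' hb₀ Mo D hI hT RA eA RB eB X hζ hG hS1 hS2 h1 h2 hgood
    exact ⟨R, hR, hE⟩

end Final

end Cfsg.Agent.Lib.PrsSU
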