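import Mathlib
import Cfsg.Agent.Lib.PrsSUP

/-!
# Presentations of special unitary groups: linear algebra for the even dimensional case
-/

set_option autoImplicit false
set_option linter.unusedSectionVars false
set_option linter.unusedVariables false

namespace Cfsg.Agent.Lib.PrsSU

open Subgroup Sum Cfsg.Agent.Lib.SUWitt
open Cfsg.Agent.Lib.PrsSp (SLN Mono wW mono_wW dn mono_dn IsBlk sl_eq dn_mul dn_one dn_inv tv_inv' sl_comm sl_comm')
open scoped Matrix commutatorElement

section XE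

variable {n : ℕ} {F Γ : Type*} [Field F] [Group Γ] (A : SLN n F →* Γ)

/-- The transvection. -/
abbrev tvE {i j : Fin n} (h : i ≠ j) (t : F) : SLN n F := Matrix.SpecialLinearGroup.transvection h t

/-- The root elements. -/
def xE (i j : Fin n) (t : F) : Γ := if h : i ≠ j then A (tvE h t) else 1

lemma xE_of {i j : Fin n} (h : i ≠ j) (t : F) : xE A i j t = A (tvE h t) := dif_pos h

lemma xE_self (i : Fin n) (t : F) : xE A i i t = 1 := by
  rw [xE, dif_neg (by simp)]

lemma xE_add (i j : Fin n) (s t : F) : xE A i j s * xE A i j t = xE A i j (s + t) := by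
  by_cases h : i = j
  · subst h
    simp [xE_self]
  · rw [xE_of A h, xE_of A h, xE_of A h, ← map_mul]
    congr 1
    exact Cfsg.Agent.Lib.PrsSp.Cfg.tv_add h s t

lemma xE_zero (i j : Fin n) : xE A i j 0 = 1 := by
  have := xE_add A i j 0 0
  rw [add_zero] at this
  exact mul_eq_left.1 this

lemma xE_inv (i j : Fin n) (t : F) : (xE A i j t)⁻¹ = xE A i j (-t) := by
  rw [inv_eq_iff_mul_eq_one, xE_add, add_neg_cancel, xE_zero]

lemma xE_mono {μ : SLN n F} {π : Equiv.Perm (Fin n)} {c : Fin n → F} (M : Mono μ π c) (i j : Fin n) (t : F) :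
    A μ * xE A i j t * (A μ)⁻¹ = xE A (π i) (π j) (c i * t * (c j)⁻¹) := by
  by_cases h : i = j
  · subst h
    simp [xE_self]
  · rw [xE_of A h, xE_of A (π.injective.ne h), ← map_inv, ← map_mul, ← map_mul]
    congr 1
    exact M.conj_tv h t

lemma xE_comm {i j k l : Fin n} (hjk : j ≠ k) (hli : l ≠ i) (t u : F) : Commute (xE A i j t) (xE A k l u) := by
  by_cases h : i = j
  · subst h
    rw [xE_self]
    exact Commute.one_left _
  by_cases h' : k = l
  · subst h'
    rw [xE_self]
    exact Commute.one_right _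
  rw [xE_of A h, xE_of A h']
  exact (sl_comm h h' hjk hli t u).map A

lemma xE_rel {i j k : Fin n} (h : i ≠ j) (h' : j ≠ k) (h'' : i ≠ k) (t u : F) :
    xE A i j t * xE A j k u * (xE A i j t)⁻¹ = xE A i k (t * u) * xE A j k u := by
  have e := congrArg A (sl_comm' h h' h'' t u)
  simp only [map_mul] at e
  rw [xE_of A h, xE_of A h', xE_of A h'', e]
  group

lemma xE_cm {i j k : Fin n} (h : i ≠ j) (h' : j ≠ k) (h'' : i ≠ k) (t u : F) :
    ⁅xE A i j t, xE A j k u⁆ = xE A i k (t * u) := by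
  rw [commutatorElement_def, xE_rel A h h' h'']
  group

lemma xE_cm' {i j k : Fin n} (h : i ≠ j) (h' : j ≠ k) (h'' : i ≠ k) (t u : F) :
    xE A j k u * xE A i j t * (xE A j k u)⁻¹ = xE A i k (-(t * u)) * xE A i j t := by
  have h2 := xE_cm A h h' h'' t u
  rw [commutatorElement_def] at h2
  rw [← xE_inv, ← h2]
  group

/-- The root subgroup. -/
def Xb (i j : Fin n) : Subgroup Γ where
  carrier := {x | ∃ t, x = xE A i j t}
  mul_mem' := by
    rintro _ _ ⟨s, rfl⟩ ⟨t, rfl⟩
    exact ⟨s + t, xE_add A i j s t⟩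
  one_mem' := ⟨0, (xE_zero A i j).symm⟩
  inv_mem' := by
    rintro _ ⟨s, rfl⟩
    exact ⟨-s, xE_inv A i j s⟩

lemma mem_Xb {i j : Fin n} {x : Γ} : x ∈ Xb A i j ↔ ∃ t, x = xE A i j t := Iff.rfl

end XE

section Adg

variable {n : ℕ} {F : Type*} [Field F]

/-- The conjugate by a diagonal matrix. -/
def adgM (d : Fin n → Fˣ) (g : Matrix (Fin n) (Fin n) F) : Matrix (Fin n) (Fin n) F :=
  Matrix.of fun i j => (d i : F) * g i j * ((d j)⁻¹ : Fˣ)

lemma adgM_eq (d : Fin n → Fˣ) (g : Matrix (Fin n) (Fin n) F) :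
    adgM d g = Matrix.diagonal (fun i => (d i : F)) * g * Matrix.diagonal (fun i => ((d i)⁻¹ : Fˣ).1) := by
  ext i j
  rw [Matrix.mul_diagonal, Matrix.diagonal_mul]
  rfl

lemma adgM_det (d : Fin n → Fˣ) (g : Matrix (Fin n) (Fin n) F) : (adgM d g).det = g.det := by
  rw [adgM_eq, Matrix.det_mul, Matrix.det_mul, Matrix.det_diagonal, Matrix.det_diagonal]
  have : (∏ i, (d i : F)) * ∏ i, ((d i)⁻¹ : Fˣ).1 = 1 := by
    rw [← Finset.prod_mul_distrib]
    apply Finset.prod_eq_one
    intro i _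
    simp
  calc _ = ((∏ i, (d i : F)) * ∏ i, ((d i)⁻¹ : Fˣ).1) * g.det := by ring
    _ = _ := by rw [this, one_mul]

/-- The conjugation by a diagonal matrix. -/
def adg (d : Fin n → Fˣ) : SLN n F →* SLN n F where
  toFun g := ⟨adgM d (g : Matrix (Fin n) (Fin n) F), by rw [adgM_det]; exact g.2⟩
  map_one' := by
    apply sl_eq
    ext i j
    by_cases h : i = j
    · subst h
      simp [adgM]
    · simp [adgM, Matrix.one_apply, h]
  map_mul' a b := by
    apply sl_eq
    ext i j
    change adgM d ((a : Matrix (Fin n) (Fin n) F) * b) i j = (adgM d a * adgM d b) i j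
    simp only [adgM, Matrix.of_apply, Matrix.mul_apply, Finset.mul_sum, Finset.sum_mul]
    refine Finset.sum_congr rfl fun k _ => ?_
    have : ((d k : F)) * (((d k)⁻¹ : Fˣ) : F) = 1 := by simp
    calc (d i : F) * ((a : Matrix (Fin n) (Fin n) F) i k * b k j) * ((d j)⁻¹ : Fˣ)
        = (d i : F) * (a : Matrix (Fin n) (Fin n) F) i k * ((d k : F) * (((d k)⁻¹ : Fˣ) : F)) * b k j * ((d j)⁻¹ : Fˣ) := by
          rw [this]; ring
      _ = _ := by ring

lemma adg_apply (d : Fin n → Fˣ) (g : SLN n F) (i j : Fin n) :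
    ((adg d g : SLN n F) : Matrix (Fin n) (Fin n) F) i j = (d i : F) * (g : Matrix (Fin n) (Fin n) F) i j * ((d j)⁻¹ : Fˣ) := rfl

lemma adg_ext {g g' : SLN n F} (h : ∀ i j, (g : Matrix (Fin n) (Fin n) F) i j = (g' : Matrix (Fin n) (Fin n) F) i j) : g = g' :=
  sl_eq (Matrix.ext h)

lemma adg_tv (d : Fin n → Fˣ) {i j : Fin n} (h : i ≠ j) (t : F) :
    adg d (tvE h t) = tvE h ((d i : F) * t * ((d j)⁻¹ : Fˣ)) := by
  apply adg_ext
  intro r s
  rw [adg_apply]
  change (d r : F) * (Matrix.transvection i j t) r s * ((d s)⁻¹ : Fˣ) = (Matrix.transvection i j _) r s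
  simp only [Matrix.transvection, Matrix.add_apply, Matrix.one_apply, Matrix.single_apply]
  by_cases h1 : r = s
  · subst h1
    have : ¬ (i = r ∧ j = r) := by
      rintro ⟨rfl, h2⟩
      exact h h2.symm
    simp [this]
  · by_cases h2 : i = r ∧ j = s
    · obtain ⟨rfl, rfl⟩ := h2
      simp [h1]
    · simp [h1, h2]

lemma adg_mono {μ : SLN n F} {π : Equiv.Perm (Fin n)} {c : Fin n → F} (M : Mono μ π c) (d : Fin n → Fˣ)
    (hd : ∀ a, d (π a) = d a) : adg d μ = μ := by
  apply adg_ext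
  intro r s
  rw [adg_apply, M.entry]
  by_cases h : r = π s
  · subst h
    rw [if_pos rfl, hd]
    simp [mul_comm]
  · rw [if_neg h]
    simp

lemma mono_adg {μ : SLN n F} {π : Equiv.Perm (Fin n)} {c : Fin n → F} (M : Mono μ π c) (d : Fin n → Fˣ) (g : SLN n F) :
    μ * adg d g * μ⁻¹ = adg (fun k => d (π⁻¹ k)) (μ * g * μ⁻¹) := by
  apply adg_ext
  intro r s
  obtain ⟨a, rfl⟩ := π.surjective r
  obtain ⟨b, rfl⟩ := π.surjective s
  have e : ∀ a, π⁻¹ (π a) = a := fun a => by simp
  rw [M.conj_entry, adg_apply, adg_apply, M.conj_entry, e, e]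
  ring

lemma adg_one (g : SLN n F) : adg (fun _ => (1 : Fˣ)) g = g := by
  apply adg_ext
  intro r s
  rw [adg_apply]
  simp

/-- The diagonal data with a single nontrivial value. -/
def eD (i : Fin n) (κ : Fˣ) : Fin n → Fˣ := fun k => if k = i then κ else 1

lemma eD_self (i : Fin n) (κ : Fˣ) : eD i κ i = κ := by simp [eD]

lemma eD_ne {i k : Fin n} (h : k ≠ i) (κ : Fˣ) : eD i κ k = 1 := by simp [eD, h]

lemma eD_perm (π : Equiv.Perm (Fin n)) (i : Fin n) (κ : Fˣ) : (fun k => eD i κ (π⁻¹ k)) = eD (π i) κ := by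
  funext k
  simp only [eD]
  by_cases h : k = π i
  · subst h
    simp
  · rw [if_neg h, if_neg]
    intro e
    apply h
    rw [← e]
    simp

lemma eD_one (i : Fin n) : eD i (1 : Fˣ) = fun _ => (1 : Fˣ) := by
  funext k
  simp [eD]

lemma adg_eD_mul (i : Fin n) (κ κ' : Fˣ) (g : SLN n F) : adg (eD i (κ * κ')) g = adg (eD i κ) (adg (eD i κ') g) := by
  apply adg_ext
  intro r s
  rw [adg_apply, adg_apply, adg_apply]
  by_cases h1 : r = i <;> by_cases h2 : s = i
  · subst h1
    subst h2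
    simp only [eD_self]
    simp
    field_simp
  · subst h1
    simp only [eD_self, eD_ne h2]
    simp
    ring
  · subst h2
    simp only [eD_self, eD_ne h1]
    simp
    field_simp
  · simp only [eD_ne h1, eD_ne h2]
    simp

lemma adg_eD_tv_ne (i : Fin n) (κ : Fˣ) {j k : Fin n} (h : j ≠ k) (t : F) :
    adg (eD i κ) (tvE h t) = tvE h ((eD i κ j : F) * t * ((eD i κ k)⁻¹ : Fˣ)) := adg_tv _ h t

end Adg

section ME

variable {n : ℕ} {F : Type*} [Field F]

/-- The monomial element moving `0`. -/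
noncomputable def mE [NeZero n] (i : Fin n) : SLN n F := if h : i = 0 then 1 else wW h

/-- The coefficients of the monomial element moving `0`. -/
def cE [NeZero n] (F : Type*) [Field F] (i : Fin n) : Fin n → F := fun k => if i = 0 then 1 else if k = i then -1 else 1

lemma mono_mE [NeZero n] (i : Fin n) : Mono (mE i : SLN n F) (Equiv.swap i 0) (cE F i) := by
  unfold mE cE
  by_cases h : i = 0
  · subst h
    simp only [dif_pos, if_true, Equiv.swap_self]
    exact Mono.one'
  · simp only [dif_neg h, if_neg h]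
    exact mono_wW h

lemma cE_sq [NeZero n] (i k : Fin n) : (cE F i k) ^ 2 = 1 := by
  unfold cE
  split_ifs <;> ring

lemma cE_zero [NeZero n] (i : Fin n) : cE F i 0 = 1 := by
  unfold cE
  by_cases h : i = 0
  · simp [h]
  · rw [if_neg h, if_neg (Ne.symm h)]

lemma mE_zero [NeZero n] : (mE (0 : Fin n) : SLN n F) = 1 := by
  simp [mE]

end ME

section Norm

variable {F : Type*} [Field F] (σ : F →+* F)

/-- The norm on units. -/
def nU (c : Fˣ) : Fˣ := c * Units.map (σ : F →* F) c

lemma nU_coe (c : Fˣ) : ((nU σ c : Fˣ) : F) = c * σ c := rfl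

lemma nU_mul (c d : Fˣ) : nU σ (c * d) = nU σ c * nU σ d := by
  ext
  simp only [nU_coe, Units.val_mul, map_mul]
  ring

lemma nU_inv (c : Fˣ) : nU σ c⁻¹ = (nU σ c)⁻¹ := by
  apply eq_inv_of_mul_eq_one_left
  rw [← nU_mul, inv_mul_cancel]
  ext
  simp [nU_coe]

lemma nU_one : nU σ (1 : Fˣ) = 1 := by
  ext
  simp [nU_coe]

lemma nU_of_sq {c : Fˣ} (h : (c : F) ^ 2 = 1) : nU σ c = 1 := by
  ext
  rw [nU_coe]
  have h' : ((c : F) - 1) * ((c : F) + 1) = 0 := by linear_combination h
  rcases mul_eq_zero.1 h' with h1 | h1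
  · have : (c : F) = 1 := by linear_combination h1
    simp [this]
  · have : (c : F) = -1 := by linear_combination h1
    simp [this]

end Norm

section Fields

variable {F : Type*} [Field F] {σ : F →+* F}

/-- Decomposition along a basis of the field over the fixed field. -/
lemma exists_basis (hσ : ∀ x, σ (σ x) = x) {b : F} (hb : σ b ≠ b) (t : F) :
    ∃ κ₁ κ₂ : F, σ κ₁ = κ₁ ∧ σ κ₂ = κ₂ ∧ t = κ₁ + κ₂ * b := by
  have hne : b - σ b ≠ 0 := fun e => hb (by linear_combination -e)
  have hne' : σ b - b ≠ 0 := fun e => hb (by linear_combination e)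
  refine ⟨t - (t - σ t) / (b - σ b) * b, (t - σ t) / (b - σ b), ?_, ?_, by ring⟩
  · simp only [map_sub, map_mul, map_div₀, hσ]
    field_simp
    ring
  · simp only [map_sub, map_div₀, hσ]
    field_simp
    ring

/-- The elements of trace zero. -/
lemma trace_zero_form (hσ : ∀ x, σ (σ x) = x) {δ : F} (hδ : δ ≠ 0) (hδ' : σ δ = -δ) {u : F} (hu : σ u = -u) :
    ∃ κ : F, σ κ = κ ∧ u = κ * δ := by
  refine ⟨u / δ, ?_, by field_simp⟩
  rw [map_div₀, hu, hδ']
  field_simp

/-- The decomposition along the trace. -/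
lemma trace_decomp (hσ : ∀ x, σ (σ x) = x) {δ ξ : F} (hδ : δ ≠ 0) (hδ' : σ δ = -δ) (hξ : ξ + σ ξ = 1) (u : F) :
    ∃ κ : F, σ κ = κ ∧ u = (u + σ u) * ξ + κ * δ := by
  have h1 : σ (u - (u + σ u) * ξ) = -(u - (u + σ u) * ξ) := by
    simp only [map_sub, map_add, map_mul, hσ]
    linear_combination (-(u + σ u)) * hξ
  obtain ⟨κ, h2, h3⟩ := trace_zero_form hσ hδ hδ' h1
  exact ⟨κ, h2, by linear_combination h3⟩

variable [Fintype F] {q : ℕ}

/-- A subgroup stable under the elements of norm one is everything. -/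
lemma add_stable_top (hF : Fintype.card F = q ^ 2) (hσq : ∀ x, σ x = x ^ q) (hq : 2 ≤ q) (S : AddSubgroup F) (h1 : (1 : F) ∈ S)
    (hS : ∀ (c : Fˣ), ∀ t ∈ S, (c : F) * (σ c)⁻¹ * t ∈ S) : S = ⊤ := by
  classical
  let E : Subfield F :=
    { carrier := {x | ∀ t ∈ S, x * t ∈ S}
      mul_mem' := by
        intro a b ha hb t ht
        rw [mul_assoc]
        exact ha _ (hb t ht)
      one_mem' := by
        intro t ht
        rwa [one_mul]
      add_mem' := by
        intro a b ha hb t ht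
        rw [add_mul]
        exact S.add_mem (ha t ht) (hb t ht)
      zero_mem' := by
        intro t _
        rw [zero_mul]
        exact S.zero_mem
      neg_mem' := by
        intro a ha t ht
        rw [neg_mul]
        exact S.neg_mem (ha t ht)
      inv_mem' := by
        intro a ha t ht
        by_cases h0 : a = 0
        · subst h0
          simpa using S.zero_mem
        have hpow : ∀ k : ℕ, ∀ t ∈ S, a ^ k * t ∈ S := by
          intro k
          induction k with
          | zero =>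
            intro t ht
            rwa [pow_zero, one_mul]
          | succ k ih =>
            intro t ht
            rw [pow_succ, mul_assoc]
            exact ih _ (ha t ht)
        have h2 : ∃ N : ℕ, a⁻¹ = a ^ N := by
          have h3 : a ^ (q ^ 2) = a := by
            rw [← hF]
            exact FiniteField.pow_card a
          have h4 : 2 ≤ q ^ 2 := by nlinarith
          obtain ⟨N, hN⟩ : ∃ N, q ^ 2 = N + 2 := ⟨q ^ 2 - 2, by omega⟩
          refine ⟨N, ?_⟩
          rw [hN, pow_add, pow_two] at h3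
          have h6 : a * (a ^ N * a) = a * 1 := by
            rw [mul_one]
            linear_combination h3
          have h7 := mul_left_cancel₀ h0 h6
          field_simp
          linear_combination -h7
        obtain ⟨N, hN⟩ := h2
        rw [hN]
        exact hpow _ t ht }
  have hE : ∀ c : Fˣ, (c : F) * (σ c)⁻¹ ∈ E := fun c t ht => hS c t ht
  obtain ⟨ζ, hζ⟩ := IsCyclic.exists_generator (α := Fˣ)
  have hcard : Fintype.card Fˣ = q ^ 2 - 1 := by
    rw [Fintype.card_units, hF]
  have hord : orderOf ζ = q ^ 2 - 1 := by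
    rw [orderOf_eq_card_of_forall_mem_zpowers hζ, Nat.card_eq_fintype_card, hcard]
  have hq1 : q ^ 2 - 1 = (q + 1) * (q - 1) := by
    obtain ⟨r, rfl⟩ : ∃ r, q = r + 1 := ⟨q - 1, by omega⟩
    simp only [Nat.add_sub_cancel]
    have : (r + 1) ^ 2 = (r + 1 + 1) * r + 1 := by ring
    omega
  have hord2 : orderOf (ζ ^ (q - 1)) = q + 1 := by
    have hpos : 0 < q - 1 := by omega
    rw [orderOf_pow_of_dvd (by omega) (by rw [hord, hq1]; exact dvd_mul_left _ _), hord, hq1]
    exact Nat.mul_div_cancel _ hpos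
  have hmem : ∀ k : ℕ, (((ζ ^ (q - 1)) ^ k : Fˣ) : F) ∈ E := by
    intro k
    have hk : (((ζ ^ (q - 1)) ^ k : Fˣ) : F) = ((ζ ^ k)⁻¹ : Fˣ) * (σ ((ζ ^ k)⁻¹ : Fˣ))⁻¹ := by
      have hσ' : σ (((ζ ^ k)⁻¹ : Fˣ) : F) = (((ζ ^ k)⁻¹ : Fˣ) : F) ^ q := hσq _
      rw [hσ']
      have h0 : (((ζ ^ k)⁻¹ : Fˣ) : F) ≠ 0 := Units.ne_zero _
      have hz0 : ((ζ ^ k : Fˣ) : F) ≠ 0 := Units.ne_zero _
      have e1 : (((ζ ^ (q - 1)) ^ k : Fˣ) : F) = ((ζ ^ k : Fˣ) : F) ^ (q - 1) := by
        rw [← pow_mul, mul_comm, pow_mul]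
        simp
      rw [e1]
      simp only [Units.val_inv_eq_inv_val, inv_pow, inv_inv]
      have : ((ζ ^ k : Fˣ) : F) ^ q = ((ζ ^ k : Fˣ) : F) ^ (q - 1) * ((ζ ^ k : Fˣ) : F) := by
        rw [← pow_succ, Nat.sub_add_cancel (by omega)]
      rw [this]
      field_simp
    rw [hk]
    exact hE _
  -- the cardinality of the subfield
  have hcardE : q + 1 ≤ Fintype.card E := by
    let f : Fin (q + 1) → E := fun k => ⟨(((ζ ^ (q - 1)) ^ (k : ℕ) : Fˣ) : F), hmem k⟩
    have hf : Function.Injective f := by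
      intro a b hab
      have h2 : (((ζ ^ (q - 1)) ^ (a : ℕ) : Fˣ) : F) = (((ζ ^ (q - 1)) ^ (b : ℕ) : Fˣ) : F) := congrArg Subtype.val hab
      have h3 : (ζ ^ (q - 1)) ^ (a : ℕ) = (ζ ^ (q - 1)) ^ (b : ℕ) := Units.ext h2
      have ha : (a : ℕ) < orderOf (ζ ^ (q - 1)) := by rw [hord2]; exact a.2
      have hb : (b : ℕ) < orderOf (ζ ^ (q - 1)) := by rw [hord2]; exact b.2
      exact Fin.ext (pow_injOn_Iio_orderOf ha hb h3)
    have := Fintype.card_le_of_injective f hf
    simpa using this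
  have hd := Module.card_eq_pow_finrank (K := E) (V := F)
  rw [hF] at hd
  have hrank : Module.finrank E F = 1 := by
    by_contra hne
    have hpos : 0 < Module.finrank E F := Module.finrank_pos
    have h2 : 2 ≤ Module.finrank E F := by omega
    have h3 : (q + 1) ^ 2 ≤ Fintype.card E ^ Module.finrank E F :=
      (Nat.pow_le_pow_left hcardE 2).trans (Nat.pow_le_pow_right (by omega) h2)
    rw [← hd] at h3
    nlinarith
  have hall : ∀ x : F, x ∈ E := by
    have : (⊥ : Subalgebra E F) = ⊤ := Subalgebra.bot_eq_top_of_finrank_eq_one hrank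
    intro x
    have hx : x ∈ (⊤ : Subalgebra E F) := Algebra.mem_top
    rw [← this] at hx
    obtain ⟨y, rfl⟩ := Algebra.mem_bot.1 hx
    exact y.2
  rw [eq_top_iff]
  intro x _
  have := hall x 1 h1
  rwa [mul_one] at this

/-- The squares of the fixed field span it additively. -/
lemma sq_span (hσ : ∀ x, σ (σ x) = x) (S : AddSubgroup F) (h1 : (1 : F) ∈ S)
    (hS : ∀ b : F, σ b = b → b ≠ 0 → ∀ t ∈ S, b * b * t ∈ S) {κ : F} (hκ : σ κ = κ) : κ ∈ S := by
  have hsq : ∀ b : F, σ b = b → b * b ∈ S := by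
    intro b hb
    by_cases h0 : b = 0
    · subst h0
      simpa using S.zero_mem
    · have := hS b hb h0 1 h1
      rwa [mul_one] at this
  by_cases h2 : (2 : F) = 0
  · -- characteristic two: the Frobenius is bijective
    haveI : CharP F 2 := by
      obtain ⟨p, hp⟩ := CharP.exists F
      have h3 : ((2 : ℕ) : F) = 0 := by exact_mod_cast h2
      have h4 : p ∣ 2 := (CharP.cast_eq_zero_iff F p 2).1 h3
      have hp2 : p = 2 := (Nat.prime_dvd_prime_iff_eq (CharP.char_is_prime F p) Nat.prime_two).1 h4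
      subst hp2
      exact hp
    haveI : Fact (Nat.Prime 2) := ⟨Nat.prime_two⟩
    obtain ⟨b, hb⟩ := Finite.injective_iff_surjective.1 (frobenius_inj F 2) κ
    have hb' : b * b = κ := by
      rw [← hb, frobenius_def, pow_two]
    have hbσ : σ b = b := by
      have h5 : (σ b) * (σ b) = b * b := by
        rw [← map_mul, hb', hκ]
      have h6 : (σ b - b) * (σ b - b) = 0 := by
        have : (σ b - b) * (σ b - b) = σ b * σ b + b * b - 2 * (σ b * b) := by ring
        rw [this, h2, h5]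
        have h7 : b * b + b * b = 2 * (b * b) := by ring
        rw [h7, h2]
        ring
      have h7 := mul_self_eq_zero.1 h6
      linear_combination h7
    rw [← hb']
    exact hsq b hbσ
  · have h4 : σ (2 : F) = 2 := map_ofNat σ 2
    have e : κ = ((κ + 1) / 2) * ((κ + 1) / 2) - ((κ - 1) / 2) * ((κ - 1) / 2) := by
      field_simp
      ring
    rw [e]
    refine S.sub_mem (hsq _ ?_) (hsq _ ?_)
    · simp only [map_div₀, map_add, map_one, hκ, h4]
    · simp only [map_div₀, map_sub, map_one, hκ, h4]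

end Fields

end Cfsg.Agent.Lib.PrsSU
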