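import Mathlib
import Cfsg.Agent.Lib.PrsSUQ

/-!
# Presentations of special unitary groups: the even dimensional configuration
-/

set_option autoImplicit false
set_option linter.unusedSectionVars false
set_option linter.unusedVariables false

namespace Cfsg.Agent.Lib.PrsSU

open Subgroup Sum Cfsg.Agent.Lib.SUWitt
open Cfsg.Agent.Lib.PrsSp (SLN Mono wW mono_wW dn mono_dn IsBlk sl_eq dn_mul dn_one dn_inv tv_inv' sl_comm sl_comm' exists_mono2 tv_isBlk)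
open scoped Matrix commutatorElement

section Basics

variable {F : Type*} [Field F] {σ : F →+* F} {m : ℕ}

lemma h01E : (0 : Fin (m + 1 + 1)) ≠ 1 := by simp

/-- The torus element at the first two indices. -/
def hU : Fˣ →* SLN (m + 1 + 1) F where
  toFun c := dn h01E (c : F) c.ne_zero
  map_one' := dn_one h01E
  map_mul' a b := by
    rw [dn_mul]
    rfl

lemma hU_apply (c : Fˣ) : (hU c : SLN (m + 1 + 1) F) = dn h01E (c : F) c.ne_zero := rfl

/-- The coefficients of `hU`. -/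
def dC (m : ℕ) (c : Fˣ) : Fin (m + 1 + 1) → F := fun k => if k = 0 then (c : F) else if k = 1 then (c : F)⁻¹ else 1

lemma mono_hU (c : Fˣ) : Mono (hU c : SLN (m + 1 + 1) F) 1 (dC m c) := mono_dn h01E (c : F) c.ne_zero

lemma dC_zero (c : Fˣ) : dC (F := F) m c 0 = c := by simp [dC]

lemma dC_one (c : Fˣ) : dC (F := F) m c 1 = (c : F)⁻¹ := by simp [dC]

/-- Words for the diagonal elements. -/
lemma dn_word {n : ℕ} {i j : Fin n} (h : i ≠ j) {a : F} (ha : a ≠ 0) :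
    dn h a ha = tvE h a * tvE h.symm (-a⁻¹) * tvE h a * tvE h (-1) * tvE h.symm 1 * tvE h (-1) := by
  apply sl_eq
  simp only [Matrix.SpecialLinearGroup.coe_mul]
  exact (Cfsg.Agent.Lib.SLGen.six_product h ha).symm

lemma dn_swap {a : F} (ha : a ≠ 0) : dn (h01E (m := m)).symm a ha = dn h01E a⁻¹ (inv_ne_zero ha) := by
  apply sl_eq
  change Matrix.diagonal _ = Matrix.diagonal _
  congr 1
  funext k
  by_cases h0 : k = 0
  · subst h0
    simp
  · by_cases h1 : k = 1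
    · subst h1
      simp
    · simp [h0, h1]

/-- Conjugating the block property. -/
lemma isBlk_conj {n : ℕ} {i : Fin n} {g μ : SLN n F} {π : Equiv.Perm (Fin n)} {c : Fin n → F} (hg : IsBlk i g) (M : Mono μ π c) :
    IsBlk (π i) (μ * g * μ⁻¹) := by
  refine ⟨?_, fun j hj => ?_⟩
  · rw [M.conj_entry, hg.1, mul_one, mul_inv_cancel₀ (M.ne _)]
  · obtain ⟨b, rfl⟩ := π.surjective j
    have hb : b ≠ i := fun e => hj (by rw [e])
    obtain ⟨h3, h4⟩ := hg.2 b hb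
    rw [M.conj_entry, M.conj_entry, h3, h4]
    simp

lemma conj_prod6 {Γ : Type*} [Group Γ] (g a b c d e f : Γ) : g * (a * b * c * d * e * f) * g⁻¹ =
    (g * a * g⁻¹) * (g * b * g⁻¹) * (g * c * g⁻¹) * (g * d * g⁻¹) * (g * e * g⁻¹) * (g * f * g⁻¹) := by group

lemma conj_conj' {Γ : Type*} [Group Γ] (g h x : Γ) : (g * h) * x * (g * h)⁻¹ = g * (h * x * h⁻¹) * g⁻¹ := by group

/-- Conjugating an equation `a z a⁻¹ = t z`. -/
lemma swap_conj {Γ : Type*} [Group Γ] {a z t : Γ} (h : a * z * a⁻¹ = t * z) : z * a * z⁻¹ = t⁻¹ * a := by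
  have h1 : a * z = t * z * a := by
    rw [← h]
    group
  calc z * a * z⁻¹ = t⁻¹ * (t * z * a) * z⁻¹ := by group
    _ = t⁻¹ * (a * z) * z⁻¹ := by rw [h1]
    _ = _ := by group

end Basics

/-- The even dimensional configuration. -/
structure ECore (Γ : Type*) [Group Γ] {F : Type*} [Field F] (σ : F →+* F) (m : ℕ) where
  hI : Invol σ
  A : SLN (m + 1 + 1) F →* Γ
  z : Γ
  th : Fˣ →* Γ
  hz : ∀ c : Fˣ, A (hU c) * z * (A (hU c))⁻¹ = th c * z
  th_norm : ∀ c : Fˣ, nU σ c = 1 → th c = 1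
  th_act : ∀ (c : Fˣ) g, th c * A g * (th c)⁻¹ = A (adg (eD 0 (nU σ c)) g)
  th_z : ∀ c, z * th c * z⁻¹ = (th c)⁻¹
  cneg : Fˣ
  hcneg : ((nU σ cneg : Fˣ) : F) = -1
  z_sq : z * z = th cneg
  blk : ∀ g, IsBlk 0 g → Commute z (A g)
  z01 : Commute z (A (mE 1) * z * (A (mE 1))⁻¹)
  s5 : ∀ t : F, (A (mE 1) * z * (A (mE 1))⁻¹) * xE A 0 1 t * (A (mE 1) * z * (A (mE 1))⁻¹)⁻¹ = z * xE A 1 0 (σ t) * z⁻¹

namespace ECore

variable {Γ : Type*} [Group Γ] {F : Type*} [Field F] {σ : F →+* F} {m : ℕ} (C : ECore Γ σ m)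

/-- The long Weyl elements. -/
noncomputable def zi (i : Fin (m + 1 + 1)) : Γ := C.A (mE i) * C.z * (C.A (mE i))⁻¹

/-- The long torus elements. -/
noncomputable def thi (i : Fin (m + 1 + 1)) : Fˣ →* Γ := ((MulAut.conj (C.A (mE i))).toMonoidHom).comp C.th

lemma thi_apply (i : Fin (m + 1 + 1)) (c : Fˣ) : C.thi i c = C.A (mE i) * C.th c * (C.A (mE i))⁻¹ := rfl

lemma zi_zero : C.zi 0 = C.z := by
  simp [zi, mE_zero]

lemma thi_zero (c : Fˣ) : C.thi 0 c = C.th c := by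
  simp [thi_apply, mE_zero]

lemma hσ' (C : ECore Γ σ m) : ∀ x, σ (σ x) = x := C.hI.invol

lemma th_congr {c d : Fˣ} (h : nU σ c = nU σ d) : C.th c = C.th d := by
  have h1 : C.th (c * d⁻¹) = 1 := C.th_norm _ (by
    rw [nU_mul, nU_inv, h, mul_inv_cancel])
  rw [map_mul, map_inv] at h1
  exact mul_inv_eq_one.1 h1

lemma thi_congr (i : Fin (m + 1 + 1)) {c d : Fˣ} (h : nU σ c = nU σ d) : C.thi i c = C.thi i d := by
  rw [thi_apply, thi_apply, C.th_congr h]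

lemma th_fix {μ : SLN (m + 1 + 1) F} {π : Equiv.Perm (Fin (m + 1 + 1))} {c : Fin (m + 1 + 1) → F} (M : Mono μ π c) (h0 : π 0 = 0)
    (b : Fˣ) : Commute (C.th b) (C.A μ) := by
  have h1 := C.th_act b μ
  rw [adg_mono M _ (by
    intro a
    by_cases h : a = 0
    · subst h
      rw [h0]
    · rw [eD_ne h, eD_ne]
      intro e
      apply h
      apply π.injective
      rw [e, h0])] at h1
  exact mul_inv_eq_iff_eq_mul.1 h1

/-- The action of monomial elements fixing the first index. -/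
lemma A_fix {μ : SLN (m + 1 + 1) F} {π : Equiv.Perm (Fin (m + 1 + 1))} {c : Fin (m + 1 + 1) → F} (M : Mono μ π c) (h0 : π 0 = 0) :
    C.A μ * C.z * (C.A μ)⁻¹ = C.th (Units.mk0 (c 0) (M.ne 0)) * C.z := by
  let u : Fˣ := Units.mk0 (c 0) (M.ne 0)
  have hb := ((mono_hU (m := m) u).inv.mul M)
  have hblk : IsBlk 0 ((hU u)⁻¹ * μ) := by
    refine hb.isBlk (by simp [h0]) ?_
    simp only [h0, inv_one, Equiv.Perm.coe_one, id]
    rw [dC_zero]
    exact inv_mul_cancel₀ (M.ne 0)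
  have h1 := (C.blk _ hblk).symm
  have e : μ = hU u * ((hU u)⁻¹ * μ) := by group
  calc C.A μ * C.z * (C.A μ)⁻¹ = C.A (hU u) * (C.A ((hU u)⁻¹ * μ) * C.z * (C.A ((hU u)⁻¹ * μ))⁻¹) * (C.A (hU u))⁻¹ := by
        conv_lhs => rw [e]
        rw [map_mul]
        group
    _ = C.A (hU u) * C.z * (C.A (hU u))⁻¹ := by rw [Commute.conj_eq h1]
    _ = _ := C.hz u

/-- The reduction of a monomial element to one fixing the first index. -/
lemma red_mono {μ : SLN (m + 1 + 1) F} {π : Equiv.Perm (Fin (m + 1 + 1))} {c : Fin (m + 1 + 1) → F} (M : Mono μ π c) (i : Fin (m + 1 + 1)) :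
    ∃ (π' : Equiv.Perm (Fin (m + 1 + 1))) (c' : Fin (m + 1 + 1) → F), Mono ((mE (π i))⁻¹ * μ * mE i : SLN (m + 1 + 1) F) π' c' ∧ π' 0 = 0 ∧ c' 0 = c i := by
  refine ⟨_, _, ((mono_mE (π i)).inv.mul M).mul (mono_mE i), ?_, ?_⟩
  · simp
  · simp [cE_zero]

lemma zi_conj {μ : SLN (m + 1 + 1) F} {π : Equiv.Perm (Fin (m + 1 + 1))} {c : Fin (m + 1 + 1) → F} (M : Mono μ π c) (i : Fin (m + 1 + 1)) :
    C.A μ * C.zi i * (C.A μ)⁻¹ = C.thi (π i) (Units.mk0 (c i) (M.ne i)) * C.zi (π i) := by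
  obtain ⟨π', c', M', h0, hc⟩ := red_mono M i
  have h1 := C.A_fix M' h0
  have e : Units.mk0 (c' 0) (M'.ne 0) = Units.mk0 (c i) (M.ne i) := Units.ext hc
  rw [e] at h1
  rw [thi_apply, zi, zi]
  have e2 : C.A μ * C.A (mE i) = C.A (mE (π i)) * C.A ((mE (π i))⁻¹ * μ * mE i) := by
    rw [← map_mul, ← map_mul]
    congr 1
    group
  calc C.A μ * (C.A (mE i) * C.z * (C.A (mE i))⁻¹) * (C.A μ)⁻¹
      = (C.A μ * C.A (mE i)) * C.z * (C.A μ * C.A (mE i))⁻¹ := by group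
    _ = C.A (mE (π i)) * (C.A ((mE (π i))⁻¹ * μ * mE i) * C.z * (C.A ((mE (π i))⁻¹ * μ * mE i))⁻¹) * (C.A (mE (π i)))⁻¹ := by
        rw [e2]
        group
    _ = _ := by
        rw [h1]
        group

lemma thi_conj {μ : SLN (m + 1 + 1) F} {π : Equiv.Perm (Fin (m + 1 + 1))} {c : Fin (m + 1 + 1) → F} (M : Mono μ π c) (i : Fin (m + 1 + 1)) (b : Fˣ) :
    C.A μ * C.thi i b * (C.A μ)⁻¹ = C.thi (π i) b := by
  obtain ⟨π', c', M', h0, hc⟩ := red_mono M i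
  have h1 := (C.th_fix M' h0 b).symm
  rw [thi_apply, thi_apply]
  have e2 : C.A μ * C.A (mE i) = C.A (mE (π i)) * C.A ((mE (π i))⁻¹ * μ * mE i) := by
    rw [← map_mul, ← map_mul]
    congr 1
    group
  calc C.A μ * (C.A (mE i) * C.th b * (C.A (mE i))⁻¹) * (C.A μ)⁻¹
      = (C.A μ * C.A (mE i)) * C.th b * (C.A μ * C.A (mE i))⁻¹ := by group
    _ = C.A (mE (π i)) * (C.A ((mE (π i))⁻¹ * μ * mE i) * C.th b * (C.A ((mE (π i))⁻¹ * μ * mE i))⁻¹) * (C.A (mE (π i)))⁻¹ := by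
        rw [e2]
        group
    _ = _ := by
        rw [Commute.conj_eq h1]

lemma zi_conj_s {μ : SLN (m + 1 + 1) F} {π : Equiv.Perm (Fin (m + 1 + 1))} {c : Fin (m + 1 + 1) → F} (M : Mono μ π c) (hc : ∀ k, c k ^ 2 = 1) (i : Fin (m + 1 + 1)) :
    C.A μ * C.zi i * (C.A μ)⁻¹ = C.zi (π i) := by
  rw [C.zi_conj M, thi_apply, C.th_norm _ (nU_of_sq σ (hc i))]
  simp

lemma thi_act (i : Fin (m + 1 + 1)) (c : Fˣ) (g : SLN (m + 1 + 1) F) :
    C.thi i c * C.A g * (C.thi i c)⁻¹ = C.A (adg (eD i (nU σ c)) g) := by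
  have M := mono_mE (F := F) i
  have e1 : C.thi i c * C.A g * (C.thi i c)⁻¹ = C.A (mE i) * (C.th c * C.A ((mE i)⁻¹ * g * mE i) * (C.th c)⁻¹) * (C.A (mE i))⁻¹ := by
    rw [thi_apply]
    simp only [map_mul, map_inv]
    group
  rw [e1, C.th_act, ← map_inv, ← map_mul, ← map_mul, mono_adg M, eD_perm]
  congr 3
  · simp
  · group

lemma thi_x (i : Fin (m + 1 + 1)) (c : Fˣ) (j k : Fin (m + 1 + 1)) (t : F) :
    C.thi i c * xE C.A j k t * (C.thi i c)⁻¹ = xE C.A j k ((eD i (nU σ c) j : F) * t * ((eD i (nU σ c) k)⁻¹ : Fˣ)) := by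
  by_cases h : j = k
  · subst h
    simp [xE_self]
  · rw [xE_of _ h, xE_of _ h, thi_act, adg_tv]

lemma th_x (c : Fˣ) (j k : Fin (m + 1 + 1)) (t : F) :
    C.th c * xE C.A j k t * (C.th c)⁻¹ = xE C.A j k ((eD 0 (nU σ c) j : F) * t * ((eD 0 (nU σ c) k)⁻¹ : Fˣ)) := by
  rw [← thi_x, thi_zero]

lemma zi_blk {i : Fin (m + 1 + 1)} {g : SLN (m + 1 + 1) F} (hg : IsBlk i g) : Commute (C.zi i) (C.A g) := by
  have M := (mono_mE (F := F) i).inv
  have h1 := isBlk_conj hg M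
  have e : (Equiv.swap i 0)⁻¹ i = 0 := by simp
  rw [e] at h1
  have h2 := C.blk _ h1
  have h3 := conj_comm (g := C.A (mE i)) h2
  have e2 : C.A (mE i) * C.A ((mE i)⁻¹ * g * ((mE i)⁻¹)⁻¹) * (C.A (mE i))⁻¹ = C.A g := by
    simp only [map_mul, map_inv, inv_inv]
    group
  rwa [e2] at h3

lemma zi_x_ne {k i j : Fin (m + 1 + 1)} (hi : i ≠ k) (hj : j ≠ k) (t : F) : Commute (C.zi k) (xE C.A i j t) := by
  by_cases h : i = j
  · subst h
    rw [xE_self]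
    exact Commute.one_right _
  · rw [xE_of _ h]
    exact C.zi_blk (tv_isBlk h hi hj t)

lemma zi_comm {i j : Fin (m + 1 + 1)} (h : i ≠ j) : Commute (C.zi i) (C.zi j) := by
  obtain ⟨μ, π, c, M, hc, h1, h2⟩ := exists_mono2 (K := F) (h01E (m := m)) h
  have h3 := conj_comm (g := C.A μ) (show Commute (C.zi 0) (C.zi 1) by rw [zi_zero]; exact C.z01)
  rwa [C.zi_conj_s M hc, C.zi_conj_s M hc, h1, h2] at h3

lemma zi_sq (i : Fin (m + 1 + 1)) : C.zi i * C.zi i = C.thi i C.cneg := by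
  rw [thi_apply, ← C.z_sq, zi]
  group

lemma zi_th (i : Fin (m + 1 + 1)) (c : Fˣ) : C.zi i * C.thi i c * (C.zi i)⁻¹ = (C.thi i c)⁻¹ := by
  have h := C.th_z c
  have e : C.zi i * C.thi i c * (C.zi i)⁻¹ = C.A (mE i) * (C.z * C.th c * C.z⁻¹) * (C.A (mE i))⁻¹ := by
    rw [thi_apply, zi]
    group
  rw [e, h, thi_apply]
  group

lemma zi_th' (i : Fin (m + 1 + 1)) (c : Fˣ) : C.thi i c * C.zi i = C.zi i * (C.thi i c)⁻¹ := by
  have h := C.zi_th i c⁻¹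
  rw [map_inv, inv_inv] at h
  calc C.thi i c * C.zi i = (C.zi i * (C.thi i c)⁻¹ * (C.zi i)⁻¹) * C.zi i := by rw [h]
    _ = _ := by group

/-- The symmetry of the positive short root elements. -/
lemma P_symm {i j : Fin (m + 1 + 1)} (h : i ≠ j) (t : F) :
    C.zi j * xE C.A i j t * (C.zi j)⁻¹ = C.zi i * xE C.A j i (σ t) * (C.zi i)⁻¹ := by
  obtain ⟨μ, π, c, M, hc, h1, h2⟩ := exists_mono2 (K := F) (h01E (m := m)) h
  have hc0 := hc 0
  have hc1 := hc 1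
  have n0 := M.ne 0
  have n1 := M.ne 1
  set ε : F := c 0 * (c 1)⁻¹ with hε
  have hσε : σ ε = ε := by
    have h3 : ∀ x : F, x ^ 2 = 1 → σ x = x := by
      intro x hx
      have h' : (x - 1) * (x + 1) = 0 := by linear_combination hx
      rcases mul_eq_zero.1 h' with h4 | h4
      · have : x = 1 := by linear_combination h4
        simp [this]
      · have : x = -1 := by linear_combination h4
        simp [this]
    have h4 : ε ^ 2 = 1 := by
      rw [hε, mul_pow, inv_pow, hc0, hc1]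
      simp
    exact h3 _ h4
  have hε2 : ε * ε = 1 := by
    rw [hε]
    field_simp
    linear_combination hc0 - hc1
  have e0 := C.s5 (ε * t)
  have e2 : C.A μ * (C.zi 1 * xE C.A 0 1 (ε * t) * (C.zi 1)⁻¹) * (C.A μ)⁻¹ =
      C.zi j * xE C.A i j t * (C.zi j)⁻¹ := by
    have : C.A μ * (C.zi 1 * xE C.A 0 1 (ε * t) * (C.zi 1)⁻¹) * (C.A μ)⁻¹ =
        (C.A μ * C.zi 1 * (C.A μ)⁻¹) * (C.A μ * xE C.A 0 1 (ε * t) * (C.A μ)⁻¹) * (C.A μ * C.zi 1 * (C.A μ)⁻¹)⁻¹ := by group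
    rw [this, C.zi_conj_s M hc, xE_mono _ M, h1, h2]
    congr 3
    calc c 0 * (ε * t) * (c 1)⁻¹ = (c 0 * (c 1)⁻¹) * ε * t := by ring
      _ = ε * ε * t := by rw [← hε]
      _ = t := by rw [hε2, one_mul]
  have e3 : C.A μ * (C.z * xE C.A 1 0 (σ (ε * t)) * C.z⁻¹) * (C.A μ)⁻¹ =
      C.zi i * xE C.A j i (σ t) * (C.zi i)⁻¹ := by
    have : C.A μ * (C.z * xE C.A 1 0 (σ (ε * t)) * C.z⁻¹) * (C.A μ)⁻¹ =
        (C.A μ * C.zi 0 * (C.A μ)⁻¹) * (C.A μ * xE C.A 1 0 (σ (ε * t)) * (C.A μ)⁻¹) * (C.A μ * C.zi 0 * (C.A μ)⁻¹)⁻¹ := by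
      rw [zi_zero]
      group
    rw [this, C.zi_conj_s M hc, xE_mono _ M, h1, h2, map_mul, hσε]
    congr 3
    have hε' : c 1 * (c 0)⁻¹ = ε := by
      rw [hε]
      field_simp
      linear_combination hc1 - hc0
    calc c 1 * (ε * σ t) * (c 0)⁻¹ = (c 1 * (c 0)⁻¹) * ε * σ t := by ring
      _ = ε * ε * σ t := by rw [hε']
      _ = σ t := by rw [hε2, one_mul]
  change C.zi 1 * xE C.A 0 1 (ε * t) * (C.zi 1)⁻¹ = _ at e0
  rw [← e2, ← e3]
  rw [e0]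

end ECore

end Cfsg.Agent.Lib.PrsSU
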