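import Mathlib
import Cfsg.Agent.Lib.PrsSUR

/-!
# Presentations of special unitary groups: the long torus in even dimension
-/

set_option autoImplicit false
set_option linter.unusedSectionVars false
set_option linter.unusedVariables false

namespace Cfsg.Agent.Lib.PrsSU

open Subgroup Sum Cfsg.Agent.Lib.SUWitt
open Cfsg.Agent.Lib.PrsSp (SLN Mono wW mono_wW dn mono_dn IsBlk sl_eq dn_mul dn_one dn_inv tv_inv' sl_comm sl_comm' exists_mono2 tv_isBlk)
open scoped Matrix commutatorElement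

namespace ECore

variable {Γ : Type*} [Group Γ] {F : Type*} [Field F] {σ : F →+* F} {m : ℕ} (C : ECore Γ σ m)

lemma aux_tt {Γ : Type*} [Group Γ] {t a : Γ} (h : Commute t a) : t⁻¹ * (t⁻¹ * t⁻¹ * a)⁻¹ = t * a⁻¹ := by
  have h1 : a⁻¹ * t = t * a⁻¹ := (h.inv_right).eq.symm
  calc t⁻¹ * (t⁻¹ * t⁻¹ * a)⁻¹ = t⁻¹ * (a⁻¹ * t) * t := by simp only [mul_inv_rev, inv_inv, mul_assoc]
    _ = t⁻¹ * (t * a⁻¹) * t := by rw [h1]
    _ = a⁻¹ * t := by group
    _ = _ := h1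

/-- The element exchanging the two positions. -/
noncomputable def rh : Γ := C.z⁻¹ * C.zi 1

lemma rh_x01 (t : F) : C.rh * xE C.A 0 1 t * C.rh⁻¹ = xE C.A 1 0 (σ t) := by
  have h := C.s5 t
  change C.zi 1 * xE C.A 0 1 t * (C.zi 1)⁻¹ = _ at h
  have e : C.rh * xE C.A 0 1 t * C.rh⁻¹ = C.z⁻¹ * (C.zi 1 * xE C.A 0 1 t * (C.zi 1)⁻¹) * C.z := by
    rw [rh]
    group
  rw [e, h]
  group

lemma rh_inv_x10 (s : F) : C.rh⁻¹ * xE C.A 1 0 s * C.rh = xE C.A 0 1 (σ s) := by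
  have h := C.rh_x01 (σ s)
  rw [C.hI.invol] at h
  rw [← h]
  group

lemma rh_sq : C.rh * C.rh = (C.th C.cneg)⁻¹ * C.thi 1 C.cneg := by
  have hc := C.zi_comm (h01E (m := m))
  rw [zi_zero] at hc
  have e : C.rh * C.rh = C.z⁻¹ * (C.zi 1 * C.z⁻¹) * C.zi 1 := by
    rw [rh]
    group
  have hc' : C.zi 1 * C.z⁻¹ = C.z⁻¹ * C.zi 1 := (hc.inv_left).eq.symm
  rw [e, hc', ← C.zi_sq, ← C.z_sq]
  group

lemma rh_sq_x (t : F) : (C.rh * C.rh) * xE C.A 0 1 t * (C.rh * C.rh)⁻¹ = xE C.A 0 1 t := by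
  rw [rh_sq, conj_conj', C.thi_x, ← map_inv, C.th_x]
  congr 1
  have h0 : (0 : Fin (m + 1 + 1)) ≠ 1 := h01E
  rw [eD_ne h0, eD_self, eD_self, eD_ne h0.symm, nU_inv]
  have hc := C.hcneg
  simp only [Units.val_one, one_mul, inv_one, mul_one, Units.val_inv_eq_inv_val, inv_inv, hc]
  field_simp

lemma rh_x10 (s : F) : C.rh * xE C.A 1 0 s * C.rh⁻¹ = xE C.A 0 1 (σ s) := by
  have h := C.rh_inv_x10 s
  have h2 := C.rh_sq_x (σ s)
  rw [← h2, ← h]
  group

lemma A_hU_word (c : Fˣ) : C.A (hU c) = xE C.A 0 1 c * xE C.A 1 0 (-(c : F)⁻¹) * xE C.A 0 1 c * xE C.A 0 1 (-1) * xE C.A 1 0 1 * xE C.A 0 1 (-1) := by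
  rw [hU_apply, dn_word]
  simp only [map_mul, xE_of _ (h01E (m := m)), xE_of _ (h01E (m := m)).symm]

lemma rh_hU (c : Fˣ) : C.rh * C.A (hU c) * C.rh⁻¹ = C.A (hU (Units.map (σ : F →* F) c)⁻¹) := by
  have hs : ((Units.map (σ : F →* F) c : Fˣ) : F) = σ c := rfl
  have e1 : (hU (Units.map (σ : F →* F) c)⁻¹ : SLN (m + 1 + 1) F) = dn (h01E (m := m)).symm (σ c) (by rw [← hs]; exact Units.ne_zero _) := by
    rw [dn_swap, hU_apply]
    apply sl_eq
    change Matrix.diagonal _ = Matrix.diagonal _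
    congr 1
    funext k
    simp
  rw [e1, dn_word, A_hU_word, conj_prod6]
  simp only [rh_x01, rh_x10]
  simp only [map_mul, map_neg, map_inv₀, map_one, xE_of _ (h01E (m := m)), xE_of _ (h01E (m := m)).symm]

lemma z_hU (b : Fˣ) : C.z * C.A (hU b) * C.z⁻¹ = (C.th b)⁻¹ * C.A (hU b) := swap_conj (C.hz b)

lemma z1_hU (c : Fˣ) : C.zi 1 * C.A (hU c) * (C.zi 1)⁻¹ = C.thi 1 c * C.A (hU c) := by
  have h := C.zi_conj (mono_hU (F := F) (m := m) c) 1
  have e : Units.mk0 (dC (F := F) m c 1) ((mono_hU (m := m) c).ne 1) = c⁻¹ := Units.ext (by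
    simp [dC_one])
  rw [e, map_inv] at h
  simp only [Equiv.Perm.coe_one, id] at h
  have := swap_conj h
  rwa [inv_inv] at this

lemma th_map (c : Fˣ) : C.th (Units.map (σ : F →* F) c) = C.th c := by
  apply C.th_congr
  ext
  simp only [nU_coe, Units.coe_map, MonoidHom.coe_coe, C.hI.invol]
  ring

/-- The relation between the long torus elements. -/
lemma th1_form (c : Fˣ) : C.thi 1 c = C.th c * C.A (hU (nU σ c)⁻¹) := by
  have e1 : C.zi 1 * C.A (hU c) * (C.zi 1)⁻¹ = C.z * (C.rh * C.A (hU c) * C.rh⁻¹) * C.z⁻¹ := by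
    rw [rh]
    group
  rw [rh_hU, z_hU, z1_hU, map_inv, inv_inv, th_map] at e1
  have e2 : (nU σ c)⁻¹ = (Units.map (σ : F →* F) c)⁻¹ * c⁻¹ := by
    ext
    simp [nU_coe]
  rw [e2, map_mul, map_mul, map_inv (hU (m := m)) c, map_inv C.A, ← mul_assoc, ← e1]
  group

lemma th_hU (b c : Fˣ) : Commute (C.th b) (C.A (hU c)) := C.th_fix (mono_hU c) rfl b

lemma th_nU (c : Fˣ) : C.th (nU σ c) = C.th c * C.th c := by
  rw [← map_mul]
  apply C.th_congr
  ext
  simp only [nU_coe, nU_mul, Units.val_mul, map_mul, C.hI.invol]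
  ring

lemma th_comm (b c : Fˣ) : Commute (C.th b) (C.th c) := by
  show C.th b * C.th c = C.th c * C.th b
  rw [← map_mul, ← map_mul, mul_comm]

lemma th_th1 (b c : Fˣ) : Commute (C.th b) (C.thi 1 c) := by
  rw [th1_form]
  exact (C.th_comm b c).mul_right (C.th_hU b _)

lemma th1_hU (b c : Fˣ) : Commute (C.thi 1 b) (C.A (hU c)) := by
  rw [th1_form]
  refine (C.th_hU b c).mul_left ?_
  show C.A _ * C.A _ = C.A _ * C.A _
  rw [← map_mul, ← map_mul, ← map_mul, ← map_mul, mul_comm]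

/-- The first long Weyl element commutes with the second long torus. -/
lemma z_th1 (c : Fˣ) : Commute C.z (C.thi 1 c) := by
  have h1 : C.z * C.thi 1 c * C.z⁻¹ = C.thi 1 c := by
    rw [th1_form, conj_mul_conj, C.th_z, z_hU, map_inv, th_nU]
    rw [inv_inv]
    group
  exact mul_inv_eq_iff_eq_mul.1 h1

lemma z1_th (c : Fˣ) : Commute (C.zi 1) (C.th c) := by
  have h0 : C.th c = C.thi 1 c * (C.A (hU (nU σ c)⁻¹))⁻¹ := by
    rw [th1_form]
    group
  have e1 : C.thi 1 (nU σ c)⁻¹ = (C.thi 1 c)⁻¹ * (C.thi 1 c)⁻¹ := by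
    have : C.thi 1 (nU σ c) = C.thi 1 c * C.thi 1 c := by
      rw [← map_mul]
      apply C.thi_congr
      ext
      simp only [nU_coe, nU_mul, Units.val_mul, map_mul, C.hI.invol]
      ring
    rw [map_inv, this]
    group
  have h1 : C.zi 1 * C.th c * (C.zi 1)⁻¹ = C.th c := by
    conv_lhs => rw [h0]
    rw [conj_mul_conj, conj_inv', z1_hU, C.zi_th, e1, h0]
    exact aux_tt (C.th1_hU c (nU σ c)⁻¹)
  exact mul_inv_eq_iff_eq_mul.1 h1

/-- Long Weyl elements commute with the long torus at other positions. -/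
lemma zi_thi_ne {i j : Fin (m + 1 + 1)} (h : i ≠ j) (c : Fˣ) : Commute (C.zi i) (C.thi j c) := by
  obtain ⟨μ, π, d, M, hc, h1, h2⟩ := exists_mono2 (K := F) (h01E (m := m)) h
  have h3 := conj_comm (g := C.A μ) (show Commute (C.zi 0) (C.thi 1 c) by rw [zi_zero]; exact C.z_th1 c)
  rwa [C.zi_conj_s M hc, C.thi_conj M, h1, h2] at h3

lemma thi_comm (i j : Fin (m + 1 + 1)) (b c : Fˣ) : Commute (C.thi i b) (C.thi j c) := by
  by_cases h : i = j
  · subst h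
    show C.thi i b * C.thi i c = C.thi i c * C.thi i b
    rw [← map_mul, ← map_mul, mul_comm]
  · obtain ⟨μ, π, d, M, hc, h1, h2⟩ := exists_mono2 (K := F) (h01E (m := m)) h
    have h3 := conj_comm (g := C.A μ) (show Commute (C.thi 0 b) (C.thi 1 c) by rw [thi_zero]; exact C.th_th1 b c)
    rwa [C.thi_conj M, C.thi_conj M, h1, h2] at h3

/-- The short root element `E_{01}`. -/
noncomputable def al (t : F) : Γ := xE C.A 0 1 t

/-- Its conjugate. -/
noncomputable def be (u : F) : Γ := C.zi 1 * C.al u * (C.zi 1)⁻¹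

/-- The commutator. -/
noncomputable def cc (t u : F) : Γ := ⁅C.al t, C.be u⁆

/-- The long root elements. -/
noncomputable def ff (u : F) : Γ := C.cc 1 u

lemma al_add (s t : F) : C.al s * C.al t = C.al (s + t) := xE_add _ _ _ _ _

lemma al_zero : C.al 0 = 1 := xE_zero _ _ _

lemma al_inv (t : F) : (C.al t)⁻¹ = C.al (-t) := xE_inv _ _ _ _

lemma be_add (s t : F) : C.be s * C.be t = C.be (s + t) := by
  simp only [be]
  rw [← al_add]
  group

lemma be_zero : C.be 0 = 1 := by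
  simp only [be]
  rw [al_zero]
  group

lemma be_inv (t : F) : (C.be t)⁻¹ = C.be (-t) := by
  simp only [be]
  rw [← al_inv]
  group

lemma al_comm (s t : F) : Commute (C.al s) (C.al t) := by
  show C.al s * C.al t = C.al t * C.al s
  rw [al_add, al_add, add_comm]

lemma be_comm (s t : F) : Commute (C.be s) (C.be t) := by
  show C.be s * C.be t = C.be t * C.be s
  rw [be_add, be_add, add_comm]

lemma cc_zero_left (u : F) : C.cc 0 u = 1 := by
  simp only [cc]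
  rw [al_zero, commutatorElement_one_left]

lemma cc_zero_right (t : F) : C.cc t 0 = 1 := by
  simp only [cc]
  rw [be_zero, commutatorElement_one_right]

lemma hU_al (c : Fˣ) (t : F) : C.A (hU c) * C.al t * (C.A (hU c))⁻¹ = C.al (c * c * t) := by
  simp only [al]
  rw [xE_mono _ (mono_hU c), dC_zero, dC_one, inv_inv]
  simp only [Equiv.Perm.coe_one, id]
  congr 1
  ring

lemma hU_be (c : Fˣ) (u : F) : C.A (hU c) * C.be u * (C.A (hU c))⁻¹ = C.be (c * (σ c)⁻¹ * u) := by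
  have h := C.zi_conj (mono_hU (F := F) (m := m) c) 1
  simp only [Equiv.Perm.coe_one, id] at h
  have e : Units.mk0 (dC (F := F) m c 1) ((mono_hU (m := m) c).ne 1) = c⁻¹ := Units.ext (by
    simp [dC_one])
  rw [e] at h
  have h2 := C.zi_th' 1 c⁻¹
  have e1 : C.A (hU c) * C.be u * (C.A (hU c))⁻¹ =
      (C.A (hU c) * C.zi 1 * (C.A (hU c))⁻¹) * (C.A (hU c) * C.al u * (C.A (hU c))⁻¹) * (C.A (hU c) * C.zi 1 * (C.A (hU c))⁻¹)⁻¹ := by
    simp only [be]
    group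
  rw [e1, h, hU_al, h2]
  have e2 : C.zi 1 * ((C.thi 1) c⁻¹)⁻¹ * C.al (c * c * u) * (C.zi 1 * ((C.thi 1) c⁻¹)⁻¹)⁻¹ =
      C.zi 1 * (((C.thi 1) c⁻¹)⁻¹ * C.al (c * c * u) * (((C.thi 1) c⁻¹)⁻¹)⁻¹) * (C.zi 1)⁻¹ := by group
  rw [e2, ← map_inv, al, C.thi_x, inv_inv, eD_ne h01E, eD_self]
  simp only [be, al]
  congr 3
  have h0 : (c : F) ≠ 0 := c.ne_zero
  have h1 : σ (c : F) ≠ 0 := by
    intro h
    have := congrArg σ h
    rw [C.hI.invol, map_zero] at this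
    exact h0 this
  simp only [Units.val_one, one_mul, nU_coe, Units.val_inv_eq_inv_val]
  field_simp

lemma th_al (b : Fˣ) (t : F) : C.th b * C.al t * (C.th b)⁻¹ = C.al (nU σ b * t) := by
  simp only [al]
  rw [C.th_x, eD_self, eD_ne (h01E (m := m)).symm]
  simp

lemma th_be (b : Fˣ) (u : F) : C.th b * C.be u * (C.th b)⁻¹ = C.be (nU σ b * u) := by
  have h := (C.z1_th b).symm
  have e1 : C.th b * C.be u * (C.th b)⁻¹ = (C.th b * C.zi 1 * (C.th b)⁻¹) * (C.th b * C.al u * (C.th b)⁻¹) * (C.th b * C.zi 1 * (C.th b)⁻¹)⁻¹ := by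
    simp only [be]
    group
  rw [e1, Commute.conj_eq h, th_al]
  rfl

lemma th1_al (b : Fˣ) (t : F) : C.thi 1 b * C.al t * (C.thi 1 b)⁻¹ = C.al (((nU σ b)⁻¹ : Fˣ) * t) := by
  simp only [al]
  rw [C.thi_x, eD_self, eD_ne (h01E (m := m))]
  simp [mul_comm]

lemma th1_be (b : Fˣ) (u : F) : C.thi 1 b * C.be u * (C.thi 1 b)⁻¹ = C.be (nU σ b * u) := by
  have h2 := C.zi_th' 1 b
  have e1 : C.thi 1 b * C.be u * (C.thi 1 b)⁻¹ = (C.thi 1 b * C.zi 1) * C.al u * (C.thi 1 b * C.zi 1)⁻¹ := by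
    simp only [be]
    group
  rw [e1, h2]
  have e2 : C.zi 1 * (C.thi 1 b)⁻¹ * C.al u * (C.zi 1 * (C.thi 1 b)⁻¹)⁻¹ =
      C.zi 1 * ((C.thi 1 b)⁻¹ * C.al u * ((C.thi 1 b)⁻¹)⁻¹) * (C.zi 1)⁻¹ := by group
  rw [e2, ← map_inv, th1_al, nU_inv, inv_inv]
  rfl

lemma hU_cc (c : Fˣ) (t u : F) : C.A (hU c) * C.cc t u * (C.A (hU c))⁻¹ = C.cc (c * c * t) (c * (σ c)⁻¹ * u) := by
  simp only [cc]
  rw [conj_cm, hU_al, hU_be]

lemma th_cc (b : Fˣ) (t u : F) : C.th b * C.cc t u * (C.th b)⁻¹ = C.cc (nU σ b * t) (nU σ b * u) := by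
  simp only [cc]
  rw [conj_cm, th_al, th_be]

lemma th1_cc (b : Fˣ) (t u : F) : C.thi 1 b * C.cc t u * (C.thi 1 b)⁻¹ = C.cc (((nU σ b)⁻¹ : Fˣ) * t) (nU σ b * u) := by
  simp only [cc]
  rw [conj_cm, th1_al, th1_be]

lemma z1_be (u : F) : C.zi 1 * C.be u * (C.zi 1)⁻¹ = C.al (-u) := by
  have e1 : C.zi 1 * C.be u * (C.zi 1)⁻¹ = (C.zi 1 * C.zi 1) * C.al u * (C.zi 1 * C.zi 1)⁻¹ := by
    simp only [be]
    group
  rw [e1, zi_sq, th1_al]
  congr 1
  rw [Units.val_inv_eq_inv_val, C.hcneg]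
  simp

/-- Commutators with a central commutator. -/
lemma cc_add_right {t u v : F} (h : Commute (C.be u) (C.cc t v)) : C.cc t (u + v) = C.cc t u * C.cc t v := by
  simp only [cc] at h ⊢
  rw [← be_add, cm_mul_right, Commute.conj_eq h]

lemma cc_add_left {s t u : F} (h : Commute (C.al s) (C.cc t u)) : C.cc (s + t) u = C.cc t u * C.cc s u := by
  simp only [cc] at h ⊢
  rw [← al_add, cm_mul_left, Commute.conj_eq h]

end ECore

end Cfsg.Agent.Lib.PrsSU
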