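import Mathlib
import Cfsg.Agent.Lib.PrsSUS

/-!
# Presentations of special unitary groups: the even dimensional root data
-/

set_option autoImplicit false
set_option linter.unusedSectionVars false
set_option linter.unusedVariables false

namespace Cfsg.Agent.Lib.PrsSU

open Subgroup Sum Cfsg.Agent.Lib.SUWitt
open Cfsg.Agent.Lib.PrsSp (SLN Mono wW mono_wW dn mono_dn IsBlk sl_eq dn_mul dn_one dn_inv tv_inv' sl_comm sl_comm' exists_mono2 tv_isBlk)
open scoped Matrix commutatorElement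

/-- The even dimensional configuration with the long root groups. -/
structure ECfg (Γ : Type*) [Group Γ] {F : Type*} [Field F] (σ : F →+* F) (m : ℕ) extends ECore Γ σ m where
  cform : ∀ t u, toECore.cc t u = toECore.ff (σ t * u)
  ff_add : ∀ u v, toECore.ff (u + v) = toECore.ff u * toECore.ff v
  ff_tr : ∀ u, σ u = -u → toECore.ff u = 1
  c_al : ∀ u t, Commute (toECore.ff u) (toECore.al t)
  c_be : ∀ u t, Commute (toECore.ff u) (toECore.be t)
  blk_ff : ∀ g, IsBlk 0 g → ∀ u, Commute (A g) (toECore.ff u)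
  hSq : ∀ (S : AddSubgroup F), (1 : F) ∈ S → (∀ b : F, σ b = b → b ≠ 0 → ∀ t ∈ S, b * b * t ∈ S) → ∀ κ : F, σ κ = κ → κ ∈ S
  ξ : F
  hξ : ξ + σ ξ = 1
  ξ' : F
  hξ' : σ ξ' ≠ ξ'
  r10 : Commute (toECore.ff ξ) (A (mE 1) * toECore.ff ξ * (A (mE 1))⁻¹)
  ri1 : z * toECore.ff ξ = (toECore.ff ξ)⁻¹ * (z * z * z) * (toECore.ff ξ)⁻¹ * z
  r8a : ∃ v s', ⁅toECore.ff ξ, xE A 1 0 1⁆ = (A (mE 1) * toECore.ff v * (A (mE 1))⁻¹) * toECore.be s'
  r8b : ∃ v s', ⁅toECore.ff ξ, xE A 1 0 ξ'⁆ = (A (mE 1) * toECore.ff v * (A (mE 1))⁻¹) * toECore.be s'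

namespace ECfg

variable {Γ : Type*} [Group Γ] {F : Type*} [Field F] {σ : F →+* F} {m : ℕ} (C : ECfg Γ σ m)

lemma σσ (C : ECfg Γ σ m) (x : F) : σ (σ x) = x := C.hI.invol x

lemma σ_ne (C : ECfg Γ σ m) {x : F} (h : x ≠ 0) : σ x ≠ 0 := by
  intro e
  apply h
  have := congrArg σ e
  rwa [C.σσ, map_zero] at this

lemma ff_zero : C.ff 0 = 1 := C.cc_zero_right 1

lemma ff_neg (u : F) : C.ff (-u) = (C.ff u)⁻¹ := by
  have h := C.ff_add u (-u)
  rw [add_neg_cancel, ff_zero] at h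
  exact (eq_inv_of_mul_eq_one_right h.symm)

lemma ff_sub (u v : F) : C.ff (u - v) = C.ff u * (C.ff v)⁻¹ := by
  rw [sub_eq_add_neg, C.ff_add, ff_neg]

lemma ff_comm (u v : F) : Commute (C.ff u) (C.ff v) := by
  show C.ff u * C.ff v = C.ff v * C.ff u
  rw [← C.ff_add, ← C.ff_add, add_comm]

lemma ff_congr {u v : F} (h : u + σ u = v + σ v) : C.ff u = C.ff v := by
  have h1 : C.ff (u - v) = 1 := C.ff_tr _ (by
    simp only [map_sub]
    linear_combination h)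
  rw [ff_sub] at h1
  exact mul_inv_eq_one.1 h1

lemma hU_ff (c : Fˣ) (u : F) : C.A (hU c) * C.ff u * (C.A (hU c))⁻¹ = C.ff (nU σ c * u) := by
  simp only [ECore.ff]
  rw [ECore.hU_cc, C.cform]
  simp only [ECore.ff]
  congr 1
  have h0 : (c : F) ≠ 0 := c.ne_zero
  have h1 := C.σ_ne h0
  simp only [map_mul, map_one, map_inv₀, nU_coe, C.σσ]
  field_simp

lemma th_ff (b : Fˣ) (u : F) : C.th b * C.ff u * (C.th b)⁻¹ = C.ff (nU σ b * nU σ b * u) := by
  simp only [ECore.ff]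
  rw [ECore.th_cc, C.cform]
  simp only [ECore.ff]
  congr 1
  simp only [map_mul, map_one, nU_coe, C.σσ]
  ring

lemma th1_ff (b : Fˣ) (u : F) : C.thi 1 b * C.ff u * (C.thi 1 b)⁻¹ = C.ff u := by
  simp only [ECore.ff]
  rw [ECore.th1_cc, C.cform]
  simp only [ECore.ff]
  congr 1
  have h0 : (b : F) ≠ 0 := b.ne_zero
  have h1 := C.σ_ne h0
  simp only [map_mul, map_one, map_inv₀, nU_coe, C.σσ, Units.val_inv_eq_inv_val]
  field_simp

lemma z1_ff (u : F) : Commute (C.zi 1) (C.ff u) := by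
  have h1 : C.zi 1 * C.ff u * (C.zi 1)⁻¹ = C.ff u := by
    have e : C.zi 1 * C.al 1 * (C.zi 1)⁻¹ = C.be 1 := rfl
    change C.zi 1 * ⁅C.al 1, C.be u⁆ * (C.zi 1)⁻¹ = C.ff u
    rw [conj_cm, e, ECore.z1_be, ← cm_inv]
    change (C.cc (-u) 1)⁻¹ = C.ff u
    rw [C.cform (-u) 1, ← C.ff_neg]
    apply C.ff_congr
    simp only [map_neg, map_mul, map_one, C.σσ]
    ring
  exact mul_inv_eq_iff_eq_mul.1 h1

/-- Monomial elements fixing the first index. -/
lemma mono_ff {μ : SLN (m + 1 + 1) F} {π : Equiv.Perm (Fin (m + 1 + 1))} {c : Fin (m + 1 + 1) → F} (M : Mono μ π c) (h0 : π 0 = 0) (u : F) :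
    C.A μ * C.ff u * (C.A μ)⁻¹ = C.ff (c 0 * σ (c 0) * u) := by
  let u₀ : Fˣ := Units.mk0 (c 0) (M.ne 0)
  have hb := ((mono_hU (m := m) u₀).inv.mul M)
  have hblk : IsBlk 0 ((hU u₀)⁻¹ * μ) := by
    refine hb.isBlk (by simp [h0]) ?_
    simp only [h0, inv_one, Equiv.Perm.coe_one, id]
    rw [dC_zero]
    exact inv_mul_cancel₀ (M.ne 0)
  have h1 := C.blk_ff _ hblk u
  have e : μ = hU u₀ * ((hU u₀)⁻¹ * μ) := by group
  calc C.A μ * C.ff u * (C.A μ)⁻¹ = C.A (hU u₀) * (C.A ((hU u₀)⁻¹ * μ) * C.ff u * (C.A ((hU u₀)⁻¹ * μ))⁻¹) * (C.A (hU u₀))⁻¹ := by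
        conv_lhs => rw [e]
        rw [map_mul]
        group
    _ = C.A (hU u₀) * C.ff u * (C.A (hU u₀))⁻¹ := by rw [Commute.conj_eq h1]
    _ = _ := C.hU_ff u₀ u

lemma sq_norm {x : F} (h : x ^ 2 = 1) : x * σ x = 1 := by
  have h' : (x - 1) * (x + 1) = 0 := by linear_combination h
  rcases mul_eq_zero.1 h' with h1 | h1
  · have : x = 1 := by linear_combination h1
    simp [this]
  · have : x = -1 := by linear_combination h1
    simp [this]

lemma zi_ff {i : Fin (m + 1 + 1)} (hi : i ≠ 0) (u : F) : Commute (C.zi i) (C.ff u) := by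
  obtain ⟨μ, π, d, M, hc, h1, h2⟩ := exists_mono2 (K := F) (h01E (m := m)) (a := 0) (b := i) (Ne.symm hi)
  have h3 := conj_comm (g := C.A μ) (C.z1_ff u)
  rw [C.zi_conj_s M hc, C.mono_ff M h1, h2, sq_norm (hc 0), one_mul] at h3
  exact h3

lemma thi_ff_ne {k : Fin (m + 1 + 1)} (hk : k ≠ 0) (c : Fˣ) (u : F) : C.thi k c * C.ff u * (C.thi k c)⁻¹ = C.ff u := by
  obtain ⟨μ, π, d, M, hc, h1, h2⟩ := exists_mono2 (K := F) (h01E (m := m)) (a := 0) (b := k) (Ne.symm hk)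
  have h3 := congrArg (fun x => C.A μ * x * (C.A μ)⁻¹) (C.th1_ff c u)
  beta_reduce at h3
  have e : C.A μ * (C.thi 1 c * C.ff u * (C.thi 1 c)⁻¹) * (C.A μ)⁻¹ =
      (C.A μ * C.thi 1 c * (C.A μ)⁻¹) * (C.A μ * C.ff u * (C.A μ)⁻¹) * (C.A μ * C.thi 1 c * (C.A μ)⁻¹)⁻¹ := by group
  rw [e, C.thi_conj M, C.mono_ff M h1, h2, sq_norm (hc 0), one_mul] at h3
  exact h3

/-- The long root elements at all positive positions. -/
noncomputable def fi (i : Fin (m + 1 + 1)) (u : F) : Γ := C.A (mE i) * C.ff u * (C.A (mE i))⁻¹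

lemma fi_zero (u : F) : C.fi 0 u = C.ff u := by
  simp [fi, mE_zero]

lemma fi_add (i : Fin (m + 1 + 1)) (u v : F) : C.fi i (u + v) = C.fi i u * C.fi i v := by
  simp only [fi]
  rw [C.ff_add]
  group

lemma fi_neg (i : Fin (m + 1 + 1)) (u : F) : C.fi i (-u) = (C.fi i u)⁻¹ := by
  simp only [fi]
  rw [C.ff_neg]
  group

lemma fi_zero' (i : Fin (m + 1 + 1)) : C.fi i 0 = 1 := by
  simp only [fi]
  rw [C.ff_zero]
  group

/-- The positive long root groups. -/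
noncomputable def Mp (i : Fin (m + 1 + 1)) : Subgroup Γ where
  carrier := {x | ∃ u, x = C.fi i u}
  mul_mem' := by
    rintro _ _ ⟨s, rfl⟩ ⟨t, rfl⟩
    exact ⟨s + t, (C.fi_add i s t).symm⟩
  one_mem' := ⟨0, (C.fi_zero' i).symm⟩
  inv_mem' := by
    rintro _ ⟨s, rfl⟩
    exact ⟨-s, (C.fi_neg i s).symm⟩

lemma mem_Mp {i : Fin (m + 1 + 1)} {x : Γ} : x ∈ C.Mp i ↔ ∃ u, x = C.fi i u := Iff.rfl

lemma fi_mem (i : Fin (m + 1 + 1)) (u : F) : C.fi i u ∈ C.Mp i := ⟨u, rfl⟩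

lemma mono_fi {μ : SLN (m + 1 + 1) F} {π : Equiv.Perm (Fin (m + 1 + 1))} {c : Fin (m + 1 + 1) → F} (M : Mono μ π c) (j : Fin (m + 1 + 1)) (u : F) :
    C.A μ * C.fi j u * (C.A μ)⁻¹ = C.fi (π j) (c j * σ (c j) * u) := by
  obtain ⟨π', c', M', h0, hc⟩ := ECore.red_mono M j
  have h1 := C.mono_ff M' h0 u
  rw [hc] at h1
  simp only [fi]
  have e2 : C.A μ * C.A (mE j) = C.A (mE (π j)) * C.A ((mE (π j))⁻¹ * μ * mE j) := by
    rw [← map_mul, ← map_mul]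
    congr 1
    group
  calc C.A μ * (C.A (mE j) * C.ff u * (C.A (mE j))⁻¹) * (C.A μ)⁻¹
      = (C.A μ * C.A (mE j)) * C.ff u * (C.A μ * C.A (mE j))⁻¹ := by group
    _ = C.A (mE (π j)) * (C.A ((mE (π j))⁻¹ * μ * mE j) * C.ff u * (C.A ((mE (π j))⁻¹ * μ * mE j))⁻¹) * (C.A (mE (π j)))⁻¹ := by
        rw [e2]
        group
    _ = _ := by rw [h1]

lemma mono_Mp {μ : SLN (m + 1 + 1) F} {π : Equiv.Perm (Fin (m + 1 + 1))} {c : Fin (m + 1 + 1) → F} (M : Mono μ π c) {j : Fin (m + 1 + 1)} {y : Γ} (hy : y ∈ C.Mp j) :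
    C.A μ * y * (C.A μ)⁻¹ ∈ C.Mp (π j) := by
  obtain ⟨u, rfl⟩ := hy
  rw [C.mono_fi M]
  exact C.fi_mem _ _

/-- The conjugation by the inverse of the element moving the first index. -/
lemma mE_inv_zi (j i : Fin (m + 1 + 1)) : C.A (mE j) * C.zi (Equiv.swap j 0 i) * (C.A (mE j))⁻¹ = C.zi i := by
  have h := C.zi_conj_s (mono_mE (F := F) j) (cE_sq j) (Equiv.swap j 0 i)
  rwa [Equiv.swap_apply_self] at h

lemma mE_inv_thi (j k : Fin (m + 1 + 1)) (c : Fˣ) : C.A (mE j) * C.thi (Equiv.swap j 0 k) c * (C.A (mE j))⁻¹ = C.thi k c := by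
  have h := C.thi_conj (mono_mE (F := F) j) (Equiv.swap j 0 k) c
  rwa [Equiv.swap_apply_self] at h

lemma swap_ne_zero {j i : Fin (m + 1 + 1)} (h : i ≠ j) : Equiv.swap j 0 i ≠ 0 := by
  intro e
  apply h
  have := congrArg (Equiv.swap j 0) e
  rwa [Equiv.swap_apply_self, Equiv.swap_apply_right] at this

lemma zi_fi {i j : Fin (m + 1 + 1)} (h : i ≠ j) (u : F) : Commute (C.zi i) (C.fi j u) := by
  have h1 := conj_comm (g := C.A (mE j)) (C.zi_ff (swap_ne_zero h) u)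
  rwa [mE_inv_zi] at h1

lemma zi_Mp {i j : Fin (m + 1 + 1)} (h : i ≠ j) {y : Γ} (hy : y ∈ C.Mp j) : Commute (C.zi i) y := by
  obtain ⟨u, rfl⟩ := hy
  exact C.zi_fi h u

lemma thi_Mp (k j : Fin (m + 1 + 1)) (c : Fˣ) {y : Γ} (hy : y ∈ C.Mp j) : C.thi k c * y * (C.thi k c)⁻¹ ∈ C.Mp j := by
  obtain ⟨u, rfl⟩ := hy
  have e : C.thi k c * C.fi j u * (C.thi k c)⁻¹ =
      C.A (mE j) * (C.thi (Equiv.swap j 0 k) c * C.ff u * (C.thi (Equiv.swap j 0 k) c)⁻¹) * (C.A (mE j))⁻¹ := by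
    rw [← C.mE_inv_thi j k c]
    simp only [fi]
    group
  rw [e]
  by_cases h : Equiv.swap j 0 k = 0
  · rw [h, ECore.thi_zero, th_ff]
    exact ⟨_, rfl⟩
  · rw [C.thi_ff_ne h]
    exact ⟨_, rfl⟩

/-- The second long root element on the short root elements. -/
lemma P_be (t : F) : C.A (mE 1) * C.be t * (C.A (mE 1))⁻¹ = C.be (-σ t) := by
  have M := mono_mE (F := F) (1 : Fin (m + 1 + 1))
  have h1 : Equiv.swap (1 : Fin (m + 1 + 1)) 0 1 = 0 := Equiv.swap_apply_left _ _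
  have h2 : Equiv.swap (1 : Fin (m + 1 + 1)) 0 0 = 1 := Equiv.swap_apply_right _ _
  have e1 : C.A (mE 1) * C.be t * (C.A (mE 1))⁻¹ =
      (C.A (mE 1) * C.zi 1 * (C.A (mE 1))⁻¹) * (C.A (mE 1) * C.al t * (C.A (mE 1))⁻¹) * (C.A (mE 1) * C.zi 1 * (C.A (mE 1))⁻¹)⁻¹ := by
    simp only [ECore.be]
    group
  have e2 : cE F (1 : Fin (m + 1 + 1)) 0 * t * (cE F (1 : Fin (m + 1 + 1)) 1)⁻¹ = -t := by
    have h3 : cE F (1 : Fin (m + 1 + 1)) 1 = -1 := by
      simp [cE]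
    rw [cE_zero, h3]
    simp
  rw [e1, C.zi_conj_s M (cE_sq 1), h1, ECore.zi_zero]
  simp only [ECore.al]
  rw [xE_mono _ M, h1, h2, e2]
  have h4 := C.s5 (-σ t)
  change C.zi 1 * C.al (-σ t) * (C.zi 1)⁻¹ = _ at h4
  change _ = C.zi 1 * C.al (-σ t) * (C.zi 1)⁻¹
  rw [h4]
  simp only [map_neg, C.σσ, neg_neg]

lemma P_al (t : F) : C.A (mE 1) * C.al t * (C.A (mE 1))⁻¹ = xE C.A 1 0 (-t) := by
  have M := mono_mE (F := F) (1 : Fin (m + 1 + 1))
  have h1 : Equiv.swap (1 : Fin (m + 1 + 1)) 0 1 = 0 := Equiv.swap_apply_left _ _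
  have h2 : Equiv.swap (1 : Fin (m + 1 + 1)) 0 0 = 1 := Equiv.swap_apply_right _ _
  have e2 : cE F (1 : Fin (m + 1 + 1)) 0 * t * (cE F (1 : Fin (m + 1 + 1)) 1)⁻¹ = -t := by
    have h3 : cE F (1 : Fin (m + 1 + 1)) 1 = -1 := by
      simp [cE]
    rw [cE_zero, h3]
    simp
  simp only [ECore.al]
  rw [xE_mono _ M, h1, h2, e2]

lemma fi1_be (v t : F) : Commute (C.fi 1 v) (C.be t) := by
  have h := conj_comm (g := C.A (mE 1)) (C.c_be v (-σ t))
  rw [P_be] at h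
  simp only [map_neg, C.σσ, neg_neg] at h
  exact h

lemma x10_fi1 (s v : F) : Commute (xE C.A 1 0 s) (C.fi 1 v) := by
  have h := conj_comm (g := C.A (mE 1)) (C.c_al v (-s))
  rw [P_al, neg_neg] at h
  exact h.symm

/-- The commutator of the two short root elements at the second index. -/
lemma cm_x10_be (s u : F) : ⁅xE C.A 1 0 s, C.be u⁆ = C.fi 1 (σ s * σ u) := by
  have h := conj_cm (C.A (mE 1)) (C.al (-s)) (C.be (-σ u))
  rw [P_al, P_be] at h
  simp only [map_neg, C.σσ, neg_neg] at h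
  rw [← h]
  change C.A (mE 1) * C.cc (-s) (-σ u) * (C.A (mE 1))⁻¹ = _
  rw [C.cform]
  simp only [map_neg, fi]
  congr 3
  ring

lemma th_fi1 (b : Fˣ) (v : F) : C.th b * C.fi 1 v * (C.th b)⁻¹ = C.fi 1 v := by
  have h : C.A (mE 1) * C.thi 1 b * (C.A (mE 1))⁻¹ = C.th b := by
    have := C.mE_inv_thi 1 0 b
    rwa [Equiv.swap_apply_right, ECore.thi_zero] at this
  have e : C.th b * C.fi 1 v * (C.th b)⁻¹ = C.A (mE 1) * (C.thi 1 b * C.ff v * (C.thi 1 b)⁻¹) * (C.A (mE 1))⁻¹ := by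
    rw [← h]
    simp only [fi]
    group
  rw [e, C.th1_ff]
  rfl

lemma th1_fi1 (b : Fˣ) (v : F) : C.thi 1 b * C.fi 1 v * (C.thi 1 b)⁻¹ = C.fi 1 (nU σ b * nU σ b * v) := by
  have e : C.thi 1 b * C.fi 1 v * (C.thi 1 b)⁻¹ = C.A (mE 1) * (C.th b * C.ff v * (C.th b)⁻¹) * (C.A (mE 1))⁻¹ := by
    rw [ECore.thi_apply]
    simp only [fi]
    group
  rw [e, C.th_ff]
  rfl

lemma ff_eq_tr (u : F) : C.ff u = C.ff ((u + σ u) * C.ξ) := by
  apply C.ff_congr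
  have h : σ (u + σ u) = u + σ u := by
    simp only [map_add, C.σσ]
    ring
  rw [map_mul, h]
  linear_combination (-(u + σ u)) * C.hξ

lemma exists_norm (C : ECfg Γ σ m) {κ : F} (h : σ κ = κ) (h0 : κ ≠ 0) : ∃ c : Fˣ, ((nU σ c : Fˣ) : F) = κ := by
  obtain ⟨c, hc⟩ := C.hI.norm_surj κ h
  have hc0 : c ≠ 0 := by
    rintro rfl
    apply h0
    rw [← hc, zero_mul]
  exact ⟨Units.mk0 c hc0, hc⟩

lemma nU_fix (C : ECfg Γ σ m) (c : Fˣ) : σ ((nU σ c : Fˣ) : F) = (nU σ c : Fˣ) := by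
  simp only [nU_coe, map_mul, C.σσ]
  ring

/-- The long root elements at two different positions commute. -/
lemma ff_fi1 (u v : F) : Commute (C.ff u) (C.fi 1 v) := by
  have step1 : ∀ κ : F, σ κ = κ → Commute (C.ff (κ * C.ξ)) (C.fi 1 C.ξ) := by
    let S : AddSubgroup F :=
      { carrier := {κ | Commute (C.ff (κ * C.ξ)) (C.fi 1 C.ξ)}
        add_mem' := by
          intro a b ha hb
          show Commute (C.ff ((a + b) * C.ξ)) (C.fi 1 C.ξ)
          rw [add_mul, C.ff_add]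
          exact Commute.mul_left ha hb
        zero_mem' := by
          show Commute (C.ff (0 * C.ξ)) (C.fi 1 C.ξ)
          rw [zero_mul, ff_zero]
          exact Commute.one_left _
        neg_mem' := by
          intro a ha
          show Commute (C.ff (-a * C.ξ)) (C.fi 1 C.ξ)
          rw [neg_mul, C.ff_neg]
          exact Commute.inv_left ha }
    intro κ hκ
    refine C.hSq S ?_ ?_ κ hκ
    · show Commute (C.ff (1 * C.ξ)) (C.fi 1 C.ξ)
      rw [one_mul]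
      exact C.r10
    · intro b hb hb0 t ht
      obtain ⟨c, hc⟩ := C.exists_norm hb hb0
      have h1 := conj_comm (g := C.th c) (show Commute (C.ff (t * C.ξ)) (C.fi 1 C.ξ) from ht)
      rw [C.th_ff, C.th_fi1, hc] at h1
      show Commute (C.ff (b * b * t * C.ξ)) (C.fi 1 C.ξ)
      convert h1 using 2
      ring
  have step2 : ∀ u : F, Commute (C.ff u) (C.fi 1 C.ξ) := by
    intro u
    rw [C.ff_eq_tr u]
    refine step1 _ ?_
    simp only [map_add, C.σσ]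
    ring
  have step3 : ∀ κ : F, σ κ = κ → Commute (C.ff u) (C.fi 1 (κ * C.ξ)) := by
    let S : AddSubgroup F :=
      { carrier := {κ | Commute (C.ff u) (C.fi 1 (κ * C.ξ))}
        add_mem' := by
          intro a b ha hb
          show Commute (C.ff u) (C.fi 1 ((a + b) * C.ξ))
          rw [add_mul, C.fi_add]
          exact Commute.mul_right ha hb
        zero_mem' := by
          show Commute (C.ff u) (C.fi 1 (0 * C.ξ))
          rw [zero_mul, fi_zero']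
          exact Commute.one_right _
        neg_mem' := by
          intro a ha
          show Commute (C.ff u) (C.fi 1 (-a * C.ξ))
          rw [neg_mul, C.fi_neg]
          exact Commute.inv_right ha }
    intro κ hκ
    refine C.hSq S ?_ ?_ κ hκ
    · show Commute (C.ff u) (C.fi 1 (1 * C.ξ))
      rw [one_mul]
      exact step2 u
    · intro b hb hb0 t ht
      obtain ⟨c, hc⟩ := C.exists_norm hb hb0
      have h1 := conj_comm (g := C.thi 1 c) (show Commute (C.ff u) (C.fi 1 (t * C.ξ)) from ht)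
      rw [C.th1_ff, C.th1_fi1, hc] at h1
      show Commute (C.ff u) (C.fi 1 (b * b * t * C.ξ))
      convert h1 using 2
      ring
  have hv : C.fi 1 v = C.fi 1 ((v + σ v) * C.ξ) := by
    simp only [fi]
    rw [← C.ff_eq_tr]
  rw [hv]
  refine step3 _ ?_
  simp only [map_add, C.σσ]
  ring

/-- The target of the commutators of the long root elements. -/
noncomputable def Wb : Subgroup Γ where
  carrier := {x | ∃ v s, x = C.fi 1 v * C.be s}
  mul_mem' := by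
    rintro _ _ ⟨v, s, rfl⟩ ⟨v', s', rfl⟩
    refine ⟨v + v', s + s', ?_⟩
    rw [C.fi_add, ← ECore.be_add]
    have := (C.fi1_be v' s).eq
    calc C.fi 1 v * C.be s * (C.fi 1 v' * C.be s') = C.fi 1 v * (C.be s * C.fi 1 v') * C.be s' := by group
      _ = C.fi 1 v * (C.fi 1 v' * C.be s) * C.be s' := by rw [this]
      _ = _ := by group
  one_mem' := ⟨0, 0, by rw [fi_zero', ECore.be_zero, one_mul]⟩
  inv_mem' := by
    rintro _ ⟨v, s, rfl⟩
    refine ⟨-v, -s, ?_⟩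
    rw [C.fi_neg, ← ECore.be_inv, mul_inv_rev]
    exact ((C.fi1_be v s).inv_inv).eq.symm

lemma mem_Wb {x : Γ} : x ∈ C.Wb ↔ ∃ v s, x = C.fi 1 v * C.be s := Iff.rfl

lemma ff_Wb (u : F) {w : Γ} (hw : w ∈ C.Wb) : Commute (C.ff u) w := by
  obtain ⟨v, s, rfl⟩ := hw
  exact (C.ff_fi1 u v).mul_right (C.c_be u s)

lemma x10_Wb (s : F) {w : Γ} (hw : w ∈ C.Wb) : xE C.A 1 0 s * w * (xE C.A 1 0 s)⁻¹ ∈ C.Wb := by
  obtain ⟨v, t, rfl⟩ := hw
  rw [conj_mul_conj, Commute.conj_eq (C.x10_fi1 s v), conj_eq_cm_mul, cm_x10_be, ← mul_assoc, ← fi_add]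
  exact ⟨_, _, rfl⟩

lemma hU_fi1 (c : Fˣ) (v : F) : C.A (hU c) * C.fi 1 v * (C.A (hU c))⁻¹ = C.fi 1 (((c : F))⁻¹ * σ ((c : F))⁻¹ * v) := by
  rw [C.mono_fi (mono_hU c), dC_one]
  rfl

lemma hU_Wb (c : Fˣ) {w : Γ} (hw : w ∈ C.Wb) : C.A (hU c) * w * (C.A (hU c))⁻¹ ∈ C.Wb := by
  obtain ⟨v, t, rfl⟩ := hw
  rw [conj_mul_conj, hU_fi1, ECore.hU_be]
  exact ⟨_, _, rfl⟩

lemma th1_Wb (c : Fˣ) {w : Γ} (hw : w ∈ C.Wb) : C.thi 1 c * w * (C.thi 1 c)⁻¹ ∈ C.Wb := by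
  obtain ⟨v, t, rfl⟩ := hw
  rw [conj_mul_conj, th1_fi1, ECore.th1_be]
  exact ⟨_, _, rfl⟩

/-- The commutators of the long root elements with the short ones. -/
lemma f4_base (u s : F) : ⁅C.ff u, xE C.A 1 0 s⁆ ∈ C.Wb := by
  have step1 : ∀ s : F, ⁅C.ff C.ξ, xE C.A 1 0 s⁆ ∈ C.Wb := by
    let S : AddSubgroup F :=
      { carrier := {s | ⁅C.ff C.ξ, xE C.A 1 0 s⁆ ∈ C.Wb}
        add_mem' := by
          intro a b ha hb
          show ⁅C.ff C.ξ, xE C.A 1 0 (a + b)⁆ ∈ C.Wb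
          rw [← xE_add, cm_mul_right]
          exact mul_mem ha (C.x10_Wb a hb)
        zero_mem' := by
          show ⁅C.ff C.ξ, xE C.A 1 0 0⁆ ∈ C.Wb
          rw [xE_zero, commutatorElement_one_right]
          exact one_mem _
        neg_mem' := by
          intro a ha
          show ⁅C.ff C.ξ, xE C.A 1 0 (-a)⁆ ∈ C.Wb
          have e : ⁅C.ff C.ξ, xE C.A 1 0 (-a)⁆ = xE C.A 1 0 (-a) * ⁅C.ff C.ξ, xE C.A 1 0 a⁆⁻¹ * (xE C.A 1 0 (-a))⁻¹ := by
            rw [← xE_inv]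
            simp only [commutatorElement_def]
            group
          rw [e]
          exact C.x10_Wb _ (inv_mem ha) }
    have hK : ∀ κ t : F, σ κ = κ → t ∈ S → κ * t ∈ S := by
      intro κ t hκ ht
      by_cases h0 : κ = 0
      · subst h0
        rw [zero_mul]
        exact S.zero_mem
      obtain ⟨c, hc⟩ := C.exists_norm hκ h0
      have h1 := C.th1_Wb c (show ⁅C.ff C.ξ, xE C.A 1 0 t⁆ ∈ C.Wb from ht)
      rw [conj_cm, C.th1_ff, C.thi_x, eD_self, eD_ne (h01E (m := m))] at h1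
      show ⁅C.ff C.ξ, xE C.A 1 0 (κ * t)⁆ ∈ C.Wb
      convert h1 using 3
      simp [hc]
    have h1S : (1 : F) ∈ S := by
      obtain ⟨v, s', e⟩ := C.r8a
      exact ⟨v, s', e⟩
    have h2S : C.ξ' ∈ S := by
      obtain ⟨v, s', e⟩ := C.r8b
      exact ⟨v, s', e⟩
    intro s
    obtain ⟨κ₁, κ₂, h1, h2, rfl⟩ := exists_basis C.hI.invol C.hξ' s
    refine S.add_mem ?_ (hK _ _ h2 h2S)
    have := hK κ₁ 1 h1 h1S
    rwa [mul_one] at this
  by_cases h0 : u + σ u = 0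
  · have : C.ff u = 1 := C.ff_tr u (by linear_combination h0)
    rw [this, commutatorElement_one_left]
    exact one_mem _
  have hfix : σ (u + σ u) = u + σ u := by
    simp only [map_add, C.σσ]
    ring
  obtain ⟨c, hc⟩ := C.exists_norm hfix h0
  have h1 := C.hU_Wb c (step1 ((c : F) * c * s))
  rw [conj_cm, C.hU_ff, xE_mono _ (mono_hU c), dC_zero, dC_one] at h1
  simp only [Equiv.Perm.coe_one, id] at h1
  rw [C.ff_eq_tr u]
  convert h1 using 3
  · rw [hc]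
  · have hc0 : (c : F) ≠ 0 := c.ne_zero
    field_simp

/-- The big cell for the long root elements. -/
lemma ri_alg {Γ : Type*} [Group Γ] {z t l : Γ} (hz : z * t * z⁻¹ = t⁻¹) (ht : Commute t (z * z))
    (h : (t * z) * l = l⁻¹ * ((t * z) * (t * z) * (t * z)) * l⁻¹ * (t * z)) :
    z * l = (t⁻¹ * l⁻¹ * t) * (z * ((z * z) * t) * (t⁻¹ * l⁻¹ * t) * z) := by
  have h1 : z * t = t⁻¹ * z := by
    rw [← hz]
    group
  have h2 : (t * z) * (t * z) = z * z := by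
    calc (t * z) * (t * z) = t * (z * t) * z := by group
      _ = t * (t⁻¹ * z) * z := by rw [h1]
      _ = _ := by group
  rw [h2] at h
  have h3 : z * l = t⁻¹ * ((t * z) * l) := by group
  rw [h3, h]
  have h4 : t * (z * z) = (z * z) * t := ht.eq
  calc t⁻¹ * (l⁻¹ * (z * z * (t * z)) * l⁻¹ * (t * z))
      = t⁻¹ * l⁻¹ * ((z * z) * t) * z * l⁻¹ * t * z := by group
    _ = t⁻¹ * l⁻¹ * (t * (z * z)) * z * l⁻¹ * t * z := by rw [h4]
    _ = _ := by group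

end ECfg

end Cfsg.Agent.Lib.PrsSU
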