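import Mathlib
import Cfsg.Agent.Lib.PrsSUT

/-!
# Presentations of special unitary groups: the action on the even dimensional root groups
-/

set_option autoImplicit false
set_option linter.unusedSectionVars false
set_option linter.unusedVariables false

namespace Cfsg.Agent.Lib.PrsSU

open Subgroup Sum Cfsg.Agent.Lib.SUWitt
open Cfsg.Agent.Lib.PrsSp (SLN Mono wW mono_wW dn mono_dn IsBlk sl_eq dn_mul dn_one dn_inv tv_inv' sl_comm sl_comm' exists_mono2 tv_isBlk)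
open scoped Matrix commutatorElement

namespace ECfg

variable {Γ : Type*} [Group Γ] {F : Type*} [Field F] {σ : F →+* F} {m : ℕ} (C : ECfg Γ σ m)

/-- The positive short root elements. -/
noncomputable def pE (i j : Fin (m + 1 + 1)) (t : F) : Γ := C.zi j * xE C.A i j t * (C.zi j)⁻¹

lemma pE_add (i j : Fin (m + 1 + 1)) (s t : F) : C.pE i j s * C.pE i j t = C.pE i j (s + t) := by
  simp only [pE]
  rw [← xE_add]
  group

lemma pE_zero (i j : Fin (m + 1 + 1)) : C.pE i j 0 = 1 := by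
  simp only [pE]
  rw [xE_zero]
  group

lemma pE_inv (i j : Fin (m + 1 + 1)) (t : F) : (C.pE i j t)⁻¹ = C.pE i j (-t) := by
  simp only [pE]
  rw [← xE_inv]
  group

lemma pE_self (i : Fin (m + 1 + 1)) (t : F) : C.pE i i t = 1 := by
  simp only [pE]
  rw [xE_self]
  group

lemma pE_symm {i j : Fin (m + 1 + 1)} (h : i ≠ j) (t : F) : C.pE i j t = C.pE j i (σ t) := C.P_symm h t

/-- The positive short root groups. -/
noncomputable def Pp (i j : Fin (m + 1 + 1)) : Subgroup Γ where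
  carrier := {x | ∃ t, x = C.pE i j t}
  mul_mem' := by
    rintro _ _ ⟨s, rfl⟩ ⟨t, rfl⟩
    exact ⟨s + t, C.pE_add i j s t⟩
  one_mem' := ⟨0, (C.pE_zero i j).symm⟩
  inv_mem' := by
    rintro _ ⟨s, rfl⟩
    exact ⟨-s, C.pE_inv i j s⟩

lemma mem_Pp {i j : Fin (m + 1 + 1)} {x : Γ} : x ∈ C.Pp i j ↔ ∃ t, x = C.pE i j t := Iff.rfl

lemma Pp_symm (i j : Fin (m + 1 + 1)) {x : Γ} (hx : x ∈ C.Pp i j) : x ∈ C.Pp j i := by
  by_cases h : i = j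
  · subst h
    exact hx
  · obtain ⟨t, rfl⟩ := hx
    exact ⟨_, C.pE_symm h t⟩

/-- The sign changing elements. -/
noncomputable def gS : Ix (m + 1 + 1) → Γ
  | inl _ => 1
  | inr i => C.zi i

@[simp] lemma gS_inl (i : Fin (m + 1 + 1)) : C.gS (inl i) = 1 := rfl
@[simp] lemma gS_inr (i : Fin (m + 1 + 1)) : C.gS (inr i) = C.zi i := rfl

lemma gS_comm (a b : Ix (m + 1 + 1)) : Commute (C.gS a) (C.gS b) := by
  cases a with
  | inl i => exact Commute.one_left _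
  | inr i =>
    cases b with
    | inl j => exact Commute.one_right _
    | inr j =>
      by_cases h : i = j
      · subst h
        exact Commute.refl _
      · exact C.zi_comm h

/-- The long root groups. -/
noncomputable def M (a : Ix (m + 1 + 1)) : Subgroup Γ := (C.Mp (ab a)).map (MulAut.conj (C.gS a)).toMonoidHom

/-- The short root groups. -/
noncomputable def X (a b : Ix (m + 1 + 1)) : Subgroup Γ :=
  (C.Pp (ab a) (ab b)).map (MulAut.conj (C.gS a * C.gS b)).toMonoidHom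

lemma mem_M {a : Ix (m + 1 + 1)} {x : Γ} : x ∈ C.M a ↔ ∃ y ∈ C.Mp (ab a), C.gS a * y * (C.gS a)⁻¹ = x := Iff.rfl

lemma mem_X {a b : Ix (m + 1 + 1)} {x : Γ} :
    x ∈ C.X a b ↔ ∃ y ∈ C.Pp (ab a) (ab b), (C.gS a * C.gS b) * y * (C.gS a * C.gS b)⁻¹ = x := Iff.rfl

lemma mem_M_inl {i : Fin (m + 1 + 1)} {x : Γ} : x ∈ C.M (inl i) ↔ x ∈ C.Mp i := by
  rw [mem_M]
  constructor
  · rintro ⟨y, hy, rfl⟩
    simpa using hy
  · intro h
    exact ⟨x, h, by simp⟩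

lemma mem_X_pp {i j : Fin (m + 1 + 1)} {x : Γ} : x ∈ C.X (inl i) (inl j) ↔ x ∈ C.Pp i j := by
  rw [mem_X]
  constructor
  · rintro ⟨y, hy, rfl⟩
    simpa using hy
  · intro h
    exact ⟨x, h, by simp⟩

lemma X_symm (a b : Ix (m + 1 + 1)) {x : Γ} (hx : x ∈ C.X a b) : x ∈ C.X b a := by
  obtain ⟨y, hy, rfl⟩ := C.mem_X.1 hx
  refine C.mem_X.2 ⟨y, C.Pp_symm _ _ hy, ?_⟩
  rw [(C.gS_comm a b).eq]

/-- The action of the long torus on the short root elements. -/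
lemma thi_pE (k j' i j : Fin (m + 1 + 1)) (c : Fˣ) (t : F) : ∃ t', C.thi k c * C.pE i j t * (C.thi k c)⁻¹ = C.pE i j t' := by
  have key : ∃ c', C.thi k c * C.zi j = C.zi j * C.thi k c' := by
    by_cases h : k = j
    · subst h
      exact ⟨c⁻¹, by rw [C.zi_th', map_inv]⟩
    · exact ⟨c, ((C.zi_thi_ne (Ne.symm h) c).eq).symm⟩
  obtain ⟨c', h⟩ := key
  have e : C.thi k c * C.pE i j t * (C.thi k c)⁻¹ = C.zi j * (C.thi k c' * xE C.A i j t * (C.thi k c')⁻¹) * (C.zi j)⁻¹ := by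
    calc C.thi k c * C.pE i j t * (C.thi k c)⁻¹ = (C.thi k c * C.zi j) * xE C.A i j t * (C.thi k c * C.zi j)⁻¹ := by
          simp only [pE]
          group
      _ = (C.zi j * C.thi k c') * xE C.A i j t * (C.zi j * C.thi k c')⁻¹ := by rw [h]
      _ = _ := by group
  rw [e, C.thi_x]
  exact ⟨_, rfl⟩

lemma thi_Pp (k i j : Fin (m + 1 + 1)) (c : Fˣ) {y : Γ} (hy : y ∈ C.Pp i j) : C.thi k c * y * (C.thi k c)⁻¹ ∈ C.Pp i j := by
  obtain ⟨t, rfl⟩ := hy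
  obtain ⟨t', h⟩ := C.thi_pE k k i j c t
  exact ⟨t', h⟩

lemma thi_gS (k : Fin (m + 1 + 1)) (c : Fˣ) (a : Ix (m + 1 + 1)) : ∃ c', C.thi k c * C.gS a = C.gS a * C.thi k c' := by
  cases a with
  | inl i => exact ⟨c, by simp⟩
  | inr i =>
    by_cases h : k = i
    · subst h
      exact ⟨c⁻¹, by simp only [gS_inr]; rw [C.zi_th', map_inv]⟩
    · exact ⟨c, ((C.zi_thi_ne (Ne.symm h) c).eq).symm⟩

lemma thi_M (k : Fin (m + 1 + 1)) (c : Fˣ) (a : Ix (m + 1 + 1)) {x : Γ} (hx : x ∈ C.M a) : C.thi k c * x * (C.thi k c)⁻¹ ∈ C.M a := by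
  obtain ⟨y, hy, rfl⟩ := C.mem_M.1 hx
  obtain ⟨c', h⟩ := C.thi_gS k c a
  refine C.mem_M.2 ⟨_, C.thi_Mp k _ c' hy, ?_⟩
  calc C.gS a * (C.thi k c' * y * (C.thi k c')⁻¹) * (C.gS a)⁻¹ = (C.gS a * C.thi k c') * y * (C.gS a * C.thi k c')⁻¹ := by group
    _ = (C.thi k c * C.gS a) * y * (C.thi k c * C.gS a)⁻¹ := by rw [h]
    _ = _ := by group

lemma thi_X (k : Fin (m + 1 + 1)) (c : Fˣ) (a b : Ix (m + 1 + 1)) {x : Γ} (hx : x ∈ C.X a b) : C.thi k c * x * (C.thi k c)⁻¹ ∈ C.X a b := by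
  obtain ⟨y, hy, rfl⟩ := C.mem_X.1 hx
  obtain ⟨c₁, h₁⟩ := C.thi_gS k c a
  obtain ⟨c₂, h₂⟩ := C.thi_gS k c₁ b
  refine C.mem_X.2 ⟨_, C.thi_Pp k _ _ c₂ hy, ?_⟩
  have e : C.thi k c * (C.gS a * C.gS b) = (C.gS a * C.gS b) * C.thi k c₂ := by
    rw [← mul_assoc, h₁, mul_assoc, h₂, mul_assoc]
  calc (C.gS a * C.gS b) * (C.thi k c₂ * y * (C.thi k c₂)⁻¹) * (C.gS a * C.gS b)⁻¹
      = ((C.gS a * C.gS b) * C.thi k c₂) * y * ((C.gS a * C.gS b) * C.thi k c₂)⁻¹ := by group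
    _ = (C.thi k c * (C.gS a * C.gS b)) * y * (C.thi k c * (C.gS a * C.gS b))⁻¹ := by rw [e]
    _ = _ := by group

/-- The action of the monomial elements. -/
lemma mono_gS {μ : SLN (m + 1 + 1) F} {π : Equiv.Perm (Fin (m + 1 + 1))} {c : Fin (m + 1 + 1) → F} (Mn : Mono μ π c) (a : Ix (m + 1 + 1)) :
    ∃ (k : Fin (m + 1 + 1)) (c' : Fˣ), C.A μ * C.gS a * (C.A μ)⁻¹ = C.thi k c' * C.gS (lift π a) := by
  cases a with
  | inl i => exact ⟨0, 1, by simp⟩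
  | inr i => exact ⟨_, _, C.zi_conj Mn i⟩

lemma mono_M {μ : SLN (m + 1 + 1) F} {π : Equiv.Perm (Fin (m + 1 + 1))} {c : Fin (m + 1 + 1) → F} (Mn : Mono μ π c) (a : Ix (m + 1 + 1)) {x : Γ} (hx : x ∈ C.M a) :
    C.A μ * x * (C.A μ)⁻¹ ∈ C.M (lift π a) := by
  obtain ⟨y, hy, rfl⟩ := C.mem_M.1 hx
  obtain ⟨k, c', h⟩ := C.mono_gS Mn a
  have hab : ab (lift π a) = π (ab a) := by cases a <;> rfl
  have hy' : C.A μ * y * (C.A μ)⁻¹ ∈ C.Mp (ab (lift π a)) := by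
    rw [hab]
    exact C.mono_Mp Mn hy
  have e : C.A μ * (C.gS a * y * (C.gS a)⁻¹) * (C.A μ)⁻¹ = C.thi k c' * (C.gS (lift π a) * (C.A μ * y * (C.A μ)⁻¹) * (C.gS (lift π a))⁻¹) * (C.thi k c')⁻¹ := by
    have : C.A μ * (C.gS a * y * (C.gS a)⁻¹) * (C.A μ)⁻¹ = (C.A μ * C.gS a * (C.A μ)⁻¹) * (C.A μ * y * (C.A μ)⁻¹) * (C.A μ * C.gS a * (C.A μ)⁻¹)⁻¹ := by group
    rw [this, h]
    group
  rw [e]
  exact C.thi_M k c' _ (C.mem_M.2 ⟨_, hy', rfl⟩)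

lemma mono_pE {μ : SLN (m + 1 + 1) F} {π : Equiv.Perm (Fin (m + 1 + 1))} {c : Fin (m + 1 + 1) → F} (Mn : Mono μ π c) (i j : Fin (m + 1 + 1)) (t : F) :
    C.A μ * C.pE i j t * (C.A μ)⁻¹ = C.thi (π j) (Units.mk0 (c j) (Mn.ne j)) * C.pE (π i) (π j) (c i * t * (c j)⁻¹) * (C.thi (π j) (Units.mk0 (c j) (Mn.ne j)))⁻¹ := by
  have : C.A μ * C.pE i j t * (C.A μ)⁻¹ = (C.A μ * C.zi j * (C.A μ)⁻¹) * (C.A μ * xE C.A i j t * (C.A μ)⁻¹) * (C.A μ * C.zi j * (C.A μ)⁻¹)⁻¹ := by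
    simp only [pE]
    group
  rw [this, C.zi_conj Mn, xE_mono _ Mn]
  simp only [pE]
  group

lemma mono_Pp {μ : SLN (m + 1 + 1) F} {π : Equiv.Perm (Fin (m + 1 + 1))} {c : Fin (m + 1 + 1) → F} (Mn : Mono μ π c) (i j : Fin (m + 1 + 1)) {y : Γ} (hy : y ∈ C.Pp i j) :
    C.A μ * y * (C.A μ)⁻¹ ∈ C.Pp (π i) (π j) := by
  obtain ⟨t, rfl⟩ := hy
  rw [C.mono_pE Mn]
  exact C.thi_Pp _ _ _ _ ⟨_, rfl⟩

lemma gS_thi (k : Fin (m + 1 + 1)) (c : Fˣ) (a : Ix (m + 1 + 1)) : ∃ c', C.gS a * C.thi k c = C.thi k c' * C.gS a := by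
  cases a with
  | inl i => exact ⟨c, by simp⟩
  | inr i =>
    by_cases h : k = i
    · subst h
      refine ⟨c⁻¹, ?_⟩
      simp only [gS_inr]
      rw [C.zi_th' k c⁻¹, map_inv, inv_inv]
    · exact ⟨c, (C.zi_thi_ne (Ne.symm h) c).eq⟩

lemma mono_X {μ : SLN (m + 1 + 1) F} {π : Equiv.Perm (Fin (m + 1 + 1))} {c : Fin (m + 1 + 1) → F} (Mn : Mono μ π c) (a b : Ix (m + 1 + 1)) {x : Γ} (hx : x ∈ C.X a b) :
    C.A μ * x * (C.A μ)⁻¹ ∈ C.X (lift π a) (lift π b) := by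
  obtain ⟨y, hy, rfl⟩ := C.mem_X.1 hx
  obtain ⟨k₁, c₁, h₁⟩ := C.mono_gS Mn a
  obtain ⟨k₂, c₂, h₂⟩ := C.mono_gS Mn b
  have hab : ∀ a : Ix (m + 1 + 1), ab (lift π a) = π (ab a) := by
    intro a
    cases a <;> rfl
  have hy' : C.A μ * y * (C.A μ)⁻¹ ∈ C.Pp (ab (lift π a)) (ab (lift π b)) := by
    rw [hab, hab]
    exact C.mono_Pp Mn _ _ hy
  obtain ⟨y', hy'e⟩ : ∃ y', y' = C.A μ * y * (C.A μ)⁻¹ := ⟨_, rfl⟩
  rw [← hy'e] at hy'
  obtain ⟨c₄, h₄⟩ := C.gS_thi k₂ c₂ (lift π a)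
  have h5 : C.A μ * (C.gS a * C.gS b) * (C.A μ)⁻¹ = C.thi k₁ c₁ * C.thi k₂ c₄ * (C.gS (lift π a) * C.gS (lift π b)) := by
    have : C.A μ * (C.gS a * C.gS b) * (C.A μ)⁻¹ = (C.A μ * C.gS a * (C.A μ)⁻¹) * (C.A μ * C.gS b * (C.A μ)⁻¹) := by group
    rw [this, h₁, h₂]
    calc C.thi k₁ c₁ * C.gS (lift π a) * (C.thi k₂ c₂ * C.gS (lift π b))
        = C.thi k₁ c₁ * (C.gS (lift π a) * C.thi k₂ c₂) * C.gS (lift π b) := by group
      _ = C.thi k₁ c₁ * (C.thi k₂ c₄ * C.gS (lift π a)) * C.gS (lift π b) := by rw [h₄]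
      _ = _ := by group
  have e : C.A μ * ((C.gS a * C.gS b) * y * (C.gS a * C.gS b)⁻¹) * (C.A μ)⁻¹ =
      C.thi k₁ c₁ * (C.thi k₂ c₄ * ((C.gS (lift π a) * C.gS (lift π b)) * y' * (C.gS (lift π a) * C.gS (lift π b))⁻¹) * (C.thi k₂ c₄)⁻¹) * (C.thi k₁ c₁)⁻¹ := by
    have : C.A μ * ((C.gS a * C.gS b) * y * (C.gS a * C.gS b)⁻¹) * (C.A μ)⁻¹ =
        (C.A μ * (C.gS a * C.gS b) * (C.A μ)⁻¹) * (C.A μ * y * (C.A μ)⁻¹) * (C.A μ * (C.gS a * C.gS b) * (C.A μ)⁻¹)⁻¹ := by group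
    rw [this, h5, ← hy'e]
    group
  rw [e]
  exact C.thi_X _ _ _ _ (C.thi_X _ _ _ _ (C.mem_X.2 ⟨_, hy', rfl⟩))

/-- The action of the long Weyl elements on the groups `M`. -/
lemma zi_M (k : Fin (m + 1 + 1)) (a : Ix (m + 1 + 1)) {x : Γ} (hx : x ∈ C.M a) : C.zi k * x * (C.zi k)⁻¹ ∈ C.M (flip k a) := by
  obtain ⟨y, hy, rfl⟩ := C.mem_M.1 hx
  by_cases e : ab a = k
  · subst e
    cases a with
    | inl i =>
      change C.zi i * (C.gS (inl i) * y * (C.gS (inl i))⁻¹) * (C.zi i)⁻¹ ∈ C.M (flip i (inl i))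
      rw [flip_inl_self]
      exact C.mem_M.2 ⟨y, hy, by simp⟩
    | inr i =>
      change C.zi i * (C.zi i * y * (C.zi i)⁻¹) * (C.zi i)⁻¹ ∈ C.M (flip i (inr i))
      rw [flip_inr_self]
      have e1 : C.zi i * (C.zi i * y * (C.zi i)⁻¹) * (C.zi i)⁻¹ = (C.zi i * C.zi i) * y * (C.zi i * C.zi i)⁻¹ := by group
      rw [e1, C.zi_sq]
      exact C.mem_M_inl.2 (C.thi_Mp _ _ _ hy)
  · rw [flip_of_ne e]
    have h1 : Commute (C.zi k) (C.gS a * y * (C.gS a)⁻¹) := by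
      have h2 : Commute (C.zi k) (C.gS a) := C.gS_comm (inr k) a
      exact (h2.mul_right (C.zi_Mp (Ne.symm e) hy)).mul_right h2.inv_right
    rw [Commute.conj_eq h1]
    exact C.mem_M.2 ⟨y, hy, rfl⟩

lemma X_same {a b : Ix (m + 1 + 1)} (h : ab a = ab b) {x : Γ} (hx : x ∈ C.X a b) : x = 1 := by
  obtain ⟨y, ⟨t, rfl⟩, rfl⟩ := C.mem_X.1 hx
  rw [h, pE_self]
  group

/-- The action on the groups `X` in the first index. -/
lemma zi_X_fst {k : Fin (m + 1 + 1)} {a b : Ix (m + 1 + 1)} (ha : ab a = k) (hb : ab b ≠ k) {x : Γ} (hx : x ∈ C.X a b) :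
    C.zi k * x * (C.zi k)⁻¹ ∈ C.X (flip k a) b := by
  obtain ⟨y, hy, rfl⟩ := C.mem_X.1 hx
  subst ha
  cases a with
  | inl i =>
    change C.zi i * ((C.gS (inl i) * C.gS b) * y * (C.gS (inl i) * C.gS b)⁻¹) * (C.zi i)⁻¹ ∈ C.X (flip i (inl i)) b
    rw [flip_inl_self]
    exact C.mem_X.2 ⟨y, hy, by simp only [gS_inl, gS_inr, one_mul]; group⟩
  | inr i =>
    change C.zi i * ((C.zi i * C.gS b) * y * (C.zi i * C.gS b)⁻¹) * (C.zi i)⁻¹ ∈ C.X (flip i (inr i)) b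
    rw [flip_inr_self]
    have hy' : C.thi i C.cneg * y * (C.thi i C.cneg)⁻¹ ∈ C.Pp i (ab b) := C.thi_Pp _ _ _ _ hy
    have hc : C.gS b * C.thi i C.cneg = C.thi i C.cneg * C.gS b := by
      rw [← C.zi_sq]
      have h1 : Commute (C.gS b) (C.zi i) := C.gS_comm b (inr i)
      exact (h1.mul_right h1).eq
    refine C.mem_X.2 ⟨_, hy', ?_⟩
    simp only [gS_inl, one_mul]
    rw [← C.zi_sq] at hc ⊢
    calc C.gS b * (C.zi i * C.zi i * y * (C.zi i * C.zi i)⁻¹) * (C.gS b)⁻¹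
        = (C.gS b * (C.zi i * C.zi i)) * y * (C.gS b * (C.zi i * C.zi i))⁻¹ := by group
      _ = ((C.zi i * C.zi i) * C.gS b) * y * ((C.zi i * C.zi i) * C.gS b)⁻¹ := by rw [hc]
      _ = _ := by group

lemma zi_Pp_ne {k i j : Fin (m + 1 + 1)} (hi : i ≠ k) (hj : j ≠ k) {y : Γ} (hy : y ∈ C.Pp i j) : Commute (C.zi k) y := by
  obtain ⟨t, rfl⟩ := hy
  have h1 : Commute (C.zi k) (C.zi j) := C.zi_comm (Ne.symm hj)
  exact (h1.mul_right (C.zi_x_ne hi hj t)).mul_right h1.inv_right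

lemma zi_X (k : Fin (m + 1 + 1)) (a b : Ix (m + 1 + 1)) {x : Γ} (hx : x ∈ C.X a b) :
    C.zi k * x * (C.zi k)⁻¹ ∈ C.X (flip k a) (flip k b) := by
  by_cases hab : ab a = ab b
  · rw [C.X_same hab hx]
    simp [one_mem]
  by_cases h1 : ab a = k
  · have hb : ab b ≠ k := fun e => hab (h1.trans e.symm)
    rw [flip_of_ne hb]
    exact C.zi_X_fst h1 hb hx
  by_cases h2 : ab b = k
  · rw [flip_of_ne h1]
    exact C.X_symm _ _ (C.zi_X_fst h2 h1 (C.X_symm _ _ hx))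
  rw [flip_of_ne h1, flip_of_ne h2]
  obtain ⟨y, hy, rfl⟩ := C.mem_X.1 hx
  have h3 : Commute (C.zi k) (C.gS a * C.gS b) := (C.gS_comm (inr k) a).mul_right (C.gS_comm (inr k) b)
  have h4 : Commute (C.zi k) ((C.gS a * C.gS b) * y * (C.gS a * C.gS b)⁻¹) :=
    (h3.mul_right (C.zi_Pp_ne h1 h2 hy)).mul_right h3.inv_right
  rw [Commute.conj_eq h4]
  exact C.mem_X.2 ⟨y, hy, rfl⟩

/-- The two sided action. -/
def Act2E (n : Γ) (π : Equiv.Perm (Ix (m + 1 + 1))) : Prop := ActsOn C.M C.X n π ∧ ActsOn C.M C.X n⁻¹ π⁻¹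

variable {C}

lemma ActsOn_mul {n n' : Γ} {π π' : Equiv.Perm (Ix (m + 1 + 1))} (h : ActsOn C.M C.X n π) (h' : ActsOn C.M C.X n' π') :
    ActsOn C.M C.X (n * n') (π * π') := by
  constructor
  · intro a x hx
    have := h.1 _ _ (h'.1 a x hx)
    have e : n * n' * x * (n * n')⁻¹ = n * (n' * x * n'⁻¹) * n⁻¹ := by group
    rw [e]
    exact this
  · intro a b x hx
    have := h.2 _ _ _ (h'.2 a b x hx)
    have e : n * n' * x * (n * n')⁻¹ = n * (n' * x * n'⁻¹) * n⁻¹ := by group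
    rw [e]
    exact this

lemma Act2E_mul {n n' : Γ} {π π' : Equiv.Perm (Ix (m + 1 + 1))} (h : C.Act2E n π) (h' : C.Act2E n' π') :
    C.Act2E (n * n') (π * π') := by
  refine ⟨ActsOn_mul h.1 h'.1, ?_⟩
  rw [mul_inv_rev, mul_inv_rev]
  exact ActsOn_mul h'.2 h.2

lemma Act2E_inv {n : Γ} {π : Equiv.Perm (Ix (m + 1 + 1))} (h : C.Act2E n π) : C.Act2E n⁻¹ π⁻¹ := by
  refine ⟨h.2, ?_⟩
  rw [inv_inv, inv_inv]
  exact h.1

lemma Act2E_one : C.Act2E (1 : Γ) 1 := by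
  constructor <;> constructor
  · intro a x hx
    simpa using hx
  · intro a b x hx
    simpa using hx
  · intro a x hx
    simpa using hx
  · intro a b x hx
    simpa using hx

variable (C)

lemma act_mono {μ : SLN (m + 1 + 1) F} {π : Equiv.Perm (Fin (m + 1 + 1))} {c : Fin (m + 1 + 1) → F} (Mn : Mono μ π c) :
    C.Act2E (C.A μ) (lift π) := by
  refine ⟨⟨fun a x hx => C.mono_M Mn a hx, fun a b x hx => C.mono_X Mn a b hx⟩, ?_⟩
  rw [← map_inv, lift_inv]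
  exact ⟨fun a x hx => C.mono_M Mn.inv a hx, fun a b x hx => C.mono_X Mn.inv a b hx⟩

lemma act_thi (k : Fin (m + 1 + 1)) (c : Fˣ) : C.Act2E (C.thi k c) 1 := by
  refine ⟨⟨fun a x hx => C.thi_M k c a hx, fun a b x hx => C.thi_X k c a b hx⟩, ?_⟩
  rw [← map_inv, inv_one]
  exact ⟨fun a x hx => C.thi_M k c⁻¹ a hx, fun a b x hx => C.thi_X k c⁻¹ a b hx⟩

lemma act_zi (k : Fin (m + 1 + 1)) : C.Act2E (C.zi k) (flip k) := by
  have h1 : ActsOn C.M C.X (C.zi k) (flip k) := ⟨fun a x hx => C.zi_M k a hx, fun a b x hx => C.zi_X k a b hx⟩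
  refine ⟨h1, ?_⟩
  have e : (C.zi k)⁻¹ = C.zi k * C.thi k C.cneg⁻¹ := by
    rw [map_inv, ← C.zi_sq]
    group
  rw [e, flip_inv]
  have h2 := ActsOn_mul h1 (C.act_thi k C.cneg⁻¹).1
  rwa [mul_one] at h2

lemma act_gS (a : Ix (m + 1 + 1)) : C.Act2E (C.gS a) (OCfg.fS a) := by
  cases a with
  | inl i => exact Act2E_one
  | inr i => exact C.act_zi i

/-- Moving two positions to the standard ones. -/
lemma move2 (a b : Ix (m + 1 + 1)) (hab : ab a ≠ ab b) : ∃ (n : Γ) (π : Equiv.Perm (Ix (m + 1 + 1))), C.Act2E n π ∧ Signed π ∧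
    π (inl 0) = a ∧ π (inl 1) = b := by
  obtain ⟨μ, π, d, Mn, hc, h1, h2⟩ := exists_mono2 (K := F) (h01E (m := m)) hab
  refine ⟨C.gS a * C.gS b * C.A μ, OCfg.fS a * OCfg.fS b * lift π, Act2E_mul (Act2E_mul (C.act_gS a) (C.act_gS b)) (C.act_mono Mn),
    Signed_mul (Signed_mul (OCfg.fS_signed a) (OCfg.fS_signed b)) (Signed_lift π), ?_, ?_⟩
  · rw [Equiv.Perm.mul_apply, Equiv.Perm.mul_apply, lift_inl, h1, OCfg.fS_ne (a := b) (c := inl (ab a)) hab, OCfg.fS_self]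
  · rw [Equiv.Perm.mul_apply, Equiv.Perm.mul_apply, lift_inl, h2, OCfg.fS_self, OCfg.fS_ne hab.symm]

lemma inv_apply_of {π : Equiv.Perm (Ix (m + 1 + 1))} {a b : Ix (m + 1 + 1)} (h : π a = b) : π⁻¹ b = a := by
  rw [← h]
  simp

lemma back_X {n : Γ} {π : Equiv.Perm (Ix (m + 1 + 1))} (h : C.Act2E n π) {a b a' b' : Ix (m + 1 + 1)} (ha : π a' = a)
    (hb : π b' = b) {x : Γ} (hx : x ∈ C.X a b) : n⁻¹ * x * n ∈ C.X a' b' := by
  have := h.2.2 a b x hx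
  rwa [inv_apply_of ha, inv_apply_of hb, inv_inv] at this

lemma back_M {n : Γ} {π : Equiv.Perm (Ix (m + 1 + 1))} (h : C.Act2E n π) {a a' : Ix (m + 1 + 1)} (ha : π a' = a) {x : Γ}
    (hx : x ∈ C.M a) : n⁻¹ * x * n ∈ C.M a' := by
  have := h.2.1 a x hx
  rwa [inv_apply_of ha, inv_inv] at this

lemma forth_X {n : Γ} {π : Equiv.Perm (Ix (m + 1 + 1))} (h : C.Act2E n π) {a b a' b' : Ix (m + 1 + 1)} (ha : π a' = a)
    (hb : π b' = b) {x : Γ} (hx : x ∈ C.X a' b') : n * x * n⁻¹ ∈ C.X a b := by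
  have := h.1.2 _ _ _ hx
  rwa [ha, hb] at this

lemma forth_M {n : Γ} {π : Equiv.Perm (Ix (m + 1 + 1))} (h : C.Act2E n π) {a a' : Ix (m + 1 + 1)} (ha : π a' = a) {x : Γ}
    (hx : x ∈ C.M a') : n * x * n⁻¹ ∈ C.M a := by
  have := h.1.1 _ _ hx
  rwa [ha] at this

/-- The short root groups with opposite signs. -/
lemma mem_X_pn {i j : Fin (m + 1 + 1)} {x : Γ} : x ∈ C.X (inl i) (inr j) ↔ x ∈ Xb C.A i j := by
  rw [mem_X]
  constructor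
  · rintro ⟨_, ⟨t, rfl⟩, rfl⟩
    change (C.gS (inl i) * C.gS (inr j)) * C.pE i j t * (C.gS (inl i) * C.gS (inr j))⁻¹ ∈ Xb C.A i j
    simp only [gS_inl, gS_inr, one_mul, pE]
    have e : C.zi j * (C.zi j * xE C.A i j t * (C.zi j)⁻¹) * (C.zi j)⁻¹ = (C.zi j * C.zi j) * xE C.A i j t * (C.zi j * C.zi j)⁻¹ := by group
    rw [e, C.zi_sq, C.thi_x]
    exact ⟨_, rfl⟩
  · rintro ⟨t, rfl⟩
    have e2 := C.thi_x j C.cneg⁻¹ i j t
    refine ⟨C.pE i j ((eD j (nU σ C.cneg⁻¹) i : F) * t * ((eD j (nU σ C.cneg⁻¹) j)⁻¹ : Fˣ)), ⟨_, rfl⟩, ?_⟩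
    simp only [gS_inl, gS_inr, one_mul, pE]
    rw [← e2]
    have e3 : C.thi j C.cneg⁻¹ * (C.thi j C.cneg)  = 1 := by
      rw [← map_mul, inv_mul_cancel, map_one]
    rw [map_inv, ← C.zi_sq]
    group

lemma mem_X_np {i j : Fin (m + 1 + 1)} {x : Γ} : x ∈ C.X (inr i) (inl j) ↔ x ∈ Xb C.A j i :=
  ⟨fun h => C.mem_X_pn.1 (C.X_symm _ _ h), fun h => C.X_symm _ _ (C.mem_X_pn.2 h)⟩

end ECfg

end Cfsg.Agent.Lib.PrsSU
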