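import Mathlib
import Cfsg.Agent.Lib.PrsSUU

/-!
# Presentations of special unitary groups: the relations between the even dimensional root groups
-/

set_option autoImplicit false
set_option linter.unusedSectionVars false
set_option linter.unusedVariables false

namespace Cfsg.Agent.Lib.PrsSU

open Subgroup Sum Cfsg.Agent.Lib.SUWitt
open Cfsg.Agent.Lib.PrsSp (SLN Mono wW mono_wW dn mono_dn IsBlk sl_eq dn_mul dn_one dn_inv tv_inv' sl_comm sl_comm' exists_mono2 tv_isBlk)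
open scoped Matrix commutatorElement

lemma ab_ne_signed {m : ℕ} {π : Equiv.Perm (Ix m)} (hs : Signed π) {a b : Ix m} (h : ab a ≠ ab b) : ab (π a) ≠ ab (π b) := by
  intro e
  rw [ab_eq_iff] at e
  apply h
  rw [ab_eq_iff]
  rcases e with e | e
  · left
    exact π.injective e
  · right
    rw [← hs] at e
    exact π.injective e

lemma comm_back {Γ : Type*} [Group Γ] {n x u : Γ} (h : Commute (n⁻¹ * x * n) (n⁻¹ * u * n)) : Commute x u := by
  have := conj_comm (g := n) h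
  have e1 : n * (n⁻¹ * x * n) * n⁻¹ = x := by group
  have e2 : n * (n⁻¹ * u * n) * n⁻¹ = u := by group
  rwa [e1, e2] at this

lemma cm_back {Γ : Type*} [Group Γ] (n x u : Γ) : ⁅x, u⁆ = n * ⁅n⁻¹ * x * n, n⁻¹ * u * n⁆ * n⁻¹ := by
  simp only [commutatorElement_def]
  group

namespace ECfg

variable {Γ : Type*} [Group Γ] {F : Type*} [Field F] {σ : F →+* F} {m : ℕ} (C : ECfg Γ σ m)

lemma X_comm (a b : Ix (m + 1 + 1)) (x : Γ) (hx : x ∈ C.X a b) (y : Γ) (hy : y ∈ C.X a b) : Commute x y := by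
  obtain ⟨_, ⟨t, rfl⟩, rfl⟩ := C.mem_X.1 hx
  obtain ⟨_, ⟨u, rfl⟩, rfl⟩ := C.mem_X.1 hy
  refine conj_comm (?_ : Commute (C.pE _ _ t) (C.pE _ _ u))
  show _ * _ = _ * _
  rw [C.pE_add, C.pE_add]
  exact congrArg _ (add_comm t u)

lemma F2 (a b : Ix (m + 1 + 1)) (hab : ab a ≠ ab b) (x : Γ) (hx : x ∈ C.X a b) (u : Γ) (hu : u ∈ C.M a) : Commute x u := by
  obtain ⟨n, π, hn, hs, h0, h1⟩ := C.move2 a b hab
  have hx' := C.back_X hn h0 h1 hx
  have hu' := C.back_M hn h0 hu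
  obtain ⟨t, ht⟩ := C.mem_X_pp.1 hx'
  obtain ⟨v, hv⟩ := C.mem_M_inl.1 hu'
  refine comm_back (n := n) ?_
  rw [ht, hv, C.fi_zero]
  exact (C.c_be v t).symm

lemma gS_ff {a : Ix (m + 1 + 1)} (h : ab a ≠ 0) (u : F) : Commute (C.gS a) (C.ff u) := by
  cases a with
  | inl i => exact Commute.one_left _
  | inr i => exact C.zi_ff h u

lemma pE_ff {i j : Fin (m + 1 + 1)} (hi : i ≠ 0) (hj : j ≠ 0) (t u : F) : Commute (C.pE i j t) (C.ff u) := by
  have h1 : Commute (C.zi j) (C.ff u) := C.zi_ff hj u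
  refine (h1.mul_left ?_).mul_left h1.inv_left
  by_cases h : i = j
  · subst h
    rw [xE_self]
    exact Commute.one_left _
  · rw [xE_of _ h]
    exact C.blk_ff _ (tv_isBlk h hi hj t) u

lemma F3 (a b c : Ix (m + 1 + 1)) (hab : ab a ≠ ab b) (h1 : ab c ≠ ab a) (h2 : ab c ≠ ab b) (x : Γ) (hx : x ∈ C.X a b) (u : Γ)
    (hu : u ∈ C.M c) : Commute x u := by
  obtain ⟨n, π, hn, hs, h0, -⟩ := C.move2 c a h1
  have hx' := C.back_X hn (a' := π⁻¹ a) (b' := π⁻¹ b) (by simp) (by simp) hx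
  have hu' := C.back_M hn h0 hu
  have hs' := Signed_inv hs
  have e0 : π⁻¹ c = inl 0 := inv_apply_of h0
  have h3 : ab (π⁻¹ a) ≠ 0 := by
    have := ab_ne_signed hs' h1
    rw [e0] at this
    exact fun e => this e.symm
  have h4 : ab (π⁻¹ b) ≠ 0 := by
    have := ab_ne_signed hs' h2
    rw [e0] at this
    exact fun e => this e.symm
  obtain ⟨_, ⟨t, rfl⟩, ht⟩ := C.mem_X.1 hx'
  obtain ⟨v, hv⟩ := C.mem_M_inl.1 hu'
  refine comm_back (n := n) ?_
  rw [← ht, hv, C.fi_zero]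
  have h5 : Commute (C.gS (π⁻¹ a) * C.gS (π⁻¹ b)) (C.ff v) := (C.gS_ff h3 v).mul_left (C.gS_ff h4 v)
  exact (h5.mul_left (C.pE_ff h3 h4 t v)).mul_left h5.inv_left

/-- Moving three positions. -/
lemma move3 (a b c : Ix (m + 1 + 1)) (hab : ab a ≠ ab b) (hac : ab a ≠ ab c) (hbc : ab b ≠ ab c) :
    ∃ (n : Γ) (π : Equiv.Perm (Ix (m + 1 + 1))), C.Act2E n π ∧ Signed π ∧
      π (inl (ab a)) = a ∧ π (inl (ab b)) = b ∧ π (inl (ab c)) = c := by
  refine ⟨C.gS a * C.gS b * C.gS c, OCfg.fS a * OCfg.fS b * OCfg.fS c, Act2E_mul (Act2E_mul (C.act_gS a) (C.act_gS b)) (C.act_gS c),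
    Signed_mul (Signed_mul (OCfg.fS_signed a) (OCfg.fS_signed b)) (OCfg.fS_signed c), ?_, ?_, ?_⟩
  · rw [Equiv.Perm.mul_apply, Equiv.Perm.mul_apply, OCfg.fS_ne (a := c) (c := inl (ab a)) hac, OCfg.fS_ne (a := b) (c := inl (ab a)) hab, OCfg.fS_self]
  · rw [Equiv.Perm.mul_apply, Equiv.Perm.mul_apply, OCfg.fS_ne (a := c) (c := inl (ab b)) hbc, OCfg.fS_self, OCfg.fS_ne (a := a) (c := b) hab.symm]
  · rw [Equiv.Perm.mul_apply, Equiv.Perm.mul_apply, OCfg.fS_self, OCfg.fS_ne (a := b) (c := c) hbc.symm, OCfg.fS_ne (a := a) (c := c) hac.symm]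

/-- Moving four positions. -/
lemma move4 (a b c d : Ix (m + 1 + 1)) (hab : ab a ≠ ab b) (hcd : ab c ≠ ab d) (hac : ab a ≠ ab c) (had : ab a ≠ ab d)
    (hbc : ab b ≠ ab c) (hbd : ab b ≠ ab d) :
    ∃ (n : Γ) (π : Equiv.Perm (Ix (m + 1 + 1))), C.Act2E n π ∧ Signed π ∧
      π (inl (ab a)) = a ∧ π (inl (ab b)) = b ∧ π (inl (ab c)) = c ∧ π (inl (ab d)) = d := by
  refine ⟨C.gS a * C.gS b * C.gS c * C.gS d, OCfg.fS a * OCfg.fS b * OCfg.fS c * OCfg.fS d,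
    Act2E_mul (Act2E_mul (Act2E_mul (C.act_gS a) (C.act_gS b)) (C.act_gS c)) (C.act_gS d),
    Signed_mul (Signed_mul (Signed_mul (OCfg.fS_signed a) (OCfg.fS_signed b)) (OCfg.fS_signed c)) (OCfg.fS_signed d), ?_, ?_, ?_, ?_⟩
  · simp only [Equiv.Perm.mul_apply]
    rw [OCfg.fS_ne (a := d) (c := inl (ab a)) had, OCfg.fS_ne (a := c) (c := inl (ab a)) hac, OCfg.fS_ne (a := b) (c := inl (ab a)) hab, OCfg.fS_self]
  · simp only [Equiv.Perm.mul_apply]
    rw [OCfg.fS_ne (a := d) (c := inl (ab b)) hbd, OCfg.fS_ne (a := c) (c := inl (ab b)) hbc, OCfg.fS_self, OCfg.fS_ne (a := a) (c := b) hab.symm]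
  · simp only [Equiv.Perm.mul_apply]
    rw [OCfg.fS_ne (a := d) (c := inl (ab c)) hcd, OCfg.fS_self, OCfg.fS_ne (a := b) (c := c) hbc.symm, OCfg.fS_ne (a := a) (c := c) hac.symm]
  · simp only [Equiv.Perm.mul_apply]
    rw [OCfg.fS_self, OCfg.fS_ne (a := c) (c := d) hcd.symm, OCfg.fS_ne (a := b) (c := d) hbd.symm, OCfg.fS_ne (a := a) (c := d) had.symm]

/-- The base case of the fifth relation. -/
lemma pE_comm3 {i j k : Fin (m + 1 + 1)} (hij : i ≠ j) (hik : i ≠ k) (hjk : j ≠ k) (t u : F) : Commute (C.pE i j t) (C.pE i k u) := by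
  have h1 : C.pE i j t = C.zi j * (C.zi k * xE C.A i j t * (C.zi k)⁻¹) * (C.zi j)⁻¹ := by
    rw [Commute.conj_eq (C.zi_x_ne hik hjk t)]
    rfl
  have h2 : C.pE i k u = C.zi j * (C.zi k * xE C.A i k u * (C.zi k)⁻¹) * (C.zi j)⁻¹ := by
    have e : C.zi j * (C.zi k * xE C.A i k u * (C.zi k)⁻¹) * (C.zi j)⁻¹ = C.zi k * (C.zi j * xE C.A i k u * (C.zi j)⁻¹) * (C.zi k)⁻¹ := by
      have h3 : C.zi j * C.zi k = C.zi k * C.zi j := (C.zi_comm hjk).eq
      calc C.zi j * (C.zi k * xE C.A i k u * (C.zi k)⁻¹) * (C.zi j)⁻¹ = (C.zi j * C.zi k) * xE C.A i k u * (C.zi j * C.zi k)⁻¹ := by group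
        _ = (C.zi k * C.zi j) * xE C.A i k u * (C.zi k * C.zi j)⁻¹ := by rw [h3]
        _ = _ := by group
    rw [e, Commute.conj_eq (C.zi_x_ne hij hjk.symm u)]
    rfl
  rw [h1, h2]
  exact conj_comm (conj_comm (xE_comm _ hij.symm hik.symm _ _))

lemma F5 (a b c : Ix (m + 1 + 1)) (hab : ab a ≠ ab b) (hac : ab a ≠ ab c) (hbc : ab b ≠ ab c) (x : Γ) (hx : x ∈ C.X a b) (y : Γ)
    (hy : y ∈ C.X a c) : Commute x y := by
  obtain ⟨n, π, hn, hs, h0, h1, h2⟩ := C.move3 a b c hab hac hbc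
  have hx' := C.back_X hn h0 h1 hx
  have hy' := C.back_X hn h0 h2 hy
  obtain ⟨t, ht⟩ := C.mem_X_pp.1 hx'
  obtain ⟨u, hu⟩ := C.mem_X_pp.1 hy'
  refine comm_back (n := n) ?_
  rw [ht, hu]
  exact C.pE_comm3 hab hac hbc t u

/-- The base case of the sixth relation. -/
lemma pE_comm4 {i j k l : Fin (m + 1 + 1)} (hij : i ≠ j) (hkl : k ≠ l) (hik : i ≠ k) (hil : i ≠ l) (hjk : j ≠ k) (hjl : j ≠ l) (t u : F) :
    Commute (C.pE i j t) (C.pE k l u) := by
  have h1 : C.pE i j t = C.zi j * (C.zi l * xE C.A i j t * (C.zi l)⁻¹) * (C.zi j)⁻¹ := by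
    rw [Commute.conj_eq (C.zi_x_ne hil hjl t)]
    rfl
  have h2 : C.pE k l u = C.zi j * (C.zi l * xE C.A k l u * (C.zi l)⁻¹) * (C.zi j)⁻¹ := by
    have e : C.zi j * (C.zi l * xE C.A k l u * (C.zi l)⁻¹) * (C.zi j)⁻¹ = C.zi l * (C.zi j * xE C.A k l u * (C.zi j)⁻¹) * (C.zi l)⁻¹ := by
      have h3 : C.zi j * C.zi l = C.zi l * C.zi j := (C.zi_comm hjl).eq
      calc C.zi j * (C.zi l * xE C.A k l u * (C.zi l)⁻¹) * (C.zi j)⁻¹ = (C.zi j * C.zi l) * xE C.A k l u * (C.zi j * C.zi l)⁻¹ := by group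
        _ = (C.zi l * C.zi j) * xE C.A k l u * (C.zi l * C.zi j)⁻¹ := by rw [h3]
        _ = _ := by group
    rw [e, Commute.conj_eq (C.zi_x_ne hjk.symm hjl.symm u)]
    rfl
  rw [h1, h2]
  exact conj_comm (conj_comm (xE_comm _ hjk hil.symm _ _))

lemma F6 (a b c d : Ix (m + 1 + 1)) (hab : ab a ≠ ab b) (hcd : ab c ≠ ab d) (hac : ab a ≠ ab c) (had : ab a ≠ ab d)
    (hbc : ab b ≠ ab c) (hbd : ab b ≠ ab d) (x : Γ) (hx : x ∈ C.X a b) (y : Γ) (hy : y ∈ C.X c d) : Commute x y := by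
  obtain ⟨n, π, hn, hs, h0, h1, h2, h3⟩ := C.move4 a b c d hab hcd hac had hbc hbd
  have hx' := C.back_X hn h0 h1 hx
  have hy' := C.back_X hn h2 h3 hy
  obtain ⟨t, ht⟩ := C.mem_X_pp.1 hx'
  obtain ⟨u, hu⟩ := C.mem_X_pp.1 hy'
  refine comm_back (n := n) ?_
  rw [ht, hu]
  exact C.pE_comm4 hab hcd hac had hbc hbd t u

lemma F7 (a b c : Ix (m + 1 + 1)) (hab : ab a ≠ ab b) (hac : ab a ≠ ab c) (hbc : ab b ≠ ab c) (x : Γ) (hx : x ∈ C.X a b) (y : Γ)
    (hy : y ∈ C.X (bar a) c) : ⁅x, y⁆ ∈ C.X b c := by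
  obtain ⟨n, π, hn, hs, h0, h1, h2⟩ := C.move3 a (bar b) c (by simpa using hab) hac (by simpa using hbc)
  have hb : π (inr (ab b)) = b := by
    have := hs (inl (ab (bar b)))
    rw [h1, bar_bar] at this
    simpa using this
  have hab' : π (inr (ab a)) = bar a := by
    have := hs (inl (ab a))
    rw [h0] at this
    simpa using this
  have hx' := C.back_X hn h0 hb hx
  have hy' := C.back_X hn hab' h2 hy
  obtain ⟨t, ht⟩ := (C.mem_X_pn (i := ab a) (j := ab b)).1 hx'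
  obtain ⟨u, hu⟩ := (C.mem_X_np (i := ab a) (j := ab c)).1 hy'
  rw [cm_back n x y, ht, hu]
  refine C.forth_X hn hb h2 (a' := inr (ab b)) (b' := inl (ab c)) ?_
  refine C.mem_X_np.2 ?_
  rw [← cm_inv, xE_cm _ (Ne.symm hac) hab (Ne.symm hbc)]
  exact inv_mem ⟨_, rfl⟩

lemma F8 (a b : Ix (m + 1 + 1)) (hab : ab a ≠ ab b) (x : Γ) (hx : x ∈ C.X a (bar b)) (y : Γ) (hy : y ∈ C.X a b) : ⁅x, y⁆ ∈ C.M a := by
  obtain ⟨n, π, hn, hs, h0, h1⟩ := C.move2 a b hab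
  have hb : π (inr 1) = bar b := by
    have := hs (inl 1)
    rw [h1] at this
    simpa using this
  have hx' := C.back_X hn h0 hb hx
  have hy' := C.back_X hn h0 h1 hy
  obtain ⟨t, ht⟩ := (C.mem_X_pn (i := 0) (j := 1)).1 hx'
  obtain ⟨u, hu⟩ := C.mem_X_pp.1 hy'
  rw [cm_back n x y, ht, hu]
  refine C.forth_M hn h0 (C.mem_M_inl.2 ?_)
  change C.cc t u ∈ C.Mp 0
  rw [C.cform, ← C.fi_zero]
  exact C.fi_mem _ _

lemma F4 (a b : Ix (m + 1 + 1)) (hab : ab a ≠ ab b) (u : Γ) (hu : u ∈ C.M (bar a)) (x : Γ) (hx : x ∈ C.X a b) :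
    ∃ r₁ ∈ C.M b, ∃ r₂ ∈ C.X b (bar a), ⁅u, x⁆ = r₁ * r₂ := by
  obtain ⟨n, π, hn, hs, h0, h1⟩ := C.move2 (bar a) b (by simpa using hab)
  have ha : π (inr 0) = a := by
    have := hs (inl 0)
    rw [h0] at this
    simpa using this
  have hu' := C.back_M hn h0 hu
  have hx' := C.back_X hn ha h1 hx
  obtain ⟨v, hv⟩ := C.mem_M_inl.1 hu'
  obtain ⟨s, hs'⟩ := (C.mem_X_np (i := 0) (j := 1)).1 hx'
  rw [fi_zero] at hv
  obtain ⟨v', s', e⟩ := C.f4_base v s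
  refine ⟨n * C.fi 1 v' * n⁻¹, C.forth_M hn h1 (C.mem_M_inl.2 (C.fi_mem _ _)), n * C.be s' * n⁻¹,
    C.forth_X hn h1 h0 (C.mem_X_pp.2 (C.Pp_symm _ _ ⟨s', rfl⟩)), ?_⟩
  rw [cm_back n u x, hv, hs', e]
  group

lemma MM (a b : Ix (m + 1 + 1)) (hab : ab a ≠ ab b) (u : Γ) (hu : u ∈ C.M a) (v : Γ) (hv : v ∈ C.M b) : ⁅u, v⁆ ∈ C.X a b := by
  obtain ⟨n, π, hn, hs, h0, h1⟩ := C.move2 a b hab
  have hu' := C.back_M hn h0 hu
  have hv' := C.back_M hn h1 hv
  obtain ⟨s, hs'⟩ := C.mem_M_inl.1 hu'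
  obtain ⟨t, ht⟩ := C.mem_M_inl.1 hv'
  have hc : Commute u v := by
    refine comm_back (n := n) ?_
    rw [hs', ht, C.fi_zero]
    exact C.ff_fi1 s t
  rw [comm_iff_cm.1 hc]
  exact one_mem _

/-- The torus. -/
noncomputable def T : Subgroup Γ := closure ({x | ∃ μ c, Mono (μ : SLN (m + 1 + 1) F) 1 c ∧ x = C.A μ} ∪ Set.range C.th)

/-- The monomial group. -/
noncomputable def N : Subgroup Γ := closure ({x | ∃ μ π c, Mono (μ : SLN (m + 1 + 1) F) π c ∧ x = C.A μ} ∪ {C.z})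

lemma th_mem_N (c : Fˣ) : C.th c ∈ C.N := by
  have h := C.hz c
  have e : C.th c = (C.A (hU c) * C.z * (C.A (hU c))⁻¹) * C.z⁻¹ := by
    rw [h]
    group
  rw [e]
  have h1 : C.A (hU c) ∈ C.N := subset_closure (Or.inl ⟨_, _, _, mono_hU c, rfl⟩)
  have h2 : C.z ∈ C.N := subset_closure (Or.inr rfl)
  exact mul_mem (mul_mem (mul_mem h1 h2) (inv_mem h1)) (inv_mem h2)

lemma T_le_N : C.T ≤ C.N := by
  refine (closure_le _).2 ?_
  rintro x (⟨μ, c, hM, rfl⟩ | ⟨c, rfl⟩)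
  · exact subset_closure (Or.inl ⟨μ, 1, c, hM, rfl⟩)
  · exact C.th_mem_N c

lemma lift_one' : lift (1 : Equiv.Perm (Fin (m + 1 + 1))) = 1 := by
  ext a
  cases a <;> rfl

lemma T_act2 (t : Γ) (ht : t ∈ C.T) : C.Act2E t 1 := by
  induction ht using closure_induction with
  | mem x hx =>
    rcases hx with ⟨μ, c, hM, rfl⟩ | ⟨c, rfl⟩
    · have := C.act_mono hM
      rwa [lift_one'] at this
    · have := C.act_thi 0 c
      rwa [ECore.thi_zero] at this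
  | one => exact Act2E_one
  | mul x y _ _ hx hy =>
    have := Act2E_mul hx hy
    rwa [mul_one] at this
  | inv x _ hx =>
    have := Act2E_inv hx
    rwa [inv_one] at this

lemma N_act (t : Γ) (ht : t ∈ C.N) : ∃ π : Equiv.Perm (Ix (m + 1 + 1)), Signed π ∧ C.Act2E t π := by
  induction ht using closure_induction with
  | mem x hx =>
    rcases hx with ⟨μ, π, c, hM, rfl⟩ | hx
    · exact ⟨_, Signed_lift π, C.act_mono hM⟩
    · rw [Set.mem_singleton_iff] at hx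
      subst hx
      have := C.act_zi 0
      rw [C.zi_zero] at this
      exact ⟨_, Signed_flip 0, this⟩
  | one => exact ⟨1, Signed_one, Act2E_one⟩
  | mul x y _ _ hx hy =>
    obtain ⟨π, h1, h2⟩ := hx
    obtain ⟨π', h1', h2'⟩ := hy
    exact ⟨_, Signed_mul h1 h1', Act2E_mul h2 h2'⟩
  | inv x _ hx =>
    obtain ⟨π, h1, h2⟩ := hx
    exact ⟨_, Signed_inv h1, Act2E_inv h2⟩

lemma hcs (k : Fin (m + 1)) : k.castSucc ≠ k.succ := (Fin.castSucc_lt_succ).ne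

/-- The reflections. -/
noncomputable def sE : Option (Fin (m + 1)) → Γ
  | none => C.z
  | some k => C.A (wW (hcs k))

lemma sE_mem (i : Option (Fin (m + 1))) : C.sE i ∈ C.N := by
  cases i with
  | none => exact subset_closure (Or.inr rfl)
  | some k => exact subset_closure (Or.inl ⟨_, _, _, mono_wW (hcs k), rfl⟩)

lemma sE_act (i : Option (Fin (m + 1))) : ActsOn C.M C.X (C.sE i) (refl i) ∧ ActsOn C.M C.X (C.sE i)⁻¹ (refl i) := by
  cases i with
  | none =>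
    have := C.act_zi 0
    rw [C.zi_zero] at this
    have h2 := this.2
    rw [flip_inv] at h2
    exact ⟨this.1, h2⟩
  | some k =>
    have := C.act_mono (mono_wW (hcs k))
    have h2 := this.2
    rw [lift_inv, Equiv.swap_inv] at h2
    exact ⟨this.1, h2⟩

lemma sE_sq (i : Option (Fin (m + 1))) : C.sE i * C.sE i ∈ C.T := by
  cases i with
  | none =>
    change C.z * C.z ∈ C.T
    rw [C.z_sq]
    exact subset_closure (Or.inr ⟨_, rfl⟩)
  | some k =>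
    change C.A (wW (hcs k)) * C.A (wW (hcs k)) ∈ C.T
    rw [← map_mul]
    have := (mono_wW (K := F) (hcs k)).mul (mono_wW (hcs k))
    rw [Equiv.swap_mul_self] at this
    exact subset_closure (Or.inl ⟨_, _, this, rfl⟩)

lemma ri_none (x : Γ) (hx : x ∈ C.M (inl 0)) (hne : x ≠ 1) :
    ∃ x₁ ∈ C.M (inl 0), ∃ t ∈ C.T, ∃ x₂ ∈ C.M (inl 0), C.z * x = x₁ * (C.z * t * x₂ * C.z) := by
  obtain ⟨u, rfl⟩ := C.mem_M_inl.1 hx
  rw [fi_zero] at hne ⊢
  have h0 : u + σ u ≠ 0 := fun e => hne (C.ff_tr u (by linear_combination e))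
  have hfix : σ (u + σ u) = u + σ u := by
    simp only [map_add, C.σσ]
    ring
  obtain ⟨c, hc⟩ := C.exists_norm hfix h0
  have hDz := C.hz c
  have hDl := C.hU_ff c C.ξ
  rw [hc, ← C.ff_eq_tr] at hDl
  have key : (C.th c * C.z) * C.ff u = (C.ff u)⁻¹ * ((C.th c * C.z) * (C.th c * C.z) * (C.th c * C.z)) * (C.ff u)⁻¹ * (C.th c * C.z) := by
    rw [← hDz, ← hDl]
    obtain ⟨D, hD⟩ : ∃ D, D = C.A (hU c) := ⟨_, rfl⟩
    rw [← hD]
    calc (D * C.z * D⁻¹) * (D * C.ff C.ξ * D⁻¹) = D * (C.z * C.ff C.ξ) * D⁻¹ := by group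
      _ = D * ((C.ff C.ξ)⁻¹ * (C.z * C.z * C.z) * (C.ff C.ξ)⁻¹ * C.z) * D⁻¹ := by rw [C.ri1]
      _ = _ := by group
  have hzt : C.z * C.th c * C.z⁻¹ = (C.th c)⁻¹ := C.th_z c
  have htz : Commute (C.th c) (C.z * C.z) := by
    rw [C.z_sq]
    show _ * _ = _ * _
    rw [← map_mul, ← map_mul, mul_comm]
  have h5 := ri_alg hzt htz key
  have hm : (C.th c)⁻¹ * (C.ff u)⁻¹ * C.th c ∈ C.M (inl 0) := by
    refine C.mem_M_inl.2 ?_
    have h6 := C.thi_Mp 0 0 c⁻¹ (y := (C.ff u)⁻¹) (by rw [← C.fi_zero]; exact inv_mem (C.fi_mem _ _))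
    rw [ECore.thi_zero, map_inv, inv_inv] at h6
    exact h6
  refine ⟨_, hm, _, mul_mem ?_ (subset_closure (Or.inr ⟨c, rfl⟩)), _, hm, h5⟩
  rw [C.z_sq]
  exact subset_closure (Or.inr ⟨_, rfl⟩)

end ECfg

lemma dn_eq_word {F : Type*} [Field F] {n : ℕ} {i j : Fin n} (h : i ≠ j) {v : F} (hv : v ≠ 0) :
    tvE h v * tvE h.symm (-v⁻¹) * tvE h v = dn h v hv * wW h := by
  have h1 := dn_word h hv
  have h2 : (wW h : SLN n F)⁻¹ = tvE h (-1) * tvE h.symm 1 * tvE h (-1) := by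
    rw [wW]
    simp only [mul_inv_rev]
    rw [tv_inv', tv_inv', neg_neg]
    group
  have h3 : tvE h v * tvE h.symm (-v⁻¹) * tvE h v * tvE h (-1) * tvE h.symm 1 * tvE h (-1) =
      (tvE h v * tvE h.symm (-v⁻¹) * tvE h v) * (tvE h (-1) * tvE h.symm 1 * tvE h (-1)) := by group
  rw [h1, h3, ← h2]
  group

lemma ri_sl {F Γ : Type*} [Field F] [Group Γ] {n : ℕ} (A : SLN n F →* Γ) {i j : Fin n} (h : j ≠ i) {u : F} (hu : u ≠ 0) :
    ∃ x₁ ∈ Xb A i j, ∃ (d : SLN n F) (c : Fin n → F), Mono d 1 c ∧ A (wW h) * xE A i j u = x₁ * (A (wW h) * A d * x₁ * A (wW h)) := by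
  obtain ⟨v, hv'⟩ : ∃ v, v = -u⁻¹ := ⟨_, rfl⟩
  have hv : v ≠ 0 := by
    rw [hv']
    exact neg_ne_zero.2 (inv_ne_zero hu)
  have h1 := dn_eq_word h hv
  have h2 : -v⁻¹ = u := by rw [hv', inv_neg, inv_inv, neg_neg]
  rw [h2] at h1
  have h3 : A (tvE h.symm u) = (A (tvE h v))⁻¹ * (A (dn h v hv) * A (wW h)) * (A (tvE h v))⁻¹ := by
    rw [← map_mul, ← h1]
    simp only [map_mul]
    group
  have hx : A (wW h) * (A (tvE h v))⁻¹ * (A (wW h))⁻¹ ∈ Xb A i j := by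
    have e : (A (tvE h v))⁻¹ = xE A j i (-v) := by rw [← xE_inv, xE_of A h]
    rw [e, xE_mono A (mono_wW h)]
    simp only [Equiv.swap_apply_left, Equiv.swap_apply_right]
    exact ⟨_, rfl⟩
  refine ⟨_, hx, dn h v hv, _, mono_dn h v hv, ?_⟩
  rw [xE_of A h.symm, h3]
  group

namespace ECfg

variable {Γ : Type*} [Group Γ] {F : Type*} [Field F] {σ : F →+* F} {m : ℕ} (C : ECfg Γ σ m)

lemma ri_some (k : Fin (m + 1)) (x : Γ) (hx : x ∈ C.X (inl k.succ) (inr k.castSucc)) (hne : x ≠ 1) :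
    ∃ x₁ ∈ C.X (inl k.succ) (inr k.castSucc), ∃ t ∈ C.T, ∃ x₂ ∈ C.X (inl k.succ) (inr k.castSucc),
      C.sE (some k) * x = x₁ * (C.sE (some k) * t * x₂ * C.sE (some k)) := by
  obtain ⟨u, rfl⟩ := C.mem_X_pn.1 hx
  have hu : u ≠ 0 := by
    rintro rfl
    exact hne (xE_zero _ _ _)
  obtain ⟨x₁, h1, d, c, hd, e⟩ := ri_sl C.A (hcs k) hu
  exact ⟨x₁, C.mem_X_pn.2 h1, C.A d, subset_closure (Or.inl ⟨d, c, hd, rfl⟩), x₁, C.mem_X_pn.2 h1, e⟩

/-- The generation of the root datum. -/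
lemma gen_top (hgen : closure (Set.range C.A ∪ {C.z}) = ⊤) :
    closure ((C.T : Set Γ) ∪ Uh C.M C.X 1 ∪ Set.range C.sE) = ⊤ := by
  obtain ⟨L, hL⟩ : ∃ L, L = closure ((C.T : Set Γ) ∪ Uh C.M C.X 1 ∪ Set.range C.sE) := ⟨_, rfl⟩
  rw [← hL]
  have hU : ∀ x ∈ Uh C.M C.X 1, x ∈ L := fun x hx => by
    rw [hL]
    exact subset_closure (Or.inl (Or.inr hx))
  have hs : ∀ i, C.sE i ∈ L := fun i => by
    rw [hL]
    exact subset_closure (Or.inr ⟨i, rfl⟩)
  have h1 : ∀ (i j : Fin (m + 1 + 1)) (t : F), (j : ℕ) < i → xE C.A i j t ∈ L := by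
    intro i j t hij
    apply hU
    refine subset_closure (mem_USet_X (a := inl i) (b := inr j) ?_ ?_ (C.mem_X_pn.2 ⟨t, rfl⟩))
    · simp only [ab_inl, ab_inr]
      exact (Fin.ne_of_gt hij)
    · simp only [ht_inl, ht_inr]
      omega
  have h2 : ∀ (k : Fin (m + 1)) (t : F), xE C.A k.castSucc k.succ t ∈ L := by
    intro k t
    have hM := mono_wW (K := F) (hcs k)
    obtain ⟨c, hc⟩ : ∃ c : Fin (m + 1 + 1) → F, c = (fun k_1 => if k_1 = k.castSucc then -1 else 1) := ⟨_, rfl⟩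
    rw [← hc] at hM
    have e := xE_mono C.A hM k.succ k.castSucc ((c k.succ)⁻¹ * t * c k.castSucc)
    rw [Equiv.swap_apply_right, Equiv.swap_apply_left] at e
    have e2 : c k.succ * ((c k.succ)⁻¹ * t * c k.castSucc) * (c k.castSucc)⁻¹ = t := by
      have h3 : c k.succ ≠ 0 := hM.ne _
      have h4 : c k.castSucc ≠ 0 := hM.ne _
      field_simp
    rw [e2] at e
    rw [← e]
    exact mul_mem (mul_mem (hs (some k)) (h1 _ _ _ (by simp))) (inv_mem (hs (some k)))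
  have h30 : ∀ (i j : Fin (m + 1 + 1)) (t : F), (j : ℕ) = i + 1 → xE C.A i j t ∈ L := by
    intro i j t h
    have hi : (i : ℕ) < m + 1 := by
      have := j.2
      omega
    have e1 : i = (⟨i, hi⟩ : Fin (m + 1)).castSucc := Fin.ext rfl
    have e2 : j = (⟨i, hi⟩ : Fin (m + 1)).succ := Fin.ext (by simp [h])
    rw [e1, e2]
    exact h2 _ _
  have h3 : ∀ (d : ℕ) (i j : Fin (m + 1 + 1)) (t : F), (j : ℕ) = i + d + 1 → xE C.A i j t ∈ L := by
    intro d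
    induction d with
    | zero =>
      intro i j t h
      exact h30 i j t (by omega)
    | succ d ih =>
      intro i j t h
      have hk : (i : ℕ) + 1 < m + 1 + 1 := by
        have := j.2
        omega
      let k : Fin (m + 1 + 1) := ⟨i + 1, hk⟩
      have h4 : i ≠ k := fun e => by
        have := congrArg Fin.val e
        simp [k] at this
      have h5 : k ≠ j := fun e => by
        have := congrArg Fin.val e
        simp [k] at this
        omega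
      have h6 : i ≠ j := fun e => by
        have := congrArg Fin.val e
        omega
      have e := xE_cm C.A h4 h5 h6 t 1
      rw [mul_one] at e
      rw [← e, commutatorElement_def]
      have a1 := h30 i k t (by simp [k])
      have a2 := ih k j 1 (by simp [k]; omega)
      exact mul_mem (mul_mem (mul_mem a1 a2) (inv_mem a1)) (inv_mem a2)
  have h4 : ∀ (i j : Fin (m + 1 + 1)) (t : F), xE C.A i j t ∈ L := by
    intro i j t
    by_cases h : i = j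
    · subst h
      rw [xE_self]
      exact one_mem _
    rcases lt_or_gt_of_ne (fun e => h (Fin.ext e) : (i : ℕ) ≠ j) with h5 | h5
    · exact h3 ((j : ℕ) - i - 1) i j t (by omega)
    · exact h1 i j t h5
  have hA : ∀ g, C.A g ∈ L := by
    have htop : L.comap C.A = ⊤ := by
      refine Cfsg.Agent.Lib.SLGen.eq_top_of_forall_transvection_mem _ ?_
      intro i j hij c
      show C.A _ ∈ L
      rw [← xE_of]
      exact h4 i j c
    intro g
    have : g ∈ L.comap C.A := by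
      rw [htop]
      trivial
    exact this
  rw [eq_top_iff, ← hgen, closure_le]
  rintro x (⟨g, rfl⟩ | hx)
  · exact hA g
  · rw [Set.mem_singleton_iff] at hx
    subst hx
    exact hs none

/-- The root datum of the configuration. -/
noncomputable def toRootD (hgen : closure (Set.range C.A ∪ {C.z}) = ⊤) : RootD Γ (m + 1) where
  M := C.M
  X := C.X
  T := C.T
  N := C.N
  s := C.sE
  X_symm := fun a b x hx => C.X_symm a b hx
  F2 := C.F2
  F3 := C.F3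
  F4 := C.F4
  F5 := C.F5
  F6 := C.F6
  F7 := C.F7
  F8 := C.F8
  X_comm := fun a b _ x hx y hy => C.X_comm a b x hx y hy
  MM := C.MM
  T_le_N := C.T_le_N
  T_act := fun t ht => (C.T_act2 t ht).1
  act := fun n hn => by
    obtain ⟨π, h1, h2⟩ := C.N_act n hn
    exact ⟨π, h1, h2.1, h2.2⟩
  s_mem := C.sE_mem
  s_act := C.sE_act
  s_sq := C.sE_sq
  ri := by
    intro i
    cases i with
    | none => exact C.ri_none
    | some k => exact C.ri_some k
  gen := C.gen_top hgen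

end ECfg

end Cfsg.Agent.Lib.PrsSU
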