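import Mathlib
import Cfsg.Agent.Lib.PrsSUV

/-!
# Presentations of special unitary groups: the even dimensional configuration from relations
-/

set_option autoImplicit false
set_option linter.unusedSectionVars false
set_option linter.unusedVariables false

namespace Cfsg.Agent.Lib.PrsSU

open Subgroup Sum Cfsg.Agent.Lib.SUWitt
open Cfsg.Agent.Lib.PrsSp (SLN Mono wW mono_wW dn mono_dn IsBlk sl_eq dn_mul dn_one dn_inv tv_inv' sl_comm sl_comm' exists_mono2 tv_isBlk)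
open scoped Matrix commutatorElement

lemma tvE_add {F : Type*} [Field F] {n : ℕ} {i j : Fin n} (h : i ≠ j) (a b : F) : tvE h (a + b) = tvE h a * tvE h b :=
  (Cfsg.Agent.Lib.PrsSp.Cfg.tv_add h a b).symm

lemma tvE_neg {F : Type*} [Field F] {n : ℕ} {i j : Fin n} (h : i ≠ j) (a : F) : tvE h (-a) = (tvE h a)⁻¹ :=
  (tv_inv' h a).symm

/-- The field data. -/
structure EField {F : Type*} [Field F] [Fintype F] (σ : F →+* F) (ζ : Fˣ) (q k0 : ℕ) : Prop where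
  hF : Fintype.card F = q ^ 2
  hσq : ∀ x, σ x = x ^ q
  hq : 2 ≤ q
  hI : Invol σ
  hζ : ∀ c : Fˣ, c ∈ zpowers ζ
  hk0 : ((((nU σ ζ) ^ k0 : Fˣ)) : F) = -1

section FieldLemmas

variable {F : Type*} [Field F] [Fintype F] {σ : F →+* F} {ζ : Fˣ} {q k0 : ℕ} (H : EField σ ζ q k0)
include H

lemma EField.exists_pow (c : Fˣ) : ∃ k : ℕ, ζ ^ k = c := by
  have h := H.hζ c
  rw [← mem_powers_iff_mem_zpowers] at h
  exact h

lemma EField.norm_one_pow (c : Fˣ) : ∃ l : ℕ, (c : F) * (σ c)⁻¹ = ((ζ * ζ : Fˣ) : F) ^ l := by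
  obtain ⟨k, rfl⟩ := H.exists_pow c
  have hc : (((ζ ^ k : Fˣ)) : F) ^ (q ^ 2) = ((ζ ^ k : Fˣ) : F) := by
    rw [← H.hF]
    exact FiniteField.pow_card _
  obtain ⟨l₀, hl₀⟩ : ∃ l₀, q ^ 2 = q + 2 * l₀ := by
    obtain ⟨l₀, hl⟩ := Nat.even_mul_pred_self q
    refine ⟨l₀, ?_⟩
    obtain ⟨r, rfl⟩ : ∃ r, q = r + 1 := ⟨q - 1, by have := H.hq; omega⟩
    simp only [Nat.add_sub_cancel] at hl
    have : (r + 1) ^ 2 = (r + 1) + (r + 1) * r := by ring
    omega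
  refine ⟨k * l₀, ?_⟩
  rw [H.hσq]
  have h0 : ((ζ ^ k : Fˣ) : F) ≠ 0 := Units.ne_zero _
  have h1 : ((ζ ^ k : Fˣ) : F) ^ q ≠ 0 := pow_ne_zero _ h0
  have e : ((ζ * ζ : Fˣ) : F) ^ (k * l₀) = ((ζ ^ k : Fˣ) : F) ^ (2 * l₀) := by
    push_cast
    rw [pow_mul, pow_mul, ← pow_mul, ← pow_mul, ← pow_mul]
    rw [← pow_two]
    ring_nf
  rw [e]
  field_simp
  rw [← pow_add, ← hl₀, hc]

lemma EField.stab_top {w : Fˣ} (hw : w = ζ * ζ ∨ w = (ζ * ζ)⁻¹) (S : AddSubgroup F) (h1 : (1 : F) ∈ S)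
    (hS : ∀ t ∈ S, (w : F) * t ∈ S) : S = ⊤ := by
  have hpow : ∀ (l : ℕ) (t : F), t ∈ S → (w : F) ^ l * t ∈ S := by
    intro l
    induction l with
    | zero =>
      intro t ht
      rwa [pow_zero, one_mul]
    | succ l ih =>
      intro t ht
      rw [pow_succ, mul_assoc]
      exact ih _ (hS t ht)
  refine add_stable_top H.hF H.hσq H.hq S h1 ?_
  intro c t ht
  rcases hw with rfl | rfl
  · obtain ⟨l, hl⟩ := H.norm_one_pow c
    rw [hl]
    exact hpow l t ht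
  · obtain ⟨l, hl⟩ := H.norm_one_pow c⁻¹
    have e : (c : F) * (σ c)⁻¹ = (((ζ * ζ)⁻¹ : Fˣ) : F) ^ l := by
      have h2 : ((c⁻¹ : Fˣ) : F) * (σ ((c⁻¹ : Fˣ) : F))⁻¹ = ((c : F) * (σ c)⁻¹)⁻¹ := by
        simp only [Units.val_inv_eq_inv_val, map_inv₀, inv_inv, mul_inv]
      rw [h2] at hl
      have h3 : (c : F) * (σ c)⁻¹ = (((ζ * ζ : Fˣ) : F) ^ l)⁻¹ := by
        rw [← hl, inv_inv]
      rw [h3]
      simp only [Units.val_inv_eq_inv_val, inv_pow]
    rw [e]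
    exact hpow l t ht

lemma EField.order_nu : orderOf (nU σ ζ) = q - 1 := by
  classical
  have hq := H.hq
  have hcard : Fintype.card Fˣ = q ^ 2 - 1 := by
    rw [Fintype.card_units, H.hF]
  have hord : orderOf ζ = q ^ 2 - 1 := by
    rw [orderOf_eq_card_of_forall_mem_zpowers H.hζ, Nat.card_eq_fintype_card, hcard]
  have hq1 : q ^ 2 - 1 = (q - 1) * (q + 1) := by
    obtain ⟨r, rfl⟩ : ∃ r, q = r + 1 := ⟨q - 1, by omega⟩
    simp only [Nat.add_sub_cancel]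
    have : (r + 1) ^ 2 = r * (r + 1 + 1) + 1 := by ring
    omega
  have e : nU σ ζ = ζ ^ (q + 1) := by
    ext
    rw [nU_coe, H.hσq]
    push_cast
    ring
  rw [e, orderOf_pow_of_dvd (by omega) (by rw [hord, hq1]; exact dvd_mul_left _ _), hord, hq1]
  exact Nat.mul_div_cancel _ (by omega)

end FieldLemmas

/-- The relations. -/
structure ERel (Γ : Type*) [Group Γ] {F : Type*} [Field F] (σ : F →+* F) (m : ℕ) (ζ : Fˣ) (q k0 : ℕ) where
  A : SLN (m + 1 + 1) F →* Γ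
  z : Γ
  blk : ∀ g, IsBlk 0 g → Commute z (A g)
  s21 : (z * A (hU ζ) * z⁻¹) * xE A 0 1 1 * (z * A (hU ζ) * z⁻¹)⁻¹ = xE A 0 1 ((ζ : F) * (σ ζ)⁻¹)
  s22 : (z * A (hU ζ) * z⁻¹) * xE A 1 0 1 * (z * A (hU ζ) * z⁻¹)⁻¹ = xE A 1 0 (σ ζ * ((ζ : F))⁻¹)
  s23 : Commute (z * A (hU ζ) * z⁻¹) (A (hU ζ))
  s31 : (A (hU ζ) * z * (A (hU ζ))⁻¹ * z⁻¹) ^ (q - 1) = 1
  s32 : z * z = (A (hU ζ) * z * (A (hU ζ))⁻¹ * z⁻¹) ^ k0
  z01 : Commute z (A (mE 1) * z * (A (mE 1))⁻¹)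
  s5 : (A (mE 1) * z * (A (mE 1))⁻¹) * xE A 0 1 1 * (A (mE 1) * z * (A (mE 1))⁻¹)⁻¹ = z * xE A 1 0 1 * z⁻¹

namespace ERel

variable {Γ : Type*} [Group Γ] {F : Type*} [Field F] [Fintype F] {σ : F →+* F} {m : ℕ} {ζ : Fˣ} {q k0 : ℕ}
  (C : ERel Γ σ m ζ q k0) (H : EField σ ζ q k0)

/-- The target of the first conjugation. -/
noncomputable def Dp (σ : F →+* F) (m : ℕ) (ζ : Fˣ) : Fin (m + 1 + 1) → Fˣ :=
  fun i => if i = 0 then (Units.map (σ : F →* F) ζ)⁻¹ else if i = 1 then ζ⁻¹ else 1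

lemma Dp_zero : Dp σ m ζ 0 = (Units.map (σ : F →* F) ζ)⁻¹ := by simp [Dp]

lemma Dp_one : Dp σ m ζ 1 = ζ⁻¹ := by simp [Dp]

lemma Dp_ne {i : Fin (m + 1 + 1)} (h0 : i ≠ 0) (h1 : i ≠ 1) : Dp σ m ζ i = 1 := by simp [Dp, h0, h1]

/-- The stabiliser of the first conjugation. -/
noncomputable def St : Subgroup (SLN (m + 1 + 1) F) where
  carrier := {g | (C.z * C.A (hU ζ) * C.z⁻¹) * C.A g * (C.z * C.A (hU ζ) * C.z⁻¹)⁻¹ = C.A (adg (Dp σ m ζ) g)}
  mul_mem' := by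
    intro a b ha hb
    show _ = _
    change _ = _ at ha
    change _ = _ at hb
    rw [map_mul, map_mul, map_mul, ← ha, ← hb]
    group
  one_mem' := by
    show _ = _
    rw [map_one, map_one, map_one]
    group
  inv_mem' := by
    intro a ha
    show _ = _
    change _ = _ at ha
    rw [map_inv, map_inv, map_inv, ← ha]
    group

lemma St_blk (g : SLN (m + 1 + 1) F) (hg : IsBlk 0 g) : g ∈ C.St := by
  show _ = _
  have M := mono_hU (F := F) (m := m) ζ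
  have hg' : IsBlk 0 (hU ζ * g * (hU ζ)⁻¹) := hg.conj M rfl
  have e1 : C.z⁻¹ * C.A g * C.z = C.A g := by
    have := Commute.conj_eq (C.blk g hg).inv_left
    rw [inv_inv] at this
    exact this
  have e2 : (C.z * C.A (hU ζ) * C.z⁻¹) * C.A g * (C.z * C.A (hU ζ) * C.z⁻¹)⁻¹ =
      C.z * (C.A (hU ζ) * (C.z⁻¹ * C.A g * C.z) * (C.A (hU ζ))⁻¹) * C.z⁻¹ := by group
  rw [e2, e1, ← map_inv, ← map_mul, ← map_mul, Commute.conj_eq (C.blk _ hg')]
  congr 1
  apply adg_ext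
  intro r s
  have := M.conj_entry g r s
  simp only [Equiv.Perm.coe_one, id] at this
  rw [this, adg_apply]
  by_cases h0 : r = 0
  · subst h0
    by_cases h1 : s = 0
    · subst h1
      rw [hg.1, mul_one, mul_inv_cancel₀ (M.ne 0)]
      simp
    · rw [(hg.2 s h1).1]
      simp
  · by_cases h1 : s = 0
    · subst h1
      rw [(hg.2 r h0).2]
      simp
    · have e3 : ∀ i : Fin (m + 1 + 1), i ≠ 0 → dC (F := F) m ζ i = (Dp σ m ζ i : F) := by
        intro i hi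
        by_cases h2 : i = 1
        · subst h2
          rw [dC_one, Dp_one]
          simp
        · rw [Dp_ne hi h2]
          simp [dC, hi, h2]
      rw [e3 r h0, e3 s h1]
      simp

lemma St_hU : (hU ζ : SLN (m + 1 + 1) F) ∈ C.St := by
  show _ = _
  rw [adg_mono (mono_hU ζ) _ (fun a => rfl)]
  exact Commute.conj_eq C.s23

lemma St_x01 : tvE (h01E (m := m)) (1 : F) ∈ C.St := by
  show _ = _
  have h := C.s21
  rw [xE_of _ (h01E (m := m)), xE_of _ (h01E (m := m))] at h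
  rw [h, adg_tv, Dp_zero, Dp_one]
  congr 2
  simp [mul_comm]

lemma St_x10 : tvE (h01E (m := m)).symm (1 : F) ∈ C.St := by
  show _ = _
  have h := C.s22
  rw [xE_of _ (h01E (m := m)).symm, xE_of _ (h01E (m := m)).symm] at h
  rw [h, adg_tv, Dp_zero, Dp_one]
  congr 2
  simp [mul_comm]

include H

lemma St_x01' (t : F) : tvE (h01E (m := m)) t ∈ C.St := by
  let S : AddSubgroup F :=
    { carrier := {t | tvE (h01E (m := m)) t ∈ C.St}
      add_mem' := by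
        intro a b ha hb
        show tvE (h01E (m := m)) (a + b) ∈ C.St
        rw [tvE_add]
        exact mul_mem ha hb
      zero_mem' := by
        show tvE (h01E (m := m)) (0 : F) ∈ C.St
        have : tvE (h01E (m := m)) (0 : F) = 1 := by
          apply sl_eq
          simp [Matrix.transvection]
        rw [this]
        exact one_mem _
      neg_mem' := by
        intro a ha
        show tvE (h01E (m := m)) (-a) ∈ C.St
        rw [tvE_neg]
        exact inv_mem ha }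
  have hS : S = ⊤ := by
    refine H.stab_top (w := ζ * ζ) (Or.inl rfl) S C.St_x01 ?_
    intro r hr
    have h1 := (mono_hU (F := F) (m := m) ζ).conj_tv (h01E (m := m)) r
    have h2 : hU ζ * tvE (h01E (m := m)) r * (hU ζ)⁻¹ ∈ C.St := mul_mem (mul_mem C.St_hU hr) (inv_mem C.St_hU)
    rw [h1] at h2
    show tvE (h01E (m := m)) (((ζ * ζ : Fˣ) : F) * r) ∈ C.St
    have e : ((ζ * ζ : Fˣ) : F) * r = dC m ζ 0 * r * (dC m ζ 1)⁻¹ := by
      rw [dC_zero, dC_one, inv_inv]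
      push_cast
      ring
    rw [e]
    exact h2
  have : t ∈ S := by
    rw [hS]
    trivial
  exact this

lemma St_x10' (t : F) : tvE (h01E (m := m)).symm t ∈ C.St := by
  let S : AddSubgroup F :=
    { carrier := {t | tvE (h01E (m := m)).symm t ∈ C.St}
      add_mem' := by
        intro a b ha hb
        show tvE (h01E (m := m)).symm (a + b) ∈ C.St
        rw [tvE_add]
        exact mul_mem ha hb
      zero_mem' := by
        show tvE (h01E (m := m)).symm (0 : F) ∈ C.St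
        have : tvE (h01E (m := m)).symm (0 : F) = 1 := by
          apply sl_eq
          simp [Matrix.transvection]
        rw [this]
        exact one_mem _
      neg_mem' := by
        intro a ha
        show tvE (h01E (m := m)).symm (-a) ∈ C.St
        rw [tvE_neg]
        exact inv_mem ha }
  have hS : S = ⊤ := by
    refine H.stab_top (w := (ζ * ζ)⁻¹) (Or.inr rfl) S C.St_x10 ?_
    intro r hr
    have h1 := (mono_hU (F := F) (m := m) ζ).conj_tv (h01E (m := m)).symm r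
    have h2 : hU ζ * tvE (h01E (m := m)).symm r * (hU ζ)⁻¹ ∈ C.St := mul_mem (mul_mem C.St_hU hr) (inv_mem C.St_hU)
    rw [h1] at h2
    show tvE (h01E (m := m)).symm ((((ζ * ζ)⁻¹ : Fˣ) : F) * r) ∈ C.St
    have e : (((ζ * ζ)⁻¹ : Fˣ) : F) * r = dC m ζ 1 * r * (dC m ζ 0)⁻¹ := by
      rw [dC_zero, dC_one]
      simp only [Units.val_inv_eq_inv_val, Units.val_mul, mul_inv]
      ring
    rw [e]
    exact h2
  have : t ∈ S := by
    rw [hS]
    trivial
  exact this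

lemma St_top : C.St = ⊤ := by
  refine Cfsg.Agent.Lib.SLGen.eq_top_of_forall_transvection_mem _ ?_
  intro i j hij c
  by_cases hi : i = 0
  · subst hi
    by_cases hj : j = 1
    · subst hj
      exact C.St_x01' H c
    · have h0 : (0 : Fin (m + 1 + 1)) ≠ 1 := h01E
      have h1 : (1 : Fin (m + 1 + 1)) ≠ j := Ne.symm hj
      have e := xE_cm (MonoidHom.id (SLN (m + 1 + 1) F)) h0 h1 hij c 1
      rw [mul_one, xE_of _ h0, xE_of _ h1, xE_of _ hij, commutatorElement_def] at e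
      simp only [MonoidHom.id_apply] at e
      change tvE hij c ∈ C.St
      rw [← e]
      have a1 := C.St_x01' H c
      have a2 : tvE h1 (1 : F) ∈ C.St := C.St_blk _ (tv_isBlk h1 (Ne.symm h0) (Ne.symm hij) 1)
      exact mul_mem (mul_mem (mul_mem a1 a2) (inv_mem a1)) (inv_mem a2)
  · by_cases hj : j = 0
    · subst hj
      by_cases hi1 : i = 1
      · subst hi1
        exact C.St_x10' H c
      · have h0 : (1 : Fin (m + 1 + 1)) ≠ 0 := (h01E (m := m)).symm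
        have h1 : i ≠ 1 := hi1
        have e := xE_cm (MonoidHom.id (SLN (m + 1 + 1) F)) h1 h0 hij c 1
        rw [mul_one, xE_of _ h0, xE_of _ h1, xE_of _ hij, commutatorElement_def] at e
        simp only [MonoidHom.id_apply] at e
        change tvE hij c ∈ C.St
        rw [← e]
        have a1 : tvE h1 c ∈ C.St := C.St_blk _ (tv_isBlk h1 hi h0 c)
        have a2 := C.St_x10' H (1 : F)
        exact mul_mem (mul_mem (mul_mem a1 a2) (inv_mem a1)) (inv_mem a2)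
    · exact C.St_blk _ (tv_isBlk hij hi hj c)

lemma tp_act (g : SLN (m + 1 + 1) F) :
    (C.z * C.A (hU ζ) * C.z⁻¹) * C.A g * (C.z * C.A (hU ζ) * C.z⁻¹)⁻¹ = C.A (adg (Dp σ m ζ) g) := by
  have : g ∈ C.St := by
    rw [C.St_top H]
    trivial
  exact this

omit H

/-- The basic long torus element. -/
noncomputable def θ : Γ := C.A (hU ζ) * C.z * (C.A (hU ζ))⁻¹ * C.z⁻¹

lemma θ_inv : (C.θ)⁻¹ = (C.z * C.A (hU ζ) * C.z⁻¹) * (C.A (hU ζ))⁻¹ := by
  rw [θ]
  group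

lemma comm_h_θ : Commute (C.A (hU ζ)) C.θ := by
  have h1 : Commute (C.A (hU ζ)) (C.θ)⁻¹ := by
    rw [θ_inv]
    exact (C.s23.symm).mul_right (Commute.refl _).inv_right
  simpa using h1.inv_right

include H

lemma θ_act (g : SLN (m + 1 + 1) F) : C.θ * C.A g * (C.θ)⁻¹ = C.A (adg (eD 0 (nU σ ζ)) g) := by
  have h1 := C.tp_act H ((hU ζ)⁻¹ * adg (eD 0 (nU σ ζ)) g * hU ζ)
  have e : adg (Dp σ m ζ) ((hU ζ)⁻¹ * adg (eD 0 (nU σ ζ)) g * hU ζ) = g := by
    apply adg_ext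
    intro r s
    have M := (mono_hU (F := F) (m := m) ζ).inv
    have e1 := M.conj_entry (adg (eD 0 (nU σ ζ)) g) r s
    simp only [inv_one, Equiv.Perm.coe_one, id, inv_inv] at e1
    rw [adg_apply, e1, adg_apply]
    have key : ∀ i : Fin (m + 1 + 1), (Dp σ m ζ i : F) * (dC (F := F) m ζ i)⁻¹ * (eD 0 (nU σ ζ) i : F) = 1 := by
      intro i
      by_cases h0 : i = 0
      · subst h0
        rw [Dp_zero, dC_zero, eD_self, nU_coe]
        have h2 : (ζ : F) ≠ 0 := Units.ne_zero _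
        have h3 : σ (ζ : F) ≠ 0 := fun e => h2 (by simpa [H.hI.invol] using congrArg σ e)
        simp only [Units.val_inv_eq_inv_val, Units.coe_map, MonoidHom.coe_coe]
        field_simp
      · rw [eD_ne h0]
        by_cases h2 : i = 1
        · subst h2
          rw [Dp_one, dC_one]
          simp
        · rw [Dp_ne h0 h2]
          simp [dC, h0, h2]
    simp only [Units.val_inv_eq_inv_val]
    have n1 : (Dp σ m ζ s : F) ≠ 0 := Units.ne_zero _
    have n2 : (eD 0 (nU σ ζ) s : F) ≠ 0 := Units.ne_zero _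
    have n3 : (dC (F := F) m ζ s) ≠ 0 := (mono_hU (F := F) (m := m) ζ).ne s
    have hk : dC (F := F) m ζ s = (Dp σ m ζ s : F) * (eD 0 (nU σ ζ) s : F) := by
      calc dC (F := F) m ζ s = dC (F := F) m ζ s * ((Dp σ m ζ s : F) * (dC (F := F) m ζ s)⁻¹ * (eD 0 (nU σ ζ) s : F)) := by rw [key, mul_one]
        _ = _ := by field_simp
    rw [hk]
    calc (Dp σ m ζ r : F) * ((dC (F := F) m ζ r)⁻¹ * ((eD 0 (nU σ ζ) r : F) * (g : Matrix (Fin (m + 1 + 1)) (Fin (m + 1 + 1)) F) r s * (eD 0 (nU σ ζ) s : F)⁻¹) * ((Dp σ m ζ s : F) * (eD 0 (nU σ ζ) s : F))) * (Dp σ m ζ s : F)⁻¹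
        = ((Dp σ m ζ r : F) * (dC (F := F) m ζ r)⁻¹ * (eD 0 (nU σ ζ) r : F)) * (g : Matrix (Fin (m + 1 + 1)) (Fin (m + 1 + 1)) F) r s * ((eD 0 (nU σ ζ) s : F)⁻¹ * (eD 0 (nU σ ζ) s : F)) * ((Dp σ m ζ s : F) * (Dp σ m ζ s : F)⁻¹) := by ring
      _ = _ := by rw [key r, inv_mul_cancel₀ n2, mul_inv_cancel₀ n1, one_mul, mul_one, mul_one]
  rw [e] at h1
  have e2 : (C.θ)⁻¹ * C.A (adg (eD 0 (nU σ ζ)) g) * C.θ = C.A g := by
    rw [← h1]
    simp only [map_mul, map_inv, θ]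
    group
  rw [← e2]
  group

omit H

/-- The long torus. -/
noncomputable def thF (c : Fˣ) : Γ := C.A (hU c) * C.z * (C.A (hU c))⁻¹ * C.z⁻¹

lemma thF_pow (k : ℕ) : C.thF (ζ ^ k) = C.θ ^ k := by
  induction k with
  | zero =>
    simp [thF]
  | succ k ih =>
    have h1 : C.thF (ζ ^ (k + 1)) = C.A (hU ζ) * C.thF (ζ ^ k) * (C.A (hU ζ))⁻¹ * C.θ := by
      have e : (hU (ζ ^ (k + 1)) : SLN (m + 1 + 1) F) = hU ζ * hU (ζ ^ k) := by rw [pow_succ', map_mul]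
      simp only [thF, θ, e, map_mul]
      group
    rw [h1, ih, Commute.conj_eq ((C.comm_h_θ).pow_right k), pow_succ]

include H

/-- The long torus as a homomorphism. -/
noncomputable def th : Fˣ →* Γ where
  toFun := C.thF
  map_one' := by
    simp [thF]
  map_mul' := by
    intro a b
    obtain ⟨k, rfl⟩ := H.exists_pow a
    obtain ⟨l, rfl⟩ := H.exists_pow b
    rw [← pow_add, thF_pow, thF_pow, thF_pow, pow_add]

lemma th_apply (c : Fˣ) : C.th H c = C.thF c := rfl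

lemma th_form (c : Fˣ) : C.A (hU c) * C.z * (C.A (hU c))⁻¹ = C.th H c * C.z := by
  rw [th_apply, thF]
  group

lemma th_norm (c : Fˣ) (hc : nU σ c = 1) : C.th H c = 1 := by
  obtain ⟨k, rfl⟩ := H.exists_pow c
  rw [th_apply, thF_pow]
  have e : nU σ (ζ ^ k) = (nU σ ζ) ^ k := by
    ext
    rw [nU_coe]
    push_cast
    rw [map_pow, nU_coe, mul_pow]
  rw [e] at hc
  obtain ⟨l, rfl⟩ := orderOf_dvd_of_pow_eq_one hc
  rw [H.order_nu, pow_mul]
  have hs : C.θ ^ (q - 1) = 1 := C.s31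
  rw [hs, one_pow]

lemma nU_pow (k : ℕ) : nU σ (ζ ^ k) = (nU σ ζ) ^ k := by
  ext
  rw [nU_coe]
  push_cast
  rw [map_pow, nU_coe, mul_pow]

lemma θpow_act (k : ℕ) (g : SLN (m + 1 + 1) F) : C.θ ^ k * C.A g * (C.θ ^ k)⁻¹ = C.A (adg (eD 0 ((nU σ ζ) ^ k)) g) := by
  induction k generalizing g with
  | zero =>
    simp [eD_one, adg_one]
  | succ k ih =>
    have e : C.θ ^ (k + 1) * C.A g * (C.θ ^ (k + 1))⁻¹ = C.θ ^ k * (C.θ * C.A g * (C.θ)⁻¹) * (C.θ ^ k)⁻¹ := by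
      rw [pow_succ]
      group
    rw [e, C.θ_act H, ih, pow_succ, adg_eD_mul]

lemma th_act (c : Fˣ) (g : SLN (m + 1 + 1) F) : C.th H c * C.A g * (C.th H c)⁻¹ = C.A (adg (eD 0 (nU σ c)) g) := by
  obtain ⟨k, rfl⟩ := H.exists_pow c
  rw [th_apply, thF_pow, C.θpow_act H, nU_pow H]

lemma z_sq : C.z * C.z = C.th H (ζ ^ k0) := by
  rw [th_apply, thF_pow]
  exact C.s32

lemma zθ : C.z * C.θ * C.z⁻¹ = (C.θ)⁻¹ := by
  have h1 : Commute (C.z * C.z) (C.A (hU ζ)) := by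
    have : C.z * C.z = C.θ ^ k0 := C.s32
    rw [this]
    exact ((C.comm_h_θ).symm).pow_left k0
  have e : C.z * C.θ * C.z⁻¹ = (C.z * C.A (hU ζ) * C.z⁻¹) * ((C.z * C.z) * (C.A (hU ζ))⁻¹ * (C.z * C.z)⁻¹) := by
    rw [θ]
    group
  rw [e, Commute.conj_eq h1.inv_right, θ_inv]

lemma th_z (c : Fˣ) : C.z * C.th H c * C.z⁻¹ = (C.th H c)⁻¹ := by
  obtain ⟨k, rfl⟩ := H.exists_pow c
  rw [th_apply, thF_pow, ← conj_pow, C.zθ H, inv_pow]

/-- The element with norm `-1`. -/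
lemma hcneg : ((nU σ (ζ ^ k0) : Fˣ) : F) = -1 := by
  rw [nU_pow H]
  exact H.hk0

omit H

/-- The exchanging element. -/
noncomputable def z1 : Γ := C.A (mE 1) * C.z * (C.A (mE 1))⁻¹

include H

lemma T1_act (c : Fˣ) (g : SLN (m + 1 + 1) F) :
    (C.A (mE 1) * C.th H c * (C.A (mE 1))⁻¹) * C.A g * (C.A (mE 1) * C.th H c * (C.A (mE 1))⁻¹)⁻¹ = C.A (adg (eD 1 (nU σ c)) g) := by
  have M := mono_mE (F := F) (n := m + 1 + 1) 1
  have e1 : (C.A (mE 1) * C.th H c * (C.A (mE 1))⁻¹) * C.A g * (C.A (mE 1) * C.th H c * (C.A (mE 1))⁻¹)⁻¹ =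
      C.A (mE 1) * (C.th H c * C.A ((mE 1)⁻¹ * g * mE 1) * (C.th H c)⁻¹) * (C.A (mE 1))⁻¹ := by
    simp only [map_mul, map_inv]
    group
  rw [e1, C.th_act H, ← map_inv, ← map_mul, ← map_mul, mono_adg M, eD_perm, Equiv.swap_apply_right]
  have : mE 1 * ((mE 1)⁻¹ * g * mE 1) * (mE 1)⁻¹ = g := by group
  rw [this]

lemma hU_z1 (c : Fˣ) : C.A (hU c) * C.z1 * (C.A (hU c))⁻¹ = (C.A (mE 1) * C.th H c⁻¹ * (C.A (mE 1))⁻¹) * C.z1 := by
  have hM := mono_mE (F := F) (n := m + 1 + 1) 1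
  have e : (hU c : SLN (m + 1 + 1) F) * mE 1 = mE 1 * hU c⁻¹ := by
    apply adg_ext
    intro r s
    have h1 := (mono_hU (F := F) (m := m) c).mul hM
    have h2 := hM.mul (mono_hU (F := F) (m := m) c⁻¹)
    rw [h1.entry, h2.entry]
    change (if r = (Equiv.swap 1 0) s then _ else _) = (if r = (Equiv.swap 1 0) s then _ else _)
    by_cases h3 : r = (Equiv.swap 1 0) s
    · rw [if_pos h3, if_pos h3]
      have : dC (F := F) m c (Equiv.swap 1 0 s) = dC (F := F) m c⁻¹ s := by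
        by_cases h4 : s = 0
        · subst h4
          rw [Equiv.swap_apply_right, dC_one, dC_zero]
          simp
        · by_cases h5 : s = 1
          · subst h5
            rw [Equiv.swap_apply_left, dC_one, dC_zero]
            simp
          · rw [Equiv.swap_apply_of_ne_of_ne h5 h4]
            simp [dC, h4, h5]
      rw [this]
      simp only [Equiv.Perm.coe_one, id]
      ring
    · rw [if_neg h3, if_neg h3]
  have e2 : C.A (hU c) * C.A (mE 1) = C.A (mE 1) * C.A (hU c⁻¹) := by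
    rw [← map_mul, ← map_mul, e]
  have e3 : C.A (hU c) * C.z1 * (C.A (hU c))⁻¹ = (C.A (hU c) * C.A (mE 1)) * C.z * (C.A (hU c) * C.A (mE 1))⁻¹ := by
    rw [z1]
    group
  rw [e3, e2, z1]
  have e4 := C.th_form H c⁻¹
  calc C.A (mE 1) * C.A (hU c⁻¹) * C.z * (C.A (mE 1) * C.A (hU c⁻¹))⁻¹ = C.A (mE 1) * (C.A (hU c⁻¹) * C.z * (C.A (hU c⁻¹))⁻¹) * (C.A (mE 1))⁻¹ := by group
    _ = C.A (mE 1) * (C.th H c⁻¹ * C.z) * (C.A (mE 1))⁻¹ := by rw [e4]
    _ = _ := by group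

/-- The spreading of the fifth relation. -/
lemma s5_all (t : F) : C.z1 * xE C.A 0 1 t * (C.z1)⁻¹ = C.z * xE C.A 1 0 (σ t) * C.z⁻¹ := by
  let S : AddSubgroup F :=
    { carrier := {t | C.z1 * xE C.A 0 1 t * (C.z1)⁻¹ = C.z * xE C.A 1 0 (σ t) * C.z⁻¹}
      add_mem' := by
        intro a b ha hb
        change C.z1 * xE C.A 0 1 a * (C.z1)⁻¹ = C.z * xE C.A 1 0 (σ a) * C.z⁻¹ at ha
        change C.z1 * xE C.A 0 1 b * (C.z1)⁻¹ = C.z * xE C.A 1 0 (σ b) * C.z⁻¹ at hb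
        change C.z1 * xE C.A 0 1 (a + b) * (C.z1)⁻¹ = C.z * xE C.A 1 0 (σ (a + b)) * C.z⁻¹
        rw [map_add, ← xE_add, ← xE_add]
        calc C.z1 * (xE C.A 0 1 a * xE C.A 0 1 b) * (C.z1)⁻¹ = (C.z1 * xE C.A 0 1 a * (C.z1)⁻¹) * (C.z1 * xE C.A 0 1 b * (C.z1)⁻¹) := by group
          _ = (C.z * xE C.A 1 0 (σ a) * C.z⁻¹) * (C.z * xE C.A 1 0 (σ b) * C.z⁻¹) := by rw [ha, hb]
          _ = _ := by group
      zero_mem' := by
        change C.z1 * xE C.A 0 1 0 * (C.z1)⁻¹ = C.z * xE C.A 1 0 (σ 0) * C.z⁻¹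
        rw [map_zero, xE_zero, xE_zero]
        group
      neg_mem' := by
        intro a ha
        change C.z1 * xE C.A 0 1 a * (C.z1)⁻¹ = C.z * xE C.A 1 0 (σ a) * C.z⁻¹ at ha
        change C.z1 * xE C.A 0 1 (-a) * (C.z1)⁻¹ = C.z * xE C.A 1 0 (σ (-a)) * C.z⁻¹
        rw [map_neg, ← xE_inv, ← xE_inv]
        have : C.z1 * (xE C.A 0 1 a)⁻¹ * (C.z1)⁻¹ = (C.z1 * xE C.A 0 1 a * (C.z1)⁻¹)⁻¹ := by group
        rw [this, ha]
        group }
  have hS : S = ⊤ := by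
    refine add_stable_top H.hF H.hσq H.hq S ?_ ?_
    · change C.z1 * xE C.A 0 1 1 * (C.z1)⁻¹ = C.z * xE C.A 1 0 (σ 1) * C.z⁻¹
      rw [map_one]
      exact C.s5
    · intro c r hr
      change C.z1 * xE C.A 0 1 r * (C.z1)⁻¹ = C.z * xE C.A 1 0 (σ r) * C.z⁻¹ at hr
      change C.z1 * xE C.A 0 1 ((c : F) * (σ c)⁻¹ * r) * (C.z1)⁻¹ = C.z * xE C.A 1 0 (σ ((c : F) * (σ c)⁻¹ * r)) * C.z⁻¹
      have h0 : (c : F) ≠ 0 := c.ne_zero
      have hs0 : σ (c : F) ≠ 0 := fun e => h0 (by simpa [H.hI.invol] using congrArg σ e)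
      have hx := xE_mono C.A (mono_hU (F := F) (m := m) c)
      simp only [Equiv.Perm.coe_one, id] at hx
      -- the left hand side
      have hL : C.A (hU c) * (C.z1 * xE C.A 0 1 r * (C.z1)⁻¹) * (C.A (hU c))⁻¹ = C.z1 * xE C.A 0 1 ((c : F) * (σ c)⁻¹ * r) * (C.z1)⁻¹ := by
        have e1 : C.A (hU c) * (C.z1 * xE C.A 0 1 r * (C.z1)⁻¹) * (C.A (hU c))⁻¹ =
            (C.A (hU c) * C.z1 * (C.A (hU c))⁻¹) * (C.A (hU c) * xE C.A 0 1 r * (C.A (hU c))⁻¹) * (C.A (hU c) * C.z1 * (C.A (hU c))⁻¹)⁻¹ := by group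
        rw [e1, C.hU_z1 H, hx, dC_zero, dC_one, inv_inv]
        have e2 : (C.A (mE 1) * C.th H c⁻¹ * (C.A (mE 1))⁻¹) * C.z1 = C.z1 * (C.A (mE 1) * C.th H c * (C.A (mE 1))⁻¹) := by
          have h3 := C.th_z H c
          have h4 : C.th H c⁻¹ * C.z = C.z * C.th H c := by
            rw [map_inv]
            rw [← h3]
            group
          rw [z1]
          calc C.A (mE 1) * C.th H c⁻¹ * (C.A (mE 1))⁻¹ * (C.A (mE 1) * C.z * (C.A (mE 1))⁻¹) = C.A (mE 1) * (C.th H c⁻¹ * C.z) * (C.A (mE 1))⁻¹ := by group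
            _ = C.A (mE 1) * (C.z * C.th H c) * (C.A (mE 1))⁻¹ := by rw [h4]
            _ = _ := by group
        rw [e2]
        have e3 := C.T1_act H c (tvE (h01E (m := m)) ((c : F) * r * c))
        rw [adg_tv, eD_ne (h01E (m := m)), eD_self] at e3
        rw [xE_of _ (h01E (m := m)), xE_of _ (h01E (m := m))]
        have e4 : (C.z1 * (C.A (mE 1) * C.th H c * (C.A (mE 1))⁻¹)) * C.A (tvE (h01E (m := m)) ((c : F) * r * c)) * (C.z1 * (C.A (mE 1) * C.th H c * (C.A (mE 1))⁻¹))⁻¹ =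
            C.z1 * ((C.A (mE 1) * C.th H c * (C.A (mE 1))⁻¹) * C.A (tvE (h01E (m := m)) ((c : F) * r * c)) * (C.A (mE 1) * C.th H c * (C.A (mE 1))⁻¹)⁻¹) * (C.z1)⁻¹ := by group
        rw [e4, e3]
        congr 3
        simp only [Units.val_one, one_mul, Units.val_inv_eq_inv_val, nU_coe]
        field_simp
      have hR : C.A (hU c) * (C.z * xE C.A 1 0 (σ r) * C.z⁻¹) * (C.A (hU c))⁻¹ = C.z * xE C.A 1 0 (σ ((c : F) * (σ c)⁻¹ * r)) * C.z⁻¹ := by
        have e1 : C.A (hU c) * (C.z * xE C.A 1 0 (σ r) * C.z⁻¹) * (C.A (hU c))⁻¹ =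
            (C.A (hU c) * C.z * (C.A (hU c))⁻¹) * (C.A (hU c) * xE C.A 1 0 (σ r) * (C.A (hU c))⁻¹) * (C.A (hU c) * C.z * (C.A (hU c))⁻¹)⁻¹ := by group
        rw [e1, C.th_form H, hx, dC_zero, dC_one]
        have h3 := C.th_z H c⁻¹
        rw [map_inv, inv_inv] at h3
        have h4 : C.th H c * C.z = C.z * (C.th H c)⁻¹ := by
          calc C.th H c * C.z = (C.z * (C.th H c)⁻¹ * C.z⁻¹) * C.z := by rw [h3]
            _ = _ := by group
        rw [h4]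
        have e3 := C.th_act H c⁻¹ (tvE (h01E (m := m)).symm ((c : F)⁻¹ * σ r * (c : F)⁻¹))
        rw [map_inv, adg_tv, eD_ne (h01E (m := m)).symm, eD_self] at e3
        rw [xE_of _ (h01E (m := m)).symm, xE_of _ (h01E (m := m)).symm]
        have e4 : (C.z * (C.th H c)⁻¹) * C.A (tvE (h01E (m := m)).symm ((c : F)⁻¹ * σ r * (c : F)⁻¹)) * (C.z * (C.th H c)⁻¹)⁻¹ =
            C.z * ((C.th H c)⁻¹ * C.A (tvE (h01E (m := m)).symm ((c : F)⁻¹ * σ r * (c : F)⁻¹)) * ((C.th H c)⁻¹)⁻¹) * C.z⁻¹ := by group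
        rw [e4, e3]
        congr 3
        simp only [nU_inv, Units.val_one, one_mul, Units.val_inv_eq_inv_val, nU_coe, inv_inv, map_mul, map_inv₀, H.hI.invol]
        field_simp
      rw [← hL, ← hR, hr]
  have : t ∈ S := by
    rw [hS]
    trivial
  exact this

/-- The core of the configuration. -/
noncomputable def toCore : ECore Γ σ m where
  hI := H.hI
  A := C.A
  z := C.z
  th := C.th H
  hz := C.th_form H
  th_norm := C.th_norm H
  th_act := C.th_act H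
  th_z := C.th_z H
  cneg := ζ ^ k0
  hcneg := hcneg H
  z_sq := C.z_sq H
  blk := C.blk
  z01 := C.z01
  s5 := C.s5_all H

end ERel

end Cfsg.Agent.Lib.PrsSU
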