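import Mathlib
import Cfsg.Agent.Lib.PrsSUW

/-!
# Presentations of special unitary groups: the long root elements when there is a third index
-/

set_option autoImplicit false
set_option linter.unusedSectionVars false
set_option linter.unusedVariables false

namespace Cfsg.Agent.Lib.PrsSU

open Subgroup Sum Cfsg.Agent.Lib.SUWitt
open Cfsg.Agent.Lib.PrsSp (SLN Mono wW mono_wW dn mono_dn IsBlk sl_eq dn_mul dn_one dn_inv tv_inv' sl_comm sl_comm' exists_mono2 tv_isBlk)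
open scoped Matrix commutatorElement

lemma comm_cm {Γ : Type*} [Group Γ] {g a b : Γ} (h1 : Commute g a) (h2 : Commute g b) : Commute g ⁅a, b⁆ := by
  rw [commutatorElement_def]
  exact ((h1.mul_right h2).mul_right h1.inv_right).mul_right h2.inv_right

lemma cm_aux_right {Γ : Type*} [Group Γ] {a b β : Γ} (h1 : Commute β a) (h2 : Commute β b) : ⁅a, β * b⁆ = ⁅a, b⁆ := by
  rw [cm_mul_right, comm_iff_cm.1 h1.symm, one_mul, Commute.conj_eq (comm_cm h1 h2)]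

lemma cm_aux_left {Γ : Type*} [Group Γ] {a b c : Γ} (h1 : Commute a b) (h2 : Commute a c) : ⁅a * b, c⁆ = ⁅b, c⁆ := by
  rw [cm_mul_left, comm_iff_cm.1 h2, mul_one, Commute.conj_eq (comm_cm h1 h2)]

lemma blk_gen_ind {F : Type*} [Field F] {m : ℕ} {P : Subgroup (SLN (m + 1 + 1) F)}
    (h : ∀ (j l : Fin (m + 1 + 1)) (hjl : j ≠ l), j ≠ 0 → l ≠ 0 → ∀ t : F, tvE hjl t ∈ P) {g : SLN (m + 1 + 1) F} (hg : IsBlk 0 g) : g ∈ P := by
  obtain ⟨g', rfl⟩ := Cfsg.Agent.Lib.PrsSp.exists_blk hg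
  have htop : P.comap Cfsg.Agent.Lib.PrsSp.blk = ⊤ := by
    refine Cfsg.Agent.Lib.SLGen.eq_top_of_forall_transvection_mem _ ?_
    intro i j hij c
    show Cfsg.Agent.Lib.PrsSp.blk _ ∈ P
    have hne : i.succ ≠ j.succ := fun e => hij (Fin.succ_injective _ e)
    have e : Cfsg.Agent.Lib.PrsSp.blk (Matrix.SpecialLinearGroup.transvection hij c) = tvE hne c := by
      apply sl_eq
      ext r s
      change Cfsg.Agent.Lib.PrsSp.blkM (Matrix.transvection i j c) r s = Matrix.transvection i.succ j.succ c r s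
      refine Fin.cases ?_ (fun r' => ?_) r <;> refine Fin.cases ?_ (fun s' => ?_) s
      · simp [Matrix.transvection, Matrix.one_apply, Matrix.single_apply, (Fin.succ_ne_zero i).symm]
      · simp [Matrix.transvection, Matrix.one_apply, Matrix.single_apply, (Fin.succ_ne_zero i).symm, (Fin.succ_ne_zero s').symm]
      · simp [Matrix.transvection, Matrix.one_apply, Matrix.single_apply, (Fin.succ_ne_zero j).symm, (Fin.succ_ne_zero r')]
      · simp [Matrix.transvection, Matrix.one_apply, Matrix.single_apply, Fin.succ_inj]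
    rw [e]
    exact h _ _ hne (Fin.succ_ne_zero _) (Fin.succ_ne_zero _) c
  have : g' ∈ P.comap Cfsg.Agent.Lib.PrsSp.blk := by
    rw [htop]
    trivial
  exact this

namespace ECore

variable {Γ : Type*} [Group Γ] {F : Type*} [Field F] {σ : F →+* F} {m : ℕ} (C : ECore Γ σ m)

lemma P_comm3 {i j k : Fin (m + 1 + 1)} (hij : i ≠ j) (hik : i ≠ k) (hjk : j ≠ k) (t u : F) :
    Commute (C.zi j * xE C.A i j t * (C.zi j)⁻¹) (C.zi k * xE C.A i k u * (C.zi k)⁻¹) := by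
  have h1 : C.zi j * xE C.A i j t * (C.zi j)⁻¹ = C.zi j * (C.zi k * xE C.A i j t * (C.zi k)⁻¹) * (C.zi j)⁻¹ := by
    rw [Commute.conj_eq (C.zi_x_ne hik hjk t)]
  have h2 : C.zi k * xE C.A i k u * (C.zi k)⁻¹ = C.zi j * (C.zi k * xE C.A i k u * (C.zi k)⁻¹) * (C.zi j)⁻¹ := by
    have e : C.zi j * (C.zi k * xE C.A i k u * (C.zi k)⁻¹) * (C.zi j)⁻¹ = C.zi k * (C.zi j * xE C.A i k u * (C.zi j)⁻¹) * (C.zi k)⁻¹ := by
      have h3 : C.zi j * C.zi k = C.zi k * C.zi j := (C.zi_comm hjk).eq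
      calc C.zi j * (C.zi k * xE C.A i k u * (C.zi k)⁻¹) * (C.zi j)⁻¹ = (C.zi j * C.zi k) * xE C.A i k u * (C.zi j * C.zi k)⁻¹ := by group
        _ = (C.zi k * C.zi j) * xE C.A i k u * (C.zi k * C.zi j)⁻¹ := by rw [h3]
        _ = _ := by group
    rw [e, Commute.conj_eq (C.zi_x_ne hij hjk.symm u)]
  rw [h1, h2]
  exact conj_comm (conj_comm (xE_comm _ hij.symm hik.symm _ _))

lemma be_eq (u : F) : C.be u = C.z * xE C.A 1 0 (σ u) * C.z⁻¹ := C.s5 u

lemma x_be_a {j l : Fin (m + 1 + 1)} (hj1 : j ≠ 1) (hl1 : l ≠ 1) (hl0 : l ≠ 0) (s u : F) : Commute (xE C.A j l s) (C.be u) := by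
  have h1 : Commute (C.zi 1) (xE C.A j l s) := C.zi_x_ne hj1 hl1 s
  have h2 : Commute (xE C.A j l s) (C.al u) := xE_comm _ hl0 hj1.symm _ _
  exact (h1.symm.mul_right h2).mul_right h1.symm.inv_right

lemma x_cc_a {j l : Fin (m + 1 + 1)} (hj1 : j ≠ 1) (hl0 : l ≠ 0) (hl1 : l ≠ 1) (s t u : F) : Commute (xE C.A j l s) (C.cc t u) :=
  comm_cm (xE_comm _ hl0 hj1.symm _ _) (C.x_be_a hj1 hl1 hl0 s u)

lemma x_cc_b {j : Fin (m + 1 + 1)} (hj0 : j ≠ 0) (hj1 : j ≠ 1) (s t u : F) : Commute (xE C.A j 1 s) (C.cc t u) := by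
  have h10 : (1 : Fin (m + 1 + 1)) ≠ 0 := (h01E (m := m)).symm
  have h_al : Commute (xE C.A j 1 s) (C.al t) := xE_comm _ h10 hj1.symm _ _
  have hz : Commute C.z (xE C.A j 1 s) := by
    have := C.zi_x_ne hj0 h10 s
    rwa [zi_zero] at this
  have hb : xE C.A j 1 s * C.be u * (xE C.A j 1 s)⁻¹ = (C.z * xE C.A j 0 (s * σ u) * C.z⁻¹) * C.be u := by
    rw [be_eq]
    have e1 : xE C.A j 1 s * (C.z * xE C.A 1 0 (σ u) * C.z⁻¹) * (xE C.A j 1 s)⁻¹ =
        C.z * (xE C.A j 1 s * xE C.A 1 0 (σ u) * (xE C.A j 1 s)⁻¹) * C.z⁻¹ := by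
      have e2 : xE C.A j 1 s * C.z = C.z * xE C.A j 1 s := hz.eq.symm
      calc xE C.A j 1 s * (C.z * xE C.A 1 0 (σ u) * C.z⁻¹) * (xE C.A j 1 s)⁻¹
          = (xE C.A j 1 s * C.z) * xE C.A 1 0 (σ u) * (xE C.A j 1 s * C.z)⁻¹ := by group
        _ = (C.z * xE C.A j 1 s) * xE C.A 1 0 (σ u) * (C.z * xE C.A j 1 s)⁻¹ := by rw [e2]
        _ = _ := by group
    rw [e1, xE_rel _ hj1 h10 hj0]
    group
  obtain ⟨β, hβ⟩ : ∃ β, β = C.z * xE C.A j 0 (s * σ u) * C.z⁻¹ := ⟨_, rfl⟩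
  rw [← hβ] at hb
  have hβ2 : β = C.zi j * xE C.A 0 j (σ (s * σ u)) * (C.zi j)⁻¹ := by
    rw [hβ, ← C.P_symm hj0 (s * σ u), zi_zero]
  have c1 : Commute β (C.al t) := by
    rw [hβ2]
    have h1 : Commute (C.zi j) (C.al t) := C.zi_x_ne hj0.symm hj1.symm t
    have h2 : Commute (xE C.A 0 j (σ (s * σ u))) (C.al t) := xE_comm _ hj0 h10 _ _
    exact (h1.mul_left h2).mul_left h1.inv_left
  have c2 : Commute β (C.be u) := by
    rw [hβ2]
    exact C.P_comm3 hj0.symm h01E hj1 _ _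
  have e : xE C.A j 1 s * C.cc t u * (xE C.A j 1 s)⁻¹ = C.cc t u := by
    simp only [cc]
    rw [conj_cm, Commute.conj_eq h_al, hb, cm_aux_right c1 c2]
  exact mul_inv_eq_iff_eq_mul.1 e

lemma x_cc_c {l : Fin (m + 1 + 1)} (hl0 : l ≠ 0) (hl1 : l ≠ 1) (s t u : F) : Commute (xE C.A 1 l s) (C.cc t u) := by
  have h10 : (1 : Fin (m + 1 + 1)) ≠ 0 := (h01E (m := m)).symm
  have h_be : Commute (xE C.A 1 l s) (C.be u) := by
    rw [be_eq]
    have hz : Commute C.z (xE C.A 1 l s) := by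
      have := C.zi_x_ne h10 hl0 s
      rwa [zi_zero] at this
    have h2 : Commute (xE C.A 1 l s) (xE C.A 1 0 (σ u)) := xE_comm _ hl1 (h01E (m := m)) _ _
    exact (hz.symm.mul_right h2).mul_right hz.symm.inv_right
  have ha := xE_cm' C.A (h01E (m := m)) hl1.symm hl0.symm t s
  have c1 : Commute (xE C.A 0 l (-(t * s))) (C.al t) := xE_comm _ hl0 h10 _ _
  have c2 : Commute (xE C.A 0 l (-(t * s))) (C.be u) := C.x_be_a (h01E (m := m)) hl1 hl0 _ _
  have e : xE C.A 1 l s * C.cc t u * (xE C.A 1 l s)⁻¹ = C.cc t u := by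
    simp only [cc]
    rw [conj_cm, Commute.conj_eq h_be]
    change ⁅xE C.A 1 l s * xE C.A 0 1 t * (xE C.A 1 l s)⁻¹, C.be u⁆ = ⁅C.al t, C.be u⁆
    rw [ha]
    exact cm_aux_left c1 c2
  exact mul_inv_eq_iff_eq_mul.1 e

lemma x_cc {j l : Fin (m + 1 + 1)} (hj0 : j ≠ 0) (hl0 : l ≠ 0) (s t u : F) : Commute (xE C.A j l s) (C.cc t u) := by
  by_cases h : j = l
  · subst h
    rw [xE_self]
    exact Commute.one_left _
  by_cases h1 : j = 1
  · subst h1
    exact C.x_cc_c hl0 (Ne.symm h) s t u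
  by_cases h2 : l = 1
  · subst h2
    exact C.x_cc_b hj0 h1 s t u
  exact C.x_cc_a h1 hl0 h2 s t u

lemma blk_cc (g : SLN (m + 1 + 1) F) (hg : IsBlk 0 g) (t u : F) : Commute (C.A g) (C.cc t u) := by
  let P : Subgroup (SLN (m + 1 + 1) F) :=
    { carrier := {g | Commute (C.A g) (C.cc t u)}
      mul_mem' := by
        intro a b ha hb
        show Commute (C.A (a * b)) (C.cc t u)
        rw [map_mul]
        exact Commute.mul_left ha hb
      one_mem' := by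
        show Commute (C.A 1) (C.cc t u)
        rw [map_one]
        exact Commute.one_left _
      inv_mem' := by
        intro a ha
        show Commute (C.A a⁻¹) (C.cc t u)
        rw [map_inv]
        exact Commute.inv_left ha }
  have : g ∈ P := by
    refine blk_gen_ind ?_ hg
    intro j l hjl hj hl s
    show Commute (C.A (tvE hjl s)) (C.cc t u)
    rw [← xE_of]
    exact C.x_cc hj hl s t u
  exact this

variable {k : Fin (m + 1 + 1)} (hk0 : k ≠ 0) (hk1 : k ≠ 1)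
include hk0 hk1

lemma cc_far (t u : F) : ∃ t' u', C.cc t u = ⁅xE C.A 0 k t', C.zi k * xE C.A 0 k u' * (C.zi k)⁻¹⁆ := by
  have h1k : (1 : Fin (m + 1 + 1)) ≠ k := Ne.symm hk1
  have M := mono_wW (K := F) h1k
  have h00 : Equiv.swap 1 k (0 : Fin (m + 1 + 1)) = 0 := Equiv.swap_apply_of_ne_of_ne (h01E (m := m)) hk0.symm
  have h0c : (if (0 : Fin (m + 1 + 1)) = 1 then (-1 : F) else 1) = 1 := if_neg (h01E (m := m))
  have hb : IsBlk 0 (wW h1k : SLN (m + 1 + 1) F) := M.isBlk h00 h0c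
  have h2 := C.blk_cc _ hb t u
  have hc : ∀ r, (if r = (1 : Fin (m + 1 + 1)) then (-1 : F) else 1) ^ 2 = 1 := by
    intro r
    split_ifs <;> ring
  have e := Commute.conj_eq h2
  simp only [cc, be, al] at e
  rw [conj_cm] at e
  have e1 : C.A (wW h1k) * (C.zi 1 * xE C.A 0 1 u * (C.zi 1)⁻¹) * (C.A (wW h1k))⁻¹ =
      (C.A (wW h1k) * C.zi 1 * (C.A (wW h1k))⁻¹) * (C.A (wW h1k) * xE C.A 0 1 u * (C.A (wW h1k))⁻¹) * (C.A (wW h1k) * C.zi 1 * (C.A (wW h1k))⁻¹)⁻¹ := by group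
  rw [e1, C.zi_conj_s M hc, xE_mono _ M, xE_mono _ M, h00, Equiv.swap_apply_left] at e
  exact ⟨_, _, e.symm⟩

lemma c_al3 (t u t' : F) : Commute (C.cc t u) (C.al t') := by
  obtain ⟨a, b, e⟩ := C.cc_far hk0 hk1 t u
  rw [e]
  refine (comm_cm ?_ ?_).symm
  · exact xE_comm _ (h01E (m := m)).symm hk0 _ _
  · have h1 : Commute (C.zi k) (C.al t') := C.zi_x_ne hk0.symm hk1.symm t'
    have h2 : Commute (C.al t') (xE C.A 0 k b) := xE_comm _ (h01E (m := m)).symm hk0 _ _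
    exact (h1.symm.mul_right h2).mul_right h1.symm.inv_right

lemma c_be3 (t u u' : F) : Commute (C.cc t u) (C.be u') := by
  obtain ⟨a, b, e⟩ := C.cc_far hk0 hk1 t u
  rw [e]
  refine (comm_cm ?_ ?_).symm
  · exact (C.x_be_a (h01E (m := m)) hk1 hk0 _ _).symm
  · exact C.P_comm3 (h01E (m := m)) hk0.symm hk1.symm _ _

lemma cform3 (t u : F) : C.cc t u = C.ff (σ t * u) := by
  by_cases ht : t = 0
  · subst ht
    rw [cc_zero_left, map_zero, zero_mul]
    exact (C.cc_zero_right 1).symm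
  have h1k : (1 : Fin (m + 1 + 1)) ≠ k := Ne.symm hk1
  have M := mono_dn h1k t ht
  have hb : IsBlk 0 (dn h1k t ht) := by
    refine M.isBlk rfl ?_
    rw [if_neg (h01E (m := m)), if_neg hk0.symm]
  have h2 := C.blk_cc _ hb t u
  have e1 : C.A (dn h1k t ht) * C.al t * (C.A (dn h1k t ht))⁻¹ = C.al 1 := by
    simp only [al]
    rw [xE_mono _ M]
    simp only [Equiv.Perm.coe_one, id]
    rw [if_neg (h01E (m := m)), if_neg hk0.symm, if_pos trivial]
    congr 1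
    field_simp
  have e2 : C.A (dn h1k t ht) * C.zi 1 * (C.A (dn h1k t ht))⁻¹ = C.thi 1 (Units.mk0 t ht) * C.zi 1 := by
    have := C.zi_conj M 1
    simp only [Equiv.Perm.coe_one, id] at this
    rw [this]
    congr 2
  have e3 : C.A (dn h1k t ht) * C.be u * (C.A (dn h1k t ht))⁻¹ = C.be (σ t * u) := by
    have h3 : C.A (dn h1k t ht) * C.al u * (C.A (dn h1k t ht))⁻¹ = C.al (u * t⁻¹) := by
      simp only [al]
      rw [xE_mono _ M]
      simp only [Equiv.Perm.coe_one, id]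
      rw [if_neg (h01E (m := m)), if_neg hk0.symm, if_pos trivial, one_mul]
    have e4 : C.A (dn h1k t ht) * C.be u * (C.A (dn h1k t ht))⁻¹ =
        (C.A (dn h1k t ht) * C.zi 1 * (C.A (dn h1k t ht))⁻¹) * (C.A (dn h1k t ht) * C.al u * (C.A (dn h1k t ht))⁻¹) * (C.A (dn h1k t ht) * C.zi 1 * (C.A (dn h1k t ht))⁻¹)⁻¹ := by
      simp only [be]
      group
    rw [e4, e2, h3]
    have e5 : (C.thi 1 (Units.mk0 t ht) * C.zi 1) * C.al (u * t⁻¹) * (C.thi 1 (Units.mk0 t ht) * C.zi 1)⁻¹ =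
        C.thi 1 (Units.mk0 t ht) * C.be (u * t⁻¹) * (C.thi 1 (Units.mk0 t ht))⁻¹ := by
      simp only [be]
      group
    rw [e5, th1_be]
    congr 1
    simp only [nU_coe, Units.val_mk0]
    field_simp
  have e6 := Commute.conj_eq h2
  simp only [cc] at e6
  rw [conj_cm, e1, e3] at e6
  exact e6.symm

/-- The configuration when there is a third index. -/
noncomputable def toCfg3 [Fintype F] {δ : F} (hδ : δ ≠ 0) (hδ' : σ δ = -δ) (E4 : C.ff δ = 1) (ξ : F) (hξ : ξ + σ ξ = 1) (ξ' : F) (hξ' : σ ξ' ≠ ξ')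
    (r10 : Commute (C.ff ξ) (C.A (mE 1) * C.ff ξ * (C.A (mE 1))⁻¹))
    (ri1 : C.z * C.ff ξ = (C.ff ξ)⁻¹ * (C.z * C.z * C.z) * (C.ff ξ)⁻¹ * C.z)
    (r8a : ∃ v s', ⁅C.ff ξ, xE C.A 1 0 1⁆ = (C.A (mE 1) * C.ff v * (C.A (mE 1))⁻¹) * C.be s')
    (r8b : ∃ v s', ⁅C.ff ξ, xE C.A 1 0 ξ'⁆ = (C.A (mE 1) * C.ff v * (C.A (mE 1))⁻¹) * C.be s') : ECfg Γ σ m where
  toECore := C
  cform := C.cform3 hk0 hk1
  ff_add := fun u v => C.cc_add_right ((C.c_be3 hk0 hk1 1 v u).symm)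
  ff_tr := by
    intro u hu
    obtain ⟨κ, h1, rfl⟩ := trace_zero_form C.hI.invol hδ hδ' hu
    by_cases h0 : κ = 0
    · subst h0
      rw [zero_mul]
      exact C.cc_zero_right 1
    obtain ⟨c, hc⟩ := C.hI.norm_surj κ h1
    have hc0 : c ≠ 0 := by
      rintro rfl
      apply h0
      rw [← hc, zero_mul]
    have h2 := C.hU_cc (Units.mk0 c hc0) 1 δ
    have e : C.cc 1 δ = 1 := E4
    rw [e, C.cform3 hk0 hk1] at h2
    have h3 : C.ff (σ (((Units.mk0 c hc0 : Fˣ) : F) * (Units.mk0 c hc0 : Fˣ) * 1) * (((Units.mk0 c hc0 : Fˣ) : F) * (σ (Units.mk0 c hc0 : Fˣ))⁻¹ * δ)) = 1 := by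
      rw [← h2]
      group
    have hs0 : σ c ≠ 0 := fun e => hc0 (by simpa [C.hI.invol] using congrArg σ e)
    convert h3 using 2
    simp only [Units.val_mk0, map_mul, map_one, mul_one]
    rw [← hc]
    field_simp
  c_al := fun u t => C.c_al3 hk0 hk1 1 u t
  c_be := fun u t => C.c_be3 hk0 hk1 1 u t
  blk_ff := fun g hg u => C.blk_cc g hg 1 u
  hSq := fun S h1 hS κ hκ => sq_span C.hI.invol S h1 hS hκ
  ξ := ξ
  hξ := hξ
  ξ' := ξ'
  hξ' := hξ'
  r10 := r10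
  ri1 := ri1
  r8a := r8a
  r8b := r8b

end ECore

end Cfsg.Agent.Lib.PrsSU
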