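import Mathlib
import Cfsg.Agent.Lib.PrsSUX

/-!
# Presentations of special unitary groups: the long root elements in dimension four
-/

set_option autoImplicit false
set_option linter.unusedSectionVars false
set_option linter.unusedVariables false

namespace Cfsg.Agent.Lib.PrsSU

open Subgroup Sum Cfsg.Agent.Lib.SUWitt
open Cfsg.Agent.Lib.PrsSp (SLN Mono wW mono_wW dn mono_dn IsBlk sl_eq dn_mul dn_one dn_inv tv_inv' sl_comm sl_comm' exists_mono2 tv_isBlk)
open scoped Matrix commutatorElement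

lemma exists_normU {F : Type*} [Field F] {σ : F →+* F} (hI : Invol σ) {κ : F} (h : σ κ = κ) (h0 : κ ≠ 0) :
    ∃ c : Fˣ, ((nU σ c : Fˣ) : F) = κ := by
  obtain ⟨c, hc⟩ := hI.norm_surj κ h
  have hc0 : c ≠ 0 := by
    rintro rfl
    apply h0
    rw [← hc, zero_mul]
  exact ⟨Units.mk0 c hc0, hc⟩

lemma EField.zeta_sq_ne {F : Type*} [Field F] [Fintype F] {σ : F →+* F} {ζ : Fˣ} {q k0 : ℕ} (H : EField σ ζ q k0) :
    σ ((ζ * ζ : Fˣ) : F) ≠ ((ζ * ζ : Fˣ) : F) := by
  classical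
  intro h
  have hq := H.hq
  have hcard : Fintype.card Fˣ = q ^ 2 - 1 := by
    rw [Fintype.card_units, H.hF]
  have hord : orderOf ζ = q ^ 2 - 1 := by
    rw [orderOf_eq_card_of_forall_mem_zpowers H.hζ, Nat.card_eq_fintype_card, hcard]
  rw [H.hσq] at h
  have h1 : (ζ * ζ) ^ q = ζ * ζ := Units.ext (by simpa using h)
  have h2 : ζ ^ (2 * q) = ζ ^ 2 := by
    rw [pow_mul, pow_two, h1]
  have h3 : ζ ^ (2 * (q - 1)) = 1 := by
    have e : 2 * q = 2 * (q - 1) + 2 := by omega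
    rw [e, pow_add] at h2
    exact mul_eq_right.1 h2
  have h4 := orderOf_dvd_of_pow_eq_one h3
  rw [hord] at h4
  have h5 : q ^ 2 - 1 = (q - 1) * (q + 1) := by
    obtain ⟨r, rfl⟩ : ∃ r, q = r + 1 := ⟨q - 1, by omega⟩
    simp only [Nat.add_sub_cancel]
    have : (r + 1) ^ 2 = r * (r + 1 + 1) + 1 := by ring
    omega
  rw [h5] at h4
  have h6 : q + 1 ∣ 2 := by
    have h7 : (q - 1) * (q + 1) ∣ (q - 1) * 2 := by
      rw [mul_comm (q - 1) 2]
      exact h4
    exact Nat.dvd_of_mul_dvd_mul_left (by omega) h7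
  have := Nat.le_of_dvd (by omega) h6
  omega

namespace ECore

variable {Γ : Type*} [Group Γ] {F : Type*} [Field F] [Fintype F] {σ : F →+* F} {m : ℕ}

/-- The extra relations in dimension four. -/
structure E2Rel (C : ECore Γ σ m) (ζ : Fˣ) (δ ξ ξ' : F) : Prop where
  hδ : δ ≠ 0
  hδ' : σ δ = -δ
  E4 : C.ff δ = 1
  hξ : ξ + σ ξ = 1
  hξ' : σ ξ' ≠ ξ'
  E5a : Commute (C.ff ξ) (C.al 1)
  E5b : Commute (C.ff ξ) (C.al ξ')
  E6 : Commute (C.zi 1) (C.ff ξ)
  E7 : Commute (C.thi 1 ζ) (C.ff ξ)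
  E7' : C.A (hU ζ) * C.ff ξ * (C.A (hU ζ))⁻¹ = C.ff (nU σ ζ * ξ)

/-- The central group. -/
noncomputable def Zg (C : ECore Γ σ m) (ξ : F) : Subgroup Γ := closure {x | ∃ c : Fˣ, x = C.A (hU c) * C.ff ξ * (C.A (hU c))⁻¹}

namespace E2Rel

variable {C : ECore Γ σ m} {ζ : Fˣ} {δ ξ ξ' : F} (R : E2Rel C ζ δ ξ ξ') {q k0 : ℕ} (H : EField σ ζ q k0)

include R H

lemma th1_l (b : Fˣ) : Commute (C.thi 1 b) (C.ff ξ) := by
  obtain ⟨k, rfl⟩ := H.exists_pow b
  rw [map_pow]
  exact R.E7.pow_left k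

lemma l_al (t : F) : Commute (C.ff ξ) (C.al t) := by
  let S : AddSubgroup F :=
    { carrier := {t | Commute (C.ff ξ) (C.al t)}
      add_mem' := by
        intro a b ha hb
        show Commute (C.ff ξ) (C.al (a + b))
        rw [← C.al_add]
        exact Commute.mul_right ha hb
      zero_mem' := by
        show Commute (C.ff ξ) (C.al 0)
        rw [C.al_zero]
        exact Commute.one_right _
      neg_mem' := by
        intro a ha
        show Commute (C.ff ξ) (C.al (-a))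
        rw [← C.al_inv]
        exact Commute.inv_right ha }
  have hK : ∀ κ t : F, σ κ = κ → t ∈ S → κ * t ∈ S := by
    intro κ t hκ ht
    by_cases h0 : κ = 0
    · subst h0
      rw [zero_mul]
      exact S.zero_mem
    have hfix : σ κ⁻¹ = κ⁻¹ := by rw [map_inv₀, hκ]
    obtain ⟨c, hc⟩ := exists_normU C.hI hfix (inv_ne_zero h0)
    have h1 := conj_comm (g := C.thi 1 c) (show Commute (C.ff ξ) (C.al t) from ht)
    rw [Commute.conj_eq (R.th1_l H c), C.th1_al] at h1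
    show Commute (C.ff ξ) (C.al (κ * t))
    convert h1 using 2
    rw [Units.val_inv_eq_inv_val, hc, inv_inv]
  obtain ⟨κ₁, κ₂, h1, h2, rfl⟩ := exists_basis C.hI.invol R.hξ' t
  have a1 : κ₁ ∈ S := by
    have := hK κ₁ 1 h1 R.E5a
    rwa [mul_one] at this
  have a2 : κ₂ * ξ' ∈ S := hK κ₂ ξ' h2 R.E5b
  exact S.add_mem a1 a2

lemma l_be (u : F) : Commute (C.ff ξ) (C.be u) :=
  (R.E6.symm.mul_right (R.l_al H u)).mul_right R.E6.symm.inv_right

omit H in
lemma Z_mem (c : Fˣ) : C.A (hU c) * C.ff ξ * (C.A (hU c))⁻¹ ∈ C.Zg ξ := subset_closure ⟨c, rfl⟩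

omit H in
lemma l_mem : C.ff ξ ∈ C.Zg ξ := by
  have := R.Z_mem (c := 1)
  simpa using this

lemma Z_al {x : Γ} (hx : x ∈ C.Zg ξ) (t : F) : Commute x (C.al t) := by
  induction hx using Subgroup.closure_induction with
  | mem x hx =>
    obtain ⟨c, rfl⟩ := hx
    have h0 : ((c : F)) ≠ 0 := c.ne_zero
    have h1 := conj_comm (g := C.A (hU c)) (R.l_al H (((c : F) * c)⁻¹ * t))
    rw [C.hU_al] at h1
    convert h1 using 2
    field_simp
  | one => exact Commute.one_left _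
  | mul a b _ _ ha hb => exact ha.mul_left hb
  | inv a _ ha => exact ha.inv_left

lemma Z_be {x : Γ} (hx : x ∈ C.Zg ξ) (u : F) : Commute x (C.be u) := by
  induction hx using Subgroup.closure_induction with
  | mem x hx =>
    obtain ⟨c, rfl⟩ := hx
    have h0 : ((c : F)) ≠ 0 := c.ne_zero
    have hs0 : σ (c : F) ≠ 0 := fun e => h0 (by simpa [C.hI.invol] using congrArg σ e)
    have h1 := conj_comm (g := C.A (hU c)) (R.l_be H ((σ (c : F)) * (c : F)⁻¹ * u))
    rw [C.hU_be] at h1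
    convert h1 using 2
    field_simp
  | one => exact Commute.one_left _
  | mul a b _ _ ha hb => exact ha.mul_left hb
  | inv a _ ha => exact ha.inv_left

lemma Z_th1 {x : Γ} (hx : x ∈ C.Zg ξ) (b : Fˣ) : Commute (C.thi 1 b) x := by
  induction hx using Subgroup.closure_induction with
  | mem x hx =>
    obtain ⟨c, rfl⟩ := hx
    have h1 := C.th1_hU b c
    exact (h1.mul_right (R.th1_l H b)).mul_right h1.inv_right
  | one => exact Commute.one_right _
  | mul a b _ _ ha hb => exact ha.mul_right hb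
  | inv a _ ha => exact ha.inv_right

omit H in
lemma Z_hU {x : Γ} (hx : x ∈ C.Zg ξ) (c : Fˣ) : C.A (hU c) * x * (C.A (hU c))⁻¹ ∈ C.Zg ξ := by
  induction hx using Subgroup.closure_induction with
  | mem x hx =>
    obtain ⟨c', rfl⟩ := hx
    have := R.Z_mem (c := c * c')
    rw [map_mul, map_mul] at this
    convert this using 1
    group
  | one => simp [one_mem]
  | mul a b _ _ ha hb =>
    rw [conj_mul_conj]
    exact mul_mem ha hb
  | inv a _ ha =>
    rw [conj_inv']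
    exact inv_mem ha

lemma ff_mul (u : F) {v : F} (hv : C.ff v ∈ C.Zg ξ) : C.ff (u + v) = C.ff u * C.ff v :=
  C.cc_add_right ((R.Z_be H hv u).symm)

/-- The action of the diagonal torus. -/
lemma D_cc (b : Fˣ) (hb : σ (b : F) = b) (t u : F) :
    (C.A (hU b) * C.thi 1 b) * C.cc t u * (C.A (hU b) * C.thi 1 b)⁻¹ = C.cc t ((b : F) * b * u) := by
  have e : (C.A (hU b) * C.thi 1 b) * C.cc t u * (C.A (hU b) * C.thi 1 b)⁻¹ =
      C.A (hU b) * (C.thi 1 b * C.cc t u * (C.thi 1 b)⁻¹) * (C.A (hU b))⁻¹ := by group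
  rw [e, C.th1_cc, C.hU_cc]
  have h0 : (b : F) ≠ 0 := b.ne_zero
  congr 1
  · simp only [Units.val_inv_eq_inv_val, nU_coe, hb]
    field_simp
  · simp only [nU_coe, hb]
    field_simp

lemma D_Z (b : Fˣ) {x : Γ} (hx : x ∈ C.Zg ξ) : (C.A (hU b) * C.thi 1 b) * x * (C.A (hU b) * C.thi 1 b)⁻¹ ∈ C.Zg ξ := by
  have e : (C.A (hU b) * C.thi 1 b) * x * (C.A (hU b) * C.thi 1 b)⁻¹ =
      C.A (hU b) * (C.thi 1 b * x * (C.thi 1 b)⁻¹) * (C.A (hU b))⁻¹ := by group
  rw [e, Commute.conj_eq (R.Z_th1 H hx b)]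
  exact R.Z_hU hx b

/-- The elements of the field whose long root element is central. -/
noncomputable def C1 : AddSubgroup F where
  carrier := {u | C.ff u ∈ C.Zg ξ}
  add_mem' := by
    intro a b ha hb
    show C.ff (a + b) ∈ C.Zg ξ
    rw [R.ff_mul H a hb]
    exact mul_mem ha hb
  zero_mem' := by
    show C.ff 0 ∈ C.Zg ξ
    have : C.ff 0 = 1 := C.cc_zero_right 1
    rw [this]
    exact one_mem _
  neg_mem' := by
    intro a ha
    show C.ff (-a) ∈ C.Zg ξ
    have h := R.ff_mul H (-a) ha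
    have e0 : C.ff 0 = 1 := C.cc_zero_right 1
    rw [neg_add_cancel, e0] at h
    rw [eq_inv_of_mul_eq_one_left h.symm]
    exact inv_mem ha

lemma C1_sq (b : F) (hb : σ b = b) (hb0 : b ≠ 0) (t : F) (ht : t ∈ R.C1 H) : b * b * t ∈ R.C1 H := by
  have h1 := R.D_Z H (Units.mk0 b hb0) (show C.ff t ∈ C.Zg ξ from ht)
  change C.A _ * C.thi 1 _ * C.cc 1 t * _ ∈ C.Zg ξ at h1
  rw [R.D_cc H (Units.mk0 b hb0) hb] at h1
  exact h1

lemma C1_all (u : F) : C.ff u ∈ C.Zg ξ := by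
  have hsq : ∀ (v : F), v ∈ R.C1 H → ∀ κ : F, σ κ = κ → κ * v ∈ R.C1 H := by
    intro v hv κ hκ
    let S : AddSubgroup F := (R.C1 H).comap (AddMonoidHom.mulRight v)
    have : κ ∈ S := by
      refine sq_span C.hI.invol S ?_ ?_ hκ
      · show 1 * v ∈ R.C1 H
        rwa [one_mul]
      · intro b hb hb0 t ht
        show b * b * t * v ∈ R.C1 H
        have := R.C1_sq H b hb hb0 _ ht
        have e : (AddMonoidHom.mulRight v) t = t * v := rfl
        rw [e] at this
        rwa [mul_assoc (b * b)]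
    exact this
  have h1 : ξ ∈ R.C1 H := R.l_mem
  have h2 : δ ∈ R.C1 H := by
    show C.ff δ ∈ C.Zg ξ
    rw [R.E4]
    exact one_mem _
  obtain ⟨κ, h3, h4⟩ := trace_decomp C.hI.invol R.hδ R.hδ' R.hξ u
  have h5 : σ (u + σ u) = u + σ u := by
    simp only [map_add, C.hI.invol]
    ring
  have : u ∈ R.C1 H := by
    rw [h4]
    exact (R.C1 H).add_mem (hsq ξ h1 _ h5) (hsq δ h2 _ h3)
  exact this

lemma ff_add (u v : F) : C.ff (u + v) = C.ff u * C.ff v := R.ff_mul H u (R.C1_all H v)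

lemma ff_neg (u : F) : C.ff (-u) = (C.ff u)⁻¹ := by
  have h := R.ff_add H (-u) u
  have e0 : C.ff 0 = 1 := C.cc_zero_right 1
  rw [neg_add_cancel, e0] at h
  exact eq_inv_of_mul_eq_one_left h.symm

lemma D_ff (b : Fˣ) (hb : σ (b : F) = b) (u : F) :
    (C.A (hU b) * C.thi 1 b) * C.ff u * (C.A (hU b) * C.thi 1 b)⁻¹ = C.ff ((b : F) * b * u) := R.D_cc H b hb 1 u

lemma ff_tr (u : F) (hu : σ u = -u) : C.ff u = 1 := by
  obtain ⟨κ, h1, rfl⟩ := trace_zero_form C.hI.invol R.hδ R.hδ' hu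
  let S : AddSubgroup F :=
    { carrier := {κ | C.ff (κ * δ) = 1}
      add_mem' := by
        intro a b ha hb
        show C.ff ((a + b) * δ) = 1
        change C.ff (a * δ) = 1 at ha
        change C.ff (b * δ) = 1 at hb
        rw [add_mul, R.ff_add H, ha, hb, one_mul]
      zero_mem' := by
        show C.ff (0 * δ) = 1
        rw [zero_mul]
        exact C.cc_zero_right 1
      neg_mem' := by
        intro a ha
        show C.ff (-a * δ) = 1
        change C.ff (a * δ) = 1 at ha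
        rw [neg_mul, R.ff_neg H, ha, inv_one] }
  have : κ ∈ S := by
    refine sq_span C.hI.invol S ?_ ?_ h1
    · show C.ff (1 * δ) = 1
      rw [one_mul]
      exact R.E4
    · intro b hb hb0 t ht
      change C.ff (t * δ) = 1 at ht
      show C.ff (b * b * t * δ) = 1
      have := R.D_ff H (Units.mk0 b hb0) hb (t * δ)
      rw [ht] at this
      simp only [Units.val_mk0] at this
      rw [mul_assoc (b * b)]
      rw [← this]
      group
  exact this

lemma ff_congr {u v : F} (h : u + σ u = v + σ v) : C.ff u = C.ff v := by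
  have h1 : C.ff (u + -v) = 1 := R.ff_tr H _ (by
    simp only [map_add, map_neg]
    linear_combination h)
  rw [R.ff_add H, R.ff_neg H] at h1
  exact mul_inv_eq_one.1 h1

/-- The class two property. -/
lemma cc_Z (t u : F) : C.cc t u ∈ C.Zg ξ := by
  let S : AddSubgroup F :=
    { carrier := {t | ∀ u, C.cc t u ∈ C.Zg ξ}
      add_mem' := by
        intro a b ha hb u
        rw [C.cc_add_left ((R.Z_al H (hb u) a).symm)]
        exact mul_mem (hb u) (ha u)
      zero_mem' := by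
        intro u
        rw [C.cc_zero_left]
        exact one_mem _
      neg_mem' := by
        intro a ha u
        have h := C.cc_add_left (s := -a) ((R.Z_al H (ha u) (-a)).symm)
        rw [neg_add_cancel, C.cc_zero_left] at h
        rw [eq_inv_of_mul_eq_one_right h.symm]
        exact inv_mem (ha u) }
  have hS : S = ⊤ := by
    refine H.stab_top (w := ζ * ζ) (Or.inl rfl) S ?_ ?_
    · exact fun u => R.C1_all H u
    · intro r hr u
      have h0 : (ζ : F) ≠ 0 := ζ.ne_zero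
      have hs0 : σ (ζ : F) ≠ 0 := fun e => h0 (by simpa [C.hI.invol] using congrArg σ e)
      have h1 := R.Z_hU (hr (σ (ζ : F) * (ζ : F)⁻¹ * u)) ζ
      rw [C.hU_cc] at h1
      convert h1 using 2
      · push_cast
        ring
      · field_simp
  have : t ∈ S := by
    rw [hS]
    trivial
  exact this u

lemma cc_add_r (t u v : F) : C.cc t (u + v) = C.cc t u * C.cc t v :=
  C.cc_add_right ((R.Z_be H (R.cc_Z H t v) u).symm)

lemma cc_add_l (s t u : F) : C.cc (s + t) u = C.cc s u * C.cc t u := by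
  rw [add_comm, C.cc_add_left ((R.Z_al H (R.cc_Z H s u) t).symm)]

lemma cc_neg_l (t u : F) : C.cc (-t) u = (C.cc t u)⁻¹ := by
  have h := R.cc_add_l H (-t) t u
  rw [neg_add_cancel, C.cc_zero_left] at h
  exact eq_inv_of_mul_eq_one_left h.symm

lemma balanced (κ : F) (hκ : σ κ = κ) (t u : F) : C.cc (κ * t) u = C.cc t (κ * u) := by
  by_cases h0 : κ = 0
  · subst h0
    rw [zero_mul, zero_mul, C.cc_zero_left, C.cc_zero_right]
  obtain ⟨b, hb⟩ := exists_normU C.hI hκ h0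
  have h1 := C.th1_cc b (κ * t) u
  rw [Commute.conj_eq (R.Z_th1 H (R.cc_Z H _ _) b), Units.val_inv_eq_inv_val, hb] at h1
  rw [h1]
  congr 1
  field_simp

/-- The action of the generator of the torus on the long root elements. -/
lemma s0_ff (u : F) : C.A (hU ζ) * C.ff u * (C.A (hU ζ))⁻¹ = C.ff (nU σ ζ * u) := by
  have hν : σ ((nU σ ζ : Fˣ) : F) = nU σ ζ := by
    simp only [nU_coe, map_mul, C.hI.invol]
    ring
  have hk : ∀ κ : F, σ κ = κ → C.A (hU ζ) * C.ff (κ * ξ) * (C.A (hU ζ))⁻¹ = C.ff (nU σ ζ * (κ * ξ)) := by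
    let S : AddSubgroup F :=
      { carrier := {κ | C.A (hU ζ) * C.ff (κ * ξ) * (C.A (hU ζ))⁻¹ = C.ff (nU σ ζ * (κ * ξ))}
        add_mem' := by
          intro a b ha hb
          change C.A (hU ζ) * C.ff (a * ξ) * (C.A (hU ζ))⁻¹ = C.ff (nU σ ζ * (a * ξ)) at ha
          change C.A (hU ζ) * C.ff (b * ξ) * (C.A (hU ζ))⁻¹ = C.ff (nU σ ζ * (b * ξ)) at hb
          change C.A (hU ζ) * C.ff ((a + b) * ξ) * (C.A (hU ζ))⁻¹ = C.ff (nU σ ζ * ((a + b) * ξ))
          rw [add_mul, R.ff_add H, conj_mul_conj, ha, hb, ← R.ff_add H]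
          congr 1
          ring
        zero_mem' := by
          change C.A (hU ζ) * C.ff (0 * ξ) * (C.A (hU ζ))⁻¹ = C.ff (nU σ ζ * (0 * ξ))
          have e0 : C.ff 0 = 1 := C.cc_zero_right 1
          rw [zero_mul, mul_zero, e0]
          group
        neg_mem' := by
          intro a ha
          change C.A (hU ζ) * C.ff (a * ξ) * (C.A (hU ζ))⁻¹ = C.ff (nU σ ζ * (a * ξ)) at ha
          change C.A (hU ζ) * C.ff (-a * ξ) * (C.A (hU ζ))⁻¹ = C.ff (nU σ ζ * (-a * ξ))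
          rw [neg_mul, R.ff_neg H, conj_inv', ha, mul_neg, R.ff_neg H] }
    intro κ hκ
    have : κ ∈ S := by
      refine sq_span C.hI.invol S ?_ ?_ hκ
      · change C.A (hU ζ) * C.ff (1 * ξ) * (C.A (hU ζ))⁻¹ = C.ff (nU σ ζ * (1 * ξ))
        rw [one_mul]
        exact R.E7'
      · intro b hb hb0 t ht
        change C.A (hU ζ) * C.ff (t * ξ) * (C.A (hU ζ))⁻¹ = C.ff (nU σ ζ * (t * ξ)) at ht
        change C.A (hU ζ) * C.ff (b * b * t * ξ) * (C.A (hU ζ))⁻¹ = C.ff (nU σ ζ * (b * b * t * ξ))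
        have e1 := R.D_ff H (Units.mk0 b hb0) hb (t * ξ)
        have e2 := R.D_ff H (Units.mk0 b hb0) hb (nU σ ζ * (t * ξ))
        simp only [Units.val_mk0] at e1 e2
        have hc : Commute (C.A (hU ζ)) (C.A (hU (Units.mk0 b hb0)) * C.thi 1 (Units.mk0 b hb0)) := by
          refine Commute.mul_right ?_ (C.th1_hU _ _).symm
          show C.A _ * C.A _ = C.A _ * C.A _
          rw [← map_mul, ← map_mul, ← map_mul, ← map_mul, mul_comm]
        have e3 : b * b * t * ξ = b * b * (t * ξ) := by ring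
        have e4 : nU σ ζ * (b * b * (t * ξ)) = b * b * (nU σ ζ * (t * ξ)) := by ring
        rw [e3, e4, ← e1, ← e2, ← ht]
        generalize C.A (hU (Units.mk0 b hb0)) * C.thi 1 (Units.mk0 b hb0) = D at hc
        have e5 : C.A (hU ζ) * D = D * C.A (hU ζ) := hc.eq
        calc C.A (hU ζ) * (D * C.ff (t * ξ) * D⁻¹) * (C.A (hU ζ))⁻¹ = (C.A (hU ζ) * D) * C.ff (t * ξ) * (C.A (hU ζ) * D)⁻¹ := by group
          _ = (D * C.A (hU ζ)) * C.ff (t * ξ) * (D * C.A (hU ζ))⁻¹ := by rw [e5]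
          _ = _ := by group
    exact this
  have h5 : σ (u + σ u) = u + σ u := by
    simp only [map_add, C.hI.invol]
    ring
  have e1 : C.ff u = C.ff ((u + σ u) * ξ) := by
    apply R.ff_congr H
    rw [map_mul, h5]
    linear_combination (-(u + σ u)) * R.hξ
  rw [e1, hk _ h5]
  apply R.ff_congr H
  simp only [map_mul, hν, h5]
  linear_combination (((nU σ ζ : Fˣ) : F) * (u + σ u)) * R.hξ

lemma cform (t u : F) : C.cc t u = C.ff (σ t * u) := by
  let S : AddSubgroup F :=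
    { carrier := {t | ∀ u, C.cc t u = C.ff (σ t * u)}
      add_mem' := by
        intro a b ha hb u
        rw [R.cc_add_l H, ha, hb, ← R.ff_add H, map_add, add_mul]
      zero_mem' := by
        intro u
        rw [C.cc_zero_left, map_zero, zero_mul]
        exact (C.cc_zero_right 1).symm
      neg_mem' := by
        intro a ha u
        rw [R.cc_neg_l H, ha, map_neg, neg_mul, R.ff_neg H] }
  have hK : ∀ κ r : F, σ κ = κ → r ∈ S → κ * r ∈ S := by
    intro κ r hκ hr u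
    rw [R.balanced H κ hκ, hr, map_mul, hκ]
    congr 1
    ring
  have h1 : (1 : F) ∈ S := by
    intro u
    rw [map_one, one_mul]
    rfl
  have h2 : ((ζ * ζ : Fˣ) : F) ∈ S := by
    intro w
    have h0 : (ζ : F) ≠ 0 := ζ.ne_zero
    have hs0 : σ (ζ : F) ≠ 0 := fun e => h0 (by simpa [C.hI.invol] using congrArg σ e)
    have e1 := R.s0_ff H (σ (ζ : F) * (ζ : F)⁻¹ * w)
    change C.A (hU ζ) * C.cc 1 _ * (C.A (hU ζ))⁻¹ = _ at e1
    rw [C.hU_cc] at e1
    have e2 : (ζ : F) * ζ * 1 = ((ζ * ζ : Fˣ) : F) := by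
      push_cast
      ring
    have e3 : (ζ : F) * (σ ζ)⁻¹ * (σ (ζ : F) * (ζ : F)⁻¹ * w) = w := by
      field_simp
    rw [e2, e3] at e1
    rw [e1]
    congr 1
    simp only [nU_coe, Units.val_mul, map_mul]
    field_simp
  obtain ⟨κ₁, κ₂, h3, h4, rfl⟩ := exists_basis C.hI.invol H.zeta_sq_ne t
  have a1 : κ₁ ∈ S := by
    have := hK κ₁ 1 h3 h1
    rwa [mul_one] at this
  exact (S.add_mem a1 (hK κ₂ _ h4 h2)) u

end E2Rel

/-- The configuration in dimension four (or without a third index). -/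
noncomputable def toCfg2 (C : ECore Γ σ m) {ζ : Fˣ} {δ ξ ξ' : F} (R : E2Rel C ζ δ ξ ξ') {q k0 : ℕ} (H : EField σ ζ q k0)
    (hblk : ∀ g, IsBlk 0 g → ∀ u, Commute (C.A g) (C.ff u))
    (r10 : Commute (C.ff ξ) (C.A (mE 1) * C.ff ξ * (C.A (mE 1))⁻¹))
    (ri1 : C.z * C.ff ξ = (C.ff ξ)⁻¹ * (C.z * C.z * C.z) * (C.ff ξ)⁻¹ * C.z)
    (r8a : ∃ v s', ⁅C.ff ξ, xE C.A 1 0 1⁆ = (C.A (mE 1) * C.ff v * (C.A (mE 1))⁻¹) * C.be s')
    (r8b : ∃ v s', ⁅C.ff ξ, xE C.A 1 0 ξ'⁆ = (C.A (mE 1) * C.ff v * (C.A (mE 1))⁻¹) * C.be s') : ECfg Γ σ m where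
  toECore := C
  cform := R.cform H
  ff_add := R.ff_add H
  ff_tr := R.ff_tr H
  c_al := fun u t => R.Z_al H (R.C1_all H u) t
  c_be := fun u t => R.Z_be H (R.C1_all H u) t
  blk_ff := hblk
  hSq := fun S h1 hS κ hκ => sq_span C.hI.invol S h1 hS hκ
  ξ := ξ
  hξ := R.hξ
  ξ' := ξ'
  hξ' := R.hξ'
  r10 := r10
  ri1 := ri1
  r8a := r8a
  r8b := r8b

end ECore

end Cfsg.Agent.Lib.PrsSU
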