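import Mathlib
import Cfsg.Agent.Lib.PrsSUY

/-!
# Presentations of special unitary groups: the even dimensional model
-/

set_option autoImplicit false
set_option linter.unusedSectionVars false
set_option linter.unusedVariables false

namespace Cfsg.Agent.Lib.PrsSU

open Subgroup Sum Cfsg.Agent.Lib.SUWitt
open Cfsg.Agent.Lib.PrsSp (SLN Mono wW mono_wW dn mono_dn IsBlk sl_eq dn_mul dn_one dn_inv tv_inv' sl_comm sl_comm' exists_mono2 tv_isBlk)
open scoped Matrix commutatorElement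

section Sums

variable {F : Type*} [Field F] {n : ℕ} {σ : F →+* F}

lemma hJ_sum_left {ι : Type*} (s : Finset ι) (f : ι → Fin n → F) (v : Fin n → F) :
    hJ σ (∑ i ∈ s, f i) v = ∑ i ∈ s, hJ σ (f i) v := by
  classical
  induction s using Finset.induction_on with
  | empty => simp [hJ_zero_left]
  | insert a s ha ih => rw [Finset.sum_insert ha, Finset.sum_insert ha, hJ_add_left, ih]

lemma hJ_sum_right {ι : Type*} (s : Finset ι) (f : ι → Fin n → F) (v : Fin n → F) :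
    hJ σ v (∑ i ∈ s, f i) = ∑ i ∈ s, hJ σ v (f i) := by
  classical
  induction s using Finset.induction_on with
  | empty => simp [hJ_zero_right]
  | insert a s ha ih => rw [Finset.sum_insert ha, Finset.sum_insert ha, hJ_add_right, ih]

lemma sum_e (x : Fin n → F) : x = ∑ s, x s • e s := by
  ext r
  simp only [Finset.sum_apply, Pi.smul_apply, smul_eq_mul, e_apply]
  simp

/-- Preservation of the form on the basis is enough. -/
lemma pres_of_basis {A : Matrix (Fin n) (Fin n) F} (h : ∀ s t, hJ σ (A *ᵥ e s) (A *ᵥ e t) = hJ σ (e s : Fin n → F) (e t)) (x y : Fin n → F) :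
    hJ σ (A *ᵥ x) (A *ᵥ y) = hJ σ x y := by
  conv_lhs => rw [sum_e x, sum_e y]
  conv_rhs => rw [sum_e x, sum_e y]
  simp only [Matrix.mulVec_sum, Matrix.mulVec_smul, hJ_sum_left, hJ_sum_right, hJ_smul_left, hJ_smul_right, h]

end Sums

section Idx

variable {m : ℕ}

/-- The even dimension. -/
abbrev nE (m : ℕ) : ℕ := 2 * (m + 1 + 1)

/-- The coordinates of the even dimensional space. -/
def idxE : Ix (m + 1 + 1) → Fin (nE m)
  | inl i => ⟨i, by have := i.2; simp only [nE]; omega⟩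
  | inr i => ⟨2 * (m + 1 + 1) - 1 - i, by have := i.2; simp only [nE]; omega⟩

lemma idxE_rev (a : Ix (m + 1 + 1)) : (idxE a).rev = idxE (bar a) := by
  apply Fin.ext
  cases a with
  | inl i =>
    have := i.2
    simp only [Fin.val_rev, idxE, bar_inl, nE]
    omega
  | inr i =>
    have := i.2
    simp only [Fin.val_rev, idxE, bar_inr, nE]
    omega

lemma idxE_inj : Function.Injective (idxE : Ix (m + 1 + 1) → Fin (nE m)) := by
  intro a b h
  have h' := congrArg Fin.val h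
  cases a with
  | inl i =>
    cases b with
    | inl j =>
      simp only [idxE] at h'
      rw [Fin.ext h']
    | inr j =>
      have := i.2
      have := j.2
      simp only [idxE] at h'
      omega
  | inr i =>
    cases b with
    | inl j =>
      have := i.2
      have := j.2
      simp only [idxE] at h'
      omega
    | inr j =>
      have := i.2
      have := j.2
      simp only [idxE] at h'
      have : i = j := Fin.ext (by omega)
      rw [this]

lemma idxE_surj (s : Fin (nE m)) : ∃ a : Ix (m + 1 + 1), idxE a = s := by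
  have hs := s.2
  simp only [nE] at hs
  by_cases h : (s : ℕ) < m + 1 + 1
  · exact ⟨inl ⟨s, h⟩, Fin.ext rfl⟩
  · refine ⟨inr ⟨2 * (m + 1 + 1) - 1 - s, by omega⟩, Fin.ext ?_⟩
    simp only [idxE]
    omega

/-- The coordinates as an equivalence. -/
noncomputable def eE (m : ℕ) : Ix (m + 1 + 1) ≃ Fin (nE m) := Equiv.ofBijective idxE ⟨idxE_inj, idxE_surj⟩

lemma eE_apply (a : Ix (m + 1 + 1)) : eE m a = idxE a := rfl

end Idx

section Vec

variable {m : ℕ} {F : Type*} [Field F] {σ : F →+* F}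

/-- The basis vectors. -/
abbrev vE (a : Ix (m + 1 + 1)) : Fin (nE m) → F := e (idxE a)

lemma vE_apply (a c : Ix (m + 1 + 1)) : (vE a : Fin (nE m) → F) (idxE c) = if c = a then 1 else 0 := by
  show (e (idxE a) : Fin (nE m) → F) (idxE c) = _
  rw [e_apply]
  by_cases h : c = a
  · simp [h]
  · rw [if_neg h, if_neg (fun e => h (idxE_inj e))]

lemma hJ_vE (a b : Ix (m + 1 + 1)) : hJ σ (vE a : Fin (nE m) → F) (vE b) = if a = bar b then 1 else 0 := by
  rw [hJ_e_e, idxE_rev]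
  by_cases h : a = bar b
  · simp [h]
  · rw [if_neg h, if_neg (fun e => h (idxE_inj e))]

lemma hJ_vE_ne {a b : Ix (m + 1 + 1)} (h : a ≠ bar b) : hJ σ (vE a : Fin (nE m) → F) (vE b) = 0 := by
  rw [hJ_vE, if_neg h]

lemma hJ_vE_bar (a : Ix (m + 1 + 1)) : hJ σ (vE (bar a) : Fin (nE m) → F) (vE a) = 1 := by
  rw [hJ_vE, if_pos rfl]

lemma hJ_vE_bar' (a : Ix (m + 1 + 1)) : hJ σ (vE a : Fin (nE m) → F) (vE (bar a)) = 1 := by
  rw [hJ_vE, if_pos (by simp)]

/-- The block matrix. -/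
def BM (σ : F →+* F) (g gi : Matrix (Fin (m + 1 + 1)) (Fin (m + 1 + 1)) F) : Matrix (Ix (m + 1 + 1)) (Ix (m + 1 + 1)) F :=
  Matrix.fromBlocks g 0 0 (gi.map σ)ᵀ

@[simp] lemma BM_ll (g gi : Matrix (Fin (m + 1 + 1)) (Fin (m + 1 + 1)) F) (i j : Fin (m + 1 + 1)) : BM σ g gi (inl i) (inl j) = g i j := rfl
@[simp] lemma BM_lr (g gi : Matrix (Fin (m + 1 + 1)) (Fin (m + 1 + 1)) F) (i j : Fin (m + 1 + 1)) : BM σ g gi (inl i) (inr j) = 0 := rfl
@[simp] lemma BM_rl (g gi : Matrix (Fin (m + 1 + 1)) (Fin (m + 1 + 1)) F) (i j : Fin (m + 1 + 1)) : BM σ g gi (inr i) (inl j) = 0 := rfl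
@[simp] lemma BM_rr (g gi : Matrix (Fin (m + 1 + 1)) (Fin (m + 1 + 1)) F) (i j : Fin (m + 1 + 1)) : BM σ g gi (inr i) (inr j) = σ (gi j i) := rfl

/-- The matrix in the model. -/
noncomputable def PsiM (σ : F →+* F) (g gi : Matrix (Fin (m + 1 + 1)) (Fin (m + 1 + 1)) F) : Matrix (Fin (nE m)) (Fin (nE m)) F :=
  (BM σ g gi).submatrix (eE m).symm (eE m).symm

lemma PsiM_apply (g gi : Matrix (Fin (m + 1 + 1)) (Fin (m + 1 + 1)) F) (a b : Ix (m + 1 + 1)) :
    PsiM σ g gi (idxE a) (idxE b) = BM σ g gi a b := by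
  have e1 : ∀ a : Ix (m + 1 + 1), (eE m).symm (idxE a) = a := fun a => (eE m).symm_apply_apply a
  simp only [PsiM, Matrix.submatrix_apply, e1]

lemma PsiM_e (g gi : Matrix (Fin (m + 1 + 1)) (Fin (m + 1 + 1)) F) (b : Ix (m + 1 + 1)) :
    PsiM σ g gi *ᵥ vE b = ∑ a, BM σ g gi a b • vE a := by
  ext r
  obtain ⟨c, rfl⟩ := idxE_surj r
  rw [mulVec_e_apply, PsiM_apply, Finset.sum_apply, Finset.sum_eq_single c]
  · simp [vE_apply]
  · intro d _ hd
    simp [vE_apply, Ne.symm hd]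
  · simp

lemma PsiM_mul (g gi h hi : Matrix (Fin (m + 1 + 1)) (Fin (m + 1 + 1)) F) :
    PsiM σ g gi * PsiM σ h hi = PsiM σ (g * h) (hi * gi) := by
  unfold PsiM BM
  rw [Matrix.submatrix_mul_equiv, Matrix.fromBlocks_multiply, Matrix.map_mul, Matrix.transpose_mul]
  simp

lemma PsiM_det (g gi : Matrix (Fin (m + 1 + 1)) (Fin (m + 1 + 1)) F) : (PsiM σ g gi).det = g.det * σ gi.det := by
  unfold PsiM BM
  rw [Matrix.det_submatrix_equiv_self, Matrix.det_fromBlocks_zero₁₂, Matrix.det_transpose, RingHom.map_det]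
  rfl

lemma PsiM_pres (hσ : ∀ x, σ (σ x) = x) {g gi : Matrix (Fin (m + 1 + 1)) (Fin (m + 1 + 1)) F} (h1 : gi * g = 1) (x y : Fin (nE m) → F) :
    hJ σ (PsiM σ g gi *ᵥ x) (PsiM σ g gi *ᵥ y) = hJ σ x y := by
  refine pres_of_basis ?_ x y
  intro s t
  obtain ⟨a, rfl⟩ := idxE_surj s
  obtain ⟨c, rfl⟩ := idxE_surj t
  change hJ σ (PsiM σ g gi *ᵥ vE a) (PsiM σ g gi *ᵥ vE c) = hJ σ (vE a : Fin (nE m) → F) (vE c)
  rw [PsiM_e, PsiM_e, hJ_vE]
  have key : hJ σ (∑ b, BM σ g gi b a • (vE b : Fin (nE m) → F)) (∑ d, BM σ g gi d c • vE d) = ∑ b, BM σ g gi b a * σ (BM σ g gi (bar b) c) := by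
    rw [hJ_sum_left]
    refine Finset.sum_congr rfl fun b _ => ?_
    rw [hJ_smul_left, hJ_sum_right]
    congr 1
    rw [Finset.sum_eq_single (bar b)]
    · rw [hJ_smul_right, hJ_vE_bar', mul_one]
    · intro d _ hd
      rw [hJ_smul_right, hJ_vE_ne, mul_zero]
      intro e
      apply hd
      rw [e, bar_bar]
    · simp
  rw [key, Fintype.sum_sum_type]
  have h2 : ∀ j l, ∑ i, gi l i * g i j = (1 : Matrix (Fin (m + 1 + 1)) (Fin (m + 1 + 1)) F) l j := by
    intro j l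
    rw [← h1, Matrix.mul_apply]
  cases a with
  | inl j =>
    cases c with
    | inl l => simp
    | inr l =>
      simp only [BM_ll, BM_lr, BM_rl, BM_rr, bar_inl, bar_inr, hσ, zero_mul, Finset.sum_const_zero, add_zero]
      have e1 : ∀ i, g i j * gi l i = gi l i * g i j := fun i => mul_comm _ _
      simp only [e1, h2, Matrix.one_apply]
      by_cases h : j = l
      · simp [h]
      · have h' : l ≠ j := Ne.symm h
        simp [h, h']
  | inr j =>
    cases c with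
    | inl l =>
      simp only [BM_ll, BM_lr, BM_rl, BM_rr, bar_inl, bar_inr, zero_mul, Finset.sum_const_zero, zero_add]
      have e1 : ∑ i, σ (gi j i) * σ (g i l) = σ (∑ i, gi j i * g i l) := by
        rw [map_sum]
        simp only [map_mul]
      rw [e1, h2, Matrix.one_apply]
      by_cases h : j = l
      · simp [h]
      · simp [h]
    | inr l => simp

end Vec

section Hom

variable {m : ℕ} {F : Type*} [Field F] {σ : F →+* F} {Gt : Type*} [Group Gt] (Mo : Model (n := nE m) σ Gt)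

lemma sl_inv_mul (g : SLN (m + 1 + 1) F) : ((g⁻¹ : SLN (m + 1 + 1) F) : Matrix (Fin (m + 1 + 1)) (Fin (m + 1 + 1)) F) * g = 1 := by
  rw [← Matrix.SpecialLinearGroup.coe_mul, inv_mul_cancel]
  rfl

lemma PsiM_sl_det (g : SLN (m + 1 + 1) F) : (PsiM σ (g : Matrix (Fin (m + 1 + 1)) (Fin (m + 1 + 1)) F) ((g⁻¹ : SLN (m + 1 + 1) F) : Matrix (Fin (m + 1 + 1)) (Fin (m + 1 + 1)) F)).det = 1 := by
  rw [PsiM_det, g.2, (g⁻¹ : SLN (m + 1 + 1) F).2]
  simp

/-- The embedding of the special linear group. -/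
noncomputable def psE : SLN (m + 1 + 1) F →* Gt :=
  MonoidHom.mk' (fun g => Classical.choose (Mo.realize (PsiM σ (g : Matrix (Fin (m + 1 + 1)) (Fin (m + 1 + 1)) F) ((g⁻¹ : SLN (m + 1 + 1) F) : Matrix (Fin (m + 1 + 1)) (Fin (m + 1 + 1)) F))
      (PsiM_pres Mo.hσ.invol (sl_inv_mul g)) (PsiM_sl_det g))) (by
    intro g h
    apply Mo.inj
    rw [map_mul, Classical.choose_spec (Mo.realize (PsiM σ ((g * h : SLN (m + 1 + 1) F) : Matrix (Fin (m + 1 + 1)) (Fin (m + 1 + 1)) F) (((g * h)⁻¹ : SLN (m + 1 + 1) F) : Matrix (Fin (m + 1 + 1)) (Fin (m + 1 + 1)) F)) (PsiM_pres Mo.hσ.invol (sl_inv_mul _)) (PsiM_sl_det _)),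
      Classical.choose_spec (Mo.realize (PsiM σ (g : Matrix (Fin (m + 1 + 1)) (Fin (m + 1 + 1)) F) ((g⁻¹ : SLN (m + 1 + 1) F) : Matrix (Fin (m + 1 + 1)) (Fin (m + 1 + 1)) F)) (PsiM_pres Mo.hσ.invol (sl_inv_mul _)) (PsiM_sl_det _)),
      Classical.choose_spec (Mo.realize (PsiM σ (h : Matrix (Fin (m + 1 + 1)) (Fin (m + 1 + 1)) F) ((h⁻¹ : SLN (m + 1 + 1) F) : Matrix (Fin (m + 1 + 1)) (Fin (m + 1 + 1)) F)) (PsiM_pres Mo.hσ.invol (sl_inv_mul _)) (PsiM_sl_det _)),
      PsiM_mul, mul_inv_rev, Matrix.SpecialLinearGroup.coe_mul, Matrix.SpecialLinearGroup.coe_mul])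

lemma toM_psE (g : SLN (m + 1 + 1) F) : Mo.toM (psE Mo g) = PsiM σ (g : Matrix (Fin (m + 1 + 1)) (Fin (m + 1 + 1)) F) ((g⁻¹ : SLN (m + 1 + 1) F) : Matrix (Fin (m + 1 + 1)) (Fin (m + 1 + 1)) F) :=
  Classical.choose_spec (Mo.realize _ (PsiM_pres Mo.hσ.invol (sl_inv_mul g)) (PsiM_sl_det g))

lemma psE_e (g : SLN (m + 1 + 1) F) (b : Ix (m + 1 + 1)) :
    Mo.toM (psE Mo g) *ᵥ vE b = ∑ a, BM σ (g : Matrix (Fin (m + 1 + 1)) (Fin (m + 1 + 1)) F) ((g⁻¹ : SLN (m + 1 + 1) F) : Matrix (Fin (m + 1 + 1)) (Fin (m + 1 + 1)) F) a b • vE a := by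
  rw [toM_psE, PsiM_e]

lemma psE_coord (g : SLN (m + 1 + 1) F) (a b : Ix (m + 1 + 1)) :
    (Mo.toM (psE Mo g) *ᵥ vE b) (idxE a) = BM σ (g : Matrix (Fin (m + 1 + 1)) (Fin (m + 1 + 1)) F) ((g⁻¹ : SLN (m + 1 + 1) F) : Matrix (Fin (m + 1 + 1)) (Fin (m + 1 + 1)) F) a b := by
  rw [mulVec_e_apply, toM_psE, PsiM_apply]

/-- The action of monomial elements. -/
lemma psE_mono_inl {μ : SLN (m + 1 + 1) F} {π : Equiv.Perm (Fin (m + 1 + 1))} {c : Fin (m + 1 + 1) → F} (M : Mono μ π c) (j : Fin (m + 1 + 1)) :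
    Mo.toM (psE Mo μ) *ᵥ vE (inl j) = c j • vE (inl (π j)) := by
  ext r
  obtain ⟨a, rfl⟩ := idxE_surj r
  rw [psE_coord]
  cases a with
  | inl i =>
    rw [BM_ll, M.entry, Pi.smul_apply, vE_apply, smul_eq_mul]
    by_cases h : i = π j
    · simp [h]
    · have h' : (inl i : Ix (m + 1 + 1)) ≠ inl (π j) := fun e => h (Sum.inl.inj e)
      simp [h]
  | inr i =>
    rw [BM_rl, Pi.smul_apply, vE_apply, smul_eq_mul]
    simp

lemma psE_mono_inr {μ : SLN (m + 1 + 1) F} {π : Equiv.Perm (Fin (m + 1 + 1))} {c : Fin (m + 1 + 1) → F} (M : Mono μ π c) (j : Fin (m + 1 + 1)) :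
    Mo.toM (psE Mo μ) *ᵥ vE (inr j) = (σ (c j))⁻¹ • vE (inr (π j)) := by
  ext r
  obtain ⟨a, rfl⟩ := idxE_surj r
  rw [psE_coord]
  cases a with
  | inl i =>
    rw [BM_lr, Pi.smul_apply, vE_apply, smul_eq_mul]
    simp
  | inr i =>
    rw [BM_rr, M.inv_entry, Pi.smul_apply, vE_apply, smul_eq_mul]
    by_cases h : π j = i
    · subst h
      simp
    · have h' : i ≠ π j := fun e => h e.symm
      simp [h, h']

/-- The root elements of the special linear group. -/
lemma psE_tv {i j : Fin (m + 1 + 1)} (h : i ≠ j) (t : F) : psE Mo (tvE h t) = Mo.E (vE (inl i)) ((- σ t) • vE (inr j)) 0 := by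
  have hσ := Mo.hσ.invol
  have hc : Cond σ (vE (inl i) : Fin (nE m) → F) ((- σ t) • vE (inr j)) 0 := by
    refine ⟨hJ_vE_ne (by simp), ?_, ?_⟩
    · rw [hJ_smul_left, hJ_vE_ne (by simpa using Ne.symm h), mul_zero]
    · rw [hJ_smul_left, hJ_smul_right, hJ_vE_ne (by simp)]
      simp
  apply Model.G_ext' (D := Mo)
  intro s
  obtain ⟨b, rfl⟩ := idxE_surj s
  ext r
  obtain ⟨a, rfl⟩ := idxE_surj r
  rw [Model.act_E hc]
  change (Mo.toM (psE Mo (tvE h t)) *ᵥ vE b) (idxE a) = _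
  rw [psE_coord, tv_inv']
  simp only [hJ_smul_right, hJ_vE, map_neg, hσ, Pi.sub_apply, Pi.add_apply, Pi.smul_apply, smul_eq_mul, vE_apply]
  have hh : ∀ (t : F) (p l : Fin (m + 1 + 1)), ((tvE h t : SLN (m + 1 + 1) F) : Matrix (Fin (m + 1 + 1)) (Fin (m + 1 + 1)) F) p l = (if p = l then 1 else 0) + (if p = i ∧ l = j then t else 0) := by
    intro t p l
    change (Matrix.transvection i j t) p l = _
    simp only [Matrix.transvection, Matrix.add_apply, Matrix.one_apply, Matrix.single_apply]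
    by_cases h1 : p = i ∧ l = j
    · obtain ⟨rfl, rfl⟩ := h1
      simp
    · have h2 : ¬ (i = p ∧ j = l) := fun e => h1 ⟨e.1.symm, e.2.symm⟩
      simp [h1, h2]
  cases a with
  | inl p =>
    cases b with
    | inl l =>
      rw [BM_ll, hh]
      by_cases h1 : p = l <;> by_cases h2 : p = i <;> by_cases h3 : l = j <;> simp [h1, h2, h3, h, Ne.symm h]
    | inr l =>
      rw [BM_lr]
      simp
  | inr p =>
    cases b with
    | inl l =>
      rw [BM_rl]
      simp
    | inr l =>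
      rw [BM_rr]
      erw [hh]
      by_cases h1 : l = p
      · subst h1
        by_cases h2 : l = i
        · subst h2
          have h3 : ¬ l = j := h
          simp [h3]
        · simp [h2]
      · have h1' : ¬ p = l := fun e => h1 e.symm
        by_cases h2 : l = i
        · subst h2
          by_cases h3 : p = j
          · subst h3
            simp [h1, h1']
          · simp [h1, h1', h3]
        · simp [h1, h1', h2]

end Hom

end Cfsg.Agent.Lib.PrsSU
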