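import Mathlib
import Cfsg.Agent.Lib.PrsSUZ

/-!
# Presentations of special unitary groups: root elements in the even dimensional model
-/

set_option autoImplicit false
set_option linter.unusedSectionVars false
set_option linter.unusedVariables false

namespace Cfsg.Agent.Lib.PrsSU

open Subgroup Sum Cfsg.Agent.Lib.SUWitt
open Cfsg.Agent.Lib.PrsSp (SLN Mono wW mono_wW dn mono_dn IsBlk sl_eq dn_mul dn_one dn_inv tv_inv' sl_comm sl_comm' exists_mono2 tv_isBlk blk blk_isBlk exists_blk)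
open scoped Matrix commutatorElement

section RootE

variable {m : ℕ} {F : Type*} [Field F] {σ : F →+* F} {Gt : Type*} [Group Gt] (Mo : Model (n := nE m) σ Gt)

/-- The short root elements of the model. -/
noncomputable def sE (a b : Ix (m + 1 + 1)) (c : F) : Gt := Mo.E (vE a) (c • vE b) 0

/-- The long root elements of the model. -/
noncomputable def lE (a : Ix (m + 1 + 1)) (c : F) : Gt := Mo.E (vE a) 0 c

lemma cond_s {a b : Ix (m + 1 + 1)} (hab : ab a ≠ ab b) (c : F) : Cond σ (vE a : Fin (nE m) → F) (c • vE b) 0 := by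
  refine ⟨hJ_vE_ne (bar_ne a).symm, ?_, ?_⟩
  · rw [hJ_smul_left, hJ_vE_ne, mul_zero]
    rintro rfl
    exact hab (by simp)
  · rw [hJ_smul_left, hJ_smul_right, hJ_vE_ne (bar_ne b).symm]
    simp

lemma cond_l (a : Ix (m + 1 + 1)) {c : F} (hc : c + σ c = 0) : Cond σ (vE a : Fin (nE m) → F) 0 c := by
  refine ⟨hJ_vE_ne (bar_ne a).symm, hJ_zero_left _, ?_⟩
  rw [hJ_zero_left, add_zero, hc]

lemma sE_act {a b : Ix (m + 1 + 1)} (hab : ab a ≠ ab b) (c : F) (x : Fin (nE m) → F) :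
    Mo.toM (sE Mo a b c) *ᵥ x = x + hJ σ x (vE a) • (c • vE b) - (σ c * hJ σ x (vE b)) • vE a := by
  rw [sE, Model.act_E (cond_s hab c), hJ_smul_right]
  ext r
  simp

lemma lE_act (a : Ix (m + 1 + 1)) {c : F} (hc : c + σ c = 0) (x : Fin (nE m) → F) :
    Mo.toM (lE Mo a c) *ᵥ x = x + (hJ σ x (vE a) * c) • vE a := by
  rw [lE, Model.act_E (cond_l a hc), hJ_zero_right]
  ext r
  simp
  ring

/-- Conjugation of the short root elements. -/
lemma sE_conj (g : Gt) {a b a' b' : Ix (m + 1 + 1)} (hab : ab a ≠ ab b) (hab' : ab a' ≠ ab b') {u₁ u₂ : F}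
    (h1 : Mo.toM g *ᵥ vE a = u₁ • vE a') (h2 : Mo.toM g *ᵥ vE b = u₂ • vE b') (c : F) :
    g * sE Mo a b c * g⁻¹ = sE Mo a' b' (σ u₁ * c * u₂) := by
  rw [sE, Model.E_conj (cond_s hab c), Matrix.mulVec_smul, h1, h2, smul_smul, Model.E_smul_v (cond_s hab' _), zero_mul, smul_smul, sE]
  congr 2
  ring

/-- Conjugation of the long root elements. -/
lemma lE_conj (g : Gt) {a a' : Ix (m + 1 + 1)} {c : F} (hc : c + σ c = 0) {u : F} (h1 : Mo.toM g *ᵥ vE a = u • vE a') :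
    g * lE Mo a c * g⁻¹ = lE Mo a' (c * (u * σ u)) := by
  rw [lE, Model.E_conj (cond_l a hc), Matrix.mulVec_zero, h1, Model.E_smul_v (cond_l a' hc), smul_zero]
  rfl

lemma sE_zero {a b : Ix (m + 1 + 1)} (hab : ab a ≠ ab b) : sE Mo a b 0 = 1 := by
  rw [sE, zero_smul]
  exact Model.E_zero_eq_one (hJ_vE_ne (bar_ne a).symm)

lemma lE_zero (a : Ix (m + 1 + 1)) : lE Mo a 0 = 1 := Model.E_zero_eq_one (hJ_vE_ne (bar_ne a).symm)

lemma sE_mul {a b : Ix (m + 1 + 1)} (hab : ab a ≠ ab b) (c c' : F) : sE Mo a b c * sE Mo a b c' = sE Mo a b (c + c') := by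
  rw [sE, sE, Model.E_mul (cond_s hab c) (cond_s hab c'), hJ_smul_left, hJ_smul_right, hJ_vE_ne (bar_ne b).symm, ← add_smul]
  simp [sE]

lemma sE_inv {a b : Ix (m + 1 + 1)} (hab : ab a ≠ ab b) (c : F) : (sE Mo a b c)⁻¹ = sE Mo a b (-c) := by
  rw [inv_eq_iff_mul_eq_one, sE_mul Mo hab, add_neg_cancel, sE_zero Mo hab]

lemma lE_mul (a : Ix (m + 1 + 1)) {c c' : F} (hc : c + σ c = 0) (hc' : c' + σ c' = 0) : lE Mo a c * lE Mo a c' = lE Mo a (c + c') := by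
  rw [lE, lE, Model.E_mul (cond_l a hc) (cond_l a hc'), hJ_zero_left]
  simp [lE]

lemma lE_inv (a : Ix (m + 1 + 1)) {c : F} (hc : c + σ c = 0) : (lE Mo a c)⁻¹ = lE Mo a (-c) := by
  have hc' : -c + σ (-c) = 0 := by
    rw [map_neg]
    linear_combination -hc
  rw [inv_eq_iff_mul_eq_one, lE_mul Mo a hc hc', add_neg_cancel, lE_zero]

lemma sE_symm {a b : Ix (m + 1 + 1)} (hab : ab a ≠ ab b) (c : F) : sE Mo a b c = sE Mo b a (- σ c) :=
  Model.E_symm (hJ_vE_ne (bar_ne a).symm) (hJ_vE_ne (bar_ne b).symm) (hJ_vE_ne (by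
    rintro rfl
    exact hab (by simp))) c

/-- The commutator of the short root elements with the same first index. -/
lemma sE_comm_form {a b : Ix (m + 1 + 1)} (hab : ab a ≠ ab b) (c c' : F) (hc : c * σ c' - c' * σ c + σ (c * σ c' - c' * σ c) = 0) :
    ⁅sE Mo a (bar b) c, sE Mo a b c'⁆ = lE Mo a (c * σ c' - c' * σ c) := by
  have hσ := Mo.hσ.invol
  have hab' : ab a ≠ ab (bar b) := by simpa using hab
  have c1 := cond_s (σ := σ) hab' c
  have c2 := cond_s (σ := σ) hab c'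
  have e1 := Model.E_mul (D := Mo) c1 c2
  have e2 := Model.E_mul (D := Mo) c2 c1
  have e3 : hJ σ (c' • vE b : Fin (nE m) → F) (c • vE (bar b)) = c' * σ c := by
    rw [hJ_smul_left, hJ_smul_right, hJ_vE_bar', mul_one]
  have e4 : hJ σ (c • vE (bar b) : Fin (nE m) → F) (c' • vE b) = c * σ c' := by
    rw [hJ_smul_left, hJ_smul_right, hJ_vE_bar, mul_one]
  rw [e3] at e1
  rw [e4] at e2
  have c3 : Cond σ (vE a : Fin (nE m) → F) (c' • vE b + c • vE (bar b)) (0 + 0 - c * σ c') := by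
    have h1 := (cond_s (σ := σ) hab' c)
    refine ⟨c1.1, by rw [hJ_add_left, c1.2.1, c2.2.1, add_zero], ?_⟩
    simp only [hJ_add_left, hJ_add_right, hJ_smul_left, hJ_smul_right, hJ_vE_bar, hJ_vE_bar', hJ_vE_ne (bar_ne b).symm, hJ_vE_ne (bar_ne (bar b)).symm,
      map_sub, map_add, map_zero, map_mul, hσ]
    ring
  have c4 := cond_l (σ := σ) a hc
  have e5 := Model.E_mul (D := Mo) c4 c3
  have key : sE Mo a (bar b) c * sE Mo a b c' = lE Mo a (c * σ c' - c' * σ c) * (sE Mo a b c' * sE Mo a (bar b) c) := by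
    simp only [sE, lE]
    rw [e1, e2, e5]
    congr 1
    · rw [zero_add, add_comm]
    · rw [hJ_zero_right]
      ring
  rw [commutatorElement_def]
  calc sE Mo a (bar b) c * sE Mo a b c' * (sE Mo a (bar b) c)⁻¹ * (sE Mo a b c')⁻¹
      = (sE Mo a (bar b) c * sE Mo a b c') * (sE Mo a b c' * sE Mo a (bar b) c)⁻¹ := by group
    _ = _ := by
      rw [key]
      group

/-- Long and short elements at the same position commute. -/
lemma lE_sE_mul {a b : Ix (m + 1 + 1)} (hab : ab a ≠ ab b) {c : F} (hc : c + σ c = 0) (c' : F) :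
    lE Mo a c * sE Mo a b c' = Mo.E (vE a) (c' • vE b) c := by
  rw [lE, sE, Model.E_mul (cond_l a hc) (cond_s hab c'), hJ_zero_right]
  simp

lemma sE_lE_mul {a b : Ix (m + 1 + 1)} (hab : ab a ≠ ab b) {c : F} (hc : c + σ c = 0) (c' : F) :
    sE Mo a b c' * lE Mo a c = Mo.E (vE a) (c' • vE b) c := by
  rw [lE, sE, Model.E_mul (cond_s hab c') (cond_l a hc), hJ_zero_left]
  simp

lemma lE_sE_comm {a b : Ix (m + 1 + 1)} (hab : ab a ≠ ab b) {c : F} (hc : c + σ c = 0) (c' : F) :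
    Commute (lE Mo a c) (sE Mo a b c') := by
  show _ * _ = _ * _
  rw [lE_sE_mul Mo hab hc, sE_lE_mul Mo hab hc]

/-- Long root elements fix everything orthogonal. -/
lemma lE_fix {a b : Ix (m + 1 + 1)} (h : b ≠ bar a) {c : F} (hc : c + σ c = 0) : Mo.toM (lE Mo a c) *ᵥ vE b = vE b := by
  rw [lE_act Mo a hc, hJ_vE_ne h]
  simp

lemma lE_bar (a : Ix (m + 1 + 1)) {c : F} (hc : c + σ c = 0) : Mo.toM (lE Mo a c) *ᵥ vE (bar a) = vE (bar a) + c • vE a := by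
  rw [lE_act Mo a hc, hJ_vE_bar, one_mul]

lemma lE_comm {a b : Ix (m + 1 + 1)} (h : ab a ≠ ab b) {c c' : F} (hc : c + σ c = 0) (hc' : c' + σ c' = 0) : Commute (lE Mo a c) (lE Mo b c') := by
  have h1 : b ≠ bar a := by
    rintro rfl
    exact h (by simp)
  have e := lE_conj Mo (lE Mo a c) hc' (u := 1) (a := b) (a' := b) (by rw [lE_fix Mo h1 hc, one_smul])
  simp only [map_one, mul_one] at e
  exact mul_inv_eq_iff_eq_mul.1 e

/-- The action of the short root elements on other positions. -/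
lemma sE_fix {a b c : Ix (m + 1 + 1)} (hab : ab a ≠ ab b) (h1 : c ≠ bar a) (h2 : c ≠ bar b) (t : F) : Mo.toM (sE Mo a b t) *ᵥ vE c = vE c := by
  rw [sE_act Mo hab, hJ_vE_ne h1, hJ_vE_ne h2]
  simp

/-- The elements which are diagonal on the standard basis. -/
def DgE (g : Gt) (d : Ix (m + 1 + 1) → F) : Prop := ∀ a, Mo.toM g *ᵥ vE a = d a • vE a

lemma DgE_one : DgE Mo (1 : Gt) (fun _ => 1) := fun a => by
  rw [Model.act_one, one_smul]

lemma DgE_mul {g g' : Gt} {d d' : Ix (m + 1 + 1) → F} (h : DgE Mo g d) (h' : DgE Mo g' d') : DgE Mo (g * g') (fun a => d a * d' a) := fun a => by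
  rw [Model.act_mul, h', Matrix.mulVec_smul, h, smul_smul, mul_comm]

lemma DgE_ne {g : Gt} {d : Ix (m + 1 + 1) → F} (h : DgE Mo g d) (a : Ix (m + 1 + 1)) : d a ≠ 0 := by
  intro e
  have h1 := h a
  rw [e, zero_smul] at h1
  have h2 := Model.act_inv_act (D := Mo) g (vE a)
  rw [h1, Matrix.mulVec_zero] at h2
  have h3 := congrFun h2 (idxE a)
  simp [vE_apply] at h3

lemma DgE_inv {g : Gt} {d : Ix (m + 1 + 1) → F} (h : DgE Mo g d) : DgE Mo g⁻¹ (fun a => (d a)⁻¹) := fun a => by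
  have h1 := Model.act_inv_act (D := Mo) g (vE a)
  rw [h, Matrix.mulVec_smul] at h1
  have e : Mo.toM g⁻¹ *ᵥ vE a = (d a)⁻¹ • (d a • Mo.toM g⁻¹ *ᵥ vE a) := by
    rw [smul_smul, inv_mul_cancel₀ (DgE_ne Mo h a), one_smul]
  rw [e, h1]

lemma DgE_pow {g : Gt} {d : Ix (m + 1 + 1) → F} (h : DgE Mo g d) (k : ℕ) : DgE Mo (g ^ k) (fun a => d a ^ k) := by
  induction k with
  | zero =>
    simp only [pow_zero]
    exact DgE_one Mo
  | succ k ih =>
    simp only [pow_succ]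
    exact DgE_mul Mo ih h

lemma DgE_comm {g g' : Gt} {d d' : Ix (m + 1 + 1) → F} (h : DgE Mo g d) (h' : DgE Mo g' d') : Commute g g' := by
  apply Model.G_ext' (D := Mo)
  intro s
  obtain ⟨a, rfl⟩ := idxE_surj s
  rw [Model.act_mul, Model.act_mul, h', h, Matrix.mulVec_smul, Matrix.mulVec_smul, h, h', smul_smul, smul_smul, mul_comm]

lemma DgE_one_eq {g : Gt} {d : Ix (m + 1 + 1) → F} (h : DgE Mo g d) (h1 : ∀ a, d a = 1) : g = 1 := by
  apply Model.G_ext' (D := Mo)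
  intro s
  obtain ⟨a, rfl⟩ := idxE_surj s
  rw [h, h1, one_smul, Model.act_one]

lemma DgE_eq {g g' : Gt} {d d' : Ix (m + 1 + 1) → F} (h : DgE Mo g d) (h' : DgE Mo g' d') (h1 : ∀ a, d a = d' a) : g = g' := by
  apply Model.G_ext' (D := Mo)
  intro s
  obtain ⟨a, rfl⟩ := idxE_surj s
  rw [h, h', h1]

end RootE

section Zed

variable {m : ℕ} {F : Type*} [Field F] {σ : F →+* F} {Gt : Type*} [Group Gt] (Mo : Model (n := nE m) σ Gt) {δ : F} (hδ : δ ≠ 0) (hδ' : σ δ = -δ)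

/-- The long Weyl element of the model. -/
noncomputable def zE (Mo : Model (n := nE m) σ Gt) (δ : F) : Gt :=
  lE Mo (inl 0) δ * lE Mo (inr 0) (-δ⁻¹) * lE Mo (inl 0) δ

include hδ hδ'

lemma tr_δ : δ + σ δ = 0 := by
  rw [hδ']
  ring

lemma tr_δ' : -δ⁻¹ + σ (-δ⁻¹) = 0 := by
  rw [map_neg, map_inv₀, hδ', inv_neg]
  ring

lemma zE_l : Mo.toM (zE Mo δ) *ᵥ vE (inl 0) = (-δ⁻¹) • vE (inr 0) := by
  have t1 := tr_δ hδ hδ'
  have t2 := tr_δ' hδ hδ'
  rw [zE, Model.act_mul, Model.act_mul, lE_fix Mo (by simp) t1]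
  have e : Mo.toM (lE Mo (inr 0) (-δ⁻¹)) *ᵥ vE (inl 0) = vE (inl 0) + (-δ⁻¹) • vE (inr 0) := lE_bar Mo (inr 0) t2
  rw [e, Matrix.mulVec_add, Matrix.mulVec_smul, lE_fix Mo (by simp) t1]
  have e2 : Mo.toM (lE Mo (inl 0) δ) *ᵥ vE (inr 0) = vE (inr 0) + δ • vE (inl 0) := lE_bar Mo (inl 0) t1
  rw [e2]
  ext r
  simp only [Pi.add_apply, Pi.smul_apply, smul_eq_mul]
  field_simp
  ring

lemma zE_r : Mo.toM (zE Mo δ) *ᵥ vE (inr 0) = δ • vE (inl 0) := by
  have t1 := tr_δ hδ hδ'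
  have t2 := tr_δ' hδ hδ'
  have e2 : Mo.toM (lE Mo (inl 0) δ) *ᵥ vE (inr 0) = vE (inr 0) + δ • vE (inl 0) := lE_bar Mo (inl 0) t1
  have e : Mo.toM (lE Mo (inr 0) (-δ⁻¹)) *ᵥ vE (inl 0) = vE (inl 0) + (-δ⁻¹) • vE (inr 0) := lE_bar Mo (inr 0) t2
  have e3 : vE (inr 0) + δ • (vE (inl 0) + (-δ⁻¹) • vE (inr 0)) = (δ • vE (inl 0) : Fin (nE m) → F) := by
    ext r
    simp only [Pi.add_apply, Pi.smul_apply, smul_eq_mul]
    field_simp
    ring
  rw [zE, Model.act_mul, Model.act_mul, e2, Matrix.mulVec_add, Matrix.mulVec_smul, e, lE_fix Mo (by simp) t2, e3, Matrix.mulVec_smul, lE_fix Mo (by simp) t1]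

lemma zE_o {a : Ix (m + 1 + 1)} (h : ab a ≠ 0) : Mo.toM (zE Mo δ) *ᵥ vE a = vE a := by
  have t1 := tr_δ hδ hδ'
  have t2 := tr_δ' hδ hδ'
  have h1 : a ≠ bar (inl 0) := by
    rintro rfl
    exact h rfl
  have h2 : a ≠ bar (inr 0) := by
    rintro rfl
    exact h rfl
  rw [zE, Model.act_mul, Model.act_mul, lE_fix Mo h1 t1, lE_fix Mo h2 t2, lE_fix Mo h1 t1]

lemma zE_inv_l : Mo.toM (zE Mo δ)⁻¹ *ᵥ vE (inl 0) = δ⁻¹ • vE (inr 0) := by
  have h1 := Model.act_inv_act (D := Mo) (zE Mo δ) (vE (inr 0))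
  rw [zE_r Mo hδ hδ', Matrix.mulVec_smul] at h1
  have e : Mo.toM (zE Mo δ)⁻¹ *ᵥ vE (inl 0) = δ⁻¹ • (δ • Mo.toM (zE Mo δ)⁻¹ *ᵥ vE (inl 0)) := by
    rw [smul_smul, inv_mul_cancel₀ hδ, one_smul]
  rw [e, h1]

lemma zE_inv_r : Mo.toM (zE Mo δ)⁻¹ *ᵥ vE (inr 0) = (-δ) • vE (inl 0) := by
  have h1 := Model.act_inv_act (D := Mo) (zE Mo δ) (vE (inl 0))
  rw [zE_l Mo hδ hδ', Matrix.mulVec_smul] at h1
  have e : Mo.toM (zE Mo δ)⁻¹ *ᵥ vE (inr 0) = (-δ) • ((-δ⁻¹) • Mo.toM (zE Mo δ)⁻¹ *ᵥ vE (inr 0)) := by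
    rw [smul_smul]
    have : -δ * -δ⁻¹ = 1 := by
      field_simp
    rw [this, one_smul]
  rw [e, h1]

lemma zE_inv_o {a : Ix (m + 1 + 1)} (h : ab a ≠ 0) : Mo.toM (zE Mo δ)⁻¹ *ᵥ vE a = vE a := by
  have h1 := Model.act_inv_act (D := Mo) (zE Mo δ) (vE a)
  rwa [zE_o Mo hδ hδ' h] at h1

/-- Conjugating a diagonal element by the long Weyl element. -/
lemma DgE_z {g : Gt} {d : Ix (m + 1 + 1) → F} (h : DgE Mo g d) :
    DgE Mo (zE Mo δ * g * (zE Mo δ)⁻¹) (fun a => if ab a = 0 then d (bar a) else d a) := by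
  intro a
  rw [Model.act_mul, Model.act_mul]
  beta_reduce
  by_cases h0 : ab a = 0
  · rw [if_pos h0]
    cases a with
    | inl i =>
      obtain rfl : i = 0 := h0
      rw [zE_inv_l Mo hδ hδ', Matrix.mulVec_smul, h, Matrix.mulVec_smul, Matrix.mulVec_smul, zE_r Mo hδ hδ']
      ext r
      simp only [Pi.smul_apply, smul_eq_mul, bar_inl]
      field_simp
    | inr i =>
      obtain rfl : i = 0 := h0
      rw [zE_inv_r Mo hδ hδ', Matrix.mulVec_smul, h, Matrix.mulVec_smul, Matrix.mulVec_smul, zE_l Mo hδ hδ']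
      ext r
      simp only [Pi.smul_apply, smul_eq_mul, bar_inr]
      field_simp
  · rw [if_neg h0, zE_inv_o Mo hδ hδ' h0, h, Matrix.mulVec_smul, zE_o Mo hδ hδ' h0]

end Zed

end Cfsg.Agent.Lib.PrsSU
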