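import Mathlib
import Cfsg.Agent.Lib.PrsSVA

/-!
# Presentations of special unitary groups: the relations in the even dimensional model
-/

set_option autoImplicit false
set_option linter.unusedSectionVars false
set_option linter.unusedVariables false

namespace Cfsg.Agent.Lib.PrsSU

open Subgroup Sum Cfsg.Agent.Lib.SUWitt
open Cfsg.Agent.Lib.PrsSp (SLN Mono wW mono_wW dn mono_dn IsBlk sl_eq dn_mul dn_one dn_inv tv_inv' sl_comm sl_comm' exists_mono2 tv_isBlk blk blk_isBlk exists_blk)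
open scoped Matrix commutatorElement

section Rel

variable {m : ℕ} {F : Type*} [Field F] {σ : F →+* F} {Gt : Type*} [Group Gt] (Mo : Model (n := nE m) σ Gt) {δ : F} (hδ : δ ≠ 0) (hδ' : σ δ = -δ)

lemma conj_act (g x : Gt) (v : Fin (nE m) → F) : Mo.toM (g * x * g⁻¹) *ᵥ (Mo.toM g *ᵥ v) = Mo.toM g *ᵥ (Mo.toM x *ᵥ v) := by
  rw [← Model.act_mul, ← Model.act_mul]
  congr 2
  group

lemma sig_ne (h : ∀ x, σ (σ x) = x) {x : F} (hx : x ≠ 0) : σ x ≠ 0 := fun e => hx (by simpa [h] using congrArg σ e)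

/-- The action of a monomial element. -/
lemma psE_mono {μ : SLN (m + 1 + 1) F} {π : Equiv.Perm (Fin (m + 1 + 1))} {c : Fin (m + 1 + 1) → F} (M : Mono μ π c) (a : Ix (m + 1 + 1)) :
    ∃ u : F, u ≠ 0 ∧ Mo.toM (psE Mo μ) *ᵥ vE a = u • vE (lift π a) := by
  cases a with
  | inl i => exact ⟨_, M.ne i, psE_mono_inl Mo M i⟩
  | inr i => exact ⟨_, inv_ne_zero (sig_ne Mo.hσ.invol (M.ne i)), psE_mono_inr Mo M i⟩

/-- The conjugates of the long Weyl element. -/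
noncomputable def zM (Mo : Model (n := nE m) σ Gt) (δ : F) (i : Fin (m + 1 + 1)) : Gt := psE Mo (mE i) * zE Mo δ * (psE Mo (mE i))⁻¹

lemma gE_l (i : Fin (m + 1 + 1)) : Mo.toM (psE Mo (mE i)) *ᵥ vE (inl 0) = vE (inl i) := by
  rw [psE_mono_inl Mo (mono_mE i), cE_zero, one_smul, Equiv.swap_apply_right]

lemma gE_r (i : Fin (m + 1 + 1)) : Mo.toM (psE Mo (mE i)) *ᵥ vE (inr 0) = vE (inr i) := by
  rw [psE_mono_inr Mo (mono_mE i), cE_zero, map_one, inv_one, one_smul, Equiv.swap_apply_right]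

include hδ hδ'

lemma zM_l (i : Fin (m + 1 + 1)) : Mo.toM (zM Mo δ i) *ᵥ vE (inl i) = (-δ⁻¹) • vE (inr i) := by
  rw [← gE_l Mo i, zM, conj_act, zE_l Mo hδ hδ', Matrix.mulVec_smul, gE_r]

lemma zM_r (i : Fin (m + 1 + 1)) : Mo.toM (zM Mo δ i) *ᵥ vE (inr i) = δ • vE (inl i) := by
  rw [← gE_r Mo i, zM, conj_act, zE_r Mo hδ hδ', Matrix.mulVec_smul, gE_l]

lemma zM_o {i : Fin (m + 1 + 1)} {a : Ix (m + 1 + 1)} (h : ab a ≠ i) : Mo.toM (zM Mo δ i) *ᵥ vE a = vE a := by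
  obtain ⟨u, hu, e⟩ := psE_mono Mo (mono_mE (F := F) (n := m + 1 + 1) i) (lift (Equiv.swap i 0) a)
  have e0 : lift (Equiv.swap i 0) (lift (Equiv.swap i 0) a) = a := by
    cases a <;> simp [lift]
  rw [e0] at e
  have h2 : ab (lift (Equiv.swap i 0) a) ≠ 0 := by
    have e1 : ab (lift (Equiv.swap i 0) a) = Equiv.swap i 0 (ab a) := by
      cases a <;> rfl
    rw [e1]
    intro e2
    apply h
    have := congrArg (Equiv.swap i 0) e2
    simpa using this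
  have h3 := conj_act Mo (psE Mo (mE i)) (zE Mo δ) (vE (lift (Equiv.swap i 0) a))
  rw [zE_o Mo hδ hδ' h2, e, Matrix.mulVec_smul] at h3
  have : Mo.toM (zM Mo δ i) *ᵥ vE a = u⁻¹ • (u • Mo.toM (zM Mo δ i) *ᵥ vE a) := by
    rw [smul_smul, inv_mul_cancel₀ hu, one_smul]
  rw [this]
  change u⁻¹ • (u • Mo.toM (psE Mo (mE i) * zE Mo δ * (psE Mo (mE i))⁻¹) *ᵥ vE a) = vE a
  rw [h3, smul_smul, inv_mul_cancel₀ hu, one_smul]

lemma zM_zero : zM Mo δ 0 = zE Mo δ := by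
  simp [zM, mE_zero]

lemma zM_comm {i j : Fin (m + 1 + 1)} (h : i ≠ j) : Commute (zM Mo δ i) (zM Mo δ j) := by
  apply Model.G_ext' (D := Mo)
  intro s
  obtain ⟨a, rfl⟩ := idxE_surj s
  change Mo.toM (zM Mo δ i * zM Mo δ j) *ᵥ vE a = Mo.toM (zM Mo δ j * zM Mo δ i) *ᵥ vE a
  rw [Model.act_mul, Model.act_mul]
  by_cases h1 : ab a = i
  · subst h1
    have h2 : ab a ≠ j := h
    rw [zM_o Mo hδ hδ' h2]
    cases a with
    | inl p =>
      change Mo.toM (zM Mo δ p) *ᵥ vE (inl p) = Mo.toM (zM Mo δ j) *ᵥ Mo.toM (zM Mo δ p) *ᵥ vE (inl p)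
      rw [zM_l Mo hδ hδ', Matrix.mulVec_smul, zM_o Mo hδ hδ' (a := inr p) h2]
    | inr p =>
      change Mo.toM (zM Mo δ p) *ᵥ vE (inr p) = Mo.toM (zM Mo δ j) *ᵥ Mo.toM (zM Mo δ p) *ᵥ vE (inr p)
      rw [zM_r Mo hδ hδ', Matrix.mulVec_smul, zM_o Mo hδ hδ' (a := inl p) h2]
  · rw [zM_o Mo hδ hδ' h1]
    by_cases h2 : ab a = j
    · subst h2
      cases a with
      | inl p =>
        change Mo.toM (zM Mo δ i) *ᵥ Mo.toM (zM Mo δ p) *ᵥ vE (inl p) = Mo.toM (zM Mo δ p) *ᵥ vE (inl p)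
        rw [zM_l Mo hδ hδ', Matrix.mulVec_smul, zM_o Mo hδ hδ' (a := inr p) h1]
      | inr p =>
        change Mo.toM (zM Mo δ i) *ᵥ Mo.toM (zM Mo δ p) *ᵥ vE (inr p) = Mo.toM (zM Mo δ p) *ᵥ vE (inr p)
        rw [zM_r Mo hδ hδ', Matrix.mulVec_smul, zM_o Mo hδ hδ' (a := inl p) h1]
    · rw [zM_o Mo hδ hδ' h2, zM_o Mo hδ hδ' h1]

omit hδ hδ' in
/-- The root elements of the linear group. -/
lemma m_x {i j : Fin (m + 1 + 1)} (h : i ≠ j) (t : F) : xE (psE Mo) i j t = sE Mo (inl i) (inr j) (- σ t) := by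
  rw [xE_of _ h, psE_tv]
  rfl

/-- The positive short root elements. -/
lemma m_p {i j : Fin (m + 1 + 1)} (h : i ≠ j) (t : F) :
    zM Mo δ j * xE (psE Mo) i j t * (zM Mo δ j)⁻¹ = sE Mo (inl i) (inl j) (- σ t * δ) := by
  rw [m_x Mo h, sE_conj Mo (zM Mo δ j) (a := inl i) (b := inr j) (a' := inl i) (b' := inl j) (u₁ := 1) (u₂ := δ) h h ?_ (zM_r Mo hδ hδ' j)]
  · simp
  · rw [zM_o Mo hδ hδ' (a := inl i) h, one_smul]

/-- The general commutator. -/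
lemma m_cc (t u : F) : ⁅xE (psE Mo) 0 1 t, zM Mo δ 1 * xE (psE Mo) 0 1 u * (zM Mo δ 1)⁻¹⁆ = lE Mo (inl 0) (-δ * (σ t * u + t * σ u)) := by
  have hσ := Mo.hσ.invol
  have h01 : (0 : Fin (m + 1 + 1)) ≠ 1 := h01E
  rw [m_x Mo h01, m_p Mo hδ hδ' h01]
  have e := sE_comm_form Mo (a := inl 0) (b := inl 1) h01 (- σ t) (- σ u * δ) (by
    simp only [map_sub, map_mul, map_neg, hσ, hδ']
    ring)
  have e' : (- σ t) * σ (- σ u * δ) - (- σ u * δ) * σ (- σ t) = -δ * (σ t * u + t * σ u) := by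
    simp only [map_mul, map_neg, hσ, hδ']
    ring
  rw [e'] at e
  exact e

lemma tr_zero {x : F} (hx : σ x = x) : -δ * x + σ (-δ * x) = 0 := by
  simp only [map_mul, map_neg, hδ', hx]
  ring

omit hδ hδ' in
lemma tr_sum (hσ : ∀ x, σ (σ x) = x) (u : F) : σ (u + σ u) = u + σ u := by
  simp only [map_add, hσ]
  ring

/-- The long root elements. -/
lemma m_ff (u : F) : ⁅xE (psE Mo) 0 1 1, zM Mo δ 1 * xE (psE Mo) 0 1 u * (zM Mo δ 1)⁻¹⁆ = lE Mo (inl 0) (-δ * (u + σ u)) := by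
  rw [m_cc Mo hδ hδ']
  simp

omit hδ hδ' in
/-- Conjugates of the long root elements. -/
lemma m_gl (k : Fin (m + 1 + 1)) {c : F} (hc : c + σ c = 0) : psE Mo (mE k) * lE Mo (inl 0) c * (psE Mo (mE k))⁻¹ = lE Mo (inl k) c := by
  rw [lE_conj Mo _ hc (u := 1) (a' := inl k) (by rw [gE_l, one_smul])]
  simp

/-- The action of the torus. -/
noncomputable def dH (σ : F →+* F) (c : Fˣ) : Ix (m + 1 + 1) → F
  | inl k => dC (F := F) m c k
  | inr k => (σ (dC (F := F) m c k))⁻¹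

omit hδ hδ' in
lemma DgE_hU (c : Fˣ) : DgE Mo (psE Mo (hU c)) (dH σ c) := by
  intro a
  cases a with
  | inl k =>
    rw [psE_mono_inl Mo (mono_hU c)]
    rfl
  | inr k =>
    rw [psE_mono_inr Mo (mono_hU c)]
    rfl

/-- The diagonal element of the long torus. -/
def dT (κ : F) : Ix (m + 1 + 1) → F := fun a => if a = inl 0 then κ else if a = inr 0 then κ⁻¹ else 1

/-- The long torus in the model. -/
noncomputable def thM (Mo : Model (n := nE m) σ Gt) (δ : F) (c : Fˣ) : Gt :=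
  psE Mo (hU c) * zE Mo δ * (psE Mo (hU c))⁻¹ * (zE Mo δ)⁻¹

lemma DgE_th (c : Fˣ) : DgE Mo (thM Mo δ c) (dT (((nU σ c : Fˣ) : F))) := by
  have hσ := Mo.hσ.invol
  have h1 := DgE_hU Mo c
  have h2 := DgE_z Mo hδ hδ' (DgE_inv Mo h1)
  have h3 := DgE_mul Mo h1 h2
  have e : thM Mo δ c = psE Mo (hU c) * (zE Mo δ * (psE Mo (hU c))⁻¹ * (zE Mo δ)⁻¹) := by
    rw [thM]
    group
  rw [e]
  intro a
  rw [h3 a]
  congr 1
  have h0 : (c : F) ≠ 0 := c.ne_zero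
  have hs0 := sig_ne hσ h0
  simp only [dT]
  cases a with
  | inl i =>
    by_cases hi : i = 0
    · subst hi
      simp [dH, dC_zero, nU_coe, ab]
    · have : ab (inl i : Ix (m + 1 + 1)) ≠ 0 := hi
      rw [if_neg this]
      have h5 : (inl i : Ix (m + 1 + 1)) ≠ inl 0 := fun e => hi (Sum.inl.inj e)
      rw [if_neg h5, if_neg (by simp)]
      have h6 : dH (m := m) σ c (inl i) ≠ 0 := DgE_ne Mo h1 (inl i)
      field_simp
  | inr i =>
    by_cases hi : i = 0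
    · subst hi
      simp [dH, dC_zero, nU_coe, ab]
    · have : ab (inr i : Ix (m + 1 + 1)) ≠ 0 := hi
      rw [if_neg this]
      have h5 : (inr i : Ix (m + 1 + 1)) ≠ inr 0 := fun e => hi (Sum.inr.inj e)
      rw [if_neg (by simp), if_neg h5]
      have h6 : dH (m := m) σ c (inr i) ≠ 0 := DgE_ne Mo h1 (inr i)
      field_simp

end Rel

end Cfsg.Agent.Lib.PrsSU
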