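import Mathlib
import Cfsg.Agent.Lib.PrsSVB
import Cfsg.Agent.Lib.PrsSUY

/-!
# Presentations of special unitary groups: the truth of the relators in the even dimensional model
-/

set_option autoImplicit false
set_option linter.unusedSectionVars false
set_option linter.unusedVariables false

namespace Cfsg.Agent.Lib.PrsSU

open Subgroup Sum Cfsg.Agent.Lib.SUWitt
open Cfsg.Agent.Lib.PrsSp (SLN Mono wW mono_wW dn mono_dn IsBlk sl_eq dn_mul dn_one dn_inv tv_inv' sl_comm sl_comm' exists_mono2 tv_isBlk blk blk_isBlk exists_blk IsBlk.inv_entry)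
open scoped Matrix commutatorElement

section Truth

variable {m : ℕ} {F : Type*} [Field F] {σ : F →+* F} {Gt : Type*} [Group Gt] (Mo : Model (n := nE m) σ Gt) {δ : F} (hδ : δ ≠ 0) (hδ' : σ δ = -δ)

lemma psE_blk_l {g : SLN (m + 1 + 1) F} (hg : IsBlk 0 g) : Mo.toM (psE Mo g) *ᵥ vE (inl 0) = vE (inl 0) := by
  ext r
  obtain ⟨a, rfl⟩ := idxE_surj r
  rw [psE_coord, vE_apply]
  cases a with
  | inl i =>
    rw [BM_ll]
    by_cases hi : i = 0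
    · subst hi
      simp [hg.1]
    · have : (inl i : Ix (m + 1 + 1)) ≠ inl 0 := fun e => hi (Sum.inl.inj e)
      rw [(hg.2 i hi).2, if_neg this]
  | inr i =>
    simp

lemma psE_blk_r {g : SLN (m + 1 + 1) F} (hg : IsBlk 0 g) : Mo.toM (psE Mo g) *ᵥ vE (inr 0) = vE (inr 0) := by
  ext r
  obtain ⟨a, rfl⟩ := idxE_surj r
  rw [psE_coord, vE_apply]
  cases a with
  | inl i =>
    simp
  | inr i =>
    rw [BM_rr, IsBlk.inv_entry hg]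
    by_cases hi : i = 0
    · subst hi
      simp
    · have : (0 : Fin (m + 1 + 1)) ≠ i := Ne.symm hi
      simp [hi, this]

lemma comm_lE_of_fix {g : Gt} {a : Ix (m + 1 + 1)} (h : Mo.toM g *ᵥ vE a = vE a) {c : F} (hc : c + σ c = 0) : Commute g (lE Mo a c) := by
  have e := lE_conj Mo g hc (a := a) (a' := a) (u := 1) (by rw [h, one_smul])
  simp only [map_one, mul_one] at e
  exact mul_inv_eq_iff_eq_mul.1 e

include hδ hδ'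

lemma t_blk {g : SLN (m + 1 + 1) F} (hg : IsBlk 0 g) : Commute (zE Mo δ) (psE Mo g) := by
  have t1 := tr_δ hδ hδ'
  have t2 := tr_δ' hδ hδ'
  symm
  exact ((comm_lE_of_fix Mo (psE_blk_l Mo hg) t1).mul_right (comm_lE_of_fix Mo (psE_blk_r Mo hg) t2)).mul_right (comm_lE_of_fix Mo (psE_blk_l Mo hg) t1)

lemma DgE_tp (c : Fˣ) : DgE Mo (zE Mo δ * psE Mo (hU c) * (zE Mo δ)⁻¹) (fun a => if ab a = 0 then dH σ c (bar a) else dH σ c a) :=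
  DgE_z Mo hδ hδ' (DgE_hU Mo c)

lemma DgE_tp_l0 (c : Fˣ) : Mo.toM (zE Mo δ * psE Mo (hU c) * (zE Mo δ)⁻¹) *ᵥ vE (inl 0) = (σ c)⁻¹ • vE (inl 0) := by
  have h := DgE_tp Mo hδ hδ' c (inl 0)
  beta_reduce at h
  rw [if_pos (show ab (inl 0 : Ix (m + 1 + 1)) = 0 from rfl)] at h
  rw [h]
  congr 1

lemma DgE_tp_r0 (c : Fˣ) : Mo.toM (zE Mo δ * psE Mo (hU c) * (zE Mo δ)⁻¹) *ᵥ vE (inr 0) = (c : F) • vE (inr 0) := by
  have h := DgE_tp Mo hδ hδ' c (inr 0)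
  beta_reduce at h
  rw [if_pos (show ab (inr 0 : Ix (m + 1 + 1)) = 0 from rfl)] at h
  rw [h]
  congr 1

lemma DgE_tp_l1 (c : Fˣ) : Mo.toM (zE Mo δ * psE Mo (hU c) * (zE Mo δ)⁻¹) *ᵥ vE (inl 1) = (c : F)⁻¹ • vE (inl 1) := by
  have h := DgE_tp Mo hδ hδ' c (inl 1)
  beta_reduce at h
  rw [if_neg (show ab (inl 1 : Ix (m + 1 + 1)) ≠ 0 from (h01E (m := m)).symm)] at h
  rw [h]
  congr 1

lemma DgE_tp_r1 (c : Fˣ) : Mo.toM (zE Mo δ * psE Mo (hU c) * (zE Mo δ)⁻¹) *ᵥ vE (inr 1) = (σ c) • vE (inr 1) := by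
  have h := DgE_tp Mo hδ hδ' c (inr 1)
  beta_reduce at h
  rw [if_neg (show ab (inr 1 : Ix (m + 1 + 1)) ≠ 0 from (h01E (m := m)).symm)] at h
  rw [h]
  congr 1
  show (σ (dC m c 1))⁻¹ = _
  rw [dC_one, map_inv₀, inv_inv]

lemma t_s21 (ζ : Fˣ) : (zE Mo δ * psE Mo (hU ζ) * (zE Mo δ)⁻¹) * xE (psE Mo) 0 1 1 * (zE Mo δ * psE Mo (hU ζ) * (zE Mo δ)⁻¹)⁻¹ = xE (psE Mo) 0 1 ((ζ : F) * (σ ζ)⁻¹) := by
  have hσ := Mo.hσ.invol
  have h01 : (0 : Fin (m + 1 + 1)) ≠ 1 := h01E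
  have h0 : (ζ : F) ≠ 0 := ζ.ne_zero
  rw [m_x Mo h01, m_x Mo h01, sE_conj Mo _ (a := inl 0) (b := inr 1) (a' := inl 0) (b' := inr 1) h01 h01 (DgE_tp_l0 Mo hδ hδ' ζ) (DgE_tp_r1 Mo hδ hδ' ζ)]
  congr 1
  simp only [map_inv₀, hσ, map_mul, map_one]
  have h1 := sig_ne hσ h0
  field_simp

lemma t_s22 (ζ : Fˣ) : (zE Mo δ * psE Mo (hU ζ) * (zE Mo δ)⁻¹) * xE (psE Mo) 1 0 1 * (zE Mo δ * psE Mo (hU ζ) * (zE Mo δ)⁻¹)⁻¹ = xE (psE Mo) 1 0 (σ ζ * ((ζ : F))⁻¹) := by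
  have hσ := Mo.hσ.invol
  have h01 : (1 : Fin (m + 1 + 1)) ≠ 0 := h01E.symm
  have h0 : (ζ : F) ≠ 0 := ζ.ne_zero
  rw [m_x Mo h01, m_x Mo h01, sE_conj Mo _ (a := inl 1) (b := inr 0) (a' := inl 1) (b' := inr 0) h01 h01 (DgE_tp_l1 Mo hδ hδ' ζ) (DgE_tp_r0 Mo hδ hδ' ζ)]
  congr 1
  simp only [map_inv₀, hσ, map_mul, map_one]
  have h1 := sig_ne hσ h0
  field_simp

lemma t_s23 (ζ : Fˣ) : Commute (zE Mo δ * psE Mo (hU ζ) * (zE Mo δ)⁻¹) (psE Mo (hU ζ)) :=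
  DgE_comm Mo (DgE_tp Mo hδ hδ' ζ) (DgE_hU Mo ζ)

lemma t_s31 {ζ : Fˣ} {k : ℕ} (hk : nU σ ζ ^ k = 1) : (psE Mo (hU ζ) * zE Mo δ * (psE Mo (hU ζ))⁻¹ * (zE Mo δ)⁻¹) ^ k = 1 := by
  apply DgE_one_eq Mo (DgE_pow Mo (DgE_th Mo hδ hδ' ζ) k)
  intro a
  have e : ((nU σ ζ : Fˣ) : F) ^ k = 1 := by
    rw [← Units.val_pow_eq_pow_val, hk, Units.val_one]
  simp only [dT]
  by_cases h1 : a = inl 0
  · simp [h1, e]
  · by_cases h2 : a = inr 0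
    · simp [h2, e]
    · simp [h1, h2]

lemma DgE_zz : DgE Mo (zE Mo δ * zE Mo δ) (dT (-1)) := by
  intro a
  rw [Model.act_mul]
  by_cases h1 : a = inl 0
  · subst h1
    rw [zE_l Mo hδ hδ', Matrix.mulVec_smul, zE_r Mo hδ hδ', smul_smul]
    simp only [dT, if_true]
    congr 1
    field_simp
  · by_cases h2 : a = inr 0
    · subst h2
      rw [zE_r Mo hδ hδ', Matrix.mulVec_smul, zE_l Mo hδ hδ', smul_smul]
      congr 1
      simp only [dT, reduceCtorEq, if_false, if_true]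
      field_simp
    · have h3 : ab a ≠ 0 := by
        intro h
        cases a with
        | inl i =>
          exact h1 (by rw [show i = 0 from h])
        | inr i =>
          exact h2 (by rw [show i = 0 from h])
      rw [zE_o Mo hδ hδ' h3, zE_o Mo hδ hδ' h3]
      simp [dT, h1, h2]

lemma t_s32 {ζ : Fˣ} {k : ℕ} (hk : ((nU σ ζ ^ k : Fˣ) : F) = -1) : zE Mo δ * zE Mo δ = (psE Mo (hU ζ) * zE Mo δ * (psE Mo (hU ζ))⁻¹ * (zE Mo δ)⁻¹) ^ k := by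
  apply DgE_eq Mo (DgE_zz Mo hδ hδ') (DgE_pow Mo (DgE_th Mo hδ hδ' ζ) k)
  intro a
  have e : ((nU σ ζ : Fˣ) : F) ^ k = -1 := by
    rw [← Units.val_pow_eq_pow_val, hk]
  simp only [dT]
  by_cases h1 : a = inl 0
  · simp [h1, e]
  · by_cases h2 : a = inr 0
    · simp [h2, e]
    · simp [h1, h2]

lemma t_z01 : Commute (zE Mo δ) (psE Mo (mE 1) * zE Mo δ * (psE Mo (mE 1))⁻¹) := by
  have := zM_comm Mo hδ hδ' (h01E (m := m))
  rwa [zM_zero Mo hδ hδ'] at this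

lemma t_s5 : (psE Mo (mE 1) * zE Mo δ * (psE Mo (mE 1))⁻¹) * xE (psE Mo) 0 1 1 * (psE Mo (mE 1) * zE Mo δ * (psE Mo (mE 1))⁻¹)⁻¹ = zE Mo δ * xE (psE Mo) 1 0 1 * (zE Mo δ)⁻¹ := by
  have hσ := Mo.hσ.invol
  have h01 : (0 : Fin (m + 1 + 1)) ≠ 1 := h01E
  have e1 := m_p Mo hδ hδ' h01 1
  simp only [zM] at e1
  rw [e1, m_x Mo h01.symm, sE_conj Mo _ (a := inl 1) (b := inr 0) (a' := inl 1) (b' := inl 0) h01.symm h01.symm (u₁ := 1) (u₂ := δ) (by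
    rw [one_smul]
    exact zE_o Mo hδ hδ' (a := inl 1) h01.symm) (zE_r Mo hδ hδ'), sE_symm Mo (a := inl 0) (b := inl 1) h01]
  congr 1
  simp [hδ']

/-- The long root element words. -/
lemma t_ff (u : F) : ⁅xE (psE Mo) 0 1 1, (psE Mo (mE 1) * zE Mo δ * (psE Mo (mE 1))⁻¹) * xE (psE Mo) 0 1 u * (psE Mo (mE 1) * zE Mo δ * (psE Mo (mE 1))⁻¹)⁻¹⁆ = lE Mo (inl 0) (-δ * (u + σ u)) :=
  m_ff Mo hδ hδ' u

lemma t_tr (hσ : ∀ x, σ (σ x) = x) (u : F) : -δ * (u + σ u) + σ (-δ * (u + σ u)) = 0 :=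
  tr_zero hδ hδ' (tr_sum hσ u)

lemma t_r10 (u v : F) : Commute (lE Mo (inl 0) (-δ * (u + σ u))) (psE Mo (mE 1) * lE Mo (inl 0) (-δ * (v + σ v)) * (psE Mo (mE 1))⁻¹) := by
  rw [m_gl Mo 1 (t_tr hδ hδ' Mo.hσ.invol v)]
  exact lE_comm Mo (a := inl 0) (b := inl 1) h01E (t_tr hδ hδ' Mo.hσ.invol u) (t_tr hδ hδ' Mo.hσ.invol v)

lemma t_ri1 : zE Mo δ * lE Mo (inl 0) (-δ) = (lE Mo (inl 0) (-δ))⁻¹ * (zE Mo δ * zE Mo δ * zE Mo δ) * (lE Mo (inl 0) (-δ))⁻¹ * zE Mo δ := by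
  have t1 := tr_δ hδ hδ'
  have t2 := tr_δ' hδ hδ'
  have t3 : -δ + σ (-δ) = 0 := by
    rw [map_neg, hδ']
    ring
  have h4 : zE Mo δ * zE Mo δ * zE Mo δ * zE Mo δ = 1 := by
    have h := DgE_mul Mo (DgE_zz Mo hδ hδ') (DgE_zz Mo hδ hδ')
    have e := DgE_one_eq Mo h (by
      intro a
      simp only [dT]
      by_cases h1 : a = inl 0
      · simp [h1]
      · by_cases h2 : a = inr 0
        · simp [h2]
        · simp [h1, h2])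
    rw [← e]
    group
  have h3 : zE Mo δ * zE Mo δ * zE Mo δ = (zE Mo δ)⁻¹ := eq_inv_of_mul_eq_one_left h4
  rw [h3]
  have h5 := lE_conj Mo (zE Mo δ) t3 (a := inl 0) (a' := inr 0) (zE_l Mo hδ hδ')
  have e5 : -δ * (-δ⁻¹ * σ (-δ⁻¹)) = δ⁻¹ := by
    rw [map_neg, map_inv₀, hδ']
    field_simp
  rw [e5] at h5
  have h6 : (lE Mo (inl 0) (-δ))⁻¹ = lE Mo (inl 0) δ := by
    rw [lE_inv Mo _ t3, neg_neg]
  have h7 : (lE Mo (inr 0) δ⁻¹) = (lE Mo (inr 0) (-δ⁻¹))⁻¹ := by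
    rw [lE_inv Mo _ t2, neg_neg]
  have h8 : zE Mo δ = lE Mo (inl 0) δ * lE Mo (inr 0) (-δ⁻¹) * lE Mo (inl 0) δ := rfl
  rw [h6]
  have h9 : lE Mo (inl 0) δ * (zE Mo δ)⁻¹ * lE Mo (inl 0) δ = lE Mo (inr 0) δ⁻¹ := by
    have e6 : lE Mo (inl 0) δ * lE Mo (inl 0) (-δ) = 1 := by
      rw [← h6]
      group
    rw [h7]
    have e7 : lE Mo (inr 0) (-δ⁻¹) = lE Mo (inl 0) (-δ) * zE Mo δ * lE Mo (inl 0) (-δ) := by
      rw [h6.symm] at h8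
      rw [h8]
      group
    rw [e7, h6.symm]
    group
  rw [h9, ← h5]
  group

/-- The general commutator. -/
lemma t_r8_aux {a : F} (ha : a + σ a = 0) (c : F) :
    ⁅lE Mo (inl 0) a, sE Mo (inl 1) (inr 0) c⁆ = lE Mo (inl 1) (c * σ c * σ a) * sE Mo (inl 1) (inl 0) (c * a) := by
  have hσ := Mo.hσ.invol
  have h10 : ab (inl 1 : Ix (m + 1 + 1)) ≠ ab (inr 0 : Ix (m + 1 + 1)) := (h01E (m := m)).symm
  have h10' : ab (inl 1 : Ix (m + 1 + 1)) ≠ ab (inl 0 : Ix (m + 1 + 1)) := (h01E (m := m)).symm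
  have hfix := lE_fix Mo (a := inl 0) (b := inl 1) (by simp) ha
  have hbar : Mo.toM (lE Mo (inl 0) a) *ᵥ vE (inr 0) = vE (inr 0) + a • vE (inl 0) := lE_bar Mo (inl 0) ha
  have c0 := cond_s (σ := σ) h10 c
  have e1 : lE Mo (inl 0) a * sE Mo (inl 1) (inr 0) c * (lE Mo (inl 0) a)⁻¹ = Mo.E (vE (inl 1)) (c • vE (inr 0) + (c * a) • vE (inl 0)) 0 := by
    rw [sE, Model.E_conj c0, hfix, Matrix.mulVec_smul, hbar, smul_add, smul_smul]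
  have h1' : σ a = -a := by linear_combination ha
  have c1 : Cond σ (vE (inl 1) : Fin (nE m) → F) (c • vE (inr 0) + (c * a) • vE (inl 0)) 0 := by
    refine ⟨hJ_vE_ne (by simp), ?_, ?_⟩
    · rw [hJ_add_left, hJ_smul_left, hJ_smul_left, hJ_vE_ne (by simp), hJ_vE_ne (by simpa using (h01E (m := m)))]
      simp
    · simp only [hJ_add_left, hJ_add_right, hJ_smul_left, hJ_smul_right, hJ_vE_bar, hJ_vE_bar', hJ_vE_ne (bar_ne (inl 0 : Ix (m + 1 + 1))).symm, hJ_vE_ne (bar_ne (inr 0 : Ix (m + 1 + 1))).symm]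
      have e1 : hJ σ (vE (inr 0) : Fin (nE m) → F) (vE (inl 0)) = 1 := hJ_vE_bar (inl 0)
      have e2 : hJ σ (vE (inl 0) : Fin (nE m) → F) (vE (inr 0)) = 1 := hJ_vE_bar (inr 0)
      rw [e1, e2]
      simp only [map_mul, map_zero, h1']
      ring
  have c2 := cond_s (σ := σ) h10 (-c)
  have hκ : c * σ c * σ a + σ (c * σ c * σ a) = 0 := by
    simp only [map_mul, map_neg, hσ, h1']
    ring
  rw [commutatorElement_def, e1, sE_inv Mo h10, sE, Model.E_mul c1 c2, lE_sE_mul Mo h10' hκ]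
  congr 1
  · ext r
    simp
  · rw [hJ_smul_left, hJ_add_right, hJ_smul_right, hJ_smul_right, hJ_vE_ne (bar_ne (inr 0 : Ix (m + 1 + 1))).symm]
    have e1 : hJ σ (vE (inr 0) : Fin (nE m) → F) (vE (inl 0)) = 1 := hJ_vE_bar (inl 0)
    rw [e1]
    simp only [map_mul]
    ring

lemma t_r8 {ξ : F} (hξ : ξ + σ ξ = 1) (t : F) :
    ⁅lE Mo (inl 0) (-δ), xE (psE Mo) 1 0 t⁆ = (psE Mo (mE 1) * lE Mo (inl 0) (-δ * (-(t * σ t * ξ) + σ (-(t * σ t * ξ)))) * (psE Mo (mE 1))⁻¹) *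
      ((psE Mo (mE 1) * zE Mo δ * (psE Mo (mE 1))⁻¹) * xE (psE Mo) 0 1 (- σ t) * (psE Mo (mE 1) * zE Mo δ * (psE Mo (mE 1))⁻¹)⁻¹) := by
  have hσ := Mo.hσ.invol
  have h01 : (0 : Fin (m + 1 + 1)) ≠ 1 := h01E
  have t3 : -δ + σ (-δ) = 0 := by
    rw [map_neg, hδ']
    ring
  have e1 := m_p Mo hδ hδ' h01 (- σ t)
  simp only [zM] at e1
  rw [e1, m_gl Mo 1 (t_tr hδ hδ' Mo.hσ.invol _), m_x Mo h01.symm, t_r8_aux Mo hδ hδ' t3]
  congr 1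
  · congr 1
    simp only [map_mul, map_neg, hσ, hδ']
    linear_combination (-δ * t * σ t) * hξ
  · rw [sE_symm Mo (a := inl 0) (b := inl 1) h01]
    congr 1
    simp only [map_mul, map_neg, hσ, hδ']
    ring

lemma t_E4 : lE Mo (inl 0) (-δ * (δ + σ δ)) = 1 := by
  rw [hδ']
  simp [lE_zero]

lemma t_E5 {c : F} (hc : c + σ c = 0) (t : F) : Commute (lE Mo (inl 0) c) (xE (psE Mo) 0 1 t) := by
  rw [m_x Mo h01E]
  exact lE_sE_comm Mo (a := inl 0) (b := inr 1) h01E hc _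

lemma t_E6 {c : F} (hc : c + σ c = 0) : Commute (psE Mo (mE 1) * zE Mo δ * (psE Mo (mE 1))⁻¹) (lE Mo (inl 0) c) :=
  comm_lE_of_fix Mo (zM_o Mo hδ hδ' (a := inl 0) (h01E (m := m))) hc

lemma t_E7 (ζ : Fˣ) {c : F} (hc : c + σ c = 0) :
    Commute (psE Mo (mE 1) * (psE Mo (hU ζ) * zE Mo δ * (psE Mo (hU ζ))⁻¹ * (zE Mo δ)⁻¹) * (psE Mo (mE 1))⁻¹) (lE Mo (inl 0) c) := by
  apply comm_lE_of_fix Mo _ hc
  have h1 : Mo.toM (psE Mo (mE 1)) *ᵥ vE (inl 1) = (-1 : F) • vE (inl 0) := by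
    rw [psE_mono_inl Mo (mono_mE (F := F) (n := m + 1 + 1) 1), Equiv.swap_apply_left]
    congr 1
  have h2 := conj_act Mo (psE Mo (mE 1)) (thM Mo δ ζ) (vE (inl 1))
  have h3 : Mo.toM (thM Mo δ ζ) *ᵥ vE (inl 1) = vE (inl 1) := by
    rw [DgE_th Mo hδ hδ' ζ]
    simp [dT, (h01E (m := m)).symm]
  rw [h3, h1, Matrix.mulVec_smul] at h2
  exact smul_right_injective (Fin (nE m) → F) (neg_ne_zero.2 (one_ne_zero (α := F))) h2

lemma t_E7' (ζ : Fˣ) {u : F} : psE Mo (hU ζ) * lE Mo (inl 0) (-δ * (u + σ u)) * (psE Mo (hU ζ))⁻¹ =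
    lE Mo (inl 0) (-δ * ((nU σ ζ : Fˣ) * u + σ ((nU σ ζ : Fˣ) * u))) := by
  have hσ := Mo.hσ.invol
  rw [lE_conj Mo _ (t_tr hδ hδ' Mo.hσ.invol u) (u := (ζ : F)) (a' := inl 0) (by
    rw [psE_mono_inl Mo (mono_hU ζ), dC_zero]
    rfl)]
  congr 1
  simp only [nU_coe, map_mul, hσ]
  ring

end Truth

end Cfsg.Agent.Lib.PrsSU
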