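import Mathlib
import Cfsg.Agent.Lib.PrsSVC

/-!
# Presentations of special unitary groups: the normal form of the monomial group in even dimension
-/

set_option autoImplicit false
set_option linter.unusedSectionVars false
set_option linter.unusedVariables false

namespace Cfsg.Agent.Lib.PrsSU

open Subgroup Sum Cfsg.Agent.Lib.SUWitt
open Cfsg.Agent.Lib.PrsSp (SLN Mono wW mono_wW dn mono_dn IsBlk sl_eq dn_mul dn_one dn_inv tv_inv' sl_comm sl_comm' exists_mono2 tv_isBlk blk blk_isBlk exists_blk IsBlk.inv_entry)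
open scoped Matrix commutatorElement

section MonoAdg

variable {n : ℕ} {F : Type*} [Field F]

lemma mono_adg_self {μ : SLN n F} {π : Equiv.Perm (Fin n)} {c : Fin n → F} (M : Mono μ π c) (d : Fin n → Fˣ) :
    Mono (adg d μ) π (fun j => (d (π j) : F) * c j * ((d j)⁻¹ : Fˣ)) where
  entry i j := by
    rw [adg_apply, M.entry]
    by_cases h : i = π j
    · subst h
      simp
    · simp [h]
  ne j := mul_ne_zero (mul_ne_zero (Units.ne_zero _) (M.ne j)) (Units.ne_zero _)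

lemma mono_conj_one {μ ν : SLN n F} {π : Equiv.Perm (Fin n)} {c c' : Fin n → F} (M : Mono μ π c) (N : Mono ν 1 c') :
    ∃ c'', Mono (μ * ν * μ⁻¹) 1 c'' := by
  have h := (M.mul N).mul M.inv
  have e : π * 1 * π⁻¹ = 1 := by simp
  rw [e] at h
  exact ⟨_, h⟩

end MonoAdg

namespace ECfg

variable {Γ : Type*} [Group Γ] {F : Type*} [Field F] {σ : F →+* F} {m : ℕ} (C : ECfg Γ σ m)

lemma A_mem_T {ν : SLN (m + 1 + 1) F} {c : Fin (m + 1 + 1) → F} (M : Mono ν 1 c) : C.A ν ∈ C.T :=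
  subset_closure (Or.inl ⟨ν, c, M, rfl⟩)

lemma th_mem_T (c : Fˣ) : C.th c ∈ C.T := subset_closure (Or.inr ⟨c, rfl⟩)

lemma th_comm_A {ν : SLN (m + 1 + 1) F} {c : Fin (m + 1 + 1) → F} (M : Mono ν 1 c) (d : Fˣ) : Commute (C.th d) (C.A ν) := by
  have h := C.th_act d ν
  rw [adg_mono M _ (fun a => rfl)] at h
  exact mul_inv_eq_iff_eq_mul.1 h

/-- The form of an element of the torus. -/
lemma T_form (t : Γ) (ht : t ∈ C.T) : ∃ (ν : SLN (m + 1 + 1) F) (c : Fin (m + 1 + 1) → F) (d : Fˣ), Mono ν 1 c ∧ t = C.A ν * C.th d := by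
  induction ht using closure_induction with
  | mem x hx =>
    rcases hx with ⟨μ, c, hM, rfl⟩ | ⟨c, rfl⟩
    · exact ⟨μ, c, 1, hM, by simp⟩
    · exact ⟨1, _, c, Mono.one', by simp⟩
  | one => exact ⟨1, _, 1, Mono.one', by simp⟩
  | mul x y _ _ hx hy =>
    obtain ⟨ν, c, d, M, rfl⟩ := hx
    obtain ⟨ν', c', d', M', rfl⟩ := hy
    have h := M.mul M'
    rw [mul_one] at h
    refine ⟨_, _, d * d', h, ?_⟩
    rw [map_mul, map_mul]
    have := (C.th_comm_A M' d).eq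
    calc C.A ν * C.th d * (C.A ν' * C.th d') = C.A ν * (C.th d * C.A ν') * C.th d' := by group
      _ = _ := by rw [this]; group
  | inv x _ hx =>
    obtain ⟨ν, c, d, M, rfl⟩ := hx
    have h := M.inv
    rw [inv_one] at h
    refine ⟨_, _, d⁻¹, h, ?_⟩
    rw [map_inv, map_inv, mul_inv_rev]
    exact (C.th_comm_A M d).inv_inv.eq

lemma thi_mem_T (k : Fin (m + 1 + 1)) (c : Fˣ) : C.thi k c ∈ C.T := by
  have M := mono_mE (F := F) k
  obtain ⟨c', hM⟩ : ∃ c', Mono (mE k * adg (eD 0 (nU σ c)) (mE k)⁻¹ : SLN (m + 1 + 1) F) 1 c' := by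
    have h := M.mul (mono_adg_self M.inv (eD 0 (nU σ c)))
    rw [mul_inv_cancel] at h
    exact ⟨_, h⟩
  have h1 := C.th_act c (mE k)⁻¹
  have e : C.thi k c = C.A (mE k * adg (eD 0 (nU σ c)) (mE k)⁻¹) * C.th c := by
    rw [map_mul, ← h1, ECore.thi_apply, map_inv]
    group
  rw [e]
  exact C.T.mul_mem (C.A_mem_T hM) (C.th_mem_T c)

lemma zi_sq_T (k : Fin (m + 1 + 1)) : C.zi k * C.zi k ∈ C.T := by
  rw [C.zi_sq]
  exact C.thi_mem_T k _

lemma zi_conj_T (k : Fin (m + 1 + 1)) {t : Γ} (ht : t ∈ C.T) : C.zi k * t * (C.zi k)⁻¹ ∈ C.T := by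
  induction ht using closure_induction with
  | mem x hx =>
    rcases hx with ⟨μ, c, hM, rfl⟩ | ⟨c, rfl⟩
    · have h := C.zi_conj hM k
      simp only [Equiv.Perm.coe_one, id] at h
      have e : C.zi k * C.A μ * (C.zi k)⁻¹ = (C.thi k (Units.mk0 (c k) (hM.ne k)))⁻¹ * C.A μ := by
        rw [eq_inv_mul_iff_mul_eq]
        have h2 : C.thi k (Units.mk0 (c k) (hM.ne k)) * C.zi k = C.A μ * C.zi k * (C.A μ)⁻¹ := h.symm
        rw [← mul_assoc, ← mul_assoc, h2]
        group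
      rw [e]
      exact C.T.mul_mem (C.T.inv_mem (C.thi_mem_T _ _)) (C.A_mem_T hM)
    · by_cases h : k = 0
      · subst h
        have h2 := C.zi_th 0 c
        rw [ECore.thi_zero] at h2
        rw [h2]
        exact C.T.inv_mem (C.th_mem_T c)
      · have h2 := (C.zi_thi_ne h c).eq
        rw [ECore.thi_zero] at h2
        rw [h2]
        simpa using C.th_mem_T c
  | one => simp
  | mul x y _ _ hx hy =>
    have e : C.zi k * (x * y) * (C.zi k)⁻¹ = (C.zi k * x * (C.zi k)⁻¹) * (C.zi k * y * (C.zi k)⁻¹) := by group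
    rw [e]
    exact C.T.mul_mem hx hy
  | inv x _ hx =>
    have e : C.zi k * x⁻¹ * (C.zi k)⁻¹ = (C.zi k * x * (C.zi k)⁻¹)⁻¹ := by group
    rw [e]
    exact C.T.inv_mem hx

/-- The chain of subgroups generated by the torus and part of the long Weyl elements. -/
noncomputable def RR (k : ℕ) : Subgroup Γ := closure ((C.T : Set Γ) ∪ {x | ∃ i : Fin (m + 1 + 1), (i : ℕ) < k ∧ x = C.zi i})

lemma T_le_RR (k : ℕ) : C.T ≤ C.RR k := fun _ h => subset_closure (Or.inl h)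

lemma zi_mem_RR {k : ℕ} {i : Fin (m + 1 + 1)} (h : (i : ℕ) < k) : C.zi i ∈ C.RR k := subset_closure (Or.inr ⟨i, h, rfl⟩)

lemma RR_zero : C.RR 0 ≤ C.T := by
  refine (closure_le _).2 ?_
  rintro x (h | ⟨i, hi, rfl⟩)
  · exact h
  · omega

lemma zi_conj_RR (k : Fin (m + 1 + 1)) {n : ℕ} (hn : n = k) {r : Γ} (hr : r ∈ C.RR n) : C.zi k * r * (C.zi k)⁻¹ ∈ C.RR n := by
  induction hr using closure_induction with
  | mem x hx =>
    rcases hx with h | ⟨i, hi, rfl⟩
    · exact C.T_le_RR n (C.zi_conj_T k h)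
    · have hne : k ≠ i := by
        rintro rfl
        omega
      rw [(C.zi_comm hne).eq]
      simpa using C.zi_mem_RR hi
  | one => simp
  | mul x y _ _ hx hy =>
    have e : C.zi k * (x * y) * (C.zi k)⁻¹ = (C.zi k * x * (C.zi k)⁻¹) * (C.zi k * y * (C.zi k)⁻¹) := by group
    rw [e]
    exact mul_mem hx hy
  | inv x _ hx =>
    have e : C.zi k * x⁻¹ * (C.zi k)⁻¹ = (C.zi k * x * (C.zi k)⁻¹)⁻¹ := by group
    rw [e]
    exact inv_mem hx

lemma zi_conj_RR' (k : Fin (m + 1 + 1)) {n : ℕ} (hn : n = k) {r : Γ} (hr : r ∈ C.RR n) : (C.zi k)⁻¹ * r * C.zi k ∈ C.RR n := by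
  have e : (C.zi k)⁻¹ * r * C.zi k = (C.zi k * C.zi k)⁻¹ * (C.zi k * r * (C.zi k)⁻¹) * (C.zi k * C.zi k) := by group
  rw [e]
  have h := C.T_le_RR n (C.zi_sq_T k)
  exact mul_mem (mul_mem (inv_mem h) (C.zi_conj_RR k hn hr)) h

/-- The inductive step. -/
lemma RR_succ (k : Fin (m + 1 + 1)) {r : Γ} (hr : r ∈ C.RR ((k : ℕ) + 1)) : r ∈ C.RR k ∨ ∃ r' ∈ C.RR k, r = r' * C.zi k := by
  have hsq := C.T_le_RR k (C.zi_sq_T k)
  induction hr using closure_induction_left with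
  | one => exact Or.inl (one_mem _)
  | mul_left x hx y _ hy =>
    rcases hx with h | ⟨i, hi, rfl⟩
    · have h' := C.T_le_RR k h
      rcases hy with hy | ⟨r', hr', rfl⟩
      · exact Or.inl (mul_mem h' hy)
      · exact Or.inr ⟨x * r', mul_mem h' hr', by group⟩
    · by_cases hik : (i : ℕ) < k
      · have h' := C.zi_mem_RR hik
        rcases hy with hy | ⟨r', hr', rfl⟩
        · exact Or.inl (mul_mem h' hy)
        · exact Or.inr ⟨_, mul_mem h' hr', by group⟩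
      · obtain rfl : i = k := Fin.ext (by omega)
        rcases hy with hy | ⟨r', hr', rfl⟩
        · exact Or.inr ⟨_, C.zi_conj_RR i rfl hy, by group⟩
        · left
          have e : C.zi i * (r' * C.zi i) = (C.zi i * r' * (C.zi i)⁻¹) * (C.zi i * C.zi i) := by group
          rw [e]
          exact mul_mem (C.zi_conj_RR i rfl hr') hsq
  | inv_mul_cancel x hx y _ hy =>
    rcases hx with h | ⟨i, hi, rfl⟩
    · have h' := inv_mem (C.T_le_RR k h)
      rcases hy with hy | ⟨r', hr', rfl⟩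
      · exact Or.inl (mul_mem h' hy)
      · exact Or.inr ⟨x⁻¹ * r', mul_mem h' hr', by group⟩
    · by_cases hik : (i : ℕ) < k
      · have h' := inv_mem (C.zi_mem_RR hik)
        rcases hy with hy | ⟨r', hr', rfl⟩
        · exact Or.inl (mul_mem h' hy)
        · exact Or.inr ⟨_, mul_mem h' hr', by group⟩
      · obtain rfl : i = k := Fin.ext (by omega)
        rcases hy with hy | ⟨r', hr', rfl⟩
        · refine Or.inr ⟨((C.zi i)⁻¹ * y * C.zi i) * (C.zi i * C.zi i)⁻¹, mul_mem (C.zi_conj_RR' i rfl hy) (inv_mem hsq), by group⟩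
        · left
          have e : (C.zi i)⁻¹ * (r' * C.zi i) = (C.zi i)⁻¹ * r' * C.zi i := by group
          rw [e]
          exact C.zi_conj_RR' i rfl hr'

/-- Conjugating the torus. -/
lemma A_conj_T {μ : SLN (m + 1 + 1) F} {π : Equiv.Perm (Fin (m + 1 + 1))} {c : Fin (m + 1 + 1) → F} (M : Mono μ π c) {t : Γ} (ht : t ∈ C.T) :
    C.A μ * t * (C.A μ)⁻¹ ∈ C.T := by
  induction ht using closure_induction with
  | mem x hx =>
    rcases hx with ⟨ν, c', hN, rfl⟩ | ⟨d, rfl⟩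
    · obtain ⟨c'', h⟩ := mono_conj_one M hN
      rw [← map_inv, ← map_mul, ← map_mul]
      exact C.A_mem_T h
    · have h := C.thi_conj M 0 d
      rw [ECore.thi_zero] at h
      rw [h]
      exact C.thi_mem_T _ _
  | one => simp
  | mul x y _ _ hx hy =>
    have e : C.A μ * (x * y) * (C.A μ)⁻¹ = (C.A μ * x * (C.A μ)⁻¹) * (C.A μ * y * (C.A μ)⁻¹) := by group
    rw [e]
    exact C.T.mul_mem hx hy
  | inv x _ hx =>
    have e : C.A μ * x⁻¹ * (C.A μ)⁻¹ = (C.A μ * x * (C.A μ)⁻¹)⁻¹ := by group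
    rw [e]
    exact C.T.inv_mem hx

lemma A_conj_RR {μ : SLN (m + 1 + 1) F} {π : Equiv.Perm (Fin (m + 1 + 1))} {c : Fin (m + 1 + 1) → F} (M : Mono μ π c) {r : Γ} (hr : r ∈ C.RR (m + 2)) :
    C.A μ * r * (C.A μ)⁻¹ ∈ C.RR (m + 2) := by
  induction hr using closure_induction with
  | mem x hx =>
    rcases hx with h | ⟨i, hi, rfl⟩
    · exact C.T_le_RR _ (C.A_conj_T M h)
    · rw [C.zi_conj M]
      exact mul_mem (C.T_le_RR _ (C.thi_mem_T _ _)) (C.zi_mem_RR (by have := (π i).2; omega))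
  | one => simp
  | mul x y _ _ hx hy =>
    have e : C.A μ * (x * y) * (C.A μ)⁻¹ = (C.A μ * x * (C.A μ)⁻¹) * (C.A μ * y * (C.A μ)⁻¹) := by group
    rw [e]
    exact mul_mem hx hy
  | inv x _ hx =>
    have e : C.A μ * x⁻¹ * (C.A μ)⁻¹ = (C.A μ * x * (C.A μ)⁻¹)⁻¹ := by group
    rw [e]
    exact inv_mem hx

/-- The normal form of the monomial group. -/
lemma N_form (g : Γ) (hg : g ∈ C.N) : ∃ (μ : SLN (m + 1 + 1) F) (π : Equiv.Perm (Fin (m + 1 + 1))) (c : Fin (m + 1 + 1) → F), Mono μ π c ∧ ∃ r ∈ C.RR (m + 2), g = C.A μ * r := by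
  induction hg using closure_induction with
  | mem x hx =>
    rcases hx with ⟨μ, π, c, hM, rfl⟩ | hx
    · exact ⟨μ, π, c, hM, 1, one_mem _, by simp⟩
    · rw [Set.mem_singleton_iff] at hx
      subst hx
      refine ⟨1, _, _, Mono.one', C.z, ?_, by simp⟩
      have := C.zi_mem_RR (k := m + 2) (i := 0) (by simp)
      rwa [C.zi_zero] at this
  | one => exact ⟨1, _, _, Mono.one', 1, one_mem _, by simp⟩
  | mul x y _ _ hx hy =>
    obtain ⟨μ, π, c, M, r, hr, rfl⟩ := hx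
    obtain ⟨μ', π', c', M', r', hr', rfl⟩ := hy
    refine ⟨_, _, _, M.mul M', _, mul_mem (C.A_conj_RR M'.inv hr) hr', ?_⟩
    rw [map_mul, map_inv]
    group
  | inv x _ hx =>
    obtain ⟨μ, π, c, M, r, hr, rfl⟩ := hx
    refine ⟨_, _, _, M.inv, _, C.A_conj_RR M (inv_mem hr), ?_⟩
    rw [map_inv]
    group

end ECfg

end Cfsg.Agent.Lib.PrsSU
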