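import Mathlib
import Cfsg.Agent.Lib.PrsSVD
import Cfsg.Agent.Lib.PrsSUC

/-!
# Presentations of special unitary groups: injectivity in even dimension
-/

set_option autoImplicit false
set_option linter.unusedSectionVars false
set_option linter.unusedVariables false

namespace Cfsg.Agent.Lib.PrsSU

open Subgroup Sum Cfsg.Agent.Lib.SUWitt
open Cfsg.Agent.Lib.PrsSp (SLN Mono wW mono_wW dn mono_dn IsBlk sl_eq dn_mul dn_one dn_inv tv_inv' sl_comm sl_comm' exists_mono2 tv_isBlk blk blk_isBlk exists_blk IsBlk.inv_entry)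
open scoped Matrix commutatorElement

section LineAct

variable {m : ℕ} {F : Type*} [Field F] {σ : F →+* F} {Gt : Type*} [Group Gt] (Mo : Model (n := nE m) σ Gt)

/-- Elements acting on the coordinate lines, swapping only the first ones. -/
def LineAct (k : ℕ) (x : Gt) : Prop :=
  ∀ a : Ix (m + 1 + 1), ∃ u : F, u ≠ 0 ∧ (Mo.toM x *ᵥ vE a = u • vE a ∨ (((ab a : Fin (m + 1 + 1)) : ℕ) < k ∧ Mo.toM x *ᵥ vE a = u • vE (bar a)))

variable {Mo}

lemma LineAct.mul {k : ℕ} {x y : Gt} (hx : LineAct Mo k x) (hy : LineAct Mo k y) : LineAct Mo k (x * y) := by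
  intro a
  obtain ⟨u, hu, h | ⟨hk, h⟩⟩ := hy a
  · obtain ⟨u', hu', h' | ⟨hk', h'⟩⟩ := hx a
    · exact ⟨u * u', mul_ne_zero hu hu', Or.inl (by rw [Model.act_mul, h, Matrix.mulVec_smul, h', smul_smul])⟩
    · exact ⟨u * u', mul_ne_zero hu hu', Or.inr ⟨hk', by rw [Model.act_mul, h, Matrix.mulVec_smul, h', smul_smul]⟩⟩
  · obtain ⟨u', hu', h' | ⟨hk', h'⟩⟩ := hx (bar a)
    · exact ⟨u * u', mul_ne_zero hu hu', Or.inr ⟨hk, by rw [Model.act_mul, h, Matrix.mulVec_smul, h', smul_smul]⟩⟩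
    · rw [bar_bar] at h'
      exact ⟨u * u', mul_ne_zero hu hu', Or.inl (by rw [Model.act_mul, h, Matrix.mulVec_smul, h', smul_smul])⟩

lemma LineAct.of_dg {k : ℕ} {x : Gt} {d : Ix (m + 1 + 1) → F} (h : DgE Mo x d) : LineAct Mo k x :=
  fun a => ⟨d a, DgE_ne Mo h a, Or.inl (h a)⟩

variable (Mo)

/-- The diagonal action of a diagonal element of the linear group. -/
def dN (σ : F →+* F) (c : Fin (m + 1 + 1) → F) : Ix (m + 1 + 1) → F
  | inl k => c k
  | inr k => (σ (c k))⁻¹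

lemma DgE_psE {ν : SLN (m + 1 + 1) F} {c : Fin (m + 1 + 1) → F} (M : Mono ν 1 c) : DgE Mo (psE Mo ν) (dN σ c) := by
  intro a
  cases a with
  | inl k =>
    rw [psE_mono_inl Mo M]
    rfl
  | inr k =>
    rw [psE_mono_inr Mo M]
    rfl

lemma vE_smul_eq {a b : Ix (m + 1 + 1)} (h : a ≠ b) {u v : F} (e : (u • vE a : Fin (nE m) → F) = v • vE b) : v = 0 := by
  have h1 := congrFun e (idxE b)
  simp only [Pi.smul_apply, smul_eq_mul, vE_apply] at h1
  rw [if_neg (Ne.symm h)] at h1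
  simpa using h1.symm

end LineAct

/-- The scaling of the sign changing elements. -/
def uS {m : ℕ} {F : Type*} [Field F] (δ : F) : Ix (m + 1 + 1) → F
  | inl _ => 1
  | inr _ => -δ⁻¹

lemma uS_ne {m : ℕ} {F : Type*} [Field F] {δ : F} (hδ : δ ≠ 0) (a : Ix (m + 1 + 1)) : uS δ a ≠ 0 := by
  cases a with
  | inl i => exact one_ne_zero
  | inr i => exact neg_ne_zero.2 (inv_ne_zero hδ)

namespace ECfg

variable {Γ : Type*} [Group Γ] {F : Type*} [Field F] {σ : F →+* F} {m : ℕ} (C : ECfg Γ σ m)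
  {Gt : Type*} [Group Gt] (Mo : Model (n := nE m) σ Gt) (φ : Γ →* Gt) {δ : F} (hδ : δ ≠ 0) (hδ' : σ δ = -δ)
  (hA : ∀ g, φ (C.A g) = psE Mo g) (hz : φ C.z = zE Mo δ)

include hA hz

lemma φ_zi (i : Fin (m + 1 + 1)) : φ (C.zi i) = zM Mo δ i := by
  simp only [ECore.zi, zM, map_mul, map_inv, hA, hz]

omit hz in
lemma φ_xE (i j : Fin (m + 1 + 1)) (t : F) : φ (xE C.A i j t) = xE (psE Mo) i j t := by
  by_cases h : i = j
  · subst h
    simp [xE_self]
  · rw [xE_of _ h, xE_of _ h, hA]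

lemma φ_th (c : Fˣ) : φ (C.th c) = thM Mo δ c := by
  have h := C.hz c
  have e : C.th c = C.A (hU c) * C.z * (C.A (hU c))⁻¹ * C.z⁻¹ := by
    rw [h]
    group
  rw [e]
  simp only [map_mul, map_inv, hA, hz, thM]

include hδ hδ'

lemma φ_ff (u : F) : φ (C.ff u) = lE Mo (inl 0) (-δ * (u + σ u)) := by
  have h := m_ff Mo hδ hδ' u
  rw [← h]
  simp only [ECore.ff, ECore.cc, ECore.al, ECore.be, map_commutatorElement, map_mul, map_inv, C.φ_xE Mo φ hA, C.φ_zi Mo φ hA hz]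

lemma φ_fi (k : Fin (m + 1 + 1)) (u : F) : φ (C.fi k u) = lE Mo (inl k) (-δ * (u + σ u)) := by
  rw [fi, map_mul, map_mul, map_inv, hA, φ_ff C Mo φ hδ hδ' hA hz, m_gl Mo k (t_tr hδ hδ' Mo.hσ.invol u)]

lemma φ_pE {i j : Fin (m + 1 + 1)} (h : i ≠ j) (t : F) : φ (C.pE i j t) = PrsSU.sE Mo (inl i) (inl j) (- σ t * δ) := by
  rw [← m_p Mo hδ hδ' h t, pE, map_mul, map_mul, map_inv, φ_zi C Mo φ hA hz, φ_xE C Mo φ hA]

lemma gS_self (a : Ix (m + 1 + 1)) : Mo.toM (φ (C.gS a)) *ᵥ vE (inl (ab a)) = uS δ a • vE a := by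
  cases a with
  | inl i =>
    simp only [gS_inl, map_one, Matrix.one_mulVec, uS, one_smul, Model.act_one]
    rfl
  | inr i =>
    simp only [gS_inr, φ_zi C Mo φ hA hz]
    exact zM_l Mo hδ hδ' i

lemma gS_other {a : Ix (m + 1 + 1)} {b : Ix (m + 1 + 1)} (h : ab b ≠ ab a) : Mo.toM (φ (C.gS a)) *ᵥ vE b = vE b := by
  cases a with
  | inl i =>
    simp only [gS_inl, map_one, Matrix.one_mulVec, Model.act_one]
  | inr i =>
    simp only [gS_inr, φ_zi C Mo φ hA hz]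
    exact zM_o Mo hδ hδ' h

/-- The short root groups in the model. -/
lemma hX_model (a b : Ix (m + 1 + 1)) (hab : ab a ≠ ab b) (x : Γ) (hx : x ∈ C.X a b) :
    ∃ c : F, φ x = Mo.E (e (idxE a)) (c • e (idxE b)) 0 ∧ (c = 0 → x = 1) := by
  obtain ⟨y, ⟨t, rfl⟩, rfl⟩ := C.mem_X.1 hx
  have h1 : Mo.toM (φ (C.gS a * C.gS b)) *ᵥ vE (inl (ab a)) = uS δ a • vE a := by
    rw [map_mul, Model.act_mul, C.gS_other Mo φ hδ hδ' hA hz (a := b) (b := inl (ab a)) hab, C.gS_self Mo φ hδ hδ' hA hz]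
  have h2 : Mo.toM (φ (C.gS a * C.gS b)) *ᵥ vE (inl (ab b)) = uS δ b • vE b := by
    rw [map_mul, Model.act_mul, C.gS_self Mo φ hδ hδ' hA hz, Matrix.mulVec_smul, C.gS_other Mo φ hδ hδ' hA hz (a := a) (b := b) (Ne.symm hab)]
  refine ⟨σ (uS δ a) * (- σ t * δ) * uS δ b, ?_, ?_⟩
  · rw [map_mul, map_mul, map_inv, φ_pE C Mo φ hδ hδ' hA hz hab, sE_conj Mo _ (a := inl (ab a)) (b := inl (ab b)) hab hab h1 h2]
    rfl
  · intro h0
    have hσ := Mo.hσ.invol
    have h3 : σ (uS δ a) ≠ 0 := sig_ne hσ (uS_ne hδ a)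
    have h4 := uS_ne (m := m) hδ b
    have ht : t = 0 := by
      by_contra ht
      have h5 : σ t ≠ 0 := sig_ne hσ ht
      exact (mul_ne_zero (mul_ne_zero h3 (mul_ne_zero (neg_ne_zero.2 h5) hδ)) h4) h0
    subst ht
    rw [pE_zero]
    group

omit hA hz hδ hδ' in
lemma fi_eq_one {k : Fin (m + 1 + 1)} {u : F} (h : u + σ u = 0) : C.fi k u = 1 := by
  have : σ u = -u := by linear_combination h
  simp only [fi]
  rw [C.ff_tr u this]
  group

/-- The long root groups in the model. -/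
lemma hM_model (k : Fin (m + 1 + 1)) (x : Γ) (hx : x ∈ C.M (inl k)) :
    ∃ (w : Fin (nE m) → F) (c : F), Cond σ (e (idxE (inl k))) w c ∧
      φ x = Mo.E (e (idxE (inl k))) w c ∧ (∀ b, w (idxE b) = 0) ∧ (w = 0 → c = 0 → x = 1) := by
  obtain ⟨u, rfl⟩ := C.mem_M_inl.1 hx
  refine ⟨0, -δ * (u + σ u), cond_l (inl k) (t_tr hδ hδ' Mo.hσ.invol u), φ_fi C Mo φ hδ hδ' hA hz k u, fun b => rfl, ?_⟩
  intro _ h0
  have h1 : u + σ u = 0 := by
    have := mul_eq_zero.1 h0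
    rcases this with h | h
    · exact absurd (neg_eq_zero.1 h) hδ
    · exact h
  exact C.fi_eq_one h1

lemma T_dg {t : Γ} (ht : t ∈ C.T) : ∃ d, DgE Mo (φ t) d := by
  obtain ⟨ν, c, d, M, rfl⟩ := C.T_form t ht
  rw [map_mul, hA, φ_th C Mo φ hA hz]
  exact ⟨_, DgE_mul Mo (DgE_psE Mo M) (DgE_th Mo hδ hδ' d)⟩

lemma T_line {k : ℕ} {t : Γ} (ht : t ∈ C.T) : LineAct Mo k (φ t) := by
  obtain ⟨d, hd⟩ := C.T_dg Mo φ hδ hδ' hA hz ht
  exact LineAct.of_dg hd

lemma zi_line {k : ℕ} {i : Fin (m + 1 + 1)} (hi : (i : ℕ) < k) : LineAct Mo k (φ (C.zi i)) := by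
  rw [φ_zi C Mo φ hA hz]
  intro a
  by_cases h : ab a = i
  · subst h
    cases a with
    | inl p => exact ⟨_, neg_ne_zero.2 (inv_ne_zero hδ), Or.inr ⟨hi, zM_l Mo hδ hδ' p⟩⟩
    | inr p => exact ⟨_, hδ, Or.inr ⟨hi, zM_r Mo hδ hδ' p⟩⟩
  · exact ⟨1, one_ne_zero, Or.inl (by rw [zM_o Mo hδ hδ' h, one_smul])⟩

lemma zi_inv_line {k : ℕ} {i : Fin (m + 1 + 1)} (hi : (i : ℕ) < k) : LineAct Mo k (φ (C.zi i)⁻¹) := by
  have e : (C.zi i)⁻¹ = (C.zi i * C.zi i)⁻¹ * C.zi i := by group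
  rw [e, map_mul]
  exact (C.T_line Mo φ hδ hδ' hA hz (C.T.inv_mem (C.zi_sq_T i))).mul (C.zi_line Mo φ hδ hδ' hA hz hi)

lemma RR_line {k : ℕ} {r : Γ} (hr : r ∈ C.RR k) : LineAct Mo k (φ r) := by
  induction hr using closure_induction_left with
  | one =>
    rw [map_one]
    exact LineAct.of_dg (DgE_one Mo)
  | mul_left x hx y _ hy =>
    rw [map_mul]
    refine LineAct.mul ?_ hy
    rcases hx with h | ⟨i, hi, rfl⟩
    · exact C.T_line Mo φ hδ hδ' hA hz h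
    · exact C.zi_line Mo φ hδ hδ' hA hz hi
  | inv_mul_cancel x hx y _ hy =>
    rw [map_mul]
    refine LineAct.mul ?_ hy
    rcases hx with h | ⟨i, hi, rfl⟩
    · exact C.T_line Mo φ hδ hδ' hA hz (C.T.inv_mem h)
    · exact C.zi_inv_line Mo φ hδ hδ' hA hz hi

/-- Elements of the chain without swaps are in the torus. -/
lemma RR_T (k : ℕ) (hk : k ≤ m + 2) {r : Γ} (hr : r ∈ C.RR k) (h : ∀ a : Ix (m + 1 + 1), ∃ u : F, Mo.toM (φ r) *ᵥ vE a = u • vE a) : r ∈ C.T := by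
  induction k generalizing r with
  | zero => exact C.RR_zero hr
  | succ k ih =>
    let i : Fin (m + 1 + 1) := ⟨k, by omega⟩
    rcases C.RR_succ i hr with h1 | ⟨r', hr', rfl⟩
    · exact ih (by omega) h1 h
    · exfalso
      have hl := C.RR_line Mo φ hδ hδ' hA hz hr' (inr i)
      obtain ⟨u, hu, h2 | ⟨h3, -⟩⟩ := hl
      · obtain ⟨u', hu'⟩ := h (inl i)
        have h4 : Mo.toM (φ (r' * C.zi i)) *ᵥ vE (inl i) = ((-δ⁻¹) * u) • vE (inr i) := by
          rw [map_mul, Model.act_mul, φ_zi C Mo φ hA hz, zM_l Mo hδ hδ', Matrix.mulVec_smul, h2, smul_smul]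
        rw [hu'] at h4
        have h5 := vE_smul_eq (a := inl i) (b := inr i) (by simp) h4
        exact mul_ne_zero (neg_ne_zero.2 (inv_ne_zero hδ)) hu h5
      · exact absurd h3 (lt_irrefl _)

/-- The monomial elements with trivial diagonal in the model are trivial. -/
lemma hN_model (g : Γ) (hg : g ∈ C.N) (h : ∀ s, Mo.toM (φ g) s s = 1) : g = 1 := by
  classical
  obtain ⟨μ, π, c, M, r, hr, rfl⟩ := C.N_form g hg
  have hl := C.RR_line Mo φ hδ hδ' hA hz hr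
  have hcoord : ∀ a : Ix (m + 1 + 1), (Mo.toM (φ (C.A μ * r)) *ᵥ vE a) (idxE a) = 1 := by
    intro a
    rw [mulVec_e_apply]
    exact h _
  have key : ∀ a : Ix (m + 1 + 1), lift π a = a ∧ ∃ u : F, Mo.toM (φ r) *ᵥ vE a = u • vE a := by
    intro a
    have h1 := hcoord a
    rw [map_mul, hA, Model.act_mul] at h1
    obtain ⟨u, hu, h2 | ⟨-, h2⟩⟩ := hl a
    · obtain ⟨u', hu', h3⟩ := psE_mono Mo M a
      rw [h2, Matrix.mulVec_smul, h3, smul_smul, Pi.smul_apply, vE_apply, smul_eq_mul] at h1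
      refine ⟨?_, u, h2⟩
      by_contra hne
      rw [if_neg (Ne.symm hne)] at h1
      simp at h1
    · exfalso
      obtain ⟨u', hu', h3⟩ := psE_mono Mo M (bar a)
      rw [h2, Matrix.mulVec_smul, h3, smul_smul, Pi.smul_apply, vE_apply, smul_eq_mul] at h1
      have hne : a ≠ lift π (bar a) := by
        cases a <;> simp [lift]
      rw [if_neg hne] at h1
      simp at h1
  have hπ : π = 1 := by
    ext i
    have h2 : (inl (π i) : Ix (m + 1 + 1)) = inl i := (key (inl i)).1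
    have h3 : π i = i := Sum.inl.inj h2
    simp [h3]
  subst hπ
  have hrT : r ∈ C.T := C.RR_T Mo φ hδ hδ' hA hz (m + 2) le_rfl hr (fun a => (key a).2)
  obtain ⟨ν, c', d, M', e⟩ := C.T_form _ (C.T.mul_mem (C.A_mem_T M) hrT)
  rw [e] at hcoord ⊢
  have hD : DgE Mo (φ (C.A ν * C.th d)) (fun a => dN σ c' a * dT ((nU σ d : Fˣ) : F) a) := by
    rw [map_mul, hA, φ_th C Mo φ hA hz]
    exact DgE_mul Mo (DgE_psE Mo M') (DgE_th Mo hδ hδ' d)
  have hval : ∀ a : Ix (m + 1 + 1), dN σ c' a * dT ((nU σ d : Fˣ) : F) a = 1 := by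
    intro a
    have h1 := hcoord a
    rw [hD a] at h1
    simpa [vE_apply] using h1
  have hc : ∀ j, j ≠ 0 → c' j = 1 := by
    intro j hj
    have h1 := hval (inl j)
    have h2 : (inl j : Ix (m + 1 + 1)) ≠ inl 0 := fun e => hj (Sum.inl.inj e)
    simpa [dN, dT, h2] using h1
  have hmat : ((ν : SLN (m + 1 + 1) F) : Matrix (Fin (m + 1 + 1)) (Fin (m + 1 + 1)) F) = Matrix.diagonal c' := by
    ext i j
    rw [M'.entry, Matrix.diagonal_apply]
    by_cases h0 : i = j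
    · subst h0
      simp
    · simp [h0]
  have hdet : ∏ j, c' j = 1 := by
    have := ν.2
    rw [hmat, Matrix.det_diagonal] at this
    exact this
  have hc0 : c' 0 = 1 := by
    rw [Finset.prod_eq_single 0 (fun j _ hj => hc j hj) (by simp)] at hdet
    exact hdet
  have hκ : ((nU σ d : Fˣ) : F) = 1 := by
    have h1 := hval (inl 0)
    simpa [dN, dT, hc0] using h1
  have hd1 : nU σ d = 1 := Units.ext hκ
  have hν : ν = 1 := by
    apply sl_eq
    rw [hmat]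
    ext i j
    by_cases h0 : i = j
    · subst h0
      by_cases h1 : i = 0
      · subst h1
        simp [hc0]
      · simp [hc i h1]
    · simp [h0, Matrix.one_apply]
  rw [C.th_norm d hd1, hν]
  simp

end ECfg

end Cfsg.Agent.Lib.PrsSU
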