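import Mathlib
import Cfsg.Agent.Lib.PrsSVE
import Cfsg.Agent.Lib.PrsSUK

/-!
# Presentations of special unitary groups: injectivity and generation in even dimension
-/

set_option autoImplicit false
set_option linter.unusedSectionVars false
set_option linter.unusedVariables false

namespace Cfsg.Agent.Lib.PrsSU

open Subgroup Sum Cfsg.Agent.Lib.SUWitt
open Cfsg.Agent.Lib.PrsSp (SLN Mono wW mono_wW dn mono_dn IsBlk sl_eq dn_mul dn_one dn_inv tv_inv' sl_comm sl_comm' exists_mono2 tv_isBlk blk blk_isBlk exists_blk IsBlk.inv_entry)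
open scoped Matrix commutatorElement

namespace ECfg

variable {Γ : Type*} [Group Γ] {F : Type*} [Field F] {σ : F →+* F} {m : ℕ} (C : ECfg Γ σ m)
  {Gt : Type*} [Group Gt] (Mo : Model (n := nE m) σ Gt) (φ : Γ →* Gt) {δ : F} (hδ : δ ≠ 0) (hδ' : σ δ = -δ)
  (hA : ∀ g, φ (C.A g) = psE Mo g) (hz : φ C.z = zE Mo δ)

include hδ hδ' hA hz in
theorem even_injective (hgen : closure (Set.range C.A ∪ {C.z}) = ⊤) : Function.Injective φ :=
  ModelHyp.injective (D := C.toRootD hgen) (Mo := Mo) (φ := φ) (idx := idxE)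
    { idx_inj := idxE_inj
      idx_rev := idxE_rev
      hX := C.hX_model Mo φ hδ hδ' hA hz
      hM := C.hM_model Mo φ hδ hδ' hA hz
      hN := C.hN_model Mo φ hδ hδ' hA hz }

end ECfg

section Surj

variable {m : ℕ} {F : Type*} [Field F] {σ : F →+* F} {Gt : Type*} [Group Gt] (Mo : Model (n := nE m) σ Gt) {δ : F} (hδ : δ ≠ 0) (hδ' : σ δ = -δ)
  (H : Subgroup Gt) (hA : ∀ g, psE Mo g ∈ H) (hz : zE Mo δ ∈ H)

include hδ hδ' hA hz

lemma zM_mem (i : Fin (m + 1 + 1)) : zM Mo δ i ∈ H :=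
  H.mul_mem (H.mul_mem (hA _) hz) (H.inv_mem (hA _))

lemma xE_mem (i j : Fin (m + 1 + 1)) (t : F) : xE (psE Mo) i j t ∈ H := by
  by_cases h : i = j
  · subst h
    rw [xE_self]
    exact H.one_mem
  · rw [xE_of _ h]
    exact hA _

/-- All unitary transvections lie in a subgroup containing the generators. -/
theorem even_transv : ∀ (v : Fin (nE m) → F) (c : F), hJ σ v v = 0 → c + σ c = 0 → Mo.E v 0 c ∈ H := by
  have hσ := Mo.hσ.invol
  have hi₀ : idxE (inl 0 : Ix (m + 1 + 1)) ≠ (idxE (inl 0 : Ix (m + 1 + 1))).rev := by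
    rw [idxE_rev]
    intro e
    have := idxE_inj e
    simp at this
  have hT : ∀ a, a + σ a = 0 → Mo.E (e (idxE (inl 0 : Ix (m + 1 + 1)))) 0 a ∈ H := by
    intro a ha
    have h1 : σ (-δ⁻¹ * a) = -δ⁻¹ * a := by
      have : σ a = -a := by linear_combination ha
      simp only [map_mul, map_neg, map_inv₀, hδ', this, inv_neg]
      ring
    obtain ⟨u, hu⟩ := Mo.hσ.trace_surj _ h1
    have h2 := m_ff Mo hδ hδ' u
    rw [hu] at h2
    have h3 : -δ * (-δ⁻¹ * a) = a := by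
      field_simp
    rw [h3] at h2
    change lE Mo (inl 0) a ∈ H
    rw [← h2, commutatorElement_def]
    have h4 := xE_mem Mo hδ hδ' H hA hz 0 1 1
    have h5 := xE_mem Mo hδ hδ' H hA hz 0 1 u
    have h6 := zM_mem Mo hδ hδ' H hA hz 1
    exact H.mul_mem (H.mul_mem (H.mul_mem h4 (H.mul_mem (H.mul_mem h6 h5) (H.inv_mem h6))) (H.inv_mem h4)) (H.inv_mem (H.mul_mem (H.mul_mem h6 h5) (H.inv_mem h6)))
  have hS' : ∀ (b : Ix (m + 1 + 1)), ab b ≠ 0 → ∀ c : F, sE Mo (inl 0) b c ∈ H := by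
    intro b hb c
    cases b with
    | inl j =>
      have hne : (0 : Fin (m + 1 + 1)) ≠ j := Ne.symm hb
      have h1 := m_p Mo hδ hδ' hne (- σ (c * δ⁻¹))
      have h2 : - σ (- σ (c * δ⁻¹)) * δ = c := by
        simp only [map_neg, hσ, neg_neg, map_mul]
        field_simp
      rw [h2] at h1
      rw [← h1]
      have h6 := zM_mem Mo hδ hδ' H hA hz j
      exact H.mul_mem (H.mul_mem h6 (xE_mem Mo hδ hδ' H hA hz _ _ _)) (H.inv_mem h6)
    | inr j =>
      have hne : (0 : Fin (m + 1 + 1)) ≠ j := Ne.symm hb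
      have h1 := m_x Mo hne (- σ c)
      have h2 : - σ (- σ c) = c := by
        simp only [map_neg, hσ, neg_neg]
      rw [h2] at h1
      rw [← h1]
      exact xE_mem Mo hδ hδ' H hA hz _ _ _
  have hS : ∀ s, s ≠ idxE (inl 0 : Ix (m + 1 + 1)) → s ≠ (idxE (inl 0 : Ix (m + 1 + 1))).rev → ∀ c a : F,
      Cond σ (e (idxE (inl 0 : Ix (m + 1 + 1)))) (c • e s) a → Mo.E (e (idxE (inl 0 : Ix (m + 1 + 1)))) (c • e s) a ∈ H := by
    intro s h1 h2 c a hc
    obtain ⟨b, rfl⟩ := idxE_surj s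
    rw [idxE_rev] at h2
    have hb : ab b ≠ 0 := by
      intro h0
      cases b with
      | inl j =>
        obtain rfl : j = 0 := h0
        exact h1 rfl
      | inr j =>
        obtain rfl : j = 0 := h0
        exact h2 rfl
    have hab : ab (inl 0 : Ix (m + 1 + 1)) ≠ ab b := Ne.symm hb
    have ha : a + σ a = 0 := by
      have h3 := hc.2.2
      change a + σ a + hJ σ (c • vE b) (c • vE b) = 0 at h3
      rw [hJ_smul_left, hJ_smul_right, hJ_vE_ne (bar_ne b).symm] at h3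
      simpa using h3
    change Mo.E (vE (inl 0)) (c • vE b) a ∈ H
    rw [← lE_sE_mul Mo hab ha]
    refine H.mul_mem ?_ (hS' b hb c)
    exact hT a ha
  have hE := E_all Mo hi₀ H hT hS
  refine transv_mem Mo hi₀ H hE ?_
  intro k hk
  obtain ⟨a, rfl⟩ := idxE_surj k
  cases a with
  | inl j =>
    refine ⟨psE Mo (mE j), hA _, _, (mono_mE (F := F) j).ne j, ?_⟩
    rw [psE_mono_inl Mo (mono_mE (F := F) j), Equiv.swap_apply_left]
  | inr j =>
    refine ⟨psE Mo (mE j) * zM Mo δ j, H.mul_mem (hA _) (zM_mem Mo hδ hδ' H hA hz j), _, mul_ne_zero hδ ((mono_mE (F := F) j).ne j), ?_⟩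
    rw [Model.act_mul, zM_r Mo hδ hδ', Matrix.mulVec_smul, psE_mono_inl Mo (mono_mE (F := F) j), Equiv.swap_apply_left, smul_smul]

end Surj

end Cfsg.Agent.Lib.PrsSU
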