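import Mathlib
import Cfsg.Agent.Lib.PrsSVF

/-!
# Presentations of special unitary groups: the relators in even dimension
-/

set_option autoImplicit false
set_option linter.unusedSectionVars false
set_option linter.unusedVariables false

noncomputable section

namespace Cfsg.Agent.Lib.PrsSU

open Subgroup Sum Cfsg.Agent.Lib.SUWitt
open Cfsg.Agent.Lib.PrsSp (SLN Mono wW mono_wW dn mono_dn IsBlk sl_eq dn_mul dn_one dn_inv tv_inv' sl_comm sl_comm' exists_mono2 tv_isBlk blk blk_isBlk exists_blk IsBlk.inv_entry)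
open scoped Matrix commutatorElement

section Words

variable {F : Type*} [Field F] {m : ℕ} {W W' : Type*} [Group W] [Group W'] (a : SLN (m + 1 + 1) F → W) (z : W)

/-- The word of a conjugate of the long Weyl element. -/
def wZ : W := a (mE 1) * z * (a (mE 1))⁻¹

/-- The word of the twisted torus element. -/
def wTp (c : Fˣ) : W := z * a (hU c) * z⁻¹

/-- The word of the long torus element. -/
def wTh (c : Fˣ) : W := a (hU c) * z * (a (hU c))⁻¹ * z⁻¹

/-- The word of the short root element. -/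
def wAl (t : F) : W := a (tvE (h01E (m := m)) t)

/-- The word of the opposite root element. -/
def wXb (t : F) : W := a (tvE (h01E (m := m)).symm t)

/-- The word of the conjugate. -/
def wBe (u : F) : W := wZ a z * wAl a u * (wZ a z)⁻¹

/-- The word of the long root element. -/
def wFf (u : F) : W := ⁅wAl a 1, wBe a z u⁆

/-- The word of the conjugate of the long root element. -/
def wFg (u : F) : W := a (mE 1) * wFf a z u * (a (mE 1))⁻¹

variable (f : W →* W')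

lemma wZ_map : wZ (fun x => f (a x)) (f z) = f (wZ a z) := by
  simp only [wZ, map_mul, map_inv]

lemma wTp_map (c : Fˣ) : wTp (fun x => f (a x)) (f z) c = f (wTp a z c) := by
  simp only [wTp, map_mul, map_inv]

lemma wTh_map (c : Fˣ) : wTh (fun x => f (a x)) (f z) c = f (wTh a z c) := by
  simp only [wTh, map_mul, map_inv]

lemma wAl_map (t : F) : wAl (fun x => f (a x)) t = f (wAl a t) := rfl

lemma wXb_map (t : F) : wXb (fun x => f (a x)) t = f (wXb a t) := rfl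

lemma wBe_map (u : F) : wBe (fun x => f (a x)) (f z) u = f (wBe a z u) := by
  simp only [wBe, map_mul, map_inv, wZ_map, wAl_map]

lemma wFf_map (u : F) : wFf (fun x => f (a x)) (f z) u = f (wFf a z u) := by
  simp only [wFf, map_commutatorElement, wBe_map, wAl_map]

lemma wFg_map (u : F) : wFg (fun x => f (a x)) (f z) u = f (wFg a z u) := by
  simp only [wFg, map_mul, map_inv, wFf_map]

end Words

/-- The parameters of the relators. -/
structure ED {F : Type*} [Field F] (σ : F →+* F) (m : ℕ) where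
  ζ : Fˣ
  q : ℕ
  k0 : ℕ
  δ : F
  ξ : F
  ξ' : F
  S : List (SLN (m + 1 + 1) F)

/-- The type of extra relators. -/
inductive EX {F : Type*} [Field F] (m : ℕ) where
  | third (k : Fin (m + 1 + 1)) (hk0 : k ≠ 0) (hk1 : k ≠ 1) : EX m
  | two (h : ∀ g : SLN (m + 1 + 1) F, IsBlk 0 g → g = 1) : EX m

section Lists

variable {F : Type*} [Field F] {σ : F →+* F} {m : ℕ} {W W' : Type*} [Group W] [Group W'] (D : ED σ m) (a : SLN (m + 1 + 1) F → W) (z : W)

/-- The relators on the torus and the long Weyl element. -/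
def eqA : List (W × W) :=
  [ (wTp a z D.ζ * wAl a 1 * (wTp a z D.ζ)⁻¹, wAl a ((D.ζ : F) * (σ D.ζ)⁻¹)),
    (wTp a z D.ζ * wXb a 1 * (wTp a z D.ζ)⁻¹, wXb a (σ D.ζ * ((D.ζ : F))⁻¹)),
    (wTp a z D.ζ * a (hU D.ζ), a (hU D.ζ) * wTp a z D.ζ),
    (wTh a z D.ζ ^ (D.q - 1), 1),
    (z * z, wTh a z D.ζ ^ D.k0),
    (z * wZ a z, wZ a z * z),
    (wZ a z * wAl a 1 * (wZ a z)⁻¹, z * wXb a 1 * z⁻¹),
    (wFf a z D.δ, 1),
    (wFf a z D.ξ * wFg a z D.ξ, wFg a z D.ξ * wFf a z D.ξ),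
    (z * wFf a z D.ξ, (wFf a z D.ξ)⁻¹ * (z * z * z) * (wFf a z D.ξ)⁻¹ * z),
    (⁅wFf a z D.ξ, wXb a 1⁆, wFg a z (-(1 * σ 1 * D.ξ)) * wBe a z (- σ 1)),
    (⁅wFf a z D.ξ, wXb a D.ξ'⁆, wFg a z (-(D.ξ' * σ D.ξ' * D.ξ)) * wBe a z (- σ D.ξ')) ]

/-- The relators of commutation with the block. -/
def eqB : List (W × W) := D.S.map fun s => (z * a s, a s * z)

/-- The extra relators. -/
def eqX' : EX (F := F) m → List (W × W)
  | .third _ _ _ => []
  | .two _ =>
    [ (wFf a z D.ξ * wAl a 1, wAl a 1 * wFf a z D.ξ),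
      (wFf a z D.ξ * wAl a D.ξ', wAl a D.ξ' * wFf a z D.ξ),
      (wZ a z * wFf a z D.ξ, wFf a z D.ξ * wZ a z),
      ((a (mE 1) * wTh a z D.ζ * (a (mE 1))⁻¹) * wFf a z D.ξ, wFf a z D.ξ * (a (mE 1) * wTh a z D.ζ * (a (mE 1))⁻¹)),
      (a (hU D.ζ) * wFf a z D.ξ * (a (hU D.ζ))⁻¹, wFf a z ((nU σ D.ζ : Fˣ) * D.ξ)) ]

/-- All relators. -/
def eqE (X : EX (F := F) m) : List (W × W) := eqA D a z ++ eqB D a z ++ eqX' D a z X

/-- The number of extra relators. -/
def EX.len : EX (F := F) m → ℕ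
  | .third _ _ _ => 0
  | .two _ => 5

lemma eqE_length (X : EX (F := F) m) : (eqE D a z X).length = 12 + D.S.length + X.len := by
  cases X <;> simp only [eqE, eqA, eqB, eqX', EX.len, List.length_append, List.length_cons, List.length_nil, List.length_map] <;> omega

variable (f : W →* W')

lemma eqE_map (X : EX (F := F) m) : (eqE D a z X).map (Prod.map f f) = eqE D (fun x => f (a x)) (f z) X := by
  cases X <;> simp only [eqE, eqA, eqB, eqX', List.map_append, List.map_map, Function.comp_def, Prod.map_apply, List.map_cons, List.map_nil,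
    map_mul, map_inv, map_one, map_pow, map_commutatorElement, wZ_map, wTp_map, wTh_map, wAl_map, wXb_map, wBe_map, wFf_map, wFg_map]

end Lists

section Truth

variable {m : ℕ} {F : Type*} [Field F] {σ : F →+* F} {Gt : Type*} [Group Gt] (Mo : Model (n := nE m) σ Gt) (D : ED σ m)
  (hδ : D.δ ≠ 0) (hδ' : σ D.δ = -D.δ) (hξ : D.ξ + σ D.ξ = 1) (hq : nU σ D.ζ ^ (D.q - 1) = 1) (hk : ((nU σ D.ζ ^ D.k0 : Fˣ) : F) = -1)
  (hS : ∀ s ∈ D.S, IsBlk 0 s)

local notation "aT" => (fun g => psE Mo g : SLN (m + 1 + 1) F → Gt)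
local notation "zT" => zE Mo D.δ

lemma wAl_model (t : F) : wAl (aT) t = xE (psE Mo) 0 1 t := (xE_of _ h01E t).symm

lemma wXb_model (t : F) : wXb (aT) t = xE (psE Mo) 1 0 t := (xE_of _ h01E.symm t).symm

include hδ hδ'

lemma wFf_model (u : F) : wFf (aT) (zT) u = lE Mo (inl 0) (-D.δ * (u + σ u)) := by
  rw [← t_ff Mo hδ hδ' u, wFf, wBe, wAl_model, wAl_model]
  rfl

lemma wFg_model (u : F) : wFg (aT) (zT) u = lE Mo (inl 1) (-D.δ * (u + σ u)) := by
  rw [wFg, wFf_model Mo D hδ hδ', m_gl Mo 1 (t_tr hδ hδ' Mo.hσ.invol u)]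

lemma wBe_model (u : F) : wBe (aT) (zT) u = PrsSU.sE Mo (inl 0) (inl 1) (- σ u * D.δ) := by
  rw [wBe, wAl_model]
  exact m_p Mo hδ hδ' h01E u

include hξ

lemma wFf_xi : wFf (aT) (zT) D.ξ = lE Mo (inl 0) (-D.δ) := by
  rw [wFf_model Mo D hδ hδ', hξ, mul_one]

include hq hk hS

/-- The relators hold in the model. -/
theorem eqE_model (X : EX (F := F) m) : ∀ p ∈ eqE D (aT) (zT) X, p.1 = p.2 := by
  have hσ := Mo.hσ.invol
  have t3 : -D.δ + σ (-D.δ) = 0 := by
    rw [map_neg, hδ']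
    ring
  have e_xi := wFf_xi Mo D hδ hδ' hξ
  intro p hp
  rcases List.mem_append.1 hp with hp | hp
  · rcases List.mem_append.1 hp with hp | hp
    · simp only [eqA, List.mem_cons, List.not_mem_nil, or_false] at hp
      rcases hp with rfl | rfl | rfl | rfl | rfl | rfl | rfl | rfl | rfl | rfl | rfl | rfl
      · simp only [wAl_model, wTp]
        exact t_s21 Mo hδ hδ' D.ζ
      · simp only [wXb_model, wTp]
        exact t_s22 Mo hδ hδ' D.ζ
      · exact t_s23 Mo hδ hδ' D.ζ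
      · exact t_s31 Mo hδ hδ' hq
      · exact t_s32 Mo hδ hδ' hk
      · exact t_z01 Mo hδ hδ'
      · simp only [wAl_model, wXb_model, wZ]
        exact t_s5 Mo hδ hδ'
      · show wFf (aT) (zT) D.δ = 1
        rw [wFf_model Mo D hδ hδ']
        exact t_E4 Mo hδ hδ'
      · show wFf (aT) (zT) D.ξ * wFg (aT) (zT) D.ξ = wFg (aT) (zT) D.ξ * wFf (aT) (zT) D.ξ
        rw [wFf_model Mo D hδ hδ', wFg_model Mo D hδ hδ']
        exact lE_comm Mo (a := inl 0) (b := inl 1) h01E (t_tr hδ hδ' hσ _) (t_tr hδ hδ' hσ _)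
      · show zT * wFf (aT) (zT) D.ξ = _
        simp only [e_xi]
        exact t_ri1 Mo hδ hδ'
      · show ⁅wFf (aT) (zT) D.ξ, wXb (aT) 1⁆ = wFg (aT) (zT) (-(1 * σ 1 * D.ξ)) * wBe (aT) (zT) (- σ 1)
        rw [e_xi, wXb_model, wFg, wBe, wAl_model, wFf_model Mo D hδ hδ']
        exact t_r8 Mo hδ hδ' hξ 1
      · show ⁅wFf (aT) (zT) D.ξ, wXb (aT) D.ξ'⁆ = wFg (aT) (zT) (-(D.ξ' * σ D.ξ' * D.ξ)) * wBe (aT) (zT) (- σ D.ξ')
        rw [e_xi, wXb_model, wFg, wBe, wAl_model, wFf_model Mo D hδ hδ']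
        exact t_r8 Mo hδ hδ' hξ D.ξ'
    · simp only [eqB, List.mem_map] at hp
      obtain ⟨s, hs, rfl⟩ := hp
      exact t_blk Mo hδ hδ' (hS s hs)
  · cases X with
    | third k hk0 hk1 => simp [eqX'] at hp
    | two h =>
      simp only [eqX', List.mem_cons, List.not_mem_nil, or_false] at hp
      rcases hp with rfl | rfl | rfl | rfl | rfl
      · show wFf (aT) (zT) D.ξ * wAl (aT) 1 = wAl (aT) 1 * wFf (aT) (zT) D.ξ
        rw [e_xi, wAl_model]
        exact t_E5 Mo hδ hδ' t3 1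
      · show wFf (aT) (zT) D.ξ * wAl (aT) D.ξ' = wAl (aT) D.ξ' * wFf (aT) (zT) D.ξ
        rw [e_xi, wAl_model]
        exact t_E5 Mo hδ hδ' t3 D.ξ'
      · show wZ (aT) (zT) * wFf (aT) (zT) D.ξ = wFf (aT) (zT) D.ξ * wZ (aT) (zT)
        rw [e_xi]
        exact t_E6 Mo hδ hδ' t3
      · show (psE Mo (mE 1) * wTh (aT) (zT) D.ζ * (psE Mo (mE 1))⁻¹) * wFf (aT) (zT) D.ξ = wFf (aT) (zT) D.ξ * (psE Mo (mE 1) * wTh (aT) (zT) D.ζ * (psE Mo (mE 1))⁻¹)
        rw [e_xi]
        exact t_E7 Mo hδ hδ' D.ζ t3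
      · show psE Mo (hU D.ζ) * wFf (aT) (zT) D.ξ * (psE Mo (hU D.ζ))⁻¹ = wFf (aT) (zT) ((nU σ D.ζ : Fˣ) * D.ξ)
        rw [wFf_model Mo D hδ hδ', wFf_model Mo D hδ hδ']
        exact t_E7' Mo hδ hδ' D.ζ

end Truth

end Cfsg.Agent.Lib.PrsSU
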