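import Mathlib
import Cfsg.Agent.Lib.PrsSVG

/-!
# Presentations of special unitary groups: the configuration from the relators in even dimension
-/

set_option autoImplicit false
set_option linter.unusedSectionVars false
set_option linter.unusedVariables false

noncomputable section

namespace Cfsg.Agent.Lib.PrsSU

open Subgroup Sum Cfsg.Agent.Lib.SUWitt
open Cfsg.Agent.Lib.PrsSp (SLN Mono wW mono_wW dn mono_dn IsBlk sl_eq dn_mul dn_one dn_inv tv_inv' sl_comm sl_comm' exists_mono2 tv_isBlk blk blk_isBlk exists_blk IsBlk.inv_entry lift_map_pres exists_hom_of_pres holds_of_map)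
open scoped Matrix commutatorElement

section Hom

variable {Γ : Type*} [Group Γ] {F : Type*} [Field F] {σ : F →+* F} {m : ℕ} (C : ECore Γ σ m)

lemma wAl_core (t : F) : wAl (fun g => C.A g) t = C.al t := (xE_of _ h01E t).symm

lemma wXb_core (t : F) : wXb (fun g => C.A g) t = xE C.A 1 0 t := (xE_of _ h01E.symm t).symm

lemma wBe_core (u : F) : wBe (fun g => C.A g) C.z u = C.be u := by
  rw [wBe, wAl_core]
  rfl

lemma wFf_core (u : F) : wFf (fun g => C.A g) C.z u = C.ff u := by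
  rw [wFf, wAl_core, wBe_core]
  rfl

lemma wFg_core (u : F) : wFg (fun g => C.A g) C.z u = C.A (mE 1) * C.ff u * (C.A (mE 1))⁻¹ := by
  rw [wFg, wFf_core]

lemma wTh_core (c : Fˣ) : wTh (fun g => C.A g) C.z c = C.th c := by
  rw [wTh, C.hz]
  group

end Hom

section FromEqs

variable {Γ : Type*} [Group Γ] {F : Type*} [Field F] [Fintype F] {σ : F →+* F} {m : ℕ} (D : ED σ m) (A : SLN (m + 1 + 1) F →* Γ) (z : Γ)

include D in
/-- The relators give the configuration. -/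
theorem exists_cfg (H : EField σ D.ζ D.q D.k0) (X : EX (F := F) m) (hS2 : ∀ g, IsBlk 0 g → g ∈ closure {s | s ∈ D.S})
    (hδ : D.δ ≠ 0) (hδ' : σ D.δ = -D.δ) (hξ : D.ξ + σ D.ξ = 1) (hξ' : σ D.ξ' ≠ D.ξ')
    (hAll : ∀ p ∈ eqE D (fun g => A g) z X, p.1 = p.2) :
    ∃ C : ECfg Γ σ m, C.A = A ∧ C.z = z := by
  have hAll' := hAll
  simp only [eqE, List.forall_mem_append] at hAll'
  obtain ⟨⟨h1, h2⟩, h3⟩ := hAll'
  simp only [eqA, List.forall_mem_cons] at h1
  obtain ⟨e1, e2, e3, e4, e5, e6, e7, e8, e9, e10, e11, e12, -⟩ := h1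
  have hcl : ∀ g ∈ closure {s | s ∈ D.S}, Commute z (A g) := by
    intro g h4
    induction h4 using closure_induction with
    | mem x hx =>
      simp only [eqB, List.forall_mem_map] at h2
      exact h2 x hx
    | one => simp
    | mul x y _ _ hx hy =>
      rw [map_mul]
      exact hx.mul_right hy
    | inv x _ hx =>
      rw [map_inv]
      exact hx.inv_right
  have hblk : ∀ g, IsBlk 0 g → Commute z (A g) := fun g hg => hcl g (hS2 g hg)
  let R : ERel Γ σ m D.ζ D.q D.k0 :=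
    { A := A
      z := z
      blk := hblk
      s21 := by
        rw [xE_of _ h01E, xE_of _ h01E]
        exact e1
      s22 := by
        rw [xE_of _ h01E.symm, xE_of _ h01E.symm]
        exact e2
      s23 := e3
      s31 := e4
      s32 := e5
      z01 := e6
      s5 := by
        rw [xE_of _ h01E, xE_of _ h01E.symm]
        exact e7 }
  let C0 : ECore Γ σ m := R.toCore H
  have E4 : C0.ff D.δ = 1 := by
    rw [← wFf_core C0]
    exact e8
  have r10 : Commute (C0.ff D.ξ) (C0.A (mE 1) * C0.ff D.ξ * (C0.A (mE 1))⁻¹) := by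
    rw [← wFf_core C0]
    exact e9
  have ri1 : C0.z * C0.ff D.ξ = (C0.ff D.ξ)⁻¹ * (C0.z * C0.z * C0.z) * (C0.ff D.ξ)⁻¹ * C0.z := by
    rw [← wFf_core C0]
    exact e10
  have r8a : ∃ v s', ⁅C0.ff D.ξ, xE C0.A 1 0 1⁆ = (C0.A (mE 1) * C0.ff v * (C0.A (mE 1))⁻¹) * C0.be s' := by
    refine ⟨-(1 * σ 1 * D.ξ), - σ 1, ?_⟩
    rw [← wFf_core C0, ← wFf_core C0, ← wBe_core C0, ← wXb_core C0]
    exact e11
  have r8b : ∃ v s', ⁅C0.ff D.ξ, xE C0.A 1 0 D.ξ'⁆ = (C0.A (mE 1) * C0.ff v * (C0.A (mE 1))⁻¹) * C0.be s' := by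
    refine ⟨-(D.ξ' * σ D.ξ' * D.ξ), - σ D.ξ', ?_⟩
    rw [← wFf_core C0, ← wFf_core C0, ← wBe_core C0, ← wXb_core C0]
    exact e12
  cases X with
  | third k hk0 hk1 =>
    exact ⟨C0.toCfg3 hk0 hk1 hδ hδ' E4 _ hξ _ hξ' r10 ri1 r8a r8b, rfl, rfl⟩
  | two h =>
    simp only [eqX', List.forall_mem_cons] at h3
    obtain ⟨f1, f2, f3, f4, f5, -⟩ := h3
    have E5a : Commute (C0.ff D.ξ) (C0.al 1) := by
      rw [← wFf_core C0, ← wAl_core C0]
      exact f1
    have E5b : Commute (C0.ff D.ξ) (C0.al D.ξ') := by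
      rw [← wFf_core C0, ← wAl_core C0]
      exact f2
    have E6 : Commute (C0.zi 1) (C0.ff D.ξ) := by
      rw [← wFf_core C0]
      exact f3
    have E7 : Commute (C0.thi 1 D.ζ) (C0.ff D.ξ) := by
      rw [ECore.thi_apply, ← wFf_core C0, ← wTh_core C0]
      exact f4
    have E7' : C0.A (hU D.ζ) * C0.ff D.ξ * (C0.A (hU D.ζ))⁻¹ = C0.ff ((nU σ D.ζ : Fˣ) * D.ξ) := by
      rw [← wFf_core C0, ← wFf_core C0]
      exact f5
    have R2 : C0.E2Rel D.ζ D.δ D.ξ D.ξ' := ⟨hδ, hδ', E4, hξ, hξ', E5a, E5b, E6, E7, E7'⟩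
    have hb : ∀ g, IsBlk 0 g → ∀ u, Commute (C0.A g) (C0.ff u) := by
      intro g hg u
      rw [h g hg, map_one]
      exact Commute.one_left _
    exact ⟨C0.toCfg2 R2 H hb r10 ri1 r8a r8b, rfl, rfl⟩

end FromEqs

section Assemble

variable {m : ℕ} {F : Type*} [Field F] [Fintype F] {σ : F →+* F} {Gt : Type*} [Group Gt] (Mo : Model (n := nE m) σ Gt) (D : ED σ m)

/-- The assembled presentation. -/
theorem assembleE {k : ℕ} (H : EField σ D.ζ D.q D.k0)
    (hT : ∀ H : Subgroup Gt, (∀ (v : Fin (nE m) → F) (c : F), hJ σ v v = 0 → c + σ c = 0 → Mo.E v 0 c ∈ H) → H = ⊤)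
    (RA : Finset (FreeGroup (Fin k))) (eA : PresentedGroup (RA : Set (FreeGroup (Fin k))) ≃* SLN (m + 1 + 1) F)
    (X : EX (F := F) m) (hS1 : ∀ s ∈ D.S, IsBlk 0 s) (hS2 : ∀ g, IsBlk 0 g → g ∈ closure {s | s ∈ D.S})
    (hδ : D.δ ≠ 0) (hδ' : σ D.δ = -D.δ) (hξ : D.ξ + σ D.ξ = 1) (hξ' : σ D.ξ' ≠ D.ξ') :
    ∃ rels : Finset (FreeGroup (Fin k ⊕ Fin 1)),
      rels.card ≤ RA.card + (12 + D.S.length + X.len) ∧
      Nonempty (PresentedGroup (rels : Set (FreeGroup (Fin k ⊕ Fin 1))) ≃* Gt) := by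
  classical
  let ιA : FreeGroup (Fin k) →* FreeGroup (Fin k ⊕ Fin 1) := FreeGroup.map Sum.inl
  choose wa hwa using fun g : SLN (m + 1 + 1) F => PresentedGroup.mk_surjective (RA : Set (FreeGroup (Fin k))) (eA.symm g)
  let a : SLN (m + 1 + 1) F → FreeGroup (Fin k ⊕ Fin 1) := fun g => ιA (wa g)
  let z : FreeGroup (Fin k ⊕ Fin 1) := FreeGroup.of (Sum.inr 0)
  let eqs := eqE D a z X
  let rels : Finset (FreeGroup (Fin k ⊕ Fin 1)) :=
    RA.image ιA ∪ (eqs.map fun p => p.1 * p.2⁻¹).toFinset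
  refine ⟨rels, ?_, ?_⟩
  · refine (Finset.card_union_le _ _).trans (add_le_add Finset.card_image_le ((List.toFinset_card_le _).trans ?_))
    simp only [eqs, List.length_map, eqE_length]
    exact le_rfl
  let q : FreeGroup (Fin k ⊕ Fin 1) →* PresentedGroup (rels : Set (FreeGroup (Fin k ⊕ Fin 1))) :=
    PresentedGroup.mk (rels : Set (FreeGroup (Fin k ⊕ Fin 1)))
  have hq : ∀ r ∈ rels, q r = 1 := fun r hr => PresentedGroup.one_of_mem (by exact_mod_cast hr)
  obtain ⟨AP, hAP⟩ := exists_hom_of_pres (RA : Set (FreeGroup (Fin k))) eA Sum.inl q (fun r hr => hq _ (by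
    simp only [rels, Finset.mem_union, Finset.mem_image]
    exact Or.inl ⟨r, by exact_mod_cast hr, rfl⟩))
  have hAa : ∀ g, AP g = q (a g) := by
    intro g
    have := hAP (wa g)
    rw [hwa, MulEquiv.apply_symm_apply] at this
    exact this
  have hE : ∀ p ∈ eqs, q (p.1 * p.2⁻¹) = 1 := fun p hp => hq _ (by
    simp only [rels, Finset.mem_union, List.mem_toFinset, List.mem_map]
    exact Or.inr ⟨p, hp, rfl⟩)
  have hAll : ∀ p ∈ eqE D (fun g => AP g) (q z) X, p.1 = p.2 := by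
    have e1 : (fun g => AP g) = fun g => q (a g) := funext hAa
    rw [e1, ← eqE_map]
    exact holds_of_map q _ fun p hp => hE p hp
  obtain ⟨C, hCA, hCz⟩ := exists_cfg D AP (q z) H X hS2 hδ hδ' hξ hξ' hAll
  have hgen : closure (Set.range C.A ∪ {C.z}) = ⊤ := by
    rw [hCA, hCz, eq_top_iff, ← PresentedGroup.closure_range_of, closure_le]
    rintro _ ⟨i | j, rfl⟩
    · refine subset_closure (Or.inl ⟨eA (PresentedGroup.of i), ?_⟩)
      exact (hAP (FreeGroup.of i)).trans (by simp [q, PresentedGroup.of])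
    · refine subset_closure (Or.inr ?_)
      obtain rfl : j = 0 := Subsingleton.elim _ _
      rfl
  -- the map to the model
  let f : Fin k ⊕ Fin 1 → Gt :=
    Sum.elim (fun i => psE Mo (eA (PresentedGroup.of i))) (fun _ => zE Mo D.δ)
  have hfA : ∀ w, FreeGroup.lift f (ιA w) = psE Mo (eA (PresentedGroup.mk _ w)) :=
    lift_map_pres _ eA (psE Mo) Sum.inl f (fun i => rfl)
  have hfa : ∀ g, FreeGroup.lift f (a g) = psE Mo g := by
    intro g
    rw [hfA, hwa, MulEquiv.apply_symm_apply]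
  have hfz : FreeGroup.lift f z = zE Mo D.δ := by
    simp [z, f]
  have hq1 : nU σ D.ζ ^ (D.q - 1) = 1 := by
    rw [← H.order_nu]
    exact pow_orderOf_eq_one _
  have hmod := eqE_model Mo D hδ hδ' hξ hq1 H.hk0 hS1 X
  have hrel : ∀ r ∈ (rels : Set (FreeGroup (Fin k ⊕ Fin 1))), FreeGroup.lift f r = 1 := by
    intro r hr
    have hr' : r ∈ rels := by exact_mod_cast hr
    simp only [rels, Finset.mem_union, Finset.mem_image, List.mem_toFinset, List.mem_map] at hr'
    rcases hr' with ⟨w, hw, rfl⟩ | ⟨p, hp, rfl⟩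
    · rw [hfA, PresentedGroup.one_of_mem (by exact_mod_cast hw), map_one, map_one]
    · rw [map_mul, map_inv, mul_inv_eq_one]
      have hp' := List.mem_map_of_mem (f := Prod.map (FreeGroup.lift f) (FreeGroup.lift f)) hp
      rw [eqE_map, funext hfa, hfz] at hp'
      exact hmod _ hp'
  let φ := PresentedGroup.toGroup hrel
  have hφq : ∀ w, φ (q w) = FreeGroup.lift f w := fun w => rfl
  have hφA : ∀ g, φ (AP g) = psE Mo g := fun g => by rw [hAa, hφq, hfa]
  have hφz : φ (q z) = zE Mo D.δ := by rw [hφq, hfz]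
  have hA' : ∀ g, φ (C.A g) = psE Mo g := fun g => by rw [hCA, hφA]
  have hz' : φ C.z = zE Mo D.δ := by rw [hCz, hφz]
  have hinj : Function.Injective φ := C.even_injective Mo φ hδ hδ' hA' hz' hgen
  have hsurj : φ.range = ⊤ := by
    apply hT
    exact even_transv Mo hδ hδ' φ.range (fun g => ⟨_, hφA g⟩) ⟨_, hφz⟩
  exact ⟨MulEquiv.ofBijective φ ⟨hinj, MonoidHom.range_eq_top.1 hsurj⟩⟩

end Assemble

end Cfsg.Agent.Lib.PrsSU
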