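import Mathlib
import Cfsg.Agent.Lib.PrsSVH
import Cfsg.Agent.Lib.PrsSUP
import Cfsg.Agent.Lib.PrsSLnJ
import Cfsg.Agent.Lib.PrsSL3G
import Cfsg.Agent.Lib.PrsSL2G

/-!
# Presentations of special unitary groups: the even dimensional statement
-/

set_option autoImplicit false
set_option linter.unusedSectionVars false
set_option linter.unusedVariables false

noncomputable section

namespace Cfsg.Agent.Lib.PrsSU

open Subgroup Sum Cfsg.Agent.Lib.SUWitt
open Cfsg.Agent.Lib.PrsSp (SLN Mono wW mono_wW dn mono_dn IsBlk sl_eq dn_mul dn_one dn_inv tv_inv' sl_comm sl_comm' exists_mono2 tv_isBlk blk blk_isBlk exists_blk IsBlk.inv_entry lift_map_pres exists_hom_of_pres holds_of_map pres_reindex pres_pad exists_blkGen)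
open scoped Matrix commutatorElement

section Pad

variable {H : Type*} [Group H]

lemma pres_to_fin {α : Type} {k : ℕ} (e : α ≃ Fin k) (p : ℕ) (R : Finset (FreeGroup α)) (E : PresentedGroup (R : Set (FreeGroup α)) ≃* H) :
    ∃ R' : Finset (FreeGroup (Fin (k + p))), R'.card ≤ R.card + p ∧ Nonempty (PresentedGroup (R' : Set (FreeGroup (Fin (k + p)))) ≃* H) := by
  induction p with
  | zero =>
    obtain ⟨R', h1, h2⟩ := pres_reindex e R E
    exact ⟨R', by omega, h2⟩
  | succ p ih =>
    obtain ⟨R', h1, ⟨E'⟩⟩ := ih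
    obtain ⟨R'', h3, ⟨E''⟩⟩ := pres_pad R' E'
    obtain ⟨R3, h4, h5⟩ := pres_reindex (finSuccEquiv (k + p)).symm R'' E''
    exact ⟨R3, by omega, h5⟩

end Pad

section Even

variable {F : Type*} [Field F] [Fintype F] {q : ℕ} (hF : Fintype.card F = q ^ 2)

local notation "σQ" => Cfsg.Agent.Lib.HermForm.frobQ hF

include hF

/-- The even dimensional theorem, in a form with the input of the linear group. -/
theorem su_even_core {k : ℕ} (m : ℕ)
    (RA : Finset (FreeGroup (Fin k))) (eA : PresentedGroup (RA : Set (FreeGroup (Fin k))) ≃* SLN (m + 1 + 1) F)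
    (S : List (SLN (m + 1 + 1) F)) (hS1 : ∀ s ∈ S, IsBlk 0 s) (hS2 : ∀ g, IsBlk 0 g → g ∈ closure {s | s ∈ S})
    (X : EX (F := F) m) :
    ∃ rels : Finset (FreeGroup (Fin k ⊕ Fin 1)),
      rels.card ≤ RA.card + (12 + S.length + X.len) ∧
      Nonempty (PresentedGroup (rels : Set (FreeGroup (Fin k ⊕ Fin 1))) ≃* Cfsg.SU (nE m) F q) := by
  classical
  have hI := invol_frobQ hF
  have hσ := hI.invol
  obtain ⟨e₀, he⟩ := Cfsg.Agent.Lib.HermFrame.exists_equiv (K := F) (q := q) hF (V := Fin (nE m) → F) (d := nE m) (by simp) (isHerm_hJ hF)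
  let Mo := modelSU hF e₀ he
  obtain ⟨δ, hδ, hδt⟩ := exists_theta Mo
  have hδ' : σQ δ = -δ := by linear_combination hδt
  obtain ⟨ζ, hζ⟩ := exists_genF (F := F)
  obtain ⟨ξ, hξ⟩ := hI.trace_surj 1 (map_one _)
  obtain ⟨ξ', hξ'⟩ := hI.ne_id
  have hq2 : 2 ≤ q := Cfsg.Agent.Lib.HermCount.two_le_q hF
  obtain ⟨c, hc⟩ := hI.norm_surj (-1) (by simp [map_neg])
  have hc0 : c ≠ 0 := by
    rintro rfl
    simp at hc
  obtain ⟨k0, hk0⟩ := hζ (Units.mk0 c hc0)
  have H : EField σQ ζ q k0 :=
    { hF := hF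
      hσq := fun x => rfl
      hq := hq2
      hI := hI
      hζ := fun x => by
        obtain ⟨k, rfl⟩ := hζ x
        exact ⟨k, by simp⟩
      hk0 := by
        have h1 : nU σQ (Units.mk0 c hc0) = nU σQ ζ ^ k0 := by
          rw [hk0]
          have : ∀ l : ℕ, nU σQ (ζ ^ l) = nU σQ ζ ^ l := by
            intro l
            induction l with
            | zero => simp [nU_one]
            | succ l ih => rw [pow_succ, pow_succ, nU_mul, ih]
          exact this k0
        rw [← h1, nU_coe]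
        simpa using hc }
  let D : ED σQ m := { ζ := ζ, q := q, k0 := k0, δ := δ, ξ := ξ, ξ' := ξ', S := S }
  have hn3 : 3 ≤ nE m := by
    simp only [nE]
    omega
  have hT := model_top hF e₀ he hn3 (by
    simp only [nE]
    omega)
  exact assembleE Mo D H hT RA eA X hS1 hS2 hδ hδ' hξ hξ'

end Even

end Cfsg.Agent.Lib.PrsSU
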