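import Mathlib
import Cfsg.Agent.Lib.PrsSL2E

/-!
# Presentations of `SU_3(q)`: abelian sections from triangle relators
-/

set_option autoImplicit false
set_option linter.unusedSectionVars false
set_option linter.unusedVariables false

namespace Cfsg.Agent.Lib.PrsU3

open Polynomial Cfsg.Agent.Lib.PrsSL2

section AddMap

variable {K G : Type*} [Field K] [Group G] (p : ℕ) [Fact p.Prime] [Algebra (ZMod p) K]

/-- The additive map attached to a triangle relator. -/
theorem exists_add (π : FreeGroup (Fin 3) →* G) (ζ : K) (m : ℕ)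
    (hgen : ∀ c : K, ∃ f : (ZMod p)[X], aeval ζ f = c)
    (h1 : Commute (vv (π gh) (π gu) 0) (vv (π gh) (π gu) ((1 : ℕ) : ℤ)))
    (tri : vv (π gh) (π gu) 0 * vv (π gh) (π gu) ((1 : ℕ) : ℤ) = vv (π gh) (π gu) (m : ℤ))
    (hp : π gu ^ p = 1)
    (hm : π (wd p id (minpoly (ZMod p) ζ)) = 1) :
    ∃ x : K → G, (∀ s t, x s * x t = x (s + t)) ∧ (∀ f : (ZMod p)[X], x (aeval ζ f) = π (wd p id f)) ∧
      (∀ t, π gh * x t * (π gh)⁻¹ = x (ζ * t)) ∧ x 1 = π gu := by
  have hL := lat (π gh) (π gu) h1 tri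
  have hc := comm_of_base (π gh) (π gu) (fun d => by simpa using hL d)
  exact step1 p π ζ hgen hc hp hm

end AddMap

section Addi

variable {K G : Type*} [Field K] [Group G] {x : K → G} (hadd : ∀ s t, x s * x t = x (s + t))
include hadd

lemma xa_zero : x 0 = 1 := by
  have := hadd 0 0
  rw [add_zero] at this
  exact mul_eq_left.1 this

lemma xa_neg (t : K) : x (-t) = (x t)⁻¹ := by
  rw [eq_inv_iff_mul_eq_one, hadd, neg_add_cancel, xa_zero hadd]

lemma xa_comm (s t : K) : Commute (x s) (x t) := by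
  show x s * x t = x t * x s
  rw [hadd, hadd, add_comm]

omit hadd in
lemma xa_pow {h : G} {ζ : K} (hconj : ∀ t, h * x t * h⁻¹ = x (ζ * t)) (k : ℕ) (t : K) :
    h ^ k * x t * (h ^ k)⁻¹ = x (ζ ^ k * t) := by
  induction k generalizing t with
  | zero => simp
  | succ k ih =>
    calc h ^ (k + 1) * x t * (h ^ (k + 1))⁻¹ = h ^ k * (h * x t * h⁻¹) * (h ^ k)⁻¹ := by
          rw [pow_succ]; group
      _ = _ := by
        rw [hconj, ih]
        congr 1
        ring

end Addi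

section Q

variable {Q : Type*} [Group Q]

lemma comm_conj {a b : Q} (H : Commute a b) (g : Q) : Commute (g * a * g⁻¹) (g * b * g⁻¹) := by
  have := H.eq
  show g * a * g⁻¹ * (g * b * g⁻¹) = g * b * g⁻¹ * (g * a * g⁻¹)
  calc g * a * g⁻¹ * (g * b * g⁻¹) = g * (a * b) * g⁻¹ := by group
    _ = g * (b * a) * g⁻¹ := by rw [this]
    _ = _ := by group

/-- The core commuting lemma of the two-dimensional section. -/
theorem comm_vv_uu (h τ v : Q) (hτ : Commute h τ) {m : ℕ}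
    (h0 : Commute v (τ * v * τ⁻¹))
    (h1 : Commute v (h * (τ * v * τ⁻¹) * h⁻¹))
    (tri : v * (h * v * h⁻¹) = h ^ m * v * (h ^ m)⁻¹) (i j : ℤ) :
    Commute (vv h v i) (τ * vv h v j * τ⁻¹) := by
  set V : ℤ → Q := vv h v with hV
  set W : ℤ → Q := fun j => τ * V j * τ⁻¹ with hW
  have hτz : ∀ e : ℤ, Commute (h ^ e) τ := fun e => hτ.zpow_left e
  have hVc : ∀ e i, h ^ e * V i * (h ^ e)⁻¹ = V (i + e) := by
    intro e i
    have := vv_conj h v e i
    rwa [zpow_neg] at this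
  have hWc : ∀ e j, h ^ e * W j * (h ^ e)⁻¹ = W (j + e) := by
    intro e j
    simp only [hW]
    rw [← hVc e j]
    have e1 : h ^ e * τ = τ * h ^ e := (hτz e).eq
    have e2 : τ⁻¹ * (h ^ e)⁻¹ = (h ^ e)⁻¹ * τ⁻¹ := by
      have := congrArg (fun a => a⁻¹) e1
      simpa using this
    calc h ^ e * (τ * V j * τ⁻¹) * (h ^ e)⁻¹ = (h ^ e * τ) * V j * (τ⁻¹ * (h ^ e)⁻¹) := by group
      _ = (τ * h ^ e) * V j * ((h ^ e)⁻¹ * τ⁻¹) := by rw [e1, e2]
      _ = _ := by group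
  have hshift : ∀ e i j, Commute (V i) (W j) → Commute (V (i + e)) (W (j + e)) := by
    intro e i j H
    rw [← hVc, ← hWc]
    exact comm_conj H _
  have hV0 : V 0 = v := vv_zero h v
  have triV0 : V 0 * V 1 = V m := by
    rw [hV0]
    have e1 : V 1 = h * v * h⁻¹ := by
      simp [hV, vv]
    have e2 : V m = h ^ m * v * (h ^ m)⁻¹ := by
      simp [hV, vv]
    rw [e1, e2, tri]
  have triV : ∀ i, V i * V (i + 1) = V (i + m) := by
    intro i
    have e1 : V (i + 1) = h ^ i * V 1 * (h ^ i)⁻¹ := by rw [hVc, add_comm]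
    have e2 : V (i + m) = h ^ i * V m * (h ^ i)⁻¹ := by rw [hVc, add_comm]
    have e3 : V i = h ^ i * V 0 * (h ^ i)⁻¹ := by rw [hVc, zero_add]
    rw [e1, e2, ← triV0]
    nth_rewrite 1 [e3]
    group
  have triW : ∀ j, W j * W (j + 1) = W (j + m) := by
    intro j
    simp only [hW]
    rw [← triV]
    group
  -- the set
  have hmem : ∀ i j, Commute (V 0) (W (j - i)) → Commute (V i) (W j) := by
    intro i j H
    have := hshift i 0 (j - i) H
    rwa [zero_add, sub_add_cancel] at this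
  have hmem' : ∀ i j, Commute (V i) (W j) → Commute (V 0) (W (j - i)) := by
    intro i j H
    have := hshift (-i) i j H
    rwa [add_neg_cancel, ← sub_eq_add_neg] at this
  have hD0 : Commute (V 0) (W 0) := by
    rw [hV0]
    simp only [hW]
    rw [hV0]
    exact h0
  have hD1 : Commute (V 0) (W 1) := by
    rw [hV0]
    have : W 1 = h * (τ * v * τ⁻¹) * h⁻¹ := by
      have := hWc 1 0
      rw [zpow_one, zero_add] at this
      rw [← this]
      simp only [hW]
      rw [hV0]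
    rw [this]
    exact h1
  have rule1 : ∀ d, Commute (V 0) (W d) → Commute (V 0) (W (d + 1)) → Commute (V 0) (W (d + m)) := by
    intro d a b
    rw [← triW]
    exact a.mul_right b
  have rule1' : ∀ d, Commute (V 0) (W (d + 1)) → Commute (V 0) (W (d + m)) → Commute (V 0) (W d) := by
    intro d a b
    have e : W d = W (d + m) * (W (d + 1))⁻¹ := by
      rw [← triW]; group
    rw [e]
    exact b.mul_right a.inv_right
  have rule1'' : ∀ d, Commute (V 0) (W d) → Commute (V 0) (W (d + m)) → Commute (V 0) (W (d + 1)) := by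
    intro d a b
    have e : W (d + 1) = (W d)⁻¹ * W (d + m) := by
      rw [← triW]; group
    rw [e]
    exact a.inv_right.mul_right b
  have rule2 : ∀ e, Commute (V 0) (W e) → Commute (V m) (W e) → Commute (V 1) (W e) := by
    intro e a b
    have e' : V 1 = (V 0)⁻¹ * V m := by
      rw [← triV0]; group
    rw [e']
    exact a.inv_left.mul_left b
  have rule2' : ∀ e, Commute (V 1) (W e) → Commute (V m) (W e) → Commute (V 0) (W e) := by
    intro e a b
    have e' : V 0 = V m * (V 1)⁻¹ := by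
      rw [← triV0]; group
    rw [e']
    exact b.mul_left a.inv_left
  have down : ∀ d, Commute (V 0) (W d) → Commute (V 0) (W (d + 1)) → Commute (V 0) (W (d - 1)) := by
    intro d a b
    have c := rule1 d a b
    have c2 : Commute (V 1) (W (d + m)) := by
      apply rule2 _ c
      apply hmem
      have e : d + (m : ℤ) - m = d := by ring
      rwa [e]
    have c3 := hmem' _ _ c2
    apply rule1' (d - 1)
    · rwa [sub_add_cancel]
    · have e : d - 1 + (m : ℤ) = d + m - 1 := by ring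
      rwa [e]
  have up : ∀ d, Commute (V 0) (W d) → Commute (V 0) (W (d + 1)) → Commute (V 0) (W (d + 1 + 1)) := by
    intro d a b
    have c := rule1 d a b
    have c2 : Commute (V 0) (W (d + 1 + m)) := by
      apply rule2'
      · apply hmem
        have e : d + 1 + (m : ℤ) - 1 = d + m := by ring
        rwa [e]
      · apply hmem
        have e : d + 1 + (m : ℤ) - m = d + 1 := by ring
        rwa [e]
    exact rule1'' (d + 1) b c2
  have all : ∀ d : ℤ, Commute (V 0) (W d) ∧ Commute (V 0) (W (d + 1)) := by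
    intro d
    induction d using Int.induction_on with
    | zero => exact ⟨hD0, by simpa using hD1⟩
    | succ d ih => exact ⟨ih.2, up _ ih.1 ih.2⟩
    | pred d ih =>
      refine ⟨down _ ih.1 ih.2, ?_⟩
      rw [sub_add_cancel]
      exact ih.1
  exact hmem i j (all _).1

variable {K : Type*} [Field K]

/-- The normal form in the abelian-by-cyclic section. -/
theorem Q_main (h τ v : Q) (N M : ℕ) (hh : h = τ ^ N) (hM : τ ^ M = 1) (hMpos : 0 < M) (ζ : K) (hζ : ζ ≠ 0)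
    (genK : ∀ c : K, c ≠ 0 → ∃ k : ℕ, c = ζ ^ k) (x : K → Q) (hadd : ∀ s t, x s * x t = x (s + t))
    (hconj : ∀ t, h * x t * h⁻¹ = x (ζ * t)) (hx1 : x 1 = v) {m : ℕ}
    (h0 : Commute v (τ * v * τ⁻¹))
    (h1 : Commute v (h * (τ * v * τ⁻¹) * h⁻¹))
    (tri : v * (h * v * h⁻¹) = h ^ m * v * (h ^ m)⁻¹)
    (α β : K) (hq : τ ^ 2 * v * (τ ^ 2)⁻¹ = x α * (τ * x β * τ⁻¹)) :
    (∀ c c', Commute (x c) (τ * x c' * τ⁻¹)) ∧
      ∀ g ∈ Subgroup.closure {v, τ}, ∃ c₁ c₂ : K, ∃ k : ℕ, g = x c₁ * (τ * x c₂ * τ⁻¹) * τ ^ k := by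
  have hτ : Commute h τ := by
    rw [hh]
    exact (Commute.refl τ).pow_left N
  have hxp : ∀ k : ℕ, x (ζ ^ k) = vv h v k := by
    intro k
    have := xa_pow hconj k 1
    rw [mul_one, hx1] at this
    rw [← this]
    simp [vv]
  have hcomm : ∀ c c', Commute (x c) (τ * x c' * τ⁻¹) := by
    intro c c'
    by_cases hc : c = 0
    · subst hc
      rw [xa_zero hadd]
      exact Commute.one_left _
    by_cases hc' : c' = 0
    · subst hc'
      rw [xa_zero hadd]
      simp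
    obtain ⟨i, rfl⟩ := genK c hc
    obtain ⟨j, rfl⟩ := genK c' hc'
    rw [hxp, hxp]
    exact comm_vv_uu h τ v hτ h0 h1 tri _ _
  refine ⟨hcomm, ?_⟩
  have hτ2 : ∀ c, τ ^ 2 * x c * (τ ^ 2)⁻¹ = x (α * c) * (τ * x (β * c) * τ⁻¹) := by
    intro c
    by_cases hc : c = 0
    · subst hc
      simp [xa_zero hadd]
    obtain ⟨k, rfl⟩ := genK c hc
    have e1 := xa_pow hconj k α
    have e2 := xa_pow hconj k β
    have e3 := xa_pow hconj k 1
    rw [mul_one, hx1] at e3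
    rw [← e3, mul_comm α, mul_comm β, ← e1, ← e2]
    have hc1 : Commute (h ^ k) (τ ^ 2) := hτ.pow_pow k 2
    have hc2 : Commute (h ^ k) τ := hτ.pow_left k
    have e4 : τ ^ 2 * (h ^ k * v * (h ^ k)⁻¹) * (τ ^ 2)⁻¹ = h ^ k * (τ ^ 2 * v * (τ ^ 2)⁻¹) * (h ^ k)⁻¹ := by
      have e5 : τ ^ 2 * h ^ k = h ^ k * τ ^ 2 := hc1.eq.symm
      have e6 : (h ^ k)⁻¹ * (τ ^ 2)⁻¹ = (τ ^ 2)⁻¹ * (h ^ k)⁻¹ := by
        have := congrArg (fun a => a⁻¹) e5
        simpa using this
      calc τ ^ 2 * (h ^ k * v * (h ^ k)⁻¹) * (τ ^ 2)⁻¹ = (τ ^ 2 * h ^ k) * v * ((h ^ k)⁻¹ * (τ ^ 2)⁻¹) := by group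
        _ = (h ^ k * τ ^ 2) * v * ((τ ^ 2)⁻¹ * (h ^ k)⁻¹) := by rw [e5, e6]
        _ = _ := by group
    rw [e4, hq]
    have e7 : h ^ k * (τ * x β * τ⁻¹) * (h ^ k)⁻¹ = τ * (h ^ k * x β * (h ^ k)⁻¹) * τ⁻¹ := by
      have e5 : h ^ k * τ = τ * h ^ k := hc2.eq
      have e6 : τ⁻¹ * (h ^ k)⁻¹ = (h ^ k)⁻¹ * τ⁻¹ := by
        have := congrArg (fun a => a⁻¹) e5
        simpa using this
      calc h ^ k * (τ * x β * τ⁻¹) * (h ^ k)⁻¹ = (h ^ k * τ) * x β * (τ⁻¹ * (h ^ k)⁻¹) := by group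
        _ = (τ * h ^ k) * x β * ((h ^ k)⁻¹ * τ⁻¹) := by rw [e5, e6]
        _ = _ := by group
    rw [← e7]
    group
  -- left multiplications
  have hL : ∀ (c₁ c₂ : K) (k : ℕ), τ * (x c₁ * (τ * x c₂ * τ⁻¹) * τ ^ k) =
      x (α * c₂) * (τ * x (c₁ + β * c₂) * τ⁻¹) * τ ^ (k + 1) := by
    intro c₁ c₂ k
    have e1 : τ * x (c₁ + β * c₂) * τ⁻¹ = (τ * x c₁ * τ⁻¹) * (τ * x (β * c₂) * τ⁻¹) := by
      rw [← hadd]; group
    have e2 := hτ2 c₂
    have e3 : τ * (x c₁ * (τ * x c₂ * τ⁻¹) * τ ^ k) = (τ * x c₁ * τ⁻¹) * (τ ^ 2 * x c₂ * (τ ^ 2)⁻¹) * τ ^ (k + 1) := by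
      group
    rw [e3, e2, e1, pow_succ]
    have e4 := (hcomm (α * c₂) c₁).eq
    calc τ * x c₁ * τ⁻¹ * (x (α * c₂) * (τ * x (β * c₂) * τ⁻¹)) * (τ ^ k * τ)
        = ((τ * x c₁ * τ⁻¹) * x (α * c₂)) * (τ * x (β * c₂) * τ⁻¹) * (τ ^ k * τ) := by group
      _ = (x (α * c₂) * (τ * x c₁ * τ⁻¹)) * (τ * x (β * c₂) * τ⁻¹) * (τ ^ k * τ) := by rw [e4]
      _ = _ := by group
  have hP : ∀ n : ℕ, ∀ g : Q, (∃ c₁ c₂ : K, ∃ k : ℕ, g = x c₁ * (τ * x c₂ * τ⁻¹) * τ ^ k) →
      ∃ c₁ c₂ : K, ∃ k : ℕ, τ ^ n * g = x c₁ * (τ * x c₂ * τ⁻¹) * τ ^ k := by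
    intro n
    induction n with
    | zero => simp
    | succ n ih =>
      intro g hg
      obtain ⟨c₁, c₂, k, e⟩ := ih g hg
      refine ⟨α * c₂, c₁ + β * c₂, k + 1, ?_⟩
      rw [← hL, ← e, pow_succ']
      group
  intro g hg
  induction hg using Subgroup.closure_induction_left with
  | one =>
    exact ⟨0, 0, 0, by simp [xa_zero hadd]⟩
  | mul_left a ha y _ ih =>
    obtain ⟨c₁, c₂, k, rfl⟩ := ih
    rcases ha with rfl | ha
    · refine ⟨1 + c₁, c₂, k, ?_⟩
      rw [← hadd, hx1]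
      group
    · rw [Set.mem_singleton_iff] at ha
      subst ha
      exact ⟨α * c₂, c₁ + β * c₂, k + 1, hL _ _ _⟩
  | inv_mul_cancel a ha y _ ih =>
    rcases ha with rfl | ha
    · obtain ⟨c₁, c₂, k, rfl⟩ := ih
      refine ⟨-1 + c₁, c₂, k, ?_⟩
      rw [← hadd, xa_neg hadd, hx1]
      group
    · rw [Set.mem_singleton_iff] at ha
      subst ha
      have e : a⁻¹ = a ^ (M - 1) := by
        apply inv_eq_of_mul_eq_one_left
        rw [← pow_succ]
        have : M - 1 + 1 = M := by omega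
        rw [this, hM]
      have := hP (M - 1) y ih
      rwa [← e] at this

end Q

end Cfsg.Agent.Lib.PrsU3
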