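import Mathlib
import Cfsg.Agent.Lib.PrsU3A
import Cfsg.Agent.Lib.PrsU3C

/-!
# Presentations of `SU_3(q)`: the Borel subgroup
-/

set_option autoImplicit false
set_option linter.unusedSectionVars false
set_option linter.unusedVariables false

namespace Cfsg.Agent.Lib.PrsU3

open Polynomial Cfsg.Agent.Lib.PrsSL2

section Coord

variable {F : Type*} [Field F] {σ : F →+* F} (hσ : ∀ x, σ (σ x) = x)

/-- The fixed field. -/
abbrev Kf (σ : F →+* F) : Subfield F := σ.eqLocusField (RingHom.id F)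

omit hσ in
lemma mem_Kf {c : F} : c ∈ Kf σ ↔ σ c = c := Iff.rfl

omit hσ in
lemma sig_K (c : Kf σ) : σ (c : F) = c := c.2

/-- The `a`-coordinate predicate. -/
def hasA (g : GJ σ) (a : F) : Prop := ∃ (b : F) (h : a * σ a + b + σ b = 0), g = MG hσ a b h

lemma hasA_MG {a b : F} (h : a * σ a + b + σ b = 0) : hasA hσ (MG hσ a b h) a := ⟨b, h, rfl⟩

lemma hasA_one : hasA hσ 1 0 := ⟨0, isU_zero, (MG_zero hσ).symm⟩

variable {hσ}

lemma hasA.mul {g g' : GJ σ} {a a' : F} (h : hasA hσ g a) (h' : hasA hσ g' a') : hasA hσ (g * g') (a + a') := by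
  obtain ⟨b, hb, rfl⟩ := h
  obtain ⟨b', hb', rfl⟩ := h'
  rw [MG_mul]
  exact hasA_MG hσ _

lemma hasA.pow {g : GJ σ} {a : F} (h : hasA hσ g a) (n : ℕ) : hasA hσ (g ^ n) (n • a) := by
  induction n with
  | zero => simpa using hasA_one hσ
  | succ n ih =>
    rw [pow_succ, succ_nsmul]
    exact ih.mul h

lemma hasA.conj {g : GJ σ} {a : F} (h : hasA hσ g a) (d : Fˣ) :
    hasA hσ (DU hσ d * g * (DU hσ d)⁻¹) (σ d * σ d * (d : F)⁻¹ * a) := by
  obtain ⟨b, hb, rfl⟩ := h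
  rw [DU_MG]
  exact hasA_MG hσ _

variable (hσ)

/-- The key computation: the words lift the additive coordinate. -/
lemma hasA_wd (p : ℕ) [Fact p.Prime] [Algebra (ZMod p) (Kf σ)] (π : FreeGroup (Fin 3) →* GJ σ)
    {b₀ : F} (hb₀ : (1 : F) * σ 1 + b₀ + σ b₀ = 0) (hu : π gu = MG hσ 1 b₀ hb₀) (d : Fˣ) (hh : π gh = DU hσ d)
    (ζ : Kf σ) (hd : (d : F) = ζ) (f : (ZMod p)[X]) : hasA hσ (π (wd p id f)) ((aeval ζ f : Kf σ) : F) := by
  haveI hp : NeZero p := ⟨(Fact.out : p.Prime).ne_zero⟩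
  have hU : ∀ j : ℕ, hasA hσ (π (gU j)) ((ζ ^ j : Kf σ) : F) := by
    intro j
    have e : π (gU j) = DU hσ (d ^ j) * MG hσ 1 b₀ hb₀ * (DU hσ (d ^ j))⁻¹ := by
      simp [gU, hu, hh, map_pow]
    rw [e]
    have := (hasA_MG hσ hb₀).conj (d ^ j)
    have e2 : σ ((d ^ j : Fˣ) : F) * σ ((d ^ j : Fˣ) : F) * ((d ^ j : Fˣ) : F)⁻¹ * 1 = ((ζ ^ j : Kf σ) : F) := by
      have h1 : ((d ^ j : Fˣ) : F) = ((ζ ^ j : Kf σ) : F) := by
        simp [hd]
      rw [h1, sig_K]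
      have h2 : ((ζ ^ j : Kf σ) : F) ≠ 0 := by
        rw [← h1]
        exact Units.ne_zero _
      field_simp
    rwa [e2] at this
  have key : ∀ n, hasA hσ (π (wdA p id f n)) ((∑ i ∈ Finset.range n, (f.coeff i).val • ζ ^ i : Kf σ) : F) := by
    intro n
    induction n with
    | zero => simpa [wdA] using hasA_one hσ
    | succ n ih =>
      rw [Finset.sum_range_succ]
      simp only [wdA, map_mul, map_pow, id]
      have := ih.mul ((hU n).pow (f.coeff n).val)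
      rw [AddMemClass.coe_add, AddSubmonoidClass.coe_nsmul]
      exact this
  have e : aeval ζ f = ∑ i ∈ Finset.range (f.natDegree + 1), (f.coeff i).val • ζ ^ i := by
    rw [aeval_eq_sum_range]
    apply Finset.sum_congr rfl
    intro i _
    conv_lhs => rw [← ZMod.natCast_zmod_val (f.coeff i)]
    exact Nat.cast_smul_eq_nsmul (ZMod p) _ _
  rw [e]
  exact key _

end Coord

section Core

lemma comm_of_cm {Q : Type*} [Group Q] {a b : Q} (h : a * b * a⁻¹ * b⁻¹ = 1) : Commute a b := by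
  show a * b = b * a
  rw [mul_inv_eq_one, mul_inv_eq_iff_eq_mul] at h
  exact h

variable {F : Type*} [Field F] {σ : F →+* F} (hσ : ∀ x, σ (σ x) = x)
variable (p : ℕ) [Fact p.Prime] [Algebra (ZMod p) (Kf σ)] {G : Type*} [Group G]

/-- The Borel subgroup from the relators: the core argument. -/
theorem borel_core {δ : F} (hδ : δ ≠ 0) (hδ' : σ δ = -δ) (x t : G) (π : FreeGroup (Fin 3) →* G) (N M : ℕ) (hπu : π gu = x)
    (hπh : π gh = t ^ N) (θ : Fˣ) (ζ : Kf σ) (hζθ : ((θ ^ N : Fˣ) : F) = ζ) (hζ1 : ((θ : F) * σ θ) = ζ)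
    (hgenθ : ∀ d : Fˣ, ∃ k : ℕ, d = θ ^ k)
    (hordθ : ∀ k : ℕ, θ ^ k = 1 → t ^ k = 1) (hζ0 : ζ ≠ 0) (genK : ∀ c : Kf σ, c ≠ 0 → ∃ k : ℕ, c = ζ ^ k)
    (hρ : σ θ * σ θ * (θ : F)⁻¹ ≠ σ (σ θ * σ θ * (θ : F)⁻¹))
    {b₀ : F} (hb₀ : (1 : F) * σ 1 + b₀ + σ b₀ = 0) (φ : G →* GJ σ) (hφx : φ x = MG hσ 1 b₀ hb₀) (hφt : φ t = DU hσ θ)
    (hgen : Subgroup.closure {x, t} = ⊤) (hMpos : 0 < M) (hM : t ^ M = 1)
    (z : Kf σ → G) (hzadd : ∀ s c, z s * z c = z (s + c)) (hzt : ∀ c, t * z c * t⁻¹ = z (ζ * c))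
    (hφz : ∀ c : Kf σ, ∃ h : (0 : F) * σ 0 + (c * δ) + σ (c * δ) = 0, φ (z c) = MG hσ 0 (c * δ) h)
    (hzx : ∀ c, Commute (z c) x) {m : ℕ}
    (q1 : ∃ c, x ^ p = z c)
    (q2 : ∃ c, x * (t ^ N * x * (t ^ N)⁻¹) * x⁻¹ * (t ^ N * x * (t ^ N)⁻¹)⁻¹ = z c)
    (q3 : ∃ c, x * (t ^ N * x * (t ^ N)⁻¹) = ((t ^ N) ^ m * x * ((t ^ N) ^ m)⁻¹) * z c)
    (q4 : ∃ c, π (wd p id (minpoly (ZMod p) ζ)) = z c)
    (q5 : ∃ c, x * (t * x * t⁻¹) * x⁻¹ * (t * x * t⁻¹)⁻¹ = z c)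
    (q6 : ∃ c, x * (t ^ N * (t * x * t⁻¹) * (t ^ N)⁻¹) * x⁻¹ * (t ^ N * (t * x * t⁻¹) * (t ^ N)⁻¹)⁻¹ = z c)
    (fα fβ : (ZMod p)[X])
    (q7 : ∃ c, t ^ 2 * x * (t ^ 2)⁻¹ = π (wd p id fα) * (t * π (wd p id fβ) * t⁻¹) * z c) :
    Function.Injective φ ∧ φ.range = BJ σ := by
  classical
  have hgenK : ∀ c : Kf σ, ∃ f : (ZMod p)[X], aeval ζ f = c := by
    intro c
    by_cases hc : c = 0
    · exact ⟨0, by simp [hc]⟩
    · obtain ⟨k, rfl⟩ := genK c hc
      exact ⟨X ^ k, by simp⟩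
  have hz0 : z 0 = 1 := xa_zero hzadd
  have hzinv : ∀ c, t⁻¹ * z c * t = z (ζ⁻¹ * c) := by
    intro c
    have := hzt (ζ⁻¹ * c)
    rw [mul_inv_cancel_left₀ hζ0] at this
    rw [← this]
    group
  -- the normal subgroup
  let Zt : Subgroup G :=
    { carrier := {g | ∃ c, g = z c}
      mul_mem' := by
        rintro _ _ ⟨a, rfl⟩ ⟨b, rfl⟩
        exact ⟨a + b, hzadd a b⟩
      one_mem' := ⟨0, hz0.symm⟩
      inv_mem' := by
        rintro _ ⟨a, rfl⟩
        exact ⟨-a, (xa_neg hzadd a).symm⟩ }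
  have hmemZ : ∀ c, z c ∈ Zt := fun c => ⟨c, rfl⟩
  have hconj : ∀ (g : G) (c : Kf σ), ∃ c', g * z c * g⁻¹ = z c' := by
    intro g
    have hg : g ∈ Subgroup.closure {x, t} := by
      rw [hgen]
      trivial
    induction hg using Subgroup.closure_induction_left with
    | one =>
      intro c
      exact ⟨c, by simp⟩
    | mul_left a ha y _ ih =>
      intro c
      obtain ⟨c', hc'⟩ := ih c
      rcases ha with rfl | ha
      · refine ⟨c', ?_⟩
        have := (hzx c').eq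
        calc a * y * z c * (a * y)⁻¹ = a * (y * z c * y⁻¹) * a⁻¹ := by group
          _ = a * z c' * a⁻¹ := by rw [hc']
          _ = z c' * a * a⁻¹ := by rw [this]
          _ = _ := by group
      · rw [Set.mem_singleton_iff] at ha
        subst ha
        refine ⟨ζ * c', ?_⟩
        rw [← hzt, ← hc']
        group
    | inv_mul_cancel a ha y _ ih =>
      intro c
      obtain ⟨c', hc'⟩ := ih c
      rcases ha with rfl | ha
      · refine ⟨c', ?_⟩
        have := (hzx c').eq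
        calc a⁻¹ * y * z c * (a⁻¹ * y)⁻¹ = a⁻¹ * (y * z c * y⁻¹) * a := by group
          _ = a⁻¹ * (z c' * a) := by rw [hc']; group
          _ = a⁻¹ * (a * z c') := by rw [this]
          _ = _ := by group
      · rw [Set.mem_singleton_iff] at ha
        subst ha
        refine ⟨ζ⁻¹ * c', ?_⟩
        rw [← hzinv, ← hc']
        group
  haveI hnorm : Zt.Normal := ⟨by
    rintro _ ⟨c, rfl⟩ g
    obtain ⟨c', hc'⟩ := hconj g c
    exact ⟨c', hc'⟩⟩
  let mk : G →* G ⧸ Zt := QuotientGroup.mk' Zt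
  have hmk : ∀ c, mk (z c) = 1 := fun c => (QuotientGroup.eq_one_iff _).2 (hmemZ c)
  set v := mk x with hv
  set τ := mk t with hτ
  set h := τ ^ N with hh
  let πQ : FreeGroup (Fin 3) →* G ⧸ Zt := mk.comp π
  have hπQu : πQ gu = v := by simp [πQ, hπu, hv]
  have hπQh : πQ gh = h := by simp [πQ, hπh, hh, hτ]
  have hmkh : mk (t ^ N) = h := by simp [hh, hτ]
  have c2 : Commute v (h * v * h⁻¹) := by
    obtain ⟨c, hc⟩ := q2
    have := congrArg mk hc
    rw [hmk] at this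
    simp only [map_mul, map_inv, hmkh] at this
    exact comm_of_cm this
  have c3 : v * (h * v * h⁻¹) = h ^ m * v * (h ^ m)⁻¹ := by
    obtain ⟨c, hc⟩ := q3
    have := congrArg mk hc
    simpa [hmk, hmkh] using this
  have vv1 : vv h v ((1 : ℕ) : ℤ) = h * v * h⁻¹ := by simp [vv]
  have vvm : vv h v (m : ℤ) = h ^ m * v * (h ^ m)⁻¹ := by simp [vv]
  obtain ⟨X', hX1, hX2, hX3, hX4⟩ := exists_add p πQ ζ m hgenK
    (by
      rw [hπQu, hπQh, vv_zero, vv1]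
      exact c2)
    (by
      rw [hπQu, hπQh, vv_zero, vv1, vvm]
      exact c3)
    (by
      rw [hπQu]
      obtain ⟨c, hc⟩ := q1
      have := congrArg mk hc
      simpa [hmk] using this)
    (by
      obtain ⟨c, hc⟩ := q4
      have := congrArg mk hc
      simpa [hmk, πQ] using this)
  rw [hπQh] at hX3
  rw [hπQu] at hX4
  have c5 : Commute v (τ * v * τ⁻¹) := by
    obtain ⟨c, hc⟩ := q5
    have := congrArg mk hc
    rw [hmk] at this
    simp only [map_mul, map_inv] at this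
    exact comm_of_cm this
  have c6 : Commute v (h * (τ * v * τ⁻¹) * h⁻¹) := by
    obtain ⟨c, hc⟩ := q6
    have := congrArg mk hc
    rw [hmk] at this
    simp only [map_mul, map_inv, hmkh] at this
    exact comm_of_cm this
  have c7 : τ ^ 2 * v * (τ ^ 2)⁻¹ = X' (aeval ζ fα) * (τ * X' (aeval ζ fβ) * τ⁻¹) := by
    obtain ⟨c, hc⟩ := q7
    have := congrArg mk hc
    rw [hX2, hX2]
    simpa [hmk, πQ] using this
  have hτM : τ ^ M = 1 := by
    rw [hτ, ← map_pow, hM, map_one]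
  obtain ⟨hcomm, hnf⟩ := Q_main h τ v N M rfl hτM hMpos ζ hζ0 genK X' hX1 hX3 hX4 c5 c6 c3 _ _ c7
  have hcl : ∀ g : G ⧸ Zt, g ∈ Subgroup.closure {v, τ} := by
    intro g
    obtain ⟨g', rfl⟩ := QuotientGroup.mk'_surjective Zt g
    have hg' : g' ∈ Subgroup.closure {x, t} := by
      rw [hgen]
      trivial
    have := Subgroup.mem_map_of_mem mk hg'
    rw [MonoidHom.map_closure, Set.image_pair] at this
    exact this
  -- the normal form upstairs
  have nf : ∀ g : G, ∃ (f₁ f₂ : (ZMod p)[X]) (k : ℕ) (c : Kf σ),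
      g = π (wd p id f₁) * (t * π (wd p id f₂) * t⁻¹) * t ^ k * z c := by
    intro g
    obtain ⟨c₁, c₂, k, e⟩ := hnf (mk g) (hcl _)
    obtain ⟨f₁, rfl⟩ := hgenK c₁
    obtain ⟨f₂, rfl⟩ := hgenK c₂
    rw [hX2, hX2] at e
    have e2 : mk g = mk (π (wd p id f₁) * (t * π (wd p id f₂) * t⁻¹) * t ^ k) := by
      rw [e]
      simp [πQ, hτ]
    have e3 := QuotientGroup.eq.1 e2
    obtain ⟨c, hc⟩ : (g⁻¹ * (π (wd p id f₁) * (t * π (wd p id f₂) * t⁻¹) * t ^ k)) ∈ Zt := e3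
    refine ⟨f₁, f₂, k, -c, ?_⟩
    rw [xa_neg hzadd, ← hc]
    group
  -- the model
  have hφπ : ∀ f : (ZMod p)[X], hasA hσ (φ (π (wd p id f))) ((aeval ζ f : Kf σ) : F) := by
    intro f
    apply hasA_wd hσ p (φ.comp π) hb₀ (d := θ ^ N) (ζ := ζ)
    · simp [hπu, hφx]
    · simp [hπh, hφt]
    · exact hζθ
  have hdet : ∀ (a b : F) (hab : a * σ a + b + σ b = 0) (d : Fˣ) (e : F) (he : (0 : F) * σ 0 + e + σ e = 0),
      MG hσ a b hab * DU hσ d * MG hσ 0 e he = 1 → d = 1 ∧ a = 0 ∧ b + e = 0 := by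
    intro a b hab d e he H
    have hd0 : (d : F) ≠ 0 := d.ne_zero
    have hsd := sig_ne hσ hd0
    have ent : ∀ i j, (MG hσ a b hab * DU hσ d * MG hσ 0 e he).1.1 i j = if i = j then 1 else 0 := by
      intro i j
      rw [H, GJ_one_apply]
    have e00 := ent 0 0
    have e12 := ent 1 2
    have e02 := ent 0 2
    rw [GJ_mul_apply, GJ_mul_apply] at e00 e12 e02
    simp only [MG_apply, DU_apply, Mm, Dm] at e00 e12 e02
    simp at e00 e12 e02
    have hd : d = 1 := e00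
    subst hd
    simp at e12 e02
    exact ⟨rfl, e12, by rw [add_comm]; exact e02⟩
  have hρ' : σ θ * σ θ * (θ : F)⁻¹ - σ (σ θ * σ θ * (θ : F)⁻¹) ≠ 0 := sub_ne_zero.2 hρ
  obtain ⟨ρ, hρdef⟩ : ∃ ρ, ρ = σ θ * σ θ * (θ : F)⁻¹ := ⟨_, rfl⟩
  rw [← hρdef] at hρ hρ'
  have hφconj : ∀ {g : G} {a : F}, hasA hσ (φ g) a → hasA hσ (φ (t * g * t⁻¹)) (ρ * a) := by
    intro g a h
    have := h.conj θ
    rw [← hρdef] at this
    simpa [hφt] using this
  constructor
  · rw [injective_iff_map_eq_one]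
    intro g hg
    obtain ⟨f₁, f₂, k, c, rfl⟩ := nf g
    obtain ⟨b, hb, e₁⟩ := (hφπ f₁).mul (hφconj (hφπ f₂))
    obtain ⟨hc, ec⟩ := hφz c
    have e₁' : φ (π (wd p id f₁) * (t * π (wd p id f₂) * t⁻¹)) = MG hσ _ b hb := by
      rw [map_mul]
      exact e₁
    have h1 : φ (π (wd p id f₁) * (t * π (wd p id f₂) * t⁻¹) * t ^ k * z c) = MG hσ _ b hb * DU hσ (θ ^ k) * MG hσ 0 (c * δ) hc := by
      rw [map_mul, map_mul, e₁', ec, map_pow, hφt, map_pow]
    have hg1 := hg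
    rw [h1] at hg1
    obtain ⟨h2, h3, h4⟩ := hdet _ _ _ _ _ _ hg1
    have htk := hordθ k h2
    -- the coordinates vanish
    have ha₂ : ((aeval ζ f₂ : Kf σ) : F) = 0 := by
      have e5 := congrArg σ h3
      rw [map_zero, map_add, map_mul, sig_K, sig_K] at e5
      have e6 : (ρ - σ ρ) * ((aeval ζ f₂ : Kf σ) : F) = 0 := by
        linear_combination h3 - e5
      exact (mul_eq_zero.1 e6).resolve_left hρ'
    have ha₁ : ((aeval ζ f₁ : Kf σ) : F) = 0 := by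
      rw [ha₂] at h3
      simpa using h3
    have ha₂' : aeval ζ f₂ = 0 := Subtype.ext ha₂
    have ha₁' : aeval ζ f₁ = 0 := Subtype.ext ha₁
    have hZ : ∀ f : (ZMod p)[X], aeval ζ f = 0 → ∃ c, π (wd p id f) = z c := by
      intro f hf
      have e7 : mk (π (wd p id f)) = 1 := by
        have := hX2 f
        rw [hf, xa_zero hX1] at this
        exact this.symm
      exact (QuotientGroup.eq_one_iff _).1 e7
    obtain ⟨c₁, hc₁⟩ := hZ f₁ ha₁'
    obtain ⟨c₂, hc₂⟩ := hZ f₂ ha₂'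
    have e8 : π (wd p id f₁) * (t * π (wd p id f₂) * t⁻¹) * t ^ k * z c = z (c₁ + ζ * c₂ + c) := by
      rw [hc₁, hc₂, htk, hzt, mul_one, hzadd, hzadd]
    rw [e8] at hg ⊢
    obtain ⟨c₃, hc₃⟩ : ∃ c₃, c₃ = c₁ + ζ * c₂ + c := ⟨_, rfl⟩
    rw [← hc₃] at hg ⊢
    obtain ⟨hc3, ec3⟩ := hφz c₃
    rw [ec3] at hg
    have h9 := congrArg (fun g : GJ σ => g.1.1 0 2) hg
    simp only [MG_apply, Mm, GJ_one_apply] at h9
    simp [hδ] at h9
    rw [h9, hz0]
  · apply le_antisymm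
    · rw [MonoidHom.range_eq_map, ← hgen, MonoidHom.map_closure, Subgroup.closure_le]
      rintro _ ⟨g, hg, rfl⟩
      rcases hg with rfl | hg
      · rw [hφx]
        exact MG_mem hσ _ _ _
      · rw [Set.mem_singleton_iff] at hg
        subst hg
        rw [hφt]
        exact DU_mem hσ _
    · intro β hβ
      obtain ⟨a, b, hab, d, rfl⟩ := BJ_decomp hσ hβ
      obtain ⟨k, rfl⟩ := hgenθ d
      have hsρ : σ ρ - ρ ≠ 0 := by
        intro e
        apply hρ'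
        linear_combination -e
      obtain ⟨c₂, hc₂def⟩ : ∃ c₂, c₂ = (a - σ a) / (ρ - σ ρ) := ⟨_, rfl⟩
      have hc₂ : σ c₂ = c₂ := by
        rw [hc₂def, map_div₀, map_sub, map_sub, hσ, hσ]
        field_simp
        ring
      obtain ⟨c₁, hc₁def⟩ : ∃ c₁, c₁ = a - c₂ * ρ := ⟨_, rfl⟩
      have hc₂' : c₂ * (ρ - σ ρ) = a - σ a := by
        rw [hc₂def]
        field_simp
      have hc₁ : σ c₁ = c₁ := by
        rw [hc₁def, map_sub, map_mul, hc₂]
        linear_combination hc₂'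
      obtain ⟨f₁, hf₁⟩ := hgenK ⟨c₁, hc₁⟩
      obtain ⟨f₂, hf₂⟩ := hgenK ⟨c₂, hc₂⟩
      obtain ⟨B, hB, eB⟩ := (hφπ f₁).mul (hφconj (hφπ f₂))
      have ea : ((aeval ζ f₁ : Kf σ) : F) + ρ * ((aeval ζ f₂ : Kf σ) : F) = a := by
        rw [hf₁, hf₂]
        show c₁ + ρ * c₂ = a
        rw [hc₁def]
        ring
      obtain ⟨e, hedef⟩ : ∃ e, e = b - B := ⟨_, rfl⟩
      have hU1 : a * σ a + B + σ B = 0 := by
        rw [← ea]
        exact hB
      have hse : σ e = -e := by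
        rw [hedef, map_sub]
        linear_combination hab - hU1
      have hc₃ : σ (e / δ) = e / δ := by
        rw [map_div₀, hse, hδ']
        field_simp
      obtain ⟨hc, ec⟩ := hφz ⟨e / δ, hc₃⟩
      have e₁' : φ (π (wd p id f₁) * (t * π (wd p id f₂) * t⁻¹)) = MG hσ _ B hB := by
        rw [map_mul]
        exact eB
      refine ⟨π (wd p id f₁) * (t * π (wd p id f₂) * t⁻¹) * z ⟨e / δ, hc₃⟩ * t ^ k, ?_⟩
      rw [map_mul, map_mul, e₁', ec, MG_mul, map_pow, hφt, map_pow]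
      congr 1
      apply MG_congr
      · rw [ea, add_zero]
      · show B + e / δ * δ - σ _ * 0 = b
        rw [div_mul_cancel₀ _ hδ, mul_zero, hedef]
        ring

end Core

end Cfsg.Agent.Lib.PrsU3
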