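import Mathlib
import Cfsg.Agent.Lib.PrsU3B
import Cfsg.Agent.Lib.PrsU3D

/-!
# Presentations of `SU_3(q)`: centrality of the root group
-/

set_option autoImplicit false
set_option linter.unusedSectionVars false
set_option linter.unusedVariables false

namespace Cfsg.Agent.Lib.PrsU3

open Polynomial Cfsg.Agent.Lib.PrsSL2

section Central

variable {G : Type*} [Group G] (p : ℕ) [Fact p.Prime]

/-- The recursion for the centrality of `U`. -/
theorem central_core (x t U : G) (e : ℕ) (hper : t ^ e * U * (t ^ e)⁻¹ = U) (h0 : Commute U x)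
    (π : FreeGroup (Fin 3) →* G) (hπu : π gu = x) (hπh : π gh = t ^ e) (f : (ZMod p)[X]) (w : G)
    (hw : ∀ j : ℕ, Commute U (t ^ j * w * (t ^ j)⁻¹)) (hy : t * x * t⁻¹ = π (wd p id f) * w) (j : ℕ) :
    Commute U (t ^ j * x * (t ^ j)⁻¹) := by
  have hperz : ∀ n : ℕ, (t ^ e) ^ n * U * ((t ^ e) ^ n)⁻¹ = U := by
    intro n
    induction n with
    | zero => simp
    | succ n ih =>
      calc (t ^ e) ^ (n + 1) * U * ((t ^ e) ^ (n + 1))⁻¹
          = (t ^ e) ^ n * (t ^ e * U * (t ^ e)⁻¹) * ((t ^ e) ^ n)⁻¹ := by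
            rw [pow_succ]; group
        _ = U := by rw [hper, ih]
  have hpern : ∀ (n j : ℕ), Commute U (t ^ j * x * (t ^ j)⁻¹) → Commute U ((t ^ e) ^ n * (t ^ j * x * (t ^ j)⁻¹) * ((t ^ e) ^ n)⁻¹) := by
    intro n j H
    have := comm_conj H ((t ^ e) ^ n)
    rwa [hperz] at this
  induction j with
  | zero => simpa using h0
  | succ j ih =>
    let π' : FreeGroup (Fin 3) →* G := (MulAut.conj (t ^ j)).toMonoidHom.comp π
    have hπ' : ∀ g, π' g = t ^ j * π g * (t ^ j)⁻¹ := fun g => rfl
    have h1 : π' gu = t ^ j * x * (t ^ j)⁻¹ := by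
      rw [hπ', hπu]
    have h2 : π' gh = t ^ e := by
      rw [hπ', hπh]
      have : Commute (t ^ j) (t ^ e) := (Commute.refl t).pow_pow j e
      rw [this.eq]
      group
    have h3 : Commute U (π' (wd p id f)) := by
      have e1 := wdA_pr p π' id f (f.natDegree + 1)
      rw [show wdA p id f (f.natDegree + 1) = wd p id f from rfl] at e1
      rw [e1]
      apply pr_comm
      intro i _
      rw [h1, h2]
      have := hpern i j ih
      simp only [id, vv]
      simpa [zpow_natCast, zpow_neg] using this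
    have h4 : t ^ (j + 1) * x * (t ^ (j + 1))⁻¹ = π' (wd p id f) * (t ^ j * w * (t ^ j)⁻¹) := by
      rw [hπ']
      calc t ^ (j + 1) * x * (t ^ (j + 1))⁻¹ = t ^ j * (t * x * t⁻¹) * (t ^ j)⁻¹ := by
            rw [pow_succ]; group
        _ = _ := by rw [hy]; group
    rw [h4]
    exact h3.mul_right (hw j)

/-- Centrality of the root group from the recursion. -/
theorem central_of_core {K : Type*} [Field K] (x t U : G) (M : ℕ) (hM : t ^ M = 1) (hMpos : 0 < M) (ζ : K)
    (genK : ∀ c : K, c ≠ 0 → ∃ k : ℕ, c = ζ ^ k) (z : K → G) (hzadd : ∀ s c, z s * z c = z (s + c))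
    (hzt : ∀ c, t * z c * t⁻¹ = z (ζ * c)) (hz1 : z 1 = U)
    (H : ∀ j : ℕ, Commute U (t ^ j * x * (t ^ j)⁻¹)) (c : K) : Commute (z c) x := by
  by_cases hc : c = 0
  · subst hc
    rw [xa_zero hzadd]
    exact Commute.one_left _
  obtain ⟨k, rfl⟩ := genK c hc
  have h1 := xa_pow hzt k 1
  rw [mul_one, hz1] at h1
  rw [← h1]
  have h2 := H ((M - 1) * k)
  have h3 : t ^ ((M - 1) * k) = (t ^ k)⁻¹ := by
    apply eq_inv_of_mul_eq_one_left
    rw [← pow_add]
    have : (M - 1) * k + k = M * k := by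
      obtain ⟨M', rfl⟩ : ∃ M', M = M' + 1 := ⟨M - 1, by omega⟩
      simp
      ring
    rw [this, pow_mul, hM, one_pow]
  rw [h3, inv_inv] at h2
  have h4 := comm_conj h2 (t ^ k)
  have e : t ^ k * ((t ^ k)⁻¹ * x * t ^ k) * (t ^ k)⁻¹ = x := by group
  rwa [e] at h4

/-- Centrality from finitely many commutators. -/
theorem central_of_span {K : Type*} [Field K] [Algebra (ZMod p) K] [Finite K] (x : G) (ζ : K)
    (hgenK : ∀ c : K, ∃ f : (ZMod p)[X], aeval ζ f = c)
    (z : K → G) (hzadd : ∀ s c, z s * z c = z (s + c)) (d : ℕ) (hd : (minpoly (ZMod p) ζ).natDegree ≤ d)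
    (H : ∀ i < d, Commute (z (ζ ^ i)) x) (c : K) : Commute (z c) x := by
  haveI hp : NeZero p := ⟨(Fact.out : p.Prime).ne_zero⟩
  let S : AddSubgroup K :=
    { carrier := {c | Commute (z c) x}
      add_mem' := by
        intro a b ha hb
        show Commute (z (a + b)) x
        rw [← hzadd]
        exact Commute.mul_left ha hb
      zero_mem' := by
        show Commute (z 0) x
        rw [xa_zero hzadd]
        exact Commute.one_left _
      neg_mem' := by
        intro a ha
        show Commute (z (-a)) x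
        rw [xa_neg hzadd]
        exact Commute.inv_left ha }
  obtain ⟨f, rfl⟩ := hgenK c
  have hint : IsIntegral (ZMod p) ζ := IsIntegral.of_finite _ _
  have hmon := minpoly.monic hint
  have e := aeval_modByMonic_eq_self_of_root (p := f) (q := minpoly (ZMod p) ζ) (x := ζ) (minpoly.aeval _ _)
  rw [← e]
  obtain ⟨r, hr⟩ : ∃ r, r = f %ₘ minpoly (ZMod p) ζ := ⟨_, rfl⟩
  rw [← hr]
  have hdeg : ∀ i, r.coeff i ≠ 0 → i < d := by
    intro i hi
    have h1 : i ≤ r.natDegree := le_natDegree_of_ne_zero hi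
    have h2 : r.degree < (minpoly (ZMod p) ζ).degree := by
      rw [hr]
      exact degree_modByMonic_lt _ hmon
    have hr0 : r ≠ 0 := by
      rintro rfl
      simp at hi
    have h3 : r.natDegree < (minpoly (ZMod p) ζ).natDegree := natDegree_lt_natDegree hr0 h2
    omega
  have hmem : aeval ζ r ∈ S := by
    rw [aeval_eq_sum_range]
    apply AddSubgroup.sum_mem
    intro i _
    by_cases hi : r.coeff i = 0
    · rw [hi, zero_smul]
      exact S.zero_mem
    · have e2 : r.coeff i • ζ ^ i = (r.coeff i).val • ζ ^ i := by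
        conv_lhs => rw [← ZMod.natCast_zmod_val (r.coeff i)]
        exact Nat.cast_smul_eq_nsmul (ZMod p) _ _
      rw [e2]
      exact AddSubgroup.nsmul_mem S (H i (hdeg i hi)) _
  exact hmem

end Central

end Cfsg.Agent.Lib.PrsU3
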