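import Mathlib
import Cfsg.Agent.Lib.PrsU3E
import Cfsg.Agent.Lib.PrsSL2F

/-!
# Presentations of `SU_3(q)`: the words and the Borel subgroup
-/

set_option autoImplicit false
set_option linter.unusedSectionVars false
set_option linter.unusedVariables false

namespace Cfsg.Agent.Lib.PrsU3

open Polynomial Cfsg.Agent.Lib.PrsSL2

section Words

/-- Two generators. -/
def g0 : FreeGroup (Fin 2) := FreeGroup.of 0
/-- Two generators. -/
def g1 : FreeGroup (Fin 2) := FreeGroup.of 1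
/-- Commutators. -/
def cmw {A : Type*} [Group A] (a b : A) : A := a * b * a⁻¹ * b⁻¹

lemma map_cmw {A B : Type*} [Group A] [Group B] (f : A →* B) (a b : A) : f (cmw a b) = cmw (f a) (f b) := by
  simp [cmw]

lemma comm_of_cmw {A : Type*} [Group A] {a b : A} (h : cmw a b = 1) : Commute a b := comm_of_cm h

lemma cmw_of_comm {A : Type*} [Group A] {a b : A} (h : Commute a b) : cmw a b = 1 := by
  simp only [cmw]
  rw [h.eq]
  group

/-- The commutator word. -/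
def Uw : FreeGroup (Fin 2) := cmw g0 (g1 * g0 * g1⁻¹)

/-- Substitution for the root group. -/
def sL : FreeGroup (Fin 3) →* FreeGroup (Fin 2) := FreeGroup.lift ![Uw, g1, 1]

/-- Substitution for the coordinate groups. -/
def sB (N : ℕ) : FreeGroup (Fin 3) →* FreeGroup (Fin 2) := FreeGroup.lift ![g0, g1 ^ N, 1]

variable (p : ℕ) [Fact p.Prime]

/-- Relators modulo the root group. -/
def rq (A B : FreeGroup (Fin 2)) (f : (ZMod p)[X]) : FreeGroup (Fin 2) := A⁻¹ * B * sL (wd p id f)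

/-- Parameters of the two-generator relators. -/
structure WPar where
  N : ℕ
  M : ℕ
  m : ℕ
  mp : (ZMod p)[X]
  c8 : (ZMod p)[X]
  c9 : (ZMod p)[X]
  c10 : (ZMod p)[X]
  c11 : (ZMod p)[X]
  c12 : (ZMod p)[X]
  c13 : (ZMod p)[X]
  fα : (ZMod p)[X]
  fβ : (ZMod p)[X]

/-- The twelve core relators. -/
def coreRels (P : WPar p) : List (FreeGroup (Fin 2)) :=
  [Uw ^ p, sL (rComm 1), sL (rTri 1 P.m), sL (wd p id P.mp), g1 ^ P.M, cmw Uw g0,
    rq p (g0 ^ p) 1 P.c8,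
    rq p (cmw g0 (g1 ^ P.N * g0 * (g1 ^ P.N)⁻¹)) 1 P.c9,
    rq p (sB P.N (gu * gU 1)) (sB P.N (gU P.m)) P.c10,
    rq p (sB P.N (wd p id P.mp)) 1 P.c11,
    rq p (cmw g0 (g1 ^ P.N * (g1 * g0 * g1⁻¹) * (g1 ^ P.N)⁻¹)) 1 P.c12,
    rq p (g1 ^ 2 * g0 * (g1 ^ 2)⁻¹) (sB P.N (wd p id P.fα) * (g1 * sB P.N (wd p id P.fβ) * g1⁻¹)) P.c13]

end Words

section Eval

variable {G : Type*} [Group G] (x t : G)

/-- Evaluation of two-generator words. -/
def ev : FreeGroup (Fin 2) →* G := FreeGroup.lift ![x, t]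

lemma ev_g0 : ev x t g0 = x := by simp [ev, g0]
lemma ev_g1 : ev x t g1 = t := by simp [ev, g1]

/-- The commutator. -/
def Ux : G := cmw x (t * x * t⁻¹)

lemma ev_Uw : ev x t Uw = Ux x t := by
  simp [Uw, Ux, map_cmw, ev_g0, ev_g1]

lemma ev_sL_gu : (ev x t).comp sL gu = Ux x t := by
  simp [sL, gu, ev_Uw]

lemma ev_sL_gh : (ev x t).comp sL gh = t := by
  simp [sL, gh, ev_g1]

lemma ev_sB_gu (N : ℕ) : (ev x t).comp (sB N) gu = x := by
  simp [sB, gu, ev_g0]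

lemma ev_sB_gh (N : ℕ) : (ev x t).comp (sB N) gh = t ^ N := by
  simp [sB, gh, ev_g1]

lemma vv_one' (h u : G) : vv h u ((1 : ℕ) : ℤ) = h * u * h⁻¹ := by simp [vv]

lemma vv_nat (h u : G) (m : ℕ) : vv h u (m : ℤ) = h ^ m * u * (h ^ m)⁻¹ := by simp [vv]

end Eval

section Borel

variable {F : Type*} [Field F] {σ : F →+* F} (hσ : ∀ x, σ (σ x) = x)
variable (p : ℕ) [Fact p.Prime] [Algebra (ZMod p) (Kf σ)]

/-- The field data. -/
structure FD (hσ : ∀ x, σ (σ x) = x) where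
  q : ℕ
  hq : 1 < q
  θ : Fˣ
  hσθ : σ θ = (θ : F) ^ q
  hgenθ : ∀ d : Fˣ, ∃ k : ℕ, d = θ ^ k
  hord : ∀ k : ℕ, θ ^ k = 1 ↔ (q ^ 2 - 1) ∣ k
  ζ : Kf σ
  hζ : (ζ : F) = (θ : F) ^ (q + 1)
  genK : ∀ c : Kf σ, c ≠ 0 → ∃ k : ℕ, c = ζ ^ k
  hρ : σ θ * σ θ * (θ : F)⁻¹ ≠ σ (σ θ * σ θ * (θ : F)⁻¹)
  s₀ : F
  hs₀ : s₀ = (θ : F) ^ (q - 1)
  hs : s₀ * σ s₀ = 1
  hs1 : s₀ ≠ 1
  hmu : ∀ y : F, y * σ y = 1 → ∃ k : ℕ, y = s₀ ^ k

namespace FD

variable {hσ} (D : FD hσ)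

/-- `N = q + 1`. -/
def N : ℕ := D.q + 1

/-- `M = q ^ 2 - 1`. -/
def M : ℕ := D.q ^ 2 - 1

lemma M_pos : 0 < D.M := by
  have h := D.hq
  simp only [M]
  have : 2 ^ 2 ≤ D.q ^ 2 := Nat.pow_le_pow_left (by omega) 2
  omega

lemma θ_M : D.θ ^ D.M = 1 := (D.hord _).2 dvd_rfl

/-- `ρ`. -/
def ρ : F := σ D.θ * σ D.θ * (D.θ : F)⁻¹

/-- `δ`. -/
def δ : F := σ D.ρ - D.ρ

lemma δ_ne : D.δ ≠ 0 := by
  have := D.hρ
  simp only [δ, ρ]
  intro h
  exact this (by linear_combination -h)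

lemma sδ : σ D.δ = -D.δ := by
  simp only [δ, map_sub, hσ]
  ring

lemma ζ_ne : D.ζ ≠ 0 := by
  intro h
  have h1 := D.hζ
  rw [h] at h1
  have h2 : (D.θ : F) ^ (D.q + 1) ≠ 0 := pow_ne_zero _ D.θ.ne_zero
  exact h2 (by simpa using h1.symm)

lemma hζθ : ((D.θ ^ D.N : Fˣ) : F) = D.ζ := by
  rw [D.hζ]
  simp [N]

lemma hζ1 : (D.θ : F) * σ D.θ = D.ζ := by
  rw [D.hζ, D.hσθ]
  ring

/-- `b₀`. -/
def b₀ : F := MD.bY σ 1 D.s₀

lemma hb₀ : (1 : F) * σ 1 + D.b₀ + σ D.b₀ = 0 := MD.bY_isU hσ 1 D.hs D.hs1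

lemma N_mul : D.N * (D.q - 1) = D.M := by
  have h := D.hq
  obtain ⟨r, hr⟩ : ∃ r, D.q = r + 1 := ⟨D.q - 1, by omega⟩
  simp only [N, M, hr]
  have : (r + 1) ^ 2 = (r + 1 + 1) * (r + 1 - 1) + 1 := by
    simp
    ring
  omega

lemma ζ_e : D.ζ ^ (D.q - 1) = 1 := by
  apply Subtype.ext
  have h1 : ((D.θ ^ D.M : Fˣ) : F) = 1 := by rw [D.θ_M]; rfl
  push_cast
  rw [D.hζ, ← pow_mul]
  have h2 := D.N_mul
  simp only [N] at h2
  rw [h2]
  simpa using h1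

lemma isY (c : Kf σ) : (0 : F) * σ 0 + (c * D.δ) + σ (c * D.δ) = 0 := by
  rw [map_mul, sig_K, D.sδ]
  simp

/-- The root group elements of the model. -/
def Y (c : Kf σ) : GJ σ := MG hσ 0 (c * D.δ) (D.isY c)

lemma Y_add (s c : Kf σ) : D.Y s * D.Y c = D.Y (s + c) := by
  simp only [Y]
  rw [MG_mul]
  apply MG_congr
  · simp
  · push_cast
    simp
    ring

lemma Y_conj (d : Fˣ) (e : Kf σ) (he : (d : F) * σ d = e) (c : Kf σ) :
    DU hσ d * D.Y c * (DU hσ d)⁻¹ = D.Y (e * c) := by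
  simp only [Y]
  rw [DU_MG]
  apply MG_congr
  · simp
  · rw [he]
    push_cast
    ring

lemma Y_wd (π : FreeGroup (Fin 3) →* GJ σ) (hu : π gu = D.Y 1) (hh : π gh = DU hσ D.θ) (f : (ZMod p)[X]) :
    π (wd p id f) = D.Y (aeval D.ζ f) := by
  refine wd_eval p π D.Y (fun s t => (D.Y_add s t).symm) D.ζ id ?_ f
  intro j
  simp only [id]
  induction j with
  | zero =>
    simp [gU, hu]
  | succ j ih =>
    have e : gU (j + 1) = gh * gU j * gh⁻¹ := by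
      simp only [gU, pow_succ']
      group
    rw [e, map_mul, map_mul, map_inv, ih, hh, D.Y_conj D.θ D.ζ D.hζ1, pow_succ']

end FD

variable {hσ} (D : FD hσ)

/-- The main theorem on the Borel subgroup. -/
theorem borel_rels {G : Type*} [Group G] (x t : G) (P : WPar p) (hPN : P.N = D.N) (hPM : P.M = D.M)
    (hPmp : P.mp = minpoly (ZMod p) D.ζ) (hPm : 1 + D.ζ = D.ζ ^ P.m)
    (hgen : Subgroup.closure {x, t} = ⊤)
    (φ : G →* GJ σ) (hφx : φ x = MG hσ 1 D.b₀ D.hb₀) (hφt : φ t = DU hσ D.θ)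
    (hφU : φ (Ux x t) = D.Y 1)
    (hcore : ∀ r ∈ coreRels p P, ev x t r = 1)
    (hcen : ∀ z : Kf σ → G, (∀ s c, z s * z c = z (s + c)) → (∀ c, t * z c * t⁻¹ = z (D.ζ * c)) →
      z 1 = Ux x t → (∀ f : (ZMod p)[X], z (aeval D.ζ f) = ev x t (sL (wd p id f))) → ∀ c, Commute (z c) x) :
    ∃ z : Kf σ → G, (∀ s c, z s * z c = z (s + c)) ∧ (∀ c, t * z c * t⁻¹ = z (D.ζ * c)) ∧
      z 1 = Ux x t ∧ (∀ f : (ZMod p)[X], z (aeval D.ζ f) = ev x t (sL (wd p id f))) ∧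
      (∀ c, φ (z c) = D.Y c) ∧ Function.Injective φ ∧ φ.range = BJ σ := by
  have hgenK : ∀ c : Kf σ, ∃ f : (ZMod p)[X], aeval D.ζ f = c := by
    intro c
    by_cases hc : c = 0
    · exact ⟨0, by simp [hc]⟩
    · obtain ⟨k, rfl⟩ := D.genK c hc
      exact ⟨X ^ k, by simp⟩
  have hr : ∀ r ∈ coreRels p P, ev x t r = 1 := hcore
  simp only [coreRels, List.mem_cons, List.not_mem_nil, or_false, forall_eq_or_imp, forall_eq] at hr
  obtain ⟨r1, r2, r3, r4, r5, r6, r8, r9, r10, r11, r12, r13⟩ := hr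
  let πL : FreeGroup (Fin 3) →* G := (ev x t).comp sL
  have hπLu : πL gu = Ux x t := ev_sL_gu x t
  have hπLh : πL gh = t := ev_sL_gh x t
  obtain ⟨z, hz1, hz2, hz3, hz4⟩ := exists_add p πL D.ζ P.m hgenK
    (by
      have := comm_of_rComm πL 1 r2
      simpa using this)
    (by
      have h3 : πL (rTri 1 P.m) = 1 := r3
      simp only [rTri, map_mul, map_inv, map_gU] at h3
      rw [vv_zero]
      exact mul_inv_eq_one.1 h3)
    (by
      rw [hπLu, ← ev_Uw, ← map_pow]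
      exact r1)
    (by
      rw [← hPmp]
      exact r4)
  rw [hπLh] at hz3
  rw [hπLu] at hz4
  have hzx := hcen z hz1 hz3 hz4 hz2
  have hφz : ∀ c, φ (z c) = D.Y c := by
    intro c
    obtain ⟨f, rfl⟩ := hgenK c
    rw [hz2]
    refine D.Y_wd p (φ.comp πL) ?_ ?_ f
    · simp [hπLu, hφU]
    · simp [hπLh, hφt]
  have hrq : ∀ (A B : FreeGroup (Fin 2)) (f : (ZMod p)[X]), ev x t (rq p A B f) = 1 →
      ev x t A = ev x t B * z (aeval D.ζ f) := by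
    intro A B f h
    simp only [rq, map_mul, map_inv] at h
    rw [hz2]
    have : (ev x t A)⁻¹ * (ev x t B * (ev x t) (sL (wd p id f))) = 1 := by
      rw [← mul_assoc]; exact h
    exact (inv_mul_eq_one.1 this)
  have hπB : ∀ w, ev x t (sB P.N w) = ((ev x t).comp (sB P.N)) w := fun w => rfl
  have hBu := ev_sB_gu x t P.N
  have hBh := ev_sB_gh x t P.N
  refine ⟨z, hz1, hz3, hz4, hz2, hφz, ?_⟩
  have hgh : ∀ j : ℕ, ev x t (sB P.N (gU j)) = (t ^ P.N) ^ j * x * ((t ^ P.N) ^ j)⁻¹ := by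
    intro j
    rw [hπB, map_gU, hBu, hBh]
    exact vv_nat _ _ _
  have e1 : ev x t (g1 ^ P.N * g0 * (g1 ^ P.N)⁻¹) = t ^ P.N * x * (t ^ P.N)⁻¹ := by
    simp [ev_g0, ev_g1]
  have e2 : ev x t (g1 ^ P.N * (g1 * g0 * g1⁻¹) * (g1 ^ P.N)⁻¹) = t ^ P.N * (t * x * t⁻¹) * (t ^ P.N)⁻¹ := by
    simp [ev_g0, ev_g1]
  refine borel_core hσ p D.δ_ne D.sδ x t ((ev x t).comp (sB P.N)) P.N D.M hBu hBh D.θ D.ζ
    (by rw [hPN]; exact D.hζθ) D.hζ1 D.hgenθ ?_ D.ζ_ne D.genK D.hρ D.hb₀ φ hφx hφt hgen D.M_pos ?_ z hz1 hz3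
    (fun c => ⟨D.isY c, hφz c⟩) hzx (m := P.m) ?_ ?_ ?_ ?_ ?_ ?_ P.fα P.fβ ?_
  · intro k hk
    obtain ⟨l, rfl⟩ := (D.hord k).1 hk
    have h5 : t ^ P.M = 1 := by
      simpa [ev_g1] using r5
    rw [hPM] at h5
    show t ^ (D.M * l) = 1
    rw [pow_mul, h5, one_pow]
  · have h5 : t ^ P.M = 1 := by
      simpa [ev_g1] using r5
    rwa [hPM] at h5
  · have := hrq _ _ _ r8
    simp only [map_pow, ev_g0, map_one, one_mul] at this
    exact ⟨_, this⟩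
  · have := hrq _ _ _ r9
    rw [map_cmw, ev_g0, e1, map_one, one_mul] at this
    exact ⟨_, this⟩
  · have := hrq _ _ _ r10
    rw [map_mul (sB P.N), map_mul (ev x t), hgh, hgh] at this
    have h1 : ev x t (sB P.N gu) = x := hBu
    rw [h1] at this
    simp only [pow_one] at this
    exact ⟨_, this⟩
  · have := hrq _ _ _ r11
    simp only [map_one, one_mul] at this
    rw [← hPmp]
    exact ⟨_, this⟩
  · exact ⟨1, by rw [hz4]; rfl⟩
  · have := hrq _ _ _ r12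
    rw [map_cmw, ev_g0, e2, map_one, one_mul] at this
    exact ⟨_, this⟩
  · have := hrq _ _ _ r13
    simp only [map_mul, map_inv, map_pow, ev_g0, ev_g1] at this
    exact ⟨_, this⟩

end Borel

end Cfsg.Agent.Lib.PrsU3
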