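import Mathlib
import Cfsg.Agent.Lib.PrsU3F

/-!
# Presentations of `SU_3(q)`: the extra relators and subgroups
-/

set_option autoImplicit false
set_option linter.unusedSectionVars false
set_option linter.unusedVariables false

namespace Cfsg.Agent.Lib.PrsU3

open Polynomial Cfsg.Agent.Lib.PrsSL2

section Extra

variable (p : ℕ) [Fact p.Prime]

/-- The extra relators giving centrality: two cases. -/
inductive XPar where
  | A (e : ℕ) (f c : (ZMod p)[X])
  | B

/-- The extra relators. -/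
noncomputable def extra : XPar p → List (FreeGroup (Fin 2))
  | .A e f c => [rq p (g1 * g0 * g1⁻¹) (sB e (wd p id f)) c]
  | .B => [cmw (sL (wd p id X)) g0, cmw (sL (wd p id (X ^ 2))) g0]

lemma extra_length (X : XPar p) : (extra p X).length ≤ 2 := by
  cases X <;> simp [extra]

end Extra

section Borel

variable {F : Type*} [Field F] [Finite F] {σ : F →+* F} {hσ : ∀ x, σ (σ x) = x}
variable (p : ℕ) [Fact p.Prime] [Algebra (ZMod p) (Kf σ)] (D : FD hσ)

/-- The side conditions. -/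
def XPar.valid : XPar p → Prop
  | .A e _ _ => e = D.q - 1
  | .B => (minpoly (ZMod p) D.ζ).natDegree ≤ 3

/-- The centrality property. -/
def Hcen {G : Type*} [Group G] (x t : G) : Prop :=
  ∀ z : Kf σ → G, (∀ s c, z s * z c = z (s + c)) → (∀ c, t * z c * t⁻¹ = z (D.ζ * c)) →
      z 1 = Ux x t → (∀ f : (ZMod p)[X], z (aeval D.ζ f) = ev x t (sL (wd p id f))) → ∀ c, Commute (z c) x

theorem hcen_extra {G : Type*} [Group G] (x t : G) (X : XPar p) (hX : X.valid p D) (P : WPar p) (hPM : P.M = D.M)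
    (hcore : ∀ r ∈ coreRels p P, ev x t r = 1) (hE : ∀ r ∈ extra p X, ev x t r = 1) : Hcen p D x t := by
  have hr : ∀ r ∈ coreRels p P, ev x t r = 1 := hcore
  simp only [coreRels, List.mem_cons, List.not_mem_nil, or_false, forall_eq_or_imp, forall_eq] at hr
  obtain ⟨r1, r2, r3, r4, r5, r6, r8, r9, r10, r11, r12, r13⟩ := hr
  have h0 : Commute (Ux x t) x := by
    rw [map_cmw, ev_Uw, ev_g0] at r6
    exact comm_of_cmw r6
  have hgenK : ∀ c : Kf σ, ∃ f : (ZMod p)[X], aeval D.ζ f = c := by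
    intro c
    by_cases hc : c = 0
    · exact ⟨0, by simp [hc]⟩
    · obtain ⟨k, rfl⟩ := D.genK c hc
      exact ⟨Polynomial.X ^ k, by simp⟩
  intro z hz1 hz3 hz4 hz2 c
  cases X with
  | A e f c' =>
    have h7 := hE (rq p (g1 * g0 * g1⁻¹) (sB e (wd p id f)) c') (by simp [extra])
    obtain rfl : e = D.q - 1 := hX
    have h5 : t ^ D.M = 1 := by
      rw [← hPM]
      simpa [ev_g1] using r5
    refine central_of_core x t (Ux x t) D.M h5 D.M_pos D.ζ D.genK z hz1 hz3 hz4 ?_ c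
    refine central_core p x t (Ux x t) (D.q - 1) ?_ h0 ((ev x t).comp (sB (D.q - 1))) (ev_sB_gu x t _)
      (ev_sB_gh x t _) f (z (aeval D.ζ c')) ?_ ?_
    · have := xa_pow hz3 (D.q - 1) 1
      rw [D.ζ_e, mul_one, hz4] at this
      exact this
    · intro j
      rw [xa_pow hz3, ← hz4]
      exact xa_comm hz1 _ _
    · simp only [rq, map_mul, map_inv, ev_g0, ev_g1] at h7
      rw [hz2]
      have e1 : (t * x * t⁻¹)⁻¹ * ((ev x t).comp (sB (D.q - 1)) (wd p id f) * ev x t (sL (wd p id c'))) = 1 := by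
        rw [← mul_assoc]
        exact h7
      exact inv_mul_eq_one.1 e1
  | B =>
    have h7 := hE _ (by simp [extra] : cmw (sL (wd p id Polynomial.X)) g0 ∈ extra p .B)
    have h8 := hE _ (by simp [extra] : cmw (sL (wd p id (Polynomial.X ^ 2))) g0 ∈ extra p .B)
    rw [map_cmw, ev_g0, ← hz2] at h7 h8
    simp only [aeval_X, map_pow] at h7 h8
    refine central_of_span p x D.ζ hgenK z hz1 3 hX ?_ c
    intro i hi
    have : i = 0 ∨ i = 1 ∨ i = 2 := by omega
    rcases this with rfl | rfl | rfl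
    · rw [pow_zero, hz4]
      exact h0
    · rw [pow_one]
      exact comm_of_cmw h7
    · exact comm_of_cmw h8

variable (hσ)

omit [Finite F] in
/-- Commutators of root elements. -/
lemma isU_cm (hσ : ∀ x, σ (σ x) = x) {a c : F} : (0 : F) * σ 0 + (σ c * a - σ a * c) + σ (σ c * a - σ a * c) = 0 := by
  simp only [map_sub, map_mul, hσ]
  simp
  ring

omit [Finite F] in
lemma cmw_MG {a b c d : F} (h : a * σ a + b + σ b = 0) (h' : c * σ c + d + σ d = 0) :
    cmw (MG hσ a b h) (MG hσ c d h') = MG hσ 0 (σ c * a - σ a * c) (isU_cm hσ) := by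
  simp only [cmw]
  rw [MG_inv, MG_inv, MG_mul, MG_mul, MG_mul]
  apply MG_congr
  · ring
  · simp only [map_add, map_neg, hσ]
    linear_combination h + h'

omit [Finite F] [Fact p.Prime] [Algebra (ZMod p) (Kf σ)] in
/-- The image of the root commutator in the model. -/
lemma model_U : Ux (MG hσ 1 D.b₀ D.hb₀) (DU hσ D.θ) = D.Y 1 := by
  simp only [Ux, FD.Y]
  rw [DU_MG, cmw_MG]
  apply MG_congr
  · rfl
  · simp [FD.δ, FD.ρ]

omit [Finite F] in
lemma map_Ux {G H : Type*} [Group G] [Group H] (f : G →* H) (x t : G) : f (Ux x t) = Ux (f x) (f t) := by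
  simp [Ux, map_cmw]

/-- Generation of the closure by its own generators. -/
lemma closure_pair_top {Γ : Type*} [Group Γ] (x t : Γ) :
    Subgroup.closure ({⟨x, Subgroup.subset_closure (by simp)⟩, ⟨t, Subgroup.subset_closure (by simp)⟩} :
      Set (Subgroup.closure ({x, t} : Set Γ))) = ⊤ := by
  have h := Subgroup.closure_closure_coe_preimage (k := ({x, t} : Set Γ))
  rw [← h]
  congr 1
  ext g
  constructor
  · rintro (rfl | h)
    · simp
    · rw [Set.mem_singleton_iff] at h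
      subst h
      simp
  · intro h
    simp only [Set.mem_preimage, Set.mem_insert_iff, Set.mem_singleton_iff] at h
    rcases h with h | h
    · left
      exact Subtype.ext h
    · right
      exact Subtype.ext h

lemma ev_sub {Γ : Type*} [Group Γ] (x t : Γ) (hx : x ∈ Subgroup.closure ({x, t} : Set Γ))
    (ht : t ∈ Subgroup.closure ({x, t} : Set Γ)) (r : FreeGroup (Fin 2)) :
    ((ev (⟨x, hx⟩ : Subgroup.closure ({x, t} : Set Γ)) ⟨t, ht⟩ r : Subgroup.closure ({x, t} : Set Γ)) : Γ) = ev x t r := by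
  have : (Subgroup.closure ({x, t} : Set Γ)).subtype.comp (ev (⟨x, hx⟩ : Subgroup.closure ({x, t} : Set Γ)) ⟨t, ht⟩) = ev x t := by
    apply FreeGroup.ext_hom
    intro i
    fin_cases i <;> simp [ev]
  exact DFunLike.congr_fun this r

/-- The Borel section inside an arbitrary group. -/
theorem borel_sub {Γ : Type*} [Group Γ] (x t : Γ) (P : WPar p) (X : XPar p) (hX : X.valid p D)
    (hPN : P.N = D.N) (hPM : P.M = D.M)
    (hPmp : P.mp = minpoly (ZMod p) D.ζ) (hPm : 1 + D.ζ = D.ζ ^ P.m)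
    (φ : Γ →* GJ σ) (hφx : φ x = MG hσ 1 D.b₀ D.hb₀) (hφt : φ t = DU hσ D.θ)
    (hcore : ∀ r ∈ coreRels p P, ev x t r = 1) (hE : ∀ r ∈ extra p X, ev x t r = 1) :
    ∃ z : Kf σ → Γ, (∀ s c, z s * z c = z (s + c)) ∧ (∀ c, t * z c * t⁻¹ = z (D.ζ * c)) ∧
      z 1 = Ux x t ∧ (∀ f : (ZMod p)[X], z (aeval D.ζ f) = ev x t (sL (wd p id f))) ∧
      (∀ c, φ (z c) = D.Y c) ∧ (∀ c, z c ∈ Subgroup.closure ({x, t} : Set Γ)) ∧
      ∃ ι : BJ σ →* Γ, (∀ β, φ (ι β) = β.1) ∧ (∀ β, ι β ∈ Subgroup.closure ({x, t} : Set Γ)) ∧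
        ∀ g ∈ Subgroup.closure ({x, t} : Set Γ), ∃ β, g = ι β := by
  classical
  set H := Subgroup.closure ({x, t} : Set Γ) with hH
  have hx : x ∈ H := Subgroup.subset_closure (by simp)
  have ht : t ∈ H := Subgroup.subset_closure (by simp)
  let xH : H := ⟨x, hx⟩
  let tH : H := ⟨t, ht⟩
  have hev : ∀ r, ((ev xH tH r : H) : Γ) = ev x t r := ev_sub x t hx ht
  have hev1 : ∀ r, ev x t r = 1 → ev xH tH r = 1 := by
    intro r hr
    apply Subtype.ext
    rw [hev, hr]
    rfl
  let φH : H →* GJ σ := φ.comp H.subtype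
  have hU : ((Ux xH tH : H) : Γ) = Ux x t := by
    simp only [Ux, cmw]
    rfl
  have hφU : φH (Ux xH tH) = D.Y 1 := by
    rw [map_Ux]
    show Ux (φ x) (φ t) = _
    rw [hφx, hφt]
    exact model_U hσ D
  have hgen : Subgroup.closure ({xH, tH} : Set H) = ⊤ := closure_pair_top x t
  obtain ⟨z, hz1, hz3, hz4, hz2, hφz, hinj, hrange⟩ := borel_rels p D xH tH P hPN hPM hPmp hPm hgen φH hφx hφt hφU
    (fun r hr => hev1 r (hcore r hr))
    (hcen_extra p D xH tH X hX P hPM (fun r hr => hev1 r (hcore r hr)) (fun r hr => hev1 r (hE r hr)))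
  refine ⟨fun c => (z c : Γ), ?_, ?_, ?_, ?_, hφz, fun c => (z c).2, ?_⟩
  · intro s c
    show ((z s * z c : H) : Γ) = _
    rw [hz1]
  · intro c
    show ((tH * z c * tH⁻¹ : H) : Γ) = _
    rw [hz3]
  · show ((z 1 : H) : Γ) = _
    rw [hz4, hU]
  · intro f
    show ((z _ : H) : Γ) = _
    rw [hz2, hev]
  · let e : H ≃* φH.range := MonoidHom.ofInjective hinj
    let e2 : φH.range ≃* BJ σ := MulEquiv.subgroupCongr hrange
    let e3 : H ≃* BJ σ := e.trans e2
    have he3 : ∀ g : H, ((e3 g : BJ σ) : GJ σ) = φH g := fun g => rfl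
    refine ⟨H.subtype.comp e3.symm.toMonoidHom, ?_, ?_, ?_⟩
    · intro β
      have := he3 (e3.symm β)
      rw [MulEquiv.apply_symm_apply] at this
      exact this.symm
    · intro β
      exact (e3.symm β).2
    · intro g hg
      refine ⟨e3 ⟨g, hg⟩, ?_⟩
      show g = ((e3.symm (e3 ⟨g, hg⟩) : H) : Γ)
      rw [MulEquiv.symm_apply_apply]

end Borel

end Cfsg.Agent.Lib.PrsU3
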