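import Mathlib
import Cfsg.Agent.Lib.PrsU3G

/-!
# Presentations of `SU_3(q)`: the group from the relators
-/

set_option autoImplicit false
set_option linter.unusedSectionVars false
set_option linter.unusedVariables false

namespace Cfsg.Agent.Lib.PrsU3

open Polynomial Cfsg.Agent.Lib.PrsSL2

section Main

variable {F : Type*} [Field F] [Finite F] {σ : F →+* F} (hσ : ∀ x, σ (σ x) = x)
variable (p : ℕ) [Fact p.Prime] [Algebra (ZMod p) (Kf σ)] (D : FD hσ)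

lemma ev_mem {Γ : Type*} [Group Γ] (x t : Γ) (r : FreeGroup (Fin 2)) :
    ev x t r ∈ Subgroup.closure ({x, t} : Set Γ) := by
  have hx : x ∈ Subgroup.closure ({x, t} : Set Γ) := Subgroup.subset_closure (by simp)
  have ht : t ∈ Subgroup.closure ({x, t} : Set Γ) := Subgroup.subset_closure (by simp)
  rw [← ev_sub x t hx ht r]
  exact (ev (⟨x, hx⟩ : Subgroup.closure ({x, t} : Set Γ)) ⟨t, ht⟩ r).2

/-- The group defined by the relators is the model. -/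
theorem gamma_bij {Γ : Type*} [Group Γ] (x t w : Γ) (P : WPar p) (X : XPar p) (hX : X.valid p D)
    (hPN : P.N = D.N) (hPM : P.M = D.M)
    (hPmp : P.mp = minpoly (ZMod p) D.ζ) (hPm : 1 + D.ζ = D.ζ ^ P.m)
    (φ : Γ →* GJ σ) (hφx : φ x = MG hσ 1 D.b₀ D.hb₀) (hφt : φ t = DU hσ D.θ)
    (hφw : φ w = WG hσ D.δ_ne D.sδ)
    (hcore : ∀ r ∈ coreRels p P, ev x t r = 1) (hE : ∀ r ∈ extra p X, ev x t r = 1)
    (hgen : Subgroup.closure ({x, t, w} : Set Γ) = ⊤)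
    (hr1 : w * t * w⁻¹ * t ^ D.q = 1)
    (hr2 : Ux x t * (w * Ux x t * w⁻¹) * Ux x t * w⁻¹ = 1)
    (fζ fζi : (ZMod p)[X]) (hfζ : aeval D.ζ fζ = D.ζ) (hfζi : aeval D.ζ fζi = D.ζ⁻¹)
    (hr3 : ev x t (sL (wd p id fζ)) * (w * ev x t (sL (wd p id fζi)) * w⁻¹) * ev x t (sL (wd p id fζ)) * w⁻¹ * (t ^ D.N)⁻¹ = 1)
    (w₁ w₂ : FreeGroup (Fin 2)) (hr4 : w * x * w = ev x t w₁ * w * ev x t w₂) :
    Function.Bijective φ := by
  classical
  obtain ⟨z, hz1, hz3, hz4, hz2, hφz, hzmem, ι, hι, hιmem, hιsurj⟩ :=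
    borel_sub hσ p D x t P X hX hPN hPM hPmp hPm φ hφx hφt hcore hE
  have hxc : x ∈ Subgroup.closure ({x, t} : Set Γ) := Subgroup.subset_closure (by simp)
  have htc : t ∈ Subgroup.closure ({x, t} : Set Γ) := Subgroup.subset_closure (by simp)
  -- identification of the elements
  have hιeq : ∀ (g : Γ) (β : BJ σ), g ∈ Subgroup.closure ({x, t} : Set Γ) → φ g = β.1 → g = ι β := by
    intro g β hg h
    obtain ⟨β', rfl⟩ := hιsurj g hg
    rw [hι] at h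
    rw [Subtype.ext h]
  have hιx : x = ι (MB hσ 1 D.b₀ D.hb₀) := hιeq x _ hxc hφx
  have hιt : t = ι (DB hσ D.θ) := hιeq t _ htc hφt
  have hιtk : ∀ k : ℕ, t ^ k = ι (DB hσ (D.θ ^ k)) := by
    intro k
    rw [map_pow, map_pow, ← hιt]
  have hιz : ∀ c, z c = ι (MB hσ 0 (c * D.δ) (D.isY c)) := fun c => hιeq _ _ (hzmem c) (hφz c)
  have hr : ∀ r ∈ coreRels p P, ev x t r = 1 := hcore
  simp only [coreRels, List.mem_cons, List.not_mem_nil, or_false, forall_eq_or_imp, forall_eq] at hr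
  obtain ⟨r1, r2, r3, r4, r5, r6, r8, r9, r10, r11, r12, r13⟩ := hr
  have hM : t ^ D.M = 1 := by
    rw [← hPM]
    simpa [ev_g1] using r5
  have hq1 : w * t * w⁻¹ = (t ^ D.q)⁻¹ := eq_inv_of_mul_eq_one_left hr1
  have hwt : ∀ k : ℕ, w * t ^ k * w⁻¹ = ((t ^ D.q) ^ k)⁻¹ := by
    intro k
    have := conj_pow (a := w) (b := t) (i := k)
    rw [← this, hq1, inv_pow]
  have hwD : ∀ d : Fˣ, w * ι (DB hσ d) * w⁻¹ = ι (DB hσ (sU hσ d)⁻¹) := by
    intro d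
    obtain ⟨k, rfl⟩ := D.hgenθ d
    rw [← hιtk, hwt]
    have e : sU hσ (D.θ ^ k) = D.θ ^ (D.q * k) := by
      ext
      simp only [sU_coe, Units.val_pow_eq_pow_val, map_pow, D.hσθ]
      rw [pow_mul]
    rw [e, map_inv, map_inv, ← hιtk, pow_mul]
  -- the torus-Weyl data
  have hNq : D.q * D.N = D.M + D.N := by
    have h := D.hq
    obtain ⟨r, hr⟩ : ∃ r, D.q = r + 2 := ⟨D.q - 2, by omega⟩
    simp only [FD.N, FD.M, hr]
    have : (r + 2) ^ 2 - 1 = (r + 2) * (r + 2) - 1 := by ring_nf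
    rw [this]
    have h2 : 1 ≤ (r + 2) * (r + 2) := Nat.mul_pos (by omega) (by omega)
    have h3 : (r + 2) * (r + 2 + 1) = (r + 2) * (r + 2) + (r + 2) := by ring
    omega
  have e1 : w * t ^ D.N * w⁻¹ = (t ^ D.N)⁻¹ := by
    rw [hwt]
    congr 1
    rw [← pow_mul, hNq, pow_add, hM, one_mul]
  have hh : t ^ D.N * w = w * (t ^ D.N)⁻¹ := by
    have e2 : w * (t ^ D.N)⁻¹ * w⁻¹ = t ^ D.N := by
      have := congrArg (fun a => a⁻¹) e1
      simpa [mul_assoc] using this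
    calc t ^ D.N * w = (w * (t ^ D.N)⁻¹ * w⁻¹) * w := by rw [e2]
      _ = _ := by group
  have hzζ : z D.ζ = ev x t (sL (wd p id fζ)) := by
    rw [← hz2, hfζ]
  have hzζi : z D.ζ⁻¹ = ev x t (sL (wd p id fζi)) := by
    rw [← hz2, hfζi]
  have hNe : D.N = (D.q - 1) + 2 := by
    have h := D.hq
    simp only [FD.N]
    omega
  let Dt : TD (Kf σ) Γ :=
    { ζ := D.ζ
      hζ := D.ζ_ne
      gen := D.genK
      x := z
      h := t ^ D.N
      τ := w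
      add := hz1
      hx := by
        intro c
        rw [xa_pow hz3, hNe, pow_add, D.ζ_e, one_mul]
      hτ := hh
      B1 := by
        rw [hz4]
        exact mul_inv_eq_one.1 hr2
      B2 := by
        rw [hzζ, hzζi]
        have := mul_inv_eq_one.1 hr3
        exact mul_inv_eq_iff_eq_mul.1 this }
  have hDw : ∀ k : ℕ, z (D.ζ ^ k) * (w * z (D.ζ ^ k)⁻¹ * w⁻¹) * z (D.ζ ^ k) = (t ^ D.N) ^ k * w := Dt.w_pow
  -- the square of the Weyl element
  have hNk : ∀ k : ℕ, (t ^ D.N) ^ k = ι (DB hσ ((D.θ ^ D.N) ^ k)) := by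
    intro k
    rw [← pow_mul, ← pow_mul, hιtk]
  obtain ⟨k₁, hk₁⟩ := D.genK (-1) (neg_ne_zero.2 one_ne_zero)
  have hm1 : (D.θ ^ D.N) ^ k₁ = -1 := by
    ext
    have h1 := congrArg (fun c : Kf σ => (c : F)) hk₁
    simp only [Units.val_pow_eq_pow_val, D.hζθ]
    push_cast at h1
    simpa using h1.symm
  have hw2 : w * w = ι (DB hσ (-1)) := by
    have h1 : Dt.w (-1) = (t ^ D.N) ^ k₁ * w := by
      rw [hk₁]
      exact Dt.w_pow k₁
    rw [TD.w_neg, TD.w_one] at h1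
    have h2 : w⁻¹ = ι (DB hσ (-1)) * w := by
      rw [← hm1, ← hNk]
      exact h1
    have h3 : ι (DB hσ (-1)) * ι (DB hσ (-1)) = 1 := by
      rw [← map_mul, ← map_mul]
      simp
    calc w * w = ι (DB hσ (-1)) * (ι (DB hσ (-1)) * w) * w := by
          rw [← mul_assoc, h3, one_mul]
      _ = ι (DB hσ (-1)) * (w⁻¹ * w) := by rw [← h2, mul_assoc]
      _ = _ := by simp
  let M' : MD hσ D.δ_ne D.sδ Γ :=
    { φ := φ
      ι := ι
      w := w
      hι := hι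
      hw := hφw
      hwD := hwD
      hw2 := hw2 }
  have hC : ∀ c : F, c ≠ 0 → σ c = -c → M'.EM 0 c := by
    intro c hc hcc
    have hc₃ : (0 : F) * σ 0 + c + σ c = 0 := by
      rw [hcc]
      ring
    refine ⟨hc₃, ?_⟩
    have hδ := D.δ_ne
    have hc₀m : σ (c / D.δ) = c / D.δ := by
      rw [map_div₀, hcc, D.sδ]
      field_simp
    obtain ⟨c₀, hc₀⟩ : ∃ c₀ : Kf σ, (c₀ : F) = c / D.δ := ⟨⟨c / D.δ, hc₀m⟩, rfl⟩
    have hc₀0 : c₀ ≠ 0 := by
      intro h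
      rw [h] at hc₀
      have : c / D.δ = 0 := by simpa using hc₀.symm
      rw [div_eq_zero_iff] at this
      rcases this with h' | h'
      · exact hc h'
      · exact hδ h'
    obtain ⟨k, hk⟩ := D.genK c₀⁻¹ (inv_ne_zero hc₀0)
    have e3 := hDw k
    rw [← hk, inv_inv] at e3
    have e4 : M'.ι (MB hσ 0 c hc₃) = z c₀ := by
      rw [hιz]
      show ι _ = ι _
      congr 1
      apply MB_congr
      · rfl
      · rw [hc₀]
        field_simp
    have hA : (z c₀⁻¹)⁻¹ * (t ^ D.N) ^ k ∈ Subgroup.closure ({x, t} : Set Γ) :=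
      mul_mem (inv_mem (hzmem _)) (pow_mem (pow_mem htc _) _)
    obtain ⟨β₁, hβ₁⟩ := hιsurj _ hA
    obtain ⟨β₂, hβ₂⟩ := hιsurj ((z c₀⁻¹)⁻¹ * (w * w)) (mul_mem (inv_mem (hzmem _)) (by rw [hw2]; exact hιmem _))
    refine ⟨β₁, β₂, ?_⟩
    show w * M'.ι _ * w = ι β₁ * w * ι β₂
    rw [e4, ← hβ₁, ← hβ₂]
    have e5 : w * z c₀ * w⁻¹ = (z c₀⁻¹)⁻¹ * ((t ^ D.N) ^ k * w) * (z c₀⁻¹)⁻¹ := by
      rw [← e3]
      group
    calc w * z c₀ * w = (w * z c₀ * w⁻¹) * (w * w) := by group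
      _ = _ := by rw [e5]; group
  have hbase : M'.PP D.s₀ 1 := by
    refine ⟨D.hb₀, ?_⟩
    obtain ⟨β₁, hβ₁⟩ := hιsurj _ (ev_mem x t w₁)
    obtain ⟨β₂, hβ₂⟩ := hιsurj _ (ev_mem x t w₂)
    refine ⟨β₁, β₂, ?_⟩
    show w * ι _ * w = ι β₁ * w * ι β₂
    have e6 : ι (MB hσ 1 (MD.bY σ 1 D.s₀) D.hb₀) = x := hιx.symm
    rw [e6, ← hβ₁, ← hβ₂]
    exact hr4
  have hgen' : Subgroup.closure (Set.range M'.ι ∪ {M'.w}) = ⊤ := by
    rw [eq_top_iff, ← hgen, Subgroup.closure_le]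
    rintro g (rfl | rfl | hg)
    · exact Subgroup.subset_closure (Or.inl ⟨_, hιx.symm⟩)
    · exact Subgroup.subset_closure (Or.inl ⟨_, hιt.symm⟩)
    · rw [Set.mem_singleton_iff] at hg
      subst hg
      exact Subgroup.subset_closure (Or.inr rfl)
  exact M'.bijective D.hs D.hs1 D.hmu (fun a ha => ⟨Units.mk0 a ha, rfl⟩) hC hbase hgen'

end Main

end Cfsg.Agent.Lib.PrsU3
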