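import Mathlib
import Cfsg.Agent.Lib.PrsU3H

/-!
# Presentations of `SU_3(q)`: the relators hold in the model
-/

set_option autoImplicit false
set_option linter.unusedSectionVars false
set_option linter.unusedVariables false

namespace Cfsg.Agent.Lib.PrsU3

open Polynomial Cfsg.Agent.Lib.PrsSL2

section HasA

variable {F : Type*} [Field F] {σ : F →+* F} {hσ : ∀ x, σ (σ x) = x}

lemma hasA.inv {g : GJ σ} {a : F} (h : hasA hσ g a) : hasA hσ g⁻¹ (-a) := by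
  obtain ⟨b, hb, rfl⟩ := h
  rw [MG_inv]
  exact hasA_MG hσ _

lemma hasA_cmw {g g' : GJ σ} {a a' : F} (h : hasA hσ g a) (h' : hasA hσ g' a') : hasA hσ (cmw g g') 0 := by
  have := ((h.mul h').mul h.inv).mul h'.inv
  have e : a + a' + -a + -a' = 0 := by ring
  rwa [e] at this

variable (hσ)

/-- Coordinates in the group `U`. -/
lemma hasA_gU (π : FreeGroup (Fin 3) →* GJ σ)
    {b₀ : F} (hb₀ : (1 : F) * σ 1 + b₀ + σ b₀ = 0) (hu : π gu = MG hσ 1 b₀ hb₀) (d : Fˣ) (hh : π gh = DU hσ d)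
    (j : ℕ) : hasA hσ (π (gU j)) ((σ d * σ d * (d : F)⁻¹) ^ j) := by
  induction j with
  | zero =>
    simp only [gU, pow_zero, one_mul, inv_one, mul_one]
    rw [hu]
    exact hasA_MG hσ _
  | succ j ih =>
    have e : gU (j + 1) = gh * gU j * gh⁻¹ := by
      simp only [gU, pow_succ']
      group
    rw [e, map_mul, map_mul, map_inv, hh, pow_succ']
    exact ih.conj d

/-- The coordinate of a polynomial word, over `F`. -/
lemma hasA_wdF (p : ℕ) [Fact p.Prime] [Algebra (ZMod p) F] (π : FreeGroup (Fin 3) →* GJ σ)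
    {b₀ : F} (hb₀ : (1 : F) * σ 1 + b₀ + σ b₀ = 0) (hu : π gu = MG hσ 1 b₀ hb₀) (d : Fˣ) (hh : π gh = DU hσ d)
    (f : (ZMod p)[X]) : hasA hσ (π (wd p id f)) (aeval (σ d * σ d * (d : F)⁻¹) f) := by
  haveI hp : NeZero p := ⟨(Fact.out : p.Prime).ne_zero⟩
  have hU := hasA_gU hσ π hb₀ hu d hh
  have key : ∀ n, hasA hσ (π (wdA p id f n)) (∑ i ∈ Finset.range n, (f.coeff i).val • (σ d * σ d * (d : F)⁻¹) ^ i) := by
    intro n
    induction n with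
    | zero => simpa [wdA] using hasA_one hσ
    | succ n ih =>
      rw [Finset.sum_range_succ]
      simp only [wdA, map_mul, map_pow, id]
      exact ih.mul ((hU n).pow (f.coeff n).val)
  have e : aeval (σ d * σ d * (d : F)⁻¹) f = ∑ i ∈ Finset.range (f.natDegree + 1), (f.coeff i).val • (σ d * σ d * (d : F)⁻¹) ^ i := by
    rw [aeval_eq_sum_range]
    apply Finset.sum_congr rfl
    intro i _
    conv_lhs => rw [← ZMod.natCast_zmod_val (f.coeff i)]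
    exact Nat.cast_smul_eq_nsmul (ZMod p) _ _
  rw [e]
  exact key _

end HasA

section Truth

variable {F : Type*} [Field F] [Finite F] {σ : F →+* F} {hσ : ∀ x, σ (σ x) = x}
variable (p : ℕ) [Fact p.Prime] [Algebra (ZMod p) (Kf σ)] (D : FD hσ)

namespace FD

/-- The image of the first generator. -/
def x₀ : GJ σ := MG hσ 1 D.b₀ D.hb₀

/-- The image of the second generator. -/
def t₀ : GJ σ := DU hσ D.θ

omit [Finite F] in
lemma Y_zero : D.Y 0 = 1 := by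
  have := D.Y_add 0 0
  rw [add_zero] at this
  exact mul_eq_left.1 this

omit [Finite F] [Fact p.Prime] [Algebra (ZMod p) (Kf σ)] in
lemma Y_cmw (c : Kf σ) {a b : F} (h : a * σ a + b + σ b = 0) : cmw (D.Y c) (MG hσ a b h) = 1 := by
  simp only [Y]
  rw [cmw_MG hσ, ← MG_zero hσ]
  apply MG_congr
  · rfl
  · simp

omit [Finite F] in
lemma char_K : ((p : ℕ) : Kf σ) = 0 := by
  have := map_natCast (algebraMap (ZMod p) (Kf σ)) p
  rw [← this, ZMod.natCast_self, map_zero]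

omit [Finite F] in
lemma char_F (σ : F →+* F) [Algebra (ZMod p) (Kf σ)] : ((p : ℕ) : F) = 0 := by
  have := congrArg (fun c : Kf σ => (c : F)) (char_K (σ := σ) p)
  simpa using this

omit [Finite F] in
lemma Y_pow (c : Kf σ) (n : ℕ) : D.Y c ^ n = D.Y (n • c) := by
  induction n with
  | zero => simp [Y_zero]
  | succ n ih => rw [pow_succ, ih, Y_add, succ_nsmul]

omit [Finite F] in
lemma ev_U : Ux D.x₀ D.t₀ = D.Y 1 := model_U hσ D

omit [Finite F] in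
lemma gU_Y (π : FreeGroup (Fin 3) →* GJ σ) (hu : π gu = D.Y 1) (hh : π gh = DU hσ D.θ) (j : ℕ) :
    π (gU j) = D.Y (D.ζ ^ j) := by
  induction j with
  | zero =>
    simp [gU, hu]
  | succ j ih =>
    have e : gU (j + 1) = gh * gU j * gh⁻¹ := by
      simp only [gU, pow_succ']
      group
    rw [e, map_mul, map_mul, map_inv, ih, hh, D.Y_conj D.θ D.ζ D.hζ1, pow_succ']

omit [Finite F] in
lemma ev_sLu : (ev D.x₀ D.t₀).comp sL gu = D.Y 1 := by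
  rw [ev_sL_gu, D.ev_U]

omit [Finite F] in
lemma ev_sLh : (ev D.x₀ D.t₀).comp sL gh = DU hσ D.θ := ev_sL_gh _ _

omit [Finite F] in
lemma ev_Z (f : (ZMod p)[X]) : ev D.x₀ D.t₀ (sL (wd p id f)) = D.Y (aeval D.ζ f) :=
  D.Y_wd p ((ev D.x₀ D.t₀).comp sL) D.ev_sLu D.ev_sLh f

omit [Finite F] in
lemma exists_c {g g' : GJ σ} {a : F} (h : hasA hσ g a) (h' : hasA hσ g' a) : ∃ c : Kf σ, g⁻¹ * g' * D.Y c = 1 := by
  obtain ⟨b, hb, rfl⟩ := h
  obtain ⟨b', hb', rfl⟩ := h'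
  have hδ := D.δ_ne
  have he : σ (b - b') = -(b - b') := by
    rw [map_sub]
    linear_combination hb - hb'
  have hc : σ ((b - b') / D.δ) = (b - b') / D.δ := by
    rw [map_div₀, he, D.sδ]
    field_simp
  refine ⟨⟨(b - b') / D.δ, hc⟩, ?_⟩
  simp only [Y]
  rw [MG_inv, MG_mul, MG_mul, ← MG_zero hσ]
  apply MG_congr
  · simp
  · show σ b + b' - σ (-a) * a + (b - b') / D.δ * D.δ - σ (-a + a) * 0 = 0
    rw [div_mul_cancel₀ _ hδ, map_neg]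
    linear_combination hb

omit [Finite F] in
lemma truth_rq (hgenK : ∀ c : Kf σ, ∃ f : (ZMod p)[X], aeval D.ζ f = c) {A B : FreeGroup (Fin 2)} {a : F}
    (hA : hasA hσ (ev D.x₀ D.t₀ A) a) (hB : hasA hσ (ev D.x₀ D.t₀ B) a) :
    ∃ f : (ZMod p)[X], ev D.x₀ D.t₀ (rq p A B f) = 1 := by
  obtain ⟨c, hc⟩ := D.exists_c hA hB
  obtain ⟨f, rfl⟩ := hgenK c
  refine ⟨f, ?_⟩
  simp only [rq, map_mul, map_inv]
  rw [D.ev_Z p]
  exact hc

omit [Finite F] in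
lemma ev_x : ev D.x₀ D.t₀ g0 = D.x₀ := ev_g0 _ _

omit [Finite F] in
lemma ev_t : ev D.x₀ D.t₀ g1 = D.t₀ := ev_g1 _ _

omit [Finite F] in
lemma ha_x : hasA hσ D.x₀ 1 := hasA_MG hσ _

omit [Finite F] in
lemma ha_conj {g : GJ σ} {a : F} (h : hasA hσ g a) : hasA hσ (D.t₀ * g * D.t₀⁻¹) (D.ρ * a) := h.conj D.θ

omit [Finite F] in
lemma ha_hconj {g : GJ σ} {a : F} (h : hasA hσ g a) :
    hasA hσ (D.t₀ ^ D.N * g * (D.t₀ ^ D.N)⁻¹) (D.ζ * a) := by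
  have h1 := h.conj (D.θ ^ D.N)
  have e1 : D.t₀ ^ D.N = DU hσ (D.θ ^ D.N) := by
    simp [t₀]
  rw [e1]
  have e2 : σ ((D.θ ^ D.N : Fˣ) : F) * σ ((D.θ ^ D.N : Fˣ) : F) * (((D.θ ^ D.N : Fˣ) : F))⁻¹ = D.ζ := by
    rw [D.hζθ, sig_K]
    have h0 : (D.ζ : F) ≠ 0 := by
      intro h0
      exact D.ζ_ne (Subtype.ext h0)
    field_simp
  rwa [e2] at h1

omit [Finite F] in
lemma ha_B (N : ℕ) (hN : N = D.N) (f : (ZMod p)[X]) :
    hasA hσ (ev D.x₀ D.t₀ (sB N (wd p id f))) ((aeval D.ζ f : Kf σ) : F) := by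
  subst hN
  refine hasA_wd hσ p ((ev D.x₀ D.t₀).comp (sB D.N)) D.hb₀ (ev_sB_gu _ _ _) (D.θ ^ D.N) ?_ D.ζ D.hζθ f
  rw [ev_sB_gh]
  simp [t₀]

omit [Finite F] in
lemma ha_gU (N : ℕ) (hN : N = D.N) (j : ℕ) :
    hasA hσ (ev D.x₀ D.t₀ (sB N (gU j))) ((D.ζ : F) ^ j) := by
  subst hN
  have := hasA_gU hσ ((ev D.x₀ D.t₀).comp (sB D.N)) D.hb₀ (ev_sB_gu _ _ _) (D.θ ^ D.N) (by
    rw [ev_sB_gh]
    simp [t₀]) j
  have e2 : σ ((D.θ ^ D.N : Fˣ) : F) * σ ((D.θ ^ D.N : Fˣ) : F) * (((D.θ ^ D.N : Fˣ) : F))⁻¹ = D.ζ := by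
    rw [D.hζθ, sig_K]
    have h0 : (D.ζ : F) ≠ 0 := by
      intro h0
      exact D.ζ_ne (Subtype.ext h0)
    field_simp
  rwa [e2] at this

omit [Finite F] in
/-- The core relators hold in the model, for suitable parameters. -/
theorem exists_par (hgenK : ∀ c : Kf σ, ∃ f : (ZMod p)[X], aeval D.ζ f = c) (m : ℕ) (hm : 1 + D.ζ = D.ζ ^ m) :
    ∃ P : WPar p, P.N = D.N ∧ P.M = D.M ∧ P.mp = minpoly (ZMod p) D.ζ ∧ P.m = m ∧
      ∀ r ∈ coreRels p P, ev D.x₀ D.t₀ r = 1 := by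
  have hmin : aeval D.ζ (minpoly (ZMod p) D.ζ) = 0 := minpoly.aeval _ _
  have hm' : (1 : F) + (D.ζ : F) ^ 1 = (D.ζ : F) ^ m := by
    have := congrArg (fun c : Kf σ => (c : F)) hm
    simpa using this
  have one' : hasA hσ (ev D.x₀ D.t₀ (1 : FreeGroup (Fin 2))) 0 := by
    rw [map_one]
    exact hasA_one hσ
  have hX := D.ha_x
  -- the elements of the fixed field
  have hαm : σ (-(D.ρ * σ D.ρ)) = -(D.ρ * σ D.ρ) := by
    simp only [map_neg, map_mul, hσ]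
    ring
  have hβm : σ (D.ρ + σ D.ρ) = D.ρ + σ D.ρ := by
    simp only [map_add, hσ]
    ring
  obtain ⟨fα, hfα⟩ := hgenK ⟨_, hαm⟩
  obtain ⟨fβ, hfβ⟩ := hgenK ⟨_, hβm⟩
  have c8 : ∃ f, ev D.x₀ D.t₀ (rq p (g0 ^ p) 1 f) = 1 := by
    refine D.truth_rq p hgenK (a := 0) ?_ one'
    rw [map_pow, D.ev_x]
    have := hX.pow p
    have e : p • (1 : F) = 0 := by
      rw [nsmul_eq_mul, mul_one]
      exact char_F p σ
    rwa [e] at this
  have c9 : ∃ f, ev D.x₀ D.t₀ (rq p (cmw g0 (g1 ^ D.N * g0 * (g1 ^ D.N)⁻¹)) 1 f) = 1 := by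
    refine D.truth_rq p hgenK (a := 0) ?_ one'
    rw [map_cmw]
    simp only [map_mul, map_inv, map_pow, D.ev_x, D.ev_t]
    exact hasA_cmw hX (D.ha_hconj hX)
  have c10 : ∃ f, ev D.x₀ D.t₀ (rq p (sB D.N (gu * gU 1)) (sB D.N (gU m)) f) = 1 := by
    refine D.truth_rq p hgenK (a := (D.ζ : F) ^ m) ?_ (D.ha_gU D.N rfl m)
    rw [map_mul, map_mul, ← hm']
    refine hasA.mul ?_ (D.ha_gU D.N rfl 1)
    have : ev D.x₀ D.t₀ (sB D.N gu) = D.x₀ := ev_sB_gu _ _ D.N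
    rw [this]
    exact hX
  have c11 : ∃ f, ev D.x₀ D.t₀ (rq p (sB D.N (wd p id (minpoly (ZMod p) D.ζ))) 1 f) = 1 := by
    refine D.truth_rq p hgenK (a := 0) ?_ one'
    have := D.ha_B p D.N rfl (minpoly (ZMod p) D.ζ)
    rw [hmin] at this
    exact this
  have c12 : ∃ f, ev D.x₀ D.t₀ (rq p (cmw g0 (g1 ^ D.N * (g1 * g0 * g1⁻¹) * (g1 ^ D.N)⁻¹)) 1 f) = 1 := by
    refine D.truth_rq p hgenK (a := 0) ?_ one'
    rw [map_cmw]
    simp only [map_mul, map_inv, map_pow, D.ev_x, D.ev_t]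
    exact hasA_cmw hX (D.ha_hconj (D.ha_conj hX))
  have c13 : ∃ f, ev D.x₀ D.t₀ (rq p (g1 ^ 2 * g0 * (g1 ^ 2)⁻¹)
      (sB D.N (wd p id fα) * (g1 * sB D.N (wd p id fβ) * g1⁻¹)) f) = 1 := by
    refine D.truth_rq p hgenK (a := D.ρ * (D.ρ * 1)) ?_ ?_
    · simp only [map_mul, map_inv, map_pow, D.ev_x, D.ev_t]
      have := D.ha_conj (D.ha_conj hX)
      have e : D.t₀ ^ 2 * D.x₀ * (D.t₀ ^ 2)⁻¹ = D.t₀ * (D.t₀ * D.x₀ * D.t₀⁻¹) * D.t₀⁻¹ := by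
        rw [pow_two]
        group
      rw [e]
      exact this
    · have h1 := D.ha_B p D.N rfl fα
      have h2 := D.ha_conj (D.ha_B p D.N rfl fβ)
      have h3 := h1.mul h2
      rw [hfα, hfβ] at h3
      have e : D.ρ * (D.ρ * 1) = -(D.ρ * σ D.ρ) + D.ρ * (D.ρ + σ D.ρ) := by ring
      rw [e]
      simp only [map_mul, map_inv, D.ev_t]
      exact h3
  obtain ⟨f8, h8⟩ := c8
  obtain ⟨f9, h9⟩ := c9
  obtain ⟨f10, h10⟩ := c10
  obtain ⟨f11, h11⟩ := c11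
  obtain ⟨f12, h12⟩ := c12
  obtain ⟨f13, h13⟩ := c13
  refine ⟨⟨D.N, D.M, m, minpoly (ZMod p) D.ζ, f8, f9, f10, f11, f12, f13, fα, fβ⟩, rfl, rfl, rfl, rfl, ?_⟩
  simp only [coreRels, List.mem_cons, List.not_mem_nil, or_false, forall_eq_or_imp, forall_eq]
  have hπ1 := D.ev_sLu
  have hπ2 := D.ev_sLh
  have hgU := D.gU_Y ((ev D.x₀ D.t₀).comp sL) hπ1 hπ2
  refine ⟨?_, ?_, ?_, ?_, ?_, ?_, h8, h9, h10, h11, h12, h13⟩
  · rw [map_pow, ev_Uw, D.ev_U, D.Y_pow]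
    have e : p • (1 : Kf σ) = 0 := by
      rw [nsmul_eq_mul, mul_one]
      exact char_K p
    rw [e, D.Y_zero]
  · show ((ev D.x₀ D.t₀).comp sL) (rComm 1) = 1
    simp only [rComm, map_mul, map_inv]
    rw [hπ1, hgU, D.Y_add, mul_assoc, ← mul_inv_rev, D.Y_add, add_comm]
    group
  · show ((ev D.x₀ D.t₀).comp sL) (rTri 1 m) = 1
    simp only [rTri, map_mul, map_inv]
    rw [hπ1, hgU, hgU, D.Y_add, pow_one, hm]
    group
  · rw [D.ev_Z p, hmin, D.Y_zero]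
  · rw [map_pow, D.ev_t]
    simp only [t₀]
    rw [← map_pow, D.θ_M, map_one]
  · rw [map_cmw, ev_Uw, D.ev_x, D.ev_U]
    exact D.Y_cmw 1 D.hb₀

omit [Finite F] in
/-- The extra relator, first case. -/
theorem extraA_holds [Algebra (ZMod p) F] (f : (ZMod p)[X])
    (hf : aeval (σ ((D.θ ^ (D.q - 1) : Fˣ) : F) * σ ((D.θ ^ (D.q - 1) : Fˣ) : F) * (((D.θ ^ (D.q - 1) : Fˣ) : F))⁻¹) f = D.ρ * 1)
    (hgenK : ∀ c : Kf σ, ∃ f : (ZMod p)[X], aeval D.ζ f = c) :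
    ∃ X : XPar p, X.valid p D ∧ ∀ r ∈ extra p X, ev D.x₀ D.t₀ r = 1 := by
  have h1 : ∃ c, ev D.x₀ D.t₀ (rq p (g1 * g0 * g1⁻¹) (sB (D.q - 1) (wd p id f)) c) = 1 := by
    refine D.truth_rq p hgenK (a := D.ρ * 1) ?_ ?_
    · simp only [map_mul, map_inv, D.ev_x, D.ev_t]
      exact D.ha_conj D.ha_x
    · have := hasA_wdF hσ p ((ev D.x₀ D.t₀).comp (sB (D.q - 1))) D.hb₀ (ev_sB_gu _ _ _) (D.θ ^ (D.q - 1)) (by
        rw [ev_sB_gh]
        simp [t₀]) f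
      rw [hf] at this
      exact this
  obtain ⟨c, hc⟩ := h1
  refine ⟨.A (D.q - 1) f c, rfl, ?_⟩
  simp only [extra, List.mem_cons, List.not_mem_nil, or_false, forall_eq]
  exact hc

omit [Finite F] in
/-- The extra relators, second case. -/
theorem extraB_holds (h : (minpoly (ZMod p) D.ζ).natDegree ≤ 3) :
    ∃ X : XPar p, X.valid p D ∧ ∀ r ∈ extra p X, ev D.x₀ D.t₀ r = 1 := by
  refine ⟨.B, h, ?_⟩
  simp only [extra, List.mem_cons, List.not_mem_nil, or_false, forall_eq_or_imp, forall_eq]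
  constructor
  · rw [map_cmw, D.ev_x, D.ev_Z p]
    exact D.Y_cmw _ D.hb₀
  · rw [map_cmw, D.ev_x, D.ev_Z p]
    exact D.Y_cmw _ D.hb₀

omit [Finite F] [Fact p.Prime] [Algebra (ZMod p) (Kf σ)] in
/-- The Weyl element. -/
noncomputable def W₀ : GJ σ := WG hσ D.δ_ne D.sδ

omit [Finite F] [Fact p.Prime] [Algebra (ZMod p) (Kf σ)] in
lemma W_t : D.W₀ * D.t₀ * D.W₀⁻¹ * D.t₀ ^ D.q = 1 := by
  simp only [W₀, t₀]
  rw [WG_DU, ← map_pow, ← map_mul]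
  have : (Units.mk0 (σ D.θ) (sig_ne hσ D.θ.ne_zero))⁻¹ * D.θ ^ D.q = 1 := by
    rw [inv_mul_eq_one]
    ext
    simp [D.hσθ]
  rw [this, map_one]

omit [Finite F] [Fact p.Prime] [Algebra (ZMod p) (Kf σ)] in
lemma W_tri (c : Kf σ) (u : Fˣ) (hu : (u : F) = c) :
    D.Y c * (D.W₀ * D.Y c⁻¹ * D.W₀⁻¹) * D.Y c = DU hσ u * D.W₀ := by
  have hδ := D.δ_ne
  have hδ' := D.sδ
  have hc0 : (c : F) ≠ 0 := by
    rw [← hu]
    exact u.ne_zero
  simp only [W₀]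
  rw [WG_inv hσ D.δ_ne D.sδ]
  apply GJ_ext
  intro i j
  change (Mm σ 0 ((c : F) * D.δ) * (Wm D.δ * Mm σ 0 (((c⁻¹ : Kf σ) : F) * D.δ) * (Dm σ ((-1 : Fˣ) : F) * Wm D.δ)) * Mm σ 0 ((c : F) * D.δ)) i j =
    (Dm σ (u : F) * Wm D.δ) i j
  rw [hu]
  have e : ((c⁻¹ : Kf σ) : F) = (c : F)⁻¹ := by simp
  rw [e]
  have hsc : σ (c : F) = c := sig_K c
  fin_cases i <;> fin_cases j <;> simp [Matrix.mul_apply, Fin.sum_univ_three, Wm, Mm, Dm, hsc, hδ, hc0] <;> field_simp <;> ring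

end FD

end Truth

end Cfsg.Agent.Lib.PrsU3
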