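import Mathlib
import Cfsg.Agent.Lib.PrsU3I

/-!
# Presentations of `SU_3(q)`: the presentation of the model
-/

set_option autoImplicit false
set_option linter.unusedSectionVars false
set_option linter.unusedVariables false

namespace Cfsg.Agent.Lib.PrsU3

open Polynomial Cfsg.Agent.Lib.PrsSL2

section Rels

/-- Three generators. -/
def gx : FreeGroup (Fin 3) := FreeGroup.of 0
/-- Three generators. -/
def gt : FreeGroup (Fin 3) := FreeGroup.of 1
/-- Three generators. -/
def gw : FreeGroup (Fin 3) := FreeGroup.of 2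

/-- The embedding of the two-generator free group. -/
def nu : FreeGroup (Fin 2) →* FreeGroup (Fin 3) := FreeGroup.lift ![gx, gt]

/-- A relator. -/
def rW1 (q : ℕ) : FreeGroup (Fin 3) := gw * gt * gw⁻¹ * gt ^ q
/-- A relator. -/
def rW2 : FreeGroup (Fin 3) := nu Uw * (gw * nu Uw * gw⁻¹) * nu Uw * gw⁻¹
/-- A relator. -/
def rW3 (p : ℕ) [Fact p.Prime] (f₁ f₂ : (ZMod p)[X]) (N : ℕ) : FreeGroup (Fin 3) :=
  nu (sL (wd p id f₁)) * (gw * nu (sL (wd p id f₂)) * gw⁻¹) * nu (sL (wd p id f₁)) * gw⁻¹ * (gt ^ N)⁻¹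
/-- A relator. -/
def rW4 (w₁ w₂ : FreeGroup (Fin 2)) : FreeGroup (Fin 3) := gw * gx * gw * (nu w₁ * gw * nu w₂)⁻¹

end Rels

section Assembly

variable {F : Type*} [Field F] [Finite F] {σ : F →+* F} {hσ : ∀ x, σ (σ x) = x}
variable (p : ℕ) [Fact p.Prime] [Algebra (ZMod p) (Kf σ)] (D : FD hσ)

/-- Every element of the Borel subgroup is a word. -/
theorem model_words (P : WPar p) (X : XPar p) (hX : X.valid p D) (hPN : P.N = D.N) (hPM : P.M = D.M)
    (hPmp : P.mp = minpoly (ZMod p) D.ζ) (hPm : 1 + D.ζ = D.ζ ^ P.m)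
    (hcore : ∀ r ∈ coreRels p P, ev D.x₀ D.t₀ r = 1) (hE : ∀ r ∈ extra p X, ev D.x₀ D.t₀ r = 1) (β : BJ σ) :
    ∃ w : FreeGroup (Fin 2), ev D.x₀ D.t₀ w = β.1 := by
  obtain ⟨z, -, -, -, -, -, -, ι, hι, hιmem, -⟩ :=
    borel_sub hσ p D D.x₀ D.t₀ P X hX hPN hPM hPmp hPm (MonoidHom.id _) rfl rfl hcore hE
  have h1 : ι β = β.1 := hι β
  have h2 : Subgroup.closure ({D.x₀, D.t₀} : Set (GJ σ)) ≤ (ev D.x₀ D.t₀).range := by
    rw [Subgroup.closure_le]
    rintro g (rfl | hg)
    · exact ⟨g0, D.ev_x⟩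
    · rw [Set.mem_singleton_iff] at hg
      subst hg
      exact ⟨g1, D.ev_t⟩
  have h3 := h2 (hιmem β)
  rw [h1] at h3
  exact h3

/-- The presentation of the model. -/
theorem pres_GJ (P : WPar p) (X : XPar p) (hX : X.valid p D) (hPN : P.N = D.N) (hPM : P.M = D.M)
    (hPmp : P.mp = minpoly (ZMod p) D.ζ) (hPm : 1 + D.ζ = D.ζ ^ P.m)
    (hcore : ∀ r ∈ coreRels p P, ev D.x₀ D.t₀ r = 1) (hE : ∀ r ∈ extra p X, ev D.x₀ D.t₀ r = 1)
    (fζ fζi : (ZMod p)[X]) (hfζ : aeval D.ζ fζ = D.ζ) (hfζi : aeval D.ζ fζi = D.ζ⁻¹) :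
    ∃ rels : Finset (FreeGroup (Fin 3)), rels.card ≤ 18 ∧
      Nonempty (PresentedGroup (rels : Set (FreeGroup (Fin 3))) ≃* GJ σ) := by
  classical
  have hb₀0 : D.b₀ ≠ 0 := MD.bY_ne hσ one_ne_zero D.hs D.hs1
  have hδ := D.δ_ne
  have hδ' := D.sδ
  obtain ⟨w₁, hw₁⟩ := model_words p D P X hX hPN hPM hPmp hPm hcore hE
    ⟨_, mul_mem (MG_mem hσ _ _ (isU_fa hσ hδ' D.hb₀ hb₀0)) (DU_mem hσ (Units.mk0 (D.δ / σ D.b₀) (d_ne hσ hδ hδ' hb₀0)))⟩
  obtain ⟨w₂, hw₂⟩ := model_words p D P X hX hPN hPM hPmp hPm hcore hE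
    ⟨_, MG_mem hσ _ _ (isU_ga hσ hδ' D.hb₀ hb₀0)⟩
  have hmain : D.W₀ * D.x₀ * D.W₀ = ev D.x₀ D.t₀ w₁ * D.W₀ * ev D.x₀ D.t₀ w₂ := by
    rw [hw₁, hw₂]
    exact WG_MG hσ hδ hδ' D.hb₀ hb₀0
  let Φ : FreeGroup (Fin 3) →* GJ σ := FreeGroup.lift ![D.x₀, D.t₀, D.W₀]
  have hΦx : Φ gx = D.x₀ := by simp [Φ, gx]
  have hΦt : Φ gt = D.t₀ := by simp [Φ, gt]
  have hΦw : Φ gw = D.W₀ := by simp [Φ, gw]
  have hΦν : ∀ r, Φ (nu r) = ev D.x₀ D.t₀ r := by
    intro r
    have : Φ.comp nu = ev D.x₀ D.t₀ := by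
      apply FreeGroup.ext_hom
      intro i
      fin_cases i
      · simp [nu, ev, hΦx]
      · simp [nu, ev, hΦt]
    exact DFunLike.congr_fun this r
  let L : List (FreeGroup (Fin 3)) := (coreRels p P).map nu ++ ((extra p X).map nu ++
    [rW1 D.q, rW2, rW3 p fζ fζi D.N, rW4 w₁ w₂])
  have hU₀ : ev D.x₀ D.t₀ Uw = D.Y 1 := by
    rw [ev_Uw, D.ev_U]
  have hL : ∀ r ∈ L, Φ r = 1 := by
    intro r hr
    simp only [L, List.mem_append, List.mem_map, List.mem_cons, List.not_mem_nil, or_false] at hr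
    rcases hr with ⟨a, ha, rfl⟩ | ⟨a, ha, rfl⟩ | rfl | rfl | rfl | rfl
    · rw [hΦν]
      exact hcore a ha
    · rw [hΦν]
      exact hE a ha
    · simp only [rW1, map_mul, map_inv, map_pow, hΦw, hΦt]
      exact D.W_t
    · simp only [rW2, map_mul, map_inv, hΦν, hΦw, hU₀]
      have := D.W_tri 1 1 rfl
      rw [map_one, one_mul, inv_one] at this
      rw [this]
      simp
    · simp only [rW3, map_mul, map_inv, map_pow, hΦν, hΦw, hΦt]
      rw [D.ev_Z p, D.ev_Z p, hfζ, hfζi]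
      have := D.W_tri D.ζ (D.θ ^ D.N) D.hζθ
      rw [this]
      simp [FD.t₀]
    · simp only [rW4, map_mul, map_inv, hΦν, hΦw, hΦx]
      rw [hmain]
      simp
  let R : Finset (FreeGroup (Fin 3)) := L.toFinset
  have hcard : R.card ≤ 18 := by
    refine (List.toFinset_card_le L).trans ?_
    simp only [L, List.length_append, List.length_map]
    have h1 : (coreRels p P).length = 12 := rfl
    have h2 := extra_length p X
    simp only [List.length_cons, List.length_nil]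
    omega
  refine ⟨R, hcard, ?_⟩
  have hR : ∀ r ∈ (R : Set (FreeGroup (Fin 3))), FreeGroup.lift ![D.x₀, D.t₀, D.W₀] r = 1 := by
    intro r hr
    apply hL
    simpa [R] using hr
  let φ : PresentedGroup (R : Set (FreeGroup (Fin 3))) →* GJ σ := PresentedGroup.toGroup hR
  let mk := PresentedGroup.mk (R : Set (FreeGroup (Fin 3)))
  have hmk : ∀ r ∈ L, mk r = 1 := by
    intro r hr
    apply PresentedGroup.one_of_mem
    simpa [R] using hr
  let x : PresentedGroup (R : Set (FreeGroup (Fin 3))) := mk gx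
  let t : PresentedGroup (R : Set (FreeGroup (Fin 3))) := mk gt
  let w : PresentedGroup (R : Set (FreeGroup (Fin 3))) := mk gw
  have hev : ∀ r, ev x t r = mk (nu r) := by
    intro r
    have : ev x t = mk.comp nu := by
      apply FreeGroup.ext_hom
      intro i
      fin_cases i
      · simp [nu, ev, x]
      · simp [nu, ev, t]
    exact DFunLike.congr_fun this r
  have hφx : φ x = MG hσ 1 D.b₀ D.hb₀ := by
    show φ (PresentedGroup.of 0) = _
    rw [PresentedGroup.toGroup.of]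
    rfl
  have hφt : φ t = DU hσ D.θ := by
    show φ (PresentedGroup.of 1) = _
    rw [PresentedGroup.toGroup.of]
    rfl
  have hφw : φ w = WG hσ D.δ_ne D.sδ := by
    show φ (PresentedGroup.of 2) = _
    rw [PresentedGroup.toGroup.of]
    rfl
  have hgen : Subgroup.closure ({x, t, w} : Set (PresentedGroup (R : Set (FreeGroup (Fin 3))))) = ⊤ := by
    rw [eq_top_iff, ← PresentedGroup.closure_range_of (R : Set (FreeGroup (Fin 3))), Subgroup.closure_le]
    rintro _ ⟨i, rfl⟩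
    apply Subgroup.subset_closure
    fin_cases i
    · left
      rfl
    · right
      left
      rfl
    · right
      right
      rfl
  have hbij := gamma_bij hσ p D x t w P X hX hPN hPM hPmp hPm φ hφx hφt hφw
    (fun r hr => by
      rw [hev]
      exact hmk _ (by simp only [L, List.mem_append, List.mem_map]; exact Or.inl ⟨r, hr, rfl⟩))
    (fun r hr => by
      rw [hev]
      exact hmk _ (by simp only [L, List.mem_append, List.mem_map]; exact Or.inr (Or.inl ⟨r, hr, rfl⟩)))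
    hgen
    (by
      have := hmk (rW1 D.q) (by simp [L])
      simpa [rW1] using this)
    (by
      have := hmk rW2 (by simp [L])
      simp only [rW2, map_mul, map_inv] at this
      rw [← hev, ev_Uw] at this
      exact this)
    fζ fζi hfζ hfζi
    (by
      have := hmk (rW3 p fζ fζi D.N) (by simp [L])
      simp only [rW3, map_mul, map_inv, map_pow] at this
      rw [← hev, ← hev] at this
      exact this)
    w₁ w₂
    (by
      have := hmk (rW4 w₁ w₂) (by simp [L])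
      simp only [rW4, map_mul, map_inv] at this
      rw [← hev, ← hev] at this
      exact mul_inv_eq_one.1 this)
  exact ⟨MulEquiv.ofBijective φ hbij⟩

end Assembly

end Cfsg.Agent.Lib.PrsU3
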