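import Mathlib
import Cfsg.Agent.Lib.PrsU3J
import Cfsg.Agent.Lib.UnitaryBasic
import Cfsg.Agent.Lib.PrsSL2D

/-!
# Presentations of `SU_3(q)`: the field data
-/

set_option autoImplicit false
set_option linter.unusedSectionVars false
set_option linter.unusedVariables false

namespace Cfsg.Agent.Lib.PrsU3

open Polynomial Cfsg.Agent.Lib.PrsSL2 Cfsg.Agent.Lib.UnitaryBasic

section Num

lemma num8 {r q k b : ℕ} (hr : r = 2 ^ k) (hq : q = 2 ^ b) (h : q + 4 = 3 * r) : q = 2 ∨ q = 8 := by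
  match k, hr with
  | 0, hr => simp at hr; subst hr; match b, hq with
    | 0, hq => simp at hq; omega
    | b + 1, hq => rw [pow_succ] at hq; omega
  | 1, hr => left; simp at hr; omega
  | 2, hr => right; simp at hr; omega
  | k + 3, hr =>
    exfalso
    rw [pow_add] at hr
    norm_num at hr
    match b, hq with
    | 0, hq => simp at hq; omega
    | 1, hq => simp at hq; omega
    | 2, hq => simp at hq; omega
    | b + 3, hq =>
      rw [pow_add] at hq
      norm_num at hq
      omega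

lemma num5 {r q k b : ℕ} (hr : r = 5 ^ k) (hq : q = 5 ^ b) (h : 2 * q + 5 = 3 * r) : q = 5 := by
  match k, hr with
  | 0, hr => simp at hr; omega
  | 1, hr => simp at hr; omega
  | k + 2, hr =>
    exfalso
    rw [pow_add] at hr
    norm_num at hr
    match b, hq with
    | 0, hq => simp at hq; omega
    | 1, hq => simp at hq; omega
    | b + 2, hq =>
      rw [pow_add] at hq
      norm_num at hq
      omega

end Num

section Data

variable {F : Type*} [Field F] [Fintype F] {q : ℕ} (hF : Fintype.card F = q ^ 2)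

lemma q_gt (hF : Fintype.card F = q ^ 2) : 1 < q := by
  have h1 : 1 < Fintype.card F := Fintype.one_lt_card
  rw [hF] at h1
  by_contra hc
  have : q = 0 ∨ q = 1 := by omega
  rcases this with rfl | rfl <;> simp at h1

/-- The Frobenius is an involution. -/
lemma sg_sg : ∀ x, sigma hF (sigma hF x) = x := sigma_sigma hF

include hF

lemma M_eq (hq : 1 < q) : q ^ 2 - 1 = (q + 1) * (q - 1) := by
  have := Nat.sq_sub_sq q 1
  simpa using this

lemma exists_θ : ∃ θ : Fˣ, (∀ d : Fˣ, ∃ k : ℕ, d = θ ^ k) ∧ ∀ k : ℕ, θ ^ k = 1 ↔ (q ^ 2 - 1) ∣ k := by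
  obtain ⟨θ, hθ⟩ := IsCyclic.exists_generator (α := Fˣ)
  refine ⟨θ, ?_, ?_⟩
  · intro d
    have h1 : d ∈ Subgroup.zpowers θ := hθ d
    rw [← mem_powers_iff_mem_zpowers] at h1
    obtain ⟨k, hk⟩ := h1
    exact ⟨k, hk.symm⟩
  · intro k
    have h1 : orderOf θ = q ^ 2 - 1 := by
      rw [orderOf_eq_card_of_forall_mem_zpowers hθ, Nat.card_units, Nat.card_eq_fintype_card, hF]
    rw [← h1, orderOf_dvd_iff_pow_eq_one]

/-- The existence of the field data. -/
theorem exists_FD (h2 : q ≠ 2) : ∃ D : FD (sg_sg hF), D.q = q := by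
  have hq := q_gt hF
  have hMeq := M_eq hF hq
  obtain ⟨θ, hgenθ, hord⟩ := exists_θ hF
  have hθq2 : (θ : F) ^ (q ^ 2) = θ := by
    rw [← hF]
    exact FiniteField.pow_card _
  have hθM : (θ : F) ^ (q ^ 2 - 1) = 1 := by
    have := (hord _).2 (dvd_refl (q ^ 2 - 1))
    have h1 := congrArg (fun u : Fˣ => (u : F)) this
    simpa using h1
  have hpow1 : ∀ k : ℕ, (θ : F) ^ k = 1 ↔ (q ^ 2 - 1) ∣ k := by
    intro k
    rw [← hord k]
    constructor
    · intro h
      ext
      simpa using h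
    · intro h
      have h1 := congrArg (fun u : Fˣ => (u : F)) h
      simpa using h1
  have hθ0 : (θ : F) ≠ 0 := θ.ne_zero
  have hσθ : sigma hF θ = (θ : F) ^ q := rfl
  have hKm : sigma hF ((θ : F) ^ (q + 1)) = (θ : F) ^ (q + 1) := by
    rw [map_pow, hσθ, ← pow_mul]
    have e : q * (q + 1) = q ^ 2 + q := by ring
    rw [e, pow_add, hθq2, pow_succ]
    ring
  let ζ : Kf (sigma hF) := ⟨(θ : F) ^ (q + 1), hKm⟩
  have hq1pos : 0 < q + 1 := by omega
  have hqm1pos : 0 < q - 1 := by omega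
  have hgenK : ∀ c : Kf (sigma hF), c ≠ 0 → ∃ k : ℕ, c = ζ ^ k := by
    intro c hc
    have hc0 : (c : F) ≠ 0 := fun h => hc (Subtype.ext h)
    obtain ⟨k, hk⟩ := hgenθ (Units.mk0 (c : F) hc0)
    have hk' : (c : F) = (θ : F) ^ k := by
      have := congrArg (fun u : Fˣ => (u : F)) hk
      simpa using this
    have hfix := sig_K c
    rw [hk', map_pow, hσθ, ← pow_mul] at hfix
    have h3 : (θ : F) ^ (k * (q - 1)) = 1 := by
      have e : q * k = k * (q - 1) + k := by
        obtain ⟨r, rfl⟩ : ∃ r, q = r + 1 := ⟨q - 1, by omega⟩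
        simp
        ring
      rw [e, pow_add] at hfix
      exact mul_eq_right₀ (pow_ne_zero k hθ0) |>.1 hfix
    rw [hpow1, hMeq] at h3
    have h4 : (q + 1) ∣ k := Nat.dvd_of_mul_dvd_mul_right hqm1pos h3
    obtain ⟨l, rfl⟩ := h4
    refine ⟨l, Subtype.ext ?_⟩
    rw [hk', pow_mul]
    rfl
  have hρ : sigma hF θ * sigma hF θ * (θ : F)⁻¹ ≠ sigma hF (sigma hF θ * sigma hF θ * (θ : F)⁻¹) := by
    intro h
    rw [map_mul, map_mul, map_inv₀, sigma_sigma, hσθ] at h
    have h3 : ((θ : F) ^ q) ^ 3 = (θ : F) ^ 3 := by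
      have h4 : (θ : F) ^ q ≠ 0 := pow_ne_zero _ hθ0
      field_simp at h
      linear_combination h
    have h5 : (θ : F) ^ (3 * (q - 1)) = 1 := by
      have e : q * 3 = 3 * (q - 1) + 3 := by
        obtain ⟨r, rfl⟩ : ∃ r, q = r + 1 := ⟨q - 1, by omega⟩
        simp
        ring
      rw [← pow_mul, e, pow_add] at h3
      exact mul_eq_right₀ (pow_ne_zero 3 hθ0) |>.1 h3
    rw [hpow1, hMeq] at h5
    have h6 : (q + 1) ∣ 3 := Nat.dvd_of_mul_dvd_mul_right hqm1pos h5
    have := Nat.le_of_dvd (by norm_num) h6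
    omega
  have hM1 : (θ : F) ^ ((q + 1) * (q - 1)) = 1 := by rw [← hMeq]; exact hθM
  have hs : (θ : F) ^ (q - 1) * sigma hF ((θ : F) ^ (q - 1)) = 1 := by
    rw [map_pow, hσθ, ← pow_mul, ← pow_add]
    have e : q - 1 + q * (q - 1) = (q + 1) * (q - 1) := by ring
    rw [e]
    exact hM1
  have hs1 : (θ : F) ^ (q - 1) ≠ 1 := by
    intro h
    rw [hpow1, hMeq] at h
    have := Nat.le_of_dvd hqm1pos h
    have h4 : (q + 1) * (q - 1) = (q - 1) * (q + 1) := by ring
    have h5 : (q - 1) * 1 < (q - 1) * (q + 1) := Nat.mul_lt_mul_of_pos_left (by omega) hqm1pos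
    omega
  have hmu : ∀ y : F, y * sigma hF y = 1 → ∃ k : ℕ, y = ((θ : F) ^ (q - 1)) ^ k := by
    intro y hy
    have hy0 : y ≠ 0 := left_ne_zero_of_mul_eq_one hy
    obtain ⟨k, hk⟩ := hgenθ (Units.mk0 y hy0)
    have hk' : y = (θ : F) ^ k := by
      have := congrArg (fun u : Fˣ => (u : F)) hk
      simpa using this
    rw [hk', map_pow, hσθ, ← pow_mul, ← pow_add] at hy
    have e : k + q * k = k * (q + 1) := by ring
    rw [e, hpow1, hMeq, mul_comm (q + 1)] at hy
    have h4 : (q - 1) ∣ k := Nat.dvd_of_mul_dvd_mul_right hq1pos hy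
    obtain ⟨l, rfl⟩ := h4
    exact ⟨l, by rw [hk', pow_mul]⟩
  exact ⟨{ q := q
           hq := hq
           θ := θ
           hσθ := hσθ
           hgenθ := hgenθ
           hord := hord
           ζ := ζ
           hζ := rfl
           genK := hgenK
           hρ := hρ
           s₀ := (θ : F) ^ (q - 1)
           hs₀ := rfl
           hs := hs
           hs1 := hs1
           hmu := hmu }, rfl⟩

end Data

section Fld

variable {F : Type*} [Field F] [Fintype F] {q : ℕ} {hF : Fintype.card F = q ^ 2} (D : FD (sg_sg hF))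

lemma exists_m (hq : D.q = q) (h2 : q ≠ 2) (h3 : q ≠ 3) : ∃ m : ℕ, 1 + D.ζ = D.ζ ^ m := by
  have hq1 := q_gt hF
  have hne : 1 + D.ζ ≠ 0 := by
    intro h
    have h1 : (D.ζ : F) = -1 := by
      have := congrArg (fun c : Kf (sigma hF) => (c : F)) h
      simp only [Subfield.coe_add, Subfield.coe_one, ZeroMemClass.coe_zero] at this
      linear_combination this
    rw [D.hζ] at h1
    have h4 : ((D.θ ^ (2 * (D.q + 1)) : Fˣ) : F) = 1 := by
      push_cast
      rw [mul_comm, pow_mul, h1]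
      ring
    have h5 : D.θ ^ (2 * (D.q + 1)) = 1 := Units.ext h4
    rw [D.hord, hq, M_eq hF hq1, mul_comm 2] at h5
    have h6 : (q - 1) ∣ 2 := Nat.dvd_of_mul_dvd_mul_left (by omega) h5
    have := Nat.le_of_dvd (by norm_num) h6
    omega
  obtain ⟨m, hm⟩ := D.genK _ hne
  exact ⟨m, hm⟩

variable (p : ℕ) [Fact p.Prime] [Algebra (ZMod p) (Kf (sigma hF))]

/-- The polynomials. -/
lemma exists_genK : ∀ c : Kf (sigma hF), ∃ f : (ZMod p)[X], aeval D.ζ f = c := by
  intro c
  by_cases hc : c = 0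
  · exact ⟨0, by simp [hc]⟩
  · obtain ⟨k, rfl⟩ := D.genK c hc
    exact ⟨X ^ k, by simp⟩

/-- The fixed field has `q` elements. -/
lemma card_K (hq : D.q = q) : Nat.card (Kf (sigma hF)) = q := by
  have hq1 := q_gt hF
  have hMeq := M_eq hF hq1
  let u : (Kf (sigma hF))ˣ := Units.mk0 D.ζ D.ζ_ne
  have hu : ∀ v : (Kf (sigma hF))ˣ, v ∈ Subgroup.zpowers u := by
    intro v
    obtain ⟨k, hk⟩ := D.genK v v.ne_zero
    have : v = u ^ k := by
      ext
      simpa [u] using congrArg (fun c : Kf (sigma hF) => (c : F)) hk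
    rw [this]
    exact pow_mem (Subgroup.mem_zpowers u) k
  have h1 := orderOf_eq_card_of_forall_mem_zpowers hu
  rw [Nat.card_units] at h1
  have h2 : orderOf u = q - 1 := by
    apply Nat.dvd_antisymm
    · apply orderOf_dvd_of_pow_eq_one
      ext
      have e := D.ζ_e
      rw [hq] at e
      simpa [u] using congrArg (fun c : Kf (sigma hF) => (c : F)) e
    · have h3 : u ^ orderOf u = 1 := pow_orderOf_eq_one u
      have h4 : (D.θ ^ ((q + 1) * orderOf u) : Fˣ) = 1 := by
        ext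
        have h5 := congrArg (fun v : (Kf (sigma hF))ˣ => ((v : Kf (sigma hF)) : F)) h3
        simp only [u, Units.val_pow_eq_pow_val, Units.val_mk0] at h5
        push_cast at h5 ⊢
        rw [pow_mul, ← h5]
        have := D.hζ
        rw [hq] at this
        rw [← this]
      rw [D.hord, hq, hMeq] at h4
      exact Nat.dvd_of_mul_dvd_mul_left (by omega) h4
  have h3 : 0 < Nat.card (Kf (sigma hF)) := Nat.card_pos
  omega

/-- The case `q = 8`. -/
lemma natDeg_eight (hq : D.q = 8) (hq8 : q = 8) (hp : p = 2) : (minpoly (ZMod p) D.ζ).natDegree ≤ 3 := by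
  subst hq8
  subst hp
  have h1 := card_K D hq
  have h2 : Nat.card (Kf (sigma hF)) = Nat.card (ZMod 2) ^ Module.finrank (ZMod 2) (Kf (sigma hF)) :=
    Module.natCard_eq_pow_finrank
  rw [h1, Nat.card_zmod] at h2
  have h3 : Module.finrank (ZMod 2) (Kf (sigma hF)) = 3 := by
    have h4 : (2 : ℕ) ^ 3 = 2 ^ Module.finrank (ZMod 2) (Kf (sigma hF)) := by
      norm_num
      exact h2
    exact (Nat.pow_right_injective (le_refl 2) h4).symm
  have := minpoly.natDegree_le (A := ZMod 2) (D.ζ)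
  omega

/-- The polynomial expressing `ρ`. -/
lemma exists_f (hq : D.q = q) (h2 : q ≠ 2) (h5 : q ≠ 5) (h8 : q ≠ 8) [Algebra (ZMod p) F] [CharP F p] :
    ∃ f : (ZMod p)[X], aeval (sigma hF ((D.θ ^ (D.q - 1) : Fˣ) : F) * sigma hF ((D.θ ^ (D.q - 1) : Fˣ) : F) *
      (((D.θ ^ (D.q - 1) : Fˣ) : F))⁻¹) f = D.ρ * 1 := by
  have hq1 := q_gt hF
  have hMeq := M_eq hF hq1
  have hd : ((D.θ ^ (D.q - 1) : Fˣ) : F) = D.s₀ := by
    rw [D.hs₀]
    simp
  rw [hd]
  have hs := D.hs
  have hs0 : D.s₀ ≠ 0 := left_ne_zero_of_mul_eq_one hs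
  have hss : sigma hF D.s₀ = D.s₀⁻¹ := by
    field_simp
    linear_combination hs
  rw [hss]
  rcases gen_or p (D.s₀⁻¹ * D.s₀⁻¹ * D.s₀⁻¹) with h | ⟨r, k, hr, h1r, hrk, hf⟩
  · exact h _
  · exfalso
    rw [Nat.card_eq_fintype_card, hF] at hr
    have hrq : r ≤ q := by
      rw [pow_two] at hr
      exact Nat.mul_self_le_mul_self_iff.1 hr
    have hX := hf X
    rw [aeval_X] at hX
    obtain ⟨β, hβ⟩ : ∃ β, β = D.s₀⁻¹ * D.s₀⁻¹ * D.s₀⁻¹ := ⟨_, rfl⟩
    rw [← hβ] at hX
    have hβ0 : β ≠ 0 := by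
      rw [hβ]
      exact mul_ne_zero (mul_ne_zero (inv_ne_zero hs0) (inv_ne_zero hs0)) (inv_ne_zero hs0)
    have h1 : β ^ (r - 1) = 1 := by
      have e : r = (r - 1) + 1 := by omega
      rw [e, pow_succ] at hX
      exact mul_eq_right₀ hβ0 |>.1 hX
    have h3 : D.s₀ ^ (3 * (r - 1)) = 1 := by
      have e : β = (D.s₀ ^ 3)⁻¹ := by
        rw [hβ]
        field_simp
      rw [e, inv_pow, inv_eq_one, ← pow_mul] at h1
      exact h1
    have h4 : D.θ ^ ((q - 1) * (3 * (r - 1))) = 1 := by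
      ext
      rw [D.hs₀, hq, ← pow_mul] at h3
      simpa using h3
    rw [D.hord, hq, hMeq, mul_comm (q + 1)] at h4
    have h6 : (q + 1) ∣ 3 * (r - 1) := Nat.dvd_of_mul_dvd_mul_left (by omega) h4
    obtain ⟨j, hj⟩ := h6
    have hj1 : j ≠ 0 := by
      rintro rfl
      omega
    have hj3 : j < 3 := by
      by_contra hc
      have : (q + 1) * 3 ≤ (q + 1) * j := Nat.mul_le_mul_left _ (by omega)
      omega
    -- `q` is a power of `p`
    obtain ⟨n, hpp, hn⟩ := FiniteField.card F p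
    have hqd : q ∣ p ^ (n : ℕ) := by
      rw [← hn, hF]
      exact dvd_pow_self q (by norm_num)
    obtain ⟨b, _, hb⟩ := (Nat.dvd_prime_pow hpp).1 hqd
    have hpq : p ∣ q := by
      rw [hb]
      apply dvd_pow_self
      rintro rfl
      simp at hb
      omega
    have hpr : p ∣ r := by
      rw [hrk]
      apply dvd_pow_self
      rintro rfl
      simp at hrk
      omega
    have hj' : j = 1 ∨ j = 2 := by omega
    rcases hj' with rfl | rfl
    · have e : q + 4 = 3 * r := by omega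
      have hd4 : p ∣ 4 := by
        have h7 : p ∣ q + 4 := by
          rw [e]
          exact Dvd.dvd.mul_left hpr 3
        exact (Nat.dvd_add_right hpq).1 h7
      have hp2 : p = 2 := by
        have h7 : p ∣ 2 ^ 2 := by simpa using hd4
        exact (Nat.prime_dvd_prime_iff_eq hpp Nat.prime_two).1 (hpp.dvd_of_dvd_pow h7)
      subst hp2
      rcases num8 hrk hb e with h | h
      · exact h2 h
      · exact h8 h
    · have e : 2 * q + 5 = 3 * r := by omega
      have hd5 : p ∣ 5 := by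
        have h7 : p ∣ 2 * q + 5 := by
          rw [e]
          exact Dvd.dvd.mul_left hpr 3
        exact (Nat.dvd_add_right (Dvd.dvd.mul_left hpq 2)).1 h7
      have hp5 : p = 5 := (Nat.prime_dvd_prime_iff_eq hpp (by norm_num)).1 hd5
      subst hp5
      exact h5 (num5 hrk hb e)

end Fld

section Final

variable {F : Type*} [Field F] [Fintype F]

/-- The presentation of the model over the Frobenius. -/
theorem pres_model (q : ℕ) (hF : Fintype.card F = q ^ 2) (h2 : q ≠ 2) (h3 : q ≠ 3) (h5 : q ≠ 5) :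
    ∃ rels : Finset (FreeGroup (Fin 3)), rels.card ≤ 18 ∧
      Nonempty (PresentedGroup (rels : Set (FreeGroup (Fin 3))) ≃* GJ (sigma hF)) := by
  classical
  obtain ⟨D, hq⟩ := exists_FD hF h2
  obtain ⟨p, hp⟩ := CharP.exists F
  haveI hpr : Fact p.Prime := ⟨CharP.char_is_prime F p⟩
  haveI hK : CharP (Kf (sigma hF)) p := (Kf (sigma hF)).subtype.charP Subtype.val_injective p
  letI algK : Algebra (ZMod p) (Kf (sigma hF)) := ZMod.algebra (Kf (sigma hF)) p
  letI algF : Algebra (ZMod p) F := ZMod.algebra F p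
  have hgenK := exists_genK D p
  obtain ⟨m, hm⟩ := exists_m D hq h2 h3
  obtain ⟨P, hPN, hPM, hPmp, hPm, hcore⟩ := D.exists_par p hgenK m hm
  have hXE : ∃ X : XPar p, X.valid p D ∧ ∀ r ∈ extra p X, ev D.x₀ D.t₀ r = 1 := by
    by_cases h8 : q = 8
    · apply D.extraB_holds p
      obtain ⟨n, hpp, hn⟩ := FiniteField.card F p
      have hd : p ∣ 8 := by
        have h4 : p ∣ q ^ 2 := by
          rw [← hF, hn]
          exact dvd_pow_self p n.ne_zero
        have h5' : p ∣ q := hpp.dvd_of_dvd_pow h4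
        rwa [h8] at h5'
      have hp2 : p = 2 := by
        have h7 : p ∣ 2 ^ 3 := by simpa using hd
        exact (Nat.prime_dvd_prime_iff_eq hpp Nat.prime_two).1 (hpp.dvd_of_dvd_pow h7)
      exact natDeg_eight D p (hq.trans h8) h8 hp2
    · obtain ⟨f, hf⟩ := exists_f D p hq h2 h5 h8
      exact D.extraA_holds p f hf hgenK
  obtain ⟨X, hX, hE⟩ := hXE
  obtain ⟨fζ, hfζ⟩ := hgenK D.ζ
  obtain ⟨fζi, hfζi⟩ := hgenK D.ζ⁻¹
  exact pres_GJ p D P X hX hPN hPM hPmp (by rw [hPm]; exact hm) hcore hE fζ fζi hfζ hfζi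

end Final

end Cfsg.Agent.Lib.PrsU3
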