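import Mathlib
import Cfsg.Agent.Lib.PrsU3K
import Cfsg.Agent.Lib.UnitarySU
import Cfsg.Agent.Lib.FFNorm
import Cfsg.Agent.Lib.PrsSpH

/-!
# Presentations of `SU_3(q)` and `PSU_3(q)`: transport to the standard form
-/

set_option autoImplicit false
set_option linter.unusedSectionVars false
set_option linter.unusedVariables false

namespace Cfsg.Agent.Lib.PrsU3

open scoped Matrix
open Cfsg.Agent.Lib.UnitaryBasic

section Transport

variable {F : Type*} [Field F] {n : ℕ}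

/-- Conjugation between the preservation groups of two forms. -/
noncomputable def pEquiv (P : Matrix (Fin n) (Fin n) F) (hP : IsUnit P.det)
    (f f' : (Fin n → F) → (Fin n → F) → F) (hf : ∀ u v, f' (P *ᵥ u) (P *ᵥ v) = f u v) :
    Cfsg.preserving (Cfsg.slToMat n F) f ≃* Cfsg.preserving (Cfsg.slToMat n F) f' := by
  have h1 : P * P⁻¹ = 1 := Matrix.mul_nonsing_inv P hP
  have h2 : P⁻¹ * P = 1 := Matrix.nonsing_inv_mul P hP
  have hd : ∀ A : Matrix (Fin n) (Fin n) F, A.det = 1 → (P * A * P⁻¹).det = 1 := by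
    intro A hA
    rw [Matrix.det_mul, Matrix.det_mul, hA, mul_one, ← Matrix.det_mul, h1, Matrix.det_one]
  have hd' : ∀ A : Matrix (Fin n) (Fin n) F, A.det = 1 → (P⁻¹ * A * P).det = 1 := by
    intro A hA
    rw [Matrix.det_mul, Matrix.det_mul, hA, mul_one, ← Matrix.det_mul, h2, Matrix.det_one]
  refine
    { toFun := fun g => ⟨⟨P * g.1.1 * P⁻¹, hd _ g.1.2⟩, ?_⟩
      invFun := fun g => ⟨⟨P⁻¹ * g.1.1 * P, hd' _ g.1.2⟩, ?_⟩
      left_inv := ?_
      right_inv := ?_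
      map_mul' := ?_ }
  · intro u v
    show f' ((P * g.1.1 * P⁻¹) *ᵥ u) ((P * g.1.1 * P⁻¹) *ᵥ v) = f' u v
    have e : ∀ w, (P * g.1.1 * P⁻¹) *ᵥ w = P *ᵥ (g.1.1 *ᵥ (P⁻¹ *ᵥ w)) := by
      intro w
      rw [Matrix.mulVec_mulVec, Matrix.mulVec_mulVec, mul_assoc]
    rw [e, e, hf]
    have := g.2 (P⁻¹ *ᵥ u) (P⁻¹ *ᵥ v)
    have e2 : f (g.1.1 *ᵥ (P⁻¹ *ᵥ u)) (g.1.1 *ᵥ (P⁻¹ *ᵥ v)) = f (P⁻¹ *ᵥ u) (P⁻¹ *ᵥ v) := this
    rw [e2, ← hf, Matrix.mulVec_mulVec, Matrix.mulVec_mulVec, h1, Matrix.one_mulVec, Matrix.one_mulVec]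
  · intro u v
    show f ((P⁻¹ * g.1.1 * P) *ᵥ u) ((P⁻¹ * g.1.1 * P) *ᵥ v) = f u v
    have e : ∀ w, P *ᵥ ((P⁻¹ * g.1.1 * P) *ᵥ w) = g.1.1 *ᵥ (P *ᵥ w) := by
      intro w
      rw [Matrix.mulVec_mulVec, Matrix.mulVec_mulVec, ← mul_assoc, ← mul_assoc, h1, one_mul]
    rw [← hf, e, e, ← hf u v]
    exact g.2 (P *ᵥ u) (P *ᵥ v)
  · intro g
    apply Subtype.ext
    apply Subtype.ext
    show P⁻¹ * (P * g.1.1 * P⁻¹) * P = g.1.1
    calc P⁻¹ * (P * g.1.1 * P⁻¹) * P = (P⁻¹ * P) * g.1.1 * (P⁻¹ * P) := by simp only [mul_assoc]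
      _ = _ := by rw [h2, one_mul, mul_one]
  · intro g
    apply Subtype.ext
    apply Subtype.ext
    show P * (P⁻¹ * g.1.1 * P) * P⁻¹ = g.1.1
    calc P * (P⁻¹ * g.1.1 * P) * P⁻¹ = (P * P⁻¹) * g.1.1 * (P * P⁻¹) := by simp only [mul_assoc]
      _ = _ := by rw [h1, one_mul, mul_one]
  · intro g g'
    apply Subtype.ext
    apply Subtype.ext
    show P * (g.1.1 * g'.1.1) * P⁻¹ = (P * g.1.1 * P⁻¹) * (P * g'.1.1 * P⁻¹)
    calc P * (g.1.1 * g'.1.1) * P⁻¹ = P * g.1.1 * (P⁻¹ * P) * g'.1.1 * P⁻¹ := by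
          rw [h2]; simp only [mul_assoc, mul_one]
      _ = _ := by simp only [mul_assoc]

lemma fJ_transport (σ : F →+* F) (α r s : F) (hN : α * σ α = -1) (hss : s * σ s = 1) (hr : r * (1 - s) = 1)
    (hr' : σ r * (1 - σ s) = 1) (u v : Fin 3 → F) :
    (((!![1, 0, r; α, 0, r * s * α; 0, 1, 0] : Matrix (Fin 3) (Fin 3) F) *ᵥ u) 0 * σ (((!![1, 0, r; α, 0, r * s * α; 0, 1, 0] : Matrix (Fin 3) (Fin 3) F) *ᵥ v) 0) +
     ((!![1, 0, r; α, 0, r * s * α; 0, 1, 0] : Matrix (Fin 3) (Fin 3) F) *ᵥ u) 1 * σ (((!![1, 0, r; α, 0, r * s * α; 0, 1, 0] : Matrix (Fin 3) (Fin 3) F) *ᵥ v) 1) +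
     ((!![1, 0, r; α, 0, r * s * α; 0, 1, 0] : Matrix (Fin 3) (Fin 3) F) *ᵥ u) 2 * σ (((!![1, 0, r; α, 0, r * s * α; 0, 1, 0] : Matrix (Fin 3) (Fin 3) F) *ᵥ v) 2)) =
      fJ σ u v := by
  simp only [fJ, mulVec3]
  simp [map_add, map_mul]
  linear_combination hN * (u 0 + r * s * u 2) * (σ (v 0) + σ r * σ s * σ (v 2)) +
    hr' * (u 0 * σ (v 2)) + hr * (u 2 * σ (v 0)) - hss * (r * σ r * u 2 * σ (v 2))

variable [Fintype F] {q : ℕ} (hF : Fintype.card F = q ^ 2)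

/-- The model and the group of the standard form. -/
theorem GJ_equiv : Nonempty (GJ (UnitaryBasic.sigma hF) ≃* Cfsg.SU 3 F q) := by
  have hm1 : (-1 : F) ≠ 0 := neg_ne_zero.2 one_ne_zero
  obtain ⟨α, hα0, hα⟩ := Cfsg.Agent.Lib.FFNorm.exists_norm_eq hF hm1 (by
    exact map_neg (UnitaryBasic.sigma hF) 1 |>.trans (by simp))
  obtain ⟨s, hs, hs1⟩ := exists_nrm_one_ne_one hF
  have hss : s * UnitaryBasic.sigma hF s = 1 := hs
  have hN : α * UnitaryBasic.sigma hF α = -1 := by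
    rw [← hα, sigma_apply]
    ring
  have h1s : 1 - s ≠ 0 := sub_ne_zero.2 hs1.symm
  obtain ⟨r, hrdef⟩ : ∃ r, r = (1 - s)⁻¹ := ⟨_, rfl⟩
  have hr : r * (1 - s) = 1 := by
    rw [hrdef]
    field_simp
  have hr' : UnitaryBasic.sigma hF r * (1 - UnitaryBasic.sigma hF s) = 1 := by
    have := congrArg (UnitaryBasic.sigma hF) hr
    rwa [map_mul, map_sub, map_one] at this
  let P : Matrix (Fin 3) (Fin 3) F := !![1, 0, r; α, 0, r * s * α; 0, 1, 0]
  have hdet : P.det = α := by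
    simp only [P, Matrix.det_fin_three]
    simp
    linear_combination α * hr
  have hP : IsUnit P.det := by
    rw [hdet]
    exact hα0.isUnit
  refine ⟨pEquiv P hP _ _ ?_⟩
  intro u v
  have e1 : ∀ w : Fin 3 → F, Cfsg.hermForm 3 F q w = fun w' => w 0 * UnitaryBasic.sigma hF (w' 0) + w 1 * UnitaryBasic.sigma hF (w' 1) + w 2 * UnitaryBasic.sigma hF (w' 2) := by
    intro w
    funext w'
    simp [Cfsg.hermForm, Fin.sum_univ_three]
  rw [e1]
  exact fJ_transport _ α r s hN hss hr hr' u v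

end Transport

section Quot

variable {α H : Type*} [Group H]

open Cfsg.Agent.Lib.PrsSp in
/-- Adding one relator kills a cyclic normal subgroup. -/
lemma pres_quot_cyc (R : Finset (FreeGroup α)) (E : PresentedGroup (R : Set (FreeGroup α)) ≃* H) (N : Subgroup H)
    [N.Normal] (z : H) (hz : z ∈ N) (hN : ∀ c ∈ N, c ∈ Subgroup.zpowers z) :
    ∃ R' : Finset (FreeGroup α), R'.card ≤ R.card + 1 ∧
      Nonempty (PresentedGroup (R' : Set (FreeGroup α)) ≃* H ⧸ N) := by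
  classical
  obtain ⟨W, hW⟩ := PresentedGroup.mk_surjective _ (E.symm z)
  have hW' : E (PresentedGroup.mk _ W) = z := by rw [hW, MulEquiv.apply_symm_apply]
  let R' : Finset (FreeGroup α) := insert W R
  refine ⟨R', Finset.card_insert_le _ _, ?_⟩
  let q : H →* H ⧸ N := QuotientGroup.mk' N
  let f : α → H ⧸ N := fun a => q (E (PresentedGroup.of a))
  have hf : ∀ w, FreeGroup.lift f w = q (E (PresentedGroup.mk _ w)) := by
    intro w
    have := lift_map_pres (R : Set (FreeGroup α)) E q id f (fun _ => rfl) w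
    rwa [FreeGroup.map.id] at this
  have hrel : ∀ r ∈ (R' : Set (FreeGroup α)), FreeGroup.lift f r = 1 := by
    intro r hr
    have hr' : r ∈ R' := by exact_mod_cast hr
    rw [hf]
    simp only [R', Finset.mem_insert] at hr'
    rcases hr' with rfl | hw
    · rw [hW']
      exact (QuotientGroup.eq_one_iff _).2 hz
    · rw [PresentedGroup.one_of_mem (by exact_mod_cast hw), map_one, map_one]
  obtain ⟨ψ, hψ⟩ := exists_hom_of_pres (R : Set (FreeGroup α)) E id (PresentedGroup.mk (R' : Set (FreeGroup α)))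
    (fun r hr => by
      rw [FreeGroup.map.id]
      exact PresentedGroup.one_of_mem (by
        have : r ∈ R' := Finset.mem_insert_of_mem (by exact_mod_cast hr)
        exact_mod_cast this))
  have hψ' : ∀ w, ψ (E (PresentedGroup.mk _ w)) = PresentedGroup.mk _ w := by
    intro w
    rw [hψ, FreeGroup.map.id]
  have hψz : ψ z = 1 := by
    rw [← hW', hψ']
    exact PresentedGroup.one_of_mem (by
      have : W ∈ R' := Finset.mem_insert_self _ _
      exact_mod_cast this)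
  have hψN : ∀ c ∈ N, ψ c = 1 := by
    intro c hc
    obtain ⟨k, rfl⟩ := Subgroup.mem_zpowers_iff.1 (hN c hc)
    rw [map_zpow, hψz, one_zpow]
  let φ := PresentedGroup.toGroup hrel
  let ξ : H ⧸ N →* PresentedGroup (R' : Set (FreeGroup α)) := QuotientGroup.lift N ψ hψN
  refine ⟨MonoidHom.toMulEquiv φ ξ ?_ ?_⟩
  · apply PresentedGroup.ext
    intro a
    have e1 : φ (PresentedGroup.of a) = q (E (PresentedGroup.of a)) := PresentedGroup.toGroup.of hrel
    simp only [MonoidHom.comp_apply, MonoidHom.id_apply]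
    rw [e1]
    exact hψ' (FreeGroup.of a)
  · apply MonoidHom.ext
    intro x
    obtain ⟨g, rfl⟩ := QuotientGroup.mk'_surjective N x
    obtain ⟨w, hw⟩ := PresentedGroup.mk_surjective _ (E.symm g)
    have hx : g = E (PresentedGroup.mk _ w) := by rw [hw, MulEquiv.apply_symm_apply]
    simp only [MonoidHom.comp_apply, MonoidHom.id_apply]
    rw [hx]
    have e1 : ξ (QuotientGroup.mk' N (E (PresentedGroup.mk _ w))) = PresentedGroup.mk _ w := hψ' w
    rw [e1]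
    exact hf w

end Quot

section Center

variable {F : Type*} [Field F] [Fintype F] {q : ℕ} (hF : Fintype.card F = q ^ 2)

include hF

/-- The centre of `SU_3` is cyclic. -/
lemma center_cyclic : ∃ z ∈ Subgroup.center (Cfsg.SU 3 F q), ∀ c ∈ Subgroup.center (Cfsg.SU 3 F q), c ∈ Subgroup.zpowers z := by
  classical
  have hoff : ∀ (z : Subgroup.center (Cfsg.SU 3 F q)) (k l : Fin 3), k ≠ l → (z.1.1.1 : Matrix (Fin 3) (Fin 3) F) k l = 0 :=
    fun z k l hkl => Cfsg.Agent.Lib.UnitarySU.center_offdiag_zero hF z.1 z.2 hkl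
  have hdiag : ∀ (z : Subgroup.center (Cfsg.SU 3 F q)) (i j : Fin 3), (z.1.1.1 : Matrix (Fin 3) (Fin 3) F) i i = (z.1.1.1 : Matrix (Fin 3) (Fin 3) F) j j := by
    intro z i j
    by_cases hij : i = j
    · rw [hij]
    · exact Cfsg.Agent.Lib.UnitarySU.center_diag_eq hF z.1 z.2 hij
  let f : Subgroup.center (Cfsg.SU 3 F q) →* F :=
    { toFun := fun z => (z.1.1.1 : Matrix (Fin 3) (Fin 3) F) 0 0
      map_one' := by
        show (1 : Matrix (Fin 3) (Fin 3) F) 0 0 = 1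
        simp
      map_mul' := by
        intro a b
        show ((a.1.1.1 : Matrix (Fin 3) (Fin 3) F) * (b.1.1.1 : Matrix (Fin 3) (Fin 3) F)) 0 0 = _
        rw [Matrix.mul_apply, Fin.sum_univ_three, hoff b 1 0 (by decide), hoff b 2 0 (by decide)]
        simp }
  have hf : Function.Injective f := by
    intro a b hab
    have hab' : (a.1.1.1 : Matrix (Fin 3) (Fin 3) F) 0 0 = (b.1.1.1 : Matrix (Fin 3) (Fin 3) F) 0 0 := hab
    apply Subtype.ext
    apply Subtype.ext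
    apply Subtype.ext
    ext i j
    by_cases hij : i = j
    · subst hij
      rw [hdiag a i 0, hdiag b i 0, hab']
    · rw [hoff a i j hij, hoff b i j hij]
  haveI : IsCyclic (Subgroup.center (Cfsg.SU 3 F q)) := isCyclic_of_subgroup_isDomain f hf
  obtain ⟨z, hz⟩ := IsCyclic.exists_generator (α := Subgroup.center (Cfsg.SU 3 F q))
  refine ⟨z.1, z.2, ?_⟩
  intro c hc
  obtain ⟨k, hk⟩ := Subgroup.mem_zpowers_iff.1 (hz ⟨c, hc⟩)
  refine Subgroup.mem_zpowers_iff.2 ⟨k, ?_⟩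
  have := congrArg Subtype.val hk
  simpa using this

end Center

/-- The main theorem. -/
theorem su3_main {F : Type*} [Field F] [Fintype F] (q : ℕ) (hF : Fintype.card F = q ^ 2) (h2 : q ≠ 2) (h3 : q ≠ 3) (h5 : q ≠ 5) :
    (∃ rels : Finset (FreeGroup (Fin 3)), rels.card ≤ 23 ∧ Nonempty (PresentedGroup (↑rels : Set (FreeGroup (Fin 3))) ≃* ↥(Cfsg.SU 3 F q))) ∧
    (∃ rels : Finset (FreeGroup (Fin 3)), rels.card ≤ 24 ∧ Nonempty (PresentedGroup (↑rels : Set (FreeGroup (Fin 3))) ≃* Cfsg.PSU 3 F q)) := by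
  obtain ⟨R, hR, ⟨E⟩⟩ := pres_model q hF h2 h3 h5
  obtain ⟨e⟩ := GJ_equiv hF
  obtain ⟨z, hz, hzc⟩ := center_cyclic hF
  obtain ⟨R', hR', hE'⟩ := pres_quot_cyc R (E.trans e) (Subgroup.center (Cfsg.SU 3 F q)) z hz hzc
  exact ⟨⟨R, by omega, ⟨E.trans e⟩⟩, ⟨R', by omega, hE'⟩⟩

end Cfsg.Agent.Lib.PrsU3
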