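import Mathlib
import Cfsg.Agent.Lib.SUGen
import Cfsg.Agent.Lib.HermFrame

/-!
# Two generation of `SU_n(q)`: the additive criterion, the commutator trick and the calculus of root elements
-/

set_option autoImplicit false
set_option linter.unusedSectionVars false
set_option linter.unusedSimpArgs false
set_option linter.unusedVariables false

namespace Cfsg.Agent.Lib.SU2GenA

open Module Matrix Cfsg Cfsg.Agent.Lib.UnitaryBasic Cfsg.Agent.Lib.UnitarySU
  Cfsg.Agent.Lib.UnitaryConj Cfsg.Agent.Lib.UnitaryE Cfsg.Agent.Lib.SUGen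
  Cfsg.Agent.Lib.HermForm Cfsg.Agent.Lib.HermCount Cfsg.Agent.Lib.GUParab Cfsg.Agent.Lib.FFNorm

section additive

variable {F : Type*} [Field F] [Fintype F]

/-- An additive subgroup of a finite field stable under multiplication by an element of large order
is everything. -/
theorem addSubgroup_eq_top (W : AddSubgroup F) {ξ : F} (hξ0 : ξ ≠ 0) (hW : ∀ x ∈ W, ξ * x ∈ W) {w : F}
    (hw : w ∈ W) (hw0 : w ≠ 0) (hord : Fintype.card F < (orderOf ξ + 1) ^ 2) : W = ⊤ := by
  classical
  by_contra hne
  obtain ⟨y, hy⟩ : ∃ y, y ∉ W := by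
    by_contra hcon
    push Not at hcon
    exact hne (eq_top_iff.2 fun x _ => hcon x)
  let K₀ : Subring F :=
    { carrier := {x | ∀ y ∈ W, x * y ∈ W}
      mul_mem' := fun {a b} ha hb y hy => by
        rw [mul_assoc]
        exact ha _ (hb y hy)
      one_mem' := fun y hy => by simpa using hy
      add_mem' := fun {a b} ha hb y hy => by
        rw [add_mul]
        exact W.add_mem (ha y hy) (hb y hy)
      zero_mem' := fun y hy => by simpa using W.zero_mem
      neg_mem' := fun {a} ha y hy => by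
        rw [neg_mul]
        exact W.neg_mem (ha y hy) }
  have hK₀ : ∀ x, x ∈ K₀ ↔ ∀ y ∈ W, x * y ∈ W := fun x => Iff.rfl
  let K : Subfield F :=
    { K₀ with
      inv_mem' := by
        intro x hx
        by_cases hx0 : x = 0
        · rw [hx0, _root_.inv_zero]
          exact K₀.zero_mem
        · have h1 : x⁻¹ = x ^ (Fintype.card F - 2) := by
            have h2 := FiniteField.pow_card_sub_one_eq_one x hx0
            have h3 : 2 ≤ Fintype.card F := Fintype.one_lt_card
            have h4 : Fintype.card F - 1 = (Fintype.card F - 2) + 1 := by omega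
            rw [h4, pow_succ] at h2
            exact (eq_inv_of_mul_eq_one_left h2).symm
          rw [h1]
          exact K₀.pow_mem hx _ }
  have hK : ∀ x, x ∈ K ↔ ∀ y ∈ W, x * y ∈ W := fun x => Iff.rfl
  have hξK : ξ ∈ K := (hK ξ).2 hW
  have hu : y / w ∉ K := by
    intro h
    apply hy
    have := (hK _).1 h w hw
    rwa [div_mul_cancel₀ _ hw0] at this
  set u := y / w with hudef
  haveI : Fintype K := Fintype.ofFinite K
  set s := Fintype.card K with hs
  have hs2 : s ^ 2 ≤ Fintype.card F := by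
    have hinj : Function.Injective (fun p : K × K => (p.1 : F) + (p.2 : F) * u) := by
      rintro ⟨a, b⟩ ⟨c, d⟩ h
      simp only at h
      by_cases hbd : b = d
      · subst hbd
        have : (a : F) = c := add_right_cancel h
        simp [Subtype.ext this]
      · exfalso
        apply hu
        have hne' : ((b : F) - d) ≠ 0 := by
          rw [sub_ne_zero]
          exact fun h' => hbd (Subtype.ext h')
        have h1 : u = ((c : F) - a) / ((b : F) - d) := by
          rw [eq_div_iff hne']
          linear_combination h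
        rw [h1]
        exact K.div_mem (K.sub_mem c.2 a.2) (K.sub_mem b.2 d.2)
    have := Fintype.card_le_of_injective _ hinj
    rwa [Fintype.card_prod, ← sq] at this
  have hs1 : 2 ≤ s := Fintype.one_lt_card
  have hpow : ξ ^ (s - 1) = 1 := by
    have h1 := FiniteField.pow_card_sub_one_eq_one (⟨ξ, hξK⟩ : K) (by
      intro h
      exact hξ0 (congrArg Subtype.val h))
    have h2 := congrArg Subtype.val h1
    simpa using h2
  have hle : orderOf ξ ≤ s - 1 := Nat.le_of_dvd (by omega) (orderOf_dvd_of_pow_eq_one hpow)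
  have h3 : (orderOf ξ + 1) ^ 2 ≤ s ^ 2 := Nat.pow_le_pow_left (by omega) 2
  omega

/-- The commutator trick. -/
theorem trick {G : Type*} [Group G] (C : G → F → Prop)
    (hmul : ∀ {p p' c c'}, C p c → C p' c' → C (p * p') (c + c'))
    (hinv : ∀ {p c}, C p c → C p⁻¹ (-c))
    {a a' t g : G} (hcomm : a * a' = a' * a) (hga : g * a * g⁻¹ = a') {ξ ξ' : F}
    (ha : ∀ {p c}, C p c → C (a * p * a⁻¹) (ξ * c))
    (ha' : ∀ {p c}, C p c → C (a' * p * a'⁻¹) (ξ' * c))
    (ht : C t 1) (M : Subgroup G) (haM : a ∈ M) (hbM : t * g ∈ M) (hξ1 : ξ ≠ 1) (hξ'1 : ξ' ≠ 1)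
    (hξ0 : ξ ≠ 0) (hord : Fintype.card F < (orderOf ξ + 1) ^ 2) (c : F) : ∃ p ∈ M, C p c := by
  let W : AddSubgroup F :=
    { carrier := {c | ∃ p ∈ M, C p c}
      add_mem' := by
        rintro x y ⟨p, hp, h1⟩ ⟨p', hp', h2⟩
        exact ⟨p * p', M.mul_mem hp hp', hmul h1 h2⟩
      zero_mem' := by
        refine ⟨t⁻¹ * t, ?_, ?_⟩
        · rw [inv_mul_cancel]
          exact M.one_mem
        · have := hmul (hinv ht) ht
          simpa using this
      neg_mem' := by
        rintro x ⟨p, hp, h1⟩
        exact ⟨p⁻¹, M.inv_mem hp, hinv h1⟩ }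
  have hW : ∀ x, x ∈ W ↔ ∃ p ∈ M, C p x := fun x => Iff.rfl
  set u := (t * g) * a * (t * g)⁻¹ with hu
  have huM : u ∈ M := M.mul_mem (M.mul_mem hbM haM) (M.inv_mem hbM)
  set w := t * (a' * t⁻¹ * a'⁻¹) with hw
  have hCw : C w (1 + ξ' * (-1)) := hmul ht (ha' (hinv ht))
  have huw : u = w * a' := by
    rw [hu, hw, ← hga]
    group
  set y := a * u * a⁻¹ * u⁻¹ with hy
  have hyM : y ∈ M := M.mul_mem (M.mul_mem (M.mul_mem haM huM) (M.inv_mem haM)) (M.inv_mem huM)
  have hyw : y = (a * w * a⁻¹) * w⁻¹ := by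
    have h1 : a' * a⁻¹ * a'⁻¹ = a⁻¹ := by
      have h0 : a' * a⁻¹ = a⁻¹ * a' := by
        rw [eq_inv_mul_iff_mul_eq, ← mul_assoc, hcomm, mul_assoc, mul_inv_cancel, mul_one]
      rw [h0]
      group
    rw [hy, huw]
    calc a * (w * a') * a⁻¹ * (w * a')⁻¹ = a * w * (a' * a⁻¹ * a'⁻¹) * w⁻¹ := by group
      _ = _ := by rw [h1]
  have hCy : C y (ξ * (1 + ξ' * (-1)) + -(1 + ξ' * (-1))) := by
    rw [hyw]
    exact hmul (ha hCw) (hinv hCw)
  have hne : ξ * (1 + ξ' * (-1)) + -(1 + ξ' * (-1)) ≠ 0 := by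
    have : ξ * (1 + ξ' * (-1)) + -(1 + ξ' * (-1)) = (ξ - 1) * (1 - ξ') := by ring
    rw [this]
    exact mul_ne_zero (sub_ne_zero.2 hξ1) (sub_ne_zero.2 (Ne.symm hξ'1))
  have htop : W = ⊤ := addSubgroup_eq_top W hξ0
    (by
      rintro x ⟨p, hp, h1⟩
      exact ⟨a * p * a⁻¹, M.mul_mem (M.mul_mem haM hp) (M.inv_mem haM), ha h1⟩)
    ((hW _).2 ⟨y, hyM, hCy⟩) hne hord
  have : c ∈ W := by
    rw [htop]
    trivial
  exact this

end additive

section calculus

variable {F : Type*} [Field F] [Fintype F] {q n : ℕ} (hF : Fintype.card F = q ^ 2)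

local notation "h" => hermForm n F q

/-- Root elements are determined by their parameters. -/
theorem E_unique {A B : SU n F q} {v y : Fin n → F} {s : F} (hA : IsE A v y s) (hB : IsE B v y s) : A = B :=
  SU_ext fun x => by rw [hA.act_eq, hB.act_eq]

include hF

theorem zero_pow_q : (0 : F) ^ q = 0 := zero_pow (by have := HermCount.two_le_q hF; omega)

theorem isE_one (c : F) {A : SU n F q} (hA : IsE A (0 : Fin n → F) 0 c) : A = 1 := by
  apply SU_ext
  intro x
  rw [hA.act_eq, act_one]
  simp [hermForm_zero_right hF]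

/-- Scalars on the centre. -/
theorem E_smul_center {A : SU n F q} {v y : Fin n → F} {s l : F} (hl : l ≠ 0) (hA : IsE A (l • v) y s) :
    IsE A v (l ^ q • y) (l * l ^ q * s) := by
  have hl' : l ^ q ≠ 0 := pow_ne_zero _ hl
  have hll : (l ^ q) ^ q = l := pow_pow_self hF l
  refine ⟨?_, ?_, ?_, ?_⟩
  · have h1 := hA.hvv
    rw [hermForm_smul_left, hermForm_smul_right] at h1
    have h2 : l * l ^ q ≠ 0 := mul_ne_zero hl hl'
    have h3 : (l * l ^ q) * h v v = 0 := by rw [mul_assoc]; exact h1
    exact (mul_eq_zero.1 h3).resolve_left h2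
  · have h1 := hA.hyv
    rw [hermForm_smul_right] at h1
    rw [hermForm_smul_left]
    have h2 : h y v = 0 := (mul_eq_zero.1 h1).resolve_left hl'
    rw [h2, mul_zero]
  · have h1 := hA.hs
    rw [hermForm_smul_left, hermForm_smul_right, mul_pow, mul_pow, hll]
    linear_combination (l * l ^ q) * h1
  · intro x
    rw [hA.act_eq, hermForm_smul_right, hermForm_smul_right, hll]
    module

/-- Moving root elements. -/
theorem E_move {p A : SU n F q} {v w v' w' : Fin n → F} {c s l μ : F} (hl : l ≠ 0) (hp : IsE p v (c • w) s)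
    (hv : act A v = l • v') (hw : act A w = μ • w') :
    IsE (A * p * A⁻¹) v' ((l ^ q * μ * c) • w') (l * l ^ q * s) := by
  have h1 := hp.conj hF A
  rw [hv, act_smul, hw] at h1
  have h2 := E_smul_center hF hl h1
  convert h2 using 1
  module

/-- The inverse of a root element. -/
theorem E_inv {A : SU n F q} {v y : Fin n → F} {s : F} (hA : IsE A v y s) : IsE A⁻¹ v (-y) (s ^ q) := by
  have hv : h v v = 0 := hA.hvv
  have h1 : s ^ q + (s ^ q) ^ q + h (-y) (-y) = 0 := by
    have h2 : h (-y) (-y) = h y y := by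
      have e : -y = (-1 : F) • y := by simp
      rw [e, hermForm_smul_left, hermForm_smul_right, HermForm.neg_pow_q hF, one_pow]
      ring
    rw [pow_pow_self hF, h2]
    linear_combination hA.hs
  have h3 : h (-y) v = 0 := by
    have e : -y = (-1 : F) • y := by simp
    rw [e, hermForm_smul_left, hA.hyv, mul_zero]
  obtain ⟨B, hB⟩ := exists_IsE hF hv h3 h1
  have h4 := hA.mul hF hB
  have h5 : A * B = 1 := by
    apply SU_ext
    intro x
    rw [h4.act_eq, act_one]
    have e1 : y + -y = 0 := by simp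
    have e2 : s + s ^ q - h (-y) y = 0 := by
      have e : -y = (-1 : F) • y := by simp
      rw [e, hermForm_smul_left]
      linear_combination hA.hs
    rw [e1, e2]
    simp [hermForm_zero_right hF]
  have h6 : B = A⁻¹ := by
    exact mul_eq_one_iff_inv_eq.1 h5 |>.symm ▸ rfl
  rw [← h6]
  exact hB

/-- Two root elements with the same direction differ by a transvection. -/
theorem E_diff {P Q : SU n F q} {v y : Fin n → F} {s s' : F} (hP : IsE P v y s) (hQ : IsE Q v y s') :
    IsE (P * Q⁻¹) v 0 (s - s') := by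
  have h1 := hP.mul hF (E_inv hF hQ)
  have e1 : y + -y = 0 := by simp
  have e2 : s + s' ^ q - h (-y) y = s - s' := by
    have e : -y = (-1 : F) • y := by simp
    rw [e, hermForm_smul_left]
    linear_combination hQ.hs
  rw [e1, e2] at h1
  exact h1

/-- The commutator rule. -/
theorem E_comm_rule {A B : SU n F q} {v y v' y' : Fin n → F} {s s' : F} (hA : IsE A v y s)
    (hB : IsE B v' y' s') (h1 : h v v' = 0) (h2 : h v y' = 0) (h3 : h y v' = 0) :
    IsE (B * A * B⁻¹ * A⁻¹) v ((-h y y') • v') 0 := by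
  have e1 : act B v = v := by
    rw [hB.act_eq, h1, h2]
    simp
  have e2 : act B y = y - h y y' • v' := by
    rw [hB.act_eq, h3]
    simp
  have h4 := hA.conj hF B
  rw [e1, e2] at h4
  have h5 := h4.mul hF (E_inv hF hA)
  have e3 : y - h y y' • v' + -y = (-h y y') • v' := by
    module
  have e4 : s + s ^ q - h (-y) (y - h y y' • v') = 0 := by
    have e : -y = (-1 : F) • y := by simp
    rw [e, hermForm_smul_left, hermForm_sub_right hF, hermForm_smul_right, h3]
    linear_combination hA.hs
  rw [e3, e4] at h5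
  exact h5

/-- Interchanging centre and direction. -/
theorem E_swap {A : SU n F q} {v w : Fin n → F} {c : F} (hA : IsE A v (c • w) 0) (hw : h w w = 0)
    (hvw : h v w = 0) : IsE A w ((-c ^ q) • v) 0 := by
  have hwv : h w v = 0 := conj_zero hF hvw
  refine ⟨hw, ?_, ?_, ?_⟩
  · rw [hermForm_smul_left, hvw, mul_zero]
  · rw [zero_pow_q hF, hermForm_smul_left, hermForm_smul_right, hA.hvv]
    ring
  · intro x
    rw [hA.act_eq, hermForm_smul_right, hermForm_smul_right, HermForm.neg_pow_q hF, pow_pow_self hF]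
    module

/-- A degenerate root element is a transvection. -/
theorem E_self {A : SU n F q} {v : Fin n → F} {c : F} (hA : IsE A v (c • v) 0) : IsE A v 0 (c - c ^ q) := by
  refine ⟨hA.hvv, ?_, ?_, ?_⟩
  · exact hermForm_zero_left v
  · rw [HermForm.sub_pow_q hF, pow_pow_self hF, hermForm_zero_left]
    ring
  · intro x
    rw [hA.act_eq, hermForm_smul_right, hermForm_zero_right hF]
    module

end calculus

end Cfsg.Agent.Lib.SU2GenA
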