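import Mathlib
import Cfsg.Agent.Lib.SU2GenA

/-!
# Two generation of `SU_n(q)`: good centres and the final propagation
-/

set_option autoImplicit false
set_option linter.unusedSectionVars false
set_option linter.unusedSimpArgs false
set_option linter.unusedVariables false

namespace Cfsg.Agent.Lib.SU2GenB

open Module Matrix Cfsg Cfsg.Agent.Lib.UnitaryBasic Cfsg.Agent.Lib.UnitarySU
  Cfsg.Agent.Lib.UnitaryConj Cfsg.Agent.Lib.UnitaryE Cfsg.Agent.Lib.SUGen
  Cfsg.Agent.Lib.HermForm Cfsg.Agent.Lib.HermCount Cfsg.Agent.Lib.GUParab Cfsg.Agent.Lib.FFNorm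
  Cfsg.Agent.Lib.SU2GenA

variable {F : Type*} [Field F] [Fintype F] {q n : ℕ}

local notation "h" => hermForm n F q

/-- Good centres. -/
def Tc (M : Subgroup (SU n F q)) (v : Fin n → F) : Prop :=
  hermForm n F q v v = 0 ∧ ∀ (c : F) (A : SU n F q), IsE A v 0 c → A ∈ M

/-- All root elements with centre `v` and direction in `F w`, isotropic direction. -/
def Rt (M : Subgroup (SU n F q)) (v w : Fin n → F) : Prop :=
  ∀ c : F, ∃ A ∈ M, IsE A v (c • w) 0

/-- All root elements with centre `v` and direction in `F w`, up to the centre. -/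
def Zt (M : Subgroup (SU n F q)) (v w : Fin n → F) : Prop :=
  ∀ c : F, ∃ A ∈ M, ∃ s, IsE A v (c • w) s

variable (hF : Fintype.card F = q ^ 2) {M : Subgroup (SU n F q)}
include hF

theorem T_zero : Tc M (0 : Fin n → F) := by
  refine ⟨hermForm_zero_left _, fun c A hA => ?_⟩
  rw [isE_one hF c hA]
  exact M.one_mem

theorem T_smul {v : Fin n → F} (hv : Tc M v) (l : F) : Tc M (l • v) := by
  by_cases hl : l = 0
  · rw [hl, zero_smul]
    exact T_zero hF
  refine ⟨by rw [hermForm_smul_left, hermForm_smul_right, hv.1]; ring, fun c A hA => ?_⟩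
  have := E_smul_center hF hl hA
  rw [smul_zero] at this
  exact hv.2 _ A this

theorem T_conj {v : Fin n → F} {A : SU n F q} (hA : A ∈ M) (hv : Tc M v) : Tc M (act A v) := by
  refine ⟨by rw [herm_act]; exact hv.1, fun c B hB => ?_⟩
  have h1 := hB.conj hF A⁻¹
  rw [act_inv_act, act_zero] at h1
  have h2 := hv.2 c _ h1
  have h3 := M.mul_mem (M.mul_mem hA h2) (M.inv_mem hA)
  convert h3 using 1
  group

theorem T_add {x y : Fin n → F} (hx : Tc M x) (hy : Tc M y) (hxy : h x y ≠ 0)
    (hs : h (x + y) (x + y) = 0) : Tc M (x + y) := by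
  have h1 : h x y + (h x y) ^ q = 0 := by
    rw [hermForm_add_left, hermForm_add_right hF, hermForm_add_right hF, hx.1, hy.1, ← herm_conj hF x y] at hs
    linear_combination hs
  have hτ : (h x y)⁻¹ + ((h x y)⁻¹) ^ q + h (0 : Fin n → F) 0 = 0 := by
    rw [hermForm_zero_left, inv_pow]
    have h2 : (h x y) ^ q = - h x y := by linear_combination h1
    rw [h2]
    field_simp
    ring
  obtain ⟨A, hA⟩ := exists_IsE hF hy.1 (hermForm_zero_left y) hτ
  have h4 := T_conj hF (hy.2 _ A hA) hx
  have h5 : act A x = x + y := by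
    rw [hA.act_eq, hermForm_zero_right hF, zero_add, smul_smul, mul_inv_cancel₀ hxy]
    simp
  rwa [h5] at h4

omit hF in
theorem h_sum_left {I : Type*} (s : Finset I) (f : I → Fin n → F) (w : Fin n → F) :
    h (∑ j ∈ s, f j) w = ∑ j ∈ s, h (f j) w := by
  simp only [← hL_apply, map_sum]

theorem h_sum_right {I : Type*} [DecidableEq I] (s : Finset I) (f : I → Fin n → F) (w : Fin n → F) :
    h w (∑ j ∈ s, f j) = ∑ j ∈ s, h w (f j) := by
  induction s using Finset.induction_on with
  | empty => simp [hermForm_zero_right hF]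
  | insert a s ha ih => rw [Finset.sum_insert ha, Finset.sum_insert ha, hermForm_add_right hF, ih]

theorem top_of_T (hn : 3 ≤ n) (h32 : ¬ (n = 3 ∧ q = 2)) (hT : ∀ v : Fin n → F, h v v = 0 → Tc M v) :
    M = ⊤ := by
  rw [eq_top_iff, ← TT_eq_top hF hn h32, TT, Subgroup.closure_le]
  rintro A ⟨v, c, hA⟩
  exact (hT v hA.hvv).2 c A hA

/-- From a root element with direction the centre, to good centres. -/
theorem T_of_R_self {v : Fin n → F} (hv : h v v = 0) (hR : Rt M v v) : Tc M v := by
  refine ⟨hv, fun c A hA => ?_⟩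
  have hc : c ^ q + c = 0 := by
    have := hA.hs
    rw [hermForm_zero_left] at this
    linear_combination this
  obtain ⟨l, hl⟩ := exists_sub_eq hF hc
  obtain ⟨B, hB, hE⟩ := hR (-l)
  have h1 := E_self hF hE
  have h2 : -l - (-l) ^ q = c := by
    rw [HermForm.neg_pow_q hF, ← hl]
    ring
  rw [h2] at h1
  rw [E_unique hA h1]
  exact hB

/-- From the root elements with anisotropic direction to good centres. -/
theorem T_of_Z {v z : Fin n → F} (hz : h z z = 1) (hZ : Zt M v z) : Tc M v := by
  obtain ⟨B, hB, s', hB'⟩ := hZ 1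
  refine ⟨hB'.hvv, fun c A hA => ?_⟩
  have hc : c ^ q + c = 0 := by
    have := hA.hs
    rw [hermForm_zero_left] at this
    linear_combination this
  obtain ⟨l, hl⟩ := exists_sub_eq hF hc
  obtain ⟨C, hC, s, hC'⟩ := hZ (-l)
  have h1 := hC'.mul hF hB'
  have h2 := hB'.mul hF hC'
  have h3 : (1 : F) • z + (-l) • z = (-l) • z + (1 : F) • z := add_comm _ _
  rw [h3] at h2
  have h4 := E_diff hF h1 h2
  have h5 : s + s' - h ((1 : F) • z) ((-l) • z) - (s' + s - h ((-l) • z) ((1 : F) • z)) = c := by
    rw [hermForm_smul_left, hermForm_smul_left, hermForm_smul_right, hermForm_smul_right, hz,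
      HermForm.neg_pow_q hF, ← hl, one_pow]
    ring
  rw [h5] at h4
  rw [E_unique hA h4]
  exact M.mul_mem (M.mul_mem hC hB) (M.inv_mem (M.mul_mem hB hC))

section frame

variable {I : Type*} [Fintype I] [DecidableEq I] [AddCommGroup I] {v : I → Fin n → F} {μ : I}

theorem h_span_zero (hv : ∀ i j, h (v i) (v j) = if j = i + μ then 1 else 0) {S : Finset I}
    (hS : ∀ i ∈ S, ∀ j ∈ S, j ≠ i + μ) (α β : I → F) :
    h (∑ j ∈ S, α j • v j) (∑ j ∈ S, β j • v j) = 0 := by
  rw [h_sum_left]
  refine Finset.sum_eq_zero fun i hi => ?_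
  rw [h_sum_right hF]
  refine Finset.sum_eq_zero fun j hj => ?_
  rw [hermForm_smul_left, hermForm_smul_right, hv, if_neg (hS i hi j hj)]
  ring

theorem D_closure (hμ : μ + μ = 0) (hv : ∀ i j, h (v i) (v j) = if j = i + μ then 1 else 0)
    (hT : ∀ i, Tc M (v i)) (hR : ∀ i j, j ≠ i + μ → Rt M (v i) (v j)) {S : Finset I}
    (hS : ∀ i ∈ S, ∀ j ∈ S, j ≠ i + μ) (α : I → F) : Tc M (∑ j ∈ S, α j • v j) := by
  by_cases h0 : ∀ j ∈ S, α j = 0
  · rw [Finset.sum_eq_zero (fun j hj => by rw [h0 j hj, zero_smul])]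
    exact T_zero hF
  push Not at h0
  obtain ⟨k, hk, hαk⟩ := h0
  set β : I → F := fun j => α j / α k with hβ
  have key : ∀ S' : Finset I, S' ⊆ S.erase k → Tc M (v k + ∑ j ∈ S', β j • v j) := by
    intro S'
    induction S' using Finset.induction_on with
    | empty =>
      intro _
      simpa using hT k
    | insert j S' hj ih =>
      intro hsub
      have hjS : j ∈ S.erase k := hsub (Finset.mem_insert_self _ _)
      have hS'sub : S' ⊆ S.erase k := fun x hx => hsub (Finset.mem_insert_of_mem hx)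
      have ih' := ih hS'sub
      have hjk : j ≠ k := (Finset.mem_erase.1 hjS).1
      have hjS' : j ∈ S := (Finset.mem_erase.1 hjS).2
      have hjkμ : j ≠ k + μ + μ := by
        rw [add_assoc, hμ, add_zero]
        exact hjk
      obtain ⟨A, hA, hE⟩ := hR (k + μ) j hjkμ (β j)
      set x := v k + ∑ j ∈ S', β j • v j with hx
      have h1 : h x (v (k + μ)) = 1 := by
        rw [hx, hermForm_add_left, hv, if_pos rfl, h_sum_left, Finset.sum_eq_zero, add_zero]
        intro i hi
        have hik : i ≠ k := (Finset.mem_erase.1 (hS'sub hi)).1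
        rw [hermForm_smul_left, hv, if_neg, mul_zero]
        intro h'
        exact hik (add_right_cancel h').symm
      have h2 : h x (v j) = 0 := by
        rw [hx, hermForm_add_left, hv, if_neg (hS k hk j hjS'), h_sum_left, Finset.sum_eq_zero, add_zero]
        intro i hi
        have hiS : i ∈ S := (Finset.mem_erase.1 (hS'sub hi)).2
        rw [hermForm_smul_left, hv, if_neg (hS i hiS j hjS'), mul_zero]
      have h3 : act A x = x + β j • v j := by
        rw [hE.act_eq, h1, hermForm_smul_right, h2]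
        simp
      have h4 := T_conj hF hA ih'
      rw [h3] at h4
      rw [Finset.sum_insert hj, ← add_assoc, add_right_comm]
      exact h4
  have h1 := T_smul hF (key _ (Finset.Subset.refl _)) (α k)
  convert h1 using 1
  rw [← Finset.add_sum_erase S _ hk, smul_add, Finset.smul_sum]
  congr 1
  refine Finset.sum_congr rfl fun j _ => ?_
  rw [smul_smul, hβ]
  congr 1
  field_simp

/-- Everything isotropic in the span of the frame is a good centre. -/
theorem all_in_span (hμ : μ + μ = 0) (hv : ∀ i j, h (v i) (v j) = if j = i + μ then 1 else 0)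
    (hT : ∀ i, Tc M (v i)) (hR : ∀ i j, j ≠ i + μ → Rt M (v i) (v j)) (S : Finset I)
    (hS : ∀ i ∈ S, ∀ j ∈ S, j ≠ i + μ) (hS' : ∀ i ∈ Sᶜ, ∀ j ∈ Sᶜ, j ≠ i + μ) (hSμ : ∀ i ∈ S, i + μ ∈ Sᶜ)
    (α : I → F) (hx : h (∑ j, α j • v j) (∑ j, α j • v j) = 0) : Tc M (∑ j, α j • v j) := by
  have hsum : ∑ j, α j • v j = (∑ j ∈ S, α j • v j) + ∑ j ∈ Sᶜ, α j • v j :=
    (Finset.sum_add_sum_compl S _).symm
  rw [hsum] at hx ⊢
  set a := ∑ j ∈ S, α j • v j with ha
  set b := ∑ j ∈ Sᶜ, α j • v j with hb
  have hTa : Tc M a := D_closure hF hμ hv hT hR hS α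
  have hTb : Tc M b := D_closure hF hμ hv hT hR hS' α
  by_cases hab : h a b = 0
  · by_cases h0 : ∀ j ∈ S, α j = 0
    · have ha0 : a = 0 := Finset.sum_eq_zero fun j hj => by rw [h0 j hj, zero_smul]
      rw [ha0, zero_add]
      exact hTb
    push Not at h0
    obtain ⟨k, hk, hαk⟩ := h0
    obtain ⟨c₀, hc₀, hc₀'⟩ := Cfsg.Agent.Lib.SUGen.exists_trace_zero hF
    have hak : h a (v (k + μ)) = α k := by
      rw [ha, h_sum_left, Finset.sum_eq_single k]
      · rw [hermForm_smul_left, hv, if_pos rfl, mul_one]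
      · intro i hi hik
        rw [hermForm_smul_left, hv, if_neg, mul_zero]
        intro h'
        exact hik (add_right_cancel h').symm
      · intro h'
        exact absurd hk h'
    set l := (c₀ / α k) ^ q with hl
    set d := l • v (k + μ) with hd
    have had : h a d = c₀ := by
      rw [hd, hermForm_smul_right, hak, hl, pow_pow_self hF]
      field_simp
    have hda : h d a = c₀ ^ q := by
      rw [← herm_conj hF a d, had]
    have hkμ : k + μ ∈ Sᶜ := hSμ k hk
    set ε : I → F := fun j => if j = k + μ then l else 0 with hε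
    have hdsum : ∑ j ∈ Sᶜ, ε j • v j = d := by
      rw [Finset.sum_eq_single (k + μ)]
      · simp [hε, hd]
      · intro i _ hi
        simp [hε, hi]
      · intro h'
        exact absurd hkμ h'
    have hdd : h d d = 0 := by
      rw [← hdsum]
      exact h_span_zero hF hv hS' ε ε
    have hdb : h d b = 0 := by
      rw [← hdsum]
      exact h_span_zero hF hv hS' ε α
    have haa : h a a = 0 := h_span_zero hF hv hS α α
    have hTd : Tc M d := T_smul hF (hT _) l
    have hTad : Tc M (a + d) := by
      refine T_add hF hTa hTd (by rw [had]; exact hc₀) ?_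
      rw [hermForm_add_left, hermForm_add_right hF, hermForm_add_right hF, haa, had, hda, hdd]
      linear_combination hc₀'
    have hTbd : Tc M (b - d) := by
      have h1 : b - d = ∑ j ∈ Sᶜ, (α j - ε j) • v j := by
        rw [hb, ← hdsum, ← Finset.sum_sub_distrib]
        refine Finset.sum_congr rfl fun j _ => ?_
        rw [sub_smul]
      rw [h1]
      exact D_closure hF hμ hv hT hR hS' _
    have hne : h (a + d) (b - d) ≠ 0 := by
      rw [hermForm_add_left, hermForm_sub_right hF, hermForm_sub_right hF, hab, had, hdb, hdd]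
      simpa using hc₀
    have hsum2 : a + d + (b - d) = a + b := by abel
    have h5 := T_add hF hTad hTbd hne (by rw [hsum2]; exact hx)
    rwa [hsum2] at h5
  · have := T_add hF hTa hTb hab hx
    exact this

end frame

end Cfsg.Agent.Lib.SU2GenB
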