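import Mathlib
import Cfsg.Agent.Lib.SU2GenB

/-!
# Two generation of `SU_n(q)`: the frame and monomial elements
-/

set_option autoImplicit false
set_option linter.unusedSectionVars false
set_option linter.unusedSimpArgs false
set_option linter.unusedVariables false

namespace Cfsg.Agent.Lib.SU2GenC

open Module Matrix Cfsg Cfsg.Agent.Lib.UnitaryBasic Cfsg.Agent.Lib.UnitarySU
  Cfsg.Agent.Lib.UnitaryConj Cfsg.Agent.Lib.UnitaryE Cfsg.Agent.Lib.SUGen
  Cfsg.Agent.Lib.HermForm Cfsg.Agent.Lib.HermCount Cfsg.Agent.Lib.GUParab Cfsg.Agent.Lib.FFNorm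
  Cfsg.Agent.Lib.SU2GenA Cfsg.Agent.Lib.SU2GenB Cfsg.Agent.Lib.HermFrame

variable {F : Type*} [Field F] [Fintype F] {q N : ℕ}

local notation "h" => hermForm N F q

section mono

variable (hF : Fintype.card F = q ^ 2)
include hF

/-- Monomial elements of `SU`. -/
theorem exists_mono {I : Type*} [Fintype I] [DecidableEq I] (b : Basis I F (Fin N → F)) (π : Equiv.Perm I)
    (c : I → F) (hc : ∀ i j, h (c i • b (π i)) (c j • b (π j)) = h (b i) (b j))
    (hdet : (((Equiv.Perm.sign π : ℤˣ) : ℤ) : F) * ∏ i, c i = 1) :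
    ∃ A : SU N F q, ∀ i, act A (b i) = c i • b (π i) := by
  classical
  let L₀ : (Fin N → F) →ₗ[F] (Fin N → F) := b.constr F (fun i => c i • b (π i))
  have hL₀ : ∀ i, L₀ (b i) = c i • b (π i) := fun i => b.constr_basis F _ i
  -- determinant
  have hd : (LinearMap.toMatrix' L₀).det = 1 := by
    rw [LinearMap.det_toMatrix', ← LinearMap.det_toMatrix b L₀, Matrix.det_apply']
    rw [Finset.sum_eq_single π]
    · rw [← hdet]
      congr 1
      refine Finset.prod_congr rfl fun i _ => ?_
      rw [LinearMap.toMatrix_apply, hL₀]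
      simp
    · intro σ _ hσ
      obtain ⟨i, hi⟩ : ∃ i, σ i ≠ π i := by
        by_contra hcon
        push Not at hcon
        exact hσ (Equiv.ext hcon)
      rw [Finset.prod_eq_zero (Finset.mem_univ i), mul_zero]
      rw [LinearMap.toMatrix_apply, hL₀]
      simp [Finsupp.single_apply, Ne.symm hi]
    · intro h'
      exact absurd (Finset.mem_univ π) h'
  -- the isometry property
  have h2 : ∀ x j, h (L₀ x) (L₀ (b j)) = h x (b j) := by
    intro x j
    have : (hL N F q (L₀ (b j))) ∘ₗ L₀ = hL N F q (b j) := by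
      apply b.ext
      intro i
      simp only [LinearMap.comp_apply, hL_apply]
      rw [hL₀, hL₀]
      exact hc i j
    exact LinearMap.congr_fun this x
  have h3 : ∀ x y, h (L₀ y) (L₀ x) = h y x := by
    intro x y
    have : (hL N F q (L₀ x)) ∘ₗ L₀ = hL N F q x := by
      apply b.ext
      intro j
      simp only [LinearMap.comp_apply, hL_apply]
      rw [← hermForm_conj hF, h2, hermForm_conj hF]
    exact LinearMap.congr_fun this y
  have hact : ∀ x, (LinearMap.toMatrix' L₀) *ᵥ x = L₀ x := fun x => LinearMap.toMatrix'_mulVec L₀ x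
  let A : SU N F q := ⟨⟨LinearMap.toMatrix' L₀, hd⟩, fun u v => by
    show h ((LinearMap.toMatrix' L₀) *ᵥ u) ((LinearMap.toMatrix' L₀) *ᵥ v) = h u v
    rw [hact, hact, h3]⟩
  refine ⟨A, fun i => ?_⟩
  show (LinearMap.toMatrix' L₀) *ᵥ (b i) = _
  rw [hact, hL₀]

end mono

section frame

variable {L : ℕ} [NeZero L]

theorem cast_ne {d e : ℕ} (hd : d < L) (he : e < L) (hne : d ≠ e) : (d : ZMod L) ≠ (e : ZMod L) := by
  intro h'
  rw [ZMod.natCast_eq_natCast_iff'] at h'
  rw [Nat.mod_eq_of_lt hd, Nat.mod_eq_of_lt he] at h'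
  exact hne h'

theorem mm_zero {m : ℕ} (hm : L = 2 * m) : (m : ZMod L) + (m : ZMod L) = 0 := by
  have : ((2 * m : ℕ) : ZMod L) = 0 := by
    rw [← hm]
    exact ZMod.natCast_self L
  rw [← this]
  push_cast
  ring

variable {K' : Type} [Fintype K'] [DecidableEq K']

/-- The model form. -/
def Bz (L m : ℕ) (K' : Type) [Fintype K'] [NeZero L] (q : ℕ) (x y : (ZMod L ⊕ K') → F) : F :=
  ∑ i : ZMod L, x (.inl i) * y (.inl (i + (m : ZMod L))) ^ q + ∑ k, x (.inr k) * y (.inr k) ^ q

variable (hF : Fintype.card F = q ^ 2)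
include hF

theorem Bz_isHerm {m : ℕ} (hm : L = 2 * m) : IsHerm q (Bz (F := F) L m K' q) where
  add_left u u' v := by
    unfold Bz
    simp only [Pi.add_apply, add_mul, Finset.sum_add_distrib]
    ring
  smul_left c u v := by
    unfold Bz
    simp only [Pi.smul_apply, smul_eq_mul, mul_add, Finset.mul_sum, mul_assoc]
  conj u v := by
    unfold Bz
    rw [HermForm.add_pow_q hF, sum_pow_q hF, sum_pow_q hF]
    congr 1
    · rw [← Equiv.sum_comp (Equiv.addRight (m : ZMod L))]
      refine Finset.sum_congr rfl fun i _ => ?_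
      simp only [Equiv.coe_addRight]
      rw [mul_pow, pow_pow_self hF, add_assoc, mm_zero hm, add_zero, mul_comm]
    · refine Finset.sum_congr rfl fun i _ => ?_
      rw [mul_pow, pow_pow_self hF, mul_comm]
  nondeg x hx := by
    have h0 : (0 : F) ^ q = 0 := zero_pow_q hF
    funext i
    rcases i with i | k
    · have h1 := hx (Pi.single (.inl (i + (m : ZMod L))) 1)
      unfold Bz at h1
      simp only [Pi.single_apply, Sum.inl.injEq, reduceCtorEq, if_false, h0, mul_zero,
        Finset.sum_const_zero, add_zero] at h1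
      rw [Finset.sum_eq_single i] at h1
      · simpa using h1
      · intro j _ hj
        have : j + (m : ZMod L) ≠ i + (m : ZMod L) := fun h' => hj (add_right_cancel h')
        simp [this, h0]
      · simp
    · have h1 := hx (Pi.single (.inr k) 1)
      unfold Bz at h1
      simp only [Pi.single_apply, Sum.inr.injEq, reduceCtorEq, if_false, h0, mul_zero,
        Finset.sum_const_zero, zero_add] at h1
      rw [Finset.sum_eq_single k] at h1
      · simpa using h1
      · intro j _ hj
        simp [hj, h0]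
      · simp

/-- The frame. -/
theorem exists_frame {m : ℕ} (hm : L = 2 * m) (hN : N = L + Fintype.card K') :
    ∃ b : Basis (ZMod L ⊕ K') F (Fin N → F),
      (∀ i j, h (b (.inl i)) (b (.inl j)) = if j = i + (m : ZMod L) then 1 else 0) ∧
      (∀ i k, h (b (.inl i)) (b (.inr k)) = 0) ∧
      (∀ k k', h (b (.inr k)) (b (.inr k')) = if k = k' then 1 else 0) := by
  classical
  have hd : finrank F ((ZMod L ⊕ K') → F) = N := by
    rw [Module.finrank_fintype_fun_eq_card, hN]
    simp [ZMod.card]
  obtain ⟨e, he⟩ := exists_equiv hF hd (Bz_isHerm (K' := K') hF hm)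
  have h0 : (0 : F) ^ q = 0 := zero_pow_q hF
  have hb : ∀ a, ((Pi.basisFun F (ZMod L ⊕ K')).map e) a = e (Pi.single a 1) := by
    intro a
    simp
  refine ⟨(Pi.basisFun F (ZMod L ⊕ K')).map e, ?_, ?_, ?_⟩
  · intro i j
    rw [hb, hb, ← he]
    unfold Bz
    simp only [Pi.single_apply, Sum.inl.injEq, reduceCtorEq, if_false, mul_zero, Finset.sum_const_zero,
      add_zero, zero_mul]
    rw [Finset.sum_eq_single i]
    · by_cases hij : j = i + (m : ZMod L)
      · simp [hij]
      · have : i + (m : ZMod L) ≠ j := fun h' => hij h'.symm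
        simp [this, hij, h0]
    · intro b _ hb
      simp [hb]
    · simp
  · intro i k
    rw [hb, hb, ← he]
    unfold Bz
    simp [Pi.single_apply, h0]
  · intro k k'
    rw [hb, hb, ← he]
    unfold Bz
    simp only [Pi.single_apply, Sum.inr.injEq, reduceCtorEq, if_false, mul_zero, Finset.sum_const_zero,
      zero_add, zero_mul]
    rw [Finset.sum_eq_single k]
    · by_cases hkk : k = k'
      · simp [hkk]
      · have : k' ≠ k := fun h' => hkk h'.symm
        simp [this, hkk, h0]
    · intro b _ hb
      simp [hb]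
    · simp

/-- Monomial elements in the frame. -/
theorem exists_mono2 {m : ℕ} (hm : L = 2 * m) (b : Basis (ZMod L ⊕ K') F (Fin N → F))
    (hvv : ∀ i j, h (b (.inl i)) (b (.inl j)) = if j = i + (m : ZMod L) then 1 else 0)
    (hvz : ∀ i k, h (b (.inl i)) (b (.inr k)) = 0)
    (hzz : ∀ k k', h (b (.inr k)) (b (.inr k')) = if k = k' then 1 else 0)
    (s : ZMod L) (c : ZMod L → F) (c' : K' → F) (hc : ∀ i, c i * (c (i + (m : ZMod L))) ^ q = 1)
    (hc' : ∀ k, c' k * (c' k) ^ q = 1)
    (hdet : (((Equiv.Perm.sign (Equiv.addRight s) : ℤˣ) : ℤ) : F) * (∏ i, c i) * ∏ k, c' k = 1) :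
    ∃ A : SU N F q, (∀ i, act A (b (.inl i)) = c i • b (.inl (i + s))) ∧
      ∀ k, act A (b (.inr k)) = c' k • b (.inr k) := by
  classical
  have hzv : ∀ k i, h (b (.inr k)) (b (.inl i)) = 0 := fun k i => conj_zero hF (hvz i k)
  obtain ⟨A, hA⟩ := exists_mono hF b (Equiv.sumCongr (Equiv.addRight s) (Equiv.refl K'))
    (Sum.elim c c') (by
      rintro (i | k) (j | k')
      · simp only [Equiv.sumCongr_apply, Sum.map_inl, Equiv.coe_addRight, Sum.elim_inl]
        rw [hermForm_smul_left, hermForm_smul_right, hvv, hvv]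
        by_cases hj : j = i + (m : ZMod L)
        · have : j + s = i + s + (m : ZMod L) := by rw [hj]; ring
          rw [if_pos this, if_pos hj, hj, mul_one, hc]
        · have : ¬ j + s = i + s + (m : ZMod L) := by
            intro h'
            apply hj
            have h3 : j + s = (i + (m : ZMod L)) + s := by rw [h']; ring
            exact add_right_cancel h3
          rw [if_neg this, if_neg hj]
          ring
      · simp only [Equiv.sumCongr_apply, Sum.map_inl, Sum.map_inr, Equiv.coe_refl, id, Sum.elim_inl,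
          Sum.elim_inr, Equiv.coe_addRight]
        rw [hermForm_smul_left, hermForm_smul_right, hvz, hvz]
        ring
      · simp only [Equiv.sumCongr_apply, Sum.map_inl, Sum.map_inr, Equiv.coe_refl, id, Sum.elim_inl,
          Sum.elim_inr, Equiv.coe_addRight]
        rw [hermForm_smul_left, hermForm_smul_right, hzv, hzv]
        ring
      · simp only [Equiv.sumCongr_apply, Sum.map_inr, Equiv.coe_refl, id, Sum.elim_inr]
        rw [hermForm_smul_left, hermForm_smul_right, hzz]
        by_cases hk : k = k'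
        · subst hk
          simp [hc']
        · simp [hk]) (by
      rw [Equiv.Perm.sign_sumCongr, Fintype.prod_sum_type]
      simp only [Sum.elim_inl, Sum.elim_inr, Equiv.Perm.sign_refl, mul_one]
      rw [← mul_assoc]
      exact hdet)
  exact ⟨A, fun i => by simpa using hA (.inl i), fun k => by simpa using hA (.inr k)⟩

end frame

theorem sign_addRight_one' (k : ℕ) (hk : Odd k) :
    Equiv.Perm.sign (Equiv.addRight (1 : ZMod (k+1))) = -1 := by
  have hrot : Equiv.addRight (1 : ZMod (k+1)) = finRotate (k+1) := by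
    ext i
    exact (finRotate_apply i).symm
  rw [hrot]
  have := sign_finRotate (k + 1)
  rw [Nat.add_sub_cancel, hk.neg_one_pow] at this
  exact this

/-- The sign of the rotation of `ZMod` of even order. -/
theorem sign_addRight_one {L : ℕ} [NeZero L] {m : ℕ} (hm : L = 2 * m) :
    Equiv.Perm.sign (Equiv.addRight (1 : ZMod L)) = -1 := by
  have hL : L ≠ 0 := NeZero.ne L
  obtain ⟨k, rfl⟩ : ∃ k, L = k + 1 := ⟨L - 1, by omega⟩
  have hk : Odd k := by
    rw [Nat.odd_iff]
    omega
  convert sign_addRight_one' k hk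

end Cfsg.Agent.Lib.SU2GenC
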