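import Mathlib

/-!
# Biadditive maps on a field invariant under scaling

A biadditive map `ψ` on a field with `ψ (χ x) (χ y) = ψ x y` for all `χ ≠ 0` vanishes, apart from small fields and,
in characteristic two, the trace-like forms.
-/

set_option autoImplicit false
set_option linter.unusedSectionVars false
set_option linter.unusedVariables false

namespace Cfsg.Agent.Lib.UMField

variable {L A : Type*} [Field L] [AddCommGroup A] {ψ : L → L → A}

section core

variable (hl : ∀ a b c, ψ (a + b) c = ψ a c + ψ b c) (hr : ∀ a b c, ψ a (b + c) = ψ a b + ψ a c)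
  (hinv : ∀ χ : L, χ ≠ 0 → ∀ x y, ψ (χ * x) (χ * y) = ψ x y)

include hr in
lemma right_zero (a : L) : ψ a 0 = 0 := by
  have := hr a 0 0
  rw [add_zero] at this
  simpa using this

include hl in
lemma left_zero (a : L) : ψ 0 a = 0 := by
  have := hl 0 0 a
  rw [add_zero] at this
  simpa using this

include hl in
lemma left_neg (a b : L) : ψ (-a) b = - ψ a b := by
  have := hl (-a) a b
  rw [neg_add_cancel, left_zero hl] at this
  exact eq_neg_of_add_eq_zero_left this.symm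

include hl in
lemma left_sub (a b c : L) : ψ (a - b) c = ψ a c - ψ b c := by
  rw [sub_eq_add_neg, hl, left_neg hl]
  abel

include hinv in
lemma eq_g (x : L) {y : L} (hy : y ≠ 0) : ψ x y = ψ (x / y) 1 := by
  have := hinv y hy (x / y) 1
  rw [mul_one, mul_div_cancel₀ _ hy] at this
  exact this

include hl hr hinv in
/-- The identity `g r - g (r² / v) = g v`. -/
lemma key {r v : L} (hr0 : r ≠ 0) (hv : v ≠ 0) (hrv : r ≠ v) : ψ r 1 - ψ (r * r / v) 1 = ψ v 1 := by
  have hs : v - r ≠ 0 := sub_ne_zero.mpr hrv.symm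
  have e1 := hr 1 (1 / r) (1 / (v - r))
  have hsum : 1 / r + 1 / (v - r) = v / (r * (v - r)) := by
    field_simp
    ring
  have h2 : v / (r * (v - r)) ≠ 0 := div_ne_zero hv (mul_ne_zero hr0 hs)
  rw [hsum, eq_g hinv 1 h2, eq_g hinv 1 (one_div_ne_zero hr0), eq_g hinv 1 (one_div_ne_zero hs)] at e1
  have e2 : (1 : L) / (v / (r * (v - r))) = r - r * r / v := by
    field_simp
  have e3 : (1 : L) / (1 / r) = r := by field_simp
  have e4 : (1 : L) / (1 / (v - r)) = v - r := by field_simp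
  rw [e2, e3, e4, left_sub hl, left_sub hl] at e1
  have e5 : ψ r 1 + (ψ v 1 - ψ r 1) = ψ v 1 := by abel
  rw [e5] at e1
  exact e1

include hl hr hinv in
/-- Odd characteristic. -/
theorem eq_zero_odd (h2 : (2 : L) ≠ 0) (hbig : ∀ r : L, r ≠ 0 → ∃ v : L, v ≠ 0 ∧ v ≠ r ∧ v ≠ -r) (x y : L) : ψ x y = 0 := by
  have h1 : ∀ r : L, r ≠ 0 → ψ r 1 + ψ r 1 = 0 := by
    intro r hr0
    obtain ⟨v, hv, h3, h4⟩ := hbig r hr0
    have e1 := key hl hr hinv hr0 hv h3.symm
    have e2 := key hl hr hinv (neg_ne_zero.mpr hr0) hv (fun e => h4 e.symm)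
    have e3 : -r * -r / v = r * r / v := by ring
    rw [e3, left_neg hl, ← e1] at e2
    have e4 : - ψ r 1 - ψ (r * r / v) 1 = ψ r 1 - ψ (r * r / v) 1 → ψ r 1 + ψ r 1 = 0 := by
      intro e
      have e5 : ψ r 1 + ψ r 1 = (ψ r 1 - ψ (r * r / v) 1) - (- ψ r 1 - ψ (r * r / v) 1) := by abel
      rw [e5, ← e, sub_self]
    exact e4 e2
  by_cases hy : y = 0
  · rw [hy]
    exact right_zero hr x
  rw [eq_g hinv x hy]
  set r := x / y with hrd
  by_cases hr0 : r = 0
  · rw [hr0]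
    exact left_zero hl 1
  have e : r = r / 2 + r / 2 := by
    field_simp
    ring
  rw [e, hl]
  exact h1 _ (div_ne_zero hr0 h2)

section even

variable (h2 : (2 : L) = 0)

include h2 in
lemma neg_eq' (a : L) : -a = a := by
  have : a + a = 0 := by
    have e : a + a = 2 * a := by ring
    rw [e, h2, zero_mul]
  exact neg_eq_of_add_eq_zero_left this

include h2 in
lemma sq_ne_one' {s : L} (hs : s ≠ 1) : s * s ≠ 1 := by
  intro e
  have h : (s - 1) * (s + 1) = 0 := by
    have e2 : (s - 1) * (s + 1) = s * s - 1 := by ring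
    rw [e2, e, sub_self]
  rcases mul_eq_zero.mp h with h | h
  · exact hs (sub_eq_zero.mp h)
  · apply hs
    have e3 := neg_eq' h2 (1 : L)
    rw [← e3]
    exact eq_neg_of_add_eq_zero_left h

include hl h2 in
lemma two_g (a b : L) : ψ a b + ψ a b = 0 := by
  rw [← hl]
  have : a + a = 0 := by
    have e : a + a = 2 * a := by ring
    rw [e, h2, zero_mul]
  rw [this, left_zero hl]

include hl hr hinv h2 in
lemma q_even {x y : L} (hx : x ≠ 0) (hy : y ≠ 0) (hxy : x ≠ y) : ψ (x * y) 1 = ψ (x * x) 1 + ψ (y * y) 1 := by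
  have hne : x * y ≠ x * x := fun e => hxy (mul_left_cancel₀ hx e).symm
  have e := key hl hr hinv (mul_ne_zero hx hy) (mul_ne_zero hx hx) hne
  have e1 : x * y * (x * y) / (x * x) = y * y := by
    field_simp
  rw [e1] at e
  have e2 := two_g hl h2 (y * y) 1
  calc ψ (x * y) 1 = (ψ (x * y) 1 - ψ (y * y) 1) + ψ (y * y) 1 := by abel
    _ = ψ (x * x) 1 + ψ (y * y) 1 := by rw [e]

include hl hr hinv h2 in
/-- Even characteristic, alternating at `1`. -/
theorem eq_zero_even (h11 : ψ 1 1 = 0) (hbig : ∀ x : L, x ≠ 0 → ∃ s : L, s ≠ 0 ∧ s ≠ 1 ∧ s ≠ x ∧ s ≠ 1 / x) (x y : L) : ψ x y = 0 := by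
  have hsq : ∀ x : L, x ≠ 0 → ψ (x * x) 1 = ψ x 1 := by
    intro x hx
    by_cases h1 : x = 1
    · rw [h1, one_mul]
    have e := q_even hl hr hinv h2 hx one_ne_zero h1
    rw [mul_one, one_mul, h11, add_zero] at e
    exact e.symm
  have hmul : ∀ {x y : L}, x ≠ 0 → y ≠ 0 → x ≠ y → ψ (x * y) 1 = ψ x 1 + ψ y 1 := by
    intro x y hx hy hxy
    rw [q_even hl hr hinv h2 hx hy hxy, hsq x hx, hsq y hy]
  have hall : ∀ x : L, x ≠ 0 → ψ x 1 = 0 := by
    intro x hx
    obtain ⟨s, hs0, hs1, hsx, hsi⟩ := hbig x hx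
    have hss : s * s ≠ 1 := sq_ne_one' h2 hs1
    have e1 : x * s ≠ x / s := by
      intro e
      apply hss
      have : x * s * s = x := by
        rw [e]
        field_simp
      exact mul_left_cancel₀ hx (by rw [← mul_assoc, this, mul_one])
    have e2 : x * s * (x / s) = x * x := by
      field_simp
    have h3 := hmul (mul_ne_zero hx hs0) (div_ne_zero hx hs0) e1
    rw [e2, hsq x hx] at h3
    have h4 := hmul hx hs0 hsx.symm
    have e5 : x / s = x * (1 / s) := by ring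
    have hne : x ≠ 1 / s := by
      intro e
      apply hsi
      rw [e]
      field_simp
    have h5 := hmul hx (one_div_ne_zero hs0) hne
    have h6 := hmul hs0 (one_div_ne_zero hs0) (by
      intro e
      apply hss
      nth_rewrite 2 [e]
      field_simp)
    have e7 : s * (1 / s) = 1 := by field_simp
    rw [e7, h11] at h6
    rw [e5, h5, h4] at h3
    have e8 : ψ x 1 + ψ s 1 + (ψ x 1 + ψ (1 / s) 1) = (ψ x 1 + ψ x 1) + (ψ s 1 + ψ (1 / s) 1) := by abel
    rw [e8, ← h6, two_g hl h2, add_zero] at h3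
    exact h3
  by_cases hy : y = 0
  · rw [hy]
    exact right_zero hr x
  rw [eq_g hinv x hy]
  by_cases hr0 : x / y = 0
  · rw [hr0]
    exact left_zero hl 1
  exact hall _ hr0

include hl hr hinv h2 in
/-- Even characteristic, all elements are cubes. -/
theorem eq_zero_even_cube (hcube : ∀ y : L, y ≠ 0 → y ≠ 1 → ∃ x : L, x ≠ 0 ∧ x ≠ 1 ∧ x * x * x = y)
    (hbig : ∃ a b : L, a ≠ 0 ∧ a ≠ 1 ∧ b ≠ 0 ∧ b ≠ 1 ∧ a + b ≠ 0 ∧ a + b ≠ 1) (x y : L) : ψ x y = 0 := by
  have hne : ∀ {x : L}, x ≠ 1 → x * x ≠ 1 := fun hx => sq_ne_one' h2 hx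
  have hsq : ∀ x : L, x ≠ 0 → x ≠ 1 → ψ (x * x) 1 = ψ x 1 + ψ 1 1 := by
    intro x hx h1
    have e := q_even hl hr hinv h2 hx one_ne_zero h1
    rw [mul_one, one_mul] at e
    have e2 := two_g hl h2 (1 : L) (1 : L)
    rw [e]
    calc ψ (x * x) 1 = ψ (x * x) 1 + (ψ 1 1 + ψ 1 1) := by rw [e2, add_zero]
      _ = ψ (x * x) 1 + ψ 1 1 + ψ 1 1 := by abel
  have hcu : ∀ x : L, x ≠ 0 → x ≠ 1 → ψ (x * x * x) 1 = ψ 1 1 := by
    intro x hx h1
    have hxx : x ≠ x * x := by
      intro e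
      apply h1
      have : x * 1 = x * x := by rw [mul_one]; exact e
      exact (mul_left_cancel₀ hx this).symm
    have e := q_even hl hr hinv h2 hx (mul_ne_zero hx hx) hxx
    rw [hsq (x * x) (mul_ne_zero hx hx) (hne h1)] at e
    have e3 : x * (x * x) = x * x * x := by ring
    rw [e3] at e
    rw [e]
    have e4 := two_g hl h2 (x * x) (1 : L)
    calc ψ (x * x) 1 + (ψ (x * x) 1 + ψ 1 1) = (ψ (x * x) 1 + ψ (x * x) 1) + ψ 1 1 := by abel
      _ = ψ 1 1 := by rw [e4, zero_add]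
  have hall1 : ∀ y : L, y ≠ 0 → y ≠ 1 → ψ y 1 = ψ 1 1 := by
    intro y h0 h1
    obtain ⟨x, hx0, hx1, rfl⟩ := hcube y h0 h1
    exact hcu x hx0 hx1
  have h11 : ψ 1 1 = 0 := by
    obtain ⟨a, b, ha0, ha1, hb0, hb1, hs0, hs1⟩ := hbig
    have e := hl a b 1
    rw [hall1 _ hs0 hs1, hall1 _ ha0 ha1, hall1 _ hb0 hb1, two_g hl h2] at e
    exact e
  by_cases hy : y = 0
  · rw [hy]
    exact right_zero hr x
  rw [eq_g hinv x hy]
  by_cases hr0 : x / y = 0
  · rw [hr0]
    exact left_zero hl 1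
  by_cases hr1 : x / y = 1
  · rw [hr1, h11]
  rw [hall1 _ hr0 hr1, h11]

end even

end core

end Cfsg.Agent.Lib.UMField
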