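import Mathlib
import Cfsg.Prelude.Def_KGroupFacts
import Cfsg.Agent.Lib.SchurStem

/-!
# Sections of central extensions

A central extension whose kernel is an `r`-group splits over the whole group as soon as it splits over a subgroup of index
prime to `r`; the reductions from stem extensions to central extensions with `r`-group kernel.
-/

set_option autoImplicit false
set_option linter.unusedSectionVars false
set_option linter.unusedVariables false

namespace Cfsg.Agent.Lib.UMSect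

open Subgroup Cfsg
open scoped commutatorElement

universe u v w

variable {Γ : Type*} {G : Type*} [Group Γ] [Group G]

/-- Central extensions. -/
structure CE (σ : Γ →* G) : Prop where
  surj : Function.Surjective σ
  cen : σ.ker ≤ center Γ

/-- Every central extension with `r`-group kernel splits. -/
def Sect (r : ℕ) (G : Type v) [Group G] : Prop :=
  ∀ (Γ : Type w) [Group Γ] [Finite Γ] (σ : Γ →* G), CE σ → IsPGroup r σ.ker → ∃ s : G →* Γ, ∀ g, σ (s g) = g

lemma CE.of_stem {σ : Γ →* G} (h : IsStemExtension σ) : CE σ := ⟨h.1, h.2.1⟩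

lemma central_comm {σ : Γ →* G} (h : CE σ) {z : Γ} (hz : σ z = 1) (x : Γ) : x * z = z * x :=
  mem_center_iff.mp (h.cen (MonoidHom.mem_ker.mpr hz)) x

section transfer

variable [Finite Γ] {r : ℕ} [hr : Fact r.Prime]

/-- The commutative group structure on a central kernel. -/
@[reducible] def kerComm {σ : Γ →* G} (h : CE σ) : CommGroup σ.ker :=
  { (inferInstance : Group σ.ker) with
    mul_comm := fun a b => Subtype.ext (central_comm h (MonoidHom.mem_ker.mp b.2) a.1) }

/-- Splitting over a subgroup of index prime to `r` gives a section. -/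
theorem exists_section_of_sub {σ : Γ →* G} (h : CE σ) (hZ : IsPGroup r σ.ker) (H₀ : Subgroup Γ)
    (hinj : ∀ x ∈ H₀, σ x = 1 → x = 1) (hidx : Nat.Coprime (H₀.map σ).index r) :
    ∃ s : G →* Γ, ∀ g, σ (s g) = g := by
  classical
  letI := kerComm h
  set Ht : Subgroup Γ := (H₀.map σ).comap σ with hHt
  have hindex : Ht.index = (H₀.map σ).index := index_comap_of_surjective _ h.surj
  haveI : Ht.FiniteIndex := ⟨by
    intro h0
    have := hindex.symm.trans h0
    rw [this] at hidx
    simp at hidx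
    exact hr.out.one_lt.ne' hidx⟩
  -- the projection
  have hex : ∀ x : Ht, ∃ y ∈ H₀, σ y = σ x.1 := fun x => by
    have h1 : σ x.1 ∈ H₀.map σ := x.2
    rw [mem_map] at h1
    exact h1
  choose pr hpr hpr' using hex
  have hun : ∀ {a b : Γ}, a ∈ H₀ → b ∈ H₀ → σ a = σ b → a = b := by
    intro a b ha hb hab
    have := hinj (a * b⁻¹) (H₀.mul_mem ha (H₀.inv_mem hb)) (by rw [map_mul, map_inv, hab, mul_inv_cancel])
    exact mul_inv_eq_one.mp this
  have hmem : ∀ x : Ht, (pr x)⁻¹ * x.1 ∈ σ.ker := fun x => by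
    rw [MonoidHom.mem_ker, map_mul, map_inv, hpr', inv_mul_cancel]
  let ϕ : Ht →* σ.ker :=
    { toFun := fun x => ⟨(pr x)⁻¹ * x.1, hmem x⟩
      map_one' := by
        apply Subtype.ext
        have : pr 1 = 1 := hun (hpr 1) H₀.one_mem (by rw [hpr']; simp)
        simp [this]
      map_mul' := by
        intro x y
        apply Subtype.ext
        have : pr (x * y) = pr x * pr y := hun (hpr _) (H₀.mul_mem (hpr x) (hpr y)) (by
          rw [hpr', map_mul, hpr', hpr']; simp)
        show (pr (x * y))⁻¹ * (x.1 * y.1) = ((pr x)⁻¹ * x.1) * ((pr y)⁻¹ * y.1)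
        rw [this]
        have e := central_comm h (MonoidHom.mem_ker.mp (hmem y)) ((pr x)⁻¹ * x.1)
        have e' : ((pr x)⁻¹ * x.1) * ((pr y)⁻¹ * y.1) = (pr y)⁻¹ * y.1 * ((pr x)⁻¹ * x.1) := e
        have e2 : (pr x * pr y)⁻¹ * (x.1 * y.1) = (pr y)⁻¹ * (((pr x)⁻¹ * x.1) * y.1) := by group
        have e3 := central_comm h (MonoidHom.mem_ker.mp (hmem x)) y.1
        rw [e2, ← e3]
        rw [e']
        group }
  have hϕz : ∀ (z : Γ) (hz : z ∈ Ht), σ z = 1 → ((ϕ ⟨z, hz⟩ : σ.ker) : Γ) = z := by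
    intro z hz hz1
    show (pr ⟨z, hz⟩)⁻¹ * z = z
    have : pr ⟨z, hz⟩ = 1 := hun (hpr _) H₀.one_mem (by rw [hpr']; simpa using hz1)
    simp [this]
  let V : Γ →* σ.ker := MonoidHom.transfer ϕ
  have hker : ∀ z : Γ, σ z = 1 → ((V z : σ.ker) : Γ) = z ^ Ht.index := by
    intro z hz
    have key : ∀ (k : ℕ) (g₀ : Γ), g₀⁻¹ * z ^ k * g₀ ∈ Ht → g₀⁻¹ * z ^ k * g₀ = z ^ k := by
      intro k g₀ _
      have : z ^ k ∈ center Γ := Subgroup.pow_mem _ (h.cen (MonoidHom.mem_ker.mpr hz)) k
      rw [mem_center_iff] at this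
      rw [mul_assoc, ← this g₀]
      group
    have e := MonoidHom.transfer_eq_pow ϕ z key
    show ((MonoidHom.transfer ϕ z : σ.ker) : Γ) = _
    rw [e]
    exact hϕz _ _ (by rw [map_pow, hz, one_pow])
  -- the power map on the kernel is bijective
  haveI : Finite σ.ker := inferInstance
  have hcop : Nat.Coprime (Nat.card σ.ker) Ht.index := by
    obtain ⟨n, hn⟩ := IsPGroup.iff_card.mp hZ
    rw [hn, hindex]
    exact (Nat.Coprime.pow_left n hidx.symm)
  have hbij : Function.Bijective (powMonoidHom Ht.index : σ.ker →* σ.ker) :=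
    powCoprime hcop |>.bijective
  set K : Subgroup Γ := V.ker with hK
  have hK1 : ∀ x ∈ K, σ x = 1 → x = 1 := by
    intro x hx hx1
    have h1 : V x = 1 := hx
    have h2 := hker x hx1
    rw [h1] at h2
    have h3 : (powMonoidHom Ht.index : σ.ker →* σ.ker) ⟨x, MonoidHom.mem_ker.mpr hx1⟩ = 1 := by
      apply Subtype.ext
      exact h2.symm
    have h4 := hbij.1 (h3.trans (map_one _).symm)
    exact congrArg Subtype.val h4
  have hK2 : ∀ g : G, ∃ x ∈ K, σ x = g := by
    intro g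
    obtain ⟨x, rfl⟩ := h.surj g
    obtain ⟨z, hz⟩ := hbij.2 (V x)⁻¹
    refine ⟨x * z.1, ?_, ?_⟩
    · show V (x * z.1) = 1
      rw [map_mul]
      have h1 : V z.1 = (V x)⁻¹ := by
        rw [← hz]
        apply Subtype.ext
        show ((V z.1 : σ.ker) : Γ) = z.1 ^ Ht.index
        exact hker _ (MonoidHom.mem_ker.mp z.2)
      rw [h1, mul_inv_cancel]
    · rw [map_mul, MonoidHom.mem_ker.mp z.2, mul_one]
  let f : K →* G := σ.comp K.subtype
  have hf : Function.Bijective f := by
    constructor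
    · rw [injective_iff_map_eq_one]
      intro x hx
      exact Subtype.ext (hK1 x.1 x.2 hx)
    · intro g
      obtain ⟨x, hx, e⟩ := hK2 g
      exact ⟨⟨x, hx⟩, e⟩
  let e := MulEquiv.ofBijective f hf
  refine ⟨K.subtype.comp e.symm.toMonoidHom, fun g => ?_⟩
  exact e.apply_symm_apply g

end transfer

/-- A section of a stem extension forces the kernel to be trivial. -/
theorem ker_bot_of_section {σ : Γ →* G} (hσ : IsStemExtension σ) {s : G →* Γ} (hs : ∀ g, σ (s g) = g) : σ.ker = ⊥ := by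
  have hc := CE.of_stem hσ
  have hdec : ∀ x : Γ, ∃ z, σ z = 1 ∧ x = s (σ x) * z := by
    intro x
    refine ⟨(s (σ x))⁻¹ * x, ?_, by group⟩
    rw [map_mul, map_inv, hs, inv_mul_cancel]
  have h1 : commutator Γ ≤ s.range := by
    rw [_root_.commutator_def, Subgroup.commutator_le]
    intro a _ b _
    obtain ⟨z, hz, ha⟩ := hdec a
    obtain ⟨w, hw, hb⟩ := hdec b
    refine ⟨⁅σ a, σ b⁆, ?_⟩
    have hzc : z ∈ center Γ := hc.cen (MonoidHom.mem_ker.mpr hz)
    have hwc : w ∈ center Γ := hc.cen (MonoidHom.mem_ker.mpr hw)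
    show s ⁅σ a, σ b⁆ = ⁅a, b⁆
    rw [map_commutatorElement]
    conv_rhs => rw [ha, hb]
    rw [SchurStem.commutatorElement_mul_central_left _ _ _ hzc, SchurStem.commutatorElement_mul_central_right _ _ _ hwc]
  rw [eq_bot_iff]
  intro k hk
  obtain ⟨g, hg⟩ := h1 (hσ.2.2 hk)
  have : g = 1 := by
    rw [← hs g, hg]
    exact hk
  rw [this, map_one] at hg
  exact Subgroup.mem_bot.mpr hg.symm

/-- Stem extensions from sections at every prime. -/
theorem ker_bot_of_sect {G : Type v} [Group G] (H : ∀ r : ℕ, r.Prime → Sect.{v, w} r G)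
    {Γ : Type w} [Group Γ] [Finite Γ] (σ : Γ →* G) (hσ : IsStemExtension σ) : σ.ker = ⊥ := by
  classical
  have hc := CE.of_stem hσ
  by_contra hne
  haveI : Nontrivial σ.ker := by
    rw [Subgroup.nontrivial_iff_ne_bot]
    exact hne
  obtain ⟨r, hr, hrd⟩ := Nat.exists_prime_and_dvd (Finite.one_lt_card (α := σ.ker)).ne'
  haveI : Fact r.Prime := ⟨hr⟩
  set n := Nat.card σ.ker with hn
  have hn0 : n ≠ 0 := Nat.card_pos.ne'
  set v := n.factorization r with hv
  set m := r ^ v with hm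
  have hmd : m ∣ n := Nat.ordProj_dvd n r
  have hrm : r ∣ m := dvd_pow_self r (by
    have := (hr.dvd_iff_one_le_factorization hn0).mp hrd
    omega)
  -- the subgroup of `m`-th powers of the kernel
  let N : Subgroup Γ :=
    { carrier := {x | ∃ z, σ z = 1 ∧ x = z ^ m}
      one_mem' := ⟨1, map_one _, by simp⟩
      mul_mem' := by
        rintro _ _ ⟨a, ha, rfl⟩ ⟨b, hb, rfl⟩
        refine ⟨a * b, by rw [map_mul, ha, hb, one_mul], ?_⟩
        exact ((show Commute a b from (central_comm hc ha b).symm).mul_pow m).symm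
      inv_mem' := by
        rintro _ ⟨a, ha, rfl⟩
        exact ⟨a⁻¹, by rw [map_inv, ha, inv_one], by rw [inv_pow]⟩ }
  have hNker : ∀ x ∈ N, σ x = 1 := by
    rintro _ ⟨a, ha, rfl⟩
    rw [map_pow, ha, one_pow]
  haveI hNn : N.Normal := ⟨by
    rintro _ ⟨a, ha, rfl⟩ g
    refine ⟨a, ha, ?_⟩
    have := central_comm hc (map_pow σ a m ▸ (by rw [ha, one_pow]) : σ (a ^ m) = 1) g
    rw [this]
    group⟩
  let σ₁ : Γ ⧸ N →* G := QuotientGroup.lift N σ hNker
  have hmk : ∀ x : Γ, σ₁ (x : Γ ⧸ N) = σ x := fun x => rfl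
  have hs₁ : Function.Surjective σ₁ := by
    intro g
    obtain ⟨x, rfl⟩ := hc.surj g
    exact ⟨x, rfl⟩
  have hker₁ : ∀ y : Γ ⧸ N, σ₁ y = 1 → ∃ z : Γ, σ z = 1 ∧ (z : Γ ⧸ N) = y := by
    intro y hy
    obtain ⟨x, rfl⟩ := QuotientGroup.mk'_surjective N y
    exact ⟨x, hy, rfl⟩
  have hstem : IsStemExtension σ₁ := by
    refine ⟨hs₁, ?_, ?_⟩
    · intro y hy
      obtain ⟨z, hz, rfl⟩ := hker₁ y (MonoidHom.mem_ker.mp hy)
      rw [mem_center_iff]
      intro g
      obtain ⟨x, rfl⟩ := QuotientGroup.mk'_surjective N g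
      show ((x * z : Γ) : Γ ⧸ N) = ((z * x : Γ) : Γ ⧸ N)
      rw [central_comm hc hz x]
    · intro y hy
      obtain ⟨z, hz, rfl⟩ := hker₁ y (MonoidHom.mem_ker.mp hy)
      have h1 : z ∈ commutator Γ := hσ.2.2 (MonoidHom.mem_ker.mpr hz)
      have h2 : (QuotientGroup.mk' N) z ∈ (commutator Γ).map (QuotientGroup.mk' N) := ⟨z, h1, rfl⟩
      rw [_root_.commutator_def, Subgroup.map_commutator] at h2
      have h3 := Subgroup.commutator_mono (le_top (a := (⊤ : Subgroup Γ).map (QuotientGroup.mk' N)))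
        (le_top (a := (⊤ : Subgroup Γ).map (QuotientGroup.mk' N))) h2
      exact h3
  have hZ₁ : IsPGroup r σ₁.ker := by
    intro y
    obtain ⟨z, hz, e⟩ := hker₁ y.1 (MonoidHom.mem_ker.mp y.2)
    refine ⟨v, ?_⟩
    apply Subtype.ext
    show (y.1) ^ r ^ v = 1
    rw [← e, ← QuotientGroup.mk_pow]
    exact (QuotientGroup.eq_one_iff _).mpr ⟨z, hz, rfl⟩
  obtain ⟨s, hs⟩ := H r hr (Γ ⧸ N) σ₁ ⟨hs₁, hstem.2.1⟩ hZ₁
  have hbot := ker_bot_of_section hstem hs
  -- every element of the kernel is an `m`-th power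
  have hall : ∀ z : Γ, σ z = 1 → ∃ w, σ w = 1 ∧ z = w ^ m := by
    intro z hz
    have h1 : (z : Γ ⧸ N) ∈ σ₁.ker := hz
    rw [hbot, Subgroup.mem_bot] at h1
    exact (QuotientGroup.eq_one_iff _).mp h1
  -- so the power map is injective, but Cauchy gives an element of order `r`
  obtain ⟨x, hx⟩ := exists_prime_orderOf_dvd_card' r hrd
  have hsurj : Function.Surjective (fun z : σ.ker => z ^ m) := by
    intro z
    obtain ⟨w, hw, e⟩ := hall z.1 (MonoidHom.mem_ker.mp z.2)
    exact ⟨⟨w, MonoidHom.mem_ker.mpr hw⟩, Subtype.ext e.symm⟩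
  have hinj := Finite.injective_iff_surjective.mpr hsurj
  have h1 : (x : σ.ker) ^ m = 1 := by
    obtain ⟨c, hc'⟩ := hrm
    rw [hc', pow_mul, ← hx, pow_orderOf_eq_one, one_pow]
  have h2 : x = 1 := hinj (by simpa using h1)
  rw [h2, orderOf_one] at hx
  exact hr.one_lt.ne hx

/-- Groups generated by elements of order prime to `r`. -/
def GenCop (r : ℕ) (X : Type*) [Group X] : Prop :=
  closure {x : X | Nat.Coprime (orderOf x) r} = ⊤

section unique

variable {X : Type*} [Group X] {r : ℕ} [hr : Fact r.Prime] [Finite Γ]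

/-- An element which is central with `r`-power order and coprime order is trivial. -/
lemma eq_one_of_coprime_order {σ : Γ →* G} (hZ : IsPGroup r σ.ker) {z : Γ} (hz : σ z = 1) {m : ℕ} (hm : Nat.Coprime m r)
    (hzm : z ^ m = 1) : z = 1 := by
  obtain ⟨k, hk⟩ := hZ ⟨z, hz⟩
  have h1 : z ^ r ^ k = 1 := congrArg Subtype.val hk
  have h2 : orderOf z ∣ Nat.gcd m (r ^ k) := Nat.dvd_gcd (orderOf_dvd_of_pow_eq_one hzm) (orderOf_dvd_of_pow_eq_one h1)
  rw [Nat.Coprime.pow_right k hm] at h2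
  exact orderOf_eq_one_iff.mp (Nat.dvd_one.mp h2)

/-- Uniqueness of sections over groups generated by `r'`-elements. -/
theorem section_unique {σ : Γ →* G} (h : CE σ) (hZ : IsPGroup r σ.ker) (hX : GenCop r X) {s s' : X →* Γ}
    (hss : ∀ x, σ (s x) = σ (s' x)) : s = s' := by
  have hker : ∀ x, σ ((s' x)⁻¹ * s x) = 1 := fun x => by
    rw [map_mul, map_inv, hss, inv_mul_cancel]
  have hall : ∀ x ∈ closure {x : X | Nat.Coprime (orderOf x) r}, s x = s' x := by
    intro x hx
    induction hx using Subgroup.closure_induction with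
    | mem x hx =>
      have hc : Nat.Coprime (orderOf x) r := hx
      have h1 : ((s' x)⁻¹ * s x) ^ orderOf x = 1 := by
        set c := (s' x)⁻¹ * s x with hc'
        have e : s x = s' x * c := by rw [hc']; group
        have comm : Commute (s' x) c := central_comm h (hker x) (s' x)
        have e2 : (s x) ^ orderOf x = (s' x) ^ orderOf x * c ^ orderOf x := by
          rw [e, comm.mul_pow]
        rw [← map_pow, ← map_pow, pow_orderOf_eq_one, map_one, map_one, one_mul] at e2
        exact e2.symm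
      have h2 := eq_one_of_coprime_order hZ (hker x) hc h1
      exact (inv_mul_eq_one.mp h2).symm
    | one => simp
    | mul a b _ _ ha hb => rw [map_mul, map_mul, ha, hb]
    | inv a _ ha => rw [map_inv, map_inv, ha]
  ext x
  exact hall x (by rw [hX]; trivial)

/-- Lifts of commuting groups commute when one is generated by `r'`-elements. -/
theorem section_commute {Y : Type*} [Group Y] {σ : Γ →* G} (h : CE σ) (hZ : IsPGroup r σ.ker) (hX : GenCop r X)
    (s : X →* Γ) (t : Y →* Γ) (hc : ∀ x y, Commute (σ (s x)) (σ (t y))) (x : X) (y : Y) : Commute (s x) (t y) := by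
  -- conjugating `s` by `t y` gives another lift of the same map
  let s' : X →* Γ :=
    { toFun := fun a => t y * s a * (t y)⁻¹
      map_one' := by simp
      map_mul' := fun a b => by simp only [map_mul]; group }
  have e : s = s' := by
    apply section_unique h hZ hX
    intro a
    show σ (s a) = σ (t y * s a * (t y)⁻¹)
    rw [map_mul, map_mul, map_inv, (hc a y).symm.eq]
    group
  have e1 : s x = t y * s x * (t y)⁻¹ := congrArg (fun f : X →* Γ => f x) e
  show s x * t y = t y * s x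
  calc s x * t y = t y * s x * (t y)⁻¹ * t y := by rw [← e1]
    _ = t y * s x := by group

end unique

section stem

/-- From stem extensions to central extensions. -/
theorem sect_of_stem {G : Type v} [Group G] {r : ℕ} [hr : Fact r.Prime] (hG : GenCop r G) [Finite G]
    (H : ∀ (Γ : Type w) [Group Γ] [Finite Γ] (σ : Γ →* G), IsStemExtension σ → IsPGroup r σ.ker → σ.ker = ⊥) :
    Sect.{v, w} r G := by
  classical
  intro Γ _ _ σ h hZ
  -- the subgroup generated by the `r'`-elements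
  set Γ₁ : Subgroup Γ := closure {x : Γ | Nat.Coprime (orderOf x) r} with hΓ₁
  have hlift : ∀ g : G, Nat.Coprime (orderOf g) r → ∃ x : Γ, Nat.Coprime (orderOf x) r ∧ σ x = g := by
    intro g hg
    obtain ⟨x, rfl⟩ := h.surj g
    set m := orderOf (σ x) with hm
    obtain ⟨c, hc⟩ := hZ ⟨x ^ m, by rw [MonoidHom.mem_ker, map_pow]; exact pow_orderOf_eq_one _⟩
    have hc' : (x ^ m) ^ r ^ c = 1 := congrArg Subtype.val hc
    have hcop : Nat.Coprime m (r ^ c) := Nat.Coprime.pow_right c hg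
    obtain ⟨k, hk1, hk2⟩ : ∃ k, k ≡ 1 [MOD m] ∧ k ≡ 0 [MOD r ^ c] := by
      let z := Nat.chineseRemainder hcop 1 0
      exact ⟨z, z.2.1, z.2.2⟩
    refine ⟨x ^ k, ?_, ?_⟩
    · have h1 : (x ^ k) ^ m = 1 := by
        obtain ⟨d, hd⟩ : r ^ c ∣ k := (Nat.modEq_zero_iff_dvd).mp hk2
        have e : (x ^ k) ^ m = ((x ^ m) ^ r ^ c) ^ d := by
          rw [hd]
          simp only [← pow_mul]
          congr 1
          ring
        rw [e, hc', one_pow]
      exact Nat.Coprime.coprime_dvd_left (orderOf_dvd_of_pow_eq_one h1) hg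
    · rw [map_pow]
      have := (pow_eq_pow_iff_modEq (x := σ x) (n := k) (m := 1)).mpr hk1
      simpa using this
  have hsurj₁ : ∀ g : G, ∃ x ∈ Γ₁, σ x = g := by
    intro g
    have hg : g ∈ closure {x : G | Nat.Coprime (orderOf x) r} := by
      rw [hG]; trivial
    induction hg using Subgroup.closure_induction with
    | mem g hg =>
      obtain ⟨x, hx, e⟩ := hlift g hg
      exact ⟨x, subset_closure hx, e⟩
    | one => exact ⟨1, Γ₁.one_mem, map_one _⟩
    | mul a b _ _ ha hb =>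
      obtain ⟨x, hx, rfl⟩ := ha
      obtain ⟨y, hy, rfl⟩ := hb
      exact ⟨x * y, Γ₁.mul_mem hx hy, map_mul _ _ _⟩
    | inv a _ ha =>
      obtain ⟨x, hx, rfl⟩ := ha
      exact ⟨x⁻¹, Γ₁.inv_mem hx, map_inv _ _⟩
  let σ₁ : Γ₁ →* G := σ.comp Γ₁.subtype
  have hs₁ : Function.Surjective σ₁ := by
    intro g
    obtain ⟨x, hx, e⟩ := hsurj₁ g
    exact ⟨⟨x, hx⟩, e⟩
  have hkz : ∀ z : Γ₁, σ₁ z = 1 → z.1 ∈ center Γ := fun z hz => h.cen (MonoidHom.mem_ker.mpr hz)
  have hcen₁ : σ₁.ker ≤ center Γ₁ := by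
    intro z hz
    rw [mem_center_iff]
    intro y
    apply Subtype.ext
    exact mem_center_iff.mp (hkz z hz) y.1
  have hZ₁ : IsPGroup r σ₁.ker := by
    intro z
    obtain ⟨k, hk⟩ := hZ ⟨z.1.1, z.2⟩
    have h2 : z.1.1 ^ r ^ k = 1 := congrArg Subtype.val hk
    refine ⟨k, Subtype.ext (Subtype.ext ?_)⟩
    simpa using h2
  have hcomm₁ : σ₁.ker ≤ commutator Γ₁ := by
    -- the abelianization of `Γ₁` is generated by `r'`-elements
    intro z hz
    let π : Γ₁ →* Abelianization Γ₁ := Abelianization.of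
    have hπ : ∀ (x : Γ) (hx : x ∈ Γ₁), ∃ m : ℕ, Nat.Coprime m r ∧ (π ⟨x, hx⟩) ^ m = 1 := by
      intro x hx
      induction hx using Subgroup.closure_induction with
      | mem y hy =>
        refine ⟨orderOf y, hy, ?_⟩
        rw [← map_pow]
        have : (⟨y, subset_closure hy⟩ : Γ₁) ^ orderOf y = 1 := by
          apply Subtype.ext
          simp [pow_orderOf_eq_one]
        rw [this, map_one]
      | one => exact ⟨1, Nat.coprime_one_left _, by simp; rfl⟩
      | mul a b ha' hb' ha hb =>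
        obtain ⟨m, hm, e⟩ := ha
        obtain ⟨n, hn, e'⟩ := hb
        refine ⟨m * n, Nat.Coprime.mul_left hm hn, ?_⟩
        have e1 : (⟨a * b, Subgroup.mul_mem _ ha' hb'⟩ : Γ₁) = ⟨a, ha'⟩ * ⟨b, hb'⟩ := rfl
        rw [e1, map_mul, mul_pow]
        rw [pow_mul, e, one_pow, one_mul, mul_comm m n, pow_mul, e', one_pow]
      | inv a ha' ha =>
        obtain ⟨m, hm, e⟩ := ha
        refine ⟨m, hm, ?_⟩
        have e1 : (⟨a⁻¹, Subgroup.inv_mem _ ha'⟩ : Γ₁) = (⟨a, ha'⟩ : Γ₁)⁻¹ := rfl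
        rw [e1, map_inv, inv_pow, e, inv_one]
    obtain ⟨m, hm, e⟩ := hπ z.1 z.2
    obtain ⟨k, hk⟩ := hZ ⟨z.1, hz⟩
    have h2 : z.1 ^ r ^ k = 1 := congrArg Subtype.val hk
    have h3 : z ^ r ^ k = 1 := Subtype.ext (by simpa using h2)
    have h4 : (π z) ^ r ^ k = 1 := by rw [← map_pow, h3, map_one]
    have h5 : orderOf (π z) ∣ Nat.gcd m (r ^ k) :=
      Nat.dvd_gcd (orderOf_dvd_of_pow_eq_one e) (orderOf_dvd_of_pow_eq_one h4)
    rw [Nat.Coprime.pow_right k hm] at h5
    have h6 : π z = 1 := orderOf_eq_one_iff.mp (Nat.dvd_one.mp h5)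
    exact (QuotientGroup.eq_one_iff z).mp h6
  have hbot := H Γ₁ σ₁ ⟨hs₁, hcen₁, hcomm₁⟩ hZ₁
  have hinj : Function.Injective σ₁ := (MonoidHom.ker_eq_bot_iff _).mp hbot
  let e := MulEquiv.ofBijective σ₁ ⟨hinj, hs₁⟩
  refine ⟨Γ₁.subtype.comp e.symm.toMonoidHom, fun g => ?_⟩
  exact e.apply_symm_apply g

end stem

end Cfsg.Agent.Lib.UMSect
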