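import Mathlib
import Cfsg.Agent.Lib.UMSect
import Cfsg.Agent.Lib.Glauberman
import Cfsg.Agent.Lib.OddLocalB

/-!
# Complements in central extensions of groups of Heisenberg type

`R` is a `p`-group with a central kernel of a map `ρ` to an abelian group `W`, on which an element `t` of order prime to `p`
acts without fixed points. In a central extension with `p`-group kernel the commutator of the preimage of `R` with a lift of `t`
covers `R`, and meets the kernel in a subgroup of its derived subgroup.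
-/

set_option autoImplicit false
set_option linter.unusedSectionVars false
set_option linter.unusedVariables false

namespace Cfsg.Agent.Lib.UMHeis

open Subgroup Cfsg.Agent.Lib.UMSect
open scoped commutatorElement

universe u

variable {Γ G W : Type*} [Group Γ] [Group G] [AddCommGroup W]

/-- The coprime action on the abelianization for a normalizing subgroup. -/
theorem inf_cent [Finite Γ] {H K : Subgroup Γ} (hK : K ≤ normalizer (H : Set Γ))
    (hcop : (Nat.card K).Coprime (Nat.card H)) (hH : H ≤ ⁅H, K⁆) : H ⊓ centralizer (K : Set Γ) ≤ ⁅H, H⁆ := by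
  set L := normalizer (H : Set Γ) with hL
  have hHL : H ≤ L := le_normalizer
  let H' : Subgroup L := H.subgroupOf L
  let K' : Subgroup L := K.subgroupOf L
  haveI : H'.Normal := normal_in_normalizer
  have mapH : H'.map L.subtype = H := by
    rw [subgroupOf_map_subtype, inf_eq_left.mpr hHL]
  have mapK : K'.map L.subtype = K := by
    rw [subgroupOf_map_subtype, inf_eq_left.mpr hK]
  have cardH : Nat.card H' = Nat.card H := Nat.card_congr (subgroupOfEquivOfLe hHL).toEquiv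
  have cardK : Nat.card K' = Nat.card K := Nat.card_congr (subgroupOfEquivOfLe hK).toEquiv
  have mapC : ⁅H', K'⁆.map L.subtype = ⁅H, K⁆ := by
    rw [map_commutator, mapH, mapK]
  have mapD : ⁅H', H'⁆.map L.subtype = ⁅H, H⁆ := by
    rw [map_commutator, mapH]
  have hsub : H' ≤ ⁅H', K'⁆ := by
    intro y hy
    have h1 : y.1 ∈ ⁅H, K⁆ := hH hy
    rw [← mapC] at h1
    obtain ⟨u, hu, e⟩ := h1
    have : u = y := Subtype.ext e
    rwa [this] at hu
  have key := OddLocalB.inf_centralizer_le_commutator H' K' (by rw [cardH, cardK]; exact hcop) hsub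
  intro z hz
  obtain ⟨hz1, hz2⟩ := mem_inf.mp hz
  have h3 : (⟨z, hHL hz1⟩ : L) ∈ H' ⊓ centralizer (K' : Set L) := by
    refine mem_inf.mpr ⟨hz1, ?_⟩
    rw [mem_centralizer_iff]
    intro k hk
    apply Subtype.ext
    exact (mem_centralizer_iff.mp hz2) k.1 hk
  have h4 := key h3
  rw [← mapD]
  exact ⟨_, h4, rfl⟩

/-- The data of a group of Heisenberg type. -/
structure HD (p : ℕ) (R : Subgroup G) (ρ : G → W) : Prop where
  pg : IsPGroup p R
  mul : ∀ a ∈ R, ∀ b ∈ R, ρ (a * b) = ρ a + ρ b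
  surj : ∀ w, ∃ a ∈ R, ρ a = w
  cen : ∀ a ∈ R, ρ a = 0 → ∀ b ∈ R, a * b = b * a
  comm : ∀ a ∈ R, ρ a = 0 → a ∈ ⁅R, R⁆

/-- An element acting on `R`. -/
structure TD (R : Subgroup G) (ρ : G → W) (t : G) (φ : W → W) : Prop where
  norm : t ∈ normalizer (R : Set G)
  act : ∀ a ∈ R, ρ (t * a * t⁻¹) = φ (ρ a)

section basic

variable {p : ℕ} {R : Subgroup G} {ρ : G → W} (hD : HD p R ρ)

include hD

lemma HD.rho_one : ρ 1 = 0 := by
  have := hD.mul 1 R.one_mem 1 R.one_mem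
  rw [mul_one] at this
  simpa using this

lemma HD.rho_inv {a : G} (ha : a ∈ R) : ρ a⁻¹ = - ρ a := by
  have := hD.mul a⁻¹ (R.inv_mem ha) a ha
  rw [inv_mul_cancel, hD.rho_one] at this
  exact eq_neg_of_add_eq_zero_left this.symm

lemma HD.rho_comm {a b : G} (ha : a ∈ R) (hb : b ∈ R) : ρ ⁅a, b⁆ = 0 := by
  rw [commutatorElement_def]
  rw [hD.mul _ (R.mul_mem (R.mul_mem ha hb) (R.inv_mem ha)) _ (R.inv_mem hb),
    hD.mul _ (R.mul_mem ha hb) _ (R.inv_mem ha), hD.mul _ ha _ hb, hD.rho_inv ha, hD.rho_inv hb]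
  abel

/-- `R` is its own commutator with `t`. -/
lemma HD.le_comm_zpowers {t : G} {φ : W → W} (ht : TD R ρ t φ) (hφ : ∀ w, ∃ w', φ w' - w' = w) :
    R ≤ ⁅R, zpowers t⁆ := by
  set S := ⁅R, zpowers t⁆ with hS
  have hSR : S ≤ R := Glauberman.commutator_le_of_le_normalizer (by
    rw [zpowers_le]; exact ht.norm)
  have h1 : ∀ w, ∃ b ∈ S, ρ b = w := by
    intro w
    obtain ⟨w', hw'⟩ := hφ w
    obtain ⟨a, ha, e⟩ := hD.surj w'
    refine ⟨⁅a, t⁆⁻¹, S.inv_mem (commutator_mem_commutator ha (mem_zpowers t)), ?_⟩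
    have hta : t * a * t⁻¹ ∈ R := (mem_normalizer_iff.mp ht.norm a).mp ha
    have e1 : ⁅a, t⁆⁻¹ = t * a * t⁻¹ * a⁻¹ := by
      rw [commutatorElement_def]
      group
    rw [e1, hD.mul _ hta _ (R.inv_mem ha), hD.rho_inv ha, ht.act a ha, e, ← hw']
    abel
  have h2 : ⁅R, R⁆ ≤ S := by
    rw [commutator_le]
    intro a ha b hb
    obtain ⟨a', ha', ea⟩ := h1 (ρ a)
    obtain ⟨b', hb', eb⟩ := h1 (ρ b)
    have ca : a' ⁻¹ * a ∈ R := R.mul_mem (R.inv_mem (hSR ha')) ha
    have cb : b' ⁻¹ * b ∈ R := R.mul_mem (R.inv_mem (hSR hb')) hb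
    have za : ρ (a' ⁻¹ * a) = 0 := by
      rw [hD.mul _ (R.inv_mem (hSR ha')) _ ha, hD.rho_inv (hSR ha'), ea]
      abel
    have zb : ρ (b' ⁻¹ * b) = 0 := by
      rw [hD.mul _ (R.inv_mem (hSR hb')) _ hb, hD.rho_inv (hSR hb'), eb]
      abel
    set c := a' ⁻¹ * a with hc
    set d := b' ⁻¹ * b with hd
    have eA : a = a' * c := by rw [hc]; group
    have eB : b = b' * d := by rw [hd]; group
    have c1 := hD.cen c ca za
    have d1 := hD.cen d cb zb
    have e2 : ⁅a, b⁆ = ⁅a', b'⁆ := by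
      rw [eA, eB, commutatorElement_def, commutatorElement_def]
      have e3 : a' * c * (b' * d) * (a' * c)⁻¹ * (b' * d)⁻¹ = a' * (c * b') * d * c⁻¹ * a'⁻¹ * d⁻¹ * b'⁻¹ := by group
      rw [e3, c1 b' (hSR hb')]
      have e4 : a' * (b' * c) * d * c⁻¹ * a'⁻¹ * d⁻¹ * b'⁻¹ = a' * b' * (c * d * c⁻¹) * a'⁻¹ * d⁻¹ * b'⁻¹ := by group
      rw [e4, c1 d cb]
      have e5 : a' * b' * (d * c * c⁻¹) * a'⁻¹ * d⁻¹ * b'⁻¹ = a' * b' * (d * a'⁻¹) * d⁻¹ * b'⁻¹ := by group
      rw [e5, d1 a'⁻¹ (R.inv_mem (hSR ha'))]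
      group
    rw [e2]
    exact S.mul_mem (S.mul_mem (S.mul_mem ha' hb') (S.inv_mem ha')) (S.inv_mem hb')
  intro a ha
  obtain ⟨b, hb, e⟩ := h1 (ρ a)
  have hz : ρ (b⁻¹ * a) = 0 := by
    rw [hD.mul _ (R.inv_mem (hSR hb)) _ ha, hD.rho_inv (hSR hb), e]
    abel
  have : b⁻¹ * a ∈ S := h2 (hD.comm _ (R.mul_mem (R.inv_mem (hSR hb)) ha) hz)
  have e2 : a = b * (b⁻¹ * a) := by group
  rw [e2]
  exact S.mul_mem hb this

end basic

section main

variable {p : ℕ} [hp : Fact p.Prime] {σ : Γ →* G} {R : Subgroup G} {ρ : G → W} {x : Γ}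

/-- The commutator of the preimage of `R` and `x`. -/
def Rh (σ : Γ →* G) (R : Subgroup G) (x : Γ) : Subgroup Γ := ⁅R.comap σ, zpowers x⁆

/-- The preimage is normalized by lifts of the normalizer. -/
lemma comap_norm {y : Γ} (hy : σ y ∈ normalizer (R : Set G)) : y ∈ normalizer ((R.comap σ : Subgroup Γ) : Set Γ) := by
  rw [mem_normalizer_iff]
  intro h
  show h ∈ R.comap σ ↔ y * h * y⁻¹ ∈ R.comap σ
  simp only [mem_comap, map_mul, map_inv]
  exact mem_normalizer_iff.mp hy (σ h)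

lemma Rh_le (hx : σ x ∈ normalizer (R : Set G)) : Rh σ R x ≤ R.comap σ :=
  Glauberman.commutator_le_of_le_normalizer (by rw [zpowers_le]; exact comap_norm hx)

variable [Finite Γ] (hσ : CE σ) (hZ : IsPGroup p σ.ker) (hD : HD p R ρ) (hx : Nat.Coprime (orderOf x) p)

include hZ hD in
lemma comap_pgroup : IsPGroup p (R.comap σ) := by
  intro y
  obtain ⟨a, ha⟩ := hD.pg ⟨σ y.1, y.2⟩
  have h1 : (σ y.1) ^ p ^ a = 1 := congrArg Subtype.val ha
  obtain ⟨b, hb⟩ := hZ ⟨y.1 ^ p ^ a, by rw [MonoidHom.mem_ker, map_pow, h1]⟩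
  have h2 : (y.1 ^ p ^ a) ^ p ^ b = 1 := congrArg Subtype.val hb
  refine ⟨a + b, Subtype.ext ?_⟩
  rw [pow_add, pow_mul]
  simpa using h2

include hZ hD hx in
lemma card_coprime : (Nat.card (zpowers x)).Coprime (Nat.card (R.comap σ : Subgroup Γ)) := by
  rw [Nat.card_zpowers]
  obtain ⟨n, hn⟩ := IsPGroup.iff_card.mp (comap_pgroup hZ hD)
  rw [hn]
  exact Nat.Coprime.pow_right n hx

include hZ hD hx in
lemma Rh_idem (hn : σ x ∈ normalizer (R : Set G)) : ⁅Rh σ R x, zpowers x⁆ = Rh σ R x := by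
  apply Glauberman.commutator_commutator_eq (by rw [zpowers_le]; exact comap_norm hn) (card_coprime hZ hD hx)
  exact Or.inl inferInstance

include hD in
lemma map_Rh (hs : Function.Surjective σ) {φ : W → W} (ht : TD R ρ (σ x) φ) (hφ : ∀ w, ∃ w', φ w' - w' = w) :
    (Rh σ R x).map σ = R := by
  apply le_antisymm
  · rw [map_le_iff_le_comap]
    exact Rh_le ht.norm
  · have := hD.le_comm_zpowers ht hφ
    unfold Rh
    rw [map_commutator, map_comap_eq_self_of_surjective hs, MonoidHom.map_zpowers]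
    exact this

include hσ hZ hD hx in
/-- The kernel part lies in the derived subgroup. -/
lemma ker_le_derived (hn : σ x ∈ normalizer (R : Set G)) {z : Γ} (hz : z ∈ Rh σ R x) (hz1 : σ z = 1) :
    z ∈ ⁅Rh σ R x, Rh σ R x⁆ := by
  have hle := Rh_le (R := R) hn
  have h1 : zpowers x ≤ normalizer ((Rh σ R x : Subgroup Γ) : Set Γ) :=
    Glauberman.le_normalizer_commutator (by rw [zpowers_le]; exact comap_norm hn)
  have h2 : (Nat.card (zpowers x)).Coprime (Nat.card (Rh σ R x)) := by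
    rw [Nat.card_zpowers]
    have : IsPGroup p (Rh σ R x) := (comap_pgroup hZ hD).to_le hle
    obtain ⟨n, hn'⟩ := IsPGroup.iff_card.mp this
    rw [hn']
    exact Nat.Coprime.pow_right n hx
  have h3 : Rh σ R x ≤ ⁅Rh σ R x, zpowers x⁆ := (Rh_idem hZ hD hx hn).ge
  apply inf_cent h1 h2 h3
  refine mem_inf.mpr ⟨hz, ?_⟩
  rw [mem_centralizer_iff]
  intro g _
  exact central_comm hσ hz1 g

/-- Elements of the derived subgroup are killed by `ρ`. -/
lemma rho_derived (hn : σ x ∈ normalizer (R : Set G)) (hD : HD p R ρ) {c : Γ} (hc : c ∈ ⁅Rh σ R x, Rh σ R x⁆) :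
    c ∈ Rh σ R x ∧ ρ (σ c) = 0 := by
  have hle := Rh_le (R := R) hn
  rw [Subgroup.commutator_def] at hc
  induction hc using closure_induction with
  | mem y hy =>
    obtain ⟨a, ha, b, hb, rfl⟩ := hy
    refine ⟨?_, ?_⟩
    · rw [commutatorElement_def]
      exact (Rh σ R x).mul_mem ((Rh σ R x).mul_mem ((Rh σ R x).mul_mem ha hb) ((Rh σ R x).inv_mem ha)) ((Rh σ R x).inv_mem hb)
    · rw [map_commutatorElement]
      exact hD.rho_comm (hle ha) (hle hb)
  | one => exact ⟨one_mem _, by rw [map_one, hD.rho_one]⟩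
  | mul a b _ _ ha hb =>
    refine ⟨mul_mem ha.1 hb.1, ?_⟩
    rw [map_mul, hD.mul _ (hle ha.1) _ (hle hb.1), ha.2, hb.2, add_zero]
  | inv a _ ha =>
    refine ⟨inv_mem ha.1, ?_⟩
    rw [map_inv, hD.rho_inv (hle ha.1), ha.2, neg_zero]

include hσ hZ hD hx in
/-- The elements of `Rh` killed by `ρ` are the derived subgroup. -/
lemma mem_derived {φ : W → W} (ht : TD R ρ (σ x) φ) (hφ : ∀ w, ∃ w', φ w' - w' = w) {r : Γ} (hr : r ∈ Rh σ R x)
    (h0 : ρ (σ r) = 0) : r ∈ ⁅Rh σ R x, Rh σ R x⁆ := by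
  have hle := Rh_le (R := R) ht.norm
  have hmap := map_Rh (R := R) hD hσ.surj ht hφ
  have h1 : σ r ∈ ⁅R, R⁆ := hD.comm _ (hle hr) h0
  rw [← hmap, ← map_commutator] at h1
  obtain ⟨c, hc, e⟩ := h1
  have hcR := (rho_derived ht.norm hD hc).1
  have h2 : r * c⁻¹ ∈ ⁅Rh σ R x, Rh σ R x⁆ :=
    ker_le_derived hσ hZ hD hx ht.norm ((Rh σ R x).mul_mem hr ((Rh σ R x).inv_mem hcR)) (by
      rw [map_mul, map_inv, ← e, mul_inv_cancel])
  have e2 : r = r * c⁻¹ * c := by group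
  rw [e2]
  exact mul_mem h2 hc

/-- Lifts of elements commuting with `σ x` normalize `Rh`. -/
lemma conj_mem_Rh (hσ : CE σ) {y : Γ} (hy : σ y ∈ normalizer (R : Set G)) (hc : Commute (σ y) (σ x)) {r : Γ}
    (hr : r ∈ Rh σ R x) : y * r * y⁻¹ ∈ Rh σ R x := by
  have hz : y * x * y⁻¹ * x⁻¹ ∈ σ.ker := by
    rw [MonoidHom.mem_ker, map_mul, map_mul, map_mul, map_inv, map_inv, hc.eq]
    group
  have hxy : y * x * y⁻¹ = (y * x * y⁻¹ * x⁻¹) * x := by group
  set ζ := y * x * y⁻¹ * x⁻¹ with hζ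
  have hζc : ζ ∈ center Γ := hσ.cen hz
  unfold Rh at hr ⊢
  rw [Subgroup.commutator_def] at hr
  induction hr using closure_induction with
  | mem u hu =>
    obtain ⟨k, hk, a, ha, rfl⟩ := hu
    obtain ⟨i, rfl⟩ := mem_zpowers_iff.mp ha
    have e1 : y * ⁅k, x ^ i⁆ * y⁻¹ = ⁅y * k * y⁻¹, y * x ^ i * y⁻¹⁆ := by
      rw [commutatorElement_def, commutatorElement_def]
      group
    have e2 : y * x ^ i * y⁻¹ = x ^ i * ζ ^ i := by
      have e3 : y * x ^ i * y⁻¹ = (y * x * y⁻¹) ^ i := by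
        rw [conj_zpow]
      rw [e3, hxy, (show Commute ζ x from (mem_center_iff.mp hζc x).symm).mul_zpow]
      exact (show Commute (ζ ^ i) (x ^ i) from (mem_center_iff.mp (zpow_mem hζc i) _).symm).eq
    rw [e1, e2, SchurStem.commutatorElement_mul_central_right _ _ _ (zpow_mem hζc i)]
    apply commutator_mem_commutator _ (zpow_mem_zpowers x i)
    exact (mem_normalizer_iff.mp (comap_norm hy) k).mp hk
  | one => simp
  | mul a b _ _ ha hb =>
    have : y * (a * b) * y⁻¹ = (y * a * y⁻¹) * (y * b * y⁻¹) := by group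
    rw [this]
    exact mul_mem ha hb
  | inv a _ ha =>
    have : y * a⁻¹ * y⁻¹ = (y * a * y⁻¹)⁻¹ := by group
    rw [this]
    exact inv_mem ha

end main

end Cfsg.Agent.Lib.UMHeis
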