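import Mathlib
import Cfsg.Agent.Lib.UMHeis

/-!
# Complements in central extensions of groups of Heisenberg type, continued

The derived subgroup of the complement candidate is central, its commutator map, and injectivity given that the only alternating
invariant biadditive form on `W` is trivial.
-/

set_option autoImplicit false
set_option linter.unusedSectionVars false
set_option linter.unusedVariables false
set_option linter.style.haveILetI false

namespace Cfsg.Agent.Lib.UMHeis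

open Subgroup Cfsg.Agent.Lib.UMSect
open scoped commutatorElement

universe u

variable {Γ : Type u} {G W : Type*} [Group Γ] [Group G] [AddCommGroup W]

lemma comm_mul_left_c {a b c : Γ} (h : ⁅b, c⁆ ∈ center Γ) : ⁅a * b, c⁆ = ⁅a, c⁆ * ⁅b, c⁆ := by
  have h1 := mem_center_iff.mp h
  have e1 : ⁅a * b, c⁆ = a * ⁅b, c⁆ * (c * a⁻¹ * c⁻¹) := by
    simp only [commutatorElement_def]
    group
  rw [e1, h1 a]
  have e2 : ⁅b, c⁆ * a * (c * a⁻¹ * c⁻¹) = ⁅b, c⁆ * ⁅a, c⁆ := by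
    simp only [commutatorElement_def]
    group
  rw [e2]
  exact (h1 _).symm

/-- The torus data. -/
structure TF (R : Subgroup G) (ρ : G → W) (t : G) (T : Subgroup G) (φ : G → W → W) : Prop where
  norm : ∀ s ∈ T, s ∈ normalizer (R : Set G)
  act : ∀ s ∈ T, ∀ a ∈ R, ρ (s * a * s⁻¹) = φ s (ρ a)
  comm : ∀ s ∈ T, Commute s t

section central

variable {p : ℕ} [hp : Fact p.Prime] {σ : Γ →* G} {R : Subgroup G} {ρ : G → W} {x : Γ} [Finite Γ]
  (hσ : CE σ) (hZ : IsPGroup p σ.ker) (hD : HD p R ρ) (hx : Nat.Coprime (orderOf x) p)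
  {φ₀ : W → W} (ht : TD R ρ (σ x) φ₀) (hφ : ∀ w, ∃ w', φ₀ w' - w' = w)

include hσ hD ht hφ in
lemma exists_lift_rho (w : W) : ∃ r ∈ Rh σ R x, ρ (σ r) = w := by
  obtain ⟨a, ha, e⟩ := hD.surj w
  rw [← map_Rh hD hσ.surj ht hφ] at ha
  obtain ⟨r, hr, rfl⟩ := ha
  exact ⟨r, hr, e⟩

include hσ hZ hD hx ht hφ in
/-- The derived subgroup of `Rh` is central in `Rh`. -/
theorem derived_central {T : Subgroup G} {φ : G → W → W} (hT : TF R ρ (σ x) T φ)
    (hgen : AddSubgroup.closure {w | ∃ s ∈ T, (∀ a ∈ R, ρ a = 0 → s * a * s⁻¹ = a) ∧ ∃ w', w = φ s w' - w'} = ⊤)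
    {c : Γ} (hc : c ∈ ⁅Rh σ R x, Rh σ R x⁆) {r : Γ} (hr : r ∈ Rh σ R x) : r * c = c * r := by
  set H := Rh σ R x with hH
  have hle : H ≤ R.comap σ := Rh_le ht.norm
  obtain ⟨hcH, hc0⟩ := rho_derived ht.norm hD hc
  have hcR : σ c ∈ R := hle hcH
  have hmem : ∀ {r : Γ}, r ∈ H → σ ⁅r, c⁆ = 1 := by
    intro r hr
    rw [map_commutatorElement, commutatorElement_eq_one_iff_mul_comm]
    exact (hD.cen _ hcR hc0 _ (hle hr)).symm
  have hcen : ∀ {r : Γ}, r ∈ H → ⁅r, c⁆ ∈ center Γ := fun hr => hσ.cen (MonoidHom.mem_ker.mpr (hmem hr))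
  have hmul : ∀ {a b : Γ}, b ∈ H → ⁅a * b, c⁆ = ⁅a, c⁆ * ⁅b, c⁆ := fun hb => comm_mul_left_c (hcen hb)
  have hinv : ∀ {a : Γ}, a ∈ H → ⁅a⁻¹, c⁆ = ⁅a, c⁆⁻¹ := by
    intro a ha
    have := hmul (a := a⁻¹) ha
    rw [inv_mul_cancel, commutatorElement_one_left] at this
    exact eq_inv_of_mul_eq_one_left this.symm
  have hkill : ∀ {u : Γ}, u ∈ ⁅H, H⁆ → ⁅u, c⁆ = 1 := by
    intro u hu
    rw [Subgroup.commutator_def] at hu
    have : u ∈ H ∧ ⁅u, c⁆ = 1 := by
      induction hu using closure_induction with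
      | mem y hy =>
        obtain ⟨a, ha, b, hb, rfl⟩ := hy
        have hab : a * b * a⁻¹ ∈ H := H.mul_mem (H.mul_mem ha hb) (H.inv_mem ha)
        refine ⟨by rw [commutatorElement_def]; exact H.mul_mem hab (H.inv_mem hb), ?_⟩
        have e0 : ⁅a, b⁆ = a * b * a⁻¹ * b⁻¹ := commutatorElement_def a b
        rw [e0, hmul (H.inv_mem hb), hmul (H.inv_mem ha), hmul hb, hinv ha, hinv hb]
        have e1 := mem_center_iff.mp (hcen ha) ⁅b, c⁆
        rw [← e1]
        group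
      | one => exact ⟨H.one_mem, commutatorElement_one_left _⟩
      | mul a b _ _ ha hb =>
        refine ⟨H.mul_mem ha.1 hb.1, ?_⟩
        rw [hmul hb.1, ha.2, hb.2, one_mul]
      | inv a _ ha =>
        refine ⟨H.inv_mem ha.1, ?_⟩
        rw [hinv ha.1, ha.2, inv_one]
    exact this.2
  have hdep : ∀ {r r' : Γ}, r ∈ H → r' ∈ H → ρ (σ r) = ρ (σ r') → ⁅r, c⁆ = ⁅r', c⁆ := by
    intro r r' hr hr' e
    have h0 : ρ (σ (r * r'⁻¹)) = 0 := by
      rw [map_mul, map_inv, hD.mul _ (hle hr) _ (R.inv_mem (hle hr')), hD.rho_inv (hle hr'), e]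
      abel
    have h1 := mem_derived hσ hZ hD hx ht hφ (H.mul_mem hr (H.inv_mem hr')) h0
    have e2 : r = r * r'⁻¹ * r' := by group
    conv_lhs => rw [e2]
    rw [hmul hr', hkill h1, one_mul]
  have hex := exists_lift_rho hσ hD ht hφ
  have hall : ∀ w ∈ AddSubgroup.closure {w | ∃ s ∈ T, (∀ a ∈ R, ρ a = 0 → s * a * s⁻¹ = a) ∧ ∃ w', w = φ s w' - w'},
      ∀ r ∈ H, ρ (σ r) = w → ⁅r, c⁆ = 1 := by
    intro w hw
    induction hw using AddSubgroup.closure_induction with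
    | mem w hw =>
      obtain ⟨s, hs, htriv, w', rfl⟩ := hw
      intro r hr e
      obtain ⟨r', hr', e'⟩ := hex w'
      obtain ⟨y, rfl⟩ := hσ.surj s
      have hconj : y * r' * y⁻¹ ∈ H := conj_mem_Rh hσ (hT.norm _ hs) (hT.comm _ hs) hr'
      have hrho : ρ (σ (y * r' * y⁻¹)) = φ (σ y) w' := by
        have := hT.act _ hs _ (hle hr')
        rw [e'] at this
        rw [← this]
        simp only [map_mul, map_inv]
      -- the conjugate of `c`
      have hcc : σ (y⁻¹ * c * y) = σ c := by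
        have h1 := htriv _ hcR hc0
        simp only [map_mul, map_inv]
        calc (σ y)⁻¹ * σ c * σ y = (σ y)⁻¹ * (σ y * σ c * (σ y)⁻¹) * σ y := by rw [h1]
          _ = σ c := by group
      set ζ := c⁻¹ * (y⁻¹ * c * y) with hζ
      have hζ1 : σ ζ = 1 := by
        rw [hζ, map_mul, hcc, map_inv, inv_mul_cancel]
      have hζc : ζ ∈ center Γ := hσ.cen (MonoidHom.mem_ker.mpr hζ1)
      have e1 : ⁅y * r' * y⁻¹, c⁆ = ⁅r', c⁆ := by
        have e2 : ⁅y * r' * y⁻¹, c⁆ = y * ⁅r', y⁻¹ * c * y⁆ * y⁻¹ := by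
          simp only [commutatorElement_def]
          group
        have e3 : y⁻¹ * c * y = c * ζ := by rw [hζ]; group
        rw [e2, e3, SchurStem.commutatorElement_mul_central_right _ _ _ hζc]
        rw [mem_center_iff.mp (hcen hr') y]
        group
      have h2 : ρ (σ r) = ρ (σ (y * r' * y⁻¹ * r'⁻¹)) := by
        rw [e, map_mul, hD.mul _ (hle hconj) _ (by rw [map_inv]; exact R.inv_mem (hle hr')), hrho, map_inv,
          hD.rho_inv (hle hr'), e']
        abel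
      rw [hdep hr (H.mul_mem hconj (H.inv_mem hr')) h2, hmul (H.inv_mem hr'), hinv hr', e1, mul_inv_cancel]
    | zero =>
      intro r hr e
      exact hkill (mem_derived hσ hZ hD hx ht hφ hr e)
    | add a b _ _ ha hb =>
      intro r hr e
      obtain ⟨r₁, h₁, e₁⟩ := hex a
      obtain ⟨r₂, h₂, e₂⟩ := hex b
      have h3 : ρ (σ r) = ρ (σ (r₁ * r₂)) := by
        rw [e, map_mul, hD.mul _ (hle h₁) _ (hle h₂), e₁, e₂]
      rw [hdep hr (H.mul_mem h₁ h₂) h3, hmul h₂, ha _ h₁ e₁, hb _ h₂ e₂, one_mul]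
    | neg a _ ha =>
      intro r hr e
      obtain ⟨r₁, h₁, e₁⟩ := hex a
      have h3 : ρ (σ r) = ρ (σ r₁⁻¹) := by
        rw [e, map_inv, hD.rho_inv (hle h₁), e₁]
      rw [hdep hr (H.inv_mem h₁) h3, hinv h₁, ha _ h₁ e₁, inv_one]
  have := hall (ρ (σ r)) (by rw [hgen]; trivial) r hr rfl
  exact commutatorElement_eq_one_iff_mul_comm.mp this

end central

section Om

/-- A lift to `Rh` of an element of `W`. -/
noncomputable def ell (σ : Γ →* G) (R : Subgroup G) (ρ : G → W) (x : Γ) (w : W) : Γ :=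
  by classical exact if h : ∃ r ∈ Rh σ R x, ρ (σ r) = w then h.choose else 1

/-- The commutator map. -/
noncomputable def Om (σ : Γ →* G) (R : Subgroup G) (ρ : G → W) (x : Γ) (a b : W) : Γ :=
  ⁅ell σ R ρ x a, ell σ R ρ x b⁆

variable {p : ℕ} [hp : Fact p.Prime] {σ : Γ →* G} {R : Subgroup G} {ρ : G → W} {x : Γ} [Finite Γ]
  (hσ : CE σ) (hZ : IsPGroup p σ.ker) (hD : HD p R ρ) (hx : Nat.Coprime (orderOf x) p)
  {φ₀ : W → W} (ht : TD R ρ (σ x) φ₀) (hφ : ∀ w, ∃ w', φ₀ w' - w' = w)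
  (hcen : ∀ c ∈ ⁅Rh σ R x, Rh σ R x⁆, ∀ r ∈ Rh σ R x, r * c = c * r)

include hσ hD ht hφ in
lemma ell_spec (w : W) : ell σ R ρ x w ∈ Rh σ R x ∧ ρ (σ (ell σ R ρ x w)) = w := by
  classical
  have h := exists_lift_rho hσ hD ht hφ w
  unfold ell
  rw [dif_pos h]
  exact h.choose_spec

include hσ hZ hD hx ht hφ hcen in
lemma Om_eq {r₁ r₂ : Γ} (h₁ : r₁ ∈ Rh σ R x) (h₂ : r₂ ∈ Rh σ R x) :
    ⁅r₁, r₂⁆ = Om σ R ρ x (ρ (σ r₁)) (ρ (σ r₂)) := by
  set H := Rh σ R x with hH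
  have hle : H ≤ R.comap σ := Rh_le ht.norm
  obtain ⟨a, ea⟩ := ell_spec hσ hD ht hφ (ρ (σ r₁))
  obtain ⟨b, eb⟩ := ell_spec hσ hD ht hφ (ρ (σ r₂))
  unfold Om
  set A := ell σ R ρ x (ρ (σ r₁)) with hA
  set B := ell σ R ρ x (ρ (σ r₂)) with hB
  have hc : A⁻¹ * r₁ ∈ ⁅H, H⁆ := by
    apply mem_derived hσ hZ hD hx ht hφ (H.mul_mem (H.inv_mem a) h₁)
    rw [map_mul, map_inv, hD.mul _ (R.inv_mem (hle a)) _ (hle h₁), hD.rho_inv (hle a), ea]
    abel
  have hd : B⁻¹ * r₂ ∈ ⁅H, H⁆ := by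
    apply mem_derived hσ hZ hD hx ht hφ (H.mul_mem (H.inv_mem b) h₂)
    rw [map_mul, map_inv, hD.mul _ (R.inv_mem (hle b)) _ (hle h₂), hD.rho_inv (hle b), eb]
    abel
  set c := A⁻¹ * r₁ with hcd
  set d := B⁻¹ * r₂ with hdd
  have e1 : r₁ = A * c := by rw [hcd]; group
  have e2 : r₂ = B * d := by rw [hdd]; group
  have c1 := hcen _ hc _ b
  have d1 := hcen _ hd _ (H.inv_mem a)
  have cd := hcen _ hc _ (rho_derived ht.norm hD hd).1
  rw [e1, e2]
  simp only [commutatorElement_def]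
  have e3 : A * c * (B * d) * (A * c)⁻¹ * (B * d)⁻¹ = A * (c * B) * d * c⁻¹ * A⁻¹ * d⁻¹ * B⁻¹ := by group
  rw [e3, ← c1]
  have e4 : A * (B * c) * d * c⁻¹ * A⁻¹ * d⁻¹ * B⁻¹ = A * B * (c * d) * c⁻¹ * (A⁻¹ * d⁻¹) * B⁻¹ := by group
  rw [e4, ← cd]
  have e5 : A * B * (d * c) * c⁻¹ * (A⁻¹ * d⁻¹) * B⁻¹ = A * B * (d * A⁻¹) * d⁻¹ * B⁻¹ := by group
  rw [e5, ← d1]
  group

include hσ hD ht hφ in
lemma Om_mem_derived (a b : W) : Om σ R ρ x a b ∈ ⁅Rh σ R x, Rh σ R x⁆ :=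
  commutator_mem_commutator (ell_spec hσ hD ht hφ a).1 (ell_spec hσ hD ht hφ b).1

lemma Om_self (a : W) : Om σ R ρ x a a = 1 := by
  unfold Om
  exact commutatorElement_self _

include hσ hZ hD hx ht hφ hcen in
lemma Om_add_left (a b c : W) : Om σ R ρ x (a + b) c = Om σ R ρ x a c * Om σ R ρ x b c := by
  set H := Rh σ R x with hH
  have hle : H ≤ R.comap σ := Rh_le ht.norm
  obtain ⟨ha, ea⟩ := ell_spec hσ hD ht hφ a
  obtain ⟨hb, eb⟩ := ell_spec hσ hD ht hφ b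
  obtain ⟨hc, ec⟩ := ell_spec hσ hD ht hφ c
  set A := ell σ R ρ x a with hA
  set B := ell σ R ρ x b with hB
  set C := ell σ R ρ x c with hC
  have e := Om_eq hσ hZ hD hx ht hφ hcen (H.mul_mem ha hb) hc
  rw [map_mul, hD.mul _ (hle ha) _ (hle hb), ea, eb, ec] at e
  rw [← e]
  show ⁅A * B, C⁆ = ⁅A, C⁆ * ⁅B, C⁆
  have h1 : ⁅B, C⁆ ∈ ⁅H, H⁆ := commutator_mem_commutator hb hc
  have h2 : ⁅A, C⁆ ∈ ⁅H, H⁆ := commutator_mem_commutator ha hc
  have c1 := hcen _ h1 _ ha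
  have c2 := hcen _ h1 _ (rho_derived ht.norm hD h2).1
  have e1 : ⁅A * B, C⁆ = A * ⁅B, C⁆ * (C * A⁻¹ * C⁻¹) := by
    simp only [commutatorElement_def]
    group
  rw [e1, c1]
  have e2 : ⁅B, C⁆ * A * (C * A⁻¹ * C⁻¹) = ⁅B, C⁆ * ⁅A, C⁆ := by
    simp only [commutatorElement_def]
    group
  rw [e2, c2]

lemma Om_swap (a b : W) : Om σ R ρ x b a = (Om σ R ρ x a b)⁻¹ := by
  unfold Om
  rw [commutatorElement_inv]

include hσ hZ hD hx ht hφ hcen in
lemma Om_add_right (a b c : W) : Om σ R ρ x c (a + b) = Om σ R ρ x c a * Om σ R ρ x c b := by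
  rw [Om_swap (a + b) c, Om_add_left hσ hZ hD hx ht hφ hcen, mul_inv_rev, ← Om_swap, ← Om_swap]
  have h1 := Om_mem_derived (x := x) hσ hD ht hφ c a
  have h2 := Om_mem_derived (x := x) hσ hD ht hφ c b
  exact (hcen _ h2 _ (rho_derived ht.norm hD h1).1).symm

include hσ hZ hD hx ht hφ hcen in
/-- Conjugation of the commutator map. -/
lemma Om_conj {y : Γ} {ψ : W → W} (hy : ∀ r ∈ Rh σ R x, y * r * y⁻¹ ∈ Rh σ R x)
    (hψ : ∀ r ∈ Rh σ R x, ρ (σ (y * r * y⁻¹)) = ψ (ρ (σ r))) (a b : W) :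
    y * Om σ R ρ x a b * y⁻¹ = Om σ R ρ x (ψ a) (ψ b) := by
  obtain ⟨ha, ea⟩ := ell_spec hσ hD ht hφ a
  obtain ⟨hb, eb⟩ := ell_spec hσ hD ht hφ b
  have e := Om_eq hσ hZ hD hx ht hφ hcen (hy _ ha) (hy _ hb)
  rw [hψ _ ha, hψ _ hb, ea, eb] at e
  rw [← e]
  unfold Om
  simp only [commutatorElement_def]
  group

include hσ hD ht hφ in
lemma derived_le_closure_Om {P : Γ → Prop} (h1 : P 1) (hmul : ∀ a b, P a → P b → P (a * b)) (hinv : ∀ a, P a → P a⁻¹)
    (hOm : ∀ a b, P (Om σ R ρ x a b))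
    (hcom : ∀ {r₁ r₂ : Γ}, r₁ ∈ Rh σ R x → r₂ ∈ Rh σ R x → ⁅r₁, r₂⁆ = Om σ R ρ x (ρ (σ r₁)) (ρ (σ r₂))) {c : Γ}
    (hc : c ∈ ⁅Rh σ R x, Rh σ R x⁆) : P c := by
  rw [Subgroup.commutator_def] at hc
  induction hc using closure_induction with
  | mem y hy =>
    obtain ⟨a, ha, b, hb, rfl⟩ := hy
    rw [hcom ha hb]
    exact hOm _ _
  | one => exact h1
  | mul a b _ _ ha hb => exact hmul _ _ ha hb
  | inv a _ ha => exact hinv _ ha

end Om

/-- The only invariant alternating biadditive forms are trivial. -/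
def FormOK (W : Type*) [AddCommGroup W] (Φ : Set (W → W)) : Prop :=
  ∀ (A : Type u) [AddCommGroup A] (f : W → W → A), (∀ a b c, f (a + b) c = f a c + f b c) →
    (∀ a b c, f a (b + c) = f a b + f a c) → (∀ a, f a a = 0) → (∀ φ ∈ Φ, ∀ a b, f (φ a) (φ b) = f a b) →
    ∀ a b, f a b = 0

section inj

variable {p : ℕ} [hp : Fact p.Prime] {σ : Γ →* G} {R : Subgroup G} {ρ : G → W} {x : Γ} [Finite Γ]
  (hσ : CE σ) (hZ : IsPGroup p σ.ker) (hD : HD p R ρ) (hx : Nat.Coprime (orderOf x) p)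
  {φ₀ : W → W} (ht : TD R ρ (σ x) φ₀) (hφ : ∀ w, ∃ w', φ₀ w' - w' = w)
  (hcen : ∀ c ∈ ⁅Rh σ R x, Rh σ R x⁆, ∀ r ∈ Rh σ R x, r * c = c * r)

include hσ hZ hD hx ht hφ hcen in
/-- The case of a derived subgroup of order at most two. -/
theorem inj_of_two {c₀ : Γ} (hc₀ : σ c₀ ≠ 1) (hc₂ : c₀ * c₀ = 1) (hOm : ∀ a b, Om σ R ρ x a b = 1 ∨ Om σ R ρ x a b = c₀)
    {z : Γ} (hz : z ∈ Rh σ R x) (hz1 : σ z = 1) : z = 1 := by
  have h1 := ker_le_derived hσ hZ hD hx ht.norm hz hz1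
  have h2 : z = 1 ∨ z = c₀ := by
    apply derived_le_closure_Om hσ hD ht hφ (P := fun z => z = 1 ∨ z = c₀) (Or.inl rfl) _ _ hOm
      (fun h₁ h₂ => Om_eq hσ hZ hD hx ht hφ hcen h₁ h₂) h1
    · rintro a b (rfl | rfl) (rfl | rfl)
      · simp
      · simp
      · simp
      · exact Or.inl hc₂
    · rintro a (rfl | rfl)
      · simp
      · right
        exact inv_eq_of_mul_eq_one_left hc₂
  rcases h2 with h2 | h2
  · exact h2
  · exact absurd (h2 ▸ hz1) hc₀

include hσ hZ hD hx ht hφ hcen in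
/-- The general case: injectivity from the triviality of invariant forms. -/
theorem inj_of_form {T : Subgroup G} {φ : G → W → W} (hT : TF R ρ (σ x) T φ) (hTp : Nat.Coprime (Nat.card T) p)
    (hform : FormOK.{u} W ((fun s => φ s) '' (T : Set G))) {z : Γ} (hz : z ∈ Rh σ R x) (hz1 : σ z = 1) : z = 1 := by
  classical
  haveI : Finite G := Finite.of_surjective σ hσ.surj
  haveI : Fintype T := Fintype.ofFinite T
  set H := Rh σ R x with hH
  set C := ⁅H, H⁆ with hC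
  have hle : H ≤ R.comap σ := Rh_le ht.norm
  have hCH : C ≤ H := fun c hc => (rho_derived ht.norm hD hc).1
  letI CC : CommGroup C :=
    { (inferInstance : Group C) with
      mul_comm := fun a b => Subtype.ext (hcen _ b.2 _ (hCH a.2)) }
  -- the lifts
  let L : G → Γ := Function.surjInv hσ.surj
  have hL : ∀ s, σ (L s) = s := Function.surjInv_eq hσ.surj
  have hLH : ∀ s ∈ T, ∀ r ∈ H, L s * r * (L s)⁻¹ ∈ H := by
    intro s hs r hr
    exact conj_mem_Rh hσ (by rw [hL]; exact hT.norm s hs) (by rw [hL]; exact hT.comm s hs) hr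
  have hLC : ∀ s ∈ T, ∀ c ∈ C, L s * c * (L s)⁻¹ ∈ C := by
    intro s hs c hc
    rw [hC, Subgroup.commutator_def] at hc
    induction hc using closure_induction with
    | mem y hy =>
      obtain ⟨a, ha, b, hb, rfl⟩ := hy
      have e : L s * ⁅a, b⁆ * (L s)⁻¹ = ⁅L s * a * (L s)⁻¹, L s * b * (L s)⁻¹⁆ := by
        simp only [commutatorElement_def]
        group
      rw [e]
      exact commutator_mem_commutator (hLH s hs a ha) (hLH s hs b hb)
    | one => simp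
    | mul a b _ _ ha hb =>
      have : L s * (a * b) * (L s)⁻¹ = (L s * a * (L s)⁻¹) * (L s * b * (L s)⁻¹) := by group
      rw [this]
      exact mul_mem ha hb
    | inv a _ ha =>
      have : L s * a⁻¹ * (L s)⁻¹ = (L s * a * (L s)⁻¹)⁻¹ := by group
      rw [this]
      exact inv_mem ha
  let cj : T → (C →* C) := fun s =>
    { toFun := fun c => ⟨L s.1 * c.1 * (L s.1)⁻¹, hLC s.1 s.2 c.1 c.2⟩
      map_one' := by
        apply Subtype.ext
        simp
      map_mul' := by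
        intro a b
        apply Subtype.ext
        show L s.1 * (a.1 * b.1) * (L s.1)⁻¹ = (L s.1 * a.1 * (L s.1)⁻¹) * (L s.1 * b.1 * (L s.1)⁻¹)
        group }
  have hcj : ∀ (s : T) (c : C), ((cj s c : C) : Γ) = L s.1 * c.1 * (L s.1)⁻¹ := fun _ _ => rfl
  have hcomp : ∀ (s s₀ : T) (c : C), cj s (cj s₀ c) = cj (s * s₀) c := by
    intro s s₀ c
    apply Subtype.ext
    rw [hcj, hcj, hcj]
    have e1 : σ ((L s.1 * L s₀.1)⁻¹ * L ((s * s₀).1)) = 1 := by
      rw [map_mul, map_inv, map_mul, hL, hL, hL]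
      simp
    set ζ := (L s.1 * L s₀.1)⁻¹ * L ((s * s₀).1) with hζ
    have e2 : L ((s * s₀).1) = L s.1 * L s₀.1 * ζ := by rw [hζ]; group
    have hζc : ζ * c.1 = c.1 * ζ := (central_comm hσ e1 c.1).symm
    rw [e2]
    have e3 : L s.1 * L s₀.1 * ζ * c.1 * (L s.1 * L s₀.1 * ζ)⁻¹ = L s.1 * L s₀.1 * (ζ * c.1) * ζ⁻¹ * (L s.1 * L s₀.1)⁻¹ := by
      group
    rw [e3, hζc]
    group
  -- the subgroup generated by the commutators with the torus
  let B : Subgroup C := closure (Set.range fun p : T × C => cj p.1 p.2 * (p.2)⁻¹)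
  let N : C →* C := ∏ s : T, cj s
  have hN : ∀ c : C, N c = ∏ s : T, cj s c := by
    intro c
    simp only [N, MonoidHom.finsetProd_apply]
  have hNB : ∀ c ∈ B, N c = 1 := by
    intro c hc
    have : B ≤ N.ker := by
      rw [closure_le]
      rintro _ ⟨⟨s₀, c⟩, rfl⟩
      show N (cj s₀ c * c⁻¹) = 1
      rw [map_mul, map_inv, hN, hN]
      have : ∏ s : T, cj s (cj s₀ c) = ∏ s : T, cj s c := by
        simp only [hcomp]
        exact Fintype.prod_equiv (Equiv.mulRight s₀) _ _ (fun s => rfl)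
      rw [this, mul_inv_cancel]
    exact this hc
  -- all commutators lie in `B`
  let A : Type u := Additive (C ⧸ B)
  let f : W → W → A := fun a b =>
    Additive.ofMul (QuotientGroup.mk ⟨Om σ R ρ x a b, Om_mem_derived hσ hD ht hφ a b⟩)
  have hfB : ∀ a b, (⟨Om σ R ρ x a b, Om_mem_derived hσ hD ht hφ a b⟩ : C) ∈ B := by
    intro a b
    have h0 : f a b = 0 := by
      apply hform A f
      · intro a b c
        show Additive.ofMul _ = Additive.ofMul _ + Additive.ofMul _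
        rw [← ofMul_mul, ← QuotientGroup.mk_mul]
        congr 2
        exact Subtype.ext (Om_add_left hσ hZ hD hx ht hφ hcen a b c)
      · intro a b c
        show Additive.ofMul _ = Additive.ofMul _ + Additive.ofMul _
        rw [← ofMul_mul, ← QuotientGroup.mk_mul]
        congr 2
        exact Subtype.ext (Om_add_right hσ hZ hD hx ht hφ hcen b c a)
      · intro a
        show Additive.ofMul _ = 0
        have : (⟨Om σ R ρ x a a, Om_mem_derived hσ hD ht hφ a a⟩ : C) = 1 := Subtype.ext (Om_self a)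
        rw [this]
        rfl
      · rintro _ ⟨s, hs, rfl⟩ a b
        show Additive.ofMul _ = Additive.ofMul _
        congr 1
        rw [QuotientGroup.eq]
        have e : (⟨Om σ R ρ x (φ s a) (φ s b), Om_mem_derived hσ hD ht hφ _ _⟩ : C) =
            cj ⟨s, hs⟩ ⟨Om σ R ρ x a b, Om_mem_derived hσ hD ht hφ a b⟩ := by
          apply Subtype.ext
          rw [hcj]
          symm
          apply Om_conj hσ hZ hD hx ht hφ hcen (hLH s hs)
          intro r hr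
          have := hT.act s hs (σ r) (hle hr)
          simp only [map_mul, map_inv, hL]
          exact this
        rw [e]
        have h3 := B.inv_mem (subset_closure (Set.mem_range_self (f := fun p : T × C => cj p.1 p.2 * (p.2)⁻¹)
          (⟨s, hs⟩, ⟨Om σ R ρ x a b, Om_mem_derived hσ hD ht hφ a b⟩)))
        rw [mul_comm]
        simpa using h3
    exact (QuotientGroup.eq_one_iff _).mp h0
  have hCB : ∀ c (hc : c ∈ C), (⟨c, hc⟩ : C) ∈ B := by
    intro c hc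
    have : ∃ h : c ∈ C, (⟨c, h⟩ : C) ∈ B := by
      apply derived_le_closure_Om hσ hD ht hφ (R := R) (ρ := ρ) (x := x) (P := fun c => ∃ h : c ∈ C, (⟨c, h⟩ : C) ∈ B)
        ⟨C.one_mem, B.one_mem⟩ _ _ (fun a b => ⟨_, hfB a b⟩) (fun h₁ h₂ => Om_eq hσ hZ hD hx ht hφ hcen h₁ h₂) hc
      · rintro a b ⟨ha, ha'⟩ ⟨hb, hb'⟩
        exact ⟨C.mul_mem ha hb, B.mul_mem ha' hb'⟩
      · rintro a ⟨ha, ha'⟩
        exact ⟨C.inv_mem ha, B.inv_mem ha'⟩
    exact this.2
  have h1 : z ∈ C := ker_le_derived hσ hZ hD hx ht.norm hz hz1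
  have h2 := hNB _ (hCB z h1)
  rw [hN] at h2
  have hfix : ∀ s : T, cj s ⟨z, h1⟩ = ⟨z, h1⟩ := by
    intro s
    apply Subtype.ext
    rw [hcj]
    show L s.1 * z * (L s.1)⁻¹ = z
    rw [(central_comm hσ hz1 (L s.1))]
    group
  simp only [hfix, Finset.prod_const, Finset.card_univ, ← Nat.card_eq_fintype_card] at h2
  have h3 : z ^ Nat.card T = 1 := congrArg Subtype.val h2
  exact eq_one_of_coprime_order hZ hz1 hTp h3

end inj

end Cfsg.Agent.Lib.UMHeis
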