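import Mathlib
import Cfsg.Agent.Lib.UMHeis2
import Cfsg.Agent.Lib.UMField
import Cfsg.Agent.Lib.SU2GenC
import Cfsg.Agent.Lib.UnitaryPerfect

/-!
# Root groups in a frame

A frame of the Hermitian space: a hyperbolic pair `b l`, `b l'`, and an orthonormal basis of its perpendicular. The root group
at `b l` with its Heisenberg structure, and the torus of the frame acting on it.
-/

set_option autoImplicit false
set_option linter.unusedSectionVars false
set_option linter.unusedVariables false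
set_option linter.style.haveILetI false

namespace Cfsg.Agent.Lib.UMRoot

open Module Matrix Subgroup Cfsg Cfsg.Agent.Lib.UnitaryBasic Cfsg.Agent.Lib.UnitarySU
  Cfsg.Agent.Lib.UnitaryConj Cfsg.Agent.Lib.UnitaryE Cfsg.Agent.Lib.SUGen
  Cfsg.Agent.Lib.HermForm Cfsg.Agent.Lib.HermCount Cfsg.Agent.Lib.GUParab Cfsg.Agent.Lib.FFNorm
  Cfsg.Agent.Lib.SU2GenA Cfsg.Agent.Lib.SU2GenC Cfsg.Agent.Lib.UMHeis Cfsg.Agent.Lib.UMSect
open scoped commutatorElement

variable {F : Type*} [Field F] [Fintype F] {q n : ℕ}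

local notation "h" => hermForm n F q

variable (q) in
/-- A frame. -/
structure FR (b : Fin n → Fin n → F) (l l' : Fin n) : Prop where
  ne : l ≠ l'
  gram : ∀ i j, h (b i) (b j) = if j = Equiv.swap l l' i then 1 else 0

/-- The orthonormal indices. -/
abbrev II (l l' : Fin n) : Type := {k : Fin n // k ≠ l ∧ k ≠ l'}

section frame

variable {b : Fin n → Fin n → F} {l l' : Fin n} (hb : FR q b l l')

include hb

lemma FR.ee : h (b l) (b l) = 0 := by
  rw [hb.gram, Equiv.swap_apply_left, if_neg hb.ne]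

lemma FR.ff : h (b l') (b l') = 0 := by
  rw [hb.gram, Equiv.swap_apply_right, if_neg hb.ne.symm]

lemma FR.ef : h (b l) (b l') = 1 := by
  rw [hb.gram, Equiv.swap_apply_left, if_pos rfl]

lemma FR.fe : h (b l') (b l) = 1 := by
  rw [hb.gram, Equiv.swap_apply_right, if_pos rfl]

lemma FR.ue (k : II l l') : h (b k.1) (b l) = 0 := by
  rw [hb.gram, Equiv.swap_apply_of_ne_of_ne k.2.1 k.2.2, if_neg k.2.1.symm]

lemma FR.uf (k : II l l') : h (b k.1) (b l') = 0 := by
  rw [hb.gram, Equiv.swap_apply_of_ne_of_ne k.2.1 k.2.2, if_neg k.2.2.symm]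

lemma FR.eu (k : II l l') : h (b l) (b k.1) = 0 := by
  rw [hb.gram, Equiv.swap_apply_left, if_neg k.2.2]

lemma FR.fu (k : II l l') : h (b l') (b k.1) = 0 := by
  rw [hb.gram, Equiv.swap_apply_right, if_neg k.2.1]

lemma FR.uu (k j : II l l') : h (b k.1) (b j.1) = if j = k then 1 else 0 := by
  rw [hb.gram, Equiv.swap_apply_of_ne_of_ne k.2.1 k.2.2]
  simp only [Subtype.ext_iff]

lemma FR.uu_self (k : II l l') : h (b k.1) (b k.1) = 1 := by
  rw [hb.uu, if_pos rfl]

lemma FR.sum_gram (c : Fin n → F) (j : Fin n) : h (∑ i, c i • b i) (b (Equiv.swap l l' j)) = c j := by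
  have e0 : h (∑ i, c i • b i) (b (Equiv.swap l l' j)) = ∑ x, ∑ i, c i * (b i x * (b (Equiv.swap l l' j) x) ^ q) := by
    rw [hermForm]
    refine Finset.sum_congr rfl fun x _ => ?_
    simp only [Finset.sum_apply, Pi.smul_apply, smul_eq_mul, Finset.sum_mul, mul_assoc]
  rw [e0, Finset.sum_comm]
  have : ∀ i : Fin n, ∑ x, c i * (b i x * (b (Equiv.swap l l' j) x) ^ q) = c i * h (b i) (b (Equiv.swap l l' j)) := by
    intro i
    rw [hermForm, Finset.mul_sum]
  simp only [this, hb.gram]
  rw [Finset.sum_eq_single j]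
  · simp
  · intro i _ hij
    rw [if_neg, mul_zero]
    intro e
    apply hij
    have := congrArg (Equiv.swap l l') e
    simpa using this.symm
  · simp

lemma FR.li : LinearIndependent F b := by
  rw [Fintype.linearIndependent_iff]
  intro c hc j
  have := hb.sum_gram c j
  rw [hc, hermForm_zero_left] at this
  exact this.symm

/-- The basis of a frame. -/
noncomputable def FR.basis : Basis (Fin n) F (Fin n → F) :=
  haveI : Nonempty (Fin n) := ⟨l⟩
  basisOfLinearIndependentOfCardEqFinrank hb.li (by simp)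

lemma FR.basis_apply (i : Fin n) : hb.basis i = b i := by
  simp [FR.basis]

lemma FR.expand (v : Fin n → F) : v = ∑ i, h v (b (Equiv.swap l l' i)) • b i := by
  obtain ⟨c, rfl⟩ : ∃ c : Fin n → F, v = ∑ i, c i • b i := by
    refine ⟨hb.basis.repr v, ?_⟩
    conv_lhs => rw [← hb.basis.sum_repr v]
    simp only [hb.basis_apply]
  simp only [hb.sum_gram]

/-- Comparing values on a frame. -/
lemma FR.act_ext {A B : SU n F q} (hF : Fintype.card F = q ^ 2) (hAB : ∀ i, act A (b i) = act B (b i)) : A = B := by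
  apply SU_ext
  intro x
  rw [hb.expand x]
  have e : ∀ C : SU n F q, act C (∑ i, h x (b (Equiv.swap l l' i)) • b i) = ∑ i, h x (b (Equiv.swap l l' i)) • act C (b i) := by
    intro C
    rw [act_def, Matrix.mulVec_sum]
    refine Finset.sum_congr rfl fun i _ => ?_
    rw [Matrix.mulVec_smul]
    rfl
  rw [e, e]
  simp only [hAB]

lemma FR.prod_split (g : Fin n → F) : ∏ i, g i = g l * g l' * ∏ k : II l l', g k.1 := by
  classical
  rw [← Finset.mul_prod_erase Finset.univ g (Finset.mem_univ l),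
    ← Finset.mul_prod_erase (Finset.univ.erase l) g (Finset.mem_erase.mpr ⟨hb.ne.symm, Finset.mem_univ l'⟩), mul_assoc]
  congr 2
  apply Finset.prod_subtype
  intro x
  simp [and_comm]

/-- Diagonal elements in a frame. -/
theorem FR.exists_diag (hF : Fintype.card F = q ^ 2) (c : Fin n → F) (hc : ∀ i, c i * (c (Equiv.swap l l' i)) ^ q = 1)
    (hdet : ∏ i, c i = 1) : ∃ A : SU n F q, ∀ i, act A (b i) = c i • b i := by
  classical
  obtain ⟨A, hA⟩ := exists_mono hF hb.basis (1 : Equiv.Perm (Fin n)) c (by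
    intro i j
    simp only [Equiv.Perm.coe_one, id_eq, hb.basis_apply]
    rw [hermForm_smul_left, hermForm_smul_right, hb.gram]
    split_ifs with hj
    · subst hj
      have := hc i
      linear_combination this
    · simp) (by simp [hdet])
  refine ⟨A, fun i => ?_⟩
  have := hA i
  simpa [hb.basis_apply] using this

/-- Diagonal elements with prescribed values on the hyperbolic pair and on the orthonormal part. -/
theorem FR.exists_tor (hF : Fintype.card F = q ^ 2) (lam : F) (hlam : lam ≠ 0) (β : II l l' → F)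
    (hβ : ∀ k, β k * β k ^ q = 1) (hdet : lam * (lam⁻¹) ^ q * ∏ k, β k = 1) :
    ∃ A : SU n F q, act A (b l) = lam • b l ∧ act A (b l') = (lam⁻¹) ^ q • b l' ∧ ∀ k : II l l', act A (b k.1) = β k • b k.1 := by
  classical
  let c : Fin n → F := fun i => if i = l then lam else if i = l' then (lam⁻¹) ^ q else if hi : i ≠ l ∧ i ≠ l' then β ⟨i, hi⟩ else 1
  have cl : c l = lam := by simp [c]
  have cl' : c l' = (lam⁻¹) ^ q := by simp [c, hb.ne.symm]
  have ck : ∀ k : II l l', c k.1 = β k := by
    intro k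
    simp [c, k.2.1, k.2.2]
  obtain ⟨A, hA⟩ := hb.exists_diag hF c (by
    intro i
    by_cases h1 : i = l
    · subst h1
      rw [Equiv.swap_apply_left, cl, cl', pow_pow_self hF]
      exact mul_inv_cancel₀ hlam
    by_cases h2 : i = l'
    · subst h2
      rw [Equiv.swap_apply_right, cl, cl', ← mul_pow, inv_mul_cancel₀ hlam, one_pow]
    rw [Equiv.swap_apply_of_ne_of_ne h1 h2]
    exact (ck ⟨i, h1, h2⟩) ▸ hβ ⟨i, h1, h2⟩) (by
    rw [hb.prod_split, cl, cl']
    simp only [ck]
    exact hdet)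
  refine ⟨A, ?_, ?_, fun k => ?_⟩
  · rw [hA, cl]
  · rw [hA, cl']
  · rw [hA, ck]

end frame

section root

variable (hF : Fintype.card F = q ^ 2)

include hF in
/-- The identity as a root element. -/
lemma isE_one_elt {e : Fin n → F} (he : h e e = 0) : IsE (1 : SU n F q) e 0 0 := by
  refine ⟨he, hermForm_zero_left e, ?_, ?_⟩
  · rw [zero_pow_q hF, hermForm_zero_left]
    simp
  · intro x
    rw [act_one, hermForm_zero_right hF]
    simp

/-- The root group at an isotropic vector. -/
def RE {e : Fin n → F} (he : h e e = 0) : Subgroup (SU n F q) where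
  carrier := {A | ∃ y s, IsE A e y s}
  mul_mem' := by
    rintro A B ⟨y, s, hA⟩ ⟨y', s', hB⟩
    exact ⟨_, _, hA.mul hF hB⟩
  one_mem' := ⟨0, 0, isE_one_elt hF he⟩
  inv_mem' := by
    rintro A ⟨y, s, hA⟩
    exact ⟨_, _, E_inv hF hA⟩

lemma mem_RE {e : Fin n → F} (he : h e e = 0) {A : SU n F q} : A ∈ RE hF he ↔ ∃ y s, IsE A e y s := Iff.rfl

include hF in
/-- Powers of root elements. -/
lemma IsE.pow_y {A : SU n F q} {e y : Fin n → F} {s : F} (hA : IsE A e y s) (m : ℕ) :
    ∃ s', IsE (A ^ m) e ((m : F) • y) s' := by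
  induction m with
  | zero =>
    refine ⟨0, ?_⟩
    simpa using isE_one_elt hF hA.hvv
  | succ m ih =>
    obtain ⟨s', hs'⟩ := ih
    have := hs'.mul hF hA
    refine ⟨s' + s - h y ((m : F) • y), ?_⟩
    rw [pow_succ, Nat.cast_succ, add_smul, one_smul]
    exact this

include hF in
lemma IsE.pow_zero_y {A : SU n F q} {e : Fin n → F} {s : F} (hA : IsE A e 0 s) (m : ℕ) :
    IsE (A ^ m) e 0 ((m : F) * s) := by
  induction m with
  | zero =>
    simpa using isE_one_elt hF hA.hvv
  | succ m ih =>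
    have := ih.mul hF hA
    rw [pow_succ]
    convert this using 1
    · simp
    · rw [hermForm_zero_left, Nat.cast_succ]
      ring

include hF in
lemma IsE.eq_one_of {A : SU n F q} {e : Fin n → F} (hA : IsE A e 0 0) : A = 1 := by
  apply SU_ext
  intro x
  rw [hA.act_eq, act_one, hermForm_zero_right hF]
  simp

include hF in
/-- `p`-power map. -/
lemma IsE.pow_p {A : SU n F q} {e y : Fin n → F} {s : F} (hA : IsE A e y s) {p : ℕ} [CharP F p] :
    A ^ (p ^ 2) = 1 := by
  obtain ⟨s', hs'⟩ := IsE.pow_y hF hA p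
  have e0 : (p : F) = 0 := CharP.cast_eq_zero F p
  rw [e0, zero_smul] at hs'
  have h2 := IsE.pow_zero_y hF hs' p
  rw [e0, zero_mul] at h2
  rw [pow_two, pow_mul]
  exact IsE.eq_one_of hF h2

/-- The map to the quotient by the centre. -/
def rho (b : Fin n → Fin n → F) (l l' : Fin n) (A : SU n F q) : II l l' → F :=
  fun k => h (act A (b l')) (b k.1)

variable {b : Fin n → Fin n → F} {l l' : Fin n} (hb : FR q b l l')

include hb hF

lemma rho_of {A : SU n F q} {y : Fin n → F} {s : F} (hA : IsE A (b l) y s) (k : II l l') :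
    rho b l l' A k = h y (b k.1) := by
  show h (act A (b l')) (b k.1) = _
  rw [hA.act_eq]
  simp only [hermForm_sub_left, hermForm_add_left, hermForm_smul_left, hb.fe, hb.fu, hb.eu]
  ring

/-- Elements with trivial image in the quotient. -/
lemma ker_form {A : SU n F q} {y : Fin n → F} {s : F} (hA : IsE A (b l) y s) (h0 : ∀ k : II l l', h y (b k.1) = 0) :
    ∃ s', IsE A (b l) 0 s' := by
  have hy : y = h y (b l') • b l := by
    conv_lhs => rw [hb.expand y]
    rw [Finset.sum_eq_single l]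
    · rw [Equiv.swap_apply_left]
    · intro i _ hi
      by_cases hi' : i = l'
      · subst hi'
        rw [Equiv.swap_apply_right, hA.hyv, zero_smul]
      · rw [Equiv.swap_apply_of_ne_of_ne hi hi', h0 ⟨i, hi, hi'⟩, zero_smul]
    · simp
  set c := h y (b l') with hc
  have hyy : h y y = 0 := by
    rw [hy, hermForm_smul_left, hermForm_smul_right, hb.ee]
    ring
  have hs := hA.hs
  rw [hyy, add_zero] at hs
  have hcc : (c ^ q) ^ q = c := pow_pow_self hF c
  refine ⟨s + c - c ^ q, hA.hvv, hermForm_zero_left _, ?_, ?_⟩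
  · rw [hermForm_zero_left, HermForm.sub_pow_q hF, HermForm.add_pow_q hF, hcc]
    linear_combination hs
  · intro x
    rw [hA.act_eq, hermForm_zero_right hF]
    nth_rewrite 2 [hy]
    rw [hermForm_smul_right]
    nth_rewrite 1 [hy]
    module

/-- The structure of a group of Heisenberg type on the root group. -/
theorem hd {p : ℕ} [CharP F p] (hI : Nonempty (II l l')) : HD p (RE hF hb.ee) (rho b l l') := by
  refine ⟨?_, ?_, ?_, ?_, ?_⟩
  · rintro ⟨A, y, s, hA⟩
    refine ⟨2, ?_⟩
    apply Subtype.ext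
    exact IsE.pow_p hF hA
  · rintro A ⟨y, s, hA⟩ B ⟨y', s', hB⟩
    funext k
    rw [rho_of hF hb (hA.mul hF hB), Pi.add_apply, rho_of hF hb hA, rho_of hF hb hB, hermForm_add_left]
  · intro w
    classical
    set y : Fin n → F := ∑ k : II l l', w k • b k.1 with hy
    have hym : ∀ i, h y (b i) = ∑ k : II l l', w k * h (b k.1) (b i) := by
      intro i
      rw [hy, hermForm]
      have e0 : ∀ x, (∑ k : II l l', w k • b k.1) x * (b i x) ^ q = ∑ k : II l l', w k * (b k.1 x * (b i x) ^ q) := by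
        intro x
        simp only [Finset.sum_apply, Pi.smul_apply, smul_eq_mul, Finset.sum_mul, mul_assoc]
      simp only [e0]
      rw [Finset.sum_comm]
      refine Finset.sum_congr rfl fun k _ => ?_
      rw [hermForm, Finset.mul_sum]
    have hye : h y (b l) = 0 := by
      rw [hym]
      exact Finset.sum_eq_zero fun k _ => by rw [hb.ue, mul_zero]
    have hyk : ∀ k : II l l', h y (b k.1) = w k := by
      intro k
      rw [hym, Finset.sum_eq_single k]
      · rw [hb.uu_self, mul_one]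
      · intro j _ hj
        rw [hb.uu, if_neg hj.symm, mul_zero]
      · simp
    obtain ⟨s, hs⟩ : ∃ s : F, s + s ^ q = - h y y := by
      apply UnitaryE.exists_trace_eq hF
      rw [HermForm.neg_pow_q hF, hermForm_conj hF]
    obtain ⟨A, hA⟩ := exists_IsE hF (s := s) hb.ee hye (by rw [hs]; ring)
    refine ⟨A, ⟨_, _, hA⟩, ?_⟩
    funext k
    rw [rho_of hF hb hA, hyk]
  · rintro A ⟨y, s, hA⟩ h0 B ⟨y', s', hB⟩
    have h1 : ∀ k : II l l', h y (b k.1) = 0 := by
      intro k
      rw [← rho_of hF hb hA, h0]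
      rfl
    obtain ⟨s₀, hs₀⟩ := ker_form hF hb hA h1
    have e1 := hs₀.mul hF hB
    have e2 := hB.mul hF hs₀
    apply SU_ext
    intro x
    rw [e1.act_eq, e2.act_eq, zero_add, add_zero, hermForm_zero_left, hermForm_zero_right hF]
    congr 3
    ring
  · rintro A ⟨y, s, hA⟩ h0
    have h1 : ∀ k : II l l', h y (b k.1) = 0 := by
      intro k
      rw [← rho_of hF hb hA, h0]
      rfl
    obtain ⟨s₀, hs₀⟩ := ker_form hF hb hA h1
    obtain ⟨k⟩ := hI
    obtain ⟨κ₀, hκ₀⟩ : ∃ κ₀ : F, κ₀ + κ₀ ^ q = 1 := UnitaryE.exists_trace_eq hF (by simp)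
    have hs₁ : s₀ + s₀ ^ q = 0 := by
      have := hs₀.hs
      rw [hermForm_zero_left, add_zero] at this
      exact this
    set κ := s₀ * κ₀ with hκ
    have hκq : κ ^ q = - s₀ * κ₀ ^ q := by
      rw [hκ, mul_pow]
      have : s₀ ^ q = - s₀ := by linear_combination hs₁
      rw [this]
    set y₁ : Fin n → F := κ • b k.1 with hy₁
    set y₂ : Fin n → F := b k.1 with hy₂
    have hy₁e : h y₁ (b l) = 0 := by rw [hy₁, hermForm_smul_left, hb.ue, mul_zero]
    have hy₂e : h y₂ (b l) = 0 := hb.ue k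
    obtain ⟨s₁, hs₁'⟩ : ∃ s : F, s + s ^ q = - h y₁ y₁ := by
      apply UnitaryE.exists_trace_eq hF
      rw [HermForm.neg_pow_q hF, hermForm_conj hF]
    obtain ⟨s₂, hs₂'⟩ : ∃ s : F, s + s ^ q = - h y₂ y₂ := by
      apply UnitaryE.exists_trace_eq hF
      rw [HermForm.neg_pow_q hF, hermForm_conj hF]
    obtain ⟨A₁, hA₁⟩ := exists_IsE hF (s := s₁) hb.ee hy₁e (by rw [hs₁']; ring)
    obtain ⟨A₂, hA₂⟩ := exists_IsE hF (s := s₂) hb.ee hy₂e (by rw [hs₂']; ring)
    have e1 := hA₁.mul hF hA₂
    have e2 := hs₀.mul hF (hA₂.mul hF hA₁)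
    have e3 : A₁ * A₂ = A * (A₂ * A₁) := by
      apply SU_ext
      intro x
      rw [e1.act_eq, e2.act_eq, zero_add, hermForm_zero_right hF, hermForm_add_right hF]
      have e4 : h y₂ y₁ = κ ^ q := by
        rw [hy₁, hermForm_smul_right, hb.uu_self, mul_one]
      have e5 : h y₁ y₂ = κ := by
        rw [hy₁, hermForm_smul_left, hb.uu_self, mul_one]
      have e6 : s₁ + s₂ - h y₂ y₁ = s₀ + (s₂ + s₁ - h y₁ y₂) - 0 := by
        rw [e4, e5, hκq, hκ]
        linear_combination s₀ * hκ₀
      rw [e6, add_comm y₁ y₂, hermForm_add_right hF, add_comm (h x y₁)]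
    have e7 : ⁅A₁, A₂⁆ = A := UnitaryPerfect.comm_eq' e3
    rw [← e7]
    exact commutator_mem_commutator ⟨_, _, hA₁⟩ ⟨_, _, hA₂⟩

end root

end Cfsg.Agent.Lib.UMRoot
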