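import Mathlib
import Cfsg.Agent.Lib.UMRoot

/-!
# The torus of a frame acting on the root group
-/

set_option autoImplicit false
set_option linter.unusedSectionVars false
set_option linter.unusedVariables false
set_option linter.style.haveILetI false

namespace Cfsg.Agent.Lib.UMRoot

open Module Matrix Subgroup Cfsg Cfsg.Agent.Lib.UnitaryBasic Cfsg.Agent.Lib.UnitarySU
  Cfsg.Agent.Lib.UnitaryConj Cfsg.Agent.Lib.UnitaryE Cfsg.Agent.Lib.SUGen
  Cfsg.Agent.Lib.HermForm Cfsg.Agent.Lib.HermCount Cfsg.Agent.Lib.GUParab Cfsg.Agent.Lib.FFNorm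
  Cfsg.Agent.Lib.SU2GenA Cfsg.Agent.Lib.SU2GenC Cfsg.Agent.Lib.UMHeis Cfsg.Agent.Lib.UMSect
open scoped commutatorElement

variable {F : Type*} [Field F] [Fintype F] {q n : ℕ}

local notation "h" => hermForm n F q

section scale

variable (hF : Fintype.card F = q ^ 2)
include hF

/-- Conjugation of root elements by elements scaling the centre. -/
lemma IsE.conj_scale {A g : SU n F q} {e y : Fin n → F} {r c : F} (hA : IsE A e y r) (hc : c ≠ 0) (hg : act g e = c • e) :
    IsE (g * A * g⁻¹) e (c ^ q • act g y) (c * c ^ q * r) := by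
  have h1 := hA.conj hF g
  rw [hg] at h1
  exact E_smul_center hF hc h1

lemma act_inv_scale {g : SU n F q} {e : Fin n → F} {c : F} (hc : c ≠ 0) (hg : act g e = c • e) : act g⁻¹ e = c⁻¹ • e := by
  have : act g⁻¹ (c • e) = e := by rw [← hg, act_inv_act]
  rw [act_smul] at this
  rw [← this, smul_smul, inv_mul_cancel₀ hc, one_smul, this]

/-- Elements scaling the centre normalize the root group. -/
theorem mem_norm_scale {g : SU n F q} {e : Fin n → F} {c : F} (he : h e e = 0) (hc : c ≠ 0) (hg : act g e = c • e) :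
    g ∈ normalizer ((RE hF he : Subgroup (SU n F q)) : Set (SU n F q)) := by
  rw [mem_normalizer_iff]
  intro A
  constructor
  · rintro ⟨y, s, hA⟩
    exact ⟨_, _, IsE.conj_scale hF hA hc hg⟩
  · rintro ⟨y, s, hA⟩
    have := IsE.conj_scale hF hA (inv_ne_zero hc) (act_inv_scale hF hc hg)
    have e0 : g⁻¹ * (g * A * g⁻¹) * g⁻¹⁻¹ = A := by group
    rw [e0] at this
    exact ⟨_, _, this⟩

end scale

/-- The multiplier of the centre. -/
def lamf (b : Fin n → Fin n → F) (l l' : Fin n) (s : SU n F q) : F := h (act s (b l)) (b l')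

/-- The multipliers on the quotient. -/
def mulf (b : Fin n → Fin n → F) (l l' : Fin n) (s : SU n F q) (k : II l l') : F :=
  (lamf b l l' s) ^ q * h (act s (b k.1)) (b k.1)

/-- The action on the quotient. -/
def phi (b : Fin n → Fin n → F) (l l' : Fin n) (s : SU n F q) (w : II l l' → F) : II l l' → F :=
  fun k => mulf b l l' s k * w k

variable {b : Fin n → Fin n → F} {l l' : Fin n}

/-- The torus of a frame. -/
def Tor (hb : FR q b l l') : Subgroup (SU n F q) where
  carrier := {A | ∀ i, ∃ c : F, act A (b i) = c • b i}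
  mul_mem' := by
    intro A B hA hB i
    obtain ⟨c, hc⟩ := hB i
    obtain ⟨c', hc'⟩ := hA i
    exact ⟨c * c', by rw [act_mul, hc, act_smul, hc', smul_smul]⟩
  one_mem' := fun i => ⟨1, by rw [act_one, one_smul]⟩
  inv_mem' := by
    intro A hA i
    obtain ⟨c, hc⟩ := hA i
    have hc0 : c ≠ 0 := by
      rintro rfl
      rw [zero_smul] at hc
      have h1 : b i = 0 := by
        apply act_inj A
        rw [hc, act_zero]
      have h2 := hb.gram i (Equiv.swap l l' i)
      rw [if_pos rfl, h1, hermForm_zero_left] at h2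
      exact zero_ne_one h2
    refine ⟨c⁻¹, ?_⟩
    have : act A⁻¹ (c • b i) = b i := by rw [← hc, act_inv_act]
    rw [act_smul] at this
    rw [← this, smul_smul, inv_mul_cancel₀ hc0, one_smul, this]

section torus

variable (hb : FR q b l l') (hF : Fintype.card F = q ^ 2)

include hb

lemma tor_coef {s : SU n F q} (hs : s ∈ Tor hb) (i : Fin n) :
    act s (b i) = h (act s (b i)) (b (Equiv.swap l l' i)) • b i := by
  obtain ⟨c, hc⟩ := hs i
  rw [hc, hermForm_smul_left, hb.gram, if_pos rfl, mul_one]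

lemma lamf_spec {s : SU n F q} (hs : s ∈ Tor hb) : act s (b l) = lamf b l l' s • b l := by
  have := tor_coef hb hs l
  rwa [Equiv.swap_apply_left] at this

lemma cu_spec {s : SU n F q} (hs : s ∈ Tor hb) (k : II l l') : act s (b k.1) = h (act s (b k.1)) (b k.1) • b k.1 := by
  have := tor_coef hb hs k.1
  rwa [Equiv.swap_apply_of_ne_of_ne k.2.1 k.2.2] at this

lemma lamf_of {s : SU n F q} {c : F} (hc : act s (b l) = c • b l) : lamf b l l' s = c := by
  show h (act s (b l)) (b l') = c
  rw [hc, hermForm_smul_left, hb.ef, mul_one]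

lemma cu_of {s : SU n F q} {c : F} {k : II l l'} (hc : act s (b k.1) = c • b k.1) : h (act s (b k.1)) (b k.1) = c := by
  rw [hc, hermForm_smul_left, hb.uu_self, mul_one]

lemma mulf_of {s : SU n F q} {c c' : F} {k : II l l'} (hc : act s (b l) = c • b l) (hc' : act s (b k.1) = c' • b k.1) :
    mulf b l l' s k = c ^ q * c' := by
  show (lamf b l l' s) ^ q * _ = _
  rw [lamf_of hb hc, cu_of hb hc']

include hF

lemma lamf_ne {s : SU n F q} (hs : s ∈ Tor hb) : lamf b l l' s ≠ 0 := by
  intro h0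
  have h1 := lamf_spec hb hs
  rw [h0, zero_smul] at h1
  have h2 : b l = 0 := by
    apply act_inj s
    rw [h1, act_zero]
  have h3 := hb.ef
  rw [h2, hermForm_zero_left] at h3
  exact zero_ne_one h3

lemma cu_norm {s : SU n F q} (hs : s ∈ Tor hb) (k : II l l') :
    h (act s (b k.1)) (b k.1) * (h (act s (b k.1)) (b k.1)) ^ q = 1 := by
  obtain ⟨c, hc⟩ := hs k.1
  have h1 := herm_act s (b k.1) (b k.1)
  rw [hb.uu_self, hc, hermForm_smul_left, hermForm_smul_right, hb.uu_self] at h1
  rw [hc, hermForm_smul_left, hb.uu_self, mul_one]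
  linear_combination h1

lemma act_form {s : SU n F q} (hs : s ∈ Tor hb) (y : Fin n → F) (k : II l l') :
    h (act s y) (b k.1) = h (act s (b k.1)) (b k.1) * h y (b k.1) := by
  have h1 := herm_act s y (b k.1)
  have h2 := cu_spec hb hs k
  rw [h2, hermForm_smul_right] at h1
  have h3 := cu_norm hb hF hs k
  rw [← h1]
  set c := h (act s (b k.1)) (b k.1)
  linear_combination (- h (act s y) (b k.1)) * h3

/-- Action of the torus on the quotient. -/
theorem rho_conj {s A : SU n F q} (hs : s ∈ Tor hb) (hA : A ∈ RE hF hb.ee) :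
    rho b l l' (s * A * s⁻¹) = phi b l l' s (rho b l l' A) := by
  obtain ⟨y, r, hA⟩ := hA
  have h1 := IsE.conj_scale hF hA (lamf_ne hb hF hs) (lamf_spec hb hs)
  funext k
  rw [rho_of hF hb h1]
  show _ = mulf b l l' s k * rho b l l' A k
  rw [rho_of hF hb hA, hermForm_smul_left, act_form hb hF hs]
  show _ = (lamf b l l' s) ^ q * _ * _
  ring

lemma tor_norm {s : SU n F q} (hs : s ∈ Tor hb) :
    s ∈ normalizer ((RE hF hb.ee : Subgroup (SU n F q)) : Set (SU n F q)) :=
  mem_norm_scale hF hb.ee (lamf_ne hb hF hs) (lamf_spec hb hs)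

lemma tor_comm {s s' : SU n F q} (hs : s ∈ Tor hb) (hs' : s' ∈ Tor hb) : Commute s s' := by
  apply hb.act_ext hF
  intro i
  obtain ⟨c, hc⟩ := hs i
  obtain ⟨c', hc'⟩ := hs' i
  rw [act_mul, act_mul, hc, hc', act_smul, act_smul, hc, hc', smul_smul, smul_smul, mul_comm]

/-- The torus data. -/
theorem tf {t : SU n F q} (ht : t ∈ Tor hb) : TF (RE hF hb.ee) (rho b l l') t (Tor hb) (phi b l l') :=
  ⟨fun s hs => tor_norm hb hF hs, fun s hs a ha => rho_conj hb hF hs ha, fun s hs => tor_comm hb hF hs ht⟩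

/-- An element of the torus acting on the root group. -/
theorem td {t : SU n F q} (ht : t ∈ Tor hb) : TD (RE hF hb.ee) (rho b l l') t (phi b l l' t) :=
  ⟨tor_norm hb hF ht, fun a ha => by rw [rho_conj hb hF ht ha]⟩

omit hb hF in
lemma fpf {t : SU n F q} (ht : ∀ k, mulf b l l' t k ≠ 1) (w : II l l' → F) : ∃ w', phi b l l' t w' - w' = w := by
  refine ⟨fun k => w k / (mulf b l l' t k - 1), ?_⟩
  funext k
  have : mulf b l l' t k - 1 ≠ 0 := sub_ne_zero.mpr (ht k)
  show mulf b l l' t k * (w k / (mulf b l l' t k - 1)) - w k / (mulf b l l' t k - 1) = w k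
  field_simp

/-- Elements of the torus with trivial action on the centre. -/
lemma tor_triv {s : SU n F q} (hs : s ∈ Tor hb) (hn : lamf b l l' s * (lamf b l l' s) ^ q = 1) :
    ∀ a ∈ RE hF hb.ee, rho b l l' a = 0 → s * a * s⁻¹ = a := by
  rintro a ⟨y, r, hA⟩ h0
  have h1 : ∀ k : II l l', h y (b k.1) = 0 := by
    intro k
    rw [← rho_of hF hb hA, h0]
    rfl
  obtain ⟨r₀, hr₀⟩ := ker_form hF hb hA h1
  have h2 := IsE.conj_scale hF hr₀ (lamf_ne hb hF hs) (lamf_spec hb hs)
  rw [act_zero, smul_zero, hn, one_mul] at h2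
  exact E_unique h2 hr₀

/-- Generation of the quotient by the commutators with the torus. -/
theorem hgen_of (hk : ∀ k : II l l', ∃ s ∈ Tor hb, lamf b l l' s * (lamf b l l' s) ^ q = 1 ∧ mulf b l l' s k ≠ 1) :
    AddSubgroup.closure {w | ∃ s ∈ Tor hb, (∀ a ∈ RE hF hb.ee, rho b l l' a = 0 → s * a * s⁻¹ = a) ∧
      ∃ w', w = phi b l l' s w' - w'} = ⊤ := by
  classical
  rw [eq_top_iff]
  intro w _
  rw [← Finset.univ_sum_single w]
  refine sum_mem fun k _ => ?_
  obtain ⟨s, hs, hn, hm⟩ := hk k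
  apply AddSubgroup.subset_closure
  refine ⟨s, hs, tor_triv hb hF hs hn, Pi.single k (w k / (mulf b l l' s k - 1)), ?_⟩
  have hm' : mulf b l l' s k - 1 ≠ 0 := sub_ne_zero.mpr hm
  funext x
  by_cases hx : x = k
  · subst hx
    show (Pi.single x (w x) : II l l' → F) x = mulf b l l' s x * (Pi.single x (w x / (mulf b l l' s x - 1)) : II l l' → F) x - (Pi.single x (w x / (mulf b l l' s x - 1)) : II l l' → F) x
    simp only [Pi.single_eq_same]
    field_simp
  · show (Pi.single k (w k) : II l l' → F) x = mulf b l l' s x * (Pi.single k (w k / (mulf b l l' s k - 1)) : II l l' → F) x - (Pi.single k (w k / (mulf b l l' s k - 1)) : II l l' → F) x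
    simp [Pi.single_eq_of_ne hx]

/-- The exponent of the torus. -/
lemma tor_pow {s : SU n F q} (hs : s ∈ Tor hb) : s ^ (q ^ 2 - 1) = 1 := by
  apply hb.act_ext hF
  intro i
  obtain ⟨c, hc⟩ := hs i
  have hc0 : c ≠ 0 := by
    rintro rfl
    rw [zero_smul] at hc
    have h1 : b i = 0 := by
      apply act_inj s
      rw [hc, act_zero]
    have h2 := hb.gram i (Equiv.swap l l' i)
    rw [if_pos rfl, h1, hermForm_zero_left] at h2
    exact zero_ne_one h2
  have hp : ∀ m : ℕ, act (s ^ m) (b i) = c ^ m • b i := by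
    intro m
    induction m with
    | zero => simp [act_one]
    | succ m ih =>
      rw [pow_succ, act_mul, hc, act_smul, ih, smul_smul, pow_succ, mul_comm]
  rw [hp, act_one]
  have : c ^ (q ^ 2 - 1) = 1 := by
    rw [← hF]
    exact FiniteField.pow_card_sub_one_eq_one c hc0
  rw [this, one_smul]

/-- The order of the torus is prime to the characteristic. -/
theorem tor_order_coprime {p : ℕ} [hp : Fact p.Prime] (hpq : p ∣ q) {s : SU n F q} (hs : s ∈ Tor hb) :
    Nat.Coprime (orderOf s) p := by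
  have hq := HermCount.two_le_q hF
  have h1 : orderOf s ∣ q ^ 2 - 1 := orderOf_dvd_of_pow_eq_one (tor_pow hb hF hs)
  apply Nat.Coprime.coprime_dvd_left h1
  rw [Nat.coprime_comm, Nat.Prime.coprime_iff_not_dvd hp.out]
  intro h2
  have h3 : p ∣ q ^ 2 := dvd_pow hpq (by norm_num)
  have h4 : q ^ 2 = (q ^ 2 - 1) + 1 := by
    have : 1 ≤ q ^ 2 := Nat.one_le_pow _ _ (by omega)
    omega
  have h5 : p ∣ 1 := by
    rw [h4] at h3
    exact (Nat.dvd_add_right h2).mp h3
  exact hp.out.one_lt.ne' (Nat.dvd_one.mp h5)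

theorem tor_card_coprime {p : ℕ} [hp : Fact p.Prime] (hpq : p ∣ q) : Nat.Coprime (Nat.card (Tor hb)) p := by
  classical
  rw [Nat.coprime_comm, Nat.Prime.coprime_iff_not_dvd hp.out]
  intro h2
  haveI : Fintype (SU n F q) := Fintype.ofFinite _
  haveI : Finite (Tor hb) := inferInstance
  obtain ⟨g, hg⟩ := exists_prime_orderOf_dvd_card' (G := Tor hb) p h2
  have h3 := tor_order_coprime hb hF hpq g.2
  have h4 : orderOf (g : SU n F q) = p := by
    rw [Subgroup.orderOf_coe, hg]
  rw [h4] at h3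
  exact hp.out.one_lt.ne' ((Nat.coprime_self p).mp h3)

end torus

end Cfsg.Agent.Lib.UMRoot
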