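import Mathlib
import Cfsg.Agent.Lib.UMTor

/-!
# Invariant forms on the root group, and the complement in the central extension for `q ≥ 3`
-/

set_option autoImplicit false
set_option linter.unusedSectionVars false
set_option linter.unusedVariables false
set_option linter.style.haveILetI false

namespace Cfsg.Agent.Lib.UMRoot

open Module Matrix Subgroup Cfsg Cfsg.Agent.Lib.UnitaryBasic Cfsg.Agent.Lib.UnitarySU
  Cfsg.Agent.Lib.UnitaryConj Cfsg.Agent.Lib.UnitaryE Cfsg.Agent.Lib.SUGen
  Cfsg.Agent.Lib.HermForm Cfsg.Agent.Lib.HermCount Cfsg.Agent.Lib.GUParab Cfsg.Agent.Lib.FFNorm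
  Cfsg.Agent.Lib.SU2GenA Cfsg.Agent.Lib.SU2GenC Cfsg.Agent.Lib.UMHeis Cfsg.Agent.Lib.UMSect
  Cfsg.Agent.Lib.UMField
open scoped commutatorElement

universe u

variable {F : Type*} [Field F] [Fintype F] {q n : ℕ}

local notation "h" => hermForm n F q

omit [Fintype F] in
lemma pow_q_of_pred (x : F) (hq : 1 ≤ q) (hx : x ^ (q - 1) = 1) : x ^ q = x := by
  obtain ⟨k, rfl⟩ : ∃ k, q = k + 1 := ⟨q - 1, by omega⟩
  simp only [Nat.add_sub_cancel] at hx
  rw [pow_succ, hx, one_mul]

section elements

variable (hF : Fintype.card F = q ^ 2)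
include hF

/-- Elements of norm one outside the roots of unity of small order. -/
lemma exists_mu {e : ℕ} (he0 : 0 < e) (he : e ≤ q) : ∃ u : F, u * u ^ q = 1 ∧ u ^ e ≠ 1 := by
  classical
  by_contra hno
  push Not at hno
  have h1 := card_nrm_fibre_ne hF (one_ne_zero (α := F)) (one_pow q)
  have h2 : (Finset.univ.filter fun x : F => nrm q x = 1) ⊆ (Polynomial.nthRoots e (1 : F)).toFinset := by
    intro x hx
    simp only [Finset.mem_filter, Finset.mem_univ, true_and] at hx
    rw [Multiset.mem_toFinset, Polynomial.mem_nthRoots he0]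
    exact hno x hx
  have h3 := Finset.card_le_card h2
  rw [h1] at h3
  have h4 := Multiset.toFinset_card_le (Polynomial.nthRoots e (1 : F))
  have h5 := Polynomial.card_nthRoots e (1 : F)
  omega

/-- Elements of the fixed field outside a small set. -/
lemma exists_K (t : Finset F) (ht : t.card < q - 1) : ∃ x : F, x ≠ 0 ∧ x ^ q = x ∧ x ∉ t := by
  classical
  haveI : Fintype (powMonoidHom (q - 1) : Fˣ →* Fˣ).ker := Fintype.ofFinite _
  let S : Finset F := Finset.univ.image (fun c : (powMonoidHom (q - 1) : Fˣ →* Fˣ).ker => ((c.1 : Fˣ) : F))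
  have hS : S.card = q - 1 := by
    rw [Finset.card_image_of_injective]
    · rw [Finset.card_univ, ← Nat.card_eq_fintype_card, card_ker_pow_pred hF]
    · intro a c e
      exact Subtype.ext (Units.ext e)
  obtain ⟨x, hx, hxt⟩ := Finset.exists_mem_notMem_of_card_lt_card (s := t) (t := S) (by rw [hS]; exact ht)
  obtain ⟨c, -, rfl⟩ := Finset.mem_image.mp hx
  refine ⟨_, c.1.ne_zero, ?_, hxt⟩
  have hq := HermCount.two_le_q hF
  have h1 : (c.1 : Fˣ) ^ (q - 1) = 1 := c.2
  have h2 : ((c.1 : Fˣ) : F) ^ (q - 1) = 1 := by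
    rw [← Units.val_pow_eq_pow_val, h1, Units.val_one]
  exact pow_q_of_pred _ (by omega) h2

/-- The fixed field of the Frobenius. -/
def KK : Subfield F where
  carrier := {x | x ^ q = x}
  mul_mem' := by
    intro a c ha hc
    show (a * c) ^ q = a * c
    rw [mul_pow, ha, hc]
  one_mem' := one_pow q
  add_mem' := by
    intro a c ha hc
    show (a + c) ^ q = a + c
    rw [HermForm.add_pow_q hF, ha, hc]
  zero_mem' := zero_pow_q hF
  neg_mem' := by
    intro a ha
    show (-a) ^ q = -a
    rw [HermForm.neg_pow_q hF, ha]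
  inv_mem' := by
    intro a ha
    show (a⁻¹) ^ q = a⁻¹
    rw [inv_pow, ha]

variable {A : Type*} [AddCommGroup A] {ψ : F → F → A}
  (hl : ∀ a b c, ψ (a + b) c = ψ a c + ψ b c) (hr : ∀ a b c, ψ a (b + c) = ψ a b + ψ a c)

include hl hr

/-- Invariant alternating forms on the whole field. -/
theorem formF (hq : 3 ≤ q) (halt : ∀ x, ψ x x = 0) (hinv : ∀ χ : F, χ ≠ 0 → ∀ x y, ψ (χ * x) (χ * y) = ψ x y) (x y : F) :
    ψ x y = 0 := by
  classical
  have hcard : 9 ≤ Fintype.card F := by
    rw [hF]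
    nlinarith
  by_cases h2 : (2 : F) = 0
  · apply eq_zero_even hl hr hinv h2 (halt 1)
    intro x hx
    obtain ⟨s, -, hs⟩ := Finset.exists_mem_notMem_of_card_lt_card (s := ({0, 1, x, 1 / x} : Finset F)) (t := Finset.univ) (by
      rw [Finset.card_univ]
      have : ({0, 1, x, 1 / x} : Finset F).card ≤ 4 := Finset.card_le_four
      omega)
    simp only [Finset.mem_insert, Finset.mem_singleton, not_or] at hs
    exact ⟨s, hs.1, hs.2.1, hs.2.2.1, hs.2.2.2⟩
  · apply eq_zero_odd hl hr hinv h2
    intro r hr0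
    obtain ⟨s, -, hs⟩ := Finset.exists_mem_notMem_of_card_lt_card (s := ({0, r, -r} : Finset F)) (t := Finset.univ) (by
      rw [Finset.card_univ]
      have : ({0, r, -r} : Finset F).card ≤ 3 := Finset.card_le_three
      omega)
    simp only [Finset.mem_insert, Finset.mem_singleton, not_or] at hs
    exact ⟨s, hs.1, hs.2.1, hs.2.2⟩

/-- Forms invariant under the fixed field. -/
theorem formK (hq3 : 3 ∣ q + 1) (hq2 : q ≠ 2) (hinv : ∀ χ : F, χ ≠ 0 → χ ^ q = χ → ∀ x y, ψ (χ * x) (χ * y) = ψ x y) (c d : F) :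
    ψ c d = 0 := by
  classical
  have hq := HermCount.two_le_q hF
  have hq5 : 5 ≤ q := by
    obtain ⟨k, hk⟩ := hq3
    omega
  let L := KK hF
  let ψ' : L → L → A := fun x y => ψ (x.1 * c) (y.1 * d)
  have hl' : ∀ a b e : L, ψ' (a + b) e = ψ' a e + ψ' b e := by
    intro a b e
    show ψ ((a.1 + b.1) * c) (e.1 * d) = _
    rw [add_mul, hl]
  have hr' : ∀ a b e : L, ψ' a (b + e) = ψ' a b + ψ' a e := by
    intro a b e
    show ψ (a.1 * c) ((b.1 + e.1) * d) = _
    rw [add_mul, hr]
  have hinv' : ∀ χ : L, χ ≠ 0 → ∀ x y : L, ψ' (χ * x) (χ * y) = ψ' x y := by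
    intro χ hχ x y
    show ψ (χ.1 * x.1 * c) (χ.1 * y.1 * d) = ψ (x.1 * c) (y.1 * d)
    rw [mul_assoc, mul_assoc]
    exact hinv χ.1 (fun e => hχ (Subtype.ext e)) χ.2 _ _
  have key : ψ' 1 1 = 0 := by
    by_cases h2 : (2 : F) = 0
    · have h2' : (2 : L) = 0 := Subtype.ext h2
      apply eq_zero_even_cube hl' hr' hinv' h2'
      · intro y hy0 hy1
        have hy0' : y.1 ≠ 0 := fun e => hy0 (Subtype.ext e)
        -- the cubing map on the fixed field
        let C := (powMonoidHom (q - 1) : Fˣ →* Fˣ).ker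
        have hC : (Nat.card C).Coprime 3 := by
          rw [card_ker_pow_pred hF]
          obtain ⟨k, hk⟩ := hq3
          have : q - 1 = 3 * k - 2 := by omega
          rw [this, Nat.coprime_comm, Nat.Prime.coprime_iff_not_dvd Nat.prime_three]
          intro hd
          omega
        let u : Fˣ := Units.mk0 y.1 hy0'
        have hu : u ∈ C := by
          rw [MonoidHom.mem_ker, powMonoidHom_apply]
          apply Units.ext
          rw [Units.val_pow_eq_pow_val, Units.val_one]
          show y.1 ^ (q - 1) = 1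
          have e1 : y.1 ^ q = y.1 := y.2
          have e2 : q = (q - 1) + 1 := by omega
          have e3 : y.1 ^ (q - 1) * y.1 = y.1 * 1 := by
            rw [mul_one, ← pow_succ, ← e2, e1]
          rw [mul_comm] at e3
          exact mul_left_cancel₀ hy0' e3
        obtain ⟨v, hv⟩ := (powCoprime hC).surjective ⟨u, hu⟩
        have hv1 : ((v.1 ^ 3 : Fˣ) : F) = y.1 := by
          have := congrArg (fun z : C => ((z.1 : Fˣ) : F)) hv
          exact this
        have hvq : ((v.1 : Fˣ) : F) ^ q = (v.1 : Fˣ) := by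
          have h1 : (v.1 : Fˣ) ^ (q - 1) = 1 := v.2
          have h2 : ((v.1 : Fˣ) : F) ^ (q - 1) = 1 := by
            rw [← Units.val_pow_eq_pow_val, h1, Units.val_one]
          exact pow_q_of_pred _ (by omega) h2
        refine ⟨⟨_, hvq⟩, ?_, ?_, ?_⟩
        · intro e
          exact v.1.ne_zero (congrArg Subtype.val e)
        · intro e
          apply hy1
          apply Subtype.ext
          have e4 : ((v.1 : Fˣ) : F) = 1 := congrArg Subtype.val e
          rw [← hv1, Units.val_pow_eq_pow_val, e4]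
          simp
        · apply Subtype.ext
          show ((v.1 : Fˣ) : F) * (v.1 : Fˣ) * (v.1 : Fˣ) = y.1
          rw [← hv1, Units.val_pow_eq_pow_val]
          ring
      · obtain ⟨a, ha0, haq, ha⟩ := exists_K hF ({1} : Finset F) (by simp; omega)
        obtain ⟨c', hc0, hcq, hc'⟩ := exists_K hF ({1, a, a + 1} : Finset F) (by
          have : ({1, a, a + 1} : Finset F).card ≤ 3 := Finset.card_le_three
          have h8 : 8 ≤ q := by
            by_contra h8
            have e5 : q = 5 := by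
              obtain ⟨k, hk⟩ := hq3
              omega
            obtain ⟨p, k, hp, hc, hqk⟩ := exists_char_pow hF
            have hp2 : p = 2 := by
              haveI := hc
              have := CharP.cast_eq_zero_iff F p 2
              have h22 : p ∣ 2 := this.mp (by exact_mod_cast h2)
              exact (Nat.prime_dvd_prime_iff_eq hp Nat.prime_two).mp h22
            rw [e5, hp2] at hqk
            have hk1 : k ≤ 2 ∨ 3 ≤ k := by omega
            rcases hk1 with hk1 | hk1
            · interval_cases k <;> omega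
            · have : 2 ^ 3 ≤ 2 ^ k := Nat.pow_le_pow_right (by norm_num) hk1
              omega
          omega)
        simp only [Finset.mem_singleton] at ha
        simp only [Finset.mem_insert, Finset.mem_singleton, not_or] at hc'
        refine ⟨⟨a, haq⟩, ⟨c', hcq⟩, ?_, ?_, ?_, ?_, ?_, ?_⟩
        · exact fun e => ha0 (congrArg Subtype.val e)
        · exact fun e => ha (congrArg Subtype.val e)
        · exact fun e => hc0 (congrArg Subtype.val e)
        · exact fun e => hc'.1 (congrArg Subtype.val e)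
        · intro e
          have e6 : a + c' = 0 := congrArg Subtype.val e
          apply hc'.2.1
          have e7 : a + a = 0 := by
            have : a + a = 2 * a := by ring
            rw [this, h2, zero_mul]
          linear_combination e6 - e7
        · intro e
          have e6 : a + c' = 1 := congrArg Subtype.val e
          apply hc'.2.2
          have e7 : a + a = 0 := by
            have : a + a = 2 * a := by ring
            rw [this, h2, zero_mul]
          have e8 : (1 : F) + 1 = 0 := by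
            have : (1 : F) + 1 = 2 := by ring
            rw [this, h2]
          linear_combination e6 - e7
    · have h2' : (2 : L) ≠ 0 := fun e => h2 (congrArg Subtype.val e)
      apply eq_zero_odd hl' hr' hinv' h2'
      intro r hr0
      obtain ⟨v, hv0, hvq, hv⟩ := exists_K hF ({r.1, -r.1} : Finset F) (by
        have : ({r.1, -r.1} : Finset F).card ≤ 2 := Finset.card_le_two
        omega)
      simp only [Finset.mem_insert, Finset.mem_singleton, not_or] at hv
      refine ⟨⟨v, hvq⟩, ?_, ?_, ?_⟩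
      · exact fun e => hv0 (congrArg Subtype.val e)
      · exact fun e => hv.1 (congrArg Subtype.val e)
      · exact fun e => hv.2 (congrArg Subtype.val e)
  have e9 : ψ' 1 1 = ψ c d := by
    show ψ ((1 : F) * c) ((1 : F) * d) = ψ c d
    rw [one_mul, one_mul]
  rw [← e9]
  exact key

end elements

section formok

variable {b : Fin n → Fin n → F} {l l' : Fin n}

omit [Fintype F] in
lemma phi_single (s : SU n F q) (k : II l l') (c : F) :
    phi b l l' s (Pi.single k c) = Pi.single k (mulf b l l' s k * c) := by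
  funext x
  by_cases hx : x = k
  · subst hx
    show mulf b l l' s x * (Pi.single x c : II l l' → F) x = (Pi.single x (mulf b l l' s x * c) : II l l' → F) x
    simp
  · show mulf b l l' s x * (Pi.single k c : II l l' → F) x = (Pi.single k (mulf b l l' s k * c) : II l l' → F) x
    simp [Pi.single_eq_of_ne hx]

section forms

variable {A : Type*} [AddCommGroup A] {ψ : (II l l' → F) → (II l l' → F) → A}
  (hl : ∀ a b c, ψ (a + b) c = ψ a c + ψ b c) (hr : ∀ a b c, ψ a (b + c) = ψ a b + ψ a c)

include hl hr in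
lemma form_zero_of_single (hs : ∀ j k c d, ψ (Pi.single j c) (Pi.single k d) = 0) (a c : II l l' → F) : ψ a c = 0 := by
  classical
  let L : (II l l' → F) →+ A := AddMonoidHom.mk' (fun a => ψ a c) (fun a a' => hl a a' c)
  show L a = 0
  rw [← Finset.univ_sum_single a, map_sum]
  refine Finset.sum_eq_zero fun j _ => ?_
  let L' : (II l l' → F) →+ A := AddMonoidHom.mk' (fun c => ψ (Pi.single j (a j)) c) (fun a' c' => hr _ a' c')
  show L' c = 0
  rw [← Finset.univ_sum_single c, map_sum]
  exact Finset.sum_eq_zero fun k _ => hs j k _ _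

include hr in
/-- Vanishing of the cross terms. -/
lemma cross_zero {s : SU n F q} (hinv : ∀ a c, ψ (phi b l l' s a) (phi b l l' s c) = ψ a c) {j k : II l l'}
    (h1 : mulf b l l' s j = 1) (h2 : mulf b l l' s k ≠ 1) (c d : F) : ψ (Pi.single j c) (Pi.single k d) = 0 := by
  have hm : mulf b l l' s k - 1 ≠ 0 := sub_ne_zero.mpr h2
  set d' := d / (mulf b l l' s k - 1) with hd'
  have e1 := hinv (Pi.single j c) (Pi.single k d')
  rw [phi_single, phi_single, h1, one_mul] at e1
  have e2 : mulf b l l' s k * d' = d' + d := by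
    rw [hd']
    field_simp
    ring
  rw [e2, Pi.single_add, hr] at e1
  simpa using e1

end forms

variable (hb : FR q b l l') (hF : Fintype.card F = q ^ 2)

include hb

omit hb [Fintype F] in
lemma norm_ite_mul {a c : F} (ha : a * a ^ q = 1) (hc : c * c ^ q = 1) (P Q : Prop) [Decidable P] [Decidable Q] :
    ((if P then a else 1) * (if Q then c else 1)) * ((if P then a else 1) * (if Q then c else 1)) ^ q = 1 := by
  have h1 : (if P then a else 1) * (if P then a else 1) ^ q = 1 := by
    split_ifs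
    · exact ha
    · simp
  have h2 : (if Q then c else 1) * (if Q then c else 1) ^ q = 1 := by
    split_ifs
    · exact hc
    · simp
  rw [mul_pow]
  set A := if P then a else 1
  set C := if Q then c else 1
  linear_combination (C * C ^ q) * h1 + h2

/-- Elements of the torus with given values. -/
lemma tor_of (hF : Fintype.card F = q ^ 2) (lam : F) (hlam : lam ≠ 0) (β : II l l' → F)
    (hβ : ∀ k, β k * β k ^ q = 1) (hdet : lam * (lam⁻¹) ^ q * ∏ k, β k = 1) :
    ∃ s ∈ Tor hb, act s (b l) = lam • b l ∧ ∀ k : II l l', act s (b k.1) = β k • b k.1 := by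
  obtain ⟨s, h1, h2, h3⟩ := hb.exists_tor hF lam hlam β hβ hdet
  refine ⟨s, ?_, h1, h3⟩
  intro i
  by_cases hi : i = l
  · subst hi
    exact ⟨_, h1⟩
  by_cases hi' : i = l'
  · subst hi'
    exact ⟨_, h2⟩
  exact ⟨_, h3 ⟨i, hi, hi'⟩⟩

include hF

lemma norm_inv {ν : F} (hν : ν * ν ^ q = 1) : ν⁻¹ * (ν⁻¹) ^ q = 1 := by
  rw [inv_pow, ← mul_inv, hν, inv_one]

lemma ne_zero_of_norm {ν : F} (hν : ν * ν ^ q = 1) : ν ≠ 0 := by
  rintro rfl
  rw [zero_mul] at hν
  exact zero_ne_one hν

/-- An element of the torus fixing the centre with multipliers `ν`, `ν⁻¹` at two places. -/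
lemma exists_pair {k x : II l l'} (hxk : x ≠ k) : ∃ s ∈ Tor hb, ∃ ν : F, ν ≠ 1 ∧ lamf b l l' s = 1 ∧
    mulf b l l' s k = ν ∧ mulf b l l' s x = ν⁻¹ ∧ ∀ i, i ≠ k → i ≠ x → mulf b l l' s i = 1 := by
  classical
  obtain ⟨ν, hν, hν1⟩ := exists_mu hF (e := 1) (by norm_num) (by have := HermCount.two_le_q hF; omega)
  rw [pow_one] at hν1
  have hν0 := ne_zero_of_norm hb hF hν
  let β : II l l' → F := fun i => (if i = k then ν else 1) * (if i = x then ν⁻¹ else 1)
  obtain ⟨s, hs, h1, h2⟩ := tor_of hb hF 1 one_ne_zero β (by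
    intro i
    exact norm_ite_mul hν (norm_inv hb hF hν) _ _) (by
    simp only [β, Finset.prod_mul_distrib, Finset.prod_ite_eq', Finset.mem_univ, if_true]
    simp [hν0])
  have hlam : lamf b l l' s = 1 := by
    rw [lamf_of hb (c := 1) h1]
  refine ⟨s, hs, ν, hν1, hlam, ?_, ?_, ?_⟩
  · rw [mulf_of hb h1 (h2 k)]
    simp [β, hxk.symm]
  · rw [mulf_of hb h1 (h2 x)]
    simp [β, hxk]
  · intro i hi hi'
    rw [mulf_of hb h1 (h2 i)]
    simp [β, hi, hi']

lemma exists_cross_four (hq : 4 ≤ q) {j k : II l l'} (hjk : j ≠ k) : ∃ s ∈ Tor hb, mulf b l l' s j = 1 ∧ mulf b l l' s k ≠ 1 := by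
  classical
  obtain ⟨u, hu, hu4⟩ := exists_mu hF (e := 4) (by norm_num) hq
  have hu0 := ne_zero_of_norm hb hF hu
  have hq1 : u ^ q = u⁻¹ := by
    field_simp
    linear_combination hu
  let β : II l l' → F := fun i => (if i = j then u else 1) * (if i = k then (u⁻¹) ^ 3 else 1)
  obtain ⟨s, hs, h1, h2⟩ := tor_of hb hF u hu0 β (by
    intro i
    have hu' := norm_inv hb hF hu
    have hu3 : (u⁻¹) ^ 3 * ((u⁻¹) ^ 3) ^ q = 1 := by
      rw [← pow_mul, mul_comm 3 q, pow_mul, ← mul_pow, hu', one_pow]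
    exact norm_ite_mul hu hu3 _ _) (by
    simp only [β, Finset.prod_mul_distrib, Finset.prod_ite_eq', Finset.mem_univ, if_true]
    rw [inv_pow, hq1]
    field_simp)
  refine ⟨s, hs, ?_, ?_⟩
  · rw [mulf_of hb h1 (h2 j), hq1]
    simp [β, hjk]
    exact inv_mul_cancel₀ hu0
  · rw [mulf_of hb h1 (h2 k), hq1]
    simp only [β, hjk.symm, if_false, if_true, one_mul]
    intro e
    apply hu4
    field_simp at e
    linear_combination -e

lemma exists_hgen_single (hq : 3 ≤ q) {j : II l l'} (huniq : ∀ x : II l l', x = j) :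
    ∃ s ∈ Tor hb, lamf b l l' s * (lamf b l l' s) ^ q = 1 ∧ mulf b l l' s j ≠ 1 := by
  classical
  obtain ⟨u, hu, hu3⟩ := exists_mu hF (e := 3) (by norm_num) hq
  have hu0 := ne_zero_of_norm hb hF hu
  have hq1 : u ^ q = u⁻¹ := by
    field_simp
    linear_combination hu
  have hu' := norm_inv hb hF hu
  have e2 : (u⁻¹) ^ 2 * ((u⁻¹) ^ 2) ^ q = 1 := by
    rw [← pow_mul, mul_comm 2 q, pow_mul, ← mul_pow, hu', one_pow]
  obtain ⟨s, hs, h1, h2⟩ := tor_of hb hF u hu0 (fun _ => (u⁻¹) ^ 2) (fun _ => e2) (by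
    rw [Fintype.prod_eq_single j (fun x hx => absurd (huniq x) hx), inv_pow, hq1]
    field_simp)
  refine ⟨s, hs, ?_, ?_⟩
  · rw [lamf_of hb h1]
    exact hu
  · rw [mulf_of hb h1 (h2 j), hq1]
    intro e
    apply hu3
    field_simp at e
    linear_combination -e

lemma exists_diag_pair {j k : II l l'} (hk : k ≠ j) {χ : F} (hχ : χ ≠ 0) : ∃ s ∈ Tor hb, mulf b l l' s j = χ := by
  classical
  set lam := χ ^ q with hlam
  have hl0 : lam ≠ 0 := pow_ne_zero _ hχ
  have hlq : lam ^ q = χ := pow_pow_self hF χ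
  have hχq : χ ^ q = lam := rfl
  let β : II l l' → F := fun i => if i = k then χ * lam⁻¹ else 1
  obtain ⟨s, hs, h1, h2⟩ := tor_of hb hF lam hl0 β (by
    intro i
    simp only [β]
    split_ifs
    · rw [mul_pow, inv_pow, hlq, hχq]
      field_simp
    · simp) (by
    simp only [β, Finset.prod_ite_eq', Finset.mem_univ, if_true]
    rw [inv_pow, hlq]
    field_simp)
  refine ⟨s, hs, ?_⟩
  rw [mulf_of hb h1 (h2 j), hlq]
  simp [β, hk.symm]

lemma exists_diag_single {j : II l l'} (huniq : ∀ x : II l l', x = j) {lam : F} (hl0 : lam ≠ 0) :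
    ∃ s ∈ Tor hb, mulf b l l' s j = lam ^ q * (lam ^ q * lam⁻¹) := by
  classical
  have hlq : (lam ^ q) ^ q = lam := pow_pow_self hF lam
  have hl1 : lam ^ q ≠ 0 := pow_ne_zero _ hl0
  obtain ⟨s, hs, h1, h2⟩ := tor_of hb hF lam hl0 (fun _ => lam ^ q * lam⁻¹) (by
    intro i
    rw [mul_pow, inv_pow, hlq]
    field_simp) (by
    rw [Fintype.prod_eq_single j (fun x hx => absurd (huniq x) hx), inv_pow]
    field_simp)
  exact ⟨s, hs, by rw [mulf_of hb h1 (h2 j)]⟩

omit hb in
lemma pow_surj_two {χ : F} (hq3 : ¬ 3 ∣ q + 1) (hχ : χ ≠ 0) : ∃ lam : F, lam ≠ 0 ∧ lam ^ q * (lam ^ q * lam⁻¹) = χ := by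
  have hq := HermCount.two_le_q hF
  obtain ⟨k, rfl⟩ : ∃ k, q = k + 1 := ⟨q - 1, by omega⟩
  have hc : (Nat.card Fˣ).Coprime (2 * k + 1) := by
    rw [card_units hF]
    apply Nat.Coprime.mul_left
    · simp
    · have hd : Nat.gcd (k + 1 + 1) (2 * k + 1) ∣ 3 := by
        have h1 := Nat.gcd_dvd_left (k + 1 + 1) (2 * k + 1)
        have h2 := Nat.gcd_dvd_right (k + 1 + 1) (2 * k + 1)
        have h3 : Nat.gcd (k + 1 + 1) (2 * k + 1) ∣ 2 * (k + 1 + 1) := Dvd.dvd.mul_left h1 2
        have e : 2 * (k + 1 + 1) = (2 * k + 1) + 3 := by ring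
        rw [e] at h3
        exact (Nat.dvd_add_right h2).mp h3
      have h4 : Nat.gcd (k + 1 + 1) (2 * k + 1) = 1 ∨ Nat.gcd (k + 1 + 1) (2 * k + 1) = 3 :=
        (Nat.dvd_prime Nat.prime_three).mp hd
      rcases h4 with h4 | h4
      · exact h4
      · exact absurd (h4 ▸ Nat.gcd_dvd_left (k + 1 + 1) (2 * k + 1)) hq3
  obtain ⟨v, hv⟩ := (powCoprime hc).surjective (Units.mk0 χ hχ)
  have hv' : ((v : Fˣ) : F) ^ (2 * k + 1) = χ := by
    have := congrArg (fun z : Fˣ => (z : F)) hv
    simpa using this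
  refine ⟨v, v.ne_zero, ?_⟩
  rw [← hv']
  have hv0 : ((v : Fˣ) : F) ≠ 0 := v.ne_zero
  field_simp
  ring

/-- The alternating forms on the quotient invariant under the torus vanish. -/
theorem formOK_big (hq : 3 ≤ q) (hthird : ∀ j k : II l l', j ≠ k → (∃ x, x ≠ j ∧ x ≠ k) ∨ 4 ≤ q) :
    FormOK.{u} (II l l' → F) ((fun s => phi b l l' s) '' ((Tor hb : Subgroup (SU n F q)) : Set (SU n F q))) := by
  classical
  intro A _ f hl hr halt hinv
  have hinv' : ∀ s ∈ Tor hb, ∀ a c, f (phi b l l' s a) (phi b l l' s c) = f a c :=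
    fun s hs => hinv _ ⟨s, hs, rfl⟩
  apply form_zero_of_single hl hr
  intro j k c d
  by_cases hjk : j = k
  · subst hjk
    let ψ' : F → F → A := fun c d => f (Pi.single j c) (Pi.single j d)
    have hl' : ∀ a b c, ψ' (a + b) c = ψ' a c + ψ' b c := by
      intro a b c
      show f (Pi.single j (a + b)) _ = _
      rw [Pi.single_add, hl]
    have hr' : ∀ a b c, ψ' a (b + c) = ψ' a b + ψ' a c := by
      intro a b c
      show f _ (Pi.single j (b + c)) = _
      rw [Pi.single_add, hr]
    have hX : ∀ s ∈ Tor hb, ∀ x y, ψ' (mulf b l l' s j * x) (mulf b l l' s j * y) = ψ' x y := by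
      intro s hs x y
      show f _ _ = f _ _
      rw [← phi_single, ← phi_single]
      exact hinv' s hs _ _
    by_cases hun : ∀ x : II l l', x = j
    · by_cases hq3 : 3 ∣ q + 1
      · have hq2 : q ≠ 2 := by omega
        refine formK hF hl' hr' hq3 hq2 (fun χ hχ hχq x y => ?_) c d
        obtain ⟨s, hs, e⟩ := exists_diag_single hb hF hun hχ
        have e2 : χ ^ q * (χ ^ q * χ⁻¹) = χ := by
          rw [hχq]
          field_simp
        rw [e2] at e
        rw [← e]
        exact hX s hs x y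
      · refine formF hF hl' hr' hq (fun x => halt _) (fun χ hχ x y => ?_) c d
        obtain ⟨lam, hl0, e1⟩ := pow_surj_two hF hq3 hχ
        obtain ⟨s, hs, e⟩ := exists_diag_single hb hF hun hl0
        rw [e1] at e
        rw [← e]
        exact hX s hs x y
    · push Not at hun
      obtain ⟨k', hk'⟩ := hun
      refine formF hF hl' hr' hq (fun x => halt _) (fun χ hχ x y => ?_) c d
      obtain ⟨s, hs, e⟩ := exists_diag_pair hb hF hk' hχ
      rw [← e]
      exact hX s hs x y
  · rcases hthird j k hjk with ⟨x, hx, hx'⟩ | h4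
    · obtain ⟨s, hs, ν, hν, -, h1, -, h3⟩ := exists_pair hb hF hx'
      refine cross_zero hr (hinv' s hs) (h3 j hjk hx.symm) (by rw [h1]; exact hν) c d
    · obtain ⟨s, hs, h1, h2⟩ := exists_cross_four hb hF h4 hjk
      exact cross_zero hr (hinv' s hs) h1 h2 c d

/-- The generation hypothesis. -/
theorem hgen_big (hq : 3 ≤ q) :
    AddSubgroup.closure {w | ∃ s ∈ Tor hb, (∀ a ∈ RE hF hb.ee, rho b l l' a = 0 → s * a * s⁻¹ = a) ∧
      ∃ w', w = phi b l l' s w' - w'} = ⊤ := by
  apply hgen_of hb hF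
  intro k
  by_cases hun : ∀ x : II l l', x = k
  · exact exists_hgen_single hb hF hq hun
  · push Not at hun
    obtain ⟨x, hx⟩ := hun
    obtain ⟨s, hs, ν, hν, h1, h2, -⟩ := exists_pair hb hF hx
    refine ⟨s, hs, ?_, by rw [h2]; exact hν⟩
    rw [h1]
    simp

end formok

end Cfsg.Agent.Lib.UMRoot
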