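import Mathlib
import Cfsg.Agent.Lib.UMForm

/-!
# The complement of the kernel in the preimage of a root group, `q ≥ 3`
-/

set_option autoImplicit false
set_option linter.unusedSectionVars false
set_option linter.unusedVariables false
set_option linter.style.haveILetI false

namespace Cfsg.Agent.Lib.UMRoot

open Module Matrix Subgroup Cfsg Cfsg.Agent.Lib.UnitaryBasic Cfsg.Agent.Lib.UnitarySU
  Cfsg.Agent.Lib.UnitaryConj Cfsg.Agent.Lib.UnitaryE Cfsg.Agent.Lib.SUGen
  Cfsg.Agent.Lib.HermForm Cfsg.Agent.Lib.HermCount Cfsg.Agent.Lib.GUParab Cfsg.Agent.Lib.FFNorm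
  Cfsg.Agent.Lib.SU2GenA Cfsg.Agent.Lib.SU2GenC Cfsg.Agent.Lib.UMHeis Cfsg.Agent.Lib.UMSect
  Cfsg.Agent.Lib.UMField
open scoped commutatorElement

universe u

section lift

variable {Γ G : Type*} [Group Γ] [Group G]

/-- Lifting elements of order prime to `r`. -/
lemma exists_cop_lift {σ : Γ →* G} (h : CE σ) {r : ℕ} (hZ : IsPGroup r σ.ker) {g : G} (hg : Nat.Coprime (orderOf g) r) :
    ∃ x : Γ, Nat.Coprime (orderOf x) r ∧ σ x = g := by
  obtain ⟨x, rfl⟩ := h.surj g
  set m := orderOf (σ x) with hm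
  obtain ⟨c, hc⟩ := hZ ⟨x ^ m, by rw [MonoidHom.mem_ker, map_pow]; exact pow_orderOf_eq_one _⟩
  have hc' : (x ^ m) ^ r ^ c = 1 := congrArg Subtype.val hc
  have hcop : Nat.Coprime m (r ^ c) := Nat.Coprime.pow_right c hg
  obtain ⟨k, hk1, hk2⟩ : ∃ k, k ≡ 1 [MOD m] ∧ k ≡ 0 [MOD r ^ c] := by
    let z := Nat.chineseRemainder hcop 1 0
    exact ⟨z, z.2.1, z.2.2⟩
  refine ⟨x ^ k, ?_, ?_⟩
  · have h1 : (x ^ k) ^ m = 1 := by
      obtain ⟨d, hd⟩ : r ^ c ∣ k := (Nat.modEq_zero_iff_dvd).mp hk2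
      have e : (x ^ k) ^ m = ((x ^ m) ^ r ^ c) ^ d := by
        rw [hd]
        simp only [← pow_mul]
        congr 1
        ring
      rw [e, hc', one_pow]
    exact Nat.Coprime.coprime_dvd_left (orderOf_dvd_of_pow_eq_one h1) hg
  · rw [map_pow]
    have := (pow_eq_pow_iff_modEq (x := σ x) (n := k) (m := 1)).mpr hk1
    simpa using this

/-- Elements commuting with `σ x` and normalizing `R` normalize the commutator. -/
lemma norm_Rh [Finite Γ] {σ : Γ →* G} (hσ : CE σ) {R : Subgroup G} {x y : Γ} (hy : σ y ∈ normalizer (R : Set G))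
    (hc : Commute (σ y) (σ x)) : y ∈ normalizer ((Rh σ R x : Subgroup Γ) : Set Γ) := by
  rw [mem_normalizer_iff]
  intro r
  constructor
  · intro hr
    exact conj_mem_Rh hσ hy hc hr
  · intro hr
    have h1 : σ y⁻¹ ∈ normalizer (R : Set G) := by
      rw [map_inv]
      exact inv_mem hy
    have h2 : Commute (σ y⁻¹) (σ x) := by
      rw [map_inv]
      exact hc.inv_left
    have h3 := conj_mem_Rh hσ h1 h2 hr
    have e : y⁻¹ * (y * r * y⁻¹) * y⁻¹⁻¹ = r := by group
    rwa [e] at h3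

end lift

variable {F : Type*} [Field F] [Fintype F] {q n : ℕ}

local notation "h" => hermForm n F q

section big

variable {b : Fin n → Fin n → F} {l l' : Fin n} (hb : FR q b l l') (hF : Fintype.card F = q ^ 2)

include hb

omit [Fintype F] in
lemma FR.act_sum [Fintype F] (C : SU n F q) (c : Fin n → F) : act C (∑ i, c i • b i) = ∑ i, c i • act C (b i) := by
  rw [act_def, Matrix.mulVec_sum]
  refine Finset.sum_congr rfl fun i _ => ?_
  rw [Matrix.mulVec_smul]
  rfl

/-- An element fixing the orthonormal part fixes the perpendicular of the hyperbolic pair. -/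
lemma fix_perp {t : SU n F q} (ht : ∀ k : II l l', act t (b k.1) = b k.1) {w : Fin n → F} (hwe : h w (b l) = 0)
    (hwf : h w (b l') = 0) : act t w = w := by
  rw [hb.expand w, hb.act_sum t]
  refine Finset.sum_congr rfl fun i _ => ?_
  by_cases hi : i = l
  · subst hi
    rw [Equiv.swap_apply_left, hwf, zero_smul, zero_smul]
  by_cases hi' : i = l'
  · subst hi'
    rw [Equiv.swap_apply_right, hwe, zero_smul, zero_smul]
  rw [ht ⟨i, hi, hi'⟩]

include hF

/-- Elements fixing the hyperbolic pair commute with elements acting only on the pair by scalars. -/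
lemma comm_pair {t y : SU n F q} {a a' : F} (h1 : act t (b l) = a • b l) (h2 : act t (b l') = a' • b l')
    (h3 : ∀ k : II l l', act t (b k.1) = b k.1) (hy1 : act y (b l) = b l) (hy2 : act y (b l') = b l') : Commute y t := by
  apply hb.act_ext hF
  intro i
  rw [act_mul, act_mul]
  by_cases hi : i = l
  · subst hi
    rw [h1, act_smul, hy1, h1]
  by_cases hi' : i = l'
  · subst hi'
    rw [h2, act_smul, hy2, h2]
  rw [h3 ⟨i, hi, hi'⟩]
  refine (fix_perp hb h3 ?_ ?_).symm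
  · have := herm_act y (b i) (b l)
    rw [hy1] at this
    rw [this]
    exact hb.ue ⟨i, hi, hi'⟩
  · have := herm_act y (b i) (b l')
    rw [hy2] at this
    rw [this]
    exact hb.uf ⟨i, hi, hi'⟩

/-- Lemma N, `q ≥ 3`. -/
theorem lemmaN_big {Γ : Type u} [Group Γ] [Finite Γ] {σ : Γ →* SU n F q} (hσ : CE σ) {p : ℕ} [hp : Fact p.Prime] [CharP F p]
    (hpq : p ∣ q) (hZ : IsPGroup p σ.ker) (hq : 3 ≤ q) (hI : Nonempty (II l l'))
    (hthird : ∀ j k : II l l', j ≠ k → (∃ x, x ≠ j ∧ x ≠ k) ∨ 4 ≤ q) :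
    ∃ R : Subgroup Γ, IsPGroup p R ∧ R.map σ = RE hF hb.ee ∧ (∀ z ∈ R, σ z = 1 → z = 1) ∧
      ∀ y : Γ, act (σ y) (b l) = b l → act (σ y) (b l') = b l' → y ∈ normalizer ((R : Subgroup Γ) : Set Γ) := by
  classical
  obtain ⟨a, ha0, haq, ha1⟩ := exists_K hF ({1} : Finset F) (by simp; omega)
  simp only [Finset.mem_singleton] at ha1
  obtain ⟨t, h1, h2, h3⟩ := hb.exists_tor hF a ha0 (fun _ => 1) (fun _ => by simp) (by
    simp only [Finset.prod_const_one, mul_one]
    rw [inv_pow, haq]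
    exact mul_inv_cancel₀ ha0)
  have ht : t ∈ Tor hb := by
    intro i
    by_cases hi : i = l
    · subst hi
      exact ⟨_, h1⟩
    by_cases hi' : i = l'
    · subst hi'
      exact ⟨_, h2⟩
    exact ⟨_, h3 ⟨i, hi, hi'⟩⟩
  have hm : ∀ k, mulf b l l' t k ≠ 1 := by
    intro k
    rw [mulf_of hb h1 (h3 k), haq, mul_one]
    exact ha1
  obtain ⟨x, hx, rfl⟩ := exists_cop_lift hσ hZ (tor_order_coprime hb hF hpq ht)
  have hD : HD p (RE hF hb.ee) (rho b l l') := hd hF hb hI
  have hTD := td hb hF ht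
  have hφ := fpf (b := b) hm
  have hT := tf hb hF ht
  have hcen : ∀ c ∈ ⁅Rh σ (RE hF hb.ee) x, Rh σ (RE hF hb.ee) x⁆, ∀ r ∈ Rh σ (RE hF hb.ee) x, r * c = c * r :=
    fun c hc r hr => derived_central hσ hZ hD hx hTD hφ hT (hgen_big hb hF hq) hc hr
  refine ⟨Rh σ (RE hF hb.ee) x, ?_, map_Rh hD hσ.surj hTD hφ, ?_, ?_⟩
  · exact (comap_pgroup hZ hD).to_le (Rh_le hTD.norm)
  · intro z hz hz1
    exact inj_of_form hσ hZ hD hx hTD hφ hcen hT (tor_card_coprime hb hF hpq) (formOK_big hb hF hq hthird) hz hz1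
  · intro y hy1 hy2
    apply norm_Rh hσ
    · exact mem_norm_scale hF hb.ee one_ne_zero (by rw [one_smul]; exact hy1)
    · exact comm_pair hb hF h1 h2 (fun k => by rw [h3, one_smul]) hy1 hy2

end big

end Cfsg.Agent.Lib.UMRoot
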