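import Mathlib
import Cfsg.Agent.Lib.UMLemN

/-!
# The complement of the kernel in the preimage of a root group, `q = 2`
-/

set_option autoImplicit false
set_option linter.unusedSectionVars false
set_option linter.unusedVariables false
set_option linter.style.haveILetI false

namespace Cfsg.Agent.Lib.UMRoot

open Module Matrix Subgroup Cfsg Cfsg.Agent.Lib.UnitaryBasic Cfsg.Agent.Lib.UnitarySU
  Cfsg.Agent.Lib.UnitaryConj Cfsg.Agent.Lib.UnitaryE Cfsg.Agent.Lib.SUGen
  Cfsg.Agent.Lib.HermForm Cfsg.Agent.Lib.HermCount Cfsg.Agent.Lib.GUParab Cfsg.Agent.Lib.FFNorm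
  Cfsg.Agent.Lib.SU2GenA Cfsg.Agent.Lib.SU2GenC Cfsg.Agent.Lib.UMHeis Cfsg.Agent.Lib.UMSect
  Cfsg.Agent.Lib.UMField
open scoped commutatorElement

universe u

section groups

variable {Γ G : Type*} [Group Γ] [Group G]

/-- Equality of commutators for two commuting lifts. -/
lemma Rh_le_of_comm {W : Type*} [AddCommGroup W] [Finite Γ] {σ : Γ →* G} (hσ : CE σ) {R : Subgroup G} {ρ : G → W}
    {p : ℕ} [Fact p.Prime] {x₀ x₁ : Γ} (hD : HD p R ρ) {φ₀ : W → W} (h0 : TD R ρ (σ x₀) φ₀) (hφ₀ : ∀ w, ∃ w', φ₀ w' - w' = w)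
    (hn₁ : σ x₁ ∈ normalizer (R : Set G)) (hc : Commute (σ x₁) (σ x₀)) : Rh σ R x₁ ≤ Rh σ R x₀ := by
  have hmap := map_Rh hD hσ.surj h0 hφ₀
  have hnorm : x₁ ∈ normalizer ((Rh σ R x₀ : Subgroup Γ) : Set Γ) := norm_Rh hσ hn₁ hc
  unfold Rh
  rw [Subgroup.commutator_le]
  intro a ha g hg
  have h1 : σ a ∈ (Rh σ R x₀).map σ := by
    rw [hmap]
    exact ha
  obtain ⟨r, hr, e⟩ := h1
  have hz : r⁻¹ * a ∈ σ.ker := by
    rw [MonoidHom.mem_ker, map_mul, map_inv, e, inv_mul_cancel]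
  have e2 : ⁅a, g⁆ = ⁅r, g⁆ := by
    have hc' : (r⁻¹ * a) ∈ center Γ := hσ.cen hz
    have e3 : a = r * (r⁻¹ * a) := by group
    set z := r⁻¹ * a
    rw [e3]
    simp only [commutatorElement_def]
    have hc1 := mem_center_iff.mp hc' g
    have hc2 := mem_center_iff.mp hc' (r⁻¹)
    calc r * z * g * (r * z)⁻¹ * g⁻¹ = r * (z * g) * z⁻¹ * r⁻¹ * g⁻¹ := by group
      _ = r * (g * z) * z⁻¹ * r⁻¹ * g⁻¹ := by rw [hc1]
      _ = r * g * r⁻¹ * g⁻¹ := by group
  rw [e2]
  have hg' : g ∈ normalizer ((Rh σ R x₀ : Subgroup Γ) : Set Γ) := by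
    have : zpowers x₁ ≤ normalizer ((Rh σ R x₀ : Subgroup Γ) : Set Γ) := by
      rw [zpowers_le]
      exact hnorm
    exact this hg
  rw [commutatorElement_def]
  have h3 : g * r⁻¹ * g⁻¹ ∈ Rh σ R x₀ := (mem_normalizer_iff.mp hg' _).mp (inv_mem hr)
  have e4 : r * g * r⁻¹ * g⁻¹ = r * (g * r⁻¹ * g⁻¹) := by group
  rw [e4]
  exact mul_mem hr h3

/-- An element whose cube is central and which fixes `σ c`, centralizes `c`, when the kernel is a `2`-group. -/
lemma conj_triv3 [Finite Γ] {σ : Γ →* G} (hσ : CE σ) (hZ : IsPGroup 2 σ.ker) {y c : Γ} (hy : σ (y ^ 3) = 1) (hc : σ (y * c * y⁻¹) = σ c) :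
    y * c * y⁻¹ = c := by
  haveI : Fact (Nat.Prime 2) := ⟨Nat.prime_two⟩
  set ζ := y * c * y⁻¹ * c⁻¹ with hζ
  have h1 : σ ζ = 1 := by
    rw [hζ, map_mul, hc, map_inv, mul_inv_cancel]
  have hζc : ζ ∈ center Γ := hσ.cen (MonoidHom.mem_ker.mpr h1)
  have e1 : y * c * y⁻¹ = ζ * c := by rw [hζ]; group
  have e2 : y * (ζ * c) * y⁻¹ = ζ * (y * c * y⁻¹) := by
    have := mem_center_iff.mp hζc y
    calc y * (ζ * c) * y⁻¹ = (y * ζ) * c * y⁻¹ := by group
      _ = (ζ * y) * c * y⁻¹ := by rw [this]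
      _ = ζ * (y * c * y⁻¹) := by group
  have e3 : y * (ζ * (ζ * c)) * y⁻¹ = ζ * (ζ * (y * c * y⁻¹)) := by
    have := mem_center_iff.mp hζc y
    calc y * (ζ * (ζ * c)) * y⁻¹ = (y * ζ) * (ζ * c) * y⁻¹ := by group
      _ = (ζ * y) * (ζ * c) * y⁻¹ := by rw [this]
      _ = ζ * (y * (ζ * c) * y⁻¹) := by group
      _ = ζ * (ζ * (y * c * y⁻¹)) := by rw [e2]
  have h3 : y ^ 3 * c * (y ^ 3)⁻¹ = c := by
    have := mem_center_iff.mp (hσ.cen (MonoidHom.mem_ker.mpr hy)) c
    rw [← this]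
    group
  have e4 : y ^ 3 * c * (y ^ 3)⁻¹ = y * (y * (y * c * y⁻¹) * y⁻¹) * y⁻¹ := by
    rw [pow_three']
    group
  rw [e4, e1, e2, e1, e3, e1] at h3
  have h5 : ζ ^ 3 = 1 := by
    have : ζ * (ζ * (ζ * c)) = c := h3
    have e5 : ζ * (ζ * (ζ * c)) = ζ ^ 3 * c := by
      rw [pow_three']
      group
    rw [e5] at this
    exact mul_eq_right.mp this
  have h6 : ζ = 1 := eq_one_of_coprime_order hZ h1 (by norm_num : Nat.Coprime 3 2) h5
  rw [e1, h6, one_mul]

/-- The conjugates under an element cycling three elements with the same image coincide, for a `2`-group kernel. -/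
lemma cycle3 [Finite Γ] {σ : Γ →* G} (hσ : CE σ) (hZ : IsPGroup 2 σ.ker) {y c₁ c₂ c₃ : Γ} (h12 : y * c₁ * y⁻¹ = c₂)
    (h23 : y * c₂ * y⁻¹ = c₃) (h31 : y * c₃ * y⁻¹ = c₁) (hs : σ c₁ = σ c₂) : c₁ = c₂ := by
  haveI : Fact (Nat.Prime 2) := ⟨Nat.prime_two⟩
  set ζ := c₂ * c₁⁻¹ with hζ
  have h1 : σ ζ = 1 := by
    rw [hζ, map_mul, map_inv, hs, mul_inv_cancel]
  have hζc : ζ ∈ center Γ := hσ.cen (MonoidHom.mem_ker.mpr h1)
  have e1 : c₂ = ζ * c₁ := by rw [hζ]; group
  have hcomm := mem_center_iff.mp hζc y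
  have e2 : y * (ζ * c₁) * y⁻¹ = ζ * (y * c₁ * y⁻¹) := by
    calc y * (ζ * c₁) * y⁻¹ = (y * ζ) * c₁ * y⁻¹ := by group
      _ = (ζ * y) * c₁ * y⁻¹ := by rw [hcomm]
      _ = ζ * (y * c₁ * y⁻¹) := by group
  have e3 : c₃ = ζ * c₂ := by
    rw [← h23]
    nth_rewrite 1 [e1]
    rw [e2, h12]
  have e4 : c₁ = ζ * c₃ := by
    rw [← h31, e3]
    calc y * (ζ * c₂) * y⁻¹ = (y * ζ) * c₂ * y⁻¹ := by group
      _ = (ζ * y) * c₂ * y⁻¹ := by rw [hcomm]
      _ = ζ * (y * c₂ * y⁻¹) := by group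
      _ = ζ * (ζ * c₂) := by rw [h23, e3]
  have h5 : ζ ^ 3 = 1 := by
    have : ζ * (ζ * (ζ * c₁)) = c₁ := by
      rw [← e1, ← e3, ← e4]
    have e5 : ζ * (ζ * (ζ * c₁)) = ζ ^ 3 * c₁ := by
      rw [pow_three']
      group
    rw [e5] at this
    exact mul_eq_right.mp this
  have h6 : ζ = 1 := eq_one_of_coprime_order hZ h1 (by norm_num : Nat.Coprime 3 2) h5
  rw [e1, h6, one_mul]

end groups

variable {F : Type*} [Field F] [Fintype F] {q n : ℕ}

local notation "h" => hermForm n F q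

section forms

variable {l l' : Fin n} {A : Type*} [AddCommGroup A] {ψ : (II l l' → F) → (II l l' → F) → A}
  (hl : ∀ a b c, ψ (a + b) c = ψ a c + ψ b c) (hr : ∀ a b c, ψ a (b + c) = ψ a b + ψ a c)

include hl hr in
lemma form_mem_of_single (S : AddSubgroup A) (hs : ∀ j k c d, ψ (Pi.single j c) (Pi.single k d) ∈ S) (a c : II l l' → F) :
    ψ a c ∈ S := by
  classical
  let L : (II l l' → F) →+ A := AddMonoidHom.mk' (fun a => ψ a c) (fun a a' => hl a a' c)
  show L a ∈ S
  rw [← Finset.univ_sum_single a, map_sum]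
  refine sum_mem fun j _ => ?_
  let L' : (II l l' → F) →+ A := AddMonoidHom.mk' (fun c => ψ (Pi.single j (a j)) c) (fun a' c' => hr _ a' c')
  show L' c ∈ S
  rw [← Finset.univ_sum_single c, map_sum]
  exact sum_mem fun k _ => hs j k _ _

include hl hr in
/-- Alternating forms on `𝔽₄`-coordinates with trivial cross terms and equal diagonal terms. -/
lemma two_form (halt : ∀ a, ψ a a = 0) (hcross : ∀ j k, j ≠ k → ∀ c d, ψ (Pi.single j c) (Pi.single k d) = 0) {ω : F}
    (hF4 : ∀ x : F, x = 0 ∨ x = 1 ∨ x = ω ∨ x = ω + 1) {c₀ : A} (hc : ∀ j, ψ (Pi.single j 1) (Pi.single j ω) = c₀)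
    (h20 : c₀ + c₀ = 0) (a c : II l l' → F) : ψ a c = 0 ∨ ψ a c = c₀ := by
  let S : AddSubgroup A :=
    { carrier := {z | z = 0 ∨ z = c₀}
      zero_mem' := Or.inl rfl
      add_mem' := by
        rintro a b (rfl | rfl) (rfl | rfl)
        · exact Or.inl (add_zero _)
        · exact Or.inr (zero_add _)
        · exact Or.inr (add_zero _)
        · exact Or.inl h20
      neg_mem' := by
        rintro a (rfl | rfl)
        · exact Or.inl neg_zero
        · right
          exact neg_eq_of_add_eq_zero_left h20 }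
  have key : ψ a c ∈ S := by
    apply form_mem_of_single hl hr
    intro j k x y
    by_cases hjk : j = k
    · subst hjk
      let g : F → F → A := fun x y => ψ (Pi.single j x) (Pi.single j y)
      have gl : ∀ a b c, g (a + b) c = g a c + g b c := by
        intro a b c
        show ψ (Pi.single j (a + b)) _ = _
        rw [Pi.single_add, hl]
      have gr : ∀ a b c, g a (b + c) = g a b + g a c := by
        intro a b c
        show ψ _ (Pi.single j (b + c)) = _
        rw [Pi.single_add, hr]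
      have ga : ∀ a, g a a = 0 := fun a => halt _
      have g0 : ∀ c, g 0 c = 0 := by
        intro c
        have := gl 0 0 c
        rw [add_zero] at this
        simpa using this
      have g0' : ∀ c, g c 0 = 0 := by
        intro c
        have := gr c 0 0
        rw [add_zero] at this
        simpa using this
      have g1 : g 1 ω = c₀ := hc j
      have g2 : g ω 1 = c₀ := by
        have h1 := ga (1 + ω)
        rw [gl, gr, gr, ga, ga, g1, zero_add, add_zero] at h1
        have h3 : g ω 1 + c₀ = 0 := by rw [add_comm]; exact h1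
        have h4 : g ω 1 = - c₀ := eq_neg_of_add_eq_zero_left h3
        rw [h4]
        exact neg_eq_of_add_eq_zero_left h20
      show g x y ∈ S
      show g x y = 0 ∨ g x y = c₀
      rcases hF4 x with rfl | rfl | rfl | rfl
      · exact Or.inl (g0 _)
      · rcases hF4 y with rfl | rfl | rfl | rfl
        · exact Or.inl (g0' _)
        · exact Or.inl (ga _)
        · exact Or.inr g1
        · right
          rw [gr, ga, g1, add_zero]
      · rcases hF4 y with rfl | rfl | rfl | rfl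
        · exact Or.inl (g0' _)
        · exact Or.inr g2
        · exact Or.inl (ga _)
        · right
          rw [gr, ga, g2, zero_add]
      · rcases hF4 y with rfl | rfl | rfl | rfl
        · exact Or.inl (g0' _)
        · right
          rw [gl, ga, g2, add_zero]
        · right
          rw [gl, ga, g1, zero_add]
        · exact Or.inl (ga _)
    · rw [hcross j k hjk]
      exact S.zero_mem
  exact key

end forms

section frame2

variable {b : Fin n → Fin n → F} {l l' : Fin n} (hb : FR q b l l') (hF : Fintype.card F = q ^ 2)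

include hb hF

/-- An element scalar on part of the orthonormal set. -/
lemma scalar_on {t : SU n F q} {ν : F} {S : Finset (II l l')} (h1 : ∀ k ∈ S, act t (b k.1) = ν • b k.1) {w : Fin n → F}
    (he : h w (b l) = 0) (hf : h w (b l') = 0) (hout : ∀ k, k ∉ S → h w (b k.1) = 0) : act t w = ν • w := by
  nth_rewrite 1 [hb.expand w]
  rw [hb.act_sum t]
  nth_rewrite 2 [hb.expand w]
  rw [Finset.smul_sum]
  refine Finset.sum_congr rfl fun i _ => ?_
  by_cases hi : i = l
  · subst hi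
    rw [Equiv.swap_apply_left, hf, zero_smul, zero_smul, smul_zero]
  by_cases hi' : i = l'
  · subst hi'
    rw [Equiv.swap_apply_right, he, zero_smul, zero_smul, smul_zero]
  rw [Equiv.swap_apply_of_ne_of_ne hi hi']
  by_cases hk : (⟨i, hi, hi'⟩ : II l l') ∈ S
  · rw [h1 _ hk]
    module
  · rw [hout _ hk, zero_smul, zero_smul, smul_zero]

/-- Local elements commute with torus elements which are scalar on their support. -/
lemma comm_scalar {t y : SU n F q} (ht : t ∈ Tor hb) {ν : F} {S : Finset (II l l')} (h1 : act t (b l) = b l)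
    (h2 : act t (b l') = b l') (h3 : ∀ k ∈ S, act t (b k.1) = ν • b k.1) (hy1 : act y (b l) = b l) (hy2 : act y (b l') = b l')
    (hy3 : ∀ k, k ∉ S → act y (b k.1) = b k.1) : Commute y t := by
  apply hb.act_ext hF
  intro i
  rw [act_mul, act_mul]
  by_cases hi : i = l
  · subst hi
    rw [h1, hy1, h1]
  by_cases hi' : i = l'
  · subst hi'
    rw [h2, hy2, h2]
  set k : II l l' := ⟨i, hi, hi'⟩ with hk
  change act y (act t (b k.1)) = act t (act y (b k.1))
  by_cases hS : k ∈ S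
  · rw [h3 k hS, act_smul]
    symm
    apply scalar_on hb hF h3
    · have := herm_act y (b k.1) (b l)
      rw [hy1] at this
      rw [this]
      exact hb.ue k
    · have := herm_act y (b k.1) (b l')
      rw [hy2] at this
      rw [this]
      exact hb.uf k
    · intro j hj
      have := herm_act y (b k.1) (b j.1)
      rw [hy3 j hj] at this
      rw [this, hb.uu, if_neg]
      rintro rfl
      exact hj hS
  · rw [hy3 k hS]
    obtain ⟨c, hc⟩ := ht k.1
    rw [hc, act_smul, hy3 k hS]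

/-- Permutations of the orthonormal set. -/
lemma exists_perm (π₁ : Equiv.Perm (II l l')) (hs : Equiv.Perm.sign π₁ = 1) :
    ∃ g : SU n F q, act g (b l) = b l ∧ act g (b l') = b l' ∧ ∀ k : II l l', act g (b k.1) = b (π₁ k).1 := by
  classical
  let π : Equiv.Perm (Fin n) := Equiv.Perm.ofSubtype π₁
  have hπk : ∀ k : II l l', π k.1 = (π₁ k).1 := fun k => Equiv.Perm.ofSubtype_apply_coe π₁ k
  have hπl : π l = l := Equiv.Perm.ofSubtype_apply_of_not_mem π₁ (by simp)
  have hπl' : π l' = l' := Equiv.Perm.ofSubtype_apply_of_not_mem π₁ (by simp)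
  have hcomm : ∀ i, π (Equiv.swap l l' i) = Equiv.swap l l' (π i) := by
    intro i
    by_cases hi : i = l
    · subst hi
      rw [Equiv.swap_apply_left, hπl, hπl', Equiv.swap_apply_left]
    by_cases hi' : i = l'
    · subst hi'
      rw [Equiv.swap_apply_right, hπl, hπl', Equiv.swap_apply_right]
    have e := hπk ⟨i, hi, hi'⟩
    have e2 := (π₁ ⟨i, hi, hi'⟩).2
    rw [Equiv.swap_apply_of_ne_of_ne hi hi']
    simp only at e
    rw [e, Equiv.swap_apply_of_ne_of_ne e2.1 e2.2]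
  obtain ⟨g, hg⟩ := exists_mono hF hb.basis π (fun _ => 1) (by
    intro i j
    simp only [one_smul, hb.basis_apply]
    rw [hb.gram, hb.gram, ← hcomm]
    simp only [EmbeddingLike.apply_eq_iff_eq]) (by
    rw [Equiv.Perm.sign_ofSubtype, hs]
    simp)
  have hg' : ∀ i, act g (b i) = b (π i) := by
    intro i
    have := hg i
    simpa [hb.basis_apply] using this
  refine ⟨g, ?_, ?_, fun k => ?_⟩
  · rw [hg', hπl]
  · rw [hg', hπl']
  · rw [hg', hπk]

/-- Action of a permutation on the quotient. -/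
lemma rho_perm {g A : SU n F q} {π₁ : Equiv.Perm (II l l')} (h1 : act g (b l) = b l)
    (h3 : ∀ k : II l l', act g (b k.1) = b (π₁ k).1) (hA : A ∈ RE hF hb.ee) :
    rho b l l' (g * A * g⁻¹) = fun k => rho b l l' A (π₁⁻¹ k) := by
  obtain ⟨y, r, hA⟩ := hA
  have h2 := hA.conj hF g
  rw [h1] at h2
  funext k
  rw [rho_of hF hb h2, rho_of hF hb hA]
  have e := h3 (π₁⁻¹ k)
  have e2 : (π₁ (π₁⁻¹ k)) = k := by simp
  rw [e2] at e
  rw [← e, herm_act]

/-- Sums over the frame. -/
lemma sum_split (g : Fin n → F) : ∑ i, g i = g l + (g l' + ∑ k : II l l', g k.1) := by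
  classical
  rw [← Finset.add_sum_erase Finset.univ g (Finset.mem_univ l),
    ← Finset.add_sum_erase (Finset.univ.erase l) g (Finset.mem_erase.mpr ⟨hb.ne.symm, Finset.mem_univ l'⟩)]
  congr 2
  apply Finset.sum_subtype
  intro x
  simp [and_comm]

/-- The form in coordinates. -/
lemma herm_coord {y₁ y₂ : Fin n → F} (h1 : h y₁ (b l) = 0) (h2 : h y₂ (b l) = 0) :
    h y₁ y₂ = ∑ k : II l l', h y₁ (b k.1) * (h y₂ (b k.1)) ^ q := by
  have e1 : h y₁ y₂ = ∑ i, h y₁ (b (Equiv.swap l l' i)) * h (b i) y₂ := by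
    nth_rewrite 1 [hb.expand y₁]
    simp only [← hL_apply, map_sum]
    refine Finset.sum_congr rfl fun i _ => ?_
    simp only [hL_apply, hermForm_smul_left]
  rw [e1, sum_split hb hF]
  have e2 : h (b l) y₂ = 0 := conj_zero hF h2
  rw [Equiv.swap_apply_right, h1, e2, mul_zero, zero_mul, zero_add, zero_add]
  refine Finset.sum_congr rfl fun k _ => ?_
  rw [Equiv.swap_apply_of_ne_of_ne k.2.1 k.2.2, hermForm_conj hF]

omit hb in
/-- The commutator of two root elements. -/
lemma comm_IsE {A B : SU n F q} {e y₁ y₂ : Fin n → F} {r₁ r₂ : F} (hA : IsE A e y₁ r₁) (hB : IsE B e y₂ r₂) :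
    IsE ⁅A, B⁆ e 0 (h y₁ y₂ - h y₂ y₁) := by
  have hκ : (h y₁ y₂) ^ q = h y₂ y₁ := hermForm_conj hF y₁ y₂
  have hκ' : (h y₂ y₁) ^ q = h y₁ y₂ := hermForm_conj hF y₂ y₁
  obtain ⟨Z, hZ⟩ := exists_IsE hF (s := h y₁ y₂ - h y₂ y₁) hA.hvv (hermForm_zero_left e) (by
    rw [HermForm.sub_pow_q hF, hκ, hκ', hermForm_zero_left]
    ring)
  have e1 := hA.mul hF hB
  have e2 := hZ.mul hF (hB.mul hF hA)
  have e3 : A * B = Z * (B * A) := by
    apply SU_ext
    intro x
    rw [e1.act_eq, e2.act_eq, zero_add, hermForm_zero_right hF, sub_zero, add_comm y₂ y₁]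
    have e6 : r₁ + r₂ - h y₂ y₁ = h y₁ y₂ - h y₂ y₁ + (r₂ + r₁ - h y₁ y₂) := by ring
    rw [e6]
  rw [UnitaryPerfect.comm_eq' e3]
  exact hZ

end frame2

end Cfsg.Agent.Lib.UMRoot
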