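import Mathlib
import Cfsg.Agent.Lib.UMTwo

/-!
# Lemma N for `q = 2`
-/

set_option autoImplicit false
set_option linter.unusedSectionVars false
set_option linter.unusedVariables false
set_option linter.style.haveILetI false

namespace Cfsg.Agent.Lib.UMRoot

open Module Matrix Subgroup Cfsg Cfsg.Agent.Lib.UnitaryBasic Cfsg.Agent.Lib.UnitarySU
  Cfsg.Agent.Lib.UnitaryConj Cfsg.Agent.Lib.UnitaryE Cfsg.Agent.Lib.SUGen
  Cfsg.Agent.Lib.HermForm Cfsg.Agent.Lib.HermCount Cfsg.Agent.Lib.GUParab Cfsg.Agent.Lib.FFNorm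
  Cfsg.Agent.Lib.SU2GenA Cfsg.Agent.Lib.SU2GenC Cfsg.Agent.Lib.UMHeis Cfsg.Agent.Lib.UMSect
  Cfsg.Agent.Lib.UMField
open scoped commutatorElement

universe u

variable {F : Type*} [Field F] [Fintype F] {q n : ℕ}

local notation "h" => hermForm n F q

section two

variable (hF : Fintype.card F = q ^ 2) (hq2 : q = 2)

include hF hq2

lemma char_two : CharP F 2 := by
  obtain ⟨p, k, hp, hc, hqk⟩ := exists_char_pow hF
  rw [hq2] at hqk
  have h1 : p ∣ 2 := by
    rw [hqk]
    refine dvd_pow_self p ?_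
    rintro rfl
    simp at hqk
  have h2 : p = 2 := (Nat.prime_dvd_prime_iff_eq hp Nat.prime_two).mp h1
  rw [h2] at hc
  exact hc

lemma exists_omega : ∃ ω : F, ω ≠ 1 ∧ ω ≠ 0 ∧ ω * ω ^ q = 1 ∧ ω ^ 3 = 1 ∧ ω * ω ≠ 1 ∧ ω ^ q = ω * ω ∧ ω * ω + ω + 1 = 0 := by
  obtain ⟨ω, hω, hω1⟩ := exists_mu hF (e := 1) (by norm_num) (by omega)
  rw [pow_one] at hω1
  have hq' : ω ^ q = ω * ω := by rw [hq2, pow_two]
  have h3 : ω ^ 3 = 1 := by
    rw [hq'] at hω
    rw [← hω]
    ring
  have h0 : ω ≠ 0 := by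
    rintro rfl
    simp at h3
  have hsq : ω * ω ≠ 1 := by
    intro e
    apply hω1
    have : ω ^ 3 = (ω * ω) * ω := by ring
    rw [this, e, one_mul] at h3
    exact h3
  refine ⟨ω, hω1, h0, hω, h3, hsq, hq', ?_⟩
  have e : (ω - 1) * (ω * ω + ω + 1) = 0 := by
    have : (ω - 1) * (ω * ω + ω + 1) = ω ^ 3 - 1 := by ring
    rw [this, h3, sub_self]
  exact (mul_eq_zero.mp e).resolve_left (sub_ne_zero.mpr hω1)

lemma F4_elements {ω : F} (hω1 : ω ≠ 1) (hω0 : ω ≠ 0) (x : F) : x = 0 ∨ x = 1 ∨ x = ω ∨ x = ω + 1 := by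
  classical
  haveI := char_two hF hq2
  have h2 : (1 : F) + 1 = 0 := CharTwo.add_self_eq_zero 1
  have hne : ω + 1 ≠ 0 := by
    intro e
    apply hω1
    have : ω + 1 = ω - 1 + (1 + 1) := by ring
    rw [h2, add_zero] at this
    rw [this] at e
    exact sub_eq_zero.mp e
  have hcard : ({0, 1, ω, ω + 1} : Finset F).card = 4 := by
    rw [Finset.card_insert_of_notMem, Finset.card_insert_of_notMem, Finset.card_insert_of_notMem, Finset.card_singleton]
    · simp only [Finset.mem_singleton]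
      intro e
      apply one_ne_zero (α := F)
      have : ω = ω + 1 := e
      simpa using this
    · simp only [Finset.mem_insert, Finset.mem_singleton, not_or]
      refine ⟨hω1.symm, ?_⟩
      intro e
      apply hω0
      have : (1 : F) = ω + 1 := e
      simpa using this.symm
    · simp only [Finset.mem_insert, Finset.mem_singleton, not_or]
      exact ⟨zero_ne_one, hω0.symm, hne.symm⟩
  have hu : ({0, 1, ω, ω + 1} : Finset F) = Finset.univ := by
    apply Finset.eq_univ_of_card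
    rw [hcard, hF, hq2]
    norm_num
  have hx : x ∈ ({0, 1, ω, ω + 1} : Finset F) := by
    rw [hu]
    exact Finset.mem_univ x
  simpa using hx

variable {b : Fin n → Fin n → F} {l l' : Fin n} (hb : FR q b l l')

include hb

/-- The fixed-point-free elements of the torus. -/
lemma exists_t_two (hm : 3 ≤ Fintype.card (II l l')) (hm4 : Fintype.card (II l l') ≠ 4) (S : Finset (II l l')) (hS : S.card ≤ 3) :
    ∃ t ∈ Tor hb, ∃ ν : F, act t (b l) = b l ∧ act t (b l') = b l' ∧ (∀ k, mulf b l l' t k ≠ 1) ∧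
      ∀ k ∈ S, act t (b k.1) = ν • b k.1 := by
  classical
  obtain ⟨ω, hω1, hω0, hωn, hω3, hωs, hωq, hω2⟩ := exists_omega hF hq2
  set m := Fintype.card (II l l') with hmd
  set a := (3 - m % 3) % 3 with ha
  have hS' : a ≤ (Sᶜ).card := by
    rw [Finset.card_compl, ← hmd]
    omega
  obtain ⟨J, hJ, hJc⟩ := Finset.exists_subset_card_eq hS'
  let β : II l l' → F := fun k => if k ∈ J then ω * ω else ω
  have hβ : ∀ k, β k * β k ^ q = 1 := by
    intro k
    simp only [β]
    split_ifs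
    · rw [mul_pow, hωq]
      have : ω ^ 3 = 1 := hω3
      linear_combination ω ^ 3 * hω3 + hω3
    · exact hωn
  have hprod : ∏ k, β k = 1 := by
    simp only [β]
    rw [Finset.prod_ite, Finset.prod_const, Finset.prod_const]
    have e1 : (Finset.univ.filter fun k => k ∈ J) = J := by
      ext k
      simp
    have e2 : (Finset.univ.filter fun k => k ∉ J).card = m - a := by
      have : (Finset.univ.filter fun k => k ∉ J) = Jᶜ := by
        ext k
        simp
      rw [this, Finset.card_compl, hJc]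
    rw [e1, e2, hJc]
    have e3 : (ω * ω) ^ a * ω ^ (m - a) = ω ^ (2 * a + (m - a)) := by
      rw [pow_add, pow_mul, pow_two]
    rw [e3]
    have e4 : 3 ∣ 2 * a + (m - a) := by omega
    obtain ⟨d, hd⟩ := e4
    rw [hd, pow_mul, hω3, one_pow]
  obtain ⟨t, h1, h2, h3⟩ := hb.exists_tor hF 1 one_ne_zero β hβ (by rw [hprod]; simp)
  rw [one_smul] at h1
  have h2' : act t (b l') = b l' := by
    rw [h2]
    simp
  have h1' : act t (b l) = (1 : F) • b l := by rw [h1, one_smul]
  have ht : t ∈ Tor hb := by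
    intro i
    by_cases hi : i = l
    · subst hi
      exact ⟨_, h1'⟩
    by_cases hi' : i = l'
    · subst hi'
      exact ⟨1, by rw [h2', one_smul]⟩
    exact ⟨_, h3 ⟨i, hi, hi'⟩⟩
  refine ⟨t, ht, ω, h1, h2', ?_, ?_⟩
  · intro k
    rw [mulf_of hb h1' (h3 k), one_pow, one_mul]
    simp only [β]
    split_ifs
    · exact hωs
    · exact hω1
  · intro k hk
    rw [h3 k]
    have : k ∉ J := fun e => (Finset.mem_compl.mp (hJ e)) hk
    simp [β, this]

end two

section main2

variable (hF : Fintype.card F = q ^ 2) (hq2 : q = 2) {b : Fin n → Fin n → F} {l l' : Fin n} (hb : FR q b l l')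

include hF hq2 hb

/-- Generation of the quotient by commutators with the torus. -/
theorem hgen_two (hm : 2 ≤ Fintype.card (II l l')) :
    AddSubgroup.closure {w | ∃ s ∈ Tor hb, (∀ a ∈ RE hF hb.ee, rho b l l' a = 0 → s * a * s⁻¹ = a) ∧
      ∃ w', w = phi b l l' s w' - w'} = ⊤ := by
  apply hgen_of hb hF
  intro k
  haveI : Nontrivial (II l l') := Fintype.one_lt_card_iff_nontrivial.mp (by omega)
  obtain ⟨x, hx⟩ := exists_ne k
  obtain ⟨s, hs, ν, hν, h1, h2, -⟩ := exists_pair hb hF hx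
  refine ⟨s, hs, ?_, by rw [h2]; exact hν⟩
  rw [h1]
  simp

/-- Lemma N for `q = 2`. -/
theorem lemmaN_two {Γ : Type u} [Group Γ] [Finite Γ] {σ : Γ →* SU n F q} (hσ : CE σ) (hZ : IsPGroup 2 σ.ker)
    (hm : 3 ≤ Fintype.card (II l l')) (hm4 : Fintype.card (II l l') ≠ 4) :
    ∃ R : Subgroup Γ, IsPGroup 2 R ∧ R.map σ = RE hF hb.ee ∧ (∀ z ∈ R, σ z = 1 → z = 1) ∧
      ∀ (y : Γ) (S : Finset (II l l')), S.card ≤ 3 → act (σ y) (b l) = b l → act (σ y) (b l') = b l' →
        (∀ k, k ∉ S → act (σ y) (b k.1) = b k.1) → y ∈ normalizer ((R : Subgroup Γ) : Set Γ) := by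
  classical
  haveI : Fact (Nat.Prime 2) := ⟨Nat.prime_two⟩
  haveI hchar : CharP F 2 := char_two hF hq2
  obtain ⟨ω, hω1, hω0, hωn, hω3, hωs, hωq, hω2⟩ := exists_omega hF hq2
  have hF4 := F4_elements hF hq2 hω1 hω0
  have h20 : (1 : F) + 1 = 0 := CharTwo.add_self_eq_zero 1
  have hI : Nonempty (II l l') := Fintype.card_pos_iff.mp (by omega)
  obtain ⟨t₀, ht₀, ν₀, h1₀, h2₀, hm₀, -⟩ := exists_t_two hF hq2 hb hm hm4 ∅ (by simp)
  have hpq : 2 ∣ q := by rw [hq2]
  obtain ⟨x₀, hx₀, rfl⟩ := exists_cop_lift hσ hZ (tor_order_coprime hb hF hpq ht₀)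
  have hD : HD 2 (RE hF hb.ee) (rho b l l') := hd hF hb hI
  have hTD₀ := td hb hF ht₀
  have hφ₀ := fpf (b := b) hm₀
  have hT := tf hb hF ht₀
  have hcen : ∀ c ∈ ⁅Rh σ (RE hF hb.ee) x₀, Rh σ (RE hF hb.ee) x₀⁆, ∀ r ∈ Rh σ (RE hF hb.ee) x₀, r * c = c * r :=
    fun c hc r hr => derived_central hσ hZ hD hx₀ hTD₀ hφ₀ hT (hgen_two hF hq2 hb (by omega)) hc hr
  -- normalizers
  have hnorm : ∀ (y : Γ) (S : Finset (II l l')), S.card ≤ 3 → act (σ y) (b l) = b l → act (σ y) (b l') = b l' →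
      (∀ k, k ∉ S → act (σ y) (b k.1) = b k.1) → y ∈ normalizer ((Rh σ (RE hF hb.ee) x₀ : Subgroup Γ) : Set Γ) := by
    intro y S hS hy1 hy2 hy3
    obtain ⟨t₁, ht₁, ν, h1, h2, hm₁, hSν⟩ := exists_t_two hF hq2 hb hm hm4 S hS
    obtain ⟨x₁, hx₁, rfl⟩ := exists_cop_lift hσ hZ (tor_order_coprime hb hF hpq ht₁)
    have e : Rh σ (RE hF hb.ee) x₁ = Rh σ (RE hF hb.ee) x₀ :=
      le_antisymm
        (Rh_le_of_comm hσ hD hTD₀ hφ₀ (tor_norm hb hF ht₁) (tor_comm hb hF ht₁ ht₀))
        (Rh_le_of_comm hσ hD (td hb hF ht₁) (fpf (b := b) hm₁) (tor_norm hb hF ht₀) (tor_comm hb hF ht₀ ht₁))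
    rw [← e]
    apply norm_Rh hσ
    · exact mem_norm_scale hF hb.ee one_ne_zero (by rw [one_smul]; exact hy1)
    · exact comm_scalar hb hF ht₁ h1 h2 hSν hy1 hy2 hy3
  have hle := Rh_le (R := RE hF hb.ee) (x := x₀) hTD₀.norm
  -- invariance under the torus
  have hinvT : ∀ s ∈ Tor hb, ∀ a c, Om σ (RE hF hb.ee) (rho b l l') x₀ (phi b l l' s a) (phi b l l' s c) =
      Om σ (RE hF hb.ee) (rho b l l') x₀ a c := by
    intro s hs a c
    obtain ⟨y, rfl⟩ := hσ.surj s
    have e1 := Om_conj hσ hZ hD hx₀ hTD₀ hφ₀ hcen (y := y) (ψ := phi b l l' (σ y))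
      (fun r hr => conj_mem_Rh hσ (tor_norm hb hF hs) (tor_comm hb hF hs ht₀) hr)
      (fun r hr => by
        have := rho_conj hb hF hs (hle hr)
        simpa only [map_mul, map_inv] using this) a c
    rw [← e1]
    have hmem := Om_mem_derived (x := x₀) hσ hD hTD₀ hφ₀ a c
    have hrho := rho_derived hTD₀.norm hD hmem
    apply conj_triv3 hσ hZ
    · rw [map_pow]
      have := tor_pow hb hF hs
      have e3 : q ^ 2 - 1 = 3 := by rw [hq2]; norm_num
      rw [e3] at this
      exact this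
    · simp only [map_mul, map_inv]
      apply tor_triv hb hF hs _ _ (hle hrho.1) hrho.2
      have hl0 := lamf_ne hb hF hs
      have h31 : lamf b l l' (σ y) ^ (q ^ 2 - 1) = 1 := by
        rw [← hF]
        exact FiniteField.pow_card_sub_one_eq_one _ hl0
      have e3 : q ^ 2 - 1 = 3 := by rw [hq2]; norm_num
      have hqq : ∀ x : F, x ^ q = x * x := fun x => by rw [hq2, pow_two]
      rw [e3] at h31
      rw [hqq, ← h31]
      ring
  -- the commutative group
  set H := Rh σ (RE hF hb.ee) x₀ with hH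
  set C := ⁅H, H⁆ with hC
  have hCH : C ≤ H := fun c hc => (rho_derived hTD₀.norm hD hc).1
  letI CC : CommGroup C :=
    { (inferInstance : Group C) with
      mul_comm := fun a b => Subtype.ext (hcen _ b.2 _ (hCH a.2)) }
  let O : (II l l' → F) → (II l l' → F) → Γ := Om σ (RE hF hb.ee) (rho b l l') x₀
  have hOC : ∀ a c, O a c ∈ C := fun a c => Om_mem_derived hσ hD hTD₀ hφ₀ a c
  let f : (II l l' → F) → (II l l' → F) → Additive C := fun a c => Additive.ofMul ⟨O a c, hOC a c⟩
  have fl : ∀ a b c, f (a + b) c = f a c + f b c := by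
    intro a b c
    show Additive.ofMul _ = Additive.ofMul _ + Additive.ofMul _
    rw [← ofMul_mul]
    congr 1
    exact Subtype.ext (Om_add_left hσ hZ hD hx₀ hTD₀ hφ₀ hcen a b c)
  have fr : ∀ a b c, f a (b + c) = f a b + f a c := by
    intro a b c
    show Additive.ofMul _ = Additive.ofMul _ + Additive.ofMul _
    rw [← ofMul_mul]
    congr 1
    exact Subtype.ext (Om_add_right hσ hZ hD hx₀ hTD₀ hφ₀ hcen b c a)
  have falt : ∀ a, f a a = 0 := by
    intro a
    show Additive.ofMul _ = 0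
    have : (⟨O a a, hOC a a⟩ : C) = 1 := Subtype.ext (Om_self a)
    rw [this]
    rfl
  have finv : ∀ s ∈ Tor hb, ∀ a c, f (phi b l l' s a) (phi b l l' s c) = f a c := by
    intro s hs a c
    show Additive.ofMul _ = Additive.ofMul _
    congr 1
    exact Subtype.ext (hinvT s hs a c)
  have fzero : ∀ {a c}, f a c = 0 → O a c = 1 := by
    intro a c e
    have : (⟨O a c, hOC a c⟩ : C) = 1 := e
    exact congrArg Subtype.val this
  -- cross terms
  have hcross : ∀ j k, j ≠ k → ∀ c d, f (Pi.single j c) (Pi.single k d) = 0 := by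
    intro j k hjk c d
    obtain ⟨x, -, hx⟩ := Finset.exists_mem_notMem_of_card_lt_card (s := ({j, k} : Finset (II l l')))
      (t := Finset.univ) (by
        have : ({j, k} : Finset (II l l')).card ≤ 2 := Finset.card_le_two
        rw [Finset.card_univ]
        omega)
    simp only [Finset.mem_insert, Finset.mem_singleton, not_or] at hx
    obtain ⟨s, hs, ν, hν, -, h1, -, h3⟩ := exists_pair hb hF hx.2
    exact cross_zero fr (finv s hs) (h3 j hjk (Ne.symm hx.1)) (by rw [h1]; exact hν) c d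
  -- the diagonal terms
  let c : II l l' → Γ := fun j => O (Pi.single j 1) (Pi.single j ω)
  have hsig : ∀ j, IsE (σ (c j)) (b l) 0 (ω ^ q - ω) := by
    intro j
    obtain ⟨ha, ea⟩ := ell_spec hσ hD hTD₀ hφ₀ (x := x₀) (Pi.single j 1)
    obtain ⟨hb', eb⟩ := ell_spec hσ hD hTD₀ hφ₀ (x := x₀) (Pi.single j ω)
    obtain ⟨y₁, r₁, hA⟩ := hle ha
    obtain ⟨y₂, r₂, hB⟩ := hle hb'
    have e0 := comm_IsE hF hA hB
    have e1 : ∀ k : II l l', h y₁ (b k.1) = (Pi.single j 1 : II l l' → F) k := by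
      intro k
      rw [← rho_of hF hb hA, ea]
    have e2 : ∀ k : II l l', h y₂ (b k.1) = (Pi.single j ω : II l l' → F) k := by
      intro k
      rw [← rho_of hF hb hB, eb]
    have e3 : h y₁ y₂ = ω ^ q := by
      rw [herm_coord hb hF hA.hyv hB.hyv, Finset.sum_eq_single j]
      · rw [e1, e2]
        simp
      · intro k _ hk
        rw [e1, Pi.single_eq_of_ne hk, zero_mul]
      · simp
    have e4 : h y₂ y₁ = ω := by
      rw [herm_coord hb hF hB.hyv hA.hyv, Finset.sum_eq_single j]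
      · rw [e1, e2]
        simp
      · intro k _ hk
        rw [e2, Pi.single_eq_of_ne hk, zero_mul]
      · simp
    rw [e3, e4] at e0
    have e5 : σ (c j) = ⁅σ (ell σ (RE hF hb.ee) (rho b l l') x₀ (Pi.single j 1)), σ (ell σ (RE hF hb.ee) (rho b l l') x₀ (Pi.single j ω))⁆ := by
      show σ ⁅_, _⁆ = _
      rw [map_commutatorElement]
    rw [e5]
    exact e0
  have hsame₀ : ∀ j k, σ (c j) = σ (c k) := fun j k => E_unique (hsig j) (hsig k)
  have hsame : ∀ j k, j ≠ k → c j = c k := by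
    intro j k hjk
    obtain ⟨x, -, hx⟩ := Finset.exists_mem_notMem_of_card_lt_card (s := ({j, k} : Finset (II l l')))
      (t := Finset.univ) (by
        have : ({j, k} : Finset (II l l')).card ≤ 2 := Finset.card_le_two
        rw [Finset.card_univ]
        omega)
    simp only [Finset.mem_insert, Finset.mem_singleton, not_or] at hx
    have hxj : x ≠ j := hx.1
    have hxk : x ≠ k := hx.2
    let π₁ : Equiv.Perm (II l l') := Equiv.swap j k * Equiv.swap k x
    have hπj : π₁ j = k := by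
      show Equiv.swap j k (Equiv.swap k x j) = k
      rw [Equiv.swap_apply_of_ne_of_ne hjk hxj.symm, Equiv.swap_apply_left]
    have hπk : π₁ k = x := by
      show Equiv.swap j k (Equiv.swap k x k) = x
      rw [Equiv.swap_apply_left, Equiv.swap_apply_of_ne_of_ne hxj hxk]
    have hπx : π₁ x = j := by
      show Equiv.swap j k (Equiv.swap k x x) = j
      rw [Equiv.swap_apply_right, Equiv.swap_apply_right]
    have hπo : ∀ i, i ∉ ({j, k, x} : Finset (II l l')) → π₁ i = i := by
      intro i hi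
      simp only [Finset.mem_insert, Finset.mem_singleton, not_or] at hi
      show Equiv.swap j k (Equiv.swap k x i) = i
      rw [Equiv.swap_apply_of_ne_of_ne hi.2.1 hi.2.2, Equiv.swap_apply_of_ne_of_ne hi.1 hi.2.1]
    obtain ⟨g, hg1, hg2, hg3⟩ := exists_perm hb hF π₁ (by
      simp only [π₁, map_mul, Equiv.Perm.sign_swap hjk, Equiv.Perm.sign_swap hxk.symm]
      simp)
    obtain ⟨y, rfl⟩ := hσ.surj g
    have hy := hnorm y {j, k, x} Finset.card_le_three hg1 hg2 (fun i hi => by rw [hg3, hπo i hi])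
    let ψ : (II l l' → F) → (II l l' → F) := fun w k' => w (π₁⁻¹ k')
    have hψs : ∀ (i : II l l') (d : F), ψ (Pi.single i d) = Pi.single (π₁ i) d := by
      intro i d
      funext k'
      show (Pi.single i d : II l l' → F) (π₁⁻¹ k') = (Pi.single (π₁ i) d : II l l' → F) k'
      by_cases hk' : k' = π₁ i
      · subst hk'
        simp
      · rw [Pi.single_eq_of_ne hk', Pi.single_eq_of_ne]
        intro e
        apply hk'
        rw [← e]
        simp
    have hconj : ∀ i, y * c i * y⁻¹ = c (π₁ i) := by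
      intro i
      have e := Om_conj hσ hZ hD hx₀ hTD₀ hφ₀ hcen (y := y) (ψ := ψ)
        (fun r hr => (mem_normalizer_iff.mp hy r).mp hr)
        (fun r hr => by
          have := rho_perm hb hF hg1 hg3 (hle hr)
          simpa only [map_mul, map_inv] using this) (Pi.single i 1) (Pi.single i ω)
      rw [hψs, hψs] at e
      exact e
    refine cycle3 hσ hZ (y := y) (c₃ := c x) ?_ ?_ ?_ (hsame₀ j k)
    · rw [hconj, hπj]
    · rw [hconj, hπk]
    · rw [hconj, hπx]
  obtain ⟨j₀⟩ := hI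
  have hc₀ : σ (c j₀) ≠ 1 := by
    intro e
    have h1 := hsig j₀
    rw [e] at h1
    have h2 := h1.act_eq (b l')
    rw [act_one, hermForm_zero_right hF, hb.fe] at h2
    have h3 : (ω ^ q - ω) • b l = 0 := by
      have h4 : b l' + (1 : F) • ((0 : Fin n → F) + (ω ^ q - ω) • b l) - (0 : F) • b l = b l' + (ω ^ q - ω) • b l := by
        simp
      rw [h4] at h2
      exact (add_eq_left.mp h2.symm)
    have h5 : ω ^ q - ω ≠ 0 := by
      rw [hωq]
      intro e'
      apply hω1
      have e2 : ω * (ω - 1) = 0 := by linear_combination e'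
      exact sub_eq_zero.mp ((mul_eq_zero.mp e2).resolve_left hω0)
    have h6 : b l = 0 := (smul_eq_zero.mp h3).resolve_left h5
    have h7 := hb.ef
    rw [h6, hermForm_zero_left] at h7
    exact zero_ne_one h7
  have hc₂ : c j₀ * c j₀ = 1 := by
    have e1 := fl (Pi.single j₀ 1) (Pi.single j₀ 1) (Pi.single j₀ ω)
    rw [← Pi.single_add, h20, Pi.single_zero] at e1
    have e2 : f 0 (Pi.single j₀ ω) = 0 := by
      have := fl 0 0 (Pi.single j₀ ω)
      rw [add_zero] at this
      simpa using this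
    rw [e2] at e1
    have e3 : (⟨c j₀, hOC _ _⟩ * ⟨c j₀, hOC _ _⟩ : C) = 1 := e1.symm
    exact congrArg Subtype.val e3
  have hOm : ∀ a e, O a e = 1 ∨ O a e = c j₀ := by
    intro a e
    have hall : ∀ j, f (Pi.single j 1) (Pi.single j ω) = Additive.ofMul ⟨c j₀, hOC _ _⟩ := by
      intro j
      show Additive.ofMul _ = Additive.ofMul _
      congr 1
      apply Subtype.ext
      by_cases hj : j = j₀
      · rw [hj]
      · exact hsame j j₀ hj
    have h20' : (Additive.ofMul ⟨c j₀, hOC _ _⟩ : Additive C) + Additive.ofMul ⟨c j₀, hOC _ _⟩ = 0 := by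
      rw [← ofMul_mul]
      have : (⟨c j₀, hOC _ _⟩ * ⟨c j₀, hOC _ _⟩ : C) = 1 := Subtype.ext hc₂
      rw [this]
      rfl
    rcases two_form fl fr falt hcross hF4 hall h20' a e with h1 | h1
    · exact Or.inl (fzero h1)
    · right
      have : (⟨O a e, hOC a e⟩ : C) = ⟨c j₀, hOC _ _⟩ := h1
      exact congrArg Subtype.val this
  refine ⟨H, (comap_pgroup hZ hD).to_le hle, map_Rh hD hσ.surj hTD₀ hφ₀, ?_, hnorm⟩
  intro z hz hz1
  exact inj_of_two hσ hZ hD hx₀ hTD₀ hφ₀ hcen hc₀ hc₂ hOm hz hz1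

end main2

end Cfsg.Agent.Lib.UMRoot
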