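import Mathlib
import Cfsg.Agent.Lib.UMTwoN

/-!
# The coordinates, and the subgroups of the root groups fixing an initial segment of coordinates
-/

set_option autoImplicit false
set_option linter.unusedSectionVars false
set_option linter.unusedVariables false
set_option linter.style.haveILetI false

namespace Cfsg.Agent.Lib.UMRoot

open Module Matrix Subgroup Cfsg Cfsg.Agent.Lib.UnitaryBasic Cfsg.Agent.Lib.UnitarySU
  Cfsg.Agent.Lib.UnitaryConj Cfsg.Agent.Lib.UnitaryE Cfsg.Agent.Lib.SUGen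
  Cfsg.Agent.Lib.HermForm Cfsg.Agent.Lib.HermCount Cfsg.Agent.Lib.GUParab Cfsg.Agent.Lib.FFNorm
  Cfsg.Agent.Lib.SU2GenA Cfsg.Agent.Lib.SU2GenC Cfsg.Agent.Lib.UMHeis Cfsg.Agent.Lib.UMSect
  Cfsg.Agent.Lib.UMField
open scoped commutatorElement

universe u

variable {F : Type*} [Field F] [Fintype F] {q n : ℕ}

local notation "h" => hermForm n F q

section coords

/-- The parameters of the hyperbolic pair in two coordinates. -/
structure GK (q : ℕ) (γ₁ γ₂ κ : F) : Prop where
  g1 : γ₁ * γ₁ ^ q = -1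
  g2 : γ₂ * γ₂ ^ q = -1
  k : κ ^ q * (1 + γ₁ * γ₂ ^ q) = 1

variable (hF : Fintype.card F = q ^ 2)

include hF in
theorem exists_GK : ∃ γ₁ γ₂ κ : F, GK q γ₁ γ₂ κ := by
  classical
  have hq := HermCount.two_le_q hF
  have h1 := card_nrm_fibre_ne hF (c := (-1 : F)) (neg_ne_zero.mpr one_ne_zero) (by rw [HermForm.neg_pow_q hF, one_pow])
  have h2 : 1 < (Finset.univ.filter fun x : F => nrm q x = -1).card := by
    rw [h1]
    omega
  obtain ⟨a, ha, c, hc, hac⟩ := Finset.one_lt_card.mp h2
  simp only [Finset.mem_filter, Finset.mem_univ, true_and] at ha hc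
  have ha' : a * a ^ q = -1 := ha
  have hc' : c * c ^ q = -1 := hc
  have hne : 1 + a * c ^ q ≠ 0 := by
    intro e
    apply hac
    have : c * (1 + a * c ^ q) = 0 := by rw [e, mul_zero]
    have e2 : c * (1 + a * c ^ q) = c - a := by
      linear_combination a * hc'
    rw [e2] at this
    exact (sub_eq_zero.mp this).symm
  refine ⟨a, c, ((1 + a * c ^ q)⁻¹) ^ q, ha', hc', ?_⟩
  rw [pow_pow_self hF]
  exact inv_mul_cancel₀ hne

/-- The frame at two coordinates. -/
def bb (γ₁ γ₂ κ : F) (l l' : Fin n) : Fin n → Fin n → F := fun i =>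
  if i = l then Pi.single l 1 + γ₁ • Pi.single l' 1 else if i = l' then κ • (Pi.single l 1 + γ₂ • Pi.single l' 1) else Pi.single i 1

lemma h_single (j k : Fin n) (hF : Fintype.card F = q ^ 2) : h (Pi.single j 1) (Pi.single k 1) = if k = j then 1 else 0 := by
  rw [hermForm_single_right hF, Pi.single_apply]

variable {γ₁ γ₂ κ : F} (hG : GK q γ₁ γ₂ κ)

omit [Fintype F] in
lemma bb_l (l l' : Fin n) : bb γ₁ γ₂ κ l l' l = Pi.single l 1 + γ₁ • Pi.single l' 1 := by
  simp [bb]

omit [Fintype F] in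
lemma bb_l' {l l' : Fin n} (hll : l ≠ l') : bb γ₁ γ₂ κ l l' l' = κ • (Pi.single l 1 + γ₂ • Pi.single l' 1) := by
  simp [bb, hll.symm]

omit [Fintype F] in
lemma bb_k {l l' : Fin n} (k : II l l') : bb γ₁ γ₂ κ l l' k.1 = Pi.single k.1 1 := by
  simp [bb, k.2.1, k.2.2]

include hF hG

theorem bb_fr {l l' : Fin n} (hll : l ≠ l') : FR q (bb γ₁ γ₂ κ l l') l l' := by
  have hs : ∀ j k : Fin n, h (Pi.single j 1) (Pi.single k 1) = if k = j then 1 else 0 := fun j k => h_single j k hF
  have hq0 := zero_pow_q hF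
  have he : ∀ j, j ≠ l → j ≠ l' → h (Pi.single l 1 + γ₁ • Pi.single l' 1) (Pi.single j 1) = 0 := by
    intro j h1 h2
    rw [hermForm_add_left, hermForm_smul_left, hs, hs, if_neg h1, if_neg h2, mul_zero, add_zero]
  have hf : ∀ j, j ≠ l → j ≠ l' → h (κ • (Pi.single l 1 + γ₂ • Pi.single l' 1)) (Pi.single j 1) = 0 := by
    intro j h1 h2
    rw [hermForm_smul_left, hermForm_add_left, hermForm_smul_left, hs, hs, if_neg h1, if_neg h2, mul_zero, add_zero, mul_zero]
  have hef : h (Pi.single l 1 + γ₁ • Pi.single l' 1) (κ • (Pi.single l 1 + γ₂ • Pi.single l' 1)) = 1 := by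
    rw [hermForm_smul_right, hermForm_add_left, hermForm_add_right hF, hermForm_add_right hF, hermForm_smul_left,
      hermForm_smul_right, hermForm_smul_right, hermForm_smul_left, hs, hs, hs, hs, if_pos rfl, if_pos rfl, if_neg hll, if_neg hll.symm]
    rw [mul_comm] at *
    linear_combination hG.k
  refine ⟨hll, ?_⟩
  intro i j
  by_cases hi : i = l
  · subst hi
    rw [Equiv.swap_apply_left, bb_l]
    by_cases hj : j = i
    · subst hj
      rw [bb_l, if_neg hll, hermForm_add_left, hermForm_add_right hF, hermForm_add_right hF, hermForm_smul_left,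
        hermForm_smul_right, hermForm_smul_right, hermForm_smul_left, hs, hs, hs, hs, if_pos rfl, if_pos rfl, if_neg hll, if_neg hll.symm]
      linear_combination hG.g1
    by_cases hj' : j = l'
    · subst hj'
      rw [bb_l' hll, if_pos rfl]
      exact hef
    · rw [bb_k ⟨j, hj, hj'⟩, if_neg hj']
      exact he j hj hj'
  by_cases hi' : i = l'
  · subst hi'
    rw [Equiv.swap_apply_right, bb_l' hll]
    by_cases hj : j = l
    · subst hj
      rw [bb_l, if_pos rfl, ← hermForm_conj hF, hef, one_pow]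
    by_cases hj' : j = i
    · subst hj'
      rw [bb_l' hll, if_neg (Ne.symm hll), hermForm_smul_left, hermForm_smul_right, hermForm_add_left, hermForm_add_right hF,
        hermForm_add_right hF, hermForm_smul_left, hermForm_smul_right, hermForm_smul_right, hermForm_smul_left, hs, hs, hs, hs,
        if_pos rfl, if_pos rfl, if_neg hll, if_neg hll.symm]
      linear_combination (κ * κ ^ q) * hG.g2
    · rw [bb_k ⟨j, hj, hj'⟩, if_neg hj]
      exact hf j hj hj'
  rw [Equiv.swap_apply_of_ne_of_ne hi hi', bb_k ⟨i, hi, hi'⟩]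
  by_cases hj : j = l
  · subst hj
    rw [bb_l, if_neg (Ne.symm hi), ← hermForm_conj hF, he i hi hi', hq0]
  by_cases hj' : j = l'
  · subst hj'
    rw [bb_l' hll, if_neg (Ne.symm hi'), ← hermForm_conj hF, hf i hi hi', hq0]
  · rw [bb_k ⟨j, hj, hj'⟩, hs]

end coords

section QQ

variable (hF : Fintype.card F = q ^ 2)

/-- The elements of the root group whose direction is supported on `P`. -/
def QQ {e : Fin n → F} (he : h e e = 0) (P : Fin n → Prop) : Subgroup (SU n F q) where
  carrier := {A | ∃ y s, IsE A e y s ∧ ∀ k, ¬ P k → y k = 0}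
  mul_mem' := by
    rintro A B ⟨y, s, hA, hy⟩ ⟨y', s', hB, hy'⟩
    refine ⟨_, _, hA.mul hF hB, fun k hk => ?_⟩
    rw [Pi.add_apply, hy k hk, hy' k hk, add_zero]
  one_mem' := ⟨0, 0, isE_one_elt hF he, fun k _ => rfl⟩
  inv_mem' := by
    rintro A ⟨y, s, hA, hy⟩
    refine ⟨_, _, E_inv hF hA, fun k hk => ?_⟩
    rw [Pi.neg_apply, hy k hk, neg_zero]

/-- Local elements. -/
def Loc (n : ℕ) (F : Type*) [Field F] [Fintype F] (q : ℕ) (m : ℕ) : Set (SU n F q) :=
  {g | ∃ S : Finset (Fin n), S.card ≤ 3 ∧ (∀ k ∈ S, m ≤ k.val) ∧ ∀ k, k ∉ S → act g (Pi.single k 1) = Pi.single k 1}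

/-- The group generated by local elements. -/
def LocG (n : ℕ) (F : Type*) [Field F] [Fintype F] (q : ℕ) (m : ℕ) : Subgroup (SU n F q) := closure (Loc n F q m)

lemma Loc_mono {m m' : ℕ} (hm : m ≤ m') : Loc n F q m' ⊆ Loc n F q m := by
  rintro g ⟨S, h1, h2, h3⟩
  exact ⟨S, h1, fun k hk => hm.trans (h2 k hk), h3⟩

lemma LocG_mono {m m' : ℕ} (hm : m ≤ m') : LocG n F q m' ≤ LocG n F q m := closure_mono (Loc_mono hm)

lemma LocG_fix {m : ℕ} {g : SU n F q} (hg : g ∈ LocG n F q m) {k : Fin n} (hk : k.val < m) :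
    act g (Pi.single k 1) = Pi.single k 1 := by
  induction hg using closure_induction with
  | mem g hg =>
    obtain ⟨S, h1, h2, h3⟩ := hg
    apply h3
    intro e
    have := h2 k e
    omega
  | one => exact act_one _
  | mul a b _ _ ha hb => rw [act_mul, hb, ha]
  | inv a _ ha =>
    nth_rewrite 1 [← ha]
    rw [act_inv_act]

variable {e : Fin n → F} {l l' : Fin n} {m : ℕ}

include hF

/-- A root element with direction along one coordinate is local. -/
lemma E_loc (hel : ∀ j, j ≠ l → j ≠ l' → h (Pi.single j 1) e = 0) (hl : m ≤ l.val) (hl' : m ≤ l'.val) {A : SU n F q} {y : Fin n → F}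
    {s : F} (hA : IsE A e y s) {T : Finset (Fin n)} (hT : T.card ≤ 1) (hTm : ∀ k ∈ T, m ≤ k.val) (hy : ∀ k, k ∉ T → y k = 0) :
    A ∈ Loc n F q m := by
  classical
  refine ⟨insert l (insert l' T), ?_, ?_, ?_⟩
  · refine (Finset.card_insert_le _ _).trans ?_
    have := Finset.card_insert_le l' T
    omega
  · intro k hk
    simp only [Finset.mem_insert] at hk
    rcases hk with rfl | rfl | hk
    · exact hl
    · exact hl'
    · exact hTm k hk
  · intro j hj
    simp only [Finset.mem_insert, not_or] at hj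
    rw [hA.act_eq, hel j hj.1 hj.2.1, hermForm_single_left, hy j hj.2.2, zero_pow_q hF]
    simp

/-- The group generated by local elements contains the root elements. -/
lemma E_mem_LocG (hel : ∀ j, j ≠ l → j ≠ l' → h (Pi.single j 1) e = 0) (hl : m ≤ l.val) (hl' : m ≤ l'.val) (T : Finset (Fin n)) :
    (∀ k ∈ T, m ≤ k.val ∧ k ≠ l ∧ k ≠ l') → ∀ (A : SU n F q) (y : Fin n → F) (s : F), IsE A e y s → (∀ k, k ∉ T → y k = 0) →
      A ∈ LocG n F q m := by
  classical
  induction T using Finset.induction_on with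
  | empty =>
    intro _ A y s hA hy
    exact subset_closure (E_loc hF hel hl hl' hA (T := ∅) (by simp) (by simp) (fun k _ => hy k (by simp)))
  | insert k T' hk ih =>
    intro hT A y s hA hy
    have hT1 := hT k (Finset.mem_insert_self _ _)
    have hT' : ∀ j ∈ T', m ≤ j.val ∧ j ≠ l ∧ j ≠ l' := fun j hj => hT j (Finset.mem_insert_of_mem hj)
    set c := y k with hc
    set y₁ : Fin n → F := c • Pi.single k 1 with hy₁
    set y₂ : Fin n → F := y - y₁ with hy₂
    have hk1 : h (Pi.single k 1) e = 0 := hel k hT1.2.1 hT1.2.2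
    have h1e : h y₁ e = 0 := by rw [hy₁, hermForm_smul_left, hk1, mul_zero]
    have h2e : h y₂ e = 0 := by rw [hy₂, hermForm_sub_left, hA.hyv, h1e, sub_self]
    obtain ⟨s₁, hs₁⟩ : ∃ s : F, s + s ^ q = - h y₁ y₁ := by
      apply UnitaryE.exists_trace_eq hF
      rw [HermForm.neg_pow_q hF, hermForm_conj hF]
    obtain ⟨s₂, hs₂⟩ : ∃ s : F, s + s ^ q = - h y₂ y₂ := by
      apply UnitaryE.exists_trace_eq hF
      rw [HermForm.neg_pow_q hF, hermForm_conj hF]
    obtain ⟨B, hB⟩ := exists_IsE hF (s := s₁) hA.hvv h1e (by rw [hs₁]; ring)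
    obtain ⟨C, hC⟩ := exists_IsE hF (s := s₂) hA.hvv h2e (by rw [hs₂]; ring)
    have hBC := hB.mul hF hC
    have e1 : y₁ + y₂ = y := by rw [hy₂]; abel
    rw [e1] at hBC
    have hZ := E_diff hF hA hBC
    have hZ' : A * (B * C)⁻¹ ∈ LocG n F q m := by
      apply ih hT' _ _ _ hZ
      intro j _
      rfl
    have hB' : B ∈ LocG n F q m := by
      apply Subgroup.subset_closure
      refine E_loc hF hel hl hl' hB (T := {k}) (by simp) (by simpa using hT1.1) ?_
      intro j hj
      simp only [Finset.mem_singleton] at hj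
      rw [hy₁]
      simp [Pi.single_eq_of_ne hj]
    have hC' : C ∈ LocG n F q m := by
      apply ih hT' _ _ _ hC
      intro j hj
      by_cases hjk : j = k
      · subst hjk
        rw [hy₂, hy₁]
        simp [hc]
      · rw [hy₂, hy₁, Pi.sub_apply, hy j (by simp [hjk, hj])]
        simp [Pi.single_eq_of_ne hjk]
    have e2 : A = A * (B * C)⁻¹ * (B * C) := by group
    rw [e2]
    exact mul_mem hZ' (mul_mem hB' hC')

/-- An element of the root group fixing the partner is trivial. -/
lemma RE_fix {b : Fin n → Fin n → F} (hb : FR q b l l') {A : SU n F q} (hA : A ∈ RE hF hb.ee) (hfix : act A (b l') = b l') : A = 1 := by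
  obtain ⟨y, s, hA⟩ := hA
  have h0 : ∀ k : II l l', h y (b k.1) = 0 := by
    intro k
    rw [← rho_of hF hb hA]
    show h (act A (b l')) (b k.1) = 0
    rw [hfix]
    exact hb.fu k
  obtain ⟨s₀, hs₀⟩ := ker_form hF hb hA h0
  have h1 := hs₀.act_eq (b l')
  rw [hfix, hb.fe, hermForm_zero_right hF] at h1
  have h2 : s₀ • b l = 0 := by
    have h4 : b l' + (1 : F) • ((0 : Fin n → F) + s₀ • b l) - (0 : F) • b l = b l' + s₀ • b l := by
      simp
    rw [h4] at h1
    exact add_eq_left.mp h1.symm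
  have h3 : s₀ = 0 := by
    refine (smul_eq_zero.mp h2).resolve_right ?_
    intro e0
    have h7 := hb.ef
    rw [e0, hermForm_zero_left] at h7
    exact zero_ne_one h7
  rw [h3] at hs₀
  exact IsE.eq_one_of hF hs₀

end QQ

end Cfsg.Agent.Lib.UMRoot
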