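import Mathlib
import Cfsg.Agent.Lib.UMChain

/-!
# The chain of subgroups of the central extension covering a subgroup of index prime to the characteristic
-/

set_option autoImplicit false
set_option linter.unusedSectionVars false
set_option linter.unusedVariables false
set_option linter.style.haveILetI false

namespace Cfsg.Agent.Lib.UMRoot

open Module Matrix Subgroup Cfsg Cfsg.Agent.Lib.UnitaryBasic Cfsg.Agent.Lib.UnitarySU
  Cfsg.Agent.Lib.UnitaryConj Cfsg.Agent.Lib.UnitaryE Cfsg.Agent.Lib.SUGen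
  Cfsg.Agent.Lib.HermForm Cfsg.Agent.Lib.HermCount Cfsg.Agent.Lib.GUParab Cfsg.Agent.Lib.FFNorm
  Cfsg.Agent.Lib.SU2GenA Cfsg.Agent.Lib.SU2GenC Cfsg.Agent.Lib.UMHeis Cfsg.Agent.Lib.UMSect
  Cfsg.Agent.Lib.UMField
open scoped commutatorElement

universe u

section groups

variable {Γ : Type*} [Group Γ]

/-- Products in a join with a normalizing subgroup. -/
lemma mem_sup_mul {X Y : Subgroup Γ} (hYX : Y ≤ normalizer ((X : Subgroup Γ) : Set Γ)) {z : Γ} (hz : z ∈ X ⊔ Y) :
    ∃ x ∈ X, ∃ y ∈ Y, z = x * y := by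
  rw [sup_eq_closure] at hz
  induction hz using closure_induction with
  | mem z hz =>
    rcases hz with hz | hz
    · exact ⟨z, hz, 1, Y.one_mem, by simp⟩
    · exact ⟨1, X.one_mem, z, hz, by simp⟩
  | one => exact ⟨1, X.one_mem, 1, Y.one_mem, by simp⟩
  | mul a b _ _ ha hb =>
    obtain ⟨x, hx, y, hy, rfl⟩ := ha
    obtain ⟨x', hx', y', hy', rfl⟩ := hb
    refine ⟨x * (y * x' * y⁻¹), X.mul_mem hx ((mem_normalizer_iff.mp (hYX hy) x').mp hx'), y * y', Y.mul_mem hy hy', by group⟩
  | inv a _ ha =>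
    obtain ⟨x, hx, y, hy, rfl⟩ := ha
    have h1 : y⁻¹ * x⁻¹ * y⁻¹⁻¹ ∈ X := (mem_normalizer_iff.mp (hYX (Y.inv_mem hy)) x⁻¹).mp (X.inv_mem hx)
    exact ⟨_, h1, y⁻¹, Y.inv_mem hy, by group⟩

/-- The order of a join of subgroups with trivial intersection. -/
lemma card_sup_ge [Finite Γ] {X Y : Subgroup Γ} (hXY : ∀ z, z ∈ X → z ∈ Y → z = 1) :
    Nat.card X * Nat.card Y ≤ Nat.card (X ⊔ Y : Subgroup Γ) := by
  rw [← Nat.card_prod]
  apply Nat.card_le_card_of_injective (fun p : X × Y => (⟨p.1.1 * p.2.1, mul_mem_sup p.1.2 p.2.2⟩ : (X ⊔ Y : Subgroup Γ)))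
  rintro ⟨a, c⟩ ⟨a', c'⟩ e
  have e1 : a.1 * c.1 = a'.1 * c'.1 := congrArg Subtype.val e
  have h1 : a'.1⁻¹ * a.1 = c'.1 * c.1⁻¹ := by
    calc a'.1⁻¹ * a.1 = a'.1⁻¹ * (a.1 * c.1) * c.1⁻¹ := by group
      _ = a'.1⁻¹ * (a'.1 * c'.1) * c.1⁻¹ := by rw [e1]
      _ = c'.1 * c.1⁻¹ := by group
  have h2 : a'.1⁻¹ * a.1 = 1 := hXY _ (X.mul_mem (X.inv_mem a'.2) a.2) (by rw [h1]; exact Y.mul_mem c'.2 (Y.inv_mem c.2))
  have h3 : a.1 = a'.1 := (inv_mul_eq_one.mp h2).symm
  have h4 : c.1 = c'.1 := by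
    rw [h3] at e1
    exact mul_left_cancel e1
  exact Prod.ext (Subtype.ext h3) (Subtype.ext h4)

/-- Normalizers of intersections. -/
lemma mem_norm_inf {X Y : Subgroup Γ} {g : Γ} (h1 : g ∈ normalizer ((X : Subgroup Γ) : Set Γ))
    (h2 : g ∈ normalizer ((Y : Subgroup Γ) : Set Γ)) : g ∈ normalizer ((X ⊓ Y : Subgroup Γ) : Set Γ) := by
  rw [mem_normalizer_iff]
  intro z
  have e1 := mem_normalizer_iff.mp h1 z
  have e2 := mem_normalizer_iff.mp h2 z
  simp only [mem_inf, e1, e2]

end groups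

variable {F : Type*} [Field F] [Fintype F] {q n : ℕ}

local notation "h" => hermForm n F q

section counts

variable (hF : Fintype.card F = q ^ 2)

include hF

lemma card_trace_zero_ge : q ≤ Nat.card {κ : F // κ + κ ^ q = 0} := by
  classical
  have hq := HermCount.two_le_q hF
  obtain ⟨θ, hθ, htr⟩ := exists_trace_zero hF
  let C := (powMonoidHom (q - 1) : Fˣ →* Fˣ).ker
  have hC := card_ker_pow_pred hF
  have hval : ∀ c : C, ((c.1 : Fˣ) : F) ^ q = (c.1 : Fˣ) := by
    intro c
    apply pow_q_of_pred _ (by omega)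
    have h1 : (c.1 : Fˣ) ^ (q - 1) = 1 := c.2
    rw [← Units.val_pow_eq_pow_val, h1, Units.val_one]
  let φ : Option C → {κ : F // κ + κ ^ q = 0} := fun c =>
    match c with
    | none => ⟨0, by rw [zero_pow_q hF, add_zero]⟩
    | some c => ⟨((c.1 : Fˣ) : F) * θ, by
        rw [mul_pow, hval]
        linear_combination ((c.1 : Fˣ) : F) * htr⟩
  have hφ : Function.Injective φ := by
    rintro (_ | a) (_ | c) e
    · rfl
    · exfalso
      have e1 : (0 : F) = ((c.1 : Fˣ) : F) * θ := congrArg Subtype.val e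
      exact mul_ne_zero c.1.ne_zero hθ e1.symm
    · exfalso
      have e1 : ((a.1 : Fˣ) : F) * θ = 0 := congrArg Subtype.val e
      exact mul_ne_zero a.1.ne_zero hθ e1
    · have e1 : ((a.1 : Fˣ) : F) * θ = ((c.1 : Fˣ) : F) * θ := congrArg Subtype.val e
      have e2 := mul_right_cancel₀ hθ e1
      congr 1
      exact Subtype.ext (Units.ext e2)
  have h1 := Nat.card_le_card_of_injective φ hφ
  have h2 : Nat.card (Option C) = q := by
    haveI : Fintype C := Fintype.ofFinite _
    rw [Nat.card_eq_fintype_card, Fintype.card_option, ← Nat.card_eq_fintype_card, hC]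
    omega
  rw [h2] at h1
  exact h1

variable {b : Fin n → Fin n → F} {l l' : Fin n} (hb : FR q b l l')

include hb

/-- The order of the subgroup of the root group with directions supported on `P`. -/
theorem card_QQ {P : Fin n → Prop} [DecidablePred P] (hP : ∀ k, P k → k ≠ l ∧ k ≠ l')
    (hu : ∀ k : II l l', b k.1 = Pi.single k.1 1) :
    q ^ (2 * Fintype.card {k // P k} + 1) ≤ Nat.card (QQ hF hb.ee P) := by
  classical
  have hq := HermCount.two_le_q hF
  let yy : ({k // P k} → F) → Fin n → F := fun w k => if hk : P k then w ⟨k, hk⟩ else 0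
  have hyy1 : ∀ w k, ¬ P k → yy w k = 0 := fun w k hk => by simp [yy, hk]
  have hsum : ∀ w, yy w = ∑ k : II l l', (yy w k.1) • b k.1 := by
    intro w
    funext j
    by_cases hj : P j
    · have h1 := hP j hj
      rw [Finset.sum_apply, Finset.sum_eq_single (⟨j, h1⟩ : II l l')]
      · rw [Pi.smul_apply, hu]
        simp
      · intro k _ hk
        rw [Pi.smul_apply, hu, Pi.single_eq_of_ne, smul_zero]
        intro e
        exact hk (Subtype.ext e.symm)
      · simp
    · rw [hyy1 w j hj, Finset.sum_apply]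
      symm
      refine Finset.sum_eq_zero fun k _ => ?_
      rw [Pi.smul_apply, hu]
      by_cases hjk : j = k.1
      · subst hjk
        rw [hyy1 w _ hj, zero_smul]
      · rw [Pi.single_eq_of_ne hjk, smul_zero]
  have hye : ∀ w, h (yy w) (b l) = 0 := by
    intro w
    rw [hsum w]
    simp only [← hL_apply, map_sum]
    refine Finset.sum_eq_zero fun k _ => ?_
    rw [map_smul, hL_apply, hb.ue, smul_zero]
  have hyf : ∀ w, h (yy w) (b l') = 0 := by
    intro w
    rw [hsum w]
    simp only [← hL_apply, map_sum]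
    refine Finset.sum_eq_zero fun k _ => ?_
    rw [map_smul, hL_apply, hb.uf, smul_zero]
  have hs₀ : ∀ w, ∃ s : F, s + s ^ q = - h (yy w) (yy w) := by
    intro w
    apply UnitaryE.exists_trace_eq hF
    rw [HermForm.neg_pow_q hF, hermForm_conj hF]
  choose s₀ hs₀ using hs₀
  have hA : ∀ (w : {k // P k} → F) (κ : {κ : F // κ + κ ^ q = 0}), ∃ A : SU n F q, IsE A (b l) (yy w) (s₀ w + κ.1) := by
    intro w κ
    apply exists_IsE hF hb.ee (hye w)
    rw [HermForm.add_pow_q hF]
    linear_combination hs₀ w + κ.2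
  choose AA hAA using hA
  let Φ : ({k // P k} → F) × {κ : F // κ + κ ^ q = 0} → QQ hF hb.ee P := fun x =>
    ⟨AA x.1 x.2, _, _, hAA x.1 x.2, hyy1 x.1⟩
  have hΦ : Function.Injective Φ := by
    rintro ⟨w, κ⟩ ⟨w', κ'⟩ e
    have e1 : AA w κ = AA w' κ' := congrArg Subtype.val e
    have h1 := (hAA w κ).act_eq (b l')
    have h2 := (hAA w' κ').act_eq (b l')
    rw [e1, h2] at h1
    rw [hb.fe, conj_zero hF (hyf w'), conj_zero hF (hyf w), one_smul, one_smul, zero_smul, sub_zero, sub_zero] at h1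
    have h3 : yy w' + (s₀ w' + κ'.1) • b l = yy w + (s₀ w + κ.1) • b l := add_left_cancel h1
    have h4 := congrArg (fun v => h v (b l')) h3
    simp only [hermForm_add_left, hermForm_smul_left, hyf, hb.ef, zero_add, mul_one] at h4
    rw [h4] at h3
    have h5 : yy w' = yy w := add_right_cancel h3
    have h6 : w' = w := by
      funext k
      have := congrFun h5 k.1
      simpa [yy, k.2] using this
    subst h6
    have h7 : κ'.1 = κ.1 := add_left_cancel h4
    exact Prod.ext rfl (Subtype.ext h7.symm)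
  have h1 := Nat.card_le_card_of_injective Φ hΦ
  rw [Nat.card_prod, Nat.card_fun, Nat.card_eq_fintype_card (α := F), hF, Nat.card_eq_fintype_card (α := {k // P k})] at h1
  have h2 := card_trace_zero_ge hF
  calc q ^ (2 * Fintype.card {k // P k} + 1) = (q ^ 2) ^ Fintype.card {k // P k} * q := by
        rw [pow_succ, pow_mul]
    _ ≤ (q ^ 2) ^ Fintype.card {k // P k} * Nat.card {κ : F // κ + κ ^ q = 0} := Nat.mul_le_mul_left _ h2
    _ ≤ _ := h1

end counts

end Cfsg.Agent.Lib.UMRoot
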