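import Mathlib
import Cfsg.Agent.Lib.UMChain2

/-!
# The chain of subgroups: the step
-/

set_option autoImplicit false
set_option linter.unusedSectionVars false
set_option linter.unusedVariables false
set_option linter.style.haveILetI false

namespace Cfsg.Agent.Lib.UMRoot

open Module Matrix Subgroup Cfsg Cfsg.Agent.Lib.UnitaryBasic Cfsg.Agent.Lib.UnitarySU
  Cfsg.Agent.Lib.UnitaryConj Cfsg.Agent.Lib.UnitaryE Cfsg.Agent.Lib.SUGen
  Cfsg.Agent.Lib.HermForm Cfsg.Agent.Lib.HermCount Cfsg.Agent.Lib.GUParab Cfsg.Agent.Lib.FFNorm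
  Cfsg.Agent.Lib.SU2GenA Cfsg.Agent.Lib.SU2GenC Cfsg.Agent.Lib.UMHeis Cfsg.Agent.Lib.UMSect
  Cfsg.Agent.Lib.UMField
open scoped commutatorElement

universe u

variable {F : Type*} [Field F] [Fintype F] {q n : ℕ}

local notation "h" => hermForm n F q

section chain

variable (hF : Fintype.card F = q ^ 2) {Γ : Type u} [Group Γ] [Finite Γ] {σ : Γ →* SU n F q} (hσ : CE σ)
  {p : ℕ} [hp : Fact p.Prime]

/-- The data along the chain. -/
structure CH (σ : Γ →* SU n F q) (p : ℕ) (m : ℕ) (H : Subgroup Γ) : Prop where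
  pg : IsPGroup p H
  inj : ∀ z ∈ H, σ z = 1 → z = 1
  loc : ∀ z ∈ H, σ z ∈ LocG n F q m

include hσ in
/-- Lifts of elements of the group generated by a set of elements lifting into a normalizer. -/
lemma norm_closure {R : Subgroup Γ} {X : Set (SU n F q)} (hX : ∀ y, σ y ∈ X → y ∈ normalizer ((R : Subgroup Γ) : Set Γ)) {y : Γ}
    (hy : σ y ∈ closure X) : y ∈ normalizer ((R : Subgroup Γ) : Set Γ) := by
  have key : ∀ g ∈ closure X, ∀ y, σ y = g → y ∈ normalizer ((R : Subgroup Γ) : Set Γ) := by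
    intro g hg
    induction hg using closure_induction with
    | mem g hg =>
      rintro y rfl
      exact hX y hg
    | one =>
      intro y hy
      rw [mem_normalizer_iff]
      intro z
      have hc := central_comm hσ hy z
      have e : y * z * y⁻¹ = z := by
        rw [← hc]
        group
      rw [e]
    | mul a b _ _ ha hb =>
      intro y hy
      obtain ⟨y₁, rfl⟩ := hσ.surj a
      have h1 := ha y₁ rfl
      have h2 : σ (y₁⁻¹ * y) = b := by
        rw [map_mul, map_inv, hy]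
        group
      have h3 := hb _ h2
      have e : y = y₁ * (y₁⁻¹ * y) := by group
      rw [e]
      exact mul_mem h1 h3
    | inv a _ ha =>
      intro y hy
      have h1 : σ y⁻¹ = a := by
        rw [map_inv, hy, inv_inv]
      have h2 := ha _ h1
      have e : y = (y⁻¹)⁻¹ := by group
      rw [e]
      exact inv_mem h2
  exact key _ hy y rfl

include hF in
lemma QQ_conj {e : Fin n → F} (he : h e e = 0) {m : ℕ} {g A : SU n F q} (hg : g ∈ LocG n F q m) (hge : act g e = e)
    (hA : A ∈ QQ hF he (fun k : Fin n => m ≤ k.val)) : g * A * g⁻¹ ∈ QQ hF he (fun k : Fin n => m ≤ k.val) := by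
  obtain ⟨y, s, hA, hy⟩ := hA
  have h1 := hA.conj hF g
  rw [hge] at h1
  refine ⟨_, _, h1, fun k hk => ?_⟩
  have hk' : k.val < m := by omega
  have e1 := LocG_fix hg hk'
  have e2 := herm_act g y (Pi.single k 1)
  rw [e1, hermForm_single_right hF, hermForm_single_right hF] at e2
  rw [e2]
  exact hy k hk

include hF in
lemma QQ_norm {e : Fin n → F} (he : h e e = 0) {m : ℕ} {g : SU n F q} (hg : g ∈ LocG n F q m) (hge : act g e = e) :
    g ∈ normalizer ((QQ hF he (fun k : Fin n => m ≤ k.val) : Subgroup (SU n F q)) : Set (SU n F q)) := by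
  rw [mem_normalizer_iff]
  intro A
  constructor
  · exact QQ_conj hF he hg hge
  · intro hA
    have h1 : act g⁻¹ e = e := by
      nth_rewrite 1 [← hge]
      rw [act_inv_act]
    have := QQ_conj hF he (inv_mem hg) h1 hA
    have e0 : g⁻¹ * (g * A * g⁻¹) * g⁻¹⁻¹ = A := by group
    rwa [e0] at this

omit [Fintype F] in
lemma card_ge_val (m : ℕ) : Fintype.card {k : Fin n // m ≤ k.val} = n - m := by
  classical
  rw [Fintype.card_subtype]
  have e : (Finset.univ.filter fun k : Fin n => m ≤ k.val).map Fin.valEmbedding = Finset.Ico m n := by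
    ext x
    simp only [Finset.mem_map, Finset.mem_filter, Finset.mem_univ, true_and, Fin.valEmbedding_apply, Finset.mem_Ico]
    constructor
    · rintro ⟨k, hk, rfl⟩
      exact ⟨hk, k.2⟩
    · rintro ⟨h1, h2⟩
      exact ⟨⟨x, h2⟩, h1, rfl⟩
  rw [← Finset.card_map Fin.valEmbedding, e, Nat.card_Ico]

/-- The output of Lemma N for a frame. -/
def LN (hF : Fintype.card F = q ^ 2) (σ : Γ →* SU n F q) (p : ℕ) {b : Fin n → Fin n → F} {l l' : Fin n} (hb : FR q b l l') (m : ℕ) : Prop :=
  ∃ R : Subgroup Γ, IsPGroup p R ∧ R.map σ = RE hF hb.ee ∧ (∀ z ∈ R, σ z = 1 → z = 1) ∧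
    ∀ y, σ y ∈ Loc n F q m → y ∈ normalizer ((R : Subgroup Γ) : Set Γ)

variable {γ₁ γ₂ κ : F} (hG : GK q γ₁ γ₂ κ)

include hF hσ hG in
/-- The step of the chain. -/
theorem chain_step {l l' : Fin n} {m : ℕ} (hl : l.val = m) (hl' : l'.val = m + 1) (hb : FR q (bb γ₁ γ₂ κ l l') l l') (hN : LN hF σ p hb (m + 2))
    {H : Subgroup Γ} (hH : CH σ p (m + 2) H) :
    ∃ H', CH σ p m H' ∧ q ^ (2 * (n - (m + 2)) + 1) * Nat.card H ≤ Nat.card H' := by
  classical
  obtain ⟨R, hRp, hRm, hRi, hRn⟩ := hN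
  set b := bb γ₁ γ₂ κ l l' with hbd
  have hll : l ≠ l' := hb.ne
  have hu : ∀ k : II l l', b k.1 = Pi.single k.1 1 := fun k => bb_k k
  let P : Fin n → Prop := fun k => m + 2 ≤ k.val
  have hP : ∀ k, P k → k ≠ l ∧ k ≠ l' := by
    intro k hk
    constructor
    · rintro rfl
      have : m + 2 ≤ k.val := hk
      omega
    · rintro rfl
      have : m + 2 ≤ k.val := hk
      omega
  set Q := QQ hF hb.ee P with hQ
  have hQR : Q ≤ RE hF hb.ee := by
    rintro A ⟨y, s, hA, -⟩
    exact ⟨y, s, hA⟩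
  let Qh : Subgroup Γ := R ⊓ Q.comap σ
  have hQhR : Qh ≤ R := inf_le_left
  -- fixing the hyperbolic pair
  have hfixe : ∀ g ∈ LocG n F q (m + 2), act g (b l) = b l := by
    intro g hg
    have h1 := LocG_fix hg (k := l) (by omega)
    have h2 := LocG_fix hg (k := l') (by omega)
    rw [hbd, bb_l, act_add, act_smul, h1, h2]
  have hfixf : ∀ g ∈ LocG n F q (m + 2), act g (b l') = b l' := by
    intro g hg
    have h1 := LocG_fix hg (k := l) (by omega)
    have h2 := LocG_fix hg (k := l') (by omega)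
    rw [hbd, bb_l' hll, act_smul, act_add, act_smul, h1, h2]
  -- normalizing
  have hYX : H ≤ normalizer ((Qh : Subgroup Γ) : Set Γ) := by
    intro y hy
    apply mem_norm_inf
    · exact norm_closure hσ hRn (hH.loc y hy)
    · apply comap_norm
      exact QQ_norm hF hb.ee (hH.loc y hy) (hfixe _ (hH.loc y hy))
  have hcap : ∀ x ∈ Qh, ∀ y ∈ H, σ x * σ y = 1 → σ y = 1 := by
    intro x hx y hy e
    have h1 : σ y = (σ x)⁻¹ := eq_inv_of_mul_eq_one_right e
    have h2 : σ x ∈ RE hF hb.ee := hQR hx.2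
    have h3 := hfixf _ (hH.loc y hy)
    rw [h1] at h3 ⊢
    exact RE_fix hF hb (inv_mem h2) h3
  have hloc : Q ≤ LocG n F q m := by
    rintro A ⟨y, s, hA, hy⟩
    refine E_mem_LocG hF (l := l) (l' := l') ?_ (by omega) (by omega) (Finset.univ.filter P) ?_ A y s hA ?_
    · intro j h1 h2
      have := hb.ue ⟨j, h1, h2⟩
      rwa [hu] at this
    · intro k hk
      have hk' : m + 2 ≤ k.val := (Finset.mem_filter.mp hk).2
      exact ⟨by omega, hP k hk'⟩
    · intro k hk
      apply hy
      intro hk2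
      exact hk (Finset.mem_filter.mpr ⟨Finset.mem_univ _, hk2⟩)
  refine ⟨Qh ⊔ H, ⟨?_, ?_, ?_⟩, ?_⟩
  · exact IsPGroup.to_sup_of_normal_left' (hRp.to_le hQhR) hH.pg hYX
  · intro z hz hz1
    obtain ⟨x, hx, y, hy, rfl⟩ := mem_sup_mul hYX hz
    rw [map_mul] at hz1
    have h1 := hcap x hx y hy hz1
    have h2 : y = 1 := hH.inj y hy h1
    have h3 : σ x = 1 := by
      rw [h1, mul_one] at hz1
      exact hz1
    rw [h2, hRi x hx.1 h3, mul_one]
  · have h1 : Qh ⊔ H ≤ (LocG n F q m).comap σ := by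
      apply sup_le
      · intro z hz
        exact hloc hz.2
      · intro z hz
        exact LocG_mono (by omega) (hH.loc z hz)
    exact fun z hz => h1 hz
  · have h1 := card_sup_ge (X := Qh) (Y := H) (by
      intro z hz hz'
      apply hH.inj z hz'
      have := hcap z⁻¹ (inv_mem hz) z hz'
      rw [map_inv, inv_mul_cancel] at this
      exact this rfl)
    refine le_trans ?_ h1
    apply Nat.mul_le_mul_right
    have hcQ := card_QQ hF hb (P := P) hP hu
    have e1 : Fintype.card {k // P k} = n - (m + 2) := card_ge_val (m + 2)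
    rw [e1] at hcQ
    refine hcQ.trans (le_of_eq ?_)
    -- `σ` is a bijection from `Qh` onto `Q`
    symm
    refine Nat.card_eq_of_bijective (fun z : Qh => (⟨σ z.1, z.2.2⟩ : Q)) ⟨?_, ?_⟩
    · rintro ⟨a, ha⟩ ⟨c, hc⟩ e
      have e1 : σ a = σ c := congrArg Subtype.val e
      apply Subtype.ext
      have h2 : a * c⁻¹ = 1 := hRi _ (R.mul_mem ha.1 (R.inv_mem hc.1)) (by rw [map_mul, map_inv, e1, mul_inv_cancel])
      exact mul_inv_eq_one.mp h2
    · rintro ⟨A, hA⟩
      have h2 : A ∈ R.map σ := by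
        rw [hRm]
        exact hQR hA
      obtain ⟨r, hr, e⟩ := h2
      refine ⟨⟨r, hr, ?_⟩, Subtype.ext e⟩
      show σ r ∈ Q
      rw [e]
      exact hA

end chain

end Cfsg.Agent.Lib.UMRoot
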