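import Mathlib
import Cfsg.Agent.Lib.UMChain3

/-!
# Central extensions of `SU_n(q)` with kernel a group of order a power of the characteristic
-/

set_option autoImplicit false
set_option linter.unusedSectionVars false
set_option linter.unusedVariables false
set_option linter.style.haveILetI false

namespace Cfsg.Agent.Lib.UMRoot

open Module Matrix Subgroup Cfsg Cfsg.Agent.Lib.UnitaryBasic Cfsg.Agent.Lib.UnitarySU
  Cfsg.Agent.Lib.UnitaryConj Cfsg.Agent.Lib.UnitaryE Cfsg.Agent.Lib.SUGen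
  Cfsg.Agent.Lib.HermForm Cfsg.Agent.Lib.HermCount Cfsg.Agent.Lib.GUParab Cfsg.Agent.Lib.FFNorm
  Cfsg.Agent.Lib.SU2GenA Cfsg.Agent.Lib.SU2GenC Cfsg.Agent.Lib.UMHeis Cfsg.Agent.Lib.UMSect
  Cfsg.Agent.Lib.UMField
open scoped commutatorElement

universe u

variable {F : Type*} [Field F] [Fintype F] {q n : ℕ}

local notation "h" => hermForm n F q

section chain

lemma tri_step (s : ℕ) : (s + 2) * (s + 2 - 1) / 2 = (2 * s + 1) + s * (s - 1) / 2 := by
  have e : (s + 2) * (s + 2 - 1) = s * (s - 1) + 2 * (2 * s + 1) := by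
    cases s with
    | zero => norm_num
    | succ t =>
      simp only [Nat.add_sub_cancel]
      have : t + 1 + 2 - 1 = t + 2 := by omega
      rw [this]
      ring
  rw [e, Nat.add_mul_div_left _ _ (by norm_num : 0 < 2)]
  ring

variable (hF : Fintype.card F = q ^ 2) {Γ : Type u} [Group Γ] [Finite Γ] {σ : Γ →* SU n F q} (hσ : CE σ)
  {p : ℕ} [hp : Fact p.Prime] {γ₁ γ₂ κ : F} (hG : GK q γ₁ γ₂ κ)

include hF hσ hG in
theorem chain_all (hLN : ∀ (l l' : Fin n) (m : ℕ), l.val = m → l'.val = m + 1 → ∀ hb : FR q (bb γ₁ γ₂ κ l l') l l', LN hF σ p hb (m + 2)) :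
    ∀ r m, n - m = r → ∃ H, CH σ p m H ∧ q ^ ((n - m) * (n - m - 1) / 2) ≤ Nat.card H := by
  intro r
  induction r using Nat.strong_induction_on with
  | _ r ih =>
    intro m hm
    by_cases hr : r ≤ 1
    · refine ⟨⊥, ⟨IsPGroup.of_bot, ?_, ?_⟩, ?_⟩
      · intro z hz _
        exact hz
      · intro z hz
        rw [mem_bot.mp hz, map_one]
        exact one_mem _
      · have e : (n - m) * (n - m - 1) / 2 = 0 := by
          rw [hm]
          interval_cases r <;> simp
        rw [e, pow_zero]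
        simp
    · have h1 : m + 1 < n := by omega
      obtain ⟨H, hH, hc⟩ := ih (r - 2) (by omega) (m + 2) (by omega)
      have hb : FR q (bb γ₁ γ₂ κ (⟨m, by omega⟩ : Fin n) ⟨m + 1, h1⟩) ⟨m, by omega⟩ ⟨m + 1, h1⟩ :=
        bb_fr hF hG (by simp [Fin.ext_iff])
      obtain ⟨H', hH', hc'⟩ := chain_step hF hσ hG rfl rfl hb (hLN _ _ m rfl rfl hb) hH
      refine ⟨H', hH', ?_⟩
      refine le_trans ?_ hc'
      set s := n - (m + 2) with hs
      have e1 : n - m = s + 2 := by omega
      rw [e1, tri_step, pow_add]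
      exact Nat.mul_le_mul_left _ hc

variable {k : ℕ} (hqk : q = p ^ k) [CharP F p]

include hF hσ hG hqk in
/-- A chain gives a section. -/
theorem section_of_chain (hn : 1 ≤ n) (hZ : IsPGroup p σ.ker)
    (hLN : ∀ (l l' : Fin n) (m : ℕ), l.val = m → l'.val = m + 1 → ∀ hb : FR q (bb γ₁ γ₂ κ l l') l l', LN hF σ p hb (m + 2)) :
    ∃ s : SU n F q →* Γ, ∀ g, σ (s g) = g := by
  classical
  have hq := HermCount.two_le_q hF
  have hpq : p ∣ q := by
    rw [hqk]
    apply dvd_pow_self
    rintro rfl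
    rw [pow_zero] at hqk
    omega
  obtain ⟨H, hH, hc⟩ := chain_all hF hσ hG hLN (n - 0) 0 rfl
  simp only [Nat.sub_zero] at hc
  apply exists_section_of_sub hσ hZ H hH.inj
  rw [Nat.coprime_comm, Nat.Prime.coprime_iff_not_dvd hp.out]
  intro hd
  -- orders
  obtain ⟨a, ha⟩ := IsPGroup.iff_card.mp hH.pg
  have hmapc : Nat.card (H.map σ) = Nat.card H := by
    apply Nat.card_congr
    refine (Equiv.ofBijective (fun z : H => (⟨σ z.1, mem_map_of_mem σ z.2⟩ : H.map σ)) ⟨?_, ?_⟩).symm
    · rintro ⟨a, ha⟩ ⟨c, hc⟩ e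
      have e1 : σ a = σ c := congrArg Subtype.val e
      apply Subtype.ext
      have h2 : a * c⁻¹ = 1 := hH.inj _ (H.mul_mem ha (H.inv_mem hc)) (by rw [map_mul, map_inv, e1, mul_inv_cancel])
      exact mul_inv_eq_one.mp h2
    · rintro ⟨A, r, hr, e⟩
      exact ⟨⟨r, hr⟩, Subtype.ext e⟩
  have h1 := card_mul_index (H.map σ)
  rw [hmapc, ha] at h1
  have h2 : p ^ (a + 1) ∣ Nat.card (SU n F q) := by
    rw [← h1, pow_succ]
    exact Nat.mul_dvd_mul_left _ hd
  have h3 := card_SU hF n hn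
  have h4 : p ^ (a + 1) ∣ q ^ (n * (n - 1) / 2) * ∏ i ∈ Finset.range n, (if Even i then q ^ (i + 1) + 1 else q ^ (i + 1) - 1) := by
    rw [← h3]
    exact Dvd.dvd.mul_left h2 _
  have hcop : Nat.Coprime (p ^ (a + 1)) (∏ i ∈ Finset.range n, (if Even i then q ^ (i + 1) + 1 else q ^ (i + 1) - 1)) := by
    apply Nat.Coprime.pow_left
    apply Nat.Coprime.prod_right
    intro i _
    rw [Nat.Prime.coprime_iff_not_dvd hp.out]
    have hpi : p ∣ q ^ (i + 1) := dvd_pow hpq (by omega)
    have hpos : 1 ≤ q ^ (i + 1) := Nat.one_le_pow _ _ (by omega)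
    split_ifs
    · intro hd2
      have h5 := (Nat.dvd_add_right hpi).mp hd2
      exact hp.out.one_lt.ne' (Nat.dvd_one.mp h5)
    · intro hd2
      have h5 : p ∣ 1 := by
        have e : q ^ (i + 1) = (q ^ (i + 1) - 1) + 1 := by omega
        rw [e] at hpi
        exact (Nat.dvd_add_right hd2).mp hpi
      exact hp.out.one_lt.ne' (Nat.dvd_one.mp h5)
  have h5 : p ^ (a + 1) ∣ q ^ (n * (n - 1) / 2) := hcop.dvd_of_dvd_mul_right h4
  have h6 := Nat.le_of_dvd (Nat.pow_pos (by omega)) h5
  rw [ha] at hc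
  have h7 : p ^ a < p ^ (a + 1) := Nat.pow_lt_pow_right hp.out.one_lt (by omega)
  omega

end chain

section final

variable (hF : Fintype.card F = q ^ 2) {Γ : Type u} [Group Γ] [Finite Γ] {σ : Γ →* SU n F q} (hσ : CE σ)

omit [Fintype F] in
lemma card_II {l l' : Fin n} (hll : l ≠ l') : Fintype.card (II l l') = n - 2 := by
  classical
  rw [Fintype.card_subtype]
  have e : (Finset.univ.filter fun k : Fin n => k ≠ l ∧ k ≠ l') = (Finset.univ.erase l).erase l' := by
    ext k
    simp [and_comm]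
  rw [e, Finset.card_erase_of_mem, Finset.card_erase_of_mem (Finset.mem_univ l), Finset.card_univ, Fintype.card_fin]
  · omega
  · exact Finset.mem_erase.mpr ⟨hll.symm, Finset.mem_univ _⟩

include hF hσ in
/-- Central extensions of `SU_n(q)` with kernel a group of order a power of the characteristic split. -/
theorem section_char {p k : ℕ} [hp : Fact p.Prime] [CharP F p] (hqk : q = p ^ k) (hn : 3 ≤ n) (h3 : ¬ (n = 3 ∧ q = 2))
    (hexc : (n, q) ∉ ({(4, 2), (4, 3), (6, 2)} : Set (ℕ × ℕ))) (hZ : IsPGroup p σ.ker) : ∃ s : SU n F q →* Γ, ∀ g, σ (s g) = g := by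
  classical
  have hq := HermCount.two_le_q hF
  have hpq : p ∣ q := by
    rw [hqk]
    apply dvd_pow_self
    rintro rfl
    rw [pow_zero] at hqk
    omega
  obtain ⟨γ₁, γ₂, κ, hG⟩ := exists_GK hF
  apply section_of_chain hF hσ hG hqk (by omega) hZ
  intro l l' m hl hl' hb
  have hll := hb.ne
  have hcard := card_II hll
  have hfix : ∀ g : SU n F q, ∀ (S : Finset (Fin n)), (∀ k ∈ S, m + 2 ≤ k.val) → (∀ k, k ∉ S → act g (Pi.single k 1) = Pi.single k 1) →
      act g (bb γ₁ γ₂ κ l l' l) = bb γ₁ γ₂ κ l l' l ∧ act g (bb γ₁ γ₂ κ l l' l') = bb γ₁ γ₂ κ l l' l' := by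
    intro g S h1 h2
    have e1 : l ∉ S := fun e => by have := h1 _ e; omega
    have e2 : l' ∉ S := fun e => by have := h1 _ e; omega
    constructor
    · rw [bb_l, act_add, act_smul, h2 _ e1, h2 _ e2]
    · rw [bb_l' hll, act_smul, act_add, act_smul, h2 _ e1, h2 _ e2]
  by_cases hq2 : q = 2
  · -- characteristic two
    have hp2 : p = 2 := by
      have h1 : p ∣ 2 := hq2 ▸ hpq
      exact (Nat.prime_dvd_prime_iff_eq hp.out Nat.prime_two).mp h1
    subst hp2
    have hn5 : 5 ≤ n := by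
      by_contra hlt
      have h4 : n = 3 ∨ n = 4 := by omega
      rcases h4 with h4 | h4
      · exact h3 ⟨h4, hq2⟩
      · apply hexc
        simp [h4, hq2]
    have hn6 : n ≠ 6 := by
      intro h6
      apply hexc
      simp [h6, hq2]
    obtain ⟨R, h1, h2, h4, h5⟩ := lemmaN_two hF hq2 hb hσ hZ (by omega) (by omega)
    refine ⟨R, h1, h2, h4, ?_⟩
    rintro y ⟨S, hS, hSm, hSf⟩
    have e := hfix _ S hSm hSf
    refine h5 y (S.subtype (fun k => k ≠ l ∧ k ≠ l')) ?_ e.1 e.2 ?_
    · rw [Finset.card_subtype]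
      exact (Finset.card_filter_le _ _).trans hS
    · intro k hk
      rw [bb_k]
      apply hSf
      intro e3
      exact hk (by simpa using e3)
  · obtain ⟨R, h1, h2, h4, h5⟩ := lemmaN_big hb hF hσ hpq hZ (by omega) (by
      apply Fintype.card_pos_iff.mp
      omega) (by
      intro j j' hjj
      by_cases h4q : 4 ≤ q
      · exact Or.inr h4q
      · left
        have hq3 : q = 3 := by omega
        have hn5 : 5 ≤ n := by
          by_contra hlt
          have h4 : n = 3 ∨ n = 4 := by omega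
          rcases h4 with h4 | h4
          · have : Fintype.card (II l l') = 1 := by omega
            exact hjj (Fintype.card_le_one_iff.mp this.le j j')
          · apply hexc
            simp [h4, hq3]
        obtain ⟨x, -, hx⟩ := Finset.exists_mem_notMem_of_card_lt_card (s := ({j, j'} : Finset (II l l')))
          (t := Finset.univ) (by
            have : ({j, j'} : Finset (II l l')).card ≤ 2 := Finset.card_le_two
            rw [Finset.card_univ]
            omega)
        simp only [Finset.mem_insert, Finset.mem_singleton, not_or] at hx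
        exact ⟨x, hx.1, hx.2⟩)
    refine ⟨R, h1, h2, h4, ?_⟩
    rintro y ⟨S, hS, hSm, hSf⟩
    have e := hfix _ S hSm hSf
    exact h5 y e.1 e.2

end final

end Cfsg.Agent.Lib.UMRoot
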