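import Mathlib
import Cfsg.Agent.Lib.UMChain4
import Cfsg.Agent.Lib.UnitarySimple
import Cfsg.Agent.Lib.StMain

/-!
# The Schur multiplier of `PSU_n(q)` from the primes different from the characteristic
-/

set_option autoImplicit false
set_option linter.unusedSectionVars false
set_option linter.unusedVariables false
set_option linter.style.haveILetI false

namespace Cfsg.Agent.Lib.UMRoot

open Module Matrix Subgroup Cfsg Cfsg.Agent.Lib.UnitaryBasic Cfsg.Agent.Lib.UnitarySU
  Cfsg.Agent.Lib.UnitaryConj Cfsg.Agent.Lib.UnitaryE Cfsg.Agent.Lib.SUGen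
  Cfsg.Agent.Lib.HermForm Cfsg.Agent.Lib.HermCount Cfsg.Agent.Lib.GUParab Cfsg.Agent.Lib.FFNorm
  Cfsg.Agent.Lib.SU2GenA Cfsg.Agent.Lib.SU2GenC Cfsg.Agent.Lib.UMHeis Cfsg.Agent.Lib.UMSect
  Cfsg.Agent.Lib.UMField
open scoped commutatorElement

universe u

variable {F : Type u} [Field F] [Fintype F] {q n : ℕ}

/-- `SU_n(q)` is perfect. -/
theorem SU_perfect' (hF : Fintype.card F = q ^ 2) (hn : 3 ≤ n) (h3 : ¬ (n = 3 ∧ q = 2)) : commutator (SU n F q) = ⊤ := by
  have h1 := UnitaryPerfect.SUU_perfect hF hn h3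
  rw [eq_top_iff]
  intro g _
  have h2 : (UnitarySimple.isoSU n F q) g ∈ commutator (UnitaryPerfect.SUU n F q) := by
    rw [h1]
    trivial
  have h3' : (commutator (UnitaryPerfect.SUU n F q)).map (UnitarySimple.isoSU n F q).symm.toMonoidHom ≤ commutator (SU n F q) := by
    unfold _root_.commutator
    rw [map_commutator]
    apply commutator_mono <;> exact le_top
  have h4 := h3' ⟨_, h2, rfl⟩
  simpa using h4

/-- The centre of `SU_n(q)` is cyclic. -/
theorem center_cyclic' (hF : Fintype.card F = q ^ 2) (hn : 1 ≤ n) : IsCyclic (Subgroup.center (SU n F q)) := by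
  classical
  haveI : Finite (SU n F q) := Subtype.finite
  let i₀ : Fin n := ⟨0, by omega⟩
  let f : Subgroup.center (SU n F q) →* F :=
    { toFun := fun z => (z.1.1.1 : Matrix (Fin n) (Fin n) F) i₀ i₀
      map_one' := by simp
      map_mul' := by
        intro a c
        show ((a.1.1.1 : Matrix (Fin n) (Fin n) F) * (c.1.1.1 : Matrix (Fin n) (Fin n) F)) i₀ i₀ = _
        rw [Matrix.mul_apply, Finset.sum_eq_single i₀]
        · intro k _ hk
          rw [center_offdiag_zero hF a.1 a.2 hk.symm, zero_mul]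
        · simp }
  apply isCyclic_of_subgroup_isDomain f
  intro a c e
  apply Subtype.ext
  apply Subtype.ext
  apply Subtype.ext
  ext i j
  by_cases hij : i = j
  · subst hij
    have e0 : (a.1.1.1 : Matrix (Fin n) (Fin n) F) i₀ i₀ = (c.1.1.1 : Matrix (Fin n) (Fin n) F) i₀ i₀ := e
    by_cases hi : i = i₀
    · rw [hi]
      exact e0
    · rw [center_diag_eq hF a.1 a.2 hi, center_diag_eq hF c.1 c.2 hi]
      exact e0
  · rw [center_offdiag_zero hF a.1 a.2 hij, center_offdiag_zero hF c.1 c.2 hij]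

/-- `SU_n(q)` is generated by elements of order prime to `r`. -/
theorem genCop_SU (hF : Fintype.card F = q ^ 2) (hn : 2 ≤ n) {p r : ℕ} [hp : Fact p.Prime] [CharP F p] (hr : r.Prime) (hrp : r ≠ p) :
    GenCop r (SU n F q) := by
  have h1 := RR_eq_top hF hn
  unfold GenCop
  rw [eq_top_iff, ← h1]
  apply Subgroup.closure_mono
  rintro A ⟨v, y, s, hA⟩
  have h2 : A ^ (p ^ 2) = 1 := IsE.pow_p hF hA
  have h3 : orderOf A ∣ p ^ 2 := orderOf_dvd_of_pow_eq_one h2
  apply Nat.Coprime.coprime_dvd_left h3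
  apply Nat.Coprime.pow_left
  exact (Nat.coprime_primes hp.out hr).mpr hrp.symm

/-- The multiplier from the primes different from the characteristic. -/
theorem multiplier_of_rpart (hF : Fintype.card F = q ^ 2) (hn : 3 ≤ n) (h3 : ¬ (n = 3 ∧ q = 2))
    (hexc : (n, q) ∉ ({(4, 2), (4, 3), (6, 2)} : Set (ℕ × ℕ)))
    (Hr : ∀ (r p : ℕ), r.Prime → p.Prime → CharP F p → r ≠ p → ∀ (Γ : Type u) [Group Γ] [Finite Γ] (σ : Γ →* SU n F q),
      IsStemExtension σ → IsPGroup r σ.ker → σ.ker = ⊥) :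
    HasCyclicSchurMultiplier (PSU n F q) (Nat.gcd n (q + 1)) := by
  classical
  haveI : Finite (SU n F q) := Subtype.finite
  obtain ⟨p, k, hp, hchar, hqk⟩ := exists_char_pow hF
  haveI : Fact p.Prime := ⟨hp⟩
  haveI := hchar
  refine StMain.multiplier_of_quotient (SU_perfect' hF hn h3) ?_ (center_cyclic' hF (by omega)) (card_center_SU' hF n hn)
  intro Γ _ _ σ hσ
  apply ker_bot_of_sect.{u, u} _ σ hσ
  intro r hr
  haveI : Fact r.Prime := ⟨hr⟩
  by_cases hrp : r = p
  · subst hrp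
    intro Γ' _ _ σ' hσ' hZ'
    exact section_char hF hσ' hqk hn h3 hexc hZ'
  · exact sect_of_stem (genCop_SU hF (by omega) hr hrp) (fun Γ' _ _ σ' hσ' hZ' => Hr r p hr hp hchar hrp Γ' σ' hσ' hZ')

end Cfsg.Agent.Lib.UMRoot
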