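import Mathlib
import Cfsg.Agent.Lib.PrsSVI
import Cfsg.Agent.Lib.PrsU3L
import Cfsg.Agent.Lib.UMTop

/-!
# Presentations of special unitary groups: the assembled statement, given the input of dimension three
-/

set_option autoImplicit false
set_option linter.unusedSectionVars false
set_option linter.unusedVariables false

noncomputable section

namespace Cfsg.Agent.Lib.PrsSU

open Subgroup Sum Cfsg.Agent.Lib.SUWitt Cfsg.Agent.Lib.PrsU3
open Cfsg.Agent.Lib.PrsSp (SLN Mono wW mono_wW dn mono_dn IsBlk sl_eq dn_mul dn_one dn_inv tv_inv' sl_comm sl_comm' exists_mono2 tv_isBlk blk blk_isBlk exists_blk IsBlk.inv_entry lift_map_pres exists_hom_of_pres holds_of_map pres_reindex pres_pad exists_blkGen)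
open Cfsg.Agent.Lib.PrsSLn (sl_five sl_four)
open scoped Matrix commutatorElement

section EvenFinal

variable {F : Type*} [Field F] [Fintype F] {q : ℕ} (hF : Fintype.card F = q ^ 2)

include hF

lemma blk_two (g : SLN (0 + 1 + 1) F) (hg : IsBlk 0 g) : g = 1 := by
  obtain ⟨g', rfl⟩ := exists_blk hg
  have h2 : g' = 1 := by
    apply sl_eq
    ext i j
    have h3 : (g' : Matrix (Fin 1) (Fin 1) F).det = 1 := g'.2
    rw [Matrix.det_fin_one] at h3
    have hi : i = 0 := Subsingleton.elim _ _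
    have hj : j = 0 := Subsingleton.elim _ _
    subst hi hj
    simpa using h3
  rw [h2, map_one]

lemma su_even_ge (m : ℕ) (hm : 1 ≤ m) (RA : Finset (FreeGroup (Fin 4))) (hl : RA.card ≤ 22)
    (eA : PresentedGroup (RA : Set (FreeGroup (Fin 4))) ≃* SLN (m + 1 + 1) F) :
    ∃ rels : Finset (FreeGroup (Fin 6)), rels.card ≤ 38 ∧
    Nonempty (PresentedGroup (rels : Set (FreeGroup (Fin 6))) ≃* Cfsg.SU (nE m) F q) := by
  classical
  obtain ⟨S, hS, hS1, hS2⟩ := exists_blkGen (K := F) (m := m) hm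
  have h2 : (2 : ℕ) < m + 1 + 1 := by omega
  let k : Fin (m + 1 + 1) := ⟨2, h2⟩
  have hk0 : k ≠ 0 := by
    intro e
    have := congrArg Fin.val e
    simp [k] at this
  have hk1 : k ≠ 1 := by
    intro e
    have := congrArg Fin.val e
    simp [k, Fin.val_one] at this
  obtain ⟨R, hR, ⟨E⟩⟩ := su_even_core hF (k := 4) m RA eA S hS1 hS2 (.third k hk0 hk1)
  obtain ⟨R', hR', hE⟩ := pres_to_fin (finSumFinEquiv (m := 4) (n := 1)) 1 R E
  simp only [EX.len, hS] at hR
  exact ⟨R', by omega, hE⟩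

theorem su_even (m : ℕ) : ∃ rels : Finset (FreeGroup (Fin 6)), rels.card ≤ 38 ∧ (m = 0 → rels.card ≤ 28) ∧
    Nonempty (PresentedGroup (rels : Set (FreeGroup (Fin 6))) ≃* Cfsg.SU (nE m) F q) := by
  classical
  rcases Nat.lt_or_ge m 1 with h0 | h1
  · obtain rfl : m = 0 := by omega
    obtain ⟨⟨RA, hA, ⟨eA⟩⟩, -⟩ := Cfsg.Agent.Lib.PrsSL2.main (F := F)
    have hS : ∀ g : SLN (0 + 1 + 1) F, IsBlk 0 g → g ∈ closure {s | s ∈ ([] : List (SLN (0 + 1 + 1) F))} := by
      intro g hg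
      rw [blk_two hF g hg]
      exact one_mem _
    obtain ⟨R, hR, ⟨E⟩⟩ := su_even_core hF (k := 3) 0 RA eA [] (by simp) hS (.two (blk_two hF))
    obtain ⟨R', hR', hE⟩ := pres_to_fin (finSumFinEquiv (m := 3) (n := 1)) 2 R E
    simp only [List.length_nil, EX.len] at hR
    exact ⟨R', by omega, fun _ => by omega, hE⟩
  · have hne : m ≠ 0 := by omega
    suffices h : ∃ RA : Finset (FreeGroup (Fin 4)), RA.card ≤ 22 ∧ Nonempty (PresentedGroup (RA : Set (FreeGroup (Fin 4))) ≃* SLN (m + 1 + 1) F) by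
      obtain ⟨RA, hl, ⟨eA⟩⟩ := h
      obtain ⟨R', h3, h4⟩ := su_even_ge hF m h1 RA hl eA
      exact ⟨R', h3, fun h => absurd h hne, h4⟩
    rcases Nat.lt_or_ge m 2 with h2 | h2
    · obtain rfl : m = 1 := by omega
      obtain ⟨rels, h3, h4⟩ := Cfsg.Agent.Lib.PrsSL3.good3 (F := F)
      exact ⟨rels, by omega, h4.iso⟩
    · rcases Nat.lt_or_ge m 3 with h3 | h3
      · obtain rfl : m = 2 := by omega
        have hA4 : ∃ R : Finset (FreeGroup (Fin 2)), R.card ≤ 4 ∧
            Nonempty (PresentedGroup (R : Set (FreeGroup (Fin 2))) ≃* Cfsg.Agent.Lib.PrsSLn.Alt 4) :=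
          ⟨Cfsg.Agent.Lib.Pres.SmallCert.relF Cfsg.Agent.Lib.Pres.SmallData.rlA4, (Cfsg.Agent.Lib.Pres.SmallCert.card_relF _).trans (by decide), Cfsg.Agent.Lib.Pres.SmallData.presA4⟩
        obtain ⟨R4, hR4, ⟨e4⟩⟩ := hA4
        obtain ⟨rels', h5, h6⟩ := sl_four (F := F) (m := 4) (by norm_num) R4 e4
        exact ⟨rels', by omega, h6.iso⟩
      · obtain ⟨R, hR, ⟨e⟩⟩ := (Cfsg.Agent.Lib.Pres.Final.all_pres (m + 1 + 1)).2
        obtain ⟨rels, h5, h6⟩ := sl_five (F := F) (n := m + 1 + 1) (by omega) (m := 4) (by norm_num) R e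
        exact ⟨rels, by omega, h6.iso⟩

end EvenFinal

section Perm2

/-- A presentation of the group of order two on two generators with two relators. -/
lemma perm2_pres : ∃ R : Finset (FreeGroup (Fin 2)), R.card ≤ 2 ∧
    Nonempty (PresentedGroup (R : Set (FreeGroup (Fin 2))) ≃* Equiv.Perm (Fin 2)) := by
  classical
  let a : FreeGroup (Fin 2) := FreeGroup.of 0
  let b : FreeGroup (Fin 2) := FreeGroup.of 1
  let R : Finset (FreeGroup (Fin 2)) := {a * a, a * b}
  refine ⟨R, Finset.card_le_two, ?_⟩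
  let f : Fin 2 → Equiv.Perm (Fin 2) := fun _ => Equiv.swap 0 1
  have hf : ∀ r ∈ (R : Set (FreeGroup (Fin 2))), FreeGroup.lift f r = 1 := by
    intro r hr
    have hr' : r ∈ R := by exact_mod_cast hr
    simp only [R, Finset.mem_insert, Finset.mem_singleton] at hr'
    rcases hr' with rfl | rfl <;> simp [a, b, f]
  let φ := PresentedGroup.toGroup hf
  let A : PresentedGroup (R : Set (FreeGroup (Fin 2))) := PresentedGroup.of 0
  let B : PresentedGroup (R : Set (FreeGroup (Fin 2))) := PresentedGroup.of 1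
  have hAA : A * A = 1 := by
    have : PresentedGroup.mk (R : Set (FreeGroup (Fin 2))) (a * a) = 1 :=
      PresentedGroup.one_of_mem (by simp [R])
    rwa [map_mul] at this
  have hAB : A * B = 1 := by
    have : PresentedGroup.mk (R : Set (FreeGroup (Fin 2))) (a * b) = 1 :=
      PresentedGroup.one_of_mem (by simp [R])
    rwa [map_mul] at this
  have hBA : B = A := by
    have h1 : A * B = A * A := by rw [hAB, hAA]
    exact mul_left_cancel h1
  have hA2 : A⁻¹ = A := inv_eq_of_mul_eq_one_left hAA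
  let S : Subgroup (PresentedGroup (R : Set (FreeGroup (Fin 2)))) :=
    { carrier := {x | x = 1 ∨ x = A}
      one_mem' := Or.inl rfl
      mul_mem' := by
        rintro _ _ (rfl | rfl) (rfl | rfl)
        · exact Or.inl (by simp)
        · exact Or.inr (by simp)
        · exact Or.inr (by simp)
        · exact Or.inl hAA
      inv_mem' := by
        rintro _ (rfl | rfl)
        · exact Or.inl (by simp)
        · exact Or.inr hA2 }
  have hS : S = ⊤ := by
    rw [eq_top_iff, ← PresentedGroup.closure_range_of, closure_le]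
    rintro _ ⟨i, rfl⟩
    fin_cases i
    · exact Or.inr rfl
    · exact Or.inr hBA
  have hφA : φ A = Equiv.swap 0 1 := by
    simp [φ, A, f]
  refine ⟨MulEquiv.ofBijective φ ⟨?_, ?_⟩⟩
  · rw [injective_iff_map_eq_one]
    intro x hx
    have hxS : x ∈ S := by
      rw [hS]
      exact mem_top x
    rcases hxS with h | h
    · exact h
    · exfalso
      rw [h, hφA] at hx
      revert hx
      decide
  · intro π
    have h : π = 1 ∨ π = Equiv.swap 0 1 := by
      revert π
      decide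
    rcases h with rfl | rfl
    · exact ⟨1, map_one _⟩
    · exact ⟨A, hφA⟩

end Perm2

section OddFinal

variable {F : Type*} [Field F] [Fintype F] {q : ℕ} (hF : Fintype.card F = q ^ 2)

local notation "σQ" => Cfsg.Agent.Lib.HermForm.frobQ hF

/-- The input of dimension three. -/
def GJIn (hF : Fintype.card F = q ^ 2) : Prop :=
  (∃ RB : Finset (FreeGroup (Fin 3)), RB.card ≤ 18 ∧ Nonempty (PresentedGroup (RB : Set (FreeGroup (Fin 3))) ≃* GJ (Cfsg.Agent.Lib.HermForm.frobQ hF))) ∧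
  ∃ g₁ g₂ : GJ (Cfsg.Agent.Lib.HermForm.frobQ hF), closure ({g₁, g₂} : Set (GJ (Cfsg.Agent.Lib.HermForm.frobQ hF))) = ⊤

variable {hF}

theorem su_odd (H : GJIn hF) (m'' : ℕ) : ∃ rels : Finset (FreeGroup (Fin 6)), rels.card ≤ 39 ∧ (m'' = 0 → rels.card ≤ 35) ∧
    Nonempty (PresentedGroup (rels : Set (FreeGroup (Fin 6))) ≃* Cfsg.SU (nO (m'' + 1)) F q) := by
  classical
  obtain ⟨⟨RB, hB, ⟨eB⟩⟩, g₁, g₂, hg⟩ := H
  rcases Nat.lt_or_ge m'' 1 with h0 | h1
  · obtain rfl : m'' = 0 := by omega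
    obtain ⟨RA, hA, ⟨eA⟩⟩ := perm2_pres
    have hS2 : ∀ π : Equiv.Perm (Fin (0 + 1 + 1)), π 0 = 0 → π ∈ closure {s | s ∈ ([] : List (Equiv.Perm (Fin (0 + 1 + 1))))} := by
      intro π h
      have : π = 1 := by
        revert π
        decide
      rw [this]
      exact one_mem _
    obtain ⟨R, hR, ⟨E⟩⟩ := su_odd_core hF (k := 2) (l := 3) 0 RA eA RB eB g₁ g₂ hg [] (by simp) hS2 6 (Or.inr ⟨by
      intro k
      fin_cases k <;> simp, rfl⟩)
    obtain ⟨R', hR', hE⟩ := pres_to_fin (finSumFinEquiv (m := 2) (n := 3)) 1 R E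
    simp only [List.length_nil] at hR
    exact ⟨R', by omega, fun _ => by omega, hE⟩
  · obtain ⟨RA, hA, ⟨eA⟩⟩ := (Cfsg.Agent.Lib.Pres.Final.all_pres (m'' + 1 + 1)).1
    obtain ⟨RA', -, ⟨eA'⟩⟩ := (Cfsg.Agent.Lib.Pres.Final.all_pres (m'' + 1)).1
    have hab := two_gen_of_pres RA' eA'
    have h2 : (2 : ℕ) < m'' + 1 + 1 := by omega
    let k : Fin (m'' + 1 + 1) := ⟨2, h2⟩
    have hk0 : k ≠ 0 := by
      intro e
      have := congrArg Fin.val e
      simp [k] at this
    have hk1 : k ≠ 1 := by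
      intro e
      have := congrArg Fin.val e
      simp [k, Fin.val_one] at this
    obtain ⟨R, hR, ⟨E⟩⟩ := su_odd_core hF (k := 2) (l := 3) m'' RA eA RB eB g₁ g₂ hg
      [stabι (m'' + 1) (eA' (PresentedGroup.of 0)), stabι (m'' + 1) (eA' (PresentedGroup.of 1))]
      (by
        intro s hs
        simp only [List.mem_cons, List.not_mem_nil, or_false] at hs
        rcases hs with rfl | rfl <;> exact stabι_zero _ _)
      (stab_gen (m'' + 1) _ _ hab) 2 (Or.inl ⟨⟨k, hk0, hk1⟩, rfl⟩)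
    obtain ⟨R', hR', hE⟩ := pres_to_fin (finSumFinEquiv (m := 2) (n := 3)) 1 R E
    simp only [List.length_cons, List.length_nil] at hR
    exact ⟨R', by omega, fun h => by omega, hE⟩

/-- The statement for all dimensions. -/
theorem su_all (H : GJIn hF) (n : ℕ) (hn : 4 ≤ n) : ∃ rels : Finset (FreeGroup (Fin 6)), rels.card ≤ 39 ∧ ((n = 4 ∨ n = 5) → rels.card ≤ 35) ∧
    Nonempty (PresentedGroup (rels : Set (FreeGroup (Fin 6))) ≃* Cfsg.SU n F q) := by
  rcases Nat.even_or_odd' n with ⟨k, rfl | rfl⟩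
  · obtain ⟨m, rfl⟩ : ∃ m, k = m + 1 + 1 := ⟨k - 2, by omega⟩
    obtain ⟨R, h1, h2, h3⟩ := su_even hF m
    refine ⟨R, by omega, ?_, h3⟩
    intro h
    have : m = 0 := by omega
    have := h2 this
    omega
  · obtain ⟨m, rfl⟩ : ∃ m, k = m + 1 + 1 := ⟨k - 2, by omega⟩
    obtain ⟨R, h1, h2, h3⟩ := su_odd H m
    refine ⟨R, h1, ?_, h3⟩
    intro h
    exact h2 (by omega)

end OddFinal

section PSUFinal

variable {F : Type*} [Field F] [Fintype F] {q : ℕ}

lemma center_gen (hF : Fintype.card F = q ^ 2) (n : ℕ) (hn : 1 ≤ n) :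
    ∃ z : Cfsg.SU n F q, z ∈ center (Cfsg.SU n F q) ∧ ∀ c ∈ center (Cfsg.SU n F q), c ∈ zpowers z := by
  haveI := Cfsg.Agent.Lib.UMRoot.center_cyclic' hF hn
  obtain ⟨g, hg⟩ := IsCyclic.exists_generator (α := center (Cfsg.SU n F q))
  refine ⟨g, g.2, fun c hc => ?_⟩
  obtain ⟨k, hk⟩ := mem_zpowers_iff.1 (hg ⟨c, hc⟩)
  refine mem_zpowers_iff.2 ⟨k, ?_⟩
  have := congrArg Subtype.val hk
  simpa using this

/-- From the special unitary group to its central quotient. -/
lemma psu_of_su (hF : Fintype.card F = q ^ 2) {n : ℕ} (hn : 1 ≤ n) {α : Type} (R : Finset (FreeGroup α))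
    (E : PresentedGroup (R : Set (FreeGroup α)) ≃* Cfsg.SU n F q) :
    ∃ R' : Finset (FreeGroup α), R'.card ≤ R.card + 1 ∧ Nonempty (PresentedGroup (R' : Set (FreeGroup α)) ≃* Cfsg.PSU n F q) := by
  obtain ⟨z, hz, hzc⟩ := center_gen hF n hn
  exact pres_quot_cyc R E (center (Cfsg.SU n F q)) z hz hzc

end PSUFinal

end Cfsg.Agent.Lib.PrsSU
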