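import Mathlib
import Cfsg.Agent.Lib.SchurTower
import Cfsg.Agent.Lib.SchurTc

/-!
# Presentations on two generators given by lists of letters
-/

set_option autoImplicit false
set_option linter.unusedSectionVars false
set_option linter.unusedVariables false

namespace Cfsg.Agent.Lib.PrsSU

open Subgroup
open Cfsg.Agent.Lib.SchurCoset46 (lett evW lett_even lett_odd)
open Cfsg.Agent.Lib.SchurTower (TCf)

section Word

/-- The free group element of a letter. -/
def fgL (l : ℕ) : FreeGroup (Fin 2) :=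
  if l = 0 then FreeGroup.of 0 else if l = 1 then (FreeGroup.of 0)⁻¹ else if l = 2 then FreeGroup.of 1 else (FreeGroup.of 1)⁻¹

/-- The free group element of a word. -/
def fgW (w : List ℕ) : FreeGroup (Fin 2) := (w.map fgL).prod

/-- The relators. -/
noncomputable def fgR (rl : List (List ℕ)) : Finset (FreeGroup (Fin 2)) := by
  classical
  exact (rl.map fgW).toFinset

lemma fgR_card (rl : List (List ℕ)) : (fgR rl).card ≤ rl.length := by
  classical
  have := List.toFinset_card_le (rl.map fgW)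
  simpa [fgR] using this

lemma mem_fgR {rl : List (List ℕ)} {r : List ℕ} (h : r ∈ rl) : fgW r ∈ (fgR rl : Set (FreeGroup (Fin 2))) := by
  classical
  simp only [fgR, List.coe_toFinset, Set.mem_setOf_eq, List.mem_map]
  exact ⟨r, h, rfl⟩

/-- The generators of a group from a function. -/
def toF2 {G : Type*} (s : ℕ → G) : Fin 2 → G := fun i => s i

variable {G : Type*} [Group G] (s : ℕ → G)

lemma lift_fgL (l : ℕ) (hl : l < 4) : FreeGroup.lift (toF2 s) (fgL l) = lett s l := by
  obtain rfl | rfl | rfl | rfl : l = 0 ∨ l = 1 ∨ l = 2 ∨ l = 3 := by omega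
  · simp [fgL, toF2, lett_even (x := s) 0]
  · have := lett_odd s 0
    simpa [fgL, toF2] using this.symm
  · simpa [fgL, toF2] using (lett_even s 1).symm
  · simpa [fgL, toF2] using (lett_odd s 1).symm

lemma lift_fgW (w : List ℕ) (hw : ∀ l ∈ w, l < 4) : FreeGroup.lift (toF2 s) (fgW w) = evW s w := by
  induction w with
  | nil => simp [fgW, evW]
  | cons l w ih =>
    have h1 := ih (fun a ha => hw a (List.mem_cons_of_mem _ ha))
    have h2 := lift_fgL s l (hw l List.mem_cons_self)
    simp only [fgW, List.map_cons, List.prod_cons, map_mul, evW] at h1 ⊢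
    rw [h1, h2]

lemma rel_lift {rl : List (List ℕ)} (hlt : ∀ r ∈ rl, ∀ l ∈ r, l < 4) (hrel : ∀ r ∈ rl, evW s r = 1) :
    ∀ r ∈ (fgR rl : Set (FreeGroup (Fin 2))), FreeGroup.lift (toF2 s) r = 1 := by
  classical
  intro r hr
  have hr' : r ∈ (rl.map fgW).toFinset := by
    have : r ∈ fgR rl := by exact_mod_cast hr
    simpa [fgR] using this
  obtain ⟨w, hw, rfl⟩ := List.mem_map.1 (List.mem_toFinset.1 hr')
  rw [lift_fgW s w (hlt w hw)]
  exact hrel w hw

end Word

section PF

/-- The presented group. -/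
abbrev PF (rl : List (List ℕ)) := PresentedGroup (fgR rl : Set (FreeGroup (Fin 2)))

/-- The generators of the presented group. -/
noncomputable def xP (rl : List (List ℕ)) : ℕ → PF rl := fun n => if n = 0 then PresentedGroup.of 0 else PresentedGroup.of 1

variable {rl : List (List ℕ)}

lemma lift_xP : FreeGroup.lift (toF2 (xP rl)) = PresentedGroup.mk (fgR rl : Set (FreeGroup (Fin 2))) := by
  ext i
  fin_cases i <;> simp [toF2, xP, PresentedGroup.of]

lemma mk_fgW (w : List ℕ) (hw : ∀ l ∈ w, l < 4) : PresentedGroup.mk (fgR rl : Set (FreeGroup (Fin 2))) (fgW w) = evW (xP rl) w := by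
  rw [← lift_xP, lift_fgW _ w hw]

lemma xP_rel (hlt : ∀ r ∈ rl, ∀ l ∈ r, l < 4) : ∀ r ∈ rl, evW (xP rl) r = 1 := by
  intro r hr
  rw [← mk_fgW r (hlt r hr)]
  exact PresentedGroup.one_of_mem (mem_fgR hr)

lemma xP_gen : closure ((xP rl) '' Set.Iio 2) = ⊤ := by
  rw [eq_top_iff, ← PresentedGroup.closure_range_of, closure_le]
  rintro _ ⟨i, rfl⟩
  apply Subgroup.subset_closure
  fin_cases i
  · exact ⟨0, by simp, by simp [xP]⟩
  · exact ⟨1, by simp, by simp [xP]⟩

/-- An isomorphism from a bound on the order. -/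
theorem pf_iso {G : Type*} [Group G] [Finite G] (hlt : ∀ r ∈ rl, ∀ l ∈ r, l < 4) (s : ℕ → G) (hrel : ∀ r ∈ rl, evW s r = 1)
    (hgen : closure (s '' Set.Iio 2) = ⊤) [Finite (PF rl)] (hc : Nat.card (PF rl) ≤ Nat.card G) : Nonempty (PF rl ≃* G) := by
  let φ := PresentedGroup.toGroup (rel_lift s hlt hrel)
  have hsurj : Function.Surjective φ := by
    rw [← MonoidHom.range_eq_top, eq_top_iff, ← hgen, closure_le]
    rintro _ ⟨n, hn, rfl⟩
    have hn' : n < 2 := hn
    obtain rfl | rfl : n = 0 ∨ n = 1 := by omega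
    · exact ⟨PresentedGroup.of 0, by simp [φ, toF2]⟩
    · exact ⟨PresentedGroup.of 1, by simp [φ, toF2]⟩
  exact ⟨MulEquiv.ofBijective φ (hsurj.bijective_of_nat_card_le hc)⟩

/-- The bound on the order from a coset enumeration over a cyclic subgroup. -/
theorem card_of_tc {W : Type} [Group W] (x : ℕ → W) (hgen : closure (x '' Set.Iio 2) = ⊤) {n : ℕ} (htc : TCf 2 n rl [0])
    (hr : ∀ r ∈ rl, evW x r = 1) {k : ℕ} (hk0 : 0 < k) (hk : x 0 ^ k = 1) : Nat.card W ≠ 0 ∧ Nat.card W ≤ n * k := by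
  have hl : lett x 0 = x 0 := by
    simp [lett]
  obtain ⟨h1, h2⟩ := htc W x hgen hr (zpowers (x 0)) (by
    intro a ha
    simp only [List.mem_cons, List.not_mem_nil, or_false] at ha
    subst ha
    rw [hl]
    exact mem_zpowers _)
  have h3 : orderOf (x 0) ∣ k := orderOf_dvd_of_pow_eq_one hk
  have h4 : 0 < orderOf (x 0) := orderOf_pos_iff.2 (isOfFinOrder_iff_pow_eq_one.2 ⟨k, hk0, hk⟩)
  have h5 : Nat.card (zpowers (x 0)) = orderOf (x 0) := Nat.card_zpowers _
  have h6 := Subgroup.card_mul_index (zpowers (x 0))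
  rw [h5] at h6
  rw [← h6]
  refine ⟨mul_ne_zero h4.ne' h1, ?_⟩
  calc orderOf (x 0) * (zpowers (x 0)).index ≤ k * n := Nat.mul_le_mul (Nat.le_of_dvd hk0 h3) h2
    _ = n * k := mul_comm _ _

lemma evW_rep0 {W : Type*} [Group W] (x : ℕ → W) (l k : ℕ) : evW x (List.replicate k l) = lett x l ^ k := by
  induction k with
  | zero => simp [evW]
  | succ k ih =>
    rw [List.replicate_succ, evW, ih, pow_succ']

lemma evW_app {W : Type*} [Group W] (x : ℕ → W) (u v : List ℕ) : evW x (u ++ v) = evW x u * evW x v := by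
  induction u with
  | nil => simp [evW]
  | cons l u ih => simp only [List.cons_append, evW, ih, mul_assoc]

/-- An isomorphism from a coset enumeration. -/
theorem pf_iso_tc {G : Type*} [Group G] [Finite G] (hlt : ∀ r ∈ rl, ∀ l ∈ r, l < 4) (s : ℕ → G) (hrel : ∀ r ∈ rl, evW s r = 1)
    (hgen : closure (s '' Set.Iio 2) = ⊤) {n k : ℕ} (htc : TCf 2 n rl [0]) (hk0 : 0 < k) (hk : List.replicate k 0 ∈ rl) (hc : n * k ≤ Nat.card G) :
    Nonempty (PF rl ≃* G) := by
  have h1 := xP_rel hlt _ hk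
  rw [evW_rep0] at h1
  have hl : lett (xP rl) 0 = xP rl 0 := by
    simp [lett]
  rw [hl] at h1
  obtain ⟨h2, h3⟩ := card_of_tc (xP rl) xP_gen htc (xP_rel hlt) hk0 h1
  haveI : Finite (PF rl) := Nat.finite_of_card_ne_zero h2
  exact pf_iso hlt s hrel hgen (h3.trans hc)

end PF

end Cfsg.Agent.Lib.PrsSU
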