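import Mathlib
import Cfsg.Agent.Lib.U35Perm
import Cfsg.Agent.Lib.PSU35C

set_option autoImplicit false
set_option linter.unusedVariables false
set_option linter.unusedSectionVars false
set_option linter.style.longLine false
set_option maxRecDepth 100000

/-!
# The projective special unitary group in dimension three over the field with 25 elements

The group permutes the 252 classes of isotropic vectors modulo the squares of the field, and two explicit matrices act on
them as the permutations of `U35Perm`. The order of the group then gives that it is isomorphic to the group generated by these.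
-/

namespace Cfsg.Agent.Lib.U35

open scoped Matrix
open Cfsg Cfsg.Agent.Lib.F25Code Cfsg.Agent.Lib.SUMinDeg Cfsg.Agent.Lib.PSU35B Cfsg.Agent.Lib.PSU35C

/-! ### Abstract part -/

section Abs

variable {A Y : Type*} [Group A] (ac : A → Y → Y) (h1 : ∀ y, ac 1 y = y) (h2 : ∀ a b y, ac (a * b) y = ac a (ac b y))
  {n : ℕ} (e : Fin n → Y) (he : Function.Injective e) (hinv : ∀ a j, ∃ k, ac a (e j) = e k)

/-- The index of an image. -/
noncomputable def idx (a : A) (j : Fin n) : Fin n := Classical.choose (hinv a j)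

theorem idx_spec (a : A) (j : Fin n) : ac a (e j) = e (idx ac e hinv a j) := Classical.choose_spec (hinv a j)

/-- The permutation representation. -/
noncomputable def permHom : A →* Equiv.Perm (Fin n) where
  toFun a :=
    { toFun := idx ac e hinv a
      invFun := idx ac e hinv a⁻¹
      left_inv := fun j => he (by
        rw [← idx_spec ac e hinv, ← idx_spec ac e hinv, ← h2, inv_mul_cancel, h1])
      right_inv := fun j => he (by
        rw [← idx_spec ac e hinv, ← idx_spec ac e hinv, ← h2, mul_inv_cancel, h1]) }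
  map_one' := by
    ext j
    have h : e (idx ac e hinv 1 j) = e j := by
      rw [← idx_spec ac e hinv, h1]
    exact congrArg Fin.val (he h)
  map_mul' a b := by
    ext j
    have h : e (idx ac e hinv (a * b) j) = e (idx ac e hinv a (idx ac e hinv b j)) := by
      rw [← idx_spec ac e hinv, ← idx_spec ac e hinv, ← idx_spec ac e hinv, h2]
    exact congrArg Fin.val (he h)

theorem permHom_spec (a : A) (j : Fin n) : ac a (e j) = e (permHom ac h1 h2 e he hinv a j) := idx_spec ac e hinv a j

theorem permHom_eq (a : A) (σ : Equiv.Perm (Fin n)) (h : ∀ j, ac a (e j) = e (σ j)) : permHom ac h1 h2 e he hinv a = σ := by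
  ext j
  have h3 : e (permHom ac h1 h2 e he hinv a j) = e (σ j) := by
    have h4 := permHom_spec ac h1 h2 e he hinv a j
    rw [← h4, h]
  exact congrArg Fin.val (he h3)

end Abs

theorem iso_of {A P : Type*} [Group A] [Group P] [Finite A] (φ : A →* P) (S : Subgroup P) (hS : S ≤ φ.range)
    (hc : Nat.card A ≤ Nat.card S) : Nonempty (A ≃* S) := by
  have : Finite φ.range := Set.Finite.to_subtype (Set.finite_range φ)
  have h1 : Nat.card φ.range ≤ Nat.card A := Nat.card_le_card_of_surjective _ φ.rangeRestrict_surjective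
  have h2 : Nat.card S ≤ Nat.card φ.range := Subgroup.card_le_of_le hS
  have h3 : S = φ.range := Subgroup.eq_of_le_of_card_ge hS (by omega)
  have hb : Function.Bijective φ.rangeRestrict :=
    (Nat.bijective_iff_surjective_and_card _).2 ⟨φ.rangeRestrict_surjective, by omega⟩
  subst h3
  exact ⟨MulEquiv.ofBijective _ hb⟩

/-! ### Tables -/

def ptT : ℕ := 133949461896646514718374812086001369327467237212881868265569026068437627713956467208863840238552207799837431298076194543730431894061944643843426752575223846588798027533881421616418683233843606251657512405927836485739714613364626295164924114314062072304675170860878769988598499988684783408825435106787439773820889941665858430721891733872125860457413233806123722402459769377696044225928596025058870605587690634545333019558917243330847680126550103122978507705679124944909744078084796858911941754606664820475271079264610866283865040012035029737573750101232974123289220267144416835096865676943268767201032434455894936124347655132162581425447149857452904388943322620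82786199538156160171974840975759198607609007881904337598744606099794148203676047651687280853066478224713553142953554437646032492412852676515708654974387685851702722083073495375375636464063481481688664481762141112843894145513737860868614024223344858217282093682591641129900883222842528544332746220438528689715491356716359333233389111351846421757901593538362113824194422588587241563162421908614209649052143859439815020616849311691328686354920613935943762724162876034732009115162361551302468948627271740680228765235396778286179632536874110497332604544221235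

/-- The code of a class. -/
def ptc (j : ℕ) : ℕ := (Nat.shiftRight ptT (16 * j)) % 65536

/-- A vector from its code. -/
def dec3 (n : ℕ) : V3 := ⟨n % 25, n / 25 % 25, n / 625⟩

/-- The code of a vector. -/
def enc3 (u : V3) : ℕ := u.x + 25 * u.y + 625 * u.z

/-- The representative of a class. -/
def pt (j : ℕ) : V3 := dec3 (ptc j)

/-- The twelfth power. -/
def fp12 (x : ℕ) : ℕ := fmul (fmul (fmul x x) (fmul x x)) (fmul (fmul (fmul x x) (fmul x x)) (fmul (fmul x x) (fmul x x)))

/-- The square class normalisation. -/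
def tOf (l : ℕ) : ℕ := cond (Nat.beq (fp12 l) 1) l (fmul l (finv 5))

/-- The normal form. -/
def canon (u : V3) : V3 := V3.scale (finv (tOf (lead u))) u

/-- The search in the table. -/
def srch (n : ℕ) : ℕ → ℕ
  | 0 => 252
  | k + 1 => cond (Nat.beq (ptc k) n) k (srch n k)

def m1 : M3 := ⟨0,7,9,20,22,1,11,23,17⟩
def m2 : M3 := ⟨1,15,16,11,18,8,15,5,1⟩

/-- The matrices. -/
def mm (g : ℕ) : M3 := if g = 0 then m1 else m2

theorem U1 : M3.IsU m1 := by decide +kernel
theorem U2 : M3.IsU m2 := by decide +kernel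

theorem mm_U (g : ℕ) : M3.IsU (mm g) := by
  unfold mm
  split_ifs
  · exact U1
  · exact U2

theorem chkPts : chkAll 252 (fun j => decide (ptc j < 15625) && decide (V3.herm (pt j) (pt j) = 0) && decide (nz (lead (pt j)))) = true := by
  decide +kernel

theorem chkAct0 : chkAll 252 (fun j => decide (V3.scale (tOf (lead (M3.mulV m1 (pt j)))) (pt (tab 0 j)) = M3.mulV m1 (pt j) ∧ fp12 (tOf (lead (M3.mulV m1 (pt j)))) = 1)) = true := by
  decide +kernel

theorem chkAct1 : chkAll 252 (fun j => decide (V3.scale (tOf (lead (M3.mulV m2 (pt j)))) (pt (tab 1 j)) = M3.mulV m2 (pt j) ∧ fp12 (tOf (lead (M3.mulV m2 (pt j)))) = 1)) = true := by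
  decide +kernel

theorem chkComp : chkAll 15625 (fun n => decide (V3.herm (dec3 n) (dec3 n) ≠ 0 ∨ n = 0 ∨ (srch (enc3 (canon (dec3 n))) 252 < 252 ∧ V3.scale (tOf (lead (dec3 n))) (pt (srch (enc3 (canon (dec3 n))) 252)) = dec3 n ∧ fp12 (tOf (lead (dec3 n))) = 1))) = true := by
  decide +kernel

theorem chkCanon : chkAll 252 (fun j => chkAll 25 (fun d => decide (fp12 d ≠ 1 ∨ canon (V3.scale d (pt j)) = pt j))) = true := by
  decide +kernel

theorem chkInc : chkAll 251 (fun j => decide (ptc j < ptc (j + 1))) = true := by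
  decide +kernel

theorem chkNe : chkAll 25 (fun x => chkAll 25 (fun y => decide (x = y ∨ nz (fadd x (fmul 4 y))))) = true := by
  decide +kernel

theorem ptc_lt {j : ℕ} (hj : j < 252) : ptc j < 15625 := by
  have h := chkAll_spec chkPts j hj
  simp only [Bool.and_eq_true, decide_eq_true_eq] at h
  exact h.1.1

theorem ptc_mono {j k : ℕ} (hj : j < k) (hk : k < 252) : ptc j < ptc k := by
  induction k with
  | zero => omega
  | succ k ih =>
    have h := of_decide_eq_true (chkAll_spec chkInc k (by omega))
    rcases Nat.lt_succ_iff_lt_or_eq.1 hj with h1 | h1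
    · exact lt_trans (ih h1 (by omega)) h
    · rw [h1]
      exact h

theorem ptc_inj {j k : ℕ} (hj : j < 252) (hk : k < 252) (h : ptc j = ptc k) : j = k := by
  rcases lt_trichotomy j k with h1 | h1 | h1
  · exact absurd h (ne_of_lt (ptc_mono h1 hk))
  · exact h1
  · exact absurd h.symm (ne_of_lt (ptc_mono h1 hj))

theorem fmul_lt (x y : ℕ) : fmul x y < 25 := by
  unfold fmul
  omega

theorem fadd_lt (x y : ℕ) : fadd x y < 25 := by
  unfold fadd
  omega

/-- In range. -/
def Rg (u : V3) : Prop := u.x < 25 ∧ u.y < 25 ∧ u.z < 25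

theorem scale_rg (c : ℕ) (u : V3) : Rg (V3.scale c u) := ⟨fmul_lt _ _, fmul_lt _ _, fmul_lt _ _⟩

theorem herm_lt (u v : V3) : V3.herm u v < 25 := fadd_lt _ _

theorem enc_lt {u : V3} (h : Rg u) : enc3 u < 15625 := by
  obtain ⟨a, b, c⟩ := h
  unfold enc3
  omega

theorem dec_enc {u : V3} (h : Rg u) : dec3 (enc3 u) = u := by
  obtain ⟨x, y, z⟩ := u
  obtain ⟨a, b, c⟩ := h
  simp only at a b c
  unfold dec3 enc3
  simp only [V3.mk.injEq]
  refine ⟨?_, ?_, ?_⟩ <;> omega

theorem pt_rg {j : ℕ} (hj : j < 252) : Rg (pt j) := by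
  have h := ptc_lt hj
  unfold pt dec3
  refine ⟨Nat.mod_lt _ (by norm_num), Nat.mod_lt _ (by norm_num), ?_⟩
  simp only
  omega

theorem enc_dec {n : ℕ} (h : n < 15625) : enc3 (dec3 n) = n := by
  unfold enc3 dec3
  simp only
  omega

theorem pt_inj {j k : ℕ} (hj : j < 252) (hk : k < 252) (h : pt j = pt k) : j = k := by
  apply ptc_inj hj hk
  have h1 := congrArg enc3 h
  unfold pt at h1
  rwa [enc_dec (ptc_lt hj), enc_dec (ptc_lt hk)] at h1

/-! ### Transfer to the field -/

section Field

variable {F : Type} [Field F] [Fintype F] (hF : Fintype.card F = 25) (i : F) (hi : i * i = 2)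

include hF hi

theorem val_inj {x y : ℕ} (hx : x < 25) (hy : y < 25) (h : val i x = val i y) : x = y := by
  have h5 := five_eq_zero hF
  have h1 := of_decide_eq_true (chkAll_spec (chkAll_spec chkNe x hx) y hy)
  rcases h1 with h1 | h1
  · exact h1
  · exfalso
    apply val_ne hF i hi h1
    rw [val_add i h5, val_mul i hi h5, val_four i h5, h]
    ring

theorem exists_code (c : F) : ∃ d, d < 25 ∧ val i d = c := by
  let f : Fin 25 → F := fun d => val i d.1
  have hf : Function.Injective f := fun a b e => Fin.ext (val_inj hF i hi a.2 b.2 e)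
  have hb : Function.Bijective f := (Fintype.bijective_iff_injective_and_card f).2 ⟨hf, by simp [hF]⟩
  obtain ⟨d, hd⟩ := hb.2 c
  exact ⟨d.1, d.2, hd⟩

theorem toV_inj {u v : V3} (hu : Rg u) (hv : Rg v) (h : toV i u = toV i v) : u = v := by
  obtain ⟨x, y, z⟩ := u
  obtain ⟨x', y', z'⟩ := v
  have h0 := congrFun h 0
  have h1 := congrFun h 1
  have h2 := congrFun h 2
  simp only [toV] at h0 h1 h2
  simp only [Matrix.cons_val_zero, Matrix.cons_val_one, Matrix.cons_val] at h0 h1 h2
  simp only [V3.mk.injEq]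
  exact ⟨val_inj hF i hi hu.1 hv.1 h0, val_inj hF i hi hu.2.1 hv.2.1 h1, val_inj hF i hi hu.2.2 hv.2.2 h2⟩

theorem val_p12 (x : ℕ) : val i (fp12 x) = val i x ^ 12 := by
  have h5 := five_eq_zero hF
  unfold fp12
  simp only [val_mul i hi h5]
  ring

/-- Every vector is the value of a code. -/
theorem exists_vec (x : Fin 3 → F) : ∃ u : V3, Rg u ∧ toV i u = x := by
  obtain ⟨a, ha, ea⟩ := exists_code hF i hi (x 0)
  obtain ⟨b, hb, eb⟩ := exists_code hF i hi (x 1)
  obtain ⟨c, hc, ec⟩ := exists_code hF i hi (x 2)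
  refine ⟨⟨a, b, c⟩, ⟨ha, hb, hc⟩, ?_⟩
  funext k
  fin_cases k
  · exact ea
  · exact eb
  · exact ec

/-- Every nonzero isotropic vector is a square multiple of a representative. -/
theorem complete (x : Fin 3 → F) (hx : hermForm 3 F 5 x x = 0) (h0 : x ≠ 0) :
    ∃ k, k < 252 ∧ ∃ c : F, c ^ 12 = 1 ∧ x = c • toV i (pt k) := by
  have h5 := five_eq_zero hF
  obtain ⟨u, hu, rfl⟩ := exists_vec hF i hi x
  have hn := enc_lt hu
  have h1 := of_decide_eq_true (chkAll_spec chkComp (enc3 u) hn)
  rw [dec_enc hu] at h1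
  rcases h1 with h1 | h1 | h1
  · exfalso
    apply h1
    rw [herm_toV i hi h5] at hx
    apply val_inj hF i hi (herm_lt _ _) (by norm_num)
    rw [hx, val_zero]
  · exfalso
    apply h0
    have h2 := dec_enc hu
    rw [h1] at h2
    rw [← h2]
    funext k
    fin_cases k <;> simp [toV, dec3, val_zero]
  · obtain ⟨h2, h3, h4⟩ := h1
    refine ⟨_, h2, val i (tOf (lead u)), ?_, ?_⟩
    · rw [← val_p12 hF i hi, h4, val_one]
    · rw [smul_toV i hi h5, h3]

/-- The class of a vector. -/
def hl (x : Fin 3 → F) : Set (Fin 3 → F) := {y | ∃ c : F, c ^ 12 = 1 ∧ y = c • x}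

omit hF hi in
theorem hl_smul (x : Fin 3 → F) {c : F} (hc : c ^ 12 = 1) : hl (c • x) = hl x := by
  have hc0 : c ≠ 0 := by
    rintro rfl
    simp at hc
  ext y
  constructor
  · rintro ⟨d, hd, rfl⟩
    exact ⟨d * c, by rw [mul_pow, hd, hc, one_mul], by rw [smul_smul]⟩
  · rintro ⟨d, hd, rfl⟩
    refine ⟨d * c⁻¹, by rw [mul_pow, inv_pow, hd, hc, one_mul, inv_one], ?_⟩
    rw [smul_smul, mul_assoc, inv_mul_cancel₀ hc0, mul_one]

omit hF hi in
theorem self_mem_hl (x : Fin 3 → F) : x ∈ hl x := ⟨1, one_pow _, (one_smul _ _).symm⟩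

omit hF hi in
theorem image_hl (g : SU 3 F 5) (x : Fin 3 → F) : act g '' hl x = hl (act g x) := by
  ext y
  constructor
  · rintro ⟨_, ⟨c, hc, rfl⟩, rfl⟩
    exact ⟨c, hc, act_smul g c x⟩
  · rintro ⟨c, hc, rfl⟩
    exact ⟨c • x, ⟨c, hc, rfl⟩, act_smul g c x⟩

/-- The action on sets. -/
def acS (g : SU 3 F 5) (S : Set (Fin 3 → F)) : Set (Fin 3 → F) := act g '' S

omit hF hi in
theorem acS_one (S : Set (Fin 3 → F)) : acS 1 S = S := by
  unfold acS
  ext y
  simp [act_one]

omit hF hi in
theorem acS_mul (a b : SU 3 F 5) (S : Set (Fin 3 → F)) : acS (a * b) S = acS a (acS b S) := by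
  unfold acS
  rw [Set.image_image]
  exact Set.image_congr (fun x _ => act_mul a b x)

/-- The classes. -/
def ee (j : Fin 252) : Set (Fin 3 → F) := hl (toV i (pt j.1))

theorem ee_inj : Function.Injective (ee (F := F) i) := by
  intro j k h
  have h5 := five_eq_zero hF
  have h1 : toV i (pt j.1) ∈ hl (toV i (pt k.1)) := by
    have : toV i (pt j.1) ∈ ee i j := self_mem_hl _
    rwa [h] at this
  obtain ⟨c, hc, e⟩ := h1
  obtain ⟨d, hd, rfl⟩ := exists_code hF i hi c
  rw [smul_toV i hi h5] at e
  have e2 := toV_inj hF i hi (pt_rg j.2) (scale_rg _ _) e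
  have h12 : fp12 d = 1 := by
    have h13 : val i (fp12 d) = val i 1 := by
      rw [val_p12 hF i hi, hc, val_one]
    exact val_inj hF i hi (fmul_lt _ _) (by norm_num) h13
  have h3 := of_decide_eq_true (chkAll_spec (chkAll_spec chkCanon k.1 k.2) d hd)
  have h6 := of_decide_eq_true (chkAll_spec (chkAll_spec chkCanon j.1 j.2) 1 (by norm_num))
  rcases h3 with h3 | h3
  · exact absurd h12 h3
  rcases h6 with h6 | h6
  · exact absurd (by decide) h6
  have h7 : V3.scale 1 (pt j.1) = pt j.1 := by
    obtain ⟨a, b, c⟩ := pt_rg j.2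
    have f1 : ∀ x, x < 25 → fmul 1 x = x := by decide +kernel
    unfold V3.scale
    rw [f1 _ a, f1 _ b, f1 _ c]
  rw [h7] at h6
  have h8 : pt j.1 = pt k.1 := by
    rw [← h6, e2, h3]
  exact Fin.ext (pt_inj j.2 k.2 h8)

theorem pt_ne (j : ℕ) (hj : j < 252) : toV i (pt j) ≠ 0 := by
  have h := chkAll_spec chkPts j hj
  simp only [Bool.and_eq_true, decide_eq_true_eq] at h
  have h1 := h.2
  intro h0
  have h2 : ∀ k, toV i (pt j) k = 0 := fun k => by rw [h0]; rfl
  have h3 := h2 0
  have h4 := h2 1
  have h5 := h2 2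
  simp only [toV, Matrix.cons_val_zero, Matrix.cons_val_one, Matrix.cons_val] at h3 h4 h5
  apply val_ne hF i hi h1
  unfold lead
  split_ifs
  · exact h5
  · exact h4
  · exact h3

theorem act_ne (g : SU 3 F 5) {x : Fin 3 → F} (hx : x ≠ 0) : act g x ≠ 0 := by
  intro h
  apply hx
  have h1 := act_mul g⁻¹ g x
  rw [inv_mul_cancel, act_one, h] at h1
  rw [h1]
  simp [act]

theorem ee_inv (g : SU 3 F 5) (j : Fin 252) : ∃ k, acS g (ee i j) = ee i k := by
  have h5 := five_eq_zero hF
  have h0 := pt_ne hF i hi j.1 j.2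
  have hiso : hermForm 3 F 5 (toV i (pt j.1)) (toV i (pt j.1)) = 0 := by
    have h := chkAll_spec chkPts j.1 j.2
    simp only [Bool.and_eq_true, decide_eq_true_eq] at h
    rw [herm_toV i hi h5, h.1.2, val_zero]
  obtain ⟨k, hk, c, hc, e⟩ := complete hF i hi (act g (toV i (pt j.1))) (by rw [herm_act]; exact hiso) (act_ne hF i hi g h0)
  refine ⟨⟨k, hk⟩, ?_⟩
  unfold acS ee
  rw [image_hl, e, hl_smul _ hc]

/-- The permutation representation of the special unitary group. -/
noncomputable def suHom : SU 3 F 5 →* Equiv.Perm (Fin 252) :=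
  permHom acS acS_one acS_mul (ee (F := F) i) (ee_inj hF i hi) (ee_inv hF i hi)

theorem suHom_center (z : SU 3 F 5) (hz : z ∈ Subgroup.center (SU 3 F 5)) : suHom hF i hi z = 1 := by
  apply permHom_eq
  intro j
  have hq := hF' hF
  have e : ∀ k l : Fin 3, k ≠ l → (z.1.1 : Matrix (Fin 3) (Fin 3) F) k l = 0 := fun k l hkl =>
    Cfsg.Agent.Lib.UnitarySU.center_offdiag_zero hq z hz hkl
  have e1 : (z.1.1 : Matrix (Fin 3) (Fin 3) F) 0 0 = (z.1.1 : Matrix (Fin 3) (Fin 3) F) 1 1 :=
    Cfsg.Agent.Lib.UnitarySU.center_diag_eq hq z hz (by decide)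
  have e2 : (z.1.1 : Matrix (Fin 3) (Fin 3) F) 0 0 = (z.1.1 : Matrix (Fin 3) (Fin 3) F) 2 2 :=
    Cfsg.Agent.Lib.UnitarySU.center_diag_eq hq z hz (by decide)
  set r := (z.1.1 : Matrix (Fin 3) (Fin 3) F) 0 0 with hr
  have hdet : (z.1.1 : Matrix (Fin 3) (Fin 3) F).det = 1 := z.1.2
  rw [Matrix.det_fin_three, e 0 1 (by decide), e 0 2 (by decide), e 1 0 (by decide), e 1 2 (by decide),
    e 2 0 (by decide), e 2 1 (by decide), ← e1, ← e2] at hdet
  have hr3 : r ^ 12 = 1 := by
    have h3 : r ^ 3 = 1 := by
      rw [← hdet]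
      ring
    calc r ^ 12 = (r ^ 3) ^ 4 := by ring
      _ = 1 := by rw [h3, one_pow]
  have hact : ∀ x : Fin 3 → F, act z x = r • x := by
    intro x
    ext k
    unfold act
    simp only [Matrix.mulVec, dotProduct, Fin.sum_univ_three, Pi.smul_apply, smul_eq_mul]
    fin_cases k
    · simp [e 0 1 (by decide), e 0 2 (by decide), ← hr]
    · simp [e 1 0 (by decide), e 1 2 (by decide), ← e1]
    · simp [e 2 0 (by decide), e 2 1 (by decide), ← e2]
  show acS z (ee i j) = ee i j
  unfold acS ee
  rw [image_hl, hact, hl_smul _ hr3]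

/-- The representation of the quotient. -/
noncomputable def psuHom : PSU 3 F 5 →* Equiv.Perm (Fin 252) :=
  QuotientGroup.lift _ (suHom hF i hi) (suHom_center hF i hi)

/-- The element of a matrix. -/
noncomputable def ms (g : ℕ) : SU 3 F 5 := toSU i hi (five_eq_zero hF) (mm g) (mm_U g)

omit hF hi in
theorem chkA_g (g : ℕ) (hg : g = 0 ∨ g = 1) (j : ℕ) (hj : j < 252) :
    V3.scale (tOf (lead (M3.mulV (mm g) (pt j)))) (pt (tab g j)) = M3.mulV (mm g) (pt j) ∧
      fp12 (tOf (lead (M3.mulV (mm g) (pt j)))) = 1 := by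
  rcases hg with rfl | rfl
  · exact of_decide_eq_true (chkAll_spec chkAct0 j hj)
  · exact of_decide_eq_true (chkAll_spec chkAct1 j hj)

theorem suHom_ms (g : ℕ) (hg : g = 0 ∨ g = 1) : suHom hF i hi (ms hF i hi g) = sg g := by
  apply permHom_eq
  intro j
  have h5 := five_eq_zero hF
  obtain ⟨h1, h2⟩ := chkA_g g hg j.1 j.2
  show acS (ms hF i hi g) (ee i j) = hl (toV i (pt (tab g j.1)))
  unfold acS ee
  rw [image_hl]
  have e1 : act (ms hF i hi g) (toV i (pt j.1)) = toV i (M3.mulV (mm g) (pt j.1)) := toM_mulVec i hi h5 _ _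
  rw [e1, ← h1, ← smul_toV i hi h5]
  apply hl_smul
  rw [← val_p12 hF i hi, h2, val_one]

theorem R_le_range : R ≤ (psuHom hF i hi).range := by
  unfold R
  rw [Subgroup.closure_le]
  intro s hs
  have key : ∀ g, (g = 0 ∨ g = 1) → sg g ∈ (psuHom hF i hi).range := fun g hg =>
    ⟨((ms hF i hi g : SU 3 F 5) : PSU 3 F 5), by
      exact suHom_ms hF i hi g hg⟩
  rcases hs with rfl | hs
  · exact key 0 (Or.inl rfl)
  · rw [Set.mem_singleton_iff] at hs
    rw [hs]
    exact key 1 (Or.inr rfl)

end Field

/-- The isomorphism on this side. -/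
theorem psu_iso {F : Type} [Field F] [Fintype F] (hF : Fintype.card F = 25) : Nonempty (PSU 3 F 5 ≃* R) := by
  obtain ⟨i, hi⟩ := exists_i hF
  have hc : Nat.card (PSU 3 F 5) = 126000 := card_psu hF
  have : Finite (PSU 3 F 5) := Nat.finite_of_card_ne_zero (by rw [hc]; norm_num)
  exact iso_of (psuHom hF i hi) R (R_le_range hF i hi) (by rw [hc]; exact card_R)

end Cfsg.Agent.Lib.U35
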