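import Mathlib
import Cfsg.Agent.Lib.PrsSVK
import Cfsg.Agent.Lib.U35TcIdx
import Cfsg.Agent.Lib.U35Psu
import Cfsg.Agent.Lib.PSUIdxQ
import Cfsg.Agent.Lib.UMTop
import Cfsg.Agent.Lib.SUTransfer

/-!
# A presentation of `SU₃(5)` on two generators
-/

set_option autoImplicit false
set_option linter.unusedSectionVars false
set_option linter.unusedVariables false
set_option maxRecDepth 100000

namespace Cfsg.Agent.Lib.PrsSU

open Subgroup Cfsg Cfsg.Agent.Lib.F25Code Cfsg.Agent.Lib.U35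
open Cfsg.Agent.Lib.SchurCoset46 (lett evW lett_even lett_odd)
open Cfsg.Agent.Lib.SchurTower (TCf)
open scoped commutatorElement

section Perfect

lemma perfect_gen {G : Type*} [Group G] (hperf : commutator G = ⊤) (K : Subgroup G)
    (hK : ∀ x : G, ∃ k ∈ K, ∃ c ∈ center G, x = k * c) : K = ⊤ := by
  rw [eq_top_iff, ← hperf, commutator_def, Subgroup.commutator_le]
  intro x _ y _
  obtain ⟨k, hk, c, hc, rfl⟩ := hK x
  obtain ⟨k', hk', c', hc', rfl⟩ := hK y
  have h1 : Commute c k' := (mem_center_iff.1 hc k').symm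
  have h2 : Commute c c' := (mem_center_iff.1 hc c').symm
  have h3 : Commute k c' := mem_center_iff.1 hc' k
  have e : ⁅k * c, k' * c'⁆ = ⁅k, k'⁆ := by
    rw [commutatorElement_def, commutatorElement_def]
    have h4 : k * c * (k' * c') * (k * c)⁻¹ * (k' * c')⁻¹ = k * (c * k') * c' * c⁻¹ * k⁻¹ * c'⁻¹ * k'⁻¹ := by group
    rw [h4, h1.eq]
    have h5 : k * (k' * c) * c' * c⁻¹ * k⁻¹ * c'⁻¹ * k'⁻¹ = k * k' * (c * c' * c⁻¹) * k⁻¹ * c'⁻¹ * k'⁻¹ := by group
    rw [h5, h2.eq]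
    have h6 : k * k' * (c' * c * c⁻¹) * k⁻¹ * c'⁻¹ * k'⁻¹ = k * k' * c' * k⁻¹ * c'⁻¹ * k'⁻¹ := by group
    rw [h6]
    have h7 : Commute c' k⁻¹ := (h3.symm).inv_right
    have h8 : k * k' * c' * k⁻¹ * c'⁻¹ * k'⁻¹ = k * k' * (c' * k⁻¹) * c'⁻¹ * k'⁻¹ := by group
    rw [h8, h7.eq]
    group
  rw [e, commutatorElement_def]
  exact K.mul_mem (K.mul_mem (K.mul_mem hk hk') (K.inv_mem hk)) (K.inv_mem hk')

end Perfect

section Data5

/-- The relators with the power of the central element. -/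
def pairs5 : List (List ℕ × ℕ) :=
  [([0, 0, 0, 0, 0, 0, 0, 0], 0), ([2, 2, 2, 2, 2, 2, 2], 1), ([0, 0, 2, 1, 2, 2, 0, 0, 2, 1, 2, 2], 2), ([0, 3, 3, 0, 3, 3, 0, 3, 3, 0, 3, 3], 1), ([0, 0, 0, 0, 0, 2, 1, 1, 1, 2, 1, 1, 1, 2], 0), ([0, 0, 2, 2, 0, 3, 0, 2, 1, 2, 0, 3, 3, 3], 0), ([0, 0, 0, 2, 2, 0, 0, 2, 2, 1, 3, 3, 0, 2, 0, 2], 1), ([0, 0, 3, 1, 3, 1, 3, 3, 3, 1, 3, 1, 2, 2, 0, 2], 2), ([0, 0, 0, 2, 0, 2, 0, 3, 1, 3, 0, 0, 3, 0, 2, 2, 2], 1), ([0, 0, 0, 2, 1, 2, 0, 2, 2, 1, 1, 2, 0, 0, 3, 0, 3], 0), ([0, 0, 0, 2, 2, 1, 3, 1, 1, 3, 3, 3, 1, 3, 1, 1, 2], 0), ([0, 0, 2, 0, 2, 1, 1, 2, 2, 1, 3, 3, 0, 2, 2, 1, 2], 2), ([0, 0, 2, 0, 2, 2, 1, 1, 2, 1, 3, 3, 0, 3, 3, 1, 3], 0), ([0, 0, 3, 0, 2, 0, 2, 0, 3, 3, 1, 2, 1, 3, 3, 1, 3], 2)]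

/-- The relator of commutation with the central element. -/
def comm5 : List ℕ := [0] ++ List.replicate 7 2 ++ [1] ++ List.replicate 7 3

/-- All relators. -/
def rels5 : List (List ℕ) := pairs5.map (fun p => p.1 ++ List.replicate (7 * p.2) 3) ++ [comm5, List.replicate 21 2]

theorem rels5_len : rels5.length = 16 := by decide

theorem rels5_lt : ∀ r ∈ rels5, ∀ l ∈ r, l < 4 := by decide +kernel

theorem rels5_fst : Cfsg.Agent.Lib.U35Tc.relsL = pairs5.map Prod.fst := by decide +kernel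

/-- The inverse of the first matrix. -/
def m1i : M3 := ⟨0, 5, 16, 22, 7, 8, 24, 1, 12⟩

/-- The inverse of the second matrix. -/
def m2i : M3 := ⟨1, 16, 10, 10, 13, 20, 11, 23, 1⟩

theorem m1i_U : M3.IsU m1i := by decide +kernel
theorem m2i_U : M3.IsU m2i := by decide +kernel
theorem one_U : M3.IsU M3.one := by decide +kernel
theorem m1_m1i : M3.mul m1 m1i = M3.one := by decide +kernel
theorem m2_m2i : M3.mul m2 m2i = M3.one := by decide +kernel

/-- The matrix of a letter. -/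
def cm5 (l : ℕ) : M3 := if l = 0 then m1 else if l = 1 then m1i else if l = 2 then m2 else m2i

/-- The matrix of a word. -/
def evM5 : List ℕ → M3
  | [] => M3.one
  | l :: w => M3.mul (cm5 l) (evM5 w)

theorem rels5_ok : ∀ r ∈ rels5, evM5 r = M3.one := by decide +kernel

end Data5

section Field5

variable {F : Type} [Field F] [Fintype F] (hF : Fintype.card F = 25) (i : F) (hi : i * i = 2)

include hF hi

lemma ms_inv (g : ℕ) (m : M3) (hm : M3.IsU m) (h : M3.mul (mm g) m = M3.one) : (ms hF i hi g)⁻¹ = toSU i hi (five_eq_zero hF) m hm := by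
  apply inv_eq_of_mul_eq_one_right
  have := toSU_mul i hi (five_eq_zero hF) (mm_U g) hm one_U h
  rw [toSU_one] at this
  exact this

lemma lett_coe (l : ℕ) (hl : l < 4) : ((lett (ms hF i hi) l).1.1 : Matrix (Fin 3) (Fin 3) F) = toM i (cm5 l) := by
  obtain rfl | rfl | rfl | rfl : l = 0 ∨ l = 1 ∨ l = 2 ∨ l = 3 := by omega
  · have e : lett (ms hF i hi) 0 = ms hF i hi 0 := by simp [lett]
    rw [e]
    rfl
  · have e : lett (ms hF i hi) 1 = (ms hF i hi 0)⁻¹ := by simp [lett]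
    rw [e, ms_inv hF i hi 0 m1i m1i_U m1_m1i]
    rfl
  · have e : lett (ms hF i hi) 2 = ms hF i hi 1 := by simp [lett]
    rw [e]
    rfl
  · have e : lett (ms hF i hi) 3 = (ms hF i hi 1)⁻¹ := by simp [lett]
    rw [e, ms_inv hF i hi 1 m2i m2i_U m2_m2i]
    rfl

lemma evW_coe (w : List ℕ) (hw : ∀ l ∈ w, l < 4) : ((evW (ms hF i hi) w).1.1 : Matrix (Fin 3) (Fin 3) F) = toM i (evM5 w) := by
  induction w with
  | nil =>
    show (1 : Matrix (Fin 3) (Fin 3) F) = toM i M3.one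
    rw [toM_one]
  | cons l w ih =>
    have h1 := ih (fun a ha => hw a (List.mem_cons_of_mem _ ha))
    have h2 := lett_coe hF i hi l (hw l List.mem_cons_self)
    show ((lett (ms hF i hi) l).1.1 : Matrix (Fin 3) (Fin 3) F) * (evW (ms hF i hi) w).1.1 = toM i (M3.mul (cm5 l) (evM5 w))
    rw [h1, h2, toM_mul i hi (five_eq_zero hF)]

lemma ms_rel : ∀ r ∈ rels5, evW (ms hF i hi) r = 1 := by
  intro r hr
  apply Subtype.ext
  apply Subtype.ext
  show ((evW (ms hF i hi) r).1.1 : Matrix (Fin 3) (Fin 3) F) = 1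
  rw [evW_coe hF i hi r (rels5_lt r hr), rels5_ok r hr, toM_one]

/-- The two matrices generate. -/
lemma ms_gen : closure ((ms hF i hi) '' Set.Iio 2) = ⊤ := by
  have hF' : Fintype.card F = 5 ^ 2 := hF.trans (by norm_num)
  apply perfect_gen (Cfsg.Agent.Lib.UMRoot.SU_perfect' hF' (by norm_num) (by norm_num))
  set K := closure ((ms hF i hi) '' Set.Iio 2) with hK
  let π : SU 3 F 5 →* PSU 3 F 5 := QuotientGroup.mk' _
  have hc := Cfsg.Agent.Lib.PSU35C.card_psu hF
  haveI : Finite (PSU 3 F 5) := Nat.finite_of_card_ne_zero (by rw [hc]; norm_num)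
  have h0 : ms hF i hi 0 ∈ K := subset_closure ⟨0, by simp, rfl⟩
  have h1 : ms hF i hi 1 ∈ K := subset_closure ⟨1, by simp, rfl⟩
  have hR : R ≤ (K.map π).map (psuHom hF i hi) := by
    unfold R
    rw [closure_le]
    intro s hs
    rcases hs with rfl | hs
    · exact ⟨π (ms hF i hi 0), ⟨_, h0, rfl⟩, suHom_ms hF i hi 0 (Or.inl rfl)⟩
    · rw [Set.mem_singleton_iff] at hs
      subst hs
      exact ⟨π (ms hF i hi 1), ⟨_, h1, rfl⟩, suHom_ms hF i hi 1 (Or.inr rfl)⟩
  have h2 : Nat.card R ≤ Nat.card ((K.map π).map (psuHom hF i hi)) := Subgroup.card_le_of_le hR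
  have h3 : Nat.card ((K.map π).map (psuHom hF i hi)) ≤ Nat.card (K.map π) :=
    Nat.card_le_card_of_surjective ((psuHom hF i hi).subgroupMap (K.map π)) ((psuHom hF i hi).subgroupMap_surjective (K.map π))
  have h4 : Nat.card (PSU 3 F 5) ≤ Nat.card (K.map π) := by
    rw [hc]
    exact card_R.trans (h2.trans h3)
  have htop : K.map π = ⊤ := Subgroup.eq_top_of_le_card _ h4
  intro x
  have hx : π x ∈ K.map π := by
    rw [htop]
    exact mem_top _
  obtain ⟨k, hk, e⟩ := hx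
  refine ⟨k, hk, k⁻¹ * x, ?_, by group⟩
  have : k⁻¹ * x ∈ π.ker := by
    rw [MonoidHom.mem_ker, map_mul, map_inv, e, inv_mul_cancel]
  simpa [π] using this

/-- The presentation. -/
theorem su35_iso : Nonempty (PF rels5 ≃* SU 3 F 5) := by
  have hlt := rels5_lt
  have hx := xP_rel (rl := rels5) hlt
  let x := xP rels5
  let z : PF rels5 := x 1 ^ 7
  have hl0 : lett x 0 = x 0 := by simp [lett]
  have hl1 : lett x 1 = (x 0)⁻¹ := by simp [lett]
  have hl2 : lett x 2 = x 1 := by simp [lett]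
  have hl3 : lett x 3 = (x 1)⁻¹ := by simp [lett]
  -- the central element
  have hza : x 0 * z = z * x 0 := by
    have h := hx comm5 (by decide)
    have e : evW x comm5 = x 0 * (x 1) ^ 7 * (x 0)⁻¹ * ((x 1)⁻¹) ^ 7 := by
      simp only [comm5, evW_app, evW_rep0, hl0, hl1, hl2, hl3]
      simp [evW, hl0, hl1, lett]
    change evW x comm5 = 1 at h
    rw [e, inv_pow] at h
    have h2 : x 0 * (x 1) ^ 7 * (x 0)⁻¹ = (x 1) ^ 7 := by
      exact mul_inv_eq_one.1 h
    have h3 := mul_inv_eq_iff_eq_mul.1 h2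
    exact h3
  have hzc : ∀ g : PF rels5, Commute g z := by
    have hle : closure (x '' Set.Iio 2) ≤ centralizer {z} := by
      rw [closure_le]
      rintro _ ⟨n, hn, rfl⟩
      have hn' : n < 2 := hn
      rw [SetLike.mem_coe, mem_centralizer_singleton_iff]
      obtain rfl | rfl : n = 0 ∨ n = 1 := by omega
      · exact hza
      · exact (pow_succ' _ _).symm.trans (pow_succ _ _)
    rw [show closure (x '' Set.Iio 2) = ⊤ from xP_gen] at hle
    intro g
    have h := hle (mem_top g)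
    rw [mem_centralizer_singleton_iff] at h
    exact h
  let N : Subgroup (PF rels5) := zpowers z
  haveI hN : N.Normal := ⟨by
    intro n hn g
    obtain ⟨k, rfl⟩ := mem_zpowers_iff.1 hn
    have h1 : Commute g (z ^ k) := (hzc g).zpow_right k
    have h2 : g * z ^ k * g⁻¹ = z ^ k := mul_inv_eq_iff_eq_mul.2 h1.eq
    rw [h2]
    exact mem_zpowers_iff.2 ⟨k, rfl⟩⟩
  let q : PF rels5 →* PF rels5 ⧸ N := QuotientGroup.mk' N
  let x' : ℕ → PF rels5 ⧸ N := fun n => q (x n)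
  have hqz : q z = 1 := (QuotientGroup.eq_one_iff z).2 (mem_zpowers z)
  have hgen' : closure (x' '' Set.Iio 2) = ⊤ := by
    have h1 : (closure (x '' Set.Iio 2)).map q = ⊤ := by
      rw [show closure (x '' Set.Iio 2) = ⊤ from xP_gen, Subgroup.map_top_of_surjective _ (QuotientGroup.mk'_surjective N)]
    rw [MonoidHom.map_closure] at h1
    rw [← h1]
    congr 1
    ext y
    simp [x', Set.mem_image]
  have hr' : ∀ r ∈ Cfsg.Agent.Lib.U35Tc.relsL, evW x' r = 1 := by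
    intro r hr
    rw [rels5_fst] at hr
    obtain ⟨p, hp, rfl⟩ := List.mem_map.1 hr
    have h1 := hx _ (List.mem_append_left _ (List.mem_map_of_mem hp))
    change evW x (p.1 ++ List.replicate (7 * p.2) 3) = 1 at h1
    rw [evW_app, evW_rep0, hl3] at h1
    have h2 := congrArg q h1
    rw [map_mul, Cfsg.Agent.Lib.SchurCoset46.map_evW, map_pow, map_inv, map_one] at h2
    have h3 : q (x 1) ^ 7 = 1 := by
      rw [← map_pow]
      exact hqz
    have h4 : ((q (x 1))⁻¹) ^ (7 * p.2) = 1 := by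
      rw [inv_pow, pow_mul, h3, one_pow, inv_one]
    rw [h4, mul_one] at h2
    exact h2
  have htc : TCf 2 15750 Cfsg.Agent.Lib.U35Tc.relsL [0] := fun W _ y hg hr H hH => Cfsg.Agent.Lib.U35Tc.index_le y hg hr H hH
  have h8 : x' 0 ^ 8 = 1 := by
    have h := hr' (List.replicate 8 0) (by decide +kernel)
    rw [evW_rep0] at h
    have e : lett x' 0 = x' 0 := by simp [lett]
    rwa [e] at h
  obtain ⟨hc1, hc2⟩ := card_of_tc x' hgen' htc hr' (by norm_num) h8
  have hz3 : z ^ 3 = 1 := by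
    have h := hx (List.replicate 21 2) (by
      apply List.mem_append_right
      simp)
    change evW x (List.replicate 21 2) = 1 at h
    rw [evW_rep0, hl2] at h
    show (x 1 ^ 7) ^ 3 = 1
    rw [← pow_mul]
    exact h
  have hNc : Nat.card N ≤ 3 := by
    rw [Nat.card_zpowers]
    exact orderOf_le_of_pow_eq_one (by norm_num) hz3
  have hN0 : Nat.card N ≠ 0 := by
    rw [Nat.card_zpowers]
    exact (orderOf_pos_iff.2 (isOfFinOrder_iff_pow_eq_one.2 ⟨3, by norm_num, hz3⟩)).ne'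
  have hcard := Subgroup.card_eq_card_quotient_mul_card_subgroup N
  have hP0 : Nat.card (PF rels5) ≠ 0 := by
    rw [hcard]
    exact mul_ne_zero hc1 hN0
  haveI : Finite (PF rels5) := Nat.finite_of_card_ne_zero hP0
  have hF' : Fintype.card F = 5 ^ 2 := hF.trans (by norm_num)
  have hSU : Nat.card (SU 3 F 5) = 378000 := by
    rw [Cfsg.Agent.Lib.PSUIdx.card_SU3 hF']
    norm_num
  haveI : Finite (SU 3 F 5) := Nat.finite_of_card_ne_zero (by rw [hSU]; norm_num)
  refine pf_iso hlt (ms hF i hi) (ms_rel hF i hi) (ms_gen hF i hi) ?_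
  rw [hSU, hcard]
  calc Nat.card (PF rels5 ⧸ N) * Nat.card N ≤ (15750 * 8) * 3 := Nat.mul_le_mul hc2 hNc
    _ = 378000 := by norm_num

end Field5

/-- The presentation over any field with twenty-five elements. -/
theorem su35_pres {F : Type*} [Field F] [Fintype F] (hF : Fintype.card F = 5 ^ 2) :
    ∃ R : Finset (FreeGroup (Fin 2)), R.card ≤ 16 ∧ Nonempty (PresentedGroup (R : Set (FreeGroup (Fin 2))) ≃* SU 3 F 5) := by
  classical
  haveI : Fact (Nat.Prime 5) := ⟨by norm_num⟩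
  letI : Fintype (GaloisField 5 2) := Fintype.ofFinite _
  have hK : Fintype.card (GaloisField 5 2) = 25 := by
    rw [← Nat.card_eq_fintype_card, GaloisField.card 5 2 (by norm_num)]
    norm_num
  obtain ⟨i, hi⟩ := exists_i hK
  obtain ⟨E⟩ := su35_iso hK i hi
  have φ : F ≃+* GaloisField 5 2 := FiniteField.ringEquivOfCardEq (by rw [hF, hK]; norm_num)
  refine ⟨fgR rels5, (fgR_card _).trans (by rw [rels5_len]), ⟨E.trans (Cfsg.Agent.Lib.SUTransfer.suEquiv φ).symm⟩⟩

end Cfsg.Agent.Lib.PrsSU
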