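import Mathlib
import Cfsg.Agent.Lib.PrsSVK
import Cfsg.Agent.Lib.J2U33
import Cfsg.Agent.Lib.SUTransfer

/-!
# The presentation of `SU₃(3)` on two generators
-/

set_option autoImplicit false
set_option maxRecDepth 100000

namespace Cfsg.Agent.Lib.PrsSU

open Subgroup Cfsg
open Cfsg.Agent.Lib.SchurCoset46 (lett evW)
open Cfsg.Agent.Lib.SchurTower (TCf)

theorem u33_pf : Nonempty (PF Cfsg.Agent.Lib.U33Main.rels ≃* SU 3 Cfsg.Agent.Lib.F9K.K9 3) := by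
  classical
  haveI : Finite Cfsg.Agent.Lib.U33Group.L := Nat.finite_of_card_ne_zero (by rw [Cfsg.Agent.Lib.U33Group.natCard_L]; norm_num)
  refine pf_iso_tc (n := 864) (k := 7) Cfsg.Agent.Lib.U33Main.rels_lt Cfsg.Agent.Lib.J2U33.yL Cfsg.Agent.Lib.J2U33.yL_rel ?_ Cfsg.Agent.Lib.U33Main.tcf (by norm_num) (by decide +kernel) ?_
  · apply Cfsg.Agent.Lib.J2U33.top_of_mem
    · exact Subgroup.subset_closure ⟨0, by simp, rfl⟩
    · exact Subgroup.subset_closure ⟨1, by simp, rfl⟩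
  · rw [show Nat.card (SU 3 Cfsg.Agent.Lib.F9K.K9 3) = 6048 from Cfsg.Agent.Lib.U33Group.natCard_L]

theorem su33_pres {F : Type*} [Field F] [Fintype F] (hF : Fintype.card F = 3 ^ 2) :
    ∃ R : Finset (FreeGroup (Fin 2)), R.card ≤ 5 ∧ Nonempty (PresentedGroup (R : Set (FreeGroup (Fin 2))) ≃* SU 3 F 3) := by
  classical
  obtain ⟨E⟩ := u33_pf
  have φ : F ≃+* Cfsg.Agent.Lib.F9K.K9 := FiniteField.ringEquivOfCardEq (by rw [hF, Cfsg.Agent.Lib.F9K.K9.card_K9]; norm_num)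
  refine ⟨fgR Cfsg.Agent.Lib.U33Main.rels, (fgR_card _).trans (by decide +kernel), ⟨E.trans (Cfsg.Agent.Lib.SUTransfer.suEquiv φ).symm⟩⟩

end Cfsg.Agent.Lib.PrsSU
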