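import Mathlib
import Cfsg.Agent.Lib.U32TcChk0

set_option autoImplicit false
set_option Elab.async false
set_option maxRecDepth 100000
set_option linter.all false

namespace Cfsg.Agent.Lib.U32Tc

open Subgroup Cfsg.Agent.Lib.TcFacts Cfsg.Agent.Lib.TcPres Cfsg.Agent.Lib.SchurCoset46 Cfsg.Agent.Lib.SchurTc

theorem c0 : Block F al 0 256 18 := b0


theorem hRels1 : ∀ B ∈ Rels, ∀ l ∈ B, l < 4 := by decide +kernel

theorem hRels2 : Rels = relsL ++ relsL.map invWd ++ (List.range 2).flatMap (fun i => [[2 * i, 2 * i + 1], [2 * i + 1, 2 * i]]) := by decide +kernel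

theorem hwd : ∀ k, k < 22 →
    rotOK Rels 4 (decW 3 7 (11 + 1) (wd k)) (hint k) = true := by
  decide +kernel

theorem h1alive : aliveB ent 4 32 1 = true := by decide +kernel

theorem hbase : ∀ a, base a = true → a ∈ baseL := by
  intro a h
  simpa [base] using h

/-- The index of a subgroup containing the given letters. -/
theorem index_le {W : Type*} [Group W] (x : ℕ → W) (hgen : closure (x '' Set.Iio 2) = ⊤)
    (hrel : ∀ r ∈ relsL, evW x r = 1) (H : Subgroup W) (hH : ∀ a ∈ baseL, lett x a ∈ H) :
    H.index ≠ 0 ∧ H.index ≤ 18 := by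
  refine index_le_tc (m := 2) x hgen (by norm_num) Rels hRels1 ?_ H ent pa wd side base
    31 5 10 255 3 7 8 11 31 22 32 128 18
    (by norm_num) ?_ hint hwd (by norm_num) c0 h1alive
  · intro B hB
    rw [hRels2] at hB
    rw [List.mem_append, List.mem_append, List.mem_map, List.mem_flatMap] at hB
    rcases hB with (hB | ⟨r, hr, rfl⟩) | ⟨i, hi, hB⟩
    · exact hrel B hB
    · rw [evW_invWd, hrel r hr, inv_one]
    · simp only [List.mem_cons, List.not_mem_nil, or_false] at hB
      rcases hB with rfl | rfl
      · simp [evW, lett_even, lett_odd]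
      · simp [evW, lett_even, lett_odd]
  · intro a _ ha
    have h2 := hbase a ha
    refine ⟨?_, hH a h2⟩
    revert a
    decide

end Cfsg.Agent.Lib.U32Tc
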