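import Mathlib
import Cfsg.Agent.Lib.PrsSVK
import Cfsg.Agent.Lib.U32TcIdx
import Cfsg.Agent.Lib.F4K
import Cfsg.Agent.Lib.SUTransfer
import Cfsg.Agent.Lib.PSUIdxQ

/-!
# The presentation of `SU₃(2)` on two generators
-/

set_option autoImplicit false
set_option maxRecDepth 100000
set_option linter.unusedVariables false

namespace Cfsg.Agent.Lib.PrsSU

namespace U32

open Subgroup Cfsg Cfsg.Agent.Lib.F4K
open Cfsg.Agent.Lib.SchurCoset46 (lett evW lett_even lett_odd)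
open Cfsg.Agent.Lib.SchurTower (TCf)
open scoped Matrix

/-- Matrices, as nine entries. -/
@[ext] structure Mt where
  (a00 a01 a02 a10 a11 a12 a20 a21 a22 : K4)

/-- A digit of a code. -/
def dg (c k : ℕ) : K4 :=
  ⟨Nat.mod (Nat.shiftRight c (Nat.mul 2 k)) 4, Nat.mod_lt _ (by decide)⟩

/-- Decoding a matrix. -/
def decM (c : ℕ) : Mt :=
  ⟨dg c 0, dg c 1, dg c 2, dg c 3, dg c 4, dg c 5, dg c 6, dg c 7, dg c 8⟩

/-- Encoding a matrix. -/
def encM (m : Mt) : ℕ :=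
  m.a00.1 + 4 * (m.a01.1 + 4 * (m.a02.1 + 4 * (m.a10.1 + 4 * (m.a11.1 + 4 * (m.a12.1 +
    4 * (m.a20.1 + 4 * (m.a21.1 + 4 * m.a22.1)))))))

/-- Matrix product. -/
def mmul (m n : Mt) : Mt :=
  ⟨m.a00 * n.a00 + m.a01 * n.a10 + m.a02 * n.a20,
   m.a00 * n.a01 + m.a01 * n.a11 + m.a02 * n.a21,
   m.a00 * n.a02 + m.a01 * n.a12 + m.a02 * n.a22,
   m.a10 * n.a00 + m.a11 * n.a10 + m.a12 * n.a20,
   m.a10 * n.a01 + m.a11 * n.a11 + m.a12 * n.a21,
   m.a10 * n.a02 + m.a11 * n.a12 + m.a12 * n.a22,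
   m.a20 * n.a00 + m.a21 * n.a10 + m.a22 * n.a20,
   m.a20 * n.a01 + m.a21 * n.a11 + m.a22 * n.a21,
   m.a20 * n.a02 + m.a21 * n.a12 + m.a22 * n.a22⟩

/-- Equality test of field elements. -/
def keq (a b : K4) : Bool := Nat.beq a.1 b.1

theorem keq_iff (a b : K4) : keq a b = true ↔ a = b := by
  constructor
  · intro h
    exact Fin.ext (Nat.eq_of_beq_eq_true h)
  · rintro rfl
    exact Nat.beq_refl _

/-- Equality test of matrices. -/
def meq (m n : Mt) : Bool :=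
  keq m.a00 n.a00 && (keq m.a01 n.a01 && (keq m.a02 n.a02 && (keq m.a10 n.a10 && (keq m.a11 n.a11 &&
    (keq m.a12 n.a12 && (keq m.a20 n.a20 && (keq m.a21 n.a21 && keq m.a22 n.a22)))))))

theorem meq_iff (m n : Mt) : meq m n = true ↔ m = n := by
  obtain ⟨a1, a2, a3, a4, a5, a6, a7, a8, a9⟩ := m
  obtain ⟨b1, b2, b3, b4, b5, b6, b7, b8, b9⟩ := n
  simp only [meq, Bool.and_eq_true, keq_iff, Mt.mk.injEq]

/-- The Hermitian product of two columns. -/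
def dot3 (a b c x y z : K4) : K4 := a * (x * x) + b * (y * y) + c * (z * z)

/-- The determinant. -/
def detM (m : Mt) : K4 :=
  m.a00 * (m.a11 * m.a22 + m.a12 * m.a21) + m.a01 * (m.a10 * m.a22 + m.a12 * m.a20)
    + m.a02 * (m.a10 * m.a21 + m.a11 * m.a20)

/-- Membership in the special unitary group. -/
def good (m : Mt) : Bool :=
  keq (dot3 m.a00 m.a10 m.a20 m.a00 m.a10 m.a20) 1 && (keq (dot3 m.a00 m.a10 m.a20 m.a01 m.a11 m.a21) 0 &&
  (keq (dot3 m.a00 m.a10 m.a20 m.a02 m.a12 m.a22) 0 && (keq (dot3 m.a01 m.a11 m.a21 m.a00 m.a10 m.a20) 0 &&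
  (keq (dot3 m.a01 m.a11 m.a21 m.a01 m.a11 m.a21) 1 && (keq (dot3 m.a01 m.a11 m.a21 m.a02 m.a12 m.a22) 0 &&
  (keq (dot3 m.a02 m.a12 m.a22 m.a00 m.a10 m.a20) 0 && (keq (dot3 m.a02 m.a12 m.a22 m.a01 m.a11 m.a21) 0 &&
  (keq (dot3 m.a02 m.a12 m.a22 m.a02 m.a12 m.a22) 1 && keq (detM m) 1))))))))

theorem digits_inj (x y t u : ℕ) (hx : x < 4) (hy : y < 4)
    (h : x + 4 * t = y + 4 * u) : x = y ∧ t = u := by
  omega

theorem encM_inj {m n : Mt} (h : encM m = encM n) : m = n := by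
  obtain ⟨a1, a2, a3, a4, a5, a6, a7, a8, a9⟩ := m
  obtain ⟨b1, b2, b3, b4, b5, b6, b7, b8, b9⟩ := n
  simp only [encM] at h
  obtain ⟨e1, h⟩ := digits_inj _ _ _ _ a1.2 b1.2 h
  obtain ⟨e2, h⟩ := digits_inj _ _ _ _ a2.2 b2.2 h
  obtain ⟨e3, h⟩ := digits_inj _ _ _ _ a3.2 b3.2 h
  obtain ⟨e4, h⟩ := digits_inj _ _ _ _ a4.2 b4.2 h
  obtain ⟨e5, h⟩ := digits_inj _ _ _ _ a5.2 b5.2 h
  obtain ⟨e6, h⟩ := digits_inj _ _ _ _ a6.2 b6.2 h
  obtain ⟨e7, h⟩ := digits_inj _ _ _ _ a7.2 b7.2 h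
  obtain ⟨e8, e9⟩ := digits_inj _ _ _ _ a8.2 b8.2 h
  have e9' : a9.1 = b9.1 := by omega
  have f1 : a1 = b1 := Fin.ext e1
  have f2 : a2 = b2 := Fin.ext e2
  have f3 : a3 = b3 := Fin.ext e3
  have f4 : a4 = b4 := Fin.ext e4
  have f5 : a5 = b5 := Fin.ext e5
  have f6 : a6 = b6 := Fin.ext e6
  have f7 : a7 = b7 := Fin.ext e7
  have f8 : a8 = b8 := Fin.ext e8
  have f9 : a9 = b9 := Fin.ext e9'
  subst f1 f2 f3 f4 f5 f6 f7 f8 f9
  rfl

/-- The group. -/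
abbrev L : Type := ↥(SU 3 K4 2)

/-- The matrix of an element. -/
def toM (g : L) : Matrix (Fin 3) (Fin 3) K4 := g.1.1

/-- The entries of an element. -/
def ent (g : L) : Mt :=
  ⟨toM g 0 0, toM g 0 1, toM g 0 2, toM g 1 0, toM g 1 1, toM g 1 2, toM g 2 0, toM g 2 1, toM g 2 2⟩

/-- The matrix with given entries. -/
def ofMt (m : Mt) : Matrix (Fin 3) (Fin 3) K4 :=
  !![m.a00, m.a01, m.a02; m.a10, m.a11, m.a12; m.a20, m.a21, m.a22]

theorem ofMt_ent (g : L) : ofMt (ent g) = toM g := by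
  exact (Matrix.eta_fin_three (toM g)).symm

theorem ent_inj {g h : L} (e : ent g = ent h) : g = h := by
  apply Subtype.ext
  apply Subtype.ext
  have := congrArg ofMt e
  rw [ofMt_ent, ofMt_ent] at this
  exact this

theorem toM_mul (g h : L) : toM (g * h) = toM g * toM h := rfl

theorem toM_one : toM (1 : L) = 1 := rfl

theorem ent_mul (g h : L) : ent (g * h) = mmul (ent g) (ent h) := by
  unfold ent
  simp only [toM_mul, Matrix.mul_apply, Fin.sum_univ_three, mmul]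

theorem neg_K4 (a : K4) : -a = a := rfl

/-- `good` gives membership. -/
theorem good_spec {m : Mt} (hm : good m = true) :
    (ofMt m).det = 1 ∧ ∀ u v, hermForm 3 K4 2 (ofMt m *ᵥ u) (ofMt m *ᵥ v) = hermForm 3 K4 2 u v := by
  simp only [good, Bool.and_eq_true, keq_iff, dot3, detM] at hm
  obtain ⟨e00, e01, e02, e10, e11, e12, e20, e21, e22, ed⟩ := hm
  constructor
  · rw [Matrix.det_fin_three]
    simp only [ofMt, Matrix.of_apply, Matrix.cons_val_zero, Matrix.cons_val_one, Matrix.cons_val]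
    rw [← ed]
    simp only [sub_eq_add_neg, neg_K4]
    ring
  · intro u v
    have hcube : ∀ x y z : K4, (x + y + z) ^ 2 = x ^ 2 + y ^ 2 + z ^ 2 := by decide +kernel
    simp only [hermForm, Fin.sum_univ_three, Matrix.mulVec, dotProduct, ofMt, Matrix.of_apply,
      Matrix.cons_val_zero, Matrix.cons_val_one, Matrix.cons_val, hcube, mul_pow]
    linear_combination (u 0 * v 0 ^ 2) * e00 + (u 0 * v 1 ^ 2) * e01 + (u 0 * v 2 ^ 2) * e02
      + (u 1 * v 0 ^ 2) * e10 + (u 1 * v 1 ^ 2) * e11 + (u 1 * v 2 ^ 2) * e12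
      + (u 2 * v 0 ^ 2) * e20 + (u 2 * v 1 ^ 2) * e21 + (u 2 * v 2 ^ 2) * e22

/-- The element with given entries. -/
noncomputable def mkL (m : Mt) : L :=
  if h : good m = true then ⟨⟨ofMt m, (good_spec h).1⟩, fun u v => (good_spec h).2 u v⟩ else 1

theorem ent_of_ofMt (m : Mt) :
    (⟨ofMt m 0 0, ofMt m 0 1, ofMt m 0 2, ofMt m 1 0, ofMt m 1 1, ofMt m 1 2, ofMt m 2 0, ofMt m 2 1,
      ofMt m 2 2⟩ : Mt) = m := by
  obtain ⟨a1, a2, a3, a4, a5, a6, a7, a8, a9⟩ := m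
  simp [ofMt]

theorem ent_mkL {m : Mt} (hm : good m = true) : ent (mkL m) = m := by
  unfold mkL
  rw [dif_pos hm]
  exact ent_of_ofMt m

/-- The code of the first generator. -/
def aC : ℕ := 163221
/-- The code of the inverse of the first generator. -/
def aiC : ℕ := 234861
/-- The code of the second generator. -/
def bC : ℕ := 177765
/-- The code of the inverse of the second generator. -/
def biC : ℕ := 229221
/-- The code of one. -/
def oneC : ℕ := 65793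

theorem gens_good : good (decM aC) = true ∧ good (decM bC) = true ∧ good (decM aiC) = true ∧ good (decM biC) = true := by
  decide +kernel

theorem inv_chk : mmul (decM aC) (decM aiC) = decM oneC ∧ mmul (decM bC) (decM biC) = decM oneC := by
  constructor
  · exact (meq_iff _ _).1 (by decide +kernel)
  · exact (meq_iff _ _).1 (by decide +kernel)

theorem decM_one : decM oneC = ⟨1, 0, 0, 0, 1, 0, 0, 0, 1⟩ := by
  apply (meq_iff _ _).1
  decide +kernel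

theorem ent_one : ent (1 : L) = decM oneC := by
  rw [decM_one]
  simp [ent, toM_one, Matrix.one_apply]

/-- the first generator -/
noncomputable def aL : L := mkL (decM aC)
/-- the second generator -/
noncomputable def bL : L := mkL (decM bC)
/-- the inverse of the first generator -/
noncomputable def aiL : L := mkL (decM aiC)
/-- the inverse of the second generator -/
noncomputable def biL : L := mkL (decM biC)

theorem ent_a : ent aL = decM aC := ent_mkL gens_good.1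
theorem ent_b : ent bL = decM bC := ent_mkL gens_good.2.1
theorem ent_ai : ent aiL = decM aiC := ent_mkL gens_good.2.2.1
theorem ent_bi : ent biL = decM biC := ent_mkL gens_good.2.2.2

theorem a_mul : aL * aiL = 1 := by
  apply ent_inj
  rw [ent_mul, ent_a, ent_ai, ent_one]
  exact inv_chk.1

theorem b_mul : bL * biL = 1 := by
  apply ent_inj
  rw [ent_mul, ent_b, ent_bi, ent_one]
  exact inv_chk.2

theorem a_inv : aL⁻¹ = aiL := (eq_inv_of_mul_eq_one_right a_mul).symm ▸ rfl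
theorem b_inv : bL⁻¹ = biL := (eq_inv_of_mul_eq_one_right b_mul).symm ▸ rfl

/-- the generators -/
noncomputable def yL (i : ℕ) : L := if i = 0 then aL else bL

theorem yL_zero : yL 0 = aL := rfl
theorem yL_one : yL 1 = bL := by simp [yL]

/-- the matrix of a letter -/
def letM (l : ℕ) : Mt := decM ([aC, aiC, bC, biC].getD l oneC)

/-- the matrix of a word -/
def evM : List ℕ → Mt
  | [] => decM oneC
  | l :: w => mmul (letM l) (evM w)

theorem ent_lett (l : ℕ) (hl : l < 4) : ent (lett yL l) = letM l := by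
  interval_cases l
  · show ent (if 0 % 2 = 0 then yL (0 / 2) else (yL (0 / 2))⁻¹) = _
    rw [if_pos (by norm_num)]
    exact ent_a
  · show ent (if 1 % 2 = 0 then yL (1 / 2) else (yL (1 / 2))⁻¹) = _
    rw [if_neg (by norm_num)]
    show ent (aL⁻¹) = _
    rw [a_inv]
    exact ent_ai
  · show ent (if 2 % 2 = 0 then yL (2 / 2) else (yL (2 / 2))⁻¹) = _
    rw [if_pos (by norm_num)]
    show ent (yL 1) = _
    rw [yL_one]
    exact ent_b
  · show ent (if 3 % 2 = 0 then yL (3 / 2) else (yL (3 / 2))⁻¹) = _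
    rw [if_neg (by norm_num)]
    show ent ((yL 1)⁻¹) = _
    rw [yL_one, b_inv]
    exact ent_bi

theorem ent_evW : ∀ w : List ℕ, (∀ l ∈ w, l < 4) → ent (evW yL w) = evM w
  | [], _ => ent_one
  | l :: w, h => by
    rw [evW, evM, ent_mul, ent_lett l (h l (by simp)), ent_evW w fun m hm => h m (by simp [hm])]

/-- The relators. -/
abbrev rels : List (List ℕ) := Cfsg.Agent.Lib.U32Tc.relsL

theorem tcf : TCf 2 18 rels [0] := fun W _ x hg hr H hH => Cfsg.Agent.Lib.U32Tc.index_le x hg hr H hH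

theorem rels_lt : ∀ r ∈ rels, ∀ l ∈ r, l < 4 := by decide +kernel

theorem rels_chk : (rels.all fun r => meq (evM r) (decM oneC)) = true := by decide +kernel

theorem yL_rel : ∀ r ∈ rels, evW yL r = 1 := by
  intro r hr
  apply ent_inj
  have h1 := (List.all_eq_true.mp rels_chk) r hr
  rw [ent_evW r (rels_lt r hr), ent_one]
  exact (meq_iff _ _).1 h1

/-- Words for all the elements. -/
def words : List (List ℕ) := [[],[0],[1],[2],[3],[0,0],[2,0],[3,0],[1,1],[2,1],[3,1],[0,2],[1,2],[2,2],[0,3],[1,3],[0,0,0],[2,0,0],[3,0,0],[0,2,0],[1,2,0],[2,2,0],[0,3,0],[1,3,0],[1,1,1],[2,1,1],[3,1,1],[0,2,1],[1,2,1],[2,2,1],[0,3,1],[1,3,1],[0,0,2],[2,0,2],[3,0,2],[1,1,2],[2,1,2],[3,1,2],[0,2,2],[1,2,2],[0,0,3],[2,0,3],[3,0,3],[1,1,3],[2,1,3],[3,1,3],[0,0,0,0],[2,0,0,0],[3,0,0,0],[0,2,0,0],[1,2,0,0],[2,2,0,0],[0,3,0,0],[1,3,0,0],[0,0,2,0],[2,0,2,0],[3,0,2,0],[1,1,2,0],[2,1,2,0],[3,1,2,0],[0,2,2,0],[1,2,2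,0],[0,0,3,0],[2,0,3,0],[3,0,3,0],[1,1,3,0],[2,1,3,0],[3,1,3,0],[1,1,1,1],[2,1,1,1],[3,1,1,1],[0,2,1,1],[1,2,1,1],[2,2,1,1],[0,3,1,1],[1,3,1,1],[0,0,2,1],[2,0,2,1],[3,0,2,1],[1,1,2,1],[2,1,2,1],[3,1,2,1],[1,2,2,1],[0,0,3,1],[2,0,3,1],[3,0,3,1],[1,1,3,1],[2,1,3,1],[3,1,3,1],[0,0,0,2],[2,0,0,2],[3,0,0,2],[2,2,0,2],[0,3,0,2],[1,3,0,2],[1,1,1,2],[2,1,1,2],[3,1,1,2],[0,2,1,2],[1,2,1,2],[0,3,1,2],[1,3,1,2],[2,0,2,2],[1,1,2,2],[2,1,2,2],[3,1,2,2],[0,0,0,3],[3,0,0,3],[0,2,0,3],[1,2,0,3],[2,2,0,3],[0,3,0,3],[1,1,1,3],[0,2,1,3],[1,2,1,3],[2,2,1,3],[0,3,1,3],[0,0,0,0,0],[2,0,0,0,0],[3,0,0,0,0],[0,2,0,0,0],[1,2,0,0,0],[2,2,0,0,0],[0,3,0,0,0],[1,3,0,0,0],[0,0,2,0,0],[3,0,2,0,0],[1,1,2,0,0],[2,1,2,0,0],[3,1,2,0,0],[0,2,2,0,0],[1,2,2,0,0],[0,0,3,0,0],[2,0,3,0,0],[3,0,3,0,0],[1,1,3,0,0],[2,1,3,0,0],[3,1,3,0,0],[0,0,0,2,0],[2,0,0,2,0],[3,0,0,2,0],[2,2,0,2,0],[0,3,0,2,0],[1,3,0,2,0],[1,1,1,2,0],[2,1,1,2,0],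[3,1,1,2,0],[0,2,1,2,0],[1,2,1,2,0],[0,3,1,2,0],[1,3,1,2,0],[2,0,2,2,0],[1,1,2,2,0],[2,1,2,2,0],[3,1,2,2,0],[0,0,0,3,0],[3,0,0,3,0],[0,2,0,3,0],[1,2,0,3,0],[2,2,0,3,0],[0,3,0,3,0],[1,1,1,3,0],[0,2,1,3,0],[1,2,1,3,0],[2,2,1,3,0],[0,3,1,3,0],[1,1,1,1,1],[2,1,1,1,1],[3,1,1,1,1],[1,2,1,1,1],[2,2,1,1,1],[1,3,1,1,1],[3,1,2,1,1],[1,1,3,1,1],[1,1,1,2,1],[2,1,1,2,1],[1,2,1,2,1],[1,3,1,2,1],[2,1,2,2,1],[3,1,2,2,1],[0,2,0,3,1],[2,2,0,3,1],[0,2,2,0,2],[3,0,3,0,2],[2,2,1,1,2],[3,1,2,1,2],[1,1,3,1,2],[2,1,3,1,2],[1,3,1,2,2],[0,3,0,0,3],[3,0,2,0,3],[0,0,0,0,0,0],[2,0,0,0,0,0],[3,0,0,0,0,0],[0,2,0,0,0,0],[2,2,0,0,0,0],[0,3,0,0,0,0],[3,0,2,0,0,0],[0,0,3,0,0,0],[0,0,0,2,0,0],[0,3,0,2,0,0],[1,3,0,2,0,0],[2,1,2,2,0,0],[3,0,0,3,0,0],[0,2,0,3,0,0],[2,2,0,3,0,0],[2,2,1,3,0,0],[0,2,2,0,2,0],[3,0,3,0,2,0],[2,2,1,1,2,0],[3,1,2,1,2,0],[1,1,3,1,2,0],[2,1,3,1,2,0],[1,3,1,2,2,0],[0,3,0,0,3,0],[3,0,2,0,3,0]]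

theorem words_lt : ∀ r ∈ words, ∀ l ∈ r, l < 4 := by decide +kernel

theorem words_len : words.length = 216 := by decide +kernel

theorem words_nodup : (words.map fun w => encM (evM w)).Nodup := by decide +kernel

theorem natCard_L : Nat.card L = 216 := by
  have hF' : Fintype.card K4 = 2 ^ 2 := by
    rw [K4.card_K4]
    norm_num
  rw [Cfsg.Agent.Lib.PSUIdx.card_SU3 hF']
  norm_num

theorem evW_mem (A : Subgroup L) (h0 : aL ∈ A) (h1 : bL ∈ A) : ∀ w : List ℕ, (∀ l ∈ w, l < 4) → evW yL w ∈ A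
  | [], _ => A.one_mem
  | l :: w, h => by
    rw [evW]
    refine A.mul_mem ?_ (evW_mem A h0 h1 w fun m hm => h m (by simp [hm]))
    have hl := h l (by simp)
    have hy : yL (l / 2) ∈ A := by
      have : l / 2 = 0 ∨ l / 2 = 1 := by omega
      rcases this with e | e
      · rw [e, yL_zero]
        exact h0
      · rw [e, yL_one]
        exact h1
    by_cases e : l % 2 = 0
    · rw [lett, if_pos e]
      exact hy
    · rw [lett, if_neg e]
      exact A.inv_mem hy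

theorem top_of_mem (A : Subgroup L) (h0 : aL ∈ A) (h1 : bL ∈ A) : A = ⊤ := by
  classical
  haveI : Finite L := Nat.finite_of_card_ne_zero (by rw [natCard_L]; norm_num)
  letI : Fintype L := Fintype.ofFinite L
  have hinj : ∀ x ∈ words, ∀ y ∈ words, evW yL x = evW yL y → encM (evM x) = encM (evM y) := by
    intro x hx y hy e
    rw [← ent_evW x (words_lt x hx), ← ent_evW y (words_lt y hy), e]
  have hnd : (words.map (evW yL)).Nodup := by
    rw [List.nodup_map_iff_inj_on (List.Nodup.of_map _ words_nodup)]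
    intro x hx y hy e
    have h2 := hinj x hx y hy e
    exact (List.inj_on_of_nodup_map words_nodup) hx hy h2
  have hT : (words.map (evW yL)).toFinset = Finset.univ := by
    apply Finset.eq_univ_of_card
    rw [List.toFinset_card_of_nodup hnd, List.length_map, words_len, ← Nat.card_eq_fintype_card, natCard_L]
  rw [eq_top_iff]
  intro g _
  have h2 : g ∈ (words.map (evW yL)).toFinset := by
    rw [hT]
    exact Finset.mem_univ g
  obtain ⟨w, hw, rfl⟩ := List.mem_map.mp (List.mem_toFinset.mp h2)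
  exact evW_mem A h0 h1 w (words_lt w hw)

theorem u32_pf : Nonempty (PF rels ≃* SU 3 K4 2) := by
  classical
  haveI : Finite L := Nat.finite_of_card_ne_zero (by rw [natCard_L]; norm_num)
  refine pf_iso_tc (n := 18) (k := 12) rels_lt yL yL_rel ?_ tcf (by norm_num) (by decide +kernel) ?_
  · apply top_of_mem
    · exact Subgroup.subset_closure ⟨0, by simp, rfl⟩
    · exact Subgroup.subset_closure ⟨1, by simp, yL_one⟩
  · rw [show Nat.card (SU 3 K4 2) = 216 from natCard_L]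

end U32

theorem su32_pres {F : Type*} [Field F] [Fintype F] (hF : Fintype.card F = 2 ^ 2) :
    ∃ R : Finset (FreeGroup (Fin 2)), R.card ≤ 11 ∧
      Nonempty (PresentedGroup (R : Set (FreeGroup (Fin 2))) ≃* Cfsg.SU 3 F 2) := by
  classical
  obtain ⟨E⟩ := U32.u32_pf
  have φ : F ≃+* Cfsg.Agent.Lib.F4K.K4 :=
    FiniteField.ringEquivOfCardEq (by rw [hF, Cfsg.Agent.Lib.F4K.K4.card_K4]; norm_num)
  refine ⟨fgR U32.rels, (fgR_card _).trans (by decide +kernel), ⟨E.trans (Cfsg.Agent.Lib.SUTransfer.suEquiv φ).symm⟩⟩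

end Cfsg.Agent.Lib.PrsSU
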