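import Mathlib
import Cfsg.Agent.Lib.SU2GenC

/-!
# Two generation of `SU_n(q)`: the core arguments
-/

set_option autoImplicit false
set_option linter.unusedSectionVars false
set_option linter.unusedSimpArgs false
set_option linter.unusedVariables false

namespace Cfsg.Agent.Lib.SU2GenD

open Module Matrix Cfsg Cfsg.Agent.Lib.UnitaryBasic Cfsg.Agent.Lib.UnitarySU
  Cfsg.Agent.Lib.UnitaryConj Cfsg.Agent.Lib.UnitaryE Cfsg.Agent.Lib.SUGen
  Cfsg.Agent.Lib.HermForm Cfsg.Agent.Lib.HermCount Cfsg.Agent.Lib.GUParab Cfsg.Agent.Lib.FFNorm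
  Cfsg.Agent.Lib.SU2GenA Cfsg.Agent.Lib.SU2GenB Cfsg.Agent.Lib.SU2GenC

variable {F : Type*} [Field F] [Fintype F] {q N : ℕ}

local notation "h" => hermForm N F q

theorem SU_ext_basis {I : Type*} (b : Basis I F (Fin N → F)) {A B : SU N F q}
    (hAB : ∀ i, act A (b i) = act B (b i)) : A = B := by
  apply SU_ext
  intro x
  have h1 : Matrix.mulVecLin ((A : Matrix.SpecialLinearGroup (Fin N) F) : Matrix (Fin N) (Fin N) F) =
      Matrix.mulVecLin ((B : Matrix.SpecialLinearGroup (Fin N) F) : Matrix (Fin N) (Fin N) F) :=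
    b.ext hAB
  exact LinearMap.congr_fun h1 x

/-- The action of a conjugate on the image of an eigenvector. -/
theorem act_conj {a g : SU N F q} {x y : Fin N → F} {r l : F} (hr : r ≠ 0) (hg : act g x = r • y)
    (ha : act a x = l • x) : act (g * a * g⁻¹) y = l • y := by
  have h1 : act g⁻¹ y = r⁻¹ • x := by
    have h2 : y = act g (r⁻¹ • x) := by
      rw [act_smul, hg, smul_smul, inv_mul_cancel₀ hr, one_smul]
    rw [h2, act_inv_act]
  rw [act_mul, act_mul, h1, act_smul, ha, act_smul, act_smul, hg, smul_smul, smul_smul]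
  congr 1
  field_simp

variable (hF : Fintype.card F = q ^ 2) {M : Subgroup (SU N F q)}
include hF

theorem Rt_move {A : SU N F q} {v w v' w' : Fin N → F} {l μ : F} (hl : l ≠ 0) (hμ : μ ≠ 0) (hA : A ∈ M)
    (hR : Rt M v w) (hv : act A v = l • v') (hw : act A w = μ • w') : Rt M v' w' := by
  intro c
  obtain ⟨p, hp, hE⟩ := hR (c / (l ^ q * μ))
  refine ⟨A * p * A⁻¹, M.mul_mem (M.mul_mem hA hp) (M.inv_mem hA), ?_⟩
  have h1 := E_move hF hl hE hv hw
  have hl' : l ^ q ≠ 0 := pow_ne_zero _ hl
  have e1 : l ^ q * μ * (c / (l ^ q * μ)) = c := by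
    field_simp
  rw [e1, mul_zero] at h1
  exact h1

theorem Zt_move {A : SU N F q} {v w v' w' : Fin N → F} {l μ : F} (hl : l ≠ 0) (hμ : μ ≠ 0) (hA : A ∈ M)
    (hR : Zt M v w) (hv : act A v = l • v') (hw : act A w = μ • w') : Zt M v' w' := by
  intro c
  obtain ⟨p, hp, s, hE⟩ := hR (c / (l ^ q * μ))
  refine ⟨A * p * A⁻¹, M.mul_mem (M.mul_mem hA hp) (M.inv_mem hA), l * l ^ q * s, ?_⟩
  have h1 := E_move hF hl hE hv hw
  have hl' : l ^ q ≠ 0 := pow_ne_zero _ hl
  have e1 : l ^ q * μ * (c / (l ^ q * μ)) = c := by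
    field_simp
  rw [e1] at h1
  exact h1

theorem Rt_symm {v w : Fin N → F} (hw : h w w = 0) (hvw : h v w = 0) (hR : Rt M v w) : Rt M w v := by
  intro c
  obtain ⟨p, hp, hE⟩ := hR ((-c) ^ q)
  refine ⟨p, hp, ?_⟩
  have h1 := E_swap hF hE hw hvw
  have e1 : -((-c) ^ q) ^ q = c := by
    rw [pow_pow_self hF]
    ring
  rw [e1] at h1
  exact h1

/-- The index set of a half. -/
theorem S_props {L m : ℕ} [NeZero L] (hm : L = 2 * m) (hm1 : 1 ≤ m) :
    let S : Finset (ZMod L) := Finset.univ.filter (fun i => i.val < m)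
    (∀ i ∈ S, ∀ j ∈ S, j ≠ i + (m : ZMod L)) ∧ (∀ i ∈ Sᶜ, ∀ j ∈ Sᶜ, j ≠ i + (m : ZMod L)) ∧
      (∀ i ∈ S, i + (m : ZMod L) ∈ Sᶜ) := by
  intro S
  have hmem : ∀ i, i ∈ S ↔ i.val < m := fun i => by simp [S]
  have hval : ∀ i : ZMod L, (i + (m : ZMod L)).val = (i.val + m) % L := by
    intro i
    rw [ZMod.val_add, ZMod.val_natCast, Nat.add_mod_mod]
  have hlt : ∀ i : ZMod L, i.val < L := fun i => ZMod.val_lt i
  refine ⟨?_, ?_, ?_⟩
  · intro i hi j hj hij
    rw [hmem] at hi hj
    have h1 := hval i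
    rw [← hij, Nat.mod_eq_of_lt (by omega)] at h1
    omega
  · intro i hi j hj hij
    rw [Finset.mem_compl, hmem] at hi hj
    have h1 := hval i
    rw [← hij] at h1
    have h3 := hlt i
    have h2 : (i.val + m) % L = i.val - m := by
      rw [Nat.mod_eq_sub_mod (by omega), Nat.mod_eq_of_lt (by omega)]
      omega
    omega
  · intro i hi
    rw [Finset.mem_compl, hmem]
    rw [hmem] at hi
    rw [hval, Nat.mod_eq_of_lt (by omega)]
    omega

section even

variable {L m : ℕ} [NeZero L] {K' : Type} [Fintype K'] [DecidableEq K']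

/-- The core of the case of even dimension. -/
theorem even_core (hm : L = 2 * m) (hm2 : 2 ≤ m) [IsEmpty K'] (b : Basis (ZMod L ⊕ K') F (Fin N → F))
    (hvv : ∀ i j, h (b (.inl i)) (b (.inl j)) = if j = i + (m : ZMod L) then 1 else 0)
    (hn : 3 ≤ N) (h32 : ¬ (N = 3 ∧ q = 2))
    {ν ρ : ZMod L → F} (hν : ∀ i, ν i ≠ 0) (hρ : ∀ i, ρ i ≠ 0) {a g : SU N F q}
    (ha : ∀ i, act a (b (.inl i)) = ν i • b (.inl i))
    (hg : ∀ i, act g (b (.inl i)) = ρ i • b (.inl (i + 1)))
    {ξ ξ' : F} (hξ : ξ = ν 0 ^ q * ν ((m : ZMod L) + 1)) (hξ' : ξ' = ν (-1) ^ q * ν (m : ZMod L))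
    (hξ1 : ξ ≠ 1) (hξ'1 : ξ' ≠ 1) (hord : Fintype.card F < (orderOf ξ + 1) ^ 2) :
    ∃ t : SU N F q, Subgroup.closure ({a, t * g} : Set (SU N F q)) = ⊤ := by
  classical
  set mm : ZMod L := (m : ZMod L) with hmm
  have hmm2 : mm + mm = 0 := mm_zero hm
  set v : ZMod L → Fin N → F := fun i => b (.inl i) with hvdef
  have hv : ∀ i j, h (v i) (v j) = if j = i + mm then 1 else 0 := hvv
  have hLm : 4 ≤ L := by omega
  have hmm0 : mm ≠ 0 := by
    have := cast_ne (L := L) (d := m) (e := 0) (by omega) (by omega) (by omega)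
    simpa using this
  have h1ne0 : (1 : ZMod L) ≠ 0 := by
    have := cast_ne (L := L) (d := 1) (e := 0) (by omega) (by omega) (by omega)
    simpa using this
  have h1nem : (1 : ZMod L) ≠ mm := by
    have := cast_ne (L := L) (d := 1) (e := m) (by omega) (by omega) (by omega)
    simpa using this
  have hiso : ∀ i, h (v i) (v i) = 0 := by
    intro i
    rw [hv, if_neg]
    intro h'
    exact hmm0 (add_eq_left.1 h'.symm)
  have hperp : ∀ i j, j ≠ i + mm → h (v i) (v j) = 0 := fun i j hij => by rw [hv, if_neg hij]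
  set w := v (mm + 1) with hw
  have hw0 : h w (v 0) = 0 := by
    apply hperp
    intro h'
    apply h1ne0
    have : (1 : ZMod L) = (mm + mm) + 1 := by rw [hmm2, zero_add]
    rw [this]
    linear_combination -h'
  have hww : h w w = 0 := hiso _
  have h0w : h (v 0) w = 0 := conj_zero hF hw0
  have hC : ∀ c : F, h (c • w) (v 0) = 0 := fun c => by rw [hermForm_smul_left, hw0, mul_zero]
  obtain ⟨t, ht⟩ : ∃ t : SU N F q, IsE t (v 0) ((1 : F) • w) 0 := by
    refine exists_IsE hF (hiso 0) (hC 1) ?_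
    rw [zero_pow_q hF, hermForm_smul_left, hermForm_smul_right, hww]
    ring
  refine ⟨t, ?_⟩
  set M := Subgroup.closure ({a, t * g} : Set (SU N F q)) with hM
  have haM : a ∈ M := Subgroup.subset_closure (by simp)
  have hbM : t * g ∈ M := Subgroup.subset_closure (by simp)
  -- the conjugate of `a`
  have ha' : ∀ i, act (g * a * g⁻¹) (v (i + 1)) = ν i • v (i + 1) := fun i =>
    act_conj (hρ i) (hg i) (ha i)
  have hcomm : a * (g * a * g⁻¹) = (g * a * g⁻¹) * a := by
    apply SU_ext_basis b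
    rintro (i | k)
    · rw [act_mul a (g * a * g⁻¹), act_mul (g * a * g⁻¹) a]
      have e1 := ha' (i - 1)
      rw [sub_add_cancel] at e1
      have e2 : act (g * a * g⁻¹) (b (.inl i)) = ν (i - 1) • b (.inl i) := e1
      rw [e2, act_smul, ha, act_smul, e2, smul_smul, smul_smul, mul_comm]
    · exact isEmptyElim k
  have hC0 : ∀ c : F, h (c • w) ((0 : F) • v 0) = 0 := fun c => by
    rw [zero_smul, hermForm_zero_right hF]
  -- the trick
  have htrick : ∀ c : F, ∃ p ∈ M, IsE p (v 0) (c • w) 0 := by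
    intro c
    refine trick (fun p c => IsE p (v 0) (c • w) 0) ?_ ?_ hcomm rfl ?_ ?_ ht M haM hbM hξ1 hξ'1 ?_ hord c
    · intro p p' c c' hp hp'
      have e1 := hp.mul hF hp'
      have e2 : h (c' • w) (c • w) = 0 := by
        rw [hermForm_smul_left, hermForm_smul_right, hww]
        ring
      rw [e2, ← add_smul] at e1
      simpa using e1
    · intro p c hp
      have e1 := E_inv hF hp
      rw [zero_pow_q hF, ← neg_smul] at e1
      exact e1
    · intro p c hp
      have e1 := E_move hF (hν 0) hp (ha 0) (ha (mm + 1))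
      rw [← hξ, mul_zero] at e1
      exact e1
    · intro p c hp
      have e0 := ha' (-1)
      rw [neg_add_cancel] at e0
      have e1 := E_move hF (hν (-1)) hp e0 (ha' mm)
      rw [← hξ', mul_zero] at e1
      exact e1
    · rw [hξ]
      refine mul_ne_zero (pow_ne_zero _ (hν _)) (hν _)
  have htM : t ∈ M := by
    obtain ⟨p, hp, hE⟩ := htrick 1
    rw [E_unique ht hE]
    exact hp
  have hgM : g ∈ M := by
    have := M.mul_mem (M.inv_mem htM) hbM
    simpa using this
  -- the orbit
  have hR0 : ∀ k : ℕ, Rt M (v (k : ZMod L)) (v ((k : ZMod L) + mm + 1)) := by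
    intro k
    induction k with
    | zero =>
      simp only [Nat.cast_zero, zero_add]
      exact htrick
    | succ k ih =>
      have e1 := hg (k : ZMod L)
      have e2 := hg ((k : ZMod L) + mm + 1)
      have e3 : ((k : ZMod L) + mm + 1 + 1) = (((k + 1 : ℕ) : ZMod L) + mm + 1) := by
        push_cast
        ring
      rw [e3] at e2
      have e4 := Rt_move hF (hρ _) (hρ _) hgM ih e1 e2
      have e5 : (k : ZMod L) + 1 = ((k + 1 : ℕ) : ZMod L) := by
        push_cast
        ring
      rw [e5] at e4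
      exact e4
  have hR1 : ∀ i, Rt M (v i) (v (i + mm + 1)) := by
    intro i
    have := hR0 i.val
    rwa [ZMod.natCast_zmod_val] at this
  have hsymm : ∀ i j, Rt M (v i) (v j) → j ≠ i + mm → Rt M (v j) (v i) := fun i j hR hij =>
    Rt_symm hF (hiso j) (hperp i j hij) hR
  -- the steps
  have hsteps : ∀ l : ℕ, l ≤ m - 1 → ∀ i, Rt M (v i) (v (i + ((m + 1 + l : ℕ) : ZMod L))) := by
    intro l
    induction l with
    | zero =>
      intro _ i
      have e1 : i + ((m + 1 + 0 : ℕ) : ZMod L) = i + mm + 1 := by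
        push_cast
        ring
      rw [e1]
      exact hR1 i
    | succ l ih =>
      intro hl i
      have ih' := ih (by omega) i
      set j := i + ((m + 1 + l : ℕ) : ZMod L) with hj
      have hj' : i + ((m + 1 + (l + 1) : ℕ) : ZMod L) = j + 1 := by
        rw [hj]
        push_cast
        ring
      rw [hj']
      -- the second root element
      have hS : Rt M (v (j + 1)) (v (j + mm)) := by
        have e1 := hR1 (j + mm)
        have e2 : j + mm + mm + 1 = j + 1 := by
          linear_combination hmm2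
        rw [e2] at e1
        refine hsymm _ _ e1 ?_
        intro h'
        apply h1ne0
        linear_combination h' + hmm2
      have c1 : j + 1 ≠ i + mm := by
        intro h'
        apply cast_ne (L := L) (d := l + 2) (e := 0) (by omega) (by omega) (by omega)
        rw [hj] at h'
        push_cast at h' ⊢
        linear_combination h'
      have c2 : j + mm ≠ i + mm := by
        intro h'
        apply cast_ne (L := L) (d := m + 1 + l) (e := 0) (by omega) (by omega) (by omega)
        have h'' : j = i := add_right_cancel h'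
        rw [hj] at h''
        push_cast at h'' ⊢
        linear_combination h''
      have c3 : j + 1 ≠ j + mm := fun h' => h1nem (add_left_cancel h')
      intro c
      obtain ⟨A, hA, hE⟩ := ih' (-c)
      obtain ⟨B, hB, hE'⟩ := hS 1
      have e1 := E_comm_rule hF hE hE' (hperp _ _ c1)
        (by rw [hermForm_smul_right, hperp _ _ c2, mul_zero])
        (by rw [hermForm_smul_left, hperp _ _ c3, mul_zero])
      have e2 : h ((-c) • v j) ((1 : F) • v (j + mm)) = -c := by
        rw [hermForm_smul_left, hermForm_smul_right, hv, if_pos rfl, one_pow]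
        ring
      rw [e2, neg_neg] at e1
      exact ⟨_, M.mul_mem (M.mul_mem (M.mul_mem hB hA) (M.inv_mem hB)) (M.inv_mem hA), e1⟩
  have hLcast : ((L : ℕ) : ZMod L) = 0 := ZMod.natCast_self L
  have hRall : ∀ i j, j ≠ i + mm → Rt M (v i) (v j) := by
    intro i j hij
    set d := (j - i).val with hd
    have hd1 : d < L := ZMod.val_lt _
    have hd2 : (d : ZMod L) = j - i := ZMod.natCast_zmod_val _
    have hdm : d ≠ m := by
      intro h'
      apply hij
      have : (d : ZMod L) = mm := by rw [h']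
      rw [← this, hd2]
      ring
    by_cases hlt : m < d
    · have e1 := hsteps (d - m - 1) (by omega) i
      have e2 : m + 1 + (d - m - 1) = d := by omega
      rw [e2, hd2] at e1
      have e3 : i + (j - i) = j := by ring
      rwa [e3] at e1
    · have hdlt : d < m := by omega
      have e1 := hsteps (L - d - m - 1) (by omega) j
      have e2 : m + 1 + (L - d - m - 1) = L - d := by omega
      rw [e2, Nat.cast_sub (by omega), hLcast, hd2] at e1
      have e3 : j + (0 - (j - i)) = i := by ring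
      rw [e3] at e1
      have hne : i ≠ j + mm := by
        intro h'
        apply hij
        rw [h']
        linear_combination -hmm2
      exact hsymm _ _ e1 hne
  have hT : ∀ i, Tc M (v i) := fun i => T_of_R_self hF (hiso i) (hRall i i (by
    intro h'
    exact hmm0 (add_eq_left.1 h'.symm)))
  obtain ⟨hS1, hS2, hS3⟩ := S_props (F := F) hF hm (by omega)
  refine top_of_T hF hn h32 fun x hx => ?_
  have hxsum : x = ∑ j, (b.repr x (.inl j)) • v j := by
    conv_lhs => rw [← b.sum_repr x]
    rw [Fintype.sum_sum_type]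
    simp
    rfl
  rw [hxsum] at hx ⊢
  exact all_in_span hF hmm2 hv hT hRall _ hS1 hS2 hS3 _ hx

end even

section odd

variable {L m : ℕ} [NeZero L]

/-- The core of the case of odd dimension. -/
theorem odd_core (hm : L = 2 * m) (hm1 : 1 ≤ m) (b : Basis (ZMod L ⊕ Unit) F (Fin N → F))
    (hvv : ∀ i j, h (b (.inl i)) (b (.inl j)) = if j = i + (m : ZMod L) then 1 else 0)
    (hvz : ∀ i k, h (b (.inl i)) (b (.inr k)) = 0)
    (hzz : ∀ k k', h (b (.inr k)) (b (.inr k')) = if k = k' then 1 else 0)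
    (hn : 3 ≤ N) (h32 : ¬ (N = 3 ∧ q = 2))
    {ν ρ : ZMod L → F} {νz ρz : F} (hν : ∀ i, ν i ≠ 0) (hρ : ∀ i, ρ i ≠ 0) (hνz : νz ≠ 0) (hρz : ρz ≠ 0)
    {a g : SU N F q}
    (ha : ∀ i, act a (b (.inl i)) = ν i • b (.inl i)) (haz : act a (b (.inr ())) = νz • b (.inr ()))
    (hg : ∀ i, act g (b (.inl i)) = ρ i • b (.inl (i + 1))) (hgz : act g (b (.inr ())) = ρz • b (.inr ()))
    {ξ ξ' : F} (hξ : ξ = ν 0 ^ q * νz) (hξ' : ξ' = ν (-1) ^ q * νz)
    (hξ1 : ξ ≠ 1) (hξ'1 : ξ' ≠ 1) (hord : Fintype.card F < (orderOf ξ + 1) ^ 2) :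
    ∃ t : SU N F q, Subgroup.closure ({a, t * g} : Set (SU N F q)) = ⊤ := by
  classical
  set mm : ZMod L := (m : ZMod L) with hmm
  have hmm2 : mm + mm = 0 := mm_zero hm
  set v : ZMod L → Fin N → F := fun i => b (.inl i) with hvdef
  set z : Fin N → F := b (.inr ()) with hz
  have hv : ∀ i j, h (v i) (v j) = if j = i + mm then 1 else 0 := hvv
  have hLm : 2 ≤ L := by omega
  have hmm0 : mm ≠ 0 := by
    have := cast_ne (L := L) (d := m) (e := 0) (by omega) (by omega) (by omega)
    simpa using this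
  have hiso : ∀ i, h (v i) (v i) = 0 := by
    intro i
    rw [hv, if_neg]
    intro h'
    exact hmm0 (add_eq_left.1 h'.symm)
  have hperp : ∀ i j, j ≠ i + mm → h (v i) (v j) = 0 := fun i j hij => by rw [hv, if_neg hij]
  have hvz' : ∀ i, h (v i) z = 0 := fun i => hvz i ()
  have hzv' : ∀ i, h z (v i) = 0 := fun i => conj_zero hF (hvz' i)
  have hzz' : h z z = 1 := by
    have := hzz () ()
    simpa using this
  obtain ⟨s₀, hs₀⟩ : ∃ s₀ : F, s₀ + s₀ ^ q = -1 := exists_trace_eq hF (by
    rw [HermForm.neg_pow_q hF, one_pow])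
  obtain ⟨t, ht⟩ : ∃ t : SU N F q, IsE t (v 0) ((1 : F) • z) s₀ := by
    refine exists_IsE hF (hiso 0) (by rw [hermForm_smul_left, hzv', mul_zero]) ?_
    rw [one_smul, hzz', hs₀]
    ring
  refine ⟨t, ?_⟩
  set M := Subgroup.closure ({a, t * g} : Set (SU N F q)) with hM
  have haM : a ∈ M := Subgroup.subset_closure (by simp)
  have hbM : t * g ∈ M := Subgroup.subset_closure (by simp)
  have ha' : ∀ i, act (g * a * g⁻¹) (v (i + 1)) = ν i • v (i + 1) := fun i =>
    act_conj (hρ i) (hg i) (ha i)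
  have haz' : act (g * a * g⁻¹) z = νz • z := act_conj hρz hgz haz
  have hcomm : a * (g * a * g⁻¹) = (g * a * g⁻¹) * a := by
    apply SU_ext_basis b
    rintro (i | k)
    · rw [act_mul a (g * a * g⁻¹), act_mul (g * a * g⁻¹) a]
      have e1 := ha' (i - 1)
      rw [sub_add_cancel] at e1
      have e2 : act (g * a * g⁻¹) (b (.inl i)) = ν (i - 1) • b (.inl i) := e1
      rw [e2, act_smul, ha, act_smul, e2, smul_smul, smul_smul, mul_comm]
    · rw [act_mul a (g * a * g⁻¹), act_mul (g * a * g⁻¹) a]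
      have e2 : act (g * a * g⁻¹) (b (.inr k)) = νz • b (.inr k) := haz'
      have e3 : act a (b (.inr k)) = νz • b (.inr k) := haz
      rw [e2, act_smul, e3, act_smul, e2]
  -- the trick
  have htrick : ∀ c : F, ∃ p ∈ M, ∃ s, IsE p (v 0) (c • z) s := by
    intro c
    refine trick (fun p c => ∃ s, IsE p (v 0) (c • z) s) ?_ ?_ hcomm rfl ?_ ?_ ⟨s₀, ht⟩ M haM hbM hξ1 hξ'1 ?_ hord c
    · rintro p p' c c' ⟨s, hp⟩ ⟨s', hp'⟩
      have e1 := hp.mul hF hp'
      rw [← add_smul] at e1
      exact ⟨_, e1⟩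
    · rintro p c ⟨s, hp⟩
      have e1 := E_inv hF hp
      rw [← neg_smul] at e1
      exact ⟨_, e1⟩
    · rintro p c ⟨s, hp⟩
      have e1 := E_move hF (hν 0) hp (ha 0) haz
      rw [← hξ] at e1
      exact ⟨_, e1⟩
    · rintro p c ⟨s, hp⟩
      have e0 := ha' (-1)
      rw [neg_add_cancel] at e0
      have e1 := E_move hF (hν (-1)) hp e0 haz'
      rw [← hξ'] at e1
      exact ⟨_, e1⟩
    · rw [hξ]
      exact mul_ne_zero (pow_ne_zero _ (hν _)) hνz
  have hT0 : Tc M (v 0) := T_of_Z hF hzz' htrick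
  have htM : t ∈ M := by
    obtain ⟨p, hp, s, hE⟩ := htrick 1
    have e1 := hT0.2 _ _ (E_diff hF ht hE)
    have e2 := M.mul_mem e1 hp
    simpa using e2
  have hgM : g ∈ M := by
    have := M.mul_mem (M.inv_mem htM) hbM
    simpa using this
  -- the orbit
  have hZ0 : ∀ k : ℕ, Zt M (v (k : ZMod L)) z := by
    intro k
    induction k with
    | zero =>
      simp only [Nat.cast_zero]
      exact htrick
    | succ k ih =>
      have e1 := hg (k : ZMod L)
      have e4 := Zt_move hF (hρ _) hρz hgM ih e1 hgz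
      have e5 : (k : ZMod L) + 1 = ((k + 1 : ℕ) : ZMod L) := by
        push_cast
        ring
      rw [e5] at e4
      exact e4
  have hZ : ∀ i, Zt M (v i) z := by
    intro i
    have := hZ0 i.val
    rwa [ZMod.natCast_zmod_val] at this
  have hT : ∀ i, Tc M (v i) := fun i => T_of_Z hF hzz' (hZ i)
  have hRall : ∀ i j, j ≠ i + mm → Rt M (v i) (v j) := by
    intro i j hij c
    obtain ⟨A, hA, s, hE⟩ := hZ i (-c)
    obtain ⟨B, hB, s', hE'⟩ := hZ j 1
    have e1 := E_comm_rule hF hE hE' (hperp _ _ hij)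
      (by rw [hermForm_smul_right, hvz', mul_zero])
      (by rw [hermForm_smul_left, hzv', mul_zero])
    have e2 : h ((-c) • z) ((1 : F) • z) = -c := by
      rw [one_smul, hermForm_smul_left, hzz', mul_one]
    rw [e2, neg_neg] at e1
    exact ⟨_, M.mul_mem (M.mul_mem (M.mul_mem hB hA) (M.inv_mem hB)) (M.inv_mem hA), e1⟩
  obtain ⟨hS1, hS2, hS3⟩ := S_props (F := F) hF hm hm1
  have hspan : ∀ α : ZMod L → F, h (∑ j, α j • v j) (∑ j, α j • v j) = 0 → Tc M (∑ j, α j • v j) :=
    fun α hx => all_in_span hF hmm2 hv hT hRall _ hS1 hS2 hS3 _ hx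
  refine top_of_T hF hn h32 fun x hx => ?_
  set α : ZMod L → F := fun j => b.repr x (.inl j) with hα
  set γ : F := b.repr x (.inr ()) with hγ
  have hxsum : x = (∑ j, α j • v j) + γ • z := by
    conv_lhs => rw [← b.sum_repr x]
    rw [Fintype.sum_sum_type]
    simp
    rfl
  set x' := ∑ j, α j • v j with hx'
  by_cases hγ0 : γ = 0
  · rw [hxsum, hγ0, zero_smul, add_zero] at hx ⊢
    exact hspan α hx
  have hx'z : h x' z = 0 := by
    rw [hx', h_sum_left]
    exact Finset.sum_eq_zero fun j _ => by rw [hermForm_smul_left, hvz', mul_zero]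
  have hzx' : h z x' = 0 := conj_zero hF hx'z
  have hxx : h x' x' + γ * γ ^ q = 0 := by
    rw [hxsum, hermForm_add_left, hermForm_add_right hF, hermForm_add_right hF, hermForm_smul_left,
      hermForm_smul_left, hermForm_smul_right, hermForm_smul_right, hx'z, hzx', hzz'] at hx
    linear_combination hx
  have hex : ∃ k, α k ≠ 0 := by
    by_contra hcon
    push Not at hcon
    have e1 : x' = 0 := Finset.sum_eq_zero fun j _ => by rw [hcon j, zero_smul]
    rw [e1, hermForm_zero_left, zero_add] at hxx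
    exact (mul_ne_zero hγ0 (pow_ne_zero _ hγ0)) hxx
  obtain ⟨k, hk⟩ := hex
  set K := k + mm with hK
  obtain ⟨A, hA, s, hE⟩ := hZ K (-γ / α k)
  have e1 : h x (v K) = α k := by
    rw [hxsum, hermForm_add_left, hermForm_smul_left, hzv', mul_zero, add_zero, hx', h_sum_left,
      Finset.sum_eq_single k]
    · rw [hermForm_smul_left, hv, if_pos rfl, mul_one]
    · intro i _ hik
      rw [hermForm_smul_left, hv, if_neg, mul_zero]
      intro h'
      exact hik (add_right_cancel h').symm
    · intro h'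
      exact absurd (Finset.mem_univ k) h'
  set κ := h x ((-γ / α k) • z) with hκ
  set e := α k * s - κ with he
  have e2 : act A x = ∑ j, (α j + if j = K then e else 0) • v j := by
    have e3 : ∑ j, (α j + if j = K then e else 0) • v j = x' + e • v K := by
      simp only [add_smul, Finset.sum_add_distrib, ite_smul, zero_smul, Finset.sum_ite_eq', Finset.mem_univ,
        if_true]
      rfl
    rw [hE.act_eq, e1, ← hκ, e3]
    have e4 : α k * (-γ / α k) = -γ := by
      field_simp
    rw [hxsum, he]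
    ext i
    simp only [Pi.add_apply, Pi.sub_apply, Pi.smul_apply, smul_eq_mul]
    have e5 : α k * (-γ / α k * z i) = -γ * z i := by
      rw [← mul_assoc, e4]
    linear_combination e5
  have e3 : Tc M (act A x) := by
    rw [e2]
    apply hspan
    rw [← e2, herm_act]
    exact hx
  have e4 := T_conj hF (M.inv_mem hA) e3
  rwa [act_inv_act] at e4

end odd

end Cfsg.Agent.Lib.SU2GenD
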