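import Mathlib
import Cfsg.Agent.Lib.SU2GenD

/-!
# Two generation of `SU_n(q)`: the choice of generators
-/

set_option autoImplicit false
set_option linter.unusedSectionVars false
set_option linter.unusedSimpArgs false
set_option linter.unusedVariables false

namespace Cfsg.Agent.Lib.SU2GenE

open Module Matrix Cfsg Cfsg.Agent.Lib.UnitaryBasic Cfsg.Agent.Lib.UnitarySU
  Cfsg.Agent.Lib.UnitaryConj Cfsg.Agent.Lib.UnitaryE Cfsg.Agent.Lib.SUGen
  Cfsg.Agent.Lib.HermForm Cfsg.Agent.Lib.HermCount Cfsg.Agent.Lib.GUParab Cfsg.Agent.Lib.FFNorm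
  Cfsg.Agent.Lib.SU2GenA Cfsg.Agent.Lib.SU2GenB Cfsg.Agent.Lib.SU2GenC Cfsg.Agent.Lib.SU2GenD

variable {F : Type*} [Field F] [Fintype F] {q N : ℕ}

local notation "h" => hermForm N F q

section pr

variable {L : ℕ} [NeZero L]

/-- Coefficients supported on a hyperbolic pair. -/
def pr (mm : ZMod L) (q : ℕ) (x : F) (i : ZMod L) : F :=
  if i = 0 then x else if i = mm then (x ^ q)⁻¹ else 1

variable (hF : Fintype.card F = q ^ 2) {mm : ZMod L} (hmm2 : mm + mm = 0) (hmm0 : mm ≠ 0) {x : F} (hx : x ≠ 0)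

omit [Fintype F] in
theorem pr_zero : pr mm q x 0 = x := by simp [pr]

omit [Fintype F] in
include hmm0 in
theorem pr_mm : pr mm q x mm = (x ^ q)⁻¹ := by simp [pr, hmm0]

omit [Fintype F] in
theorem pr_other {i : ZMod L} (h0 : i ≠ 0) (h1 : i ≠ mm) : pr mm q x i = 1 := by simp [pr, h0, h1]

include hF hmm2 hmm0 hx

theorem pr_pair (i : ZMod L) : pr mm q x i * (pr mm q x (i + mm)) ^ q = 1 := by
  have hx' : x ^ q ≠ 0 := pow_ne_zero _ hx
  by_cases h0 : i = 0
  · subst h0
    rw [zero_add, pr_zero, pr_mm hmm0, inv_pow, pow_pow_self hF, mul_inv_cancel₀ hx]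
  by_cases h1 : i = mm
  · subst h1
    rw [hmm2, pr_zero, pr_mm hmm0, inv_mul_cancel₀ hx']
  · have h2 : i + mm ≠ 0 := by
      intro h'
      apply h1
      linear_combination h' - hmm2
    have h3 : i + mm ≠ mm := fun h' => h0 (add_eq_right.1 h')
    rw [pr_other h0 h1, pr_other h2 h3, one_pow, one_mul]

theorem pr_ne (i : ZMod L) : pr mm q x i ≠ 0 := by
  intro h'
  have := pr_pair hF hmm2 hmm0 hx i
  rw [h', zero_mul] at this
  exact zero_ne_one this

theorem pr_prod : ∏ i, pr mm q x i = x * (x ^ q)⁻¹ := by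
  rw [Finset.prod_eq_mul (0 : ZMod L) mm (Ne.symm hmm0)]
  · rw [pr_zero, pr_mm hmm0]
  · intro c _ hc
    exact pr_other hc.1 hc.2
  · intro h'
    exact absurd (Finset.mem_univ _) h'
  · intro h'
    exact absurd (Finset.mem_univ _) h'

end pr

section elements

variable {L m : ℕ} [NeZero L] {K' : Type} [Fintype K'] [DecidableEq K'] (hF : Fintype.card F = q ^ 2)
  (hm : L = 2 * m) (b : Basis (ZMod L ⊕ K') F (Fin N → F))
  (hvv : ∀ (i j : ZMod L), hermForm N F q (b (.inl i)) (b (.inl j)) = if j = i + (m : ZMod L) then (1 : F) else 0)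
  (hvz : ∀ (i : ZMod L) (k : K'), hermForm N F q (b (.inl i)) (b (.inr k)) = 0)
  (hzz : ∀ (k k' : K'), hermForm N F q (b (.inr k)) (b (.inr k')) = if k = k' then (1 : F) else 0)
include hF hm hvv hvz hzz

theorem exists_diag (c : ZMod L → F) (c' : K' → F) (hc : ∀ i, c i * (c (i + (m : ZMod L))) ^ q = 1)
    (hc' : ∀ k, c' k * (c' k) ^ q = 1) (hdet : (∏ i, c i) * ∏ k, c' k = 1) :
    ∃ A : SU N F q, (∀ i, act A (b (.inl i)) = c i • b (.inl i)) ∧
      ∀ k, act A (b (.inr k)) = c' k • b (.inr k) := by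
  obtain ⟨A, h1, h2⟩ := exists_mono2 hF hm b hvv hvz hzz 0 c c' hc hc' (by
    have e : Equiv.addRight (0 : ZMod L) = 1 := by
      ext i
      simp
    rw [e, Equiv.Perm.sign_one, mul_assoc, hdet]
    simp)
  refine ⟨A, fun i => ?_, h2⟩
  have := h1 i
  rwa [add_zero] at this

theorem exists_shift (hm0 : m ≠ 0) (hm' : m < L) : ∃ (g : SU N F q) (ρ : ZMod L → F), (∀ i, ρ i ≠ 0) ∧
    (∀ i, act g (b (.inl i)) = ρ i • b (.inl (i + 1))) ∧ ∀ k, act g (b (.inr k)) = b (.inr k) := by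
  have hmm2 : (m : ZMod L) + (m : ZMod L) = 0 := mm_zero hm
  have hmm0 : (m : ZMod L) ≠ 0 := by
    have := cast_ne (L := L) (d := m) (e := 0) hm' (by omega) hm0
    simpa using this
  obtain ⟨δ, hδ, hδ'⟩ := Cfsg.Agent.Lib.SUGen.exists_trace_zero hF
  have hq : δ ^ q = -δ := by linear_combination hδ'
  obtain ⟨g, h1, h2⟩ := exists_mono2 hF hm b hvv hvz hzz 1 (pr (m : ZMod L) q δ) (fun _ => (1 : F))
    (pr_pair hF hmm2 hmm0 hδ) (by simp) (by
    rw [sign_addRight_one hm, pr_prod hF hmm2 hmm0 hδ, hq]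
    simp
    field_simp)
  refine ⟨g, pr (m : ZMod L) q δ, pr_ne hF hmm2 hmm0 hδ, h1, fun k => ?_⟩
  rw [h2, one_smul]

end elements

section nu

variable {L : ℕ} [NeZero L]

/-- A coboundary of `pr`. -/
def nu (mm : ZMod L) (q : ℕ) (x : F) (i : ZMod L) : F :=
  pr mm q x i * (pr mm q x (i + 1))⁻¹

variable (hF : Fintype.card F = q ^ 2) {mm : ZMod L} (hmm2 : mm + mm = 0) (hmm0 : mm ≠ 0) {x : F} (hx : x ≠ 0)
include hF hmm2 hmm0 hx

theorem nu_pair (i : ZMod L) : nu mm q x i * (nu mm q x (i + mm)) ^ q = 1 := by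
  have e1 := pr_pair hF hmm2 hmm0 hx i
  have e2 := pr_pair hF hmm2 hmm0 hx (i + 1)
  have e3 : i + mm + 1 = i + 1 + mm := by ring
  unfold nu
  rw [e3, mul_pow, inv_pow]
  calc pr mm q x i * (pr mm q x (i + 1))⁻¹ * ((pr mm q x (i + mm)) ^ q * ((pr mm q x (i + 1 + mm)) ^ q)⁻¹)
      = (pr mm q x i * (pr mm q x (i + mm)) ^ q) * (pr mm q x (i + 1) * (pr mm q x (i + 1 + mm)) ^ q)⁻¹ := by
        rw [mul_inv]
        ring
    _ = 1 := by
        rw [e1, e2]
        simp

theorem nu_ne (i : ZMod L) : nu mm q x i ≠ 0 :=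
  mul_ne_zero (pr_ne hF hmm2 hmm0 hx i) (inv_ne_zero (pr_ne hF hmm2 hmm0 hx _))

theorem nu_prod : ∏ i, nu mm q x i = 1 := by
  unfold nu
  rw [Finset.prod_mul_distrib, Finset.prod_inv_distrib]
  have e := Equiv.prod_comp (Equiv.addRight (1 : ZMod L)) (pr mm q x)
  simp only [Equiv.coe_addRight] at e
  rw [e]
  apply mul_inv_cancel₀
  exact Finset.prod_ne_zero_iff.2 fun i _ => pr_ne hF hmm2 hmm0 hx i

end nu

section generator

variable (hF : Fintype.card F = q ^ 2)
include hF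

theorem exists_generator : ∃ y : F, y ≠ 0 ∧ orderOf y = (q - 1) * (q + 1) := by
  obtain ⟨g, hg⟩ := IsCyclic.exists_generator (α := Fˣ)
  have h1 : orderOf g = Nat.card Fˣ := orderOf_eq_card_of_forall_mem_zpowers hg
  rw [FFNorm.card_units hF] at h1
  exact ⟨(g : F), g.ne_zero, by rw [orderOf_units, h1]⟩

theorem order_pos_of_ne {ξ : F} (hξ : ξ ≠ 0) : 0 < orderOf ξ := by
  apply orderOf_pos_iff.2
  rw [isOfFinOrder_iff_pow_eq_one]
  refine ⟨Fintype.card F - 1, ?_, FiniteField.pow_card_sub_one_eq_one ξ hξ⟩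
  have : 1 < Fintype.card F := Fintype.one_lt_card
  omega

end generator

section final

variable (hF : Fintype.card F = q ^ 2)
include hF

theorem q_facts : 3 ≤ (q - 1) * (q + 1) := by
  have hq2 : 2 ≤ q := HermCount.two_le_q hF
  have h1 : 1 ≤ q - 1 := by omega
  have h2 : 3 ≤ q + 1 := by omega
  calc 3 = 1 * 3 := by norm_num
    _ ≤ _ := Nat.mul_le_mul h1 h2

/-- The bound for a generator. -/
theorem hord_gen {y : F} (hyo : orderOf y = (q - 1) * (q + 1)) : Fintype.card F < (orderOf y + 1) ^ 2 := by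
  have hq2 : 2 ≤ q := HermCount.two_le_q hF
  rw [hF, hyo]
  obtain ⟨r, rfl⟩ : ∃ r, q = r + 2 := ⟨q - 2, by omega⟩
  have e : r + 2 - 1 = r + 1 := by omega
  rw [e]
  nlinarith [sq_nonneg r]

/-- Even dimension. -/
theorem gen_even {m : ℕ} (hm2 : 2 ≤ m) : ∃ a b : SU (2 * m) F q, Subgroup.closure ({a, b} : Set (SU (2 * m) F q)) = ⊤ := by
  classical
  haveI : NeZero (2 * m) := ⟨by omega⟩
  have hm : 2 * m = 2 * m := rfl
  have hq2 : 2 ≤ q := HermCount.two_le_q hF
  obtain ⟨b, hvv, hvz, hzz⟩ := exists_frame (L := 2 * m) (N := 2 * m) (K' := Empty) hF hm (by simp)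
  have hmm2 : ((m : ℕ) : ZMod (2 * m)) + (m : ZMod (2 * m)) = 0 := mm_zero hm
  have hmm0 : ((m : ℕ) : ZMod (2 * m)) ≠ 0 := by
    have := cast_ne (L := 2 * m) (d := m) (e := 0) (by omega) (by omega) (by omega)
    simpa using this
  set mm : ZMod (2 * m) := (m : ZMod (2 * m)) with hmmdef
  obtain ⟨y, hy0, hyo⟩ := exists_generator hF
  have hO := q_facts hF
  have hyq : (y ^ q) ^ q = y := pow_pow_self hF y
  have hyq0 : y ^ q ≠ 0 := pow_ne_zero _ hy0
  have h10 : (1 : ZMod (2 * m)) ≠ 0 := by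
    have := cast_ne (L := 2 * m) (d := 1) (e := 0) (by omega) (by omega) (by omega)
    simpa using this
  have h1m : (1 : ZMod (2 * m)) ≠ mm := by
    have := cast_ne (L := 2 * m) (d := 1) (e := m) (by omega) (by omega) (by omega)
    simpa using this
  have hn1m : (-1 : ZMod (2 * m)) ≠ mm := by
    intro h'
    apply h1m
    linear_combination -h' - hmm2
  have hn10 : (-1 : ZMod (2 * m)) ≠ 0 := neg_ne_zero.2 h10
  have hm10 : mm + 1 ≠ 0 := by
    intro h'
    apply hn1m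
    linear_combination -h'
  have hm1m : mm + 1 ≠ mm := fun h' => h10 (add_eq_left.1 h')
  set x := y ^ q with hx
  have nu0 : nu mm q x 0 = x := by
    unfold nu
    rw [zero_add, pr_zero, pr_other h10 h1m]
    simp
  have nun : nu mm q x (-1) = x⁻¹ := by
    unfold nu
    rw [neg_add_cancel, pr_zero, pr_other hn10 hn1m, one_mul]
  have num : nu mm q x mm = y⁻¹ := by
    unfold nu
    rw [pr_mm hmm0, pr_other hm10 hm1m, hyq]
    simp
  obtain ⟨a, ha, -⟩ := exists_diag hF hm b hvv hvz hzz (nu mm q x) (fun _ => (1 : F))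
    (nu_pair hF hmm2 hmm0 hyq0) (by simp) (by rw [nu_prod hF hmm2 hmm0 hyq0]; simp)
  obtain ⟨g, ρ, hρ, hg, -⟩ := exists_shift hF hm b hvv hvz hzz (by omega) (by omega)
  have hcore : ∀ w, nu mm q x (mm + 1) = w → y * w ≠ 1 → Fintype.card F < (orderOf (y * w) + 1) ^ 2 →
      ∃ a b : SU (2 * m) F q, Subgroup.closure ({a, b} : Set (SU (2 * m) F q)) = ⊤ := by
    intro w hw h1 h2
    have hy1 : y ^ 2 ≠ 1 := pow_ne_one_of_lt_orderOf (by norm_num) (by rw [hyo]; omega)
    obtain ⟨t, ht⟩ := even_core hF hm hm2 b hvv (by omega) (by omega) (nu_ne hF hmm2 hmm0 hyq0) hρ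
      ha hg (ξ := y * w) (ξ' := y⁻¹ * y⁻¹) (by rw [nu0, hw, hyq]) (by
        rw [nun, num, inv_pow, hyq]) h1 (by
        intro h'
        apply hy1
        have e : (y ^ 2)⁻¹ = 1 := by
          rw [sq, mul_inv]
          exact h'
        simpa using e) h2
    exact ⟨a, t * g, ht⟩
  by_cases hm3 : m = 2
  · -- the smallest case
    have e0 : mm + 1 + 1 = 0 := by
      have e1 : ((m + 2 : ℕ) : ZMod (2 * m)) = 0 := by
        rw [show m + 2 = 2 * m by omega]
        exact ZMod.natCast_self _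
      rw [hmmdef]
      push_cast at e1
      linear_combination e1
    have hw : nu mm q x (mm + 1) = x⁻¹ := by
      unfold nu
      rw [e0, pr_zero, pr_other hm10 hm1m, one_mul]
    refine hcore _ hw ?_ ?_
    · intro h'
      have e1 : y = x := by
        field_simp at h'
        exact h'
      have e2 : y ^ (q - 1) ≠ 1 := pow_ne_one_of_lt_orderOf (by omega) (by
        rw [hyo]
        nlinarith)
      apply e2
      have e3 : y ^ (q - 1) * y = y := by
        rw [← pow_succ, Nat.sub_add_cancel (by omega)]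
        exact e1.symm
      exact mul_right_cancel₀ hy0 (e3.trans (one_mul y).symm)
    · set ξ := y * x⁻¹ with hξ
      have hξ0 : ξ ≠ 0 := mul_ne_zero hy0 (inv_ne_zero hyq0)
      have ho := order_pos_of_ne hF hξ0
      set o := orderOf ξ with hodef
      have e1 : ξ ^ o = 1 := pow_orderOf_eq_one ξ
      have e2 : y ^ ((q - 1) * o) = 1 := by
        rw [hξ, mul_pow, inv_pow, hx, ← pow_mul] at e1
        have e3 : q * o = (q - 1) * o + o := by
          rw [← Nat.succ_mul]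
          congr 1
          omega
        rw [e3, pow_add] at e1
        have e4 : y ^ o ≠ 0 := pow_ne_zero _ hy0
        field_simp at e1
        exact e1.symm
      have e3 : (q - 1) * (q + 1) ∣ (q - 1) * o := by
        rw [← hyo]
        exact orderOf_dvd_of_pow_eq_one e2
      have e4 : q + 1 ∣ o := Nat.dvd_of_mul_dvd_mul_left (by omega) e3
      have e5 : q + 1 ≤ o := Nat.le_of_dvd ho e4
      rw [hF]
      nlinarith
  · -- the generic case
    have hm3' : 3 ≤ m := by omega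
    have e0 : mm + 1 + 1 ≠ 0 := by
      have e1 := cast_ne (L := 2 * m) (d := m + 2) (e := 0) (by omega) (by omega) (by omega)
      intro h'
      apply e1
      rw [hmmdef] at h'
      push_cast
      linear_combination h'
    have e0' : mm + 1 + 1 ≠ mm := by
      have e1 := cast_ne (L := 2 * m) (d := 2) (e := 0) (by omega) (by omega) (by omega)
      intro h'
      apply e1
      push_cast
      linear_combination h'
    have hw : nu mm q x (mm + 1) = 1 := by
      unfold nu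
      rw [pr_other e0 e0', pr_other hm10 hm1m]
      simp
    refine hcore _ hw ?_ ?_
    · rw [mul_one]
      exact pow_ne_one_of_lt_orderOf (n := 1) (by norm_num) (by rw [hyo]; omega) |> fun h' => by simpa using h'
    · rw [mul_one]
      exact hord_gen hF hyo

/-- Odd dimension, rank at least two. -/
theorem gen_odd {m : ℕ} (hm2 : 2 ≤ m) :
    ∃ a b : SU (2 * m + 1) F q, Subgroup.closure ({a, b} : Set (SU (2 * m + 1) F q)) = ⊤ := by
  classical
  haveI : NeZero (2 * m) := ⟨by omega⟩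
  have hm : 2 * m = 2 * m := rfl
  have hq2 : 2 ≤ q := HermCount.two_le_q hF
  obtain ⟨b, hvv, hvz, hzz⟩ := exists_frame (L := 2 * m) (N := 2 * m + 1) (K' := Unit) hF hm (by simp)
  have hmm2 : ((m : ℕ) : ZMod (2 * m)) + (m : ZMod (2 * m)) = 0 := mm_zero hm
  have hmm0 : ((m : ℕ) : ZMod (2 * m)) ≠ 0 := by
    have := cast_ne (L := 2 * m) (d := m) (e := 0) (by omega) (by omega) (by omega)
    simpa using this
  set mm : ZMod (2 * m) := (m : ZMod (2 * m)) with hmmdef
  obtain ⟨y, hy0, hyo⟩ := exists_generator hF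
  have hO := q_facts hF
  have hyq : (y ^ q) ^ q = y := pow_pow_self hF y
  have hyq0 : y ^ q ≠ 0 := pow_ne_zero _ hy0
  have h10 : (1 : ZMod (2 * m)) ≠ 0 := by
    have := cast_ne (L := 2 * m) (d := 1) (e := 0) (by omega) (by omega) (by omega)
    simpa using this
  have h1m : (1 : ZMod (2 * m)) ≠ mm := by
    have := cast_ne (L := 2 * m) (d := 1) (e := m) (by omega) (by omega) (by omega)
    simpa using this
  have hn1m : (-1 : ZMod (2 * m)) ≠ mm := by
    intro h'
    apply h1m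
    linear_combination -h' - hmm2
  have hn10 : (-1 : ZMod (2 * m)) ≠ 0 := neg_ne_zero.2 h10
  set x := y ^ q with hx
  have nu0 : nu mm q x 0 = x := by
    unfold nu
    rw [zero_add, pr_zero, pr_other h10 h1m]
    simp
  have nun : nu mm q x (-1) = x⁻¹ := by
    unfold nu
    rw [neg_add_cancel, pr_zero, pr_other hn10 hn1m, one_mul]
  obtain ⟨a, ha, haz⟩ := exists_diag hF hm b hvv hvz hzz (nu mm q x) (fun _ => (1 : F))
    (nu_pair hF hmm2 hmm0 hyq0) (by simp) (by rw [nu_prod hF hmm2 hmm0 hyq0]; simp)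
  obtain ⟨g, ρ, hρ, hg, hgz⟩ := exists_shift hF hm b hvv hvz hzz (by omega) (by omega)
  have hy1 : y ≠ 1 := by
    have := pow_ne_one_of_lt_orderOf (x := y) (n := 1) (by norm_num) (by rw [hyo]; omega)
    simpa using this
  obtain ⟨t, ht⟩ := odd_core hF hm (by omega) b hvv hvz hzz (by omega) (by omega) (νz := 1) (ρz := 1)
    (nu_ne hF hmm2 hmm0 hyq0) hρ one_ne_zero one_ne_zero ha (haz ()) hg (by rw [hgz, one_smul])
    (ξ := y) (ξ' := y⁻¹) (by rw [nu0, hyq, mul_one]) (by rw [nun, inv_pow, hyq, mul_one]) hy1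
    (by simpa using hy1) (hord_gen hF hyo)
  exact ⟨a, t * g, ht⟩

/-- Dimension three. -/
theorem gen_three (hq3 : 3 ≤ q) :
    ∃ a b : SU (2 * 1 + 1) F q, Subgroup.closure ({a, b} : Set (SU (2 * 1 + 1) F q)) = ⊤ := by
  classical
  have hm : 2 * 1 = 2 * 1 := rfl
  obtain ⟨b, hvv, hvz, hzz⟩ := exists_frame (L := 2 * 1) (N := 2 * 1 + 1) (K' := Unit) (m := 1) hF hm (by simp)
  have hmm2 : ((1 : ℕ) : ZMod (2 * 1)) + ((1 : ℕ) : ZMod (2 * 1)) = 0 := mm_zero hm
  have hmm0 : ((1 : ℕ) : ZMod (2 * 1)) ≠ 0 := by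
    have := cast_ne (L := 2 * 1) (d := 1) (e := 0) (by omega) (by omega) (by omega)
    simpa using this
  set mm : ZMod (2 * 1) := ((1 : ℕ) : ZMod (2 * 1)) with hmmdef
  have hn : (-1 : ZMod (2 * 1)) = mm := by
    rw [hmmdef]
    decide
  obtain ⟨y, hy0, hyo⟩ := exists_generator hF
  have hyq : (y ^ q) ^ q = y := pow_pow_self hF y
  have hyq0 : y ^ q ≠ 0 := pow_ne_zero _ hy0
  have hOq : (q - 1) * (q + 1) = q ^ 2 - 1 := by
    obtain ⟨r, rfl⟩ : ∃ r, q = r + 1 := ⟨q - 1, by omega⟩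
    simp only [Nat.add_sub_cancel]
    have : (r + 1) ^ 2 = r * (r + 1 + 1) + 1 := by ring
    rw [this, Nat.add_sub_cancel]
  have hz : ((y ^ q / y) ^ q) = y / y ^ q := by
    rw [div_pow, hyq]
  obtain ⟨a, ha, haz⟩ := exists_diag hF hm b hvv hvz hzz (pr mm q y) (fun _ => y ^ q / y)
    (pr_pair hF hmm2 hmm0 hy0) (by
      intro k
      rw [hz]
      field_simp) (by
      rw [pr_prod hF hmm2 hmm0 hy0]
      simp
      field_simp)
  obtain ⟨g, ρ, hρ, hg, hgz⟩ := exists_shift hF hm b hvv hvz hzz (by omega) (by omega)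
  have e1 : y ^ (2 * q - 1) ≠ 1 := pow_ne_one_of_lt_orderOf (by omega) (by
    rw [hyo]
    obtain ⟨r, rfl⟩ : ∃ r, q = r + 3 := ⟨q - 3, by omega⟩
    have e0 : r + 3 - 1 = r + 2 := by omega
    rw [e0]
    have e00 : 2 * (r + 3) - 1 = 2 * r + 5 := by omega
    rw [e00]
    nlinarith)
  have e2 : y ^ (q - 2) ≠ 1 := pow_ne_one_of_lt_orderOf (by omega) (by
    rw [hyo]
    obtain ⟨r, rfl⟩ : ∃ r, q = r + 3 := ⟨q - 3, by omega⟩
    have e0 : r + 3 - 1 = r + 2 := by omega
    rw [e0]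
    have e00 : r + 3 - 2 = r + 1 := by omega
    rw [e00]
    nlinarith)
  have hξ : y ^ (2 * q - 1) = pr mm q y 0 ^ q * (y ^ q / y) := by
    rw [pr_zero, ← mul_div_assoc, eq_div_iff hy0, ← pow_succ, ← pow_add]
    congr 1
    omega
  have hξ' : y ^ (q - 2) = pr mm q y (-1) ^ q * (y ^ q / y) := by
    rw [hn, pr_mm hmm0, inv_pow, hyq]
    have e3 : y ^ (q - 2) * y ^ 2 = y ^ q := by
      rw [← pow_add]
      congr 1
      omega
    field_simp
    rw [← e3]
  have hord : Fintype.card F < (orderOf (y ^ (2 * q - 1)) + 1) ^ 2 := by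
    have hξ0 : y ^ (2 * q - 1) ≠ 0 := pow_ne_zero _ hy0
    have ho := order_pos_of_ne hF hξ0
    set o := orderOf (y ^ (2 * q - 1)) with hodef
    have e3 : (y ^ (2 * q - 1)) ^ o = 1 := pow_orderOf_eq_one _
    rw [← pow_mul] at e3
    have e4 : (q - 1) * (q + 1) ∣ (2 * q - 1) * o := by
      rw [← hyo]
      exact orderOf_dvd_of_pow_eq_one e3
    rw [hF]
    obtain ⟨r, rfl⟩ : ∃ r, q = r + 3 := ⟨q - 3, by omega⟩
    have e0 : r + 3 - 1 = r + 2 := by omega
    have e00 : 2 * (r + 3) - 1 = 2 * r + 5 := by omega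
    rw [e0, e00] at e4
    have e5 : (r + 2) * (r + 3 + 1) ∣ 3 * o := by
      have e6 : (r + 2) * (r + 3 + 1) ∣ (2 * r + 7) * ((2 * r + 5) * o) := Dvd.dvd.mul_left e4 _
      have e7 : (2 * r + 7) * ((2 * r + 5) * o) = (r + 2) * (r + 3 + 1) * (4 * o) + 3 * o := by ring
      rw [e7] at e6
      exact (Nat.dvd_add_right (Dvd.intro _ rfl)).1 e6
    have e8 := Nat.le_of_dvd (by omega) e5
    by_contra hcon
    push Not at hcon
    have e9 : o + 1 ≤ r + 3 := by
      by_contra h'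
      push Not at h'
      nlinarith
    nlinarith
  obtain ⟨t, ht⟩ := odd_core hF hm (by omega) b hvv hvz hzz (by omega) (by omega) (νz := y ^ q / y) (ρz := 1)
    (pr_ne hF hmm2 hmm0 hy0) hρ (div_ne_zero hyq0 hy0) one_ne_zero ha (haz ()) hg (by rw [hgz, one_smul])
    hξ hξ' e1 e2 hord
  exact ⟨a, t * g, ht⟩

/-- Two generation of `SU`. -/
theorem gen_SU (hn : 3 ≤ N) (h32 : N = 3 → q ≠ 2) :
    ∃ a b : SU N F q, Subgroup.closure ({a, b} : Set (SU N F q)) = ⊤ := by
  obtain ⟨m, rfl | rfl⟩ := Nat.even_or_odd' N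
  · exact gen_even hF (by omega)
  · by_cases hm : m = 1
    · subst hm
      have hq2 : 2 ≤ q := HermCount.two_le_q hF
      have hq3 : q ≠ 2 := h32 rfl
      exact gen_three hF (by omega)
    · exact gen_odd hF (by omega)

end final

end Cfsg.Agent.Lib.SU2GenE
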