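import Mathlib
import Cfsg.Agent.Lib.PrsSVJ
import Cfsg.Agent.Lib.PrsSVL
import Cfsg.Agent.Lib.PrsSVM
import Cfsg.Agent.Lib.PrsSVN
import Cfsg.Agent.Lib.SU2GenE
import Cfsg.Agent.Lib.PrsU3K

/-!
# Presentations of special unitary groups: the final statements
-/

set_option autoImplicit false

noncomputable section

namespace Cfsg.Agent.Lib.PrsSU

open Subgroup Cfsg.Agent.Lib.PrsU3

variable {F : Type*} [Field F] [Fintype F] {q : ℕ}

/-- From a presentation of `SU₃` on two generators to the input. -/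
theorem gjin_of_two (hF : Fintype.card F = q ^ 2) (R : Finset (FreeGroup (Fin 2))) (hR : R.card ≤ 17)
    (E : PresentedGroup (R : Set (FreeGroup (Fin 2))) ≃* Cfsg.SU 3 F q) : GJIn hF := by
  classical
  have hσ : Cfsg.Agent.Lib.HermForm.frobQ hF = UnitaryBasic.sigma hF := by
    ext x
    rfl
  obtain ⟨e⟩ := GJ_equiv hF
  unfold GJIn
  rw [hσ]
  constructor
  · obtain ⟨R', h1, h2⟩ := pres_to_fin (Equiv.refl (Fin 2)) 1 R (E.trans e.symm)
    exact ⟨R', by omega, h2⟩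
  · exact ⟨_, _, two_gen_of_pres R (E.trans e.symm)⟩

/-- The input of dimension three. -/
theorem gj_input (hF : Fintype.card F = q ^ 2) : GJIn hF := by
  classical
  by_cases h2 : q = 2
  · subst h2
    obtain ⟨R, hR, ⟨E⟩⟩ := su32_pres hF
    exact gjin_of_two hF R (by omega) E
  by_cases h3 : q = 3
  · subst h3
    obtain ⟨R, hR, ⟨E⟩⟩ := su33_pres hF
    exact gjin_of_two hF R (by omega) E
  by_cases h5 : q = 5
  · subst h5
    obtain ⟨R, hR, ⟨E⟩⟩ := su35_pres hF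
    exact gjin_of_two hF R (by omega) E
  have hσ : Cfsg.Agent.Lib.HermForm.frobQ hF = UnitaryBasic.sigma hF := by
    ext x
    rfl
  obtain ⟨e⟩ := GJ_equiv hF
  unfold GJIn
  rw [hσ]
  constructor
  · exact pres_model q hF h2 h3 h5
  · obtain ⟨a, b, hab⟩ := Cfsg.Agent.Lib.SU2GenE.gen_SU (F := F) (q := q) (N := 3) hF (by norm_num) (fun _ => h2)
    refine ⟨e.symm a, e.symm b, ?_⟩
    rw [eq_top_iff]
    intro x _
    have hx : e x ∈ closure ({a, b} : Set (Cfsg.SU 3 F q)) := by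
      rw [hab]
      exact mem_top _
    have hmap : closure ({a, b} : Set (Cfsg.SU 3 F q)) ≤ (closure ({e.symm a, e.symm b} : Set (GJ (UnitaryBasic.sigma hF)))).comap (e.symm.toMonoidHom) := by
      rw [closure_le]
      intro y hy
      rcases hy with rfl | hy
      · exact Subgroup.subset_closure (Or.inl rfl)
      · rw [Set.mem_singleton_iff] at hy
        subst hy
        exact Subgroup.subset_closure (Or.inr rfl)
    have := hmap hx
    simpa using this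

/-- The final statement. -/
theorem su_psu_final (hF : Fintype.card F = q ^ 2) (n : ℕ) (hn : 4 ≤ n) :
    (∃ rels : Finset (FreeGroup (Fin 6)), rels.card ≤ 39 ∧ Nonempty (PresentedGroup (↑rels : Set (FreeGroup (Fin 6))) ≃* ↥(Cfsg.SU n F q))) ∧ (∃ rels : Finset (FreeGroup (Fin 6)), rels.card ≤ 40 ∧ Nonempty (PresentedGroup (↑rels : Set (FreeGroup (Fin 6))) ≃* Cfsg.PSU n F q)) ∧
    (∃ rels : Finset (FreeGroup (Fin 6)), rels.card ≤ 35 ∧ Nonempty (PresentedGroup (↑rels : Set (FreeGroup (Fin 6))) ≃* ↥(Cfsg.SU 4 F q))) ∧ (∃ rels : Finset (FreeGroup (Fin 6)), rels.card ≤ 35 ∧ Nonempty (PresentedGroup (↑rels : Set (FreeGroup (Fin 6))) ≃* ↥(Cfsg.SU 5 F q))) ∧ (∃ rels : Finset (FreeGroup (Fin 6)), rels.card ≤ 36 ∧ Nonempty (PresentedGroup (↑rels : Set (FreeGroup (Fin 6))) ≃* Cfsg.PSU 4 F q)) := by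
  have H := gj_input hF
  obtain ⟨R, h1, h2, ⟨E⟩⟩ := su_all H n hn
  obtain ⟨R4, h41, h42, ⟨E4⟩⟩ := su_all H 4 (by norm_num)
  obtain ⟨R5, h51, h52, ⟨E5⟩⟩ := su_all H 5 (by norm_num)
  obtain ⟨R', h1', h2'⟩ := psu_of_su hF (by omega) R E
  obtain ⟨R4', h41', h42'⟩ := psu_of_su hF (by norm_num) R4 E4
  have hR4 := h42 (Or.inl rfl)
  have hR5 := h52 (Or.inr rfl)
  exact ⟨⟨R, h1, ⟨E⟩⟩, ⟨R', by omega, h2'⟩, ⟨R4, hR4, ⟨E4⟩⟩, ⟨R5, hR5, ⟨E5⟩⟩, ⟨R4', by omega, h42'⟩⟩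

end Cfsg.Agent.Lib.PrsSU
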