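import Mathlib
import Cfsg.Agent.Lib.PrsSVO
import Cfsg.Agent.Lib.PrsPSLTwo

/-!
# Presentations of projective special unitary groups on two generators
-/

set_option autoImplicit false

noncomputable section

namespace Cfsg.Agent.Lib.PrsSU

open Subgroup Cfsg.Agent.Lib.PrsU3

variable {F : Type*} [Field F] [Fintype F] {q : ℕ}

/-- The central quotient is generated by two elements. -/
theorem psu_two_gen (hF : Fintype.card F = q ^ 2) (n : ℕ) (hn : 3 ≤ n) (h32 : ¬ (n = 3 ∧ q = 2)) :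
    ∃ a b : Cfsg.PSU n F q, closure ({a, b} : Set (Cfsg.PSU n F q)) = ⊤ := by
  classical
  obtain ⟨a, b, hab⟩ := Cfsg.Agent.Lib.SU2GenE.gen_SU (F := F) (q := q) (N := n) hF hn (fun h h' => h32 ⟨h, h'⟩)
  let π : Cfsg.SU n F q →* Cfsg.PSU n F q := QuotientGroup.mk' _
  refine ⟨π a, π b, ?_⟩
  have hs : Function.Surjective π := QuotientGroup.mk'_surjective _
  have h := congrArg (Subgroup.map π) hab
  rw [MonoidHom.map_closure, Set.image_pair, ← MonoidHom.range_eq_map, MonoidHom.range_eq_top.2 hs] at h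
  exact h

/-- The final statement on two generators. -/
theorem psu_two_final (hF : Fintype.card F = q ^ 2) (n : ℕ) (hn : 3 ≤ n) (h32 : ¬ (n = 3 ∧ q = 2)) :
    ∃ rels : Finset (FreeGroup (Fin 2)), rels.card ≤ 80 ∧ Nonempty (PresentedGroup (↑rels : Set (FreeGroup (Fin 2))) ≃* Cfsg.PSU n F q) := by
  classical
  obtain ⟨a, b, hab⟩ := psu_two_gen hF n hn h32
  have H := gj_input hF
  by_cases h3 : n = 3
  · subst h3
    obtain ⟨⟨R, hR, ⟨E⟩⟩, -⟩ := H
    have hσ : Cfsg.Agent.Lib.HermForm.frobQ hF = UnitaryBasic.sigma hF := by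
      ext x
      rfl
    rw [hσ] at E
    obtain ⟨e⟩ := GJ_equiv hF
    obtain ⟨R', h1, ⟨E'⟩⟩ := psu_of_su hF (by norm_num) R (E.trans e)
    obtain ⟨R'', h2, h3⟩ := Cfsg.Agent.Lib.PrsPSLTwo.two_gen_pres R' E' a b hab
    exact ⟨R'', by omega, h3⟩
  · obtain ⟨R, h1, -, ⟨E⟩⟩ := su_all H n (by omega)
    obtain ⟨R', h2, ⟨E'⟩⟩ := psu_of_su hF (by omega) R E
    obtain ⟨R'', h4, h5⟩ := Cfsg.Agent.Lib.PrsPSLTwo.two_gen_pres R' E' a b hab
    exact ⟨R'', by omega, h5⟩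

end Cfsg.Agent.Lib.PrsSU
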