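import Mathlib
import Cfsg.Agent.Lib.QBaerA

/-!
# `q`-elements with classes of prime power size: mixed types do not occur; the `q`-power case
-/

set_option autoImplicit false
set_option linter.unusedSectionVars false
set_option linter.unusedVariables false
set_option linter.style.haveILetI false

namespace Cfsg.Agent.Lib.QBaerB

open Cfsg Cfsg.Agent.Lib.PCore Cfsg.Agent.Lib.ClassPPow Cfsg.Agent.Lib.CoprimeClass Subgroup
open Cfsg.Agent.Lib.QBaerA

universe u

variable {G : Type u} [Group G] [Finite G]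

/-- If all `q`-elements lie in a subgroup, its index is prime to `q`. -/
theorem not_dvd_index_of_all {q : ℕ} [hq : Fact q.Prime] (O : Subgroup G)
    (hall : ∀ z : G, (∃ k, orderOf z = q ^ k) → z ∈ O) : ¬ q ∣ O.index := by
  obtain ⟨P⟩ : Nonempty (Sylow q G) := inferInstance
  have hle : (P : Subgroup G) ≤ O := by
    intro t ht
    apply hall
    obtain ⟨k, hk⟩ := (IsPGroup.iff_orderOf.mp P.2) ⟨t, ht⟩
    exact ⟨k, by simpa using hk⟩
  intro h
  exact P.not_dvd_index (h.trans (index_dvd_of_le hle))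

/-- A `q`-group is not covered by the conjugates of a subgroup and a subgroup. -/
theorem sup_eq_of_cover {q : ℕ} [hq : Fact q.Prime] (O P Z : Subgroup G) (hO : IsPGroup q O)
    (hP : P ≤ O) (hZ : Z ≤ O) (h : ∀ z ∈ O, z ∈ Z ∨ ∃ u ∈ O, u * z * u⁻¹ ∈ P) : P ⊔ Z = O := by
  by_contra hne
  have hle : P ⊔ Z ≤ O := sup_le hP hZ
  have hsub : (P ⊔ Z).subgroupOf O ≠ ⊤ := by
    intro htop
    apply hne
    exact le_antisymm hle (subgroupOf_eq_top.mp htop)
  obtain ⟨M, hM, hle'⟩ : ∃ M : Subgroup O, IsCoatom M ∧ (P ⊔ Z).subgroupOf O ≤ M := by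
    rcases eq_top_or_exists_le_coatom ((P ⊔ Z).subgroupOf O) with h' | h'
    · exact absurd h' hsub
    · exact h'
  have hMn : M.Normal := by
    have h1 := Cfsg.Agent.Lib.Frat.commutator_and_pow_mem_of_isCoatom hO hM
    exact Cfsg.Agent.Lib.Frat.normal_of_commutator_le h1.1
  apply hM.1
  rw [eq_top_iff]
  rintro ⟨z, hz⟩ -
  rcases h z hz with h1 | ⟨u, hu, h1⟩
  · apply hle'
    rw [mem_subgroupOf]
    exact (le_sup_right : Z ≤ P ⊔ Z) h1
  · have h2 : (⟨u, hu⟩ * ⟨z, hz⟩ * ⟨u, hu⟩⁻¹ : O) ∈ M := by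
      apply hle'
      rw [mem_subgroupOf]
      exact (le_sup_left : P ≤ P ⊔ Z) h1
    have h3 := hMn.conj_mem _ h2 (⟨u, hu⟩⁻¹ : O)
    have h4 : (⟨u, hu⟩⁻¹ * (⟨u, hu⟩ * ⟨z, hz⟩ * ⟨u, hu⟩⁻¹) * (⟨u, hu⟩⁻¹)⁻¹ : O) = ⟨z, hz⟩ := by group
    rwa [h4] at h3

/-- An element of `O` with class of `q`-power size is `O`-conjugate into the centralizer of a Sylow
`s`-subgroup, when `O` is normal of index prime to `q`. -/
theorem exists_conj_cent {q s : ℕ} [hq : Fact q.Prime] [hs : Fact s.Prime] (hsq : s ≠ q)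
    (O : Subgroup G) (hOn : O.Normal) (hOi : ¬ q ∣ O.index) (T : Sylow s G) {z : G} (hz : z ∈ O)
    (hc : ∃ a, cs z = q ^ a) : ∃ u ∈ O, u * z * u⁻¹ ∈ O ⊓ centralizer ((T : Subgroup G) : Set G) := by
  obtain ⟨a, ha⟩ := hc
  have hd : ¬ s ∣ cs z := by
    rw [ha]
    intro h
    exact hsq ((Nat.prime_dvd_prime_iff_eq hs.out hq.out).mp (hs.out.dvd_of_dvd_pow h))
  obtain ⟨g, hg⟩ := Cfsg.Agent.Lib.Hall.exists_conj_le_of_not_dvd_index T.2 hd
  have hcop : Nat.Coprime O.index (cs z) := by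
    rw [ha]
    exact Nat.Coprime.pow_right _ ((Nat.Prime.coprime_iff_not_dvd hq.out).mpr hOi).symm
  obtain ⟨u, hu, c, hc', rfl⟩ := exists_mul_of_coprime O _ hcop g
  have hcz : c * z = z * c := mem_cent.mp hc'
  refine ⟨u, hu, mem_inf.mpr ⟨hOn.conj_mem z hz u, ?_⟩⟩
  rw [mem_centralizer_iff]
  intro τ hτ
  have h1 := hg hτ
  rw [mem_conj_smul_iff, mem_cent] at h1
  -- `(u c)⁻¹ τ (u c)` commutes with `z`
  have h2 : c * z * c⁻¹ = z := by rw [hcz]; group
  calc τ * (u * z * u⁻¹) = τ * (u * (c * z * c⁻¹) * u⁻¹) := by rw [h2]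
    _ = (u * c) * (((u * c)⁻¹ * τ * (u * c)) * z) * (u * c)⁻¹ := by group
    _ = (u * c) * (z * ((u * c)⁻¹ * τ * (u * c))) * (u * c)⁻¹ := by rw [h1]
    _ = (u * (c * z * c⁻¹) * u⁻¹) * τ := by group
    _ = (u * z * u⁻¹) * τ := by rw [h2]

/-- If the commutators of a `q`-element lie in `O_q(G)`, the element lies in `O_q(G)`. -/
theorem mem_pCore_of_comm {q : ℕ} [hq : Fact q.Prime] {y : G} (hy : ∃ k, orderOf y = q ^ k)
    (h : ∀ g, g * y * g⁻¹ * y⁻¹ ∈ pCore q G) : y ∈ pCore q G := by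
  set O := pCore q G
  have hP : IsPGroup q (zpowers y) := by
    obtain ⟨k, hk⟩ := hy
    rw [IsPGroup.iff_card, Nat.card_zpowers, hk]
    exact ⟨k, rfl⟩
  have hO : IsPGroup q O := isPGroup_pCore q
  have h1 : IsPGroup q (O ⊔ zpowers y : Subgroup G) := hO.to_sup_of_normal_left hP
  have hn : (O ⊔ zpowers y : Subgroup G).Normal := by
    refine ⟨fun x hx g => ?_⟩
    have hle' : (O ⊔ zpowers y) ≤ (O ⊔ zpowers y).comap (MulAut.conj g).toMonoidHom := by
      refine sup_le ?_ ?_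
      · intro a ha
        exact (le_sup_left : O ≤ O ⊔ zpowers y) ((inferInstance : O.Normal).conj_mem a ha g)
      · rw [zpowers_le]
        show g * y * g⁻¹ ∈ O ⊔ zpowers y
        have h2 : g * y * g⁻¹ = (g * y * g⁻¹ * y⁻¹) * y := by group
        rw [h2]
        exact mul_mem ((le_sup_left : O ≤ O ⊔ zpowers y) (h g))
          ((le_sup_right : zpowers y ≤ O ⊔ zpowers y) (mem_zpowers y))
    exact hle' hx
  have h2 := le_pCore hn h1
  exact h2 ((le_sup_right : zpowers y ≤ O ⊔ zpowers y) (mem_zpowers y))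

/-- **Mixed types do not occur**: there is no pair of `q`-elements with class sizes powers of `q`
and of another prime, all non-central. -/
theorem no_mixed {q : ℕ} [hq : Fact q.Prime]
    (hBaer : ∀ x : G, (∃ k, orderOf x = q ^ k) → ∃ r a, r.Prime ∧ cs x = r ^ a)
    {x y : G} (hx : ∃ k, orderOf x = q ^ k) (hy : ∃ k, orderOf y = q ^ k) {s a b : ℕ}
    (hs : s.Prime) (hsq : s ≠ q) (ha : 1 ≤ a) (hb : 1 ≤ b)
    (hcx : cs x = q ^ a) (hcy : cs y = s ^ b) : False := by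
  classical
  haveI : Fact s.Prime := ⟨hs⟩
  have hqp := hq.out
  set O := pCore q G with hOdef
  have hOn : O.Normal := inferInstance
  have hOp : IsPGroup q O := isPGroup_pCore q
  have hxO : x ∈ O := mem_pCore_of_pow x hx ⟨a, hcx⟩
  have hne1 : ∀ {c : ℕ} {p : ℕ}, p.Prime → 1 ≤ c → p ^ c ≠ 1 := by
    intro c p hp hc h
    have : 2 ^ 1 ≤ p ^ c := le_trans (Nat.pow_le_pow_left hp.two_le 1)
      (Nat.pow_le_pow_right hp.pos hc)
    omega
  have hnd : ∀ {t e : ℕ}, t.Prime → t ≠ q → ¬ q ∣ t ^ e := by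
    intro t e ht htq h
    exact htq ((Nat.prime_dvd_prime_iff_eq hqp ht).mp (hqp.dvd_of_dvd_pow h)).symm
  -- S2
  have hstar : ∀ {y' : G} {t e : ℕ}, (∃ k, orderOf y' = q ^ k) → t.Prime → t ≠ q → 1 ≤ e →
      cs y' = t ^ e → y' ∈ O := by
    intro y' t e hy' ht htq he hcy'
    haveI : Fact t.Prime := ⟨ht⟩
    have hd : ¬ q ∣ cs y' := by rw [hcy']; exact hnd ht htq
    have hOle : O ≤ centralizer ({y'} : Set G) :=
      Cfsg.Agent.Lib.Hall.le_of_normal_of_not_dvd_index hOp hd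
    have hxy : x * y' = y' * x := mem_cent.mp (hOle hxO)
    rcases pair_lemma hxy hqp ht (Ne.symm htq) ha he hcx hcy' (hBaer _ (qelt_mul hxy hx hy')) with
      ⟨h1, h2⟩ | ⟨h1, h2⟩
    · have h3 : stabR x ≤ O := le_pCore inferInstance h2
      exact mem_pCore_of_comm hy' fun g => h3 (h1 g)
    · exfalso
      apply hne1 hqp ha
      rw [← hcx]
      apply cs_eq_one_of_comm
      intro g
      obtain ⟨i, hi⟩ := h2 ⟨_, h1 g⟩
      have hi' : (g * x * g⁻¹ * x⁻¹) ^ (t ^ i) = 1 := by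
        have := congrArg Subtype.val hi
        simpa using this
      have h5 : g * x * g⁻¹ * x⁻¹ ∈ O := mul_mem (hOn.conj_mem x hxO g) (inv_mem hxO)
      obtain ⟨j, hj⟩ := hOp ⟨_, h5⟩
      have hj' : (g * x * g⁻¹ * x⁻¹) ^ (q ^ j) = 1 := by
        have := congrArg Subtype.val hj
        simpa using this
      exact eq_one_of_pow_pow ht hqp htq hi' hj'
  -- S3
  have hall : ∀ z : G, (∃ k, orderOf z = q ^ k) → z ∈ O := by
    intro z hz
    obtain ⟨t, e, ht, hte⟩ := hBaer z hz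
    by_cases htq : t = q
    · subst htq
      exact mem_pCore_of_pow z hz ⟨e, hte⟩
    by_cases he : e = 0
    · subst he
      exact mem_pCore_of_pow z hz ⟨0, by simpa using hte⟩
    · exact hstar hz ht htq (by omega) hte
  have hOi : ¬ q ∣ O.index := not_dvd_index_of_all O hall
  -- S5
  set Zc : Subgroup G := O ⊓ centralizer (O : Set G) with hZc
  have hZn : Zc.Normal := by
    haveI : (centralizer (O : Set G)).Normal := Subgroup.normal_centralizer
    exact Subgroup.normal_inf_normal _ _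
  have hZcm : ∀ z, z ∈ Zc ↔ z ∈ O ∧ ∀ w ∈ O, w * z = z * w := by
    intro z
    rw [mem_inf, mem_centralizer_iff]
    rfl
  have hzq : ∀ z ∈ O, z ∉ Zc → ∃ c, cs z = q ^ c := by
    intro z hz hzZ
    have hzq' : ∃ k, orderOf z = q ^ k := by
      obtain ⟨k, hk⟩ := (IsPGroup.iff_orderOf.mp hOp) ⟨z, hz⟩
      exact ⟨k, by simpa using hk⟩
    obtain ⟨t, e, ht, hte⟩ := hBaer z hzq'
    by_cases htq : t = q
    · subst htq
      exact ⟨e, hte⟩
    exfalso
    apply hzZ
    have hd : ¬ q ∣ cs z := by rw [hte]; exact hnd ht htq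
    have hOle : O ≤ centralizer ({z} : Set G) :=
      Cfsg.Agent.Lib.Hall.le_of_normal_of_not_dvd_index hOp hd
    exact (hZcm z).mpr ⟨hz, fun w hw => mem_cent.mp (hOle hw)⟩
  -- S6
  obtain ⟨T⟩ : Nonempty (Sylow s G) := inferInstance
  set CT : Subgroup G := O ⊓ centralizer ((T : Subgroup G) : Set G) with hCT
  have hcov : ∀ z ∈ O, z ∈ Zc ∨ ∃ u ∈ O, u * z * u⁻¹ ∈ CT := by
    intro z hz
    by_cases hzZ : z ∈ Zc
    · exact Or.inl hzZ
    · exact Or.inr (exists_conj_cent hsq O hOn hOi T hz (hzq z hz hzZ))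
  have hsup : CT ⊔ Zc = O := sup_eq_of_cover O CT Zc hOp inf_le_left inf_le_left hcov
  -- S7
  have hxZ : x ∉ Zc := by
    intro h
    have h1 : O ≤ centralizer ({x} : Set G) := by
      intro w hw
      exact mem_cent.mpr (((hZcm x).mp h).2 w hw)
    have h2 : cs x ∣ O.index := index_dvd_of_le h1
    rw [hcx] at h2
    exact hOi ((dvd_pow_self q (by omega)).trans h2)
  -- S8
  have hyO : y ∈ O := hall y hy
  have hyZ : y ∈ Zc := by
    have hd : ¬ q ∣ cs y := by rw [hcy]; exact hnd hs hsq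
    have hOle : O ≤ centralizer ({y} : Set G) :=
      Cfsg.Agent.Lib.Hall.le_of_normal_of_not_dvd_index hOp hd
    exact (hZcm y).mpr ⟨hyO, fun w hw => mem_cent.mp (hOle hw)⟩
  -- S9
  obtain ⟨d, hdCT, hdZ⟩ : ∃ d ∈ CT, d ∉ Zc := by
    by_contra hno
    push Not at hno
    have h1 : CT ≤ Zc := hno
    rw [sup_eq_right.mpr h1] at hsup
    apply hxZ
    rw [hsup]
    exact hxO
  have hdO : d ∈ O := (mem_inf.mp hdCT).1
  -- S10
  have ht₀O : d * y ∈ O := mul_mem hdO hyO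
  have ht₀Z : d * y ∉ Zc := by
    intro h
    apply hdZ
    have h1 : d = (d * y) * y⁻¹ := by group
    rw [h1]
    exact mul_mem h (inv_mem hyZ)
  obtain ⟨u, huO, hu⟩ := (hcov _ ht₀O).resolve_left ht₀Z
  have huu : u ∈ (CT ⊔ Zc : Subgroup G) := by rw [hsup]; exact huO
  rw [← SetLike.mem_coe, Subgroup.mul_normal, Set.mem_mul] at huu
  obtain ⟨d', hd', z', hz', rfl⟩ := huu
  have hd'O : d' ∈ O := (mem_inf.mp hd').1
  have hzcomm : ∀ w ∈ O, w * z' = z' * w := ((hZcm z').mp hz').2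
  have hycomm : ∀ w ∈ O, w * y = y * w := ((hZcm y).mp hyZ).2
  have h1 : d' * z' * (d * y) * (d' * z')⁻¹ = (d' * d * d'⁻¹) * y := by
    have h2 : z' * (d * y) * z'⁻¹ = d * y := by
      rw [← hzcomm _ ht₀O]
      group
    have h3 : d' * y * d'⁻¹ = y := by
      rw [hycomm d' hd'O]
      group
    calc d' * z' * (d * y) * (d' * z')⁻¹ = d' * (z' * (d * y) * z'⁻¹) * d'⁻¹ := by group
      _ = d' * (d * y) * d'⁻¹ := by rw [h2]
      _ = (d' * d * d'⁻¹) * (d' * y * d'⁻¹) := by group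
      _ = _ := by rw [h3]
  rw [h1] at hu
  have hconjd : d' * d * d'⁻¹ ∈ CT := mul_mem (mul_mem hd' hdCT) (inv_mem hd')
  have hyCT : y ∈ CT := by
    have h2 : y = (d' * d * d'⁻¹)⁻¹ * ((d' * d * d'⁻¹) * y) := by group
    rw [h2]
    exact mul_mem (inv_mem hconjd) hu
  -- S11
  have hTle : (T : Subgroup G) ≤ centralizer ({y} : Set G) := by
    intro τ hτ
    have h2 := (mem_inf.mp hyCT).2
    rw [mem_centralizer_iff] at h2
    exact mem_cent.mpr (h2 τ hτ)
  have h2 : cs y ∣ (T : Subgroup G).index := index_dvd_of_le hTle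
  rw [hcy] at h2
  exact T.not_dvd_index ((dvd_pow_self s (by omega)).trans h2)

/-- **Burnside's transfer for a normal subgroup with central `q`-elements.** -/
theorem exists_complement_central {q : ℕ} [hq : Fact q.Prime] (C : Subgroup G) (hCn : C.Normal)
    (h : ∀ c ∈ C, (∃ k, orderOf c = q ^ k) → ∀ d ∈ C, d * c = c * d) :
    ∃ K : Subgroup G, K.Normal ∧ K ≤ C ∧ (Nat.card K).Coprime q ∧
      (∀ y ∈ C, (orderOf y).Coprime q → y ∈ K) ∧
      ∀ y ∈ C, ∃ k ∈ K, ∃ z ∈ C, y = k * z ∧ ∃ i, orderOf z = q ^ i := by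
  classical
  obtain ⟨P⟩ : Nonempty (Sylow q C) := inferInstance
  have hPq : ∀ p : C, p ∈ (P : Subgroup C) → ∃ i, orderOf (p : G) = q ^ i := by
    intro p hp
    obtain ⟨k, hk⟩ := (IsPGroup.iff_orderOf.mp P.2) ⟨p, hp⟩
    refine ⟨k, ?_⟩
    rw [← hk]
    have h1 : orderOf (⟨p, hp⟩ : (P : Subgroup C)) = orderOf p := Subgroup.orderOf_mk p hp
    rw [h1]
    exact Subgroup.orderOf_coe p
  have hP : normalizer ((P : Subgroup C) : Set C) ≤ centralizer ((P : Subgroup C) : Set C) := by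
    intro n _
    rw [mem_centralizer_iff]
    intro p hp
    apply Subtype.ext
    exact (h p.1 p.2 (hPq p hp) n.1 n.2).symm
  let φ := MonoidHom.transferSylow P hP
  have hcompl := MonoidHom.ker_transferSylow_isComplement' P hP
  have hnd : ¬ q ∣ Nat.card φ.ker := MonoidHom.not_dvd_card_ker_transferSylow P hP
  have hcop0 : (Nat.card φ.ker).Coprime q :=
    ((Nat.Prime.coprime_iff_not_dvd hq.out).mpr hnd).symm
  have hkercop : ∀ y : C, y ∈ φ.ker ↔ (orderOf (y : G)).Coprime q := by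
    intro y
    constructor
    · intro hy
      have h1 : orderOf (⟨y, hy⟩ : φ.ker) ∣ Nat.card φ.ker := orderOf_dvd_natCard _
      have h2 : orderOf (⟨y, hy⟩ : φ.ker) = orderOf (y : G) := by
        rw [Subgroup.orderOf_mk, Subgroup.orderOf_coe]
      rw [h2] at h1
      exact Nat.Coprime.coprime_dvd_left h1 hcop0
    · intro hy
      rw [MonoidHom.mem_ker]
      obtain ⟨k, hk⟩ := (IsPGroup.iff_orderOf.mp P.2) (φ y)
      have h1 : orderOf (φ y) ∣ orderOf y := orderOf_map_dvd φ y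
      have h2 : orderOf y = orderOf (y : G) := (Subgroup.orderOf_coe y).symm
      rw [h2] at h1
      have h3 : orderOf (φ y) ∣ q ^ k := by rw [hk]
      have h4 : Nat.Coprime (orderOf (y : G)) (q ^ k) := Nat.Coprime.pow_right k hy
      have h5 := Nat.eq_one_of_dvd_coprimes h4 h1 h3
      exact orderOf_eq_one_iff.mp h5
  let K : Subgroup G := φ.ker.map C.subtype
  have hKmem : ∀ y : G, y ∈ K ↔ y ∈ C ∧ (orderOf y).Coprime q := by
    intro y
    constructor
    · rintro ⟨z, hz, rfl⟩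
      exact ⟨z.2, (hkercop z).mp hz⟩
    · rintro ⟨h1, h2⟩
      exact ⟨⟨y, h1⟩, (hkercop ⟨y, h1⟩).mpr h2, rfl⟩
  refine ⟨K, ?_, ?_, ?_, ?_, ?_⟩
  · refine ⟨fun k hk g => ?_⟩
    obtain ⟨h1, h2⟩ := (hKmem k).mp hk
    refine (hKmem _).mpr ⟨hCn.conj_mem k h1 g, ?_⟩
    have h3 := MulEquiv.orderOf_eq (MulAut.conj g) k
    have h4 : (MulAut.conj g) k = g * k * g⁻¹ := rfl
    rw [h4] at h3
    rw [h3]
    exact h2
  · intro y hy
    exact ((hKmem y).mp hy).1
  · have : Nat.card K = Nat.card φ.ker :=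
      Nat.card_congr (Subgroup.equivMapOfInjective _ _ C.subtype_injective).symm.toEquiv
    rw [this]
    exact hcop0
  · intro y hy hc
    exact (hKmem y).mpr ⟨hy, hc⟩
  · intro y hy
    obtain ⟨⟨k, p⟩, hkp, -⟩ := hcompl.existsUnique ⟨y, hy⟩
    refine ⟨k.1.1, (hKmem _).mpr ⟨k.1.2, (hkercop k.1).mp k.2⟩, p.1.1, p.1.2, ?_, hPq p.1 p.2⟩
    exact (congrArg Subtype.val hkp).symm

/-- **The `q`-power case**: `Q = O_q(G)` has a normal complement. -/
theorem branch_A {q : ℕ} [hq : Fact q.Prime]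
    (hA : ∀ x : G, (∃ k, orderOf x = q ^ k) → ∃ a, cs x = q ^ a) :
    (∀ z : G, (∃ k, orderOf z = q ^ k) → z ∈ pCore q G) ∧
    ∃ N : Subgroup G, N.Normal ∧ N.IsComplement' (pCore q G) ∧ (Nat.card N).Coprime q := by
  classical
  have hqp := hq.out
  set O := pCore q G with hOdef
  have hOn : O.Normal := inferInstance
  have hOp : IsPGroup q O := isPGroup_pCore q
  have hall : ∀ z : G, (∃ k, orderOf z = q ^ k) → z ∈ O :=
    fun z hz => mem_pCore_of_pow z hz (hA z hz)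
  refine ⟨hall, ?_⟩
  have hOi : ¬ q ∣ O.index := not_dvd_index_of_all O hall
  have hzq' : ∀ z ∈ O, ∃ k, orderOf z = q ^ k := by
    intro z hz
    obtain ⟨k, hk⟩ := (IsPGroup.iff_orderOf.mp hOp) ⟨z, hz⟩
    exact ⟨k, by simpa using hk⟩
  -- Sylow subgroups for other primes centralize `O`
  let C : Subgroup G := centralizer (O : Set G)
  have hCn : C.Normal := Subgroup.normal_centralizer
  have hTC : ∀ {s : ℕ} [Fact s.Prime], s ≠ q → ∀ T : Sylow s G, (T : Subgroup G) ≤ C := by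
    intro s _ hsq T
    have hcov : ∀ z ∈ O, z ∈ (⊥ : Subgroup G) ∨
        ∃ u ∈ O, u * z * u⁻¹ ∈ O ⊓ centralizer ((T : Subgroup G) : Set G) :=
      fun z hz => Or.inr (exists_conj_cent hsq O hOn hOi T hz (hA z (hzq' z hz)))
    have hsup := sup_eq_of_cover O _ ⊥ hOp inf_le_left bot_le hcov
    rw [sup_bot_eq] at hsup
    intro τ hτ
    rw [mem_centralizer_iff]
    intro w hw
    have hw' : w ∈ O ⊓ centralizer ((T : Subgroup G) : Set G) := by rw [hsup]; exact hw
    have h1 := (mem_inf.mp hw').2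
    rw [mem_centralizer_iff] at h1
    exact (h1 τ hτ).symm
  -- `C` has `q`-power index
  have hCi : ∃ e, C.index = q ^ e := by
    have hne : C.index ≠ 0 := index_ne_zero_of_finite
    refine ⟨_, Nat.eq_prime_pow_of_unique_prime_dvd hne ?_⟩
    intro d hd hdvd
    by_contra hdq
    haveI : Fact d.Prime := ⟨hd⟩
    obtain ⟨T⟩ : Nonempty (Sylow d G) := inferInstance
    exact T.not_dvd_index (hdvd.trans (index_dvd_of_le (hTC hdq T)))
  obtain ⟨e, he⟩ := hCi
  have hcentral : ∀ c ∈ C, (∃ k, orderOf c = q ^ k) → ∀ d ∈ C, d * c = c * d := by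
    intro c _ hcq d hd
    exact (mem_centralizer_iff.mp hd) c (hall c hcq) |>.symm
  obtain ⟨K, hKn, hKC, hKc, -, hKd⟩ := exists_complement_central C hCn hcentral
  refine ⟨K, hKn, ?_, hKc⟩
  have hdisj : Disjoint K O := by
    rw [Subgroup.disjoint_def]
    intro z hzK hzO
    obtain ⟨k, hk⟩ := hzq' z hzO
    have h1 : orderOf z ∣ Nat.card K := by
      have := orderOf_dvd_natCard (⟨z, hzK⟩ : K)
      rwa [Subgroup.orderOf_mk] at this
    have h2 : orderOf z ∣ q ^ k := by rw [hk]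
    have h3 : Nat.Coprime (Nat.card K) (q ^ k) := Nat.Coprime.pow_right k hKc
    exact orderOf_eq_one_iff.mp (Nat.eq_one_of_dvd_coprimes h3 h1 h2)
  refine isComplement'_of_disjoint_and_mul_eq_univ hdisj ?_
  apply Set.eq_univ_of_forall
  intro g
  have hcop : Nat.Coprime C.index O.index := by
    rw [he]
    exact Nat.Coprime.pow_left _ ((Nat.Prime.coprime_iff_not_dvd hqp).mpr hOi)
  obtain ⟨c, hc, u, hu, rfl⟩ := exists_mul_of_coprime C O hcop g
  obtain ⟨k, hk, z, hz, rfl, hzq⟩ := hKd c hc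
  rw [Set.mem_mul]
  refine ⟨k, hk, z * u, mul_mem (hall z hzq) hu, (mul_assoc _ _ _).symm⟩

end Cfsg.Agent.Lib.QBaerB
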