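import Mathlib
import Cfsg.Agent.Lib.QBaerB
import Cfsg.Agent.Lib.OrbMain
import Cfsg.Agent.Lib.PResid

/-!
# Groups all of whose `q`-elements have classes of `p`-power size, `p ≠ q`
-/

set_option autoImplicit false
set_option linter.unusedSectionVars false
set_option linter.unusedVariables false
set_option linter.style.haveILetI false

namespace Cfsg.Agent.Lib.QBaerC

open Cfsg Cfsg.Agent.Lib.PCore Cfsg.Agent.Lib.ClassPPow Cfsg.Agent.Lib.CoprimeClass Subgroup
open Cfsg.Agent.Lib.QBaerA Cfsg.Agent.Lib.QBaerB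

universe u

variable {G : Type u} [Group G] [Finite G]

theorem qelt_of_sylow {q : ℕ} [Fact q.Prime] (Q : Sylow q G) {x : G} (hx : x ∈ (Q : Subgroup G)) :
    ∃ k, orderOf x = q ^ k := by
  obtain ⟨k, hk⟩ := (IsPGroup.iff_orderOf.mp Q.2) ⟨x, hx⟩
  exact ⟨k, by simpa using hk⟩

/-- `O_p(G) Q` is normal. -/
theorem sup_normal {p q : ℕ} [hp : Fact p.Prime] [hq : Fact q.Prime]
    (hall : ∀ x : G, (∃ k, orderOf x = q ^ k) → ∃ a, cs x = p ^ a) (Q : Sylow q G) :
    (pCore p G ⊔ (Q : Subgroup G)).Normal := by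
  set D := pCore p G with hD
  let π := QuotientGroup.mk' D
  have hπ : Function.Surjective π := QuotientGroup.mk'_surjective _
  have h1 : (Q : Subgroup G).map π = pCore q (G ⧸ D) := by
    apply le_antisymm
    · rintro _ ⟨x, hx, rfl⟩
      have hxq := qelt_of_sylow Q hx
      exact mk_mem_pCore (q := q) (r := p) x hxq (hall x hxq)
    · have h2 := pCore_le_sylow (G := G ⧸ D) q (Q.mapSurjective hπ)
      simpa using h2
  have h2 : ((Q : Subgroup G).map π).Normal := by
    rw [h1]
    infer_instance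
  have h3 := h2.comap π
  rw [comap_map_eq, QuotientGroup.ker_mk', sup_comm] at h3
  exact h3

/-- The Sylow `q`-subgroup is abelian. -/
theorem sylow_comm {p q : ℕ} [hp : Fact p.Prime] [hq : Fact q.Prime] (hpq : p ≠ q)
    (hall : ∀ x : G, (∃ k, orderOf x = q ^ k) → ∃ a, cs x = p ^ a) (Q : Sylow q G) :
    ∀ x ∈ (Q : Subgroup G), ∀ y ∈ (Q : Subgroup G), x * y = y * x := by
  intro x hx y hy
  set D := pCore p G with hD
  have hDn : D.Normal := inferInstance
  have hxq := qelt_of_sylow Q hx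
  obtain ⟨a, ha⟩ := hall x hxq
  have hd : ¬ q ∣ cs x := by
    rw [ha]
    intro h
    exact hpq ((Nat.prime_dvd_prime_iff_eq hq.out hp.out).mp (hq.out.dvd_of_dvd_pow h)).symm
  obtain ⟨Q₁, hQ₁⟩ := exists_sylow_le (q := q) _ hd
  obtain ⟨g, hg⟩ := MulAction.exists_smul_eq G Q₁ Q
  have hn := sup_normal hall Q₁
  have hy1 : g⁻¹ * y * g ∈ (Q₁ : Subgroup G) := by
    rw [← hg, Sylow.coe_subgroup_smul, mem_conj_smul_iff] at hy
    exact hy
  have hy2 : y ∈ D ⊔ (Q₁ : Subgroup G) := by
    have h1 := hn.conj_mem _ ((le_sup_right : (Q₁ : Subgroup G) ≤ D ⊔ Q₁) hy1) g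
    have h2 : g * (g⁻¹ * y * g) * g⁻¹ = y := by group
    rwa [h2] at h1
  rw [← SetLike.mem_coe, Subgroup.normal_mul, Set.mem_mul] at hy2
  obtain ⟨z, hz, y₁, hy₁, rfl⟩ := hy2
  have hxy₁ : y₁ * x = x * y₁ := mem_cent.mp (hQ₁ hy₁)
  have hw : x * (z * y₁) * x⁻¹ * (z * y₁)⁻¹ = (x * z * x⁻¹) * z⁻¹ := by
    have h3 : y₁ * x⁻¹ * y₁⁻¹ = x⁻¹ := by
      rw [(show Commute y₁ x from hxy₁).inv_right.eq]
      group
    calc x * (z * y₁) * x⁻¹ * (z * y₁)⁻¹ = x * z * (y₁ * x⁻¹ * y₁⁻¹) * z⁻¹ := by group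
      _ = _ := by rw [h3]
  have hwD : x * (z * y₁) * x⁻¹ * (z * y₁)⁻¹ ∈ D := by
    rw [hw]
    exact mul_mem (hDn.conj_mem z hz x) (inv_mem hz)
  have hwQ : x * (z * y₁) * x⁻¹ * (z * y₁)⁻¹ ∈ (Q : Subgroup G) :=
    mul_mem (mul_mem (mul_mem hx hy) (inv_mem hx)) (inv_mem hy)
  obtain ⟨i, hi⟩ := Q.2 ⟨_, hwQ⟩
  obtain ⟨j, hj⟩ := (isPGroup_pCore (G := G) p) ⟨_, hwD⟩
  have hi' : (x * (z * y₁) * x⁻¹ * (z * y₁)⁻¹) ^ (q ^ i) = 1 := by
    have := congrArg Subtype.val hi
    simpa using this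
  have hj' : (x * (z * y₁) * x⁻¹ * (z * y₁)⁻¹) ^ (p ^ j) = 1 := by
    have := congrArg Subtype.val hj
    simpa using this
  have h5 := eq_one_of_pow_pow hq.out hp.out (Ne.symm hpq) hi' hj'
  have h6 := mul_inv_eq_one.mp h5
  exact mul_inv_eq_iff_eq_mul.mp h6

/-- A `q'`-element normalizing an abelian `q`-group and centralizing its elements of order dividing `q`
centralizes it. -/
theorem comm_of_omega {Γ : Type*} [Group Γ] [Finite Γ] {q : ℕ} [hq : Fact q.Prime] (B : Subgroup Γ)
    (hBn : B.Normal) (hBc : ∀ v ∈ B, ∀ w ∈ B, v * w = w * v) {b : Γ}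
    (hb : (orderOf b).Coprime q) (hbV : ∀ v ∈ B, v ^ q = 1 → b * v = v * b) :
    ∀ (k : ℕ) (c : Γ), c ∈ B → c ^ (q ^ k) = 1 → b * c = c * b := by
  intro k
  induction k with
  | zero =>
    intro c _ hc
    rw [pow_zero, pow_one] at hc
    rw [hc, mul_one, one_mul]
  | succ k ih =>
    intro c hcB hc
    have h1 : b * c ^ q = c ^ q * b := by
      apply ih (c ^ q) (pow_mem hcB q)
      rw [← pow_mul, ← pow_succ', hc]
    set c' := b * c * b⁻¹ with hc'
    have hc'B : c' ∈ B := hBn.conj_mem c hcB b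
    set v := c' * c⁻¹ with hv
    have hvB : v ∈ B := mul_mem hc'B (inv_mem hcB)
    have hvq : v ^ q = 1 := by
      have hcomm : Commute c' c⁻¹ := hBc _ hc'B _ (inv_mem hcB)
      rw [hv, hcomm.mul_pow, inv_pow, hc', pow_conj', mul_inv_eq_iff_eq_mul.mpr h1]
      group
    have hbv : b * v = v * b := hbV v hvB hvq
    have hvc : v * c = b * c * b⁻¹ := by
      rw [hv, inv_mul_cancel_right]
    have hstep : ∀ n : ℕ, b ^ n * c * (b ^ n)⁻¹ = v ^ n * c := by
      intro n
      induction n with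
      | zero => simp
      | succ n ih2 =>
        have hbvn : b * v ^ n = v ^ n * b := ((show Commute b v from hbv).pow_right n).eq
        calc b ^ (n + 1) * c * (b ^ (n + 1))⁻¹ = b * (b ^ n * c * (b ^ n)⁻¹) * b⁻¹ := by
              rw [pow_succ']; group
          _ = b * (v ^ n * c) * b⁻¹ := by rw [ih2]
          _ = v ^ n * (b * c * b⁻¹) := by
              rw [← mul_assoc b, hbvn]; simp only [mul_assoc]
          _ = v ^ n * (v * c) := by rw [hvc]
          _ = v ^ (n + 1) * c := by rw [pow_succ]; exact (mul_assoc _ _ _).symm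
    have h2 := hstep (orderOf b)
    rw [pow_orderOf_eq_one] at h2
    simp only [one_mul, inv_one, mul_one] at h2
    have h3 : v ^ orderOf b = 1 := by
      have : c = v ^ orderOf b * c := h2
      exact (mul_eq_right.mp this.symm)
    have h4 := orderOf_dvd_of_pow_eq_one h3
    have h5 := orderOf_dvd_of_pow_eq_one hvq
    have h6 := Nat.eq_one_of_dvd_coprimes hb h4 h5
    have h7 : v = 1 := orderOf_eq_one_iff.mp h6
    have h8 : b * c * b⁻¹ = c := by
      have : c' * c⁻¹ = 1 := h7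
      exact mul_inv_eq_one.mp this
    exact mul_inv_eq_iff_eq_mul.mp h8

/-- The centralizer of the elements of order dividing `q` in a normal abelian Sylow `q`-subgroup lies
in that subgroup, when `O_{q'}` is trivial. -/
theorem centralizer_omega_le {Γ : Type*} [Group Γ] [Finite Γ] {q : ℕ} [hq : Fact q.Prime]
    (B : Subgroup Γ) (hBn : B.Normal) (hBc : ∀ v ∈ B, ∀ w ∈ B, v * w = w * v)
    (hBq : IsPGroup q B) (hBi : ¬ q ∣ B.index) (hcore : pPrimeCore q Γ = ⊥) {t : Γ}
    (ht : ∀ v ∈ B, v ^ q = 1 → t * v = v * t) : t ∈ B := by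
  classical
  have hall : ∀ a : Γ, (∃ n, a ^ (q ^ n) = 1) → a ∈ B := by
    rintro a ⟨n, hn⟩
    have hP : IsPGroup q (zpowers a) := by
      rintro ⟨_, i, rfl⟩
      refine ⟨n, Subtype.ext ?_⟩
      show (a ^ i) ^ (q ^ n) = 1
      rw [← zpow_natCast, ← zpow_mul, mul_comm, zpow_mul, zpow_natCast, hn, one_zpow]
    obtain ⟨g, hg⟩ := Cfsg.Agent.Lib.Hall.exists_conj_le_of_not_dvd_index hP hBi
    have h1 := hg (mem_zpowers a)
    rw [mem_conj_smul_iff] at h1
    have h2 := hBn.conj_mem _ h1 g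
    have h3 : g * (g⁻¹ * a * g) * g⁻¹ = a := by group
    rwa [h3] at h2
  obtain ⟨a, b, rfl, hab, han, hbc, -, -⟩ := Cfsg.Agent.Lib.PResid.exists_decomp (p := q) t
  have haB : a ∈ B := hall a han
  have hbV : ∀ v ∈ B, v ^ q = 1 → b * v = v * b := by
    intro v hv hvq
    have h1 := ht v hv hvq
    have h2 := hBc a haB v hv
    have h3 : a * (b * v) = a * (v * b) := by
      calc a * (b * v) = (a * b) * v := by group
        _ = v * (a * b) := h1
        _ = (v * a) * b := by group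
        _ = (a * v) * b := by rw [h2]
        _ = _ := by group
    exact mul_left_cancel h3
  have hbB : ∀ c ∈ B, b * c = c * b := by
    intro c hc
    obtain ⟨k, hk⟩ := (IsPGroup.iff_orderOf.mp hBq) ⟨c, hc⟩
    refine comm_of_omega B hBn hBc hbc hbV k c hc ?_
    rw [← show orderOf c = q ^ k by simpa using hk]
    exact pow_orderOf_eq_one c
  let C : Subgroup Γ := centralizer (B : Set Γ)
  have hCn : C.Normal := Subgroup.normal_centralizer
  have hbC : b ∈ C := by
    rw [mem_centralizer_iff]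
    intro c hc
    exact (hbB c hc).symm
  have hcentral : ∀ c ∈ C, (∃ k, orderOf c = q ^ k) → ∀ d ∈ C, d * c = c * d := by
    rintro c _ ⟨k, hk⟩ d hd
    have hcB : c ∈ B := hall c ⟨k, by rw [← hk]; exact pow_orderOf_eq_one c⟩
    exact ((mem_centralizer_iff.mp hd) c hcB).symm
  obtain ⟨K, hKn, -, hKc, hKm, -⟩ := exists_complement_central C hCn hcentral
  have h1 : K ≤ pPrimeCore q Γ := le_pPrimeCore hKn hKc
  have h2 : b ∈ K := hKm b hbC hbc
  have h3 := h1 h2
  rw [hcore, mem_bot] at h3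
  rw [h3, mul_one]
  exact haB

/-- The orbit theorem for a representation. -/
theorem solvable_of_rep {Γ : Type u} [Group Γ] [Finite Γ] {p q : ℕ} [hp : Fact p.Prime]
    [hq : Fact q.Prime] {A : Type u} [AddCommGroup A] [Module (ZMod q) A] [Finite A]
    (ψ : Γ →* (A ≃ₗ[ZMod q] A)) (P : Subgroup Γ) (hPp : IsPGroup p P)
    (hdom : ∀ g x, ∃ u ∈ P, ψ g x = ψ u x) (hci : ¬ q ∣ ψ.ker.index)
    (hE : Group.IsSolvable ψ.ker) : Group.IsSolvable Γ := by
  let H := ψ.range
  let S := P.map ψ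
  have hD : Cfsg.Agent.Lib.OrbDom.IsDominated H S := by
    constructor
    · exact map_le_range _ _
    · rintro _ ⟨g, rfl⟩ x
      obtain ⟨u, hu, huv⟩ := hdom g x
      exact ⟨ψ u, ⟨u, hu, rfl⟩, huv⟩
  have hS : IsPGroup p S := hPp.map ψ
  have hcH : ¬ q ∣ Nat.card H := by
    rw [← Subgroup.index_ker ψ]
    exact hci
  haveI hsol : Group.IsSolvable H := Cfsg.Agent.Lib.OrbMain.orbit_solvable A H S hD hS hcH
  have hk : ψ.rangeRestrict.ker ≤ ψ.ker.subtype.range := by
    intro g hg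
    rw [MonoidHom.ker_rangeRestrict] at hg
    exact ⟨⟨g, hg⟩, rfl⟩
  exact Group.isSolvable_of_ker_le_range _ ψ.rangeRestrict hk

/-- A multiplicative family of additive maps of a `ZMod q`-module is a linear representation. -/
theorem exists_rep {Γ : Type*} [Group Γ] {q : ℕ} {A : Type*} [AddCommGroup A] [Module (ZMod q) A]
    (cg : Γ → A →+ A) (hcgmul : ∀ g h a, cg (g * h) a = cg g (cg h a)) (hcgone : ∀ a, cg 1 a = a) :
    ∃ ψ : Γ →* (A ≃ₗ[ZMod q] A), ∀ g a, ψ g a = cg g a := by
  refine ⟨{ toFun := fun g =>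
        { ((cg g).toZModLinearMap q) with
          invFun := cg g⁻¹
          left_inv := fun a => by
            show cg g⁻¹ (cg g a) = a
            rw [← hcgmul, inv_mul_cancel, hcgone]
          right_inv := fun a => by
            show cg g (cg g⁻¹ a) = a
            rw [← hcgmul, mul_inv_cancel, hcgone] }
            map_one' := LinearEquiv.ext fun a => hcgone a
            map_mul' := fun g h => LinearEquiv.ext fun a => hcgmul g h a }, fun _ _ => rfl⟩

/-- The orbit theorem for a multiplicative family of additive maps. -/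
theorem solvable_of_family {Γ : Type u} [Group Γ] [Finite Γ] {p q : ℕ} [hp : Fact p.Prime]
    [hq : Fact q.Prime] {A : Type u} [AddCommGroup A] [Module (ZMod q) A] [Finite A]
    (cg : Γ → A →+ A) (hcgmul : ∀ g h a, cg (g * h) a = cg g (cg h a)) (hcgone : ∀ a, cg 1 a = a)
    (P : Subgroup Γ) (hPp : IsPGroup p P) (hdom : ∀ g x, ∃ u ∈ P, cg g x = cg u x)
    (E : Subgroup Γ) (hE : ∀ g, g ∈ E ↔ ∀ a, cg g a = a) (hci : ¬ q ∣ E.index)
    (hEs : Group.IsSolvable E) : Group.IsSolvable Γ := by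
  obtain ⟨ψ, hψ⟩ := exists_rep (q := q) cg hcgmul hcgone
  have hker : ψ.ker = E := by
    ext g
    rw [MonoidHom.mem_ker, hE]
    constructor
    · intro h a
      rw [← hψ, h]
      rfl
    · intro h
      refine LinearEquiv.ext fun a => ?_
      rw [hψ, h]
      rfl
  refine solvable_of_rep (p := p) ψ P hPp ?_ (by rw [hker]; exact hci) (by rw [hker]; exact hEs)
  intro g x
  obtain ⟨u, hu, huv⟩ := hdom g x
  exact ⟨u, hu, by rw [hψ, hψ, huv]⟩

/-- The orbit theorem for a normal elementary abelian subgroup. -/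
theorem solvable_of_orbits {Γ : Type u} [Group Γ] [Finite Γ] {p q : ℕ} [hp : Fact p.Prime]
    [hq : Fact q.Prime] (V : Subgroup Γ) (hVn : V.Normal) (hVc : ∀ v ∈ V, ∀ w ∈ V, v * w = w * v)
    (hVq : ∀ v ∈ V, v ^ q = 1) (P : Subgroup Γ) (hPp : IsPGroup p P)
    (hdom : ∀ g, ∀ v ∈ V, ∃ u ∈ P, g * v * g⁻¹ = u * v * u⁻¹)
    (hci : ¬ q ∣ (centralizer (V : Set Γ)).index)
    (hE : Group.IsSolvable (centralizer (V : Set Γ))) : Group.IsSolvable Γ := by
  classical
  letI instC : CommGroup V :=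
    { (inferInstance : Group V) with
      mul_comm := fun a b => Subtype.ext (hVc a.1 a.2 b.1 b.2) }
  have hA : ∀ x : Additive V, q • x = 0 := by
    intro x
    apply Additive.toMul.injective
    show (Additive.toMul x) ^ q = 1
    exact Subtype.ext (hVq _ (Additive.toMul x).2)
  letI instM : Module (ZMod q) (Additive V) := AddCommGroup.zmodModule hA
  haveI : Finite (Additive V) := inferInstanceAs (Finite V)
  -- conjugation
  let cg : Γ → Additive V →+ Additive V := fun g =>
    { toFun := fun a => Additive.ofMul ⟨g * (Additive.toMul a).1 * g⁻¹,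
        hVn.conj_mem _ (Additive.toMul a).2 g⟩
      map_zero' := by
        apply Additive.toMul.injective
        apply Subtype.ext
        show g * 1 * g⁻¹ = 1
        group
      map_add' := by
        intro a b
        apply Additive.toMul.injective
        apply Subtype.ext
        show g * ((Additive.toMul a).1 * (Additive.toMul b).1) * g⁻¹ =
          (g * (Additive.toMul a).1 * g⁻¹) * (g * (Additive.toMul b).1 * g⁻¹)
        group }
  have hcg : ∀ g a, (Additive.toMul (cg g a) : V).1 = g * (Additive.toMul a : V).1 * g⁻¹ :=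
    fun _ _ => rfl
  have hcgmul : ∀ g h a, cg (g * h) a = cg g (cg h a) := by
    intro g h a
    apply Additive.toMul.injective
    apply Subtype.ext
    rw [hcg, hcg, hcg]
    group
  have hcgone : ∀ a, cg 1 a = a := by
    intro a
    apply Additive.toMul.injective
    apply Subtype.ext
    rw [hcg]
    group
  refine solvable_of_family (p := p) (q := q) (A := Additive V) cg hcgmul hcgone P hPp ?_ _ ?_ hci hE
  · intro g x
    obtain ⟨u, hu, huv⟩ := hdom g (Additive.toMul x).1 (Additive.toMul x).2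
    refine ⟨u, hu, ?_⟩
    apply Additive.toMul.injective
    apply Subtype.ext
    exact huv
  · intro g
    rw [mem_centralizer_iff]
    constructor
    · intro h a
      apply Additive.toMul.injective
      apply Subtype.ext
      show g * (Additive.toMul a).1 * g⁻¹ = (Additive.toMul a).1
      rw [← h _ (Additive.toMul a).2]
      group
    · intro h v hv
      have h1 := h (Additive.ofMul ⟨v, hv⟩)
      have h2 : g * v * g⁻¹ = v := congrArg Subtype.val h1
      exact (mul_inv_eq_iff_eq_mul.mp h2).symm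

/-- Solvability from a normal abelian Sylow subgroup with trivial `O_{q'}`, when the elements of
the Sylow subgroup of order `q` have orbits dominated by a `p`-group. -/
theorem solv_of_data {Γ : Type u} [Group Γ] [Finite Γ] {p q : ℕ} [hp : Fact p.Prime]
    [hq : Fact q.Prime] (B : Subgroup Γ) (hBn : B.Normal) (hBc : ∀ v ∈ B, ∀ w ∈ B, v * w = w * v)
    (hBq : IsPGroup q B) (hBi : ¬ q ∣ B.index) (hcore : pPrimeCore q Γ = ⊥) (P : Subgroup Γ)
    (hPp : IsPGroup p P) (hdom : ∀ g, ∀ v ∈ B, v ^ q = 1 → ∃ u ∈ P, g * v * g⁻¹ = u * v * u⁻¹) :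
    Group.IsSolvable Γ := by
  let V : Subgroup Γ :=
    { carrier := {v | v ∈ B ∧ v ^ q = 1}
      one_mem' := ⟨B.one_mem, one_pow q⟩
      mul_mem' := by
        rintro a b ⟨ha, ha'⟩ ⟨hb, hb'⟩
        refine ⟨mul_mem ha hb, ?_⟩
        rw [(show Commute a b from hBc a ha b hb).mul_pow, ha', hb', one_mul]
      inv_mem' := by
        rintro a ⟨ha, ha'⟩
        exact ⟨inv_mem ha, by rw [inv_pow, ha', inv_one]⟩ }
  have hVB : V ≤ B := fun v hv => hv.1
  have hVn : V.Normal := by
    refine ⟨fun v hv g => ⟨hBn.conj_mem v hv.1 g, ?_⟩⟩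
    rw [pow_conj', hv.2]
    group
  have hBE : B ≤ centralizer (V : Set Γ) := by
    intro b hb
    rw [mem_centralizer_iff]
    intro v hv
    exact hBc v (hVB hv) b hb
  have hEB : centralizer (V : Set Γ) ≤ B := by
    intro t ht
    refine centralizer_omega_le B hBn hBc hBq hBi hcore fun v hv hvq => ?_
    exact ((mem_centralizer_iff.mp ht) v ⟨hv, hvq⟩).symm
  have hci : ¬ q ∣ (centralizer (V : Set Γ)).index := by
    intro h
    exact hBi (h.trans (index_dvd_of_le hBE))
  have hE : Group.IsSolvable (centralizer (V : Set Γ)) := by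
    have hcomm : ∀ a b : centralizer (V : Set Γ), a * b = b * a := fun a b =>
      Subtype.ext (hBc a.1 (hEB a.2) b.1 (hEB b.2))
    exact Group.isSolvable_of_comm hcomm
  exact solvable_of_orbits V hVn (fun v hv w hw => hBc v (hVB hv) w (hVB hw)) (fun v hv => hv.2) P
    hPp (fun g v hv => hdom g v hv.1 hv.2) hci hE

/-- **Solvability of `G/O_{q'}(G)`** when all `q`-elements have classes of `p`-power size. -/
theorem quot_solvable {p q : ℕ} [hp : Fact p.Prime] [hq : Fact q.Prime] (hpq : p ≠ q)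
    (hall : ∀ x : G, (∃ k, orderOf x = q ^ k) → ∃ a, cs x = p ^ a) (Q : Sylow q G) :
    Group.IsSolvable (G ⧸ pPrimeCore q G) := by
  classical
  set R := pPrimeCore q G with hR
  have hRn : R.Normal := Subgroup.normal_of_characteristic _
  let π := QuotientGroup.mk' R
  have hπ : Function.Surjective π := QuotientGroup.mk'_surjective _
  have hDR : pCore p G ≤ R := pCore_le_pPrimeCore hpq
  have hsup : R ⊔ (Q : Subgroup G) = R ⊔ (pCore p G ⊔ (Q : Subgroup G)) := by
    rw [← sup_assoc, sup_eq_left.mpr hDR]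
  have hLn : (R ⊔ (Q : Subgroup G)).Normal := by
    rw [hsup]
    haveI := sup_normal hall Q
    infer_instance
  let Q' := Q.mapSurjective hπ
  have hQ' : (Q' : Subgroup (G ⧸ R)) = (Q : Subgroup G).map π := Sylow.coe_mapSurjective hπ Q
  have hBn : ((Q : Subgroup G).map π).Normal := by
    have h1 := hLn.map π hπ
    rwa [Subgroup.map_sup, show R.map π = ⊥ by
      rw [Subgroup.map_eq_bot_iff, QuotientGroup.ker_mk'], bot_sup_eq] at h1
  have hBc : ∀ v ∈ (Q : Subgroup G).map π, ∀ w ∈ (Q : Subgroup G).map π, v * w = w * v := by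
    rintro _ ⟨x, hx, rfl⟩ _ ⟨y, hy, rfl⟩
    rw [← map_mul, ← map_mul, sylow_comm hpq hall Q x hx y hy]
  have hBq : IsPGroup q ((Q : Subgroup G).map π) := Q.2.map π
  have hBi : ¬ q ∣ ((Q : Subgroup G).map π).index := by
    rw [← hQ']
    exact Q'.not_dvd_index
  obtain ⟨P⟩ : Nonempty (Sylow p G) := inferInstance
  refine solv_of_data (p := p) (q := q) _ hBn hBc hBq hBi (pPrimeCore_quotient_pPrimeCore q)
    ((P : Subgroup G).map π) (P.2.map π) ?_
  rintro g₀ _ ⟨x, hx, rfl⟩ -
  obtain ⟨g, rfl⟩ := hπ g₀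
  obtain ⟨a, ha⟩ := hall x (qelt_of_sylow Q hx)
  have hcop : Nat.Coprime (P : Subgroup G).index (cs x) := by
    rw [ha]
    exact Nat.Coprime.pow_right _ ((Nat.Prime.coprime_iff_not_dvd hp.out).mpr P.not_dvd_index).symm
  obtain ⟨u, hu, c, hc, rfl⟩ := exists_mul_of_coprime _ _ hcop g
  refine ⟨π u, ⟨u, hu, rfl⟩, ?_⟩
  have hc' : c * x = x * c := mem_cent.mp hc
  have h2 : (u * c) * x * (u * c)⁻¹ = u * x * u⁻¹ := by
    calc (u * c) * x * (u * c)⁻¹ = u * (c * x) * c⁻¹ * u⁻¹ := by group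
      _ = u * (x * c) * c⁻¹ * u⁻¹ := by rw [hc']
      _ = _ := by group
  rw [← map_inv, ← map_mul, ← map_mul, h2, map_mul, map_mul, map_inv]

end Cfsg.Agent.Lib.QBaerC
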