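import Cfsg.Agent.Lib.QPH39Rank1
import Cfsg.Agent.RootSub.QP8

/-! The basic dichotomy `DI` from Theorem F: the partner in the class of `y`. -/

set_option autoImplicit false

namespace Cfsg.Agent.Lib.QPH39

open Cfsg Cfsg.Agent.RootSub Polynomial Matrix

variable {k : Type*} [Field k] {M : Type*} [AddCommGroup M] [Module k M]

local notation "GLm" => LinearMap.GeneralLinearGroup k M
local notation "End'" => (M →ₗ[k] M)

variable {G : Subgroup (LinearMap.GeneralLinearGroup k M)}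

section

variable [FiniteDimensional k M] {x y : M →ₗ[k] M}

/-- Every `1 + f(T) y` lies in `G`. -/
lemma FDat_inG (D : QP.FDat x y) (hx : QP.QE G x) (hy : QP.QE G y) (h2 : (2 : k) ≠ 0) (hk3 : Nat.card k ≠ 3)
    (q : k[X]) : QP.InG G (1 + QP.pv (QP.TT x y) q * y) := by
  have hxx := hx.1
  have hyy := hy.1
  haveI : Fact (Irreducible D.p) := ⟨D.irr⟩
  obtain ⟨γ, hγ, hγe⟩ := QP.exists_lift h2 hk3 D.notX (QP.loR (AdjoinRoot.mk D.p (X * q)))
  obtain ⟨c00, c10, c11⟩ := QP.gam_coeffs hγ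
  obtain ⟨g, hg, hge, -⟩ := QP.exists_unit_ev hx hy hγ
  refine ⟨g, hg, ?_⟩
  rw [hge, QP.ev_eq_of_coeffs hγ]
  set a := (γ : Matrix (Fin 2) (Fin 2) k[X]) 0 0 with ha
  set b := (γ : Matrix (Fin 2) (Fin 2) k[X]) 0 1 with hb
  set c := (γ : Matrix (Fin 2) (Fin 2) k[X]) 1 0 with hc
  set e := (γ : Matrix (Fin 2) (Fin 2) k[X]) 1 1 with he
  have q00 : AdjoinRoot.mk D.p a = AdjoinRoot.mk D.p (C 1) := by
    have := congrArg (fun g : SpecialLinearGroup (Fin 2) (AdjoinRoot D.p) => (g : Matrix (Fin 2) (Fin 2) (AdjoinRoot D.p)) 0 0) hγe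
    simpa [SpecialLinearGroup.map_apply_coe, QP.loR] using this
  have q01 : AdjoinRoot.mk D.p b = 0 := by
    have := congrArg (fun g : SpecialLinearGroup (Fin 2) (AdjoinRoot D.p) => (g : Matrix (Fin 2) (Fin 2) (AdjoinRoot D.p)) 0 1) hγe
    simpa [SpecialLinearGroup.map_apply_coe, QP.loR] using this
  have q10 : AdjoinRoot.mk D.p c = AdjoinRoot.mk D.p (X * q) := by
    have := congrArg (fun g : SpecialLinearGroup (Fin 2) (AdjoinRoot D.p) => (g : Matrix (Fin 2) (Fin 2) (AdjoinRoot D.p)) 1 0) hγe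
    simpa [SpecialLinearGroup.map_apply_coe, QP.loR] using this
  have q11 : AdjoinRoot.mk D.p e = AdjoinRoot.mk D.p (C 1) := by
    have := congrArg (fun g : SpecialLinearGroup (Fin 2) (AdjoinRoot D.p) => (g : Matrix (Fin 2) (Fin 2) (AdjoinRoot D.p)) 1 1) hγe
    simpa [SpecialLinearGroup.map_apply_coe, QP.loR] using this
  rw [AdjoinRoot.mk_eq_mk] at q00 q10 q11
  rw [AdjoinRoot.mk_eq_zero] at q01
  have d00 := QP.dvd_divX_of_irred D.irr D.notX c00 q00
  have d11 := QP.dvd_divX_of_irred D.irr D.notX c11 q11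
  have hcX : IsCoprime D.p (X : k[X]) := (QP.coprime_X_of_dvd D.notX dvd_rfl D.irr).symm
  have d10 : D.p ∣ divX c - q := by
    apply hcX.dvd_of_dvd_mul_left
    have e1 : X * (divX c - q) = c - X * q := by
      conv_rhs => rw [← X_mul_divX_add c, c10]
      rw [mul_sub, C_0, add_zero]
    rw [e1]
    exact q10
  have e2 : QP.pv (QP.TT x y) (divX c) * y = QP.pv (QP.TT x y) q * y := by
    have h3 := D.pv_y_of_dvd hyy d10
    rw [QP.pv_sub, sub_mul, sub_eq_zero] at h3
    exact h3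
  rw [D.pv_x_of_dvd hxx d00, D.pv_y_of_dvd hyy d11, D.pv_x_of_dvd hxx q01, e2]
  simp

/-- The partner. -/
theorem FDat_partner (D : QP.FDat x y) (hx : QP.QE G x) (hy : QP.QE G y) (h2 : (2 : k) ≠ 0) (hk3 : Nat.card k ≠ 3) :
    ∃ t : M →ₗ[k] M, QP.QE G t ∧ LinearMap.ker t = LinearMap.ker y ∧ LinearMap.range t = LinearMap.range y ∧
      RP x t := by
  have hxx := hx.1
  have hyy := hy.1
  set T := QP.TT x y with hT
  set v := QP.pv T D.u with hv
  have e1 : v * T = D.eps := D.u_T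
  have e2 : T * v = D.eps := D.T_u
  have cvx : v * x = x * v := QP.pv_comm_x hxx _
  have cvy : v * y = y * v := QP.pv_comm_y hyy _
  have ex : D.eps * x = x := D.eps_x hxx
  have ey : D.eps * y = y := D.eps_y hyy
  have hTx : T * x = x * y * x := QP.TT_mul_x hxx
  have hTy : T * y = y * x * y := QP.TT_mul_y hyy
  have cTy : y * T = T * y := QP.comm_TT_y hyy
  have htt : (v * y) * (v * y) = 0 := by
    calc (v * y) * (v * y) = v * (y * v) * y := by noncomm_ring
      _ = v * v * (y * y) := by rw [← cvy]; noncomm_ring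
      _ = 0 := by rw [hyy, mul_zero]
  have hxtx : x * (v * y) * x = x := by
    calc x * (v * y) * x = (x * v) * y * x := by noncomm_ring
      _ = v * (x * y * x) := by rw [← cvx]; noncomm_ring
      _ = (v * T) * x := by rw [← hTx]; noncomm_ring
      _ = x := by rw [e1, ex]
  have htxt : (v * y) * x * (v * y) = v * y := by
    calc (v * y) * x * (v * y) = v * (y * (x * v)) * y := by noncomm_ring
      _ = v * ((y * v) * x) * y := by rw [← cvx]; noncomm_ring
      _ = v * v * (y * x * y) := by rw [← cvy]; noncomm_ring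
      _ = v * (v * T) * y := by rw [← hTy]; noncomm_ring
      _ = v * y := by rw [e1, mul_assoc, ey]
  have hrp : RP x (v * y) := ⟨hxx, htt, hxtx, htxt⟩
  have ht0 : v * y ≠ 0 := by
    intro e
    apply hx.2.1
    rw [← hxtx, e, mul_zero, zero_mul]
  refine ⟨v * y, ⟨htt, ht0, fun c => ?_⟩, ?_, ?_, hrp⟩
  · have h3 := FDat_inG D hx hy h2 hk3 (C c * D.u)
    rw [QP.pv_C_mul, smul_mul_assoc] at h3
    exact h3
  · apply le_antisymm
    · intro m hm
      rw [LinearMap.mem_ker] at hm ⊢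
      have h3 : (T * (v * y)) m = 0 := by
        show T ((v * y) m) = 0
        rw [hm, map_zero]
      rw [← mul_assoc, e2, ey] at h3
      exact h3
    · intro m hm
      rw [LinearMap.mem_ker] at hm ⊢
      show v (y m) = 0
      rw [hm, map_zero]
  · apply le_antisymm
    · rintro _ ⟨m, rfl⟩
      rw [cvy]
      exact LinearMap.mem_range_self _ _
    · rintro _ ⟨m, rfl⟩
      refine ⟨T m, ?_⟩
      have h3 : v * y * T = y := by
        rw [mul_assoc, cTy, ← mul_assoc, e1, ey]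
      exact congrArg (fun f : End' => f m) h3

/-- The basic dichotomy. -/
theorem DI_of_thmF (h2 : (2 : k) ≠ 0) (hk3 : Nat.card k ≠ 3) : DI G := by
  rintro _ _ ⟨σ, hσ, rfl⟩ ⟨τ, hτ, rfl⟩
  have hx := QP.QE_of_min hσ
  have hy := QP.QE_of_min hτ
  have hmin := QP.rk_min_of_mem hσ
  have hry : QP.rk ((τ : M →ₗ[k] M) - 1) = QP.rk ((σ : M →ₗ[k] M) - 1) :=
    le_antisymm (QP.rk_min_of_mem hτ _ hx) (hmin _ hy)
  rcases QP.thmF hmin h2 hk3 hx hy rfl hry with hU | ⟨⟨D⟩⟩
  · exact Or.inl hU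
  · right
    obtain ⟨t, ht, h1, h3, hrp⟩ := FDat_partner D hx hy h2 hk3
    refine ⟨t, ⟨unitOfSq t ht.1, QP.min_of_QE ht ?_, ?_⟩, h1, h3, hrp⟩
    · intro z hz
      have h4 : QP.rk t = QP.rk ((τ : M →ₗ[k] M) - 1) := by
        unfold QP.rk
        rw [h3]
      rw [h4]
      exact QP.rk_min_of_mem hτ z hz
    · simp [dx]

end

end Cfsg.Agent.Lib.QPH39
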