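import Cfsg.Agent.Lib.QPH39Res

/-! A quadratic pair is a central product of quasisimple groups. -/

set_option autoImplicit false
set_option linter.unusedSectionVars false

universe u

namespace Cfsg.Agent.Lib.QPH39

open Cfsg Cfsg.Agent.RootSub Cfsg.Agent.RootSub.Tv

section classify

variable {k : Type*} [Field k] {M : Type*} [AddCommGroup M] [Module k M] [FiniteDimensional k M]

local notation "GLm" => LinearMap.GeneralLinearGroup k M
local notation "End'" => (M →ₗ[k] M)

variable {G : Subgroup (LinearMap.GeneralLinearGroup k M)}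

open QP (QE InG rk TT cy WW)

lemma comm_op_of_unit {g : GLm} {z : M →ₗ[k] M} {h : z * z = 0} (e : g * unitOfSq z h = unitOfSq z h * g) :
    (g : M →ₗ[k] M) * z = z * (g : M →ₗ[k] M) := by
  have e1 := comm_val e
  rw [unitOfSq_coe, mul_add, add_mul, mul_one, one_mul] at e1
  exact add_left_cancel e1

/-- An operator commuting with `G_P` and killing a member of the part vanishes. -/
theorem kill (hk2 : ringChar k ≠ 2) (hk3 : Nat.card k ≠ 3) (hG : IsQuadraticPair G) {a₀ : Subgroup GLm}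
    (ha₀ : a₀ ∈ quadraticRootSubgroups G) {ν z : M →ₗ[k] M} (hν : QR G ν)
    (hνK : unitOfSq ν hν.sq ∈ genG (compS G a₀))
    (hz : ∀ g ∈ genG (compS G a₀), (g : M →ₗ[k] M) * z = z * (g : M →ₗ[k] M)) (h0 : z * ν = 0) : z = 0 := by
  have h2 : (2 : k) ≠ 0 := Ring.two_ne_zero hk2
  have hDI : DI G := DI_of_thmF h2 hk3
  have hIrr := hG.1
  set K := genG (compS G a₀) with hK
  let W : Submodule k M := ⨆ g : ↥K, (LinearMap.range ν).map (g.1 : M →ₗ[k] M)
  have hmem : ∀ (g : ↥K) (m : M), (g.1 : M →ₗ[k] M) (ν m) ∈ W := fun g m =>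
    (le_iSup (fun g : ↥K => (LinearMap.range ν).map (g.1 : M →ₗ[k] M)) g) ⟨ν m, LinearMap.mem_range_self _ _, rfl⟩
  -- elements commuting with `K` stabilize `W`
  have hst : ∀ a : GLm, (∀ g ∈ K, a * g = g * a) → ∀ w ∈ W, (a : M →ₗ[k] M) w ∈ W := by
    intro a ha
    have hle : W ≤ W.comap (a : M →ₗ[k] M) := by
      refine iSup_le fun g => ?_
      rintro _ ⟨_, ⟨m, rfl⟩, rfl⟩
      show (a : M →ₗ[k] M) ((g.1 : M →ₗ[k] M) (ν m)) ∈ W
      have e1 : (a : M →ₗ[k] M) ((g.1 : M →ₗ[k] M) (ν m)) = (g.1 : M →ₗ[k] M) ((a : M →ₗ[k] M) (ν m)) :=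
        congrArg (fun f : M →ₗ[k] M => f (ν m)) (comm_val (ha g.1 g.2))
      have e2 : (a : M →ₗ[k] M) (ν m) = ν ((a : M →ₗ[k] M) m) :=
        congrArg (fun f : M →ₗ[k] M => f m) (comm_op_of_unit (ha _ hνK))
      rw [e1, e2]
      exact hmem g _
    exact fun w hw => hle hw
  -- elements of `K` stabilize `W`
  have hstK : ∀ a ∈ K, ∀ w ∈ W, (a : M →ₗ[k] M) w ∈ W := by
    intro a ha
    have hle : W ≤ W.comap (a : M →ₗ[k] M) := by
      refine iSup_le fun g => ?_
      rintro _ ⟨_, ⟨m, rfl⟩, rfl⟩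
      exact hmem (⟨a, ha⟩ * g) m
    exact fun w hw => hle hw
  have hG₀ : (⨆ A ∈ quadraticRootSubgroups G, A : Subgroup GLm) ≤ stabS W := by
    refine iSup₂_le fun A hA => ?_
    apply le_stabS
    intro a haA
    by_cases hAP : A ∈ compS G a₀
    · exact hstK a (le_genG hAP haA)
    · apply hst
      have hne : ∀ B ∈ compS G a₀, ⁅A, B⁆ = ⊥ := by
        intro B hB
        apply comm_of_not_same hDI hIrr h2 hA (compS_sub hB)
        intro h3
        exact hAP (compS_of_same hB hA (same_symm h3))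
      have h3 := comm_iSup (P := {A}) (Q := compS G a₀) (by
        rintro _ rfl B hB
        exact hne B hB)
      intro g hg
      apply comm_of_commutator_bot h3 _ hg
      simpa using haA
  have hC : (G ⊓ Subgroup.centralizer ((⨆ A ∈ quadraticRootSubgroups G, A : Subgroup GLm) : Set GLm)) ≤ stabS W := by
    apply le_stabS
    intro a ha
    apply hst
    intro g hg
    exact (Subgroup.mem_centralizer_iff.mp ha.2 g (genG_part_le hg)).symm
  have hGle : G ≤ stabS W := by
    rw [← s5074_core hk2 hk3 hG]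
    exact sup_le hG₀ hC
  have hker : W ≤ LinearMap.ker z := by
    refine iSup_le fun g => ?_
    rintro _ ⟨_, ⟨m, rfl⟩, rfl⟩
    show z ((g.1 : M →ₗ[k] M) (ν m)) = 0
    have e1 := congrArg (fun f : M →ₗ[k] M => f (ν m)) (hz g.1 g.2)
    simp only [Module.End.mul_apply] at e1
    have e2 : z (ν m) = 0 := congrArg (fun f : M →ₗ[k] M => f m) h0
    rw [← e1, e2, map_zero]
  rcases hIrr.2 W (fun g hg w hw => (hGle hg w).mpr hw) with h | h
  · exfalso
    apply hν.ne_zero
    ext m
    have h3 := hmem 1 m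
    rw [h, Submodule.mem_bot] at h3
    exact h3
  · ext m
    have : m ∈ W := by rw [h]; trivial
    exact hker this

/-- Each quadratic element vanishes between minimal elements or lies in one of the `G_P`. -/
theorem classify (hk2 : ringChar k ≠ 2) (hk3 : Nat.card k ≠ 3) (hG : IsQuadraticPair G) (n : ℕ) :
    ∀ e : M →ₗ[k] M, rk e = n → QE G e → TZ G e ∨
      ∃ a₀ ∈ quadraticRootSubgroups G, ∃ h : e * e = 0, unitOfSq e h ∈ genG (compS G a₀) := by
  have h2 : (2 : k) ≠ 0 := Ring.two_ne_zero hk2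
  have hDI : DI G := DI_of_thmF h2 hk3
  have hIrr := hG.1
  induction n using Nat.strong_induction_on with
  | _ n ih =>
    intro e hn hQ
    by_cases hT : TZ G e
    · exact Or.inl hT
    right
    have hT' := hT
    unfold TZ at hT'
    push Not at hT'
    obtain ⟨z, hz, hne⟩ := hT'
    obtain ⟨σ, hσ, rfl⟩ := id hz
    have hmin := QP.rk_min_of_mem hσ
    obtain ⟨a, ha, hae, haK, haR⟩ := exists_normalized hmin h2 hk3 hz.toQE hQ rfl hne
    obtain ⟨hν, hνr⟩ := QE_eae ha hQ hae
    obtain ⟨h1, h3, h4, h5⟩ := split_rest ha hQ hae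
    have hrka : rk a = rk (dx σ) := by
      unfold rk
      rw [haR]
    have hνQ : QR G (e * a * e) := hz.of_QE hν (by rw [hνr, hrka])
    have hνm := hνQ.unit_mem hν.1
    have ha₀ : sameActionSubgroup G (unitOfSq (e * a * e) hν.1) ∈ quadraticRootSubgroups G := ⟨_, hνm, rfl⟩
    have hνK : unitOfSq (e * a * e) hνQ.sq ∈ genG (compS G (sameActionSubgroup G (unitOfSq (e * a * e) hν.1))) :=
      le_genG (self_mem_compS ha₀) (Subgroup.subset_closure ⟨hνm, rfl, rfl⟩)
    refine ⟨_, ha₀, hQ.1, ?_⟩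
    have hee := hQ.1
    have e1 : unitOfSq e hQ.1 = unitOfSq (e * a * e) hν.1 * unitOfSq (e - e * a * e) h1 := by
      apply Units.ext
      rw [Units.val_mul, unitOfSq_coe, unitOfSq_coe, unitOfSq_coe, h4]
    have hρν : (e - e * a * e) * (e * a * e) = 0 := by
      have he' : ∀ u : M →ₗ[k] M, e * (e * u) = 0 := fun u => by rw [← mul_assoc, hee, zero_mul]
      simp only [sub_mul, mul_assoc, he', hee, mul_zero, sub_zero]
    by_cases he' : e - e * a * e = 0
    · have e2 : unitOfSq e hQ.1 = unitOfSq (e * a * e) hν.1 := by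
        apply Units.ext
        rw [unitOfSq_coe, unitOfSq_coe, ← sub_eq_zero.mp he']
      rw [e2]
      exact hνK
    have hQ' : QE G (e - e * a * e) := ⟨h1, he', h3⟩
    rcases ih _ (hn ▸ h5) _ rfl hQ' with hTZ | ⟨a₁, ha₁, h, hmem⟩
    · exfalso
      apply he'
      apply kill hk2 hk3 hG ha₀ hνQ hνK _ hρν
      intro g hg
      have hc := unit_mem_cent h1 (fun u hu => comm_of_TZ hDI hIrr h2 hQ' hTZ hu)
      have hgG : g ∈ (⨆ A ∈ quadraticRootSubgroups G, A : Subgroup GLm) := genG_part_le hg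
      exact comm_op_of_unit (Subgroup.mem_centralizer_iff.mp hc g hgG)
    · by_cases hsame : Same (quadraticRootSubgroups G) (sameActionSubgroup G (unitOfSq (e * a * e) hν.1)) a₁
      · rw [e1]
        have hc : compS G a₁ = compS G (sameActionSubgroup G (unitOfSq (e * a * e) hν.1)) :=
          (comp_eq_of_same hsame).symm
        rw [hc] at hmem
        exact mul_mem hνK hmem
      · exfalso
        apply he'
        apply kill hk2 hk3 hG ha₀ hνQ hνK _ hρν
        intro g hg
        have h6 : ⁅genG (compS G (sameActionSubgroup G (unitOfSq (e * a * e) hν.1))), genG (compS G a₁)⁆ = ⊥ := by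
          apply comm_iSup
          intro A hA B hB
          apply comm_of_not_same hDI hIrr h2 (compS_sub hA) (compS_sub hB)
          intro h7
          apply hsame
          exact hA.2.trans (h7.trans (same_symm hB.2))
        exact comm_op_of_unit (comm_of_commutator_bot h6 hg hmem)

end classify

section assembly

variable {k : Type*} [Field k] {M : Type*} [AddCommGroup M] [Module k M] [FiniteDimensional k M]

local notation "GLm" => LinearMap.GeneralLinearGroup k M
local notation "End'" => (M →ₗ[k] M)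

variable {G : Subgroup (LinearMap.GeneralLinearGroup k M)}

open QP (QE InG rk TT cy WW)

/-- The quadratic elements commuting with the root subgroups. -/
def Qz (G : Subgroup (LinearMap.GeneralLinearGroup k M)) : Set (LinearMap.GeneralLinearGroup k M) :=
  {σ | σ ∈ quadraticElements G ∧ TZ G (dx σ)}

/-- The group they generate. -/
def Cz (G : Subgroup (LinearMap.GeneralLinearGroup k M)) : Subgroup (LinearMap.GeneralLinearGroup k M) :=
  Subgroup.closure (Qz G)

lemma Cz_le : Cz G ≤ G := by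
  unfold Cz
  rw [Subgroup.closure_le]
  intro σ hσ
  exact hσ.1.1

lemma conj_eq_of_norm {Γ : Type*} [Group Γ] {H : Subgroup Γ} {g : Γ} (h : g ∈ Subgroup.normalizer (H : Set Γ)) :
    conjBy H g = H := by
  ext x
  rw [mem_conj]
  have h3 := (Subgroup.mem_normalizer_iff.mp h) (g⁻¹ * x * g)
  have e : g * (g⁻¹ * x * g) * g⁻¹ = x := by group
  rw [e] at h3
  exact h3

lemma norm_of_comm {Γ : Type*} [Group Γ] {H : Subgroup Γ} {g : Γ} (h : ∀ x ∈ H, x * g = g * x) :
    g ∈ Subgroup.normalizer (H : Set Γ) := by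
  rw [Subgroup.mem_normalizer_iff]
  intro x
  constructor
  · intro hx
    rw [← h x hx, mul_inv_cancel_right]
    exact hx
  · intro hx
    have e : g * x * g⁻¹ ∈ H := hx
    have e2 := h _ e
    have e3 : g * x * g⁻¹ * g = g * x := by group
    rw [e3] at e2
    have e4 : x = g * x * g⁻¹ := mul_left_cancel e2
    rw [e4]
    exact e

lemma norm_of_conj {Γ : Type*} [Group Γ] {H : Subgroup Γ} {g : Γ} (h : conjBy H g = H) :
    g ∈ Subgroup.normalizer (H : Set Γ) := by
  rw [Subgroup.mem_normalizer_iff]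
  intro x
  conv_rhs => rw [← h]
  rw [mem_conj]
  have e : g⁻¹ * (g * x * g⁻¹) * g = x := by group
  rw [e]

lemma conj_genG_le {Γ : Type*} [Group Γ] {P : Set (Subgroup Γ)} {g : Γ} (h : ∀ A ∈ P, conjBy A g ∈ P) :
    conjBy (genG P) g ≤ genG P := by
  rw [Subgroup.map_le_iff_le_comap]
  refine iSup₂_le fun A hA => ?_
  intro a ha
  exact le_genG (h A hA) ⟨a, ha, rfl⟩

lemma norm_genG {Γ : Type*} [Group Γ] {P : Set (Subgroup Γ)} {g : Γ} (h : ∀ A ∈ P, conjBy A g ∈ P)
    (h' : ∀ A ∈ P, conjBy A g⁻¹ ∈ P) : g ∈ Subgroup.normalizer ((genG P : Subgroup Γ) : Set Γ) := by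
  apply norm_of_conj
  apply le_antisymm (conj_genG_le h)
  have h3 := conj_genG_le h'
  intro x hx
  refine ⟨g⁻¹ * x * g, ?_, by simp [MulAut.conj_apply, mul_assoc]⟩
  exact h3 ⟨x, hx, by simp [MulAut.conj_apply]⟩

/-- The two-sided closure under scalars. -/
lemma Qz_subset : Qz G ⊆ quadraticElements (Cz G) := by
  intro σ hσ
  refine ⟨Subgroup.subset_closure hσ, hσ.1.2.1, ?_⟩
  rintro ρ ⟨c, hc⟩
  by_cases hc0 : c = 0
  · have : ρ = 1 := by
      apply Units.ext
      rw [hc, hc0, zero_smul, add_zero]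
      rfl
    rw [this]
    exact Subgroup.one_mem _
  · apply Subgroup.subset_closure
    have hq := QP.QE_of_mem hσ.1
    have hdρ : dx ρ = c • dx σ := by
      unfold dx
      rw [hc]
      abel
    refine ⟨⟨hσ.1.2.2 ⟨c, hc⟩, ⟨?_, ?_⟩, ?_⟩, ?_⟩
    · show dx ρ * dx ρ = 0
      rw [hdρ]
      exact smul_sq hq.1 c
    · show dx ρ ≠ 0
      rw [hdρ]
      exact smul_ne_zero hc0 hq.2.1
    · rintro ρ' ⟨c', hc'⟩
      have h3 : dx ρ = c • dx σ := hdρ
      have hsq := smul_sq hq.1 (c' * c)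
      have e : ρ' = unitOfSq ((c' * c) • dx σ) hsq := by
        apply Units.ext
        rw [hc', unitOfSq_coe]
        have h4 : (ρ : M →ₗ[k] M) - 1 = c • dx σ := hdρ
        rw [h4, smul_smul]
      rw [e]
      exact hσ.1.2.2 ⟨_, rfl⟩
    · rw [hdρ]
      exact hσ.2.smul c

lemma closure_Cz : Subgroup.closure (quadraticElements (Cz G)) = Cz G := by
  apply le_antisymm
  · rw [Subgroup.closure_le]
    intro σ hσ
    exact hσ.1
  · exact Subgroup.closure_mono Qz_subset

lemma quadratic_mono {C : Subgroup GLm} (hC : C ≤ G) : quadraticElements C ⊆ quadraticElements G := by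
  intro σ hσ
  exact ⟨hC hσ.1, hσ.2.1, fun ρ hρ => hC (hσ.2.2 hρ)⟩

/-- Reindexing. -/
lemma cp_of_index {ι : Type*} [Finite ι] (Gi : ι → Subgroup GLm)
    (h1 : ∀ i, Gi i ≤ G ∧ ∀ g ∈ G, conjBy (Gi i) g = Gi i) (h2 : ∀ i j, i ≠ j → ⁅Gi i, Gi j⁆ = ⊥) (h3 : (⨆ i, Gi i) = G)
    (h4 : ∀ i, IsQuasisimple ↥(Gi i) ∧ Subgroup.closure (quadraticElements G ∩ (Gi i : Set GLm)) = Gi i)
    (h5 : quadraticElements G ⊆ ⋃ i, (Gi i : Set GLm)) : CPStmt G := by
  let e := Finite.equivFin ι
  refine ⟨_, fun i => Gi (e.symm i), fun i => h1 _, fun i j hij => h2 _ _ (fun h => hij (e.symm.injective h)), ?_,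
    fun i => h4 _, ?_⟩
  · rw [← h3]
    exact e.symm.surjective.iSup_comp Gi
  · intro σ hσ
    obtain ⟨i, hi⟩ := Set.mem_iUnion.mp (h5 hσ)
    refine Set.mem_iUnion.mpr ⟨e i, ?_⟩
    simpa using hi

end assembly

section main

/-- The inductive step. -/
theorem cp_step {k : Type*} [Field k] {M : Type u} [AddCommGroup M] [Module k M] [FiniteDimensional k M]
    (hk2 : ringChar k ≠ 2) (hk3 : Nat.card k ≠ 3) {G : Subgroup (LinearMap.GeneralLinearGroup k M)} (hG : IsQuadraticPair G)
    (IH : ∀ (M' : Type u) [AddCommGroup M'] [Module k M'] [FiniteDimensional k M'],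
      Module.finrank k M' < Module.finrank k M → ∀ G' : Subgroup (LinearMap.GeneralLinearGroup k M'),
      IsQuadraticPair G' → CPStmt G') : CPStmt G := by
  by_cases hQ : (quadraticElements G).Nonempty
  swap
  · have hbot : G = ⊥ := by
      rw [← hG.2, Set.not_nonempty_iff_eq_empty.mp hQ, Subgroup.closure_empty]
    refine ⟨0, fun i => i.elim0, fun i => i.elim0, fun i => i.elim0, ?_, fun i => i.elim0, ?_⟩
    · rw [hbot]
      simp
    · intro σ hσ
      exact absurd ⟨σ, hσ⟩ hQ
  have h2 : (2 : k) ≠ 0 := Ring.two_ne_zero hk2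
  have hDI : DI G := DI_of_thmF h2 hk3
  have hIrr := hG.1
  -- a minimal element
  obtain ⟨u, hu⟩ : ∃ u, QR G u := by
    classical
    obtain ⟨σ₀, hσ₀⟩ := hQ
    have hex : ∃ n, ∃ z, QP.QE G z ∧ QP.rk z = n := ⟨_, _, QP.QE_of_mem hσ₀, rfl⟩
    obtain ⟨z, hz, hzn⟩ := Nat.find_spec hex
    refine ⟨_, ⟨unitOfSq z hz.1, QP.min_of_QE hz fun z' hz' => ?_, rfl⟩⟩
    rw [hzn]
    exact Nat.find_min' hex ⟨z', hz', rfl⟩
  -- the two commuting subgroups
  have hcomm : ∀ c ∈ Cz G, ∀ d ∈ genG (quadraticRootSubgroups G), d * c = c * d := by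
    have hle : Cz G ≤ Subgroup.centralizer ((genG (quadraticRootSubgroups G) : Subgroup (LinearMap.GeneralLinearGroup k M)) :
        Set (LinearMap.GeneralLinearGroup k M)) := by
      unfold Cz
      rw [Subgroup.closure_le]
      intro σ hσ
      have hq := QP.QE_of_mem hσ.1
      have h3 := unit_mem_cent hq.1 (fun u hu => comm_of_TZ hDI hIrr h2 hq hσ.2 hu)
      rwa [unit_dx] at h3
    intro c hc d hd
    exact Subgroup.mem_centralizer_iff.mp (hle hc) d hd
  have hsup : genG (quadraticRootSubgroups G) ⊔ Cz G = G := by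
    apply le_antisymm (sup_le genG_le Cz_le)
    conv_lhs => rw [← hG.2]
    rw [Subgroup.closure_le]
    intro σ hσ
    have hq := QP.QE_of_mem hσ
    rcases classify hk2 hk3 hG _ _ rfl hq with hT | ⟨a₀, ha₀, h, hmem⟩
    · exact Subgroup.mem_sup_right (Subgroup.subset_closure ⟨hσ, hT⟩)
    · rw [unit_dx] at hmem
      exact Subgroup.mem_sup_left (genG_part_le hmem)
  have hirr : ∀ W : Submodule k M, (∀ g ∈ Cz G, ∀ w ∈ W, (g : M →ₗ[k] M) w ∈ W) →
      (∀ g ∈ genG (quadraticRootSubgroups G), ∀ w ∈ W, (g : M →ₗ[k] M) w ∈ W) → W = ⊥ ∨ W = ⊤ := by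
    intro W h3 h4
    apply hIrr.2
    intro g hg
    have hle : genG (quadraticRootSubgroups G) ⊔ Cz G ≤ stabS W :=
      sup_le (le_stabS h4) (le_stabS h3)
    have hg' : g ∈ genG (quadraticRootSubgroups G) ⊔ Cz G := hsup.symm ▸ hg
    exact fun w hw => (hle hg' w).mpr hw
  have hu' : ∃ u : M →ₗ[k] M, u * u = 0 ∧ u ≠ 0 ∧ ∀ c ∈ Cz G, (c : M →ₗ[k] M) * u = u * (c : M →ₗ[k] M) :=
    ⟨u, hu.sq, hu.ne_zero, fun c hc => comm_op_of_unit (hcomm c hc _ (hu.unit_mem_G0 hu.sq)).symm⟩
  obtain ⟨s', H, h1, h2', h3, h4, h5⟩ := pull_CP hcomm hirr hIrr.1 hu' closure_Cz IH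
  obtain ⟨r, a, ha, hcov, hdis, hcomm'⟩ := exists_parts hDI hIrr h2
  have hnormP : ∀ i, ∀ g ∈ G, g ∈ Subgroup.normalizer ((genG (compS G (a i)) : Subgroup (LinearMap.GeneralLinearGroup k M)) :
      Set (LinearMap.GeneralLinearGroup k M)) := by
    intro i
    have hle : genG (quadraticRootSubgroups G) ⊔ Cz G ≤ Subgroup.normalizer ((genG (compS G (a i)) : Subgroup (LinearMap.GeneralLinearGroup k M)) :
        Set (LinearMap.GeneralLinearGroup k M)) := by
      apply sup_le
      · intro g hg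
        exact norm_genG (fun A hA => conj_mem_part hDI hIrr h2 hA hg)
          (fun A hA => conj_mem_part hDI hIrr h2 hA (inv_mem hg))
      · intro c hc
        exact norm_of_comm (fun x hx => hcomm c hc x (genG_part_le hx))
    exact fun g hg => hle (hsup.symm ▸ hg)
  have hnormH : ∀ j, ∀ g ∈ G, g ∈ Subgroup.normalizer ((H j : Subgroup (LinearMap.GeneralLinearGroup k M)) :
      Set (LinearMap.GeneralLinearGroup k M)) := by
    intro j
    have hle : genG (quadraticRootSubgroups G) ⊔ Cz G ≤ Subgroup.normalizer ((H j : Subgroup (LinearMap.GeneralLinearGroup k M)) :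
        Set (LinearMap.GeneralLinearGroup k M)) := by
      apply sup_le
      · intro d hd
        exact norm_of_comm (fun x hx => (hcomm x ((h1 j).1 hx) d hd).symm)
      · intro c hc
        exact norm_of_conj ((h1 j).2 c hc)
    exact fun g hg => hle (hsup.symm ▸ hg)
  apply cp_of_index (ι := Fin r ⊕ Fin s') (Sum.elim (fun i => genG (compS G (a i))) H)
  · rintro (i | j)
    · exact ⟨genG_part_le.trans genG_le, fun g hg => conj_eq_of_norm (hnormP i g hg)⟩
    · exact ⟨(h1 j).1.trans Cz_le, fun g hg => conj_eq_of_norm (hnormH j g hg)⟩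
  · rintro (i | j) (i' | j') hne
    · exact comm_iSup (hcomm' i i' (fun h => hne (by rw [h])))
    · apply commutator_bot_of_comm
      intro x hx y hy
      exact hcomm y ((h1 j').1 hy) x (genG_part_le hx)
    · apply commutator_bot_of_comm
      intro x hx y hy
      exact (hcomm x ((h1 j).1 hx) y (genG_part_le hy)).symm
    · exact h2' j j' (fun h => hne (by rw [h]))
  · apply le_antisymm
    · apply iSup_le
      rintro (i | j)
      · exact genG_part_le.trans genG_le
      · exact (h1 j).1.trans Cz_le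
    · refine le_trans (le_of_eq hsup.symm) (sup_le ?_ ?_)
      · refine iSup₂_le fun A hA => ?_
        obtain ⟨i, hi⟩ := hcov A hA
        exact (le_genG hi).trans (le_iSup (Sum.elim (fun i => genG (compS G (a i))) H) (Sum.inl i))
      · rw [← h3]
        exact iSup_le fun j => le_iSup (Sum.elim (fun i => genG (compS G (a i))) H) (Sum.inr j)
  · rintro (i | j)
    · refine ⟨quasisimple_part hDI hIrr h2 hk3 (ha i), ?_⟩
      apply le_antisymm
      · rw [Subgroup.closure_le]
        exact Set.inter_subset_right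
      · refine iSup₂_le fun A hA => ?_
        obtain ⟨σ, hσ, rfl⟩ := compS_sub hA
        unfold sameActionSubgroup
        rw [Subgroup.closure_le]
        intro τ hτ
        exact Subgroup.subset_closure ⟨hτ.1.1, le_genG hA (Subgroup.subset_closure hτ)⟩
    · refine ⟨(h4 j).1, ?_⟩
      apply le_antisymm
      · rw [Subgroup.closure_le]
        exact Set.inter_subset_right
      · change H j ≤ _
        conv_lhs => rw [← (h4 j).2]
        exact Subgroup.closure_mono (Set.inter_subset_inter_left _ (quadratic_mono Cz_le))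
  · intro σ hσ
    have hq := QP.QE_of_mem hσ
    rcases classify hk2 hk3 hG _ _ rfl hq with hT | ⟨a₀, ha₀, h, hmem⟩
    · obtain ⟨j, hj⟩ := Set.mem_iUnion.mp (h5 (Qz_subset ⟨hσ, hT⟩))
      exact Set.mem_iUnion.mpr ⟨Sum.inr j, hj⟩
    · rw [unit_dx] at hmem
      obtain ⟨i, hi⟩ := hcov a₀ ha₀
      rw [compS_eq_of_mem (self_mem_compS ha₀) hi] at hmem
      exact Set.mem_iUnion.mpr ⟨Sum.inl i, hmem⟩

/-- **S5063**, core. -/
theorem s5063_core {k : Type*} [Field k] (hk2 : ringChar k ≠ 2) (hk3 : Nat.card k ≠ 3) (n : ℕ) :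
    ∀ (M : Type u) [AddCommGroup M] [Module k M] [FiniteDimensional k M], Module.finrank k M = n →
      ∀ G : Subgroup (LinearMap.GeneralLinearGroup k M), IsQuadraticPair G → CPStmt G := by
  induction n using Nat.strong_induction_on with
  | _ n ih =>
    intro M _ _ _ hn G hG
    exact cp_step hk2 hk3 hG (fun M' _ _ _ hlt G' hG' => ih _ (hn ▸ hlt) M' rfl G' hG')

end main

end Cfsg.Agent.Lib.QPH39
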