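import Cfsg.Agent.Lib.QPH39Same
import Cfsg.Agent.RootSub.Quasi

/-! The connected components of the rank one graph on the root subgroups of a quadratic pair. -/

set_option autoImplicit false
set_option linter.unusedSectionVars false

namespace Cfsg.Agent.Lib.QPH39

open Cfsg Cfsg.Agent.RootSub Cfsg.Agent.RootSub.Tv

section abs

variable {Γ : Type*} [Group Γ] {Λ : Set (Subgroup Γ)}

lemma same_sub {U V : Subgroup Γ} (h : Same Λ U V) :
    Same (subFam Λ) (U.subgroupOf (genG Λ)) (V.subgroupOf (genG Λ)) := by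
  induction h with
  | refl => exact Relation.ReflTransGen.refl
  | tail _ hbc ih =>
    exact ih.tail ⟨⟨_, hbc.1, rfl⟩, ⟨_, hbc.2.1, rfl⟩, rankOne_sub hbc.1 hbc.2.1 hbc.2.2⟩

lemma rankOne_of_sub (hc : ∀ A ∈ Λ, IsMulCommutative A) {A B : Subgroup Γ} (hA : A ∈ Λ) (hB : B ∈ Λ)
    (h : IsRankOnePair (A.subgroupOf (genG Λ)) (B.subgroupOf (genG Λ))) : IsRankOnePair A B := by
  have hne : (A.subgroupOf (genG Λ)).map (genG Λ).subtype ≠ (B.subgroupOf (genG Λ)).map (genG Λ).subtype := by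
    rw [map_sub hA, map_sub hB]
    rintro rfl
    exact h.ne rfl
  have := map_rankOne (genG Λ).subtype h (comm_sub (hc A hA)) (comm_sub (hc B hB)) hne
  rwa [map_sub hA, map_sub hB] at this

lemma sub_inj {A B : Subgroup Γ} (hA : A ∈ Λ) (hB : B ∈ Λ)
    (h : A.subgroupOf (genG Λ) = B.subgroupOf (genG Λ)) : A = B := by
  have := congrArg (Subgroup.map (genG Λ).subtype) h
  rwa [map_sub hA, map_sub hB] at this

lemma same_unsub (hc : ∀ A ∈ Λ, IsMulCommutative A) {U V : Subgroup Γ} (hU : U ∈ Λ) (hV : V ∈ Λ)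
    (h : Same (subFam Λ) (U.subgroupOf (genG Λ)) (V.subgroupOf (genG Λ))) : Same Λ U V := by
  have key : ∀ W', Same (subFam Λ) (U.subgroupOf (genG Λ)) W' →
      ∃ W ∈ Λ, W' = W.subgroupOf (genG Λ) ∧ Same Λ U W := by
    intro W' hW'
    induction hW' with
    | refl => exact ⟨U, hU, rfl, Relation.ReflTransGen.refl⟩
    | tail _ hbc ih =>
      obtain ⟨W, hW, rfl, hs⟩ := ih
      obtain ⟨c₀, hc₀, rfl⟩ := hbc.2.1
      exact ⟨c₀, hc₀, rfl, hs.tail ⟨hW, hc₀, rankOne_of_sub hc hW hc₀ hbc.2.2⟩⟩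
  obtain ⟨W, hW, e, hs⟩ := key _ h
  rwa [sub_inj hV hW e]

/-- The commutator in the commutator case is in the same component. -/
lemma same_comm_abs {S : Set (Subgroup Γ)} (hS : IsRootSubgroupSet S) (hall : ∀ A ∈ S, ∃ D ∈ S, IsRankOnePair A D)
    {U V : Subgroup Γ} (hU : U ∈ S) (h : RootCommutatorCase S U V) : Same S ⁅U, V⁆ U := by
  obtain ⟨D₁, hD₁, h₁⟩ := hall U hU
  have hC : ⁅U, V⁆ ∈ S := h.1
  obtain ⟨D₃, hD₃, h₃⟩ := hall _ hC
  have hl1 : U ∈ linePartners S ⁅U, V⁆ := by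
    obtain ⟨h1, h2⟩ := line_structure hS h hD₁ h₁
    refine ⟨⟨hU, (comm_ne_left hS h).symm, ?_⟩, ?_⟩
    · apply commutator_bot_of_comm
      intro c hc' a ha
      exact h.2.1 c hc' a (Subgroup.mem_sup_left ha)
    · rw [sup_comm]; exact h2
  exact line_partner_same hS hC hU hD₃ h₃ hD₁ h₁ hl1

lemma comm_iSup {P Q : Set (Subgroup Γ)} (h : ∀ A ∈ P, ∀ B ∈ Q, ⁅A, B⁆ = ⊥) :
    ⁅(⨆ A ∈ P, A), (⨆ B ∈ Q, B)⁆ = ⊥ := by
  rw [Subgroup.commutator_eq_bot_iff_le_centralizer]
  refine iSup₂_le fun A hA => ?_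
  rw [Subgroup.le_centralizer_iff]
  refine iSup₂_le fun B hB => ?_
  rw [← Subgroup.commutator_eq_bot_iff_le_centralizer, Subgroup.commutator_comm]
  exact h A hA B hB

end abs

variable {k : Type*} [Field k] {M : Type*} [AddCommGroup M] [Module k M]

local notation "GLm" => LinearMap.GeneralLinearGroup k M
local notation "End'" => (M →ₗ[k] M)

variable {G : Subgroup (LinearMap.GeneralLinearGroup k M)}

open QP (QE InG rk TT cy WW)

section top

variable [FiniteDimensional k M]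

/-- The set of root subgroups of `G₀`. -/
lemma rootSet_sub (hDI : DI G) (hIrr : IsIrreducibleFor G) (h2 : (2 : k) ≠ 0) :
    IsRootSubgroupSet (subFam (quadraticRootSubgroups G)) := rootSet_core hDI hIrr h2

lemma all_partner (hDI : DI G) (hIrr : IsIrreducibleFor G) (h2 : (2 : k) ≠ 0) :
    ∀ A ∈ subFam (quadraticRootSubgroups G), ∃ D ∈ subFam (quadraticRootSubgroups G), IsRankOnePair A D := by
  rintro _ ⟨A, hA, rfl⟩
  obtain ⟨σ, hσ, rfl⟩ := id hA
  obtain ⟨ρ, hρ, hr⟩ := exists_rankOne hDI hIrr h2 hσ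
  have hB : sameActionSubgroup G ρ ∈ quadraticRootSubgroups G := ⟨ρ, hρ, rfl⟩
  exact ⟨_, ⟨_, hB, rfl⟩, rankOne_sub hA hB hr⟩

/-- Members in different components commute. -/
lemma comm_of_not_same (hDI : DI G) (hIrr : IsIrreducibleFor G) (h2 : (2 : k) ≠ 0) {U V : Subgroup GLm}
    (hU : U ∈ quadraticRootSubgroups G) (hV : V ∈ quadraticRootSubgroups G)
    (hne : ¬ Same (quadraticRootSubgroups G) U V) : ⁅U, V⁆ = ⊥ := by
  have h1 := different_comp_comm (rootSet_sub hDI hIrr h2) (all_partner hDI hIrr h2) ⟨U, hU, rfl⟩ ⟨V, hV, rfl⟩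
    (fun h => hne (same_unsub (fun A hA => commutative_of_mem hA) hU hV h))
  apply commutator_bot_of_comm
  intro a ha b hb
  have h3 := comm_of_commutator_bot h1 (a := ⟨a, le_genG hU ha⟩) (b := ⟨b, le_genG hV hb⟩) ha hb
  exact congrArg Subtype.val h3

/-- The commutator in the commutator case is in the same component. -/
lemma same_comm (hDI : DI G) (hIrr : IsIrreducibleFor G) (h2 : (2 : k) ≠ 0) {U V : Subgroup GLm}
    (hU : U ∈ quadraticRootSubgroups G) (hV : V ∈ quadraticRootSubgroups G)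
    (h : RootCommutatorCase (quadraticRootSubgroups G) U V) : Same (quadraticRootSubgroups G) ⁅U, V⁆ U := by
  have h1 := same_comm_abs (rootSet_sub hDI hIrr h2) (all_partner hDI hIrr h2) ⟨U, hU, rfl⟩ (case_sub hU hV h)
  have hcomm : ⁅U.subgroupOf (genG (quadraticRootSubgroups G)), V.subgroupOf (genG (quadraticRootSubgroups G))⁆ =
      ⁅U, V⁆.subgroupOf (genG (quadraticRootSubgroups G)) := by
    apply Subgroup.map_injective (genG (quadraticRootSubgroups G)).subtype_injective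
    rw [Subgroup.map_commutator, map_sub hU, map_sub hV, map_sub h.1]
  rw [hcomm] at h1
  exact same_unsub (fun A hA => commutative_of_mem hA) h.1 hU h1

lemma conj_mem_Sg {A : Subgroup GLm} (hA : A ∈ quadraticRootSubgroups G) {g : GLm} (hg : g ∈ G) :
    conjBy A g ∈ quadraticRootSubgroups G := by
  obtain ⟨σ, hσ, rfl⟩ := hA
  rw [conj_E hσ hg]
  exact ⟨_, conj_mem_min hσ hg, rfl⟩

lemma same_conj_G {U V : Subgroup GLm} (h : Same (quadraticRootSubgroups G) U V) {g : GLm} (hg : g ∈ G) :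
    Same (quadraticRootSubgroups G) (conjBy U g) (conjBy V g) := by
  induction h with
  | refl => exact Relation.ReflTransGen.refl
  | tail _ hbc ih =>
    exact ih.tail ⟨conj_mem_Sg hbc.1 hg, conj_mem_Sg hbc.2.1 hg, rankOne_conj hbc.2.2 g⟩

lemma le_G_of_mem {V : Subgroup GLm} (hV : V ∈ quadraticRootSubgroups G) : V ≤ G := by
  obtain ⟨σ, -, rfl⟩ := hV
  exact E_le_G

/-- Elements of a root subgroup keep the components. -/
lemma same_conj_of_mem (hDI : DI G) (hIrr : IsIrreducibleFor G) (h2 : (2 : k) ≠ 0) {U V : Subgroup GLm}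
    (hU : U ∈ quadraticRootSubgroups G) (hV : V ∈ quadraticRootSubgroups G) {g : GLm} (hg : g ∈ V) :
    Same (quadraticRootSubgroups G) U (conjBy U g) := by
  by_cases hUV : Same (quadraticRootSubgroups G) U V
  · have h3 := same_conj_G hUV (le_G_of_mem hV hg)
    rw [conj_of_mem hg] at h3
    exact hUV.trans (same_symm h3)
  · have hcomm := comm_of_not_same hDI hIrr h2 hU hV hUV
    have : conjBy U g = U := conj_fix_of_comm fun y hy => (comm_of_commutator_bot hcomm hy hg).symm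
    rw [this]

/-- Elements of `G₀` keep the components. -/
lemma same_conj_gen (hDI : DI G) (hIrr : IsIrreducibleFor G) (h2 : (2 : k) ≠ 0) {g : GLm}
    (hg : g ∈ genG (quadraticRootSubgroups G)) {U : Subgroup GLm} (hU : U ∈ quadraticRootSubgroups G) :
    Same (quadraticRootSubgroups G) U (conjBy U g) := by
  let H : Subgroup GLm :=
    { carrier := {g | g ∈ G ∧ ∀ U ∈ quadraticRootSubgroups G, Same (quadraticRootSubgroups G) U (conjBy U g) ∧
        Same (quadraticRootSubgroups G) U (conjBy U g⁻¹)}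
      one_mem' := by
        refine ⟨G.one_mem, fun U _ => ?_⟩
        simp only [inv_one, conj_one']
        exact ⟨Relation.ReflTransGen.refl, Relation.ReflTransGen.refl⟩
      mul_mem' := by
        rintro x y ⟨hx, hx2⟩ ⟨hy, hy2⟩
        refine ⟨G.mul_mem hx hy, fun U hU => ⟨?_, ?_⟩⟩
        · rw [← conj_conj]
          exact (hy2 U hU).1.trans (hx2 _ (conj_mem_Sg hU hy)).1
        · rw [mul_inv_rev, ← conj_conj]
          exact (hx2 U hU).2.trans (hy2 _ (conj_mem_Sg hU (G.inv_mem hx))).2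
      inv_mem' := by
        rintro x ⟨hx, hx2⟩
        refine ⟨G.inv_mem hx, fun U hU => ?_⟩
        rw [inv_inv]
        exact ⟨(hx2 U hU).2, (hx2 U hU).1⟩ }
  have hle : genG (quadraticRootSubgroups G) ≤ H := by
    refine iSup₂_le fun V hV g hg => ?_
    refine ⟨le_G_of_mem hV hg, fun U hU => ⟨same_conj_of_mem hDI hIrr h2 hU hV hg, ?_⟩⟩
    exact same_conj_of_mem hDI hIrr h2 hU hV (V.inv_mem hg)
  exact ((hle hg).2 U hU).1

end top

section part

variable [FiniteDimensional k M] {A₀ : Subgroup (LinearMap.GeneralLinearGroup k M)}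

/-- The component of `A₀`. -/
abbrev compS (G : Subgroup (LinearMap.GeneralLinearGroup k M)) (A₀ : Subgroup (LinearMap.GeneralLinearGroup k M)) :
    Set (Subgroup (LinearMap.GeneralLinearGroup k M)) :=
  componentOf (FAdj (quadraticRootSubgroups G)) (quadraticRootSubgroups G) A₀

lemma compS_sub : compS G A₀ ⊆ quadraticRootSubgroups G := fun _ h => h.1

lemma same_of_compS {A B : Subgroup GLm} (hA : A ∈ compS G A₀) (hB : B ∈ compS G A₀) :
    Same (quadraticRootSubgroups G) A B := (same_symm hA.2).trans hB.2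

lemma compS_of_same {A B : Subgroup GLm} (hA : A ∈ compS G A₀) (hB : B ∈ quadraticRootSubgroups G)
    (h : Same (quadraticRootSubgroups G) A B) : B ∈ compS G A₀ := ⟨hB, hA.2.trans h⟩

lemma genG_part_le : genG (compS G A₀) ≤ genG (quadraticRootSubgroups G) :=
  iSup₂_le fun _ hA => le_genG (compS_sub hA)

lemma conj_mem_part (hDI : DI G) (hIrr : IsIrreducibleFor G) (h2 : (2 : k) ≠ 0) {A : Subgroup GLm}
    (hA : A ∈ compS G A₀) {g : GLm} (hg : g ∈ genG (quadraticRootSubgroups G)) : conjBy A g ∈ compS G A₀ :=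
  compS_of_same hA (conj_mem_Sg (compS_sub hA) (genG_le hg)) (same_conj_gen hDI hIrr h2 hg (compS_sub hA))

/-- The component is a set of root subgroups of the group it generates. -/
theorem rootSet_part (hDI : DI G) (hIrr : IsIrreducibleFor G) (h2 : (2 : k) ≠ 0) :
    IsRootSubgroupSet (subFam (compS G A₀)) := by
  refine ⟨?_, ?_, subFam_gen, ?_, ?_⟩
  · rintro _ ⟨A, hA, rfl⟩
    exact comm_sub (commutative_of_mem (compS_sub hA))
  · rintro _ ⟨A, hA, rfl⟩
    exact ne_bot_sub hA (ne_bot_of_mem (compS_sub hA))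
  · rintro _ ⟨A, hA, rfl⟩ g
    exact ⟨_, conj_mem_part hDI hIrr h2 hA (genG_part_le g.2), (conj_sub A g).symm⟩
  · rintro _ ⟨A, hA, rfl⟩ _ ⟨B, hB, rfl⟩
    have hA' := compS_sub hA
    have hB' := compS_sub hB
    obtain ⟨σ, hσ, hAe⟩ := id hA'
    obtain ⟨τ, hτ, hBe⟩ := id hB'
    subst hAe hBe
    rcases pair_cases hDI hIrr h2 hσ hτ with h1 | h1 | h1
    · left
      apply commutator_bot_of_comm
      intro a ha b hb
      exact Subtype.ext (comm_of_commutator_bot h1 ha hb)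
    · exact Or.inr (Or.inl (rankOne_sub hA hB h1))
    · refine Or.inr (Or.inr (case_sub hA hB ⟨?_, h1.2⟩))
      exact compS_of_same hA h1.1 (same_symm (same_comm hDI hIrr h2 hA' hB' h1))

/-- Connectedness of a component. -/
theorem connected_part : IsConnectedFamily (FAdj (subFam (compS G A₀))) (subFam (compS G A₀)) := by
  have key : ∀ {A Y : Subgroup GLm}, A ∈ compS G A₀ → Same (quadraticRootSubgroups G) A Y →
      Y ∈ compS G A₀ ∧ Same (subFam (compS G A₀)) (A.subgroupOf (genG (compS G A₀))) (Y.subgroupOf (genG (compS G A₀))) := by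
    intro A Y hA h
    induction h with
    | refl => exact ⟨hA, Relation.ReflTransGen.refl⟩
    | tail _ hbc ih =>
      obtain ⟨h1, h3⟩ := ih
      have h4 := compS_of_same h1 hbc.2.1 (Relation.ReflTransGen.single hbc)
      exact ⟨h4, h3.tail ⟨⟨_, h1, rfl⟩, ⟨_, h4, rfl⟩, rankOne_sub h1 h4 hbc.2.2⟩⟩
  rintro _ ⟨A, hA, rfl⟩ _ ⟨B, hB, rfl⟩
  exact (key hA (same_of_compS hA hB)).2

lemma self_mem_compS (hA₀ : A₀ ∈ quadraticRootSubgroups G) : A₀ ∈ compS G A₀ := ⟨hA₀, Relation.ReflTransGen.refl⟩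

/-- Each component has two members. -/
lemma two_members_part (hDI : DI G) (hIrr : IsIrreducibleFor G) (h2 : (2 : k) ≠ 0)
    (hA₀ : A₀ ∈ quadraticRootSubgroups G) :
    ∃ A ∈ subFam (compS G A₀), ∃ B ∈ subFam (compS G A₀), A ≠ B := by
  obtain ⟨σ, hσ, rfl⟩ := id hA₀
  obtain ⟨ρ, hρ, hr⟩ := exists_rankOne hDI hIrr h2 hσ
  have hB : sameActionSubgroup G ρ ∈ quadraticRootSubgroups G := ⟨ρ, hρ, rfl⟩
  have h1 := self_mem_compS hA₀
  have h3 := compS_of_same h1 hB (same_of_adj hA₀ hB hr)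
  exact ⟨_, ⟨_, h1, rfl⟩, _, ⟨_, h3, rfl⟩, (rankOne_sub h1 h3 hr).ne⟩

lemma comm_op_of_bot {σ τ : GLm} (h : ⁅sameActionSubgroup G σ, sameActionSubgroup G τ⁆ = ⊥)
    (hσ : σ ∈ minimalQuadraticElements G) (hτ : τ ∈ minimalQuadraticElements G) : dx σ * dx τ = dx τ * dx σ :=
  comm_dx (comm_of_commutator_bot h (Subgroup.subset_closure ⟨hσ, rfl, rfl⟩) (Subgroup.subset_closure ⟨hτ, rfl, rfl⟩))

lemma bot_of_comm_op (hDI : DI G) {σ τ : GLm} (hσ : σ ∈ minimalQuadraticElements G) (hτ : τ ∈ minimalQuadraticElements G)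
    (h : dx σ * dx τ = dx τ * dx σ) : ⁅sameActionSubgroup G σ, sameActionSubgroup G τ⁆ = ⊥ := by
  have hs1 : σ ≠ 1 := by
    rintro rfl
    exact (qr_of_mem hσ).ne_zero (by simp [dx])
  have ht1 : τ ≠ 1 := by
    rintro rfl
    exact (qr_of_mem hτ).ne_zero (by simp [dx])
  have hcomm : σ * τ = τ * σ := by
    apply Units.ext
    have e1 : (σ : End') = 1 + dx σ := coe_eq σ
    have e2 : (τ : End') = 1 + dx τ := coe_eq τ
    rw [Units.val_mul, Units.val_mul, e1, e2]
    simp only [mul_add, add_mul, mul_one, one_mul, h]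
    abel
  exact s5073_core hDI hσ hτ (Or.inl ⟨σ, Subgroup.subset_closure ⟨hσ, rfl, rfl⟩, hs1, τ,
    Subgroup.subset_closure ⟨hτ, rfl, rfl⟩, ht1, hcomm⟩)

lemma E_eq_of_ker_range {σ τ : GLm} (hσ : σ ∈ minimalQuadraticElements G) (hτ : τ ∈ minimalQuadraticElements G)
    (h1 : LinearMap.ker (dx τ) = LinearMap.ker (dx σ)) (h3 : LinearMap.range (dx τ) = LinearMap.range (dx σ)) :
    sameActionSubgroup G τ = sameActionSubgroup G σ :=
  E_eq_of_same ⟨hτ, h1, h3⟩

/-- Different members of a component have different centralizers. -/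
theorem cent_part (hDI : DI G) (hIrr : IsIrreducibleFor G) (h2 : (2 : k) ≠ 0) (hk3 : Nat.card k ≠ 3) :
    ∀ A ∈ subFam (compS G A₀), ∀ C ∈ subFam (compS G A₀), A ≠ C →
      centralizingMembers (subFam (compS G A₀)) A ≠ centralizingMembers (subFam (compS G A₀)) C := by
  rintro _ ⟨A, hA, rfl⟩ _ ⟨C, hC, rfl⟩ hne heq
  apply hne
  obtain ⟨σ, hσ, rfl⟩ := id (compS_sub hA)
  obtain ⟨τ, hτ, rfl⟩ := id (compS_sub hC)
  obtain ⟨h1, h3⟩ := same_of_cent hDI hIrr h2 hk3 (qr_of_mem hσ) (qr_of_mem hτ) (by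
    rintro z ⟨ρ, hρ, rfl⟩ hz
    have hV : sameActionSubgroup G ρ ∈ quadraticRootSubgroups G := ⟨ρ, hρ, rfl⟩
    by_cases hVP : sameActionSubgroup G ρ ∈ compS G A₀
    · have hb := bot_of_comm_op hDI hρ hσ hz
      have hmem : (sameActionSubgroup G ρ).subgroupOf (genG (compS G A₀)) ∈
          centralizingMembers (subFam (compS G A₀)) ((sameActionSubgroup G σ).subgroupOf (genG (compS G A₀))) := by
        rw [mem_centralizingMembers_iff]
        refine ⟨⟨_, hVP, rfl⟩, ?_⟩
        apply commutator_bot_of_comm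
        intro a ha b hb'
        exact Subtype.ext (comm_of_commutator_bot hb ha hb')
      rw [heq, mem_centralizingMembers_iff] at hmem
      have h5 : ⁅sameActionSubgroup G ρ, sameActionSubgroup G τ⁆ = ⊥ := by
        apply commutator_bot_of_comm
        intro a ha b hb'
        have h6 := comm_of_commutator_bot hmem.2 (a := ⟨a, le_genG hVP ha⟩) (b := ⟨b, le_genG hC hb'⟩) ha hb'
        exact congrArg Subtype.val h6
      exact comm_op_of_bot h5 hρ hτ
    · have h5 : ¬ Same (quadraticRootSubgroups G) (sameActionSubgroup G ρ) (sameActionSubgroup G τ) := by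
        intro h6
        exact hVP (compS_of_same hC hV (same_symm h6))
      exact comm_op_of_bot (comm_of_not_same hDI hIrr h2 hV (compS_sub hC) h5) hρ hτ)
  rw [E_eq_of_ker_range hσ hτ h1 h3]

/-- The size of a member. -/
lemma card_member (h2 : (2 : k) ≠ 0) (hk3 : Nat.card k ≠ 3) {A : Subgroup GLm} (hA : A ∈ quadraticRootSubgroups G) :
    3 < ENat.card A := by
  obtain ⟨σ, hσ, rfl⟩ := hA
  have hx := qr_of_mem hσ
  have hmem : ∀ c : k, c • dx σ ∈ LE G (dx σ) hx := fun c => Submodule.smul_mem _ c (self_mem_LE hx)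
  let f : k → ↥(sameActionSubgroup G σ) := fun c =>
    ⟨unitOfSq (c • dx σ) (smul_sq hx.sq c), unit_mem_E hσ (hmem c) _⟩
  have hf : Function.Injective f := by
    intro c c' e
    have e1 := congrArg (fun g : ↥(sameActionSubgroup G σ) => ((g : GLm) : M →ₗ[k] M)) e
    simp only [f, unitOfSq_coe] at e1
    have e2 : c • dx σ = c' • dx σ := add_left_cancel e1
    exact smul_left_injective k hx.ne_zero e2
  exact lt_of_lt_of_le (card_gt_three h2 hk3) (ENat.card_le_card_of_injective hf)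

lemma card_member_sub {Λ : Set (Subgroup GLm)} (h2 : (2 : k) ≠ 0) (hk3 : Nat.card k ≠ 3) {A : Subgroup GLm}
    (hA : A ∈ quadraticRootSubgroups G) (hAΛ : A ∈ Λ) : 3 < ENat.card (A.subgroupOf (genG Λ)) := by
  have e := (Subgroup.subgroupOfEquivOfLe (le_genG hAΛ)).toEquiv
  rw [ENat.card_congr e]
  exact card_member h2 hk3 hA

/-- Rank one pairs are special. -/
lemma special_member (hDI : DI G) (hIrr : IsIrreducibleFor G) (h2 : (2 : k) ≠ 0) {A B : Subgroup GLm}
    (hA : A ∈ quadraticRootSubgroups G) (hB : B ∈ quadraticRootSubgroups G) (h : IsRankOnePair A B) :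
    IsSpecialRankOnePair A B := by
  obtain ⟨σ, hσ, rfl⟩ := hA
  obtain ⟨τ, hτ, rfl⟩ := hB
  rcases s5065_core hDI h2 hσ hτ with hU | hS
  · exfalso
    obtain ⟨t, ht⟩ := partner_of_rankOne hDI hIrr hσ hτ h (dx σ) (self_mem_LE _) (qr_of_mem hσ).ne_zero
    obtain ⟨h3, h4⟩ := units_mem_join hσ hτ ht
    exact not_unip_of_RP ht.2.2.2 (qr_of_mem hσ).ne_zero h3 h4 hU
  · exact hS.1

/-- Special pairs stay special in a subgroup. -/
lemma special_sub {Γ : Type*} [Group Γ] {Λ : Set (Subgroup Γ)} {A B : Subgroup Γ} (hA : A ∈ Λ) (hB : B ∈ Λ)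
    (h : IsSpecialRankOnePair A B) :
    IsSpecialRankOnePair (A.subgroupOf (genG Λ)) (B.subgroupOf (genG Λ)) := by
  refine ⟨rankOne_sub hA hB h.1, ?_⟩
  intro a ha ha1 b hb hb1 e
  have ha1' : (a : Γ) ≠ 1 := fun e' => ha1 (Subtype.ext e')
  have hb1' : (b : Γ) ≠ 1 := fun e' => hb1 (Subtype.ext e')
  rw [conj_sub, conj_sub] at e
  have e2 := congrArg (Subgroup.map (genG Λ).subtype) e
  have hle : ∀ {C : Subgroup Γ} (x : genG Λ), C ∈ Λ → conjBy C (x : Γ) ≤ genG Λ := by
    intro C x hC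
    rintro _ ⟨w, hw, rfl⟩
    exact mul_mem (mul_mem x.2 (le_genG hC hw)) (inv_mem x.2)
  rw [Subgroup.map_subgroupOf_eq_of_le (hle _ hA), Subgroup.map_subgroupOf_eq_of_le (hle _ hB)] at e2
  apply Subtype.ext
  have := h.2 a ha ha1' b hb hb1' e2
  simpa using this

/-- The subgroup generated by a component is quasisimple. -/
theorem quasisimple_part (hDI : DI G) (hIrr : IsIrreducibleFor G) (h2 : (2 : k) ≠ 0) (hk3 : Nat.card k ≠ 3)
    (hA₀ : A₀ ∈ quadraticRootSubgroups G) : IsQuasisimple ↥(genG (compS G A₀)) := by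
  have hS := rootSet_part (A₀ := A₀) hDI hIrr h2
  have hspecial : ∀ A ∈ subFam (compS G A₀), ∀ B ∈ rankOnePartners (subFam (compS G A₀)) A,
      IsSpecialRankOnePair A B := by
    rintro _ ⟨A, hA, rfl⟩ _ ⟨⟨B, hB, rfl⟩, hr⟩
    exact special_sub hA hB (special_member hDI hIrr h2 (compS_sub hA) (compS_sub hB)
      (rankOne_of_sub (fun _ hC => commutative_of_mem (compS_sub hC)) hA hB hr))
  have hcard : ∀ A ∈ subFam (compS G A₀), 3 < ENat.card A := by
    rintro _ ⟨A, hA, rfl⟩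
    exact card_member_sub h2 hk3 (compS_sub hA) hA
  obtain ⟨-, hq, -, -⟩ := s5033_main hS (two_members_part hDI hIrr h2 hA₀) connected_part
    (cent_part hDI hIrr h2 hk3) (fun _ => hcard) hspecial
  -- the group is perfect
  have htop : commutator ↥(genG (compS G A₀)) = ⊤ := by
    rw [eq_top_iff, ← hS.generates]
    refine iSup₂_le fun A hA => ?_
    obtain ⟨C, hC, rfl⟩ := id hA
    obtain ⟨σ, hσ, rfl⟩ := id (compS_sub hC)
    obtain ⟨ρ, hρ, hr⟩ := exists_rankOne hDI hIrr h2 hσ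
    have hD : sameActionSubgroup G ρ ∈ quadraticRootSubgroups G := ⟨ρ, hρ, rfl⟩
    have hDP := compS_of_same hC hD (same_of_adj (compS_sub hC) hD hr)
    have hsp := special_sub hC hDP (special_member hDI hIrr h2 (compS_sub hC) hD hr)
    have hp := sup_perfect hsp (hS.commutative _ hA) (hcard _ hA)
    have hle1 : (sameActionSubgroup G σ).subgroupOf (genG (compS G A₀)) ≤
        ⁅(sameActionSubgroup G σ).subgroupOf (genG (compS G A₀)) ⊔ (sameActionSubgroup G ρ).subgroupOf (genG (compS G A₀)),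
          (sameActionSubgroup G σ).subgroupOf (genG (compS G A₀)) ⊔ (sameActionSubgroup G ρ).subgroupOf (genG (compS G A₀))⁆ := by
      rw [hp]
      exact le_sup_left
    exact hle1.trans (Subgroup.commutator_mono le_top le_top)
  have e : ↥(commutator ↥(genG (compS G A₀))) ≃* ↥(genG (compS G A₀)) := by
    rw [htop]
    exact Subgroup.topEquiv
  exact quasisimple_congr e hq

end part

section finite

variable [FiniteDimensional k M]

/-- The set of components. -/
def compsS (G : Subgroup (LinearMap.GeneralLinearGroup k M)) : Set (Set (Subgroup (LinearMap.GeneralLinearGroup k M))) :=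
  (fun A => compS G A) '' quadraticRootSubgroups G

/-- There are finitely many components. -/
theorem finite_comps (hDI : DI G) (hIrr : IsIrreducibleFor G) (h2 : (2 : k) ≠ 0) : (compsS G).Finite := by
  -- a choice of data
  have hch : ∀ c : ↥(compsS G), ∃ σ τ : GLm, σ ∈ minimalQuadraticElements G ∧ τ ∈ minimalQuadraticElements G ∧
      c.1 = compS G (sameActionSubgroup G σ) ∧ sameActionSubgroup G τ ∈ c.1 ∧ RP (dx σ) (dx τ) := by
    rintro ⟨_, A, ⟨σ, hσ, rfl⟩, rfl⟩
    obtain ⟨ρ, hρ, hn⟩ := exists_R_partner hDI hIrr hσ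
    obtain ⟨t, ht, htk, htr, hrp⟩ := (hDI _ _ (qr_of_mem hσ) (qr_of_mem hρ)).resolve_left hn
    have hτ := ht.unit_mem hrp.tt
    have hdx : dx (unitOfSq t hrp.tt) = t := by simp [dx]
    have hEτ : sameActionSubgroup G (unitOfSq t hrp.tt) = sameActionSubgroup G ρ :=
      E_of_unit ht hrp.tt hρ htk htr
    refine ⟨σ, unitOfSq t hrp.tt, hσ, hτ, rfl, ?_, by rw [hdx]; exact hrp⟩
    rw [hEτ]
    have hA : sameActionSubgroup G σ ∈ quadraticRootSubgroups G := ⟨σ, hσ, rfl⟩
    have hB : sameActionSubgroup G ρ ∈ quadraticRootSubgroups G := ⟨ρ, hρ, rfl⟩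
    exact compS_of_same (self_mem_compS hA) hB (same_of_adj hA hB (rankOne_of_not_TU hDI hIrr h2 hσ hρ hn))
  choose σ τ hσ hτ hc hτc hrp using hch
  have hli : LinearIndependent k (fun c : ↥(compsS G) => dx (σ c)) := by
    rw [linearIndependent_iff']
    intro s g hsum i hi
    have h0 : ∑ j ∈ s, g j • (dx (τ i) * dx (σ j) - dx (σ j) * dx (τ i)) = 0 := by
      have h3 : dx (τ i) * (∑ j ∈ s, g j • dx (σ j)) - (∑ j ∈ s, g j • dx (σ j)) * dx (τ i) =
          ∑ j ∈ s, g j • (dx (τ i) * dx (σ j) - dx (σ j) * dx (τ i)) := by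
        rw [Finset.mul_sum, Finset.sum_mul, ← Finset.sum_sub_distrib]
        refine Finset.sum_congr rfl fun j _ => ?_
        rw [mul_smul_comm, smul_mul_assoc, smul_sub]
      rw [← h3, hsum]
      simp
    rw [Finset.sum_eq_single i] at h0
    · have hne : dx (τ i) * dx (σ i) - dx (σ i) * dx (τ i) ≠ 0 := by
        intro h3
        have h4 := (hrp i).xtx
        rw [← sub_eq_zero.mp h3, mul_assoc, (hrp i).xx, mul_zero] at h4
        exact (qr_of_mem (hσ i)).ne_zero h4.symm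
      exact (smul_eq_zero.mp h0).resolve_right hne
    · intro j _ hji
      have hns : ¬ Same (quadraticRootSubgroups G) (sameActionSubgroup G (τ i)) (sameActionSubgroup G (σ j)) := by
        intro h3
        apply hji
        apply Subtype.ext
        have h4 : Same (quadraticRootSubgroups G) (sameActionSubgroup G (σ i)) (sameActionSubgroup G (τ i)) := by
          have h5 := hτc i
          rw [hc i] at h5
          exact h5.2
        rw [hc i, hc j]
        exact (comp_eq_of_same (h4.trans h3)).symm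
      have h3 := comm_of_not_same hDI hIrr h2 ⟨_, hτ i, rfl⟩ ⟨_, hσ j, rfl⟩ hns
      rw [comm_op_of_bot h3 (hτ i) (hσ j), sub_self, smul_zero]
    · intro h3
      exact absurd hi h3
  have := hli.finite_of_isNoetherian
  exact Set.toFinite _

/-- The properties of one component. -/
theorem part_props (hDI : DI G) (hIrr : IsIrreducibleFor G) (h2 : (2 : k) ≠ 0) (hk3 : Nat.card k ≠ 3)
    {A₀ : Subgroup GLm} (hA₀ : A₀ ∈ quadraticRootSubgroups G) :
    IsQuasisimple ↥(⨆ A ∈ compS G A₀, A) ∧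
      IsRootSubgroupClass ((fun A : Subgroup GLm => A.subgroupOf (⨆ B ∈ compS G A₀, B)) '' (compS G A₀)) ∧
      ∀ A ∈ compS G A₀, ∀ B ∈ rankOnePartners (compS G A₀) A, ∃ A₁ B₁ : Subgroup GLm, A₁ ≤ A ∧ B₁ ≤ B ∧
        IsPSL2PairOver k A₁ B₁ := by
  refine ⟨quasisimple_part hDI hIrr h2 hk3 hA₀, ⟨rootSet_part hDI hIrr h2, ?_⟩, ?_⟩
  · refine ⟨⟨_, ⟨A₀, self_mem_compS hA₀, rfl⟩⟩, fun A hA B hB => ?_⟩
    exact conj_of_same (connected_part (A₀ := A₀) A hA B hB)
  · rintro A hA B ⟨hB, hr⟩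
    obtain ⟨σ, hσ, rfl⟩ := compS_sub hA
    obtain ⟨τ, hτ, rfl⟩ := compS_sub hB
    exact sl2_in_rankOne hDI hIrr hσ hτ hr

lemma mem_compsS_cases {c : Set (Subgroup GLm)} (hc : c ∈ compsS G) : ∃ A ∈ quadraticRootSubgroups G, c = compS G A := by
  obtain ⟨A, hA, rfl⟩ := hc
  exact ⟨A, hA, rfl⟩

/-- Two components sharing a member coincide. -/
lemma compS_eq_of_mem {A₁ A₂ B : Subgroup GLm} (h1 : B ∈ compS G A₁) (h3 : B ∈ compS G A₂) : compS G A₁ = compS G A₂ :=
  comp_eq_of_same (h1.2.trans (same_symm h3.2))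

/-- The indexed family of all the components. -/
theorem exists_parts (hDI : DI G) (hIrr : IsIrreducibleFor G) (h2 : (2 : k) ≠ 0) :
    ∃ (r : ℕ) (a : Fin r → Subgroup GLm), (∀ i, a i ∈ quadraticRootSubgroups G) ∧
      (∀ A ∈ quadraticRootSubgroups G, ∃ i, A ∈ compS G (a i)) ∧
      (∀ i j, i ≠ j → Disjoint (compS G (a i)) (compS G (a j))) ∧
      (∀ i j, i ≠ j → ∀ A ∈ compS G (a i), ∀ B ∈ compS G (a j), ⁅A, B⁆ = ⊥) := by
  haveI : Finite ↥(compsS G) := (finite_comps hDI hIrr h2).to_subtype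
  let e := Finite.equivFin ↥(compsS G)
  choose a ha hae using fun c : ↥(compsS G) => mem_compsS_cases c.2
  refine ⟨_, fun i => a (e.symm i), fun i => ha _, ?_, ?_, ?_⟩
  · intro A hA
    refine ⟨e ⟨compS G A, ⟨A, hA, rfl⟩⟩, ?_⟩
    show A ∈ compS G (a (e.symm (e ⟨compS G A, ⟨A, hA, rfl⟩⟩)))
    rw [Equiv.symm_apply_apply, ← hae]
    exact self_mem_compS hA
  · intro i j hij
    rw [Set.disjoint_left]
    intro B h1 h3
    apply hij
    apply e.symm.injective
    apply Subtype.ext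
    rw [hae, hae]
    exact compS_eq_of_mem h1 h3
  · intro i j hij A hA B hB
    have hA' := compS_sub hA
    have hB' := compS_sub hB
    apply comm_of_not_same hDI hIrr h2 hA' hB'
    intro h3
    apply hij
    apply e.symm.injective
    apply Subtype.ext
    rw [hae, hae]
    exact compS_eq_of_mem (compS_of_same hA hB' h3) hB

end finite

end Cfsg.Agent.Lib.QPH39
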