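import Cfsg.Agent.Lib.QPH39Parts

/-! Restriction of a group generated by quadratic elements to a minimal invariant subspace. -/

set_option autoImplicit false
set_option linter.unusedSectionVars false

universe u

namespace Cfsg.Agent.Lib.QPH39

open Cfsg Cfsg.Agent.RootSub

variable {k : Type*} [Field k] {M : Type*} [AddCommGroup M] [Module k M]

local notation "GLm" => LinearMap.GeneralLinearGroup k M
local notation "End'" => (M →ₗ[k] M)

/-- The statement of the theorem on central products for a subgroup of `GL(M)`. -/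
def CPStmt (G : Subgroup (LinearMap.GeneralLinearGroup k M)) : Prop :=
  ∃ (s : ℕ) (Gi : Fin s → Subgroup (LinearMap.GeneralLinearGroup k M)),
    (∀ i, Gi i ≤ G ∧ ∀ g ∈ G, conjBy (Gi i) g = Gi i) ∧ (∀ i j, i ≠ j → ⁅Gi i, Gi j⁆ = ⊥) ∧ (⨆ i, Gi i) = G ∧
    (∀ i, IsQuasisimple ↥(Gi i) ∧ Subgroup.closure (quadraticElements G ∩ (Gi i : Set (LinearMap.GeneralLinearGroup k M))) = Gi i) ∧
    quadraticElements G ⊆ ⋃ i, (Gi i : Set (LinearMap.GeneralLinearGroup k M))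

/-- The stabilizer of a subspace. -/
def stabS (W : Submodule k M) : Subgroup (LinearMap.GeneralLinearGroup k M) where
  carrier := {g | ∀ w, (g : M →ₗ[k] M) w ∈ W ↔ w ∈ W}
  one_mem' := fun _ => Iff.rfl
  mul_mem' := by
    intro a b ha hb w
    show (a : M →ₗ[k] M) ((b : M →ₗ[k] M) w) ∈ W ↔ w ∈ W
    rw [ha, hb]
  inv_mem' := by
    intro a ha w
    rw [← ha (((a⁻¹ : GLm) : M →ₗ[k] M) w), apply_inv_apply]

lemma le_stabS {K : Subgroup GLm} {W : Submodule k M} (h : ∀ g ∈ K, ∀ w ∈ W, (g : M →ₗ[k] M) w ∈ W) : K ≤ stabS W := by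
  intro g hg w
  refine ⟨fun hw => ?_, h g hg w⟩
  have := h g⁻¹ (K.inv_mem hg) _ hw
  rwa [inv_apply_apply] at this

lemma comm_val {a b : GLm} (h : a * b = b * a) : (a : M →ₗ[k] M) * (b : M →ₗ[k] M) = (b : M →ₗ[k] M) * (a : M →ₗ[k] M) := by
  rw [← Units.val_mul, h, Units.val_mul]

section res

variable {C : Subgroup (LinearMap.GeneralLinearGroup k M)} {V : Submodule k M}

/-- Restriction to an invariant subspace. -/
noncomputable def resC (hV : ∀ c ∈ C, ∀ v ∈ V, (c : M →ₗ[k] M) v ∈ V) :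
    ↥C →* LinearMap.GeneralLinearGroup k ↥V where
  toFun c :=
    { val := (c.1 : M →ₗ[k] M).restrict (fun v hv => hV c.1 c.2 v hv)
      inv := ((c.1⁻¹ : GLm) : M →ₗ[k] M).restrict (fun v hv => hV _ (C.inv_mem c.2) v hv)
      val_inv := by
        apply LinearMap.ext
        intro v
        apply Subtype.ext
        exact apply_inv_apply c.1 v.1
      inv_val := by
        apply LinearMap.ext
        intro v
        apply Subtype.ext
        exact inv_apply_apply c.1 v.1 }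
  map_one' := by
    apply Units.ext
    rfl
  map_mul' a b := by
    apply Units.ext
    rfl

lemma resC_apply (hV : ∀ c ∈ C, ∀ v ∈ V, (c : M →ₗ[k] M) v ∈ V) (c : ↥C) (v : ↥V) :
    (((resC hV c : LinearMap.GeneralLinearGroup k ↥V) : ↥V →ₗ[k] ↥V) v : M) = (c.1 : M →ₗ[k] M) v.1 := rfl

end res

section pull

variable [FiniteDimensional k M] {C D : Subgroup (LinearMap.GeneralLinearGroup k M)} {V : Submodule k M}

/-- Every operator commuting with `D` and vanishing on `V` vanishes. -/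
lemma vanish (hcomm : ∀ c ∈ C, ∀ d ∈ D, d * c = c * d)
    (hirr : ∀ W : Submodule k M, (∀ g ∈ C, ∀ w ∈ W, (g : M →ₗ[k] M) w ∈ W) → (∀ g ∈ D, ∀ w ∈ W, (g : M →ₗ[k] M) w ∈ W) →
      W = ⊥ ∨ W = ⊤)
    (hV : ∀ c ∈ C, ∀ v ∈ V, (c : M →ₗ[k] M) v ∈ V) (hV0 : V ≠ ⊥)
    {f : M →ₗ[k] M} (hf : ∀ d ∈ D, (d : M →ₗ[k] M) * f = f * (d : M →ₗ[k] M)) (h0 : ∀ v ∈ V, f v = 0) : f = 0 := by
  let W : Submodule k M := ⨆ d : ↥D, V.map (d.1 : M →ₗ[k] M)
  have hVW : V ≤ W := by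
    have h1 : V.map ((1 : ↥D).1 : M →ₗ[k] M) ≤ W := le_iSup (fun d : ↥D => V.map (d.1 : M →ₗ[k] M)) 1
    intro v hv
    exact h1 ⟨v, hv, rfl⟩
  have hC : ∀ g ∈ C, ∀ w ∈ W, (g : M →ₗ[k] M) w ∈ W := by
    intro g hg
    have hle : W ≤ W.comap (g : M →ₗ[k] M) := by
      refine iSup_le fun d => ?_
      rintro _ ⟨v, hv, rfl⟩
      show (g : M →ₗ[k] M) ((d.1 : M →ₗ[k] M) v) ∈ W
      have e : (g : M →ₗ[k] M) ((d.1 : M →ₗ[k] M) v) = (d.1 : M →ₗ[k] M) ((g : M →ₗ[k] M) v) :=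
        (congrArg (fun h : M →ₗ[k] M => h v) (comm_val (hcomm g hg d.1 d.2))).symm
      rw [e]
      exact (le_iSup (fun d : ↥D => V.map (d.1 : M →ₗ[k] M)) d) ⟨_, hV g hg v hv, rfl⟩
    exact fun w hw => hle hw
  have hD : ∀ g ∈ D, ∀ w ∈ W, (g : M →ₗ[k] M) w ∈ W := by
    intro g hg
    have hle : W ≤ W.comap (g : M →ₗ[k] M) := by
      refine iSup_le fun d => ?_
      rintro _ ⟨v, hv, rfl⟩
      exact (le_iSup (fun d : ↥D => V.map (d.1 : M →ₗ[k] M)) (⟨g, hg⟩ * d)) ⟨v, hv, rfl⟩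
    exact fun w hw => hle hw
  have hker : W ≤ LinearMap.ker f := by
    refine iSup_le fun d => ?_
    rintro _ ⟨v, hv, rfl⟩
    show f ((d.1 : M →ₗ[k] M) v) = 0
    have e := congrArg (fun h : M →ₗ[k] M => h v) (hf d.1 d.2)
    simp only [Module.End.mul_apply] at e
    rw [← e, h0 v hv, map_zero]
  rcases hirr W hC hD with h | h
  · exfalso
    apply hV0
    rw [eq_bot_iff, ← h]
    exact hVW
  · ext m
    have : m ∈ W := by rw [h]; trivial
    exact hker this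

/-- Existence of a minimal invariant subspace. -/
lemma exists_min_inv (C : Subgroup (LinearMap.GeneralLinearGroup k M)) (hm : ∃ m : M, m ≠ 0) :
    ∃ V : Submodule k M, V ≠ ⊥ ∧ (∀ c ∈ C, ∀ v ∈ V, (c : M →ₗ[k] M) v ∈ V) ∧
      ∀ W : Submodule k M, (∀ c ∈ C, ∀ v ∈ W, (c : M →ₗ[k] M) v ∈ W) → W ≤ V → W = ⊥ ∨ W = V := by
  let T : Set (Submodule k M) := {W | W ≠ ⊥ ∧ ∀ c ∈ C, ∀ v ∈ W, (c : M →ₗ[k] M) v ∈ W}
  have hT : T.Nonempty := by
    refine ⟨⊤, ?_, fun _ _ _ _ => trivial⟩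
    obtain ⟨m, hm⟩ := hm
    intro h
    have : m ∈ (⊥ : Submodule k M) := by rw [← h]; trivial
    exact hm ((Submodule.mem_bot k).mp this)
  obtain ⟨V, hV, hmin⟩ := (wellFounded_lt (α := Submodule k M)).has_min T hT
  refine ⟨V, hV.1, hV.2, fun W hW hle => ?_⟩
  by_cases h0 : W = ⊥
  · exact Or.inl h0
  · right
    by_contra hne
    exact hmin W ⟨h0, hW⟩ (lt_of_le_of_ne hle hne)

variable (hcomm : ∀ c ∈ C, ∀ d ∈ D, d * c = c * d)
  (hirr : ∀ W : Submodule k M, (∀ g ∈ C, ∀ w ∈ W, (g : M →ₗ[k] M) w ∈ W) → (∀ g ∈ D, ∀ w ∈ W, (g : M →ₗ[k] M) w ∈ W) →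
      W = ⊥ ∨ W = ⊤)
  (hV : ∀ c ∈ C, ∀ v ∈ V, (c : M →ₗ[k] M) v ∈ V) (hV0 : V ≠ ⊥)

include hcomm hirr hV0

lemma comm_dx_D {c : GLm} (hc : c ∈ C) : ∀ d ∈ D, (d : M →ₗ[k] M) * dx c = dx c * (d : M →ₗ[k] M) := by
  intro d hd
  have := comm_val (hcomm c hc d hd)
  unfold dx
  rw [mul_sub, sub_mul, mul_one, one_mul, this]

lemma resC_injective : Function.Injective (resC hV) := by
  rw [injective_iff_map_eq_one]
  rintro ⟨c, hc⟩ h1
  have h3 : dx c = 0 := by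
    apply vanish hcomm hirr hV hV0 (comm_dx_D hcomm hirr hV0 hc)
    intro v hv
    have e := congrArg (fun g : LinearMap.GeneralLinearGroup k ↥V => (((g : ↥V →ₗ[k] ↥V) ⟨v, hv⟩ : ↥V) : M)) h1
    have e2 : (c : M →ₗ[k] M) v = v := e
    show (c : M →ₗ[k] M) v - v = 0
    rw [e2, sub_self]
  apply Subtype.ext
  apply Units.ext
  have e : (c : M →ₗ[k] M) - 1 = 0 := h3
  exact sub_eq_zero.mp e

/-- Irreducibility of the restriction. -/
lemma irr_res (hVmin : ∀ W : Submodule k M, (∀ c ∈ C, ∀ v ∈ W, (c : M →ₗ[k] M) v ∈ W) → W ≤ V → W = ⊥ ∨ W = V) :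
    IsIrreducibleFor (resC hV).range := by
  constructor
  · obtain ⟨v, hv, hv0⟩ := Submodule.exists_mem_ne_zero_of_ne_bot hV0
    exact ⟨⟨v, hv⟩, fun e => hv0 (congrArg Subtype.val e)⟩
  · intro W' hW'
    have hinv : ∀ c ∈ C, ∀ v ∈ W'.map V.subtype, (c : M →ₗ[k] M) v ∈ W'.map V.subtype := by
      rintro c hc _ ⟨v, hv, rfl⟩
      exact ⟨_, hW' (resC hV ⟨c, hc⟩) ⟨_, rfl⟩ v hv, rfl⟩
    have hle : W'.map V.subtype ≤ V := by
      rintro _ ⟨v, -, rfl⟩
      exact v.2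
    rcases hVmin _ hinv hle with h | h
    · left
      rw [eq_bot_iff]
      intro v hv
      have h3 : v.1 ∈ W'.map V.subtype := ⟨v, hv, rfl⟩
      rw [h, Submodule.mem_bot] at h3
      exact (Submodule.mem_bot k).mpr (Subtype.ext h3)
    · right
      apply Submodule.map_injective_of_injective (Submodule.injective_subtype V)
      rw [h, Submodule.map_subtype_top]

/-- Quadratic elements restrict to quadratic elements. -/
lemma res_quadratic {σ : GLm} (hσ : σ ∈ quadraticElements C) :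
    resC hV ⟨σ, hσ.1⟩ ∈ quadraticElements (resC hV).range := by
  obtain ⟨hσC, ⟨hq1, hq2⟩, hq3⟩ := hσ
  refine ⟨⟨_, rfl⟩, ⟨?_, ?_⟩, ?_⟩
  · apply LinearMap.ext
    intro v
    apply Subtype.ext
    exact congrArg (fun f : M →ₗ[k] M => f v.1) hq1
  · intro h0
    apply hq2
    apply vanish hcomm hirr hV hV0 (comm_dx_D hcomm hirr hV0 hσC)
    intro v hv
    have e := congrArg (fun f : ↥V →ₗ[k] ↥V => ((f ⟨v, hv⟩ : ↥V) : M)) h0
    exact e
  · rintro τ ⟨c, hc⟩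
    have hsq : (c • ((σ : M →ₗ[k] M) - 1)) * (c • ((σ : M →ₗ[k] M) - 1)) = 0 := by
      rw [smul_mul_smul_comm, hq1, smul_zero]
    have hρ : unitOfSq (c • ((σ : M →ₗ[k] M) - 1)) hsq ∈ C := hq3 ⟨c, rfl⟩
    refine ⟨⟨_, hρ⟩, ?_⟩
    apply Units.ext
    apply LinearMap.ext
    intro v
    apply Subtype.ext
    have e := congrArg (fun f : ↥V →ₗ[k] ↥V => ((f v : ↥V) : M)) hc
    exact e.symm

/-- Lifting quadratic elements. -/
lemma lift_quadratic {τ : LinearMap.GeneralLinearGroup k ↥V} (hτ : τ ∈ quadraticElements (resC hV).range) :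
    ∃ c : GLm, ∃ h : c ∈ quadraticElements C, resC hV ⟨c, h.1⟩ = τ := by
  obtain ⟨⟨⟨c, hc⟩, rfl⟩, ⟨hq1, hq2⟩, hq3⟩ := hτ
  have hsq : dx c * dx c = 0 := by
    apply vanish hcomm hirr hV hV0
    · intro d hd
      rw [← mul_assoc, comm_dx_D hcomm hirr hV0 hc d hd, mul_assoc, comm_dx_D hcomm hirr hV0 hc d hd, mul_assoc]
    · intro v hv
      have e := congrArg (fun f : ↥V →ₗ[k] ↥V => ((f ⟨v, hv⟩ : ↥V) : M)) hq1
      exact e
  refine ⟨c, ⟨hc, ⟨hsq, ?_⟩, ?_⟩, rfl⟩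
  · intro h0
    apply hq2
    apply LinearMap.ext
    intro v
    apply Subtype.ext
    exact congrArg (fun f : M →ₗ[k] M => f v.1) h0
  · rintro ρ ⟨a, ha⟩
    have hsq' : (a • (((resC hV ⟨c, hc⟩ : LinearMap.GeneralLinearGroup k ↥V) : ↥V →ₗ[k] ↥V) - 1)) *
        (a • (((resC hV ⟨c, hc⟩ : LinearMap.GeneralLinearGroup k ↥V) : ↥V →ₗ[k] ↥V) - 1)) = 0 := by
      rw [smul_mul_smul_comm, hq1, smul_zero]
    have hm : unitOfSq _ hsq' ∈ scalarFamily (resC hV ⟨c, hc⟩) := ⟨a, rfl⟩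
    obtain ⟨⟨c₂, hc₂⟩, he⟩ := hq3 hm
    have hf : (c₂ : M →ₗ[k] M) - (ρ : M →ₗ[k] M) = 0 := by
      rw [ha]
      have e0 : (c₂ : M →ₗ[k] M) - (1 + a • ((c : M →ₗ[k] M) - 1)) = dx c₂ - a • dx c := by
        unfold dx
        abel
      rw [e0]
      apply vanish hcomm hirr hV hV0
      · intro d hd
        rw [mul_sub, sub_mul, comm_dx_D hcomm hirr hV0 hc₂ d hd, mul_smul_comm, smul_mul_assoc,
          comm_dx_D hcomm hirr hV0 hc d hd]
      · intro v hv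
        have e := congrArg (fun g : LinearMap.GeneralLinearGroup k ↥V => (((g : ↥V →ₗ[k] ↥V) ⟨v, hv⟩ : ↥V) : M)) he
        have e2 : (c₂ : M →ₗ[k] M) v = v + a • ((c : M →ₗ[k] M) v - v) := e
        show dx c₂ v - a • dx c v = 0
        show ((c₂ : M →ₗ[k] M) v - v) - a • ((c : M →ₗ[k] M) v - v) = 0
        rw [e2]
        abel
    have : c₂ = ρ := Units.ext (sub_eq_zero.mp hf)
    rw [← this]
    exact hc₂

/-- The restriction is generated by quadratic elements. -/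
lemma closure_res (hCQ : Subgroup.closure (quadraticElements C) = C) :
    Subgroup.closure (quadraticElements (resC hV).range) = (resC hV).range := by
  apply le_antisymm
  · rw [Subgroup.closure_le]
    intro τ hτ
    exact hτ.1
  · rintro _ ⟨⟨c, hc⟩, rfl⟩
    have hc' : c ∈ Subgroup.closure (quadraticElements C) := by rw [hCQ]; exact hc
    have key : ∀ x (hx : x ∈ Subgroup.closure (quadraticElements C)), ∀ h : x ∈ C,
        resC hV ⟨x, h⟩ ∈ Subgroup.closure (quadraticElements (resC hV).range) := by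
      intro x hx
      induction hx using Subgroup.closure_induction with
      | mem x hx =>
        intro h
        exact Subgroup.subset_closure (res_quadratic hcomm hirr hV hV0 hx)
      | one =>
        intro h
        have : (⟨1, h⟩ : ↥C) = 1 := rfl
        rw [this, map_one]
        exact Subgroup.one_mem _
      | mul a b ha hb iha ihb =>
        intro h
        have ha' : a ∈ C := by rw [← hCQ]; exact ha
        have hb' : b ∈ C := by rw [← hCQ]; exact hb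
        have : (⟨a * b, h⟩ : ↥C) = ⟨a, ha'⟩ * ⟨b, hb'⟩ := rfl
        rw [this, map_mul]
        exact Subgroup.mul_mem _ (iha ha') (ihb hb')
      | inv a ha iha =>
        intro h
        have ha' : a ∈ C := by rw [← hCQ]; exact ha
        have : (⟨a⁻¹, h⟩ : ↥C) = (⟨a, ha'⟩ : ↥C)⁻¹ := rfl
        rw [this, map_inv]
        exact Subgroup.inv_mem _ (iha ha')
    exact key c hc' hc

end pull

section pb

variable {C : Subgroup (LinearMap.GeneralLinearGroup k M)} {V : Submodule k M}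

/-- The pullback of a subgroup of the restricted group. -/
noncomputable def pbS (hV : ∀ c ∈ C, ∀ v ∈ V, (c : M →ₗ[k] M) v ∈ V) (L : Subgroup (LinearMap.GeneralLinearGroup k ↥V)) :
    Subgroup (LinearMap.GeneralLinearGroup k M) :=
  (L.comap (resC hV)).map C.subtype

lemma mem_pbS {hV : ∀ c ∈ C, ∀ v ∈ V, (c : M →ₗ[k] M) v ∈ V} {L : Subgroup (LinearMap.GeneralLinearGroup k ↥V)} {x : GLm} :
    x ∈ pbS hV L ↔ ∃ h : x ∈ C, resC hV ⟨x, h⟩ ∈ L := by
  constructor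
  · rintro ⟨⟨y, hy⟩, hL, rfl⟩
    exact ⟨hy, hL⟩
  · rintro ⟨h, hL⟩
    exact ⟨⟨x, h⟩, hL, rfl⟩

lemma pbS_le (hV : ∀ c ∈ C, ∀ v ∈ V, (c : M →ₗ[k] M) v ∈ V) (L : Subgroup (LinearMap.GeneralLinearGroup k ↥V)) :
    pbS hV L ≤ C := fun _ hx => (mem_pbS.mp hx).1

lemma pbS_conj (hV : ∀ c ∈ C, ∀ v ∈ V, (c : M →ₗ[k] M) v ∈ V) {L : Subgroup (LinearMap.GeneralLinearGroup k ↥V)}
    {g : GLm} (hg : g ∈ C) (hL : conjBy L (resC hV ⟨g, hg⟩) = L) : conjBy (pbS hV L) g = pbS hV L := by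
  ext x
  rw [mem_conj, mem_pbS, mem_pbS]
  have key : ∀ (hx : x ∈ C) (h' : g⁻¹ * x * g ∈ C), resC hV ⟨g⁻¹ * x * g, h'⟩ =
      (resC hV ⟨g, hg⟩)⁻¹ * resC hV ⟨x, hx⟩ * resC hV ⟨g, hg⟩ := by
    intro hx h'
    have e : (⟨g⁻¹ * x * g, h'⟩ : ↥C) = (⟨g, hg⟩ : ↥C)⁻¹ * ⟨x, hx⟩ * ⟨g, hg⟩ := rfl
    rw [e, map_mul, map_mul, map_inv]
  constructor
  · rintro ⟨h, hm⟩
    have hx : x ∈ C := by
      have e : x = g * (g⁻¹ * x * g) * g⁻¹ := by group
      rw [e]
      exact C.mul_mem (C.mul_mem hg h) (C.inv_mem hg)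
    refine ⟨hx, ?_⟩
    rw [← hL, mem_conj, ← key hx h]
    exact hm
  · rintro ⟨hx, hm⟩
    have h' : g⁻¹ * x * g ∈ C := C.mul_mem (C.mul_mem (C.inv_mem hg) hx) hg
    refine ⟨h', ?_⟩
    rw [key hx h']
    rw [← hL, mem_conj] at hm
    exact hm

/-- The pullback is isomorphic to the subgroup. -/
noncomputable def pbEquiv (hV : ∀ c ∈ C, ∀ v ∈ V, (c : M →ₗ[k] M) v ∈ V) (hinj : Function.Injective (resC hV))
    {L : Subgroup (LinearMap.GeneralLinearGroup k ↥V)} (hle : L ≤ (resC hV).range) : ↥(pbS hV L) ≃* ↥L :=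
  MulEquiv.ofBijective
    (MonoidHom.mk' (fun x : ↥(pbS hV L) => (⟨resC hV ⟨x.1, (mem_pbS.mp x.2).1⟩, (mem_pbS.mp x.2).2⟩ : ↥L)) (by
      intro a b
      apply Subtype.ext
      show resC hV ⟨a.1 * b.1, _⟩ = resC hV ⟨a.1, _⟩ * resC hV ⟨b.1, _⟩
      rw [← map_mul]
      rfl))
    (by
      constructor
      · intro a b e
        have e1 := congrArg Subtype.val e
        have e2 := hinj e1
        have e3 : a.1 = b.1 := congrArg (fun t : ↥C => t.1) e2
        exact Subtype.ext e3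
      · rintro ⟨y, hy⟩
        obtain ⟨⟨c, hc⟩, rfl⟩ := hle hy
        exact ⟨⟨c, mem_pbS.mpr ⟨hc, hy⟩⟩, rfl⟩)

end pb

section main

/-- The key reduction. -/
theorem pull_CP {k : Type*} [Field k] {M : Type u} [AddCommGroup M] [Module k M] [FiniteDimensional k M]
    {C D : Subgroup (LinearMap.GeneralLinearGroup k M)}
    (hcomm : ∀ c ∈ C, ∀ d ∈ D, d * c = c * d)
    (hirr : ∀ W : Submodule k M, (∀ g ∈ C, ∀ w ∈ W, (g : M →ₗ[k] M) w ∈ W) → (∀ g ∈ D, ∀ w ∈ W, (g : M →ₗ[k] M) w ∈ W) →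
      W = ⊥ ∨ W = ⊤)
    (hm : ∃ m : M, m ≠ 0)
    (hu : ∃ u : M →ₗ[k] M, u * u = 0 ∧ u ≠ 0 ∧ ∀ c ∈ C, (c : M →ₗ[k] M) * u = u * (c : M →ₗ[k] M))
    (hCQ : Subgroup.closure (quadraticElements C) = C)
    (IH : ∀ (M' : Type u) [AddCommGroup M'] [Module k M'] [FiniteDimensional k M'],
      Module.finrank k M' < Module.finrank k M → ∀ G' : Subgroup (LinearMap.GeneralLinearGroup k M'),
      IsQuadraticPair G' → CPStmt G') : CPStmt C := by
  obtain ⟨V, hV0, hV, hVmin⟩ := exists_min_inv C hm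
  have hVtop : V ≠ ⊤ := by
    rintro rfl
    obtain ⟨u, huu, hu0, huc⟩ := hu
    have hinv : ∀ c ∈ C, ∀ v ∈ LinearMap.ker u, (c : M →ₗ[k] M) v ∈ LinearMap.ker u := by
      intro c hc v hv
      rw [LinearMap.mem_ker] at hv ⊢
      have e := congrArg (fun f : M →ₗ[k] M => f v) (huc c hc)
      simp only [Module.End.mul_apply] at e
      rw [← e, hv, map_zero]
    rcases hVmin _ hinv le_top with h | h
    · apply hu0
      ext v
      have : u v ∈ LinearMap.ker u := congrArg (fun f : M →ₗ[k] M => f v) huu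
      rw [h] at this
      simpa using this
    · apply hu0
      ext v
      have : v ∈ LinearMap.ker u := by rw [h]; trivial
      simpa using this
  have hlt : Module.finrank k ↥V < Module.finrank k M := Submodule.finrank_lt hVtop
  have hpair : IsQuadraticPair (resC hV).range :=
    ⟨irr_res hcomm hirr hV hV0 hVmin, closure_res hcomm hirr hV hV0 hCQ⟩
  obtain ⟨s, H, h1, h2, h3, h4, h5⟩ := IH ↥V hlt _ hpair
  have hinj := resC_injective hcomm hirr hV hV0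
  have hcover : ∀ σ ∈ quadraticElements C, ∃ i, σ ∈ pbS hV (H i) := by
    intro σ hσ
    have h6 := h5 (res_quadratic hcomm hirr hV hV0 hσ)
    obtain ⟨i, hi⟩ := Set.mem_iUnion.mp h6
    exact ⟨i, mem_pbS.mpr ⟨hσ.1, hi⟩⟩
  refine ⟨s, fun i => pbS hV (H i), fun i => ⟨pbS_le hV _, fun g hg => ?_⟩, fun i j hij => ?_, ?_, fun i => ⟨?_, ?_⟩, ?_⟩
  · exact pbS_conj hV hg ((h1 i).2 _ ⟨_, rfl⟩)
  · apply commutator_bot_of_comm
    intro a ha b hb
    obtain ⟨ha1, ha2⟩ := mem_pbS.mp ha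
    obtain ⟨hb1, hb2⟩ := mem_pbS.mp hb
    have e := comm_of_commutator_bot (h2 i j hij) ha2 hb2
    rw [← map_mul, ← map_mul] at e
    have e2 := hinj e
    exact congrArg (fun t : ↥C => t.1) e2
  · apply le_antisymm
    · exact iSup_le fun i => pbS_le hV _
    · conv_lhs => rw [← hCQ]
      rw [Subgroup.closure_le]
      intro σ hσ
      obtain ⟨i, hi⟩ := hcover σ hσ
      exact (le_iSup (fun i => pbS hV (H i)) i) hi
  · exact quasisimple_congr (pbEquiv hV hinj (h1 i).1).symm (h4 i).1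
  · apply le_antisymm
    · rw [Subgroup.closure_le]
      exact Set.inter_subset_right
    · intro x hx
      obtain ⟨hxC, hxL⟩ := mem_pbS.mp hx
      set Dc := Subgroup.closure (quadraticElements C ∩ (pbS hV (H i) : Set (LinearMap.GeneralLinearGroup k M))) with hDc
      have hDcC : Dc ≤ C := by
        rw [hDc, Subgroup.closure_le]
        intro y hy
        exact hy.1.1
      have key : ∀ y ∈ H i, ∃ x' : ↥C, x'.1 ∈ Dc ∧ resC hV x' = y := by
        intro y hy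
        rw [← (h4 i).2] at hy
        induction hy using Subgroup.closure_induction with
        | mem y hy =>
          obtain ⟨c, hc, rfl⟩ := lift_quadratic hcomm hirr hV hV0 hy.1
          exact ⟨⟨c, hc.1⟩, Subgroup.subset_closure ⟨hc, mem_pbS.mpr ⟨hc.1, hy.2⟩⟩, rfl⟩
        | one => exact ⟨1, Subgroup.one_mem _, map_one _⟩
        | mul a b _ _ ha hb =>
          obtain ⟨x₁, h₁, rfl⟩ := ha
          obtain ⟨x₂, h₂, rfl⟩ := hb
          exact ⟨x₁ * x₂, Subgroup.mul_mem _ h₁ h₂, map_mul _ _ _⟩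
        | inv a _ ha =>
          obtain ⟨x₁, h₁, rfl⟩ := ha
          exact ⟨x₁⁻¹, Subgroup.inv_mem _ h₁, map_inv _ _⟩
      obtain ⟨x', hx'1, hx'2⟩ := key _ hxL
      have e := hinj hx'2
      rw [e] at hx'1
      exact hx'1
  · intro σ hσ
    obtain ⟨i, hi⟩ := hcover σ hσ
    exact Set.mem_iUnion.mpr ⟨i, hi⟩

end main

end Cfsg.Agent.Lib.QPH39
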