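import Cfsg.Agent.Lib.QPH39Split
import Cfsg.Agent.Lib.QPH39Blk

/-! Members of `QR` with nested centralizers: the general part. -/

set_option autoImplicit false

namespace Cfsg.Agent.Lib.QPH39

open Cfsg Cfsg.Agent.RootSub Cfsg.Agent.RootSub.Tv Polynomial Matrix

variable {k : Type*} [Field k] {M : Type*} [AddCommGroup M] [Module k M]

local notation "GLm" => LinearMap.GeneralLinearGroup k M
local notation "End'" => (M →ₗ[k] M)

variable {G : Subgroup (LinearMap.GeneralLinearGroup k M)}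

open QP (QE InG rk TT cy WW)

section basics

lemma QR.rk_le' {x z : M →ₗ[k] M} (hx : QR G x) (hz : QE G z) : rk x ≤ rk z := by
  obtain ⟨σ, hσ, rfl⟩ := hx
  exact QP.rk_min_of_mem hσ z hz

lemma QR.of_QE {x z : M →ₗ[k] M} (hx : QR G x) (hz : QE G z) (hr : rk z ≤ rk x) : QR G z :=
  ⟨unitOfSq z hz.1, QP.min_of_QE hz (fun z' hz' => hr.trans (hx.rk_le' hz')), by simp [dx]⟩

lemma QR.rk_eq {x z : M →ₗ[k] M} (hx : QR G x) (hz : QR G z) : rk z = rk x :=
  le_antisymm (hz.rk_le' hx.toQE) (hx.rk_le' hz.toQE)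

lemma QR.rk_pos [FiniteDimensional k M] {x : M →ₗ[k] M} (hx : QR G x) : 0 < rk x := by
  unfold rk
  rw [Module.finrank_pos_iff_exists_ne_zero]
  obtain ⟨v, hv⟩ : ∃ v, x v ≠ 0 := by
    by_contra hcon
    push Not at hcon
    exact hx.ne_zero (LinearMap.ext hcon)
  exact ⟨⟨x v, LinearMap.mem_range_self _ _⟩, fun h => hv (congrArg Subtype.val h)⟩

lemma comm_dx {g h : GLm} (e : g * h = h * g) : dx g * dx h = dx h * dx g := by
  have e1 : (g : End') * (h : End') = (h : End') * (g : End') := by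
    rw [← Units.val_mul, e, Units.val_mul]
  unfold dx
  simp only [mul_sub, sub_mul, mul_one, one_mul, e1]
  abel

lemma comm_unit_of {x y : M →ₗ[k] M} (hx : x * x = 0) (hy : y * y = 0) (e : x * y = y * x) :
    unitOfSq x hx * unitOfSq y hy = unitOfSq y hy * unitOfSq x hx := by
  apply Units.ext
  rw [Units.val_mul, Units.val_mul, unitOfSq_coe, unitOfSq_coe]
  simp only [mul_add, add_mul, mul_one, one_mul, e]
  abel

end basics

section same

variable [FiniteDimensional k M] {z x x₁ y a u u' t : M →ₗ[k] M}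

/-- Commuting with a member of a class means commuting with the whole class. -/
lemma comm_of_class (hDI : DI G) (hz : QR G z) (hx : QR G x) (hzx : z * x = x * z)
    (hx₁ : x₁ ∈ LE G x hx) : z * x₁ = x₁ * z := by
  obtain ⟨σ, hσ, rfl⟩ := id hz
  obtain ⟨τ, hτ, rfl⟩ := id hx
  have hs1 : σ ≠ 1 := by
    rintro rfl
    exact hz.ne_zero (by simp [dx])
  have ht1 : τ ≠ 1 := by
    rintro rfl
    exact hx.ne_zero (by simp [dx])
  have hcomm : σ * τ = τ * σ := by
    apply Units.ext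
    have e1 : (σ : End') = 1 + dx σ := coe_eq σ
    have e2 : (τ : End') = 1 + dx τ := coe_eq τ
    rw [Units.val_mul, Units.val_mul, e1, e2]
    simp only [mul_add, add_mul, mul_one, one_mul, hzx]
    abel
  have h := s5073_core hDI hσ hτ (Or.inl ⟨σ, Subgroup.subset_closure ⟨hσ, rfl, rfl⟩, hs1, τ,
    Subgroup.subset_closure ⟨hτ, rfl, rfl⟩, ht1, hcomm⟩)
  have hsq : x₁ * x₁ = 0 := LE_mul_zero hx₁ hx₁
  have h3 := comm_of_commutator_bot h (Subgroup.subset_closure ⟨hσ, rfl, rfl⟩ : σ ∈ sameActionSubgroup G σ)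
    (unit_mem_E hτ hx₁ hsq)
  have h4 := comm_dx h3
  have e : dx (unitOfSq x₁ hsq) = x₁ := by simp [dx]
  rwa [e] at h4

/-- `x y x = 0` means type `U`. -/
lemma TU_of_xyx (hDI : DI G) (hx : QR G x) (hy : QR G y) (h : x * y * x = 0) : TU x y := by
  rcases hDI x y hx hy with h1 | ⟨t, ht⟩
  · exact h1
  · exact absurd h (mul_ne_of_partner ht rfl rfl rfl rfl hx.ne_zero)

/-- Type `U` does not depend on the element in the class. -/
lemma TU_class (hDI : DI G) (hx : QR G x) (hy : QR G y) (ha : a ∈ LE G x hx) (ha0 : a ≠ 0) :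
    TU a y ↔ TU x y := by
  rcases dichotomy hDI hx hy with h | h
  · exact ⟨fun _ => h x (self_mem_LE hx) y (self_mem_LE hy), fun _ => h a ha y (self_mem_LE hy)⟩
  · obtain ⟨t, ht⟩ := h x (self_mem_LE hx) hx.ne_zero
    obtain ⟨t', ht'⟩ := h a ha ha0
    exact ⟨fun h1 => absurd h1 (not_TU_of_partner ht' rfl rfl rfl rfl ha0),
      fun h1 => absurd h1 (not_TU_of_partner ht rfl rfl rfl rfl hx.ne_zero)⟩

omit [FiniteDimensional k M] in
/-- The derivation argument. -/
lemma comm_L1 (h2 : (2 : k) ≠ 0) {r : M →ₗ[k] M} (h : RP x t) (hzx : z * x = x * z) (hr : r = z * t - t * z)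
    (hrx : r * x = x * r) (hrt : r * t = t * r) : r = 0 := by
  have e1 : (x * t - t * x) * t - t * (x * t - t * x) = -((2 : k) • t) := by
    have h1 := h.txt
    simp only [sub_mul, mul_sub, mul_assoc, h.tt, mul_zero, h.tt', h.txt1, two_smul]
    abel
  have e2 : z * (x * t - t * x) - (x * t - t * x) * z = x * r - r * x := by
    rw [hr]
    have e3 : z * (x * t - t * x) - (x * t - t * x) * z =
        x * (z * t - t * z) - (z * t - t * z) * x + ((z * x - x * z) * t - t * (z * x - x * z)) := by noncomm_ring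
    rw [e3, hzx, sub_self, zero_mul, mul_zero, sub_zero, add_zero]
  have e4 : z * ((x * t - t * x) * t - t * (x * t - t * x)) - ((x * t - t * x) * t - t * (x * t - t * x)) * z =
      (z * (x * t - t * x) - (x * t - t * x) * z) * t - t * (z * (x * t - t * x) - (x * t - t * x) * z) +
        ((x * t - t * x) * (z * t - t * z) - (z * t - t * z) * (x * t - t * x)) := by noncomm_ring
  rw [e1, e2, ← hr, ← hrx] at e4
  have e5 : (x * t - t * x) * r - r * (x * t - t * x) = 0 := by
    have e6 : (x * t - t * x) * r - r * (x * t - t * x) = x * (t * r) - t * (x * r) - (r * x) * t + (r * t) * x := by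
      noncomm_ring
    have t1 : x * (t * r) = x * r * t := by rw [← hrt]; noncomm_ring
    have t2 : t * (x * r) = t * r * x := by rw [← hrx]; noncomm_ring
    rw [e6, t1, t2, hrx, hrt]
    abel
  rw [e5] at e4
  have e8 : z * -((2 : k) • t) - -((2 : k) • t) * z = -((2 : k) • r) := by
    rw [hr]
    simp only [mul_neg, neg_mul, mul_smul_comm, smul_mul_assoc, smul_sub]
    abel
  rw [e8] at e4
  have e9 : (r * x - r * x) * t - t * (r * x - r * x) + 0 = 0 := by simp
  rw [e9] at e4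
  have e10 : (2 : k) • r = 0 := by
    rwa [neg_eq_zero] at e4
  exact (smul_eq_zero.mp e10).resolve_left h2

/-- If the centralizer of `u` lies in that of `u'`, then `Ω(u') ⊆ Ω(u)`. -/
lemma om1 (hDI : DI G) (h2 : (2 : k) ≠ 0) (hu : QR G u) (hu' : QR G u')
    (hC : ∀ z, QR G z → z * u = u * z → z * u' = u' * z) : ∀ t, QR G t → ¬ TU u' t → ¬ TU u t := by
  intro t ht hn hU
  have hcomm : u * u' = u' * u := hC u hu rfl
  obtain ⟨x, hxQ, hxk, hxr, hrp⟩ := (hDI t u' ht hu').resolve_left (fun h => hn h.symm)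
  have hxLE : x ∈ LE G u' hu' := Or.inr ⟨hxQ, hxk, hxr⟩
  have huu := hu.sq
  have htt := ht.sq
  have hu1 : ∀ w, u * (u * w) = 0 := fun w => by rw [← mul_assoc, huu, zero_mul]
  have ht1 : ∀ w, t * (t * w) = 0 := fun w => by rw [← mul_assoc, htt, zero_mul]
  have hutu : u * (t * u) = 0 := by rw [← mul_assoc]; exact hU.1
  have htut : t * (u * t) = 0 := by rw [← mul_assoc]; exact hU.2
  set r := u * t - t * u with hr
  have r1 : r * u = u * r := by
    rw [hr]
    simp only [sub_mul, mul_sub, mul_assoc, huu, mul_zero, hu1, hutu, sub_zero, zero_sub, sub_self]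
  have r2 : r * t = t * r := by
    rw [hr]
    simp only [sub_mul, mul_sub, mul_assoc, htt, mul_zero, ht1, htut, sub_zero, zero_sub, sub_self]
  have hux : u * x = x * u := comm_of_class hDI hu hu' hcomm hxLE
  have hr0 : r = 0 := by
    by_contra hne
    have hQ := QP.WW_min hu.toQE ht.toQE hU.1 hU.2 (fun z' hz' => ht.rk_le' hz') hne
    have hrQ : QR G r := ht.of_QE hQ.1 (le_of_eq hQ.2)
    have h3 := hC r hrQ r1
    have h4 := comm_of_class hDI hrQ hu' h3 hxLE
    exact hne (comm_L1 h2 hrp.symm hux hr h4 r2)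
  have h3 : t * u = u * t := by
    rw [hr] at hr0
    exact (sub_eq_zero.mp hr0).symm
  have h4 := hC t ht h3
  have h5 := comm_of_class hDI ht hu' h4 hxLE
  apply ht.ne_zero
  have h6 := hrp.xtx
  rwa [h5, mul_assoc, htt, mul_zero, eq_comm] at h6

/-- A member of `Σ` conjugated by an element of `G`: the type of pairs is preserved. -/
lemma TU_cj_iff (g : GLm) : TU (cj g x) (cj g y) ↔ TU x y := by
  refine ⟨fun h => ?_, fun h => h.conj g⟩
  have := h.conj g⁻¹
  rwa [cj_inv_cj, cj_inv_cj] at this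

/-- `¬ TU` gives a rank one pair of the subgroups. -/
lemma rankOne_of_not_TU (hDI : DI G) (hIrr : IsIrreducibleFor G) (h2 : (2 : k) ≠ 0) {σ τ : GLm}
    (hσ : σ ∈ minimalQuadraticElements G) (hτ : τ ∈ minimalQuadraticElements G)
    (hn : ¬ TU (dx σ) (dx τ)) : IsRankOnePair (sameActionSubgroup G σ) (sameActionSubgroup G τ) := by
  rcases s5065_core hDI h2 hσ hτ with hU | hS
  · exact absurd (s5068_core hDI hIrr hσ hτ hU _ (self_mem_LE _) _ (self_mem_LE _)) hn
  · exact hS.1.1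

/-- Two commuting members with a common rank one partner are swapped by an element of `G`. -/
lemma exists_swap {σ τ ρ : GLm}
    (hσ : σ ∈ minimalQuadraticElements G) (hτ : τ ∈ minimalQuadraticElements G)
    (hρ : ρ ∈ minimalQuadraticElements G)
    (h1 : IsRankOnePair (sameActionSubgroup G σ) (sameActionSubgroup G ρ))
    (h3 : IsRankOnePair (sameActionSubgroup G τ) (sameActionSubgroup G ρ))
    (hc : ⁅sameActionSubgroup G σ, sameActionSubgroup G τ⁆ = ⊥) :
    ∃ g ∈ G, conjBy (sameActionSubgroup G σ) g = sameActionSubgroup G τ ∧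
      conjBy (sameActionSubgroup G τ) g = sameActionSubgroup G σ := by
  have hA : sameActionSubgroup G σ ∈ quadraticRootSubgroups G := ⟨σ, hσ, rfl⟩
  have hC : sameActionSubgroup G τ ∈ quadraticRootSubgroups G := ⟨τ, hτ, rfl⟩
  have hB : sameActionSubgroup G ρ ∈ quadraticRootSubgroups G := ⟨ρ, hρ, rfl⟩
  have hcomm : ⁅(sameActionSubgroup G σ).subgroupOf (genG (quadraticRootSubgroups G)),
      (sameActionSubgroup G τ).subgroupOf (genG (quadraticRootSubgroups G))⁆ = ⊥ := by
    apply commutator_bot_of_comm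
    intro a ha b hb
    exact Subtype.ext (comm_of_commutator_bot hc ha hb)
  obtain ⟨g, e1, e2⟩ := swap_of_comm (rankOne_sub hA hB h1) (rankOne_sub hC hB h3) hcomm
  rw [conj_sub] at e1 e2
  refine ⟨g, genG_le g.2, ?_, ?_⟩
  · have := congrArg (Subgroup.map (genG (quadraticRootSubgroups G)).subtype) e1
    rw [map_sub hC, Subgroup.map_subgroupOf_eq_of_le] at this
    · exact this
    · intro w hw
      obtain ⟨w', hw', rfl⟩ := hw
      exact mul_mem (mul_mem g.2 (le_genG hA hw')) (inv_mem g.2)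
  · have := congrArg (Subgroup.map (genG (quadraticRootSubgroups G)).subtype) e2
    rw [map_sub hA, Subgroup.map_subgroupOf_eq_of_le] at this
    · exact this
    · intro w hw
      obtain ⟨w', hw', rfl⟩ := hw
      exact mul_mem (mul_mem g.2 (le_genG hC hw')) (inv_mem g.2)

/-- If `x₁` and `x₂` commute and `Ω(x₂) ⊆ Ω(x₁)`, then `Ω(x₁) ⊆ Ω(x₂)`. -/
lemma om2 (hDI : DI G) (hIrr : IsIrreducibleFor G) (h2 : (2 : k) ≠ 0) {x₁ x₂ : M →ₗ[k] M} (hx₁ : QR G x₁)
    (hx₂ : QR G x₂) (hc : x₁ * x₂ = x₂ * x₁) (hΩ : ∀ t, QR G t → ¬ TU x₂ t → ¬ TU x₁ t) :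
    ∀ t, QR G t → ¬ TU x₁ t → ¬ TU x₂ t := by
  obtain ⟨σ, hσ, rfl⟩ := id hx₁
  obtain ⟨τ, hτ, rfl⟩ := id hx₂
  obtain ⟨ρ, hρ, hn⟩ := exists_R_partner hDI hIrr hτ
  have hn' := hΩ _ (qr_of_mem hρ) hn
  have hs1 : σ ≠ 1 := by
    rintro rfl
    exact hx₁.ne_zero (by simp [dx])
  have ht1 : τ ≠ 1 := by
    rintro rfl
    exact hx₂.ne_zero (by simp [dx])
  have hcomm : σ * τ = τ * σ := by
    apply Units.ext
    have e1 : (σ : End') = 1 + dx σ := coe_eq σ
    have e2 : (τ : End') = 1 + dx τ := coe_eq τ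
    rw [Units.val_mul, Units.val_mul, e1, e2]
    simp only [mul_add, add_mul, mul_one, one_mul, hc]
    abel
  have hbot := s5073_core hDI hσ hτ (Or.inl ⟨σ, Subgroup.subset_closure ⟨hσ, rfl, rfl⟩, hs1, τ,
    Subgroup.subset_closure ⟨hτ, rfl, rfl⟩, ht1, hcomm⟩)
  obtain ⟨g, hg, e1, e2⟩ := exists_swap hσ hτ hρ (rankOne_of_not_TU hDI hIrr h2 hσ hρ hn')
    (rankOne_of_not_TU hDI hIrr h2 hτ hρ hn) hbot
  rw [conj_E hσ hg] at e1
  rw [conj_E hτ hg] at e2
  -- the conjugates lie in the classes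
  have h3 : cj g (dx σ) ∈ LE G (dx τ) hx₂ := by
    have h4 : g * σ * g⁻¹ ∈ sameActionSubgroup G τ := by
      rw [← e1]
      exact Subgroup.subset_closure ⟨conj_mem_min hσ hg, rfl, rfl⟩
    rw [mem_E_iff hτ, dx_conj] at h4
    exact h4
  have h4 : cj g (dx τ) ∈ LE G (dx σ) hx₁ := by
    have h4 : g * τ * g⁻¹ ∈ sameActionSubgroup G σ := by
      rw [← e2]
      exact Subgroup.subset_closure ⟨conj_mem_min hτ hg, rfl, rfl⟩
    rw [mem_E_iff hσ, dx_conj] at h4
    exact h4
  intro t ht hnt hU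
  -- `¬ TU x₁ t` gives `¬ TU (g x₂ g⁻¹) t`
  have h5 : ¬ TU (cj g (dx τ)) t := by
    intro h6
    exact hnt ((TU_class hDI hx₁ ht h4 (cj_ne_zero g hx₂.ne_zero)).mp h6)
  -- so `¬ TU x₂ (g⁻¹ t g)`
  have h6 : ¬ TU (dx τ) (cj g⁻¹ t) := by
    intro h7
    apply h5
    have := h7.conj g
    rwa [cj_cj_inv] at this
  have h7 := hΩ _ (ht.conj_mem (G.inv_mem hg)) h6
  -- so `¬ TU (g x₁ g⁻¹) t`
  have h8 : ¬ TU (cj g (dx σ)) t := by
    intro h9
    apply h7
    have := h9.conj g⁻¹
    rwa [cj_inv_cj] at this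
  exact h8 ((TU_class hDI hx₂ ht h3 (cj_ne_zero g hx₁.ne_zero)).mpr hU)

end same

section step2

variable [FiniteDimensional k M] {u v y : M →ₗ[k] M}

lemma rk_add_le (a b : M →ₗ[k] M) : rk (a + b) ≤ rk a + rk b := by
  unfold rk
  have h1 : LinearMap.range (a + b) ≤ LinearMap.range a ⊔ LinearMap.range b := by
    rintro _ ⟨w, rfl⟩
    exact Submodule.add_mem_sup (LinearMap.mem_range_self _ _) (LinearMap.mem_range_self _ _)
  exact (Submodule.finrank_mono h1).trans (Submodule.finrank_add_le_finrank_add_finrank _ _)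

lemma rk_mul_right_le (f h : M →ₗ[k] M) : rk (f * h) ≤ rk f := by
  unfold rk
  exact Submodule.finrank_mono (LinearMap.range_comp_le_range _ _)

/-- The rank of `v e` and of `u v`. -/
lemma rk_ker_le {u v e : M →ₗ[k] M} (h : u * (v * e) = 0) : rk (v * e) + rk (u * v) ≤ rk v := by
  unfold rk
  have e1 : LinearMap.range (u * v) = (LinearMap.range v).map u := by
    rw [Module.End.mul_eq_comp, LinearMap.range_comp]
  have h2 : Module.finrank k ((LinearMap.range v).map u) + Module.finrank k ↥(LinearMap.range v ⊓ LinearMap.ker u) =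
      Module.finrank k (LinearMap.range v) := by
    have := LinearMap.finrank_range_add_finrank_ker (u.domRestrict (LinearMap.range v))
    rw [LinearMap.range_domRestrict, LinearMap.ker_domRestrict] at this
    rw [← this]
    congr 1
    have e : (LinearMap.range v ⊓ LinearMap.ker u) = (Submodule.comap (LinearMap.range v).subtype (LinearMap.ker u)).map (LinearMap.range v).subtype := by
      rw [Submodule.map_comap_subtype]
    rw [e]
    exact (Submodule.equivMapOfInjective _ (Submodule.injective_subtype _) _).finrank_eq.symm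
  have h3 : LinearMap.range (v * e) ≤ LinearMap.range v ⊓ LinearMap.ker u := by
    rintro _ ⟨w, rfl⟩
    exact ⟨⟨e w, rfl⟩, congrArg (fun f : M →ₗ[k] M => f w) h⟩
  have h5 := Submodule.finrank_mono h3
  rw [e1]
  omega

lemma rk_d0_lt {e : M →ₗ[k] M} (h : BK u y v e) (hr : rk v = rk u) (hpos : 0 < rk u) :
    rk (BK.d0 u y v e) < 2 * rk u := by
  have h_half : 2 * rk (u * v) ≤ rk u := by
    have h3 := QP.rk_half (c := BK.g0 u y v) (z := u) (by rw [h.g_u, h.u_g]) h.g_g
    rwa [h.g_u] at h3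
  have hg : rk (BK.g0 u y v) ≤ rk (u * v) + rk (u * v) := by
    unfold BK.g0
    refine (rk_add_le _ _).trans (add_le_add ?_ (QP.rk_mul_left_le _ _))
    rw [← mul_assoc]
    exact rk_mul_right_le _ _
  have hF : rk (e * (v * e)) ≤ rk (v * e) := QP.rk_mul_left_le _ _
  have h3 := rk_ker_le h.uve
  have h4 := rk_add_le (BK.g0 u y v) (e * (v * e))
  rw [BK.d0_eq]
  omega

lemma val_inv_eq {g : GLm} {a : M →ₗ[k] M} (h : (g : M →ₗ[k] M) * a = 1) : ((g⁻¹ : GLm) : M →ₗ[k] M) = a := by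
  have e1 : ((g⁻¹ : GLm) : M →ₗ[k] M) * (g : M →ₗ[k] M) = 1 := by
    rw [← Units.val_mul]; simp
  calc ((g⁻¹ : GLm) : M →ₗ[k] M) = ((g⁻¹ : GLm) : M →ₗ[k] M) * ((g : M →ₗ[k] M) * a) := by rw [h, mul_one]
    _ = a := by rw [← mul_assoc, e1, one_mul]

/-- Nested centralizers are preserved by conjugation by elements fixing `u`. -/
lemma hC_conj {g : GLm} (hg : g ∈ G) (hgu : cj g u = u)
    (hC : ∀ z, QR G z → z * u = u * z → z * v = v * z) :
    ∀ z, QR G z → z * u = u * z → z * cj g v = cj g v * z := by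
  intro z hz hzu
  have hu' : cj g⁻¹ u = u := by
    conv_lhs => rw [← hgu]
    exact cj_inv_cj g u
  have h1 : QR G (cj g⁻¹ z) := hz.conj_mem (G.inv_mem hg)
  have h3 : cj g⁻¹ z * u = u * cj g⁻¹ z := by
    conv_lhs => rw [← hu']
    conv_rhs => rw [← hu']
    rw [← cj_mul, ← cj_mul, hzu]
  have h4 := congrArg (cj g) (hC _ h1 h3)
  rwa [cj_mul, cj_mul, cj_cj_inv] at h4

/-- Two square zero elements `D + δ`, `D - δ` which commute. -/
lemma two_sq_comm (h2 : (2 : k) ≠ 0) {D δ : M →ₗ[k] M} (h1 : (D + δ) * (D + δ) = 0) (h3 : (D - δ) * (D - δ) = 0)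
    (h4 : (D + δ) * (D - δ) = (D - δ) * (D + δ)) : D * δ = 0 ∧ δ * D = 0 ∧ D * D + δ * δ = 0 := by
  have two : ∀ r : M →ₗ[k] M, r + r = 0 → r = 0 := by
    intro r hr
    have : (2 : k) • r = 0 := by rw [two_smul]; exact hr
    exact (smul_eq_zero.mp this).resolve_left h2
  simp only [add_mul, mul_add, sub_mul, mul_sub] at h1 h3 h4
  have e1 : D * δ + δ * D = 0 := by
    apply two
    have : (D * δ + δ * D) + (D * δ + δ * D) = (D * D + δ * D + (D * δ + δ * δ)) - (D * D - δ * D - (D * δ - δ * δ)) := by abel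
    rw [this, h1, h3, sub_zero]
  have e2 : δ * D = D * δ := by
    rw [← sub_eq_zero]
    apply two
    have : (δ * D - D * δ) + (δ * D - D * δ) = (D * D + δ * D - (D * δ + δ * δ)) - (D * D - δ * D + (D * δ - δ * δ)) := by abel
    rw [this, h4, sub_self]
  have e3 : D * δ = 0 := by
    apply two
    rw [e2] at e1
    exact e1
  refine ⟨e3, by rw [e2, e3], ?_⟩
  rw [e2, e3] at h1
  simpa using h1

lemma triple_id {a b f d n : M →ₗ[k] M} (ab : a * b = n + n + (n + n)) (af : a * f = n) (bf : b * f = n)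
    (nf : n * f = 0) (sum : a + b = (2 : k) • (f + d)) (c : k) :
    (1 + c • a) * (1 + c • b) * (1 + (-(2 * c)) • f) = 1 + (2 * c) • d := by
  have e1 : (1 + c • a) * (1 + c • b) = 1 + c • (a + b) + (c * c) • (n + n + (n + n)) := by
    rw [← ab]
    simp only [add_mul, mul_add, one_mul, mul_one, smul_mul_assoc, mul_smul_comm, smul_smul, smul_add]
    abel
  have hab : (a + b) * f = n + n := by rw [add_mul, af, bf]
  have e2 : (n + n + (n + n)) * f = 0 := by
    simp only [add_mul, nf, add_zero]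
  calc (1 + c • a) * (1 + c • b) * (1 + (-(2 * c)) • f)
      = (1 + c • (a + b) + (c * c) • (n + n + (n + n))) * (1 + (-(2 * c)) • f) := by rw [e1]
    _ = 1 + c • (a + b) + (c * c) • (n + n + (n + n)) +
          (-(2 * c)) • (f + c • ((a + b) * f) + (c * c) • ((n + n + (n + n)) * f)) := by
        simp only [add_mul, mul_add, one_mul, mul_one, smul_mul_assoc, mul_smul_comm, smul_add]
    _ = _ := by
        rw [hab, e2, sum]
        module

/-- Kernel and range of an element of `QR` with smaller range and larger kernel. -/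
lemma same_of_QR {x z : M →ₗ[k] M} (hx : QR G x) (hz : QR G z) (hr : LinearMap.range z ≤ LinearMap.range x)
    (hk : LinearMap.ker x ≤ LinearMap.ker z) : LinearMap.ker z = LinearMap.ker x ∧ LinearMap.range z = LinearMap.range x := by
  have hrk := hx.rk_eq hz
  unfold rk at hrk
  have e1 : LinearMap.range z = LinearMap.range x :=
    Submodule.eq_of_le_of_finrank_le hr (le_of_eq hrk.symm)
  refine ⟨?_, e1⟩
  symm
  apply Submodule.eq_of_le_of_finrank_le hk
  have h1 := LinearMap.finrank_range_add_finrank_ker x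
  have h3 := LinearMap.finrank_range_add_finrank_ker z
  omega

/-- `x y x` lies in the class of `x`. -/
lemma xyx_mem (h2 : (2 : k) ≠ 0) (hk3 : Nat.card k ≠ 3) {x y : M →ₗ[k] M} (hx : QR G x) (hy : QR G y) :
    x * y * x ∈ LE G x hx := by
  have hmin : ∀ z, QE G z → rk x ≤ rk z := fun z hz => hx.rk_le' hz
  rcases QP.thmF hmin h2 hk3 hx.toQE hy.toQE rfl (hx.rk_eq hy) with hU | ⟨⟨D⟩⟩
  · have h1 : x * y * x = 0 := hU.1
    rw [h1]
    exact Submodule.zero_mem _
  by_cases hne : x * y * x = 0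
  · rw [hne]
    exact Submodule.zero_mem _
  have hinG : ∀ c : k, InG G (1 + c • (x * y * x)) := by
    intro c
    have h3 := FDat_inG D.symm hy.toQE hx.toQE h2 hk3 (C c * X)
    rw [QP.pv_mul, QP.pv_C, QP.pv_X, QP.TT_comm, smul_mul_assoc, one_mul, smul_mul_assoc, QP.TT_mul_x hx.sq] at h3
    exact h3
  have hsq : (x * y * x) * (x * y * x) = 0 := by
    have hxx := hx.sq
    simp only [mul_assoc]
    rw [← mul_assoc x x, hxx]
    simp
  have hQ : QE G (x * y * x) := ⟨hsq, hne, hinG⟩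
  have hle : LinearMap.range (x * y * x) ≤ LinearMap.range x := by
    rintro _ ⟨w, rfl⟩
    exact ⟨y (x w), rfl⟩
  have hr : rk (x * y * x) ≤ rk x := Submodule.finrank_mono hle
  have hQR : QR G (x * y * x) := hx.of_QE hQ hr
  obtain ⟨h3, h4⟩ := same_of_QR hx hQR hle (by
    intro w hw
    rw [LinearMap.mem_ker] at hw ⊢
    show x (y (x w)) = 0
    rw [hw]
    simp)
  exact Or.inr ⟨hQR, h3, h4⟩

/-- A quadratic element, not vanishing between minimal ones, of rank less than `2 d`, is minimal. -/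
lemma QR_of_rank_lt (h2 : (2 : k) ≠ 0) (hk3 : Nat.card k ≠ 3) {e u : M →ₗ[k] M} (he : QE G e) (hT : ¬ TZ G e)
    (hu : QR G u) (hr : rk e < 2 * rk u) : QR G e ∧ ∃ b, QR G b ∧ b * e * b = b := by
  unfold TZ at hT
  push Not at hT
  obtain ⟨z, hz, hne⟩ := hT
  have hmin : ∀ z', QE G z' → rk z ≤ rk z' := fun z' hz' => hz.rk_le' hz'
  obtain ⟨a, ha, hae, haK, haR⟩ := exists_normalized hmin h2 hk3 hz.toQE he rfl hne
  have hrka : rk a = rk z := by
    unfold rk
    rw [haR]
  have haQ : QR G a := hz.of_QE ha hrka.le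
  obtain ⟨hν, hνr⟩ := QE_eae ha he hae
  obtain ⟨h1, h3, h4, h5⟩ := split_rest ha he hae
  have haa := ha.1
  have hee := he.1
  have hidem : (a * e + e * a) * (a * e + e * a) = a * e + e * a := by
    have e1 : a * e * (a * e) = a * e := by rw [← mul_assoc, hae]
    have e2 : e * a * (e * a) = e * a := by
      calc e * a * (e * a) = e * (a * e * a) := by noncomm_ring
        _ = e * a := by rw [hae]
    have e3 : a * e * (e * a) = 0 := by
      calc a * e * (e * a) = a * (e * e) * a := by noncomm_ring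
        _ = 0 := by rw [hee]; simp
    have e4 : e * a * (a * e) = 0 := by
      calc e * a * (a * e) = e * (a * a) * e := by noncomm_ring
        _ = 0 := by rw [haa]; simp
    rw [add_mul, mul_add, mul_add, e1, e2, e3, e4]
    simp
  have hcomm : e * (a * e + e * a) = (a * e + e * a) * e := by
    have he' : e * (e * a) = 0 := by rw [← mul_assoc, hee, zero_mul]
    have he'' : a * e * e = 0 := by rw [mul_assoc, hee, mul_zero]
    rw [mul_add, add_mul, he', he'', add_zero, zero_add, mul_assoc]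
  have hadd := QP.rk_add_idem hidem hcomm
  have e1 : e * (a * e + e * a) = e * a * e := by
    rw [mul_add, ← mul_assoc, ← mul_assoc, hee, zero_mul, add_zero]
  have e2 : e * (1 - (a * e + e * a)) = e - e * a * e := by
    rw [mul_sub, mul_one, e1]
  rw [e1, e2, hνr, hrka] at hadd
  have hzu : rk z = rk u := hu.rk_eq hz
  have hρ : e - e * a * e = 0 := by
    by_contra hne'
    have := hz.rk_le' (⟨h1, hne', h3⟩ : QE G (e - e * a * e))
    omega
  have he' : e = e * a * e := sub_eq_zero.mp hρ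
  refine ⟨?_, a, haQ, hae⟩
  apply hz.of_QE he
  have := hνr.trans hrka
  rw [← he'] at this
  exact this.le

/-- **Step 2**: the even part vanishes. -/
theorem d0_zero (hDI : DI G) (hIrr : IsIrreducibleFor G) (h2 : (2 : k) ≠ 0) (hk3 : Nat.card k ≠ 3)
    (hu : QR G u) (hv : QR G v) (hy : QR G y) (rp : RP u y) (rp' : RP v y)
    (hC : ∀ z, QR G z → z * u = u * z → z * v = v * z) :
    BK.d0 u y v (1 - (u * y + y * u)) = 0 := by
  have hvu : v * u = u * v := (hC u hu rfl).symm
  have h := BK.of_RP rp rp' hvu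
  set e := 1 - (u * y + y * u) with he
  set d₀ := BK.d0 u y v e with hd₀
  set δ := BK.d1 u y v e with hδ
  -- the involution
  set H := e - (u * y + y * u) with hH
  obtain ⟨g, hg, hval⟩ : ∃ g ∈ G, (g : M →ₗ[k] M) = H := by
    refine ⟨rp.W * rp.W, mul_mem (rp.W_mem hu hy) (rp.W_mem hu hy), ?_⟩
    have e1 : ((rp.W * rp.W : GLm) : M →ₗ[k] M) = 1 - (2 : ℤ) • rp.pi := rp.w_sq
    rw [e1, hH, he, rp.pi_def, two_smul]
    abel
  have hinv : ((g⁻¹ : GLm) : M →ₗ[k] M) = H := val_inv_eq (by rw [hval]; exact h.HH)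
  have hcj : ∀ z, cj g z = H * z * H := fun z => by
    unfold cj
    rw [hinv, hval]
  have hgu : cj g u = u := by rw [hcj]; exact h.conj_u
  have hgv : cj g v = u + d₀ - δ := by rw [hcj]; exact h.conj_v
  have hv₂ : QR G (u + d₀ - δ) := by
    rw [← hgv]
    exact hv.conj_mem hg
  have hC₂ : ∀ z, QR G z → z * u = u * z → z * (u + d₀ - δ) = (u + d₀ - δ) * z := by
    rw [← hgv]
    exact hC_conj hg hgu hC
  have hcomm : v * (u + d₀ - δ) = (u + d₀ - δ) * v := hC₂ v hv hvu
  have hdec : v = u + d₀ + δ := h.decomp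
  have hsub : u + d₀ - δ = u + d₀ - δ := rfl
  obtain ⟨k1, k2, k3⟩ := two_sq_comm h2 (D := u + d₀) (δ := δ) (by rw [← hdec]; exact hv.sq) hv₂.sq
    (by rw [← hdec]; exact hcomm)
  have hu_d1 : u * δ = 0 := h.u_d1
  have hd1_u : δ * u = 0 := h.d1_u
  have hu_d0 : u * d₀ = u * v := h.u_d0
  have hd0_u : d₀ * u = u * v := h.d0_u
  have hd0_sq : d₀ * d₀ = 0 := h.d0_sq
  have huu := hu.sq
  have hDD : (u + d₀) * (u + d₀) = u * v + u * v := by
    rw [add_mul, mul_add, mul_add, huu, hu_d0, hd0_u, hd0_sq]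
    simp
  have hδδ : δ * δ = -(u * v + u * v) := by
    rw [hDD] at k3
    exact eq_neg_of_add_eq_zero_right k3
  have hvv₂ : v * (u + d₀ - δ) = u * v + u * v + (u * v + u * v) := by
    have e1 : (u + d₀ + δ) * (u + d₀ - δ) = (u + d₀) * (u + d₀) - (u + d₀) * δ + δ * (u + d₀) - δ * δ := by
      noncomm_ring
    conv_lhs => rw [hdec]
    rw [e1, hDD, k1, k2, hδδ]
    abel
  have hv₂u : (u + d₀ - δ) * u = u * v := by
    rw [sub_mul, add_mul, huu, hd0_u, hd1_u]
    simp
  have hnu : u * v * u = 0 := by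
    rw [mul_assoc, hvu, ← mul_assoc, huu, zero_mul]
  have hsum : v + (u + d₀ - δ) = (2 : k) • (u + d₀) := by
    conv_lhs => rw [hdec]
    rw [two_smul]
    abel
  have hinG : ∀ c : k, InG G (1 + c • d₀) := by
    intro c
    have h3 := ((hv.toQE.2.2 (c / 2)).mul (hv₂.toQE.2.2 (c / 2))).mul (hu.toQE.2.2 (-(2 * (c / 2))))
    rw [triple_id hvv₂ hvu hv₂u hnu hsum] at h3
    have e1 : 2 * (c / 2) = c := by
      field_simp
    rwa [e1] at h3
  have hspan : d₀ ∈ Submodule.span k {z : M →ₗ[k] M | QR G z} := by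
    have e1 : d₀ = (2 : k)⁻¹ • (v + (u + d₀ - δ)) - u := by
      rw [hsum, smul_smul, inv_mul_cancel₀ h2, one_smul]
      abel
    rw [e1]
    exact Submodule.sub_mem _ (Submodule.smul_mem _ _ (Submodule.add_mem _ (Submodule.subset_span hv)
      (Submodule.subset_span hv₂))) (Submodule.subset_span hu)
  by_contra hne
  have hQ : QE G d₀ := ⟨hd0_sq, hne, hinG⟩
  by_cases hT : TZ G d₀
  · exact hne ((⟨hd0_sq, hinG, hT, hspan⟩ : NN G d₀).eq_zero hDI hIrr h2)
  have hrkv : rk v = rk u := hu.rk_eq hv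
  have hlt := rk_d0_lt h hrkv hu.rk_pos
  obtain ⟨hd₀Q, -⟩ := QR_of_rank_lt h2 hk3 hQ hT hu hlt
  have hΩ : ∀ t, QR G t → ¬ TU d₀ t → ¬ TU u t := by
    intro t ht hn hU
    apply hn
    have h1 : TU v t := by
      by_contra h5
      exact om1 hDI h2 hu hv hC t ht h5 hU
    have h3 : TU (u + d₀ - δ) t := by
      by_contra h5
      exact om1 hDI h2 hu hv₂ hC₂ t ht h5 hU
    apply TU.symm
    apply TU_of_xyx hDI ht hd₀Q
    have e0 : (2 : k) • d₀ = v + (u + d₀ - δ) - (2 : k) • u := by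
      rw [hsum, smul_add]
      abel
    have e2 : (2 : k) • (t * d₀ * t) = t * ((2 : k) • d₀) * t := by
      simp only [mul_smul_comm, smul_mul_assoc]
    rw [e0, mul_sub, mul_add, sub_mul, add_mul, mul_smul_comm, smul_mul_assoc, h1.2, h3.2, hU.2] at e2
    simp only [add_zero, smul_zero, sub_zero] at e2
    exact (smul_eq_zero.mp e2).resolve_left h2
  have hnuy : ¬ TU u y := fun h5 => hu.ne_zero (by
    have := rp.xtx
    rw [h5.1] at this
    exact this.symm)
  have h5 := om2 hDI hIrr h2 hu hd₀Q (by rw [hu_d0, hd0_u]) hΩ y hy hnuy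
  exact h5 (TU_of_xyx hDI hy hd₀Q (by rw [mul_assoc]; exact h.y_d0_y)).symm

end step2

section step3

variable [FiniteDimensional k M] {u y δ : M →ₗ[k] M}

lemma LE_mul_right {x a f : M →ₗ[k] M} {hx : QR G x} (ha : a ∈ LE G x hx) (h : x * f = 0) : a * f = 0 := by
  rcases ha with rfl | ⟨-, h1, -⟩
  · simp
  ext w
  have h3 : f w ∈ LinearMap.ker x := congrArg (fun g : M →ₗ[k] M => g w) h
  rw [← h1] at h3
  exact h3

lemma LE_mul_left {x a f : M →ₗ[k] M} {hx : QR G x} (ha : a ∈ LE G x hx) (h : f * x = 0) : f * a = 0 := by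
  rcases ha with rfl | ⟨-, -, h1⟩
  · simp
  ext w
  obtain ⟨w', hw'⟩ : a w ∈ LinearMap.range x := by
    rw [← h1]
    exact LinearMap.mem_range_self _ _
  show f (a w) = 0
  rw [← hw']
  exact congrArg (fun g : M →ₗ[k] M => g w') h

lemma LE_mul_right' {x a f : M →ₗ[k] M} {hx : QR G x} (ha : a ∈ LE G x hx) (ha0 : a ≠ 0) (h : a * f = 0) : x * f = 0 := by
  rcases ha with rfl | ⟨-, h1, -⟩
  · exact absurd rfl ha0
  ext w
  have h3 : f w ∈ LinearMap.ker a := congrArg (fun g : M →ₗ[k] M => g w) h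
  rw [h1] at h3
  exact h3

lemma LE_mul_left' {x a f : M →ₗ[k] M} {hx : QR G x} (ha : a ∈ LE G x hx) (ha0 : a ≠ 0) (h : f * a = 0) : f * x = 0 := by
  rcases ha with rfl | ⟨-, -, h1⟩
  · exact absurd rfl ha0
  ext w
  obtain ⟨w', hw'⟩ : x w ∈ LinearMap.range a := by
    rw [h1]
    exact LinearMap.mem_range_self _ _
  show f (x w) = 0
  rw [← hw']
  exact congrArg (fun g : M →ₗ[k] M => g w') h

/-- Conjugation by an element acting as a scalar on `δ` preserves the class. -/
lemma cj_mem_LE {g : GLm} (hg : g ∈ G) {s : k} (hs : s ≠ 0) {x z : M →ₗ[k] M} {hx : QR G x}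
    (hgx : cj g x = s • x) (hz : z ∈ LE G x hx) : cj g z ∈ LE G x hx := by
  rcases hz with rfl | ⟨h1, h3, h4⟩
  · rw [cj_zero]
    exact Submodule.zero_mem _
  · refine Or.inr ⟨h1.conj_mem hg, ?_, ?_⟩
    · rw [ker_cj, h3, ← ker_cj, hgx, LinearMap.ker_smul _ _ hs]
    · rw [range_cj, h4, ← range_cj, hgx, LinearMap.range_smul _ _ hs]

/-- All members of the class of `δ` are odd for the torus. -/
lemma odd_LE (h2 : (2 : k) ≠ 0) (hk3 : Nat.card k ≠ 3) (hu : QR G u) (hy : QR G y) (rp : RP u y)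
    (hδ : QR G δ) (s2 : u * δ = 0) (s3 : δ * u = 0) (s4 : δ = u * (y * δ) + δ * (y * u))
    {z : M →ₗ[k] M} (hz : z ∈ LE G δ hδ) :
    (1 - (u * y + y * u)) * (z * (1 - (u * y + y * u))) = 0 ∧ u * (y * (z * (y * u))) = 0 := by
  have h : BK u y u (1 - (u * y + y * u)) := BK.of_RP rp rp rfl
  set E := 1 - (u * y + y * u) with hE
  have hone : u * y + y * u + E = 1 := h.one_eq
  -- the torus
  have htor : ∀ s s' : k, s * s' = 1 → ∃ g ∈ G, cj g δ = s • δ ∧
      ∀ w : M →ₗ[k] M, w * u = 0 → u * w = 0 → cj g w =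
        E * (w * E) + s • (E * (w * (y * u)) + u * (y * (w * E))) + (s * s) • (u * (y * (w * (y * u)))) := by
    intro s s' hss
    have hs's : s' * s = 1 := by rw [mul_comm]; exact hss
    obtain ⟨g, hg, hgv'⟩ := diag_inG rp hu.toQE.2.2 hy.toQE.2.2 hss
    have hgv : (g : M →ₗ[k] M) = E + s • (u * y) + s' • (y * u) := hgv'
    have hinv : ((g⁻¹ : GLm) : M →ₗ[k] M) = E + s' • (u * y) + s • (y * u) := by
      apply val_inv_eq
      rw [hgv]
      have e1 : (E + s • (u * y) + s' • (y * u)) * (E + s' • (u * y) + s • (y * u)) =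
          E + u * y + y * u := by
        simp only [mul_add, add_mul, mul_sub, sub_mul, mul_one, one_mul, mul_assoc, neg_mul, mul_neg, neg_neg, mul_zero, zero_mul, add_zero, zero_add, sub_zero, zero_sub, neg_zero, sub_self, smul_mul_assoc, mul_smul_comm, smul_zero, h.uu, h.uu_, h.yy, h.yy_, h.uyu, h.uyu_, h.yuy, h.yuy_, h.ue, h.ue_, h.eu, h.eu_, h.ye, h.ye_, h.ey, h.ey_, h.ee, h.ee_, smul_smul, hss, hs's, one_smul]
      rw [e1, ← hone]
      abel
    have key : ∀ w : M →ₗ[k] M, w * u = 0 → u * w = 0 → cj g w =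
        E * (w * E) + s • (E * (w * (y * u)) + u * (y * (w * E))) + (s * s) • (u * (y * (w * (y * u)))) := by
      intro w h3 h4
      have h3' : ∀ w' : M →ₗ[k] M, w * (u * w') = 0 := fun w' => by rw [← mul_assoc, h3, zero_mul]
      have h4' : ∀ w' : M →ₗ[k] M, u * (w * w') = 0 := fun w' => by rw [← mul_assoc, h4, zero_mul]
      unfold cj
      rw [hinv, hgv]
      simp only [mul_add, add_mul, mul_sub, sub_mul, mul_one, one_mul, mul_assoc, neg_mul, mul_neg, neg_neg, mul_zero, zero_mul, add_zero, zero_add, sub_zero, zero_sub, neg_zero, sub_self, smul_mul_assoc, mul_smul_comm, smul_zero, h.uu, h.uu_, h.yy, h.yy_, h.uyu, h.uyu_, h.yuy, h.yuy_, h.ue, h.ue_, h.eu, h.eu_, h.ye, h.ye_, h.ey, h.ey_, h.ee, h.ee_, smul_smul, h3, h3', h4, h4', smul_add, hss, hs's]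
      module
    refine ⟨g, hg, ?_, key⟩
    rw [key δ s3 s2]
    have s3' : ∀ w' : M →ₗ[k] M, δ * (u * w') = 0 := fun w' => by rw [← mul_assoc, s3, zero_mul]
    have s2' : ∀ w' : M →ₗ[k] M, u * (δ * w') = 0 := fun w' => by rw [← mul_assoc, s2, zero_mul]
    -- the blocks of `δ`
    have b1 : E * (δ * E) = 0 := by
      conv_lhs => rw [s4]
      simp only [mul_add, add_mul, mul_sub, sub_mul, mul_one, one_mul, mul_assoc, neg_mul, mul_neg, neg_neg, mul_zero, zero_mul, add_zero, zero_add, sub_zero, zero_sub, neg_zero, sub_self, smul_mul_assoc, mul_smul_comm, smul_zero, h.uu, h.uu_, h.yy, h.yy_, h.uyu, h.uyu_, h.yuy, h.yuy_, h.ue, h.ue_, h.eu, h.eu_, h.ye, h.ye_, h.ey, h.ey_, h.ee, h.ee_, s2, s2', s3, s3']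
    have b2 : u * (y * (δ * (y * u))) = 0 := by
      have e3 : u * (y * (δ * (y * u))) = u * (y * (u * (y * δ) + δ * (y * u))) * (y * u) := by
        rw [← s4]
        simp only [mul_assoc]
      have e4 : u * (y * (δ * (y * u))) = u * (y * (δ * (y * u))) + u * (y * (δ * (y * u))) := by
        conv_lhs => rw [e3]
        simp only [mul_add, add_mul, mul_sub, sub_mul, mul_one, one_mul, mul_assoc, neg_mul, mul_neg, neg_neg, mul_zero, zero_mul, add_zero, zero_add, sub_zero, zero_sub, neg_zero, sub_self, smul_mul_assoc, mul_smul_comm, smul_zero, h.uu, h.uu_, h.yy, h.yy_, h.uyu, h.uyu_, h.yuy, h.yuy_, h.ue, h.ue_, h.eu, h.eu_, h.ye, h.ye_, h.ey, h.ey_, h.ee, h.ee_, s2, s2', s3, s3']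
      simpa using e4
    have b3 : E * (δ * (y * u)) + u * (y * (δ * E)) = δ := by
      have e5 : E * (δ * (y * u)) + u * (y * (δ * E)) + ((u * y + y * u) * (δ * (y * u)) + u * (y * (δ * (u * y + y * u)))) =
          δ * (y * u) + u * (y * δ) := by
        rw [← add_assoc]
        have e6 : u * y + y * u = 1 - E := by rw [← hone]; abel
        rw [e6]
        simp only [mul_sub, sub_mul, mul_one, one_mul]
        abel
      have e7 : (u * y + y * u) * (δ * (y * u)) + u * (y * (δ * (u * y + y * u))) = u * (y * (δ * (y * u))) + u * (y * (δ * (y * u))) := by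
        simp only [mul_add, add_mul, mul_sub, sub_mul, mul_one, one_mul, mul_assoc, neg_mul, mul_neg, neg_neg, mul_zero, zero_mul, add_zero, zero_add, sub_zero, zero_sub, neg_zero, sub_self, smul_mul_assoc, mul_smul_comm, smul_zero, h.uu, h.uu_, h.yy, h.yy_, h.uyu, h.uyu_, h.yuy, h.yuy_, h.ue, h.ue_, h.eu, h.eu_, h.ye, h.ye_, h.ey, h.ey_, h.ee, h.ee_, s2, s2', s3, s3']
      rw [e7, b2, add_zero, add_zero, add_comm (δ * (y * u)), ← s4] at e5
      exact e5
    rw [b1, b2, b3, smul_zero, add_zero, zero_add]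
  -- the class
  have hzu : z * u = 0 := LE_mul_right hz s3
  have huz : u * z = 0 := LE_mul_left hz s2
  set a₀ := E * (z * E) with ha₀
  set a₁ := E * (z * (y * u)) + u * (y * (z * E)) with ha₁
  set a₂ := u * (y * (z * (y * u))) with ha₂
  have hmem : ∀ s s' : k, s * s' = 1 → a₀ + s • a₁ + (s * s) • a₂ ∈ LE G δ hδ := by
    intro s s' hss
    obtain ⟨g, hg, h3, h4⟩ := htor s s' hss
    have hs : s ≠ 0 := fun e0 => by simp [e0] at hss
    rw [← h4 z hzu huz]
    exact cj_mem_LE hg hs h3 hz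
  have h1 := hmem 1 1 (by simp)
  have hm1 := hmem (-1) (-1) (by simp)
  have ha₁m : a₁ ∈ LE G δ hδ := by
    have e1 := Submodule.smul_mem _ (2 : k)⁻¹ (Submodule.sub_mem _ h1 hm1)
    have e2 : (2 : k)⁻¹ • (a₀ + (1 : k) • a₁ + ((1 : k) * 1) • a₂ - (a₀ + (-1 : k) • a₁ + ((-1 : k) * -1) • a₂)) = a₁ := by
      have : a₀ + (1 : k) • a₁ + ((1 : k) * 1) • a₂ - (a₀ + (-1 : k) • a₁ + ((-1 : k) * -1) • a₂) = (2 : k) • a₁ := by
        simp only [one_smul, mul_one, neg_mul, mul_neg, neg_neg, neg_smul, two_smul]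
        abel
      rw [this, smul_smul, inv_mul_cancel₀ h2, one_smul]
    rwa [e2] at e1
  have ha₀₂ : a₀ + a₂ ∈ LE G δ hδ := by
    have e1 := Submodule.sub_mem _ h1 ha₁m
    have e2 : a₀ + (1 : k) • a₁ + ((1 : k) * 1) • a₂ - a₁ = a₀ + a₂ := by
      simp only [one_smul, mul_one]
      abel
    rwa [e2] at e1
  obtain ⟨s, s', hss, hs⟩ := QP.exists_s h2 hk3
  have h5 := hmem s s' hss
  have ha₂m : a₂ ∈ LE G δ hδ := by
    have e1 := Submodule.sub_mem _ (Submodule.sub_mem _ h5 (Submodule.smul_mem _ s ha₁m)) ha₀₂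
    have e2 : a₀ + s • a₁ + (s * s) • a₂ - s • a₁ - (a₀ + a₂) = (s * s - 1) • a₂ := by
      rw [sub_smul, one_smul]
      abel
    rw [e2] at e1
    have h6 := Submodule.smul_mem _ (s * s - 1)⁻¹ e1
    rwa [smul_smul, inv_mul_cancel₀ (sub_ne_zero.mpr hs), one_smul] at h6
  have ha₀m : a₀ ∈ LE G δ hδ := by
    have e1 := Submodule.sub_mem _ ha₀₂ ha₂m
    rwa [add_sub_cancel_right] at e1
  constructor
  · by_contra hne
    have e1 : δ * y = 0 := LE_mul_right' ha₀m hne (by rw [ha₀]; simp only [mul_add, add_mul, mul_sub, sub_mul, mul_one, one_mul, mul_assoc, neg_mul, mul_neg, neg_neg, mul_zero, zero_mul, add_zero, zero_add, sub_zero, zero_sub, neg_zero, sub_self, smul_mul_assoc, mul_smul_comm, smul_zero, h.uu, h.uu_, h.yy, h.yy_, h.uyu, h.uyu_, h.yuy, h.yuy_, h.ue, h.ue_, h.eu, h.eu_, h.ye, h.ye_, h.ey, h.ey_, h.ee, h.ee_])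
    have e2 : y * δ = 0 := LE_mul_left' ha₀m hne (by rw [ha₀]; simp only [mul_add, add_mul, mul_sub, sub_mul, mul_one, one_mul, mul_assoc, neg_mul, mul_neg, neg_neg, mul_zero, zero_mul, add_zero, zero_add, sub_zero, zero_sub, neg_zero, sub_self, smul_mul_assoc, mul_smul_comm, smul_zero, h.uu, h.uu_, h.yy, h.yy_, h.uyu, h.uyu_, h.yuy, h.yuy_, h.ue, h.ue_, h.eu, h.eu_, h.ye, h.ye_, h.ey, h.ey_, h.ee, h.ee_])
    apply hδ.ne_zero
    rw [s4, e2, ← mul_assoc δ, e1]
    simp
  · by_contra hne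
    have e1 : δ * (1 - y * u) = 0 := LE_mul_right' ha₂m hne (by rw [ha₂]; simp only [mul_add, add_mul, mul_sub, sub_mul, mul_one, one_mul, mul_assoc, neg_mul, mul_neg, neg_neg, mul_zero, zero_mul, add_zero, zero_add, sub_zero, zero_sub, neg_zero, sub_self, smul_mul_assoc, mul_smul_comm, smul_zero, h.uu, h.uu_, h.yy, h.yy_, h.uyu, h.uyu_, h.yuy, h.yuy_, h.ue, h.ue_, h.eu, h.eu_, h.ye, h.ye_, h.ey, h.ey_, h.ee, h.ee_])
    have e2 : (1 - u * y) * δ = 0 := LE_mul_left' ha₂m hne (by rw [ha₂]; simp only [mul_add, add_mul, mul_sub, sub_mul, mul_one, one_mul, mul_assoc, neg_mul, mul_neg, neg_neg, mul_zero, zero_mul, add_zero, zero_add, sub_zero, zero_sub, neg_zero, sub_self, smul_mul_assoc, mul_smul_comm, smul_zero, h.uu, h.uu_, h.yy, h.yy_, h.uyu, h.uyu_, h.yuy, h.yuy_, h.ue, h.ue_, h.eu, h.eu_, h.ye, h.ye_, h.ey, h.ey_, h.ee, h.ee_])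
    apply hδ.ne_zero
    have e3 : δ * (y * u) = δ := by
      rw [mul_sub, mul_one, sub_eq_zero] at e1
      exact e1.symm
    have e4 : u * (y * δ) = δ := by
      rw [sub_mul, one_mul, sub_eq_zero] at e2
      rw [← mul_assoc]
      exact e2.symm
    rw [e3, e4] at s4
    simpa using s4

/-- **Steps 3 and 4**. -/
theorem step34 (hDI : DI G) (hIrr : IsIrreducibleFor G) (h2 : (2 : k) ≠ 0) (hk3 : Nat.card k ≠ 3)
    (hu : QR G u) (hy : QR G y) (rp : RP u y) (hv : QR G (u + δ))
    (hC : ∀ z, QR G z → z * u = u * z → z * (u + δ) = (u + δ) * z)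
    (s1 : δ * δ = 0) (s2 : u * δ = 0) (s3 : δ * u = 0) (s4 : δ = u * (y * δ) + δ * (y * u))
    (s5 : δ * (y * δ) = 0) : δ = 0 := by
  by_contra hδ0
  have h : BK u y u (1 - (u * y + y * u)) := BK.of_RP rp rp rfl
  set E := 1 - (u * y + y * u) with hE
  have hone : u * y + y * u + E = 1 := h.one_eq
  have huu := hu.sq
  have hinG : ∀ c : k, InG G (1 + c • δ) := by
    intro c
    have h3 := (hv.toQE.2.2 c).mul (hu.toQE.2.2 (-c))
    have e1 : (1 + c • (u + δ)) * (1 + (-c) • u) = 1 + c • δ := by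
      have gen : ∀ w w' : M →ₗ[k] M, (1 + w) * (1 + w') = 1 + w + w' + w * w' := fun w w' => by noncomm_ring
      rw [gen, smul_mul_smul_comm, add_mul, huu, s3, add_zero, smul_zero, add_zero]
      module
    rwa [e1] at h3
  have hQ : QE G δ := ⟨s1, hδ0, hinG⟩
  -- not vanishing between minimal elements
  have hT : ¬ TZ G δ := by
    intro hT
    have hc := comm_of_TZ hDI hIrr h2 hQ hT hy
    apply hδ0
    rw [s4]
    have e1 : u * (y * δ) = 0 := by
      rw [← hc, ← mul_assoc, s2, zero_mul]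
    have e2 : δ * (y * u) = 0 := by
      rw [← mul_assoc, hc, mul_assoc, s3, mul_zero]
    rw [e1, e2, add_zero]
  -- the rank
  have hrk : rk δ < 2 * rk u := by
    by_contra hge
    push Not at hge
    have a1 : rk δ ≤ rk (u * (y * δ)) + rk (δ * (y * u)) := by
      conv_lhs => rw [s4]
      exact rk_add_le _ _
    have a2 : rk (u * (y * δ)) ≤ rk u := rk_mul_right_le _ _
    have a3 : rk (δ * (y * u)) ≤ rk u := by
      rw [← mul_assoc]
      exact QP.rk_mul_left_le _ _
    have hpos := hu.rk_pos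
    have hle : LinearMap.range (u * (y * δ)) ≤ LinearMap.range u := LinearMap.range_comp_le_range _ _
    have heq : LinearMap.range (u * (y * δ)) = LinearMap.range u := by
      apply Submodule.eq_of_le_of_finrank_le hle
      unfold rk at a1 a2 a3 hge
      omega
    have a6 : δ * (y * u) = 0 := by
      ext w
      obtain ⟨w', hw'⟩ : u w ∈ LinearMap.range (u * (y * δ)) := by
        rw [heq]
        exact LinearMap.mem_range_self _ _
      show δ (y (u w)) = 0
      rw [← hw']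
      show δ (y (u (y (δ w')))) = 0
      have e1 : y (u (y (δ w'))) = y (δ w') := congrArg (fun f : M →ₗ[k] M => f (δ w')) h.yuy
      rw [e1]
      exact congrArg (fun f : M →ₗ[k] M => f w') s5
    have a7 : rk (δ * (y * u)) = 0 := by
      rw [a6]
      unfold rk
      simp
    omega
  obtain ⟨hδQ, b, hb, hbδ⟩ := QR_of_rank_lt h2 hk3 hQ hT hu hrk
  -- `b` does not commute with `u`
  have hnub : ¬ TU u b := by
    intro hU
    have h1 : TU (u + δ) b := by
      by_contra h5
      exact om1 hDI h2 hu hv hC b hb h5 hU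
    have h3 := h1.2
    rw [mul_add, add_mul, hU.2, zero_add, hbδ] at h3
    exact hb.ne_zero h3
  have hbub : b * u * b ≠ 0 := fun h0 => hnub (TU_of_xyx hDI hb hu h0).symm
  have hb₁ : QR G (b * u * b) := by
    rcases xyx_mem h2 hk3 hb hu with h3 | h3
    · exact absurd h3 hbub
    · exact h3.1
  have heLE : δ * (b * u * b) * δ ∈ LE G δ hδQ := xyx_mem h2 hk3 hδQ hb₁
  set e := δ * (b * u * b) * δ with he
  have hbeb : b * e * b = b * u * b := by
    calc b * e * b = (b * δ * b) * u * (b * δ * b) := by rw [he]; noncomm_ring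
      _ = b * u * b := by rw [hbδ]
  have he0 : e ≠ 0 := by
    intro h0
    rw [h0] at hbeb
    simp only [mul_zero, zero_mul] at hbeb
    exact hbub hbeb.symm
  obtain ⟨heQ, hek, her⟩ : QR G e ∧ LinearMap.ker e = LinearMap.ker δ ∧ LinearMap.range e = LinearMap.range δ := by
    rcases heLE with h3 | h3
    · exact absurd h3 he0
    · exact h3
  -- oddness
  have hodd := fun {z : M →ₗ[k] M} (hz : z ∈ LE G δ hδQ) => odd_LE h2 hk3 hu hy rp hδQ s2 s3 s4 hz
  obtain ⟨o1, o2⟩ := hodd heLE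
  have eu : e * u = 0 := LE_mul_right heLE s3
  have ue : u * e = 0 := LE_mul_left heLE s2
  have eu' : ∀ w : M →ₗ[k] M, e * (u * w) = 0 := fun w => by rw [← mul_assoc, eu, zero_mul]
  have ue' : ∀ w : M →ₗ[k] M, u * (e * w) = 0 := fun w => by rw [← mul_assoc, ue, zero_mul]
  have heE1 : y * (e * y) = 0 := by
    have e1 : y * (e * y) = y * (u * (y * (e * (y * u)))) * y := by
      simp only [mul_assoc]
      rw [h.yuy_, h.yuy]
    rw [e1, o2]
    simp
  have heE1' : ∀ w : M →ₗ[k] M, y * (e * (y * w)) = 0 := fun w => by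
    rw [← mul_assoc e, ← mul_assoc y, heE1, zero_mul]
  -- `e = u y e + e y u`
  have hsplit : e = u * (y * e) + e * (y * u) := by
    have e1 : e = (u * y + y * u + E) * e * (u * y + y * u + E) := by
      rw [hone]
      simp
    have e2 : u * (y * (e * E)) = u * (y * e) := by
      have e3 : E = 1 - (u * y + y * u) := hE
      have e4 : u * (y * (e * E)) = u * (y * e) - u * (y * (e * (u * y))) - u * (y * (e * (y * u))) := by
        rw [e3]
        simp only [mul_sub, mul_add, mul_one, mul_assoc]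
        abel
      rw [e4, o2, eu']
      simp
    have e5 : E * (e * (y * u)) = e * (y * u) := by
      have e3 : E = 1 - (u * y + y * u) := hE
      have e4 : E * (e * (y * u)) = e * (y * u) - u * (y * (e * (y * u))) - y * (u * (e * (y * u))) := by
        rw [e3]
        simp only [sub_mul, add_mul, one_mul, mul_assoc]
        abel
      rw [e4, o2, ue']
      simp
    have e6 : e = u * (y * (e * E)) + E * (e * (y * u)) + E * (e * E) := by
      conv_lhs => rw [e1]
      simp only [mul_add, add_mul, mul_assoc, eu, eu', ue, ue', o2, mul_zero, zero_add, add_zero, h.yy_, h.uyu_]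
      abel
    rw [e2, e5, o1, add_zero] at e6
    exact e6
  -- `e y e = 0`
  have hey : E * (e * y) = e * y := by
    have e3 : E = 1 - (u * y + y * u) := hE
    have e4 : E * (e * y) = e * y - u * (y * (e * y)) - y * (u * (e * y)) := by
      rw [e3]
      simp only [sub_mul, add_mul, one_mul, mul_assoc]
      abel
    rw [e4, heE1, ue']
    simp
  have hye : y * (e * E) = y * e := by
    have e3 : E = 1 - (u * y + y * u) := hE
    have e4 : y * (e * E) = y * e - y * (e * (u * y)) - y * (e * (y * u)) := by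
      rw [e3]
      simp only [mul_sub, mul_add, mul_one, mul_assoc]
      abel
    rw [e4, eu', heE1']
    simp
  have heye : e * (y * e) = 0 := by
    have hm : e * y * e ∈ LE G δ hδQ := by
      rcases xyx_mem h2 hk3 heQ hy with h3 | ⟨h3, h4, h5⟩
      · rw [h3]
        exact Submodule.zero_mem _
      · exact Or.inr ⟨h3, h4.trans hek, h5.trans her⟩
    have h3 := (hodd hm).1
    have e1 : E * (e * y * e * E) = e * (y * e) := by
      calc E * (e * y * e * E) = (E * (e * y)) * (e * E) := by noncomm_ring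
        _ = (e * y) * (e * E) := by rw [hey]
        _ = e * (y * (e * E)) := by noncomm_ring
        _ = e * (y * e) := by rw [hye]
    rw [← e1]
    exact h3
  -- the new element
  set z₀ := u - e with hz₀
  have hz₀e : z₀ = (1 - e * y) * u * (1 - y * e) := by
    have e1 : (1 - e * y) * u * (1 - y * e) = u - (u * (y * e) + e * (y * u)) + e * (y * (u * (y * e))) := by
      noncomm_ring
    rw [e1, h.yuy_, heye, ← hsplit, add_zero]
  have hrkz : rk z₀ ≤ rk u := by
    rw [hz₀e]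
    exact (rk_mul_right_le _ _).trans (QP.rk_mul_left_le _ _)
  have hsq : z₀ * z₀ = 0 := by
    rw [hz₀, sub_mul, mul_sub, mul_sub, huu, ue, eu, heQ.sq]
    simp
  have hinz : ∀ c : k, InG G (1 + c • z₀) := by
    intro c
    have h3 := (hu.toQE.2.2 c).mul (heQ.toQE.2.2 (-c))
    have e1 : (1 + c • u) * (1 + (-c) • e) = 1 + c • z₀ := by
      have gen : ∀ w w' : M →ₗ[k] M, (1 + w) * (1 + w') = 1 + w + w' + w * w' := fun w w' => by noncomm_ring
      rw [gen, smul_mul_smul_comm, ue, smul_zero, add_zero, hz₀]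
      module
    rwa [e1] at h3
  have hyz : y * (z₀ * y) = y := by
    rw [hz₀, sub_mul, mul_sub, heE1, sub_zero]
    exact h.yuy
  have hz0 : z₀ ≠ 0 := by
    intro h0
    rw [h0] at hyz
    simp only [zero_mul, mul_zero] at hyz
    exact hy.ne_zero hyz.symm
  have hz₀Q : QR G z₀ := hu.of_QE ⟨hsq, hz0, hinz⟩ hrkz
  have hbz : b * z₀ * b = 0 := by
    rw [hz₀, mul_sub, sub_mul, hbeb, sub_self]
  have hCz : ∀ z, QR G z → z * u = u * z → z * z₀ = z₀ * z := by
    intro z hz hzu
    have h3 := hC z hz hzu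
    have h4 : z * δ = δ * z := by
      rw [mul_add, add_mul, hzu] at h3
      exact add_left_cancel h3
    have h5 := comm_of_class hDI hz hδQ h4 heLE
    rw [hz₀, mul_sub, sub_mul, hzu, h5]
  have h6 := om1 hDI h2 hu hz₀Q hCz
  have h7 := om2 hDI hIrr h2 hu hz₀Q (hCz u hu rfl) h6
  exact h7 b hb hnub (TU_of_xyx hDI hb hz₀Q hbz).symm

/-- **The theorem on nested centralizers**. -/
theorem same_of_cent (hDI : DI G) (hIrr : IsIrreducibleFor G) (h2 : (2 : k) ≠ 0) (hk3 : Nat.card k ≠ 3)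
    {u₀ v₀ : M →ₗ[k] M} (hu₀ : QR G u₀) (hv₀ : QR G v₀)
    (hC : ∀ z, QR G z → z * u₀ = u₀ * z → z * v₀ = v₀ * z) :
    LinearMap.ker v₀ = LinearMap.ker u₀ ∧ LinearMap.range v₀ = LinearMap.range u₀ := by
  obtain ⟨σ, hσ, rfl⟩ := id hu₀
  obtain ⟨ρ, hρ, hn⟩ := exists_R_partner hDI hIrr hσ
  obtain ⟨y, hyQ, -, -, rp⟩ := (hDI _ _ hu₀ (qr_of_mem hρ)).resolve_left hn
  have hΩ1 := om1 hDI h2 hu₀ hv₀ hC
  have hΩ2 := om2 hDI hIrr h2 hu₀ hv₀ (hC _ hu₀ rfl) hΩ1
  have hnuy : ¬ TU (dx σ) y := fun h5 => hu₀.ne_zero (by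
    have := rp.xtx
    rw [h5.1] at this
    exact this.symm)
  obtain ⟨v, hv, hvk, hvr, rp'⟩ := (hDI y v₀ hyQ hv₀).resolve_left (fun h => hΩ2 y hyQ hnuy h.symm)
  have hvLE : v ∈ LE G v₀ hv₀ := Or.inr ⟨hv, hvk, hvr⟩
  have hC' : ∀ z, QR G z → z * dx σ = dx σ * z → z * v = v * z := fun z hz hzu =>
    comm_of_class hDI hz hv₀ (hC z hz hzu) hvLE
  have h0 := d0_zero hDI hIrr h2 hk3 hu₀ hv hyQ rp rp'.symm hC'
  have hvu : v * dx σ = dx σ * v := (hC' _ hu₀ rfl).symm
  obtain ⟨s1, s2, s3, s4, s5, -⟩ := (BK.of_RP rp rp'.symm hvu).of_d0 h0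
  have e : dx σ + (v - dx σ) = v := by abel
  have h3 := step34 hDI hIrr h2 hk3 hu₀ hyQ rp (by rw [e]; exact hv) (by rw [e]; exact hC') s1 s2 s3 s4 s5
  have hv' : v = dx σ := sub_eq_zero.mp h3
  rw [← hvk, ← hvr, hv']
  exact ⟨rfl, rfl⟩

end step3

end Cfsg.Agent.Lib.QPH39
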