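import Cfsg.Agent.Lib.QPH39S5062
import Cfsg.Agent.Lib.QPH39Bridge
import Cfsg.Agent.RootSub.QP10

/-! Splitting a quadratic element along the minimal ones: for a minimal `x` and a quadratic `e` with
`x e x ≠ 0` the class of `x` contains `a` with `a e a = a`, and `e a e` is minimal. -/

set_option autoImplicit false

namespace Cfsg.Agent.Lib.QPH39

open Cfsg Cfsg.Agent.RootSub Cfsg.Agent.RootSub.Tv Polynomial Matrix

variable {k : Type*} [Field k] {M : Type*} [AddCommGroup M] [Module k M]

local notation "GLm" => LinearMap.GeneralLinearGroup k M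
local notation "End'" => (M →ₗ[k] M)

variable {G : Subgroup (LinearMap.GeneralLinearGroup k M)}

open QP (QE InG rk TT cy)

section alg

variable {A : Type*} [Ring A] [Algebra k A]

/-- Two partners of `x` with the same projection. -/
lemma two_partner {x t₁ t₂ : A} (h₁ : RP x t₁) (h₂ : RP x t₂)
    (hpi : x * t₁ + t₁ * x = x * t₂ + t₂ * x) {s s' : k} (hss : s * s' = 1) :
    ((1 - (x * t₁ + t₁ * x)) + s • (x * t₁) + s' • (t₁ * x)) *
      ((1 - (x * t₂ + t₂ * x)) + s' • (x * t₂) + s • (t₂ * x)) =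
      1 + (s * s - 1) • (x * t₁ * t₂ * x) := by
  have hs's : s' * s = 1 := by rw [mul_comm]; exact hss
  set π : A := x * t₁ + t₁ * x with hπ
  have hπ2 : x * t₂ + t₂ * x = π := hpi.symm
  rw [hπ2]
  have a1 : π * x = x := h₁.pi_x
  have a2 : x * π = x := h₁.x_pi
  have a3 : t₁ * π = t₁ := h₁.t_pi
  have a4 : π * t₂ = t₂ := by rw [← hπ2]; exact h₂.pi_t
  have a5 : π * π = π := h₁.pi_pi
  have b1 : (1 - π) * (x * t₂) = 0 := by rw [sub_mul, one_mul, ← mul_assoc, a1, sub_self]
  have b2 : (1 - π) * (t₂ * x) = 0 := by rw [sub_mul, one_mul, ← mul_assoc, a4, sub_self]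
  have b3 : (x * t₁) * (1 - π) = 0 := by rw [mul_sub, mul_one, mul_assoc, a3, sub_self]
  have b4 : (t₁ * x) * (1 - π) = 0 := by rw [mul_sub, mul_one, mul_assoc, a2, sub_self]
  have b5 : (1 - π) * (1 - π) = 1 - π := by
    simp only [sub_mul, mul_sub, one_mul, mul_one, a5]; abel
  have c1 : (x * t₁) * (x * t₂) = x * t₂ := by rw [← mul_assoc, h₁.xtx]
  have c2 : (t₁ * x) * (x * t₂) = 0 := by
    rw [mul_assoc, ← mul_assoc x, h₁.xx, zero_mul, mul_zero]
  have c3 : (x * t₁) * (t₂ * x) = x * t₁ * t₂ * x := by noncomm_ring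
  have c4 : (t₁ * x) * (t₂ * x) = t₂ * x - x * t₁ * t₂ * x := by
    have : t₁ * x = π - x * t₁ := by rw [hπ]; abel
    rw [this, sub_mul, ← mul_assoc, a4]
    noncomm_ring
  have e : ((1 - π) + s • (x * t₁) + s' • (t₁ * x)) * ((1 - π) + s' • (x * t₂) + s • (t₂ * x)) =
      (1 - π) * (1 - π) + s' • ((1 - π) * (x * t₂)) + s • ((1 - π) * (t₂ * x)) +
        (s • ((x * t₁) * (1 - π)) + (s * s') • ((x * t₁) * (x * t₂)) + (s * s) • ((x * t₁) * (t₂ * x))) +
        (s' • ((t₁ * x) * (1 - π)) + (s' * s') • ((t₁ * x) * (x * t₂)) + (s' * s) • ((t₁ * x) * (t₂ * x))) := by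
    simp only [add_mul, mul_add, smul_mul_assoc, mul_smul_comm, smul_smul]
    module
  rw [e, b1, b2, b3, b4, b5, c1, c2, c3, c4, hss, hs's]
  simp only [smul_zero, one_smul, add_zero, zero_add, sub_smul, smul_sub]
  rw [← hπ2]
  abel

end alg

/-- The additive closure. -/
lemma inG_scale {μ : End'} (hμ : μ * μ = 0) (h2 : (2 : k) ≠ 0) (hk3 : Nat.card k ≠ 3)
    (hS : ∀ s s' : k, s * s' = 1 → InG G (1 + (s * s - 1) • μ)) (c : k) : InG G (1 + c • μ) := by
  have hadd : ∀ a b : k, InG G (1 + a • μ) → InG G (1 + b • μ) → InG G (1 + (a + b) • μ) := by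
    intro a b ha hb
    have e : (1 + a • μ) * (1 + b • μ) = 1 + (a + b) • μ := by
      have gen : ∀ u u' : End', (1 + u) * (1 + u') = 1 + u + u' + u * u' := fun u u' => by noncomm_ring
      rw [gen, smul_mul_smul_comm, hμ, smul_zero, add_zero, add_smul, add_assoc]
    rw [← e]
    exact ha.mul hb
  have hneg : ∀ a : k, InG G (1 + a • μ) → InG G (1 + (-a) • μ) := by
    intro a ha
    have e : 1 + (-a) • μ = 1 - a • μ := by rw [neg_smul]; abel
    rw [e]
    exact InG.inv_of_sq (smul_sq hμ a) ha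
  have hgen : ∀ a : k, a ≠ 1 → a ≠ -1 → InG G (1 + a • μ) := by
    intro a h1 hm1
    have h1' : a - 1 ≠ 0 := sub_ne_zero.mpr h1
    have hm1' : a + 1 ≠ 0 := by
      intro h
      apply hm1
      linear_combination h
    have hs1 : ((a + 1) / 2) * (2 / (a + 1)) = 1 := by field_simp
    have hs2 : ((a - 1) / 2) * (2 / (a - 1)) = 1 := by field_simp
    have h3 := hS _ _ hs1
    have h4 := hneg _ (hS _ _ hs2)
    have h5 := hadd _ _ h3 h4
    have e : ((a + 1) / 2 * ((a + 1) / 2) - 1 + -((a - 1) / 2 * ((a - 1) / 2) - 1)) = a := by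
      field_simp
      ring
    rwa [e] at h5
  obtain ⟨s, s', hss, hs⟩ := QP.exists_s h2 hk3
  -- an element `c₀` with `c₀, 1 - c₀ ∉ {1, -1}`
  have hone : InG G (1 + (1 : k) • μ) := by
    have hs0 : s ≠ 0 := fun h => by simp [h] at hss
    have hs'0 : s' ≠ 0 := fun h => by simp [h] at hss
    have hs1 : s ≠ 1 := fun h => hs (by simp [h])
    have hsm1 : s ≠ -1 := fun h => hs (by simp [h])
    by_cases h22 : s = 2
    · -- use `s'`
      have hs'1 : s' ≠ 1 := by
        intro h
        rw [h, mul_one] at hss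
        exact hs1 hss
      have hs'm1 : s' ≠ -1 := by
        intro h
        apply hsm1
        rw [h] at hss
        linear_combination -hss
      have hs'2 : s' ≠ 2 := by
        intro h
        apply hs
        rw [h] at hss
        rw [h22] at hss ⊢
        have h3 : (2 : k) * 2 = 1 := hss
        exact h3
      have h3 := hgen s' hs'1 hs'm1
      have h4 := hgen (1 - s') (fun h => hs'0 (by linear_combination -h)) (fun h => hs'2 (by linear_combination -h))
      have h5 := hadd _ _ h3 h4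
      have e : s' + (1 - s') = 1 := by ring
      rwa [e] at h5
    · have h3 := hgen s hs1 hsm1
      have h4 := hgen (1 - s) (fun h => hs0 (by linear_combination -h)) (fun h => h22 (by linear_combination -h))
      have h5 := hadd _ _ h3 h4
      have e : s + (1 - s) = 1 := by ring
      rwa [e] at h5
  by_cases h1 : c = 1
  · rw [h1]; exact hone
  by_cases hm1 : c = -1
  · rw [hm1]; exact hneg _ hone
  exact hgen c h1 hm1

/-- The image of `Φ` lies in `G`. -/
lemma PhiGL_mem {x t : End'} (h : RP x t) (hx : ∀ c : k, InG G (1 + c • x)) (ht : ∀ c : k, InG G (1 + c • t))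
    (g : SpecialLinearGroup (Fin 2) k) : PhiGL h g ∈ G := by
  have hle : (⊤ : Subgroup (SpecialLinearGroup (Fin 2) k)) ≤ G.comap (PhiGL h) := by
    rw [← sl2_generated, sup_le_iff]
    constructor
    · intro g hg
      obtain ⟨c, rfl⟩ := mem_lower.mp hg
      obtain ⟨g', hg', he⟩ := ht c
      have : PhiGL h (loM c) = g' := Units.ext (by rw [PhiGL_lo, he])
      show PhiGL h (loM c) ∈ G
      rw [this]
      exact hg'
    · intro g hg
      obtain ⟨c, rfl⟩ := mem_upper.mp hg
      obtain ⟨g', hg', he⟩ := hx c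
      have : PhiGL h (upM c) = g' := Units.ext (by rw [PhiGL_up, he])
      show PhiGL h (upM c) ∈ G
      rw [this]
      exact hg'
  exact hle (Subgroup.mem_top g)

/-- The diagonal elements. -/
lemma diag_inG {x t : End'} (h : RP x t) (hx : ∀ c : k, InG G (1 + c • x)) (ht : ∀ c : k, InG G (1 + c • t))
    {s s' : k} (hss : s * s' = 1) :
    InG G ((1 - (x * t + t * x)) + s • (x * t) + s' • (t * x)) := by
  let g : SpecialLinearGroup (Fin 2) k := ⟨!![s, 0; 0, s'], by simp [det_fin_two, hss]⟩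
  refine ⟨PhiGL h g, PhiGL_mem h hx ht g, ?_⟩
  rw [PhiGL_val]
  unfold Phi0
  simp [g]

section five

variable [FiniteDimensional k M] {x y : M →ₗ[k] M}

/-- The first step of the proof of `UL`, only for one side. -/
lemma xex_of_five {d : ℕ} (hmin : ∀ z, QE G z → d ≤ rk z) (h2 : (2 : k) ≠ 0)
    (hx : QE G x) (hy : QE G y) (hrx : rk x = d)
    (h5x : x * (y * (x * (y * x))) = 0) : x * y * x = 0 := by
  have hxx := hx.1
  have hyy := hy.1
  have hx' : ∀ u, x * (x * u) = 0 := fun u => by rw [← mul_assoc, hxx, zero_mul]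
  have hy' : ∀ u, y * (y * u) = 0 := fun u => by rw [← mul_assoc, hyy, zero_mul]
  have h5x' : ∀ u, x * (y * (x * (y * (x * u)))) = 0 := fun u => by
    have : x * (y * (x * (y * (x * u)))) = x * (y * (x * (y * x))) * u := by simp only [mul_assoc]
    rw [this, h5x, zero_mul]
  -- the two commutators
  have key : ∀ y' : M →ₗ[k] M, QE G y' → (y' = y ∨ y' = -y) →
      ∀ ν : k, InG G (1 + ν • (cy y' x * x - x * cy y' x)) := by
    intro y' hy' hor ν
    obtain ⟨hz, -⟩ := hx.cy hy'
    have hzz := hz.1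
    have hxz : x * cy y' x * x = 0 := by
      rcases hor with rfl | rfl <;> rw [QP.cy_eq] <;>
        simp only [mul_add, add_mul, mul_sub, sub_mul, mul_assoc, mul_neg, neg_mul, hxx, hyy, hx', hy', h5x, h5x', neg_neg,
          mul_zero, zero_mul, add_zero, zero_add, sub_zero, zero_sub, neg_zero]
    have hzxz : cy y' x * x * cy y' x = 0 := by
      rcases hor with rfl | rfl <;> rw [QP.cy_eq] <;>
        simp only [mul_add, add_mul, mul_sub, sub_mul, mul_assoc, mul_neg, neg_mul, hxx, hyy, hx', hy', h5x, h5x', neg_neg,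
          mul_zero, zero_mul, add_zero, zero_add, sub_zero, zero_sub, neg_zero]
    have hv : (ν • x) * (ν • x) = 0 := by
      rw [smul_mul_smul_comm, hxx, smul_zero]
    have e := QP.comm_expand hzz hv
    have e1 : (ν • x) * cy y' x * (ν • x) = 0 := by
      simp only [smul_mul_assoc, mul_smul_comm]
      rw [hxz]
      simp
    have e2 : cy y' x * (ν • x) * cy y' x = 0 := by
      simp only [smul_mul_assoc, mul_smul_comm]
      rw [hzxz]
      simp
    rw [e1, e2, zero_mul] at e
    have e4 : 1 + ν • (cy y' x * x - x * cy y' x) =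
        1 + (cy y' x * (ν • x) - ν • x * cy y' x) + 0 - 0 + 0 := by
      rw [smul_sub, mul_smul_comm, smul_mul_assoc]
      simp
    rw [e4, ← e]
    have hgz := hz.2.2 1
    rw [one_smul] at hgz
    have hgv := hx.2.2 ν
    exact ((hgz.mul hgv).mul (InG.inv_of_sq hzz hgz)).mul (InG.inv_of_sq hv hgv)
  have hSp := key y hy (Or.inl rfl)
  have hSm := key (-y) hy.neg (Or.inr rfl)
  have eSp : cy y x * x - x * cy y x = -(2 : k) • (x * y * x) + x * y * (x * y) - y * x * (y * x) := by
    rw [QP.cy_eq]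
    simp only [mul_add, add_mul, mul_sub, sub_mul, mul_assoc, hxx, hyy, hx', hy', mul_zero, zero_mul, add_zero,
      zero_add, sub_zero, zero_sub, neg_smul, two_smul]
    abel
  have eSm : cy (-y) x * x - x * cy (-y) x = (2 : k) • (x * y * x) + x * y * (x * y) - y * x * (y * x) := by
    rw [QP.cy_eq]
    simp only [mul_add, add_mul, mul_sub, sub_mul, mul_assoc, mul_neg, neg_mul, neg_neg, hxx, hyy, hx', hy', mul_zero, zero_mul, add_zero,
      zero_add, sub_zero, zero_sub, two_smul]
    abel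
  have hprod : ((2 : k) • (x * y * x) + x * y * (x * y) - y * x * (y * x)) *
      (-(2 : k) • (x * y * x) + x * y * (x * y) - y * x * (y * x)) = 0 := by
    simp only [mul_add, add_mul, mul_sub, sub_mul, mul_assoc, smul_mul_assoc, mul_smul_comm, hxx, hyy, hx', hy', h5x, h5x',
      mul_zero, zero_mul, add_zero, zero_add, sub_zero, zero_sub, smul_zero]
  have hsq : (x * y * x) * (x * y * x) = 0 := by
    simp only [mul_assoc, hxx, hx', mul_zero]
  have hG : ∀ ν : k, InG G (1 + ν • (x * y * x)) := by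
    intro ν
    have h4 : (4 : k) ≠ 0 := by
      have : (4 : k) = 2 * 2 := by norm_num
      rw [this]
      exact mul_ne_zero h2 h2
    set μ : k := ν / 4 with hμ
    have h1 := hSm μ
    have h2' := hSp (-μ)
    rw [eSm] at h1
    rw [eSp] at h2'
    have h3 := h1.mul h2'
    have e : (1 + μ • ((2 : k) • (x * y * x) + x * y * (x * y) - y * x * (y * x))) *
        (1 + (-μ) • (-(2 : k) • (x * y * x) + x * y * (x * y) - y * x * (y * x))) = 1 + ν • (x * y * x) := by
      have gen : ∀ A B : M →ₗ[k] M, (1 + A) * (1 + B) = 1 + A + B + A * B := fun A B => by noncomm_ring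
      rw [gen, smul_mul_smul_comm, hprod, smul_zero, add_zero]
      have : ν = 4 * μ := by
        rw [hμ]
        field_simp
      rw [this, add_assoc]
      congr 1
      module
    rwa [e] at h3
  by_contra hne
  have hQ : QE G (x * y * x) := ⟨hsq, hne, hG⟩
  have hr := hmin _ hQ
  have hle : LinearMap.range (x * y * x) ≤ LinearMap.range x := by
    rintro _ ⟨v, rfl⟩
    exact ⟨y (x v), rfl⟩
  have heq : LinearMap.range (x * y * x) = LinearMap.range x := by
    apply Submodule.eq_of_le_of_finrank_le hle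
    unfold rk at hr hrx
    omega
  apply hne
  ext v
  have hv : x v ∈ LinearMap.range (x * y * x) := by
    rw [heq]
    exact ⟨v, rfl⟩
  obtain ⟨u, hu⟩ := hv
  have : (x * y * x) v = (x * (y * (x * (y * x)))) u := by
    change x (y (x v)) = x (y (x (y (x u))))
    rw [← hu]
    rfl
  rw [this, h5x]
  rfl

end five

section norm

variable [FiniteDimensional k M] {x e : M →ₗ[k] M}

/-- The class of a minimal `x` contains `a` with `a e a = a` if `x e x ≠ 0`. -/
theorem exists_normalized {d : ℕ} (hmin : ∀ z, QE G z → d ≤ rk z) (h2 : (2 : k) ≠ 0) (hk3 : Nat.card k ≠ 3)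
    (hx : QE G x) (he : QE G e) (hrx : rk x = d) (hne : x * e * x ≠ 0) :
    ∃ a, QE G a ∧ a * e * a = a ∧ LinearMap.ker a = LinearMap.ker x ∧ LinearMap.range a = LinearMap.range x := by
  have hxx := hx.1
  have hee := he.1
  have hx' : ∀ u, x * (x * u) = 0 := fun u => by rw [← mul_assoc, hxx, zero_mul]
  have he' : ∀ u, e * (e * u) = 0 := fun u => by rw [← mul_assoc, hee, zero_mul]
  set T := TT x e with hT
  set y₁ := cy e x with hy₁
  set y₂ := cy (-e) x with hy₂
  have hT1 : TT x y₁ = -(T * T) := QP.TT_cy hxx hee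
  have hee2 : (-e) * (-e) = 0 := by simpa using hee
  have hT2 : TT x y₂ = -(T * T) := by
    have h3 := QP.TT_cy (y := -e) hxx hee2
    have e1 : TT x (-e) = -T := by
      rw [hT]
      unfold TT
      simp only [mul_neg, neg_mul, neg_add_rev]
      abel
    rw [e1, neg_mul_neg] at h3
    exact h3
  obtain ⟨hy1Q, hy1r⟩ := hx.cy he
  obtain ⟨hy2Q, hy2r⟩ := hx.cy he.neg
  have h5 : x * y₁ * x = -(x * (e * (x * (e * x)))) := by
    rw [hy₁, QP.cy_eq]
    simp only [mul_add, add_mul, mul_sub, sub_mul, mul_assoc, hxx, hee, hx', he', mul_zero, zero_mul, add_zero,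
      zero_add, sub_zero, zero_sub]
  rcases QP.thmF hmin h2 hk3 hx hy1Q hrx (hy1r.trans hrx) with hU | ⟨⟨D⟩⟩
  · exfalso
    apply hne
    apply xex_of_five hmin h2 hx he hrx
    have h3 := hU.1
    rw [h5, neg_eq_zero] at h3
    exact h3
  set v := QP.pv (TT x y₁) D.u with hv
  set ε := D.eps with hε
  have vT₁ : v * TT x y₁ = ε := D.u_T
  have εx : ε * x = x := D.eps_x hxx
  have εy₁ : ε * y₁ = y₁ := D.eps_y hy1Q.1
  have cTx : T * x = x * T := (QP.comm_TT_x hxx).symm
  have cTe : T * e = e * T := (QP.comm_TT_y hee).symm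
  have cT1x : TT x y₁ * x = x * TT x y₁ := (QP.comm_TT_x hxx).symm
  have cT1e : TT x y₁ * e = e * TT x y₁ := by
    rw [hT1]
    simp only [neg_mul, mul_neg]
    rw [mul_assoc, cTe, ← mul_assoc, cTe, mul_assoc]
  have cT1T : TT x y₁ * T = T * TT x y₁ := by
    rw [hT1]
    simp only [neg_mul, mul_neg, mul_assoc]
  have cvx : v * x = x * v := QP.pv_comm_of cT1x _
  have cve : v * e = e * v := QP.pv_comm_of cT1e _
  have cvT : v * T = T * v := QP.pv_comm_of cT1T _
  have hvTT : v * T * T = -ε := by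
    rw [← vT₁, hT1, mul_neg, neg_neg, mul_assoc]
  -- `w = v T`
  set w := v * T with hw
  have cwx : w * x = x * w := by
    rw [hw, mul_assoc, cTx, ← mul_assoc, cvx, mul_assoc]
  have cwe : w * e = e * w := by
    rw [hw, mul_assoc, cTe, ← mul_assoc, cve, mul_assoc]
  have cTw : T * w = w * T := by
    rw [hw, ← mul_assoc, ← cvT]
  have hTx : T * x = x * e * x := QP.TT_mul_x hxx
  have wwT : w * (w * (T * x)) = - (w * x) := by
    have : w * (T * x) = -ε * x := by rw [← mul_assoc, hvTT]
    rw [this, neg_mul, εx, mul_neg]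
  -- partners
  set t₁ := D.partner with ht₁
  have ht₁Q : QE G t₁ := D.partner_QE hx hy1Q h2 hk3
  have ht₁e : t₁ = v * y₁ := rfl
  have rp₁ : RP x t₁ := ⟨hxx, D.partner_sq hy1Q.1, D.x_partner_x hxx, D.partner_x_partner hxx hy1Q.1⟩
  have cT2y : TT x y₁ * y₂ = y₂ * TT x y₁ := by
    rw [hT1, ← hT2]
    exact (QP.comm_TT_y hy2Q.1).symm
  have cvy₂ : v * y₂ = y₂ * v := QP.pv_comm_of cT2y _
  have cvy₁ : v * y₁ = y₁ * v := QP.pv_comm_of (QP.comm_TT_y hy1Q.1).symm _
  have cεe : ε * e = e * ε := by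
    rw [← vT₁, mul_assoc, cT1e, ← mul_assoc, cve, mul_assoc]
  have xε : x * ε = x := D.mul_eps_x
  have εy₂ : ε * y₂ = y₂ := by
    rw [hy₂]
    unfold cy
    have e1 : ε * (1 + -e) = (1 + -e) * ε := by
      simp only [mul_add, add_mul, mul_neg, neg_mul, mul_one, one_mul, cεe]
    rw [← mul_assoc, ← mul_assoc, e1, mul_assoc (1 + -e), εx]
  have hT12 : TT x y₂ = TT x y₁ := by rw [hT1, hT2]
  set t₂ := v * y₂ with ht₂
  have ht₂Q : QE G t₂ := by
    have h3 := (ht₁Q.cy (he.smul (c := (-2 : k)) (neg_ne_zero.mpr h2))).1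
    have e1 : (1 + (-2 : k) • e) * (1 + e) = 1 + -e := by
      simp only [add_mul, mul_add, one_mul, mul_one, smul_mul_assoc, hee, smul_zero, add_zero]
      have : (-2 : k) • e = -(e + e) := by rw [neg_smul, two_smul]
      rw [this]
      abel
    have e2 : (1 + -e) * (1 - (-2 : k) • e) = 1 - -e := by
      have : (-2 : k) • e = -(e + e) := by rw [neg_smul, two_smul]
      rw [this]
      simp only [add_mul, mul_sub, mul_add, mul_neg, neg_mul, one_mul, mul_one, hee, neg_zero, add_zero, sub_zero]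
      abel
    have e3 : (1 + (-2 : k) • e) * v = v * (1 + (-2 : k) • e) := by
      simp only [add_mul, mul_add, one_mul, mul_one, smul_mul_assoc, mul_smul_comm, cve]
    convert h3 using 1
    unfold cy
    rw [ht₂, ht₁e, hy₁, hy₂]
    unfold cy
    calc v * ((1 + -e) * x * (1 - -e))
        = v * ((1 + (-2 : k) • e) * (1 + e) * x * ((1 - e) * (1 - (-2 : k) • e))) := by
          rw [e1]
          have e2' : (1 - e) * (1 - (-2 : k) • e) = 1 - -e := by
            have : (1 : End') - e = 1 + -e := by abel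
            rw [this, e2]
          rw [e2']
      _ = ((1 + (-2 : k) • e) * v) * ((1 + e) * x * (1 - e)) * (1 - (-2 : k) • e) := by
          rw [e3]
          noncomm_ring
      _ = _ := rfl
  have rp₂ : RP x t₂ := by
    refine ⟨hxx, ?_, ?_, ?_⟩
    · calc v * y₂ * (v * y₂) = v * (y₂ * v) * y₂ := by noncomm_ring
        _ = v * v * (y₂ * y₂) := by rw [← cvy₂]; noncomm_ring
        _ = 0 := by rw [hy2Q.1, mul_zero]
    · calc x * (v * y₂) * x = (x * v) * y₂ * x := by noncomm_ring
        _ = v * (x * y₂ * x) := by rw [← cvx]; noncomm_ring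
        _ = v * (TT x y₂ * x) := by rw [QP.TT_mul_x hxx]
        _ = (v * TT x y₁) * x := by rw [hT12, mul_assoc]
        _ = x := by rw [vT₁, εx]
    · calc v * y₂ * x * (v * y₂) = v * (y₂ * (x * v)) * y₂ := by noncomm_ring
        _ = v * ((y₂ * v) * x) * y₂ := by rw [← cvx]; noncomm_ring
        _ = v * v * (y₂ * x * y₂) := by rw [← cvy₂]; noncomm_ring
        _ = v * v * (TT x y₂ * y₂) := by rw [QP.TT_mul_y hy2Q.1]
        _ = v * ((v * TT x y₁) * y₂) := by rw [hT12]; noncomm_ring
        _ = v * y₂ := by rw [vT₁, εy₂]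
  have hpi₁ : x * t₁ + t₁ * x = ε := by
    rw [ht₁e]
    calc x * (v * y₁) + v * y₁ * x = (x * v) * y₁ + v * (y₁ * x) := by noncomm_ring
      _ = v * (x * y₁ + y₁ * x) := by rw [← cvx]; noncomm_ring
      _ = ε := vT₁
  have hpi₂ : x * t₂ + t₂ * x = ε := by
    rw [ht₂]
    calc x * (v * y₂) + v * y₂ * x = (x * v) * y₂ + v * (y₂ * x) := by noncomm_ring
      _ = v * (x * y₂ + y₂ * x) := by rw [← cvx]; noncomm_ring
      _ = v * TT x y₂ := rfl
      _ = ε := by rw [hT12, vT₁]
  -- the element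
  set μ := x * t₁ * t₂ * x with hμ
  have hμμ : μ * μ = 0 := by
    calc μ * μ = x * t₁ * t₂ * (x * x) * t₁ * t₂ * x := by rw [hμ]; noncomm_ring
      _ = 0 := by rw [hxx]; simp
  have hS : ∀ s s' : k, s * s' = 1 → InG G (1 + (s * s - 1) • μ) := by
    intro s s' hss
    rw [hμ, ← two_partner rp₁ rp₂ (hpi₁.trans hpi₂.symm) hss]
    exact (diag_inG rp₁ hx.2.2 ht₁Q.2.2 hss).mul (diag_inG rp₂ hx.2.2 ht₂Q.2.2 (by rw [mul_comm]; exact hss))
  have hscale := inG_scale hμμ h2 hk3 hS
  have hT3 : T * (T * (T * x)) = x * (e * (x * (e * (x * (e * x))))) := by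
    rw [hT]
    unfold TT
    simp only [mul_add, add_mul, mul_assoc, hxx, hee, hx', he', mul_zero, zero_mul, add_zero, zero_add]
  have hxyy : x * y₁ * y₂ * x = (-2 : k) • (T * (T * (T * x))) := by
    rw [hT3, hy₁, hy₂, QP.cy_eq, QP.cy_eq]
    simp only [mul_add, add_mul, mul_sub, sub_mul, mul_assoc, mul_neg, neg_mul, neg_neg, hxx, hee, hx', he', mul_zero, zero_mul, add_zero,
      zero_add, sub_zero, zero_sub, sub_neg_eq_add, neg_zero]
    rw [neg_smul, two_smul]
    abel
  have hμa : μ = (-2 : k) • (-(w * x)) := by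
    rw [hμ, ht₁e, ht₂]
    have e1 : x * (v * y₁) * (v * y₂) * x = v * v * (x * y₁ * y₂ * x) := by
      calc x * (v * y₁) * (v * y₂) * x = (x * v) * y₁ * v * y₂ * x := by noncomm_ring
        _ = v * x * (y₁ * v) * y₂ * x := by rw [← cvx]; noncomm_ring
        _ = v * (x * v) * y₁ * y₂ * x := by rw [← cvy₁]; noncomm_ring
        _ = v * v * (x * y₁ * y₂ * x) := by rw [← cvx]; noncomm_ring
    rw [e1, hxyy, mul_smul_comm, ← wwT]
    congr 1
    have : w * (w * (T * x)) = v * T * (v * T) * (T * x) := by rw [hw]; noncomm_ring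
    rw [this]
    calc v * v * (T * (T * (T * x))) = v * (v * T) * T * (T * x) := by noncomm_ring
      _ = v * (T * v) * T * (T * x) := by rw [show v * T = T * v from cvT]
      _ = v * T * (v * T) * (T * x) := by noncomm_ring
  refine ⟨-(w * x), ⟨?_, ?_, fun c => ?_⟩, ?_, ?_, ?_⟩
  · calc -(w * x) * -(w * x) = w * (x * w) * x := by noncomm_ring
      _ = w * w * (x * x) := by rw [← cwx]; noncomm_ring
      _ = 0 := by rw [hxx, mul_zero]
  · intro h
    apply hx.2.1
    have e1 : T * -(w * x) = x := by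
      calc T * -(w * x) = -((T * w) * x) := by noncomm_ring
        _ = -((w * T) * x) := by rw [cTw]
        _ = x := by rw [hw, hvTT, neg_mul, neg_neg, εx]
    rw [← e1, h, mul_zero]
  · have e1 : 1 + c • -(w * x) = 1 + (-c / 2) • μ := by
      rw [hμa, smul_smul]
      congr 2
      field_simp
    rw [e1]
    exact hscale _
  · calc -(w * x) * e * -(w * x) = w * x * e * (w * x) := by noncomm_ring
      _ = w * (x * (e * w)) * x := by noncomm_ring
      _ = w * ((x * w) * e) * x := by rw [← cwe]; noncomm_ring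
      _ = w * (w * (x * e * x)) := by rw [← cwx]; noncomm_ring
      _ = -(w * x) := by rw [← hTx, wwT]
  · apply le_antisymm
    · intro m hm
      rw [LinearMap.mem_ker] at hm ⊢
      have e1 : T * -(w * x) = x := by
        calc T * -(w * x) = -((T * w) * x) := by noncomm_ring
          _ = -((w * T) * x) := by rw [cTw]
          _ = x := by rw [hw, hvTT, neg_mul, neg_neg, εx]
      rw [← e1, Module.End.mul_apply, hm, map_zero]
    · intro m hm
      rw [LinearMap.mem_ker] at hm ⊢
      have : (-(w * x)) m = -(w (x m)) := rfl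
      rw [this, hm, map_zero, neg_zero]
  · apply le_antisymm
    · rintro _ ⟨m, rfl⟩
      have : (-(w * x)) m = x (-(w m)) := by
        rw [cwx]
        simp
      rw [this]
      exact LinearMap.mem_range_self _ _
    · rintro _ ⟨m, rfl⟩
      have e1 : -(w * x) * T = x := by
        calc -(w * x) * T = -((w * (x * T))) := by noncomm_ring
          _ = -(w * (T * x)) := by rw [cTx]
          _ = -((w * T) * x) := by noncomm_ring
          _ = x := by rw [hw, hvTT, neg_mul, neg_neg, εx]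
      refine ⟨T m, ?_⟩
      rw [← Module.End.mul_apply, e1]

end norm

section split

variable [FiniteDimensional k M] {a e : M →ₗ[k] M}

/-- `e a e` is conjugate to `-a`. -/
lemma cy_cy_eq (haa : a * a = 0) (hee : e * e = 0) (hae : a * e * a = a) : cy (-a) (cy e a) = -(e * a * e) := by
  have ha' : ∀ u, a * (a * u) = 0 := fun u => by rw [← mul_assoc, haa, zero_mul]
  have he' : ∀ u, e * (e * u) = 0 := fun u => by rw [← mul_assoc, hee, zero_mul]
  have h1 : a * (e * a) = a := by rw [← mul_assoc, hae]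
  have h2 : ∀ u, a * (e * (a * u)) = a * u := fun u => by rw [← mul_assoc, ← mul_assoc, hae]
  rw [QP.cy_eq, QP.cy_eq]
  simp only [mul_add, add_mul, mul_sub, sub_mul, mul_assoc, mul_neg, neg_mul, neg_neg, haa, hee, ha', he', h1, h2,
    mul_zero, zero_mul, add_zero, zero_add, sub_zero, zero_sub, sub_neg_eq_add, neg_zero]
  abel

lemma QE_eae (ha : QE G a) (he : QE G e) (hae : a * e * a = a) : QE G (e * a * e) ∧ rk (e * a * e) = rk a := by
  obtain ⟨h1, h2⟩ := ha.cy he
  obtain ⟨h3, h4⟩ := h1.cy ha.neg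
  rw [cy_cy_eq ha.1 he.1 hae] at h3 h4
  have h5 := h3.neg
  rw [neg_neg] at h5
  refine ⟨h5, ?_⟩
  rw [← QP.rk_neg, h4, h2]

/-- The rest. -/
theorem split_rest (ha : QE G a) (he : QE G e) (hae : a * e * a = a) :
    (e - e * a * e) * (e - e * a * e) = 0 ∧ (∀ c : k, InG G (1 + c • (e - e * a * e))) ∧
      (1 + e * a * e) * (1 + (e - e * a * e)) = 1 + e ∧ rk (e - e * a * e) < rk e := by
  have hee := he.1
  have he' : ∀ u, e * (e * u) = 0 := fun u => by rw [← mul_assoc, hee, zero_mul]
  have e1 : e * (e * a * e) = 0 := by simp only [mul_assoc, he']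
  have e2 : (e * a * e) * e = 0 := by simp only [mul_assoc, hee, mul_zero]
  have e3 : (e * a * e) * (e * a * e) = 0 := by simp only [mul_assoc, hee, he', mul_zero]
  refine ⟨?_, ?_, ?_, ?_⟩
  · rw [sub_mul, mul_sub, mul_sub, hee, e1, e2, e3]
    simp
  · intro c
    have h3 : (1 + c • e) * (1 + (-c) • (e * a * e)) = 1 + c • (e - e * a * e) := by
      have gen : ∀ u u' : M →ₗ[k] M, (1 + u) * (1 + u') = 1 + u + u' + u * u' := fun u u' => by noncomm_ring
      rw [gen, smul_mul_smul_comm, e1, smul_zero, add_zero, smul_sub, neg_smul]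
      abel
    rw [← h3]
    exact (he.2.2 c).mul ((QE_eae ha he hae).1.2.2 (-c))
  · have gen : ∀ u u' : M →ₗ[k] M, (1 + u) * (1 + u') = 1 + u + u' + u * u' := fun u u' => by noncomm_ring
    rw [gen, mul_sub, e2, e3, sub_zero, add_zero]
    abel
  · -- kernels
    have hker : LinearMap.ker e < LinearMap.ker (e - e * a * e) := by
      apply lt_of_le_of_ne
      · intro m hm
        rw [LinearMap.mem_ker] at hm ⊢
        show e m - e (a (e m)) = 0
        rw [hm]
        simp
      · intro h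
        have hea : e * a = 0 := by
          ext m
          have h3 : a m ∈ LinearMap.ker (e - e * a * e) := by
            rw [LinearMap.mem_ker]
            show e (a m) - e (a (e (a m))) = 0
            have h4 : a (e (a m)) = a m := congrArg (fun f : M →ₗ[k] M => f m) hae
            rw [h4, sub_self]
          rw [← h, LinearMap.mem_ker] at h3
          exact h3
        apply ha.2.1
        rw [← hae, mul_assoc, hea, mul_zero]
    have h3 := Submodule.finrank_lt_finrank_of_lt hker
    have h4 := LinearMap.finrank_range_add_finrank_ker e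
    have h5 := LinearMap.finrank_range_add_finrank_ker (e - e * a * e)
    unfold rk
    omega

end split

section lemR

variable [FiniteDimensional k M]

/-- `a` vanishes between minimal elements. -/
def TZ (G : Subgroup (LinearMap.GeneralLinearGroup k M)) (a : M →ₗ[k] M) : Prop :=
  ∀ z, QR G z → z * a * z = 0

omit [FiniteDimensional k M] in
lemma TZ.sub {a b : M →ₗ[k] M} (ha : TZ G a) (hb : TZ G b) : TZ G (a - b) := by
  intro z hz
  rw [mul_sub, sub_mul, ha z hz, hb z hz, sub_zero]

omit [FiniteDimensional k M] in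
lemma TZ.add {a b : M →ₗ[k] M} (ha : TZ G a) (hb : TZ G b) : TZ G (a + b) := by
  intro z hz
  rw [mul_add, add_mul, ha z hz, hb z hz, add_zero]

omit [FiniteDimensional k M] in
lemma TZ.zero : TZ G (0 : M →ₗ[k] M) := by
  intro z _
  simp

omit [FiniteDimensional k M] in
lemma TZ.smul {a : M →ₗ[k] M} (ha : TZ G a) (c : k) : TZ G (c • a) := by
  intro z hz
  rw [mul_smul_comm, smul_mul_assoc, ha z hz, smul_zero]

omit [FiniteDimensional k M] in
lemma TZ.conj {a : M →ₗ[k] M} (h : TZ G a) {g : GLm} (hg : g ∈ G) : TZ G (cj g a) := by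
  intro z hz
  have h1 := h _ (hz.conj_mem (G.inv_mem hg))
  have e : z * cj g a * z = cj g (cj g⁻¹ z * a * cj g⁻¹ z) := by
    rw [cj_mul, cj_mul, cj_cj_inv]
  rw [e, h1, cj_zero]

omit [FiniteDimensional k M] in
lemma QR.toQE {x : M →ₗ[k] M} (hx : QR G x) : QE G x := by
  obtain ⟨σ, hσ, rfl⟩ := hx
  exact QP.QE_of_min hσ

omit [FiniteDimensional k M] in
lemma QR.cyc {z v : M →ₗ[k] M} (hz : QR G z) (hv : QE G v) : QR G (cy v z) := by
  obtain ⟨g, hg, hge⟩ := QP.exists_unit_of_QE hv
  have e : cy v z = cj g z := by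
    unfold QP.cy cj
    rw [QP.val_inv_of_sq hv.1 hge, hge]
  rw [e]
  exact hz.conj_mem hg

omit [FiniteDimensional k M] in
lemma TZ.ad {a z : M →ₗ[k] M} (h : TZ G a) (hz : QR G z) : TZ G (z * a - a * z) := by
  have hg : unitOfSq z hz.sq ∈ G := (hz.unit_mem hz.sq).1.1
  have h1 := h.conj hg
  have e : cj (unitOfSq z hz.sq) a = a + (z * a - a * z) := by
    show (1 + z) * a * (1 - z) = _
    have h3 := h z hz
    calc (1 + z) * a * (1 - z) = a + (z * a - a * z) - z * a * z := by noncomm_ring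
      _ = _ := by rw [h3, sub_zero]
  rw [e] at h1
  have h3 := h1.sub h
  rwa [add_sub_cancel_left] at h3

lemma not_TZ_of_QR (hDI : DI G) (hIrr : IsIrreducibleFor G) {x : M →ₗ[k] M} (hx : QR G x) : ¬ TZ G x := by
  intro h
  obtain ⟨σ, hσ, rfl⟩ := hx
  obtain ⟨ρ, hρ, hn⟩ := exists_R_partner hDI hIrr hσ
  obtain ⟨t, ht, -, -, hrp⟩ := (hDI _ _ (qr_of_mem hσ) (qr_of_mem hρ)).resolve_left hn
  have h1 := h t ht
  rw [hrp.txt] at h1
  exact ht.ne_zero h1

/-- Square-zero elements of `G` in the span of the minimal elements that vanish between them. -/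
structure NN (G : Subgroup (LinearMap.GeneralLinearGroup k M)) (v : M →ₗ[k] M) : Prop where
  sq : v * v = 0
  inG : ∀ c : k, InG G (1 + c • v)
  tz : TZ G v
  span : v ∈ Submodule.span k {z : M →ₗ[k] M | QR G z}

lemma NN.vzv (hDI : DI G) (hIrr : IsIrreducibleFor G) (h2 : (2 : k) ≠ 0) {v z : M →ₗ[k] M} (hv : NN G v)
    (hz : QR G z) : v * z * v = 0 := by
  by_contra hne
  have hvv := hv.sq
  have hzz := hz.sq
  have zvz := hv.tz z hz
  have hv0 : v ≠ 0 := by
    rintro rfl
    simp at hne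
  have hvQ : QE G v := ⟨hvv, hv0, hv.inG⟩
  have hv' : ∀ u, v * (v * u) = 0 := fun u => by rw [← mul_assoc, hvv, zero_mul]
  have hz' : ∀ u, z * (z * u) = 0 := fun u => by rw [← mul_assoc, hzz, zero_mul]
  have zvz1 : z * (v * z) = 0 := by rw [← mul_assoc, zvz]
  have zvz' : ∀ u, z * (v * (z * u)) = 0 := fun u => by rw [← mul_assoc, ← mul_assoc, zvz, zero_mul]
  have hz₁ : QR G (cy v z) := hz.cyc hvQ
  have hz₂ : QR G (cy (-v) z) := hz.cyc hvQ.neg
  -- products
  have p1 : cy v z * z = 0 := by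
    rw [QP.cy_eq]
    simp only [mul_add, add_mul, mul_sub, sub_mul, mul_assoc, mul_neg, neg_mul, neg_neg, hvv, hzz, hv', hz', zvz1, zvz',
      mul_zero, zero_mul, add_zero, zero_add, sub_zero, zero_sub, neg_zero]
  have p2 : cy (-v) z * z = 0 := by
    rw [QP.cy_eq]
    simp only [mul_add, add_mul, mul_sub, sub_mul, mul_assoc, mul_neg, neg_mul, neg_neg, hvv, hzz, hv', hz', zvz1, zvz',
      mul_zero, zero_mul, add_zero, zero_add, sub_zero, zero_sub, neg_zero]
  have p3 : cy v z * cy (-v) z = 0 := by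
    rw [QP.cy_eq, QP.cy_eq]
    simp only [mul_add, add_mul, mul_sub, sub_mul, mul_assoc, mul_neg, neg_mul, neg_neg, hvv, hzz, hv', hz', zvz1, zvz',
      mul_zero, zero_mul, add_zero, zero_add, sub_zero, zero_sub, neg_zero]
  have hs : cy v z + cy (-v) z - (2 : k) • z = (-2 : k) • (v * z * v) := by
    rw [QP.cy_eq, QP.cy_eq]
    simp only [mul_neg, neg_mul, neg_neg, two_smul, neg_smul, mul_assoc]
    abel
  have hinG : ∀ c : k, InG G (1 + c • (v * z * v)) := by
    intro c
    set b : k := -c / 2 with hb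
    have h3 := ((hz₁.toQE.2.2 b).mul (hz₂.toQE.2.2 b)).mul (hz.toQE.2.2 (-(b * 2)))
    have e : (1 + b • cy v z) * (1 + b • cy (-v) z) * (1 + (-(b * 2)) • z) = 1 + c • (v * z * v) := by
      have gen : ∀ u u' : M →ₗ[k] M, (1 + u) * (1 + u') = 1 + u + u' + u * u' := fun u u' => by noncomm_ring
      rw [gen (b • cy v z), smul_mul_smul_comm, p3, smul_zero, add_zero]
      have e1 : (1 + b • cy v z + b • cy (-v) z) * (-(b * 2) • z) = (-(b * 2) • z : M →ₗ[k] M) := by
        simp only [add_mul, smul_mul_assoc, mul_smul_comm, p1, p2, smul_zero, add_zero, one_mul]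
      rw [mul_add, mul_one, e1]
      have e2 : c = b * (-2) := by
        rw [hb]
        field_simp
      rw [e2, mul_smul, ← hs]
      rw [neg_smul, mul_smul, smul_sub, smul_add]
      abel
    rwa [e] at h3
  have hsq : (v * z * v) * (v * z * v) = 0 := by
    simp only [mul_assoc, hv', hvv, mul_zero]
  have hQ : QR G (v * z * v) := by
    refine hz.of_rank hsq hne ?_ ?_
    · intro c h
      obtain ⟨g, hg, hge⟩ := hinG c
      have e : unitOfSq (c • (v * z * v)) h = g := Units.ext (by rw [hge]; rfl)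
      rw [e]
      exact hg
    · have h3 : LinearMap.range (v * z * v) = (LinearMap.range (z * v)).map v := by
        rw [mul_assoc]
        exact LinearMap.range_comp _ _
      rw [h3]
      refine (Submodule.finrank_map_le _ _).trans ?_
      exact Submodule.finrank_mono (LinearMap.range_comp_le_range _ _)
  apply not_TZ_of_QR hDI hIrr hQ
  -- `v z v` vanishes between minimal elements
  have ht₀ := hv.tz.ad hz
  have key : ∀ w ∈ Submodule.span k {z : M →ₗ[k] M | QR G z}, TZ G (w * (z * v - v * z) - (z * v - v * z) * w) := by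
    intro w hw
    induction hw using Submodule.span_induction with
    | mem w hw => exact ht₀.ad hw
    | zero => simpa using TZ.zero
    | add a b _ _ ha hb =>
      have := ha.add hb
      convert this using 1
      noncomm_ring
    | smul c a _ ha =>
      have := ha.smul c
      convert this using 1
      simp only [smul_mul_assoc, mul_smul_comm, smul_sub]
  have h3 := key v hv.span
  have e : v * (z * v - v * z) - (z * v - v * z) * v = (2 : k) • (v * z * v) := by
    simp only [mul_sub, sub_mul, mul_assoc, hvv, hv', mul_zero, two_smul]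
    abel
  rw [e] at h3
  have h5 := h3.smul (2 : k)⁻¹
  rwa [smul_smul, inv_mul_cancel₀ h2, one_smul] at h5

lemma NN.mul_mul (hDI : DI G) (hIrr : IsIrreducibleFor G) (h2 : (2 : k) ≠ 0) {v v' : M →ₗ[k] M} (hv : NN G v)
    (hv' : NN G v') : v * v' * v = 0 := by
  have hsp := hv'.span
  have key : ∀ w ∈ Submodule.span k {z : M →ₗ[k] M | QR G z}, v * w * v = 0 := by
    intro w hw
    induction hw using Submodule.span_induction with
    | mem w hw => exact hv.vzv hDI hIrr h2 hw
    | zero => simp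
    | add a b _ _ ha hb => rw [mul_add, add_mul, ha, hb, add_zero]
    | smul c a _ ha => rw [mul_smul_comm, smul_mul_assoc, ha, smul_zero]
  exact key v' hsp

omit [FiniteDimensional k M] in
lemma NN.conj {v : M →ₗ[k] M} (hv : NN G v) {g : GLm} (hg : g ∈ G) : NN G (cj g v) := by
  refine ⟨?_, ?_, hv.tz.conj hg, ?_⟩
  · rw [← cj_mul, hv.sq, cj_zero]
  · intro c
    obtain ⟨g', hg', hge⟩ := hv.inG c
    refine ⟨g * g' * g⁻¹, G.mul_mem (G.mul_mem hg hg') (G.inv_mem hg), ?_⟩
    have e : ((g * g' * g⁻¹ : GLm) : M →ₗ[k] M) = cj g (g' : M →ₗ[k] M) := by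
      rw [Units.val_mul, Units.val_mul]
      rfl
    rw [e, hge, cj_add, cj_one, cj_smul]
  · have key : ∀ w ∈ Submodule.span k {z : M →ₗ[k] M | QR G z}, cj g w ∈ Submodule.span k {z : M →ₗ[k] M | QR G z} := by
      intro w hw
      induction hw using Submodule.span_induction with
      | mem w hw => exact Submodule.subset_span (QR.conj_mem hw hg)
      | zero => rw [cj_zero]; exact Submodule.zero_mem _
      | add a b _ _ ha hb => rw [cj_add]; exact Submodule.add_mem _ ha hb
      | smul c a _ ha => rw [cj_smul]; exact Submodule.smul_mem _ _ ha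
    exact key v hv.span

omit [FiniteDimensional k M] in
/-- A normal unipotent subgroup of an irreducible group is trivial. -/
lemma unip_normal_trivial (hIrr : IsIrreducibleFor G) {N : Subgroup GLm} (hN1 : IsUnipotentOn N)
    (hN2 : ∀ g ∈ G, conjBy N g = N) {σ : GLm} (hσN : σ ∈ N) : (σ : M →ₗ[k] M) = 1 := by
  obtain ⟨m₀, hm₀⟩ := hIrr.1
  have hbot : ¬ (⊤ : Submodule k M) ≤ ⊥ := by
    intro h
    exact hm₀ (by simpa using h (Submodule.mem_top (x := m₀)))
  obtain ⟨v, -, hv, hvfix⟩ := exists_step hN1 ⊤ ⊥ (fun _ _ _ _ => trivial) hbot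
  let C : Submodule k M := fixedSubmodule N
  have hC : ∀ w, w ∈ C ↔ ∀ h ∈ N, (h : M →ₗ[k] M) w = w := by
    intro w
    simp only [C, fixedSubmodule, Submodule.mem_iInf, LinearMap.mem_ker]
    constructor
    · intro h1 h hh
      have := h1 h hh
      exact sub_eq_zero.mp this
    · intro h1 h hh
      show (h : M →ₗ[k] M) w - w = 0
      rw [h1 h hh, sub_self]
  have hvC : v ∈ C := by
    rw [hC]
    intro h hh
    have := hvfix h hh
    rw [Submodule.mem_bot] at this
    exact sub_eq_zero.mp this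
  have hinv : ∀ g ∈ G, ∀ w ∈ C, (g : M →ₗ[k] M) w ∈ C := by
    intro g hg w hw
    rw [hC] at hw ⊢
    intro h hh
    have h1 : g⁻¹ * h * g ∈ N := by
      have h2 := hN2 g⁻¹ (G.inv_mem hg)
      have h3 : (MulAut.conj g⁻¹).toMonoidHom h ∈ conjBy N g⁻¹ := ⟨h, hh, rfl⟩
      rw [h2] at h3
      have e : (MulAut.conj g⁻¹).toMonoidHom h = g⁻¹ * h * g := by
        simp [MulAut.conj_apply]
      rwa [e] at h3
    have h4 := hw _ h1
    have e : (h : M →ₗ[k] M) ((g : M →ₗ[k] M) w) = (g : M →ₗ[k] M) (((g⁻¹ * h * g : GLm) : M →ₗ[k] M) w) := by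
      show _ = (g : M →ₗ[k] M) (((g⁻¹ : GLm) : M →ₗ[k] M) ((h : M →ₗ[k] M) ((g : M →ₗ[k] M) w)))
      rw [apply_inv_apply]
    rw [e, h4]
  rcases hIrr.2 C hinv with h0 | h0
  · rw [h0, Submodule.mem_bot] at hvC
    exact absurd (by rw [hvC]; exact Submodule.zero_mem _) hv
  · ext w
    have : w ∈ C := by rw [h0]; trivial
    rw [hC] at this
    exact this σ hσN

theorem NN.eq_zero (hDI : DI G) (hIrr : IsIrreducibleFor G) (h2 : (2 : k) ≠ 0) {v : M →ₗ[k] M} (hv : NN G v) :
    v = 0 := by
  by_contra hv0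
  let W : Set (Subgroup GLm) := {A | ∃ (v : M →ₗ[k] M) (hv : NN G v), v ≠ 0 ∧
    A = Subgroup.closure (scalarFamily (unitOfSq v hv.sq))}
  have hWG : ∀ A ∈ W, A ≤ G := by
    rintro A ⟨v, hv, -, rfl⟩
    rw [Subgroup.closure_le]
    rintro τ ⟨c, hc⟩
    obtain ⟨g, hg, hge⟩ := hv.inG c
    have e : τ = g := by
      apply Units.ext
      rw [hc, hge]
      simp
    rw [e]
    exact hg
  have hWW : ∀ A ∈ W, ∀ B ∈ W, IsUnipotentOn (A ⊔ B) := by
    rintro A ⟨v, hv, hv0, rfl⟩ B ⟨v', hv', hv0', rfl⟩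
    rw [← Subgroup.closure_union]
    have e1 : ((unitOfSq v hv.sq : GLm) : M →ₗ[k] M) - 1 = v := by simp
    have e2 : ((unitOfSq v' hv'.sq : GLm) : M →ₗ[k] M) - 1 = v' := by simp
    apply QP.unip_of_U
    · exact ⟨by rw [e1]; exact hv.sq, by rw [e1]; exact hv0⟩
    · exact ⟨by rw [e2]; exact hv'.sq, by rw [e2]; exact hv0'⟩
    · rw [e1, e2]; exact hv.mul_mul hDI hIrr h2 hv'
    · rw [e1, e2]; exact hv'.mul_mul hDI hIrr h2 hv
  have hWconj : ∀ A ∈ W, ∀ g ∈ G, conjBy A g ∈ W := by
    rintro A ⟨v, hv, hv0, rfl⟩ g hg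
    refine ⟨cj g v, hv.conj hg, cj_ne_zero g hv0, ?_⟩
    show (Subgroup.closure _).map _ = _
    rw [MonoidHom.map_closure]
    congr 1
    ext ρ
    have e1 : ((unitOfSq v hv.sq : GLm) : M →ₗ[k] M) - 1 = v := by simp
    have e2 : ((unitOfSq (cj g v) (hv.conj hg).sq : GLm) : M →ₗ[k] M) - 1 = cj g v := by simp
    constructor
    · rintro ⟨τ, ⟨c, hc⟩, rfl⟩
      refine ⟨c, ?_⟩
      rw [e2]
      rw [e1] at hc
      have e3 : (((MulAut.conj g).toMonoidHom τ : GLm) : M →ₗ[k] M) = cj g (τ : M →ₗ[k] M) := by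
        show ((g * τ * g⁻¹ : GLm) : M →ₗ[k] M) = _
        rw [Units.val_mul, Units.val_mul]
        rfl
      rw [e3, hc, cj_add, cj_one, cj_smul]
    · rintro ⟨c, hc⟩
      rw [e2] at hc
      refine ⟨g⁻¹ * ρ * g, ⟨c, ?_⟩, ?_⟩
      · rw [e1]
        have e3 : ((g⁻¹ * ρ * g : GLm) : M →ₗ[k] M) = cj g⁻¹ (ρ : M →ₗ[k] M) := by
          rw [Units.val_mul, Units.val_mul]
          unfold cj
          rw [inv_inv]
        rw [e3, hc, cj_add, cj_one, cj_smul, cj_inv_cj]
      · show g * (g⁻¹ * ρ * g) * g⁻¹ = ρ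
        group
  obtain ⟨hN1, hN2⟩ := s5061_main hWG hWW hWconj
  have hmem : unitOfSq v hv.sq ∈ ⨆ A ∈ W, A := by
    have h1 : Subgroup.closure (scalarFamily (unitOfSq v hv.sq)) ∈ W := ⟨v, hv, hv0, rfl⟩
    have h3 : Subgroup.closure (scalarFamily (unitOfSq v hv.sq)) ≤ ⨆ A ∈ W, A := le_iSup₂_of_le _ h1 le_rfl
    apply h3
    apply Subgroup.subset_closure
    exact ⟨1, by simp⟩
  have h3 := unip_normal_trivial hIrr hN1 hN2 hmem
  apply hv0
  have h4 : (1 : M →ₗ[k] M) + v = 1 := h3
  simpa using h4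

/-- A quadratic element vanishing between all minimal elements centralizes them. -/
theorem comm_of_TZ (hDI : DI G) (hIrr : IsIrreducibleFor G) (h2 : (2 : k) ≠ 0) {e u : M →ₗ[k] M}
    (he : QE G e) (hT : TZ G e) (hu : QR G u) : e * u = u * e := by
  have hee := he.1
  have huu := hu.sq
  have ueu := hT u hu
  have he' : ∀ w, e * (e * w) = 0 := fun w => by rw [← mul_assoc, hee, zero_mul]
  have hu' : ∀ w, u * (u * w) = 0 := fun w => by rw [← mul_assoc, huu, zero_mul]
  have ueu1 : u * (e * u) = 0 := by rw [← mul_assoc, ueu]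
  have ueu' : ∀ w, u * (e * (u * w)) = 0 := fun w => by rw [← mul_assoc, ← mul_assoc, ueu, zero_mul]
  have hu₁ : QR G (cy e u) := hu.cyc he
  have hu₂ : QR G (cy (-e) u) := hu.cyc he.neg
  have p3 : cy e u * cy (-e) u = 0 := by
    rw [QP.cy_eq, QP.cy_eq]
    simp only [mul_add, add_mul, mul_sub, sub_mul, mul_assoc, mul_neg, neg_mul, neg_neg, hee, huu, he', hu', ueu1, ueu',
      mul_zero, zero_mul, add_zero, zero_add, sub_zero, zero_sub, neg_zero]
  have hs : cy e u - cy (-e) u = (2 : k) • (e * u - u * e) := by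
    rw [QP.cy_eq, QP.cy_eq]
    simp only [mul_neg, neg_mul, neg_neg, two_smul, mul_assoc]
    abel
  have hNN : NN G (e * u - u * e) := by
    refine ⟨?_, fun c => ?_, ?_, ?_⟩
    · simp only [mul_sub, sub_mul, mul_assoc, hee, huu, he', hu', ueu1, ueu', mul_zero, zero_mul, sub_zero, sub_self]
    · set b : k := c / 2 with hb
      have h3 := (hu₁.toQE.2.2 b).mul (hu₂.toQE.2.2 (-b))
      have e1 : (1 + b • cy e u) * (1 + (-b) • cy (-e) u) = 1 + c • (e * u - u * e) := by
        have gen : ∀ w w' : M →ₗ[k] M, (1 + w) * (1 + w') = 1 + w + w' + w * w' := fun w w' => by noncomm_ring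
        rw [gen, smul_mul_smul_comm, p3, smul_zero, add_zero, neg_smul, add_assoc, ← sub_eq_add_neg, ← smul_sub, hs,
          smul_smul]
        congr 2
        rw [hb]
        field_simp
      rwa [e1] at h3
    · have h3 := hT.ad hu
      have h4 := h3.smul (-1 : k)
      convert h4 using 1
      simp
    · have e1 : e * u - u * e = (2 : k)⁻¹ • (cy e u - cy (-e) u) := by
        rw [hs, smul_smul, inv_mul_cancel₀ h2, one_smul]
      rw [e1]
      exact Submodule.smul_mem _ _ (Submodule.sub_mem _ (Submodule.subset_span hu₁) (Submodule.subset_span hu₂))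
  exact sub_eq_zero.mp (hNN.eq_zero hDI hIrr h2)

end lemR

section main

variable [FiniteDimensional k M]

omit [FiniteDimensional k M] in
/-- `1 + x`, for `x` in `QR`, lies in the subgroup generated by `Σ`. -/
lemma QR.unit_mem_G0 {x : M →ₗ[k] M} (hx : QR G x) (h : x * x = 0) :
    unitOfSq x h ∈ (⨆ A ∈ quadraticRootSubgroups G, A : Subgroup GLm) := by
  have hm := hx.unit_mem h
  have h1 : sameActionSubgroup G (unitOfSq x h) ∈ quadraticRootSubgroups G := ⟨_, hm, rfl⟩
  have h3 : sameActionSubgroup G (unitOfSq x h) ≤ (⨆ A ∈ quadraticRootSubgroups G, A : Subgroup GLm) :=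
    le_iSup₂_of_le _ h1 le_rfl
  exact h3 (Subgroup.subset_closure ⟨hm, rfl, rfl⟩)

omit [FiniteDimensional k M] in
/-- An operator commuting with all the minimal elements gives an element of the centralizer. -/
lemma unit_mem_cent {e : M →ₗ[k] M} (h : e * e = 0) (hcomm : ∀ u, QR G u → e * u = u * e) :
    unitOfSq e h ∈ Subgroup.centralizer ((⨆ A ∈ quadraticRootSubgroups G, A : Subgroup GLm) : Set GLm) := by
  have hle : (⨆ A ∈ quadraticRootSubgroups G, A : Subgroup GLm) ≤ Subgroup.centralizer {unitOfSq e h} := by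
    apply iSup₂_le
    rintro A ⟨σ, hσ, rfl⟩
    unfold sameActionSubgroup
    rw [Subgroup.closure_le]
    intro τ hτ
    rw [SetLike.mem_coe, Subgroup.mem_centralizer_singleton_iff]
    apply Units.ext
    have h3 := hcomm _ (qr_of_mem hτ.1)
    rw [Units.val_mul, Units.val_mul, coe_eq τ, unitOfSq_coe]
    simp only [add_mul, mul_add, one_mul, mul_one]
    rw [h3]
    abel
  rw [Subgroup.mem_centralizer_iff]
  intro g hg
  have h3 := hle hg
  rw [Subgroup.mem_centralizer_singleton_iff] at h3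
  exact h3

/-- Every quadratic element is a product of minimal elements and an element of the centralizer. -/
theorem unit_mem_join (h2 : (2 : k) ≠ 0) (hk3 : Nat.card k ≠ 3) (hDI : DI G) (hIrr : IsIrreducibleFor G)
    (n : ℕ) : ∀ e : M →ₗ[k] M, rk e = n → (he : e * e = 0) → (∀ c : k, InG G (1 + c • e)) →
      unitOfSq e he ∈ (⨆ A ∈ quadraticRootSubgroups G, A : Subgroup GLm) ⊔
        (G ⊓ Subgroup.centralizer ((⨆ A ∈ quadraticRootSubgroups G, A : Subgroup GLm) : Set GLm)) := by
  induction n using Nat.strong_induction_on with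
  | _ n ih =>
    intro e hn hee hinG
    by_cases he0 : e = 0
    · subst he0
      have : unitOfSq (0 : M →ₗ[k] M) hee = 1 := Units.ext (by simp)
      rw [this]
      exact Subgroup.one_mem _
    have hQ : QE G e := ⟨hee, he0, hinG⟩
    by_cases hT : TZ G e
    · apply Subgroup.mem_sup_right
      refine ⟨?_, unit_mem_cent hee fun u hu => comm_of_TZ hDI hIrr h2 hQ hT hu⟩
      obtain ⟨g, hg, hge⟩ := hinG 1
      have : unitOfSq e hee = g := Units.ext (by rw [hge]; simp)
      rw [this]
      exact hg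
    · unfold TZ at hT
      push Not at hT
      obtain ⟨z, hz, hne⟩ := hT
      obtain ⟨σ, hσ, rfl⟩ := id hz
      have hmin := QP.rk_min_of_mem hσ
      obtain ⟨a, ha, hae, haK, haR⟩ := exists_normalized hmin h2 hk3 hz.toQE hQ rfl hne
      obtain ⟨hν, hνr⟩ := QE_eae ha hQ hae
      obtain ⟨h1, h3, h4, h5⟩ := split_rest ha hQ hae
      have hrka : rk a = rk (dx σ) := by
        unfold rk
        rw [haR]
      have hνm : unitOfSq (e * a * e) hν.1 ∈ minimalQuadraticElements G := by
        apply QP.min_of_QE hν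
        intro z' hz'
        rw [hνr, hrka]
        exact hmin z' hz'
      have hνQ : QR G (e * a * e) := ⟨_, hνm, by simp [dx]⟩
      have e1 : unitOfSq e hee = unitOfSq (e * a * e) hν.1 * unitOfSq (e - e * a * e) h1 := by
        apply Units.ext
        rw [Units.val_mul, unitOfSq_coe, unitOfSq_coe, unitOfSq_coe, h4]
      rw [e1]
      refine Subgroup.mul_mem _ (Subgroup.mem_sup_left (hνQ.unit_mem_G0 hν.1)) ?_
      exact ih _ (hn ▸ h5) _ rfl h1 h3

/-- **S5074**. -/
theorem s5074_core (hk2 : ringChar k ≠ 2) (hk3 : Nat.card k ≠ 3) (hG : IsQuadraticPair G) :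
    (⨆ A ∈ quadraticRootSubgroups G, A : Subgroup GLm) ⊔
      (G ⊓ Subgroup.centralizer ((⨆ A ∈ quadraticRootSubgroups G, A : Subgroup GLm) : Set GLm)) = G := by
  have h2 : (2 : k) ≠ 0 := Ring.two_ne_zero hk2
  have hDI : DI G := DI_of_thmF h2 hk3
  apply le_antisymm
  · apply sup_le
    · apply iSup₂_le
      rintro A ⟨σ, hσ, rfl⟩
      exact E_le_G
    · exact inf_le_left
  · conv_lhs => rw [← hG.2]
    rw [Subgroup.closure_le]
    intro σ hσ
    have hQ := QP.QE_of_mem hσ
    have h3 := unit_mem_join h2 hk3 hDI hG.1 _ _ rfl hQ.1 hQ.2.2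
    have e : unitOfSq ((σ : M →ₗ[k] M) - 1) hQ.1 = σ := Units.ext (by simp)
    rwa [e] at h3

end main





end Cfsg.Agent.Lib.QPH39
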