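import Mathlib

/-!
# Flows of quadratic subgroups: limits under `t ↦ (1 + t ξ) α (1 - t ξ)`.

Leading coefficients of polynomial families with values in a ring, used to replace a quadratic
subgroup by a limit of its conjugates.
-/

set_option autoImplicit false
set_option linter.unusedSectionVars false
set_option linter.style.haveILetI false

namespace Cfsg.Agent.Lib.QuadFlow

open Polynomial

section Lead

variable {R : Type*} [Ring R] [Nontrivial R]

/-- Polynomials with all coefficients in `U`. -/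
def inP (U : AddSubgroup R) : AddSubgroup R[X] where
  carrier := {f | ∀ n, f.coeff n ∈ U}
  add_mem' := fun ha hb n => by rw [coeff_add]; exact U.add_mem (ha n) (hb n)
  zero_mem' := fun n => by rw [coeff_zero]; exact U.zero_mem
  neg_mem' := fun ha n => by rw [coeff_neg]; exact U.neg_mem (ha n)

theorem mem_inP {U : AddSubgroup R} {f : R[X]} : f ∈ inP U ↔ ∀ n, f.coeff n ∈ U := Iff.rfl

theorem X_mul_mem_inP {U : AddSubgroup R} {f : R[X]} (hf : f ∈ inP U) : (X : R[X]) * f ∈ inP U := by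
  intro n
  cases n with
  | zero => rw [mul_coeff_zero]; simp [U.zero_mem]
  | succ n => rw [coeff_X_mul]; exact hf n

theorem C_mem_inP {U : AddSubgroup R} {μ : R} (hμ : μ ∈ U) : (C μ : R[X]) ∈ inP U := by
  intro n
  rw [coeff_C]
  split_ifs
  · exact hμ
  · exact U.zero_mem

/-- Leading coefficients of an `X`-stable additive subgroup of polynomials. -/
def leadS (M : AddSubgroup R[X]) (hM : ∀ g ∈ M, (X : R[X]) * g ∈ M) : AddSubgroup R where
  carrier := {r | ∃ g ∈ M, g.leadingCoeff = r}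
  zero_mem' := ⟨0, M.zero_mem, leadingCoeff_zero⟩
  neg_mem' := by
    rintro _ ⟨g, hg, rfl⟩
    exact ⟨-g, M.neg_mem hg, leadingCoeff_neg g⟩
  add_mem' := by
    rintro _ _ ⟨g, hg, rfl⟩ ⟨h, hh, rfl⟩
    have hpow : ∀ (k : ℕ) (f : R[X]), f ∈ M → f * X ^ k ∈ M := by
      intro k
      induction k with
      | zero => intro f hf; simpa using hf
      | succ k ih =>
        intro f hf
        have := hM _ (ih f hf)
        rwa [X_mul, mul_assoc, ← pow_succ] at this
    by_cases h0 : g.leadingCoeff + h.leadingCoeff = 0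
    · exact ⟨0, M.zero_mem, by rw [leadingCoeff_zero, h0]⟩
    · refine ⟨g * X ^ h.natDegree + h * X ^ g.natDegree,
        M.add_mem (hpow _ _ hg) (hpow _ _ hh), ?_⟩
      set d := g.natDegree + h.natDegree with hd
      have hc : (g * X ^ h.natDegree + h * X ^ g.natDegree).coeff d =
          g.leadingCoeff + h.leadingCoeff := by
        rw [coeff_add, hd, coeff_mul_X_pow, add_comm g.natDegree, coeff_mul_X_pow]
        rfl
      have hle : (g * X ^ h.natDegree + h * X ^ g.natDegree).natDegree ≤ d := by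
        refine (natDegree_add_le _ _).trans (max_le ?_ ?_)
        · exact natDegree_mul_le.trans (Nat.add_le_add_left (natDegree_X_pow_le _) _)
        · rw [hd, add_comm]; exact natDegree_mul_le.trans (Nat.add_le_add_left (natDegree_X_pow_le _) _)
      have hdeg := natDegree_eq_of_le_of_coeff_ne_zero hle (by rw [hc]; exact h0)
      rw [leadingCoeff, hdeg, hc]

theorem mem_leadS {M : AddSubgroup R[X]} {hM : ∀ g ∈ M, (X : R[X]) * g ∈ M} {r : R} :
    r ∈ leadS M hM ↔ ∃ g ∈ M, g.leadingCoeff = r := Iff.rfl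

theorem coeff_mem_leadS {M : AddSubgroup R[X]} {hM : ∀ g ∈ M, (X : R[X]) * g ∈ M} {g : R[X]}
    (hg : g ∈ M) {d : ℕ} (hd : ∀ m, d < m → g.coeff m = 0) : g.coeff d ∈ leadS M hM := by
  by_cases h0 : g.coeff d = 0
  · rw [h0]; exact (leadS M hM).zero_mem
  · refine ⟨g, hg, ?_⟩
    have hle : g.natDegree ≤ d := natDegree_le_iff_coeff_eq_zero.mpr hd
    rw [leadingCoeff, natDegree_eq_of_le_of_coeff_ne_zero hle h0]

theorem card_fiber_mul {α β : Type*} [Finite α] (f : α → β) (n : ℕ)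
    (h : ∀ b, Nat.card {x // f x = b} ≤ n) [Finite β] : Nat.card α ≤ n * Nat.card β := by
  classical
  haveI := Fintype.ofFinite α
  haveI := Fintype.ofFinite β
  rw [Nat.card_eq_fintype_card, Nat.card_eq_fintype_card (α := β)]
  have h1 := Finset.card_le_mul_card_image (f := f) (Finset.univ : Finset α) n (by
    intro b _
    have h2 := h b
    rw [Nat.card_eq_fintype_card, Fintype.card_subtype] at h2
    exact h2)
  rw [Finset.card_univ] at h1
  exact h1.trans (Nat.mul_le_mul_left _ (Finset.card_le_univ _))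

/-- Elements of `M` of degree below `d`. -/
def lowS (M : AddSubgroup R[X]) (d : ℕ) : AddSubgroup R[X] where
  carrier := {g | g ∈ M ∧ ∀ m, d ≤ m → g.coeff m = 0}
  add_mem' := fun ha hb => ⟨M.add_mem ha.1 hb.1, fun m hm => by
    rw [coeff_add, ha.2 m hm, hb.2 m hm, add_zero]⟩
  zero_mem' := ⟨M.zero_mem, fun m _ => coeff_zero m⟩
  neg_mem' := fun ha => ⟨M.neg_mem ha.1, fun m hm => by rw [coeff_neg, ha.2 m hm, neg_zero]⟩

theorem finite_lowS [Finite R] (M : AddSubgroup R[X]) (d : ℕ) : Finite (lowS M d) := by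
  refine Finite.of_injective (fun g : lowS M d => fun i : Fin d => (g : R[X]).coeff i) ?_
  intro g h hgh
  apply Subtype.ext
  ext m
  by_cases hm : m < d
  · exact congrFun hgh ⟨m, hm⟩
  · rw [g.2.2 m (not_lt.mp hm), h.2.2 m (not_lt.mp hm)]

theorem card_lowS_le [Finite R] (M : AddSubgroup R[X]) (hM : ∀ g ∈ M, (X : R[X]) * g ∈ M) (d : ℕ) :
    Nat.card (lowS M d) ≤ Nat.card (leadS M hM) ^ d := by
  induction d with
  | zero =>
    rw [pow_zero]
    haveI := finite_lowS M 0
    rw [Finite.card_le_one_iff_subsingleton]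
    refine ⟨fun a b => Subtype.ext ?_⟩
    ext m
    rw [a.2.2 m (Nat.zero_le m), b.2.2 m (Nat.zero_le m)]
  | succ d ih =>
    haveI := finite_lowS M d
    haveI := finite_lowS M (d + 1)
    haveI : Finite (leadS M hM) := Finite.of_injective (fun x : leadS M hM => (x : R))
      Subtype.val_injective
    let f : lowS M (d + 1) → leadS M hM := fun g =>
      ⟨(g : R[X]).coeff d, coeff_mem_leadS g.2.1 (fun m hm => g.2.2 m hm)⟩
    have h1 := card_fiber_mul f (Nat.card (lowS M d)) (by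
      intro b
      by_cases hb : ∃ x, f x = b
      · obtain ⟨x₀, hx₀⟩ := hb
        refine Nat.card_le_card_of_injective
          (fun x : {x // f x = b} => (⟨((x : lowS M (d + 1)) : R[X]) - (x₀ : R[X]),
            M.sub_mem x.1.2.1 x₀.2.1, ?_⟩ : lowS M d)) ?_
        · intro m hm
          rw [coeff_sub]
          rcases hm.eq_or_lt with rfl | hm'
          · have h2 : (f x.1 : R) = (f x₀ : R) := by rw [x.2, hx₀]
            exact sub_eq_zero.mpr h2
          · rw [x.1.2.2 m hm', x₀.2.2 m hm', sub_zero]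
        · intro x y hxy
          have h3 := congrArg Subtype.val hxy
          simp only at h3
          exact Subtype.ext (Subtype.ext (sub_left_injective h3))
      · have : IsEmpty {x // f x = b} := ⟨fun x => hb ⟨x.1, x.2⟩⟩
        rw [Nat.card_of_isEmpty]
        exact Nat.zero_le _)
    calc Nat.card (lowS M (d + 1)) ≤ Nat.card (lowS M d) * Nat.card (leadS M hM) := h1
      _ ≤ Nat.card (leadS M hM) ^ d * Nat.card (leadS M hM) := Nat.mul_le_mul_right _ ih
      _ = _ := (pow_succ _ _).symm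

theorem le_of_pow_le_pow_add {u l k : ℕ} (hl : 0 < l) (h : ∀ e, u ^ e ≤ l ^ (e + k)) : u ≤ l := by
  by_contra hlt
  push Not at hlt
  have h1 : (1 : ℝ) < (u : ℝ) / l := by
    rw [one_lt_div (by exact_mod_cast hl)]
    exact_mod_cast hlt
  obtain ⟨e, he⟩ := pow_unbounded_of_one_lt ((l : ℝ) ^ k) h1
  have h2 := h e
  have h3 : ((u : ℝ)) ^ e ≤ (l : ℝ) ^ (e + k) := by exact_mod_cast h2
  have hl' : (0 : ℝ) < l := by exact_mod_cast hl
  rw [div_pow, lt_div_iff₀ (pow_pos hl' e)] at he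
  rw [pow_add] at h3
  nlinarith [he, h3, mul_comm ((l : ℝ) ^ e) ((l : ℝ) ^ k)]

theorem card_le_leadS [Finite R] (U : AddSubgroup R) (M : AddSubgroup R[X])
    (hM : ∀ g ∈ M, (X : R[X]) * g ∈ M) (T : R[X] →+ R[X]) (hT : Function.Injective T)
    (hU : ∀ f ∈ inP U, T f ∈ M) (k : ℕ)
    (hdeg : ∀ (f : R[X]) (d : ℕ), (∀ m, d ≤ m → f.coeff m = 0) → ∀ m, d + k ≤ m → (T f).coeff m = 0) :
    Nat.card U ≤ Nat.card (leadS M hM) := by
  classical
  haveI : Finite (leadS M hM) := Finite.of_injective (fun x : leadS M hM => (x : R))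
    Subtype.val_injective
  haveI : Finite U := Finite.of_injective (fun x : U => (x : R)) Subtype.val_injective
  refine le_of_pow_le_pow_add (k := k) Nat.card_pos ?_
  intro e
  haveI := finite_lowS M (e + k)
  have hlow : Nat.card (Fin e → U) ≤ Nat.card (lowS M (e + k)) := by
    let P : (Fin e → U) → R[X] := fun φ => ∑ i : Fin e, C ((φ i : U) : R) * X ^ (i : ℕ)
    have hP : ∀ φ (m : ℕ), (P φ).coeff m = if h : m < e then ((φ ⟨m, h⟩ : U) : R) else 0 := by
      intro φ m
      simp only [P, finsetSum_coeff, coeff_C_mul_X_pow]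
      split_ifs with h
      · rw [Finset.sum_eq_single ⟨m, h⟩]
        · simp
        · intro b _ hb
          rw [if_neg]
          intro hbm
          exact hb (Fin.ext hbm.symm)
        · simp
      · apply Finset.sum_eq_zero
        intro b _
        rw [if_neg]
        intro hbm
        exact h (hbm ▸ b.2)
    refine Nat.card_le_card_of_injective
      (fun φ => (⟨T (P φ), hU _ ?_, ?_⟩ : lowS M (e + k))) ?_
    · intro n
      rw [hP]
      split_ifs
      · exact (φ _).2
      · exact U.zero_mem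
    · refine hdeg _ e ?_
      intro m hm
      rw [hP, dif_neg (not_lt.mpr hm)]
    · intro φ ψ h
      have h1 : P φ = P ψ := hT (congrArg Subtype.val h)
      funext i
      apply Subtype.ext
      have h2 := congrArg (fun f => f.coeff (i : ℕ)) h1
      simp only [hP, dif_pos i.2] at h2
      exact h2
  rw [Nat.card_fun, Nat.card_eq_fintype_card (α := Fin e), Fintype.card_fin] at hlow
  exact hlow.trans (card_lowS_le M hM (e + k))

/-! ## Flows -/

/-- `1 + X ξ`. -/
noncomputable def uP (ξ : R) : R[X] := 1 + X * C ξ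
/-- `1 - X ξ`. -/
noncomputable def uM (ξ : R) : R[X] := 1 - X * C ξ

theorem uP_mul_uM {ξ : R} (hξ : ξ * ξ = 0) : uP ξ * uM ξ = 1 := by
  have h : (X * C ξ : R[X]) * (X * C ξ) = 0 := by
    rw [mul_assoc, ← mul_assoc (C ξ), ← X_mul_C, mul_assoc, ← C_mul, hξ]; simp
  unfold uP uM
  calc (1 + X * C ξ : R[X]) * (1 - X * C ξ) = 1 - (X * C ξ) * (X * C ξ) := by noncomm_ring
    _ = 1 := by rw [h, sub_zero]

theorem uM_mul_uP {ξ : R} (hξ : ξ * ξ = 0) : uM ξ * uP ξ = 1 := by
  have h : (X * C ξ : R[X]) * (X * C ξ) = 0 := by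
    rw [mul_assoc, ← mul_assoc (C ξ), ← X_mul_C, mul_assoc, ← C_mul, hξ]; simp
  unfold uP uM
  calc (1 - X * C ξ : R[X]) * (1 + X * C ξ) = 1 - (X * C ξ) * (X * C ξ) := by noncomm_ring
    _ = 1 := by rw [h, sub_zero]

/-- The image of `U[X]` under conjugation by `1 + X ξ`. -/
noncomputable def flowM (ξ : R) (U : AddSubgroup R) : AddSubgroup R[X] where
  carrier := {g | uM ξ * g * uP ξ ∈ inP U}
  add_mem' := by
    intro a b ha hb
    show uM ξ * (a + b) * uP ξ ∈ inP U
    rw [mul_add, add_mul]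
    exact (inP U).add_mem ha hb
  zero_mem' := by
    show uM ξ * 0 * uP ξ ∈ inP U
    rw [mul_zero, zero_mul]
    exact (inP U).zero_mem
  neg_mem' := by
    intro a ha
    show uM ξ * (-a) * uP ξ ∈ inP U
    rw [mul_neg, neg_mul]
    exact (inP U).neg_mem ha

theorem mem_flowM {ξ : R} {U : AddSubgroup R} {g : R[X]} :
    g ∈ flowM ξ U ↔ uM ξ * g * uP ξ ∈ inP U := Iff.rfl

theorem commute_X' (f : R[X]) : (X : R[X]) * f = f * X := X_mul

theorem flowM_X {ξ : R} {U : AddSubgroup R} : ∀ g ∈ flowM ξ U, (X : R[X]) * g ∈ flowM ξ U := by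
  intro g hg
  rw [mem_flowM] at hg ⊢
  have : uM ξ * (X * g) * uP ξ = X * (uM ξ * g * uP ξ) := by
    rw [← mul_assoc (uM ξ), ← commute_X' (uM ξ), mul_assoc X, mul_assoc X]
  rw [this]
  exact X_mul_mem_inP hg

/-- The image of `U[X]` under left multiplication by `1 + X ξ`. -/
noncomputable def flowL (ξ : R) (U : AddSubgroup R) : AddSubgroup R[X] where
  carrier := {g | uM ξ * g ∈ inP U}
  add_mem' := by
    intro a b ha hb
    show uM ξ * (a + b) ∈ inP U
    rw [mul_add]
    exact (inP U).add_mem ha hb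
  zero_mem' := by
    show uM ξ * 0 ∈ inP U
    rw [mul_zero]
    exact (inP U).zero_mem
  neg_mem' := by
    intro a ha
    show uM ξ * (-a) ∈ inP U
    rw [mul_neg]
    exact (inP U).neg_mem ha

theorem mem_flowL {ξ : R} {U : AddSubgroup R} {g : R[X]} :
    g ∈ flowL ξ U ↔ uM ξ * g ∈ inP U := Iff.rfl

theorem flowL_X {ξ : R} {U : AddSubgroup R} : ∀ g ∈ flowL ξ U, (X : R[X]) * g ∈ flowL ξ U := by
  intro g hg
  rw [mem_flowL] at hg ⊢
  have : uM ξ * (X * g) = X * (uM ξ * g) := by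
    rw [← mul_assoc (uM ξ), ← commute_X' (uM ξ), mul_assoc X]
  rw [this]
  exact X_mul_mem_inP hg

/-- Conjugation as an additive map. -/
noncomputable def conjT (ξ : R) : R[X] →+ R[X] where
  toFun f := uP ξ * f * uM ξ
  map_zero' := by rw [mul_zero, zero_mul]
  map_add' a b := by rw [mul_add, add_mul]

/-- Left multiplication as an additive map. -/
noncomputable def leftT (ξ : R) : R[X] →+ R[X] where
  toFun f := uP ξ * f
  map_zero' := by rw [mul_zero]
  map_add' a b := by rw [mul_add]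

theorem conjT_apply (ξ : R) (f : R[X]) : conjT ξ f = uP ξ * f * uM ξ := rfl
theorem leftT_apply (ξ : R) (f : R[X]) : leftT ξ f = uP ξ * f := rfl

theorem conjT_injective {ξ : R} (hξ : ξ * ξ = 0) : Function.Injective (conjT ξ) := by
  intro f g h
  have h1 := congrArg (fun a => uM ξ * a * uP ξ) h
  simp only [conjT_apply] at h1
  have e : ∀ a : R[X], uM ξ * (uP ξ * a * uM ξ) * uP ξ = a := by
    intro a
    calc uM ξ * (uP ξ * a * uM ξ) * uP ξ = (uM ξ * uP ξ) * a * (uM ξ * uP ξ) := by noncomm_ring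
      _ = a := by rw [uM_mul_uP hξ]; simp
  rwa [e, e] at h1

theorem leftT_injective {ξ : R} (hξ : ξ * ξ = 0) : Function.Injective (leftT ξ) := by
  intro f g h
  have h1 := congrArg (fun a => uM ξ * a) h
  simp only [leftT_apply, ← mul_assoc, uM_mul_uP hξ, one_mul] at h1
  exact h1

theorem conjT_mem {ξ : R} (hξ : ξ * ξ = 0) {U : AddSubgroup R} {f : R[X]} (hf : f ∈ inP U) :
    conjT ξ f ∈ flowM ξ U := by
  rw [mem_flowM, conjT_apply]
  have e : uM ξ * (uP ξ * f * uM ξ) * uP ξ = (uM ξ * uP ξ) * f * (uM ξ * uP ξ) := by noncomm_ring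
  rw [e, uM_mul_uP hξ]
  simpa using hf

theorem leftT_mem {ξ : R} (hξ : ξ * ξ = 0) {U : AddSubgroup R} {f : R[X]} (hf : f ∈ inP U) :
    leftT ξ f ∈ flowL ξ U := by
  rw [mem_flowL, leftT_apply, ← mul_assoc, uM_mul_uP hξ, one_mul]
  exact hf

theorem conjT_eq (ξ : R) (f : R[X]) : conjT ξ f =
    f + X * (C ξ * f - f * C ξ) - X ^ 2 * (C ξ * f * C ξ) := by
  rw [conjT_apply]
  unfold uP uM
  have e1 : ∀ a : R[X], C ξ * (X * a) = X * (C ξ * a) := by
    intro a
    rw [← mul_assoc, ← X_mul_C, mul_assoc]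
  have e2 : ∀ a : R[X], a * (X * C ξ) = X * (a * C ξ) := by
    intro a
    rw [← mul_assoc, ← commute_X' a, mul_assoc]
  calc (1 + X * C ξ) * f * (1 - X * C ξ)
      = f + X * C ξ * f - f * (X * C ξ) - X * C ξ * f * (X * C ξ) := by noncomm_ring
    _ = f + X * (C ξ * f - f * C ξ) - X ^ 2 * (C ξ * f * C ξ) := by
      rw [e2 f, e2 (X * C ξ * f), mul_assoc X (C ξ) f]
      rw [mul_assoc X, pow_two, mul_assoc X X, mul_assoc (C ξ) f]
      noncomm_ring

theorem leftT_eq (ξ : R) (f : R[X]) : leftT ξ f = f + X * (C ξ * f) := by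
  rw [leftT_apply]
  unfold uP
  rw [add_mul, one_mul, mul_assoc]

theorem conjT_coeff_zero (ξ : R) (f : R[X]) : (conjT ξ f).coeff 0 = f.coeff 0 := by
  rw [conjT_eq]
  simp [mul_coeff_zero]

theorem conjT_coeff_one (ξ : R) (f : R[X]) : (conjT ξ f).coeff 1 =
    f.coeff 1 + (ξ * f.coeff 0 - f.coeff 0 * ξ) := by
  have h1 : (X * (C ξ * f - f * C ξ)).coeff 1 = (C ξ * f - f * C ξ).coeff 0 := coeff_X_mul _ 0
  have h2 : (X ^ 2 * (C ξ * f * C ξ)).coeff 1 = 0 := by
    rw [coeff_X_pow_mul']; simp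
  rw [conjT_eq, coeff_sub, coeff_add, h1, h2, coeff_sub, coeff_C_mul, coeff_mul_C, sub_zero]

theorem conjT_coeff_add_two (ξ : R) (f : R[X]) (n : ℕ) : (conjT ξ f).coeff (n + 2) =
    f.coeff (n + 2) + (ξ * f.coeff (n + 1) - f.coeff (n + 1) * ξ) - ξ * f.coeff n * ξ := by
  rw [conjT_eq, coeff_sub, coeff_add, coeff_X_mul, coeff_sub, coeff_C_mul, coeff_mul_C,
    coeff_X_pow_mul, coeff_mul_C, coeff_C_mul]

theorem leftT_coeff_zero (ξ : R) (f : R[X]) : (leftT ξ f).coeff 0 = f.coeff 0 := by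
  rw [leftT_eq]
  simp [mul_coeff_zero]

theorem leftT_coeff_succ (ξ : R) (f : R[X]) (n : ℕ) : (leftT ξ f).coeff (n + 1) =
    f.coeff (n + 1) + ξ * f.coeff n := by
  rw [leftT_eq, coeff_add, coeff_X_mul, coeff_C_mul]

theorem conjT_deg (ξ : R) (f : R[X]) (d : ℕ) (hf : ∀ m, d ≤ m → f.coeff m = 0) :
    ∀ m, d + 2 ≤ m → (conjT ξ f).coeff m = 0 := by
  intro m hm
  obtain ⟨n, rfl⟩ : ∃ n, m = n + 2 := ⟨m - 2, by omega⟩
  rw [conjT_coeff_add_two, hf (n + 2) (by omega), hf (n + 1) (by omega), hf n (by omega)]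
  simp

theorem leftT_deg (ξ : R) (f : R[X]) (d : ℕ) (hf : ∀ m, d ≤ m → f.coeff m = 0) :
    ∀ m, d + 1 ≤ m → (leftT ξ f).coeff m = 0 := by
  intro m hm
  obtain ⟨n, rfl⟩ : ∃ n, m = n + 1 := ⟨m - 1, by omega⟩
  rw [leftT_coeff_succ, hf (n + 1) (by omega), hf n (by omega)]
  simp

/-- The leading coefficients of the flow of `U`. -/
noncomputable def leadF (ξ : R) (U : AddSubgroup R) : AddSubgroup R := leadS (flowM ξ U) flowM_X
/-- The leading coefficients of the left flow of `U`. -/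
noncomputable def leadL (ξ : R) (U : AddSubgroup R) : AddSubgroup R := leadS (flowL ξ U) flowL_X

theorem card_le_leadF [Finite R] {ξ : R} (hξ : ξ * ξ = 0) (U : AddSubgroup R) :
    Nat.card U ≤ Nat.card (leadF ξ U) :=
  card_le_leadS U _ _ (conjT ξ) (conjT_injective hξ) (fun _ hf => conjT_mem hξ hf) 2
    (conjT_deg ξ)

theorem card_le_leadL [Finite R] {ξ : R} (hξ : ξ * ξ = 0) (U : AddSubgroup R) :
    Nat.card U ≤ Nat.card (leadL ξ U) :=
  card_le_leadS U _ _ (leftT ξ) (leftT_injective hξ) (fun _ hf => leftT_mem hξ hf) 1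
    (leftT_deg ξ)

theorem mul_eq_zero_of_inP {U W : AddSubgroup R} (h : ∀ a ∈ U, ∀ b ∈ W, a * b = 0) {f g : R[X]}
    (hf : f ∈ inP U) (hg : g ∈ inP W) : f * g = 0 := by
  ext n
  rw [coeff_mul, coeff_zero]
  exact Finset.sum_eq_zero (fun x _ => h _ (hf _) _ (hg _))

theorem eq_conjT {ξ : R} (hξ : ξ * ξ = 0) (g : R[X]) : g = uP ξ * (uM ξ * g * uP ξ) * uM ξ := by
  calc g = (uP ξ * uM ξ) * g * (uP ξ * uM ξ) := by rw [uP_mul_uM hξ]; simp
    _ = _ := by noncomm_ring

theorem eq_leftT {ξ : R} (hξ : ξ * ξ = 0) (g : R[X]) : g = uP ξ * (uM ξ * g) := by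
  rw [← mul_assoc, uP_mul_uM hξ, one_mul]

theorem leadF_mul {ξ : R} (hξ : ξ * ξ = 0) {U : AddSubgroup R} (h : ∀ a ∈ U, ∀ b ∈ U, a * b = 0)
    {r s : R} (hr : r ∈ leadF ξ U) (hs : s ∈ leadF ξ U) : r * s = 0 := by
  obtain ⟨f, hf, rfl⟩ := hr
  obtain ⟨g, hg, rfl⟩ := hs
  have h1 : f * g = 0 := by
    rw [eq_conjT hξ f, eq_conjT hξ g]
    have h2 := mul_eq_zero_of_inP h (mem_flowM.mp hf) (mem_flowM.mp hg)
    calc uP ξ * (uM ξ * f * uP ξ) * uM ξ * (uP ξ * (uM ξ * g * uP ξ) * uM ξ)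
        = uP ξ * (uM ξ * f * uP ξ) * (uM ξ * uP ξ) * (uM ξ * g * uP ξ) * uM ξ := by noncomm_ring
      _ = uP ξ * ((uM ξ * f * uP ξ) * (uM ξ * g * uP ξ)) * uM ξ := by
        rw [uM_mul_uP hξ]; noncomm_ring
      _ = 0 := by rw [h2]; simp
  have h3 := coeff_mul_degree_add_degree f g
  rw [h1, coeff_zero] at h3
  exact h3.symm

theorem leadF_mul_leadL {ξ : R} (hξ : ξ * ξ = 0) {U W : AddSubgroup R}
    (h : ∀ a ∈ U, ∀ b ∈ W, a * b = 0)
    {r s : R} (hr : r ∈ leadF ξ U) (hs : s ∈ leadL ξ W) : r * s = 0 := by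
  obtain ⟨f, hf, rfl⟩ := hr
  obtain ⟨g, hg, rfl⟩ := hs
  have h1 : f * g = 0 := by
    rw [eq_conjT hξ f, eq_leftT hξ g]
    have h2 := mul_eq_zero_of_inP h (mem_flowM.mp hf) (mem_flowL.mp hg)
    calc uP ξ * (uM ξ * f * uP ξ) * uM ξ * (uP ξ * (uM ξ * g))
        = uP ξ * (uM ξ * f * uP ξ) * (uM ξ * uP ξ) * (uM ξ * g) := by noncomm_ring
      _ = uP ξ * ((uM ξ * f * uP ξ) * (uM ξ * g)) := by
        rw [uM_mul_uP hξ]; noncomm_ring
      _ = 0 := by rw [h2]; simp
  have h3 := coeff_mul_degree_add_degree f g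
  rw [h1, coeff_zero] at h3
  exact h3.symm

/-- All coefficients of the flow of `U` lie in any `K` containing `U`, `[ξ, U]`, `ξ U ξ`. -/
theorem coeff_flowM_mem {ξ : R} (hξ : ξ * ξ = 0) {U K : AddSubgroup R} (hUK : U ≤ K)
    (h1 : ∀ μ ∈ U, ξ * μ - μ * ξ ∈ K) (h2 : ∀ μ ∈ U, ξ * μ * ξ ∈ K) {g : R[X]} (hg : g ∈ flowM ξ U)
    (n : ℕ) : g.coeff n ∈ K := by
  have e : g = conjT ξ (uM ξ * g * uP ξ) := eq_conjT hξ g
  have hf := mem_flowM.mp hg
  rw [e]
  match n with
  | 0 =>
    rw [conjT_coeff_zero]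
    exact hUK (hf 0)
  | 1 =>
    rw [conjT_coeff_one]
    exact K.add_mem (hUK (hf 1)) (h1 _ (hf 0))
  | n + 2 =>
    rw [conjT_coeff_add_two]
    exact K.sub_mem (K.add_mem (hUK (hf _)) (h1 _ (hf _))) (h2 _ (hf _))

theorem lead_flowM_mem {ξ : R} (hξ : ξ * ξ = 0) {U K : AddSubgroup R} (hUK : U ≤ K)
    (h1 : ∀ μ ∈ U, ξ * μ - μ * ξ ∈ K) (h2 : ∀ μ ∈ U, ξ * μ * ξ ∈ K) {r : R} (hr : r ∈ leadF ξ U) :
    r ∈ K := by
  obtain ⟨g, hg, rfl⟩ := hr
  exact coeff_flowM_mem hξ hUK h1 h2 hg _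

theorem leadF_mono {ξ : R} {U W : AddSubgroup R} (h : U ≤ W) : leadF ξ U ≤ leadF ξ W := by
  rintro r ⟨g, hg, rfl⟩
  exact ⟨g, fun n => h (hg n), rfl⟩

/-- Elements of `U` whose brackets with `ξ` stay in `U` lie in the lead set. -/
theorem mem_leadF_of_stable {ξ : R} {U : AddSubgroup R} {μ : R} (hμ : μ ∈ U)
    (h1 : ξ * μ - μ * ξ ∈ U) (h2 : ξ * μ * ξ ∈ U) : μ ∈ leadF ξ U := by
  refine ⟨C μ, ?_, leadingCoeff_C μ⟩
  rw [mem_flowM]
  have e : uM ξ * C μ * uP ξ = C μ - X * (C (ξ * μ - μ * ξ)) - X ^ 2 * C (ξ * μ * ξ) := by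
    have e1 : ∀ a : R[X], C ξ * (X * a) = X * (C ξ * a) := by
      intro a
      rw [← mul_assoc, ← X_mul_C, mul_assoc]
    unfold uM uP
    simp only [C_sub, C_mul]
    have e3 : ∀ a b : R[X], X * a * (X * b) = X ^ 2 * (a * b) := by
      intro a b
      rw [pow_two, mul_assoc X a, ← mul_assoc a, ← commute_X' a]
      simp only [mul_assoc]
    have e2 : X * C ξ * C μ * (X * C ξ) = X ^ 2 * (C ξ * C μ * C ξ) := by
      rw [mul_assoc X (C ξ), e3]
    calc (1 - X * C ξ) * C μ * (1 + X * C ξ)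
        = C μ + C μ * (X * C ξ) - X * C ξ * C μ - X * C ξ * C μ * (X * C ξ) := by noncomm_ring
      _ = _ := by
        rw [e2, ← mul_assoc (C μ), ← X_mul_C μ, mul_assoc X (C μ)]
        noncomm_ring
  rw [e]
  exact (inP U).sub_mem ((inP U).sub_mem (C_mem_inP hμ) (X_mul_mem_inP (C_mem_inP h1)))
    (by
      rw [pow_two, mul_assoc]
      exact X_mul_mem_inP (X_mul_mem_inP (C_mem_inP h2)))

theorem inP_conj_of_C {Y Y' : R[X]} {U : AddSubgroup R}
    (H : ∀ μ ∈ U, Y * C μ * Y' ∈ inP U) {f : R[X]} (hf : f ∈ inP U) : Y * f * Y' ∈ inP U := by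
  rw [as_sum_support_C_mul_X_pow f, Finset.mul_sum, Finset.sum_mul]
  refine sum_mem ?_
  intro n _
  have hpow : ∀ (k : ℕ) (a : R[X]), a ∈ inP U → X ^ k * a ∈ inP U := by
    intro k
    induction k with
    | zero => intro a ha; simpa using ha
    | succ k ih =>
      intro a ha
      rw [pow_succ, mul_assoc]
      exact ih _ (X_mul_mem_inP ha)
  have e : Y * (C (f.coeff n) * X ^ n) * Y' = X ^ n * (Y * C (f.coeff n) * Y') := by
    have e1 : ∀ a : R[X], a * X ^ n = X ^ n * a := fun a => (commute_X_pow a n).symm.eq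
    calc Y * (C (f.coeff n) * X ^ n) * Y' = (Y * C (f.coeff n)) * X ^ n * Y' := by
          simp only [mul_assoc]
      _ = X ^ n * (Y * C (f.coeff n)) * Y' := by rw [e1 (Y * C _)]
      _ = X ^ n * (Y * C (f.coeff n) * Y') := by rw [mul_assoc]
  rw [e]
  exact hpow _ _ (H _ (hf n))

/-- Conjugation preserves the lead set. -/
theorem leadF_conj {ξ : R} (hξ : ξ * ξ = 0) {U : AddSubgroup R} {G G' : R} (h1 : G * G' = 1)
    (h2 : G' * G = 1)
    (H : ∀ μ ∈ U, (uM ξ * C G * uP ξ) * C μ * (uM ξ * C G' * uP ξ) ∈ inP U) {r : R}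
    (hr : r ∈ leadF ξ U) : G * r * G' ∈ leadF ξ U := by
  obtain ⟨g, hg, rfl⟩ := hr
  refine ⟨C G * g * C G', ?_, ?_⟩
  · rw [mem_flowM]
    have hf := mem_flowM.mp hg
    have e : uM ξ * (C G * g * C G') * uP ξ =
        (uM ξ * C G * uP ξ) * (uM ξ * g * uP ξ) * (uM ξ * C G' * uP ξ) := by
      have e1 : (uM ξ * C G * uP ξ) * (uM ξ * g * uP ξ) * (uM ξ * C G' * uP ξ) =
          uM ξ * C G * (uP ξ * uM ξ) * g * (uP ξ * uM ξ) * C G' * uP ξ := by noncomm_ring
      rw [e1, uP_mul_uM hξ]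
      noncomm_ring
    rw [e]
    exact inP_conj_of_C H hf
  · have hc : ∀ n, (C G * g * C G').coeff n = G * g.coeff n * G' := by
      intro n
      rw [coeff_mul_C, coeff_C_mul]
    have hc' : ∀ n, g.coeff n = G' * (C G * g * C G').coeff n * G := by
      intro n
      rw [hc]
      calc g.coeff n = (G' * G) * g.coeff n * (G' * G) := by rw [h2]; simp
        _ = _ := by noncomm_ring
    have hdeg : (C G * g * C G').natDegree = g.natDegree := by
      apply le_antisymm
      · rw [natDegree_le_iff_coeff_eq_zero]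
        intro N hN
        rw [hc, coeff_eq_zero_of_natDegree_lt hN]
        simp
      · rw [natDegree_le_iff_coeff_eq_zero]
        intro N hN
        rw [hc', coeff_eq_zero_of_natDegree_lt hN]
        simp
    rw [leadingCoeff, hdeg, hc]
    rfl

end Lead

section Alg

variable {R : Type*} [Ring R]

/-- The three-factor identity behind the Lazard correspondence for three mutually normalising
quadratic subgroups. -/
theorem three_product {a b c x y z : R} (h2 : ∀ w : R, w + w = 0 → w = 0)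
    (haa : a * a = 0) (hbb : b * b = 0) (hcc : c * c = 0)
    (hax : a * x = 0) (hay : a * y = 0) (hbx : b * x = 0) (hbz : b * z = 0)
    (hcy : c * y = 0) (hcz : c * z = 0)
    (hxb : x * b = 0) (hxz : x * z = 0) (hyc : y * c = 0) (hyz : y * z = 0) (hzc : z * c = 0)
    (hab : a * b - b * a = x + x) (hac : a * c - c * a = y + y) (hbc : b * c - c * b = z + z)
    (hyb : (y * b - b * y) * c = 0)
    (hsq : (a + b + c) * (a + b + c) = 0) :
    (1 + (a - x - y)) * (1 + (b - z)) * (1 + c) = 1 + (a + b + c) := by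
  have hS : a * b + b * a + a * c + c * a + b * c + c * b = 0 := by
    have e : (a + b + c) * (a + b + c) =
        a * a + b * b + c * c + (a * b + b * a + a * c + c * a + b * c + c * b) := by noncomm_ring
    rw [e, haa, hbb, hcc] at hsq
    simpa using hsq
  -- aba = 0 type relations
  have haba : a * b * a = 0 := by
    have e : a * (a * b - b * a) = a * (x + x) := by rw [hab]
    have e' : a * (a * b - b * a) = (a * a) * b - a * b * a := by noncomm_ring
    rw [e', haa, mul_add, hax] at e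
    simpa using e
  have haca : a * c * a = 0 := by
    have e : a * (a * c - c * a) = a * (y + y) := by rw [hac]
    have e' : a * (a * c - c * a) = (a * a) * c - a * c * a := by noncomm_ring
    rw [e', haa, mul_add, hay] at e
    simpa using e
  have hbab : b * a * b = 0 := by
    have e : b * (a * b - b * a) = b * (x + x) := by rw [hab]
    have e' : b * (a * b - b * a) = b * a * b - (b * b) * a := by noncomm_ring
    rw [e', hbb, mul_add, hbx] at e
    simpa using e
  have hbcb : b * c * b = 0 := by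
    have e : b * (b * c - c * b) = b * (z + z) := by rw [hbc]
    have e' : b * (b * c - c * b) = (b * b) * c - b * c * b := by noncomm_ring
    rw [e', hbb, mul_add, hbz] at e
    simpa using e
  have hcac : c * a * c = 0 := by
    have e : c * (a * c - c * a) = c * (y + y) := by rw [hac]
    have e' : c * (a * c - c * a) = c * a * c - (c * c) * a := by noncomm_ring
    rw [e', hcc, mul_add, hcy] at e
    simpa using e
  have hcbc : c * b * c = 0 := by
    have e : c * (b * c - c * b) = c * (z + z) := by rw [hbc]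
    have e' : c * (b * c - c * b) = c * b * c - (c * c) * b := by noncomm_ring
    rw [e', hcc, mul_add, hcz] at e
    simpa using e
  -- sign relations
  have t1 : a * b * c + b * a * c = 0 := by
    have e : (a * b + b * a + a * c + c * a + b * c + c * b) * c =
        a * b * c + b * a * c + a * (c * c) + c * a * c + b * (c * c) + c * b * c := by noncomm_ring
    rw [hS, hcc, hcac, hcbc] at e
    simpa using e.symm
  have t2 : a * b * c + a * c * b = 0 := by
    have e : a * (a * b + b * a + a * c + c * a + b * c + c * b) =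
        (a * a) * b + a * b * a + (a * a) * c + a * c * a + a * b * c + a * c * b := by noncomm_ring
    rw [hS, haa, haba, haca] at e
    simpa using e.symm
  have t3 : a * c * b + c * a * b = 0 := by
    have e : (a * b + b * a + a * c + c * a + b * c + c * b) * b =
        a * (b * b) + b * a * b + a * c * b + c * a * b + b * c * b + c * (b * b) := by noncomm_ring
    rw [hS, hbb, hbab, hbcb] at e
    simpa using e.symm
  have hybc : y * b * c = 0 := by
    have e : y * b * c = (y * b - b * y) * c + b * (y * c) := by noncomm_ring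
    rw [e, hyb, hyc]; simp
  -- first order
  have f1 : a * b + a * c + b * c - x - y - z = 0 := by
    apply h2
    have e : (a * b + a * c + b * c - x - y - z) + (a * b + a * c + b * c - x - y - z) =
        (a * b + b * a + a * c + c * a + b * c + c * b) + (a * b - b * a - (x + x)) +
        (a * c - c * a - (y + y)) + (b * c - c * b - (z + z)) := by abel
    rw [e, hS, hab, hac, hbc]
    simp
  -- second order
  have f2 : a * z + y * b + x * c - a * b * c = 0 := by
    apply h2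
    have e1 : a * z + a * z = a * b * c - a * c * b := by
      rw [← mul_add, ← hbc]; noncomm_ring
    have e2 : y * b + y * b = a * c * b - c * a * b := by
      rw [← add_mul, ← hac]; noncomm_ring
    have e3 : x * c + x * c = a * b * c - b * a * c := by
      rw [← add_mul, ← hab]; noncomm_ring
    have e : (a * z + y * b + x * c - a * b * c) + (a * z + y * b + x * c - a * b * c) =
        (a * z + a * z) + (y * b + y * b) + (x * c + x * c) - a * b * c - a * b * c := by abel
    rw [e, e1, e2, e3]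
    have e4 : a * b * c - a * c * b + (a * c * b - c * a * b) + (a * b * c - b * a * c) - a * b * c -
        a * b * c = (a * c * b + a * b * c) - (a * c * b + c * a * b) - (a * b * c + b * a * c) := by
      abel
    have t2' : a * c * b + a * b * c = 0 := by rw [add_comm]; exact t2
    rw [e4, t2', t3, t1]
    simp
  have e0 : (1 + (a - x - y)) * (1 + (b - z)) * (1 + c) =
      1 + a + b + c - x - y - z + a * b + a * c + b * c - a * z - y * b - x * c + a * b * c
        - x * b + x * z + y * z - x * c * 0 - y * c - z * c + (0 : R) - (a * z * c) - y * b * c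
        - x * b * c + x * z * c + y * z * c := by
    noncomm_ring
  rw [e0, hxb, hxz, hyz, hyc, hzc, hybc, mul_assoc a z c, hzc]
  have f3 : x * b * c = 0 := by rw [hxb, zero_mul]
  have f4 : x * z * c = 0 := by rw [hxz, zero_mul]
  have f5 : y * z * c = 0 := by rw [hyz, zero_mul]
  rw [zero_mul]
  simp only [mul_zero, sub_zero, add_zero]
  have e5 : 1 + a + b + c - x - y - z + a * b + a * c + b * c - a * z - y * b - x * c + a * b * c =
      1 + (a + b + c) + (a * b + a * c + b * c - x - y - z) - (a * z + y * b + x * c - a * b * c) := by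
    abel
  rw [e5, f1, f2]
  simp

/-- Membership from a multiple coprime to `p`. -/
theorem mem_of_nsmul_mem {U : AddSubgroup R} {p n : ℕ} (hp : ∀ x : R, p • x = 0) (hn : n.Coprime p)
    {w : R} (hw : n • w ∈ U) : w ∈ U := by
  have h2 := Nat.gcd_eq_gcd_ab n p
  rw [hn] at h2
  have h3 : (1 : ℤ) = n * Nat.gcdA n p + p * Nat.gcdB n p := by exact_mod_cast h2
  have h1 : w = ((Nat.gcdA n p) • (n • w)) + ((Nat.gcdB n p) • (p • w)) := by
    calc w = (1 : ℤ) • w := (one_zsmul w).symm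
      _ = _ := by
        rw [h3, add_zsmul, mul_comm (n : ℤ), mul_zsmul, natCast_zsmul, mul_comm (p : ℤ), mul_zsmul,
          natCast_zsmul]
  rw [h1, hp, smul_zero, add_zero]
  exact U.zsmul_mem hw _

/-- Five-point interpolation for a polynomial of degree four with values in `U`. -/
theorem five_point {U : AddSubgroup R} {p : ℕ} (hp : ∀ x : R, p • x = 0) (h24 : Nat.Coprime 24 p)
    (v0 v1 v2 v3 v4 : R) (h0 : v0 ∈ U) (h1 : v0 + v1 + v2 + v3 + v4 ∈ U)
    (h2 : v0 - v1 + v2 - v3 + v4 ∈ U)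
    (h3 : v0 + 2 • v1 + 4 • v2 + 8 • v3 + 16 • v4 ∈ U)
    (h4 : v0 - 2 • v1 + 4 • v2 - 8 • v3 + 16 • v4 ∈ U) :
    v1 ∈ U ∧ v2 ∈ U ∧ v3 ∈ U ∧ v4 ∈ U := by
  have h12 : Nat.Coprime 12 p := Nat.Coprime.coprime_dvd_left (by norm_num) h24
  refine ⟨mem_of_nsmul_mem hp h12 ?_, mem_of_nsmul_mem hp h24 ?_, mem_of_nsmul_mem hp h12 ?_,
    mem_of_nsmul_mem hp h24 ?_⟩
  · have e : 12 • v1 = 8 • (v0 + v1 + v2 + v3 + v4) - 8 • (v0 - v1 + v2 - v3 + v4) -
        (v0 + 2 • v1 + 4 • v2 + 8 • v3 + 16 • v4) + (v0 - 2 • v1 + 4 • v2 - 8 • v3 + 16 • v4) := by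
      abel
    rw [e]
    exact U.add_mem (U.sub_mem (U.sub_mem (U.nsmul_mem h1 _) (U.nsmul_mem h2 _)) h3) h4
  · have e : 24 • v2 = 16 • (v0 + v1 + v2 + v3 + v4) + 16 • (v0 - v1 + v2 - v3 + v4) -
        (v0 + 2 • v1 + 4 • v2 + 8 • v3 + 16 • v4) - (v0 - 2 • v1 + 4 • v2 - 8 • v3 + 16 • v4)
        - 30 • v0 := by
      abel
    rw [e]
    exact U.sub_mem (U.sub_mem (U.sub_mem (U.add_mem (U.nsmul_mem h1 _) (U.nsmul_mem h2 _)) h3) h4)
      (U.nsmul_mem h0 _)
  · have e : 12 • v3 = (v0 + 2 • v1 + 4 • v2 + 8 • v3 + 16 • v4) -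
        (v0 - 2 • v1 + 4 • v2 - 8 • v3 + 16 • v4) - 2 • (v0 + v1 + v2 + v3 + v4) +
        2 • (v0 - v1 + v2 - v3 + v4) := by
      abel
    rw [e]
    exact U.add_mem (U.sub_mem (U.sub_mem h3 h4) (U.nsmul_mem h1 _)) (U.nsmul_mem h2 _)
  · have e : 24 • v4 = (v0 + 2 • v1 + 4 • v2 + 8 • v3 + 16 • v4) +
        (v0 - 2 • v1 + 4 • v2 - 8 • v3 + 16 • v4) - 4 • (v0 + v1 + v2 + v3 + v4) -
        4 • (v0 - v1 + v2 - v3 + v4) + 6 • v0 := by
      abel
    rw [e]
    exact U.add_mem (U.sub_mem (U.sub_mem (U.add_mem h3 h4) (U.nsmul_mem h1 _)) (U.nsmul_mem h2 _))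
      (U.nsmul_mem h0 _)

end Alg

end Cfsg.Agent.Lib.QuadFlow
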