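import Mathlib
import Cfsg.Agent.Lib.QuadFlow

/-!
# Quadratic subgroups: the additive logarithm and products of three mutually normalising ones.
-/

set_option autoImplicit false
set_option linter.unusedSectionVars false
set_option linter.style.haveILetI false

namespace Cfsg.Agent.Lib.QuadFlow

open Polynomial

section Grp

variable {Γ : Type*} [Group Γ] {R : Type*} [Ring R] (ρ : Γ →* R)

/-- A quadratic subgroup: all differences `ρ a - 1` multiply to zero. -/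
def IsQ (X : Subgroup Γ) : Prop := ∀ a ∈ X, ∀ b ∈ X, (ρ a - 1) * (ρ b - 1) = 0

variable {ρ}

theorem IsQ.mono {X Y : Subgroup Γ} (h : IsQ ρ Y) (hXY : X ≤ Y) : IsQ ρ X :=
  fun a ha b hb => h a (hXY ha) b (hXY hb)

theorem rho_inv_eq {x : Γ} {α : R} (hx : ρ x = 1 + α) (hα : α * α = 0) : ρ x⁻¹ = 1 - α := by
  have h1 : ρ x⁻¹ * ρ x = 1 := by rw [← map_mul, inv_mul_cancel, map_one]
  have h2 : (1 + α) * (1 - α) = 1 := by
    calc (1 + α) * (1 - α) = 1 - α * α := by noncomm_ring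
      _ = 1 := by rw [hα, sub_zero]
  calc ρ x⁻¹ = ρ x⁻¹ * ((1 + α) * (1 - α)) := by rw [h2, mul_one]
    _ = (ρ x⁻¹ * ρ x) * (1 - α) := by rw [hx, mul_assoc]
    _ = 1 - α := by rw [h1, one_mul]

theorem one_add_pow {α : R} (hα : α * α = 0) (k : ℕ) : (1 + α) ^ k = 1 + k • α := by
  induction k with
  | zero => simp
  | succ k ih =>
    rw [pow_succ, ih, succ_nsmul]
    have : (k • α) * α = 0 := by rw [smul_mul_assoc, hα, smul_zero]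
    calc (1 + k • α) * (1 + α) = 1 + k • α + α + (k • α) * α := by noncomm_ring
      _ = 1 + (k • α + α) := by rw [this]; abel

theorem rho_pow_eq {x : Γ} {α : R} (hx : ρ x = 1 + α) (hα : α * α = 0) (k : ℕ) :
    ρ (x ^ k) = 1 + k • α := by
  rw [map_pow, hx, one_add_pow hα]

/-- The additive logarithm of a quadratic subgroup. -/
def lgS (X : Subgroup Γ) (hX : IsQ ρ X) : AddSubgroup R where
  carrier := {α | ∃ x ∈ X, ρ x = 1 + α}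
  add_mem' := by
    rintro α β ⟨x, hx, hxα⟩ ⟨y, hy, hyβ⟩
    refine ⟨x * y, X.mul_mem hx hy, ?_⟩
    have h := hX x hx y hy
    rw [hxα, hyβ] at h
    simp only [add_sub_cancel_left] at h
    rw [map_mul, hxα, hyβ]
    calc (1 + α) * (1 + β) = 1 + (α + β) + α * β := by noncomm_ring
      _ = 1 + (α + β) := by rw [h, add_zero]
  zero_mem' := ⟨1, X.one_mem, by simp⟩
  neg_mem' := by
    rintro α ⟨x, hx, hxα⟩
    refine ⟨x⁻¹, X.inv_mem hx, ?_⟩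
    have h := hX x hx x hx
    rw [hxα] at h
    simp only [add_sub_cancel_left] at h
    rw [rho_inv_eq hxα h]
    abel

theorem mem_lgS {X : Subgroup Γ} {hX : IsQ ρ X} {α : R} :
    α ∈ lgS X hX ↔ ∃ x ∈ X, ρ x = 1 + α := Iff.rfl

theorem sub_one_mem_lgS {X : Subgroup Γ} {hX : IsQ ρ X} {x : Γ} (hx : x ∈ X) :
    ρ x - 1 ∈ lgS X hX := ⟨x, hx, by abel⟩

theorem lgS_mul {X : Subgroup Γ} {hX : IsQ ρ X} {α β : R} (hα : α ∈ lgS X hX) (hβ : β ∈ lgS X hX) :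
    α * β = 0 := by
  obtain ⟨x, hx, hxα⟩ := hα
  obtain ⟨y, hy, hyβ⟩ := hβ
  have h := hX x hx y hy
  rw [hxα, hyβ] at h
  simpa using h

theorem lgS_mono {X Y : Subgroup Γ} {hX : IsQ ρ X} {hY : IsQ ρ Y} (h : X ≤ Y) :
    lgS X hX ≤ lgS Y hY := by
  rintro α ⟨x, hx, hxα⟩
  exact ⟨x, h hx, hxα⟩

theorem card_lgS (hρ : Function.Injective ρ) (X : Subgroup Γ) (hX : IsQ ρ X) :
    Nat.card (lgS X hX) = Nat.card X := by
  refine (Nat.card_congr (Equiv.ofBijective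
    (fun x : X => (⟨ρ x - 1, sub_one_mem_lgS x.2⟩ : lgS X hX)) ⟨?_, ?_⟩)).symm
  · intro x y h
    have h1 : ρ x - 1 = ρ y - 1 := congrArg Subtype.val h
    exact Subtype.ext (hρ (sub_left_injective h1))
  · rintro ⟨α, x, hx, hxα⟩
    refine ⟨⟨x, hx⟩, Subtype.ext ?_⟩
    show ρ x - 1 = α
    rw [hxα]; abel

/-- Two mutually normalising quadratic subgroups. -/
structure MutN (X Y : Subgroup Γ) : Prop where
  qX : IsQ ρ X
  qY : IsQ ρ Y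
  xy : ∀ x ∈ X, ∀ y ∈ Y, x * y * x⁻¹ ∈ Y
  yx : ∀ y ∈ Y, ∀ x ∈ X, y * x * y⁻¹ ∈ X

theorem MutN.symm {X Y : Subgroup Γ} (h : MutN (ρ := ρ) X Y) : MutN (ρ := ρ) Y X :=
  ⟨h.qY, h.qX, h.yx, h.xy⟩

/-- `β α β = 0` for mutually normalising quadratic subgroups. -/
theorem MutN.bab {X Y : Subgroup Γ} (h : MutN (ρ := ρ) X Y) {x y : Γ} {α β : R} (hx : x ∈ X)
    (hy : y ∈ Y) (hxα : ρ x = 1 + α) (hyβ : ρ y = 1 + β) : β * α * β = 0 := by
  have hαα : α * α = 0 := lgS_mul (hX := h.qX) ⟨x, hx, hxα⟩ ⟨x, hx, hxα⟩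
  have hββ : β * β = 0 := lgS_mul (hX := h.qY) ⟨y, hy, hyβ⟩ ⟨y, hy, hyβ⟩
  have hy1 := h.xy x hx y hy
  have e1 : ρ (x * y * x⁻¹) = 1 + (β + α * β - β * α - α * β * α) := by
    rw [map_mul, map_mul, hxα, hyβ, rho_inv_eq hxα hαα]
    calc (1 + α) * (1 + β) * (1 - α)
        = 1 + (β + α * β - β * α - α * β * α) - α * α := by noncomm_ring
      _ = _ := by rw [hαα, sub_zero]
  have h1 := lgS_mul (hX := h.qY) (⟨y, hy, hyβ⟩ : β ∈ lgS Y h.qY) ⟨_, hy1, e1⟩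
  have h2 : β * α * β = β * α * β * α := by
    have e2 : β * (β + α * β - β * α - α * β * α) =
        β * β + β * α * β - (β * β) * α - β * α * β * α := by noncomm_ring
    rw [e2, hββ] at h1
    simp only [zero_mul, zero_add, sub_zero] at h1
    exact sub_eq_zero.mp h1
  calc β * α * β = β * α * β * α := h2
    _ = (β * α * β * α) * α := congrArg (fun t => t * α) h2
    _ = 0 := by rw [mul_assoc (β * α * β), hαα, mul_zero]

/-- The commutator of two mutually normalising quadratic subgroups, additively. -/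
theorem MutN.comm_eq {X Y : Subgroup Γ} (h : MutN (ρ := ρ) X Y) {x y : Γ} {α β : R} (hx : x ∈ X)
    (hy : y ∈ Y) (hxα : ρ x = 1 + α) (hyβ : ρ y = 1 + β) :
    ρ (x * y * x⁻¹ * y⁻¹) = 1 + (α * β - β * α) ∧ x * y * x⁻¹ * y⁻¹ ∈ X ∧
      x * y * x⁻¹ * y⁻¹ ∈ Y := by
  have hαα : α * α = 0 := lgS_mul (hX := h.qX) ⟨x, hx, hxα⟩ ⟨x, hx, hxα⟩
  have hββ : β * β = 0 := lgS_mul (hX := h.qY) ⟨y, hy, hyβ⟩ ⟨y, hy, hyβ⟩
  have haba : α * β * α = 0 := h.symm.bab hy hx hyβ hxα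
  have hy1 := h.xy x hx y hy
  have e1 : ρ (x * y * x⁻¹) = 1 + (β + (α * β - β * α)) := by
    rw [map_mul, map_mul, hxα, hyβ, rho_inv_eq hxα hαα]
    calc (1 + α) * (1 + β) * (1 - α)
        = 1 + (β + (α * β - β * α)) - α * α - α * β * α := by noncomm_ring
      _ = _ := by rw [hαα, haba]; simp
  have h1 : (β + (α * β - β * α)) * β = 0 :=
    lgS_mul (hX := h.qY) ⟨_, hy1, e1⟩ (⟨y, hy, hyβ⟩ : β ∈ lgS Y h.qY)
  refine ⟨?_, ?_, Y.mul_mem hy1 (Y.inv_mem hy)⟩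
  · rw [map_mul, e1, rho_inv_eq hyβ hββ]
    calc (1 + (β + (α * β - β * α))) * (1 - β)
        = 1 + (α * β - β * α) - (β + (α * β - β * α)) * β := by noncomm_ring
      _ = _ := by rw [h1, sub_zero]
  · have e : x * y * x⁻¹ * y⁻¹ = x * (y * x⁻¹ * y⁻¹) := by group
    rw [e]
    exact X.mul_mem hx (h.yx y hy x⁻¹ (X.inv_mem hx))

/-- Three pairwise mutually normalising quadratic subgroups. -/
structure Tri (A₀ A₁ A₂ : Subgroup Γ) : Prop where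
  h01 : MutN (ρ := ρ) A₀ A₁
  h02 : MutN (ρ := ρ) A₀ A₂
  h12 : MutN (ρ := ρ) A₁ A₂

/-- The word realising the sum of three logarithms. -/
def word (k : ℕ) (g₀ g₁ g₂ : Γ) : Γ :=
  g₀ * ((g₀ * g₁ * g₀⁻¹ * g₁⁻¹) ^ k)⁻¹ * ((g₀ * g₂ * g₀⁻¹ * g₂⁻¹) ^ k)⁻¹ * g₁ *
    ((g₁ * g₂ * g₁⁻¹ * g₂⁻¹) ^ k)⁻¹ * g₂

theorem word_mem {k : ℕ} {g₀ g₁ g₂ : Γ} {S : Subgroup Γ} (h0 : g₀ ∈ S) (h1 : g₁ ∈ S) (h2 : g₂ ∈ S) :
    word k g₀ g₁ g₂ ∈ S := by
  unfold word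
  have hc : ∀ a b : Γ, a ∈ S → b ∈ S → ((a * b * a⁻¹ * b⁻¹) ^ k)⁻¹ ∈ S := fun a b ha hb =>
    S.inv_mem (S.pow_mem (S.mul_mem (S.mul_mem (S.mul_mem ha hb) (S.inv_mem ha)) (S.inv_mem hb)) k)
  exact S.mul_mem (S.mul_mem (S.mul_mem (S.mul_mem (S.mul_mem h0 (hc _ _ h0 h1)) (hc _ _ h0 h2)) h1)
    (hc _ _ h1 h2)) h2

theorem word_spec {A₀ A₁ A₂ : Subgroup Γ} (hT : Tri (ρ := ρ) A₀ A₁ A₂) {k : ℕ}
    (hk : ∀ c : R, k • c + k • c = c) (htwo : ∀ w : R, w + w = 0 → w = 0) {g₀ g₁ g₂ : Γ} {a b c : R}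
    (h0 : g₀ ∈ A₀) (h1 : g₁ ∈ A₁) (h2 : g₂ ∈ A₂) (ha : ρ g₀ = 1 + a) (hb : ρ g₁ = 1 + b)
    (hc : ρ g₂ = 1 + c) (hsq : (a + b + c) * (a + b + c) = 0) :
    ρ (word k g₀ g₁ g₂) = 1 + (a + b + c) := by
  set q₀ := hT.h01.qX
  set q₁ := hT.h01.qY
  set q₂ := hT.h02.qY
  have ma : a ∈ lgS A₀ q₀ := ⟨g₀, h0, ha⟩
  have mb : b ∈ lgS A₁ q₁ := ⟨g₁, h1, hb⟩
  have mc : c ∈ lgS A₂ q₂ := ⟨g₂, h2, hc⟩
  obtain ⟨c01, c01x, c01y⟩ := hT.h01.comm_eq h0 h1 ha hb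
  obtain ⟨c02, c02x, c02y⟩ := hT.h02.comm_eq h0 h2 ha hc
  obtain ⟨c12, c12x, c12y⟩ := hT.h12.comm_eq h1 h2 hb hc
  set x := k • (a * b - b * a) with hx
  set y := k • (a * c - c * a) with hy
  set z := k • (b * c - c * b) with hz
  have m01x : a * b - b * a ∈ lgS A₀ q₀ := ⟨_, c01x, c01⟩
  have m01y : a * b - b * a ∈ lgS A₁ q₁ := ⟨_, c01y, c01⟩
  have m02x : a * c - c * a ∈ lgS A₀ q₀ := ⟨_, c02x, c02⟩
  have m02y : a * c - c * a ∈ lgS A₂ q₂ := ⟨_, c02y, c02⟩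
  have m12x : b * c - c * b ∈ lgS A₁ q₁ := ⟨_, c12x, c12⟩
  have m12y : b * c - c * b ∈ lgS A₂ q₂ := ⟨_, c12y, c12⟩
  have mx0 : x ∈ lgS A₀ q₀ := AddSubgroup.nsmul_mem _ m01x k
  have mx1 : x ∈ lgS A₁ q₁ := AddSubgroup.nsmul_mem _ m01y k
  have my0 : y ∈ lgS A₀ q₀ := AddSubgroup.nsmul_mem _ m02x k
  have my2 : y ∈ lgS A₂ q₂ := AddSubgroup.nsmul_mem _ m02y k
  have mz1 : z ∈ lgS A₁ q₁ := AddSubgroup.nsmul_mem _ m12x k
  have mz2 : z ∈ lgS A₂ q₂ := AddSubgroup.nsmul_mem _ m12y k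
  -- the commutator of `y` and `b`
  have hyb : (y * b - b * y) * c = 0 := by
    obtain ⟨gy, hgy, hgyρ⟩ := my2
    have hm' : y * b - b * y ∈ lgS A₂ q₂ :=
      ⟨_, (hT.h12.symm.comm_eq hgy h1 hgyρ hb).2.1, (hT.h12.symm.comm_eq hgy h1 hgyρ hb).1⟩
    exact lgS_mul hm' mc
  have key := three_product (a := a) (b := b) (c := c) (x := x) (y := y) (z := z) htwo
    (lgS_mul ma ma) (lgS_mul mb mb) (lgS_mul mc mc) (lgS_mul ma mx0) (lgS_mul ma my0)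
    (lgS_mul mb mx1) (lgS_mul mb mz1) (lgS_mul mc my2) (lgS_mul mc mz2) (lgS_mul mx1 mb)
    (lgS_mul mx1 mz1) (lgS_mul my2 mc) (lgS_mul my2 mz2) (lgS_mul mz2 mc)
    (hk _).symm (hk _).symm (hk _).symm hyb hsq
  have hcc : ∀ (q : Γ) (r : R), ρ q = 1 + r → r * r = 0 → ρ ((q ^ k)⁻¹) = 1 - k • r := by
    intro q r hq hr
    have h3 : ρ (q ^ k) = 1 + k • r := rho_pow_eq hq hr k
    refine rho_inv_eq h3 ?_
    rw [smul_mul_smul_comm, hr, smul_zero]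
  have hr1 : (a * b - b * a) * (a * b - b * a) = 0 := lgS_mul m01x m01x
  have hr2 : (a * c - c * a) * (a * c - c * a) = 0 := lgS_mul m02x m02x
  have hr3 : (b * c - c * b) * (b * c - c * b) = 0 := lgS_mul m12x m12x
  unfold word
  rw [map_mul, map_mul, map_mul, map_mul, map_mul, ha, hb, hc, hcc _ _ c01 hr1, hcc _ _ c02 hr2,
    hcc _ _ c12 hr3, ← hx, ← hy, ← hz, ← key]
  have e0 : (1 + a) * (1 - x) * (1 - y) = 1 + (a - x - y) := by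
    have e00 : a * x = 0 := lgS_mul ma mx0
    have e01 : a * y = 0 := lgS_mul ma my0
    have e02 : x * y = 0 := lgS_mul mx0 my0
    calc (1 + a) * (1 - x) * (1 - y) = 1 + (a - x - y) - a * x - a * y + x * y + a * x * y := by
          noncomm_ring
      _ = _ := by rw [e00, e01, e02]; simp
  have e1 : (1 + b) * (1 - z) = 1 + (b - z) := by
    have e00 : b * z = 0 := lgS_mul mb mz1
    calc (1 + b) * (1 - z) = 1 + (b - z) - b * z := by noncomm_ring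
      _ = _ := by rw [e00]; simp
  rw [e0, mul_assoc (1 + (a - x - y)) (1 + b), e1]

end Grp

end Cfsg.Agent.Lib.QuadFlow
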