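import Mathlib
import Cfsg.Agent.Lib.QuadFlowG

/-!
# The replacement of a quadratic subgroup by the limit of its conjugates.
-/

set_option autoImplicit false
set_option linter.unusedSectionVars false
set_option linter.style.haveILetI false

namespace Cfsg.Agent.Lib.QuadFlow

open Polynomial

section Conj

variable {Γ : Type*} [Group Γ] {R : Type*} [Ring R] {ρ : Γ →* R}

/-- The conjugate `y A y⁻¹`. -/
def cj (y : Γ) (A : Subgroup Γ) : Subgroup Γ where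
  carrier := {g | y⁻¹ * g * y ∈ A}
  mul_mem' := by
    intro a b ha hb
    have e : y⁻¹ * (a * b) * y = (y⁻¹ * a * y) * (y⁻¹ * b * y) := by group
    show y⁻¹ * (a * b) * y ∈ A
    rw [e]
    exact A.mul_mem ha hb
  one_mem' := by
    show y⁻¹ * 1 * y ∈ A
    simp [A.one_mem]
  inv_mem' := by
    intro a ha
    have e : y⁻¹ * a⁻¹ * y = (y⁻¹ * a * y)⁻¹ := by group
    show y⁻¹ * a⁻¹ * y ∈ A
    rw [e]
    exact A.inv_mem ha

theorem mem_cj {y g : Γ} {A : Subgroup Γ} : g ∈ cj y A ↔ y⁻¹ * g * y ∈ A := Iff.rfl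

theorem conj_mem_cj {y a : Γ} {A : Subgroup Γ} (ha : a ∈ A) : y * a * y⁻¹ ∈ cj y A := by
  rw [mem_cj]
  have e : y⁻¹ * (y * a * y⁻¹) * y = a := by group
  rwa [e]

theorem cj_mono {y : Γ} {A B : Subgroup Γ} (h : A ≤ B) : cj y A ≤ cj y B := fun _ hg => h hg

theorem cj_inf_normal {y : Γ} {A N : Subgroup Γ} [hN : N.Normal] : cj y (A ⊓ N) = cj y A ⊓ N := by
  ext g
  constructor
  · rintro ⟨h1, h2⟩
    refine ⟨h1, ?_⟩
    have := hN.conj_mem _ h2 y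
    have e : y * (y⁻¹ * g * y) * y⁻¹ = g := by group
    rwa [e] at this
  · rintro ⟨h1, h2⟩
    refine ⟨h1, ?_⟩
    have := hN.conj_mem _ h2 y⁻¹
    simpa using this

theorem card_cj (y : Γ) (A : Subgroup Γ) : Nat.card (cj y A) = Nat.card A := by
  refine (Nat.card_congr (Equiv.ofBijective
    (fun a : A => (⟨y * a * y⁻¹, conj_mem_cj a.2⟩ : cj y A)) ⟨?_, ?_⟩)).symm
  · intro a b h
    have h1 : y * (a : Γ) * y⁻¹ = y * b * y⁻¹ := congrArg Subtype.val h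
    exact Subtype.ext (by simpa using h1)
  · rintro ⟨g, hg⟩
    refine ⟨⟨_, hg⟩, Subtype.ext ?_⟩
    show y * (y⁻¹ * g * y) * y⁻¹ = g
    group

theorem IsQ.cj {A : Subgroup Γ} (h : IsQ ρ A) (y : Γ) : IsQ ρ (cj y A) := by
  intro a ha b hb
  have h1 := h _ ha _ hb
  have e : ∀ g : Γ, ρ g - 1 = ρ y * (ρ (y⁻¹ * g * y) - 1) * ρ y⁻¹ := by
    intro g
    have e1 : ρ y * ρ y⁻¹ = 1 := by rw [← map_mul, mul_inv_cancel, map_one]
    have e2 : ρ y * ρ (y⁻¹ * g * y) * ρ y⁻¹ = ρ g := by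
      rw [← map_mul, ← map_mul]
      congr 1
      group
    calc ρ g - 1 = ρ y * ρ (y⁻¹ * g * y) * ρ y⁻¹ - ρ y * ρ y⁻¹ := by rw [e1, e2]
      _ = _ := by noncomm_ring
  rw [e a, e b]
  have e3 : ρ y⁻¹ * ρ y = 1 := by rw [← map_mul, inv_mul_cancel, map_one]
  calc ρ y * (ρ (y⁻¹ * a * y) - 1) * ρ y⁻¹ * (ρ y * (ρ (y⁻¹ * b * y) - 1) * ρ y⁻¹)
      = ρ y * (ρ (y⁻¹ * a * y) - 1) * (ρ y⁻¹ * ρ y) * (ρ (y⁻¹ * b * y) - 1) * ρ y⁻¹ := by
        noncomm_ring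
    _ = ρ y * ((ρ (y⁻¹ * a * y) - 1) * (ρ (y⁻¹ * b * y) - 1)) * ρ y⁻¹ := by
        rw [e3]; noncomm_ring
    _ = 0 := by rw [h1]; simp

/-- Conjugates of elements of the logarithm. -/
theorem conj_mem_lgS {A : Subgroup Γ} {y : Γ} {hA : IsQ ρ A} {hA' : IsQ ρ (cj y A)} {η μ : R}
    (hy : ρ y = 1 + η) (hy' : ρ y⁻¹ = 1 - η) (hμ : μ ∈ lgS A hA) :
    (1 + η) * μ * (1 - η) ∈ lgS (cj y A) hA' := by
  obtain ⟨a, ha, haμ⟩ := hμ
  refine ⟨y * a * y⁻¹, conj_mem_cj ha, ?_⟩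
  rw [map_mul, map_mul, hy, hy', haμ]
  have e1 : (1 + η) * (1 - η) = 1 := by
    rw [← hy, ← hy', ← map_mul, mul_inv_cancel, map_one]
  calc (1 + η) * (1 + μ) * (1 - η) = (1 + η) * (1 - η) + (1 + η) * μ * (1 - η) := by noncomm_ring
    _ = _ := by rw [e1]

end Conj

section Star

variable {Γ : Type*} [Group Γ] {R : Type*} [Ring R] {ρ : Γ →* R}

/-- The subgroup attached to an additive subgroup of square zero. -/
def starS (ρ : Γ →* R) (L : AddSubgroup R) (hL : ∀ a ∈ L, ∀ b ∈ L, a * b = 0) : Subgroup Γ where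
  carrier := {g | ρ g - 1 ∈ L}
  mul_mem' := by
    intro a b ha hb
    have h := hL _ ha _ hb
    show ρ (a * b) - 1 ∈ L
    have e : ρ (a * b) - 1 = (ρ a - 1) + (ρ b - 1) + (ρ a - 1) * (ρ b - 1) := by
      rw [map_mul]; noncomm_ring
    rw [e, h, add_zero]
    exact L.add_mem ha hb
  one_mem' := by
    show ρ 1 - 1 ∈ L
    rw [map_one, sub_self]
    exact L.zero_mem
  inv_mem' := by
    intro a ha
    have h := hL _ ha _ ha
    have e := rho_inv_eq (ρ := ρ) (x := a) (α := ρ a - 1) (by abel) h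
    show ρ a⁻¹ - 1 ∈ L
    rw [e]
    have e2 : 1 - (ρ a - 1) - 1 = -(ρ a - 1) := by abel
    rw [e2]
    exact L.neg_mem ha

theorem mem_starS {L : AddSubgroup R} {hL : ∀ a ∈ L, ∀ b ∈ L, a * b = 0} {g : Γ} :
    g ∈ starS ρ L hL ↔ ρ g - 1 ∈ L := Iff.rfl

theorem isQ_starS {L : AddSubgroup R} {hL : ∀ a ∈ L, ∀ b ∈ L, a * b = 0} :
    IsQ ρ (starS ρ L hL) := fun _ ha _ hb => hL _ ha _ hb

end Star

section Flow

variable {Γ : Type*} [Group Γ] {R : Type*} [Ring R] [Nontrivial R] {ρ : Γ →* R}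

/-- The brackets lie in the sum of the three conjugates. -/
theorem bracket_mem {A N : Subgroup Γ} [hN : N.Normal] {x : Γ} {ξ : R} {k : ℕ}
    (hk : ∀ c : R, k • c + k • c = c) (hx : ρ x = 1 + ξ) (hξ : ξ * ξ = 0)
    (qA : IsQ ρ A) (qp : IsQ ρ (cj x A)) (qm : IsQ ρ (cj x⁻¹ A)) {μ : R}
    (hμ : μ ∈ lgS (A ⊓ N) (qA.mono inf_le_left)) :
    (1 + ξ) * μ * (1 - ξ) ∈ lgS (cj x A ⊓ N) (qp.mono inf_le_left) ∧
    (1 - ξ) * μ * (1 + ξ) ∈ lgS (cj x⁻¹ A ⊓ N) (qm.mono inf_le_left) := by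
  have hxi : ρ x⁻¹ = 1 - ξ := rho_inv_eq hx hξ
  obtain ⟨a, ⟨ha, haN⟩, haμ⟩ := hμ
  constructor
  · refine ⟨x * a * x⁻¹, ⟨conj_mem_cj ha, hN.conj_mem _ haN _⟩, ?_⟩
    rw [map_mul, map_mul, hx, hxi, haμ]
    have e1 : (1 + ξ) * (1 - ξ) = 1 := by
      rw [← hx, ← hxi, ← map_mul, mul_inv_cancel, map_one]
    calc (1 + ξ) * (1 + μ) * (1 - ξ) = (1 + ξ) * (1 - ξ) + (1 + ξ) * μ * (1 - ξ) := by noncomm_ring
      _ = _ := by rw [e1]
  · refine ⟨x⁻¹ * a * x⁻¹⁻¹, ⟨conj_mem_cj ha, hN.conj_mem' _ haN _ |> fun h => by simpa using h⟩, ?_⟩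
    rw [inv_inv, map_mul, map_mul, hx, hxi, haμ]
    have e1 : (1 - ξ) * (1 + ξ) = 1 := by
      rw [← hx, ← hxi, ← map_mul, inv_mul_cancel, map_one]
    calc (1 - ξ) * (1 + μ) * (1 + ξ) = (1 - ξ) * (1 + ξ) + (1 - ξ) * μ * (1 + ξ) := by noncomm_ring
      _ = _ := by rw [e1]

theorem bracket_eq1 {ξ μ : R} {k : ℕ} (hk : ∀ c : R, k • c + k • c = c) :
    ξ * μ - μ * ξ = k • ((1 + ξ) * μ * (1 - ξ)) - k • ((1 - ξ) * μ * (1 + ξ)) := by
  have e : (1 + ξ) * μ * (1 - ξ) = (1 - ξ) * μ * (1 + ξ) + (ξ * μ - μ * ξ) + (ξ * μ - μ * ξ) := by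
    noncomm_ring
  rw [e, nsmul_add, nsmul_add, add_assoc, add_sub_cancel_left, hk]

theorem bracket_eq2 {ξ μ : R} {k : ℕ} (hk : ∀ c : R, k • c + k • c = c) :
    ξ * μ * ξ = μ - k • ((1 + ξ) * μ * (1 - ξ)) - k • ((1 - ξ) * μ * (1 + ξ)) := by
  have e : (1 + ξ) * μ * (1 - ξ) + (1 - ξ) * μ * (1 + ξ) = (μ - ξ * μ * ξ) + (μ - ξ * μ * ξ) := by
    noncomm_ring
  have e3 : k • ((1 + ξ) * μ * (1 - ξ)) + k • ((1 - ξ) * μ * (1 + ξ)) = μ - ξ * μ * ξ := by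
    rw [← nsmul_add, e, nsmul_add]
    exact hk _
  calc ξ * μ * ξ = μ - (μ - ξ * μ * ξ) := by abel
    _ = μ - (k • ((1 + ξ) * μ * (1 - ξ)) + k • ((1 - ξ) * μ * (1 + ξ))) := by rw [e3]
    _ = _ := by abel

/-- Lifting leading coefficients to group elements. -/
theorem exists_lift {A N : Subgroup Γ} [hN : N.Normal] {x : Γ} {ξ : R} {k : ℕ}
    (hk : ∀ c : R, k • c + k • c = c) (htwo : ∀ w : R, w + w = 0 → w = 0)
    (hx : ρ x = 1 + ξ) (hξ : ξ * ξ = 0)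
    (hT : Tri (ρ := ρ) A (cj x A) (cj x⁻¹ A)) (qA : IsQ ρ (A ⊓ N)) {β : R}
    (hβ : β ∈ leadF ξ (lgS (A ⊓ N) qA)) (hββ : β * β = 0) :
    ∃ w, w ∈ N ∧ ρ w = 1 + β ∧ w ∈ A ⊔ cj x A ⊔ cj x⁻¹ A := by
  have q0 := hT.h01.qX
  have qp := hT.h01.qY
  have qm := hT.h02.qY
  set U₀ := lgS (A ⊓ N) qA with hU₀
  set Up := lgS (cj x A ⊓ N) (qp.mono inf_le_left) with hUp
  set Um := lgS (cj x⁻¹ A ⊓ N) (qm.mono inf_le_left) with hUm
  have hK : β ∈ U₀ ⊔ Up ⊔ Um := by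
    refine lead_flowM_mem hξ (U := U₀) (K := U₀ ⊔ Up ⊔ Um) (le_sup_left.trans le_sup_left) ?_ ?_ hβ
    · intro μ hμ
      obtain ⟨h1, h2⟩ := bracket_mem hk hx hξ q0 qp qm hμ
      rw [bracket_eq1 hk]
      exact AddSubgroup.sub_mem _
        (AddSubgroup.nsmul_mem _ (AddSubgroup.mem_sup_left (AddSubgroup.mem_sup_right h1)) k)
        (AddSubgroup.nsmul_mem _ (AddSubgroup.mem_sup_right h2) k)
    · intro μ hμ
      obtain ⟨h1, h2⟩ := bracket_mem hk hx hξ q0 qp qm hμ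
      rw [bracket_eq2 hk]
      exact AddSubgroup.sub_mem _ (AddSubgroup.sub_mem _
        (AddSubgroup.mem_sup_left (AddSubgroup.mem_sup_left hμ))
        (AddSubgroup.nsmul_mem _ (AddSubgroup.mem_sup_left (AddSubgroup.mem_sup_right h1)) k))
        (AddSubgroup.nsmul_mem _ (AddSubgroup.mem_sup_right h2) k)
  obtain ⟨b', hb', c, hc, rfl⟩ := AddSubgroup.mem_sup.mp hK
  obtain ⟨a, ha, b, hb, rfl⟩ := AddSubgroup.mem_sup.mp hb'
  obtain ⟨g₀, ⟨h0, h0N⟩, h0ρ⟩ := ha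
  obtain ⟨g₁, ⟨h1, h1N⟩, h1ρ⟩ := hb
  obtain ⟨g₂, ⟨h2, h2N⟩, h2ρ⟩ := hc
  refine ⟨word k g₀ g₁ g₂, word_mem h0N h1N h2N,
    word_spec hT hk htwo h0 h1 h2 h0ρ h1ρ h2ρ hββ, word_mem ?_ ?_ ?_⟩
  · exact (le_sup_left.trans le_sup_left : A ≤ _) h0
  · exact (le_sup_right.trans le_sup_left : cj x A ≤ _) h1
  · exact (le_sup_right : cj x⁻¹ A ≤ _) h2

/-! ## The limit subgroup -/

theorem uM_C_uP (ξ a : R) : uM ξ * C a * uP ξ =
    C a - X * C (ξ * a - a * ξ) - X ^ 2 * C (ξ * a * ξ) := by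
  simp only [C_sub, C_mul]
  unfold uM uP
  have e3 : ∀ u v : R[X], X * u * (X * v) = X ^ 2 * (u * v) := by
    intro u v
    rw [pow_two, mul_assoc X u, ← mul_assoc u, ← commute_X' u]
    simp only [mul_assoc]
  have e2 : X * C ξ * C a * (X * C ξ) = X ^ 2 * (C ξ * C a * C ξ) := by
    rw [mul_assoc X (C ξ), e3]
  calc (1 - X * C ξ) * C a * (1 + X * C ξ)
      = C a + C a * (X * C ξ) - X * C ξ * C a - X * C ξ * C a * (X * C ξ) := by noncomm_ring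
    _ = _ := by
      rw [e2, ← mul_assoc (C a), ← X_mul_C a, mul_assoc X (C a)]
      noncomm_ring

theorem X_pow_C_mem {U : AddSubgroup R} {v : R} (hv : v ∈ U) (n : ℕ) :
    (X : R[X]) ^ n * C v ∈ inP U := by
  induction n with
  | zero => simpa using C_mem_inP hv
  | succ n ih =>
    rw [pow_succ', mul_assoc]
    exact X_mul_mem_inP ih

theorem Y_expand (p₀ p₁ p₂ q₀ q₁ q₂ μ : R) :
    (C p₀ + X * C p₁ + X ^ 2 * C p₂) * C μ * (C q₀ + X * C q₁ + X ^ 2 * C q₂) =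
      C (p₀ * μ * q₀) + X * C (p₁ * μ * q₀ + p₀ * μ * q₁) +
      X ^ 2 * C (p₁ * μ * q₁ + p₂ * μ * q₀ + p₀ * μ * q₂) +
      X ^ 3 * C (p₂ * μ * q₁ + p₁ * μ * q₂) + X ^ 4 * C (p₂ * μ * q₂) := by
  have key : ∀ (i j : ℕ) (a b : R), ((X : R[X]) ^ i * C a) * C μ * (X ^ j * C b) =
      X ^ (i + j) * C (a * μ * b) := by
    intro i j a b
    rw [C_mul, C_mul, pow_add]
    have e1 : ∀ u : R[X], u * X ^ j = X ^ j * u := fun u => (commute_X_pow u j).symm.eq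
    calc (X : R[X]) ^ i * C a * C μ * (X ^ j * C b)
        = X ^ i * (C a * C μ * X ^ j) * C b := by simp only [mul_assoc]
      _ = X ^ i * (X ^ j * (C a * C μ)) * C b := by rw [e1]
      _ = _ := by simp only [mul_assoc]
  have e0 : ∀ a : R, (C a : R[X]) = X ^ 0 * C a := fun a => by simp
  have e1 : ∀ a : R, (X : R[X]) * C a = X ^ 1 * C a := fun a => by simp
  calc (C p₀ + X * C p₁ + X ^ 2 * C p₂) * C μ * (C q₀ + X * C q₁ + X ^ 2 * C q₂)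
      = (X ^ 0 * C p₀ + X ^ 1 * C p₁ + X ^ 2 * C p₂) * C μ *
          (X ^ 0 * C q₀ + X ^ 1 * C q₁ + X ^ 2 * C q₂) := by
        rw [← e0, ← e0, ← e1, ← e1]
    _ = _ := by
      simp only [add_mul, mul_add, key]
      simp only [C_add, mul_add, Nat.reduceAdd, pow_zero, pow_one, one_mul]
      abel

section Main

variable [Finite Γ] [Finite R]

/-- The lead set of `A` is of square zero. -/
theorem leadF_sq {A : Subgroup Γ} (qA : IsQ ρ A) {ξ : R} (hξ : ξ * ξ = 0) :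
    ∀ a ∈ leadF ξ (lgS A qA), ∀ b ∈ leadF ξ (lgS A qA), a * b = 0 :=
  fun _ ha _ hb => leadF_mul hξ (fun _ hu _ hv => lgS_mul hu hv) ha hb

/-- The limit of the conjugates of `A` under the flow of `x`. -/
noncomputable def limS (A : Subgroup Γ) (qA : IsQ ρ A) {ξ : R} (hξ : ξ * ξ = 0) : Subgroup Γ :=
  starS ρ (leadF ξ (lgS A qA)) (leadF_sq qA hξ)

theorem isQ_limS {A : Subgroup Γ} (qA : IsQ ρ A) {ξ : R} (hξ : ξ * ξ = 0) :
    IsQ ρ (limS A qA hξ) := isQ_starS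

theorem card_inf_le (hρ : Function.Injective ρ) {A N : Subgroup Γ} [hN : N.Normal] {x : Γ} {ξ : R}
    {k : ℕ} (hk : ∀ c : R, k • c + k • c = c) (htwo : ∀ w : R, w + w = 0 → w = 0)
    (hx : ρ x = 1 + ξ) (hξ : ξ * ξ = 0)
    (hT : Tri (ρ := ρ) A (cj x A) (cj x⁻¹ A)) (qA : IsQ ρ A) :
    Nat.card (A ⊓ N : Subgroup Γ) ≤ Nat.card (limS A qA hξ ⊓ N : Subgroup Γ) := by
  classical
  have qN : IsQ ρ (A ⊓ N) := qA.mono inf_le_left
  have h1 : Nat.card (A ⊓ N : Subgroup Γ) = Nat.card (lgS (A ⊓ N) qN) := (card_lgS hρ _ _).symm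
  have hmono : leadF ξ (lgS (A ⊓ N) qN) ≤ leadF ξ (lgS A qA) :=
    leadF_mono (lgS_mono inf_le_left)
  have hex : ∀ β : leadF ξ (lgS (A ⊓ N) qN),
      ∃ w : (limS A qA hξ ⊓ N : Subgroup Γ), ρ w = 1 + (β : R) := by
    intro β
    have hβ := hmono β.2
    obtain ⟨w, hwN, hwρ, -⟩ := exists_lift hk htwo hx hξ hT qN β.2 (leadF_sq qA hξ _ hβ _ hβ)
    refine ⟨⟨w, ?_, hwN⟩, hwρ⟩
    show ρ w - 1 ∈ leadF ξ (lgS A qA)
    rw [hwρ, add_sub_cancel_left]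
    exact hβ
  choose f hf using hex
  have h2 : Nat.card (leadF ξ (lgS (A ⊓ N) qN)) ≤ Nat.card (limS A qA hξ ⊓ N : Subgroup Γ) := by
    refine Nat.card_le_card_of_injective f ?_
    intro a b hab
    apply Subtype.ext
    have h3 := hf a
    rw [hab, hf b] at h3
    exact (add_left_cancel h3).symm
  rw [h1]
  exact (card_le_leadF hξ _).trans h2

theorem limS_le (hρ : Function.Injective ρ) {A Q : Subgroup Γ} {x : Γ} {ξ : R}
    {k : ℕ} (hk : ∀ c : R, k • c + k • c = c) (htwo : ∀ w : R, w + w = 0 → w = 0)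
    (hx : ρ x = 1 + ξ) (hξ : ξ * ξ = 0)
    (hT : Tri (ρ := ρ) A (cj x A) (cj x⁻¹ A)) (qA : IsQ ρ A)
    (h0 : A ≤ Q) (h1 : cj x A ≤ Q) (h2 : cj x⁻¹ A ≤ Q) : limS A qA hξ ≤ Q := by
  intro g hg
  have hβ : ρ g - 1 ∈ leadF ξ (lgS A qA) := hg
  have qN : IsQ ρ (A ⊓ (⊤ : Subgroup Γ)) := qA.mono inf_le_left
  have hβ' : ρ g - 1 ∈ leadF ξ (lgS (A ⊓ (⊤ : Subgroup Γ)) qN) :=
    leadF_mono (lgS_mono (le_inf le_rfl le_top)) hβ
  obtain ⟨w, -, hwρ, hw⟩ := exists_lift hk htwo hx hξ hT qN hβ' (leadF_sq qA hξ _ hβ _ hβ)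
  have e : g = w := hρ (by rw [hwρ]; abel)
  rw [e]
  exact (sup_le (sup_le h0 h1) h2) hw

/-- Group elements normalising the five conjugates normalise the limit. -/
theorem conj_conj_mem {A : Subgroup Γ} (qA : IsQ ρ A) {g y : Γ} {η : R}
    (hy : ρ y = 1 + η) (hη : η * η = 0)
    (hg : ∀ b ∈ cj y A, g * b * g⁻¹ ∈ cj y A) {μ : R} (hμ : μ ∈ lgS A qA) :
    ((1 - η) * ρ g * (1 + η)) * μ * ((1 - η) * ρ g⁻¹ * (1 + η)) ∈ lgS A qA := by
  have hy' : ρ y⁻¹ = 1 - η := rho_inv_eq hy hη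
  obtain ⟨a, ha, haμ⟩ := hμ
  have h1 := hg _ (conj_mem_cj (y := y) ha)
  rw [mem_cj] at h1
  refine ⟨_, h1, ?_⟩
  have e : y⁻¹ * (g * (y * a * y⁻¹) * g⁻¹) * y =
      (y⁻¹ * g * y) * a * (y⁻¹ * g⁻¹ * y) := by group
  have e2 : ρ (y⁻¹ * g * y) * ρ (y⁻¹ * g⁻¹ * y) = 1 := by
    rw [← map_mul]
    have : y⁻¹ * g * y * (y⁻¹ * g⁻¹ * y) = 1 := by group
    rw [this, map_one]
  rw [e, map_mul, map_mul, haμ]
  have e3 : ρ (y⁻¹ * g * y) = (1 - η) * ρ g * (1 + η) := by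
    rw [map_mul, map_mul, hy, hy']
  have e4 : ρ (y⁻¹ * g⁻¹ * y) = (1 - η) * ρ g⁻¹ * (1 + η) := by
    rw [map_mul, map_mul, hy, hy']
  rw [← e3, ← e4]
  calc ρ (y⁻¹ * g * y) * (1 + μ) * ρ (y⁻¹ * g⁻¹ * y)
      = ρ (y⁻¹ * g * y) * ρ (y⁻¹ * g⁻¹ * y) +
        ρ (y⁻¹ * g * y) * μ * ρ (y⁻¹ * g⁻¹ * y) := by noncomm_ring
    _ = _ := by rw [e2]

theorem limS_normalized {A : Subgroup Γ} (qA : IsQ ρ A) {x : Γ} {ξ : R}
    (hx : ρ x = 1 + ξ) (hξ : ξ * ξ = 0) {p : ℕ} (hp : ∀ r : R, p • r = 0) (h24 : Nat.Coprime 24 p)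
    {g : Γ} (h0 : ∀ b ∈ A, g * b * g⁻¹ ∈ A)
    (h1 : ∀ b ∈ cj x A, g * b * g⁻¹ ∈ cj x A)
    (h2 : ∀ b ∈ cj x⁻¹ A, g * b * g⁻¹ ∈ cj x⁻¹ A)
    (h3 : ∀ b ∈ cj (x ^ 2) A, g * b * g⁻¹ ∈ cj (x ^ 2) A)
    (h4 : ∀ b ∈ cj (x ^ 2)⁻¹ A, g * b * g⁻¹ ∈ cj (x ^ 2)⁻¹ A) :
    ∀ h ∈ limS A qA hξ, g * h * g⁻¹ ∈ limS A qA hξ := by
  set G := ρ g with hG
  set G' := ρ g⁻¹ with hG'
  have hGG' : G * G' = 1 := by rw [hG, hG', ← map_mul, mul_inv_cancel, map_one]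
  have hG'G : G' * G = 1 := by rw [hG, hG', ← map_mul, inv_mul_cancel, map_one]
  set p₁ := G * ξ - ξ * G with hp₁
  set p₂ := -(ξ * G * ξ) with hp₂
  set q₁ := G' * ξ - ξ * G' with hq₁
  set q₂ := -(ξ * G' * ξ) with hq₂
  have hUH : ∀ μ ∈ lgS A qA, (uM ξ * C G * uP ξ) * C μ * (uM ξ * C G' * uP ξ) ∈ inP (lgS A qA) := by
    intro μ hμ
    -- values at the five points
    have t0 : G * μ * G' ∈ lgS A qA := by
      obtain ⟨a, ha, haμ⟩ := hμ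
      refine ⟨_, h0 a ha, ?_⟩
      rw [map_mul, map_mul, haμ]
      calc ρ g * (1 + μ) * ρ g⁻¹ = G * G' + G * μ * G' := by
            rw [← hG, ← hG']; noncomm_ring
        _ = _ := by rw [hGG']
    have tp := conj_conj_mem qA hx hξ h1 hμ
    have tm := conj_conj_mem (y := x⁻¹) (η := -ξ) qA
      (by rw [rho_inv_eq hx hξ]; abel) (by rw [neg_mul_neg, hξ]) h2 hμ
    have hx2 : ρ (x ^ 2) = 1 + (2 • ξ) := rho_pow_eq hx hξ 2
    have hx2sq : (2 • ξ) * (2 • ξ) = 0 := by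
      rw [smul_mul_smul_comm, hξ, smul_zero]
    have t2 := conj_conj_mem qA hx2 hx2sq h3 hμ
    have t3 := conj_conj_mem (y := (x ^ 2)⁻¹) (η := -(2 • ξ)) qA
      (by rw [rho_inv_eq hx2 hx2sq]; abel) (by rw [neg_mul_neg, hx2sq]) h4 hμ
    rw [← hG, ← hG'] at tp tm t2 t3
    set v0 := G * μ * G' with hv0
    set v1 := p₁ * μ * G' + G * μ * q₁ with hv1
    set v2 := p₁ * μ * q₁ + p₂ * μ * G' + G * μ * q₂ with hv2
    set v3 := p₂ * μ * q₁ + p₁ * μ * q₂ with hv3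
    set v4 := p₂ * μ * q₂ with hv4
    have Ep : ∀ H : R, (1 - ξ) * H * (1 + ξ) = H + (H * ξ - ξ * H) + -(ξ * H * ξ) := by
      intro H; noncomm_ring
    have Em : ∀ H : R, (1 - -ξ) * H * (1 + -ξ) = H - (H * ξ - ξ * H) + -(ξ * H * ξ) := by
      intro H; noncomm_ring
    have E2 : ∀ H : R, (1 - 2 • ξ) * H * (1 + 2 • ξ) =
        H + 2 • (H * ξ - ξ * H) + 4 • -(ξ * H * ξ) := by
      intro H; noncomm_ring
    have E3 : ∀ H : R, (1 - -(2 • ξ)) * H * (1 + -(2 • ξ)) =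
        H - 2 • (H * ξ - ξ * H) + 4 • -(ξ * H * ξ) := by
      intro H; noncomm_ring
    rw [Ep, Ep, ← hp₁, ← hp₂, ← hq₁, ← hq₂] at tp
    rw [Em, Em, ← hp₁, ← hp₂, ← hq₁, ← hq₂] at tm
    rw [E2, E2, ← hp₁, ← hp₂, ← hq₁, ← hq₂] at t2
    rw [E3, E3, ← hp₁, ← hp₂, ← hq₁, ← hq₂] at t3
    have f1 : v0 + v1 + v2 + v3 + v4 ∈ lgS A qA := by
      have e : v0 + v1 + v2 + v3 + v4 = (G + p₁ + p₂) * μ * (G' + q₁ + q₂) := by
        rw [hv0, hv1, hv2, hv3, hv4]; noncomm_ring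
      rw [e]; exact tp
    have f2 : v0 - v1 + v2 - v3 + v4 ∈ lgS A qA := by
      have e : v0 - v1 + v2 - v3 + v4 = (G - p₁ + p₂) * μ * (G' - q₁ + q₂) := by
        rw [hv0, hv1, hv2, hv3, hv4]; noncomm_ring
      rw [e]; exact tm
    have f3 : v0 + 2 • v1 + 4 • v2 + 8 • v3 + 16 • v4 ∈ lgS A qA := by
      have e : v0 + 2 • v1 + 4 • v2 + 8 • v3 + 16 • v4 =
          (G + 2 • p₁ + 4 • p₂) * μ * (G' + 2 • q₁ + 4 • q₂) := by
        rw [hv0, hv1, hv2, hv3, hv4]; noncomm_ring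
      rw [e]; exact t2
    have f4 : v0 - 2 • v1 + 4 • v2 - 8 • v3 + 16 • v4 ∈ lgS A qA := by
      have e : v0 - 2 • v1 + 4 • v2 - 8 • v3 + 16 • v4 =
          (G - 2 • p₁ + 4 • p₂) * μ * (G' - 2 • q₁ + 4 • q₂) := by
        rw [hv0, hv1, hv2, hv3, hv4]; noncomm_ring
      rw [e]; exact t3
    obtain ⟨m1, m2, m3, m4⟩ := five_point hp h24 v0 v1 v2 v3 v4 t0 f1 f2 f3 f4
    have eY : ∀ H : R, uM ξ * C H * uP ξ = C H + X * C (H * ξ - ξ * H) + X ^ 2 * C (-(ξ * H * ξ)) := by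
      intro H
      rw [uM_C_uP, C_neg, C_sub, C_sub]
      noncomm_ring
    rw [eY, eY, ← hp₁, ← hp₂, ← hq₁, ← hq₂, Y_expand]
    exact (inP _).add_mem ((inP _).add_mem ((inP _).add_mem ((inP _).add_mem (C_mem_inP t0)
      (by have h6 := X_pow_C_mem m1 1; rwa [pow_one] at h6)) (X_pow_C_mem m2 2)) (X_pow_C_mem m3 3)) (X_pow_C_mem m4 4)
  intro h hh
  have hβ : ρ h - 1 ∈ leadF ξ (lgS A qA) := hh
  have h5 := leadF_conj hξ hGG' hG'G hUH hβ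
  show ρ (g * h * g⁻¹) - 1 ∈ leadF ξ (lgS A qA)
  have e : ρ (g * h * g⁻¹) - 1 = G * (ρ h - 1) * G' := by
    rw [map_mul, map_mul, ← hG, ← hG']
    calc G * ρ h * G' - 1 = G * ρ h * G' - G * G' := by rw [hGG']
      _ = _ := by noncomm_ring
  rw [e]
  exact h5

/-! ## Strict growth at one level -/

theorem word_map {Γ' : Type*} [Group Γ'] (π : Γ →* Γ') (k : ℕ) (g₀ g₁ g₂ : Γ) :
    π (word k g₀ g₁ g₂) = word k (π g₀) (π g₁) (π g₂) := by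
  unfold word
  simp only [map_mul, map_inv, map_pow]

theorem word_comm {Γ' : Type*} [Group Γ'] (k : ℕ) {u v w : Γ'} (huv : Commute u v) (huw : Commute u w)
    (hvw : Commute v w) : word k u v w = u * v * w := by
  unfold word
  have e : ∀ a b : Γ', Commute a b → (a * b * a⁻¹ * b⁻¹) ^ k = 1 := by
    intro a b hab
    have : a * b * a⁻¹ * b⁻¹ = 1 := by
      rw [hab.eq]; group
    rw [this, one_pow]
  rw [e _ _ huv, e _ _ huw, e _ _ hvw]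
  simp

/-- Membership in a normal subgroup for a word whose letters are powers of a central element modulo
the subgroup. -/
theorem word_mem_of_central {N : Subgroup Γ} [hN : N.Normal] {k : ℕ} {g₀ g₁ g₂ a : Γ} {e₀ e₁ e₂ : ℤ}
    (h0 : ∃ z ∈ N, g₀ = a ^ e₀ * z) (h1 : ∃ z ∈ N, g₁ = a ^ e₁ * z) (h2 : ∃ z ∈ N, g₂ = a ^ e₂ * z)
    (hs : a ^ (e₀ + e₁ + e₂) ∈ N) : word k g₀ g₁ g₂ ∈ N := by
  rw [← QuotientGroup.eq_one_iff]
  let π : Γ →* Γ ⧸ N := QuotientGroup.mk' N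
  have hπ : ∀ z ∈ N, π z = 1 := fun z hz => (QuotientGroup.eq_one_iff z).mpr hz
  have e : ∀ (g : Γ) (e' : ℤ), (∃ z ∈ N, g = a ^ e' * z) → π g = π a ^ e' := by
    rintro g e' ⟨z, hz, rfl⟩
    rw [map_mul, hπ z hz, mul_one, map_zpow]
  show π (word k g₀ g₁ g₂) = 1
  rw [word_map, e _ _ h0, e _ _ h1, e _ _ h2, word_comm]
  · rw [← zpow_add, ← zpow_add, ← map_zpow]
    exact hπ _ hs
  · exact (Commute.refl _).zpow_zpow _ _
  · exact (Commute.refl _).zpow_zpow _ _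
  · exact (Commute.refl _).zpow_zpow _ _

/-- The strict growth: a normal subgroup `N` modulo which `a ∈ A` is central, with `x` normalising
`A ⊓ N` but not sending `a` into `A`. -/
theorem card_inf_lt (hρ : Function.Injective ρ) {A N : Subgroup Γ} [hN : N.Normal] {x a : Γ} {ξ : R}
    {k p : ℕ} (hk : ∀ c : R, k • c + k • c = c) (htwo : ∀ w : R, w + w = 0 → w = 0)
    (hk2 : 2 * k = p + 1)
    (hx : ρ x = 1 + ξ) (hξ : ξ * ξ = 0)
    (hT : Tri (ρ := ρ) A (cj x A) (cj x⁻¹ A)) (qA : IsQ ρ A)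
    (hap : a ^ p = 1) (ha : a ∈ A) (hcen : ∀ y : Γ, a⁻¹ * (y * a * y⁻¹) ∈ N)
    (hfix : ∀ b ∈ A ⊓ N, x * b * x⁻¹ ∈ A) (hfix' : ∀ b ∈ A ⊓ N, x⁻¹ * b * x ∈ A)
    (hnot : x * a * x⁻¹ ∉ A) :
    Nat.card (A ⊓ N : Subgroup Γ) < Nat.card (limS A qA hξ ⊓ N : Subgroup Γ) := by
  have qN : IsQ ρ (A ⊓ N) := qA.mono inf_le_left
  have hxi : ρ x⁻¹ = 1 - ξ := rho_inv_eq hx hξ
  set U := lgS (A ⊓ N) qN with hU
  set V := lgS A qA with hV
  have hUV : U ≤ V := lgS_mono inf_le_left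
  -- stability of `U`
  have hstab : ∀ μ ∈ U, ξ * μ - μ * ξ ∈ U ∧ ξ * μ * ξ ∈ U := by
    rintro μ ⟨b, hb, hbμ⟩
    have m1 : (1 + ξ) * μ * (1 - ξ) ∈ U := by
      refine ⟨x * b * x⁻¹, ⟨hfix b hb, hN.conj_mem _ hb.2 _⟩, ?_⟩
      rw [map_mul, map_mul, hx, hxi, hbμ]
      have e1 : (1 + ξ) * (1 - ξ) = 1 := by
        rw [← hx, ← hxi, ← map_mul, mul_inv_cancel, map_one]
      calc (1 + ξ) * (1 + μ) * (1 - ξ) = (1 + ξ) * (1 - ξ) + (1 + ξ) * μ * (1 - ξ) := by noncomm_ring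
        _ = _ := by rw [e1]
    have m2 : (1 - ξ) * μ * (1 + ξ) ∈ U := by
      refine ⟨x⁻¹ * b * x, ⟨hfix' b hb, by simpa using hN.conj_mem _ hb.2 x⁻¹⟩, ?_⟩
      rw [map_mul, map_mul, hx, hxi, hbμ]
      have e1 : (1 - ξ) * (1 + ξ) = 1 := by
        rw [← hx, ← hxi, ← map_mul, inv_mul_cancel, map_one]
      calc (1 - ξ) * (1 + μ) * (1 + ξ) = (1 - ξ) * (1 + ξ) + (1 - ξ) * μ * (1 + ξ) := by noncomm_ring
        _ = _ := by rw [e1]
    have hμU : μ ∈ U := ⟨b, hb, hbμ⟩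
    refine ⟨?_, ?_⟩
    · rw [bracket_eq1 hk]
      exact U.sub_mem (U.nsmul_mem m1 k) (U.nsmul_mem m2 k)
    · rw [bracket_eq2 hk]
      exact U.sub_mem (U.sub_mem hμU (U.nsmul_mem m1 k)) (U.nsmul_mem m2 k)
  have hU_in : ∀ μ ∈ U, (C μ : R[X]) ∈ flowM ξ U := by
    intro μ hμ
    rw [mem_flowM, uM_C_uP]
    obtain ⟨s1, s2⟩ := hstab μ hμ
    refine (inP U).sub_mem ((inP U).sub_mem (C_mem_inP hμ) ?_) (X_pow_C_mem s2 2)
    have h6 := X_pow_C_mem s1 1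
    rwa [pow_one] at h6
  have hflow_mono : flowM ξ U ≤ flowM ξ V := fun g hg n => hUV (hg n)
  -- `A ⊓ N` lies in the limit
  have hle : A ⊓ N ≤ limS A qA hξ ⊓ N := by
    intro b hb
    refine ⟨?_, hb.2⟩
    show ρ b - 1 ∈ leadF ξ V
    have hμ : ρ b - 1 ∈ U := sub_one_mem_lgS hb
    exact ⟨C (ρ b - 1), hflow_mono (hU_in _ hμ), leadingCoeff_C _⟩
  -- data of `a`
  set α := ρ a - 1 with hα
  have haα : ρ a = 1 + α := by rw [hα]; abel
  have hαV : α ∈ V := sub_one_mem_lgS ha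
  have hαα : α * α = 0 := lgS_mul hαV hαV
  set D₁ := ξ * α - α * ξ with hD₁
  set D₂ := ξ * α * ξ with hD₂
  set αp := (1 + ξ) * α * (1 - ξ) with hαp
  set αm := (1 - ξ) * α * (1 + ξ) with hαm
  have hαp_eq : αp = α + D₁ - D₂ := by rw [hαp, hD₁, hD₂]; noncomm_ring
  have hαm_eq : αm = α - D₁ - D₂ := by rw [hαm, hD₁, hD₂]; noncomm_ring
  have hρp : ρ (x * a * x⁻¹) = 1 + αp := by
    rw [map_mul, map_mul, hx, hxi, haα]
    have e1 : (1 + ξ) * (1 - ξ) = 1 := by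
      rw [← hx, ← hxi, ← map_mul, mul_inv_cancel, map_one]
    calc (1 + ξ) * (1 + α) * (1 - ξ) = (1 + ξ) * (1 - ξ) + (1 + ξ) * α * (1 - ξ) := by noncomm_ring
      _ = _ := by rw [e1]
  have hρm : ρ (x⁻¹ * a * x) = 1 + αm := by
    rw [map_mul, map_mul, hx, hxi, haα]
    have e1 : (1 - ξ) * (1 + ξ) = 1 := by
      rw [← hx, ← hxi, ← map_mul, inv_mul_cancel, map_one]
    calc (1 - ξ) * (1 + α) * (1 + ξ) = (1 - ξ) * (1 + ξ) + (1 - ξ) * α * (1 + ξ) := by noncomm_ring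
      _ = _ := by rw [e1]
  -- letters
  have qp := hT.h01.qY
  have qm := hT.h02.qY
  have hαpV : αp * αp = 0 := by
    refine lgS_mul (hX := qp) ?_ ?_ <;> exact ⟨_, conj_mem_cj ha, hρp⟩
  have hαmV : αm * αm = 0 := by
    refine lgS_mul (hX := qm) (X := cj x⁻¹ A) ?_ ?_ <;>
      exact ⟨x⁻¹ * a * x, by simpa using conj_mem_cj (y := x⁻¹) ha, hρm⟩
  have hm0 : a⁻¹ ∈ A := A.inv_mem ha
  have hm1 : (x * a * x⁻¹) ^ k ∈ cj x A := Subgroup.pow_mem _ (conj_mem_cj ha) k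
  have hm2 : (x⁻¹ * a * x) ^ k ∈ cj x⁻¹ A :=
    Subgroup.pow_mem _ (by simpa using conj_mem_cj (y := x⁻¹) ha) k
  have hr0 : ρ a⁻¹ = 1 + (-α) := by rw [rho_inv_eq haα hαα]; abel
  have hr1 : ρ ((x * a * x⁻¹) ^ k) = 1 + k • αp := rho_pow_eq hρp hαpV k
  have hr2 : ρ ((x⁻¹ * a * x) ^ k) = 1 + k • αm := rho_pow_eq hρm hαmV k
  have hαp' : k • αp + k • αm = α - D₂ := by
    rw [← nsmul_add]
    have : αp + αm = (α - D₂) + (α - D₂) := by rw [hαp_eq, hαm_eq]; abel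
    rw [this, nsmul_add]
    exact hk _
  have hαp'' : k • αp - k • αm = D₁ := by
    have : αp = αm + (D₁ + D₁) := by rw [hαp_eq, hαm_eq]; abel
    rw [this, nsmul_add, nsmul_add, add_sub_cancel_left]
    exact hk _
  have hN1 : ∃ z ∈ N, x * a * x⁻¹ = a * z := ⟨a⁻¹ * (x * a * x⁻¹), hcen x, by group⟩
  have hN2 : ∃ z ∈ N, x⁻¹ * a * x = a * z :=
    ⟨a⁻¹ * (x⁻¹ * a * x), by simpa using hcen x⁻¹, by group⟩
  have hpowmod : ∀ (g : Γ) (e : ℕ), (∃ z ∈ N, g = a * z) → ∃ z ∈ N, g ^ e = a ^ (e : ℤ) * z := by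
    rintro g e ⟨z, hz, rfl⟩
    rw [← QuotientGroup.eq_one_iff] at hz
    refine ⟨(a ^ (e : ℤ))⁻¹ * (a * z) ^ e, ?_, by group⟩
    rw [← QuotientGroup.eq_one_iff]
    have h1 : ((a ^ (e : ℤ))⁻¹ * (a * z) ^ e : Γ) = (a ^ (e : ℤ))⁻¹ * (a * z) ^ e := rfl
    let π : Γ →* Γ ⧸ N := QuotientGroup.mk' N
    show π ((a ^ (e : ℤ))⁻¹ * (a * z) ^ e) = 1
    have hz' : π z = 1 := hz
    simp only [map_mul, map_inv, map_pow, map_zpow, hz', mul_one]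
    simp
  have hsN : ∀ e : ℤ, (p : ℤ) ∣ e → a ^ e ∈ N := by
    rintro e ⟨m, rfl⟩
    rw [zpow_mul, zpow_natCast, hap, one_zpow]
    exact N.one_mem
  -- the new element
  have hword1 : word k a⁻¹ ((x * a * x⁻¹) ^ k) ((x⁻¹ * a * x) ^ k) ∈ N := by
    refine word_mem_of_central (a := a) (e₀ := -1) (e₁ := (k : ℤ)) (e₂ := (k : ℤ))
      ⟨1, N.one_mem, by simp⟩ (hpowmod _ _ hN1) (hpowmod _ _ hN2) (hsN _ ?_)
    refine ⟨1, ?_⟩
    have : (2 * k : ℤ) = p + 1 := by exact_mod_cast hk2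
    linarith
  have hword2 : word k 1 ((x * a * x⁻¹) ^ k) ((x⁻¹ * a * x) ^ k)⁻¹ ∈ N := by
    refine word_mem_of_central (a := a) (e₀ := 0) (e₁ := (k : ℤ)) (e₂ := -(k : ℤ))
      ⟨1, N.one_mem, by simp⟩ (hpowmod _ _ hN1) ?_ (hsN _ ?_)
    · obtain ⟨z, hz, hz2⟩ := hpowmod _ k hN2
      refine ⟨(a ^ (-(k : ℤ)))⁻¹ * ((x⁻¹ * a * x) ^ k)⁻¹, ?_, by group⟩
      rw [hz2]
      have e : (a ^ (-(k : ℤ)))⁻¹ * (a ^ (k : ℤ) * z)⁻¹ = a ^ (k : ℤ) * z⁻¹ * (a ^ (k : ℤ))⁻¹ := by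
        group
      rw [e]
      exact hN.conj_mem _ (N.inv_mem hz) _
    · exact ⟨0, by simp⟩
  -- the limit contains an element outside `A`
  obtain ⟨w, hwN, hwlim, hwA⟩ : ∃ w, w ∈ N ∧ w ∈ limS A qA hξ ∧ w ∉ A := by
    by_cases hD : D₂ ∈ V
    · -- second case: the bracket is new
      have hD₁V : D₁ ∉ V := by
        intro hD₁V
        apply hnot
        have h7 : αp ∈ V := by
          rw [hαp_eq]
          exact V.sub_mem (V.add_mem hαV hD₁V) hD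
        obtain ⟨b, hb, hbρ⟩ := h7
        have : b = x * a * x⁻¹ := hρ (by rw [hbρ, hρp])
        rwa [← this]
      -- `- D₂` lies in `U`
      have hD₂sq : (-D₂) * (-D₂) = 0 := by
        rw [neg_mul_neg, hD₂]
        calc ξ * α * ξ * (ξ * α * ξ) = ξ * α * (ξ * ξ) * α * ξ := by noncomm_ring
          _ = 0 := by rw [hξ]; simp
      have hw1 : ρ (word k a⁻¹ ((x * a * x⁻¹) ^ k) ((x⁻¹ * a * x) ^ k)) = 1 + (-D₂) := by
        have hsum : -α + k • αp + k • αm = -D₂ := by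
          rw [add_assoc, hαp']; abel
        rw [word_spec hT hk htwo hm0 hm1 hm2 hr0 hr1 hr2 (by rw [hsum]; exact hD₂sq), hsum]
      have hmU : -D₂ ∈ U := by
        obtain ⟨b, hb, hbρ⟩ := V.neg_mem hD
        have : b = word k a⁻¹ ((x * a * x⁻¹) ^ k) ((x⁻¹ * a * x) ^ k) := hρ (by rw [hbρ, hw1])
        exact ⟨b, ⟨hb, this ▸ hword1⟩, hbρ⟩
      -- the polynomial of degree one
      have hf : C α + X * C D₁ ∈ flowM ξ V := by
        have h8 : C α + X * C D₁ - X ^ 2 * C D₂ ∈ flowM ξ V := by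
          rw [mem_flowM]
          have e : uM ξ * (C α + X * C D₁ - X ^ 2 * C D₂) * uP ξ = C α + X * 0 := by
            have e' : C α + X * C D₁ - X ^ 2 * C D₂ = conjT ξ (C α) := by
              rw [conjT_eq, ← C_mul, ← C_mul, ← C_mul, ← C_sub]
            rw [e', conjT_apply]
            have e2 : uM ξ * (uP ξ * C α * uM ξ) * uP ξ = (uM ξ * uP ξ) * C α * (uM ξ * uP ξ) := by
              noncomm_ring
            rw [e2, uM_mul_uP hξ]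
            simp
          rw [e, mul_zero, add_zero]
          exact C_mem_inP hαV
        have h9 : (X : R[X]) ^ 2 * C (-D₂) ∈ flowM ξ V := by
          have h10 := hflow_mono (hU_in _ hmU)
          rw [pow_two, mul_assoc]
          exact flowM_X _ (flowM_X _ h10)
        have e : C α + X * C D₁ = (C α + X * C D₁ - X ^ 2 * C D₂) - X ^ 2 * C (-D₂) := by
          rw [C_neg]; noncomm_ring
        rw [e]
        exact (flowM ξ V).sub_mem h8 h9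
      have hlead : D₁ ∈ leadF ξ V := by
        have h11 := coeff_mem_leadS (d := 1) hf (hM := flowM_X) (by
          intro m hm
          obtain ⟨n, rfl⟩ : ∃ n, m = n + 2 := ⟨m - 2, by omega⟩
          rw [coeff_add, coeff_C, if_neg (by omega), coeff_X_mul, coeff_C, if_neg (by omega), add_zero])
        have h12 : (C α + X * C D₁ : R[X]).coeff 1 = D₁ := by
          rw [coeff_add, coeff_C, if_neg (by omega)]
          have := coeff_X_mul (C D₁) 0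
          rw [zero_add] at this
          rw [this, coeff_C_zero, zero_add]
        rwa [h12] at h11
      have hsq : D₁ * D₁ = 0 := leadF_sq qA hξ _ hlead _ hlead
      refine ⟨word k 1 ((x * a * x⁻¹) ^ k) ((x⁻¹ * a * x) ^ k)⁻¹, hword2, ?_, ?_⟩
      all_goals
        have hsum : (0 : R) + k • αp + -(k • αm) = D₁ := by
          rw [zero_add, ← sub_eq_add_neg, hαp'']
        have hr2' : ρ ((x⁻¹ * a * x) ^ k)⁻¹ = 1 + -(k • αm) := by
          rw [rho_inv_eq hr2 (by rw [smul_mul_smul_comm, hαmV, smul_zero])]; abel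
        have hw2 : ρ (word k 1 ((x * a * x⁻¹) ^ k) ((x⁻¹ * a * x) ^ k)⁻¹) = 1 + D₁ := by
          rw [word_spec hT hk htwo (A.one_mem) hm1 (Subgroup.inv_mem _ hm2) (show ρ 1 = 1 + (0 : R) by simp) hr1 hr2'
            (by rw [hsum]; exact hsq), hsum]
      · show ρ _ - 1 ∈ leadF ξ V
        rw [hw2, add_sub_cancel_left]
        exact hlead
      · intro h13
        apply hD₁V
        exact ⟨_, h13, hw2⟩
    · -- first case: the second difference is new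
      have hlead : -D₂ ∈ leadF ξ V := by
        have hf := conjT_mem hξ (C_mem_inP (U := V) hαV)
        have h11 := coeff_mem_leadS (d := 2) hf (hM := flowM_X) (by
          intro m hm
          exact conjT_deg ξ _ 1 (by
            intro n hn
            rw [coeff_C, if_neg (by omega)]) m (by omega))
        have h12 : (conjT ξ (C α)).coeff 2 = -D₂ := by
          have := conjT_coeff_add_two ξ (C α) 0
          rw [zero_add, zero_add] at this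
          rw [this, coeff_C, if_neg (by omega), coeff_C, if_neg (by omega), coeff_C_zero]
          simp [hD₂]
        rwa [h12] at h11
      have hD₂sq : (-D₂) * (-D₂) = 0 := leadF_sq qA hξ _ hlead _ hlead
      refine ⟨word k a⁻¹ ((x * a * x⁻¹) ^ k) ((x⁻¹ * a * x) ^ k), hword1, ?_, ?_⟩
      all_goals
        have hsum : -α + k • αp + k • αm = -D₂ := by
          rw [add_assoc, hαp']; abel
        have hw1 : ρ (word k a⁻¹ ((x * a * x⁻¹) ^ k) ((x⁻¹ * a * x) ^ k)) = 1 + (-D₂) := by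
          rw [word_spec hT hk htwo hm0 hm1 hm2 hr0 hr1 hr2 (by rw [hsum]; exact hD₂sq), hsum]
      · show ρ _ - 1 ∈ leadF ξ V
        rw [hw1, add_sub_cancel_left]
        exact hlead
      · intro h13
        apply hD
        have h14 : -D₂ ∈ V := ⟨_, h13, hw1⟩
        simpa using V.neg_mem h14
  -- conclusion
  refine lt_of_le_of_ne (Subgroup.card_le_of_le hle) ?_
  intro hcard
  have heq := Subgroup.eq_of_le_of_card_ge hle hcard.ge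
  have : w ∈ A ⊓ N := heq ▸ (⟨hwlim, hwN⟩ : w ∈ limS A qA hξ ⊓ N)
  exact hwA this.1

end Main

end Flow

end Cfsg.Agent.Lib.QuadFlow
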