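import Mathlib
import Cfsg.Agent.Lib.QuadFlowR
import Cfsg.Agent.Lib.FFMod

/-!
# A best quadratic subgroup normalised by all quadratic elements (`p ≥ 5`).
-/

set_option autoImplicit false
set_option linter.unusedSectionVars false
set_option linter.style.haveILetI false

namespace Cfsg.Agent.Lib.QuadFlow

open Polynomial Cfsg.Agent.Lib.FFMod
open scoped commutatorElement

section Fix

variable {p : ℕ} [hp : Fact p.Prime] {Γ : Type*} [Group Γ] {E : Type*} [AddCommGroup E]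
  [Module (ZMod p) E] [Finite E] {ρ : Γ →* Module.End (ZMod p) E}

theorem finite_end : Finite (Module.End (ZMod p) E) :=
  Finite.of_injective (fun f => (f : E → E)) DFunLike.coe_injective

attribute [local instance] finite_end

variable [Nontrivial E]

theorem card_fix_le [Finite Γ] {A : Subgroup Γ} (qA : IsQ ρ A) {ξ : Module.End (ZMod p) E}
    (hξ : ξ * ξ = 0) : Nat.card (fixS ρ A) ≤ Nat.card (fixS ρ (limS A qA hξ)) := by
  classical
  haveI : Finite (Module.End (ZMod p) E) := finite_end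
  obtain ⟨v₀, hv₀⟩ := exists_ne (0 : E)
  obtain ⟨φ, hφ⟩ : ∃ φ : Module.Dual (ZMod p) E, φ v₀ ≠ 0 := by
    by_contra h
    push Not at h
    exact hv₀ ((Module.forall_dual_apply_eq_zero_iff (ZMod p) v₀).mp h)
  let tens : E →+ Module.End (ZMod p) E :=
    { toFun := fun w => LinearMap.smulRight φ w
      map_zero' := by ext u; simp
      map_add' := by intro a b; ext u; simp }
  have htens : ∀ w u, tens w u = φ u • w := fun _ _ => rfl
  have hmul : ∀ (a : Module.End (ZMod p) E) w, a * tens w = tens (a w) := by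
    intro a w
    ext u
    rw [Module.End.mul_apply, htens, htens, map_smul]
  have hinj : Function.Injective tens := by
    intro a b hab
    have h1 := congrArg (fun f => f v₀) hab
    simp only [htens] at h1
    exact smul_right_injective E hφ h1
  set W : AddSubgroup (Module.End (ZMod p) E) :=
    AddSubgroup.map tens (fixS ρ A).toAddSubgroup with hW
  have hWr : W ≤ tens.range := by
    rintro _ ⟨v, _, rfl⟩
    exact ⟨v, rfl⟩
  have h1 : Nat.card (fixS ρ A) ≤ Nat.card W := by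
    refine Nat.card_le_card_of_injective
      (fun v => (⟨tens v, ⟨v, v.2, rfl⟩⟩ : W)) ?_
    intro a b hab
    exact Subtype.ext (hinj (congrArg Subtype.val hab))
  have h2 := card_le_leadL hξ W
  have horth : ∀ a ∈ lgS A qA, ∀ b ∈ W, a * b = 0 := by
    rintro a ⟨x, hx, hxa⟩ _ ⟨v, hv, rfl⟩
    rw [hmul]
    have h3 : a v = 0 := by
      have h4 : ρ x v = v := hv x hx
      rw [hxa] at h4
      simpa using h4
    rw [h3, map_zero]
  have hcoef : ∀ g ∈ flowL ξ W, ∀ n, g.coeff n ∈ tens.range := by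
    intro g hg n
    have hf := mem_flowL.mp hg
    have e : g = leftT ξ (uM ξ * g) := eq_leftT hξ g
    rw [e]
    cases n with
    | zero =>
      rw [leftT_coeff_zero]
      exact hWr (hf 0)
    | succ n =>
      rw [leftT_coeff_succ]
      refine tens.range.add_mem (hWr (hf _)) ?_
      obtain ⟨w, hw⟩ := hWr (hf n)
      rw [← hw, hmul]
      exact ⟨_, rfl⟩
  have hlead : ∀ r : leadL ξ W, ∃ w : fixS ρ (limS A qA hξ), tens w = r := by
    rintro ⟨r, g, hg, hgr⟩
    obtain ⟨w, hw⟩ := hcoef g hg g.natDegree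
    have hw' : tens w = r := by rw [hw, ← hgr]; rfl
    have hr : r ∈ leadL ξ W := ⟨g, hg, hgr⟩
    refine ⟨⟨w, ?_⟩, hw'⟩
    intro g' hg'
    have hβ : ρ g' - 1 ∈ leadF ξ (lgS A qA) := hg'
    have h5 := leadF_mul_leadL hξ horth hβ hr
    rw [← hw', hmul] at h5
    have h6 : (ρ g' - 1) w = 0 := by
      rw [← map_zero tens] at h5
      exact hinj h5
    have h7 : ρ g' w - w = 0 := by simpa using h6
    exact sub_eq_zero.mp h7
  choose f hf using hlead
  have h3 : Nat.card (leadL ξ W) ≤ Nat.card (fixS ρ (limS A qA hξ)) := by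
    refine Nat.card_le_card_of_injective f ?_
    intro a b hab
    apply Subtype.ext
    rw [← hf a, ← hf b, hab]
  exact h1.trans (h2.trans h3)

omit [Nontrivial E] in
theorem card_fix_cj (X : Subgroup Γ) (y : Γ) : Nat.card (fixS ρ (cj y X)) = Nat.card (fixS ρ X) := by
  have e1 : ρ y * ρ y⁻¹ = 1 := by rw [← map_mul, mul_inv_cancel, map_one]
  have e2 : ρ y⁻¹ * ρ y = 1 := by rw [← map_mul, inv_mul_cancel, map_one]
  have hf : ∀ v ∈ fixS ρ X, ρ y v ∈ fixS ρ (cj y X) := by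
    intro v hv b hb
    have h1 := hv _ hb
    rw [map_mul, map_mul, Module.End.mul_apply, Module.End.mul_apply] at h1
    have h2 := congrArg (ρ y) h1
    rw [← Module.End.mul_apply (ρ y), e1, Module.End.one_apply] at h2
    exact h2
  have hg : ∀ v ∈ fixS ρ (cj y X), ρ y⁻¹ v ∈ fixS ρ X := by
    intro v hv b hb
    have h1 := hv (y * b * y⁻¹) (conj_mem_cj hb)
    rw [map_mul, map_mul, Module.End.mul_apply, Module.End.mul_apply] at h1
    have h2 := congrArg (ρ y⁻¹) h1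
    rw [← Module.End.mul_apply (ρ y⁻¹), e2, Module.End.one_apply] at h2
    exact h2
  refine Nat.card_congr
    ⟨fun v => ⟨ρ y⁻¹ v, hg _ v.2⟩, fun v => ⟨ρ y v, hf _ v.2⟩, ?_, ?_⟩
  · rintro ⟨v, hv⟩
    apply Subtype.ext
    show ρ y (ρ y⁻¹ v) = v
    rw [← Module.End.mul_apply, e1, Module.End.one_apply]
  · rintro ⟨v, hv⟩
    apply Subtype.ext
    show ρ y⁻¹ (ρ y v) = v
    rw [← Module.End.mul_apply, e2, Module.End.one_apply]

omit [Nontrivial E] in
theorem fF_cj (X : Subgroup Γ) (y : Γ) : fF ρ (cj y X) = fF ρ X := by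
  unfold fF
  rw [card_cj, card_fix_cj]

end Fix

section Top

attribute [local instance] finite_end

variable {p : ℕ} [hp : Fact p.Prime] {Γ : Type*} [Group Γ] [Finite Γ] {E : Type*} [AddCommGroup E]
  [Module (ZMod p) E] [Finite E] [Nontrivial E] {ρ : Γ →* Module.End (ZMod p) E}

/-- Best nontrivial quadratic subgroups of `S`. -/
structure Best (ρ : Γ →* Module.End (ZMod p) E) (S X : Subgroup Γ) : Prop where
  le : X ≤ S
  ne : X ≠ ⊥
  q : IsQ ρ X
  max : ∀ Y ≤ S, Y ≠ ⊥ → IsQ ρ Y → fF ρ Y ≤ fF ρ X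

theorem exists_best (S : Subgroup Γ) (h : ∃ X ≤ S, X ≠ ⊥ ∧ IsQ ρ X) : ∃ X, Best ρ S X := by
  obtain ⟨X₀, h1, h2, h3⟩ := h
  obtain ⟨X, hX, hmax⟩ := Set.exists_max_image {X : Subgroup Γ | X ≤ S ∧ X ≠ ⊥ ∧ IsQ ρ X}
    (fF ρ) (Set.toFinite _) ⟨X₀, h1, h2, h3⟩
  exact ⟨X, hX.1, hX.2.1, hX.2.2, fun Y hY hY' hY'' => hmax Y ⟨hY, hY', hY''⟩⟩

/-- A proper subgroup of a `p`-subgroup lies in a proper subgroup normal in it. -/
theorem exists_normal_between (hΓ : IsPGroup p Γ) {A S : Subgroup Γ} (hAS : A ≤ S) (hne : A ≠ S) :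
    ∃ Q : Subgroup Γ, A ≤ Q ∧ Q ≤ S ∧ Q ≠ S ∧ ∀ s ∈ S, ∀ q ∈ Q, s * q * s⁻¹ ∈ Q := by
  classical
  obtain ⟨Q, hQ, hmax⟩ := Set.exists_max_image {Q : Subgroup Γ | A ≤ Q ∧ Q ≤ S ∧ Q ≠ S}
    (fun Q => Nat.card Q) (Set.toFinite _) ⟨A, le_rfl, hAS, hne⟩
  obtain ⟨h1, h2, h3⟩ := hQ
  refine ⟨Q, h1, h2, h3, ?_⟩
  haveI : Group.IsNilpotent S := (hΓ.to_subgroup S).isNilpotent
  have hlt : Q.subgroupOf S < ⊤ := by
    refine lt_top_iff_ne_top.mpr ?_
    intro h4
    apply h3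
    apply le_antisymm h2
    intro s hs
    have : (⟨s, hs⟩ : S) ∈ Q.subgroupOf S := h4 ▸ Subgroup.mem_top _
    exact this
  have hnc := Group.normalizerCondition_of_isNilpotent (G := S) (Q.subgroupOf S) hlt
  set M := (Subgroup.normalizer ((Q.subgroupOf S : Subgroup S) : Set S)).map S.subtype with hM
  have hMS : M ≤ S := by
    rintro _ ⟨x, _, rfl⟩
    exact x.2
  have hQM : Q < M := by
    refine lt_of_le_of_ne ?_ ?_
    · intro q hq
      exact ⟨⟨q, h2 hq⟩, hnc.le (by exact hq), rfl⟩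
    · intro h5
      obtain ⟨x, hx1, hx2⟩ := Set.exists_of_ssubset hnc
      apply hx2
      have : (x : Γ) ∈ M := ⟨x, hx1, rfl⟩
      rw [← h5] at this
      exact this
  have hMeq : M = S := by
    by_contra h6
    have h7 := hmax M ⟨h1.trans hQM.le, hMS, h6⟩
    have h8 := Subgroup.card_le_of_le hQM.le
    have h9 : M ≤ Q := by
      have := Subgroup.eq_of_le_of_card_ge hQM.le h7
      exact this.ge
    exact absurd h9 (not_le_of_gt hQM)
  intro s hs q hq
  have hsM : s ∈ M := hMeq ▸ hs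
  obtain ⟨x, hx, rfl⟩ := hsM
  have h10 := (Subgroup.mem_normalizer_iff.mp hx ⟨q, h2 hq⟩).mp (by exact hq)
  exact h10

/-- The main induction. -/
theorem exists_best_normalized (hp5 : 5 ≤ p) (hΓ : IsPGroup p Γ) (hρ : Function.Injective ρ) :
    ∀ (n : ℕ) (S : Subgroup Γ), Nat.card S = n → (∃ X ≤ S, X ≠ ⊥ ∧ IsQ ρ X) →
      ∃ A, Best ρ S A ∧ ∀ x ∈ S, (ρ x - 1) * (ρ x - 1) = 0 → ∀ a ∈ A, x * a * x⁻¹ ∈ A := by
  classical
  haveI : Finite (Module.End (ZMod p) E) := finite_end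
  have hpr : p.Prime := hp.out
  have hodd : p % 2 = 1 := by
    rcases hpr.eq_two_or_odd with h | h
    · omega
    · exact h
  set k := (p + 1) / 2 with hkdef
  have hk2 : 2 * k = p + 1 := by omega
  have hpR : ∀ r : Module.End (ZMod p) E, p • r = 0 := fun r => by
    rw [← Nat.cast_smul_eq_nsmul (ZMod p) p r, ZMod.natCast_self, zero_smul]
  have hk : ∀ c : Module.End (ZMod p) E, k • c + k • c = c := by
    intro c
    rw [← add_nsmul, show k + k = p + 1 by omega, succ_nsmul, hpR, zero_add]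
  have htwo : ∀ w : Module.End (ZMod p) E, w + w = 0 → w = 0 := by
    intro w hw
    have h1 := hk w
    rw [← nsmul_add, hw, smul_zero] at h1
    exact h1.symm
  have h24 : Nat.Coprime 24 p := by
    refine Nat.Coprime.symm ((Nat.Prime.coprime_iff_not_dvd hpr).mpr ?_)
    intro h
    have h1 : p ∣ 2 ^ 3 * 3 := by simpa using h
    rcases (Nat.Prime.dvd_mul hpr).mp h1 with h2 | h2
    · have := Nat.le_of_dvd (by norm_num) (hpr.dvd_of_dvd_pow h2)
      omega
    · have := Nat.le_of_dvd (by norm_num) h2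
      omega
  obtain ⟨c, hc⟩ : ∃ c, (⊤ : Subgroup Γ).lowerCentralSeries c = ⊥ :=
    (Subgroup.isNilpotent_iff_lowerCentralSeries ⊤).mp
      (by
        haveI : Group.IsNilpotent Γ := hΓ.isNilpotent
        infer_instance)
  set L : ℕ → Subgroup Γ := fun j => (⊤ : Subgroup Γ).lowerCentralSeries j with hL
  have hLn : ∀ j, (L j).Normal := fun j => by
    have : (L j).Characteristic := Subgroup.lowerCentralSeries_characteristic _ j
    exact Subgroup.normal_of_characteristic _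
  intro n
  induction n using Nat.strong_induction_on with
  | _ n ih =>
  intro S hSn hne
  obtain ⟨A₀, hA₀⟩ := exists_best S hne
  by_cases hA₀S : A₀ = S
  · refine ⟨A₀, hA₀, ?_⟩
    intro x hx _ a ha
    rw [hA₀S] at ha ⊢
    exact S.mul_mem (S.mul_mem hx ha) (S.inv_mem hx)
  obtain ⟨Q, hA₀Q, hQS, hQne, hQn⟩ := exists_normal_between hΓ hA₀.le hA₀S
  have hcard : Nat.card Q < n := by
    rw [← hSn]
    refine lt_of_le_of_ne (Subgroup.card_le_of_le hQS) ?_
    intro h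
    exact hQne (Subgroup.eq_of_le_of_card_ge hQS h.ge)
  obtain ⟨A₁, hA₁, hA₁n⟩ := ih _ hcard Q rfl ⟨A₀, hA₀Q, hA₀.ne, hA₀.q⟩
  -- the invariant family
  let O : Set (Subgroup Γ) :=
    {X | Best ρ Q X ∧ ∀ B, Best ρ Q B → ∀ b ∈ B, ∀ a ∈ X, b * a * b⁻¹ ∈ X}
  have hA₁O : A₁ ∈ O := by
    refine ⟨hA₁, ?_⟩
    intro B hB b hb a ha
    exact hA₁n b (hB.le hb) (hB.q b hb b hb) a ha
  have hcjBest : ∀ s ∈ S, ∀ X, Best ρ Q X → Best ρ Q (cj s X) := by
    intro s hs X hX
    refine ⟨?_, ?_, hX.q.cj s, ?_⟩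
    · intro q hq
      have h1 := hQn s hs _ (hX.le hq)
      have e : s * (s⁻¹ * q * s) * s⁻¹ = q := by group
      rwa [e] at h1
    · intro h
      apply hX.ne
      rw [eq_bot_iff]
      intro a ha
      have h1 : s * a * s⁻¹ ∈ cj s X := conj_mem_cj ha
      rw [h] at h1
      have h2 : s * a * s⁻¹ = 1 := h1
      have h3 : a = 1 := by
        have e : a = s⁻¹ * (s * a * s⁻¹) * s := by group
        rw [e, h2]; group
      exact h3
    · intro Y hY hY1 hY2
      rw [fF_cj]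
      have h1 := hX.max (cj s⁻¹ Y) ?_ ?_ (hY2.cj s⁻¹)
      · rwa [fF_cj] at h1
      · intro q hq
        have h2 := hQn s hs _ (hY hq)
        have e : s * (s⁻¹⁻¹ * q * s⁻¹) * s⁻¹ = s * (s * q * s⁻¹) * s⁻¹ := by group
        have h3 := hQn (s⁻¹) (S.inv_mem hs) _ (hY (show (s⁻¹)⁻¹ * q * s⁻¹ ∈ Y from hq))
        have e2 : s⁻¹ * ((s⁻¹)⁻¹ * q * s⁻¹) * (s⁻¹)⁻¹ = q := by group
        rwa [e2] at h3
      · intro h
        apply hY1
        rw [eq_bot_iff]
        intro a ha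
        have h1 : s⁻¹ * a * s⁻¹⁻¹ ∈ cj s⁻¹ Y := conj_mem_cj ha
        rw [h] at h1
        have h2 : s⁻¹ * a * s⁻¹⁻¹ = 1 := h1
        have h3 : a = 1 := by
          have e : a = s * (s⁻¹ * a * s⁻¹⁻¹) * s⁻¹ := by group
          rw [e, h2]; group
        exact h3
  have hcjO : ∀ s ∈ S, ∀ X ∈ O, cj s X ∈ O := by
    rintro s hs X ⟨hX1, hX2⟩
    refine ⟨hcjBest s hs X hX1, ?_⟩
    intro B hB b hb a ha
    have h1 := hX2 (cj s⁻¹ B) (hcjBest _ (S.inv_mem hs) B hB) (s⁻¹ * b * s) (by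
      show (s⁻¹)⁻¹ * (s⁻¹ * b * s) * s⁻¹ ∈ B
      have e : (s⁻¹)⁻¹ * (s⁻¹ * b * s) * s⁻¹ = b := by group
      rwa [e]) (s⁻¹ * a * s) ha
    show s⁻¹ * (b * a * b⁻¹) * s ∈ X
    have e : s⁻¹ * (b * a * b⁻¹) * s = s⁻¹ * b * s * (s⁻¹ * a * s) * (s⁻¹ * b * s)⁻¹ := by group
    rwa [e]
  -- the potential
  let Pi : Subgroup Γ → ℕ := fun X => ∑ j ∈ Finset.range (c + 1), Nat.card (X ⊓ L j : Subgroup Γ)
  obtain ⟨A, hAO, hAmax⟩ := Set.exists_max_image O Pi (Set.toFinite _) ⟨A₁, hA₁O⟩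
  have hquad : ∀ x ∈ S, (ρ x - 1) * (ρ x - 1) = 0 → ∀ a ∈ A, x * a * x⁻¹ ∈ A := by
    intro x hxS hxq
    by_contra hcon
    push Not at hcon
    obtain ⟨a₀, ha₀, ha₀x⟩ := hcon
    set ξ := ρ x - 1 with hξdef
    have hx : ρ x = 1 + ξ := by rw [hξdef]; abel
    have hξ : ξ * ξ = 0 := hxq
    have qA := hAO.1.q
    have hAp : cj x A ∈ O := hcjO x hxS A hAO
    have hAm : cj x⁻¹ A ∈ O := hcjO _ (S.inv_mem hxS) A hAO
    have hA2 : cj (x ^ 2) A ∈ O := hcjO _ (S.pow_mem hxS 2) A hAO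
    have hA3 : cj (x ^ 2)⁻¹ A ∈ O := hcjO _ (S.inv_mem (S.pow_mem hxS 2)) A hAO
    have hmut : ∀ X ∈ O, ∀ Y ∈ O, MutN (ρ := ρ) X Y := by
      intro X hX Y hY
      exact ⟨hX.1.q, hY.1.q, fun a ha b hb => hY.2 X hX.1 a ha b hb,
        fun b hb a ha => hX.2 Y hY.1 b hb a ha⟩
    have hT : Tri (ρ := ρ) A (cj x A) (cj x⁻¹ A) :=
      ⟨hmut _ hAO _ hAp, hmut _ hAO _ hAm, hmut _ hAp _ hAm⟩
    set Ast := limS A qA hξ with hAst
    have hAstQ : Ast ≤ Q := limS_le hρ hk htwo hx hξ hT qA hAO.1.le hAp.1.le hAm.1.le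
    have hcardN : ∀ N : Subgroup Γ, N.Normal →
        Nat.card (A ⊓ N : Subgroup Γ) ≤ Nat.card (Ast ⊓ N : Subgroup Γ) := by
      intro N hN
      exact card_inf_le hρ hk htwo hx hξ hT qA
    have hcardA : Nat.card A ≤ Nat.card Ast := by
      have h1 := hcardN ⊤ inferInstance
      rwa [inf_top_eq, inf_top_eq] at h1
    have hAstne : Ast ≠ ⊥ := by
      intro h
      rw [h, Subgroup.card_bot] at hcardA
      apply hAO.1.ne
      have : Nat.card A = 1 := le_antisymm hcardA Nat.card_pos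
      exact Subgroup.eq_bot_of_card_eq A this
    have hfF : fF ρ A ≤ fF ρ Ast :=
      Nat.mul_le_mul hcardA (card_fix_le qA hξ)
    have hAstO : Ast ∈ O := by
      refine ⟨⟨hAstQ, hAstne, isQ_limS qA hξ, fun Y hY h1 h2 =>
        (hAO.1.max Y hY h1 h2).trans hfF⟩, ?_⟩
      intro B hB b hb h hh
      exact limS_normalized qA hx hξ hpR h24 (fun a ha => hAO.2 B hB b hb a ha)
        (fun a ha => hAp.2 B hB b hb a ha) (fun a ha => hAm.2 B hB b hb a ha)
        (fun a ha => hA2.2 B hB b hb a ha) (fun a ha => hA3.2 B hB b hb a ha) h hh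
    have hPi := hAmax Ast hAstO
    -- find the level
    have hex : ∃ j, ∀ a ∈ A ⊓ L j, x * a * x⁻¹ ∈ A := by
      refine ⟨c, ?_⟩
      rintro a ⟨ha, ha2⟩
      have : a = 1 := by
        have h3 : a ∈ (⊤ : Subgroup Γ).lowerCentralSeries c := ha2
        rw [hc] at h3
        exact h3
      rw [this]
      simp [A.one_mem]
    have hfind := Nat.find_spec hex
    have hfle : Nat.find hex ≤ c := Nat.find_min' hex (by
      rintro a ⟨ha, ha2⟩
      have : a = 1 := by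
        have h3 : a ∈ (⊤ : Subgroup Γ).lowerCentralSeries c := ha2
        rw [hc] at h3
        exact h3
      rw [this]
      simp [A.one_mem])
    have hf0 : Nat.find hex ≠ 0 := by
      intro h0
      rw [h0] at hfind
      exact ha₀x (hfind a₀ ⟨ha₀, by
        show a₀ ∈ (⊤ : Subgroup Γ).lowerCentralSeries 0
        exact Subgroup.mem_top _⟩)
    obtain ⟨i, hi⟩ : ∃ i, Nat.find hex = i + 1 := ⟨Nat.find hex - 1, by omega⟩
    rw [hi] at hfind hfle
    have hnoti : ¬ ∀ a ∈ A ⊓ L i, x * a * x⁻¹ ∈ A := Nat.find_min hex (by omega)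
    push Not at hnoti
    obtain ⟨a, ⟨ha, haL⟩, hax⟩ := hnoti
    haveI hNi := hLn (i + 1)
    have hapow : a ^ p = 1 := by
      apply hρ
      have h1 : ρ a = 1 + (ρ a - 1) := by abel
      rw [rho_pow_eq h1 (qA a ha a ha) p, hpR, add_zero, map_one]
    have hcen : ∀ y : Γ, a⁻¹ * (y * a * y⁻¹) ∈ L (i + 1) := by
      intro y
      have h1 : ⁅a⁻¹, y⁆ ∈ L (i + 1) := by
        have h2 : a⁻¹ ∈ L i := Subgroup.inv_mem _ haL
        exact Subgroup.commutator_mem_commutator h2 (Subgroup.mem_top y)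
      have e : a⁻¹ * (y * a * y⁻¹) = ⁅a⁻¹, y⁆ := by
        rw [commutatorElement_def]
        group
      rwa [e]
    have hfix' : ∀ b ∈ A ⊓ L (i + 1), x⁻¹ * b * x ∈ A := by
      have hiter : ∀ (m : ℕ) (b : Γ), b ∈ A ⊓ L (i + 1) → x ^ m * b * (x ^ m)⁻¹ ∈ A ⊓ L (i + 1) := by
        intro m
        induction m with
        | zero => intro b hb; simpa using hb
        | succ m ihm =>
          intro b hb
          have e : x ^ (m + 1) * b * (x ^ (m + 1))⁻¹ =
              x * (x ^ m * b * (x ^ m)⁻¹) * x⁻¹ := by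
            rw [pow_succ']; group
          rw [e]
          have h1 := ihm b hb
          exact ⟨hfind _ h1, hNi.conj_mem _ h1.2 x⟩
      intro b hb
      have hord : x ^ (orderOf x) = 1 := pow_orderOf_eq_one x
      have hpos : 0 < orderOf x := orderOf_pos x
      have h2 := hiter (orderOf x - 1) b hb
      have e : x ^ (orderOf x - 1) = x⁻¹ := by
        apply eq_inv_of_mul_eq_one_left
        rw [← pow_succ]
        rwa [Nat.sub_add_cancel hpos]
      rw [e, inv_inv] at h2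
      exact h2.1
    have hstrict := card_inf_lt (N := L (i + 1)) hρ hk htwo hk2 hx hξ hT qA hapow ha hcen hfind hfix' hax
    have hsum : Pi A < Pi Ast := by
      refine Finset.sum_lt_sum (fun j _ => hcardN (L j) (hLn j)) ⟨i + 1, ?_, hstrict⟩
      rw [Finset.mem_range]
      omega
    exact absurd hPi (not_le_of_gt hsum)
  refine ⟨A, ⟨hAO.1.le.trans hQS, hAO.1.ne, hAO.1.q, ?_⟩, hquad⟩
  intro Y hY h1 h2
  exact (hA₀.max Y hY h1 h2).trans (hAO.1.max A₀ hA₀Q hA₀.ne hA₀.q)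

end Top

end Cfsg.Agent.Lib.QuadFlow
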