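import Mathlib
import Cfsg.Agent.Lib.RankTwoA1
import Cfsg.Agent.Lib.Class2Det
import Cfsg.Agent.Lib.Huppert2
import Cfsg.Agent.Lib.Glauberman
import Cfsg.Agent.S1447

/-!
The exceptional configuration in the analysis of rank two `p`-groups with an operator group `A`
such that `[R, A] = R`: `X` is a normal elementary abelian subgroup of order `p²`, `Y ≤ X` central
of order `p`, `D = C_R(X)` has index `p`, and `g₀ ∉ D` has order `p`. This is shown to be impossible.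
-/

set_option autoImplicit false

namespace Cfsg.Agent.Lib.RankTwoA2

open Subgroup Cfsg.Agent.Lib.RankTwoA1
open scoped commutatorElement

section general
variable {G : Type*} [Group G]

theorem cast_of_mem {p : ℕ} [hp : Fact p.Prime] {M : Subgroup G} {x : G} (hx : x ∉ M) (hxp : x ^ p ∈ M)
    {a b : ℕ} (h : x ^ a * (x ^ b)⁻¹ ∈ M) : (a : ZMod p) = b := by
  by_contra hne
  have hpp := hp.out
  have hd : ¬ (p : ℤ) ∣ ((a : ℤ) - b) := by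
    rw [← ZMod.intCast_zmod_eq_zero_iff_dvd]
    push_cast
    intro h0
    exact hne (sub_eq_zero.mp h0)
  have hcop : IsCoprime (p : ℤ) ((a : ℤ) - b) :=
    ((Nat.prime_iff_prime_int.mp hpp).irreducible.coprime_iff_not_dvd).mpr hd
  obtain ⟨u, v, huv⟩ := hcop
  have h1 : x ^ ((a : ℤ) - b) ∈ M := by
    rw [zpow_sub, zpow_natCast, zpow_natCast]
    exact h
  have h2 : x = (x ^ (p : ℤ)) ^ u * (x ^ ((a : ℤ) - b)) ^ v := by
    rw [← zpow_mul, ← zpow_mul, ← zpow_add]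
    have e : (p : ℤ) * u + ((a : ℤ) - b) * v = 1 := by linarith
    rw [e, zpow_one]
  rw [h2] at hx
  apply hx
  refine mul_mem (zpow_mem ?_ u) (zpow_mem h1 v)
  rw [zpow_natCast]
  exact hxp

theorem pow_eq_pow_of_cast' {p : ℕ} {x : G} (hx : x ^ p = 1) {a b : ℕ} (h : (a : ZMod p) = b) :
    x ^ a = x ^ b := by
  have h1 : a ≡ b [MOD p] := (ZMod.natCast_eq_natCast_iff a b p).mp h
  have h2 : orderOf x ∣ p := orderOf_dvd_of_pow_eq_one hx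
  exact pow_eq_pow_iff_modEq.mpr (h1.of_dvd h2)

theorem cast_of_pow_eq_pow' {p : ℕ} [hp : Fact p.Prime] {x : G} (hx : x ^ p = 1) (hx1 : x ≠ 1) {a b : ℕ}
    (h : x ^ a = x ^ b) : (a : ZMod p) = b := by
  have h1 : orderOf x = p := orderOf_eq_prime hx hx1
  have h2 := pow_eq_pow_iff_modEq.mp h
  rw [h1] at h2
  exact (ZMod.natCast_eq_natCast_iff a b p).mpr h2

theorem conj_pow' (a x : G) (n : ℕ) : a * x ^ n * a⁻¹ = (a * x * a⁻¹) ^ n := by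
  induction n with
  | zero => simp
  | succ n ih =>
    rw [pow_succ, pow_succ, ← ih]
    group

theorem conj_comm (a x y : G) : a * ⁅x, y⁆ * a⁻¹ = ⁅a * x * a⁻¹, a * y * a⁻¹⁆ := by
  simp only [commutatorElement_def]
  group

/-- An element of order `p` in a non-trivial `p`-subgroup. -/
theorem exists_order_p [Finite G] {p : ℕ} [hp : Fact p.Prime] {X : Subgroup G} (hX : IsPGroup p X)
    (hne : X ≠ ⊥) : ∃ x ∈ X, x ≠ 1 ∧ x ^ p = 1 := by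
  have hpp := hp.out
  obtain ⟨n, hn⟩ := IsPGroup.iff_card.mp hX
  have hn0 : n ≠ 0 := by
    rintro rfl
    rw [pow_zero] at hn
    exact hne (Subgroup.card_eq_one.mp hn)
  have hd : p ∣ Nat.card X := by
    rw [hn]
    exact dvd_pow_self p hn0
  obtain ⟨x, hx⟩ := exists_prime_orderOf_dvd_card' p hd
  refine ⟨x.1, x.2, ?_, ?_⟩
  · intro h
    have h1 : x = 1 := Subtype.ext h
    rw [h1, orderOf_one] at hx
    exact hpp.one_lt.ne hx
  · have h1 : x ^ p = 1 := by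
      rw [← hx]
      exact pow_orderOf_eq_one x
    exact congrArg Subtype.val h1

/-- Conjugation by `g` on a subgroup stable under it. -/
def conjEnd (D : Subgroup G) (g : G) (hg : ∀ x ∈ D, g * x * g⁻¹ ∈ D) : D →* D where
  toFun x := ⟨g * x * g⁻¹, hg x x.2⟩
  map_one' := by
    apply Subtype.ext
    simp
  map_mul' x y := by
    apply Subtype.ext
    show g * (x * y) * g⁻¹ = (g * x * g⁻¹) * (g * y * g⁻¹)
    group

@[simp] theorem conjEnd_coe (D : Subgroup G) (g : G) (hg : ∀ x ∈ D, g * x * g⁻¹ ∈ D) (x : D) :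
    ((conjEnd D g hg x : D) : G) = g * x * g⁻¹ := rfl

theorem conjEnd_iter (D : Subgroup G) (g : G) (hg : ∀ x ∈ D, g * x * g⁻¹ ∈ D) (n : ℕ) (x : D) :
    (((conjEnd D g hg)^[n] x : D) : G) = g ^ n * x * (g ^ n)⁻¹ := by
  induction n with
  | zero => simp
  | succ n ih =>
    rw [Function.iterate_succ_apply', conjEnd_coe, ih, pow_succ']
    group

/-- A cyclic subgroup normalized by `R` and `A` is centralized by `[R, A]`. -/
theorem cyclic_central [Finite G] {R A C : Subgroup G} [hCc : IsCyclic C]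
    (hCR : ∀ r ∈ R, ∀ c ∈ C, r * c * r⁻¹ ∈ C) (hCA : ∀ a ∈ A, ∀ c ∈ C, a * c * a⁻¹ ∈ C)
    (hRA : ⁅R, A⁆ = R) {r c : G} (hr : r ∈ R) (hc : c ∈ C) : r * c = c * r := by
  classical
  obtain ⟨g, hg⟩ := hCc.exists_generator
  -- every element normalizing `C` acts as a power map
  have hpow : ∀ u : G, (∀ c ∈ C, u * c * u⁻¹ ∈ C) → ∃ n : ℤ, ∀ c ∈ C, u * c * u⁻¹ = c ^ n := by
    intro u hu
    obtain ⟨n, hn⟩ := hg ⟨u * g * u⁻¹, hu g g.2⟩
    refine ⟨n, ?_⟩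
    intro c hc
    obtain ⟨m, hm⟩ := hg ⟨c, hc⟩
    have hn' : (g : G) ^ n = u * g * u⁻¹ := congrArg Subtype.val hn
    have hm' : (g : G) ^ m = c := congrArg Subtype.val hm
    rw [← hm', ← zpow_mul, mul_comm m n, zpow_mul, hn', conj_zpow]
  have hcomm : ∀ u v : G, (∀ c ∈ C, u * c * u⁻¹ ∈ C) → (∀ c ∈ C, v * c * v⁻¹ ∈ C) →
      ∀ c ∈ C, u * (v * c * v⁻¹) * u⁻¹ = v * (u * c * u⁻¹) * v⁻¹ := by
    intro u v hu hv c hc
    obtain ⟨n, hn⟩ := hpow u hu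
    obtain ⟨m, hm⟩ := hpow v hv
    rw [hm c hc, hn _ (zpow_mem hc m), hn c hc, hm _ (zpow_mem hc n), ← zpow_mul, ← zpow_mul, mul_comm]
  have hC : ⁅R, A⁆ ≤ centralizer (C : Set G) := by
    rw [Subgroup.commutator_le]
    intro r hr a ha
    rw [mem_centralizer_iff]
    intro c hc
    have hr' := hCR r⁻¹ (inv_mem hr)
    have ha' := hCA a⁻¹ (inv_mem ha)
    have hc₁ : a⁻¹ * c * a⁻¹⁻¹ ∈ C := ha' c hc
    have hc₂ : r⁻¹ * (a⁻¹ * c * a⁻¹⁻¹) * r⁻¹⁻¹ ∈ C := hr' _ hc₁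
    have h2 := hcomm r a (hCR r hr) (hCA a ha) _ hc₂
    have e0 : ⁅r, a⁆ * c * ⁅r, a⁆⁻¹ = c := by
      calc ⁅r, a⁆ * c * ⁅r, a⁆⁻¹ = r * (a * (r⁻¹ * (a⁻¹ * c * a⁻¹⁻¹) * r⁻¹⁻¹) * a⁻¹) * r⁻¹ := by
            simp only [commutatorElement_def]
            group
        _ = a * (r * (r⁻¹ * (a⁻¹ * c * a⁻¹⁻¹) * r⁻¹⁻¹) * r⁻¹) * a⁻¹ := h2
        _ = c := by group
    rw [mul_inv_eq_iff_eq_mul] at e0
    exact e0.symm
  have h2 : r ∈ centralizer (C : Set G) := by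
    apply hC
    rw [hRA]
    exact hr
  exact ((mem_centralizer_iff.mp h2) c hc).symm

/-- Relative index bound from a generator of the quotient. -/
theorem relIndex_le_of_gen {p : ℕ} [hp : Fact p.Prime] {H K : Subgroup G} {g : G} (hg : g ∈ K) (hgp : g ^ p ∈ H)
    (h : ∀ x ∈ K, ∃ i : ℕ, ∃ u ∈ H, x = g ^ i * u) : H.relIndex K ≤ p := by
  classical
  have hpp := hp.out
  haveI : NeZero p := ⟨hpp.ne_zero⟩
  let f : Fin p → K ⧸ H.subgroupOf K := fun i => ((⟨g ^ (i : ℕ), pow_mem hg _⟩ : K) : K ⧸ H.subgroupOf K)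
  have hf : Function.Surjective f := by
    intro q
    obtain ⟨⟨x, hx⟩, rfl⟩ := QuotientGroup.mk_surjective q
    obtain ⟨i, u, hu, rfl⟩ := h x hx
    refine ⟨⟨i % p, Nat.mod_lt _ hpp.pos⟩, ?_⟩
    apply QuotientGroup.eq.mpr
    rw [mem_subgroupOf]
    show (g ^ (i % p))⁻¹ * (g ^ i * u) ∈ H
    have e : g ^ i = g ^ (i % p) * (g ^ p) ^ (i / p) := by
      rw [← pow_mul, ← pow_add, Nat.mod_add_div]
    rw [e]
    have e2 : (g ^ (i % p))⁻¹ * (g ^ (i % p) * (g ^ p) ^ (i / p) * u) = (g ^ p) ^ (i / p) * u := by group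
    rw [e2]
    exact mul_mem (pow_mem hgp _) hu
  have h1 := Nat.card_le_card_of_surjective f hf
  rw [Nat.card_fin] at h1
  exact h1

/-- A proper subgroup containing all `p`-th powers of a non-trivial cyclic `p`-group. -/
theorem exists_proper_pow {Q : Type*} [Group Q] [Finite Q] [IsCyclic Q] {p : ℕ} [hp : Fact p.Prime]
    (hd : p ∣ Nat.card Q) : ∃ M : Subgroup Q, M ≠ ⊤ ∧ ∀ q : Q, q ^ p ∈ M := by
  classical
  letI : CommGroup Q := IsCyclic.commGroup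
  refine ⟨(powMonoidHom p : Q →* Q).range, ?_, fun q => ⟨q, rfl⟩⟩
  intro htop
  obtain ⟨x, hx⟩ := exists_prime_orderOf_dvd_card' p hd
  have hsurj : Function.Surjective (powMonoidHom p : Q →* Q) := MonoidHom.range_eq_top.mp htop
  have hinj := Finite.injective_iff_surjective.mpr hsurj
  have h1 : (powMonoidHom p : Q →* Q) x = (powMonoidHom p : Q →* Q) 1 := by
    show x ^ p = 1 ^ p
    rw [one_pow, ← hx]
    exact pow_orderOf_eq_one x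
  have h2 := hinj h1
  rw [h2, orderOf_one] at hx
  exact hp.out.one_lt.ne hx

/-- The subgroup generated by the `p`-th powers of the elements of `D`. -/
def pthPowers (p : ℕ) (D : Subgroup G) : Subgroup G := closure {x | ∃ d ∈ D, x = d ^ p}

theorem pth_le (p : ℕ) (D : Subgroup G) : pthPowers p D ≤ D := by
  rw [pthPowers, closure_le]
  rintro _ ⟨d, hd, rfl⟩
  exact pow_mem hd p

theorem pth_pow (p : ℕ) {D : Subgroup G} {d : G} (hd : d ∈ D) : d ^ p ∈ pthPowers p D :=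
  subset_closure ⟨d, hd, rfl⟩

theorem pth_conj (p : ℕ) {D : Subgroup G} {g : G} (hg : ∀ x ∈ D, g * x * g⁻¹ ∈ D) {x : G}
    (hx : x ∈ pthPowers p D) : g * x * g⁻¹ ∈ pthPowers p D := by
  have h1 : pthPowers p D ≤ (pthPowers p D).comap (MulAut.conj g).toMonoidHom := by
    rw [pthPowers, closure_le]
    rintro _ ⟨d, hd, rfl⟩
    show g * d ^ p * g⁻¹ ∈ pthPowers p D
    rw [conj_pow']
    exact pth_pow p (hg d hd)
  exact h1 hx

theorem pth_eq (p : ℕ) {D : Subgroup G} (hab : ∀ x ∈ D, ∀ y ∈ D, x * y = y * x) {x : G}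
    (hx : x ∈ pthPowers p D) : ∃ s ∈ D, x = s ^ p := by
  induction hx using closure_induction with
  | mem x hx => exact hx
  | one => exact ⟨1, one_mem _, by simp⟩
  | mul x y _ _ hx hy =>
    obtain ⟨s, hs, rfl⟩ := hx
    obtain ⟨t, ht, rfl⟩ := hy
    refine ⟨s * t, mul_mem hs ht, ?_⟩
    have c : Commute s t := hab s hs t ht
    rw [c.mul_pow]
  | inv x _ hx =>
    obtain ⟨s, hs, rfl⟩ := hx
    exact ⟨s⁻¹, inv_mem hs, by simp⟩

theorem conj_mem_comm_self {D : Subgroup G} {g : G} (hg : ∀ x ∈ D, g * x * g⁻¹ ∈ D) {c : G}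
    (hc : c ∈ (⁅D, D⁆ : Subgroup G)) : g * c * g⁻¹ ∈ (⁅D, D⁆ : Subgroup G) := by
  have h1 : (⁅D, D⁆ : Subgroup G) ≤ (⁅D, D⁆ : Subgroup G).comap (MulAut.conj g).toMonoidHom := by
    rw [Subgroup.commutator_le]
    intro x hx y hy
    show g * ⁅x, y⁆ * g⁻¹ ∈ (⁅D, D⁆ : Subgroup G)
    rw [conj_comm]
    exact Subgroup.commutator_mem_commutator (hg x hx) (hg y hy)
  exact h1 hc

end general

section IIbSec
variable {G : Type*} [Group G] [Finite G] {p : ℕ} [hp : Fact p.Prime]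

/-- The exceptional configuration. -/
structure IIb (p : ℕ) (R A X Y D : Subgroup G) (g₀ : G) : Prop where
  h5 : 5 ≤ p
  hR : IsPGroup p R
  hA : A ≤ normalizer (R : Set G)
  hcop : (Nat.card A).Coprime p
  hodd : Odd (Nat.card A)
  hRA : ⁅R, A⁆ = R
  hXR : X ≤ R
  hXexp : ∀ x ∈ X, x ^ p = 1
  hXcomm : ∀ x ∈ X, ∀ y ∈ X, x * y = y * x
  hXcard : Nat.card X = p ^ 2
  hXA : ∀ a ∈ A, ∀ x ∈ X, a * x * a⁻¹ ∈ X
  hYX : Y ≤ X
  hYcard : Nat.card Y = p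
  hYcen : ∀ y ∈ Y, ∀ r ∈ R, y * r = r * y
  hYA : ∀ a ∈ A, ∀ y ∈ Y, a * y * a⁻¹ ∈ Y
  hXY : ∀ x ∈ X, ∀ r ∈ R, ⁅x, r⁆ ∈ Y
  hD : D = R ⊓ centralizer (X : Set G)
  hDΩ : ∀ x ∈ D, x ^ p = 1 → x ∈ X
  hE : ∀ x ∈ R, x ^ p = 1 → (∀ r ∈ R, ⁅x, r⁆ ∈ Y) → x ∈ X
  hZ : ∀ c ∈ R, (∀ r ∈ R, c * r = r * c) → c ^ p = 1 → c ∈ Y
  hg₀R : g₀ ∈ R
  hg₀p : g₀ ^ p = 1
  hg₀D : g₀ ∉ D

namespace IIb

variable {R A X Y D : Subgroup G} {g₀ : G} (h : IIb p R A X Y D g₀)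
include h

theorem aR {a r : G} (ha : a ∈ A) (hr : r ∈ R) : a * r * a⁻¹ ∈ R :=
  (mem_normalizer_iff.mp (h.hA ha) r).mp hr

theorem Y_exp {y : G} (hy : y ∈ Y) : y ^ p = 1 := h.hXexp y (h.hYX hy)

theorem X_norm {r x : G} (hr : r ∈ R) (hx : x ∈ X) : r * x * r⁻¹ ∈ X := by
  have e : r * x * r⁻¹ = ⁅x, r⁆⁻¹ * x := by
    simp only [commutatorElement_def]
    group
  rw [e]
  exact mul_mem (inv_mem (h.hYX (h.hXY x hx r hr))) hx

theorem D_mem {x : G} : x ∈ D ↔ x ∈ R ∧ ∀ u ∈ X, u * x = x * u := by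
  rw [h.hD, mem_inf, mem_centralizer_iff]
  rfl

theorem D_R : D ≤ R := fun _ hx => (h.D_mem.mp hx).1

theorem X_le_D : X ≤ D := fun x hx => h.D_mem.mpr ⟨h.hXR hx, fun u hu => h.hXcomm u hu x hx⟩

theorem D_norm {r d : G} (hr : r ∈ R) (hd : d ∈ D) : r * d * r⁻¹ ∈ D := by
  obtain ⟨h1, h2⟩ := h.D_mem.mp hd
  refine h.D_mem.mpr ⟨mul_mem (mul_mem hr h1) (inv_mem hr), fun u hu => ?_⟩
  have h3 := h2 _ (h.X_norm (inv_mem hr) hu)
  have h4 : r * (r⁻¹ * u * r⁻¹⁻¹ * d) * r⁻¹ = r * (d * (r⁻¹ * u * r⁻¹⁻¹)) * r⁻¹ := by rw [h3]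
  calc u * (r * d * r⁻¹) = r * (r⁻¹ * u * r⁻¹⁻¹ * d) * r⁻¹ := by group
    _ = r * (d * (r⁻¹ * u * r⁻¹⁻¹)) * r⁻¹ := h4
    _ = r * d * r⁻¹ * u := by group

theorem D_normA {a d : G} (ha : a ∈ A) (hd : d ∈ D) : a * d * a⁻¹ ∈ D := by
  obtain ⟨h1, h2⟩ := h.D_mem.mp hd
  refine h.D_mem.mpr ⟨h.aR ha h1, fun u hu => ?_⟩
  have h3 := h2 _ (h.hXA a⁻¹ (inv_mem ha) u hu)
  have h4 : a * (a⁻¹ * u * a⁻¹⁻¹ * d) * a⁻¹ = a * (d * (a⁻¹ * u * a⁻¹⁻¹)) * a⁻¹ := by rw [h3]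
  calc u * (a * d * a⁻¹) = a * (a⁻¹ * u * a⁻¹⁻¹ * d) * a⁻¹ := by group
    _ = a * (d * (a⁻¹ * u * a⁻¹⁻¹)) * a⁻¹ := h4
    _ = a * d * a⁻¹ * u := by group

theorem exists_not_mem_Y : ∃ y' ∈ X, y' ∉ Y := by
  by_contra hcon
  push Not at hcon
  have h1 : X ≤ Y := hcon
  have h2 : Nat.card X ≤ Nat.card Y := Subgroup.card_le_of_le h1
  rw [h.hXcard, h.hYcard] at h2
  have hpp := hp.out
  have : p ^ 2 > p := by nlinarith [hpp.two_le]
  omega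

theorem decomp_X {y' z : G} (hy'X : y' ∈ X) (hy'Y : y' ∉ Y) (hz : z ∈ X) : ∃ i : ℕ, ∃ u ∈ Y, z = y' ^ i * u := by
  have hpp := hp.out
  let L : Subgroup X := Y.subgroupOf X
  haveI hL : L.Normal := ⟨fun n hn g => by
    rw [mem_subgroupOf] at hn ⊢
    have : ((g * n * g⁻¹ : X) : G) = n := by
      show (g : G) * n * (g : G)⁻¹ = n
      rw [h.hXcomm _ g.2 _ n.2, mul_inv_cancel_right]
    rw [this]
    exact hn⟩
  have hcardL : Nat.card L = p := by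
    rw [← h.hYcard]
    exact Nat.card_congr (subgroupOfEquivOfLe h.hYX).toEquiv
  have hidx : L.index = p := by
    have h1 := Subgroup.card_mul_index L
    rw [hcardL, h.hXcard, pow_two] at h1
    exact Nat.eq_of_mul_eq_mul_left hpp.pos h1
  obtain ⟨k, l, hl, e⟩ := Cfsg.Agent.Lib.Class2Det.exists_pow_mul_of_not_mem hidx
    (w := ⟨y', hy'X⟩) (by rw [mem_subgroupOf]; exact hy'Y) ⟨z, hz⟩
  refine ⟨k, l, hl, ?_⟩
  exact congrArg Subtype.val e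

theorem gen_Y {y u : G} (hy : y ∈ Y) (hy1 : y ≠ 1) (hu : u ∈ Y) : ∃ k : ℕ, u = y ^ k := by
  have hg : (⟨y, hy⟩ : Y) ≠ 1 := fun e => hy1 (congrArg Subtype.val e)
  have h1 := mem_zpowers_of_prime_card (g' := (⟨u, hu⟩ : Y)) h.hYcard hg
  obtain ⟨k, hk⟩ := Cfsg.Agent.Lib.Class2Det.exists_nat_of_mem_zpowers h1
  exact ⟨k, (congrArg Subtype.val hk).symm⟩

theorem pair {z r d : G} (hz : z ∈ X) (hr : r ∈ R) (hd : d ∈ R) (i j : ℕ) :
    ⁅z ^ i, r ^ j * d⁆ = ⁅z, r⁆ ^ (i * j) * ⁅z, d⁆ ^ i := by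
  have h1 := comm_bilin_mod (R := R) (N := X) (M := ⊥) h.hXR (fun r hr x hx => h.X_norm hr hx)
    (fun r _ x hx => by
      rw [mem_bot] at hx ⊢
      rw [hx]
      simp)
    (fun x hx y hy => by
      rw [mem_bot, commutatorElement_eq_one_iff_mul_comm]
      exact h.hXcomm x hx y hy)
    (fun x hx r hr s hs => by
      rw [mem_bot, commutatorElement_eq_one_iff_mul_comm]
      exact h.hYcen _ (h.hXY x hx r hr) s hs) hz hr hd i j
  rw [mem_bot, mul_inv_eq_one] at h1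
  exact h1

theorem pair_mul {z r d : G} (hz : z ∈ X) (hr : r ∈ R) (hd : d ∈ R) : ⁅z, r * d⁆ = ⁅z, r⁆ * ⁅z, d⁆ := by
  have h1 := h.pair hz hr hd 1 1
  simpa using h1

theorem comm_D {z d : G} (hz : z ∈ X) (hd : d ∈ D) : ⁅z, d⁆ = 1 := by
  rw [commutatorElement_eq_one_iff_mul_comm]
  exact (h.D_mem.mp hd).2 z hz

theorem mem_D_of_comm {y' r : G} (hy'X : y' ∈ X) (hy'Y : y' ∉ Y) (hr : r ∈ R) (h1 : ⁅y', r⁆ = 1) : r ∈ D := by
  rw [commutatorElement_eq_one_iff_mul_comm] at h1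
  refine h.D_mem.mpr ⟨hr, fun u hu => ?_⟩
  obtain ⟨i, v, hv, rfl⟩ := h.decomp_X hy'X hy'Y hu
  have h2 : Commute (y' ^ i) r := Commute.pow_left h1 i
  have h3 : Commute v r := h.hYcen v hv r hr
  exact (h2.mul_left h3).eq

theorem comm_ne {y' : G} (hy'X : y' ∈ X) (hy'Y : y' ∉ Y) : ⁅y', g₀⁆ ≠ 1 :=
  fun e => h.hg₀D (h.mem_D_of_comm hy'X hy'Y h.hg₀R e)

theorem decomp_R {y' r : G} (hy'X : y' ∈ X) (hy'Y : y' ∉ Y) (hr : r ∈ R) : ∃ i : ℕ, ∃ d ∈ D, r = g₀ ^ i * d := by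
  obtain ⟨i, hi⟩ := h.gen_Y (h.hXY y' hy'X g₀ h.hg₀R) (h.comm_ne hy'X hy'Y) (h.hXY y' hy'X r hr)
  have hdR : (g₀ ^ i)⁻¹ * r ∈ R := mul_mem (inv_mem (pow_mem h.hg₀R i)) hr
  refine ⟨i, (g₀ ^ i)⁻¹ * r, h.mem_D_of_comm hy'X hy'Y hdR ?_, by group⟩
  have h1 := h.pair hy'X h.hg₀R hdR 1 i
  have e : g₀ ^ i * ((g₀ ^ i)⁻¹ * r) = r := by group
  rw [e, pow_one, one_mul, pow_one, hi] at h1
  exact (mul_eq_left.mp h1.symm)

theorem exists_n {a : G} (ha : a ∈ A) : ∃ n : ℕ, ∃ d ∈ D, a * g₀ * a⁻¹ = g₀ ^ n * d := by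
  obtain ⟨y', hy'X, hy'Y⟩ := h.exists_not_mem_Y
  exact h.decomp_R hy'X hy'Y (h.aR ha h.hg₀R)

theorem n_ne_zero {a d : G} {n : ℕ} (ha : a ∈ A) (hd : d ∈ D) (hn : a * g₀ * a⁻¹ = g₀ ^ n * d) :
    (n : ZMod p) ≠ 0 := by
  intro h0
  have h1 : p ∣ n := (ZMod.natCast_eq_zero_iff n p).mp h0
  obtain ⟨c, rfl⟩ := h1
  rw [pow_mul, h.hg₀p, one_pow, one_mul] at hn
  apply h.hg₀D
  have h2 := h.D_normA (inv_mem ha) hd
  rw [← hn] at h2
  have e : a⁻¹ * (a * g₀ * a⁻¹) * a⁻¹⁻¹ = g₀ := by group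
  rwa [e] at h2

theorem exists_lp {a : G} (ha : a ∈ A) : ∃ l : ℕ, ∀ z ∈ X, ∃ u ∈ Y, a * z * a⁻¹ = z ^ l * u := by
  obtain ⟨y', hy'X, hy'Y⟩ := h.exists_not_mem_Y
  obtain ⟨l, u, hu, hl⟩ := h.decomp_X hy'X hy'Y (h.hXA a ha y' hy'X)
  refine ⟨l, ?_⟩
  intro z hz
  obtain ⟨i, v, hv, rfl⟩ := h.decomp_X hy'X hy'Y hz
  have hvA : a * v * a⁻¹ ∈ Y := h.hYA a ha v hv
  refine ⟨(v ^ l)⁻¹ * (u ^ i * (a * v * a⁻¹)), mul_mem (inv_mem (pow_mem hv l)) (mul_mem (pow_mem hu i) hvA), ?_⟩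
  have e1 : a * (y' ^ i * v) * a⁻¹ = (a * y' * a⁻¹) ^ i * (a * v * a⁻¹) := by
    rw [← conj_pow']
    group
  have c1 : Commute (y' ^ l) u := h.hXcomm _ (pow_mem hy'X l) _ (h.hYX hu)
  have c2 : Commute (y' ^ i) v := h.hXcomm _ (pow_mem hy'X i) _ (h.hYX hv)
  rw [e1, hl, c1.mul_pow, c2.mul_pow, ← pow_mul, ← pow_mul, mul_comm l i]
  group

theorem lp_ne_zero {a : G} {l : ℕ} (ha : a ∈ A) (hl : ∀ z ∈ X, ∃ u ∈ Y, a * z * a⁻¹ = z ^ l * u) :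
    (l : ZMod p) ≠ 0 := by
  intro h0
  have h1 : p ∣ l := (ZMod.natCast_eq_zero_iff l p).mp h0
  obtain ⟨c, rfl⟩ := h1
  obtain ⟨y', hy'X, hy'Y⟩ := h.exists_not_mem_Y
  obtain ⟨u, hu, e⟩ := hl y' hy'X
  rw [pow_mul, h.hXexp y' hy'X, one_pow, one_mul] at e
  apply hy'Y
  have h2 := h.hYA a⁻¹ (inv_mem ha) u hu
  rw [← e] at h2
  have e2 : a⁻¹ * (a * y' * a⁻¹) * a⁻¹⁻¹ = y' := by group
  rwa [e2] at h2

/-- The action of `a` on `Y`. -/
theorem act_Y {a d : G} {n l : ℕ} (ha : a ∈ A) (hd : d ∈ D) (hn : a * g₀ * a⁻¹ = g₀ ^ n * d)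
    (hl : ∀ z ∈ X, ∃ u ∈ Y, a * z * a⁻¹ = z ^ l * u) {y : G} (hy : y ∈ Y) : a * y * a⁻¹ = y ^ (l * n) := by
  obtain ⟨y', hy'X, hy'Y⟩ := h.exists_not_mem_Y
  have hy₀ := h.hXY y' hy'X g₀ h.hg₀R
  obtain ⟨k, rfl⟩ := h.gen_Y hy₀ (h.comm_ne hy'X hy'Y) hy
  obtain ⟨u, hu, e⟩ := hl y' hy'X
  have hdR := h.D_R hd
  have key : a * ⁅y', g₀⁆ * a⁻¹ = ⁅y', g₀⁆ ^ (l * n) := by
    rw [conj_comm, e, hn]
    have e1 : ⁅y' ^ l * u, g₀ ^ n * d⁆ = ⁅y' ^ l, g₀ ^ n * d⁆ := by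
      have hc : u * (g₀ ^ n * d) = (g₀ ^ n * d) * u :=
        h.hYcen u hu _ (mul_mem (pow_mem h.hg₀R n) hdR)
      simp only [commutatorElement_def]
      have e2 : y' ^ l * u * (g₀ ^ n * d) * (y' ^ l * u)⁻¹ * (g₀ ^ n * d)⁻¹ =
          y' ^ l * (u * (g₀ ^ n * d)) * u⁻¹ * (y' ^ l)⁻¹ * (g₀ ^ n * d)⁻¹ := by group
      rw [e2, hc]
      group
    rw [e1, h.pair hy'X h.hg₀R hdR, h.comm_D hy'X hd]
    simp
  rw [conj_pow', key, ← pow_mul, ← pow_mul, mul_comm]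

theorem pair1 {z r d : G} (hz : z ∈ X) (hr : r ∈ R) (hd : d ∈ R) (j : ℕ) :
    ⁅z, r ^ j * d⁆ = ⁅z, r⁆ ^ j * ⁅z, d⁆ := by
  have h1 := h.pair hz hr hd 1 j
  simpa using h1

/-- If every weight `n` squares to one, we obtain a contradiction. -/
theorem false_of_sq (hsq : ∀ a ∈ A, ∀ n : ℕ, ∀ d ∈ D, a * g₀ * a⁻¹ = g₀ ^ n * d → (n : ZMod p) ^ 2 = 1) : False := by
  have hpp := hp.out
  obtain ⟨y', hy'X, hy'Y⟩ := h.exists_not_mem_Y
  have hall : ∀ a ∈ A, ∀ r ∈ R, ⁅y', a * r * a⁻¹⁆ = ⁅y', r⁆ := by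
    intro a ha
    obtain ⟨n, d, hd, hn⟩ := h.exists_n ha
    have hdR := h.D_R hd
    have hprod : g₀ ^ n * d ∈ R := mul_mem (pow_mem h.hg₀R n) hdR
    -- action on `R / D`
    have hc1 : ∀ r ∈ R, ⁅y', a * r * a⁻¹⁆ = ⁅y', r⁆ ^ n := by
      intro r hr
      obtain ⟨i, d₁, hd₁, rfl⟩ := h.decomp_R hy'X hy'Y hr
      have e : a * (g₀ ^ i * d₁) * a⁻¹ = (g₀ ^ n * d) ^ i * (a * d₁ * a⁻¹) := by
        rw [← hn, ← conj_pow']
        group
      have hd₂ := h.D_normA ha hd₁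
      rw [e, h.pair1 hy'X hprod (h.D_R hd₂), h.comm_D hy'X hd₂, mul_one, h.pair1 hy'X h.hg₀R hdR,
        h.comm_D hy'X hd, mul_one, h.pair1 hy'X h.hg₀R (h.D_R hd₁), h.comm_D hy'X hd₁, mul_one,
        ← pow_mul, ← pow_mul, mul_comm]
    have hc2 : ∀ k : ℕ, ∀ r ∈ R, ⁅y', a ^ k * r * (a ^ k)⁻¹⁆ = ⁅y', r⁆ ^ (n ^ k) := by
      intro k
      induction k with
      | zero => intro r _; simp
      | succ k ih =>
        intro r hr
        have e : a ^ (k + 1) * r * (a ^ (k + 1))⁻¹ = a * (a ^ k * r * (a ^ k)⁻¹) * a⁻¹ := by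
          rw [pow_succ']
          group
        have hmem : a ^ k * r * (a ^ k)⁻¹ ∈ R := h.aR (pow_mem ha k) hr
        rw [e, hc1 _ hmem, ih r hr, ← pow_mul, pow_succ]
    have hy1 := h.comm_ne hy'X hy'Y
    have hyp := h.Y_exp (h.hXY y' hy'X g₀ h.hg₀R)
    have h1 := hc2 (orderOf a) g₀ h.hg₀R
    rw [pow_orderOf_eq_one] at h1
    have e1 : (1 : G) * g₀ * (1 : G)⁻¹ = g₀ := by group
    rw [e1] at h1
    have h2 : ⁅y', g₀⁆ ^ 1 = ⁅y', g₀⁆ ^ (n ^ orderOf a) := by rw [pow_one]; exact h1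
    have h3 := cast_of_pow_eq_pow' hyp hy1 h2
    push_cast at h3
    have hsq' := hsq a ha n d hd hn
    have hoddo : Odd (orderOf a) := by
      have h4 : orderOf a ∣ Nat.card A := Subgroup.orderOf_dvd_natCard A ha
      exact Odd.of_dvd_nat h.hodd h4
    obtain ⟨m, hm⟩ := hoddo
    have hn1 : (n : ZMod p) = 1 := by
      rw [hm, pow_succ, pow_mul, hsq', one_pow, one_mul] at h3
      exact h3.symm
    intro r hr
    rw [hc1 r hr]
    have h5 := pow_eq_pow_of_cast' (h.Y_exp (h.hXY y' hy'X r hr)) (a := n) (b := 1) (by simpa using hn1)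
    rw [h5, pow_one]
  have hle : ⁅R, A⁆ ≤ D := by
    rw [Subgroup.commutator_le]
    intro r hr a ha
    have hr' : a * r⁻¹ * a⁻¹ ∈ R := h.aR ha (inv_mem hr)
    have e : ⁅r, a⁆ = r * (a * r⁻¹ * a⁻¹) := by
      simp only [commutatorElement_def]
      group
    rw [e]
    refine h.mem_D_of_comm hy'X hy'Y (mul_mem hr hr') ?_
    rw [h.pair_mul hy'X hr hr', hall a ha r⁻¹ (inv_mem hr), ← h.pair_mul hy'X hr (inv_mem hr)]
    simp
  rw [h.hRA] at hle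
  exact h.hg₀D (hle h.hg₀R)

theorem D_pgroup : IsPGroup p D := h.hR.to_le h.D_R

theorem D_metacyclic : Cfsg.IsMetacyclic D := by
  have hp3 : 3 < p := by
    have := h.h5
    omega
  refine Cfsg.Agent.Lib.Huppert2.metacyclic_main hp3 h.D_pgroup ?_
  intro W hW
  have h1 : W.map D.subtype ≤ X := by
    rintro _ ⟨w, hw, rfl⟩
    exact h.hDΩ _ w.2 (congrArg Subtype.val (hW w hw))
  calc Nat.card W = Nat.card (W.map D.subtype) := (Subgroup.card_map_of_injective D.subtype_injective).symm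
    _ ≤ Nat.card X := Subgroup.card_le_of_le h1
    _ = p ^ 2 := h.hXcard

theorem pth_comm : (∀ x ∈ D, ∀ y ∈ D, ⁅x, y⁆ ∈ pthPowers p D) ∧
    (∀ x ∈ D, ∀ r ∈ R, ∀ s ∈ R, ⁅⁅x, r⁆, s⁆ ∈ pthPowers p D) := by
  refine comm_comm_mem h.hR h.D_R (fun r hr x hx => h.D_norm hr hx)
    (fun r hr x hx => pth_conj p (fun y hy => h.D_norm hr hy) hx) ?_
  intro M' _ hM'
  let π := QuotientGroup.mk' M'
  let f : D →* ((D.subgroupOf R).map π) :=
    (π.subgroupMap (D.subgroupOf R)).comp (subgroupOfEquivOfLe h.D_R).symm.toMonoidHom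
  have hf : Function.Surjective f :=
    (π.subgroupMap_surjective (D.subgroupOf R)).comp (subgroupOfEquivOfLe h.D_R).symm.surjective
  have hm := Cfsg.Agent.Lib.Huppert2.isMetacyclic_of_surjective f hf h.D_metacyclic
  refine Cfsg.Agent.Lib.Huppert2.card_le_of_metacyclic hm ?_
  rintro ⟨_, d, hd, rfl⟩
  apply Subtype.ext
  show (π d) ^ p = 1
  rw [← map_pow]
  apply (QuotientGroup.eq_one_iff _).mpr
  rw [hM', mem_subgroupOf]
  exact pth_pow p hd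

theorem comm_mem_D {x r : G} (hx : x ∈ D) (hr : r ∈ R) : ⁅x, r⁆ ∈ D := by
  rw [commutatorElement_def, mul_assoc, mul_assoc, ← mul_assoc r]
  exact mul_mem hx (h.D_norm hr (inv_mem hx))

section abelian

variable (hab : ∀ x ∈ D, ∀ y ∈ D, x * y = y * x)
include hab

theorem comm_hom {x y r : G} (hx : x ∈ D) (hy : y ∈ D) (hr : r ∈ R) : ⁅x * y, r⁆ = ⁅x, r⁆ * ⁅y, r⁆ := by
  have h1 := h.comm_mem_D hx hr
  have h2 := h.comm_mem_D hy hr
  have e : ⁅x * y, r⁆ = (x * ⁅y, r⁆ * x⁻¹) * ⁅x, r⁆ := by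
    simp only [commutatorElement_def]
    group
  rw [e, hab x hx _ h2, mul_inv_cancel_right]
  exact hab _ h2 _ h1

theorem comm_mem_X {t : G} (ht : t ∈ D) : ⁅t, g₀⁆ ∈ X := by
  have hpp := hp.out
  letI inst : CommGroup D := { (inferInstance : Group D) with
    mul_comm := fun x y => Subtype.ext (hab x x.2 y y.2) }
  let c : D →* D := conjEnd D g₀ (fun x hx => h.D_norm h.hg₀R hx)
  have hc : ∀ x, (c^[p]) x = x := by
    intro x
    apply Subtype.ext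
    rw [conjEnd_iter, h.hg₀p]
    simp
  have h2 : ∀ x : D, ∃ s : D, c (c x * x⁻¹) * (c x * x⁻¹)⁻¹ = s ^ p := by
    intro x
    have hx1 : (x : G)⁻¹ ∈ D := inv_mem x.2
    have hw : ((c x * x⁻¹ : D) : G) = ⁅(x : G)⁻¹, g₀⁆ := by
      show g₀ * (x : G) * g₀⁻¹ * (x : G)⁻¹ = _
      rw [hab _ (h.D_norm h.hg₀R x.2) _ hx1]
      simp only [commutatorElement_def]
      group
    have h3 := h.pth_comm.2 _ hx1 g₀ h.hg₀R g₀ h.hg₀R
    have h4 : ((c (c x * x⁻¹) * (c x * x⁻¹)⁻¹ : D) : G) = (⁅⁅(x : G)⁻¹, g₀⁆, g₀⁆)⁻¹ := by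
      show g₀ * ((c x * x⁻¹ : D) : G) * g₀⁻¹ * ((c x * x⁻¹ : D) : G)⁻¹ = _
      rw [hw]
      simp only [commutatorElement_def]
      group
    obtain ⟨s, hs, e⟩ := pth_eq p hab (inv_mem h3)
    refine ⟨⟨s, hs⟩, Subtype.ext ?_⟩
    rw [h4, e]
    rfl
  have h3 := pow_comm_eq_one h.h5 h.D_pgroup c hc h2 ⟨t, ht⟩
  have h4 : ((g₀ * t * g₀⁻¹ * t⁻¹) ^ p : G) = 1 := congrArg Subtype.val h3
  have h5 : ⁅t, g₀⁆ = (g₀ * t * g₀⁻¹ * t⁻¹)⁻¹ := by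
    simp only [commutatorElement_def]
    group
  apply h.hDΩ _ (h.comm_mem_D ht h.hg₀R)
  rw [h5, inv_pow, h4, inv_one]

theorem comm_mem_X' {t r : G} (ht : t ∈ D) (hr : r ∈ R) : ⁅t, r⁆ ∈ X := by
  obtain ⟨y', hy'X, hy'Y⟩ := h.exists_not_mem_Y
  obtain ⟨i, d, hd, rfl⟩ := h.decomp_R hy'X hy'Y hr
  have hi : ∀ i : ℕ, ⁅t, g₀ ^ i⁆ ∈ X := by
    intro i
    induction i with
    | zero => simp
    | succ i ih =>
      have e : ⁅t, g₀ ^ (i + 1)⁆ = ⁅t, g₀ ^ i⁆ * (g₀ ^ i * ⁅t, g₀⁆ * (g₀ ^ i)⁻¹) := by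
        simp only [commutatorElement_def, pow_succ]
        group
      rw [e]
      exact mul_mem ih (h.X_norm (pow_mem h.hg₀R i) (h.comm_mem_X hab ht))
  have e : ⁅t, g₀ ^ i * d⁆ = ⁅t, g₀ ^ i⁆ := by
    have c : d * t = t * d := hab d hd t ht
    have e2 : t * (g₀ ^ i * d) * t⁻¹ * (g₀ ^ i * d)⁻¹ = t * g₀ ^ i * (d * t⁻¹) * d⁻¹ * (g₀ ^ i)⁻¹ := by group
    have c2 : d * t⁻¹ = t⁻¹ * d := by
      have := (Commute.inv_right (show Commute d t from c)).eq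
      exact this
    simp only [commutatorElement_def]
    rw [e2, c2]
    group
  rw [e]
  exact hi i

theorem comm_mod_Y {u d : G} (hu : u ∈ D) (hd : d ∈ D) (n : ℕ) : ⁅u, g₀ ^ n * d⁆ * (⁅u, g₀⁆ ^ n)⁻¹ ∈ Y := by
  have h1 := comm_bilin_mod (R := R) (N := D) (M := Y) h.D_R (fun r hr x hx => h.D_norm hr hx)
    (fun r hr x hx => by
      have : r * x * r⁻¹ = x := by
        rw [← h.hYcen x hx r hr, mul_inv_cancel_right]
      rwa [this])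
    (fun x hx y hy => by
      have : ⁅x, y⁆ = 1 := by
        rw [commutatorElement_eq_one_iff_mul_comm]
        exact hab x hx y hy
      rw [this]
      exact one_mem _)
    (fun x hx r hr s hs => h.hXY _ (h.comm_mem_X' hab hx hr) s hs) hu h.hg₀R (h.D_R hd) 1 n
  have hc : ⁅u, d⁆ = 1 := by
    rw [commutatorElement_eq_one_iff_mul_comm]
    exact hab u hu d hd
  simpa [hc] using h1

theorem comm_mem_Y {t : G} (ht : t ∈ D) : ⁅t, g₀⁆ ∈ Y := by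
  by_contra hnot
  apply h.false_of_sq
  intro a ha n d hd hn
  have hpp := hp.out
  haveI : NeZero p := ⟨hpp.ne_zero⟩
  letI inst : CommGroup D := { (inferInstance : Group D) with
    mul_comm := fun x y => Subtype.ext (hab x x.2 y y.2) }
  let φ : D →* D :=
    { toFun := fun x => ⟨⁅(x : G), g₀⁆, h.comm_mem_D x.2 h.hg₀R⟩
      map_one' := by
        apply Subtype.ext
        simp
      map_mul' := fun x y => Subtype.ext (h.comm_hom hab x.2 y.2 h.hg₀R) }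
  let B : Subgroup D := (Y.subgroupOf D).comap φ
  have hB_mem : ∀ x : D, x ∈ B ↔ ⁅(x : G), g₀⁆ ∈ Y := fun x => Iff.rfl
  let α : D →* D := conjEnd D a (fun x hx => h.D_normA ha hx)
  have hn0 := h.n_ne_zero ha hd hn
  obtain ⟨l, hl⟩ := h.exists_lp ha
  have hl0 := h.lp_ne_zero ha hl
  let n' : ℕ := ((n : ZMod p)⁻¹).val
  have hn' : (n' : ZMod p) = (n : ZMod p)⁻¹ := ZMod.natCast_zmod_val _
  have hB : ∀ s : D, α s * (s ^ (l * n'))⁻¹ ∈ B := by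
    intro s
    show ((φ (α s * (s ^ (l * n'))⁻¹) : D) : G) ∈ Y
    rw [map_mul, map_inv, map_pow]
    show ⁅a * (s : G) * a⁻¹, g₀⁆ * (⁅(s : G), g₀⁆ ^ (l * n'))⁻¹ ∈ Y
    have hu : a * (s : G) * a⁻¹ ∈ D := h.D_normA ha s.2
    have he₁X := h.comm_mem_X hab hu
    have he₂X := h.comm_mem_X hab s.2
    set e₁ := ⁅a * (s : G) * a⁻¹, g₀⁆ with he₁
    set e₂ := ⁅(s : G), g₀⁆ with he₂
    have h1 : a * e₂ * a⁻¹ = ⁅a * (s : G) * a⁻¹, g₀ ^ n * d⁆ := by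
      rw [he₂, conj_comm, hn]
    have h2 : ⁅a * (s : G) * a⁻¹, g₀ ^ n * d⁆ * (e₁ ^ n)⁻¹ ∈ Y := h.comm_mod_Y hab hu hd n
    obtain ⟨v, hv, h3⟩ := hl e₂ he₂X
    rw [← h1, h3] at h2
    have hcv : v * (e₁ ^ n)⁻¹ = (e₁ ^ n)⁻¹ * v :=
      h.hYcen v hv _ (h.hXR (inv_mem (pow_mem he₁X n)))
    have hq : e₂ ^ l * (e₁ ^ n)⁻¹ ∈ Y := by
      have e3 : e₂ ^ l * (e₁ ^ n)⁻¹ = (e₂ ^ l * v * (e₁ ^ n)⁻¹) * v⁻¹ := by
        rw [mul_assoc (e₂ ^ l), hcv]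
        group
      rw [e3]
      exact mul_mem h2 (inv_mem hv)
    have hq2 := pow_mem hq n'
    have hcomm : Commute (e₂ ^ l) ((e₁ ^ n)⁻¹) :=
      h.hXcomm _ (pow_mem he₂X l) _ (inv_mem (pow_mem he₁X n))
    rw [hcomm.mul_pow, inv_pow, ← pow_mul, ← pow_mul] at hq2
    have e4 : e₁ ^ (n * n') = e₁ ^ 1 := by
      apply pow_eq_pow_of_cast' (h.hXexp _ he₁X)
      push_cast
      rw [hn']
      exact mul_inv_cancel₀ hn0
    rw [e4, pow_one] at hq2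
    have e5 : e₁ * (e₂ ^ (l * n'))⁻¹ = (e₂ ^ (l * n') * e₁⁻¹)⁻¹ := by group
    rw [e5]
    exact inv_mem hq2
  have hBp : ∀ s : D, s ^ p ∈ B := by
    intro s
    show ((φ (s ^ p) : D) : G) ∈ Y
    rw [map_pow]
    have e2 : (φ s) ^ p = 1 := Subtype.ext (h.hXexp _ (h.comm_mem_X hab s.2))
    rw [e2]
    exact one_mem _
  have hmc : (orderOf a).Coprime p := Nat.Coprime.coprime_dvd_left (Subgroup.orderOf_dvd_natCard A ha) h.hcop
  have hm : ∀ x, (α^[orderOf a]) x = x := by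
    intro x
    apply Subtype.ext
    rw [conjEnd_iter, pow_orderOf_eq_one]
    simp
  obtain ⟨x, hx1, hxp, c₁, hc₁, hαx⟩ := exists_eigen h.D_pgroup α (orderOf a) hm hmc B (l * n') hB hBp ⟨t, ht⟩ hnot
  have hx1' : (x : G) ≠ 1 := fun e => hx1 (Subtype.ext e)
  have hxp' : (x : G) ^ p = 1 := congrArg Subtype.val hxp
  have hxX : (x : G) ∈ X := h.hDΩ _ x.2 hxp'
  have hα0 : a * (x : G) * a⁻¹ = (x : G) ^ c₁ := congrArg Subtype.val hαx
  push_cast at hc₁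
  rw [hn'] at hc₁
  by_cases hxY : (x : G) ∈ Y
  · have h1 := h.act_Y ha hd hn hl hxY
    rw [hα0] at h1
    have h2 := cast_of_pow_eq_pow' hxp' hx1' h1
    push_cast at h2
    rw [hc₁] at h2
    have h3 : (n : ZMod p)⁻¹ = n := mul_left_cancel₀ hl0 h2
    rw [pow_two]
    nth_rewrite 1 [← h3]
    exact inv_mul_cancel₀ hn0
  · obtain ⟨u, hu, e⟩ := hl _ hxX
    rw [hα0] at e
    have h2 : (x : G) ^ c₁ * ((x : G) ^ l)⁻¹ ∈ Y := by
      rw [e]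
      have hc : u * ((x : G) ^ l)⁻¹ = ((x : G) ^ l)⁻¹ * u :=
        h.hYcen u hu _ (inv_mem (pow_mem (h.hXR hxX) l))
      rw [mul_assoc, hc, mul_inv_cancel_left]
      exact hu
    have h3 : (c₁ : ZMod p) = l := cast_of_mem hxY (by rw [hxp']; exact one_mem _) h2
    rw [hc₁] at h3
    have h4 : (n : ZMod p)⁻¹ = 1 := by
      have h5 : (l : ZMod p) * (n : ZMod p)⁻¹ = l * 1 := by rw [h3, mul_one]
      exact mul_left_cancel₀ hl0 h5
    have h5 : (n : ZMod p) = 1 := by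
      rw [← inv_inv (n : ZMod p), h4, inv_one]
    rw [h5, one_pow]

theorem false_of_abelian : False := by
  apply h.hg₀D
  apply h.X_le_D
  apply h.hE g₀ h.hg₀R h.hg₀p
  intro r hr
  obtain ⟨y', hy'X, hy'Y⟩ := h.exists_not_mem_Y
  obtain ⟨i, d, hd, rfl⟩ := h.decomp_R hy'X hy'Y hr
  have hdY := h.comm_mem_Y hab hd
  have e : ⁅g₀, g₀ ^ i * d⁆ = g₀ ^ i * (⁅d, g₀⁆)⁻¹ * (g₀ ^ i)⁻¹ := by
    rw [commutatorElement_inv]
    simp only [commutatorElement_def, mul_inv_rev]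
    have c : g₀ * g₀ ^ i = g₀ ^ i * g₀ := (pow_succ' g₀ i).symm.trans (pow_succ g₀ i)
    rw [← mul_assoc g₀ (g₀ ^ i) d, c]
    group
  rw [e]
  have h2 := h.hYcen _ (inv_mem hdY) _ (pow_mem h.hg₀R i)
  rw [← h2, mul_inv_cancel_right]
  exact inv_mem hdY

end abelian

theorem act_Y_of_fixed {a d k : G} {n : ℕ} (ha : a ∈ A) (hd : d ∈ D) (hn : a * g₀ * a⁻¹ = g₀ ^ n * d)
    (hkX : k ∈ X) (hkY : k ∉ Y) (hfix : a * k * a⁻¹ = k) {y : G} (hy : y ∈ Y) : a * y * a⁻¹ = y ^ n := by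
  obtain ⟨l, hl⟩ := h.exists_lp ha
  obtain ⟨u, hu, e⟩ := hl k hkX
  rw [hfix] at e
  have h1 : k ^ 1 * (k ^ l)⁻¹ ∈ Y := by
    have hc : u * (k ^ l)⁻¹ = (k ^ l)⁻¹ * u := h.hYcen u hu _ (inv_mem (pow_mem (h.hXR hkX) l))
    rw [pow_one]
    nth_rewrite 1 [e]
    rw [mul_assoc, hc, mul_inv_cancel_left]
    exact hu
  have h2 : ((1 : ℕ) : ZMod p) = l := cast_of_mem hkY (by rw [h.hXexp k hkX]; exact one_mem _) h1
  rw [h.act_Y ha hd hn hl hy]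
  apply pow_eq_pow_of_cast' (h.Y_exp hy)
  push_cast
  push_cast at h2
  rw [← h2, one_mul]

theorem abelian_D : ∀ x ∈ D, ∀ y ∈ D, x * y = y * x := by
  by_contra hna
  have hpp := hp.out
  have hp2 : p ≠ 2 := by
    have := h.h5
    omega
  have hAD : A ≤ normalizer (D : Set G) := by
    intro a ha
    rw [mem_normalizer_iff]
    intro x
    constructor
    · exact h.D_normA ha
    · intro hx
      have := h.D_normA (inv_mem ha) hx
      have e : a⁻¹ * (a * x * a⁻¹) * a⁻¹⁻¹ = x := by group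
      rwa [e] at this
  obtain ⟨hab₀, hsup, hinf, hrest⟩ :=
    Cfsg.Agent.S1447.result p hp2 D A h.D_pgroup h.D_metacyclic hAD h.hcop
  have hnonab : ¬ IsMulCommutative D := by
    intro hc
    apply hna
    intro x hx y hy
    exact congrArg Subtype.val (hc.is_comm.comm ⟨x, hx⟩ ⟨y, hy⟩)
  by_cases hAc : A ≤ centralizer (D : Set G)
  · apply h.false_of_sq
    intro a ha n d hd hn
    obtain ⟨y', hy'X, hy'Y⟩ := h.exists_not_mem_Y
    have hfix : ∀ x ∈ D, a * x * a⁻¹ = x := by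
      intro x hx
      rw [← (mem_centralizer_iff.mp (hAc ha)) x hx, mul_inv_cancel_right]
    have hy₀ := h.hXY y' hy'X g₀ h.hg₀R
    have h1 := h.act_Y_of_fixed ha hd hn hy'X hy'Y (hfix y' (h.X_le_D hy'X)) hy₀
    rw [hfix _ (h.X_le_D (h.hYX hy₀))] at h1
    have h2 : ⁅y', g₀⁆ ^ 1 = ⁅y', g₀⁆ ^ n := by rw [pow_one]; exact h1
    have h3 := cast_of_pow_eq_pow' (h.Y_exp hy₀) (h.comm_ne hy'X hy'Y) h2
    rw [← h3]
    simp
  obtain ⟨hD₀ne, hD₀c, hK₀ne, hK₀c, hDD⟩ := hrest hnonab hAc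
  set D₀ : Subgroup G := ⁅D, A⁆ with hD₀
  set K₀ : Subgroup G := D ⊓ centralizer (A : Set G) with hK₀
  have hD₀D : D₀ ≤ D := Cfsg.Agent.Lib.Glauberman.commutator_le_of_le_normalizer hAD
  have hK₀D : K₀ ≤ D := inf_le_left
  have hcop' : (Nat.card A).Coprime (Nat.card D) := by
    obtain ⟨m, hm⟩ := IsPGroup.iff_card.mp h.D_pgroup
    rw [hm]
    exact Nat.Coprime.pow_right m h.hcop
  have hsolv : Group.IsSolvable A ∨ Group.IsSolvable D := by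
    right
    have := h.D_pgroup.isNilpotent
    infer_instance
  -- the derived group is central and contains `Y`
  have hDDD : (⁅D, D⁆ : Subgroup G) ≤ D := by
    rw [Subgroup.commutator_le]
    intro x hx y hy
    rw [commutatorElement_def]
    exact mul_mem (mul_mem (mul_mem hx hy) (inv_mem hx)) (inv_mem hy)
  haveI hDDc : IsCyclic (⁅D, D⁆ : Subgroup G) :=
    isCyclic_of_injective (Subgroup.inclusion hDD) (Subgroup.inclusion_injective hDD)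
  have hDDcen : ∀ r ∈ R, ∀ c ∈ (⁅D, D⁆ : Subgroup G), r * c = c * r := by
    intro r hr c hc
    exact cyclic_central (R := R) (A := A) (C := (⁅D, D⁆ : Subgroup G))
      (fun r hr c hc => conj_mem_comm_self (fun x hx => h.D_norm hr hx) hc)
      (fun a ha c hc => conj_mem_comm_self (fun x hx => h.D_normA ha hx) hc) h.hRA hr hc
  have hDDne : (⁅D, D⁆ : Subgroup G) ≠ ⊥ := by
    intro hbot
    apply hna
    intro x hx y hy
    have h1 := Subgroup.commutator_mem_commutator hx hy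
    rw [hbot, mem_bot, commutatorElement_eq_one_iff_mul_comm] at h1
    exact h1
  obtain ⟨c₀, hc₀, hc₀1, hc₀p⟩ := exists_order_p (h.D_pgroup.to_le hDDD) hDDne
  have hc₀Y : c₀ ∈ Y := h.hZ c₀ (h.D_R (hDDD hc₀)) (fun r hr => (hDDcen r hr c₀ hc₀).symm) hc₀p
  have hYDD : Y ≤ (⁅D, D⁆ : Subgroup G) := by
    intro y hy
    obtain ⟨k, rfl⟩ := h.gen_Y hc₀Y hc₀1 hy
    exact pow_mem hc₀ k
  have hYD₀ : Y ≤ D₀ := hYDD.trans hDD
  -- a fixed element of order `p`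
  obtain ⟨k₁, hk₁, hk₁1, hk₁p⟩ := exists_order_p (h.D_pgroup.to_le hK₀D) hK₀ne
  have hk₁X : k₁ ∈ X := h.hDΩ k₁ (hK₀D hk₁) hk₁p
  have hk₁D₀ : k₁ ∉ D₀ := by
    intro hmem
    have h1 : k₁ ∈ D₀ ⊓ K₀ := ⟨hmem, hk₁⟩
    rw [hinf, mem_bot] at h1
    exact hk₁1 h1
  have hk₁Y : k₁ ∉ Y := fun hmem => hk₁D₀ (hYD₀ hmem)
  have hk₁fix : ∀ a ∈ A, a * k₁ * a⁻¹ = k₁ := by
    intro a ha
    have h1 := mem_centralizer_iff.mp hk₁.2 a ha
    rw [h1, mul_inv_cancel_right]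
  -- generators
  obtain ⟨t', ht'⟩ := hD₀c.exists_generator
  set t : G := (t' : G) with ht
  have htD₀ : t ∈ D₀ := t'.2
  have htD : t ∈ D := hD₀D htD₀
  have hgen : ∀ x ∈ D₀, ∃ i : ℕ, x = t ^ i := by
    intro x hx
    obtain ⟨i, hi⟩ := Cfsg.Agent.Lib.Class2Det.exists_nat_of_mem_zpowers (ht' ⟨x, hx⟩)
    exact ⟨i, (congrArg Subtype.val hi).symm⟩
  obtain ⟨k₀', hk₀'⟩ := hK₀c.exists_generator
  set k₀ : G := (k₀' : G) with hk₀d
  have hk₀K : k₀ ∈ K₀ := k₀'.2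
  have hgenK : ∀ x ∈ K₀, ∃ i : ℕ, x = k₀ ^ i := by
    intro x hx
    obtain ⟨i, hi⟩ := Cfsg.Agent.Lib.Class2Det.exists_nat_of_mem_zpowers (hk₀' ⟨x, hx⟩)
    exact ⟨i, (congrArg Subtype.val hi).symm⟩
  -- decomposition of `D`
  have hdec : ∀ x ∈ D, ∃ k ∈ K₀, ∃ u ∈ D₀, x = k * u := by
    intro x hx
    obtain ⟨n, hn, hnx⟩ := Cfsg.Agent.Lib.Glauberman.exists_commutator_mul_centralizer hAD hcop' hsolv x hx
    have hc : n * x ∈ K₀ := ⟨mul_mem (hD₀D hn) hx, hnx⟩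
    refine ⟨n * x, hc, (n * x)⁻¹ * n⁻¹ * (n * x)⁻¹⁻¹,
      Cfsg.Agent.S1447.conj_mem_commutator (inv_mem (hK₀D hc)) (inv_mem hn), by group⟩
  -- the subgroup `D₁`
  set Φ := pthPowers p D with hΦ
  have hΦD : Φ ≤ D := pth_le p D
  obtain ⟨hΦab, hΦcl⟩ := h.pth_comm
  set D₁ : Subgroup G := D₀ ⊔ Φ with hD₁
  have hD₁D : D₁ ≤ D := sup_le hD₀D hΦD
  have hnotle : ¬ D ≤ D₁ := by
    let D₀' : Subgroup D := D₀.subgroupOf D
    haveI hD₀n : D₀'.Normal := ⟨fun n hn g => by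
      rw [mem_subgroupOf] at hn ⊢
      exact Cfsg.Agent.S1447.conj_mem_commutator g.2 hn⟩
    let π : D →* (D ⧸ D₀') := QuotientGroup.mk' D₀'
    have hπ : Function.Surjective π := QuotientGroup.mk'_surjective D₀'
    haveI hQc : IsCyclic (D ⧸ D₀') := by
      let f : K₀ →* (D ⧸ D₀') := π.comp (Subgroup.inclusion hK₀D)
      refine isCyclic_of_surjective f ?_
      intro q
      obtain ⟨⟨x, hx⟩, rfl⟩ := hπ q
      obtain ⟨k, hk, u, hu, rfl⟩ := hdec x hx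
      refine ⟨⟨k, hk⟩, ?_⟩
      apply QuotientGroup.eq.mpr
      rw [mem_subgroupOf]
      show k⁻¹ * (k * u) ∈ D₀
      rwa [inv_mul_cancel_left]
    have hQp : IsPGroup p (D ⧸ D₀') := h.D_pgroup.to_quotient _
    have hd : p ∣ Nat.card (D ⧸ D₀') := by
      obtain ⟨m, hm⟩ := IsPGroup.iff_card.mp hQp
      have hm0 : m ≠ 0 := by
        rintro rfl
        rw [pow_zero] at hm
        have hs : Subsingleton (D ⧸ D₀') := (Nat.card_eq_one_iff_unique.mp hm).1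
        have h1 : π ⟨k₁, hK₀D hk₁⟩ = 1 := Subsingleton.elim _ _
        have h2 : (⟨k₁, hK₀D hk₁⟩ : D) ∈ D₀' := (QuotientGroup.eq_one_iff _).mp h1
        exact hk₁D₀ h2
      rw [hm]
      exact dvd_pow_self p hm0
    obtain ⟨M, hMne, hMp⟩ := exists_proper_pow hd
    intro hle
    apply hMne
    rw [eq_top_iff]
    intro q _
    obtain ⟨⟨x, hx⟩, rfl⟩ := hπ q
    have hD₂ : D₁ ≤ (M.comap π).map D.subtype := by
      refine sup_le ?_ ?_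
      · intro y hy
        refine ⟨⟨y, hD₀D hy⟩, ?_, rfl⟩
        show π ⟨y, hD₀D hy⟩ ∈ M
        have : π ⟨y, hD₀D hy⟩ = 1 := (QuotientGroup.eq_one_iff _).mpr hy
        rw [this]
        exact one_mem _
      · rw [hΦ, pthPowers, closure_le]
        rintro _ ⟨d, hd, rfl⟩
        refine ⟨⟨d, hd⟩ ^ p, ?_, rfl⟩
        show π (⟨d, hd⟩ ^ p) ∈ M
        rw [map_pow]
        exact hMp _
    obtain ⟨y, hy, e⟩ := hD₂ (hle hx)
    have e' : y = ⟨x, hx⟩ := Subtype.ext e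
    rw [← e']
    exact hy
  -- the key element
  have hτD : ⁅t, g₀⁆ ∈ D := h.comm_mem_D htD h.hg₀R
  have hτ : ⁅t, g₀⁆ ∉ D₁ := by
    intro hτ
    -- `D₁` is normal in `R`
    have hnorm : ∀ g ∈ R, g * t * g⁻¹ ∈ D₁ → ∀ x ∈ D₁, g * x * g⁻¹ ∈ D₁ := by
      intro g hg hgt x hx
      have h1 : D₁ ≤ D₁.comap (MulAut.conj g).toMonoidHom := by
        refine sup_le ?_ ?_
        · intro y hy
          obtain ⟨i, rfl⟩ := hgen y hy
          show g * t ^ i * g⁻¹ ∈ D₁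
          rw [conj_pow']
          exact pow_mem hgt i
        · intro y hy
          exact (le_sup_right : Φ ≤ D₁) (pth_conj p (fun x hx => h.D_norm hg hx) hy)
      exact h1 hx
    have hg₀n : ∀ x ∈ D₁, g₀ * x * g₀⁻¹ ∈ D₁ := by
      apply hnorm g₀ h.hg₀R
      have e : g₀ * t * g₀⁻¹ = (⁅t, g₀⁆)⁻¹ * t := by
        simp only [commutatorElement_def]
        group
      rw [e]
      exact mul_mem (inv_mem hτ) ((le_sup_left : D₀ ≤ D₁) htD₀)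
    have hDn : ∀ d ∈ D, ∀ x ∈ D₁, d * x * d⁻¹ ∈ D₁ := by
      intro d hd
      apply hnorm d (h.D_R hd)
      exact (le_sup_left : D₀ ≤ D₁) (Cfsg.Agent.S1447.conj_mem_commutator hd htD₀)
    have hg₀in : ∀ i : ℕ, ∀ x ∈ D₁, g₀ ^ i * x * (g₀ ^ i)⁻¹ ∈ D₁ := by
      intro i
      induction i with
      | zero => intro x hx; simpa using hx
      | succ i ih =>
        intro x hx
        have e : g₀ ^ (i + 1) * x * (g₀ ^ (i + 1))⁻¹ = g₀ ^ i * (g₀ * x * g₀⁻¹) * (g₀ ^ i)⁻¹ := by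
          rw [pow_succ]
          group
        rw [e]
        exact ih _ (hg₀n x hx)
    obtain ⟨y', hy'X, hy'Y⟩ := h.exists_not_mem_Y
    have hRn : ∀ r ∈ R, ∀ x ∈ D₁, r * x * r⁻¹ ∈ D₁ := by
      intro r hr x hx
      obtain ⟨i, d, hd, rfl⟩ := h.decomp_R hy'X hy'Y hr
      have e : g₀ ^ i * d * x * (g₀ ^ i * d)⁻¹ = g₀ ^ i * (d * x * d⁻¹) * (g₀ ^ i)⁻¹ := by group
      rw [e]
      exact hg₀in i _ (hDn d hd x hx)
    let D₁' : Subgroup R := D₁.subgroupOf R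
    haveI hD₁n : D₁'.Normal := ⟨fun n hn g => by
      rw [mem_subgroupOf] at hn ⊢
      exact hRn g g.2 n hn⟩
    -- the index
    have hi1 : D₁.relIndex D ≤ p := by
      apply relIndex_le_of_gen (g := k₀) (hK₀D hk₀K)
      · exact (le_sup_right : Φ ≤ D₁) (pth_pow p (hK₀D hk₀K))
      · intro x hx
        obtain ⟨k, hk, u, hu, rfl⟩ := hdec x hx
        obtain ⟨i, rfl⟩ := hgenK k hk
        exact ⟨i, u, (le_sup_left : D₀ ≤ D₁) hu, rfl⟩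
    have hi2 : D.relIndex R ≤ p := by
      apply relIndex_le_of_gen (g := g₀) h.hg₀R
      · rw [h.hg₀p]
        exact one_mem _
      · intro x hx
        exact h.decomp_R hy'X hy'Y hx
    have hi3 : D₁.relIndex R ≤ p ^ 2 := by
      rw [← Subgroup.relIndex_mul_relIndex D₁ D R hD₁D h.D_R, pow_two]
      exact Nat.mul_le_mul hi1 hi2
    have hQ : IsPGroup p (R ⧸ D₁') := h.hR.to_quotient _
    have hcard : Nat.card (R ⧸ D₁') ≤ p ^ 2 := hi3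
    have hcomm : commutator R ≤ D₁' := by
      rw [_root_.commutator_def, Subgroup.commutator_le]
      intro x _ y _
      apply (QuotientGroup.eq_one_iff _).mp
      have h1 := comm_of_card_le_sq hQ hcard (x : R ⧸ D₁') (y : R ⧸ D₁')
      rw [← commutatorElement_eq_one_iff_mul_comm] at h1
      exact h1
    have hK₀D₁ : K₀ ≤ D₁ := by
      intro k hk
      have hkR : k ∈ R := h.D_R (hK₀D hk)
      have h1 := Cfsg.Agent.Lib.CoprimeAut.fixed_mem_commutator h.hR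
        (Cfsg.Agent.S1447.actHom R A h.hA).range
        (Nat.Coprime.coprime_dvd_left (Subgroup.card_range_dvd _) h.hcop)
        (Cfsg.Agent.S1447.closure_act R A h.hA h.hRA) ⟨k, hkR⟩ (by
          rintro _ ⟨a, rfl⟩
          apply Subtype.ext
          show (a : G) * k * (a : G)⁻¹ = k
          have h2 := mem_centralizer_iff.mp hk.2 a a.2
          rw [h2, mul_inv_cancel_right])
      exact hcomm h1
    apply hnotle
    rw [← hsup]
    exact sup_le le_sup_left hK₀D₁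
  -- the weights
  apply h.false_of_sq
  intro a ha n d hd hn
  have hy₀ := h.hXY k₁ hk₁X g₀ h.hg₀R
  have hy₁ := h.comm_ne hk₁X hk₁Y
  have h1 := h.act_Y_of_fixed ha hd hn hk₁X hk₁Y (hk₁fix a ha) hy₀
  have hAD₀ : A ≤ normalizer (D₀ : Set G) := Cfsg.Agent.Lib.Glauberman.le_normalizer_commutator hAD
  have hat : a * t * a⁻¹ ∈ D₀ := (mem_normalizer_iff.mp (hAD₀ ha) t).mp htD₀
  obtain ⟨w, hw⟩ := hgen _ hat
  obtain ⟨e, he⟩ := hgen _ (hYD₀ hy₀)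
  have hwn : (w : ZMod p) = n := by
    have h2 : a * ⁅k₁, g₀⁆ * a⁻¹ = ⁅k₁, g₀⁆ ^ w := by
      rw [he, conj_pow', hw, ← pow_mul, ← pow_mul, mul_comm]
    rw [h2] at h1
    exact cast_of_pow_eq_pow' (h.Y_exp hy₀) hy₁ h1
  have hbil := comm_bilin_mod (R := R) (N := D) (M := Φ) h.D_R (fun r hr x hx => h.D_norm hr hx)
    (fun r hr x hx => pth_conj p (fun y hy => h.D_norm hr hy) hx) hΦab hΦcl htD h.hg₀R (h.D_R hd) w n
  have hact : a * ⁅t, g₀⁆ * a⁻¹ = ⁅t ^ w, g₀ ^ n * d⁆ := by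
    rw [conj_comm, hw, hn]
  rw [← hact] at hbil
  have hf : ⁅t, d⁆ ^ w ∈ Φ := pow_mem (hΦab t htD d hd) w
  set τ := ⁅t, g₀⁆ with hτdef
  have hB : τ ^ (w * n) ∈ D := pow_mem hτD _
  have hE₁ : a * τ * a⁻¹ * (τ ^ (w * n))⁻¹ ∈ Φ := by
    have e1 : a * τ * a⁻¹ * (τ ^ (w * n))⁻¹ =
        (a * τ * a⁻¹ * (τ ^ (w * n) * ⁅t, d⁆ ^ w)⁻¹) * (τ ^ (w * n) * ⁅t, d⁆ ^ w * (τ ^ (w * n))⁻¹) := by group
    rw [e1]
    exact mul_mem hbil (pth_conj p (fun y hy => mul_mem (mul_mem hB hy) (inv_mem hB)) hf)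
  have hE₂ : τ * (a * τ * a⁻¹)⁻¹ ∈ D₀ := by
    have e1 : τ * (a * τ * a⁻¹)⁻¹ = ⁅τ, a⁆ := by
      simp only [commutatorElement_def]
      group
    rw [e1]
    exact Subgroup.commutator_mem_commutator hτD ha
  have hfinal : τ ^ 1 * (τ ^ (w * n))⁻¹ ∈ D₁ := by
    have e1 : τ ^ 1 * (τ ^ (w * n))⁻¹ = (τ * (a * τ * a⁻¹)⁻¹) * (a * τ * a⁻¹ * (τ ^ (w * n))⁻¹) := by group
    rw [e1]
    exact mul_mem ((le_sup_left : D₀ ≤ D₁) hE₂) ((le_sup_right : Φ ≤ D₁) hE₁)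
  have hcast : ((1 : ℕ) : ZMod p) = (w * n : ℕ) :=
    cast_of_mem hτ ((le_sup_right : Φ ≤ D₁) (pth_pow p hτD)) hfinal
  push_cast at hcast
  rw [hwn] at hcast
  rw [pow_two]
  exact hcast.symm

/-- The exceptional configuration does not exist. -/
theorem false : False := h.false_of_abelian h.abelian_D

end IIb

end IIbSec

end Cfsg.Agent.Lib.RankTwoA2
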