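import Mathlib
import Cfsg.Agent.Lib.MonoNu
import Cfsg.Agent.Lib.RealChars
import Cfsg.Agent.Lib.RealMono

/-!
# A real irreducible character over a linear character which is `G`-conjugate to its inverse

If `λ` is a linear character of odd order of a normal subgroup `M`, with `λ^s = λ̄` for some
`s ∈ G`, then some real valued irreducible character of `G` lies over `λ`.
-/

set_option autoImplicit false
set_option linter.unusedSectionVars false
set_option linter.unusedVariables false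
set_option linter.style.haveILetI false

namespace Cfsg.Agent.Lib.RealOver

open Cfsg Cfsg.Agent.Lib.CharBasic Cfsg.Agent.Lib.CharInd Cfsg.Agent.Lib.Gagola2
open Cfsg.Agent.Lib.Clifford Cfsg.Agent.Lib.RealChars
open scoped ComplexConjugate

universe u

section Abstract

variable {T : Type u} [Group T] [Fintype T] (M : Subgroup T) [hM : M.Normal] [Fintype M]
  (lam : M →* ℂˣ)

/-- The characters lying over `lam`. -/
def Over (ψ : T → ℂ) : Prop := ∀ (x : T) (m : M), ψ (x * m) = ψ x * (lam m : ℂ)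

theorem conj_lam (m : M) : conj ((lam m : ℂˣ) : ℂ) = ((lam m : ℂˣ) : ℂ)⁻¹ :=
  Cfsg.Agent.Lib.RealMono.conj_units_of_finite lam m

theorem lam_mul_conj (m : M) : ((lam m : ℂˣ) : ℂ) * conj ((lam m : ℂˣ) : ℂ) = 1 := by
  rw [conj_lam]
  exact mul_inv_cancel₀ (Units.ne_zero _)

/-- The central projection. -/
theorem proj_over_or_zero (hinv : ∀ (t : T) (m : M), lam (MulAut.conjNormal t m) = lam m)
    {ψ : T → ℂ} (hψ : IsIrrCharacter T ψ) (hnot : ¬ Over M lam ψ) (y : T) :
    ∑ m : M, ψ (y * m) * conj ((lam m : ℂˣ) : ℂ) = 0 := by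
  classical
  obtain ⟨k, ρ, hρ, rfl⟩ := hψ
  let P : (Fin k → ℂ) →ₗ[ℂ] (Fin k → ℂ) := ∑ m : M, conj ((lam m : ℂˣ) : ℂ) • ρ (m : T)
  have hcomm : ∀ g : T, P ∘ₗ ρ g = ρ g ∘ₗ P := by
    intro g
    apply LinearMap.ext
    intro v
    simp only [P, LinearMap.comp_apply, LinearMap.sum_apply, LinearMap.smul_apply, map_sum, map_smul]
    refine Fintype.sum_equiv (MulAut.conjNormal g⁻¹).toEquiv _ _ fun m => ?_
    have h1 : lam (MulAut.conjNormal g⁻¹ m) = lam m := hinv _ _
    simp only [MulEquiv.toEquiv_eq_coe, EquivLike.coe_coe]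
    rw [h1]
    congr 1
    rw [← Module.End.mul_apply, ← Module.End.mul_apply, ← map_mul, ← map_mul]
    congr 2
    rw [MulAut.conjNormal_apply]
    group
  obtain ⟨c, hc⟩ := schur_scalar hρ P hcomm
  have hmul : ∀ m₀ : M, ρ (m₀ : T) ∘ₗ P = ((lam m₀ : ℂˣ) : ℂ) • P := by
    intro m₀
    apply LinearMap.ext
    intro v
    simp only [P, LinearMap.comp_apply, LinearMap.sum_apply, LinearMap.smul_apply, map_sum, map_smul]
    rw [Finset.smul_sum]
    refine Fintype.sum_equiv (Equiv.mulLeft m₀) _ _ fun m => ?_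
    simp only [Equiv.coe_mulLeft, map_mul, Units.val_mul, Subgroup.coe_mul]
    rw [smul_smul, ← Module.End.mul_apply, ← map_mul]
    congr 1
    rw [← mul_assoc, lam_mul_conj, one_mul]
  by_cases hc0 : c = 0
  · have hP0 : P = 0 := by rw [hc, hc0, zero_smul]
    have h1 : ∑ m : M, ρ.character (y * m) * conj ((lam m : ℂˣ) : ℂ) =
        LinearMap.trace ℂ _ (ρ y ∘ₗ P) := by
      simp only [P, ← Module.End.mul_eq_comp, Finset.mul_sum, map_sum]
      refine Finset.sum_congr rfl fun m _ => ?_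
      rw [mul_smul_comm, map_smul, ← map_mul, smul_eq_mul, mul_comm]
      rfl
    rw [h1, hP0, LinearMap.comp_zero, map_zero]
  · exfalso
    apply hnot
    intro x m₀
    have h2 : ρ (m₀ : T) = ((lam m₀ : ℂˣ) : ℂ) • LinearMap.id := by
      have h3 := hmul m₀
      rw [hc] at h3
      apply LinearMap.ext
      intro v
      have h4 := LinearMap.congr_fun h3 v
      simp only [LinearMap.comp_apply, LinearMap.smul_apply, LinearMap.id_apply, map_smul] at h4
      rw [smul_comm] at h4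
      simpa using smul_right_injective _ hc0 h4
    show LinearMap.trace ℂ _ (ρ (x * m₀)) = LinearMap.trace ℂ _ (ρ x) * _
    rw [map_mul, h2]
    simp only [Module.End.mul_eq_comp, LinearMap.comp_smul, LinearMap.comp_id, map_smul, smul_eq_mul]
    ring

theorem over_sum {ψ : T → ℂ} (hover : Over M lam ψ) (y : T) :
    ∑ m : M, ψ (y * m) * conj ((lam m : ℂˣ) : ℂ) = (Nat.card M : ℂ) * ψ y := by
  have h1 : ∀ m : M, ψ (y * m) * conj ((lam m : ℂˣ) : ℂ) = ψ y := by
    intro m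
    rw [hover, mul_assoc, lam_mul_conj, mul_one]
  simp only [h1, Finset.sum_const, Finset.card_univ, nsmul_eq_mul]
  rw [Fintype.card_eq_nat_card]

open scoped Classical in
/-- The characters over `lam`. -/
noncomputable def overSet : Finset (IrrCharacter T) :=
  Finset.univ.filter fun ψ => Over M lam (ψ : T → ℂ)

open scoped Classical in
theorem theta_eq (hinv : ∀ (t : T) (m : M), lam (MulAut.conjNormal t m) = lam m) (y x : T) :
    ∑ ψ ∈ overSet M lam, (ψ : T → ℂ) y * conj ((ψ : T → ℂ) x) =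
      (Nat.card M : ℂ)⁻¹ * ∑ m : M, conj ((lam m : ℂˣ) : ℂ) *
        (if IsConj (y * m) x then (Nat.card (Subgroup.centralizer ({x} : Set T)) : ℂ) else 0) := by
  have hM0 : (Nat.card M : ℂ) ≠ 0 := natCard_subgroup_ne_zero M
  simp only [← sum_irr_mul_conj]
  have h1 : ∀ m : M, conj ((lam m : ℂˣ) : ℂ) *
      ∑ χ : IrrCharacter T, (χ : T → ℂ) (y * m) * conj ((χ : T → ℂ) x) =
      ∑ χ : IrrCharacter T, (χ : T → ℂ) (y * m) * conj ((lam m : ℂˣ) : ℂ) * conj ((χ : T → ℂ) x) := by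
    intro m
    rw [Finset.mul_sum]
    refine Finset.sum_congr rfl fun χ _ => ?_
    ring
  simp only [h1]
  rw [Finset.sum_comm]
  simp only [← Finset.sum_mul]
  rw [overSet, Finset.sum_filter, Finset.mul_sum]
  refine Finset.sum_congr rfl fun ψ _ => ?_
  by_cases hψ : Over M lam (ψ : T → ℂ)
  · rw [if_pos hψ, over_sum M lam hψ]
    field_simp
  · rw [if_neg hψ, proj_over_or_zero M lam hinv ψ.2 hψ]
    simp

open scoped Classical in
theorem theta_eq_zero (hinv : ∀ (t : T) (m : M), lam (MulAut.conjNormal t m) = lam m) {y x : T}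
    (h : ∀ m : M, ¬ IsConj (y * m) x) :
    ∑ ψ ∈ overSet M lam, (ψ : T → ℂ) y * conj ((ψ : T → ℂ) x) = 0 := by
  rw [theta_eq M lam hinv]
  apply mul_eq_zero_of_right
  refine Finset.sum_eq_zero fun m _ => ?_
  rw [if_neg (h m), mul_zero]

open scoped Classical in
theorem theta_one (hinv : ∀ (t : T) (m : M), lam (MulAut.conjNormal t m) = lam m) :
    ∑ ψ ∈ overSet M lam, (ψ : T → ℂ) 1 * conj ((ψ : T → ℂ) 1) =
      (Nat.card M : ℂ)⁻¹ * (Nat.card T : ℂ) := by
  rw [theta_eq M lam hinv]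
  congr 1
  rw [Finset.sum_eq_single (1 : M)]
  · have h1 : Subgroup.centralizer ({(1 : T)} : Set T) = ⊤ := by
      ext g
      simp [Subgroup.mem_centralizer_iff]
    simp [h1, Subgroup.card_top]
  · intro m _ hm
    rw [if_neg, mul_zero]
    intro hc
    apply hm
    simp only [one_mul] at hc
    exact Subtype.ext (isConj_one_right.mp hc.symm)
  · intro h
    exact absurd (Finset.mem_univ _) h

/-- **Existence of a fixed point of the twisted complex conjugation.** -/
theorem exists_fixed (hinv : ∀ (t : T) (m : M), lam (MulAut.conjNormal t m) = lam m)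
    (a : T ≃* T) (ham : ∀ m : M, a m ∈ M) (hlam : ∀ m : M, lam ⟨a m, ham m⟩ = (lam m)⁻¹)
    (u : T) (haa : ∀ x, a (a x) = u * x * u⁻¹) {k : ℕ} (hk : Odd k)
    (hexp : ∀ m : M, lam m ^ k = 1) :
    ∃ ψ : IrrCharacter T, Over M lam (ψ : T → ℂ) ∧ ∀ x, (ψ : T → ℂ) (a x⁻¹) = (ψ : T → ℂ) x := by
  classical
  have hT0 : (Nat.card T : ℂ) ≠ 0 := natCard_ne_zero'
  have hM0 : (Nat.card M : ℂ) ≠ 0 := natCard_subgroup_ne_zero M
  -- the twist of a character over `lam`
  have hkey : ∀ ψ ∈ overSet M lam, ∀ (x g : T) (m : M), a x⁻¹ * m = g * x * g⁻¹ →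
      (ψ : T → ℂ) (a x⁻¹) = (ψ : T → ℂ) x := by
    intro ψ hψ x g m hxm
    have hover : Over M lam (ψ : T → ℂ) := (Finset.mem_filter.mp hψ).2
    have hcl := isClassFunction_of_isCharacter (IsIrrCharacter.isCharacter ψ.2)
    have hcomm := char_mul_comm' (IsIrrCharacter.isCharacter ψ.2)
    set c : ℂ := ((lam m : ℂˣ) : ℂ) with hc
    -- first relation
    have h1 : (ψ : T → ℂ) x = (ψ : T → ℂ) (a x⁻¹) * c := by
      rw [hc, ← hover, hxm]
      exact (hcl x g).symm
    -- second relation, for the twist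
    have hm' : a (m : T)⁻¹ ∈ M := ham m⁻¹
    have h2 : (ψ : T → ℂ) (a (a x⁻¹)⁻¹) = (ψ : T → ℂ) x := by
      have e : (a x⁻¹)⁻¹ = a x := by rw [map_inv, inv_inv]
      rw [e, haa]
      exact hcl x u
    have h3 : (ψ : T → ℂ) (a (a x⁻¹ * m)⁻¹) = (ψ : T → ℂ) (a x⁻¹) := by
      rw [hxm]
      have e : (g * x * g⁻¹)⁻¹ = g * x⁻¹ * g⁻¹ := by group
      rw [e, map_mul, map_mul, map_inv a g]
      exact hcl _ _
    have h4 : (ψ : T → ℂ) (a (a x⁻¹ * m)⁻¹) = (ψ : T → ℂ) x * c := by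
      have e : (a x⁻¹ * m)⁻¹ = (m : T)⁻¹ * (a x⁻¹)⁻¹ := by group
      rw [e, map_mul, hcomm]
      have h5 := hover (a (a x⁻¹)⁻¹) ⟨a (m : T)⁻¹, hm'⟩
      simp only at h5
      rw [h5, h2]
      congr 1
      have h6 := hlam m⁻¹
      have h7 : (⟨a ((m⁻¹ : M) : T), ham m⁻¹⟩ : M) = ⟨a (m : T)⁻¹, hm'⟩ := rfl
      rw [h7] at h6
      rw [h6, map_inv, inv_inv]
    have h5 : (ψ : T → ℂ) (a x⁻¹) = (ψ : T → ℂ) x * c := h3.symm.trans h4
    by_cases hx : (ψ : T → ℂ) x = 0
    · rw [h5, hx, zero_mul]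
    · have h6 : c * c = 1 := by
        have h7 : (ψ : T → ℂ) x * (c * c) = (ψ : T → ℂ) x * 1 := by
          rw [mul_one]
          conv_rhs => rw [h1, h5]
          ring
        exact mul_left_cancel₀ hx h7
      have h8 : lam m = 1 := by
        obtain ⟨j, rfl⟩ := hk
        have h9 := hexp m
        have h10 : lam m * lam m = 1 := Units.ext h6
        rw [pow_succ, pow_mul, sq, h10, one_pow, one_mul] at h9
        exact h9
      rw [h5, hc, h8]
      simp
  -- nonnegativity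
  have hnn : ∀ x : T, ∃ r : ℝ, 0 ≤ r ∧
      ∑ ψ ∈ overSet M lam, (ψ : T → ℂ) (a x⁻¹) * conj ((ψ : T → ℂ) x) = r := by
    intro x
    by_cases h : ∃ m : M, IsConj (a x⁻¹ * m) x
    · obtain ⟨m, hm⟩ := h
      obtain ⟨g, hg⟩ := isConj_iff.mp hm.symm
      refine ⟨∑ ψ ∈ overSet M lam, Complex.normSq ((ψ : T → ℂ) x),
        Finset.sum_nonneg fun ψ _ => Complex.normSq_nonneg _, ?_⟩
      push_cast
      refine Finset.sum_congr rfl fun ψ hψ => ?_
      rw [hkey ψ hψ x g m hg.symm]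
      exact Complex.mul_conj _
    · push Not at h
      exact ⟨0, le_rfl, by rw [theta_eq_zero M lam hinv h]; simp⟩
  choose r hr0 hr using hnn
  have hr1 : r 1 ≠ 0 := by
    intro h0
    have h1 := hr 1
    rw [h0] at h1
    simp only [inv_one, map_one] at h1
    rw [theta_one M lam hinv] at h1
    simp only [Complex.ofReal_zero] at h1
    exact (mul_ne_zero (inv_ne_zero hM0) hT0) h1
  have hsum : ∑ x : T, r x ≠ 0 := by
    intro h0
    have := (Finset.sum_eq_zero_iff_of_nonneg (fun x _ => hr0 x)).mp h0 1 (Finset.mem_univ 1)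
    exact hr1 this
  have hsum' : ∑ ψ ∈ overSet M lam, ∑ x : T, (ψ : T → ℂ) (a x⁻¹) * conj ((ψ : T → ℂ) x) ≠ 0 := by
    rw [Finset.sum_comm]
    simp only [hr]
    exact_mod_cast hsum
  obtain ⟨ψ, hψ, hne⟩ := Finset.exists_ne_zero_of_sum_ne_zero hsum'
  refine ⟨ψ, (Finset.mem_filter.mp hψ).2, ?_⟩
  -- the twist is irreducible
  let f : T → ℂ := fun x => (ψ : T → ℂ) (a x⁻¹)
  have hf : f = fun x => conj (((ψ : T → ℂ) ∘ a.toMonoidHom) x) := by
    funext x
    show (ψ : T → ℂ) (a x⁻¹) = conj ((ψ : T → ℂ) (a x))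
    rw [char_conj_eq_inv (IsIrrCharacter.isCharacter ψ.2), map_inv]
  have hfirr : IsIrrCharacter T f := by
    rw [hf]
    exact isIrrCharacter_conj (isIrrCharacter_comp_of_surjective a.toMonoidHom a.surjective ψ.2)
  by_contra hcon
  have hne2 : f ≠ (ψ : T → ℂ) := fun h => hcon fun x => congrFun h x
  have h0 := classInner_irr_ne hfirr ψ.2 hne2
  unfold classInner at h0
  rcases mul_eq_zero.mp h0 with h1 | h1
  · exact inv_ne_zero hT0 h1
  · exact hne h1

end Abstract

section Main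

variable {G : Type u} [Group G] [Fintype G]

/-- **Existence of the real character.** -/
theorem exists_real_over (M : Subgroup G) (hM : M.Normal) [Fintype M] (lam : M →* ℂˣ) {k : ℕ}
    (hk : Odd k) (hexp : ∀ m : M, lam m ^ k = 1) (s : G)
    (hs : ∀ n : M, lam ⟨s * n * s⁻¹, hM.conj_mem n n.2 s⟩ = (lam n)⁻¹) :
    ∃ χ : IrrCharacter G, (∀ g, ((χ : G → ℂ) g).im = 0) ∧
      classInner (fun n : M => (χ : G → ℂ) n) (fun n => ((lam n : ℂˣ) : ℂ)) ≠ 0 := by
  classical
  haveI : M.Normal := hM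
  let θ : M → ℂ := fun n => ((lam n : ℂˣ) : ℂ)
  have hθ : IsIrrCharacter M θ := isIrrCharacter_of_hom lam
  let T : Subgroup G := inertia M hM θ
  haveI : Fintype T := Fintype.ofFinite _
  have hTmem : ∀ g : G, g ∈ T ↔ ∀ n : M, lam ⟨g * n * g⁻¹, hM.conj_mem n n.2 g⟩ = lam n := by
    intro g
    constructor
    · intro h n
      exact Units.ext (mem_inertia.mp h n _ rfl)
    · intro h
      rw [mem_inertia]
      intro n n' hn
      have : n' = ⟨g * n * g⁻¹, hM.conj_mem n n.2 g⟩ := Subtype.ext hn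
      rw [this]
      exact congrArg Units.val (h n)
  have hMT : M ≤ T := by
    intro x hx
    rw [hTmem]
    intro n
    have : (⟨x * n * x⁻¹, hM.conj_mem n n.2 x⟩ : M) = ⟨x, hx⟩ * n * (⟨x, hx⟩ : M)⁻¹ := rfl
    rw [this, map_mul, map_mul, map_inv, mul_comm (lam ⟨x, hx⟩), mul_inv_cancel_right]
  let M' : Subgroup T := M.subgroupOf T
  haveI : M'.Normal := Subgroup.Normal.subgroupOf hM T
  haveI : Fintype M' := Fintype.ofFinite _
  let e : M' ≃* M := Subgroup.subgroupOfEquivOfLe hMT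
  let lam' : M' →* ℂˣ := lam.comp e.toMonoidHom
  have hlam'val : ∀ m : M', lam' m = lam (e m) := fun m => rfl
  have hinv' : ∀ (t : T) (m : M'), lam' (MulAut.conjNormal t m) = lam' m := by
    intro t m
    have h1 := (hTmem t).mp t.2 (e m)
    rw [hlam'val, hlam'val, ← h1]
    congr 1
  -- `s` normalizes `T`
  have hsT : ∀ y, y ∈ T → s * y * s⁻¹ ∈ T := by
    intro y hy
    rw [hTmem] at hy ⊢
    intro n
    let n' : M := ⟨s⁻¹ * n * s, by simpa using hM.conj_mem n n.2 s⁻¹⟩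
    have h1 := hy n'
    have h2 := hs ⟨y * n' * y⁻¹, hM.conj_mem _ n'.2 y⟩
    have h3 := hs n'
    have e1 : (⟨s * y * s⁻¹ * n * (s * y * s⁻¹)⁻¹, hM.conj_mem _ n.2 _⟩ : M) =
        ⟨s * (y * n' * y⁻¹) * s⁻¹, hM.conj_mem _ (hM.conj_mem _ n'.2 y) s⟩ := by
      apply Subtype.ext
      simp only [n']
      group
    have e2 : n = ⟨s * n' * s⁻¹, hM.conj_mem _ n'.2 s⟩ := by
      apply Subtype.ext
      simp only [n']
      group
    rw [e1, h2, h1, ← h3, ← e2]
  have hsT' : ∀ y, y ∈ T → s⁻¹ * y * s ∈ T := by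
    intro y hy
    rw [hTmem] at hy ⊢
    intro n
    -- apply the invertibility of the inversion
    have h1 := hy ⟨s * n * s⁻¹, hM.conj_mem n n.2 s⟩
    have h2 := hs ⟨s⁻¹ * y * s * n * (s⁻¹ * y * s)⁻¹, hM.conj_mem _ n.2 _⟩
    have h3 := hs n
    have e1 : (⟨s * (⟨s⁻¹ * y * s * n * (s⁻¹ * y * s)⁻¹, hM.conj_mem _ n.2 _⟩ : M) * s⁻¹, hM.conj_mem _ (hM.conj_mem _ n.2 _) s⟩ : M) =
        ⟨y * (⟨s * n * s⁻¹, hM.conj_mem n n.2 s⟩ : M) * y⁻¹, hM.conj_mem _ (hM.conj_mem n n.2 s) y⟩ := by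
      apply Subtype.ext
      show s * (s⁻¹ * y * s * n * (s⁻¹ * y * s)⁻¹) * s⁻¹ = y * (s * n * s⁻¹) * y⁻¹
      group
    rw [e1, h1, h3] at h2
    exact inv_injective h2.symm
  let a : T ≃* T :=
    { toFun := fun y => ⟨s * y * s⁻¹, hsT y y.2⟩
      invFun := fun y => ⟨s⁻¹ * y * s, hsT' y y.2⟩
      left_inv := fun y => by
        apply Subtype.ext
        show s⁻¹ * (s * y * s⁻¹) * s = y
        group
      right_inv := fun y => by
        apply Subtype.ext
        show s * (s⁻¹ * y * s) * s⁻¹ = y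
        group
      map_mul' := fun x y => by
        apply Subtype.ext
        show s * ((x : G) * y) * s⁻¹ = (s * x * s⁻¹) * (s * y * s⁻¹)
        group }
  have haval : ∀ y : T, ((a y : T) : G) = s * y * s⁻¹ := fun y => rfl
  have ham : ∀ m : M', a m ∈ M' := by
    intro m
    show ((a m : T) : G) ∈ M
    rw [haval]
    exact hM.conj_mem _ m.2 s
  have hlam : ∀ m : M', lam' ⟨a m, ham m⟩ = (lam' m)⁻¹ := by
    intro m
    rw [hlam'val, hlam'val, ← hs (e m)]
    rfl
  have hss : s * s ∈ T := by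
    rw [hTmem]
    intro n
    have h1 := hs ⟨s * n * s⁻¹, hM.conj_mem n n.2 s⟩
    have h2 := hs n
    have e1 : (⟨s * (⟨s * n * s⁻¹, hM.conj_mem n n.2 s⟩ : M) * s⁻¹, hM.conj_mem _ (hM.conj_mem n n.2 s) s⟩ : M) =
        ⟨s * s * n * (s * s)⁻¹, hM.conj_mem n n.2 _⟩ := by
      apply Subtype.ext
      show s * (s * n * s⁻¹) * s⁻¹ = s * s * n * (s * s)⁻¹
      group
    rw [e1, h2, inv_inv] at h1
    exact h1
  have haa : ∀ x : T, a (a x) = ⟨s * s, hss⟩ * x * (⟨s * s, hss⟩ : T)⁻¹ := by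
    intro x
    apply Subtype.ext
    show s * (s * x * s⁻¹) * s⁻¹ = s * s * x * (s * s)⁻¹
    group
  have hexp' : ∀ m : M', lam' m ^ k = 1 := fun m => hexp (e m)
  obtain ⟨ψ, hover, hfix⟩ := exists_fixed M' lam' hinv' a ham hlam _ haa hk hexp'
  -- over `lam`
  have hψres : ∀ n : M, (ψ : T → ℂ) ⟨n, hMT n.2⟩ = (ψ : T → ℂ) 1 * θ n := by
    intro n
    have h1 := hover 1 (e.symm n)
    rw [one_mul] at h1
    have h2 : ((e.symm n : M') : T) = ⟨n, hMT n.2⟩ := rfl
    rw [h2] at h1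
    rw [h1]
    congr 1
  have hψ0 : (ψ : T → ℂ) 1 ≠ 0 := Cfsg.Agent.Lib.CharAvg.irr_one_ne_zero ψ.2
  have hoverθ : classInner (fun n : M => (ψ : T → ℂ) ⟨(n : G), hMT n.2⟩) θ = (ψ : T → ℂ) 1 := by
    have h1 : (fun n : M => (ψ : T → ℂ) ⟨(n : G), hMT n.2⟩) = ((ψ : T → ℂ) 1) • θ := by
      funext n
      rw [hψres]
      rfl
    rw [h1, classInner_smul_left, classInner_irr_self hθ, mul_one]
  have hirr := indFun_irr_of_over M T hθ (by
    intro g
    rw [hTmem]
    constructor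
    · intro h n
      exact congrArg Units.val (h n)
    · intro h n
      exact Units.ext (h n)) hMT ψ.2 (by rw [hoverθ]; exact hψ0)
  obtain ⟨hχ, hmult⟩ := hirr
  -- the extension by zero
  have hext : ∀ y : G, conj (extendByZero T (ψ : T → ℂ) y) = extendByZero T (ψ : T → ℂ) (s * y * s⁻¹) := by
    intro y
    by_cases hy : y ∈ T
    · have hy' := hsT y hy
      rw [extendByZero_of_mem T _ hy, extendByZero_of_mem T _ hy']
      rw [char_conj_eq_inv (IsIrrCharacter.isCharacter ψ.2)]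
      have h1 := hfix (⟨y, hy⟩ : T)⁻¹
      rw [inv_inv] at h1
      exact h1.symm
    · have hy' : s * y * s⁻¹ ∉ T := by
        intro h
        apply hy
        have := hsT' _ h
        simpa [mul_assoc] using this
      rw [extendByZero_of_not_mem T _ hy, extendByZero_of_not_mem T _ hy', map_zero]
  have hreal : ∀ g, conj (indFun T (ψ : T → ℂ) g) = indFun T (ψ : T → ℂ) g := by
    intro g
    rw [indFun_apply, map_mul, map_inv₀, map_natCast, map_sum]
    congr 1
    rw [← Equiv.sum_comp (Equiv.mulRight s)]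
    refine Finset.sum_congr rfl fun x _ => ?_
    rw [hext]
    congr 1
    simp only [Equiv.coe_mulRight]
    group
  refine ⟨⟨_, hχ⟩, fun g => Complex.conj_eq_iff_im.mp (hreal g), ?_⟩
  show classInner (fun n : M => indFun T (ψ : T → ℂ) n) θ ≠ 0
  rw [hmult, hoverθ]
  exact hψ0

end Main

end Cfsg.Agent.Lib.RealOver
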