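import Mathlib
import Cfsg.Agent.Lib.RealOver
import Cfsg.Agent.Lib.RealCore

/-!
# Normal subgroups inside the derived subgroup of a `p`-subgroup are centralized by `2`-elements

If every real irreducible character has degree prime to the odd prime `p`, every `2`-element
centralizes each normal subgroup of `G` contained in the derived subgroup of a `p`-subgroup.
-/

set_option autoImplicit false
set_option linter.unusedSectionVars false
set_option linter.unusedVariables false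
set_option linter.style.haveILetI false

namespace Cfsg.Agent.Lib.RealComm

open Cfsg Cfsg.Agent.Lib.CharBasic Cfsg.Agent.Lib.CharInd Cfsg.Agent.Lib.Gagola2
open Cfsg.Agent.Lib.RealOver Cfsg.Agent.Lib.RealCore
open scoped ComplexConjugate

universe u

section Step

variable {G : Type u} [Group G] [Finite G]

/-- A `2`-element moving `N` has a power which acts as an involution. -/
theorem exists_involutive_power {N : Subgroup G} (hN : N.Normal)
    {t : G} {k : ℕ} (hk : t ^ (2 ^ k) = 1) {n₁ : G} (hn₁ : n₁ ∈ N) (hne : t * n₁ * t⁻¹ ≠ n₁) :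
    ∃ s : G, (∀ n ∈ N, s * (s * n * s⁻¹) * s⁻¹ = n) ∧ ∃ n₀ ∈ N, s * n₀ * s⁻¹ ≠ n₀ := by
  classical
  let Pj : ℕ → Prop := fun j => ∀ x ∈ N, t ^ (2 ^ j) * x * (t ^ (2 ^ j))⁻¹ = x
  have hPk : Pj k := by
    intro x hx
    rw [hk]
    simp
  have hP0 : ¬ Pj 0 := by
    intro h0
    apply hne
    have := h0 n₁ hn₁
    simpa using this
  let j := Nat.find (⟨k, hPk⟩ : ∃ j, Pj j)
  have hj : Pj j := Nat.find_spec (⟨k, hPk⟩ : ∃ j, Pj j)
  have hj0 : j ≠ 0 := by
    intro h0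
    apply hP0
    rw [← h0]
    exact hj
  obtain ⟨i, hi⟩ := Nat.exists_eq_succ_of_ne_zero hj0
  have hPi : ¬ Pj i := Nat.find_min (⟨k, hPk⟩ : ∃ j, Pj j) (m := i) (by
    show i < j
    omega)
  have hPi' : ∃ x ∈ N, t ^ (2 ^ i) * x * (t ^ (2 ^ i))⁻¹ ≠ x := by
    by_contra hno
    push Not at hno
    exact hPi hno
  refine ⟨t ^ (2 ^ i), ?_, hPi'⟩
  intro n hn
  have := hj n hn
  rw [hi, Nat.succ_eq_add_one, pow_succ, pow_mul, sq] at this
  calc t ^ 2 ^ i * (t ^ 2 ^ i * n * (t ^ 2 ^ i)⁻¹) * (t ^ 2 ^ i)⁻¹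
      = t ^ 2 ^ i * t ^ 2 ^ i * n * (t ^ 2 ^ i * t ^ 2 ^ i)⁻¹ := by group
    _ = n := this

/-- A homomorphism from a `p`-subgroup to `ℂˣ` is trivial on its derived subgroup. -/
theorem hom_trivial_commutator {Q : Subgroup G} (β : Q →* ℂˣ) {u : G} (hu : u ∈ ⁅Q, Q⁆)
    (huQ : u ∈ Q) : β ⟨u, huQ⟩ = 1 := by
  have h1 : ⁅Q, Q⁆ ≤ (β.ker).map Q.subtype := by
    rw [Subgroup.commutator_le]
    intro a ha b hb
    refine ⟨⟨a, ha⟩ * ⟨b, hb⟩ * (⟨a, ha⟩ : Q)⁻¹ * (⟨b, hb⟩ : Q)⁻¹, ?_, rfl⟩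
    show β _ = 1
    simp only [map_mul, map_inv]
    rw [mul_comm (β ⟨a, ha⟩) (β ⟨b, hb⟩)]
    simp
  obtain ⟨v, hv, hve⟩ := h1 hu
  have h2 : v = ⟨u, huQ⟩ := Subtype.ext hve
  rw [← h2]
  exact hv

/-- **The elementary step.** -/
theorem centralizes_min {p : ℕ} [hp : Fact p.Prime] (hp2 : p ≠ 2)
    (hreal : ∀ χ : IrrCharacter G, (∀ g : G, ((χ : G → ℂ) g).im = 0) → ¬ p ∣ charDegree (χ : G → ℂ))
    {Q : Subgroup G} (hQ : IsPGroup p Q) {U : Subgroup G} (hU : U.Normal)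
    (hcomm : ∀ x ∈ U, ∀ y ∈ U, x * y = y * x) (hexp : ∀ a ∈ U, a ^ p = 1) (hUQ : U ≤ ⁅Q, Q⁆)
    {t : G} {k : ℕ} (hk : t ^ (2 ^ k) = 1) : ∀ u ∈ U, t * u * t⁻¹ = u := by
  classical
  haveI := Fintype.ofFinite G
  haveI : Fintype U := Fintype.ofFinite U
  haveI := hU
  haveI : Fintype Q := Fintype.ofFinite Q
  intro n₁ hn₁
  by_contra hne
  have hQQ : ⁅Q, Q⁆ ≤ Q := Subgroup.commutator_le.mpr fun a ha b hb =>
    Q.mul_mem (Q.mul_mem (Q.mul_mem ha hb) (Q.inv_mem ha)) (Q.inv_mem hb)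
  obtain ⟨s, hs2, n₀, hn₀, hne₀⟩ := exists_involutive_power hU hk hn₁ hne
  obtain ⟨lam, hlam1, hsinv⟩ := exists_inverted hU hcomm hs2 hn₀ hne₀
  have hlamexp : ∀ m : U, lam m ^ p = 1 := by
    intro m
    rw [← map_pow]
    have : m ^ p = 1 := Subtype.ext (hexp m m.2)
    rw [this, map_one]
  obtain ⟨χ, hχreal, hχover⟩ := exists_real_over U hU lam (hp.out.odd_of_ne_two hp2) hlamexp s hsinv
  have hχp := hreal χ hχreal
  have hχc := IsIrrCharacter.isCharacter χ.2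
  -- not in the kernel
  have hker : ∃ x ∈ U, (χ : G → ℂ) x ≠ (χ : G → ℂ) 1 := by
    by_contra hno
    push Not at hno
    apply hχover
    have h1 : (fun n : U => (χ : G → ℂ) n) = ((χ : G → ℂ) 1) • fun _ => (1 : ℂ) := by
      funext n
      rw [hno n n.2]
      simp
    rw [h1, classInner_smul_left]
    have hne1 : (fun _ : U => (1 : ℂ)) ≠ fun n => ((lam n : ℂˣ) : ℂ) := by
      intro h
      apply hlam1
      ext n
      have := congrFun h n
      simpa using this.symm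
    rw [classInner_irr_ne isIrrCharacter_one (isIrrCharacter_of_hom lam) hne1, mul_zero]
  have hsum0 : ∑ n : U, (χ : G → ℂ) n = 0 := Cfsg.Agent.Lib.CharNormal.sum_normal_eq_zero' χ.2 U hker
  -- decomposition on `Q`
  have hresc : IsCharacter Q (fun y : Q => (χ : G → ℂ) y) := isCharacter_restrict Q hχc
  obtain ⟨m, hm⟩ := exists_nat_decomp hresc
  have hval : ∀ y : Q, (χ : G → ℂ) y = ∑ η : IrrCharacter Q, (m η : ℂ) * (η : Q → ℂ) y := by
    intro y
    have := congrFun hm y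
    simp only [Finset.sum_apply, Pi.smul_apply, nsmul_eq_mul] at this
    exact this
  have hdeg : ((charDegree (χ : G → ℂ) : ℕ) : ℂ) = ((∑ η : IrrCharacter Q, m η * charDegree (η : Q → ℂ) : ℕ) : ℂ) := by
    rw [← Cfsg.Agent.Lib.CharKernel.one_eq_charDegree hχc]
    have := hval 1
    simp only [OneMemClass.coe_one] at this
    rw [this]
    push_cast
    refine Finset.sum_congr rfl fun η _ => ?_
    rw [Cfsg.Agent.Lib.CharKernel.one_eq_charDegree (IsIrrCharacter.isCharacter η.2)]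
  have hdeg' : charDegree (χ : G → ℂ) = ∑ η : IrrCharacter Q, m η * charDegree (η : Q → ℂ) := by
    exact_mod_cast hdeg
  -- a linear constituent
  have hex : ∃ η : IrrCharacter Q, m η ≠ 0 ∧ ¬ p ∣ charDegree (η : Q → ℂ) := by
    by_contra hno
    push Not at hno
    apply hχp
    rw [hdeg']
    apply Finset.dvd_sum
    intro η _
    by_cases h : m η = 0
    · rw [h, zero_mul]
      exact dvd_zero p
    · exact Dvd.dvd.mul_left (hno η h) _
  obtain ⟨η, hη0, hηp⟩ := hex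
  have hηlin : charDegree (η : Q → ℂ) = 1 := by
    obtain ⟨a, ha⟩ := IsPGroup.iff_card.mp hQ
    have h1 := Cfsg.Agent.Lib.CharKernel.charDegree_dvd_card η.2
    rw [ha] at h1
    obtain ⟨j, -, hj⟩ := (Nat.dvd_prime_pow hp.out).mp h1
    rw [hj] at hηp ⊢
    rcases Nat.eq_zero_or_pos j with h | h
    · rw [h, pow_zero]
    · exact absurd (dvd_pow_self p h.ne') hηp
  obtain ⟨β, hβ⟩ := Cfsg.Agent.Lib.LinTwist.exists_hom_of_charDegree η.2 hηlin
  -- the sums over `U`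
  have hUQ' : U ≤ Q := hUQ.trans hQQ
  have hsums : ∀ η' : IrrCharacter Q, ∃ A : ℕ, ∑ u : U, (η' : Q → ℂ) ⟨u, hUQ' u.2⟩ = (Nat.card U : ℂ) * A := by
    intro η'
    have h1 : IsCharacter U (fun u : U => (η' : Q → ℂ) ⟨u, hUQ' u.2⟩) :=
      isCharacter_comp (Subgroup.inclusion hUQ') (IsIrrCharacter.isCharacter η'.2)
    obtain ⟨A, hA⟩ := classInner_char_irr h1 (isIrrCharacter_one (G := U))
    refine ⟨A, ?_⟩
    rw [← hA]
    unfold classInner
    have hne : (Nat.card U : ℂ) ≠ 0 := natCard_subgroup_ne_zero U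
    simp only [map_one, mul_one]
    field_simp
  choose A hA using hsums
  have htotal : ∑ η' : IrrCharacter Q, m η' * A η' = 0 := by
    have h1 : ∑ n : U, (χ : G → ℂ) n = (Nat.card U : ℂ) * ((∑ η' : IrrCharacter Q, m η' * A η' : ℕ) : ℂ) := by
      have h2 : ∀ n : U, (χ : G → ℂ) n = ∑ η' : IrrCharacter Q, (m η' : ℂ) * (η' : Q → ℂ) ⟨n, hUQ' n.2⟩ :=
        fun n => hval ⟨n, hUQ' n.2⟩
      simp only [h2]
      rw [Finset.sum_comm]
      push_cast
      rw [Finset.mul_sum]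
      refine Finset.sum_congr rfl fun η' _ => ?_
      rw [← Finset.mul_sum, hA η']
      ring
    rw [hsum0] at h1
    have hne : (Nat.card U : ℂ) ≠ 0 := natCard_subgroup_ne_zero U
    have h3 := (mul_eq_zero.mp h1.symm).resolve_left hne
    exact_mod_cast h3
  have hAη : A η = 1 := by
    have h1 : ∑ u : U, (η : Q → ℂ) ⟨u, hUQ' u.2⟩ = (Nat.card U : ℂ) := by
      have h2 : ∀ u : U, (η : Q → ℂ) ⟨u, hUQ' u.2⟩ = 1 := by
        intro u
        rw [hβ, hom_trivial_commutator β (hUQ u.2) (hUQ' u.2), Units.val_one]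
      simp only [h2, Finset.sum_const, Finset.card_univ, nsmul_eq_mul, mul_one]
      rw [Fintype.card_eq_nat_card]
    rw [hA η] at h1
    have hne : (Nat.card U : ℂ) ≠ 0 := natCard_subgroup_ne_zero U
    have h2 : ((A η : ℕ) : ℂ) = 1 := by
      apply mul_left_cancel₀ hne
      rw [h1, mul_one]
    exact_mod_cast h2
  have h5 := (Finset.sum_eq_zero_iff_of_nonneg (fun i _ => Nat.zero_le _)).mp htotal η (Finset.mem_univ η)
  rw [hAη, mul_one] at h5
  exact hη0 h5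

end Step

/-- **Main theorem.** -/
theorem main (p : ℕ) [hp : Fact p.Prime] (hp2 : p ≠ 2) : ∀ (n : ℕ) (G : Type u) [Group G] [Finite G],
    Nat.card G = n →
    (∀ χ : IrrCharacter G, (∀ g : G, ((χ : G → ℂ) g).im = 0) → ¬ p ∣ charDegree (χ : G → ℂ)) →
    ∀ (Q : Subgroup G), IsPGroup p Q → ∀ M : Subgroup G, M.Normal → M ≤ ⁅Q, Q⁆ →
    ∀ t : G, (∃ k : ℕ, t ^ (2 ^ k) = 1) → ∀ m ∈ M, t * m * t⁻¹ = m := by
  intro n
  induction n using Nat.strong_induction_on with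
  | _ n ih =>
  intro G _ _ hn hreal Q hQ M hM hMQ t ⟨k, hk⟩ m hm
  classical
  by_cases hM1 : M = ⊥
  · rw [hM1, Subgroup.mem_bot] at hm
    rw [hm]
    simp
  obtain ⟨U, hUM, hUmin⟩ := Cfsg.Agent.Lib.MinNormalPrim.exists_minNormal_le M hM hM1
  obtain ⟨hU, hU1, hmin⟩ := id hUmin
  have hQQ : ⁅Q, Q⁆ ≤ Q := Subgroup.commutator_le.mpr fun a ha b hb =>
    Q.mul_mem (Q.mul_mem (Q.mul_mem ha hb) (Q.inv_mem ha)) (Q.inv_mem hb)
  have hUQ : U ≤ ⁅Q, Q⁆ := hUM.trans hMQ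
  have hUp : IsPGroup p U := hQ.to_le (hUQ.trans hQQ)
  haveI : Group.IsNilpotent U := hUp.isNilpotent
  have hUsolv : Group.IsSolvable U := inferInstance
  have hcomm : ∀ x ∈ U, ∀ y ∈ U, x * y = y * x := by
    have h1 := Cfsg.Agent.Lib.Coprime.commutator_lt_of_solvable hUsolv hU1
    haveI := hU
    have h2 : (⁅U, U⁆).Normal := Subgroup.commutator_normal U U
    have h3 := (hmin _ h2 h1.le).resolve_right h1.ne
    intro x hx y hy
    have h4 := Subgroup.commutator_mem_commutator hx hy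
    rw [h3, Subgroup.mem_bot, commutatorElement_eq_one_iff_mul_comm] at h4
    exact h4
  obtain ⟨r, hr, hexp⟩ := hUmin.exists_prime_pow_eq_one hcomm
  have hrp : r = p := by
    obtain ⟨x, hx⟩ := Subgroup.ne_bot_iff_exists_ne_one.mp hU1
    obtain ⟨j, hj⟩ := IsPGroup.iff_orderOf.mp hUp x
    have h1 : x ^ r = 1 := Subtype.ext (hexp x x.2)
    have h2 : orderOf x ∣ r := orderOf_dvd_of_pow_eq_one h1
    rw [hj] at h2
    have h3 : j ≠ 0 := by
      rintro rfl
      rw [pow_zero] at hj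
      exact hx (orderOf_eq_one_iff.mp hj)
    have h4 : p ∣ r := (dvd_pow_self p h3).trans h2
    exact ((Nat.prime_dvd_prime_iff_eq hp.out hr).mp h4).symm
  have hexp : ∀ a ∈ U, a ^ p = 1 := hrp ▸ hexp
  have htU : ∀ u ∈ U, t * u * t⁻¹ = u := centralizes_min hp2 hreal hQ hU hcomm hexp hUQ hk
  -- pass to the quotient
  haveI : U.Normal := hU
  let f : G →* G ⧸ U := QuotientGroup.mk' U
  have hf : Function.Surjective f := QuotientGroup.mk'_surjective U
  have hcard : Nat.card (G ⧸ U) < n := by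
    rw [← hn]
    exact Cfsg.Agent.Lib.Coprime.card_quotient_lt hU1
  have hreal' : ∀ χ : IrrCharacter (G ⧸ U), (∀ g : G ⧸ U, ((χ : G ⧸ U → ℂ) g).im = 0) →
      ¬ p ∣ charDegree (χ : G ⧸ U → ℂ) := by
    intro χ hχ
    let χ' : IrrCharacter G := ⟨fun g => (χ : G ⧸ U → ℂ) (f g),
      isIrrCharacter_comp_of_surjective f hf χ.2⟩
    have h1 := hreal χ' (fun g => hχ (f g))
    have h2 : charDegree (χ' : G → ℂ) = charDegree (χ : G ⧸ U → ℂ) := by
      unfold charDegree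
      show ⌊((χ : G ⧸ U → ℂ) (f 1)).re⌋₊ = _
      rw [map_one]
    rwa [h2] at h1
  have hMQ' : M.map f ≤ ⁅Q.map f, Q.map f⁆ := by
    rw [← Subgroup.map_commutator]
    exact Subgroup.map_mono hMQ
  have h1 := ih _ hcard (G ⧸ U) rfl hreal' (Q.map f) (hQ.map f) (M.map f) (hM.map f hf) hMQ' (f t)
    ⟨k, by rw [← map_pow, hk, map_one]⟩ (f m) ⟨m, hm, rfl⟩
  have hu : t * m * t⁻¹ * m⁻¹ ∈ U := by
    apply (QuotientGroup.eq_one_iff _).mp
    show f (t * m * t⁻¹ * m⁻¹) = 1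
    simp only [map_mul, map_inv]
    rw [h1]
    group
  set u := t * m * t⁻¹ * m⁻¹ with hudef
  have hstep : t * m * t⁻¹ = u * m := by
    rw [hudef]
    group
  have hiter : ∀ j : ℕ, t ^ j * m * (t ^ j)⁻¹ = u ^ j * m := by
    intro j
    induction j with
    | zero => simp
    | succ j ih2 =>
      have h2 : t * u ^ j * t⁻¹ = u ^ j := by
        rw [← conj_pow, htU u hu]
      calc t ^ (j + 1) * m * (t ^ (j + 1))⁻¹ = t * (t ^ j * m * (t ^ j)⁻¹) * t⁻¹ := by
            rw [pow_succ', mul_inv_rev]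
            group
        _ = t * (u ^ j * m) * t⁻¹ := by rw [ih2]
        _ = (t * u ^ j * t⁻¹) * (t * m * t⁻¹) := by group
        _ = u ^ j * (u * m) := by rw [h2, hstep]
        _ = u ^ (j + 1) * m := by rw [pow_succ]; group
  have h2 := hiter (2 ^ k)
  rw [hk] at h2
  simp only [one_mul, inv_one, mul_one] at h2
  have h3 : u ^ (2 ^ k) = 1 := by
    have := mul_right_cancel (b := m) (a := u ^ (2 ^ k)) (c := 1) (by rw [one_mul]; exact h2.symm)
    exact this
  have h4 : u = 1 := eq_one_of_pows Nat.prime_two hp.out hp2.symm (hexp u hu) h3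
  rw [hstep, h4, one_mul]

end Cfsg.Agent.Lib.RealComm
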