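import Mathlib

/-!
# A finite search in `ZMod 17`

An odd function on `ZMod 17` satisfying the functional equation of the Weyl element of a
doubly transitive group of degree `18` is `z ↦ s / z`.
-/

set_option autoImplicit false

namespace Cfsg.Agent.Lib.Rec17

/-- The functional equation. -/
structure GoodF (f : ZMod 17 → ZMod 17) : Prop where
  ne : ∀ a : ZMod 17, a ≠ 0 → f a ≠ 0
  odd : ∀ a : ZMod 17, f (-a) = - f a
  eqn : ∀ a w c : ZMod 17, a ≠ 0 → w ≠ 0 → a + w ≠ 0 → c * f a = -a →
    c * f w - a ≠ 0 ∧ f (w + a) = f a + f (c * f w - a)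

/-- Inverse, by a power. -/
def inv17 (x : ZMod 17) : ZMod 17 :=
  let x2 := x * x
  let x4 := x2 * x2
  let x8 := x4 * x4
  x8 * x4 * x2 * x

theorem inv17_mul : ∀ y : ZMod 17, y ≠ 0 → inv17 y * y = 1 := by decide

/-- The nonzero residues. -/
def list16 : List (ZMod 17) := [1, 2, 3, 4, 5, 6, 7, 8, 9, 10, 11, 12, 13, 14, 15, 16]

theorem mem_list16 : ∀ z : ZMod 17, z ≠ 0 → z ∈ list16 := by decide

/-- Look up a partial table of the values at `1, 2, ...`, extended oddly. -/
def look (vs : List (ZMod 17)) (z : ZMod 17) : Option (ZMod 17) :=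
  if z = 0 then none
  else if z.val ≤ 8 then vs[z.val - 1]?
  else (vs[(-z).val - 1]?).map (fun u => -u)

/-- One instance of the functional equation on the partial table. -/
def pcOne (vs : List (ZMod 17)) (a w : ZMod 17) : Bool :=
  if a + w = 0 then true else
  match look vs a, look vs w with
  | some ra, some rw =>
      let v := -a * inv17 ra * rw - a
      (v != 0) && (match look vs (a + w), look vs v with
        | some r1, some r2 => r1 == ra + r2
        | _, _ => true)
  | _, _ => true

/-- All instances of the functional equation on the partial table. -/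
def pc (vs : List (ZMod 17)) : Bool :=
  list16.all fun a => list16.all fun w => pcOne vs a w

/-- The final test. -/
def finalChk (vs : List (ZMod 17)) : Bool :=
  list16.all fun z => (look vs z).map (fun r => r * z) == look vs 1

/-- The search. -/
def search : ℕ → List (ZMod 17) → Bool
  | 0, vs => finalChk vs
  | n + 1, vs => list16.all fun v => !(pc (vs ++ [v])) || search n (vs ++ [v])

theorem search_ok : search 8 [] = true := by decide +kernel

/-- The table of the first values of `f`. -/
def vals (f : ZMod 17 → ZMod 17) (k : ℕ) : List (ZMod 17) :=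
  (List.range k).map (fun i : ℕ => f ((i : ZMod 17) + 1))

theorem vals_succ (f : ZMod 17 → ZMod 17) (k : ℕ) :
    vals f (k + 1) = vals f k ++ [f ((k : ZMod 17) + 1)] := by
  simp [vals, List.range_succ]

theorem cast_val_pred : ∀ z : ZMod 17, z ≠ 0 → ((z.val - 1 : ℕ) : ZMod 17) + 1 = z := by decide

theorem look_sound {f : ZMod 17 → ZMod 17} (hf : ∀ a, f (-a) = - f a) {k : ℕ} {z r : ZMod 17}
    (h : look (vals f k) z = some r) : z ≠ 0 ∧ f z = r := by
  unfold look at h
  split_ifs at h with h0 h8
  · simp only [vals, List.getElem?_map, Option.map_eq_some_iff] at h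
    obtain ⟨i, hi, hr⟩ := h
    rw [List.getElem?_eq_some_iff] at hi
    obtain ⟨hlt, he⟩ := hi
    rw [List.getElem_range] at he
    refine ⟨h0, ?_⟩
    rw [← hr, ← he, cast_val_pred z h0]
  · simp only [vals, Option.map_map, List.getElem?_map, Option.map_eq_some_iff] at h
    obtain ⟨i, hi, hr⟩ := h
    rw [List.getElem?_eq_some_iff] at hi
    obtain ⟨hlt, he⟩ := hi
    rw [List.getElem_range] at he
    refine ⟨h0, ?_⟩
    have h1 : -z ≠ 0 := neg_ne_zero.mpr h0
    have h2 := cast_val_pred (-z) h1
    rw [he] at h2
    simp only [Function.comp] at hr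
    rw [← hr, h2, hf, neg_neg]

theorem pcOne_sound {f : ZMod 17 → ZMod 17} (hf : GoodF f) (k : ℕ) (a w : ZMod 17) :
    pcOne (vals f k) a w = true := by
  unfold pcOne
  split_ifs with haw
  · rfl
  · split
    · rename_i ra rw ha hw
      obtain ⟨ha0, har⟩ := look_sound hf.odd ha
      obtain ⟨hw0, hwr⟩ := look_sound hf.odd hw
      subst har
      subst hwr
      have hc : -a * inv17 (f a) * f a = -a := by
        rw [mul_assoc, inv17_mul _ (hf.ne a ha0), mul_one]
      obtain ⟨hv, he⟩ := hf.eqn a w _ ha0 hw0 haw hc
      simp only [Bool.and_eq_true, bne_iff_ne]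
      refine ⟨hv, ?_⟩
      split
      · rename_i r1 r2 h1 h2
        obtain ⟨-, h1'⟩ := look_sound hf.odd h1
        obtain ⟨-, h2'⟩ := look_sound hf.odd h2
        rw [beq_iff_eq, ← h1', ← h2', add_comm a w, he]
      · rfl
    · rfl

theorem pc_sound {f : ZMod 17 → ZMod 17} (hf : GoodF f) (k : ℕ) : pc (vals f k) = true := by
  unfold pc
  simp only [List.all_eq_true]
  intro a _ w _
  exact pcOne_sound hf k a w

theorem search_sound {f : ZMod 17 → ZMod 17} (hf : GoodF f) (n k : ℕ) (hk : k + n = 8)
    (h : search n (vals f k) = true) : finalChk (vals f 8) = true := by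
  induction n generalizing k with
  | zero =>
    have : k = 8 := by omega
    subst this
    exact h
  | succ n ih =>
    apply ih (k + 1) (by omega)
    unfold search at h
    simp only [List.all_eq_true] at h
    have hmem : f ((k : ZMod 17) + 1) ∈ list16 := by
      apply mem_list16
      apply hf.ne
      have hk' : k < 8 := by omega
      interval_cases k <;> decide
    have h1 := h _ hmem
    rw [← vals_succ, pc_sound hf] at h1
    simpa using h1

/-- **The finite search**. -/
theorem goodF_eq {f : ZMod 17 → ZMod 17} (hf : GoodF f) (z : ZMod 17) (hz : z ≠ 0) :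
    f z * z = f 1 := by
  have h := search_sound hf 8 0 rfl search_ok
  unfold finalChk at h
  simp only [List.all_eq_true, beq_iff_eq] at h
  have h1 := h z (mem_list16 z hz)
  have h2 : look (vals f 8) 1 = some (f 1) := by
    unfold look
    have h3 : (1 : ZMod 17) ≠ 0 := by decide
    have h4 : ZMod.val (1 : ZMod 17) - 1 = 0 := by decide
    rw [if_neg h3, if_pos (by decide), h4]
    simp [vals]
  rw [h2, Option.map_eq_some_iff] at h1
  obtain ⟨r, hr, hre⟩ := h1
  rw [(look_sound hf.odd hr).2, hre]

end Cfsg.Agent.Lib.Rec17
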