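import Mathlib
import Cfsg.Agent.Lib.Rec17Search
import Cfsg.Agent.Lib.PSL2Rec2
import Cfsg.Agent.Lib.Sharply2

/-!
# Doubly transitive permutation groups of degree `18` with affine point stabilizers

A permutation group on the projective line over `ZMod 17` which contains the translations, a Weyl
element, and whose stabilizer of `∞` is affine, contains `z ↦ -1/z` and all multiplications by squares.
-/

set_option autoImplicit false
set_option linter.unusedSectionVars false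

namespace Cfsg.Agent.Lib.Rec17

open OnePoint Cfsg.Agent.Lib.PSL2Rec Cfsg.Agent.Lib.Sharply2

instance fact17 : Fact (Nat.Prime 17) := ⟨by norm_num⟩

/-- The hypotheses on the permutation group. -/
structure PermData (H : Subgroup (Equiv.Perm (OnePoint (ZMod 17)))) (T : Equiv.Perm (OnePoint (ZMod 17))) : Prop where
  tau : ∀ b : ZMod 17, rho (matT b) ∈ H
  hT : T ∈ H
  T_infty : T ∞ = ((0 : ZMod 17) : OnePoint (ZMod 17))
  T_zero : T ((0 : ZMod 17) : OnePoint (ZMod 17)) = ∞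
  aff : ∀ h ∈ H, h ∞ = ∞ → ∃ (b : ZMod 17) (u : (ZMod 17)ˣ), mu (ZMod 17) u ∈ H ∧ h = rho (matT b) * mu (ZMod 17) u

variable {H : Subgroup (Equiv.Perm (OnePoint (ZMod 17)))} {T : Equiv.Perm (OnePoint (ZMod 17))}

theorem rho_T_zero' : rho (matT (0 : ZMod 17)) = 1 := by
  apply Equiv.ext
  intro w
  induction w using OnePoint.rec with
  | infty => rw [rho_T_infty]; rfl
  | coe z => rw [rho_T_coe, add_zero]; rfl

theorem mu_injective' : Function.Injective (mu (ZMod 17)) := by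
  intro u v h
  have h1 := congrArg (fun σ : Equiv.Perm (OnePoint (ZMod 17)) => σ ((1 : ZMod 17) : OnePoint (ZMod 17))) h
  simp only [mu_coe, mul_one, OnePoint.coe_eq_coe] at h1
  exact Units.ext h1

namespace PermData

variable (D : PermData H T)
include D

theorem Tinv_zero : T⁻¹ ((0 : ZMod 17) : OnePoint (ZMod 17)) = ∞ := by
  rw [Equiv.Perm.inv_eq_iff_eq, D.T_infty]

theorem Tinv_infty : T⁻¹ (∞ : OnePoint (ZMod 17)) = ((0 : ZMod 17) : OnePoint (ZMod 17)) := by
  rw [Equiv.Perm.inv_eq_iff_eq, D.T_zero]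

/-- Transitivity. -/
theorem trans (w : OnePoint (ZMod 17)) : ∃ h ∈ H, h ∞ = w := by
  induction w using OnePoint.rec with
  | infty => exact ⟨1, H.one_mem, rfl⟩
  | coe z =>
    refine ⟨rho (matT z) * T, H.mul_mem (D.tau z) D.hT, ?_⟩
    rw [Equiv.Perm.mul_apply, D.T_infty, rho_T_coe, zero_add]

/-- Double transitivity, on the pair `(∞, 0)`. -/
theorem trans2 {a b : OnePoint (ZMod 17)} (hab : a ≠ b) :
    ∃ h ∈ H, h ∞ = a ∧ h ((0 : ZMod 17) : OnePoint (ZMod 17)) = b := by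
  obtain ⟨h₁, hh₁, h1⟩ := D.trans a
  have hne : h₁⁻¹ b ≠ ∞ := by
    intro h
    rw [Equiv.Perm.inv_eq_iff_eq, h1] at h
    exact hab h.symm
  obtain ⟨z, hz⟩ := OnePoint.ne_infty_iff_exists.mp hne
  refine ⟨h₁ * rho (matT z), H.mul_mem hh₁ (D.tau z), ?_, ?_⟩
  · rw [Equiv.Perm.mul_apply, rho_T_infty, h1]
  · rw [Equiv.Perm.mul_apply, rho_T_coe, zero_add, hz]
    simp

/-- Double transitivity. -/
theorem trans22 {a b c d : OnePoint (ZMod 17)} (hab : a ≠ b) (hcd : c ≠ d) :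
    ∃ h ∈ H, h a = c ∧ h b = d := by
  obtain ⟨h₁, hh₁, h1, h2⟩ := D.trans2 hab
  obtain ⟨h₃, hh₃, h3, h4⟩ := D.trans2 hcd
  refine ⟨h₃ * h₁⁻¹, H.mul_mem hh₃ (H.inv_mem hh₁), ?_, ?_⟩
  · rw [Equiv.Perm.mul_apply, ← h1]
    simp [h3]
  · rw [Equiv.Perm.mul_apply, ← h2]
    simp [h4]

/-- An element fixing `∞` and `0` is a multiplication. -/
theorem fix_two (h : Equiv.Perm (OnePoint (ZMod 17))) (hh : h ∈ H) (h1 : h ∞ = ∞)
    (h0 : h ((0 : ZMod 17) : OnePoint (ZMod 17)) = ((0 : ZMod 17) : OnePoint (ZMod 17))) :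
    ∃ u : (ZMod 17)ˣ, mu (ZMod 17) u ∈ H ∧ h = mu (ZMod 17) u := by
  obtain ⟨b, u, hu, he⟩ := D.aff h hh h1
  rw [he, Equiv.Perm.mul_apply, mu_coe, mul_zero, rho_T_coe, zero_add] at h0
  have hb : b = 0 := OnePoint.coe_eq_coe.mp h0
  subst hb
  rw [rho_T_zero', one_mul] at he
  exact ⟨u, hu, he⟩

end PermData

theorem one_ne : (1 : ZMod 17) ≠ 0 := by decide

theorem two_power_cases : ∀ x : ZMod 17, x ≠ 0 → x ≠ 1 → x = -1 ∨ x ^ 2 = -1 ∨ x ^ 4 = -1 ∨ x ^ 8 = -1 := by
  decide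

theorem sq_eq_one_cases : ∀ x : ZMod 17, x ^ 2 = 1 → x = 1 ∨ x = -1 := by decide

theorem eighteen_not_prime_pow (p j : ℕ) (hp : p.Prime) (h : 18 = p ^ j) : False := by
  have h2 : 2 ∣ p ^ j := by rw [← h]; norm_num
  have h3 : 3 ∣ p ^ j := by rw [← h]; norm_num
  have h2' := Nat.prime_two.dvd_of_dvd_pow h2
  have h3' := Nat.prime_three.dvd_of_dvd_pow h3
  have e2 := (Nat.prime_dvd_prime_iff_eq Nat.prime_two hp).mp h2'
  have e3 := (Nat.prime_dvd_prime_iff_eq Nat.prime_three hp).mp h3'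
  omega

namespace PermData

variable (D : PermData H T)
include D

/-- Multiplication by `-1` belongs to the group. -/
theorem neg_one_mem : mu (ZMod 17) (-1) ∈ H := by
  classical
  by_contra hno
  have htriv : ∀ u : (ZMod 17)ˣ, mu (ZMod 17) u ∈ H → u = 1 := by
    intro u hu
    by_contra hu1
    have hne : (u : ZMod 17) ≠ 1 := fun h => hu1 (Units.ext h)
    apply hno
    have hpow : ∀ k : ℕ, mu (ZMod 17) (u ^ k) ∈ H := by
      intro k
      rw [map_pow]
      exact H.pow_mem hu k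
    have hcast : ∀ k : ℕ, ((u : ZMod 17)) ^ k = -1 → u ^ k = -1 := by
      intro k hk
      apply Units.ext
      simpa using hk
    rcases two_power_cases u (Units.ne_zero u) hne with h | h | h | h
    · have := hpow 1
      rw [hcast 1 (by simpa using h)] at this
      exact this
    · have := hpow 2
      rwa [hcast 2 h] at this
    · have := hpow 4
      rwa [hcast 4 h] at this
    · have := hpow 8
      rwa [hcast 8 h] at this
  have hS : IsSharp2 H := by
    refine ⟨fun hab hcd => D.trans22 hab hcd, ?_⟩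
    intro h hh a b hab ha hb
    obtain ⟨y, hy, hy1, hy2⟩ := D.trans2 hab
    have h1 : y⁻¹ * h * y ∈ H := H.mul_mem (H.mul_mem (H.inv_mem hy) hh) hy
    obtain ⟨u, hu, he⟩ := D.fix_two _ h1
      (by simp only [Equiv.Perm.mul_apply]; rw [hy1, ha, Equiv.Perm.inv_eq_iff_eq, hy1])
      (by simp only [Equiv.Perm.mul_apply]; rw [hy2, hb, Equiv.Perm.inv_eq_iff_eq, hy2])
    have hu1 := htriv u hu
    rw [hu1, map_one] at he
    have : h = y * (y⁻¹ * h * y) * y⁻¹ := by group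
    rw [this, he]
    group
  have hcard : Fintype.card (OnePoint (ZMod 17)) = 18 := by
    have h1 : Fintype.card (OnePoint (ZMod 17)) = Fintype.card (Option (ZMod 17)) := rfl
    rw [h1, Fintype.card_option, ZMod.card]
  obtain ⟨p, hp, -, j, -, hj, -⟩ := hS.exists_prime_exponent (by rw [hcard]; norm_num)
  rw [hcard] at hj
  exact eighteen_not_prime_pow p j hp hj

/-- `T` commutes with multiplication by `-1`. -/
theorem T_conj_neg_one : T * mu (ZMod 17) (-1) * T⁻¹ = mu (ZMod 17) (-1) := by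
  have hh : T * mu (ZMod 17) (-1) * T⁻¹ ∈ H := H.mul_mem (H.mul_mem D.hT D.neg_one_mem) (H.inv_mem D.hT)
  obtain ⟨u, hu, he⟩ := D.fix_two _ hh
    (by simp only [Equiv.Perm.mul_apply]; rw [D.Tinv_infty, mu_coe, mul_zero, D.T_zero])
    (by simp only [Equiv.Perm.mul_apply]; rw [D.Tinv_zero, mu_infty, D.T_infty])
  have h2 : mu (ZMod 17) (u ^ 2) = 1 := by
    rw [map_pow, ← he]
    have hs : (T * mu (ZMod 17) (-1) * T⁻¹) ^ 2 = T * (mu (ZMod 17) (-1)) ^ 2 * T⁻¹ := conj_pow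
    rw [hs, ← map_pow]
    have : ((-1 : (ZMod 17)ˣ)) ^ 2 = 1 := by simp
    rw [this, map_one]
    group
  have h3 : u ^ 2 = 1 := mu_injective' (by rw [h2, map_one])
  have h4 : (u : ZMod 17) ^ 2 = 1 := by
    have := congrArg Units.val h3
    simpa using this
  rcases sq_eq_one_cases _ h4 with h | h
  · exfalso
    have hu1 : u = 1 := Units.ext h
    rw [hu1, map_one] at he
    have h5 : T * mu (ZMod 17) (-1) = T := by
      calc T * mu (ZMod 17) (-1) = (T * mu (ZMod 17) (-1) * T⁻¹) * T := by group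
        _ = T := by rw [he, one_mul]
    have h6 : mu (ZMod 17) (-1) = 1 := by simpa using h5
    have h7 : (-1 : (ZMod 17)ˣ) = 1 := mu_injective' (by rw [h6, map_one])
    have h8 : (-1 : ZMod 17) = 1 := by
      have := congrArg Units.val h7
      simpa using this
    exact absurd h8 (by decide)
  · have hu1 : u = -1 := Units.ext (by simpa using h)
    rw [he, hu1]

end PermData

/-- The function induced by the Weyl element. -/
noncomputable def fOf (T : Equiv.Perm (OnePoint (ZMod 17))) (z : ZMod 17) : ZMod 17 :=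
  OnePoint.elim (T (z : OnePoint (ZMod 17))) 0 id

namespace PermData

variable (D : PermData H T)
include D

theorem T_coe (z : ZMod 17) (hz : z ≠ 0) : T (z : OnePoint (ZMod 17)) = (fOf T z : OnePoint (ZMod 17)) := by
  have hne : T (z : OnePoint (ZMod 17)) ≠ ∞ := by
    intro h
    have h2 : T (z : OnePoint (ZMod 17)) = T ((0 : ZMod 17) : OnePoint (ZMod 17)) := by rw [h, D.T_zero]
    exact hz (OnePoint.coe_eq_coe.mp (T.injective h2))
  obtain ⟨v, hv⟩ := OnePoint.ne_infty_iff_exists.mp hne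
  unfold fOf
  rw [← hv]
  rfl

theorem fOf_zero : fOf T 0 = 0 := by
  unfold fOf
  rw [D.T_zero]
  rfl

theorem fOf_ne (z : ZMod 17) (hz : z ≠ 0) : fOf T z ≠ 0 := by
  intro h
  have h1 := D.T_coe z hz
  rw [h, ← D.T_infty] at h1
  exact OnePoint.coe_ne_infty _ (T.injective h1)

theorem Tinv_coe (z : ZMod 17) (hz : z ≠ 0) : T⁻¹ (fOf T z : OnePoint (ZMod 17)) = (z : OnePoint (ZMod 17)) := by
  rw [Equiv.Perm.inv_eq_iff_eq, D.T_coe z hz]

theorem fOf_neg (a : ZMod 17) : fOf T (-a) = - fOf T a := by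
  by_cases ha : a = 0
  · subst ha
    rw [neg_zero, D.fOf_zero, neg_zero]
  · have h1 := congrArg (fun σ : Equiv.Perm (OnePoint (ZMod 17)) => σ (fOf T a : OnePoint (ZMod 17))) D.T_conj_neg_one
    simp only [Equiv.Perm.mul_apply] at h1
    rw [D.Tinv_coe a ha, mu_coe, mu_coe] at h1
    have h2 : ((-1 : (ZMod 17)ˣ) : ZMod 17) * a = -a := by simp
    rw [h2, D.T_coe _ (neg_ne_zero.mpr ha)] at h1
    have h3 := OnePoint.coe_eq_coe.mp h1
    rw [h3]
    simp

/-- The Bruhat relation. -/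
theorem key (a : ZMod 17) (ha : a ≠ 0) : ∃ u : (ZMod 17)ˣ, mu (ZMod 17) u ∈ H ∧ (u : ZMod 17) * fOf T a = -a ∧
    ∀ w : ZMod 17, w ≠ 0 → a + w ≠ 0 → (u : ZMod 17) * fOf T w - a ≠ 0 ∧
      fOf T (w + a) = fOf T a + fOf T ((u : ZMod 17) * fOf T w - a) := by
  set f := fOf T with hf
  have hh : T⁻¹ * rho (matT (-f a)) * T * rho (matT a) * T⁻¹ ∈ H :=
    H.mul_mem (H.mul_mem (H.mul_mem (H.mul_mem (H.inv_mem D.hT) (D.tau _)) D.hT) (D.tau _)) (H.inv_mem D.hT)
  have h1 : (T⁻¹ * rho (matT (-f a)) * T * rho (matT a) * T⁻¹ : Equiv.Perm (OnePoint (ZMod 17))) ∞ = ∞ := by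
    simp only [Equiv.Perm.mul_apply]
    rw [D.Tinv_infty, rho_T_coe, zero_add, D.T_coe a ha, rho_T_coe, add_neg_cancel, D.Tinv_zero]
  obtain ⟨b, u, hu, he⟩ := D.aff _ hh h1
  have hm1 : -a ≠ 0 := neg_ne_zero.mpr ha
  have h2 : (T⁻¹ * rho (matT (-f a)) * T * rho (matT a) * T⁻¹ : Equiv.Perm (OnePoint (ZMod 17))) ((0 : ZMod 17) : OnePoint (ZMod 17))
      = ((-a : ZMod 17) : OnePoint (ZMod 17)) := by
    simp only [Equiv.Perm.mul_apply]
    rw [D.Tinv_zero, rho_T_infty, D.T_infty, rho_T_coe, zero_add, ← D.fOf_neg a, D.Tinv_coe _ hm1]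
  rw [he, Equiv.Perm.mul_apply, mu_coe, mul_zero, rho_T_coe, zero_add] at h2
  have hb : b = -a := OnePoint.coe_eq_coe.mp h2
  subst hb
  have h3 : (T⁻¹ * rho (matT (-f a)) * T * rho (matT a) * T⁻¹ : Equiv.Perm (OnePoint (ZMod 17))) ((f (-a) : ZMod 17) : OnePoint (ZMod 17))
      = ((0 : ZMod 17) : OnePoint (ZMod 17)) := by
    simp only [Equiv.Perm.mul_apply]
    rw [D.Tinv_coe _ hm1, rho_T_coe, neg_add_cancel, D.T_zero, rho_T_infty, D.Tinv_infty]
  rw [he, Equiv.Perm.mul_apply, mu_coe, rho_T_coe] at h3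
  have h3' := OnePoint.coe_eq_coe.mp h3
  rw [hf, D.fOf_neg] at h3'
  refine ⟨u, hu, ?_, ?_⟩
  · linear_combination -h3'
  · intro w hw haw
    have hwa : w + a ≠ 0 := by rwa [add_comm]
    have h4 := congrArg (fun σ : Equiv.Perm (OnePoint (ZMod 17)) => σ ((f w : ZMod 17) : OnePoint (ZMod 17))) he
    simp only [Equiv.Perm.mul_apply] at h4
    rw [D.Tinv_coe w hw, rho_T_coe, D.T_coe _ hwa, rho_T_coe, mu_coe, rho_T_coe, Equiv.Perm.inv_eq_iff_eq] at h4
    have hne : (u : ZMod 17) * f w + -a ≠ 0 := by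
      intro h0
      rw [h0, D.T_zero] at h4
      exact OnePoint.coe_ne_infty _ h4
    rw [D.T_coe _ hne] at h4
    have h5 := OnePoint.coe_eq_coe.mp h4
    rw [sub_eq_add_neg]
    refine ⟨hne, ?_⟩
    rw [← hf] at h5
    rw [← h5]
    ring

theorem goodF : GoodF (fOf T) := by
  refine ⟨D.fOf_ne, D.fOf_neg, ?_⟩
  intro a w c ha hw haw hc
  obtain ⟨u, -, hu, hall⟩ := D.key a ha
  have hcu : c = u := by
    have h1 : (c - u) * fOf T a = 0 := by rw [sub_mul, hc, hu, sub_self]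
    rcases mul_eq_zero.mp h1 with h | h
    · exact sub_eq_zero.mp h
    · exact absurd h (D.fOf_ne a ha)
  rw [hcu]
  exact hall w hw haw

/-- The Weyl element is `z ↦ s / z`. -/
theorem fOf_mul (z : ZMod 17) (hz : z ≠ 0) : fOf T z * z = fOf T 1 := goodF_eq D.goodF z hz

/-- The inverse of `s`, up to a sign, is a multiplier. -/
theorem exists_u₁ : ∃ u₁ : (ZMod 17)ˣ, mu (ZMod 17) u₁ ∈ H ∧ (u₁ : ZMod 17) * fOf T 1 = -1 := by
  obtain ⟨u, hu, h, -⟩ := D.key 1 one_ne
  exact ⟨u, hu, h⟩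

/-- `z ↦ -1/z` belongs to the group. -/
theorem S_mem : rho (matS (K := ZMod 17)) ∈ H := by
  obtain ⟨u₁, hu₁, hu⟩ := D.exists_u₁
  have : mu (ZMod 17) u₁ * T = rho (matS (K := ZMod 17)) := by
    apply Equiv.ext
    intro w
    induction w using OnePoint.rec with
    | infty => rw [Equiv.Perm.mul_apply, D.T_infty, mu_coe, mul_zero, rho_S_infty]
    | coe z =>
      by_cases hz : z = 0
      · subst hz
        rw [Equiv.Perm.mul_apply, D.T_zero, mu_infty, rho_S_zero]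
      · rw [Equiv.Perm.mul_apply, D.T_coe z hz, mu_coe, rho_S_coe z hz]
        congr 1
        have h1 := D.fOf_mul z hz
        field_simp
        calc (u₁ : ZMod 17) * fOf T z * z = u₁ * (fOf T z * z) := by ring
          _ = -1 := by rw [h1, hu]
  rw [← this]
  exact H.mul_mem hu₁ D.hT

/-- Multiplications by squares belong to the group. -/
theorem sq_mem (y : (ZMod 17)ˣ) : mu (ZMod 17) (y ^ 2) ∈ H := by
  obtain ⟨u₁, hu₁, hu⟩ := D.exists_u₁
  obtain ⟨u, huH, h, -⟩ := D.key y (Units.ne_zero y)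
  have h1 := D.fOf_mul y (Units.ne_zero y)
  have hs0 : fOf T 1 ≠ 0 := D.fOf_ne 1 one_ne
  have : y ^ 2 = u * u₁⁻¹ := by
    apply eq_mul_inv_of_mul_eq
    apply Units.ext
    rw [Units.val_mul, Units.val_pow_eq_pow_val]
    -- `y² u₁ = u`
    have hy : (y : ZMod 17) ≠ 0 := Units.ne_zero y
    have hfy : fOf T y ≠ 0 := D.fOf_ne y hy
    have h2 : ((y : ZMod 17) ^ 2 * (u₁ : ZMod 17) - u) * (fOf T y) = 0 := by
      have : ((y : ZMod 17) ^ 2 * (u₁ : ZMod 17) - u) * fOf T y = y * u₁ * (fOf T y * y) - u * fOf T y := by ring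
      rw [this, h1, h]
      linear_combination (y : ZMod 17) * hu
    rcases mul_eq_zero.mp h2 with h3 | h3
    · exact sub_eq_zero.mp h3
    · exact absurd h3 hfy
  rw [this, map_mul, map_inv]
  exact H.mul_mem huH (H.inv_mem hu₁)

end PermData

end Cfsg.Agent.Lib.Rec17
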