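import Mathlib
import Cfsg.Agent.Lib.Rec17Perm
import Cfsg.Agent.Lib.PSL2Rec3

/-!
# The permutation groups of degree `18` are the images of `SL(2,17)` or of `GL(2,17)`
-/

set_option autoImplicit false
set_option linter.unusedSectionVars false
set_option linter.style.haveILetI false

namespace Cfsg.Agent.Lib.Rec17

open OnePoint Matrix Cfsg.Agent.Lib.PSL2Rec

section rhoG

variable {K : Type*} [Field K] [DecidableEq K]

/-- The Möbius action of `GL(2,K)`. -/
noncomputable def rhoG : GL (Fin 2) K →* Equiv.Perm (OnePoint K) :=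
  MulAction.toPermHom (GL (Fin 2) K) (OnePoint K)

theorem rhoG_infty (g : GL (Fin 2) K) :
    rhoG g (∞ : OnePoint K) = if (g : Matrix (Fin 2) (Fin 2) K) 1 0 = 0 then ∞
      else (((g : Matrix (Fin 2) (Fin 2) K) 0 0 / (g : Matrix (Fin 2) (Fin 2) K) 1 0 : K) : OnePoint K) :=
  smul_infty_eq_ite g

theorem rhoG_coe (g : GL (Fin 2) K) (k : K) :
    rhoG g (k : OnePoint K) = if (g : Matrix (Fin 2) (Fin 2) K) 1 0 * k + (g : Matrix (Fin 2) (Fin 2) K) 1 1 = 0 then ∞
      else ((((g : Matrix (Fin 2) (Fin 2) K) 0 0 * k + (g : Matrix (Fin 2) (Fin 2) K) 0 1) /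
        ((g : Matrix (Fin 2) (Fin 2) K) 1 0 * k + (g : Matrix (Fin 2) (Fin 2) K) 1 1) : K) : OnePoint K) :=
  smul_some_eq_ite (g := g) (k := k)

theorem rhoG_toGL (g : SpecialLinearGroup (Fin 2) K) : rhoG (SpecialLinearGroup.toGL g) = rho g := rfl

theorem det_ne_zero_GL (g : GL (Fin 2) K) : (g : Matrix (Fin 2) (Fin 2) K).det ≠ 0 :=
  ((Matrix.isUnit_iff_isUnit_det _).mp g.isUnit).ne_zero

theorem center_eq_kerG : Subgroup.center (GL (Fin 2) K) = (rhoG (K := K)).ker := by
  ext g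
  rw [GeneralLinearGroup.mem_center_iff_val_mem_range_scalar, MonoidHom.mem_ker]
  constructor
  · rintro ⟨r, hg⟩
    have hg' : (g : Matrix (Fin 2) (Fin 2) K) = Matrix.scalar (Fin 2) r := hg.symm
    have h00 : (g : Matrix (Fin 2) (Fin 2) K) 0 0 = r := by rw [hg']; simp
    have h11 : (g : Matrix (Fin 2) (Fin 2) K) 1 1 = r := by rw [hg']; simp
    have h01 : (g : Matrix (Fin 2) (Fin 2) K) 0 1 = 0 := by rw [hg']; simp
    have h10 : (g : Matrix (Fin 2) (Fin 2) K) 1 0 = 0 := by rw [hg']; simp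
    have hr0 : r ≠ 0 := by
      rintro rfl
      apply det_ne_zero_GL g
      rw [det_fin_two, h00, h11, h01, h10]
      simp
    ext w
    induction w using OnePoint.rec with
    | infty => rw [rhoG_infty]; simp [h10]
    | coe z =>
      rw [rhoG_coe, h00, h11, h01, h10]
      simp [hr0]
  · intro h
    have h1 := congrArg (fun σ : Equiv.Perm (OnePoint K) => σ (∞ : OnePoint K)) h
    have h2 := congrArg (fun σ : Equiv.Perm (OnePoint K) => σ ((0 : K) : OnePoint K)) h
    have h3 := congrArg (fun σ : Equiv.Perm (OnePoint K) => σ ((1 : K) : OnePoint K)) h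
    simp only [Equiv.Perm.coe_one, id_eq] at h1 h2 h3
    rw [rhoG_infty] at h1
    have h10 : (g : Matrix (Fin 2) (Fin 2) K) 1 0 = 0 := by
      by_contra hne
      rw [if_neg hne] at h1
      exact OnePoint.coe_ne_infty _ h1
    rw [rhoG_coe, h10] at h2 h3
    simp only [zero_mul, zero_add] at h2 h3
    have hdet := det_ne_zero_GL g
    rw [det_fin_two, h10] at hdet
    simp only [mul_zero, sub_zero] at hdet
    have h11 : (g : Matrix (Fin 2) (Fin 2) K) 1 1 ≠ 0 := right_ne_zero_of_mul hdet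
    rw [if_neg h11] at h2 h3
    have h2' := OnePoint.coe_eq_coe.mp h2
    have h3' := OnePoint.coe_eq_coe.mp h3
    simp only [mul_zero, zero_add] at h2'
    have h01 : (g : Matrix (Fin 2) (Fin 2) K) 0 1 = 0 := by
      rcases div_eq_zero_iff.mp h2' with h | h
      · exact h
      · exact absurd h h11
    rw [h01] at h3'
    simp only [mul_one, add_zero] at h3'
    have h00 : (g : Matrix (Fin 2) (Fin 2) K) 0 0 = (g : Matrix (Fin 2) (Fin 2) K) 1 1 :=
      (div_eq_one_iff_eq h11).mp h3'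
    refine ⟨(g : Matrix (Fin 2) (Fin 2) K) 1 1, ?_⟩
    ext i j
    fin_cases i <;> fin_cases j <;> simp [h00, h01, h10]

/-- `PGL(2,K)` is isomorphic to the image of the Möbius action. -/
noncomputable def pglEquivRange :
    (GL (Fin 2) K ⧸ Subgroup.center (GL (Fin 2) K)) ≃* (rhoG (K := K)).range :=
  (QuotientGroup.quotientMulEquivOfEq center_eq_kerG).trans (QuotientGroup.quotientKerEquivRange rhoG)

/-- Diagonal matrices in `GL(2,K)`. -/
noncomputable def matU (u : Kˣ) : GL (Fin 2) K :=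
  GeneralLinearGroup.mkOfDetNeZero !![(u : K), 0; 0, 1] (by simp [det_fin_two])

theorem rhoG_matU (u : Kˣ) : rhoG (matU u) = mu K u := by
  ext w
  induction w using OnePoint.rec with
  | infty =>
    rw [rhoG_infty, mu_infty]
    simp [matU, GeneralLinearGroup.mkOfDetNeZero]
  | coe z =>
    rw [rhoG_coe, mu_coe]
    simp [matU, GeneralLinearGroup.mkOfDetNeZero]

/-- `GL(2,-)/Z` is functorial for ring isomorphisms of fields. -/
theorem pgl_congr {F : Type*} [Field F] (φ : K ≃+* F) :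
    Nonempty ((GL (Fin 2) K ⧸ Subgroup.center (GL (Fin 2) K)) ≃* (GL (Fin 2) F ⧸ Subgroup.center (GL (Fin 2) F))) := by
  let e : GL (Fin 2) K ≃* GL (Fin 2) F := Units.mapEquiv (RingEquiv.mapMatrix φ).toMulEquiv
  have he : (Subgroup.center (GL (Fin 2) K)).map e.toMonoidHom = Subgroup.center (GL (Fin 2) F) := by
    ext x
    simp only [Subgroup.mem_map]
    constructor
    · rintro ⟨y, hy, rfl⟩
      rw [Subgroup.mem_center_iff]
      intro z
      obtain ⟨w, rfl⟩ := e.surjective z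
      have h1 := Subgroup.mem_center_iff.mp hy w
      show e w * e y = e y * e w
      rw [← map_mul, ← map_mul, h1]
    · intro hx
      refine ⟨e.symm x, ?_, e.apply_symm_apply x⟩
      rw [Subgroup.mem_center_iff]
      intro z
      apply e.injective
      rw [map_mul, map_mul, e.apply_symm_apply]
      exact Subgroup.mem_center_iff.mp hx _
  exact ⟨QuotientGroup.congr _ _ e he⟩

end rhoG

variable {H : Subgroup (Equiv.Perm (OnePoint (ZMod 17)))} {T : Equiv.Perm (OnePoint (ZMod 17))}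

/-- The unit `3`. -/
noncomputable def u3 : (ZMod 17)ˣ := Units.mk0 3 (by decide)

theorem dlog_exists : ∀ x : ZMod 17, x ≠ 0 → ∃ k : ℕ, k < 16 ∧ x = 3 ^ k := by decide

theorem unit_eq_pow (u : (ZMod 17)ˣ) : ∃ k : ℕ, u = u3 ^ k := by
  obtain ⟨k, -, hk⟩ := dlog_exists u (Units.ne_zero u)
  refine ⟨k, Units.ext ?_⟩
  rw [hk]
  simp [u3]

namespace PermData

variable (D : PermData H T)
include D

theorem rho_range_le_of (hno : mu (ZMod 17) u3 ∉ H) : H = (rho (K := ZMod 17)).range := by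
  have hsq : ∀ u : (ZMod 17)ˣ, mu (ZMod 17) u ∈ H → ∃ y : (ZMod 17)ˣ, u = y ^ 2 := by
    intro u hu
    obtain ⟨k, rfl⟩ := unit_eq_pow u
    rcases Nat.even_or_odd' k with ⟨l, rfl | rfl⟩
    · exact ⟨u3 ^ l, by rw [← pow_mul, mul_comm]⟩
    · exfalso
      apply hno
      have h1 := H.mul_mem hu (H.inv_mem (D.sq_mem (u3 ^ l)))
      have e : mu (ZMod 17) (u3 ^ (2 * l + 1)) * (mu (ZMod 17) ((u3 ^ l) ^ 2))⁻¹ = mu (ZMod 17) u3 := by
        rw [← map_inv, ← map_mul]
        congr 1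
        rw [← pow_mul, mul_comm l 2, pow_succ]
        group
      rwa [e] at h1
  apply eq_range_rho _ D.tau _ D.S_mem
  · intro h hh hi
    obtain ⟨b, u, hu, he⟩ := D.aff h hh hi
    obtain ⟨y, rfl⟩ := hsq u hu
    rw [he, ← Lbl.rho_D_eq_mu]
    exact Subgroup.mul_mem _ ⟨_, rfl⟩ ⟨_, rfl⟩
  · intro a ha
    have h2 : rho (matD a ha) = mu (ZMod 17) ((Units.mk0 a ha) ^ 2) := Lbl.rho_D_eq_mu (Units.mk0 a ha)
    rw [h2]
    exact D.sq_mem _

theorem rhoG_range_of (h3 : mu (ZMod 17) u3 ∈ H) : H = (rhoG (K := ZMod 17)).range := by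
  have hall : ∀ u : (ZMod 17)ˣ, mu (ZMod 17) u ∈ H := by
    intro u
    obtain ⟨k, rfl⟩ := unit_eq_pow u
    rw [map_pow]
    exact H.pow_mem h3 k
  have hTr : ∀ b : ZMod 17, rho (matT b) ∈ (rhoG (K := ZMod 17)).range := fun b => ⟨SpecialLinearGroup.toGL (matT b), rfl⟩
  have hSr : rho (matS (K := ZMod 17)) ∈ (rhoG (K := ZMod 17)).range := ⟨SpecialLinearGroup.toGL matS, rfl⟩
  have hmur : ∀ u : (ZMod 17)ˣ, mu (ZMod 17) u ∈ (rhoG (K := ZMod 17)).range := fun u => ⟨matU u, rhoG_matU u⟩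
  have htr : ∀ w : OnePoint (ZMod 17), ∃ g ∈ H ⊓ (rhoG (K := ZMod 17)).range, g (∞ : OnePoint (ZMod 17)) = w := by
    intro w
    induction w using OnePoint.rec with
    | infty => exact ⟨1, Subgroup.one_mem _, rfl⟩
    | coe z =>
      refine ⟨rho (matT z) * rho matS, ⟨H.mul_mem (D.tau z) D.S_mem, Subgroup.mul_mem _ (hTr z) hSr⟩, ?_⟩
      rw [Equiv.Perm.mul_apply, rho_S_infty, rho_T_coe, zero_add]
  have h1 : H ⊓ (rhoG (K := ZMod 17)).range = H := by
    apply eq_of_transitive inf_le_left ∞ htr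
    intro h hh hi
    refine ⟨hh, ?_⟩
    obtain ⟨b, u, hu, he⟩ := D.aff h hh hi
    rw [he]
    exact Subgroup.mul_mem _ (hTr b) (hmur u)
  have h2 : H ⊓ (rhoG (K := ZMod 17)).range = (rhoG (K := ZMod 17)).range := by
    apply eq_of_transitive inf_le_right ∞ htr
    rintro _ ⟨g, rfl⟩ hi
    refine ⟨?_, ⟨g, rfl⟩⟩
    rw [rhoG_infty] at hi
    have h10 : (g : Matrix (Fin 2) (Fin 2) (ZMod 17)) 1 0 = 0 := by
      by_contra hne
      rw [if_neg hne] at hi
      exact OnePoint.coe_ne_infty _ hi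
    have hdet := det_ne_zero_GL g
    rw [det_fin_two, h10] at hdet
    simp only [mul_zero, sub_zero] at hdet
    have h00 : (g : Matrix (Fin 2) (Fin 2) (ZMod 17)) 0 0 ≠ 0 := left_ne_zero_of_mul hdet
    have h11 : (g : Matrix (Fin 2) (Fin 2) (ZMod 17)) 1 1 ≠ 0 := right_ne_zero_of_mul hdet
    have hdiv : (g : Matrix (Fin 2) (Fin 2) (ZMod 17)) 0 0 / (g : Matrix (Fin 2) (Fin 2) (ZMod 17)) 1 1 ≠ 0 :=
      div_ne_zero h00 h11
    have he : rhoG g = rho (matT ((g : Matrix (Fin 2) (Fin 2) (ZMod 17)) 0 1 / (g : Matrix (Fin 2) (Fin 2) (ZMod 17)) 1 1)) *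
        mu (ZMod 17) (Units.mk0 _ hdiv) := by
      ext w
      induction w using OnePoint.rec with
      | infty =>
        rw [rhoG_infty, Equiv.Perm.mul_apply, mu_infty, rho_T_infty]
        simp [h10]
      | coe z =>
        rw [rhoG_coe, Equiv.Perm.mul_apply, mu_coe, rho_T_coe, h10]
        simp only [zero_mul, zero_add]
        rw [if_neg h11]
        congr 1
        simp only [Units.val_mk0]
        field_simp
    rw [he]
    exact H.mul_mem (D.tau _) (hall _)
  exact h1.symm.trans h2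

/-- **Classification.** -/
theorem classify {F : Type*} [Field F] [Fintype F] (hF : Fintype.card F = 17) :
    Nonempty (H ≃* Matrix.ProjectiveSpecialLinearGroup (Fin 2) F) ∨
      Nonempty (H ≃* (GL (Fin 2) F ⧸ Subgroup.center (GL (Fin 2) F))) := by
  have hpp : Nat.Prime 17 := by norm_num
  by_cases h3 : mu (ZMod 17) u3 ∈ H
  · right
    have h := D.rhoG_range_of h3
    obtain ⟨e₂⟩ := pgl_congr (ZMod.ringEquivOfPrime F hpp hF)
    exact ⟨(MulEquiv.subgroupCongr h).trans (pglEquivRange.symm.trans e₂)⟩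
  · left
    have h := D.rho_range_le_of h3
    obtain ⟨e₂⟩ := psl_congr (ZMod.ringEquivOfPrime F hpp hF)
    exact ⟨(MulEquiv.subgroupCongr h).trans (pslEquivRange.symm.trans e₂)⟩

end PermData

end Cfsg.Agent.Lib.Rec17
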