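import Mathlib
import Cfsg.Agent.Lib.SylowNum2
import Cfsg.Agent.Lib.BrolineGT

/-!
# Normal subgroups not changing the Sylow numbers

If a normal subgroup `K` of a centerless finite group does not change the Sylow numbers for the primes
`2, 3, 17`, and the only other primes are `5` and `19` with Sylow numbers `136` and `153`, then `K` is trivial.
-/

set_option autoImplicit false
set_option linter.unusedSectionVars false
set_option linter.style.haveILetI false

namespace Cfsg.Agent.Lib.Rec17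

open Cfsg.Agent.Lib.SylowNum Cfsg.Agent.Lib.SylowNum2

variable {G : Type*} [Group G] [Finite G]

section general

variable {p : ℕ} [Fact p.Prime]

/-- If the Sylow number does not change in the quotient, then `K` normalizes every Sylow subgroup. -/
theorem smul_eq_of_card_eq (K : Subgroup G) [K.Normal] (P : Sylow p G)
    (h : Nat.card (Sylow p G) = Nat.card (Sylow p (G ⧸ K))) (k : G) (hk : k ∈ K) : k • P = P := by
  have h1 := card_sylow_eq_quot_mul K P
  have hpos : 0 < Nat.card (Sylow p (G ⧸ K)) := Nat.card_pos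
  rw [h] at h1
  have h2 : Nat.card {Q : Sylow p G // (Q : Subgroup G) ≤ (P : Subgroup G) ⊔ K} = 1 :=
    Nat.eq_of_mul_eq_mul_left hpos (by rw [mul_one]; exact h1.symm)
  obtain ⟨hsub, -⟩ := Nat.card_eq_one_iff_unique.mp h2
  have hkP : ((k • P : Sylow p G) : Subgroup G) ≤ (P : Subgroup G) ⊔ K := by
    intro y hy
    have hy' := (mem_smul_sylow P k y).mp hy
    have e : y = k * (k⁻¹ * y * k) * k⁻¹ := by group
    rw [e]
    exact Subgroup.mul_mem _ (Subgroup.mul_mem _ ((le_sup_right : K ≤ _) hk) ((le_sup_left : (P : Subgroup G) ≤ _) hy'))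
      (Subgroup.inv_mem _ ((le_sup_right : K ≤ _) hk))
  have := hsub.elim ⟨k • P, hkP⟩ ⟨P, le_sup_left⟩
  exact congrArg Subtype.val this

/-- The Sylow intersection is normal. -/
theorem inf_normal (K : Subgroup G) [hK : K.Normal] (hN : ∀ (P : Sylow p G) (k : G), k ∈ K → k • P = P)
    (S : Sylow p G) : ((S : Subgroup G) ⊓ K).Normal := by
  constructor
  rintro x ⟨hxS, hxK⟩ g
  have hyK : g * x * g⁻¹ ∈ K := hK.conj_mem x hxK g
  refine ⟨?_, hyK⟩
  apply mem_sylow_of_normalizes S _ (pelt_of_mem (g • S) _ ((conj_mem_smul_sylow S g x).mpr hxS))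
  exact Sylow.smul_eq_iff_mem_normalizer.mp (hN S _ hyK)

/-- Commutator argument. -/
theorem commute_of_normalizes (A R : Subgroup G) [hA : A.Normal] (hd : Disjoint A R) {x y : G} (hx : x ∈ A) (hy : y ∈ R)
    (hn : x * y * x⁻¹ ∈ R) : x * y = y * x := by
  have h1 : x * y * x⁻¹ * y⁻¹ ∈ R := R.mul_mem hn (R.inv_mem hy)
  have h2 : x * y * x⁻¹ * y⁻¹ ∈ A := by
    have := A.mul_mem hx (hA.conj_mem x⁻¹ (A.inv_mem hx) y)
    simpa [mul_assoc] using this
  have h3 := Subgroup.disjoint_def.mp hd h2 h1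
  have h5 : x * y * x⁻¹ = y := mul_inv_eq_one.mp h3
  exact mul_inv_eq_iff_eq_mul.mp h5

theorem conj_mem_of_smul_eq (R : Sylow p G) {x y : G} (hy : y ∈ (R : Subgroup G)) (h : x • R = R) :
    x * y * x⁻¹ ∈ (R : Subgroup G) := by
  have := (conj_mem_smul_sylow R x y).mpr hy
  rwa [h] at this

end general

section count

variable {s t : ℕ} [Fact s.Prime] [Fact t.Prime]

/-- A normal `s`-subgroup normalizes a Sylow `t`-subgroup when the arithmetic forbids otherwise. -/
theorem smul_eq_of_pgroup (A : Subgroup G) [A.Normal] (hA : IsPGroup s A) (T : Sylow t G)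
    (hnum : ∀ d : ℕ, d ∣ Nat.card (Sylow t G) → d ≡ 1 [MOD t] → (∃ i : ℕ, d = s ^ i) → d = 1)
    (a : G) (ha : a ∈ A) : a • T = T := by
  have hs : s.Prime := Fact.out
  have ht : t.Prime := Fact.out
  set X : Subgroup G := (T : Subgroup G) ⊔ A with hX
  have hd1 : Nat.card (Sylow t X) = Nat.card {Q : Sylow t G // (Q : Subgroup G) ≤ X} :=
    card_sylow_subgroup X T le_sup_left
  have hd2 : Nat.card (Sylow t X) ∣ Nat.card (Sylow t G) := by
    rw [hd1, card_sylow_eq_quot_mul A T]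
    exact Dvd.intro_left _ rfl
  have hd3 : Nat.card (Sylow t X) ≡ 1 [MOD t] := card_sylow_modEq_one t X
  have hcop : Nat.Coprime (Nat.card (Sylow t X)) t := by
    have h1 : Nat.gcd (Nat.card (Sylow t X)) t = Nat.gcd 1 t := hd3.gcd_eq
    rw [Nat.gcd_one_left] at h1
    exact h1
  have hd4 : Nat.card (Sylow t X) ∣ Nat.card X := by
    obtain ⟨R⟩ : Nonempty (Sylow t X) := inferInstance
    rw [Sylow.card_eq_index_normalizer R]
    exact Subgroup.index_dvd_card _
  have hcardX : Nat.card X ∣ Nat.card A * Nat.card (T : Subgroup G) := by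
    have h1 := card_mul_relIndex A X le_sup_right
    have h2 : A.relIndex X = A.relIndex (T : Subgroup G) := Subgroup.relIndex_sup_right _ _
    rw [← h1, h2]
    exact Nat.mul_dvd_mul_left _ (Subgroup.relIndex_dvd_card _ _)
  obtain ⟨e, he⟩ := IsPGroup.iff_card.mp T.isPGroup'
  obtain ⟨f, hf⟩ := IsPGroup.iff_card.mp hA
  have hd5 : Nat.card (Sylow t X) ∣ Nat.card A := by
    have h1 := hd4.trans hcardX
    rw [he] at h1
    exact (hcop.pow_right e).dvd_of_dvd_mul_right h1
  rw [hf] at hd5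
  obtain ⟨i, -, hi⟩ := (Nat.dvd_prime_pow hs).mp hd5
  have hone := hnum _ hd2 hd3 ⟨i, hi⟩
  rw [hd1] at hone
  obtain ⟨hsub, -⟩ := Nat.card_eq_one_iff_unique.mp hone
  have hkT : ((a • T : Sylow t G) : Subgroup G) ≤ X := by
    intro y hy
    have hy' := (mem_smul_sylow T a y).mp hy
    have e' : y = a * (a⁻¹ * y * a) * a⁻¹ := by group
    rw [e']
    exact Subgroup.mul_mem _ (Subgroup.mul_mem _ ((le_sup_right : A ≤ _) ha) ((le_sup_left : (T : Subgroup G) ≤ _) hy'))
      (Subgroup.inv_mem _ ((le_sup_right : A ≤ _) ha))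
  have := hsub.elim ⟨a • T, hkT⟩ ⟨T, le_sup_left⟩
  exact congrArg Subtype.val this

end count

/-- A normal `s`-subgroup centralized by Sylow subgroups for the other primes is trivial
when the centre is trivial. -/
theorem inf_eq_bot_of_commute {s : ℕ} [hs : Fact s.Prime] (hZ : Subgroup.center G = ⊥) (S : Sylow s G)
    (A : Subgroup G) (hAS : A ≤ S) [hAn : A.Normal]
    (hcomm : ∀ r : ℕ, r.Prime → r ≠ s → r ∣ Nat.card G → ∃ (_ : Fact r.Prime) (R : Sylow r G), ∀ a ∈ A, ∀ y ∈ (R : Subgroup G), a * y = y * a) :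
    A = ⊥ := by
  by_contra hne
  have hnil : Group.IsNilpotent (S : Subgroup G) := S.isPGroup'.isNilpotent
  have hM : A.subgroupOf (S : Subgroup G) ≠ ⊥ := by
    intro h
    apply hne
    rw [Subgroup.subgroupOf_eq_bot] at h
    rw [eq_bot_iff]
    intro x hx
    exact Subgroup.disjoint_def.mp h hx (hAS hx)
  have := BrolineGT.inf_center_ne_bot (A.subgroupOf (S : Subgroup G)) hM
  obtain ⟨x, hx, hx1⟩ := BrolineGT.exists_mem_ne_one this
  have hxA : (x : G) ∈ A := hx.1
  have hxZ : ∀ y ∈ (S : Subgroup G), (x : G) * y = y * x := by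
    intro y hy
    have h1 := Subgroup.mem_center_iff.mp hx.2 ⟨y, hy⟩
    exact (congrArg Subtype.val h1).symm
  set C : Subgroup G := Subgroup.centralizer ({(x : G)} : Set G) with hC
  have hle : ∀ R : Subgroup G, (∀ y ∈ R, (x : G) * y = y * x) → R ≤ C := by
    intro R hR y hy
    rw [hC, Subgroup.mem_centralizer_iff]
    intro h hh
    rw [Set.mem_singleton_iff] at hh
    rw [hh]
    exact hR y hy
  have hidx : C.index = 1 := by
    by_contra hi
    obtain ⟨r, hr, hrd⟩ := Nat.exists_prime_and_dvd hi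
    have hrG : r ∣ Nat.card G := hrd.trans (Subgroup.index_dvd_card _)
    by_cases hrs : r = s
    · subst hrs
      have h1 : C.index ∣ (S : Subgroup G).index := Subgroup.index_dvd_of_le (hle _ hxZ)
      exact S.not_dvd_index (hrd.trans h1)
    · obtain ⟨_, R, hR⟩ := hcomm r hr hrs hrG
      have h1 : C.index ∣ (R : Subgroup G).index := Subgroup.index_dvd_of_le (hle _ (hR _ hxA))
      exact R.not_dvd_index (hrd.trans h1)
  have hxc : (x : G) ∈ Subgroup.center G := by
    rw [Subgroup.index_eq_one] at hidx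
    rw [Subgroup.mem_center_iff]
    intro y
    have hy : y ∈ C := by rw [hidx]; trivial
    rw [hC, Subgroup.mem_centralizer_iff] at hy
    exact (hy x (Set.mem_singleton _)).symm
  rw [hZ, Subgroup.mem_bot] at hxc
  exact hx1 (Subtype.ext hxc)

/-- Arithmetic for the prime `5`. -/
theorem num5 (s : ℕ) (hs : s.Prime) (d : ℕ) (h1 : d ∣ 136) (h2 : d ≡ 1 [MOD 5]) (h3 : ∃ i : ℕ, d = s ^ i) : d = 1 := by
  have hd : d ∈ Nat.divisors 136 := Nat.mem_divisors.mpr ⟨h1, by norm_num⟩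
  have : d = 1 ∨ d = 136 := by
    have e : Nat.divisors 136 = {1, 2, 4, 8, 17, 34, 68, 136} := by decide +kernel
    rw [e] at hd
    simp only [Finset.mem_insert, Finset.mem_singleton] at hd
    unfold Nat.ModEq at h2
    rcases hd with h | h | h | h | h | h | h | h <;> subst h <;> first | (left; rfl) | (right; rfl) | omega
  rcases this with h | h
  · exact h
  · exfalso
    subst h
    obtain ⟨i, hi⟩ := h3
    have h2' : 2 ∣ s ^ i := by rw [← hi]; norm_num
    have h17' : 17 ∣ s ^ i := by rw [← hi]; norm_num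
    have a1 := Nat.prime_two.dvd_of_dvd_pow h2'
    have a2 := (by norm_num : Nat.Prime 17).dvd_of_dvd_pow h17'
    have e1 := (Nat.prime_dvd_prime_iff_eq Nat.prime_two hs).mp a1
    have e2 := (Nat.prime_dvd_prime_iff_eq (by norm_num) hs).mp a2
    omega

/-- Arithmetic for the prime `19`. -/
theorem num19 (s : ℕ) (hs : s.Prime) (d : ℕ) (h1 : d ∣ 153) (h2 : d ≡ 1 [MOD 19]) (h3 : ∃ i : ℕ, d = s ^ i) : d = 1 := by
  have hd : d ∈ Nat.divisors 153 := Nat.mem_divisors.mpr ⟨h1, by norm_num⟩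
  have : d = 1 ∨ d = 153 := by
    have e : Nat.divisors 153 = {1, 3, 9, 17, 51, 153} := by decide +kernel
    rw [e] at hd
    simp only [Finset.mem_insert, Finset.mem_singleton] at hd
    unfold Nat.ModEq at h2
    rcases hd with h | h | h | h | h | h <;> subst h <;> first | (left; rfl) | (right; rfl) | omega
  rcases this with h | h
  · exact h
  · exfalso
    subst h
    obtain ⟨i, hi⟩ := h3
    have h2' : 3 ∣ s ^ i := by rw [← hi]; norm_num
    have h17' : 17 ∣ s ^ i := by rw [← hi]; norm_num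
    have a1 := Nat.prime_three.dvd_of_dvd_pow h2'
    have a2 := (by norm_num : Nat.Prime 17).dvd_of_dvd_pow h17'
    have e1 := (Nat.prime_dvd_prime_iff_eq Nat.prime_three hs).mp a1
    have e2 := (Nat.prime_dvd_prime_iff_eq (by norm_num) hs).mp a2
    omega

/-- The key structure of the main theorem: for `s ∈ {2,3,17}` the intersection of `K` with a Sylow
`s`-subgroup is trivial. -/
theorem inf_K_eq_bot (hZ : Subgroup.center G = ⊥) (K : Subgroup G) [hK : K.Normal]
    (h2 : Nat.card (Sylow 2 G) = Nat.card (Sylow 2 (G ⧸ K)))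
    (h3 : Nat.card (Sylow 3 G) = Nat.card (Sylow 3 (G ⧸ K)))
    (h17 : Nat.card (Sylow 17 G) = Nat.card (Sylow 17 (G ⧸ K)))
    (hpr : ∀ r : ℕ, r.Prime → r ∣ Nat.card G → r = 2 ∨ r = 3 ∨ r = 5 ∨ r = 17 ∨ r = 19)
    (h5 : 5 ∣ Nat.card G → Nat.card (Sylow 5 G) = 136)
    (h19 : 19 ∣ Nat.card G → Nat.card (Sylow 19 G) = 153)
    (s : ℕ) [hs : Fact s.Prime] (hs' : s = 2 ∨ s = 3 ∨ s = 17) (S : Sylow s G) :
    (S : Subgroup G) ⊓ K = ⊥ := by
  haveI f5 : Fact (Nat.Prime 5) := ⟨by norm_num⟩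
  haveI f17 : Fact (Nat.Prime 17) := ⟨by norm_num⟩
  haveI f19 : Fact (Nat.Prime 19) := ⟨by norm_num⟩
  have hN2 : ∀ (P : Sylow 2 G) (k : G), k ∈ K → k • P = P := fun P k hk => smul_eq_of_card_eq K P h2 k hk
  have hN3 : ∀ (P : Sylow 3 G) (k : G), k ∈ K → k • P = P := fun P k hk => smul_eq_of_card_eq K P h3 k hk
  have hN17 : ∀ (P : Sylow 17 G) (k : G), k ∈ K → k • P = P := fun P k hk => smul_eq_of_card_eq K P h17 k hk
  have hNs : ∀ (P : Sylow s G) (k : G), k ∈ K → k • P = P := by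
    rcases hs' with rfl | rfl | rfl
    · exact hN2
    · exact hN3
    · exact hN17
  haveI hAn : ((S : Subgroup G) ⊓ K).Normal := inf_normal K hNs S
  have hAp : IsPGroup s ((S : Subgroup G) ⊓ K : Subgroup G) := S.isPGroup'.to_le inf_le_left
  apply inf_eq_bot_of_commute hZ S _ inf_le_left
  intro r hr hrs hrG
  have hAk : ∀ a ∈ (S : Subgroup G) ⊓ K, a ∈ K := fun a ha => ha.2
  have hgen : ∀ (r : ℕ) [Fact r.Prime], r ≠ s → (∀ (R : Sylow r G) (k : G), k ∈ (S : Subgroup G) ⊓ K → k • R = R) →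
      ∃ (_ : Fact r.Prime) (R : Sylow r G), ∀ a ∈ (S : Subgroup G) ⊓ K, ∀ y ∈ (R : Subgroup G), a * y = y * a := by
    intro r _ hne hall
    obtain ⟨R⟩ : Nonempty (Sylow r G) := inferInstance
    refine ⟨inferInstance, R, ?_⟩
    intro a ha y hy
    have hd : Disjoint ((S : Subgroup G) ⊓ K) (R : Subgroup G) :=
      IsPGroup.disjoint_of_ne s r hne.symm _ _ hAp R.isPGroup'
    exact commute_of_normalizes _ _ hd ha hy (conj_mem_of_smul_eq R hy (hall R a ha))
  rcases hpr r hr hrG with rfl | rfl | rfl | rfl | rfl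
  · exact hgen 2 hrs (fun R k hk => hN2 R k hk.2)
  · exact hgen 3 hrs (fun R k hk => hN3 R k hk.2)
  · refine hgen 5 hrs (fun R k hk => smul_eq_of_pgroup _ hAp R ?_ k hk)
    intro d hd1 hd2 hd3
    rw [h5 hrG] at hd1
    exact num5 s hs.out d hd1 hd2 hd3
  · exact hgen 17 hrs (fun R k hk => hN17 R k hk.2)
  · refine hgen 19 hrs (fun R k hk => smul_eq_of_pgroup _ hAp R ?_ k hk)
    intro d hd1 hd2 hd3
    rw [h19 hrG] at hd1
    exact num19 s hs.out d hd1 hd2 hd3

/-- **Main theorem of this file.** -/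
theorem kernel_eq_bot (hZ : Subgroup.center G = ⊥) (K : Subgroup G) [hK : K.Normal]
    (h2 : Nat.card (Sylow 2 G) = Nat.card (Sylow 2 (G ⧸ K)))
    (h3 : Nat.card (Sylow 3 G) = Nat.card (Sylow 3 (G ⧸ K)))
    (h17 : Nat.card (Sylow 17 G) = Nat.card (Sylow 17 (G ⧸ K)))
    (hpr : ∀ r : ℕ, r.Prime → r ∣ Nat.card G → r = 2 ∨ r = 3 ∨ r = 5 ∨ r = 17 ∨ r = 19)
    (h5 : 5 ∣ Nat.card G → Nat.card (Sylow 5 G) = 136)
    (h19 : 19 ∣ Nat.card G → Nat.card (Sylow 19 G) = 153)
    (hq5 : ¬ 5 ∣ Nat.card (G ⧸ K)) (hq19 : ¬ 19 ∣ Nat.card (G ⧸ K)) : K = ⊥ := by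
  haveI f5 : Fact (Nat.Prime 5) := ⟨by norm_num⟩
  haveI f17 : Fact (Nat.Prime 17) := ⟨by norm_num⟩
  haveI f19 : Fact (Nat.Prime 19) := ⟨by norm_num⟩
  have hmain := fun (s : ℕ) [hs : Fact s.Prime] => inf_K_eq_bot hZ K h2 h3 h17 hpr h5 h19 s
  -- no element of order `s` in `K`
  have hno : ∀ (s : ℕ) [hs : Fact s.Prime], (s = 2 ∨ s = 3 ∨ s = 17) → ¬ s ∣ Nat.card K := by
    intro s hs hs' hd
    obtain ⟨x, hx⟩ := exists_prime_orderOf_dvd_card' (G := K) s hd
    have hx1 : orderOf (x : G) = s := by rwa [Subgroup.orderOf_coe]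
    obtain ⟨S, hS⟩ := exists_sylow_of_pelt (p := s) (x : G) ⟨1, by rw [hx1, pow_one]⟩
    have hb : (x : G) ∈ (S : Subgroup G) ⊓ K := ⟨hS, x.2⟩
    rw [hmain s hs' S, Subgroup.mem_bot] at hb
    rw [hb, orderOf_one] at hx1
    exact hs.out.one_lt.ne hx1
  by_contra hne
  have hnt : Nat.card K ≠ 1 := by
    intro h
    exact hne ((Subgroup.card_eq_one).mp h)
  obtain ⟨q, hq, hqd⟩ := Nat.exists_prime_and_dvd hnt
  have hqG : q ∣ Nat.card G := hqd.trans (Subgroup.card_subgroup_dvd_card K)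
  have hidx : K.index = Nat.card (G ⧸ K) := rfl
  have hbig : ∀ (t : ℕ) [Fact t.Prime], ¬ t ∣ Nat.card (G ⧸ K) → Nat.card (Sylow t K) = Nat.card (Sylow t G) := by
    intro t _ ht
    exact card_sylow_of_forall_le K (fun P => sylow_le_of_not_dvd_index K (by rwa [hidx]) P)
  have h17K : ¬ 17 ∣ Nat.card K := hno 17 (by simp)
  have hdvd : ∀ (t : ℕ) [Fact t.Prime], Nat.card (Sylow t K) ∣ Nat.card K := by
    intro t _
    obtain ⟨R⟩ : Nonempty (Sylow t K) := inferInstance
    rw [Sylow.card_eq_index_normalizer R]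
    exact Subgroup.index_dvd_card _
  rcases hpr q hq hqG with rfl | rfl | rfl | rfl | rfl
  · exact hno 2 (by simp) hqd
  · exact hno 3 (by simp) hqd
  · apply h17K
    have h1 := hdvd 5
    rw [hbig 5 hq5, h5 hqG] at h1
    exact (by norm_num : 17 ∣ 136).trans h1
  · exact h17K hqd
  · apply h17K
    have h1 := hdvd 19
    rw [hbig 19 hq19, h19 hqG] at h1
    exact (by norm_num : 17 ∣ 153).trans h1

end Cfsg.Agent.Lib.Rec17
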