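import Mathlib
import Cfsg.Agent.Lib.Rec17Perm
import Cfsg.Agent.Lib.SmallGroups2

/-!
# Orders and Sylow numbers of the permutation groups of degree `18`
-/

set_option autoImplicit false
set_option linter.unusedSectionVars false
set_option linter.style.haveILetI false

namespace Cfsg.Agent.Lib.Rec17

open OnePoint Cfsg.Agent.Lib.PSL2Rec Cfsg.Agent.Lib.SmallGroups2
open scoped Pointwise

variable {H : Subgroup (Equiv.Perm (OnePoint (ZMod 17)))} {T : Equiv.Perm (OnePoint (ZMod 17))}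

theorem card_om : Nat.card (OnePoint (ZMod 17)) = 18 := by
  have : Nat.card (OnePoint (ZMod 17)) = Nat.card (Option (ZMod 17)) := rfl
  rw [this, Finite.card_option, Nat.card_zmod]

/-- Orbit-stabilizer. -/
theorem card_eq_stab_mul_orbit {Y : Type*} [Group Y] [Finite Y] [MulAction Y (OnePoint (ZMod 17))] (o : OnePoint (ZMod 17)) :
    Nat.card Y = Nat.card (MulAction.stabilizer Y o) * (MulAction.orbit Y o).ncard := by
  rw [← MulAction.index_stabilizer]
  exact (Subgroup.card_mul_index _).symm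

/-- The multipliers. -/
def multipliers (H : Subgroup (Equiv.Perm (OnePoint (ZMod 17)))) : Subgroup (ZMod 17)ˣ := H.comap (mu (ZMod 17))

/-- The set `{0, ∞}`. -/
def s₀ : Set (OnePoint (ZMod 17)) := {((0 : ZMod 17) : OnePoint (ZMod 17)), ∞}

/-- The stabilizer of `{0, ∞}`. -/
def stabB (H : Subgroup (Equiv.Perm (OnePoint (ZMod 17)))) : Subgroup H := MulAction.stabilizer H s₀

theorem smul_coe (x : H) (w : OnePoint (ZMod 17)) : x • w = (x : Equiv.Perm (OnePoint (ZMod 17))) w := rfl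

theorem mult_distinct : ∀ z : ZMod 17, z ≠ 0 → z ≠ -z ∧ z ≠ 4 * z ∧ -z ≠ 4 * z := by decide

theorem zero_ne_infty : ((0 : ZMod 17) : OnePoint (ZMod 17)) ≠ ∞ := OnePoint.coe_ne_infty _

theorem mem_s₀ {w : OnePoint (ZMod 17)} : w ∈ s₀ ↔ w = ((0 : ZMod 17) : OnePoint (ZMod 17)) ∨ w = ∞ := Iff.rfl

theorem mem_stabB (x : H) : x ∈ stabB H ↔ x • ((0 : ZMod 17) : OnePoint (ZMod 17)) ∈ s₀ ∧ x • (∞ : OnePoint (ZMod 17)) ∈ s₀ := by
  constructor
  · intro hx
    have hx' : x • s₀ = s₀ := hx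
    constructor
    · rw [← hx']
      exact Set.smul_mem_smul_set (Or.inl rfl)
    · rw [← hx']
      exact Set.smul_mem_smul_set (Or.inr rfl)
  · rintro ⟨h0, h1⟩
    show x • s₀ = s₀
    have e : x • s₀ = {x • ((0 : ZMod 17) : OnePoint (ZMod 17)), x • (∞ : OnePoint (ZMod 17))} := by
      unfold s₀
      rw [Set.smul_set_insert, Set.smul_set_singleton]
    have hne : x • ((0 : ZMod 17) : OnePoint (ZMod 17)) ≠ x • (∞ : OnePoint (ZMod 17)) :=
      fun h => zero_ne_infty (smul_left_cancel x h)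
    rw [e]
    rcases mem_s₀.mp h0 with a | a <;> rcases mem_s₀.mp h1 with b | b
    · exact absurd (a.trans b.symm) hne
    · rw [a, b]; rfl
    · rw [a, b]
      unfold s₀
      exact Set.pair_comm _ _
    · exact absurd (a.trans b.symm) hne

namespace PermData

variable (D : PermData H T)
include D

theorem mu_mem_B (u : (ZMod 17)ˣ) (hu : mu (ZMod 17) u ∈ H) : (⟨mu (ZMod 17) u, hu⟩ : H) ∈ stabB H := by
  rw [mem_stabB]
  constructor
  · left
    rw [smul_coe]
    show mu (ZMod 17) u _ = _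
    rw [mu_coe, mul_zero]
  · right
    rw [smul_coe]
    exact mu_infty u

theorem S_mem_B : (⟨rho (matS (K := ZMod 17)), D.S_mem⟩ : H) ∈ stabB H := by
  rw [mem_stabB]
  constructor
  · right
    rw [smul_coe]
    exact rho_S_zero
  · left
    rw [smul_coe]
    exact rho_S_infty

/-- The order of `H`. -/
theorem card_H : Nat.card H = 18 * Nat.card (MulAction.stabilizer H (∞ : OnePoint (ZMod 17))) := by
  have h1 := card_eq_stab_mul_orbit (Y := H) (∞ : OnePoint (ZMod 17))
  have h2 : MulAction.orbit H (∞ : OnePoint (ZMod 17)) = Set.univ := by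
    ext w
    simp only [Set.mem_univ, iff_true]
    obtain ⟨h, hh, e⟩ := D.trans w
    exact ⟨⟨h, hh⟩, e⟩
  rw [h2, Set.ncard_univ, card_om] at h1
  rw [h1, mul_comm]

/-- The order of the stabilizer. -/
theorem card_stab : Nat.card (MulAction.stabilizer H (∞ : OnePoint (ZMod 17))) = 17 * Nat.card (multipliers H) := by
  classical
  have hfix : ∀ x : MulAction.stabilizer H (∞ : OnePoint (ZMod 17)), ((x : H) : Equiv.Perm (OnePoint (ZMod 17))) ∞ = ∞ :=
    fun x => x.2
  have hch := fun x : MulAction.stabilizer H (∞ : OnePoint (ZMod 17)) => D.aff _ (x : H).2 (hfix x)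
  choose b u hu hg using hch
  let F : MulAction.stabilizer H (∞ : OnePoint (ZMod 17)) → ZMod 17 × multipliers H := fun x => (b x, ⟨u x, hu x⟩)
  have hF : Function.Bijective F := by
    constructor
    · intro x x' h
      have h1 : b x = b x' := congrArg Prod.fst h
      have h2 : u x = u x' := congrArg (fun w => ((Prod.snd w : multipliers H) : (ZMod 17)ˣ)) h
      apply Subtype.ext
      apply Subtype.ext
      rw [hg x, hg x', h1, h2]
    · rintro ⟨c, ⟨v, hv⟩⟩
      have hv' : mu (ZMod 17) v ∈ H := hv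
      have hm : rho (matT c) * mu (ZMod 17) v ∈ H := H.mul_mem (D.tau c) hv'
      have hs : (⟨_, hm⟩ : H) ∈ MulAction.stabilizer H (∞ : OnePoint (ZMod 17)) := by
        show (rho (matT c) * mu (ZMod 17) v) (∞ : OnePoint (ZMod 17)) = ∞
        rw [Equiv.Perm.mul_apply, mu_infty, rho_T_infty]
      refine ⟨⟨_, hs⟩, ?_⟩
      have h3 := hg ⟨_, hs⟩
      obtain ⟨e1, e2⟩ := Lbl.affine_rigid h3
      show (b ⟨_, hs⟩, (⟨u ⟨_, hs⟩, hu ⟨_, hs⟩⟩ : multipliers H)) = (c, ⟨v, _⟩)
      rw [Prod.mk.injEq]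
      exact ⟨e1.symm, Subtype.ext e2.symm⟩
  rw [Nat.card_congr (Equiv.ofBijective F hF), Nat.card_prod, Nat.card_zmod]

/-- The order of the multipliers. -/
theorem card_mult : Nat.card (multipliers H) = 8 ∨ Nat.card (multipliers H) = 16 := by
  have h1 : Nat.card (multipliers H) ∣ 16 := by
    have := Subgroup.card_subgroup_dvd_card (multipliers H)
    rwa [Nat.card_eq_fintype_card (α := (ZMod 17)ˣ), ZMod.card_units] at this
  let y : (ZMod 17)ˣ := Units.mk0 3 (by decide)
  have hm : y ^ 2 ∈ multipliers H := D.sq_mem y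
  have ho : orderOf (⟨y ^ 2, hm⟩ : multipliers H) = 2 ^ 3 := by
    apply orderOf_eq_prime_pow
    · intro h
      have h2 := congrArg (fun w : multipliers H => ((w : (ZMod 17)ˣ) : ZMod 17)) h
      have h3 : ((3 : ZMod 17) ^ 2) ^ 2 ^ 2 = 1 := by simpa [y] using h2
      exact absurd h3 (by decide)
    · apply Subtype.ext
      apply Units.ext
      show ((y ^ 2) ^ 2 ^ (2 + 1) : (ZMod 17)ˣ).1 = 1
      have : (((y ^ 2) ^ 2 ^ (2 + 1) : (ZMod 17)ˣ) : ZMod 17) = ((3 : ZMod 17) ^ 2) ^ 2 ^ (2 + 1) := by simp [y]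
      rw [this]
      decide
  have h8 : 8 ∣ Nat.card (multipliers H) := by
    have := orderOf_dvd_natCard (⟨y ^ 2, hm⟩ : multipliers H)
    rwa [ho] at this
  have hle : Nat.card (multipliers H) ≤ 16 := Nat.le_of_dvd (by norm_num) h1
  have h2 := Nat.eq_mul_of_div_eq_right h8 rfl
  obtain ⟨k, hk⟩ := h8
  rw [hk] at h1 hle ⊢
  have : k = 1 ∨ k = 2 := by
    have hk0 : k ≠ 0 := by
      rintro rfl
      simp at h1
    omega
  rcases this with rfl | rfl <;> simp

/-- The order of `H`. -/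
theorem card_H' : Nat.card H = 306 * Nat.card (multipliers H) := by
  rw [D.card_H, D.card_stab]
  ring

theorem card_H_cases : Nat.card H = 2448 ∨ Nat.card H = 4896 := by
  rw [D.card_H']
  rcases D.card_mult with h | h <;> rw [h] <;> simp

/-- The order of the stabilizer of `{0, ∞}`. -/
theorem card_B : Nat.card (stabB H) = 2 * Nat.card (multipliers H) := by
  classical
  have h1 := card_eq_stab_mul_orbit (Y := stabB H) (∞ : OnePoint (ZMod 17))
  have h2 : MulAction.orbit (stabB H) (∞ : OnePoint (ZMod 17)) = s₀ := by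
    ext w
    constructor
    · rintro ⟨x, rfl⟩
      exact ((mem_stabB _).mp x.2).2
    · rintro (rfl | rfl)
      · refine ⟨⟨_, D.S_mem_B⟩, ?_⟩
        exact rho_S_infty
      · exact MulAction.mem_orbit_self _
  have h3 : s₀.ncard = 2 := Set.ncard_pair zero_ne_infty
  rw [h2, h3] at h1
  have h4 : Nat.card (MulAction.stabilizer (stabB H) (∞ : OnePoint (ZMod 17))) = Nat.card (multipliers H) := by
    have hch : ∀ x : MulAction.stabilizer (stabB H) (∞ : OnePoint (ZMod 17)), ∃ u : (ZMod 17)ˣ, mu (ZMod 17) u ∈ H ∧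
        (((x : stabB H) : H) : Equiv.Perm (OnePoint (ZMod 17))) = mu (ZMod 17) u := by
      intro x
      have hi : (((x : stabB H) : H) : Equiv.Perm (OnePoint (ZMod 17))) ∞ = ∞ := x.2
      have hm := (mem_stabB _).mp (x : stabB H).2
      have h0 : (((x : stabB H) : H) : Equiv.Perm (OnePoint (ZMod 17))) ((0 : ZMod 17) : OnePoint (ZMod 17)) = ((0 : ZMod 17) : OnePoint (ZMod 17)) := by
        rcases mem_s₀.mp hm.1 with a | a
        · exact a
        · exfalso
          apply zero_ne_infty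
          apply (((x : stabB H) : H) : Equiv.Perm (OnePoint (ZMod 17))).injective
          rw [hi]
          exact a
      exact D.fix_two _ ((x : stabB H) : H).2 hi h0
    choose u hu hg using hch
    let F : MulAction.stabilizer (stabB H) (∞ : OnePoint (ZMod 17)) → multipliers H := fun x => ⟨u x, hu x⟩
    have hF : Function.Bijective F := by
      constructor
      · intro x x' h
        have h2 : u x = u x' := congrArg (fun w : multipliers H => (w : (ZMod 17)ˣ)) h
        apply Subtype.ext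
        apply Subtype.ext
        apply Subtype.ext
        rw [hg x, hg x', h2]
      · rintro ⟨v, hv⟩
        have hv' : mu (ZMod 17) v ∈ H := hv
        have hB := D.mu_mem_B v hv'
        have hs : (⟨_, hB⟩ : stabB H) ∈ MulAction.stabilizer (stabB H) (∞ : OnePoint (ZMod 17)) := by
          show mu (ZMod 17) v (∞ : OnePoint (ZMod 17)) = ∞
          exact mu_infty v
        refine ⟨⟨_, hs⟩, ?_⟩
        apply Subtype.ext
        have h3 := hg ⟨_, hs⟩
        exact (mu_injective' h3).symm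
    exact Nat.card_congr (Equiv.ofBijective F hF)
  rw [h1, h4, mul_comm]

/-- The normalizer of the stabilizer of `{0, ∞}`. -/
theorem normalizer_B_le (y : H) (hy : y ∈ Subgroup.normalizer ((stabB H : Subgroup H) : Set H)) : y ∈ stabB H := by
  classical
  have hmem : ∀ p ∈ s₀, y • p ∈ s₀ := by
    intro p hp
    by_contra hno
    have hne : y • p ≠ ∞ := fun h => hno (Or.inr h)
    obtain ⟨z, hz⟩ := OnePoint.ne_infty_iff_exists.mp hne
    have hz0 : z ≠ 0 := by
      rintro rfl
      exact hno (Or.inl hz.symm)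
    -- `μ_u` preserves `y s₀`
    have hact : ∀ u : (ZMod 17)ˣ, mu (ZMod 17) u ∈ H → ((u * z : ZMod 17) : OnePoint (ZMod 17)) = y • ((0 : ZMod 17) : OnePoint (ZMod 17)) ∨
        ((u * z : ZMod 17) : OnePoint (ZMod 17)) = y • (∞ : OnePoint (ZMod 17)) := by
      intro u hu
      have h1 : y⁻¹ * ⟨mu (ZMod 17) u, hu⟩ * y⁻¹⁻¹ ∈ stabB H := by
        have hyi := Subgroup.inv_mem _ hy
        exact (Subgroup.mem_normalizer_iff.mp hyi _).mp (D.mu_mem_B u hu)
      have h1' : (y⁻¹ * ⟨mu (ZMod 17) u, hu⟩ * y) • s₀ = s₀ := by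
        rw [inv_inv] at h1
        exact h1
      have h2 : (y⁻¹ * ⟨mu (ZMod 17) u, hu⟩ * y) • p ∈ s₀ := by
        rw [← h1']
        exact Set.smul_mem_smul_set hp
      have h3 : (y⁻¹ * ⟨mu (ZMod 17) u, hu⟩ * y) • p = y⁻¹ • ((u * z : ZMod 17) : OnePoint (ZMod 17)) := by
        rw [mul_smul, mul_smul, ← hz]
        rfl
      rw [h3] at h2
      rcases mem_s₀.mp h2 with a | a
      · left
        rw [← a, smul_inv_smul]
      · right
        rw [← a, smul_inv_smul]
    have hc1 := hact 1 (by rw [map_one]; exact H.one_mem)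
    have hc2 := hact (-1) D.neg_one_mem
    let y2 : (ZMod 17)ˣ := Units.mk0 2 (by decide)
    have hc3 := hact (y2 ^ 2) (D.sq_mem y2)
    have e1 : (((1 : (ZMod 17)ˣ) : ZMod 17) * z) = z := by simp
    have e2 : (((-1 : (ZMod 17)ˣ) : ZMod 17) * z) = -z := by simp
    have e3 : (((y2 ^ 2 : (ZMod 17)ˣ) : ZMod 17) * z) = 4 * z := by
      have : ((y2 ^ 2 : (ZMod 17)ˣ) : ZMod 17) = 4 := by
        simp [y2]
        decide
      rw [this]
    rw [e1] at hc1
    rw [e2] at hc2
    rw [e3] at hc3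
    obtain ⟨d1, d2, d3⟩ := mult_distinct z hz0
    rcases hc1 with a | a <;> rcases hc2 with b | b <;> rcases hc3 with c | c
    · exact d1 (OnePoint.coe_eq_coe.mp (a.trans b.symm))
    · exact d1 (OnePoint.coe_eq_coe.mp (a.trans b.symm))
    · exact d2 (OnePoint.coe_eq_coe.mp (a.trans c.symm))
    · exact d3 (OnePoint.coe_eq_coe.mp (b.trans c.symm))
    · exact d3 (OnePoint.coe_eq_coe.mp (b.trans c.symm))
    · exact d2 (OnePoint.coe_eq_coe.mp (a.trans c.symm))
    · exact d1 (OnePoint.coe_eq_coe.mp (a.trans b.symm))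
    · exact d1 (OnePoint.coe_eq_coe.mp (a.trans b.symm))
  rw [mem_stabB]
  exact ⟨hmem _ (Or.inl rfl), hmem _ (Or.inr rfl)⟩

/-- **The number of Sylow `2`-subgroups.** -/
theorem card_sylow_two : Nat.card (Sylow 2 H) = 153 := by
  have hB := D.card_B
  have hH := D.card_H'
  have hcases : ∃ a : ℕ, Nat.card (stabB H) = 2 ^ a ∧ Nat.card H = 2 ^ a * 153 := by
    rcases D.card_mult with h | h
    · exact ⟨4, by rw [hB, h]; norm_num, by rw [hH, h]; norm_num⟩
    · exact ⟨5, by rw [hB, h]; norm_num, by rw [hH, h]; norm_num⟩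
  obtain ⟨a, ha, hH2⟩ := hcases
  have hp : IsPGroup 2 (stabB H) := IsPGroup.of_card ha
  obtain ⟨R, hR⟩ := hp.exists_le_sylow
  have hcR := sylow_card_of_card_eq hH2 (by norm_num) R
  have heq : stabB H = (R : Subgroup H) := by
    apply Subgroup.eq_of_le_of_card_ge hR
    rw [hcR, ha]
  have hN := card_normalizer_mul_card_sylow R
  have hle : Subgroup.normalizer (((R : Subgroup H) : Set H)) = (R : Subgroup H) := by
    apply le_antisymm _ Subgroup.le_normalizer
    intro y hy
    rw [← heq] at hy ⊢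
    exact D.normalizer_B_le y hy
  rw [hle, hcR, hH2] at hN
  have hpos : 0 < 2 ^ a := by positivity
  exact Nat.eq_of_mul_eq_mul_left hpos hN

/-- An element of the group fixing `∞`, `7` and `2` is trivial. -/
theorem eq_one_of_fix (x : Equiv.Perm (OnePoint (ZMod 17))) (hx : x ∈ H) (h1 : x ∞ = ∞)
    (h7 : x ((7 : ZMod 17) : OnePoint (ZMod 17)) = ((7 : ZMod 17) : OnePoint (ZMod 17)))
    (h2 : x ((2 : ZMod 17) : OnePoint (ZMod 17)) = ((2 : ZMod 17) : OnePoint (ZMod 17))) : x = 1 := by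
  obtain ⟨b, u, -, he⟩ := D.aff x hx h1
  rw [he, Equiv.Perm.mul_apply, mu_coe, rho_T_coe] at h7 h2
  have a1 := OnePoint.coe_eq_coe.mp h7
  have a2 := OnePoint.coe_eq_coe.mp h2
  have h5 : (u : ZMod 17) * 5 = 5 := by
    have : (u : ZMod 17) * 5 = (u * 7 + b) - (u * 2 + b) := by ring
    rw [this, a1, a2]
    decide
  have hu : (u : ZMod 17) = 1 := by
    have h6 : ((u : ZMod 17) - 1) * 5 = 0 := by rw [sub_mul, h5]; ring
    rcases mul_eq_zero.mp h6 with h | h
    · exact sub_eq_zero.mp h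
    · exact absurd h (by decide)
  have hb : b = 0 := by
    rw [hu] at a2
    have : (1 : ZMod 17) * 2 + b = 2 + b := by ring
    rw [this] at a2
    exact left_eq_add.mp a2.symm
  have hu' : u = 1 := Units.ext hu
  rw [he, hb, hu', map_one, rho_T_zero', one_mul]

end PermData

/-- The element of order `9`. -/
noncomputable def g9 : Equiv.Perm (OnePoint (ZMod 17)) := rho (matT (7 : ZMod 17) * matS)

theorem inv7 : (7 : ZMod 17)⁻¹ = 5 := (eq_inv_of_mul_eq_one_left (by decide)).symm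

theorem inv2 : (2 : ZMod 17)⁻¹ = 9 := (eq_inv_of_mul_eq_one_left (by decide)).symm

theorem g9_apply (z : ZMod 17) (hz : z ≠ 0) : g9 (z : OnePoint (ZMod 17)) = ((-z⁻¹ + 7 : ZMod 17) : OnePoint (ZMod 17)) := by
  unfold g9
  rw [map_mul, Equiv.Perm.mul_apply, rho_S_coe z hz, rho_T_coe]

theorem g9_infty : g9 (∞ : OnePoint (ZMod 17)) = ((7 : ZMod 17) : OnePoint (ZMod 17)) := by
  unfold g9
  rw [map_mul, Equiv.Perm.mul_apply, rho_S_infty, rho_T_coe, zero_add]

theorem g9_seven : g9 ((7 : ZMod 17) : OnePoint (ZMod 17)) = ((2 : ZMod 17) : OnePoint (ZMod 17)) := by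
  rw [g9_apply _ (by decide), inv7]
  congr 1

theorem g9_two : g9 ((2 : ZMod 17) : OnePoint (ZMod 17)) = ((15 : ZMod 17) : OnePoint (ZMod 17)) := by
  rw [g9_apply _ (by decide), inv2]
  congr 1

theorem matrix_pow_nine : ((matT (7 : ZMod 17) * matS) ^ 9 : Matrix.SpecialLinearGroup (Fin 2) (ZMod 17)) = 1 := by
  apply Subtype.ext
  have h : ((matT (7 : ZMod 17) * matS : Matrix.SpecialLinearGroup (Fin 2) (ZMod 17)) : Matrix (Fin 2) (Fin 2) (ZMod 17)) = !![7, -1; 1, 0] := by
    show (!![1, 7; 0, 1] * !![0, -1; 1, 0] : Matrix (Fin 2) (Fin 2) (ZMod 17)) = _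
    rw [Matrix.mul_fin_two]
    simp
  rw [Matrix.SpecialLinearGroup.coe_pow, h, Matrix.SpecialLinearGroup.coe_one]
  decide +kernel

theorem g9_pow_nine : g9 ^ 9 = 1 := by
  unfold g9
  rw [← map_pow, matrix_pow_nine, map_one]

theorem orderOf_g9 : orderOf g9 = 3 ^ 2 := by
  apply orderOf_eq_prime_pow
  · intro h
    have h1 : g9 ^ 3 = 1 := h
    have h2 := congrArg (fun σ : Equiv.Perm (OnePoint (ZMod 17)) => σ (∞ : OnePoint (ZMod 17))) h1
    simp only [pow_succ, pow_zero, one_mul, Equiv.Perm.mul_apply, Equiv.Perm.coe_one, id_eq] at h2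
    rw [g9_infty, g9_seven, g9_two] at h2
    exact OnePoint.coe_ne_infty _ h2
  · exact g9_pow_nine

namespace PermData

variable (D : PermData H T)
include D

theorem g9_mem : g9 ∈ H := by
  unfold g9
  rw [map_mul]
  exact H.mul_mem (D.tau 7) D.S_mem

/-- **The number of Sylow `3`-subgroups.** -/
theorem card_sylow_three (hdiv : Nat.card (Sylow 3 H) ∣ 136) : Nat.card (Sylow 3 H) = 136 := by
  classical
  have hord : orderOf (⟨g9, D.g9_mem⟩ : H) = 9 := by
    rw [Subgroup.orderOf_mk, orderOf_g9]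
    norm_num
  have hcQ : Nat.card (Subgroup.zpowers (⟨g9, D.g9_mem⟩ : H)) = 3 ^ 2 := by
    rw [Nat.card_zpowers, hord]
    norm_num
  have hp : IsPGroup 3 (Subgroup.zpowers (⟨g9, D.g9_mem⟩ : H)) := IsPGroup.of_card hcQ
  obtain ⟨R, hR⟩ := hp.exists_le_sylow
  have hH3 : ∃ m : ℕ, Nat.card H = 3 ^ 2 * m ∧ ¬ 3 ∣ m := by
    rcases D.card_H_cases with h | h
    · exact ⟨272, by rw [h]; norm_num, by norm_num⟩
    · exact ⟨544, by rw [h]; norm_num, by norm_num⟩
  obtain ⟨m, hm, hm3⟩ := hH3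
  have hcR := sylow_card_of_card_eq hm hm3 R
  have heq : Subgroup.zpowers (⟨g9, D.g9_mem⟩ : H) = (R : Subgroup H) := by
    apply Subgroup.eq_of_le_of_card_ge hR
    rw [hcR, hcQ]
  have hN := card_normalizer_mul_card_sylow R
  rw [← heq] at hN
  generalize hNdef : Subgroup.normalizer ((Subgroup.zpowers (⟨g9, D.g9_mem⟩ : H) : Subgroup H) : Set H) = N at hN
  have hinj : Function.Injective
      ((Subgroup.normalizerMonoidHom (Subgroup.zpowers (⟨g9, D.g9_mem⟩ : H))).comp
        (Subgroup.subtype (MulAction.stabilizer (Subgroup.normalizer ((Subgroup.zpowers (⟨g9, D.g9_mem⟩ : H) : Subgroup H) : Set H)) (∞ : OnePoint (ZMod 17))))) := by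
    rw [injective_iff_map_eq_one]
    intro x hx
    have h1 : (x : Subgroup.normalizer ((Subgroup.zpowers (⟨g9, D.g9_mem⟩ : H) : Subgroup H) : Set H)) ∈
        (Subgroup.normalizerMonoidHom (Subgroup.zpowers (⟨g9, D.g9_mem⟩ : H))).ker := hx
    rw [Subgroup.normalizerMonoidHom_ker, Subgroup.mem_subgroupOf, Subgroup.mem_centralizer_iff] at h1
    have h2 := h1 _ (Subgroup.mem_zpowers (⟨g9, D.g9_mem⟩ : H))
    have h3 := congrArg (fun w : H => (w : Equiv.Perm (OnePoint (ZMod 17)))) h2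
    simp only [Subgroup.coe_mul] at h3
    set x' : Equiv.Perm (OnePoint (ZMod 17)) := (((x : Subgroup.normalizer ((Subgroup.zpowers (⟨g9, D.g9_mem⟩ : H) : Subgroup H) : Set H)) : H) : Equiv.Perm (OnePoint (ZMod 17))) with hx'
    have hi : x' ∞ = ∞ := x.2
    have hc : ∀ w, g9 (x' w) = x' (g9 w) := fun w => by
      have := congrArg (fun σ : Equiv.Perm (OnePoint (ZMod 17)) => σ w) h3
      simpa using this
    have h7 : x' ((7 : ZMod 17) : OnePoint (ZMod 17)) = ((7 : ZMod 17) : OnePoint (ZMod 17)) := by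
      rw [← g9_infty, ← hc, hi]
    have h22 : x' ((2 : ZMod 17) : OnePoint (ZMod 17)) = ((2 : ZMod 17) : OnePoint (ZMod 17)) := by
      rw [← g9_seven, ← hc, h7]
    have h5 : x' = 1 := D.eq_one_of_fix x' (((x : Subgroup.normalizer ((Subgroup.zpowers (⟨g9, D.g9_mem⟩ : H) : Subgroup H) : Set H)) : H)).2 hi h7 h22
    apply Subtype.ext
    apply Subtype.ext
    apply Subtype.ext
    exact h5
  have hd1 := Subgroup.card_dvd_of_injective _ hinj
  rw [IsCyclic.card_mulAut, Nat.card_zpowers, hord] at hd1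
  have h96 : Nat.totient 9 = 6 := by decide
  rw [h96] at hd1
  -- into the stabilizer
  let f : MulAction.stabilizer (Subgroup.normalizer ((Subgroup.zpowers (⟨g9, D.g9_mem⟩ : H) : Subgroup H) : Set H)) (∞ : OnePoint (ZMod 17)) →*
      MulAction.stabilizer H (∞ : OnePoint (ZMod 17)) :=
    { toFun := fun x => ⟨(x : Subgroup.normalizer ((Subgroup.zpowers (⟨g9, D.g9_mem⟩ : H) : Subgroup H) : Set H)), x.2⟩
      map_one' := rfl
      map_mul' := fun _ _ => rfl }
  have hfinj : Function.Injective f := by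
    intro x y h
    apply Subtype.ext
    apply Subtype.ext
    exact congrArg (fun w : MulAction.stabilizer H (∞ : OnePoint (ZMod 17)) => (w : H)) h
  have hd2 := Subgroup.card_dvd_of_injective f hfinj
  rw [D.card_stab] at hd2
  have hd3 : Nat.card (MulAction.stabilizer (Subgroup.normalizer ((Subgroup.zpowers (⟨g9, D.g9_mem⟩ : H) : Subgroup H) : Set H)) (∞ : OnePoint (ZMod 17))) ≤ 2 := by
    have h4 : Nat.card (MulAction.stabilizer (Subgroup.normalizer ((Subgroup.zpowers (⟨g9, D.g9_mem⟩ : H) : Subgroup H) : Set H)) (∞ : OnePoint (ZMod 17))) ∣ 2 := by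
      rcases D.card_mult with h | h <;> rw [h] at hd2
      · exact Nat.dvd_gcd hd1 hd2
      · exact Nat.dvd_gcd hd1 hd2
    exact Nat.le_of_dvd (by norm_num) h4
  have hb := card_eq_stab_mul_orbit (Y := Subgroup.normalizer ((Subgroup.zpowers (⟨g9, D.g9_mem⟩ : H) : Subgroup H) : Set H)) (∞ : OnePoint (ZMod 17))
  have horb : (MulAction.orbit (Subgroup.normalizer ((Subgroup.zpowers (⟨g9, D.g9_mem⟩ : H) : Subgroup H) : Set H)) (∞ : OnePoint (ZMod 17))).ncard ≤ 18 := by
    have := Set.ncard_le_card (MulAction.orbit (Subgroup.normalizer ((Subgroup.zpowers (⟨g9, D.g9_mem⟩ : H) : Subgroup H) : Set H)) (∞ : OnePoint (ZMod 17)))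
    rwa [card_om] at this
  have hbound : Nat.card N ≤ 36 := by
    rw [← hNdef, hb]
    calc _ ≤ 2 * 18 := Nat.mul_le_mul hd3 horb
      _ = 36 := by norm_num
  have hbig : 2448 ≤ Nat.card H := by
    rcases D.card_H_cases with h | h <;> rw [h] <;> norm_num
  have hmod : Nat.card (Sylow 3 H) ≡ 1 [MOD 3] := card_sylow_modEq_one 3 H
  have hn68 : 68 ≤ Nat.card (Sylow 3 H) := by
    by_contra hlt
    have h6 : Nat.card (Sylow 3 H) ≤ 67 := by omega
    have : Nat.card N * Nat.card (Sylow 3 H) ≤ 36 * 67 := Nat.mul_le_mul hbound h6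
    omega
  have hd : Nat.card (Sylow 3 H) ∈ Nat.divisors 136 := Nat.mem_divisors.mpr ⟨hdiv, by norm_num⟩
  have e : Nat.divisors 136 = {1, 2, 4, 8, 17, 34, 68, 136} := by decide +kernel
  rw [e] at hd
  simp only [Finset.mem_insert, Finset.mem_singleton] at hd
  unfold Nat.ModEq at hmod
  omega

end PermData

end Cfsg.Agent.Lib.Rec17
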