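import Mathlib
import Cfsg.Agent.Lib.Rec17Class
import Cfsg.Agent.Lib.Rec17Syl
import Cfsg.Agent.Lib.Rec17Kernel

/-!
# Recognition of `PSL(2,17)` and `PGL(2,17)` by their Sylow numbers
-/

set_option autoImplicit false
set_option linter.unusedSectionVars false
set_option linter.style.haveILetI false

namespace Cfsg.Agent.Lib.Rec17

open OnePoint Cfsg.Agent.Lib.PSL2Rec Cfsg.Agent.Lib.SylowNum Cfsg.Agent.Lib.SylowNum2

/-- Sylow numbers are invariant under isomorphism. -/
theorem card_sylow_congr {A B : Type*} [Group A] [Group B] [Finite A] [Finite B] {p : ℕ} [Fact p.Prime] (e : A ≃* B) :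
    Nat.card (Sylow p A) = Nat.card (Sylow p B) := by
  have hs : Function.Surjective e.toMonoidHom := e.surjective
  let f : Sylow p A → Sylow p B := fun P => P.mapSurjective hs
  have hsurj : Function.Surjective f := Sylow.mapSurjective_surjective hs p
  have hinj : Function.Injective f := by
    intro P Q h
    apply Sylow.ext
    have h1 : ((P : Subgroup A)).map e.toMonoidHom = ((Q : Subgroup A)).map e.toMonoidHom :=
      congrArg (fun R : Sylow p B => (R : Subgroup B)) h
    exact Subgroup.map_injective e.injective h1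
  exact Nat.card_congr (Equiv.ofBijective f ⟨hinj, hsurj⟩)

section quotient

variable {G : Type*} [Group G] [Finite G] {p : ℕ} [Fact p.Prime]

/-- The kernel of the action on the Sylow subgroups. -/
theorem smul_eq_of_mem_ker (K : Subgroup G) (hK : K = (MulAction.toPermHom G (Sylow p G)).ker) (Q : Sylow p G) (k : G) (hk : k ∈ K) :
    k • Q = Q := by
  rw [hK, MonoidHom.mem_ker] at hk
  exact congrArg (fun σ : Equiv.Perm (Sylow p G) => σ Q) hk

/-- Uniqueness inside `Q K`. -/
theorem eq_of_le_sup (K : Subgroup G) [K.Normal] (hKN : ∀ (Q : Sylow p G) (k : G), k ∈ K → k • Q = Q) (P Q : Sylow p G)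
    (h : (Q : Subgroup G) ≤ (P : Subgroup G) ⊔ K) : Q = P := by
  apply sylow_eq_of_le
  have hle : (P : Subgroup G) ⊔ K ≤ Subgroup.normalizer ((P : Subgroup G) : Set G) := by
    apply sup_le Subgroup.le_normalizer
    intro k hk
    exact Sylow.smul_eq_iff_mem_normalizer.mp (hKN P k hk)
  intro x hx
  exact mem_sylow_of_normalizes P x (pelt_of_mem Q x hx) (hle (h hx))

theorem mapQ_injective (K : Subgroup G) [K.Normal] (hKN : ∀ (Q : Sylow p G) (k : G), k ∈ K → k • Q = Q) :
    Function.Injective (mapQ (p := p) K) := by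
  intro Q₁ Q₂ h
  exact eq_of_le_sup K hKN Q₂ Q₁ ((mapQ_eq_iff K Q₂ Q₁).1 h)

theorem card_sylow_quot (K : Subgroup G) [K.Normal] (hKN : ∀ (Q : Sylow p G) (k : G), k ∈ K → k • Q = Q) :
    Nat.card (Sylow p (G ⧸ K)) = Nat.card (Sylow p G) := by
  have hsurj : Function.Surjective (mapQ (p := p) K) :=
    Sylow.mapSurjective_surjective (QuotientGroup.mk'_surjective K) p
  exact (Nat.card_congr (Equiv.ofBijective _ ⟨mapQ_injective K hKN, hsurj⟩)).symm

/-- An element of the quotient fixing all Sylow subgroups is trivial. -/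
theorem quot_fix_eq_one (K : Subgroup G) [K.Normal] (hK : K = (MulAction.toPermHom G (Sylow p G)).ker) (x : G ⧸ K)
    (hx : ∀ R : Sylow p (G ⧸ K), x • R = R) : x = 1 := by
  obtain ⟨g, rfl⟩ := QuotientGroup.mk_surjective x
  have hKN := smul_eq_of_mem_ker (p := p) K hK
  rw [QuotientGroup.eq_one_iff, hK, MonoidHom.mem_ker]
  apply Equiv.ext
  intro Q
  show g • Q = Q
  apply mapQ_injective K hKN
  rw [mapQ_smul]
  exact hx _

end quotient

/-- Prime divisors of `135` and `152`. -/
theorem prime_cases (r : ℕ) (hr : r.Prime) (c : ℕ) (hc : c = 18 ∨ c = 136 ∨ c = 153) (hm : c ≡ 1 [MOD r]) :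
    r = 2 ∨ r = 3 ∨ r = 5 ∨ r = 17 ∨ r = 19 := by
  have hd : r ∣ c - 1 := by
    have h1 : 1 ≤ c := by omega
    exact (Nat.modEq_iff_dvd' h1).mp hm.symm
  have e1 := fun (a b : ℕ) (h : r ∣ a * b) => (Nat.Prime.dvd_mul hr).mp h
  have p2 : ∀ q : ℕ, q.Prime → r ∣ q → r = q := fun q hq h => (Nat.prime_dvd_prime_iff_eq hr hq).mp h
  rcases hc with rfl | rfl | rfl
  · right; right; right; left
    exact p2 17 (by norm_num) hd
  · have : r ∣ 3 * (3 * (3 * 5)) := by simpa using hd
    rcases e1 _ _ this with h | h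
    · right; left; exact p2 3 (by norm_num) h
    · rcases e1 _ _ h with h | h
      · right; left; exact p2 3 (by norm_num) h
      · rcases e1 _ _ h with h | h
        · right; left; exact p2 3 (by norm_num) h
        · right; right; left; exact p2 5 (by norm_num) h
  · have : r ∣ 2 * (2 * (2 * 19)) := by simpa using hd
    rcases e1 _ _ this with h | h
    · left; exact p2 2 (by norm_num) h
    · rcases e1 _ _ h with h | h
      · left; exact p2 2 (by norm_num) h
      · rcases e1 _ _ h with h | h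
        · left; exact p2 2 (by norm_num) h
        · right; right; right; right; exact p2 19 (by norm_num) h

/-- **Recognition theorem.** -/
theorem recognition {G : Type*} [Group G] [Finite G] (hZ : Subgroup.center G = ⊥)
    (hNS : {c : ℕ | ∃ r : ℕ, r.Prime ∧ r ∣ Nat.card G ∧ c = Nat.card (Sylow r G)} = ({18, 136, 153} : Set ℕ))
    {F : Type*} [Field F] [Fintype F] (hF : Fintype.card F = 17) :
    Nonempty (G ≃* Matrix.ProjectiveSpecialLinearGroup (Fin 2) F) ∨
      Nonempty (G ≃* (GL (Fin 2) F ⧸ Subgroup.center (GL (Fin 2) F))) := by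
  classical
  haveI f5 : Fact (Nat.Prime 5) := ⟨by norm_num⟩
  haveI f19 : Fact (Nat.Prime 19) := ⟨by norm_num⟩
  -- the Sylow numbers
  have hmem : ∀ r : ℕ, r.Prime → r ∣ Nat.card G →
      Nat.card (Sylow r G) = 18 ∨ Nat.card (Sylow r G) = 136 ∨ Nat.card (Sylow r G) = 153 := by
    intro r hr hd
    have h1 : Nat.card (Sylow r G) ∈ ({18, 136, 153} : Set ℕ) := by
      rw [← hNS]
      exact ⟨r, hr, hd, rfl⟩
    simpa using h1
  have hmod : ∀ r : ℕ, r.Prime → Nat.card (Sylow r G) ≡ 1 [MOD r] := by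
    intro r hr
    haveI : Fact r.Prime := ⟨hr⟩
    exact card_sylow_modEq_one r G
  have hdvdG : ∀ r : ℕ, r.Prime → Nat.card (Sylow r G) ∣ Nat.card G := by
    intro r hr
    haveI : Fact r.Prime := ⟨hr⟩
    obtain ⟨R⟩ : Nonempty (Sylow r G) := inferInstance
    rw [Sylow.card_eq_index_normalizer R]
    exact Subgroup.index_dvd_card _
  have hexist : ∀ c ∈ ({18, 136, 153} : Set ℕ), ∃ r : ℕ, r.Prime ∧ r ∣ Nat.card G ∧ c = Nat.card (Sylow r G) := by
    intro c hc
    rw [← hNS] at hc
    exact hc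
  have hpr : ∀ r : ℕ, r.Prime → r ∣ Nat.card G → r = 2 ∨ r = 3 ∨ r = 5 ∨ r = 17 ∨ r = 19 := by
    intro r hr hd
    exact prime_cases r hr _ (hmem r hr hd) (hmod r hr)
  -- `18`
  obtain ⟨r18, hr18, hd18, he18⟩ := hexist 18 (by simp)
  have h18G : 18 ∣ Nat.card G := by
    rw [he18]
    exact hdvdG r18 hr18
  have h2G : 2 ∣ Nat.card G := (by norm_num : 2 ∣ 18).trans h18G
  have h3G : 3 ∣ Nat.card G := (by norm_num : 3 ∣ 18).trans h18G
  obtain ⟨r136, hr136, hd136, he136⟩ := hexist 136 (by simp)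
  have h136G : 136 ∣ Nat.card G := by
    rw [he136]
    exact hdvdG r136 hr136
  have h17G : 17 ∣ Nat.card G := (by norm_num : 17 ∣ 136).trans h136G
  have hcase : ∀ r : ℕ, r.Prime → r ∣ Nat.card G → (Nat.card (Sylow r G)) % r = 1 % r := fun r hr _ => hmod r hr
  have n2 : Nat.card (Sylow 2 G) = 153 := by
    have h := hcase 2 Nat.prime_two h2G
    rcases hmem 2 Nat.prime_two h2G with e | e | e <;> rw [e] at h ⊢ <;> omega
  have n3 : Nat.card (Sylow 3 G) = 136 := by
    have h := hcase 3 Nat.prime_three h3G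
    rcases hmem 3 Nat.prime_three h3G with e | e | e <;> rw [e] at h ⊢ <;> omega
  have n17 : Nat.card (Sylow 17 G) = 18 := by
    have h := hcase 17 (by norm_num) h17G
    rcases hmem 17 (by norm_num) h17G with e | e | e <;> rw [e] at h ⊢ <;> omega
  have n5 : 5 ∣ Nat.card G → Nat.card (Sylow 5 G) = 136 := by
    intro h5G
    have h := hcase 5 (by norm_num) h5G
    rcases hmem 5 (by norm_num) h5G with e | e | e <;> rw [e] at h ⊢ <;> omega
  have n19 : 19 ∣ Nat.card G → Nat.card (Sylow 19 G) = 153 := by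
    intro h5G
    have h := hcase 19 (by norm_num) h5G
    rcases hmem 19 (by norm_num) h5G with e | e | e <;> rw [e] at h ⊢ <;> omega
  -- the kernel of the action on the Sylow `17`-subgroups
  let K : Subgroup G := (MulAction.toPermHom G (Sylow 17 G)).ker
  haveI hKn : K.Normal := MonoidHom.normal_ker _
  have hKN : ∀ (Q : Sylow 17 G) (k : G), k ∈ K → k • Q = Q := smul_eq_of_mem_ker K rfl
  have nq17 : Nat.card (Sylow 17 (G ⧸ K)) = 18 := by rw [card_sylow_quot K hKN, n17]
  -- the Sylow `17`-subgroups of the quotient have order `17`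
  have hdvdfact : Nat.card (G ⧸ K) ∣ Nat.factorial 18 := by
    have e1 : (G ⧸ K) ≃* (MulAction.toPermHom G (Sylow 17 G)).range := QuotientGroup.quotientKerEquivRange _
    have h1 := Subgroup.card_subgroup_dvd_card (MulAction.toPermHom G (Sylow 17 G)).range
    rw [← Nat.card_congr e1.toEquiv] at h1
    have h2 : Nat.card (Equiv.Perm (Sylow 17 G)) = Nat.factorial 18 := by
      have : Fintype (Sylow 17 G) := Fintype.ofFinite _
      rw [Nat.card_eq_fintype_card, Fintype.card_perm, ← Nat.card_eq_fintype_card, n17]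
    rwa [h2] at h1
  have hcard : ∀ Q : Sylow 17 (G ⧸ K), Nat.card (Q : Subgroup (G ⧸ K)) = 17 := by
    intro Q
    obtain ⟨e, he⟩ := IsPGroup.iff_card.mp Q.isPGroup'
    have h1 : Nat.card (Q : Subgroup (G ⧸ K)) ∣ Nat.factorial 18 :=
      (Subgroup.card_subgroup_dvd_card _).trans hdvdfact
    have h2 : e < 2 := by
      by_contra hlt
      have h3 : 17 ^ 2 ∣ Nat.card (Q : Subgroup (G ⧸ K)) := by
        rw [he]
        exact pow_dvd_pow _ (by omega)
      have h4 := h3.trans h1
      exact absurd h4 (by decide)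
    have h3 : e ≠ 0 := by
      rintro rfl
      rw [pow_zero, Subgroup.card_eq_one] at he
      have h4 : Nat.card (Sylow 17 (G ⧸ K)) = (Subgroup.normalizer (((Q : Subgroup (G ⧸ K))) : Set (G ⧸ K))).index :=
        Sylow.card_eq_index_normalizer Q
      rw [nq17] at h4
      have h5 : Subgroup.normalizer (((Q : Subgroup (G ⧸ K))) : Set (G ⧸ K)) = ⊤ := by
        rw [eq_top_iff]
        intro y _
        rw [Subgroup.mem_normalizer_iff]
        intro h
        simp only [he, Subgroup.mem_bot]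
        rw [conj_eq_one_iff]
      rw [h5, Subgroup.index_top] at h4
      omega
    have h4 : e = 1 := by omega
    rw [he, h4, pow_one]
  -- the labelling
  obtain ⟨P⟩ : Nonempty (Sylow 17 (G ⧸ K)) := inferInstance
  obtain ⟨x₀, hx₀⟩ := exists_prime_orderOf_dvd_card' (G := (P : Subgroup (G ⧸ K))) 17 (by rw [hcard P])
  have hnt : Nontrivial (Sylow 17 (G ⧸ K)) := by
    rw [← Finite.one_lt_card_iff_nontrivial, nq17]
    norm_num
  obtain ⟨z, hz⟩ := exists_ne P
  let L : Lbl (G ⧸ K) 17 :=
    { P := P, x := x₀, z := z, hxP := x₀.2, hxo := by rwa [Subgroup.orderOf_coe], hz := hz, hcard := hcard, hn := nq17 }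
  have hinj : Function.Injective L.phi := by
    rw [injective_iff_map_eq_one]
    intro x hx
    apply quot_fix_eq_one (p := 17) K rfl x
    intro R
    have h1 := congrArg (fun σ : Equiv.Perm (OnePoint (ZMod 17)) => σ (L.eq.symm R)) hx
    have h2 := (L.phi_eq_iff x (L.eq.symm R) (L.eq.symm R)).mp h1
    have h3 : L.e (L.eq.symm R) = R := L.eq.apply_symm_apply R
    rwa [h3] at h2
  obtain ⟨t, ht1, ht0⟩ := L.exists_t
  have D : PermData L.phi.range (L.phi t) :=
    { tau := L.tau_mem
      hT := ⟨t, rfl⟩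
      T_infty := ht1
      T_zero := ht0
      aff := by
        rintro _ ⟨g, rfl⟩ hi
        obtain ⟨b, u, hu, he⟩ := L.affine_mem g hi
        exact ⟨b, u, hu, he⟩ }
  let e₁ : (G ⧸ K) ≃* L.phi.range := MonoidHom.ofInjective hinj
  have cardH := D.card_H_cases
  have nq2 : Nat.card (Sylow 2 (G ⧸ K)) = 153 := by
    rw [card_sylow_congr e₁]
    exact D.card_sylow_two
  have nq3 : Nat.card (Sylow 3 (G ⧸ K)) = 136 := by
    rw [card_sylow_congr e₁]
    apply D.card_sylow_three
    rw [← card_sylow_congr e₁, ← n3]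
    obtain ⟨R⟩ : Nonempty (Sylow 3 G) := inferInstance
    exact ⟨_, card_sylow_eq_quot_mul K R⟩
  have hq5 : ¬ 5 ∣ Nat.card (G ⧸ K) := by
    rw [Nat.card_congr e₁.toEquiv]
    rcases cardH with h | h <;> rw [h] <;> norm_num
  have hq19 : ¬ 19 ∣ Nat.card (G ⧸ K) := by
    rw [Nat.card_congr e₁.toEquiv]
    rcases cardH with h | h <;> rw [h] <;> norm_num
  have hK : K = ⊥ := kernel_eq_bot hZ K (by rw [n2, nq2]) (by rw [n3, nq3]) (by rw [n17, nq17]) hpr n5 n19 hq5 hq19
  have hbij : Function.Bijective (QuotientGroup.mk' K) := by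
    refine ⟨?_, QuotientGroup.mk'_surjective K⟩
    rw [injective_iff_map_eq_one]
    intro x hx
    have h1 : x ∈ K := (QuotientGroup.eq_one_iff x).mp hx
    rw [hK, Subgroup.mem_bot] at h1
    exact h1
  let e₀ : G ≃* (G ⧸ K) := MulEquiv.ofBijective _ hbij
  rcases D.classify hF with h | h
  · left
    obtain ⟨e⟩ := h
    exact ⟨e₀.trans (e₁.trans e)⟩
  · right
    obtain ⟨e⟩ := h
    exact ⟨e₀.trans (e₁.trans e)⟩

end Cfsg.Agent.Lib.Rec17
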