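import Mathlib

/-!
Affine groups `W ⋊ S` realised inside `Equiv.Perm W`, and the group `2 × PSL₂(K)` of the
twisted-tensor module `M ↦ ± A M F(A)⁻¹` on 2 × 2 matrices over a field of characteristic 3.
-/

set_option autoImplicit false

namespace Cfsg.Agent.Lib.ReeCube

section Aff

variable {S W : Type*} [Group S] [AddCommGroup W] [DistribMulAction S W]

/-- the affine map `x ↦ s • x + v`. -/
def aff (s : S) (v : W) : Equiv.Perm W where
  toFun x := s • x + v
  invFun y := s⁻¹ • (y - v)
  left_inv x := by simp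
  right_inv y := by simp

@[simp] theorem aff_apply (s : S) (v x : W) : aff s v x = s • x + v := rfl

theorem aff_mul (s t : S) (v w : W) : aff s v * aff t w = aff (s * t) (s • w + v) := by
  ext x
  simp [Equiv.Perm.mul_apply, mul_smul, smul_add, add_assoc]

theorem aff_one : aff (1 : S) (0 : W) = 1 := by
  ext x
  simp

theorem aff_inv (s : S) (v : W) : (aff s v)⁻¹ = aff s⁻¹ (-(s⁻¹ • v)) := by
  rw [inv_eq_iff_mul_eq_one, aff_mul]
  ext x
  simp [smul_neg]

theorem aff_pow (s : S) (v : W) (k : ℕ) :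
    (aff s v) ^ k = aff (s ^ k) (∑ i ∈ Finset.range k, (s ^ i) • v) := by
  induction k with
  | zero => simp [aff_one]
  | succ k ih =>
    rw [pow_succ', ih, aff_mul, pow_succ', Finset.sum_range_succ', Finset.smul_sum]
    congr 1
    simp [pow_succ', mul_smul]

/-- The affine group, as a subgroup of the permutations of `W`. -/
def AffG (S W : Type*) [Group S] [AddCommGroup W] [DistribMulAction S W] : Subgroup (Equiv.Perm W) where
  carrier := {f | ∃ (s : S) (v : W), f = aff s v}
  mul_mem' := by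
    rintro _ _ ⟨s, v, rfl⟩ ⟨t, w, rfl⟩
    exact ⟨_, _, aff_mul s t v w⟩
  one_mem' := ⟨1, 0, aff_one.symm⟩
  inv_mem' := by
    rintro _ ⟨s, v, rfl⟩
    exact ⟨_, _, aff_inv s v⟩

theorem aff_mem (s : S) (v : W) : aff s v ∈ AffG S W := ⟨s, v, rfl⟩

theorem pow_eq_one_of_fix {s : S} {N : ℕ} (hN : ∀ x : W, (s ^ N) • x = x)
    (hfix : ∀ x : W, s • x = x → x = 0) (v : W) : (aff s v) ^ N = 1 := by
  rw [aff_pow]
  set w : W := ∑ i ∈ Finset.range N, (s ^ i) • v with hw
  have h1 : s • w = w := by
    have h2 : s • w + v = w + (s ^ N) • v := by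
      rw [hw, Finset.smul_sum]
      have : ∑ i ∈ Finset.range N, s • (s ^ i) • v + v = ∑ i ∈ Finset.range (N + 1), (s ^ i) • v := by
        rw [Finset.sum_range_succ']
        simp [pow_succ', mul_smul]
      rw [this, Finset.sum_range_succ]
    rw [hN v] at h2
    exact add_right_cancel h2
  have h0 : w = 0 := hfix w h1
  ext x
  simp [h0, hN x]

theorem pow_mul_three_eq_one {s : S} {N : ℕ} (hN : ∀ x : W, (s ^ N) • x = x)
    (h3 : ∀ w : W, w + w + w = 0) (v : W) : (aff s v) ^ (N * 3) = 1 := by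
  rw [pow_mul, aff_pow]
  set w : W := ∑ i ∈ Finset.range N, (s ^ i) • v with hw
  ext x
  simp only [pow_three, Equiv.Perm.mul_apply, aff_apply, hN, Equiv.Perm.coe_one, id_eq]
  have := h3 w
  calc x + w + w + w = x + (w + w + w) := by abel
    _ = x := by rw [this, add_zero]

/-- If `f ^ k = 1` then `s ^ k` acts trivially. -/
theorem smul_eq_of_pow_eq_one {s : S} {v : W} {k : ℕ} (h : (aff s v) ^ k = 1) (x : W) :
    (s ^ k) • x = x := by
  rw [aff_pow] at h
  have h0 := congrArg (fun f : Equiv.Perm W => f 0) h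
  have hx := congrArg (fun f : Equiv.Perm W => f x) h
  simp only [aff_apply, smul_zero, zero_add, Equiv.Perm.coe_one, id_eq] at h0 hx
  rwa [h0, add_zero] at hx

end Aff

end Cfsg.Agent.Lib.ReeCube
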