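import Mathlib
import Cfsg.Agent.Lib.ReeCubeA

set_option autoImplicit false

namespace Cfsg.Agent.Lib.ReeCube

open Polynomial

/-- 2 × 2 matrices. -/
abbrev M2 (K : Type*) [Field K] := Matrix (Fin 2) (Fin 2) K

/-- `SL₂`. -/
abbrev SL2 (K : Type*) [Field K] := Matrix.SpecialLinearGroup (Fin 2) K

section General
variable {K : Type*} [Field K]

theorem ch2 (X : M2 K) (h : X.det = 1) : X * X = X.trace • X - 1 := by
  rw [Matrix.det_fin_two] at h
  ext i j
  fin_cases i <;> fin_cases j <;>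
    simp [Matrix.mul_apply, Fin.sum_univ_two, Matrix.trace_fin_two] <;>
    first
      | ring1
      | linear_combination h
      | linear_combination (-1 : K) * h

theorem det_combo (A : M2 K) (h : A.det = 1) (α β : K) :
    (α • A + β • (1 : M2 K)).det = α ^ 2 + α * β * A.trace + β ^ 2 := by
  rw [Matrix.det_fin_two] at h ⊢
  simp [Matrix.trace_fin_two]
  linear_combination α ^ 2 * h

theorem det_sub (A : M2 K) (h : A.det = 1) (c : K) :
    (A - c • (1 : M2 K)).det = c ^ 2 - c * A.trace + 1 := by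
  have := det_combo A h 1 (-c)
  have e : (1 : K) • A + (-c) • (1 : M2 K) = A - c • (1 : M2 K) := by simp [sub_eq_add_neg]
  rw [e] at this
  rw [this]
  ring

end General

section Char3
variable {K : Type*} [Field K]

section
variable [CharP K 3]

/-- The entrywise Frobenius on `SL₂`. -/
noncomputable def Fr : SL2 K →* SL2 K := Matrix.SpecialLinearGroup.map (frobenius K 3)

theorem Fr_coe (A : SL2 K) (i j : Fin 2) : ((Fr A : SL2 K) : M2 K) i j = ((A : M2 K) i j) ^ 3 := by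
  change ((A : M2 K).map (frobenius K 3)) i j = _
  simp [frobenius_def]

theorem trace_Fr (A : SL2 K) : ((Fr A : SL2 K) : M2 K).trace = ((A : M2 K).trace) ^ 3 := by
  simp only [Matrix.trace_fin_two, Fr_coe]
  exact (add_pow_char _ _ 3).symm

end

/-- the group `SL₂(K) × {±1}`. -/
def SS (K : Type*) [Field K] := SL2 K × ℤˣ

noncomputable instance : Group (SS K) := inferInstanceAs (Group (SL2 K × ℤˣ))

theorem SS_mul_fst (s t : SS K) : (s * t).1 = s.1 * t.1 := rfl
theorem SS_mul_snd (s t : SS K) : (s * t).2 = s.2 * t.2 := rfl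
theorem SS_one_fst : (1 : SS K).1 = 1 := rfl
theorem SS_one_snd : (1 : SS K).2 = 1 := rfl
theorem SS_pow_fst (s : SS K) (k : ℕ) : (s ^ k).1 = s.1 ^ k := rfl
theorem SS_pow_snd (s : SS K) (k : ℕ) : (s ^ k).2 = s.2 ^ k := rfl

/-- The sign in `K`. -/
def sgn (e : ℤˣ) : K := ((e : ℤ) : K)

theorem sgn_mul (e f : ℤˣ) : (sgn (e * f) : K) = sgn e * sgn f := by simp [sgn]
theorem sgn_one : (sgn 1 : K) = 1 := by simp [sgn]
theorem sgn_sq (e : ℤˣ) : (sgn e : K) * sgn e = 1 := by rw [← sgn_mul, Int.units_mul_self, sgn_one]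

variable [CharP K 3]

noncomputable instance : DistribMulAction (SS K) (M2 K) where
  smul s M := (sgn s.2 : K) • ((s.1 : M2 K) * M * (((Fr s.1)⁻¹ : SL2 K) : M2 K))
  one_smul M := by
    change (sgn (1 : ℤˣ) : K) • (((1 : SL2 K) : M2 K) * M * (((Fr (1 : SL2 K))⁻¹ : SL2 K) : M2 K)) = M
    simp [sgn_one]
  mul_smul s t M := by
    change (sgn (s.2 * t.2) : K) • (((s.1 * t.1 : SL2 K) : M2 K) * M * (((Fr (s.1 * t.1))⁻¹ : SL2 K) : M2 K))
      = (sgn s.2 : K) • ((s.1 : M2 K) * ((sgn t.2 : K) • ((t.1 : M2 K) * M * (((Fr t.1)⁻¹ : SL2 K) : M2 K))) * (((Fr s.1)⁻¹ : SL2 K) : M2 K))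
    rw [map_mul, mul_inv_rev, sgn_mul, Matrix.SpecialLinearGroup.coe_mul, Matrix.SpecialLinearGroup.coe_mul]
    simp only [Matrix.mul_smul, Matrix.smul_mul, smul_smul, Matrix.mul_assoc]
  smul_zero s := by
    change (sgn s.2 : K) • ((s.1 : M2 K) * 0 * (((Fr s.1)⁻¹ : SL2 K) : M2 K)) = 0
    simp
  smul_add s M N := by
    change (sgn s.2 : K) • ((s.1 : M2 K) * (M + N) * (((Fr s.1)⁻¹ : SL2 K) : M2 K)) =
      (sgn s.2 : K) • ((s.1 : M2 K) * M * (((Fr s.1)⁻¹ : SL2 K) : M2 K)) +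
      (sgn s.2 : K) • ((s.1 : M2 K) * N * (((Fr s.1)⁻¹ : SL2 K) : M2 K))
    rw [Matrix.mul_add, Matrix.add_mul, smul_add]

theorem smul_def (s : SS K) (M : M2 K) :
    s • M = (sgn s.2 : K) • ((s.1 : M2 K) * M * (((Fr s.1)⁻¹ : SL2 K) : M2 K)) := rfl

theorem Fr_mul_inv (A : SL2 K) : ((Fr A : SL2 K) : M2 K) * (((Fr A)⁻¹ : SL2 K) : M2 K) = 1 := by
  rw [← Matrix.SpecialLinearGroup.coe_mul, mul_inv_cancel, Matrix.SpecialLinearGroup.coe_one]

theorem Fr_inv_mul (A : SL2 K) : (((Fr A)⁻¹ : SL2 K) : M2 K) * ((Fr A : SL2 K) : M2 K) = 1 := by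
  rw [← Matrix.SpecialLinearGroup.coe_mul, inv_mul_cancel, Matrix.SpecialLinearGroup.coe_one]

/-- The trace relation for fixed vectors. -/
theorem fix_trace (s : SS K) (M : M2 K) (hM : M ≠ 0) (h : s • M = M) :
    ((s.1 : M2 K).trace) ^ 3 = sgn s.2 * (s.1 : M2 K).trace := by
  set A : M2 K := (s.1 : M2 K) with hA
  set F : M2 K := ((Fr s.1 : SL2 K) : M2 K) with hF
  set F' : M2 K := (((Fr s.1)⁻¹ : SL2 K) : M2 K) with hF'
  set e : K := sgn s.2 with he
  set t : K := A.trace with ht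
  have hee : e * e = 1 := sgn_sq s.2
  have h0 : e • (A * M * F') = M := h
  have hF'F : F' * F = 1 := Fr_inv_mul s.1
  have hFF' : F * F' = 1 := Fr_mul_inv s.1
  have h1 : e • (A * M) = M * F := by
    have := congrArg (fun X => X * F) h0
    simp only [Matrix.smul_mul, Matrix.mul_assoc, hF'F, Matrix.mul_one] at this
    simpa [Matrix.mul_assoc] using this
  have h2 : A * M = e • (M * F) := by
    rw [← h1, smul_smul, hee, one_smul]
  have h3 : A * A * M = M * (F * F) := by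
    rw [Matrix.mul_assoc, h2, Matrix.mul_smul, ← Matrix.mul_assoc, h2, Matrix.smul_mul, smul_smul, hee,
      one_smul, Matrix.mul_assoc]
  have hdetA : A.det = 1 := s.1.2
  have hdetF : F.det = 1 := (Fr s.1).2
  have hchA := ch2 A hdetA
  have hchF := ch2 F hdetF
  have htF : F.trace = t ^ 3 := trace_Fr s.1
  rw [hchA, hchF, htF, Matrix.sub_mul, Matrix.mul_sub, Matrix.smul_mul, h2, Matrix.mul_smul, Matrix.one_mul,
    Matrix.mul_one] at h3
  have h5 : (t * e) • (M * F) = t ^ 3 • (M * F) := by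
    rw [smul_smul] at h3
    exact sub_left_injective h3
  have h4 : (t ^ 3 - e * t) • (M * F) = 0 := by
    rw [sub_smul, mul_comm e t, ← h5, sub_self]
  rcases smul_eq_zero.1 h4 with h5 | h5
  · linear_combination h5
  · exfalso
    apply hM
    have : M = M * F * F' := by rw [Matrix.mul_assoc, hFF', Matrix.mul_one]
    rw [this, h5, Matrix.zero_mul]

end Char3

end Cfsg.Agent.Lib.ReeCube
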