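import Mathlib
import Cfsg.Agent.Lib.ReeCubeB

set_option autoImplicit false

namespace Cfsg.Agent.Lib.ReeCube

open Polynomial

theorem q_mod (m : ℕ) : 3 ^ (2 * m + 1) % 8 = 3 := by
  rw [pow_succ, pow_mul]
  norm_num [Nat.mul_mod, Nat.pow_mod]

section Char3
variable {K : Type*} [Field K] [CharP K 3]

theorem three_eq_zero : (3 : K) = 0 := by
  have := CharP.cast_eq_zero K 3
  exact_mod_cast this

theorem two_eq : (2 : K) = -1 := by
  have := three_eq_zero (K := K)
  linear_combination this

theorem two_ne_zero' : (2 : K) ≠ 0 := by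
  rw [two_eq]
  simp

theorem one_ne_neg_one' : (1 : K) ≠ -1 := by
  intro h
  apply two_ne_zero' (K := K)
  linear_combination h

variable [Fintype K]

theorem no_sqrt {m : ℕ} (hK : Fintype.card K = 3 ^ (2 * m + 1)) (x : K) : x ^ 2 ≠ -1 := by
  intro h
  have hx : x ≠ 0 := by
    rintro rfl
    simp at h
  have h1 := FiniteField.pow_card_sub_one_eq_one x hx
  have hq := q_mod m
  obtain ⟨a, ha⟩ : ∃ a, Fintype.card K - 1 = 2 * (2 * a + 1) := by
    rw [hK]
    exact ⟨(3 ^ (2 * m + 1) - 3) / 4, by omega⟩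
  rw [ha, pow_mul, h, Odd.neg_one_pow ⟨a, rfl⟩] at h1
  exact one_ne_neg_one' h1.symm

/-- `μ⁸ = 1` forces `μ² = 1`. -/
theorem split_case {m : ℕ} (hK : Fintype.card K = 3 ^ (2 * m + 1)) (A : M2 K) (hdet : A.det = 1) (c : K)
    (hc : c ^ 2 - c * A.trace + 1 = 0) (ht1 : A.trace ≠ 1) (ht2 : A.trace ≠ -1) :
    A ^ ((Fintype.card K - 1) / 2) = 1 ∨ A ^ ((Fintype.card K - 1) / 2) = -1 := by
  set t := A.trace with ht
  have hq := q_mod m
  set q := Fintype.card K with hqdef
  have hc0 : c ≠ 0 := by
    rintro rfl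
    simp at hc
  set μ := t - c with hμ
  have hcμ : c * μ = 1 := by rw [hμ]; linear_combination -hc
  have hne : μ ≠ c := by
    intro h
    have h1 : c * c = 1 := by rw [h] at hcμ; exact hcμ
    have h2 : t = 2 * c := by rw [hμ] at h; linear_combination h
    have h3 : (c - 1) * (c + 1) = 0 := by linear_combination h1
    rcases mul_eq_zero.1 h3 with h4 | h4
    · apply ht2
      have : c = 1 := by linear_combination h4
      rw [h2, this, two_eq]; ring
    · apply ht1
      have : c = -1 := by linear_combination h4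
      rw [h2, this, two_eq]; ring
  set a := (q - 1) / 2 with ha
  have hq' : q % 8 = 3 := by rw [hK]; exact hq
  have ha2 : 2 * a = q - 1 := by omega
  set σ := c ^ a with hσ
  have hσσ : σ * σ = 1 := by
    rw [hσ, ← pow_add, ← two_mul, ha2]
    exact FiniteField.pow_card_sub_one_eq_one c hc0
  have hμa : μ ^ a = σ := by
    have h1 : σ * μ ^ a = 1 := by rw [hσ, ← mul_pow, hcμ, one_pow]
    calc μ ^ a = (σ * σ) * μ ^ a := by rw [hσσ, one_mul]
      _ = σ * (σ * μ ^ a) := by ring
      _ = σ := by rw [h1, mul_one]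
  have hroot : IsRoot ((X : K[X]) ^ a - C σ) c := by simp [IsRoot, hσ]
  obtain ⟨r, hr⟩ := Polynomial.dvd_iff_isRoot.2 hroot
  have hroot2 : IsRoot r μ := by
    have h1 : IsRoot ((X : K[X]) ^ a - C σ) μ := by simp [IsRoot, hμa]
    rw [hr, IsRoot, eval_mul] at h1
    simp only [eval_sub, eval_X, eval_C] at h1
    exact (mul_eq_zero.1 h1).resolve_left (sub_ne_zero.2 hne)
  obtain ⟨r', hr'⟩ := Polynomial.dvd_iff_isRoot.2 hroot2
  have hA2 := ch2 A hdet
  have hprod : (A - algebraMap K (M2 K) c) * (A - algebraMap K (M2 K) μ) = 0 := by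
    rw [Algebra.algebraMap_eq_smul_one, Algebra.algebraMap_eq_smul_one]
    have h1 : (A - c • (1 : M2 K)) * (A - μ • (1 : M2 K)) = A * A - μ • A - c • A + (c * μ) • (1 : M2 K) := by
      simp only [Matrix.sub_mul, Matrix.mul_sub, Matrix.smul_mul, Matrix.mul_smul, Matrix.one_mul,
        Matrix.mul_one]
      rw [smul_sub, smul_smul, mul_comm μ c]
      abel
    rw [h1, hA2, hcμ, one_smul, ← ht, hμ, sub_smul]
    abel
  have hval : A ^ a = σ • (1 : M2 K) := by
    have h1 := congrArg (aeval A) hr
    rw [hr', map_mul, map_mul] at h1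
    simp only [map_sub, map_pow, aeval_X, aeval_C] at h1
    rw [← mul_assoc, hprod, zero_mul, Algebra.algebraMap_eq_smul_one] at h1
    exact sub_eq_zero.1 h1
  have hs : (σ - 1) * (σ + 1) = 0 := by linear_combination hσσ
  rcases mul_eq_zero.1 hs with h | h
  · left
    have : σ = 1 := by linear_combination h
    rw [hval, this, one_smul]
  · right
    have : σ = -1 := by linear_combination h
    rw [hval, this]
    simp

theorem combo_zero_or_unit (A : M2 K) (hdet : A.det = 1) (h : ∀ c : K, c ^ 2 - c * A.trace + 1 ≠ 0) (α β : K) :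
    α • A + β • (1 : M2 K) = 0 ∨ IsUnit (α • A + β • (1 : M2 K)) := by
  by_cases h1 : α = 0
  · by_cases h2 : β = 0
    · left; simp [h1, h2]
    · right
      rw [Matrix.isUnit_iff_isUnit_det, det_combo A hdet, h1]
      simpa using h2
  · right
    rw [Matrix.isUnit_iff_isUnit_det, det_combo A hdet, isUnit_iff_ne_zero]
    intro h3
    apply h (-β / α)
    field_simp
    linear_combination h3

theorem pow_combo (A : M2 K) (hdet : A.det = 1) (k : ℕ) : ∃ α β : K, A ^ k = α • A + β • (1 : M2 K) := by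
  induction k with
  | zero => exact ⟨0, 1, by simp⟩
  | succ k ih =>
    obtain ⟨α, β, h⟩ := ih
    refine ⟨α * A.trace + β, -α, ?_⟩
    rw [pow_succ, h, Matrix.add_mul, Matrix.smul_mul, Matrix.smul_mul, Matrix.one_mul, ch2 A hdet, smul_sub,
      smul_smul, add_smul, neg_smul]
    abel

theorem pow_card_relation {m : ℕ} (hK : Fintype.card K = 3 ^ (2 * m + 1)) (A : M2 K) (hdet : A.det = 1) :
    A ^ Fintype.card K * A ^ Fintype.card K - A.trace • A ^ Fintype.card K + 1 = 0 := by
  set t := A.trace with ht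
  have h0 : aeval A ((X : K[X]) ^ 2 - C t * X + 1) = 0 := by
    simp only [map_add, map_sub, map_mul, map_pow, aeval_X, aeval_C, map_one]
    rw [Algebra.algebraMap_eq_smul_one, Matrix.smul_mul, Matrix.one_mul, pow_two, ch2 A hdet]
    simp [ht]
  have h1 : ((X : K[X]) ^ 2 - C t * X + 1) ^ Fintype.card K =
      (X ^ Fintype.card K) ^ 2 - C t * X ^ Fintype.card K + 1 := by
    rw [hK, add_pow_char_pow, sub_pow_char_pow, one_pow, mul_pow, ← C_pow, ← hK, FiniteField.pow_card, ← pow_mul,
      ← pow_mul, mul_comm]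
  have h2 := congrArg (aeval A) h1
  rw [map_pow, h0, zero_pow Fintype.card_ne_zero] at h2
  simp only [map_add, map_sub, map_mul, map_pow, aeval_X, aeval_C, map_one] at h2
  rw [Algebra.algebraMap_eq_smul_one, Matrix.smul_mul, Matrix.one_mul, pow_two] at h2
  exact h2.symm

theorem nonsplit_case {m : ℕ} (hK : Fintype.card K = 3 ^ (2 * m + 1)) (A : M2 K) (hdet : A.det = 1)
    (h : ∀ c : K, c ^ 2 - c * A.trace + 1 ≠ 0) :
    A ^ ((Fintype.card K + 1) / 2) = 1 ∨ A ^ ((Fintype.card K + 1) / 2) = -1 := by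
  have hq := q_mod m
  set t := A.trace with ht
  have hA2 := ch2 A hdet
  set B := A ^ Fintype.card K with hB
  have hrel : B * B - t • B + 1 = 0 := pow_card_relation hK A hdet
  have hcomm : B * A = A * B := by
    rw [hB, ← pow_succ, pow_succ']
  have hfac : (B - A) * (B - (t • (1 : M2 K) - A)) = 0 := by
    have h1 : (B - A) * (B - (t • (1 : M2 K) - A)) = B * B - t • B + B * A - A * B + t • A - A * A := by
      simp only [Matrix.sub_mul, Matrix.mul_sub, Matrix.mul_smul, Matrix.mul_one, Matrix.smul_mul,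
        Matrix.one_mul, smul_sub]
      abel
    rw [h1, hcomm, hA2]
    have h2 : B * B - t • B + A * B - A * B + t • A - (A.trace • A - 1) = B * B - t • B + 1 := by
      rw [← ht]; abel
    rw [h2, hrel]
  obtain ⟨α, β, hαβ⟩ := pow_combo A hdet (Fintype.card K)
  have hBA : B ≠ A := by
    intro hBA
    have h1 : (X : K[X]) ^ Fintype.card K - X = ∏ c : K, (X - C c) := by
      have hmon : ((X : K[X]) ^ Fintype.card K - X).Monic :=
        monic_X_pow_sub (by
          rw [degree_X]
          exact_mod_cast Fintype.one_lt_card)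
      have := prod_multiset_X_sub_C_of_monic_of_roots_card_eq hmon (by
        rw [FiniteField.roots_X_pow_card_sub_X, FiniteField.X_pow_card_sub_X_natDegree_eq K Fintype.one_lt_card]
        simp)
      rw [FiniteField.roots_X_pow_card_sub_X] at this
      exact this.symm
    have hunit : ∀ s : Finset K, IsUnit (aeval A (∏ c ∈ s, ((X : K[X]) - C c))) := by
      classical
      intro s
      induction s using Finset.induction_on with
      | empty => simp
      | insert c s hc ih =>
        rw [Finset.prod_insert hc, map_mul]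
        refine IsUnit.mul ?_ ih
        simp only [map_sub, aeval_X, aeval_C]
        rw [Matrix.isUnit_iff_isUnit_det, Algebra.algebraMap_eq_smul_one, det_sub A hdet]
        exact isUnit_iff_ne_zero.2 (h c)
    have h2 := hunit Finset.univ
    rw [← h1] at h2
    simp only [map_sub, map_pow, aeval_X] at h2
    rw [← hB, hBA, sub_self] at h2
    exact not_isUnit_zero h2
  have hB2 : B = t • (1 : M2 K) - A := by
    have h1 : (α - 1) • A + β • (1 : M2 K) = B - A := by
      rw [hB, hαβ, sub_smul, one_smul]; abel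
    rcases combo_zero_or_unit A hdet h (α - 1) β with h2 | h2
    · exact absurd (sub_eq_zero.1 (h1 ▸ h2)) hBA
    · rw [h1] at h2
      exact sub_eq_zero.1 ((h2.mul_right_eq_zero).1 hfac)
  have hone : A ^ (Fintype.card K + 1) = 1 := by
    rw [pow_succ, ← hB, hB2, Matrix.sub_mul, Matrix.smul_mul, Matrix.one_mul, hA2, ← ht]
    abel
  set N := (Fintype.card K + 1) / 2 with hN
  have hq' : Fintype.card K % 8 = 3 := by rw [hK]; exact hq
  have hN2 : N + N = Fintype.card K + 1 := by omega
  set D := A ^ N with hD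
  have hDD : D * D = 1 := by
    rw [hD, ← pow_add, hN2, hone]
  obtain ⟨α', β', hαβ'⟩ := pow_combo A hdet N
  have hfac2 : (D - 1) * (D + 1) = 0 := by
    have : (D - 1) * (D + 1) = D * D - 1 := by
      simp only [Matrix.sub_mul, Matrix.mul_add, Matrix.mul_one, Matrix.one_mul]
      abel
    rw [this, hDD, sub_self]
  have h1 : α' • A + (β' - 1) • (1 : M2 K) = D - 1 := by
    rw [hD, hαβ', sub_smul, one_smul]; abel
  rcases combo_zero_or_unit A hdet h α' (β' - 1) with h2 | h2
  · left
    rw [h1] at h2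
    exact sub_eq_zero.1 h2
  · right
    rw [h1] at h2
    have := (h2.mul_right_eq_zero).1 hfac2
    exact eq_neg_of_add_eq_zero_left this

/-- The main power dichotomy. -/
theorem pow_cases {m : ℕ} (hK : Fintype.card K = 3 ^ (2 * m + 1)) (A : M2 K) (hdet : A.det = 1)
    (ht1 : A.trace ≠ 1) (ht2 : A.trace ≠ -1) :
    (A ^ ((Fintype.card K - 1) / 2) = 1 ∨ A ^ ((Fintype.card K - 1) / 2) = -1) ∨
      (A ^ ((Fintype.card K + 1) / 2) = 1 ∨ A ^ ((Fintype.card K + 1) / 2) = -1) := by
  by_cases h : ∀ c : K, c ^ 2 - c * A.trace + 1 ≠ 0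
  · exact Or.inr (nonsplit_case hK A hdet h)
  · push Not at h
    obtain ⟨c, hc⟩ := h
    exact Or.inl (split_case hK A hdet c hc ht1 ht2)

end Char3

end Cfsg.Agent.Lib.ReeCube
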