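import Mathlib
import Cfsg.Agent.Lib.ReeCubeC

set_option autoImplicit false

namespace Cfsg.Agent.Lib.ReeCube

section
variable {K : Type*} [Field K] [CharP K 3]

theorem units_even_pow (e : ℤˣ) {N : ℕ} (h : Even N) : e ^ N = 1 := by
  obtain ⟨k, rfl⟩ := h
  rw [← two_mul, pow_mul, Int.units_sq, one_pow]

/-- Elements `(±1, 1)` act trivially. -/
theorem smul_triv (s : SS K) (h2 : s.2 = 1) (h1 : (s.1 : M2 K) = 1 ∨ (s.1 : M2 K) = -1) (M : M2 K) : s • M = M := by
  rw [smul_def, h2, sgn_one, one_smul]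
  have hF : ((Fr s.1 : SL2 K) : M2 K) * (((Fr s.1)⁻¹ : SL2 K) : M2 K) = 1 := Fr_mul_inv s.1
  rcases h1 with h1 | h1
  · have h3 : ((Fr s.1 : SL2 K) : M2 K) = 1 := by
      ext i j
      rw [Fr_coe, h1]
      fin_cases i <;> fin_cases j <;> simp
    rw [h3, Matrix.one_mul] at hF
    rw [h1, hF]
    simp
  · have h3 : ((Fr s.1 : SL2 K) : M2 K) = -1 := by
      ext i j
      rw [Fr_coe, h1]
      fin_cases i <;> fin_cases j <;> simp [Odd.neg_pow (⟨1, rfl⟩ : Odd 3)]
    have h4 : (((Fr s.1)⁻¹ : SL2 K) : M2 K) = -1 := by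
      rw [h3] at hF
      have := neg_eq_iff_eq_neg.2 ((neg_one_mul _).symm.trans hF).symm
      rw [← this]
    rw [h1, h4]
    simp

variable [Fintype K]

/-- Fixed vectors only exist for trace `0` or (sign `+`, trace `±1`). -/
theorem fix_eq_zero {m : ℕ} (hK : Fintype.card K = 3 ^ (2 * m + 1)) (s : SS K)
    (ht0 : (s.1 : M2 K).trace ≠ 0)
    (ht1 : s.2 = 1 → (s.1 : M2 K).trace ≠ 1 ∧ (s.1 : M2 K).trace ≠ -1)
    (M : M2 K) (h : s • M = M) : M = 0 := by
  by_contra hM
  have h1 := fix_trace s M hM h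
  set t := (s.1 : M2 K).trace with ht
  rcases Int.units_eq_one_or s.2 with h2 | h2
  · obtain ⟨h3, h4⟩ := ht1 h2
    rw [h2, sgn_one, one_mul] at h1
    have h5 : t * ((t - 1) * (t + 1)) = 0 := by linear_combination h1
    rcases mul_eq_zero.1 h5 with h6 | h6
    · exact ht0 h6
    · rcases mul_eq_zero.1 h6 with h7 | h7
      · exact h3 (by linear_combination h7)
      · exact h4 (by linear_combination h7)
  · have h3 : (sgn s.2 : K) = -1 := by rw [h2]; simp [sgn]
    rw [h3] at h1
    have h5 : t * (t ^ 2 + 1) = 0 := by linear_combination h1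
    rcases mul_eq_zero.1 h5 with h6 | h6
    · exact ht0 h6
    · exact no_sqrt hK t (by linear_combination h6)

/-- The group acting. -/
abbrev WW (K : Type*) [Field K] (n : ℕ) := Fin n → M2 K

theorem three_add {n : ℕ} (w : WW K n) : w + w + w = 0 := by
  funext i
  ext a b
  have := three_eq_zero (K := K)
  simp only [Pi.add_apply, Matrix.add_apply, Pi.zero_apply, Matrix.zero_apply]
  linear_combination (w i a b) * this

/-- Every element of the affine group has order dividing one of four numbers. -/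
theorem pow_eq_one_cases {m : ℕ} (hK : Fintype.card K = 3 ^ (2 * m + 1)) {n : ℕ} (s : SS K) (v : WW K n) :
    (aff s v) ^ 6 = 1 ∨ (aff s v) ^ 9 = 1 ∨ (aff s v) ^ (Fintype.card K - 1) = 1 ∨
      (aff s v) ^ ((Fintype.card K + 1) / 2) = 1 := by
  have hq := q_mod m
  set A : M2 K := (s.1 : M2 K) with hA
  have hdet : A.det = 1 := s.1.2
  have hch := ch2 A hdet
  set t := A.trace with ht
  have hcube1 : t = 1 → A * A * A = -1 := by
    intro h
    rw [hch, h, one_smul, Matrix.sub_mul, hch, h, one_smul, Matrix.one_mul]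
    abel
  have hcube2 : t = -1 → A * A * A = 1 := by
    intro h
    rw [hch, h, neg_one_smul, Matrix.sub_mul, Matrix.neg_mul, hch, h, neg_one_smul, Matrix.one_mul]
    abel
  by_cases ht0 : t = 0
  · -- `s²` acts trivially
    left
    have h2 : A * A = -1 := by
      rw [hch, ht0, zero_smul, zero_sub]
    have hN : ∀ x : WW K n, (s ^ 2) • x = x := by
      intro x
      funext i
      refine smul_triv (s ^ 2) (units_even_pow _ (by norm_num)) (Or.inr ?_) (x i)
      rw [SS_pow_fst, Matrix.SpecialLinearGroup.coe_pow, pow_two]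
      exact h2
    exact pow_mul_three_eq_one hN three_add v
  by_cases ht1 : s.2 = 1 ∧ (t = 1 ∨ t = -1)
  · right; left
    obtain ⟨h2, h3⟩ := ht1
    have hN : ∀ x : WW K n, (s ^ 3) • x = x := by
      intro x
      funext i
      refine smul_triv (s ^ 3) (by rw [SS_pow_snd, h2, one_pow]) ?_ (x i)
      rw [SS_pow_fst, Matrix.SpecialLinearGroup.coe_pow, pow_three, ← Matrix.mul_assoc]
      rcases h3 with h3 | h3
      · exact Or.inr (hcube1 h3)
      · exact Or.inl (hcube2 h3)
    exact pow_mul_three_eq_one hN three_add v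
  have hfix : ∀ x : WW K n, s • x = x → x = 0 := by
    intro x hx
    funext i
    refine fix_eq_zero hK s ht0 (fun h => ?_) (x i) (congrFun hx i)
    constructor
    · intro h3; exact ht1 ⟨h, Or.inl h3⟩
    · intro h3; exact ht1 ⟨h, Or.inr h3⟩
  have hq' : Fintype.card K % 8 = 3 := by rw [hK]; exact hq
  by_cases ht2 : t = 1 ∨ t = -1
  · left
    refine pow_eq_one_of_fix (fun x => ?_) hfix v
    funext i
    refine smul_triv (s ^ 6) (units_even_pow _ (by norm_num)) (Or.inl ?_) (x i)
    rw [SS_pow_fst, Matrix.SpecialLinearGroup.coe_pow]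
    have h6 : A ^ 6 = (A * A * A) * (A * A * A) := by
      simp only [pow_succ, pow_zero, Matrix.one_mul, Matrix.mul_assoc]
    rw [h6]
    rcases ht2 with h3 | h3
    · rw [hcube1 h3]; simp
    · rw [hcube2 h3]; simp
  · push Not at ht2
    right; right
    rcases pow_cases hK A hdet ht2.1 ht2.2 with h3 | h3
    · left
      refine pow_eq_one_of_fix (fun x => ?_) hfix v
      funext i
      refine smul_triv (s ^ (Fintype.card K - 1)) (units_even_pow _ ⟨(Fintype.card K - 1) / 2, by omega⟩) (Or.inl ?_) (x i)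
      rw [SS_pow_fst, Matrix.SpecialLinearGroup.coe_pow]
      have h4 : Fintype.card K - 1 = (Fintype.card K - 1) / 2 + (Fintype.card K - 1) / 2 := by omega
      rw [h4, pow_add]
      change A ^ _ * A ^ _ = 1
      rcases h3 with h3 | h3
      · rw [h3]; simp
      · rw [h3]; simp
    · right
      refine pow_eq_one_of_fix (fun x => ?_) hfix v
      funext i
      refine smul_triv (s ^ ((Fintype.card K + 1) / 2)) (units_even_pow _ ⟨(Fintype.card K + 1) / 4, by omega⟩) ?_ (x i)
      rw [SS_pow_fst, Matrix.SpecialLinearGroup.coe_pow]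
      exact h3

end

end Cfsg.Agent.Lib.ReeCube
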