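import Mathlib
import Cfsg.Agent.Lib.ReeCubeD

set_option autoImplicit false

namespace Cfsg.Agent.Lib.ReeCube

section
variable {K : Type*} [Field K] [CharP K 3] [Fintype K]

/-- a pair in `SS`. -/
def mkS (A : SL2 K) (e : ℤˣ) : SS K := (A, e)

@[simp] theorem mkS_fst (A : SL2 K) (e : ℤˣ) : (mkS A e).1 = A := rfl
@[simp] theorem mkS_snd (A : SL2 K) (e : ℤˣ) : (mkS A e).2 = e := rfl

theorem mkS_pow (A : SL2 K) (e : ℤˣ) (k : ℕ) : (mkS A e) ^ k = mkS (A ^ k) (e ^ k) := rfl

theorem aff_zero_pow {n : ℕ} (s : SS K) (k : ℕ) : (aff s (0 : WW K n)) ^ k = aff (s ^ k) 0 := by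
  rw [aff_pow]
  simp

/-- the trivial action. -/
def Triv (s : SS K) : Prop := ∀ M : M2 K, s • M = M

theorem triv_of_pow_eq_one {n : ℕ} (i : Fin n) {s : SS K} {v : WW K n} {k : ℕ} (h : (aff s v) ^ k = 1) :
    Triv (s ^ k) := by
  intro M
  have := smul_eq_of_pow_eq_one h (fun _ => M)
  exact congrFun this i

theorem aff_zero_pow_eq_one {n : ℕ} {s : SS K} {k : ℕ} (h : Triv (s ^ k)) : (aff s (0 : WW K n)) ^ k = 1 := by
  rw [aff_zero_pow]
  ext x i
  simp only [aff_apply, add_zero, Equiv.Perm.coe_one, id_eq]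
  rw [Pi.smul_apply, h]

/-- the unipotent element -/
def uu : SL2 K := ⟨!![1, 1; 0, 1], by simp [Matrix.det_fin_two]⟩

theorem uu_coe : ((uu : SL2 K) : M2 K) = !![1, 1; 0, 1] := rfl

theorem Fr_uu : Fr (uu : SL2 K) = uu := by
  ext i j
  rw [Fr_coe, uu_coe]
  fin_cases i <;> fin_cases j <;> simp

theorem uu_inv_coe : (((Fr (uu : SL2 K))⁻¹ : SL2 K) : M2 K) = !![1, -1; 0, 1] := by
  rw [Fr_uu, Matrix.SpecialLinearGroup.coe_inv, Matrix.adjugate_fin_two, uu_coe]
  simp

theorem smul_uu (e : ℤˣ) (M : M2 K) :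
    (mkS (uu : SL2 K) e) • M = (sgn e : K) • (!![1, 1; 0, 1] * M * !![1, -1; 0, 1]) := by
  rw [smul_def, mkS_fst, mkS_snd, uu_inv_coe, uu_coe]

theorem uu_cube : (uu : SL2 K) ^ 3 = 1 := by
  ext i j
  rw [Matrix.SpecialLinearGroup.coe_pow, uu_coe, pow_three]
  have h3 := three_eq_zero (K := K)
  fin_cases i <;> fin_cases j <;> simp [Matrix.mul_apply, Fin.sum_univ_two]
  linear_combination h3

/-- the vector `E₂₁` -/
def E21 : M2 K := !![0, 0; 1, 0]

theorem f4_pow_nine {n : ℕ} (v : WW K n) : (aff (mkS (uu : SL2 K) 1) v) ^ 9 = 1 := by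
  have hN : ∀ x : WW K n, ((mkS (uu : SL2 K) 1) ^ 3) • x = x := by
    intro x
    funext i
    refine smul_triv _ ?_ (Or.inl ?_) (x i)
    · rw [mkS_pow]; simp
    · rw [mkS_pow, mkS_fst, uu_cube]; rfl
  exact pow_mul_three_eq_one hN three_add v

theorem f4_pow_three {n : ℕ} (i : Fin n) : (aff (mkS (uu : SL2 K) 1) (fun _ => (E21 : M2 K) : WW K n)) ^ 3 ≠ 1 := by
  intro h
  have h3 := three_eq_zero (K := K)
  rw [aff_pow] at h
  have h0 := congrFun (congrArg (fun f : Equiv.Perm (WW K n) => f 0) h) i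
  simp only [aff_apply, smul_zero, zero_add, Equiv.Perm.coe_one, id_eq] at h0
  rw [Finset.sum_apply] at h0
  simp only [Finset.sum_range_succ, Finset.range_zero, Finset.sum_empty, zero_add, Pi.smul_apply, pow_zero,
    one_smul, pow_one, pow_two, mul_smul, smul_uu, sgn_one, Pi.zero_apply] at h0
  have h1 := congrFun (congrFun h0 0) 1
  simp [E21, Matrix.mul_apply, Fin.sum_univ_two] at h1
  have h2 : (1 : K) = 0 := by linear_combination h1 + 2 * h3
  exact one_ne_zero h2

/-- There is an element of order nine. -/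
theorem f4_order {n : ℕ} (i : Fin n) : orderOf (aff (mkS (uu : SL2 K) 1) (fun _ => (E21 : M2 K) : WW K n)) = 9 := by
  have := orderOf_eq_prime_pow (p := 3) (n := 1) (x := aff (mkS (uu : SL2 K) 1) (fun _ => (E21 : M2 K) : WW K n))
    (by simpa using f4_pow_three i) (by simpa using f4_pow_nine _)
  simpa using this

/-- There is an element of order six. -/
theorem f3_order {n : ℕ} (i : Fin n) : orderOf (aff (mkS (uu : SL2 K) (-1)) (0 : WW K n)) = 6 := by
  have h3 := three_eq_zero (K := K)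
  have h6 : (aff (mkS (uu : SL2 K) (-1)) (0 : WW K n)) ^ 6 = 1 := by
    apply aff_zero_pow_eq_one
    intro M
    refine smul_triv _ ?_ (Or.inl ?_) M
    · rw [mkS_pow]
      exact units_even_pow _ (by norm_num)
    · rw [mkS_pow, mkS_fst]
      have : (uu : SL2 K) ^ 6 = ((uu : SL2 K) ^ 3) ^ 2 := by rw [← pow_mul]
      rw [this, uu_cube, one_pow]
      rfl
  have h2 : (aff (mkS (uu : SL2 K) (-1)) (0 : WW K n)) ^ 2 ≠ 1 := by
    intro h
    have h1 := triv_of_pow_eq_one i h (E21 : M2 K)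
    simp only [pow_two, mul_smul, smul_uu] at h1
    have h4 := congrFun (congrFun h1 0) 0
    simp [E21, Matrix.mul_apply, Fin.sum_univ_two, sgn] at h4
    have h5 : (1 : K) = 0 := by linear_combination -h4 + h3
    exact one_ne_zero h5
  have h3' : (aff (mkS (uu : SL2 K) (-1)) (0 : WW K n)) ^ 3 ≠ 1 := by
    intro h
    have h1 := triv_of_pow_eq_one i h (E21 : M2 K)
    simp only [pow_three, mul_smul, smul_uu] at h1
    have h4 := congrFun (congrFun h1 1) 0
    simp [E21, Matrix.mul_apply, Fin.sum_univ_two, sgn] at h4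
    exact one_ne_neg_one' (K := K) (by linear_combination -h4)
  have hd := orderOf_dvd_of_pow_eq_one h6
  set d := orderOf (aff (mkS (uu : SL2 K) (-1)) (0 : WW K n)) with hdd
  have hmem : d ∈ Nat.divisors 6 := Nat.mem_divisors.2 ⟨hd, by norm_num⟩
  have hdiv : Nat.divisors 6 = {1, 2, 3, 6} := by decide
  rw [hdiv] at hmem
  simp only [Finset.mem_insert, Finset.mem_singleton] at hmem
  have hp : (aff (mkS (uu : SL2 K) (-1)) (0 : WW K n)) ^ d = 1 := pow_orderOf_eq_one _
  rcases hmem with h | h | h | h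
  · exfalso
    apply h2
    rw [h, pow_one] at hp
    rw [hp]
    simp
  · exfalso
    apply h2
    rwa [h] at hp
  · exfalso
    apply h3'
    rwa [h] at hp
  · exact h

end

end Cfsg.Agent.Lib.ReeCube
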