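import Mathlib
import Cfsg.Agent.Lib.ReeCubeE

set_option autoImplicit false

namespace Cfsg.Agent.Lib.ReeCube

section
variable {K : Type*} [Field K] [CharP K 3] [Fintype K]

/-- the diagonal element -/
def dg (μ : Kˣ) : SL2 K := ⟨!![(μ : K), 0; 0, ((μ⁻¹ : Kˣ) : K)], by simp [Matrix.det_fin_two]⟩

theorem dg_coe (μ : Kˣ) : ((dg μ : SL2 K) : M2 K) = !![(μ : K), 0; 0, ((μ⁻¹ : Kˣ) : K)] := rfl

theorem dg_one : dg (1 : Kˣ) = 1 := by
  ext i j
  rw [dg_coe]
  fin_cases i <;> fin_cases j <;> simp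

theorem dg_mul (μ ν : Kˣ) : dg (μ * ν) = dg μ * dg ν := by
  ext i j
  rw [Matrix.SpecialLinearGroup.coe_mul, dg_coe, dg_coe, dg_coe]
  fin_cases i <;> fin_cases j <;> simp [Matrix.mul_apply, Fin.sum_univ_two, mul_comm]

theorem dg_pow (μ : Kˣ) (k : ℕ) : dg (μ ^ k) = (dg μ) ^ k := by
  induction k with
  | zero => simp [dg_one]
  | succ k ih => rw [pow_succ, dg_mul, ih, pow_succ]

/-- the vector `E₁₁` -/
def E11 : M2 K := !![1, 0; 0, 0]

theorem dg_smul_entry (μ : Kˣ) (e : ℤˣ) :
    ((mkS (dg μ) e) • (E11 : M2 K)) 0 0 = sgn e * ((μ : K) * (((μ⁻¹ : Kˣ) : K)) ^ 3) := by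
  rw [smul_def, mkS_fst, mkS_snd, Matrix.SpecialLinearGroup.coe_inv, Matrix.adjugate_fin_two, dg_coe]
  simp [E11, Matrix.mul_apply, Fin.sum_univ_two, Fr_coe, dg_coe]

theorem f1_order {m : ℕ} (hK : Fintype.card K = 3 ^ (2 * m + 1)) {n : ℕ} (i : Fin n) :
    ∃ (s : SS K), orderOf (aff s (0 : WW K n)) = Fintype.card K - 1 := by
  classical
  have hq := q_mod m
  have hq' : Fintype.card K % 8 = 3 := by rw [hK]; exact hq
  obtain ⟨l, hl⟩ := IsCyclic.exists_generator (α := Kˣ)
  have hord : orderOf l = Fintype.card K - 1 := by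
    rw [orderOf_eq_card_of_forall_mem_zpowers hl, Nat.card_eq_fintype_card, Fintype.card_units]
  refine ⟨mkS (dg l) (-1), ?_⟩
  apply Nat.dvd_antisymm
  · apply orderOf_dvd_of_pow_eq_one
    apply aff_zero_pow_eq_one
    intro M
    refine smul_triv _ ?_ (Or.inl ?_) M
    · rw [mkS_pow, mkS_snd]
      exact units_even_pow _ ⟨(Fintype.card K - 1) / 2, by omega⟩
    · rw [mkS_pow, mkS_fst, ← dg_pow, ← hord, pow_orderOf_eq_one, dg_one]
      rfl
  · set k := orderOf (aff (mkS (dg l) (-1)) (0 : WW K n)) with hk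
    have hk1 : (aff (mkS (dg l) (-1)) (0 : WW K n)) ^ k = 1 := pow_orderOf_eq_one _
    have htriv := triv_of_pow_eq_one i hk1 (E11 : M2 K)
    rw [mkS_pow, ← dg_pow] at htriv
    have h0 := congrFun (congrFun htriv 0) 0
    rw [dg_smul_entry] at h0
    set x : Kˣ := l ^ k with hx
    have hE : (E11 : M2 K) 0 0 = 1 := by simp [E11]
    rw [hE] at h0
    have hxne : (x : K) ≠ 0 := x.ne_zero
    have hinv : (((x⁻¹ : Kˣ)) : K) = (x : K)⁻¹ := Units.val_inv_eq_inv_val x
    rw [hinv] at h0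
    have hse : (sgn ((-1 : ℤˣ) ^ k) : K) * sgn ((-1 : ℤˣ) ^ k) = 1 := sgn_sq _
    have hxsq : (x : K) ^ 2 = sgn ((-1 : ℤˣ) ^ k) := by
      field_simp at h0
      exact h0.symm
    have hx4 : (x : K) ^ 4 = 1 := by
      calc (x : K) ^ 4 = (x : K) ^ 2 * (x : K) ^ 2 := by ring
        _ = 1 := by rw [hxsq, hse]
    have hx4' : l ^ (4 * k) = 1 := by
      have : x ^ 4 = 1 := by
        ext
        push_cast
        exact hx4
      rw [mul_comm, pow_mul]
      exact this
    have hdvd : Fintype.card K - 1 ∣ 4 * k := by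
      rw [← hord]
      exact orderOf_dvd_of_pow_eq_one hx4'
    obtain ⟨a, ha⟩ : ∃ a, Fintype.card K - 1 = 2 * (2 * a + 1) := ⟨(Fintype.card K - 3) / 4, by omega⟩
    rw [ha] at hdvd ⊢
    have h2a : (2 * a + 1) ∣ 2 * k := by
      have : 2 * (2 * a + 1) ∣ 2 * (2 * k) := by
        convert hdvd using 1
        ring
      exact Nat.dvd_of_mul_dvd_mul_left (by norm_num) this
    have hcop : Nat.Coprime (2 * a + 1) 2 := by
      simp
    have ha1 : (2 * a + 1) ∣ k := hcop.dvd_of_dvd_mul_left h2a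
    obtain ⟨j, hj⟩ := ha1
    have hx2 : (x : K) ^ 2 = 1 := by
      have : x ^ 2 = 1 := by
        rw [hx, ← pow_mul, hj]
        have h5 : k = (2 * a + 1) * j := hj
        have h6 : (2 * a + 1) * j * 2 = (2 * (2 * a + 1)) * j := by ring
        rw [h6, pow_mul, ← ha, ← hord, pow_orderOf_eq_one, one_pow]
      have h7 := congrArg (fun u : Kˣ => (u : K)) this
      simpa using h7
    have hsg : (sgn ((-1 : ℤˣ) ^ k) : K) = 1 := by rw [← hxsq, hx2]
    have hkeven : Even k := by
      by_contra hodd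
      rw [Nat.not_even_iff_odd] at hodd
      rw [Odd.neg_one_pow hodd] at hsg
      simp [sgn] at hsg
      exact one_ne_neg_one' (K := K) hsg.symm
    have h2 : 2 ∣ k := hkeven.two_dvd
    exact Nat.Coprime.mul_dvd_of_dvd_of_dvd (by simp) h2 ⟨j, hj⟩

/-- the field of `q²` elements. -/
abbrev EE (K : Type*) [Field K] := QuadraticAlgebra K (-1) 0

/-- matrices for the elements of the quadratic extension -/
def toMat (z : EE K) : M2 K := !![z.re, z.im; -z.im, z.re]

theorem toMat_mul (x y : EE K) : toMat (x * y) = toMat x * toMat y := by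
  ext i j
  fin_cases i <;> fin_cases j <;> simp [toMat, Matrix.mul_apply, Fin.sum_univ_two] <;> ring

theorem toMat_one : toMat (1 : EE K) = 1 := by
  ext i j
  fin_cases i <;> fin_cases j <;> simp [toMat, QuadraticAlgebra.re_one, QuadraticAlgebra.im_one]

theorem toMat_neg_one : toMat (-1 : EE K) = -1 := by
  ext i j
  fin_cases i <;> fin_cases j <;> simp [toMat, QuadraticAlgebra.re_one, QuadraticAlgebra.im_one]

theorem toMat_pow (x : EE K) (k : ℕ) : toMat (x ^ k) = toMat x ^ k := by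
  induction k with
  | zero => simp [toMat_one]
  | succ k ih => rw [pow_succ, toMat_mul, ih, pow_succ]

theorem toMat_det (z : EE K) : (toMat z).det = z.norm := by
  rw [Matrix.det_fin_two, QuadraticAlgebra.norm_def]
  simp [toMat]

/-- the twisted form `J`. -/
def JJ : M2 K := !![1, 0; 0, -1]

theorem JJ_sq : (JJ : M2 K) * JJ = 1 := by
  ext i j
  fin_cases i <;> fin_cases j <;> simp [JJ, Matrix.mul_apply, Fin.sum_univ_two]

/-- the key identity. -/
theorem key_identity (z : EE K) (hz : z.norm = 1) (C : SL2 K) (hC : (C : M2 K) = toMat z) :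
    (C : M2 K) * JJ * (((Fr C)⁻¹ : SL2 K) : M2 K) = JJ * toMat (z * z) := by
  have h3 := three_eq_zero (K := K)
  have hn : z.re * z.re + z.im * z.im = 1 := by
    rw [QuadraticAlgebra.norm_def] at hz
    linear_combination hz
  rw [Matrix.SpecialLinearGroup.coe_inv, Matrix.adjugate_fin_two]
  simp only [Fr_coe, hC]
  ext i j
  fin_cases i <;> fin_cases j <;>
    simp [toMat, JJ, Matrix.mul_apply, Fin.sum_univ_two]
  · linear_combination (z.re * z.re - z.im * z.im) * hn
  · linear_combination (-z.re * z.im) * hn - z.re * z.im * h3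
  · linear_combination (-z.re * z.im) * hn - z.re * z.im * h3
  · linear_combination (-(z.re * z.re - z.im * z.im)) * hn

/-- `toMat z` is a matrix of determinant one when `z` has norm one. -/
def dA (z : EE K) (hz : z.norm = 1) : SL2 K := ⟨toMat z, by rw [toMat_det, hz]⟩

theorem dA_coe (z : EE K) (hz : z.norm = 1) : ((dA z hz : SL2 K) : M2 K) = toMat z := rfl

theorem f2_of_order {m : ℕ} (hK : Fintype.card K = 3 ^ (2 * m + 1)) {n : ℕ} (i : Fin n)
    [Fact (∀ r : K, r ^ 2 ≠ -1 + 0 * r)] (w : EE K) (hw : w.norm = 1)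
    (hord : orderOf w = Fintype.card K + 1) :
    orderOf (aff (mkS (dA w hw) 1) (0 : WW K n)) = (Fintype.card K + 1) / 2 := by
  have hq := q_mod m
  have hq' : Fintype.card K % 8 = 3 := by rw [hK]; exact hq
  have hN2 : (Fintype.card K + 1) / 2 * 2 = Fintype.card K + 1 := by omega
  apply Nat.dvd_antisymm
  · apply orderOf_dvd_of_pow_eq_one
    apply aff_zero_pow_eq_one
    intro M
    refine smul_triv _ ?_ ?_ M
    · rw [mkS_pow, mkS_snd, one_pow]
    · rw [mkS_pow, mkS_fst, Matrix.SpecialLinearGroup.coe_pow, dA_coe, ← toMat_pow]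
      have h1 : (w ^ ((Fintype.card K + 1) / 2)) * (w ^ ((Fintype.card K + 1) / 2)) = 1 := by
        rw [← pow_add, ← two_mul, mul_comm, hN2, ← hord, pow_orderOf_eq_one]
      rcases mul_self_eq_one_iff.1 h1 with h2 | h2
      · left; rw [h2, toMat_one]
      · right; rw [h2, toMat_neg_one]
  · set k := orderOf (aff (mkS (dA w hw) 1) (0 : WW K n)) with hk
    have hk1 : (aff (mkS (dA w hw) 1) (0 : WW K n)) ^ k = 1 := pow_orderOf_eq_one _
    have htriv := triv_of_pow_eq_one i hk1 (JJ : M2 K)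
    rw [mkS_pow, smul_def, mkS_fst, mkS_snd, one_pow, sgn_one, one_smul] at htriv
    have hnk : (w ^ k).norm = 1 := by rw [map_pow, hw, one_pow]
    have hcoe : (((dA w hw) ^ k : SL2 K) : M2 K) = toMat (w ^ k) := by
      rw [Matrix.SpecialLinearGroup.coe_pow, dA_coe, toMat_pow]
    rw [key_identity (w ^ k) hnk _ hcoe] at htriv
    have h1 : toMat (w ^ k * w ^ k) = 1 := by
      calc toMat (w ^ k * w ^ k) = (JJ * JJ) * toMat (w ^ k * w ^ k) := by rw [JJ_sq, Matrix.one_mul]
        _ = JJ * (JJ * toMat (w ^ k * w ^ k)) := by rw [Matrix.mul_assoc]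
        _ = 1 := by rw [htriv, JJ_sq]
    have h2 : w ^ k * w ^ k = 1 := by
      have h3 := congrFun (congrFun h1 0) 0
      have h4 := congrFun (congrFun h1 0) 1
      simp only [toMat] at h3 h4
      ext
      · simpa [QuadraticAlgebra.re_one] using h3
      · simpa [QuadraticAlgebra.im_one] using h4
    have h3 : (Fintype.card K + 1) ∣ k + k := by
      rw [← hord]
      apply orderOf_dvd_of_pow_eq_one
      rw [pow_add, h2]
    have h4 : (Fintype.card K + 1) / 2 * 2 ∣ k * 2 := by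
      rw [hN2, mul_two]
      exact h3
    exact Nat.dvd_of_mul_dvd_mul_right (by norm_num) h4

theorem exists_circle {m : ℕ} (hK : Fintype.card K = 3 ^ (2 * m + 1))
    [Fact (∀ r : K, r ^ 2 ≠ -1 + 0 * r)] :
    ∃ w : EE K, w.norm = 1 ∧ orderOf w = Fintype.card K + 1 := by
  classical
  haveI : Fintype (EE K) := Fintype.ofEquiv (K × K) (QuadraticAlgebra.equivProd (-1 : K) 0).symm
  have hcard : Fintype.card (EE K) = Fintype.card K * Fintype.card K := by
    rw [Fintype.card_congr (QuadraticAlgebra.equivProd (-1 : K) 0), Fintype.card_prod]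
  obtain ⟨γ, hγ⟩ := IsCyclic.exists_generator (α := (EE K)ˣ)
  have hord : orderOf γ = Fintype.card K * Fintype.card K - 1 := by
    rw [orderOf_eq_card_of_forall_mem_zpowers hγ, Nat.card_eq_fintype_card, Fintype.card_units, hcard]
  have hq1 : 1 < Fintype.card K := Fintype.one_lt_card
  have hfac : Fintype.card K * Fintype.card K - 1 = (Fintype.card K - 1) * (Fintype.card K + 1) := by
    obtain ⟨c, hc⟩ : ∃ c, Fintype.card K = c + 1 := ⟨Fintype.card K - 1, by omega⟩
    rw [hc]
    simp only [Nat.add_sub_cancel]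
    ring_nf
    omega
  refine ⟨((γ ^ (Fintype.card K - 1) : (EE K)ˣ) : EE K), ?_, ?_⟩
  · rw [Units.val_pow_eq_pow_val, map_pow]
    apply FiniteField.pow_card_sub_one_eq_one
    intro h
    have : (γ : EE K) = 0 := QuadraticAlgebra.norm_eq_zero_iff_eq_zero.1 h
    exact γ.ne_zero this
  · rw [orderOf_units, orderOf_pow_of_dvd (by omega) (by rw [hord, hfac]; exact dvd_mul_right _ _), hord, hfac]
    exact Nat.mul_div_cancel_left _ (by omega)

theorem f2_order {m : ℕ} (hK : Fintype.card K = 3 ^ (2 * m + 1)) {n : ℕ} (i : Fin n) :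
    ∃ s : SS K, orderOf (aff s (0 : WW K n)) = (Fintype.card K + 1) / 2 := by
  haveI : Fact (∀ r : K, r ^ 2 ≠ -1 + 0 * r) := ⟨fun r h => no_sqrt hK r (by linear_combination h)⟩
  obtain ⟨w, hw, hord⟩ := exists_circle hK (K := K)
  exact ⟨_, f2_of_order hK i w hw hord⟩

/-- The element orders of the affine group. -/
theorem spec_aff {m : ℕ} (hK : Fintype.card K = 3 ^ (2 * m + 1)) {n : ℕ} (i : Fin n) (d : ℕ) :
    (∃ f : AffG (SS K) (WW K n), orderOf f = d) ↔
      (d ∣ 6 ∨ d ∣ 9 ∨ d ∣ Fintype.card K - 1 ∨ d ∣ (Fintype.card K + 1) / 2) := by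
  constructor
  · rintro ⟨⟨f, hf⟩, rfl⟩
    have h0 : orderOf (⟨f, hf⟩ : AffG (SS K) (WW K n)) = orderOf f := Subgroup.orderOf_mk _ _
    rw [h0]
    obtain ⟨s, v, rfl⟩ := hf
    rcases pow_eq_one_cases hK s v with h | h | h | h
    · exact Or.inl (orderOf_dvd_of_pow_eq_one h)
    · exact Or.inr (Or.inl (orderOf_dvd_of_pow_eq_one h))
    · exact Or.inr (Or.inr (Or.inl (orderOf_dvd_of_pow_eq_one h)))
    · exact Or.inr (Or.inr (Or.inr (orderOf_dvd_of_pow_eq_one h)))
  · have hq := q_mod m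
    have hq' : Fintype.card K % 8 = 3 := by rw [hK]; exact hq
    have key : ∀ (s : SS K) (v : WW K n) (N : ℕ), N ≠ 0 → orderOf (aff s v) = N → d ∣ N →
        ∃ f : AffG (SS K) (WW K n), orderOf f = d := by
      intro s v N hN hord hd
      refine ⟨(⟨aff s v, aff_mem s v⟩ : AffG (SS K) (WW K n)) ^ (N / d), ?_⟩
      have h1 : orderOf (⟨aff s v, aff_mem s v⟩ : AffG (SS K) (WW K n)) = N := by
        rw [Subgroup.orderOf_mk, hord]
      have := orderOf_pow_orderOf_div (x := (⟨aff s v, aff_mem s v⟩ : AffG (SS K) (WW K n)))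
        (n := d) (by rw [h1]; exact hN) (by rw [h1]; exact hd)
      rwa [h1] at this
    rintro (h | h | h | h)
    · exact key _ _ 6 (by norm_num) (f3_order i) h
    · exact key _ _ 9 (by norm_num) (f4_order i) h
    · obtain ⟨s, hs⟩ := f1_order hK i
      exact key _ _ _ (by omega) hs h
    · obtain ⟨s, hs⟩ := f2_order hK i
      exact key _ _ _ (by omega) hs h

end

end Cfsg.Agent.Lib.ReeCube
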