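import Mathlib

set_option linter.unusedSectionVars false

/-!
# Ree's formula for permutation triples (Scott's lemma for permutation modules)

If `x y z = 1` are permutations of a finite set `α` and every point lies in the orbit under `⟨x, y⟩` of
a point of `S`, the total number of cycles of `x, y, z` is at most `|α| + 2 |S|`.
-/

set_option autoImplicit false

namespace Cfsg.Agent.Lib.Ree

open Module

variable {α : Type*} [Fintype α] [DecidableEq α]

/-- Precomposition with a permutation, as a linear map. -/
noncomputable def T (g : Equiv.Perm α) : (α → ℚ) →ₗ[ℚ] (α → ℚ) := LinearMap.funLeft ℚ ℚ g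

theorem T_apply (g : Equiv.Perm α) (v : α → ℚ) (a : α) : T g v a = v (g a) := rfl

/-- The map `T g - 1`. -/
noncomputable def D (g : Equiv.Perm α) : (α → ℚ) →ₗ[ℚ] (α → ℚ) := T g - LinearMap.id

theorem D_apply (g : Equiv.Perm α) (v : α → ℚ) (a : α) : D g v a = v (g a) - v a := rfl

/-- The number of cycles of `g`. -/
noncomputable def cyc (g : Equiv.Perm α) : ℕ :=
  Nat.card (MulAction.orbitRel.Quotient (Subgroup.zpowers g) α)

theorem finrank_range_D_add (g : Equiv.Perm α) :
    finrank ℚ (LinearMap.range (D g)) + cyc g ≤ Fintype.card α := by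
  have h1 := LinearMap.finrank_range_add_finrank_ker (D g)
  rw [Module.finrank_fintype_fun_eq_card] at h1
  suffices h2 : cyc g ≤ finrank ℚ (LinearMap.ker (D g)) by omega
  classical
  let Ω := MulAction.orbitRel.Quotient (Subgroup.zpowers g) α
  haveI : Fintype Ω := Fintype.ofFinite Ω
  let q : α → Ω := Quotient.mk''
  have hq : Function.Surjective q := Quotient.mk''_surjective
  have hinv : ∀ a, q (g a) = q a := by
    intro a
    apply Quotient.sound'
    rw [MulAction.orbitRel_apply]
    refine ⟨⟨g, Subgroup.mem_zpowers g⟩, ?_⟩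
    rfl
  let L : (Ω → ℚ) →ₗ[ℚ] LinearMap.ker (D g) :=
    LinearMap.codRestrict _ (LinearMap.funLeft ℚ ℚ q) (by
      intro v
      rw [LinearMap.mem_ker]
      ext a
      rw [D_apply]
      simp only [LinearMap.funLeft_apply, hinv, sub_self, Pi.zero_apply])
  have hL : Function.Injective L := by
    intro v w h
    have h3 : LinearMap.funLeft ℚ ℚ q v = LinearMap.funLeft ℚ ℚ q w := congrArg Subtype.val h
    ext ω
    obtain ⟨a, rfl⟩ := hq ω
    exact congrFun h3 a
  have h4 := LinearMap.finrank_le_finrank_of_injective hL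
  rw [Module.finrank_fintype_fun_eq_card] at h4
  rw [cyc, Nat.card_eq_fintype_card]
  exact h4

/-- Fixed vectors of both `x` and `y` restricted to an orbit transversal. -/
theorem eq_of_closure_invariant {x y : Equiv.Perm α} {v : α → ℚ} (hx : ∀ a, v (x a) = v a) (hy : ∀ a, v (y a) = v a)
    {h : Equiv.Perm α} (hh : h ∈ Subgroup.closure {x, y}) (a : α) : v (h a) = v a := by
  induction hh using Subgroup.closure_induction generalizing a with
  | mem g hg =>
    rcases hg with rfl | hg
    · exact hx a
    · rw [Set.mem_singleton_iff] at hg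
      subst hg
      exact hy a
  | one => rfl
  | mul g k _ _ ihg ihk =>
    rw [Equiv.Perm.mul_apply, ihg, ihk]
  | inv g _ ih =>
    have := ih (g⁻¹ a)
    have h0 : g (g⁻¹ a) = a := by simp
    rw [h0] at this
    exact this.symm

/-- The subgroup of permutations moving each basis vector by something in a given subspace. -/
def diffSub (M : Submodule ℚ (α → ℚ)) : Subgroup (Equiv.Perm α) where
  carrier := {h | ∀ a, (Pi.single (h a) (1 : ℚ) - Pi.single a 1 : α → ℚ) ∈ M}
  mul_mem' := by
    intro g k hg hk a
    have := M.add_mem (hg (k a)) (hk a)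
    rw [Equiv.Perm.mul_apply]
    simpa using this
  one_mem' := by
    intro a
    simp
  inv_mem' := by
    intro g hg a
    have := M.neg_mem (hg (g⁻¹ a))
    have h0 : g (g⁻¹ a) = a := by simp
    rw [h0] at this
    simpa using this

theorem single_sub_mem_range (g : Equiv.Perm α) (a : α) :
    (Pi.single (g a) (1 : ℚ) - Pi.single a 1 : α → ℚ) ∈ LinearMap.range (D g) := by
  refine ⟨-Pi.single (g a) 1, ?_⟩
  ext b
  rw [D_apply]
  simp only [Pi.neg_apply, Pi.sub_apply]
  by_cases h1 : b = a
  · subst h1
    simp [Pi.single_apply]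
    ring
  · have h2 : g b ≠ g a := fun h => h1 (g.injective h)
    by_cases h3 : b = g a
    · subst h3
      simp [Pi.single_apply, h1, h2]
    · simp [Pi.single_apply, h1, h2, h3]

/-- **Ree's formula.** -/
theorem cyc_add_le {x y z : Equiv.Perm α} (hxyz : x * y * z = 1) (S : Finset α)
    (hS : ∀ a, ∃ s ∈ S, ∃ h ∈ Subgroup.closure {x, y}, h s = a) :
    cyc x + cyc y + cyc z ≤ Fintype.card α + 2 * S.card := by
  classical
  set n := Fintype.card α with hn
  let Rx := LinearMap.range (D x)
  let Ry := LinearMap.range (D y)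
  let Rz := LinearMap.range (D z)
  -- the sum map
  let φ : (Rx × Ry × Rz) →ₗ[ℚ] (α → ℚ) :=
    (Rx.subtype).coprod ((Ry.subtype).coprod (Rz.subtype))
  have hφ : ∀ u : Rx × Ry × Rz, φ u = u.1.1 + (u.2.1.1 + u.2.2.1) := by
    intro u
    rfl
  -- the map from vectors
  let Ψ : (α → ℚ) →ₗ[ℚ] (Rx × Ry × Rz) :=
    LinearMap.prod ((D x).rangeRestrict)
      (LinearMap.prod ((D y).rangeRestrict.comp (T x))
        ((D z).rangeRestrict.comp ((T y).comp (T x))))
  have hΨ : ∀ v, φ (Ψ v) = 0 := by
    intro v
    rw [hφ]
    ext a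
    have h1 : x (y (z a)) = a := by
      have := congrArg (fun k : Equiv.Perm α => k a) hxyz
      simpa [Equiv.Perm.mul_apply] using this
    show D x v a + (D y (T x v) a + D z (T y (T x v)) a) = 0
    rw [D_apply, D_apply, D_apply]
    simp only [T_apply]
    rw [h1]
    ring
  -- kernel of Ψ
  have hker : finrank ℚ (LinearMap.ker Ψ) ≤ S.card := by
    let res : LinearMap.ker Ψ →ₗ[ℚ] (S → ℚ) :=
      (LinearMap.funLeft ℚ ℚ (fun s : S => (s : α))).comp (LinearMap.ker Ψ).subtype
    have hres : Function.Injective res := by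
      rw [injective_iff_map_eq_zero]
      intro v hv
      have hv0 : Ψ v.1 = 0 := v.2
      have h1 : D x v.1 = 0 := by
        have := congrArg (fun u : Rx × Ry × Rz => (u.1 : α → ℚ)) hv0
        exact this
      have h2 : T x v.1 = v.1 := by
        ext a
        have := congrFun h1 a
        rw [D_apply] at this
        rw [T_apply]
        simpa [sub_eq_zero] using this
      have h3 : D y (T x v.1) = 0 := by
        have := congrArg (fun u : Rx × Ry × Rz => (u.2.1 : α → ℚ)) hv0
        exact this
      rw [h2] at h3
      have hx : ∀ a, v.1 (x a) = v.1 a := fun a => congrFun h2 a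
      have hy : ∀ a, v.1 (y a) = v.1 a := by
        intro a
        have := congrFun h3 a
        rw [D_apply] at this
        simpa [sub_eq_zero] using this
      apply Subtype.ext
      ext a
      obtain ⟨s, hs, h, hh, rfl⟩ := hS a
      rw [eq_of_closure_invariant hx hy hh s]
      have := congrFun hv ⟨s, hs⟩
      exact this
    have h4 := LinearMap.finrank_le_finrank_of_injective hres
    rw [Module.finrank_fintype_fun_eq_card] at h4
    simpa using h4
  -- range of Ψ lies in the kernel of φ
  have h5 : finrank ℚ (LinearMap.range Ψ) ≤ finrank ℚ (LinearMap.ker φ) := by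
    apply Submodule.finrank_mono
    rintro _ ⟨v, rfl⟩
    exact hΨ v
  have h6 := LinearMap.finrank_range_add_finrank_ker Ψ
  rw [Module.finrank_fintype_fun_eq_card] at h6
  -- range of φ is large
  have h7 : n ≤ finrank ℚ (LinearMap.range φ) + S.card := by
    let M := LinearMap.range φ ⊔ Submodule.span ℚ ((fun s : α => (Pi.single s (1 : ℚ) : α → ℚ)) '' (S : Set α))
    have hx : Rx ≤ LinearMap.range φ := by
      intro w hw
      exact ⟨(⟨w, hw⟩, 0, 0), by rw [hφ]; simp⟩
    have hy : Ry ≤ LinearMap.range φ := by
      intro w hw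
      exact ⟨(0, ⟨w, hw⟩, 0), by rw [hφ]; simp⟩
    have hcl : Subgroup.closure {x, y} ≤ diffSub (LinearMap.range φ) := by
      rw [Subgroup.closure_le]
      intro g hg
      rcases hg with rfl | hg
      · exact fun a => hx (single_sub_mem_range g a)
      · rw [Set.mem_singleton_iff] at hg
        subst hg
        exact fun a => hy (single_sub_mem_range g a)
    have htop : M = ⊤ := by
      rw [eq_top_iff]
      have hspan : Submodule.span ℚ (Set.range (fun a : α => (Pi.single a (1 : ℚ) : α → ℚ))) = ⊤ := by
        have h0 := (Pi.basisFun ℚ α).span_eq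
        have h1 : (⇑(Pi.basisFun ℚ α)) = fun a : α => (Pi.single a (1 : ℚ) : α → ℚ) := by
          funext a
          exact Pi.basisFun_apply ℚ α a
        rw [h1] at h0
        exact h0
      rw [← hspan, Submodule.span_le]
      rintro _ ⟨a, rfl⟩
      obtain ⟨s, hs, h, hh, rfl⟩ := hS a
      have h8 : (Pi.single (h s) (1 : ℚ) - Pi.single s 1 : α → ℚ) ∈ M :=
        Submodule.mem_sup_left (hcl hh s)
      have h9 : (Pi.single s (1 : ℚ) : α → ℚ) ∈ M :=
        Submodule.mem_sup_right (Submodule.subset_span ⟨s, hs, rfl⟩)
      have := M.add_mem h8 h9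
      simpa using this
    have h10 := Submodule.finrank_add_le_finrank_add_finrank (LinearMap.range φ)
      (Submodule.span ℚ ((fun s : α => (Pi.single s (1 : ℚ) : α → ℚ)) '' (S : Set α)))
    have h11 : finrank ℚ ↥M = n := by
      rw [htop, finrank_top, Module.finrank_fintype_fun_eq_card]
    change finrank ℚ ↥M ≤ _ at h10
    have h12 : finrank ℚ (Submodule.span ℚ ((fun s : α => (Pi.single s (1 : ℚ) : α → ℚ)) '' (S : Set α))) ≤ S.card := by
      have := finrank_span_finset_le_card (R := ℚ) (S.image (fun s : α => (Pi.single s (1 : ℚ) : α → ℚ)))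
      rw [Finset.coe_image] at this
      exact this.trans Finset.card_image_le
    omega
  have h13 := LinearMap.finrank_range_add_finrank_ker φ
  rw [Module.finrank_prod, Module.finrank_prod] at h13
  have hx' := finrank_range_D_add x
  have hy' := finrank_range_D_add y
  have hz' := finrank_range_D_add z
  have hRx : finrank ℚ Rx = finrank ℚ (LinearMap.range (D x)) := rfl
  have hRy : finrank ℚ Ry = finrank ℚ (LinearMap.range (D y)) := rfl
  have hRz : finrank ℚ Rz = finrank ℚ (LinearMap.range (D z)) := rfl
  omega

/-- Burnside's lemma for a permutation of prime order. -/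
theorem prime_mul_cyc {g : Equiv.Perm α} {p : ℕ} (hp : p.Prime) (hg : orderOf g = p) :
    p * cyc g = Fintype.card α + (p - 1) * (Finset.univ.filter (fun a => g a = a)).card := by
  classical
  haveI : Fact p.Prime := ⟨hp⟩
  let Z := Subgroup.zpowers g
  have hZ : Fintype.card Z = p := by
    rw [Fintype.card_zpowers, hg]
  have key : ∀ a : Z, a ≠ 1 → ∀ b, (a : Equiv.Perm α) b = b ↔ g b = b := by
    intro a ha b
    have ha' : (a : Equiv.Perm α) ≠ 1 := fun h => ha (Subtype.ext h)
    constructor
    · intro h
      have h1 : orderOf (a : Equiv.Perm α) ∣ p := by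
        rw [← hg]
        obtain ⟨k, hk⟩ := Subgroup.mem_zpowers_iff.1 a.2
        rw [← hk]
        exact orderOf_dvd_of_pow_eq_one (by
          rw [← zpow_natCast, ← zpow_mul, mul_comm, zpow_mul, zpow_natCast, pow_orderOf_eq_one, one_zpow])
      have h2 : orderOf (a : Equiv.Perm α) = p := by
        rcases (Nat.dvd_prime hp).1 h1 with h3 | h3
        · exact absurd (orderOf_eq_one_iff.1 h3) ha'
        · exact h3
      have h4 : Subgroup.zpowers (a : Equiv.Perm α) = Z := by
        apply Subgroup.eq_of_le_of_card_ge
        · rw [Subgroup.zpowers_le]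
          exact a.2
        · rw [Nat.card_eq_fintype_card, hZ, Nat.card_zpowers, h2]
      have h5 : g ∈ Subgroup.zpowers (a : Equiv.Perm α) := by
        rw [h4]
        exact Subgroup.mem_zpowers g
      obtain ⟨k, hk⟩ := Subgroup.mem_zpowers_iff.1 h5
      rw [← hk]
      have h6 : Function.IsFixedPt (a : Equiv.Perm α) b := h
      exact (Equiv.Perm.zpow_apply_eq_self_of_apply_eq_self h k)
    · intro h
      obtain ⟨k, hk⟩ := Subgroup.mem_zpowers_iff.1 a.2
      rw [← hk]
      exact Equiv.Perm.zpow_apply_eq_self_of_apply_eq_self h k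
  haveI : Fintype (Quotient (MulAction.orbitRel Z α)) := Fintype.ofFinite _
  have hB := MulAction.sum_card_fixedBy_eq_card_orbits_mul_card_group Z α
  have hF : ∀ a : Z, Fintype.card (MulAction.fixedBy α a) =
      if a = 1 then Fintype.card α else (Finset.univ.filter (fun b => g b = b)).card := by
    intro a
    split_ifs with h
    · subst h
      rw [Fintype.card_congr (Equiv.subtypeUnivEquiv (fun b => by simp))]
    · apply Fintype.card_of_subtype
      intro b
      rw [Finset.mem_filter]
      simp only [Finset.mem_univ, true_and, MulAction.mem_fixedBy]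
      exact (key a h b).symm
  simp only [hF] at hB
  rw [← Finset.add_sum_erase Finset.univ _ (Finset.mem_univ (1 : Z))] at hB
  rw [if_pos rfl] at hB
  rw [Finset.sum_congr rfl (g := fun _ => (Finset.univ.filter (fun b => g b = b)).card)
    (fun a ha => if_neg (Finset.ne_of_mem_erase ha)), Finset.sum_const, Finset.card_erase_of_mem (Finset.mem_univ _),
    Finset.card_univ, hZ, smul_eq_mul] at hB
  have hc : cyc g = Fintype.card (Quotient (MulAction.orbitRel Z α)) := by
    rw [cyc, Nat.card_eq_fintype_card]
  rw [hc, mul_comm p, ← hB]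

end Cfsg.Agent.Lib.Ree
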