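import Mathlib
import Cfsg.Agent.Lib.BrauerGlobal
import Cfsg.Agent.Lib.CharLattice
import Cfsg.Agent.Lib.CharPow
import Cfsg.Agent.Lib.NilpFix
import Cfsg.Agent.Lib.Monomial
import Cfsg.Agent.Lib.BlockMajor
import Cfsg.Agent.Lib.BlockCentral
import Cfsg.Agent.Lib.BlkQuot
import Cfsg.Agent.Lib.CharKernel

/-!
# The lattice of restrictions to `p`-regular elements

The function `c ↦ χ (c ^ N)`, for an exponent `N` computing the `p`-regular part, is a generalized
character (by Brauer's characterization).  For a central `p`-subgroup `U`, the restriction to `p`-regular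
elements of a character of `X` is an integer combination of restrictions of characters of `X ⧸ U`,
within the corresponding block.
-/

set_option autoImplicit false
set_option linter.unusedSectionVars false
set_option linter.unusedVariables false
set_option linter.style.haveILetI false

namespace Cfsg.Agent.Lib.RegLattice

open Cfsg Cfsg.Agent.Lib.CharBasic Cfsg.Agent.Lib.CharInd Cfsg.Agent.Lib.CharIntegrality
open Cfsg.Agent.Lib.BlockLocal Cfsg.Agent.Lib.BlockIdem Cfsg.Agent.Lib.BlockQ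
open Cfsg.Agent.Lib.BlockOrtho
open scoped ComplexConjugate

universe u

section Exp

variable {X : Type u} [Group X] [Finite X]

/-- The exponent computing the `p`-regular part. -/
theorem exists_regExp {p : ℕ} (hp : p.Prime) :
    ∃ N : ℕ, (∀ c : X, ¬ p ∣ orderOf c → c ^ N = c) ∧
      (∀ u : X, (∃ k : ℕ, orderOf u = p ^ k) → u ^ N = 1) := by
  classical
  set n := Nat.card X with hn
  have hn0 : n ≠ 0 := Nat.card_pos.ne'
  set a := n.factorization p with ha
  set n' := n / p ^ a with hn'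
  have hsplit : p ^ a * n' = n := Nat.ordProj_mul_ordCompl_eq_self n p
  have hcop : Nat.Coprime (p ^ a) n' := by
    apply Nat.Coprime.pow_left
    rw [Nat.Prime.coprime_iff_not_dvd hp]
    exact Nat.not_dvd_ordCompl hp hn0
  obtain ⟨N, hN1, hN2⟩ := Nat.chineseRemainder hcop 0 1
  refine ⟨N, fun c hc => ?_, fun u hu => ?_⟩
  · have h1 : orderOf c ∣ p ^ a * n' := by rw [hsplit]; exact orderOf_dvd_natCard c
    have h2 : Nat.Coprime (orderOf c) (p ^ a) := by
      apply Nat.Coprime.pow_right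
      exact ((Nat.Prime.coprime_iff_not_dvd hp).mpr hc).symm
    have h3 : orderOf c ∣ n' := h2.dvd_of_dvd_mul_left h1
    have h4 : N ≡ 1 [MOD orderOf c] := hN2.of_dvd h3
    have h5 := (pow_eq_pow_iff_modEq (x := c) (n := N) (m := 1)).mpr h4
    rwa [pow_one] at h5
  · obtain ⟨k, hk⟩ := hu
    have h1 : p ^ k ∣ p ^ a * n' := by rw [hsplit, ← hk]; exact orderOf_dvd_natCard u
    have h2 : p ^ k ∣ p ^ a := by
      have h3 : Nat.Coprime (p ^ k) n' := by
        apply Nat.Coprime.pow_left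
        rw [Nat.Prime.coprime_iff_not_dvd hp]
        exact Nat.not_dvd_ordCompl hp hn0
      exact h3.dvd_of_dvd_mul_right h1
    have h3 : p ^ a ∣ N := (Nat.modEq_zero_iff_dvd).mp hN1
    have h4 : orderOf u ∣ N := by rw [hk]; exact h2.trans h3
    exact orderOf_dvd_iff_pow_eq_one.mp h4

/-- On a nilpotent group, the map computing the `p`-regular part is multiplicative. -/
theorem pow_mul_of_nilpotent [Group.IsNilpotent X] {p : ℕ} [hpF : Fact p.Prime] {N : ℕ}
    (h1 : ∀ c : X, ¬ p ∣ orderOf c → c ^ N = c)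
    (h2 : ∀ u : X, (∃ k : ℕ, orderOf u = p ^ k) → u ^ N = 1) (a b : X) :
    (a * b) ^ N = a ^ N * b ^ N := by
  classical
  have hp := hpF.out
  obtain ⟨S⟩ : Nonempty (Sylow p X) := inferInstance
  haveI hSn : (S : Subgroup X).Normal :=
    Sylow.normal_of_normalizerCondition (Group.normalizerCondition_of_isNilpotent) S
  have hcop : Nat.Coprime (Nat.card (S : Subgroup X)) (S : Subgroup X).index := S.card_coprime_index
  obtain ⟨T, hT⟩ := Subgroup.exists_right_complement'_of_coprime hcop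
  have hTcard : Nat.card T = (S : Subgroup X).index := by
    have h3 := hT.card_mul_card
    have h4 := (S : Subgroup X).card_mul_index
    have h5 : Nat.card (S : Subgroup X) ≠ 0 := Nat.card_pos.ne'
    exact Nat.eq_of_mul_eq_mul_left (Nat.pos_of_ne_zero h5) (h3.trans h4.symm)
  have hSp : ∀ s ∈ (S : Subgroup X), ∃ k : ℕ, orderOf s = p ^ k := by
    intro s hs
    obtain ⟨k, hk⟩ := (IsPGroup.iff_orderOf.mp S.isPGroup') ⟨s, hs⟩
    exact ⟨k, by rw [← hk, Subgroup.orderOf_mk]⟩
  have hTreg : ∀ t ∈ T, ¬ p ∣ orderOf t := by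
    intro t ht hdvd
    have h3 : orderOf t ∣ Nat.card T := by
      have := orderOf_dvd_natCard (⟨t, ht⟩ : T)
      rwa [Subgroup.orderOf_mk] at this
    rw [hTcard] at h3
    exact S.not_dvd_index (hdvd.trans h3)
  have hcomm : ∀ s ∈ (S : Subgroup X), ∀ t ∈ T, s * t = t * s := by
    intro s hs t ht
    apply Cfsg.Agent.Lib.NilpFix.commute_of_coprime
    obtain ⟨k, hk⟩ := hSp s hs
    rw [hk]
    apply Nat.Coprime.pow_left
    exact (Nat.Prime.coprime_iff_not_dvd hp).mpr (hTreg t ht)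
  have hdec : ∀ z : X, ∃ s ∈ (S : Subgroup X), ∃ t ∈ T, z = s * t := by
    intro z
    obtain ⟨⟨s, t⟩, hst⟩ := hT.existsUnique z |>.exists
    exact ⟨s, s.2, t, t.2, hst.symm⟩
  have hpow : ∀ s ∈ (S : Subgroup X), ∀ t ∈ T, (s * t) ^ N = t := by
    intro s hs t ht
    have hc : Commute s t := hcomm s hs t ht
    rw [hc.mul_pow, h2 s (hSp s hs), h1 t (hTreg t ht), one_mul]
  obtain ⟨s₁, hs₁, t₁, ht₁, rfl⟩ := hdec a
  obtain ⟨s₂, hs₂, t₂, ht₂, rfl⟩ := hdec b
  have h3 : s₁ * t₁ * (s₂ * t₂) = (s₁ * s₂) * (t₁ * t₂) := by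
    calc s₁ * t₁ * (s₂ * t₂) = s₁ * (t₁ * s₂) * t₂ := by group
      _ = s₁ * (s₂ * t₁) * t₂ := by rw [hcomm s₂ hs₂ t₁ ht₁]
      _ = _ := by group
  rw [h3, hpow _ ((S : Subgroup X).mul_mem hs₁ hs₂) _ (T.mul_mem ht₁ ht₂), hpow s₁ hs₁ t₁ ht₁,
    hpow s₂ hs₂ t₂ ht₂]

end Exp

section Gen

variable {X : Type u} [Group X] [Fintype X]

/-- The composition of a character with the `p`-regular part is a generalized character. -/
theorem isGen_regComp {p : ℕ} [hpF : Fact p.Prime] {ξ : X → ℂ} (hξ : IsCharacter X ξ) {N : ℕ}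
    (h1 : ∀ c : X, ¬ p ∣ orderOf c → c ^ N = c)
    (h2 : ∀ u : X, (∃ k : ℕ, orderOf u = p ^ k) → u ^ N = 1) :
    IsGeneralizedCharacter X (fun c => ξ (c ^ N)) := by
  apply Cfsg.Agent.Lib.BrauerGlobal.isGeneralizedCharacter_of_elementary
  · intro g h
    simp only [conj_pow]
    exact isClassFunction_of_isCharacter hξ _ _
  · intro E q hq hE
    haveI : Fact q.Prime := ⟨hq⟩
    letI : Fintype E := Fintype.ofFinite _
    haveI : Group.IsNilpotent E := Cfsg.Agent.Lib.Monomial.isNilpotent_of_isElementary hE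
    have hE1 : ∀ c : E, ¬ p ∣ orderOf c → c ^ N = c := by
      intro c hc
      apply Subtype.ext
      push_cast
      apply h1
      rwa [Subgroup.orderOf_coe]
    have hE2 : ∀ u : E, (∃ k : ℕ, orderOf u = p ^ k) → u ^ N = 1 := by
      intro u hu
      apply Subtype.ext
      push_cast
      apply h2
      rwa [Subgroup.orderOf_coe]
    let r : E →* E :=
      { toFun := fun e => e ^ N
        map_one' := one_pow N
        map_mul' := pow_mul_of_nilpotent hE1 hE2 }
    have h3 : IsCharacter E (fun e : E => ξ (((r e : E) : X))) :=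
      isCharacter_comp r (isCharacter_restrict E hξ)
    exact Cfsg.Agent.Lib.GenChar.isGen_of_isChar h3

end Gen

section Lat

open Cfsg.Agent.Lib.BlkQuot (infl)

variable {X : Type u} [Group X] [Fintype X] {p : ℕ} [hpF : Fact p.Prime] {M : Ideal AlgInt}
variable (U : Subgroup X) [hUn : U.Normal]

/-- A constituent of a function constant on the cosets of a central subgroup is trivial on it. -/
theorem classInner_eq_zero_of_nontrivial (hUZ : U ≤ Subgroup.center X) {f : X → ℂ}
    (hf : ∀ c, ∀ u ∈ U, f (c * u) = f c) (ρ : IrrCharacter X) {u : X} (hu : u ∈ U)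
    (hne : (ρ : X → ℂ) u ≠ (ρ : X → ℂ) 1) : classInner f (ρ : X → ℂ) = 0 := by
  classical
  have hc : ∀ c, u * c = c * u := fun c => ((Subgroup.mem_center_iff.mp (hUZ hu)) c).symm
  have h1 := irr_one_ne_zero' ρ.2
  set ω := (ρ : X → ℂ) u / (ρ : X → ℂ) 1 with hω
  have hω1 : ω ≠ 1 := by
    intro h
    apply hne
    rw [hω, div_eq_one_iff_eq h1] at h
    exact h
  have h2 : ∑ c : X, f c * conj ((ρ : X → ℂ) c) = conj ω * ∑ c : X, f c * conj ((ρ : X → ℂ) c) := by
    conv_lhs => rw [← Equiv.sum_comp (Equiv.mulRight u)]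
    rw [Finset.mul_sum]
    refine Finset.sum_congr rfl fun c _ => ?_
    simp only [Equiv.coe_mulRight]
    rw [hf c u hu, Cfsg.Agent.Lib.BlockMajor.irr_mul_central ρ.2 hc, map_mul]
    ring
  have h3 : conj ω ≠ 1 := by
    intro h
    apply hω1
    have := congrArg conj h
    simpa using this
  have h4 : ∑ c : X, f c * conj ((ρ : X → ℂ) c) = 0 := by
    have h5 : (1 - conj ω) * ∑ c : X, f c * conj ((ρ : X → ℂ) c) = 0 := by
      linear_combination h2
    exact (mul_eq_zero.mp h5).resolve_left (sub_ne_zero.mpr (Ne.symm h3))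
  unfold classInner
  rw [h4, mul_zero]

theorem infl_injective : Function.Injective (infl U) := by
  intro χ ψ h
  apply Subtype.ext
  funext z
  obtain ⟨g, rfl⟩ := QuotientGroup.mk_surjective z
  have := congrFun (congrArg Subtype.val h) g
  simpa using this

/-- **Integrality**: the restriction to `p`-regular elements of a character of `X` is an integer
combination of restrictions of characters of `X ⧸ U`. -/
theorem exists_lattice [Fintype (X ⧸ U)] (hUZ : U ≤ Subgroup.center X) (hUp : IsPGroup p U)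
    (ξ : IrrCharacter X) : ∃ a : IrrCharacter (X ⧸ U) → ℤ, ∀ s : X, ¬ p ∣ orderOf s →
      (ξ : X → ℂ) s = ∑ ψ : IrrCharacter (X ⧸ U), (a ψ : ℂ) * (ψ : X ⧸ U → ℂ) (s : X ⧸ U) := by
  classical
  obtain ⟨N, hN1, hN2⟩ := exists_regExp (X := X) hpF.out
  have hgen := isGen_regComp (IsIrrCharacter.isCharacter ξ.2) hN1 hN2
  obtain ⟨a, ha⟩ := Cfsg.Agent.Lib.CharLattice.exists_int_decomp hgen
  set f : X → ℂ := fun c => (ξ : X → ℂ) (c ^ N) with hf
  have hfU : ∀ c, ∀ u ∈ U, f (c * u) = f c := by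
    intro c u hu
    have hc : Commute c u := (Subgroup.mem_center_iff.mp (hUZ hu)) c
    simp only [hf]
    rw [hc.mul_pow, hN2 u (Cfsg.Agent.Lib.BlockCentral.orderOf_of_mem_isPGroup U hpF.out hUp hu), mul_one]
  have hzero : ∀ ρ : IrrCharacter X, ρ ∉ Finset.univ.image (infl U) → a ρ = 0 := by
    intro ρ hρ
    have h1 : ∃ u ∈ U, (ρ : X → ℂ) u ≠ (ρ : X → ℂ) 1 := by
      by_contra hcon
      push Not at hcon
      obtain ⟨χ', h2, h3⟩ := Cfsg.Agent.Lib.CharKernel.exists_quotient_irr U ρ.2 hcon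
      apply hρ
      refine Finset.mem_image.mpr ⟨⟨χ', h2⟩, Finset.mem_univ _, ?_⟩
      apply Subtype.ext
      funext g
      exact h3 g
    obtain ⟨u, hu, hne⟩ := h1
    have h2 := classInner_eq_zero_of_nontrivial U hUZ hfU ρ hu hne
    have h3 := Cfsg.Agent.Lib.CharLattice.classInner_int_decomp a ρ
    rw [← ha, h2] at h3
    exact_mod_cast h3.symm
  refine ⟨fun ψ => a (infl U ψ), fun s hs => ?_⟩
  have h1 : (ξ : X → ℂ) s = f s := by
    simp only [hf]
    rw [hN1 s hs]
  rw [h1, ha, Finset.sum_apply]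
  simp only [Pi.smul_apply, smul_eq_mul]
  rw [← Finset.sum_subset (Finset.subset_univ (Finset.univ.image (infl U)))
    (fun ρ _ hρ => by rw [hzero ρ hρ]; simp), Finset.sum_image
    (fun _ _ _ _ h => infl_injective U h)]
  rfl

theorem mem_principal_infl_iff (hM : IsPModular p M) [Fintype (X ⧸ U)] (hUZ : U ≤ Subgroup.center X)
    (hUp : IsPGroup p U) (ψ : IrrCharacter (X ⧸ U)) :
    infl U ψ ∈ principalBlock M X ↔ ψ ∈ principalBlock M (X ⧸ U) := by
  have hC : ∃ k : ℕ, (Subgroup.centralizer (U : Set X)).index = p ^ k := by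
    refine ⟨0, ?_⟩
    have h1 : Subgroup.centralizer (U : Set X) = ⊤ := by
      rw [Subgroup.centralizer_eq_top_iff_subset]
      exact hUZ
    rw [h1]
    simp
  exact (Cfsg.Agent.Lib.BlkQuot.sameBlock_infl_iff U hM hUp hC
    (Cfsg.Agent.Lib.BlockNormal.irrOne (X ⧸ U)) ψ).symm

/-- Orthogonality of the regular parts, as a sum over the regular elements. -/
theorem sum_reg_eq_zero (hM : IsPModular p M) {B : Set (IrrCharacter X)} (hB : IsPBlock M B)
    {χ ψ : IrrCharacter X} (hχ : χ ∈ B) (hψ : ψ ∉ B)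
    [DecidablePred fun s : X => ¬ p ∣ orderOf s] :
    ∑ s ∈ Finset.univ.filter (fun s : X => ¬ p ∣ orderOf s),
      (χ : X → ℂ) s * conj ((ψ : X → ℂ) s) = 0 := by
  have h1 := classInner_pRegularPart_eq_zero hM hB hχ hψ
  rw [Cfsg.Agent.Lib.BlockMajor.classInner_pReg_eq_sum] at h1
  exact (mul_eq_zero.mp h1).resolve_left (inv_ne_zero natCard_ne_zero')

/-- **Integrality in the principal block.** -/
theorem exists_lattice_block (hM : IsPModular p M) [Fintype (X ⧸ U)] (hUZ : U ≤ Subgroup.center X)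
    (hUp : IsPGroup p U) {ξ : IrrCharacter X} (hξ : ξ ∈ principalBlock M X) :
    ∃ a : IrrCharacter (X ⧸ U) → ℤ, ∀ s : X, ¬ p ∣ orderOf s →
      (ξ : X → ℂ) s = ∑ ψ ∈ bF (principalBlock M (X ⧸ U)),
        (a ψ : ℂ) * (ψ : X ⧸ U → ℂ) (s : X ⧸ U) := by
  classical
  obtain ⟨a, ha⟩ := exists_lattice U hUZ hUp ξ
  refine ⟨a, ?_⟩
  set Bk := bF (principalBlock M (X ⧸ U)) with hBk
  have hB := Cfsg.Agent.Lib.BlockNormal.isPBlock_principalBlock (G := X) M
  set reg := Finset.univ.filter (fun s : X => ¬ p ∣ orderOf s) with hreg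
  set α : X → ℂ := fun s => ∑ ψ ∈ Bk, (a ψ : ℂ) * (infl U ψ : X → ℂ) s with hα
  set β : X → ℂ := fun s => ∑ ψ ∈ Finset.univ \ Bk, (a ψ : ℂ) * (infl U ψ : X → ℂ) s with hβ
  have hsplit : ∀ s ∈ reg, (ξ : X → ℂ) s - α s = β s := by
    intro s hs
    have h1 := ha s (Finset.mem_filter.mp hs).2
    rw [h1, ← Finset.sum_sdiff (Finset.subset_univ Bk)]
    simp only [hα, hβ, Cfsg.Agent.Lib.BlkQuot.infl_apply]
    ring
  have hnot : ∀ ψ ∈ Finset.univ \ Bk, infl U ψ ∉ principalBlock M X := by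
    intro ψ hψ h
    have h1 := (mem_principal_infl_iff U hM hUZ hUp ψ).mp h
    exact (Finset.mem_sdiff.mp hψ).2 (mem_bF.mpr h1)
  have horth : ∀ ψ ∈ Finset.univ \ Bk, ∑ s ∈ reg, ((ξ : X → ℂ) s - α s) *
      conj ((infl U ψ : X → ℂ) s) = 0 := by
    intro ψ hψ
    simp only [hα, sub_mul, Finset.sum_mul]
    rw [Finset.sum_sub_distrib, sum_reg_eq_zero hM hB hξ (hnot ψ hψ), zero_sub, neg_eq_zero,
      Finset.sum_comm]
    refine Finset.sum_eq_zero fun ψ' hψ' => ?_
    simp only [mul_assoc]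
    rw [← Finset.mul_sum, sum_reg_eq_zero hM hB
      ((mem_principal_infl_iff U hM hUZ hUp ψ').mpr (mem_bF.mp hψ')) (hnot ψ hψ), mul_zero]
  have hzero : ∑ s ∈ reg, β s * conj (β s) = 0 := by
    have h1 : ∀ s ∈ reg, β s * conj (β s) = ((ξ : X → ℂ) s - α s) * conj (β s) := by
      intro s hs
      rw [hsplit s hs]
    rw [Finset.sum_congr rfl h1]
    simp only [hβ, map_sum, map_mul, map_intCast, Finset.mul_sum]
    rw [Finset.sum_comm]
    refine Finset.sum_eq_zero fun ψ hψ => ?_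
    have h2 := horth ψ hψ
    have h3 : ∑ s ∈ reg, ((ξ : X → ℂ) s - α s) * ((a ψ : ℂ) * conj ((infl U ψ : X → ℂ) s)) =
        (a ψ : ℂ) * ∑ s ∈ reg, ((ξ : X → ℂ) s - α s) * conj ((infl U ψ : X → ℂ) s) := by
      rw [Finset.mul_sum]
      refine Finset.sum_congr rfl fun s _ => ?_
      ring
    rw [h3, h2, mul_zero]
  have hzero' : ∑ s ∈ reg, Complex.normSq (β s) = 0 := by
    have : ((∑ s ∈ reg, Complex.normSq (β s) : ℝ) : ℂ) = 0 := by
      push_cast
      rw [← hzero]
      refine Finset.sum_congr rfl fun s _ => ?_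
      rw [Complex.mul_conj]
    exact_mod_cast this
  intro s hs
  have hsr : s ∈ reg := Finset.mem_filter.mpr ⟨Finset.mem_univ _, hs⟩
  have h1 := (Finset.sum_eq_zero_iff_of_nonneg (fun s _ => Complex.normSq_nonneg _)).mp hzero' s hsr
  have h2 : β s = 0 := Complex.normSq_eq_zero.mp h1
  have h3 := hsplit s hsr
  rw [h2, sub_eq_zero] at h3
  rw [h3]
  rfl

/-- The regular inner product under inflation. -/
theorem classInner_reg_infl [Fintype (X ⧸ U)] (hUZ : U ≤ Subgroup.center X) (hUp : IsPGroup p U)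
    (χ χ' : IrrCharacter (X ⧸ U)) :
    (Nat.card U : ℂ) * classInner (pRegularPart p (infl U χ : X → ℂ)) (infl U χ' : X → ℂ) =
      classInner (pRegularPart p (χ : X ⧸ U → ℂ)) (χ' : X ⧸ U → ℂ) := by
  classical
  set H₀ : X ⧸ U → ℂ := fun z => pRegularPart p (χ : X ⧸ U → ℂ) z * conj ((χ' : X ⧸ U → ℂ) z) with hH₀
  have hH : ∀ z, p ∣ orderOf z → H₀ z = 0 := by
    intro z hz
    simp only [hH₀]
    rw [pRegularPart_of_sing _ hz, zero_mul]
  have h1 := Cfsg.Agent.Lib.BlockCentral.sum_pRegularPart_comp (P := U) hpF.out hUp hUZ H₀ hH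
  have h2 : ∀ x : X, pRegularPart p (fun y : X => H₀ (y : X ⧸ U)) x =
      pRegularPart p (infl U χ : X → ℂ) x * conj ((infl U χ' : X → ℂ) x) := by
    intro x
    by_cases hx : p ∣ orderOf x
    · rw [pRegularPart_of_sing _ hx, pRegularPart_of_sing _ hx, zero_mul]
    · rw [pRegularPart_of_reg _ hx, pRegularPart_of_reg _ hx]
      simp only [hH₀]
      rw [pRegularPart_of_reg _ (Cfsg.Agent.Lib.BlockCentral.not_dvd_orderOf_mk U hx)]
      rfl
  rw [Finset.sum_congr rfl (fun x _ => h2 x)] at h1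
  unfold classInner
  rw [h1, ← mul_assoc]
  congr 1
  have h3 : Nat.card X = Nat.card U * Nat.card (X ⧸ U) := by
    rw [mul_comm, Subgroup.card_eq_card_quotient_mul_card_subgroup U]
  have hU0 : (Nat.card U : ℂ) ≠ 0 := by exact_mod_cast Nat.card_pos.ne'
  have hK0 : (Nat.card (X ⧸ U) : ℂ) ≠ 0 := by exact_mod_cast Nat.card_pos.ne'
  rw [h3]
  push_cast
  field_simp

end Lat

end Cfsg.Agent.Lib.RegLattice
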