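import Mathlib
import Cfsg.Agent.Lib.SLGen

/-!
# Calculus of root elements `1 + s a ⊗ φ` in a subgroup of `SL`.

`Par H a φ s` says that `1 + s a ⊗ φ` lies in `H`, `Om H a φ` that this holds for every `s`.
-/

set_option autoImplicit false
set_option linter.unusedSectionVars false
set_option linter.unusedSimpArgs false
set_option linter.unusedVariables false

namespace Cfsg.Agent.Lib.RootPar

open Matrix

variable {ι : Type*} [Fintype ι] [DecidableEq ι] {F : Type*} [Field F]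

/-- `1 + s a ⊗ φ` lies in `H`. -/
def Par (H : Subgroup (SpecialLinearGroup ι F)) (a φ : ι → F) (s : F) : Prop :=
  ∃ g ∈ H, (g : Matrix ι ι F) = 1 + s • vecMulVec a φ

/-- All `1 + s a ⊗ φ` lie in `H`. -/
def Om (H : Subgroup (SpecialLinearGroup ι F)) (a φ : ι → F) : Prop := ∀ s : F, Par H a φ s

variable {H : Subgroup (SpecialLinearGroup ι F)} {a a' φ φ' : ι → F} {s s' : F}

theorem coe_mul' (x y : SpecialLinearGroup ι F) :
    ((x * y : SpecialLinearGroup ι F) : Matrix ι ι F) = (x : Matrix ι ι F) * (y : Matrix ι ι F) := rfl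

theorem coe_one' : ((1 : SpecialLinearGroup ι F) : Matrix ι ι F) = 1 := rfl

theorem coe_inv_mul (x : SpecialLinearGroup ι F) :
    ((x⁻¹ : SpecialLinearGroup ι F) : Matrix ι ι F) * (x : Matrix ι ι F) = 1 := by
  rw [← coe_mul', inv_mul_cancel, coe_one']

theorem coe_mul_inv (x : SpecialLinearGroup ι F) :
    (x : Matrix ι ι F) * ((x⁻¹ : SpecialLinearGroup ι F) : Matrix ι ι F) = 1 := by
  rw [← coe_mul', mul_inv_cancel, coe_one']

theorem Par.conj (h : Par H a φ s) {x : SpecialLinearGroup ι F} (hx : x ∈ H)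
    (h1 : (x : Matrix ι ι F) *ᵥ a = a') (h2 : φ' ᵥ* (x : Matrix ι ι F) = φ) : Par H a' φ' s := by
  obtain ⟨g, hg, hgm⟩ := h
  refine ⟨x * g * x⁻¹, H.mul_mem (H.mul_mem hx hg) (H.inv_mem hx), ?_⟩
  have key : (x : Matrix ι ι F) * (1 + s • vecMulVec a φ) = (1 + s • vecMulVec a' φ') * x := by
    rw [mul_add, add_mul, mul_one, one_mul, Matrix.mul_smul, Matrix.smul_mul, mul_vecMulVec,
      vecMulVec_mul, h1, h2]
  calc ((x * g * x⁻¹ : SpecialLinearGroup ι F) : Matrix ι ι F)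
      = (x : Matrix ι ι F) * g * ((x⁻¹ : SpecialLinearGroup ι F) : Matrix ι ι F) := by
        rw [coe_mul', coe_mul']
    _ = (1 + s • vecMulVec a' φ') * x * ((x⁻¹ : SpecialLinearGroup ι F) : Matrix ι ι F) := by
        rw [hgm, key]
    _ = _ := by rw [mul_assoc, coe_mul_inv, mul_one]

theorem Par.conj_inv (h : Par H a φ s) {x : SpecialLinearGroup ι F} (hx : x ∈ H)
    (h1 : (x : Matrix ι ι F) *ᵥ a' = a) (h2 : φ ᵥ* (x : Matrix ι ι F) = φ') : Par H a' φ' s := by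
  refine h.conj (H.inv_mem hx) ?_ ?_
  · rw [← h1, Matrix.mulVec_mulVec, coe_inv_mul, Matrix.one_mulVec]
  · rw [← h2, Matrix.vecMul_vecMul, coe_mul_inv, Matrix.vecMul_one]

theorem Par.add_center (h : Par H a φ s) (h' : Par H a' φ s) (hd : φ ⬝ᵥ a' = 0) :
    Par H (a + a') φ s := by
  obtain ⟨g, hg, hgm⟩ := h
  obtain ⟨g', hg', hgm'⟩ := h'
  refine ⟨g * g', H.mul_mem hg hg', ?_⟩
  rw [coe_mul', hgm, hgm']
  simp only [add_mul, mul_add, one_mul, mul_one, Matrix.smul_mul, Matrix.mul_smul,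
    vecMulVec_mul_vecMulVec, hd, zero_smul, smul_zero, add_zero, add_vecMulVec, smul_add,
    vecMulVec_zero]
  abel

theorem Par.add_axis (h : Par H a φ s) (h' : Par H a φ' s) (hd : φ ⬝ᵥ a = 0) :
    Par H a (φ + φ') s := by
  obtain ⟨g, hg, hgm⟩ := h
  obtain ⟨g', hg', hgm'⟩ := h'
  refine ⟨g * g', H.mul_mem hg hg', ?_⟩
  rw [coe_mul', hgm, hgm']
  simp only [add_mul, mul_add, one_mul, mul_one, Matrix.smul_mul, Matrix.mul_smul,
    vecMulVec_mul_vecMulVec, hd, zero_smul, smul_zero, add_zero, vecMulVec_add, smul_add,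
    vecMulVec_zero]
  abel

theorem Par.neg (h : Par H a φ s) (hd : φ ⬝ᵥ a = 0) : Par H a φ (-s) := by
  obtain ⟨g, hg, hgm⟩ := h
  refine ⟨g⁻¹, H.inv_mem hg, ?_⟩
  have key : (1 + s • vecMulVec a φ) * (1 + (-s) • vecMulVec a φ) = (1 : Matrix ι ι F) := by
    simp only [add_mul, mul_add, one_mul, mul_one, Matrix.smul_mul, Matrix.mul_smul,
      vecMulVec_mul_vecMulVec, hd, zero_smul, smul_zero, add_zero, neg_smul, vecMulVec_zero,
      mul_neg, smul_neg, neg_zero]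
    abel
  calc ((g⁻¹ : SpecialLinearGroup ι F) : Matrix ι ι F)
      = ((g⁻¹ : SpecialLinearGroup ι F) : Matrix ι ι F) * (g * (1 + (-s) • vecMulVec a φ)) := by
        rw [hgm, key, mul_one]
    _ = _ := by rw [← mul_assoc, coe_inv_mul, one_mul]

theorem Par.smul_center {c : F} (h : Par H a φ (c * s)) : Par H (c • a) φ s := by
  obtain ⟨g, hg, hgm⟩ := h
  refine ⟨g, hg, ?_⟩
  rw [hgm, smul_vecMulVec, smul_smul, mul_comm]

theorem Par.smul_axis {c : F} (h : Par H a φ (c * s)) : Par H a (c • φ) s := by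
  obtain ⟨g, hg, hgm⟩ := h
  refine ⟨g, hg, ?_⟩
  rw [hgm, vecMulVec_smul, smul_smul, mul_comm]

theorem Par.of_smul_center {c : F} (h : Par H (c • a) φ s) : Par H a φ (c * s) := by
  obtain ⟨g, hg, hgm⟩ := h
  refine ⟨g, hg, ?_⟩
  rw [hgm, smul_vecMulVec, smul_smul, mul_comm]

theorem Par.of_smul_axis {c : F} (h : Par H a (c • φ) s) : Par H a φ (c * s) := by
  obtain ⟨g, hg, hgm⟩ := h
  refine ⟨g, hg, ?_⟩
  rw [hgm, vecMulVec_smul, smul_smul, mul_comm]

/-- The commutator relation. -/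
theorem Par.comm (h : Par H a φ s) (h' : Par H a' φ' s') (h1 : φ ⬝ᵥ a = 0) (h2 : φ' ⬝ᵥ a' = 0)
    (h3 : φ ⬝ᵥ a' = 0) : Par H a' φ (-(s * s' * (φ' ⬝ᵥ a))) := by
  obtain ⟨g, hg, hgm⟩ := id h
  -- conjugating the second element by the first
  have hc : Par H a' (φ' - (s * (φ' ⬝ᵥ a)) • φ) s' := by
    refine h'.conj hg ?_ ?_
    · rw [hgm, Matrix.add_mulVec, Matrix.one_mulVec, Matrix.smul_mulVec, vecMulVec_mulVec, h3]
      simp
    · rw [hgm, Matrix.vecMul_add, Matrix.vecMul_one, Matrix.vecMul_smul, vecMul_vecMulVec]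
      have : (φ' - (s * (φ' ⬝ᵥ a)) • φ) ⬝ᵥ a = φ' ⬝ᵥ a := by
        rw [sub_dotProduct, smul_dotProduct, h1]
        simp
      rw [this]
      ext i
      simp
      ring
  have h4 : (φ' - (s * (φ' ⬝ᵥ a)) • φ) ⬝ᵥ a' = 0 := by
    rw [sub_dotProduct, smul_dotProduct, h3, h2]
    simp
  have h5 : Par H a' ((-1 : F) • φ') s' := by
    apply Par.smul_axis
    have := h'.neg h2
    simpa using this
  have h6 := hc.add_axis h5 h4
  have h7 : φ' - (s * (φ' ⬝ᵥ a)) • φ + (-1 : F) • φ' = (-(s * (φ' ⬝ᵥ a))) • φ := by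
    ext i
    simp
    ring
  rw [h7] at h6
  have h8 := h6.of_smul_axis
  have h9 : -(s * (φ' ⬝ᵥ a)) * s' = -(s * s' * (φ' ⬝ᵥ a)) := by ring
  rwa [h9] at h8

theorem Om.conj (h : Om H a φ) {x : SpecialLinearGroup ι F} (hx : x ∈ H)
    (h1 : (x : Matrix ι ι F) *ᵥ a = a') (h2 : φ' ᵥ* (x : Matrix ι ι F) = φ) : Om H a' φ' :=
  fun s => (h s).conj hx h1 h2

theorem Om.conj_inv (h : Om H a φ) {x : SpecialLinearGroup ι F} (hx : x ∈ H)
    (h1 : (x : Matrix ι ι F) *ᵥ a' = a) (h2 : φ ᵥ* (x : Matrix ι ι F) = φ') : Om H a' φ' :=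
  fun s => (h s).conj_inv hx h1 h2

theorem Om.add_center (h : Om H a φ) (h' : Om H a' φ) (hd : φ ⬝ᵥ a' = 0) : Om H (a + a') φ :=
  fun s => (h s).add_center (h' s) hd

theorem Om.add_axis (h : Om H a φ) (h' : Om H a φ') (hd : φ ⬝ᵥ a = 0) : Om H a (φ + φ') :=
  fun s => (h s).add_axis (h' s) hd

theorem Om.smul_center (h : Om H a φ) (c : F) : Om H (c • a) φ :=
  fun s => (h (c * s)).smul_center

theorem Om.smul_axis (h : Om H a φ) (c : F) : Om H a (c • φ) :=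
  fun s => (h (c * s)).smul_axis

theorem Om.of_smul_center {c : F} (h : Om H (c • a) φ) (hc : c ≠ 0) : Om H a φ := by
  intro s
  have := (h (s / c)).of_smul_center
  rwa [mul_div_cancel₀ _ hc] at this

theorem Om.of_smul_axis {c : F} (h : Om H a (c • φ)) (hc : c ≠ 0) : Om H a φ := by
  intro s
  have := (h (s / c)).of_smul_axis
  rwa [mul_div_cancel₀ _ hc] at this

/-- The commutator relation: a new root group. -/
theorem Om.comm (h : Om H a φ) (h' : Par H a' φ' 1) (h1 : φ ⬝ᵥ a = 0) (h2 : φ' ⬝ᵥ a' = 0)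
    (h3 : φ ⬝ᵥ a' = 0) (hk : φ' ⬝ᵥ a ≠ 0) : Om H a' φ := by
  intro r
  have := (h (-(r / (φ' ⬝ᵥ a)))).comm h' h1 h2 h3
  have e : -(-(r / (φ' ⬝ᵥ a)) * 1 * (φ' ⬝ᵥ a)) = r := by
    field_simp
  rwa [e] at this

end Cfsg.Agent.Lib.RootPar
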