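import Mathlib
import Cfsg.Agent.Lib.RootPar

/-!
# `SL_n(F)` is generated by three conjugate regular unipotent elements.
-/

set_option autoImplicit false
set_option linter.unusedSectionVars false
set_option linter.unusedSimpArgs false
set_option linter.unusedVariables false

namespace Cfsg.Agent.Lib.RegThree

open Matrix Cfsg.Agent.Lib.RootPar

variable {n : ℕ} {F : Type*} [Field F]

/-- The `k`-th coordinate vector, zero if `n ≤ k`. -/
def E (n : ℕ) (F : Type*) [Field F] (k : ℕ) : Fin n → F := fun i => if i.val = k then 1 else 0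

theorem E_apply (k : ℕ) (i : Fin n) : E n F k i = if i.val = k then 1 else 0 := rfl

theorem E_eq_zero {k : ℕ} (hk : n ≤ k) : E n F k = 0 := by
  ext i
  have := i.2
  rw [E_apply, if_neg (by omega)]
  rfl

theorem E_dot {k : ℕ} (hk : k < n) (a : Fin n → F) : E n F k ⬝ᵥ a = a ⟨k, hk⟩ := by
  unfold dotProduct
  rw [Finset.sum_eq_single ⟨k, hk⟩]
  · simp [E_apply]
  · intro b _ hb
    have : b.val ≠ k := fun h => hb (Fin.ext h)
    simp [E_apply, this]
  · simp

theorem dot_E {k : ℕ} (hk : k < n) (a : Fin n → F) : a ⬝ᵥ E n F k = a ⟨k, hk⟩ := by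
  rw [dotProduct_comm, E_dot hk]

theorem E_dot_E_ne {j k : ℕ} (h : j ≠ k) : E n F j ⬝ᵥ E n F k = 0 := by
  by_cases hj : j < n
  · rw [E_dot hj, E_apply, if_neg (fun h' => h (by simpa using h'))]
  · rw [E_eq_zero (by omega), zero_dotProduct]

theorem E_dot_E_self {k : ℕ} (hk : k < n) : E n F k ⬝ᵥ E n F k = 1 := by
  rw [E_dot hk, E_apply, if_pos rfl]

/-- The lower bidiagonal regular unipotent matrix. -/
def vv (n : ℕ) (F : Type*) [Field F] : Matrix (Fin n) (Fin n) F :=
  fun i j => (if i.val = j.val then 1 else 0) + (if i.val = j.val + 1 then 1 else 0)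

theorem vv_apply (i j : Fin n) :
    vv n F i j = (if i.val = j.val then 1 else 0) + (if i.val = j.val + 1 then 1 else 0) := rfl

theorem vv_mulVec (k : ℕ) : vv n F *ᵥ E n F k = E n F k + E n F (k + 1) := by
  by_cases hk : k < n
  · ext i
    simp only [Matrix.mulVec, Pi.add_apply]
    rw [dot_E hk, vv_apply, E_apply, E_apply]
  · rw [E_eq_zero (by omega), E_eq_zero (by omega : n ≤ k + 1), Matrix.mulVec_zero]
    simp

theorem vecMul_vv {m : ℕ} (hm : m + 1 < n) :
    E n F (m + 1) ᵥ* vv n F = E n F (m + 1) + E n F m := by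
  ext j
  simp only [Matrix.vecMul, Pi.add_apply]
  rw [E_dot hm, vv_apply, E_apply, E_apply]
  simp only [eq_comm (a := j.val)]
  congr 1
  by_cases h : m = j.val
  · simp [h]
  · have : ¬ m + 1 = j.val + 1 := by omega
    simp [h, this]

theorem det_vv : (vv n F).det = 1 := by
  rw [Matrix.det_of_lowerTriangular]
  · simp [vv_apply]
  · intro i j hij
    have hij' : i.val < j.val := hij
    rw [vv_apply, if_neg (by omega), if_neg (by omega), add_zero]

/-- `vecMul` by `vv` at a coordinate. -/
theorem vecMul_vv_apply (φ : Fin n → F) (j : Fin n) :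
    (φ ᵥ* vv n F) j = φ ⬝ᵥ E n F j.val + φ ⬝ᵥ E n F (j.val + 1) := by
  have h := dot_E j.2 (φ ᵥ* vv n F)
  simp only [Fin.eta] at h
  rw [← h, ← dotProduct_mulVec, vv_mulVec, dotProduct_add]

/-- The covector killed by all `e_j + e_{j+1}`. -/
def phi (n : ℕ) (F : Type*) [Field F] : Fin n → F := fun j => (-1) ^ (n - 1 - j.val)

theorem phi_vecMul (hn : 1 ≤ n) : phi n F ᵥ* vv n F = E n F (n - 1) := by
  ext j
  rw [vecMul_vv_apply, dot_E j.2, E_apply]
  have hj := j.2
  by_cases h : j.val = n - 1
  · rw [if_pos h, E_eq_zero (by omega), dotProduct_zero, add_zero]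
    simp [phi, h]
  · rw [if_neg h, dot_E (by omega)]
    simp only [phi]
    have : n - 1 - j.val = (n - 1 - (j.val + 1)) + 1 := by omega
    rw [this, pow_succ]
    ring

theorem phi_zero (hn : 1 ≤ n) : phi n F ⬝ᵥ E n F 0 ≠ 0 := by
  rw [dot_E (by omega)]
  simp [phi]

variable {H : Subgroup (SpecialLinearGroup (Fin n) F)}

/-- Passing from the column `m + 1` to the column `m`. -/
theorem descent {x : SpecialLinearGroup (Fin n) F} (hx : x ∈ H)
    (hxv : (x : Matrix (Fin n) (Fin n) F) = vv n F) {m : ℕ} (hm : m + 1 < n)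
    (hD : ∀ j, j < n → j ≠ m + 1 → Om H (E n F j) (E n F (m + 1))) :
    ∀ j, j < n → j ≠ m → Om H (E n F j) (E n F m) := by
  intro j hj hjm
  by_cases hj1 : j = m + 1
  · subst hj1
    have h1 : Om H (E n F m + (-1 : F) • E n F (m + 2)) (E n F (m + 1)) := by
      by_cases h : m + 2 < n
      · refine (hD m (by omega) (by omega)).add_center
          ((hD (m + 2) h (by omega)).smul_center (-1)) ?_
        rw [dotProduct_smul, E_dot_E_ne (by omega)]
        simp
      · rw [E_eq_zero (by omega : n ≤ m + 2)]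
        simpa using hD m (by omega) (by omega)
    have h2 : Om H (E n F m + (-1 : F) • E n F (m + 1)) (E n F (m + 1) + E n F m) := by
      refine h1.conj_inv hx ?_ ?_
      · rw [hxv, Matrix.mulVec_add, Matrix.mulVec_smul, vv_mulVec, vv_mulVec]
        ext i
        simp
      · rw [hxv, vecMul_vv hm]
    obtain ⟨g, hg, hgm⟩ := hD m (by omega) (by omega) 1
    have h3 : Om H ((-1 : F) • E n F (m + 1)) (E n F m) := by
      refine h2.conj hg ?_ ?_
      · rw [hgm, Matrix.add_mulVec, Matrix.one_mulVec, Matrix.smul_mulVec, vecMulVec_mulVec,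
          dotProduct_add, dotProduct_smul, E_dot_E_ne (by omega), E_dot_E_self hm]
        ext i
        simp
      · rw [hgm, Matrix.vecMul_add, Matrix.vecMul_one, Matrix.vecMul_smul, vecMul_vecMulVec,
          E_dot_E_self (by omega)]
        ext i
        simp [add_comm]
    exact h3.of_smul_center (by simp)
  · have h1 : Om H (E n F j + E n F (j + 1)) (E n F (m + 1)) := by
      by_cases h : j + 1 < n
      · exact (hD j hj hj1).add_center (hD (j + 1) h (by omega)) (E_dot_E_ne (by omega))
      · rw [E_eq_zero (by omega : n ≤ j + 1), add_zero]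
        exact hD j hj hj1
    have h2 : Om H (E n F j) (E n F (m + 1) + E n F m) := by
      refine h1.conj_inv hx ?_ ?_
      · rw [hxv, vv_mulVec]
      · rw [hxv, vecMul_vv hm]
    have h3 : Om H (E n F j) ((-1 : F) • E n F (m + 1)) := (hD j hj hj1).smul_axis (-1)
    have h4 := h2.add_axis h3 (by
      rw [add_dotProduct, E_dot_E_ne (by omega), E_dot_E_ne (by omega), add_zero])
    have h5 : E n F (m + 1) + E n F m + (-1 : F) • E n F (m + 1) = E n F m := by
      ext i
      simp
    rwa [h5] at h4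

theorem vecMulVec_E (i j : Fin n) :
    vecMulVec (E n F i.val) (E n F j.val) = Matrix.single i j 1 := by
  ext r c
  rw [vecMulVec_apply, E_apply, E_apply, Matrix.single_apply]
  by_cases h1 : i = r
  · subst h1
    by_cases h2 : j = c
    · subst h2
      simp
    · have : ¬ c.val = j.val := fun h => h2 (Fin.ext h.symm)
      simp [this, h2]
  · have : ¬ r.val = i.val := fun h => h1 (Fin.ext h.symm)
    simp [this, h1]

/-- A subgroup containing `vv` and a full last column is everything. -/
theorem top_of_column {x : SpecialLinearGroup (Fin n) F} (hx : x ∈ H)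
    (hxv : (x : Matrix (Fin n) (Fin n) F) = vv n F) (hn : 1 ≤ n)
    (hC : ∀ j, j < n → j ≠ n - 1 → Om H (E n F j) (E n F (n - 1))) : H = ⊤ := by
  have key : ∀ k, k < n → ∀ j, j < n → j ≠ n - 1 - k → Om H (E n F j) (E n F (n - 1 - k)) := by
    intro k
    induction k with
    | zero =>
      intro _
      simpa using hC
    | succ k ih =>
      intro hk
      have h1 := ih (by omega)
      have e : n - 1 - k = (n - 1 - (k + 1)) + 1 := by omega
      rw [e] at h1
      exact descent hx hxv (by omega) h1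
  have all : ∀ i j : Fin n, i ≠ j → Om H (E n F i.val) (E n F j.val) := by
    intro i j hij
    have hj := j.2
    have := key (n - 1 - j.val) (by omega) i.val i.2 (by
      have : n - 1 - (n - 1 - j.val) = j.val := by omega
      rw [this]
      exact fun h => hij (Fin.ext h))
    have e : n - 1 - (n - 1 - j.val) = j.val := by omega
    rwa [e] at this
  apply Cfsg.Agent.Lib.SLGen.eq_top_of_forall_transvection_mem
  intro i j hij c
  obtain ⟨g, hg, hgm⟩ := all i j hij c
  have : g = SpecialLinearGroup.transvection hij c := by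
    apply Subtype.ext
    rw [hgm, vecMulVec_E, Matrix.smul_single]
    simp
    rfl
  rwa [← this]

/-- The last column from its first entry. -/
theorem column {x : SpecialLinearGroup (Fin n) F} (hx : x ∈ H)
    (hxv : (x : Matrix (Fin n) (Fin n) F) = vv n F) (hn : 1 ≤ n)
    (h0 : Om H (E n F 0) (E n F (n - 1))) :
    ∀ j, j < n → j ≠ n - 1 → Om H (E n F j) (E n F (n - 1)) := by
  intro j
  induction j with
  | zero => exact fun _ _ => h0
  | succ j ih =>
    intro h1 h2
    have h3 := ih (by omega) (by omega)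
    have h4 : Om H (E n F j + E n F (j + 1)) (phi n F) := by
      refine h3.conj hx ?_ ?_
      · rw [hxv, vv_mulVec]
      · rw [hxv, phi_vecMul hn]
    have h5 : phi n F ⬝ᵥ (E n F j + E n F (j + 1)) = 0 := by
      rw [← vv_mulVec, dotProduct_mulVec, phi_vecMul hn, E_dot_E_ne (by omega)]
    have h6 : E n F (n - 1) ⬝ᵥ (E n F j + E n F (j + 1)) = 0 := by
      rw [dotProduct_add, E_dot_E_ne (by omega), E_dot_E_ne (by omega), add_zero]
    have h7 : Om H (E n F j + E n F (j + 1)) (E n F (n - 1)) :=
      h0.comm (h4 1) (E_dot_E_ne (by omega)) h5 h6 (phi_zero hn)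
    have h8 := h7.add_center (h3.smul_center (-1)) (by
      rw [dotProduct_smul, E_dot_E_ne (by omega)]
      simp)
    have h9 : E n F j + E n F (j + 1) + (-1 : F) • E n F j = E n F (j + 1) := by
      ext i
      simp
    rwa [h9] at h8

/-- The field-generation step. -/
theorem root_full [Fintype F] {x y : SpecialLinearGroup (Fin n) F} (hx : x ∈ H)
    (hxv : (x : Matrix (Fin n) (Fin n) F) = vv n F) (hy : y ∈ H) (hn : 3 ≤ n) {μ ξ : F}
    (hy0 : (y : Matrix (Fin n) (Fin n) F) *ᵥ E n F 0 = E n F 0)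
    (hy1 : (y : Matrix (Fin n) (Fin n) F) *ᵥ E n F 1 = E n F 1 + μ • E n F 0)
    (hyl : E n F (n - 1) ᵥ* (y : Matrix (Fin n) (Fin n) F) = E n F (n - 1))
    (hμ : -μ * (phi n F ⬝ᵥ E n F 0) = ξ) (hξ : ∀ s : F, s ≠ 0 → ∃ k : ℕ, ξ ^ k = s)
    (h1 : Par H (E n F 0) (E n F (n - 1)) 1) : Om H (E n F 0) (E n F (n - 1)) := by
  have key : ∀ s s' : F, Par H (E n F 0) (E n F (n - 1)) s → Par H (E n F 0) (E n F (n - 1)) s' →
      Par H (E n F 0) (E n F (n - 1)) (ξ * s * s') := by
    intro s s' hs hs'
    have ha : (vv n F) *ᵥ E n F 0 = E n F 0 + E n F 1 := vv_mulVec 0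
    have h2 : Par H (E n F 0 + E n F 1) (phi n F) s' := by
      refine hs'.conj hx ?_ ?_
      · rw [hxv, ha]
      · rw [hxv, phi_vecMul (by omega)]
    have h3 : phi n F ⬝ᵥ (E n F 0 + E n F 1) = 0 := by
      rw [← ha, dotProduct_mulVec, phi_vecMul (by omega), E_dot_E_ne (by omega)]
    have h4 : E n F (n - 1) ⬝ᵥ (E n F 0 + E n F 1) = 0 := by
      rw [dotProduct_add, E_dot_E_ne (by omega), E_dot_E_ne (by omega), add_zero]
    have h5 := hs.comm h2 (E_dot_E_ne (by omega)) h3 h4
    set r := -(s * s' * (phi n F ⬝ᵥ E n F 0)) with hr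
    have h6 : Par H (E n F 0 + E n F 1 + μ • E n F 0) (E n F (n - 1)) r := by
      refine h5.conj hy ?_ hyl
      rw [Matrix.mulVec_add, hy0, hy1]
      ext i
      simp
      ring
    have h7 : Par H ((-1 : F) • (E n F 0 + E n F 1)) (E n F (n - 1)) r := by
      apply Par.smul_center
      have := h5.neg h4
      rwa [show (-1 : F) * r = -r by ring]
    have h8 := h6.add_center h7 (by
      rw [dotProduct_smul, h4]
      simp)
    have h9 : E n F 0 + E n F 1 + μ • E n F 0 + (-1 : F) • (E n F 0 + E n F 1) = μ • E n F 0 := by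
      ext i
      simp
      ring
    rw [h9] at h8
    have h10 := h8.of_smul_center
    have h11 : μ * r = ξ * s * s' := by
      rw [hr, ← hμ]
      ring
    rwa [h11] at h10
  have hpow : ∀ k : ℕ, Par H (E n F 0) (E n F (n - 1)) (ξ ^ k) := by
    intro k
    induction k with
    | zero => simpa using h1
    | succ k ih =>
      have := key _ _ ih h1
      rwa [show ξ * ξ ^ k * 1 = ξ ^ (k + 1) by ring] at this
  intro s
  by_cases hs : s = 0
  · subst hs
    exact ⟨1, H.one_mem, by simp⟩
  · obtain ⟨k, rfl⟩ := hξ s hs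
    exact hpow k

/-! ### The upper bidiagonal matrices -/

/-- The strictly upper bidiagonal part. -/
def MM (d : Fin n → F) : Matrix (Fin n) (Fin n) F :=
  fun i j => if j.val = i.val + 1 then d j / d i else 0

theorem MM_apply (d : Fin n → F) (i j : Fin n) :
    MM d i j = if j.val = i.val + 1 then d j / d i else 0 := rfl

/-- The upper bidiagonal unipotent matrix with entries `d_{i+1}/d_i`. -/
def uu (d : Fin n → F) : Matrix (Fin n) (Fin n) F := 1 + MM d

theorem uu_apply (d : Fin n → F) (i j : Fin n) :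
    uu d i j = (if i = j then 1 else 0) + (if j.val = i.val + 1 then d j / d i else 0) := by
  simp only [uu, Matrix.add_apply, Matrix.one_apply, MM_apply]

theorem det_uu (d : Fin n → F) : (uu d).det = 1 := by
  rw [Matrix.det_of_upperTriangular]
  · simp [uu_apply]
  · intro i j hij
    have hij' : j.val < i.val := hij
    rw [uu_apply, if_neg (by intro h; subst h; omega), if_neg (by omega), add_zero]

theorem uu_mulVec_zero (hn : 1 ≤ n) (d : Fin n → F) : uu d *ᵥ E n F 0 = E n F 0 := by
  ext i
  simp only [Matrix.mulVec]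
  rw [dot_E (by omega), uu_apply, E_apply]
  have h0 : ¬ ((⟨0, by omega⟩ : Fin n).val = i.val + 1) := by simp
  rw [if_neg h0, add_zero]
  by_cases h : i.val = 0
  · rw [if_pos (Fin.ext h), if_pos h]
  · rw [if_neg (fun e => h (by rw [e])), if_neg h]

theorem uu_mulVec_succ (d : Fin n → F) {k : ℕ} (hk : k + 1 < n) :
    uu d *ᵥ E n F (k + 1) =
      E n F (k + 1) + (d ⟨k + 1, hk⟩ / d ⟨k, by omega⟩) • E n F k := by
  ext i
  simp only [Matrix.mulVec, Pi.add_apply, Pi.smul_apply, smul_eq_mul]
  rw [dot_E hk, uu_apply, E_apply, E_apply]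
  congr 1
  · by_cases h : i.val = k + 1
    · rw [if_pos (Fin.ext h), if_pos h]
    · rw [if_neg (fun e => h (by rw [e])), if_neg h]
  · by_cases h : i.val = k
    · have e : i = ⟨k, by omega⟩ := Fin.ext h
      rw [e]
      simp
    · have : ¬ ((⟨k + 1, hk⟩ : Fin n).val = i.val + 1) := by simp; omega
      rw [if_neg this, if_neg h, mul_zero]

theorem vecMul_uu_succ (d : Fin n → F) {k : ℕ} (hk : k + 1 < n) :
    E n F k ᵥ* uu d = E n F k + (d ⟨k + 1, hk⟩ / d ⟨k, by omega⟩) • E n F (k + 1) := by
  ext j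
  simp only [Matrix.vecMul, Pi.add_apply, Pi.smul_apply, smul_eq_mul]
  rw [E_dot (by omega), uu_apply, E_apply, E_apply]
  congr 1
  · by_cases h : j.val = k
    · rw [if_pos (Fin.ext h.symm), if_pos h]
    · rw [if_neg (fun e => h (by rw [← e])), if_neg h]
  · by_cases h : j.val = k + 1
    · have e : j = ⟨k + 1, hk⟩ := Fin.ext h
      subst e
      simp
    · simp [h]

theorem vecMul_uu_last (hn : 1 ≤ n) (d : Fin n → F) : E n F (n - 1) ᵥ* uu d = E n F (n - 1) := by
  ext j
  simp only [Matrix.vecMul]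
  rw [E_dot (by omega), uu_apply, E_apply]
  have h0 : ¬ (j.val = (⟨n - 1, by omega⟩ : Fin n).val + 1) := by have := j.2; simp; omega
  rw [if_neg h0, add_zero]
  by_cases h : j.val = n - 1
  · rw [if_pos (Fin.ext h.symm), if_pos h]
  · rw [if_neg (fun e => h (by rw [← e])), if_neg h]

theorem MM_pow {d : Fin n → F} (hd : ∀ i, d i ≠ 0) (k : ℕ) (i j : Fin n) :
    (MM d ^ k) i j = if j.val = i.val + k then d j / d i else 0 := by
  induction k generalizing j with
  | zero =>
    rw [pow_zero, Matrix.one_apply]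
    by_cases h : i = j
    · subst h
      simp [hd i]
    · have h1 : ¬ j.val = i.val + 0 := fun e => h (Fin.ext (by omega))
      rw [if_neg h, if_neg h1]
  | succ k ih =>
    rw [pow_succ, Matrix.mul_apply]
    by_cases h : j.val = i.val + (k + 1)
    · have hl : i.val + k < n := by have := j.2; omega
      rw [if_pos h, Finset.sum_eq_single ⟨i.val + k, hl⟩]
      · rw [ih, if_pos rfl, MM_apply, if_pos (by simp; omega)]
        have h1 := hd i
        have h2 := hd (⟨i.val + k, hl⟩ : Fin n)
        field_simp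
      · intro b _ hb
        have : b.val ≠ i.val + k := fun e => hb (Fin.ext e)
        rw [ih, if_neg this, zero_mul]
      · simp
    · rw [if_neg h]
      apply Finset.sum_eq_zero
      intro l _
      rw [ih, MM_apply]
      by_cases h1 : l.val = i.val + k
      · rw [if_neg (by omega : ¬ j.val = l.val + 1), mul_zero]
      · rw [if_neg h1, zero_mul]

theorem MM_pow_n {d : Fin n → F} (hd : ∀ i, d i ≠ 0) : MM d ^ n = 0 := by
  ext i j
  rw [MM_pow hd, if_neg (by have := j.2; omega)]
  rfl

theorem MM_pow_ne {d : Fin n → F} (hd : ∀ i, d i ≠ 0) (hn : 1 ≤ n) : MM d ^ (n - 1) ≠ 0 := by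
  intro h
  have := congrFun (congrFun h ⟨0, by omega⟩) ⟨n - 1, by omega⟩
  rw [MM_pow hd, if_pos (by simp)] at this
  exact div_ne_zero (hd _) (hd _) this

/-! ### The conjugation -/

/-- The monomial matrix conjugating `uu d` to `vv`. -/
def PP (d : Fin n → F) : Matrix (Fin n) (Fin n) F := (diagonal d).submatrix Fin.revPerm id

theorem PP_apply (d : Fin n → F) (i j : Fin n) :
    PP d i j = if i = Fin.rev j then d j else 0 := by
  simp only [PP, Matrix.submatrix_apply, id, Matrix.diagonal_apply, Fin.revPerm_apply]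
  by_cases h : i = Fin.rev j
  · subst h
    simp
  · have : ¬ Fin.rev i = j := fun e => h (by rw [← e, Fin.rev_rev])
    simp [h, this]

theorem det_PP (d : Fin n → F) :
    (PP d).det = ((Equiv.Perm.sign (Fin.revPerm : Equiv.Perm (Fin n)) : ℤˣ) : ℤ) * ∏ i, d i := by
  rw [PP, Matrix.det_permute, Matrix.det_diagonal]

theorem PP_mul_uu (d : Fin n → F) (hd : ∀ i, d i ≠ 0) : PP d * uu d = vv n F * PP d := by
  ext i j
  rw [Matrix.mul_apply, Matrix.mul_apply, Finset.sum_eq_single (Fin.rev i),
    Finset.sum_eq_single (Fin.rev j)]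
  · rw [PP_apply, PP_apply, if_pos rfl, if_pos (by simp), uu_apply, vv_apply]
    simp only [Fin.val_rev, Fin.rev_rev]
    have hi := i.2
    have hj := j.2
    by_cases h1 : Fin.rev i = j
    · subst h1
      have e1 : ¬ (Fin.rev i).val = (Fin.rev i).val + 1 := by omega
      simp only [Fin.val_rev, Fin.rev_rev] at *
      have e2 : i.val = n - (n - (i.val + 1) + 1) := by omega
      have e3 : ¬ i.val = n - (n - (i.val + 1) + 1) + 1 := by omega
      have e4 : ¬ n - (i.val + 1) = n - (i.val + 1) + 1 := by omega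
      simp [e2.symm, e4, e3]
    · have e1 : ¬ i.val = n - (j.val + 1) := by
        intro e
        apply h1
        apply Fin.ext
        simp only [Fin.val_rev]
        omega
      rw [if_neg h1, zero_add, if_neg e1, zero_add]
      by_cases h2 : j.val = n - (i.val + 1) + 1
      · rw [if_pos h2, if_pos (by omega)]
        field_simp [hd (Fin.rev i)]
      · rw [if_neg h2, if_neg (by omega)]
        simp
  · intro b _ hb
    rw [PP_apply, if_neg (fun e => hb e), mul_zero]
  · simp
  · intro b _ hb
    rw [PP_apply, if_neg (fun e => hb (by rw [e, Fin.rev_rev])), zero_mul]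
  · simp

theorem coe_transvection {i j : Fin n} (hij : i ≠ j) (c : F) :
    ((SpecialLinearGroup.transvection hij c : SpecialLinearGroup (Fin n) F) : Matrix (Fin n) (Fin n) F) =
      1 + c • vecMulVec (E n F i.val) (E n F j.val) := by
  rw [vecMulVec_E, Matrix.smul_single]
  simp
  rfl

/-- The commutator of a transvection with `uu d`. -/
theorem comm_identity (d : Fin n → F) {k : ℕ} (hk : k + 1 < n) (hl : k + 1 = n - 1) (hk0 : k ≠ 0 ) {t : F}
    (ht : t * (d ⟨k + 1, hk⟩ / d ⟨k, by omega⟩) = 1) :
    uu d * (1 + (1 : F) • vecMulVec (E n F 0) (E n F (n - 1))) *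
      (1 + t • vecMulVec (E n F 0) (E n F k)) =
    (1 + t • vecMulVec (E n F 0) (E n F k)) * uu d := by
  set A := vecMulVec (E n F 0) (E n F k) with hA
  set B := vecMulVec (E n F 0) (E n F (n - 1)) with hB
  have h1 : uu d * A = A := by
    rw [hA, mul_vecMulVec, uu_mulVec_zero (by omega)]
  have h2 : uu d * B = B := by
    rw [hB, mul_vecMulVec, uu_mulVec_zero (by omega)]
  have e : E n F (k + 1) = E n F (n - 1) := by rw [hl]
  have h3 : A * uu d = A + (d ⟨k + 1, hk⟩ / d ⟨k, by omega⟩) • B := by
    rw [hA, hB, vecMulVec_mul, vecMul_uu_succ d hk, e, vecMulVec_add, vecMulVec_smul]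
  have h4 : B * A = 0 := by
    rw [hB, hA, vecMulVec_mul_vecMulVec, E_dot_E_ne (by omega)]
    simp
  simp only [one_smul, mul_add, add_mul, mul_one, one_mul, Matrix.mul_smul, Matrix.smul_mul, h1, h2, h3,
    h4, smul_zero, add_zero, smul_add, smul_smul, ht]
  abel

/-- `SL_n(F)`, `n ≥ 3`, is generated by three conjugate regular unipotent elements. -/
theorem main [Fintype F] (n : ℕ) (hn : 3 ≤ n) :
    ∃ u g h : SpecialLinearGroup (Fin n) F,
      (IsNilpotent ((u : Matrix (Fin n) (Fin n) F) - 1) ∧
        ((u : Matrix (Fin n) (Fin n) F) - 1) ^ (n - 1) ≠ 0) ∧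
      Subgroup.closure ({u, g * u * g⁻¹, h * u * h⁻¹} : Set (SpecialLinearGroup (Fin n) F)) = ⊤ := by
  classical
  obtain ⟨ξ0, hξ0⟩ := IsCyclic.exists_generator (α := Fˣ)
  have hξ : ∀ s : F, s ≠ 0 → ∃ k : ℕ, ((ξ0 : Fˣ) : F) ^ k = s := by
    intro s hs
    obtain ⟨k, hk⟩ := (mem_powers_iff_mem_zpowers).mpr (hξ0 (Units.mk0 s hs))
    refine ⟨k, ?_⟩
    have := congrArg Units.val hk
    simpa using this
  set ξ : F := ξ0.val with hξdef
  have hξ00 : ξ ≠ 0 := ξ0.ne_zero
  set κ := phi n F ⬝ᵥ E n F 0 with hκ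
  have hκ0 : κ ≠ 0 := phi_zero (by omega)
  set μ : F := -ξ / κ with hμdef
  have hμ0 : μ ≠ 0 := div_ne_zero (neg_ne_zero.mpr hξ00) hκ0
  have hμ : -μ * κ = ξ := by
    rw [hμdef]
    field_simp
  set ε : F := (((Equiv.Perm.sign (Fin.revPerm : Equiv.Perm (Fin n)) : ℤˣ) : ℤ) : F) with hεdef
  have hε : ε * ε = 1 := by
    rcases Int.units_eq_one_or (Equiv.Perm.sign (Fin.revPerm : Equiv.Perm (Fin n))) with h | h <;>
      simp [hεdef, h]
  have hε0 : ε ≠ 0 := left_ne_zero_of_mul_eq_one hε
  let d : Fin n → F := fun i => (if i.val = 1 then μ else 1) * (if i.val = 2 then ε / μ else 1)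
  have hd : ∀ i, d i ≠ 0 := by
    intro i
    apply mul_ne_zero
    · split_ifs
      · exact hμ0
      · exact one_ne_zero
    · split_ifs
      · exact div_ne_zero hε0 hμ0
      · exact one_ne_zero
  have hprod : ∏ i, d i = ε := by
    simp only [d, Finset.prod_mul_distrib]
    have h1 : ∏ i : Fin n, (if i.val = 1 then μ else 1) = μ := by
      have : ∀ i : Fin n, (if i.val = 1 then μ else 1) = if i = ⟨1, by omega⟩ then μ else 1 := by
        intro i
        simp only [Fin.ext_iff]
      simp only [this, Finset.prod_ite_eq', Finset.mem_univ, if_true]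
    have h2 : ∏ i : Fin n, (if i.val = 2 then ε / μ else 1) = ε / μ := by
      have : ∀ i : Fin n, (if i.val = 2 then ε / μ else 1) = if i = ⟨2, by omega⟩ then ε / μ else 1 := by
        intro i
        simp only [Fin.ext_iff]
      simp only [this, Finset.prod_ite_eq', Finset.mem_univ, if_true]
    rw [h1, h2]
    field_simp
  have d0 : d ⟨0, by omega⟩ = 1 := by simp [d]
  have d1 : d ⟨0 + 1, by omega⟩ = μ := by simp [d]
  let u : SpecialLinearGroup (Fin n) F := ⟨uu d, det_uu d⟩
  let v : SpecialLinearGroup (Fin n) F := ⟨vv n F, det_vv⟩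
  let g : SpecialLinearGroup (Fin n) F := ⟨PP d, by rw [det_PP, hprod]; exact hε⟩
  have hgu : g * u * g⁻¹ = v := by
    rw [mul_inv_eq_iff_eq_mul]
    exact Subtype.ext (PP_mul_uu d hd)
  have hk : n - 2 + 1 < n := by omega
  have hl : n - 2 + 1 = n - 1 := by omega
  set b : F := d ⟨n - 2 + 1, hk⟩ / d ⟨n - 2, by omega⟩ with hb
  have hb0 : b ≠ 0 := div_ne_zero (hd _) (hd _)
  have hij1 : (⟨0, by omega⟩ : Fin n) ≠ ⟨n - 2, by omega⟩ := by
    intro e
    have := congrArg Fin.val e
    simp at this
    omega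
  have hij2 : (⟨0, by omega⟩ : Fin n) ≠ ⟨n - 1, by omega⟩ := by
    intro e
    have := congrArg Fin.val e
    simp at this
    omega
  let h : SpecialLinearGroup (Fin n) F := SpecialLinearGroup.transvection hij1 (1 / b)
  let τ : SpecialLinearGroup (Fin n) F := SpecialLinearGroup.transvection hij2 1
  have hcomm : u * τ * h = h * u := by
    apply Subtype.ext
    show uu d * ((τ : SpecialLinearGroup (Fin n) F) : Matrix (Fin n) (Fin n) F) *
      ((h : SpecialLinearGroup (Fin n) F) : Matrix (Fin n) (Fin n) F) =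
      ((h : SpecialLinearGroup (Fin n) F) : Matrix (Fin n) (Fin n) F) * uu d
    rw [coe_transvection, coe_transvection]
    exact comm_identity d hk hl (by omega) (by rw [← hb]; field_simp)
  refine ⟨u, g, h, ⟨?_, ?_⟩, ?_⟩
  · have e : (u : Matrix (Fin n) (Fin n) F) - 1 = MM d := by
      show uu d - 1 = MM d
      simp [uu]
    rw [e]
    exact ⟨n, MM_pow_n hd⟩
  · have e : (u : Matrix (Fin n) (Fin n) F) - 1 = MM d := by
      show uu d - 1 = MM d
      simp [uu]
    rw [e]
    exact MM_pow_ne hd (by omega)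
  · set H := Subgroup.closure ({u, g * u * g⁻¹, h * u * h⁻¹} : Set (SpecialLinearGroup (Fin n) F)) with hH
    have huH : u ∈ H := Subgroup.subset_closure (by simp)
    have hvH : v ∈ H := by
      rw [← hgu]
      exact Subgroup.subset_closure (by simp)
    have hwH : h * u * h⁻¹ ∈ H := Subgroup.subset_closure (by simp)
    have hτH : τ ∈ H := by
      have e : τ = u⁻¹ * (h * u * h⁻¹) := by
        rw [← hcomm]
        group
      rw [e]
      exact H.mul_mem (H.inv_mem huH) hwH
    have hpar : Par H (E n F 0) (E n F (n - 1)) 1 := ⟨τ, hτH, coe_transvection hij2 1⟩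
    have hfull : Om H (E n F 0) (E n F (n - 1)) := by
      refine root_full hvH rfl huH hn (μ := μ) (ξ := ξ) ?_ ?_ ?_ hμ hξ hpar
      · exact uu_mulVec_zero (by omega) d
      · have := uu_mulVec_succ d (k := 0) (by omega)
        rw [d1, d0, div_one] at this
        exact this
      · exact vecMul_uu_last (by omega) d
    exact top_of_column hvH rfl (by omega) (column hvH rfl (by omega) hfull)

end Cfsg.Agent.Lib.RegThree
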