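import Mathlib
import Cfsg.Agent.Lib.RegThree

/-!
# `SL_n(F)`, `n ≥ 4`, is generated by two regular unipotent elements.

The elements are the lower bidiagonal matrix `u = vv` and `v = u⁻¹ z`, where `z = zM t s` is a
small explicit matrix.  A flag of row vectors shows that `v` is regular unipotent, a power of `z`
is a root element, and the calculus of root elements of `RootPar` concludes.
-/

set_option autoImplicit false
set_option linter.unusedSectionVars false
set_option linter.unusedSimpArgs false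
set_option linter.unusedVariables false

namespace Cfsg.Agent.Lib.RegTwo

open Matrix Cfsg.Agent.Lib.RootPar Cfsg.Agent.Lib.RegThree

variable {n : ℕ} {F : Type*} [Field F]

/-! ### Two extensionality principles -/

theorem mat_ext_col {A B : Matrix (Fin n) (Fin n) F}
    (h : ∀ k, k < n → A *ᵥ E n F k = B *ᵥ E n F k) : A = B := by
  ext i k
  have := congrFun (h k.val k.2) i
  simp only [Matrix.mulVec] at this
  rwa [dot_E k.2, dot_E k.2] at this

theorem mat_ext_row {A B : Matrix (Fin n) (Fin n) F}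
    (h : ∀ k, k < n → E n F k ᵥ* A = E n F k ᵥ* B) : A = B := by
  ext i k
  have := congrFun (h i.val i.2) k
  simp only [Matrix.vecMul] at this
  rwa [E_dot i.2, E_dot i.2] at this

/-! ### The flag lemma -/

section Flag

variable (β : ℕ → Fin n → F) (c : ℕ → F) (N : Matrix (Fin n) (Fin n) F)

/-- The span of the first `k` vectors. -/
def SS (k : ℕ) : Submodule F (Fin n → F) := Submodule.span F (β '' {j | j < k})

theorem SS_mono {j k : ℕ} (h : j ≤ k) : SS β j ≤ SS β k :=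
  Submodule.span_mono (Set.image_mono (fun _ hx => lt_of_lt_of_le hx h))

theorem beta_mem {j k : ℕ} (h : j < k) : β j ∈ SS β k := Submodule.subset_span ⟨j, h, rfl⟩

variable {β c N}

theorem flag_mem (h0 : β 0 ᵥ* N = 0)
    (hstep : ∀ i, i + 1 < n → ∃ ψ ∈ SS β i, β (i + 1) ᵥ* N = ψ + c i • β i) :
    ∀ j, j < n → β j ᵥ* N ∈ SS β j := by
  intro j hj
  cases j with
  | zero => rw [h0]; exact Submodule.zero_mem _
  | succ i =>
    obtain ⟨ψ, hψ, h⟩ := hstep i hj
    rw [h]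
    exact Submodule.add_mem _ (SS_mono β (by omega) hψ)
      (Submodule.smul_mem _ _ (beta_mem β (by omega)))

theorem flag_zero (hm : ∀ j, j < n → β j ᵥ* N ∈ SS β j) :
    ∀ k, k ≤ n → ∀ ψ ∈ SS β k, ψ ᵥ* N ^ k = 0 := by
  intro k
  induction k with
  | zero =>
    intro _ ψ hψ
    have : SS β 0 = ⊥ := by simp [SS]
    rw [this, Submodule.mem_bot] at hψ
    simp [hψ]
  | succ k ih =>
    intro hk ψ hψ
    induction hψ using Submodule.span_induction with
    | mem x hx =>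
      obtain ⟨j, hj, rfl⟩ := hx
      have hj' : j < k + 1 := hj
      rw [pow_succ', ← Matrix.vecMul_vecMul]
      exact ih (by omega) _ (SS_mono β (by omega) (hm j (by omega)))
    | zero => simp
    | add x y _ _ hx hy => rw [Matrix.add_vecMul, hx, hy, add_zero]
    | smul a x _ hx => rw [Matrix.smul_vecMul, hx, smul_zero]

theorem flag_diag (hm : ∀ j, j < n → β j ᵥ* N ∈ SS β j)
    (hstep : ∀ i, i + 1 < n → ∃ ψ ∈ SS β i, β (i + 1) ᵥ* N = ψ + c i • β i) :
    ∀ i, i < n → β i ᵥ* N ^ i = (∏ j ∈ Finset.range i, c j) • β 0 := by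
  intro i
  induction i with
  | zero => intro _; simp
  | succ i ih =>
    intro hi
    obtain ⟨ψ, hψ, h⟩ := hstep i hi
    rw [pow_succ', ← Matrix.vecMul_vecMul, h, Matrix.add_vecMul, Matrix.smul_vecMul,
      flag_zero hm i (by omega) ψ hψ, ih (by omega), zero_add, smul_smul, Finset.prod_range_succ,
      mul_comm]

/-- The matrix whose rows are the `β i`. -/
def RR (β : ℕ → Fin n → F) : Matrix (Fin n) (Fin n) F := Matrix.of fun i => β i.val

/-- The matrix whose columns are the `N ^ k e`. -/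
def PK (N : Matrix (Fin n) (Fin n) F) (e : Fin n → F) : Matrix (Fin n) (Fin n) F :=
  Matrix.of fun i k => (N ^ k.val *ᵥ e) i

theorem RR_mul_PK (e : Fin n → F) (i k : Fin n) :
    (RR β * PK N e) i k = (β i.val ᵥ* N ^ k.val) ⬝ᵥ e := by
  rw [← dotProduct_mulVec]
  rfl

theorem det_RR_mul_PK {e : Fin n → F} (h0 : β 0 ᵥ* N = 0)
    (hstep : ∀ i, i + 1 < n → ∃ ψ ∈ SS β i, β (i + 1) ᵥ* N = ψ + c i • β i)
    (he : β 0 ⬝ᵥ e = 1) :
    (RR β).det * (PK N e).det = ∏ i : Fin n, ∏ j ∈ Finset.range i.val, c j := by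
  have hm := flag_mem h0 hstep
  rw [← Matrix.det_mul, Matrix.det_of_lowerTriangular]
  · refine Finset.prod_congr rfl fun i _ => ?_
    rw [RR_mul_PK, flag_diag hm hstep i.val i.2, smul_dotProduct, he, smul_eq_mul, mul_one]
  · intro i k hik
    have hik' : i.val < k.val := hik
    rw [RR_mul_PK, flag_zero hm k.val k.2.le _ (beta_mem β hik'), zero_dotProduct]

theorem flag_RR_pow (h0 : β 0 ᵥ* N = 0)
    (hstep : ∀ i, i + 1 < n → ∃ ψ ∈ SS β i, β (i + 1) ᵥ* N = ψ + c i • β i) :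
    RR β * N ^ n = 0 := by
  have hm := flag_mem h0 hstep
  ext i k
  have : β i.val ᵥ* N ^ n = 0 := flag_zero hm n le_rfl _ (beta_mem β i.2)
  exact congrFun this k

theorem flag_pow_ne {e : Fin n → F} (hn : 1 ≤ n) (h0 : β 0 ᵥ* N = 0)
    (hstep : ∀ i, i + 1 < n → ∃ ψ ∈ SS β i, β (i + 1) ᵥ* N = ψ + c i • β i)
    (hc : ∀ j, c j ≠ 0) (he : β 0 ⬝ᵥ e = 1) : N ^ (n - 1) ≠ 0 := by
  intro h
  have hm := flag_mem h0 hstep
  have h1 := flag_diag hm hstep (n - 1) (by omega)
  rw [h, Matrix.vecMul_zero] at h1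
  have h2 : (∏ j ∈ Finset.range (n - 1), c j) ≠ 0 := Finset.prod_ne_zero_iff.mpr fun j _ => hc j
  have h3 : β 0 = 0 := by
    rcases smul_eq_zero.mp h1.symm with h4 | h4
    · exact absurd h4 h2
    · exact h4
  rw [h3, zero_dotProduct] at he
  exact zero_ne_one he

/-- The conjugation relation. -/
theorem one_add_mul_PK {e : Fin n → F} (hN : N ^ n = 0) :
    (1 + N) * PK N e = PK N e * vv n F := by
  have hcol : ∀ k, k < n → PK N e *ᵥ E n F k = N ^ k *ᵥ e := by
    intro k hk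
    ext i
    simp only [Matrix.mulVec]
    rw [dot_E hk]
    rfl
  apply mat_ext_col
  intro k hk
  rw [← Matrix.mulVec_mulVec, ← Matrix.mulVec_mulVec, hcol k hk, vv_mulVec, Matrix.mulVec_add,
    hcol k hk, Matrix.add_mulVec, Matrix.one_mulVec, Matrix.mulVec_mulVec, ← pow_succ']
  congr 1
  by_cases h : k + 1 < n
  · rw [hcol _ h]
  · have : k + 1 = n := by omega
    rw [this, hN, E_eq_zero le_rfl, Matrix.mulVec_zero, Matrix.zero_mulVec]

end Flag

/-! ### The matrix `zM` -/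

/-- The auxiliary matrix: columns `E0 ↦ E0`, `E1 ↦ E2`, `E2 ↦ (1-t)E0 - E1 + t E2`,
`E(n-1) ↦ E(n-1) + s E2 - s E0`, other `E k ↦ E k`. -/
def zM (n : ℕ) (F : Type*) [Field F] (t s : F) : Matrix (Fin n) (Fin n) F :=
  1 + vecMulVec (E n F 2 - E n F 1) (E n F 1)
    + vecMulVec ((1 - t) • E n F 0 - E n F 1 + (t - 1) • E n F 2) (E n F 2)
    + vecMulVec (s • E n F 2 - s • E n F 0) (E n F (n - 1))

theorem zM_mulVec (t s : F) (a : Fin n → F) :
    zM n F t s *ᵥ a = a + (E n F 1 ⬝ᵥ a) • (E n F 2 - E n F 1)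
      + (E n F 2 ⬝ᵥ a) • ((1 - t) • E n F 0 - E n F 1 + (t - 1) • E n F 2)
      + (E n F (n - 1) ⬝ᵥ a) • (s • E n F 2 - s • E n F 0) := by
  simp only [zM, Matrix.add_mulVec, Matrix.one_mulVec, vecMulVec_mulVec, op_smul_eq_smul]

theorem vecMul_zM (t s : F) (φ : Fin n → F) :
    φ ᵥ* zM n F t s = φ + (φ ⬝ᵥ (E n F 2 - E n F 1)) • E n F 1
      + (φ ⬝ᵥ ((1 - t) • E n F 0 - E n F 1 + (t - 1) • E n F 2)) • E n F 2
      + (φ ⬝ᵥ (s • E n F 2 - s • E n F 0)) • E n F (n - 1) := by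
  simp only [zM, Matrix.vecMul_add, Matrix.vecMul_one, vecMul_vecMulVec]

section Columns

variable (hn : 4 ≤ n) (t s : F)
include hn

theorem zM_E0 : zM n F t s *ᵥ E n F 0 = E n F 0 := by
  rw [zM_mulVec]
  simp (disch := omega) only [E_dot_E_ne, zero_smul, add_zero]

theorem zM_E1 : zM n F t s *ᵥ E n F 1 = E n F 2 := by
  rw [zM_mulVec]
  simp (disch := omega) only [E_dot_E_ne, E_dot_E_self, zero_smul, add_zero, one_smul]
  module

theorem zM_E2 : zM n F t s *ᵥ E n F 2 = (1 - t) • E n F 0 - E n F 1 + t • E n F 2 := by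
  rw [zM_mulVec]
  simp (disch := omega) only [E_dot_E_ne, E_dot_E_self, zero_smul, add_zero, one_smul]
  module

theorem zM_Elast : zM n F t s *ᵥ E n F (n - 1) = E n F (n - 1) + s • E n F 2 - s • E n F 0 := by
  rw [zM_mulVec]
  simp (disch := omega) only [E_dot_E_ne, E_dot_E_self, zero_smul, add_zero, one_smul]
  module

theorem zM_Eother {k : ℕ} (h0 : k ≠ 0) (h1 : k ≠ 1) (h2 : k ≠ 2) (hl : k ≠ n - 1) :
    zM n F t s *ᵥ E n F k = E n F k := by
  rw [zM_mulVec]
  simp (disch := omega) only [E_dot_E_ne, zero_smul, add_zero]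

theorem E0_zM : E n F 0 ᵥ* zM n F t s = E n F 0 + (1 - t) • E n F 2 - s • E n F (n - 1) := by
  rw [vecMul_zM]
  simp (disch := omega) only [E_dot_E_ne, E_dot_E_self, dotProduct_sub, dotProduct_add,
    dotProduct_smul, smul_eq_mul, mul_one, mul_zero, zero_smul, add_zero, sub_zero, zero_sub,
    zero_add, sub_self]
  module

theorem E1_zM : E n F 1 ᵥ* zM n F t s = -E n F 2 := by
  rw [vecMul_zM]
  simp (disch := omega) only [E_dot_E_ne, E_dot_E_self, dotProduct_sub, dotProduct_add,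
    dotProduct_smul, smul_eq_mul, mul_one, mul_zero, zero_smul, add_zero, sub_zero, zero_sub,
    zero_add, sub_self]
  module

theorem E2_zM : E n F 2 ᵥ* zM n F t s = E n F 1 + t • E n F 2 + s • E n F (n - 1) := by
  rw [vecMul_zM]
  simp (disch := omega) only [E_dot_E_ne, E_dot_E_self, dotProduct_sub, dotProduct_add,
    dotProduct_smul, smul_eq_mul, mul_one, mul_zero, zero_smul, add_zero, sub_zero, zero_sub,
    zero_add, sub_self]
  module

theorem E3_zM {l : ℕ} (hl : 3 ≤ l) : E n F l ᵥ* zM n F t s = E n F l := by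
  rw [vecMul_zM]
  simp (disch := omega) only [E_dot_E_ne, E_dot_E_self, dotProduct_sub, dotProduct_add,
    dotProduct_smul, smul_eq_mul, mul_one, mul_zero, zero_smul, add_zero, sub_zero, zero_sub,
    zero_add, sub_self]

end Columns

theorem det_zM (hn : 4 ≤ n) (t s : F) : (zM n F t s).det = 1 := by
  set a0 := E n F 2 - E n F 1 with ha0
  set a1 := (1 - t) • E n F 0 - E n F 1 + (t - 1) • E n F 2 with ha1
  set a2 := s • E n F 2 - s • E n F 0 with ha2
  let A : Matrix (Fin n) (Fin 3) F := Matrix.of fun i => ![a0 i, a1 i, a2 i]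
  let B : Matrix (Fin 3) (Fin n) F := Matrix.of ![E n F 1, E n F 2, E n F (n - 1)]
  have h : zM n F t s = 1 + A * B := by
    ext i j
    simp [zM, A, B, Matrix.mul_apply, Fin.sum_univ_three, vecMulVec_apply, ← ha0, ← ha1, ← ha2]
    ring
  have hBA : B * A = !![E n F 1 ⬝ᵥ a0, E n F 1 ⬝ᵥ a1, E n F 1 ⬝ᵥ a2;
      E n F 2 ⬝ᵥ a0, E n F 2 ⬝ᵥ a1, E n F 2 ⬝ᵥ a2;
      E n F (n - 1) ⬝ᵥ a0, E n F (n - 1) ⬝ᵥ a1, E n F (n - 1) ⬝ᵥ a2] := by
    ext i j
    fin_cases i <;> fin_cases j <;> rfl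
  have d00 : E n F 1 ⬝ᵥ a0 = -1 := by
    simp (disch := omega) only [ha0, E_dot_E_ne, E_dot_E_self, dotProduct_sub, dotProduct_add,
      dotProduct_smul, smul_eq_mul, mul_one, mul_zero, zero_sub, sub_zero, add_zero, zero_add]
  have d01 : E n F 1 ⬝ᵥ a1 = -1 := by
    simp (disch := omega) only [ha1, E_dot_E_ne, E_dot_E_self, dotProduct_sub, dotProduct_add,
      dotProduct_smul, smul_eq_mul, mul_one, mul_zero, zero_sub, sub_zero, add_zero, zero_add]
  have d02 : E n F 1 ⬝ᵥ a2 = 0 := by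
    simp (disch := omega) only [ha2, E_dot_E_ne, E_dot_E_self, dotProduct_sub, dotProduct_add,
      dotProduct_smul, smul_eq_mul, mul_one, mul_zero, zero_sub, sub_zero, add_zero, zero_add]
  have d10 : E n F 2 ⬝ᵥ a0 = 1 := by
    simp (disch := omega) only [ha0, E_dot_E_ne, E_dot_E_self, dotProduct_sub, dotProduct_add,
      dotProduct_smul, smul_eq_mul, mul_one, mul_zero, zero_sub, sub_zero, add_zero, zero_add]
  have d11 : E n F 2 ⬝ᵥ a1 = t - 1 := by
    simp (disch := omega) only [ha1, E_dot_E_ne, E_dot_E_self, dotProduct_sub, dotProduct_add,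
      dotProduct_smul, smul_eq_mul, mul_one, mul_zero, zero_sub, sub_zero, add_zero, zero_add]
  have d12 : E n F 2 ⬝ᵥ a2 = s := by
    simp (disch := omega) only [ha2, E_dot_E_ne, E_dot_E_self, dotProduct_sub, dotProduct_add,
      dotProduct_smul, smul_eq_mul, mul_one, mul_zero, zero_sub, sub_zero, add_zero, zero_add]
  have d20 : E n F (n - 1) ⬝ᵥ a0 = 0 := by
    simp (disch := omega) only [ha0, E_dot_E_ne, E_dot_E_self, dotProduct_sub, dotProduct_add,
      dotProduct_smul, smul_eq_mul, mul_one, mul_zero, zero_sub, sub_zero, add_zero, zero_add]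
  have d21 : E n F (n - 1) ⬝ᵥ a1 = 0 := by
    simp (disch := omega) only [ha1, E_dot_E_ne, E_dot_E_self, dotProduct_sub, dotProduct_add,
      dotProduct_smul, smul_eq_mul, mul_one, mul_zero, zero_sub, sub_zero, add_zero, zero_add]
  have d22 : E n F (n - 1) ⬝ᵥ a2 = 0 := by
    simp (disch := omega) only [ha2, E_dot_E_ne, E_dot_E_self, dotProduct_sub, dotProduct_add,
      dotProduct_smul, smul_eq_mul, mul_one, mul_zero, zero_sub, sub_zero, add_zero, zero_add]
  rw [h, Matrix.det_one_add_mul_comm, hBA, d00, d01, d02, d10, d11, d12, d20, d21, d22,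
    Matrix.det_fin_three]
  simp [Matrix.one_apply]

/-! ### The regular unipotent elements -/

theorem flag_regular {β : ℕ → Fin n → F} {c : ℕ → F} {N : Matrix (Fin n) (Fin n) F}
    {e : Fin n → F} (hn : 1 ≤ n) (h0 : β 0 ᵥ* N = 0)
    (hstep : ∀ i, i + 1 < n → ∃ ψ ∈ SS β i, β (i + 1) ᵥ* N = ψ + c i • β i)
    (hc : ∀ j, c j ≠ 0) (he : β 0 ⬝ᵥ e = 1) : N ^ n = 0 ∧ N ^ (n - 1) ≠ 0 := by
  refine ⟨?_, flag_pow_ne hn h0 hstep hc he⟩
  have h1 := det_RR_mul_PK h0 hstep he
  have h2 : (RR β).det ≠ 0 := by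
    intro h
    rw [h, zero_mul] at h1
    exact (Finset.prod_ne_zero_iff.mpr fun i _ => Finset.prod_ne_zero_iff.mpr fun j _ => hc j) h1.symm
  have h3 := flag_RR_pow h0 hstep
  have h4 : (RR β)⁻¹ * RR β = 1 := Matrix.nonsing_inv_mul _ (isUnit_iff_ne_zero.mpr h2)
  calc N ^ n = (RR β)⁻¹ * RR β * N ^ n := by rw [h4, one_mul]
    _ = 0 := by rw [mul_assoc, h3, mul_zero]

theorem E0_vv (hn : 1 ≤ n) : E n F 0 ᵥ* vv n F = E n F 0 := by
  ext j
  rw [vecMul_vv_apply, E_dot_E_ne (by omega : 0 ≠ j.val + 1), add_zero]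
  by_cases h : j.val = 0
  · rw [h, E_dot_E_self (by omega), E_apply, if_pos h]
  · rw [E_dot_E_ne (Ne.symm h), E_apply, if_neg h]

theorem vv_regular (hn : 1 ≤ n) :
    (vv n F - 1) ^ n = 0 ∧ (vv n F - 1) ^ (n - 1) ≠ 0 := by
  refine flag_regular (β := E n F) (c := fun _ => 1) (e := E n F 0) hn ?_ ?_ (fun _ => one_ne_zero)
    (E_dot_E_self (by omega))
  · rw [Matrix.vecMul_sub, E0_vv hn, Matrix.vecMul_one, sub_self]
  · intro i hi
    refine ⟨0, Submodule.zero_mem _, ?_⟩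
    rw [Matrix.vecMul_sub, vecMul_vv hi, Matrix.vecMul_one]
    simp

/-- The flag. -/
def beta (n : ℕ) (F : Type*) [Field F] (j : ℕ) : Fin n → F :=
  if j = 0 then E n F 0 + E n F 1 + E n F 2 else
    if j = 1 then E n F 2 else
      if j = n - 1 then -E n F 1 else E n F (j + 1)

/-- The subdiagonal coefficients. -/
def cc (n : ℕ) (F : Type*) [Field F] (s : F) (j : ℕ) : F :=
  if j = 0 then 1 else if j = n - 2 then -s else -1

theorem cc_ne {s : F} (hs : s ≠ 0) (j : ℕ) : cc n F s j ≠ 0 := by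
  unfold cc
  split_ifs
  · exact one_ne_zero
  · exact neg_ne_zero.mpr hs
  · exact neg_ne_zero.mpr one_ne_zero

theorem beta_zero : beta n F 0 = E n F 0 + E n F 1 + E n F 2 := by simp [beta]

theorem beta_one : beta n F 1 = E n F 2 := by simp [beta]

theorem beta_mid {j : ℕ} (h0 : j ≠ 0) (h1 : j ≠ 1) (hj : j ≠ n - 1) :
    beta n F j = E n F (j + 1) := by
  simp [beta, h0, h1, hj]

theorem beta_last (hn : 4 ≤ n) : beta n F (n - 1) = -E n F 1 := by
  rw [beta, if_neg (by omega), if_neg (by omega), if_pos rfl]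

/-- The element `u`. -/
def uS (n : ℕ) (F : Type*) [Field F] : SpecialLinearGroup (Fin n) F := ⟨vv n F, det_vv⟩

/-- The element `z`. -/
def zS (hn : 4 ≤ n) (t s : F) : SpecialLinearGroup (Fin n) F := ⟨zM n F t s, det_zM hn t s⟩

/-- The element `v`. -/
def vS (hn : 4 ≤ n) (t s : F) : SpecialLinearGroup (Fin n) F := (uS n F)⁻¹ * zS hn t s

theorem uS_mul_vS (hn : 4 ≤ n) (t s : F) : uS n F * vS hn t s = zS hn t s := by
  rw [vS, mul_inv_cancel_left]

/-- `v - 1`. -/
def Nm (hn : 4 ≤ n) (t s : F) : Matrix (Fin n) (Fin n) F := (vS hn t s : Matrix (Fin n) (Fin n) F) - 1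

theorem vv_mul_Nm (hn : 4 ≤ n) (t s : F) : vv n F * Nm hn t s = zM n F t s - vv n F := by
  have h := congrArg (fun x : SpecialLinearGroup (Fin n) F => (x : Matrix (Fin n) (Fin n) F))
    (uS_mul_vS hn t s)
  simp only [coe_mul'] at h
  have h1 : (uS n F : Matrix (Fin n) (Fin n) F) = vv n F := rfl
  have h2 : (zS hn t s : Matrix (Fin n) (Fin n) F) = zM n F t s := rfl
  rw [h1, h2] at h
  rw [Nm, mul_sub, h, mul_one]

theorem row_rel (hn : 4 ≤ n) (t s : F) (φ : Fin n → F) :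
    (φ ᵥ* vv n F) ᵥ* Nm hn t s = φ ᵥ* zM n F t s - φ ᵥ* vv n F := by
  rw [Matrix.vecMul_vecMul, vv_mul_Nm, Matrix.vecMul_sub]

section Rows

variable (hn : 4 ≤ n) (t s : F)
include hn

theorem N0 : E n F 0 ᵥ* Nm hn t s = (1 - t) • E n F 2 - s • E n F (n - 1) := by
  have h := row_rel hn t s (E n F 0)
  rw [E0_vv (by omega), E0_zM hn] at h
  rw [h]
  module

theorem N1 : E n F 1 ᵥ* Nm hn t s =
    -E n F 0 - E n F 1 - (2 - t) • E n F 2 + s • E n F (n - 1) := by
  have h := row_rel hn t s (E n F 1)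
  rw [vecMul_vv (m := 0) (by omega), E1_zM hn, Matrix.add_vecMul, N0 hn, zero_add] at h
  rw [eq_sub_of_add_eq h]
  module

theorem N2 : E n F 2 ᵥ* Nm hn t s = E n F 0 + E n F 1 + E n F 2 := by
  have h := row_rel hn t s (E n F 2)
  rw [vecMul_vv (m := 1) (by omega), E2_zM hn, Matrix.add_vecMul, N1 hn] at h
  rw [eq_sub_of_add_eq h]
  module

theorem N3 : E n F 3 ᵥ* Nm hn t s = -E n F 0 - E n F 1 - (2 : F) • E n F 2 := by
  have h := row_rel hn t s (E n F 3)
  rw [vecMul_vv (m := 2) (by omega), E3_zM hn t s le_rfl, Matrix.add_vecMul, N2 hn] at h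
  rw [eq_sub_of_add_eq h]
  module

theorem Nsucc {l : ℕ} (hl : 3 ≤ l) (hl' : l + 1 < n) :
    E n F (l + 1) ᵥ* Nm hn t s = -(E n F l ᵥ* Nm hn t s) - E n F l := by
  have h := row_rel hn t s (E n F (l + 1))
  rw [vecMul_vv hl', E3_zM hn t s (by omega), Matrix.add_vecMul] at h
  rw [eq_sub_of_add_eq h]
  module

theorem beta0_N : beta n F 0 ᵥ* Nm hn t s = 0 := by
  rw [beta_zero, Matrix.add_vecMul, Matrix.add_vecMul, N0 hn, N1 hn, N2 hn]
  module

theorem E_mem : ∀ l, 3 ≤ l → l < n → E n F l ᵥ* Nm hn t s ∈ SS (beta n F) (l - 1) := by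
  intro l hl
  induction l, hl using Nat.le_induction with
  | base =>
    intro _
    rw [N3 hn]
    have e : -E n F 0 - E n F 1 - (2 : F) • E n F 2 =
        (-1 : F) • beta n F 0 + (-1 : F) • beta n F 1 := by
      rw [beta_zero, beta_one]
      module
    rw [e]
    exact Submodule.add_mem _ (Submodule.smul_mem _ _ (beta_mem _ (by omega)))
      (Submodule.smul_mem _ _ (beta_mem _ (by omega)))
  | succ l hl ih =>
    intro hl'
    rw [Nsucc hn t s hl hl']
    have h1 : E n F l = beta n F (l - 1) := by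
      rw [beta_mid (by omega) (by omega) (by omega)]
      congr 1
      omega
    have e : l + 1 - 1 = l := by omega
    rw [e]
    refine Submodule.sub_mem _ (Submodule.neg_mem _ (SS_mono _ (by omega) (ih (by omega)))) ?_
    rw [h1]
    exact beta_mem _ (by omega)

theorem beta_step : ∀ i, i + 1 < n →
    ∃ ψ ∈ SS (beta n F) i, beta n F (i + 1) ᵥ* Nm hn t s = ψ + cc n F s i • beta n F i := by
  intro i hi
  by_cases h0 : i = 0
  · subst h0
    refine ⟨0, Submodule.zero_mem _, ?_⟩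
    show beta n F 1 ᵥ* Nm hn t s = 0 + cc n F s 0 • beta n F 0
    rw [beta_one, N2 hn, beta_zero, cc, if_pos rfl, one_smul, zero_add]
  by_cases h1 : i = 1
  · subst h1
    refine ⟨(-1 : F) • beta n F 0, Submodule.smul_mem _ _ (beta_mem _ (by omega)), ?_⟩
    have e : beta n F (1 + 1) = E n F 3 := by
      rw [beta_mid (by omega) (by omega) (by omega)]
    rw [e, N3 hn, beta_zero, beta_one, cc, if_neg (by omega), if_neg (by omega)]
    module
  by_cases h2 : i + 1 = n - 1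
  · refine ⟨beta n F 0 + (1 - t) • beta n F 1, Submodule.add_mem _ (beta_mem _ (by omega))
      (Submodule.smul_mem _ _ (beta_mem _ (by omega))), ?_⟩
    have e : E n F (i + 1) = E n F (n - 1) := by rw [h2]
    rw [h2, beta_last hn, Matrix.neg_vecMul, N1 hn, beta_zero, beta_one,
      beta_mid h0 h1 (by omega), e, cc, if_neg h0, if_pos (by omega)]
    module
  · refine ⟨-(E n F (i + 1) ᵥ* Nm hn t s), Submodule.neg_mem _ ?_, ?_⟩
    · have := E_mem hn t s (i + 1) (by omega) (by omega)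
      simpa using this
    · rw [beta_mid (by omega) (by omega) h2, Nsucc hn t s (by omega) (by omega),
        beta_mid h0 h1 (by omega), cc, if_neg h0, if_neg (by omega)]
      module

theorem beta0_E0 : beta n F 0 ⬝ᵥ E n F 0 = 1 := by
  rw [beta_zero]
  simp (disch := omega) only [add_dotProduct, E_dot_E_ne, E_dot_E_self, add_zero, zero_add]

theorem Nm_regular (hs : s ≠ 0) : Nm hn t s ^ n = 0 ∧ Nm hn t s ^ (n - 1) ≠ 0 :=
  flag_regular (by omega) (beta0_N hn t s) (beta_step hn t s) (cc_ne hs) (beta0_E0 hn)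

theorem det_formula :
    (RR (beta n F)).det * (PK (Nm hn t s) (E n F 0)).det =
      ∏ i : Fin n, ∏ j ∈ Finset.range i.val, cc n F s j :=
  det_RR_mul_PK (beta0_N hn t s) (beta_step hn t s) (beta0_E0 hn)

end Rows

theorem DD_eq (hn : 4 ≤ n) (s : F) :
    ∏ i : Fin n, ∏ j ∈ Finset.range i.val, cc n F s j =
      s * ∏ i : Fin n, ∏ j ∈ Finset.range i.val, cc n F 1 j := by
  obtain ⟨m, rfl⟩ : ∃ m, n = m + 2 := ⟨n - 2, by omega⟩
  have hcc : ∀ j, j < m → cc (m + 2) F s j = cc (m + 2) F 1 j := by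
    intro j hj
    unfold cc
    have h : ¬ j = m + 2 - 2 := by omega
    rw [if_neg h, if_neg h]
  have hm : cc (m + 2) F s m = -s := by
    unfold cc
    rw [if_neg (by omega), if_pos (by omega)]
  have hm1 : cc (m + 2) F 1 m = -1 := by
    unfold cc
    rw [if_neg (by omega), if_pos (by omega)]
  have key : ∀ c : ℕ → F, ∏ i ∈ Finset.range (m + 2), ∏ j ∈ Finset.range i, c j =
      (∏ i ∈ Finset.range (m + 1), ∏ j ∈ Finset.range i, c j) *
        ((∏ j ∈ Finset.range m, c j) * c m) := by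
    intro c
    rw [Finset.prod_range_succ _ (m + 1), Finset.prod_range_succ c m]
  rw [Fin.prod_univ_eq_prod_range (fun i => ∏ j ∈ Finset.range i, cc (m + 2) F s j) (m + 2),
    Fin.prod_univ_eq_prod_range (fun i => ∏ j ∈ Finset.range i, cc (m + 2) F 1 j) (m + 2),
    key, key, hm, hm1]
  have h1 : ∏ i ∈ Finset.range (m + 1), ∏ j ∈ Finset.range i, cc (m + 2) F s j =
      ∏ i ∈ Finset.range (m + 1), ∏ j ∈ Finset.range i, cc (m + 2) F 1 j := by
    refine Finset.prod_congr rfl fun i hi => Finset.prod_congr rfl fun j hj => hcc j ?_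
    have := Finset.mem_range.mp hi
    have := Finset.mem_range.mp hj
    omega
  have h2 : ∏ j ∈ Finset.range m, cc (m + 2) F s j = ∏ j ∈ Finset.range m, cc (m + 2) F 1 j :=
    Finset.prod_congr rfl fun j hj => hcc j (Finset.mem_range.mp hj)
  rw [h1, h2]
  ring

theorem DD_ne (n : ℕ) : (∏ i : Fin n, ∏ j ∈ Finset.range i.val, cc n F 1 j) ≠ 0 :=
  Finset.prod_ne_zero_iff.mpr fun _ _ => Finset.prod_ne_zero_iff.mpr fun j _ => cc_ne one_ne_zero j

theorem det_RR_ne (hn : 4 ≤ n) : (RR (beta n F)).det ≠ 0 := by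
  intro h
  have := det_formula hn (0 : F) (1 : F)
  rw [h, zero_mul] at this
  exact DD_ne n this.symm

/-- For a suitable `s`, the element `v` is conjugate to `u` in `SL`. -/
theorem exists_conj (hn : 4 ≤ n) (t : F) : ∃ s : F, s ≠ 0 ∧ ∃ g : SpecialLinearGroup (Fin n) F,
    g * uS n F * g⁻¹ = vS hn t s := by
  have hR := det_RR_ne (F := F) hn
  have hD := DD_ne (F := F) n
  set D := ∏ i : Fin n, ∏ j ∈ Finset.range i.val, cc n F 1 j with hDdef
  refine ⟨(RR (beta n F)).det / D, div_ne_zero hR hD, ?_⟩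
  set s := (RR (beta n F)).det / D with hs
  have hs0 : s ≠ 0 := div_ne_zero hR hD
  have h1 := det_formula hn t s
  rw [DD_eq hn, ← hDdef, hs, div_mul_cancel₀ _ hD] at h1
  have h2 : (PK (Nm hn t s) (E n F 0)).det = 1 := by
    rw [← hs] at h1
    exact mul_left_cancel₀ hR (by rw [h1, mul_one])
  let g : SpecialLinearGroup (Fin n) F := ⟨PK (Nm hn t s) (E n F 0), h2⟩
  refine ⟨g, ?_⟩
  rw [mul_inv_eq_iff_eq_mul]
  apply Subtype.ext
  have h3 := one_add_mul_PK (e := E n F 0) (Nm_regular hn t s hs0).1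
  rw [coe_mul', coe_mul']
  have h4 : 1 + Nm hn t s = (vS hn t s : Matrix (Fin n) (Fin n) F) := by
    rw [Nm]
    abel
  rw [h4] at h3
  exact h3.symm

/-! ### Powers of `z` -/

section Powers

variable (hn : 4 ≤ n) (t s : F)
include hn

theorem pow_fix {A : Matrix (Fin n) (Fin n) F} {a : Fin n → F} (h : A *ᵥ a = a) (i : ℕ) :
    A ^ i *ᵥ a = a := by
  induction i with
  | zero => simp
  | succ i ih => rw [pow_succ, ← Matrix.mulVec_mulVec, h, ih]

theorem zM_pow_last (i : ℕ) :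
    zM n F t s ^ i *ᵥ E n F (n - 1) =
      E n F (n - 1) + s • ∑ j ∈ Finset.range i, zM n F t s ^ j *ᵥ (E n F 2 - E n F 0) := by
  induction i with
  | zero => simp
  | succ i ih =>
    rw [pow_succ, ← Matrix.mulVec_mulVec, zM_Elast hn]
    have e : E n F (n - 1) + s • E n F 2 - s • E n F 0 =
        E n F (n - 1) + s • (E n F 2 - E n F 0) := by module
    rw [e, Matrix.mulVec_add, Matrix.mulVec_smul, ih, Finset.sum_range_succ]
    module

theorem zM_sum_E2 (i : ℕ) :
    ∑ j ∈ Finset.range i, zM n F t s ^ j *ᵥ E n F 2 =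
      zM n F t s *ᵥ ∑ j ∈ Finset.range i, zM n F t s ^ j *ᵥ E n F 1 := by
  rw [Matrix.mulVec_sum]
  refine Finset.sum_congr rfl fun j _ => ?_
  rw [Matrix.mulVec_mulVec, ← pow_succ', pow_succ, ← Matrix.mulVec_mulVec, zM_E1 hn]

theorem zM_pow_root {m : ℕ} {δ : F} (h1 : zM n F t s ^ m *ᵥ E n F 1 = E n F 1)
    (hsum : ∑ j ∈ Finset.range m, zM n F t s ^ j *ᵥ E n F 1 = δ • E n F 0) :
    zM n F t s ^ m = 1 + (s * (δ - m)) • vecMulVec (E n F 0) (E n F (n - 1)) := by
  apply mat_ext_col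
  intro k hk
  have hr : (1 + (s * (δ - m)) • vecMulVec (E n F 0) (E n F (n - 1))) *ᵥ E n F k =
      E n F k + ((s * (δ - m)) * (E n F (n - 1) ⬝ᵥ E n F k)) • E n F 0 := by
    rw [Matrix.add_mulVec, Matrix.one_mulVec, Matrix.smul_mulVec, vecMulVec_mulVec, op_smul_eq_smul,
      smul_smul]
  rw [hr]
  by_cases h0 : k = 0
  · subst h0
    rw [pow_fix hn (zM_E0 hn t s), E_dot_E_ne (by omega)]
    simp
  by_cases h11 : k = 1
  · subst h11
    rw [h1, E_dot_E_ne (by omega)]
    simp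
  by_cases h2 : k = 2
  · subst h2
    have e : zM n F t s ^ m *ᵥ E n F 2 = E n F 2 := by
      rw [← zM_E1 hn t s, Matrix.mulVec_mulVec, ← pow_succ, pow_succ', ← Matrix.mulVec_mulVec, h1]
    rw [e, E_dot_E_ne (by omega)]
    simp
  by_cases hl : k = n - 1
  · subst hl
    rw [zM_pow_last hn, E_dot_E_self hk]
    have e : ∑ j ∈ Finset.range m, zM n F t s ^ j *ᵥ (E n F 2 - E n F 0) =
        (δ - m) • E n F 0 := by
      simp only [Matrix.mulVec_sub, pow_fix hn (zM_E0 hn t s), Finset.sum_sub_distrib]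
      rw [zM_sum_E2 hn, hsum, Matrix.mulVec_smul, zM_E0 hn, Finset.sum_const, Finset.card_range,
        sub_smul, Nat.cast_smul_eq_nsmul]
    rw [e, mul_one, smul_smul]
  · rw [pow_fix hn (zM_Eother hn t s h0 h11 h2 hl), E_dot_E_ne (by omega)]
    simp

end Powers

/-! ### Root elements -/

section Root

variable {H : Subgroup (SpecialLinearGroup (Fin n) F)}

theorem coe_pow' (x : SpecialLinearGroup (Fin n) F) (i : ℕ) :
    ((x ^ i : SpecialLinearGroup (Fin n) F) : Matrix (Fin n) (Fin n) F) =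
      (x : Matrix (Fin n) (Fin n) F) ^ i :=
  Matrix.SpecialLinearGroup.coe_pow x i

theorem par_add_param {a φ : Fin n → F} {r r' : F} (h : Par H a φ r) (h' : Par H a φ r')
    (hd : φ ⬝ᵥ a = 0) : Par H a φ (r + r') := by
  obtain ⟨g, hg, hgm⟩ := h
  obtain ⟨g', hg', hgm'⟩ := h'
  refine ⟨g * g', H.mul_mem hg hg', ?_⟩
  rw [coe_mul', hgm, hgm']
  simp only [add_mul, mul_add, one_mul, mul_one, Matrix.smul_mul, Matrix.mul_smul,
    vecMulVec_mul_vecMulVec, hd, zero_smul, smul_zero, add_zero, add_smul, vecMulVec_zero]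
  abel

theorem Par_sum {z : SpecialLinearGroup (Fin n) F} (hz : z ∈ H) {φ a : Fin n → F} {r : F}
    (hφ : φ ᵥ* (z : Matrix (Fin n) (Fin n) F) = φ) (hφa : φ ⬝ᵥ a = 0) (h : Par H a φ r) (m : ℕ) :
    Par H (∑ i ∈ Finset.range m, (z : Matrix (Fin n) (Fin n) F) ^ i *ᵥ a) φ r := by
  have hpow : ∀ i : ℕ, φ ᵥ* (z : Matrix (Fin n) (Fin n) F) ^ i = φ := by
    intro i
    induction i with
    | zero => simp
    | succ i ih => rw [pow_succ', ← Matrix.vecMul_vecMul, hφ, ih]
  induction m with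
  | zero =>
    refine ⟨1, H.one_mem, ?_⟩
    simp [coe_one']
  | succ m ih =>
    rw [Finset.sum_range_succ]
    refine ih.add_center ?_ ?_
    · refine h.conj (x := z ^ m) (H.pow_mem hz m) ?_ ?_
      · rw [coe_pow']
      · rw [coe_pow', hpow]
    · rw [dotProduct_mulVec, hpow, hφa]

/-- The field generation step. -/
theorem root_step (hn : 4 ≤ n) {t s : F} (hu : uS n F ∈ H) (hz : zS hn t s ∈ H) {m : ℕ} {δ : F}
    (hsum : ∑ j ∈ Finset.range m, zM n F t s ^ j *ᵥ E n F 1 = δ • E n F 0) {r r' : F}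
    (hr : Par H (E n F 0) (E n F (n - 1)) r) (hr' : Par H (E n F 0) (E n F (n - 1)) r') :
    Par H (E n F 0) (E n F (n - 1)) (((m : F) + δ) * (-(r * r' * (phi n F ⬝ᵥ E n F 0)))) := by
  have ha : vv n F *ᵥ E n F 0 = E n F 0 + E n F 1 := vv_mulVec 0
  have h2 : Par H (E n F 0 + E n F 1) (phi n F) r' := by
    refine hr'.conj hu ?_ ?_
    · exact ha
    · exact phi_vecMul (by omega)
  have h3 : phi n F ⬝ᵥ (E n F 0 + E n F 1) = 0 := by
    rw [← ha, dotProduct_mulVec, phi_vecMul (by omega), E_dot_E_ne (by omega)]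
  have h4 : E n F (n - 1) ⬝ᵥ (E n F 0 + E n F 1) = 0 := by
    rw [dotProduct_add, E_dot_E_ne (by omega), E_dot_E_ne (by omega), add_zero]
  have h5 := hr.comm h2 (E_dot_E_ne (by omega)) h3 h4
  have h6 := Par_sum hz (φ := E n F (n - 1)) (E3_zM hn t s (by omega)) h4 h5 m
  have e : ∑ i ∈ Finset.range m, ((zS hn t s : SpecialLinearGroup (Fin n) F) : Matrix (Fin n) (Fin n) F) ^ i *ᵥ
      (E n F 0 + E n F 1) = ((m : F) + δ) • E n F 0 := by
    show ∑ i ∈ Finset.range m, zM n F t s ^ i *ᵥ (E n F 0 + E n F 1) = _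
    simp only [Matrix.mulVec_add, pow_fix hn (zM_E0 hn t s), Finset.sum_add_distrib]
    rw [hsum, Finset.sum_const, Finset.card_range, add_smul, Nat.cast_smul_eq_nsmul]
  rw [e] at h6
  exact h6.of_smul_center

/-- From a root element and a primitive element to all root elements. -/
theorem top_of_root (hn : 4 ≤ n) {t s : F} (hu : uS n F ∈ H)
    (h : Om H (E n F 0) (E n F (n - 1))) : H = ⊤ :=
  top_of_column hu rfl (by omega) (column hu rfl (by omega) h)

end Root

/-- Generation when the field is arbitrary. -/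
theorem top_gen [Fintype F] (hn : 4 ≤ n) {t : F} {m : ℕ} {δ : F}
    (h1 : ∀ s : F, zM n F t s ^ m *ᵥ E n F 1 = E n F 1)
    (hsum : ∀ s : F, ∑ j ∈ Finset.range m, zM n F t s ^ j *ᵥ E n F 1 = δ • E n F 0)
    (h2 : δ - m ≠ 0) (h3 : (m : F) + δ ≠ 0) :
    ∃ s : F, s ≠ 0 ∧ Subgroup.closure ({uS n F, vS hn t s} : Set (SpecialLinearGroup (Fin n) F)) = ⊤ := by
  classical
  obtain ⟨ξ0, hξ0⟩ := IsCyclic.exists_generator (α := Fˣ)
  have hξ : ∀ x : F, x ≠ 0 → ∃ k : ℕ, ((ξ0 : Fˣ) : F) ^ k = x := by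
    intro x hx
    obtain ⟨k, hk⟩ := (mem_powers_iff_mem_zpowers).mpr (hξ0 (Units.mk0 x hx))
    refine ⟨k, ?_⟩
    have := congrArg Units.val hk
    simpa using this
  set η : F := ξ0.val with hη
  have hη0 : η ≠ 0 := ξ0.ne_zero
  set κ := phi n F ⬝ᵥ E n F 0 with hκ
  have hκ0 : κ ≠ 0 := phi_zero (by omega)
  set ξ : F := ((m : F) + δ) * (-κ) with hξdef
  have hξ00 : ξ ≠ 0 := mul_ne_zero h3 (neg_ne_zero.mpr hκ0)
  set s : F := η / (ξ * (δ - m)) with hs
  have hs0 : s ≠ 0 := div_ne_zero hη0 (mul_ne_zero hξ00 h2)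
  refine ⟨s, hs0, ?_⟩
  set H := Subgroup.closure ({uS n F, vS hn t s} : Set (SpecialLinearGroup (Fin n) F)) with hH
  have hu : uS n F ∈ H := Subgroup.subset_closure (by simp)
  have hv : vS hn t s ∈ H := Subgroup.subset_closure (by simp)
  have hz : zS hn t s ∈ H := by
    rw [← uS_mul_vS hn t s]
    exact H.mul_mem hu hv
  set s0 : F := s * (δ - m) with hs0def
  have hpar : Par H (E n F 0) (E n F (n - 1)) s0 := by
    refine ⟨zS hn t s ^ m, H.pow_mem hz m, ?_⟩
    rw [coe_pow']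
    exact zM_pow_root hn t s (h1 s) (hsum s)
  have hξs : ξ * s0 = η := by
    rw [hs0def, hs]
    have := mul_ne_zero hξ00 h2
    field_simp
  have hpow : ∀ k : ℕ, Par H (E n F 0) (E n F (n - 1)) (η ^ k * s0) := by
    intro k
    induction k with
    | zero => simpa using hpar
    | succ k ih =>
      have := root_step hn hu hz (hsum s) ih hpar
      have e : ((m : F) + δ) * (-(η ^ k * s0 * s0 * κ)) = η ^ (k + 1) * s0 := by
        have hh : ((m : F) + δ) * (-κ) * s0 = η := hξs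
        calc ((m : F) + δ) * (-(η ^ k * s0 * s0 * κ))
            = (((m : F) + δ) * (-κ) * s0) * (η ^ k * s0) := by ring
          _ = η * (η ^ k * s0) := by rw [hh]
          _ = η ^ (k + 1) * s0 := by ring
      rwa [e] at this
  refine top_of_root hn (t := t) (s := s) hu ?_
  intro x
  by_cases hx : x = 0
  · subst hx
    exact ⟨1, H.one_mem, by simp [coe_one']⟩
  · have hs0' : s0 ≠ 0 := mul_ne_zero hs0 h2
    obtain ⟨k, hk⟩ := hξ (x / s0) (div_ne_zero hx hs0')
    have := hpow k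
    rwa [hk, div_mul_cancel₀ _ hs0'] at this

/-- Generation over a prime field, for every `s ≠ 0`. -/
theorem top_prime [Fintype F] (hn : 4 ≤ n) (hp : (Fintype.card F).Prime) {t s : F} {m : ℕ} {δ : F}
    (h1 : zM n F t s ^ m *ᵥ E n F 1 = E n F 1)
    (hsum : ∑ j ∈ Finset.range m, zM n F t s ^ j *ᵥ E n F 1 = δ • E n F 0)
    (h2 : δ - m ≠ 0) (hs0 : s ≠ 0) :
    Subgroup.closure ({uS n F, vS hn t s} : Set (SpecialLinearGroup (Fin n) F)) = ⊤ := by
  classical
  set H := Subgroup.closure ({uS n F, vS hn t s} : Set (SpecialLinearGroup (Fin n) F)) with hH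
  have hu : uS n F ∈ H := Subgroup.subset_closure (by simp)
  have hv : vS hn t s ∈ H := Subgroup.subset_closure (by simp)
  have hz : zS hn t s ∈ H := by
    rw [← uS_mul_vS hn t s]
    exact H.mul_mem hu hv
  set s0 : F := s * (δ - m) with hs0def
  have hs0' : s0 ≠ 0 := mul_ne_zero hs0 h2
  have hpar : Par H (E n F 0) (E n F (n - 1)) s0 := by
    refine ⟨zS hn t s ^ m, H.pow_mem hz m, ?_⟩
    rw [coe_pow']
    exact zM_pow_root hn t s h1 hsum
  have hd : E n F (n - 1) ⬝ᵥ E n F 0 = 0 := E_dot_E_ne (by omega)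
  have hmul : ∀ k : ℕ, Par H (E n F 0) (E n F (n - 1)) (k • s0) := by
    intro k
    induction k with
    | zero => exact ⟨1, H.one_mem, by simp [coe_one']⟩
    | succ k ih =>
      rw [succ_nsmul]
      exact par_add_param ih hpar hd
  refine top_of_root hn (t := t) (s := s) hu ?_
  intro x
  haveI : Fact (Fintype.card F).Prime := ⟨hp⟩
  have hmem := mem_multiples_of_prime_card (G := F) (p := Fintype.card F) Nat.card_eq_fintype_card
    (g := s0) (g' := x) hs0'
  obtain ⟨k, rfl⟩ := hmem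
  exact hmul k

/-! ### The two instances -/

section Instances

variable (hn : 4 ≤ n) (s : F)
include hn

theorem inst3_pow : zM n F (-1) s ^ 3 *ᵥ E n F 1 = E n F 1 := by
  simp only [pow_succ, pow_zero, one_mul, ← Matrix.mulVec_mulVec]
  rw [zM_E1 hn, zM_E2 hn, Matrix.mulVec_add, Matrix.mulVec_sub, Matrix.mulVec_smul,
    Matrix.mulVec_smul, zM_E0 hn, zM_E1 hn, zM_E2 hn]
  module

theorem inst3_sum : ∑ j ∈ Finset.range 3, zM n F (-1) s ^ j *ᵥ E n F 1 = (2 : F) • E n F 0 := by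
  simp only [Finset.sum_range_succ, Finset.sum_range_zero, pow_succ, pow_zero, one_mul,
    ← Matrix.mulVec_mulVec, Matrix.one_mulVec]
  rw [zM_E1 hn, zM_E2 hn]
  module

theorem inst4_E2 : zM n F 0 s *ᵥ E n F 2 = E n F 0 - E n F 1 := by
  rw [zM_E2 hn]
  module

theorem inst4_pow : zM n F 0 s ^ 4 *ᵥ E n F 1 = E n F 1 := by
  simp only [pow_succ, pow_zero, one_mul, ← Matrix.mulVec_mulVec]
  rw [zM_E1 hn, inst4_E2 hn, Matrix.mulVec_sub, zM_E0 hn, zM_E1 hn, Matrix.mulVec_sub, zM_E0 hn,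
    inst4_E2 hn]
  module

theorem inst4_sum : ∑ j ∈ Finset.range 4, zM n F 0 s ^ j *ᵥ E n F 1 = (2 : F) • E n F 0 := by
  simp only [Finset.sum_range_succ, Finset.sum_range_zero, pow_succ, pow_zero, one_mul,
    ← Matrix.mulVec_mulVec, Matrix.one_mulVec]
  rw [zM_E1 hn, inst4_E2 hn, Matrix.mulVec_sub, zM_E0 hn, zM_E1 hn]
  module

end Instances

theorem vS_regular (hn : 4 ≤ n) (t : F) {s : F} (hs : s ≠ 0) :
    IsNilpotent ((vS hn t s : Matrix (Fin n) (Fin n) F) - 1) ∧
      ((vS hn t s : Matrix (Fin n) (Fin n) F) - 1) ^ (n - 1) ≠ 0 :=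
  ⟨⟨n, (Nm_regular hn t s hs).1⟩, (Nm_regular hn t s hs).2⟩

theorem uS_regular (hn : 4 ≤ n) :
    IsNilpotent ((uS n F : Matrix (Fin n) (Fin n) F) - 1) ∧
      ((uS n F : Matrix (Fin n) (Fin n) F) - 1) ^ (n - 1) ≠ 0 :=
  ⟨⟨n, (vv_regular (by omega)).1⟩, (vv_regular (by omega)).2⟩

/-- First part: two regular unipotent elements generate. -/
theorem part_one [Fintype F] (hn : 4 ≤ n) :
    ∃ u v : SpecialLinearGroup (Fin n) F,
      (IsNilpotent ((u : Matrix (Fin n) (Fin n) F) - 1) ∧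
        ((u : Matrix (Fin n) (Fin n) F) - 1) ^ (n - 1) ≠ 0) ∧
      (IsNilpotent ((v : Matrix (Fin n) (Fin n) F) - 1) ∧
        ((v : Matrix (Fin n) (Fin n) F) - 1) ^ (n - 1) ≠ 0) ∧
      Subgroup.closure ({u, v} : Set (SpecialLinearGroup (Fin n) F)) = ⊤ := by
  by_cases h5 : (5 : F) = 0
  · have hm : (4 : F) + 2 = 1 := by linear_combination h5
    have h2 : (2 : F) ≠ 0 := by
      intro h
      have : (1 : F) = 0 := by linear_combination h5 - 2 * h
      exact one_ne_zero this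
    obtain ⟨s, hs, hgen⟩ := top_gen (F := F) hn (t := 0) (m := 4) (δ := 2) (inst4_pow hn) (inst4_sum hn)
      (by
        have : (2 : F) - ((4 : ℕ) : F) = -2 := by push_cast; ring
        rw [this]
        exact neg_ne_zero.mpr h2)
      (by
        have : ((4 : ℕ) : F) + 2 = 1 := by push_cast; exact hm
        rw [this]
        exact one_ne_zero)
    exact ⟨_, _, uS_regular hn, vS_regular hn 0 hs, hgen⟩
  · obtain ⟨s, hs, hgen⟩ := top_gen (F := F) hn (t := -1) (m := 3) (δ := 2) (inst3_pow hn) (inst3_sum hn)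
      (by
        have : (2 : F) - ((3 : ℕ) : F) = -1 := by push_cast; ring
        rw [this]
        exact neg_ne_zero.mpr one_ne_zero)
      (by
        have : ((3 : ℕ) : F) + 2 = 5 := by push_cast; ring
        rw [this]
        exact h5)
    exact ⟨_, _, uS_regular hn, vS_regular hn (-1) hs, hgen⟩

/-- Second part: over a prime field the two generators can be taken conjugate. -/
theorem part_two [Fintype F] (hn : 4 ≤ n) (hp : (Fintype.card F).Prime) :
    ∃ u g : SpecialLinearGroup (Fin n) F,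
      (IsNilpotent ((u : Matrix (Fin n) (Fin n) F) - 1) ∧
        ((u : Matrix (Fin n) (Fin n) F) - 1) ^ (n - 1) ≠ 0) ∧
      Subgroup.closure ({u, g * u * g⁻¹} : Set (SpecialLinearGroup (Fin n) F)) = ⊤ := by
  obtain ⟨s, hs, g, hg⟩ := exists_conj (F := F) hn (-1)
  refine ⟨uS n F, g, uS_regular hn, ?_⟩
  rw [hg]
  refine top_prime hn hp (m := 3) (δ := 2) (inst3_pow hn s) (inst3_sum hn s) ?_ hs
  have : (2 : F) - ((3 : ℕ) : F) = -1 := by push_cast; ring
  rw [this]
  exact neg_ne_zero.mpr one_ne_zero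

end Cfsg.Agent.Lib.RegTwo
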