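/-
ResidModel2: group-level lemmas for residual chains of models: extensions of `p`-solvable groups, and
the model of the `p`-residual subsystem has `p`-group quotient.
-/
import Mathlib
import Cfsg.Agent.Lib.FusionCore
import Cfsg.Agent.Lib.PCore
import Cfsg.Agent.Lib.PSolv
import Cfsg.Agent.Lib.MaxPNilp
import Cfsg.Agent.Lib.CycSylow8
import Cfsg.Agent.Lib.SuperSolv2
import Cfsg.Agent.Lib.PResid

set_option autoImplicit false

namespace Cfsg.Agent.Lib.ResidModel2

open Cfsg Cfsg.FusionSystem Cfsg.Agent.Lib.FusionCore Cfsg.Agent.Lib.PCore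

universe u v

section Ext

variable {p : ℕ} [Fact p.Prime]

/-- A normal `p`-solvable subgroup with `p`-solvable quotient. -/
theorem isPSolvable_ext_aux : ∀ (n : ℕ) (G : Type u) [Group G] [Finite G], Nat.card G = n →
    ∀ (N : Subgroup G) [N.Normal], IsPSolvable p N → IsPSolvable p (G ⧸ N) → IsPSolvable p G := by
  intro n
  induction n using Nat.strong_induction_on with
  | _ n ih =>
    intro G _ _ hn N _ hN hQ
    by_cases hbot : N = ⊥
    · subst hbot
      exact Cfsg.Agent.Lib.PSolv.isPSolvable_of_surjective hQ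
        (QuotientGroup.quotientBot (G := G)).toMonoidHom (QuotientGroup.quotientBot (G := G)).surjective
    · obtain ⟨M, hMn, hMne, hMc⟩ : ∃ M : Subgroup G, M.Normal ∧ M ≠ ⊥ ∧
          ((∃ m, Nat.card M = p ^ m) ∨ (Nat.card M).Coprime p) := by
        rcases Cfsg.Agent.Lib.CycSylow.cores_of_normal N hN hbot with h | h
        · exact ⟨pCore p G, inferInstance, h, Or.inl (IsPGroup.iff_card.1 (isPGroup_pCore p))⟩
        · exact ⟨pPrimeCore p G, inferInstance, h, Or.inr (card_pPrimeCore_coprime p)⟩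
      haveI := hMn
      refine Cfsg.Agent.Lib.MaxPNilp.isPSolvable_of_quotient p M hMc ?_
      have hlt : Nat.card (G ⧸ M) < n := by
        rw [← hn]
        exact Cfsg.Agent.Lib.SuperSolv2.card_quotient_lt M hMne
      let π := QuotientGroup.mk' M
      have hπ : Function.Surjective π := QuotientGroup.mk'_surjective M
      haveI hN' : (N.map π).Normal := Subgroup.Normal.map inferInstance π hπ
      refine ih _ hlt (G ⧸ M) rfl (N.map π) ?_ ?_
      · exact Cfsg.Agent.Lib.PSolv.isPSolvable_of_surjective hN (π.subgroupMap N)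
          (π.subgroupMap_surjective N)
      · refine Cfsg.Agent.Lib.PSolv.isPSolvable_of_surjective hQ
          (QuotientGroup.map N (N.map π) π (Subgroup.le_comap_map π N)) ?_
        intro y
        induction y using QuotientGroup.induction_on with
        | H y =>
          obtain ⟨g, rfl⟩ := hπ y
          exact ⟨(g : G ⧸ N), rfl⟩

theorem isPSolvable_ext {G : Type u} [Group G] [Finite G] (N : Subgroup G) [N.Normal]
    (hN : IsPSolvable p N) (hQ : IsPSolvable p (G ⧸ N)) : IsPSolvable p G :=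
  isPSolvable_ext_aux _ G rfl N hN hQ

theorem isPSolvable_of_card {G : Type*} [Group G]
    (hc : (∃ m, Nat.card G = p ^ m) ∨ (Nat.card G).Coprime p) : IsPSolvable p G := by
  haveI : Subsingleton (G ⧸ (⊤ : Subgroup G)) := QuotientGroup.subsingleton_quotient_top
  refine Cfsg.Agent.Lib.MaxPNilp.isPSolvable_of_quotient p (⊤ : Subgroup G) ?_ ?_
  · rw [Subgroup.card_top]
    exact hc
  · refine ⟨0, fun _ => ⊥, rfl, Subsingleton.elim _ _, fun _ _ _ => le_rfl, fun _ => inferInstance, ?_⟩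
    intro i
    exact i.elim0

/-- A `p`-power of any element has order prime to `p`. -/
theorem exists_pow_coprime {G : Type*} [Group G] [Finite G] (x : G) :
    ∃ e : ℕ, (orderOf (x ^ p ^ e)).Coprime p := by
  have hp : p.Prime := Fact.out
  obtain ⟨e, m, hm, hn⟩ := Nat.exists_eq_pow_mul_and_not_dvd (orderOf_pos x).ne' p hp.ne_one
  refine ⟨e, ?_⟩
  have h1 : (x ^ p ^ e) ^ m = 1 := by
    rw [← pow_mul, ← hn, pow_orderOf_eq_one]
  have h2 : orderOf (x ^ p ^ e) ∣ m := orderOf_dvd_of_pow_eq_one h1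
  have h3 : m.Coprime p := ((Nat.Prime.coprime_iff_not_dvd hp).2 hm).symm
  exact Nat.Coprime.coprime_dvd_left h2 h3

theorem eq_one_of_pow_coprime {G : Type*} [Group G] {x : G} {e m : ℕ} (h1 : x ^ p ^ e = 1)
    (h2 : x ^ m = 1) (hm : m.Coprime p) : x = 1 := by
  have h3 : orderOf x ∣ p ^ e := orderOf_dvd_of_pow_eq_one h1
  have h4 : orderOf x ∣ m := orderOf_dvd_of_pow_eq_one h2
  have h5 : (p ^ e).Coprime m := Nat.Coprime.pow_left e hm.symm
  have h6 : orderOf x ∣ 1 := by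
    have := Nat.dvd_gcd h3 h4
    rwa [h5] at this
  exact orderOf_eq_one_iff.1 (Nat.dvd_one.1 h6)

end Ext

section Model

variable {Ω : Type u} [Group Ω] {S : Subgroup Ω} [Finite S] {K : Type v} [Group K] {p : ℕ} [Fact p.Prime]

omit [Fact p.Prime] in
/-- An element of a realizing group normalizing the image of `P` gives an automorphism in the system. -/
lemma exists_aut {F : FusionSystem S} {ι : S →* K} (hreal : F.IsRealizedBy ι) {P : Subgroup Ω} (hP : P ≤ S)
    (g : K) (hg : ∀ x : P, ∃ y : P, ι ⟨y, hP y.2⟩ = g * ι ⟨x, hP x.2⟩ * g⁻¹) :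
    ∃ α : MulAut P, α ∈ F.autGroup P ∧ ∀ x : P, ι ⟨α x, hP (α x).2⟩ = g * ι ⟨x, hP x.2⟩ * g⁻¹ := by
  choose f hf using hg
  have hinj := hreal.1
  haveI : Finite P := finite_of_le hP
  have hι1 : ∀ a b : P, ι ⟨((a * b : P) : Ω), hP (a * b).2⟩ = ι ⟨a, hP a.2⟩ * ι ⟨b, hP b.2⟩ := by
    intro a b
    rw [← map_mul]
    rfl
  have hmul : ∀ a b : P, f (a * b) = f a * f b := by
    intro a b
    apply Subtype.ext
    have h1 : ι ⟨(f (a * b) : Ω), hP (f (a * b)).2⟩ = ι ⟨((f a * f b : P) : Ω), hP (f a * f b).2⟩ := by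
      rw [hf, hι1, hι1, hf, hf]
      group
    exact congrArg (fun z : S => (z : Ω)) (hinj h1)
  have hfinj : Function.Injective f := by
    intro a b hab
    have h1 := hf a
    rw [hab, hf b] at h1
    have h2 : ι ⟨a, hP a.2⟩ = ι ⟨b, hP b.2⟩ := by
      have := mul_left_cancel (mul_right_cancel h1)
      exact this.symm
    exact Subtype.ext (congrArg (fun z : S => (z : Ω)) (hinj h2))
  have hfsurj : Function.Surjective f := Finite.injective_iff_surjective.1 hfinj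
  let α : MulAut P := MulEquiv.ofBijective (MonoidHom.mk' f hmul) ⟨hfinj, hfsurj⟩
  have hαv : ∀ x : P, α x = f x := fun _ => rfl
  refine ⟨α, Subgroup.subset_closure ?_, fun x => ?_⟩
  · refine (hreal.2 P hP (P.subtype.comp α.toMonoidHom) (fun x => hP (α x).2)).2 ⟨g, fun x => ?_⟩
    exact hf x
  · exact hf x

omit [Fact p.Prime] in
lemma aut_pow {F : FusionSystem S} {ι : S →* K} {P : Subgroup Ω} (hP : P ≤ S) (g : K) {α : MulAut P}
    (hα : ∀ x : P, ι ⟨α x, hP (α x).2⟩ = g * ι ⟨x, hP x.2⟩ * g⁻¹) (n : ℕ) (x : P) :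
    ι ⟨(α ^ n) x, hP ((α ^ n) x).2⟩ = g ^ n * ι ⟨x, hP x.2⟩ * (g ^ n)⁻¹ := by
  induction n with
  | zero => simp
  | succ n ih =>
    rw [pow_succ' α, MulAut.mul_apply, hα, ih, pow_succ' g]
    group

omit [Fact p.Prime] in
lemma orderOf_aut_dvd {F : FusionSystem S} {ι : S →* K} (hinj : Function.Injective ι) {P : Subgroup Ω} (hP : P ≤ S)
    (g : K) {α : MulAut P} (hα : ∀ x : P, ι ⟨α x, hP (α x).2⟩ = g * ι ⟨x, hP x.2⟩ * g⁻¹) :
    orderOf α ∣ orderOf g := by
  apply orderOf_dvd_of_pow_eq_one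
  ext x
  have h1 := aut_pow (F := F) hP g hα (orderOf g) x
  rw [pow_orderOf_eq_one] at h1
  simp only [one_mul, inv_one, mul_one] at h1
  have := hinj h1
  have h2 := congrArg (fun z : S => (z : Ω)) this
  simpa using h2

/-- The hyperfocal subgroup contains the commutators with automorphisms of order prime to `p`. -/
lemma mem_hyp {F : FusionSystem S} {P : Subgroup Ω} (hP : P ≤ S) {α : MulAut P} (hα : α ∈ F.autGroup P)
    (hc : (orderOf α).Coprime p) (x : P) : (x : Ω)⁻¹ * ((α x : P) : Ω) ∈ F.hyperfocalSubgroup p := by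
  refine Subgroup.subset_closure ⟨P, ⟨α, hα⟩, x, hP, ?_, rfl⟩
  apply Cfsg.Agent.Lib.PResid.mem_pResidual_of_coprime
  rwa [Subgroup.orderOf_mk]

/-- A `p'`-element centralizing the image of a subgroup containing the hyperfocal subgroup is trivial. -/
theorem eq_one_of_centralizes (hS : IsPGroup p S) {E : FusionSystem S} {ι : S →* K} (hE : E.IsModel p K ι)
    {T : Subgroup Ω} (hhyp : E.hyperfocalSubgroup p ≤ T) (hTS : T ≤ S) (k : K) (hk : (orderOf k).Coprime p)
    (hkT : ∀ x : T, k * ι ⟨x, hTS x.2⟩ * k⁻¹ = ι ⟨x, hTS x.2⟩) : k = 1 := by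
  obtain ⟨hfin, hreal, ⟨T₀, hT₀⟩, hC⟩ := hE
  haveI := hfin
  have hinj := hreal.1
  set O := pCore p K with hOdef
  have hOr : O ≤ ι.range := by
    rw [← hT₀]
    exact pCore_le_sylow p T₀
  have hOn : O.Normal := inferInstance
  let P : Subgroup Ω := (O.comap ι).map S.subtype
  have hPS : P ≤ S := Subgroup.map_subtype_le _
  have hPmem : ∀ x : P, ι ⟨x, hPS x.2⟩ ∈ O := by
    rintro ⟨_, y, hy, rfl⟩
    exact hy
  have hg : ∀ x : P, ∃ y : P, ι ⟨y, hPS y.2⟩ = k * ι ⟨x, hPS x.2⟩ * k⁻¹ := by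
    intro x
    have h1 : k * ι ⟨x, hPS x.2⟩ * k⁻¹ ∈ O := hOn.conj_mem _ (hPmem x) k
    obtain ⟨s, hs⟩ := hOr h1
    have hsP : (s : Ω) ∈ P := ⟨s, by rw [SetLike.mem_coe, Subgroup.mem_comap, hs]; exact h1, rfl⟩
    exact ⟨⟨s, hsP⟩, hs⟩
  obtain ⟨α, hαm, hα⟩ := exists_aut hreal hPS k hg
  have hαo : (orderOf α).Coprime p :=
    Nat.Coprime.coprime_dvd_left (orderOf_aut_dvd (F := E) hinj hPS k hα) hk
  have hfix : ∀ x : P, k * ι ⟨x, hPS x.2⟩ * k⁻¹ = ι ⟨x, hPS x.2⟩ := by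
    intro x
    have hcT : (x : Ω)⁻¹ * ((α x : P) : Ω) ∈ T := hhyp (mem_hyp hPS hαm hαo x)
    set c : T := ⟨_, hcT⟩ with hc
    have hcι : ι ⟨((α x : P) : Ω), hPS (α x).2⟩ = ι ⟨x, hPS x.2⟩ * ι ⟨c, hTS c.2⟩ := by
      rw [← map_mul]
      congr 1
      apply Subtype.ext
      show ((α x : P) : Ω) = (x : Ω) * ((x : Ω)⁻¹ * ((α x : P) : Ω))
      group
    have hcc := hkT c
    have hpow : ∀ j : ℕ, k ^ j * ι ⟨x, hPS x.2⟩ * (k ^ j)⁻¹ = ι ⟨x, hPS x.2⟩ * ι ⟨c, hTS c.2⟩ ^ j := by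
      intro j
      induction j with
      | zero => simp
      | succ j ih =>
        have h1 : k ^ (j + 1) * ι ⟨x, hPS x.2⟩ * (k ^ (j + 1))⁻¹ =
            k * (k ^ j * ι ⟨x, hPS x.2⟩ * (k ^ j)⁻¹) * k⁻¹ := by
          rw [pow_succ']
          group
        have h2 : ∀ j : ℕ, k * ι ⟨c, hTS c.2⟩ ^ j * k⁻¹ = ι ⟨c, hTS c.2⟩ ^ j := by
          intro j
          rw [← conj_pow, hcc]
        rw [h1, ih]
        have h3 : k * (ι ⟨x, hPS x.2⟩ * ι ⟨c, hTS c.2⟩ ^ j) * k⁻¹ =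
            (k * ι ⟨x, hPS x.2⟩ * k⁻¹) * (k * ι ⟨c, hTS c.2⟩ ^ j * k⁻¹) := by group
        rw [h3, h2, ← hα, hcι, pow_succ']
        group
    have h1 := hpow (orderOf k)
    rw [pow_orderOf_eq_one] at h1
    simp only [one_mul, inv_one, mul_one] at h1
    have h2 : ι ⟨c, hTS c.2⟩ ^ orderOf k = 1 := by
      have := mul_left_cancel (a := ι ⟨x, hPS x.2⟩) (b := ι ⟨c, hTS c.2⟩ ^ orderOf k) (c := 1)
        (by rw [mul_one]; exact h1.symm)
      exact this
    obtain ⟨n, hn⟩ := hS ⟨c, hTS c.2⟩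
    have h3 : ι ⟨c, hTS c.2⟩ ^ p ^ n = 1 := by
      rw [← map_pow, hn, map_one]
    have h4 : ι ⟨c, hTS c.2⟩ = 1 := eq_one_of_pow_coprime h3 h2 hk
    rw [← hα, hcι, h4, mul_one]
  have hkC : k ∈ O := by
    apply hC
    rw [Subgroup.mem_centralizer_iff]
    intro o ho
    obtain ⟨s, hs⟩ := hOr ho
    have hsP : (s : Ω) ∈ P := ⟨s, by rw [SetLike.mem_coe, Subgroup.mem_comap, hs]; exact ho, rfl⟩
    have h1 := hfix ⟨s, hsP⟩
    have h2 : ι ⟨((⟨s, hsP⟩ : P) : Ω), hPS hsP⟩ = o := hs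
    rw [h2] at h1
    calc o * k = (k * o * k⁻¹) * k := by rw [h1]
      _ = k * o := by group
  obtain ⟨n, hn⟩ := isPGroup_pCore (G := K) p ⟨k, hkC⟩
  have h1 : k ^ p ^ n = 1 := congrArg Subtype.val hn
  exact eq_one_of_pow_coprime h1 (pow_orderOf_eq_one k) hk

/-- The model of a `p`-residual subsystem has `p`-group quotient. -/
theorem isPGroup_quotient (hS : IsPGroup p S) {E : FusionSystem S} {ι : S →* K} (hE : E.IsModel p K ι)
    {T : Subgroup Ω} (hTS : T ≤ S) {D : FusionSystem T} {N : Subgroup K} [hNn : N.Normal] {ι₂ : T →* N}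
    (hι₂ : ∀ x : T, (ι₂ x : K) = ι ⟨x, hTS x.2⟩) (hD : D.IsModel p N ι₂) (hidx : D.HasPPowerIndexIn E p) :
    IsPGroup p (K ⧸ N) := by
  have hE' := hE
  obtain ⟨hfin, hreal, -, -⟩ := hE
  haveI := hfin
  obtain ⟨-, hDreal, ⟨R, hR⟩, -⟩ := hD
  have hinj := hreal.1
  -- elements normalizing the image of `T`, of order prime to `p`
  have key : ∀ b : K, (orderOf b).Coprime p →
      b ∈ Subgroup.normalizer ((((R : Subgroup N).map N.subtype : Subgroup K)) : Set K) → b ∈ N := by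
    intro b hbc hbN
    have hRmem : ∀ x : T, ι ⟨x, hTS x.2⟩ ∈ (R : Subgroup N).map N.subtype := by
      intro x
      refine ⟨ι₂ x, ?_, hι₂ x⟩
      show ι₂ x ∈ (R : Subgroup N)
      rw [hR]
      exact ⟨x, rfl⟩
    have hg : ∀ x : T, ∃ y : T, ι ⟨y, hTS y.2⟩ = b * ι ⟨x, hTS x.2⟩ * b⁻¹ := by
      intro x
      have h1 := (Subgroup.mem_normalizer_iff.1 hbN _).1 (hRmem x)
      obtain ⟨n, hn, hn2⟩ := h1
      have hn3 : n ∈ (R : Subgroup N) := hn
      rw [hR] at hn3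
      obtain ⟨y, rfl⟩ := hn3
      exact ⟨y, by rw [← hι₂ y]; exact hn2⟩
    obtain ⟨α, hαm, hα⟩ := exists_aut hreal hTS b hg
    have hαo : (orderOf α).Coprime p :=
      Nat.Coprime.coprime_dvd_left (orderOf_aut_dvd (F := E) hinj hTS b hα) hbc
    have hαD : α ∈ D.autGroup T := by
      refine hidx.2.2 T le_rfl ⟨⟨α, hαm⟩, ?_, rfl⟩
      apply Cfsg.Agent.Lib.PResid.mem_pResidual_of_coprime
      rwa [Subgroup.orderOf_mk]
    have hφ : T.subtype.comp α.toMonoidHom ∈ D.Hom T :=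
      ((mem_autGroup_iff le_rfl).1 hαD).mem_hom (fun x => (afn_coe α x).symm)
    obtain ⟨g, hg2⟩ := (hDreal.2 T le_rfl (T.subtype.comp α.toMonoidHom) (fun x => (α x).2)).1 hφ
    have hg3 : ∀ x : T, ι ⟨α x, hTS (α x).2⟩ = (g : K) * ι ⟨x, hTS x.2⟩ * (g : K)⁻¹ := by
      intro x
      have h1 := congrArg (fun y : N => (y : K)) (hg2 x)
      simp only [Subgroup.coe_mul, InvMemClass.coe_inv, hι₂] at h1
      exact h1
    -- `k = g⁻¹ b` centralizes the image of `T`
    set k : K := (g : K)⁻¹ * b with hk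
    have hkT : ∀ x : T, k * ι ⟨x, hTS x.2⟩ * k⁻¹ = ι ⟨x, hTS x.2⟩ := by
      intro x
      have h1 := hg3 x
      rw [hα] at h1
      have e : k * ι ⟨x, hTS x.2⟩ * k⁻¹ = (g : K)⁻¹ * (b * ι ⟨x, hTS x.2⟩ * b⁻¹) * (g : K) := by
        rw [hk]; group
      rw [e, h1]
      group
    obtain ⟨e, he⟩ := exists_pow_coprime (p := p) k
    have hk1 : k ^ p ^ e = 1 := by
      refine eq_one_of_centralizes hS hE' hidx.2.1 hTS _ he (fun x => ?_)
      have hpw : ∀ j : ℕ, k ^ j * ι ⟨x, hTS x.2⟩ * (k ^ j)⁻¹ = ι ⟨x, hTS x.2⟩ := by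
        intro j
        induction j with
        | zero => simp
        | succ j ih =>
          have e1 : k ^ (j + 1) * ι ⟨x, hTS x.2⟩ * (k ^ (j + 1))⁻¹ =
              k * (k ^ j * ι ⟨x, hTS x.2⟩ * (k ^ j)⁻¹) * k⁻¹ := by
            rw [pow_succ']
            group
          rw [e1, ih, hkT x]
      exact hpw _
    have hq1 : (QuotientGroup.mk' N k) = QuotientGroup.mk' N b := by
      rw [hk, map_mul, map_inv]
      have : QuotientGroup.mk' N (g : K) = 1 := (QuotientGroup.eq_one_iff _).2 g.2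
      rw [this, inv_one, one_mul]
    have h2 : (QuotientGroup.mk' N b) ^ p ^ e = 1 := by
      rw [← hq1, ← map_pow, hk1, map_one]
    have h3 : (QuotientGroup.mk' N b) ^ orderOf b = 1 := by
      rw [← map_pow, pow_orderOf_eq_one, map_one]
    have h4 := eq_one_of_pow_coprime h2 h3 hbc
    exact (QuotientGroup.eq_one_iff _).1 h4
  intro q
  induction q using QuotientGroup.induction_on with
  | H w =>
    have hw : w ∈ Subgroup.normalizer (((R : Subgroup N).map N.subtype : Subgroup K) : Set K) ⊔ N := by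
      have := Sylow.normalizer_sup_eq_top R
      rw [this]
      exact Subgroup.mem_top w
    obtain ⟨a, ha, n, hn, rfl⟩ := Subgroup.mem_sup_of_normal_right.1 hw
    obtain ⟨e, he⟩ := exists_pow_coprime (p := p) a
    have hb : a ^ p ^ e ∈ N := key _ he (Subgroup.pow_mem _ ha _)
    refine ⟨e, ?_⟩
    have e1 : ((a * n : K) : K ⧸ N) = (a : K ⧸ N) := by
      rw [QuotientGroup.mk_mul, (QuotientGroup.eq_one_iff n).2 hn, mul_one]
    rw [e1, ← QuotientGroup.mk_pow]
    exact (QuotientGroup.eq_one_iff _).2 hb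

end Model

end Cfsg.Agent.Lib.ResidModel2
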