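import Mathlib
import Cfsg.Agent.Lib.S3x3Tau
import Cfsg.Agent.Lib.CharLattice
import Cfsg.Agent.Lib.CharKernel

/-!
# Generic character lemmas for the `S₃ × S₃` analysis
-/

set_option autoImplicit false

namespace Cfsg.Agent.Lib.S3x3Chars

open Cfsg Cfsg.Agent.Lib.CharBasic Cfsg.Agent.Lib.CharInd Cfsg.Agent.Lib.S3x3Model
open Cfsg.Agent.Lib.GenChar Cfsg.Agent.Lib.S3x3Tau
open scoped ComplexConjugate

variable {G : Type*} [Group G] [Fintype G]

/-- A generalized character of norm three, containing the trivial character once and of degree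
zero, is `1 + χ₁ - χ₂`. -/
theorem decomp3 {θ : G → ℂ} (hθ : IsGeneralizedCharacter G θ) (h3 : classInner θ θ = 3)
    (h1 : classInner θ (fun _ => 1) = 1) (h0 : θ 1 = 0) :
    ∃ χ₁ χ₂ : G → ℂ, IsIrrCharacter G χ₁ ∧ IsIrrCharacter G χ₂ ∧ χ₁ ≠ χ₂ ∧
      χ₁ ≠ (fun _ => 1) ∧ χ₂ ≠ (fun _ => 1) ∧ χ₂ 1 = χ₁ 1 + 1 ∧ θ = (fun _ => 1) + χ₁ - χ₂ := by
  classical
  have h1irr : IsIrrCharacter G (fun _ => (1 : ℂ)) := isIrrCharacter_one
  have h11 : classInner (fun _ : G => (1 : ℂ)) (fun _ => 1) = 1 := classInner_irr_self h1irr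
  have h1θ : classInner (fun _ : G => (1 : ℂ)) θ = 1 := by
    rw [← classInner_conj_symm, h1]
    simp
  set τ : G → ℂ := θ - fun _ => 1 with hτdef
  have hτ : IsGeneralizedCharacter G τ := isGen_sub hθ (isGen_of_isIrr h1irr)
  have hnorm : classInner τ τ = 2 := by
    rw [hτdef, classInner_sub_left, classInner_sub_right, classInner_sub_right, h3, h1, h1θ, h11]
    norm_num
  have hτ1 : classInner τ (fun _ => 1) = 0 := by
    rw [hτdef, classInner_sub_left, h1, h11]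
    norm_num
  obtain ⟨a, ha⟩ := Cfsg.Agent.Lib.CharLattice.exists_int_decomp hτ
  have hnorm2 := Cfsg.Agent.Lib.CharLattice.classInner_int_decomp_self a
  rw [← ha, hnorm] at hnorm2
  have hsq : ∑ i, a i ^ 2 = 2 := by
    have : ((∑ i, a i ^ 2 : ℤ) : ℂ) = ((2 : ℤ) : ℂ) := by
      rw [← hnorm2]
      norm_num
    exact_mod_cast this
  obtain ⟨i, j, hij, hi, hj, hrest⟩ :=
    Cfsg.Agent.Lib.CharLattice.exists_pair_of_sum_sq_eq_two a hsq
  have hsum : τ = (a i : ℂ) • (i : G → ℂ) + (a j : ℂ) • (j : G → ℂ) := by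
    rw [ha, ← Finset.sum_pair (f := fun k : IrrCharacter G => (a k : ℂ) • (k : G → ℂ)) hij]
    symm
    apply Finset.sum_subset (Finset.subset_univ _)
    intro k _ hk
    simp only [Finset.mem_insert, Finset.mem_singleton, not_or] at hk
    rw [hrest k hk.1 hk.2]
    simp
  have ha1 : a ⟨fun _ => 1, h1irr⟩ = 0 := by
    have := Cfsg.Agent.Lib.CharLattice.classInner_int_decomp a ⟨fun _ => 1, h1irr⟩
    rw [← ha] at this
    simp only at this
    rw [hτ1] at this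
    exact_mod_cast this.symm
  have hne : ∀ k : IrrCharacter G, a k ^ 2 = 1 → (k : G → ℂ) ≠ fun _ => 1 := by
    intro k hk hk1
    have : k = ⟨fun _ => 1, h1irr⟩ := Subtype.ext hk1
    rw [this, ha1] at hk
    norm_num at hk
  obtain ⟨di, hdi, hdi'⟩ := Cfsg.Agent.Lib.CharLattice.exists_degree_pos i.2
  obtain ⟨dj, hdj, hdj'⟩ := Cfsg.Agent.Lib.CharLattice.exists_degree_pos j.2
  have hτ1' : τ 1 = -1 := by
    simp [hτdef, h0]
  have hdeg : a i * di + a j * dj = -1 := by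
    have := congrFun hsum 1
    rw [hτ1'] at this
    simp only [Pi.add_apply, Pi.smul_apply, smul_eq_mul, hdi', hdj'] at this
    have h5 : ((-1 : ℤ) : ℂ) = ((a i * di + a j * dj : ℤ) : ℂ) := by
      push_cast
      exact this
    exact_mod_cast h5.symm
  have hai : a i = 1 ∨ a i = -1 := by
    have : (a i - 1) * (a i + 1) = 0 := by ring_nf; omega
    rcases mul_eq_zero.mp this with h | h
    · left; omega
    · right; omega
  have haj : a j = 1 ∨ a j = -1 := by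
    have : (a j - 1) * (a j + 1) = 0 := by ring_nf; omega
    rcases mul_eq_zero.mp this with h | h
    · left; omega
    · right; omega
  have hijne : (i : G → ℂ) ≠ (j : G → ℂ) := fun h => hij (Subtype.ext h)
  have hθeq : θ = (fun _ => 1) + τ := by
    simp [hτdef]
  rcases hai with hai | hai <;> rcases haj with haj | haj
  · exfalso
    rw [hai, haj] at hdeg
    have : (0 : ℤ) < di := by exact_mod_cast hdi
    have : (0 : ℤ) < dj := by exact_mod_cast hdj
    omega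
  · refine ⟨i, j, i.2, j.2, hijne, hne i hi, hne j hj, ?_, ?_⟩
    · rw [hai, haj] at hdeg
      rw [hdi', hdj']
      have : (dj : ℤ) = di + 1 := by omega
      exact_mod_cast this
    · rw [hθeq, hsum, hai, haj]
      funext g
      simp
      ring
  · refine ⟨j, i, j.2, i.2, hijne.symm, hne j hj, hne i hi, ?_, ?_⟩
    · rw [hai, haj] at hdeg
      rw [hdi', hdj']
      have : (di : ℤ) = dj + 1 := by omega
      exact_mod_cast this
    · rw [hθeq, hsum, hai, haj]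
      funext g
      simp
      ring
  · exfalso
    rw [hai, haj] at hdeg
    have : (0 : ℤ) < di := by exact_mod_cast hdi
    have : (0 : ℤ) < dj := by exact_mod_cast hdj
    omega

/-- A cyclic homomorphism. -/
def homZ (n : ℕ) [NeZero n] {H : Type*} [Group H] (g : H) (hg : g ^ n = 1) :
    Multiplicative (ZMod n) →* H where
  toFun i := g ^ (Multiplicative.toAdd i).val
  map_one' := by
    simp
  map_mul' i j := by
    simp only [toAdd_mul]
    rw [ZMod.val_add, ← pow_eq_pow_mod _ hg, pow_add]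

theorem homZ_apply (n : ℕ) [NeZero n] {H : Type*} [Group H] (g : H) (hg : g ^ n = 1)
    (i : Multiplicative (ZMod n)) : homZ n g hg i = g ^ (Multiplicative.toAdd i).val := rfl

omit [Fintype G] in
/-- The sum of a character over a cyclic group of order 3 is divisible by three. -/
theorem cube_sum {χ : G → ℂ} (hχ : IsCharacter G χ) {g : G} (hg : g ^ 3 = 1) :
    ∃ p : ℕ, χ 1 + χ g + χ g⁻¹ = 3 * p := by
  classical
  have h1 := isCharacter_comp (homZ 3 g hg) hχ
  obtain ⟨p, hp⟩ := classInner_char_irr h1 (isIrrCharacter_one)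
  refine ⟨p, ?_⟩
  unfold classInner at hp
  have hc : Nat.card (Multiplicative (ZMod 3)) = 3 := by
    simp [Nat.card_eq_fintype_card]
  rw [hc] at hp
  have hs : ∑ i : Multiplicative (ZMod 3), (χ ∘ homZ 3 g hg) i * conj (1 : ℂ) =
      χ (g ^ 0) + χ (g ^ 1) + χ (g ^ 2) := by
    show ∑ i : Fin 3, (χ ∘ homZ 3 g hg) (Multiplicative.ofAdd i) * conj (1 : ℂ) = _
    rw [Fin.sum_univ_three]
    simp only [map_one, mul_one, Function.comp]
    rfl
  rw [hs] at hp
  have h2 : g ^ 2 = g⁻¹ := by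
    rw [eq_inv_iff_mul_eq_one, ← pow_succ]
    exact hg
  rw [h2, pow_zero, pow_one] at hp
  push_cast at hp
  have h3 : (3 : ℂ) ≠ 0 := by norm_num
  field_simp at hp
  linear_combination hp

omit [Fintype G] in
/-- The sum of a character over a cyclic group of order 2 is divisible by two. -/
theorem inv_sum {χ : G → ℂ} (hχ : IsCharacter G χ) {g : G} (hg : g * g = 1) :
    ∃ p : ℕ, χ 1 + χ g = 2 * p := by
  classical
  have hg2 : g ^ 2 = 1 := by rw [sq, hg]
  have h1 := isCharacter_comp (homZ 2 g hg2) hχ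
  obtain ⟨p, hp⟩ := classInner_char_irr h1 (isIrrCharacter_one)
  refine ⟨p, ?_⟩
  unfold classInner at hp
  have hc : Nat.card (Multiplicative (ZMod 2)) = 2 := by
    simp [Nat.card_eq_fintype_card]
  rw [hc] at hp
  have hs : ∑ i : Multiplicative (ZMod 2), (χ ∘ homZ 2 g hg2) i * conj (1 : ℂ) =
      χ (g ^ 0) + χ (g ^ 1) := by
    show ∑ i : Fin 2, (χ ∘ homZ 2 g hg2) (Multiplicative.ofAdd i) * conj (1 : ℂ) = _
    rw [Fin.sum_univ_two]
    simp only [map_one, mul_one, Function.comp]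
    rfl
  rw [hs] at hp
  rw [pow_zero, pow_one] at hp
  push_cast at hp
  have h3 : (2 : ℂ) ≠ 0 := by norm_num
  field_simp at hp
  linear_combination hp

theorem int_of_two_mul {z : ℂ} (hz : IsIntegral ℤ z) {n : ℤ} (h : 2 * z = n) : ∃ k : ℤ, z = k := by
  have h1 : z = (((n : ℚ) / 2 : ℚ) : ℂ) := by
    push_cast
    rw [← h]
    ring
  rw [h1] at hz
  have h2 : IsIntegral ℤ ((n : ℚ) / 2 : ℚ) :=
    (isIntegral_algebraMap_iff (A := ℚ) (B := ℂ) (R := ℤ)
      (algebraMap ℚ ℂ).injective (x := ((n : ℚ) / 2 : ℚ))).mp (by simpa using hz)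
  obtain ⟨k, hk⟩ := IsIntegrallyClosed.isIntegral_iff.mp h2
  refine ⟨k, ?_⟩
  rw [h1, ← hk]
  simp

/-- The value of `Dsum` on `1 + χ₁ - χ₂`. -/
theorem Dsum_decomp {χ₁ χ₂ : G → ℂ} (h₁ : IsIrrCharacter G χ₁) (h₂ : IsIrrCharacter G χ₂)
    (hdeg : χ₂ 1 = χ₁ 1 + 1) (a : G) (hval : χ₂ a = 1 + χ₁ a) :
    Dsum a ((fun _ => 1) + χ₁ - χ₂) * (χ₁ 1 * (χ₁ 1 + 1)) =
      (Nat.card G : ℂ) ^ 2 * (χ₁ 1 - χ₁ a) ^ 2 := by
  rw [Dsum_sub, Dsum_add]
  have h1 := Dsum_irr (isIrrCharacter_one (G := G)) a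
  have h2 := Dsum_irr h₁ a
  have h3 := Dsum_irr h₂ a
  rw [hdeg, hval] at h3
  simp only [one_mul, mul_one] at h1
  rw [h1]
  linear_combination (χ₁ 1 + 1) * h2 - χ₁ 1 * h3

/-- Elementary arithmetic. -/
theorem square_of_eq {d : ℕ} {n : ℤ} (h : 8 * n ^ 2 = 9 * ((d : ℤ) * (d + 1))) :
    ∃ w : ℕ, d + 1 = w ^ 2 := by
  have h3 : (3 : ℤ) ∣ n := by
    have : (3 : ℤ) ∣ 8 * n ^ 2 := ⟨3 * ((d : ℤ) * (d + 1)), by rw [h]; ring⟩
    have h4 : (3 : ℤ) ∣ n ^ 2 := by
      have hc : IsCoprime (3 : ℤ) 8 := by norm_num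
      exact hc.dvd_of_dvd_mul_left this
    exact Int.prime_three.dvd_of_dvd_pow h4
  obtain ⟨k, rfl⟩ := h3
  have h5 : 8 * k ^ 2 = (d : ℤ) * (d + 1) := by nlinarith
  have h6 : 8 * k.natAbs ^ 2 = d * (d + 1) := by
    have : ((8 * k.natAbs ^ 2 : ℕ) : ℤ) = ((d * (d + 1) : ℕ) : ℤ) := by
      push_cast
      rw [sq_abs]
      exact h5
    exact_mod_cast this
  set m := k.natAbs
  rcases Nat.even_or_odd d with he | ho
  · -- `d` even, `d + 1` odd
    have hc8 : Nat.Coprime 8 (d + 1) := by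
      have : Odd (d + 1) := he.add_one
      have h2 : Nat.Coprime 2 (d + 1) := Nat.coprime_two_left.mpr this
      exact Nat.Coprime.pow_left 3 h2
    have h8 : 8 ∣ d := hc8.dvd_of_dvd_mul_right ⟨m ^ 2, h6.symm⟩
    obtain ⟨e, rfl⟩ := h8
    have h7 : m ^ 2 = (8 * e + 1) * e := by
      have : 8 * m ^ 2 = 8 * ((8 * e + 1) * e) := by rw [h6]; ring
      omega
    have hco : Nat.Coprime (8 * e + 1) e := by
      simp
    obtain ⟨w, hw⟩ := exists_eq_pow_of_mul_eq_pow (a := 8 * e + 1) (b := e) (c := m) (k := 2)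
      (Nat.isUnit_iff.mpr hco) h7.symm
    exact ⟨w, hw⟩
  · -- `d` odd
    exfalso
    have hc8 : Nat.Coprime 8 d := by
      have h2 : Nat.Coprime 2 d := Nat.coprime_two_left.mpr ho
      exact Nat.Coprime.pow_left 3 h2
    have h8 : 8 ∣ d + 1 := hc8.dvd_of_dvd_mul_left ⟨m ^ 2, h6.symm⟩
    obtain ⟨e, he⟩ := h8
    have h7 : m ^ 2 = d * e := by
      have : 8 * m ^ 2 = 8 * (d * e) := by rw [h6, he]; ring
      omega
    have hco : Nat.Coprime d e := by
      have : Nat.Coprime d (d + 1) := by simp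
      rw [he] at this
      exact Nat.Coprime.coprime_dvd_right (Dvd.intro_left 8 rfl) this
    obtain ⟨w, hw⟩ := exists_eq_pow_of_mul_eq_pow (a := d) (b := e) (c := m) (k := 2)
      (Nat.isUnit_iff.mpr hco) h7.symm
    have h9 : (w ^ 2) % 8 = 7 := by
      rw [← hw]
      omega
    have h10 : w % 8 < 8 := Nat.mod_lt _ (by norm_num)
    have h11 : (w ^ 2) % 8 = ((w % 8) ^ 2) % 8 := by
      rw [Nat.pow_mod]
    rw [h11] at h9
    interval_cases (w % 8) <;> omega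

/-- A square is not `2` modulo `3`. -/
theorem not_sq_mod3 (w : ℕ) : w ^ 2 % 3 ≠ 2 := by
  have h10 : w % 3 < 3 := Nat.mod_lt _ (by norm_num)
  rw [Nat.pow_mod]
  interval_cases (w % 3) <;> omega

/-- A coefficient argument. -/
theorem coef_zero {γ ψ χ₁ χ₂ : G → ℂ} (hγ : IsGeneralizedCharacter G γ)
    (h0 : γ 1 = 0) (h3 : classInner γ γ = 3) (hψ : IsIrrCharacter G ψ)
    (h₁ : IsIrrCharacter G χ₁) (h₂ : IsIrrCharacter G χ₂)
    (hψ1 : classInner γ ψ = 1) (hne1 : ψ ≠ χ₁) (hne2 : ψ ≠ χ₂) (h12 : χ₁ ≠ χ₂)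
    (hw : classInner γ χ₁ = classInner γ χ₂) {d e : ℕ} (hd : χ₁ 1 = d) (hd0 : 1 ≤ d)
    (hdeg : χ₂ 1 = χ₁ 1 + 1) (he : ψ 1 = e) (he2 : e ≤ 2) : classInner γ χ₁ = 0 := by
  classical
  obtain ⟨a, ha⟩ := Cfsg.Agent.Lib.CharLattice.exists_int_decomp hγ
  have hnorm := Cfsg.Agent.Lib.CharLattice.classInner_int_decomp_self a
  rw [← ha, h3] at hnorm
  have hsq : ∑ i, a i ^ 2 = 3 := by
    have : ((∑ i, a i ^ 2 : ℤ) : ℂ) = ((3 : ℤ) : ℂ) := by
      rw [← hnorm]
      norm_num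
    exact_mod_cast this
  set P : IrrCharacter G := ⟨ψ, hψ⟩
  set X₁ : IrrCharacter G := ⟨χ₁, h₁⟩
  set X₂ : IrrCharacter G := ⟨χ₂, h₂⟩
  have hP : a P = 1 := by
    have := Cfsg.Agent.Lib.CharLattice.classInner_int_decomp a P
    rw [← ha] at this
    have h5 : ((a P : ℤ) : ℂ) = ((1 : ℤ) : ℂ) := by
      rw [← this]
      simpa [P] using hψ1
    exact_mod_cast h5
  have hX₁ : classInner γ χ₁ = a X₁ := by
    have := Cfsg.Agent.Lib.CharLattice.classInner_int_decomp a X₁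
    rw [← ha] at this
    exact this
  have hX₂ : classInner γ χ₂ = a X₂ := by
    have := Cfsg.Agent.Lib.CharLattice.classInner_int_decomp a X₂
    rw [← ha] at this
    exact this
  have hXX : a X₁ = a X₂ := by
    have : ((a X₁ : ℤ) : ℂ) = ((a X₂ : ℤ) : ℂ) := by rw [← hX₁, ← hX₂, hw]
    exact_mod_cast this
  rw [hX₁]
  by_contra hne
  have hne0 : a X₁ ≠ 0 := by
    intro h
    apply hne
    rw [h]
    simp
  have hP1 : P ≠ X₁ := fun h => hne1 (congrArg Subtype.val h)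
  have hP2 : P ≠ X₂ := fun h => hne2 (congrArg Subtype.val h)
  have hX12 : X₁ ≠ X₂ := fun h => h12 (congrArg Subtype.val h)
  have hset : ({P, X₁, X₂} : Finset (IrrCharacter G)) ⊆ Finset.univ := Finset.subset_univ _
  have hsplit : ∑ i, a i ^ 2 = ∑ i ∈ ({P, X₁, X₂} : Finset (IrrCharacter G)), a i ^ 2 +
      ∑ i ∈ Finset.univ \ ({P, X₁, X₂} : Finset (IrrCharacter G)), a i ^ 2 := by
    rw [add_comm, Finset.sum_sdiff hset]
  have h3sum : ∑ i ∈ ({P, X₁, X₂} : Finset (IrrCharacter G)), a i ^ 2 =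
      a P ^ 2 + a X₁ ^ 2 + a X₂ ^ 2 := by
    rw [Finset.sum_insert (by simp [hP1, hP2]), Finset.sum_pair hX12]
    ring
  have hrest_nonneg : 0 ≤ ∑ i ∈ Finset.univ \ ({P, X₁, X₂} : Finset (IrrCharacter G)), a i ^ 2 :=
    Finset.sum_nonneg fun i _ => sq_nonneg _
  rw [hsplit, h3sum, hP, ← hXX] at hsq
  have hpos : 1 ≤ a X₁ ^ 2 := by
    have := sq_pos_of_ne_zero hne0
    omega
  have heq1 : a X₁ ^ 2 = 1 := by nlinarith
  have hrest0 : ∑ i ∈ Finset.univ \ ({P, X₁, X₂} : Finset (IrrCharacter G)), a i ^ 2 = 0 := by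
    nlinarith
  have hothers : ∀ i, i ∉ ({P, X₁, X₂} : Finset (IrrCharacter G)) → a i = 0 := by
    intro i hi
    have := (Finset.sum_eq_zero_iff_of_nonneg (fun k _ => sq_nonneg (a k))).mp hrest0 i
      (by simp only [Finset.mem_sdiff, Finset.mem_univ, true_and]; exact hi)
    exact pow_eq_zero_iff (by norm_num) |>.mp this
  have hexp : γ = (a P : ℂ) • (P : G → ℂ) + ((a X₁ : ℂ) • (X₁ : G → ℂ) + (a X₂ : ℂ) • (X₂ : G → ℂ)) := by
    rw [ha, ← Finset.sum_pair (f := fun k : IrrCharacter G => (a k : ℂ) • (k : G → ℂ)) hX12,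
      ← Finset.sum_insert (f := fun k : IrrCharacter G => (a k : ℂ) • (k : G → ℂ))
        (by simp [hP1, hP2] : P ∉ ({X₁, X₂} : Finset (IrrCharacter G)))]
    symm
    apply Finset.sum_subset hset
    intro k _ hk
    rw [hothers k hk]
    simp
  have hdeg0 := congrFun hexp 1
  rw [h0] at hdeg0
  simp only [Pi.add_apply, Pi.smul_apply, smul_eq_mul] at hdeg0
  have hP' : (P : G → ℂ) 1 = e := he
  have hX₁' : (X₁ : G → ℂ) 1 = d := hd
  have hX₂' : (X₂ : G → ℂ) 1 = d + 1 := by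
    show χ₂ 1 = _
    rw [hdeg, hd]
  rw [hP', hX₁', hX₂', hP, ← hXX] at hdeg0
  have hint : (0 : ℤ) = 1 * e + (a X₁ * d + a X₁ * (d + 1)) := by
    have : ((0 : ℤ) : ℂ) = ((1 * e + (a X₁ * d + a X₁ * (d + 1)) : ℤ) : ℂ) := by
      push_cast
      push_cast at hdeg0
      exact hdeg0
    exact_mod_cast this
  have hcases : a X₁ = 1 ∨ a X₁ = -1 := by
    have : (a X₁ - 1) * (a X₁ + 1) = 0 := by ring_nf; omega
    rcases mul_eq_zero.mp this with h | h
    · left; omega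
    · right; omega
  rcases hcases with h | h <;> rw [h] at hint <;> omega

end Cfsg.Agent.Lib.S3x3Chars
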