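import Mathlib
import Cfsg.Agent.Lib.S3x3Chars

/-!
# First consequences: the case `a` not conjugate to `ab`
-/

set_option autoImplicit false

namespace Cfsg.Agent.Lib.S3x3A

open Cfsg Cfsg.Agent.Lib.CharBasic Cfsg.Agent.Lib.CharInd Cfsg.Agent.Lib.S3x3Model
open Cfsg.Agent.Lib.GenChar Cfsg.Agent.Lib.S3x3Tau Cfsg.Agent.Lib.S3x3Chars
open Cfsg.Agent.Lib.CharKernel
open scoped ComplexConjugate

variable {G : Type*} [Group G] {T N : Subgroup G} {φ : HH ≃* N}

theorem isConj_ph {u v : HH} (h : ∃ g : HH, g * u * g⁻¹ = v) : IsConj (ph φ u) (ph φ v) := by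
  obtain ⟨g, rfl⟩ := h
  exact isConj_iff.mpr ⟨ph φ g, (ph_conj g u).symm⟩

theorem mul_self_of_conj {a u : G} (ha : a * a = 1) (h : IsConj a u) : u * u = 1 := by
  obtain ⟨g, rfl⟩ := isConj_iff.mp h
  calc g * a * g⁻¹ * (g * a * g⁻¹) = g * (a * a) * g⁻¹ := by group
    _ = 1 := by rw [ha]; group

theorem ph_aH_sq : ph φ aH * ph φ aH = 1 := by rw [← ph_mul, aH_sq, ph_one]
theorem ph_bH_sq : ph φ bH * ph φ bH = 1 := by rw [← ph_mul, bH_sq, ph_one]

theorem conj_imp {w : HH} (h : IsConj (ph φ aH) (ph φ w)) :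
    A1 w = true ∨ A2 w = true ∨ A3 w = true := by
  have h1 := mul_self_of_conj ph_aH_sq h
  rw [← ph_mul] at h1
  have h2 : w * w = 1 := ph_inj (h1.trans ph_one.symm)
  rcases inv_classify w h2 with rfl | hA
  · exfalso
    rw [ph_one] at h
    have h3 := isConj_one_right.mp h.symm
    exact aH_ne (ph_inj (h3.trans ph_one.symm))
  · exact hA

theorem conj_iff_A1 (hab : ¬ IsConj (ph φ aH) (ph φ bH)) (hne : ¬ IsConj (ph φ aH) (ph φ (aH * bH)))
    (w : HH) : IsConj (ph φ aH) (ph φ w) ↔ A1 w = true := by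
  constructor
  · intro h
    rcases conj_imp h with hA | hA | hA
    · exact hA
    · exact absurd (h.trans (isConj_ph (conj_A2 w hA)).symm) hab
    · exact absurd (h.trans (isConj_ph (conj_A3 w hA)).symm) hne
  · intro hA
    exact isConj_ph (conj_A1 w hA)

theorem conj_iff_A13 (hab : ¬ IsConj (ph φ aH) (ph φ bH)) (hne : IsConj (ph φ aH) (ph φ (aH * bH)))
    (w : HH) : IsConj (ph φ aH) (ph φ w) ↔ (A1 w = true ∨ A3 w = true) := by
  constructor
  · intro h
    rcases conj_imp h with hA | hA | hA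
    · exact Or.inl hA
    · exact absurd (h.trans (isConj_ph (conj_A2 w hA)).symm) hab
    · exact Or.inr hA
  · rintro (hA | hA)
    · exact isConj_ph (conj_A1 w hA)
    · exact hne.trans (isConj_ph (conj_A3 w hA))

theorem sum_cast {P Q : HH → Prop} [DecidablePred P] [DecidablePred Q] (hPQ : ∀ w, P w ↔ Q w)
    (F : HH → ℤ) :
    (∑ w : HH, ∑ w' : HH, if P w ∧ P w' then ((F (w * w') : ℤ) : ℂ) else 0) =
      ((∑ w : HH, ∑ w' : HH, (if Q w ∧ Q w' then F (w * w') else 0) : ℤ) : ℂ) := by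
  push_cast
  refine Finset.sum_congr rfl fun w _ => Finset.sum_congr rfl fun w' _ => ?_
  simp only [hPQ]

section Main

variable [Fintype G]

/-- The element `e₁` lies in the kernel of any character with `a` in its kernel. -/
theorem e1_ker {χ : G → ℂ} (hχ : IsCharacter G χ) (h : χ (ph φ aH) = χ 1) :
    χ (ph φ e1H) = χ 1 := by
  have h1 : ph φ e1H = ph φ aH * (ph φ e1H * ph φ aH * (ph φ e1H)⁻¹) := by
    rw [← ph_inv, ← ph_mul, ← ph_mul, ← ph_mul, ← e1H_eq]
  rw [h1, char_mul_of_mem_ker' hχ h, isClassFunction_of_isCharacter hχ, h]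

/-- The centralizer of `e₁` has order `18`. -/
theorem card_cent_e1 (c : Ctx T N φ) :
    Nat.card (Subgroup.centralizer ({ph φ e1H} : Set G)) = 18 := by
  classical
  rw [Nat.card_eq_fintype_card, Fintype.card_subtype, ← card_centralizer_e1]
  symm
  refine Finset.card_bij (fun w _ => ph φ w) ?_ ?_ ?_
  · intro w hw
    simp only [Finset.mem_filter, Finset.mem_univ, true_and] at hw ⊢
    rw [Subgroup.mem_centralizer_singleton_iff, ← ph_mul, ← ph_mul, hw]
  · intro w _ v _ h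
    exact ph_inj h
  · intro g hg
    simp only [Finset.mem_filter, Finset.mem_univ, true_and] at hg
    rw [Subgroup.mem_centralizer_singleton_iff] at hg
    have ht : ph φ e1H ∈ T := (c.mem_T _).mpr isT_e1
    have hgN : g ∈ N := by
      apply c.ti _ ht (ph_ne_one e1_ne) g
      rw [hg]
      simpa using ht
    obtain ⟨w, rfl⟩ := exists_ph (φ := φ) hgN
    refine ⟨w, ?_, rfl⟩
    simp only [Finset.mem_filter, Finset.mem_univ, true_and]
    rw [← ph_mul, ← ph_mul] at hg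
    exact ph_inj hg

/-- A bound on the degree from the second orthogonality relation. -/
theorem deg_le_two (c : Ctx T N φ) {χ₁ χ₂ : G → ℂ} (h₁ : IsIrrCharacter G χ₁)
    (h₂ : IsIrrCharacter G χ₂) (h12 : χ₁ ≠ χ₂) (hn1 : χ₁ ≠ fun _ => 1) (hn2 : χ₂ ≠ fun _ => 1)
    {d : ℕ} (hd1 : χ₁ (ph φ e1H) = d) (hd2 : χ₂ (ph φ e1H) = d + 1) : d ≤ 2 := by
  classical
  have horth := sum_irr_mul_conj (ph φ e1H) (ph φ e1H)
  rw [if_pos (IsConj.refl _), card_cent_e1 c] at horth
  set e := ph φ e1H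
  have hre : ∑ χ : IrrCharacter G, Complex.normSq ((χ : G → ℂ) e) = 18 := by
    have h1 : ((∑ χ : IrrCharacter G, Complex.normSq ((χ : G → ℂ) e) : ℝ) : ℂ) = ((18 : ℝ) : ℂ) := by
      push_cast
      rw [← (by norm_cast : ((18 : ℕ) : ℂ) = 18), ← horth]
      refine Finset.sum_congr rfl fun χ _ => ?_
      rw [Complex.mul_conj]
    exact_mod_cast h1
  set ψ₀ : IrrCharacter G := ⟨fun _ => 1, isIrrCharacter_one⟩
  set ψ₁ : IrrCharacter G := ⟨χ₁, h₁⟩
  set ψ₂ : IrrCharacter G := ⟨χ₂, h₂⟩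
  have h01 : ψ₀ ≠ ψ₁ := fun h => hn1 (congrArg Subtype.val h).symm
  have h02 : ψ₀ ≠ ψ₂ := fun h => hn2 (congrArg Subtype.val h).symm
  have h12' : ψ₁ ≠ ψ₂ := fun h => h12 (congrArg Subtype.val h)
  have hle := Finset.sum_le_univ_sum_of_nonneg (s := ({ψ₀, ψ₁, ψ₂} : Finset (IrrCharacter G)))
    (f := fun χ : IrrCharacter G => Complex.normSq ((χ : G → ℂ) e))
    (fun χ => Complex.normSq_nonneg _)
  rw [hre, Finset.sum_insert (by simp [h01, h02]), Finset.sum_pair h12'] at hle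
  have v0 : Complex.normSq ((ψ₀ : G → ℂ) e) = 1 := by
    simp [ψ₀]
  have v1 : Complex.normSq ((ψ₁ : G → ℂ) e) = (d : ℝ) ^ 2 := by
    show Complex.normSq (χ₁ e) = _
    rw [hd1, Complex.normSq_natCast]
    ring
  have v2 : Complex.normSq ((ψ₂ : G → ℂ) e) = ((d : ℝ) + 1) ^ 2 := by
    show Complex.normSq (χ₂ e) = _
    rw [hd2]
    have : ((d : ℂ) + 1) = (((d : ℝ) + 1 : ℝ) : ℂ) := by push_cast; rfl
    rw [this, Complex.normSq_ofReal]
    ring
  rw [v0, v1, v2] at hle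
  by_contra hd
  have hd3 : (3 : ℝ) ≤ d := by
    have : 3 ≤ d := by omega
    exact_mod_cast this
  nlinarith

/-- Characters containing `e₁`, `e₂` in the kernel contain `T`. -/
theorem T_ker {χ : G → ℂ} (hχ : IsCharacter G χ) (h1 : χ (ph φ e1H) = χ 1)
    (h2 : χ (ph φ e2H) = χ 1) {w : HH} (hw : isT w = true) : χ (ph φ w) = χ 1 := by
  obtain ⟨i, j, rfl⟩ := isT_gen w hw
  rw [ph_mul, ph_pow, ph_pow]
  have hm1 : ph φ e1H ∈ charKer hχ := h1
  have hm2 : ph φ e2H ∈ charKer hχ := h2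
  exact (charKer hχ).mul_mem ((charKer hχ).pow_mem hm1 _) ((charKer hχ).pow_mem hm2 _)

/-- Normal subgroups containing the Sylow subgroup `T` have index at most four. -/
theorem index_le_four (P : Sylow 3 G) (c : Ctx (P : Subgroup G) N φ)
    (h9 : Nat.card (P : Subgroup G) = 9) (L : Subgroup G) [L.Normal] (hL : (P : Subgroup G) ≤ L) :
    N ⊔ L = ⊤ ∧ L.index ≤ 4 := by
  have hsup := Sylow.normalizer_sup_eq_top' P hL
  have hnorm : Subgroup.normalizer ((P : Subgroup G) : Set G) ≤ N := by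
    intro z hz
    have ht : ph φ e1H ∈ (P : Subgroup G) := (c.mem_T _).mpr isT_e1
    apply c.ti _ ht (ph_ne_one e1_ne) z
    exact (Subgroup.mem_normalizer_iff.mp hz _).mp ht
  have hNL : N ⊔ L = ⊤ := by
    apply top_le_iff.mp
    rw [← hsup]
    exact sup_le_sup_right hnorm L
  refine ⟨hNL, ?_⟩
  have h1 : L.index = L.relIndex N := by
    rw [← Subgroup.relIndex_top_right, ← hNL, Subgroup.relIndex_sup_right]
  have h2 : L.relIndex N ∣ (P : Subgroup G).relIndex N := Subgroup.relIndex_dvd_of_le_left N hL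
  have h3 : (P : Subgroup G).relIndex N = 4 := by
    have h4 := Subgroup.card_mul_index ((P : Subgroup G).subgroupOf N)
    have h5 : Nat.card ((P : Subgroup G).subgroupOf N) = 9 := by
      rw [← h9]
      exact Nat.card_congr (Subgroup.subgroupOfEquivOfLe c.le_N).toEquiv
    rw [h5, card_N φ] at h4
    show ((P : Subgroup G).subgroupOf N).index = 4
    omega
  rw [h1]
  rw [h3] at h2
  exact Nat.le_of_dvd (by norm_num) h2

/-- An irreducible nontrivial character containing `L` in its kernel with `|G:L| ≤ 4` is linear. -/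
theorem deg_one_of_index (L : Subgroup G) [L.Normal] (hL : L.index ≤ 4) {χ : G → ℂ}
    (hχ : IsIrrCharacter G χ) (hn : χ ≠ fun _ => 1) (hk : ∀ n ∈ L, χ n = χ 1) : χ 1 = 1 := by
  classical
  have h := sum_ker_deg_sq L
  have hm := Subgroup.card_mul_index L
  rw [← hm] at h
  have hpos : 0 < Nat.card L := Nat.card_pos
  have h1 := Nat.eq_of_mul_eq_mul_left hpos h
  set ψ₀ : IrrCharacter G := ⟨fun _ => 1, isIrrCharacter_one⟩
  set ψ₁ : IrrCharacter G := ⟨χ, hχ⟩
  have h01 : ψ₀ ≠ ψ₁ := fun h => hn (congrArg Subtype.val h).symm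
  have hle := Finset.sum_le_univ_sum_of_nonneg (s := ({ψ₀, ψ₁} : Finset (IrrCharacter G)))
    (f := fun χ : IrrCharacter G => if ∀ n ∈ L, (χ : G → ℂ) n = (χ : G → ℂ) 1 then
        (charDegree (χ : G → ℂ)) ^ 2 else 0)
    (fun χ => Nat.zero_le _)
  rw [h1, Finset.sum_pair h01, if_pos (fun n _ => rfl), if_pos hk] at hle
  have hd0 : charDegree (ψ₀ : G → ℂ) = 1 := by
    have := one_eq_charDegree (isCharacter_one (G := G))
    have h2 : ((1 : ℕ) : ℂ) = (charDegree (fun _ : G => (1 : ℂ)) : ℂ) := by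
      push_cast
      exact this
    exact_mod_cast h2.symm
  rw [hd0] at hle
  have hd1 := one_eq_charDegree (IsIrrCharacter.isCharacter hχ)
  have hd2 : charDegree χ ^ 2 ≤ 3 := by
    have : charDegree (ψ₁ : G → ℂ) = charDegree χ := rfl
    rw [this] at hle
    omega
  have hd3 : charDegree χ ≤ 1 := by nlinarith
  have hd4 := charDegree_pos hχ
  have hd5 : charDegree χ = 1 := by omega
  rw [hd1, hd5]
  simp

/-- **Main lemma**: if `a` is not conjugate to `b` or `ab`, then the generalized character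
`τ(1 ⊗ α)` is `1 + λ - ρ̂` with `λ` linear, with the restrictions to `N` as expected. -/
theorem lemmaA (P : Sylow 3 G) (c : Ctx (P : Subgroup G) N φ) (h9 : Nat.card (P : Subgroup G) = 9)
    (hab : ¬ IsConj (ph φ aH) (ph φ bH)) (hne : ¬ IsConj (ph φ aH) (ph φ (aH * bH))) :
    ∃ χ₁ χ₂ : G → ℂ, IsIrrCharacter G χ₁ ∧ IsIrrCharacter G χ₂ ∧
      tau φ F1 = (fun _ => 1) + χ₁ - χ₂ ∧ (∀ w, χ₁ (ph φ w) = ((L1 w : ℤ) : ℂ)) ∧
      (∀ w, χ₂ (ph φ w) = ((P1 w : ℤ) : ℂ)) := by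
  classical
  have hclass1 : IsClassFunction G (fun _ : G => (1 : ℂ)) := fun _ _ => rfl
  have hgen := tau_gen φ gen_F1
  have h3 : classInner (tau φ F1) (tau φ F1) = 3 := by
    rw [tau_tau c F1 adm_F1, sum_F1_F1]
    norm_num
  have h1 : classInner (tau φ F1) (fun _ => 1) = 1 := by
    rw [tau_inner φ F1 hclass1]
    have : ∑ w : HH, ((F1 w : ℤ) : ℂ) * conj (1 : ℂ) = ((∑ w : HH, F1 w : ℤ) : ℂ) := by
      push_cast
      simp
    rw [this, sum_F1]
    norm_num
  have h0 : tau φ F1 1 = 0 := by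
    have := tau_ph c adm_F1 1
    rw [ph_one, F1_one] at this
    simpa using this
  obtain ⟨χ₁, χ₂, h₁, h₂, h12, hn1, hn2, hdeg, hθ⟩ := decomp3 hgen h3 h1 h0
  have hθv : ∀ w, ((F1 w : ℤ) : ℂ) = 1 + χ₁ (ph φ w) - χ₂ (ph φ w) := by
    intro w
    rw [← tau_ph c adm_F1 w, hθ]
    simp
  have ch₁ := IsIrrCharacter.isCharacter h₁
  have ch₂ := IsIrrCharacter.isCharacter h₂
  obtain ⟨d, hd0, hd⟩ := Cfsg.Agent.Lib.CharLattice.exists_degree_pos h₁
  have hval : χ₂ (ph φ aH) = 1 + χ₁ (ph φ aH) := by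
    have := hθv aH
    rw [F1_aH] at this
    push_cast at this
    linear_combination this
  have hD := Dsum_decomp h₁ h₂ hdeg (ph φ aH) hval
  rw [← hθ, Dsum_tau c adm_F1 ph_aH_sq,
    sum_cast (P := fun w => IsConj (ph φ aH) (ph φ w)) (Q := fun w => A1 w = true)
      (conj_iff_A1 hab hne) F1] at hD
  have hs0 : (∑ w : HH, ∑ w' : HH, (if A1 w = true ∧ A1 w' = true then F1 (w * w') else 0) : ℤ)
      = 0 := by
    convert sum_A1_F1
  rw [hs0] at hD
  have hG : (Nat.card G : ℂ) ≠ 0 := by exact_mod_cast Nat.card_pos.ne'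
  have hx : χ₁ (ph φ aH) = χ₁ 1 := by
    have h5 : (Nat.card G : ℂ) ^ 2 * (χ₁ 1 - χ₁ (ph φ aH)) ^ 2 = 0 := by
      rw [← hD]
      simp
    have h6 := (mul_eq_zero.mp h5).resolve_left (pow_ne_zero 2 hG)
    have h7 := pow_eq_zero_iff (by norm_num) |>.mp h6
    linear_combination -h7
  have hy : χ₂ (ph φ aH) = χ₂ 1 := by
    rw [hval, hx, hdeg]
    ring
  have he1 := e1_ker ch₁ hx
  have he1' := e1_ker ch₂ hy
  have hdle : d ≤ 2 := deg_le_two c h₁ h₂ h12 hn1 hn2 (he1.trans hd)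
    (he1'.trans (by rw [hdeg, hd]))
  -- the values at `e₂`
  have hinv1 : ∀ {χ : G → ℂ}, IsCharacter G χ → χ (ph φ e2H)⁻¹ = χ (ph φ e2H) := by
    intro χ hχ
    rw [← ph_inv, e2H_inv, ph_conj]
    exact isClassFunction_of_isCharacter hχ _ _
  have hcube : (ph φ e2H) ^ 3 = 1 := by
    rw [← ph_pow, e2_cube, ph_one]
  obtain ⟨p₁, hp₁⟩ := cube_sum ch₁ hcube
  obtain ⟨p₂, hp₂⟩ := cube_sum ch₂ hcube
  rw [hinv1 ch₁] at hp₁
  rw [hinv1 ch₂] at hp₂
  have hm : χ₂ (ph φ e2H) = χ₁ (ph φ e2H) - 2 := by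
    have := hθv e2H
    rw [F1_e2] at this
    push_cast at this
    linear_combination this
  rw [hd] at hp₁
  rw [hdeg, hd, hm] at hp₂
  obtain ⟨k, hk⟩ := int_of_two_mul (char_isIntegral ch₁ (ph φ e2H))
    (n := 3 * p₁ - d) (by push_cast; linear_combination hp₁)
  rw [hk] at hp₁ hp₂
  have hp₁' : (d : ℤ) + k + k = 3 * p₁ := by exact_mod_cast hp₁
  have hp₂' : (d : ℤ) + 1 + (k - 2) + (k - 2) = 3 * p₂ := by
    have : (((d : ℤ) + 1 + (k - 2) + (k - 2) : ℤ) : ℂ) = ((3 * p₂ : ℤ) : ℂ) := by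
      push_cast
      exact hp₂
    exact_mod_cast this
  have hnorm := char_norm_le ch₁ (ph φ e2H)
  rw [hk, hd, Complex.norm_intCast, Complex.norm_natCast] at hnorm
  have hk1 : |k| ≤ (d : ℤ) := by exact_mod_cast hnorm
  have hk2 := abs_le.mp hk1
  have hkd : k = d := by omega
  have he2 : χ₁ (ph φ e2H) = χ₁ 1 := by
    rw [hk, hkd, hd]
    simp
  have hT := fun {w : HH} (hw : isT w = true) => T_ker ch₁ he1 he2 hw
  -- the kernel
  have hPL : (P : Subgroup G) ≤ charKer ch₁ := by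
    intro t ht
    obtain ⟨w, rfl⟩ := exists_ph (φ := φ) (c.le_N ht)
    exact hT ((c.mem_T w).mp ht)
  obtain ⟨hsup, hidx⟩ := index_le_four P c h9 (charKer ch₁) hPL
  have hone : χ₁ 1 = 1 := deg_one_of_index (charKer ch₁) hidx h₁ hn1 (fun n hn => hn)
  obtain ⟨f, hf⟩ := exists_hom_of_degree_one ch₁ hone
  have hmul : ∀ x y : G, χ₁ (x * y) = χ₁ x * χ₁ y := by
    intro x y
    simp [hf]
  have hTv : ∀ {w : HH}, isT w = true → χ₁ (ph φ w) = 1 := fun hw => (hT hw).trans hone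
  have hav : χ₁ (ph φ aH) = 1 := hx.trans hone
  have hbsq : χ₁ (ph φ bH) * χ₁ (ph φ bH) = 1 := by
    rw [← hmul, ph_bH_sq, hone]
  have ha' : ∀ w : HH, ph φ w = ph φ (w * aH) * ph φ aH := by
    intro w
    rw [← ph_mul, mul_assoc, aH_sq, mul_one]
  have hb' : ∀ w : HH, ph φ w = ph φ (w * bH) * ph φ bH := by
    intro w
    rw [← ph_mul, mul_assoc, bH_sq, mul_one]
  have hab' : ∀ w : HH, ph φ w = ph φ (w * aH * bH) * ph φ bH * ph φ aH := by
    intro w
    rw [← ph_mul, ← ph_mul, mul_assoc (w * aH), bH_sq, mul_one, mul_assoc, aH_sq, mul_one]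
  have hbv : χ₁ (ph φ bH) = -1 := by
    have h5 : (χ₁ (ph φ bH) - 1) * (χ₁ (ph φ bH) + 1) = 0 := by
      linear_combination hbsq
    rcases mul_eq_zero.mp h5 with h6 | h6
    · exfalso
      have h7 : χ₁ (ph φ bH) = 1 := by linear_combination h6
      have h8 : ∀ w : HH, χ₁ (ph φ w) = 1 := by
        intro w
        rcases cosets w with h | h | h | h
        · exact hTv h
        · rw [ha', hmul, hTv h, hav, one_mul]
        · rw [hb', hmul, hTv h, h7, one_mul]
        · rw [hab', hmul, hmul, hTv h, hav, h7, one_mul, one_mul]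
      have h9' : N ≤ charKer ch₁ := by
        intro n hn
        obtain ⟨w, rfl⟩ := exists_ph (φ := φ) hn
        show χ₁ _ = χ₁ 1
        rw [h8, hone]
      rw [sup_eq_right.mpr h9'] at hsup
      apply hn1
      funext g
      have h10 : g ∈ charKer ch₁ := by rw [hsup]; trivial
      have h11 : χ₁ g = χ₁ 1 := h10
      rw [h11, hone]
    · linear_combination h6
  have hL1 : ∀ w, χ₁ (ph φ w) = ((L1 w : ℤ) : ℂ) := by
    intro w
    rcases cosets w with h | h | h | h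
    · rw [hTv h, L1_T w h]
      simp
    · rw [ha', hmul, hTv h, hav, L1_Ta w h]
      simp
    · rw [hb', hmul, hTv h, hbv, L1_Tb w h]
      simp
    · rw [hab', hmul, hmul, hTv h, hav, hbv, L1_Tab w h]
      simp
  refine ⟨χ₁, χ₂, h₁, h₂, hθ, hL1, fun w => ?_⟩
  have h5 := hθv w
  rw [hL1 w] at h5
  rw [P1_eq w]
  push_cast
  linear_combination h5

end Main

end Cfsg.Agent.Lib.S3x3A
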