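import Mathlib
import Cfsg.Agent.Lib.S3x3A

/-!
# `a` is not conjugate to `b`, and `a` is not conjugate to `ab`
-/

set_option autoImplicit false

open scoped Pointwise

namespace Cfsg.Agent.Lib.S3x3B

open Cfsg Cfsg.Agent.Lib.CharBasic Cfsg.Agent.Lib.CharInd Cfsg.Agent.Lib.S3x3Model
open Cfsg.Agent.Lib.GenChar Cfsg.Agent.Lib.S3x3Tau Cfsg.Agent.Lib.S3x3Chars
open Cfsg.Agent.Lib.CharKernel Cfsg.Agent.Lib.S3x3A
open scoped ComplexConjugate

variable {G : Type*} [Group G] {N : Subgroup G} {φ : HH ≃* N}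

theorem isP_zpowers {K : Type*} [Group K] (x : K) (hx : x ^ 3 = 1) :
    IsPGroup 3 (Subgroup.zpowers x) := by
  rintro ⟨y, hy⟩
  refine ⟨1, Subtype.ext ?_⟩
  obtain ⟨m, rfl⟩ := Subgroup.mem_zpowers_iff.mp hy
  simp only [pow_one, Subgroup.coe_pow, Subgroup.coe_one]
  rw [← zpow_natCast, ← zpow_mul, mul_comm, zpow_mul, zpow_natCast, hx, one_zpow]

theorem mem_smul_sylow {K : Type*} [Group K] {p : ℕ} [Fact p.Prime] (Q : Sylow p K) (z : K) {x : K}
    (h : x ∈ ((z • Q : Sylow p K) : Subgroup K)) : z⁻¹ * x * z ∈ (Q : Subgroup K) := by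
  rw [Sylow.coe_subgroup_smul, Subgroup.mem_pointwise_smul_iff_inv_smul_mem] at h
  simpa [MulAut.smul_def, MulAut.conj_apply] using h

theorem not_conj_ab [Finite G] (P : Sylow 3 G) (c : Ctx (P : Subgroup G) N φ) :
    ¬ IsConj (ph φ aH) (ph φ bH) := by
  classical
  intro h
  obtain ⟨g, hg⟩ := isConj_iff.mp h
  set b := ph φ bH with hb
  set a := ph φ aH with ha
  set e₁ := ph φ e1H with he₁
  set e₂ := ph φ e2H with he₂
  have he₁3 : e₁ ^ 3 = 1 := by rw [he₁, ← ph_pow, e1_cube, ph_one]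
  have he₂3 : e₂ ^ 3 = 1 := by rw [he₂, ← ph_pow, e2_cube, ph_one]
  have he₁T : e₁ ∈ (P : Subgroup G) := (c.mem_T _).mpr isT_e1
  have he₂T : e₂ ∈ (P : Subgroup G) := (c.mem_T _).mpr isT_e2
  have he₁ne : e₁ ≠ 1 := ph_ne_one e1_ne
  have he₂ne : e₂ ≠ 1 := ph_ne_one e2_ne
  let Cb : Subgroup G := Subgroup.centralizer ({b} : Set G)
  have he₁C : e₁ ∈ Cb := by
    rw [Subgroup.mem_centralizer_singleton_iff, he₁, hb, ← ph_mul, ← ph_mul, e1_comm_b]
  have hyC : g * e₂ * g⁻¹ ∈ Cb := by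
    rw [Subgroup.mem_centralizer_singleton_iff]
    have h1 : e₂ * a = a * e₂ := by
      rw [he₂, ha, ← ph_mul, ← ph_mul, e2_comm_a]
    rw [← hg]
    calc g * e₂ * g⁻¹ * (g * a * g⁻¹) = g * (e₂ * a) * g⁻¹ := by group
      _ = g * (a * e₂) * g⁻¹ := by rw [h1]
      _ = g * a * g⁻¹ * (g * e₂ * g⁻¹) := by group
  let e₁' : Cb := ⟨e₁, he₁C⟩
  let y' : Cb := ⟨g * e₂ * g⁻¹, hyC⟩
  have he₁'3 : e₁' ^ 3 = 1 := Subtype.ext he₁3
  have hy'3 : y' ^ 3 = 1 := by
    apply Subtype.ext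
    show (g * e₂ * g⁻¹) ^ 3 = 1
    rw [conj_pow, he₂3]
    group
  obtain ⟨Q, hQ⟩ := (isP_zpowers e₁' he₁'3).exists_le_sylow
  have hQ' : IsPGroup 3 ((Q : Subgroup Cb).map Cb.subtype) := Q.isPGroup'.map _
  obtain ⟨R, hR⟩ := hQ'.exists_le_sylow
  obtain ⟨z, hz⟩ := MulAction.exists_smul_eq G P R
  have hin : ∀ x : Cb, x ∈ (Q : Subgroup Cb) → z⁻¹ * (x : G) * z ∈ (P : Subgroup G) := by
    intro x hx
    apply mem_smul_sylow P z
    rw [hz]
    exact hR ⟨x, hx, rfl⟩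
  have he₁Q : e₁' ∈ (Q : Subgroup Cb) := hQ (Subgroup.mem_zpowers e₁')
  have hzN : z⁻¹ ∈ N := by
    apply c.ti e₁ he₁T he₁ne z⁻¹
    simpa using hin e₁' he₁Q
  obtain ⟨v, hv⟩ := exists_ph (φ := φ) hzN
  -- elements of `Q` are powers of `e₁`
  have hpow : ∀ x : Cb, x ∈ (Q : Subgroup Cb) → ∃ i : Fin 3, (x : G) = ph φ (e1H ^ (i : ℕ)) := by
    intro x hx
    have h1 := hin x hx
    obtain ⟨w, hw⟩ := exists_ph (φ := φ) (c.le_N h1)
    have hwT : isT w = true := (c.mem_T w).mp (by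
      show ph φ w ∈ _
      rw [hw]
      exact h1)
    have hzv : z = ph φ v⁻¹ := by
      rw [ph_inv, hv]
      simp
    have hx2 : (x : G) = ph φ (v⁻¹ * w * v⁻¹⁻¹) := by
      rw [ph_conj, hw, ← hzv]
      group
    have hxT : isT (v⁻¹ * w * v⁻¹⁻¹) = true := isT_conj _ _ hwT
    have hxb : (x : G) ∈ Cb := x.2
    rw [Subgroup.mem_centralizer_singleton_iff, hx2, hb, ← ph_mul, ← ph_mul] at hxb
    obtain ⟨i, hi⟩ := T_cent_b _ hxT (ph_inj hxb)
    exact ⟨i, by rw [hx2, hi]⟩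
  obtain ⟨Q₂, hQ₂⟩ := (isP_zpowers y' hy'3).exists_le_sylow
  obtain ⟨w, hw⟩ := MulAction.exists_smul_eq Cb Q Q₂
  have hy2 : w⁻¹ * y' * w ∈ (Q : Subgroup Cb) := by
    apply mem_smul_sylow Q w
    rw [hw]
    exact hQ₂ (Subgroup.mem_zpowers y')
  obtain ⟨i, hi⟩ := hpow _ hy2
  have hconj : ((w : G)⁻¹ * g) * e₂ * ((w : G)⁻¹ * g)⁻¹ = ph φ (e1H ^ (i : ℕ)) := by
    rw [← hi]
    show _ = (w : G)⁻¹ * (g * e₂ * g⁻¹) * (w : G)
    group
  have hT' : ph φ (e1H ^ (i : ℕ)) ∈ (P : Subgroup G) := by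
    rw [ph_pow]
    exact (P : Subgroup G).pow_mem he₁T _
  have hzN2 : (w : G)⁻¹ * g ∈ N := c.ti e₂ he₂T he₂ne _ (hconj ▸ hT')
  obtain ⟨v', hv'⟩ := exists_ph (φ := φ) hzN2
  rw [← hv', he₂, ← ph_conj] at hconj
  exact not_conj_e2_e1 v' i (ph_inj hconj)

section LemmaB

variable [Fintype G] {T : Subgroup G}

theorem tau_swap (F : HH → ℤ) : tau (swapφ φ) F = tau φ (fun w => F (w.2, w.1)) := by
  unfold tau
  congr 1

theorem decomp_F1 (c : Ctx T N φ) :
    ∃ χ₁ χ₂ : G → ℂ, IsIrrCharacter G χ₁ ∧ IsIrrCharacter G χ₂ ∧ χ₁ ≠ χ₂ ∧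
      χ₁ ≠ (fun _ => 1) ∧ χ₂ ≠ (fun _ => 1) ∧ χ₂ 1 = χ₁ 1 + 1 ∧
      tau φ F1 = (fun _ => 1) + χ₁ - χ₂ := by
  have hclass1 : IsClassFunction G (fun _ : G => (1 : ℂ)) := fun _ _ => rfl
  have hgen := tau_gen φ gen_F1
  have h3 : classInner (tau φ F1) (tau φ F1) = 3 := by
    rw [tau_tau c F1 adm_F1, sum_F1_F1]
    norm_num
  have h1 : classInner (tau φ F1) (fun _ => 1) = 1 := by
    rw [tau_inner φ F1 hclass1]
    have : ∑ w : HH, ((F1 w : ℤ) : ℂ) * conj (1 : ℂ) = ((∑ w : HH, F1 w : ℤ) : ℂ) := by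
      push_cast
      simp
    rw [this, sum_F1]
    norm_num
  have h0 : tau φ F1 1 = 0 := by
    have := tau_ph c adm_F1 1
    rw [ph_one, F1_one] at this
    simpa using this
  exact decomp3 hgen h3 h1 h0

/-- `a` is not conjugate to `ab`. -/
theorem lemmaB (P : Sylow 3 G) (c : Ctx (P : Subgroup G) N φ) (h9 : Nat.card (P : Subgroup G) = 9)
    (hne : IsConj (ph φ aH) (ph φ (aH * bH))) : False := by
  classical
  have hab := not_conj_ab P c
  have c' := c.swap
  have hsa : ph (swapφ φ) aH = ph φ bH := by rw [swapφ_apply, aH_swap]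
  have hsb : ph (swapφ φ) bH = ph φ aH := by rw [swapφ_apply, bH_swap]
  have hsab : ph (swapφ φ) (aH * bH) = ph φ (aH * bH) := by rw [swapφ_apply, ab_swap]
  have hab' : ¬ IsConj (ph (swapφ φ) aH) (ph (swapφ φ) bH) := by
    rw [hsa, hsb]
    exact fun h => hab h.symm
  have hne' : ¬ IsConj (ph (swapφ φ) aH) (ph (swapφ φ) (aH * bH)) := by
    rw [hsa, hsab]
    exact fun h => hab (hne.trans h.symm)
  obtain ⟨lam, rh, hlam, hrh, hr, hlamv', hrhv'⟩ := lemmaA P c' h9 hab' hne'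
  have hr' : tau φ R1 = (fun _ => 1) + lam - rh := by
    rw [← hr, tau_swap]
    congr 1
    funext w
    exact (F1_swap w).symm
  have hlamv : ∀ w, lam (ph φ w) = ((L2 w : ℤ) : ℂ) := by
    intro w
    have := hlamv' (w.2, w.1)
    rw [swapφ_apply, L1_swap] at this
    exact this
  have hrhv : ∀ w, rh (ph φ w) = ((P2 w : ℤ) : ℂ) := by
    intro w
    have := hrhv' (w.2, w.1)
    rw [swapφ_apply, P1_swap] at this
    exact this
  obtain ⟨χ₁, χ₂, h₁, h₂, h12, hn1, hn2, hdeg, hθ⟩ := decomp_F1 c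
  have hθv : ∀ w, ((F1 w : ℤ) : ℂ) = 1 + χ₁ (ph φ w) - χ₂ (ph φ w) := by
    intro w
    rw [← tau_ph c adm_F1 w, hθ]
    simp
  have ch₁ := IsIrrCharacter.isCharacter h₁
  have ch₂ := IsIrrCharacter.isCharacter h₂
  obtain ⟨d, hd0, hd⟩ := Cfsg.Agent.Lib.CharLattice.exists_degree_pos h₁
  have hval : χ₂ (ph φ aH) = 1 + χ₁ (ph φ aH) := by
    have := hθv aH
    rw [F1_aH] at this
    push_cast at this
    linear_combination this
  have hk := conj_iff_A13 hab hne
  -- the class sums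
  have hD1 := Dsum_decomp h₁ h₂ hdeg (ph φ aH) hval
  rw [← hθ, Dsum_tau c adm_F1 ph_aH_sq,
    sum_cast (P := fun w => IsConj (ph φ aH) (ph φ w)) (Q := fun w => A1 w = true ∨ A3 w = true)
      hk F1] at hD1
  have hs1 : (∑ w : HH, ∑ w' : HH, (if (A1 w = true ∨ A3 w = true) ∧ (A1 w' = true ∨ A3 w' = true)
      then F1 (w * w') else 0) : ℤ) = 162 := by
    convert sum_A13_F1
  rw [hs1] at hD1
  have hD2 := Dsum_tau c adm_R1 (a := ph φ aH) ph_aH_sq
  rw [sum_cast (P := fun w => IsConj (ph φ aH) (ph φ w)) (Q := fun w => A1 w = true ∨ A3 w = true)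
      hk R1] at hD2
  have hs2 : (∑ w : HH, ∑ w' : HH, (if (A1 w = true ∨ A3 w = true) ∧ (A1 w' = true ∨ A3 w' = true)
      then R1 (w * w') else 0) : ℤ) = 288 := by
    convert sum_A13_R1
  rw [hs2, hr', Dsum_sub, Dsum_add] at hD2
  have hc1 := Dsum_irr (isIrrCharacter_one (G := G)) (ph φ aH)
  simp only [one_mul, mul_one] at hc1
  have hc2 := Dsum_irr hlam (ph φ aH)
  have hc3 := Dsum_irr hrh (ph φ aH)
  have hl1 : lam 1 = 1 := by
    have := hlamv 1
    rw [ph_one, L2_one] at this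
    simpa using this
  have hr1 : rh 1 = 2 := by
    have := hrhv 1
    rw [ph_one, P2_one] at this
    simpa using this
  have hla : lam (ph φ aH) = -1 := by
    have := hlamv aH
    rw [L2_aH] at this
    simpa using this
  have hra : rh (ph φ aH) = 0 := by
    have := hrhv aH
    rw [P2_aH] at this
    simpa using this
  rw [hl1, hla] at hc2
  rw [hr1, hra] at hc3
  have hG : (Nat.card G : ℂ) ≠ 0 := by exact_mod_cast Nat.card_pos.ne'
  have hc2' : Dsum (ph φ aH) lam = (Nat.card G : ℂ) ^ 2 := by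
    linear_combination hc2
  have hc3' : Dsum (ph φ aH) rh = 0 := by
    linear_combination (1 / 2 : ℂ) * hc3
  rw [hc1, hc2', hc3'] at hD2
  -- eliminate
  set cG : ℂ := (Nat.card G : ℂ)
  set cA : ℂ := (cc (ph φ aH) : ℂ)
  set x := χ₁ (ph φ aH) with hx
  rw [hd] at hD1
  have hmain : 8 * ((d : ℂ) - x) ^ 2 = 9 * ((d : ℂ) * (d + 1)) := by
    have h2 : cG * cA ^ 2 = cG ^ 2 / 4 := by
      have : cG ^ 2 + cG ^ 2 - 0 = (36 : ℂ)⁻¹ * (cG * (cA ^ 2 * ((288 : ℤ) : ℂ))) := hD2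
      push_cast at this
      field_simp at this
      linear_combination (-1 / 288 : ℂ) * this
    have h3 : (36 : ℂ)⁻¹ * (cG * (cA ^ 2 * ((162 : ℤ) : ℂ))) * ((d : ℂ) * (d + 1)) =
        (cG ^ 2 / 4) * (9 / 2) * ((d : ℂ) * (d + 1)) := by
      push_cast
      rw [← h2]
      ring
    rw [h3] at hD1
    have h4 : cG ^ 2 ≠ 0 := pow_ne_zero 2 hG
    apply mul_left_cancel₀ h4
    linear_combination (-8 : ℂ) * hD1
  -- integrality of `x`
  obtain ⟨p, hp⟩ := inv_sum ch₁ (ph_aH_sq (φ := φ))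
  rw [hd] at hp
  have hxint : x = ((2 * p - d : ℤ) : ℂ) := by
    push_cast
    linear_combination hp
  have hnint : (d : ℂ) - x = ((d - (2 * p - d) : ℤ) : ℂ) := by
    rw [hxint]
    push_cast
    ring
  have hZ : 8 * ((d : ℤ) - (2 * p - d)) ^ 2 = 9 * ((d : ℤ) * (d + 1)) := by
    have : ((8 * ((d : ℤ) - (2 * p - d)) ^ 2 : ℤ) : ℂ) = ((9 * ((d : ℤ) * (d + 1)) : ℤ) : ℂ) := by
      rw [Int.cast_mul, Int.cast_pow, ← hnint]
      push_cast
      exact hmain
    exact_mod_cast this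
  obtain ⟨w, hw⟩ := square_of_eq hZ
  -- inner products
  have hclass1 : IsClassFunction G (fun _ : G => (1 : ℂ)) := fun _ _ => rfl
  have clam : IsClassFunction G lam :=
    isClassFunction_of_isCharacter (IsIrrCharacter.isCharacter hlam)
  have crh : IsClassFunction G rh :=
    isClassFunction_of_isCharacter (IsIrrCharacter.isCharacter hrh)
  have hF1lam : classInner (tau φ F1) lam = 0 := by
    rw [tau_inner φ F1 clam]
    have : ∑ w : HH, ((F1 w : ℤ) : ℂ) * conj (lam (ph φ w)) = ((∑ w : HH, F1 w * L2 w : ℤ) : ℂ) := by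
      push_cast
      refine Finset.sum_congr rfl fun w _ => ?_
      rw [hlamv]
      simp
    rw [this, sum_F1_L2]
    simp
  have hF1rh : classInner (tau φ F1) rh = 0 := by
    rw [tau_inner φ F1 crh]
    have : ∑ w : HH, ((F1 w : ℤ) : ℂ) * conj (rh (ph φ w)) = ((∑ w : HH, F1 w * P2 w : ℤ) : ℂ) := by
      push_cast
      refine Finset.sum_congr rfl fun w _ => ?_
      rw [hrhv]
      simp
    rw [this, sum_F1_P2]
    simp
  have h1χ₁ : classInner (fun _ : G => (1 : ℂ)) χ₁ = 0 :=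
    classInner_irr_ne isIrrCharacter_one h₁ hn1.symm
  have h1χ₂ : classInner (fun _ : G => (1 : ℂ)) χ₂ = 0 :=
    classInner_irr_ne isIrrCharacter_one h₂ hn2.symm
  have hθχ₁ : classInner (tau φ F1) χ₁ = 1 := by
    rw [hθ, classInner_sub_left, classInner_add_left, h1χ₁, classInner_irr_self h₁,
      classInner_irr_ne h₂ h₁ h12.symm]
    ring
  have hθχ₂ : classInner (tau φ F1) χ₂ = -1 := by
    rw [hθ, classInner_sub_left, classInner_add_left, h1χ₂, classInner_irr_self h₂,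
      classInner_irr_ne h₁ h₂ h12]
    ring
  have hne1 : ∀ ψ : G → ℂ, classInner (tau φ F1) ψ = 0 → ψ ≠ χ₁ := by
    rintro ψ h rfl
    rw [hθχ₁] at h
    exact one_ne_zero h
  have hne2 : ∀ ψ : G → ℂ, classInner (tau φ F1) ψ = 0 → ψ ≠ χ₂ := by
    rintro ψ h rfl
    rw [hθχ₂] at h
    norm_num at h
  -- `c₂`
  have hc2zero : classInner (tau φ F2) χ₁ = 0 := by
    have hw1 : classInner (tau φ F2) χ₁ = classInner (tau φ F2) χ₂ := by
      have h5 := tau_tau c F2 adm_F1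
      rw [sum_F2_F1, hθ, classInner_sub_right, classInner_add_right] at h5
      have h6 : classInner (tau φ F2) (fun _ => 1) = 0 := by
        rw [tau_inner φ F2 hclass1]
        have : ∑ w : HH, ((F2 w : ℤ) : ℂ) * conj (1 : ℂ) = ((∑ w : HH, F2 w : ℤ) : ℂ) := by
          push_cast
          simp
        rw [this, sum_F2]
        simp
      rw [h6] at h5
      simp only [Int.cast_zero, mul_zero] at h5
      linear_combination h5
    have hψ1 : classInner (tau φ F2) lam = 1 := by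
      rw [tau_inner φ F2 clam]
      have : ∑ w : HH, ((F2 w : ℤ) : ℂ) * conj (lam (ph φ w)) =
          ((∑ w : HH, F2 w * L2 w : ℤ) : ℂ) := by
        push_cast
        refine Finset.sum_congr rfl fun w _ => ?_
        rw [hlamv]
        simp
      rw [this, sum_F2_L2]
      norm_num
    have h0 : tau φ F2 1 = 0 := by
      have := tau_ph c adm_F2 1
      rw [ph_one, F2_one] at this
      simpa using this
    have h3 : classInner (tau φ F2) (tau φ F2) = 3 := by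
      rw [tau_tau c F2 adm_F2, sum_F2_F2]
      norm_num
    exact coef_zero (tau_gen φ gen_F2) h0 h3 hlam h₁ h₂ hψ1 (hne1 _ hF1lam) (hne2 _ hF1lam) h12 hw1
      hd hd0 hdeg (e := 1) (by rw [hl1]; simp) (by norm_num)
  -- `c₃`
  have hc3zero : classInner (tau φ F3) χ₁ = 0 := by
    have hw1 : classInner (tau φ F3) χ₁ = classInner (tau φ F3) χ₂ := by
      have h5 := tau_tau c F3 adm_F1
      rw [sum_F3_F1, hθ, classInner_sub_right, classInner_add_right] at h5
      have h6 : classInner (tau φ F3) (fun _ => 1) = 0 := by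
        rw [tau_inner φ F3 hclass1]
        have : ∑ w : HH, ((F3 w : ℤ) : ℂ) * conj (1 : ℂ) = ((∑ w : HH, F3 w : ℤ) : ℂ) := by
          push_cast
          simp
        rw [this, sum_F3]
        simp
      rw [h6] at h5
      simp only [Int.cast_zero, mul_zero] at h5
      linear_combination h5
    have hψ1 : classInner (tau φ F3) rh = 1 := by
      rw [tau_inner φ F3 crh]
      have : ∑ w : HH, ((F3 w : ℤ) : ℂ) * conj (rh (ph φ w)) =
          ((∑ w : HH, F3 w * P2 w : ℤ) : ℂ) := by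
        push_cast
        refine Finset.sum_congr rfl fun w _ => ?_
        rw [hrhv]
        simp
      rw [this, sum_F3_P2]
      norm_num
    have h0 : tau φ F3 1 = 0 := by
      have := tau_ph c adm_F3 1
      rw [ph_one, F3_one] at this
      simpa using this
    have h3 : classInner (tau φ F3) (tau φ F3) = 3 := by
      rw [tau_tau c F3 adm_F3, sum_F3_F3]
      norm_num
    exact coef_zero (tau_gen φ gen_F3) h0 h3 hrh h₁ h₂ hψ1 (hne1 _ hF1rh) (hne2 _ hF1rh) h12 hw1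
      hd hd0 hdeg (e := 2) (by rw [hr1]; simp) (by norm_num)
  -- the value at `e₁ e₂`
  have cχ₁ : IsClassFunction G χ₁ := isClassFunction_of_isCharacter ch₁
  set h := χ₁ (ph φ (e1H * e2H)) with hh
  have hval12 : conj h = 1 := by
    have e1 := tau_inner φ F1 cχ₁
    have e2 := tau_inner φ F2 cχ₁
    have e3 := tau_inner φ F3 cχ₁
    rw [hθχ₁] at e1
    rw [hc2zero] at e2
    rw [hc3zero] at e3
    have hsum : ∑ w : HH, ((AA w : ℤ) : ℂ) * conj (χ₁ (ph φ w)) = 36 := by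
      have h7 : ∀ w : HH, ((AA w : ℤ) : ℂ) * conj (χ₁ (ph φ w)) =
          ((F1 w : ℤ) : ℂ) * conj (χ₁ (ph φ w)) + ((F2 w : ℤ) : ℂ) * conj (χ₁ (ph φ w)) -
            ((F3 w : ℤ) : ℂ) * conj (χ₁ (ph φ w)) := by
        intro w
        rw [AA_eq w]
        push_cast
        ring
      simp only [h7]
      rw [Finset.sum_sub_distrib, Finset.sum_add_distrib]
      have h36 : (36 : ℂ) ≠ 0 := by norm_num
      field_simp at e1 e2 e3
      linear_combination -e1 - e2 + e3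
    have hsum2 : ∑ w : HH, ((AA w : ℤ) : ℂ) * conj (χ₁ (ph φ w)) = 36 * conj h := by
      have h7 : ∀ w : HH, ((AA w : ℤ) : ℂ) * conj (χ₁ (ph φ w)) = ((AA w : ℤ) : ℂ) * conj h := by
        intro w
        by_cases hw0 : AA w = 0
        · rw [hw0]
          simp
        · obtain ⟨g, hg⟩ := AA_supp w hw0
          have h8 : χ₁ (ph φ w) = h := by
            rw [hh, ← hg, ph_conj]
            exact (cχ₁ _ _).symm
          rw [h8]
      simp only [h7]
      rw [← Finset.sum_mul]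
      have h9 : ∑ w : HH, ((AA w : ℤ) : ℂ) = ((∑ w : HH, AA w : ℤ) : ℂ) := by
        push_cast
        rfl
      rw [h9, sum_AA]
      norm_num
    rw [hsum] at hsum2
    have h36 : (36 : ℂ) ≠ 0 := by norm_num
    apply mul_left_cancel₀ h36
    rw [← hsum2]
    ring
  have hh1 : h = 1 := by
    have := congrArg conj hval12
    simpa using this
  -- the congruence
  have hcube : (ph φ (e1H * e2H)) ^ 3 = 1 := by
    rw [← ph_pow, e12_cube, ph_one]
  obtain ⟨p₃, hp₃⟩ := cube_sum ch₁ hcube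
  have hinv : χ₁ (ph φ (e1H * e2H))⁻¹ = h := by
    rw [← ph_inv, e12H_inv, ph_conj]
    exact cχ₁ _ _
  rw [hinv, hh1, hd] at hp₃
  have hp₃' : d + 2 = 3 * p₃ := by
    have : ((d + 2 : ℕ) : ℂ) = ((3 * p₃ : ℕ) : ℂ) := by
      have hh2 : χ₁ (ph φ (e1H * e2H)) = 1 := hh1
      push_cast
      linear_combination hp₃ - hh2
    exact_mod_cast this
  have hmod : w ^ 2 % 3 = 2 := by
    rw [← hw]
    omega
  exact not_sq_mod3 w hmod

end LemmaB

end Cfsg.Agent.Lib.S3x3B
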