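import Mathlib
import Cfsg.Prelude.Def_Transfer
import Cfsg.Agent.Lib.S3x3Tau

/-!
# The isomorphism `N ≅ S₃ × S₃` from generators and relations
-/

set_option autoImplicit false
set_option maxRecDepth 100000

namespace Cfsg.Agent.Lib.S3x3Struct

open Cfsg Cfsg.Agent.Lib.S3x3Model Cfsg.Agent.Lib.S3x3Tau DihedralGroup

variable {G : Type*} [Group G]

theorem E_add {e : G} (he : e ^ 3 = 1) (i j : ZMod 3) :
    e ^ (i + j).val = e ^ i.val * e ^ j.val := by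
  rw [ZMod.val_add, ← pow_eq_pow_mod _ he, pow_add]

theorem E_zero (e : G) : e ^ (0 : ZMod 3).val = 1 := by
  simp

theorem E_neg {e : G} (he : e ^ 3 = 1) (i : ZMod 3) : e ^ (-i).val = (e ^ i.val)⁻¹ := by
  rw [eq_inv_iff_mul_eq_one, ← E_add he]
  simp

theorem a_E {e a : G} (_ha : a * a = 1) (hae : a * e * a⁻¹ = e⁻¹) (n : ℕ) :
    a * e ^ n = (e ^ n)⁻¹ * a := by
  have h1 : a * e ^ n * a⁻¹ = (e⁻¹) ^ n := by
    rw [← hae, conj_pow]
  rw [inv_pow] at h1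
  rw [← h1]
  group

/-- The homomorphism from `S₃` attached to generators and relations. -/
def dihHom (e a : G) (he : e ^ 3 = 1) (ha : a * a = 1) (hae : a * e * a⁻¹ = e⁻¹) : S3 →* G where
  toFun x := match x with
    | r i => e ^ i.val
    | sr i => a * e ^ i.val
  map_one' := by
    show e ^ (0 : ZMod 3).val = 1
    simp
  map_mul' := by
    rintro (i | i) (j | j)
    · simp only [r_mul_r]
      exact E_add he i j
    · simp only [r_mul_sr]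
      have h1 : j - i = -i + j := by ring
      rw [h1, E_add he, E_neg he]
      have h2 := a_E (e := e) (a := a) ha hae i.val
      have h3 : e ^ i.val * a = a * (e ^ i.val)⁻¹ := by
        rw [eq_mul_inv_iff_mul_eq, mul_assoc, h2]
        group
      rw [← mul_assoc (e ^ i.val), h3, mul_assoc]
    · simp only [sr_mul_r]
      rw [E_add he, mul_assoc]
    · simp only [sr_mul_sr]
      have h1 : j - i = -i + j := by ring
      rw [h1, E_add he, E_neg he]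
      have h2 := a_E (e := e) (a := a) ha hae i.val
      calc (e ^ i.val)⁻¹ * e ^ j.val = (e ^ i.val)⁻¹ * (a * a) * e ^ j.val := by rw [ha, mul_one]
        _ = ((e ^ i.val)⁻¹ * a) * (a * e ^ j.val) := by group
        _ = (a * e ^ i.val) * (a * e ^ j.val) := by rw [h2]

theorem dihHom_r (e a : G) (he : e ^ 3 = 1) (ha : a * a = 1) (hae : a * e * a⁻¹ = e⁻¹) (i : ZMod 3) :
    dihHom e a he ha hae (r i) = e ^ i.val := rfl

theorem dihHom_sr (e a : G) (he : e ^ 3 = 1) (ha : a * a = 1) (hae : a * e * a⁻¹ = e⁻¹)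
    (i : ZMod 3) : dihHom e a he ha hae (sr i) = a * e ^ i.val := rfl

theorem dihHom_mem (e a : G) (he : e ^ 3 = 1) (ha : a * a = 1) (hae : a * e * a⁻¹ = e⁻¹)
    {N : Subgroup G} (heN : e ∈ N) (haN : a ∈ N) (x : S3) : dihHom e a he ha hae x ∈ N := by
  rcases x with i | i
  · rw [dihHom_r]
    exact N.pow_mem heN _
  · rw [dihHom_sr]
    exact N.mul_mem haN (N.pow_mem heN _)

theorem comm_dih {e a f b : G} (he : e ^ 3 = 1) (ha : a * a = 1) (hae : a * e * a⁻¹ = e⁻¹)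
    (hf : f ^ 3 = 1) (hb : b * b = 1) (hbf : b * f * b⁻¹ = f⁻¹)
    (h1 : Commute e f) (h2 : Commute e b) (h3 : Commute a f) (h4 : Commute a b) (x y : S3) :
    Commute (dihHom e a he ha hae x) (dihHom f b hf hb hbf y) := by
  rcases x with i | i <;> rcases y with j | j
  · rw [dihHom_r, dihHom_r]
    exact h1.pow_pow _ _
  · rw [dihHom_r, dihHom_sr]
    exact (h2.pow_left _).mul_right (h1.pow_pow _ _)
  · rw [dihHom_sr, dihHom_r]
    exact (h3.pow_right _).mul_left (h1.pow_pow _ _)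
  · rw [dihHom_sr, dihHom_sr]
    exact ((h4.mul_right (h3.pow_right _))).mul_left
      ((h2.pow_left _).mul_right (h1.pow_pow _ _))

theorem comm_model : ∀ w : HH, w ≠ 1 → ∃ g : HH, w * g * w⁻¹ * g⁻¹ = e1H ∨ w * g * w⁻¹ * g⁻¹ = e1H⁻¹ ∨
    w * g * w⁻¹ * g⁻¹ = e2H ∨ w * g * w⁻¹ * g⁻¹ = e2H⁻¹ := by decide

/-- The existence of the context from generators and relations. -/
theorem exists_phi [Finite G] {T N : Subgroup G} {e₁ e₂ a b : G} (he₁ : e₁ ^ 3 = 1) (he₂ : e₂ ^ 3 = 1)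
    (ha : a * a = 1) (hb : b * b = 1) (hae₁ : a * e₁ * a⁻¹ = e₁⁻¹) (hbe₂ : b * e₂ * b⁻¹ = e₂⁻¹)
    (h12 : Commute e₁ e₂) (h1b : Commute e₁ b) (ha2 : Commute a e₂) (hab : Commute a b)
    (he₁T : e₁ ∈ T) (he₂T : e₂ ∈ T) (he₁ne : e₁ ≠ 1) (he₂ne : e₂ ≠ 1) (haN : a ∈ N) (hbN : b ∈ N)
    (hTN : T ≤ N) (hcard : Nat.card N = 36) (haT : a ∉ T) (hbT : b ∉ T)
    (habT : a * b ∉ T)
    (hti : ∀ t ∈ T, t ≠ 1 → ∀ z : G, z * t * z⁻¹ ∈ T → z ∈ N) :
    ∃ φ : HH ≃* N, Ctx T N φ := by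
  classical
  let f₁ := dihHom e₁ a he₁ ha hae₁
  let f₂ := dihHom e₂ b he₂ hb hbe₂
  have hc : ∀ x y, Commute (f₁ x) (f₂ y) := comm_dih he₁ ha hae₁ he₂ hb hbe₂ h12 h1b ha2 hab
  let f₀ : HH →* G := MonoidHom.noncommCoprod f₁ f₂ hc
  have hf₀ : ∀ w : HH, f₀ w = f₁ w.1 * f₂ w.2 := fun w => rfl
  have hmem : ∀ w : HH, f₀ w ∈ N := by
    intro w
    rw [hf₀]
    exact N.mul_mem (dihHom_mem _ _ _ _ _ (hTN he₁T) haN _) (dihHom_mem _ _ _ _ _ (hTN he₂T) hbN _)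
  let f : HH →* N := f₀.codRestrict N hmem
  have hfv : ∀ w : HH, ((f w : N) : G) = f₀ w := fun w => rfl
  have hv1 : f₀ e1H = e₁ := by
    rw [hf₀]
    show e₁ ^ (1 : ZMod 3).val * e₂ ^ (0 : ZMod 3).val = e₁
    simp [ZMod.val_one]
  have hv2 : f₀ e2H = e₂ := by
    rw [hf₀]
    show e₁ ^ (0 : ZMod 3).val * e₂ ^ (1 : ZMod 3).val = e₂
    simp [ZMod.val_one]
  have hva : f₀ aH = a := by
    rw [hf₀]
    show a * e₁ ^ (0 : ZMod 3).val * e₂ ^ (0 : ZMod 3).val = a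
    simp
  have hvb : f₀ bH = b := by
    rw [hf₀]
    show e₁ ^ (0 : ZMod 3).val * (b * e₂ ^ (0 : ZMod 3).val) = b
    simp
  have hinj : Function.Injective f := by
    rw [injective_iff_map_eq_one]
    intro w hw
    by_contra hne
    have hw0 : f₀ w = 1 := by
      rw [← hfv, hw]
      rfl
    obtain ⟨g, hg⟩ := comm_model w hne
    have hcomm : f₀ (w * g * w⁻¹ * g⁻¹) = 1 := by
      simp [map_mul, map_inv, hw0]
    rcases hg with h | h | h | h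
    · rw [h, hv1] at hcomm
      exact he₁ne hcomm
    · rw [h, map_inv, hv1] at hcomm
      exact he₁ne (inv_eq_one.mp hcomm)
    · rw [h, hv2] at hcomm
      exact he₂ne hcomm
    · rw [h, map_inv, hv2] at hcomm
      exact he₂ne (inv_eq_one.mp hcomm)
  have hbij : Function.Bijective f := by
    apply hinj.bijective_of_nat_card_le
    rw [hcard]
    simp only [Nat.card_eq_fintype_card]
    decide
  let φ : HH ≃* N := MulEquiv.ofBijective f hbij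
  have hφ : ∀ w : HH, ph φ w = f₀ w := fun w => rfl
  have hTw : ∀ w : HH, isT w = true → ph φ w ∈ T := by
    intro w hw
    obtain ⟨i, j, rfl⟩ := isT_gen w hw
    rw [ph_mul, ph_pow, ph_pow, hφ, hφ, hv1, hv2]
    exact T.mul_mem (T.pow_mem he₁T _) (T.pow_mem he₂T _)
  refine ⟨φ, fun w => ⟨fun hw => ?_, hTw w⟩, hTN, hti⟩
  have hw' : ph φ w ∈ T := hw
  rcases cosets w with h | h | h | h
  · exact h
  · exfalso
    apply haT
    have h1 := hTw _ h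
    rw [ph_mul, hφ aH, hva] at h1
    have h2 : a = (ph φ w)⁻¹ * (ph φ w * a) := by group
    rw [h2]
    exact T.mul_mem (T.inv_mem hw') h1
  · exfalso
    apply hbT
    have h1 := hTw _ h
    rw [ph_mul, hφ bH, hvb] at h1
    have h2 : b = (ph φ w)⁻¹ * (ph φ w * b) := by group
    rw [h2]
    exact T.mul_mem (T.inv_mem hw') h1
  · exfalso
    apply habT
    have h1 := hTw _ h
    rw [ph_mul, ph_mul, hφ aH, hφ bH, hva, hvb] at h1
    have h2 : a * b = (ph φ w)⁻¹ * (ph φ w * a * b) := by group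
    rw [h2]
    exact T.mul_mem (T.inv_mem hw') h1

section Elements

variable {T N : Subgroup G}

/-- The basic properties of the pair `(T, N)`. -/
structure TData (T N : Subgroup G) : Prop where
  comm : ∀ x ∈ T, ∀ y ∈ T, x * y = y * x
  cube : ∀ t ∈ T, t ^ 3 = 1
  card : Nat.card T = 9
  cent : ∀ g : G, (∀ t ∈ T, g * t = t * g) → g ∈ T
  norm : ∀ g ∈ N, ∀ t ∈ T, g * t * g⁻¹ ∈ T

theorem conj_mul' (x s t : G) : x * (s * t) * x⁻¹ = (x * s * x⁻¹) * (x * t * x⁻¹) := by group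
theorem conj_inv' (x t : G) : x * t⁻¹ * x⁻¹ = (x * t * x⁻¹)⁻¹ := by group
theorem conj_conj' (x y t : G) : (x * y) * t * (x * y)⁻¹ = x * (y * t * y⁻¹) * x⁻¹ := by group
theorem conj_self' {x : G} (hx : x * x = 1) (t : G) : x * (x * t * x⁻¹) * x⁻¹ = t := by
  calc x * (x * t * x⁻¹) * x⁻¹ = (x * x) * t * (x * x)⁻¹ := by group
    _ = t := by rw [hx]; group

theorem TData.cent' (d : TData T N) {x : G} (h : ∀ t ∈ T, x * t * x⁻¹ = t) : x ∈ T := by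
  apply d.cent
  intro t ht
  have := h t ht
  rw [mul_inv_eq_iff_eq_mul] at this
  exact this

theorem TData.ne_inv (d : TData T N) {t : G} (ht : t ∈ T) (h1 : t ≠ 1) : t ≠ t⁻¹ := by
  intro h
  apply h1
  have h2 : t * t = 1 := by
    nth_rewrite 2 [h]
    simp
  have h3 := d.cube t ht
  rw [pow_succ, sq, h2, one_mul] at h3
  exact h3

/-- The subgroup of elements of `T` inverted by `x`. -/
def invSub (d : TData T N) (x : G) : Subgroup G where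
  carrier := {t | t ∈ T ∧ x * t * x⁻¹ = t⁻¹}
  mul_mem' := by
    rintro s t ⟨hs, hs'⟩ ⟨ht, ht'⟩
    refine ⟨T.mul_mem hs ht, ?_⟩
    rw [conj_mul', hs', ht', mul_inv_rev, ← d.comm _ (T.inv_mem hs) _ (T.inv_mem ht)]
  one_mem' := ⟨T.one_mem, by simp⟩
  inv_mem' := by
    rintro t ⟨ht, ht'⟩
    exact ⟨T.inv_mem ht, by rw [conj_inv', ht']⟩

/-- The subgroup of elements of `T` centralized by `x`. -/
def cenSub (x : G) (T : Subgroup G) : Subgroup G where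
  carrier := {t | t ∈ T ∧ x * t * x⁻¹ = t}
  mul_mem' := by
    rintro s t ⟨hs, hs'⟩ ⟨ht, ht'⟩
    exact ⟨T.mul_mem hs ht, by rw [conj_mul', hs', ht']⟩
  one_mem' := ⟨T.one_mem, by simp⟩
  inv_mem' := by
    rintro t ⟨ht, ht'⟩
    exact ⟨T.inv_mem ht, by rw [conj_inv', ht']⟩

/-- A subgroup of `T` containing two independent elements is `T`. -/
theorem TData.eq_of_two [Finite G] (d : TData T N) {p q v : G} (hp : p ∈ T) (hq : q ∈ T)
    (hp1 : p ≠ 1) (hq1 : q ≠ 1) (hvp : v * p * v⁻¹ = p) (hvq : v * q * v⁻¹ = q⁻¹) {S : Subgroup G}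
    (hST : S ≤ T) (hpS : p ∈ S) (hqS : q ∈ S) : S = T := by
  have hord : orderOf p = 3 := orderOf_eq_prime (d.cube p hp) hp1
  have hnot : q ∉ Subgroup.zpowers p := by
    rintro ⟨k, rfl⟩
    have h1 : v * p ^ k * v⁻¹ = p ^ k := by
      rw [← conj_zpow, hvp]
    apply d.ne_inv hq hq1
    simp only at hvq
    rw [h1] at hvq
    exact hvq
  have hlt : Subgroup.zpowers p < S := by
    refine lt_of_le_of_ne (Subgroup.zpowers_le.mpr hpS) (fun h => hnot ?_)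
    rw [h]
    exact hqS
  have hcard3 : Nat.card (Subgroup.zpowers p) = 3 := by
    rw [Nat.card_zpowers, hord]
  have hlt2 : 3 < Nat.card S := by
    rw [← hcard3]
    refine lt_of_le_of_ne (Subgroup.card_le_of_le hlt.le) (fun h => hlt.ne ?_)
    exact Subgroup.eq_of_le_of_card_ge hlt.le h.ge
  have hdvd : Nat.card S ∣ Nat.card T := Subgroup.card_dvd_of_le hST
  rw [d.card] at hdvd
  have hle : Nat.card S ≤ 9 := Nat.le_of_dvd (by norm_num) hdvd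
  have hS9 : Nat.card S = 9 := by
    interval_cases h : Nat.card S <;> first | rfl | (exfalso; revert hdvd; decide)
  exact Subgroup.eq_of_le_of_card_ge hST (by rw [d.card, hS9])

theorem eigen1 (d : TData T N) {v₁ v₂ s : G} (h₂N : v₂ ∈ N) (h₂ : v₂ * v₂ = 1)
    (hc : v₁ * v₂ = v₂ * v₁) (hs : s ∈ T) (hs1 : s ≠ 1) (hv : v₁ * s * v₁⁻¹ = s) :
    ∃ p ∈ T, p ≠ 1 ∧ v₁ * p * v₁⁻¹ = p ∧
      (v₂ * p * v₂⁻¹ = p ∨ v₂ * p * v₂⁻¹ = p⁻¹) := by
  have hts := d.norm v₂ h₂N s hs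
  have hv' : v₁ * (v₂ * s * v₂⁻¹) * v₁⁻¹ = v₂ * s * v₂⁻¹ := by
    rw [← conj_conj', hc, conj_conj', hv]
  by_cases h : s * (v₂ * s * v₂⁻¹) = 1
  · refine ⟨s, hs, hs1, hv, Or.inr ?_⟩
    rw [eq_inv_iff_mul_eq_one]
    rw [d.comm _ hts _ hs]
    exact h
  · refine ⟨s * (v₂ * s * v₂⁻¹), T.mul_mem hs hts, h, ?_, Or.inl ?_⟩
    · rw [conj_mul', hv, hv']
    · rw [conj_mul', conj_self' h₂, d.comm _ hts _ hs]

theorem eigen2 (d : TData T N) {v₁ v₂ s : G} (h₂N : v₂ ∈ N) (h₂ : v₂ * v₂ = 1)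
    (hc : v₁ * v₂ = v₂ * v₁) (hs : s ∈ T) (hs1 : s ≠ 1) (hv : v₁ * s * v₁⁻¹ = s⁻¹) :
    ∃ q ∈ T, q ≠ 1 ∧ v₁ * q * v₁⁻¹ = q⁻¹ ∧
      (v₂ * q * v₂⁻¹ = q ∨ v₂ * q * v₂⁻¹ = q⁻¹) := by
  have hts := d.norm v₂ h₂N s hs
  have hv' : v₁ * (v₂ * s * v₂⁻¹) * v₁⁻¹ = (v₂ * s * v₂⁻¹)⁻¹ := by
    rw [← conj_conj', hc, conj_conj', hv, conj_inv']
  by_cases h : s * (v₂ * s * v₂⁻¹) = 1
  · refine ⟨s, hs, hs1, hv, Or.inr ?_⟩
    rw [eq_inv_iff_mul_eq_one]
    rw [d.comm _ hts _ hs]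
    exact h
  · refine ⟨s * (v₂ * s * v₂⁻¹), T.mul_mem hs hts, h, ?_, Or.inl ?_⟩
    · rw [conj_mul', hv, hv', mul_inv_rev s (v₂ * s * v₂⁻¹)]
      exact d.comm _ (T.inv_mem hs) _ (T.inv_mem hts)
    · rw [conj_mul', conj_self' h₂, d.comm _ hts _ hs]

/-- Among commuting involutions `v₁, v₂, v₁ v₂`, one inverts `T`. -/
theorem exists_ab [Finite G] (d : TData T N) {v₁ v₂ : G} (h₁N : v₁ ∈ N) (h₂N : v₂ ∈ N)
    (h₁ : v₁ * v₁ = 1) (h₂ : v₂ * v₂ = 1) (hc : v₁ * v₂ = v₂ * v₁) (h₁T : v₁ ∉ T) (h₂T : v₂ ∉ T)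
    (h₁₂T : v₁ * v₂ ∉ T) :
    ∃ a b : G, a ∈ N ∧ b ∈ N ∧ a * a = 1 ∧ b * b = 1 ∧ a * b = b * a ∧ a ∉ T ∧ b ∉ T ∧ a * b ∉ T ∧
      ∀ t ∈ T, (a * b) * t * (a * b)⁻¹ = t⁻¹ := by
  have h12sq : (v₁ * v₂) * (v₁ * v₂) = 1 := by
    calc (v₁ * v₂) * (v₁ * v₂) = v₁ * (v₂ * v₁) * v₂ := by group
      _ = v₁ * (v₁ * v₂) * v₂ := by rw [hc]
      _ = (v₁ * v₁) * (v₂ * v₂) := by group
      _ = 1 := by rw [h₁, h₂, one_mul]
  have h12N : v₁ * v₂ ∈ N := N.mul_mem h₁N h₂N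
  by_cases hI1 : ∀ t ∈ T, v₁ * t * v₁⁻¹ = t⁻¹
  · have e : v₂ * (v₁ * v₂) = v₁ := by
      rw [← mul_assoc, ← hc, mul_assoc, h₂, mul_one]
    have e2 : v₂ * (v₁ * v₂) = (v₁ * v₂) * v₂ := by
      rw [e, mul_assoc, h₂, mul_one]
    refine ⟨v₂, v₁ * v₂, h₂N, h12N, h₂, h12sq, e2, h₂T, h₁₂T, ?_, ?_⟩
    · rw [e]
      exact h₁T
    · rw [e]
      exact hI1
  by_cases hI2 : ∀ t ∈ T, v₂ * t * v₂⁻¹ = t⁻¹
  · have e : v₁ * (v₁ * v₂) = v₂ := by
      rw [← mul_assoc, h₁, one_mul]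
    have e2 : v₁ * (v₁ * v₂) = (v₁ * v₂) * v₁ := by
      rw [e, hc, mul_assoc, h₁, mul_one]
    refine ⟨v₁, v₁ * v₂, h₁N, h12N, h₁, h12sq, e2, h₁T, h₁₂T, ?_, ?_⟩
    · rw [e]
      exact h₂T
    · rw [e]
      exact hI2
  push Not at hI1
  obtain ⟨t₁, ht₁, hne₁⟩ := hI1
  have hC1 : ¬ ∀ t ∈ T, v₁ * t * v₁⁻¹ = t := fun h => h₁T (d.cent' h)
  push Not at hC1
  obtain ⟨t₂, ht₂, hne₂⟩ := hC1
  have hvt₁ := d.norm v₁ h₁N t₁ ht₁
  have hvt₂ := d.norm v₁ h₁N t₂ ht₂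
  -- the eigenvectors
  obtain ⟨p, hp, hp1, hvp, hwp⟩ := eigen1 d (s := t₁ * (v₁ * t₁ * v₁⁻¹)) h₂N h₂ hc
    (T.mul_mem ht₁ hvt₁) (fun h => hne₁ (by rw [eq_inv_iff_mul_eq_one, d.comm _ hvt₁ _ ht₁]; exact h))
    (by rw [conj_mul', conj_self' h₁, d.comm _ hvt₁ _ ht₁])
  obtain ⟨q, hq, hq1, hvq, hwq⟩ := eigen2 d (s := t₂ * (v₁ * t₂ * v₁⁻¹)⁻¹) h₂N h₂ hc
    (T.mul_mem ht₂ (T.inv_mem hvt₂)) (fun h => hne₂ (by
      rw [mul_inv_eq_one] at h
      exact h.symm))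
    (by rw [conj_mul', conj_inv', conj_self' h₁, mul_inv_rev, inv_inv,
          d.comm _ hvt₂ _ (T.inv_mem ht₂)])
  have hcen : ∀ x : G, x * p * x⁻¹ = p → x * q * x⁻¹ = q → x ∈ T := by
    intro x h1 h2
    have h3 := d.eq_of_two hp hq hp1 hq1 hvp hvq (S := cenSub x T) (fun t ht => ht.1) ⟨hp, h1⟩ ⟨hq, h2⟩
    apply d.cent'
    intro t ht
    rw [← h3] at ht
    exact ht.2
  have hinv : ∀ x : G, x * p * x⁻¹ = p⁻¹ → x * q * x⁻¹ = q⁻¹ → ∀ t ∈ T, x * t * x⁻¹ = t⁻¹ := by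
    intro x h1 h2 t ht
    have h3 := d.eq_of_two hp hq hp1 hq1 hvp hvq (S := invSub d x) (fun t ht => ht.1) ⟨hp, h1⟩ ⟨hq, h2⟩
    rw [← h3] at ht
    exact ht.2
  rcases hwp with hwp | hwp <;> rcases hwq with hwq | hwq
  · exact absurd (hcen v₂ hwp hwq) h₂T
  · exfalso
    apply h₁₂T
    apply hcen
    · rw [conj_conj', hwp, hvp]
    · rw [conj_conj', hwq, conj_inv', hvq, inv_inv]
  · refine ⟨v₁, v₂, h₁N, h₂N, h₁, h₂, hc, h₁T, h₂T, h₁₂T, ?_⟩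
    apply hinv
    · rw [conj_conj', hwp, conj_inv', hvp]
    · rw [conj_conj', hwq, hvq]
  · exact absurd (hinv v₂ hwp hwq) hI2

/-- The elements `e₁, e₂`. -/
theorem exists_e (d : TData T N) {a b : G} (haN : a ∈ N) (ha : a * a = 1)
    (haT : a ∉ T) (hbT : b ∉ T) (hI : ∀ t ∈ T, (a * b) * t * (a * b)⁻¹ = t⁻¹) :
    ∃ e₁ e₂ : G, e₁ ∈ T ∧ e₂ ∈ T ∧ e₁ ≠ 1 ∧ e₂ ≠ 1 ∧ a * e₁ * a⁻¹ = e₁⁻¹ ∧ a * e₂ * a⁻¹ = e₂ ∧
      b * e₁ * b⁻¹ = e₁ ∧ b * e₂ * b⁻¹ = e₂⁻¹ := by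
  have hbact : ∀ t ∈ T, b * t * b⁻¹ = (a * t * a⁻¹)⁻¹ := by
    intro t ht
    have h1 : a * (a * b) = b := by rw [← mul_assoc, ha, one_mul]
    have h2 : b * t * b⁻¹ = a * ((a * b) * t * (a * b)⁻¹) * a⁻¹ := by
      rw [← conj_conj' a (a * b) t, h1]
    rw [h2, hI t ht, conj_inv']
  have hC1 : ¬ ∀ t ∈ T, a * t * a⁻¹ = t := fun h => haT (d.cent' h)
  have hI1 : ¬ ∀ t ∈ T, a * t * a⁻¹ = t⁻¹ := by
    intro h
    apply hbT
    apply d.cent'
    intro t ht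
    rw [hbact t ht, h t ht, inv_inv]
  push Not at hC1 hI1
  obtain ⟨t₁, ht₁, hne₁⟩ := hC1
  obtain ⟨t₂, ht₂, hne₂⟩ := hI1
  have hvt₁ := d.norm a haN t₁ ht₁
  have hvt₂ := d.norm a haN t₂ ht₂
  have hm1 : t₁ * (a * t₁ * a⁻¹)⁻¹ ∈ T := T.mul_mem ht₁ (T.inv_mem hvt₁)
  have hm2 : t₂ * (a * t₂ * a⁻¹) ∈ T := T.mul_mem ht₂ hvt₂
  have ha1 : a * (t₁ * (a * t₁ * a⁻¹)⁻¹) * a⁻¹ = (t₁ * (a * t₁ * a⁻¹)⁻¹)⁻¹ := by
    rw [conj_mul', conj_inv', conj_self' ha, mul_inv_rev, inv_inv, d.comm _ hvt₁ _ (T.inv_mem ht₁)]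
  have ha2 : a * (t₂ * (a * t₂ * a⁻¹)) * a⁻¹ = t₂ * (a * t₂ * a⁻¹) := by
    rw [conj_mul', conj_self' ha, d.comm _ hvt₂ _ ht₂]
  refine ⟨_, _, hm1, hm2, ?_, ?_, ha1, ha2, ?_, ?_⟩
  · intro h
    rw [mul_inv_eq_one] at h
    exact hne₁ h.symm
  · intro h
    apply hne₂
    rw [eq_inv_iff_mul_eq_one, d.comm _ hvt₂ _ ht₂]
    exact h
  · rw [hbact _ hm1, ha1, inv_inv]
  · rw [hbact _ hm2, ha2]

end Elements

section Main

/-- The statement's hypotheses give the context. -/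
theorem exists_ctx {G : Type*} [Group G] [Finite G]
    (T : Sylow 3 G) (hT : Cfsg.IsElementaryAbelian 3 (T : Subgroup G)) (hcard : Nat.card T = 9)
    (hC : Subgroup.centralizer ((T : Subgroup G) : Set G) = T)
    [hn : ((T : Subgroup G).subgroupOf (Subgroup.normalizer ((T : Subgroup G) : Set G))).Normal]
    (hK : IsKleinFour (↥(Subgroup.normalizer ((T : Subgroup G) : Set G)) ⧸
      (T : Subgroup G).subgroupOf (Subgroup.normalizer ((T : Subgroup G) : Set G))))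
    (hloc : ∀ t ∈ (T : Subgroup G), t ≠ 1 →
      Subgroup.centralizer ({t} : Set G) ≤ Subgroup.normalizer ((T : Subgroup G) : Set G)) :
    ∃ φ : HH ≃* ↥(Subgroup.normalizer ((T : Subgroup G) : Set G)),
      Ctx (T : Subgroup G) (Subgroup.normalizer ((T : Subgroup G) : Set G)) φ := by
  classical
  set N := Subgroup.normalizer ((T : Subgroup G) : Set G) with hN
  set T₀ : Subgroup G := (T : Subgroup G) with hT₀
  have hTN : T₀ ≤ N := Subgroup.le_normalizer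
  have hcomm : ∀ x ∈ T₀, ∀ y ∈ T₀, x * y = y * x := by
    intro x hx y hy
    have := hT.1.is_comm.comm (⟨x, hx⟩ : T₀) ⟨y, hy⟩
    exact congrArg Subtype.val this
  have hcube : ∀ t ∈ T₀, t ^ 3 = 1 := hT.2
  have hcard9 : Nat.card T₀ = 9 := hcard
  have hd : TData T₀ N := by
    refine ⟨hcomm, hcube, hcard9, ?_, ?_⟩
    · intro g hg
      have h1 : g ∈ Subgroup.centralizer (T₀ : Set G) := by
        rw [Subgroup.mem_centralizer_iff]
        intro t ht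
        exact (hg t ht).symm
      rwa [hC] at h1
    · intro g hg t ht
      exact (Subgroup.mem_normalizer_iff.mp hg t).mp ht
  -- squares of elements of `N` lie in `T`
  have hsq : ∀ g : N, ((g : G) * g) ∈ T₀ := by
    intro g
    have h1 : ((g : N ⧸ T₀.subgroupOf N)) ^ 2 = 1 := by
      have := Monoid.pow_exponent_eq_one (g : N ⧸ T₀.subgroupOf N)
      rwa [hK.exponent_two] at this
    have h2 : (g ^ 2 : N) ∈ T₀.subgroupOf N := by
      rw [← QuotientGroup.eq_one_iff]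
      exact_mod_cast h1
    rw [Subgroup.mem_subgroupOf] at h2
    simpa [sq] using h2
  have hcube_mem : ∀ g : G, g ∈ N → g ^ 3 = 1 → g ∈ T₀ := by
    intro g hg h3
    have h1 := hsq ⟨g, hg⟩
    simp only at h1
    have h2 : g = (g * g)⁻¹ := by
      rw [eq_inv_iff_mul_eq_one, ← pow_two, ← pow_succ']
      exact h3
    rw [h2]
    exact T₀.inv_mem h1
  -- the order of `N`
  have hcardN : Nat.card N = 36 := by
    have h1 := Subgroup.card_eq_card_quotient_mul_card_subgroup (T₀.subgroupOf N)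
    have h2 : Nat.card (T₀.subgroupOf N) = 9 := by
      rw [← hcard9]
      exact Nat.card_congr (Subgroup.subgroupOfEquivOfLe hTN).toEquiv
    rw [h2, hK.card_four] at h1
    exact h1
  -- the TI property
  have hti : ∀ t ∈ T₀, t ≠ 1 → ∀ z : G, z * t * z⁻¹ ∈ T₀ → z ∈ N := by
    intro t ht ht1 z hz
    have hne : z * t * z⁻¹ ≠ 1 := by
      intro h
      apply ht1
      rw [mul_inv_eq_one] at h
      exact mul_left_cancel (h.trans (mul_one z).symm)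
    have hmem : ∀ s ∈ T₀, z * s * z⁻¹ ∈ T₀ := by
      intro s hs
      apply hcube_mem
      · apply hloc _ hz hne
        rw [Subgroup.mem_centralizer_singleton_iff]
        have h1 : s * t = t * s := hcomm s hs t ht
        calc z * s * z⁻¹ * (z * t * z⁻¹) = z * (s * t) * z⁻¹ := by group
          _ = z * (t * s) * z⁻¹ := by rw [h1]
          _ = z * t * z⁻¹ * (z * s * z⁻¹) := by group
      · rw [conj_pow, hcube s hs]
        group
    exact Subgroup.mem_normalizer_fintype hmem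
  -- the Klein four group
  obtain ⟨V, hV⟩ := Sylow.exists_subgroup_card_pow_prime (G := N) 2 (n := 2) (by
    rw [hcardN]
    norm_num)
  have hV2 : ∀ v : N, v ∈ V → (v : G) ∈ T₀ → v = 1 := by
    intro v hv hvT
    have h1 : v ^ 4 = 1 := by
      have := pow_card_eq_one' (x := (⟨v, hv⟩ : V))
      rw [hV] at this
      exact congrArg Subtype.val this
    have h2 : (v : G) ^ 3 = 1 := hcube _ hvT
    have h3 : v ^ 3 = 1 := Subtype.ext (by simpa using h2)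
    rw [pow_succ, h3, one_mul] at h1
    exact h1
  have hVsq : ∀ v : N, v ∈ V → v * v = 1 := fun v hv =>
    hV2 _ (V.mul_mem hv hv) (hsq v)
  have hVne : ∀ v : N, v ∈ V → v ≠ 1 → (v : G) ∉ T₀ := fun v hv h1 h2 => h1 (hV2 v hv h2)
  -- two independent elements
  obtain ⟨v₁, hv₁, hv₁2, hv₁1⟩ : ∃ v₁ : N, v₁ ∈ V ∧ v₁ * v₁ = 1 ∧ v₁ ≠ 1 := by
    have : Nontrivial V := by
      apply Finite.one_lt_card_iff_nontrivial.mp
      rw [hV]
      norm_num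
    obtain ⟨x, hx⟩ := exists_ne (1 : V)
    exact ⟨x, x.2, hVsq _ x.2, fun h => hx (Subtype.ext h)⟩
  obtain ⟨v₂, hv₂, hv₂2, hv₂1, hv₂ne⟩ : ∃ v₂ : N, v₂ ∈ V ∧ v₂ * v₂ = 1 ∧ v₂ ≠ 1 ∧ v₂ ≠ v₁ := by
    let _ := Fintype.ofFinite V
    have hcardV : (Finset.univ : Finset V).card = 4 := by
      rw [Finset.card_univ, ← Nat.card_eq_fintype_card, hV]
      norm_num
    have hs : ({1, ⟨v₁, hv₁⟩} : Finset V).card < (Finset.univ : Finset V).card := by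
      rw [hcardV]
      exact lt_of_le_of_lt (Finset.card_le_two) (by norm_num)
    obtain ⟨x, -, hx⟩ := Finset.exists_mem_notMem_of_card_lt_card hs
    simp only [Finset.mem_insert, Finset.mem_singleton, not_or] at hx
    exact ⟨x, x.2, hVsq _ x.2, fun h => hx.1 (Subtype.ext h), fun h => hx.2 (Subtype.ext h)⟩
  have h12 : v₁ * v₂ ∈ V := V.mul_mem hv₁ hv₂
  have h12sq : (v₁ * v₂) * (v₁ * v₂) = 1 := hVsq _ h12
  have hc : v₁ * v₂ = v₂ * v₁ := by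
    have h1 : (v₁ * v₂)⁻¹ = v₁ * v₂ := inv_eq_of_mul_eq_one_left h12sq
    rw [mul_inv_rev, inv_eq_of_mul_eq_one_left hv₁2, inv_eq_of_mul_eq_one_left hv₂2] at h1
    exact h1.symm
  have h121 : v₁ * v₂ ≠ 1 := by
    intro h
    apply hv₂ne
    have h2 : v₁⁻¹ = v₂ := inv_eq_of_mul_eq_one_right h
    rw [← h2]
    exact inv_eq_of_mul_eq_one_left hv₁2
  obtain ⟨a, b, haN, hbN, ha, hb, hab, haT, hbT, habT, hI⟩ := exists_ab hd v₁.2 v₂.2
    (by exact_mod_cast congrArg Subtype.val hv₁2) (by exact_mod_cast congrArg Subtype.val hv₂2)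
    (by exact_mod_cast congrArg Subtype.val hc) (hVne _ hv₁ hv₁1) (hVne _ hv₂ hv₂1)
    (by exact_mod_cast hVne _ h12 h121)
  obtain ⟨e₁, e₂, he₁, he₂, he₁1, he₂1, ha1, ha2, hb1, hb2⟩ :=
    exists_e hd haN ha haT hbT hI
  refine exists_phi (hcube _ he₁) (hcube _ he₂) ha hb ha1 hb2 (hcomm _ he₁ _ he₂) ?_ ?_ hab he₁ he₂
    he₁1 he₂1 haN hbN hTN hcardN haT hbT habT hti
  · show e₁ * b = b * e₁
    rw [mul_inv_eq_iff_eq_mul] at hb1
    exact hb1.symm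
  · show a * e₂ = e₂ * a
    rw [mul_inv_eq_iff_eq_mul] at ha2
    exact ha2

end Main

end Cfsg.Agent.Lib.S3x3Struct
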