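import Mathlib
import Cfsg.Agent.Lib.CharKernel
import Cfsg.Agent.Lib.CharCodegP
import Cfsg.Agent.Lib.DegreeDiv
import Cfsg.Agent.Lib.CharCoprime
import Cfsg.Agent.Lib.DefectZero
import Cfsg.Agent.S4456

/-!
# One non-vanishing nonlinear character at an element

Let `χ` be the only nonlinear irreducible character not vanishing at a noncentral `g`.  We prove
the column relations, the description of `G'`, and the reduction of the solvability of `G` to the
solvability of a normal subgroup `Q`, the normal complement given by Thompson's theorem.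
-/

set_option autoImplicit false
set_option linter.unusedSectionVars false
set_option linter.style.haveILetI false

namespace Cfsg.Agent.Lib.S4805A

open Cfsg Cfsg.Agent.Lib.CharBasic Cfsg.Agent.Lib.CharInd Cfsg.Agent.Lib.CharKernel
open Cfsg.Agent.Lib.CharNormal
open scoped ComplexConjugate

universe u

/-- The quotient by the commutator subgroup is commutative. -/
theorem quot_comm {G : Type u} [Group G] (a b : G ⧸ commutator G) : a * b = b * a := by
  have := mul_comm (show Abelianization G from a) (show Abelianization G from b)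
  exact this

section Linear

variable {G : Type u} [Group G] [Fintype G]

/-- A character is linear iff the commutator subgroup lies in its kernel. -/
theorem linear_iff {ψ : G → ℂ} (hψ : IsIrrCharacter G ψ) :
    ψ 1 = 1 ↔ ∀ n ∈ commutator G, ψ n = ψ 1 := by
  constructor
  · intro h1 n hn
    obtain ⟨f, hf⟩ := exists_hom_of_degree_one (IsIrrCharacter.isCharacter hψ) h1
    have h2 : f n = 1 := Abelianization.commutator_subset_ker f hn
    rw [hf, h2, h1]
    simp
  · intro h
    obtain ⟨ψ', h1, h2⟩ := exists_quotient_irr (commutator G) hψ h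
    have h3 : ψ' 1 = 1 := by
      haveI : Finite (G ⧸ commutator G) := inferInstance
      exact CharCodegP.irr_one_of_comm quot_comm h1
    have h4 := h2 1
    rw [QuotientGroup.mk_one, h3] at h4
    exact h4.symm

/-- The sum of the linear characters at `x`. -/
noncomputable def linSum (x : G) : ℂ :=
  ∑ ψ : IrrCharacter G, if (ψ : G → ℂ) 1 = 1 then (ψ : G → ℂ) x else 0

theorem comm_normal : (commutator G).Normal := inferInstance

open scoped Classical in
theorem linSum_eq (x : G) :
    linSum x = if x ∈ commutator G then ((commutator G).index : ℂ) else 0 := by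
  classical
  have h1 := sum_ker_deg_mul (commutator G) x
  have h2 : ∀ ψ : IrrCharacter G, (if ∀ n ∈ commutator G, (ψ : G → ℂ) n = (ψ : G → ℂ) 1 then
      (ψ : G → ℂ) 1 * (ψ : G → ℂ) x else 0) = if (ψ : G → ℂ) 1 = 1 then (ψ : G → ℂ) x else 0 := by
    intro ψ
    by_cases h : (ψ : G → ℂ) 1 = 1
    · rw [if_pos h, if_pos ((linear_iff ψ.2).mp h), h, one_mul]
    · rw [if_neg h, if_neg (fun hc => h ((linear_iff ψ.2).mpr hc))]
  simp only [h2] at h1
  have hM : (Nat.card (commutator G) : ℂ) ≠ 0 := by exact_mod_cast Nat.card_pos.ne'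
  have h3 : (Nat.card G : ℂ) = (Nat.card (commutator G) : ℂ) * ((commutator G).index : ℂ) := by
    have := (commutator G).card_mul_index
    exact_mod_cast this.symm
  apply mul_left_cancel₀ hM
  unfold linSum
  rw [h1]
  by_cases hx : x ∈ commutator G
  · rw [if_pos hx, if_pos hx, h3]
  · rw [if_neg hx, if_neg hx, mul_zero]

end Linear

section Main

variable {G : Type u} [Group G] [Fintype G] (g : G) (hg : g ∉ Subgroup.center G)
  (χ : IrrCharacter G) (hχ1 : charDegree (χ : G → ℂ) ≠ 1) (hχg : (χ : G → ℂ) g ≠ 0)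
  (hother : ∀ ψ : IrrCharacter G, charDegree (ψ : G → ℂ) ≠ 1 → ψ ≠ χ → (ψ : G → ℂ) g = 0)

include hχ1 in
theorem chi_one_ne : (χ : G → ℂ) 1 ≠ 1 := by
  intro h
  apply hχ1
  have h2 := one_eq_charDegree (IsIrrCharacter.isCharacter χ.2)
  rw [h] at h2
  exact_mod_cast h2.symm

theorem irr_one_conj (ψ : IrrCharacter G) : conj ((ψ : G → ℂ) 1) = (ψ : G → ℂ) 1 := by
  rw [one_eq_charDegree (IsIrrCharacter.isCharacter ψ.2)]
  simp

theorem irr_one_ne_zero (ψ : IrrCharacter G) : (ψ : G → ℂ) 1 ≠ 0 := by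
  rw [one_eq_charDegree (IsIrrCharacter.isCharacter ψ.2)]
  exact_mod_cast (charDegree_pos ψ.2).ne'

include hχ1 hother in
/-- The column through `g` only sees the linear characters and `χ`. -/
theorem column (h : G) :
    ∑ ψ : IrrCharacter G, (ψ : G → ℂ) g * conj ((ψ : G → ℂ) h) =
      (∑ ψ : IrrCharacter G, if (ψ : G → ℂ) 1 = 1 then (ψ : G → ℂ) g * conj ((ψ : G → ℂ) h) else 0)
        + (χ : G → ℂ) g * conj ((χ : G → ℂ) h) := by
  classical
  have h1 : ∀ ψ : IrrCharacter G, (ψ : G → ℂ) g * conj ((ψ : G → ℂ) h) =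
      (if (ψ : G → ℂ) 1 = 1 then (ψ : G → ℂ) g * conj ((ψ : G → ℂ) h) else 0) +
      (if ψ = χ then (χ : G → ℂ) g * conj ((χ : G → ℂ) h) else 0) := by
    intro ψ
    by_cases h1 : (ψ : G → ℂ) 1 = 1
    · have h2 : ψ ≠ χ := by
        intro he
        rw [he] at h1
        exact chi_one_ne χ hχ1 h1
      rw [if_pos h1, if_neg h2, add_zero]
    · by_cases h2 : ψ = χ
      · subst h2
        rw [if_neg h1, if_pos rfl, zero_add]
      · have h3 : charDegree (ψ : G → ℂ) ≠ 1 := by
          intro h4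
          apply h1
          rw [one_eq_charDegree (IsIrrCharacter.isCharacter ψ.2), h4]
          simp
        rw [if_neg h1, if_neg h2, hother ψ h3 h2]
        simp
  rw [Finset.sum_congr rfl (fun ψ _ => h1 ψ), Finset.sum_add_distrib]
  simp

include hg in
theorem g_ne_one : g ≠ 1 := by
  rintro rfl
  exact hg (Subgroup.one_mem _)

include hg hχ1 hχg hother in
/-- The relation in the columns `g`, `1`. -/
theorem linSum_add : linSum g + (χ : G → ℂ) g * (χ : G → ℂ) 1 = 0 := by
  classical
  have h1 := column g χ hχ1 hother 1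
  have h2 := sum_irr_mul_conj g 1
  rw [if_neg (fun hc => g_ne_one g hg (isConj_one_right.mp hc.symm))] at h2
  rw [h2, irr_one_conj] at h1
  have h3 : ∀ ψ : IrrCharacter G, (if (ψ : G → ℂ) 1 = 1 then (ψ : G → ℂ) g *
      conj ((ψ : G → ℂ) 1) else 0) = if (ψ : G → ℂ) 1 = 1 then (ψ : G → ℂ) g else 0 := by
    intro ψ
    by_cases h : (ψ : G → ℂ) 1 = 1
    · rw [if_pos h, if_pos h, h]
      simp
    · rw [if_neg h, if_neg h]
  simp only [h3] at h1
  exact h1.symm

include hg hχ1 hχg hother in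
theorem g_mem : g ∈ commutator G := by
  classical
  by_contra h
  have h1 := linSum_add g hg χ hχ1 hχg hother
  rw [linSum_eq, if_neg h, zero_add] at h1
  exact (mul_ne_zero hχg (irr_one_ne_zero χ)) h1

include hg hχ1 hχg hother in
theorem chi_g : (χ : G → ℂ) g = -(((commutator G).index : ℂ) / (χ : G → ℂ) 1) := by
  classical
  have h1 := linSum_add g hg χ hχ1 hχg hother
  rw [linSum_eq, if_pos (g_mem g hg χ hχ1 hχg hother)] at h1
  have h2 := irr_one_ne_zero χ
  field_simp
  linear_combination h1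

open scoped Classical in
include hg hχ1 hχg hother in
/-- The relation in the columns `g`, `x`. -/
theorem col_rel (x : G) :
    (if x ∈ commutator G then ((commutator G).index : ℂ) else 0) +
      (χ : G → ℂ) g * conj ((χ : G → ℂ) x) =
    if IsConj g x then (Nat.card (Subgroup.centralizer ({x} : Set G)) : ℂ) else 0 := by
  classical
  have h1 := column g χ hχ1 hother x
  have h2 := sum_irr_mul_conj g x
  rw [h2] at h1
  rw [h1]
  congr 1
  have h3 : conj (linSum x) = ∑ ψ : IrrCharacter G, if (ψ : G → ℂ) 1 = 1 then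
      (ψ : G → ℂ) g * conj ((ψ : G → ℂ) x) else 0 := by
    unfold linSum
    rw [map_sum]
    refine Finset.sum_congr rfl fun ψ _ => ?_
    by_cases h : (ψ : G → ℂ) 1 = 1
    · rw [if_pos h, if_pos h, (linear_iff ψ.2).mp h g (g_mem g hg χ hχ1 hχg hother), h, one_mul]
    · rw [if_neg h, if_neg h, map_zero]
  rw [← h3, linSum_eq]
  by_cases hx : x ∈ commutator G
  · rw [if_pos hx]
    simp
  · rw [if_neg hx, map_zero]

include hg hχ1 hχg hother in
/-- `χ` vanishes off `G'`. -/
theorem chi_off (x : G) (hx : x ∉ commutator G) : (χ : G → ℂ) x = 0 := by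
  classical
  have h1 := col_rel g hg χ hχ1 hχg hother x
  have h2 : ¬ IsConj g x := by
    intro hc
    obtain ⟨c, rfl⟩ := isConj_iff.mp hc
    exact hx ((comm_normal (G := G)).conj_mem _ (g_mem g hg χ hχ1 hχg hother) c)
  rw [if_neg hx, if_neg h2, zero_add] at h1
  have h3 := (mul_eq_zero.mp h1).resolve_left hχg
  simpa using h3

include hg hχ1 hχg hother in
/-- An element of `G'` not conjugate to `g` lies in the kernel of `χ`. -/
theorem chi_ker (x : G) (hx : x ∈ commutator G) (hc : ¬ IsConj g x) :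
    (χ : G → ℂ) x = (χ : G → ℂ) 1 := by
  classical
  have h1 := col_rel g hg χ hχ1 hχg hother x
  rw [if_pos hx, if_neg hc, chi_g g hg χ hχ1 hχg hother] at h1
  have h2 := irr_one_ne_zero χ
  have hi : ((commutator G).index : ℂ) ≠ 0 := by
    exact_mod_cast Subgroup.index_ne_zero_of_finite
  have h3 : conj ((χ : G → ℂ) x) = (χ : G → ℂ) 1 := by
    field_simp at h1
    apply mul_left_cancel₀ hi
    linear_combination -h1
  have h4 := congrArg conj h3
  rw [Complex.conj_conj, irr_one_conj] at h4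
  exact h4

include hg hχ1 hχg hother in
theorem comm_eq :
    (commutator G : Set G) = {x : G | (χ : G → ℂ) x = (χ : G → ℂ) 1} ∪ {h : G | IsConj g h} := by
  ext x
  constructor
  · intro hx
    by_cases hc : IsConj g x
    · exact Or.inr hc
    · exact Or.inl (chi_ker g hg χ hχ1 hχg hother x hx hc)
  · rintro (hx | hx)
    · by_contra hc
      have h1 := chi_off g hg χ hχ1 hχg hother x hc
      have h2 : (χ : G → ℂ) x = (χ : G → ℂ) 1 := hx
      rw [h1] at h2
      exact irr_one_ne_zero χ h2.symm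
    · obtain ⟨c, rfl⟩ := isConj_iff.mp hx
      exact (comm_normal (G := G)).conj_mem _ (g_mem g hg χ hχ1 hχg hother) c

include hg hχ1 hχg hother in
/-- A nonlinear character whose kernel contains that of `χ` is `χ`. -/
theorem eq_chi (ψ : IrrCharacter G) (hψ1 : charDegree (ψ : G → ℂ) ≠ 1)
    (hker : ∀ x : G, (χ : G → ℂ) x = (χ : G → ℂ) 1 → (ψ : G → ℂ) x = (ψ : G → ℂ) 1) : ψ = χ := by
  classical
  by_contra hne
  have hg0 := hother ψ hψ1 hne
  haveI : Fintype (commutator G) := Fintype.ofFinite _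
  have hnl : ∃ x ∈ commutator G, (ψ : G → ℂ) x ≠ (ψ : G → ℂ) 1 := by
    by_contra hc
    push Not at hc
    apply hψ1
    have h1 := (linear_iff ψ.2).mpr hc
    have h2 := one_eq_charDegree (IsIrrCharacter.isCharacter ψ.2)
    rw [h1] at h2
    exact_mod_cast h2.symm
  have h0 := sum_mul_normal_eq_zero ψ.2 (commutator G) hnl 1
  have h1 : ∀ n : commutator G, (ψ : G → ℂ) (1 * (n : G)) =
      if (χ : G → ℂ) n = (χ : G → ℂ) 1 then (ψ : G → ℂ) 1 else 0 := by
    intro n
    rw [one_mul]
    by_cases hn : (χ : G → ℂ) n = (χ : G → ℂ) 1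
    · rw [if_pos hn, hker _ hn]
    · rw [if_neg hn]
      have hc : IsConj g (n : G) := by
        by_contra hc
        exact hn (chi_ker g hg χ hχ1 hχg hother n n.2 hc)
      obtain ⟨c, hc⟩ := isConj_iff.mp hc
      rw [← hc, char_apply_conj (IsIrrCharacter.isCharacter ψ.2), hg0]
  simp only [h1] at h0
  rw [Finset.sum_ite, Finset.sum_const_zero, add_zero, Finset.sum_const, nsmul_eq_mul] at h0
  rcases mul_eq_zero.mp h0 with h2 | h2
  · have h3 : (Finset.univ.filter fun n : commutator G =>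
        (χ : G → ℂ) n = (χ : G → ℂ) 1).card = 0 := by exact_mod_cast h2
    rw [Finset.card_eq_zero] at h3
    have h4 : (1 : commutator G) ∈ (Finset.univ.filter fun n : commutator G =>
        (χ : G → ℂ) n = (χ : G → ℂ) 1) := by
      simp
    rw [h3] at h4
    simp at h4
  · exact irr_one_ne_zero ψ h2

end Main

section Brauer

variable {G : Type u} [Group G] [Finite G]

/-- A character vanishing at an element of `r`-power order has degree divisible by `r`. -/
theorem prime_dvd_of_vanish {ψ : G → ℂ} (hψ : IsCharacter G ψ) {r e : ℕ} (hr : r.Prime) {g : G}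
    (hg : g ^ (r ^ e) = 1) (h0 : ψ g = 0) : r ∣ charDegree ψ := by
  classical
  have hdeg := one_eq_charDegree hψ
  obtain ⟨n, ρ, rfl⟩ := hψ
  have hn : charDegree ρ.character = n := by
    have h1 := char_one_eq_rep ρ
    rw [h1] at hdeg
    exact_mod_cast hdeg.symm
  rw [hn]
  have hp : (ρ g) ^ (r ^ e) = 1 := by rw [← map_pow, hg, map_one]
  obtain ⟨b, μ, h1, h2⟩ := CharValues.exists_eigenbasis (ρ g) (pow_pos hr.pos e) hp
  have htr : ρ.character g = ∑ i, μ i := CharValues.trace_eq_sum_of_eigenbasis (ρ g) b μ h1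
  obtain ⟨I, hI, hrI⟩ := DefectZero.exists_prime_over r hr
  haveI := hI
  have hint : ∀ i, IsIntegral ℤ (μ i) := fun i =>
    IsIntegral.of_pow (pow_pos hr.pos e) (by rw [h2 i]; exact isIntegral_one)
  let ν : Fin (Module.finrank ℂ (Fin n → ℂ)) → DefectZero.IntC := fun i => ⟨μ i, hint i⟩
  have hν : ∀ i, ν i - 1 ∈ I := fun i => DefectZero.sub_one_mem hr I hrI (ν i) e
    (Subtype.ext (by simpa [ν] using h2 i))
  have hsum : ∑ i, ν i = 0 := by
    apply Subtype.ext
    have : ((∑ i, ν i : DefectZero.IntC) : ℂ) = ∑ i, μ i := by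
      simp [ν]
    rw [this, ← htr, h0]
    rfl
  have h3 : ((n : ℕ) : DefectZero.IntC) ∈ I := by
    have h4 : ∑ i, (ν i - 1) ∈ I := Ideal.sum_mem I (fun i _ => hν i)
    rw [Finset.sum_sub_distrib, hsum] at h4
    have h5 := I.neg_mem h4
    simpa using h5
  by_contra hnd
  have hco : IsCoprime (r : ℤ) (n : ℤ) :=
    Nat.isCoprime_iff_coprime.mpr ((Nat.Prime.coprime_iff_not_dvd hr).mpr hnd)
  obtain ⟨a, c, hac⟩ := hco
  have h6 : (a : DefectZero.IntC) * ((r : ℕ) : DefectZero.IntC) +
      (c : DefectZero.IntC) * ((n : ℕ) : DefectZero.IntC) = 1 := by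
    have := congrArg (Int.cast : ℤ → DefectZero.IntC) hac
    simpa using this
  have h7 : (1 : DefectZero.IntC) ∈ I := by
    rw [← h6]
    exact I.add_mem (I.mul_mem_left _ hrI) (I.mul_mem_left _ h3)
  exact hI.ne_top ((Ideal.eq_top_iff_one I).mpr h7)

end Brauer

section Orders

variable {G : Type u} [Group G] [Finite G]

/-- All the elements of `M ∖ K` conjugate to one element: this element has prime power order and
`M / K` has exponent `r`. -/
theorem order_facts (M K : Subgroup G) [K.Normal] (g : G) (hgM : g ∈ M) (hgK : g ∉ K)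
    (hconj : ∀ x ∈ M, x ∉ K → IsConj g x) :
    ∃ r e : ℕ, r.Prime ∧ orderOf g = r ^ e ∧ ∀ x ∈ M, x ^ r ∈ K := by
  classical
  set n := orderOf g with hn
  have hn0 : n ≠ 0 := (orderOf_pos g).ne'
  have hn1 : n ≠ 1 := by
    intro h
    rw [hn, orderOf_eq_one_iff] at h
    exact hgK (h ▸ K.one_mem)
  have hord : ∀ x, IsConj g x → orderOf x = n := by
    intro x hx
    obtain ⟨c, rfl⟩ := isConj_iff.mp hx
    rw [hn]
    exact (MulAut.conj c).orderOf_eq g
  have hkey : ∀ p : ℕ, p.Prime → p ∣ n → g ^ p ∈ K := by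
    intro p hp hpn
    by_contra hc
    have h1 := hord _ (hconj _ (M.pow_mem hgM p) hc)
    rw [orderOf_pow' g hp.ne_zero, ← hn, Nat.gcd_eq_right hpn] at h1
    have h2 : n / p < n := Nat.div_lt_self (Nat.pos_of_ne_zero hn0) hp.one_lt
    omega
  set r := n.minFac with hr
  have hrp : r.Prime := Nat.minFac_prime hn1
  have hrn : r ∣ n := Nat.minFac_dvd n
  have huniq : ∀ {d : ℕ}, d.Prime → d ∣ n → d = r := by
    intro d hd hdn
    by_contra hne
    have h1 := hkey d hd hdn
    have h2 := hkey r hrp hrn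
    have h3 : (g : G ⧸ K) ^ d = 1 := by
      rw [← QuotientGroup.mk_pow]
      exact (QuotientGroup.eq_one_iff _).mpr h1
    have h4 : (g : G ⧸ K) ^ r = 1 := by
      rw [← QuotientGroup.mk_pow]
      exact (QuotientGroup.eq_one_iff _).mpr h2
    have h5 := pow_gcd_eq_one.mpr ⟨h3, h4⟩
    rw [(Nat.coprime_primes hd hrp).mpr hne, pow_one] at h5
    exact hgK ((QuotientGroup.eq_one_iff _).mp h5)
  refine ⟨r, n.primeFactorsList.length, hrp, Nat.eq_prime_pow_of_unique_prime_dvd hn0 huniq, ?_⟩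
  intro x hx
  by_cases hxK : x ∈ K
  · exact K.pow_mem hxK r
  · obtain ⟨c, rfl⟩ := isConj_iff.mp (hconj x hx hxK)
    rw [conj_pow]
    exact Subgroup.Normal.conj_mem inferInstance _ (hkey r hrp hrn) c

end Orders

section Camina

variable {G : Type u} [Group G] [Fintype G] (g : G) (hg : g ∉ Subgroup.center G)
  (χ : IrrCharacter G) (hχ1 : charDegree (χ : G → ℂ) ≠ 1) (hχg : (χ : G → ℂ) g ≠ 0)
  (hother : ∀ ψ : IrrCharacter G, charDegree (ψ : G → ℂ) ≠ 1 → ψ ≠ χ → (ψ : G → ℂ) g = 0)

/-- The kernel of `χ` as a subgroup. -/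
noncomputable abbrev kerOf (χ : IrrCharacter G) : Subgroup G :=
  charKer (IsIrrCharacter.isCharacter χ.2)

include hg hχ1 hχg hother in
theorem ker_le : kerOf χ ≤ commutator G := by
  intro x hx
  have h1 : x ∈ (commutator G : Set G) := by
    rw [comm_eq g hg χ hχ1 hχg hother]
    exact Or.inl (mem_charKer _ |>.mp hx)
  exact h1

include hg hχ1 hχg hother in
theorem g_not_ker : g ∉ kerOf χ := by
  intro h
  have h1 : (χ : G → ℂ) g = (χ : G → ℂ) 1 := (mem_charKer _).mp h
  have h2 := linSum_add g hg χ hχ1 hχg hother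
  rw [linSum_eq, if_pos (g_mem g hg χ hχ1 hχg hother), h1,
    one_eq_charDegree (IsIrrCharacter.isCharacter χ.2)] at h2
  have h3 : (((commutator G).index + charDegree (χ : G → ℂ) * charDegree (χ : G → ℂ) : ℕ) : ℂ) = 0 := by
    push_cast
    exact h2
  have h4 : (commutator G).index + charDegree (χ : G → ℂ) * charDegree (χ : G → ℂ) = 0 := by
    exact_mod_cast h3
  have h5 := Subgroup.index_ne_zero_of_finite (H := commutator G)
  omega

include hg hχ1 hχg hother in
theorem conj_of_not_ker (x : G) (hx : x ∈ commutator G) (hxK : x ∉ kerOf χ) : IsConj g x := by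
  by_contra hc
  exact hxK ((mem_charKer _).mpr (chi_ker g hg χ hχ1 hχg hother x hx hc))

include hg hχ1 hχg hother in
/-- `G / ker χ`: all the elements of a coset of `G'` outside `G'` are conjugate modulo `ker χ`. -/
theorem camina (x : G) (hx : x ∉ commutator G) (m : G) (hm : m ∈ commutator G) :
    ∃ h : G, ∃ k ∈ kerOf χ, h * x * h⁻¹ = x * m * k := by
  classical
  let K := kerOf χ
  haveI : K.Normal := charKer_normal _
  letI : Fintype (G ⧸ K) := Fintype.ofFinite _
  have hxm : x * m ∉ commutator G := fun h => hx (by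
    have := (commutator G).mul_mem h ((commutator G).inv_mem hm)
    simpa using this)
  have hterm : ∀ τ : IrrCharacter (G ⧸ K), (τ : G ⧸ K → ℂ) (x : G ⧸ K) *
      conj ((τ : G ⧸ K → ℂ) ((x * m : G) : G ⧸ K)) = if (τ : G ⧸ K → ℂ) 1 = 1 then 1 else 0 := by
    intro τ
    let ψ : IrrCharacter G := ⟨fun y => (τ : G ⧸ K → ℂ) (y : G ⧸ K),
      isIrrCharacter_comp_of_surjective (QuotientGroup.mk' K) (QuotientGroup.mk'_surjective K) τ.2⟩
    have hψv : ∀ y : G, (ψ : G → ℂ) y = (τ : G ⧸ K → ℂ) (y : G ⧸ K) := fun y => rfl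
    have hψ1 : (ψ : G → ℂ) 1 = (τ : G ⧸ K → ℂ) 1 := by
      rw [hψv, QuotientGroup.mk_one]
    by_cases h1 : (τ : G ⧸ K → ℂ) 1 = 1
    · rw [if_pos h1, ← hψv, ← hψv]
      have h2 : (ψ : G → ℂ) 1 = 1 := by rw [hψ1, h1]
      obtain ⟨f, hf⟩ := exists_hom_of_degree_one (IsIrrCharacter.isCharacter ψ.2) h2
      have hfm : f m = 1 := Abelianization.commutator_subset_ker f hm
      rw [char_conj_eq_inv (IsIrrCharacter.isCharacter ψ.2), hf, hf, map_inv, map_mul, hfm,
        mul_one, ← Units.val_mul, mul_inv_cancel, Units.val_one]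
    · rw [if_neg h1]
      have h2 : charDegree (ψ : G → ℂ) ≠ 1 := by
        intro h3
        apply h1
        rw [← hψ1, one_eq_charDegree (IsIrrCharacter.isCharacter ψ.2), h3]
        simp
      have h3 : ψ = χ := by
        apply eq_chi g hg χ hχ1 hχg hother ψ h2
        intro y hy
        have h4 : (y : G ⧸ K) = 1 := (QuotientGroup.eq_one_iff _).mpr ((mem_charKer _).mpr hy)
        rw [hψv, h4, hψ1]
      have h4 : (ψ : G → ℂ) x = 0 := by
        rw [h3]
        exact chi_off g hg χ hχ1 hχg hother x hx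
      rw [← hψv, h4, zero_mul]
  have h1 := sum_irr_mul_conj (x : G ⧸ K) ((x * m : G) : G ⧸ K)
  simp only [hterm] at h1
  have h2 : ∑ τ : IrrCharacter (G ⧸ K), (if (τ : G ⧸ K → ℂ) 1 = 1 then (1 : ℂ) else 0) ≠ 0 := by
    rw [Finset.sum_boole]
    have h3 : (Finset.univ.filter fun τ : IrrCharacter (G ⧸ K) => (τ : G ⧸ K → ℂ) 1 = 1).card ≠ 0 := by
      rw [Finset.card_ne_zero]
      exact ⟨⟨fun _ => 1, isIrrCharacter_one⟩, by simp⟩
    exact_mod_cast h3
  have h3 : IsConj (x : G ⧸ K) ((x * m : G) : G ⧸ K) := by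
    by_contra hc
    rw [if_neg hc] at h1
    exact h2 h1
  obtain ⟨c, hc⟩ := isConj_iff.mp h3
  obtain ⟨h, rfl⟩ := QuotientGroup.mk_surjective c
  refine ⟨h, (x * m)⁻¹ * (h * x * h⁻¹), ?_, by group⟩
  have h4 : ((h * x * h⁻¹ : G) : G ⧸ K) = ((x * m : G) : G ⧸ K) := by
    rw [← hc]
    rfl
  exact QuotientGroup.eq.mp h4.symm

end Camina

section Thompson

/-- A character with `N` in its kernel is orthogonal to an irreducible character without. -/
theorem classInner_eq_zero_of_ker {H : Type u} [Group H] [Fintype H] (N : Subgroup H) [N.Normal]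
    {ψ θ : H → ℂ} (hψ : IsCharacter H ψ) (hθ : IsIrrCharacter H θ)
    (hψN : ∀ n ∈ N, ψ n = ψ 1) (hθN : ∃ n ∈ N, θ n ≠ θ 1) : classInner ψ θ = 0 := by
  classical
  letI : Fintype N := Fintype.ofFinite _
  have h1 : ∀ n : N, ∑ y : H, ψ y * conj (θ (y * n)) = ∑ y : H, ψ y * conj (θ y) := by
    intro n
    refine Fintype.sum_equiv (Equiv.mulRight (n : H)) _ _ fun y => ?_
    simp only [Equiv.coe_mulRight]
    rw [char_mul_of_mem_ker hψ (hψN n n.2)]
  have h2 : ∑ n : N, ∑ y : H, ψ y * conj (θ (y * n)) = 0 := by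
    rw [Finset.sum_comm]
    refine Finset.sum_eq_zero fun y _ => ?_
    rw [← Finset.mul_sum, ← map_sum, sum_mul_normal_eq_zero hθ N hθN y, map_zero, mul_zero]
  simp only [h1, Finset.sum_const, Finset.card_univ, nsmul_eq_mul] at h2
  have h3 : ((Fintype.card N : ℕ) : ℂ) ≠ 0 := by exact_mod_cast Fintype.card_ne_zero
  have h4 := (mul_eq_zero.mp h2).resolve_left h3
  unfold classInner
  rw [h4, mul_zero]

variable {G : Type u} [Group G] [Fintype G] (g : G) (hg : g ∉ Subgroup.center G)
  (χ : IrrCharacter G) (hχ1 : charDegree (χ : G → ℂ) ≠ 1) (hχg : (χ : G → ℂ) g ≠ 0)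
  (hother : ∀ ψ : IrrCharacter G, charDegree (ψ : G → ℂ) ≠ 1 → ψ ≠ χ → (ψ : G → ℂ) g = 0)

include hg hχ1 hχg hother in
/-- The normal `r`-complement of the preimage of the normal Sylow `r`-subgroup of `G / ker χ`. -/
theorem exists_complement {r e : ℕ} (hr : r.Prime) (hord : g ^ (r ^ e) = 1)
    (hM : ∀ x ∈ commutator G, x ^ r ∈ kerOf χ) :
    ∃ Q : Subgroup G, Q.Normal ∧ Q ≤ kerOf χ ∧ (Nat.card Q).Coprime r ∧
      ∃ e' : ℕ, Q.relIndex (kerOf χ) = r ^ e' := by
  classical
  haveI : Fact r.Prime := ⟨hr⟩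
  set K := kerOf χ with hKdef
  haveI hKn : K.Normal := charKer_normal _
  have hKM : K ≤ commutator G := ker_le g hg χ hχ1 hχg hother
  obtain ⟨P⟩ : Nonempty (Sylow r (G ⧸ commutator G)) := inferInstance
  have hcomm : ∀ a b : G ⧸ commutator G, a * b = b * a := quot_comm
  haveI hPn : (P : Subgroup (G ⧸ commutator G)).Normal :=
    ⟨fun x hx c => by
      have : c * x * c⁻¹ = x := by rw [hcomm c x, mul_inv_cancel_right]
      rwa [this]⟩
  let Γ : Subgroup G := (P : Subgroup (G ⧸ commutator G)).comap (QuotientGroup.mk' (commutator G))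
  haveI hΓn : Γ.Normal := Subgroup.Normal.comap hPn _
  letI : Fintype Γ := Fintype.ofFinite _
  have hMΓ : commutator G ≤ Γ := by
    intro x hx
    have h1 : ((x : G) : G ⧸ commutator G) = 1 := (QuotientGroup.eq_one_iff _).mpr hx
    show ((x : G) : G ⧸ commutator G) ∈ (P : Subgroup (G ⧸ commutator G))
    rw [h1]
    exact Subgroup.one_mem _
  have hKΓ : K ≤ Γ := hKM.trans hMΓ
  have hidx : ¬ r ∣ Γ.index := by
    have h1 : Γ.index = (P : Subgroup (G ⧸ commutator G)).index :=
      Subgroup.index_comap_of_surjective _ (QuotientGroup.mk'_surjective _)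
    rw [h1]
    exact P.not_dvd_index
  have hpow : ∀ x ∈ Γ, ∃ k : ℕ, x ^ (r ^ k) ∈ K := by
    intro x hx
    obtain ⟨k, hk⟩ := P.isPGroup' ⟨((x : G) : G ⧸ commutator G), hx⟩
    have h1 : ((x : G) : G ⧸ commutator G) ^ (r ^ k) = 1 := congrArg Subtype.val hk
    rw [← QuotientGroup.mk_pow, QuotientGroup.eq_one_iff] at h1
    refine ⟨k + 1, ?_⟩
    rw [pow_succ, pow_mul]
    exact hM _ h1
  let K' : Subgroup Γ := K.subgroupOf Γ
  haveI hK'n : K'.Normal := Subgroup.normal_subgroupOf
  obtain ⟨c, hc⟩ : ∃ c : ℕ, K'.index = r ^ c := by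
    have h1 : IsPGroup r (Γ ⧸ K') := by
      intro y
      obtain ⟨y, rfl⟩ := QuotientGroup.mk_surjective y
      obtain ⟨k, hk⟩ := hpow y y.2
      refine ⟨k, ?_⟩
      rw [← QuotientGroup.mk_pow, QuotientGroup.eq_one_iff]
      show ((y ^ (r ^ k) : Γ) : G) ∈ K
      rw [Subgroup.coe_pow]
      exact hk
    obtain ⟨c, hc⟩ := IsPGroup.iff_card.mp h1
    exact ⟨c, by rw [Subgroup.index_eq_card, hc]⟩
  have hdeg : ∀ θ : IrrCharacter Γ, charDegree (θ : Γ → ℂ) ≠ 1 → r ∣ charDegree (θ : Γ → ℂ) := by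
    intro θ hθ1
    by_cases hker : ∀ y ∈ K', (θ : Γ → ℂ) y = (θ : Γ → ℂ) 1
    · have h1 := charDegree_dvd_index K' θ.2 hker
      rw [hc] at h1
      obtain ⟨j, -, hj⟩ := (Nat.dvd_prime_pow hr).1 h1
      rw [hj]
      refine dvd_pow_self r ?_
      rintro rfl
      exact hθ1 (by rw [hj, pow_zero])
    · push Not at hker
      obtain ⟨ψ, hψ, hcon⟩ := CharCoprime.exists_over Γ θ.2
      have hψK : ∃ x ∈ K, ψ x ≠ ψ 1 := by
        by_contra hcc
        push Not at hcc
        apply hcon
        apply classInner_eq_zero_of_ker K' (isCharacter_restrict Γ (IsIrrCharacter.isCharacter hψ))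
          θ.2 _ hker
        intro n hn
        exact hcc _ hn
      let ψ' : IrrCharacter G := ⟨ψ, hψ⟩
      have h1 : ψ' ≠ χ := by
        intro he
        obtain ⟨x, hx, hne⟩ := hψK
        apply hne
        have h2 : (ψ' : G → ℂ) = (χ : G → ℂ) := congrArg Subtype.val he
        show (ψ' : G → ℂ) x = (ψ' : G → ℂ) 1
        rw [h2]
        exact (mem_charKer _).mp hx
      have h2 : charDegree (ψ' : G → ℂ) ≠ 1 := by
        intro h3
        obtain ⟨x, hx, hne⟩ := hψK
        apply hne
        have h4 : (ψ' : G → ℂ) 1 = 1 := by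
          rw [one_eq_charDegree (IsIrrCharacter.isCharacter ψ'.2), h3]
          simp
        exact (linear_iff ψ'.2).mp h4 x (hKM hx)
      have h3 : ψ g = 0 := hother ψ' h2 h1
      have h4 : r ∣ charDegree ψ :=
        prime_dvd_of_vanish (IsIrrCharacter.isCharacter hψ) hr hord h3
      obtain ⟨h5, h6⟩ := DegreeDiv.degree_div Γ hψ θ.2 hcon
        (one_eq_charDegree (IsIrrCharacter.isCharacter hψ))
        (one_eq_charDegree (IsIrrCharacter.isCharacter θ.2))
      rw [← Nat.mul_div_cancel' h5] at h4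
      rcases (Nat.Prime.dvd_mul hr).1 h4 with h7 | h7
      · exact h7
      · exact absurd (h7.trans h6) hidx
  obtain ⟨N, hNn, hNc, k, hNk⟩ := Cfsg.Agent.S4456.result (G := Γ) r hr hdeg
  have hNpow : ∀ y : Γ, y ∈ N → (y : Γ) ^ Nat.card N = 1 := by
    intro y hy
    have h1 : (⟨y, hy⟩ : N) ^ Nat.card N = 1 := pow_card_eq_one'
    exact congrArg Subtype.val h1
  refine ⟨N.map Γ.subtype, ?_, ?_, ?_, ?_⟩
  · refine ⟨fun x hx c => ?_⟩
    obtain ⟨y, hy, rfl⟩ := hx
    have hz : c * (y : G) * c⁻¹ ∈ Γ := hΓn.conj_mem _ y.2 c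
    let z : Γ := ⟨c * (y : G) * c⁻¹, hz⟩
    have h1 : z ^ Nat.card N = 1 := by
      apply Subtype.ext
      rw [Subgroup.coe_pow]
      show (c * (y : G) * c⁻¹) ^ Nat.card N = 1
      rw [conj_pow]
      have h2 := congrArg Subtype.val (hNpow y hy)
      rw [Subgroup.coe_pow] at h2
      simp only [Subgroup.coe_one] at h2
      rw [h2]
      group
    have h3 : (z : Γ ⧸ N) ^ Nat.card N = 1 := by
      rw [← QuotientGroup.mk_pow, h1, QuotientGroup.mk_one]
    have h4 : (z : Γ ⧸ N) ^ (r ^ k) = 1 := by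
      have h5 : Nat.card (Γ ⧸ N) = r ^ k := by rw [← Subgroup.index_eq_card, hNk]
      rw [← h5]
      exact pow_card_eq_one'
    have h5 := pow_gcd_eq_one.mpr ⟨h3, h4⟩
    rw [Nat.Coprime.pow_right k hNc, pow_one, QuotientGroup.eq_one_iff] at h5
    exact ⟨z, h5, rfl⟩
  · rintro _ ⟨y, hy, rfl⟩
    obtain ⟨k', hk'⟩ := hpow y y.2
    have h1 : ((y : G) : G ⧸ K) ^ (r ^ k') = 1 := by
      rw [← QuotientGroup.mk_pow]
      exact (QuotientGroup.eq_one_iff _).mpr hk'
    have h2 : ((y : G) : G ⧸ K) ^ Nat.card N = 1 := by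
      rw [← QuotientGroup.mk_pow]
      have h3 := congrArg Subtype.val (hNpow y hy)
      rw [Subgroup.coe_pow] at h3
      simp only [Subgroup.coe_one] at h3
      rw [h3, QuotientGroup.mk_one]
    have h5 := pow_gcd_eq_one.mpr ⟨h2, h1⟩
    rw [Nat.Coprime.pow_right k' hNc, pow_one] at h5
    exact (QuotientGroup.eq_one_iff _).mp h5
  · have h1 : Nat.card (N.map Γ.subtype) = Nat.card N :=
      (Nat.card_congr (N.equivMapOfInjective Γ.subtype Γ.subtype_injective).toEquiv).symm
    rw [h1]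
    exact hNc
  · have hQK : N.map Γ.subtype ≤ K := by
      rintro _ ⟨y, hy, rfl⟩
      obtain ⟨k', hk'⟩ := hpow y y.2
      have h1 : ((y : G) : G ⧸ K) ^ (r ^ k') = 1 := by
        rw [← QuotientGroup.mk_pow]
        exact (QuotientGroup.eq_one_iff _).mpr hk'
      have h2 : ((y : G) : G ⧸ K) ^ Nat.card N = 1 := by
        rw [← QuotientGroup.mk_pow]
        have h3 := congrArg Subtype.val (hNpow y hy)
        rw [Subgroup.coe_pow] at h3
        simp only [Subgroup.coe_one] at h3
        rw [h3, QuotientGroup.mk_one]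
      have h5 := pow_gcd_eq_one.mpr ⟨h2, h1⟩
      rw [Nat.Coprime.pow_right k' hNc, pow_one] at h5
      exact (QuotientGroup.eq_one_iff _).mp h5
    have h1 := Subgroup.relIndex_mul_relIndex (N.map Γ.subtype) K Γ hQK hKΓ
    have h2 : (N.map Γ.subtype).relIndex Γ = r ^ k := by
      rw [Subgroup.relIndex, ← hNk]
      congr 1
      ext y
      simp [Subgroup.mem_subgroupOf]
    rw [h2] at h1
    obtain ⟨j, -, hj⟩ := (Nat.dvd_prime_pow hr).1 (Dvd.intro _ h1)
    exact ⟨j, hj⟩

end Thompson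

section Assembly

/-- Extension of solvable groups, in terms of subgroups. -/
theorem solvable_of_le {G : Type u} [Group G] {A B : Subgroup G} (hAB : A ≤ B)
    [(A.subgroupOf B).Normal] (hA : Group.IsSolvable A)
    (hB : Group.IsSolvable (B ⧸ A.subgroupOf B)) : Group.IsSolvable B := by
  have h1 : Group.IsSolvable (A.subgroupOf B) :=
    Group.isSolvable_of_isSolvable_injective (f := (Subgroup.subgroupOfEquivOfLe hAB).toMonoidHom)
      (Subgroup.subgroupOfEquivOfLe hAB).injective
  exact Group.isSolvable_of_ker_le_range (A.subgroupOf B).subtype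
    (QuotientGroup.mk' (A.subgroupOf B)) (by simp)

/-- The final assembly of solvability. -/
theorem solvable_of_chain {G : Type u} [Group G] [Finite G] {r : ℕ} (hr : r.Prime)
    (Q K : Subgroup G) (hQK : Q ≤ K) [K.Normal] [Q.Normal] (hKM : K ≤ commutator G)
    (hQ : Group.IsSolvable Q) {e : ℕ} (he : Q.relIndex K = r ^ e)
    (hM : ∀ x ∈ commutator G, x ^ r ∈ K) : Group.IsSolvable G := by
  classical
  haveI : Fact r.Prime := ⟨hr⟩
  have hK : Group.IsSolvable K := by
    haveI : (Q.subgroupOf K).Normal := Subgroup.normal_subgroupOf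
    apply solvable_of_le hQK hQ
    have h1 : IsPGroup r (K ⧸ Q.subgroupOf K) := by
      apply IsPGroup.of_card (n := e)
      rw [← Subgroup.index_eq_card]
      exact he
    haveI := h1.isNilpotent
    infer_instance
  have hMs : Group.IsSolvable (commutator G) := by
    haveI : (K.subgroupOf (commutator G)).Normal := Subgroup.normal_subgroupOf
    apply solvable_of_le hKM hK
    have h1 : IsPGroup r (commutator G ⧸ K.subgroupOf (commutator G)) := by
      intro y
      obtain ⟨y, rfl⟩ := QuotientGroup.mk_surjective y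
      refine ⟨1, ?_⟩
      rw [← QuotientGroup.mk_pow, QuotientGroup.eq_one_iff, pow_one]
      show ((y ^ r : commutator G) : G) ∈ K
      rw [Subgroup.coe_pow]
      exact hM _ y.2
    haveI := h1.isNilpotent
    infer_instance
  have hA : Group.IsSolvable (G ⧸ commutator G) := Group.isSolvable_of_comm quot_comm
  exact Group.isSolvable_of_ker_le_range (commutator G).subtype (QuotientGroup.mk' (commutator G))
    (by simp)

end Assembly

end Cfsg.Agent.Lib.S4805A
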