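import Mathlib
import Cfsg.Agent.Lib.Zsig

/-!
# Auxiliary facts for `S4805`: a prime power in `r ^ d - 1`, free permutations, cyclic regular groups
-/

set_option autoImplicit false
set_option linter.unusedSectionVars false
set_option linter.style.haveILetI false

namespace Cfsg.Agent.Lib.S4805C

/-- A prime power dividing `r ^ d - 1` but no `r ^ j - 1`, `0 < j < d`. -/
theorem exists_prime_pow (r d : ℕ) (hr : r.Prime) (hd : 2 ≤ d) :
    ∃ s m : ℕ, s.Prime ∧ 0 < m ∧ s ^ m ∣ r ^ d - 1 ∧ ∀ j, 0 < j → j < d → ¬ s ^ m ∣ r ^ j - 1 := by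
  by_cases h6 : r = 2 ∧ d = 6
  · obtain ⟨rfl, rfl⟩ := h6
    refine ⟨3, 2, by norm_num, by norm_num, by norm_num, ?_⟩
    intro j h0 h1
    interval_cases j <;> norm_num
  by_cases h2 : d = 2 ∧ ∃ m : ℕ, r + 1 = 2 ^ m
  · obtain ⟨rfl, a, ha⟩ := h2
    have hr2 : r ≠ 2 := by
      rintro rfl
      have h3 : 2 ^ a % 2 = 1 := by rw [← ha]
      rcases a with _ | a
      · simp at ha
      · rw [pow_succ] at h3
        omega
    have hodd : 2 ∣ r - 1 := by
      have h1 := hr.eq_one_or_self_of_dvd 2
      have h3 : r % 2 = 1 := by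
        rcases Nat.mod_two_eq_zero_or_one r with h | h
        · exact absurd (h1 (Nat.dvd_of_mod_eq_zero h)).symm (by omega)
        · exact h
      omega
    have hr1 : 1 < r := hr.one_lt
    refine ⟨2, a + 1, Nat.prime_two, by omega, ?_, ?_⟩
    · obtain ⟨c, hc⟩ := hodd
      have h3 : r ^ 2 - 1 = (r - 1) * (r + 1) := by
        obtain ⟨k, rfl⟩ : ∃ k, r = k + 1 := ⟨r - 1, by omega⟩
        simp only [Nat.add_sub_cancel]
        have : (k + 1) ^ 2 = k * (k + 1 + 1) + 1 := by ring
        rw [this, Nat.add_sub_cancel]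
      rw [h3, ha, hc, pow_succ]
      exact ⟨c, by ring⟩
    · intro j h0 h1 hdvd
      have hj : j = 1 := by omega
      subst hj
      rw [pow_one] at hdvd
      have h3 := Nat.le_of_dvd (by omega) hdvd
      rw [pow_succ] at h3
      have h4 : 0 < 2 ^ a := pow_pos (by norm_num) a
      omega
  · obtain ⟨s, hs, h1, h3⟩ := Cfsg.Agent.Lib.Zsig.zsigmondy r d hr.one_lt (by omega) h6 h2
    refine ⟨s, 1, hs, by omega, by simpa using h1, ?_⟩
    intro j h0 h4
    simpa using h3 j h0 h4

/-- A permutation of `s`-power order such that `π ^ (s ^ (m - 1))` has no fixed point: `s ^ m`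
divides the number of points. -/
theorem dvd_card_of_free {X : Type*} [Finite X] (π : Equiv.Perm X) {s k m : ℕ} (hs : s.Prime)
    (hm : 0 < m) (hk : π ^ (s ^ k) = 1) (hfree : ∀ x, (π ^ (s ^ (m - 1))) x ≠ x) :
    s ^ m ∣ Nat.card X := by
  classical
  haveI : Fact s.Prime := ⟨hs⟩
  let H : Subgroup (Equiv.Perm X) := Subgroup.zpowers π
  have hHc : ∀ a b : H, a * b = b * a := by
    rintro ⟨_, i, rfl⟩ ⟨_, j, rfl⟩
    apply Subtype.ext
    exact (Commute.refl π).zpow_zpow i j
  have key : ∀ x : X, s ^ m ∣ Nat.card (MulAction.orbit H x) := by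
    intro x
    have h1 : Nat.card (MulAction.orbit H x) = (MulAction.stabilizer H x).index := by
      rw [MulAction.index_stabilizer, Nat.card_coe_set_eq]
    rw [h1]
    have h2 : (MulAction.stabilizer H x).index ∣ s ^ k := by
      have h3 : Nat.card H = orderOf π := Nat.card_zpowers π
      have h4 : orderOf π ∣ s ^ k := orderOf_dvd_of_pow_eq_one hk
      exact (Subgroup.index_dvd_card _).trans (h3 ▸ h4)
    obtain ⟨e, -, he⟩ := (Nat.dvd_prime_pow hs).1 h2
    rw [he]
    by_cases hme : m ≤ e
    · exact pow_dvd_pow s hme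
    · exfalso
      have hN : (MulAction.stabilizer H x).Normal := by
        refine ⟨fun a ha b => ?_⟩
        have : b * a * b⁻¹ = a := by
          rw [hHc b a, mul_inv_cancel_right]
        rwa [this]
      let g : H := ⟨π, Subgroup.mem_zpowers π⟩
      have h3 := Subgroup.pow_index_mem (MulAction.stabilizer H x) g
      rw [he, MulAction.mem_stabilizer_iff] at h3
      have h4 : (π ^ (s ^ e)) x = x := h3
      apply hfree x
      have h5 : s ^ (m - 1) = s ^ e * s ^ (m - 1 - e) := by
        rw [← pow_add]
        congr 1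
        omega
      rw [h5, pow_mul]
      have h6 : ∀ n : ℕ, ((π ^ (s ^ e)) ^ n) x = x := by
        intro n
        induction n with
        | zero => simp
        | succ n ih =>
          rw [pow_succ, Equiv.Perm.mul_apply, h4, ih]
      exact h6 _
  rw [Nat.card_congr (MulAction.selfEquivSigmaOrbits H X)]
  letI : Fintype (MulAction.orbitRel.Quotient H X) := Fintype.ofFinite _
  rw [Nat.card_sigma]
  exact Finset.dvd_sum fun ω _ => key _

/-- An abelian group acting regularly on the non-identity elements of an abelian group is cyclic: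
it is the multiplicative group of a field. -/
theorem isCyclic_of_regular {V D : Type*} [CommGroup V] [Group D] [Finite D] (ρ : D →* MulAut V)
    (hcomm : ∀ a b : D, a * b = b * a) (v₀ : V) (hv₀ : v₀ ≠ 1)
    (htrans : ∀ x : V, x ≠ 1 → ∃ d, ρ d v₀ = x) (hfree : ∀ d, ρ d v₀ = v₀ → d = 1) :
    IsCyclic D := by
  classical
  let ι₀ : D → Module.End ℤ (Additive V) := fun d =>
    (MonoidHom.toAdditive (ρ d).toMonoidHom).toIntLinearMap
  have hι₀ : ∀ (d : D) (x : V), ι₀ d (Additive.ofMul x) = Additive.ofMul (ρ d x) := fun _ _ => rfl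
  let ι : D →* Module.End ℤ (Additive V) :=
    { toFun := ι₀
      map_one' := by
        apply LinearMap.ext
        intro x
        have h1 := hι₀ 1 (Additive.toMul x)
        rw [map_one] at h1
        exact h1
      map_mul' := by
        intro a b
        apply LinearMap.ext
        intro x
        have h1 := hι₀ (a * b) (Additive.toMul x)
        rw [map_mul] at h1
        exact h1 }
  have hc : ∀ x ∈ Set.range ι, ∀ y ∈ Set.range ι, x * y = y * x := by
    rintro _ ⟨a, rfl⟩ _ ⟨b, rfl⟩
    rw [← map_mul, ← map_mul, hcomm]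
  let S : Subring (Module.End ℤ (Additive V)) := Subring.closure (Set.range ι)
  letI : CommRing S := Subring.closureCommRingOfComm hc
  let f : D →* S :=
    { toFun := fun d => ⟨ι d, Subring.subset_closure ⟨d, rfl⟩⟩
      map_one' := Subtype.ext (map_one ι)
      map_mul' := fun a b => Subtype.ext (map_mul ι a b) }
  have hfv : ∀ (d : D) (x : V), (f d : Module.End ℤ (Additive V)) (Additive.ofMul x) =
      Additive.ofMul (ρ d x) := fun _ _ => rfl
  have hv0 : Additive.ofMul v₀ ≠ 0 := fun h => hv₀ (by simpa using h)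
  have hzero : ∀ e : S, (e : Module.End ℤ (Additive V)) (Additive.ofMul v₀) = 0 → e = 0 := by
    intro e he
    apply Subtype.ext
    apply LinearMap.ext
    intro x
    by_cases hx : x = 0
    · rw [hx, map_zero, map_zero]
    · have hx' : Additive.toMul x ≠ 1 := fun h => hx (by simpa using h)
      obtain ⟨d, hd⟩ := htrans _ hx'
      have h1 : x = (f d : Module.End ℤ (Additive V)) (Additive.ofMul v₀) := by
        rw [hfv, hd]
        rfl
      have h2 : e * f d = f d * e := mul_comm _ _
      have h5 : (e : Module.End ℤ (Additive V)) * (f d : Module.End ℤ (Additive V)) =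
          (f d : Module.End ℤ (Additive V)) * (e : Module.End ℤ (Additive V)) :=
        congrArg Subtype.val h2
      rw [h1]
      have h6 := LinearMap.congr_fun h5 (Additive.ofMul v₀)
      rw [Module.End.mul_apply, Module.End.mul_apply, he, map_zero] at h6
      rw [h6]
      rfl
  have hunit : ∀ e : S, e ≠ 0 → ∃ d, e = f d := by
    intro e he
    have h1 : (e : Module.End ℤ (Additive V)) (Additive.ofMul v₀) ≠ 0 := fun h => he (hzero e h)
    have h2 : Additive.toMul ((e : Module.End ℤ (Additive V)) (Additive.ofMul v₀)) ≠ 1 :=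
      fun h => h1 (by simpa using h)
    obtain ⟨d, hd⟩ := htrans _ h2
    refine ⟨d, ?_⟩
    have h3 : e - f d = 0 := by
      apply hzero
      have h4 : ((e - f d : S) : Module.End ℤ (Additive V)) =
          (e : Module.End ℤ (Additive V)) - (f d : Module.End ℤ (Additive V)) := rfl
      rw [h4, LinearMap.sub_apply, hfv, hd]
      simp
    exact sub_eq_zero.mp h3
  have hfinj : Function.Injective f := by
    rw [injective_iff_map_eq_one]
    intro d hd
    apply hfree
    have h1 := hfv d v₀
    rw [hd] at h1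
    have h2 : ((1 : S) : Module.End ℤ (Additive V)) (Additive.ofMul v₀) = Additive.ofMul v₀ := rfl
    rw [h2] at h1
    exact (Additive.ofMul.injective h1).symm
  haveI : Nontrivial S := by
    refine ⟨⟨1, 0, fun h => ?_⟩⟩
    have h1 := congrArg (fun e : S => (e : Module.End ℤ (Additive V)) (Additive.ofMul v₀)) h
    exact hv0 h1
  haveI : NoZeroDivisors S := by
    refine ⟨fun {a b} hab => ?_⟩
    by_cases hb : b = 0
    · exact Or.inr hb
    · left
      obtain ⟨d, rfl⟩ := hunit b hb
      have h1 : a * f d * f d⁻¹ = 0 := by rw [hab, zero_mul]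
      rw [mul_assoc, ← map_mul, mul_inv_cancel, map_one, mul_one] at h1
      exact h1
  haveI : IsDomain S := NoZeroDivisors.to_isDomain S
  exact isCyclic_of_subgroup_isDomain f hfinj

end Cfsg.Agent.Lib.S4805C
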