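import Mathlib
import Cfsg.Agent.Lib.CharInd
import Cfsg.Agent.Lib.S4805C1

/-!
# Camina pairs of `r`-groups with an automorphism fixed-point-free on the top
-/

set_option autoImplicit false
set_option linter.unusedSectionVars false
set_option linter.style.haveILetI false

namespace Cfsg.Agent.Lib.S4805C

open scoped commutatorElement

/-- The image of a subgroup containing the kernel: cardinalities. -/
theorem card_eq_card_map_mul {S : Type*} [Group S] [Finite S] (T L : Subgroup S) [L.Normal]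
    (hLT : L ≤ T) : Nat.card T = Nat.card (T.map (QuotientGroup.mk' L)) * Nat.card L := by
  let f : T →* S ⧸ L := (QuotientGroup.mk' L).comp T.subtype
  have h1 : f.ker = L.subgroupOf T := by
    ext t
    simp [f, MonoidHom.mem_ker, Subgroup.mem_subgroupOf]
  have h2 : f.range = T.map (QuotientGroup.mk' L) := by
    rw [MonoidHom.range_eq_map, ← Subgroup.map_map, ← MonoidHom.range_eq_map]
    simp
  have h3 : Nat.card (L.subgroupOf T) = Nat.card L :=
    Nat.card_congr (Subgroup.subgroupOfEquivOfLe hLT).toEquiv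
  have h4 := Subgroup.index_ker f
  rw [h1, h2] at h4
  rw [← h4, ← h3, mul_comm]
  exact (Subgroup.card_mul_index _).symm

section Bound

variable {S : Type*} [Group S] [Finite S]

/-- A central section of a Camina pair is small. -/
theorem section_bound {r : ℕ} [hr : Fact r.Prime] (hS : IsPGroup r S) (T L L' : Subgroup S)
    [T.Normal] [L.Normal] [L'.Normal] (hLT : L ≤ T) (hL'L : L' ≤ L)
    (hcen : ∀ l ∈ L, ∀ u : S, l * u * l⁻¹ * u⁻¹ ∈ L')
    (hcam : ∀ x, x ∉ T → ∀ t ∈ T, ∃ u, u * x * u⁻¹ = x * t) (x₀ : S) (hx₀ : x₀ ∉ T) :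
    r * Nat.card L ≤ T.index * Nat.card L' := by
  classical
  letI : Fintype (S ⧸ L') := Fintype.ofFinite _
  let π := QuotientGroup.mk' L'
  have hπ : Function.Surjective π := QuotientGroup.mk'_surjective L'
  let xb : S ⧸ L' := π x₀
  let C : Subgroup (S ⧸ L') := Subgroup.centralizer ({xb} : Set (S ⧸ L'))
  let A : Subgroup S := C.comap π
  have hAidx : A.index = C.index := Subgroup.index_comap_of_surjective _ hπ
  let Tb : Subgroup (S ⧸ L') := T.map π
  have hL'T : L' ≤ T := hL'L.trans hLT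
  have hcardT : Nat.card T = Nat.card Tb * Nat.card L' := card_eq_card_map_mul T L' hL'T
  -- the class of `xb` contains `xb Tb`
  have h1 : Nat.card Tb ≤ Nat.card {z : S ⧸ L' // IsConj xb z} := by
    let F : Tb → {z : S ⧸ L' // IsConj xb z} := fun z => ⟨xb * z, by
      obtain ⟨_, ⟨t, ht, rfl⟩⟩ := z
      obtain ⟨u, hu⟩ := hcam x₀ hx₀ t ht
      rw [isConj_iff]
      refine ⟨π u, ?_⟩
      show π u * π x₀ * (π u)⁻¹ = π x₀ * π t
      rw [← map_inv, ← map_mul, ← map_mul, ← map_mul, hu]⟩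
    apply Nat.card_le_card_of_injective F
    intro a b hab
    have h2 : xb * a = xb * b := congrArg Subtype.val hab
    exact Subtype.ext (mul_left_cancel h2)
  have h2 : Nat.card {z : S ⧸ L' // IsConj xb z} = C.index := by
    have h3 := Cfsg.Agent.Lib.CharInd.card_conj_mul_card_centralizer xb
    have h4 := C.card_mul_index
    have h5 : 0 < Nat.card C := Nat.card_pos
    have h6 : Nat.card (Subgroup.centralizer ({xb} : Set (S ⧸ L'))) = Nat.card C := rfl
    rw [h6] at h3
    rw [← h4, mul_comm] at h3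
    exact Nat.eq_of_mul_eq_mul_left h5 h3
  -- `L` is properly contained in `A`
  have hLA : L ≤ A := by
    intro l hl
    show π l ∈ Subgroup.centralizer ({xb} : Set (S ⧸ L'))
    rw [Subgroup.mem_centralizer_singleton_iff]
    have h3 := hcen l hl x₀
    have h4 : π (l * x₀ * l⁻¹ * x₀⁻¹) = 1 := (QuotientGroup.eq_one_iff _).mpr h3
    rw [map_mul, map_mul, map_mul, map_inv, map_inv] at h4
    have h5 : π l * π x₀ * (π l)⁻¹ = π x₀ := by
      rw [mul_inv_eq_one] at h4
      exact h4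
    rw [mul_inv_eq_iff_eq_mul] at h5
    exact h5
  have hxA : x₀ ∈ A := by
    show π x₀ ∈ Subgroup.centralizer ({xb} : Set (S ⧸ L'))
    rw [Subgroup.mem_centralizer_singleton_iff]
  have hLlt : Nat.card L < Nat.card A := by
    by_contra hc
    push Not at hc
    have h3 : L = A := Subgroup.eq_of_le_of_card_ge hLA hc
    exact hx₀ (hLT (h3 ▸ hxA))
  obtain ⟨a, ha⟩ := IsPGroup.iff_card.mp (hS.to_subgroup L)
  obtain ⟨b, hb⟩ := IsPGroup.iff_card.mp (hS.to_subgroup A)
  have hab : a < b := by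
    rw [ha, hb] at hLlt
    exact (Nat.pow_lt_pow_iff_right hr.out.one_lt).mp hLlt
  have h3 : r * Nat.card L ≤ Nat.card A := by
    rw [ha, hb, ← pow_succ']
    exact Nat.pow_le_pow_right hr.out.pos hab
  have h4 : Nat.card S = Nat.card A * A.index := (A.card_mul_index).symm
  have h5 : Nat.card S = Nat.card T * T.index := T.card_mul_index.symm
  have hTb : 0 < Nat.card Tb := Nat.card_pos
  have h6 : Nat.card Tb ≤ A.index := by
    rw [hAidx, ← h2]
    exact h1
  have h7 : (r * Nat.card L) * Nat.card Tb ≤ (T.index * Nat.card L') * Nat.card Tb := by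
    calc (r * Nat.card L) * Nat.card Tb ≤ Nat.card A * A.index := Nat.mul_le_mul h3 h6
      _ = Nat.card T * T.index := by rw [← h4, h5]
      _ = _ := by rw [hcardT]; ring
  exact Nat.le_of_mul_le_mul_right h7 hTb

/-- An automorphism of `s`-power order acts trivially (after a power) on a small `r`-subgroup. -/
theorem fix_section {H : Type*} [Group H] [Finite H] {r s k m d b : ℕ} (hr : r.Prime) (hs : s.Prime)
    (hrs : s ≠ r) (hm : 0 < m) (W : Subgroup H) (hW : Nat.card W = r ^ b) (hbd : b < d)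
    (σ : MulAut H) (hσW : ∀ w ∈ W, σ w ∈ W) (hσ : σ ^ (s ^ k) = 1)
    (hZ : ∀ j, 0 < j → j < d → ¬ s ^ m ∣ r ^ j - 1) :
    ∀ w ∈ W, (σ ^ (s ^ (m - 1))) w = w := by
  classical
  haveI : Fact r.Prime := ⟨hr⟩
  set θ : MulAut H := σ ^ (s ^ (m - 1)) with hθ
  have hσcomm : ∀ x, θ (σ x) = σ (θ x) := by
    intro x
    have h1 : θ * σ = σ * θ := by
      rw [hθ, ← pow_succ, ← pow_succ']
    exact congrArg (fun τ : MulAut H => τ x) h1
  have hσinv : ∀ x, σ x ∈ W → x ∈ W := by
    intro x hx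
    have h1 : ∀ n : ℕ, ∀ y ∈ W, (σ ^ n) y ∈ W := by
      intro n
      induction n with
      | zero => intro y hy; simpa using hy
      | succ n ih =>
        intro y hy
        rw [pow_succ, MulAut.mul_apply]
        exact ih _ (hσW y hy)
    have hpos : 0 < s ^ k := pow_pos hs.pos k
    have h2 := h1 (s ^ k - 1) _ hx
    rw [← MulAut.mul_apply, ← pow_succ, Nat.sub_add_cancel hpos, hσ] at h2
    simpa using h2
  let p : H → Prop := fun w => w ∈ W ∧ θ w ≠ w
  have hp : ∀ x, p (MulAut.toPerm H σ x) ↔ p x := by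
    intro x
    constructor
    · rintro ⟨h1, h2⟩
      refine ⟨hσinv x h1, fun h3 => h2 ?_⟩
      show θ (σ x) = σ x
      rw [hσcomm, h3]
    · rintro ⟨h1, h2⟩
      refine ⟨hσW x h1, fun h3 => h2 ?_⟩
      have h4 : θ (σ x) = σ x := h3
      rw [hσcomm] at h4
      exact σ.injective h4
  let π : Equiv.Perm {x // p x} := (MulAut.toPerm H σ).subtypePerm hp
  have hπpow : ∀ (n : ℕ) (x : {x // p x}), ((π ^ n) x : H) = (σ ^ n) x := by
    intro n x
    induction n with
    | zero => simp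
    | succ n ih =>
      rw [pow_succ', Equiv.Perm.mul_apply, pow_succ', MulAut.mul_apply, ← ih]
      rfl
  have hπk : π ^ (s ^ k) = 1 := by
    ext x
    rw [hπpow, hσ]
    rfl
  have hfree : ∀ x, (π ^ (s ^ (m - 1))) x ≠ x := by
    intro x h
    have h1 := congrArg Subtype.val h
    rw [hπpow] at h1
    exact x.2.2 h1
  have hdvd := dvd_card_of_free π hs hm hπk hfree
  -- the fixed points
  let F : Subgroup H :=
    { carrier := {w | w ∈ W ∧ θ w = w}
      mul_mem' := by
        rintro a b ⟨h1, h2⟩ ⟨h3, h4⟩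
        exact ⟨W.mul_mem h1 h3, by rw [map_mul, h2, h4]⟩
      one_mem' := ⟨W.one_mem, map_one _⟩
      inv_mem' := by
        rintro a ⟨h1, h2⟩
        exact ⟨W.inv_mem h1, by rw [map_inv, h2]⟩ }
  have hFW : F ≤ W := fun w hw => hw.1
  have hcount : Nat.card W = Nat.card {x // p x} + Nat.card F := by
    letI : Fintype W := Fintype.ofFinite _
    letI : Fintype {x // p x} := Fintype.ofFinite _
    letI : Fintype F := Fintype.ofFinite _
    simp only [Nat.card_eq_fintype_card]
    let e : W ≃ {x // p x} ⊕ F :=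
      { toFun := fun w => if h : θ w = w then Sum.inr ⟨w, w.2, h⟩ else Sum.inl ⟨w, w.2, h⟩
        invFun := fun z => match z with
          | Sum.inl a => ⟨a.1, a.2.1⟩
          | Sum.inr a => ⟨a.1, a.2.1⟩
        left_inv := by
          intro w
          by_cases h : θ w = w
          · simp [h]
          · simp [h]
        right_inv := by
          intro z
          rcases z with a | a
          · simp [a.2.2]
          · have : θ a.1 = a.1 := a.2.2
            simp [this] }
    rw [Fintype.card_congr e, Fintype.card_sum]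
  obtain ⟨c, hc⟩ : ∃ c, Nat.card F = r ^ c := by
    have h1 : Nat.card F ∣ Nat.card W := Subgroup.card_dvd_of_le hFW
    rw [hW] at h1
    obtain ⟨c, -, hc⟩ := (Nat.dvd_prime_pow hr).1 h1
    exact ⟨c, hc⟩
  have hcb : c ≤ b := by
    have h1 : Nat.card F ≤ Nat.card W := Nat.le_of_dvd Nat.card_pos (Subgroup.card_dvd_of_le hFW)
    rw [hc, hW] at h1
    exact (Nat.pow_le_pow_iff_right hr.one_lt).mp h1
  have hbc : b = c := by
    by_contra hne
    have hlt : 0 < b - c := by omega
    apply hZ (b - c) hlt (by omega)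
    have h1 : Nat.card {x // p x} = r ^ c * (r ^ (b - c) - 1) := by
      have h2 : r ^ b = r ^ c * r ^ (b - c) := by
        rw [← pow_add]
        congr 1
        omega
      have h3 : 1 ≤ r ^ (b - c) := Nat.one_le_pow _ _ hr.pos
      rw [hW, hc] at hcount
      obtain ⟨t, ht⟩ : ∃ t, r ^ (b - c) = t + 1 := ⟨r ^ (b - c) - 1, by omega⟩
      rw [ht] at h2 ⊢
      simp only [Nat.add_sub_cancel]
      rw [h2] at hcount
      have : r ^ c * (t + 1) = r ^ c * t + r ^ c := by ring
      omega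
    rw [h1] at hdvd
    have hco : Nat.Coprime (s ^ m) (r ^ c) :=
      Nat.Coprime.pow _ _ ((Nat.coprime_primes hs hr).mpr hrs)
    exact hco.dvd_of_dvd_mul_left hdvd
  have hFW' : F = W := by
    apply Subgroup.eq_of_le_of_card_ge hFW
    rw [hW, hc, hbc]
  intro w hw
  rw [← hFW'] at hw
  exact hw.2

/-- `[L, S] ≠ L` for a nontrivial `L` in a nilpotent group. -/
theorem comm_top_ne [Group.IsNilpotent S] (L : Subgroup S) (hL : L ≠ ⊥) :
    ⁅L, (⊤ : Subgroup S)⁆ ≠ L := by
  intro h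
  obtain ⟨n, hn⟩ := Subgroup.nilpotent_iff_lowerCentralSeries.mp (inferInstance : Group.IsNilpotent S)
  have h1 : ∀ k, L ≤ (⊤ : Subgroup S).lowerCentralSeries k := by
    intro k
    induction k with
    | zero => exact le_top
    | succ k ih =>
      rw [Subgroup.lowerCentralSeries_succ]
      calc L = ⁅L, (⊤ : Subgroup S)⁆ := h.symm
        _ ≤ _ := Subgroup.commutator_mono ih le_rfl
  have h2 := h1 n
  rw [hn] at h2
  exact hL (le_bot_iff.mp h2)

/-- The power of the automorphism acts trivially on the normal subgroups inside `T`. -/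
theorem fix_of_le {r s k m d : ℕ} [hr : Fact r.Prime] (hs : s.Prime) (hrs : s ≠ r) (hm : 0 < m)
    (hS : IsPGroup r S) (T : Subgroup S) [T.Normal] (hT : T.index = r ^ d)
    (hcam : ∀ x, x ∉ T → ∀ t ∈ T, ∃ u, u * x * u⁻¹ = x * t) (x₀ : S) (hx₀ : x₀ ∉ T)
    (τ : MulAut S) (hτ : τ ^ (s ^ k) = 1)
    (hZ : ∀ j, 0 < j → j < d → ¬ s ^ m ∣ r ^ j - 1) :
    ∀ (n : ℕ) (L : Subgroup S), Nat.card L = n → L.Normal → L ≤ T → (∀ l ∈ L, τ l ∈ L) →
      ∀ l ∈ L, (τ ^ (s ^ (m - 1))) l = l := by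
  classical
  haveI := hS.isNilpotent
  intro n
  induction n using Nat.strong_induction_on with
  | _ n ih =>
    intro L hLn hLnorm hLT hτL l hl
    by_cases hbot : L = ⊥
    · subst hbot
      have : l = 1 := by simpa using hl
      rw [this, map_one]
    haveI : L.Normal := hLnorm
    let L' : Subgroup S := ⁅L, (⊤ : Subgroup S)⁆
    haveI hL'n : L'.Normal := inferInstance
    have hL'L : L' ≤ L := Subgroup.commutator_le_left _ _
    have hne : L' ≠ L := comm_top_ne L hbot
    have hlt : Nat.card L' < Nat.card L := by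
      by_contra hc
      push Not at hc
      exact hne (Subgroup.eq_of_le_of_card_ge hL'L hc)
    have hτL' : ∀ x ∈ L', τ x ∈ L' := by
      have h1 : L' ≤ L'.comap τ.toMonoidHom := by
        rw [Subgroup.commutator_le]
        intro a ha b _
        show τ ⁅a, b⁆ ∈ L'
        rw [map_commutatorElement]
        exact Subgroup.commutator_mem_commutator (hτL a ha) (Subgroup.mem_top _)
      exact h1
    have hfixL' := ih _ (hLn ▸ hlt) L' rfl hL'n (hL'L.trans hLT) hτL'
    have hcen : ∀ a ∈ L, ∀ u : S, a * u * a⁻¹ * u⁻¹ ∈ L' := fun a ha u =>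
      Subgroup.commutator_mem_commutator ha (Subgroup.mem_top u)
    have hbound := section_bound hS T L L' hLT hL'L hcen hcam x₀ hx₀
    have hmap : L'.map τ.toMonoidHom = L' := by
      apply Subgroup.eq_of_le_of_card_ge
      · rintro _ ⟨x, hx, rfl⟩
        exact hτL' x hx
      · have h1 : Nat.card (L'.map τ.toMonoidHom) = Nat.card L' :=
          (Nat.card_congr (L'.equivMapOfInjective τ.toMonoidHom τ.injective).toEquiv).symm
        rw [h1]
    let σ : MulAut (S ⧸ L') := QuotientGroup.congr L' L' τ hmap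
    have hσmk : ∀ (j : ℕ) (x : S), (σ ^ j) (x : S ⧸ L') = (((τ ^ j) x : S) : S ⧸ L') := by
      intro j x
      induction j with
      | zero => simp
      | succ j ih' =>
        rw [pow_succ', MulAut.mul_apply, ih', pow_succ', MulAut.mul_apply]
        rfl
    let W : Subgroup (S ⧸ L') := L.map (QuotientGroup.mk' L')
    have hWcard : Nat.card L = Nat.card W * Nat.card L' := card_eq_card_map_mul L L' hL'L
    obtain ⟨b, hb⟩ : ∃ b, Nat.card W = r ^ b :=
      IsPGroup.iff_card.mp ((hS.of_surjective (QuotientGroup.mk' L')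
        (QuotientGroup.mk'_surjective L')).to_subgroup W)
    have hbd : b < d := by
      rw [hWcard, hT, hb] at hbound
      have hpos : 0 < Nat.card L' := Nat.card_pos
      have h1 : r * r ^ b ≤ r ^ d := by
        have h2 : (r * r ^ b) * Nat.card L' ≤ r ^ d * Nat.card L' := by
          calc (r * r ^ b) * Nat.card L' = r * (r ^ b * Nat.card L') := by ring
            _ ≤ _ := hbound
        exact Nat.le_of_mul_le_mul_right h2 hpos
      rw [← pow_succ'] at h1
      have h3 := (Nat.pow_le_pow_iff_right hr.out.one_lt).mp h1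
      omega
    have hσW : ∀ w ∈ W, σ w ∈ W := by
      rintro _ ⟨x, hx, rfl⟩
      exact ⟨τ x, hτL x hx, rfl⟩
    have hσo : σ ^ (s ^ k) = 1 := by
      ext x
      obtain ⟨x, rfl⟩ := QuotientGroup.mk_surjective x
      rw [hσmk, hτ]
      rfl
    have hW := fix_section hr.out hs hrs hm W hb hbd σ hσW hσo hZ
    have h1 : (σ ^ (s ^ (m - 1))) (l : S ⧸ L') = (l : S ⧸ L') := hW _ ⟨l, hl, rfl⟩
    rw [hσmk] at h1
    set θ : MulAut S := τ ^ (s ^ (m - 1)) with hθ
    have hc : l⁻¹ * θ l ∈ L' := QuotientGroup.eq.mp h1.symm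
    have hc' : θ l * l⁻¹ ∈ L' := by
      have h2 := hL'n.conj_mem _ hc l
      have h3 : l * (l⁻¹ * θ l) * l⁻¹ = θ l * l⁻¹ := by group
      rwa [h3] at h2
    set c : S := θ l * l⁻¹ with hcdef
    have hθc : θ c = c := hfixL' c hc'
    have hθlc : θ l = c * l := by
      rw [hcdef, inv_mul_cancel_right]
    have hθl : ∀ j : ℕ, (θ ^ j) l = c ^ j * l := by
      intro j
      induction j with
      | zero => simp
      | succ j ih' =>
        rw [pow_succ', MulAut.mul_apply, ih', map_mul, map_pow, hθc, pow_succ, mul_assoc]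
        exact congrArg (fun z => c ^ j * z) hθlc
    have hθo : θ ^ (s ^ k) = 1 := by
      rw [hθ, ← pow_mul, mul_comm, pow_mul, hτ, one_pow]
    have hcs : c ^ (s ^ k) = 1 := by
      have h2 := hθl (s ^ k)
      rw [hθo] at h2
      have h3 : l = c ^ (s ^ k) * l := h2
      exact (mul_eq_right.mp h3.symm)
    obtain ⟨e, he⟩ := hS c
    have hgcd : Nat.gcd (s ^ k) (r ^ e) = 1 :=
      Nat.Coprime.pow _ _ ((Nat.coprime_primes hs hr.out).mpr hrs)
    have hc1 : c = 1 := by
      have h2 := pow_gcd_eq_one.mpr ⟨hcs, he⟩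
      rwa [hgcd, pow_one] at h2
    have h5 := hθl 1
    rw [pow_one, pow_one, hc1, one_mul] at h5
    exact h5

theorem comm_mul_mul {G : Type*} [Group G] (a b x y : G) (h1 : a * x = x * a) (h2 : a * y = y * a)
    (h3 : b * x = x * b) (h4 : b * y = y * b) : ⁅a * x, b * y⁆ = ⁅a, b⁆ * ⁅x, y⁆ := by
  have hxb : x * b = b * x := h3.symm
  have hc1 : Commute a⁻¹ (x * y * x⁻¹) :=
    (Commute.mul_right (Commute.mul_right h1 h2) (Commute.inv_right h1)).inv_left
  have hc2 : Commute b⁻¹ (x * y * x⁻¹ * y⁻¹) :=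
    (Commute.mul_right (Commute.mul_right (Commute.mul_right h3 h4) (Commute.inv_right h3))
      (Commute.inv_right h4)).inv_left
  have hw1 : (x * y * x⁻¹) * a⁻¹ = a⁻¹ * (x * y * x⁻¹) := hc1.eq.symm
  have hw2 : (x * y * x⁻¹ * y⁻¹) * b⁻¹ = b⁻¹ * (x * y * x⁻¹ * y⁻¹) := hc2.eq.symm
  simp only [commutatorElement_def, mul_inv_rev]
  calc a * x * (b * y) * (x⁻¹ * a⁻¹) * (y⁻¹ * b⁻¹)
      = a * (x * b) * y * x⁻¹ * a⁻¹ * y⁻¹ * b⁻¹ := by simp only [mul_assoc]
    _ = a * (b * x) * y * x⁻¹ * a⁻¹ * y⁻¹ * b⁻¹ := by rw [hxb]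
    _ = a * b * ((x * y * x⁻¹) * a⁻¹) * y⁻¹ * b⁻¹ := by simp only [mul_assoc]
    _ = a * b * (a⁻¹ * (x * y * x⁻¹)) * y⁻¹ * b⁻¹ := by rw [hw1]
    _ = a * b * a⁻¹ * ((x * y * x⁻¹ * y⁻¹) * b⁻¹) := by simp only [mul_assoc]
    _ = a * b * a⁻¹ * (b⁻¹ * (x * y * x⁻¹ * y⁻¹)) := by rw [hw2]
    _ = _ := by simp only [mul_assoc]

/-- An automorphism fixing `T` pointwise, without fixed points on `S / T`: then `T` is central. -/
theorem center_of_fix {r : ℕ} [hr : Fact r.Prime] (hS : IsPGroup r S) (T : Subgroup S) [hTn : T.Normal]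
    (hcomm : commutator S ≤ T) (hTc : T ≤ commutator S) (θ : MulAut S) (hfix : ∀ t ∈ T, θ t = t)
    (hfree : ∀ x, x⁻¹ * θ x ∈ T → x ∈ T) : T ≤ Subgroup.center S := by
  classical
  haveI := hS.isNilpotent
  have hab : ∀ a b : S ⧸ T, a * b = b * a := by
    intro a b
    obtain ⟨a, rfl⟩ := QuotientGroup.mk_surjective a
    obtain ⟨b, rfl⟩ := QuotientGroup.mk_surjective b
    rw [← QuotientGroup.mk_mul, ← QuotientGroup.mk_mul, QuotientGroup.eq]
    have h1 : (a * b)⁻¹ * (b * a) = ⁅b⁻¹, a⁻¹⁆ := by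
      simp [commutatorElement_def, mul_assoc]
    rw [h1]
    apply hcomm
    exact Subgroup.commutator_mem_commutator (Subgroup.mem_top _) (Subgroup.mem_top _)
  have hR : ∀ x, ∀ t ∈ T, t * (x⁻¹ * θ x) = (x⁻¹ * θ x) * t := by
    intro x t ht
    have h1 : x * t * x⁻¹ * t⁻¹ ∈ T :=
      T.mul_mem (hTn.conj_mem t ht x) (T.inv_mem ht)
    have h2 := hfix _ h1
    simp only [map_mul, map_inv, hfix t ht] at h2
    have h3 : θ x * t * (θ x)⁻¹ = x * t * x⁻¹ := mul_right_cancel h2
    have h4 : t * (x⁻¹ * θ x) = x⁻¹ * (x * t * x⁻¹) * θ x := by group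
    rw [h4, ← h3]
    group
  let F : S →* S ⧸ T := MonoidHom.mk' (fun x => ((x⁻¹ * θ x : S) : S ⧸ T)) (by
    intro a b
    have h1 : ((a * b)⁻¹ * θ (a * b) : S) = b⁻¹ * (a⁻¹ * θ a) * θ b := by
      rw [map_mul]
      group
    rw [h1, QuotientGroup.mk_mul, QuotientGroup.mk_mul, hab ((b⁻¹ : S) : S ⧸ T), mul_assoc]
    rfl)
  have hFker : F.ker = T := by
    ext x
    rw [MonoidHom.mem_ker]
    show ((x⁻¹ * θ x : S) : S ⧸ T) = 1 ↔ x ∈ T
    rw [QuotientGroup.eq_one_iff]
    constructor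
    · exact hfree x
    · intro hx
      rw [hfix x hx, inv_mul_cancel]
      exact T.one_mem
  have hFrange : F.range = ⊤ := by
    apply Subgroup.eq_top_of_card_eq
    rw [← Subgroup.index_ker, hFker, Subgroup.index_eq_card]
  have hdec : ∀ z : S, ∃ c, (∀ t ∈ T, t * c = c * t) ∧ ∃ t ∈ T, z = c * t := by
    intro z
    have h1 : (z : S ⧸ T) ∈ F.range := by rw [hFrange]; exact Subgroup.mem_top _
    obtain ⟨x, hx⟩ := h1
    have h2 : ((x⁻¹ * θ x : S) : S ⧸ T) = (z : S ⧸ T) := hx
    refine ⟨x⁻¹ * θ x, hR x, (x⁻¹ * θ x)⁻¹ * z, QuotientGroup.eq.mp h2, by group⟩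
  let R : Subgroup S := Subgroup.centralizer (T : Set S)
  have hRmem : ∀ c, c ∈ R ↔ ∀ t ∈ T, t * c = c * t := fun c => Subgroup.mem_centralizer_iff
  let R' : Subgroup S := ⁅R, R⁆
  let T' : Subgroup S := ⁅T, T⁆
  haveI hT'n : T'.Normal := inferInstance
  have hS' : commutator S ≤ R' ⊔ T' := by
    rw [commutator_def, Subgroup.commutator_le]
    intro z₁ _ z₂ _
    obtain ⟨c₁, hc₁, t₁, ht₁, rfl⟩ := hdec z₁
    obtain ⟨c₂, hc₂, t₂, ht₂, rfl⟩ := hdec z₂
    rw [comm_mul_mul c₁ c₂ t₁ t₂ (hc₁ t₁ ht₁).symm (hc₁ t₂ ht₂).symm (hc₂ t₁ ht₁).symm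
      (hc₂ t₂ ht₂).symm]
    exact Subgroup.mul_mem _
      (Subgroup.mem_sup_left (Subgroup.commutator_mem_commutator ((hRmem c₁).mpr hc₁) ((hRmem c₂).mpr hc₂)))
      (Subgroup.mem_sup_right (Subgroup.commutator_mem_commutator ht₁ ht₂))
  have hR'T : R' ≤ T := by
    refine le_trans ?_ hcomm
    exact Subgroup.commutator_mono le_top le_top
  have hR'R : R' ≤ R := by
    rw [Subgroup.commutator_le]
    intro a ha b hb
    exact R.mul_mem (R.mul_mem (R.mul_mem ha hb) (R.inv_mem ha)) (R.inv_mem hb)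
  have hTdec : ∀ t ∈ T, ∃ a ∈ R', ∃ b ∈ T', t = a * b := by
    intro t ht
    have h1 : t ∈ ((R' ⊔ T' : Subgroup S) : Set S) := hS' (hTc ht)
    rw [Subgroup.mul_normal] at h1
    obtain ⟨a, ha, b, hb, rfl⟩ := Set.mem_mul.mp h1
    exact ⟨a, ha, b, hb, rfl⟩
  have hT'T : T' ≤ T := Subgroup.commutator_le_left _ _
  have hT'' : T' ≤ ⁅T', T'⁆ := by
    rw [Subgroup.commutator_le]
    intro t₁ ht₁ t₂ ht₂
    obtain ⟨a₁, ha₁, b₁, hb₁, rfl⟩ := hTdec t₁ ht₁
    obtain ⟨a₂, ha₂, b₂, hb₂, rfl⟩ := hTdec t₂ ht₂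
    have ha₁R := (hRmem a₁).mp (hR'R ha₁)
    have ha₂R := (hRmem a₂).mp (hR'R ha₂)
    rw [comm_mul_mul a₁ a₂ b₁ b₂ (ha₁R b₁ (hT'T hb₁)).symm (ha₁R b₂ (hT'T hb₂)).symm
      (ha₂R b₁ (hT'T hb₁)).symm (ha₂R b₂ (hT'T hb₂)).symm]
    have h1 : ⁅a₁, a₂⁆ = 1 := by
      rw [commutatorElement_eq_one_iff_mul_comm]
      exact (ha₁R a₂ (hR'T ha₂)).symm
    rw [h1, one_mul]
    exact Subgroup.commutator_mem_commutator hb₁ hb₂
  have hT'bot : T' = ⊥ := by
    by_contra hne
    have h1 := Group.IsSolvable.commutator_lt_of_ne_bot hne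
    exact absurd hT'' (not_le_of_gt h1)
  intro t ht
  rw [Subgroup.mem_center_iff]
  intro z
  obtain ⟨c, hc, t', ht', rfl⟩ := hdec z
  have h1 : ⁅t', t⁆ = 1 := by
    have h2 : ⁅t', t⁆ ∈ T' := Subgroup.commutator_mem_commutator ht' ht
    rw [hT'bot] at h2
    simpa using h2
  rw [commutatorElement_eq_one_iff_mul_comm] at h1
  rw [mul_assoc, h1, ← mul_assoc, ← hc t ht, mul_assoc]

/-- The main theorem of this file. -/
theorem center_of_aut {r s k m d : ℕ} [hr : Fact r.Prime] (hs : s.Prime) (hrs : s ≠ r) (hm : 0 < m)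
    (hS : IsPGroup r S) (T : Subgroup S) [T.Normal] (hT : T.index = r ^ d)
    (hcomm : commutator S ≤ T)
    (hcam : ∀ x, x ∉ T → ∀ t ∈ T, ∃ u, u * x * u⁻¹ = x * t) (x₀ : S) (hx₀ : x₀ ∉ T)
    (τ : MulAut S) (hτT : ∀ t ∈ T, τ t ∈ T) (hτ : τ ^ (s ^ k) = 1)
    (hZ : ∀ j, 0 < j → j < d → ¬ s ^ m ∣ r ^ j - 1)
    (hfree : ∀ x, x⁻¹ * (τ ^ (s ^ (m - 1))) x ∈ T → x ∈ T) : T ≤ Subgroup.center S := by
  have hTc : T ≤ commutator S := by
    intro t ht
    obtain ⟨u, hu⟩ := hcam x₀ hx₀ t ht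
    have h1 : t = ⁅x₀⁻¹, u⁆ := by
      rw [commutatorElement_def, inv_inv]
      have h2 : t = x₀⁻¹ * (u * x₀ * u⁻¹) := by rw [hu]; group
      rw [h2]
      group
    rw [h1]
    exact Subgroup.commutator_mem_commutator (Subgroup.mem_top _) (Subgroup.mem_top _)
  apply center_of_fix hS T hcomm hTc (τ ^ (s ^ (m - 1))) _ hfree
  exact fix_of_le hs hrs hm hS T hT hcam x₀ hx₀ τ hτ hZ _ T rfl inferInstance le_rfl hτT

/-- Commutator power identity in a group where the commutator is central. -/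
theorem mul_pow_of_central {G : Type*} [Group G] (x u c : G) (hc : u * x = c * x * u)
    (hcx : c * x = x * c) (hcu : c * u = u * c) (n : ℕ) :
    (x * u) ^ n = x ^ n * u ^ n * c ^ (n.choose 2) := by
  have hux : ∀ n : ℕ, u ^ n * x = c ^ n * x * u ^ n := by
    intro n
    induction n with
    | zero => simp
    | succ n ih =>
      have hcun : Commute c (u ^ n) := (Commute.pow_right hcu n)
      calc u ^ (n + 1) * x = u ^ n * (u * x) := by rw [pow_succ, mul_assoc]
        _ = u ^ n * (c * x * u) := by rw [hc]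
        _ = c * (u ^ n * x) * u := by
            rw [← mul_assoc, ← mul_assoc, ← hcun.eq]
            simp only [mul_assoc]
        _ = c * (c ^ n * x * u ^ n) * u := by rw [ih]
        _ = _ := by rw [pow_succ' c n, pow_succ u n]; group
  have hcxn : ∀ k, Commute (c ^ k) x := fun k => Commute.pow_left hcx k
  have hcun : ∀ k, Commute (c ^ k) u := fun k => Commute.pow_left hcu k
  induction n with
  | zero => simp
  | succ n ih =>
    rw [pow_succ, ih, Nat.choose_succ_succ' n 1, Nat.choose_one_right, pow_add c n, pow_succ x n,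
      pow_succ u n]
    calc x ^ n * u ^ n * c ^ (n.choose 2) * (x * u)
        = x ^ n * (u ^ n * (c ^ (n.choose 2) * x) * u) := by group
      _ = x ^ n * (u ^ n * (x * c ^ (n.choose 2)) * u) := by rw [(hcxn _).eq]
      _ = x ^ n * ((u ^ n * x) * (c ^ (n.choose 2) * u)) := by group
      _ = x ^ n * ((c ^ n * x * u ^ n) * (u * c ^ (n.choose 2))) := by rw [hux, (hcun _).eq]
      _ = x ^ n * (c ^ n * x) * (u ^ n * u) * c ^ (n.choose 2) := by group
      _ = x ^ n * (x * c ^ n) * (u ^ n * u) * c ^ (n.choose 2) := by rw [(hcxn _).eq]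
      _ = _ := by
        have h1 : c ^ n * (u ^ n * u) = (u ^ n * u) * c ^ n :=
          (Commute.mul_right (Commute.pow_pow hcu n n) (hcun n)).eq
        calc x ^ n * (x * c ^ n) * (u ^ n * u) * c ^ (n.choose 2)
            = x ^ n * x * (c ^ n * (u ^ n * u)) * c ^ (n.choose 2) := by group
          _ = x ^ n * x * ((u ^ n * u) * c ^ n) * c ^ (n.choose 2) := by rw [h1]
          _ = _ := by rw [← mul_assoc, mul_assoc _ (c ^ n)]; 

/-- Consequences of the centrality of `T`: an element of order `r` outside `T`, or exponent `4`. -/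
theorem pow_of_center {r : ℕ} [hr : Fact r.Prime] (hS : IsPGroup r S) (T : Subgroup S) [T.Normal]
    (hcen : T ≤ Subgroup.center S) (hcomm : commutator S ≤ T) (hpow : ∀ x : S, x ^ r ∈ T)
    (hcam : ∀ x, x ∉ T → ∀ t ∈ T, ∃ u, u * x * u⁻¹ = x * t) (x₀ : S) (hx₀ : x₀ ∉ T) :
    (∃ z, z ∉ T ∧ z ^ r = 1) ∨ (r = 2 ∧ ∀ x : S, x ^ 4 = 1) := by
  classical
  have hcentral : ∀ t ∈ T, ∀ z : S, z * t = t * z := fun t ht z =>
    (Subgroup.mem_center_iff.mp (hcen ht)) z
  -- `T` has exponent `r`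
  have hexpT : ∀ t ∈ T, t ^ r = 1 := by
    intro t ht
    obtain ⟨u, hu⟩ := hcam x₀ hx₀ t ht
    -- `u x₀ u⁻¹ = x₀ t`, hence `u x₀^r u⁻¹ = x₀^r t^r`
    have h1 : (u * x₀ * u⁻¹) ^ r = x₀ ^ r * t ^ r := by
      rw [hu]
      exact (show Commute x₀ t from (hcentral t ht x₀)).mul_pow r
    rw [conj_pow] at h1
    have h2 : u * x₀ ^ r * u⁻¹ = x₀ ^ r := by
      rw [hcentral _ (hpow x₀) u]
      group
    rw [h2] at h1
    exact (mul_eq_left.mp h1.symm)
  by_cases hr2 : r = 2
  · right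
    subst hr2
    refine ⟨rfl, fun x => ?_⟩
    have h1 := hexpT _ (hpow x)
    rw [← pow_mul] at h1
    exact h1
  · left
    have hodd : Odd r := hr.out.odd_of_ne_two hr2
    have hdvd : r ∣ r.choose 2 := by
      rw [Nat.choose_two_right]
      obtain ⟨k, hk⟩ := hodd
      have h : r - 1 = 2 * k := by omega
      rw [h, show r * (2 * k) = (r * k) * 2 by ring, Nat.mul_div_cancel _ (by norm_num)]
      exact dvd_mul_right _ _
    -- the power map
    let P : S →* S := MonoidHom.mk' (fun x => x ^ r) (by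
      intro a b
      set c : S := b * a * b⁻¹ * a⁻¹ with hc
      have hcT : c ∈ T := hcomm (Subgroup.commutator_mem_commutator (Subgroup.mem_top b)
        (Subgroup.mem_top a))
      have h1 := mul_pow_of_central a b c (by rw [hc]; group) (hcentral c hcT a).symm
        (hcentral c hcT b).symm r
      rw [h1]
      obtain ⟨k, hk⟩ := hdvd
      rw [hk, pow_mul, hexpT c hcT, one_pow, mul_one])
    have hPT : P.range ≤ T := by
      rintro _ ⟨x, rfl⟩
      exact hpow x
    have hkerT : T ≤ P.ker := fun t ht => hexpT t ht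
    by_contra hno
    push Not at hno
    have hker : P.ker ≤ T := by
      intro x hx
      by_contra hxT
      exact hno x hxT hx
    have hkereq : P.ker = T := le_antisymm hker hkerT
    have h1 : T.index = Nat.card P.range := by
      rw [← hkereq]
      exact Subgroup.index_ker P
    have h2 : Nat.card P.range ≤ Nat.card T :=
      Nat.le_of_dvd Nat.card_pos (Subgroup.card_dvd_of_le hPT)
    have h3 := section_bound hS T T ⊥ le_rfl bot_le (by
      intro l hl u
      have := hcentral l hl u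
      have h4 : l * u * l⁻¹ * u⁻¹ = 1 := by
        rw [← this]
        group
      rw [h4]
      exact Subgroup.one_mem _) hcam x₀ hx₀
    rw [Subgroup.card_bot, mul_one] at h3
    have h4 : 0 < Nat.card T := Nat.card_pos
    have h5 := hr.out.two_le
    nlinarith

end Bound

end Cfsg.Agent.Lib.S4805C
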