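import Mathlib
import Cfsg.Agent.Lib.S4805C2

/-!
# The quotient `G / ker χ`: a group whose derived subgroup minus `1` is one class
-/

set_option autoImplicit false
set_option linter.unusedSectionVars false
set_option linter.style.haveILetI false

namespace Cfsg.Agent.Lib.S4805C

open scoped commutatorElement

section ELevel

variable {E : Type*} [Group E] [Finite E] (A : Subgroup E) [hAn : A.Normal]

/-- A normal `r`-subgroup whose nontrivial elements are conjugate is abelian. -/
theorem abelian_of_conj {r : ℕ} [Fact r.Prime] (hApow : IsPGroup r A)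
    (hA1 : ∀ x ∈ A, x ≠ 1 → ∀ z ∈ A, z ≠ 1 → IsConj x z) (hne : A ≠ ⊥) :
    ∀ x ∈ A, ∀ z ∈ A, x * z = z * x := by
  haveI : Nontrivial A := by
    rw [Subgroup.nontrivial_iff_ne_bot]
    exact hne
  haveI := hApow.center_nontrivial
  obtain ⟨⟨c, hc⟩, hc1⟩ := exists_ne (1 : Subgroup.center A)
  have hc1' : (c : E) ≠ 1 := by
    intro h
    apply hc1
    apply Subtype.ext
    apply Subtype.ext
    exact h
  have hcen : ∀ a ∈ A, a * (c : E) = (c : E) * a := by
    intro a ha
    have h1 := Subgroup.mem_center_iff.mp hc ⟨a, ha⟩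
    exact congrArg Subtype.val h1
  intro x hx z hz
  by_cases hx1 : x = 1
  · rw [hx1, one_mul, mul_one]
  obtain ⟨h, rfl⟩ := isConj_iff.mp (hA1 c c.2 hc1' x hx hx1)
  have hz' : h⁻¹ * z * h ∈ A := by
    have := hAn.conj_mem z hz h⁻¹
    rwa [inv_inv] at this
  have h1 := hcen _ hz'
  calc h * (c : E) * h⁻¹ * z = h * ((c : E) * (h⁻¹ * z * h)) * h⁻¹ := by group
    _ = h * ((h⁻¹ * z * h) * (c : E)) * h⁻¹ := by rw [h1]
    _ = z * (h * (c : E) * h⁻¹) := by group

/-- The main analysis when `|A| > 2`. -/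
theorem cent_le (hA1 : ∀ x ∈ A, x ≠ 1 → ∀ z ∈ A, z ≠ 1 → IsConj x z)
    (hA2 : ∀ x, x ∉ A → ∀ m ∈ A, IsConj x (x * m)) (hAc : commutator E ≤ A)
    (hAab : ∀ x ∈ A, ∀ z ∈ A, x * z = z * x) (a₀ a₁ a₂ : E) (ha₀ : a₀ ∈ A) (ha₀1 : a₀ ≠ 1)
    (ha₁ : a₁ ∈ A) (ha₂ : a₂ ∈ A) (ha₁1 : a₁ ≠ 1) (ha₂1 : a₂ ≠ 1) (hne : a₁ ≠ a₂) :
    (∀ e, e * a₀ = a₀ * e → e ∈ A) ∧ A.index + 1 = Nat.card A := by
  classical
  letI : Fintype E := Fintype.ofFinite E
  have hcomm : ∀ a b : E, ⁅a, b⁆ ∈ A := fun a b =>
    hAc (Subgroup.commutator_mem_commutator (Subgroup.mem_top a) (Subgroup.mem_top b))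
  -- the centralizer of `a₀` centralizes `A`
  have hCA : ∀ e, e * a₀ = a₀ * e → ∀ a ∈ A, e * a = a * e := by
    intro e he a ha
    by_cases ha1 : a = 1
    · rw [ha1, one_mul, mul_one]
    obtain ⟨h, rfl⟩ := isConj_iff.mp (hA1 a₀ ha₀ ha₀1 a ha ha1)
    have hcA : ⁅h⁻¹, e⁆ ∈ A := hcomm _ _
    have h1 : h⁻¹ * e * h = ⁅h⁻¹, e⁆ * e := by
      rw [commutatorElement_def]
      group
    have h2 : (h⁻¹ * e * h) * a₀ = a₀ * (h⁻¹ * e * h) := by
      rw [h1, mul_assoc, he, ← mul_assoc, hAab _ hcA _ ha₀, mul_assoc]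
    calc e * (h * a₀ * h⁻¹) = h * ((h⁻¹ * e * h) * a₀) * h⁻¹ := by group
      _ = h * (a₀ * (h⁻¹ * e * h)) * h⁻¹ := by rw [h2]
      _ = _ := by group
  -- the centralizer of `a₀` is abelian
  have hCab : ∀ x₁ x₂, x₁ * a₀ = a₀ * x₁ → x₂ * a₀ = a₀ * x₂ → x₁ * x₂ = x₂ * x₁ := by
    intro x₁ x₂ hx₁ hx₂
    have hcen : ∀ d, d * ⁅x₁, x₂⁆ * d⁻¹ = ⁅x₁, x₂⁆ := by
      intro d
      have hm₁ : ⁅x₁⁻¹, d⁆ ∈ A := hcomm _ _
      have hm₂ : ⁅x₂⁻¹, d⁆ ∈ A := hcomm _ _
      have h1 : d * x₁ * d⁻¹ = x₁ * ⁅x₁⁻¹, d⁆ := by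
        rw [commutatorElement_def]
        group
      have h2 : d * x₂ * d⁻¹ = x₂ * ⁅x₂⁻¹, d⁆ := by
        rw [commutatorElement_def]
        group
      have h3 : d * ⁅x₁, x₂⁆ * d⁻¹ = ⁅d * x₁ * d⁻¹, d * x₂ * d⁻¹⁆ := by
        simp only [commutatorElement_def]
        group
      rw [h3, h1, h2, comm_mul_mul _ _ _ _ (hCA x₁ hx₁ _ hm₁) (hCA x₁ hx₁ _ hm₂)
        (hCA x₂ hx₂ _ hm₁) (hCA x₂ hx₂ _ hm₂)]
      have h4 : ⁅⁅x₁⁻¹, d⁆, ⁅x₂⁻¹, d⁆⁆ = 1 := by
        rw [commutatorElement_eq_one_iff_mul_comm]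
        exact hAab _ hm₁ _ hm₂
      rw [h4, mul_one]
    by_contra hnc
    have hc1 : ⁅x₁, x₂⁆ ≠ 1 := by
      intro h
      exact hnc (commutatorElement_eq_one_iff_mul_comm.mp h)
    obtain ⟨h₁, hh₁⟩ := isConj_iff.mp (hA1 _ (hcomm x₁ x₂) hc1 a₁ ha₁ ha₁1)
    obtain ⟨h₂, hh₂⟩ := isConj_iff.mp (hA1 _ (hcomm x₁ x₂) hc1 a₂ ha₂ ha₂1)
    rw [hcen] at hh₁ hh₂
    exact hne (hh₁.symm.trans hh₂)
  -- the class of `a₀`
  let C : Subgroup E := Subgroup.centralizer ({a₀} : Set E)
  have hCmem : ∀ e, e ∈ C ↔ e * a₀ = a₀ * e := fun e => Subgroup.mem_centralizer_singleton_iff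
  have hclass : Nat.card {z : E // IsConj a₀ z} + 1 = Nat.card A := by
    letI : Fintype A := Fintype.ofFinite _
    letI : Fintype {z : E // IsConj a₀ z} := Fintype.ofFinite _
    let e1 : {z : E // IsConj a₀ z} ≃ {a : A // a ≠ 1} :=
      { toFun := fun z => ⟨⟨z.1, by
            obtain ⟨c, hc⟩ := isConj_iff.mp z.2
            rw [← hc]
            exact hAn.conj_mem _ ha₀ c⟩, by
            intro h
            have h1 : z.1 = 1 := congrArg Subtype.val h
            have h2 := z.2
            rw [h1] at h2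
            exact ha₀1 (isConj_one_right.mp h2.symm)⟩
        invFun := fun a => ⟨a.1.1, hA1 a₀ ha₀ ha₀1 a.1.1 a.1.2 (fun h => a.2 (Subtype.ext h))⟩
        left_inv := fun z => rfl
        right_inv := fun a => rfl }
    rw [Nat.card_congr e1, Nat.card_eq_fintype_card, Nat.card_eq_fintype_card,
      Fintype.card_subtype_compl]
    have h1 : Fintype.card {a : A // a = 1} = 1 := Fintype.card_subtype_eq _
    have h2 : 0 < Fintype.card A := Fintype.card_pos
    simp only [h1]
    omega
  have hindex : Nat.card {z : E // IsConj a₀ z} = C.index := by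
    have h3 := Cfsg.Agent.Lib.CharInd.card_conj_mul_card_centralizer a₀
    have h4 := C.card_mul_index
    have h5 : 0 < Nat.card C := Nat.card_pos
    have h6 : Nat.card (Subgroup.centralizer ({a₀} : Set E)) = Nat.card C := rfl
    rw [h6] at h3
    rw [← h4, mul_comm] at h3
    exact Nat.eq_of_mul_eq_mul_left h5 h3
  have hCA' : ∀ e, e * a₀ = a₀ * e → e ∈ A := by
    intro x hx
    by_contra hxA
    have hch : ∀ m : A, ∃ h, h * x * h⁻¹ = x * m := fun m => isConj_iff.mp (hA2 x hxA m m.2)
    choose f hf using hch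
    let F : A → E ⧸ C := fun m => (f m : E ⧸ C)
    have hFinj : Function.Injective F := by
      intro m n hmn
      have h1 : (f m)⁻¹ * f n ∈ C := QuotientGroup.eq.mp hmn
      set c := (f m)⁻¹ * f n with hc
      have h2 : f n = f m * c := by rw [hc]; group
      have h3 := hf n
      rw [h2] at h3
      have h4 : c * x = x * c := hCab c x ((hCmem c).mp h1) hx
      have h5 : f m * c * x * (f m * c)⁻¹ = f m * x * (f m)⁻¹ := by
        calc f m * c * x * (f m * c)⁻¹ = f m * (c * x) * c⁻¹ * (f m)⁻¹ := by group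
          _ = f m * (x * c) * c⁻¹ * (f m)⁻¹ := by rw [h4]
          _ = _ := by group
      rw [h5, hf m] at h3
      exact Subtype.ext (mul_left_cancel h3)
    have h1 := Nat.card_le_card_of_injective F hFinj
    rw [← Subgroup.index_eq_card, ← hindex] at h1
    omega
  refine ⟨hCA', ?_⟩
  have hCeq : C = A := by
    apply le_antisymm
    · intro e he
      exact hCA' e ((hCmem e).mp he)
    · intro e he
      exact (hCmem e).mpr (hAab e he a₀ ha₀)
  rw [← hCeq, ← hindex, hCeq, hclass]

/-- The pairs in the extraspecial case. -/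
theorem hyp_pair (c : E) (hAc : ∀ x ∈ A, x = 1 ∨ x = c) (hcA : c ∈ A) (hc1 : c ≠ 1) (hcc : c * c = 1)
    (hcen : ∀ z, z * c = c * z) (hcomm : commutator E ≤ A)
    (hnc : ∀ x, x ∉ A → ∃ h, h * x * h⁻¹ = x * c) (hE : 8 < Nat.card E) :
    ∀ u : E, ∃ a b : E, u * a = a * u ∧ u * b = b * u ∧ a * b ≠ b * a := by
  classical
  letI : Fintype E := Fintype.ofFinite E
  have hnc' : ∀ x, x ∉ A → ∃ h, h * x ≠ x * h := by
    intro x hx
    obtain ⟨h, hh⟩ := hnc x hx
    refine ⟨h, fun h1 => ?_⟩
    rw [h1, mul_inv_cancel_right] at hh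
    exact hc1 (mul_eq_left.mp hh.symm)
  have hcoset : ∀ h x : E, h * x * h⁻¹ = x ∨ h * x * h⁻¹ = x * c := by
    intro h x
    have h1 : ⁅x⁻¹, h⁆ ∈ A := hcomm (Subgroup.commutator_mem_commutator (Subgroup.mem_top _)
      (Subgroup.mem_top _))
    have h2 : h * x * h⁻¹ = x * ⁅x⁻¹, h⁆ := by
      rw [commutatorElement_def]
      group
    rcases hAc _ h1 with h3 | h3
    · left
      rw [h2, h3, mul_one]
    · right
      rw [h2, h3]
  have hidx : ∀ x, x ∉ A → (Subgroup.centralizer ({x} : Set E)).index = 2 := by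
    intro x hx
    have h3 := Cfsg.Agent.Lib.CharInd.card_conj_mul_card_centralizer x
    have h4 := (Subgroup.centralizer ({x} : Set E)).card_mul_index
    have h5 : 0 < Nat.card (Subgroup.centralizer ({x} : Set E)) := Nat.card_pos
    have h6 : Nat.card {z : E // IsConj x z} = 2 := by
      obtain ⟨h, hh⟩ := hnc x hx
      have hne : x ≠ x * c := fun h1 => hc1 (mul_eq_left.mp h1.symm)
      have e : {z : E // IsConj x z} ≃ Bool :=
        { toFun := fun z => decide (z.1 = x)
          invFun := fun b => if b then ⟨x, IsConj.refl x⟩ else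
            ⟨x * c, isConj_iff.mpr ⟨h, hh⟩⟩
          left_inv := by
            intro z
            apply Subtype.ext
            by_cases hz : z.1 = x
            · simp [hz]
            · obtain ⟨k, hk⟩ := isConj_iff.mp z.2
              have h7 : z.1 = x * c := by
                rcases hcoset k x with h8 | h8
                · exact absurd (hk.symm.trans h8) hz
                · exact hk.symm.trans h8
              simp [h7, hc1]
          right_inv := by
            intro b
            cases b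
            · simp [hne.symm]
            · simp }
      rw [Nat.card_congr e]
      simp
    rw [h6] at h3
    rw [← h4, mul_comm] at h3
    exact (Nat.eq_of_mul_eq_mul_left h5 h3).symm
  have hcenA : ∀ x, (∀ z, z * x = x * z) → x ∈ A := by
    intro x hx
    by_contra hxA
    obtain ⟨h, hh⟩ := hnc' x hxA
    exact hh (hx h)
  intro u
  by_cases huA : u ∈ A
  · -- `u` is central
    have hucen : ∀ z, u * z = z * u := by
      intro z
      rcases hAc u huA with h1 | h1
      · rw [h1, one_mul, mul_one]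
      · rw [h1]
        exact (hcen z).symm
    obtain ⟨a, haA⟩ : ∃ a, a ∉ A := by
      by_contra hall
      push Not at hall
      have h1 : A = ⊤ := by
        ext x
        simp [hall x]
      have h2 : Nat.card E ≤ 2 := by
        have h3 : ∀ x : E, x = 1 ∨ x = c := fun x => hAc x (hall x)
        have hsub : (Finset.univ : Finset E) ⊆ {1, c} := by
          intro x _
          simp only [Finset.mem_insert, Finset.mem_singleton]
          exact h3 x
        have := Finset.card_le_card hsub
        rw [Finset.card_univ] at this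
        rw [Nat.card_eq_fintype_card]
        exact this.trans Finset.card_le_two
      omega
    obtain ⟨b, hb⟩ := hnc' a haA
    exact ⟨a, b, hucen a, hucen b, fun h => hb h.symm⟩
  · -- `u` is not central
    let Cu : Subgroup E := Subgroup.centralizer ({u} : Set E)
    have hCu : ∀ z, z ∈ Cu ↔ z * u = u * z := fun z => Subgroup.mem_centralizer_singleton_iff
    have hcardCu : 4 < Nat.card Cu := by
      have h1 := Cu.card_mul_index
      rw [hidx u huA] at h1
      omega
    -- an element of `Cu` off `{1, c, u⁻¹, u⁻¹ c}`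
    obtain ⟨a, haC, haY⟩ : ∃ a, a ∈ Cu ∧ a ∉ ({1, c, u⁻¹, u⁻¹ * c} : Finset E) := by
      by_contra hall
      push Not at hall
      letI : Fintype Cu := Fintype.ofFinite _
      have h2 : Nat.card Cu ≤ 4 := by
        rw [Nat.card_eq_fintype_card]
        have h3 : Fintype.card Cu ≤ ({1, c, u⁻¹, u⁻¹ * c} : Finset E).card := by
          rw [← Fintype.card_coe]
          exact Fintype.card_le_of_injective
            (fun z : Cu => (⟨z.1, hall z.1 z.2⟩ : {x // x ∈ ({1, c, u⁻¹, u⁻¹ * c} : Finset E)}))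
            (fun a b h => Subtype.ext (congrArg (fun w => w.1) h))
        exact h3.trans (Finset.card_le_four)
      omega
    simp only [Finset.mem_insert, Finset.mem_singleton, not_or] at haY
    obtain ⟨ha1, hac, hau, hauc⟩ := haY
    have haA : a ∉ A := by
      intro h
      rcases hAc a h with h1 | h1
      · exact ha1 h1
      · exact hac h1
    by_contra hno
    push Not at hno
    have hall : ∀ b, u * b = b * u → a * b = b * a := by
      intro b hb
      exact hno a b ((hCu a).mp haC).symm hb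
    have hle : Cu ≤ Subgroup.centralizer ({a} : Set E) := by
      intro b hb
      rw [Subgroup.mem_centralizer_singleton_iff]
      exact (hall b ((hCu b).mp hb).symm).symm
    have heq : Cu = Subgroup.centralizer ({a} : Set E) := by
      apply Subgroup.eq_of_le_of_card_ge hle
      have h1 := Cu.card_mul_index
      have h2 := (Subgroup.centralizer ({a} : Set E)).card_mul_index
      rw [hidx u huA] at h1
      rw [hidx a haA] at h2
      omega
    have hcent : ∀ z, z * (u * a) = (u * a) * z := by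
      intro z
      by_cases hz : z ∈ Cu
      · have h1 := (hCu z).mp hz
        have h2 : z * a = a * z := by
          have h3 : z ∈ Subgroup.centralizer ({a} : Set E) := heq ▸ hz
          exact Subgroup.mem_centralizer_singleton_iff.mp h3
        rw [← mul_assoc, h1, mul_assoc, h2, mul_assoc]
      · have hza : z ∉ Subgroup.centralizer ({a} : Set E) := heq ▸ hz
        have h1 : z * u * z⁻¹ = u * c := by
          rcases hcoset z u with h2 | h2
          · exfalso
            apply hz
            rw [hCu]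
            rwa [mul_inv_eq_iff_eq_mul] at h2
          · exact h2
        have h3 : z * a * z⁻¹ = a * c := by
          rcases hcoset z a with h2 | h2
          · exfalso
            apply hza
            rw [Subgroup.mem_centralizer_singleton_iff]
            rwa [mul_inv_eq_iff_eq_mul] at h2
          · exact h2
        have h4 : z * (u * a) * z⁻¹ = u * a := by
          calc z * (u * a) * z⁻¹ = (z * u * z⁻¹) * (z * a * z⁻¹) := by group
            _ = u * c * (a * c) := by rw [h1, h3]
            _ = u * (c * a) * c := by group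
            _ = u * (a * c) * c := by rw [hcen a]
            _ = u * a * (c * c) := by group
            _ = u * a := by rw [hcc, mul_one]
        rw [mul_inv_eq_iff_eq_mul] at h4
        exact h4
    rcases hAc _ (hcenA _ hcent) with h1 | h1
    · exact hau (eq_inv_of_mul_eq_one_right h1)
    · apply hauc
      rw [← h1]
      group

end ELevel

end Cfsg.Agent.Lib.S4805C
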