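import Mathlib
import Cfsg.Agent.Lib.S4805C3

/-!
# Assembly: elements of `G' \ K` have order dividing `r`, or `r = 2` and order dividing `4`
-/

set_option autoImplicit false
set_option linter.unusedSectionVars false
set_option linter.style.haveILetI false
set_option linter.unusedVariables false

namespace Cfsg.Agent.Lib.S4805C

open scoped commutatorElement

section Helpers

variable {G : Type*} [Group G] [Finite G]

theorem relIndex_mul_card (H K : Subgroup G) (h : H ≤ K) :
    H.relIndex K * Nat.card H = Nat.card K := by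
  have h1 := (H.subgroupOf K).card_mul_index
  have h2 : Nat.card (H.subgroupOf K) = Nat.card H :=
    Nat.card_congr (Subgroup.subgroupOfEquivOfLe h).toEquiv
  rw [h2] at h1
  rw [Subgroup.relIndex, mul_comm]
  exact h1

/-- The index of the normal subgroup in a Sylow subgroup. -/
theorem syl_index {r d : ℕ} [hr : Fact r.Prime] (S : Sylow r G) (L K : Subgroup G) [K.Normal]
    (hSL : (S : Subgroup G) ≤ L) (hKL : K ≤ L) (hi : K.relIndex L = r ^ d) :
    K.relIndex (S : Subgroup G) = r ^ d := by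
  have h1 := Subgroup.relIndex_sup_right (S : Subgroup G) K
  have h2 := Subgroup.relIndex_mul_relIndex K ((S : Subgroup G) ⊔ K) L le_sup_right (sup_le hSL hKL)
  rw [h1, hi] at h2
  obtain ⟨e, hed, he⟩ := (Nat.dvd_prime_pow hr.out).1 (Dvd.intro _ h2)
  rw [he]
  congr 1
  by_contra hne
  have hlt : e < d := lt_of_le_of_ne hed hne
  let T : Subgroup G := K ⊓ (S : Subgroup G)
  have hTS : T ≤ (S : Subgroup G) := inf_le_right
  have hTK : T ≤ K := inf_le_left
  have h3 : T.relIndex (S : Subgroup G) = K.relIndex (S : Subgroup G) :=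
    Subgroup.inf_relIndex_right _ _
  have h4 := relIndex_mul_card T (S : Subgroup G) hTS
  rw [h3, he] at h4
  have h5 := relIndex_mul_card T K hTK
  have h6 := relIndex_mul_card K L hKL
  rw [hi] at h6
  have h7 := (S : Subgroup G).card_mul_index
  have h8 := L.card_mul_index
  have hTpos : 0 < Nat.card T := Nat.card_pos
  have hrpos : 0 < r ^ e := pow_pos hr.out.pos e
  have h9 : r ^ e * (S : Subgroup G).index =
      r ^ e * (r ^ (d - e) * (T.relIndex K * L.index)) := by
    apply Nat.eq_of_mul_eq_mul_left hTpos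
    calc Nat.card T * (r ^ e * (S : Subgroup G).index)
        = (r ^ e * Nat.card T) * (S : Subgroup G).index := by ring
      _ = Nat.card G := by rw [h4, h7]
      _ = Nat.card L * L.index := h8.symm
      _ = (r ^ d * (T.relIndex K * Nat.card T)) * L.index := by rw [← h6, h5]
      _ = Nat.card T * (r ^ e * r ^ (d - e) * (T.relIndex K * L.index)) := by
          rw [← pow_add, show e + (d - e) = d by omega]
          ring
      _ = _ := by ring
  have h10 := Nat.eq_of_mul_eq_mul_left hrpos h9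
  apply S.not_dvd_index
  rw [h10]
  exact Dvd.dvd.mul_right (dvd_pow_self r (by omega)) _

/-- An element with a small centralizer has all of `x (K ∩ P)` as its `P`-class. -/
theorem camina_of_card (P K : Subgroup G) [hK : K.Normal] (x : G) (hxP : x ∈ P) (hxK : x ∉ K)
    (hcomm : ∀ u ∈ P, u * x * u⁻¹ * x⁻¹ ∈ K)
    (hC : Nat.card (Subgroup.centralizer ({x} : Set G)) ≤ K.relIndex P) :
    ∀ t ∈ K, t ∈ P → ∃ u ∈ P, u * x * u⁻¹ = x * t := by
  classical
  letI : Fintype P := Fintype.ofFinite _
  let x' : P := ⟨x, hxP⟩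
  let T' : Subgroup P := K.subgroupOf P
  have hmemT : ∀ z : P, IsConj x' z → x'⁻¹ * z ∈ T' := by
    intro z hz
    obtain ⟨u, rfl⟩ := isConj_iff.mp hz
    rw [Subgroup.mem_subgroupOf]
    have h1 := hK.conj_mem _ (hcomm u u.2) x⁻¹
    have h2 : x⁻¹ * (↑u * x * (↑u)⁻¹ * x⁻¹) * x⁻¹⁻¹ = x⁻¹ * (↑u * x * (↑u)⁻¹) := by group
    rw [h2] at h1
    exact h1
  let F : {z : P // IsConj x' z} → T' := fun z => ⟨x'⁻¹ * z.1, hmemT z.1 z.2⟩
  have hFinj : Function.Injective F := by
    intro a b hab
    have h1 : x'⁻¹ * a.1 = x'⁻¹ * b.1 := congrArg Subtype.val hab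
    exact Subtype.ext (mul_left_cancel h1)
  have h1 := Cfsg.Agent.Lib.CharInd.card_conj_mul_card_centralizer x'
  have h2 : Nat.card (Subgroup.centralizer ({x'} : Set P)) ≤
      Nat.card (Subgroup.centralizer ({x} : Set G)) := by
    apply Nat.card_le_card_of_injective
      (fun z : Subgroup.centralizer ({x'} : Set P) =>
        (⟨(z.1 : G), by
          rw [Subgroup.mem_centralizer_singleton_iff]
          have := Subgroup.mem_centralizer_singleton_iff.mp z.2
          exact congrArg Subtype.val this⟩ : Subgroup.centralizer ({x} : Set G)))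
    intro a b hab
    apply Subtype.ext
    apply Subtype.ext
    have h6 := congrArg (fun w : Subgroup.centralizer ({x} : Set G) => (w : G)) hab
    exact h6
  have h3 : Nat.card T' * K.relIndex P = Nat.card P := T'.card_mul_index
  have h4 : Nat.card T' ≤ Nat.card {z : P // IsConj x' z} := by
    have hCpos : 0 < Nat.card (Subgroup.centralizer ({x'} : Set P)) := Nat.card_pos
    apply Nat.le_of_mul_le_mul_right _ hCpos
    rw [h1, ← h3]
    exact Nat.mul_le_mul_left _ (h2.trans hC)
  have hbij := hFinj.bijective_of_nat_card_le h4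
  intro t htK htP
  obtain ⟨⟨z, hz⟩, hzt⟩ := hbij.2 ⟨⟨t, htP⟩, htK⟩
  obtain ⟨u, rfl⟩ := isConj_iff.mp hz
  refine ⟨u, u.2, ?_⟩
  have h5 : x⁻¹ * ((u : G) * x * (u : G)⁻¹) = t := by
    have := congrArg (fun w : T' => ((w : P) : G)) hzt
    simpa [F, x'] using this
  rw [← h5]
  group

theorem pow_one_of_conj {y z : G} (h : IsConj y z) {n : ℕ} (hz : z ^ n = 1) : y ^ n = 1 := by
  obtain ⟨c, rfl⟩ := isConj_iff.mp h
  rw [conj_pow] at hz
  have h1 : y ^ n = c⁻¹ * (c * y ^ n * c⁻¹) * c := by group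
  rw [h1, hz]
  group

end Helpers

section GLevel

variable {G : Type*} [Group G] [Finite G] {r : ℕ} [hr : Fact r.Prime] (K : Subgroup G)
  [hK : K.Normal] (hKM : K ≤ commutator G) (y : G) (hyM : y ∈ commutator G) (hyK : y ∉ K)
  (h1 : ∀ x ∈ commutator G, x ∉ K → IsConj y x)
  (h2 : ∀ x, x ∉ commutator G → ∀ m ∈ commutator G, ∃ h, ∃ k ∈ K, h * x * h⁻¹ = x * m * k)
  (hpow : ∀ x ∈ commutator G, x ^ r ∈ K)

/-- The image of the derived subgroup in `G / K`. -/
abbrev Abar (K : Subgroup G) [K.Normal] : Subgroup (G ⧸ K) :=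
  (commutator G).map (QuotientGroup.mk' K)

include hKM in
theorem mem_Abar (x : G) : ((x : G) : G ⧸ K) ∈ Abar K ↔ x ∈ commutator G := by
  constructor
  · rintro ⟨m, hm, hmx⟩
    have h3 : m⁻¹ * x ∈ K := QuotientGroup.eq.mp hmx
    have h4 := (commutator G).mul_mem hm (hKM h3)
    simpa using h4
  · intro hx
    exact ⟨x, hx, rfl⟩

include hKM h1 in
theorem Abar_conj : ∀ x ∈ Abar K, x ≠ 1 → ∀ z ∈ Abar K, z ≠ 1 → IsConj x z := by
  rintro _ ⟨x, hx, rfl⟩ hx1 _ ⟨z, hz, rfl⟩ hz1
  have hxK : x ∉ K := fun h => hx1 ((QuotientGroup.eq_one_iff _).mpr h)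
  have hzK : z ∉ K := fun h => hz1 ((QuotientGroup.eq_one_iff _).mpr h)
  have h3 : IsConj x z := (h1 x hx hxK).symm.trans (h1 z hz hzK)
  obtain ⟨c, hc⟩ := isConj_iff.mp h3
  show IsConj (x : G ⧸ K) (z : G ⧸ K)
  rw [isConj_iff]
  refine ⟨(c : G ⧸ K), ?_⟩
  rw [← hc]
  rfl

include hKM h2 in
theorem Abar_cam : ∀ x, x ∉ Abar K → ∀ m ∈ Abar K, IsConj x (x * m) := by
  intro x hx m hm
  obtain ⟨x, rfl⟩ := QuotientGroup.mk_surjective x
  obtain ⟨m, hm, rfl⟩ := hm
  have hx' : x ∉ commutator G := fun h => hx ((mem_Abar K hKM x).mpr h)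
  obtain ⟨h, k, hk, hh⟩ := h2 x hx' m hm
  rw [isConj_iff]
  refine ⟨(h : G ⧸ K), ?_⟩
  have h3 := congrArg (fun w : G => (w : G ⧸ K)) hh
  simp only [QuotientGroup.mk_mul, QuotientGroup.mk_inv] at h3
  rw [h3, (QuotientGroup.eq_one_iff _).mpr hk, mul_one]
  rfl

theorem Abar_comm : commutator (G ⧸ K) ≤ Abar K := by
  rw [commutator_def, Subgroup.commutator_le]
  intro a _ b _
  obtain ⟨a, rfl⟩ := QuotientGroup.mk_surjective a
  obtain ⟨b, rfl⟩ := QuotientGroup.mk_surjective b
  refine ⟨⁅a, b⁆, Subgroup.commutator_mem_commutator (Subgroup.mem_top a) (Subgroup.mem_top b), ?_⟩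
  simp [commutatorElement_def]

include hpow in
theorem Abar_pgroup : IsPGroup r (Abar K) := by
  rintro ⟨_, x, hx, rfl⟩
  refine ⟨1, ?_⟩
  apply Subtype.ext
  simp only [pow_one, Subgroup.coe_pow, Subgroup.coe_one]
  have h3 : ((x ^ r : G) : G ⧸ K) = 1 := (QuotientGroup.eq_one_iff _).mpr (hpow x hx)
  rw [QuotientGroup.mk_pow] at h3
  exact h3

include hyM hyK in
theorem Abar_ne : Abar K ≠ ⊥ := by
  intro h
  have h3 : ((y : G) : G ⧸ K) ∈ Abar K := ⟨y, hyM, rfl⟩
  rw [h] at h3
  exact hyK ((QuotientGroup.eq_one_iff _).mp ((Subgroup.mem_bot).mp h3))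

include hKM hyM hyK h1 hpow in
theorem Abar_ab : ∀ x ∈ Abar K, ∀ z ∈ Abar K, x * z = z * x :=
  abelian_of_conj (Abar K) (Abar_pgroup K hpow) (Abar_conj K hKM y h1) (Abar_ne K y hyM hyK)

include hKM in
theorem card_comm : Nat.card (commutator G) = Nat.card (Abar K) * Nat.card K :=
  card_eq_card_map_mul (commutator G) K hKM

include hKM in
theorem index_comm : (commutator G).index = (Abar K).index := by
  have h3 : (Abar K).comap (QuotientGroup.mk' K) = commutator G := by
    ext x
    exact mem_Abar K hKM x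
  rw [← h3]
  exact Subgroup.index_comap_of_surjective _ (QuotientGroup.mk'_surjective K)

include hKM hyK h1 in
/-- The centralizers of the elements of `G' \ K`. -/
theorem cent_card (x : G) (hx : x ∈ commutator G) (hxK : x ∉ K) :
    Nat.card (Subgroup.centralizer ({x} : Set G)) * (Nat.card K * (Nat.card (Abar K) - 1)) =
      Nat.card G := by
  classical
  letI : Fintype G := Fintype.ofFinite G
  have h3 := Cfsg.Agent.Lib.CharInd.card_conj_mul_card_centralizer x
  have h4 : Nat.card {z : G // IsConj x z} + Nat.card K = Nat.card (commutator G) := by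
    letI : Fintype (commutator G) := Fintype.ofFinite _
    letI : Fintype K := Fintype.ofFinite _
    letI : Fintype {z : G // IsConj x z} := Fintype.ofFinite _
    simp only [Nat.card_eq_fintype_card]
    have hmemconj : ∀ z, IsConj x z → z ∈ commutator G ∧ z ∉ K := by
      intro z hz
      obtain ⟨c, rfl⟩ := isConj_iff.mp hz
      refine ⟨Subgroup.Normal.conj_mem inferInstance _ hx c, fun h5 => hxK ?_⟩
      have h6 := hK.conj_mem _ h5 c⁻¹
      have h7 : c⁻¹ * (c * x * c⁻¹) * c⁻¹⁻¹ = x := by group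
      rwa [h7] at h6
    let e : (commutator G) ≃ {z : G // IsConj x z} ⊕ K :=
      { toFun := fun w => if h : (w : G) ∈ K then Sum.inr ⟨w, h⟩ else
          Sum.inl ⟨w, (h1 x hx hxK).symm.trans (h1 w w.2 h)⟩
        invFun := fun z => match z with
          | Sum.inl a => ⟨a.1, (hmemconj a.1 a.2).1⟩
          | Sum.inr a => ⟨a.1, hKM a.2⟩
        left_inv := by
          intro w
          by_cases h : (w : G) ∈ K
          · simp [h]
          · simp [h]
        right_inv := by
          intro z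
          rcases z with a | a
          · have := (hmemconj a.1 a.2).2
            simp [this]
          · simp [a.2] }
    rw [Fintype.card_congr e, Fintype.card_sum]
  have h5 := card_comm K hKM
  have h6 : 0 < Nat.card (Abar K) := Nat.card_pos
  have h7 : Nat.card {z : G // IsConj x z} = Nat.card K * (Nat.card (Abar K) - 1) := by
    obtain ⟨q, hq⟩ : ∃ q, Nat.card (Abar K) = q + 1 := ⟨Nat.card (Abar K) - 1, by omega⟩
    rw [hq] at h5 ⊢
    simp only [Nat.add_sub_cancel]
    have : (q + 1) * Nat.card K = Nat.card K * q + Nat.card K := by ring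
    omega
  rw [← h7, mul_comm]
  exact h3

end GLevel

end Cfsg.Agent.Lib.S4805C
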