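import Mathlib
import Cfsg.Agent.Lib.S4805C4

/-!
# The case `|G' : K| > 2`
-/

set_option autoImplicit false
set_option linter.unusedSectionVars false
set_option linter.style.haveILetI false
set_option linter.unusedVariables false

namespace Cfsg.Agent.Lib.S4805C

open scoped commutatorElement

/-- The quotient by the commutator subgroup is commutative. -/
theorem quot_comm' {G : Type*} [Group G] (a b : G ⧸ commutator G) : a * b = b * a := by
  have := mul_comm (show Abelianization G from a) (show Abelianization G from b)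
  exact this

theorem isCyclic_of_regular' {V D : Type*} [hVg : Group V] [Group D] [Finite D]
    (hV : ∀ a b : V, a * b = b * a) (ρ : D →* MulAut V)
    (hcomm : ∀ a b : D, a * b = b * a) (v₀ : V) (hv₀ : v₀ ≠ 1)
    (htrans : ∀ x : V, x ≠ 1 → ∃ d, ρ d v₀ = x) (hfree : ∀ d, ρ d v₀ = v₀ → d = 1) :
    IsCyclic D := by
  letI : CommGroup V := { hVg with mul_comm := hV }
  exact isCyclic_of_regular ρ hcomm v₀ hv₀ htrans hfree

section Big

variable {G : Type*} [Group G] [Finite G] {r : ℕ} [hr : Fact r.Prime] (K : Subgroup G)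
  [hK : K.Normal] (hKM : K ≤ commutator G) (y : G) (hyM : y ∈ commutator G) (hyK : y ∉ K)
  (h1 : ∀ x ∈ commutator G, x ∉ K → IsConj y x)
  (h2 : ∀ x, x ∉ commutator G → ∀ m ∈ commutator G, ∃ h, ∃ k ∈ K, h * x * h⁻¹ = x * m * k)
  (hpow : ∀ x ∈ commutator G, x ^ r ∈ K)

include hKM hyM hyK h1 hpow in
theorem quot_cyclic (hfree : ∀ e, e * (y : G ⧸ K) = (y : G ⧸ K) * e → e ∈ Abar K) :
    IsCyclic (G ⧸ commutator G) := by
  have hAab := Abar_ab K hKM y hyM hyK h1 hpow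
  let φ : G →* MulAut (Abar K) :=
    (MulAut.conjNormal (H := Abar K)).comp (QuotientGroup.mk' K)
  have hφ : ∀ (g : G) (a : Abar K), ((φ g a : Abar K) : G ⧸ K) =
      (g : G ⧸ K) * a * (g : G ⧸ K)⁻¹ := fun _ _ => rfl
  have hker : ∀ m ∈ commutator G, φ m = 1 := by
    intro m hm
    ext a
    rw [hφ]
    have h3 := hAab (m : G ⧸ K) ⟨m, hm, rfl⟩ a a.2
    rw [h3, mul_inv_cancel_right]
    rfl
  let ρ : G ⧸ commutator G →* MulAut (Abar K) := QuotientGroup.lift _ φ hker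
  have hρ : ∀ (g : G) (a : Abar K), ρ (g : G ⧸ commutator G) a = φ g a := fun _ _ => rfl
  have hy1 : (y : G ⧸ K) ≠ 1 := fun h => hyK ((QuotientGroup.eq_one_iff _).mp h)
  refine isCyclic_of_regular' (fun a b => Subtype.ext (hAab a a.2 b b.2)) ρ quot_comm'
    ⟨(y : G ⧸ K), y, hyM, rfl⟩ (fun h => hy1 (congrArg Subtype.val h)) ?_ ?_
  · rintro ⟨x, hx⟩ hx1
    have hx1' : x ≠ 1 := fun h => hx1 (Subtype.ext h)
    obtain ⟨e, he⟩ := isConj_iff.mp (Abar_conj K hKM y h1 (y : G ⧸ K) ⟨y, hyM, rfl⟩ hy1 x hx hx1')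
    obtain ⟨g, rfl⟩ := QuotientGroup.mk_surjective e
    refine ⟨(g : G ⧸ commutator G), ?_⟩
    apply Subtype.ext
    rw [hρ, hφ]
    exact he
  · intro d hd
    obtain ⟨g, rfl⟩ := QuotientGroup.mk_surjective d
    rw [hρ] at hd
    have h3 := congrArg Subtype.val hd
    rw [hφ] at h3
    have h4 : (g : G ⧸ K) * (y : G ⧸ K) = (y : G ⧸ K) * (g : G ⧸ K) := by
      have h5 : (g : G ⧸ K) * (y : G ⧸ K) * (g : G ⧸ K)⁻¹ = (y : G ⧸ K) := h3
      rwa [mul_inv_eq_iff_eq_mul] at h5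
    have h6 := hfree _ h4
    rw [mem_Abar K hKM] at h6
    exact (QuotientGroup.eq_one_iff _).mpr h6

include hKM hyM hyK h1 h2 hpow in
/-- The case `q > 2`. -/
theorem big_case (hq : 2 < Nat.card (Abar K)) : y ^ r = 1 ∨ (r = 2 ∧ y ^ 4 = 1) := by
  classical
  have hAab := Abar_ab K hKM y hyM hyK h1 hpow
  have hAconj := Abar_conj K hKM y h1
  have hAcam := Abar_cam K hKM h2
  obtain ⟨d, hd⟩ := IsPGroup.iff_card.mp (Abar_pgroup K hpow)
  have hd0 : d ≠ 0 := by
    rintro rfl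
    rw [hd] at hq
    simp at hq
  have hy1 : (y : G ⧸ K) ≠ 1 := fun h => hyK ((QuotientGroup.eq_one_iff _).mp h)
  have hyA : (y : G ⧸ K) ∈ Abar K := ⟨y, hyM, rfl⟩
  obtain ⟨a₂, ha₂, ha₂1, hne⟩ : ∃ a₂ ∈ Abar K, a₂ ≠ 1 ∧ (y : G ⧸ K) ≠ a₂ := by
    by_contra hall
    push Not at hall
    letI : Fintype (Abar K) := Fintype.ofFinite _
    have h3 : (Finset.univ : Finset (Abar K)) ⊆ {1, ⟨(y : G ⧸ K), hyA⟩} := by
      intro a _
      simp only [Finset.mem_insert, Finset.mem_singleton]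
      by_cases h4 : a = 1
      · exact Or.inl h4
      · right
        apply Subtype.ext
        have h5 : (a : G ⧸ K) ≠ 1 := fun h => h4 (Subtype.ext h)
        exact (hall a a.2 h5).symm
    have h4 := Finset.card_le_card h3
    rw [Finset.card_univ, ← Nat.card_eq_fintype_card] at h4
    have h5 := h4.trans Finset.card_le_two
    omega
  have hfacts : ∀ x ∈ commutator G, x ∉ K →
      (∀ e, e * (x : G ⧸ K) = (x : G ⧸ K) * e → e ∈ Abar K) ∧ (Abar K).index + 1 = Nat.card (Abar K) := by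
    intro x hx hxK
    exact cent_le (Abar K) hAconj hAcam (Abar_comm K) hAab (x : G ⧸ K) (y : G ⧸ K) a₂ ⟨x, hx, rfl⟩
      (fun h => hxK ((QuotientGroup.eq_one_iff _).mp h)) hyA ha₂ hy1 ha₂1 hne
  have hidx : (commutator G).index + 1 = r ^ d := by
    rw [index_comm K hKM, (hfacts y hyM hyK).2, hd]
  have hrd : 1 < r ^ d := by
    rw [← hd]
    omega
  have hC : ∀ x ∈ commutator G, x ∉ K → Nat.card (Subgroup.centralizer ({x} : Set G)) = r ^ d := by
    intro x hx hxK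
    have h3 := cent_card K hKM y hyK h1 x hx hxK
    have h4 := (commutator G).card_mul_index
    rw [card_comm K hKM, hd] at h4
    have h5 : r ^ d - 1 = (commutator G).index := by omega
    rw [hd, h5] at h3
    have h6 : 0 < Nat.card K * (commutator G).index :=
      Nat.mul_pos Nat.card_pos (Nat.pos_of_ne_zero (Subgroup.index_ne_zero_of_finite))
    apply Nat.eq_of_mul_eq_mul_right h6
    rw [h3, ← h4]
    ring
  by_cases hd1 : d = 1
  · left
    subst hd1
    have h3 := hC y hyM hyK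
    rw [pow_one] at h3
    have h4 : (⟨y, Subgroup.mem_centralizer_singleton_iff.mpr rfl⟩ :
        Subgroup.centralizer ({y} : Set G)) ^ Nat.card (Subgroup.centralizer ({y} : Set G)) = 1 :=
      pow_card_eq_one'
    have h5 := congrArg Subtype.val h4
    rw [h3, Subgroup.coe_pow] at h5
    exact h5
  have hd2 : 2 ≤ d := by omega
  obtain ⟨s, m, hs, hm, hsq, hZ⟩ := exists_prime_pow r d hr.out hd2
  have hrndvd : ¬ r ∣ r ^ d - 1 := by
    intro h3
    have h4 : r ∣ r ^ d := dvd_pow_self r hd0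
    have h5 : r ∣ 1 := by
      have h6 := Nat.dvd_sub h4 h3
      have h7 : r ^ d - (r ^ d - 1) = 1 := by omega
      rwa [h7] at h6
    exact hr.out.one_lt.ne' (Nat.dvd_one.mp h5)
  have hsr : s ≠ r := by
    rintro rfl
    exact hrndvd ((dvd_pow_self s hm.ne').trans hsq)
  have hidx' : (commutator G).index = r ^ d - 1 := by omega
  haveI hcyc : IsCyclic (G ⧸ commutator G) :=
    quot_cyclic K hKM y hyM hyK h1 hpow (hfacts y hyM hyK).1
  -- an element of order `s ^ m` in `G / G'`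
  obtain ⟨g₁, hg₁⟩ := IsCyclic.exists_generator (α := G ⧸ commutator G)
  have hordg₁ : orderOf g₁ = r ^ d - 1 := by
    rw [orderOf_eq_card_of_forall_mem_zpowers hg₁, ← Subgroup.index_eq_card, hidx']
  have hg₁0 : orderOf g₁ ≠ 0 := (orderOf_pos g₁).ne'
  have hsg₁ : s ^ m ∣ orderOf g₁ := by rw [hordg₁]; exact hsq
  obtain ⟨g₀, hg₀⟩ := QuotientGroup.mk_surjective (g₁ ^ (orderOf g₁ / s ^ m))
  have hordg₀ : orderOf (g₀ : G ⧸ commutator G) = s ^ m := by
    rw [hg₀]
    exact orderOf_pow_orderOf_div hg₁0 hsg₁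
  -- the Sylow subgroup
  obtain ⟨S⟩ : Nonempty (Sylow r G) := inferInstance
  have hSM : (S : Subgroup G) ≤ commutator G := by
    intro x hx
    obtain ⟨n, hn⟩ := S.isPGroup' ⟨x, hx⟩
    have h3 : x ^ (r ^ n) = 1 := congrArg Subtype.val hn
    have h4 : (x : G ⧸ commutator G) ^ (r ^ n) = 1 := by
      rw [← QuotientGroup.mk_pow, h3, QuotientGroup.mk_one]
    have h5 : (x : G ⧸ commutator G) ^ (r ^ d - 1) = 1 := by
      rw [← hidx', Subgroup.index_eq_card]
      exact pow_card_eq_one'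
    have h6 := pow_gcd_eq_one.mpr ⟨h4, h5⟩
    have h7 : Nat.gcd (r ^ n) (r ^ d - 1) = 1 :=
      Nat.Coprime.pow_left n ((Nat.Prime.coprime_iff_not_dvd hr.out).mpr hrndvd)
    rw [h7, pow_one] at h6
    exact (QuotientGroup.eq_one_iff _).mp h6
  have hF := Sylow.normalizer_sup_eq_top' S hSM
  have hg₀mem : g₀ ∈ ((Subgroup.normalizer (S : Set G) ⊔ commutator G : Subgroup G) : Set G) := by
    rw [hF]
    exact Subgroup.mem_top _
  rw [Subgroup.mul_normal] at hg₀mem
  obtain ⟨n, hnN, m₀, hm₀, hnm⟩ := Set.mem_mul.mp hg₀mem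
  have hnbar : (n : G ⧸ commutator G) = (g₀ : G ⧸ commutator G) := by
    rw [QuotientGroup.eq, ← hnm]
    have : n⁻¹ * (n * m₀) = m₀ := by group
    rwa [this]
  have hordn : orderOf (n : G ⧸ commutator G) = s ^ m := by rw [hnbar, hordg₀]
  obtain ⟨a, b, hb, hab⟩ := Nat.exists_eq_pow_mul_and_not_dvd (orderOf_pos n).ne' s hs.ne_one
  let τ₀ : G := n ^ b
  have hτ₀N : τ₀ ∈ Subgroup.normalizer (S : Set G) := Subgroup.pow_mem _ hnN b
  have hτ₀o : τ₀ ^ (s ^ a) = 1 := by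
    show (n ^ b) ^ (s ^ a) = 1
    rw [← pow_mul, mul_comm, ← hab, pow_orderOf_eq_one]
  have hcob : (orderOf (n : G ⧸ commutator G)).Coprime b := by
    rw [hordn]
    exact Nat.Coprime.pow_left m ((Nat.Prime.coprime_iff_not_dvd hs).mpr hb)
  have hordτ₀ : orderOf (τ₀ : G ⧸ commutator G) = s ^ m := by
    show orderOf (((n ^ b : G)) : G ⧸ commutator G) = s ^ m
    rw [QuotientGroup.mk_pow, hcob.orderOf_pow, hordn]
  let θ₀ : G := τ₀ ^ (s ^ (m - 1))
  have hθ₀M : θ₀ ∉ commutator G := by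
    intro h3
    have h4 : (θ₀ : G ⧸ commutator G) = 1 := (QuotientGroup.eq_one_iff _).mpr h3
    have h5 : (τ₀ : G ⧸ commutator G) ^ (s ^ (m - 1)) = 1 := by
      rw [← QuotientGroup.mk_pow]
      exact h4
    have h6 : s ^ (m - 1) < orderOf (τ₀ : G ⧸ commutator G) := by
      rw [hordτ₀]
      exact Nat.pow_lt_pow_right hs.one_lt (by omega)
    exact pow_ne_one_of_lt_orderOf (pow_pos hs.pos _).ne' h6 h5
  -- the automorphism of `S`
  let ψ := (S : Subgroup G).normalizerMonoidHom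
  let t₀ : Subgroup.normalizer (((S : Subgroup G)) : Set G) := ⟨τ₀, hτ₀N⟩
  let τ : MulAut (S : Subgroup G) := ψ t₀
  have hτpow : ∀ (j : ℕ) (x : (S : Subgroup G)), (((τ ^ j) x : (S : Subgroup G)) : G) =
      τ₀ ^ j * x * (τ₀ ^ j)⁻¹ := by
    intro j x
    have h3 : τ ^ j = ψ (t₀ ^ j) := by
      show (ψ t₀) ^ j = _
      rw [map_pow]
    rw [h3]
    rfl
  let T : Subgroup (S : Subgroup G) := K.subgroupOf (S : Subgroup G)
  haveI hTn : T.Normal := Subgroup.normal_subgroupOf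
  have hrelM : K.relIndex (commutator G) = r ^ d := by
    have h3 := relIndex_mul_card K (commutator G) hKM
    rw [card_comm K hKM, hd] at h3
    exact Nat.eq_of_mul_eq_mul_right Nat.card_pos h3
  have hT : T.index = r ^ d := syl_index S (commutator G) K hSM hKM hrelM
  have hSp : IsPGroup r (S : Subgroup G) := S.isPGroup'
  have hmemT : ∀ x : (S : Subgroup G), x ∈ T ↔ (x : G) ∈ K := fun x => Subgroup.mem_subgroupOf
  have hcommG : ∀ u ∈ commutator G, ∀ x ∈ commutator G, u * x * u⁻¹ * x⁻¹ ∈ K := by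
    intro u hu x hx
    rw [← QuotientGroup.eq_one_iff]
    have h3 := hAab (u : G ⧸ K) ⟨u, hu, rfl⟩ (x : G ⧸ K) ⟨x, hx, rfl⟩
    simp only [QuotientGroup.mk_mul, QuotientGroup.mk_inv]
    rw [h3]
    group
  have hcommS : commutator (S : Subgroup G) ≤ T := by
    rw [commutator_def, Subgroup.commutator_le]
    intro a _ b _
    rw [hmemT]
    exact hcommG a (hSM a.2) b (hSM b.2)
  have hcam : ∀ x : (S : Subgroup G), x ∉ T → ∀ t ∈ T, ∃ u, u * x * u⁻¹ = x * t := by
    intro x hx t ht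
    have hxK : (x : G) ∉ K := fun h => hx ((hmemT x).mpr h)
    have hC' : Nat.card (Subgroup.centralizer ({(x : G)} : Set G)) ≤ K.relIndex (S : Subgroup G) := by
      rw [hC x (hSM x.2) hxK]
      exact hT.ge
    obtain ⟨u, hu, huu⟩ := camina_of_card (S : Subgroup G) K (x : G) x.2 hxK
      (fun u hu => hcommG u (hSM hu) x (hSM x.2)) hC' t ((hmemT t).mp ht) t.2
    exact ⟨⟨u, hu⟩, Subtype.ext huu⟩
  obtain ⟨x₀, hx₀⟩ : ∃ x₀ : (S : Subgroup G), x₀ ∉ T := by
    by_contra hall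
    push Not at hall
    have h3 : T = ⊤ := by
      ext x
      simp [hall x]
    rw [h3, Subgroup.index_top] at hT
    omega
  have hτT : ∀ t ∈ T, τ t ∈ T := by
    intro t ht
    rw [hmemT] at ht ⊢
    have h3 := hτpow 1 t
    rw [pow_one, pow_one] at h3
    rw [h3]
    exact hK.conj_mem _ ht _
  have hτ : τ ^ (s ^ a) = 1 := by
    ext x
    rw [hτpow, hτ₀o]
    simp
  have hfree : ∀ x : (S : Subgroup G), x⁻¹ * (τ ^ (s ^ (m - 1))) x ∈ T → x ∈ T := by
    intro x hx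
    by_contra hxT
    have hxK : (x : G) ∉ K := fun h => hxT ((hmemT x).mpr h)
    rw [hmemT] at hx
    have h3 : ((x⁻¹ * (τ ^ (s ^ (m - 1))) x : (S : Subgroup G)) : G) =
        (x : G)⁻¹ * (θ₀ * x * θ₀⁻¹) := by
      rw [Subgroup.coe_mul, hτpow]
      rfl
    rw [h3] at hx
    have h4 : (((x : G)⁻¹ * (θ₀ * x * θ₀⁻¹) : G) : G ⧸ K) = 1 :=
      (QuotientGroup.eq_one_iff _).mpr hx
    simp only [QuotientGroup.mk_mul, QuotientGroup.mk_inv] at h4
    have h5 : (θ₀ : G ⧸ K) * ((x : G) : G ⧸ K) = ((x : G) : G ⧸ K) * (θ₀ : G ⧸ K) := by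
      have h6 : (θ₀ : G ⧸ K) * ((x : G) : G ⧸ K) * (θ₀ : G ⧸ K)⁻¹ = ((x : G) : G ⧸ K) := by
        rw [inv_mul_eq_one] at h4
        exact h4.symm
      rwa [mul_inv_eq_iff_eq_mul] at h6
    have h7 := (hfacts x (hSM x.2) hxK).1 _ h5
    rw [mem_Abar K hKM] at h7
    exact hθ₀M h7
  have hcen := center_of_aut hs hsr hm hSp T hT hcommS hcam x₀ hx₀ τ hτT hτ hZ hfree
  have hpowS : ∀ x : (S : Subgroup G), x ^ r ∈ T := by
    intro x
    rw [hmemT, Subgroup.coe_pow]
    exact hpow x (hSM x.2)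
  rcases pow_of_center hSp T hcen hcommS hpowS hcam x₀ hx₀ with ⟨z, hz, hzr⟩ | ⟨hr2, hall⟩
  · left
    have hzK : (z : G) ∉ K := fun h => hz ((hmemT z).mpr h)
    apply pow_one_of_conj (h1 z (hSM z.2) hzK)
    have := congrArg Subtype.val hzr
    rwa [Subgroup.coe_pow] at this
  · right
    refine ⟨hr2, ?_⟩
    have hx₀K : (x₀ : G) ∉ K := fun h => hx₀ ((hmemT x₀).mpr h)
    apply pow_one_of_conj (h1 x₀ (hSM x₀.2) hx₀K)
    have := congrArg Subtype.val (hall x₀)
    rwa [Subgroup.coe_pow] at this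

end Big

end Cfsg.Agent.Lib.S4805C
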