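import Mathlib
import Cfsg.Agent.Lib.S4805C5

/-!
# The case `|G' : K| = 2`, and the final statement
-/

set_option autoImplicit false
set_option linter.unusedSectionVars false
set_option linter.style.haveILetI false
set_option linter.unusedVariables false

namespace Cfsg.Agent.Lib.S4805C

open scoped commutatorElement

section Two

variable {G : Type*} [Group G] [Finite G] {r : ℕ} [hr : Fact r.Prime] (K : Subgroup G)
  [hK : K.Normal] (hKM : K ≤ commutator G) (y : G) (hyM : y ∈ commutator G) (hyK : y ∉ K)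
  (h1 : ∀ x ∈ commutator G, x ∉ K → IsConj y x)
  (h2 : ∀ x, x ∉ commutator G → ∀ m ∈ commutator G, ∃ h, ∃ k ∈ K, h * x * h⁻¹ = x * m * k)
  (hpow : ∀ x ∈ commutator G, x ^ r ∈ K)

include hKM hyM hyK h1 h2 hpow in
/-- The case `q = 2`. -/
theorem two_case (hq : Nat.card (Abar K) ≤ 2) : y ^ r = 1 ∨ (r = 2 ∧ y ^ 4 = 1) := by
  classical
  letI : Fintype G := Fintype.ofFinite G
  have hAab := Abar_ab K hKM y hyM hyK h1 hpow
  have hAconj := Abar_conj K hKM y h1
  have hAcam := Abar_cam K hKM h2
  have hAcomm := Abar_comm K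
  let c : G ⧸ K := (y : G ⧸ K)
  have hc1 : c ≠ 1 := fun h => hyK ((QuotientGroup.eq_one_iff _).mp h)
  have hcA : c ∈ Abar K := ⟨y, hyM, rfl⟩
  have hA2 : ∀ x ∈ Abar K, x = 1 ∨ x = c := by
    intro x hx
    by_contra hall
    push Not at hall
    obtain ⟨h3, h4⟩ := hall
    letI : Fintype (Abar K) := Fintype.ofFinite _
    have h5 : ({1, ⟨c, hcA⟩, ⟨x, hx⟩} : Finset (Abar K)).card = 3 := by
      rw [Finset.card_eq_three]
      refine ⟨1, ⟨c, hcA⟩, ⟨x, hx⟩, ?_, ?_, ?_, rfl⟩
      · exact fun h => hc1 (congrArg Subtype.val h).symm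
      · exact fun h => h3 (congrArg Subtype.val h).symm
      · exact fun h => h4 (congrArg Subtype.val h).symm
    have h6 := Finset.card_le_univ ({1, ⟨c, hcA⟩, ⟨x, hx⟩} : Finset (Abar K))
    rw [h5, ← Nat.card_eq_fintype_card] at h6
    omega
  have hcen : ∀ z, z * c = c * z := by
    intro z
    have h3 : z * c * z⁻¹ ∈ Abar K := Subgroup.Normal.conj_mem inferInstance _ hcA z
    rcases hA2 _ h3 with h4 | h4
    · exfalso
      apply hc1
      have h5 : c = z⁻¹ * (z * c * z⁻¹) * z := by group
      rw [h5, h4]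
      group
    · rwa [mul_inv_eq_iff_eq_mul] at h4
  -- `r = 2`
  have hcpow : c ^ r = 1 := by
    have h3 : ((y ^ r : G) : G ⧸ K) = 1 := (QuotientGroup.eq_one_iff _).mpr (hpow y hyM)
    rwa [QuotientGroup.mk_pow] at h3
  have hcc' : c ^ 2 = 1 := by
    have hcc0 : c * c ∈ Abar K := Subgroup.mul_mem _ hcA hcA
    rcases hA2 _ hcc0 with h3 | h3
    · rw [pow_two]
      exact h3
    · exfalso
      exact hc1 (mul_eq_left.mp h3)
  have hr2 : r = 2 := by
    have h3 : orderOf c = 2 := orderOf_eq_prime hcc' hc1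
    have h4 : orderOf c ∣ r := orderOf_dvd_of_pow_eq_one hcpow
    rw [h3] at h4
    exact ((Nat.prime_dvd_prime_iff_eq Nat.prime_two hr.out).mp h4).symm
  subst hr2
  have hcc : c * c = 1 := by rwa [pow_two] at hcc'
  have hqq : Nat.card (Abar K) = 2 := by
    have h3 : 1 < Nat.card (Abar K) := by
      haveI : Nontrivial (Abar K) := ⟨⟨⟨c, hcA⟩, 1, fun h => hc1 (congrArg Subtype.val h)⟩⟩
      exact Finite.one_lt_card
    omega
  have hnc : ∀ x, x ∉ Abar K → ∃ h, h * x * h⁻¹ = x * c := fun x hx =>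
    isConj_iff.mp (hAcam x hx c hcA)
  have hcenA : ∀ x, (∀ z, z * x * z⁻¹ = x) → x ∈ Abar K := by
    intro x hx
    by_contra hxA
    obtain ⟨h, hh⟩ := hnc x hxA
    rw [hx h] at hh
    exact hc1 (mul_eq_left.mp hh.symm)
  have hcoset : ∀ h x : G ⧸ K, h * x * h⁻¹ = x ∨ h * x * h⁻¹ = x * c := by
    intro h x
    have h3 : ⁅x⁻¹, h⁆ ∈ Abar K := hAcomm (Subgroup.commutator_mem_commutator (Subgroup.mem_top _)
      (Subgroup.mem_top _))
    have h4 : h * x * h⁻¹ = x * ⁅x⁻¹, h⁆ := by
      rw [commutatorElement_def]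
      group
    rcases hA2 _ h3 with h5 | h5
    · left
      rw [h4, h5, mul_one]
    · right
      rw [h4, h5]
  have hsq : ∀ x : G ⧸ K, x * x ∈ Abar K := by
    intro x
    apply hcenA
    intro z
    have h3 : z * (x * x) * z⁻¹ = (z * x * z⁻¹) * (z * x * z⁻¹) := by group
    rw [h3]
    rcases hcoset z x with h4 | h4
    · rw [h4]
    · rw [h4]
      calc x * c * (x * c) = x * (c * x) * c := by group
        _ = x * (x * c) * c := by rw [hcen x]
        _ = x * x * (c * c) := by group
        _ = x * x := by rw [hcc, mul_one]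
  -- the centralizers
  have hC : ∀ x ∈ commutator G, x ∉ K →
      Nat.card (Subgroup.centralizer ({x} : Set G)) = Nat.card (G ⧸ K) := by
    intro x hx hxK
    have h3 := cent_card K hKM y hyK h1 x hx hxK
    rw [hqq] at h3
    have h4 := K.card_mul_index
    rw [Subgroup.index_eq_card] at h4
    have h5 : 0 < Nat.card K := Nat.card_pos
    apply Nat.eq_of_mul_eq_mul_right h5
    simp only [Nat.add_one_sub_one, mul_one] at h3
    rw [h3, ← h4, mul_comm]
  -- `E` is a `2`-group
  have hEp : IsPGroup 2 (G ⧸ K) := by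
    intro x
    refine ⟨2, ?_⟩
    have h4p : x ^ 2 ^ 2 = (x * x) * (x * x) := by
      rw [show (2 : ℕ) ^ 2 = 2 + 2 by norm_num, pow_add, pow_two]
    rcases hA2 _ (hsq x) with h3 | h3
    · rw [h4p, h3, one_mul]
    · rw [h4p, h3, hcc]
  obtain ⟨n, hn⟩ := IsPGroup.iff_card.mp hEp
  by_cases hE : 8 < Nat.card (G ⧸ K)
  · -- the large case: `K` has odd order
    left
    obtain ⟨P⟩ : Nonempty (Sylow 2 G) := inferInstance
    have hrel : K.relIndex (⊤ : Subgroup G) = 2 ^ n := by
      rw [Subgroup.relIndex_top_right, Subgroup.index_eq_card, hn]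
    have hPi : K.relIndex (P : Subgroup G) = 2 ^ n := syl_index P ⊤ K le_top le_top hrel
    have hPsup : (P : Subgroup G) ⊔ K = ⊤ := by
      have h3 := Subgroup.relIndex_mul_relIndex K ((P : Subgroup G) ⊔ K) ⊤ le_sup_right le_top
      rw [Subgroup.relIndex_sup_right, hPi, hrel, Subgroup.relIndex_top_right] at h3
      have h4 : ((P : Subgroup G) ⊔ K).index = 1 := by
        have h5 : 0 < 2 ^ n := pow_pos (by norm_num) n
        exact Nat.eq_of_mul_eq_mul_left h5 (by rw [h3, mul_one])
      exact Subgroup.index_eq_one.mp h4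
    have hsurj : ∀ e : G ⧸ K, ∃ p : (P : Subgroup G), ((p : G) : G ⧸ K) = e := by
      intro e
      obtain ⟨g, rfl⟩ := QuotientGroup.mk_surjective e
      have h3 : g ∈ (((P : Subgroup G) ⊔ K : Subgroup G) : Set G) := by
        rw [hPsup]
        exact Subgroup.mem_top _
      rw [Subgroup.mul_normal] at h3
      obtain ⟨p, hp, k, hk, rfl⟩ := Set.mem_mul.mp h3
      refine ⟨⟨p, hp⟩, ?_⟩
      rw [QuotientGroup.mk_mul, (QuotientGroup.eq_one_iff _).mpr hk, mul_one]
    obtain ⟨p, hp⟩ := hsurj c
    have hpM : (p : G) ∈ commutator G := by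
      rw [← mem_Abar K hKM, hp]
      exact hcA
    have hpK : (p : G) ∉ K := by
      intro h
      apply hc1
      rw [← hp]
      exact (QuotientGroup.eq_one_iff _).mpr h
    let T : Subgroup (P : Subgroup G) := K.subgroupOf (P : Subgroup G)
    haveI hTn : T.Normal := Subgroup.normal_subgroupOf
    have hmemT : ∀ x : (P : Subgroup G), x ∈ T ↔ (x : G) ∈ K := fun x => Subgroup.mem_subgroupOf
    have hmemT' : ∀ x : (P : Subgroup G), x ∈ T ↔ ((x : G) : G ⧸ K) = 1 := fun x => by
      rw [hmemT, QuotientGroup.eq_one_iff]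
    have hcam : ∀ t ∈ T, ∃ u : (P : Subgroup G), u * p * u⁻¹ = p * t := by
      intro t ht
      have hcm : ∀ u ∈ (P : Subgroup G), u * (p : G) * u⁻¹ * (p : G)⁻¹ ∈ K := by
        intro u hu
        rw [← QuotientGroup.eq_one_iff]
        simp only [QuotientGroup.mk_mul, QuotientGroup.mk_inv]
        rw [hp, hcen]
        group
      have hC' : Nat.card (Subgroup.centralizer ({(p : G)} : Set G)) ≤ K.relIndex (P : Subgroup G) := by
        rw [hC p hpM hpK, hn, hPi]
      obtain ⟨u, hu, huu⟩ := camina_of_card (P : Subgroup G) K (p : G) p.2 hpK hcm hC' t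
        ((hmemT t).mp ht) t.2
      exact ⟨⟨u, hu⟩, Subtype.ext huu⟩
    -- the commutator of `T`
    let L : Subgroup (P : Subgroup G) := ⁅T, (⊤ : Subgroup (P : Subgroup G))⁆
    haveI hLn : L.Normal := inferInstance
    have hLT : L ≤ T := Subgroup.commutator_le_left _ _
    have hTcen : ∀ t ∈ T, ∀ z : (P : Subgroup G),
        ((t : (P : Subgroup G)) : (P : Subgroup G) ⧸ L) * (z : (P : Subgroup G) ⧸ L) =
          (z : (P : Subgroup G) ⧸ L) * (t : (P : Subgroup G) ⧸ L) := by
      intro t ht z
      have h3 : ⁅t, z⁆ ∈ L := Subgroup.commutator_mem_commutator ht (Subgroup.mem_top z)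
      have h4 : ((⁅t, z⁆ : (P : Subgroup G)) : (P : Subgroup G) ⧸ L) = 1 :=
        (QuotientGroup.eq_one_iff _).mpr h3
      rw [commutatorElement_def] at h4
      simp only [QuotientGroup.mk_mul, QuotientGroup.mk_inv] at h4
      rw [mul_inv_eq_one, mul_inv_eq_iff_eq_mul] at h4
      exact h4
    have hyp := hyp_pair (Abar K) c hA2 hcA hc1 hcc hcen hAcomm hnc hE
    have hkey : ∀ u : (P : Subgroup G),
        ((u * p * u⁻¹ : (P : Subgroup G)) : (P : Subgroup G) ⧸ L) = (p : (P : Subgroup G) ⧸ L) := by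
      intro u
      obtain ⟨ab, bb, hua, hub, hab⟩ := hyp ((u : G) : G ⧸ K)
      obtain ⟨a, rfl⟩ := hsurj ab
      obtain ⟨b, rfl⟩ := hsurj bb
      -- `t₁`, `t₂`
      let t₁ : (P : Subgroup G) := a⁻¹ * (u * a * u⁻¹)
      let t₂ : (P : Subgroup G) := b⁻¹ * (u * b * u⁻¹)
      have ht₁ : t₁ ∈ T := by
        rw [hmemT']
        simp only [t₁, Subgroup.coe_mul, Subgroup.coe_inv, QuotientGroup.mk_mul, QuotientGroup.mk_inv]
        rw [hua]
        group
      have ht₂ : t₂ ∈ T := by
        rw [hmemT']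
        simp only [t₂, Subgroup.coe_mul, Subgroup.coe_inv, QuotientGroup.mk_mul, QuotientGroup.mk_inv]
        rw [hub]
        group
      let z : (P : Subgroup G) := ⁅a, b⁆
      have hzp : z⁻¹ * p ∈ T := by
        rw [hmemT']
        have h3 : (((z : (P : Subgroup G)) : G) : G ⧸ K) ∈ Abar K := by
          rw [mem_Abar K hKM]
          show ⁅(a : G), (b : G)⁆ ∈ commutator G
          exact Subgroup.commutator_mem_commutator (Subgroup.mem_top _) (Subgroup.mem_top _)
        have h4 : (((z : (P : Subgroup G)) : G) : G ⧸ K) ≠ 1 := by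
          intro h5
          apply hab
          have h6 : ⁅((a : G) : G ⧸ K), ((b : G) : G ⧸ K)⁆ = 1 := h5
          exact commutatorElement_eq_one_iff_mul_comm.mp h6
        have h5 := (hA2 _ h3).resolve_left h4
        simp only [Subgroup.coe_mul, Subgroup.coe_inv, QuotientGroup.mk_mul, QuotientGroup.mk_inv]
        rw [h5, hp]
        group
      -- in `P / L`
      have hua' : ((u * a * u⁻¹ : (P : Subgroup G)) : (P : Subgroup G) ⧸ L) =
          (a : (P : Subgroup G) ⧸ L) * (t₁ : (P : Subgroup G) ⧸ L) := by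
        rw [← QuotientGroup.mk_mul]
        congr 1
        simp only [t₁]
        group
      have hub' : ((u * b * u⁻¹ : (P : Subgroup G)) : (P : Subgroup G) ⧸ L) =
          (b : (P : Subgroup G) ⧸ L) * (t₂ : (P : Subgroup G) ⧸ L) := by
        rw [← QuotientGroup.mk_mul]
        congr 1
        simp only [t₂]
        group
      have huz : ((u * z * u⁻¹ : (P : Subgroup G)) : (P : Subgroup G) ⧸ L) =
          (z : (P : Subgroup G) ⧸ L) := by
        have h3 : u * z * u⁻¹ = ⁅u * a * u⁻¹, u * b * u⁻¹⁆ := by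
          simp only [z, commutatorElement_def]
          group
        have h4 : ((⁅u * a * u⁻¹, u * b * u⁻¹⁆ : (P : Subgroup G)) : (P : Subgroup G) ⧸ L) =
            ⁅((u * a * u⁻¹ : (P : Subgroup G)) : (P : Subgroup G) ⧸ L),
              ((u * b * u⁻¹ : (P : Subgroup G)) : (P : Subgroup G) ⧸ L)⁆ := by
          simp [commutatorElement_def]
        rw [h3, h4, hua', hub']
        rw [comm_mul_mul _ _ _ _ (hTcen t₁ ht₁ a).symm (hTcen t₂ ht₂ a).symm (hTcen t₁ ht₁ b).symm
          (hTcen t₂ ht₂ b).symm]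
        have h5 : ⁅((t₁ : (P : Subgroup G)) : (P : Subgroup G) ⧸ L),
            ((t₂ : (P : Subgroup G)) : (P : Subgroup G) ⧸ L)⁆ = 1 := by
          rw [commutatorElement_eq_one_iff_mul_comm]
          exact hTcen t₁ ht₁ t₂
        rw [h5, mul_one]
        simp [z, commutatorElement_def]
      -- `p = z t₃`
      set t₃ : (P : Subgroup G) := z⁻¹ * p with ht₃def
      have hpz : p = z * t₃ := by
        rw [ht₃def]
        group
      have h3 : u * p * u⁻¹ = (u * z * u⁻¹) * (u * t₃ * u⁻¹) := by
        rw [hpz]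
        group
      have h4 : ((u * t₃ * u⁻¹ : (P : Subgroup G)) : (P : Subgroup G) ⧸ L) =
          (t₃ : (P : Subgroup G) ⧸ L) := by
        simp only [QuotientGroup.mk_mul, QuotientGroup.mk_inv]
        rw [(hTcen t₃ hzp u).symm]
        group
      rw [h3, QuotientGroup.mk_mul, huz, h4, ← QuotientGroup.mk_mul, ← hpz]
    have hTL : T ≤ L := by
      intro t ht
      obtain ⟨u, hu⟩ := hcam t ht
      have h3 := hkey u
      rw [hu, QuotientGroup.mk_mul] at h3
      rw [← QuotientGroup.eq_one_iff]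
      exact mul_eq_left.mp h3
    have hTbot : T = ⊥ := by
      by_contra hne
      haveI := (P.isPGroup' : IsPGroup 2 (P : Subgroup G)).isNilpotent
      exact comm_top_ne T hne (le_antisymm hLT hTL)
    have hpp : p * p ∈ T := by
      rw [hmemT']
      simp only [Subgroup.coe_mul, QuotientGroup.mk_mul]
      rw [hp, hcc]
    rw [hTbot] at hpp
    have hpp1 : p * p = 1 := by simpa using hpp
    apply pow_one_of_conj (h1 p hpM hpK)
    have := congrArg Subtype.val hpp1
    rw [Subgroup.coe_mul] at this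
    rw [pow_two]
    exact this
  · -- `|G / K| ≤ 8`
    right
    refine ⟨rfl, ?_⟩
    have hle8 : 2 ^ n ∣ 8 := by
      have h3 : 2 ^ n ≤ 2 ^ 3 := by
        rw [← hn]
        omega
      have h4 := (Nat.pow_le_pow_iff_right (by norm_num : 1 < 2)).mp h3
      exact pow_dvd_pow 2 h4
    -- an element of order `4` in `G / K`
    obtain ⟨xb, hxb⟩ : ∃ x : G ⧸ K, x * x ≠ 1 := by
      by_contra hall
      push Not at hall
      have hcomE : ∀ a b : G ⧸ K, a * b = b * a := by
        intro a b
        have h3 := hall (a * b)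
        have h4 := hall a
        have h5 := hall b
        calc a * b = a * (a * b * (a * b)) * b := by rw [h3]; group
          _ = (a * a) * (b * a) * (b * b) := by group
          _ = b * a := by rw [h4, h5]; group
      have h3 : c = 1 := by
        have h4 : ∀ w ∈ commutator G, ((w : G) : G ⧸ K) = 1 := by
          intro w hw
          have h5 : commutator G ≤ K := by
            rw [commutator_def, Subgroup.commutator_le]
            intro a _ b _
            rw [← QuotientGroup.eq_one_iff]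
            have h6 : ((⁅a, b⁆ : G) : G ⧸ K) = ⁅(a : G ⧸ K), (b : G ⧸ K)⁆ := by
              simp [commutatorElement_def]
            rw [h6, commutatorElement_eq_one_iff_mul_comm]
            exact hcomE _ _
          exact (QuotientGroup.eq_one_iff _).mpr (h5 hw)
        exact h4 y hyM
      exact hc1 h3
    obtain ⟨x, rfl⟩ := QuotientGroup.mk_surjective xb
    have hz : ((x * x : G) : G ⧸ K) ∈ Abar K := hsq (x : G ⧸ K)
    rw [mem_Abar K hKM] at hz
    have hzK : x * x ∉ K := by
      intro h
      apply hxb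
      rw [← QuotientGroup.mk_mul]
      exact (QuotientGroup.eq_one_iff _).mpr h
    apply pow_one_of_conj (h1 (x * x) hz hzK)
    have h3 := hC (x * x) hz hzK
    have hxC : x ∈ Subgroup.centralizer ({x * x} : Set G) := by
      rw [Subgroup.mem_centralizer_singleton_iff]
      group
    have h4 : (⟨x, hxC⟩ : Subgroup.centralizer ({x * x} : Set G)) ^
        Nat.card (Subgroup.centralizer ({x * x} : Set G)) = 1 := pow_card_eq_one'
    have h5 := congrArg Subtype.val h4
    rw [Subgroup.coe_pow, h3, hn] at h5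
    have h6 : x ^ 8 = 1 := by
      obtain ⟨k, hk⟩ := hle8
      rw [hk, pow_mul]
      simp only [Subgroup.coe_one] at h5
      rw [h5, one_pow]
    rw [← pow_two, ← pow_mul]
    exact h6

include hKM hyM hyK h1 h2 hpow in
/-- **Main result**: the elements of `G' \ K` have order dividing `r`, or `r = 2` and order dividing
`4`. -/
theorem pow_cases : y ^ r = 1 ∨ (r = 2 ∧ y ^ 4 = 1) := by
  by_cases hq : Nat.card (Abar K) ≤ 2
  · exact two_case K hKM y hyM hyK h1 h2 hpow hq
  · exact big_case K hKM y hyM hyK h1 h2 hpow (by omega)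

end Two

end Cfsg.Agent.Lib.S4805C
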