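import Mathlib

set_option autoImplicit false
set_option linter.unusedVariables false
set_option linter.unusedSectionVars false
set_option linter.style.haveILetI false

namespace Cfsg.Agent.Lib.S6RecPerm

open Subgroup

set_option maxRecDepth 100000 in
theorem five_struct : ∀ f : Equiv.Perm (Fin 6), f ^ 5 = 1 → f ≠ 1 →
    ∃ q, f q = q ∧ ∀ a b, a ≠ q → b ≠ q → ∃ k : Fin 5, (f ^ (k : ℕ)) a = b := by
  decide +kernel

/-- A subgroup of order `60` of `S₆` containing a three-element with a fixed point fixes a point. -/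
theorem fixes_point (B : Subgroup (Equiv.Perm (Fin 6))) (hB : Nat.card B = 60) {π : Equiv.Perm (Fin 6)}
    (hπ : π ∈ B) (h3 : π ^ 3 = 1) (h1 : π ≠ 1) {p : Fin 6} (hp : π p = p) : ∃ q, ∀ σ ∈ B, σ q = q := by
  haveI : Fact (Nat.Prime 5) := ⟨by norm_num⟩
  haveI : Fact (Nat.Prime 3) := ⟨by norm_num⟩
  obtain ⟨f, hf⟩ := exists_prime_orderOf_dvd_card' 5 (by rw [hB]; norm_num : 5 ∣ Nat.card B)
  have hf5 : (f : Equiv.Perm (Fin 6)) ^ 5 = 1 := by
    have h2 : f ^ 5 = 1 := by rw [← hf]; exact pow_orderOf_eq_one f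
    simpa using congrArg Subtype.val h2
  have hf1 : (f : Equiv.Perm (Fin 6)) ≠ 1 := by
    intro h
    have h2 : f = 1 := Subtype.ext h
    rw [h2, orderOf_one] at hf
    omega
  obtain ⟨q, hq, hq2⟩ := five_struct f hf5 hf1
  refine ⟨q, ?_⟩
  by_contra hcon
  push Not at hcon
  obtain ⟨σ, hσ, hσq⟩ := hcon
  have htr : ∀ b, ∃ g ∈ B, g q = b := by
    intro b
    by_cases hb : b = q
    · exact ⟨1, B.one_mem, by rw [hb]; rfl⟩
    · obtain ⟨k, hk⟩ := hq2 (σ q) b hσq hb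
      refine ⟨(f : Equiv.Perm (Fin 6)) ^ (k : ℕ) * σ, B.mul_mem (B.pow_mem f.2 _) hσ, ?_⟩
      rw [Equiv.Perm.mul_apply, hk]
  haveI : MulAction.IsPretransitive B (Fin 6) := by
    refine ⟨fun a b => ?_⟩
    obtain ⟨g₁, hg₁, h₁⟩ := htr a
    obtain ⟨g₂, hg₂, h₂⟩ := htr b
    refine ⟨⟨g₂ * g₁⁻¹, B.mul_mem hg₂ (B.inv_mem hg₁)⟩, ?_⟩
    show (g₂ * g₁⁻¹) a = b
    have h4 : g₁⁻¹ a = q := by rw [← h₁]; simp
    rw [Equiv.Perm.mul_apply, h4, h₂]
  have hidx : (MulAction.stabilizer B p).index = 6 := by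
    rw [MulAction.index_stabilizer, MulAction.orbit_eq_univ, Set.ncard_univ, Nat.card_eq_fintype_card,
      Fintype.card_fin]
  have hcard := (MulAction.stabilizer B p).card_mul_index
  rw [hidx, hB] at hcard
  have hst : Nat.card (MulAction.stabilizer B p) = 10 := by omega
  let π' : B := ⟨π, hπ⟩
  have hπ's : π' ∈ MulAction.stabilizer B p := by
    rw [MulAction.mem_stabilizer_iff]
    exact hp
  have hπ'3 : (⟨π', hπ's⟩ : MulAction.stabilizer B p) ^ 3 = 1 := by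
    apply Subtype.ext
    apply Subtype.ext
    simpa [π'] using h3
  have hπ'1 : (⟨π', hπ's⟩ : MulAction.stabilizer B p) ≠ 1 := by
    intro h
    apply h1
    have := congrArg (fun z : MulAction.stabilizer B p => ((z : B) : Equiv.Perm (Fin 6))) h
    simpa [π'] using this
  have ho := orderOf_eq_prime hπ'3 hπ'1
  have hd := orderOf_dvd_natCard (⟨π', hπ's⟩ : MulAction.stabilizer B p)
  rw [ho, hst] at hd
  omega

/-- `A₆` is transitive. -/
theorem alt_trans (a b : Fin 6) : ∃ σ ∈ alternatingGroup (Fin 6), σ a = b := by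
  by_cases hab : a = b
  · exact ⟨1, one_mem _, by rw [hab]; rfl⟩
  have hex : ∀ a b : Fin 6, a ≠ b → ∃ c d : Fin 6, c ≠ d ∧ c ≠ a ∧ c ≠ b ∧ d ≠ a ∧ d ≠ b := by decide
  obtain ⟨c, d, h1, h2, h3, h4, h5⟩ := hex a b hab
  refine ⟨Equiv.swap a b * Equiv.swap c d, ?_, ?_⟩
  · rw [Equiv.Perm.mem_alternatingGroup, map_mul, Equiv.Perm.sign_swap hab, Equiv.Perm.sign_swap h1]
    decide
  · rw [Equiv.Perm.mul_apply, Equiv.swap_apply_of_ne_of_ne h2.symm h4.symm, Equiv.swap_apply_left]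

/-- `A₆` is doubly transitive enough for us: the stabilizer of a point moves any other point. -/
theorem alt_moves {p q : Fin 6} (hpq : p ≠ q) : ∃ σ ∈ alternatingGroup (Fin 6), σ p = p ∧ σ q ≠ q := by
  have hex : ∀ p q : Fin 6, p ≠ q → ∃ a b : Fin 6, a ≠ b ∧ a ≠ p ∧ a ≠ q ∧ b ≠ p ∧ b ≠ q := by decide
  obtain ⟨a, b, h1, h2, h3, h4, h5⟩ := hex p q hpq
  refine ⟨Equiv.swap q a * Equiv.swap q b, ?_, ?_, ?_⟩
  · rw [Equiv.Perm.mem_alternatingGroup, map_mul, Equiv.Perm.sign_swap h3.symm, Equiv.Perm.sign_swap h5.symm]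
    decide
  · rw [Equiv.Perm.mul_apply, Equiv.swap_apply_of_ne_of_ne hpq h4.symm,
      Equiv.swap_apply_of_ne_of_ne hpq h2.symm]
  · rw [Equiv.Perm.mul_apply, Equiv.swap_apply_left, Equiv.swap_apply_of_ne_of_ne h5 h1.symm]
    exact h5

/-- A three-cycle. -/
def tau : Equiv.Perm (Fin 6) := Equiv.swap 0 1 * Equiv.swap 1 2

theorem tau_mem : tau ∈ alternatingGroup (Fin 6) := by
  rw [Equiv.Perm.mem_alternatingGroup, tau, map_mul, Equiv.Perm.sign_swap (by decide), Equiv.Perm.sign_swap (by decide)]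
  decide

theorem tau_cube : tau ^ 3 = 1 := by decide

theorem tau_ne : tau ≠ 1 := by decide

theorem tau_fix : tau 3 = 3 := by decide

end Cfsg.Agent.Lib.S6RecPerm
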