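import Mathlib
import Cfsg.Agent.Lib.S6RecPerm

set_option autoImplicit false
set_option linter.unusedVariables false
set_option linter.unusedSectionVars false
set_option linter.style.haveILetI false

namespace Cfsg.Agent.Lib.S6RecSix

open Subgroup Cfsg.Agent.Lib.S6RecPerm

variable {G : Type*} [Group G]

theorem mem_normalizer_of_conj_le [Finite G] {A : Subgroup G} {g : G} (h : ∀ a ∈ A, g * a * g⁻¹ ∈ A) :
    g ∈ normalizer (A : Set G) := by
  rw [mem_normalizer_iff]
  intro y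
  refine ⟨h y, fun hy => ?_⟩
  have hpow : ∀ k : ℕ, ∀ a ∈ A, g ^ k * a * (g ^ k)⁻¹ ∈ A := by
    intro k
    induction k with
    | zero => intro a ha; simpa using ha
    | succ n ih =>
      intro a ha
      have h1 := ih _ (h a ha)
      have h2 : g ^ (n + 1) * a * (g ^ (n + 1))⁻¹ = g ^ n * (g * a * g⁻¹) * (g ^ n)⁻¹ := by
        rw [pow_succ]; group
      rw [h2]
      exact h1
  have hn : 0 < orderOf g := orderOf_pos g
  have h1 : g ^ (orderOf g - 1) = g⁻¹ := by
    apply eq_inv_of_mul_eq_one_left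
    rw [← pow_succ, Nat.sub_add_cancel hn, pow_orderOf_eq_one]
  have h2 := hpow (orderOf g - 1) _ hy
  rw [h1] at h2
  have h3 : g⁻¹ * (g * y * g⁻¹) * g⁻¹⁻¹ = y := by group
  rwa [h3] at h2

section

variable (σ : G →* ℤˣ) (e : σ.ker ≃* alternatingGroup (Fin 6))

/-- The embedding of the kernel into `S₆`. -/
def iota : σ.ker →* Equiv.Perm (Fin 6) := (alternatingGroup (Fin 6)).subtype.comp e.toMonoidHom

theorem iota_inj : Function.Injective (iota σ e) :=
  (Subgroup.subtype_injective _).comp e.injective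

theorem iota_surj {π : Equiv.Perm (Fin 6)} (h : π ∈ alternatingGroup (Fin 6)) : ∃ k, iota σ e k = π := by
  refine ⟨e.symm ⟨π, h⟩, ?_⟩
  simp [iota]

/-- The point stabilizer, in the kernel. -/
def St (q : Fin 6) : Subgroup σ.ker := (MulAction.stabilizer (Equiv.Perm (Fin 6)) q).comap (iota σ e)

theorem mem_St {k : σ.ker} {q : Fin 6} : k ∈ St σ e q ↔ iota σ e k q = q := Iff.rfl

theorem card_St (hK : Nat.card σ.ker = 360) (q : Fin 6) : Nat.card (St σ e q) = 60 := by
  letI : MulAction σ.ker (Fin 6) := MulAction.compHom (Fin 6) (iota σ e)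
  have hsmul : ∀ (k : σ.ker) (a : Fin 6), k • a = iota σ e k a := fun k a => rfl
  haveI : MulAction.IsPretransitive σ.ker (Fin 6) := by
    refine ⟨fun a b => ?_⟩
    obtain ⟨π, hπ, hab⟩ := alt_trans a b
    obtain ⟨k, hk⟩ := iota_surj σ e hπ
    exact ⟨k, by rw [hsmul, hk, hab]⟩
  have h1 : MulAction.stabilizer σ.ker q = St σ e q := by
    ext k
    rw [MulAction.mem_stabilizer_iff, hsmul]
    rfl
  have hidx : (MulAction.stabilizer σ.ker q).index = 6 := by
    rw [MulAction.index_stabilizer, MulAction.orbit_eq_univ, Set.ncard_univ, Nat.card_eq_fintype_card,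
      Fintype.card_fin]
  have hcard := (MulAction.stabilizer σ.ker q).card_mul_index
  rw [hidx, hK, h1] at hcard
  omega

include e in
theorem exists_sub120 [Finite G] (hK : Nat.card σ.ker = 360)
    (hcent : ∀ c : G, c ^ 3 = 1 → c ≠ 1 → ∃ t, σ t = -1 ∧ t * c * t⁻¹ = c) :
    ∃ Hs : Subgroup G, Nat.card Hs = 120 := by
  set ι := iota σ e with hι
  have hιinj : Function.Injective ι := iota_inj σ e
  obtain ⟨c₀, hc₀⟩ := iota_surj σ e tau_mem
  have hc3 : (c₀ : G) ^ 3 = 1 := by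
    have h1 : c₀ ^ 3 = 1 := by
      apply hιinj
      rw [map_pow, map_one, ← hι] at *
      rw [hc₀, tau_cube]
    simpa using congrArg Subtype.val h1
  have hc1 : (c₀ : G) ≠ 1 := by
    intro h
    have h1 : c₀ = 1 := Subtype.ext h
    rw [h1, map_one] at hc₀
    exact tau_ne hc₀.symm
  obtain ⟨t, ht, htc⟩ := hcent c₀ hc3 hc1
  set B' : Subgroup σ.ker := (St σ e 3).map (MulAut.conjNormal t : MulAut σ.ker).toMonoidHom with hB'
  have hB'card : Nat.card B' = 60 := by
    rw [hB', Subgroup.card_map_of_injective (MulEquiv.injective _)]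
    exact card_St σ e hK 3
  set B₁ : Subgroup (Equiv.Perm (Fin 6)) := B'.map ι with hB₁
  have hB₁card : Nat.card B₁ = 60 := by
    rw [hB₁, Subgroup.card_map_of_injective hιinj]
    exact hB'card
  have hconj : ∀ s : σ.ker, (((MulAut.conjNormal t : MulAut σ.ker) s : σ.ker) : G) = t * s * t⁻¹ := fun s =>
    MulAut.conjNormal_apply t s
  have htauB : tau ∈ B₁ := by
    refine ⟨c₀, ⟨c₀, ?_, ?_⟩, hc₀⟩
    · show iota σ e c₀ 3 = 3
      rw [← hι, hc₀]
      exact tau_fix
    · apply Subtype.ext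
      exact (hconj c₀).trans htc
  obtain ⟨q, hq⟩ := fixes_point B₁ hB₁card htauB tau_cube tau_ne tau_fix
  have hB'le : ∀ k ∈ B', ι k q = q := fun k hk => hq _ ⟨k, hk, rfl⟩
  obtain ⟨π₀, hπ₀, hπ₀q⟩ := alt_trans 3 q
  obtain ⟨k₀, hk₀⟩ := iota_surj σ e hπ₀
  set A : Subgroup G := (St σ e 3).map σ.ker.subtype with hA
  set g : G := (k₀ : G)⁻¹ * t with hg
  have hσg : σ g = -1 := by
    rw [hg, map_mul, map_inv, ht]
    have : σ (k₀ : G) = 1 := k₀.2
    rw [this]
    decide
  have hgN : g ∈ normalizer (A : Set G) := by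
    apply mem_normalizer_of_conj_le
    rintro a ⟨s, hs, rfl⟩
    set b : σ.ker := (MulAut.conjNormal t : MulAut σ.ker) s with hb
    have hbB : b ∈ B' := ⟨s, hs, rfl⟩
    have hbq := hB'le b hbB
    refine ⟨k₀⁻¹ * b * k₀, ?_, ?_⟩
    · show ι (k₀⁻¹ * b * k₀) 3 = 3
      have hk₀3 : ι k₀ 3 = q := by
        show iota σ e k₀ 3 = q
        rw [hk₀]; exact hπ₀q
      rw [map_mul, map_mul, map_inv, Equiv.Perm.mul_apply, Equiv.Perm.mul_apply, hk₀3, hbq, ← hk₀3]
      simp
    · simp only [Subgroup.subtype_apply, Subgroup.coe_mul, Subgroup.coe_inv, hb]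
      rw [hconj, hg]
      group
  set Hs := normalizer (A : Set G) with hHs
  have hAle : A ≤ Hs := le_normalizer
  -- the kernel inside the normalizer
  have hker : ∀ y ∈ Hs, σ y = 1 → y ∈ A := by
    intro y hy hσy
    refine ⟨⟨y, hσy⟩, ?_, rfl⟩
    show ι ⟨y, hσy⟩ 3 = 3
    by_contra hne
    set q' := ι ⟨y, hσy⟩ 3 with hq'
    obtain ⟨π', hπ', h3, hmv⟩ := alt_moves (p := 3) (q := q') (Ne.symm hne)
    obtain ⟨s, hs⟩ := iota_surj σ e hπ'
    have hsS : s ∈ St σ e 3 := by
      show iota σ e s 3 = 3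
      rw [hs, h3]
    have hsA : (s : G) ∈ A := ⟨s, hsS, rfl⟩
    have hconj2 : y⁻¹ * s * y⁻¹⁻¹ ∈ A := by
      have := (mem_normalizer_iff.mp (Hs.inv_mem hy) (s : G)).mp hsA
      exact this
    obtain ⟨s₂, hs₂, hs₂e⟩ := hconj2
    have hs₂' : s₂ = (⟨y, hσy⟩ : σ.ker)⁻¹ * s * ⟨y, hσy⟩ := by
      apply Subtype.ext
      simpa using hs₂e
    have h5 : ι s₂ 3 = 3 := hs₂
    rw [hs₂', map_mul, map_mul, map_inv, Equiv.Perm.mul_apply, Equiv.Perm.mul_apply, ← hq'] at h5
    apply hmv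
    have h6 : ι s q' = q' := by
      have h7 := congrArg (ι ⟨y, hσy⟩) h5
      simpa using h7
    rwa [hι, hs] at h6
  -- cardinalities
  refine ⟨Hs, ?_⟩
  let ρ : Hs →* ℤˣ := σ.comp Hs.subtype
  have hρker : ρ.ker = A.subgroupOf Hs := by
    ext y
    rw [MonoidHom.mem_ker, mem_subgroupOf]
    constructor
    · intro h
      exact hker y y.2 h
    · rintro ⟨s, hs, he⟩
      show σ (y : G) = 1
      rw [← he]
      exact s.2
  have hρidx : ρ.ker.index = 2 := by
    rw [Subgroup.index_ker]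
    have h2 : ρ.range = ⊤ := by
      rw [MonoidHom.range_eq_top]
      intro u
      rcases Int.units_eq_one_or u with h | h
      · exact ⟨1, by rw [map_one, h]⟩
      · exact ⟨⟨g, hgN⟩, by rw [h]; exact hσg⟩
    rw [h2, Subgroup.card_top, Nat.card_eq_fintype_card, Fintype.card_units_int]
  have hρcard : Nat.card ρ.ker = 60 := by
    rw [hρker, Nat.card_congr (Subgroup.subgroupOfEquivOfLe hAle).toEquiv, hA,
      Subgroup.card_map_of_injective (Subgroup.subtype_injective _)]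
    exact card_St σ e hK 3
  have h3 := ρ.ker.card_mul_index
  rw [hρidx, hρcard] at h3
  exact h3.symm

end

theorem iso_of_card120 [Finite G] (hG : Nat.card G = 720) {Hs : Subgroup G} (hHs : Nat.card Hs = 120)
    {S : Subgroup G} (hS : Nat.card S = 9) (hn : ∀ L : Subgroup G, L.Normal → L ≠ ⊥ → S ≤ L) :
    Nonempty (G ≃* Equiv.Perm (Fin 6)) := by
  have hidx : Hs.index = 6 := by
    have h1 := Hs.card_mul_index
    rw [hHs, hG] at h1
    omega
  have hcardQ : Nat.card (G ⧸ Hs) = 6 := hidx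
  let eq : (G ⧸ Hs) ≃ Fin 6 := Finite.equivFinOfCardEq hcardQ
  let ψ : G →* Equiv.Perm (G ⧸ Hs) := MulAction.toPermHom G (G ⧸ Hs)
  have hinj : Function.Injective ψ := by
    rw [← MonoidHom.ker_eq_bot_iff]
    by_contra hne
    have hker : ψ.ker = Hs.normalCore := (Subgroup.normalCore_eq_ker Hs).symm
    have h1 : S ≤ ψ.ker := hn ψ.ker ψ.normal_ker hne
    have h2 : S ≤ Hs := h1.trans (by rw [hker]; exact Subgroup.normalCore_le Hs)
    have h3 := Subgroup.card_dvd_of_le h2
    rw [hS, hHs] at h3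
    omega
  have hbij : Function.Bijective ψ := by
    refine (Nat.bijective_iff_injective_and_card ψ).mpr ⟨hinj, ?_⟩
    rw [hG, Nat.card_perm, hcardQ]
    rfl
  exact ⟨(MulEquiv.ofBijective ψ hbij).trans eq.permCongrHom⟩

end Cfsg.Agent.Lib.S6RecSix
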