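import Mathlib
import Cfsg.Prelude.Def_Transfer
import Cfsg.Agent.Lib.NormalKlein
import Cfsg.Agent.Lib.CritAut

/-!
# 2-groups without normal elementary abelian subgroups of order 8: basic tools
-/

set_option autoImplicit false
set_option linter.style.haveILetI false
set_option linter.unusedSectionVars false
set_option linter.unusedVariables false

universe u

namespace Cfsg.Agent.Lib.SCN3Base

open Cfsg.Agent.Lib.NormalKlein

variable {X : Type u} [Group X]

/-- A normal abelian subgroup of a finite `2`-group is contained in a self-centralizing one. -/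
theorem exists_self_centralizing_ge [Finite X] (hT : IsPGroup 2 X) (N₀ : Subgroup X) (hN₀ : N₀.Normal)
    (hN₀c : ∀ a ∈ N₀, ∀ b ∈ N₀, a * b = b * a) :
    ∃ N : Subgroup X, N₀ ≤ N ∧ N.Normal ∧ (∀ a ∈ N, ∀ b ∈ N, a * b = b * a) ∧
      ∀ g : X, (∀ a ∈ N, g * a = a * g) → g ∈ N := by
  classical
  haveI : Fact (Nat.Prime 2) := ⟨Nat.prime_two⟩
  let S : Set (Subgroup X) := {N | N₀ ≤ N ∧ N.Normal ∧ ∀ a ∈ N, ∀ b ∈ N, a * b = b * a}
  have hSne : S.Nonempty := ⟨N₀, le_rfl, hN₀, hN₀c⟩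
  obtain ⟨N, ⟨hN0, hNn, hNab⟩, hNmax⟩ := Set.exists_max_image S (fun N => Nat.card N)
    (Set.toFinite S) hSne
  refine ⟨N, hN0, hNn, hNab, ?_⟩
  intro g hg
  by_contra hgN
  haveI := hNn
  let C : Subgroup X :=
    { carrier := {c | ∀ a ∈ N, c * a = a * c}
      one_mem' := by intro a _; simp
      mul_mem' := by
        intro c d hc hd a ha
        calc c * d * a = c * (d * a) := by group
          _ = c * (a * d) := by rw [hd a ha]
          _ = (c * a) * d := by group
          _ = (a * c) * d := by rw [hc a ha]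
          _ = a * (c * d) := by group
      inv_mem' := by
        intro c hc a ha
        have := hc a ha
        calc c⁻¹ * a = c⁻¹ * (a * c) * c⁻¹ := by group
          _ = c⁻¹ * (c * a) * c⁻¹ := by rw [this]
          _ = a * c⁻¹ := by group }
  have hCn : C.Normal := by
    constructor
    intro c hc t a ha
    have h1 : t⁻¹ * a * t ∈ N := by
      have := hNn.conj_mem a ha t⁻¹
      simpa using this
    have h2 := hc _ h1
    calc t * c * t⁻¹ * a = t * (c * (t⁻¹ * a * t)) * t⁻¹ := by group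
      _ = t * ((t⁻¹ * a * t) * c) * t⁻¹ := by rw [h2]
      _ = a * (t * c * t⁻¹) := by group
  let f := QuotientGroup.mk' N
  have hf : Function.Surjective f := QuotientGroup.mk'_surjective _
  let Cb : Subgroup (X ⧸ N) := C.map f
  have hCbn : Cb.Normal := hCn.map f hf
  have hCbne : Cb ≠ ⊥ := by
    intro h
    apply hgN
    have h1 : f g ∈ Cb := ⟨g, hg, rfl⟩
    rw [h, Subgroup.mem_bot] at h1
    exact (QuotientGroup.eq_one_iff g).1 h1
  obtain ⟨cb, hcb, hcb1, hcbc⟩ := exists_central_of_normal (hT.to_quotient N) Cb hCbn hCbne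
  obtain ⟨c, hcC, rfl⟩ := hcb
  let N' : Subgroup X := (Subgroup.zpowers (f c)).comap f
  have hN'n : N'.Normal := by
    apply Subgroup.Normal.comap
    constructor
    intro a ha g
    have h1 : g * a * g⁻¹ = a := by
      obtain ⟨j, rfl⟩ := Subgroup.mem_zpowers_iff.1 ha
      have : Commute g ((f c) ^ j) :=
        Commute.zpow_right (Subgroup.mem_center_iff.1 hcbc g) j
      rw [this.eq, mul_inv_cancel_right]
    rw [h1]; exact ha
  have hform : ∀ a ∈ N', ∃ j : ℤ, ∃ n ∈ N, a = c ^ j * n := by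
    intro a ha
    obtain ⟨j, hj⟩ := Subgroup.mem_zpowers_iff.1 ha
    refine ⟨j, (c ^ j)⁻¹ * a, ?_, by group⟩
    rw [← QuotientGroup.eq]
    show ((c ^ j : X) : X ⧸ N) = a
    have : f (c ^ j) = f a := by rw [map_zpow]; exact hj
    exact this
  have hN'ab : ∀ a ∈ N', ∀ b ∈ N', a * b = b * a := by
    intro a ha b hb
    obtain ⟨j, n, hn, rfl⟩ := hform a ha
    obtain ⟨l, m, hm, rfl⟩ := hform b hb
    have hcj : ∀ (i : ℤ), (c ^ i) ∈ C := fun i => C.zpow_mem hcC i
    have e1 : n * c ^ l = c ^ l * n := (hcj l n hn).symm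
    have e2 : m * c ^ j = c ^ j * m := (hcj j m hm).symm
    have e3 : n * m = m * n := hNab n hn m hm
    have e4 : c ^ j * c ^ l = c ^ l * c ^ j := by
      rw [← zpow_add, ← zpow_add, add_comm]
    calc c ^ j * n * (c ^ l * m) = c ^ j * (n * c ^ l) * m := by group
      _ = c ^ j * (c ^ l * n) * m := by rw [e1]
      _ = (c ^ j * c ^ l) * (n * m) := by group
      _ = (c ^ l * c ^ j) * (m * n) := by rw [e3, e4]
      _ = c ^ l * (c ^ j * m) * n := by group
      _ = c ^ l * (m * c ^ j) * n := by rw [e2]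
      _ = c ^ l * m * (c ^ j * n) := by group
  have hle : N ≤ N' := by
    intro a ha
    have : f a = 1 := (QuotientGroup.eq_one_iff a).2 ha
    show f a ∈ Subgroup.zpowers (f c)
    rw [this]
    exact Subgroup.one_mem _
  have hcN' : c ∈ N' := Subgroup.mem_zpowers (f c)
  have hcN : c ∉ N := fun h => hcb1 ((QuotientGroup.eq_one_iff c).2 h)
  have h1 := hNmax N' ⟨hN0.trans hle, hN'n, hN'ab⟩
  have h2 : N = N' := Subgroup.eq_of_le_of_card_ge hle h1
  exact hcN (h2 ▸ hcN')

/-- The hypothesis of the main theorem, in the form used. -/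
def NoE8 (X : Type u) [Group X] : Prop :=
  ∀ N : Subgroup X, N.Normal → (∀ a ∈ N, ∀ b ∈ N, a * b = b * a) → ∀ E : Subgroup X, E ≤ N →
    (∀ a ∈ E, a ^ 2 = 1) → Nat.card E ≤ 4

theorem noE8_of_hscn [Finite X] (hX : IsPGroup 2 X)
    (hscn : ¬ ∃ A : Subgroup X, A.Normal ∧ Subgroup.centralizer (A : Set X) = A ∧
      ∃ E : Subgroup X, E ≤ A ∧ Cfsg.IsElementaryAbelian 2 E ∧ Nat.card E = 8) : NoE8 X := by
  classical
  haveI : Fact (Nat.Prime 2) := ⟨Nat.prime_two⟩
  intro N hN hNc E hEN hE2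
  by_contra hcard
  push Not at hcard
  obtain ⟨A, hNA, hAn, hAc, hAs⟩ := exists_self_centralizing_ge hX N hN hNc
  apply hscn
  have h8 : (8 : ℕ) ∣ Nat.card E := by
    obtain ⟨k, hk⟩ := IsPGroup.iff_card.1 (hX.to_subgroup E)
    rw [hk] at hcard ⊢
    have hk3 : 3 ≤ k := by
      by_contra h
      have : k ≤ 2 := by omega
      have : 2 ^ k ≤ 2 ^ 2 := Nat.pow_le_pow_right (by norm_num) this
      omega
    exact pow_dvd_pow 2 hk3
  obtain ⟨K, hK⟩ := Sylow.exists_subgroup_card_pow_prime (G := E) (p := 2) (n := 3) 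
    (by simpa using h8)
  refine ⟨A, hAn, ?_, K.map E.subtype, ?_, ⟨?_, ?_⟩, ?_⟩
  · apply le_antisymm
    · intro g hg
      apply hAs
      intro a ha
      rw [Subgroup.mem_centralizer_iff] at hg
      exact (hg a ha).symm
    · intro a ha
      rw [Subgroup.mem_centralizer_iff]
      intro b hb
      exact hAc b hb a ha
  · rintro _ ⟨k, -, rfl⟩
    exact hNA (hEN k.2)
  · refine ⟨⟨?_⟩⟩
    rintro ⟨_, k, -, rfl⟩ ⟨_, l, -, rfl⟩
    apply Subtype.ext
    exact hAc _ (hNA (hEN k.2)) _ (hNA (hEN l.2))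
  · rintro _ ⟨k, -, rfl⟩
    exact hE2 _ k.2
  · rw [Subgroup.card_map_of_injective (Subgroup.subtype_injective E), hK]
    norm_num

/-- The subgroup of solutions of `x^2 = 1` in an abelian subgroup. -/
def omega1 (N : Subgroup X) (hN : ∀ a ∈ N, ∀ b ∈ N, a * b = b * a) : Subgroup X where
  carrier := {x | x ∈ N ∧ x ^ 2 = 1}
  one_mem' := ⟨N.one_mem, one_pow 2⟩
  mul_mem' := by
    rintro a b ⟨ha, ha2⟩ ⟨hb, hb2⟩
    refine ⟨N.mul_mem ha hb, ?_⟩
    rw [(show Commute a b from hN a ha b hb).mul_pow, ha2, hb2, one_mul]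
  inv_mem' := by
    rintro a ⟨ha, ha2⟩
    exact ⟨N.inv_mem ha, by rw [inv_pow, ha2, inv_one]⟩

theorem mem_omega1 {N : Subgroup X} {hN : ∀ a ∈ N, ∀ b ∈ N, a * b = b * a} {x : X} :
    x ∈ omega1 N hN ↔ x ∈ N ∧ x ^ 2 = 1 := Iff.rfl

theorem card_omega1_le (hE8 : NoE8 X) (N : Subgroup X) (hn : N.Normal)
    (hN : ∀ a ∈ N, ∀ b ∈ N, a * b = b * a) : Nat.card (omega1 N hN) ≤ 4 :=
  hE8 N hn hN _ (fun _ h => h.1) (fun _ h => h.2)

/-- No involution outside a normal four-group `E` with `[s, X] ≤ E`. -/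
theorem noE8_ext [Finite X] (hE8 : NoE8 X) (E : Subgroup X) (hEn : E.Normal) (hE2 : ∀ a ∈ E, a ^ 2 = 1)
    (hE4 : Nat.card E = 4) (s : X) (hs2 : s ^ 2 = 1) (hsE : s ∉ E)
    (hsc : ∀ a ∈ E, s * a = a * s) (hsx : ∀ x : X, x * s * x⁻¹ * s⁻¹ ∈ E) : False := by
  classical
  have hEc : ∀ a ∈ E, ∀ b ∈ E, a * b = b * a := by
    intro a ha b hb
    have h1 : (a * b) ^ 2 = 1 := hE2 _ (E.mul_mem ha hb)
    have h2 := hE2 a ha
    have h3 := hE2 b hb
    rw [pow_two] at h1 h2 h3
    calc a * b = a * (a * b * (a * b)) * b := by rw [h1]; group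
      _ = (a * a) * b * a * (b * b) := by group
      _ = b * a := by rw [h2, h3]; group
  have hss : s * s = 1 := by rw [← pow_two]; exact hs2
  have hsinv : s⁻¹ = s := by
    exact inv_eq_of_mul_eq_one_left hss
  let N : Subgroup X :=
    { carrier := {a | a ∈ E ∨ s * a ∈ E}
      one_mem' := Or.inl E.one_mem
      mul_mem' := by
        rintro a b (ha | ha) (hb | hb)
        · exact Or.inl (E.mul_mem ha hb)
        · right
          have : s * (a * b) = a * (s * b) := by
            rw [← mul_assoc, hsc a ha, mul_assoc]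
          rw [this]
          exact E.mul_mem ha hb
        · right
          rw [← mul_assoc]
          exact E.mul_mem ha hb
        · left
          have hab : a = s * (s * a) := by rw [← mul_assoc, hss, one_mul]
          have hbb : b = s * (s * b) := by rw [← mul_assoc, hss, one_mul]
          have : a * b = (s * a) * (s * b) := by
            have h3 := hsc _ ha
            calc a * b = (s * s) * a * b := by rw [hss, one_mul]
              _ = s * (s * a) * b := by group
              _ = (s * a) * s * b := by rw [h3]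
              _ = (s * a) * (s * b) := by group
          rw [this]
          exact E.mul_mem ha hb
      inv_mem' := by
        rintro a (ha | ha)
        · exact Or.inl (E.inv_mem ha)
        · right
          have h3 := hsc _ ha
          have : s * a⁻¹ = (s * a)⁻¹ := by
            rw [mul_inv_rev, hsinv]
            have hcomm : s * a = a * s := by
              have h4 : s * (s * a) = (s * a) * s := h3
              have h5 : a = (s * a) * s := by rw [← h4, ← mul_assoc, hss, one_mul]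
              calc s * a = s * ((s * a) * s) := by rw [← h5]
                _ = (s * s) * a * s := by group
                _ = a * s := by rw [hss, one_mul]
            calc s * a⁻¹ = a⁻¹ * (a * s) * a⁻¹ := by group
              _ = a⁻¹ * (s * a) * a⁻¹ := by rw [hcomm]
              _ = a⁻¹ * s := by group
          rw [this]
          exact E.inv_mem ha }
  have hNmem : ∀ a, a ∈ N ↔ (a ∈ E ∨ s * a ∈ E) := fun a => Iff.rfl
  have hform : ∀ a ∈ N, a ∈ E ∨ ∃ e ∈ E, a = s * e := by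
    rintro a (ha | ha)
    · exact Or.inl ha
    · right
      exact ⟨_, ha, by rw [← mul_assoc, hss, one_mul]⟩
  have hNn : N.Normal := by
    constructor
    intro a ha g
    rcases hform a ha with h | ⟨e, he, rfl⟩
    · exact Or.inl (hEn.conj_mem a h g)
    · right
      have h1 := hsx g
      rw [hsinv] at h1
      have h2 := hEn.conj_mem e he g
      have h3 : s * (g * (s * e) * g⁻¹) = (s * (g * s * g⁻¹) ) * (g * e * g⁻¹) := by group
      rw [h3]
      apply E.mul_mem _ h2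
      have h4 : s * (g * s * g⁻¹) = (g * s * g⁻¹ * s)⁻¹ := by
        rw [mul_inv_rev]
        have h5 : (g * s * g⁻¹)⁻¹ = g * s * g⁻¹ := by
          rw [mul_inv_rev, mul_inv_rev, hsinv, inv_inv]
          group
        rw [h5, hsinv]
      rw [h4]
      exact E.inv_mem h1
  have hNc : ∀ a ∈ N, ∀ b ∈ N, a * b = b * a := by
    intro a ha b hb
    rcases hform a ha with h | ⟨e, he, rfl⟩ <;> rcases hform b hb with h' | ⟨e', he', rfl⟩
    · exact hEc a h b h'
    · calc a * (s * e') = s * (a * e') := by rw [← mul_assoc, ← hsc a h, mul_assoc]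
        _ = s * (e' * a) := by rw [hEc a h e' he']
        _ = s * e' * a := by group
    · calc s * e * b = s * (e * b) := by group
        _ = s * (b * e) := by rw [hEc e he b h']
        _ = (s * b) * e := by group
        _ = b * (s * e) := by rw [hsc b h']; group
    · calc s * e * (s * e') = s * (e * s) * e' := by group
        _ = s * (s * e) * e' := by rw [hsc e he]
        _ = s * s * (e * e') := by group
        _ = s * s * (e' * e) := by rw [hEc e he e' he']
        _ = s * (s * e') * e := by group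
        _ = s * (e' * s) * e := by rw [hsc e' he']
        _ = s * e' * (s * e) := by group
  have hN2 : ∀ a ∈ N, a ^ 2 = 1 := by
    intro a ha
    rcases hform a ha with h | ⟨e, he, rfl⟩
    · exact hE2 a h
    · have h1 : Commute s e := hsc e he
      rw [h1.mul_pow, hs2, hE2 e he, one_mul]
  have h1 := hE8 N hNn hNc N le_rfl hN2
  have hle : E ≤ N := fun a ha => Or.inl ha
  have hlt : E < N := by
    refine lt_of_le_of_ne hle ?_
    intro h
    apply hsE
    rw [h]
    right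
    rw [hss]
    exact E.one_mem
  have h2 : Nat.card E < Nat.card N := by
    have := Subgroup.card_dvd_of_le hle
    obtain ⟨k, hk⟩ := this
    have hNpos : 0 < Nat.card N := Nat.card_pos
    have hk1 : k ≠ 1 := by
      rintro rfl
      apply hlt.ne
      apply Subgroup.eq_of_le_of_card_ge hle
      rw [hk, mul_one]
    have hk0 : k ≠ 0 := by
      rintro rfl
      omega
    have : 2 ≤ k := by omega
    nlinarith [Nat.card_pos (α := E)]
  omega

/-! ### Automorphisms -/

variable {H : Subgroup (MulAut X)}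

theorem hom_trivial {Y : Type*} [Group Y]
    (hXA : Subgroup.closure {g : X | ∃ φ ∈ H, ∃ x : X, g = x⁻¹ * φ x} = ⊤) (g : X →* Y)
    (hg : ∀ φ ∈ H, ∀ x, g (φ x) = g x) (x : X) : g x = 1 := by
  have h1 : Subgroup.closure {g : X | ∃ φ ∈ H, ∃ x : X, g = x⁻¹ * φ x} ≤ g.ker := by
    rw [Subgroup.closure_le]
    rintro _ ⟨φ, hφ, x, rfl⟩
    rw [SetLike.mem_coe, MonoidHom.mem_ker, map_mul, map_inv, hg φ hφ, inv_mul_cancel]
  rw [hXA] at h1
  exact h1 (Subgroup.mem_top x)

theorem top_of_mem (hXA : Subgroup.closure {g : X | ∃ φ ∈ H, ∃ x : X, g = x⁻¹ * φ x} = ⊤)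
    (M : Subgroup X) (hM : ∀ φ ∈ H, ∀ x, x⁻¹ * φ x ∈ M) : M = ⊤ := by
  rw [eq_top_iff, ← hXA, Subgroup.closure_le]
  rintro _ ⟨φ, hφ, x, rfl⟩
  exact hM φ hφ x

theorem central_of_fixed (hXA : Subgroup.closure {g : X | ∃ φ ∈ H, ∃ x : X, g = x⁻¹ * φ x} = ⊤)
    (K : Subgroup X) (hK : K.Normal) (hfix : ∀ φ ∈ H, ∀ k ∈ K, φ k = k) :
    ∀ k ∈ K, k ∈ Subgroup.center X := by
  have h1 : Subgroup.centralizer (K : Set X) = ⊤ := by
    apply top_of_mem hXA
    intro φ hφ x
    rw [Subgroup.mem_centralizer_iff]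
    intro k hk
    have h2 : x * k * x⁻¹ ∈ K := hK.conj_mem k hk x
    have h3 := hfix φ hφ _ h2
    have h4 := hfix φ hφ k hk
    rw [map_mul, map_mul, map_inv, h4] at h3
    -- φ x * k * (φ x)⁻¹ = x * k * x⁻¹
    have h5 : k * (x⁻¹ * φ x) = x⁻¹ * (x * k * x⁻¹) * φ x := by group
    have h6 : x⁻¹ * φ x * k = x⁻¹ * (φ x * k * (φ x)⁻¹) * φ x := by group
    rw [h6, h3, h5]
  intro k hk
  rw [Subgroup.mem_center_iff]
  intro g
  have h2 : g ∈ Subgroup.centralizer (K : Set X) := by rw [h1]; exact Subgroup.mem_top g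
  rw [Subgroup.mem_centralizer_iff] at h2
  exact (h2 k hk).symm

theorem orderOf_odd (hH : Odd (Nat.card H)) {φ : MulAut X} (hφ : φ ∈ H) : Odd (orderOf φ) := by
  have h1 : orderOf φ ∣ Nat.card H := by
    have := orderOf_dvd_natCard (⟨φ, hφ⟩ : H)
    rwa [Subgroup.orderOf_mk] at this
  exact hH.of_dvd_nat h1

/-- a coprime automorphism trivial on involutions of an abelian subgroup is trivial there. -/
theorem fixed_of_omega [Finite X] (hX : IsPGroup 2 X) (φ : MulAut X) (hφ : Odd (orderOf φ))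
    (N : Subgroup X) (hN : ∀ a ∈ N, ∀ b ∈ N, a * b = b * a) (hNφ : ∀ z ∈ N, φ z ∈ N)
    (hfix : ∀ z ∈ N, z ^ 2 = 1 → φ z = z) : ∀ z ∈ N, φ z = z := by
  haveI : Fact (Nat.Prime 2) := ⟨Nat.prime_two⟩
  have hcop : (orderOf φ).Coprime 2 := by
    exact Nat.coprime_two_right.2 hφ
  have key : ∀ k : ℕ, ∀ z ∈ N, z ^ (2 ^ k) = 1 → φ z = z := by
    intro k
    induction k with
    | zero =>
      intro z _ hz
      have : z = 1 := by simpa using hz
      rw [this, map_one]
    | succ k ih =>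
      intro z hz hzk
      have h2 : φ (z ^ 2) = z ^ 2 := by
        apply ih _ (N.pow_mem hz 2)
        rw [← pow_mul, ← pow_succ']
        exact hzk
      have hc : Commute z (φ z) := hN z hz _ (hNφ z hz)
      have h3 : (z⁻¹ * φ z) ^ 2 = 1 := by
        rw [(hc.inv_left).mul_pow, ← map_pow, h2, inv_pow]
        group
      have h4 : φ (z⁻¹ * φ z) = z⁻¹ * φ z :=
        hfix _ (N.mul_mem (N.inv_mem hz) (hNφ z hz)) h3
      have h5 := Cfsg.Agent.Lib.CritAut.fix_trick hX φ hcop z h4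
      have h6 : φ z = z := by
        have : z * (z⁻¹ * φ z) = z * 1 := by rw [h5]
        simpa using this
      exact h6
  intro z hz
  obtain ⟨k, hk⟩ := IsPGroup.iff_orderOf.1 hX z
  exact key k z hz (by rw [← hk]; exact pow_orderOf_eq_one z)

/-! ### Fixed-point-free action on a four-group -/

/-- `φ` acts on the elementary abelian subgroup `E` with orbits `{e, φ e, φ² e}`. -/
def Fpf (φ : MulAut X) (E : Subgroup X) : Prop := ∀ e ∈ E, e * φ e * φ (φ e) = 1

theorem odd_swap {φ : MulAut X} (hφ : Odd (orderOf φ)) {e : X} (h : φ (φ e) = e) : φ e = e := by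
  obtain ⟨m, hm⟩ := hφ
  have h1 : ∀ k : ℕ, (φ ^ (2 * k)) e = e := by
    intro k
    induction k with
    | zero => simp
    | succ k ih =>
      have : 2 * (k + 1) = 2 + 2 * k := by ring
      rw [this, pow_add, MulAut.mul_apply, ih, pow_two, MulAut.mul_apply, h]
  have h2 := pow_orderOf_eq_one φ
  rw [hm, pow_succ] at h2
  have h3 : (φ ^ (2 * m) * φ) e = e := by rw [h2]; rfl
  rw [MulAut.mul_apply] at h3
  have h4 := h1 m
  have h5 : (φ ^ (2 * m)) (φ e) = (φ ^ (2 * m)) e := by rw [h3, h4]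
  exact (MulEquiv.injective _) h5

/-- A four-group with a moved element and an odd automorphism. -/
theorem fpf_of_moved [Finite X] (φ : MulAut X) (hφ : Odd (orderOf φ)) (E : Subgroup X)
    (hE2 : ∀ a ∈ E, a ^ 2 = 1) (hE4 : Nat.card E ≤ 4) (hEφ : ∀ e ∈ E, φ e ∈ E) (e₀ : X) (he₀ : e₀ ∈ E)
    (hmv : φ e₀ ≠ e₀) : Nat.card E = 4 ∧ Fpf φ E := by
  classical
  have hEc : ∀ a ∈ E, ∀ b ∈ E, a * b = b * a := by
    intro a ha b hb
    have h1 : (a * b) ^ 2 = 1 := hE2 _ (E.mul_mem ha hb)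
    have h2 := hE2 a ha
    have h3 := hE2 b hb
    rw [pow_two] at h1 h2 h3
    calc a * b = a * (a * b * (a * b)) * b := by rw [h1]; group
      _ = (a * a) * b * a * (b * b) := by group
      _ = b * a := by rw [h2, h3]; group
  have hsq : ∀ a ∈ E, a * a = 1 := fun a ha => by rw [← pow_two]; exact hE2 a ha
  obtain ⟨e₁, he₁⟩ : ∃ e₁, e₁ = φ e₀ := ⟨_, rfl⟩
  have he₁E : e₁ ∈ E := he₁ ▸ hEφ e₀ he₀
  have h01 : e₀ ≠ 1 := by
    rintro rfl
    exact hmv (map_one φ)
  have h11 : e₁ ≠ 1 := by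
    rw [he₁]
    intro h
    exact h01 ((map_eq_one_iff φ φ.injective).1 h)
  have h0e1 : e₀ ≠ e₁ := by rw [he₁]; exact hmv.symm
  have h2E : e₀ * e₁ ∈ E := E.mul_mem he₀ he₁E
  have h21 : e₀ * e₁ ≠ 1 := by
    intro h
    apply h0e1
    have := hsq e₀ he₀
    exact mul_left_cancel (h.trans this.symm).symm
  have h20 : e₀ * e₁ ≠ e₀ := by
    intro h
    apply h11
    exact mul_left_cancel (h.trans (mul_one e₀).symm)
  have h2e1 : e₀ * e₁ ≠ e₁ := by
    intro h
    apply h01
    exact mul_right_cancel (h.trans (one_mul e₁).symm)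
  -- the four elements
  let s : Finset E := {⟨1, E.one_mem⟩, ⟨e₀, he₀⟩, ⟨e₁, he₁E⟩, ⟨e₀ * e₁, h2E⟩}
  have hs : s.card = 4 := by
    rw [Finset.card_insert_of_notMem, Finset.card_insert_of_notMem, Finset.card_insert_of_notMem,
      Finset.card_singleton]
    · simp only [Finset.mem_singleton, Subtype.mk.injEq]
      exact fun h => h2e1 h.symm
    · simp only [Finset.mem_insert, Finset.mem_singleton, Subtype.mk.injEq, not_or]
      exact ⟨h0e1, fun h => h20 h.symm⟩
    · simp only [Finset.mem_insert, Finset.mem_singleton, Subtype.mk.injEq, not_or]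
      exact ⟨fun h => h01 h.symm, fun h => h11 h.symm, fun h => h21 h.symm⟩
  haveI : Fintype E := Fintype.ofFinite E
  have hcard4 : Nat.card E = 4 := by
    apply le_antisymm hE4
    rw [Nat.card_eq_fintype_card, ← hs]
    exact Finset.card_le_univ s
  have hall : ∀ a ∈ E, a = 1 ∨ a = e₀ ∨ a = e₁ ∨ a = e₀ * e₁ := by
    intro a ha
    have h5 : s = Finset.univ := by
      apply Finset.eq_univ_of_card
      rw [hs, ← Nat.card_eq_fintype_card, hcard4]
    have h6 : (⟨a, ha⟩ : E) ∈ s := by rw [h5]; exact Finset.mem_univ _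
    simp only [s, Finset.mem_insert, Finset.mem_singleton, Subtype.mk.injEq] at h6
    exact h6
  -- `φ e₁ = e₀ * e₁`
  have hφ1 : φ e₁ = e₀ * e₁ := by
    rcases hall _ (hEφ e₁ he₁E) with h | h | h | h
    · exact absurd ((map_eq_one_iff φ φ.injective).1 h) h11
    · exfalso
      have h7 : φ (φ e₀) = e₀ := by rw [← he₁]; exact h
      exact hmv (odd_swap hφ h7)
    · exfalso
      have h7 : φ e₁ = φ e₀ := by rw [h, he₁]
      exact h0e1 (φ.injective h7).symm
    · exact h
  refine ⟨hcard4, ?_⟩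
  intro a ha
  have hφ2 : φ (e₀ * e₁) = e₀ := by
    rw [map_mul, ← he₁, hφ1]
    calc e₁ * (e₀ * e₁) = e₀ * (e₁ * e₁) := by
          rw [← mul_assoc, hEc e₁ he₁E e₀ he₀, mul_assoc]
      _ = e₀ := by rw [hsq e₁ he₁E, mul_one]
  rcases hall a ha with rfl | rfl | rfl | rfl
  · simp
  · rw [← he₁, hφ1]
    calc a * e₁ * (a * e₁) = (a * e₁) * (a * e₁) := rfl
      _ = 1 := hsq _ h2E
  · rw [hφ1, hφ2]
    calc a * (e₀ * a) * e₀ = a * (a * e₀) * e₀ := by rw [hEc a he₁E e₀ he₀]
      _ = (a * a) * (e₀ * e₀) := by group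
      _ = 1 := by rw [hsq a he₁E, hsq e₀ he₀, one_mul]
  · rw [hφ2, ← he₁]
    calc e₀ * e₁ * e₀ * e₁ = (e₀ * e₁) * (e₀ * e₁) := by group
      _ = 1 := hsq _ h2E

/-- Elementary consequences of `Fpf`. -/
theorem Fpf.ne_of_ne_one {φ : MulAut X} {E : Subgroup X} (h : Fpf φ E) (hE2 : ∀ a ∈ E, a ^ 2 = 1)
    {e : X} (he : e ∈ E) (h1 : e ≠ 1) : φ e ≠ e := by
  intro h2
  have h3 := h e he
  rw [h2, h2] at h3
  have h4 := hE2 e he
  rw [pow_two] at h4
  rw [h4, one_mul] at h3
  exact h1 h3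

theorem Fpf.cube {φ : MulAut X} {E : Subgroup X} (h : Fpf φ E) (hEφ : ∀ e ∈ E, φ e ∈ E) {e : X}
    (he : e ∈ E) : φ (φ (φ e)) = e := by
  have h3 := h e he
  have h4 := h _ (hEφ e he)
  have h5 : φ e * φ (φ e) = e⁻¹ := by
    rw [mul_assoc] at h3
    exact eq_inv_of_mul_eq_one_right h3
  rw [h5] at h4
  exact (inv_mul_eq_one.1 h4).symm

/-- The cases for a four-group with `Fpf`. -/
theorem Fpf.cases [Finite X] {φ : MulAut X} {E : Subgroup X} (h : Fpf φ E) (hE2 : ∀ a ∈ E, a ^ 2 = 1)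
    (hE4 : Nat.card E = 4) (hEφ : ∀ e ∈ E, φ e ∈ E) {e : X} (he : e ∈ E) (h1 : e ≠ 1) {a : X}
    (ha : a ∈ E) : a = 1 ∨ a = e ∨ a = φ e ∨ a = φ (φ e) := by
  classical
  have he1 : φ e ∈ E := hEφ e he
  have he2 : φ (φ e) ∈ E := hEφ _ he1
  have h11 : φ e ≠ 1 := fun h3 => h1 ((map_eq_one_iff φ φ.injective).1 h3)
  have h21 : φ (φ e) ≠ 1 := fun h3 => h11 ((map_eq_one_iff φ φ.injective).1 h3)
  have h01 : φ e ≠ e := h.ne_of_ne_one hE2 he h1
  have h12 : φ (φ e) ≠ φ e := h.ne_of_ne_one hE2 he1 h11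
  have h02 : φ (φ e) ≠ e := by
    intro h3
    have h4 := h.cube hEφ he
    rw [h3] at h4
    exact h01 h4
  let s : Finset E := {⟨1, E.one_mem⟩, ⟨e, he⟩, ⟨φ e, he1⟩, ⟨φ (φ e), he2⟩}
  have hs : s.card = 4 := by
    rw [Finset.card_insert_of_notMem, Finset.card_insert_of_notMem, Finset.card_insert_of_notMem,
      Finset.card_singleton]
    · simp only [Finset.mem_singleton, Subtype.mk.injEq]
      exact fun h => h12 h.symm
    · simp only [Finset.mem_insert, Finset.mem_singleton, Subtype.mk.injEq, not_or]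
      exact ⟨fun h => h01 h.symm, fun h => h02 h.symm⟩
    · simp only [Finset.mem_insert, Finset.mem_singleton, Subtype.mk.injEq, not_or]
      exact ⟨fun h => h1 h.symm, fun h => h11 h.symm, fun h => h21 h.symm⟩
  haveI : Fintype E := Fintype.ofFinite E
  have h5 : s = Finset.univ := by
    apply Finset.eq_univ_of_card
    rw [hs, ← Nat.card_eq_fintype_card, hE4]
  have h6 : (⟨a, ha⟩ : E) ∈ s := by rw [h5]; exact Finset.mem_univ _
  simp only [s, Finset.mem_insert, Finset.mem_singleton, Subtype.mk.injEq] at h6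
  exact h6

/-- An invariant subgroup meeting a four-group with `Fpf` contains it. -/
theorem Fpf.le_of_mem [Finite X] {φ : MulAut X} {E : Subgroup X} (h : Fpf φ E)
    (hE2 : ∀ a ∈ E, a ^ 2 = 1) (hE4 : Nat.card E = 4) (hEφ : ∀ e ∈ E, φ e ∈ E) (S : Subgroup X)
    (hS : ∀ z ∈ S, φ z ∈ S) {e : X} (he : e ∈ E) (h1 : e ≠ 1) (heS : e ∈ S) : E ≤ S := by
  intro a ha
  rcases h.cases hE2 hE4 hEφ he h1 ha with rfl | rfl | rfl | rfl
  · exact S.one_mem
  · exact heS
  · exact hS _ heS
  · exact hS _ (hS _ heS)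

/-- Every automorphism in `H` acts on a four-group with `Fpf` as a power of `φ`. -/
theorem Fpf.power_of [Finite X] (hH : Odd (Nat.card H)) {φ : MulAut X} (hφ : φ ∈ H) {E : Subgroup X}
    (h : Fpf φ E) (hE2 : ∀ a ∈ E, a ^ 2 = 1) (hE4 : Nat.card E = 4) (hEH : ∀ ψ ∈ H, ∀ e ∈ E, ψ e ∈ E)
    {ψ : MulAut X} (hψ : ψ ∈ H) :
    (∀ a ∈ E, ψ a = a) ∨ (∀ a ∈ E, ψ a = φ a) ∨ (∀ a ∈ E, ψ a = φ (φ a)) := by
  classical
  have hEφ := hEH φ hφ
  -- an element of `H` fixing a nontrivial element is trivial on `E`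
  have key : ∀ ρ ∈ H, ∀ e ∈ E, e ≠ 1 → ρ e = e → ∀ a ∈ E, ρ a = a := by
    intro ρ hρ e he h1 hfix
    by_contra hc
    push Not at hc
    obtain ⟨a, ha, hmv⟩ := hc
    have h2 := (fpf_of_moved ρ (orderOf_odd hH hρ) E hE2 hE4.le (hEH ρ hρ) a ha hmv).2
    exact h2.ne_of_ne_one hE2 he h1 hfix
  -- a nontrivial element of `E`
  obtain ⟨e, he, h1⟩ : ∃ e ∈ E, e ≠ 1 := by
    by_contra hc
    push Not at hc
    have : E = ⊥ := by
      rw [eq_bot_iff]
      intro a ha
      exact hc a ha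
    rw [this] at hE4
    simp at hE4
  rcases h.cases hE2 hE4 hEφ he h1 (hEH ψ hψ e he) with h2 | h2 | h2 | h2
  · exact absurd ((map_eq_one_iff ψ ψ.injective).1 h2) h1
  · left
    exact key ψ hψ e he h1 h2
  · right; left
    have h3 := key (φ⁻¹ * ψ) (H.mul_mem (H.inv_mem hφ) hψ) e he h1 (by
      rw [MulAut.mul_apply, h2]
      exact φ.symm_apply_apply e)
    intro a ha
    have h4 := h3 a ha
    rw [MulAut.mul_apply] at h4
    have h5 : ψ a = φ (φ⁻¹ (ψ a)) := (φ.apply_symm_apply _).symm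
    rw [h5, h4]
  · right; right
    have h3 := key (φ⁻¹ * (φ⁻¹ * ψ)) (H.mul_mem (H.inv_mem hφ) (H.mul_mem (H.inv_mem hφ) hψ)) e he h1 (by
      rw [MulAut.mul_apply, MulAut.mul_apply, h2]
      show φ.symm (φ.symm (φ (φ e))) = e
      simp)
    intro a ha
    have h4 := h3 a ha
    rw [MulAut.mul_apply, MulAut.mul_apply] at h4
    have h5 : ψ a = φ (φ⁻¹ (ψ a)) := (φ.apply_symm_apply _).symm
    have h6 : φ⁻¹ (ψ a) = φ (φ⁻¹ (φ⁻¹ (ψ a))) := (φ.apply_symm_apply _).symm
    rw [h5, h6, h4]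

/-- A nontrivial normal subgroup that has `Fpf` is central. -/
theorem Fpf.le_center [Finite X] (hX : IsPGroup 2 X) {φ : MulAut X} {E : Subgroup X} (h : Fpf φ E)
    (hE2 : ∀ a ∈ E, a ^ 2 = 1) (hE4 : Nat.card E = 4) (hEφ : ∀ e ∈ E, φ e ∈ E) (hn : E.Normal) :
    E ≤ Subgroup.center X := by
  haveI : Fact (Nat.Prime 2) := ⟨Nat.prime_two⟩
  have hne : E ≠ ⊥ := by
    rintro rfl
    simp at hE4
  obtain ⟨z, hzE, hz1, hzc⟩ := exists_central_of_normal hX E hn hne
  apply h.le_of_mem hE2 hE4 hEφ _ _ hzE hz1 hzc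
  intro a ha
  rw [Subgroup.mem_center_iff] at ha ⊢
  intro g
  have := ha (φ.symm g)
  have h2 := congrArg φ this
  simpa using h2

end Cfsg.Agent.Lib.SCN3Base
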