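import Mathlib

/-!
# Additive lemmas for 2-groups without normal E₈: the action on a homocyclic abelian group of rank 2
-/

set_option autoImplicit false
set_option linter.unusedSectionVars false
set_option linter.unusedVariables false

namespace Cfsg.Agent.Lib.SCN3Mod

variable {V : Type*} [AddCommGroup V]

/-- The two-torsion of `V` is a four-group on which `ω` acts fixed-point-freely. -/
structure Sett (ω : V →+ V) : Prop where
  fpf : ∀ e : V, 2 • e = 0 → e + ω e + ω (ω e) = 0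
  cases : ∀ e v : V, 2 • e = 0 → e ≠ 0 → 2 • v = 0 → v = 0 ∨ v = e ∨ v = ω e ∨ v = ω (ω e)

variable {ω : V →+ V}

theorem neg_of_two {a : V} (h : 2 • a = 0) : -a = a := by
  rw [two_nsmul] at h
  exact neg_eq_of_add_eq_zero_left h

theorem eq_of_two {a b : V} (h : 2 • a = 0) (h2 : a + b = 0) : b = a := by
  rw [two_nsmul] at h
  exact (neg_eq_of_add_eq_zero_right h2).symm.trans (neg_eq_of_add_eq_zero_left h)

theorem om_two (e : V) (h : 2 • e = 0) : 2 • ω e = 0 := by rw [← map_nsmul, h, map_zero]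

theorem Sett.cube (S : Sett ω) {e : V} (h : 2 • e = 0) : ω (ω (ω e)) = e := by
  have h1 := S.fpf e h
  have h2 := S.fpf (ω e) (om_two e h)
  have h3 : e = ω (ω (ω e)) := by
    have : e - ω (ω (ω e)) = (e + ω e + ω (ω e)) - (ω e + ω (ω e) + ω (ω (ω e))) := by abel
    rw [h1, h2, sub_zero] at this
    exact sub_eq_zero.1 this
  exact h3.symm

theorem Sett.sum (S : Sett ω) {f : V} (h : 2 • f = 0) : ω f + ω (ω f) = f := by
  have h1 := S.fpf f h
  have h2 : f + (ω f + ω (ω f)) = 0 := by rw [← add_assoc]; exact h1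
  exact eq_of_two h h2

theorem Sett.ne_zero (S : Sett ω) {e : V} (h : 2 • e = 0) (h0 : e ≠ 0) : ω e ≠ 0 := by
  intro h1
  have h2 := S.fpf e h
  rw [h1, map_zero, add_zero, add_zero] at h2
  exact h0 h2

/-- A "level" of `V`: `c` maps `A` onto the two-torsion and `δ` factors through `c`. -/
structure Lev (ω : V →+ V) (A : AddSubgroup V) (c δ : V →+ V) : Prop where
  hA : ∀ z ∈ A, ω z ∈ A
  hcE : ∀ z ∈ A, 2 • c z = 0
  hcS : ∀ e : V, 2 • e = 0 → ∃ z ∈ A, c z = e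
  hcω : ∀ z, c (ω z) = ω (c z)
  hδK : ∀ z ∈ A, c z = 0 → δ z = 0
  hδE : ∀ z ∈ A, 2 • δ z = 0

variable {A : AddSubgroup V} {c δ : V →+ V}

theorem Lev.eq_of_c (L : Lev ω A c δ) {u v : V} (hu : u ∈ A) (hv : v ∈ A) (h : c u = c v) :
    δ u = δ v := by
  have h1 : c (u - v) = 0 := by rw [map_sub, h, sub_self]
  have h2 := L.hδK _ (A.sub_mem hu hv) h1
  rw [map_sub] at h2
  exact sub_eq_zero.1 h2

theorem Lev.classes (S : Sett ω) (L : Lev ω A c δ) {z₀ : V} (hz₀ : z₀ ∈ A) (hc : c z₀ ≠ 0) {z : V}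
    (hz : z ∈ A) : (c z = 0 ∧ δ z = 0) ∨ (c z = c z₀ ∧ δ z = δ z₀) ∨
      (c z = c (ω z₀) ∧ δ z = δ (ω z₀)) ∨ (c z = c (ω (ω z₀)) ∧ δ z = δ (ω (ω z₀))) := by
  have hz1 : ω z₀ ∈ A := L.hA _ hz₀
  have hz2 : ω (ω z₀) ∈ A := L.hA _ hz1
  rcases S.cases (c z₀) (c z) (L.hcE _ hz₀) hc (L.hcE _ hz) with h | h | h | h
  · exact Or.inl ⟨h, L.hδK _ hz h⟩
  · exact Or.inr (Or.inl ⟨h, L.eq_of_c hz hz₀ h⟩)
  · have h3 : c z = c (ω z₀) := by rw [L.hcω, h]
    exact Or.inr (Or.inr (Or.inl ⟨h3, L.eq_of_c hz hz1 h3⟩))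
  · have h3 : c z = c (ω (ω z₀)) := by rw [L.hcω, L.hcω, h]
    exact Or.inr (Or.inr (Or.inr ⟨h3, L.eq_of_c hz hz2 h3⟩))

theorem Lev.rel (S : Sett ω) (L : Lev ω A c δ) {z₀ : V} (hz₀ : z₀ ∈ A) :
    δ z₀ + δ (ω z₀) + δ (ω (ω z₀)) = 0 := by
  have hz1 : ω z₀ ∈ A := L.hA _ hz₀
  have hz2 : ω (ω z₀) ∈ A := L.hA _ hz1
  have h1 : c (z₀ + ω z₀ + ω (ω z₀)) = 0 := by
    simp only [map_add, L.hcω]
    exact S.fpf _ (L.hcE _ hz₀)
  have h2 := L.hδK _ (A.add_mem (A.add_mem hz₀ hz1) hz2) h1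
  rwa [map_add, map_add] at h2

/-- If `F(δ) = 0` then `δ = 0` or `δ` has kernel exactly that of `c`. -/
theorem Lev.dich (S : Sett ω) (L : Lev ω A c δ)
    (hF : ∀ z ∈ A, δ z + ω (δ (ω (ω z))) + ω (ω (δ (ω z))) = 0) :
    (∀ z ∈ A, δ z = 0) ∨ (∀ z ∈ A, δ z = 0 → c z = 0) := by
  by_contra hc
  push Not at hc
  obtain ⟨⟨z₁, hz₁, hne⟩, z₀, hz₀, h0, hc0⟩ := hc
  have hz1 : ω z₀ ∈ A := L.hA _ hz₀
  have hz2 : ω (ω z₀) ∈ A := L.hA _ hz1
  have hf2 : 2 • δ (ω z₀) = 0 := L.hδE _ hz1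
  have h2 : δ (ω (ω z₀)) = δ (ω z₀) := by
    have h3 := L.rel S hz₀
    rw [h0, zero_add] at h3
    exact eq_of_two hf2 h3
  have h4 := hF z₀ hz₀
  rw [h0, zero_add, h2, S.sum hf2] at h4
  rcases L.classes S hz₀ hc0 hz₁ with h | h | h | h
  · exact hne h.2
  · exact hne (h.2.trans h0)
  · exact hne (h.2.trans h4)
  · exact hne (h.2.trans (h2.trans h4))

/-- If `δ ≠ 0` has kernel bigger than that of `c`, then `δ + ω δ ω²` has kernel that of `c`. -/
theorem Lev.dbl (S : Sett ω) (L : Lev ω A c δ) {z₀ z₁ : V} (hz₀ : z₀ ∈ A) (hc0 : c z₀ ≠ 0)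
    (h0 : δ z₀ = 0) (hz₁ : z₁ ∈ A) (hne : δ z₁ ≠ 0) :
    ∀ z ∈ A, δ z + ω (δ (ω (ω z))) = 0 → c z = 0 := by
  have hz1 : ω z₀ ∈ A := L.hA _ hz₀
  have hz2 : ω (ω z₀) ∈ A := L.hA _ hz1
  have hf2 : 2 • δ (ω z₀) = 0 := L.hδE _ hz1
  have h2 : δ (ω (ω z₀)) = δ (ω z₀) := by
    have h3 := L.rel S hz₀
    rw [h0, zero_add] at h3
    exact eq_of_two hf2 h3
  have hf0 : δ (ω z₀) ≠ 0 := by
    intro hf
    rcases L.classes S hz₀ hc0 hz₁ with h | h | h | h
    · exact hne h.2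
    · exact hne (h.2.trans h0)
    · exact hne (h.2.trans hf)
    · exact hne (h.2.trans (h2.trans hf))
  have hE0 : 2 • c z₀ = 0 := L.hcE _ hz₀
  intro z hz heq
  have hzz : ω (ω z) ∈ A := L.hA _ (L.hA _ hz)
  by_contra hcz
  rcases L.classes S hz₀ hc0 hz with h | h | h | h
  · exact hcz h.1
  · -- `c z = c z₀`
    have h3 : δ (ω (ω z)) = δ (ω (ω z₀)) := by
      apply L.eq_of_c hzz hz2
      rw [L.hcω, L.hcω, L.hcω, L.hcω, h.1]
    rw [h.2, h0, zero_add, h3, h2] at heq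
    have h5 := S.ne_zero hf2 hf0
    exact h5 heq
  · have h3 : δ (ω (ω z)) = δ z₀ := by
      apply L.eq_of_c hzz hz₀
      rw [L.hcω, L.hcω, h.1, L.hcω]
      exact S.cube hE0
    rw [h.2, h3, h0, map_zero, add_zero] at heq
    exact hf0 heq
  · have h3 : δ (ω (ω z)) = δ (ω z₀) := by
      apply L.eq_of_c hzz hz1
      rw [L.hcω, L.hcω, h.1, L.hcω, L.hcω]
      exact congrArg ω (S.cube hE0)
    rw [h.2, h3, h2] at heq
    -- `f + ω f = 0` so `ω ω f = 0`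
    have h5 := S.fpf _ hf2
    rw [heq, zero_add] at h5
    exact S.ne_zero (om_two _ hf2) (S.ne_zero hf2 hf0) h5

/-! ### Elements of order `4` -/

/-- The subgroup of elements killed by `4`. -/
def om2 (V : Type*) [AddCommGroup V] : AddSubgroup V where
  carrier := {z | 4 • z = 0}
  zero_mem' := by simp
  add_mem' := by
    intro a b ha hb
    simp only [Set.mem_ofPred_eq] at ha hb ⊢
    rw [nsmul_add, ha, hb, add_zero]
  neg_mem' := by
    intro a ha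
    simp only [Set.mem_ofPred_eq] at ha ⊢
    rw [smul_neg, ha, neg_zero]

theorem mem_om2 {z : V} : z ∈ om2 V ↔ 4 • z = 0 := Iff.rfl

theorem om2_two {z : V} (h : z ∈ om2 V) : 2 • (2 • z) = 0 := by
  rw [← mul_nsmul]; exact h

/-- The map `z ↦ 2 z` as a homomorphism. -/
def dbl2 (V : Type*) [AddCommGroup V] : V →+ V := nsmulAddMonoidHom 2

@[simp] theorem dbl2_apply (z : V) : dbl2 V z = 2 • z := rfl

/-- The level of `V` at `Ω₂`. -/
theorem lev_om2 (hS : ∀ e : V, 2 • e = 0 → ∃ z, 4 • z = 0 ∧ 2 • z = e) (d : V →+ V)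
    (hd : ∀ e : V, 2 • e = 0 → d e = 0) : Lev ω (om2 V) (dbl2 V) d where
  hA := by
    intro z hz
    rw [mem_om2] at hz ⊢
    rw [← map_nsmul, hz, map_zero]
  hcE := by
    intro z hz
    exact om2_two hz
  hcS := by
    intro e he
    obtain ⟨z, h1, h2⟩ := hS e he
    exact ⟨z, h1, h2⟩
  hcω := by intro z; simp
  hδK := by
    intro z hz h
    exact hd z h
  hδE := by
    intro z hz
    rw [← map_nsmul]
    exact hd _ (om2_two hz)

/-- With `δ² = -2 δ`, the case where `δ` has kernel `E` on `Ω₂` is impossible if `E ≤ 4 V`. -/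
theorem no_id (S : Sett ω) {d : V →+ V} (hd2 : ∀ z, d (d z) = -(2 • d z))
    (hdE : ∀ e : V, 2 • e = 0 → d e = 0)
    (hF : ∀ z ∈ om2 V, d z + ω (d (ω (ω z))) + ω (ω (d (ω z))) = 0)
    (hs : ∀ e : V, 2 • e = 0 → ∃ z, 4 • z = e)
    (hD : ∀ z ∈ om2 V, d z = 0 → 2 • z = 0) {e : V} (he : 2 • e = 0) (he0 : e ≠ 0) : False := by
  -- for each nonzero two-torsion element a witness `w`
  have key : ∀ e' : V, 2 • e' = 0 → e' ≠ 0 → ∃ w, w ∈ om2 V ∧ 2 • w = e' ∧ d w = e' := by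
    intro e' he' he0'
    obtain ⟨z₃, hz₃⟩ := hs e' he'
    have hw2 : 2 • (2 • z₃) = e' := by rw [← mul_nsmul]; exact hz₃
    have hw4 : 2 • z₃ ∈ om2 V := by
      have : 4 • (2 • z₃) = 2 • (4 • z₃) := by rw [← mul_nsmul, ← mul_nsmul]
      rw [mem_om2, this, hz₃]
      exact he'
    have hfE : 2 • d (2 • z₃) = 0 := by
      rw [← map_nsmul, hw2]
      exact hdE _ he'
    have h1 : 2 • d z₃ = d (2 • z₃) := (map_nsmul d 2 z₃).symm
    have h2 : d (d z₃) = d (2 • z₃) := by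
      rw [hd2, h1]
      exact neg_of_two hfE
    have h4 : d z₃ ∈ om2 V := by
      rw [mem_om2, show 4 = 2 * 2 from rfl, mul_nsmul, h1]
      exact hfE
    have h5 : d (2 • z₃ - d z₃) = 0 := by rw [map_sub, h2, sub_self]
    have h6 := hD _ ((om2 V).sub_mem hw4 h4) h5
    have h7 : 2 • (2 • z₃) = 2 • d z₃ := by
      rw [nsmul_sub] at h6
      exact sub_eq_zero.1 h6
    refine ⟨2 • z₃, hw4, hw2, ?_⟩
    rw [← h1, ← h7, hw2]
  obtain ⟨w, hw, hw2, hdw⟩ := key e he he0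
  have all : ∀ v ∈ om2 V, d v = 2 • v := by
    intro v hv
    by_cases h0 : 2 • v = 0
    · rw [h0]
      exact hdE v h0
    · obtain ⟨w', hw', hw2', hdw'⟩ := key _ (om2_two hv) h0
      have h1 : 2 • (v - w') = 0 := by rw [nsmul_sub, hw2', sub_self]
      have h2 := hdE _ h1
      rw [map_sub] at h2
      rw [sub_eq_zero.1 h2, hdw']
  have hw1 : ω w ∈ om2 V := by
    rw [mem_om2] at hw ⊢
    rw [← map_nsmul, hw, map_zero]
  have hw2' : ω (ω w) ∈ om2 V := by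
    rw [mem_om2] at hw1 ⊢
    rw [← map_nsmul, hw1, map_zero]
  have h3 := hF w hw
  have h5 : 2 • ω (ω (ω w)) = e := by
    rw [← map_nsmul, ← map_nsmul, ← map_nsmul, hw2]
    exact S.cube he
  rw [all _ hw, all _ hw1, all _ hw2'] at h3
  simp only [map_nsmul] at h3
  rw [h5, hw2] at h3
  have h4 : e + e + e = e := by
    have h5 : e + e = 0 := by rw [← two_nsmul]; exact he
    rw [h5, zero_add]
  rw [h4] at h3
  exact he0 h3

/-- Descending induction: `δ² = -2 δ` and `δ` kills `Ω₂`: then `δ` kills `2 V`. -/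
theorem kill2 {d : V →+ V} {N : ℕ} (hN : ∀ z : V, 2 ^ N • z = 0) (hd2 : ∀ z, d (d z) = -(2 • d z))
    (hΩ : ∀ z ∈ om2 V, d z = 0) : ∀ z, d (2 • z) = 0 := by
  have key : ∀ m k : ℕ, N ≤ k + m → ∀ z : V, d (2 ^ (k + 1) • z) = 0 := by
    intro m
    induction m with
    | zero =>
      intro k hk z
      have h1 : 2 ^ (k + 1) = 2 ^ (k + 1 - N) * 2 ^ N := by
        rw [← pow_add]
        congr 1
        omega
      have h6 : 2 ^ (k + 1) • z = 2 ^ (k + 1 - N) • (2 ^ N • z) := by rw [← mul_nsmul, h1, mul_comm]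
      rw [h6, hN]
      simp
    | succ m ih =>
      intro k hk z
      have h1 := ih (k + 1) (by omega) z
      have h2 : 2 ^ (k + 1) • z = 2 • (2 ^ k • z) := by
        rw [← mul_nsmul, pow_succ]
      have h3 : 2 ^ (k + 1 + 1) • z = 2 • (2 ^ (k + 1) • z) := by
        rw [← mul_nsmul, pow_succ 2 (k + 1)]
      rw [h3, map_nsmul] at h1
      obtain ⟨z₀, hz₀⟩ : ∃ z₀, z₀ = 2 ^ k • z := ⟨_, rfl⟩
      rw [h2, ← hz₀] at h1 ⊢
      have h4 : d z₀ ∈ om2 V := by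
        rw [mem_om2, show 4 = 2 * 2 from rfl, mul_nsmul, ← map_nsmul]
        exact h1
      have h5 := hΩ _ h4
      rw [hd2, neg_eq_zero, ← map_nsmul] at h5
      exact h5
  intro z
  have := key N 0 (by omega) z
  simpa using this

/-- Counting: kernel and range. -/
theorem card_ker_mul_range [Finite V] (f : V →+ V) :
    Nat.card f.ker * Nat.card f.range = Nat.card V := by
  have h1 := AddSubgroup.card_mul_index f.ker
  rwa [AddSubgroup.index_ker] at h1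

/-- The map `ψ = 2 + δ` has kernel `E` and image `2 V`. -/
theorem psi_ker {d : V →+ V} (hk : ∀ z, d (2 • z) = 0) (hΩ2 : ∀ z : V, 4 • z = 0 → ∃ w, z = 2 • w) {z : V}
    (h : 2 • z + d z = 0) : 2 • z = 0 := by
  have h1 : 2 • d z = 0 := by rw [← map_nsmul]; exact hk z
  have h2 : 4 • z = 0 := by
    have : 4 • z = 2 • (2 • z + d z) - 2 • d z := by
      rw [nsmul_add, ← mul_nsmul]; simp
    rw [this, h, h1]
    simp
  obtain ⟨w, rfl⟩ := hΩ2 z h2
  rw [hk w, add_zero] at h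
  exact h

theorem psi_surj [Finite V] {d : V →+ V} (hk : ∀ z, d (2 • z) = 0)
    (hΩ2 : ∀ z : V, 4 • z = 0 → ∃ w, z = 2 • w) {a w : V} (ha : a = 2 • w) :
    ∃ z₀, a + d z₀ + 2 • z₀ = 0 := by
  let ψ : V →+ V := dbl2 V + d
  have hψ : ∀ z, ψ z = 2 • z + d z := fun z => rfl
  have hkk : ψ.ker = (dbl2 V).ker := by
    ext z
    rw [AddMonoidHom.mem_ker, AddMonoidHom.mem_ker, hψ, dbl2_apply]
    constructor
    · exact psi_ker hk hΩ2
    · intro h
      have h2 : 4 • z = 0 := by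
        rw [show 4 = 2 * 2 from rfl, mul_nsmul, h, smul_zero]
      obtain ⟨w, rfl⟩ := hΩ2 z h2
      rw [hk w, add_zero]
      exact h
  have hle : ψ.range ≤ (dbl2 V).range := by
    rintro _ ⟨z, rfl⟩
    rw [hψ]
    have h1 : 4 • d z = 0 := by
      rw [show 4 = 2 * 2 from rfl, mul_nsmul, ← map_nsmul, hk z, smul_zero]
    obtain ⟨w, hw⟩ := hΩ2 _ h1
    refine ⟨z + w, ?_⟩
    rw [map_add, dbl2_apply, dbl2_apply, hw]
  have hcard : Nat.card ψ.range = Nat.card (dbl2 V).range := by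
    have h1 := card_ker_mul_range ψ
    have h2 := card_ker_mul_range (dbl2 V)
    rw [hkk] at h1
    have hpos : 0 < Nat.card (dbl2 V).ker := Nat.card_pos
    exact Nat.eq_of_mul_eq_mul_left hpos (h1.trans h2.symm)
  have heq : ψ.range = (dbl2 V).range :=
    AddSubgroup.eq_of_le_of_card_ge hle hcard.ge
  have hmem : a ∈ ψ.range := by
    rw [heq]
    exact ⟨w, by rw [ha]; rfl⟩
  obtain ⟨z, hz⟩ := hmem
  refine ⟨-z, ?_⟩
  rw [hψ] at hz
  rw [map_neg, smul_neg, ← hz]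
  abel

/-! ### Invariance of `F` -/

theorem om_mem {z : V} (hz : z ∈ om2 V) : ω z ∈ om2 V := by
  rw [mem_om2] at hz ⊢
  rw [← map_nsmul, hz, map_zero]

theorem d_cube (S : Sett ω) {d : V →+ V} (hdE : ∀ e : V, 2 • e = 0 → d e = 0) {v : V}
    (hv : v ∈ om2 V) : d (ω (ω (ω v))) = d v := by
  have h1 : 2 • (ω (ω (ω v)) - v) = 0 := by
    rw [nsmul_sub, ← map_nsmul, ← map_nsmul, ← map_nsmul, S.cube (om2_two hv), sub_self]
  have h2 := hdE _ h1
  rw [map_sub] at h2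
  exact sub_eq_zero.1 h2

/-- The operator `F` is invariant. -/
theorem F_inv (S : Sett ω) {d d' : V →+ V} (hdE : ∀ e : V, 2 • e = 0 → d e = 0)
    (hdΩ : ∀ z ∈ om2 V, 2 • d z = 0)
    (h : (∀ u ∈ om2 V, d' u = d u) ∨ (∀ u ∈ om2 V, d' u = ω (d (ω (ω u)))) ∨
      (∀ u ∈ om2 V, d' u = ω (ω (d (ω u))))) {v : V} (hv : v ∈ om2 V) :
    d' v + ω (d' (ω (ω v))) + ω (ω (d' (ω v))) = d v + ω (d (ω (ω v))) + ω (ω (d (ω v))) := by
  have hv1 : ω v ∈ om2 V := om_mem hv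
  have hv2 : ω (ω v) ∈ om2 V := om_mem hv1
  rcases h with h | h | h
  · rw [h v hv, h _ hv1, h _ hv2]
  · rw [h v hv, h _ hv1, h _ hv2]
    have h1 : d (ω (ω (ω (ω (ω v))))) = d (ω (ω v)) := d_cube S hdE hv2
    have h1' : d (ω (ω (ω (ω v)))) = d (ω v) := d_cube S hdE hv1
    have h2 : d (ω (ω (ω v))) = d v := d_cube S hdE hv
    rw [h1', h2, S.cube (hdΩ v hv)]
    abel
  · rw [h v hv, h _ hv1, h _ hv2]
    have h1 : d (ω (ω (ω (ω v)))) = d (ω v) := d_cube S hdE hv1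
    have h2 : d (ω (ω (ω v))) = d v := d_cube S hdE hv
    rw [h2, S.cube (hdΩ v hv), S.cube (hdΩ _ hv2)]
    abel

/-- Structure of `V` when it has exponent at least `8`. -/
theorem homocyclic [Finite V] (S : Sett ω) {N : ℕ} (hN : ∀ z : V, 2 ^ N • z = 0)
    (hne : ∃ z : V, 4 • z ≠ 0) :
    (∀ e : V, 2 • e = 0 → ∃ z, 4 • z = e) ∧ (∀ z : V, 4 • z = 0 → ∃ w, z = 2 • w) ∧
      ∃ c : V →+ V, (∀ z, c (ω z) = ω (c z)) ∧ (∀ z, 2 • c z = 0) ∧
        (∀ e : V, 2 • e = 0 → ∃ z, c z = e) ∧ (∀ z, c z = 0 ↔ ∃ w, z = 2 • w) ∧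
        ∃ z₁, c z₁ ≠ 0 := by
  classical
  have hex : ∃ n : ℕ, ∀ z : V, 2 ^ n • z = 0 := ⟨N, hN⟩
  obtain ⟨n, hn⟩ : ∃ n, n = Nat.find hex := ⟨_, rfl⟩
  have hn1 : ∀ z : V, 2 ^ n • z = 0 := by rw [hn]; exact Nat.find_spec hex
  have hn2 : ∀ m < n, ∃ z : V, 2 ^ m • z ≠ 0 := by
    intro m hm
    have := Nat.find_min hex (m := m) (by rw [← hn]; exact hm)
    push Not at this
    exact this
  have hn3 : 3 ≤ n := by
    by_contra hlt
    obtain ⟨z, hz⟩ := hne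
    apply hz
    have h1 : 4 = 2 ^ (2 - n) * 2 ^ n := by
      rw [← pow_add, show 2 - n + n = 2 by omega]; rfl
    rw [h1, mul_comm, mul_nsmul, hn1, smul_zero]
  obtain ⟨k, rfl⟩ : ∃ k, n = k + 3 := ⟨n - 3, by omega⟩
  obtain ⟨z₁, hz₁⟩ := hn2 (k + 2) (by omega)
  let c : V →+ V := (2 ^ (k + 2)) • AddMonoidHom.id V
  have hc : ∀ z, c z = 2 ^ (k + 2) • z := fun z => rfl
  have hcω : ∀ z, c (ω z) = ω (c z) := by
    intro z
    rw [hc, hc, map_nsmul]
  have hc2 : ∀ z, 2 • c z = 0 := by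
    intro z
    rw [hc, ← mul_nsmul, mul_comm, ← pow_succ', show k + 2 + 1 = k + 3 from rfl, hn1]
  have hcS : ∀ e : V, 2 • e = 0 → ∃ z, c z = e := by
    intro e he
    rcases S.cases (c z₁) e (hc2 _) (by rw [hc]; exact hz₁) he with h | h | h | h
    · exact ⟨0, by rw [map_zero, h]⟩
    · exact ⟨z₁, h.symm⟩
    · exact ⟨ω z₁, by rw [hcω, h]⟩
    · exact ⟨ω (ω z₁), by rw [hcω, hcω, h]⟩
  have hc4 : ∀ z, c z = 4 • (2 ^ k • z) := by
    intro z
    rw [hc, ← mul_nsmul]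
    congr 1
    rw [pow_add]
    ring
  have h4 : ∀ e : V, 2 • e = 0 → ∃ z, 4 • z = e := by
    intro e he
    obtain ⟨z, hz⟩ := hcS e he
    exact ⟨2 ^ k • z, by rw [← hc4, hz]⟩
  have h2 : ∀ z : V, 4 • z = 0 → ∃ w, z = 2 • w := by
    intro z hz
    obtain ⟨w, hw⟩ := h4 (2 • z) (by rw [← mul_nsmul]; exact hz)
    have h3 : 2 • (z - 2 • w) = 0 := by
      have : 2 • (2 • w) = 4 • w := by rw [← mul_nsmul]
      rw [nsmul_sub, this, hw, sub_self]
    obtain ⟨w', hw'⟩ := h4 _ h3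
    refine ⟨w + 2 • w', ?_⟩
    have h5 : 2 • (2 • w') = 4 • w' := by rw [← mul_nsmul]
    rw [nsmul_add, h5, hw']
    abel
  refine ⟨h4, h2, c, hcω, hc2, hcS, ?_, z₁, hz₁⟩
  have hle : (dbl2 V).range ≤ c.ker := by
    rintro _ ⟨w, rfl⟩
    rw [AddMonoidHom.mem_ker, dbl2_apply, map_nsmul]
    exact hc2 w
  have hcard : Nat.card c.ker = Nat.card (dbl2 V).range := by
    have h5 : c.range = (dbl2 V).ker := by
      ext e
      rw [AddMonoidHom.mem_ker, dbl2_apply]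
      constructor
      · rintro ⟨z, rfl⟩
        exact hc2 z
      · intro he
        obtain ⟨z, hz⟩ := hcS e he
        exact ⟨z, hz⟩
    have h6 := card_ker_mul_range c
    have h7 := card_ker_mul_range (dbl2 V)
    rw [h5] at h6
    have hpos : 0 < Nat.card (dbl2 V).ker := Nat.card_pos
    rw [mul_comm (Nat.card c.ker)] at h6
    exact Nat.eq_of_mul_eq_mul_left hpos (h6.trans h7.symm)
  have heq : (dbl2 V).range = c.ker := AddSubgroup.eq_of_le_of_card_ge hle hcard.le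
  intro z
  constructor
  · intro hz
    have : z ∈ (dbl2 V).range := by rw [heq]; exact hz
    obtain ⟨w, hw⟩ := this
    exact ⟨w, hw.symm⟩
  · rintro ⟨w, rfl⟩
    have : 2 • w ∈ c.ker := by rw [← heq]; exact ⟨w, rfl⟩
    exact this

end Cfsg.Agent.Lib.SCN3Mod
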