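import Mathlib
import Cfsg.Agent.Lib.SCN3Base
import Cfsg.Agent.Lib.SCN3Mod

/-!
# A self-centralizing normal abelian subgroup of exponent at least 4 with fixed-point-free action
-/

set_option autoImplicit false
set_option linter.unusedSectionVars false
set_option linter.unusedVariables false
set_option linter.style.haveILetI false

universe u v

namespace Cfsg.Agent.Lib.SCN3Act

open Cfsg.Agent.Lib.SCN3Base Cfsg.Agent.Lib.SCN3Mod

variable {X : Type u} [Group X] {V : Type v} [AddCommGroup V]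

/-- `V` is an additive model of the abelian subgroup `Z`. -/
structure Emb (ι : V → X) (Z : Subgroup X) : Prop where
  add : ∀ u v, ι (u + v) = ι u * ι v
  inj : Function.Injective ι
  range : ∀ z, z ∈ Z ↔ ∃ v, ι v = z

variable {ι : V → X} {Z : Subgroup X} (h : Emb ι Z)
include h

theorem Emb.zero : ι 0 = 1 := by
  have := h.add 0 0
  rw [add_zero] at this
  exact (left_eq_mul.1 this)

theorem Emb.mem (v : V) : ι v ∈ Z := (h.range _).2 ⟨v, rfl⟩

theorem Emb.neg (v : V) : ι (-v) = (ι v)⁻¹ := by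
  have := h.add (-v) v
  rw [neg_add_cancel, h.zero] at this
  exact eq_inv_of_mul_eq_one_left this.symm

theorem Emb.sub (u v : V) : ι (u - v) = ι u * (ι v)⁻¹ := by
  rw [sub_eq_add_neg, h.add, h.neg]

theorem Emb.nsmul (n : ℕ) (v : V) : ι (n • v) = ι v ^ n := by
  induction n with
  | zero => simp [h.zero]
  | succ n ih => rw [succ_nsmul, h.add, ih, pow_succ]

theorem Emb.comm (a b : V) : ι a * ι b = ι b * ι a := by
  rw [← h.add, ← h.add, add_comm]

/-- The underlying function of `lift`. -/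
noncomputable def liftFun (f : X →* X) (hf : ∀ z ∈ Z, f z ∈ Z) (v : V) : V :=
  Classical.choose ((h.range _).1 (hf _ (h.mem v)))

theorem liftFun_spec (f : X →* X) (hf : ∀ z ∈ Z, f z ∈ Z) (v : V) : ι (liftFun h f hf v) = f (ι v) :=
  Classical.choose_spec ((h.range _).1 (hf _ (h.mem v)))

/-- Lifting an endomorphism preserving `Z` to `V`. -/
noncomputable def lift (f : X →* X) (hf : ∀ z ∈ Z, f z ∈ Z) : V →+ V :=
  AddMonoidHom.mk' (liftFun h f hf) (by
    intro a b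
    apply h.inj
    rw [h.add, liftFun_spec h, liftFun_spec h, liftFun_spec h, h.add, map_mul])

theorem lift_spec (f : X →* X) (hf : ∀ z ∈ Z, f z ∈ Z) (v : V) : ι (lift h f hf v) = f (ι v) :=
  liftFun_spec h f hf v

variable (hn : Z.Normal)

/-- Conjugation by `x` on `V`. -/
noncomputable def T (x : X) : V →+ V :=
  lift h (MulAut.conj x).toMonoidHom (fun z hz => hn.conj_mem z hz x)

theorem T_spec (x : X) (v : V) : ι (T h hn x v) = x * ι v * x⁻¹ := by
  exact lift_spec h (MulAut.conj x).toMonoidHom (fun z hz => hn.conj_mem z hz x) v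

/-- The commutator with `x` on `V`. -/
noncomputable def D (x : X) : V →+ V := T h hn x - AddMonoidHom.id V

theorem D_apply (x : X) (v : V) : D h hn x v = T h hn x v - v := rfl

theorem T_eq (x : X) (v : V) : T h hn x v = D h hn x v + v := by
  rw [D_apply]; abel

theorem D_spec (x : X) (v : V) : ι (D h hn x v) = x * ι v * x⁻¹ * (ι v)⁻¹ := by
  rw [D_apply, h.sub, T_spec h hn]

theorem T_mul (x y : X) (v : V) : T h hn (x * y) v = T h hn x (T h hn y v) := by
  apply h.inj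
  rw [T_spec h hn, T_spec h hn, T_spec h hn]
  group

theorem D_mul (x y : X) (v : V) : D h hn (x * y) v = T h hn x (D h hn y v) + D h hn x v := by
  simp only [D_apply, T_mul, map_sub]
  abel

theorem D_eq_zero_iff (x : X) (v : V) : D h hn x v = 0 ↔ x * ι v = ι v * x := by
  constructor
  · intro h0
    have h1 := D_spec h hn x v
    rw [h0, h.zero] at h1
    have h2 : x * ι v * x⁻¹ = ι v := by
      have := eq_of_mul_inv_eq_one h1.symm
      exact this
    calc x * ι v = (x * ι v * x⁻¹) * x := by group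
      _ = ι v * x := by rw [h2]
  · intro h0
    apply h.inj
    rw [D_spec h hn, h.zero, h0]
    group

theorem T_central {x : X} {v : V} (hv : ι v ∈ Subgroup.center X) : T h hn x v = v := by
  apply h.inj
  rw [T_spec h hn]
  have := Subgroup.mem_center_iff.1 hv x
  rw [this]
  group

theorem D_central {x : X} {v : V} (hv : ι v ∈ Subgroup.center X) : D h hn x v = 0 := by
  rw [D_apply, T_central h hn hv, sub_self]

/-- An automorphism on `V`. -/
noncomputable def W (ψ : MulAut X) (hψ : ∀ z ∈ Z, ψ z ∈ Z) : V →+ V :=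
  lift h ψ.toMonoidHom hψ

theorem W_spec (ψ : MulAut X) (hψ : ∀ z ∈ Z, ψ z ∈ Z) (v : V) : ι (W h ψ hψ v) = ψ (ι v) :=
  lift_spec h ψ.toMonoidHom hψ v

theorem W_D (ψ : MulAut X) (hψ : ∀ z ∈ Z, ψ z ∈ Z) (x : X) (v : V) :
    W h ψ hψ (D h hn x v) = D h hn (ψ x) (W h ψ hψ v) := by
  apply h.inj
  rw [W_spec h, D_spec h hn, D_spec h hn, W_spec h]
  simp

theorem W_W (ψ ψ' : MulAut X) (hψ : ∀ z ∈ Z, ψ z ∈ Z) (hψ' : ∀ z ∈ Z, ψ' z ∈ Z) (hh : ψ * ψ' = 1)
    (v : V) : W h ψ hψ (W h ψ' hψ' v) = v := by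
  apply h.inj
  rw [W_spec h, W_spec h, ← MulAut.mul_apply, hh]
  rfl

/-! ### The main analysis -/

section main

variable [Finite X] [Finite V] {H : Subgroup (MulAut X)} {φ : MulAut X}
  (hXA : Subgroup.closure {g : X | ∃ φ ∈ H, ∃ x : X, g = x⁻¹ * φ x} = ⊤)
  (hZH : ∀ ψ ∈ H, ∀ z ∈ Z, ψ z ∈ Z) (hφ : φ ∈ H)
  (hcen : ∀ e : V, 2 • e = 0 → ι e ∈ Subgroup.center X)
  (S : Sett (W h φ (hZH φ hφ)))
  (hpow : ∀ ψ (hψ : ψ ∈ H), (∀ e : V, 2 • e = 0 → W h ψ (hZH ψ hψ) e = e) ∨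
    (∀ e : V, 2 • e = 0 → W h ψ (hZH ψ hψ) e = W h φ (hZH φ hφ) e) ∨
    (∀ e : V, 2 • e = 0 → W h ψ (hZH ψ hψ) e = W h φ (hZH φ hφ) (W h φ (hZH φ hφ) e)))

include hcen in
theorem DE (x : X) {e : V} (he : 2 • e = 0) : D h hn x e = 0 := D_central h hn (hcen e he)

include hcen in
theorem D_two (x : X) {a b : V} (hab : 2 • a = 2 • b) : D h hn x a = D h hn x b := by
  have h1 : 2 • (a - b) = 0 := by rw [nsmul_sub, hab, sub_self]
  have h2 := DE h hn hcen x h1
  rw [map_sub] at h2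
  exact sub_eq_zero.1 h2

include hcen in
theorem DΩ (x : X) {z : V} (hz : z ∈ om2 V) : 2 • D h hn x z = 0 := by
  rw [← map_nsmul]
  exact DE h hn hcen x (om2_two hz)

include hcen in
theorem D_mul_om2 (x y : X) {z : V} (hz : z ∈ om2 V) :
    D h hn (x * y) z = D h hn y z + D h hn x z := by
  rw [D_mul, T_central h hn (hcen _ (DΩ h hn hcen y hz))]

include hXA hcen S hpow in
/-- The operator `F` vanishes. -/
theorem F_zero (x : X) {v : V} (hv : v ∈ om2 V) :
    D h hn x v + W h φ (hZH φ hφ) (D h hn x (W h φ (hZH φ hφ) (W h φ (hZH φ hφ) v))) +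
      W h φ (hZH φ hφ) (W h φ (hZH φ hφ) (D h hn x (W h φ (hZH φ hφ) v))) = 0 := by
  obtain ⟨ω, hω⟩ : ∃ ω, ω = W h φ (hZH φ hφ) := ⟨_, rfl⟩
  rw [← hω] at S hpow ⊢
  have hv1 : ω v ∈ om2 V := om_mem hv
  have hv2 : ω (ω v) ∈ om2 V := om_mem hv1
  -- the invariant homomorphism
  let g : X →* Multiplicative V := MonoidHom.mk'
    (fun x => Multiplicative.ofAdd
      (D h hn x v + ω (D h hn x (ω (ω v))) + ω (ω (D h hn x (ω v))))) (by
      intro a b
      rw [D_mul_om2 h hn hcen a b hv, D_mul_om2 h hn hcen a b hv1, D_mul_om2 h hn hcen a b hv2,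
        ← ofAdd_add]
      congr 1
      simp only [map_add]
      abel)
  have hg : ∀ ψ ∈ H, ∀ x, g (ψ x) = g x := by
    intro ψ hψ x
    show Multiplicative.ofAdd _ = Multiplicative.ofAdd _
    congr 1
    -- the formula for `D (ψ x)`
    have hψ' : ψ⁻¹ ∈ H := H.inv_mem hψ
    have hmain : ∀ u : V, D h hn (ψ x) u =
        W h ψ (hZH ψ hψ) (D h hn x (W h ψ⁻¹ (hZH ψ⁻¹ hψ') u)) := by
      intro u
      rw [W_D h hn, W_W h ψ ψ⁻¹ (hZH ψ hψ) (hZH ψ⁻¹ hψ') (mul_inv_cancel ψ)]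
    have hinj : ∀ a b : V, W h ψ (hZH ψ hψ) a = W h ψ (hZH ψ hψ) b → a = b := by
      intro a b hab
      apply h.inj
      have := congrArg ι hab
      rw [W_spec h, W_spec h] at this
      exact ψ.injective this
    have hWinv : ∀ u : V, W h ψ (hZH ψ hψ) (2 • W h ψ⁻¹ (hZH ψ⁻¹ hψ') u) = 2 • u := by
      intro u
      rw [map_nsmul, W_W h ψ ψ⁻¹ (hZH ψ hψ) (hZH ψ⁻¹ hψ') (mul_inv_cancel ψ)]
    apply F_inv S (fun e he => DE h hn hcen x he) (fun z hz => DΩ h hn hcen x hz) _ hv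
    rcases hpow ψ hψ with hp | hp | hp
    · left
      intro u hu
      rw [hmain, hp _ (DΩ h hn hcen x (z := _) ?_)]
      · apply D_two h hn hcen
        apply hinj
        rw [hWinv, hp _ (om2_two hu)]
      · have h3 : W h ψ⁻¹ (hZH ψ⁻¹ hψ') u ∈ om2 V := by
          rw [mem_om2, ← map_nsmul, hu, map_zero]
        exact h3
    · right; left
      intro u hu
      have h3 : W h ψ⁻¹ (hZH ψ⁻¹ hψ') u ∈ om2 V := by
        rw [mem_om2, ← map_nsmul, hu, map_zero]
      rw [hmain, hp _ (DΩ h hn hcen x h3)]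
      congr 1
      apply D_two h hn hcen
      apply hinj
      have h4 : 2 • ω (ω u) = ω (ω (2 • u)) := by simp only [map_nsmul]
      rw [hWinv, hp _ (om2_two (om_mem (om_mem hu))), h4, S.cube (om2_two hu)]
    · right; right
      intro u hu
      have h3 : W h ψ⁻¹ (hZH ψ⁻¹ hψ') u ∈ om2 V := by
        rw [mem_om2, ← map_nsmul, hu, map_zero]
      rw [hmain, hp _ (DΩ h hn hcen x h3)]
      congr 2
      apply D_two h hn hcen
      apply hinj
      have h4 : 2 • ω u = ω (2 • u) := by simp only [map_nsmul]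
      rw [hWinv, hp _ (om2_two (om_mem hu)), h4, S.cube (om2_two hu)]
  have := hom_trivial hXA g hg x
  exact this

include hXA hcen S hpow in
/-- The dichotomy for the action on `Ω₂`. -/
theorem dich_x (hS : ∀ e : V, 2 • e = 0 → ∃ z, 4 • z = 0 ∧ 2 • z = e) (x : X) :
    (∀ z ∈ om2 V, D h hn x z = 0) ∨ (∀ z ∈ om2 V, D h hn x z = 0 → 2 • z = 0) := by
  have L : Lev (W h φ (hZH φ hφ)) (om2 V) (dbl2 V) (D h hn x) :=
    lev_om2 hS _ (fun e he => DE h hn hcen x he)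
  exact L.dich S (fun z hz => F_zero h hn hXA hZH hφ hcen S hpow x hz)

include hXA hcen S hpow hn in
/-- exponent `4`: the normal form. -/
theorem exp4_sq (hself : ∀ g : X, (∀ a ∈ Z, g * a = a * g) → g ∈ Z) (hall : ∀ v : V, 4 • v = 0)
    (hz : ∃ z : V, 2 • z ≠ 0) (x : X) : x ^ 2 ∈ Subgroup.center X := by
  have hS : ∀ e : V, 2 • e = 0 → ∃ z, 4 • z = 0 ∧ 2 • z = e := by
    obtain ⟨z₀, hz₀⟩ := hz
    intro e he
    have h2 : 2 • (2 • z₀) = 0 := om2_two (hall z₀)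
    rcases S.cases _ e h2 hz₀ he with h3 | h3 | h3 | h3
    · exact ⟨0, by simp, by rw [h3]; simp⟩
    · exact ⟨z₀, hall _, h3.symm⟩
    · exact ⟨_, hall (W h φ (hZH φ hφ) z₀), by rw [h3, map_nsmul]⟩
    · exact ⟨_, hall (W h φ (hZH φ hφ) (W h φ (hZH φ hφ) z₀)), by rw [h3, map_nsmul, map_nsmul]⟩
  by_cases hx : x ∈ Z
  · obtain ⟨v, rfl⟩ := (h.range x).1 hx
    rw [← h.nsmul]
    apply hcen
    exact om2_two (hall v)
  · rcases dich_x h hn hXA hZH hφ hcen S hpow hS x with h1 | h1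
    · exfalso
      apply hx
      apply hself
      intro a ha
      obtain ⟨v, rfl⟩ := (h.range a).1 ha
      exact (D_eq_zero_iff h hn x v).1 (h1 v (hall v))
    · -- `x ^ 2` centralizes `Z`
      have h2 : x ^ 2 ∈ Z := by
        apply hself
        intro a ha
        obtain ⟨v, rfl⟩ := (h.range a).1 ha
        have h3 : 2 • D h hn x v = 0 := DΩ h hn hcen x (hall v)
        have h4 : D h hn (x * x) v = 0 := by
          rw [D_mul, T_central h hn (hcen _ h3), ← two_nsmul, h3]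
        rw [pow_two]
        exact (D_eq_zero_iff h hn (x * x) v).1 h4
      obtain ⟨a, ha⟩ := (h.range _).1 h2
      have h3 : D h hn x a = 0 := by
        rw [D_eq_zero_iff, ha, pow_two]
        group
      have h4 := h1 a (hall a) h3
      rw [← ha]
      exact hcen a h4

/-- The predicate for the elements of `Ω₁(Z(X/Z))`. -/
def PP (Z : Subgroup X) (y : X) : Prop := y ^ 2 ∈ Z ∧ ∀ x, y * x * y⁻¹ * x⁻¹ ∈ Z

omit [Finite V] in
theorem PP_mul (hn : Z.Normal) {a b : X} (ha : PP Z a) (hb : PP Z b) : PP Z (a * b) := by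
  have hc : ∀ x, a * b * x * (a * b)⁻¹ * x⁻¹ ∈ Z := by
    intro x
    have h1 := hb.2 x
    have h2 := ha.2 x
    have h3 := hn.conj_mem _ h1 a
    have h4 := Z.mul_mem h3 h2
    have h5 : a * (b * x * b⁻¹ * x⁻¹) * a⁻¹ * (a * x * a⁻¹ * x⁻¹) = a * b * x * (a * b)⁻¹ * x⁻¹ := by
      group
    rwa [h5] at h4
  refine ⟨?_, hc⟩
  -- `(a b)² = a² · (a⁻¹ (b a b⁻¹ a⁻¹) a) · b²`
  have h1 := hb.2 a
  have h2 := hn.conj_mem _ h1 a⁻¹
  have h3 : a⁻¹ * (b * a * b⁻¹ * a⁻¹) * a⁻¹⁻¹ = a⁻¹ * b * a * b⁻¹ := by group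
  rw [h3] at h2
  have h4 := Z.mul_mem (Z.mul_mem ha.1 h2) hb.1
  have h5 : a ^ 2 * (a⁻¹ * b * a * b⁻¹) * b ^ 2 = (a * b) ^ 2 := by
    simp only [pow_two]
    group
  rwa [h5] at h4

omit [Finite V] in
theorem PP_map {ψ : MulAut X} (hψ : ∀ z ∈ Z, ψ z ∈ Z) {a : X} (ha : PP Z a) : PP Z (ψ a) := by
  refine ⟨?_, ?_⟩
  · rw [← map_pow]
    exact hψ _ ha.1
  · intro x
    have h1 := hψ _ (ha.2 (ψ.symm x))
    simpa using h1

omit [Finite V] in
/-- Existence of an element of `Ω₁(Z(X/Z))` outside `Z`. -/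
theorem exists_PP (hX : IsPGroup 2 X) (hn : Z.Normal) (hne : Z ≠ ⊤) : ∃ y, y ∉ Z ∧ PP Z y := by
  classical
  haveI : Fact (Nat.Prime 2) := ⟨Nat.prime_two⟩
  haveI := hn
  have hXb : IsPGroup 2 (X ⧸ Z) := hX.to_quotient Z
  have hne' : (⊤ : Subgroup (X ⧸ Z)) ≠ ⊥ := by
    intro htop
    apply hne
    rw [eq_top_iff]
    intro x _
    have h1 : (x : X ⧸ Z) ∈ (⊤ : Subgroup (X ⧸ Z)) := Subgroup.mem_top _
    rw [htop, Subgroup.mem_bot] at h1
    exact (QuotientGroup.eq_one_iff x).1 h1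
  obtain ⟨z, -, hz1, hzc⟩ := Cfsg.Agent.Lib.NormalKlein.exists_central_of_normal hXb ⊤ inferInstance hne'
  obtain ⟨k, hk⟩ := IsPGroup.iff_orderOf.1 hXb z
  have hk0 : k ≠ 0 := by
    rintro rfl
    rw [pow_zero] at hk
    exact hz1 (orderOf_eq_one_iff.1 hk)
  obtain ⟨m, rfl⟩ : ∃ m, k = m + 1 := ⟨k - 1, by omega⟩
  obtain ⟨w, hw⟩ : ∃ w, w = z ^ 2 ^ m := ⟨_, rfl⟩
  have hw1 : w ≠ 1 := by
    rw [hw]
    intro h1
    have := orderOf_dvd_of_pow_eq_one h1
    rw [hk] at this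
    have h2 := Nat.le_of_dvd (by positivity) this
    have h3 : 2 ^ m < 2 ^ (m + 1) := Nat.pow_lt_pow_right (by norm_num) (by omega)
    omega
  have hw2 : w ^ 2 = 1 := by
    rw [hw, ← pow_mul, ← pow_succ, ← hk, pow_orderOf_eq_one]
  have hwc : w ∈ Subgroup.center (X ⧸ Z) := by
    rw [hw]
    exact Subgroup.pow_mem _ hzc _
  obtain ⟨y, rfl⟩ := QuotientGroup.mk_surjective w
  refine ⟨y, fun h1 => hw1 ((QuotientGroup.eq_one_iff y).2 h1), ?_, ?_⟩
  · rw [← QuotientGroup.eq_one_iff]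
    exact_mod_cast hw2
  · intro x
    rw [← QuotientGroup.eq_one_iff]
    have h1 := Subgroup.mem_center_iff.1 hwc (x : X ⧸ Z)
    rw [QuotientGroup.mk_mul, QuotientGroup.mk_mul, QuotientGroup.mk_mul, QuotientGroup.mk_inv,
      QuotientGroup.mk_inv, ← h1]
    group

local notation "ω" => W h φ (hZH φ hφ)

include hXA hcen S hpow hn in
/-- exponent at least `8` is impossible. -/
theorem big_false (hX : IsPGroup 2 X) (hE8 : NoE8 X)
    (hself : ∀ g : X, (∀ a ∈ Z, g * a = a * g) → g ∈ Z) (hZne : Z ≠ ⊤)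
    (E : Subgroup X) (hEmem : ∀ a, a ∈ E ↔ ∃ v : V, ι v = a ∧ 2 • v = 0) (hE4 : Nat.card E = 4)
    {N : ℕ} (hN : ∀ z : V, 2 ^ N • z = 0) (hne : ∃ v : V, 4 • v ≠ 0) : False := by
  obtain ⟨h4, h2, c, hcω, hc2, hcS, hcK, z₁, hz₁⟩ := homocyclic S hN hne
  have hS : ∀ e : V, 2 • e = 0 → ∃ z, 4 • z = 0 ∧ 2 • z = e := by
    intro e he
    obtain ⟨w, rfl⟩ := h4 e he
    refine ⟨2 • w, ?_, by rw [← mul_nsmul]⟩
    have : 4 • (2 • w) = 2 • (4 • w) := by rw [← mul_nsmul, ← mul_nsmul]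
    rw [this]
    exact he
  obtain ⟨y₀, hy₀, hPy₀⟩ := exists_PP h hX hn hZne
  have hTT : ∀ y, PP Z y → ∀ z, D h hn y (D h hn y z) = -(2 • D h hn y z) := by
    intro y hP z
    have h1 : D h hn (y * y) z = 0 := by
      rw [D_eq_zero_iff]
      have h3 : y * y ∈ Z := by rw [← pow_two]; exact hP.1
      obtain ⟨a, ha⟩ := (h.range _).1 h3
      rw [← ha, h.comm]
    rw [D_mul, T_eq] at h1
    have h5 : D h hn y (D h hn y z) + 2 • D h hn y z = 0 := by
      rw [two_nsmul, ← add_assoc]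
      exact h1
    exact eq_neg_of_add_eq_zero_left h5
  have hdE0 : 2 • c z₁ = 0 := hc2 z₁
  have killy : ∀ y, PP Z y → ∀ z, D h hn y (2 • z) = 0 := by
    intro y hP
    rcases dich_x h hn hXA hZH hφ hcen S hpow hS y with h1 | h1
    · exact kill2 hN (hTT y hP) h1
    · exfalso
      exact no_id S (hTT y hP) (fun e he => DE h hn hcen y he)
        (fun z hz => F_zero h hn hXA hZH hφ hcen S hpow y hz) h4 h1 hdE0 hz₁
  have Lv : ∀ y, PP Z y → Lev ω ⊤ c (D h hn y) := by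
    intro y hP
    refine ⟨fun _ _ => trivial, fun z _ => hc2 z, fun e he => ?_, hcω, ?_, ?_⟩
    · obtain ⟨z, hz⟩ := hcS e he
      exact ⟨z, trivial, hz⟩
    · intro z _ hz
      obtain ⟨w, rfl⟩ := (hcK z).1 hz
      exact killy y hP w
    · intro z _
      rw [← map_nsmul]
      exact killy y hP z
  -- the final contradiction
  have hEn : E.Normal := by
    constructor
    intro a ha g
    obtain ⟨v, rfl, hv⟩ := (hEmem a).1 ha
    have := hcen v hv
    rw [Subgroup.mem_center_iff] at this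
    rw [this g]
    simpa using ha
  have hE2 : ∀ a ∈ E, a ^ 2 = 1 := by
    intro a ha
    obtain ⟨v, rfl, hv⟩ := (hEmem a).1 ha
    rw [← h.nsmul, hv, h.zero]
  have final : ∀ y, PP Z y → (∀ z, D h hn y z = 0 → c z = 0) → False := by
    intro y hP hker
    have hk := killy y hP
    have hyZ : y ∉ Z := by
      intro hy
      obtain ⟨v, rfl⟩ := (h.range y).1 hy
      have : D h hn (ι v) z₁ = 0 := by
        rw [D_eq_zero_iff, h.comm]
      exact hz₁ (hker _ this)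
    obtain ⟨a, ha⟩ := (h.range _).1 hP.1
    have hDa : D h hn y a = 0 := by
      rw [D_eq_zero_iff, ha, pow_two]
      group
    obtain ⟨w, hw⟩ := (hcK a).1 (hker a hDa)
    obtain ⟨z₀, hz₀⟩ := psi_surj hk h2 hw
    have hsq : ∀ b : V, ∀ t : X, (∀ v : V, t * ι v * t⁻¹ = ι (T h hn y v)) →
        t * t = 1 → (ι b * t) * (ι b * t) = 1 → 2 • b = 0 := by
      intro b t ht htt hb
      have h5 : (ι b * t) * (ι b * t) = ι b * (t * ι b * t⁻¹) * (t * t) := by group
      rw [h5, htt, mul_one, ht, ← h.add, ← h.zero] at hb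
      have h6 := h.inj hb
      rw [T_eq] at h6
      apply psi_ker hk h2
      rw [two_nsmul, ← h6]
      abel
    -- the involution
    have hs2 : (y * ι z₀) ^ 2 = 1 := by
      have h5 : (y * ι z₀) * (y * ι z₀) = (y * ι z₀ * y⁻¹) * y ^ 2 * ι z₀ := by
        rw [pow_two]; group
      rw [pow_two, h5, ← T_spec h hn, ← ha, ← h.add, ← h.add, T_eq, ← h.zero]
      congr 1
      rw [← hz₀]
      rw [two_nsmul]
      abel
    have hss : (y * ι z₀) * (y * ι z₀) = 1 := by rw [← pow_two]; exact hs2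
    have hsE : y * ι z₀ ∉ E := by
      intro hs
      obtain ⟨v, hv, -⟩ := (hEmem _).1 hs
      apply hyZ
      have h5 : y = ι v * (ι z₀)⁻¹ := by rw [hv]; group
      rw [h5]
      exact Z.mul_mem (h.mem v) (Z.inv_mem (h.mem z₀))
    refine noE8_ext hE8 E hEn hE2 hE4 (y * ι z₀) hs2 hsE ?_ ?_
    · intro a ha
      obtain ⟨v, rfl, hv⟩ := (hEmem a).1 ha
      exact (Subgroup.mem_center_iff.1 (hcen v hv) _)
    · intro x
      -- the commutator lies in `Z`
      have hg : x * (y * ι z₀) * x⁻¹ * (y * ι z₀)⁻¹ ∈ Z := by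
        have h5 := Z.inv_mem (hP.2 x)
        have h6 : x * ι z₀ * x⁻¹ * (ι z₀)⁻¹ ∈ Z :=
          Z.mul_mem (hn.conj_mem _ (h.mem z₀) x) (Z.inv_mem (h.mem z₀))
        have h7 := hn.conj_mem _ h6 y
        have h8 := Z.mul_mem h5 h7
        have h9 : (y * x * y⁻¹ * x⁻¹)⁻¹ * (y * (x * ι z₀ * x⁻¹ * (ι z₀)⁻¹) * y⁻¹) =
            x * (y * ι z₀) * x⁻¹ * (y * ι z₀)⁻¹ := by group
        rwa [h9] at h8
      obtain ⟨b, hb⟩ := (h.range _).1 hg
      rw [← hb]
      rw [hEmem]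
      refine ⟨b, rfl, ?_⟩
      have hT : ∀ v : V, (y * ι z₀) * ι v * (y * ι z₀)⁻¹ = ι (T h hn y v) := by
        intro v
        rw [T_spec h hn]
        have h5 : (y * ι z₀) * ι v * (y * ι z₀)⁻¹ = y * (ι z₀ * ι v * (ι z₀)⁻¹) * y⁻¹ := by group
        rw [h5, h.comm]
        group
      apply hsq b (y * ι z₀) hT hss
      have h5 : ι b * (y * ι z₀) = x * (y * ι z₀) * x⁻¹ := by rw [hb]; group
      rw [h5]
      have h6 : x * (y * ι z₀) * x⁻¹ * (x * (y * ι z₀) * x⁻¹) = x * ((y * ι z₀) * (y * ι z₀)) * x⁻¹ := by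
        group
      rw [h6, hss]
      group
  by_cases hker : ∀ z, D h hn y₀ z = 0 → c z = 0
  · exact final y₀ hPy₀ hker
  · push Not at hker
    obtain ⟨u, hu0, hcu⟩ := hker
    obtain ⟨z₂, hz₂⟩ : ∃ z, D h hn y₀ z ≠ 0 := by
      by_contra hall
      push Not at hall
      apply hy₀
      apply hself
      intro a ha
      obtain ⟨v, rfl⟩ := (h.range a).1 ha
      exact (D_eq_zero_iff h hn y₀ v).1 (hall v)
    have hdbl := (Lv y₀ hPy₀).dbl S (AddSubgroup.mem_top u) hcu hu0 (AddSubgroup.mem_top z₂) hz₂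
    apply final (y₀ * φ y₀) (PP_mul h hn hPy₀ (PP_map h (hZH φ hφ) hPy₀))
    intro z hz
    apply hdbl z (AddSubgroup.mem_top z)
    -- the formula for `D (y₀ * φ y₀)`
    have hφ' : φ⁻¹ ∈ H := H.inv_mem hφ
    have h5 : D h hn (φ y₀) z = ω (D h hn y₀ (W h φ⁻¹ (hZH φ⁻¹ hφ') z)) := by
      rw [W_D h hn, W_W h φ φ⁻¹ (hZH φ hφ) (hZH φ⁻¹ hφ') (mul_inv_cancel φ)]
    have hinj : ∀ a b : V, ω a = ω b → a = b := by
      intro a b hab
      apply h.inj
      have := congrArg ι hab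
      rw [W_spec h, W_spec h] at this
      exact φ.injective this
    have h6 : D h hn y₀ (W h φ⁻¹ (hZH φ⁻¹ hφ') z) = D h hn y₀ (ω (ω z)) := by
      apply (Lv y₀ hPy₀).eq_of_c (AddSubgroup.mem_top _) (AddSubgroup.mem_top _)
      apply hinj
      rw [← hcω, W_W h φ φ⁻¹ (hZH φ hφ) (hZH φ⁻¹ hφ') (mul_inv_cancel φ), hcω, hcω]
      exact (S.cube (hc2 z)).symm
    have h7 : 2 • D h hn (φ y₀) z = 0 := by
      rw [← map_nsmul]
      exact killy _ (PP_map h (hZH φ hφ) hPy₀) z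
    rw [D_mul, T_central h hn (hcen _ h7), h5, h6] at hz
    rw [add_comm]
    exact hz

end main

end Cfsg.Agent.Lib.SCN3Act
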