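import Mathlib
import Cfsg.Agent.Lib.SCN3Act
import Cfsg.Agent.Lib.PHall

/-!
# Reduction to groups with `X/Z(X)` elementary abelian
-/

set_option autoImplicit false
set_option linter.unusedSectionVars false
set_option linter.unusedVariables false
set_option linter.style.haveILetI false

universe u

namespace Cfsg.Agent.Lib.SCN3Red

open Cfsg.Agent.Lib.SCN3Base Cfsg.Agent.Lib.SCN3Mod Cfsg.Agent.Lib.SCN3Act

variable {X : Type u} [Group X]

/-- The normal form. -/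
def NF (X : Type u) [Group X] : Prop :=
  (∀ x y : X, x * y * x⁻¹ * y⁻¹ ∈ Subgroup.center X) ∧ ∀ x : X, x ^ 2 ∈ Subgroup.center X

theorem comm_central_of_sq (hsq : ∀ x : X, x ^ 2 ∈ Subgroup.center X) (x y : X) :
    x * y * x⁻¹ * y⁻¹ ∈ Subgroup.center X := by
  have h1 := hsq (x * y)
  have h2 := Subgroup.inv_mem _ (hsq x)
  have h3 := Subgroup.inv_mem _ (hsq y)
  have hx := Subgroup.mem_center_iff.1 (Subgroup.inv_mem _ (hsq x))
  have hy := Subgroup.mem_center_iff.1 (Subgroup.inv_mem _ (hsq y))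
  have h4 : x * y * x⁻¹ * y⁻¹ = (x * y) ^ 2 * (y ^ 2)⁻¹ * (x ^ 2)⁻¹ := by
    have e1 : x⁻¹ = (x ^ 2)⁻¹ * x := by rw [pow_two]; group
    have e2 : y⁻¹ = (y ^ 2)⁻¹ * y := by rw [pow_two]; group
    calc x * y * x⁻¹ * y⁻¹ = x * y * ((x ^ 2)⁻¹ * x) * ((y ^ 2)⁻¹ * y) := by rw [← e1, ← e2]
      _ = (x * y * (x ^ 2)⁻¹) * x * ((y ^ 2)⁻¹ * y) := by group
      _ = ((x ^ 2)⁻¹ * (x * y)) * x * ((y ^ 2)⁻¹ * y) := by rw [hx (x * y)]
      _ = (x ^ 2)⁻¹ * (x * y * x * (y ^ 2)⁻¹) * y := by group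
      _ = (x ^ 2)⁻¹ * ((y ^ 2)⁻¹ * (x * y * x)) * y := by rw [hy (x * y * x)]
      _ = (x ^ 2)⁻¹ * (y ^ 2)⁻¹ * (x * y) ^ 2 := by rw [pow_two (x * y)]; group
      _ = (x ^ 2)⁻¹ * ((y ^ 2)⁻¹ * (x * y) ^ 2) := by group
      _ = (x ^ 2)⁻¹ * ((x * y) ^ 2 * (y ^ 2)⁻¹) := by rw [hy ((x * y) ^ 2)]
      _ = (x * y) ^ 2 * (y ^ 2)⁻¹ * (x ^ 2)⁻¹ := by rw [hx ((x * y) ^ 2 * (y ^ 2)⁻¹)]
  rw [h4]
  exact Subgroup.mul_mem _ (Subgroup.mul_mem _ h1 h3) h2

/-- The case of a self-centralizing normal abelian subgroup with fixed-point-free action. -/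
theorem module_case [Finite X] (hX : IsPGroup 2 X) (hE8 : NoE8 X) {H : Subgroup (MulAut X)}
    (hH : Odd (Nat.card H))
    (hXA : Subgroup.closure {g : X | ∃ φ ∈ H, ∃ x : X, g = x⁻¹ * φ x} = ⊤)
    (Z : Subgroup X) (hZn : Z.Normal) (hZc : ∀ a ∈ Z, ∀ b ∈ Z, a * b = b * a)
    (hself : ∀ g : X, (∀ a ∈ Z, g * a = a * g) → g ∈ Z) (hZH : ∀ ψ ∈ H, ∀ z ∈ Z, ψ z ∈ Z)
    {φ : MulAut X} (hφ : φ ∈ H) (hE4 : Nat.card (omega1 Z hZc) = 4) (hfpf : Fpf φ (omega1 Z hZc))
    (hne : ∃ z ∈ Z, z ^ 2 ≠ 1) (hZtop : Z ≠ ⊤) : NF X := by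
  classical
  letI : CommGroup Z := { (inferInstance : Group Z) with
    mul_comm := fun a b => Subtype.ext (hZc a a.2 b b.2) }
  obtain ⟨ι, hι⟩ : ∃ ι : Additive Z → X, ι = fun v => ((Additive.toMul v : Z) : X) := ⟨_, rfl⟩
  have h : Emb ι Z := by
    refine ⟨fun u v => by rw [hι]; rfl, ?_, ?_⟩
    · intro a b hab
      rw [hι] at hab
      exact Additive.toMul.injective (Subtype.ext hab)
    · intro z
      constructor
      · intro hz
        exact ⟨Additive.ofMul ⟨z, hz⟩, by rw [hι]; rfl⟩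
      · rintro ⟨v, rfl⟩
        rw [hι]
        exact (Additive.toMul v).2
  -- the four-group
  obtain ⟨E, hE⟩ : ∃ E, E = omega1 Z hZc := ⟨_, rfl⟩
  rw [← hE] at hE4 hfpf
  have hEmem : ∀ a, a ∈ E ↔ ∃ v : Additive Z, ι v = a ∧ 2 • v = 0 := by
    intro a
    rw [hE, mem_omega1]
    constructor
    · rintro ⟨ha, ha2⟩
      obtain ⟨v, rfl⟩ := (h.range a).1 ha
      refine ⟨v, rfl, ?_⟩
      apply h.inj
      rw [h.nsmul, ha2, h.zero]
    · rintro ⟨v, rfl, hv⟩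
      refine ⟨h.mem v, ?_⟩
      rw [← h.nsmul, hv, h.zero]
  have hE2 : ∀ a ∈ E, a ^ 2 = 1 := by
    intro a ha
    rw [hE] at ha
    exact ha.2
  have hEH : ∀ ψ ∈ H, ∀ e ∈ E, ψ e ∈ E := by
    intro ψ hψ e he
    rw [hE] at he ⊢
    refine ⟨hZH ψ hψ e he.1, ?_⟩
    rw [← map_pow, he.2, map_one]
  have hEφ := hEH φ hφ
  have hEn : E.Normal := by
    constructor
    intro e he g
    rw [hE] at he ⊢
    refine ⟨hZn.conj_mem e he.1 g, ?_⟩
    rw [conj_pow, he.2]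
    group
  have hEc := hfpf.le_center hX hE2 hE4 hEφ hEn
  have hcen : ∀ e : Additive Z, 2 • e = 0 → ι e ∈ Subgroup.center X :=
    fun e he => hEc ((hEmem _).2 ⟨e, rfl, he⟩)
  have hmemE : ∀ e : Additive Z, 2 • e = 0 → ι e ∈ E := fun e he => (hEmem _).2 ⟨e, rfl, he⟩
  have S : Sett (W h φ (hZH φ hφ)) := by
    refine ⟨?_, ?_⟩
    · intro e he
      apply h.inj
      rw [h.add, h.add, W_spec h, W_spec h, W_spec h, h.zero]
      exact hfpf _ (hmemE e he)
    · intro e v he he0 hv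
      have h1 : ι e ≠ 1 := by
        intro h1
        apply he0
        apply h.inj
        rw [h1, h.zero]
      rcases hfpf.cases hE2 hE4 hEφ (hmemE e he) h1 (hmemE v hv) with h2 | h2 | h2 | h2
      · left
        apply h.inj
        rw [h2, h.zero]
      · right; left
        exact h.inj h2
      · right; right; left
        apply h.inj
        rw [h2, W_spec h]
      · right; right; right
        apply h.inj
        rw [h2, W_spec h, W_spec h]
  have hpow : ∀ ψ (hψ : ψ ∈ H), (∀ e : Additive Z, 2 • e = 0 → W h ψ (hZH ψ hψ) e = e) ∨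
      (∀ e : Additive Z, 2 • e = 0 → W h ψ (hZH ψ hψ) e = W h φ (hZH φ hφ) e) ∨
      (∀ e : Additive Z, 2 • e = 0 → W h ψ (hZH ψ hψ) e =
        W h φ (hZH φ hφ) (W h φ (hZH φ hφ) e)) := by
    intro ψ hψ
    rcases hfpf.power_of hH hφ hE2 hE4 hEH hψ with h2 | h2 | h2
    · left
      intro e he
      apply h.inj
      rw [W_spec h]
      exact h2 _ (hmemE e he)
    · right; left
      intro e he
      apply h.inj
      rw [W_spec h, W_spec h]
      exact h2 _ (hmemE e he)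
    · right; right
      intro e he
      apply h.inj
      rw [W_spec h, W_spec h, W_spec h]
      exact h2 _ (hmemE e he)
  haveI : Finite (Additive Z) := inferInstanceAs (Finite Z)
  by_cases hall : ∀ v : Additive Z, 4 • v = 0
  · have hz : ∃ z : Additive Z, 2 • z ≠ 0 := by
      obtain ⟨z, hz, hz2⟩ := hne
      obtain ⟨v, rfl⟩ := (h.range z).1 hz
      refine ⟨v, fun h0 => hz2 ?_⟩
      rw [← h.nsmul, h0, h.zero]
    have hsq := exp4_sq h hZn hXA hZH hφ hcen S hpow hself hall hz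
    exact ⟨comm_central_of_sq hsq, hsq⟩
  · exfalso
    push Not at hall
    obtain ⟨N, hN⟩ := IsPGroup.iff_card.1 hX
    refine big_false h hZn hXA hZH hφ hcen S hpow hX hE8 hself hZtop E hEmem hE4 (N := N) ?_ hall
    intro z
    apply h.inj
    rw [h.nsmul, h.zero, ← hN]
    exact pow_card_eq_one'

/-- If the center has index at most `4`, the commutators are powers of a single one. -/
theorem single_comm {G : Type*} [Group G] [Finite G]
    (hc : ∀ a b : G, a * b * a⁻¹ * b⁻¹ ∈ Subgroup.center G) (hidx : (Subgroup.center G).index ≤ 4)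
    (a b : G) (hab : a * b * a⁻¹ * b⁻¹ ≠ 1) (c d : G) :
    c * d * c⁻¹ * d⁻¹ ∈ Subgroup.zpowers (a * b * a⁻¹ * b⁻¹) := by
  classical
  have hcomm : ∀ x y : G, x * y = y * x → x * y * x⁻¹ * y⁻¹ = 1 := by
    intro x y h
    rw [h]; group
  have hane : a * b ≠ b * a := fun h => hab (hcomm a b h)
  have hcent : ∀ x : G, x ∈ Subgroup.center G → ∀ y, y * x = x * y := fun x hx y =>
    Subgroup.mem_center_iff.1 hx y
  -- the cosets
  have hdec : ∀ g : G, ∃ y ∈ Subgroup.center G, g = y ∨ g = a * y ∨ g = b * y ∨ g = a * b * y := by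
    let Y := Subgroup.center G
    have ha : (a : G ⧸ Y) ≠ 1 := by
      intro h
      have h1 : a ∈ Y := (QuotientGroup.eq_one_iff a).1 h
      exact hane (hcent a h1 b).symm
    have hb : (b : G ⧸ Y) ≠ 1 := by
      intro h
      have h1 : b ∈ Y := (QuotientGroup.eq_one_iff b).1 h
      exact hane (hcent b h1 a)
    have hab1 : ((a * b : G) : G ⧸ Y) ≠ 1 := by
      intro h
      have h1 : a * b ∈ Y := (QuotientGroup.eq_one_iff _).1 h
      have h2 := hcent _ h1 a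
      apply hane
      have h3 : a * (a * b) = a * (b * a) := by
        rw [h2]; group
      exact mul_left_cancel h3
    have hab2 : (a : G ⧸ Y) ≠ b := by
      intro h
      have h1 : a⁻¹ * b ∈ Y := QuotientGroup.eq.1 h
      have h2 := hcent _ h1 a
      apply hane
      have h3 : b = (a⁻¹ * b) * a := by rw [← h2]; group
      calc a * b = a * ((a⁻¹ * b) * a) := by rw [← h3]
        _ = b * a := by group
    have hab3 : (a : G ⧸ Y) ≠ ((a * b : G) : G ⧸ Y) := by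
      intro h
      rw [QuotientGroup.mk_mul] at h
      apply hb
      exact mul_left_cancel (h.symm.trans (mul_one _).symm)
    have hab4 : (b : G ⧸ Y) ≠ ((a * b : G) : G ⧸ Y) := by
      intro h
      rw [QuotientGroup.mk_mul] at h
      apply ha
      exact mul_right_cancel (h.symm.trans (one_mul _).symm)
    let s : Finset (G ⧸ Y) := {1, (a : G ⧸ Y), (b : G ⧸ Y), ((a * b : G) : G ⧸ Y)}
    have hs : s.card = 4 := by
      rw [Finset.card_insert_of_notMem, Finset.card_insert_of_notMem, Finset.card_insert_of_notMem,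
        Finset.card_singleton]
      · simp only [Finset.mem_singleton]
        exact hab4
      · simp only [Finset.mem_insert, Finset.mem_singleton, not_or]
        exact ⟨hab2, hab3⟩
      · simp only [Finset.mem_insert, Finset.mem_singleton, not_or]
        exact ⟨ha.symm, hb.symm, hab1.symm⟩
    haveI : Fintype (G ⧸ Y) := Fintype.ofFinite _
    have hcard : Fintype.card (G ⧸ Y) ≤ 4 := by
      rw [← Nat.card_eq_fintype_card]
      exact hidx
    have h5 : s = Finset.univ := by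
      apply Finset.eq_univ_of_card
      apply le_antisymm (Finset.card_le_univ s)
      rw [hs]
      exact hcard
    intro g
    have h6 : (g : G ⧸ Y) ∈ s := by rw [h5]; exact Finset.mem_univ _
    simp only [s, Finset.mem_insert, Finset.mem_singleton] at h6
    rcases h6 with h6 | h6 | h6 | h6
    · exact ⟨g, (QuotientGroup.eq_one_iff g).1 h6, Or.inl rfl⟩
    · exact ⟨a⁻¹ * g, QuotientGroup.eq.1 h6.symm, Or.inr (Or.inl (by group))⟩
    · exact ⟨b⁻¹ * g, QuotientGroup.eq.1 h6.symm, Or.inr (Or.inr (Or.inl (by group)))⟩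
    · exact ⟨(a * b)⁻¹ * g, QuotientGroup.eq.1 h6.symm, Or.inr (Or.inr (Or.inr (by group)))⟩
  -- modulo the commutator everything commutes
  obtain ⟨u, hu⟩ : ∃ u, u = a * b * a⁻¹ * b⁻¹ := ⟨_, rfl⟩
  rw [← hu] at hab ⊢
  have huc : u ∈ Subgroup.center G := hu ▸ hc a b
  have hUn : (Subgroup.zpowers u).Normal := by
    constructor
    intro x hx g
    obtain ⟨k, rfl⟩ := Subgroup.mem_zpowers_iff.1 hx
    have h1 : Commute g (u ^ k) := Commute.zpow_right (Subgroup.mem_center_iff.1 huc g) k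
    rw [h1.eq, mul_inv_cancel_right]
    exact hx
  let f : G →* G ⧸ Subgroup.zpowers u := QuotientGroup.mk' _
  have hfab : f a * f b = f b * f a := by
    have h1 : f u = 1 := (QuotientGroup.eq_one_iff u).2 (Subgroup.mem_zpowers u)
    have h2 : a * b = u * (b * a) := by rw [hu]; group
    rw [← map_mul, h2, map_mul, h1, one_mul, map_mul]
  have hfy : ∀ y ∈ Subgroup.center G, ∀ g, f y * f g = f g * f y := by
    intro y hy g
    rw [← map_mul, ← map_mul, hcent y hy g]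
  have hPa : ∀ g, f g * f a = f a * f g ∧ f g * f b = f b * f g := by
    intro g
    obtain ⟨y, hy, rfl | rfl | rfl | rfl⟩ := hdec g
    · exact ⟨hfy g hy _, hfy g hy _⟩
    · simp only [map_mul]
      constructor
      · rw [mul_assoc, hfy y hy]
      · rw [mul_assoc, hfy y hy, ← mul_assoc, hfab, mul_assoc]
    · simp only [map_mul]
      constructor
      · rw [mul_assoc, hfy y hy, ← mul_assoc, ← hfab, mul_assoc]
      · rw [mul_assoc, hfy y hy]
    · simp only [map_mul]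
      constructor
      · calc f a * f b * f y * f a = f a * (f b * f a) * f y := by
              rw [mul_assoc _ (f y), hfy y hy, ← mul_assoc, mul_assoc (f a)]
          _ = f a * (f a * f b) * f y := by rw [hfab]
          _ = f a * (f a * f b * f y) := by group
      · calc f a * f b * f y * f b = f a * f b * f b * f y := by
              rw [mul_assoc _ (f y), hfy y hy, mul_assoc (f a * f b)]
          _ = f b * (f a * f b) * f y := by rw [← mul_assoc (f b), ← hfab]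
          _ = f b * (f a * f b * f y) := by group
  have hall : ∀ g g', f g * f g' = f g' * f g := by
    intro g g'
    obtain ⟨y, hy, rfl | rfl | rfl | rfl⟩ := hdec g'
    · exact (hfy g' hy g).symm
    · simp only [map_mul]
      rw [← mul_assoc, (hPa g).1, mul_assoc, ← hfy y hy g, mul_assoc]
    · simp only [map_mul]
      rw [← mul_assoc, (hPa g).2, mul_assoc, ← hfy y hy g, mul_assoc]
    · simp only [map_mul]
      rw [← mul_assoc, ← mul_assoc, (hPa g).1, mul_assoc (f a), (hPa g).2, ← mul_assoc, mul_assoc _ (f g),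
        ← hfy y hy g]
      group
  have hker : f (c * d * c⁻¹ * d⁻¹) = 1 := by
    simp only [map_mul, map_inv]
    rw [hall c d]
    group
  exact (QuotientGroup.eq_one_iff _).1 hker

/-- Squares give an injection of `G / Z(G)` into `Z(G) / Z(G)²`. -/
theorem index_center_le {G : Type*} [Group G] [Finite G]
    (h2 : ∀ g : G, g ^ 2 ∈ Subgroup.center G)
    (hcs : ∀ a b : G, ∃ w ∈ Subgroup.center G, a * b * a⁻¹ * b⁻¹ = w ^ 2)
    (hinv : ∀ g : G, g ^ 2 = 1 → g ∈ Subgroup.center G) (k : ℕ)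
    (hk : ∀ Ω : Subgroup G, (∀ g ∈ Ω, g ∈ Subgroup.center G ∧ g ^ 2 = 1) → Nat.card Ω ≤ k) :
    (Subgroup.center G).index ≤ k := by
  classical
  obtain ⟨Y, hY⟩ : ∃ Y, Y = Subgroup.center G := ⟨_, rfl⟩
  rw [← hY] at h2 hinv hk ⊢
  have hYc : ∀ y ∈ Y, ∀ g, g * y = y * g := by
    intro y hy g
    rw [hY] at hy
    exact Subgroup.mem_center_iff.1 hy g
  letI : CommGroup Y := { (inferInstance : Group Y) with
    mul_comm := fun a b => Subtype.ext (hYc a a.2 b).symm }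
  let P : Y →* Y := powMonoidHom 2
  have hPv : ∀ y : Y, ((P y : Y) : G) = (y : G) ^ 2 := fun y => rfl
  haveI hQn : (P.range).Normal := inferInstance
  let f : G →* Y ⧸ P.range := MonoidHom.mk'
    (fun g => ((⟨g ^ 2, h2 g⟩ : Y) : Y ⧸ P.range)) (by
      intro a b
      rw [← QuotientGroup.mk_mul, QuotientGroup.eq]
      obtain ⟨w, hw, hwe⟩ := hcs a b
      rw [← hY] at hw
      refine ⟨⟨w, hw⟩, ?_⟩
      apply Subtype.ext
      have hc1 : ∀ g, g * w ^ 2 = w ^ 2 * g := hYc _ (Y.pow_mem hw 2)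
      have hc2 : ∀ g, g * (w ^ 2)⁻¹ = (w ^ 2)⁻¹ * g := hYc _ (Y.inv_mem (Y.pow_mem hw 2))
      have e1 : b * a = (w ^ 2)⁻¹ * (a * b) := by rw [← hwe]; group
      have e2 : (a * b) ^ 2 = (w ^ 2)⁻¹ * (a ^ 2 * b ^ 2) := by
        simp only [pow_two]
        calc a * b * (a * b) = a * (b * a) * b := by group
          _ = a * ((w * w)⁻¹ * (a * b)) * b := by
            have := e1
            simp only [pow_two] at this
            rw [this]
          _ = (a * (w * w)⁻¹) * (a * b) * b := by group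
          _ = ((w * w)⁻¹ * a) * (a * b) * b := by
            have := hc2 a
            simp only [pow_two] at this
            rw [this]
          _ = (w * w)⁻¹ * (a * a * (b * b)) := by group
      rw [hPv]
      show (w : G) ^ 2 = _
      simp only [Subgroup.coe_mul, Subgroup.coe_inv]
      rw [e2, mul_inv_rev, inv_inv, mul_assoc, ← hc1]
      group)
  have hfv : ∀ g : G, f g = ((⟨g ^ 2, h2 g⟩ : Y) : Y ⧸ P.range) := fun g => rfl
  have hker : f.ker = Y := by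
    ext g
    rw [MonoidHom.mem_ker, hfv, QuotientGroup.eq_one_iff]
    constructor
    · rintro ⟨w, hw⟩
      have h5 : (w : G) ^ 2 = g ^ 2 := congrArg Subtype.val hw
      have h6 : (g * (w : G)⁻¹) ^ 2 = 1 := by
        have h7 : Commute g (w : G)⁻¹ := (hYc _ (Y.inv_mem w.2) g)
        rw [h7.mul_pow, inv_pow, h5]
        group
      have h8 := hinv _ h6
      have h9 := Y.mul_mem h8 w.2
      simpa using h9
    · intro hg
      exact ⟨⟨g, hg⟩, rfl⟩
  have hcard : Nat.card f.range ≤ Nat.card (Y ⧸ P.range) := Subgroup.card_le_card_group _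
  have h10 : Y.index = Nat.card f.range := by
    have e := Subgroup.index_ker f
    rwa [hker] at e
  have h11 : Nat.card (Y ⧸ P.range) = Nat.card P.ker := by
    have h12 := Subgroup.card_mul_index P.range
    have h13 := Subgroup.card_mul_index P.ker
    rw [Subgroup.index_ker] at h13
    have hpos : 0 < Nat.card P.range := Nat.card_pos
    apply Nat.eq_of_mul_eq_mul_left hpos
    rw [Subgroup.index] at h12
    rw [h12, mul_comm, h13]
  rw [h10]
  refine hcard.trans ?_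
  rw [h11]
  have h14 := hk (P.ker.map Y.subtype) (by
    rintro _ ⟨y, hy, rfl⟩
    refine ⟨y.2, ?_⟩
    have : P y = 1 := hy
    have h15 := congrArg Subtype.val this
    exact h15)
  rwa [Subgroup.card_map_of_injective (Subgroup.subtype_injective Y)] at h14

/-- If `Z(C)` is central for a critical subgroup `C`, then we have the normal form. -/
theorem nf_of_central (C : Subgroup X)
    (hC2 : ∀ a ∈ C, a ^ 2 ∈ C ⊓ Subgroup.centralizer (C : Set X))
    (hCx : ∀ y, ∀ a ∈ C, y * a * y⁻¹ * a⁻¹ ∈ C ⊓ Subgroup.centralizer (C : Set X))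
    (hCs : Subgroup.centralizer (C : Set X) ≤ C)
    (hZ : ∀ z ∈ C ⊓ Subgroup.centralizer (C : Set X), z ∈ Subgroup.center X) : NF X := by
  have hu : ∀ c ∈ C, ∀ x, x * c * x⁻¹ * c⁻¹ ∈ Subgroup.center X := fun c hc x => hZ _ (hCx x c hc)
  have hc' : ∀ z ∈ Subgroup.center X, ∀ g : X, g * z = z * g := fun z hz g =>
    Subgroup.mem_center_iff.1 hz g
  have hmul : ∀ c ∈ C, ∀ x y, (x * y) * c * (x * y)⁻¹ * c⁻¹ =
      (x * c * x⁻¹ * c⁻¹) * (y * c * y⁻¹ * c⁻¹) := by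
    intro c hc x y
    have h1 := hc' _ (hu c hc y) x
    calc (x * y) * c * (x * y)⁻¹ * c⁻¹ = x * (y * c * y⁻¹ * c⁻¹) * (c * x⁻¹ * c⁻¹) := by group
      _ = (y * c * y⁻¹ * c⁻¹) * x * (c * x⁻¹ * c⁻¹) := by rw [h1]
      _ = (y * c * y⁻¹ * c⁻¹) * (x * c * x⁻¹ * c⁻¹) := by group
      _ = (x * c * x⁻¹ * c⁻¹) * (y * c * y⁻¹ * c⁻¹) := by
        rw [hc' _ (hu c hc y) (x * c * x⁻¹ * c⁻¹)]
  have hsq : ∀ c ∈ C, ∀ x, (x * c * x⁻¹ * c⁻¹) * (x * c * x⁻¹ * c⁻¹) = 1 := by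
    intro c hc x
    have h1 := hu c hc x
    have h2 : c ^ 2 ∈ Subgroup.center X := hZ _ (hC2 c hc)
    have h3 : x * (c * c) * x⁻¹ = c * c := by
      have := hc' _ h2 x
      simp only [pow_two] at this
      rw [this]
      group
    obtain ⟨u, hu'⟩ : ∃ u, u = x * c * x⁻¹ * c⁻¹ := ⟨_, rfl⟩
    rw [← hu'] at h1 ⊢
    have h4 : x * c * x⁻¹ = u * c := by rw [hu']; group
    have h5 : x * (c * c) * x⁻¹ = (x * c * x⁻¹) * (x * c * x⁻¹) := by group
    rw [h5, h4] at h3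
    have h6 : u * c * (u * c) = (u * u) * (c * c) := by
      calc u * c * (u * c) = u * (c * u) * c := by group
        _ = u * (u * c) * c := by rw [hc' u h1 c]
        _ = (u * u) * (c * c) := by group
    rw [h6] at h3
    exact mul_right_cancel (h3.trans (one_mul _).symm)
  have hcentr : ∀ g : X, (∀ c ∈ C, g * c * g⁻¹ * c⁻¹ = 1) → g ∈ Subgroup.center X := by
    intro g hg
    have h1 : g ∈ Subgroup.centralizer (C : Set X) := by
      rw [Subgroup.mem_centralizer_iff]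
      intro c hc
      have h2 := hg c hc
      have h3 : g * c * g⁻¹ = c := eq_of_mul_inv_eq_one h2
      calc c * g = (g * c * g⁻¹) * g := by rw [h3]
        _ = g * c := by group
    exact hZ _ ⟨hCs h1, h1⟩
  refine ⟨?_, ?_⟩
  · intro x y
    apply hcentr
    intro c hc
    let g : X →* Subgroup.center X := MonoidHom.mk'
      (fun x => ⟨x * c * x⁻¹ * c⁻¹, hu c hc x⟩) (by
        intro a b
        apply Subtype.ext
        exact hmul c hc a b)
    have hgv : ∀ x, ((g x : Subgroup.center X) : X) = x * c * x⁻¹ * c⁻¹ := fun x => rfl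
    have hcomm : g x * g y = g y * g x := by
      apply Subtype.ext
      exact (hc' _ (g x).2 ((g y : Subgroup.center X) : X)).symm
    have h1 : g (x * y * x⁻¹ * y⁻¹) = 1 := by
      simp only [map_mul, map_inv]
      rw [hcomm]
      group
    have h2 := congrArg Subtype.val h1
    rw [hgv] at h2
    exact h2
  · intro x
    apply hcentr
    intro c hc
    rw [pow_two, hmul c hc]
    exact hsq c hc x

/-- A critical subgroup `C` with `H` nontrivial on `Z(C)` and `Z(C)` not elementary is abelian. -/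
theorem crit_abelian [Finite X] (hX : IsPGroup 2 X) (hE8 : NoE8 X)
    {H : Subgroup (MulAut X)} (hH : Odd (Nat.card H)) (C : Subgroup X)
    (hCφ : ∀ ψ : MulAut X, ∀ a ∈ C, ψ a ∈ C)
    (hC2 : ∀ a ∈ C, a ^ 2 ∈ C ⊓ Subgroup.centralizer (C : Set X))
    (hCx : ∀ y, ∀ a ∈ C, y * a * y⁻¹ * a⁻¹ ∈ C ⊓ Subgroup.centralizer (C : Set X))
    {φ : MulAut X} (hφ : φ ∈ H) {z₀ z₁ : X} (hz₀ : z₀ ∈ C ⊓ Subgroup.centralizer (C : Set X))
    (hmv : φ z₀ ≠ z₀) (hz₁ : z₁ ∈ C ⊓ Subgroup.centralizer (C : Set X)) (hz₁2 : z₁ ^ 2 ≠ 1) :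
    ∀ a ∈ C, ∀ b ∈ C, a * b = b * a := by
  classical
  haveI : Fact (Nat.Prime 2) := ⟨Nat.prime_two⟩
  obtain ⟨Z₁, hZ₁⟩ : ∃ Z₁, Z₁ = C ⊓ Subgroup.centralizer (C : Set X) := ⟨_, rfl⟩
  rw [← hZ₁] at hC2 hCx
  have hZ₁C : ∀ a ∈ Z₁, a ∈ C := fun a ha => by rw [hZ₁] at ha; exact ha.1
  have hZ₁z : ∀ a ∈ Z₁, ∀ c ∈ C, c * a = a * c := fun a ha c hc => by
    rw [hZ₁] at ha
    exact Subgroup.mem_centralizer_iff.1 ha.2 c hc
  have hZ₁mem : ∀ a ∈ C, (∀ c ∈ C, c * a = a * c) → a ∈ Z₁ := fun a ha h => by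
    rw [hZ₁]
    exact ⟨ha, Subgroup.mem_centralizer_iff.2 h⟩
  have hZ₁c : ∀ a ∈ Z₁, ∀ b ∈ Z₁, a * b = b * a := fun a ha b hb => hZ₁z b hb a (hZ₁C a ha)
  have hZ₁φ : ∀ ψ : MulAut X, ∀ a ∈ Z₁, ψ a ∈ Z₁ := by
    intro ψ a ha
    apply hZ₁mem _ (hCφ ψ a (hZ₁C a ha))
    intro c hc
    have h1 := hZ₁z a ha _ (hCφ ψ.symm c hc)
    have h2 := congrArg ψ h1
    simpa using h2
  have hZ₁n : Z₁.Normal := by
    constructor
    intro a ha g
    have := hZ₁φ (MulAut.conj g) a ha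
    simpa using this
  rw [← hZ₁] at hz₀ hz₁
  have hodd := orderOf_odd hH hφ
  -- a moved involution
  obtain ⟨e₀, he₀, he₀2, he₀mv⟩ : ∃ e ∈ Z₁, e ^ 2 = 1 ∧ φ e ≠ e := by
    by_contra hc
    push Not at hc
    exact hmv (fixed_of_omega hX φ hodd Z₁ hZ₁c (hZ₁φ φ) hc z₀ hz₀)
  obtain ⟨E, hE⟩ : ∃ E, E = omega1 Z₁ hZ₁c := ⟨_, rfl⟩
  have hEmem : ∀ a, a ∈ E ↔ a ∈ Z₁ ∧ a ^ 2 = 1 := fun a => by rw [hE]; exact Iff.rfl
  have hE2 : ∀ a ∈ E, a ^ 2 = 1 := fun a ha => ((hEmem a).1 ha).2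
  have hEφ' : ∀ ψ : MulAut X, ∀ e ∈ E, ψ e ∈ E := by
    intro ψ e he
    rw [hEmem] at he ⊢
    refine ⟨hZ₁φ ψ e he.1, ?_⟩
    rw [← map_pow, he.2, map_one]
  have hEφ := hEφ' φ
  have hE4le : Nat.card E ≤ 4 := by
    rw [hE]
    exact card_omega1_le hE8 Z₁ hZ₁n hZ₁c
  obtain ⟨hE4, hfpf⟩ := fpf_of_moved φ hodd E hE2 hE4le hEφ e₀ ((hEmem _).2 ⟨he₀, he₀2⟩) he₀mv
  have hEn : E.Normal := by
    constructor
    intro a ha g
    have := hEφ' (MulAut.conj g) a ha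
    simpa using this
  have hEc := hfpf.le_center hX hE2 hE4 hEφ hEn
  -- commutators and squares in `C`
  have hdiff : ∀ x, ∀ c ∈ C, (x * c * x⁻¹) ^ 2 = c ^ 2 →
      (x * c * x⁻¹ * c⁻¹) ^ 2 = 1 := by
    intro x c hc h
    have h1 := hCx x c hc
    obtain ⟨u, hu⟩ : ∃ u, u = x * c * x⁻¹ * c⁻¹ := ⟨_, rfl⟩
    rw [← hu] at h1 ⊢
    have h4 : x * c * x⁻¹ = u * c := by rw [hu]; group
    rw [h4] at h
    have h5 : Commute c u := hZ₁z u h1 c hc
    rw [h5.symm.mul_pow] at h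
    exact mul_right_cancel (h.trans (one_mul _).symm)
  -- involutions of `C` lie in `E`
  have hinvC : ∀ c ∈ C, c ^ 2 = 1 → c ∈ E := by
    intro c hc hc2
    by_contra hcE
    refine noE8_ext hE8 E hEn hE2 hE4 c hc2 hcE ?_ ?_
    · intro a ha
      exact hZ₁z a ((hEmem a).1 ha).1 c hc
    · intro x
      rw [hEmem]
      refine ⟨hCx x c hc, ?_⟩
      apply hdiff x c hc
      rw [conj_pow, hc2]
      group
  -- commutators in `C` lie in `E`
  have hcommC : ∀ c ∈ C, ∀ d ∈ C, c * d * c⁻¹ * d⁻¹ ∈ E := by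
    intro c hc d hd
    rw [hEmem]
    refine ⟨hCx c d hd, ?_⟩
    apply hdiff c d hd
    rw [conj_pow]
    have h1 := hZ₁z _ (hC2 d hd) c hc
    rw [h1]
    group
  -- squares of `Z₁` contain `E`
  let Sq : Subgroup X :=
    { carrier := {x | ∃ w ∈ Z₁, x = w ^ 2}
      one_mem' := ⟨1, Z₁.one_mem, by simp⟩
      mul_mem' := by
        rintro _ _ ⟨a, ha, rfl⟩ ⟨b, hb, rfl⟩
        exact ⟨a * b, Z₁.mul_mem ha hb, (Commute.mul_pow (hZ₁c a ha b hb) 2).symm⟩
      inv_mem' := by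
        rintro _ ⟨a, ha, rfl⟩
        exact ⟨a⁻¹, Z₁.inv_mem ha, by rw [inv_pow]⟩ }
  have hSqmem : ∀ x, x ∈ Sq ↔ ∃ w ∈ Z₁, x = w ^ 2 := fun x => Iff.rfl
  have hSqφ : ∀ z ∈ Sq, φ z ∈ Sq := by
    rintro _ ⟨a, ha, rfl⟩
    exact ⟨φ a, hZ₁φ φ a ha, by rw [map_pow]⟩
  obtain ⟨e₁, he₁E, he₁1, he₁S⟩ : ∃ e ∈ E, e ≠ 1 ∧ e ∈ Sq := by
    have hz : z₁ ^ 2 ∈ Sq := ⟨z₁, hz₁, rfl⟩
    obtain ⟨k, hk⟩ := IsPGroup.iff_orderOf.1 hX (z₁ ^ 2)
    have hk0 : k ≠ 0 := by
      rintro rfl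
      rw [pow_zero] at hk
      exact hz₁2 (orderOf_eq_one_iff.1 hk)
    obtain ⟨m, rfl⟩ : ∃ m, k = m + 1 := ⟨k - 1, by omega⟩
    refine ⟨(z₁ ^ 2) ^ 2 ^ m, ?_, ?_, Sq.pow_mem hz _⟩
    · rw [hEmem]
      refine ⟨Z₁.pow_mem (Z₁.pow_mem hz₁ _) _, ?_⟩
      rw [← pow_mul, ← pow_succ, ← hk, pow_orderOf_eq_one]
    · intro h1
      have := orderOf_dvd_of_pow_eq_one h1
      rw [hk] at this
      have h2 := Nat.le_of_dvd (by positivity) this
      have h3 : 2 ^ m < 2 ^ (m + 1) := Nat.pow_lt_pow_right (by norm_num) (by omega)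
      omega
  have hESq : E ≤ Sq := hfpf.le_of_mem hE2 hE4 hEφ Sq hSqφ he₁E he₁1 he₁S
  by_contra hne
  push Not at hne
  obtain ⟨a, ha, b, hb, hab⟩ := hne
  have hcenC : ∀ g : C, g ∈ Subgroup.center C ↔ (g : X) ∈ Z₁ := by
    intro g
    constructor
    · intro hg
      apply hZ₁mem _ g.2
      intro c hc
      have := Subgroup.mem_center_iff.1 hg ⟨c, hc⟩
      exact congrArg Subtype.val this
    · intro hg
      rw [Subgroup.mem_center_iff]
      intro c
      apply Subtype.ext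
      exact hZ₁z _ hg _ c.2
  have hidx : (Subgroup.center C).index ≤ 4 := by
    apply index_center_le
    · intro g
      rw [hcenC]
      exact hC2 _ g.2
    · intro c d
      have h1 := hESq (hcommC c c.2 d d.2)
      obtain ⟨w, hw, hwe⟩ := (hSqmem _).1 h1
      refine ⟨⟨w, hZ₁C w hw⟩, (hcenC _).2 hw, ?_⟩
      apply Subtype.ext
      exact hwe
    · intro g hg
      rw [hcenC]
      have h1 : (g : X) ^ 2 = 1 := by
        have := congrArg Subtype.val hg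
        exact this
      exact ((hEmem _).1 (hinvC _ g.2 h1)).1
    · intro Ω hΩ
      have h1 : Ω.map C.subtype ≤ E := by
        rintro _ ⟨g, hg, rfl⟩
        rw [hEmem]
        refine ⟨(hcenC g).1 (hΩ g hg).1, ?_⟩
        have := congrArg Subtype.val (hΩ g hg).2
        exact this
      have h2 := Subgroup.card_le_of_le h1
      rwa [Subgroup.card_map_of_injective (Subgroup.subtype_injective C), hE4] at h2
  have hne1 : a * b * a⁻¹ * b⁻¹ ≠ 1 := by
    intro h1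
    apply hab
    have h2 : a * b * a⁻¹ = b := eq_of_mul_inv_eq_one h1
    calc a * b = (a * b * a⁻¹) * a := by group
      _ = b * a := by rw [h2]
  have hsc := single_comm (G := C) (by
      intro c d
      rw [hcenC]
      exact ((hEmem _).1 (hcommC c c.2 d d.2)).1) hidx ⟨a, ha⟩ ⟨b, hb⟩
    (by
      intro h1
      exact hne1 (congrArg Subtype.val h1)) ⟨φ a, hCφ φ a ha⟩ ⟨φ b, hCφ φ b hb⟩
  -- so `φ u ∈ ⟨u⟩`
  obtain ⟨k, hk⟩ := Subgroup.mem_zpowers_iff.1 hsc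
  have hk' := congrArg Subtype.val hk
  simp only [Subgroup.coe_zpow, Subgroup.coe_mul, Subgroup.coe_inv] at hk'
  obtain ⟨u, hu⟩ : ∃ u, u = a * b * a⁻¹ * b⁻¹ := ⟨_, rfl⟩
  rw [← hu] at hk' hne1
  have huE : u ∈ E := hu ▸ hcommC a ha b hb
  have hφu : φ a * φ b * (φ a)⁻¹ * (φ b)⁻¹ = φ u := by
    rw [hu]
    simp
  rw [hφu] at hk'
  have hu2 : u * u = 1 := by rw [← pow_two]; exact hE2 u huE
  have hcases : u ^ k = 1 ∨ u ^ k = u := by
    rcases Int.even_or_odd' k with ⟨m, rfl | rfl⟩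
    · left
      rw [zpow_mul, zpow_two, hu2, one_zpow]
    · right
      rw [zpow_add, zpow_mul, zpow_two, hu2, one_zpow, one_mul, zpow_one]
  rcases hcases with h | h
  · rw [h] at hk'
    exact hne1 ((map_eq_one_iff φ φ.injective).1 hk'.symm)
  · rw [h] at hk'
    exact hfpf.ne_of_ne_one hE2 huE hne1 hk'.symm


/-- The reduction to the normal form. -/
theorem reduce_nf [Finite X] (hX : IsPGroup 2 X) (hna : ∃ a b : X, a * b ≠ b * a) (hE8 : NoE8 X)
    {H : Subgroup (MulAut X)} (hH : Odd (Nat.card H))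
    (hXA : Subgroup.closure {g : X | ∃ φ ∈ H, ∃ x : X, g = x⁻¹ * φ x} = ⊤) : NF X := by
  classical
  haveI : Fact (Nat.Prime 2) := ⟨Nat.prime_two⟩
  obtain ⟨C, hCch, hC2, hCx, hCs⟩ := Cfsg.Agent.Lib.PHall.exists_critical' hX
  haveI := hCch
  have hCn : C.Normal := inferInstance
  have hCφ : ∀ ψ : MulAut X, ∀ a ∈ C, ψ a ∈ C := by
    intro ψ a ha
    have h1 := hCch.fixed ψ
    have h2 : ψ a ∈ C.comap (ψ.symm).toMonoidHom := by
      simpa using ha
    rwa [hCch.fixed ψ.symm] at h2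
  obtain ⟨Z₁, hZ₁⟩ : ∃ Z₁, Z₁ = C ⊓ Subgroup.centralizer (C : Set X) := ⟨_, rfl⟩
  rw [← hZ₁] at hC2 hCx
  have hZ₁C : ∀ a ∈ Z₁, a ∈ C := fun a ha => by rw [hZ₁] at ha; exact ha.1
  have hZ₁z : ∀ a ∈ Z₁, ∀ c ∈ C, c * a = a * c := fun a ha c hc => by
    rw [hZ₁] at ha
    exact Subgroup.mem_centralizer_iff.1 ha.2 c hc
  have hZ₁mem : ∀ a ∈ C, (∀ c ∈ C, c * a = a * c) → a ∈ Z₁ := fun a ha h => by
    rw [hZ₁]
    exact ⟨ha, Subgroup.mem_centralizer_iff.2 h⟩
  have hZ₁c : ∀ a ∈ Z₁, ∀ b ∈ Z₁, a * b = b * a := fun a ha b hb => hZ₁z b hb a (hZ₁C a ha)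
  have hZ₁φ : ∀ ψ : MulAut X, ∀ a ∈ Z₁, ψ a ∈ Z₁ := by
    intro ψ a ha
    apply hZ₁mem _ (hCφ ψ a (hZ₁C a ha))
    intro c hc
    have h1 := hZ₁z a ha _ (hCφ ψ.symm c hc)
    have h2 := congrArg ψ h1
    simpa using h2
  have hZ₁n : Z₁.Normal := by
    constructor
    intro a ha g
    have := hZ₁φ (MulAut.conj g) a ha
    simpa using this
  have hnf : (∀ z ∈ Z₁, z ∈ Subgroup.center X) → NF X := by
    intro h
    rw [hZ₁] at h
    apply nf_of_central C _ _ hCs h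
    · rw [← hZ₁]; exact hC2
    · rw [← hZ₁]; exact hCx
  by_cases hfix : ∀ φ ∈ H, ∀ z ∈ Z₁, φ z = z
  · exact hnf (central_of_fixed hXA Z₁ hZ₁n hfix)
  push Not at hfix
  obtain ⟨φ, hφ, z₀, hz₀, hmv⟩ := hfix
  have hodd := orderOf_odd hH hφ
  -- a moved involution
  obtain ⟨e₀, he₀, he₀2, he₀mv⟩ : ∃ e ∈ Z₁, e ^ 2 = 1 ∧ φ e ≠ e := by
    by_contra hc
    push Not at hc
    exact hmv (fixed_of_omega hX φ hodd Z₁ hZ₁c (hZ₁φ φ) hc z₀ hz₀)
  obtain ⟨E, hE⟩ : ∃ E, E = omega1 Z₁ hZ₁c := ⟨_, rfl⟩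
  have hEmem : ∀ a, a ∈ E ↔ a ∈ Z₁ ∧ a ^ 2 = 1 := fun a => by rw [hE]; exact Iff.rfl
  have hE2 : ∀ a ∈ E, a ^ 2 = 1 := fun a ha => ((hEmem a).1 ha).2
  have hEφ' : ∀ ψ : MulAut X, ∀ e ∈ E, ψ e ∈ E := by
    intro ψ e he
    rw [hEmem] at he ⊢
    refine ⟨hZ₁φ ψ e he.1, ?_⟩
    rw [← map_pow, he.2, map_one]
  have hEφ := hEφ' φ
  have hE4le : Nat.card E ≤ 4 := by
    rw [hE]
    exact card_omega1_le hE8 Z₁ hZ₁n hZ₁c
  obtain ⟨hE4, hfpf⟩ := fpf_of_moved φ hodd E hE2 hE4le hEφ e₀ ((hEmem _).2 ⟨he₀, he₀2⟩) he₀mv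
  have hEn : E.Normal := by
    constructor
    intro a ha g
    have := hEφ' (MulAut.conj g) a ha
    simpa using this
  have hEc := hfpf.le_center hX hE2 hE4 hEφ hEn
  by_cases hsq : ∀ z ∈ Z₁, z ^ 2 = 1
  · apply hnf
    intro z hz
    exact hEc ((hEmem z).2 ⟨hz, hsq z hz⟩)
  push Not at hsq
  obtain ⟨z₁, hz₁, hz₁2⟩ := hsq
  have hCab : ∀ a ∈ C, ∀ b ∈ C, a * b = b * a :=
    crit_abelian hX hE8 hH C hCφ (by rw [← hZ₁]; exact hC2) (by rw [← hZ₁]; exact hCx) hφ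
      (hZ₁ ▸ hz₀) hmv (hZ₁ ▸ hz₁) hz₁2
  -- apply the module case to `C`
  obtain ⟨E', hE'⟩ : ∃ E', E' = omega1 C hCab := ⟨_, rfl⟩
  have hE'mem : ∀ a, a ∈ E' ↔ a ∈ C ∧ a ^ 2 = 1 := fun a => by rw [hE']; exact Iff.rfl
  have hE'4le : Nat.card (omega1 C hCab) ≤ 4 := card_omega1_le hE8 C hCn hCab
  obtain ⟨hE'4, hfpf'⟩ := fpf_of_moved φ hodd (omega1 C hCab) (fun a ha => ha.2) hE'4le
    (fun e he => ⟨hCφ φ e he.1, by rw [← map_pow, he.2, map_one]⟩) e₀ ⟨hZ₁C _ he₀, he₀2⟩ he₀mv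
  refine module_case hX hE8 hH hXA C hCn hCab ?_ (fun ψ _ z hz => hCφ ψ z hz) hφ hE'4 hfpf'
    ⟨z₁, hZ₁C _ hz₁, hz₁2⟩ ?_
  · intro g hg
    apply hCs
    rw [Subgroup.mem_centralizer_iff]
    intro c hc
    exact (hg c hc).symm
  · intro htop
    obtain ⟨a, b, hab⟩ := hna
    exact hab (hCab a (by rw [htop]; trivial) b (by rw [htop]; trivial))

end Cfsg.Agent.Lib.SCN3Red
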