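import Mathlib
import Cfsg.Agent.Lib.SCN3Red
import Cfsg.Agent.Lib.Frat
import Cfsg.Agent.Lib.CoprimeAut

/-!
# 2-groups of class 2 with `X/Z(X)` elementary abelian, no normal E₈, and `[X, A] = X`
-/

set_option autoImplicit false
set_option linter.unusedSectionVars false
set_option linter.unusedVariables false
set_option linter.style.haveILetI false

universe u

namespace Cfsg.Agent.Lib.SCN3NF

open Cfsg.Agent.Lib.SCN3Base Cfsg.Agent.Lib.SCN3Red

variable {X : Type u} [Group X]

/-- The commutator. -/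
def cm (x y : X) : X := x * y * x⁻¹ * y⁻¹

theorem cen_comm {z : X} (hz : z ∈ Subgroup.center X) (g : X) : g * z = z * g :=
  Subgroup.mem_center_iff.1 hz g

variable (hN : NF X)
include hN

theorem cm_cen (x y : X) : cm x y ∈ Subgroup.center X := hN.1 x y

theorem cm_mul_left (x y w : X) : cm (x * y) w = cm x w * cm y w := by
  have h1 := cen_comm (cm_cen hN y w) x
  unfold cm at h1 ⊢
  calc (x * y) * w * (x * y)⁻¹ * w⁻¹ = x * (y * w * y⁻¹ * w⁻¹) * (w * x⁻¹ * w⁻¹) := by group
    _ = (y * w * y⁻¹ * w⁻¹) * x * (w * x⁻¹ * w⁻¹) := by rw [h1]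
    _ = (y * w * y⁻¹ * w⁻¹) * (x * w * x⁻¹ * w⁻¹) := by group
    _ = (x * w * x⁻¹ * w⁻¹) * (y * w * y⁻¹ * w⁻¹) := by
      exact (cen_comm (show y * w * y⁻¹ * w⁻¹ ∈ Subgroup.center X from cm_cen hN y w) _).symm

theorem cm_inv (x y : X) : cm y x = (cm x y)⁻¹ := by
  unfold cm; group

theorem cm_mul_right (x y w : X) : cm x (y * w) = cm x y * cm x w := by
  rw [cm_inv hN (y * w) x, cm_mul_left hN, mul_inv_rev, ← cm_inv hN, ← cm_inv hN]
  exact (cen_comm (cm_cen hN x w) _).symm

theorem cm_cen_left {z : X} (hz : z ∈ Subgroup.center X) (y : X) : cm z y = 1 := by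
  unfold cm
  rw [← cen_comm hz y]
  group

theorem cm_cen_right {z : X} (hz : z ∈ Subgroup.center X) (y : X) : cm y z = 1 := by
  unfold cm
  rw [cen_comm hz y]
  group

theorem cm_two (x y : X) : cm x y * cm x y = 1 := by
  rw [← cm_mul_left hN]
  apply cm_cen_left hN
  rw [← pow_two]
  exact hN.2 x

theorem cm_symm (x y : X) : cm y x = cm x y := by
  rw [cm_inv hN]
  exact inv_eq_of_mul_eq_one_left (cm_two hN x y)

theorem cm_self (x : X) : cm x x = 1 := by
  unfold cm; group

theorem cm_eq_one_iff (x y : X) : cm x y = 1 ↔ x * y = y * x := by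
  unfold cm
  constructor
  · intro h
    have h2 : x * y * x⁻¹ = y := eq_of_mul_inv_eq_one h
    calc x * y = (x * y * x⁻¹) * x := by group
      _ = y * x := by rw [h2]
  · intro h
    rw [h]; group

theorem mem_center_iff_cm (x : X) : x ∈ Subgroup.center X ↔ ∀ y, cm x y = 1 := by
  rw [Subgroup.mem_center_iff]
  constructor
  · intro h y
    rw [cm_eq_one_iff hN]
    exact (h y).symm
  · intro h y
    exact ((cm_eq_one_iff hN _ _).1 (h y)).symm

theorem sq_mul (x y : X) : (x * y) ^ 2 = x ^ 2 * y ^ 2 * cm x y := by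
  have h1 := cen_comm (cm_cen hN y x) x
  have e1 : y * x = cm y x * (x * y) := by unfold cm; group
  rw [cm_symm hN x y] at e1
  simp only [pow_two]
  calc x * y * (x * y) = x * (y * x) * y := by group
    _ = x * (cm x y * (x * y)) * y := by rw [e1]
    _ = (x * cm x y) * (x * y) * y := by group
    _ = (cm x y * x) * (x * y) * y := by rw [cen_comm (cm_cen hN x y) x]
    _ = cm x y * (x * x * (y * y)) := by group
    _ = x * x * (y * y) * cm x y := by exact (cen_comm (cm_cen hN x y) _).symm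

theorem cm_sq_left (x y : X) : (cm x y) ^ 2 = 1 := by
  rw [pow_two]; exact cm_two hN x y

omit hN in
/-- Main structure: the center is the derived subgroup and is elementary abelian. -/
theorem center_structure [Finite X] (hN : NF X) (hX : IsPGroup 2 X) (hna : ∃ a b : X, a * b ≠ b * a)
    (hE8 : NoE8 X) {H : Subgroup (MulAut X)} (hH : Odd (Nat.card H))
    (hXA : Subgroup.closure {g : X | ∃ φ ∈ H, ∃ x : X, g = x⁻¹ * φ x} = ⊤) :
    Subgroup.center X = commutator X ∧ ∀ z ∈ Subgroup.center X, z ^ 2 = 1 := by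
  classical
  haveI : Fact (Nat.Prime 2) := ⟨Nat.prime_two⟩
  have hZc : ∀ a ∈ Subgroup.center X, ∀ b ∈ Subgroup.center X, a * b = b * a :=
    fun a ha b hb => (cen_comm hb a)
  have hZn : (Subgroup.center X).Normal := inferInstance
  obtain ⟨E, hE⟩ : ∃ E, E = omega1 (Subgroup.center X) hZc := ⟨_, rfl⟩
  have hEmem : ∀ a, a ∈ E ↔ a ∈ Subgroup.center X ∧ a ^ 2 = 1 := fun a => by rw [hE]; exact Iff.rfl
  have hDE : commutator X ≤ E := by
    rw [commutator_eq_closure, Subgroup.closure_le]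
    rintro _ ⟨x, y, rfl⟩
    rw [SetLike.mem_coe, hEmem]
    exact ⟨cm_cen hN x y, cm_sq_left hN x y⟩
  have hDZ : commutator X ≤ Subgroup.center X := fun g hg => ((hEmem g).1 (hDE hg)).1
  have hZφ : ∀ ψ : MulAut X, ∀ z ∈ Subgroup.center X, ψ z ∈ Subgroup.center X := by
    intro ψ z hz
    rw [Subgroup.mem_center_iff] at hz ⊢
    intro g
    have := congrArg ψ (hz (ψ.symm g))
    simpa using this
  by_cases hfix : ∀ φ ∈ H, ∀ z ∈ Subgroup.center X, φ z = z
  · have hZD : Subgroup.center X ≤ commutator X := by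
      intro z hz
      apply Cfsg.Agent.Lib.CoprimeAut.fixed_mem_commutator hX H
        (Nat.coprime_two_right.2 hH)
        (by
          rw [← hXA]
          congr 1
          ext g
          constructor
          · rintro ⟨x, φ, hφ, rfl⟩
            exact ⟨φ, hφ, x, rfl⟩
          · rintro ⟨φ, hφ, x, rfl⟩
            exact ⟨x, φ, hφ, rfl⟩)
      intro φ hφ
      exact hfix φ hφ z hz
    have heq := le_antisymm hZD hDZ
    refine ⟨heq, ?_⟩
    intro z hz
    exact ((hEmem z).1 (hDE (hZD hz))).2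
  push Not at hfix
  obtain ⟨φ, hφ, z₀, hz₀, hmv⟩ := hfix
  have hodd := orderOf_odd hH hφ
  -- the center is elementary abelian
  have htop : ∀ z, z ∈ (⊤ : Subgroup X) ⊓ Subgroup.centralizer ((⊤ : Subgroup X) : Set X) ↔
      z ∈ Subgroup.center X := by
    intro z
    rw [Subgroup.mem_inf, Subgroup.mem_centralizer_iff, Subgroup.mem_center_iff]
    constructor
    · rintro ⟨-, h⟩ g
      exact h g trivial
    · intro h
      exact ⟨trivial, fun g _ => h g⟩
  have hel : ∀ z ∈ Subgroup.center X, z ^ 2 = 1 := by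
    by_contra hne
    push Not at hne
    obtain ⟨z₁, hz₁, hz₁2⟩ := hne
    have hab := crit_abelian hX hE8 hH (⊤ : Subgroup X) (fun _ _ _ => trivial)
      (fun a _ => (htop _).2 (hN.2 a)) (fun y a _ => (htop _).2 (hN.1 y a)) hφ
      ((htop _).2 hz₀) hmv ((htop _).2 hz₁) hz₁2
    obtain ⟨a, b, h⟩ := hna
    exact h (hab a trivial b trivial)
  refine ⟨?_, hel⟩
  have hE2 : ∀ a ∈ E, a ^ 2 = 1 := fun a ha => ((hEmem a).1 ha).2
  have hEφ : ∀ e ∈ E, φ e ∈ E := by
    intro e he
    rw [hEmem] at he ⊢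
    refine ⟨hZφ φ e he.1, ?_⟩
    rw [← map_pow, he.2, map_one]
  have hE4le : Nat.card E ≤ 4 := by
    rw [hE]
    exact card_omega1_le hE8 _ hZn hZc
  obtain ⟨hE4, hfpf⟩ := fpf_of_moved φ hodd E hE2 hE4le hEφ z₀ ((hEmem _).2 ⟨hz₀, hel _ hz₀⟩) hmv
  obtain ⟨a, b, hab⟩ := hna
  have hu : cm a b ≠ 1 := fun h => hab ((cm_eq_one_iff hN a b).1 h)
  have huD : cm a b ∈ commutator X := by
    rw [commutator_eq_closure]
    exact Subgroup.subset_closure ⟨a, b, rfl⟩
  have hDφ : ∀ z ∈ commutator X, φ z ∈ commutator X := by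
    have h1 : (commutator X).map φ.toMonoidHom ≤ commutator X := by
      rw [commutator_eq_closure, MonoidHom.map_closure, Subgroup.closure_le]
      rintro _ ⟨_, ⟨x, y, rfl⟩, rfl⟩
      apply Subgroup.subset_closure
      refine ⟨φ x, φ y, ?_⟩
      simp [commutatorElement_def]
    intro z hz
    exact h1 ⟨z, hz, rfl⟩
  have hED := hfpf.le_of_mem hE2 hE4 hEφ _ hDφ (hDE huD) hu huD
  apply le_antisymm _ hDZ
  intro z hz
  exact hED ((hEmem z).2 ⟨hz, hel z hz⟩)

end Cfsg.Agent.Lib.SCN3NF
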