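import Mathlib
import Cfsg.Agent.Lib.SCN3NF
import Cfsg.Agent.Lib.AnisoCore
import Cfsg.Agent.Lib.OddAutTwo

/-!
# The case of a center of order 4
-/

set_option autoImplicit false
set_option linter.unusedSectionVars false
set_option linter.unusedVariables false
set_option linter.style.haveILetI false

universe u

namespace Cfsg.Agent.Lib.SCN3Four

open Cfsg.Agent.Lib.SCN3Base Cfsg.Agent.Lib.SCN3Red Cfsg.Agent.Lib.SCN3NF

variable {X : Type u} [Group X]

/-- A group with center of index at most `2` is abelian. -/
theorem comm_of_index_le_two {G : Type*} [Group G] [Finite G] (h : (Subgroup.center G).index ≤ 2)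
    (a b : G) : a * b = b * a := by
  have h0 : (Subgroup.center G).index ≠ 0 := Subgroup.index_ne_zero_of_finite
  by_cases h1 : (Subgroup.center G).index = 1
  · have h2 := Subgroup.index_eq_one.1 h1
    have : a ∈ Subgroup.center G := by rw [h2]; trivial
    exact (Subgroup.mem_center_iff.1 this b).symm
  · have h2 : (Subgroup.center G).index = 2 := by omega
    by_cases ha : a ∈ Subgroup.center G
    · exact (Subgroup.mem_center_iff.1 ha b).symm
    by_cases hb : b ∈ Subgroup.center G
    · exact (Subgroup.mem_center_iff.1 hb a)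
    have h3 : a * b ∈ Subgroup.center G := by
      rw [Subgroup.mul_mem_iff_of_index_two h2]
      exact iff_of_false ha hb
    have h4 := Subgroup.mem_center_iff.1 h3 a
    have h5 : a * (a * b) = a * (b * a) := by
      rw [h4]
      group
    exact mul_left_cancel h5

/-- The centralizer of an element. -/
abbrev cent (p : X) : Subgroup X := Subgroup.centralizer ({p} : Set X)

theorem mem_cent {p g : X} : g ∈ cent p ↔ g * p = p * g := Subgroup.mem_centralizer_singleton_iff

section

variable (hN : NF X) [Finite X] (hX : IsPGroup 2 X)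
  (h4 : Nat.card (Subgroup.center X) = 4) (h32 : Nat.card X = 32)

include hN in
theorem mem_cent_iff {p g : X} : g ∈ cent p ↔ cm p g = 1 := by
  rw [mem_cent, cm_eq_one_iff hN]
  exact ⟨fun h => h.symm, fun h => h.symm⟩

include hN hX h4 h32 in
/-- A centralizer of order at least 16 is abelian. -/
theorem cent_abelian {p : X} (hp : p ∉ Subgroup.center X) (h16 : 16 ≤ Nat.card (cent p)) :
    ∀ a ∈ cent p, ∀ b ∈ cent p, a * b = b * a := by
  classical
  haveI : Fact (Nat.Prime 2) := ⟨Nat.prime_two⟩
  -- the order of `cent p`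
  have hne : cent p ≠ ⊤ := by
    intro h
    apply hp
    rw [Subgroup.mem_center_iff]
    intro g
    have : g ∈ cent p := by rw [h]; trivial
    exact mem_cent.1 this
  have hcard : Nat.card (cent p) = 16 := by
    have h1 := Subgroup.card_mul_index (cent p)
    rw [h32] at h1
    have h2 : (cent p).index ≠ 1 := fun h => hne (Subgroup.index_eq_one.1 h)
    have h3 : (cent p).index ≠ 0 := Subgroup.index_ne_zero_of_finite
    have h5 : (cent p).index ≥ 2 := by omega
    nlinarith
  -- the center of `cent p`
  let E : Subgroup X := (Subgroup.center (cent p)).map (cent p).subtype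
  have hEmem : ∀ g : cent p, (g : X) ∈ E ↔ g ∈ Subgroup.center (cent p) := by
    intro g
    constructor
    · rintro ⟨g', hg', hgg⟩
      have : g' = g := Subtype.ext hgg
      rwa [← this]
    · intro hg
      exact ⟨g, hg, rfl⟩
  have hZE : Subgroup.center X ≤ E := by
    intro z hz
    have hzc : z ∈ cent p := by
      rw [mem_cent]
      exact (Subgroup.mem_center_iff.1 hz p).symm
    refine (hEmem ⟨z, hzc⟩).2 ?_
    rw [Subgroup.mem_center_iff]
    intro g
    apply Subtype.ext
    exact Subgroup.mem_center_iff.1 hz g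
  have hpE : p ∈ E := by
    have hpc : p ∈ cent p := by rw [mem_cent]
    refine (hEmem ⟨p, hpc⟩).2 ?_
    rw [Subgroup.mem_center_iff]
    intro g
    apply Subtype.ext
    exact (mem_cent.1 g.2)
  have hE8' : 8 ≤ Nat.card E := by
    obtain ⟨k, hk⟩ := Subgroup.card_dvd_of_le hZE
    rw [h4] at hk
    have hpos : 0 < Nat.card E := Nat.card_pos
    have hk1 : k ≠ 1 := by
      rintro rfl
      rw [mul_one] at hk
      have : Subgroup.center X = E := Subgroup.eq_of_le_of_card_ge hZE (by rw [hk, h4])
      exact hp (this ▸ hpE)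
    have hk0 : k ≠ 0 := by
      rintro rfl
      omega
    have : 2 ≤ k := by omega
    omega
  have hidx : (Subgroup.center (cent p)).index ≤ 2 := by
    have h1 := Subgroup.card_mul_index (Subgroup.center (cent p))
    have h2 : Nat.card E = Nat.card (Subgroup.center (cent p)) :=
      Subgroup.card_map_of_injective (Subgroup.subtype_injective _)
    rw [hcard, ← h2] at h1
    by_contra hlt
    push Not at hlt
    nlinarith
  intro a ha b hb
  have := comm_of_index_le_two hidx ⟨a, ha⟩ ⟨b, hb⟩
  exact congrArg Subtype.val this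

include hN hX h4 h32 in
/-- Two large centralizers coincide. -/
theorem cent_unique {p p' : X} (hp : p ∉ Subgroup.center X) (h16 : 16 ≤ Nat.card (cent p))
    (hp' : p' ∉ Subgroup.center X) (h16' : 16 ≤ Nat.card (cent p')) : cent p = cent p' := by
  classical
  have hab := cent_abelian hN hX h4 h32 hp h16
  have hab' := cent_abelian hN hX h4 h32 hp' h16'
  have hidx : ∀ A : Subgroup X, 16 ≤ Nat.card A → A.index ≤ 2 := by
    intro A hA
    have h1 := Subgroup.card_mul_index A
    rw [h32] at h1
    by_contra hlt
    push Not at hlt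
    nlinarith
  by_contra hne
  have hinf : Nat.card (cent p ⊓ cent p' : Subgroup X) ≥ 8 := by
    have h1 := Subgroup.index_inf_le (H := cent p) (K := cent p')
    have h2 := hidx _ h16
    have h3 := hidx _ h16'
    have h5 := Subgroup.card_mul_index (cent p ⊓ cent p' : Subgroup X)
    rw [h32] at h5
    have h6 : (cent p ⊓ cent p' : Subgroup X).index ≤ 4 := by nlinarith
    by_contra hlt
    push Not at hlt
    nlinarith
  have hsup : cent p ⊔ cent p' = ⊤ := by
    have h1 : (cent p ⊔ cent p').index ∣ (cent p).index := Subgroup.index_dvd_of_le le_sup_left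
    have h2 := hidx _ h16
    have h3 : (cent p ⊔ cent p').index ≠ 2 := by
      intro h5
      have h6 := Subgroup.card_mul_index (cent p ⊔ cent p')
      rw [h32, h5] at h6
      have h7 : cent p = cent p ⊔ cent p' :=
        Subgroup.eq_of_le_of_card_ge le_sup_left (by omega)
      have h8 : cent p' = cent p ⊔ cent p' :=
        Subgroup.eq_of_le_of_card_ge le_sup_right (by omega)
      exact hne (h7.trans h8.symm)
    have h5 : (cent p).index ≠ 0 := Subgroup.index_ne_zero_of_finite
    have h6 : (cent p ⊔ cent p').index ≤ 2 := (Nat.le_of_dvd (by omega) h1).trans h2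
    have h7 : (cent p ⊔ cent p').index ≠ 0 := Subgroup.index_ne_zero_of_finite
    apply Subgroup.index_eq_one.1
    omega
  have hle : (cent p ⊓ cent p' : Subgroup X) ≤ Subgroup.center X := by
    intro g hg
    rw [Subgroup.mem_center_iff]
    intro x
    have h1 : cent p ⊔ cent p' ≤ cent g := by
      apply sup_le
      · intro a ha
        rw [mem_cent]
        exact hab a ha g hg.1
      · intro a ha
        rw [mem_cent]
        exact hab' a ha g hg.2
    have h2 : x ∈ cent g := h1 (by rw [hsup]; trivial)
    exact mem_cent.1 h2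
  have := Subgroup.card_le_of_le hle
  omega

include hN hX h4 h32 in
theorem no_large_cent {H : Subgroup (MulAut X)}
    (hXA : Subgroup.closure {g : X | ∃ φ ∈ H, ∃ x : X, g = x⁻¹ * φ x} = ⊤)
    {p : X} (hp : p ∉ Subgroup.center X) (h16 : 16 ≤ Nat.card (cent p)) : False := by
  classical
  have hmap : ∀ ψ : MulAut X, cent (ψ p) = (cent p).map ψ.toMonoidHom := by
    intro ψ
    ext g
    rw [mem_cent]
    constructor
    · intro h
      refine ⟨ψ.symm g, ?_, by simp⟩
      rw [SetLike.mem_coe, mem_cent]
      have := congrArg ψ.symm h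
      simpa using this
    · rintro ⟨g', hg', rfl⟩
      have := congrArg ψ (mem_cent.1 hg')
      simpa using this
  have hcardm : ∀ ψ : MulAut X, Nat.card (cent (ψ p)) = Nat.card (cent p) := by
    intro ψ
    rw [hmap]
    exact Subgroup.card_map_of_injective ψ.injective
  have hpnot : ∀ ψ : MulAut X, ψ p ∉ Subgroup.center X := by
    intro ψ h
    apply hp
    rw [Subgroup.mem_center_iff] at h ⊢
    intro g
    have := h (ψ g)
    exact ψ.injective (by simpa using this)
  have huniq : ∀ ψ : MulAut X, cent (ψ p) = cent p := fun ψ =>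
    cent_unique hN hX h4 h32 (hpnot ψ) (by rw [hcardm]; exact h16) hp h16
  have hne : cent p ≠ ⊤ := by
    intro h
    apply hp
    rw [Subgroup.mem_center_iff]
    intro g
    have : g ∈ cent p := by rw [h]; trivial
    exact mem_cent.1 this
  have hidx : (cent p).index = 2 := by
    have h1 := Subgroup.card_mul_index (cent p)
    rw [h32] at h1
    have h2 : (cent p).index ≠ 1 := fun h => hne (Subgroup.index_eq_one.1 h)
    have h3 : (cent p).index ≠ 0 := Subgroup.index_ne_zero_of_finite
    have h5 : (cent p).index ≤ 2 := by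
      by_contra hlt
      push Not at hlt
      nlinarith
    omega
  apply hne
  apply top_of_mem hXA
  intro ψ hψ x
  rw [Subgroup.mul_mem_iff_of_index_two hidx, Subgroup.inv_mem_iff]
  constructor
  · intro hx
    have h1 := huniq ψ
    rw [← h1, mem_cent]
    have := congrArg ψ (mem_cent.1 hx)
    simpa using this
  · intro hx
    have h1 := huniq ψ⁻¹
    rw [mem_cent] at hx
    rw [← h1, mem_cent]
    have e : ∀ g, ψ (ψ⁻¹ g) = g := fun g => ψ.apply_symm_apply g
    apply ψ.injective
    rw [map_mul, map_mul, e]
    exact hx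

include hN hX h4 h32 in
/-- A pair of commuting independent elements gives a large centralizer. -/
theorem large_of_pair {p q : X} (hp : p ∉ Subgroup.center X) (hq : q ∉ Subgroup.center X)
    (hpq : p * q ∉ Subgroup.center X) (hc : cm p q = 1) : 16 ≤ Nat.card (cent p) := by
  classical
  have hZn : (Subgroup.center X).Normal := inferInstance
  let B : Subgroup X := Cfsg.Agent.Lib.OddAutTwo.ext2 (Subgroup.center X) hZn p (hN.2 p)
  have hBmem : ∀ g, g ∈ B ↔ g ∈ Subgroup.center X ∨ p⁻¹ * g ∈ Subgroup.center X := fun g => Iff.rfl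
  have hZB : Subgroup.center X ≤ B := fun g hg => Or.inl hg
  have hpB : p ∈ B := Or.inr (by rw [inv_mul_cancel]; exact Subgroup.one_mem _)
  have hBC : B ≤ cent p := by
    intro g hg
    rw [mem_cent]
    rcases hg with hg | hg
    · exact (Subgroup.mem_center_iff.1 hg p).symm
    · have h1 := Subgroup.mem_center_iff.1 hg p
      obtain ⟨z, hz⟩ : ∃ z, z = p⁻¹ * g := ⟨_, rfl⟩
      rw [← hz] at h1
      have h2 : g = p * z := by rw [hz]; group
      rw [h2]
      calc p * z * p = p * (z * p) := mul_assoc _ _ _
        _ = p * (p * z) := by rw [h1]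
  have hqB : q ∉ B := by
    rintro (h | h)
    · exact hq h
    · apply hpq
      have h1 := Subgroup.mul_mem _ (hN.2 p) h
      have h2 : p ^ 2 * (p⁻¹ * q) = p * q := by rw [pow_two]; group
      rwa [h2] at h1
  have hqC : q ∈ cent p := (mem_cent_iff hN).2 hc
  have hB8 : 8 ≤ Nat.card B := by
    obtain ⟨k, hk⟩ := Subgroup.card_dvd_of_le hZB
    rw [h4] at hk
    have hpos : 0 < Nat.card B := Nat.card_pos
    have hk1 : k ≠ 1 := by
      rintro rfl
      rw [mul_one] at hk
      have : Subgroup.center X = B := Subgroup.eq_of_le_of_card_ge hZB (by rw [hk, h4])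
      exact hp (this ▸ hpB)
    have hk0 : k ≠ 0 := by
      rintro rfl
      omega
    have : 2 ≤ k := by omega
    omega
  obtain ⟨k, hk⟩ := Subgroup.card_dvd_of_le hBC
  have hpos : 0 < Nat.card (cent p) := Nat.card_pos
  have hk1 : k ≠ 1 := by
    rintro rfl
    rw [mul_one] at hk
    have : B = cent p := Subgroup.eq_of_le_of_card_ge hBC (by rw [hk])
    exact hqB (this ▸ hqC)
  have hk0 : k ≠ 0 := by
    rintro rfl
    omega
  have : 2 ≤ k := by omega
  nlinarith

include hN hX h4 h32 in
/-- Existence of a large centralizer. -/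
theorem exists_large (hna : ∃ a b : X, a * b ≠ b * a) (hel : ∀ z ∈ Subgroup.center X, z ^ 2 = 1) :
    ∃ p, p ∉ Subgroup.center X ∧ 16 ≤ Nat.card (cent p) := by
  classical
  by_contra hall
  push Not at hall
  obtain ⟨a, b₀, hab₀⟩ := hna
  have ha : a ∉ Subgroup.center X := fun h => hab₀ (Subgroup.mem_center_iff.1 h b₀).symm
  -- the homomorphism `x ↦ [a, x]`
  let f : X →* Subgroup.center X := MonoidHom.mk' (fun x => ⟨cm a x, cm_cen hN a x⟩) (by
    intro x y
    apply Subtype.ext
    exact cm_mul_right hN a x y)
  have hfv : ∀ x, ((f x : Subgroup.center X) : X) = cm a x := fun x => rfl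
  have hker : f.ker = cent a := by
    ext x
    rw [MonoidHom.mem_ker, mem_cent_iff hN]
    constructor
    · intro h
      exact congrArg Subtype.val h
    · intro h
      exact Subtype.ext h
  have hrange : Nat.card f.range = (cent a).index := by
    rw [← hker, Subgroup.index_ker]
  have hsurj : f.range = ⊤ := by
    have h1 := hall a ha
    have h2 := Subgroup.card_mul_index (cent a)
    rw [h32] at h2
    have h3 : (cent a).index ≥ 3 := by
      by_contra hlt
      push Not at hlt
      nlinarith
    have h5 : Nat.card f.range ∣ Nat.card (Subgroup.center X) := Subgroup.card_subgroup_dvd_card _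
    rw [h4] at h5
    have h6 : Nat.card f.range ≤ 4 := Nat.le_of_dvd (by norm_num) h5
    rw [← hrange] at h3
    have h7 : Nat.card f.range = 4 := by
      have h8 : Nat.card f.range ≠ 3 := by
        intro h8
        rw [h8] at h5
        omega
      omega
    apply Subgroup.eq_top_of_card_eq
    rw [h7, h4]
  have hsurj' : ∀ z ∈ Subgroup.center X, ∃ x, cm a x = z := by
    intro z hz
    have h1 : (⟨z, hz⟩ : Subgroup.center X) ∈ f.range := by rw [hsurj]; trivial
    obtain ⟨x, hx⟩ := h1
    exact ⟨x, congrArg Subtype.val hx⟩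
  -- elements of the center
  haveI : Fintype (Subgroup.center X) := Fintype.ofFinite _
  obtain ⟨u, hu, hu1⟩ : ∃ u ∈ Subgroup.center X, u ≠ 1 := by
    by_contra hc
    push Not at hc
    have : Subgroup.center X = ⊥ := by
      rw [eq_bot_iff]
      exact fun g hg => hc g hg
    rw [this] at h4
    simp at h4
  obtain ⟨v, hv, hv1, hvu⟩ : ∃ v ∈ Subgroup.center X, v ≠ 1 ∧ v ≠ u := by
    by_contra hc
    push Not at hc
    have h1 : ∀ g ∈ Subgroup.center X, g = 1 ∨ g = u := by
      intro g hg
      by_cases h : g = 1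
      · exact Or.inl h
      · exact Or.inr (hc g hg h)
    have h2 : Nat.card (Subgroup.center X) ≤ 2 := by
      have : (Finset.univ : Finset (Subgroup.center X)) ⊆
          {⟨1, Subgroup.one_mem _⟩, ⟨u, hu⟩} := by
        intro g _
        simp only [Finset.mem_insert, Finset.mem_singleton, Subtype.ext_iff]
        exact h1 g g.2
      have h3 := Finset.card_le_card this
      rw [Finset.card_univ, ← Nat.card_eq_fintype_card] at h3
      exact h3.trans (Finset.card_le_two)
    omega
  have huu : u * u = 1 := by rw [← pow_two]; exact hel u hu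
  have hvv : v * v = 1 := by rw [← pow_two]; exact hel v hv
  have huv1 : u * v ≠ 1 := by
    intro h
    apply hvu
    have : u * v = u * u := by rw [h, huu]
    exact mul_left_cancel this
  have huvu : u * v ≠ u := fun h => hv1 (mul_left_cancel (h.trans (mul_one u).symm))
  have huvv : u * v ≠ v := fun h => hu1 (mul_right_cancel (h.trans (one_mul v).symm))
  -- the four-element description of the center
  have hZcases : ∀ g ∈ Subgroup.center X, g = 1 ∨ g = u ∨ g = v ∨ g = u * v := by
    intro g hg
    let s : Finset (Subgroup.center X) :=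
      {⟨1, Subgroup.one_mem _⟩, ⟨u, hu⟩, ⟨v, hv⟩, ⟨u * v, Subgroup.mul_mem _ hu hv⟩}
    have hs : s.card = 4 := by
      rw [Finset.card_insert_of_notMem, Finset.card_insert_of_notMem, Finset.card_insert_of_notMem,
        Finset.card_singleton]
      · simp only [Finset.mem_singleton, Subtype.mk.injEq]
        exact fun h => huvv h.symm
      · simp only [Finset.mem_insert, Finset.mem_singleton, Subtype.mk.injEq, not_or]
        exact ⟨fun h => hvu h.symm, fun h => huvu h.symm⟩
      · simp only [Finset.mem_insert, Finset.mem_singleton, Subtype.mk.injEq, not_or]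
        exact ⟨fun h => hu1 h.symm, fun h => hv1 h.symm, fun h => huv1 h.symm⟩
    have h5 : s = Finset.univ := by
      apply Finset.eq_univ_of_card
      rw [hs, ← Nat.card_eq_fintype_card, h4]
    have h6 : (⟨g, hg⟩ : Subgroup.center X) ∈ s := by rw [h5]; exact Finset.mem_univ _
    simp only [s, Finset.mem_insert, Finset.mem_singleton, Subtype.mk.injEq] at h6
    exact h6
  obtain ⟨b, hb⟩ := hsurj' u hu
  obtain ⟨c, hc⟩ := hsurj' v hv
  -- criterion for being non-central
  have hnc : ∀ g, cm a g ≠ 1 → g ∉ Subgroup.center X := by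
    intro g hg h
    exact hg (cm_cen_right hN h a)
  have hcmm : ∀ x y w : X, cm a (x * y * w) = cm a x * cm a y * cm a w := by
    intro x y w
    rw [cm_mul_right hN, cm_mul_right hN]
  have haa : cm a a = 1 := cm_self hN a
  have hfin : ∀ p q : X, cm a p ≠ 1 → cm a q ≠ 1 → cm a (p * q) ≠ 1 → cm p q ≠ 1 := by
    intro p q h1 h2 h3 h5
    have h6 := large_of_pair hN hX h4 h32 (hnc p h1) (hnc q h2) (hnc _ h3) h5
    have h7 := hall p (hnc p h1)
    omega
  have hcomm : ∀ x y z : X, x ∈ Subgroup.center X → y * x = x * y :=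
    fun x y z hx => Subgroup.mem_center_iff.1 hx y
  rcases hZcases _ (cm_cen hN b c) with h | h | h | h
  · -- `[b, c] = 1`
    refine hfin b c (by rw [hb]; exact hu1) (by rw [hc]; exact hv1) ?_ h
    rw [cm_mul_right hN, hb, hc]
    exact huv1
  · -- `[b, c] = u`: use `b`, `c a`
    refine hfin b (c * a) (by rw [hb]; exact hu1) ?_ ?_ ?_
    · rw [cm_mul_right hN, hc, haa, mul_one]
      exact hv1
    · rw [← mul_assoc, hcmm, hb, hc, haa, mul_one]
      exact huv1
    · rw [cm_mul_right hN, h, cm_symm hN a b, hb, huu]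
  · -- `[b, c] = v`: use `a b`, `c`
    refine hfin (a * b) c ?_ (by rw [hc]; exact hv1) ?_ ?_
    · rw [cm_mul_right hN, haa, one_mul, hb]
      exact hu1
    · rw [hcmm, haa, hb, hc, one_mul]
      exact huv1
    · rw [cm_mul_left hN, h, hc, hvv]
  · -- `[b, c] = u v`: use `a b`, `b c`
    refine hfin (a * b) (b * c) ?_ ?_ ?_ ?_
    · rw [cm_mul_right hN, haa, one_mul, hb]
      exact hu1
    · rw [cm_mul_right hN, hb, hc]
      exact huv1
    · have e : a * b * (b * c) = a * b * b * c := by group
      rw [e, cm_mul_right hN, hcmm, haa, hb, hc, one_mul, huu, one_mul]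
      exact hv1
    · rw [cm_mul_left hN, cm_mul_right hN a, cm_mul_right hN b, hb, hc, cm_self hN, one_mul, h]
      have huvc : v * u = u * v := cen_comm hu v
      calc u * v * (u * v) = u * (v * u) * v := by group
        _ = u * (u * v) * v := by rw [huvc]
        _ = (u * u) * (v * v) := by group
        _ = 1 := by rw [huu, hvv, one_mul]

end

/-- The main result for a center of order `4`. -/
theorem case_four [Finite X] (hN : NF X) (hX : IsPGroup 2 X) (hna : ∃ a b : X, a * b ≠ b * a)
    (hE8 : NoE8 X) {H : Subgroup (MulAut X)}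
    (hXA : Subgroup.closure {g : X | ∃ φ ∈ H, ∃ x : X, g = x⁻¹ * φ x} = ⊤)
    (hZD : Subgroup.center X = commutator X) (hel : ∀ z ∈ Subgroup.center X, z ^ 2 = 1)
    (h4 : Nat.card (Subgroup.center X) = 4) :
    Nat.card X = 64 ∧ Nat.card {x : X // orderOf x = 2} = 3 ∧
      ∀ x : X, orderOf x = 2 → x ∈ Subgroup.center X := by
  classical
  haveI : Fact (Nat.Prime 2) := ⟨Nat.prime_two⟩
  have hZn : (Subgroup.center X).Normal := inferInstance
  -- involutions are central
  have hinv : ∀ g : X, g ^ 2 = 1 → g ∈ Subgroup.center X := by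
    intro g hg
    by_contra hgZ
    refine noE8_ext hE8 (Subgroup.center X) hZn hel h4 g hg hgZ ?_ ?_
    · intro a ha
      exact cen_comm ha g
    · intro x
      exact cm_cen hN x g
  have hord : ∀ x : X, orderOf x = 2 ↔ x ∈ Subgroup.center X ∧ x ≠ 1 := by
    intro x
    constructor
    · intro h
      have h1 : x ^ 2 = 1 := by rw [← h]; exact pow_orderOf_eq_one x
      refine ⟨hinv x h1, ?_⟩
      rintro rfl
      simp at h
    · rintro ⟨h1, h2⟩
      exact orderOf_eq_prime (hel x h1) h2
  -- the index
  have hidx16 : (Subgroup.center X).index ≤ 16 := by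
    let q : X ⧸ Subgroup.center X → Subgroup.center X :=
      fun w => ⟨(Quotient.out w) ^ 2, hN.2 _⟩
    have hq : ∀ x : X, q (x : X ⧸ Subgroup.center X) = ⟨x ^ 2, hN.2 x⟩ := by
      intro x
      apply Subtype.ext
      show (Quotient.out (x : X ⧸ Subgroup.center X)) ^ 2 = x ^ 2
      obtain ⟨h, hh⟩ := QuotientGroup.mk_out_eq_mul (Subgroup.center X) x
      rw [hh]
      have h1 : Commute x (h : X) := (cen_comm h.2 x)
      rw [h1.mul_pow, hel _ h.2, mul_one]
    have hpol : ∀ x y : X, Cfsg.Agent.Lib.AnisoCore.pol q (x : X ⧸ Subgroup.center X)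
        (y : X ⧸ Subgroup.center X) = ⟨cm x y, cm_cen hN x y⟩ := by
      intro x y
      unfold Cfsg.Agent.Lib.AnisoCore.pol
      rw [← QuotientGroup.mk_mul, hq, hq, hq]
      apply Subtype.ext
      show (x * y) ^ 2 * x ^ 2 * y ^ 2 = cm x y
      rw [sq_mul hN]
      have e1 := cen_comm (hN.2 x)
      have e2 := cen_comm (hN.2 y)
      have e3 := cen_comm (cm_cen hN x y)
      have h1 := hel _ (hN.2 x)
      have h2 := hel _ (hN.2 y)
      rw [pow_two (x ^ 2)] at h1
      rw [pow_two (y ^ 2)] at h2
      calc x ^ 2 * y ^ 2 * cm x y * x ^ 2 * y ^ 2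
          = x ^ 2 * y ^ 2 * (cm x y * x ^ 2) * y ^ 2 := by group
        _ = x ^ 2 * (y ^ 2 * x ^ 2) * cm x y * y ^ 2 := by rw [e1 (cm x y)]; group
        _ = x ^ 2 * x ^ 2 * y ^ 2 * (cm x y * y ^ 2) := by rw [e1 (y ^ 2)]; group
        _ = y ^ 2 * y ^ 2 * cm x y := by rw [e2 (cm x y), h1]; group
        _ = cm x y := by rw [h2, one_mul]
    have hQ : Cfsg.Agent.Lib.AnisoCore.QF q := by
      refine ⟨?_, ?_, ?_, ?_⟩
      · intro w
        obtain ⟨x, rfl⟩ := QuotientGroup.mk_surjective w
        rw [← QuotientGroup.mk_mul, QuotientGroup.eq_one_iff, ← pow_two]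
        exact hN.2 x
      · intro u
        apply Subtype.ext
        have := hel u u.2
        rw [pow_two] at this
        exact this
      · intro w hw
        obtain ⟨x, rfl⟩ := QuotientGroup.mk_surjective w
        rw [hq] at hw
        have h1 : x ^ 2 = 1 := congrArg Subtype.val hw
        exact (QuotientGroup.eq_one_iff x).2 (hinv x h1)
      · intro a b c
        obtain ⟨x, rfl⟩ := QuotientGroup.mk_surjective a
        obtain ⟨y, rfl⟩ := QuotientGroup.mk_surjective b
        obtain ⟨w, rfl⟩ := QuotientGroup.mk_surjective c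
        rw [← QuotientGroup.mk_mul, hpol, hpol, hpol]
        apply Subtype.ext
        exact cm_mul_left hN x y w
    exact Cfsg.Agent.Lib.AnisoCore.card_le hQ (by rw [h4])
  have hcX := Subgroup.card_mul_index (Subgroup.center X)
  rw [h4] at hcX
  have hidxp : ∃ k, (Subgroup.center X).index = 2 ^ k := by
    have h1 : (Subgroup.center X).index ∣ Nat.card X := Subgroup.index_dvd_card _
    obtain ⟨n, hn⟩ := IsPGroup.iff_card.1 hX
    rw [hn] at h1
    obtain ⟨k, -, hk⟩ := (Nat.dvd_prime_pow Nat.prime_two).1 h1
    exact ⟨k, hk⟩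
  obtain ⟨k, hk⟩ := hidxp
  have hk4 : k ≤ 4 := by
    by_contra hlt
    have h1 : 2 ^ 5 ≤ 2 ^ k := Nat.pow_le_pow_right (by norm_num) (by omega)
    omega
  -- small index is impossible
  have hk2 : 2 < k := by
    by_contra hlt
    have hle : (Subgroup.center X).index ≤ 4 := by
      rw [hk]
      exact (Nat.pow_le_pow_right (by norm_num) (by omega : k ≤ 2)).trans (by norm_num)
    obtain ⟨a, b, hab⟩ := hna
    have hu : cm a b ≠ 1 := fun h => hab ((cm_eq_one_iff hN a b).1 h)
    have hsc := single_comm (hN.1) hle a b hu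
    have hDle : commutator X ≤ Subgroup.zpowers (cm a b) := by
      rw [commutator_eq_closure, Subgroup.closure_le]
      rintro _ ⟨c, d, rfl⟩
      exact hsc c d
    have h1 := Subgroup.card_le_of_le hDle
    rw [← hZD, h4, Nat.card_zpowers] at h1
    have h2 : orderOf (cm a b) ≤ 2 := orderOf_le_of_pow_eq_one (by norm_num) (cm_sq_left hN a b)
    omega
  have hk3 : k ≠ 3 := by
    rintro rfl
    have h32 : Nat.card X = 32 := by rw [← hcX, hk]; norm_num
    obtain ⟨p, hp, h16⟩ := exists_large hN hX h4 h32 hna hel
    exact no_large_cent hN hX h4 h32 hXA hp h16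
  have hk44 : k = 4 := by omega
  subst hk44
  refine ⟨by rw [← hcX, hk]; norm_num, ?_, fun x hx => ((hord x).1 hx).1⟩
  -- the count of involutions
  have hset : (Subgroup.center X : Set X) = insert 1 {x : X | orderOf x = 2} := by
    ext x
    rw [Set.mem_insert_iff, Set.mem_ofPred_eq, hord]
    constructor
    · intro hx
      by_cases h : x = 1
      · exact Or.inl h
      · exact Or.inr ⟨hx, h⟩
    · rintro (rfl | h)
      · exact Subgroup.one_mem _
      · exact h.1
  have h1 : ((Subgroup.center X : Set X)).ncard = 4 := by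
    rw [← Nat.card_coe_set_eq]
    exact h4
  have h2 : (1 : X) ∉ {x : X | orderOf x = 2} := by
    simp
  rw [hset, Set.ncard_insert_of_notMem h2 (Set.toFinite _)] at h1
  have h3 : Nat.card {x : X // orderOf x = 2} = ({x : X | orderOf x = 2} : Set X).ncard :=
    Nat.card_coe_set_eq _
  omega

end Cfsg.Agent.Lib.SCN3Four
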