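import Mathlib
import Cfsg.Agent.Lib.SCN3Four
import Cfsg.Agent.S3995

/-!
# The case of a center of order 2
-/

set_option autoImplicit false
set_option linter.unusedSectionVars false
set_option linter.unusedVariables false
set_option linter.style.haveILetI false

universe u

namespace Cfsg.Agent.Lib.SCN3Two

open Cfsg.Agent.Lib.SCN3Base Cfsg.Agent.Lib.SCN3Red Cfsg.Agent.Lib.SCN3NF

variable {X : Type u} [Group X]

section

variable (hN : NF X) {z : X} (hzc : z ∈ Subgroup.center X) (hz1 : z ≠ 1) (hzz : z * z = 1)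
  (hZ : ∀ g ∈ Subgroup.center X, g = 1 ∨ g = z)

include hN hZ

theorem cm_cases (x y : X) : cm x y = 1 ∨ cm x y = z := hZ _ (cm_cen hN x y)

theorem sq_cases (x : X) : x ^ 2 = 1 ∨ x ^ 2 = z := hZ _ (hN.2 x)

omit hZ in
theorem cm_inv_left (a b : X) : cm a⁻¹ b = cm a b := by
  have h1 := cm_mul_left hN a⁻¹ a b
  rw [inv_mul_cancel] at h1
  have h2 : cm (1 : X) b = 1 := by unfold cm; group
  rw [h2] at h1
  have h3 := cm_two hN a b
  have h4 : cm a⁻¹ b * cm a b = cm a b * cm a b := by rw [← h1, h3]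
  exact mul_right_cancel h4

omit hN hZ in
theorem cm_one_left (b : X) : cm (1 : X) b = 1 := by unfold cm; group

/-- Decomposition of `X` with respect to a noncommuting pair. -/
theorem decomp (hzz : z * z = 1) {a b : X} (hab : cm a b = z) (g : X) :
    ∃ g', cm g' a = 1 ∧ cm g' b = 1 ∧ (g = g' ∨ g = a * g' ∨ g = b * g' ∨ g = a * b * g') := by
  have hba : cm b a = z := by rw [cm_symm hN a b]; exact hab
  have h1 : ∃ g₁, cm g₁ b = 1 ∧ (g = g₁ ∨ g = a * g₁) := by
    rcases cm_cases hN hZ g b with h | h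
    · exact ⟨g, h, Or.inl rfl⟩
    · refine ⟨a⁻¹ * g, ?_, Or.inr (by group)⟩
      rw [cm_mul_left hN, cm_inv_left hN, hab, h, hzz]
  obtain ⟨g₁, hg₁, hg⟩ := h1
  have h2 : ∃ g₂, cm g₂ a = 1 ∧ cm g₂ b = 1 ∧ (g₁ = g₂ ∨ g₁ = b * g₂) := by
    rcases cm_cases hN hZ g₁ a with h | h
    · exact ⟨g₁, h, hg₁, Or.inl rfl⟩
    · refine ⟨b⁻¹ * g₁, ?_, ?_, Or.inr (by group)⟩
      · rw [cm_mul_left hN, cm_inv_left hN, hba, h, hzz]
      · rw [cm_mul_left hN, cm_inv_left hN, cm_self hN, hg₁, one_mul]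
  obtain ⟨g₂, h3, h4, h5⟩ := h2
  refine ⟨g₂, h3, h4, ?_⟩
  rcases hg with rfl | rfl <;> rcases h5 with rfl | rfl
  · exact Or.inl rfl
  · exact Or.inr (Or.inr (Or.inl rfl))
  · exact Or.inr (Or.inl rfl)
  · exact Or.inr (Or.inr (Or.inr (by group)))

end

/-- The four-group `{1, z, x, x z}`. -/
theorem card_four {z x : X} (hzc : z ∈ Subgroup.center X) (hz1 : z ≠ 1) (hzz : z * z = 1)
    (hx1 : x ∉ Subgroup.center X) (hxx : x * x = 1) :
    ∃ E : Subgroup X, (∀ g, g ∈ E ↔ g = 1 ∨ g = z ∨ g = x ∨ g = x * z) ∧ Nat.card E = 4 := by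
  classical
  have hzxc : z * x = x * z := (Subgroup.mem_center_iff.1 hzc x).symm
  let E : Subgroup X :=
    { carrier := {g | g = 1 ∨ g = z ∨ g = x ∨ g = x * z}
      one_mem' := Or.inl rfl
      mul_mem' := by
        have e1 : x * z * z = x := by rw [mul_assoc, hzz, mul_one]
        have e2 : x * (x * z) = z := by rw [← mul_assoc, hxx, one_mul]
        have e3 : z * (x * z) = x := by rw [← mul_assoc, hzxc, e1]
        have e4 : x * z * x = z := by rw [mul_assoc, hzxc, e2]
        have e5 : x * z * (x * z) = 1 := by rw [← mul_assoc, e4, hzz]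
        rintro a b (rfl | rfl | rfl | rfl) (rfl | rfl | rfl | rfl) <;> simp [*]
      inv_mem' := by
        have e1 : z⁻¹ = z := inv_eq_of_mul_eq_one_left hzz
        have e2 : x⁻¹ = x := inv_eq_of_mul_eq_one_left hxx
        have e3 : (x * z)⁻¹ = x * z := by
          rw [mul_inv_rev, e1, e2, hzxc]
        rintro a (rfl | rfl | rfl | rfl) <;> simp [*] }
  refine ⟨E, fun g => Iff.rfl, ?_⟩
  have hset : (E : Set X) = (({1, z, x, x * z} : Finset X) : Set X) := by
    ext g
    simp only [Finset.coe_insert, Finset.coe_singleton, Set.mem_insert_iff, Set.mem_singleton_iff]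
    exact Iff.rfl
  have hne1 : x ≠ 1 := by
    rintro rfl
    exact hx1 (Subgroup.one_mem _)
  have hne2 : x ≠ z := by
    rintro rfl
    exact hx1 hzc
  have hne3 : x * z ≠ 1 := by
    intro h
    apply hne2
    have : x * z = z * z := by rw [h, hzz]
    exact mul_right_cancel this
  have hne4 : x * z ≠ z := by
    intro h
    exact hne1 (mul_right_cancel (h.trans (one_mul z).symm))
  have hne5 : x * z ≠ x := by
    intro h
    exact hz1 (mul_left_cancel (h.trans (mul_one x).symm))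
  have h1 : Nat.card E = (({1, z, x, x * z} : Finset X) : Set X).ncard := by
    rw [← hset]
    exact Nat.card_coe_set_eq _
  rw [h1, Set.ncard_coe_finset, Finset.card_insert_of_notMem, Finset.card_insert_of_notMem,
    Finset.card_insert_of_notMem, Finset.card_singleton]
  · simp only [Finset.mem_singleton]
    exact fun h => hne5 h.symm
  · simp only [Finset.mem_insert, Finset.mem_singleton, not_or]
    exact ⟨fun h => hne2 h.symm, fun h => hne4 h.symm⟩
  · simp only [Finset.mem_insert, Finset.mem_singleton, not_or]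
    exact ⟨fun h => hz1 h.symm, fun h => hne1 h.symm, fun h => hne3 h.symm⟩

theorem cm_pow_left (hN : NF X) (u v : X) (n : ℕ) : cm (u ^ n) v = (cm u v) ^ n := by
  induction n with
  | zero => simp [cm_one_left]
  | succ n ih => rw [pow_succ, cm_mul_left hN, ih, pow_succ]

theorem cm_pow_right (hN : NF X) (u v : X) (n : ℕ) : cm u (v ^ n) = (cm u v) ^ n := by
  rw [cm_symm hN (v ^ n) u, cm_pow_left hN, cm_symm hN u v]

set_option maxHeartbeats 2000000 in
/-- The group of order `32`: the count. -/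
theorem count_32 [Finite X] (hN : NF X) {z : X} (hzc : z ∈ Subgroup.center X) (hz1 : z ≠ 1)
    (hzz : z * z = 1) {x₁ y₁ c d : X} (hx1 : x₁ ^ 2 = 1) (hy1 : y₁ ^ 2 = 1) (hxy : cm x₁ y₁ = z)
    (hc : c ^ 2 = z) (hd : d ^ 2 = z) (hcd : cm c d = z) (cx : cm c x₁ = 1) (cy : cm c y₁ = 1)
    (dx : cm d x₁ = 1) (dy : cm d y₁ = 1)
    (hdec : ∀ g : X, ∃ t : Fin 2 × Fin 2 × Fin 2 × Fin 2 × Fin 2,
      g = x₁ ^ (t.1 : ℕ) * y₁ ^ (t.2.1 : ℕ) * c ^ (t.2.2.1 : ℕ) * d ^ (t.2.2.2.1 : ℕ) *
        z ^ (t.2.2.2.2 : ℕ)) :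
    Nat.card X = 32 ∧ Nat.card {x : X // orderOf x = 2} = 11 := by
  classical
  obtain ⟨F, hFv⟩ : ∃ F : Fin 2 × Fin 2 × Fin 2 × Fin 2 × Fin 2 → X, ∀ t, F t = x₁ ^ (t.1 : ℕ) *
      y₁ ^ (t.2.1 : ℕ) * c ^ (t.2.2.1 : ℕ) * d ^ (t.2.2.2.1 : ℕ) * z ^ (t.2.2.2.2 : ℕ) :=
    ⟨_, fun t => rfl⟩
  have hzcm : ∀ w, cm z w = 1 := fun w => cm_cen_left hN hzc w
  have hyx : cm y₁ x₁ = z := by rw [cm_symm hN x₁ y₁]; exact hxy
  have hdc : cm d c = z := by rw [cm_symm hN c d]; exact hcd
  have xc : cm x₁ c = 1 := by rw [cm_symm hN c x₁]; exact cx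
  have yc : cm y₁ c = 1 := by rw [cm_symm hN c y₁]; exact cy
  have xd : cm x₁ d = 1 := by rw [cm_symm hN d x₁]; exact dx
  have yd : cm y₁ d = 1 := by rw [cm_symm hN d y₁]; exact dy
  have hzinj : ∀ a a' : Fin 2, z ^ (a : ℕ) = z ^ (a' : ℕ) → a = a' := by
    intro a a' h
    apply Fin.ext
    have ha := a.2
    have ha' := a'.2
    have hA : (a : ℕ) = 0 ∨ (a : ℕ) = 1 := by omega
    have hB : (a' : ℕ) = 0 ∨ (a' : ℕ) = 1 := by omega
    rcases hA with e1 | e1 <;> rcases hB with e2 | e2 <;> rw [e1, e2] at h ⊢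
    · exact absurd (h.symm.trans (pow_zero z)) (by rw [pow_one]; exact hz1)
    · exact absurd (h.trans (pow_zero z)) (by rw [pow_one]; exact hz1)
  have hF1 : ∀ t, cm (F t) y₁ = z ^ (t.1 : ℕ) := by
    intro t
    simp only [hFv, cm_mul_left hN, cm_pow_left hN, hxy, cm_self hN, cy, dy, hzcm, one_pow, mul_one]
  have hF2 : ∀ t, cm (F t) x₁ = z ^ (t.2.1 : ℕ) := by
    intro t
    simp only [hFv, cm_mul_left hN, cm_pow_left hN, hyx, cm_self hN, cx, dx, hzcm, one_pow, mul_one,
      one_mul]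
  have hF3 : ∀ t, cm (F t) d = z ^ (t.2.2.1 : ℕ) := by
    intro t
    simp only [hFv, cm_mul_left hN, cm_pow_left hN, hcd, cm_self hN, xd, yd, hzcm, one_pow, mul_one,
      one_mul]
  have hF4 : ∀ t, cm (F t) c = z ^ (t.2.2.2.1 : ℕ) := by
    intro t
    simp only [hFv, cm_mul_left hN, cm_pow_left hN, hdc, cm_self hN, xc, yc, hzcm, one_pow, mul_one,
      one_mul]
  have hinj : Function.Injective F := by
    rintro ⟨a, b, i, j, k⟩ ⟨a', b', i', j', k'⟩ h
    have h1 : a = a' := by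
      apply hzinj
      have := congrArg (fun g => cm g y₁) h
      simpa only [hF1] using this
    have h2 : b = b' := by
      apply hzinj
      have := congrArg (fun g => cm g x₁) h
      simpa only [hF2] using this
    have h3 : i = i' := by
      apply hzinj
      have := congrArg (fun g => cm g d) h
      simpa only [hF3] using this
    have h4 : j = j' := by
      apply hzinj
      have := congrArg (fun g => cm g c) h
      simpa only [hF4] using this
    subst h1 h2 h3 h4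
    have h5 : k = k' := by
      apply hzinj
      simp only [hFv] at h
      exact mul_left_cancel h
    rw [h5]
  have hbij : Function.Bijective F := ⟨hinj, fun g => by
    obtain ⟨t, ht⟩ := hdec g
    exact ⟨t, by rw [hFv, ← ht]⟩⟩
  obtain ⟨e, he⟩ : ∃ e : (Fin 2 × Fin 2 × Fin 2 × Fin 2 × Fin 2) ≃ X, ∀ t, e t = F t :=
    ⟨Equiv.ofBijective F hbij, fun t => rfl⟩
  refine ⟨?_, ?_⟩
  · rw [← Nat.card_congr e]
    simp [Nat.card_prod]
  -- squares
  have hsqA : ∀ a b : Fin 2, (x₁ ^ (a : ℕ) * y₁ ^ (b : ℕ)) ^ 2 = z ^ ((a : ℕ) * (b : ℕ)) := by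
    intro a b
    fin_cases a <;> fin_cases b <;> simp [hx1, hy1, sq_mul hN, hxy]
  have hsqB : ∀ i j : Fin 2, (c ^ (i : ℕ) * d ^ (j : ℕ)) ^ 2 =
      z ^ ((i : ℕ) + (j : ℕ) + (i : ℕ) * (j : ℕ)) := by
    intro i j
    fin_cases i <;> fin_cases j <;> simp [hc, hd, sq_mul hN, hcd, hzz, pow_succ]
  have hsqF : ∀ t, (F t) ^ 2 = z ^ ((t.1 : ℕ) * (t.2.1 : ℕ) + ((t.2.2.1 : ℕ) + (t.2.2.2.1 : ℕ) +
      (t.2.2.1 : ℕ) * (t.2.2.2.1 : ℕ))) := by
    rintro ⟨a, b, i, j, k⟩
    have h1 : F (a, b, i, j, k) = (x₁ ^ (a : ℕ) * y₁ ^ (b : ℕ)) * (c ^ (i : ℕ) * d ^ (j : ℕ)) * z ^ (k : ℕ) := by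
      simp only [hFv]
      group
    have h2 : cm (x₁ ^ (a : ℕ) * y₁ ^ (b : ℕ)) (c ^ (i : ℕ) * d ^ (j : ℕ)) = 1 := by
      simp only [cm_mul_left hN, cm_mul_right hN, cm_pow_left hN, cm_pow_right hN, xc, yc, xd, yd,
        one_pow, mul_one]
    have h3 : (z ^ (k : ℕ)) ^ 2 = 1 := by
      rw [← pow_mul, mul_comm, pow_mul, pow_two, hzz, one_pow]
    have h4 : cm ((x₁ ^ (a : ℕ) * y₁ ^ (b : ℕ)) * (c ^ (i : ℕ) * d ^ (j : ℕ))) (z ^ (k : ℕ)) = 1 :=
      cm_cen_right hN (Subgroup.pow_mem _ hzc _) _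
    rw [h1, sq_mul hN, h4, mul_one, sq_mul hN, h2, mul_one, hsqA, hsqB, h3, mul_one]
    exact (pow_add z _ _).symm
  have hz2 : orderOf z = 2 := orderOf_eq_prime (by rw [pow_two]; exact hzz) hz1
  have hzpow : ∀ n : ℕ, z ^ n = 1 ↔ n % 2 = 0 := by
    intro n
    rw [← orderOf_dvd_iff_pow_eq_one, hz2]
    omega
  have hF0 : F (0, 0, 0, 0, 0) = 1 := by
    simp [hFv]
  let P : Fin 2 × Fin 2 × Fin 2 × Fin 2 × Fin 2 → Prop := fun t =>
    ((t.1 : ℕ) * (t.2.1 : ℕ) + ((t.2.2.1 : ℕ) + (t.2.2.2.1 : ℕ) +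
      (t.2.2.1 : ℕ) * (t.2.2.2.1 : ℕ))) % 2 = 0 ∧ t ≠ (0, 0, 0, 0, 0)
  have hP : ∀ t, P t ↔ orderOf (e t) = 2 := by
    intro t
    rw [he]
    constructor
    · rintro ⟨h1, h2⟩
      apply orderOf_eq_prime
      · rw [hsqF]
        exact (hzpow _).2 h1
      · intro h3
        apply h2
        apply hinj
        rw [h3, hF0]
    · intro h1
      have h2 : (F t) ^ 2 = 1 := by rw [← h1]; exact pow_orderOf_eq_one _
      rw [hsqF] at h2
      refine ⟨(hzpow _).1 h2, ?_⟩
      rintro rfl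
      rw [hF0] at h1
      simp at h1
  have hcnt : Nat.card {t // P t} = Nat.card {x : X // orderOf x = 2} :=
    Nat.card_congr (Equiv.subtypeEquiv e hP)
  rw [← hcnt, Nat.card_eq_fintype_card]
  decide +kernel

set_option maxHeartbeats 2000000 in
/-- The main result for a center of order `2`. -/
theorem case_two [Finite X] (hN : NF X) (hX : IsPGroup 2 X) (hna : ∃ a b : X, a * b ≠ b * a)
    (hE8 : NoE8 X) {H : Subgroup (MulAut X)}
    (hXA : Subgroup.closure {g : X | ∃ φ ∈ H, ∃ x : X, g = x⁻¹ * φ x} = ⊤)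
    (hel : ∀ z ∈ Subgroup.center X, z ^ 2 = 1) (h2 : Nat.card (Subgroup.center X) = 2) :
    Nonempty (X ≃* QuaternionGroup 2) ∨
      (Nat.card X = 32 ∧ Nat.card {x : X // orderOf x = 2} = 11) := by
  classical
  -- the central involution
  obtain ⟨z', hz'1, hz'u⟩ := (Nat.card_eq_two_iff' (1 : Subgroup.center X)).1 h2
  obtain ⟨z, hzc⟩ : ∃ z : X, z = z' := ⟨_, rfl⟩
  have hzmem : z ∈ Subgroup.center X := hzc ▸ z'.2
  have hz1 : z ≠ 1 := by
    rw [hzc]
    intro h
    exact hz'1 (Subtype.ext h)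
  have hzz : z * z = 1 := by rw [← pow_two]; exact hel z hzmem
  have hZ : ∀ g ∈ Subgroup.center X, g = 1 ∨ g = z := by
    intro g hg
    by_cases h : g = 1
    · exact Or.inl h
    · right
      have := hz'u ⟨g, hg⟩ (fun h' => h (congrArg Subtype.val h'))
      rw [hzc]
      exact congrArg Subtype.val this
  have hcm := cm_cases hN hZ
  have hsq := sq_cases hN hZ
  have hnc : ∀ g, g ∉ Subgroup.center X → ∃ y, cm g y = z := by
    intro g hg
    by_contra hc
    push Not at hc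
    apply hg
    rw [mem_center_iff_cm hN]
    intro y
    rcases hcm g y with h | h
    · exact h
    · exact absurd h (hc y)
  by_cases hI : ∀ x, x ∉ Subgroup.center X → x ^ 2 = z
  · -- quaternion case
    left
    obtain ⟨a, b, hab⟩ := hna
    have ha : a ∉ Subgroup.center X := fun h => hab (Subgroup.mem_center_iff.1 h b).symm
    have hb : b ∉ Subgroup.center X := fun h => hab (Subgroup.mem_center_iff.1 h a)
    have haa : a * a = z := by rw [← pow_two]; exact hI a ha
    refine Cfsg.Agent.S3995.q8_equiv (t := z) ?_ hz1 hzz (fun g => (Subgroup.mem_center_iff.1 hzmem g))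
      haa (y := b) ?_ ?_ ?_ ?_
    · intro g
      by_cases hg : g ∈ Subgroup.center X
      · rcases hZ g hg with h | h
        · exact Or.inl h
        · exact Or.inr (Or.inl h)
      · right; right
        rw [← pow_two]
        exact hI g hg
    · rintro rfl
      exact hb (Subgroup.one_mem _)
    · rintro rfl
      exact hb hzmem
    · rintro rfl
      exact hab rfl
    · rintro rfl
      apply hab
      have h1 := Subgroup.mem_center_iff.1 hzmem a
      calc a * (a * z) = a * (z * a) := by rw [h1]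
        _ = a * z * a := by group
  right
  push Not at hI
  obtain ⟨x₁, hx₁, hx₁z⟩ := hI
  have hx₁2 : x₁ ^ 2 = 1 := by
    rcases hsq x₁ with h | h
    · exact h
    · exact absurd h hx₁z
  have hx₁x₁ : x₁ * x₁ = 1 := by rw [← pow_two]; exact hx₁2
  -- a partner
  obtain ⟨y₁, hy₁2, hxy⟩ : ∃ y₁, y₁ ^ 2 = 1 ∧ cm x₁ y₁ = z := by
    obtain ⟨y₀, hy₀⟩ := hnc x₁ hx₁
    rcases hsq y₀ with h | h
    · exact ⟨y₀, h, hy₀⟩
    · refine ⟨y₀ * x₁, ?_, ?_⟩
      · rw [sq_mul hN, h, hx₁2, mul_one, cm_symm hN x₁ y₀, hy₀]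
        rw [← pow_two]
        exact hel z hzmem
      · rw [cm_mul_right hN, hy₀, cm_self hN, mul_one]
  have hyx : cm y₁ x₁ = z := by rw [cm_symm hN x₁ y₁]; exact hxy
  -- the four-group
  obtain ⟨E, hEmem, hE4⟩ := card_four hzmem hz1 hzz hx₁ hx₁x₁
  have hE2 : ∀ a ∈ E, a ^ 2 = 1 := by
    intro a ha
    rcases (hEmem a).1 ha with rfl | rfl | rfl | rfl
    · simp
    · rw [pow_two]; exact hzz
    · exact hx₁2
    · rw [sq_mul hN, hx₁2, one_mul, cm_cen_right hN hzmem, mul_one, pow_two]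
      exact hzz
  have hZE : ∀ g ∈ Subgroup.center X, g ∈ E := by
    intro g hg
    rw [hEmem]
    rcases hZ g hg with h | h
    · exact Or.inl h
    · exact Or.inr (Or.inl h)
  have hEn : E.Normal := by
    constructor
    intro a ha g
    have h1 : g * a * g⁻¹ = cm g a * a := by unfold cm; group
    rw [h1]
    exact E.mul_mem (hZE _ (cm_cen hN g a)) ha
  -- the anisotropic centralizer
  have hC2 : ∀ c, cm c x₁ = 1 → cm c y₁ = 1 → c ∉ Subgroup.center X → c ^ 2 = z := by
    intro c hcx hcy hcZ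
    rcases hsq c with h | h
    · exfalso
      refine noE8_ext hE8 E hEn hE2 hE4 c h ?_ ?_ ?_
      · intro hcE
        rcases (hEmem c).1 hcE with rfl | rfl | rfl | rfl
        · exact hcZ (Subgroup.one_mem _)
        · exact hcZ hzmem
        · rw [hxy] at hcy
          exact hz1 hcy
        · rw [cm_mul_left hN, hxy, cm_cen_left hN hzmem, mul_one] at hcy
          exact hz1 hcy
      · intro a ha
        have hca := (cm_eq_one_iff hN c x₁).1 hcx
        rcases (hEmem a).1 ha with rfl | rfl | rfl | rfl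
        · simp
        · exact (Subgroup.mem_center_iff.1 hzmem c)
        · exact hca
        · have h1 := Subgroup.mem_center_iff.1 hzmem c
          calc c * (x₁ * z) = (c * x₁) * z := by group
            _ = (x₁ * c) * z := by rw [hca]
            _ = x₁ * (c * z) := by group
            _ = x₁ * (z * c) := by rw [h1]
            _ = x₁ * z * c := by group
      · intro x
        exact hZE _ (cm_cen hN x c)
    · exact h
  have hdec := decomp hN hZ hzz hxy
  by_cases hCZ : ∀ c, cm c x₁ = 1 → cm c y₁ = 1 → c ∈ Subgroup.center X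
  · -- the dihedral case is impossible
    exfalso
    obtain ⟨m, hm⟩ : ∃ m, m = x₁ * y₁ := ⟨_, rfl⟩
    have hm2 : m ^ 2 = z := by
      rw [hm, sq_mul hN, hx₁2, hy₁2, hxy, one_mul, one_mul]
    have hZ2 : ∀ w ∈ Subgroup.center X, w ^ 2 = 1 := hel
    have hsqz : ∀ g, g ^ 2 = z → g = m ∨ g = m * z := by
      intro g hg
      obtain ⟨c, h1, h3, h4⟩ := hdec g
      have hc := hCZ c h1 h3
      have hcc : c ^ 2 = 1 := hel c hc
      have hcomm : ∀ a, cm a c = 1 := fun a => cm_cen_right hN hc a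
      rcases h4 with rfl | rfl | rfl | rfl
      · rw [hcc] at hg
        exact absurd hg.symm hz1
      · rw [sq_mul hN, hcomm, hx₁2, hcc, one_mul, mul_one] at hg
        exact absurd hg.symm hz1
      · rw [sq_mul hN, hcomm, hy₁2, hcc, one_mul, mul_one] at hg
        exact absurd hg.symm hz1
      · rw [← hm]
        rcases hZ c hc with rfl | rfl
        · left; rw [mul_one]
        · right; rfl
    have hmZ : m ∉ Subgroup.center X := by
      intro h
      have := hel m h
      rw [hm2] at this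
      exact hz1 this
    have hfixz : ∀ ψ : MulAut X, ψ z = z := by
      intro ψ
      have h1 : ψ z ∈ Subgroup.center X := by
        rw [Subgroup.mem_center_iff] at hzmem ⊢
        intro g
        have := congrArg ψ (hzmem (ψ.symm g))
        simpa using this
      rcases hZ _ h1 with h | h
      · exact absurd ((map_eq_one_iff ψ ψ.injective).1 h) hz1
      · exact h
    have hcmm : ∀ g, g = m ∨ g = m * z → ∀ x, cm g x = cm m x := by
      rintro g (rfl | rfl) x
      · rfl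
      · rw [cm_mul_left hN, cm_cen_left hN hzmem, mul_one]
    let g : X →* Subgroup.center X := MonoidHom.mk' (fun x => ⟨cm m x, cm_cen hN m x⟩) (by
      intro a b
      apply Subtype.ext
      exact cm_mul_right hN m a b)
    have hg : ∀ φ ∈ H, ∀ x, g (φ x) = g x := by
      intro φ hφ x
      apply Subtype.ext
      show cm m (φ x) = cm m x
      have h1 : (φ.symm m) ^ 2 = z := by
        have := congrArg φ.symm hm2
        rw [map_pow] at this
        rw [this]
        exact hfixz φ.symm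
      have h3 := hcmm _ (hsqz _ h1) x
      have h4 : cm m (φ x) = φ (cm (φ.symm m) x) := by
        unfold cm
        simp
      rw [h4, h3]
      rcases hZ _ (cm_cen hN m x) with h | h
      · rw [h, map_one]
      · rw [h, hfixz]
    apply hmZ
    rw [mem_center_iff_cm hN]
    intro y
    have := hom_trivial hXA g hg y
    exact congrArg Subtype.val this
  -- the case of order `32`
  push Not at hCZ
  obtain ⟨c, hcx, hcy, hcZ⟩ := hCZ
  have hc2 := hC2 c hcx hcy hcZ
  -- a partner of `c` in the centralizer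
  obtain ⟨d, hdx, hdy, hcd⟩ : ∃ d, cm d x₁ = 1 ∧ cm d y₁ = 1 ∧ cm c d = z := by
    obtain ⟨g, hg⟩ := hnc c hcZ
    obtain ⟨d, h1, h3, h4⟩ := hdec g
    refine ⟨d, h1, h3, ?_⟩
    have hcx' : cm c x₁ = 1 := hcx
    rcases h4 with rfl | rfl | rfl | rfl
    · exact hg
    · rw [cm_mul_right hN, hcx, one_mul] at hg
      exact hg
    · rw [cm_mul_right hN, hcy, one_mul] at hg
      exact hg
    · rw [cm_mul_right hN, cm_mul_right hN, hcx, hcy, one_mul, one_mul] at hg
      exact hg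
  have hdZ : d ∉ Subgroup.center X := by
    intro h
    rw [cm_cen_right hN h] at hcd
    exact hz1 hcd.symm
  have hd2 := hC2 d hdx hdy hdZ
  have hdec2 := decomp hN hZ hzz hcd
  have hcmm1 : ∀ {a b : X}, a = 1 → cm a b = 1 := by
    rintro a b rfl
    exact cm_one_left b
  refine count_32 hN hzmem hz1 hzz hx₁2 hy₁2 hxy hc2 hd2 hcd hcx hcy hdx hdy ?_
  intro g
  obtain ⟨e, he1, he2, he3⟩ := hdec g
  obtain ⟨w, hw1, hw2, hw3⟩ := hdec2 e
  -- `w` centralizes `x₁` and `y₁`
  have hwx : ∀ a, cm e a = 1 → cm c a = 1 → cm d a = 1 → cm w a = 1 := by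
    intro a h1 h3 h4
    rcases hw3 with rfl | rfl | rfl | rfl
    · exact h1
    · rw [cm_mul_left hN, h3, one_mul] at h1
      exact h1
    · rw [cm_mul_left hN, h4, one_mul] at h1
      exact h1
    · rw [cm_mul_left hN, cm_mul_left hN, h3, h4, one_mul, one_mul] at h1
      exact h1
  have hwxx := hwx x₁ he1 hcx hdx
  have hwyy := hwx y₁ he2 hcy hdy
  have hwZ : w ∈ Subgroup.center X := by
    by_contra hw
    have hw2' := hC2 w hwxx hwyy hw
    -- `c * w` centralizes and has square `1`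
    have h1 : (c * w) ^ 2 = 1 := by
      rw [sq_mul hN, hc2, hw2', hzz]
      have : cm c w = 1 := by rw [cm_symm hN w c]; exact hw1
      rw [this, mul_one]
    have h3 : cm (c * w) x₁ = 1 := by rw [cm_mul_left hN, hcx, hwxx, one_mul]
    have h4 : cm (c * w) y₁ = 1 := by rw [cm_mul_left hN, hcy, hwyy, one_mul]
    have h5 : c * w ∈ Subgroup.center X := by
      by_contra h6
      have := hC2 _ h3 h4 h6
      rw [h1] at this
      exact hz1 this.symm
    have h6 := cm_cen_left hN h5 d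
    rw [cm_mul_left hN, hcd, hw2, mul_one] at h6
    exact hz1 h6
  obtain ⟨k, hk⟩ : ∃ k : Fin 2, w = z ^ (k : ℕ) := by
    rcases hZ w hwZ with h | h
    · exact ⟨0, by rw [h]; simp⟩
    · exact ⟨1, by rw [h]; simp⟩
  obtain ⟨i, j, hij⟩ : ∃ i j : Fin 2, e = c ^ (i : ℕ) * d ^ (j : ℕ) * w := by
    rcases hw3 with h | h | h | h
    · exact ⟨0, 0, by rw [h]; simp⟩
    · exact ⟨1, 0, by rw [h]; simp⟩
    · exact ⟨0, 1, by rw [h]; simp⟩
    · exact ⟨1, 1, by rw [h]; simp⟩
  obtain ⟨a, b, hab⟩ : ∃ a b : Fin 2, g = x₁ ^ (a : ℕ) * y₁ ^ (b : ℕ) * e := by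
    rcases he3 with h | h | h | h
    · exact ⟨0, 0, by rw [h]; simp⟩
    · exact ⟨1, 0, by rw [h]; simp⟩
    · exact ⟨0, 1, by rw [h]; simp⟩
    · exact ⟨1, 1, by rw [h]; simp⟩
  refine ⟨(a, b, i, j, k), ?_⟩
  show g = x₁ ^ (a : ℕ) * y₁ ^ (b : ℕ) * c ^ (i : ℕ) * d ^ (j : ℕ) * z ^ (k : ℕ)
  rw [hab, hij, hk]
  group

end Cfsg.Agent.Lib.SCN3Two
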