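import Mathlib
import Cfsg.Agent.Lib.SL2Odd

/-!
# Values of irreducible characters of `SL₂(q)`.
-/

set_option autoImplicit false
set_option linter.unusedSectionVars false
set_option linter.unusedSimpArgs false
set_option linter.style.haveILetI false

namespace Cfsg.Agent.Lib.SL2Val

open Cfsg Cfsg.Agent.Lib.CharBasic Cfsg.Agent.Lib.CharInd Cfsg.Agent.Lib.GL2Char
  Cfsg.Agent.Lib.GL2Irr Cfsg.Agent.Lib.CharDecomp Cfsg.Agent.Lib.Clifford
  Cfsg.Agent.Lib.SL2Char Cfsg.Agent.Lib.SL2Count Cfsg.Agent.Lib.SL2Odd Matrix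
open scoped ComplexConjugate

variable {F : Type*} [Field F] [DecidableEq F] [Fintype F]

local notation "G2" => Matrix.GeneralLinearGroup (Fin 2) F
local notation "S2" => Matrix.SpecialLinearGroup (Fin 2) F
local notation "ι" => Matrix.SpecialLinearGroup.toGL (n := Fin 2) (R := F)
local notation "uS" => Cfsg.Agent.S2301.uu (F := F)
local notation "trS" => Cfsg.Agent.S2301.tr (F := F)

theorem ι_uS_one : ι (uS 1) = uu := by
  apply ext2 <;> rfl

theorem eq_uS_one {u : S2} (hu : (u : Matrix (Fin 2) (Fin 2) F) = !![1, 1; 0, 1]) : u = uS 1 :=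
  Subtype.ext hu

theorem ff_uS (μ : MulChar F ℂ) : ff μ (uS 1) = 1 := by
  rw [ff_eq_chi, ι_uS_one, chi_uu]

/-- Degree `q - 1`, `q ≠ 3`. -/
theorem isCuspFull_of_deg (hq : 4 ≤ Fintype.card F) (φ : IrrCharacter S2)
    (h : degS φ + 1 = Fintype.card F) : IsCuspFull φ.1 := by
  rcases deg_table φ with h1 | h1 | h1 | h1 | h1 | h1
  · exfalso; have := h1.2; omega
  · exfalso; have := h1.2; omega
  · exfalso; have := h1.2; omega
  · exfalso; have := h1.2; omega
  · exact h1.1
  · exfalso; have := h1.2; omega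

theorem deg_q_sub_one_cast {φ : IrrCharacter S2} (h : φ.1 1 = (Fintype.card F : ℂ) - 1) :
    degS φ + 1 = Fintype.card F := by
  have hd := degS_spec φ
  rw [h] at hd
  have h2 : ((degS φ + 1 : ℕ) : ℂ) = (Fintype.card F : ℂ) := by
    push_cast
    rw [← hd]
    ring
  exact_mod_cast h2

theorem val_u_q_sub_one (hq : 4 ≤ Fintype.card F) {φ : S2 → ℂ} (hφ : IsIrrCharacter S2 φ)
    (h : φ 1 = (Fintype.card F : ℂ) - 1) : φ (uS 1) = -1 := by
  obtain ⟨χ, hχ, hc, rfl⟩ := isCuspFull_of_deg hq ⟨φ, hφ⟩ (deg_q_sub_one_cast h)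
  simp only [Function.comp_apply, ι_uS_one]
  exact (cusp_degree hχ hc).2

theorem val_u_q_add_one {φ : S2 → ℂ} (hφ : IsIrrCharacter S2 φ)
    (h : φ 1 = (Fintype.card F : ℂ) + 1) : φ (uS 1) = 1 := by
  obtain ⟨μ, -, rfl⟩ := eq_ff_of_deg hφ h
  exact ff_uS μ

/-! ### A conjugate of a constituent on elements with trace different from `±2` -/

theorem cy_mul_eq (y d : G2) (s : S2) (g : S2) (h : y = ι s * d) :
    cy y g = s * cy d g * s⁻¹ := by
  apply ι_inj
  rw [map_mul, map_mul, map_inv, ι_cy, ι_cy, h]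
  group

theorem fix_of_tr' (hodd : Odd (Fintype.card F)) (y : G2) (g : S2) (ht : (trS g) ^ 2 ≠ 4) :
    IsConj g (cy y g) := by
  obtain ⟨s, hs⟩ := exists_ι_of_det (g := y * (dm (Matrix.GeneralLinearGroup.det y))⁻¹)
    (by simp [det_dm])
  have h1 : y = ι s * dm (Matrix.GeneralLinearGroup.det y) := by rw [hs]; group
  rw [cy_mul_eq y _ s g h1]
  refine (fix_of_tr hodd _ g ht).trans (isConj_iff.mpr ⟨s, rfl⟩)

/-- On elements with trace different from `±2` the two constituents agree. -/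
theorem pair_val_of_tr (hodd : Odd (Fintype.card F)) {φ φ' : S2 → ℂ} (hφ : IsClassFunction S2 φ)
    {y : G2} (hy : ∀ g h : S2, ι h = y * ι g * y⁻¹ → φ' h = φ g) (g : S2) (ht : (trS g) ^ 2 ≠ 4) :
    φ' g = φ g := by
  have h1 : ι g = y * ι (cy y⁻¹ g) * y⁻¹ := by
    rw [ι_cy]
    group
  rw [hy _ _ h1]
  obtain ⟨x, hx⟩ := isConj_iff.mp (fix_of_tr' hodd y⁻¹ g ht)
  rw [← hx, hφ]

theorem tr_of_diag (g : S2) (h01 : (g : Matrix (Fin 2) (Fin 2) F) 0 1 = 0)
    (h10 : (g : Matrix (Fin 2) (Fin 2) F) 1 0 = 0) (h : (g : Matrix (Fin 2) (Fin 2) F) 0 0 ^ 2 ≠ 1) :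
    (trS g) ^ 2 ≠ 4 := by
  intro h4
  have hdet := sl_det g
  rw [h01, h10, zero_mul, sub_zero] at hdet
  have ha : (g : Matrix (Fin 2) (Fin 2) F) 0 0 ≠ 0 := left_ne_zero_of_mul_eq_one hdet
  apply h
  have h5 : ((g : Matrix (Fin 2) (Fin 2) F) 0 0 - (g : Matrix (Fin 2) (Fin 2) F) 1 1) ^ 2 = 0 := by
    have : trS g = (g : Matrix (Fin 2) (Fin 2) F) 0 0 + (g : Matrix (Fin 2) (Fin 2) F) 1 1 := rfl
    rw [this] at h4
    linear_combination h4 - 4 * hdet
  have h6 := sub_eq_zero.mp (pow_eq_zero_iff (two_ne_zero) |>.mp h5)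
  rw [sq]
  nth_rewrite 2 [h6]
  exact hdet

theorem tr_of_noEig (g : S2) (h : NoEig (ι g)) (h2 : (2 : F) ≠ 0) : (trS g) ^ 2 ≠ 4 := by
  intro h4
  set M := (g : Matrix (Fin 2) (Fin 2) F) with hM
  set l : F := trS g / 2 with hl
  have hdet := sl_det g
  have htr : trS g = M 0 0 + M 1 1 := rfl
  have hl2 : l ^ 2 = 1 := by
    rw [hl]
    field_simp
    linear_combination h4
  have hsing : (M - l • (1 : Matrix (Fin 2) (Fin 2) F)).det = 0 := by
    rw [Matrix.det_fin_two]
    simp only [Matrix.sub_apply, Matrix.smul_apply, Matrix.one_apply, smul_eq_mul, Fin.isValue]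
    simp
    have hsum : M 0 0 + M 1 1 = 2 * l := by
      rw [← htr, hl]
      field_simp
    have : (M 0 0 - l) * (M 1 1 - l) - M 0 1 * M 1 0 =
        (M 0 0 * M 1 1 - M 0 1 * M 1 0) - l * (M 0 0 + M 1 1) + l ^ 2 := by ring
    rw [this, hdet, hsum]
    linear_combination (-1 : F) * hl2
  obtain ⟨v, hv, hv2⟩ := Matrix.exists_mulVec_eq_zero_iff.mpr hsing
  apply h l v hv
  have h3 : M.mulVec v = l • v := by
    rw [Matrix.sub_mulVec, sub_eq_zero, Matrix.smul_mulVec, Matrix.one_mulVec] at hv2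
    exact hv2
  exact h3

/-! ### Degrees `(q ± 1)/2` -/

theorem val_half_noEig (hodd : Odd (Fintype.card F)) {φ : S2 → ℂ} (hφ : IsIrrCharacter S2 φ)
    (h : IsHalfP φ) {g : S2} (hg : NoEig (ι g)) : φ g = 0 := by
  obtain ⟨μ, -, -, φ', -, -, h3, y, hy⟩ := h
  have h2 := two_ne hodd
  have h4 := pair_val_of_tr hodd (isClassFunction_of_isCharacter (IsIrrCharacter.isCharacter hφ)) hy g
    (tr_of_noEig g hg h2)
  have h5 := congrFun h3 g
  rw [Pi.add_apply, h4, ff_eq_chi, chi_noEig μ 1 hg] at h5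
  have h6 : (2 : ℂ) * φ g = 0 := by linear_combination -h5
  simpa using h6

theorem val_cuspHalf_diag (hodd : Odd (Fintype.card F)) {φ : S2 → ℂ} (hφ : IsIrrCharacter S2 φ)
    (h : IsCuspHalf φ) {g : S2} (h01 : (g : Matrix (Fin 2) (Fin 2) F) 0 1 = 0)
    (h10 : (g : Matrix (Fin 2) (Fin 2) F) 1 0 = 0)
    (hne : (g : Matrix (Fin 2) (Fin 2) F) 0 0 ^ 2 ≠ 1) : φ g = 0 := by
  obtain ⟨χ, hχ, hc, φ', -, -, h3, y, hy⟩ := h
  have h4 := pair_val_of_tr hodd (isClassFunction_of_isCharacter (IsIrrCharacter.isCharacter hφ)) hy g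
    (tr_of_diag g h01 h10 hne)
  have h5 := congrFun h3 g
  rw [Pi.add_apply, h4, Function.comp_apply] at h5
  obtain ⟨a, d, hg, ha, hd⟩ := eq_bmk_of_diag (ι g) h01 h10
  have had : a ≠ d := by
    intro e
    apply hne
    have hdet := sl_det g
    rw [h01, h10, zero_mul, sub_zero] at hdet
    have h1 : (ι g : G2).1 0 0 = (g : Matrix (Fin 2) (Fin 2) F) 0 0 := rfl
    have h2 : (ι g : G2).1 1 1 = (g : Matrix (Fin 2) (Fin 2) F) 1 1 := rfl
    rw [h1] at ha
    rw [h2] at hd
    rw [sq]
    nth_rewrite 2 [ha]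
    rw [e, ← hd]
    exact hdet
  rw [hg, cusp_diag_zero (isClassFunction_of_isCharacter (IsIrrCharacter.isCharacter hχ)) hc a d had] at h5
  have h6 : (2 : ℂ) * φ g = 0 := by linear_combination -h5
  simpa using h6

theorem val_cuspFull_diag {φ : S2 → ℂ} (h : IsCuspFull φ) {g : S2}
    (h01 : (g : Matrix (Fin 2) (Fin 2) F) 0 1 = 0) (h10 : (g : Matrix (Fin 2) (Fin 2) F) 1 0 = 0)
    (hne : (g : Matrix (Fin 2) (Fin 2) F) 0 0 ^ 2 ≠ 1) : φ g = 0 := by
  obtain ⟨χ, hχ, hc, rfl⟩ := h
  obtain ⟨a, d, hg, ha, hd⟩ := eq_bmk_of_diag (ι g) h01 h10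
  have had : a ≠ d := by
    intro e
    apply hne
    have hdet := sl_det g
    rw [h01, h10, zero_mul, sub_zero] at hdet
    have h1 : (ι g : G2).1 0 0 = (g : Matrix (Fin 2) (Fin 2) F) 0 0 := rfl
    have h2 : (ι g : G2).1 1 1 = (g : Matrix (Fin 2) (Fin 2) F) 1 1 := rfl
    rw [h1] at ha
    rw [h2] at hd
    rw [sq]
    nth_rewrite 2 [ha]
    rw [e, ← hd]
    exact hdet
  simp only [Function.comp_apply]
  rw [hg]
  exact cusp_diag_zero (isClassFunction_of_isCharacter (IsIrrCharacter.isCharacter hχ)) hc a d had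

/-- In a field with three elements every non-zero element squares to one. -/
theorem sq_eq_one_of_card_three (h3 : Fintype.card F = 3) {a : F} (ha : a ≠ 0) : a ^ 2 = 1 := by
  have := FiniteField.pow_card_sub_one_eq_one a ha
  rwa [h3] at this

/-! ### The number of constituents of the half characters -/

theorem isHalfP_mem (hodd : Odd (Fintype.card F)) {μ₀ : MulChar F ℂ} (hμ1 : μ₀ ^ 2 = 1)
    (hμ2 : μ₀ ≠ 1) {χ₁ χ₂ : S2 → ℂ} (h1 : IsIrrCharacter S2 χ₁) (h2 : IsIrrCharacter S2 χ₂)
    (h4 : ff μ₀ = χ₁ + χ₂) {φ : S2 → ℂ} (hφ : IsIrrCharacter S2 φ) (h : IsHalfP φ) :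
    φ = χ₁ ∨ φ = χ₂ := by
  obtain ⟨μ, h8, h9, φ', h10, h11, h12, -⟩ := h
  have h13 : μ = μ₀ := quad_unique h8 h9 hμ1 hμ2
  subst h13
  rw [h4] at h12
  by_contra hcon
  push Not at hcon
  have h14 := congrArg (fun f => classInner f φ) h12
  simp only [classInner_add_left] at h14
  rw [classInner_irr_ne h1 hφ (fun e => hcon.1 e.symm),
    classInner_irr_ne h2 hφ (fun e => hcon.2 e.symm), classInner_irr_self hφ,
    classInner_irr_ne h10 hφ h11] at h14
  norm_num at h14

theorem card_isHalfP (hodd : Odd (Fintype.card F)) :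
    Nat.card {φ : IrrCharacter S2 // IsHalfP φ.1} = 2 := by
  classical
  obtain ⟨μ₀, hμ1, hμ2⟩ := exists_quadratic hodd
  obtain ⟨χ₁, χ₂, h1, h2, h3, h4, x, hx⟩ := half_principal μ₀ hμ1 hμ2
  have hy : IsHalfP χ₁ := ⟨μ₀, hμ1, hμ2, χ₂, h2, fun e => h3 e.symm, h4, x, hx⟩
  have hy' : IsHalfP χ₂ := by
    refine ⟨μ₀, hμ1, hμ2, χ₁, h1, h3, by rw [h4, add_comm], x⁻¹, ?_⟩
    intro g k hgk
    apply (hx k g ?_).symm
    rw [hgk]
    group
  rw [Nat.card_eq_two_iff]
  refine ⟨⟨⟨χ₁, h1⟩, hy⟩, ⟨⟨χ₂, h2⟩, hy'⟩, ?_, ?_⟩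
  · intro e
    exact h3 (congrArg (fun y : {φ : IrrCharacter S2 // IsHalfP φ.1} => y.1.1) e)
  · ext ⟨φ, hφ⟩
    simp only [Set.mem_insert_iff, Set.mem_singleton_iff, Set.mem_univ, iff_true]
    rcases isHalfP_mem hodd hμ1 hμ2 h1 h2 h4 φ.2 hφ with e | e
    · left; exact Subtype.ext (Subtype.ext e)
    · right; exact Subtype.ext (Subtype.ext e)

theorem exists_nonsq (hodd : Odd (Fintype.card F)) : ∃ n : Fˣ, ¬ IsSquare (n : F) := by
  have hF : ringChar F ≠ 2 := by
    intro h
    have := FiniteField.even_card_iff_char_two.mp h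
    rcases hodd with ⟨k, hk⟩
    omega
  obtain ⟨n₀, hn₀⟩ := FiniteField.exists_nonsquare hF
  have hn0 : n₀ ≠ 0 := by
    rintro rfl
    exact hn₀ ⟨0, by simp⟩
  exact ⟨Units.mk0 n₀ hn0, hn₀⟩

theorem card_isCuspHalf (hodd : Odd (Fintype.card F)) :
    Nat.card {φ : IrrCharacter S2 // IsCuspHalf φ.1} = 2 := by
  classical
  obtain ⟨n, hn⟩ := exists_nonsq hodd
  have h1 := card_moved hodd n hn
  have h2 := card_isHalfP hodd
  rw [Nat.card_eq_fintype_card, Fintype.card_subtype] at h1 h2 ⊢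
  have h3 : Finset.univ.filter (fun φ : IrrCharacter S2 => ¬ Fixed n φ.1) =
      Finset.univ.filter (fun φ : IrrCharacter S2 => IsHalfP φ.1) ∪
      Finset.univ.filter (fun φ : IrrCharacter S2 => IsCuspHalf φ.1) := by
    ext φ
    simp only [Finset.mem_filter, Finset.mem_univ, true_and, Finset.mem_union]
    exact not_fixed_iff hodd n hn φ.2
  rw [h3, Finset.card_union_of_disjoint, h2] at h1
  · omega
  · rw [Finset.disjoint_filter]
    intro φ _ h h'
    have e1 := isHalfP_degS φ h
    have e2 := isCuspHalf_degS φ h'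
    omega

/-! ### The field with three elements -/

section Three

theorem card_three_sq {a : F} (h3 : Fintype.card F = 3) (ha : a ^ 2 = 1) : a = 1 ∨ a = -1 := by
  have h : (a - 1) * (a + 1) = 0 := by linear_combination ha
  rcases mul_eq_zero.mp h with h1 | h1
  · exact Or.inl (sub_eq_zero.mp h1)
  · exact Or.inr (by linear_combination h1)

theorem three_eq_zero (h3 : Fintype.card F = 3) : (3 : F) = 0 := by
  have := FiniteField.cast_card_eq_zero F
  rw [h3] at this
  exact_mod_cast this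

theorem noEig_tr_zero (h3 : Fintype.card F = 3) (g : S2) (hg : NoEig (ι g)) : trS g = 0 := by
  have h30 := three_eq_zero h3
  have h2 : (2 : F) ≠ 0 := by
    intro h
    have : (1 : F) = 0 := by linear_combination h30 - h
    exact one_ne_zero this
  by_contra ht
  apply tr_of_noEig g hg h2
  rw [sq_eq_one_of_card_three h3 ht]
  linear_combination -h30

theorem centralizer_le (h3 : Fintype.card F = 3) (g : S2) (hg : NoEig (ι g)) :
    Nat.card (Subgroup.centralizer ({g} : Set S2)) ≤ 4 := by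
  classical
  have ht := noEig_tr_zero h3 g hg
  have hc := noEig_c hg
  have hdet := sl_det g
  have htr : (g : Matrix (Fin 2) (Fin 2) F) 0 0 + (g : Matrix (Fin 2) (Fin 2) F) 1 1 = 0 := ht
  have h30 := three_eq_zero h3
  have hsub : (Subgroup.centralizer ({g} : Set S2) : Set S2) ⊆
      (({1, zz, g, zz * g} : Finset S2) : Set S2) := by
    intro h hh
    have hcomm : h * g = g * h := by
      have := Subgroup.mem_centralizer_iff.mp hh g (Set.mem_singleton g)
      exact this.symm
    have hcomm' : ι h * ι g = ι g * ι h := by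
      rw [← map_mul, ← map_mul, hcomm]
    have hdeth := sl_det h
    set a := (g : Matrix (Fin 2) (Fin 2) F) 0 0 with ha
    set b := (g : Matrix (Fin 2) (Fin 2) F) 0 1 with hb
    set c := (g : Matrix (Fin 2) (Fin 2) F) 1 0 with hc'
    set d := (g : Matrix (Fin 2) (Fin 2) F) 1 1 with hd
    set x := (h : Matrix (Fin 2) (Fin 2) F) 0 0 with hx
    set y := (h : Matrix (Fin 2) (Fin 2) F) 0 1 with hy
    set z := (h : Matrix (Fin 2) (Fin 2) F) 1 0 with hz
    set w := (h : Matrix (Fin 2) (Fin 2) F) 1 1 with hw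
    have e00 : x * a + y * c = a * x + b * z := by
      have := congrArg (fun M : G2 => (M : Matrix (Fin 2) (Fin 2) F) 0 0) hcomm'
      simp only [(mul_entries _ _).1] at this
      exact this
    have e10 : z * a + w * c = c * x + d * z := by
      have := congrArg (fun M : G2 => (M : Matrix (Fin 2) (Fin 2) F) 1 0) hcomm'
      simp only [(mul_entries _ _).2.2.1] at this
      exact this
    have hc0 : c ≠ 0 := hc
    set β : F := z / c with hβ
    set α : F := x - β * a with hα
    have hz' : z = β * c := by rw [hβ]; field_simp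
    have hy' : y = β * b := by
      have : y * c = β * b * c := by rw [hz'] at e00; linear_combination e00
      exact mul_right_cancel₀ hc0 this
    have hx' : x = α + β * a := by rw [hα]; ring
    have hw' : w = α + β * d := by
      have : w * c = (α + β * d) * c := by
        rw [hz', hx'] at e10
        linear_combination e10
      exact mul_right_cancel₀ hc0 this
    have hnorm : α ^ 2 + β ^ 2 = 1 := by
      rw [hx', hw', hy', hz'] at hdeth
      have h5 : d = -a := by linear_combination htr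
      rw [h5] at hdeth hdet
      linear_combination hdeth + (β ^ 2 - β ^ 2 * 1) * hdet - β ^ 2 * hdet + 0 * h30
    have hcases : (β = 0 ∧ α ^ 2 = 1) ∨ (α = 0 ∧ β ^ 2 = 1) := by
      by_cases hb0 : β = 0
      · left
        refine ⟨hb0, ?_⟩
        rw [hb0] at hnorm
        simpa using hnorm
      · right
        have hb2 := sq_eq_one_of_card_three h3 hb0
        refine ⟨?_, hb2⟩
        by_contra ha0
        have ha2 := sq_eq_one_of_card_three h3 ha0
        rw [ha2, hb2] at hnorm
        have : (1 : F) = 0 := by linear_combination hnorm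
        exact one_ne_zero this
    have hext : ∀ k : S2, (k : Matrix (Fin 2) (Fin 2) F) 0 0 = x →
        (k : Matrix (Fin 2) (Fin 2) F) 0 1 = y → (k : Matrix (Fin 2) (Fin 2) F) 1 0 = z →
        (k : Matrix (Fin 2) (Fin 2) F) 1 1 = w → h = k := by
      intro k k0 k1 k2 k3
      apply Subtype.ext
      ext i j
      fin_cases i <;> fin_cases j
      · exact k0.symm
      · exact k1.symm
      · exact k2.symm
      · exact k3.symm
    have zzmul : ∀ (k : S2) (i j : Fin 2), ((zz * k : S2) : Matrix (Fin 2) (Fin 2) F) i j =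
        -(k : Matrix (Fin 2) (Fin 2) F) i j := by
      intro k i j
      have h6 : ((zz * k : S2) : Matrix (Fin 2) (Fin 2) F) = (zz : S2).1 * k.1 := rfl
      rw [h6]
      fin_cases i <;> fin_cases j <;> simp [Matrix.mul_apply, Fin.sum_univ_two, zz, mkS]
    simp only [Finset.coe_insert, Finset.coe_singleton, Set.mem_insert_iff, Set.mem_singleton_iff]
    rcases hcases with ⟨hb0, ha2⟩ | ⟨ha0, hb2⟩
    · rcases card_three_sq h3 ha2 with h7 | h7
      · left
        apply hext
        · simp [hx', hb0, h7]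
        · simp [hy', hb0]
        · simp [hz', hb0]
        · simp [hw', hb0, h7]
      · right; left
        apply hext
        · simp [hx', hb0, h7, zz, mkS]
        · simp [hy', hb0, zz, mkS]
        · simp [hz', hb0, zz, mkS]
        · simp [hw', hb0, h7, zz, mkS]
    · rcases card_three_sq h3 hb2 with h7 | h7
      · right; right; left
        apply hext
        · simp [hx', ha0, h7, ha]
        · simp [hy', h7, hb]
        · simp [hz', h7, hc']
        · simp [hw', ha0, h7, hd]
      · right; right; right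
        apply hext
        · rw [zzmul]; simp [hx', ha0, h7, ha]
        · rw [zzmul]; simp [hy', h7, hb]
        · rw [zzmul]; simp [hz', h7, hc']
        · rw [zzmul]; simp [hw', ha0, h7, hd]
  have h8 := Set.ncard_le_ncard hsub (Finset.finite_toSet _)
  rw [Set.ncard_coe_finset] at h8
  have h9 : Nat.card (Subgroup.centralizer ({g} : Set S2)) =
      (Subgroup.centralizer ({g} : Set S2) : Set S2).ncard := rfl
  rw [h9]
  exact h8.trans Finset.card_le_four

theorem norm_of_deg_one {φ : S2 → ℂ} (hφ : IsCharacter S2 φ) (h1 : φ 1 = 1) (g : S2) :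
    Complex.normSq (φ g) = 1 := by
  obtain ⟨f, hf⟩ := exists_hom_of_degree_one hφ h1
  have h2 : (φ g) ^ Nat.card S2 = 1 := by
    rw [hf, ← Units.val_pow_eq_pow_val, ← map_pow, pow_card_eq_one', map_one, Units.val_one]
  have h3 := Cfsg.Agent.Lib.CharValues.norm_eq_one_of_pow_eq_one Nat.card_pos h2
  rw [Complex.normSq_eq_norm_sq, h3]
  norm_num

theorem cuspFull_noEig_three (h3 : Fintype.card F = 3) (hodd : Odd (Fintype.card F)) (φ₀ : IrrCharacter S2)
    (h : IsCuspFull φ₀.1) {g : S2} (hg : NoEig (ι g)) : φ₀.1 g = 0 := by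
  classical
  obtain ⟨n, hn⟩ := exists_nonsq hodd
  obtain ⟨ψ₁, ψ₂, h12, -⟩ := Nat.card_eq_two_iff.mp (card_isCuspHalf hodd)
  have hd0 : degS φ₀ + 1 = Fintype.card F := by
    have h1 := isCuspFull_deg h
    exact deg_q_sub_one_cast h1
  have hd1 := isCuspHalf_degS ψ₁.1 ψ₁.2
  have hd2 := isCuspHalf_degS ψ₂.1 ψ₂.2
  rw [h3] at hd0 hd1 hd2
  let A : IrrCharacter S2 := ⟨one', one'_isIrr⟩
  let B : IrrCharacter S2 := ⟨stS, stS_isIrr⟩
  have hdA : degS A = 1 := (degS_eq_iff A 1).mpr (by simp [A, one'])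
  have hdB : degS B = 3 := (degS_eq_iff B 3).mpr (by
    simp only [B, stS_one]
    rw [h3])
  have hAfix : Fixed n A.1 := fixed_one' n
  have hne1 : A ≠ ψ₁.1 := fun e => isCuspHalf_not_fixed hodd n hn ψ₁.1.2 ψ₁.2 (e ▸ hAfix)
  have hne2 : A ≠ ψ₂.1 := fun e => isCuspHalf_not_fixed hodd n hn ψ₂.1.2 ψ₂.2 (e ▸ hAfix)
  have hne3 : A ≠ φ₀ := fun e => by rw [e] at hdA; omega
  have hne4 : A ≠ B := fun e => by rw [e] at hdA; omega
  have hne5 : B ≠ ψ₁.1 := fun e => by rw [e] at hdB; omega
  have hne6 : B ≠ ψ₂.1 := fun e => by rw [e] at hdB; omega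
  have hne7 : B ≠ φ₀ := fun e => by rw [e] at hdB; omega
  have hne8 : ψ₁.1 ≠ ψ₂.1 := fun e => h12 (Subtype.ext e)
  have hne9 : ψ₁.1 ≠ φ₀ := fun e => by rw [e] at hd1; omega
  have hne10 : ψ₂.1 ≠ φ₀ := fun e => by rw [e] at hd2; omega
  have hsum : ∑ φ : IrrCharacter S2, Complex.normSq (φ.1 g) =
      ((Nat.card (Subgroup.centralizer ({g} : Set S2)) : ℕ) : ℝ) := by
    have h1 := sum_irr_mul_conj g g
    rw [if_pos (IsConj.refl g)] at h1
    have h2 : ((∑ φ : IrrCharacter S2, Complex.normSq (φ.1 g) : ℝ) : ℂ) =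
        (((Nat.card (Subgroup.centralizer ({g} : Set S2)) : ℕ) : ℝ) : ℂ) := by
      push_cast
      rw [← h1]
      refine Finset.sum_congr rfl fun φ _ => ?_
      rw [Complex.mul_conj]
    exact_mod_cast h2
  have hle := Finset.sum_le_univ_sum_of_nonneg (s := ({A, B, ψ₁.1, ψ₂.1, φ₀} : Finset (IrrCharacter S2)))
    (f := fun φ : IrrCharacter S2 => Complex.normSq (φ.1 g)) (fun φ => Complex.normSq_nonneg _)
  rw [Finset.sum_insert (by simp [hne4, hne1, hne2, hne3]), Finset.sum_insert (by simp [hne5, hne6, hne7]),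
    Finset.sum_insert (by simp [hne8, hne9]), Finset.sum_insert (by simp [hne10]),
    Finset.sum_singleton, hsum] at hle
  have hC : ((Nat.card (Subgroup.centralizer ({g} : Set S2)) : ℕ) : ℝ) ≤ 4 := by
    exact_mod_cast centralizer_le h3 g hg
  have e1 : Complex.normSq (A.1 g) = 1 := by simp [A, one']
  have e2 : Complex.normSq (B.1 g) = 1 := by
    simp only [B]
    rw [stS_noEig g hg]
    simp
  have e3 : Complex.normSq (ψ₁.1.1 g) = 1 := by
    refine norm_of_deg_one (IsIrrCharacter.isCharacter ψ₁.1.2) ?_ g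
    rw [degS_spec]
    have : degS ψ₁.1 = 1 := by omega
    simp [this]
  have e4 : Complex.normSq (ψ₂.1.1 g) = 1 := by
    refine norm_of_deg_one (IsIrrCharacter.isCharacter ψ₂.1.2) ?_ g
    rw [degS_spec]
    have : degS ψ₂.1 = 1 := by omega
    simp [this]
  rw [e1, e2, e3, e4] at hle
  have h0 : Complex.normSq (φ₀.1 g) ≤ 0 := by linarith
  exact Complex.normSq_eq_zero.mp (le_antisymm h0 (Complex.normSq_nonneg _))

/-- The vanishing statement for `SL₂(q)`, `q` odd. -/
theorem vanish_statement (hodd : Odd (Fintype.card F)) {χ : S2 → ℂ} (hχ : IsIrrCharacter S2 χ) (g : S2) :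
    ((χ 1 = (Fintype.card F : ℂ) - 1 ∨ χ 1 = (((Fintype.card F - 1) / 2 : ℕ) : ℂ)) →
      (g : Matrix (Fin 2) (Fin 2) F) 0 1 = 0 → (g : Matrix (Fin 2) (Fin 2) F) 1 0 = 0 →
      (g : Matrix (Fin 2) (Fin 2) F) 0 0 ^ 2 ≠ 1 → χ g = 0) ∧
    ((χ 1 = (Fintype.card F : ℂ) + 1 ∨ χ 1 = (((Fintype.card F + 1) / 2 : ℕ) : ℂ)) →
      NoEig (ι g) → χ g = 0) := by
  have hq1 : 1 < Fintype.card F := Fintype.one_lt_card
  obtain ⟨k, hk⟩ := id hodd
  constructor
  · intro hdeg h01 h10 hne
    have hq5 : 5 ≤ Fintype.card F := by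
      by_contra hq5
      have h3 : Fintype.card F = 3 := by omega
      apply hne
      have hdet := sl_det g
      rw [h01, h10, zero_mul, sub_zero] at hdet
      exact sq_eq_one_of_card_three h3 (left_ne_zero_of_mul_eq_one hdet)
    rcases hdeg with hdeg | hdeg
    · have := isCuspFull_of_deg (by omega) ⟨χ, hχ⟩ (deg_q_sub_one_cast hdeg)
      exact val_cuspFull_diag this h01 h10 hne
    · have h2 : degS ⟨χ, hχ⟩ = (Fintype.card F - 1) / 2 := (degS_eq_iff _ _).mpr hdeg
      have := (half_classification hq5 ⟨χ, hχ⟩).2 (by omega)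
      exact val_cuspHalf_diag hodd hχ this h01 h10 hne
  · intro hdeg hg
    rcases hdeg with hdeg | hdeg
    · obtain ⟨μ, -, rfl⟩ := eq_ff_of_deg hχ hdeg
      rw [ff_eq_chi]
      exact chi_noEig μ 1 hg
    · have h2 : degS ⟨χ, hχ⟩ = (Fintype.card F + 1) / 2 := (degS_eq_iff _ _).mpr hdeg
      rcases deg_table ⟨χ, hχ⟩ with h1 | h1 | h1 | h1 | h1 | h1
      · exfalso; have := h1.2; omega
      · exfalso; have := h1.2; omega
      · exfalso; have := h1.2; omega
      · exact val_half_noEig hodd hχ h1.1 hg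
      · have := h1.2
        have h3 : Fintype.card F = 3 := by omega
        exact cuspFull_noEig_three h3 hodd ⟨χ, hχ⟩ h1.1 hg
      · exfalso; have := h1.2; omega

theorem sum_NN (D : Finset ℕ) (hD : ∀ φ : IrrCharacter S2, degS φ ∈ D) :
    ∑ d ∈ D, NN (F := F) d = Nat.card (IrrCharacter S2) := by
  classical
  rw [Nat.card_eq_fintype_card, ← Finset.card_univ,
    Finset.card_eq_sum_card_fiberwise (f := degS) (t := D) (fun φ _ => hD φ)]
  exact Finset.sum_congr rfl fun d _ => NN_eq d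

theorem card_irr_three (h3 : Fintype.card F = 3) (hodd : Odd (Fintype.card F)) :
    Nat.card (IrrCharacter S2) = 7 := by
  classical
  obtain ⟨n, hn⟩ := exists_nonsq hodd
  have hD : ∀ φ : IrrCharacter S2, degS φ ∈ ({1, 2, 3, 4} : Finset ℕ) := by
    intro φ
    simp only [Finset.mem_insert, Finset.mem_singleton]
    rcases deg_table φ with h1 | h1 | h1 | h1 | h1 | h1
    all_goals have := h1.2
    all_goals omega
  have h1 := sum_NN (F := F) _ hD
  have h2 := sum_partition (F := F) _ hD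
  rw [Finset.sum_insert (by simp), Finset.sum_insert (by simp), Finset.sum_insert (by simp),
    Finset.sum_singleton] at h1 h2
  have h5 : NN (F := F) 3 = 1 := by
    have := NN_q (F := F)
    rwa [h3] at this
  have h6 : NN (F := F) 4 = 0 := by
    have := NN_q_add_one_odd (F := F) hodd
    rw [h3] at this
    exact this
  have h7 : NN (F := F) 1 = 3 := by
    rw [NN_eq]
    have hfil : Finset.univ.filter (fun φ : IrrCharacter S2 => degS φ = 1) =
        insert (⟨one', one'_isIrr⟩ : IrrCharacter S2)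
          (Finset.univ.filter (fun φ : IrrCharacter S2 => IsCuspHalf φ.1)) := by
      ext φ
      simp only [Finset.mem_filter, Finset.mem_univ, true_and, Finset.mem_insert]
      constructor
      · intro hφ
        rcases deg_table φ with h1 | h1 | h1 | h1 | h1 | h1
        · left
          exact Subtype.ext h1.1
        · exfalso; have := h1.2; omega
        · exfalso; have := h1.2; omega
        · exfalso; have := h1.2; omega
        · exfalso; have := h1.2; omega
        · exact Or.inr h1.1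
      · rintro (rfl | hφ)
        · exact (degS_eq_iff _ 1).mpr (by simp [one'])
        · have := isCuspHalf_degS φ hφ
          omega
    have hnot : (⟨one', one'_isIrr⟩ : IrrCharacter S2) ∉
        Finset.univ.filter (fun φ : IrrCharacter S2 => IsCuspHalf φ.1) := by
      simp only [Finset.mem_filter, Finset.mem_univ, true_and]
      intro h
      exact isCuspHalf_not_fixed hodd n hn one'_isIrr h (fixed_one' n)
    have h8 := card_isCuspHalf (F := F) hodd
    rw [Nat.card_eq_fintype_card, Fintype.card_subtype] at h8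
    rw [hfil, Finset.card_insert_of_notMem hnot, h8]
  rw [card_S2, h3, h5, h6, h7] at h2
  norm_num at h2
  rw [h5, h6, h7] at h1
  omega

theorem card_irr_ge_five (hodd : Odd (Fintype.card F)) (hq : 5 ≤ Fintype.card F) :
    Nat.card (IrrCharacter S2) = Fintype.card F + 4 := by
  classical
  have hD : ∀ φ : IrrCharacter S2, degS φ ∈
      ({1, Fintype.card F, Fintype.card F + 1, Fintype.card F - 1, (Fintype.card F + 1) / 2,
        (Fintype.card F - 1) / 2} : Finset ℕ) := by
    intro φ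
    simp only [Finset.mem_insert, Finset.mem_singleton]
    obtain ⟨k, hk⟩ := id hodd
    rcases deg_table φ with h1 | h1 | h1 | h1 | h1 | h1
    all_goals have := h1.2
    all_goals omega
  have hsum := sum_NN (F := F) _ hD
  obtain ⟨k, hk⟩ := id hodd
  rw [Finset.sum_insert (by simp; omega), Finset.sum_insert (by simp; omega),
    Finset.sum_insert (by simp; omega), Finset.sum_insert (by simp; omega),
    Finset.sum_insert (by simp; omega), Finset.sum_singleton, NN_q, NN_one_odd hq,
    NN_half_plus hodd hq, NN_half_minus hodd hq, NN_q_add_one_odd hodd,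
    NN_q_sub_one_odd hodd hq] at hsum
  rw [← hsum]
  omega

/-- The number of conjugacy classes of `SL₂(q)`, `q` odd. -/
theorem card_conj_SL2 (hodd : Odd (Fintype.card F)) :
    Nat.card (ConjClasses S2) = Fintype.card F + 4 := by
  rw [← card_irr_eq_card_conjClasses]
  have hq1 : 1 < Fintype.card F := Fintype.one_lt_card
  obtain ⟨k, hk⟩ := id hodd
  by_cases h3 : Fintype.card F = 3
  · rw [card_irr_three h3 hodd, h3]
  · exact card_irr_ge_five hodd (by omega)

end Three

end Cfsg.Agent.Lib.SL2Val
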