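import Mathlib
import Cfsg.Agent.Lib.McKayTools
import Cfsg.Agent.Lib.SL2Odd
import Cfsg.Agent.S2325

/-!
# The number of irreducible characters of `SL₂(q)` of degree prime to `ℓ`
-/

set_option autoImplicit false
set_option linter.unusedSectionVars false
set_option linter.unusedSimpArgs false
set_option linter.unusedVariables false
set_option linter.style.haveILetI false

namespace Cfsg.Agent.Lib.SL2McKay

open Cfsg Cfsg.Agent.Lib.CharBasic Cfsg.Agent.Lib.CharInd Cfsg.Agent.Lib.CharKernel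
  Cfsg.Agent.Lib.SL2Char Cfsg.Agent.Lib.SL2Count Cfsg.Agent.Lib.SL2Odd Cfsg.Agent.Lib.McKayTools

variable {F : Type*} [Field F] [Fintype F] [DecidableEq F]

local notation "S2" => Matrix.SpecialLinearGroup (Fin 2) F

lemma charDegree_eq_degS (φ : IrrCharacter S2) : charDegree (φ : S2 → ℂ) = degS φ := by
  have h1 := one_eq_charDegree (IsIrrCharacter.isCharacter φ.2)
  rw [degS_spec φ] at h1
  exact_mod_cast h1.symm

open Classical in
/-- The count by degree for `q ≥ 5`. -/
theorem count_G (hodd : Odd (Fintype.card F)) (hq : 5 ≤ Fintype.card F) (P : ℕ → Prop) :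
    Nat.card {χ : IrrCharacter S2 // P (charDegree (χ : S2 → ℂ))} =
      (if P 1 then 1 else 0) + (if P (Fintype.card F) then 1 else 0) +
      (if P (Fintype.card F + 1) then (Fintype.card F - 3) / 2 else 0) +
      (if P (Fintype.card F - 1) then (Fintype.card F - 1) / 2 else 0) +
      (if P ((Fintype.card F + 1) / 2) then 2 else 0) +
      (if P ((Fintype.card F - 1) / 2) then 2 else 0) := by
  obtain ⟨k, hk⟩ := hodd
  have hodd' : Odd (Fintype.card F) := ⟨k, hk⟩
  rw [Nat.card_eq_fintype_card, Fintype.card_subtype]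
  simp only [charDegree_eq_degS]
  set D : Finset ℕ := {1, Fintype.card F, Fintype.card F + 1, Fintype.card F - 1, (Fintype.card F + 1) / 2,
    (Fintype.card F - 1) / 2} with hDdef
  have hD : ∀ φ : IrrCharacter S2, degS φ ∈ D := by
    intro φ
    simp only [hDdef, Finset.mem_insert, Finset.mem_singleton]
    rcases deg_table φ with h1 | h1 | h1 | h1 | h1 | h1
    all_goals have := h1.2
    all_goals omega
  rw [Finset.card_eq_sum_card_fiberwise (f := degS) (t := D) (fun φ _ => hD φ)]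
  have hstep : ∀ d : ℕ, ((Finset.univ.filter (fun φ : IrrCharacter S2 => P (degS φ))).filter
      (fun φ => degS φ = d)).card = if P d then NN (F := F) d else 0 := by
    intro d
    rw [NN_eq, Finset.filter_filter]
    split_ifs with h
    · congr 1
      ext φ
      simp only [Finset.mem_filter, Finset.mem_univ, true_and]
      constructor
      · exact fun h2 => h2.2
      · intro h2
        exact ⟨h2 ▸ h, h2⟩
    · rw [Finset.card_eq_zero, Finset.filter_eq_empty_iff]
      rintro φ - ⟨h2, rfl⟩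
      exact h h2
  simp only [hstep, hDdef]
  rw [Finset.sum_insert (by simp; omega), Finset.sum_insert (by simp; omega),
    Finset.sum_insert (by simp; omega), Finset.sum_insert (by simp; omega),
    Finset.sum_insert (by simp; omega), Finset.sum_singleton, NN_one_odd hq, NN_q, NN_q_add_one_odd hodd',
    NN_q_sub_one_odd hodd' hq, NN_half_plus hodd' hq, NN_half_minus hodd' hq]
  ring

/-- The odd degree characters. -/
theorem count_G_two (hodd : Odd (Fintype.card F)) (hq : 5 ≤ Fintype.card F) :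
    Nat.card {χ : IrrCharacter S2 // ¬ 2 ∣ charDegree (χ : S2 → ℂ)} = 4 := by
  classical
  rw [count_G hodd hq (fun d => ¬ 2 ∣ d)]
  beta_reduce
  rw [Nat.odd_iff] at hodd
  rw [if_pos (by omega), if_pos (by omega), if_neg (by omega), if_neg (by omega)]
  rcases (by omega : Fintype.card F % 4 = 1 ∨ Fintype.card F % 4 = 3) with h | h
  · rw [if_pos (by omega), if_neg (by omega)]
  · rw [if_neg (by omega), if_pos (by omega)]

/-- Odd `ℓ` dividing `q - 1`. -/
theorem count_G_split (hodd : Odd (Fintype.card F)) (hq : 5 ≤ Fintype.card F) {ℓ : ℕ} (hℓ : ℓ.Prime)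
    (h2 : ℓ ≠ 2) (hdvd : ℓ ∣ Fintype.card F - 1) :
    Nat.card {χ : IrrCharacter S2 // ¬ ℓ ∣ charDegree (χ : S2 → ℂ)} = (Fintype.card F + 5) / 2 := by
  classical
  rw [count_G hodd hq (fun d => ¬ ℓ ∣ d)]
  beta_reduce
  rw [Nat.odd_iff] at hodd
  obtain ⟨m, hm⟩ : ∃ m, Fintype.card F - 1 = 2 * m := ⟨(Fintype.card F - 1) / 2, by omega⟩
  have hcop : Nat.Coprime ℓ 2 := (Nat.coprime_primes hℓ Nat.prime_two).mpr h2
  have e1 : (Fintype.card F - 1) / 2 = m := by omega
  have e2 : (Fintype.card F + 1) / 2 = m + 1 := by omega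
  have e3 : Fintype.card F = 2 * m + 1 := by omega
  have hm' : ℓ ∣ m := by
    rw [hm] at hdvd
    exact hcop.dvd_of_dvd_mul_left hdvd
  have n1 : ¬ ℓ ∣ 1 := fun h => hℓ.one_lt.ne' (Nat.dvd_one.mp h)
  have n2 : ¬ ℓ ∣ m + 1 := fun h => n1 ((Nat.dvd_add_right hm').mp h)
  have n3 : ¬ ℓ ∣ 2 * m + 1 := fun h => n1 ((Nat.dvd_add_right (Dvd.dvd.mul_left hm' 2)).mp h)
  have n4 : ¬ ℓ ∣ 2 * m + 2 := by
    intro h
    have : ℓ ∣ 2 * (m + 1) := by
      rwa [show 2 * (m + 1) = 2 * m + 2 by ring]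
    exact n2 (hcop.dvd_of_dvd_mul_left this)
  rw [e1, e2, hm, e3]
  rw [if_pos n1, if_pos n3, if_pos n4, if_neg (not_not.mpr (Dvd.dvd.mul_left hm' 2)), if_pos n2,
    if_neg (not_not.mpr hm')]
  omega

/-- Odd `ℓ` dividing `q + 1`. -/
theorem count_G_nonsplit (hodd : Odd (Fintype.card F)) (hq : 5 ≤ Fintype.card F) {ℓ : ℕ} (hℓ : ℓ.Prime)
    (h2 : ℓ ≠ 2) (hdvd : ℓ ∣ Fintype.card F + 1) :
    Nat.card {χ : IrrCharacter S2 // ¬ ℓ ∣ charDegree (χ : S2 → ℂ)} = (Fintype.card F + 7) / 2 := by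
  classical
  rw [count_G hodd hq (fun d => ¬ ℓ ∣ d)]
  beta_reduce
  rw [Nat.odd_iff] at hodd
  obtain ⟨m, hm⟩ : ∃ m, Fintype.card F + 1 = 2 * m := ⟨(Fintype.card F + 1) / 2, by omega⟩
  have hcop : Nat.Coprime ℓ 2 := (Nat.coprime_primes hℓ Nat.prime_two).mpr h2
  have e1 : (Fintype.card F + 1) / 2 = m := by omega
  have e2 : (Fintype.card F - 1) / 2 = m - 1 := by omega
  have e4 : Fintype.card F - 1 = 2 * (m - 1) := by omega
  have hm' : ℓ ∣ m := by
    rw [hm] at hdvd
    exact hcop.dvd_of_dvd_mul_left hdvd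
  have n1 : ¬ ℓ ∣ 1 := fun h => hℓ.one_lt.ne' (Nat.dvd_one.mp h)
  have hm1 : m = (m - 1) + 1 := by omega
  have n2 : ¬ ℓ ∣ m - 1 := by
    intro h
    rw [hm1] at hm'
    exact n1 ((Nat.dvd_add_right h).mp hm')
  have n3 : ¬ ℓ ∣ 2 * (m - 1) := fun h => n2 (hcop.dvd_of_dvd_mul_left h)
  have n4 : ¬ ℓ ∣ Fintype.card F := by
    intro h
    rw [hm] at hdvd
    have h5 : Fintype.card F = 2 * m - 1 := by omega
    have h6 : ℓ ∣ 2 * m := Dvd.dvd.mul_left hm' 2
    have h7 : 2 * m = Fintype.card F + 1 := hm.symm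
    rw [h7] at h6
    exact n1 ((Nat.dvd_add_right h).mp h6)
  rw [e1, e2, hm, e4]
  rw [if_pos n1, if_pos n4, if_neg (not_not.mpr (Dvd.dvd.mul_left hm' 2)), if_pos n3, if_neg (not_not.mpr hm'),
    if_pos n2]
  omega

/-- The prime `p` dividing `q`: only the Steinberg character has degree divisible by `p`. -/
theorem count_G_defining (hodd : Odd (Fintype.card F)) {p : ℕ} (hp : p.Prime) (hdvd : p ∣ Fintype.card F) :
    Nat.card {χ : IrrCharacter S2 // ¬ p ∣ charDegree (χ : S2 → ℂ)} = Fintype.card F + 3 := by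
  classical
  have hodd' := hodd
  rw [Nat.odd_iff] at hodd'
  have n1 : ¬ p ∣ 1 := fun h => hp.one_lt.ne' (Nat.dvd_one.mp h)
  have hp2 : p ≠ 2 := by
    rintro rfl
    omega
  have hcop : Nat.Coprime p 2 := (Nat.coprime_primes hp Nat.prime_two).mpr hp2
  have hiff : ∀ φ : IrrCharacter S2, p ∣ charDegree (φ : S2 → ℂ) ↔ φ.1 = stS := by
    intro φ
    rw [charDegree_eq_degS]
    have hq1 : 1 < Fintype.card F := Fintype.one_lt_card
    constructor
    · intro h
      rcases deg_table φ with h1 | h1 | h1 | h1 | h1 | h1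
      · rw [h1.2] at h
        exact absurd h n1
      · exact h1.1
      · rw [h1.2] at h
        exact absurd ((Nat.dvd_add_right hdvd).mp h) n1
      · exfalso
        have h2 := h1.2
        have h3 : p ∣ Fintype.card F + 1 := by
          rw [← h2]
          exact Dvd.dvd.mul_left h 2
        exact n1 ((Nat.dvd_add_right hdvd).mp h3)
      · exfalso
        have h2 := h1.2
        rw [← h2] at hdvd
        exact n1 ((Nat.dvd_add_right h).mp hdvd)
      · exfalso
        have h2 := h1.2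
        rw [← h2] at hdvd
        exact n1 ((Nat.dvd_add_right (Dvd.dvd.mul_left h 2)).mp hdvd)
    · intro h
      have h2 : degS φ = Fintype.card F := by
        apply (degS_eq_iff φ _).mpr
        rw [h, stS_one]
      rw [h2]
      exact hdvd
  have htotal : Nat.card (IrrCharacter S2) = Fintype.card F + 4 := by
    rw [card_irr_eq]
    exact Cfsg.Agent.S2325.result hodd
  have hsub : Fintype.card {χ : IrrCharacter S2 // ¬ p ∣ charDegree (χ : S2 → ℂ)} =
      Fintype.card (IrrCharacter S2) - Fintype.card {χ : IrrCharacter S2 // p ∣ charDegree (χ : S2 → ℂ)} :=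
    Fintype.card_subtype_compl _
  have hone : Fintype.card {χ : IrrCharacter S2 // p ∣ charDegree (χ : S2 → ℂ)} = 1 := by
    rw [Fintype.card_eq_one_iff]
    refine ⟨⟨⟨stS, stS_isIrr⟩, (hiff _).mpr rfl⟩, ?_⟩
    rintro ⟨φ, hφ⟩
    apply Subtype.ext
    apply Subtype.ext
    exact (hiff φ).mp hφ
  rw [Nat.card_eq_fintype_card, hsub, hone, ← Nat.card_eq_fintype_card, htotal]
  rfl

end Cfsg.Agent.Lib.SL2McKay
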