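import Mathlib
import Cfsg.Agent.Lib.BlkDefect
import Cfsg.Agent.Lib.SL2Odd
import Cfsg.Agent.Lib.SL2Nonsplit
import Cfsg.Agent.Lib.SL2SylowTwo
import Cfsg.Agent.Lib.SL2McKayG

/-!
# The `p`-blocks of `SL₂(q)`, `q` a power of the odd prime `p`
-/

set_option autoImplicit false
set_option linter.unusedSectionVars false
set_option linter.unusedSimpArgs false
set_option linter.unusedVariables false
set_option linter.style.haveILetI false

namespace Cfsg.Agent.Lib.SL2Blocks

open Cfsg Cfsg.Agent.Lib.CharBasic Cfsg.Agent.Lib.CharInd Cfsg.Agent.Lib.BlockLocal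
  Cfsg.Agent.Lib.BlockIdem Cfsg.Agent.Lib.BlkBasic Cfsg.Agent.Lib.BlockVal
  Cfsg.Agent.Lib.BlkDefect Cfsg.Agent.Lib.SL2Core Cfsg.Agent.Lib.SL2Bor
  Cfsg.Agent.Lib.SL2Nonsplit Cfsg.Agent.Lib.SL2SylowTwo Cfsg.Agent.Lib.CharKernel
open scoped ComplexConjugate

section matrices

variable {F : Type*} [Field F]

local notation "E" g:max i:max j:max => ((g : SL2 F) : Matrix (Fin 2) (Fin 2) F) i j

/-- An element of trace `2` has order dividing `p`. -/
lemma pow_p_of_tr (p : ℕ) [hp : Fact p.Prime] [CharP F p] (g : SL2 F) (h : tr g = 2) : g ^ p = 1 := by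
  have hc := cayley g
  rw [h] at hc
  set A : Matrix (Fin 2) (Fin 2) F := (g : Matrix (Fin 2) (Fin 2) F) with hA
  have hN : (A - 1) ^ 2 = 0 := by
    rw [pow_two, sub_mul, mul_sub, mul_sub, hc, two_smul]
    simp only [mul_one, one_mul]
    abel
  have h1 : (A - 1) ^ p = 0 := pow_eq_zero_of_le hp.out.two_le hN
  have h2 : A ^ p = 1 := by
    have h3 := add_pow_char_of_commute (R := Matrix (Fin 2) (Fin 2) F) p (Commute.one_right (A - 1))
    rw [h1, one_pow, zero_add, sub_add_cancel] at h3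
    exact h3
  apply Subtype.ext
  rw [Matrix.SpecialLinearGroup.coe_pow, h2]
  rfl

/-- An element commuting with a nontrivial `p`-element has trace `± 2`. -/
lemma tr_of_commute (p : ℕ) [hp : Fact p.Prime] [CharP F p] (h2F : (2 : F) ≠ 0) {v g : SL2 F} (hv : v ≠ 1)
    (hvp : v ^ p = 1) (hc : v * g = g * v) : tr g = 2 ∨ tr g = -2 := by
  have htr : tr v = 2 := by
    have h1 : ((v : Matrix (Fin 2) (Fin 2) F) - 1) ^ p = 0 := by
      have h3 := sub_pow_char_of_commute (R := Matrix (Fin 2) (Fin 2) F) p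
        (Commute.one_right (v : Matrix (Fin 2) (Fin 2) F))
      rw [h3, one_pow]
      have h4 : (v : Matrix (Fin 2) (Fin 2) F) ^ p = 1 := by
        have := congrArg (fun z : SL2 F => (z : Matrix (Fin 2) (Fin 2) F)) hvp
        simpa using this
      rw [h4, sub_self]
    have h2 := congrArg Matrix.det h1
    rw [Matrix.det_pow, Matrix.det_zero] at h2
    have h3 := pow_eq_zero_iff hp.out.ne_zero |>.mp h2
    have h4 := det_sub_smul v 1
    rw [one_smul] at h4
    rw [h4] at h3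
    linear_combination -h3
  have hdetv := det_entries v
  have hdetg := det_entries g
  have htrv := htr
  rw [tr_eq] at htrv
  have e00 := congrArg (fun z : SL2 F => E z 0 0) hc
  have e01 := congrArg (fun z : SL2 F => E z 0 1) hc
  have e10 := congrArg (fun z : SL2 F => E z 1 0) hc
  simp only [mul_apply2] at e00 e01 e10
  set a := E g 0 0
  set b := E g 0 1
  set c := E g 1 0
  set d := E g 1 1
  set x := E v 0 0
  set y := E v 0 1
  set z := E v 1 0
  set w := E v 1 1
  have hx : w = 2 - x := by linear_combination htrv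
  rw [hx] at hdetv e01 e10
  have hkey : (a - d) ^ 2 + 4 * (b * c) = 0 := by
    by_cases hy : y = 0
    · have hz0 : z ≠ 0 := by
        intro hz0
        apply hv
        have h5 : (x - 1) ^ 2 = 0 := by
          rw [hy] at hdetv
          linear_combination -hdetv
        have h6 : x = 1 := by
          have := pow_eq_zero_iff (two_ne_zero) |>.mp h5
          linear_combination this
        apply sl2_ext
        · simpa using h6
        · simpa using hy
        · simpa using hz0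
        · simp only [Matrix.SpecialLinearGroup.coe_one, Matrix.one_apply_eq]
          change w = 1
          rw [hx, h6]
          ring
      have h5 : (x - 1) ^ 2 = 0 := by
        rw [hy] at hdetv
        linear_combination -hdetv
      have h6 : x = 1 := by
        have := pow_eq_zero_iff (two_ne_zero) |>.mp h5
        linear_combination this
      have hb : b = 0 := by
        have : b * z = 0 := by
          rw [hy] at e00
          linear_combination -e00
        exact (mul_eq_zero.mp this).resolve_right hz0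
      have had : a = d := by
        rw [h6] at e10
        have : (a - d) * z = 0 := by linear_combination e10
        have := (mul_eq_zero.mp this).resolve_right hz0
        linear_combination this
      rw [hb, had]
      ring
    · apply mul_left_cancel₀ (pow_ne_zero 2 hy)
      have h7 : (a - d) * y = b * (2 * x - 2) := by linear_combination -e01
      have h8 : (2 * x - 2) ^ 2 = -4 * (y * z) := by linear_combination -4 * hdetv
      have h9 : y * c = b * z := by linear_combination e00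
      calc y ^ 2 * ((a - d) ^ 2 + 4 * (b * c)) = ((a - d) * y) ^ 2 + 4 * b * y * (y * c) := by ring
        _ = (b * (2 * x - 2)) ^ 2 + 4 * b * y * (b * z) := by rw [h7, h9]
        _ = b ^ 2 * ((2 * x - 2) ^ 2 + 4 * (y * z)) := by ring
        _ = y ^ 2 * 0 := by rw [h8]; ring
  have h10 : (tr g - 2) * (tr g + 2) = 0 := by
    rw [tr_eq]
    linear_combination hkey + 4 * hdetg
  rcases mul_eq_zero.mp h10 with h | h
  · left
    linear_combination h
  · right
    linear_combination h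

variable [Fintype F]

/-- A semisimple noncentral element has a centraliser of order prime to `p`. -/
lemma not_dvd_card_centralizer (p : ℕ) [hp : Fact p.Prime] [CharP F p] (h2F : (2 : F) ≠ 0) {g : SL2 F}
    (h1 : tr g ≠ 2) (h2 : tr g ≠ -2) : ¬ p ∣ Nat.card (Subgroup.centralizer ({g} : Set (SL2 F))) := by
  intro hdvd
  haveI : Fintype (Subgroup.centralizer ({g} : Set (SL2 F))) := Fintype.ofFinite _
  obtain ⟨⟨v, hvC⟩, hv⟩ := exists_prime_orderOf_dvd_card' (G := Subgroup.centralizer ({g} : Set (SL2 F))) p hdvd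
  have hvp : v ^ p = 1 := by
    have h3 := pow_orderOf_eq_one (⟨v, hvC⟩ : Subgroup.centralizer ({g} : Set (SL2 F)))
    rw [hv] at h3
    simpa using congrArg Subtype.val h3
  have hv1 : v ≠ 1 := by
    rintro rfl
    have h3 : (⟨1, hvC⟩ : Subgroup.centralizer ({g} : Set (SL2 F))) = 1 := rfl
    rw [h3, orderOf_one] at hv
    exact hp.out.one_lt.ne hv
  have hcomm : v * g = g * v := ((Subgroup.mem_centralizer_singleton_iff).mp hvC)
  rcases tr_of_commute p h2F hv1 hvp hcomm with h | h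
  · exact h1 h
  · exact h2 h

/-- The class of a semisimple noncentral element has size divisible by `q`. -/
lemma index_of_semisimple (p : ℕ) [hp : Fact p.Prime] [CharP F p] (h2F : (2 : F) ≠ 0) {g : SL2 F}
    (h1 : tr g ≠ 2) (h2 : tr g ≠ -2) :
    ∃ m : ℕ, (Subgroup.centralizer ({g} : Set (SL2 F))).index = Fintype.card F * m ∧ ¬ p ∣ m := by
  have hq : 2 ≤ Fintype.card F := Fintype.one_lt_card
  obtain ⟨n, -, hn⟩ := FiniteField.card F p
  have hpq : p ∣ Fintype.card F := by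
    rw [hn]
    exact dvd_pow_self p n.ne_zero
  have hC := not_dvd_card_centralizer p h2F h1 h2
  have hidx := Subgroup.index_mul_card (Subgroup.centralizer ({g} : Set (SL2 F)))
  rw [Cfsg.Agent.Lib.ClassicalSmall.card_SL2] at hidx
  have hcop : Nat.Coprime (Fintype.card F) (Nat.card (Subgroup.centralizer ({g} : Set (SL2 F)))) := by
    rw [hn]
    exact Nat.Coprime.pow_left _ ((Nat.Prime.coprime_iff_not_dvd hp.out).mpr hC)
  have hdvd : Fintype.card F ∣ (Subgroup.centralizer ({g} : Set (SL2 F))).index := by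
    apply hcop.dvd_of_dvd_mul_right
    rw [hidx]
    exact Dvd.intro_left _ (by ring : (Fintype.card F + 1) * (Fintype.card F - 1) * Fintype.card F = _)
  obtain ⟨m, hm⟩ := hdvd
  refine ⟨m, hm, fun hpm => ?_⟩
  rw [hm] at hidx
  have h3 : m * Nat.card (Subgroup.centralizer ({g} : Set (SL2 F))) = (Fintype.card F + 1) * (Fintype.card F - 1) := by
    apply Nat.eq_of_mul_eq_mul_left (by omega : 0 < Fintype.card F)
    rw [← mul_assoc, hidx]
    ring
  have h4 : p ∣ (Fintype.card F + 1) * (Fintype.card F - 1) := by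
    rw [← h3]
    exact Dvd.dvd.mul_right hpm _
  rcases (Nat.Prime.dvd_mul hp.out).mp h4 with h5 | h5
  · have h6 : p ∣ 1 := by
      have := Nat.dvd_sub h5 hpq
      have e : Fintype.card F + 1 - Fintype.card F = 1 := by omega
      rwa [e] at this
    exact hp.out.one_lt.ne' (Nat.dvd_one.mp h6)
  · have h6 : p ∣ 1 := by
      have := Nat.dvd_sub hpq h5
      have e : Fintype.card F - (Fintype.card F - 1) = 1 := by omega
      rwa [e] at this
    exact hp.out.one_lt.ne' (Nat.dvd_one.mp h6)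

end matrices

section chars

variable {F : Type*} [Field F] [Fintype F] [DecidableEq F] {p : ℕ} [hp : Fact p.Prime] [CharP F p]
  {M : Ideal AlgInt}

local notation "S2" => Matrix.SpecialLinearGroup (Fin 2) F
local notation "zz" => (negS 1 : Matrix.SpecialLinearGroup (Fin 2) F)

lemma p_dvd_card : p ∣ Fintype.card F := by
  obtain ⟨n, -, hn⟩ := FiniteField.card F p
  rw [hn]
  exact dvd_pow_self p n.ne_zero

lemma two_ne_zero_F (hp2 : p ≠ 2) : (2 : F) ≠ 0 := by
  intro h
  have h1 : ((2 : ℕ) : F) = 0 := by exact_mod_cast h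
  rw [CharP.cast_eq_zero_iff F p 2] at h1
  exact hp2 ((Nat.prime_dvd_prime_iff_eq hp.out Nat.prime_two).mp h1)

/-- Only the Steinberg character has degree divisible by `p`. -/
lemma not_dvd_deg (χ : IrrCharacter S2) (h : (χ : S2 → ℂ) 1 ≠ (Fintype.card F : ℂ)) :
    ¬ p ∣ charDegree (χ : S2 → ℂ) := by
  have hpq : p ∣ Fintype.card F := p_dvd_card
  have hp1 : ¬ p ∣ 1 := fun h => hp.out.one_lt.ne' (Nat.dvd_one.mp h)
  rw [Cfsg.Agent.Lib.SL2McKay.charDegree_eq_degS]
  intro hdvd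
  apply hp1
  have hq : 2 ≤ Fintype.card F := Fintype.one_lt_card
  rcases Cfsg.Agent.Lib.SL2Odd.deg_table χ with h1 | h1 | h1 | h1 | h1 | h1
  · rwa [h1.2] at hdvd
  · exfalso
    apply h
    rw [h1.1, Cfsg.Agent.Lib.SL2Char.stS_one]
  · rw [h1.2] at hdvd
    have := Nat.dvd_sub hdvd hpq
    have e : Fintype.card F + 1 - Fintype.card F = 1 := by omega
    rwa [e] at this
  · have h2 : p ∣ Fintype.card F + 1 := by
      rw [← h1.2]
      exact Dvd.dvd.mul_left hdvd _
    have := Nat.dvd_sub h2 hpq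
    have e : Fintype.card F + 1 - Fintype.card F = 1 := by omega
    rwa [e] at this
  · have h2 : p ∣ charDegree (χ : S2 → ℂ) + 1 := by
      rw [Cfsg.Agent.Lib.SL2McKay.charDegree_eq_degS, h1.2]
      exact hpq
    exact (Nat.dvd_add_right (by rwa [Cfsg.Agent.Lib.SL2McKay.charDegree_eq_degS])).mp h2
  · have h2 : p ∣ 2 * Cfsg.Agent.Lib.SL2Count.degS χ + 1 := by
      rw [h1.2]
      exact hpq
    exact (Nat.dvd_add_right (Dvd.dvd.mul_left hdvd 2)).mp h2

lemma neg_one_eq : (-1 : S2) = zz := by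
  apply Subtype.ext
  simp

theorem stS_zz : Cfsg.Agent.Lib.SL2Char.stS (zz : S2) = (Fintype.card F : ℂ) := by
  simp only [Cfsg.Agent.Lib.SL2Char.stS, Pi.sub_apply, Cfsg.Agent.Lib.SL2Char.one',
    Cfsg.Agent.Lib.SL2Char.ff_eq_chi]
  rw [Cfsg.Agent.Lib.GL2Char.chi_apply]
  have e00 : ((Matrix.SpecialLinearGroup.toGL (n := Fin 2) (R := F) zz : Matrix.GeneralLinearGroup (Fin 2) F) : Matrix (Fin 2) (Fin 2) F) 0 0 = -1 := by
    show ((zz : S2) : Matrix (Fin 2) (Fin 2) F) 0 0 = -1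
    simp
  have e01 : ((Matrix.SpecialLinearGroup.toGL (n := Fin 2) (R := F) zz : Matrix.GeneralLinearGroup (Fin 2) F) : Matrix (Fin 2) (Fin 2) F) 0 1 = 0 := by
    show ((zz : S2) : Matrix (Fin 2) (Fin 2) F) 0 1 = 0
    simp
  have e10 : ((Matrix.SpecialLinearGroup.toGL (n := Fin 2) (R := F) zz : Matrix.GeneralLinearGroup (Fin 2) F) : Matrix (Fin 2) (Fin 2) F) 1 0 = 0 := by
    show ((zz : S2) : Matrix (Fin 2) (Fin 2) F) 1 0 = 0
    simp
  have e11 : ((Matrix.SpecialLinearGroup.toGL (n := Fin 2) (R := F) zz : Matrix.GeneralLinearGroup (Fin 2) F) : Matrix (Fin 2) (Fin 2) F) 1 1 = -1 := by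
    show ((zz : S2) : Matrix (Fin 2) (Fin 2) F) 1 1 = -1
    simp
  rw [e00, e01, e10, e11]
  have hu : IsUnit (-1 : F) := isUnit_one.neg
  simp [MulChar.one_apply hu, Finset.card_univ]

section block

variable (hM : IsPModular p M)
include hM

lemma inv_deg (χ : IrrCharacter S2) (h : (χ : S2 → ℂ) 1 ≠ (Fintype.card F : ℂ)) :
    MemLocalRing M ((χ : S2 → ℂ) 1)⁻¹ := by
  rw [one_eq_charDegree (IsIrrCharacter.isCharacter χ.2)]
  exact memLocalRing_inv_natCast hM (not_dvd_deg χ h)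

/-- Brauer's congruence for the elements of order dividing `p`. -/
lemma ratio_unip (χ : IrrCharacter S2) (h : (χ : S2 → ℂ) 1 ≠ (Fintype.card F : ℂ)) {u : S2} (hu : u ^ p = 1) :
    MemLocalIdeal M ((χ : S2 → ℂ) u / (χ : S2 → ℂ) 1 - 1) := by
  haveI := hM.2.1.isPrime
  have h1 := char_mul_congr hM (IsIrrCharacter.isCharacter χ.2) (Commute.one_right u) (k := 1)
    (by simpa using hu)
  rw [mul_one] at h1
  have h2 := memLocalIdeal_mul_left (inv_deg hM χ h) h1
  have hne := irr_one_ne_zero' χ.2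
  convert h2 using 1
  field_simp

omit hM in
lemma zz_val (χ : IrrCharacter S2) : (χ : S2 → ℂ) zz = (χ : S2 → ℂ) 1 ∨ (χ : S2 → ℂ) zz = -(χ : S2 → ℂ) 1 := by
  have h := Cfsg.Agent.Lib.CharCentral.central_mul χ.2 (z := zz) m_comm zz
  rw [m_mul_m] at h
  have h1 : ((χ : S2 → ℂ) zz - (χ : S2 → ℂ) 1) * ((χ : S2 → ℂ) zz + (χ : S2 → ℂ) 1) = 0 := by
    linear_combination -h
  rcases mul_eq_zero.mp h1 with h2 | h2
  · left
    linear_combination h2
  · right
    linear_combination h2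

omit hM in
lemma zz_mul (χ : IrrCharacter S2) (y : S2) :
    (χ : S2 → ℂ) (zz * y) = (χ : S2 → ℂ) zz / (χ : S2 → ℂ) 1 * (χ : S2 → ℂ) y := by
  have h := Cfsg.Agent.Lib.CharCentral.central_mul χ.2 (z := zz) m_comm y
  have hne := irr_one_ne_zero' χ.2
  field_simp
  linear_combination h

omit hM in
lemma sign_eq (χ : IrrCharacter S2) :
    (χ : S2 → ℂ) zz / (χ : S2 → ℂ) 1 = 1 ∨ (χ : S2 → ℂ) zz / (χ : S2 → ℂ) 1 = -1 := by
  have hne := irr_one_ne_zero' χ.2
  rcases zz_val χ with h | h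
  · left
    rw [h, div_self hne]
  · right
    rw [h, neg_div, div_self hne]

lemma local_sign (χ : IrrCharacter S2) : MemLocalRing M ((χ : S2 → ℂ) zz / (χ : S2 → ℂ) 1) := by
  haveI := hM.2.1.isPrime
  rcases sign_eq χ with h | h <;> rw [h]
  · exact memLocalRing_one
  · exact memLocalRing_neg memLocalRing_one

/-- Class sums of semisimple noncentral elements vanish modulo `M`. -/
lemma ideal_of_semisimple (hp2 : p ≠ 2) (χ : IrrCharacter S2) (h : (χ : S2 → ℂ) 1 ≠ (Fintype.card F : ℂ)) {g : S2}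
    (h2 : tr g ≠ 2) (h3 : tr g ≠ -2) : MemLocalIdeal M (centralChar (χ : S2 → ℂ) g) := by
  haveI := hM.2.1.isPrime
  obtain ⟨m, hm, hpm⟩ := index_of_semisimple p (two_ne_zero_F hp2) h2 h3
  unfold centralChar
  rw [hm]
  have hq : MemLocalIdeal M (Fintype.card F : ℂ) := memLocalIdeal_natCast_of_dvd hM p_dvd_card
  have e : ((Fintype.card F * m : ℕ) : ℂ) * (χ : S2 → ℂ) g / (χ : S2 → ℂ) 1 =
      (Fintype.card F : ℂ) * ((m : ℂ) * (χ : S2 → ℂ) g * ((χ : S2 → ℂ) 1)⁻¹) := by
    push_cast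
    rw [div_eq_mul_inv]
    ring
  rw [e]
  refine memLocalIdeal_mul_right hq (memLocalRing_mul (memLocalRing_mul (memLocalRing_natCast m) ?_) (inv_deg hM χ h))
  exact memLocalRing_of_isIntegral (isIntegral_irr χ g)

/-- Characters of degree prime to `p` with the same central sign lie in the same block. -/
theorem sameBlock_of_sign (hp2 : p ≠ 2) (χ ψ : IrrCharacter S2) (hχ : (χ : S2 → ℂ) 1 ≠ (Fintype.card F : ℂ))
    (hψ : (ψ : S2 → ℂ) 1 ≠ (Fintype.card F : ℂ))
    (hs : (χ : S2 → ℂ) zz / (χ : S2 → ℂ) 1 = (ψ : S2 → ℂ) zz / (ψ : S2 → ℂ) 1) :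
    SameBlock M (χ : S2 → ℂ) (ψ : S2 → ℂ) := by
  haveI := hM.2.1.isPrime
  intro g
  by_cases h2 : tr g = 2
  · have hu := pow_p_of_tr p g h2
    unfold centralChar
    set I : ℂ := ((Subgroup.centralizer ({g} : Set S2)).index : ℂ) with hI
    have e : I * (χ : S2 → ℂ) g / (χ : S2 → ℂ) 1 - I * (ψ : S2 → ℂ) g / (ψ : S2 → ℂ) 1 =
        I * (((χ : S2 → ℂ) g / (χ : S2 → ℂ) 1 - 1) - ((ψ : S2 → ℂ) g / (ψ : S2 → ℂ) 1 - 1)) := by ring
    rw [e]
    exact memLocalIdeal_mul_left (memLocalRing_natCast _)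
      (memLocalIdeal_sub (ratio_unip hM χ hχ hu) (ratio_unip hM ψ hψ hu))
  by_cases h3 : tr g = -2
  · have htr : tr (zz * g) = 2 := by
      rw [← negS_eq, tr_negS, h3]
      ring
    have hu := pow_p_of_tr p (zz * g) htr
    have hg : g = zz * (zz * g) := by
      rw [← mul_assoc, m_mul_m, one_mul]
    set u := zz * g with hudef
    unfold centralChar
    set I : ℂ := ((Subgroup.centralizer ({g} : Set S2)).index : ℂ) with hI
    have e1 : (χ : S2 → ℂ) g = (χ : S2 → ℂ) zz / (χ : S2 → ℂ) 1 * (χ : S2 → ℂ) u := by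
      rw [← zz_mul, ← hg]
    have e2 : (ψ : S2 → ℂ) g = (χ : S2 → ℂ) zz / (χ : S2 → ℂ) 1 * (ψ : S2 → ℂ) u := by
      rw [hs, ← zz_mul, ← hg]
    have e : I * (χ : S2 → ℂ) g / (χ : S2 → ℂ) 1 - I * (ψ : S2 → ℂ) g / (ψ : S2 → ℂ) 1 =
        (I * ((χ : S2 → ℂ) zz / (χ : S2 → ℂ) 1)) *
          (((χ : S2 → ℂ) u / (χ : S2 → ℂ) 1 - 1) - ((ψ : S2 → ℂ) u / (ψ : S2 → ℂ) 1 - 1)) := by
      rw [e1, e2]
      ring
    rw [e]
    exact memLocalIdeal_mul_left (memLocalRing_mul (memLocalRing_natCast _) (local_sign hM χ))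
      (memLocalIdeal_sub (ratio_unip hM χ hχ hu) (ratio_unip hM ψ hψ hu))
  · exact memLocalIdeal_sub (ideal_of_semisimple hM hp2 χ hχ h2 h3) (ideal_of_semisimple hM hp2 ψ hψ h2 h3)

lemma not_ideal_two (hp2 : p ≠ 2) : ¬ MemLocalIdeal M (2 : ℂ) := by
  intro h
  have h1 : MemLocalIdeal M ((2 : ℕ) : ℂ) := by exact_mod_cast h
  rw [memLocalIdeal_natCast_iff hM] at h1
  exact hp2 ((Nat.prime_dvd_prime_iff_eq hp.out Nat.prime_two).mp h1)

omit hM in
lemma centralizer_zz : Subgroup.centralizer ({zz} : Set S2) = ⊤ := by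
  rw [eq_top_iff]
  intro x _
  rw [Subgroup.mem_centralizer_singleton_iff]
  exact (m_comm x).symm

/-- Characters in the same block have the same central sign. -/
theorem sign_of_sameBlock (hp2 : p ≠ 2) {χ ψ : IrrCharacter S2} (h : SameBlock M (χ : S2 → ℂ) (ψ : S2 → ℂ)) :
    (χ : S2 → ℂ) zz / (χ : S2 → ℂ) 1 = (ψ : S2 → ℂ) zz / (ψ : S2 → ℂ) 1 := by
  haveI := hM.2.1.isPrime
  have h1 := h zz
  unfold centralChar at h1
  rw [centralizer_zz, Subgroup.index_top, Nat.cast_one, one_mul, one_mul] at h1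
  rcases sign_eq χ with h2 | h2 <;> rcases sign_eq ψ with h3 | h3
  · rw [h2, h3]
  · exfalso
    rw [h2, h3] at h1
    apply not_ideal_two hM hp2
    convert h1 using 1
    ring
  · exfalso
    rw [h2, h3] at h1
    apply not_ideal_two hM hp2
    convert memLocalIdeal_neg h1 using 1
    ring
  · rw [h2, h3]

/-- The Steinberg character is alone in its block. -/
theorem st_alone (hp2 : p ≠ 2) {ψ : IrrCharacter S2}
    (h : SameBlock M (Cfsg.Agent.Lib.SL2Char.stS (F := F)) (ψ : S2 → ℂ)) :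
    (ψ : S2 → ℂ) 1 = (Fintype.card F : ℂ) := by
  haveI := hM.2.1.isPrime
  by_contra hψ
  obtain ⟨D⟩ := Cfsg.Agent.Lib.SL2Torus.exists_normOneData (F := F)
  have hns := gC_ns D
  set g := gC D with hg
  have h2 : tr g ≠ 2 := by
    intro e
    apply hns 1
    rw [e]
    ring
  have h3 : tr g ≠ -2 := by
    intro e
    apply hns (-1)
    rw [e]
    ring
  have hst : Cfsg.Agent.Lib.SL2Char.stS g = -1 :=
    Cfsg.Agent.Lib.SL2Char.stS_noEig g ((ns_iff g).mp hns)
  have h4 := memLocalIdeal_add (h g) (ideal_of_semisimple hM hp2 ψ hψ h2 h3)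
  rw [sub_add_cancel] at h4
  obtain ⟨m, hm, hpm⟩ := index_of_semisimple p (two_ne_zero_F hp2) h2 h3
  unfold centralChar at h4
  rw [hm, hst, Cfsg.Agent.Lib.SL2Char.stS_one] at h4
  have hq : (Fintype.card F : ℂ) ≠ 0 := by
    exact_mod_cast (Fintype.card_ne_zero (α := F))
  have e : ((Fintype.card F * m : ℕ) : ℂ) * -1 / (Fintype.card F : ℂ) = -(m : ℂ) := by
    push_cast
    field_simp
  rw [e] at h4
  have h5 := memLocalIdeal_neg h4
  rw [neg_neg, memLocalIdeal_natCast_iff hM] at h5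
  exact hpm h5

omit hM in
lemma sameBlock_symm {χ ψ : S2 → ℂ} [M.IsPrime] (h : SameBlock M χ ψ) : SameBlock M ψ χ := by
  intro g
  have := memLocalIdeal_neg (h g)
  rwa [neg_sub] at this

end block

/-- The set containing the Steinberg character. -/
def S0 : Set (IrrCharacter S2) := {χ | (χ : S2 → ℂ) 1 = (Fintype.card F : ℂ)}
/-- The principal block. -/
def Sp : Set (IrrCharacter S2) := {χ | (χ : S2 → ℂ) (-1) = (χ : S2 → ℂ) 1 ∧ (χ : S2 → ℂ) 1 ≠ (Fintype.card F : ℂ)}
/-- The faithful block. -/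
def Sm : Set (IrrCharacter S2) := {χ | (χ : S2 → ℂ) (-1) = -(χ : S2 → ℂ) 1}

/-- The Steinberg character as an irreducible character. -/
noncomputable def stI : IrrCharacter S2 := ⟨Cfsg.Agent.Lib.SL2Char.stS, Cfsg.Agent.Lib.SL2Char.stS_isIrr⟩

lemma eq_stI_of_mem {χ : IrrCharacter S2} (h : χ ∈ (S0 : Set (IrrCharacter S2))) : χ = stI :=
  Subtype.ext (Cfsg.Agent.Lib.SL2Char.eq_stS_of_deg χ.2 h)

lemma stI_mem : (stI : IrrCharacter S2) ∈ (S0 : Set (IrrCharacter S2)) :=
  Cfsg.Agent.Lib.SL2Char.stS_one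

lemma card_ne_zero_C : (Fintype.card F : ℂ) ≠ 0 := by
  exact_mod_cast (Fintype.card_ne_zero (α := F))

/-- Members of `S0` have positive sign. -/
lemma S0_zz {χ : IrrCharacter S2} (h : χ ∈ (S0 : Set (IrrCharacter S2))) :
    (χ : S2 → ℂ) (-1) = (χ : S2 → ℂ) 1 := by
  rw [eq_stI_of_mem h, neg_one_eq]
  show Cfsg.Agent.Lib.SL2Char.stS zz = Cfsg.Agent.Lib.SL2Char.stS 1
  rw [stS_zz, Cfsg.Agent.Lib.SL2Char.stS_one]

lemma trichotomy (χ : IrrCharacter S2) :
    χ ∈ (S0 : Set (IrrCharacter S2)) ∨ χ ∈ (Sp : Set (IrrCharacter S2)) ∨ χ ∈ (Sm : Set (IrrCharacter S2)) := by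
  by_cases h : (χ : S2 → ℂ) 1 = (Fintype.card F : ℂ)
  · exact Or.inl h
  · right
    rcases zz_val χ with h1 | h1
    · left
      exact ⟨by rw [neg_one_eq, h1], h⟩
    · right
      show (χ : S2 → ℂ) (-1) = _
      rw [neg_one_eq, h1]

lemma Sm_not_S0 {χ : IrrCharacter S2} (h : χ ∈ (Sm : Set (IrrCharacter S2))) :
    χ ∉ (S0 : Set (IrrCharacter S2)) := by
  intro h0
  have h1 := S0_zz h0
  have h2 : (χ : S2 → ℂ) (-1) = -(χ : S2 → ℂ) 1 := h
  have h3 := irr_one_ne_zero' χ.2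
  rw [h1] at h2
  apply h3
  have h4 : (2 : ℂ) * (χ : S2 → ℂ) 1 = 0 := by linear_combination h2
  simpa using h4

lemma Sm_not_Sp {χ : IrrCharacter S2} (h : χ ∈ (Sm : Set (IrrCharacter S2))) :
    χ ∉ (Sp : Set (IrrCharacter S2)) := by
  intro h0
  have h1 := h0.1
  have h2 : (χ : S2 → ℂ) (-1) = -(χ : S2 → ℂ) 1 := h
  have h3 := irr_one_ne_zero' χ.2
  rw [h1] at h2
  apply h3
  have h4 : (2 : ℂ) * (χ : S2 → ℂ) 1 = 0 := by linear_combination h2
  simpa using h4

section blocks2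

variable (hM : IsPModular p M) (hp2 : p ≠ 2)
include hM hp2

theorem block_S0 {χ : IrrCharacter S2} (h : χ ∈ (S0 : Set (IrrCharacter S2))) :
    blockOf M (χ : S2 → ℂ) = S0 := by
  haveI := hM.2.1.isPrime
  have hχ := eq_stI_of_mem h
  ext ψ
  constructor
  · intro hψ
    rw [hχ] at hψ
    exact st_alone hM hp2 hψ
  · intro hψ
    rw [hχ, eq_stI_of_mem hψ]
    intro g
    rw [sub_self]
    exact memLocalIdeal_zero

theorem block_Sp {χ : IrrCharacter S2} (h : χ ∈ (Sp : Set (IrrCharacter S2))) :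
    blockOf M (χ : S2 → ℂ) = Sp := by
  haveI := hM.2.1.isPrime
  have hne := irr_one_ne_zero' χ.2
  have hs : (χ : S2 → ℂ) zz / (χ : S2 → ℂ) 1 = 1 := by
    rw [← neg_one_eq, h.1, div_self hne]
  ext ψ
  constructor
  · intro hψ
    have h1 : SameBlock M (χ : S2 → ℂ) (ψ : S2 → ℂ) := hψ
    have h2 := sign_of_sameBlock hM hp2 h1
    rw [hs] at h2
    have hne' := irr_one_ne_zero' ψ.2
    refine ⟨?_, ?_⟩
    · rw [neg_one_eq]
      field_simp at h2
      exact h2.symm
    · intro h3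
      have h4 : ψ = stI := eq_stI_of_mem h3
      rw [h4] at h1
      exact h.2 (st_alone hM hp2 (sameBlock_symm h1))
  · intro hψ
    have hne' := irr_one_ne_zero' ψ.2
    apply sameBlock_of_sign hM hp2 χ ψ h.2 hψ.2
    rw [hs, ← neg_one_eq, hψ.1, div_self hne']

theorem block_Sm {χ : IrrCharacter S2} (h : χ ∈ (Sm : Set (IrrCharacter S2))) :
    blockOf M (χ : S2 → ℂ) = Sm := by
  haveI := hM.2.1.isPrime
  have hne := irr_one_ne_zero' χ.2
  have hh : (χ : S2 → ℂ) (-1) = -(χ : S2 → ℂ) 1 := h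
  have hs : (χ : S2 → ℂ) zz / (χ : S2 → ℂ) 1 = -1 := by
    rw [← neg_one_eq, hh, neg_div, div_self hne]
  have hχ0 : (χ : S2 → ℂ) 1 ≠ (Fintype.card F : ℂ) := Sm_not_S0 h
  ext ψ
  constructor
  · intro hψ
    have h1 : SameBlock M (χ : S2 → ℂ) (ψ : S2 → ℂ) := hψ
    have h2 := sign_of_sameBlock hM hp2 h1
    rw [hs] at h2
    have hne' := irr_one_ne_zero' ψ.2
    show (ψ : S2 → ℂ) (-1) = _
    rw [neg_one_eq]
    field_simp at h2
    linear_combination -h2
  · intro hψ
    have hh' : (ψ : S2 → ℂ) (-1) = -(ψ : S2 → ℂ) 1 := hψ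
    have hne' := irr_one_ne_zero' ψ.2
    apply sameBlock_of_sign hM hp2 χ ψ hχ0 (Sm_not_S0 hψ)
    rw [hs, ← neg_one_eq, hh', neg_div, div_self hne']

end blocks2

section sums

omit [CharP F p] hp in
lemma neg_one_ne_one (h2F : (2 : F) ≠ 0) : (-1 : S2) ≠ 1 := by
  intro h
  have e := congrArg (fun z : S2 => (z : Matrix (Fin 2) (Fin 2) F) 0 0) h
  simp at e
  apply h2F
  linear_combination -e

lemma sum_all : ∑ χ : IrrCharacter S2, (χ : S2 → ℂ) 1 * conj ((χ : S2 → ℂ) 1) = (Nat.card S2 : ℂ) := by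
  rw [sum_irr_mul_conj 1 1, if_pos (IsConj.refl _)]
  congr 1
  have : Subgroup.centralizer ({(1 : S2)} : Set S2) = ⊤ := by
    ext x
    simp [Subgroup.mem_centralizer_iff]
  rw [this]
  exact Nat.card_congr Subgroup.topEquiv.toEquiv

lemma sum_neg (h2F : (2 : F) ≠ 0) : ∑ χ : IrrCharacter S2, (χ : S2 → ℂ) 1 * conj ((χ : S2 → ℂ) (-1)) = 0 := by
  rw [sum_irr_mul_conj 1 (-1), if_neg]
  intro h
  have h1 : (1 : S2) = -1 := by
    obtain ⟨c, hc⟩ := isConj_iff.mp h
    simpa using hc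
  exact neg_one_ne_one h2F h1.symm

/-- The sums of squares of degrees over the blocks. -/
theorem sum_blocks (h2F : (2 : F) ≠ 0) :
    ∑ χ : IrrCharacter S2, blkInd (Sm : Set (IrrCharacter S2)) χ * ((χ : S2 → ℂ) 1 * conj ((χ : S2 → ℂ) 1)) =
      (Nat.card S2 : ℂ) / 2 ∧
    ∑ χ : IrrCharacter S2, blkInd (Sp : Set (IrrCharacter S2)) χ * ((χ : S2 → ℂ) 1 * conj ((χ : S2 → ℂ) 1)) =
      (Nat.card S2 : ℂ) / 2 - (Fintype.card F : ℂ) ^ 2 := by
  set a : IrrCharacter S2 → ℂ := fun χ => (χ : S2 → ℂ) 1 * conj ((χ : S2 → ℂ) 1) with ha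
  have h1 : ∀ χ : IrrCharacter S2, blkInd (S0 : Set (IrrCharacter S2)) χ * a χ +
      blkInd (Sp : Set (IrrCharacter S2)) χ * a χ + blkInd (Sm : Set (IrrCharacter S2)) χ * a χ = a χ := by
    intro χ
    rcases trichotomy χ with h | h | h
    · rw [blkInd_of_mem h, blkInd_of_not_mem (fun h' => h'.2 h),
        blkInd_of_not_mem (fun h' => Sm_not_S0 h' h)]
      ring
    · rw [blkInd_of_mem h, blkInd_of_not_mem h.2, blkInd_of_not_mem (fun h' => Sm_not_Sp h' h)]
      ring
    · rw [blkInd_of_mem h, blkInd_of_not_mem (Sm_not_S0 h), blkInd_of_not_mem (Sm_not_Sp h)]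
      ring
  have h2 : ∀ χ : IrrCharacter S2, blkInd (S0 : Set (IrrCharacter S2)) χ * a χ +
      blkInd (Sp : Set (IrrCharacter S2)) χ * a χ - blkInd (Sm : Set (IrrCharacter S2)) χ * a χ =
      (χ : S2 → ℂ) 1 * conj ((χ : S2 → ℂ) (-1)) := by
    intro χ
    rcases trichotomy χ with h | h | h
    · rw [blkInd_of_mem h, blkInd_of_not_mem (fun h' => h'.2 h),
        blkInd_of_not_mem (fun h' => Sm_not_S0 h' h), S0_zz h]
      simp [ha]
    · rw [blkInd_of_mem h, blkInd_of_not_mem h.2, blkInd_of_not_mem (fun h' => Sm_not_Sp h' h), h.1]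
      simp [ha]
    · have hh : (χ : S2 → ℂ) (-1) = -(χ : S2 → ℂ) 1 := h
      rw [blkInd_of_mem h, blkInd_of_not_mem (Sm_not_S0 h), blkInd_of_not_mem (Sm_not_Sp h), hh]
      simp [ha]
  have hA0 : ∑ χ : IrrCharacter S2, blkInd (S0 : Set (IrrCharacter S2)) χ * a χ = (Fintype.card F : ℂ) ^ 2 := by
    rw [Finset.sum_eq_single stI]
    · rw [blkInd_of_mem stI_mem]
      have hone : (stI : IrrCharacter S2).1 1 = (Fintype.card F : ℂ) := stI_mem
      simp only [ha, hone, one_mul, map_natCast]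
      ring
    · intro χ _ hχ
      rw [blkInd_of_not_mem (fun h => hχ (eq_stI_of_mem h)), zero_mul]
    · intro h
      exact absurd (Finset.mem_univ _) h
  have hs1 := Finset.sum_congr rfl (fun χ (_ : χ ∈ Finset.univ) => h1 χ)
  have hs2 := Finset.sum_congr rfl (fun χ (_ : χ ∈ Finset.univ) => h2 χ)
  rw [Finset.sum_add_distrib, Finset.sum_add_distrib, sum_all, hA0] at hs1
  rw [Finset.sum_sub_distrib, Finset.sum_add_distrib, sum_neg h2F, hA0] at hs2
  constructor
  · linear_combination (1 / 2 : ℂ) * hs1 - (1 / 2 : ℂ) * hs2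
  · linear_combination (1 / 2 : ℂ) * hs1 + (1 / 2 : ℂ) * hs2

end sums

section main

variable (hM : IsPModular p M) (hp2 : p ≠ 2)
include hM hp2

lemma Sm_nonempty : ∃ χ : IrrCharacter S2, χ ∈ (Sm : Set (IrrCharacter S2)) := by
  by_contra hcon
  push Not at hcon
  have h1 := (sum_blocks (F := F) (two_ne_zero_F hp2)).1
  rw [Finset.sum_eq_zero (fun χ _ => by rw [blkInd_of_not_mem (hcon χ), zero_mul])] at h1
  have h2 : (Nat.card S2 : ℂ) ≠ 0 := natCard_ne_zero'
  apply h2
  linear_combination -2 * h1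

lemma Sp_nonempty : ∃ χ : IrrCharacter S2, χ ∈ (Sp : Set (IrrCharacter S2)) := by
  have hq : 2 ≤ Fintype.card F := Fintype.one_lt_card
  refine ⟨⟨Cfsg.Agent.Lib.SL2Char.one', Cfsg.Agent.Lib.SL2Char.one'_isIrr⟩, rfl, ?_⟩
  show (1 : ℂ) ≠ _
  intro h
  have : (1 : ℕ) = Fintype.card F := by exact_mod_cast h
  omega

theorem isPBlock_iff (B : Set (IrrCharacter S2)) :
    IsPBlock M B ↔ (B = S0 ∨ B = Sp ∨ B = Sm) := by
  constructor
  · rintro ⟨χ, rfl⟩
    rcases trichotomy χ with h | h | h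
    · exact Or.inl (block_S0 hM hp2 h)
    · exact Or.inr (Or.inl (block_Sp hM hp2 h))
    · exact Or.inr (Or.inr (block_Sm hM hp2 h))
  · rintro (rfl | rfl | rfl)
    · exact ⟨stI, (block_S0 hM hp2 stI_mem).symm⟩
    · obtain ⟨χ, hχ⟩ := Sp_nonempty (F := F) hM hp2
      exact ⟨χ, (block_Sp hM hp2 hχ).symm⟩
    · obtain ⟨χ, hχ⟩ := Sm_nonempty (F := F) hM hp2
      exact ⟨χ, (block_Sm hM hp2 hχ).symm⟩

theorem card_blocks :
    Nat.card {B : Set (IrrCharacter S2) // IsPBlock M B} = 3 := by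
  have hset : {B : Set (IrrCharacter S2) | IsPBlock M B} = {S0, Sp, Sm} := by
    ext B
    simp only [Set.mem_ofPred_eq, Set.mem_insert_iff, Set.mem_singleton_iff]
    exact isPBlock_iff hM hp2 B
  have h1 : Nat.card {B : Set (IrrCharacter S2) // IsPBlock M B} =
      ({B : Set (IrrCharacter S2) | IsPBlock M B}).ncard := by
    rw [← Nat.card_coe_set_eq]
    rfl
  rw [h1, hset, Set.ncard_eq_three]
  obtain ⟨χ₁, hχ₁⟩ := Sp_nonempty (F := F) hM hp2
  obtain ⟨χ₂, hχ₂⟩ := Sm_nonempty (F := F) hM hp2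
  refine ⟨S0, Sp, Sm, ?_, ?_, ?_, rfl⟩
  · intro h
    have : χ₁ ∈ (S0 : Set (IrrCharacter S2)) := h ▸ hχ₁
    exact hχ₁.2 this
  · intro h
    have : χ₂ ∈ (S0 : Set (IrrCharacter S2)) := h ▸ hχ₂
    exact Sm_not_S0 hχ₂ this
  · intro h
    have : χ₂ ∈ (Sp : Set (IrrCharacter S2)) := h ▸ hχ₂
    exact Sm_not_Sp hχ₂ this

omit hM hp2 in
lemma centralChar_one (χ : IrrCharacter S2) : centralChar (χ : S2 → ℂ) 1 = 1 := by
  have h : Subgroup.centralizer ({(1 : S2)} : Set S2) = ⊤ := by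
    ext x
    simp [Subgroup.mem_centralizer_iff]
  unfold centralChar
  rw [h, Subgroup.index_top, Nat.cast_one, one_mul, div_self (irr_one_ne_zero' χ.2)]

/-- If the class of `1` is a defect class, every Sylow subgroup is a defect group. -/
lemma isDefectGroup_of_one {B : Set (IrrCharacter S2)} (hc : IsDefectClass M B 1) (P : Sylow p S2) :
    IsDefectGroup p M B (P : Subgroup S2) := by
  have h : Subgroup.centralizer ({(1 : S2)} : Set S2) = ⊤ := by
    ext x
    simp [Subgroup.mem_centralizer_iff]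
  have hle : (P : Subgroup S2) ≤ Subgroup.centralizer ({(1 : S2)} : Set S2) := by
    rw [h]
    exact le_top
  refine ⟨1, hc, P.subtype hle, ?_⟩
  rw [Sylow.coe_subtype, Subgroup.map_subgroupOf_eq_of_le hle]

lemma half_facts : MemLocalRing M (1 / 2 : ℂ) ∧ ¬ MemLocalIdeal M (1 / 2 : ℂ) := by
  haveI := hM.2.1.isPrime
  have h2 : ¬ p ∣ 2 := fun h => hp2 ((Nat.prime_dvd_prime_iff_eq hp.out Nat.prime_two).mp h)
  constructor
  · have := memLocalRing_natCast_div_of_not_dvd hM 1 h2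
    simpa using this
  · intro h
    have h1 := memLocalIdeal_mul_left (memLocalRing_natCast 2) h
    have h3 : ((2 : ℕ) : ℂ) * (1 / 2 : ℂ) = 1 := by norm_num
    rw [h3] at h1
    exact not_memLocalIdeal_one h1

theorem isDefectClass_Sm : IsDefectClass M (Sm : Set (IrrCharacter S2)) 1 := by
  haveI := hM.2.1.isPrime
  have h1 : blockCoeff (Sm : Set (IrrCharacter S2)) 1 = 1 / 2 := by
    unfold blockCoeff
    rw [finsum_mem_eq_sum_blkInd, (sum_blocks (F := F) (two_ne_zero_F hp2)).1]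
    have h2 : (Nat.card S2 : ℂ) ≠ 0 := natCard_ne_zero'
    field_simp
  obtain ⟨h2, h3⟩ := half_facts hM hp2
  refine ⟨by rw [h1]; exact h2, by rw [h1]; exact h3, fun χ _ => ?_⟩
  rw [centralChar_one]
  exact not_memLocalIdeal_one

theorem isDefectClass_Sp : IsDefectClass M (Sp : Set (IrrCharacter S2)) 1 := by
  haveI := hM.2.1.isPrime
  have hq : 2 ≤ Fintype.card F := Fintype.one_lt_card
  have hpq : p ∣ Fintype.card F := p_dvd_card
  have hcard : (Nat.card S2 : ℂ) = (Fintype.card F : ℂ) * (((Fintype.card F + 1) * (Fintype.card F - 1) : ℕ) : ℂ) := by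
    rw [Cfsg.Agent.Lib.ClassicalSmall.card_SL2, ← Nat.cast_mul]
    congr 1
    ring
  have hnd : ¬ p ∣ (Fintype.card F + 1) * (Fintype.card F - 1) := by
    intro h
    rcases (Nat.Prime.dvd_mul hp.out).mp h with h5 | h5
    · have h6 : p ∣ 1 := by
        have := Nat.dvd_sub h5 hpq
        have e : Fintype.card F + 1 - Fintype.card F = 1 := by omega
        rwa [e] at this
      exact hp.out.one_lt.ne' (Nat.dvd_one.mp h6)
    · have h6 : p ∣ 1 := by
        have := Nat.dvd_sub hpq h5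
        have e : Fintype.card F - (Fintype.card F - 1) = 1 := by omega
        rwa [e] at this
      exact hp.out.one_lt.ne' (Nat.dvd_one.mp h6)
  have hideal : MemLocalIdeal M ((Fintype.card F : ℂ) * (((Fintype.card F + 1) * (Fintype.card F - 1) : ℕ) : ℂ)⁻¹) :=
    memLocalIdeal_mul_right (memLocalIdeal_natCast_of_dvd hM hpq) (memLocalRing_inv_natCast hM hnd)
  have h1 : blockCoeff (Sp : Set (IrrCharacter S2)) 1 = 1 / 2 -
      (Fintype.card F : ℂ) * (((Fintype.card F + 1) * (Fintype.card F - 1) : ℕ) : ℂ)⁻¹ := by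
    unfold blockCoeff
    rw [finsum_mem_eq_sum_blkInd, (sum_blocks (F := F) (two_ne_zero_F hp2)).2]
    have h2 : (Nat.card S2 : ℂ) ≠ 0 := natCard_ne_zero'
    have h3 : (((Fintype.card F + 1) * (Fintype.card F - 1) : ℕ) : ℂ) ≠ 0 := by
      intro h
      apply h2
      rw [hcard, h, mul_zero]
    have h4 : (Fintype.card F : ℂ) ≠ 0 := card_ne_zero_C
    rw [hcard]
    field_simp
  obtain ⟨h2, h3⟩ := half_facts hM hp2
  refine ⟨?_, ?_, fun χ _ => ?_⟩
  · rw [h1]
    exact memLocalRing_sub h2 (memLocalRing_of_memLocalIdeal hideal)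
  · rw [h1]
    intro h
    apply h3
    have := memLocalIdeal_add h hideal
    rwa [sub_add_cancel] at this
  · rw [centralChar_one]
    exact not_memLocalIdeal_one

end main

end chars

end Cfsg.Agent.Lib.SL2Blocks
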