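/-
SL2QuatThree: a quaternion subgroup of order 8 of `SL₂(F)` (`F` a field with `-1` a sum of two squares and `2 ≠ 0`),
normalized by an element of order dividing 6 permuting `i, j, k`.
-/
import Mathlib
import Cfsg.Agent.Lib.CycMax2

set_option autoImplicit false

namespace Cfsg.Agent.Lib.SL2QuatThree

open Matrix Cfsg.Agent.Lib.CycMax2 Cfsg.Agent.Lib.DihedralIso

variable {F : Type*} [Field F]

/-- The element `i`. -/
def mI (a b : F) (h : a ^ 2 + b ^ 2 = -1) : SpecialLinearGroup (Fin 2) F :=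
  ⟨!![a, b; b, -a], by
    rw [det_fin_two_of]
    linear_combination -h⟩

/-- The element `j`. -/
def mJ : SpecialLinearGroup (Fin 2) F :=
  ⟨!![0, 1; -1, 0], by
    rw [det_fin_two_of]
    ring⟩

/-- The element `(1 + i + j + k) / 2`. -/
noncomputable def mG (a b : F) (h : a ^ 2 + b ^ 2 = -1) (h2 : (2 : F) ≠ 0) : SpecialLinearGroup (Fin 2) F :=
  ⟨!![2⁻¹ * (1 + a - b), 2⁻¹ * (a + b + 1); 2⁻¹ * (a + b - 1), 2⁻¹ * (1 - a + b)], by
    rw [det_fin_two_of]
    have h3 : (2 : F)⁻¹ * 2 = 1 := inv_mul_cancel₀ h2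
    have h4 : (2 : F)⁻¹ * (2 : F)⁻¹ * 4 = 1 := by
      have : (4 : F) = 2 * 2 := by norm_num
      rw [this]
      calc (2 : F)⁻¹ * (2 : F)⁻¹ * (2 * 2) = ((2 : F)⁻¹ * 2) * ((2 : F)⁻¹ * 2) := by ring
        _ = 1 := by rw [h3, one_mul]
    linear_combination ((-2 : F) * (2 : F)⁻¹ * (2 : F)⁻¹) * h + h4⟩

variable (a b : F) (h : a ^ 2 + b ^ 2 = -1) (h2 : (2 : F) ≠ 0)

lemma coe_mI : ((mI a b h : SpecialLinearGroup (Fin 2) F) : Matrix (Fin 2) (Fin 2) F) = !![a, b; b, -a] := rfl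
lemma coe_mJ : ((mJ : SpecialLinearGroup (Fin 2) F) : Matrix (Fin 2) (Fin 2) F) = !![0, 1; -1, 0] := rfl
lemma coe_mG : ((mG a b h h2 : SpecialLinearGroup (Fin 2) F) : Matrix (Fin 2) (Fin 2) F) =
    !![2⁻¹ * (1 + a - b), 2⁻¹ * (a + b + 1); 2⁻¹ * (a + b - 1), 2⁻¹ * (1 - a + b)] := rfl

lemma mat_ext {x y : SpecialLinearGroup (Fin 2) F}
    (hxy : (x : Matrix (Fin 2) (Fin 2) F) = (y : Matrix (Fin 2) (Fin 2) F)) : x = y := Subtype.ext hxy

lemma coe_mul' (x y : SpecialLinearGroup (Fin 2) F) :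
    ((x * y : SpecialLinearGroup (Fin 2) F) : Matrix (Fin 2) (Fin 2) F) =
      (x : Matrix (Fin 2) (Fin 2) F) * (y : Matrix (Fin 2) (Fin 2) F) := rfl

lemma mI_mI : mI a b h * mI a b h = mJ * mJ := by
  apply mat_ext
  rw [coe_mul', coe_mul', coe_mI, coe_mJ, mul_fin_two, mul_fin_two]
  ext i j
  fin_cases i <;> fin_cases j <;> simp <;> first | ring1 | linear_combination h | linear_combination -h

/-- `i j i = j`. -/
lemma mI_mJ_mI : mI a b h * (mJ * mI a b h) = mJ := by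
  apply mat_ext
  rw [coe_mul', coe_mul', coe_mI, coe_mJ, mul_fin_two, mul_fin_two]
  ext i j
  fin_cases i <;> fin_cases j <;> simp <;>
    first | ring1 | linear_combination h | linear_combination -h | linear_combination 2 * h |
      linear_combination -2 * h

lemma mG_mI : mG a b h h2 * mI a b h = mJ * mG a b h h2 := by
  apply mat_ext
  rw [coe_mul', coe_mul', coe_mI, coe_mJ, coe_mG, mul_fin_two, mul_fin_two]
  generalize (2 : F)⁻¹ = c
  ext i j
  fin_cases i <;> fin_cases j <;> simp <;>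
    first | ring1 | linear_combination c * h | linear_combination -c * h | linear_combination 2 * c * h |
      linear_combination -2 * c * h

lemma mG_mJ : mG a b h h2 * mJ = (mI a b h * mJ) * mG a b h h2 := by
  apply mat_ext
  rw [coe_mul', coe_mul', coe_mul', coe_mI, coe_mJ, coe_mG, mul_fin_two, mul_fin_two, mul_fin_two]
  generalize (2 : F)⁻¹ = c
  ext i j
  fin_cases i <;> fin_cases j <;> simp <;>
    first | ring1 | linear_combination c * h | linear_combination -c * h | linear_combination 2 * c * h |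
      linear_combination -2 * c * h

/-- The cube of `g` is `-1`. -/
lemma coe_mG_cube : ((mG a b h h2 * mG a b h h2 * mG a b h h2 : SpecialLinearGroup (Fin 2) F) :
    Matrix (Fin 2) (Fin 2) F) = !![-1, 0; 0, -1] := by
  rw [coe_mul', coe_mul', coe_mG, mul_fin_two, mul_fin_two]
  have h3 : (2 : F)⁻¹ * 2 = 1 := inv_mul_cancel₀ h2
  generalize (2 : F)⁻¹ = c at h3
  ext i j
  fin_cases i <;> fin_cases j <;> simp
  · linear_combination c ^ 3 * (2 * (1 + a - b) + 4) * h - (1 + 2 * c + 4 * c ^ 2) * h3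
  · linear_combination c ^ 3 * (2 * (a + b + 1)) * h
  · linear_combination c ^ 3 * (2 * (a + b - 1)) * h
  · linear_combination c ^ 3 * (2 * (1 - a + b) + 4) * h - (1 + 2 * c + 4 * c ^ 2) * h3

/-- The cube of `g` is central. -/
lemma mG_cube_comm (x : SpecialLinearGroup (Fin 2) F) :
    (mG a b h h2 * mG a b h h2 * mG a b h h2) * x = x * (mG a b h h2 * mG a b h h2 * mG a b h h2) := by
  apply mat_ext
  rw [coe_mul' (mG a b h h2 * mG a b h h2 * mG a b h h2) x, coe_mul' x (mG a b h h2 * mG a b h h2 * mG a b h h2),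
    coe_mG_cube]
  ext i j
  fin_cases i <;> fin_cases j <;> simp [Matrix.mul_apply, Fin.sum_univ_two]

lemma mJ_four : (mJ : SpecialLinearGroup (Fin 2) F) * mJ * (mJ * mJ) = 1 := by
  apply mat_ext
  rw [coe_mul', coe_mul', coe_mJ, mul_fin_two]
  ext i j
  fin_cases i <;> fin_cases j <;> simp

lemma mI_pow_four : (mI a b h) ^ (2 * 2) = 1 := by
  have h1 : (mI a b h) ^ (2 * 2) = (mI a b h * mI a b h) * (mI a b h * mI a b h) := by
    simp only [pow_succ, pow_zero, one_mul, mul_assoc]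
  rw [h1, mI_mI, mJ_four]

lemma mJ_conj : (mJ : SpecialLinearGroup (Fin 2) F) * mI a b h * mJ⁻¹ = (mI a b h)⁻¹ := by
  have h1 := mI_mJ_mI a b h
  have h3 : (mJ : SpecialLinearGroup (Fin 2) F) * mI a b h = (mI a b h)⁻¹ * mJ := by
    rw [eq_inv_mul_iff_mul_eq]
    exact h1
  rw [h3]
  group

/-- The homomorphism from the quaternion group of order 8. -/
noncomputable def psi : QuaternionGroup 2 →* SpecialLinearGroup (Fin 2) F :=
  quaternionHom 2 (mI a b h) mJ (mI_pow_four a b h)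
    (by rw [← mI_mI a b h, pow_two]) (mJ_conj a b h)

lemma psi_a_one : psi a b h (QuaternionGroup.a 1) = mI a b h := by
  show pw (mI a b h) (1 : ZMod (2 * 2)) = mI a b h
  rw [pw]
  have : (1 : ZMod (2 * 2)).val = 1 := rfl
  rw [this, pow_one]

lemma psi_xa_zero : psi a b h (QuaternionGroup.xa 0) = mJ := by
  show mJ * pw (mI a b h) (0 : ZMod (2 * 2)) = mJ
  rw [pw]
  have : (0 : ZMod (2 * 2)).val = 0 := rfl
  rw [this, pow_zero, mul_one]

lemma conj_mem_range (w : QuaternionGroup 2) :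
    mG a b h h2 * psi a b h w * (mG a b h h2)⁻¹ ∈ (psi a b h).range := by
  have hI : mI a b h ∈ (psi a b h).range := ⟨_, psi_a_one a b h⟩
  have hJ : (mJ : SpecialLinearGroup (Fin 2) F) ∈ (psi a b h).range := ⟨_, psi_xa_zero a b h⟩
  have hGI : mG a b h h2 * mI a b h * (mG a b h h2)⁻¹ = mJ := by
    rw [mG_mI]
    group
  have hGJ : mG a b h h2 * mJ * (mG a b h h2)⁻¹ = mI a b h * mJ := by
    rw [mG_mJ]
    group
  have hpow : ∀ n : ℕ, mG a b h h2 * (mI a b h) ^ n * (mG a b h h2)⁻¹ = mJ ^ n := by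
    intro n
    rw [← hGI, conj_pow]
  cases w with
  | a i =>
    show mG a b h h2 * pw (mI a b h) i * (mG a b h h2)⁻¹ ∈ _
    rw [pw, hpow]
    exact Subgroup.pow_mem _ hJ _
  | xa i =>
    show mG a b h h2 * (mJ * pw (mI a b h) i) * (mG a b h h2)⁻¹ ∈ _
    rw [pw]
    have e : mG a b h h2 * (mJ * (mI a b h) ^ i.val) * (mG a b h h2)⁻¹ =
        (mG a b h h2 * mJ * (mG a b h h2)⁻¹) * (mG a b h h2 * (mI a b h) ^ i.val * (mG a b h h2)⁻¹) := by
      group
    rw [e, hGJ, hpow]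
    exact Subgroup.mul_mem _ (Subgroup.mul_mem _ hI hJ) (Subgroup.pow_mem _ hJ _)

/-- The data in the image of a homomorphism. -/
theorem exists_data {H : Type*} [Group H] (f : SpecialLinearGroup (Fin 2) F →* H)
    (hf : f mJ ≠ f (mI a b h)) :
    ∃ R : Subgroup H, IsPGroup 2 R ∧ (∀ x ∈ R, f (mG a b h h2) * x * (f (mG a b h h2))⁻¹ ∈ R) ∧
      (∀ x ∈ R, (f (mG a b h h2)) ^ 3 * x = x * (f (mG a b h h2)) ^ 3) ∧
      ∃ x ∈ R, f (mG a b h h2) * x * (f (mG a b h h2))⁻¹ ≠ x := by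
  haveI : Fact (Nat.Prime 2) := ⟨Nat.prime_two⟩
  have hQ : IsPGroup 2 (QuaternionGroup 2) :=
    IsPGroup.of_card (n := 3) (by rw [Nat.card_eq_fintype_card, QuaternionGroup.card]; norm_num)
  refine ⟨(f.comp (psi a b h)).range, ?_, ?_, ?_, ?_⟩
  · exact hQ.of_surjective (f.comp (psi a b h)).rangeRestrict (MonoidHom.rangeRestrict_surjective _)
  · rintro _ ⟨w, rfl⟩
    obtain ⟨w', hw'⟩ := conj_mem_range a b h h2 w
    refine ⟨w', ?_⟩
    rw [MonoidHom.comp_apply, hw', MonoidHom.comp_apply, map_mul, map_mul, map_inv]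
  · rintro _ ⟨w, rfl⟩
    have h1 := mG_cube_comm a b h h2 (psi a b h w)
    have h3 := congrArg f h1
    simp only [map_mul] at h3
    simp only [MonoidHom.comp_apply, pow_succ, pow_zero, one_mul]
    exact h3
  · refine ⟨f (mI a b h), ⟨QuaternionGroup.a 1, by rw [MonoidHom.comp_apply, psi_a_one]⟩, ?_⟩
    have h1 : mG a b h h2 * mI a b h * (mG a b h h2)⁻¹ = mJ := by
      rw [mG_mI]
      group
    rw [← map_inv, ← map_mul, ← map_mul, h1]
    exact hf

end Cfsg.Agent.Lib.SL2QuatThree
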