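import Mathlib

/-!
# Every nonscalar matrix of determinant one in degree three is a product of two matrices
conjugate to `diag(t, t⁻¹, 1)`, when `t² ≠ 1`.
-/

set_option autoImplicit false

namespace Cfsg.Agent.Lib.SL3Gauss

open Matrix

variable {F : Type*} [Field F]

/-- The diagonal matrix. -/
def Dm (t : F) : Matrix (Fin 3) (Fin 3) F := !![t, 0, 0; 0, t⁻¹, 0; 0, 0, 1]

/-- Product of two matrices conjugate to the diagonal matrix. -/
def P (t : F) (Z : Matrix (Fin 3) (Fin 3) F) : Prop :=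
  ∃ A B W₁ W₂ : Matrix (Fin 3) (Fin 3) F, Z = A * B ∧ W₁.det ≠ 0 ∧ W₂.det ≠ 0 ∧
    A * W₁ = W₁ * Dm t ∧ B * W₂ = W₂ * Dm t

lemma P_conj (t : F) (Z Q Q' : Matrix (Fin 3) (Fin 3) F) (h1 : Q * Q' = 1) (h2 : Q' * Q = 1)
    (h : P t (Q' * Z * Q)) : P t Z := by
  obtain ⟨A, B, W₁, W₂, hZ, h3, h4, h5, h6⟩ := h
  have hQdet : Q.det ≠ 0 := by
    intro h0
    have := congrArg Matrix.det h1
    rw [Matrix.det_mul, h0, zero_mul, Matrix.det_one] at this
    exact zero_ne_one this
  refine ⟨Q * A * Q', Q * B * Q', Q * W₁, Q * W₂, ?_, ?_, ?_, ?_, ?_⟩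
  · calc Z = (Q * Q') * Z * (Q * Q') := by rw [h1]; simp
      _ = Q * (Q' * Z * Q) * Q' := by simp only [Matrix.mul_assoc]
      _ = Q * (A * B) * Q' := by rw [hZ]
      _ = Q * A * (Q' * Q) * B * Q' := by rw [h2]; simp only [Matrix.mul_assoc, Matrix.mul_one]
      _ = Q * A * Q' * (Q * B * Q') := by
          rw [h2]
          simp only [Matrix.mul_assoc, Matrix.mul_one]
          rw [← Matrix.mul_assoc Q' Q, h2, Matrix.one_mul]
  · rw [Matrix.det_mul]; exact mul_ne_zero hQdet h3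
  · rw [Matrix.det_mul]; exact mul_ne_zero hQdet h4
  · calc Q * A * Q' * (Q * W₁) = Q * A * (Q' * Q) * W₁ := by simp only [Matrix.mul_assoc]
      _ = Q * (A * W₁) := by rw [h2]; simp only [Matrix.mul_assoc, Matrix.one_mul]
      _ = Q * W₁ * Dm t := by rw [h5, Matrix.mul_assoc]
  · calc Q * B * Q' * (Q * W₂) = Q * B * (Q' * Q) * W₂ := by simp only [Matrix.mul_assoc]
      _ = Q * (B * W₂) := by rw [h2]; simp only [Matrix.mul_assoc, Matrix.one_mul]
      _ = Q * W₂ * Dm t := by rw [h6, Matrix.mul_assoc]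

section triangular

variable (t : F) (ht : t ≠ 0) (ht2 : t * t ≠ 1)

include ht ht2

lemma t_ne_one : t ≠ 1 := by
  intro h; apply ht2; rw [h]; ring

lemma tinv_ne_one : t⁻¹ ≠ 1 := by
  intro h
  apply t_ne_one t ht ht2
  have := congrArg (· * t) h
  simpa [ht] using this.symm

lemma t_sub_inv_ne : t - t⁻¹ ≠ 0 := by
  intro h
  apply ht2
  have h1 : t * (t - t⁻¹) = 0 := by rw [h, mul_zero]
  rw [mul_sub, mul_inv_cancel₀ ht] at h1
  linear_combination h1

lemma lower_conj (l₁ l₂ l₃ : F) :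
    ∃ T : Matrix (Fin 3) (Fin 3) F, T.det ≠ 0 ∧
      !![t, 0, 0; l₁, t⁻¹, 0; l₂, l₃, 1] * T = T * Dm t := by
  have h1 := t_sub_inv_ne t ht ht2
  have h2 : t - 1 ≠ 0 := sub_ne_zero.2 (t_ne_one t ht ht2)
  have h3 : t⁻¹ - 1 ≠ 0 := sub_ne_zero.2 (tinv_ne_one t ht ht2)
  set r₁ := l₁ / (t - t⁻¹) with hr₁
  set s := l₃ / (t⁻¹ - 1) with hs
  set r₂ := (l₂ + l₃ * r₁) / (t - 1) with hr₂
  have e1 : l₁ + t⁻¹ * r₁ = t * r₁ := by
    have : r₁ * (t - t⁻¹) = l₁ := div_mul_cancel₀ _ h1
    linear_combination (-1 : F) * this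
  have e2 : l₂ + l₃ * r₁ + r₂ = t * r₂ := by
    have : r₂ * (t - 1) = l₂ + l₃ * r₁ := div_mul_cancel₀ _ h2
    linear_combination (-1 : F) * this
  have e3 : l₃ + s = t⁻¹ * s := by
    have : s * (t⁻¹ - 1) = l₃ := div_mul_cancel₀ _ h3
    linear_combination (-1 : F) * this
  refine ⟨!![1, 0, 0; r₁, 1, 0; r₂, s, 1], ?_, ?_⟩
  · rw [Matrix.det_fin_three]
    simp
  · unfold Dm
    ext i j
    fin_cases i <;> fin_cases j <;>
      simp [Matrix.mul_apply, Fin.sum_univ_three] <;>
      first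
        | linear_combination e1
        | linear_combination e2
        | linear_combination e3
        | ring

lemma upper_conj (u₁ u₂ u₃ : F) :
    ∃ T : Matrix (Fin 3) (Fin 3) F, T.det ≠ 0 ∧
      !![t, u₁, u₂; 0, t⁻¹, u₃; 0, 0, 1] * T = T * Dm t := by
  have h1 : t⁻¹ - t ≠ 0 := by
    intro h
    apply t_sub_inv_ne t ht ht2
    linear_combination (-1 : F) * h
  have h2 : 1 - t ≠ 0 := sub_ne_zero.2 (t_ne_one t ht ht2).symm
  have h3 : 1 - t⁻¹ ≠ 0 := sub_ne_zero.2 (tinv_ne_one t ht ht2).symm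
  set s₁ := u₁ / (t⁻¹ - t) with hs₁
  set s₃ := u₃ / (1 - t⁻¹) with hs₃
  set s₂ := (u₁ * s₃ + u₂) / (1 - t) with hs₂
  have e1 : t * s₁ + u₁ = t⁻¹ * s₁ := by
    have : s₁ * (t⁻¹ - t) = u₁ := div_mul_cancel₀ _ h1
    linear_combination (-1 : F) * this
  have e2 : t⁻¹ * s₃ + u₃ = s₃ := by
    have : s₃ * (1 - t⁻¹) = u₃ := div_mul_cancel₀ _ h3
    linear_combination (-1 : F) * this
  have e3 : t * s₂ + u₁ * s₃ + u₂ = s₂ := by
    have : s₂ * (1 - t) = u₁ * s₃ + u₂ := div_mul_cancel₀ _ h2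
    linear_combination (-1 : F) * this
  refine ⟨!![1, s₁, s₂; 0, 1, s₃; 0, 0, 1], ?_, ?_⟩
  · rw [Matrix.det_fin_three]
    simp
  · unfold Dm
    ext i j
    fin_cases i <;> fin_cases j <;>
      simp [Matrix.mul_apply, Fin.sum_univ_three] <;>
      first
        | linear_combination e1
        | linear_combination e2
        | linear_combination e3
        | ring

/-- The Gauss decomposition. -/
lemma P_of_good (a b c d e f g h i : F) (ha : a = t * t) (hminor : a * e - b * d = 1)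
    (hdet : (!![a, b, c; d, e, f; g, h, i] : Matrix (Fin 3) (Fin 3) F).det = 1) :
    P t !![a, b, c; d, e, f; g, h, i] := by
  rw [Matrix.det_fin_three] at hdet
  simp at hdet
  set l₁ := d / t with hl₁
  set l₂ := g / t with hl₂
  set u₁ := b / t with hu₁
  set u₂ := c / t with hu₂
  set u₃ := t * (f - l₁ * u₂) with hu₃
  set l₃ := t * (h - l₂ * u₁) with hl₃
  obtain ⟨T₁, hT₁, hT₁'⟩ := lower_conj t ht ht2 l₁ l₂ l₃
  obtain ⟨T₂, hT₂, hT₂'⟩ := upper_conj t ht ht2 u₁ u₂ u₃
  refine ⟨_, _, T₁, T₂, ?_, hT₁, hT₂, hT₁', hT₂'⟩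
  have hbt : t * u₁ = b := by rw [hu₁]; field_simp
  have hct : t * u₂ = c := by rw [hu₂]; field_simp
  have hdt : l₁ * t = d := by rw [hl₁]; field_simp
  have hgt : l₂ * t = g := by rw [hl₂]; field_simp
  have hinv : t⁻¹ * t = 1 := inv_mul_cancel₀ ht
  have he : l₁ * u₁ + t⁻¹ * t⁻¹ = e := by
    have h1 : t * t * e = 1 + b * d := by rw [← ha]; linear_combination hminor
    have h2 : e = (1 + b * d) / (t * t) := by field_simp; linear_combination h1
    rw [h2, hl₁, hu₁]; field_simp; ring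
  have hf : l₁ * u₂ + t⁻¹ * u₃ = f := by
    rw [hu₃]; field_simp; ring
  have hh : l₂ * u₁ + l₃ * t⁻¹ = h := by
    rw [hl₃]; field_simp; ring
  have hi : l₂ * u₂ + l₃ * u₃ + 1 = i := by
    have h1 : i = 1 + a * f * h - b * f * g - c * d * h + c * e * g := by
      have : i * (a * e - b * d) = 1 + a * f * h - b * f * g - c * d * h + c * e * g := by
        linear_combination hdet
      rw [hminor, mul_one] at this
      exact this
    have h2 : e = (1 + b * d) / (t * t) := by
      have h3 : t * t * e = 1 + b * d := by rw [← ha]; linear_combination hminor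
      field_simp; linear_combination h3
    rw [h1, h2, ha, hl₃, hu₃, hl₂, hu₁, hu₂, hl₁]
    field_simp
    ring
  ext x y
  fin_cases x <;> fin_cases y <;>
    simp [Matrix.mul_apply, Fin.sum_univ_three] <;>
    first
      | linear_combination ha
      | linear_combination (-1 : F) * hbt
      | linear_combination (-1 : F) * hct
      | linear_combination (-1 : F) * hdt
      | linear_combination (-1 : F) * he
      | linear_combination (-1 : F) * hf
      | linear_combination (-1 : F) * hgt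
      | linear_combination (-1 : F) * hh
      | linear_combination (-1 : F) * hi

/-- The shearing step. -/
lemma P_shear (a b c d e f g h i : F) (hd : d ≠ 0) (hΔ : a * f - c * d ≠ 0)
    (hdet : (!![a, b, c; d, e, f; g, h, i] : Matrix (Fin 3) (Fin 3) F).det = 1) :
    P t !![a, b, c; d, e, f; g, h, i] := by
  set s := (a - t * t) / d with hs
  set τ := (1 - (a * e - b * d)) / (a * f - c * d) with hτ
  have hs' : a - s * d = t * t := by rw [hs]; field_simp; ring
  have hτ' : a * e - b * d + τ * (a * f - c * d) = 1 := by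
    have : τ * (a * f - c * d) = 1 - (a * e - b * d) := div_mul_cancel₀ _ hΔ
    linear_combination this
  set S : Matrix (Fin 3) (Fin 3) F := !![1, s, 0; 0, 1, 0; 0, τ, 1] with hS
  set S' : Matrix (Fin 3) (Fin 3) F := !![1, -s, 0; 0, 1, 0; 0, -τ, 1] with hS'
  have h1 : S * S' = 1 := by
    ext x y
    fin_cases x <;> fin_cases y <;> simp [hS, hS', Matrix.mul_apply, Fin.sum_univ_three]
  have h2 : S' * S = 1 := by
    ext x y
    fin_cases x <;> fin_cases y <;> simp [hS, hS', Matrix.mul_apply, Fin.sum_univ_three]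
  apply P_conj t _ S S' h1 h2
  have hdetS : S.det = 1 := by
    rw [hS, Matrix.det_fin_three]; simp
  have hdetS' : S'.det = 1 := by
    rw [hS', Matrix.det_fin_three]; simp
  set M : Matrix (Fin 3) (Fin 3) F := !![a, b, c; d, e, f; g, h, i] with hM
  have hdet' : (S' * M * S).det = 1 := by
    rw [Matrix.det_mul, Matrix.det_mul, hdet, hdetS, hdetS']; simp
  have heta := Matrix.eta_fin_three (S' * M * S)
  rw [heta] at hdet' ⊢
  apply P_of_good t ht ht2 _ _ _ _ _ _ _ _ _ _ _ hdet'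
  · simp [hS, hS', hM, Matrix.mul_apply, Fin.sum_univ_three]
    rw [← hs']
    ring
  · simp [hS, hS', hM, Matrix.mul_apply, Fin.sum_univ_three]
    rw [← hτ']
    ring

/-- After the first column has been normalized. -/
lemma P_normal (b c e f h i : F)
    (hdet : (!![0, b, c; 1, e, f; 0, h, i] : Matrix (Fin 3) (Fin 3) F).det = 1) :
    P t !![0, b, c; 1, e, f; 0, h, i] := by
  by_cases hc : c = 0
  · -- conjugate by the elementary matrix
    rw [Matrix.det_fin_three] at hdet
    simp [hc] at hdet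
    have hi : i ≠ 0 := by
      intro h0
      rw [h0] at hdet
      simp at hdet
    set R : Matrix (Fin 3) (Fin 3) F := !![1, 0, 1; 0, 1, 0; 0, 0, 1] with hR
    set R' : Matrix (Fin 3) (Fin 3) F := !![1, 0, -1; 0, 1, 0; 0, 0, 1] with hR'
    have h1 : R * R' = 1 := by
      ext x y
      fin_cases x <;> fin_cases y <;> simp [hR, hR', Matrix.mul_apply, Fin.sum_univ_three]
    have h2 : R' * R = 1 := by
      ext x y
      fin_cases x <;> fin_cases y <;> simp [hR, hR', Matrix.mul_apply, Fin.sum_univ_three]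
    apply P_conj t _ R R' h1 h2
    have hdetR : R.det = 1 := by
      rw [hR, Matrix.det_fin_three]; simp
    have hdetR' : R'.det = 1 := by
      rw [hR', Matrix.det_fin_three]; simp
    set M : Matrix (Fin 3) (Fin 3) F := !![0, b, c; 1, e, f; 0, h, i] with hM
    have hdetM : M.det = 1 := by
      rw [hM, Matrix.det_fin_three]
      simp [hc]
      exact hdet
    have hdet' : (R' * M * R).det = 1 := by
      rw [Matrix.det_mul, Matrix.det_mul, hdetM, hdetR, hdetR']; simp
    have heta := Matrix.eta_fin_three (R' * M * R)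
    rw [heta] at hdet' ⊢
    apply P_shear t ht ht2 _ _ _ _ _ _ _ _ _ _ _ hdet'
    · simp [hR, hR', hM, Matrix.mul_apply, Fin.sum_univ_three]
    · simp [hR, hR', hM, Matrix.mul_apply, Fin.sum_univ_three, hc]
      exact hi
  · apply P_shear t ht ht2 _ _ _ _ _ _ _ _ _ _ _ hdet
    · exact one_ne_zero
    · simpa using hc

end triangular

/-- The cyclic matrix `[v, Z v, e_k]`. -/
def cyc (Z : Matrix (Fin 3) (Fin 3) F) (v : Fin 3 → F) (k : Fin 3) : Matrix (Fin 3) (Fin 3) F :=
  !![v 0, Z.mulVec v 0, if (0 : Fin 3) = k then 1 else 0;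
     v 1, Z.mulVec v 1, if (1 : Fin 3) = k then 1 else 0;
     v 2, Z.mulVec v 2, if (2 : Fin 3) = k then 1 else 0]

lemma exists_cyclic (Z : Matrix (Fin 3) (Fin 3) F) (hns : ∀ r : F, Z ≠ Matrix.scalar (Fin 3) r) :
    ∃ (v : Fin 3 → F) (k : Fin 3), (cyc Z v k).det ≠ 0 := by
  by_contra hcon
  push Not at hcon
  have key : ∀ (x y z : F) (k : Fin 3), (cyc Z ![x, y, z] k).det = 0 := fun x y z k => hcon _ k
  have h20 : Z 2 0 = 0 := by
    have := key 1 0 0 1
    simp [cyc, Matrix.det_fin_three, Matrix.mulVec, dotProduct, Fin.sum_univ_three] at this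
    exact this
  have h10 : Z 1 0 = 0 := by
    have := key 1 0 0 2
    simp [cyc, Matrix.det_fin_three, Matrix.mulVec, dotProduct, Fin.sum_univ_three] at this
    exact this
  have h21 : Z 2 1 = 0 := by
    have := key 0 1 0 0
    simp [cyc, Matrix.det_fin_three, Matrix.mulVec, dotProduct, Fin.sum_univ_three] at this
    exact this
  have h01 : Z 0 1 = 0 := by
    have := key 0 1 0 2
    simp [cyc, Matrix.det_fin_three, Matrix.mulVec, dotProduct, Fin.sum_univ_three] at this
    exact this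
  have h12 : Z 1 2 = 0 := by
    have := key 0 0 1 0
    simp [cyc, Matrix.det_fin_three, Matrix.mulVec, dotProduct, Fin.sum_univ_three] at this
    exact this
  have h02 : Z 0 2 = 0 := by
    have := key 0 0 1 1
    simp [cyc, Matrix.det_fin_three, Matrix.mulVec, dotProduct, Fin.sum_univ_three] at this
    exact this
  have hd1 : Z 1 1 = Z 0 0 := by
    have := key 1 1 0 2
    simp [cyc, Matrix.det_fin_three, Matrix.mulVec, dotProduct, Fin.sum_univ_three, h10, h01, h20, h21] at this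
    linear_combination this
  have hd2 : Z 2 2 = Z 1 1 := by
    have := key 0 1 1 0
    simp [cyc, Matrix.det_fin_three, Matrix.mulVec, dotProduct, Fin.sum_univ_three, h12, h21, h01, h02] at this
    linear_combination this
  apply hns (Z 0 0)
  ext i j
  fin_cases i <;> fin_cases j <;> simp [h20, h10, h21, h01, h12, h02, hd1, hd2]

/-- The main factorization over matrices. -/
theorem P_of_nonscalar (t : F) (ht : t ≠ 0) (ht2 : t * t ≠ 1) (Z : Matrix (Fin 3) (Fin 3) F)
    (hdet : Z.det = 1) (hns : ∀ r : F, Z ≠ Matrix.scalar (Fin 3) r) : P t Z := by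
  classical
  obtain ⟨v, k, hQ⟩ := exists_cyclic Z hns
  set Q := cyc Z v k with hQdef
  have hunit : IsUnit Q.det := isUnit_iff_ne_zero.2 hQ
  have h1 : Q * Q⁻¹ = 1 := Matrix.mul_nonsing_inv Q hunit
  have h2 : Q⁻¹ * Q = 1 := Matrix.nonsing_inv_mul Q hunit
  apply P_conj t Z Q Q⁻¹ h1 h2
  set M := Q⁻¹ * Z * Q with hM
  have hdetM : M.det = 1 := by
    rw [hM, Matrix.det_mul, Matrix.det_mul, hdet, mul_one, ← Matrix.det_mul, h2, Matrix.det_one]
  have hcol : ∀ i, M i 0 = (1 : Matrix (Fin 3) (Fin 3) F) i 1 := by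
    intro i
    have h3 : ∀ j, (Z * Q) j 0 = Q j 1 := by
      intro j
      have hv : ∀ l, Q l 0 = v l := by
        intro l
        fin_cases l <;> rfl
      have hw : Q j 1 = Z.mulVec v j := by
        fin_cases j <;> rfl
      rw [hw, Matrix.mul_apply]
      simp only [Matrix.mulVec, dotProduct, hv]
    rw [hM, Matrix.mul_assoc, Matrix.mul_apply, ← h2, Matrix.mul_apply]
    exact Finset.sum_congr rfl (fun j _ => by rw [h3])
  have h00 : M 0 0 = 0 := by rw [hcol]; simp
  have h10 : M 1 0 = 1 := by rw [hcol]; simp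
  have h20 : M 2 0 = 0 := by rw [hcol]; simp
  have heta := Matrix.eta_fin_three M
  rw [h00, h10, h20] at heta
  rw [heta] at hdetM ⊢
  exact P_normal t ht ht2 _ _ _ _ _ _ hdetM

/-- Correcting determinants. -/
theorem fix_det (t : F) (ht : t ≠ 0) (W : Matrix (Fin 3) (Fin 3) F) (A : Matrix (Fin 3) (Fin 3) F) (hW : W.det ≠ 0)
    (h : A * W = W * Dm t) :
    ∃ W' : Matrix (Fin 3) (Fin 3) F, W'.det = 1 ∧ A * W' = W' * Dm t := by
  set Δ : Matrix (Fin 3) (Fin 3) F := !![W.det⁻¹, 0, 0; 0, 1, 0; 0, 0, 1] with hΔ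
  refine ⟨W * Δ, ?_, ?_⟩
  · have hdetΔ : Δ.det = W.det⁻¹ := by
      rw [hΔ, Matrix.det_fin_three]
      simp
    rw [Matrix.det_mul, hdetΔ, mul_inv_cancel₀ hW]
  · have h1 : Δ * Dm t = Dm t * Δ := by
      unfold Dm
      ext i j
      fin_cases i <;> fin_cases j <;>
        simp [hΔ, Matrix.mul_apply, Fin.sum_univ_three, mul_comm]
    calc A * (W * Δ) = A * W * Δ := by rw [Matrix.mul_assoc]
      _ = W * (Dm t * Δ) := by rw [h, Matrix.mul_assoc]
      _ = W * Δ * Dm t := by rw [← h1, Matrix.mul_assoc]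

end Cfsg.Agent.Lib.SL3Gauss
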