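import Mathlib
import Cfsg.Agent.Lib.SLOrder

/-!
# Centralizer of a matrix whose minimal polynomial is irreducible of full degree.
-/

set_option autoImplicit false
set_option linter.unusedSectionVars false

namespace Cfsg.Agent.Lib.SLCent

open Matrix Polynomial Cfsg.Agent.Lib.SLSpec

variable {F : Type*} [Field F] {n : ℕ}

/-- If `Y` has irreducible minimal polynomial of degree `n`, everything commuting with `Y` lies in the
field generated by `Y`; in particular its minimal polynomial is irreducible. -/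
theorem irreducible_minpoly_of_commute (Y W : Matrix (Fin n) (Fin n) F) (hn : 1 ≤ n)
    (hm : Irreducible (minpoly F Y)) (hdeg : (minpoly F Y).natDegree = n) (hcomm : Commute W Y) :
    Irreducible (minpoly F W) := by
  classical
  haveI : Nonempty (Fin n) := ⟨⟨0, hn⟩⟩
  set m := minpoly F Y with hmdef
  haveI : Fact (Irreducible m) := ⟨hm⟩
  let K := AdjoinRoot m
  have hmS : Polynomial.aeval Y m = 0 := minpoly.aeval F Y
  let ρ₀ : K →ₐ[F] Matrix (Fin n) (Fin n) F :=
    Ideal.Quotient.liftₐ (Ideal.span {m}) (Polynomial.aeval Y) (by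
      intro a ha
      obtain ⟨c, rfl⟩ := Ideal.mem_span_singleton'.1 ha
      rw [map_mul, hmS, mul_zero])
  have hρmk : ∀ f : F[X], ρ₀ (AdjoinRoot.mk m f) = aeval Y f := fun f => rfl
  let pb := AdjoinRoot.powerBasis hm.ne_zero
  haveI : Module.Finite F K := pb.finite
  have hfrK : Module.finrank F K = n := by
    rw [pb.finrank, AdjoinRoot.powerBasis_dim, hdeg]
  let V := Fin n → F
  let ρ₁ : K →ₐ[F] Module.End F V := (Matrix.toLinAlgEquiv (Pi.basisFun F (Fin n))).toAlgHom.comp ρ₀
  letI modKV : Module K V := Module.compHom V ρ₁.toRingHom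
  have hsmul : ∀ (c : K) (v : V), c • v = ρ₁ c v := fun c v => rfl
  haveI : IsScalarTower F K V := by
    constructor
    intro a c v
    rw [hsmul, hsmul, map_smul]
    rfl
  haveI : Module.Finite K V := Module.Finite.of_restrictScalars_finite F K V
  have hfinrank : Module.finrank F K * Module.finrank K V = n := by
    rw [Module.finrank_mul_finrank]
    simp [V]
  have hV1 : Module.finrank K V = 1 := by
    rw [hfrK] at hfinrank
    have h0 : 0 < n := hn
    exact Nat.eq_of_mul_eq_mul_left h0 (by rw [hfinrank, mul_one])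
  obtain ⟨v, hv0, hv⟩ := finrank_eq_one_iff'.1 hV1
  let φ : Module.End F V := Matrix.toLinAlgEquiv (Pi.basisFun F (Fin n)) W
  have hφ : ∀ (c : K) (w : V), φ (c • w) = c • φ w := by
    intro c w
    obtain ⟨f, rfl⟩ := AdjoinRoot.mk_surjective c
    show φ (ρ₁ (AdjoinRoot.mk m f) w) = ρ₁ (AdjoinRoot.mk m f) (φ w)
    have h1 : ρ₁ (AdjoinRoot.mk m f) = Matrix.toLinAlgEquiv (Pi.basisFun F (Fin n)) (aeval Y f) := rfl
    rw [h1]
    have h2 : W * aeval Y f = aeval Y f * W := commute_aeval W Y hcomm f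
    have h3 := congrArg (fun M => Matrix.toLinAlgEquiv (Pi.basisFun F (Fin n)) M w) h2
    simpa [map_mul] using h3
  obtain ⟨c₀, hc₀⟩ := hv (φ v)
  have hW : W = ρ₀ c₀ := by
    apply (Matrix.toLinAlgEquiv (Pi.basisFun F (Fin n))).injective
    apply LinearMap.ext
    intro w
    obtain ⟨k, rfl⟩ := hv w
    show φ (k • v) = ρ₁ c₀ (k • v)
    rw [hφ, ← hc₀, ← hsmul, smul_smul, smul_smul, mul_comm]
  have hinj : Function.Injective ρ₀ := ρ₀.toRingHom.injective
  rw [hW, minpoly.algHom_eq ρ₀ hinj]
  exact minpoly.irreducible (Algebra.IsIntegral.isIntegral c₀)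

end Cfsg.Agent.Lib.SLCent
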