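import Mathlib
import Cfsg.Agent.Lib.Bruhat
import Cfsg.Agent.Lib.SLnBorel50

/-!
# Sylow `2`-subgroups of `SL_n(2)`

The upper unitriangular group `U` is a self-normalizing Sylow `2`-subgroup, and `SL_n(2)` is transitive
on ordered pairs of Sylow `2`-subgroups with trivial intersection.
-/

set_option autoImplicit false
set_option linter.unusedSectionVars false

open scoped Pointwise MatrixGroups

namespace Cfsg.Agent.Lib.SLF2

open Matrix
open Cfsg.Agent.Lib.Bruhat Cfsg.Agent.Lib.PSLFusionBasic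

variable {n : ℕ}

/-- The special linear group over the field with two elements. -/
abbrev L (n : ℕ) := Matrix.SpecialLinearGroup (Fin n) (ZMod 2)

lemma eq_one_of_unit_zmod2 : ∀ x : ZMod 2, x ≠ 0 → x = 1 := by decide

/-- Every invertible matrix over the field with two elements has determinant one. -/
def ofGL (g : GL (Fin n) (ZMod 2)) : L n :=
  ⟨g.val, eq_one_of_unit_zmod2 _ (by
    have := (Matrix.isUnit_iff_isUnit_det _).mp g.isUnit
    exact this.ne_zero)⟩

@[simp] lemma ofGL_coe (g : GL (Fin n) (ZMod 2)) : ((ofGL g : L n) : Matrix (Fin n) (Fin n) (ZMod 2)) = g.val := rfl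

lemma ofGL_mul (a b : GL (Fin n) (ZMod 2)) : ofGL (a * b) = ofGL a * ofGL b := Subtype.ext rfl

/-- The inclusion of `SL` in `GL`. -/
def toGL (g : L n) : GL (Fin n) (ZMod 2) := (g : GL (Fin n) (ZMod 2))

lemma ofGL_toGL (g : L n) : ofGL (toGL g) = g := Subtype.ext rfl

/-- Upper triangular invertible matrices over `F₂` are unitriangular. -/
lemma ofGL_mem_U {g : GL (Fin n) (ZMod 2)} (hg : g ∈ Cfsg.upperTriangularGL n (ZMod 2)) : ofGL g ∈ U (ZMod 2) n := by
  have hb : (g.val).BlockTriangular id := hg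
  refine ⟨fun i j hij => hb hij, fun i => ?_⟩
  apply eq_one_of_unit_zmod2
  have hdet : (g.val).det ≠ 0 := ((Matrix.isUnit_iff_isUnit_det _).mp g.isUnit).ne_zero
  rw [Matrix.det_of_isUpperTriangular hb] at hdet
  exact fun h => hdet (Finset.prod_eq_zero (Finset.mem_univ i) h)

/-- Permutation matrices. -/
def w (σ : Equiv.Perm (Fin n)) : L n := ofGL (permGL (ZMod 2) σ)

lemma w_mul (σ τ : Equiv.Perm (Fin n)) : w σ * w τ = w (σ * τ) := by
  unfold w
  rw [← ofGL_mul, permGL_mul]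

lemma w_one : w (1 : Equiv.Perm (Fin n)) = 1 := by
  apply Subtype.ext
  exact permM_one

lemma w_inv (σ : Equiv.Perm (Fin n)) : (w σ)⁻¹ = w σ⁻¹ := by
  apply inv_eq_of_mul_eq_one_right
  rw [w_mul, mul_inv_cancel, w_one]

lemma w_conj_apply (σ : Equiv.Perm (Fin n)) (A : L n) (r s : Fin n) :
    ((w σ * A * (w σ)⁻¹ : L n) : Matrix (Fin n) (Fin n) (ZMod 2)) r s =
      (A : Matrix (Fin n) (Fin n) (ZMod 2)) (σ⁻¹ r) (σ⁻¹ s) := by
  rw [w_inv]
  show (permM (ZMod 2) σ * (A : Matrix (Fin n) (Fin n) (ZMod 2)) * permM (ZMod 2) σ⁻¹) r s = _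
  rw [Matrix.mul_apply, Finset.sum_eq_single (σ⁻¹ s)]
  · rw [Matrix.mul_apply, Finset.sum_eq_single (σ⁻¹ r)]
    · simp [permM_apply]
    · intro b _ hb
      have : r ≠ σ b := by
        intro h
        apply hb
        rw [h]
        simp
      simp [permM_apply, this]
    · simp
  · intro b _ hb
    rw [permM_apply, if_neg hb, mul_zero]
  · simp

/-- Elementary transvections. -/
def tr {i j : Fin n} (hij : i ≠ j) : L n := Matrix.SpecialLinearGroup.transvection hij 1

lemma tr_apply {i j : Fin n} (hij : i ≠ j) (r s : Fin n) :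
    ((tr hij : L n) : Matrix (Fin n) (Fin n) (ZMod 2)) r s =
      (1 : Matrix (Fin n) (Fin n) (ZMod 2)) r s + Matrix.single i j (1 : ZMod 2) r s := by
  unfold tr
  rw [Matrix.SpecialLinearGroup.transvection_coe, Matrix.add_apply]

lemma tr_mem {i j : Fin n} (hij : i ≠ j) (hlt : i < j) : tr hij ∈ U (ZMod 2) n :=
  transvection_mem_U hij hlt 1

lemma tr_ij {i j : Fin n} (hij : i ≠ j) :
    ((tr hij : L n) : Matrix (Fin n) (Fin n) (ZMod 2)) i j = 1 := by
  rw [tr_apply, Matrix.one_apply_ne hij, Matrix.single_apply_same, zero_add]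

lemma tr_ne_one {i j : Fin n} (hij : i ≠ j) : tr hij ≠ 1 := by
  intro h
  have h1 := tr_ij hij
  rw [h] at h1
  simp only [Matrix.SpecialLinearGroup.coe_one, Matrix.one_apply_ne hij] at h1
  exact zero_ne_one h1

/-- If the conjugate of an upper transvection by a permutation is unitriangular, the permutation preserves
the order of the pair. -/
lemma lt_of_conj_mem {σ : Equiv.Perm (Fin n)} {i j : Fin n} (hij : i ≠ j)
    (h : w σ * tr hij * (w σ)⁻¹ ∈ U (ZMod 2) n) : σ i < σ j := by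
  have h1 := w_conj_apply σ (tr hij) (σ i) (σ j)
  have e1 : σ⁻¹ (σ i) = i := by simp
  have e2 : σ⁻¹ (σ j) = j := by simp
  rw [e1, e2, tr_ij] at h1
  have h2 : ¬ σ j < σ i := by
    intro hlt
    have := h.1 _ _ hlt
    rw [h1] at this
    exact one_ne_zero this
  have h3 : σ i ≠ σ j := fun h => hij (σ.injective h)
  exact lt_of_le_of_ne (not_lt.mp h2) h3

/-- Conversely. -/
lemma conj_mem_of_lt {σ : Equiv.Perm (Fin n)} {i j : Fin n} (hij : i ≠ j) (h : σ i < σ j) :
    w σ * tr hij * (w σ)⁻¹ ∈ U (ZMod 2) n := by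
  refine ⟨fun r s hrs => ?_, fun r => ?_⟩
  · rw [w_conj_apply, tr_apply]
    have h1 : σ⁻¹ r ≠ σ⁻¹ s := fun h => (ne_of_gt hrs) (σ⁻¹.injective h)
    rw [Matrix.one_apply_ne h1, zero_add, Matrix.single_apply_of_ne]
    rintro ⟨h2, h3⟩
    have h4 : r = σ i := by rw [h2]; simp
    have h5 : s = σ j := by rw [h3]; simp
    rw [h4, h5] at hrs
    exact absurd hrs (not_lt.mpr h.le)
  · rw [w_conj_apply, tr_apply, Matrix.one_apply_eq, Matrix.single_apply_of_ne, add_zero]
    rintro ⟨h2, h3⟩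
    exact hij (h2.trans h3.symm)

lemma perm_eq_one_of_mono (σ : Equiv.Perm (Fin n)) (h : ∀ i j, i < j → σ i < σ j) : σ = 1 := by
  have hs : StrictMono σ := fun i j hij => h i j hij
  have h1 := hs.orderIsoOfSurjective σ σ.surjective
  have h2 : hs.orderIsoOfSurjective σ σ.surjective = OrderIso.refl _ := Subsingleton.elim _ _
  ext i
  have h3 := congrArg (fun f => f i) h2
  simp only [StrictMono.coe_orderIsoOfSurjective, OrderIso.refl_apply] at h3
  rw [h3]
  rfl

lemma perm_eq_rev_of_anti (σ : Equiv.Perm (Fin n)) (h : ∀ i j, i < j → σ j < σ i) : σ = Fin.revPerm := by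
  have h1 : σ * Fin.revPerm = 1 := by
    apply perm_eq_one_of_mono
    intro i j hij
    apply h
    simp only [Fin.revPerm_apply]
    exact Fin.rev_lt_rev.mpr hij
  calc σ = σ * Fin.revPerm * Fin.revPerm := by
        rw [mul_assoc]
        have : (Fin.revPerm : Equiv.Perm (Fin n)) * Fin.revPerm = 1 := by
          ext i
          simp
        rw [this, mul_one]
    _ = Fin.revPerm := by rw [h1, one_mul]

/-- The Bruhat decomposition in `SL_n(2)`. -/
lemma bruhat_L (g : L n) : ∃ p ∈ U (ZMod 2) n, ∃ p' ∈ U (ZMod 2) n, ∃ σ : Equiv.Perm (Fin n), g = p * w σ * p' := by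
  obtain ⟨p, p', σ, hp, hp', h⟩ := bruhat (toGL g)
  refine ⟨ofGL p, ofGL_mem_U hp, ofGL p', ofGL_mem_U hp', σ, ?_⟩
  unfold w
  rw [← ofGL_mul, ← ofGL_mul, ← h, ofGL_toGL]

lemma mem_normalizer_U_iff {g : L n} : g ∈ Subgroup.normalizer (U (ZMod 2) n : Set (L n)) ↔
    ∀ h, h ∈ U (ZMod 2) n ↔ g * h * g⁻¹ ∈ U (ZMod 2) n := Subgroup.mem_normalizer_iff

/-- `U` is self-normalizing. -/
theorem normalizer_U (g : L n) (hg : ∀ h ∈ U (ZMod 2) n, g * h * g⁻¹ ∈ U (ZMod 2) n) : g ∈ U (ZMod 2) n := by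
  obtain ⟨p, hp, p', hp', σ, rfl⟩ := bruhat_L g
  have hσ : σ = 1 := by
    apply perm_eq_one_of_mono
    intro i j hij
    apply lt_of_conj_mem (ne_of_lt hij)
    have h1 := hg (p'⁻¹ * tr (ne_of_lt hij) * p') ((U (ZMod 2) n).mul_mem ((U (ZMod 2) n).mul_mem ((U (ZMod 2) n).inv_mem hp') (tr_mem _ hij)) hp')
    have h2 : p⁻¹ * (p * w σ * p' * (p'⁻¹ * tr (ne_of_lt hij) * p') * (p * w σ * p')⁻¹) * p =
        w σ * tr (ne_of_lt hij) * (w σ)⁻¹ := by
      group
    rw [← h2]
    exact (U (ZMod 2) n).mul_mem ((U (ZMod 2) n).mul_mem ((U (ZMod 2) n).inv_mem hp) h1) hp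
  subst hσ
  rw [w_one, mul_one]
  exact (U (ZMod 2) n).mul_mem hp hp'

/-- `U` is a Sylow `2`-subgroup. -/
theorem exists_sylow_U : ∃ S : Sylow 2 (L n), (S : Subgroup (L n)) = U (ZMod 2) n := by
  haveI : Fact (Nat.Prime 2) := ⟨Nat.prime_two⟩
  have hpg : IsPGroup 2 (U (ZMod 2) n) := Cfsg.Agent.Lib.SLnBorel50.U_isPGroup
  obtain ⟨P, hP⟩ := hpg.exists_le_sylow
  refine ⟨P, le_antisymm ?_ hP⟩
  by_contra hcon
  set V : Subgroup (P : Subgroup (L n)) := (U (ZMod 2) n).subgroupOf P with hV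
  have hVtop : V < ⊤ := by
    rw [lt_top_iff_ne_top]
    intro h
    apply hcon
    intro x hx
    have : (⟨x, hx⟩ : P) ∈ V := by rw [h]; exact Subgroup.mem_top _
    exact this
  haveI : Group.IsNilpotent (P : Subgroup (L n)) := P.isPGroup'.isNilpotent
  obtain ⟨x, hx1, hx2⟩ := SetLike.exists_of_lt (Group.normalizerCondition_of_isNilpotent V hVtop)
  apply hx2
  have hx3 : ((x : L n)) ∈ U (ZMod 2) n := by
    apply normalizer_U
    intro h hh
    have h1 := (Subgroup.mem_normalizer_iff.mp hx1) ⟨h, hP hh⟩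
    have h2 : (⟨h, hP hh⟩ : P) ∈ V := hh
    have h3 := h1.mp h2
    exact h3
  exact hx3

section conj

variable {G : Type*} [Group G]

lemma mem_conj {c x : G} {H : Subgroup G} : x ∈ MulAut.conj c • H ↔ c⁻¹ * x * c ∈ H := by
  rw [Subgroup.mem_pointwise_smul_iff_inv_smul_mem]
  simp [MulAut.smul_def]

lemma conj_conj (a b : G) (H : Subgroup G) : MulAut.conj a • MulAut.conj b • H = MulAut.conj (a * b) • H := by
  rw [smul_smul, map_mul]

lemma conj_eq_of_mem {H : Subgroup G} {a : G} (ha : a ∈ H) : MulAut.conj a • H = H := by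
  ext x
  rw [mem_conj]
  constructor
  · intro h
    have := H.mul_mem (H.mul_mem ha h) (H.inv_mem ha)
    convert this using 1
    group
  · intro h
    exact H.mul_mem (H.mul_mem (H.inv_mem ha) h) ha

end conj

/-- The opposite unitriangular group. -/
noncomputable def V₀ (n : ℕ) : Subgroup (L n) := MulAut.conj (w (Fin.revPerm : Equiv.Perm (Fin n))) • U (ZMod 2) n

/-- Pairs of Sylow subgroups with trivial intersection are all conjugate. -/
theorem pair_conj (W₁ W₂ : Sylow 2 (L n)) (h : (W₁ : Subgroup (L n)) ⊓ W₂ = ⊥) :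
    ∃ c : L n, (W₁ : Subgroup (L n)) = MulAut.conj c • U (ZMod 2) n ∧ (W₂ : Subgroup (L n)) = MulAut.conj c • V₀ n := by
  haveI : Fact (Nat.Prime 2) := ⟨Nat.prime_two⟩
  obtain ⟨S₀, hS₀⟩ := exists_sylow_U (n := n)
  obtain ⟨a, rfl⟩ := MulAction.exists_smul_eq (L n) S₀ W₁
  obtain ⟨b, rfl⟩ := MulAction.exists_smul_eq (L n) S₀ W₂
  rw [Sylow.coe_subgroup_smul, Sylow.coe_subgroup_smul, hS₀] at h
  rw [Sylow.coe_subgroup_smul, Sylow.coe_subgroup_smul, hS₀]
  obtain ⟨p, hp, p', hp', σ, hg⟩ := bruhat_L (a⁻¹ * b)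
  have hb : b = a * (p * w σ * p') := by
    rw [← hg]
    group
  have htriv : ∀ x, x ∈ U (ZMod 2) n → (w σ)⁻¹ * x * w σ ∈ U (ZMod 2) n → x = 1 := by
    intro x hx hx2
    have h1 : a * p * x * (a * p)⁻¹ ∈ (MulAut.conj a • (U (ZMod 2) n : Subgroup (L n))) ⊓ MulAut.conj b • U (ZMod 2) n := by
      refine Subgroup.mem_inf.mpr ⟨?_, ?_⟩
      · rw [mem_conj]
        have : a⁻¹ * (a * p * x * (a * p)⁻¹) * a = p * x * p⁻¹ := by group
        rw [this]
        exact (U (ZMod 2) n).mul_mem ((U (ZMod 2) n).mul_mem hp hx) ((U (ZMod 2) n).inv_mem hp)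
      · rw [mem_conj, hb]
        have : (a * (p * w σ * p'))⁻¹ * (a * p * x * (a * p)⁻¹) * (a * (p * w σ * p')) =
            p'⁻¹ * ((w σ)⁻¹ * x * w σ) * p' := by group
        rw [this]
        exact (U (ZMod 2) n).mul_mem ((U (ZMod 2) n).mul_mem ((U (ZMod 2) n).inv_mem hp') hx2) hp'
    rw [h, Subgroup.mem_bot] at h1
    have h2 : x = (a * p)⁻¹ * (a * p * x * (a * p)⁻¹) * (a * p) := by group
    rw [h2, h1]
    group
  have hσ : σ = Fin.revPerm := by
    apply perm_eq_rev_of_anti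
    intro i j hij
    by_contra hcon
    have hne : σ i ≠ σ j := fun h => (ne_of_lt hij) (σ.injective h)
    have hlt : σ i < σ j := lt_of_le_of_ne (not_lt.mp hcon) hne
    have h3 := conj_mem_of_lt (ne_of_lt hij) hlt
    have h4 := htriv _ h3 (by
      have : (w σ)⁻¹ * (w σ * tr (ne_of_lt hij) * (w σ)⁻¹) * w σ = tr (ne_of_lt hij) := by group
      rw [this]
      exact tr_mem _ hij)
    apply tr_ne_one (ne_of_lt hij)
    have h5 : tr (ne_of_lt hij) = (w σ)⁻¹ * (w σ * tr (ne_of_lt hij) * (w σ)⁻¹) * w σ := by group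
    rw [h5, h4]
    group
  subst hσ
  refine ⟨a * p, ?_, ?_⟩
  · rw [← conj_conj, conj_eq_of_mem hp]
  · unfold V₀
    rw [conj_conj, hb]
    have : a * (p * w Fin.revPerm * p') = a * p * w Fin.revPerm * p' := by group
    rw [this, ← conj_conj (a * p * w Fin.revPerm) p', conj_eq_of_mem hp']

/-- Sylow `2`-subgroups of `SL_n(2)` are self-normalizing. -/
theorem sylow_self_normalizing (W : Sylow 2 (L n)) (z : L n) (hz : ∀ u ∈ (W : Subgroup (L n)), z * u * z⁻¹ ∈ (W : Subgroup (L n))) :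
    z ∈ (W : Subgroup (L n)) := by
  haveI : Fact (Nat.Prime 2) := ⟨Nat.prime_two⟩
  obtain ⟨S₀, hS₀⟩ := exists_sylow_U (n := n)
  obtain ⟨a, rfl⟩ := MulAction.exists_smul_eq (L n) S₀ W
  rw [Sylow.coe_subgroup_smul, hS₀] at hz ⊢
  rw [mem_conj]
  apply normalizer_U
  intro h hh
  have h1 : a * h * a⁻¹ ∈ MulAut.conj a • (U (ZMod 2) n : Subgroup (L n)) := by
    rw [mem_conj]
    convert hh using 1
    group
  have h2 := hz _ h1
  rw [mem_conj] at h2
  convert h2 using 1
  group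

section abstract

variable {G : Type*} [Group G] [Finite G] (N : Subgroup G) [N.Normal]

lemma sylow_not_le (hidx : N.index = 2) (H : Sylow 2 G) : ¬ (H : Subgroup G) ≤ N := by
  intro h
  haveI : Fact (Nat.Prime 2) := ⟨Nat.prime_two⟩
  have h1 := Subgroup.index_dvd_of_le h
  rw [hidx] at h1
  exact H.not_dvd_index h1

lemma sylow_relIndex (hidx : N.index = 2) (H : Sylow 2 G) :
    (H : Subgroup G).relIndex N = (H : Subgroup G).index := by
  have h1 : ((H : Subgroup G) ⊓ N).relIndex N * N.index = ((H : Subgroup G) ⊓ N).index :=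
    Subgroup.relIndex_mul_index inf_le_right
  have h2 : ((H : Subgroup G) ⊓ N).relIndex H * (H : Subgroup G).index = ((H : Subgroup G) ⊓ N).index :=
    Subgroup.relIndex_mul_index inf_le_left
  rw [Subgroup.inf_relIndex_right] at h1
  rw [Subgroup.inf_relIndex_left] at h2
  have h3 : N.relIndex H = 2 := by
    have h4 : N.relIndex H ∣ 2 := by
      have := Subgroup.relIndex_dvd_index_of_normal N (H : Subgroup G)
      rwa [hidx] at this
    rcases (Nat.dvd_prime Nat.prime_two).mp h4 with h5 | h5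
    · exact absurd (Subgroup.relIndex_eq_one.mp h5) (sylow_not_le N hidx H)
    · exact h5
  rw [h3, ← h1, hidx] at h2
  omega

/-- A Sylow subgroup of the ambient group, transported to `L n`. -/
noncomputable def toL {n : ℕ} (e : N ≃* L n) (hidx : N.index = 2) (H : Sylow 2 G) : Sylow 2 (L n) :=
  haveI : Fact (Nat.Prime 2) := ⟨Nat.prime_two⟩
  IsPGroup.toSylow (P := ((H : Subgroup G).subgroupOf N).map (e : N →* L n))
    (IsPGroup.map (IsPGroup.to_le (H.isPGroup'.comap_subtype) (le_refl _)) _) (by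
      rw [Subgroup.index_map_equiv]
      show ¬ 2 ∣ (H : Subgroup G).relIndex N
      rw [sylow_relIndex N hidx]
      exact H.not_dvd_index)

lemma mem_toL {n : ℕ} (e : N ≃* L n) (hidx : N.index = 2) (H : Sylow 2 G) (v : L n) :
    v ∈ (toL N e hidx H : Subgroup (L n)) ↔ ((e.symm v : N) : G) ∈ (H : Subgroup G) := by
  haveI : Fact (Nat.Prime 2) := ⟨Nat.prime_two⟩
  show v ∈ ((H : Subgroup G).subgroupOf N).map (e : N →* L n) ↔ _
  constructor
  · rintro ⟨u, hu, rfl⟩
    have : e.symm ((e : N →* L n) u) = u := e.symm_apply_apply u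
    rw [this]
    exact hu
  · intro h
    exact ⟨e.symm v, h, e.apply_symm_apply v⟩

/-- The main theorem: two Sylow `2`-subgroups always meet nontrivially. -/
theorem sylow_meet {n : ℕ} (e : N ≃* L n) (hidx : N.index = 2) (H₁ H₂ : Sylow 2 G) :
    (H₁ : Subgroup G) ⊓ H₂ ≠ ⊥ := by
  intro hbot
  haveI : Fact (Nat.Prime 2) := ⟨Nat.prime_two⟩
  obtain ⟨t, ht⟩ : ∃ t : G, t ∉ N := by
    by_contra hcon
    have hcon' : ∀ t : G, t ∈ N := fun t => by
      by_contra h
      exact hcon ⟨t, h⟩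
    have : N = ⊤ := (Subgroup.eq_top_iff' N).mpr hcon'
    rw [this, Subgroup.index_top] at hidx
    omega
  -- triviality of the two intersections in `L n`
  have triv : ∀ A B : Sylow 2 G, (A : Subgroup G) ⊓ B = ⊥ →
      (toL N e hidx A : Subgroup (L n)) ⊓ toL N e hidx B = ⊥ := by
    intro A B hAB
    rw [eq_bot_iff]
    intro v hv
    rw [Subgroup.mem_inf, mem_toL, mem_toL] at hv
    have h1 : ((e.symm v : N) : G) ∈ (A : Subgroup G) ⊓ B := Subgroup.mem_inf.mpr hv
    rw [hAB, Subgroup.mem_bot] at h1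
    have h2 : e.symm v = 1 := Subtype.ext h1
    rw [Subgroup.mem_bot]
    have := congrArg e h2
    simpa using this
  have triv' : ((t • H₁ : Sylow 2 G) : Subgroup G) ⊓ ((t • H₂ : Sylow 2 G) : Subgroup G) = ⊥ := by
    rw [Sylow.coe_subgroup_smul, Sylow.coe_subgroup_smul, eq_bot_iff]
    intro v hv
    rw [Subgroup.mem_inf, mem_conj, mem_conj] at hv
    have h1 : t⁻¹ * v * t ∈ (H₁ : Subgroup G) ⊓ H₂ := Subgroup.mem_inf.mpr hv
    rw [hbot, Subgroup.mem_bot] at h1
    rw [Subgroup.mem_bot]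
    have h2 : v = t * (t⁻¹ * v * t) * t⁻¹ := by group
    rw [h2, h1]
    group
  obtain ⟨c, hc1, hc2⟩ := pair_conj _ _ (triv _ _ hbot)
  obtain ⟨c', hc1', hc2'⟩ := pair_conj _ _ (triv _ _ triv')
  set y : L n := c * c'⁻¹ with hy
  have hy' : y⁻¹ * c = c' := by rw [hy]; group
  set s : G := ((e.symm y : N) : G) * t with hs
  have hsN : s ∉ N := by
    intro h
    exact ht ((N.mul_mem_cancel_left (e.symm y).2).mp h)
  -- the key property
  have key : ∀ (A : Sylow 2 G),
      (∀ v : L n, v ∈ (toL N e hidx A : Subgroup (L n)) ↔ y⁻¹ * v * y ∈ (toL N e hidx (t • A) : Subgroup (L n))) →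
      s ∈ (A : Subgroup G) := by
    intro A hA
    have hA' : ∀ u : N, (u : G) ∈ (A : Subgroup G) ↔ s⁻¹ * u * s ∈ (A : Subgroup G) := by
      intro u
      have h1 := hA (e u)
      rw [mem_toL, mem_toL, Sylow.coe_subgroup_smul, mem_conj] at h1
      rw [e.symm_apply_apply] at h1
      have h2 : ((e.symm (y⁻¹ * e u * y) : N) : G) = ((e.symm y : N) : G)⁻¹ * u * ((e.symm y : N) : G) := by
        simp [map_mul]
      rw [h2] at h1
      rw [h1]
      have h3 : t⁻¹ * (((e.symm y : N) : G)⁻¹ * u * ((e.symm y : N) : G)) * t = s⁻¹ * u * s := by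
        rw [hs]; group
      rw [h3]
    obtain ⟨h, hh, hhN⟩ := SetLike.not_le_iff_exists.mp (sylow_not_le N hidx A)
    have hk : s * h⁻¹ ∈ N := by
      rw [Subgroup.mul_mem_iff_of_index_two hidx]
      simp [hsN, hhN]
    have h1 : (e.symm (e ⟨s * h⁻¹, hk⟩) : N) = ⟨s * h⁻¹, hk⟩ := e.symm_apply_apply _
    have h2 : e ⟨s * h⁻¹, hk⟩ ∈ (toL N e hidx A : Subgroup (L n)) := by
      apply sylow_self_normalizing
      intro u hu
      rw [mem_toL] at hu ⊢
      have h3 : ((e.symm (e ⟨s * h⁻¹, hk⟩ * u * (e ⟨s * h⁻¹, hk⟩)⁻¹) : N) : G) =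
          s * h⁻¹ * (e.symm u : N) * (s * h⁻¹)⁻¹ := by
        simp [map_mul]
      rw [h3]
      set a : G := ((e.symm u : N) : G) with ha
      have haN : a ∈ N := (e.symm u).2
      have hb : h⁻¹ * a * h ∈ N := by
        have := ‹N.Normal›.conj_mem a haN h⁻¹
        simpa using this
      have hbA : h⁻¹ * a * h ∈ (A : Subgroup G) :=
        (A : Subgroup G).mul_mem ((A : Subgroup G).mul_mem ((A : Subgroup G).inv_mem hh) hu) hh
      have hc : s * (h⁻¹ * a * h) * s⁻¹ ∈ N := ‹N.Normal›.conj_mem _ hb s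
      have h4 := hA' ⟨_, hc⟩
      have h5 : s⁻¹ * (s * (h⁻¹ * a * h) * s⁻¹) * s = h⁻¹ * a * h := by group
      simp only [h5] at h4
      have h6 := h4.mpr hbA
      convert h6 using 1
      group
    rw [mem_toL, h1] at h2
    have h7 : s = (s * h⁻¹) * h := by group
    rw [h7]
    exact (A : Subgroup G).mul_mem h2 hh
  have hs1 : s ∈ (H₁ : Subgroup G) := by
    apply key
    intro v
    rw [hc1, hc1', mem_conj, mem_conj, ← hy']
    have : (y⁻¹ * c)⁻¹ * (y⁻¹ * v * y) * (y⁻¹ * c) = c⁻¹ * v * c := by group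
    rw [this]
  have hs2 : s ∈ (H₂ : Subgroup G) := by
    apply key
    intro v
    rw [hc2, hc2', mem_conj, mem_conj, ← hy']
    have : (y⁻¹ * c)⁻¹ * (y⁻¹ * v * y) * (y⁻¹ * c) = c⁻¹ * v * c := by group
    rw [this]
  have hs3 : s ∈ (H₁ : Subgroup G) ⊓ H₂ := Subgroup.mem_inf.mpr ⟨hs1, hs2⟩
  rw [hbot, Subgroup.mem_bot] at hs3
  exact hsN (hs3 ▸ N.one_mem)

end abstract

end Cfsg.Agent.Lib.SLF2
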