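import Mathlib
import Cfsg.Prelude.Def_Solvable
import Cfsg.Agent.Lib.PermModule
import Cfsg.Agent.Lib.PCore

/-!
# Radical `p`-subgroups of `SL_n` and their `p'`-centralizers

If `D ≠ 1` is a `p`-subgroup of `SL_n(F)` (`F` a finite field of characteristic `p`) with
`O_p(N(D)) = D`, then every `p'`-element centralizing `D` is a scalar matrix.
-/

set_option autoImplicit false

namespace Cfsg.Agent.Lib.SLnRadical50

open Matrix Cfsg

variable {n : ℕ} {F : Type*} [Field F]

/-- The natural action on column vectors. -/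
def act (g : Matrix.SpecialLinearGroup (Fin n) F) (v : Fin n → F) : Fin n → F :=
  (g : Matrix (Fin n) (Fin n) F) *ᵥ v

/-- The action on row vectors (the dual action). -/
def dact (g : Matrix.SpecialLinearGroup (Fin n) F) (f : Fin n → F) : Fin n → F :=
  f ᵥ* ((g⁻¹ : Matrix.SpecialLinearGroup (Fin n) F) : Matrix (Fin n) (Fin n) F)

local notation "G" => Matrix.SpecialLinearGroup (Fin n) F

@[simp] lemma act_one (v : Fin n → F) : act (1 : G) v = v := by
  simp [act]

lemma act_mul (g h : G) (v : Fin n → F) : act (g * h) v = act g (act h v) := by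
  simp [act, Matrix.SpecialLinearGroup.coe_mul, Matrix.mulVec_mulVec]

lemma act_add (g : G) (v w : Fin n → F) : act g (v + w) = act g v + act g w := by
  simp [act, Matrix.mulVec_add]

lemma act_sub (g : G) (v w : Fin n → F) : act g (v - w) = act g v - act g w := by
  simp [act, Matrix.mulVec_sub]

lemma act_smul (g : G) (c : F) (v : Fin n → F) : act g (c • v) = c • act g v := by
  simp [act, Matrix.mulVec_smul]

lemma act_neg (g : G) (v : Fin n → F) : act g (-v) = - act g v := by
  simp [act, Matrix.mulVec_neg]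

lemma act_inv_act (g : G) (v : Fin n → F) : act g⁻¹ (act g v) = v := by
  rw [← act_mul]; simp

lemma act_act_inv (g : G) (v : Fin n → F) : act g (act g⁻¹ v) = v := by
  rw [← act_mul]; simp

lemma ext_act {g h : G} (H : ∀ v, act g v = act h v) : g = h := by
  apply Subtype.ext
  exact Matrix.ext_of_mulVec_single fun i => H _

lemma dact_one (f : Fin n → F) : dact (1 : G) f = f := by
  simp [dact]

lemma dact_mul (g h : G) (f : Fin n → F) : dact (g * h) f = dact g (dact h f) := by
  simp only [dact, _root_.mul_inv_rev, Matrix.SpecialLinearGroup.coe_mul, Matrix.vecMul_vecMul]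

lemma dact_dot (g : G) (f v : Fin n → F) : dact g f ⬝ᵥ v = f ⬝ᵥ act g⁻¹ v := by
  simp [dact, act, Matrix.dotProduct_mulVec]

/-- The representation on column vectors of a subgroup. -/
def rep (D : Subgroup G) : Representation F D (Fin n → F) where
  toFun d :=
    { toFun := act (d : G)
      map_add' := act_add _
      map_smul' := fun c v => act_smul _ c v }
  map_one' := by
    apply LinearMap.ext
    intro v
    simp
  map_mul' a b := by
    apply LinearMap.ext
    intro v
    simp [act_mul]

/-- The representation on row vectors of a subgroup. -/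
def drep (D : Subgroup G) : Representation F D (Fin n → F) where
  toFun d :=
    { toFun := dact (d : G)
      map_add' := fun v w => by simp [dact, Matrix.add_vecMul]
      map_smul' := fun c v => by simp [dact, Matrix.smul_vecMul] }
  map_one' := by
    apply LinearMap.ext
    intro v
    simp [dact_one]
  map_mul' a b := by
    apply LinearMap.ext
    intro v
    simp only [Subgroup.coe_mul, LinearMap.coe_mk, AddHom.coe_mk, Module.End.mul_apply, dact_mul]
    rfl

/-- The fixed space of a subgroup. -/
def fixedSp (D : Subgroup G) : Submodule F (Fin n → F) where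
  carrier := {v | ∀ d ∈ D, act d v = v}
  add_mem' := fun {a b} ha hb d hd => by rw [act_add, ha d hd, hb d hd]
  zero_mem' := fun d _ => by simp [act]
  smul_mem' := fun c v hv d hd => by rw [act_smul, hv d hd]

lemma mem_fixedSp {D : Subgroup G} {v : Fin n → F} : v ∈ fixedSp D ↔ ∀ d ∈ D, act d v = v :=
  Iff.rfl

/-- The annihilator of the fixed space. -/
def annSp (D : Subgroup G) : Submodule F (Fin n → F) where
  carrier := {f | ∀ k ∈ fixedSp D, f ⬝ᵥ k = 0}
  add_mem' := fun {a b} ha hb k hk => by rw [add_dotProduct, ha k hk, hb k hk, add_zero]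
  zero_mem' := fun k _ => by simp
  smul_mem' := fun c v hv k hk => by rw [smul_dotProduct, hv k hk, smul_zero]

lemma act_mem_fixedSp_of_normalizer {D : Subgroup G} {g : G}
    (hg : g ∈ Subgroup.normalizer (D : Set G)) {k : Fin n → F} (hk : k ∈ fixedSp D) :
    act g k ∈ fixedSp D := by
  intro d hd
  have h : g⁻¹ * d * g ∈ D := (Subgroup.mem_normalizer_iff''.mp hg d).mp hd
  have h2 := hk _ h
  rw [act_mul, act_mul] at h2
  calc act d (act g k) = act g (act g⁻¹ (act d (act g k))) := (act_act_inv _ _).symm
    _ = act g k := by rw [h2]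

section char

variable {p : ℕ} [hp : Fact p.Prime] [CharP F p]

/-- The transvection group attached to a subgroup `D`. -/
def transGroup (D : Subgroup G) : Subgroup G where
  carrier := {x | (∀ v, act x v - v ∈ fixedSp D) ∧ (∀ k ∈ fixedSp D, act x k = k) ∧
    ∀ v, ∀ d ∈ D, act x (act d v - v) = act d v - v}
  one_mem' := by
    refine ⟨fun v => by simp, fun k _ => by simp, fun v d _ => by simp⟩
  mul_mem' := by
    rintro a b ⟨ha1, ha2, ha3⟩ ⟨hb1, hb2, hb3⟩
    refine ⟨fun v => ?_, fun k hk => ?_, fun v d hd => ?_⟩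
    · have h : act (a * b) v - v = (act b v - v) + (act a v - v) := by
        rw [act_mul]
        have := ha2 _ (hb1 v)
        rw [act_sub] at this
        rw [sub_eq_iff_eq_add.mp this]
        abel
      rw [h]
      exact (fixedSp D).add_mem (hb1 v) (ha1 v)
    · rw [act_mul, hb2 k hk, ha2 k hk]
    · rw [act_mul, hb3 v d hd, ha3 v d hd]
  inv_mem' := by
    rintro a ⟨ha1, ha2, ha3⟩
    have hinv : ∀ k ∈ fixedSp D, act a⁻¹ k = k := fun k hk => by
      conv_lhs => rw [← ha2 k hk]
      exact act_inv_act _ _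
    refine ⟨fun v => ?_, hinv, fun v d hd => ?_⟩
    · have h1 := hinv _ (ha1 v)
      rw [act_sub, act_inv_act] at h1
      have h2 : act a⁻¹ v - v = -(act a v - v) := by
        rw [← h1]; abel
      rw [h2]
      exact (fixedSp D).neg_mem (ha1 v)
    · conv_lhs => rw [← ha3 v d hd]
      exact act_inv_act _ _

lemma transGroup_commute {D : Subgroup G} {x d : G} (hx : x ∈ transGroup D) (hd : d ∈ D) :
    d * x = x * d := by
  obtain ⟨h1, h2, h3⟩ := hx
  apply ext_act
  intro v
  rw [act_mul, act_mul]
  have e1 : act d (act x v) = act d v + (act x v - v) := by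
    have := h1 v d hd
    rw [act_sub] at this
    rw [sub_eq_iff_eq_add.mp this]
    abel
  have e2 : act x (act d v) = (act d v - v) + act x v := by
    have := h3 v d hd
    rw [act_sub] at this
    rw [sub_eq_iff_eq_add.mp this]
  rw [e1, e2]
  abel

lemma transGroup_pow {D : Subgroup G} {x : G} (hx : x ∈ transGroup D) (k : ℕ) (v : Fin n → F) :
    act (x ^ k) v = v + (k : F) • (act x v - v) := by
  obtain ⟨h1, h2, h3⟩ := hx
  induction k with
  | zero => simp
  | succ k ih =>
    rw [pow_succ', act_mul, ih, act_add, act_smul, h2 _ (h1 v)]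
    push_cast
    rw [add_smul, one_smul]
    abel

lemma transGroup_pow_p {D : Subgroup G} {x : G} (hx : x ∈ transGroup D) : x ^ p = 1 := by
  apply ext_act
  intro v
  rw [transGroup_pow hx]
  simp

lemma transGroup_isPGroup (D : Subgroup G) : IsPGroup p (transGroup D) := by
  intro x
  refine ⟨1, ?_⟩
  apply Subtype.ext
  simpa using transGroup_pow_p (p := p) x.2

lemma transGroup_conj {D : Subgroup G} {x g : G} (hx : x ∈ transGroup D)
    (hg : g ∈ Subgroup.normalizer (D : Set G)) : g * x * g⁻¹ ∈ transGroup D := by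
  obtain ⟨h1, h2, h3⟩ := hx
  have hginv : g⁻¹ ∈ Subgroup.normalizer (D : Set G) := inv_mem hg
  refine ⟨fun v => ?_, fun k hk => ?_, fun v d hd => ?_⟩
  · have : act (g * x * g⁻¹) v - v = act g (act x (act g⁻¹ v) - act g⁻¹ v) := by
      rw [act_sub, act_act_inv, act_mul, act_mul]
    rw [this]
    exact act_mem_fixedSp_of_normalizer hg (h1 _)
  · rw [act_mul, act_mul, h2 _ (act_mem_fixedSp_of_normalizer hginv hk), act_act_inv]
  · have hd' : g⁻¹ * d * g ∈ D := (Subgroup.mem_normalizer_iff''.mp hg d).mp hd
    have e : act g⁻¹ (act d v - v) = act (g⁻¹ * d * g) (act g⁻¹ v) - act g⁻¹ v := by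
      rw [act_sub, act_mul, act_mul, act_act_inv]
    rw [act_mul, act_mul, e, h3 _ _ hd', act_sub, act_mul, act_mul, act_act_inv, act_act_inv]

/-- The transvection group lies in `D` when `D` is radical. -/
lemma transGroup_le [Finite F] {D : Subgroup G}
    (hrad : (pCore p (Subgroup.normalizer (D : Set G))).map
      (Subgroup.normalizer (D : Set G)).subtype = D) : transGroup D ≤ D := by
  have hle : transGroup D ≤ Subgroup.normalizer (D : Set G) := by
    intro x hx
    rw [Subgroup.mem_normalizer_iff]
    intro d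
    have hc : ∀ d' ∈ D, x * d' * x⁻¹ = d' := fun d' hd' => by
      rw [← transGroup_commute hx hd']; group
    constructor
    · intro hd
      rw [hc d hd]; exact hd
    · intro hd
      have := hc _ hd
      have h2 : x⁻¹ * (x * d * x⁻¹) * x⁻¹⁻¹ ∈ D := by
        have := (transGroup D).inv_mem hx
        have hc' : x⁻¹ * (x * d * x⁻¹) * x⁻¹⁻¹ = x * d * x⁻¹ := by
          rw [← transGroup_commute this hd]; group
        rw [hc']; exact hd
      have e : x⁻¹ * (x * d * x⁻¹) * x⁻¹⁻¹ = d := by group
      rwa [e] at h2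
  let A : Subgroup (Subgroup.normalizer (D : Set G)) :=
    (transGroup D).subgroupOf (Subgroup.normalizer (D : Set G))
  have hAn : A.Normal := by
    constructor
    intro a ha g
    rw [Subgroup.mem_subgroupOf] at ha ⊢
    exact transGroup_conj ha g.2
  have hAp : IsPGroup p A := by
    intro x
    refine ⟨1, ?_⟩
    apply Subtype.ext
    apply Subtype.ext
    have hx : ((x : Subgroup.normalizer (D : Set G)) : G) ∈ transGroup D := by
      have := x.2
      rwa [Subgroup.mem_subgroupOf] at this
    simpa using transGroup_pow_p (p := p) hx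
  have h := Cfsg.Agent.Lib.PCore.le_pCore hAn hAp
  intro x hx
  have hxA : (⟨x, hle hx⟩ : Subgroup.normalizer (D : Set G)) ∈ A := by
    rw [Subgroup.mem_subgroupOf]; exact hx
  rw [← hrad]
  exact ⟨_, h hxA, rfl⟩

/-- A nontrivial `p`-subgroup has a nonzero fixed vector in any nonzero invariant subspace. -/
lemma exists_fixed [Finite F] {D : Subgroup G} (hD : IsPGroup p D) (W : Submodule F (Fin n → F))
    (hW : ∀ d ∈ D, ∀ v ∈ W, act d v ∈ W) {v₀ : Fin n → F} (hv₀ : v₀ ∈ W) (hne : v₀ ≠ 0) :
    ∃ v ∈ W, v ≠ 0 ∧ v ∈ fixedSp D := by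
  classical
  haveI : Finite D := inferInstance
  obtain ⟨v, hv, hv0, hfix⟩ := Cfsg.Agent.Lib.PermModule.exists_fixed_vector hD (rep D) W
    (fun g v hv => hW g g.2 v hv) hv₀ hne
  exact ⟨v, hv, hv0, fun d hd => hfix ⟨d, hd⟩⟩

/-- The functional: a nonzero `D`-invariant functional killing the fixed space. -/
lemma exists_functional [Finite F] {D : Subgroup G} (hD : IsPGroup p D) (hne : D ≠ ⊥) :
    ∃ f : Fin n → F, f ≠ 0 ∧ (∀ k ∈ fixedSp D, f ⬝ᵥ k = 0) ∧
      ∀ d ∈ D, ∀ v, f ⬝ᵥ (act d v - v) = 0 := by
  classical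
  have hK : fixedSp D ≠ ⊤ := by
    intro h
    apply hne
    rw [Subgroup.eq_bot_iff_forall]
    intro d hd
    apply ext_act
    intro v
    have : v ∈ fixedSp D := by rw [h]; trivial
    simpa using this d hd
  obtain ⟨f, hf, hfK⟩ := Submodule.exists_le_ker_of_lt_top _ (lt_top_iff_ne_top.mpr hK)
  let fv : Fin n → F := fun i => f (Pi.single i 1)
  have hfv : ∀ w, fv ⬝ᵥ w = f w := by
    intro w
    have : w = ∑ i, w i • (Pi.single i 1 : Fin n → F) := by
      ext j
      simp [Finset.sum_apply, Pi.single_apply]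
    conv_rhs => rw [this, map_sum]
    simp only [dotProduct, fv, map_smul, smul_eq_mul]
    exact Finset.sum_congr rfl fun i _ => mul_comm _ _
  have hfv0 : fv ≠ 0 := by
    intro h
    apply hf
    refine LinearMap.ext fun w => ?_
    rw [← hfv, h]
    simp
  have hW : ∀ d ∈ D, ∀ g ∈ annSp D, dact d g ∈ annSp D := by
    intro d hd g hg k hk
    rw [dact_dot]
    apply hg
    exact act_mem_fixedSp_of_normalizer
      (inv_mem (Subgroup.le_normalizer hd)) hk
  have hfvW : fv ∈ annSp D := fun k hk => by
    rw [hfv]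
    exact hfK hk
  obtain ⟨g, hg, hg0, hfix⟩ := Cfsg.Agent.Lib.PermModule.exists_fixed_vector hD (drep D) (annSp D)
    (fun d g hg => hW d d.2 g hg) hfvW hfv0
  refine ⟨g, hg0, hg, fun d hd v => ?_⟩
  have h1 : dact d⁻¹ g = g := hfix ⟨d⁻¹, inv_mem hd⟩
  have h2 : g ⬝ᵥ act d v = g ⬝ᵥ v := by
    have := dact_dot d⁻¹ g v
    rw [h1, inv_inv] at this
    exact this.symm
  rw [dotProduct_sub, h2, sub_self]

/-- The transvection `w ↦ w + (f ⬝ w) v`. -/
def transv (v f : Fin n → F) (h : f ⬝ᵥ v = 0) : G :=
  ⟨1 + vecMulVec v f, by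
    rw [Matrix.vecMulVec_eq Unit, Matrix.det_one_add_replicateCol_mul_replicateRow, h, add_zero]⟩

lemma act_transv (v f : Fin n → F) (h : f ⬝ᵥ v = 0) (w : Fin n → F) :
    act (transv v f h) w = w + (f ⬝ᵥ w) • v := by
  unfold act transv
  simp only [Matrix.add_mulVec, Matrix.one_mulVec]
  congr 1
  ext i
  simp only [mulVec, dotProduct, vecMulVec_apply, Pi.smul_apply, smul_eq_mul, Finset.sum_mul,
    Finset.mul_sum]
  exact Finset.sum_congr rfl fun j _ => by ring

/-- **The scalar lemma.**  A `p'`-element centralizing a nontrivial radical `p`-subgroup of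
`SL_n(F)` is a scalar matrix. -/
theorem scalar_of_radical [Finite F] {D : Subgroup G} (hD : IsPGroup p D) (hne : D ≠ ⊥)
    (hrad : (pCore p (Subgroup.normalizer (D : Set G))).map
      (Subgroup.normalizer (D : Set G)).subtype = D)
    {y : G} (hy : y ∈ Subgroup.centralizer (D : Set G)) (hyp : ¬ p ∣ orderOf y) :
    ∃ c : F, (y : Matrix (Fin n) (Fin n) F) = c • 1 := by
  classical
  obtain ⟨f, hf0, hfK, hfD⟩ := exists_functional hD hne
  obtain ⟨w₀, hw₀⟩ : ∃ w₀, f ⬝ᵥ w₀ = 1 := by
    obtain ⟨i, hi⟩ := Function.ne_iff.mp hf0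
    refine ⟨Pi.single i (f i)⁻¹, ?_⟩
    rw [dotProduct_single, mul_inv_cancel₀ hi]
  have hw₀0 : w₀ ≠ 0 := by
    rintro rfl
    simp at hw₀
  set c := f ⬝ᵥ act y w₀ with hc
  have hcomm : ∀ d ∈ D, d * y = y * d := fun d hd => by
    exact (Subgroup.mem_centralizer_iff.mp hy) d hd
  have heig : ∀ k ∈ fixedSp D, act y k = c • k := by
    intro k hk
    have hT : transv k f (hfK k hk) ∈ D := by
      apply transGroup_le (p := p) hrad
      refine ⟨fun v => ?_, fun k' hk' => ?_, fun v d hd => ?_⟩
      · rw [act_transv, add_sub_cancel_left]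
        exact (fixedSp D).smul_mem _ hk
      · rw [act_transv, hfK k' hk', zero_smul, add_zero]
      · rw [act_transv, hfD d hd, zero_smul, add_zero]
    have h1 := hcomm _ hT
    have h2 : act (transv k f (hfK k hk)) (act y w₀) = act y (act (transv k f (hfK k hk)) w₀) := by
      rw [← act_mul, ← act_mul, h1]
    rw [act_transv, act_transv, act_add, act_smul, hw₀, one_smul] at h2
    exact (add_left_cancel h2).symm
  obtain ⟨v₀, -, hv₀, hv₀K⟩ := exists_fixed hD (⊤ : Submodule F (Fin n → F))
    (fun _ _ _ _ => trivial) (v₀ := w₀) trivial hw₀0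
  have hpowK : ∀ k ∈ fixedSp D, ∀ j : ℕ, act (y ^ j) k = c ^ j • k := by
    intro k hk j
    induction j with
    | zero => simp
    | succ j ih =>
      rw [pow_succ', act_mul, ih, act_smul, heig k hk, smul_smul, pow_succ]
  set m := orderOf y with hm
  have hmpos : 0 < m := orderOf_pos y
  have hym : y ^ m = 1 := pow_orderOf_eq_one y
  have hcm : c ^ m = 1 := by
    have h := hpowK v₀ hv₀K m
    rw [hym, act_one] at h
    obtain ⟨i, hi⟩ := Function.ne_iff.mp hv₀
    have h3 := congrFun h i
    simp only [Pi.smul_apply, smul_eq_mul] at h3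
    have h4 : (c ^ m - 1) * v₀ i = 0 := by
      rw [sub_mul, one_mul, ← h3, sub_self]
    rcases mul_eq_zero.mp h4 with h5 | h5
    · exact sub_eq_zero.mp h5
    · exact absurd h5 hi
  have hc0 : c ≠ 0 := by
    intro h
    rw [h, zero_pow hmpos.ne'] at hcm
    exact zero_ne_one hcm
  have hm0 : (m : F) ≠ 0 := by
    rw [Ne, CharP.cast_eq_zero_iff F p]
    exact hyp
  have key : ∀ u, act y u = c • u := by
    by_contra hcon
    push Not at hcon
    obtain ⟨u, hu⟩ := hcon
    let L : (Fin n → F) →ₗ[F] (Fin n → F) :=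
      { toFun := fun u => act y u - c • u
        map_add' := fun a b => by
          rw [act_add, smul_add]; abel
        map_smul' := fun a b => by
          simp only [act_smul, RingHom.id_apply, smul_sub]
          rw [smul_comm c a b] }
    have hWst : ∀ d ∈ D, ∀ v ∈ LinearMap.range L, act d v ∈ LinearMap.range L := by
      rintro d hd v ⟨u', rfl⟩
      refine ⟨act d u', ?_⟩
      change act y (act d u') - c • act d u' = act d (act y u' - c • u')
      rw [act_sub, act_smul, ← act_mul, ← act_mul, hcomm d hd]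
    obtain ⟨w, ⟨u', hu'⟩, hw0, hwK⟩ := exists_fixed hD (LinearMap.range L) hWst
      (v₀ := L u) ⟨u, rfl⟩ (sub_ne_zero.mpr hu)
    have hu'' : act y u' = c • u' + w := by
      rw [← hu']
      change act y u' = c • u' + (act y u' - c • u')
      abel
    have hpow : ∀ j : ℕ, act (y ^ (j + 1)) u' = c ^ (j + 1) • u' + (((j + 1 : ℕ) : F) * c ^ j) • w := by
      intro j
      induction j with
      | zero => simp [hu'']
      | succ j ih =>
        rw [pow_succ', act_mul, ih, act_add, act_smul, act_smul, hu'', heig w hwK, smul_add,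
          smul_smul, smul_smul, add_assoc, ← add_smul]
        congr 2
        · rw [pow_succ c (j + 1)]
        · push_cast; ring
    obtain ⟨m', hm'⟩ : ∃ m', m = m' + 1 := ⟨m - 1, by omega⟩
    have h := hpow m'
    rw [← hm', hym, act_one, hcm, one_smul] at h
    have h2 : (((m : ℕ) : F) * c ^ m') • w = 0 := by
      have := add_left_cancel (a := u') (b := 0) (c := ((m : F) * c ^ m') • w) (by
        rw [add_zero]; exact h)
      exact this.symm
    rcases smul_eq_zero.mp h2 with h3 | h3
    · rcases mul_eq_zero.mp h3 with h4 | h4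
      · exact hm0 h4
      · exact pow_ne_zero _ hc0 h4
    · exact hw0 h3
  refine ⟨c, Matrix.ext_of_mulVec_single fun i => ?_⟩
  have := key (Pi.single i 1)
  unfold act at this
  rw [this, Matrix.smul_mulVec, Matrix.one_mulVec]

end char

end Cfsg.Agent.Lib.SLnRadical50
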