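import Mathlib
import Cfsg.Prelude.Def_Blocks
import Cfsg.Agent.S0955
import Cfsg.Agent.S0914
import Cfsg.Agent.Lib.BlockDefect
import Cfsg.Agent.Lib.BlkDefect
import Cfsg.Agent.Lib.BlockQ
import Cfsg.Agent.Lib.BlockIdem
import Cfsg.Agent.Lib.SLnRadical50
import Cfsg.Agent.Lib.SLnBorel50
import Cfsg.Agent.Lib.SLnSteinberg50
import Cfsg.Agent.Lib.ClassicalCore
import Cfsg.Agent.Lib.PCore

/-!
# The `p`-blocks of `SL_n(q)`: defect groups are trivial or Sylow
-/

set_option autoImplicit false
set_option linter.unusedSectionVars false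
set_option linter.unusedVariables false
set_option linter.style.haveILetI false
set_option linter.unusedSimpArgs false

namespace Cfsg.Agent.Lib.SLnBlocks50

open Matrix Cfsg

section general

variable {G : Type*} [Group G] [Finite G] {p : ℕ} [hp : Fact p.Prime] {M : Ideal AlgInt}

/-- A Sylow subgroup is the `p`-core of its normalizer. -/
lemma radical_of_sylow (P : Sylow p G) :
    (pCore p (Subgroup.normalizer ((P : Subgroup G) : Set G))).map
      (Subgroup.normalizer ((P : Subgroup G) : Set G)).subtype = P := by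
  set N := Subgroup.normalizer ((P : Subgroup G) : Set G) with hN
  have hle : (P : Subgroup G) ≤ N := Subgroup.le_normalizer
  have h1 : IsPGroup p ((pCore p N).map N.subtype) :=
    (Cfsg.Agent.Lib.PCore.isPGroup_pCore (G := N) p).map _
  have hnorm : ((P : Subgroup G).subgroupOf N).Normal := Subgroup.normal_in_normalizer
  have hpg : IsPGroup p ((P : Subgroup G).subgroupOf N) := by
    intro x
    have hx : ((x : N) : G) ∈ (P : Subgroup G) := by
      have := x.2
      rwa [Subgroup.mem_subgroupOf] at this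
    obtain ⟨k, hk⟩ := P.isPGroup' ⟨((x : N) : G), hx⟩
    refine ⟨k, ?_⟩
    apply Subtype.ext
    apply Subtype.ext
    simpa [Subtype.ext_iff] using hk
  have h2 := Cfsg.Agent.Lib.PCore.le_pCore hnorm hpg
  apply P.is_maximal' h1
  intro x hx
  have hx' : (⟨x, hle hx⟩ : N) ∈ (P : Subgroup G).subgroupOf N := by
    rw [Subgroup.mem_subgroupOf]; exact hx
  exact ⟨_, h2 hx', rfl⟩

/-- A block with trivial defect group is the block of a character of defect zero. -/
theorem exists_defect_zero_of_bot (hM : IsPModular p M) {B : Set (IrrCharacter G)}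
    (hB : IsPBlock M B) (hD : IsDefectGroup p M B ⊥) :
    ∃ χ : IrrCharacter G, B = blockOf M (χ : G → ℂ) ∧ ¬ p ∣ Nat.card G / charDegree (χ : G → ℂ) := by
  classical
  letI := Fintype.ofFinite G
  haveI := hM.2.1.isPrime
  have hc := Cfsg.Agent.Lib.BlockDefect.card_isDefectGroup hM hB hD
  have h0 : blockDefect p B = 0 := by
    by_contra h
    have h1 : 1 < p ^ blockDefect p B := Nat.one_lt_pow h hp.out.one_lt
    rw [← hc] at h1
    simp at h1
  obtain ⟨χ, hχB, hχ⟩ := Cfsg.Agent.Lib.BlockQ.exists_minExp (p := p) hB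
  have h1 := Cfsg.Agent.Lib.BlockQ.card_factorization_eq (p := p) hB
  rw [h0, zero_add, ← hχ] at h1
  refine ⟨χ, ?_, ?_⟩
  · obtain ⟨χ₀, rfl⟩ := id hB
    exact (Cfsg.Agent.Lib.BlockIdem.blockOf_eq_of_mem hχB).symm
  · have hdvd := Cfsg.Agent.Lib.CharKernel.charDegree_dvd_card χ.2
    have hdeg := Cfsg.Agent.Lib.CharKernel.charDegree_ne_zero χ.2
    obtain ⟨k, hk⟩ := hdvd
    have hcard : Nat.card G ≠ 0 := Nat.card_pos.ne'
    have hkne : k ≠ 0 := by
      rintro rfl
      simp at hk
    rw [hk, Nat.mul_div_cancel_left _ (Nat.pos_of_ne_zero hdeg)]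
    rw [hk, Nat.factorization_mul hdeg hkne] at h1
    simp only [Finsupp.coe_add, Pi.add_apply] at h1
    have h2 : k.factorization p = 0 := by omega
    intro hd
    have := (hp.out.dvd_iff_one_le_factorization hkne).mp hd
    omega

/-- Conjugating a defect group of Sylow size to a given Sylow subgroup. -/
theorem defect_sylow_conj {B : Set (IrrCharacter G)} {D : Subgroup G}
    (hD : IsDefectGroup p M B D) (hDp : IsPGroup p D) (hDi : ¬ p ∣ D.index) (P : Sylow p G) :
    IsDefectGroup p M B P := by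
  classical
  letI := Fintype.ofFinite G
  let Q : Sylow p G := hDp.toSylow hDi
  obtain ⟨g, hg⟩ := MulAction.exists_smul_eq G Q P
  have h := Cfsg.Agent.Lib.BlockDefect.IsDefectGroup.conj hD g
  have e : D.map (MulAut.conj g).toMonoidHom = (P : Subgroup G) := by
    rw [← hg]
    rfl
  rwa [e] at h

/-- The counting of blocks, assuming the dichotomy for defect groups and the uniqueness and
existence of the character of defect zero. -/
theorem card_blocks_general (hM : IsPModular p M)
    (hdich : ∀ B : Set (IrrCharacter G), IsPBlock M B → ∀ D, IsDefectGroup p M B D → D ≠ ⊥ →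
      IsPGroup p D ∧ ¬ p ∣ D.index)
    (hexists : ∃ χ : IrrCharacter G, ¬ p ∣ Nat.card G / charDegree (χ : G → ℂ))
    (hunique : ∀ χ χ' : IrrCharacter G, ¬ p ∣ Nat.card G / charDegree (χ : G → ℂ) →
      ¬ p ∣ Nat.card G / charDegree (χ' : G → ℂ) → χ = χ')
    (hpG : p ∣ Nat.card G) (P : Sylow p G) :
    Nat.card {B : Set (IrrCharacter G) // IsPBlock M B} =
      Nat.card {B : Set (IrrCharacter G) // IsPBlock M B ∧ IsDefectGroup p M B P} + 1 := by
  classical
  letI := Fintype.ofFinite G
  haveI := hM.2.1.isPrime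
  obtain ⟨χ₀, hχ₀⟩ := hexists
  set B₀ : Set (IrrCharacter G) := blockOf M (χ₀ : G → ℂ) with hB₀
  have hB₀s : B₀ = {χ₀} := (Cfsg.Agent.S0914.result p M hM χ₀).mp hχ₀
  have hB₀b : IsPBlock M B₀ := ⟨χ₀, rfl⟩
  have hPne : ((P : Subgroup G)) ≠ ⊥ := by
    intro h
    have := P.not_dvd_index
    rw [h, Subgroup.index_bot] at this
    exact this hpG
  have hB₀n : ¬ IsDefectGroup p M B₀ P := by
    intro hd
    apply hPne
    have hc := Cfsg.Agent.Lib.BlockDefect.card_isDefectGroup hM hB₀b hd
    have h1 := Cfsg.Agent.Lib.BlockQ.card_factorization_eq (p := p) hB₀b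
    have h2 : Cfsg.Agent.Lib.BlockQ.minExp p B₀ = (charDegree (χ₀ : G → ℂ)).factorization p := by
      unfold Cfsg.Agent.Lib.BlockQ.minExp
      rw [hB₀s, Set.image_singleton, csInf_singleton]
    have h3 : (Nat.card G).factorization p ≤ (charDegree (χ₀ : G → ℂ)).factorization p := by
      have hdvd := Cfsg.Agent.Lib.CharKernel.charDegree_dvd_card χ₀.2
      have hdeg := Cfsg.Agent.Lib.CharKernel.charDegree_ne_zero χ₀.2
      obtain ⟨k, hk⟩ := hdvd
      have hcard : Nat.card G ≠ 0 := Nat.card_pos.ne'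
      have hkne : k ≠ 0 := by
        rintro rfl
        simp at hk
      have h4 := hχ₀
      rw [hk, Nat.mul_div_cancel_left _ (Nat.pos_of_ne_zero hdeg)] at h4
      rw [hk, Nat.factorization_mul hdeg hkne]
      simp only [Finsupp.coe_add, Pi.add_apply]
      rw [Nat.factorization_eq_zero_of_not_dvd h4, add_zero]
    have h5 : blockDefect p B₀ = 0 := by omega
    rw [h5, pow_zero] at hc
    exact Subgroup.card_eq_one.mp hc
  have hset : {B : Set (IrrCharacter G) | IsPBlock M B} =
      insert B₀ {B : Set (IrrCharacter G) | IsPBlock M B ∧ IsDefectGroup p M B P} := by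
    ext B
    simp only [Set.mem_ofPred_eq, Set.mem_insert_iff]
    constructor
    · intro hB
      obtain ⟨D, hD⟩ := Cfsg.Agent.Lib.BlockDefect.exists_isDefectGroup hM hB
      by_cases hDb : D = ⊥
      · subst hDb
        obtain ⟨χ, hχB, hχ⟩ := exists_defect_zero_of_bot hM hB hD
        left
        rw [hχB, hunique χ χ₀ hχ hχ₀]
      · obtain ⟨h1, h2⟩ := hdich B hB D hD hDb
        right
        exact ⟨hB, defect_sylow_conj hD h1 h2 P⟩
    · rintro (rfl | h)
      · exact hB₀b
      · exact h.1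
  have hfin : {B : Set (IrrCharacter G) | IsPBlock M B ∧ IsDefectGroup p M B P}.Finite := Set.toFinite _
  have e1 : Nat.card {B : Set (IrrCharacter G) // IsPBlock M B} =
      ({B : Set (IrrCharacter G) | IsPBlock M B}).ncard := Nat.card_coe_set_eq _
  have e2 : Nat.card {B : Set (IrrCharacter G) // IsPBlock M B ∧ IsDefectGroup p M B P} =
      ({B : Set (IrrCharacter G) | IsPBlock M B ∧ IsDefectGroup p M B P}).ncard :=
    Nat.card_coe_set_eq _
  rw [e1, e2, hset, Set.ncard_insert_of_notMem _ hfin]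
  rintro ⟨-, h⟩
  exact hB₀n h

end general

section SLnSec

variable {n : ℕ} {F : Type*} [Field F] [Fintype F] {p : ℕ} [hp : Fact p.Prime] [CharP F p]
  {M : Ideal AlgInt}

local notation "SLn" => Matrix.SpecialLinearGroup (Fin n) F

lemma scalar_mem_center {g : SLn} {c : F} (hc : (g : Matrix (Fin n) (Fin n) F) = c • 1) :
    g ∈ Subgroup.center SLn := by
  rw [Subgroup.mem_center_iff]
  intro x
  apply Subtype.ext
  rw [Matrix.SpecialLinearGroup.coe_mul, Matrix.SpecialLinearGroup.coe_mul, hc]
  simp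

/-- **The dichotomy for defect groups of `SL_n(q)`.** -/
theorem defect_dichotomy (hM : IsPModular p M) (B : Set (IrrCharacter SLn)) (hB : IsPBlock M B)
    (D : Subgroup SLn) (hD : IsDefectGroup p M B D) (hne : D ≠ ⊥) : IsPGroup p D ∧ ¬ p ∣ D.index := by
  classical
  obtain ⟨g, hg, P, hPD⟩ := id hD
  have hreg := Cfsg.Agent.Lib.BlkDefect.regular_of_isDefectClass hM hB hg
  have hrad := Cfsg.Agent.S0955.result p M hM B hB D hD
  have hDp : IsPGroup p D := by
    rw [hPD]
    exact P.isPGroup'.map _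
  have hcent : g ∈ Subgroup.centralizer (D : Set SLn) := by
    rw [Subgroup.mem_centralizer_iff]
    intro d hd
    rw [hPD] at hd
    obtain ⟨x, -, rfl⟩ := hd
    have := x.2
    rw [Subgroup.mem_centralizer_singleton_iff] at this
    exact this
  obtain ⟨c, hc⟩ := Cfsg.Agent.Lib.SLnRadical50.scalar_of_radical hDp hne hrad hcent hreg
  refine ⟨hDp, ?_⟩
  have hz := scalar_mem_center hc
  have htop : Subgroup.centralizer ({g} : Set SLn) = ⊤ := by
    rw [eq_top_iff]
    intro x _
    rw [Subgroup.mem_centralizer_singleton_iff]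
    exact (Subgroup.mem_center_iff.mp hz x)
  have h1 : (Subgroup.centralizer ({g} : Set SLn)).index = 1 := by
    rw [htop, Subgroup.index_top]
  rw [hPD, Subgroup.index_map_subtype, h1, mul_one]
  exact P.not_dvd_index

/-- `p` divides the order of `SL_n(q)`, `n ≥ 2`. -/
theorem dvd_card (hn : 2 ≤ n) : p ∣ Nat.card SLn := by
  obtain ⟨χ, hχ⟩ := Cfsg.Agent.Lib.SLnSteinberg50.exists_steinberg (F := F) p (n := n) (by omega)
  have hdvd := Cfsg.Agent.Lib.CharKernel.charDegree_dvd_card χ.2
  have h1 : charDegree (χ : SLn → ℂ) = Fintype.card F ^ (∑ i ∈ Finset.range n, i) := by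
    unfold charDegree
    rw [hχ]
    simp only [Complex.natCast_re]
    exact Nat.floor_natCast _
  rw [h1] at hdvd
  refine dvd_trans ?_ hdvd
  refine dvd_trans (Cfsg.Agent.Lib.SLnSteinberg50.p_dvd_card) (dvd_pow_self _ ?_)
  have h2 : 1 ≤ ∑ i ∈ Finset.range n, i :=
    Finset.single_le_sum (f := fun i => i) (fun _ _ => Nat.zero_le _) (Finset.mem_range.mpr (by omega : 1 < n))
  omega

/-- The classes of `p'`-elements of `N(P)` centralizing a Sylow subgroup `P` of `SL_n(q)`. -/
theorem card_classes (hn : 2 ≤ n) (P : Sylow p SLn) :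
    Nat.card {C : ConjClasses (Subgroup.normalizer ((P : Subgroup SLn) : Set SLn)) //
      ∀ x : Subgroup.normalizer ((P : Subgroup SLn) : Set SLn), ConjClasses.mk x = C →
        ¬ p ∣ orderOf x ∧ (x : SLn) ∈ Subgroup.centralizer ((P : Subgroup SLn) : Set SLn)} =
      Nat.gcd n (Fintype.card F - 1) := by
  classical
  haveI : Nonempty (Fin n) := ⟨⟨0, by omega⟩⟩
  have h0 := Cfsg.Agent.Lib.ClassicalCore.card_center_SL (n := Fin n) (F := F)
  rw [Fintype.card_fin] at h0
  rw [← h0]
  have hPne : ((P : Subgroup SLn)) ≠ ⊥ := by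
    intro h
    have := P.not_dvd_index
    rw [h, Subgroup.index_bot] at this
    exact this (dvd_card hn)
  set N := Subgroup.normalizer ((P : Subgroup SLn) : Set SLn) with hN
  -- central elements are `p`-regular
  have hreg : ∀ z : SLn, z ∈ Subgroup.center SLn → ¬ p ∣ orderOf z := by
    intro z hz hd
    obtain ⟨r, hr1, hr⟩ := Matrix.SpecialLinearGroup.mem_center_iff.mp hz
    have hr0 : r ≠ 0 := by
      rintro rfl
      rw [Fintype.card_fin, zero_pow (by omega)] at hr1
      exact zero_ne_one hr1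
    have hzq : z ^ (Fintype.card F - 1) = 1 := by
      apply Subtype.ext
      rw [Matrix.SpecialLinearGroup.coe_pow, ← hr, ← map_pow, FiniteField.pow_card_sub_one_eq_one r hr0]
      simp
    have h1 : p ∣ Fintype.card F - 1 := dvd_trans hd (orderOf_dvd_of_pow_eq_one hzq)
    have h2 : p ∣ Fintype.card F := Cfsg.Agent.Lib.SLnSteinberg50.p_dvd_card
    have hq2 : 2 ≤ Fintype.card F := Fintype.one_lt_card
    have h3 : p ∣ 1 := by
      have := Nat.dvd_sub h2 h1
      rwa [Nat.sub_sub_self (by omega)] at this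
    exact hp.out.one_lt.ne' (Nat.dvd_one.mp h3)
  have hcN : ∀ z : SLn, z ∈ Subgroup.center SLn → z ∈ N := by
    intro z hz
    rw [hN, Subgroup.mem_normalizer_iff]
    intro h
    have e : z * h * z⁻¹ = h := by
      rw [← Subgroup.mem_center_iff.mp hz h]
      group
    rw [e]
  have hconj : ∀ (z : SLn) (hz : z ∈ Subgroup.center SLn) (x : N),
      ConjClasses.mk x = ConjClasses.mk (⟨z, hcN z hz⟩ : N) → x = ⟨z, hcN z hz⟩ := by
    intro z hz x hx
    obtain ⟨c, hc⟩ := isConj_iff.mp (ConjClasses.mk_eq_mk_iff_isConj.mp hx)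
    have h1 : (x : SLn) = (c : SLn)⁻¹ * z * c := by
      have h2 := congrArg Subtype.val hc
      simp only [Subgroup.coe_mul, Subgroup.coe_inv] at h2
      rw [← h2]
      group
    apply Subtype.ext
    rw [h1]
    change (c : SLn)⁻¹ * z * (c : SLn) = z
    rw [mul_assoc, ← Subgroup.mem_center_iff.mp hz (c : SLn)]
    group
  let f : Subgroup.center SLn → {C : ConjClasses N //
      ∀ x : N, ConjClasses.mk x = C →
        ¬ p ∣ orderOf x ∧ (x : SLn) ∈ Subgroup.centralizer ((P : Subgroup SLn) : Set SLn)} :=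
    fun z => ⟨ConjClasses.mk (⟨z, hcN z z.2⟩ : N), by
      intro x hx
      have e := hconj z z.2 x hx
      subst e
      refine ⟨?_, ?_⟩
      · rw [← Subgroup.orderOf_coe]
        exact hreg z z.2
      · rw [Subgroup.mem_centralizer_iff]
        intro h _
        exact Subgroup.mem_center_iff.mp z.2 h⟩
  symm
  apply Nat.card_congr
  refine Equiv.ofBijective f ⟨?_, ?_⟩
  · intro z z' h
    have h1 := congrArg Subtype.val h
    have h2 := hconj z' z'.2 (⟨z, hcN z z.2⟩ : N) h1
    have h3 : (z : SLn) = (z' : SLn) := congrArg (fun y : N => (y : SLn)) h2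
    exact Subtype.ext h3
  · rintro ⟨C, hC⟩
    obtain ⟨x, rfl⟩ := ConjClasses.mk_surjective C
    obtain ⟨h1, h2⟩ := hC x rfl
    rw [← Subgroup.orderOf_coe] at h1
    obtain ⟨c, hc⟩ := Cfsg.Agent.Lib.SLnRadical50.scalar_of_radical (F := F) (p := p) P.isPGroup' hPne
      (radical_of_sylow P) h2 h1
    exact ⟨⟨x, scalar_mem_center hc⟩, Subtype.ext rfl⟩

end SLnSec

end Cfsg.Agent.Lib.SLnBlocks50
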