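import Mathlib
import Cfsg.Prelude.Def_Blocks
import Cfsg.Agent.Lib.SL2Blocks
import Cfsg.Agent.Lib.SLnBlocks50

/-!
# Uniqueness of the character of `p`-defect zero of `SL_n(q)`, all `n ≥ 2`, all `q`
-/

set_option autoImplicit false

namespace Cfsg.Agent.Lib.SLnUnique50

open Matrix Cfsg

variable {n : ℕ} {F : Type*} [Field F] [Fintype F] {p : ℕ} [hp : Fact p.Prime] [CharP F p]

/-- **Uniqueness of the defect-zero character of `SL_n(q)`.** -/
theorem unique_defect_zero (hn : 2 ≤ n) (χ χ' : IrrCharacter (Matrix.SpecialLinearGroup (Fin n) F))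
    (h : ¬ p ∣ Nat.card (Matrix.SpecialLinearGroup (Fin n) F) /
      charDegree (χ : Matrix.SpecialLinearGroup (Fin n) F → ℂ))
    (h' : ¬ p ∣ Nat.card (Matrix.SpecialLinearGroup (Fin n) F) /
      charDegree (χ' : Matrix.SpecialLinearGroup (Fin n) F → ℂ)) : χ = χ' := by
  classical
  have hpp : p.Prime := hp.out
  by_cases h3 : 3 ≤ n
  · exact Cfsg.Agent.Lib.SLnBorel50.unique_vanish p (by omega) (Or.inl h3) χ χ'
      (Cfsg.Agent.Lib.SLnSteinberg50.vanish_of_not_dvd hpp χ h)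
      (Cfsg.Agent.Lib.SLnSteinberg50.vanish_of_not_dvd hpp χ' h')
  · obtain rfl : n = 2 := by omega
    have hpG := Cfsg.Agent.Lib.SLnBlocks50.dvd_card (F := F) (p := p) (n := 2) hn
    have key : ∀ ψ : IrrCharacter (Matrix.SpecialLinearGroup (Fin 2) F),
        ¬ p ∣ Nat.card (Matrix.SpecialLinearGroup (Fin 2) F) /
          charDegree (ψ : Matrix.SpecialLinearGroup (Fin 2) F → ℂ) →
        (ψ : Matrix.SpecialLinearGroup (Fin 2) F → ℂ) = Cfsg.Agent.Lib.SL2Char.stS := by
      intro ψ hψ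
      apply Cfsg.Agent.Lib.SL2Char.eq_stS_of_deg ψ.2
      by_contra hne
      have hnd := Cfsg.Agent.Lib.SL2Blocks.not_dvd_deg (p := p) ψ hne
      obtain ⟨k, hk⟩ := Cfsg.Agent.Lib.CharKernel.charDegree_dvd_card ψ.2
      have hdeg := Cfsg.Agent.Lib.CharKernel.charDegree_pos ψ.2
      rw [hk, Nat.mul_div_cancel_left _ hdeg] at hψ
      rw [hk] at hpG
      rcases hpp.dvd_mul.mp hpG with h1 | h1
      · exact hnd h1
      · exact hψ h1
    exact Subtype.ext ((key χ h).trans (key χ' h').symm)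

end Cfsg.Agent.Lib.SLnUnique50
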