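import Mathlib
import Cfsg.Agent.Lib.SUGen
import Cfsg.Agent.Lib.SUOrth
import Cfsg.Agent.Lib.SU3Sylow

/-!
# Two conjugate regular unipotent elements generating `SU₃(q)`: the criterion
-/

set_option autoImplicit false
set_option linter.unusedSectionVars false
set_option linter.unusedSimpArgs false
set_option linter.unusedVariables false

namespace Cfsg.Agent.Lib.SU3Reg

open Module Matrix Cfsg Cfsg.Agent.Lib.UnitaryBasic Cfsg.Agent.Lib.UnitarySU
  Cfsg.Agent.Lib.UnitaryConj Cfsg.Agent.Lib.UnitaryE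
  Cfsg.Agent.Lib.HermForm Cfsg.Agent.Lib.HermCount Cfsg.Agent.Lib.GUParab Cfsg.Agent.Lib.SUGen

variable {F : Type*} [Field F] [Fintype F] {q n : ℕ}

section Calc

variable (hF : Fintype.card F = q ^ 2)
include hF

/-- Changing the isotropic vector of a root element by a scalar. -/
theorem IsE.scale {B : SU n F q} {ρ : F} (hρ : ρ ≠ 0) {v y : Fin n → F} {s : F}
    (h : IsE B (ρ • v) y s) : IsE B v (ρ ^ q • y) (ρ * ρ ^ q * s) := by
  have hρq : ρ ^ q ≠ 0 := pow_ne_zero _ hρ
  have hvv : hermForm n F q v v = 0 := by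
    have := h.hvv
    rw [hermForm_smul_left, hermForm_smul_right] at this
    have h2 : ρ * ρ ^ q ≠ 0 := mul_ne_zero hρ hρq
    have h3 : ρ * ρ ^ q * hermForm n F q v v = 0 := by linear_combination this
    exact (mul_eq_zero.mp h3).resolve_left h2
  have hyv : hermForm n F q y v = 0 := by
    have := h.hyv
    rw [hermForm_smul_right] at this
    exact (mul_eq_zero.mp this).resolve_left hρq
  refine ⟨hvv, ?_, ?_, ?_⟩
  · rw [hermForm_smul_left, hyv, mul_zero]
  · have h1 := h.hs
    have h2 : (ρ * ρ ^ q * s) ^ q = ρ * ρ ^ q * s ^ q := by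
      rw [mul_pow, mul_pow, pow_q_pow_q hF]
      ring
    rw [h2, hermForm_smul_left, hermForm_smul_right, pow_q_pow_q hF]
    linear_combination ρ * ρ ^ q * h1
  · intro x
    rw [h.act_eq]
    simp only [hermForm_smul_right, pow_q_pow_q hF]
    module

/-- Changing the vector of a root element by a multiple of the isotropic vector. -/
theorem IsE.shift {B : SU n F q} {v y : Fin n → F} {s l : F} (h : IsE B v (y + l • v) s) :
    IsE B v y (s + l - l ^ q) := by
  have hvv := h.hvv
  have hyv : hermForm n F q y v = 0 := by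
    have := h.hyv
    rwa [hermForm_add_left, hermForm_smul_left, hvv, mul_zero, add_zero] at this
  have hvy : hermForm n F q v y = 0 := conj_zero hF hyv
  refine ⟨hvv, hyv, ?_, ?_⟩
  · have h1 := h.hs
    rw [hermForm_add_left, hermForm_add_right hF, hermForm_add_right hF, hermForm_smul_left,
      hermForm_smul_left, hermForm_smul_right, hermForm_smul_right, hvv, hyv, hvy] at h1
    rw [HermForm.sub_pow_q hF, HermForm.add_pow_q hF, pow_q_pow_q hF]
    linear_combination h1
  · intro x
    rw [h.act_eq, hermForm_add_right hF, hermForm_smul_right]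
    module

/-- `IsE` for a zero `y` and trace-zero parameter. -/
theorem IsE.one_of (v : Fin n → F) (hvv : hermForm n F q v v = 0) : IsE (1 : SU n F q) v 0 0 := by
  have hq : q ≠ 0 := by
    have := HermCount.two_le_q hF
    omega
  refine ⟨hvv, hermForm_zero_left _, ?_, ?_⟩
  · rw [hermForm_zero_left, zero_pow hq]
    ring
  · intro x
    rw [act_one, hermForm_zero_right hF]
    simp

/-- A root element with trivial `y` and parameter with zero trace at the zero vector is trivial. -/
theorem eq_one_of_zero_vec {A : SU n F q} {c : F} (h : IsE A 0 0 c) : A = 1 := by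
  apply SU_ext
  intro x
  rw [h.act_eq, act_one, hermForm_zero_right hF]
  simp

end Calc

section Frame

/-- A frame: a hyperbolic pair `(v, w)` and a unit vector orthogonal to it. -/
structure Frame (q : ℕ) (v n₀ w : Fin 3 → F) : Prop where
  hvv : hermForm 3 F q v v = 0
  hww : hermForm 3 F q w w = 0
  hwv : hermForm 3 F q w v = 1
  hnn : hermForm 3 F q n₀ n₀ = 1
  hnv : hermForm 3 F q n₀ v = 0
  hnw : hermForm 3 F q n₀ w = 0

variable {v n₀ w : Fin 3 → F}

variable (hF : Fintype.card F = q ^ 2)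
include hF

theorem Frame.hvw (fr : Frame q v n₀ w) : hermForm 3 F q v w = 1 := by
  rw [← herm_conj hF w v, fr.hwv, one_pow]

theorem Frame.hvn (fr : Frame q v n₀ w) : hermForm 3 F q v n₀ = 0 := conj_zero hF fr.hnv

theorem Frame.hwn (fr : Frame q v n₀ w) : hermForm 3 F q w n₀ = 0 := conj_zero hF fr.hnw

theorem Frame.swap (fr : Frame q v n₀ w) : Frame q w n₀ v :=
  ⟨fr.hww, fr.hvv, fr.hvw hF, fr.hnn, fr.hnw, fr.hnv⟩

theorem Frame.li (fr : Frame q v n₀ w) (x : Fin 3 → F) (hx : x 0 • v + x 1 • n₀ + x 2 • w = 0) :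
    x = 0 := by
  have h1 := congrArg (fun z => hermForm 3 F q z w) hx
  have h2 := congrArg (fun z => hermForm 3 F q z n₀) hx
  have h3 := congrArg (fun z => hermForm 3 F q z v) hx
  simp only [hermForm_add_left, hermForm_smul_left, fr.hvw hF, fr.hww, fr.hnw, fr.hvn hF, fr.hnn,
    fr.hwn hF, fr.hvv, fr.hwv, fr.hnv, hermForm_zero_left] at h1 h2 h3
  funext i
  fin_cases i
  · simpa using h1
  · simpa using h2
  · simpa using h3

theorem Frame.dec (fr : Frame q v n₀ w) (z : Fin 3 → F) :
    z = hermForm 3 F q z w • v + hermForm 3 F q z n₀ • n₀ + hermForm 3 F q z v • w := by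
  have hLI : LinearIndependent F ![v, n₀, w] := by
    rw [Fintype.linearIndependent_iff]
    intro g hg i
    have := fr.li hF g (by simpa [Fin.sum_univ_three] using hg)
    rw [this]
    rfl
  have hfin := finrank_perpT hF hLI
  have hbot : perpT q ![v, n₀, w] = ⊥ := by
    apply Submodule.finrank_eq_zero.1
    omega
  obtain ⟨y, hy⟩ : ∃ y, y = z - (hermForm 3 F q z w • v + hermForm 3 F q z n₀ • n₀ + hermForm 3 F q z v • w) :=
    ⟨_, rfl⟩
  have hmem : y ∈ perpT q ![v, n₀, w] := by
    refine mem_perpT.2 (fun i => ?_)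
    fin_cases i
    · change hermForm 3 F q y v = 0
      rw [hy]
      simp only [hermForm_sub_left, hermForm_add_left, hermForm_smul_left, fr.hvv, fr.hnv, fr.hwv]
      ring
    · change hermForm 3 F q y n₀ = 0
      rw [hy]
      simp only [hermForm_sub_left, hermForm_add_left, hermForm_smul_left, fr.hvn hF, fr.hnn,
        fr.hwn hF]
      ring
    · change hermForm 3 F q y w = 0
      rw [hy]
      simp only [hermForm_sub_left, hermForm_add_left, hermForm_smul_left, fr.hvw hF, fr.hnw, fr.hww]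
      ring
  rw [hbot] at hmem
  have h0 : y = 0 := hmem
  rw [hy, sub_eq_zero] at h0
  exact h0

theorem exists_frame : ∃ v n₀ w : Fin 3 → F, Frame q v n₀ w := by
  have hq := HermCount.two_le_q hF
  obtain ⟨c, hc0, hc⟩ := exists_norm hF (-1 : F) (neg_ne_zero.2 one_ne_zero) (by
    rw [HermForm.neg_pow_q hF, one_pow])
  have hq0 : q ≠ 0 := by omega
  let v : Fin 3 → F := ![1, 0, c]
  let n₀ : Fin 3 → F := ![0, 1, 0]
  have hvv : hermForm 3 F q v v = 0 := by
    simp only [hermForm, Fin.sum_univ_three, v]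
    simp [zero_pow hq0]
    linear_combination hc
  have hnn : hermForm 3 F q n₀ n₀ = 1 := by
    simp only [hermForm, Fin.sum_univ_three, n₀]
    simp [zero_pow hq0]
  have hnv : hermForm 3 F q v n₀ = 0 := by
    simp only [hermForm, Fin.sum_univ_three, v, n₀]
    simp [zero_pow hq0]
  have hnv' : hermForm 3 F q n₀ v = 0 := by
    simp only [hermForm, Fin.sum_univ_three, v, n₀]
    simp [zero_pow hq0]
  have hLI : LinearIndependent F ![n₀] := by
    apply li_single hF
    intro h0
    have := congrFun h0 1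
    simp [n₀] at this
  have hnot : v ∉ Submodule.span F (Set.range ![n₀]) := by
    intro hmem
    have : Set.range ![n₀] = {n₀} := by simp
    rw [this, Submodule.mem_span_singleton] at hmem
    obtain ⟨a, ha⟩ := hmem
    have := congrFun ha 0
    simp [v, n₀] at this
  obtain ⟨w, hww, hwv, hwn⟩ := exists_partner hF hvv hLI (fun i => by
    fin_cases i
    exact hnv) hnot
  have hwn' : hermForm 3 F q w n₀ = 0 := hwn 0
  exact ⟨v, n₀, w, hvv, hww, hwv, hnn, hnv', conj_zero hF hwn'⟩

end Frame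

section Elements

variable {v n₀ w : Fin 3 → F}

variable (hF : Fintype.card F = q ^ 2)
include hF

theorem hs_of_frame (fr : Frame q v n₀ w) {a s : F} (h : s + s ^ q + a * a ^ q = 0) :
    s + s ^ q + hermForm 3 F q (a • n₀) (a • n₀) = 0 := by
  rw [hermForm_smul_left, hermForm_smul_right, fr.hnn, mul_one]
  exact h

theorem exists_x (fr : Frame q v n₀ w) {a s : F} (h : s + s ^ q + a * a ^ q = 0) :
    ∃ x : SU 3 F q, IsE x v (a • n₀) s :=
  exists_IsE hF fr.hvv (by rw [hermForm_smul_left, fr.hnv, mul_zero]) (hs_of_frame hF fr h)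

theorem act_v (fr : Frame q v n₀ w) {B : SU 3 F q} {a s : F} (h : IsE B v (a • n₀) s) :
    act B v = v := by
  rw [h.act_eq, fr.hvv, hermForm_smul_right, fr.hvn hF]
  simp

theorem act_n (fr : Frame q v n₀ w) {B : SU 3 F q} {a s : F} (h : IsE B v (a • n₀) s) :
    act B n₀ = n₀ - a ^ q • v := by
  rw [h.act_eq, fr.hnv, hermForm_smul_right, fr.hnn]
  simp

theorem act_w (fr : Frame q v n₀ w) {B : SU 3 F q} {a s : F} (h : IsE B v (a • n₀) s) :
    act B w = w + a • n₀ + s • v := by
  rw [h.act_eq, fr.hwv, hermForm_smul_right, fr.hwn hF]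
  simp only [one_smul, mul_zero, zero_smul, sub_zero]
  module

/-- The regularity of a root element with non-zero `a`. -/
theorem reg_x (fr : Frame q v n₀ w) {x : SU 3 F q} {a s : F} (ha : a ≠ 0) (hx : IsE x v (a • n₀) s) :
    IsNilpotent (((x : Matrix.SpecialLinearGroup (Fin 3) F) : Matrix (Fin 3) (Fin 3) F) - 1) ∧
      (((x : Matrix.SpecialLinearGroup (Fin 3) F) : Matrix (Fin 3) (Fin 3) F) - 1) ^ (3 - 1) ≠ 0 := by
  set X : Matrix (Fin 3) (Fin 3) F := ((x : Matrix.SpecialLinearGroup (Fin 3) F) : Matrix (Fin 3) (Fin 3) F) with hX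
  have hact : ∀ z, X *ᵥ z = act x z := fun _ => rfl
  have hN : ∀ z, (X - 1) *ᵥ z = act x z - z := by
    intro z
    rw [sub_mulVec, one_mulVec, hact]
  have h1 : (X - 1) *ᵥ v = 0 := by rw [hN, act_v hF fr hx, sub_self]
  have h2 : (X - 1) *ᵥ n₀ = - a ^ q • v := by
    rw [hN, act_n hF fr hx]
    module
  have h3 : (X - 1) *ᵥ w = a • n₀ + s • v := by
    rw [hN, act_w hF fr hx]
    module
  have h4 : ((X - 1) ^ 2) *ᵥ w = - (a * a ^ q) • v := by
    rw [pow_two, ← mulVec_mulVec, h3, mulVec_add, mulVec_smul, mulVec_smul, h2, h1]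
    module
  have hv0 : v ≠ 0 := by
    intro h0
    have := fr.hwv
    rw [h0, hermForm_zero_right hF] at this
    exact zero_ne_one this
  constructor
  · refine ⟨3, ?_⟩
    apply Matrix.mulVec_injective
    funext z
    rw [zero_mulVec, pow_succ, ← mulVec_mulVec, pow_two, ← mulVec_mulVec]
    nth_rw 1 [fr.dec hF z]
    simp only [mulVec_add, mulVec_smul, h1, h2, h3, smul_zero, smul_add, add_zero, smul_neg, neg_smul,
      mulVec_neg, zero_add, smul_smul, mulVec_zero, neg_zero]
  · intro h0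
    have : ((X - 1) ^ (3 - 1)) *ᵥ w = 0 := by rw [h0, zero_mulVec]
    rw [show 3 - 1 = 2 from rfl, h4, smul_eq_zero] at this
    rcases this with h | h
    · exact (mul_ne_zero ha (pow_ne_zero _ ha)) (neg_eq_zero.mp h)
    · exact hv0 h

end Elements

section Monomial

variable {v n₀ w : Fin 3 → F}

variable (hF : Fintype.card F = q ^ 2)
include hF

/-- The monomial element exchanging the hyperbolic pair. -/
theorem exists_mono (fr : Frame q v n₀ w) {μ : F} (hμ : μ ≠ 0) :
    ∃ g : SU 3 F q, act g v = μ • w ∧ act g n₀ = (- μ ^ q / μ) • n₀ ∧ act g w = (μ ^ q)⁻¹ • v := by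
  have hμq : μ ^ q ≠ 0 := pow_ne_zero _ hμ
  set ν : F := - μ ^ q / μ with hν
  have hνν : ν * ν ^ q = 1 := by
    rw [hν, div_pow, HermForm.neg_pow_q hF, pow_q_pow_q hF]
    field_simp
  have hμμ : ∀ z : F, (μ ^ q)⁻¹ ^ q = μ⁻¹ := by
    intro z
    rw [inv_pow, pow_q_pow_q hF]
  let cj : (Fin 3 → F) → (Fin 3 → F) := fun z i => z i ^ q
  have hdot : ∀ a b : Fin 3 → F, cj a ⬝ᵥ b = hermForm 3 F q b a := by
    intro a b
    simp only [cj, dotProduct, hermForm]
    exact Finset.sum_congr rfl (fun i _ => mul_comm _ _)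
  let M : Matrix (Fin 3) (Fin 3) F := vecMulVec (μ • w) (cj w) + ν • vecMulVec n₀ (cj n₀) +
    (μ ^ q)⁻¹ • vecMulVec v (cj v)
  have hM : ∀ z, M *ᵥ z = hermForm 3 F q z w • (μ • w) + hermForm 3 F q z n₀ • (ν • n₀) +
      hermForm 3 F q z v • ((μ ^ q)⁻¹ • v) := by
    intro z
    simp only [M, add_mulVec, smul_mulVec, vecMulVec_mulVec, hdot]
    simp only [op_smul_eq_smul]
    module
  have hMv : M *ᵥ v = μ • w := by
    rw [hM, fr.hvw hF, fr.hvn hF, fr.hvv]
    simp
  have hMn : M *ᵥ n₀ = ν • n₀ := by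
    rw [hM, fr.hnw, fr.hnn, fr.hnv]
    simp
  have hMw : M *ᵥ w = (μ ^ q)⁻¹ • v := by
    rw [hM, fr.hww, fr.hwn hF, fr.hwv]
    simp
  have hpres : ∀ a b, hermForm 3 F q (M *ᵥ a) (M *ᵥ b) = hermForm 3 F q a b := by
    intro a b
    have hab : hermForm 3 F q a b = hermForm 3 F q a w * (hermForm 3 F q b v) ^ q +
        hermForm 3 F q a n₀ * (hermForm 3 F q b n₀) ^ q + hermForm 3 F q a v * (hermForm 3 F q b w) ^ q := by
      have := congrArg (fun z => hermForm 3 F q z b) (fr.dec hF a)
      simp only [hermForm_add_left, hermForm_smul_left] at this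
      rw [this, herm_conj hF, herm_conj hF, herm_conj hF]
    rw [hM, hM, hab]
    generalize hermForm 3 F q a w = a₁
    generalize hermForm 3 F q a n₀ = a₂
    generalize hermForm 3 F q a v = a₃
    generalize hermForm 3 F q b w = b₁
    generalize hermForm 3 F q b n₀ = b₂
    generalize hermForm 3 F q b v = b₃
    simp only [hermForm_add_left, hermForm_add_right hF, hermForm_smul_left, hermForm_smul_right,
      fr.hvv, fr.hww, fr.hvw hF, fr.hwv, fr.hnn, fr.hnv, fr.hnw, fr.hvn hF, fr.hwn hF, mul_zero, mul_one,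
      zero_mul, add_zero, zero_add, inv_pow, pow_q_pow_q hF, mul_pow]
    have e1 : a₁ * (μ * (b₃ ^ q * μ⁻¹)) = a₁ * b₃ ^ q := by
      field_simp
    have e3 : a₃ * ((μ ^ q)⁻¹ * (b₁ ^ q * μ ^ q)) = a₃ * b₁ ^ q := by
      field_simp
    have e2 : a₂ * (ν * (b₂ ^ q * ν ^ q)) = a₂ * b₂ ^ q := by
      linear_combination a₂ * b₂ ^ q * hνν
    linear_combination e1 + e2 + e3
  have hdet : M.det = 1 := by
    have hU : IsUnit (SU3Sylow.col3 v n₀ w) := SU3Sylow.isUnit_col3 v n₀ w (fr.li hF)
    have h1 : M * SU3Sylow.col3 v n₀ w = SU3Sylow.col3 v n₀ w * !![0, 0, (μ ^ q)⁻¹; 0, ν, 0; μ, 0, 0] := by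
      rw [SU3Sylow.mul_col3, hMv, hMn, hMw]
      ext i j
      fin_cases j <;> simp [SU3Sylow.col3, Matrix.mul_apply, Fin.sum_univ_three, mul_comm]
    have h2 := congrArg Matrix.det h1
    rw [det_mul, det_mul, mul_comm] at h2
    have hU' : IsUnit (SU3Sylow.col3 v n₀ w).det := (isUnit_iff_isUnit_det _).mp hU
    have h3 := hU'.mul_left_cancel h2
    rw [h3, det_fin_three]
    simp only [of_apply, cons_val', cons_val_zero, cons_val_one, cons_val, cons_val_fin_one]
    rw [hν]
    field_simp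
    simp
  refine ⟨⟨⟨M, hdet⟩, hpres⟩, hMv, hMn, hMw⟩

end Monomial

end Cfsg.Agent.Lib.SU3Reg
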