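import Mathlib
import Cfsg.Agent.Lib.SU3Reg

/-!
# Two conjugate regular unipotent elements generating `SU₃(q)`: the criterion, continued
-/

set_option autoImplicit false
set_option linter.unusedSectionVars false
set_option linter.unusedSimpArgs false
set_option linter.unusedVariables false

namespace Cfsg.Agent.Lib.SU3Reg

open Module Matrix Cfsg Cfsg.Agent.Lib.UnitaryBasic Cfsg.Agent.Lib.UnitarySU
  Cfsg.Agent.Lib.UnitaryConj Cfsg.Agent.Lib.UnitaryE
  Cfsg.Agent.Lib.HermForm Cfsg.Agent.Lib.HermCount Cfsg.Agent.Lib.GUParab Cfsg.Agent.Lib.SUGen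

variable {F : Type*} [Field F] [Fintype F] {q : ℕ}

section Conj

variable {v n₀ w : Fin 3 → F}

variable (hF : Fintype.card F = q ^ 2)
include hF

/-- Conjugacy of the two root elements. -/
theorem exists_conj (fr : Frame q v n₀ w) {A s C β μ : F} (hC0 : C ≠ 0) {x y : SU 3 F q}
    (hx : IsE x v (A • n₀) s) (hy : IsE y w (C • n₀) β) (hμ : μ ≠ 0)
    (hC : C * μ = - (μ ^ q) ^ 2 * A) : ∃ g : SU 3 F q, g * x * g⁻¹ = y := by
  obtain ⟨g₁, h1, h2, h3⟩ := exists_mono hF fr hμ
  have hx₁ := IsE.conj hF hx g₁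
  rw [act_smul, h1, h2] at hx₁
  have hx₂ := IsE.scale hF hμ hx₁
  have e1 : μ ^ q • A • (- μ ^ q / μ) • n₀ = C • n₀ := by
    rw [smul_smul, smul_smul]
    congr 1
    field_simp
    linear_combination -hC
  rw [e1] at hx₂
  set s₂ := μ * μ ^ q * s with hs₂
  have ht1 := hx₂.hs
  have ht2 := hy.hs
  obtain ⟨l, hl⟩ := exists_sub_eq hF (c := β - s₂) (by
    rw [HermForm.sub_pow_q hF]
    linear_combination ht2 - ht1)
  -- the element of the unipotent group
  set c₀ : F := (l / C) ^ q with hc₀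
  have hc₀q : c₀ ^ q = l / C := by rw [hc₀, pow_q_pow_q hF]
  obtain ⟨s₀, hs₀⟩ := exists_trace_eq hF (t := - (c₀ * c₀ ^ q)) (by
    rw [HermForm.neg_pow_q hF, mul_pow, pow_q_pow_q hF]
    ring)
  obtain ⟨w₀, hw₀⟩ := exists_x hF (fr.swap hF) (a := c₀) (s := s₀) (by linear_combination hs₀)
  have h4 := IsE.conj hF hx₂ w₀
  rw [act_v hF (fr.swap hF) hw₀, act_smul, act_n hF (fr.swap hF) hw₀] at h4
  have e2 : C • (n₀ - c₀ ^ q • w) = C • n₀ + (-l) • w := by
    rw [hc₀q, smul_sub, smul_smul, sub_eq_add_neg, ← neg_smul]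
    congr 2
    field_simp
  rw [e2] at h4
  have h5 := IsE.shift hF h4
  have e3 : s₂ + -l - (-l) ^ q = β := by
    rw [HermForm.neg_pow_q hF]
    linear_combination hl
  rw [e3] at h5
  refine ⟨w₀ * g₁, ?_⟩
  have h6 := SUOrth.IsE.unique h5 hy
  rw [← h6]
  group

end Conj

section Field

/-- An additive subgroup of a finite field closed under multiplication by an element outside all
proper subfields is trivial or the whole field. -/
theorem addSubgroup_eq_top (S : AddSubgroup F) {χ : F} (hχ0 : χ ≠ 0) (hS : ∀ a ∈ S, χ * a ∈ S)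
    (hχ : ∀ k e : ℕ, 2 ≤ e → k ^ e = Fintype.card F → χ ^ (k - 1) ≠ 1) {A : F} (hA0 : A ≠ 0)
    (hA : A ∈ S) (z : F) : z ∈ S := by
  classical
  -- the ring of multipliers
  let K : Subfield F :=
    { carrier := {c | ∀ a ∈ S, c * a ∈ S}
      mul_mem' := by
        intro b c hb hc a ha
        rw [mul_assoc]
        exact hb _ (hc _ ha)
      one_mem' := by
        intro a ha
        rwa [one_mul]
      add_mem' := by
        intro b c hb hc a ha
        rw [add_mul]
        exact S.add_mem (hb _ ha) (hc _ ha)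
      zero_mem' := by
        intro a _
        rw [zero_mul]
        exact S.zero_mem
      neg_mem' := by
        intro b hb a ha
        rw [neg_mul]
        exact S.neg_mem (hb _ ha)
      inv_mem' := by
        intro c hc a ha
        by_cases hc0 : c = 0
        · rw [hc0, _root_.inv_zero, zero_mul]
          exact S.zero_mem
        · have h1 : ∀ m : ℕ, ∀ a ∈ S, c ^ m * a ∈ S := by
            intro m
            induction m with
            | zero =>
              intro a ha
              rwa [pow_zero, one_mul]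
            | succ m ih =>
              intro a ha
              rw [pow_succ, mul_assoc]
              exact ih _ (hc _ ha)
          have h2 : c⁻¹ = c ^ (Fintype.card F - 2) := by
            have h3 : 2 ≤ Fintype.card F := Fintype.one_lt_card
            have h4 : c ^ (Fintype.card F - 1) = 1 := FiniteField.pow_card_sub_one_eq_one c hc0
            rw [show Fintype.card F - 1 = (Fintype.card F - 2) + 1 by omega, pow_succ] at h4
            exact (eq_inv_of_mul_eq_one_left h4).symm
          rw [h2]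
          exact h1 _ _ ha }
  have hχK : χ ∈ K := fun a ha => hS a ha
  have htop : ∀ c : F, c ∈ K := by
    by_contra hcon
    push Not at hcon
    obtain ⟨c, hc⟩ := hcon
    letI : Fintype K := Fintype.ofFinite K
    have hcard : Fintype.card F = Fintype.card K ^ finrank K F := Module.card_eq_pow_finrank
    have he : 2 ≤ finrank K F := by
      by_contra h
      have h1 : finrank K F ≠ 0 := by
        intro h0
        rw [h0, pow_zero] at hcard
        have : 2 ≤ Fintype.card F := Fintype.one_lt_card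
        omega
      have h2 : finrank K F = 1 := by omega
      rw [h2, pow_one] at hcard
      have h3 : Fintype.card K < Fintype.card F :=
        Fintype.card_subtype_lt (p := fun x => x ∈ K) hc
      omega
    apply hχ (Fintype.card K) (finrank K F) he hcard.symm
    have h5 : (⟨χ, hχK⟩ : K) ^ (Fintype.card K - 1) = 1 :=
      FiniteField.pow_card_sub_one_eq_one _ (by
        intro h
        exact hχ0 (congrArg Subtype.val h))
    exact congrArg Subtype.val h5
  have := htop (z / A) A hA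
  rwa [div_mul_cancel₀ _ hA0] at this

end Field

section Crit

variable {v n₀ w : Fin 3 → F}

variable (hF : Fintype.card F = q ^ 2)
include hF

/-- The set of `a` such that `H` contains a root element at `v` with vector `a • n₀`. -/
def Aset (fr : Frame q v n₀ w) (H : Subgroup (SU 3 F q)) : AddSubgroup F where
  carrier := {a | ∃ g ∈ H, ∃ s, IsE g v (a • n₀) s}
  add_mem' := by
    rintro a b ⟨g₁, hg₁, s₁, h₁⟩ ⟨g₂, hg₂, s₂, h₂⟩
    have := IsE.mul hF h₁ h₂
    rw [← add_smul] at this
    exact ⟨g₁ * g₂, H.mul_mem hg₁ hg₂, _, this⟩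
  zero_mem' := by
    refine ⟨1, H.one_mem, 0, ?_⟩
    rw [zero_smul]
    exact IsE.one_of hF v fr.hvv
  neg_mem' := by
    rintro a ⟨g, hg, s, h⟩
    have := SUOrth.IsE.inv hF h
    rw [← neg_smul] at this
    exact ⟨g⁻¹, H.inv_mem hg, _, this⟩

lemma mem_Aset (fr : Frame q v n₀ w) {H : Subgroup (SU 3 F q)} {a : F} :
    a ∈ Aset hF fr H ↔ ∃ g ∈ H, ∃ s, IsE g v (a • n₀) s := Iff.rfl

lemma Aset_chi (fr : Frame q v n₀ w) {H : Subgroup (SU 3 F q)} {t : SU 3 F q} (ht : t ∈ H)
    {ρ ρ₂ κ : F} (h1 : act t v = ρ • v) (h2 : act t n₀ = ρ₂ • n₀ + κ • v) (hρ : ρ ≠ 0) {a : F}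
    (ha : a ∈ Aset hF fr H) : (ρ ^ q * ρ₂) * a ∈ Aset hF fr H := by
  obtain ⟨g, hg, s, h⟩ := ha
  have h3 := IsE.conj hF h t
  rw [h1, act_smul, h2] at h3
  have h4 := IsE.scale hF hρ h3
  have e1 : ρ ^ q • a • (ρ₂ • n₀ + κ • v) = ((ρ ^ q * ρ₂) * a) • n₀ + (ρ ^ q * a * κ) • v := by
    module
  rw [e1] at h4
  exact ⟨t * g * t⁻¹, H.mul_mem (H.mul_mem ht hg) (H.inv_mem ht), _, IsE.shift hF h4⟩

/-- Transvections at `v`. -/
lemma tv_mem (fr : Frame q v n₀ w) {H : Subgroup (SU 3 F q)} (hall : ∀ a, a ∈ Aset hF fr H)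
    {T : SU 3 F q} {c : F} (hT : IsE T v 0 c) : T ∈ H := by
  have hc : c ^ q + c = 0 := by
    have := hT.hs
    rw [hermForm_zero_left] at this
    linear_combination this
  obtain ⟨b, hb⟩ := exists_sub_eq hF hc
  obtain ⟨g₁, hg₁, s₁, h₁⟩ := hall 1
  obtain ⟨g₂, hg₂, s₂, h₂⟩ := hall b
  have h3 := IsE.mul hF h₁ h₂
  have h4 := SUOrth.IsE.inv hF (IsE.mul hF h₂ h₁)
  have e1 : (b • n₀ + (1 : F) • n₀) = (1 : F) • n₀ + b • n₀ := add_comm _ _
  rw [e1] at h4
  have h5 := IsE.mul hF h3 h4
  rw [add_neg_cancel] at h5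
  have hs4 := (IsE.mul hF h₂ h₁).hs
  rw [e1] at hs4
  have e2 : s₁ + s₂ - hermForm 3 F q (b • n₀) ((1 : F) • n₀) +
      (s₂ + s₁ - hermForm 3 F q ((1 : F) • n₀) (b • n₀)) ^ q -
        hermForm 3 F q (-((1 : F) • n₀ + b • n₀)) ((1 : F) • n₀ + b • n₀) = c := by
    rw [SUOrth.herm_neg_left hF]
    have e3 : hermForm 3 F q (b • n₀) ((1 : F) • n₀) = b := by
      rw [hermForm_smul_left, hermForm_smul_right, fr.hnn, one_pow]
      ring
    have e4 : hermForm 3 F q ((1 : F) • n₀) (b • n₀) = b ^ q := by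
      rw [hermForm_smul_left, hermForm_smul_right, fr.hnn]
      ring
    rw [e4] at hs4
    rw [e3, e4]
    linear_combination hs4 + hb
  rw [e2] at h5
  rw [SUOrth.IsE.unique hT h5]
  exact H.mul_mem (H.mul_mem hg₁ hg₂) (H.inv_mem (H.mul_mem hg₂ hg₁))

/-- All root elements at `v`. -/
lemma root_mem (fr : Frame q v n₀ w) {H : Subgroup (SU 3 F q)} (hall : ∀ a, a ∈ Aset hF fr H)
    {B : SU 3 F q} {y : Fin 3 → F} {s : F} (hB : IsE B v y s) : B ∈ H := by
  have hdec := fr.dec hF y
  rw [hB.hyv, zero_smul, add_zero, add_comm] at hdec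
  rw [hdec] at hB
  have h1 := IsE.shift hF hB
  obtain ⟨g, hg, s', h2⟩ := hall (hermForm 3 F q y n₀)
  have h3 := IsE.mul hF (SUOrth.IsE.inv hF h2) h1
  rw [neg_add_cancel] at h3
  have h4 := tv_mem hF fr hall h3
  have := H.mul_mem hg h4
  rwa [mul_inv_cancel_left] at this

/-- The generation criterion. -/
theorem crit (hq : 3 ≤ q) (fr : Frame q v n₀ w) {x y t : SU 3 F q} {A s C β ρ ρ₂ κ : F}
    (hA : A ≠ 0) (hx : IsE x v (A • n₀) s) (hy : IsE y w (C • n₀) β) (hβ : β ≠ 0)
    (ht : t ∈ Subgroup.closure ({x, y} : Set (SU 3 F q))) (h1 : act t v = ρ • v)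
    (h2 : act t n₀ = ρ₂ • n₀ + κ • v) (hρ : ρ ≠ 0) (hχ0 : ρ ^ q * ρ₂ ≠ 0)
    (hχ : ∀ k e : ℕ, 2 ≤ e → k ^ e = Fintype.card F → (ρ ^ q * ρ₂) ^ (k - 1) ≠ 1) :
    Subgroup.closure ({x, y} : Set (SU 3 F q)) = ⊤ := by
  set H := Subgroup.closure ({x, y} : Set (SU 3 F q)) with hH
  have hxH : x ∈ H := Subgroup.subset_closure (by simp)
  have hyH : y ∈ H := Subgroup.subset_closure (by simp)
  have hall : ∀ a, a ∈ Aset hF fr H := by
    intro a
    apply addSubgroup_eq_top (Aset hF fr H) hχ0 (fun a ha => Aset_chi hF fr ht h1 h2 hρ ha) hχ hA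
    exact ⟨x, hxH, s, hx⟩
  have hv0 : v ≠ 0 := by
    intro h0
    have := fr.hwv
    rw [h0, hermForm_zero_right hF] at this
    exact zero_ne_one this
  -- the image of `v`
  set q₀ : Fin 3 → F := act y v with hq₀
  have hq₀v : hermForm 3 F q q₀ v = β := by
    rw [hq₀, act_w hF (fr.swap hF) hy]
    simp only [hermForm_add_left, hermForm_smul_left, fr.hvv, fr.hnv, fr.hwv]
    ring
  have hq₀q₀ : hermForm 3 F q q₀ q₀ = 0 := by
    rw [hq₀, herm_act, fr.hvv]
  rw [eq_top_iff, ← TT_eq_top hF (n := 3) le_rfl (by omega), TT, Subgroup.closure_le]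
  rintro T ⟨p, c, hT⟩
  by_cases hpv : hermForm 3 F q p v = 0
  · -- `p` is a multiple of `v`
    have hdec := fr.dec hF p
    rw [hpv, zero_smul, add_zero] at hdec
    have hpp := hT.hvv
    have hb : hermForm 3 F q p n₀ = 0 := by
      rw [hdec] at hpp
      simp only [hermForm_add_left, hermForm_add_right hF, hermForm_smul_left, hermForm_smul_right,
        fr.hvv, fr.hnv, fr.hvn hF, fr.hnn, mul_zero, zero_add, add_zero, mul_one] at hpp
      have h3 : hermForm 3 F q p n₀ * hermForm 3 F q p n₀ ^ q = 0 := by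
        rw [mul_comm]; exact hpp
      rcases mul_eq_zero.mp h3 with h | h
      · exact h
      · exact pow_eq_zero_iff (by omega) |>.mp h
    rw [hb, zero_smul, add_zero] at hdec
    by_cases ha : hermForm 3 F q p w = 0
    · rw [ha, zero_smul] at hdec
      rw [hdec] at hT
      rw [eq_one_of_zero_vec hF hT]
      exact H.one_mem
    · rw [hdec] at hT
      exact tv_mem hF fr hall (by
        have := IsE.scale hF ha hT
        rwa [smul_zero] at this)
  · -- move `v` to a multiple of `p`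
    set m : F := β / hermForm 3 F q p v with hm
    have hm0 : m ≠ 0 := div_ne_zero hβ hpv
    set p' : Fin 3 → F := m • p with hp'
    have hp'v : hermForm 3 F q p' v = β := by
      rw [hp', hermForm_smul_left, hm]
      field_simp
    have hp'p' : hermForm 3 F q p' p' = 0 := by
      rw [hp', hermForm_smul_left, hermForm_smul_right, hT.hvv, mul_zero, mul_zero]
    obtain ⟨B, y', s', hB, hBq⟩ := exists_E_move hF (u := q₀) (d := p' - q₀) (v := v) fr.hvv (by
        rw [hermForm_sub_left, hp'v, hq₀v, sub_self]) (by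
        rw [hq₀v]; exact hβ) (by
        rw [add_sub_cancel, hp'p', hq₀q₀])
    have hBH := root_mem hF fr hall hB
    rw [add_sub_cancel] at hBq
    set g : SU 3 F q := B * y with hg
    have hgH : g ∈ H := H.mul_mem hBH hyH
    have hgv : act g v = p' := by
      rw [hg, act_mul, ← hq₀, hBq]
    -- transport the transvection
    have hT' : IsE T p' 0 ((m⁻¹) * (m⁻¹) ^ q * c) := by
      have h3 : p = m⁻¹ • p' := by
        rw [hp', smul_smul, inv_mul_cancel₀ hm0, one_smul]
      rw [h3] at hT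
      have := IsE.scale hF (inv_ne_zero hm0) hT
      rwa [smul_zero] at this
    have hc₁ := hT'.hs
    rw [hermForm_zero_left, add_zero] at hc₁
    obtain ⟨T₀, hT₀⟩ := exists_tv hF (v := v) fr.hvv hc₁
    have hT₀H := tv_mem hF fr hall hT₀
    have h3 := IsE.conj hF hT₀ g
    rw [act_zero, hgv] at h3
    rw [SUOrth.IsE.unique hT' h3]
    exact H.mul_mem (H.mul_mem hgH hT₀H) (H.inv_mem hgH)

end Crit

end Cfsg.Agent.Lib.SU3Reg
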