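import Mathlib
import Cfsg.Agent.Lib.SU3Reg2

/-!
# Two conjugate regular unipotent elements generating `SU₃(q)`: the generic case
-/

set_option autoImplicit false
set_option linter.unusedSectionVars false
set_option linter.unusedSimpArgs false
set_option linter.unusedVariables false

namespace Cfsg.Agent.Lib.SU3Reg

open Module Matrix Cfsg Cfsg.Agent.Lib.UnitaryBasic Cfsg.Agent.Lib.UnitarySU
  Cfsg.Agent.Lib.UnitaryConj Cfsg.Agent.Lib.UnitaryE
  Cfsg.Agent.Lib.HermForm Cfsg.Agent.Lib.HermCount Cfsg.Agent.Lib.GUParab Cfsg.Agent.Lib.SUGen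

variable {F : Type*} [Field F] [Fintype F] {q : ℕ}

section Comb

variable {v n₀ w : Fin 3 → F}

variable (hF : Fintype.card F = q ^ 2)
include hF

theorem x_comb (fr : Frame q v n₀ w) {x : SU 3 F q} {A s : F} (hx : IsE x v (A • n₀) s) (a b c : F) :
    act x (a • v + b • n₀ + c • w) = (a - b * A ^ q + c * s) • v + (b + c * A) • n₀ + c • w := by
  rw [act_add, act_add, act_smul, act_smul, act_smul, act_v hF fr hx, act_n hF fr hx, act_w hF fr hx]
  module

theorem y_comb (fr : Frame q v n₀ w) {y : SU 3 F q} {C β : F} (hy : IsE y w (C • n₀) β) (a b c : F) :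
    act y (a • v + b • n₀ + c • w) = a • v + (b + a * C) • n₀ + (c - b * C ^ q + a * β) • w := by
  rw [act_add, act_add, act_smul, act_smul, act_smul, act_v hF (fr.swap hF) hy,
    act_n hF (fr.swap hF) hy, act_w hF (fr.swap hF) hy]
  module

omit hF in
theorem v_comb (v n₀ w : Fin 3 → F) : v = (1 : F) • v + (0 : F) • n₀ + (0 : F) • w := by
  simp

omit hF in
theorem n_comb (v n₀ w : Fin 3 → F) : n₀ = (0 : F) • v + (1 : F) • n₀ + (0 : F) • w := by
  simp

end Comb

section Alg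

/-- The field identities for the generic construction. -/
lemma alg_gen {β b C c : F} (hβ : β ≠ 0) (hb : b ≠ 0) (hC : C ≠ 0) (h : C * c = -(β + b)) :
    let r := C * c / (β * b)
    let A := r * C
    let Ab := r * c
    let s := 1 / b - 1 / β + C * c * r / β
    (1 - C * Ab + β * s = β / b) ∧ (C + β * A + (1 - C * Ab + β * s) * C = 0) ∧
    (β - (C + β * A) * c + (1 - C * Ab + β * s) * β = 0) ∧
    ((1 - c * A) + (-Ab - c * s) * C = b ^ 2 / β ^ 2) ∧
    (-c - (1 - c * A) * c + (-Ab - c * s) * β = 0) := by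
  intro r A Ab s
  have hc : c = -(β + b) / C := by
    field_simp
    linear_combination h
  subst hc
  simp only [r, A, Ab, s]
  refine ⟨?_, ?_, ?_, ?_, ?_⟩ <;> field_simp <;> ring

end Alg

section Num

lemma num_gen {q k e : ℕ} (hq : 3 ≤ q) (hq5 : q ≠ 5) (hq8 : q ≠ 8) (he : 2 ≤ e) (hk : k ^ e = q ^ 2)
    (hd : (q + 1) ∣ 3 * (k - 1)) : False := by
  have hk1 : 2 ≤ k := by
    by_contra hc
    have h1 : k = 0 ∨ k = 1 := by omega
    rcases h1 with rfl | rfl
    · rw [zero_pow (by omega)] at hk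
      have : 0 < q ^ 2 := by positivity
      omega
    · rw [one_pow] at hk
      have : 3 ^ 2 ≤ q ^ 2 := Nat.pow_le_pow_left hq 2
      omega
  obtain ⟨m, hm⟩ := hd
  have hm0 : 1 ≤ m := by
    rcases Nat.eq_zero_or_pos m with rfl | h
    · omega
    · exact h
  have hle : q + 1 ≤ 3 * (k - 1) := by nlinarith
  by_cases h2 : e = 2
  · subst h2
    have hkq : k = q := Nat.pow_left_injective (by norm_num : 2 ≠ 0) hk
    subst hkq
    -- `k + 1 ∣ 3 (k - 1)`, so `k + 1 ∣ 6`
    have h6 : (k + 1) ∣ 6 := by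
      have h3 : 3 * (k - 1) + 6 = 3 * (k + 1) := by omega
      have h4 : (k + 1) ∣ 3 * (k - 1) + 6 := by
        rw [h3]
        exact Dvd.intro_left 3 rfl
      exact (Nat.dvd_add_right ⟨m, hm⟩).mp h4
    have h7 : k + 1 ≤ 6 := Nat.le_of_dvd (by norm_num) h6
    have h7' : k ≤ 5 := by omega
    interval_cases k <;> omega
  · have h3 : 3 ≤ e := by omega
    have h4 : k ^ 3 ≤ k ^ e := Nat.pow_le_pow_right (by omega) h3
    have h5 : q + 4 ≤ 3 * k := by omega
    have h6 : k ^ 3 ≤ q ^ 2 := by omega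
    have h7 : k ≤ 4 ∨ 5 ≤ k := by omega
    rcases h7 with h7 | h7
    · interval_cases k
      · have : q ≤ 2 := by omega
        omega
      · have : q ≤ 5 := by omega
        have h8 : 27 ≤ q ^ 2 := by simpa using h6
        interval_cases q <;> omega
      · have : q ≤ 8 := by omega
        have h8 : 64 ≤ q ^ 2 := by simpa using h6
        interval_cases q <;> omega
    · -- `k³ > (3k - 4)²` for `k ≥ 5`
      have h8 : q + 4 ≤ 3 * k := h5
      obtain ⟨j, rfl⟩ : ∃ j, k = j + 5 := ⟨k - 5, by omega⟩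
      have h9 : q ≤ 3 * j + 11 := by omega
      have h10 : q ^ 2 ≤ (3 * j + 11) ^ 2 := Nat.pow_le_pow_left h9 2
      have h11 : (3 * j + 11) ^ 2 < (j + 5) ^ 3 := by nlinarith [sq_nonneg j]
      omega

end Num

section Gen

variable (hF : Fintype.card F = q ^ 2)
include hF

theorem gen_main (hq : 3 ≤ q) (hq5 : q ≠ 5) (hq8 : q ≠ 8) :
    ∃ u g : SU 3 F q, (IsNilpotent (((u : Matrix.SpecialLinearGroup (Fin 3) F) : Matrix (Fin 3) (Fin 3) F) - 1) ∧
      (((u : Matrix.SpecialLinearGroup (Fin 3) F) : Matrix (Fin 3) (Fin 3) F) - 1) ^ (3 - 1) ≠ 0) ∧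
      Subgroup.closure ({u, g * u * g⁻¹} : Set (SU 3 F q)) = ⊤ := by
  classical
  obtain ⟨v, n₀, w, fr⟩ := exists_frame hF
  -- a generator
  obtain ⟨g₀, hg₀⟩ := IsCyclic.exists_generator (α := Fˣ)
  have hord : orderOf g₀ = q ^ 2 - 1 := by
    rw [orderOf_eq_card_of_forall_mem_zpowers hg₀, Nat.card_eq_fintype_card, Fintype.card_units, hF]
  have hq1 : 1 ≤ q := by omega
  have hq2 : q ^ 2 - 1 = (q + 1) * (q - 1) := by
    obtain ⟨p, rfl⟩ : ∃ p, q = p + 1 := ⟨q - 1, by omega⟩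
    simp only [Nat.add_sub_cancel]
    have : (p + 1) ^ 2 = (p + 1 + 1) * p + 1 := by ring
    omega
  set β : F := (g₀ : F) with hβdef
  have hβ : β ≠ 0 := g₀.ne_zero
  set b : F := β ^ q with hbdef
  have hb : b ≠ 0 := pow_ne_zero _ hβ
  have hbq : b ^ q = β := pow_q_pow_q hF β
  -- powers of `b / β` and the order
  have hpow : ∀ m : ℕ, (b / β) ^ m = 1 → (q + 1) ∣ m := by
    intro m hm
    have h1 : g₀ ^ ((q - 1) * m) = 1 := by
      apply Units.ext
      push_cast
      rw [pow_mul, ← hβdef]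
      have h2 : β ^ (q - 1) = b / β := by
        rw [hbdef, eq_div_iff hβ, ← pow_succ]
        congr 1
        omega
      rw [h2, hm]
    have h2 := orderOf_dvd_of_pow_eq_one h1
    rw [hord, hq2, mul_comm] at h2
    exact Nat.dvd_of_mul_dvd_mul_left (by omega) h2
  have hT : β + b ≠ 0 := by
    intro h0
    have h1 : (b / β) ^ 2 = 1 := by
      have : b = -β := by linear_combination h0
      rw [this]
      field_simp
    have h2 := Nat.le_of_dvd (by norm_num) (hpow 2 h1)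
    omega
  have hTq : (-(β + b)) ^ q = -(β + b) := by
    rw [HermForm.neg_pow_q hF, HermForm.add_pow_q hF, hbq, ← hbdef]
    ring
  obtain ⟨C, hC0, hC⟩ := exists_norm hF (-(β + b)) (neg_ne_zero.2 hT) hTq
  set c : F := C ^ q with hcdef
  have hcq : c ^ q = C := pow_q_pow_q hF C
  have hc0 : c ≠ 0 := pow_ne_zero _ hC0
  -- the parameters
  have hal := alg_gen hβ hb hC0 hC
  simp only at hal
  obtain ⟨e1, e2, e3, e4, e5⟩ := hal
  set r : F := C * c / (β * b) with hr
  have hr0 : r ≠ 0 := div_ne_zero (mul_ne_zero hC0 hc0) (mul_ne_zero hβ hb)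
  have hrq : r ^ q = r := by
    rw [hr, div_pow, mul_pow, mul_pow, hcq, hbq, ← hcdef, ← hbdef]
    rw [mul_comm (c) C, mul_comm b β]
  set A : F := r * C with hA
  have hAq : A ^ q = r * c := by rw [hA, mul_pow, hrq]
  have hA0 : A ≠ 0 := mul_ne_zero hr0 hC0
  set s : F := 1 / b - 1 / β + C * c * r / β with hs
  have hsq : s ^ q = 1 / β - 1 / b + C * c * r / b := by
    rw [hs, HermForm.add_pow_q hF, HermForm.sub_pow_q hF, div_pow, div_pow, div_pow, mul_pow, mul_pow, hcq,
      hrq, hbq, ← hbdef, one_pow]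
    congr 2
    ring
  have htr : s + s ^ q + A * A ^ q = 0 := by
    have hr' : r = -(β + b) / (β * b) := by rw [hr, hC]
    have h1 : A * (r * c) = r * r * (C * c) := by rw [hA]; ring
    rw [hsq, hAq, hs, h1, hC, hr']
    field_simp
    ring
  have htrβ : β + β ^ q + C * C ^ q = 0 := by
    rw [hC, ← hbdef]
    ring
  obtain ⟨x, hx⟩ := exists_x hF fr htr
  obtain ⟨y, hy⟩ := exists_x hF (fr.swap hF) htrβ
  -- conjugacy
  have hμ0 : -r⁻¹ ≠ 0 := neg_ne_zero.2 (inv_ne_zero hr0)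
  have hμq : (-r⁻¹) ^ q = -r⁻¹ := by
    rw [HermForm.neg_pow_q hF, inv_pow, hrq]
  obtain ⟨g, hg⟩ := exists_conj hF fr hC0 hx hy hμ0 (by
    rw [hμq, hA]
    field_simp
    )
  refine ⟨x, g, reg_x hF fr hA0 hx, ?_⟩
  rw [hg]
  -- the element of the Borel subgroup
  set t : SU 3 F q := y * x * y with ht
  have htH : t ∈ Subgroup.closure ({x, y} : Set (SU 3 F q)) :=
    mul_mem (mul_mem (Subgroup.subset_closure (by simp)) (Subgroup.subset_closure (by simp)))
      (Subgroup.subset_closure (by simp))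
  have hρ0 : β / b ≠ 0 := div_ne_zero hβ hb
  have h1 : act t v = (β / b) • v := by
    rw [ht, act_mul, act_mul]
    nth_rw 1 [v_comb v n₀ w]
    rw [y_comb hF fr hy, x_comb hF fr hx, y_comb hF fr hy, ← hcdef, hAq]
    have key : ∀ a₁ a₂ a₃ : F, a₁ = β / b → a₂ = 0 → a₃ = 0 → a₁ • v + a₂ • n₀ + a₃ • w = (β / b) • v := by
      intro a₁ a₂ a₃ h₁ h₂ h₃
      rw [h₁, h₂, h₃]
      simp
    apply key
    · linear_combination e1
    · linear_combination e2
    · linear_combination e3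
  have h2 : act t n₀ = (b ^ 2 / β ^ 2) • n₀ + (- (r * c) - c * s) • v := by
    rw [ht, act_mul, act_mul]
    nth_rw 1 [n_comb v n₀ w]
    rw [y_comb hF fr hy, x_comb hF fr hx, y_comb hF fr hy, ← hcdef, hAq]
    have key : ∀ a₁ a₂ a₃ : F, a₁ = (- (r * c) - c * s) → a₂ = b ^ 2 / β ^ 2 → a₃ = 0 →
        a₁ • v + a₂ • n₀ + a₃ • w = (b ^ 2 / β ^ 2) • n₀ + (- (r * c) - c * s) • v := by
      intro a₁ a₂ a₃ h₁ h₂ h₃
      rw [h₁, h₂, h₃]
      module
    apply key
    · ring
    · linear_combination e4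
    · linear_combination e5
  have hχ1 : (β / b) ^ q * (b ^ 2 / β ^ 2) = (b / β) ^ 3 := by
    rw [div_pow, hbq, ← hbdef]
    field_simp
  refine crit hF hq fr hA0 hx hy hβ htH h1 h2 hρ0 ?_ ?_
  · rw [hχ1]
    exact pow_ne_zero _ (div_ne_zero hb hβ)
  · intro k e he hk h3
    rw [hχ1, ← pow_mul] at h3
    rw [hF] at hk
    exact num_gen hq hq5 hq8 he hk (hpow _ h3)

end Gen

end Cfsg.Agent.Lib.SU3Reg
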