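import Mathlib
import Cfsg.Agent.Lib.SU3Reg3

/-!
# Two conjugate regular unipotent elements generating `SU₃(5)`
-/

set_option autoImplicit false
set_option linter.unusedSectionVars false
set_option linter.unusedSimpArgs false
set_option linter.unusedVariables false

namespace Cfsg.Agent.Lib.SU3Reg

open Module Matrix Cfsg Cfsg.Agent.Lib.UnitaryBasic Cfsg.Agent.Lib.UnitarySU
  Cfsg.Agent.Lib.UnitaryConj Cfsg.Agent.Lib.UnitaryE
  Cfsg.Agent.Lib.HermForm Cfsg.Agent.Lib.HermCount Cfsg.Agent.Lib.GUParab Cfsg.Agent.Lib.SUGen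

variable {F : Type*} [Field F] [Fintype F]

theorem main5 (hF : Fintype.card F = 5 ^ 2) :
    ∃ u g : SU 3 F 5, (IsNilpotent (((u : Matrix.SpecialLinearGroup (Fin 3) F) : Matrix (Fin 3) (Fin 3) F) - 1) ∧
      (((u : Matrix.SpecialLinearGroup (Fin 3) F) : Matrix (Fin 3) (Fin 3) F) - 1) ^ (3 - 1) ≠ 0) ∧
      Subgroup.closure ({u, g * u * g⁻¹} : Set (SU 3 F 5)) = ⊤ := by
  classical
  obtain ⟨v, n₀, w, fr⟩ := exists_frame hF
  have h25 : (25 : F) = 0 := by
    have := FiniteField.cast_card_eq_zero F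
    rw [hF] at this
    exact_mod_cast this
  have h5 : (5 : F) = 0 := by
    have h : (5 : F) * 5 = 0 := by linear_combination h25
    exact mul_self_eq_zero.mp h
  have h2ne : (2 : F) ≠ 0 := by
    intro h
    have h1 : (1 : F) = 0 := by linear_combination h5 - 2 * h
    exact one_ne_zero h1
  have h3ne : (3 : F) ≠ 0 := by
    intro h
    have h1 : (1 : F) = 0 := by linear_combination 2 * h - h5
    exact one_ne_zero h1
  have hchar : ringChar F ≠ 2 := by
    intro h
    apply h2ne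
    have := ringChar.Nat.cast_ringChar (R := F)
    rw [h] at this
    exact_mod_cast this
  have hsq : IsSquare (2 : F) := by
    rw [FiniteField.isSquare_iff hchar h2ne, hF]
    norm_num
    linear_combination 819 * h5
  obtain ⟨τ, hτ'⟩ := hsq
  have hτ : τ ^ 2 = 2 := by rw [pow_two, ← hτ']
  have hτ0 : τ ≠ 0 := by
    intro h
    rw [h] at hτ
    apply h2ne
    rw [← hτ]
    norm_num
  have hτ5 : τ ^ 5 = -τ := by
    linear_combination ((2 : F) * τ + (1 : F) * τ ^ 3) * hτ + ((1 : F) * τ) * h5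
  have hb : (1 + 2 * τ) ^ 5 = 1 - 2 * τ := by
    linear_combination ((200 : F) + (144 : F) * τ + (80 : F) * τ ^ 2 + (32 : F) * τ ^ 3) * hτ +
      ((80 : F) + (60 : F) * τ) * h5
  have hs : (2 + 4 * τ) ^ 5 = 2 - 4 * τ := by
    linear_combination ((6400 : F) + (4608 : F) * τ + (2560 : F) * τ ^ 2 + (1024 : F) * τ ^ 3) * hτ +
      ((2566 : F) + (1908 : F) * τ) * h5
  have hm : (-τ) ^ 5 = τ := by
    rw [Odd.neg_pow (by decide), hτ5, neg_neg]
  obtain ⟨x, hx⟩ := exists_x hF fr (a := 1) (s := 2 + 4 * τ) (by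
    rw [hs, one_pow]
    linear_combination h5)
  obtain ⟨y, hy⟩ := exists_x hF (fr.swap hF) (a := τ) (s := 1 + 2 * τ) (by
    rw [hb, hτ5]
    linear_combination -hτ)
  have hyi : IsE y⁻¹ w ((-τ) • n₀) (1 - 2 * τ) := by
    have := SUOrth.IsE.inv hF hy
    rwa [hb, ← neg_smul] at this
  obtain ⟨g, hg⟩ := exists_conj hF fr (μ := -τ) hτ0 hx hy (neg_ne_zero.2 hτ0) (by
    rw [hm]
    ring)
  refine ⟨x, g, reg_x hF fr one_ne_zero hx, ?_⟩
  rw [hg]
  have hβ0 : 1 + 2 * τ ≠ 0 := by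
    intro h
    apply h3ne
    linear_combination (1 - 2 * τ) * h + 4 * hτ + 2 * h5
  have hρ : (1 + 2 * τ) ^ 5 * (3 + 2 * τ) = τ := by
    rw [hb]
    linear_combination -4 * hτ - (1 + τ) * h5
  set t : SU 3 F 5 := y⁻¹ * x * y * y with ht
  have htH : t ∈ Subgroup.closure ({x, y} : Set (SU 3 F 5)) := by
    have hxH : x ∈ Subgroup.closure ({x, y} : Set (SU 3 F 5)) := Subgroup.subset_closure (by simp)
    have hyH : y ∈ Subgroup.closure ({x, y} : Set (SU 3 F 5)) := Subgroup.subset_closure (by simp)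
    exact mul_mem (mul_mem (mul_mem (inv_mem hyH) hxH) hyH) hyH
  have h1 : act t v = (1 + 2 * τ) • v := by
    rw [ht, act_mul, act_mul, act_mul]
    nth_rw 1 [v_comb v n₀ w]
    rw [y_comb hF fr hy, y_comb hF fr hy, x_comb hF fr hx, y_comb hF fr hyi, hτ5, hm, one_pow]
    have key : ∀ a₁ a₂ a₃ : F, a₁ = 1 + 2 * τ → a₂ = 0 → a₃ = 0 →
        a₁ • v + a₂ • n₀ + a₃ • w = (1 + 2 * τ) • v := by
      intro a₁ a₂ a₃ h₁ h₂ h₃
      rw [h₁, h₂, h₃]
      simp
    apply key
    · linear_combination ((18 : F) + (4 : F) * τ) * hτ + ((8 : F) + (4 : F) * τ) * h5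
    · linear_combination ((-21 : F) + (-18 : F) * τ + (-4 : F) * τ ^ 2) * hτ + ((-8 : F) + (-7 : F) * τ) * h5
    · linear_combination ((-31 : F) + (-33 : F) * τ + (-8 : F) * τ ^ 2) * hτ + ((-11 : F) + (-12 : F) * τ) * h5
  have h2 : act t n₀ = (3 + 2 * τ) • n₀ + ((-1 : F) + (4 : F) * τ + (8 : F) * τ ^ 2) • v := by
    rw [ht, act_mul, act_mul, act_mul]
    nth_rw 1 [n_comb v n₀ w]
    rw [y_comb hF fr hy, y_comb hF fr hy, x_comb hF fr hx, y_comb hF fr hyi, hτ5, hm, one_pow]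
    have key : ∀ a₁ a₂ a₃ : F, a₁ = (-1 : F) + (4 : F) * τ + (8 : F) * τ ^ 2 → a₂ = 3 + 2 * τ → a₃ = 0 →
        a₁ • v + a₂ • n₀ + a₃ • w = (3 + 2 * τ) • n₀ + ((-1 : F) + (4 : F) * τ + (8 : F) * τ ^ 2) • v := by
      intro a₁ a₂ a₃ h₁ h₂ h₃
      rw [h₁, h₂, h₃]
      module
    apply key
    · ring
    · linear_combination ((-4 : F) + (-8 : F) * τ) * hτ + ((-2 : F) + (-3 : F) * τ) * h5
    · linear_combination ((-2 : F) + (-16 : F) * τ) * hτ + ((-1 : F) + (-5 : F) * τ) * h5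
  refine crit hF (by norm_num) fr one_ne_zero hx hy hβ0 htH h1 h2 hβ0 ?_ ?_
  · rw [hρ]
    exact hτ0
  · intro k e he hk h3
    rw [hρ] at h3
    rw [hF] at hk
    have hk5 : k = 5 := by
      have h6 : k ∣ 5 ^ 2 := by
        rw [← hk]
        exact dvd_pow_self k (by omega)
      have hk1 : k ≠ 0 := by
        rintro rfl
        rw [zero_pow (by omega)] at hk
        norm_num at hk
      have hk2 : k ≠ 1 := by
        rintro rfl
        rw [one_pow] at hk
        norm_num at hk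
      have hk3 : k ≠ 25 := by
        rintro rfl
        have : 25 ^ 2 ≤ 25 ^ e := Nat.pow_le_pow_right (by norm_num) he
        omega
      have h7 : k ≤ 25 := Nat.le_of_dvd (by norm_num) h6
      interval_cases k <;> omega
    subst hk5
    have h4 : τ ^ 4 = 4 := by
      have : τ ^ 4 = (τ ^ 2) ^ 2 := by ring
      rw [this, hτ]
      norm_num
    norm_num at h3
    rw [h4] at h3
    apply h3ne
    linear_combination h3

end Cfsg.Agent.Lib.SU3Reg
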