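import Mathlib
import Cfsg.Agent.Lib.SU3Reg3

/-!
# Two conjugate regular unipotent elements generating `SU₃(8)`
-/

set_option autoImplicit false
set_option linter.unusedSectionVars false
set_option linter.unusedSimpArgs false
set_option linter.unusedVariables false
set_option maxHeartbeats 2000000

namespace Cfsg.Agent.Lib.SU3Reg

open Module Matrix Cfsg Cfsg.Agent.Lib.UnitaryBasic Cfsg.Agent.Lib.UnitarySU
  Cfsg.Agent.Lib.UnitaryConj Cfsg.Agent.Lib.UnitaryE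
  Cfsg.Agent.Lib.HermForm Cfsg.Agent.Lib.HermCount Cfsg.Agent.Lib.GUParab Cfsg.Agent.Lib.SUGen

variable {F : Type*} [Field F] [Fintype F]

theorem main8 (hF : Fintype.card F = 8 ^ 2) :
    ∃ u g : SU 3 F 8, (IsNilpotent (((u : Matrix.SpecialLinearGroup (Fin 3) F) : Matrix (Fin 3) (Fin 3) F) - 1) ∧
      (((u : Matrix.SpecialLinearGroup (Fin 3) F) : Matrix (Fin 3) (Fin 3) F) - 1) ^ (3 - 1) ≠ 0) ∧
      Subgroup.closure ({u, g * u * g⁻¹} : Set (SU 3 F 8)) = ⊤ := by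
  classical
  obtain ⟨v, n₀, w, fr⟩ := exists_frame hF
  have h64 : (64 : F) = 0 := by
    have := FiniteField.cast_card_eq_zero F
    rw [hF] at this
    exact_mod_cast this
  have h2 : (2 : F) = 0 := by
    have h : (2 : F) ^ 6 = 0 := by linear_combination h64
    exact pow_eq_zero_iff (by norm_num) |>.mp h
  -- an element of order 9
  obtain ⟨g₀, hg₀⟩ := IsCyclic.exists_generator (α := Fˣ)
  have hord : orderOf g₀ = 63 := by
    rw [orderOf_eq_card_of_forall_mem_zpowers hg₀, Nat.card_eq_fintype_card, Fintype.card_units, hF]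
    norm_num
  obtain ⟨r, hrdef⟩ : ∃ r : F, r = (g₀ : F) ^ 7 := ⟨_, rfl⟩
  have hr9 : r ^ 9 = 1 := by
    have h3 : g₀ ^ 63 = 1 := by rw [← hord]; exact pow_orderOf_eq_one g₀
    have h4 := congrArg (fun z : Fˣ => (z : F)) h3
    simp only [Units.val_pow_eq_pow_val, Units.val_one] at h4
    rw [hrdef, ← pow_mul]
    exact h4
  have hr3 : r ^ 3 ≠ 1 := by
    intro h
    have h3 : g₀ ^ 21 = 1 := by
      apply Units.ext
      simp only [Units.val_pow_eq_pow_val, Units.val_one]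
      rw [hrdef, ← pow_mul] at h
      exact h
    have h4 := Nat.le_of_dvd (by norm_num) (orderOf_dvd_of_pow_eq_one h3)
    omega
  have hr : r ^ 6 + r ^ 3 + 1 = 0 := by
    have h3 : (r ^ 3 - 1) * (r ^ 6 + r ^ 3 + 1) = 0 := by linear_combination hr9
    exact (mul_eq_zero.mp h3).resolve_left (sub_ne_zero.2 hr3)
  have hr0 : r ≠ 0 := by
    intro h
    rw [h] at hr9
    norm_num at hr9
  have hC8 : ((1 : F) * r + (1 : F) * r ^ 2) ^ 8 = ((1 : F) * r + (1 : F) * r ^ 2 + (1 : F) * r ^ 4 + (1 : F) * r ^ 5) := by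
    linear_combination ((-27 : F) * r + (-55 : F) * r ^ 2 + (-62 : F) * r ^ 3 + (-28 : F) * r ^ 4 + (28 : F) * r ^ 5 + (62 : F) * r ^ 6 + (55 : F) * r ^ 7 + (28 : F) * r ^ 8 + (8 : F) * r ^ 9 + (1 : F) * r ^ 10) * hr + ((13 : F) * r + (27 : F) * r ^ 2 + (31 : F) * r ^ 3 + (27 : F) * r ^ 4 + (13 : F) * r ^ 5) * h2
  have hs8 : ((1 : F) + (1 : F) * r + (1 : F) * r ^ 2 + (1 : F) * r ^ 3 + (1 : F) * r ^ 4) ^ 8 = ((1 : F) * r + (1 : F) * r ^ 2 + (1 : F) * r ^ 3 + (1 : F) * r ^ 4) := by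
    linear_combination ((623 : F) + (1583 : F) * r + (1827 : F) * r ^ 2 + (1288 : F) * r ^ 3 + (322 : F) * r ^ 4 + (-421 : F) * r ^ 5 + (-259 : F) * r ^ 6 + (1239 : F) * r ^ 7 + (4069 : F) * r ^ 8 + (7771 : F) * r ^ 9 + (11579 : F) * r ^ 10 + (14672 : F) * r ^ 11 + (16428 : F) * r ^ 12 + (16582 : F) * r ^ 13 + (15259 : F) * r ^ 14 + (12881 : F) * r ^ 15 + (10004 : F) * r ^ 16 + (7149 : F) * r ^ 17 + (4691 : F) * r ^ 18 + (2814 : F) * r ^ 19 + (1532 : F) * r ^ 20 + (748 : F) * r ^ 21 + (322 : F) * r ^ 22 + (119 : F) * r ^ 23 + (36 : F) * r ^ 24 + (8 : F) * r ^ 25 + (1 : F) * r ^ 26) * hr + ((-311 : F) + (-788 : F) * r + (-896 : F) * r ^ 2 + (-896 : F) * r ^ 3 + (-788 : F) * r ^ 4 + (-311 : F) * r ^ 5) * h2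
  have hβ8 : ((1 : F) * r) ^ 8 = ((1 : F) * r ^ 2 + (1 : F) * r ^ 5) := by
    linear_combination ((1 : F) * r ^ 2) * hr + ((-1 : F) * r ^ 2 + (-1 : F) * r ^ 5) * h2
  have hμ8 : ((1 : F) * r ^ 2 + (1 : F) * r ^ 3) ^ 8 = ((1 : F) + (1 : F) * r + (1 : F) * r ^ 3 + (1 : F) * r ^ 4) := by
    linear_combination ((-27 : F) + (-55 : F) * r + (-62 : F) * r ^ 2 + (-28 : F) * r ^ 3 + (28 : F) * r ^ 4 + (62 : F) * r ^ 5 + (55 : F) * r ^ 6 + (27 : F) * r ^ 7 + (-27 : F) * r ^ 9 + (-55 : F) * r ^ 10 + (-62 : F) * r ^ 11 + (-28 : F) * r ^ 12 + (28 : F) * r ^ 13 + (62 : F) * r ^ 14 + (55 : F) * r ^ 15 + (28 : F) * r ^ 16 + (8 : F) * r ^ 17 + (1 : F) * r ^ 18) * hr + ((13 : F) + (27 : F) * r + (31 : F) * r ^ 2 + (27 : F) * r ^ 3 + (13 : F) * r ^ 4) * h2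
  have hρ8 : ((1 : F) + (1 : F) * r ^ 2 + (1 : F) * r ^ 3) ^ 8 = ((1 : F) * r + (1 : F) * r ^ 3 + (1 : F) * r ^ 4) := by
    linear_combination ((85 : F) + (57 : F) * r + (8 : F) * r ^ 2 + (-50 : F) * r ^ 3 + (-56 : F) * r ^ 4 + (-30 : F) * r ^ 5 + (49 : F) * r ^ 6 + (167 : F) * r ^ 7 + (260 : F) * r ^ 8 + (337 : F) * r ^ 9 + (365 : F) * r ^ 10 + (330 : F) * r ^ 11 + (272 : F) * r ^ 12 + (196 : F) * r ^ 13 + (118 : F) * r ^ 14 + (63 : F) * r ^ 15 + (28 : F) * r ^ 16 + (8 : F) * r ^ 17 + (1 : F) * r ^ 18) * hr + ((-42 : F) + (-29 : F) * r + (-14 : F) * r ^ 3 + (13 : F) * r ^ 4 + (39 : F) * r ^ 5) * h2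
  have h18 : (1 : F) ^ 8 = 1 := one_pow 8
  have hm18 : (-1 : F) ^ 8 = 1 := by norm_num
  obtain ⟨x, hx⟩ := exists_x hF fr (a := 1) (s := ((1 : F) + (1 : F) * r + (1 : F) * r ^ 2 + (1 : F) * r ^ 3 + (1 : F) * r ^ 4)) (by
    rw [hs8, h18]
    linear_combination ((0 : F)) * hr + ((1 : F) + (1 : F) * r + (1 : F) * r ^ 2 + (1 : F) * r ^ 3 + (1 : F) * r ^ 4) * h2)
  obtain ⟨y, hy⟩ := exists_x hF (fr.swap hF) (a := ((1 : F) * r + (1 : F) * r ^ 2)) (s := ((1 : F) * r)) (by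
    rw [hβ8, hC8]
    linear_combination ((2 : F) + (1 : F) * r) * hr + ((-1 : F) + (1 : F) * r ^ 2 + (1 : F) * r ^ 5) * h2)
  have hxi : IsE x⁻¹ v ((-1 : F) • n₀) ((1 : F) * r + (1 : F) * r ^ 2 + (1 : F) * r ^ 3 + (1 : F) * r ^ 4) := by
    have := SUOrth.IsE.inv hF hx
    rwa [hs8, ← neg_smul] at this
  have hC0 : ((1 : F) * r + (1 : F) * r ^ 2) ≠ 0 := by
    intro h
    have h1 : (1 : F) = 0 := by
      linear_combination ((1 : F) * r ^ 2 + (1 : F) * r ^ 3 + (1 : F) * r ^ 4) * h - ((1 : F)) * hr - ((-1 : F) + (1 : F) * r ^ 4 + (1 : F) * r ^ 5) * h2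
    exact one_ne_zero h1
  have hμ0 : ((1 : F) * r ^ 2 + (1 : F) * r ^ 3) ≠ 0 := by
    intro h
    have h1 : (1 : F) = 0 := by
      linear_combination ((1 : F) * r + (1 : F) * r ^ 2 + (1 : F) * r ^ 3) * h - ((1 : F)) * hr - ((-1 : F) + (1 : F) * r ^ 4 + (1 : F) * r ^ 5) * h2
    exact one_ne_zero h1
  have hρ0 : ((1 : F) + (1 : F) * r ^ 2 + (1 : F) * r ^ 3) ≠ 0 := by
    intro h
    have h1 : (1 : F) = 0 := by
      linear_combination ((1 : F) + (1 : F) * r + (1 : F) * r ^ 5) * h - ((1 : F) * r + (1 : F) * r ^ 2) * hr - ((1 : F) * r ^ 3) * h2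
    exact one_ne_zero h1
  have hβ0 : ((1 : F) * r) ≠ 0 := by
    intro h
    have h1 : (1 : F) = 0 := by
      linear_combination ((1 : F) * r ^ 2 + (1 : F) * r ^ 5) * h - ((1 : F)) * hr - ((-1 : F)) * h2
    exact one_ne_zero h1
  have hχ0 : ((1 : F) * r ^ 2 + (1 : F) * r ^ 4 + (1 : F) * r ^ 5) ≠ 0 := by
    intro h
    have h1 : (1 : F) = 0 := by
      linear_combination ((1 : F) * r + (1 : F) * r ^ 2 + (1 : F) * r ^ 3 + (1 : F) * r ^ 4 + (1 : F) * r ^ 5) * h - ((1 : F) + (2 : F) * r + (2 : F) * r ^ 2 + (2 : F) * r ^ 3 + (1 : F) * r ^ 4) * hr - ((-1 : F) + (-1 : F) * r + (-1 : F) * r ^ 2 + (-1 : F) * r ^ 3 + (-1 : F) * r ^ 4) * h2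
    exact one_ne_zero h1
  obtain ⟨g, hg⟩ := exists_conj hF fr (μ := ((1 : F) * r ^ 2 + (1 : F) * r ^ 3)) hC0 hx hy hμ0 (by
    rw [hμ8]
    linear_combination ((1 : F) + (2 : F) * r + (1 : F) * r ^ 2) * hr + ((1 : F) * r ^ 3 + (2 : F) * r ^ 4 + (1 : F) * r ^ 5) * h2)
  refine ⟨x, g, reg_x hF fr one_ne_zero hx, ?_⟩
  rw [hg]
  set t : SU 3 F 8 := y * x⁻¹ * y * x * x * y with ht
  have htH : t ∈ Subgroup.closure ({x, y} : Set (SU 3 F 8)) := by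
    have hxH : x ∈ Subgroup.closure ({x, y} : Set (SU 3 F 8)) := Subgroup.subset_closure (by simp)
    have hyH : y ∈ Subgroup.closure ({x, y} : Set (SU 3 F 8)) := Subgroup.subset_closure (by simp)
    exact mul_mem (mul_mem (mul_mem (mul_mem (mul_mem hyH (inv_mem hxH)) hyH) hxH) hxH) hyH
  have h1 : act t v = ((1 : F) + (1 : F) * r ^ 2 + (1 : F) * r ^ 3) • v := by
    rw [ht, act_mul, act_mul, act_mul, act_mul, act_mul]
    nth_rw 1 [v_comb v n₀ w]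
    rw [y_comb hF fr hy, x_comb hF fr hx, x_comb hF fr hx, y_comb hF fr hy, x_comb hF fr hxi, y_comb hF fr hy, hC8, h18, hm18]
    have key : ∀ a₁ a₂ a₃ : F, a₁ = ((1 : F) + (1 : F) * r ^ 2 + (1 : F) * r ^ 3) → a₂ = 0 → a₃ = 0 →
        a₁ • v + a₂ • n₀ + a₃ • w = ((1 : F) + (1 : F) * r ^ 2 + (1 : F) * r ^ 3) • v := by
      intro a₁ a₂ a₃ h₁ h₂ h₃
      rw [h₁, h₂, h₃]
      simp
    apply key
    · linear_combination ((-8 : F) + (-5 : F) * r + (-2 : F) * r ^ 2 + (-4 : F) * r ^ 3 + (-3 : F) * r ^ 4 + (-1 : F) * r ^ 5) * hr + ((4 : F) + (1 : F) * r ^ 2 + (6 : F) * r ^ 3 + (1 : F) * r ^ 4 + (-2 : F) * r ^ 5) * h2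
    · linear_combination ((4 : F) + (-9 : F) * r + (-13 : F) * r ^ 2 + (-7 : F) * r ^ 3 + (-6 : F) * r ^ 4 + (-7 : F) * r ^ 5 + (-4 : F) * r ^ 6 + (-1 : F) * r ^ 7) * hr + ((-2 : F) + (6 : F) * r + (7 : F) * r ^ 2 + (1 : F) * r ^ 3 + (9 : F) * r ^ 4 + (10 : F) * r ^ 5) * h2
    · linear_combination ((-10 : F) + (-17 : F) * r + (-9 : F) * r ^ 2 + (-8 : F) * r ^ 3 + (-15 : F) * r ^ 4 + (-12 : F) * r ^ 5 + (-4 : F) * r ^ 6) * hr + ((5 : F) + (10 : F) * r + (-1 : F) * r ^ 2 + (4 : F) * r ^ 3 + (13 : F) * r ^ 4 + (4 : F) * r ^ 5) * h2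
  have h2' : act t n₀ = ((1 : F) * r) • n₀ + ((0 : F)) • v := by
    rw [ht, act_mul, act_mul, act_mul, act_mul, act_mul]
    nth_rw 1 [n_comb v n₀ w]
    rw [y_comb hF fr hy, x_comb hF fr hx, x_comb hF fr hx, y_comb hF fr hy, x_comb hF fr hxi, y_comb hF fr hy, hC8, h18, hm18]
    have key : ∀ a₁ a₂ a₃ : F, a₁ = ((0 : F)) → a₂ = ((1 : F) * r) → a₃ = 0 →
        a₁ • v + a₂ • n₀ + a₃ • w = ((1 : F) * r) • n₀ + ((0 : F)) • v := by
      intro a₁ a₂ a₃ h₁ h₂ h₃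
      rw [h₁, h₂, h₃]
      module
    apply key
    · linear_combination ((-1 : F) + (1 : F) * r + (2 : F) * r ^ 3 + (3 : F) * r ^ 4 + (-2 : F) * r ^ 5 + (-2 : F) * r ^ 6) * hr + ((-1 : F) + (1 : F) * r + (-1 : F) * r ^ 2 + (-3 : F) * r ^ 3 + (-2 : F) * r ^ 4 + (-1 : F) * r ^ 5) * h2
    · linear_combination ((-11 : F) + (-8 : F) * r + (-6 : F) * r ^ 2 + (-7 : F) * r ^ 3 + (-4 : F) * r ^ 4 + (3 : F) * r ^ 5 + (1 : F) * r ^ 6 + (-4 : F) * r ^ 7 + (-2 : F) * r ^ 8) * hr + ((6 : F) + (2 : F) * r + (1 : F) * r ^ 2 + (7 : F) * r ^ 3 + (-5 : F) * r ^ 5) * h2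
    · linear_combination ((-8 : F) + (-8 : F) * r + (-5 : F) * r ^ 2 + (5 : F) * r ^ 3 + (21 : F) * r ^ 4 + (27 : F) * r ^ 5 + (17 : F) * r ^ 6 + (14 : F) * r ^ 7 + (14 : F) * r ^ 8 + (8 : F) * r ^ 9 + (2 : F) * r ^ 10) * hr + ((4 : F) + (3 : F) * r ^ 2 + (3 : F) * r ^ 3 + (-7 : F) * r ^ 4 + (-8 : F) * r ^ 5) * h2
  have hχv : ((1 : F) + (1 : F) * r ^ 2 + (1 : F) * r ^ 3) ^ 8 * ((1 : F) * r) = ((1 : F) * r ^ 2 + (1 : F) * r ^ 4 + (1 : F) * r ^ 5) := by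
    rw [hρ8]
    linear_combination ((0 : F)) * hr + ((0 : F)) * h2
  refine crit hF (by norm_num) fr one_ne_zero hx hy hβ0 htH h1 h2' hρ0 ?_ ?_
  · rw [hχv]
    exact hχ0
  · intro k e he hk h3
    rw [hχv] at h3
    rw [hF] at hk
    have hk248 : k = 2 ∨ k = 4 ∨ k = 8 := by
      have h6 : k ∣ 8 ^ 2 := by
        rw [← hk]
        exact dvd_pow_self k (by omega)
      have hk1 : k ≠ 0 := by
        rintro rfl
        rw [zero_pow (by omega)] at hk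
        norm_num at hk
      have hk2 : k ≠ 1 := by
        rintro rfl
        rw [one_pow] at hk
        norm_num at hk
      have h7 : k ≤ 8 := by
        have h8 : k ^ 2 ≤ k ^ e := Nat.pow_le_pow_right (by omega) he
        rw [hk] at h8
        exact (Nat.pow_le_pow_iff_left (by norm_num)).mp h8
      interval_cases k <;> omega
    rcases hk248 with rfl | rfl | rfl
    · have h3a : ((1 : F) * r ^ 2 + (1 : F) * r ^ 4 + (1 : F) * r ^ 5) ^ 1 = 1 := h3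
      have h1' : (1 : F) = 0 := by
        linear_combination ((1 : F) * r + (1 : F) * r ^ 3 + (1 : F) * r ^ 4) * h3a - ((1 : F) + (1 : F) * r + (2 : F) * r ^ 2 + (1 : F) * r ^ 3) * hr - ((-1 : F) + (-1 : F) * r + (-1 : F) * r ^ 2 + (-1 : F) * r ^ 3 + (-1 : F) * r ^ 4) * h2
      exact one_ne_zero h1'
    · have h3b : ((1 : F) * r ^ 2 + (1 : F) * r ^ 4 + (1 : F) * r ^ 5) ^ 3 = 1 := h3
      have h1' : (1 : F) = 0 := by
        linear_combination ((1 : F) + (1 : F) * r ^ 4 + (1 : F) * r ^ 5) * h3b - ((2 : F) + (2 : F) * r + (2 : F) * r ^ 2 + (2 : F) * r ^ 3 + (-1 : F) * r ^ 4 + (-1 : F) * r ^ 5 + (-3 : F) * r ^ 6 + (-1 : F) * r ^ 7 + (2 : F) * r ^ 8 + (4 : F) * r ^ 9 + (6 : F) * r ^ 10 + (6 : F) * r ^ 11 + (6 : F) * r ^ 12 + (4 : F) * r ^ 13 + (1 : F) * r ^ 14) * hr - ((-2 : F) + (-1 : F) * r + (-1 : F) * r ^ 2 + (-2 : F) * r ^ 3 + (-1 : F) * r ^ 4 + (-1 : F)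 * r ^ 5) * h2
      exact one_ne_zero h1'
    · have h3c : ((1 : F) * r ^ 2 + (1 : F) * r ^ 4 + (1 : F) * r ^ 5) ^ 7 = 1 := h3
      have h1' : (1 : F) = 0 := by
        linear_combination ((1 : F) + (1 : F) * r ^ 3) * h3c - ((-42 : F) + (-36 : F) * r + (-6 : F) * r ^ 2 + (21 : F) * r ^ 3 + (42 : F) * r ^ 4 + (42 : F) * r ^ 5 + (21 : F) * r ^ 6 + (-6 : F) * r ^ 7 + (-36 : F) * r ^ 8 + (-42 : F) * r ^ 9 + (-36 : F) * r ^ 10 + (-6 : F) * r ^ 11 + (21 : F) * r ^ 12 + (42 : F) * r ^ 13 + (43 : F) * r ^ 14 + (21 : F) * r ^ 15 + (1 : F) * r ^ 16 + (-29 : F) * r ^ 17 + (-21 : F) * r ^ 18 + (6 : F) * r ^ 19 + (49 : F) * r ^ 20 + (126 : F) * r ^ 21 + (175 : F) * r ^ 22 + (211 : F) * r ^ 23 + (231 : F) * r ^ 24 + (204 : F) * r ^ 25 + (167 : F) * r ^ 26 + (126 : F) * r ^ 27 + (77 : F) * r ^ 28 + (42 : F) * r ^ 29 + (21 : F) * r ^ 30 + (7 : F) * r ^ 31 + (1 : F) * r ^ 32)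 * hr - ((20 : F) + (18 : F) * r + (3 : F) * r ^ 2 + (10 : F) * r ^ 3 + (-3 : F) * r ^ 4 + (-18 : F) * r ^ 5) * h2
      exact one_ne_zero h1'

end Cfsg.Agent.Lib.SU3Reg

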