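import Mathlib
import Cfsg.Agent.Lib.SUGen
import Cfsg.Agent.Lib.SUOrth
import Cfsg.Agent.Lib.SU3Reg

/-!
# Regular unipotent generation of `SU_n(q)` for odd `n ≥ 5`: the calculus of root elements in a subgroup
-/

set_option autoImplicit false
set_option linter.unusedSectionVars false
set_option linter.unusedSimpArgs false
set_option linter.unusedVariables false

namespace Cfsg.Agent.Lib.SUnReg

open Module Matrix Cfsg Cfsg.Agent.Lib.UnitaryBasic Cfsg.Agent.Lib.UnitarySU
  Cfsg.Agent.Lib.UnitaryConj Cfsg.Agent.Lib.UnitaryE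
  Cfsg.Agent.Lib.HermForm Cfsg.Agent.Lib.HermCount Cfsg.Agent.Lib.GUParab Cfsg.Agent.Lib.SUGen

variable {F : Type*} [Field F] [Fintype F] {q n : ℕ}

/-- The subgroup `H` contains a root element with the given parameters. -/
def InH (H : Subgroup (SU n F q)) (v y : Fin n → F) (s : F) : Prop := ∃ A ∈ H, IsE A v y s

/-- All transvections with centre `x` lie in `H`. -/
def Om (H : Subgroup (SU n F q)) (x : Fin n → F) : Prop := ∀ θ : F, θ + θ ^ q = 0 → InH H x 0 θ

section Calc

variable (hF : Fintype.card F = q ^ 2)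
include hF

variable {H : Subgroup (SU n F q)} {v y y₁ y₂ : Fin n → F} {s s₁ s₂ : F}

theorem InH.mul (h₁ : InH H v y₁ s₁) (h₂ : InH H v y₂ s₂) :
    InH H v (y₁ + y₂) (s₁ + s₂ - hermForm n F q y₂ y₁) := by
  obtain ⟨A, hA, hA'⟩ := h₁
  obtain ⟨B, hB, hB'⟩ := h₂
  exact ⟨A * B, H.mul_mem hA hB, IsE.mul hF hA' hB'⟩

theorem InH.inv (h : InH H v y s) : InH H v (-y) (s ^ q) := by
  obtain ⟨A, hA, hA'⟩ := h
  exact ⟨A⁻¹, H.inv_mem hA, SUOrth.IsE.inv hF hA'⟩

theorem InH.conj {g : SU n F q} (hg : g ∈ H) (h : InH H v y s) : InH H (act g v) (act g y) s := by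
  obtain ⟨A, hA, hA'⟩ := h
  exact ⟨g * A * g⁻¹, H.mul_mem (H.mul_mem hg hA) (H.inv_mem hg), IsE.conj hF hA' g⟩

/-- Two root elements with the same vector differ by a transvection. -/
theorem InH.sub_same {s' : F} (h₁ : InH H v y s) (h₂ : InH H v y s') : InH H v 0 (s - s') := by
  obtain ⟨A, hA, hA'⟩ := h₁
  obtain ⟨B, hB, hB'⟩ := h₂
  have h3 := IsE.mul hF hA' (SUOrth.IsE.inv hF hB')
  rw [add_neg_cancel, SUOrth.herm_neg_left hF] at h3
  have h4 : s + s' ^ q - -hermForm n F q y y = s - s' := by linear_combination hB'.hs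
  rw [h4] at h3
  exact ⟨_, H.mul_mem hA (H.inv_mem hB), h3⟩

theorem InH.add_t {t : F} (h₁ : InH H v y s) (h₂ : InH H v 0 t) : InH H v y (s + t) := by
  have h3 := InH.mul hF h₁ h₂
  rwa [add_zero, hermForm_zero_left, sub_zero] at h3

theorem InH.shift {l : F} (h : InH H v (y + l • v) s) : InH H v y (s + l - l ^ q) := by
  obtain ⟨A, hA, hA'⟩ := h
  exact ⟨A, hA, SU3Reg.IsE.shift hF hA'⟩

theorem InH.scale {ρ : F} (hρ : ρ ≠ 0) (h : InH H (ρ • v) y s) :
    InH H v (ρ ^ q • y) (ρ * ρ ^ q * s) := by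
  obtain ⟨A, hA, hA'⟩ := h
  exact ⟨A, hA, SU3Reg.IsE.scale hF hρ hA'⟩

/-- Any parameter with the right trace is attained when all transvections are available. -/
theorem InH.adjust {s' : F} (h : InH H v y s) (hO : Om H v) (hs' : s' + s' ^ q + hermForm n F q y y = 0) :
    InH H v y s' := by
  have hs : s + s ^ q + hermForm n F q y y = 0 := by
    obtain ⟨A, -, hA'⟩ := h
    exact hA'.hs
  have h1 : (s' - s) + (s' - s) ^ q = 0 := by
    rw [HermForm.sub_pow_q hF]
    linear_combination hs' - hs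
  have h2 := InH.add_t hF h (hO _ h1)
  rwa [add_sub_cancel] at h2

omit hF in
theorem InH.hvv (h : InH H v y s) : hermForm n F q v v = 0 := by
  obtain ⟨A, -, hA'⟩ := h
  exact hA'.hvv

omit hF in
theorem InH.hyv (h : InH H v y s) : hermForm n F q y v = 0 := by
  obtain ⟨A, -, hA'⟩ := h
  exact hA'.hyv

omit hF in
theorem InH.hs (h : InH H v y s) : s + s ^ q + hermForm n F q y y = 0 := by
  obtain ⟨A, -, hA'⟩ := h
  exact hA'.hs

theorem InH.one (hvv : hermForm n F q v v = 0) : InH H v 0 0 :=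
  ⟨1, H.one_mem, SU3Reg.IsE.one_of hF v hvv⟩

/-- Exchanging the two vectors of an elation-type root element. -/
theorem IsE_swap {A : SU n F q} (h : IsE A v y 0) (hyy : hermForm n F q y y = 0) : IsE A y (-v) 0 := by
  have hvy := conj_zero hF h.hyv
  have hq : q ≠ 0 := by
    have := two_le_q' hF
    omega
  refine ⟨hyy, ?_, ?_, ?_⟩
  · rw [SUOrth.herm_neg_left hF, hvy, neg_zero]
  · rw [SUOrth.herm_neg_left hF, SUOrth.herm_neg_right hF, h.hvv, zero_pow hq]
    simp
  · intro x
    rw [h.act_eq, SUOrth.herm_neg_right hF]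
    simp only [zero_smul, add_zero]
    module

/-- The transvection at a sum of orthogonal isotropic vectors. -/
theorem T_add_eq {a x : Fin n → F} {θ : F} {A B C : SU n F q} (hA : IsE A (a + x) 0 θ) (hB : IsE B x 0 θ)
    (hC : IsE C a (θ • x) θ) (htr : θ + θ ^ q = 0) (hxx : hermForm n F q x x = 0)
    (hax : hermForm n F q a x = 0) : A = C * B := by
  have hxa := conj_zero hF hax
  have hθq : θ ^ q = -θ := by linear_combination htr
  apply SU_ext
  intro z
  rw [act_mul, SUGen.IsE.tv_act hF hB, act_add, act_smul, hC.act_eq, hC.act_eq, SUGen.IsE.tv_act hF hA]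
  simp only [hermForm_add_right hF, hermForm_smul_right, hxa, hxx, hθq]
  simp only [zero_smul, mul_zero, zero_add, add_zero, sub_zero]
  module

theorem exists_T_add_C {a x : Fin n → F} {θ : F} (haa : hermForm n F q a a = 0) (htr : θ + θ ^ q = 0)
    (hxx : hermForm n F q x x = 0) (hax : hermForm n F q a x = 0) : ∃ C : SU n F q, IsE C a (θ • x) θ := by
  have hxa := conj_zero hF hax
  apply exists_IsE hF haa
  · rw [hermForm_smul_left, hxa, mul_zero]
  · rw [hermForm_smul_left, hermForm_smul_right, hxx, htr]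
    ring

/-- Splitting the transvection at a sum. -/
theorem InH.of_T_add {a x : Fin n → F} {θ : F} (hA : InH H (a + x) 0 θ) (hB : InH H x 0 θ)
    (htr : θ + θ ^ q = 0) (haa : hermForm n F q a a = 0) (hxx : hermForm n F q x x = 0)
    (hax : hermForm n F q a x = 0) : InH H a (θ • x) θ := by
  obtain ⟨A, hA, hA'⟩ := hA
  obtain ⟨B, hB, hB'⟩ := hB
  obtain ⟨C, hC⟩ := exists_T_add_C hF haa htr hxx hax
  refine ⟨C, ?_, hC⟩
  have h1 := T_add_eq hF hA' hB' hC htr hxx hax
  have h2 : C = A * B⁻¹ := by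
    rw [h1]
    group
  rw [h2]
  exact H.mul_mem hA (H.inv_mem hB)

/-- Combining to the transvection at a sum. -/
theorem InH.T_add {a x : Fin n → F} {θ : F} (hC : InH H a (θ • x) θ) (hB : InH H x 0 θ)
    (htr : θ + θ ^ q = 0) (haa : hermForm n F q a a = 0) (hxx : hermForm n F q x x = 0)
    (hax : hermForm n F q a x = 0) : InH H (a + x) 0 θ := by
  obtain ⟨C, hC, hC'⟩ := hC
  obtain ⟨B, hB, hB'⟩ := hB
  have haxx : hermForm n F q (a + x) (a + x) = 0 := by
    have hxa := conj_zero hF hax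
    rw [hermForm_add_left, hermForm_add_right hF, hermForm_add_right hF, haa, hax, hxa, hxx]
    ring
  obtain ⟨A, hA⟩ := exists_tv hF haxx htr
  refine ⟨A, ?_, hA⟩
  rw [T_add_eq hF hA hB' hC' htr hxx hax]
  exact H.mul_mem hC hB

omit hF in
theorem Om_conj {g : SU n F q} (hF : Fintype.card F = q ^ 2) (hg : g ∈ H) {x : Fin n → F} (hx : Om H x) : Om H (act g x) := by
  intro θ hθ
  have h1 := InH.conj hF hg (hx θ hθ)
  rwa [act_zero] at h1

/-- Scaling the centre of a transvection. -/
theorem Om_scale {x : Fin n → F} (hx : Om H x) (ρ : F) : Om H (ρ • x) := by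
  intro θ hθ
  have hNq : (ρ * ρ ^ q * θ) + (ρ * ρ ^ q * θ) ^ q = 0 := by
    rw [mul_pow, mul_pow, pow_q_pow_q hF]
    linear_combination ρ * ρ ^ q * hθ
  obtain ⟨A, hA, hA'⟩ := hx _ hNq
  refine ⟨A, hA, ?_, ?_, ?_, ?_⟩
  · rw [hermForm_smul_left, hermForm_smul_right, hA'.hvv]
    ring
  · exact hermForm_zero_left _
  · rw [hermForm_zero_left, hθ, add_zero]
  · intro z
    rw [hA'.act_eq]
    simp only [hermForm_smul_right, hermForm_zero_right hF]
    module

/-- A root element at `v + x`-type combination: spans of commuting centres consist of centres. -/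
theorem Om_comb {a b : Fin n → F} (ha : Om H a) (hb : Om H b) (haa : hermForm n F q a a = 0)
    (hbb : hermForm n F q b b = 0) (hab : hermForm n F q a b = 0)
    (hE : ∀ c : F, ∃ σ, InH H a (c • b) σ) (α β : F) : Om H (α • a + β • b) := by
  by_cases hα : α = 0
  · rw [hα, zero_smul, zero_add]
    exact Om_scale hF hb β
  · have h1 : α • a + β • b = α • (a + (β / α) • b) := by
      rw [smul_add, smul_smul, mul_div_cancel₀ _ hα]
    rw [h1]
    apply Om_scale hF
    intro θ hθ
    have hxx : hermForm n F q ((β / α) • b) ((β / α) • b) = 0 := by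
      rw [hermForm_smul_left, hermForm_smul_right, hbb]
      ring
    have hax : hermForm n F q a ((β / α) • b) = 0 := by
      rw [hermForm_smul_right, hab, mul_zero]
    apply InH.T_add hF ?_ (Om_scale hF hb _ θ hθ) hθ haa hxx hax
    obtain ⟨σ, hσ⟩ := hE (θ * (β / α))
    rw [smul_smul]
    apply InH.adjust hF hσ ha
    rw [← smul_smul, hermForm_smul_left, hermForm_smul_right, hxx, hθ]
    ring

end Calc

end Cfsg.Agent.Lib.SUnReg
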