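import Mathlib
import Cfsg.Agent.Lib.SUnReg

/-!
# Regular unipotent generation of `SU_n(q)` for odd `n ≥ 5`: transvections and root elements in the subgroup
-/

set_option autoImplicit false
set_option linter.unusedSectionVars false
set_option linter.unusedSimpArgs false
set_option linter.unusedVariables false

namespace Cfsg.Agent.Lib.SUnReg

open Module Matrix Cfsg Cfsg.Agent.Lib.UnitaryBasic Cfsg.Agent.Lib.UnitarySU
  Cfsg.Agent.Lib.UnitaryConj Cfsg.Agent.Lib.UnitaryE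
  Cfsg.Agent.Lib.HermForm Cfsg.Agent.Lib.HermCount Cfsg.Agent.Lib.GUParab Cfsg.Agent.Lib.SUGen

variable {F : Type*} [Field F] [Fintype F] {q n : ℕ}

/-- The hypotheses on the two conjugate elements: they act on a totally isotropic chain. -/
structure Sys (H : Subgroup (SU n F q)) (m : ℕ) (e : ℕ → Fin n → F) (u v : SU n F q) : Prop where
  hm : 2 ≤ m
  hu : u ∈ H
  hv : v ∈ H
  iso : ∀ i j, i < m → j < m → hermForm n F q (e i) (e j) = 0
  u0 : act u (e 0) = e 0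
  us : ∀ k, k + 1 < m → act u (e (k + 1)) = e (k + 1) + e k
  ve : ∀ k, k + 1 < m → act v (e k + e (k + 1)) = e k

section Core

variable {H : Subgroup (SU n F q)} {m : ℕ} {e : ℕ → Fin n → F} {u v : SU n F q}

theorem act_eq_inv {g : SU n F q} {x z : Fin n → F} (h : act g x = z) : act g⁻¹ z = x := by
  rw [← h, act_inv_act]

namespace Sys

variable (S : Sys H m e u v)
include S

theorem w_mem : u⁻¹ * v⁻¹ ∈ H := H.mul_mem (H.inv_mem S.hu) (H.inv_mem S.hv)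

theorem vinv_e {k : ℕ} (hk : k + 1 < m) : act v⁻¹ (e k) = e k + e (k + 1) :=
  act_eq_inv (S.ve k hk)

theorem w_e {k : ℕ} (hk : k + 1 < m) : act (u⁻¹ * v⁻¹) (e k) = e (k + 1) := by
  rw [act_mul, S.vinv_e hk, add_comm]
  exact act_eq_inv (S.us k hk)

theorem wpow_e {k : ℕ} (hk : k < m) : act ((u⁻¹ * v⁻¹) ^ k) (e 0) = e k := by
  induction k with
  | zero => rw [pow_zero, act_one]
  | succ k ih =>
    rw [pow_succ', act_mul, ih (by omega), S.w_e hk]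

theorem wpow_m (hm0 : 0 < m) : act ((u⁻¹ * v⁻¹) ^ m) (e 0) = act (u⁻¹ * v⁻¹) (e (m - 1)) := by
  obtain ⟨l, rfl⟩ : ∃ l, m = l + 1 := ⟨m - 1, by omega⟩
  rw [pow_succ', act_mul, S.wpow_e (by omega)]
  rfl

variable (hF : Fintype.card F = q ^ 2)
include hF

theorem q_of_P {θ : F} (hθ : θ + θ ^ q = 0) (hP : InH H (e 0) 0 θ) : InH H (e 0) (θ • e 1) 0 := by
  have hm := S.hm
  have h1 : InH H (e 1) 0 θ := by
    have := InH.conj hF S.w_mem hP
    rwa [S.w_e (by omega), act_zero] at this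
  have h2 : InH H (e 0 + e 1) 0 θ := by
    have := InH.conj hF (H.inv_mem S.hv) hP
    rwa [S.vinv_e (by omega), act_zero] at this
  have h3 := InH.of_T_add hF h2 h1 hθ (S.iso 0 0 (by omega) (by omega)) (S.iso 1 1 (by omega) (by omega))
    (S.iso 0 1 (by omega) (by omega))
  have h4 := InH.inv hF hP
  rw [neg_zero] at h4
  have h5 := InH.add_t hF h3 h4
  rwa [hθ] at h5

/-- The key computation: a transvection at the vector `g = w e_{m-1}` moves `e₀`. -/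
theorem key1 {θ θ' : F} (hθ : θ + θ ^ q = 0) (hP : InH H (e 0) 0 θ)
    (hP' : InH H (e 0) 0 θ') (hg1 : hermForm n F q (act (u⁻¹ * v⁻¹) (e (m - 1))) (e 1) = 0) :
    ∃ σ, InH H (e 0) ((θ * θ' * (hermForm n F q (act (u⁻¹ * v⁻¹) (e (m - 1))) (e 0)) ^ q) • e (m - 1)) σ := by
  have hm := S.hm
  have hq0 : q ≠ 0 := by
    have := two_le_q' hF
    omega
  set g := act (u⁻¹ * v⁻¹) (e (m - 1)) with hg
  set τ := hermForm n F q g (e 0) with hτ
  by_cases hθ0 : θ = 0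
  · refine ⟨0, ?_⟩
    rw [hθ0, zero_mul, zero_mul, zero_smul]
    exact InH.one hF (S.iso 0 0 (by omega) (by omega))
  have hθq : θ ^ q = -θ := by linear_combination hθ
  obtain ⟨A, hA, hA'⟩ := S.q_of_P hF hθ hP
  have h11 := S.iso 1 1 (by omega) (by omega)
  have h00 := S.iso 0 0 (by omega) (by omega)
  have h1 : IsE A (e 1) (θ • e 0) 0 := by
    have h2 := IsE_swap hF hA' (by rw [hermForm_smul_left, hermForm_smul_right, h11]; ring)
    have h3 := SU3Reg.IsE.scale hF hθ0 h2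
    have e1 : θ ^ q • (-e 0) = θ • e 0 := by
      rw [hθq]
      module
    rwa [e1, mul_zero] at h3
  -- the transvection at `g`
  obtain ⟨G, hG, hG'⟩ : InH H g 0 θ' := by
    have := InH.conj hF (H.pow_mem S.w_mem m) hP'
    rwa [S.wpow_m (by omega), act_zero] at this
  have hG1 : act G (e 1) = e 1 := by
    rw [SUGen.IsE.tv_act hF hG', conj_zero hF hg1]
    simp
  have hG0 : act G (e 0) = e 0 + (θ' * τ ^ q) • g := by
    rw [SUGen.IsE.tv_act hF hG', hτ, herm_conj hF]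
  have h2 := IsE.conj hF h1 G
  rw [hG1, act_smul, hG0] at h2
  have h3 := IsE.mul hF h2 (SUOrth.IsE.inv hF h1)
  have e2 : θ • (e 0 + (θ' * τ ^ q) • g) + -(θ • e 0) = (θ * θ' * τ ^ q) • g := by
    module
  rw [e2] at h3
  -- going back by `w⁻¹`
  have h4 : InH H (e 1) ((θ * θ' * τ ^ q) • g) _ :=
    ⟨_, H.mul_mem (H.mul_mem (H.mul_mem hG hA) (H.inv_mem hG)) (H.inv_mem hA), h3⟩
  have h5 := InH.conj hF (H.inv_mem S.w_mem) h4
  have e3 : act (u⁻¹ * v⁻¹)⁻¹ (e 1) = e 0 := act_eq_inv (S.w_e (by omega))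
  have e4 : act (u⁻¹ * v⁻¹)⁻¹ g = e (m - 1) := act_inv_act _ _
  rw [e3, act_smul, e4] at h5
  exact ⟨_, h5⟩

/-- Descending along the chain by conjugating with `u`. -/
theorem key2 {ρ σ : F} {k : ℕ} (hk : k + 1 < m) (h : InH H (e 0) (ρ • e (k + 1)) σ) :
    ∃ σ', InH H (e 0) (ρ • e k) σ' := by
  have h1 := InH.conj hF S.hu h
  rw [S.u0, act_smul, S.us k hk] at h1
  have h2 := InH.mul hF h1 (InH.inv hF h)
  have e1 : ρ • (e (k + 1) + e k) + -(ρ • e (k + 1)) = ρ • e k := by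
    module
  rw [e1] at h2
  exact ⟨_, h2⟩

theorem key_down {ρ : F} {j : ℕ} (hj1 : 1 ≤ j) (hj : j < m) (h : ∃ σ, InH H (e 0) (ρ • e j) σ) :
    ∃ σ, InH H (e 0) (ρ • e 1) σ := by
  induction j, hj1 using Nat.le_induction with
  | base => exact h
  | succ j hj1 ih =>
    obtain ⟨σ, hσ⟩ := h
    exact ih (by omega) (S.key2 hF hj hσ)

/-- The last step of the descent gives a transvection at `e₀`. -/
theorem key3 {ρ σ : F} (h : InH H (e 0) (ρ • e 1) σ) : InH H (e 0) 0 (ρ - ρ ^ q) := by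
  have hm := S.hm
  have h1 := InH.conj hF S.hu h
  rw [S.u0, act_smul, S.us 0 (by omega), smul_add] at h1
  have h2 := InH.shift hF h1
  have h3 := InH.sub_same hF h2 h
  have e1 : σ + ρ - ρ ^ q - σ = ρ - ρ ^ q := by ring
  rwa [e1] at h3

/-- The closure property of the parameters of the transvections at `e₀`. -/
theorem P_closure {θ θ' : F} (hθ : θ + θ ^ q = 0) (hθ' : θ' + θ' ^ q = 0) (hP : InH H (e 0) 0 θ)
    (hP' : InH H (e 0) 0 θ') (hg1 : hermForm n F q (act (u⁻¹ * v⁻¹) (e (m - 1))) (e 1) = 0) :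
    InH H (e 0) 0 (θ * θ' * ((hermForm n F q (act (u⁻¹ * v⁻¹) (e (m - 1))) (e 0)) ^ q -
      hermForm n F q (act (u⁻¹ * v⁻¹) (e (m - 1))) (e 0))) := by
  have hm := S.hm
  obtain ⟨σ, hσ⟩ := S.key_down hF (by omega) (by omega : m - 1 < m) (S.key1 hF hθ hP hP' hg1)
  have h1 := S.key3 hF hσ
  set τ := hermForm n F q (act (u⁻¹ * v⁻¹) (e (m - 1))) (e 0) with hτ
  have hθq : θ ^ q = -θ := by linear_combination hθ
  have hθq' : θ' ^ q = -θ' := by linear_combination hθ'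
  have e1 : θ * θ' * τ ^ q - (θ * θ' * τ ^ q) ^ q = θ * θ' * (τ ^ q - τ) := by
    rw [mul_pow, mul_pow, pow_q_pow_q hF, hθq, hθq']
    ring
  rwa [e1] at h1

end Sys

end Core

section Chi

variable (hF : Fintype.card F = q ^ 2)
include hF

/-- A generator of the multiplicative group of the subfield. -/
theorem exists_chi : ∃ χ : F, χ ≠ 0 ∧ χ ^ q = χ ∧ ∀ r : F, r ≠ 0 → r ^ q = r → ∃ j : ℕ, r = χ ^ j := by
  obtain ⟨g, hg⟩ := IsCyclic.exists_generator (α := Fˣ)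
  refine ⟨(g : F) * (g : F) ^ q, mul_ne_zero g.ne_zero (pow_ne_zero _ g.ne_zero), ?_, ?_⟩
  · rw [mul_pow, pow_q_pow_q hF, mul_comm]
  · intro r hr hrq
    obtain ⟨c, hc, hcr⟩ := exists_norm hF r hr hrq
    obtain ⟨k, hk⟩ := (mem_powers_iff_mem_zpowers (x := g) (y := Units.mk0 c hc)).2 (hg _)
    refine ⟨k, ?_⟩
    have h1 : (g : F) ^ k = c := by
      have := congrArg Units.val hk
      simpa using this
    rw [← hcr, ← h1, mul_pow, ← pow_mul, ← pow_mul, mul_comm q k]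

end Chi

section Main2

variable {H : Subgroup (SU n F q)} {m : ℕ} {e : ℕ → Fin n → F} {u v : SU n F q}
variable (S : Sys H m e u v) (hF : Fintype.card F = q ^ 2)
include S hF

/-- All transvections at `e₀` are in the subgroup. -/
theorem Sys.P_all {χ τ : F} (hτdef : τ = hermForm n F q (act (u⁻¹ * v⁻¹) (e (m - 1))) (e 0))
    (hχ0 : χ ≠ 0) (hχq : χ ^ q = χ) (hχ : ∀ r : F, r ≠ 0 → r ^ q = r → ∃ j : ℕ, r = χ ^ j)
    (hg1 : hermForm n F q (act (u⁻¹ * v⁻¹) (e (m - 1))) (e 1) = 0) (hτ : τ ^ q ≠ τ)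
    (hP0 : InH H (e 0) 0 (χ / (τ ^ q - τ))) : Om H (e 0) := by
  have hm := S.hm
  have hκ0 : τ ^ q - τ ≠ 0 := sub_ne_zero.2 hτ
  have hκq : (τ ^ q - τ) ^ q = -(τ ^ q - τ) := by
    rw [HermForm.sub_pow_q hF, pow_q_pow_q hF]
    ring
  obtain ⟨κ, hκ⟩ : ∃ κ, κ = τ ^ q - τ := ⟨_, rfl⟩
  rw [← hκ] at hκ0 hκq hP0
  obtain ⟨θ₀, hθ₀def⟩ : ∃ θ₀, θ₀ = χ / κ := ⟨_, rfl⟩
  have hθ₀ : θ₀ ^ q = -θ₀ := by
    rw [hθ₀def, div_pow, hχq, hκq]
    field_simp
  have hθ₀0 : θ₀ ≠ 0 := by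
    rw [hθ₀def]
    exact div_ne_zero hχ0 hκ0
  have hθχ : ∀ j : ℕ, (θ₀ * χ ^ j) + (θ₀ * χ ^ j) ^ q = 0 := by
    intro j
    rw [mul_pow, hθ₀, ← pow_mul, mul_comm j q, pow_mul, hχq]
    ring
  have hpow : ∀ j : ℕ, InH H (e 0) 0 (θ₀ * χ ^ j) := by
    intro j
    induction j with
    | zero =>
      rw [pow_zero, mul_one, hθ₀def]
      exact hP0
    | succ j ih =>
      have h1 := S.P_closure hF (hθχ j) (by rw [hθ₀]; ring) ih (by rw [hθ₀def]; exact hP0) hg1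
      rw [← hτdef, ← hκ] at h1
      have e1 : θ₀ * χ ^ j * θ₀ * κ = θ₀ * χ ^ (j + 1) := by
        rw [hθ₀def]
        field_simp
        ring
      rwa [e1] at h1
  intro φ hφ
  by_cases hφ0 : φ = 0
  · rw [hφ0]
    exact InH.one hF (S.iso 0 0 (by omega) (by omega))
  have hφq : φ ^ q = -φ := by linear_combination hφ
  obtain ⟨j, hj⟩ := hχ (φ / θ₀) (div_ne_zero hφ0 hθ₀0) (by
    rw [div_pow, hφq, hθ₀]
    field_simp)
  have e2 : φ = θ₀ * χ ^ j := by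
    rw [← hj]
    field_simp
  rw [e2]
  exact hpow j

/-- All multiples of `e₁` occur in root elements at `e₀`. -/
theorem Sys.Q_all {τ : F} (hτdef : τ = hermForm n F q (act (u⁻¹ * v⁻¹) (e (m - 1))) (e 0))
    (hO : Om H (e 0)) (hg1 : hermForm n F q (act (u⁻¹ * v⁻¹) (e (m - 1))) (e 1) = 0)
    (hτ3 : τ + τ ^ q ≠ 0) (c : F) : ∃ σ, InH H (e 0) (c • e 1) σ := by
  have hm := S.hm
  obtain ⟨θ₀, hθ₀0, hθ₀⟩ := exists_trace_zero hF
  have hθ₀q : θ₀ ^ q = -θ₀ := by linear_combination hθ₀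
  obtain ⟨r, hr⟩ : ∃ r, r = (c + c ^ q) / (τ + τ ^ q) := ⟨_, rfl⟩
  have hrmul : r * (τ + τ ^ q) = c + c ^ q := by
    rw [hr]
    field_simp
  have hrq : r ^ q = r := by
    rw [hr, div_pow, HermForm.add_pow_q hF, HermForm.add_pow_q hF, pow_q_pow_q hF, pow_q_pow_q hF, add_comm (c ^ q),
      add_comm (τ ^ q)]
  obtain ⟨θ₁, hθ₁def⟩ : ∃ θ₁, θ₁ = c - r * τ ^ q := ⟨_, rfl⟩
  have hθ₁ : θ₁ + θ₁ ^ q = 0 := by
    rw [hθ₁def, HermForm.sub_pow_q hF, mul_pow, pow_q_pow_q hF, hrq]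
    linear_combination -hrmul
  have h1 := S.q_of_P hF hθ₁ (hO _ hθ₁)
  obtain ⟨θ', hθ'def⟩ : ∃ θ', θ' = r / θ₀ := ⟨_, rfl⟩
  have hθ' : θ' + θ' ^ q = 0 := by
    rw [hθ'def, div_pow, hrq, hθ₀q]
    field_simp
    ring
  obtain ⟨σ, hσ⟩ := S.key_down hF (by omega) (by omega : m - 1 < m)
    (S.key1 hF hθ₀ (hO _ hθ₀) (hO _ hθ') hg1)
  rw [← hτdef] at hσ
  have h2 := InH.mul hF h1 hσ
  have e1 : θ₁ • e 1 + (θ₀ * θ' * τ ^ q) • e 1 = c • e 1 := by
    rw [← add_smul, hθ'def, hθ₁def]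
    congr 1
    field_simp
    ring
  rw [e1] at h2
  exact ⟨_, h2⟩

end Main2

section Wsec

/-- The vectors all of whose multiples occur in root elements at `v`. -/
def Wp (H : Subgroup (SU n F q)) (v z : Fin n → F) : Prop :=
  hermForm n F q z v = 0 ∧ ∀ c : F, ∃ σ, InH H v (c • z) σ

variable (hF : Fintype.card F = q ^ 2)
include hF

variable {H : Subgroup (SU n F q)} {v z z₁ z₂ : Fin n → F}

theorem Wp_add (h₁ : Wp H v z₁) (h₂ : Wp H v z₂) : Wp H v (z₁ + z₂) := by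
  refine ⟨by rw [hermForm_add_left, h₁.1, h₂.1, add_zero], fun c => ?_⟩
  obtain ⟨σ₁, h3⟩ := h₁.2 c
  obtain ⟨σ₂, h4⟩ := h₂.2 c
  rw [smul_add]
  exact ⟨_, InH.mul hF h3 h4⟩

theorem Wp_smul (h : Wp H v z) (d : F) : Wp H v (d • z) := by
  refine ⟨by rw [hermForm_smul_left, h.1, mul_zero], fun c => ?_⟩
  rw [smul_smul]
  exact h.2 _

theorem Wp_sub (h₁ : Wp H v z₁) (h₂ : Wp H v z₂) : Wp H v (z₁ - z₂) := by
  have h3 := Wp_add hF h₁ (Wp_smul hF h₂ (-1))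
  have e1 : z₁ + (-1 : F) • z₂ = z₁ - z₂ := by
    rw [neg_one_smul, sub_eq_add_neg]
  rwa [e1] at h3

theorem Wp_zero (hvv : hermForm n F q v v = 0) : Wp H v 0 := by
  refine ⟨hermForm_zero_left _, fun c => ⟨0, ?_⟩⟩
  rw [smul_zero]
  exact InH.one hF hvv

theorem Wp_conj {g : SU n F q} (hg : g ∈ H) (hgv : act g v = v) (h : Wp H v z) : Wp H v (act g z) := by
  refine ⟨?_, fun c => ?_⟩
  · rw [← hgv, herm_act]
    exact h.1
  · obtain ⟨σ, hσ⟩ := h.2 c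
    have h1 := InH.conj hF hg hσ
    rw [hgv, act_smul] at h1
    exact ⟨σ, h1⟩

/-- A centre of transvections orthogonal to `v` and not orthogonal to a vector in `Wp` is in `Wp`. -/
theorem Wp_of_tv {x : Fin n → F} (hx : Om H x) (hxv : hermForm n F q x v = 0)
    (hz : Wp H v z) (hzx : hermForm n F q z x ≠ 0) : Wp H v x := by
  obtain ⟨θ₀, hθ₀0, hθ₀⟩ := exists_trace_zero hF
  obtain ⟨T, hT, hT'⟩ := hx θ₀ hθ₀
  have h1 : act T v = v := by
    rw [SUGen.IsE.tv_act hF hT', conj_zero hF hxv]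
    simp
  have h2 := Wp_conj hF hT h1 hz
  rw [SUGen.IsE.tv_act hF hT'] at h2
  have h3 := Wp_sub hF h2 hz
  rw [add_sub_cancel_left] at h3
  have h4 := Wp_smul hF h3 (θ₀ * hermForm n F q z x)⁻¹
  rwa [smul_smul, inv_mul_cancel₀ (mul_ne_zero hθ₀0 hzx), one_smul] at h4

end Wsec

end Cfsg.Agent.Lib.SUnReg
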