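import Mathlib
import Cfsg.Agent.Lib.SUnReg2

/-!
# Regular unipotent generation of `SU_n(q)` for odd `n ≥ 5`: the final criterion and the chain argument
-/

set_option autoImplicit false
set_option linter.unusedSectionVars false
set_option linter.unusedSimpArgs false
set_option linter.unusedVariables false

namespace Cfsg.Agent.Lib.SUnReg

open Module Matrix Cfsg Cfsg.Agent.Lib.UnitaryBasic Cfsg.Agent.Lib.UnitarySU
  Cfsg.Agent.Lib.UnitaryConj Cfsg.Agent.Lib.UnitaryE
  Cfsg.Agent.Lib.HermForm Cfsg.Agent.Lib.HermCount Cfsg.Agent.Lib.GUParab Cfsg.Agent.Lib.SUGen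

variable {F : Type*} [Field F] [Fintype F] {q n : ℕ}

/-- All root elements at `x` are in `H`. -/
def Om2 (H : Subgroup (SU n F q)) (x : Fin n → F) : Prop :=
  ∀ y s, hermForm n F q y x = 0 → s + s ^ q + hermForm n F q y y = 0 → InH H x y s

section Final

variable (hF : Fintype.card F = q ^ 2)
include hF

variable {H : Subgroup (SU n F q)}

theorem Om2_conj {k : SU n F q} (hk : k ∈ H) {x : Fin n → F} (hx : Om2 H x) : Om2 H (act k x) := by
  intro y s hy hs
  have h1 : hermForm n F q (act k⁻¹ y) x = 0 := by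
    have := herm_act k⁻¹ y (act k x)
    rw [act_inv_act] at this
    rw [this, hy]
  have h2 : hermForm n F q (act k⁻¹ y) (act k⁻¹ y) = hermForm n F q y y := herm_act _ _ _
  have h3 := InH.conj hF hk (hx _ s h1 (by rw [h2]; exact hs))
  rwa [act_act_inv] at h3

theorem Om2_scale {ρ : F} {x : Fin n → F} (hx : Om2 H x) : Om2 H (ρ • x) := by
  intro Y s hY hs
  have hY' : hermForm n F q (ρ ^ q • Y) x = 0 := by
    rw [hermForm_smul_left]
    rwa [hermForm_smul_right] at hY
  have hs' : ρ * ρ ^ q * s + (ρ * ρ ^ q * s) ^ q + hermForm n F q (ρ ^ q • Y) (ρ ^ q • Y) = 0 := by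
    rw [hermForm_smul_left, hermForm_smul_right, mul_pow, mul_pow, pow_q_pow_q hF]
    linear_combination ρ * ρ ^ q * hs
  obtain ⟨A, hA, hA'⟩ := hx _ _ hY' hs'
  refine ⟨A, hA, ?_, hY, hs, ?_⟩
  · rw [hermForm_smul_left, hermForm_smul_right, hA'.hvv]
    ring
  · intro z
    rw [hA'.act_eq]
    simp only [hermForm_smul_right, pow_q_pow_q hF]
    module

/-- Moving the property along root elements at a base point. -/
theorem Om2_move {b p x : Fin n → F} (hb : Om2 H b) (hp : Om2 H p) (hbb : hermForm n F q b b = 0)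
    (hpp : hermForm n F q p p = 0) (hxx : hermForm n F q x x = 0) (hpb : hermForm n F q p b ≠ 0)
    (hxb : hermForm n F q x b ≠ 0) : Om2 H x := by
  obtain ⟨ρ, hρ⟩ : ∃ ρ, ρ = hermForm n F q x b / hermForm n F q p b := ⟨_, rfl⟩
  have hρ0 : ρ ≠ 0 := by
    rw [hρ]
    exact div_ne_zero hxb hpb
  have h1 : hermForm n F q (ρ • p) b = hermForm n F q x b := by
    rw [hermForm_smul_left, hρ]
    field_simp
  have h2 : hermForm n F q (x - ρ • p) b = 0 := by
    rw [hermForm_sub_left, h1, sub_self]
  have h3 : hermForm n F q (ρ • p) b ≠ 0 := by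
    rw [h1]
    exact hxb
  have h4 : hermForm n F q (ρ • p + (x - ρ • p)) (ρ • p + (x - ρ • p)) = hermForm n F q (ρ • p) (ρ • p) := by
    rw [add_sub_cancel, hxx, hermForm_smul_left, hermForm_smul_right, hpp]
    ring
  obtain ⟨A, y, s, hA, hA2⟩ := exists_E_move hF hbb h2 h3 h4
  obtain ⟨A', hA', hA''⟩ := hb y s hA.hyv hA.hs
  have h5 : A' = A := SUOrth.IsE.unique hA'' hA
  rw [h5] at hA'
  have h6 := Om2_conj hF hA' (Om2_scale hF (ρ := ρ) hp)
  rwa [hA2, add_sub_cancel] at h6

/-- The final criterion. -/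
theorem final_gen (hn : 3 ≤ n) (h32 : ¬ (n = 3 ∧ q = 2)) {e₀ : Fin n → F} (h00 : hermForm n F q e₀ e₀ = 0)
    (hall : Om2 H e₀) {g : SU n F q} (hg : g ∈ H) (hne : hermForm n F q (act g e₀) e₀ ≠ 0) : H = ⊤ := by
  have hp₂ : Om2 H (act g e₀) := Om2_conj hF hg hall
  have hp₂p₂ : hermForm n F q (act g e₀) (act g e₀) = 0 := by
    rw [herm_act, h00]
  have key : ∀ x : Fin n → F, x ≠ 0 → hermForm n F q x x = 0 → Om2 H x := by
    intro x hx0 hxx
    by_cases hxe : hermForm n F q x e₀ = 0
    · by_cases hspan : x ∈ Submodule.span F (Set.range ![e₀])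
      · have h1 : x ∈ Submodule.span F {e₀} := by
          simpa using hspan
        obtain ⟨c, hc⟩ := Submodule.mem_span_singleton.1 h1
        rw [← hc]
        exact Om2_scale hF hall
      · have he₀0 : e₀ ≠ 0 := by
          intro h0
          apply hne
          rw [h0, hermForm_zero_right hF]
        obtain ⟨p₁, hp₁p₁, hp₁x, hp₁e⟩ := exists_partner hF hxx (li_single hF he₀0) (by
          intro i
          fin_cases i
          simpa using hxe) hspan
        have hp₁e₀ : hermForm n F q p₁ e₀ = 0 := by simpa using hp₁e 0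
        have hex : hermForm n F q e₀ x = 0 := conj_zero hF hxe
        by_cases hpx : hermForm n F q (act g e₀) x = 0
        · obtain ⟨E, hE, hE'⟩ := hall p₁ 0 hp₁e₀ (by
            have hq0 : q ≠ 0 := by
              have := two_le_q' hF
              omega
            rw [hp₁p₁, zero_pow hq0]
            ring)
          have hp := Om2_conj hF hE hp₂
          have hpp : hermForm n F q (act E (act g e₀)) (act E (act g e₀)) = 0 := by
            rw [herm_act, hp₂p₂]
          have h2 : hermForm n F q (act E (act g e₀)) x ≠ 0 := by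
            rw [hE'.act_eq]
            simp only [zero_smul, add_zero, hermForm_sub_left, hermForm_add_left, hermForm_smul_left, hpx,
              hp₁x, hex]
            simpa using hne
          have h3 : hermForm n F q (act E (act g e₀)) e₀ ≠ 0 := by
            rw [hE'.act_eq]
            simp only [zero_smul, add_zero, hermForm_sub_left, hermForm_add_left, hermForm_smul_left, h00,
              hp₁e₀]
            simpa using hne
          exact Om2_move hF hp hall hpp h00 hxx (fun h => h3 (conj_zero hF h)) (fun h => h2 (conj_zero hF h))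
        · exact Om2_move hF hp₂ hall hp₂p₂ h00 hxx (fun h => hne (conj_zero hF h)) (fun h => hpx (conj_zero hF h))
    · exact Om2_move hF hall hp₂ h00 hp₂p₂ hxx hne hxe
  rw [eq_top_iff, ← TT_eq_top hF hn h32, TT, Subgroup.closure_le]
  rintro T ⟨p, c, hT⟩
  by_cases hp0 : p = 0
  · subst hp0
    rw [SU3Reg.eq_one_of_zero_vec hF hT]
    exact H.one_mem
  · obtain ⟨A, hA, hA'⟩ := key p hp0 hT.hvv 0 c hT.hyv hT.hs
    rw [← SUOrth.IsE.unique hA' hT]
    exact hA

end Final

section Chain

variable {N M : Matrix (Fin n) (Fin n) F} {f₀ : Fin n → F}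

theorem pow_kill (hN : (N ^ n) *ᵥ f₀ = 0) {k : ℕ} (hk : n ≤ k) : (N ^ k) *ᵥ f₀ = 0 := by
  obtain ⟨t, rfl⟩ : ∃ t, k = t + n := ⟨k - n, by omega⟩
  rw [pow_add, ← mulVec_mulVec, hN, mulVec_zero]

theorem chain_li (hN : (N ^ n) *ᵥ f₀ = 0) (hN1 : (N ^ (n - 1)) *ᵥ f₀ ≠ 0) :
    LinearIndependent F (fun i : Fin n => (N ^ (i : ℕ)) *ᵥ f₀) := by
  rw [Fintype.linearIndependent_iff]
  intro g hg
  have key : ∀ k (hk : k < n), g ⟨k, hk⟩ = 0 := by
    intro k
    induction k using Nat.strong_induction_on with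
    | _ k ih =>
      intro hk
      have h1 := congrArg (fun x => (N ^ (n - 1 - k)) *ᵥ x) hg
      simp only [mulVec_zero, mulVec_sum, mulVec_smul, mulVec_mulVec, ← pow_add] at h1
      rw [Finset.sum_eq_single (⟨k, hk⟩ : Fin n)] at h1
      · have e1 : n - 1 - k + k = n - 1 := by omega
        simp only [e1] at h1
        exact (smul_eq_zero.1 h1).resolve_right hN1
      · intro i _ hi
        have hi' : (i : ℕ) ≠ k := fun h => hi (Fin.ext h)
        by_cases hlt : (i : ℕ) < k
        · have := ih i hlt i.2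
          rw [show (⟨(i : ℕ), i.2⟩ : Fin n) = i from rfl] at this
          rw [this, zero_smul]
        · rw [pow_kill hN (by omega), smul_zero]
      · simp
  intro i
  exact key i i.2

theorem chain_span (hN : (N ^ n) *ᵥ f₀ = 0) (hN1 : (N ^ (n - 1)) *ᵥ f₀ ≠ 0) :
    Submodule.span F (Set.range (fun i : Fin n => (N ^ (i : ℕ)) *ᵥ f₀)) = ⊤ :=
  (chain_li hN hN1).span_eq_top_of_card_eq_finrank' (by simp)

variable (hF : Fintype.card F = q ^ 2)
include hF

theorem chain_zero (hN : (N ^ n) *ᵥ f₀ = 0) (hN1 : (N ^ (n - 1)) *ᵥ f₀ ≠ 0) {x : Fin n → F}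
    (hx : ∀ j, j < n → hermForm n F q x ((N ^ j) *ᵥ f₀) = 0) : x = 0 := by
  have h1 : ∀ z, hermForm n F q x z = 0 := by
    intro z
    have hz : z ∈ Submodule.span F (Set.range (fun i : Fin n => (N ^ (i : ℕ)) *ᵥ f₀)) := by
      rw [chain_span hN hN1]
      trivial
    induction hz using Submodule.span_induction with
    | mem z hz =>
      obtain ⟨i, rfl⟩ := hz
      exact hx i i.2
    | zero => exact hermForm_zero_right hF _
    | add a b _ _ ha hb => rw [hermForm_add_right hF, ha, hb, add_zero]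
    | smul c a _ ha => rw [hermForm_smul_right, ha, mul_zero]
  funext i
  have := h1 (Pi.single i 1)
  rw [hermForm_single_right hF] at this
  simpa using this

/-- The covering argument: an invariant set containing a vector of maximal depth contains
everything orthogonal to the socle of the chain. -/
theorem cover (hn : 2 ≤ n)
    (hadj : ∀ x z, hermForm n F q (M *ᵥ x) z = hermForm n F q x (N *ᵥ z))
    {P : (Fin n → F) → Prop} (hM : ∀ x, P x → P (M *ᵥ x)) (hadd : ∀ a b, P a → P b → P (a + b))
    (hsmul : ∀ (c : F) a, P a → P (c • a)) (hzero : P 0)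
    (hN : (N ^ n) *ᵥ f₀ = 0) (hN1 : (N ^ (n - 1)) *ᵥ f₀ ≠ 0) {y : Fin n → F} (hy : P y)
    (hK : hermForm n F q y ((N ^ (n - 2)) *ᵥ f₀) ≠ 0) (hK0 : hermForm n F q y ((N ^ (n - 1)) *ᵥ f₀) = 0)
    {z : Fin n → F} (hz : hermForm n F q z ((N ^ (n - 1)) *ᵥ f₀) = 0) : P z := by
  have hadjk : ∀ (k : ℕ) x z, hermForm n F q ((M ^ k) *ᵥ x) z = hermForm n F q x ((N ^ k) *ᵥ z) := by
    intro k
    induction k with
    | zero => intro x z; simp
    | succ k ih =>
      intro x z
      rw [pow_succ, ← mulVec_mulVec, ih, hadj, mulVec_mulVec, ← pow_succ']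
  have hPk : ∀ k : ℕ, P ((M ^ k) *ᵥ y) := by
    intro k
    induction k with
    | zero => simpa using hy
    | succ k ih =>
      rw [pow_succ', ← mulVec_mulVec]
      exact hM _ ih
  have main : ∀ j, j ≤ n - 1 → ∀ z : Fin n → F,
      (∀ l, j ≤ l → l < n → hermForm n F q z ((N ^ l) *ᵥ f₀) = 0) → P z := by
    intro j
    induction j with
    | zero =>
      intro _ z hz
      have : z = 0 := chain_zero hF hN hN1 (fun l hl => hz l (Nat.zero_le _) hl)
      rw [this]
      exact hzero
    | succ j ih =>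
      intro hj z hz
      obtain ⟨x, hx⟩ : ∃ x, x = (M ^ (n - 2 - j)) *ᵥ y := ⟨_, rfl⟩
      have hxP : P x := by
        rw [hx]
        exact hPk _
      have hxl : ∀ l, hermForm n F q x ((N ^ l) *ᵥ f₀) = hermForm n F q y ((N ^ (n - 2 - j + l)) *ᵥ f₀) := by
        intro l
        rw [hx, hadjk, mulVec_mulVec, pow_add]
      have hxj : hermForm n F q x ((N ^ j) *ᵥ f₀) = hermForm n F q y ((N ^ (n - 2)) *ᵥ f₀) := by
        rw [hxl, show n - 2 - j + j = n - 2 by omega]
      have hxgt : ∀ l, j < l → hermForm n F q x ((N ^ l) *ᵥ f₀) = 0 := by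
        intro l hl
        rw [hxl]
        by_cases h1 : n - 2 - j + l = n - 1
        · rw [h1, hK0]
        · rw [pow_kill hN (by omega), hermForm_zero_right hF]
      obtain ⟨c, hc⟩ : ∃ c, c = hermForm n F q z ((N ^ j) *ᵥ f₀) / hermForm n F q y ((N ^ (n - 2)) *ᵥ f₀) := ⟨_, rfl⟩
      have h2 : P (z + (-c) • x) := by
        apply ih (by omega)
        intro l hjl hl
        rw [hermForm_add_left, hermForm_smul_left]
        by_cases h3 : l = j
        · subst h3
          rw [hxj, hc]
          field_simp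
          ring
        · rw [hxgt l (by omega), hz l (by omega) hl]
          ring
      have h3 := hadd _ _ h2 (hsmul c x hxP)
      have e1 : z + (-c) • x + c • x = z := by
        module
      rwa [e1] at h3
  exact main (n - 1) le_rfl z (fun l hl hl2 => by
    have : l = n - 1 := by omega
    rw [this]
    exact hz)

end Chain

end Cfsg.Agent.Lib.SUnReg
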