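import Mathlib
import Cfsg.Agent.Lib.SUnReg3

/-!
# Regular unipotent generation of `SU_n(q)` for odd `n ≥ 5`: Witt bases and the regular unipotent element
-/

set_option autoImplicit false
set_option linter.unusedSectionVars false
set_option linter.unusedSimpArgs false
set_option linter.unusedVariables false

namespace Cfsg.Agent.Lib.SUnReg

open Module Matrix Cfsg Cfsg.Agent.Lib.UnitaryBasic Cfsg.Agent.Lib.UnitarySU
  Cfsg.Agent.Lib.UnitaryConj Cfsg.Agent.Lib.UnitaryE
  Cfsg.Agent.Lib.HermForm Cfsg.Agent.Lib.HermCount Cfsg.Agent.Lib.GUParab Cfsg.Agent.Lib.SUGen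

variable {F : Type*} [Field F] [Fintype F] {q n : ℕ}

/-- A Witt basis of an odd-dimensional Hermitian space, as far as it is used. -/
structure Witt (q m : ℕ) (e f : ℕ → Fin n → F) (n₀ : Fin n → F) : Prop where
  hee : ∀ i j, i < m → j < m → hermForm n F q (e i) (e j) = 0
  hff : ∀ i j, i < m → j < m → hermForm n F q (f i) (f j) = 0
  hef : ∀ i j, i < m → j < m → hermForm n F q (e i) (f j) = if i = j then 1 else 0
  hen : ∀ i, i < m → hermForm n F q (e i) n₀ = 0
  hfn : ∀ i, i < m → hermForm n F q (f i) n₀ = 0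
  hnn : hermForm n F q n₀ n₀ = 1

section WittLemmas

variable (hF : Fintype.card F = q ^ 2)
include hF

variable {m : ℕ} {e f : ℕ → Fin n → F} {n₀ : Fin n → F}

theorem Witt.hfe (W : Witt q m e f n₀) {i j : ℕ} (hi : i < m) (hj : j < m) :
    hermForm n F q (f i) (e j) = if i = j then 1 else 0 := by
  rw [← herm_conj hF (e j) (f i), W.hef j i hj hi]
  by_cases h : i = j
  · subst h
    simp
  · have hq0 : q ≠ 0 := by
      have := two_le_q' hF
      omega
    simp [h, Ne.symm h, hq0]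

theorem Witt.hne (W : Witt q m e f n₀) {i : ℕ} (hi : i < m) : hermForm n F q n₀ (e i) = 0 :=
  conj_zero hF (W.hen i hi)

theorem Witt.hnf (W : Witt q m e f n₀) {i : ℕ} (hi : i < m) : hermForm n F q n₀ (f i) = 0 :=
  conj_zero hF (W.hfn i hi)

/-- The exchange of a hyperbolic pair. -/
theorem exists_swap {v w : Fin n → F} (hvv : hermForm n F q v v = 0) (hww : hermForm n F q w w = 0)
    (hwv : hermForm n F q w v = 1) {θ : F} (hθ : θ ≠ 0) (htr : θ + θ ^ q = 0) :
    ∃ τ : SU n F q, act τ v = (-θ⁻¹) • w ∧ act τ w = θ • v ∧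
      ∀ y, hermForm n F q y v = 0 → hermForm n F q y w = 0 → act τ y = y := by
  have hvw : hermForm n F q v w = 1 := by rw [← herm_conj hF w v, hwv, one_pow]
  have hθq : θ ^ q = -θ := by linear_combination htr
  have htr' : (-θ⁻¹) + (-θ⁻¹) ^ q = 0 := by
    rw [HermForm.neg_pow_q hF, inv_pow, hθq]
    field_simp
    ring
  obtain ⟨T₁, hT₁⟩ := exists_tv hF hvv htr
  obtain ⟨T₂, hT₂⟩ := exists_tv hF hww htr'
  refine ⟨T₁ * T₂ * T₁, ?_, ?_, ?_⟩
  · simp only [act_mul, SUGen.IsE.tv_act hF hT₁, SUGen.IsE.tv_act hF hT₂, hvv, hww, hvw, hwv, mul_zero, zero_smul,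
      add_zero, act_add, act_smul, mul_one, hermForm_add_left, hermForm_smul_left]
    have e1 : θ * (-θ⁻¹) = -1 := by field_simp
    simp only [hermForm_add_left, hermForm_smul_left, hvv, hww, hvw, hwv, mul_zero, zero_add, add_zero, mul_one]
    rw [e1]
    module
  · simp only [act_mul, SUGen.IsE.tv_act hF hT₁, SUGen.IsE.tv_act hF hT₂, hvv, hww, hvw, hwv, mul_zero, zero_smul,
      add_zero, mul_one, hermForm_add_left, hermForm_smul_left, zero_add]
    have e3 : (-θ⁻¹) * θ = -1 := by field_simp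
    rw [e3]
    module
  · intro y h1 h2
    simp only [act_mul, SUGen.IsE.tv_act hF hT₁, SUGen.IsE.tv_act hF hT₂, h1, h2, mul_zero, zero_smul, add_zero]

end WittLemmas

section Lev

variable (hF : Fintype.card F = q ^ 2)
include hF

variable {m : ℕ} {e f : ℕ → Fin n → F} {n₀ : Fin n → F}

/-- The chain part of the regular unipotent element. -/
theorem exists_L (W : Witt q m e f n₀) (j : ℕ) (hj : j < m) :
    ∃ L : SU n F q, (∀ i, i < m → (i = 0 ∨ j < i) → act L (e i) = e i) ∧
      (∀ k, k < j → act L (e (k + 1)) = e (k + 1) + e k) ∧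
      act L n₀ = n₀ ∧
      (∀ i, i < m → j ≤ i → act L (f i) = f i) ∧
      (∀ k, k < j → act L (f k + f (k + 1)) = f k) := by
  induction j with
  | zero =>
    refine ⟨1, ?_, ?_, ?_, ?_, ?_⟩
    · intro i _ _
      rw [act_one]
    · intro k hk
      omega
    · rw [act_one]
    · intro i _ _
      rw [act_one]
    · intro k hk
      omega
  | succ j ih =>
    obtain ⟨L, h1, h2, h3, h4, h5⟩ := ih (by omega)
    have hj0 : j < m := by omega
    have hj1 : j + 1 < m := hj
    obtain ⟨r, hr⟩ : ∃ r : SU n F q, IsE r (e j) (-f (j + 1)) 0 := by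
      apply exists_IsE hF (W.hee j j hj0 hj0)
      · rw [SUOrth.herm_neg_left hF, W.hfe hF hj1 hj0, if_neg (by omega), neg_zero]
      · have hq0 : q ≠ 0 := by
          have := two_le_q' hF
          omega
        rw [SUOrth.herm_neg_left hF, SUOrth.herm_neg_right hF, W.hff _ _ hj1 hj1, zero_pow hq0]
        simp
    have hract : ∀ x, act r x = x - hermForm n F q x (e j) • f (j + 1) + hermForm n F q x (f (j + 1)) • e j := by
      intro x
      rw [hr.act_eq, SUOrth.herm_neg_right hF]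
      simp only [zero_smul, add_zero]
      module
    have hre : ∀ i, i < m → i ≠ j + 1 → act r (e i) = e i := by
      intro i hi hne
      rw [hract, W.hee i j hi hj0, W.hef i (j + 1) hi hj1, if_neg hne]
      simp
    have hrf : ∀ i, i < m → i ≠ j → act r (f i) = f i := by
      intro i hi hne
      rw [hract, W.hfe hF hi hj0, if_neg hne, W.hff i (j + 1) hi hj1]
      simp
    refine ⟨r * L, ?_, ?_, ?_, ?_, ?_⟩
    · intro i hi hi2
      rw [act_mul, h1 i hi (by omega), hre i hi (by omega)]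
    · intro k hk
      rw [act_mul]
      by_cases hkj : k = j
      · subst hkj
        rw [h1 (k + 1) hj1 (by omega), hract, W.hee _ _ hj1 hj0, W.hef _ _ hj1 hj1, if_pos rfl]
        simp
      · rw [h2 k (by omega), act_add, hre _ (by omega) (by omega), hre _ (by omega) (by omega)]
    · rw [act_mul, h3, hract, W.hne hF hj0, W.hnf hF hj1]
      simp
    · intro i hi hi2
      rw [act_mul, h4 i hi (by omega), hrf i hi (by omega)]
    · intro k hk
      rw [act_mul]
      by_cases hkj : k = j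
      · subst hkj
        rw [act_add, h4 k hj0 le_rfl, h4 (k + 1) hj1 (by omega), act_add, hract, hract,
          W.hfe hF hj0 hj0, if_pos rfl, W.hfe hF hj1 hj0, if_neg (by omega), W.hff _ _ hj0 hj1,
          W.hff _ _ hj1 hj1]
        simp
      · rw [h5 k (by omega), hrf k (by omega) hkj]

end Lev

/-- The properties of the regular unipotent element on the Witt basis. -/
structure UF (q m : ℕ) (e f : ℕ → Fin n → F) (n₀ : Fin n → F) (u : SU n F q) (a s : F) : Prop where
  u0 : act u (e 0) = e 0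
  us : ∀ k, k + 1 < m → act u (e (k + 1)) = e (k + 1) + e k
  un : act u n₀ = n₀ - a ^ q • e (m - 1)
  ul : act u (f (m - 1)) = f (m - 1) + a • n₀ + s • e (m - 1)
  uf : ∀ k, k + 1 < m → act u (f k + f (k + 1)) = f k

/-- The matrix of an element of `SU`. -/
abbrev Um (A : SU n F q) : Matrix (Fin n) (Fin n) F :=
  ((A : Matrix.SpecialLinearGroup (Fin n) F) : Matrix (Fin n) (Fin n) F)

section U

variable (hF : Fintype.card F = q ^ 2)
include hF

variable {m : ℕ} {e f : ℕ → Fin n → F} {n₀ : Fin n → F}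

theorem exists_u (W : Witt q m e f n₀) (hm : 2 ≤ m) {a s : F} (hs : s + s ^ q + a * a ^ q = 0) :
    ∃ u : SU n F q, UF q m e f n₀ u a s := by
  obtain ⟨L, h1, h2, h3, h4, h5⟩ := exists_L hF W (m - 1) (by omega)
  have hl : m - 1 < m := by omega
  obtain ⟨A, hA⟩ : ∃ A : SU n F q, IsE A (e (m - 1)) (a • n₀) s := by
    apply exists_IsE hF (W.hee _ _ hl hl)
    · rw [hermForm_smul_left, W.hne hF hl, mul_zero]
    · rw [hermForm_smul_left, hermForm_smul_right, W.hnn]
      linear_combination hs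
  have hAact : ∀ x, act A x = x + hermForm n F q x (e (m - 1)) • (a • n₀ + s • e (m - 1)) -
      (a ^ q * hermForm n F q x n₀) • e (m - 1) := by
    intro x
    rw [hA.act_eq, hermForm_smul_right]
  have hAe : ∀ i, i < m → act A (e i) = e i := by
    intro i hi
    rw [hAact, W.hee _ _ hi hl, W.hen i hi]
    simp
  have hAf : ∀ i, i < m → i ≠ m - 1 → act A (f i) = f i := by
    intro i hi hne
    rw [hAact, W.hfe hF hi hl, if_neg hne, W.hfn i hi]
    simp
  refine ⟨A * L, ?_, ?_, ?_, ?_, ?_⟩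
  · rw [act_mul, h1 0 (by omega) (Or.inl rfl), hAe 0 (by omega)]
  · intro k hk
    rw [act_mul, h2 k (by omega), act_add, hAe _ hk, hAe _ (by omega)]
  · rw [act_mul, h3, hAact, W.hne hF hl, W.hnn]
    simp
  · rw [act_mul, h4 _ hl le_rfl, hAact, W.hfe hF hl hl, if_pos rfl, W.hfn _ hl]
    simp only [one_smul, mul_zero, zero_smul, sub_zero]
    rw [add_assoc]
  · intro k hk
    rw [act_mul, h5 k (by omega), hAf k (by omega) (by omega)]

/-- The monomial element exchanging the two halves of the Witt basis. -/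
theorem exists_sigma (W : Witt q m e f n₀) {θ : F} (hθ : θ ≠ 0) (htr : θ + θ ^ q = 0) (j : ℕ) (hj : j ≤ m) :
    ∃ σ : SU n F q, (∀ k, k < j → act σ (e k) = (-θ⁻¹) • f k ∧ act σ (f k) = θ • e k) ∧
      (∀ k, j ≤ k → k < m → act σ (e k) = e k ∧ act σ (f k) = f k) ∧ act σ n₀ = n₀ := by
  induction j with
  | zero =>
    refine ⟨1, ?_, ?_, ?_⟩
    · intro k hk
      omega
    · intro k _ _
      simp [act_one]
    · rw [act_one]
  | succ j ih =>
    obtain ⟨σ, h1, h2, h3⟩ := ih (by omega)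
    have hj0 : j < m := by omega
    obtain ⟨τ, t1, t2, t3⟩ := exists_swap hF (W.hee j j hj0 hj0) (W.hff j j hj0 hj0)
      (by rw [W.hfe hF hj0 hj0, if_pos rfl]) hθ htr
    have hτe : ∀ k, k < m → k ≠ j → act τ (e k) = e k := by
      intro k hk hne
      apply t3 _ (W.hee k j hk hj0)
      rw [W.hef k j hk hj0, if_neg hne]
    have hτf : ∀ k, k < m → k ≠ j → act τ (f k) = f k := by
      intro k hk hne
      apply t3 _ _ (W.hff k j hk hj0)
      rw [W.hfe hF hk hj0, if_neg hne]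
    refine ⟨τ * σ, ?_, ?_, ?_⟩
    · intro k hk
      rw [act_mul, act_mul]
      by_cases hkj : k = j
      · subst hkj
        obtain ⟨a1, a2⟩ := h2 k le_rfl hj0
        rw [a1, a2, t1, t2]
        exact ⟨rfl, rfl⟩
      · obtain ⟨a1, a2⟩ := h1 k (by omega)
        rw [a1, a2, act_smul, act_smul, hτf k (by omega) hkj, hτe k (by omega) hkj]
        exact ⟨rfl, rfl⟩
    · intro k hk hk2
      rw [act_mul, act_mul]
      obtain ⟨a1, a2⟩ := h2 k (by omega) hk2
      rw [a1, a2, hτe k hk2 (by omega), hτf k hk2 (by omega)]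
      exact ⟨rfl, rfl⟩
    · rw [act_mul, h3]
      apply t3 _ (W.hne hF hj0) (W.hnf hF hj0)

/-- The chain computation for the regular unipotent element. -/
theorem reg_chain {p : ℕ} {e f : ℕ → Fin n → F} {n₀ : Fin n → F} {u : SU n F q} {a s : F}
    (U : UF q (p + 2) e f n₀ u a s) (ha : a ≠ 0) :
    ∃ κ κ' : F, κ ≠ 0 ∧ ((Um u - 1) ^ (2 * p + 3)) *ᵥ f 0 = κ • e 1 + κ' • e 0 ∧
      ((Um u - 1) ^ (2 * p + 4)) *ᵥ f 0 = κ • e 0 := by
  have un := U.un
  have ul := U.ul
  simp only [show p + 2 - 1 = p + 1 by omega] at un ul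
  obtain ⟨N, hNdef⟩ : ∃ N, N = Um u - 1 := ⟨_, rfl⟩
  rw [← hNdef]
  have hN : ∀ x, N *ᵥ x = act u x - x := fun x => by
    rw [hNdef, sub_mulVec, one_mulVec]
    rfl
  have hNe0 : N *ᵥ e 0 = 0 := by rw [hN, U.u0, sub_self]
  have hNe : ∀ k, k + 1 < p + 2 → N *ᵥ e (k + 1) = e k := by
    intro k hk
    rw [hN, U.us k hk, add_sub_cancel_left]
  have hNn : N *ᵥ n₀ = (-a ^ q) • e (p + 1) := by
    rw [hN, un, neg_smul]
    abel
  have hNfl : N *ᵥ f (p + 1) = a • n₀ + s • e (p + 1) := by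
    rw [hN, ul]
    abel
  have hNf : ∀ k, k + 1 < p + 2 → N *ᵥ f k = (-Um u) *ᵥ f (k + 1) := by
    intro k hk
    have h1 := U.uf k hk
    rw [act_add] at h1
    rw [hN, neg_mulVec]
    show act u (f k) - f k = - act u (f (k + 1))
    generalize act u (f k) = A at h1 ⊢
    generalize act u (f (k + 1)) = B at h1 ⊢
    rw [← h1]
    abel
  have hcomm : Commute N (Um u) := by
    rw [hNdef]
    exact (Commute.refl _).sub_left (Commute.one_left _)
  obtain ⟨V, hVdef⟩ : ∃ V, V = -Um u := ⟨_, rfl⟩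
  have hcommV : Commute N V := by
    rw [hVdef]
    exact hcomm.neg_right
  rw [← hVdef] at hNf
  have hV : ∀ x, V *ᵥ x = - act u x := fun x => by
    rw [hVdef, neg_mulVec]
    rfl
  have hchain1 : ∀ j, j ≤ p + 1 → (N ^ j) *ᵥ f 0 = (V ^ j) *ᵥ f j := by
    intro j
    induction j with
    | zero => intro _; simp
    | succ j ih =>
      intro hj
      rw [pow_succ', ← mulVec_mulVec, ih (by omega), mulVec_mulVec, (hcommV.pow_right j).eq, ← mulVec_mulVec,
        hNf j (by omega), mulVec_mulVec, ← pow_succ]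
  obtain ⟨T, hTdef⟩ : ∃ T, T = V ^ (p + 1) := ⟨_, rfl⟩
  have hTcomm : ∀ x, N *ᵥ (T *ᵥ x) = T *ᵥ (N *ᵥ x) := by
    intro x
    rw [hTdef, mulVec_mulVec, (hcommV.pow_right _).eq, ← mulVec_mulVec]
  have h1 : (N ^ (p + 2)) *ᵥ f 0 = T *ᵥ (a • n₀ + s • e (p + 1)) := by
    rw [pow_succ', ← mulVec_mulVec, hchain1 _ le_rfl, ← hTdef, hTcomm, hNfl]
  obtain ⟨P, hP⟩ : ∃ P : ℕ → Fin n → F, ∀ k, P k = (-(a * a ^ q)) • e (k + 1) + s • e k := ⟨_, fun _ => rfl⟩
  have hNP : ∀ k, k + 1 ≤ p → N *ᵥ P (k + 1) = P k := by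
    intro k hk
    rw [hP, hP, mulVec_add, mulVec_smul, mulVec_smul, hNe _ (by omega), hNe _ (by omega)]
  have h2 : (N ^ (p + 3)) *ᵥ f 0 = T *ᵥ P p := by
    rw [pow_succ', ← mulVec_mulVec, h1, hTcomm, mulVec_add, mulVec_smul, mulVec_smul, hNn, hNe p (by omega), hP, smul_smul]
    congr 3
    ring
  have h3 : ∀ j, j ≤ p → (N ^ (p + 3 + j)) *ᵥ f 0 = T *ᵥ P (p - j) := by
    intro j
    induction j with
    | zero => intro _; simpa using h2
    | succ j ih =>
      intro hj
      rw [← add_assoc, pow_succ', ← mulVec_mulVec, ih (by omega), hTcomm,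
        show p - j = (p - (j + 1)) + 1 by omega, hNP _ (by omega)]
  have hV0 : ∀ j : ℕ, (V ^ j) *ᵥ e 0 = ((-1 : F) ^ j) • e 0 := by
    intro j
    induction j with
    | zero => simp
    | succ j ih =>
      rw [pow_succ', ← mulVec_mulVec, ih, mulVec_smul, hV, U.u0, pow_succ]
      module
  have hV1 : ∀ j : ℕ, (V ^ j) *ᵥ e 1 = ((-1 : F) ^ j) • (e 1 + (j : F) • e 0) := by
    intro j
    induction j with
    | zero => simp
    | succ j ih =>
      rw [pow_succ', ← mulVec_mulVec, ih, mulVec_smul, mulVec_add, mulVec_smul, hV, hV, U.u0,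
        U.us 0 (by omega), pow_succ]
      push_cast
      module
  have h4 : (N ^ (2 * p + 3)) *ᵥ f 0 = T *ᵥ P 0 := by
    have := h3 p le_rfl
    rwa [show p + 3 + p = 2 * p + 3 by ring, Nat.sub_self] at this
  have h5 : (N ^ (2 * p + 4)) *ᵥ f 0 = T *ᵥ ((-(a * a ^ q)) • e 0) := by
    rw [show 2 * p + 4 = (2 * p + 3) + 1 by ring, pow_succ', ← mulVec_mulVec, h4, hTcomm, hP, mulVec_add, mulVec_smul,
      mulVec_smul, hNe 0 (by omega), hNe0]
    simp
  refine ⟨(-(a * a ^ q)) * (-1 : F) ^ (p + 1), (-(a * a ^ q)) * (-1 : F) ^ (p + 1) * ((p + 1 : ℕ) : F) + s * (-1 : F) ^ (p + 1), ?_, ?_, ?_⟩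
  · exact mul_ne_zero (neg_ne_zero.2 (mul_ne_zero ha (pow_ne_zero _ ha))) (pow_ne_zero _ (by simp))
  · rw [h4, hP, mulVec_add, mulVec_smul, mulVec_smul, hTdef, hV0, hV1]
    module
  · rw [h5, mulVec_smul, hTdef, hV0]
    module

end U

end Cfsg.Agent.Lib.SUnReg
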