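import Mathlib
import Cfsg.Agent.Lib.SUnReg4

/-!
# Regular unipotent generation of `SU_n(q)` for odd `n ≥ 5`: assembling the generation statement
-/

set_option autoImplicit false
set_option linter.unusedSectionVars false
set_option linter.unusedSimpArgs false
set_option linter.unusedVariables false

namespace Cfsg.Agent.Lib.SUnReg

open Module Matrix Cfsg Cfsg.Agent.Lib.UnitaryBasic Cfsg.Agent.Lib.UnitarySU
  Cfsg.Agent.Lib.UnitaryConj Cfsg.Agent.Lib.UnitaryE
  Cfsg.Agent.Lib.HermForm Cfsg.Agent.Lib.HermCount Cfsg.Agent.Lib.GUParab Cfsg.Agent.Lib.SUGen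

variable {F : Type*} [Field F] [Fintype F] {q n : ℕ}

section Gen

variable (hF : Fintype.card F = q ^ 2)
include hF

variable {H : Subgroup (SU n F q)} {e : ℕ → Fin n → F} {u v : SU n F q}

/-- The generation statement from the data on the chain and the regular element. -/
theorem gen_part {p : ℕ} (hn : n = 2 * p + 5) (S : Sys H (p + 2) e u v) {f₀ : Fin n → F}
    {χ τ κ κ' : F} (hτdef : τ = hermForm n F q (act (u⁻¹ * v⁻¹) (e (p + 2 - 1))) (e 0))
    (hχ0 : χ ≠ 0) (hχq : χ ^ q = χ) (hχ : ∀ r : F, r ≠ 0 → r ^ q = r → ∃ j : ℕ, r = χ ^ j)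
    (hg1 : hermForm n F q (act (u⁻¹ * v⁻¹) (e (p + 2 - 1))) (e 1) = 0) (hτ2 : τ ^ q ≠ τ) (hτ3 : τ + τ ^ q ≠ 0)
    (hP0 : InH H (e 0) 0 (χ / (τ ^ q - τ))) (hκ : κ ≠ 0) (he0 : e 0 ≠ 0)
    (hN2 : ((Um u - 1) ^ (2 * p + 3)) *ᵥ f₀ = κ • e 1 + κ' • e 0)
    (hN1 : ((Um u - 1) ^ (2 * p + 4)) *ᵥ f₀ = κ • e 0) : H = ⊤ := by
  have hO := S.P_all hF hτdef hχ0 hχq hχ hg1 hτ2 hP0
  have hQ := S.Q_all hF hτdef hO hg1 hτ3
  have h00 := S.iso 0 0 (by omega) (by omega)
  have h11 := S.iso 1 1 (by omega) (by omega)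
  have h01 := S.iso 0 1 (by omega) (by omega)
  have h10 := S.iso 1 0 (by omega) (by omega)
  have hτ0 : τ ≠ 0 := by
    intro h0
    apply hτ2
    have hq0 : q ≠ 0 := by
      have := two_le_q' hF
      omega
    rw [h0, zero_pow hq0]
  obtain ⟨w, hwdef⟩ : ∃ w, w = u⁻¹ * v⁻¹ := ⟨_, rfl⟩
  have hw : w ∈ H := by
    rw [hwdef]
    exact S.w_mem
  rw [← hwdef] at hτdef hg1
  have hwe : act w (e 0) = e 1 := by
    rw [hwdef]
    exact S.w_e (by omega)
  have hwm : w ^ (p + 2) ∈ H := H.pow_mem hw _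
  obtain ⟨g, hgdef⟩ : ∃ g, g = act w (e (p + 2 - 1)) := ⟨_, rfl⟩
  rw [← hgdef] at hτdef hg1
  have hg0 : act (w ^ (p + 2)) (e 0) = g := by
    rw [hwdef, hgdef, hwdef]
    exact S.wpow_m (by omega)
  obtain ⟨g', hg'def⟩ : ∃ g', g' = act w g := ⟨_, rfl⟩
  have hg'1 : act (w ^ (p + 2)) (e 1) = g' := by
    rw [← hwe, ← act_mul, ← pow_succ, pow_succ', act_mul, hg0, hg'def]
  have hOg : Om H g := by
    have := Om_conj hF hwm hO
    rwa [hg0] at this
  have hOg' : Om H g' := by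
    have := Om_conj hF hw hOg
    rwa [← hg'def] at this
  have hgg : hermForm n F q g g = 0 := by
    rw [← hg0, herm_act, h00]
  have hg'g' : hermForm n F q g' g' = 0 := by
    rw [← hg'1, herm_act, h11]
  have hgg' : hermForm n F q g g' = 0 := by
    rw [← hg0, ← hg'1, herm_act, h01]
  have hE : ∀ c : F, ∃ σ, InH H g (c • g') σ := by
    intro c
    obtain ⟨σ, hσ⟩ := hQ c
    have h1 := InH.conj hF hwm hσ
    rw [hg0, act_smul, hg'1] at h1
    exact ⟨σ, h1⟩
  obtain ⟨lam, hlam⟩ : ∃ lam, lam = hermForm n F q g' (e 0) / τ := ⟨_, rfl⟩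
  obtain ⟨y₁, hy₁⟩ : ∃ y₁, y₁ = (-lam) • g + (1 : F) • g' := ⟨_, rfl⟩
  have hOy : Om H y₁ := by
    rw [hy₁]
    exact Om_comb hF hOg hOg' hgg hg'g' hgg' hE _ _
  have hy0 : hermForm n F q y₁ (e 0) = 0 := by
    rw [hy₁, hermForm_add_left, hermForm_smul_left, hermForm_smul_left, ← hτdef, hlam]
    field_simp
    ring
  have hg'e1 : hermForm n F q g' (e 1) = τ := by
    rw [hg'def, ← hwe, herm_act, hτdef]
  have hy1 : hermForm n F q y₁ (e 1) = τ := by
    rw [hy₁, hermForm_add_left, hermForm_smul_left, hermForm_smul_left, hg1, hg'e1]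
    ring
  have hWe1 : Wp H (e 0) (e 1) := ⟨h10, hQ⟩
  have hWy : Wp H (e 0) y₁ := by
    apply Wp_of_tv hF hOy hy0 hWe1
    intro h0
    have := conj_zero hF h0
    rw [hy1] at this
    exact hτ0 this
  -- the covering argument
  have hu0inv : act u⁻¹ (e 0) = e 0 := act_eq_inv S.u0
  have hNact : ∀ x, (Um u - 1) *ᵥ x = act u x - x := fun x => by
    rw [sub_mulVec, one_mulVec]
    rfl
  have hMact : ∀ x, (Um u⁻¹ - 1) *ᵥ x = act u⁻¹ x - x := fun x => by
    rw [sub_mulVec, one_mulVec]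
    rfl
  have hadj : ∀ x z, hermForm n F q ((Um u⁻¹ - 1) *ᵥ x) z = hermForm n F q x ((Um u - 1) *ᵥ z) := by
    intro x z
    rw [hMact, hNact, hermForm_sub_left, sub_eq_add_neg (act u z), hermForm_add_right hF,
      SUOrth.herm_neg_right hF]
    have h1 : hermForm n F q (act u⁻¹ x) z = hermForm n F q x (act u z) := by
      have := herm_act u⁻¹ x (act u z)
      rwa [act_inv_act] at this
    rw [h1]
    ring
  have hcov : ∀ z, hermForm n F q z (e 0) = 0 → Wp H (e 0) z := by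
    intro z hz
    have hne : ((Um u - 1) ^ (n - 1)) *ᵥ f₀ ≠ 0 := by
      rw [show n - 1 = 2 * p + 4 by omega, hN1]
      exact smul_ne_zero hκ he0
    have hN0 : ((Um u - 1) ^ n) *ᵥ f₀ = 0 := by
      have e1 : (Um u - 1) ^ n = (Um u - 1) ^ (2 * p + 4 + 1) :=
        congrArg (fun k => (Um u - 1) ^ k) (by omega : n = 2 * p + 4 + 1)
      rw [e1, pow_succ', ← mulVec_mulVec, hN1, mulVec_smul, hNact, S.u0, sub_self, smul_zero]
    have hK : hermForm n F q y₁ (((Um u - 1) ^ (n - 2)) *ᵥ f₀) ≠ 0 := by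
      rw [show n - 2 = 2 * p + 3 by omega, hN2, hermForm_add_right hF, hermForm_smul_right, hermForm_smul_right,
        hy0, hy1, mul_zero, add_zero]
      exact mul_ne_zero (pow_ne_zero _ hκ) hτ0
    have hK0 : hermForm n F q y₁ (((Um u - 1) ^ (n - 1)) *ᵥ f₀) = 0 := by
      rw [show n - 1 = 2 * p + 4 by omega, hN1, hermForm_smul_right, hy0, mul_zero]
    refine cover hF (by omega) hadj (P := Wp H (e 0)) ?_ (fun a b ha hb => Wp_add hF ha hb)
      (fun c a ha => Wp_smul hF ha c) (Wp_zero hF h00) hN0 hne hWy hK hK0 ?_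
    · intro x hx
      rw [hMact]
      exact Wp_sub hF (Wp_conj hF (H.inv_mem S.hu) hu0inv hx) hx
    · rw [show n - 1 = 2 * p + 4 by omega, hN1, hermForm_smul_right, hz, mul_zero]
  have hall : Om2 H (e 0) := by
    intro y s hy hs
    obtain ⟨σ, hσ⟩ := (hcov y hy).2 1
    rw [one_smul] at hσ
    exact InH.adjust hF hσ hO hs
  have hne : hermForm n F q (act (w ^ (p + 2)) (e 0)) (e 0) ≠ 0 := by
    rw [hg0, ← hτdef]
    exact hτ0
  exact final_gen hF (by omega) (by omega) h00 hall hwm hne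

end Gen

end Cfsg.Agent.Lib.SUnReg
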