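import Mathlib
import Cfsg.Agent.Lib.SUnReg5

/-!
# Regular unipotent generation of `SU_n(q)` for odd `n ≥ 5`: Witt bases, regularity, the main statement
-/

set_option autoImplicit false
set_option linter.unusedSectionVars false
set_option linter.unusedSimpArgs false
set_option linter.unusedVariables false

namespace Cfsg.Agent.Lib.SUnReg

open Module Matrix Cfsg Cfsg.Agent.Lib.UnitaryBasic Cfsg.Agent.Lib.UnitarySU
  Cfsg.Agent.Lib.UnitaryConj Cfsg.Agent.Lib.UnitaryE
  Cfsg.Agent.Lib.HermForm Cfsg.Agent.Lib.HermCount Cfsg.Agent.Lib.GUParab Cfsg.Agent.Lib.SUGen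

variable {F : Type*} [Field F] [Fintype F] {q n : ℕ}

section WittEx

/-- The coordinate vectors, indexed by natural numbers. -/
def dl (n a : ℕ) (F : Type*) [Field F] : Fin n → F := fun j => if (j : ℕ) = a then 1 else 0

theorem dl_eq {a : ℕ} (ha : a < n) : dl n a F = Pi.single ⟨a, ha⟩ 1 := by
  ext j
  simp [dl, Pi.single_apply, Fin.ext_iff]

variable (hF : Fintype.card F = q ^ 2)
include hF

theorem herm_dl {a b : ℕ} (hb : b < n) :
    hermForm n F q (dl n a F) (dl n b F) = if a = b then 1 else 0 := by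
  rw [dl_eq hb, hermForm_single_right hF]
  simp [dl, eq_comm]

/-- The Gram values of the pairs of coordinates. -/
theorem herm_pair {i j : ℕ} (hj : 2 * j + 1 < n) (A B C D : F) :
    hermForm n F q (A • dl n (2 * i) F + B • dl n (2 * i + 1) F) (C • dl n (2 * j) F + D • dl n (2 * j + 1) F) =
      if i = j then A * C ^ q + B * D ^ q else 0 := by
  simp only [hermForm_add_left, hermForm_add_right hF, hermForm_smul_left, hermForm_smul_right]
  rw [herm_dl hF (by omega), herm_dl hF (by omega), herm_dl hF (by omega), herm_dl hF (by omega)]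
  have h2 : ¬ (2 * i = 2 * j + 1) := by omega
  have h3 : ¬ (2 * i + 1 = 2 * j) := by omega
  rw [if_neg h2, if_neg h3]
  by_cases hij : i = j
  · subst hij
    simp
    ring
  · have h1 : ¬ (2 * i = 2 * j) := by omega
    have h4 : ¬ (2 * i + 1 = 2 * j + 1) := by omega
    rw [if_neg h1, if_neg h4, if_neg hij]
    ring

theorem herm_pair_last {i m : ℕ} (hi : i < m) (hm : 2 * m < n) (A B : F) :
    hermForm n F q (A • dl n (2 * i) F + B • dl n (2 * i + 1) F) (dl n (2 * m) F) = 0 := by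
  simp only [hermForm_add_left, hermForm_smul_left]
  rw [herm_dl hF hm, herm_dl hF hm, if_neg (by omega), if_neg (by omega)]
  ring

/-- Witt bases exist. -/
theorem exists_witt {m : ℕ} (hn : n = 2 * m + 1) : ∃ (e f : ℕ → Fin n → F) (n₀ : Fin n → F), Witt q m e f n₀ := by
  have hneg1 : (-1 : F) ^ q = -1 := by
    rw [HermForm.neg_pow_q hF, one_pow]
  obtain ⟨c, hc0, hc⟩ := exists_norm hF (-1 : F) (neg_ne_zero.2 one_ne_zero) hneg1
  obtain ⟨ν, hν, hν1⟩ := exists_nrm_one_ne_one hF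
  have hν' : ν * ν ^ q = 1 := hν
  obtain ⟨c', hc'⟩ : ∃ c', c' = c * ν := ⟨_, rfl⟩
  have hc'N : c' * c' ^ q = -1 := by
    rw [hc', mul_pow]
    linear_combination ν * ν ^ q * hc + (-1 : F) * hν'
  have hν0 : ν ≠ 0 := by
    intro h0
    rw [h0] at hν'
    simp at hν'
  have hc'q0 : c' ^ q ≠ 0 := by
    intro h0
    rw [h0, mul_zero] at hc'N
    exact neg_ne_zero.2 one_ne_zero hc'N.symm
  have hβ : 1 + c * c' ^ q ≠ 0 := by
    intro h0
    have h1 : (c - c') * c' ^ q = 0 := by linear_combination h0 - (1 : F) * hc'N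
    rcases mul_eq_zero.1 h1 with h2 | h2
    · apply hν1
      have h3 : c * (ν - 1) = 0 := by
        rw [hc'] at h2
        linear_combination -h2
      rcases mul_eq_zero.1 h3 with h4 | h4
      · exact absurd h4 hc0
      · exact sub_eq_zero.1 h4
    · exact hc'q0 h2
  obtain ⟨t, ht⟩ : ∃ t, t = ((1 + c * c' ^ q)⁻¹) ^ q := ⟨_, rfl⟩
  have htq : t ^ q = (1 + c * c' ^ q)⁻¹ := by
    rw [ht, pow_q_pow_q hF]
  refine ⟨fun i => (1 : F) • dl n (2 * i) F + c • dl n (2 * i + 1) F,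
    fun i => t • dl n (2 * i) F + (t * c') • dl n (2 * i + 1) F, dl n (2 * m) F, ?_, ?_, ?_, ?_, ?_, ?_⟩
  · intro i j _ hj
    rw [herm_pair hF (by omega)]
    split_ifs
    · rw [one_pow]
      linear_combination hc
    · rfl
  · intro i j _ hj
    rw [herm_pair hF (by omega)]
    split_ifs
    · rw [mul_pow]
      linear_combination t * t ^ q * hc' * 0 + t * t ^ q * hc'N
    · rfl
  · intro i j _ hj
    rw [herm_pair hF (by omega)]
    split_ifs
    · rw [mul_pow, htq]
      field_simp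
    · rfl
  · intro i hi
    exact herm_pair_last hF hi (by omega) _ _
  · intro i hi
    exact herm_pair_last hF hi (by omega) _ _
  · rw [herm_dl hF (by omega), if_pos rfl]

/-- A suitable parameter for the regular element. -/
theorem exists_s : ∃ s : F, s ^ q ≠ s ∧ s + s ^ q ≠ 0 := by
  obtain ⟨t, ht⟩ := exists_trace_one hF
  by_cases htq : t ^ q = t
  · obtain ⟨θ, hθ0, hθ⟩ := exists_trace_zero hF
    have hθq : θ ^ q = -θ := by linear_combination hθ
    have h2 : (2 : F) ≠ 0 := by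
      intro h0
      have : t + t ^ q = 2 * t := by
        rw [htq]
        ring
      rw [this, h0, zero_mul] at ht
      exact zero_ne_one ht
    refine ⟨t + θ, ?_, ?_⟩
    · rw [HermForm.add_pow_q hF, htq, hθq]
      intro h0
      have : 2 * θ = 0 := by linear_combination -h0
      exact (mul_ne_zero h2 hθ0) this
    · rw [HermForm.add_pow_q hF, hθq]
      have : t + θ + (t ^ q + -θ) = 1 := by linear_combination ht
      rw [this]
      exact one_ne_zero
  · exact ⟨t, htq, by rw [ht]; exact one_ne_zero⟩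

end WittEx

section Reg

variable (hF : Fintype.card F = q ^ 2)
include hF

/-- Regularity of the element from the chain computation. -/
theorem reg_nil {p : ℕ} (hn : n = 2 * p + 5) {u : SU n F q} {f₀ e₀ : Fin n → F} {κ : F} (hκ : κ ≠ 0) (he₀ : e₀ ≠ 0)
    (hu0 : act u e₀ = e₀) (hN1 : ((Um u - 1) ^ (2 * p + 4)) *ᵥ f₀ = κ • e₀) :
    IsNilpotent (Um u - 1) ∧ (Um u - 1) ^ (n - 1) ≠ 0 := by
  have hNact : ∀ x, (Um u - 1) *ᵥ x = act u x - x := fun x => by
    rw [sub_mulVec, one_mulVec]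
    rfl
  obtain ⟨N, hNdef⟩ : ∃ N, N = Um u - 1 := ⟨_, rfl⟩
  rw [← hNdef] at hNact hN1 ⊢
  have hne : (N ^ (n - 1)) *ᵥ f₀ ≠ 0 := by
    rw [show n - 1 = 2 * p + 4 by omega, hN1]
    exact smul_ne_zero hκ he₀
  have hN0 : (N ^ n) *ᵥ f₀ = 0 := by
    have e1 : N ^ n = N ^ (2 * p + 4 + 1) := congrArg (fun k => N ^ k) (by omega : n = 2 * p + 4 + 1)
    rw [e1, pow_succ', ← mulVec_mulVec, hN1, mulVec_smul, hNact, hu0, sub_self, smul_zero]
  have hall : ∀ x, (N ^ n) *ᵥ x = 0 := by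
    intro x
    have hx : x ∈ Submodule.span F (Set.range (fun i : Fin n => (N ^ (i : ℕ)) *ᵥ f₀)) := by
      rw [chain_span hN0 hne]
      trivial
    induction hx using Submodule.span_induction with
    | mem z hz =>
      obtain ⟨i, rfl⟩ := hz
      simp only
      rw [mulVec_mulVec, (Commute.pow_pow (Commute.refl N) n i).eq, ← mulVec_mulVec, hN0, mulVec_zero]
    | zero => rw [mulVec_zero]
    | add a b _ _ ha hb => rw [mulVec_add, ha, hb, add_zero]
    | smul c a _ ha => rw [mulVec_smul, ha, smul_zero]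
  refine ⟨⟨n, ?_⟩, ?_⟩
  · apply Matrix.ext
    intro i j
    have h1 := congrFun (hall (Pi.single j 1)) i
    rw [mulVec_single_one] at h1
    simpa using h1
  · intro h0
    rw [h0, zero_mulVec] at hne
    exact hne rfl

end Reg

section Main

variable (hF : Fintype.card F = q ^ 2)
include hF

/-- `SU_n(q)`, `n ≥ 5` odd, is generated by three conjugate regular unipotent elements. -/
theorem main_gen {p : ℕ} (hn : n = 2 * p + 5) :
    ∃ u g h : SU n F q, (IsNilpotent (Um u - 1) ∧ (Um u - 1) ^ (n - 1) ≠ 0) ∧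
      Subgroup.closure ({u, g * u * g⁻¹, h * u * h⁻¹} : Set (SU n F q)) = ⊤ := by
  have hq0 : q ≠ 0 := by
    have := two_le_q' hF
    omega
  obtain ⟨e, f, n₀, W⟩ := exists_witt hF (m := p + 2) (by omega : n = 2 * (p + 2) + 1)
  obtain ⟨s, hs1, hs2⟩ := exists_s hF
  have hn1 : (-(s + s ^ q)) ^ q = -(s + s ^ q) := by
    rw [HermForm.neg_pow_q hF, HermForm.add_pow_q hF, pow_q_pow_q hF, add_comm (s ^ q)]
  obtain ⟨a, ha, haN⟩ := exists_norm hF _ (neg_ne_zero.2 hs2) hn1
  have hs : s + s ^ q + a * a ^ q = 0 := by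
    rw [haN]
    ring
  obtain ⟨u, U⟩ := exists_u hF W (by omega) hs
  have ul := U.ul
  simp only [show p + 2 - 1 = p + 1 by omega] at ul
  obtain ⟨θ, hθ0, hθ⟩ := exists_trace_zero hF
  have hθq : θ ^ q = -θ := by linear_combination hθ
  obtain ⟨σ, hσ1, -, hσ3⟩ := exists_sigma hF W hθ0 hθ (p + 2) le_rfl
  obtain ⟨v, hv⟩ : ∃ v, v = σ * u * σ⁻¹ := ⟨_, rfl⟩
  have hσe : ∀ k, k < p + 2 → act σ⁻¹ (e k) = θ⁻¹ • f k := by
    intro k hk
    apply act_eq_inv
    rw [act_smul, (hσ1 k hk).2, smul_smul, inv_mul_cancel₀ hθ0, one_smul]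
  have hve : ∀ k, k + 1 < p + 2 → act v (e k + e (k + 1)) = e k := by
    intro k hk
    rw [hv, act_mul, act_mul, act_add, hσe k (by omega), hσe _ hk, ← smul_add, act_smul, U.uf k hk, act_smul,
      (hσ1 k (by omega)).2, smul_smul, inv_mul_cancel₀ hθ0, one_smul]
  have hlast : p + 1 < p + 2 := by omega
  have hvl : act v (e (p + 1)) = θ⁻¹ • (θ • e (p + 1) + a • n₀ + s • (-θ⁻¹) • f (p + 1)) := by
    rw [hv, act_mul, act_mul, hσe _ hlast, act_smul, ul, act_smul, act_add, act_add, act_smul, act_smul,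
      (hσ1 _ hlast).2, hσ3, (hσ1 _ hlast).1]
  obtain ⟨sb, hsbdef⟩ : ∃ sb, sb = hermForm n F q (e (p + 1)) (act v (e (p + 1))) := ⟨_, rfl⟩
  have hθi : (θ⁻¹) ^ q = -θ⁻¹ := by
    rw [inv_pow, hθq]
    field_simp
  have hsb : sb = -(s ^ q * (θ⁻¹) ^ 2) := by
    rw [hsbdef, hvl]
    simp only [hermForm_add_right hF, hermForm_smul_right, W.hee _ _ hlast hlast, W.hen _ hlast,
      W.hef _ _ hlast hlast, if_true, HermForm.neg_pow_q hF, hθi]
    ring
  have hsbq : sb ^ q = -(s * (θ⁻¹) ^ 2) := by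
    rw [hsb, HermForm.neg_pow_q hF, mul_pow, pow_q_pow_q hF, ← pow_mul, mul_comm 2 q, pow_mul, hθi]
    ring
  have hθi0 : (θ⁻¹) ^ 2 ≠ 0 := pow_ne_zero _ (inv_ne_zero hθ0)
  have hsb2 : sb ^ q ≠ sb := by
    rw [hsbq, hsb]
    intro h0
    apply hs1
    have h1 : (s ^ q - s) * (θ⁻¹) ^ 2 = 0 := by linear_combination h0
    exact sub_eq_zero.1 ((mul_eq_zero.1 h1).resolve_right hθi0)
  have hsb3 : sb + sb ^ q ≠ 0 := by
    rw [hsbq, hsb]
    intro h0
    apply hs2
    have h1 : (s + s ^ q) * (θ⁻¹) ^ 2 = 0 := by linear_combination -h0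
    exact (mul_eq_zero.1 h1).resolve_right hθi0
  -- the value on `e₀`
  have htel : ∀ i, i ≤ p + 1 → ∃ ε : F, (ε = 1 ∨ ε = -1) ∧
      hermForm n F q (e (p + 1)) (act v (e (p + 1 - i))) = ε * sb := by
    intro i
    induction i with
    | zero =>
      intro _
      exact ⟨1, Or.inl rfl, by rw [one_mul, hsbdef]; rfl⟩
    | succ i ih =>
      intro hi
      obtain ⟨ε, hε, hε2⟩ := ih (by omega)
      have e1 : p + 1 - i = (p + 1 - (i + 1)) + 1 := by omega
      rw [e1] at hε2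
      have h1 := hve (p + 1 - (i + 1)) (by omega)
      have h2 := congrArg (hermForm n F q (e (p + 1))) h1
      rw [act_add, hermForm_add_right hF, hε2, W.hee _ _ hlast (by omega)] at h2
      refine ⟨-ε, ?_, ?_⟩
      · rcases hε with rfl | rfl
        · exact Or.inr rfl
        · exact Or.inl (neg_neg _)
      · linear_combination h2
  obtain ⟨ε, hε, hε2⟩ := htel (p + 1) le_rfl
  rw [Nat.sub_self] at hε2
  have hε0 : ε ≠ 0 := by
    rcases hε with rfl | rfl
    · exact one_ne_zero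
    · exact neg_ne_zero.2 one_ne_zero
  have hεq : ε ^ q = ε := by
    rcases hε with rfl | rfl
    · exact one_pow _
    · rw [HermForm.neg_pow_q hF, one_pow]
  have hadj : ∀ z, hermForm n F q (act (u⁻¹ * v⁻¹) (e (p + 1))) z =
      hermForm n F q (e (p + 1)) (act v (act u z)) := by
    intro z
    have h1 := herm_act (u⁻¹ * v⁻¹) (e (p + 1)) (act v (act u z))
    have h2 : act (u⁻¹ * v⁻¹) (act v (act u z)) = z := by
      rw [act_mul, act_inv_act, act_inv_act]
    rwa [h2] at h1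
  have hu1 : act u (e 1) = e 1 + e 0 := U.us 0 (by omega)
  have hv01 : act v (e 0 + e 1) = e 0 := hve 0 (by omega)
  obtain ⟨τ, hτ⟩ : ∃ τ, τ = ε * sb := ⟨_, rfl⟩
  have hτdef : τ = hermForm n F q (act (u⁻¹ * v⁻¹) (e (p + 2 - 1))) (e 0) := by
    rw [show p + 2 - 1 = p + 1 by omega, hadj, U.u0, hε2, hτ]
  have hg1 : hermForm n F q (act (u⁻¹ * v⁻¹) (e (p + 2 - 1))) (e 1) = 0 := by
    rw [show p + 2 - 1 = p + 1 by omega, hadj, hu1, add_comm (e 1) (e 0), hv01]
    exact W.hee _ _ hlast (by omega)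
  have hτq : τ ^ q = ε * sb ^ q := by
    rw [hτ, mul_pow, hεq]
  have hτ2 : τ ^ q ≠ τ := by
    rw [hτq, hτ]
    intro h0
    exact hsb2 (mul_left_cancel₀ hε0 h0)
  have hτ3 : τ + τ ^ q ≠ 0 := by
    rw [hτq, hτ, ← mul_add]
    exact mul_ne_zero hε0 hsb3
  obtain ⟨χ, hχ0, hχq, hχ⟩ := exists_chi hF
  have hκ0 : τ ^ q - τ ≠ 0 := sub_ne_zero.2 hτ2
  have hφ : (χ / (τ ^ q - τ)) ^ q + χ / (τ ^ q - τ) = 0 := by
    rw [div_pow, hχq, HermForm.sub_pow_q hF, pow_q_pow_q hF]
    have : τ - τ ^ q ≠ 0 := sub_ne_zero.2 (Ne.symm hτ2)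
    field_simp
    ring
  obtain ⟨l, hl⟩ := exists_sub_eq hF hφ
  obtain ⟨c, hc⟩ : ∃ c, c = -l := ⟨_, rfl⟩
  have h00 := W.hee 0 0 (by omega) (by omega)
  have h11 := W.hee 1 1 (by omega) (by omega)
  have h10 := W.hee 1 0 (by omega) (by omega)
  obtain ⟨R, hR⟩ : ∃ R : SU n F q, IsE R (e 0) (c • e 1) 0 := by
    apply exists_IsE hF h00
    · rw [hermForm_smul_left, h10, mul_zero]
    · rw [hermForm_smul_left, hermForm_smul_right, h11, zero_pow hq0]
      ring
  refine ⟨u, σ, R, ?_, ?_⟩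
  · obtain ⟨κ, κ', hκ, h2, h1⟩ := reg_chain hF U ha
    have he0 : e 0 ≠ 0 := by
      intro h0
      have := W.hef 0 0 (by omega) (by omega)
      rw [h0, hermForm_zero_left, if_pos rfl] at this
      exact zero_ne_one this
    exact reg_nil hF hn hκ he0 U.u0 h1
  · rw [← hv]
    obtain ⟨H, hH⟩ : ∃ H, H = Subgroup.closure ({u, v, R * u * R⁻¹} : Set (SU n F q)) := ⟨_, rfl⟩
    rw [← hH]
    have huH : u ∈ H := by
      rw [hH]
      exact Subgroup.subset_closure (by simp)
    have hvH : v ∈ H := by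
      rw [hH]
      exact Subgroup.subset_closure (by simp)
    have hyH : R * u * R⁻¹ ∈ H := by
      rw [hH]
      exact Subgroup.subset_closure (by simp)
    have S : Sys H (p + 2) e u v := ⟨by omega, huH, hvH, W.hee, U.u0, U.us, hve⟩
    have hP0 : InH H (e 0) 0 (χ / (τ ^ q - τ)) := by
      have h1 := IsE.conj hF hR u
      rw [U.u0, act_smul, hu1, smul_add] at h1
      have h2 := SU3Reg.IsE.shift hF h1
      have h3 := IsE.mul hF h2 (SUOrth.IsE.inv hF hR)
      rw [add_neg_cancel, SUOrth.herm_neg_left hF, hermForm_smul_left, hermForm_smul_right, h11,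
        zero_pow hq0] at h3
      have e1 : 0 + c - c ^ q + 0 - -(c * (c ^ q * 0)) = χ / (τ ^ q - τ) := by
        rw [← hl, hc, HermForm.neg_pow_q hF]
        ring
      rw [e1] at h3
      refine ⟨_, ?_, h3⟩
      have e2 : u * R * u⁻¹ * R⁻¹ = u * (R * u * R⁻¹)⁻¹ := by group
      rw [e2]
      exact H.mul_mem huH (H.inv_mem hyH)
    obtain ⟨κ, κ', hκ, h2, h1⟩ := reg_chain hF U ha
    have he0 : e 0 ≠ 0 := by
      intro h0
      have := W.hef 0 0 (by omega) (by omega)
      rw [h0, hermForm_zero_left, if_pos rfl] at this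
      exact zero_ne_one this
    exact gen_part hF hn S hτdef hχ0 hχq hχ hg1 hτ2 hτ3 hP0 hκ he0 h2 h1

end Main

end Cfsg.Agent.Lib.SUnReg
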