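import Mathlib

/-!
# Nonabelian groups of order `p ^ 3` and exponent `p`, inside an ambient group.
-/

set_option autoImplicit false
set_option linter.unusedSectionVars false
set_option linter.style.haveILetI false
set_option linter.unusedVariables false

namespace Cfsg.Agent.Lib.SameOrdES

open Subgroup

variable {G : Type*} [Group G] [Finite G] {p : ℕ} [hp : Fact p.Prime]

/-- The centre of a subgroup, as a subgroup of the ambient group. -/
def Zc (S : Subgroup G) : Subgroup G := S ⊓ Subgroup.centralizer (S : Set G)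

theorem mem_Zc {S : Subgroup G} {g : G} : g ∈ Zc S ↔ g ∈ S ∧ ∀ s ∈ S, s * g = g * s := by
  simp [Zc, Subgroup.mem_inf, Subgroup.mem_centralizer_iff]

/-- Nonabelian of order `p ^ 3` and exponent `p`. -/
structure ES (p : ℕ) (S : Subgroup G) : Prop where
  card : Nat.card S = p ^ 3
  exp : ∀ s ∈ S, s ^ p = 1
  nc : ∃ s ∈ S, ∃ t ∈ S, s * t ≠ t * s

/-- The centraliser in `S` of an element. -/
def Cen (S : Subgroup G) (u : G) : Subgroup G := S ⊓ Subgroup.centralizer ({u} : Set G)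

theorem mem_Cen {S : Subgroup G} {u g : G} : g ∈ Cen S u ↔ g ∈ S ∧ g * u = u * g := by
  simp only [Cen, Subgroup.mem_inf, Subgroup.mem_centralizer_iff, Set.mem_singleton_iff, forall_eq]
  constructor
  · rintro ⟨h1, h2⟩; exact ⟨h1, h2.symm⟩
  · rintro ⟨h1, h2⟩; exact ⟨h1, h2.symm⟩

theorem card_eq_pow_of_le {S H : Subgroup G} (hS : Nat.card S = p ^ 3) (hH : H ≤ S) :
    ∃ k ≤ 3, Nat.card H = p ^ k := by
  have hd : Nat.card H ∣ p ^ 3 := by
    rw [← hS]; exact Subgroup.card_dvd_of_le hH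
  obtain ⟨k, hk, he⟩ := (Nat.dvd_prime_pow hp.out).1 hd
  exact ⟨k, hk, he⟩

theorem eq_of_le_of_card {S H : Subgroup G} (hH : H ≤ S) (hc : Nat.card H = Nat.card S) : H = S :=
  Subgroup.eq_of_le_of_card_ge hH (le_of_eq hc.symm)

theorem lt_card_of_lt {H K : Subgroup G} (h : H < K) : Nat.card H < Nat.card K := by
  have hle := h.le
  have h1 : Nat.card H ≤ Nat.card K := Nat.le_of_dvd Nat.card_pos (Subgroup.card_dvd_of_le hle)
  refine lt_of_le_of_ne h1 fun he => h.ne (Subgroup.eq_of_le_of_card_ge hle (le_of_eq he.symm))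

namespace ES

variable {S : Subgroup G} (hS : ES p S)
include hS

theorem isPGroup : IsPGroup p S := IsPGroup.of_card hS.card

theorem exists_ne_one_Zc : ∃ c ∈ Zc S, c ≠ 1 := by
  haveI : Nontrivial S := by
    rw [← Finite.one_lt_card_iff_nontrivial, hS.card]
    exact Nat.one_lt_pow (by norm_num) hp.out.one_lt
  exact exists_ne_one_of_isPGroup_center hS
  where
    exists_ne_one_of_isPGroup_center {S : Subgroup G} (hS : ES p S) [Nontrivial S] :
        ∃ c ∈ Zc S, c ≠ 1 := by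
      have hP : IsPGroup p S := IsPGroup.of_card hS.card
      haveI := hP.center_nontrivial
      obtain ⟨c, hc⟩ := exists_ne (1 : Subgroup.center S)
      refine ⟨(c : S), ?_, ?_⟩
      · rw [mem_Zc]
        refine ⟨(c : S).2, fun s hs => ?_⟩
        have := (Subgroup.mem_center_iff.1 c.2) ⟨s, hs⟩
        exact congrArg Subtype.val this
      · intro h
        apply hc
        apply Subtype.ext
        apply Subtype.ext
        exact h

theorem Zc_le_Cen {u : G} (hu : u ∈ S) : Zc S ≤ Cen S u := by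
  intro g hg
  rw [mem_Zc] at hg
  rw [mem_Cen]
  exact ⟨hg.1, (hg.2 u hu).symm⟩

theorem Cen_lt {u : G} (hu : u ∈ S) (hu' : u ∉ Zc S) : Cen S u < S := by
  refine lt_of_le_of_ne inf_le_left fun he => hu' ?_
  rw [mem_Zc]
  refine ⟨hu, fun s hs => ?_⟩
  have : s ∈ Cen S u := by rw [he]; exact hs
  exact (mem_Cen.1 this).2

theorem Zc_lt_Cen {u : G} (hu : u ∈ S) (hu' : u ∉ Zc S) : Zc S < Cen S u := by
  refine lt_of_le_of_ne (hS.Zc_le_Cen hu) fun he => hu' ?_
  rw [he, mem_Cen]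
  exact ⟨hu, rfl⟩

theorem exists_not_Zc : ∃ u ∈ S, u ∉ Zc S := by
  obtain ⟨s, hs, t, ht, hst⟩ := hS.nc
  refine ⟨s, hs, fun h => hst ?_⟩
  exact ((mem_Zc.1 h).2 t ht).symm

/-- The centre has order `p`. -/
theorem card_Zc : Nat.card (Zc S) = p := by
  have hpp := hp.out
  obtain ⟨k, hk, he⟩ : ∃ k ≤ 3, Nat.card (Zc S) = p ^ k := card_eq_pow_of_le hS.card inf_le_left
  obtain ⟨c, hc, hc1⟩ := hS.exists_ne_one_Zc
  have hk0 : k ≠ 0 := by
    rintro rfl
    rw [pow_zero, Subgroup.card_eq_one] at he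
    rw [he, Subgroup.mem_bot] at hc
    exact hc1 hc
  obtain ⟨u, hu, hu'⟩ := hS.exists_not_Zc
  have h1 := lt_card_of_lt (hS.Zc_lt_Cen hu hu')
  have h2 := lt_card_of_lt (hS.Cen_lt hu hu')
  obtain ⟨j, hj, hje⟩ : ∃ k ≤ 3, Nat.card (Cen S u) = p ^ k := card_eq_pow_of_le hS.card inf_le_left
  rw [he, hje] at h1
  rw [hje, hS.card] at h2
  have h3 := (Nat.pow_lt_pow_iff_right hpp.one_lt).1 h1
  have h4 := (Nat.pow_lt_pow_iff_right hpp.one_lt).1 h2
  have : k = 1 := by omega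
  rw [he, this, pow_one]

theorem card_Cen {u : G} (hu : u ∈ S) (hu' : u ∉ Zc S) : Nat.card (Cen S u) = p ^ 2 := by
  have hpp := hp.out
  have h1 := lt_card_of_lt (hS.Zc_lt_Cen hu hu')
  have h2 := lt_card_of_lt (hS.Cen_lt hu hu')
  obtain ⟨j, hj, hje⟩ : ∃ k ≤ 3, Nat.card (Cen S u) = p ^ k := card_eq_pow_of_le hS.card inf_le_left
  rw [hS.card_Zc, hje] at h1
  rw [hje, hS.card] at h2
  have h3 : 1 < j := by
    have : p ^ 1 < p ^ j := by simpa using h1
    exact (Nat.pow_lt_pow_iff_right hpp.one_lt).1 this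
  have h4 := (Nat.pow_lt_pow_iff_right hpp.one_lt).1 h2
  have : j = 2 := by omega
  rw [hje, this]

/-- Commutators lie in the centre. -/
theorem comm_mem {s t : G} (hs : s ∈ S) (ht : t ∈ S) : s * t * s⁻¹ * t⁻¹ ∈ Zc S := by
  have hpp := hp.out
  -- the centre of `↥S`
  have hZ : Nat.card (Subgroup.center S) = p := by
    rw [← hS.card_Zc]
    refine Nat.card_congr (Equiv.ofBijective
      (fun c => ⟨(c.1 : G), by
        rw [mem_Zc]
        refine ⟨c.1.2, fun s hs => ?_⟩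
        exact congrArg Subtype.val ((Subgroup.mem_center_iff.1 c.2) ⟨s, hs⟩)⟩) ⟨?_, ?_⟩)
    · intro a b h
      apply Subtype.ext
      apply Subtype.ext
      exact congrArg (fun y : Zc S => (y : G)) h
    · rintro ⟨c, hc⟩
      rw [mem_Zc] at hc
      refine ⟨⟨⟨c, hc.1⟩, ?_⟩, rfl⟩
      rw [Subgroup.mem_center_iff]
      rintro ⟨s, hs⟩
      exact Subtype.ext (hc.2 s hs)
  have hQ : Nat.card (S ⧸ Subgroup.center S) = p ^ 2 := by
    have h := Subgroup.card_eq_card_quotient_mul_card_subgroup (Subgroup.center S)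
    rw [hS.card, hZ] at h
    have : p ^ 3 = p ^ 2 * p := by ring
    rw [this] at h
    exact (Nat.eq_of_mul_eq_mul_right hpp.pos h).symm
  have hc := (IsPGroup.isMulCommutative_of_card_eq_prime_sq hQ).is_comm.comm
    (QuotientGroup.mk (⟨s, hs⟩ : S)) (QuotientGroup.mk (⟨t, ht⟩ : S))
  rw [← QuotientGroup.mk_mul, ← QuotientGroup.mk_mul, QuotientGroup.eq] at hc
  -- `(st)⁻¹ (ts)` central
  have h3 : ((⟨s, hs⟩ : S) * ⟨t, ht⟩)⁻¹ * (⟨t, ht⟩ * ⟨s, hs⟩) ∈ Subgroup.center S := hc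
  rw [Subgroup.mem_center_iff] at h3
  set c : G := (s * t)⁻¹ * (t * s) with hcdef
  have hcen : ∀ y ∈ S, y * c = c * y := by
    intro y hy
    have := congrArg Subtype.val (h3 ⟨y, hy⟩)
    simpa [hcdef, mul_assoc] using this
  have hcS : c ∈ S := S.mul_mem (S.inv_mem (S.mul_mem hs ht)) (S.mul_mem ht hs)
  have hcZ : c ∈ Zc S := mem_Zc.2 ⟨hcS, hcen⟩
  have heq : s * t * s⁻¹ * t⁻¹ = c⁻¹ := by
    have hcm : Commute (t * s) c⁻¹ :=
      (show Commute (t * s) c from hcen _ (S.mul_mem ht hs)).inv_right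
    have e2 : (t * s) * c⁻¹ * (t * s)⁻¹ = c⁻¹ := by
      rw [hcm.eq]; group
    rw [← e2, hcdef]; group
  rw [heq]
  exact (Zc S).inv_mem hcZ

/-- Every central element is a commutator with a given noncentral element. -/
theorem comm_surj {u v : G} (hu : u ∈ S) (hu' : u ∉ Zc S) (hv : v ∈ Zc S) :
    ∃ y ∈ S, y * u * y⁻¹ * u⁻¹ = v := by
  have hpp := hp.out
  -- a noncommuting element
  have : ∃ y ∈ S, y * u ≠ u * y := by
    by_contra hcon
    push Not at hcon
    exact hu' (mem_Zc.2 ⟨hu, hcon⟩)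
  obtain ⟨y, hy, hyu⟩ := this
  set c : G := y * u * y⁻¹ * u⁻¹ with hc
  have hcZ : c ∈ Zc S := hS.comm_mem hy hu
  have hc1 : c ≠ 1 := by
    intro h
    apply hyu
    rw [hc, mul_inv_eq_one, mul_inv_eq_iff_eq_mul] at h
    exact h
  -- `Zc S = ⟨c⟩`
  have hzp : Subgroup.zpowers c = Zc S := by
    apply Subgroup.eq_of_le_of_card_ge (by rwa [Subgroup.zpowers_le])
    rw [hS.card_Zc]
    have hd : orderOf c = p := by
      apply orderOf_eq_prime ?_ hc1
      exact hS.exp c (mem_Zc.1 hcZ).1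
    rw [Nat.card_zpowers, hd]
  have hv' : v ∈ Subgroup.zpowers c := by rw [hzp]; exact hv
  obtain ⟨k, hk⟩ : ∃ k : ℕ, c ^ k = v := by
    have hfin : IsOfFinOrder c := isOfFinOrder_of_finite c
    obtain ⟨k, hk⟩ := (mem_powers_iff_mem_zpowers.2 hv')
    exact ⟨k, hk⟩
  -- commutator of powers
  have hcom : ∀ j : ℕ, y ^ j * u * (y ^ j)⁻¹ * u⁻¹ = c ^ j := by
    intro j
    induction j with
    | zero => simp
    | succ j ih =>
      have hcc : ∀ g ∈ S, g * c ^ j = c ^ j * g := by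
        intro g hg
        have := (Commute.pow_right (show Commute g c from (mem_Zc.1 hcZ).2 g hg) j)
        exact this
      have h0 : y * u * y⁻¹ = c * u := by rw [hc]; group
      have hj : y ^ j * u * (y ^ j)⁻¹ = c ^ j * u := by
        rw [← ih]; group
      calc y ^ (j + 1) * u * (y ^ (j + 1))⁻¹ * u⁻¹
          = y * (y ^ j * u * (y ^ j)⁻¹) * y⁻¹ * u⁻¹ := by rw [pow_succ']; group
        _ = y * (c ^ j * u) * y⁻¹ * u⁻¹ := by rw [hj]
        _ = (y * c ^ j) * u * y⁻¹ * u⁻¹ := by group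
        _ = c ^ j * (y * u * y⁻¹) * u⁻¹ := by rw [hcc y hy]; group
        _ = c ^ j * (c * u) * u⁻¹ := by rw [h0]
        _ = c ^ (j + 1) := by rw [pow_succ]; group
  exact ⟨y ^ k, S.pow_mem hy k, by rw [hcom, hk]⟩

theorem pow_inj_Zc {x z : G} (hx : x ∈ Zc S) (hx1 : x ≠ 1) (hz : z ∈ Zc S) : z ∈ Subgroup.zpowers x := by
  have hd : orderOf x = p := orderOf_eq_prime (hS.exp x (mem_Zc.1 hx).1) hx1
  have hzp : Subgroup.zpowers x = Zc S := by
    apply Subgroup.eq_of_le_of_card_ge (by rwa [Subgroup.zpowers_le])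
    rw [hS.card_Zc, Nat.card_zpowers, hd]
  rw [hzp]; exact hz

theorem map_conj (g : G) : ES p (S.map (MulAut.conj g).toMonoidHom) := by
  refine ⟨?_, ?_, ?_⟩
  · rw [Subgroup.card_map_of_injective (MulEquiv.injective _), hS.card]
  · rintro _ ⟨s, hs, rfl⟩
    rw [← map_pow, hS.exp s hs, map_one]
  · obtain ⟨s, hs, t, ht, hst⟩ := hS.nc
    refine ⟨_, ⟨s, hs, rfl⟩, _, ⟨t, ht, rfl⟩, fun h => hst ?_⟩
    simp only [MulEquiv.coe_toMonoidHom] at h
    rw [← map_mul, ← map_mul] at h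
    exact (MulEquiv.injective _) h

end ES

end Cfsg.Agent.Lib.SameOrdES
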