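import Mathlib
import Cfsg.Agent.Lib.SameOrdES
import Cfsg.Agent.Lib.SylowConjLemmas

/-!
# Elements inverting a subgroup; the key local step for groups of order `p ^ 3`.
-/

set_option autoImplicit false
set_option linter.unusedSectionVars false
set_option linter.style.haveILetI false
set_option linter.unusedVariables false

namespace Cfsg.Agent.Lib.SameOrdInv

open Subgroup Cfsg.Agent.Lib.SameOrdES Cfsg.Agent.Lib.SylowConjLemmas

variable {G : Type*} [Group G] [Finite G] {p : ℕ} [hp : Fact p.Prime]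

/-- `h` inverts every element of `E`. -/
def Inverts (h : G) (E : Subgroup G) : Prop := ∀ e ∈ E, h * e * h⁻¹ = e⁻¹

/-- In a finite group normalizing can be tested one way. -/
theorem mem_normalizer_of_forall (A : Subgroup G) (n : G) (h : ∀ a ∈ A, n * a * n⁻¹ ∈ A) :
    n ∈ Subgroup.normalizer (A : Set G) := by
  have hle : A.map (MulAut.conj n).toMonoidHom ≤ A := by
    rintro _ ⟨a, ha, rfl⟩
    exact h a ha
  have heq : A.map (MulAut.conj n).toMonoidHom = A := by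
    apply Subgroup.eq_of_le_of_card_ge hle
    rw [Subgroup.card_map_of_injective (MulEquiv.injective _)]
  intro y
  refine ⟨h y, fun hy => ?_⟩
  have hy' : n * y * n⁻¹ ∈ A.map (MulAut.conj n).toMonoidHom := by rw [heq]; exact hy
  obtain ⟨a, ha, hae⟩ := hy'
  have : a = y := by
    have h2 : n * a * n⁻¹ = n * y * n⁻¹ := hae
    exact mul_left_cancel (mul_right_cancel h2)
  rwa [← this]

theorem Inverts.mem_normalizer {h : G} {E : Subgroup G} (hI : Inverts h E) :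
    h ∈ Subgroup.normalizer (E : Set G) :=
  mem_normalizer_of_forall E h fun a ha => by rw [hI a ha]; exact E.inv_mem ha

theorem Inverts.sq_conj {h : G} {E : Subgroup G} (hI : Inverts h E) {e : G} (he : e ∈ E) :
    h ^ 2 * e * (h ^ 2)⁻¹ = e := by
  have h1 : h * e⁻¹ * h⁻¹ = e := by rw [hI _ (E.inv_mem he), inv_inv]
  calc h ^ 2 * e * (h ^ 2)⁻¹ = h * (h * e * h⁻¹) * h⁻¹ := by rw [pow_two]; group
    _ = e := by rw [hI e he, h1]

theorem Inverts.pow_odd {h : G} {E : Subgroup G} (hI : Inverts h E) (j : ℕ) :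
    Inverts (h ^ (2 * j + 1)) E := by
  intro e he
  have h2 : ∀ k : ℕ, h ^ (2 * k) * e * (h ^ (2 * k))⁻¹ = e := by
    intro k
    induction k with
    | zero => simp
    | succ k ih =>
      have : h ^ (2 * (k + 1)) = h ^ 2 * h ^ (2 * k) := by
        rw [← pow_add]; congr 1; ring
      rw [this]
      calc h ^ 2 * h ^ (2 * k) * e * (h ^ 2 * h ^ (2 * k))⁻¹
          = h ^ 2 * (h ^ (2 * k) * e * (h ^ (2 * k))⁻¹) * (h ^ 2)⁻¹ := by group
        _ = e := by rw [ih, hI.sq_conj he]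
  calc h ^ (2 * j + 1) * e * (h ^ (2 * j + 1))⁻¹
      = h * (h ^ (2 * j) * e * (h ^ (2 * j))⁻¹) * h⁻¹ := by
        rw [pow_succ' h (2 * j)]; group
    _ = e⁻¹ := by rw [h2, hI e he]

theorem Inverts.conj {h k : G} {E : Subgroup G} (hI : Inverts h E)
    (hk : k ∈ Subgroup.normalizer (E : Set G)) : Inverts (k * h * k⁻¹) E := by
  intro e he
  have h1 : k⁻¹ * e * k ∈ E := by
    have hk' : k⁻¹ ∈ Subgroup.normalizer (E : Set G) := inv_mem hk
    have := (hk' e).1 he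
    simpa using this
  have h2 := hI _ h1
  calc k * h * k⁻¹ * e * (k * h * k⁻¹)⁻¹ = k * (h * (k⁻¹ * e * k) * h⁻¹) * k⁻¹ := by group
    _ = e⁻¹ := by rw [h2]; group

theorem Inverts.two_dvd {h : G} {E : Subgroup G} (hI : Inverts h E) {x : G} (hx : x ∈ E)
    (hx2 : x⁻¹ ≠ x) : 2 ∣ orderOf h := by
  by_contra hcon
  obtain ⟨j, hj⟩ : ∃ j, orderOf h = 2 * j + 1 := by
    rcases Nat.even_or_odd' (orderOf h) with ⟨j, hj | hj⟩
    · exact absurd ⟨j, hj⟩ hcon
    · exact ⟨j, hj⟩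
  have := hI.pow_odd j x hx
  rw [← hj, pow_orderOf_eq_one] at this
  simp at this
  exact hx2 this.symm

namespace ES'

variable {S : Subgroup G} (hS : ES p S)
include hS

theorem Cen_comm {u e f : G} (hu : u ∈ S) (hu' : u ∉ Zc S) (he : e ∈ Cen S u) (hf : f ∈ Cen S u) :
    e * f = f * e := by
  have h := (IsPGroup.isMulCommutative_of_card_eq_prime_sq (hS.card_Cen hu hu')).is_comm.comm
    (⟨e, he⟩ : Cen S u) ⟨f, hf⟩
  exact congrArg Subtype.val h

theorem self_mem_Cen {u : G} (hu : u ∈ S) : u ∈ Cen S u := mem_Cen.2 ⟨hu, rfl⟩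

theorem not_mem_zpowers {x z : G} (hx : x ∈ S) (hx' : x ∉ Zc S) (hz : z ∈ Zc S) (hz1 : z ≠ 1) :
    z ∉ Subgroup.zpowers x := by
  intro hzx
  have hdx : orderOf x = p := orderOf_eq_prime (hS.exp x hx) (fun h => hx' (by rw [h]; exact (Zc S).one_mem))
  have hdz : orderOf z = p := orderOf_eq_prime (hS.exp z (mem_Zc.1 hz).1) hz1
  have hle : Subgroup.zpowers z ≤ Subgroup.zpowers x := by rwa [Subgroup.zpowers_le]
  have he : Subgroup.zpowers z = Subgroup.zpowers x := by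
    apply Subgroup.eq_of_le_of_card_ge hle
    rw [Nat.card_zpowers, Nat.card_zpowers, hdx, hdz]
  apply hx'
  have hxz : x ∈ Subgroup.zpowers z := by rw [he]; exact Subgroup.mem_zpowers x
  exact (Subgroup.zpowers_le.2 hz) hxz

/-- `Cen S x` is generated by `x` and `z`. -/
theorem Cen_eq_sup {x z : G} (hx : x ∈ S) (hx' : x ∉ Zc S) (hz : z ∈ Zc S) (hz1 : z ≠ 1) :
    Subgroup.zpowers x ⊔ Subgroup.zpowers z = Cen S x := by
  have hpp := hp.out
  have hdz : orderOf z = p := orderOf_eq_prime (hS.exp z (mem_Zc.1 hz).1) hz1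
  have hzC : z ∈ Cen S x := hS.Zc_le_Cen hx hz
  have hle : Subgroup.zpowers x ⊔ Subgroup.zpowers z ≤ Cen S x := by
    apply sup_le
    · rw [Subgroup.zpowers_le]; exact self_mem_Cen hS hx
    · rwa [Subgroup.zpowers_le]
  apply Subgroup.eq_of_le_of_card_ge hle
  rw [hS.card_Cen hx hx']
  -- `F` is a `p`-group properly containing `⟨z⟩`
  set F := Subgroup.zpowers x ⊔ Subgroup.zpowers z with hF
  have hzF : Subgroup.zpowers z ≤ F := le_sup_right
  have hxF : x ∈ F := (le_sup_left : Subgroup.zpowers x ≤ F) (Subgroup.mem_zpowers x)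
  have hlt : Subgroup.zpowers z < F := by
    refine lt_of_le_of_ne hzF fun he => ?_
    have h1 : x ∈ Subgroup.zpowers z := by rw [he]; exact hxF
    have hz' : Subgroup.zpowers z ≤ Zc S := by rwa [Subgroup.zpowers_le]
    exact hx' (hz' h1)
  have h1 := lt_card_of_lt hlt
  rw [Nat.card_zpowers, hdz] at h1
  have hdvd : Nat.card F ∣ p ^ 2 := by
    rw [← hS.card_Cen hx hx']; exact Subgroup.card_dvd_of_le hle
  obtain ⟨k, hk, he⟩ := (Nat.dvd_prime_pow hpp).1 hdvd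
  rw [he] at h1 ⊢
  have hk2 : k = 2 := by
    have : p ^ 1 < p ^ k := by simpa using h1
    have := (Nat.pow_lt_pow_iff_right hpp.one_lt).1 this
    omega
  rw [hk2]

theorem inverts_of_gens {x z h : G} (hx : x ∈ S) (hx' : x ∉ Zc S) (hz : z ∈ Zc S) (hz1 : z ≠ 1)
    (h1 : h * x * h⁻¹ = x⁻¹) (h2 : h * z * h⁻¹ = z⁻¹) : Inverts h (Cen S x) := by
  let I : Subgroup G :=
    { carrier := {e | e ∈ Cen S x ∧ h * e * h⁻¹ = e⁻¹}
      mul_mem' := by
        rintro a b ⟨ha, ha'⟩ ⟨hb, hb'⟩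
        refine ⟨mul_mem ha hb, ?_⟩
        calc h * (a * b) * h⁻¹ = (h * a * h⁻¹) * (h * b * h⁻¹) := by group
          _ = a⁻¹ * b⁻¹ := by rw [ha', hb']
          _ = (b * a)⁻¹ := by group
          _ = (a * b)⁻¹ := by rw [Cen_comm hS hx hx' hb ha]
      one_mem' := ⟨one_mem _, by simp⟩
      inv_mem' := by
        rintro a ⟨ha, ha'⟩
        refine ⟨inv_mem ha, ?_⟩
        calc h * a⁻¹ * h⁻¹ = (h * a * h⁻¹)⁻¹ := by group
          _ = (a⁻¹)⁻¹ := by rw [ha'] }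
  have hF : Subgroup.zpowers x ⊔ Subgroup.zpowers z ≤ I := by
    apply sup_le
    · rw [Subgroup.zpowers_le]; exact ⟨self_mem_Cen hS hx, h1⟩
    · rw [Subgroup.zpowers_le]; exact ⟨hS.Zc_le_Cen hx hz, h2⟩
  rw [Cen_eq_sup hS hx hx' hz hz1] at hF
  intro e he
  exact (hF he).2

theorem conj_Cen_mem {x y e : G} (hx : x ∈ S) (hx' : x ∉ Zc S) (hy : y ∈ S) (he : e ∈ Cen S x) :
    y * e * y⁻¹ ∈ Cen S x := by
  have heS : e ∈ S := (mem_Cen.1 he).1
  have h1 : y * e * y⁻¹ * e⁻¹ ∈ Zc S := hS.comm_mem hy heS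
  have h2 := hS.Zc_le_Cen hx h1
  have : y * e * y⁻¹ = (y * e * y⁻¹ * e⁻¹) * e := by group
  rw [this]
  exact mul_mem h2 he

end ES'

/-- A `p`-subgroup of order `p` in `S` other than the centre is conjugate into the centre; and
the conjugating element carries `Cen S x` into `S`. -/
theorem exists_conj {P : Sylow p G} (hS : ES p (P : Subgroup G))
    (hD : ∀ H K : Subgroup G, IsPGroup p H → IsPGroup p K → Nat.card H = Nat.card K →
      ∃ g : G, K = H.map (MulAut.conj g).toMonoidHom)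
    {x : G} (hx : x ∈ (P : Subgroup G)) (hx' : x ∉ Zc (P : Subgroup G)) :
    ∃ g₁ : G, (∀ e ∈ Cen (P : Subgroup G) x, g₁⁻¹ * e * g₁ ∈ (P : Subgroup G)) ∧
      g₁⁻¹ * x * g₁ ∈ Zc (P : Subgroup G) := by
  have hx1 : x ≠ 1 := fun h => hx' (by rw [h]; exact (Zc _).one_mem)
  have hdx : orderOf x = p := orderOf_eq_prime (hS.exp x hx) hx1
  obtain ⟨g, hg⟩ := hD (Subgroup.zpowers x) (Zc (P : Subgroup G))
    (IsPGroup.of_card (n := 1) (by rw [Nat.card_zpowers, hdx, pow_one]))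
    (IsPGroup.of_card (n := 1) (by rw [hS.card_Zc, pow_one]))
    (by rw [Nat.card_zpowers, hdx, hS.card_Zc])
  have hgx : g * x * g⁻¹ ∈ Zc (P : Subgroup G) := by
    rw [hg]
    exact ⟨x, Subgroup.mem_zpowers x, rfl⟩
  -- the Sylow subgroup `g⁻¹ P g` centralises `x`
  let R : Sylow p G := g⁻¹ • P
  have hRmem : ∀ u, u ∈ (R : Subgroup G) ↔ g * u * g⁻¹ ∈ (P : Subgroup G) := by
    intro u
    have h := mem_map_conj (P : Subgroup G) g⁻¹ u
    have e : (R : Subgroup G) = (P : Subgroup G).map (MulAut.conj g⁻¹).toMonoidHom := by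
      rw [Sylow.coe_subgroup_smul]; rfl
    rw [e, h, inv_inv]
  let C : Subgroup G := Subgroup.centralizer ({x} : Set G)
  have hRC : (R : Subgroup G) ≤ C := by
    intro u hu
    rw [Subgroup.mem_centralizer_iff]
    intro y hy
    rw [Set.mem_singleton_iff] at hy
    subst hy
    have h1 := (hRmem u).1 hu
    have h2 := (mem_Zc.1 hgx).2 _ h1
    have h3 : g * (u * y) * g⁻¹ = g * (y * u) * g⁻¹ := by
      calc g * (u * y) * g⁻¹ = g * u * g⁻¹ * (g * y * g⁻¹) := by group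
        _ = g * y * g⁻¹ * (g * u * g⁻¹) := h2
        _ = g * (y * u) * g⁻¹ := by group
    exact (mul_left_cancel (mul_right_cancel h3)).symm
  have hEp : IsPGroup p (Cen (P : Subgroup G) x) :=
    IsPGroup.of_card (hS.card_Cen hx hx')
  have hEC : Cen (P : Subgroup G) x ≤ C := inf_le_right
  obtain ⟨k, hk, hkE⟩ := exists_conj_mem_of_le R C hRC (Cen (P : Subgroup G) x) hEp hEC
  have hkx : k * x * k⁻¹ = x := by
    have := Subgroup.mem_centralizer_iff.1 hk x (Set.mem_singleton x)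
    rw [← this, mul_inv_cancel_right]
  refine ⟨(g * k)⁻¹, fun e he => ?_, ?_⟩
  · have := (hRmem _).1 (hkE e he)
    have e1 : ((g * k)⁻¹)⁻¹ * e * (g * k)⁻¹ = g * (k * e * k⁻¹) * g⁻¹ := by group
    rw [e1]; exact this
  · have e1 : ((g * k)⁻¹)⁻¹ * x * (g * k)⁻¹ = g * (k * x * k⁻¹) * g⁻¹ := by group
    rw [e1, hkx]
    exact hgx

/-- Local data: two elements whose commutators generate an `SL₂(p)`-like action. -/
theorem exists_w {P : Sylow p G} (hS : ES p (P : Subgroup G))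
    (hD : ∀ H K : Subgroup G, IsPGroup p H → IsPGroup p K → Nat.card H = Nat.card K →
      ∃ g : G, K = H.map (MulAut.conj g).toMonoidHom)
    {x z : G} (hx : x ∈ (P : Subgroup G)) (hx' : x ∉ Zc (P : Subgroup G))
    (hz : z ∈ Zc (P : Subgroup G)) (hz1 : z ≠ 1) :
    ∃ a b : G, a ^ p = 1 ∧ b ^ p = 1 ∧ Inverts ((a * b⁻¹ * a) ^ 2) (Cen (P : Subgroup G) x) := by
  have hx1 : x ≠ 1 := fun h => hx' (by rw [h]; exact (Zc _).one_mem)
  have hzC : z ∈ Cen (P : Subgroup G) x := hS.Zc_le_Cen hx hz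
  have hzS : z ∈ (P : Subgroup G) := (mem_Zc.1 hz).1
  have hxz : x * z = z * x := (mem_Zc.1 hz).2 x hx
  obtain ⟨g₁, hg₁E, hg₁x⟩ := exists_conj hS hD hx hx'
  -- `a`
  obtain ⟨a, ha, hax⟩ := hS.comm_surj hx hx' hz
  have haz : a * z = z * a := (mem_Zc.1 hz).2 a ha
  -- `b`
  set x₁ := g₁⁻¹ * x * g₁ with hx₁
  set z₁ := g₁⁻¹ * z * g₁ with hz₁
  have hz₁S : z₁ ∈ (P : Subgroup G) := hg₁E z hzC
  have hx₁1 : x₁ ≠ 1 := by
    intro h
    apply hx1
    have : x = g₁ * x₁ * g₁⁻¹ := by rw [hx₁]; group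
    rw [this, h]; group
  have hz₁' : z₁ ∉ Zc (P : Subgroup G) := by
    intro hcon
    have h1 := hS.pow_inj_Zc hg₁x hx₁1 hcon
    obtain ⟨k, hk⟩ := Subgroup.mem_zpowers_iff.1 h1
    apply ES'.not_mem_zpowers hS hx hx' hz hz1
    refine Subgroup.mem_zpowers_iff.2 ⟨k, ?_⟩
    have h2 : g₁⁻¹ * x ^ k * g₁ = x₁ ^ k := by
      rw [hx₁]
      have : (g₁⁻¹ * x * g₁) = MulAut.conj g₁⁻¹ x := by simp [MulAut.conj_apply]
      rw [this, ← map_zpow]
      simp [MulAut.conj_apply]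
    have h3 : g₁⁻¹ * x ^ k * g₁ = g₁⁻¹ * z * g₁ := by rw [h2, hk]
    exact mul_left_cancel (mul_right_cancel h3)
  obtain ⟨y₁, hy₁, hy₁c⟩ := hS.comm_surj hz₁S hz₁' hg₁x
  set b := g₁ * y₁ * g₁⁻¹ with hb
  have hbz : b * z * b⁻¹ * z⁻¹ = x := by
    have : b * z * b⁻¹ * z⁻¹ = g₁ * (y₁ * z₁ * y₁⁻¹ * z₁⁻¹) * g₁⁻¹ := by
      rw [hb, hz₁]; group
    rw [this, hy₁c, hx₁]; group
  have hbx : b * x = x * b := by
    have h1 := (mem_Zc.1 hg₁x).2 y₁ hy₁
    have h2 : g₁ * (y₁ * x₁) * g₁⁻¹ = g₁ * (x₁ * y₁) * g₁⁻¹ := by rw [h1]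
    calc b * x = g₁ * (y₁ * x₁) * g₁⁻¹ := by rw [hb, hx₁]; group
      _ = g₁ * (x₁ * y₁) * g₁⁻¹ := h2
      _ = x * b := by rw [hb, hx₁]; group
  refine ⟨a, b, hS.exp a ha, ?_, ?_⟩
  · rw [hb]
    have : (g₁ * y₁ * g₁⁻¹) ^ p = g₁ * y₁ ^ p * g₁⁻¹ := by
      rw [conj_pow]
    rw [this, hS.exp y₁ hy₁]; group
  -- the word
  set w := a * b⁻¹ * a with hw
  have ha1 : a * x * a⁻¹ = z * x := by
    rw [← hax]; group
  have ha2 : a * z * a⁻¹ = z := by rw [haz]; group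
  have hb1 : b⁻¹ * x * b = x := by
    have : b⁻¹ * x = x * b⁻¹ := (Commute.inv_left (show Commute b x from hbx)).eq
    rw [this]; group
  have hb2 : b⁻¹ * z * b = x⁻¹ * z := by
    have h1 : b * z * b⁻¹ = x * z := by rw [← hbz]; group
    have h2 : b * (x⁻¹ * z) * b⁻¹ = z := by
      calc b * (x⁻¹ * z) * b⁻¹ = (b * x⁻¹ * b⁻¹) * (b * z * b⁻¹) := by group
        _ = x⁻¹ * (x * z) := by
            rw [h1]
            congr 1
            have : b * x⁻¹ = x⁻¹ * b := (Commute.inv_right (show Commute b x from hbx)).eq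
            rw [this]; group
        _ = z := by group
    calc b⁻¹ * z * b = b⁻¹ * (b * (x⁻¹ * z) * b⁻¹) * b := by rw [h2]
      _ = x⁻¹ * z := by group
  have hw1 : w * x * w⁻¹ = z := by
    calc w * x * w⁻¹ = a * (b⁻¹ * (a * x * a⁻¹) * b) * a⁻¹ := by rw [hw]; group
      _ = a * (b⁻¹ * (z * x) * b) * a⁻¹ := by rw [ha1]
      _ = a * ((b⁻¹ * z * b) * (b⁻¹ * x * b)) * a⁻¹ := by group
      _ = a * (x⁻¹ * z * x) * a⁻¹ := by rw [hb1, hb2]
      _ = a * z * a⁻¹ := by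
          rw [mul_assoc x⁻¹, ← hxz]; group
      _ = z := ha2
  have hw2 : w * z * w⁻¹ = x⁻¹ := by
    calc w * z * w⁻¹ = a * (b⁻¹ * (a * z * a⁻¹) * b) * a⁻¹ := by rw [hw]; group
      _ = a * (b⁻¹ * z * b) * a⁻¹ := by rw [ha2]
      _ = a * (x⁻¹ * z) * a⁻¹ := by rw [hb2]
      _ = (a * x * a⁻¹)⁻¹ * (a * z * a⁻¹) := by group
      _ = (z * x)⁻¹ * z := by rw [ha1, ha2]
      _ = x⁻¹ := by group
  apply ES'.inverts_of_gens hS hx hx' hz hz1
  · calc w ^ 2 * x * (w ^ 2)⁻¹ = w * (w * x * w⁻¹) * w⁻¹ := by rw [pow_two]; group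
      _ = x⁻¹ := by rw [hw1, hw2]
  · calc w ^ 2 * z * (w ^ 2)⁻¹ = w * (w * z * w⁻¹) * w⁻¹ := by rw [pow_two]; group
      _ = w * x⁻¹ * w⁻¹ := by rw [hw2]
      _ = (w * x * w⁻¹)⁻¹ := by group
      _ = z⁻¹ := by rw [hw1]

end Cfsg.Agent.Lib.SameOrdInv
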