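import Mathlib
import Cfsg.Agent.Lib.UniqueSub
import Cfsg.Agent.Lib.QuatHom
import Cfsg.Agent.Lib.Replacement
import Cfsg.Agent.Lib.SameOrdInv

/-!
# `p`-groups in which subgroups of equal order are isomorphic.
-/

set_option autoImplicit false
set_option linter.unusedSectionVars false
set_option linter.style.haveILetI false
set_option linter.unusedVariables false

namespace Cfsg.Agent.Lib.SameOrdA

open Subgroup Cfsg.Agent.Lib.SameOrdInv

variable {H : Type*} [Group H] [Finite H] {p : ℕ} [hp : Fact p.Prime]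

theorem card_sup_le (A B : Subgroup H) (hAB : A ≤ Subgroup.normalizer (B : Set H)) :
    Nat.card ↥(A ⊔ B) ≤ Nat.card A * Nat.card B := by
  have h := Cfsg.Agent.Lib.Replacement.card_sup_mul_card_inf A B hAB
  rw [← h]
  exact Nat.le_mul_of_pos_right _ Nat.card_pos

/-- A central subgroup of order `p`. -/
theorem exists_central_order (hP : IsPGroup p H) [Nontrivial H] :
    ∃ c : H, orderOf c = p ∧ ∀ g : H, g * c = c * g := by
  have hpp := hp.out
  haveI := hP.center_nontrivial
  obtain ⟨c, hc⟩ := exists_ne (1 : Subgroup.center H)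
  have hP' : IsPGroup p (Subgroup.center H) := hP.to_subgroup _
  obtain ⟨k, hk⟩ := (IsPGroup.iff_orderOf.1 hP') c
  have hk0 : k ≠ 0 := by
    rintro rfl
    rw [pow_zero, orderOf_eq_one_iff] at hk
    exact hc hk
  obtain ⟨k', rfl⟩ := Nat.exists_eq_succ_of_ne_zero hk0
  refine ⟨(c : H) ^ (p ^ k'), ?_, fun g => ?_⟩
  · have h1 : orderOf (c : H) = p ^ (k' + 1) := by
      rw [← hk]; exact (Subgroup.orderOf_coe c)
    have hpos : 0 < p ^ k' := pow_pos hpp.pos k'
    rw [orderOf_pow_of_dvd hpos.ne' (by rw [h1]; exact pow_dvd_pow p (Nat.le_succ k')), h1,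
      pow_succ]
    exact Nat.mul_div_cancel_left _ hpos
  · have : Commute g (c : H) := (Subgroup.mem_center_iff.1 c.2) g
    exact this.pow_right _

theorem eq_of_cyclic {F : Type*} [Group F] [Finite F] [IsCyclic F] (D₁ D₂ : Subgroup F)
    (h₁ : Nat.card D₁ = p) (h₂ : Nat.card D₂ = p) : D₁ = D₂ := by
  classical
  have hpp := hp.out
  haveI := Fintype.ofFinite F
  have hS : (Finset.univ.filter (fun a : F => a ^ p = 1)).card ≤ p := IsCyclic.card_pow_eq_one_le hpp.pos
  have key : ∀ D : Subgroup F, Nat.card D = p → ∀ a : F, a ∈ D ↔ a ^ p = 1 := by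
    intro D hD
    have hsub : Finset.univ.filter (fun a : F => a ∈ D) ⊆ Finset.univ.filter (fun a : F => a ^ p = 1) := by
      intro a ha
      simp only [Finset.mem_filter, Finset.mem_univ, true_and] at ha ⊢
      have h := pow_card_eq_one' (G := D) (x := ⟨a, ha⟩)
      rw [hD] at h
      exact congrArg Subtype.val h
    have hc : (Finset.univ.filter (fun a : F => a ∈ D)).card = p := by
      rw [← hD, Nat.card_eq_fintype_card, Fintype.card_subtype]
    have he := Finset.eq_of_subset_of_card_le hsub (by rw [hc]; exact hS)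
    intro a
    have := Finset.ext_iff.1 he a
    simpa using this
  ext a
  rw [key D₁ h₁, key D₂ h₂]

/-- Unique subgroup of order `p`, when all subgroups of order `p ^ 2` are cyclic. -/
theorem unique_order_p (hP : IsPGroup p H) (hcyc : ∀ A : Subgroup H, Nat.card A = p ^ 2 → IsCyclic A)
    (A B : Subgroup H) (hA : Nat.card A = p) (hB : Nat.card B = p) : A = B := by
  have hpp := hp.out
  haveI : Nontrivial H := by
    rw [← Finite.one_lt_card_iff_nontrivial]
    have : Nat.card A ≤ Nat.card H := Nat.le_of_dvd Nat.card_pos (Subgroup.card_subgroup_dvd_card A)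
    rw [hA] at this
    exact lt_of_lt_of_le hpp.one_lt this
  obtain ⟨c, hc, hcen⟩ := exists_central_order hP
  haveI hCn : (Subgroup.zpowers c).Normal := by
    constructor
    rintro n hn g
    obtain ⟨k, rfl⟩ := Subgroup.mem_zpowers_iff.1 hn
    have : g * c ^ k * g⁻¹ = c ^ k := by
      have h1 : Commute g (c ^ k) := Commute.zpow_right (hcen g) k
      rw [h1.eq]; group
    rw [this]
    exact Subgroup.zpow_mem_zpowers c k
  have key : ∀ D : Subgroup H, Nat.card D = p → D = Subgroup.zpowers c := by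
    intro D hD
    by_contra hne
    have hinf : D ⊓ Subgroup.zpowers c = ⊥ := by
      have hd1 : Nat.card ↥(D ⊓ Subgroup.zpowers c) ∣ p := by
        rw [← hD]; exact Subgroup.card_dvd_of_le inf_le_left
      rcases (Nat.dvd_prime hpp).1 hd1 with h1 | h1
      · exact Subgroup.card_eq_one.1 h1
      · exfalso
        apply hne
        have h2 : D ⊓ Subgroup.zpowers c = D :=
          Subgroup.eq_of_le_of_card_ge inf_le_left (by rw [h1, hD])
        have h3 : D ≤ Subgroup.zpowers c := by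
          rw [← h2]; exact inf_le_right
        exact Subgroup.eq_of_le_of_card_ge h3 (by rw [Nat.card_zpowers, hc, hD])
    have hcard := Cfsg.Agent.Lib.Replacement.card_sup_mul_card_inf D (Subgroup.zpowers c)
      (by rw [Subgroup.normalizer_eq_top_iff.2 hCn]; exact le_top)
    rw [hinf, Subgroup.card_bot, mul_one, hD, Nat.card_zpowers, hc] at hcard
    have hc2 := hcyc _ (by rw [hcard, pow_two])
    -- a cyclic group has a unique subgroup of each order
    have hDc : Nat.card (D.subgroupOf (D ⊔ Subgroup.zpowers c)) = p := by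
      rw [← hD]
      exact Nat.card_congr (Subgroup.subgroupOfEquivOfLe le_sup_left).toEquiv
    have hCc : Nat.card ((Subgroup.zpowers c).subgroupOf (D ⊔ Subgroup.zpowers c)) = p := by
      rw [← hc, ← Nat.card_zpowers]
      exact Nat.card_congr (Subgroup.subgroupOfEquivOfLe le_sup_right).toEquiv
    have he := eq_of_cyclic _ _ hDc hCc
    apply hne
    have := Subgroup.subgroupOf_inj.1 he
    rwa [inf_of_le_left (le_sup_left : D ≤ D ⊔ Subgroup.zpowers c),
      inf_of_le_left (le_sup_right : Subgroup.zpowers c ≤ D ⊔ Subgroup.zpowers c)] at this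
  rw [key A hA, key B hB]

/-- Elements in a large generalised quaternion group. -/
theorem big_quat (r : ℕ) (hr : 0 < r) :
    haveI : NeZero (4 * r) := ⟨by omega⟩
    ∃ A W C : QuaternionGroup (4 * r), orderOf C = 8 ∧ orderOf A = 4 ∧ W * W = A ^ 2 ∧
      W * A * W⁻¹ = A⁻¹ := by
  haveI : NeZero (4 * r) := ⟨by omega⟩
  open QuaternionGroup in
  have h1 : orderOf (a 1 : QuaternionGroup (4 * r)) = 2 * (4 * r) := orderOf_a_one
  refine ⟨(QuaternionGroup.a 1) ^ (2 * r), QuaternionGroup.xa 0, (QuaternionGroup.a 1) ^ r, ?_, ?_, ?_, ?_⟩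
  · rw [orderOf_pow_of_dvd hr.ne' ⟨8, by rw [h1]; ring⟩, h1]
    exact Nat.div_eq_of_eq_mul_right hr (by ring)
  · rw [orderOf_pow_of_dvd (by omega) ⟨4, by rw [h1]; ring⟩, h1]
    exact Nat.div_eq_of_eq_mul_right (by omega) (by ring)
  · rw [QuaternionGroup.xa_mul_xa, ← pow_mul, QuaternionGroup.a_one_pow]
    congr 1
    push_cast
    ring
  · rw [QuaternionGroup.a_one_pow, mul_inv_eq_iff_eq_mul]
    have h3 : ∀ k : ZMod (2 * (4 * r)), (QuaternionGroup.a k : QuaternionGroup (4 * r))⁻¹ = QuaternionGroup.a (-k) :=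
      fun k => rfl
    rw [h3, QuaternionGroup.xa_mul_a, QuaternionGroup.a_mul_xa]
    congr 1
    ring

theorem quat_noncomm : (QuaternionGroup.a 1 : QuaternionGroup 2) * QuaternionGroup.xa 0 ≠
    QuaternionGroup.xa 0 * QuaternionGroup.a 1 := by
  decide

/-- First case: some element has order exceeding `p`. -/
theorem case_order_sq (hP : IsPGroup p H)
    (hIso : ∀ A B : Subgroup H, Nat.card A = Nat.card B → Nonempty (A ≃* B))
    (g : H) (hg : g ^ p ≠ 1) : IsCyclic H ∨ Nonempty (H ≃* QuaternionGroup 2) := by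
  classical
  have hpp := hp.out
  obtain ⟨k, hk⟩ := (IsPGroup.iff_orderOf.1 hP) g
  have hk2 : 2 ≤ k := by
    by_contra hcon
    apply hg
    have : g ^ (p ^ k) = 1 := by rw [← hk, pow_orderOf_eq_one]
    have h2 : p ^ k ∣ p := by
      have : k ≤ 1 := by omega
      calc p ^ k ∣ p ^ 1 := pow_dvd_pow p this
        _ = p := pow_one p
    exact orderOf_dvd_iff_pow_eq_one.1 (hk ▸ h2)
  obtain ⟨j, rfl⟩ := Nat.exists_eq_add_of_le hk2
  have hpos : 0 < p ^ j := pow_pos hpp.pos j
  have hg0 : orderOf (g ^ (p ^ j)) = p ^ 2 := by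
    rw [orderOf_pow_of_dvd hpos.ne' (by rw [hk]; exact pow_dvd_pow p (by omega)), hk,
      show 2 + j = j + 2 by ring, pow_add]
    exact Nat.mul_div_cancel_left _ hpos
  have hcyc : ∀ A : Subgroup H, Nat.card A = p ^ 2 → IsCyclic A := by
    intro A hA
    obtain ⟨e⟩ := hIso (Subgroup.zpowers (g ^ (p ^ j))) A (by rw [Nat.card_zpowers, hg0, hA])
    exact isCyclic_of_surjective e e.surjective
  have huniq := unique_order_p hP hcyc
  rcases Cfsg.Agent.Lib.UniqueSub.main p hP huniq with h | ⟨rfl, n, ⟨e⟩⟩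
  · exact Or.inl h
  · rcases n with _ | _ | n'
    · -- order 4
      left
      have hc : IsCyclic (QuaternionGroup (2 ^ 0)) := by
        haveI : NeZero (2 ^ 0) := ⟨by norm_num⟩
        apply isCyclic_of_orderOf_eq_card (QuaternionGroup.xa 0)
        rw [QuaternionGroup.orderOf_xa, Nat.card_eq_fintype_card, QuaternionGroup.card]
        norm_num
      exact isCyclic_of_surjective e.symm e.symm.surjective
    · exact Or.inr ⟨e⟩
    · exfalso
      have hr : 0 < 2 ^ n' := by positivity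
      have hm : 2 ^ (n' + 1 + 1) = 4 * 2 ^ n' := by ring
      rw [hm] at e
      haveI : NeZero (4 * 2 ^ n') := ⟨by omega⟩
      obtain ⟨A, W, C, hC, hA, hW, hWA⟩ := big_quat (2 ^ n') hr
      set A' := e.symm A with hA'
      set W' := e.symm W with hW'
      set C' := e.symm C with hC'
      have hoA : orderOf A' = 2 * 2 := by rw [hA', MulEquiv.orderOf_eq, hA]
      have hoC : orderOf C' = 8 := by rw [hC', MulEquiv.orderOf_eq, hC]
      have h2 : A' ^ 2 ≠ 1 := by
        intro h
        have := orderOf_dvd_of_pow_eq_one h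
        rw [hoA] at this
        omega
      obtain ⟨K, hK, ⟨eK⟩⟩ := Cfsg.Agent.Lib.QuatHom.exists_subgroup_quaternion (n := 2) A' W' h2 hoA
        (by rw [hA', hW', ← map_mul, hW, map_pow]) (by rw [hA', hW', ← map_mul, ← map_inv, ← map_mul, hWA, map_inv])
      obtain ⟨e2⟩ := hIso K (Subgroup.zpowers C') (by rw [hK, Nat.card_zpowers, hoC])
      -- `K` would be commutative
      have hcommZ : ∀ u v : Subgroup.zpowers C', u * v = v * u := by
        rintro ⟨u, hu⟩ ⟨v, hv⟩
        obtain ⟨i, rfl⟩ := Subgroup.mem_zpowers_iff.1 hu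
        obtain ⟨j, rfl⟩ := Subgroup.mem_zpowers_iff.1 hv
        exact Subtype.ext (zpow_mul_comm C' i j)
      have hcomm : ∀ x y : QuaternionGroup 2, x * y = y * x := by
        intro x y
        have h3 : (e2 (eK.symm x)) * (e2 (eK.symm y)) = (e2 (eK.symm y)) * (e2 (eK.symm x)) :=
          hcommZ _ _
        have h4 : e2 (eK.symm x * eK.symm y) = e2 (eK.symm y * eK.symm x) := by
          rw [map_mul, map_mul]; exact h3
        have h5 := e2.injective h4
        have h6 : eK.symm (x * y) = eK.symm (y * x) := by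
          rw [map_mul, map_mul]; exact h5
        exact eK.symm.injective h6
      exact quat_noncomm (hcomm _ _)

/-- Groups of order dividing `p ^ 2` are commutative. -/
theorem comm_of_card_le {K : Subgroup H} {k : ℕ} (hk : k ≤ 2) (hK : Nat.card K = p ^ k) {s t : H}
    (hs : s ∈ K) (ht : t ∈ K) : s * t = t * s := by
  have hpp := hp.out
  have key : ∀ u v : K, u * v = v * u := by
    interval_cases k
    · rw [pow_zero, Nat.card_eq_one_iff_unique] at hK
      haveI := hK.1
      intro u v; exact Subsingleton.elim _ _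
    · rw [pow_one] at hK
      haveI : Fact (Nat.card K).Prime := ⟨by rw [hK]; exact hpp⟩
      haveI := isCyclic_of_prime_card (α := K) rfl
      exact fun u v => (IsCyclic.commGroup (α := K)).mul_comm u v
    · exact (IsPGroup.isMulCommutative_of_card_eq_prime_sq hK).is_comm.comm
  exact congrArg Subtype.val (key ⟨s, hs⟩ ⟨t, ht⟩)

theorem inf_bot_of_not_mem {u : H} (hu : orderOf u = p) {N : Subgroup H} (huN : u ∉ N) :
    Subgroup.zpowers u ⊓ N = ⊥ := by
  have hpp := hp.out
  have hd1 : Nat.card ↥(Subgroup.zpowers u ⊓ N) ∣ p := by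
    rw [← hu, ← Nat.card_zpowers]; exact Subgroup.card_dvd_of_le inf_le_left
  rcases (Nat.dvd_prime hpp).1 hd1 with h1 | h1
  · exact Subgroup.card_eq_one.1 h1
  · exfalso
    apply huN
    have h2 : Subgroup.zpowers u ⊓ N = Subgroup.zpowers u :=
      Subgroup.eq_of_le_of_card_ge inf_le_left (by rw [h1, Nat.card_zpowers, hu])
    have h3 : Subgroup.zpowers u ≤ N := by
      rw [← h2]; exact inf_le_right
    exact h3 (Subgroup.mem_zpowers u)

/-- The existence of a nonabelian subgroup of order `p ^ 3`, exponent `p`. -/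
theorem exists_nonab (hP : IsPGroup p H) (hexp : ∀ x : H, x ^ p = 1) (hnc : ∃ x y : H, x * y ≠ y * x) :
    ∃ U : Subgroup H, Nat.card U = p ^ 3 ∧ ∃ s ∈ U, ∃ t ∈ U, s * t ≠ t * s := by
  classical
  have hpp := hp.out
  -- an element of the second centre
  let Z := Subgroup.center H
  have hQ : IsPGroup p (H ⧸ Z) := hP.to_quotient Z
  haveI hQn : Nontrivial (H ⧸ Z) := by
    obtain ⟨x, y, hxy⟩ := hnc
    have : x ∉ Z := by
      intro hx
      exact hxy ((Subgroup.mem_center_iff.1 hx) y).symm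
    refine ⟨⟨(x : H ⧸ Z), 1, fun h => this ?_⟩⟩
    exact (QuotientGroup.eq_one_iff x).1 h
  haveI := hQ.center_nontrivial
  obtain ⟨w, hw⟩ := exists_ne (1 : Subgroup.center (H ⧸ Z))
  obtain ⟨y₀, hy₀⟩ := QuotientGroup.mk_surjective (w : H ⧸ Z)
  have hy₀Z : y₀ ∉ Z := by
    intro h
    apply hw
    apply Subtype.ext
    rw [← hy₀]
    exact (QuotientGroup.eq_one_iff y₀).2 h
  obtain ⟨x₀, hx₀⟩ : ∃ x₀ : H, x₀ * y₀ ≠ y₀ * x₀ := by
    by_contra hcon
    push Not at hcon
    exact hy₀Z (Subgroup.mem_center_iff.2 hcon)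
  set c := x₀ * y₀ * x₀⁻¹ * y₀⁻¹ with hc
  have hcZ : c ∈ Z := by
    rw [← QuotientGroup.eq_one_iff c]
    have h1 := (Subgroup.mem_center_iff.1 w.2) (x₀ : H ⧸ Z)
    rw [← hy₀] at h1
    have h2 : ((x₀ * y₀ : H) : H ⧸ Z) = ((y₀ * x₀ : H) : H ⧸ Z) := h1
    rw [hc]
    have h3 : x₀ * y₀ * x₀⁻¹ * y₀⁻¹ = (x₀ * y₀) * (y₀ * x₀)⁻¹ := by group
    rw [h3, QuotientGroup.mk_mul, QuotientGroup.mk_inv, h2]
    group
  have hcen : ∀ g : H, g * c = c * g := Subgroup.mem_center_iff.1 hcZ
  have hc1 : c ≠ 1 := by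
    intro h
    apply hx₀
    rw [hc, mul_inv_eq_one, mul_inv_eq_iff_eq_mul] at h
    exact h
  have hy1 : y₀ ≠ 1 := by
    rintro rfl
    exact hx₀ (by simp)
  have hx1 : x₀ ≠ 1 := by
    rintro rfl
    exact hx₀ (by simp)
  have hoc : orderOf c = p := orderOf_eq_prime (hexp c) hc1
  have hoy : orderOf y₀ = p := orderOf_eq_prime (hexp y₀) hy1
  have hox : orderOf x₀ = p := orderOf_eq_prime (hexp x₀) hx1
  -- the subgroups
  have hcenz : ∀ g : H, ∀ a ∈ Subgroup.zpowers c, g * a * g⁻¹ = a := by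
    intro g a ha
    obtain ⟨k, rfl⟩ := Subgroup.mem_zpowers_iff.1 ha
    have h1 : Commute g (c ^ k) := Commute.zpow_right (hcen g) k
    rw [h1.eq]; group
  set N₁ := Subgroup.zpowers y₀ ⊔ Subgroup.zpowers c with hN₁
  have hyn : Subgroup.zpowers y₀ ≤ Subgroup.normalizer ((Subgroup.zpowers c : Subgroup H) : Set H) := by
    rw [Subgroup.zpowers_le]
    apply mem_normalizer_of_forall
    intro a ha
    rw [hcenz y₀ a ha]; exact ha
  have hN₁c : Nat.card N₁ ≤ p * p := by
    have := card_sup_le _ _ hyn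
    rwa [Nat.card_zpowers, Nat.card_zpowers, hoy, hoc] at this
  have hxn : Subgroup.zpowers x₀ ≤ Subgroup.normalizer (N₁ : Set H) := by
    rw [Subgroup.zpowers_le]
    apply mem_normalizer_of_forall
    have hle : N₁ ≤ N₁.comap (MulAut.conj x₀).toMonoidHom := by
      apply sup_le
      · rw [Subgroup.zpowers_le, Subgroup.mem_comap]
        show x₀ * y₀ * x₀⁻¹ ∈ N₁
        have : x₀ * y₀ * x₀⁻¹ = c * y₀ := by rw [hc]; group
        rw [this]
        exact mul_mem ((le_sup_right : _ ≤ N₁) (Subgroup.mem_zpowers c))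
          ((le_sup_left : _ ≤ N₁) (Subgroup.mem_zpowers y₀))
      · rw [Subgroup.zpowers_le, Subgroup.mem_comap]
        show x₀ * c * x₀⁻¹ ∈ N₁
        rw [hcenz x₀ c (Subgroup.mem_zpowers c)]
        exact (le_sup_right : _ ≤ N₁) (Subgroup.mem_zpowers c)
    exact fun a ha => hle ha
  set U := Subgroup.zpowers x₀ ⊔ N₁ with hU
  have hUc : Nat.card U ≤ p * (p * p) := by
    have := card_sup_le _ _ hxn
    rw [Nat.card_zpowers, hox] at this
    exact this.trans (Nat.mul_le_mul_left p hN₁c)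
  have hxU : x₀ ∈ U := (le_sup_left : _ ≤ U) (Subgroup.mem_zpowers x₀)
  have hyU : y₀ ∈ U := (le_sup_right : N₁ ≤ U) ((le_sup_left : _ ≤ N₁) (Subgroup.mem_zpowers y₀))
  refine ⟨U, ?_, x₀, hxU, y₀, hyU, hx₀⟩
  obtain ⟨k, hk⟩ := IsPGroup.iff_card.1 (hP.to_subgroup U)
  have hk3 : k = 3 := by
    have h1 : k ≤ 3 := by
      by_contra hcon
      have h2 : p ^ 4 ≤ p ^ k := Nat.pow_le_pow_right hpp.pos (by omega)
      rw [← hk] at h2
      have h3 : p ^ 4 ≤ p * (p * p) := h2.trans hUc
      have h4 : p ^ 4 = p * (p * p) * p := by ring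
      rw [h4] at h3
      have h5 : 0 < p * (p * p) := Nat.mul_pos hpp.pos (Nat.mul_pos hpp.pos hpp.pos)
      have h6 := Nat.le_of_mul_le_mul_left (show p * (p * p) * p ≤ p * (p * p) * 1 by simpa using h3) h5
      have := hpp.one_lt
      omega
    have h2 : ¬ k ≤ 2 := fun h => hx₀ (comm_of_card_le h hk hxU hyU)
    omega
  rw [hk, hk3]

/-- The existence of an abelian subgroup of order `p ^ 3`, exponent `p`, if `p ^ 4 ≤ #H`. -/
theorem exists_ab (hP : IsPGroup p H) (hexp : ∀ x : H, x ^ p = 1) (h4 : p ^ 4 ≤ Nat.card H) :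
    ∃ B : Subgroup H, Nat.card B = p ^ 3 ∧ ∀ s ∈ B, ∀ t ∈ B, s * t = t * s := by
  classical
  have hpp := hp.out
  haveI : Nontrivial H := by
    rw [← Finite.one_lt_card_iff_nontrivial]
    exact lt_of_lt_of_le (Nat.one_lt_pow (by norm_num) hpp.one_lt) h4
  obtain ⟨c, hoc, hcen⟩ := exists_central_order hP
  have hcenz : ∀ g : H, ∀ a ∈ Subgroup.zpowers c, g * a * g⁻¹ = a := by
    intro g a ha
    obtain ⟨k, rfl⟩ := Subgroup.mem_zpowers_iff.1 ha
    have h1 : Commute g (c ^ k) := Commute.zpow_right (hcen g) k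
    rw [h1.eq]; group
  set N := Subgroup.zpowers c with hN
  haveI hNn : N.Normal := by
    constructor
    intro n hn g
    rw [hcenz g n hn]; exact hn
  have hNc : Nat.card N = p := by rw [Nat.card_zpowers, hoc]
  have hQ : IsPGroup p (H ⧸ N) := hP.to_quotient N
  haveI hQn : Nontrivial (H ⧸ N) := by
    rw [← Finite.one_lt_card_iff_nontrivial]
    have h5 := Subgroup.card_eq_card_quotient_mul_card_subgroup N
    rw [hNc] at h5
    by_contra hcon
    have h6 : Nat.card (H ⧸ N) ≤ 1 := by omega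
    have h7 : Nat.card H ≤ 1 * p := by rw [h5]; exact Nat.mul_le_mul_right p h6
    have h8 : p ^ 4 ≤ p := by
      calc p ^ 4 ≤ Nat.card H := h4
        _ ≤ 1 * p := h7
        _ = p := one_mul p
    have h9 : p ^ 1 < p ^ 4 := Nat.pow_lt_pow_right hpp.one_lt (by norm_num)
    rw [pow_one] at h9
    omega
  haveI := hQ.center_nontrivial
  obtain ⟨w, hw⟩ := exists_ne (1 : Subgroup.center (H ⧸ N))
  obtain ⟨a, ha⟩ := QuotientGroup.mk_surjective (w : H ⧸ N)
  have haN : a ∉ N := by
    intro h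
    apply hw
    apply Subtype.ext
    rw [← ha]
    exact (QuotientGroup.eq_one_iff a).2 h
  have hcomm : ∀ g : H, g * a * g⁻¹ * a⁻¹ ∈ N := by
    intro g
    rw [← QuotientGroup.eq_one_iff]
    have h1 := (Subgroup.mem_center_iff.1 w.2) (g : H ⧸ N)
    rw [← ha] at h1
    have h2 : ((g * a : H) : H ⧸ N) = ((a * g : H) : H ⧸ N) := h1
    have h3 : g * a * g⁻¹ * a⁻¹ = (g * a) * (a * g)⁻¹ := by group
    rw [h3, QuotientGroup.mk_mul, QuotientGroup.mk_inv, h2]
    group
  -- the centraliser of `a`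
  let φ : H →* N := MonoidHom.mk' (fun g => ⟨g * a * g⁻¹ * a⁻¹, hcomm g⟩) (by
    intro g k
    apply Subtype.ext
    show (g * k) * a * (g * k)⁻¹ * a⁻¹ = (g * a * g⁻¹ * a⁻¹) * (k * a * k⁻¹ * a⁻¹)
    have h1 := hcenz g _ (hcomm k)
    calc (g * k) * a * (g * k)⁻¹ * a⁻¹
        = (g * (k * a * k⁻¹ * a⁻¹) * g⁻¹) * (g * a * g⁻¹ * a⁻¹) := by group
      _ = (k * a * k⁻¹ * a⁻¹) * (g * a * g⁻¹ * a⁻¹) := by rw [h1]
      _ = (g * a * g⁻¹ * a⁻¹) * (k * a * k⁻¹ * a⁻¹) := by
          have hN' : ∀ u v : N, u * v = v * u := by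
            rintro ⟨u, hu⟩ ⟨v, hv⟩
            obtain ⟨i, rfl⟩ := Subgroup.mem_zpowers_iff.1 hu
            obtain ⟨j, rfl⟩ := Subgroup.mem_zpowers_iff.1 hv
            exact Subtype.ext (zpow_mul_comm c i j)
          exact congrArg Subtype.val (hN' ⟨_, hcomm k⟩ ⟨_, hcomm g⟩))
  have hkerc : ∀ g, g ∈ φ.ker ↔ g * a = a * g := by
    intro g
    rw [MonoidHom.mem_ker]
    constructor
    · intro h
      have h1 : g * a * g⁻¹ * a⁻¹ = 1 := congrArg Subtype.val h
      rw [mul_inv_eq_one, mul_inv_eq_iff_eq_mul] at h1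
      exact h1
    · intro h
      apply Subtype.ext
      show g * a * g⁻¹ * a⁻¹ = 1
      rw [h]; group
  have hindex : φ.ker.index ≤ p := by
    rw [Subgroup.index_ker, ← hNc]
    exact Nat.le_of_dvd Nat.card_pos (Subgroup.card_subgroup_dvd_card _)
  have hkerc3 : p ^ 3 ≤ Nat.card φ.ker := by
    have h5 := Subgroup.index_mul_card φ.ker
    have h6 : p ^ 4 ≤ p * Nat.card φ.ker := by
      calc p ^ 4 ≤ Nat.card H := h4
        _ = φ.ker.index * Nat.card φ.ker := h5.symm
        _ ≤ p * Nat.card φ.ker := Nat.mul_le_mul_right _ hindex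
    have h7 : p ^ 4 = p * p ^ 3 := by ring
    rw [h7] at h6
    exact Nat.le_of_mul_le_mul_left h6 hpp.pos
  -- order `p ^ 2`
  have ha1 : a ≠ 1 := by
    rintro rfl
    exact haN (one_mem _)
  have hoa : orderOf a = p := orderOf_eq_prime (hexp a) ha1
  set N₂ := Subgroup.zpowers a ⊔ N with hN₂
  have hallnorm : ∀ A : Subgroup H, A ≤ Subgroup.normalizer (N : Set H) := by
    intro A
    rw [Subgroup.normalizer_eq_top_iff.2 hNn]
    exact le_top
  have hN₂c : Nat.card N₂ = p ^ 2 := by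
    have h1 := Cfsg.Agent.Lib.Replacement.card_sup_mul_card_inf (Subgroup.zpowers a) N (hallnorm _)
    rw [inf_bot_of_not_mem hoa haN, Subgroup.card_bot, mul_one, Nat.card_zpowers, hoa, hNc] at h1
    rw [h1, pow_two]
  have hN₂le : N₂ ≤ φ.ker := by
    apply sup_le
    · rw [Subgroup.zpowers_le, hkerc]
    · show Subgroup.zpowers c ≤ φ.ker
      rw [Subgroup.zpowers_le, hkerc]
      exact (hcen a).symm
  obtain ⟨u, huk, huN⟩ : ∃ u ∈ φ.ker, u ∉ N₂ := by
    by_contra hcon
    push Not at hcon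
    have h1 : φ.ker ≤ N₂ := hcon
    have h2 := Nat.le_of_dvd Nat.card_pos (Subgroup.card_dvd_of_le h1)
    rw [hN₂c] at h2
    have h3 : p ^ 2 < p ^ 3 := Nat.pow_lt_pow_right hpp.one_lt (by norm_num)
    omega
  have hua : u * a = a * u := (hkerc u).1 huk
  have huc : u * c = c * u := hcen u
  have hac : a * c = c * a := hcen a
  have hu1 : u ≠ 1 := by
    rintro rfl
    exact huN (one_mem _)
  have hou : orderOf u = p := orderOf_eq_prime (hexp u) hu1
  have hN₂u : N₂ ≤ Subgroup.centralizer ({u} : Set H) := by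
    apply sup_le
    · rw [Subgroup.zpowers_le, Subgroup.mem_centralizer_singleton_iff]
      exact hua.symm
    · show Subgroup.zpowers c ≤ _
      rw [Subgroup.zpowers_le, Subgroup.mem_centralizer_singleton_iff]
      exact huc.symm
  have hun : Subgroup.zpowers u ≤ Subgroup.normalizer (N₂ : Set H) := by
    rw [Subgroup.zpowers_le]
    apply mem_normalizer_of_forall
    intro x hx
    have h1 := Subgroup.mem_centralizer_singleton_iff.1 (hN₂u hx)
    rw [← h1]
    have : x * u * u⁻¹ = x := by group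
    rw [this]; exact hx
  set B := Subgroup.zpowers u ⊔ N₂ with hB
  refine ⟨B, ?_, ?_⟩
  · have h1 := Cfsg.Agent.Lib.Replacement.card_sup_mul_card_inf (Subgroup.zpowers u) N₂ hun
    rw [inf_bot_of_not_mem hou huN, Subgroup.card_bot, mul_one, Nat.card_zpowers, hou, hN₂c] at h1
    rw [h1]; ring
  · have hB1 : ∀ x : H, x * u = u * x → x * a = a * x → x * c = c * x →
        ∀ b ∈ B, x * b = b * x := by
      intro x h1 h2 h3
      have : B ≤ Subgroup.centralizer ({x} : Set H) := by
        refine sup_le ?_ (sup_le ?_ ?_)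
        · rw [Subgroup.zpowers_le, Subgroup.mem_centralizer_singleton_iff]; exact h1.symm
        · rw [Subgroup.zpowers_le, Subgroup.mem_centralizer_singleton_iff]; exact h2.symm
        · show Subgroup.zpowers c ≤ _
          rw [Subgroup.zpowers_le, Subgroup.mem_centralizer_singleton_iff]; exact h3.symm
      intro b hb
      exact (Subgroup.mem_centralizer_singleton_iff.1 (this hb)).symm
    intro s hs t ht
    have hsu : s * u = u * s := (hB1 u rfl hua huc s hs).symm
    have hsa : s * a = a * s := (hB1 a hua.symm rfl hac s hs).symm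
    have hsc : s * c = c * s := hcen s
    exact hB1 s hsu hsa hsc t ht

/-- Second case: exponent `p`. -/
theorem case_exp (hP : IsPGroup p H)
    (hIso : ∀ A B : Subgroup H, Nat.card A = Nat.card B → Nonempty (A ≃* B))
    (hexp : ∀ x : H, x ^ p = 1) (hnc : ∃ x y : H, x * y ≠ y * x) : Nat.card H = p ^ 3 := by
  have hpp := hp.out
  obtain ⟨U, hU, s, hs, t, ht, hst⟩ := exists_nonab hP hexp hnc
  have h3 : p ^ 3 ≤ Nat.card H := by
    rw [← hU]; exact Nat.le_of_dvd Nat.card_pos (Subgroup.card_subgroup_dvd_card U)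
  obtain ⟨n, hn⟩ := IsPGroup.iff_card.1 hP
  have hn3 : 3 ≤ n := by
    rw [hn] at h3
    exact (Nat.pow_le_pow_iff_right hpp.one_lt).1 h3
  have hn4 : ¬ 4 ≤ n := by
    intro h
    have h4 : p ^ 4 ≤ Nat.card H := by
      rw [hn]; exact Nat.pow_le_pow_right hpp.pos h
    obtain ⟨B, hB, hBc⟩ := exists_ab hP hexp h4
    obtain ⟨e⟩ := hIso U B (by rw [hU, hB])
    apply hst
    have h5 : e ⟨s, hs⟩ * e ⟨t, ht⟩ = e ⟨t, ht⟩ * e ⟨s, hs⟩ :=
      Subtype.ext (hBc _ (e ⟨s, hs⟩).2 _ (e ⟨t, ht⟩).2)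
    have h6 : e (⟨s, hs⟩ * ⟨t, ht⟩) = e (⟨t, ht⟩ * ⟨s, hs⟩) := by
      rw [map_mul, map_mul]; exact h5
    exact congrArg Subtype.val (e.injective h6)
  have : n = 3 := by omega
  rw [hn, this]

/-- The classification. -/
theorem classify (hP : IsPGroup p H)
    (hIso : ∀ A B : Subgroup H, Nat.card A = Nat.card B → Nonempty (A ≃* B)) :
    IsCyclic H ∨ Nonempty (H ≃* QuaternionGroup 2) ∨ ((∀ x y : H, x * y = y * x) ∧ ∀ x : H, x ^ p = 1) ∨
      ((∀ x : H, x ^ p = 1) ∧ Nat.card H = p ^ 3 ∧ ∃ x y : H, x * y ≠ y * x) := by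
  by_cases hexp : ∀ x : H, x ^ p = 1
  · by_cases hcomm : ∀ x y : H, x * y = y * x
    · exact Or.inr (Or.inr (Or.inl ⟨hcomm, hexp⟩))
    · push Not at hcomm
      exact Or.inr (Or.inr (Or.inr ⟨hexp, case_exp hP hIso hexp hcomm, hcomm⟩))
  · push Not at hexp
    obtain ⟨g, hg⟩ := hexp
    rcases case_order_sq hP hIso g hg with h | h
    · exact Or.inl h
    · exact Or.inr (Or.inl h)

end Cfsg.Agent.Lib.SameOrdA
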