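import Mathlib
import Cfsg.Agent.Lib.SameOrdInv

/-!
# Counting maximal subgroups of a nonabelian group of order `p ^ 3`; the orbit argument.
-/

set_option autoImplicit false
set_option linter.unusedSectionVars false
set_option linter.style.haveILetI false
set_option linter.unusedVariables false

namespace Cfsg.Agent.Lib.SameOrdCount

open Subgroup Cfsg.Agent.Lib.SameOrdES Cfsg.Agent.Lib.SylowConjLemmas Cfsg.Agent.Lib.SameOrdInv

variable {G : Type*} [Group G] [Finite G] {p : ℕ} [hp : Fact p.Prime]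

namespace ES''

variable {S : Subgroup G} (hS : ES p S)
include hS

theorem comm_of_card_sq {A : Subgroup G} (hA : Nat.card A = p ^ 2) {e f : G} (he : e ∈ A) (hf : f ∈ A) :
    e * f = f * e :=
  congrArg Subtype.val ((IsPGroup.isMulCommutative_of_card_eq_prime_sq hA).is_comm.comm
    (⟨e, he⟩ : A) ⟨f, hf⟩)

theorem exists_not_Zc_of_card {A : Subgroup G} (hA : Nat.card A = p ^ 2) : ∃ g ∈ A, g ∉ Zc S := by
  have hpp := hp.out
  by_contra hcon
  push Not at hcon
  have hle : A ≤ Zc S := hcon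
  have := Nat.le_of_dvd Nat.card_pos (Subgroup.card_dvd_of_le hle)
  rw [hA, hS.card_Zc] at this
  have h2 : p * 1 < p * p := Nat.mul_lt_mul_of_pos_left hpp.one_lt hpp.pos
  nlinarith

theorem eq_Cen_of_mem {A : Subgroup G} (hAS : A ≤ S) (hA : Nat.card A = p ^ 2) {g : G} (hg : g ∈ A)
    (hg' : g ∉ Zc S) : Cen S g = A := by
  symm
  apply Subgroup.eq_of_le_of_card_ge
  · intro f hf
    exact mem_Cen.2 ⟨hAS hf, comm_of_card_sq hS hA hf hg⟩
  · rw [hS.card_Cen (hAS hg) hg', hA]

theorem Zc_le_of_card {A : Subgroup G} (hAS : A ≤ S) (hA : Nat.card A = p ^ 2) : Zc S ≤ A := by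
  obtain ⟨g, hg, hg'⟩ := exists_not_Zc_of_card hS hA
  rw [← eq_Cen_of_mem hS hAS hA hg hg']
  exact hS.Zc_le_Cen (hAS hg)

theorem conj_mem_of_card {A : Subgroup G} (hAS : A ≤ S) (hA : Nat.card A = p ^ 2) {y e : G}
    (hy : y ∈ S) (he : e ∈ A) : y * e * y⁻¹ ∈ A := by
  have h1 : y * e * y⁻¹ * e⁻¹ ∈ Zc S := hS.comm_mem hy (hAS he)
  have h2 := Zc_le_of_card hS hAS hA h1
  have : y * e * y⁻¹ = (y * e * y⁻¹ * e⁻¹) * e := by group
  rw [this]
  exact mul_mem h2 he

/-- There are `p + 1` subgroups of order `p ^ 2`. -/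
theorem ncard_maxes : {A : Subgroup G | A ≤ S ∧ Nat.card A = p ^ 2}.ncard = p + 1 := by
  classical
  have hpp := hp.out
  haveI := Fintype.ofFinite G
  let 𝓔 : Finset (Subgroup G) := (Set.toFinite {A : Subgroup G | A ≤ S ∧ Nat.card A = p ^ 2}).toFinset
  have h𝓔 : ∀ A, A ∈ 𝓔 ↔ A ≤ S ∧ Nat.card A = p ^ 2 := by
    intro A; simp [𝓔]
  have hn : {A : Subgroup G | A ≤ S ∧ Nat.card A = p ^ 2}.ncard = 𝓔.card := by
    rw [Set.ncard_eq_toFinset_card _ (Set.toFinite _)]
  rw [hn]
  -- counting elements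
  have hcard : ∀ H : Subgroup G, (Finset.univ.filter (fun g => g ∈ H)).card = Nat.card H := by
    intro H
    rw [Nat.card_eq_fintype_card, Fintype.card_subtype]
  have hdiff : ∀ H K : Subgroup G, H ≤ K →
      (Finset.univ.filter (fun g => g ∈ K ∧ g ∉ H)).card = Nat.card K - Nat.card H := by
    intro H K hHK
    have h1 : Finset.univ.filter (fun g => g ∈ K ∧ g ∉ H) =
        Finset.univ.filter (fun g => g ∈ K) \ Finset.univ.filter (fun g => g ∈ H) := by
      ext g; simp
    rw [h1, Finset.card_sdiff_of_subset, hcard, hcard]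
    intro g hg
    simp only [Finset.mem_filter, Finset.mem_univ, true_and] at hg ⊢
    exact hHK hg
  set X : Finset G := Finset.univ.filter (fun g => g ∈ S ∧ g ∉ Zc S) with hX
  have hXc : X.card = p ^ 3 - p := by
    have := hdiff (Zc S) S inf_le_left
    rw [hS.card, hS.card_Zc] at this
    rw [← this, hX]
  have hf : ∀ g ∈ X, Cen S g ∈ 𝓔 := by
    intro g hg
    simp only [hX, Finset.mem_filter, Finset.mem_univ, true_and] at hg
    rw [h𝓔]
    exact ⟨inf_le_left, hS.card_Cen hg.1 hg.2⟩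
  have hsum := Finset.card_eq_sum_card_fiberwise hf
  have hfib : ∀ A ∈ 𝓔, (X.filter (fun g => Cen S g = A)).card = p ^ 2 - p := by
    intro A hA
    rw [h𝓔] at hA
    have h1 : X.filter (fun g => Cen S g = A) = Finset.univ.filter (fun g => g ∈ A ∧ g ∉ Zc S) := by
      ext g
      simp only [hX, Finset.mem_filter, Finset.mem_univ, true_and]
      constructor
      · rintro ⟨⟨h1, h2⟩, h3⟩
        refine ⟨?_, h2⟩
        rw [← h3]
        exact mem_Cen.2 ⟨h1, rfl⟩
      · rintro ⟨h1, h2⟩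
        exact ⟨⟨hA.1 h1, h2⟩, eq_Cen_of_mem hS hA.1 hA.2 h1 h2⟩
    rw [h1, hdiff _ _ (Zc_le_of_card hS hA.1 hA.2), hA.2, hS.card_Zc]
  rw [Finset.sum_congr rfl hfib, Finset.sum_const, hXc, smul_eq_mul] at hsum
  have hpos : 0 < p ^ 2 - p := by
    have : p * 1 < p * p := Nat.mul_lt_mul_of_pos_left hpp.one_lt hpp.pos
    have h2 : p ^ 2 = p * p := by ring
    omega
  have h3 : p ^ 3 - p = (p + 1) * (p ^ 2 - p) := by
    have h4 : p ≤ p ^ 2 := by
      have := Nat.mul_le_mul_left p hpp.one_le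
      rw [mul_one] at this
      rw [pow_two]; exact this
    obtain ⟨c, hc⟩ := Nat.exists_eq_add_of_le h4
    have h5 : p ^ 3 = p + (p + 1) * c := by
      calc p ^ 3 = p * p ^ 2 := by ring
        _ = p * (p + c) := by rw [hc]
        _ = p ^ 2 + p * c := by ring
        _ = p + c + p * c := by rw [hc]
        _ = p + (p + 1) * c := by ring
    have h6 : p ^ 2 - p = c := by omega
    rw [h6, h5, Nat.add_sub_cancel_left]
  rw [h3] at hsum
  exact (Nat.eq_of_mul_eq_mul_right hpos hsum).symm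

end ES''

end Cfsg.Agent.Lib.SameOrdCount

namespace Cfsg.Agent.Lib.SameOrdCount

open Subgroup Cfsg.Agent.Lib.SameOrdES Cfsg.Agent.Lib.SylowConjLemmas Cfsg.Agent.Lib.SameOrdInv

variable {G : Type*} [Group G] [Finite G] {p : ℕ} [hp : Fact p.Prime]

/-- The conjugates of `E` under `M` are odd in number when a Sylow 2-subgroup of `M` normalises
`E`. -/
theorem not_two_dvd_conjugates (M E : Subgroup G) (T : Sylow 2 M)
    (hT : ∀ s ∈ (T : Subgroup M), (s : G) ∈ Subgroup.normalizer (E : Set G)) :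
    ¬ 2 ∣ {A : Subgroup G | ∃ n ∈ M, A = E.map (MulAut.conj n).toMonoidHom}.ncard := by
  letI act : MulAction M (Subgroup G) :=
    { smul := fun g A => A.map (MulAut.conj (g : G)).toMonoidHom
      one_smul := fun A => by
        show A.map (MulAut.conj ((1 : M) : G)).toMonoidHom = A
        ext y
        simp [Subgroup.mem_map]
      mul_smul := fun g h A => by
        show A.map (MulAut.conj ((g * h : M) : G)).toMonoidHom =
          (A.map (MulAut.conj (h : G)).toMonoidHom).map (MulAut.conj (g : G)).toMonoidHom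
        rw [Subgroup.map_map]
        congr 1
        ext y
        simp [MulAut.conj_apply, mul_assoc] }
  have horb : MulAction.orbit M E = {A : Subgroup G | ∃ n ∈ M, A = E.map (MulAut.conj n).toMonoidHom} := by
    ext A
    constructor
    · rintro ⟨n, rfl⟩
      exact ⟨n, n.2, rfl⟩
    · rintro ⟨n, hn, rfl⟩
      exact ⟨⟨n, hn⟩, rfl⟩
  rw [← horb, ← MulAction.index_stabilizer]
  intro h
  apply T.not_dvd_index
  refine h.trans (Subgroup.index_dvd_of_le ?_)
  intro s hs
  rw [MulAction.mem_stabilizer_iff]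
  show E.map (MulAut.conj (s : G)).toMonoidHom = E
  have hn := hT s hs
  ext y
  constructor
  · rintro ⟨e, he, rfl⟩
    exact (hn e).1 he
  · intro hy
    refine ⟨(s : G)⁻¹ * y * s, ?_, ?_⟩
    · rw [SetLike.mem_coe] at *
      have := (hn ((s : G)⁻¹ * y * s))
      rw [SetLike.mem_coe] at *
      rw [this]
      have e : (s : G) * ((s : G)⁻¹ * y * s) * (s : G)⁻¹ = y := by group
      rw [e]; exact hy
    · show (s : G) * ((s : G)⁻¹ * y * s) * (s : G)⁻¹ = y
      group

/-- Burnside's argument: normal subgroups of a Sylow subgroup conjugate in `G` are conjugate in the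
normaliser. -/
theorem exists_normalizer_conj {P : Sylow p G} {E A : Subgroup G}
    (hE : ∀ y ∈ (P : Subgroup G), ∀ e ∈ E, y * e * y⁻¹ ∈ E)
    (hA : ∀ y ∈ (P : Subgroup G), ∀ e ∈ A, y * e * y⁻¹ ∈ A)
    {g : G} (hg : A = E.map (MulAut.conj g).toMonoidHom) :
    ∃ n ∈ Subgroup.normalizer ((P : Subgroup G) : Set G), A = E.map (MulAut.conj n).toMonoidHom := by
  have hPle : (P : Subgroup G) ≤ Subgroup.normalizer (A : Set G) := fun y hy =>
    mem_normalizer_of_forall A y (hA y hy)
  have hmem : ∀ u, u ∈ A ↔ g⁻¹ * u * g ∈ E := by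
    intro u; rw [hg]; exact mem_map_conj E g u
  have hT : IsPGroup p ((P : Subgroup G).map (MulAut.conj g).toMonoidHom) :=
    P.isPGroup'.map _
  have hTle : (P : Subgroup G).map (MulAut.conj g).toMonoidHom ≤ Subgroup.normalizer (A : Set G) := by
    rintro _ ⟨y, hy, rfl⟩
    apply mem_normalizer_of_forall
    intro e he
    rw [hmem]
    have h1 := (hmem e).1 he
    have h2 := hE y hy _ h1
    have e1 : g⁻¹ * ((MulAut.conj g).toMonoidHom y * e * ((MulAut.conj g).toMonoidHom y)⁻¹) * g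
        = y * (g⁻¹ * e * g) * y⁻¹ := by
      simp only [MulEquiv.coe_toMonoidHom, MulAut.conj_apply]
      group
    rw [e1]; exact h2
  obtain ⟨k, hk, hkT⟩ := exists_conj_mem_of_le P _ hPle _ hT hTle
  refine ⟨k * g, ?_, ?_⟩
  · apply mem_normalizer_of_forall
    intro y hy
    have := hkT _ ⟨y, hy, rfl⟩
    have e1 : k * (MulAut.conj g).toMonoidHom y * k⁻¹ = k * g * y * (k * g)⁻¹ := by
      simp only [MulEquiv.coe_toMonoidHom, MulAut.conj_apply]
      group
    rw [← e1]; exact this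
  · ext u
    rw [mem_map_conj]
    have e1 : (k * g)⁻¹ * u * (k * g) = g⁻¹ * (k⁻¹ * u * k) * g := by group
    rw [e1, ← hmem]
    have := (inv_mem hk : k⁻¹ ∈ Subgroup.normalizer (A : Set G)) u
    rw [inv_inv] at this
    exact this

end Cfsg.Agent.Lib.SameOrdCount
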