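import Mathlib
import Cfsg.Agent.Lib.SameOrdCount

/-!
# No nonabelian Sylow subgroup of order `p ^ 3` and exponent `p` when `p`-subgroups of equal order
are conjugate and the Sylow 2-subgroups are cyclic, of exponent 2 or quaternion of order 8.
-/

set_option autoImplicit false
set_option linter.unusedSectionVars false
set_option linter.style.haveILetI false
set_option linter.unusedVariables false

namespace Cfsg.Agent.Lib.SameOrdMain

open Subgroup Cfsg.Agent.Lib.SameOrdES Cfsg.Agent.Lib.SylowConjLemmas Cfsg.Agent.Lib.SameOrdInv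
  Cfsg.Agent.Lib.SameOrdCount

variable {G : Type*} [Group G] [Finite G] {p : ℕ} [hp : Fact p.Prime]

/-- Two-subgroups contain at most one involution. -/
def UniqInv (G : Type*) [Group G] : Prop :=
  ∀ S : Subgroup G, IsPGroup 2 S → ∀ u ∈ S, ∀ v ∈ S, u ^ 2 = 1 → v ^ 2 = 1 → u ≠ 1 → v ≠ 1 → u = v

theorem quat_uniq : ∀ q r : QuaternionGroup 2, q ^ 2 = 1 → r ^ 2 = 1 → q ≠ 1 → r ≠ 1 → q = r := by
  decide

theorem quat_pow_four : ∀ q : QuaternionGroup 2, q ^ 4 = 1 := by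
  decide

theorem uniqInv_of_quaternion (T : Sylow 2 G) (e : (T : Subgroup G) ≃* QuaternionGroup 2) :
    UniqInv G := by
  intro S hS u hu v hv hu2 hv2 hu1 hv1
  obtain ⟨g, hg⟩ := exists_conj_mem T S hS
  let u' : (T : Subgroup G) := ⟨g * u * g⁻¹, hg u hu⟩
  let v' : (T : Subgroup G) := ⟨g * v * g⁻¹, hg v hv⟩
  have hu'2 : u' ^ 2 = 1 := by
    apply Subtype.ext
    show (g * u * g⁻¹) ^ 2 = 1
    rw [conj_pow, hu2]; group
  have hv'2 : v' ^ 2 = 1 := by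
    apply Subtype.ext
    show (g * v * g⁻¹) ^ 2 = 1
    rw [conj_pow, hv2]; group
  have hu'1 : u' ≠ 1 := by
    intro h
    apply hu1
    have : g * u * g⁻¹ = 1 := congrArg Subtype.val h
    rw [mul_inv_eq_one] at this
    exact mul_left_cancel (this.trans (mul_one g).symm)
  have hv'1 : v' ≠ 1 := by
    intro h
    apply hv1
    have : g * v * g⁻¹ = 1 := congrArg Subtype.val h
    rw [mul_inv_eq_one] at this
    exact mul_left_cancel (this.trans (mul_one g).symm)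
  have h := quat_uniq (e u') (e v') (by rw [← map_pow, hu'2, map_one]) (by rw [← map_pow, hv'2, map_one])
    (fun h => hu'1 (by simpa using h)) (fun h => hv'1 (by simpa using h))
  have h2 := e.injective h
  have h3 : g * u * g⁻¹ = g * v * g⁻¹ := congrArg Subtype.val h2
  exact mul_left_cancel (mul_right_cancel h3)

/-- Involutions of a subgroup are conjugate in it. -/
theorem conj_invol (hU : UniqInv G) (N : Subgroup G) {i τ : G} (hi : i ∈ N) (hτ : τ ∈ N)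
    (hi2 : i ^ 2 = 1) (hτ2 : τ ^ 2 = 1) (hi1 : i ≠ 1) (hτ1 : τ ≠ 1) :
    ∃ h ∈ N, h * i * h⁻¹ = τ := by
  let i' : N := ⟨i, hi⟩
  let τ' : N := ⟨τ, hτ⟩
  have hi'2 : i' ^ 2 = 1 := Subtype.ext hi2
  have hτ'2 : τ' ^ 2 = 1 := Subtype.ext hτ2
  have two : ∀ y : N, y ^ 2 = 1 → IsPGroup 2 (Subgroup.zpowers y) := by
    intro y hy
    have hd : orderOf y ∣ 2 ^ 1 := by rw [pow_one]; exact orderOf_dvd_of_pow_eq_one hy
    obtain ⟨k, hk, he⟩ := (Nat.dvd_prime_pow Nat.prime_two).1 hd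
    exact IsPGroup.of_card (n := k) (by rw [Nat.card_zpowers, he])
  obtain ⟨S, hS⟩ := (two τ' hτ'2).exists_le_sylow
  obtain ⟨g, hg⟩ := exists_conj_mem S (Subgroup.zpowers i') (two i' hi'2)
  have h1 : g * i' * g⁻¹ ∈ (S : Subgroup N) := hg i' (Subgroup.mem_zpowers i')
  have h2 : τ' ∈ (S : Subgroup N) := hS (Subgroup.mem_zpowers τ')
  have hSp : IsPGroup 2 ((S : Subgroup N).map N.subtype) := S.isPGroup'.map _
  refine ⟨g, g.2, ?_⟩
  apply hU _ hSp
  · exact ⟨_, h1, rfl⟩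
  · exact ⟨_, h2, rfl⟩
  · rw [conj_pow, hi2]; group
  · exact hτ2
  · intro h
    rw [mul_inv_eq_one] at h
    exact hi1 (mul_left_cancel (h.trans (mul_one _).symm))
  · exact hτ1

/-- From an element inverting `Cen P x` to an element of `N_G(P)` inverting `Cen P x`. -/
theorem exists_f {P : Sylow p G} (hS : ES p (P : Subgroup G)) (hp2 : p ≠ 2)
    {x : G} (hx : x ∈ (P : Subgroup G)) (hx' : x ∉ Zc (P : Subgroup G)) {i : G}
    (hi : Inverts i (Cen (P : Subgroup G) x)) :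
    ∃ f ∈ Subgroup.normalizer ((P : Subgroup G) : Set G), Inverts f (Cen (P : Subgroup G) x) := by
  set E := Cen (P : Subgroup G) x with hE
  have hstab : ∀ y ∈ (P : Subgroup G), ∀ e ∈ E, y * e * y⁻¹ ∈ E := fun y hy e he =>
    ES'.conj_Cen_mem hS hx hx' hy he
  let Q : Subgroup G :=
    { carrier := {g | ∃ y ∈ (P : Subgroup G), ∀ e ∈ E, g * e * g⁻¹ = y * e * y⁻¹}
      mul_mem' := by
        rintro g₁ g₂ ⟨y₁, hy₁, h₁⟩ ⟨y₂, hy₂, h₂⟩
        refine ⟨y₁ * y₂, mul_mem hy₁ hy₂, fun e he => ?_⟩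
        calc g₁ * g₂ * e * (g₁ * g₂)⁻¹ = g₁ * (g₂ * e * g₂⁻¹) * g₁⁻¹ := by group
          _ = g₁ * (y₂ * e * y₂⁻¹) * g₁⁻¹ := by rw [h₂ e he]
          _ = y₁ * (y₂ * e * y₂⁻¹) * y₁⁻¹ := h₁ _ (hstab y₂ hy₂ e he)
          _ = y₁ * y₂ * e * (y₁ * y₂)⁻¹ := by group
      one_mem' := ⟨1, one_mem _, fun e he => by simp⟩
      inv_mem' := by
        rintro g ⟨y, hy, h⟩
        refine ⟨y⁻¹, inv_mem hy, fun e he => ?_⟩
        have h1 := h (y⁻¹ * e * y⁻¹⁻¹) (hstab y⁻¹ (inv_mem hy) e he)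
        have h2 : y * (y⁻¹ * e * y⁻¹⁻¹) * y⁻¹ = e := by group
        rw [h2] at h1
        calc g⁻¹ * e * g⁻¹⁻¹ = g⁻¹ * (g * (y⁻¹ * e * y⁻¹⁻¹) * g⁻¹) * g⁻¹⁻¹ := by rw [h1]
          _ = y⁻¹ * e * y⁻¹⁻¹ := by group }
  have hPQ : (P : Subgroup G) ≤ Q := fun y hy => ⟨y, hy, fun e he => rfl⟩
  have hinv' : ∀ e ∈ E, i⁻¹ * e * i = e⁻¹ := by
    intro e he
    have h := hi e⁻¹ (inv_mem he)
    rw [inv_inv] at h
    calc i⁻¹ * e * i = i⁻¹ * (i * e⁻¹ * i⁻¹) * i := by rw [h]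
      _ = e⁻¹ := by group
  have hTp : IsPGroup p ((P : Subgroup G).map (MulAut.conj i).toMonoidHom) := P.isPGroup'.map _
  have hTQ : (P : Subgroup G).map (MulAut.conj i).toMonoidHom ≤ Q := by
    rintro _ ⟨y, hy, rfl⟩
    refine ⟨y, hy, fun e he => ?_⟩
    have h0 : (MulAut.conj i).toMonoidHom y = i * y * i⁻¹ := rfl
    rw [h0]
    have h1 := hi _ (inv_mem (hstab y hy e he))
    rw [inv_inv] at h1
    rw [← h1]
    calc i * y * i⁻¹ * e * (i * y * i⁻¹)⁻¹ = i * y * (i⁻¹ * e * i) * y⁻¹ * i⁻¹ := by group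
      _ = i * y * e⁻¹ * y⁻¹ * i⁻¹ := by rw [hinv' e he]
      _ = i * (y * e * y⁻¹)⁻¹ * i⁻¹ := by group
  obtain ⟨q, hqQ, hq⟩ := exists_conj_mem_of_le P Q hPQ _ hTp hTQ
  obtain ⟨y₀, hy₀, hqe⟩ := hqQ
  -- the element `n`
  set n := q * i with hn
  have hnP : n ∈ Subgroup.normalizer ((P : Subgroup G) : Set G) := by
    apply mem_normalizer_of_forall
    intro y hy
    have := hq _ ⟨y, hy, rfl⟩
    have e1 : q * (MulAut.conj i).toMonoidHom y * q⁻¹ = n * y * n⁻¹ := by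
      show q * (i * y * i⁻¹) * q⁻¹ = _
      rw [hn]; group
    rw [← e1]; exact this
  have hact : ∀ e ∈ E, n * e * n⁻¹ = (y₀ * e * y₀⁻¹)⁻¹ := by
    intro e he
    calc n * e * n⁻¹ = q * (i * e * i⁻¹) * q⁻¹ := by rw [hn]; group
      _ = q * e⁻¹ * q⁻¹ := by rw [hi e he]
      _ = y₀ * e⁻¹ * y₀⁻¹ := hqe _ (inv_mem he)
      _ = (y₀ * e * y₀⁻¹)⁻¹ := by group
  have hstep : ∀ u ∈ E, n ^ 2 * u * (n ^ 2)⁻¹ = y₀ ^ 2 * u * (y₀ ^ 2)⁻¹ := by
    intro u hu
    have h1 := hact u hu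
    have hm : (y₀ * u * y₀⁻¹)⁻¹ ∈ E := inv_mem (hstab y₀ hy₀ u hu)
    have h2 := hact _ hm
    calc n ^ 2 * u * (n ^ 2)⁻¹ = n * (n * u * n⁻¹) * n⁻¹ := by rw [pow_two]; group
      _ = n * (y₀ * u * y₀⁻¹)⁻¹ * n⁻¹ := by rw [h1]
      _ = (y₀ * (y₀ * u * y₀⁻¹)⁻¹ * y₀⁻¹)⁻¹ := h2
      _ = y₀ * (y₀ * u * y₀⁻¹) * y₀⁻¹ := by simp only [mul_inv_rev, inv_inv, mul_assoc]
      _ = y₀ ^ 2 * u * (y₀ ^ 2)⁻¹ := by rw [pow_two]; simp [mul_assoc]
  have hact2 : ∀ j : ℕ, ∀ e ∈ E, n ^ (2 * j) * e * (n ^ (2 * j))⁻¹ = y₀ ^ (2 * j) * e * (y₀ ^ (2 * j))⁻¹ := by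
    intro j
    induction j with
    | zero => intro e he; simp
    | succ j ih =>
      intro e he
      have e1 : n ^ (2 * (j + 1)) = n ^ 2 * n ^ (2 * j) := by
        rw [show 2 * (j + 1) = 2 + 2 * j by ring, pow_add]
      have e2 : y₀ ^ (2 * (j + 1)) = y₀ ^ 2 * y₀ ^ (2 * j) := by
        rw [show 2 * (j + 1) = 2 + 2 * j by ring, pow_add]
      have hmem : y₀ ^ (2 * j) * e * (y₀ ^ (2 * j))⁻¹ ∈ E :=
        hstab _ (pow_mem hy₀ _) e he
      rw [e1, e2]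
      calc n ^ 2 * n ^ (2 * j) * e * (n ^ 2 * n ^ (2 * j))⁻¹
          = n ^ 2 * (n ^ (2 * j) * e * (n ^ (2 * j))⁻¹) * (n ^ 2)⁻¹ := by group
        _ = n ^ 2 * (y₀ ^ (2 * j) * e * (y₀ ^ (2 * j))⁻¹) * (n ^ 2)⁻¹ := by rw [ih e he]
        _ = y₀ ^ 2 * (y₀ ^ (2 * j) * e * (y₀ ^ (2 * j))⁻¹) * (y₀ ^ 2)⁻¹ := hstep _ hmem
        _ = y₀ ^ 2 * y₀ ^ (2 * j) * e * (y₀ ^ 2 * y₀ ^ (2 * j))⁻¹ := by group
  obtain ⟨j, hj⟩ : ∃ j, p = 2 * j + 1 := by
    rcases hp.out.eq_two_or_odd' with h | ⟨j, hj⟩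
    · exact absurd h hp2
    · exact ⟨j, hj⟩
  refine ⟨n ^ p, pow_mem hnP p, fun e he => ?_⟩
  have hmem : y₀ ^ (2 * j) * e * (y₀ ^ (2 * j))⁻¹ ∈ E := hstab _ (pow_mem hy₀ _) e he
  have hy₀p : y₀ ^ p = 1 := hS.exp y₀ hy₀
  have e3 : y₀ * y₀ ^ (2 * j) = 1 := by
    rw [← pow_succ', ← hj]; exact hy₀p
  calc n ^ p * e * (n ^ p)⁻¹ = n * (n ^ (2 * j) * e * (n ^ (2 * j))⁻¹) * n⁻¹ := by
        rw [hj, pow_succ' n (2 * j)]; group
    _ = n * (y₀ ^ (2 * j) * e * (y₀ ^ (2 * j))⁻¹) * n⁻¹ := by rw [hact2 j e he]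
    _ = (y₀ * (y₀ ^ (2 * j) * e * (y₀ ^ (2 * j))⁻¹) * y₀⁻¹)⁻¹ := hact _ hmem
    _ = ((y₀ * y₀ ^ (2 * j)) * e * (y₀ * y₀ ^ (2 * j))⁻¹)⁻¹ := by group
    _ = e⁻¹ := by rw [e3]; group

theorem eq_one_of_pow_of_two_pow (hp2 : p ≠ 2) {y : G} (h1 : y ^ p = 1) {s : ℕ} (h2 : y ^ (2 ^ s) = 1) :
    y = 1 := by
  have hd1 := orderOf_dvd_of_pow_eq_one h1
  have hd2 := orderOf_dvd_of_pow_eq_one h2
  have hc : Nat.Coprime p (2 ^ s) :=
    Nat.Coprime.pow_right s ((Nat.coprime_primes hp.out Nat.prime_two).2 hp2)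
  have := Nat.eq_one_of_dvd_coprimes hc hd1 hd2
  exact orderOf_eq_one_iff.1 this

/-- The main theorem of this file. -/
theorem no_ES {P : Sylow p G} (hS : ES p (P : Subgroup G)) (hp2 : p ≠ 2)
    (hD : ∀ H K : Subgroup G, IsPGroup p H → IsPGroup p K → Nat.card H = Nat.card K →
      ∃ g : G, K = H.map (MulAut.conj g).toMonoidHom)
    (h2 : ∀ T : Sylow 2 G, IsCyclic (T : Subgroup G) ∨ (∀ u ∈ (T : Subgroup G), u ^ 2 = 1) ∨
      Nonempty ((T : Subgroup G) ≃* QuaternionGroup 2)) : False := by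
  have hpp := hp.out
  obtain ⟨x, hx, hx'⟩ := hS.exists_not_Zc
  obtain ⟨z, hz, hz1⟩ := hS.exists_ne_one_Zc
  set E := Cen (P : Subgroup G) x with hE
  have hxE : x ∈ E := ES'.self_mem_Cen hS hx
  have hx1 : x ≠ 1 := fun h => hx' (by rw [h]; exact (Zc _).one_mem)
  have hx2 : x⁻¹ ≠ x := by
    intro h
    have hxx : x ^ 2 = 1 := by
      rw [pow_two]; nth_rewrite 1 [← h]; exact inv_mul_cancel x
    have := eq_one_of_pow_of_two_pow hp2 (hS.exp x hx) (s := 1) (by rw [pow_one]; exact hxx)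
    exact hx1 this
  have hnotI1 : ∀ h : G, Inverts h E → h ≠ 1 := by
    rintro h hI rfl
    have := hI x hxE
    simp at this
    exact hx2 this.symm
  obtain ⟨a, b, hap, hbp, hw⟩ := exists_w hS hD hx hx' hz hz1
  set w := a * b⁻¹ * a with hwdef
  obtain ⟨k, m, hm2, hkm⟩ := Nat.exists_eq_pow_mul_and_not_dvd (orderOf_pos w).ne' 2 (by norm_num)
  obtain ⟨j, hj⟩ : ∃ j, m = 2 * j + 1 := by
    rcases Nat.even_or_odd' m with ⟨j, hj | hj⟩
    · exact absurd ⟨j, hj⟩ hm2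
    · exact ⟨j, hj⟩
  set t := w ^ m with ht
  have ht2 : Inverts (t ^ 2) E := by
    have : t ^ 2 = (w ^ 2) ^ (2 * j + 1) := by
      rw [ht, hj, ← pow_mul, ← pow_mul, mul_comm]
    rw [this]
    exact hw.pow_odd j
  have htk : t ^ (2 ^ k) = 1 := by
    rw [ht, ← pow_mul, mul_comm, ← hkm, pow_orderOf_eq_one]
  have htp : IsPGroup 2 (Subgroup.zpowers t) := by
    have hd : orderOf t ∣ 2 ^ k := orderOf_dvd_of_pow_eq_one htk
    obtain ⟨l, hl, he⟩ := (Nat.dvd_prime_pow Nat.prime_two).1 hd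
    exact IsPGroup.of_card (n := l) (by rw [Nat.card_zpowers, he])
  obtain ⟨T, hT⟩ := htp.exists_le_sylow
  have htT : t ∈ (T : Subgroup G) := hT (Subgroup.mem_zpowers t)
  have two_pow : ∀ y ∈ (T : Subgroup G), ∃ s : ℕ, y ^ (2 ^ s) = 1 := by
    intro y hy
    obtain ⟨s, hs⟩ := T.isPGroup' ⟨y, hy⟩
    exact ⟨s, congrArg Subtype.val hs⟩
  rcases h2 T with hcyc | hele | ⟨⟨e⟩⟩
  · -- cyclic Sylow 2-subgroup
    have hmin : (Nat.card G).minFac = 2 := by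
      rw [Nat.minFac_eq_two_iff]
      have h3 : 2 ∣ orderOf (t ^ 2) := ht2.two_dvd hxE hx2
      have h4 : orderOf (t ^ 2) ∣ orderOf t := orderOf_pow_dvd _
      exact (h3.trans h4).trans (orderOf_dvd_natCard t)
    have hnc := IsCyclic.normalizer_le_centralizer hmin hcyc
    have hco := IsCyclic.isComplement' hmin hcyc
    set φ := MonoidHom.transferSylow T hnc with hφ
    have hker : ∀ y : G, y ^ p = 1 → y ∈ φ.ker := by
      intro y hy
      rw [MonoidHom.mem_ker]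
      obtain ⟨s, hs⟩ := two_pow (φ y : G) (φ y).2
      apply Subtype.ext
      show ((φ y : G)) = 1
      apply eq_one_of_pow_of_two_pow hp2 _ hs
      have : (φ y) ^ p = 1 := by rw [← map_pow, hy, map_one]
      exact congrArg Subtype.val this
    have hw' : w ∈ φ.ker := by
      rw [hwdef]
      exact mul_mem (mul_mem (hker a hap) (inv_mem (hker b hbp))) (hker a hap)
    have ht' : t ∈ φ.ker := pow_mem hw' m
    have hdis := hco.disjoint
    have h1 : t = 1 := Subgroup.disjoint_def.1 hdis ht' htT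
    apply hnotI1 _ ht2
    rw [h1, one_pow]
  · -- exponent 2
    apply hnotI1 _ ht2
    exact hele t htT
  · -- quaternion
    have hU : UniqInv G := uniqInv_of_quaternion T e
    set i := t ^ 2 with hi
    have hi2 : i ^ 2 = 1 := by
      have h4 := quat_pow_four (e ⟨t, htT⟩)
      rw [← map_pow, map_eq_one_iff _ e.injective] at h4
      have h5 : t ^ 4 = 1 := congrArg Subtype.val h4
      rw [hi, ← pow_mul]; exact h5
    have hi1 : i ≠ 1 := hnotI1 i ht2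
    obtain ⟨f, hfP, hfE⟩ := exists_f hS hp2 hx hx' ht2
    -- an involution normalising `P` and `E`
    have hf2 := hfE.two_dvd hxE hx2
    set τ := f ^ (orderOf f / 2) with hτ
    have hτ2 : τ ^ 2 = 1 := by
      rw [hτ, ← pow_mul, Nat.div_mul_cancel hf2, pow_orderOf_eq_one]
    have hτ1 : τ ≠ 1 := by
      apply pow_ne_one_of_lt_orderOf
      · have := Nat.le_of_dvd (orderOf_pos f) hf2
        omega
      · have := orderOf_pos f
        omega
    have hτP : τ ∈ Subgroup.normalizer ((P : Subgroup G) : Set G) := pow_mem hfP _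
    have hτE : τ ∈ Subgroup.normalizer (E : Set G) := pow_mem hfE.mem_normalizer _
    obtain ⟨h, hhN, hh⟩ := conj_invol hU (Subgroup.normalizer (E : Set G)) ht2.mem_normalizer hτE hi2 hτ2 hi1 hτ1
    have hτI : Inverts τ E := by
      rw [← hh]; exact ht2.conj hhN
    have hτinv : τ⁻¹ = τ := by
      rw [inv_eq_iff_mul_eq_one, ← pow_two]; exact hτ2
    -- characterisation of `E`
    have hstab : ∀ y ∈ (P : Subgroup G), ∀ e ∈ E, y * e * y⁻¹ ∈ E := fun y hy e he =>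
      ES'.conj_Cen_mem hS hx hx' hy he
    have hcomm : ∀ y ∈ (P : Subgroup G), y⁻¹ * (τ * y * τ⁻¹) ∈ E := by
      intro y hy
      have hy' : τ * y * τ⁻¹ ∈ (P : Subgroup G) := (hτP y).1 hy
      rw [hE, mem_Cen]
      refine ⟨mul_mem (inv_mem hy) hy', ?_⟩
      have hm : y * x⁻¹ * y⁻¹ ∈ E := hstab y hy _ (inv_mem hxE)
      have h1 := hτI _ hm
      have hτx : τ * x⁻¹ * τ⁻¹ = x := by
        rw [hτI _ (inv_mem hxE), inv_inv]
      have h3 : (τ * y * τ⁻¹) * x * (τ * y * τ⁻¹)⁻¹ = y * x * y⁻¹ := by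
        have e1 : τ * (y * x⁻¹ * y⁻¹) * τ⁻¹ =
            (τ * y * τ⁻¹) * (τ * x⁻¹ * τ⁻¹) * (τ * y * τ⁻¹)⁻¹ := by group
        rw [e1, hτx] at h1
        rw [h1]; group
      have h4 : (τ * y * τ⁻¹) * x = (y * x * y⁻¹) * (τ * y * τ⁻¹) := by
        rw [← h3]; group
      calc y⁻¹ * (τ * y * τ⁻¹) * x = y⁻¹ * ((τ * y * τ⁻¹) * x) := by group
        _ = y⁻¹ * ((y * x * y⁻¹) * (τ * y * τ⁻¹)) := by rw [h4]
        _ = x * (y⁻¹ * (τ * y * τ⁻¹)) := by group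
    have hchar : ∀ g ∈ (P : Subgroup G), τ * g * τ⁻¹ = g⁻¹ → g ∈ E := by
      intro g hg hgi
      have h1 := hcomm g hg
      rw [hgi] at h1
      have h2 : g ^ 2 ∈ E := by
        have : g ^ 2 = (g⁻¹ * g⁻¹)⁻¹ := by rw [pow_two]; simp
        rw [this]; exact inv_mem h1
      obtain ⟨r, hr⟩ : ∃ r, p = 2 * r + 1 := by
        rcases hpp.eq_two_or_odd' with h | ⟨r, hr⟩
        · exact absurd h hp2
        · exact ⟨r, hr⟩
      have hg1 : g = (g ^ 2) ^ (r + 1) := by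
        rw [← pow_mul, show 2 * (r + 1) = p + 1 by omega, pow_succ, hS.exp g hg, one_mul]
      rw [hg1]
      exact pow_mem h2 _
    -- a Sylow 2-subgroup of the normaliser
    let M := Subgroup.normalizer ((P : Subgroup G) : Set G)
    let τ' : M := ⟨τ, hτP⟩
    have hτ'p : IsPGroup 2 (Subgroup.zpowers τ') := by
      have hd : orderOf τ' ∣ 2 ^ 1 := by
        rw [pow_one]
        apply orderOf_dvd_of_pow_eq_one
        exact Subtype.ext hτ2
      obtain ⟨l, hl, he⟩ := (Nat.dvd_prime_pow Nat.prime_two).1 hd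
      exact IsPGroup.of_card (n := l) (by rw [Nat.card_zpowers, he])
    obtain ⟨T₁, hT₁⟩ := hτ'p.exists_le_sylow
    have hτ'T : τ' ∈ (T₁ : Subgroup M) := hT₁ (Subgroup.mem_zpowers τ')
    have hT₁p : IsPGroup 2 ((T₁ : Subgroup M).map M.subtype) := T₁.isPGroup'.map _
    have hcen : ∀ s ∈ (T₁ : Subgroup M), (s : G) * τ * (s : G)⁻¹ = τ := by
      intro s hs
      have hm : s * τ' * s⁻¹ ∈ (T₁ : Subgroup M) := mul_mem (mul_mem hs hτ'T) (inv_mem hs)
      have hm1 : (s : G) * τ * (s : G)⁻¹ ∈ (T₁ : Subgroup M).map M.subtype := ⟨_, hm, rfl⟩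
      have hm2 : τ ∈ (T₁ : Subgroup M).map M.subtype := ⟨_, hτ'T, rfl⟩
      apply hU _ hT₁p _ hm1 _ hm2
      · rw [conj_pow, hτ2]; group
      · exact hτ2
      · intro h
        rw [mul_inv_eq_one] at h
        exact hτ1 (mul_left_cancel (h.trans (mul_one _).symm))
      · exact hτ1
    have hT₁E : ∀ s ∈ (T₁ : Subgroup M), (s : G) ∈ Subgroup.normalizer (E : Set G) := by
      intro s hs
      apply mem_normalizer_of_forall
      intro y hy
      apply hchar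
      · exact (s.2 y).1 (mem_Cen.1 hy).1
      · have h1 := hτI y hy
        have h2 : τ * (s : G) * τ⁻¹ = s := by
          have h3 := hcen s hs
          have h4 : (s : G) * τ = τ * s := by
            calc (s : G) * τ = ((s : G) * τ * (s : G)⁻¹) * s := by group
              _ = τ * s := by rw [h3]
          rw [← h4]; group
        calc τ * ((s : G) * y * (s : G)⁻¹) * τ⁻¹
            = (τ * (s : G) * τ⁻¹) * (τ * y * τ⁻¹) * (τ * (s : G) * τ⁻¹)⁻¹ := by group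
          _ = (s : G) * y⁻¹ * (s : G)⁻¹ := by rw [h2, h1]
          _ = ((s : G) * y * (s : G)⁻¹)⁻¹ := by group
    -- counting
    have hodd := not_two_dvd_conjugates M E T₁ hT₁E
    have hEcard : Nat.card E = p ^ 2 := hS.card_Cen hx hx'
    have hEP : E ≤ (P : Subgroup G) := inf_le_left
    have hset : {A : Subgroup G | ∃ n ∈ M, A = E.map (MulAut.conj n).toMonoidHom} =
        {A : Subgroup G | A ≤ (P : Subgroup G) ∧ Nat.card A = p ^ 2} := by
      ext A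
      constructor
      · rintro ⟨n, hn, rfl⟩
        refine ⟨?_, ?_⟩
        · rintro _ ⟨y, hy, rfl⟩
          exact (hn y).1 (hEP hy)
        · rw [Subgroup.card_map_of_injective (MulEquiv.injective _), hEcard]
      · rintro ⟨hAP, hAc⟩
        obtain ⟨g, hg⟩ := hD E A (IsPGroup.of_card hEcard) (IsPGroup.of_card hAc) (by rw [hEcard, hAc])
        exact exists_normalizer_conj hstab
          (fun y hy e he => ES''.conj_mem_of_card hS hAP hAc hy he) hg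
    rw [hset, ES''.ncard_maxes hS] at hodd
    apply hodd
    rcases hpp.eq_two_or_odd' with h | ⟨r, hr⟩
    · exact absurd h hp2
    · exact ⟨r + 1, by omega⟩

end Cfsg.Agent.Lib.SameOrdMain
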