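import Mathlib

/-!
A commutative group `H₀` of automorphisms of a finite abelian group `A`, semiregular on the non-zero
elements with `2 |H₀| + 1 = |A|`.  Its additive span is a field; an automorphism normalising `H₀`
with square in `H₀` is semilinear, and when `|A|` is not a perfect square it is linear, so that it
commutes with `H₀`.
-/

set_option autoImplicit false
set_option linter.all false

namespace Cfsg.Agent.Lib.Sharp3Abs

variable {A : Type*} [AddCommGroup A] [Finite A]

/-- The endomorphism of an additive permutation. -/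
def E (a : Equiv.Perm A) (ha : ∀ y z, a (y + z) = a y + a z) : AddMonoid.End A :=
  AddMonoidHom.mk' a ha

@[simp] lemma E_apply (a : Equiv.Perm A) (ha : ∀ y z, a (y + z) = a y + a z) (y : A) :
    E a ha y = a y := rfl

theorem irr {H₀ : Subgroup (Equiv.Perm A)}
    (hadd : ∀ a ∈ H₀, ∀ y z, a (y + z) = a y + a z)
    (hfree : ∀ a ∈ H₀, ∀ y : A, y ≠ 0 → a y = y → a = 1)
    (hcard : 2 * Nat.card H₀ + 1 = Nat.card A)
    (W : AddSubgroup A) (hW : W ≠ ⊥) (hinv : ∀ a ∈ H₀, ∀ y ∈ W, a y ∈ W) : W = ⊤ := by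
  classical
  obtain ⟨⟨y, hyW⟩, hy0⟩ := AddSubgroup.ne_bot_iff_exists_ne_zero.mp hW
  have hy0' : y ≠ 0 := fun h => hy0 (Subtype.ext h)
  let f : Option H₀ → W := fun o => o.elim 0 (fun a => ⟨a.1 y, hinv a.1 a.2 y hyW⟩)
  have hzero : ∀ a ∈ H₀, a 0 = 0 := by
    intro a ha
    have := hadd a ha 0 0
    simpa using this
  have hne : ∀ a : H₀, a.1 y ≠ 0 := fun a h => by
    apply hy0'
    apply a.1.injective
    rw [h, hzero a.1 a.2]
  have hf : Function.Injective f := by
    rintro (_ | a) (_ | b) h
    · rfl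
    · exact absurd (congrArg Subtype.val h).symm (hne _)
    · exact absurd (congrArg Subtype.val h) (hne _)
    · have h1 : a.1 y = b.1 y := congrArg Subtype.val h
      have h2 : b.1⁻¹ * a.1 = 1 := by
        apply hfree _ (H₀.mul_mem (H₀.inv_mem b.2) a.2) y hy0'
        rw [Equiv.Perm.mul_apply, h1]
        simp
      have h3 : a.1 = b.1 := (inv_mul_eq_one.mp h2).symm
      exact congrArg some (Subtype.ext h3)
  have h1 : Nat.card (Option H₀) ≤ Nat.card W := Nat.card_le_card_of_injective f hf
  have h2 : Nat.card (Option H₀) = Nat.card H₀ + 1 := Finite.card_option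
  have h3 := W.card_mul_index
  have h4 : W.index ≠ 0 := AddSubgroup.index_ne_zero_of_finite
  have hi : W.index = 1 := by
    by_contra hne1
    have : 2 ≤ W.index := by omega
    nlinarith
  exact AddSubgroup.index_eq_one.mp hi

/-- The kernel of an endomorphism. -/
def kerSub (r : AddMonoid.End A) : AddSubgroup A where
  carrier := {y | r y = 0}
  zero_mem' := map_zero r
  add_mem' := by
    intro a b ha hb
    simp only [Set.mem_setOf_eq] at ha hb ⊢
    rw [map_add, ha, hb, add_zero]
  neg_mem' := by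
    intro a ha
    simp only [Set.mem_setOf_eq] at ha ⊢
    rw [map_neg, ha, neg_zero]

@[simp] lemma mem_kerSub {r : AddMonoid.End A} {y : A} : y ∈ kerSub r ↔ r y = 0 := Iff.rfl

/-- The orbit of `e` under a subring of endomorphisms. -/
def orbSub (R : Subring (AddMonoid.End A)) (e : A) : AddSubgroup A where
  carrier := {y | ∃ r ∈ R, r e = y}
  zero_mem' := ⟨0, R.zero_mem, rfl⟩
  add_mem' := by
    rintro _ _ ⟨r, hr, rfl⟩ ⟨s, hs, rfl⟩
    exact ⟨r + s, R.add_mem hr hs, rfl⟩
  neg_mem' := by
    rintro _ ⟨r, hr, rfl⟩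
    exact ⟨-r, R.neg_mem hr, rfl⟩

lemma mul_apply' (r s : AddMonoid.End A) (y : A) : (r * s) y = r (s y) := rfl

theorem comm_of_nonsquare (H₀ : Subgroup (Equiv.Perm A))
    (hadd : ∀ a ∈ H₀, ∀ y z, a (y + z) = a y + a z)
    (hcomm : ∀ a ∈ H₀, ∀ b ∈ H₀, a * b = b * a)
    (hfree : ∀ a ∈ H₀, ∀ y : A, y ≠ 0 → a y = y → a = 1)
    (hcard : 2 * Nat.card H₀ + 1 = Nat.card A)
    (hnsq : ∀ m : ℕ, m * m ≠ Nat.card A)
    (x : Equiv.Perm A) (hxa : ∀ y z, x (y + z) = x y + x z)
    (hxn : ∀ a ∈ H₀, x * a * x⁻¹ ∈ H₀) (hx2 : x * x ∈ H₀) :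
    ∀ a ∈ H₀, x * a = a * x := by
  classical
  have hirr := irr hadd hfree hcard
  have hnt : Nontrivial A := by
    have h1 : Nat.card A ≠ 1 := fun h => hnsq 1 (by simp [h])
    have h2 := Nat.card_pos (α := A)
    exact Finite.one_lt_card_iff_nontrivial.mp (by omega)
  obtain ⟨e, he⟩ := exists_ne (0 : A)
  let S : Set (AddMonoid.End A) := {f | ∃ a, ∃ ha : a ∈ H₀, f = E a (hadd a ha)}
  let R : Subring (AddMonoid.End A) := Subring.closure S
  have hS : ∀ a (ha : a ∈ H₀), E a (hadd a ha) ∈ R := fun a ha =>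
    Subring.subset_closure ⟨a, ha, rfl⟩
  have hF2 : ∀ r ∈ R, ∀ a (ha : a ∈ H₀), r * E a (hadd a ha) = E a (hadd a ha) * r := by
    intro r hr a ha
    induction hr using Subring.closure_induction with
    | mem f hf =>
      obtain ⟨b, hb, rfl⟩ := hf
      ext y
      have := congrArg (fun p : Equiv.Perm A => p y) (hcomm b hb a ha)
      exact this
    | zero => simp
    | one => simp
    | add f g _ _ h1 h2 => rw [add_mul, mul_add, h1, h2]
    | neg f _ h1 => rw [neg_mul, mul_neg, h1]
    | mul f g _ _ h1 h2 => rw [mul_assoc, h2, ← mul_assoc, h1, mul_assoc]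
  have hF3 : ∀ r ∈ R, ∀ s ∈ R, r * s = s * r := by
    intro r hr s hs
    induction hs using Subring.closure_induction with
    | mem f hf =>
      obtain ⟨b, hb, rfl⟩ := hf
      exact hF2 r hr b hb
    | zero => simp
    | one => simp
    | add f g _ _ h1 h2 => rw [mul_add, add_mul, h1, h2]
    | neg f _ h1 => rw [mul_neg, neg_mul, h1]
    | mul f g _ _ h1 h2 => rw [← mul_assoc, h1, mul_assoc, h2, mul_assoc]
  have hEcomm : ∀ r ∈ R, ∀ a ∈ H₀, ∀ y, r (a y) = a (r y) := by
    intro r hr a ha y
    exact DFunLike.congr_fun (hF2 r hr a ha) y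
  have hF4 : ∀ r ∈ R, r ≠ 0 → Function.Injective r := by
    intro r hr hr0
    have hbot : kerSub r = ⊥ := by
      by_contra hk
      have hall := hirr (kerSub r) hk (by
        intro a ha y hy
        rw [mem_kerSub] at hy ⊢
        rw [hEcomm r hr a ha, hy]
        have := hadd a ha 0 0
        simpa using this)
      apply hr0
      ext y
      have : y ∈ kerSub r := by rw [hall]; exact AddSubgroup.mem_top y
      exact this
    rw [injective_iff_map_eq_zero]
    intro y hy
    have : y ∈ kerSub r := hy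
    rw [hbot] at this
    exact this
  have hF5 : ∀ y, ∃ r ∈ R, r e = y := by
    have hWt : orbSub R e = ⊤ := by
      apply hirr
      · intro h
        have : e ∈ orbSub R e := ⟨1, R.one_mem, rfl⟩
        rw [h] at this
        exact he this
      · rintro a ha _ ⟨r, hr, rfl⟩
        exact ⟨E a (hadd a ha) * r, R.mul_mem (hS a ha) hr, rfl⟩
    intro y
    have : y ∈ orbSub R e := by rw [hWt]; exact AddSubgroup.mem_top y
    exact this
  have hev : ∀ r ∈ R, ∀ s ∈ R, r e = s e → r = s := by
    intro r hr s hs h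
    by_contra hne
    have h1 := hF4 (r - s) (R.sub_mem hr hs) (sub_ne_zero.mpr hne)
    apply he
    apply h1
    show r e - s e = (r - s) 0
    rw [h, sub_self, map_zero]
  -- inverses
  have hF6 : ∀ u ∈ R, u ≠ 0 → ∃ s ∈ R, s * u = 1 := by
    intro u hu hu0
    have hbij : Function.Bijective u := Finite.injective_iff_bijective.mp (hF4 u hu hu0)
    let ρ : Equiv.Perm A := Equiv.ofBijective u hbij
    have hρ : ∀ (k : ℕ) (y : A), (ρ ^ k) y = (u ^ k) y := by
      intro k
      induction k with
      | zero => intro y; rfl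
      | succ k ih =>
        intro y
        rw [pow_succ, pow_succ, Equiv.Perm.mul_apply, ih]
        rfl
    have hk : 0 < orderOf ρ := orderOf_pos ρ
    refine ⟨u ^ (orderOf ρ - 1), R.pow_mem hu _, ?_⟩
    rw [← pow_succ, Nat.sub_add_cancel hk]
    ext y
    rw [← hρ, pow_orderOf_eq_one]
    rfl
  -- conjugation by `x`
  let X : AddMonoid.End A := E x hxa
  have hxi : ∀ y z, x⁻¹ (y + z) = x⁻¹ y + x⁻¹ z := by
    intro y z
    apply x.injective
    rw [hxa]
    simp
  let X' : AddMonoid.End A := E x⁻¹ hxi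
  have hXX' : X * X' = 1 := by
    ext y
    show x (x⁻¹ y) = y
    simp
  have hX'X : X' * X = 1 := by
    ext y
    show x⁻¹ (x y) = y
    simp
  let φ : AddMonoid.End A → AddMonoid.End A := fun r => X * r * X'
  have hφmul : ∀ r s, φ (r * s) = φ r * φ s := by
    intro r s
    show X * (r * s) * X' = X * r * X' * (X * s * X')
    calc X * (r * s) * X' = X * r * 1 * s * X' := by simp only [mul_one, mul_assoc]
      _ = X * r * (X' * X) * s * X' := by rw [hX'X]
      _ = _ := by simp only [mul_assoc]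
  have hφneg : ∀ r, φ (-r) = -φ r := by
    intro r
    show X * (-r) * X' = -(X * r * X')
    rw [mul_neg, neg_mul]
  have hF7 : ∀ r ∈ R, φ r ∈ R := by
    intro r hr
    induction hr using Subring.closure_induction with
    | mem f hf =>
      obtain ⟨b, hb, rfl⟩ := hf
      have hm : x * b * x⁻¹ ∈ H₀ := hxn b hb
      have : φ (E b (hadd b hb)) = E (x * b * x⁻¹) (hadd _ hm) := by
        ext y
        rfl
      rw [this]
      exact hS _ hm
    | zero =>
      have : φ 0 = 0 := by simp [φ]
      rw [this]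
      exact R.zero_mem
    | one =>
      have : φ 1 = 1 := by simp [φ, hXX']
      rw [this]
      exact R.one_mem
    | add f g _ _ h1 h2 =>
      have : φ (f + g) = φ f + φ g := by
        show X * (f + g) * X' = X * f * X' + X * g * X'
        rw [mul_add, add_mul]
      rw [this]
      exact R.add_mem h1 h2
    | neg f _ h1 =>
      rw [hφneg]
      exact R.neg_mem h1
    | mul f g _ _ h1 h2 =>
      rw [hφmul]
      exact R.mul_mem h1 h2
  have hφX : ∀ r, X * r = φ r * X := by
    intro r
    show X * r = X * r * X' * X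
    rw [mul_assoc, hX'X, mul_one]
  -- the semilinear map with `e` fixed
  obtain ⟨u₀, hu₀, hu₀e⟩ := hF5 (x e)
  have hu₀0 : u₀ ≠ 0 := by
    rintro rfl
    apply he
    apply x.injective
    rw [← hu₀e]
    have h0 : x 0 = 0 := by
      have := hxa 0 0
      simpa using this
    exact h0.symm
  obtain ⟨s₀, hs₀, hs₀u⟩ := hF6 u₀ hu₀ hu₀0
  have hus₀ : u₀ * s₀ = 1 := by rw [hF3 u₀ hu₀ s₀ hs₀, hs₀u]
  let θ : AddMonoid.End A := s₀ * X
  have hθe : θ e = e := by
    show s₀ (x e) = e
    rw [← hu₀e]
    show (s₀ * u₀) e = e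
    rw [hs₀u]
    rfl
  have hθ : ∀ r ∈ R, θ (r e) = φ r e := by
    intro r hr
    show (s₀ * X * r) e = φ r e
    rw [mul_assoc, hφX, ← mul_assoc, hF3 s₀ hs₀ _ (hF7 r hr), mul_assoc]
    show φ r (s₀ (x e)) = φ r e
    rw [← hu₀e]
    show φ r ((s₀ * u₀) e) = φ r e
    rw [hs₀u]
    rfl
  have hφφ : ∀ r ∈ R, φ (φ r) = r := by
    intro r hr
    have h1 : X * X = E (x * x) (hadd _ hx2) := rfl
    have h2 : X * X * r = r * (X * X) := by
      rw [h1]
      exact (hF2 r hr _ hx2).symm
    show X * (X * r * X') * X' = r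
    calc X * (X * r * X') * X' = (X * X * r) * (X' * X') := by simp only [mul_assoc]
      _ = r * (X * X) * (X' * X') := by rw [h2]
      _ = r * (X * (X * X') * X') := by simp only [mul_assoc]
      _ = r := by rw [hXX', mul_one, hXX', mul_one]
  have hθθ : ∀ y, θ (θ y) = y := by
    intro y
    obtain ⟨r, hr, rfl⟩ := hF5 y
    rw [hθ r hr, hθ _ (hF7 r hr), hφφ r hr]
  -- the two eigenspaces
  let f : AddMonoid.End A := 1 - θ
  let g : AddMonoid.End A := 1 + θ
  have hfy : ∀ y, f y = y - θ y := fun y => rfl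
  have hgy : ∀ y, g y = y + θ y := fun y => rfl
  have hmemf : ∀ y, y ∈ kerSub f ↔ θ y = y := by
    intro y
    rw [mem_kerSub, hfy, sub_eq_zero, eq_comm]
  have hmemg : ∀ y, y ∈ kerSub g ↔ θ y = -y := by
    intro y
    rw [mem_kerSub, hgy, add_comm, add_eq_zero_iff_eq_neg]
  -- `|A|` is odd
  have hcop : (Nat.card A).Coprime 2 := by
    rw [← hcard]
    simp
  have h2bij : Function.Bijective (fun y : A => (2 : ℕ) • y) := hcop.nsmul_right_bijective
  have hrange : ∀ y, y ∈ kerSub g → ∃ z, f z = y := by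
    intro y hy
    obtain ⟨z, hz⟩ := h2bij.2 y
    simp only at hz
    refine ⟨z, ?_⟩
    rw [hmemg, ← hz, map_nsmul] at hy
    have h3 : θ z = -z := by
      apply h2bij.1
      simp only
      rw [hy, smul_neg]
    rw [hfy, h3, ← hz, two_nsmul, sub_neg_eq_add]
  have hgf : ∀ z, f z ∈ kerSub g := by
    intro z
    rw [hmemg, hfy, map_sub, hθθ, neg_sub]
  by_cases hbot : kerSub g = ⊥
  · -- `x` is in the span
    have hθ1 : ∀ y, θ y = y := by
      intro y
      have := hgf y
      rw [hbot] at this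
      have h5 : f y = 0 := this
      rw [hfy, sub_eq_zero] at h5
      exact h5.symm
    have hXu : X = u₀ := by
      have hθ1' : θ = 1 := by
        ext y
        exact hθ1 y
      calc X = u₀ * s₀ * X := by rw [hus₀, one_mul]
        _ = u₀ * θ := by rw [mul_assoc]
        _ = u₀ := by rw [hθ1', mul_one]
    intro a ha
    have h6 := hF2 u₀ hu₀ a ha
    rw [← hXu] at h6
    ext y
    have := DFunLike.congr_fun h6 y
    exact this
  · -- a contradiction by counting
    exfalso
    obtain ⟨⟨w, hw⟩, hw0⟩ := AddSubgroup.ne_bot_iff_exists_ne_zero.mp hbot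
    have hw0' : w ≠ 0 := fun h => hw0 (Subtype.ext h)
    obtain ⟨v, hv, rfl⟩ := hF5 w
    have hv0 : v ≠ 0 := by
      rintro rfl
      exact hw0' rfl
    have hφv : φ v = -v := by
      apply hev _ (hF7 v hv) _ (R.neg_mem hv)
      rw [← hθ v hv]
      exact (hmemg _).1 hw
    have hφr : ∀ r ∈ R, r e ∈ kerSub f → φ r = r := by
      intro r hr h
      apply hev _ (hF7 r hr) _ hr
      rw [← hθ r hr]
      exact (hmemf _).1 h
    have hφr' : ∀ r ∈ R, r e ∈ kerSub g → φ r = -r := by
      intro r hr h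
      apply hev _ (hF7 r hr) _ (R.neg_mem hr)
      rw [← hθ r hr]
      exact (hmemg _).1 h
    have hvinj := hF4 v hv hv0
    have h1 : Nat.card (kerSub f) ≤ Nat.card (kerSub g) := by
      refine Nat.card_le_card_of_injective (fun y => ⟨v y.1, ?_⟩) ?_
      · obtain ⟨y, hy⟩ := y
        obtain ⟨r, hr, rfl⟩ := hF5 y
        rw [hmemg]
        have : v (r e) = (v * r) e := rfl
        rw [this, hθ _ (R.mul_mem hv hr), hφmul, hφv, hφr r hr hy]
        simp
        rfl
      · intro y z h
        exact Subtype.ext (hvinj (congrArg Subtype.val h))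
    have h2 : Nat.card (kerSub g) ≤ Nat.card (kerSub f) := by
      refine Nat.card_le_card_of_injective (fun y => ⟨v y.1, ?_⟩) ?_
      · obtain ⟨y, hy⟩ := y
        obtain ⟨r, hr, rfl⟩ := hF5 y
        rw [hmemf]
        have : v (r e) = (v * r) e := rfl
        rw [this, hθ _ (R.mul_mem hv hr), hφmul, hφv, hφr' r hr hy]
        simp
      · intro y z h
        exact Subtype.ext (hvinj (congrArg Subtype.val h))
    -- the first isomorphism theorem
    have h3 : Nat.card (kerSub f) * Nat.card (kerSub g) = Nat.card A := by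
      let F : A →+ kerSub g :=
        { toFun := fun z => ⟨f z, hgf z⟩
          map_zero' := Subtype.ext (map_zero f)
          map_add' := fun a b => Subtype.ext (map_add f a b) }
      have hFs : Function.Surjective F := by
        rintro ⟨y, hy⟩
        obtain ⟨z, hz⟩ := hrange y hy
        exact ⟨z, Subtype.ext hz⟩
      have hker : F.ker = kerSub f := by
        ext z
        rw [AddMonoidHom.mem_ker]
        exact Subtype.ext_iff
      have h4 := F.ker.card_mul_index
      rw [AddSubgroup.index_ker, AddMonoidHom.range_eq_top.mpr hFs, hker] at h4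
      simpa using h4
    have h4 : Nat.card (kerSub f) = Nat.card (kerSub g) := le_antisymm h1 h2
    rw [← h4] at h3
    exact hnsq _ h3

end Cfsg.Agent.Lib.Sharp3Abs
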