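import Mathlib
import Cfsg.Agent.Lib.Sharp3Even
import Cfsg.Agent.Lib.Sharp3Abs

/-!
Sharply 3-transitive groups of even degree `q + 1`: when the two-point stabiliser is commutative, the
group is `PGL₂(q)`; and the two-point stabiliser is commutative when it has an invariant subgroup of
index two and `q` is not a perfect square.
-/

set_option autoImplicit false
set_option linter.all false

namespace Cfsg.Agent.Lib.Sharp3Odd

open Cfsg.Agent.Lib.Sharply2 Cfsg.Agent.Lib.Sharp3Core Cfsg.Agent.Lib.Sharp3Field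
open Cfsg.Agent.Lib.Sharp3Even Cfsg.Agent.Lib.Sharp3Abs OnePoint

section add

variable {X : Type*} [Fintype X] [DecidableEq X] {B : Subgroup (Equiv.Perm X)}

/-- The regular normal subgroup gives an addition for which the point stabiliser is additive. -/
theorem exists_add (hB : IsSharp2 B) (o : X) :
    ∃ _ : AddCommGroup X, (0 : X) = o ∧ (∀ b : X, ∃ n ∈ B, ∀ y, n y = y + b) ∧
      (∀ h ∈ B, h o = o → ∀ a b : X, h (a + b) = h a + h b) := by
  classical
  have hn : ∀ x : X, ∃ y ∈ hB.fpfSubgroup, y o = x := fun x => hB.regular_exists o x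
  choose n hnN hno using hn
  have hnuniq : ∀ {y : Equiv.Perm X}, y ∈ hB.fpfSubgroup → n (y o) = y :=
    fun hy => hB.regular_unique (hnN _) hy (hno _)
  have n_add : ∀ x y, n (n x y) = n x * n y := by
    intro x y
    have := hnuniq (mul_mem (hnN x) (hnN y))
    rwa [Equiv.Perm.coe_mul, Function.comp_apply, hno] at this
  have n_comm : ∀ x y, n x * n y = n y * n x := fun x y =>
    hB.commute_of_mem_fpf (hnN x) (hnN y)
  have n_o : n o = 1 := by
    have := hnuniq (one_mem hB.fpfSubgroup)
    simpa using this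
  have hadd_assoc : ∀ a b c : X, n (n a b) c = n a (n b c) := by
    intro a b c
    rw [n_add]
    rfl
  have hadd_comm : ∀ a b : X, n a b = n b a := by
    intro a b
    have := congrArg (fun p : Equiv.Perm X => p o) (n_comm a b)
    simpa [hno] using this
  have hzero_add : ∀ a : X, n o a = a := by
    intro a
    rw [n_o]
    rfl
  have hadd_zero : ∀ a : X, n a o = a := hno
  have hneg_add : ∀ a : X, n ((n a)⁻¹ o) a = o := by
    intro a
    rw [hadd_comm]
    simp
  letI iz : Zero X := ⟨o⟩
  letI ia : Add X := ⟨fun x y => n x y⟩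
  letI ineg : Neg X := ⟨fun x => (n x)⁻¹ o⟩
  letI ac : AddCommGroup X :=
    { add_assoc := hadd_assoc
      zero_add := hzero_add
      add_zero := hadd_zero
      nsmul := nsmulRec
      neg_add_cancel := hneg_add
      add_comm := hadd_comm
      zsmul := zsmulRec }
  refine ⟨ac, rfl, ?_, ?_⟩
  · intro b
    refine ⟨n b, (hnN b).1, ?_⟩
    intro y
    show n b y = n y b
    exact hadd_comm b y
  · intro h hh hho a b
    show h (n a b) = n (h a) (h b)
    have h1 := hnuniq (hB.conj_mem_fpf hh (hnN a))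
    have h2 : (h * n a * h⁻¹) o = h a := by
      have : h⁻¹ o = o := by
        rw [Equiv.Perm.inv_eq_iff_eq, hho]
      rw [Equiv.Perm.mul_apply, Equiv.Perm.mul_apply, this, hno]
    rw [h2] at h1
    rw [h1]
    simp

end add

/-- An involutory automorphism with at most two fixed elements inverts a subgroup of index two that
it preserves. -/
theorem inverts_index_two {H : Type*} [Group H] [Finite H] (τ : H →* H) (h2 : ∀ x, τ (τ x) = x)
    (hfix : ∀ a b c : H, τ a = a → τ b = b → τ c = c → a = b ∨ a = c ∨ b = c)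
    (K : Subgroup H) (hK : K.index = 2) (hτK : ∀ k ∈ K, τ k ∈ K) {k : H} (hk : k ∈ K) :
    τ k = k⁻¹ := by
  classical
  haveI : Fintype H := Fintype.ofFinite H
  have hmem : ∀ x, x⁻¹ * τ x ∈ K := by
    intro x
    rw [Subgroup.mul_mem_iff_of_index_two hK, Subgroup.inv_mem_iff]
    refine ⟨hτK x, fun h => ?_⟩
    have := hτK _ h
    rwa [h2] at this
  let f : H → H := fun x => x⁻¹ * τ x
  have hfiber : ∀ a ∈ (Finset.univ : Finset H).image f,
      ((Finset.univ : Finset H).filter (fun x => f x = a)).card ≤ 2 := by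
    intro a _
    by_contra hc
    rw [not_le, Finset.two_lt_card] at hc
    obtain ⟨x, hx, y, hy, z, hz, hxy, hxz, hyz⟩ := hc
    simp only [Finset.mem_filter, Finset.mem_univ, true_and] at hx hy hz
    have key : ∀ w, f w = a → τ (w * x⁻¹) = w * x⁻¹ := by
      intro w hw
      have h3 : w⁻¹ * τ w = x⁻¹ * τ x := by
        show f w = f x
        rw [hw, hx]
      rw [map_mul, map_inv]
      have h4 : τ w = w * (x⁻¹ * τ x) := by
        rw [← h3, mul_inv_cancel_left]
      rw [h4]
      group
    rcases hfix _ _ _ (key x hx) (key y hy) (key z hz) with h | h | h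
    · exact hxy (mul_right_cancel h)
    · exact hxz (mul_right_cancel h)
    · exact hyz (mul_right_cancel h)
  have hle := Finset.card_le_mul_card_image (Finset.univ : Finset H) 2 hfiber
  have hcardK : K.index * Nat.card K = Nat.card H := K.index_mul_card
  have hsub : ((Finset.univ : Finset H).image f : Set H) ⊆ (K : Set H) := by
    intro y hy
    simp only [Finset.coe_image, Finset.coe_univ, Set.image_univ, Set.mem_range] at hy
    obtain ⟨x, rfl⟩ := hy
    exact hmem x
  have hkim : k ∈ (Finset.univ : Finset H).image f := by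
    by_contra hnot
    -- the image misses `k`, so it is too small
    have hcard2 : ((Finset.univ : Finset H).image f).card + 1 ≤ Nat.card K := by
      have h5 : insert k ((Finset.univ : Finset H).image f) ⊆ Set.toFinset (K : Set H) := by
        intro y hy
        rw [Finset.mem_insert] at hy
        rw [Set.mem_toFinset]
        rcases hy with rfl | hy
        · exact hk
        · exact hsub hy
      have h6 := Finset.card_le_card h5
      rw [Finset.card_insert_of_notMem hnot] at h6
      rw [Set.toFinset_card] at h6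
      calc _ ≤ Fintype.card (K : Set H) := h6
        _ = Nat.card K := by rw [← Nat.card_eq_fintype_card]; rfl
    rw [Finset.card_univ] at hle
    have hcardH : Nat.card H = Fintype.card H := Nat.card_eq_fintype_card
    rw [hcardH, hK] at hcardK
    have h7 := Nat.card_pos (α := K)
    omega
  simp only [Finset.mem_image, Finset.mem_univ, true_and] at hkim
  obtain ⟨x, rfl⟩ := hkim
  simp only [f, map_mul, map_inv, h2, mul_inv_rev, inv_inv]

section main

variable {α : Type*} [Fintype α] [DecidableEq α]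

lemma ne_iff_of_fix {g : Equiv.Perm α} {i : α} (hgi : g i = i) (x : α) : g x ≠ i ↔ x ≠ i := by
  rw [not_iff_not]
  constructor
  · intro h
    apply g.injective
    rw [h, hgi]
  · rintro rfl
    exact hgi

/-- Restriction of the two-point stabiliser to the points other than `i`. -/
def resHom (G : Subgroup (Equiv.Perm α)) (i o : α) :
    stabTwo G i o →* Equiv.Perm {x : α // x ≠ i} where
  toFun g := g.1.subtypePerm (ne_iff_of_fix g.2.2.1)
  map_one' := by
    ext x
    rfl
  map_mul' := by
    intro g k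
    ext x
    rfl

@[simp] lemma resHom_apply (G : Subgroup (Equiv.Perm α)) (i o : α) (g : stabTwo G i o)
    (x : {x : α // x ≠ i}) : ((resHom G i o g x : {x : α // x ≠ i}) : α) = g.1 x.1 := rfl

lemma resHom_injective (G : Subgroup (Equiv.Perm α)) (i o : α) :
    Function.Injective (resHom G i o) := by
  intro g k h
  apply Subtype.ext
  ext y
  by_cases hy : y = i
  · subst hy
    rw [g.2.2.1, k.2.2.1]
  · have := congrArg (fun p : Equiv.Perm {x : α // x ≠ i} => ((p ⟨y, hy⟩ : {x : α // x ≠ i}) : α)) h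
    exact this

lemma resHom_mem (G : Subgroup (Equiv.Perm α)) (i o : α) (g : stabTwo G i o) :
    resHom G i o g ∈ stabRestrict G i :=
  ⟨g.1, g.2.1, g.2.2.1, fun _ => rfl⟩

lemma card_stabTwo {G : Subgroup (Equiv.Perm α)} (hG : Sharp3 G) {i o e : α} (hio : i ≠ o)
    (hie : i ≠ e) (hoe : o ≠ e) :
    Nat.card (stabTwo G i o) + 1 = Fintype.card {x : α // x ≠ i} := by
  classical
  let X := {x : α // x ≠ i}
  let o' : X := ⟨o, hio.symm⟩
  let f : stabTwo G i o → {y : X // y ≠ o'} := fun g =>
    ⟨⟨g.1 e, by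
        intro h
        apply hie
        apply g.1.injective
        rw [g.2.2.1, h]⟩, by
      intro h
      have h1 : g.1 e = o := congrArg Subtype.val h
      apply hoe
      apply g.1.injective
      rw [g.2.2.2, h1]⟩
  have hf : Function.Bijective f := by
    constructor
    · intro g k h
      have h1 : g.1 e = k.1 e := congrArg (fun y : {y : X // y ≠ o'} => (y.1 : α)) h
      apply Subtype.ext
      have h2 : k.1⁻¹ * g.1 = 1 := by
        apply hG.sh _ (G.mul_mem (G.inv_mem k.2.1) g.2.1) hio hie hoe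
        · rw [Equiv.Perm.mul_apply, g.2.2.1, Equiv.Perm.inv_eq_iff_eq, k.2.2.1]
        · rw [Equiv.Perm.mul_apply, g.2.2.2, Equiv.Perm.inv_eq_iff_eq, k.2.2.2]
        · rw [Equiv.Perm.mul_apply, h1]
          simp
      exact (inv_mul_eq_one.mp h2).symm
    · rintro ⟨⟨y, hy⟩, hyo⟩
      have hyo' : y ≠ o := fun h => hyo (Subtype.ext h)
      obtain ⟨g, hg, h1, h2, h3⟩ := hG.tr hio hie hoe hio (Ne.symm hy) (Ne.symm hyo')
      exact ⟨⟨g, hg, h1, h2⟩, Subtype.ext (Subtype.ext h3)⟩
  have h1 : Nat.card (stabTwo G i o) = Nat.card {y : X // y ≠ o'} :=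
    Nat.card_congr (Equiv.ofBijective f hf)
  rw [h1, Nat.card_eq_fintype_card, Fintype.card_subtype_compl, Fintype.card_subtype_eq]
  have : 0 < Fintype.card X := Fintype.card_pos_iff.mpr ⟨o'⟩
  have h5 : Fintype.card X = Fintype.card {x : α // x ≠ i} := rfl
  omega

/-- `σ` is an involution. -/
lemma sigma_sq {G : Subgroup (Equiv.Perm α)} (hG : Sharp3 G) {i o e : α} (hio : i ≠ o)
    (hie : i ≠ e) (hoe : o ≠ e) {σ : Equiv.Perm α} (hσ : σ ∈ G) (hσi : σ i = o) (hσo : σ o = i)
    (hσe : σ e = e) : σ * σ = 1 :=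
  hG.sh _ (G.mul_mem hσ hσ) hio hie hoe (by simp [hσi, hσo]) (by simp [hσi, hσo]) (by simp [hσe])

theorem comm_of_index_two {G : Subgroup (Equiv.Perm α)} (hG : Sharp3 G) {i o e : α} (hio : i ≠ o)
    (hie : i ≠ e) (hoe : o ≠ e) {σ : Equiv.Perm α} (hσ : σ ∈ G) (hσi : σ i = o) (hσo : σ o = i)
    (hσe : σ e = e) (K : Subgroup (Equiv.Perm α)) (hKH : K ≤ stabTwo G i o)
    (hK2 : 2 * Nat.card K = Nat.card (stabTwo G i o)) (hKσ : ∀ g ∈ K, σ * g * σ⁻¹ ∈ K)
    (hnsq : ∀ m : ℕ, m * m ≠ Fintype.card {x : α // x ≠ i}) :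
    ∀ g ∈ stabTwo G i o, ∀ k ∈ stabTwo G i o, g * k = k * g := by
  classical
  have hσ2 := sigma_sq hG hio hie hoe hσ hσi hσo hσe
  have hσinv : σ⁻¹ = σ := inv_eq_of_mul_eq_one_left hσ2
  have hmem : ∀ x : stabTwo G i o, σ * x.1 * σ⁻¹ ∈ stabTwo G i o := by
    rintro ⟨x, hx, hxi, hxo⟩
    refine ⟨G.mul_mem (G.mul_mem hσ hx) (G.inv_mem hσ), ?_, ?_⟩
    · simp [hσinv, hσi, hxo, hσo]
    · simp [hσinv, hσo, hxi, hσi]
  let τ : stabTwo G i o →* stabTwo G i o :=
    { toFun := fun x => ⟨σ * x.1 * σ⁻¹, hmem x⟩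
      map_one' := by
        apply Subtype.ext
        simp
      map_mul' := by
        intro x y
        apply Subtype.ext
        simp [mul_assoc] }
  have h2 : ∀ x, τ (τ x) = x := by
    intro x
    apply Subtype.ext
    show σ * (σ * x.1 * σ⁻¹) * σ⁻¹ = x.1
    rw [hσinv]
    calc σ * (σ * x.1 * σ) * σ = (σ * σ) * x.1 * (σ * σ) := by simp only [mul_assoc]
      _ = x.1 := by rw [hσ2]; simp
  have hinj : ∀ a b : stabTwo G i o, a.1 e = b.1 e → a = b := by
    intro a b h
    apply Subtype.ext
    have h3 : b.1⁻¹ * a.1 = 1 := by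
      apply hG.sh _ (G.mul_mem (G.inv_mem b.2.1) a.2.1) hio hie hoe
      · rw [Equiv.Perm.mul_apply, a.2.2.1, Equiv.Perm.inv_eq_iff_eq, b.2.2.1]
      · rw [Equiv.Perm.mul_apply, a.2.2.2, Equiv.Perm.inv_eq_iff_eq, b.2.2.2]
      · rw [Equiv.Perm.mul_apply, h]
        simp
    exact (inv_mul_eq_one.mp h3).symm
  have hfixpt : ∀ a : stabTwo G i o, τ a = a → σ (a.1 e) = a.1 e := by
    intro a ha
    have hc : σ * a.1 * σ⁻¹ = a.1 := congrArg Subtype.val ha
    have hc' : σ * a.1 = a.1 * σ := by
      rw [← hc]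
      simp
      rw [hc]
    have := congrArg (fun p : Equiv.Perm α => p e) hc'
    simpa [hσe] using this
  have hfix : ∀ a b c : stabTwo G i o, τ a = a → τ b = b → τ c = c → a = b ∨ a = c ∨ b = c := by
    intro a b c ha hb hc
    by_contra hcon
    push Not at hcon
    have h1 : σ = 1 := hG.sh σ hσ (fun h => hcon.1 (hinj a b h)) (fun h => hcon.2.1 (hinj a c h))
      (fun h => hcon.2.2 (hinj b c h)) (hfixpt a ha) (hfixpt b hb) (hfixpt c hc)
    rw [h1] at hσi
    exact hio hσi
  let K' : Subgroup (stabTwo G i o) := K.subgroupOf (stabTwo G i o)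
  have hcardK' : Nat.card K' = Nat.card K := by
    exact Nat.card_congr (Subgroup.subgroupOfEquivOfLe hKH).toEquiv
  have hK'2 : K'.index = 2 := by
    have h3 := K'.index_mul_card
    rw [hcardK', ← hK2] at h3
    have h4 : 0 < Nat.card K := Nat.card_pos
    exact Nat.eq_of_mul_eq_mul_right h4 h3
  have hτK' : ∀ k ∈ K', τ k ∈ K' := by
    intro k hk
    exact hKσ k.1 hk
  have hinv : ∀ {k}, k ∈ K' → τ k = k⁻¹ := fun hk => inverts_index_two τ h2 hfix K' hK'2 hτK' hk
  have hK'comm : ∀ a ∈ K', ∀ b ∈ K', a * b = b * a := by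
    intro a ha b hb
    have h3 := hinv (K'.mul_mem ha hb)
    rw [map_mul, hinv ha, hinv hb, mul_inv_rev] at h3
    have h4 := congrArg (fun x => x⁻¹) h3
    simpa [mul_inv_rev] using h4.symm
  -- the additive structure
  have hB := isSharp2_stabRestrict G i hG
  let X := {x : α // x ≠ i}
  let o' : X := ⟨o, hio.symm⟩
  obtain ⟨ac, h0, -, hadd⟩ := exists_add hB o'
  let K₀ : Subgroup (Equiv.Perm X) := K'.map (resHom G i o)
  have hres : ∀ g : stabTwo G i o, ∀ y z : X, resHom G i o g (y + z) =
      resHom G i o g y + resHom G i o g z := by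
    intro g y z
    exact hadd _ (resHom_mem G i o g) (Subtype.ext g.2.2.2) y z
  have hcardK₀ : Nat.card K₀ = Nat.card K' := by
    exact Nat.card_congr (Subgroup.equivMapOfInjective K' _ (resHom_injective G i o)).symm.toEquiv
  obtain ⟨x, hxnot⟩ : ∃ x, x ∉ K' := by
    by_contra hall
    push Not at hall
    have : K' = ⊤ := (Subgroup.eq_top_iff' K').mpr hall
    rw [this, Subgroup.index_top] at hK'2
    omega
  haveI hnorm : K'.Normal := Subgroup.normal_of_index_eq_two hK'2
  have hcomm₀ := comm_of_nonsquare (A := X) K₀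
    (by
      rintro _ ⟨g, -, rfl⟩ y z
      exact hres g y z)
    (by
      rintro _ ⟨g, hg, rfl⟩ _ ⟨k, hk, rfl⟩
      rw [← map_mul, ← map_mul, hK'comm g hg k hk])
    (by
      rintro _ ⟨g, hg, rfl⟩ y hy hgy
      have hy' : y.1 ≠ o := fun h => hy (by rw [h0]; exact Subtype.ext h)
      have hgy' : g.1 y.1 = y.1 := congrArg Subtype.val hgy
      have := hG.sh g.1 g.2.1 hio (Ne.symm y.2) (Ne.symm hy') g.2.2.1 g.2.2.2 hgy'
      have h5 : g = 1 := Subtype.ext this
      rw [h5, map_one])
    (by
      have h5 := card_stabTwo hG hio hie hoe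
      rw [hcardK₀, hcardK', hK2, Nat.card_eq_fintype_card (α := X)]
      exact h5)
    (by
      intro m
      rw [Nat.card_eq_fintype_card]
      exact hnsq m)
    (resHom G i o x) (hres x)
    (by
      rintro _ ⟨g, hg, rfl⟩
      exact ⟨x * g * x⁻¹, hnorm.conj_mem g hg x, by simp⟩)
    (by
      exact ⟨x * x, Subgroup.mul_self_mem_of_index_two hK'2 x, map_mul _ _ _⟩)
  have hxk : ∀ k ∈ K', x * k = k * x := by
    intro k hk
    apply resHom_injective G i o
    rw [map_mul, map_mul]
    exact hcomm₀ _ ⟨k, hk, rfl⟩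
  -- every element is in `K'` or `x K'`
  have hsplit : ∀ g : stabTwo G i o, g ∈ K' ∨ x⁻¹ * g ∈ K' := by
    intro g
    by_cases hg : g ∈ K'
    · exact Or.inl hg
    · right
      rw [Subgroup.mul_mem_iff_of_index_two hK'2, Subgroup.inv_mem_iff]
      exact ⟨fun h => absurd h hxnot, fun h => absurd h hg⟩
  have hall : ∀ g k : stabTwo G i o, g * k = k * g := by
    intro g k
    rcases hsplit g with hg | hg <;> rcases hsplit k with hk | hk
    · exact hK'comm g hg k hk
    · have e2 : k = x * (x⁻¹ * k) := by group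
      generalize x⁻¹ * k = b at e2 hk
      rw [e2]
      calc g * (x * b) = (g * x) * b := by group
        _ = (x * g) * b := by rw [hxk g hg]
        _ = x * (g * b) := by group
        _ = x * (b * g) := by rw [hK'comm g hg b hk]
        _ = (x * b) * g := by group
    · have e1 : g = x * (x⁻¹ * g) := by group
      generalize x⁻¹ * g = a at e1 hg
      rw [e1]
      calc (x * a) * k = x * (a * k) := by group
        _ = x * (k * a) := by rw [hK'comm a hg k hk]
        _ = (x * k) * a := by group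
        _ = (k * x) * a := by rw [hxk k hk]
        _ = k * (x * a) := by group
    · have e1 : g = x * (x⁻¹ * g) := by group
      have e2 : k = x * (x⁻¹ * k) := by group
      generalize x⁻¹ * g = a at e1 hg
      generalize x⁻¹ * k = b at e2 hk
      rw [e1, e2]
      calc x * a * (x * b) = x * (a * x) * b := by group
        _ = x * (x * a) * b := by rw [hxk a hg]
        _ = x * x * (a * b) := by group
        _ = x * x * (b * a) := by rw [hK'comm a hg b hk]
        _ = x * (x * b) * a := by group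
        _ = x * (b * x) * a := by rw [hxk b hk]
        _ = x * b * (x * a) := by group
  intro g hg k hk
  exact congrArg Subtype.val (hall ⟨g, hg⟩ ⟨k, hk⟩)

theorem pgl_of_comm {G : Subgroup (Equiv.Perm α)} (hG : Sharp3 G) {i o e : α} (hio : i ≠ o)
    (hie : i ≠ e) (hoe : o ≠ e) {σ : Equiv.Perm α} (hσ : σ ∈ G) (hσi : σ i = o) (hσo : σ o = i)
    (hσe : σ e = e) (hodd : Odd (Fintype.card {x : α // x ≠ i}))
    (hcomm : ∀ g ∈ stabTwo G i o, ∀ k ∈ stabTwo G i o, g * k = k * g) :
    ∃ (F : Type) (_ : Field F) (_ : Fintype F), Fintype.card F = Fintype.card {x : α // x ≠ i} ∧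
      Nonempty (G ≃* Matrix.ProjGenLinGroup (Fin 2) F) := by
  classical
  have hσ2 := sigma_sq hG hio hie hoe hσ hσi hσo hσe
  have hσinv : σ⁻¹ = σ := inv_eq_of_mul_eq_one_left hσ2
  have hσσ : ∀ x, σ (σ x) = x := fun x => by
    have := congrArg (fun p : Equiv.Perm α => p x) hσ2
    simpa using this
  let X := {x : α // x ≠ i}
  have hB := isSharp2_stabRestrict G i hG
  let o' : X := ⟨o, hio.symm⟩
  let e' : X := ⟨e, hie.symm⟩
  have hoe' : o' ≠ e' := fun h => hoe (congrArg Subtype.val h)
  have hcomm' : ∀ h ∈ stabRestrict G i, ∀ k ∈ stabRestrict G i, h o' = o' → k o' = o' →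
      h * k = k * h := by
    rintro h ⟨g, hg, hgi, hgh⟩ k ⟨l, hl, hli, hlk⟩ hho hko
    have hgo : g o = o := by
      have := hgh o'
      rw [hho] at this
      exact this.symm
    have hlo : l o = o := by
      have := hlk o'
      rw [hko] at this
      exact this.symm
    have h4 := hcomm g ⟨hg, hgi, hgo⟩ l ⟨hl, hli, hlo⟩
    ext x
    have := congrArg (fun p : Equiv.Perm α => p x.1) h4
    simpa [hgh, hlk, Equiv.Perm.mul_apply] using this
  obtain ⟨inst, h0, h1, ht, hm⟩ := exists_field hB hoe' hcomm'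
  have h0' : (0 : X).1 = o := congrArg Subtype.val h0
  have h1' : (1 : X).1 = e := congrArg Subtype.val h1
  -- multiplications
  have hm' : ∀ a : X, a ≠ 0 → ∃ g ∈ stabTwo G i o, ∀ x : X, g x.1 = (a * x).1 := by
    intro a ha
    obtain ⟨q, ⟨g, hg, hgi, hgq⟩, hqo, hq⟩ := hm a ha
    refine ⟨g, ⟨hg, hgi, ?_⟩, ?_⟩
    · have h5 := hgq o'
      rw [hqo] at h5
      exact h5.symm
    · intro x
      rw [← hgq, hq]
  choose! gm hgm hgmx using hm'
  have hX0 : ∀ y : X, y ≠ 0 → y.1 ≠ o := by
    intro y hy h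
    apply hy
    rw [h0]
    exact Subtype.ext h
  have hσX : ∀ y : X, y ≠ 0 → σ y.1 ≠ i := by
    intro y hy h
    apply hX0 y hy
    apply σ.injective
    rw [h, hσo]
  let s : X → X := fun y => if h : y = 0 then 0 else ⟨σ y.1, hσX y h⟩
  have hs : ∀ y, y ≠ 0 → (s y).1 = σ y.1 := by
    intro y hy
    simp only [s, hy, dif_neg, not_false_eq_true]
  have hsne : ∀ y, y ≠ 0 → s y ≠ 0 := by
    intro y hy h
    have h2 := hs y hy
    rw [h, h0'] at h2
    apply y.2
    apply σ.injective
    rw [hσi, ← h2]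
  have hss : ∀ y, y ≠ 0 → s (s y) = y := by
    intro y hy
    apply Subtype.ext
    rw [hs _ (hsne y hy), hs y hy, hσσ]
  have hs1 : s 1 = 1 := by
    apply Subtype.ext
    rw [hs 1 one_ne_zero, h1', hσe]
  have hinj : ∀ a b : stabTwo G i o, a.1 e = b.1 e → a = b := by
    intro a b h
    apply Subtype.ext
    have h3 : b.1⁻¹ * a.1 = 1 := by
      apply hG.sh _ (G.mul_mem (G.inv_mem b.2.1) a.2.1) hio hie hoe
      · rw [Equiv.Perm.mul_apply, a.2.2.1, Equiv.Perm.inv_eq_iff_eq, b.2.2.1]
      · rw [Equiv.Perm.mul_apply, a.2.2.2, Equiv.Perm.inv_eq_iff_eq, b.2.2.2]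
      · rw [Equiv.Perm.mul_apply, h]
        simp
    exact (inv_mul_eq_one.mp h3).symm
  have hsmul : ∀ a b : X, a ≠ 0 → b ≠ 0 → s (a * b) = s a * s b := by
    intro a b ha hb
    have hm1 : σ * gm a * σ⁻¹ ∈ stabTwo G i o := by
      obtain ⟨hg, hgi, hgo⟩ := hgm a ha
      refine ⟨G.mul_mem (G.mul_mem hσ hg) (G.inv_mem hσ), ?_, ?_⟩
      · simp [hσinv, hσi, hgo, hσo]
      · simp [hσinv, hσo, hgi, hσi]
    have hm2 := hgm (s a) (hsne a ha)
    have heq : σ * gm a * σ⁻¹ = gm (s a) := by
      have := hinj ⟨_, hm1⟩ ⟨_, hm2⟩ (by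
        show (σ * gm a * σ⁻¹) e = gm (s a) e
        rw [hσinv, Equiv.Perm.mul_apply, Equiv.Perm.mul_apply, hσe, ← h1', hgmx a ha, hgmx _ (hsne a ha),
          mul_one, mul_one, hs a ha])
      exact congrArg Subtype.val this
    apply Subtype.ext
    rw [hs _ (mul_ne_zero ha hb), ← hgmx a ha, ← hgmx _ (hsne a ha), ← heq, hs b hb, hσinv]
    simp [hσσ]
  -- the prime two
  have hcop : (Nat.card X).Coprime 2 := by
    rw [Nat.card_eq_fintype_card]
    exact Nat.Coprime.symm (Nat.coprime_two_left.mpr hodd)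
  have h2ne : (2 : X) ≠ 0 := by
    intro h
    have hb : Function.Bijective (fun y : X => (2 : ℕ) • y) := hcop.nsmul_right_bijective
    have h5 : (2 : ℕ) • (1 : X) = (2 : ℕ) • (0 : X) := by
      rw [smul_zero, two_nsmul, one_add_one_eq_two, h]
    exact one_ne_zero (hb.1 h5)
  have hone_ne : (1 : X) ≠ -1 := by
    intro h
    apply h2ne
    have : (2 : X) = 1 + 1 := one_add_one_eq_two.symm
    rw [this]
    nth_rewrite 1 [h]
    ring
  have hneg1 : s (-1) = -1 := by
    have h3 : s (-1) * s (-1) = 1 := by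
      rw [← hsmul _ _ (neg_ne_zero.mpr one_ne_zero) (neg_ne_zero.mpr one_ne_zero)]
      have h4 : (-1 : X) * (-1) = 1 := by ring
      rw [h4, hs1]
    have h4 : (s (-1) - 1) * (s (-1) + 1) = 0 := by
      linear_combination h3
    rcases mul_eq_zero.mp h4 with h5 | h5
    · exfalso
      have h6 : s (-1) = 1 := sub_eq_zero.mp h5
      have h7 := hss (-1) (neg_ne_zero.mpr one_ne_zero)
      rw [h6, hs1] at h7
      exact hone_ne h7
    · exact eq_neg_of_add_eq_zero_left h5
  have hval : ∀ y z : X, y ≠ z → y.1 ≠ z.1 := fun y z h h' => h (Subtype.ext h')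
  have hfixz : ∀ z : X, z ≠ 0 → s z = z → z = 1 ∨ z = -1 := by
    intro z hz hsz
    by_contra hcon
    push Not at hcon
    have h5 : σ = 1 := hG.sh σ hσ (hval _ _ hone_ne) (hval _ _ hcon.1.symm) (hval _ _ hcon.2.symm)
      (by rw [← hs 1 one_ne_zero, hs1])
      (by rw [← hs _ (neg_ne_zero.mpr one_ne_zero), hneg1])
      (by rw [← hs z hz, hsz])
    rw [h5] at hσi
    exact hio hσi
  have hε : ∀ a : X, a ≠ 0 → s a * a = 1 ∨ s a * a = -1 := by
    intro a ha
    apply hfixz _ (mul_ne_zero (hsne a ha) ha)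
    rw [hsmul _ _ (hsne a ha) ha, hss a ha, mul_comm]
  -- the involution `x ↦ 1 - x`
  obtain ⟨T, hT, hTi, hTx⟩ : ∃ T ∈ G, T i = i ∧ ∀ x : X, T x.1 = (1 - x).1 := by
    obtain ⟨n, hn, hnx⟩ := ht 1
    obtain ⟨h, hh, -, hhx⟩ := hm (-1) (neg_ne_zero.mpr one_ne_zero)
    obtain ⟨g, hg, hgi, hgp⟩ := mul_mem hn hh
    refine ⟨g, hg, hgi, ?_⟩
    intro x
    rw [← hgp, Equiv.Perm.mul_apply, hhx, hnx]
    congr 1
    ring
  have hTo : T o = e := by
    have := hTx 0
    rw [h0', sub_zero, h1'] at this
    exact this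
  have hTe : T e = o := by
    have := hTx 1
    rw [h1', sub_self, h0'] at this
    exact this
  let r : Equiv.Perm α := σ * T
  have hri : r i = o := by
    show σ (T i) = o
    rw [hTi, hσi]
  have hro : r o = e := by
    show σ (T o) = e
    rw [hTo, hσe]
  have hre : r e = i := by
    show σ (T e) = i
    rw [hTe, hσo]
  have hr3 : r * r * r = 1 := by
    apply hG.sh _ (G.mul_mem (G.mul_mem (G.mul_mem hσ hT) (G.mul_mem hσ hT)) (G.mul_mem hσ hT))
      hio hie hoe
    · show r (r (r i)) = i
      rw [hri, hro, hre]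
    · show r (r (r o)) = o
      rw [hro, hre, hri]
    · show r (r (r e)) = e
      rw [hre, hri, hro]
  have hrx : ∀ y : X, y ≠ 1 → r y.1 = (s (1 - y)).1 := by
    intro y hy
    show σ (T y.1) = _
    rw [hTx, hs _ (sub_ne_zero.mpr hy.symm)]
  have hE : ∀ y : X, y ≠ 0 → y ≠ 1 → s (1 - s (1 - y)) = 1 - s y := by
    intro y hy0 hy1
    have hu : (1 : X) - y ≠ 0 := sub_ne_zero.mpr hy1.symm
    set A := s (1 - y) with hA
    have hA0 : A ≠ 0 := hsne _ hu
    have hA1 : A ≠ 1 := by
      intro h
      have h5 := hss _ hu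
      rw [← hA, h, hs1] at h5
      apply hy0
      linear_combination h5
    have hu2 : (1 : X) - A ≠ 0 := sub_ne_zero.mpr hA1.symm
    set B := s (1 - A) with hB'
    have hB0 : B ≠ 0 := hsne _ hu2
    have e1 : r y.1 = A.1 := hrx y hy1
    have e2 : r A.1 = B.1 := hrx A hA1
    have e3 : r B.1 = y.1 := by
      have := congrArg (fun p : Equiv.Perm α => p y.1) hr3
      simp only [Equiv.Perm.mul_apply, Equiv.Perm.coe_one, id_eq] at this
      rw [e1, e2] at this
      exact this
    have hB1 : B ≠ 1 := by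
      intro h
      rw [h, h1', hre] at e3
      exact y.2 e3.symm
    have e4 : s (1 - B) = y := by
      apply Subtype.ext
      rw [← hrx B hB1, e3]
    have e5 := hss _ (sub_ne_zero.mpr hB1.symm)
    rw [e4] at e5
    rw [e5]
    ring
  have hcase : ∀ y : X, y ≠ 0 → y ≠ 1 → s y * y = -1 → y * y - y - 1 = 0 := by
    intro y hy0 hy1 hsy
    have hu : (1 : X) - y ≠ 0 := sub_ne_zero.mpr hy1.symm
    have hE1 := hE y hy0 hy1
    set a := s (1 - y) with ha
    have ha0 : a ≠ 0 := hsne _ hu
    have ha1 : a ≠ 1 := by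
      intro h
      have h5 := hss _ hu
      rw [← ha, h, hs1] at h5
      apply hy0
      linear_combination h5
    have hc0 : (1 : X) - a ≠ 0 := sub_ne_zero.mpr ha1.symm
    set b := s (1 - a) with hb
    have h2y : (2 : X) * y ≠ 0 := mul_ne_zero h2ne hy0
    have hby : b * y = y + 1 := by
      rw [hE1]
      linear_combination (-1 : X) * hsy
    have key : ∀ ε₁ ε₂ : X, a * (1 - y) = ε₁ → b * (1 - a) = ε₂ →
        (y + 1) * (1 - y - ε₁) = ε₂ * y * (1 - y) := by
      intro ε₁ ε₂ h3 h4
      linear_combination (-(1 - y - ε₁)) * hby + b * y * h3 + y * (1 - y) * h4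
    rcases hε _ hu with h3 | h3 <;> rcases hε _ hc0 with h4 | h4
    · exfalso
      have := key _ _ h3 h4
      apply h2y
      linear_combination (-1 : X) * this
    · exfalso
      have := key _ _ h3 h4
      apply mul_ne_zero h2y hy0
      linear_combination (-1 : X) * this
    · exfalso
      have := key _ _ h3 h4
      apply h2ne
      linear_combination this
    · have := key _ _ h3 h4
      have h5 : (2 : X) * (y * y - y - 1) = 0 := by
        linear_combination (-1 : X) * this
      exact (mul_eq_zero.mp h5).resolve_left h2ne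
  have hall : ∀ a : X, a ≠ 0 → s a * a = 1 := by
    intro a ha
    rcases hε a ha with h | h
    · exact h
    exfalso
    have ha1 : a ≠ 1 := by
      rintro rfl
      rw [hs1, mul_one] at h
      exact hone_ne h
    have h5 := hcase a ha ha1 h
    have hb0 : -a ≠ 0 := neg_ne_zero.mpr ha
    have hb1 : -a ≠ 1 := by
      intro h6
      have h7 : a = -1 := by linear_combination (-1 : X) * h6
      rw [h7, hneg1] at h
      apply hone_ne
      linear_combination h
    have hsb : s (-a) = -s a := by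
      have : -a = (-1) * a := by ring
      rw [this, hsmul _ _ (neg_ne_zero.mpr one_ne_zero) ha, hneg1]
      ring
    have h6 := hcase (-a) hb0 hb1 (by rw [hsb]; linear_combination h)
    have h7 : (2 : X) * a = 0 := by linear_combination h6 - h5
    exact mul_ne_zero h2ne ha h7
  have hinvs : ∀ y : X, y ≠ 0 → σ y.1 = (y⁻¹).1 := by
    intro y hy
    rw [← hs y hy]
    congr 1
    exact eq_inv_of_mul_eq_one_left (hall y hy)
  -- transport to the Galois field
  obtain ⟨p, hp⟩ := CharP.exists X
  obtain ⟨n, hpp, hcardX⟩ := FiniteField.card X p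
  haveI : Fact p.Prime := ⟨hpp⟩
  have hn0 : (n : ℕ) ≠ 0 := n.pos.ne'
  letI : Fintype (GaloisField p n) := Fintype.ofFinite _
  have hcardF : Fintype.card (GaloisField p n) = p ^ (n : ℕ) := by
    rw [← Nat.card_eq_fintype_card]
    exact GaloisField.card p n hn0
  let E : X ≃+* GaloisField p n := FiniteField.ringEquivOfCardEq (by rw [hcardX, hcardF])
  refine ⟨GaloisField p n, inferInstance, inferInstance, by rw [hcardF, ← hcardX], ?_⟩
  let ι : OnePoint (GaloisField p n) ≃ α :=
    { toFun := fun p => p.elim i (fun x => (E.symm x).1)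
      invFun := fun y => if h : y = i then ∞ else ((E ⟨y, h⟩ : GaloisField p n) : OnePoint _)
      left_inv := by
        intro p
        induction p using OnePoint.rec with
        | infty => simp
        | coe x =>
          have hne := (E.symm x).2
          simp [hne]
      right_inv := by
        intro y
        by_cases h : y = i
        · simp [h]
        · simp [h] }
  have hιI : ι ∞ = i := rfl
  have hιx : ∀ x : GaloisField p n, ι (x : OnePoint _) = (E.symm x).1 := fun x => rfl
  have h00 : (E.symm (0 : GaloisField p n)).1 = o := by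
    rw [map_zero]
    exact h0'
  have h11 : (E.symm (1 : GaloisField p n)).1 = e := by
    rw [map_one]
    exact h1'
  have hMob : MobData G ι := by
    refine ⟨?_, ?_, ?_, ?_⟩
    · intro g hg h1'' h2' h3'
      rw [hιI] at h1''
      rw [hιx, h00] at h2'
      rw [hιx, h11] at h3'
      exact hG.sh g hg hio hie hoe h1'' h2' h3'
    · intro b
      obtain ⟨q, ⟨g, hg, hgi, hgq⟩, hq⟩ := ht (E.symm b)
      refine ⟨g, hg, hgi, ?_⟩
      intro x
      rw [hιx, hιx, ← hgq, hq, map_add]
    · intro a ha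
      have ha' : E.symm a ≠ 0 := fun h => ha ((map_eq_zero E.symm).mp h)
      obtain ⟨q, ⟨g, hg, hgi, hgq⟩, -, hq⟩ := hm (E.symm a) ha'
      refine ⟨g, hg, hgi, ?_⟩
      intro x
      rw [hιx, hιx, ← hgq, hq, map_mul]
    · refine ⟨σ, hσ, ?_, ?_, ?_⟩
      · rw [hιx, h00, hιI, hσi]
      · rw [hιx, h00, hιI, hσo]
      · intro x hx
        rw [hιx, hιx, map_inv₀]
        have hx' : E.symm x ≠ 0 := fun h => hx ((map_eq_zero E.symm).mp h)
        exact hinvs _ hx'
  exact nonempty_pgl hMob

end main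

end Cfsg.Agent.Lib.Sharp3Odd
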