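import Mathlib
import Cfsg.Agent.Lib.Sims3B

/-!
# Suborbit of length three: recognition lemmas
-/

set_option autoImplicit false

namespace Sims3

/-- A group of order `n!` acting faithfully on `n` points is symmetric. -/
theorem perm_iso_of_faithful {H X : Type*} [Group H] [Finite H] [MulAction H X] [Finite X]
    [FaithfulSMul H X] (n : ℕ) (hX : Nat.card X = n) (hH : Nat.card H = n.factorial) :
    Nonempty (H ≃* Equiv.Perm (Fin n)) := by
  let e : X ≃ Fin n := Finite.equivFinOfCardEq hX
  let ρ : H →* Equiv.Perm (Fin n) := e.permCongrHom.toMonoidHom.comp (MulAction.toPermHom H X)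
  have hinj : Function.Injective ρ := by
    intro a b hab
    have h1 : MulAction.toPermHom H X a = MulAction.toPermHom H X b :=
      e.permCongrHom.injective hab
    apply FaithfulSMul.eq_of_smul_eq_smul (α := X)
    intro x
    exact congrArg (fun f : Equiv.Perm X => f x) h1
  have hcard : Nat.card H = Nat.card (Equiv.Perm (Fin n)) := by
    rw [hH, Nat.card_perm]; simp
  exact ⟨MulEquiv.ofBijective ρ ((Nat.bijective_iff_injective_and_card ρ).mpr ⟨hinj, hcard⟩)⟩

/-- A subgroup containing all squares and missing `y`: there is a character nontrivial on `y`. -/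
theorem exists_char_of_squares {T : Type*} [Group T] (M : Subgroup T) (hM : ∀ g : T, g * g ∈ M)
    {y : T} (hy : y ∉ M) : ∃ l : T →* Multiplicative (ZMod 2), l y ≠ 1 := by
  have hn : M.Normal := ⟨fun x hx g => by
    have : g * x * g⁻¹ = (g * x) * (g * x) * x⁻¹ * (g⁻¹ * g⁻¹) := by group
    rw [this]
    exact M.mul_mem (M.mul_mem (hM _) (M.inv_mem hx)) (hM _)⟩
  have hsq : ∀ q : T ⧸ M, q * q = 1 := by
    intro q
    induction q using QuotientGroup.induction_on with
    | H g =>
      rw [← QuotientGroup.mk_mul, QuotientGroup.eq_one_iff]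
      exact hM g
  have hcomm : ∀ a b : T ⧸ M, a * b = b * a := by
    intro a b
    have h1 := hsq (a * b)
    have h2 := hsq a
    have h3 := hsq b
    calc a * b = a * (a * b * (a * b)) * b := by rw [h1]; group
      _ = (a * a) * b * a * (b * b) := by group
      _ = b * a := by rw [h2, h3]; group
  letI : CommGroup (T ⧸ M) := { (inferInstance : Group (T ⧸ M)) with mul_comm := hcomm }
  letI : Module (ZMod 2) (Additive (T ⧸ M)) := AddCommGroup.zmodModule (n := 2) (fun x => by
    rw [two_nsmul]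
    exact hsq (Additive.toMul x))
  have hne : Additive.ofMul (QuotientGroup.mk y : T ⧸ M) ≠ 0 := by
    intro h
    have h1 : (QuotientGroup.mk y : T ⧸ M) = 1 := h
    exact hy ((QuotientGroup.eq_one_iff y).1 h1)
  obtain ⟨f, hf⟩ := Module.Projective.exists_dual_ne_zero (ZMod 2) hne
  refine ⟨{ toFun := fun g => Multiplicative.ofAdd (f (Additive.ofMul (QuotientGroup.mk g : T ⧸ M)))
            map_one' := ?_
            map_mul' := ?_ }, ?_⟩
  · have : Additive.ofMul (QuotientGroup.mk 1 : T ⧸ M) = 0 := rfl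
    simp only [this, map_zero]
    rfl
  · intro a b
    have : Additive.ofMul (QuotientGroup.mk (a * b) : T ⧸ M) =
        Additive.ofMul (QuotientGroup.mk a : T ⧸ M) + Additive.ofMul (QuotientGroup.mk b : T ⧸ M) := rfl
    simp only [this, map_add]
    rfl
  · intro h
    exact hf (Multiplicative.ofAdd.injective h)

/-- Transfer: a character of a subgroup of odd index nontrivial on a central involution extends,
at that element, to a character of the whole group. -/
theorem exists_char_of_transfer {H : Type*} [Group H] [Finite H] (T : Subgroup H)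
    (hT : Odd T.index) {y : H} (hy : ∀ g, g * y = y * g) (hy2 : y * y = 1) (hyT : y ∈ T)
    (l : T →* Multiplicative (ZMod 2)) (hl : l ⟨y, hyT⟩ ≠ 1) :
    ∃ χ : H →* Multiplicative (ZMod 2), χ y ≠ 1 := by
  haveI : T.FiniteIndex := ⟨by
    obtain ⟨m, hm⟩ := hT
    omega⟩
  refine ⟨l.transfer, ?_⟩
  have key : ∀ (k : ℕ) (g₀ : H), g₀⁻¹ * y ^ k * g₀ ∈ T → g₀⁻¹ * y ^ k * g₀ = y ^ k := by
    intro k g₀ _
    have h1 : Commute g₀ y := hy g₀
    have h2 : Commute g₀ (y ^ k) := h1.pow_right k
    calc g₀⁻¹ * y ^ k * g₀ = g₀⁻¹ * (y ^ k * g₀) := by group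
      _ = g₀⁻¹ * (g₀ * y ^ k) := by rw [h2.eq]
      _ = y ^ k := by group
  rw [MonoidHom.transfer_eq_pow l y key]
  obtain ⟨m, hm⟩ := hT
  have hp : y ^ T.index = y := by
    rw [hm, pow_succ, pow_mul, pow_two, hy2, one_pow, one_mul]
  have : (⟨y ^ T.index, MonoidHom.transfer_eq_pow_aux y key⟩ : T) = ⟨y, hyT⟩ := Subtype.ext hp
  rw [this]
  exact hl

theorem C2_cases (e : Multiplicative (ZMod 2)) : e = 1 ∨ e = Multiplicative.ofAdd 1 := by
  revert e; decide

theorem C2_eq_of_ne_one {a b : Multiplicative (ZMod 2)} (ha : a ≠ 1) (hb : b ≠ 1) : a = b := by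
  rcases C2_cases a with h | h
  · exact absurd h ha
  rcases C2_cases b with h' | h'
  · exact absurd h' hb
  rw [h, h']

theorem C2_mul_self (a : Multiplicative (ZMod 2)) : a * a = 1 := by
  revert a; decide

/-- Splitting off a central involution detected by a character. -/
theorem prod_of_char {H : Type*} [Group H] (χ : H →* Multiplicative (ZMod 2)) {y : H}
    (hy : ∀ g, g * y = y * g) (hy2 : y * y = 1) (hχ : χ y ≠ 1) :
    Nonempty (H ≃* χ.ker × Multiplicative (ZMod 2)) := by
  classical
  let τ : Multiplicative (ZMod 2) → H := fun e => if e = 1 then 1 else y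
  have hτ1 : τ 1 = 1 := by simp [τ]
  have hτy : ∀ e, e ≠ 1 → τ e = y := by
    intro e he; simp [τ, he]
  have hτc : ∀ e g, g * τ e = τ e * g := by
    intro e g
    by_cases he : e = 1
    · simp [he, hτ1]
    · rw [hτy e he]; exact hy g
  have hτm : ∀ a b, τ (a * b) = τ a * τ b := by
    intro a b
    by_cases ha : a = 1
    · simp [ha, hτ1]
    by_cases hb : b = 1
    · simp [hb, hτ1]
    have : a * b = 1 := by rw [C2_eq_of_ne_one ha hb, C2_mul_self]
    rw [this, hτ1, hτy a ha, hτy b hb, hy2]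
  have hχτ : ∀ e, χ (τ e) = e := by
    intro e
    by_cases he : e = 1
    · simp [he, hτ1]
    · rw [hτy e he]; exact C2_eq_of_ne_one hχ he
  let φ : χ.ker × Multiplicative (ZMod 2) →* H :=
    { toFun := fun p => (p.1 : H) * τ p.2
      map_one' := by simp [hτ1]
      map_mul' := by
        rintro ⟨a, e⟩ ⟨b, f⟩
        simp only [Prod.mk_mul_mk, Subgroup.coe_mul, hτm]
        calc (a : H) * b * (τ e * τ f) = a * (b * τ e) * τ f := by group
          _ = a * (τ e * b) * τ f := by rw [hτc e (b : H)]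
          _ = a * τ e * (b * τ f) := by group }
  have hinj : Function.Injective φ := by
    rw [injective_iff_map_eq_one]
    rintro ⟨a, e⟩ h
    have h1 : (a : H) * τ e = 1 := h
    have h2 : χ ((a : H) * τ e) = 1 := by rw [h1, map_one]
    rw [map_mul, hχτ, MonoidHom.mem_ker.1 a.2, one_mul] at h2
    subst h2
    rw [hτ1, mul_one] at h1
    exact Prod.ext (Subtype.ext h1) rfl
  have hsurj : Function.Surjective φ := by
    intro g
    refine ⟨⟨⟨g * (τ (χ g))⁻¹, ?_⟩, χ g⟩, ?_⟩
    · rw [MonoidHom.mem_ker, map_mul, map_inv, hχτ, mul_inv_cancel]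
    · change g * (τ (χ g))⁻¹ * τ (χ g) = g
      group
  exact ⟨(MulEquiv.ofBijective φ ⟨hinj, hsurj⟩).symm⟩

/-- An element of order three fixing a nontrivial element of a normal four-subgroup fixes all. -/
theorem fix_or_all {X : Type*} [Group X] [Finite X] (W : Subgroup X)
    (hn : ∀ g : X, ∀ v ∈ W, g * v * g⁻¹ ∈ W) (hW : Nat.card W = 4) {k : X} (hk3 : k ^ 3 = 1)
    (hk1 : k ≠ 1) {v : X} (hv : v ∈ W) (hv1 : v ≠ 1) (hkv : k * v = v * k) :
    ∀ a ∈ W, k * a = a * k := by
  classical
  haveI : Fact (Nat.Prime 3) := ⟨Nat.prime_three⟩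
  let P := Subgroup.zpowers k
  have hord : orderOf k = 3 := orderOf_eq_prime hk3 hk1
  have hP : IsPGroup 3 P := IsPGroup.of_card (n := 1) (by
    rw [Nat.card_zpowers, hord]; norm_num)
  letI := conjActOn P W (fun s _ t ht => hn s t ht)
  have hmod := hP.card_modEq_card_fixedPoints W
  rw [hW] at hmod
  have hcard : Nat.card (MulAction.fixedPoints P W) ≤ 4 := by
    rw [← hW]
    exact Nat.card_le_card_of_injective _ Subtype.val_injective
  have hone : (1 : W) ∈ MulAction.fixedPoints P W := by
    intro s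
    apply Subtype.ext
    change (s : X) * ((1 : W) : X) * (s : X)⁻¹ = ((1 : W) : X)
    simp
  have hvm : (⟨v, hv⟩ : W) ∈ MulAction.fixedPoints P W := by
    rintro ⟨s, hs⟩
    apply Subtype.ext
    obtain ⟨n, rfl⟩ := Subgroup.mem_zpowers_iff.1 hs
    change k ^ n * v * (k ^ n)⁻¹ = v
    have h1 : Commute k v := hkv
    have h2 : Commute (k ^ n) v := h1.zpow_left n
    rw [h2.eq]
    group
  have hne : (⟨1, hone⟩ : MulAction.fixedPoints P W) ≠ ⟨⟨v, hv⟩, hvm⟩ := by
    intro h
    have h1 : ((1 : W) : X) = v := congrArg (fun z : MulAction.fixedPoints P W => ((z : W) : X)) h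
    exact hv1 h1.symm
  have h2 : 1 < Nat.card (MulAction.fixedPoints P W) := by
    rw [Finite.one_lt_card_iff_nontrivial]
    exact ⟨⟨_, _, hne⟩⟩
  have h4 : Nat.card (MulAction.fixedPoints P W) = 4 := by
    have h5 : Nat.card (MulAction.fixedPoints P W) % 3 = 1 := hmod.symm
    omega
  have hall : MulAction.fixedPoints P W = Set.univ := by
    apply Set.eq_of_subset_of_ncard_le (Set.subset_univ _)
    rw [Set.ncard_univ, hW]
    have : (MulAction.fixedPoints P W).ncard = 4 := h4
    omega
  intro a ha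
  have h6 : (⟨a, ha⟩ : W) ∈ MulAction.fixedPoints P W := by rw [hall]; trivial
  have h7 := h6 ⟨k, Subgroup.mem_zpowers k⟩
  have h8 : k * a * k⁻¹ = a := congrArg Subtype.val h7
  calc k * a = k * a * k⁻¹ * k := by group
    _ = a * k := by rw [h8]

/-! ### The dihedral group of order twelve -/

/-- Explicit map from the dihedral group of order twelve to `S₃ × C₂`. -/
def d6f : DihedralGroup 6 → Equiv.Perm (Fin 3) × Multiplicative (ZMod 2)
  | .r i => ((finRotate 3) ^ i.val, Multiplicative.ofAdd ((i.val : ℕ) : ZMod 2))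
  | .sr i => (Equiv.swap 0 1 * (finRotate 3) ^ i.val, Multiplicative.ofAdd ((i.val : ℕ) : ZMod 2))

theorem d6f_mul : ∀ a b, d6f (a * b) = d6f a * d6f b := by
  decide +kernel

theorem d6f_bij : Function.Bijective d6f := by
  decide +kernel

/-- `S₃ × C₂` is dihedral of order twelve. -/
theorem nonempty_d6 : Nonempty (Equiv.Perm (Fin 3) × Multiplicative (ZMod 2) ≃* DihedralGroup 6) :=
  ⟨(MulEquiv.ofBijective (MonoidHom.mk' d6f d6f_mul) d6f_bij).symm⟩

/-- Recognition of the dihedral group of order twelve. -/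
theorem D6rec {H X : Type*} [Group H] [Finite H] [MulAction H X] [Finite X]
    (hH : Nat.card H = 12) (hX : Nat.card X = 3) {k : H} (hk : ∀ g, g * k = k * g) (hk2 : k * k = 1)
    (hker : ∀ g : H, (∀ x : X, g • x = x) → g = 1 ∨ g = k)
    (χ : H →* Multiplicative (ZMod 2)) (hχ : χ k ≠ 1) : Nonempty (H ≃* DihedralGroup 6) := by
  obtain ⟨e⟩ := prod_of_char χ hk hk2 hχ
  have hcard : Nat.card χ.ker * 2 = 12 := by
    have h1 := Nat.card_congr e.toEquiv
    rw [Nat.card_prod, hH] at h1
    have h2 : Nat.card (Multiplicative (ZMod 2)) = 2 := by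
      rw [Nat.card_eq_fintype_card]; decide
    rw [h2] at h1
    exact h1.symm
  haveI : FaithfulSMul χ.ker X := ⟨by
    intro a b hab
    have h1 : ∀ x : X, ((a : H) * (b : H)⁻¹) • x = x := by
      intro x
      rw [mul_smul]
      have := hab ((b : H)⁻¹ • x)
      have h2 : (b : H) • ((b : H)⁻¹ • x) = x := smul_inv_smul _ _
      have h3 : a • ((b : H)⁻¹ • x) = (a : H) • ((b : H)⁻¹ • x) := rfl
      have h4 : b • ((b : H)⁻¹ • x) = (b : H) • ((b : H)⁻¹ • x) := rfl
      rw [h3, h4, h2] at this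
      exact this
    rcases hker _ h1 with h2 | h2
    · exact Subtype.ext (mul_inv_eq_one.1 h2)
    · exfalso
      apply hχ
      rw [← h2, map_mul, map_inv, MonoidHom.mem_ker.1 a.2, MonoidHom.mem_ker.1 b.2]
      simp⟩
  obtain ⟨e2⟩ := perm_iso_of_faithful (H := χ.ker) (X := X) 3 hX (by
    have : Nat.card χ.ker = 6 := by omega
    rw [this]; rfl)
  obtain ⟨e3⟩ := nonempty_d6
  exact ⟨e.trans ((e2.prodCongr (MulEquiv.refl _)).trans e3)⟩

end Sims3
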