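import Mathlib
import Cfsg.Agent.Lib.Sims3F
import Cfsg.Agent.Lib.Sims3G

/-!
# Suborbit of length three: isomorphism type in case A
-/

set_option autoImplicit false

namespace Sims3

open MulAction Cub Cb

variable {G Ω : Type*} [Group G] [MulAction G Ω]

theorem two_mul_le_of_lt [Finite G] {A B : Subgroup G} (h : A ≤ B) (hne : A ≠ B) :
    2 * Nat.card A ≤ Nat.card B := by
  obtain ⟨m, hm⟩ := Subgroup.card_dvd_of_le h
  have hA : 0 < Nat.card A := Nat.card_pos
  have hB : 0 < Nat.card B := Nat.card_pos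
  rcases m with _ | _ | m
  · simp at hm; omega
  · apply absurd _ hne
    exact Subgroup.eq_of_le_of_card_ge h (by rw [hm]; simp)
  · rw [hm]
    nlinarith

theorem exists_of_card_two {A : Subgroup G} (h : Nat.card A = 2) :
    ∃ a ∈ A, a ≠ 1 ∧ a * a = 1 ∧ ∀ g ∈ A, g = 1 ∨ g = a := by
  obtain ⟨⟨a, ha⟩, ha1, huniq⟩ := (Nat.card_eq_two_iff' (1 : A)).1 h
  have ha1' : a ≠ 1 := fun h => ha1 (Subtype.ext h)
  have hall : ∀ g ∈ A, g = 1 ∨ g = a := by
    intro g hg
    by_cases hg1 : g = 1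
    · exact Or.inl hg1
    · right
      have := huniq ⟨g, hg⟩ (fun h => hg1 (congrArg Subtype.val h))
      exact congrArg Subtype.val this
  refine ⟨a, ha, ha1', ?_, hall⟩
  rcases hall (a * a) (A.mul_mem ha ha) with h1 | h1
  · exact h1
  · exfalso
    apply ha1'
    exact mul_left_cancel (a := a) (by rw [h1, mul_one])

namespace Cub

variable (D : Cub G Ω)

/-- The action of a point stabilizer on out-neighbours. -/
def outAct (u : Ω) : SubMulAction (D.St u) Ω where
  carrier := {w | D.R u w}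
  smul_mem' := by
    intro g w hw
    have h := D.smul (g : G) hw
    have h2 : (g : G) • u = u := g.2
    rw [h2] at h
    exact h

theorem card_outAct (u : Ω) : Nat.card (D.outAct u) = 3 := by
  classical
  obtain ⟨y₀, hy₀⟩ := D.ex_out u
  obtain ⟨a, b, h1, h2, h3, hall⟩ := D.out3 hy₀
  have hset : ({y₀, a, b} : Set Ω).ncard = 3 := Set.ncard_eq_three.2 ⟨y₀, a, b, h1, h2, h3, rfl⟩
  rw [← hset, ← Nat.card_coe_set_eq]
  apply Nat.card_congr
  apply Equiv.subtypeEquivRight
  intro z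
  change D.R u z ↔ z ∈ ({y₀, a, b} : Set Ω)
  rw [hall z]
  simp

variable {D}

theorem outAct_triv {u : Ω} {g : D.St u} (h : ∀ x : D.outAct u, g • x = x) : (g : G) ∈ D.K u := by
  refine ⟨g.2, fun w hw => ?_⟩
  exact congrArg Subtype.val (h ⟨w, hw⟩)

end Cub

namespace Cb

variable {D : Cb G Ω}

theorem Fl.K_ne [Finite G] {x : Ω} {S : Subgroup G} (h : D.Fl x S) : D.K x ≠ S := by
  intro h1
  obtain ⟨s, hs, hsK⟩ := h.exists_not_K
  exact hsK (h1 ▸ hs)

/-- The flag has order twice that of the kernel. -/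
theorem Fl.card_eq_two_mul [Finite G] {x : Ω} {S : Subgroup G} (h : D.Fl x S) :
    Nat.card S = 2 * Nat.card (D.K x) := by
  have h1 : Nat.card S ≤ 2 * Nat.card (S ⊓ D.K x : Subgroup G) :=
    card_le_two_mul_inf le_rfl (fun s hs t ht h1 h2 => h.index2 hs ht h1 h2)
  rw [inf_eq_right.2 h.K_le] at h1
  have h2 := two_mul_le_of_lt h.K_le h.K_ne
  omega

theorem card_K_eq [Finite G] {x y : Ω} : Nat.card (D.K x) = Nat.card (D.K y) := by
  obtain ⟨g, rfl⟩ := D.toCub.exists_smul_eq x y
  rw [K_smul, card_cj]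

theorem flag_subgroupOf_index [Finite G] {x : Ω} {S : Subgroup G} (h : D.Fl x S) :
    (S.subgroupOf (D.St x)).index = 3 := by
  have h1 := Subgroup.card_mul_index (S.subgroupOf (D.St x))
  have h2 : Nat.card (S.subgroupOf (D.St x)) = Nat.card S :=
    Nat.card_congr (Subgroup.subgroupOfEquivOfLe h.le_St).toEquiv
  rw [h2, h.card_St] at h1
  have hpos : 0 < Nat.card S := Nat.card_pos
  have h3 : Nat.card S * (S.subgroupOf (D.St x)).index = Nat.card S * 3 := by rw [h1]; ring
  exact Nat.eq_of_mul_eq_mul_left hpos h3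

/-- The kernels of an arc meet trivially in case A. -/
theorem caseA_inf [Finite G] (hA : ∀ x S, D.Fl x S → ¬ Zc S ≤ D.K x) {u w : Ω} (huw : D.R u w) :
    D.K u ⊓ D.K w = ⊥ := by
  have hS : D.Fl u (D.C u w) := fl_out huw
  have hS' : D.Fl w (D.C u w) := fl_in huw
  by_contra hne
  obtain ⟨k, hk⟩ := hS.two
  obtain ⟨z, hz, hz1, hz2⟩ := exists_fixed_of_two_group (X := D.K u ⊓ D.K w) hk
    (inf_le_left.trans hS.K_le)
    (fun s hs t ht => ⟨K_normal (hS.le_St hs) ht.1, K_normal (hS'.le_St hs) ht.2⟩) hne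
  apply hz1
  apply D.toCub.central_two (D.ne huw) (D.K_le_St u hz.1)
  · exact caseA_comm hA hz.1 (fun k hk => hz2 k (hS.K_le hk))
  · exact caseA_comm hA hz.2 (fun k hk => hz2 k (hS'.K_le hk))

/-- The isomorphism type in case A. -/
theorem caseA_iso [Finite G] (hA : ∀ x S, D.Fl x S → ¬ Zc S ≤ D.K x) {u w : Ω} (huw : D.R u w) :
    Nonempty (D.St u ≃* Equiv.Perm (Fin 3)) ∨ Nonempty (D.St u ≃* DihedralGroup 6) := by
  have hS : D.Fl u (D.C u w) := fl_out huw
  have hS' : D.Fl w (D.C u w) := fl_in huw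
  have h4 := caseA hA huw
  obtain ⟨j, hj⟩ := hS.two
  have h2K := hS.card_eq_two_mul
  have hKpos : 0 < Nat.card (D.K u) := Nat.card_pos
  have hcases : Nat.card (D.K u) = 1 ∨ Nat.card (D.K u) = 2 := by
    have hj2 : j ≤ 2 := by
      by_contra hj3
      have : 2 ^ 3 ≤ 2 ^ j := Nat.pow_le_pow_right (by norm_num) (by omega)
      omega
    interval_cases j <;> omega
  have hSt := hS.card_St
  haveI : Finite (D.outAct u) :=
    Nat.finite_of_card_ne_zero (by rw [D.toCub.card_outAct u]; norm_num)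
  rcases hcases with h1 | h1
  · left
    have hbot : D.K u = ⊥ := Subgroup.card_eq_one.1 h1
    haveI : FaithfulSMul (D.St u) (D.outAct u) := ⟨by
      intro a b hab
      have h5 : ∀ x : D.outAct u, (a * b⁻¹) • x = x := by
        intro x
        rw [mul_smul, hab, smul_inv_smul]
      have h6 := outAct_triv h5
      rw [hbot, Subgroup.mem_bot] at h6
      exact mul_inv_eq_one.1 (Subtype.ext h6)⟩
    apply perm_iso_of_faithful 3 (D.toCub.card_outAct u)
    rw [hSt, h2K, h1]
    rfl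
  · right
    obtain ⟨k₀, hk₀, hk₀1, hk₀2, hk₀all⟩ := exists_of_card_two h1
    have hk₁card : Nat.card (D.K w) = 2 := by rw [card_K_eq (y := u), h1]
    obtain ⟨k₁, hk₁, hk₁1, hk₁2, hk₁all⟩ := exists_of_card_two hk₁card
    have hinf := caseA_inf hA huw
    have hk₁K : k₁ ∉ D.K u := by
      intro h
      have : k₁ ∈ D.K u ⊓ D.K w := ⟨h, hk₁⟩
      rw [hinf, Subgroup.mem_bot] at this
      exact hk₁1 this
    have hcen : ∀ g ∈ D.St u, g * k₀ = k₀ * g := by
      intro g hg
      have h5 := K_normal hg hk₀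
      rcases hk₀all _ h5 with h6 | h6
      · exfalso
        apply hk₀1
        have : k₀ = g⁻¹ * (g * k₀ * g⁻¹) * g := by group
        rw [this, h6]; group
      · calc g * k₀ = (g * k₀ * g⁻¹) * g := by group
          _ = k₀ * g := by rw [h6]
    have hk₁S : k₁ ∈ D.C u w := hS'.K_le hk₁
    have hsq : ∀ g ∈ D.C u w, g * g = 1 := by
      intro g hg
      by_cases hgK : g ∈ D.K u
      · rcases hk₀all g hgK with rfl | rfl
        · simp
        · exact hk₀2
      · have h5 := hS.index2 hg hk₁S hgK hk₁K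
        have hcomm : g * k₁⁻¹ * k₁ = k₁ * (g * k₁⁻¹) := by
          rcases hk₀all _ h5 with h6 | h6
          · rw [h6]; group
          · rw [h6]; exact (hcen k₁ (hS.le_St hk₁S)).symm
        have hee : g * k₁⁻¹ * (g * k₁⁻¹) = 1 := by
          rcases hk₀all _ h5 with h6 | h6
          · rw [h6]; group
          · rw [h6]; exact hk₀2
        calc g * g = (g * k₁⁻¹ * k₁) * (g * k₁⁻¹ * k₁) := by group
          _ = (g * k₁⁻¹) * (k₁ * (g * k₁⁻¹)) * k₁ := by group
          _ = (g * k₁⁻¹) * (g * k₁⁻¹ * k₁) * k₁ := by rw [hcomm]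
          _ = (g * k₁⁻¹ * (g * k₁⁻¹)) * (k₁ * k₁) := by group
          _ = 1 := by rw [hee, hk₁2]; group
    -- the character
    let yH : D.St u := ⟨k₀, D.K_le_St u hk₀⟩
    have hyT : yH ∈ (D.C u w).subgroupOf (D.St u) := hS.K_le hk₀
    have hy1 : (⟨yH, hyT⟩ : (D.C u w).subgroupOf (D.St u)) ∉
        (⊥ : Subgroup ((D.C u w).subgroupOf (D.St u))) := by
      rw [Subgroup.mem_bot]
      intro h
      exact hk₀1 (congrArg (fun z : (D.C u w).subgroupOf (D.St u) => ((z : D.St u) : G)) h)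
    obtain ⟨l, hl⟩ := exists_char_of_squares (T := (D.C u w).subgroupOf (D.St u)) ⊥ (by
      intro g
      rw [Subgroup.mem_bot]
      apply Subtype.ext
      apply Subtype.ext
      exact hsq _ g.2) hy1
    have hyc : ∀ g : D.St u, g * yH = yH * g := fun g => Subtype.ext (hcen g g.2)
    have hy2 : yH * yH = 1 := Subtype.ext hk₀2
    obtain ⟨χ, hχ⟩ := exists_char_of_transfer ((D.C u w).subgroupOf (D.St u))
      (by rw [flag_subgroupOf_index hS]; decide) hyc hy2 hyT l hl
    refine D6rec (X := D.outAct u) ?_ (D.toCub.card_outAct u) hyc hy2 ?_ χ hχ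
    · rw [hSt, h2K, h1]
    · intro g hg
      rcases hk₀all _ (outAct_triv hg) with h6 | h6
      · exact Or.inl (Subtype.ext h6)
      · exact Or.inr (Subtype.ext h6)

end Cb

end Sims3
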