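import Mathlib
import Cfsg.Agent.Lib.Sims3H
import Cfsg.Agent.Lib.FFS4

/-!
# Suborbit of length three: isomorphism type in case B
-/

set_option autoImplicit false

namespace Sims3

open MulAction Cub Cb Cc

variable {G Ω : Type*} [Group G] [MulAction G Ω]

theorem cj_eq_of_comm {A : Subgroup G} {g : G} (h : ∀ a ∈ A, g * a = a * g) : cj g A = A := by
  ext z
  rw [mem_cj]
  constructor
  · intro hz
    have h1 := h _ hz
    have h2 : g⁻¹ * z * g = z := by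
      have h3 : g * (g⁻¹ * z * g) = z * g := by group
      rw [h3] at h1
      exact (mul_right_cancel h1).symm
    rwa [h2] at hz
  · intro hz
    have h1 := h z hz
    have h2 : g⁻¹ * z * g = z := by
      calc g⁻¹ * z * g = g⁻¹ * (z * g) := by group
        _ = g⁻¹ * (g * z) := by rw [h1]
        _ = z := by group
    rwa [h2]

namespace Cub

variable {D : Cub G Ω}

theorem exists_third {u w₁ w₂ : Ω} (h1 : D.R u w₁) (h2 : D.R u w₂) (hne : w₁ ≠ w₂) :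
    ∃ w₃, D.R u w₃ ∧ w₁ ≠ w₃ ∧ w₂ ≠ w₃ ∧ ∀ z, D.R u z → z = w₁ ∨ z = w₂ ∨ z = w₃ := by
  obtain ⟨a, b, n1, n2, n3, hall⟩ := D.out3 h1
  rcases (hall w₂).1 h2 with h | h | h
  · exact absurd h.symm hne
  · subst h
    exact ⟨b, (hall b).2 (Or.inr (Or.inr rfl)), n2, n3, fun z hz => (hall z).1 hz⟩
  · subst h
    refine ⟨a, (hall a).2 (Or.inr (Or.inl rfl)), n1, n3.symm, fun z hz => ?_⟩
    rcases (hall z).1 hz with h | h | h
    · exact Or.inl h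
    · exact Or.inr (Or.inr h)
    · exact Or.inr (Or.inl h)

end Cub

namespace Cd

variable {D : Cd G Ω} [Finite G] (hd : D.d = 0)

include hd

/-- Distinct flags at a point have distinct centers. -/
theorem Z_inj {u w₁ w₂ : Ω} (h1 : D.R u w₁) (h2 : D.R u w₂)
    (hZ : Zc (D.C u w₁) = Zc (D.C u w₂)) : w₁ = w₂ := by
  by_contra hne
  obtain ⟨w₃, hw₃, n13, n23, hall⟩ := exists_third h1 h2 hne
  obtain ⟨c, hP⟩ := pair1 hd h1
  obtain ⟨t, ht, htK⟩ := SetLike.not_le_iff_exists.1 hP.ny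
  have htC : t ∈ D.C u w₁ := K_le_C_in h1 (V_le_K ht)
  have hsw : t • w₂ = w₃ := swap_of_not_K htC htK h1 h2 hw₃ hne n13 n23
  have hZ3 : Zc (D.C u w₃) = Zc (D.C u w₁) := by
    have h3 : D.C u w₃ = cj t (D.C u w₂) := by
      have := C_smul (D := D.toCub) t u w₂
      rwa [htC.1, hsw] at this
    rw [h3, Zc_cj, ← hZ, ← Zc_cj, cj_self_of_mem htC]
  have hVle : D.V u ≤ Zc (D.C u w₁) := by
    unfold V
    rw [Subgroup.closure_le]
    rintro z ⟨S, ⟨w, hw, rfl⟩, hz⟩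
    rcases hall w hw with rfl | rfl | rfl
    · exact hz
    · rw [hZ]; exact hz
    · rw [← hZ3]; exact hz
  obtain ⟨a, ha, hne2⟩ := ncp (fl_out h1) htC htK
  exact hne2 ((mem_Zc.1 (hVle ha)).2 t htC)

/-- An element of a point stabilizer centralizing `V` lies in `K`. -/
theorem selfcent {u : Ω} {g : G} (hg : g ∈ D.St u) (hc : ∀ v ∈ D.V u, g * v = v * g) :
    g ∈ D.K u := by
  refine ⟨hg, fun w hw => ?_⟩
  have h1 : D.R u (g • w) := by
    have := D.toCub.smul g hw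
    rwa [mem_St.1 hg] at this
  apply Z_inj hd h1 hw
  have h2 := C_smul (D := D.toCub) g u w
  rw [mem_St.1 hg] at h2
  rw [h2, Zc_cj]
  exact cj_eq_of_comm (fun a ha => hc a (Zc_le_V (fl_out hw) ha))

theorem card_Z_eq {u w₁ w₂ : Ω} (h1 : D.R u w₁) (h2 : D.R u w₂) :
    Nat.card (Zc (D.C u w₁)) = Nat.card (Zc (D.C u w₂)) := by
  obtain ⟨g, -, hg⟩ := (fl_out h1 : D.Fl u _).trans (fl_out h2 : D.Fl u _)
  rw [← hg, Zc_cj, card_cj]

/-- The count `|V : Y| ≥ 4`. -/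
theorem card_V_ge {u w₁ w₂ : Ω} (h1 : D.R u w₁) (h2 : D.R u w₂) (hne : w₁ ≠ w₂) :
    4 * Nat.card (Zc (D.C u w₁) ⊓ Zc (D.C u w₂) : Subgroup G) ≤ Nat.card (D.V u) := by
  have h3 : 2 * Nat.card (Zc (D.C u w₁) ⊓ Zc (D.C u w₂) : Subgroup G) ≤
      Nat.card (Zc (D.C u w₁)) := by
    apply two_mul_le_of_lt inf_le_left
    intro h
    have h4 : Zc (D.C u w₁) ≤ Zc (D.C u w₂) := by
      rw [← h]; exact inf_le_right
    exact hne (Z_inj hd h1 h2 (Subgroup.eq_of_le_of_card_ge h4 (card_Z_eq hd h2 h1).le))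
  have h5 : 2 * Nat.card (Zc (D.C u w₁)) ≤ Nat.card (D.V u) := by
    apply two_mul_le_of_lt (Zc_le_V (fl_out h1))
    intro h
    obtain ⟨s, hs, hsK⟩ := (fl_out h1 : D.Fl u _).exists_not_K
    obtain ⟨a, ha, hne2⟩ := ncp (fl_out h1) hs hsK
    rw [← h] at ha
    exact hne2 ((mem_Zc.1 ha).2 s hs)
  omega

theorem card_K_le {u : Ω} : Nat.card (D.K u) ≤ 8 := by
  obtain ⟨w, hw⟩ := D.ex_out u
  have h1 := card_bound hd hw
  have h2 := (fl_out hw : D.Fl u _).card_eq_two_mul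
  omega

/-- If `|K| = 8` then `Y ≠ 1`. -/
theorem exists_Y {u w w₂ : Ω} (h1 : D.R u w) (h2 : D.R u w₂) (hne : w ≠ w₂)
    (h8 : Nat.card (D.K u) = 8) : ∃ z ∈ (Zc (D.C u w) ⊓ Zc (D.C u w₂) : Subgroup G), z ≠ 1 := by
  obtain ⟨w₃, hw₃, n13, n23, hall⟩ := exists_third h1 h2 hne
  have hS : D.Fl u (D.C u w) := fl_out h1
  have hS' : D.Fl w (D.C u w) := fl_in h1
  have c2 : Nat.card (D.K u) ≤ 2 * Nat.card (D.K u ⊓ D.K w : Subgroup G) :=
    card_le_two_mul_inf hS.K_le (fun s hs t ht h1 h2 => hS'.index2 hs ht h1 h2)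
  have c3 : Nat.card (D.K u ⊓ D.K w : Subgroup G) ≤
      2 * Nat.card (D.K u ⊓ D.K w ⊓ D.K w₂ : Subgroup G) :=
    card_le_two_mul_inf (H := D.C u w₂) (inf_le_left.trans (K_le_C h2))
      (fun s hs t ht a1 a2 => (fl_in h2 : D.Fl w₂ _).index2 hs ht a1 a2)
  have hne2 : (D.K u ⊓ D.K w ⊓ D.K w₂ : Subgroup G) ≠ ⊥ := by
    intro h
    rw [h, Subgroup.card_bot] at c3
    omega
  have hO : ∀ t ∈ (D.K u ⊓ D.K w ⊓ D.K w₂ : Subgroup G), ∀ w', D.R u w' → t ∈ D.K w' := by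
    rintro t ⟨⟨-, h3⟩, h4⟩ w' hw'
    rcases hall w' hw' with rfl | rfl | rfl
    · exact h3
    · exact h4
    · exact K3_out hd h1 h2 hw₃ hne n13 n23 h3 h4
  obtain ⟨k, hk⟩ := hS.two
  obtain ⟨z, hz, hz1, hz2⟩ := exists_fixed_of_two_group (X := D.K u ⊓ D.K w ⊓ D.K w₂) hk
    (fun t ht => hS.K_le ht.1.1) (by
      intro s hs t ht
      have hconj : ∀ {v : Ω}, t ∈ D.K (s⁻¹ • v) → s * t * s⁻¹ ∈ D.K v := by
        intro v hv
        have := (conj_mem_cj (g := s) (s := t) (S := D.K (s⁻¹ • v))).2 hv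
        rwa [← K_smul, smul_inv_smul] at this
      have hs1 : s⁻¹ • u = u := by rw [inv_smul_eq_iff, hs.1]
      refine ⟨⟨K_normal hs.1 ht.1.1, K_normal hs.2 ht.1.2⟩, hconj (hO t ht _ ?_)⟩
      have := D.toCub.smul s⁻¹ h2
      rwa [hs1] at this) hne2
  have hzZ : z ∈ Zc (D.C u w) := mem_Zc.2 ⟨hS.K_le hz.1.1, hz2⟩
  obtain ⟨c, hP⟩ := pair1 hd h2
  exact ⟨z, ⟨hzZ, (hP.Zx z).2 ⟨Zc_le_V hS hzZ, hz.2⟩⟩, hz1⟩

/-- The structure of `K` in case B. -/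
theorem structure_B {u w w₂ : Ω} (h1 : D.R u w) (h2 : D.R u w₂) (hne : w ≠ w₂) :
    D.V u = D.K u ∧ (Nat.card (D.K u) = 4 ∨ (Nat.card (D.K u) = 8 ∧
      ∃ y ∈ (Zc (D.C u w) ⊓ Zc (D.C u w₂) : Subgroup G), y ≠ 1 ∧
        Nat.card (Zc (D.C u w) ⊓ Zc (D.C u w₂) : Subgroup G) = 2)) := by
  have hS : D.Fl u (D.C u w) := fl_out h1
  have c1 := card_V_ge hd h1 h2 hne
  have c2 : Nat.card (D.V u) ≤ Nat.card (D.K u) := Nat.card_le_card_of_injective _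
    (Subgroup.inclusion_injective V_le_K)
  have c3 := card_K_le hd (D := D) (u := u)
  have hYpos : 0 < Nat.card (Zc (D.C u w) ⊓ Zc (D.C u w₂) : Subgroup G) := Nat.card_pos
  obtain ⟨j, hj⟩ := hS.two
  have hdvd : Nat.card (D.K u) ∣ 2 ^ j := by
    rw [← hj]; exact Subgroup.card_dvd_of_le hS.K_le
  obtain ⟨i, -, hi⟩ := (Nat.dvd_prime_pow Nat.prime_two).1 hdvd
  have hcases : Nat.card (D.K u) = 4 ∨ Nat.card (D.K u) = 8 := by
    have hi3 : i ≤ 3 := by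
      by_contra h
      have : 2 ^ 4 ≤ 2 ^ i := Nat.pow_le_pow_right (by norm_num) (by omega)
      omega
    interval_cases i <;> omega
  rcases hcases with h4 | h8
  · refine ⟨Subgroup.eq_of_le_of_card_ge V_le_K (by omega), Or.inl h4⟩
  · obtain ⟨z, hz, hz1⟩ := exists_Y hd h1 h2 hne h8
    have hY2 : 2 ≤ Nat.card (Zc (D.C u w) ⊓ Zc (D.C u w₂) : Subgroup G) := by
      have hnt : Nontrivial (Zc (D.C u w) ⊓ Zc (D.C u w₂) : Subgroup G) :=
        ⟨⟨⟨z, hz⟩, 1, fun h => hz1 (congrArg Subtype.val h)⟩⟩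
      exact Finite.one_lt_card_iff_nontrivial.2 hnt
    refine ⟨Subgroup.eq_of_le_of_card_ge V_le_K (by omega), Or.inr ⟨h8, z, hz, hz1, by omega⟩⟩

/-- The constant of a flag is not central. -/
theorem const_not_central {u w : Ω} {c : G} (h : D.R u w)
    (hP : D.Pair u (D.C u w) w (D.C u w) c) : ¬ ∀ g ∈ D.St u, g * c = c * g := by
  intro hcen
  obtain ⟨n, hnu, hnS⟩ := (fl_out h : D.Fl u _).trans (fl_in h : D.Fl w _)
  have h1 := hP.cx.smul n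
  rw [hnu, hnS] at h1
  have h2 : c = n * c * n⁻¹ := const_unique (fl_in h) hP.cy h1
  apply hP.c_ne
  apply D.toCub.central_two (D.ne h) (C_le_St_left u w (Zc_le _ hP.c_S)) hcen
  intro g hg
  have hg' : n⁻¹ * g * n ∈ D.St u := by
    rw [← hnu, St_smul, mem_cj] at hg
    exact hg
  have h3 := hcen _ hg'
  have h4 : n * (n⁻¹ * g * n * c) * n⁻¹ = n * (c * (n⁻¹ * g * n)) * n⁻¹ := by rw [h3]
  have h5 : n * (n⁻¹ * g * n * c) * n⁻¹ = g * (n * c * n⁻¹) := by group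
  have h6 : n * (c * (n⁻¹ * g * n)) * n⁻¹ = (n * c * n⁻¹) * g := by group
  rw [h5, h6, ← h2] at h4
  exact h4

theorem idx {u w : Ω} (h : D.R u w) {a b : G} (ha : a ∈ D.V u) (hb : b ∈ D.V u)
    (ha' : a ∉ Zc (D.C u w)) (hb' : b ∉ Zc (D.C u w)) : a * b⁻¹ ∈ Zc (D.C u w) := by
  obtain ⟨c, hP⟩ := pair1 hd h
  have hle : D.V u ≤ D.C u w := V_le_flag (fl_out h)
  have h1 : a ∉ D.K w := fun h2 => ha' ((hP.Zx a).2 ⟨ha, h2⟩)
  have h2 : b ∉ D.K w := fun h2 => hb' ((hP.Zx b).2 ⟨hb, h2⟩)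
  have h3 := (fl_in h : D.Fl w _).index2 (hle ha) (hle hb) h1 h2
  exact (hP.Zx _).2 ⟨(D.V u).mul_mem ha ((D.V u).inv_mem hb), h3⟩

/-- `V` has exponent two as soon as `Y` does. -/
theorem V_sq {u w₁ w₂ : Ω} (h1 : D.R u w₁) (h2 : D.R u w₂) (hne : w₁ ≠ w₂)
    (hY : ∀ z ∈ (Zc (D.C u w₁) ⊓ Zc (D.C u w₂) : Subgroup G), z * z = 1) :
    ∀ a ∈ D.V u, a * a = 1 := by
  obtain ⟨c₁, hP₁⟩ := pair1 hd h1
  obtain ⟨c₂, hP₂⟩ := pair1 hd h2
  have hflag : D.C u w₁ ≠ D.C u w₂ := fun h => hne (D.ni h1 h2 h)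
  have hc₁V : c₁ ∈ D.V u := Zc_le_V (fl_out h1) hP₁.c_S
  have hc₂V : c₂ ∈ D.V u := Zc_le_V (fl_out h2) hP₂.c_S
  have hc₁2 : c₁ ∉ Zc (D.C u w₂) := by
    intro h
    apply const_not_central hd h1 hP₁
    exact comm_of_flags (fl_out h1) (fl_out h2) hflag (mem_Zc.1 hP₁.c_S).2 (mem_Zc.1 h).2
  have hc₂1 : c₂ ∉ Zc (D.C u w₁) := by
    intro h
    apply const_not_central hd h2 hP₂
    exact comm_of_flags (fl_out h1) (fl_out h2) hflag (mem_Zc.1 h).2 (mem_Zc.1 hP₂.c_S).2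
  have hA : ∀ a ∈ Zc (D.C u w₁), a * a = 1 := by
    intro a ha
    by_cases ha2 : a ∈ Zc (D.C u w₂)
    · exact hY a ⟨ha, ha2⟩
    · have haV := Zc_le_V (fl_out h1) ha
      have h3 := idx hd h2 haV hc₁V ha2 hc₁2
      have h4 : a * c₁⁻¹ ∈ Zc (D.C u w₁) := (Zc (D.C u w₁)).mul_mem ha
        ((Zc (D.C u w₁)).inv_mem hP₁.c_S)
      have h5 := hY _ ⟨h4, h3⟩
      have hcomm := V_comm haV hc₁V
      calc a * a = (a * c₁⁻¹ * c₁) * (a * c₁⁻¹ * c₁) := by group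
        _ = (a * c₁⁻¹) * (c₁ * a) * (c₁⁻¹ * c₁) := by group
        _ = (a * c₁⁻¹) * (a * c₁) * (c₁⁻¹ * c₁) := by rw [hcomm]
        _ = (a * c₁⁻¹ * (a * c₁⁻¹)) * (c₁ * c₁) := by
          have hc : c₁⁻¹ = c₁ := inv_eq_of_mul_eq_one_left hP₁.c_sq
          rw [hc]
        _ = 1 := by rw [h5, hP₁.c_sq, one_mul]
  intro a ha
  by_cases ha1 : a ∈ Zc (D.C u w₁)
  · exact hA a ha1
  · have h3 := idx hd h1 ha hc₂V ha1 hc₂1
    have h5 := hA _ h3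
    have hcomm := V_comm ha hc₂V
    have hc : c₂⁻¹ = c₂ := inv_eq_of_mul_eq_one_left hP₂.c_sq
    calc a * a = (a * c₂⁻¹ * c₂) * (a * c₂⁻¹ * c₂) := by group
      _ = (a * c₂⁻¹) * (c₂ * a) * (c₂⁻¹ * c₂) := by group
      _ = (a * c₂⁻¹) * (a * c₂) * (c₂⁻¹ * c₂) := by rw [hcomm]
      _ = (a * c₂⁻¹ * (a * c₂⁻¹)) * (c₂ * c₂) := by
        rw [hc]
      _ = 1 := by rw [h5, hP₂.c_sq, one_mul]

/-- Squares in a flag, once `V = K` has exponent two. -/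
theorem flag_sq {u w : Ω} (h : D.R u w) (hVK : D.V u = D.K u) (hsq : ∀ a ∈ D.V u, a * a = 1)
    (hsq' : ∀ a ∈ D.V w, a * a = 1) {c : G} (hP : D.Pair u (D.C u w) w (D.C u w) c) {g : G}
    (hg : g ∈ D.C u w) : g * g = 1 ∨ g * g = c := by
  have hS : D.Fl u (D.C u w) := fl_out h
  obtain ⟨t, ht, htK⟩ := SetLike.not_le_iff_exists.1 hP.ny
  have htC : t ∈ D.C u w := K_le_C_in h (V_le_K ht)
  by_cases hgK : g ∈ D.K u
  · left
    rw [← hVK] at hgK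
    exact hsq g hgK
  · have h1 := hS.index2 hg htC hgK htK
    have h1' : g * t⁻¹ ∈ D.V u := by rw [hVK]; exact h1
    set v := g * t⁻¹ with hv
    have hgv : g = v * t := by rw [hv]; group
    have htt := hsq' t ht
    have hvv := hsq v h1'
    have htinv : t⁻¹ = t := inv_eq_of_mul_eq_one_left htt
    have hvinv : v⁻¹ = v := inv_eq_of_mul_eq_one_left hvv
    by_cases hvZ : v ∈ Zc (D.C u w)
    · left
      have hcomm := (mem_Zc.1 hvZ).2 t htC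
      calc g * g = v * (t * v) * t := by rw [hgv]; group
        _ = v * (v * t) * t := by rw [hcomm]
        _ = (v * v) * (t * t) := by group
        _ = 1 := by rw [hvv, htt, one_mul]
    · right
      have h2 := hP.cx v h1' hvZ t htC htK
      rw [hvinv, htinv] at h2
      rw [← h2, hgv]
      group

end Cd

end Sims3
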