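import Mathlib
import Cfsg.Agent.Lib.Sims3I

/-!
# Suborbit of length three: the isomorphism type of the point stabilizer
-/

set_option autoImplicit false

namespace Sims3

open MulAction Cub Cb Cc

variable {G Ω : Type*} [Group G] [MulAction G Ω]

namespace Cd

variable {D : Cd G Ω} [Finite G]

/-- The isomorphism type in case B. -/
theorem caseB_iso (hd : D.d = 0) {u w : Ω} (huw : D.R u w) :
    Nonempty (D.St u ≃* Equiv.Perm (Fin 4)) ∨
      Nonempty (D.St u ≃* Equiv.Perm (Fin 4) × Multiplicative (ZMod 2)) := by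
  classical
  obtain ⟨w₂, w₃, n12, -, -, hall⟩ := D.out3 huw
  have hw₂ : D.R u w₂ := (hall w₂).2 (Or.inr (Or.inl rfl))
  have hS : D.Fl u (D.C u w) := fl_out huw
  obtain ⟨hVK, hcases⟩ := structure_B hd huw hw₂ n12
  haveI : Fact (Nat.Prime 3) := ⟨Nat.prime_three⟩
  let W₀ : Subgroup (D.St u) := (D.K u).subgroupOf (D.St u)
  haveI hW₀n : W₀.Normal := ⟨fun n hn g => K_normal g.2 hn⟩
  have hW₀card : Nat.card W₀ = Nat.card (D.K u) :=
    Nat.card_congr (Subgroup.subgroupOfEquivOfLe (D.K_le_St u)).toEquiv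
  have hHcard : Nat.card (D.St u) = 6 * Nat.card (D.K u) := by
    rw [hS.card_St, hS.card_eq_two_mul]; ring
  have hself : ∀ x : D.St u, (∀ v ∈ W₀, x * v = v * x) → x ∈ W₀ := by
    intro x hx
    apply selfcent hd x.2
    intro v hv
    rw [hVK] at hv
    exact congrArg Subtype.val (hx ⟨v, D.K_le_St u hv⟩ hv)
  obtain ⟨k, hkord⟩ := exists_prime_orderOf_dvd_card' (G := D.St u) 3 (by
    rw [hHcard]; exact Dvd.intro_left 2 (by ring) |>.trans (Dvd.intro _ rfl))
  have hk3 : k ^ 3 = 1 := by rw [← hkord]; exact pow_orderOf_eq_one k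
  have hk1 : k ≠ 1 := by
    rintro rfl
    simp at hkord
  have hkW : k ∉ W₀ := by
    intro h
    have h1 : k ^ Nat.card W₀ = 1 := by
      have := pow_card_eq_one' (x := (⟨k, h⟩ : W₀))
      exact congrArg Subtype.val this
    have h2 := orderOf_dvd_of_pow_eq_one h1
    rw [hkord, hW₀card] at h2
    rcases hcases with h4 | ⟨h8, -⟩
    · rw [h4] at h2; revert h2; decide
    · rw [h8] at h2; revert h2; decide
  rcases hcases with h4 | ⟨h8, y, hyY, hy1, hYcard⟩
  · left
    refine Cfsg.Agent.Lib.FFS4.iso_S4 W₀ (by rw [hW₀card, h4]) hk3 hk1 ?_ hself (by rw [hHcard, h4])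
    intro v hv hkv
    by_contra hv1
    have hkv' : k * v = v * k := by
      calc k * v = k * v * k⁻¹ * k := by group
        _ = v * k := by rw [hkv]
    exact hkW (hself k (fix_or_all W₀ (fun g v hv => hW₀n.conj_mem v hv g)
      (by rw [hW₀card, h4]) hk3 hk1 hv hv1 hkv'))
  · right
    obtain ⟨a₀, -, -, ha₀2, ha₀all⟩ := exists_of_card_two hYcard
    have hY : ∀ z ∈ (Zc (D.C u w) ⊓ Zc (D.C u w₂) : Subgroup G), z * z = 1 := by
      intro z hz
      rcases ha₀all z hz with rfl | rfl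
      · simp
      · exact ha₀2
    have hsqV := V_sq hd huw hw₂ n12 hY
    have hsqV' : ∀ a ∈ D.V w, a * a = 1 := by
      obtain ⟨g, rfl⟩ := D.toCub.exists_smul_eq u w
      intro a ha
      rw [V_smul, mem_cj] at ha
      have h1 := hsqV _ ha
      have h2 : g * (g⁻¹ * a * g * (g⁻¹ * a * g)) * g⁻¹ = a * a := by group
      rw [← h2, h1]
      group
    obtain ⟨c, hP⟩ := pair1 hd huw
    have hflag : D.C u w ≠ D.C u w₂ := fun h => n12 (D.ni huw hw₂ h)
    have hyc : ∀ g ∈ D.St u, g * y = y * g :=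
      comm_of_flags hS (fl_out hw₂) hflag (mem_Zc.1 hyY.1).2 (mem_Zc.1 hyY.2).2
    have hyc2 : y ≠ c := by
      rintro rfl
      exact const_not_central hd huw hP hyc
    have hyK : y ∈ D.K u := by
      rw [← hVK]; exact Zc_le_V hS hyY.1
    have hyS : y ∈ D.C u w := hS.K_le hyK
    let yH : D.St u := ⟨y, D.K_le_St u hyK⟩
    have hyH1 : yH ≠ 1 := fun h => hy1 (congrArg Subtype.val h)
    have hyH2 : yH * yH = 1 := Subtype.ext (hY y hyY)
    have hycH : ∀ g : D.St u, g * yH = yH * g := fun g => Subtype.ext (hyc g g.2)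
    have hyT : yH ∈ (D.C u w).subgroupOf (D.St u) := hyS
    have hcinv : c⁻¹ = c := inv_eq_of_mul_eq_one_left hP.c_sq
    let M : Subgroup ((D.C u w).subgroupOf (D.St u)) :=
      { carrier := {g | ((g : D.St u) : G) = 1 ∨ ((g : D.St u) : G) = c}
        one_mem' := Or.inl rfl
        mul_mem' := by
          rintro a b (ha | ha) (hb | hb)
          · left; change ((a : D.St u) : G) * ((b : D.St u) : G) = 1; rw [ha, hb, one_mul]
          · right; change ((a : D.St u) : G) * ((b : D.St u) : G) = c; rw [ha, hb, one_mul]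
          · right; change ((a : D.St u) : G) * ((b : D.St u) : G) = c; rw [ha, hb, mul_one]
          · left; change ((a : D.St u) : G) * ((b : D.St u) : G) = 1; rw [ha, hb]; exact hP.c_sq
        inv_mem' := by
          rintro a (ha | ha)
          · left; change ((a : D.St u) : G)⁻¹ = 1; rw [ha, inv_one]
          · right; change ((a : D.St u) : G)⁻¹ = c; rw [ha, hcinv] }
    have hM : ∀ g : (D.C u w).subgroupOf (D.St u), g * g ∈ M := by
      intro g
      exact flag_sq hd huw hVK hsqV hsqV' hP g.2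
    have hyM : (⟨yH, hyT⟩ : (D.C u w).subgroupOf (D.St u)) ∉ M := by
      rintro (h | h)
      · exact hy1 h
      · exact hyc2 h
    obtain ⟨l, hl⟩ := exists_char_of_squares M hM hyM
    obtain ⟨χ, hχ⟩ := exists_char_of_transfer ((D.C u w).subgroupOf (D.St u))
      (by rw [flag_subgroupOf_index hS]; decide) hycH hyH2 hyT l hl
    have hyW₀ : yH ∈ W₀ := hyK
    have hyker : yH ∉ χ.ker := fun h => hχ (MonoidHom.mem_ker.1 h)
    have hW₀8 : Nat.card W₀ = 8 := by rw [hW₀card, h8]
    have hWcard : Nat.card (W₀ ⊓ χ.ker : Subgroup (D.St u)) = 4 := by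
      have h1 : Nat.card W₀ ≤ 2 * Nat.card (W₀ ⊓ χ.ker : Subgroup (D.St u)) := by
        apply card_le_two_mul_inf (H := ⊤) le_top
        intro s _ t _ hs ht
        rw [MonoidHom.mem_ker] at hs ht ⊢
        rw [map_mul, map_inv, C2_eq_of_ne_one hs ht, mul_inv_cancel]
      have h2 : Nat.card (W₀ ⊓ χ.ker : Subgroup (D.St u)) ∣ Nat.card W₀ :=
        Subgroup.card_dvd_of_le inf_le_left
      rw [hW₀8] at h1 h2
      have h3 : Nat.card (W₀ ⊓ χ.ker : Subgroup (D.St u)) ≠ 8 := by
        intro h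
        have h4 : (W₀ ⊓ χ.ker : Subgroup (D.St u)) = W₀ :=
          Subgroup.eq_of_le_of_card_ge inf_le_left (by rw [h, hW₀8])
        have h5 : yH ∈ (W₀ ⊓ χ.ker : Subgroup (D.St u)) := by rw [h4]; exact hyW₀
        exact hyker h5.2
      have h6 := Nat.le_of_dvd (by norm_num) h2
      have h7 : Nat.card (W₀ ⊓ χ.ker : Subgroup (D.St u)) = 4 ∨
          Nat.card (W₀ ⊓ χ.ker : Subgroup (D.St u)) = 5 ∨
          Nat.card (W₀ ⊓ χ.ker : Subgroup (D.St u)) = 6 ∨
          Nat.card (W₀ ⊓ χ.ker : Subgroup (D.St u)) = 7 := by omega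
      rcases h7 with h | h | h | h
      · exact h
      all_goals (rw [h] at h2; exact absurd h2 (by decide))
    have hC : ∀ x : D.St u, (∀ v ∈ (W₀ ⊓ χ.ker : Subgroup (D.St u)), x * v = v * x) →
        x ∈ (W₀ ⊓ χ.ker : Subgroup (D.St u)) ∨ x * yH ∈ (W₀ ⊓ χ.ker : Subgroup (D.St u)) := by
      intro x hx
      have hcomm : ∀ v ∈ W₀, x * v = v * x := by
        intro v hv
        by_cases hvk : v ∈ χ.ker
        · exact hx v ⟨hv, hvk⟩
        · have h1 : v * yH⁻¹ ∈ (W₀ ⊓ χ.ker : Subgroup (D.St u)) := by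
            refine Subgroup.mem_inf.2 ⟨W₀.mul_mem hv (W₀.inv_mem hyW₀), ?_⟩
            rw [MonoidHom.mem_ker] at hvk ⊢
            rw [map_mul, map_inv, C2_eq_of_ne_one hvk hχ, mul_inv_cancel]
          have h2 := hx _ h1
          have h3 := (hycH x)
          calc x * v = x * (v * yH⁻¹) * yH := by group
            _ = v * yH⁻¹ * (x * yH) := by rw [h2]; group
            _ = v * yH⁻¹ * (yH * x) := by rw [h3]
            _ = v * x := by group
      have hxW := hself x hcomm
      by_cases hxk : x ∈ χ.ker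
      · exact Or.inl ⟨hxW, hxk⟩
      · right
        refine Subgroup.mem_inf.2 ⟨W₀.mul_mem hxW hyW₀, ?_⟩
        rw [MonoidHom.mem_ker] at hxk ⊢
        rw [map_mul, C2_eq_of_ne_one hxk hχ, C2_mul_self]
    refine Cfsg.Agent.Lib.FFS4.iso_S4Z2 (W₀ ⊓ χ.ker) hWcard hk3 hk1 ?_
      (fun x => (hycH x).symm) hyH2 (fun h => hyker h.2) hC (by rw [hHcard, h8]) χ hχ
    intro v hv hkv
    by_contra hv1
    have hkv' : k * v = v * k := by
      calc k * v = k * v * k⁻¹ * k := by group
        _ = v * k := by rw [hkv]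
    have hall := fix_or_all (W₀ ⊓ χ.ker) (fun g v hv => Subgroup.Normal.conj_mem inferInstance v hv g)
      hWcard hk3 hk1 hv hv1 hkv'
    rcases hC k hall with h | h
    · exact hkW h.1
    · apply hkW
      have h1 := W₀.mul_mem h.1 (W₀.inv_mem hyW₀)
      simpa using h1

end Cd

namespace Cc

/-- The critical distance in case B. -/
theorem exists_Cd [Finite G] (D : Cc G Ω) {a b : Ω} (hab : D.R a b) :
    ∃ D' : Cd G Ω, D'.toCc = D ∧ D'.d = 0 := by
  classical
  let P : ℕ → Prop := fun m =>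
    ∃ p, D.TP p m ∧ (¬ D.V (p 0) ≤ D.K (p m) ∨ ¬ D.V (p m) ≤ D.K (p 0))
  have hex : ∃ m, P m := by
    obtain ⟨p, m, h1, h2⟩ := exists_crit hab
    exact ⟨m, p, h1, h2⟩
  have hm0 : Nat.find hex ≠ 0 := by
    intro h0
    have := Nat.find_spec hex
    rw [h0] at this
    obtain ⟨p, -, h | h⟩ := this
    · exact h V_le_K
    · exact h V_le_K
  obtain ⟨d, hd⟩ : ∃ d, Nat.find hex = d + 1 := ⟨Nat.find hex - 1, by omega⟩
  have hmin : ∀ p m, D.TP p m → m ≤ d → D.V (p 0) ≤ D.K (p m) ∧ D.V (p m) ≤ D.K (p 0) := by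
    intro p m hp hm
    have h1 : ¬ P m := Nat.find_min hex (by omega)
    by_contra hcon
    apply h1
    refine ⟨p, hp, ?_⟩
    by_contra h2
    push Not at h2
    exact hcon ⟨h2.1, h2.2⟩
  have hcrit : P (d + 1) := by
    have := Nat.find_spec hex
    rwa [hd] at this
  let D' : Cd G Ω := { toCc := D, d := d, hmin := hmin, hcrit := hcrit }
  have hab' : D'.R a b := hab
  have hd1 : D'.d ≤ 1 := Cd.d_le_one hab'
  have hd2 : D'.d ≠ 1 := fun h => Cd.d_ne_one hab' h
  exact ⟨D', rfl, by omega⟩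

theorem iso [Finite G] (D : Cc G Ω) {a b : Ω} (hab : D.R a b) :
    Nonempty (D.St a ≃* Equiv.Perm (Fin 4)) ∨
      Nonempty (D.St a ≃* Equiv.Perm (Fin 4) × Multiplicative (ZMod 2)) := by
  obtain ⟨D', rfl, hd⟩ := D.exists_Cd hab
  exact Cd.caseB_iso hd hab

end Cc

/-- **Sims**: the isomorphism type of the point stabilizer in a primitive group with a suborbit of
length 3. -/
theorem stabilizer_iso_of_suborbit_three {G Ω : Type*} [Group G] [Finite G] [MulAction G Ω]
    [FaithfulSMul G Ω] (hprim : IsPreprimitive G Ω) (a b : Ω)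
    (h3 : Nat.card (orbit (stabilizer G a) b) = 3) :
    Nonempty (stabilizer G a ≃* Multiplicative (ZMod 3)) ∨
      Nonempty (stabilizer G a ≃* Equiv.Perm (Fin 3)) ∨
      Nonempty (stabilizer G a ≃* DihedralGroup 6) ∨
      Nonempty (stabilizer G a ≃* Equiv.Perm (Fin 4)) ∨
      Nonempty (stabilizer G a ≃* Equiv.Perm (Fin 4) × Multiplicative (ZMod 2)) := by
  let D := cubOfSuborbit hprim a b h3
  have hab : D.R a b := ⟨1, one_smul _ _, one_smul _ _⟩
  by_cases hni : ∀ {x y y' : Ω}, D.R x y → D.R x y' → D.C x y = D.C x y' → y = y'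
  · let D₁ : Cb G Ω := { toCub := D, ni := hni }
    by_cases hB : ∀ x S, D₁.Fl x S → Zc S ≤ D₁.K x
    · let D₂ : Cc G Ω := { toCb := D₁, hB := hB }
      rcases D₂.iso (a := a) (b := b) hab with h | h
      · exact Or.inr (Or.inr (Or.inr (Or.inl h)))
      · exact Or.inr (Or.inr (Or.inr (Or.inr h)))
    · push Not at hB
      obtain ⟨x, S, hS, hnot⟩ := hB
      have hA : ∀ x' S', D₁.Fl x' S' → ¬ Zc S' ≤ D₁.K x' := by
        intro x' S' hS' hle
        obtain ⟨g, rfl, rfl⟩ := hS.trans hS'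
        apply hnot
        rw [Zc_cj, K_smul] at hle
        intro z hz
        exact conj_mem_cj.1 (hle (conj_mem_cj.2 hz))
      rcases Cb.caseA_iso hA (u := a) (w := b) hab with h | h
      · exact Or.inr (Or.inl h)
      · exact Or.inr (Or.inr (Or.inl h))
  · left
    push Not at hni
    obtain ⟨x, y, y', hy, hy', hC, hne⟩ := hni
    have hbot := caseI hy hy' hne hC hab
    have hcard : Nat.card (stabilizer G a) = 3 := by
      have h1 := card_St_out hab
      rw [hbot, Subgroup.card_bot] at h1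
      exact h1
    haveI : Fact (Nat.Prime 3) := ⟨Nat.prime_three⟩
    exact ⟨mulEquivOfPrimeCardEq hcard (by rw [Nat.card_eq_fintype_card]; rfl)⟩

end Sims3
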