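import Mathlib
import Cfsg.Agent.Lib.Small168
import Cfsg.Agent.S1012

set_option autoImplicit false

namespace Cfsg.Agent.Lib.Small168K

open Subgroup
open Cfsg.Agent.Lib.SmallGroups Cfsg.Agent.Lib.SmallGroups2 Cfsg.Agent.Lib.SmallGroups3
open Cfsg.Agent.Lib.SmallGroups4 Cfsg.Agent.Lib.SmallGroups5 Cfsg.Agent.Lib.Small168

variable {G : Type*} [Group G]

/-! ### Klein four-groups -/

theorem isKleinFour_of_forall {U : Subgroup G} (hc : Nat.card U = 4) (hs : ∀ x ∈ U, x * x = 1) : IsKleinFour ↥U := by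
  have : Finite ↥U := Nat.finite_of_card_ne_zero (by rw [hc]; norm_num)
  have : Nontrivial ↥U := by
    rw [← Finite.one_lt_card_iff_nontrivial, hc]; norm_num
  refine ⟨hc, ?_⟩
  rw [Monoid.exponent_eq_prime_iff Nat.prime_two]
  intro g hg
  apply orderOf_eq_prime _ hg
  apply Subtype.ext
  rw [pow_two]
  exact hs g g.2

theorem card_of_isKleinFour {U : Subgroup G} (hk : IsKleinFour ↥U) : Nat.card U = 4 := hk.card_four

theorem sq_of_isKleinFour {U : Subgroup G} (hk : IsKleinFour ↥U) {x : G} (hx : x ∈ U) : x * x = 1 := by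
  have h1 := Monoid.pow_exponent_eq_one (⟨x, hx⟩ : ↥U)
  rw [hk.exponent_two, pow_two] at h1
  exact congrArg Subtype.val h1

theorem comm_of_sq {U : Subgroup G} (hs : ∀ x ∈ U, x * x = 1) {x y : G} (hx : x ∈ U) (hy : y ∈ U) : x * y = y * x := by
  have h1 := hs _ (U.mul_mem hy hx)
  have h2 := hs x hx
  have h3 := hs y hy
  calc x * y = x * y * (y * x * (y * x)) := by rw [h1, mul_one]
    _ = x * (y * y) * x * (y * x) := by group
    _ = (x * x) * (y * x) := by rw [h3, mul_one]
    _ = y * x := by rw [h2, one_mul]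

/-- The conjugate of a Klein four-subgroup is one. -/
theorem isKleinFour_map_conj {U : Subgroup G} (hk : IsKleinFour ↥U) (g : G) :
    IsKleinFour ↥(U.map (MulAut.conj g).toMonoidHom) := by
  apply isKleinFour_of_forall
  · rw [Subgroup.card_map_of_injective (MulAut.conj g).injective]
    exact hk.card_four
  · rintro _ ⟨x, hx, rfl⟩
    rw [← map_mul, sq_of_isKleinFour hk hx, map_one]

theorem normalizer_map_conj (U : Subgroup G) (g : G) :
    normalizer ((U.map (MulAut.conj g).toMonoidHom : Subgroup G) : Set G) =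
      (normalizer (U : Set G)).map (MulAut.conj g).toMonoidHom :=
  (Subgroup.map_equiv_normalizer_eq U (MulAut.conj g)).symm

theorem mem_map_conj {U : Subgroup G} {g x : G} :
    x ∈ U.map (MulAut.conj g).toMonoidHom ↔ g⁻¹ * x * g ∈ U := by
  constructor
  · rintro ⟨y, hy, rfl⟩
    have : g⁻¹ * (MulAut.conj g).toMonoidHom y * g = y := by
      simp [MulAut.conj_apply]
      group
    rw [this]
    exact hy
  · intro hx
    refine ⟨_, hx, ?_⟩
    simp [MulAut.conj_apply]
    group

/-! ### The dihedral group of order 8 -/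

def S1 : Finset (DihedralGroup 4) := {.r 0, .r 2, .sr 0, .sr 2}
def S2 : Finset (DihedralGroup 4) := {.r 0, .r 2, .sr 1, .sr 3}

theorem klein_sets : ∀ S : Finset (DihedralGroup 4), S.card = 4 → 1 ∈ S → (∀ x ∈ S, x * x = 1) →
    (∀ x ∈ S, ∀ y ∈ S, x * y ∈ S) → S = S1 ∨ S = S2 := by decide +kernel

def V1 : Subgroup (DihedralGroup 4) where
  carrier := ↑S1
  mul_mem' := by
    have : ∀ x ∈ S1, ∀ y ∈ S1, x * y ∈ S1 := by decide +kernel
    intro a b ha hb
    exact this a ha b hb
  one_mem' := by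
    have : (1 : DihedralGroup 4) ∈ S1 := by decide +kernel
    exact this
  inv_mem' := by
    have : ∀ x ∈ S1, x⁻¹ ∈ S1 := by decide +kernel
    intro a ha
    exact this a ha

def V2 : Subgroup (DihedralGroup 4) where
  carrier := ↑S2
  mul_mem' := by
    have : ∀ x ∈ S2, ∀ y ∈ S2, x * y ∈ S2 := by decide +kernel
    intro a b ha hb
    exact this a ha b hb
  one_mem' := by
    have : (1 : DihedralGroup 4) ∈ S2 := by decide +kernel
    exact this
  inv_mem' := by
    have : ∀ x ∈ S2, x⁻¹ ∈ S2 := by decide +kernel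
    intro a ha
    exact this a ha

theorem mem_V1 {x : DihedralGroup 4} : x ∈ V1 ↔ x ∈ S1 := Iff.rfl
theorem mem_V2 {x : DihedralGroup 4} : x ∈ V2 ↔ x ∈ S2 := Iff.rfl

theorem card_V1 : Nat.card V1 = 4 :=
  (Set.ncard_coe_finset S1).trans (by decide +kernel)

theorem card_V2 : Nat.card V2 = 4 :=
  (Set.ncard_coe_finset S2).trans (by decide +kernel)

theorem V1_sq : ∀ x ∈ V1, x * x = 1 := by
  have : ∀ x ∈ S1, x * x = 1 := by decide +kernel
  exact this

theorem V2_sq : ∀ x ∈ V2, x * x = 1 := by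
  have : ∀ x ∈ S2, x * x = 1 := by decide +kernel
  exact this

theorem V1_ne_V2 : V1 ≠ V2 := by
  intro h
  have h1 : DihedralGroup.sr 0 ∈ V1 := by
    have : (DihedralGroup.sr 0 : DihedralGroup 4) ∈ S1 := by decide +kernel
    exact this
  rw [h] at h1
  have h2 : (DihedralGroup.sr 0 : DihedralGroup 4) ∉ S2 := by decide +kernel
  exact h2 h1

/-- The classification of subgroups of `D4` of order four and exponent two. -/
theorem eq_V1_or_V2 (W : Subgroup (DihedralGroup 4)) (hc : Nat.card W = 4) (hs : ∀ x ∈ W, x * x = 1) :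
    W = V1 ∨ W = V2 := by
  classical
  let S : Finset (DihedralGroup 4) := Finset.univ.filter (· ∈ W)
  have hmem : ∀ x, x ∈ S ↔ x ∈ W := by
    intro x
    simp [S]
  have hScard : S.card = 4 := by
    have h1 : Nat.card W = S.card := by rw [Nat.card_eq_fintype_card, Fintype.card_subtype]
    omega
  have := klein_sets S hScard ((hmem 1).2 W.one_mem) (fun x hx => hs x ((hmem x).1 hx))
    (fun x hx y hy => (hmem _).2 (W.mul_mem ((hmem x).1 hx) ((hmem y).1 hy)))
  rcases this with h | h
  · left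
    ext x
    rw [mem_V1, ← h, hmem]
  · right
    ext x
    rw [mem_V2, ← h, hmem]

/-! ### More general lemmas -/

theorem exists_conj_of_sylow_le [Finite G] {p : ℕ} [Fact p.Prime] (M : Subgroup G) (P Q : Sylow p G)
    (hP : (P : Subgroup G) ≤ M) (hQ : (Q : Subgroup G) ≤ M) : ∃ c ∈ M, c • P = Q := by
  obtain ⟨m, hm⟩ := MulAction.exists_smul_eq ↥M (P.subtype hP) (Q.subtype hQ)
  refine ⟨m, m.2, ?_⟩
  rw [Sylow.smul_subtype] at hm
  exact Sylow.subtype_injective hm

theorem le_normalizer_map_of_normal (M : Subgroup G) (Q : Subgroup ↥M) [hQ : Q.Normal] :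
    M ≤ normalizer ((Q.map M.subtype : Subgroup G) : Set G) := by
  have hle : Q.map M.subtype ≤ M := Subgroup.map_subtype_le Q
  apply (Subgroup.normal_subgroupOf_iff_le_normalizer hle).1
  have : (Q.map M.subtype).subgroupOf M = Q :=
    Subgroup.comap_map_eq_self_of_injective M.subtype_injective Q
  rw [this]
  exact hQ

theorem exists_sylow_eq [Finite G] {p : ℕ} [Fact p.Prime] {K : Subgroup G} (hpg : IsPGroup p K)
    (hc : ∀ T : Sylow p G, Nat.card (T : Subgroup G) ≤ Nat.card K) : ∃ T : Sylow p G, (T : Subgroup G) = K := by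
  obtain ⟨T, hT⟩ := hpg.exists_le_sylow
  exact ⟨T, (Subgroup.eq_of_le_of_card_ge hT (hc T)).symm⟩

theorem mem_normalizer_zpowers_of_conj_inv {g x : G} (hg : g * x * g⁻¹ = x⁻¹) :
    g ∈ normalizer ((zpowers x : Subgroup G) : Set G) := by
  rw [mem_normalizer_iff]
  intro y
  constructor
  · intro hy
    obtain ⟨k, rfl⟩ := Subgroup.mem_zpowers_iff.1 hy
    rw [← conj_zpow, hg]
    exact Subgroup.zpow_mem _ (Subgroup.inv_mem _ (Subgroup.mem_zpowers x)) k
  · intro hy
    obtain ⟨k, hk⟩ := Subgroup.mem_zpowers_iff.1 hy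
    have hgy : y = g⁻¹ * x ^ k * g := by
      rw [hk]; group
    rw [hgy]
    have h1 : g⁻¹ * x * g = x⁻¹ := by
      have h3 : x = g⁻¹ * (g * x * g⁻¹) * g := by group
      rw [hg] at h3
      calc g⁻¹ * x * g = (g⁻¹ * x⁻¹ * g)⁻¹ := by group
        _ = x⁻¹ := by rw [← h3]
    have h2 : g⁻¹ * x ^ k * g = (g⁻¹ * x * g) ^ k := by
      have := conj_zpow (a := g⁻¹) (b := x) (i := k)
      simpa using this.symm
    rw [h2, h1]
    exact Subgroup.zpow_mem _ (Subgroup.inv_mem _ (Subgroup.mem_zpowers x)) k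

/-- A proper subgroup contained in a larger proper subgroup is not a coatom. -/
theorem not_isCoatom_of_le {M L : Subgroup G} [Finite G] (hML : M ≤ L) (hL : L ≠ ⊤) (hc : Nat.card M < Nat.card L) :
    ¬ IsCoatom M := by
  intro hM
  rcases hML.eq_or_lt with heq | hlt
  · rw [heq] at hc; omega
  · exact hL (hM.2 L hlt)

theorem s4_inverts : ∀ x : Equiv.Perm (Fin 4), x ^ 3 = 1 → x ≠ 1 → ∃ y : Equiv.Perm (Fin 4), y * x * y⁻¹ = x⁻¹ := by
  decide +kernel

section S168

variable [Finite G] [IsSimpleGroup G] (h : Nat.card G = 168)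
include h

/-- The two Klein four-subgroups of a Sylow 2-subgroup. -/
theorem klein_in_T (T : Sylow 2 G) : ∃ U₁ U₂ : Subgroup G, U₁ ≠ U₂ ∧ U₁ ≤ T ∧ U₂ ≤ T ∧ IsKleinFour ↥U₁ ∧ IsKleinFour ↥U₂ ∧
    ∀ U : Subgroup G, U ≤ T → IsKleinFour ↥U → U = U₁ ∨ U = U₂ := by
  obtain ⟨e⟩ := T_dihedral h T
  let f : DihedralGroup 4 →* G := (T : Subgroup G).subtype.comp e.symm.toMonoidHom
  have hf : Function.Injective f := by
    intro a b hab
    have h1 : e.symm a = e.symm b := Subtype.ext hab
    exact e.symm.injective h1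
  have hrange : f.range = T := by
    ext x
    constructor
    · rintro ⟨y, rfl⟩
      exact (e.symm y).2
    · intro hx
      exact ⟨e ⟨x, hx⟩, by simp [f]⟩
  have hle : ∀ V : Subgroup (DihedralGroup 4), V.map f ≤ T := by
    intro V
    rw [← hrange]
    exact Subgroup.map_le_range f V
  have hk : ∀ V : Subgroup (DihedralGroup 4), Nat.card V = 4 → (∀ x ∈ V, x * x = 1) → IsKleinFour ↥(V.map f) := by
    intro V hV hs
    apply isKleinFour_of_forall
    · rw [Subgroup.card_map_of_injective hf, hV]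
    · rintro _ ⟨x, hx, rfl⟩
      rw [← map_mul, hs x hx, map_one]
  refine ⟨V1.map f, V2.map f, ?_, hle _, hle _, hk _ card_V1 V1_sq, hk _ card_V2 V2_sq, ?_⟩
  · intro heq
    exact V1_ne_V2 (Subgroup.map_injective hf heq)
  · intro U hUT hU
    have hUr : U ≤ f.range := by rwa [hrange]
    have hmap : (U.comap f).map f = U := Subgroup.map_comap_eq_self hUr
    have hcard : Nat.card (U.comap f) = 4 := by
      have h1 : Nat.card ((U.comap f).map f) = Nat.card (U.comap f) := Subgroup.card_map_of_injective hf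
      rw [hmap, hU.card_four] at h1
      exact h1.symm
    have hsq : ∀ x ∈ U.comap f, x * x = 1 := by
      intro x hx
      apply hf
      rw [map_mul, map_one]
      exact sq_of_isKleinFour hU hx
    rcases eq_V1_or_V2 _ hcard hsq with h1 | h1
    · left
      rw [← h1, hmap]
    · right
      rw [← h1, hmap]

/-- Two distinct Klein four-subgroups in a Sylow subgroup... the number of Klein four-subgroups. -/
theorem card_klein_in_T (T : Sylow 2 G) :
    Nat.card {U : Subgroup G // U ≤ (T : Subgroup G) ∧ IsKleinFour ↥U} = 2 := by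
  obtain ⟨U₁, U₂, hne, h1, h2, hk1, hk2, hall⟩ := klein_in_T h T
  rw [Nat.card_eq_two_iff]
  refine ⟨⟨U₁, h1, hk1⟩, ⟨U₂, h2, hk2⟩, ?_, ?_⟩
  · intro heq
    exact hne (congrArg Subtype.val heq)
  · ext ⟨U, hU, hkU⟩
    simp only [Set.mem_insert_iff, Set.mem_singleton_iff, Set.mem_univ, iff_true, Subtype.mk.injEq]
    exact hall U hU hkU

/-- The normalizer of a Klein four-subgroup has order 24. -/
theorem card_normalizer_klein {U : Subgroup G} (hk : IsKleinFour ↥U) :
    Nat.card (normalizer (U : Set G)) = 24 := by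
  have hcU := hk.card_four
  -- two distinct involutions in `U`
  obtain ⟨x, y, hxU, hyU, hx1, hy1, hxy⟩ : ∃ x y : G, x ∈ U ∧ y ∈ U ∧ x ≠ 1 ∧ y ≠ 1 ∧ x ≠ y := by
    have h2 : 2 < Nat.card U := by rw [hcU]; norm_num
    have : Fintype U := Fintype.ofFinite _
    rw [Nat.card_eq_fintype_card] at h2
    obtain ⟨a, b, c, hab, hac, hbc⟩ := Fintype.two_lt_card_iff.1 h2
    have hab' : (a : G) ≠ b := fun e => hab (Subtype.ext e)
    have hac' : (a : G) ≠ c := fun e => hac (Subtype.ext e)
    have hbc' : (b : G) ≠ c := fun e => hbc (Subtype.ext e)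
    by_cases ha : (a : G) = 1
    · refine ⟨b, c, b.2, c.2, ?_, ?_, hbc'⟩
      · intro e; exact hab' (ha.trans e.symm)
      · intro e; exact hac' (ha.trans e.symm)
    · by_cases hb : (b : G) = 1
      · refine ⟨a, c, a.2, c.2, ha, ?_, hac'⟩
        intro e; exact hbc' (hb.trans e.symm)
      · exact ⟨a, b, a.2, b.2, ha, hb, hab'⟩
  have hord : ∀ {w : G}, w ∈ U → w ≠ 1 → orderOf w = 2 := by
    intro w hw hne
    apply orderOf_eq_prime _ hne
    rw [pow_two]
    exact sq_of_isKleinFour hk hw
  have hsq : ∀ w ∈ U, w * w = 1 := fun w hw => sq_of_isKleinFour hk hw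
  obtain ⟨Tx, hTx⟩ := exists_sylow_centralizer h (hord hxU hx1)
  obtain ⟨Ty, hTy⟩ := exists_sylow_centralizer h (hord hyU hy1)
  have hUTx : U ≤ (Tx : Subgroup G) := by
    rw [hTx]
    intro w hw
    rw [mem_centralizer_singleton_iff]
    exact comm_of_sq hsq hw hxU
  have hUTy : U ≤ (Ty : Subgroup G) := by
    rw [hTy]
    intro w hw
    rw [mem_centralizer_singleton_iff]
    exact comm_of_sq hsq hw hyU
  have hTxN : (Tx : Subgroup G) ≤ normalizer (U : Set G) :=
    le_normalizer_of_two_mul hUTx (by rw [card_T h Tx, hcU]) (by rw [hcU]; norm_num)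
  have hTyN : (Ty : Subgroup G) ≤ normalizer (U : Set G) :=
    le_normalizer_of_two_mul hUTy (by rw [card_T h Ty, hcU]) (by rw [hcU]; norm_num)
  have hne : (Tx : Subgroup G) ≠ Ty := by
    intro heq
    apply hxy
    apply eq_of_centralizer_eq h (hord hxU hx1) (hord hyU hy1)
    rw [← hTx, ← hTy, heq]
  set n := Nat.card (normalizer (U : Set G)) with hn
  have h8 : 8 ∣ n := by
    have := Subgroup.card_dvd_of_le hTxN
    rwa [card_T h Tx] at this
  have hd : n ∣ 168 := by
    rw [← h]; exact Subgroup.card_subgroup_dvd_card _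
  have h7 : ¬ 7 ∣ n := by
    intro h7
    obtain ⟨w, hw⟩ := exists_prime_orderOf_dvd_card' (G := ↥(normalizer (U : Set G))) 7 h7
    have hw' : orderOf (w : G) = 7 := by rw [Subgroup.orderOf_coe]; exact hw
    have h1 := card_modEq_card_inf_centralizer (t := 7) U w.2 hw'
    rw [hcU] at h1
    have hinf : U ⊓ centralizer ({(w : G)} : Set G) = ⊥ := by
      rw [centralizer_of_order7 h hw']
      apply disjoint_iff.1
      apply Subgroup.disjoint_of_coprime_natCard
      rw [hcU, Nat.card_zpowers, hw']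
      norm_num
    rw [hinf] at h1
    simp [Nat.ModEq] at h1
  have hne8 : n ≠ 8 := by
    intro h8'
    have hx : (Tx : Subgroup G) = normalizer (U : Set G) :=
      Subgroup.eq_of_le_of_card_ge hTxN (by rw [card_T h Tx, ← hn, h8'])
    have hy : (Ty : Subgroup G) = normalizer (U : Set G) :=
      Subgroup.eq_of_le_of_card_ge hTyN (by rw [card_T h Ty, ← hn, h8'])
    exact hne (hx.trans hy.symm)
  obtain ⟨k, hk'⟩ := h8
  have hk21 : k ∣ 21 := by
    rw [hk'] at hd
    exact Nat.dvd_of_mul_dvd_mul_left (by norm_num) hd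
  have hk7 : ¬ 7 ∣ k := by
    intro h77
    apply h7
    rw [hk']
    exact Dvd.dvd.mul_left h77 8
  have hcases : k ∈ Nat.divisors 21 := by
    rw [Nat.mem_divisors]; exact ⟨hk21, by norm_num⟩
  have hdiv : Nat.divisors 21 = {1, 3, 7, 21} := by decide +kernel
  rw [hdiv] at hcases
  simp only [Finset.mem_insert, Finset.mem_singleton] at hcases
  rcases hcases with rfl | rfl | rfl | rfl
  · omega
  · omega
  · exact absurd (dvd_refl 7) hk7
  · exact absurd (by norm_num) hk7

theorem normalizer_klein_iso {U : Subgroup G} (hk : IsKleinFour ↥U) :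
    Nonempty (↥(normalizer (U : Set G)) ≃* Equiv.Perm (Fin 4)) := by
  apply Cfsg.Agent.S1012.result (card_normalizer_klein h hk)
  intro g hg
  have h1 : orderOf (g : G) = 6 := by rw [Subgroup.orderOf_coe]; exact hg
  rcases orderOf_cases h (g : G) with h2 | h2 | h2 | h2 | h2 <;> omega


/-- The intersection of two distinct Sylow 2-subgroups is small. -/
theorem card_inf_le {T T' : Sylow 2 G} (hne : T ≠ T') : Nat.card ↥((T : Subgroup G) ⊓ (T' : Subgroup G)) ≤ 4 := by
  have hd : Nat.card ↥((T : Subgroup G) ⊓ (T' : Subgroup G)) ∣ 8 := by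
    have := Subgroup.card_dvd_of_le (inf_le_left : (T : Subgroup G) ⊓ (T' : Subgroup G) ≤ T)
    rwa [card_T h T] at this
  have hne8 : Nat.card ↥((T : Subgroup G) ⊓ (T' : Subgroup G)) ≠ 8 := by
    intro h8
    have h1 : (T : Subgroup G) ⊓ (T' : Subgroup G) = T :=
      Subgroup.eq_of_le_of_card_ge inf_le_left (by rw [h8, card_T h T])
    have h2 : (T : Subgroup G) ⊓ (T' : Subgroup G) = T' :=
      Subgroup.eq_of_le_of_card_ge inf_le_right (by rw [h8, card_T h T'])
    exact hne (Sylow.ext (h1.symm.trans h2))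
  have hle := Nat.le_of_dvd (by norm_num) hd
  interval_cases hv : Nat.card ↥((T : Subgroup G) ⊓ (T' : Subgroup G)) <;> omega

/-- The normalizers of the two Klein four-subgroups of a Sylow 2-subgroup are not conjugate. -/
theorem normalizer_not_conj (T : Sylow 2 G) {U₁ U₂ : Subgroup G} (hne : U₁ ≠ U₂) (h1 : U₁ ≤ T) (h2 : U₂ ≤ T)
    (hk1 : IsKleinFour ↥U₁) (hk2 : IsKleinFour ↥U₂) (g : G) :
    normalizer (U₂ : Set G) ≠ (normalizer (U₁ : Set G)).map (MulAut.conj g).toMonoidHom := by
  intro heq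
  have hc1 := hk1.card_four
  have hc2 := hk2.card_four
  have hTN1 : (T : Subgroup G) ≤ normalizer (U₁ : Set G) :=
    le_normalizer_of_two_mul h1 (by rw [card_T h T, hc1]) (by rw [hc1]; norm_num)
  have hTN2 : (T : Subgroup G) ≤ normalizer (U₂ : Set G) :=
    le_normalizer_of_two_mul h2 (by rw [card_T h T, hc2]) (by rw [hc2]; norm_num)
  have hgT : ((g • T : Sylow 2 G) : Subgroup G) ≤ normalizer (U₂ : Set G) := by
    intro u hu
    rw [heq]
    have hu' := mem_smul_sylow_iff.1 hu
    refine ⟨_, hTN1 hu', ?_⟩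
    simp [MulAut.conj_apply]
    group
  obtain ⟨c, hc, hcT⟩ := exists_conj_of_sylow_le _ (g • T) T hgT hTN2
  have hw : c * g ∈ (T : Subgroup G) := by
    rw [← normalizer_T h T]
    apply Sylow.smul_eq_iff_mem_normalizer.1
    rw [← smul_smul]
    exact hcT
  have hN12 : normalizer (U₁ : Set G) ≤ normalizer (U₂ : Set G) := by
    intro x hx
    have hwN : (c * g)⁻¹ ∈ normalizer (U₁ : Set G) := Subgroup.inv_mem _ (hTN1 hw)
    have hwN' : c * g ∈ normalizer (U₁ : Set G) := hTN1 hw
    have hy : (c * g)⁻¹ * x * (c * g) ∈ normalizer (U₁ : Set G) :=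
      Subgroup.mul_mem _ (Subgroup.mul_mem _ hwN hx) hwN'
    have hz : g * ((c * g)⁻¹ * x * (c * g)) * g⁻¹ ∈ normalizer (U₂ : Set G) := by
      rw [heq]
      exact ⟨_, hy, by simp [MulAut.conj_apply]⟩
    have hfin : c * (g * ((c * g)⁻¹ * x * (c * g)) * g⁻¹) * c⁻¹ ∈ normalizer (U₂ : Set G) :=
      Subgroup.mul_mem _ (Subgroup.mul_mem _ hc hz) (Subgroup.inv_mem _ hc)
    have hsimp : c * (g * ((c * g)⁻¹ * x * (c * g)) * g⁻¹) * c⁻¹ = x := by group
    rwa [hsimp] at hfin
  have hN : normalizer (U₁ : Set G) = normalizer (U₂ : Set G) :=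
    Subgroup.eq_of_le_of_card_ge hN12 (by rw [card_normalizer_klein h hk1, card_normalizer_klein h hk2])
  obtain ⟨k, hkN, hkT⟩ : ∃ k ∈ normalizer (U₁ : Set G), k ∉ (T : Subgroup G) := by
    by_contra hno
    push Not at hno
    have : normalizer (U₁ : Set G) ≤ T := hno
    have h3 := Subgroup.card_le_of_le this
    rw [card_normalizer_klein h hk1, card_T h T] at h3
    omega
  have hkT' : k • T ≠ T := by
    intro heq'
    apply hkT
    rw [← normalizer_T h T]
    exact Sylow.smul_eq_iff_mem_normalizer.1 heq'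
  have hU : ∀ {U : Subgroup G}, U ≤ T → k ∈ normalizer (U : Set G) → U ≤ ((k • T : Sylow 2 G) : Subgroup G) := by
    intro U hUT hkU u hu
    apply mem_smul_sylow_iff.2
    apply hUT
    have hki : k⁻¹ ∈ normalizer (U : Set G) := Subgroup.inv_mem _ hkU
    have := (mem_normalizer_iff.1 hki u).1 hu
    simpa using this
  have hinf := card_inf_le h hkT'.symm
  have e1 : U₁ = (T : Subgroup G) ⊓ ((k • T : Sylow 2 G) : Subgroup G) :=
    Subgroup.eq_of_le_of_card_ge (le_inf h1 (hU h1 hkN)) (by rw [hc1]; exact hinf)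
  have e2 : U₂ = (T : Subgroup G) ⊓ ((k • T : Sylow 2 G) : Subgroup G) :=
    Subgroup.eq_of_le_of_card_ge (le_inf h2 (hU h2 (hN ▸ hkN))) (by rw [hc2]; exact hinf)
  exact hne (e1.trans e2.symm)

/-- Any subgroup of order 24 is the normalizer of a Klein four-subgroup. -/
theorem exists_klein_of_card_24 {M : Subgroup G} (hM : Nat.card M = 24) :
    ∃ U : Subgroup G, IsKleinFour ↥U ∧ M = normalizer (U : Set G) := by
  obtain ⟨Q⟩ : Nonempty (Sylow 2 ↥M) := inferInstance
  have hQc : Nat.card (Q : Subgroup ↥M) = 8 := by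
    rw [sylow_card_of_card_eq (a := 3) (m := 3) (by rw [hM]; norm_num) (by norm_num) Q]; norm_num
  obtain ⟨T₁, hT₁⟩ := exists_sylow2_eq h (K := (Q : Subgroup ↥M).map M.subtype)
    (by rw [Subgroup.card_map_of_injective M.subtype_injective, hQc])
  have hT₁M : (T₁ : Subgroup G) ≤ M := by
    rw [hT₁]; exact Subgroup.map_subtype_le _
  obtain ⟨g, hgM, hgT⟩ : ∃ g ∈ M, g ∉ (T₁ : Subgroup G) := by
    by_contra hno
    push Not at hno
    have : M ≤ T₁ := hno
    have h3 := Subgroup.card_le_of_le this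
    rw [hM, card_T h T₁] at h3
    omega
  have hne : T₁ ≠ g • T₁ := by
    intro heq'
    apply hgT
    rw [← normalizer_T h T₁]
    exact Sylow.smul_eq_iff_mem_normalizer.1 heq'.symm
  have hT₂M : ((g • T₁ : Sylow 2 G) : Subgroup G) ≤ M := by
    intro u hu
    have hu' := mem_smul_sylow_iff.1 hu
    have h1 : g⁻¹ * u * g ∈ M := hT₁M hu'
    have h2 : u = g * (g⁻¹ * u * g) * g⁻¹ := by group
    rw [h2]
    exact M.mul_mem (M.mul_mem hgM h1) (M.inv_mem hgM)
  set T₂ : Sylow 2 G := g • T₁ with hT₂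
  set U : Subgroup G := (T₁ : Subgroup G) ⊓ (T₂ : Subgroup G) with hU
  have hUM : U ≤ M := inf_le_left.trans hT₁M
  have hcU : Nat.card U = 4 := by
    have hle := card_inf_le h hne
    have hd : Nat.card U ∣ 8 := by
      have := Subgroup.card_dvd_of_le (inf_le_left : U ≤ T₁)
      rwa [card_T h T₁] at this
    have hidx := Subgroup.relIndex_inf_le (H := (T₁ : Subgroup G)) (K := (T₂ : Subgroup G)) (L := M)
    have h1 := card_mul_relIndex hT₁M
    have h2 := card_mul_relIndex hT₂M
    rw [hM, card_T h T₁] at h1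
    rw [hM, card_T h T₂] at h2
    have hr1 : (T₁ : Subgroup G).relIndex M = 3 := by omega
    have hr2 : (T₂ : Subgroup G).relIndex M = 3 := by omega
    rw [hr1, hr2] at hidx
    have h3 := card_mul_relIndex hUM
    rw [hM] at h3
    have hge : 3 ≤ Nat.card U := by
      by_contra hlt
      have : Nat.card U * U.relIndex M ≤ 2 * 9 := Nat.mul_le_mul (by omega) hidx
      omega
    interval_cases hv : Nat.card U <;> first | rfl | (exact absurd hd (by decide))
  have hsq : ∀ x ∈ U, x * x = 1 := by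
    intro x hx
    have hd : orderOf x ∣ 8 := by
      have := Subgroup.orderOf_dvd_natCard (T₁ : Subgroup G) hx.1
      rwa [card_T h T₁] at this
    have hx2 : x ^ 2 = 1 := by
      rcases orderOf_cases h x with h1 | h1 | h1 | h1 | h1
      · rw [orderOf_eq_one_iff.1 h1, one_pow]
      · have := pow_orderOf_eq_one x
        rwa [h1] at this
      · rw [h1] at hd; exact absurd hd (by decide)
      · exfalso
        have e1 := centralizer_sq h T₁ hx.1 h1
        have e2 := centralizer_sq h T₂ hx.2 h1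
        exact hne (Sylow.ext (e1.symm.trans e2))
      · rw [h1] at hd; exact absurd hd (by decide)
    rw [← pow_two]
    exact hx2
  have hk : IsKleinFour ↥U := isKleinFour_of_forall hcU hsq
  refine ⟨U, hk, ?_⟩
  have hN1 : (T₁ : Subgroup G) ≤ normalizer (U : Set G) :=
    le_normalizer_of_two_mul inf_le_left (by rw [card_T h T₁, hcU]) (by rw [hcU]; norm_num)
  have hN2 : (T₂ : Subgroup G) ≤ normalizer (U : Set G) :=
    le_normalizer_of_two_mul inf_le_right (by rw [card_T h T₂, hcU]) (by rw [hcU]; norm_num)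
  have hsupM : (T₁ : Subgroup G) ⊔ (T₂ : Subgroup G) ≤ M := sup_le hT₁M hT₂M
  have hsupN : (T₁ : Subgroup G) ⊔ (T₂ : Subgroup G) ≤ normalizer (U : Set G) := sup_le hN1 hN2
  have hcsup : Nat.card ↥((T₁ : Subgroup G) ⊔ (T₂ : Subgroup G)) = 24 := by
    have h8 : 8 ∣ Nat.card ↥((T₁ : Subgroup G) ⊔ (T₂ : Subgroup G)) := by
      have := Subgroup.card_dvd_of_le (le_sup_left : (T₁ : Subgroup G) ≤ (T₁ : Subgroup G) ⊔ (T₂ : Subgroup G))
      rwa [card_T h T₁] at this
    have hd : Nat.card ↥((T₁ : Subgroup G) ⊔ (T₂ : Subgroup G)) ∣ 24 := by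
      have := Subgroup.card_dvd_of_le hsupM
      rwa [hM] at this
    have hne8 : Nat.card ↥((T₁ : Subgroup G) ⊔ (T₂ : Subgroup G)) ≠ 8 := by
      intro h8'
      have e1 : (T₁ : Subgroup G) = (T₁ : Subgroup G) ⊔ (T₂ : Subgroup G) :=
        Subgroup.eq_of_le_of_card_ge le_sup_left (by rw [h8', card_T h T₁])
      have e2 : (T₂ : Subgroup G) = (T₁ : Subgroup G) ⊔ (T₂ : Subgroup G) :=
        Subgroup.eq_of_le_of_card_ge le_sup_right (by rw [h8', card_T h T₂])
      exact hne (Sylow.ext (e1.trans e2.symm))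
    obtain ⟨k, hk'⟩ := h8
    rw [hk'] at hd hne8 ⊢
    have hk3 : k ∣ 3 := Nat.dvd_of_mul_dvd_mul_left (by norm_num) hd
    rcases (Nat.dvd_prime (by norm_num)).1 hk3 with rfl | rfl
    · omega
    · rfl
  have hMsup : M ≤ (T₁ : Subgroup G) ⊔ (T₂ : Subgroup G) := by
    have := Subgroup.eq_of_le_of_card_ge hsupM (by rw [hM, hcsup])
    rw [this]
  apply Subgroup.eq_of_le_of_card_ge (hMsup.trans hsupN)
  rw [hM, card_normalizer_klein h hk]

/-- Any subgroup of order 21 is the normalizer of a Sylow 7-subgroup. -/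
theorem exists_sylow7_of_card_21 {M : Subgroup G} (hM : Nat.card M = 21) :
    ∃ P : Sylow 7 G, M = normalizer ((P : Subgroup G) : Set G) := by
  have hmem := card_sylow_mem_filter (G := ↥M) (p := 7) (a := 1) (m := 3) (by rw [hM]; norm_num) (by norm_num) (by norm_num)
  have hf : (Nat.divisors 3).filter (fun n => n % 7 = 1 % 7) = {1} := by decide +kernel
  rw [hf, Finset.mem_singleton] at hmem
  obtain ⟨Q⟩ : Nonempty (Sylow 7 ↥M) := inferInstance
  have hs : Subsingleton (Sylow 7 ↥M) := (Nat.card_eq_one_iff_unique.1 hmem).1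
  have hnorm : (Q : Subgroup ↥M).Normal := Sylow.normal_of_subsingleton Q
  have hQc : Nat.card (Q : Subgroup ↥M) = 7 := by
    rw [sylow_card_of_card_eq (a := 1) (m := 3) (by rw [hM]; norm_num) (by norm_num) Q]; norm_num
  have hWc : Nat.card ((Q : Subgroup ↥M).map M.subtype) = 7 := by
    rw [Subgroup.card_map_of_injective M.subtype_injective, hQc]
  obtain ⟨P, hP⟩ := exists_sylow_eq (p := 7) (K := (Q : Subgroup ↥M).map M.subtype)
    (by rw [IsPGroup.iff_card, hWc]; exact ⟨1, by norm_num⟩) (fun T => by rw [hWc, card_P7 h T])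
  refine ⟨P, ?_⟩
  rw [hP]
  apply Subgroup.eq_of_le_of_card_ge (le_normalizer_map_of_normal M _)
  rw [← hP, card_N7 h P, hM]

/-- Subgroups of order 12 normalize a Klein four-group. -/
theorem order12_le_klein {M : Subgroup G} (hM : Nat.card M = 12) :
    ∃ U : Subgroup G, IsKleinFour ↥U ∧ M ≤ normalizer (U : Set G) := by
  classical
  have hmem := card_sylow_mem_filter (G := ↥M) (p := 3) (a := 1) (m := 4) (by rw [hM]; norm_num) (by norm_num) (by norm_num)
  have hf : (Nat.divisors 4).filter (fun n => n % 3 = 1 % 3) = {1, 4} := by decide +kernel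
  rw [hf] at hmem
  simp only [Finset.mem_insert, Finset.mem_singleton] at hmem
  have hQc : ∀ Q : Sylow 3 ↥M, Nat.card (Q : Subgroup ↥M) = 3 := by
    intro Q
    rw [sylow_card_of_card_eq (a := 1) (m := 4) (by rw [hM]; norm_num) (by norm_num) Q]; norm_num
  obtain ⟨Q⟩ : Nonempty (Sylow 3 ↥M) := inferInstance
  rcases hmem with h1 | h4
  · exfalso
    have hs : Subsingleton (Sylow 3 ↥M) := (Nat.card_eq_one_iff_unique.1 h1).1
    have hnorm : (Q : Subgroup ↥M).Normal := Sylow.normal_of_subsingleton Q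
    have hWc : Nat.card ((Q : Subgroup ↥M).map M.subtype) = 3 := by
      rw [Subgroup.card_map_of_injective M.subtype_injective, hQc Q]
    obtain ⟨P, hP⟩ := exists_sylow_eq (p := 3) (K := (Q : Subgroup ↥M).map M.subtype)
      (by rw [IsPGroup.iff_card, hWc]; exact ⟨1, by norm_num⟩) (fun T => by rw [hWc, card_P3 h T])
    have hle := le_normalizer_map_of_normal M (Q : Subgroup ↥M)
    rw [← hP] at hle
    have := Subgroup.card_le_of_le hle
    rw [hM, card_N3 h P] at this
    omega
  · -- eight elements of order 3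
    have h8 : Nat.card {g : ↥M // orderOf g = 3} = 8 := by
      rw [card_orderOf_eq_prime hQc, h4]
    have hcompl : Nat.card {g : ↥M // ¬ orderOf g = 3} = 4 := by
      have e := Equiv.sumCompl (fun g : ↥M => orderOf g = 3)
      have h2 := Nat.card_congr e
      have : Finite {g : ↥M // orderOf g = 3} := inferInstance
      have : Finite {g : ↥M // ¬ orderOf g = 3} := inferInstance
      rw [Nat.card_sum, h8, hM] at h2
      omega
    have hRc : ∀ R : Sylow 2 ↥M, Nat.card (R : Subgroup ↥M) = 4 := by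
      intro R
      rw [sylow_card_of_card_eq (a := 2) (m := 3) (by rw [hM]; norm_num) (by norm_num) R]; norm_num
    have hRmem : ∀ R : Sylow 2 ↥M, ∀ g : ↥M, ¬ orderOf g = 3 → g ∈ (R : Subgroup ↥M) := by
      intro R g hg
      let f : ↥(R : Subgroup ↥M) → {g : ↥M // ¬ orderOf g = 3} := fun x => ⟨x.1, by
        intro h3
        have hd := Subgroup.orderOf_dvd_natCard (R : Subgroup ↥M) x.2
        rw [hRc R, h3] at hd
        exact absurd hd (by decide)⟩
      have hfi : Function.Injective f := by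
        intro x y hxy
        exact Subtype.ext (congrArg (fun z : {g : ↥M // ¬ orderOf g = 3} => z.1) hxy)
      have hb := hfi.bijective_of_nat_card_le (by rw [hcompl, hRc R])
      obtain ⟨x, hx⟩ := hb.2 ⟨g, hg⟩
      have : x.1 = g := congrArg (fun z : {g : ↥M // ¬ orderOf g = 3} => z.1) hx
      rw [← this]
      exact x.2
    obtain ⟨R⟩ : Nonempty (Sylow 2 ↥M) := inferInstance
    have hs : Subsingleton (Sylow 2 ↥M) := by
      refine ⟨fun A B => ?_⟩
      apply Sylow.ext
      apply Subgroup.eq_of_le_of_card_ge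
      · intro g hg
        apply hRmem B g
        intro h3
        have hd := Subgroup.orderOf_dvd_natCard (A : Subgroup ↥M) hg
        rw [hRc A, h3] at hd
        exact absurd hd (by decide)
      · rw [hRc A, hRc B]
    have hnorm : (R : Subgroup ↥M).Normal := Sylow.normal_of_subsingleton R
    refine ⟨(R : Subgroup ↥M).map M.subtype, ?_, le_normalizer_map_of_normal M _⟩
    have hWc : Nat.card ((R : Subgroup ↥M).map M.subtype) = 4 := by
      rw [Subgroup.card_map_of_injective M.subtype_injective, hRc R]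
    apply isKleinFour_of_forall hWc
    intro x hx
    have hd : orderOf x ∣ 4 := by
      have := Subgroup.orderOf_dvd_natCard _ hx
      rwa [hWc] at this
    rw [← pow_two]
    by_contra hne
    have ho4 : orderOf x = 4 := by
      have hle := Nat.le_of_dvd (by norm_num) hd
      have h2 : ¬ orderOf x ∣ 2 := fun h2 => hne (orderOf_dvd_iff_pow_eq_one.1 h2)
      interval_cases hv : orderOf x
      · simp at hd
      · exact absurd (one_dvd 2) h2
      · exact absurd (dvd_refl 2) h2
      · exact absurd hd (by decide)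
      · rfl
    have hz : zpowers x = (R : Subgroup ↥M).map M.subtype := by
      apply Subgroup.eq_of_le_of_card_ge (by rwa [Subgroup.zpowers_le])
      rw [hWc, Nat.card_zpowers, ho4]
    -- an element of order 3
    obtain ⟨y, hy⟩ := exists_prime_orderOf_dvd_card' (G := ↥M) 3 (by rw [hM]; norm_num)
    have hy' : orderOf (y : G) = 3 := by rw [Subgroup.orderOf_coe]; exact hy
    have hyN : (y : G) ∈ normalizer ((zpowers x : Subgroup G) : Set G) := by
      rw [hz]
      exact le_normalizer_map_of_normal M _ y.2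
    have hcomm := conj_sq_of_normalizes ho4 hyN
    have hx2C : x ^ 2 ∈ centralizer ({(y : G)} : Set G) := by
      rw [mem_centralizer_singleton_iff]
      calc x ^ 2 * y = (y * x ^ 2 * (y : G)⁻¹) * y := by rw [hcomm]
        _ = y * x ^ 2 := by group
    rw [centralizer_of_order3 h hy'] at hx2C
    have hd2 := Subgroup.orderOf_dvd_natCard _ hx2C
    rw [Nat.card_zpowers, hy', orderOf_sq_of_order4 h ho4] at hd2
    exact absurd hd2 (by decide)

/-- The normalizer of a Sylow 3-subgroup lies in the normalizer of a Klein four-group. -/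
theorem normalizer_P3_le_klein (P : Sylow 3 G) :
    ∃ U : Subgroup G, IsKleinFour ↥U ∧ normalizer ((P : Subgroup G) : Set G) ≤ normalizer (U : Set G) := by
  obtain ⟨T⟩ : Nonempty (Sylow 2 G) := inferInstance
  obtain ⟨U₀, _, _, _, _, hk₀, _, _⟩ := klein_in_T h T
  obtain ⟨y₀, hy₀⟩ := exists_prime_orderOf_dvd_card' (G := ↥(normalizer (U₀ : Set G))) 3
    (by rw [card_normalizer_klein h hk₀]; norm_num)
  have hy₀' : orderOf (y₀ : G) = 3 := by rw [Subgroup.orderOf_coe]; exact hy₀
  obtain ⟨Q, hQ⟩ := exists_sylow_mem_of_orderOf hy₀'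
  obtain ⟨g, hg⟩ := MulAction.exists_smul_eq G Q P
  set U : Subgroup G := U₀.map (MulAut.conj g).toMonoidHom with hU
  have hk : IsKleinFour ↥U := isKleinFour_map_conj hk₀ g
  refine ⟨U, hk, ?_⟩
  set y : G := g * y₀ * g⁻¹ with hy
  have hyo : orderOf y = 3 := by
    rw [← hy₀']
    exact (orderOf_eq_of_isConj (isConj_iff.2 ⟨g, rfl⟩)).symm
  have hyP : y ∈ (P : Subgroup G) := by
    rw [← hg]
    apply mem_smul_sylow_iff.2
    have : g⁻¹ * y * g = y₀ := by rw [hy]; group
    rw [this]
    exact hQ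
  have hne : y ≠ 1 := by
    intro h1; rw [h1, orderOf_one] at hyo; omega
  have hz : zpowers y = (P : Subgroup G) := zpowers_eq_of_mem_of_ne_one (by norm_num) (card_P3 h P) hyP hne
  have hyK : y ∈ normalizer (U : Set G) := by
    rw [hU, normalizer_map_conj]
    exact ⟨y₀, y₀.2, rfl⟩
  obtain ⟨e⟩ := normalizer_klein_iso h hk
  let y' : ↥(normalizer (U : Set G)) := ⟨y, hyK⟩
  have h3 : (e y') ^ 3 = 1 := by
    rw [← map_pow]
    have : y' ^ 3 = 1 := by
      apply Subtype.ext
      have := pow_orderOf_eq_one y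
      rw [hyo] at this
      exact this
    rw [this, map_one]
  have hne' : e y' ≠ 1 := by
    intro h1
    have : y' = 1 := by
      apply e.injective
      rw [h1, map_one]
    exact hne (congrArg Subtype.val this)
  obtain ⟨w', hw'⟩ := s4_inverts _ h3 hne'
  let w : ↥(normalizer (U : Set G)) := e.symm w'
  have hw : w * y' * w⁻¹ = y'⁻¹ := by
    apply e.injective
    rw [map_mul, map_mul, map_inv, map_inv]
    simp only [w, MulEquiv.apply_symm_apply]
    exact hw'
  have hw2 : (w : G) * y * (w : G)⁻¹ = y⁻¹ := congrArg Subtype.val hw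
  have hwN : (w : G) ∈ normalizer ((P : Subgroup G) : Set G) := by
    rw [← hz]
    exact mem_normalizer_zpowers_of_conj_inv hw2
  have hwP : (w : G) ∉ (P : Subgroup G) := by
    intro hwP
    rw [← hz] at hwP
    obtain ⟨k, hk'⟩ := Subgroup.mem_zpowers_iff.1 hwP
    have hc : Commute (w : G) y := by
      rw [← hk']
      exact (Commute.refl y).zpow_left k
    have h5 : (w : G) * y * (w : G)⁻¹ = y := by
      rw [hc.eq]; group
    rw [h5] at hw2
    have h6 : y ^ 2 = 1 := by
      rw [pow_two]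
      nth_rewrite 1 [hw2]
      group
    have := orderOf_le_of_pow_eq_one (by norm_num) h6
    omega
  -- the intersection
  have hPK : (P : Subgroup G) ≤ normalizer (U : Set G) := by
    rw [← hz, Subgroup.zpowers_le]
    exact hyK
  set L : Subgroup G := normalizer ((P : Subgroup G) : Set G) ⊓ normalizer (U : Set G) with hL
  have hPL : (P : Subgroup G) ≤ L := le_inf Subgroup.le_normalizer hPK
  have hwL : (w : G) ∈ L := ⟨hwN, w.2⟩
  have hd6 : Nat.card L ∣ 6 := by
    have := Subgroup.card_dvd_of_le (inf_le_left : L ≤ normalizer ((P : Subgroup G) : Set G))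
    rwa [card_N3 h P] at this
  have hd3 : 3 ∣ Nat.card L := by
    have := Subgroup.card_dvd_of_le hPL
    rwa [card_P3 h P] at this
  have hne3 : Nat.card L ≠ 3 := by
    intro h3'
    have : (P : Subgroup G) = L := Subgroup.eq_of_le_of_card_ge hPL (by rw [h3', card_P3 h P])
    rw [← this] at hwL
    exact hwP hwL
  have h6 : Nat.card L = 6 := by
    obtain ⟨k, hk'⟩ := hd3
    rw [hk'] at hd6 hne3 ⊢
    have hk2 : k ∣ 2 := Nat.dvd_of_mul_dvd_mul_left (by norm_num) hd6
    rcases (Nat.dvd_prime Nat.prime_two).1 hk2 with rfl | rfl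
    · omega
    · rfl
  have hLeq : L = normalizer ((P : Subgroup G) : Set G) :=
    Subgroup.eq_of_le_of_card_ge inf_le_left (by rw [card_N3 h P, h6])
  rw [← hLeq]
  exact inf_le_right

/-- The order of a coatom. -/
theorem coatom_card {M : Subgroup G} (hM : IsCoatom M) : Nat.card M = 21 ∨ Nat.card M = 24 := by
  have hG := nonab h
  have hemb := two_mul_card_dvd_factorial_index hG M hM.1
  have hcm := Subgroup.card_mul_index M
  rw [h] at hcm hemb
  have hd : Nat.card M ∈ Nat.divisors 168 := by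
    rw [Nat.mem_divisors]
    exact ⟨⟨_, hcm.symm⟩, by norm_num⟩
  have hdiv : Nat.divisors 168 = {1, 2, 3, 4, 6, 7, 8, 12, 14, 21, 24, 28, 42, 56, 84, 168} := by decide +kernel
  rw [hdiv] at hd
  have hNne : ∀ {U : Subgroup G}, IsKleinFour ↥U → normalizer (U : Set G) ≠ ⊤ := by
    intro U hk e
    have := card_normalizer_klein h hk
    rw [e, Subgroup.card_top, h] at this
    omega
  -- 2-subgroups are not coatoms
  have h2grp : IsPGroup 2 M → False := by
    intro hpg
    obtain ⟨T', hT'⟩ := hpg.exists_le_sylow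
    obtain ⟨U, _, _, hUT, _, hkU, _, _⟩ := klein_in_T h T'
    have hcU := hkU.card_four
    have hN : (T' : Subgroup G) ≤ normalizer (U : Set G) :=
      le_normalizer_of_two_mul hUT (by rw [card_T h T', hcU]) (by rw [hcU]; norm_num)
    apply not_isCoatom_of_le (hT'.trans hN) (hNne hkU) _ hM
    rw [card_normalizer_klein h hkU]
    have := Subgroup.card_le_of_le hT'
    rw [card_T h T'] at this
    omega
  have h2grp' : ∀ k, Nat.card M = 2 ^ k → False := fun k hk =>
    h2grp (IsPGroup.iff_card.2 ⟨k, hk⟩)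
  simp only [Finset.mem_insert, Finset.mem_singleton] at hd
  rcases hd with h1 | h1 | h1 | h1 | h1 | h1 | h1 | h1 | h1 | h1 | h1 | h1 | h1 | h1 | h1 | h1
  · exact (h2grp' 0 (by rw [h1]; norm_num)).elim
  · exact (h2grp' 1 (by rw [h1]; norm_num)).elim
  · -- order 3
    exfalso
    obtain ⟨P, hP⟩ := exists_sylow_eq (p := 3) (K := M)
      (by rw [IsPGroup.iff_card, h1]; exact ⟨1, by norm_num⟩) (fun T => by rw [h1, card_P3 h T])
    have hNP : normalizer ((P : Subgroup G) : Set G) ≠ ⊤ := normalizer_sylow_ne_top hG (by rw [h]; norm_num) P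
    apply not_isCoatom_of_le (L := normalizer ((P : Subgroup G) : Set G)) _ hNP _ hM
    · rw [← hP]; exact Subgroup.le_normalizer
    · rw [card_N3 h P, h1]; norm_num
  · exact (h2grp' 2 (by rw [h1]; norm_num)).elim
  · -- order 6
    exfalso
    obtain ⟨x, hx⟩ := exists_prime_orderOf_dvd_card' (G := ↥M) 3 (by rw [h1]; norm_num)
    have hx' : orderOf (x : G) = 3 := by rw [Subgroup.orderOf_coe]; exact hx
    obtain ⟨P, hP⟩ := exists_sylow_mem_of_orderOf hx'
    have hne : (x : G) ≠ 1 := by
      intro e; rw [e, orderOf_one] at hx'; omega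
    have hz : zpowers (x : G) = (P : Subgroup G) :=
      zpowers_eq_of_mem_of_ne_one (by norm_num) (card_P3 h P) hP hne
    have hPM : (P : Subgroup G) ≤ M := by
      rw [← hz, Subgroup.zpowers_le]; exact x.2
    have hMN : M ≤ normalizer ((P : Subgroup G) : Set G) :=
      le_normalizer_of_two_mul hPM (by rw [h1, card_P3 h P]) (by rw [card_P3 h P]; norm_num)
    obtain ⟨U, hkU, hNU⟩ := normalizer_P3_le_klein h P
    apply not_isCoatom_of_le (hMN.trans hNU) (hNne hkU) _ hM
    rw [card_normalizer_klein h hkU, h1]; norm_num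
  · -- order 7
    exfalso
    obtain ⟨P, hP⟩ := exists_sylow_eq (p := 7) (K := M)
      (by rw [IsPGroup.iff_card, h1]; exact ⟨1, by norm_num⟩) (fun T => by rw [h1, card_P7 h T])
    have hNP : normalizer ((P : Subgroup G) : Set G) ≠ ⊤ := normalizer_sylow_ne_top hG (by rw [h]; norm_num) P
    apply not_isCoatom_of_le (L := normalizer ((P : Subgroup G) : Set G)) _ hNP _ hM
    · rw [← hP]; exact Subgroup.le_normalizer
    · rw [card_N7 h P, h1]; norm_num
  · exact (h2grp' 3 (by rw [h1]; norm_num)).elim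
  · -- order 12
    exfalso
    obtain ⟨U, hkU, hNU⟩ := order12_le_klein h h1
    apply not_isCoatom_of_le hNU (hNne hkU) _ hM
    rw [card_normalizer_klein h hkU, h1]; norm_num
  · -- order 14
    exfalso
    obtain ⟨x, hx⟩ := exists_prime_orderOf_dvd_card' (G := ↥M) 7 (by rw [h1]; norm_num)
    have hx' : orderOf (x : G) = 7 := by rw [Subgroup.orderOf_coe]; exact hx
    obtain ⟨P, hP⟩ := exists_sylow_mem_of_orderOf hx'
    have hne : (x : G) ≠ 1 := by
      intro e; rw [e, orderOf_one] at hx'; omega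
    have hz : zpowers (x : G) = (P : Subgroup G) :=
      zpowers_eq_of_mem_of_ne_one (by norm_num) (card_P7 h P) hP hne
    have hPM : (P : Subgroup G) ≤ M := by
      rw [← hz, Subgroup.zpowers_le]; exact x.2
    have hMN : M ≤ normalizer ((P : Subgroup G) : Set G) :=
      le_normalizer_of_two_mul hPM (by rw [h1, card_P7 h P]) (by rw [card_P7 h P]; norm_num)
    have hdvd := Subgroup.card_dvd_of_le hMN
    rw [h1, card_N7 h P] at hdvd
    exact absurd hdvd (by decide)
  · exact Or.inl h1
  · exact Or.inr h1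
  all_goals
    exfalso
    rw [h1] at hcm
    have hi : M.index ≤ 6 := by omega
    have hfac : M.index.factorial ∣ 720 := Nat.factorial_dvd_factorial hi
    have : 2 * 168 ∣ 720 := hemb.trans hfac
    exact absurd this (by decide)

/-- Maximal subgroups: the full statement. -/
theorem maximal_subgroups :
    (∀ M : Subgroup G, IsCoatom M → Nonempty (↥M ≃* Equiv.Perm (Fin 4)) ∨ (Nat.card ↥M = 21 ∧ ¬ IsMulCommutative ↥M)) ∧
    (∀ M M' : Subgroup G, IsCoatom M → IsCoatom M' → Nat.card ↥M = 21 → Nat.card ↥M' = 21 →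
      ∃ g : G, M' = M.map (MulAut.conj g).toMonoidHom) ∧
    ∃ M₁ M₂ : Subgroup G, IsCoatom M₁ ∧ IsCoatom M₂ ∧ Nonempty (↥M₁ ≃* Equiv.Perm (Fin 4)) ∧
      Nonempty (↥M₂ ≃* Equiv.Perm (Fin 4)) ∧ (∀ g : G, M₂ ≠ M₁.map (MulAut.conj g).toMonoidHom) ∧
      ∀ M : Subgroup G, IsCoatom M → Nonempty (↥M ≃* Equiv.Perm (Fin 4)) →
        ∃ g : G, M = M₁.map (MulAut.conj g).toMonoidHom ∨ M = M₂.map (MulAut.conj g).toMonoidHom := by
  refine ⟨?_, ?_, ?_⟩
  · intro M hM
    rcases coatom_card h hM with h21 | h24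
    · right
      refine ⟨h21, ?_⟩
      obtain ⟨P, hP⟩ := exists_sylow7_of_card_21 h h21
      intro hc
      have hPM : (P : Subgroup G) ≤ M := by rw [hP]; exact Subgroup.le_normalizer
      have hle : M ≤ centralizer ((P : Subgroup G) : Set G) := by
        intro u hu
        rw [mem_centralizer_iff]
        intro v hv
        exact congrArg Subtype.val (hc.is_comm.comm ⟨v, hPM hv⟩ ⟨u, hu⟩)
      rw [cent7 h P] at hle
      have := Subgroup.card_le_of_le hle
      rw [h21, card_P7 h P] at this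
      omega
    · left
      obtain ⟨U, hkU, rfl⟩ := exists_klein_of_card_24 h h24
      exact normalizer_klein_iso h hkU
  · intro M M' _ _ h21 h21'
    obtain ⟨P, rfl⟩ := exists_sylow7_of_card_21 h h21
    obtain ⟨P', rfl⟩ := exists_sylow7_of_card_21 h h21'
    obtain ⟨g, hg⟩ := MulAction.exists_smul_eq G P P'
    refine ⟨g, ?_⟩
    rw [← hg, ← normalizer_map_conj]
    rfl
  · obtain ⟨T⟩ : Nonempty (Sylow 2 G) := inferInstance
    obtain ⟨U₁, U₂, hne, h1, h2, hk1, hk2, hall⟩ := klein_in_T h T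
    have hcoat : ∀ {U : Subgroup G}, IsKleinFour ↥U → IsCoatom (normalizer (U : Set G)) := by
      intro U hk
      have hcN := card_normalizer_klein h hk
      have hidx : (normalizer (U : Set G)).index = 7 := by
        have := Subgroup.card_mul_index (normalizer (U : Set G))
        rw [hcN, h] at this
        omega
      constructor
      · intro e
        rw [e, Subgroup.card_top, h] at hcN
        omega
      · intro L hL
        have hd : L.index ∣ 7 := by
          rw [← hidx]
          exact Subgroup.index_dvd_of_le hL.le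
        rcases (Nat.dvd_prime (by norm_num)).1 hd with h3 | h3
        · exact Subgroup.index_eq_one.1 h3
        · exfalso
          have h4 := Subgroup.card_mul_index L
          rw [h3, h] at h4
          have h5 : Nat.card L = 24 := by omega
          have h6 : normalizer (U : Set G) = L := Subgroup.eq_of_le_of_card_ge hL.le (by rw [h5, hcN])
          exact hL.ne h6
    refine ⟨_, _, hcoat hk1, hcoat hk2, normalizer_klein_iso h hk1, normalizer_klein_iso h hk2,
      fun g => normalizer_not_conj h T hne h1 h2 hk1 hk2 g, ?_⟩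
    intro M hM hiso
    obtain ⟨e⟩ := hiso
    have h24 : Nat.card M = 24 := by
      rw [Nat.card_congr e.toEquiv, Nat.card_perm]
      simp [Nat.factorial]
    obtain ⟨U, hkU, rfl⟩ := exists_klein_of_card_24 h h24
    -- `U` lies in a conjugate of `T`
    have hpg : IsPGroup 2 U := by
      rw [IsPGroup.iff_card, hkU.card_four]
      exact ⟨2, by norm_num⟩
    obtain ⟨T', hT'⟩ := hpg.exists_le_sylow
    obtain ⟨g, hg⟩ := MulAction.exists_smul_eq G T T'
    set U' : Subgroup G := U.map (MulAut.conj g⁻¹).toMonoidHom with hU'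
    have hkU' : IsKleinFour ↥U' := isKleinFour_map_conj hkU g⁻¹
    have hU'T : U' ≤ T := by
      rintro _ ⟨u, hu, rfl⟩
      have h3 : u ∈ ((g • T : Sylow 2 G) : Subgroup G) := by rw [hg]; exact hT' hu
      have h4 := mem_smul_sylow_iff.1 h3
      simpa [MulAut.conj_apply] using h4
    have hUU' : U = U'.map (MulAut.conj g).toMonoidHom := by
      rw [hU', Subgroup.map_map]
      have : (MulAut.conj g).toMonoidHom.comp (MulAut.conj g⁻¹).toMonoidHom = MonoidHom.id G := by
        ext x
        simp [MulAut.conj_apply]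
        group
      rw [this, Subgroup.map_id]
    refine ⟨g, ?_⟩
    rcases hall U' hU'T hkU' with e1 | e1
    · left
      rw [← normalizer_map_conj, ← e1, ← hUU']
    · right
      rw [← normalizer_map_conj, ← e1, ← hUU']

end S168

end Cfsg.Agent.Lib.Small168K
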