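import Mathlib
import Cfsg.Agent.Lib.SmallA879

/-!
# Four-groups and quaternion groups with an odd automorphism
-/

set_option autoImplicit false
set_option linter.unusedSectionVars false
set_option linter.style.haveILetI false

namespace Cfsg.Agent.Lib.SmallQ879

open Cfsg.Agent.Lib.SmallA879

section elem

variable {G : Type*} [Group G] [Finite G]

/-- A variant of `odd_trivial` with a hypothesis on the element only. -/
lemma odd_trivial' (α : MulAut G) (hodd : Odd (orderOf α)) {x u : G} {k : ℕ}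
    (hk : orderOf u = 2 ^ k) (hu : α u = u) (hx : α x = x * u) : u = 1 := by
  have h1 := pow_apply_of α hu hx (orderOf α)
  rw [pow_orderOf_eq_one, MulAut.one_apply] at h1
  have h3 : u ^ orderOf α = 1 := by
    have h4 : x * u ^ orderOf α = x * 1 := by rw [mul_one]; exact h1.symm
    exact mul_left_cancel h4
  have h5 : orderOf u ∣ orderOf α := orderOf_dvd_of_pow_eq_one h3
  rw [hk] at h5
  have h6 : Nat.Coprime (2 ^ k) (orderOf α) := Nat.Coprime.pow_left k (Nat.coprime_two_left.mpr hodd)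
  have h7 : 2 ^ k = 1 := Nat.Coprime.eq_one_of_dvd h6 h5
  rw [h7] at hk
  exact orderOf_eq_one_iff.mp hk

/-- A fixed point in a non-trivial 2-group for an automorphism of 2-power order. -/
lemma exists_fixed_aut {T : Type*} [Group T] [Finite T] (h2 : IsPGroup 2 T) (hT : Nontrivial T)
    (γ : MulAut T) {k : ℕ} (hγ : orderOf γ = 2 ^ k) : ∃ u : T, u ≠ 1 ∧ γ u = u := by
  haveI : Fact (Nat.Prime 2) := ⟨Nat.prime_two⟩
  have hp : IsPGroup 2 (Subgroup.zpowers γ) := by
    apply IsPGroup.of_card (n := k)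
    rw [Nat.card_zpowers, hγ]
  have hdvd : 2 ∣ Nat.card T := by
    rcases h2.card_eq_or_dvd with h | h
    · exfalso
      exact (Finite.one_lt_card_iff_nontrivial.mpr hT).ne' h
    · exact h
  have h1 : (1 : T) ∈ MulAction.fixedPoints (Subgroup.zpowers γ) T := by
    intro g
    exact map_one (g : MulAut T)
  obtain ⟨b, hb, hne⟩ := hp.exists_fixed_point_of_prime_dvd_card_of_fixed_point T hdvd h1
  refine ⟨b, hne.symm, ?_⟩
  exact hb ⟨γ, Subgroup.mem_zpowers γ⟩

end elem

section v4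

variable {G : Type*} [Group G] [Finite G]

lemma v4_sq {W : Subgroup G} (hc : Nat.card W = 4) (hnc : ¬ IsCyclic W) : ∀ w ∈ W, w ^ 2 = 1 := by
  intro w hw
  have h1 : orderOf (⟨w, hw⟩ : W) ∣ 4 := hc ▸ orderOf_dvd_natCard _
  have h2 : orderOf (⟨w, hw⟩ : W) ≠ 4 := fun h =>
    hnc (isCyclic_of_orderOf_eq_card _ (by rw [h, hc]))
  have h3 : orderOf (⟨w, hw⟩ : W) ∣ 2 := by
    have h4 := Nat.le_of_dvd (by norm_num) h1
    generalize orderOf (⟨w, hw⟩ : W) = n at h1 h2 h4
    interval_cases n <;> first | omega | norm_num at h1 ⊢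
  have h5 := orderOf_dvd_iff_pow_eq_one.mp h3
  exact congrArg Subtype.val h5

lemma comm_of_sq {W : Subgroup G} (h : ∀ w ∈ W, w ^ 2 = 1) : ∀ a ∈ W, ∀ b ∈ W, a * b = b * a := by
  intro a ha b hb
  have h1 := h _ (W.mul_mem ha hb)
  have h2 := h _ ha
  have h3 := h _ hb
  have h4 : a⁻¹ = a := inv_eq_of_mul_eq_one_left (by rw [← pow_two]; exact h2)
  have h5 : b⁻¹ = b := inv_eq_of_mul_eq_one_left (by rw [← pow_two]; exact h3)
  have h6 : (a * b)⁻¹ = a * b := inv_eq_of_mul_eq_one_left (by rw [← pow_two]; exact h1)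
  rw [mul_inv_rev, h4, h5] at h6
  exact h6.symm

lemma v4_elems {W : Subgroup G} (hc : Nat.card W = 4) (hnc : ¬ IsCyclic W) {w v : G} (hw : w ∈ W)
    (hv : v ∈ W) (hw1 : w ≠ 1) (hv1 : v ≠ 1) (hwv : w ≠ v) :
    ∀ x ∈ W, x = 1 ∨ x = w ∨ x = v ∨ x = w * v := by
  classical
  have hsq := v4_sq hc hnc
  intro x hx
  by_contra hno
  push Not at hno
  obtain ⟨h1, h2, h3, h4⟩ := hno
  have hne1 : w * v ≠ 1 := by
    intro h
    apply hwv
    have h5 : w⁻¹ = w := inv_eq_of_mul_eq_one_left (by rw [← pow_two]; exact hsq w hw)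
    have h6 : v = w⁻¹ := eq_inv_of_mul_eq_one_right h
    rw [h6, h5]
  have hne2 : w * v ≠ w := fun h => hv1 (by simpa using h)
  have hne3 : w * v ≠ v := fun h => hw1 (by simpa using h)
  haveI : Fintype W := Fintype.ofFinite W
  let S : Finset W := {1, ⟨w, hw⟩, ⟨v, hv⟩, ⟨w * v, W.mul_mem hw hv⟩, ⟨x, hx⟩}
  have hS : S.card = 5 := by
    have e1 : (1 : W) ≠ ⟨w, hw⟩ := fun h => hw1 (congrArg Subtype.val h).symm
    have e2 : (1 : W) ≠ ⟨v, hv⟩ := fun h => hv1 (congrArg Subtype.val h).symm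
    have e3 : (1 : W) ≠ ⟨w * v, W.mul_mem hw hv⟩ := fun h => hne1 (congrArg Subtype.val h).symm
    have e4 : (1 : W) ≠ ⟨x, hx⟩ := fun h => h1 (congrArg Subtype.val h).symm
    have e5 : (⟨w, hw⟩ : W) ≠ ⟨v, hv⟩ := fun h => hwv (congrArg Subtype.val h)
    have e6 : (⟨w, hw⟩ : W) ≠ ⟨w * v, W.mul_mem hw hv⟩ := fun h => hne2 (congrArg Subtype.val h).symm
    have e7 : (⟨w, hw⟩ : W) ≠ ⟨x, hx⟩ := fun h => h2 (congrArg Subtype.val h).symm
    have e8 : (⟨v, hv⟩ : W) ≠ ⟨w * v, W.mul_mem hw hv⟩ := fun h => hne3 (congrArg Subtype.val h).symm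
    have e9 : (⟨v, hv⟩ : W) ≠ ⟨x, hx⟩ := fun h => h3 (congrArg Subtype.val h).symm
    have e10 : (⟨w * v, W.mul_mem hw hv⟩ : W) ≠ ⟨x, hx⟩ := fun h => h4 (congrArg Subtype.val h).symm
    simp only [S]
    rw [Finset.card_insert_of_notMem, Finset.card_insert_of_notMem, Finset.card_insert_of_notMem,
      Finset.card_insert_of_notMem, Finset.card_singleton]
    · simpa using e10
    · simp [e8, e9]
    · simp [e5, e6, e7]
    · simp [e1, e2, e3, e4]
  have h5 : S.card ≤ Fintype.card W := Finset.card_le_univ S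
  rw [← Nat.card_eq_fintype_card, hc, hS] at h5
  omega

/-- An odd automorphism of a four-group is trivial or fixed-point-free. -/
lemma v4_fix {W : Subgroup G} (hc : Nat.card W = 4) (hnc : ¬ IsCyclic W) (h2 : IsPGroup 2 W)
    (α : MulAut G) (hodd : Odd (orderOf α)) (hα : ∀ x, α x ∈ W ↔ x ∈ W) {w : G} (hw : w ∈ W)
    (hw1 : w ≠ 1) (hfix : α w = w) : ∀ x ∈ W, α x = x := by
  have hsq := v4_sq hc hnc
  intro x hx
  by_cases hx1 : x = 1
  · rw [hx1, map_one]
  by_cases hxw : x = w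
  · rw [hxw, hfix]
  rcases v4_elems hc hnc hw hx hw1 hx1 (fun h => hxw h.symm) _ ((hα x).2 hx) with h | h | h | h
  · exfalso
    apply hx1
    apply α.injective
    rw [h, map_one]
  · exfalso
    apply hxw
    apply α.injective
    rw [h, hfix]
  · exact h
  · exfalso
    apply hw1
    obtain ⟨k, hk⟩ := (IsPGroup.iff_orderOf.mp h2) ⟨w, hw⟩
    have hk' : orderOf w = 2 ^ k := by
      rw [← hk]
      exact (Subgroup.orderOf_mk w hw).symm
    have h3 : α x = x * w := by
      rw [h]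
      exact comm_of_sq hsq _ hw _ hx
    exact odd_trivial' α hodd hk' hfix h3

/-- Invariant subgroups of a four-group with a non-trivial odd automorphism. -/
lemma v4_inv {W : Subgroup G} (hc : Nat.card W = 4) (hnc : ¬ IsCyclic W) (h2 : IsPGroup 2 W)
    (α : MulAut G) (hodd : Odd (orderOf α)) (hα : ∀ x, α x ∈ W ↔ x ∈ W)
    (hnt : ∃ x ∈ W, α x ≠ x) {W₀ : Subgroup G} (hW₀ : W₀ ≤ W) (hinv : ∀ x ∈ W₀, α x ∈ W₀)
    (hne : W₀ ≠ ⊥) : W₀ = W := by
  apply le_antisymm hW₀
  obtain ⟨⟨w, hw⟩, hw1⟩ := (Subgroup.ne_bot_iff_exists_ne_one).mp hne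
  have hw1' : w ≠ 1 := fun h => hw1 (Subtype.ext h)
  have hαw : α w ≠ w := by
    intro hfix
    obtain ⟨x, hx, hx1⟩ := hnt
    exact hx1 (v4_fix hc hnc h2 α hodd hα (hW₀ hw) hw1' hfix x hx)
  have hαw1 : α w ≠ 1 := by
    intro h
    apply hw1'
    apply α.injective
    rw [h, map_one]
  intro x hx
  rcases v4_elems hc hnc (hW₀ hw) (hW₀ (hinv w hw)) hw1' hαw1 (fun h => hαw h.symm) x hx with
    h | h | h | h
  · rw [h]; exact W₀.one_mem
  · rw [h]; exact hw
  · rw [h]; exact hinv w hw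
  · rw [h]; exact W₀.mul_mem hw (hinv w hw)

end v4

section q8

abbrev Q8 := QuaternionGroup 2

/-- Evaluation of an endomorphism of `Q8` on words in the generators. -/
def wordQ (p q : Q8) : Q8 → Q8
  | .a k => p ^ k.val
  | .xa k => q * p ^ k.val

def iQ : Q8 := QuaternionGroup.a 1
def jQ : Q8 := QuaternionGroup.xa 0

lemma map_eq_wordQ (β : MulAut Q8) (x : Q8) : β x = wordQ (β iQ) (β jQ) x := by
  cases x with
  | a k =>
    have h : (QuaternionGroup.a k : Q8) = iQ ^ k.val := by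
      simp only [iQ]
      rw [QuaternionGroup.a_one_pow]
      simp
    show β (QuaternionGroup.a k) = (β iQ) ^ k.val
    rw [h, map_pow]
  | xa k =>
    have h : (QuaternionGroup.xa k : Q8) = jQ * iQ ^ k.val := by
      simp only [iQ, jQ]
      rw [QuaternionGroup.a_one_pow, QuaternionGroup.xa_mul_a]
      simp
    show β (QuaternionGroup.xa k) = β jQ * (β iQ) ^ k.val
    rw [h, map_mul, map_pow]

def goodQ (p q : Q8) : Prop := p ^ 2 ≠ 1 ∧ q ^ 2 ≠ 1 ∧ q ≠ p ∧ q ≠ p⁻¹

instance (p q : Q8) : Decidable (goodQ p q) := by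
  unfold goodQ
  infer_instance

lemma q8_fix_dec : ∀ p q w : Q8, goodQ p q →
    wordQ p q (wordQ p q p) = iQ → wordQ p q (wordQ p q q) = jQ → ¬ (p = iQ ∧ q = jQ) →
    wordQ p q w = w → w ^ 2 = 1 := by
  decide +kernel

lemma q8_comm_dec : ∀ p q : Q8, goodQ p q →
    wordQ p q (wordQ p q p) = iQ → wordQ p q (wordQ p q q) = jQ → ¬ (p = iQ ∧ q = jQ) →
    ∀ r s : Q8, goodQ r s →
    (wordQ r s)^[7] r = iQ → (wordQ r s)^[7] s = jQ →
    wordQ p q r = wordQ r s p → wordQ p q s = wordQ r s q → r = iQ ∧ s = jQ := by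
  decide +kernel

lemma q8_struct_dec : ∀ i : Q8, i ^ 2 ≠ 1 → ∃ j : Q8, j * i * j⁻¹ = i⁻¹ ∧
    ∀ t : Q8, (∃ s : Fin 4, t = i ^ s.val) ∨ (∃ s : Fin 4, t = i ^ s.val * j) := by
  decide +kernel

lemma q8_center_dec : ∀ x : Q8, (∀ t : Q8, x * t = t * x) → x ^ 2 = 1 := by
  decide +kernel

lemma q8_two_dec : ∀ x y : Q8, x ^ 2 = 1 → y ^ 2 = 1 → x ≠ 1 → y ≠ 1 → x = y := by
  decide +kernel

lemma q8_four_dec : ∀ x : Q8, x ^ 4 = 1 := by
  decide +kernel

lemma map_eq_wordQ_one (x : Q8) : wordQ iQ jQ x = x := by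
  have := map_eq_wordQ 1 x
  simpa using this.symm

lemma q8_good (β : MulAut Q8) : goodQ (β iQ) (β jQ) := by
  have h0 : iQ ^ 2 ≠ 1 ∧ jQ ^ 2 ≠ 1 ∧ jQ ≠ iQ ∧ jQ ≠ iQ⁻¹ := by decide +kernel
  obtain ⟨h1, h2, h3, h4⟩ := h0
  refine ⟨?_, ?_, ?_, ?_⟩
  · intro h
    apply h1
    apply β.injective
    rw [map_pow, map_one, h]
  · intro h
    apply h2
    apply β.injective
    rw [map_pow, map_one, h]
  · intro h
    exact h3 (β.injective h)
  · intro h
    apply h4
    apply β.injective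
    rw [map_inv, h]

lemma card_dvd_three_of_odd {n : ℕ} (h : n ∣ 24) (hodd : Odd n) : n ∣ 3 := by
  have h1 : Nat.Coprime n 8 := by
    have : Nat.Coprime n (2 ^ 3) := Nat.Coprime.pow_right 3 (Nat.coprime_two_right.mpr hodd)
    simpa using this
  exact h1.dvd_of_dvd_mul_left (by simpa using h)

lemma q8_order_three (β : MulAut Q8) (hodd : Odd (orderOf β)) : β ^ 3 = 1 := by
  have h1 : orderOf β ∣ 24 := by
    have := orderOf_dvd_natCard β
    rwa [Cfsg.Agent.Lib.RegLin.card_mulAut_q8] at this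
  exact orderOf_dvd_iff_pow_eq_one.mp (card_dvd_three_of_odd h1 hodd)

lemma q8_fix_aut (β : MulAut Q8) (hodd : Odd (orderOf β)) (hβ : β ≠ 1) {w : Q8} (hw : β w = w) :
    w ^ 2 = 1 := by
  have h3 := q8_order_three β hodd
  have hi : β (β (β iQ)) = iQ := by
    have := congrArg (fun γ : MulAut Q8 => γ iQ) h3
    simpa [pow_succ, MulAut.mul_apply] using this
  have hj : β (β (β jQ)) = jQ := by
    have := congrArg (fun γ : MulAut Q8 => γ jQ) h3
    simpa [pow_succ, MulAut.mul_apply] using this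
  refine q8_fix_dec (β iQ) (β jQ) w (q8_good β) ?_ ?_ ?_ ?_
  · rw [← map_eq_wordQ, ← map_eq_wordQ]
    exact hi
  · rw [← map_eq_wordQ, ← map_eq_wordQ]
    exact hj
  · rintro ⟨h1, h2⟩
    apply hβ
    ext x
    rw [map_eq_wordQ β x, h1, h2, map_eq_wordQ_one]
    rfl
  · rw [← map_eq_wordQ]
    exact hw

lemma pow_dvd_eight_of_dvd {k : ℕ} (h : 2 ^ k ∣ 24) : 2 ^ k ∣ 8 := by
  have h1 : k < 5 := by
    by_contra hk
    have h2 : 2 ^ 5 ∣ 2 ^ k := pow_dvd_pow 2 (by omega)
    have h3 := h2.trans h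
    norm_num at h3
  interval_cases k <;> revert h <;> decide

lemma q8_comm_aut (β γ : MulAut Q8) (hodd : Odd (orderOf β)) (hβ : β ≠ 1) {k : ℕ}
    (hγ : orderOf γ = 2 ^ k) (hcomm : ∀ x, β (γ x) = γ (β x)) : γ = 1 := by
  have h3 := q8_order_three β hodd
  have hi : β (β (β iQ)) = iQ := by
    have := congrArg (fun γ : MulAut Q8 => γ iQ) h3
    simpa [pow_succ, MulAut.mul_apply] using this
  have hj : β (β (β jQ)) = jQ := by
    have := congrArg (fun γ : MulAut Q8 => γ jQ) h3
    simpa [pow_succ, MulAut.mul_apply] using this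
  have h8 : γ ^ 8 = 1 := by
    have h1 : orderOf γ ∣ 24 := by
      have := orderOf_dvd_natCard γ
      rwa [Cfsg.Agent.Lib.RegLin.card_mulAut_q8] at this
    rw [hγ] at h1
    have h2 := pow_dvd_eight_of_dvd h1
    rw [← hγ] at h2
    exact orderOf_dvd_iff_pow_eq_one.mp h2
  have hit : ∀ (n : ℕ) (x : Q8), (γ ^ n) x = (wordQ (γ iQ) (γ jQ))^[n] x := by
    intro n
    induction n with
    | zero => intro x; rfl
    | succ n ih =>
      intro x
      rw [pow_succ, MulAut.mul_apply, ih, Function.iterate_succ_apply, map_eq_wordQ γ x]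
  have hC := q8_comm_dec (β iQ) (β jQ) (q8_good β) ?_ ?_ ?_ (γ iQ) (γ jQ) (q8_good γ) ?_ ?_ ?_ ?_
  · obtain ⟨h1, h2⟩ := hC
    ext x
    rw [map_eq_wordQ γ x, h1, h2, map_eq_wordQ_one]
    rfl
  · rw [← map_eq_wordQ, ← map_eq_wordQ]
    exact hi
  · rw [← map_eq_wordQ, ← map_eq_wordQ]
    exact hj
  · rintro ⟨h1, h2⟩
    apply hβ
    ext x
    rw [map_eq_wordQ β x, h1, h2, map_eq_wordQ_one]
    rfl
  · have h5 := hit 8 iQ
    rw [h8, MulAut.one_apply, Function.iterate_succ_apply] at h5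
    rw [← map_eq_wordQ] at h5
    exact h5.symm
  · have h5 := hit 8 jQ
    rw [h8, MulAut.one_apply, Function.iterate_succ_apply] at h5
    rw [← map_eq_wordQ] at h5
    exact h5.symm
  · rw [← map_eq_wordQ, ← map_eq_wordQ]
    exact hcomm iQ
  · rw [← map_eq_wordQ, ← map_eq_wordQ]
    exact hcomm jQ

end q8

section transport

variable {T : Type*} [Group T] [Finite T]

lemma orderOf_congr (e : T ≃* Q8) (β : MulAut T) :
    orderOf (MulAut.congr e β) = orderOf β :=
  MulEquiv.orderOf_eq (MulAut.congr e) β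

lemma q8T_fix (e : T ≃* Q8) (β : MulAut T) (hodd : Odd (orderOf β)) (hβ : β ≠ 1) {w : T}
    (hw : β w = w) : w ^ 2 = 1 := by
  have hne : MulAut.congr e β ≠ 1 := by
    intro h
    apply hβ
    exact (MulAut.congr e).injective (by rw [h, map_one])
  have h1 : (MulAut.congr e β) (e w) = e w := by
    show e (β (e.symm (e w))) = e w
    rw [e.symm_apply_apply, hw]
  have h2 := q8_fix_aut (MulAut.congr e β) (by rwa [orderOf_congr]) hne h1
  apply e.injective
  rw [map_pow, h2, map_one]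

lemma q8T_comm (e : T ≃* Q8) (β γ : MulAut T) (hodd : Odd (orderOf β)) (hβ : β ≠ 1) {k : ℕ}
    (hγ : orderOf γ = 2 ^ k) (hcomm : ∀ x, β (γ x) = γ (β x)) : γ = 1 := by
  have hne : MulAut.congr e β ≠ 1 := by
    intro h
    apply hβ
    exact (MulAut.congr e).injective (by rw [h, map_one])
  have h2 := q8_comm_aut (MulAut.congr e β) (MulAut.congr e γ) (by rwa [orderOf_congr]) hne
    (k := k) (by rwa [orderOf_congr]) (by
      intro x
      show e (β (e.symm (e (γ (e.symm x))))) = e (γ (e.symm (e (β (e.symm x)))))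
      rw [e.symm_apply_apply, e.symm_apply_apply, hcomm])
  exact (MulAut.congr e).injective (by rw [h2, map_one])

/-- Subgroup-level facts on a quaternion subgroup of a group. -/
lemma q8W_struct {G : Type*} [Group G] {W : Subgroup G} (e : W ≃* Q8) {i : G} (hi : i ∈ W)
    (hi2 : i ^ 2 ≠ 1) : ∃ j ∈ W, j * i * j⁻¹ = i⁻¹ ∧
      ∀ t ∈ W, (∃ s : ℕ, t = i ^ s) ∨ (∃ s : ℕ, t = i ^ s * j) := by
  have h1 : (e ⟨i, hi⟩) ^ 2 ≠ 1 := by
    intro h
    apply hi2
    have h2 : (⟨i, hi⟩ : W) ^ 2 = 1 := e.injective (by rw [map_pow, h, map_one])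
    exact congrArg Subtype.val h2
  obtain ⟨j', hj', hall⟩ := q8_struct_dec _ h1
  refine ⟨(e.symm j' : W), (e.symm j').2, ?_, ?_⟩
  · have h2 : (e.symm j') * (⟨i, hi⟩ : W) * (e.symm j')⁻¹ = (⟨i, hi⟩ : W)⁻¹ := by
      apply e.injective
      simpa using hj'
    exact congrArg Subtype.val h2
  · intro t ht
    rcases hall (e ⟨t, ht⟩) with ⟨s, hs⟩ | ⟨s, hs⟩
    · left
      refine ⟨s.val, ?_⟩
      have h2 : (⟨t, ht⟩ : W) = (⟨i, hi⟩ : W) ^ s.val := by
        apply e.injective
        rw [hs, map_pow]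
      exact congrArg Subtype.val h2
    · right
      refine ⟨s.val, ?_⟩
      have h2 : (⟨t, ht⟩ : W) = (⟨i, hi⟩ : W) ^ s.val * e.symm j' := by
        apply e.injective
        rw [hs, map_mul, map_pow, e.apply_symm_apply]
      exact congrArg Subtype.val h2

lemma q8W_center {G : Type*} [Group G] {W : Subgroup G} (e : W ≃* Q8) {x : G} (hx : x ∈ W)
    (hc : ∀ t ∈ W, x * t = t * x) : x ^ 2 = 1 := by
  have h1 : (e ⟨x, hx⟩) ^ 2 = 1 := by
    apply q8_center_dec
    intro t
    have h2 : (⟨x, hx⟩ : W) * e.symm t = e.symm t * ⟨x, hx⟩ :=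
      Subtype.ext (hc _ (e.symm t).2)
    have h3 := congrArg e h2
    simpa using h3
  have h2 : (⟨x, hx⟩ : W) ^ 2 = 1 := e.injective (by rw [map_pow, h1, map_one])
  exact congrArg Subtype.val h2

lemma q8W_two {G : Type*} [Group G] {W : Subgroup G} (e : W ≃* Q8) {x y : G} (hx : x ∈ W)
    (hy : y ∈ W) (hx2 : x ^ 2 = 1) (hy2 : y ^ 2 = 1) (hx1 : x ≠ 1) (hy1 : y ≠ 1) : x = y := by
  have h0 : ∀ z (hz : z ∈ W), z ^ 2 = 1 → (e ⟨z, hz⟩) ^ 2 = 1 := by
    intro z hz h
    have h2 : (⟨z, hz⟩ : W) ^ 2 = 1 := Subtype.ext h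
    rw [← map_pow, h2, map_one]
  have h1 : ∀ z (hz : z ∈ W), z ≠ 1 → e ⟨z, hz⟩ ≠ 1 := by
    intro z hz h h'
    apply h
    have h2 : (⟨z, hz⟩ : W) = 1 := e.injective (by rw [h', map_one])
    exact congrArg Subtype.val h2
  have h2 := q8_two_dec _ _ (h0 x hx hx2) (h0 y hy hy2) (h1 x hx hx1) (h1 y hy hy1)
  have h3 : (⟨x, hx⟩ : W) = ⟨y, hy⟩ := e.injective h2
  exact congrArg Subtype.val h3

lemma q8W_four {G : Type*} [Group G] {W : Subgroup G} (e : W ≃* Q8) {x : G} (hx : x ∈ W) :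
    x ^ 4 = 1 := by
  have h2 : (⟨x, hx⟩ : W) ^ 4 = 1 := e.injective (by rw [map_pow, map_one, q8_four_dec])
  exact congrArg Subtype.val h2

lemma q8W_card {G : Type*} [Group G] {W : Subgroup G} (e : W ≃* Q8) : Nat.card W = 8 := by
  rw [Nat.card_congr e.toEquiv, Nat.card_eq_fintype_card, QuaternionGroup.card]

lemma q8W_exists {G : Type*} [Group G] {W : Subgroup G} (e : W ≃* Q8) : ∃ i ∈ W, i ^ 2 ≠ 1 := by
  have h0 : iQ ^ 2 ≠ 1 := by decide +kernel
  refine ⟨(e.symm iQ : W), (e.symm iQ).2, ?_⟩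
  intro h
  apply h0
  have h2 : (e.symm iQ) ^ 2 = 1 := Subtype.ext h
  have h3 := congrArg e h2
  simpa using h3

lemma q8W_noncomm {G : Type*} [Group G] {W : Subgroup G} (e : W ≃* Q8) :
    ¬ ∀ a ∈ W, ∀ b ∈ W, a * b = b * a := by
  have h0 : iQ * jQ ≠ jQ * iQ := by decide +kernel
  intro h
  apply h0
  have h2 := h _ (e.symm iQ).2 _ (e.symm jQ).2
  have h3 : e.symm iQ * e.symm jQ = e.symm jQ * e.symm iQ := Subtype.ext h2
  have h4 := congrArg e h3
  simpa using h4

end transport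

section index

variable {P : Type*} [Group P] [Finite P]

lemma comm_of_isMulComm {G : Type*} [Group G] {A : Subgroup G} (hA : IsMulCommutative A) :
    ∀ a ∈ A, ∀ b ∈ A, a * b = b * a := by
  intro a ha b hb
  have h := hA.is_comm.comm ⟨a, ha⟩ ⟨b, hb⟩
  exact congrArg Subtype.val h

/-- A 2-group acting on a normal four-group: its centraliser has index at most two. -/
lemma v4_index (h2 : IsPGroup 2 P) (W : Subgroup P) [hW : W.Normal] (hc : Nat.card W = 4)
    (hnc : ¬ IsCyclic W) : Nat.card P ≤ 2 * Nat.card (Subgroup.centralizer (W : Set P)) := by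
  classical
  haveI : Fact (Nat.Prime 2) := ⟨Nat.prime_two⟩
  have hne : W ≠ ⊥ := by
    intro h
    rw [h] at hc
    simp at hc
  obtain ⟨u, huW, hu1, huC⟩ := Cfsg.Agent.Lib.NormalKlein.exists_central_of_normal h2 W hW hne
  have huC' : ∀ p : P, p * u = u * p := (Subgroup.mem_center_iff.mp huC)
  obtain ⟨v, hv, hv1, hvu⟩ : ∃ v ∈ W, v ≠ 1 ∧ v ≠ u := by
    by_contra hno
    push Not at hno
    have h3 := card_le_of_subset_finset W ({1, u} : Finset P) (by
      intro x hx
      simp only [Finset.mem_insert, Finset.mem_singleton]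
      by_cases h1 : x = 1
      · exact Or.inl h1
      · exact Or.inr (hno x hx h1))
    have h4 : ({1, u} : Finset P).card ≤ 2 := Finset.card_le_two
    omega
  have hel := v4_elems hc hnc huW hv hu1 hv1 (fun h => hvu h.symm)
  have h3 := card_le_of_fibers (Subgroup.centralizer (W : Set P)) (fun p : P => p * v * p⁻¹)
    ({v, u * v} : Finset P) ?_ ?_
  · have h4 : ({v, u * v} : Finset P).card ≤ 2 := Finset.card_le_two
    calc Nat.card P ≤ _ := h3
      _ ≤ Nat.card (Subgroup.centralizer (W : Set P)) * 2 := Nat.mul_le_mul_left _ h4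
      _ = _ := mul_comm _ _
  · intro p
    simp only [Finset.mem_insert, Finset.mem_singleton]
    rcases hel _ (hW.conj_mem v hv p) with h | h | h | h
    · exfalso
      apply hv1
      have h5 : v = p⁻¹ * (p * v * p⁻¹) * p := by group
      rw [h5, h]
      group
    · exfalso
      apply hvu
      have h5 : v = p⁻¹ * (p * v * p⁻¹) * p := by group
      rw [h5, h, mul_assoc, ← huC' p]
      group
    · exact Or.inl h
    · exact Or.inr h
  · intro p p' h
    have hg : (p⁻¹ * p') * v = v * (p⁻¹ * p') := by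
      calc (p⁻¹ * p') * v = p⁻¹ * (p' * v * p'⁻¹) * p' := by group
        _ = p⁻¹ * (p * v * p⁻¹) * p' := by rw [h]
        _ = v * (p⁻¹ * p') := by group
    rw [Subgroup.mem_centralizer_iff]
    intro t ht
    rcases hel t ht with h5 | h5 | h5 | h5
    · rw [h5]; group
    · rw [h5]; exact (huC' _).symm
    · rw [h5]; exact hg.symm
    · rw [h5]
      calc u * v * (p⁻¹ * p') = u * (v * (p⁻¹ * p')) := by group
        _ = u * ((p⁻¹ * p') * v) := by rw [hg]
        _ = (u * (p⁻¹ * p')) * v := by group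
        _ = ((p⁻¹ * p') * u) * v := by rw [huC' (p⁻¹ * p')]
        _ = _ := by group

/-- A 2-group acting on a normal quaternion group: its centraliser has index at most eight. -/
lemma q8_index (h2 : IsPGroup 2 P) (W : Subgroup P) [hW : W.Normal] (e : W ≃* Q8) :
    Nat.card P ≤ 8 * Nat.card (Subgroup.centralizer (W : Set P)) := by
  let φ : P →* MulAut W := MulAut.conjNormal
  have hker : φ.ker ≤ Subgroup.centralizer (W : Set P) := by
    intro x hx
    rw [Subgroup.mem_centralizer_iff]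
    intro t ht
    have h1 : φ x = 1 := hx
    have h3 : (φ x) ⟨t, ht⟩ = ⟨t, ht⟩ := by rw [h1]; rfl
    have h4 : x * t * x⁻¹ = t := congrArg Subtype.val h3
    calc t * x = (x * t * x⁻¹) * x := by rw [h4]
      _ = x * t := by group
  have hr : Nat.card φ.range ≤ 8 := by
    obtain ⟨k, hk⟩ := IsPGroup.iff_card.mp (h2.of_surjective φ.rangeRestrict φ.rangeRestrict_surjective)
    have h3 : Nat.card φ.range ∣ Nat.card (MulAut W) := Subgroup.card_subgroup_dvd_card _
    have h4 : Nat.card (MulAut W) = 24 := by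
      rw [Nat.card_congr (MulAut.congr e).toEquiv, Cfsg.Agent.Lib.RegLin.card_mulAut_q8]
    rw [h4, hk] at h3
    rw [hk]
    exact Nat.le_of_dvd (by norm_num) (pow_dvd_eight_of_dvd h3)
  have h3 := Subgroup.card_mul_index φ.ker
  rw [Subgroup.index_ker] at h3
  have h4 := Subgroup.card_le_of_le hker
  rw [← h3, mul_comm]
  exact Nat.mul_le_mul hr h4

theorem noA_v4 (h2 : IsPGroup 2 P) (W : Subgroup P) [W.Normal] (hc : Nat.card W = 4)
    (hnc : ¬ IsCyclic W) (hC : Subgroup.centralizer (W : Set P) ≤ W) : ¬ HasA8 P := by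
  rintro ⟨A, hAc, hAnc, hA8⟩
  have hab := comm_of_isMulComm hAc
  have h1 := v4_index h2 W hc hnc
  have h3 : Nat.card (Subgroup.centralizer (W : Set P)) ≤ 4 := hc ▸ Subgroup.card_le_of_le hC
  have h4 : Nat.card A ≤ Nat.card P := Subgroup.card_le_card_group A
  have hAtop : A = ⊤ := Subgroup.eq_top_of_card_eq A (by omega)
  have h5 : Subgroup.centralizer (W : Set P) = ⊤ := by
    rw [eq_top_iff]
    intro x _
    rw [Subgroup.mem_centralizer_iff]
    intro t _
    exact hab t (by rw [hAtop]; trivial) x (by rw [hAtop]; trivial)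
  rw [h5] at h3
  have h6 : Nat.card (⊤ : Subgroup P) = Nat.card P := Subgroup.card_top
  omega

theorem noA_q8 (h2 : IsPGroup 2 P) (W : Subgroup P) [hW : W.Normal] (e : W ≃* Q8)
    (hC : Subgroup.centralizer (W : Set P) ≤ W) : ¬ HasA8 P := by
  classical
  rintro ⟨A, hAc, hAnc, hA8⟩
  have hab := comm_of_isMulComm hAc
  have hW8 := q8W_card e
  obtain ⟨i₀, hi₀, hi₀2⟩ := q8W_exists e
  have hsqS : ∀ x ∈ W, x ^ 2 = 1 → x ∈ ({1, i₀ ^ 2} : Finset P) := by
    intro x hx hx2
    simp only [Finset.mem_insert, Finset.mem_singleton]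
    by_cases h1 : x = 1
    · exact Or.inl h1
    · right
      refine q8W_two e hx (W.pow_mem hi₀ 2) hx2 ?_ h1 hi₀2
      rw [← pow_mul]
      exact q8W_four e hi₀
  have hSc : ({1, i₀ ^ 2} : Finset P).card ≤ 2 := Finset.card_le_two
  have hCcen : ∀ x ∈ Subgroup.centralizer (W : Set P), x ∈ W ∧ x ^ 2 = 1 := by
    intro x hx
    have hxW := hC hx
    refine ⟨hxW, q8W_center e hxW ?_⟩
    intro t ht
    exact (Subgroup.mem_centralizer_iff.mp hx t ht).symm
  have hCc : Nat.card (Subgroup.centralizer (W : Set P)) ≤ 2 := by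
    refine le_trans (card_le_of_subset_finset _ ({1, i₀ ^ 2} : Finset P) ?_) hSc
    intro x hx
    exact hsqS x (hCcen x hx).1 (hCcen x hx).2
  have hP := q8_index h2 W e
  have hP16 : Nat.card P ≤ 16 := by
    calc Nat.card P ≤ _ := hP
      _ ≤ 8 * 2 := Nat.mul_le_mul_left _ hCc
  have hidx : W.index ≤ 2 := by
    have h3 := Subgroup.card_mul_index W
    rw [hW8] at h3
    omega
  have hrel : W.relIndex A ≤ 2 := by
    have h3 : W.relIndex A ∣ W.index := Subgroup.relIndex_dvd_index_of_normal W A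
    have h4 : 0 < W.index := Nat.pos_of_ne_zero Subgroup.index_ne_zero_of_finite
    exact le_trans (Nat.le_of_dvd h4 h3) hidx
  -- an element of order four in `A ⊓ W`
  obtain ⟨i, hiW, hiA, hi2⟩ : ∃ i ∈ W, i ∈ A ∧ i ^ 2 ≠ 1 := by
    by_contra hno
    push Not at hno
    have h3 : Nat.card (W.subgroupOf A) * W.relIndex A = 8 := by
      have h4 := Subgroup.card_mul_index (W.subgroupOf A)
      rw [hA8] at h4
      exact h4
    have h4 : Nat.card (W.subgroupOf A) ≤ 2 := by
      let f : W.subgroupOf A → ({1, i₀ ^ 2} : Finset P) := fun x =>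
        ⟨((x : A) : P), hsqS _ (Subgroup.mem_subgroupOf.mp x.2) (hno _ (Subgroup.mem_subgroupOf.mp x.2) (x : A).2)⟩
      have hf : Function.Injective f := by
        intro x y hxy
        apply Subtype.ext
        apply Subtype.ext
        exact congrArg (fun z : ({1, i₀ ^ 2} : Finset P) => (z : P)) hxy
      have h5 := Nat.card_le_card_of_injective f hf
      have h6 : Nat.card ({1, i₀ ^ 2} : Finset P) = ({1, i₀ ^ 2} : Finset P).card := by
        rw [Nat.card_eq_fintype_card, Fintype.card_coe]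
      omega
    have h5 : Nat.card (W.subgroupOf A) * W.relIndex A ≤ 2 * 2 := Nat.mul_le_mul h4 hrel
    omega
  -- an element of `A` outside `W`
  obtain ⟨a, haA, haW⟩ : ∃ a ∈ A, a ∉ W := by
    by_contra hno
    push Not at hno
    have h3 : A = W := Subgroup.eq_of_le_of_card_ge hno (by omega)
    apply q8W_noncomm e
    rw [← h3]
    exact hab
  obtain ⟨j, hjW, hji, hall⟩ := q8W_struct e hiW hi2
  have hi4 : i ^ 4 = 1 := q8W_four e hiW
  have hai : a * i = i * a := hab a haA i hiA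
  have hcen : ∀ x : P, x * i = i * x → x * j = j * x → x ∈ W ∧ x ^ 2 = 1 := by
    intro x hxi hxj
    apply hCcen
    rw [Subgroup.mem_centralizer_iff]
    intro t ht
    have hpow : ∀ n : ℕ, x * i ^ n = i ^ n * x := fun n =>
      (Commute.pow_right (show Commute x i from hxi) n).eq
    rcases hall t ht with ⟨s, rfl⟩ | ⟨s, rfl⟩
    · exact (hpow s).symm
    · rw [mul_assoc, ← hxj, ← mul_assoc, ← mul_assoc, hpow s]
  have hpowa : ∀ n : ℕ, a * i ^ n = i ^ n * a := fun n =>
    (Commute.pow_right (show Commute a i from hai) n).eq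
  have hji2 : j * i⁻¹ = i * j := by
    have h4 : j * i = i⁻¹ * j := by
      calc j * i = (j * i * j⁻¹) * j := by group
        _ = i⁻¹ * j := by rw [hji]
    calc j * i⁻¹ = i * (i⁻¹ * j) * i⁻¹ := by group
      _ = i * (j * i) * i⁻¹ := by rw [h4]
      _ = i * j := by group
  rcases hall _ (hW.conj_mem j hjW a) with ⟨s, hs⟩ | ⟨s, hs⟩
  · exfalso
    have h3 : j = i ^ s := by
      have h4 : j = a⁻¹ * (a * j * a⁻¹) * a := by group
      rw [h4, hs]
      calc a⁻¹ * i ^ s * a = a⁻¹ * (i ^ s * a) := by group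
        _ = a⁻¹ * (a * i ^ s) := by rw [hpowa s]
        _ = i ^ s := by group
    apply hi2
    have h4 : j * i = i * j := by
      rw [h3]
      exact (Commute.pow_left (Commute.refl i) s).eq
    have h5 : j * i * j⁻¹ = i := by rw [h4]; group
    rw [hji] at h5
    rw [pow_two]
    nth_rewrite 1 [← h5]
    group
  · have hs' : a * j * a⁻¹ = i ^ (s % 4) * j := by rw [hs, pow_eq_pow_mod s hi4]
    have hs4 : s % 4 < 4 := Nat.mod_lt _ (by norm_num)
    generalize s % 4 = r at hs' hs4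
    have haj : a * j = i ^ r * j * a := by
      calc a * j = (a * j * a⁻¹) * a := by group
        _ = i ^ r * j * a := by rw [hs']
    have hcase2 : ∀ (x : P), x * j = i ^ 2 * j * x → x * i = i * x → i⁻¹ * x ∈ W ∧ (i⁻¹ * x) ^ 2 = 1 := by
      intro x h1 h3
      apply hcen
      · calc i⁻¹ * x * i = i⁻¹ * (x * i) := by group
          _ = i⁻¹ * (i * x) := by rw [h3]
          _ = i * (i⁻¹ * x) * i⁻¹ * i := by group
          _ = i * (i⁻¹ * x) := by group
      · calc i⁻¹ * x * j = i⁻¹ * (x * j) := by group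
          _ = i⁻¹ * (i ^ 2 * j * x) := by rw [h1]
          _ = i * j * x := by simp only [pow_two]; group
          _ = (j * i⁻¹) * x := by rw [hji2]
          _ = j * (i⁻¹ * x) := by group
    have ha2i : a ^ 2 * i = i * a ^ 2 :=
      (Commute.pow_left (show Commute a i from hai) 2).eq
    have hodd_case : a ^ 2 * j = i ^ 2 * j * a ^ 2 → False := by
      intro h1
      obtain ⟨hxW, hx2⟩ := hcase2 (a ^ 2) h1 ha2i
      have h3 : a ^ 4 = i ^ 2 := by
        have h4 : (i⁻¹ * a ^ 2) ^ 2 = i⁻¹ ^ 2 * a ^ 4 := by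
          have h5 : Commute i⁻¹ (a ^ 2) := (Commute.pow_left (show Commute a i from hai) 2).symm.inv_left
          rw [h5.mul_pow, ← pow_mul]
        rw [h4] at hx2
        have h5 : a ^ 4 = i ^ 2 * (i⁻¹ ^ 2 * a ^ 4) := by
          rw [inv_pow]
          group
        rw [h5, hx2, mul_one]
      have h4 : orderOf (⟨a, haA⟩ : A) = 2 ^ (2 + 1) := by
        apply orderOf_eq_prime_pow
        · intro h
          apply hi2
          rw [← h3]
          exact congrArg Subtype.val h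
        · have := pow_card_eq_one' (x := (⟨a, haA⟩ : A))
          rw [hA8] at this
          exact this
      exact hAnc (isCyclic_of_orderOf_eq_card _ (by rw [h4, hA8]; rfl))
    interval_cases r
    · exfalso
      apply haW
      apply (hcen a hai ?_).1
      simpa using haj
    · exfalso
      apply hodd_case
      have h3 : a ^ 2 * j = a * (a * j) := by rw [pow_two]; group
      rw [h3, haj]
      calc a * (i ^ 1 * j * a) = (a * i ^ 1) * j * a := by group
        _ = (i ^ 1 * a) * j * a := by rw [hpowa 1]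
        _ = i ^ 1 * (a * j) * a := by group
        _ = i ^ 1 * (i ^ 1 * j * a) * a := by rw [haj]
        _ = i ^ 2 * j * a ^ 2 := by simp only [pow_two, pow_one]; group
    · exfalso
      obtain ⟨h3, -⟩ := hcase2 a haj hai
      apply haW
      have h4 : a = i * (i⁻¹ * a) := by group
      rw [h4]
      exact W.mul_mem hiW h3
    · exfalso
      apply hodd_case
      have h3 : a ^ 2 * j = a * (a * j) := by rw [pow_two]; group
      rw [h3, haj]
      have h6 : i ^ 3 * i ^ 3 = i ^ 2 := by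
        calc i ^ 3 * i ^ 3 = i ^ 4 * i ^ 2 := by rw [← pow_add, ← pow_add]
          _ = i ^ 2 := by rw [hi4, one_mul]
      calc a * (i ^ 3 * j * a) = (a * i ^ 3) * j * a := by group
        _ = (i ^ 3 * a) * j * a := by rw [hpowa 3]
        _ = i ^ 3 * (a * j) * a := by group
        _ = i ^ 3 * (i ^ 3 * j * a) * a := by rw [haj]
        _ = (i ^ 3 * i ^ 3) * j * a ^ 2 := by simp only [pow_two]; group
        _ = i ^ 2 * j * a ^ 2 := by rw [h6]

end index

end Cfsg.Agent.Lib.SmallQ879
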