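import Mathlib
import Cfsg.Agent.Lib.SmallQ879
import Cfsg.Agent.Lib.Frat
import Cfsg.Prelude.Def_Transfer

/-!
# A 2-group generated by its commutators with a group of odd automorphisms

`P` is a finite 2-group, `𝒜` a set of automorphisms of odd order with `[P, 𝒜] = P`.  If no proper
`𝒜`-invariant subgroup contains a non-cyclic abelian subgroup of order eight, but `P` does, and `P` is
non-abelian, then `P` is special with a centre of order at most four (extraspecial of order at
least 32, or with a centre of order four).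
-/

set_option autoImplicit false
set_option linter.unusedSectionVars false
set_option linter.style.haveILetI false

namespace Cfsg.Agent.Lib.SmallC79

open Cfsg.Agent.Lib.SmallA879 Cfsg.Agent.Lib.SmallQ879
open scoped commutatorElement

variable {P : Type*} [Group P] [Finite P]

/-- The hypotheses on `P` and on the automorphisms. -/
structure CSetup (P : Type*) [Group P] (𝒜 : Set (MulAut P)) : Prop where
  p2 : IsPGroup 2 P
  odd : ∀ β ∈ 𝒜, Odd (orderOf β)
  gen : ∀ N : Subgroup P, (∀ x, ∀ β ∈ 𝒜, x * (β x)⁻¹ ∈ N) → N = ⊤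
  small : ∀ W : Subgroup P, (∀ β ∈ 𝒜, ∀ w ∈ W, β w ∈ W) → W ≠ ⊤ → ¬ HasA8 W
  hasA : HasA8 P
  fitting : ∀ z ∈ Subgroup.center P, (∀ β ∈ 𝒜, β z = z) → z ∈ frattini P

lemma char_mem (L : Subgroup P) [hL : L.Characteristic] (α : MulAut P) (x : P) : α x ∈ L ↔ x ∈ L := by
  have h1 := Subgroup.characteristic_iff_comap_eq.mp hL α
  have h3 : x ∈ L.comap α.toMonoidHom ↔ x ∈ L := by rw [h1]
  exact h3

variable {𝒜 : Set (MulAut P)} (hS : CSetup P 𝒜)

include hS

/-- A proper characteristic subgroup on which `𝒜` acts non-trivially. -/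
lemma small_char (W : Subgroup P) [hW : W.Characteristic] (hne : W ≠ ⊤) {β : MulAut P} (hβ : β ∈ 𝒜)
    {w : P} (hw : w ∈ W) (hw1 : β w ≠ w) :
    (Nat.card W = 4 ∧ ¬ IsCyclic W) ∨ Nonempty (W ≃* Q8) := by
  have hs := hS.small W (fun γ _ v hv => (char_mem W γ v).2 hv) hne
  refine small_odd_aut (hS.p2.to_subgroup W) hs (resAut β W (char_mem W β))
    (resAut_odd β W (char_mem W β) (hS.odd β hβ)) ?_
  intro h
  apply hw1
  have h3 := congrArg (fun γ : MulAut W => ((γ ⟨w, hw⟩ : W) : P)) h
  simpa [resAut_apply] using h3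

/-- A characteristic subgroup of index at most two is everything. -/
lemma eq_top_of_index_le (N : Subgroup P) [hN : N.Characteristic]
    (hc : Nat.card P ≤ 2 * Nat.card N) : N = ⊤ := by
  by_cases htop : N = ⊤
  · exact htop
  have hidx : N.index = 2 := by
    have h3 := Subgroup.card_mul_index N
    have h4 : N.index ≠ 1 := fun h => htop (Subgroup.index_eq_one.mp h)
    have h5 : N.index ≠ 0 := Subgroup.index_ne_zero_of_finite
    have h6 : 0 < Nat.card N := Nat.card_pos
    have h7 : N.index ≤ 2 := by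
      by_contra hgt
      push Not at hgt
      have h8 : Nat.card N * 3 ≤ Nat.card N * N.index := Nat.mul_le_mul_left _ hgt
      omega
    omega
  apply hS.gen N
  intro x β _
  rw [Subgroup.mul_mem_iff_of_index_two hidx, inv_mem_iff, char_mem N β x]

omit hS in
lemma nontrivial_of_noncomm (hna : ¬ ∀ a b : P, a * b = b * a) : Nontrivial P := by
  by_contra h
  rw [not_nontrivial_iff_subsingleton] at h
  exact hna (fun a b => Subsingleton.elim _ _)

omit hS in
lemma commutator_ne_bot (hna : ¬ ∀ a b : P, a * b = b * a) : commutator P ≠ ⊥ := by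
  intro h
  apply hna
  intro a b
  have h1 : ⁅a, b⁆ ∈ commutator P := by
    rw [commutator_def]
    exact Subgroup.commutator_mem_commutator (Subgroup.mem_top a) (Subgroup.mem_top b)
  rw [h, Subgroup.mem_bot] at h1
  exact commutatorElement_eq_one_iff_mul_comm.mp h1

omit hS in
lemma center_ne_top (hna : ¬ ∀ a b : P, a * b = b * a) : Subgroup.center P ≠ ⊤ := by
  intro h
  apply hna
  intro a b
  have h1 : a ∈ Subgroup.center P := by rw [h]; trivial
  exact (Subgroup.mem_center_iff.mp h1 b).symm

lemma frattini_ne_top (hna : ¬ ∀ a b : P, a * b = b * a) : frattini P ≠ ⊤ := by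
  intro h
  haveI := nontrivial_of_noncomm hna
  have h1 : (⊥ : Subgroup P) ⊔ frattini P = ⊤ := by rw [h]; simp
  have h2 := frattini_nongenerating h1
  exact bot_ne_top h2

lemma commutator_le_fr : commutator P ≤ frattini P := by
  haveI : Fact (Nat.Prime 2) := ⟨Nat.prime_two⟩
  exact Cfsg.Agent.Lib.Frat.commutator_le_frattini hS.p2

lemma frattini_ne_bot (hna : ¬ ∀ a b : P, a * b = b * a) : frattini P ≠ ⊥ := by
  intro h
  apply commutator_ne_bot hna
  rw [eq_bot_iff, ← h]
  exact commutator_le_fr hS

/-- The centre lies in the Frattini subgroup. -/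
lemma center_le_frattini (hna : ¬ ∀ a b : P, a * b = b * a) : Subgroup.center P ≤ frattini P := by
  haveI : Fact (Nat.Prime 2) := ⟨Nat.prime_two⟩
  intro z hz
  by_cases hall : ∀ β ∈ 𝒜, ∀ w ∈ Subgroup.center P, β w = w
  · exact hS.fitting z hz (fun β hβ => hall β hβ z hz)
  push Not at hall
  obtain ⟨β, hβ, w, hw, hne⟩ := hall
  have hcomm : ∀ a ∈ Subgroup.center P, ∀ b ∈ Subgroup.center P, a * b = b * a := by
    intro a ha b _
    exact (Subgroup.mem_center_iff.mp ha b).symm
  rcases small_char hS (Subgroup.center P) (center_ne_top hna) hβ hw hne with ⟨hc, hnc⟩ | ⟨⟨e⟩⟩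
  · obtain ⟨u, huΦ, hu1, huZ⟩ := Cfsg.Agent.Lib.NormalKlein.exists_central_of_normal hS.p2
      (frattini P) inferInstance (frattini_ne_bot hS hna)
    have h3 : frattini P ⊓ Subgroup.center P = Subgroup.center P := by
      apply v4_inv hc hnc (hS.p2.to_subgroup _) β (hS.odd β hβ) (char_mem _ β) ⟨w, hw, hne⟩ inf_le_right
      · intro x hx
        exact ⟨(char_mem _ β x).2 hx.1, (char_mem _ β x).2 hx.2⟩
      · intro h
        have h4 : u ∈ frattini P ⊓ Subgroup.center P := ⟨huΦ, huZ⟩
        rw [h, Subgroup.mem_bot] at h4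
        exact hu1 h4
    rw [← h3] at hz
    exact hz.1
  · exact absurd hcomm (q8W_noncomm e)

/-- If the centraliser of the Frattini subgroup together with the Frattini subgroup has index at most
two, then the Frattini subgroup is central. -/
lemma frattini_le_center_of_index
    (hc : Nat.card P ≤ 2 * Nat.card (frattini P ⊔ Subgroup.centralizer (frattini P : Set P) : Subgroup P)) :
    frattini P ≤ Subgroup.center P := by
  have h1 := eq_top_of_index_le hS (frattini P ⊔ Subgroup.centralizer (frattini P : Set P)) hc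
  rw [sup_comm] at h1
  have h2 := frattini_nongenerating h1
  intro f hf
  rw [Subgroup.mem_center_iff]
  intro g
  have h3 : g ∈ Subgroup.centralizer (frattini P : Set P) := by rw [h2]; trivial
  exact (Subgroup.mem_centralizer_iff.mp h3 f hf).symm

/-- The order bound in the extraspecial case. -/
lemma card_ge_32 (hna : ¬ ∀ a b : P, a * b = b * a) (hDZ : commutator P = Subgroup.center P)
    (hD2 : Nat.card (commutator P) = 2) : 32 ≤ Nat.card P := by
  classical
  obtain ⟨A, hAc, hAnc, hA8⟩ := hS.hasA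
  have hab := comm_of_isMulComm hAc
  obtain ⟨k, hk⟩ := IsPGroup.iff_card.mp hS.p2
  have hAtop : A ≠ ⊤ := by
    intro h
    apply hna
    intro a b
    exact hab a (by rw [h]; trivial) b (by rw [h]; trivial)
  obtain ⟨x, hx⟩ : ∃ x, x ∉ A := by
    by_contra hno
    push Not at hno
    apply hAtop
    rw [eq_top_iff]
    intro y _
    exact hno y
  have h16 := card_sup_zpowers_ge hx
  rw [hA8] at h16
  have hle := Subgroup.card_le_card_group (A ⊔ Subgroup.zpowers x)
  by_contra hlt
  push Not at hlt
  have hP16 : Nat.card P = 16 := by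
    rw [hk] at hlt hle ⊢
    have h5 : k < 5 := by
      by_contra hk5
      push Not at hk5
      have h6 : 2 ^ 5 ≤ 2 ^ k := Nat.pow_le_pow_right (by norm_num) hk5
      omega
    have h6 : 4 ≤ k := by
      by_contra hk4
      push Not at hk4
      have h7 : 2 ^ k ≤ 2 ^ 3 := Nat.pow_le_pow_right (by norm_num) (by omega)
      omega
    have h7 : k = 4 := by omega
    rw [h7]
    norm_num
  have htop : A ⊔ Subgroup.zpowers x = ⊤ := Subgroup.eq_top_of_card_eq _ (by omega)
  obtain ⟨z, hz, hz1⟩ : ∃ z ∈ commutator P, z ≠ 1 := by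
    have h3 := commutator_ne_bot hna
    obtain ⟨⟨z, hz⟩, hz1⟩ := Subgroup.ne_bot_iff_exists_ne_one.mp h3
    exact ⟨z, hz, fun h => hz1 (Subtype.ext h)⟩
  let C : Subgroup P := A ⊓ Subgroup.centralizer ({x} : Set P)
  have h3 := card_le_of_fibers (C.subgroupOf A) (fun a : A => (a : P) * x * (a : P)⁻¹ * x⁻¹)
    ({1, z} : Finset P) ?_ ?_
  · have h4 : Nat.card (C.subgroupOf A) = Nat.card C :=
      Nat.card_congr (Subgroup.subgroupOfEquivOfLe inf_le_left).toEquiv
    rw [h4, hA8] at h3
    have h5 : ({1, z} : Finset P).card ≤ 2 := Finset.card_le_two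
    have h6 : 4 ≤ Nat.card C := by
      have h7 : Nat.card C * ({1, z} : Finset P).card ≤ Nat.card C * 2 := Nat.mul_le_mul_left _ h5
      omega
    have hCZ : C ≤ Subgroup.center P := by
      intro c hc
      rw [Subgroup.mem_center_iff]
      intro g
      have h7 : A ⊔ Subgroup.zpowers x ≤ Subgroup.centralizer ({c} : Set P) := by
        apply sup_le
        · intro a ha
          exact Subgroup.mem_centralizer_singleton_iff.mpr (hab a ha c hc.1)
        · rw [Subgroup.zpowers_le]
          exact Subgroup.mem_centralizer_singleton_iff.mpr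
            (Subgroup.mem_centralizer_singleton_iff.mp hc.2).symm
      have h8 : g ∈ Subgroup.centralizer ({c} : Set P) := h7 (by rw [htop]; trivial)
      exact Subgroup.mem_centralizer_singleton_iff.mp h8
    have h9 := Subgroup.card_le_of_le hCZ
    rw [← hDZ, hD2] at h9
    omega
  · intro a
    simp only [Finset.mem_insert, Finset.mem_singleton]
    have h4 : (a : P) * x * (a : P)⁻¹ * x⁻¹ ∈ commutator P := by
      rw [commutator_def]
      exact Subgroup.commutator_mem_commutator (Subgroup.mem_top _) (Subgroup.mem_top x)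
    by_cases h5 : (a : P) * x * (a : P)⁻¹ * x⁻¹ = 1
    · exact Or.inl h5
    · exact Or.inr (eq_of_card_two hD2 h4 hz h5 hz1)
  · intro a a' h
    rw [Subgroup.mem_subgroupOf]
    refine ⟨A.mul_mem (A.inv_mem a.2) a'.2, ?_⟩
    refine Subgroup.mem_centralizer_singleton_iff.mpr ?_
    have h4 : (a : P) * x * (a : P)⁻¹ = (a' : P) * x * (a' : P)⁻¹ := mul_right_cancel h
    have h5 : x * (a : P)⁻¹ * a' = (a : P)⁻¹ * a' * x := by
      calc x * (a : P)⁻¹ * a' = (a : P)⁻¹ * ((a : P) * x * (a : P)⁻¹) * a' := by group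
        _ = (a : P)⁻¹ * ((a' : P) * x * (a' : P)⁻¹) * a' := by rw [h4]
        _ = (a : P)⁻¹ * a' * x := by group
    simpa [mul_assoc] using h5.symm

/-- The action on the Frattini subgroup is trivial. -/
lemma caseA (hna : ¬ ∀ a b : P, a * b = b * a) (hA : ∀ β ∈ 𝒜, ∀ f ∈ frattini P, β f = f) :
    (Cfsg.IsExtraspecial 2 P ∧ 32 ≤ Nat.card P) ∨
      (Cfsg.IsSpecial 2 P ∧ Nat.card (Subgroup.center P) = 4) := by
  haveI : Fact (Nat.Prime 2) := ⟨Nat.prime_two⟩
  have hΦ2 : ∀ x : P, x ^ 2 ∈ frattini P := Cfsg.Agent.Lib.Frat.pow_mem_frattini hS.p2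
  haveI hΦn : (frattini P).Normal := inferInstance
  -- the Frattini subgroup is central
  have h1 : Subgroup.centralizer (frattini P : Set P) = ⊤ := by
    apply hS.gen
    intro x β hβ
    rw [Subgroup.mem_centralizer_iff]
    intro f hf
    obtain ⟨x', hx'⟩ : ∃ x', x' = β x := ⟨_, rfl⟩
    rw [← hx']
    have hf' : x'⁻¹ * f * x' ∈ frattini P := by
      have := hΦn.conj_mem f hf x'⁻¹
      simpa using this
    have h2 : x * (x'⁻¹ * f * x') * x⁻¹ ∈ frattini P := hΦn.conj_mem _ hf' x
    have h3 := hA β hβ _ h2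
    rw [map_mul, map_mul, map_inv, hA β hβ _ hf', ← hx'] at h3
    have h4 : x' * (x'⁻¹ * f * x') * x'⁻¹ = f := by group
    rw [h4] at h3
    calc f * (x * x'⁻¹) = (x * (x'⁻¹ * f * x') * x⁻¹) * (x * x'⁻¹) := by rw [← h3]
      _ = x * x'⁻¹ * f := by group
  have hΦZ : frattini P ≤ Subgroup.center P := by
    intro f hf
    rw [Subgroup.mem_center_iff]
    intro g
    have h3 : g ∈ Subgroup.centralizer (frattini P : Set P) := by rw [h1]; trivial
    exact (Subgroup.mem_centralizer_iff.mp h3 f hf).symm
  have hΦeq : frattini P = Subgroup.center P := le_antisymm hΦZ (center_le_frattini hS hna)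
  -- squares lie in the commutator subgroup
  have hsq : ∀ x : P, x ^ 2 ∈ commutator P := by
    let N₂ : Subgroup P :=
      ((powMonoidHom 2 : Abelianization P →* Abelianization P).ker).comap Abelianization.of
    have h3 : N₂ = ⊤ := by
      apply hS.gen
      intro x β hβ
      show (powMonoidHom 2 : Abelianization P →* Abelianization P)
        (Abelianization.of (x * (β x)⁻¹)) = 1
      rw [powMonoidHom_apply, map_mul, map_inv, mul_pow, inv_pow, ← map_pow, ← map_pow, ← map_pow β,
        hA β hβ _ (hΦ2 x), mul_inv_cancel]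
    intro x
    have hx : x ∈ N₂ := by rw [h3]; trivial
    have h4 : (Abelianization.of : P →* Abelianization P) (x ^ 2) = 1 := by
      rw [map_pow]
      exact hx
    rw [← MonoidHom.mem_ker, Abelianization.ker_of] at h4
    exact h4
  have hΦD : frattini P ≤ commutator P :=
    Cfsg.Agent.Lib.Frat.frattini_le_of_commutator_pow (commutator P) le_rfl hsq
  have hDΦ := commutator_le_fr hS
  have hDZ : commutator P = Subgroup.center P := (le_antisymm hDΦ hΦD).trans hΦeq
  -- the commutator subgroup is elementary abelian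
  let E : Subgroup P :=
    { carrier := {z | z ∈ Subgroup.center P ∧ z ^ 2 = 1}
      mul_mem' := by
        rintro a b ⟨ha, ha2⟩ ⟨hb, hb2⟩
        refine ⟨Subgroup.mul_mem _ ha hb, ?_⟩
        have h3 : Commute a b := (Subgroup.mem_center_iff.mp ha b).symm
        rw [h3.mul_pow, ha2, hb2, one_mul]
      one_mem' := ⟨Subgroup.one_mem _, one_pow _⟩
      inv_mem' := by
        rintro a ⟨ha, ha2⟩
        exact ⟨Subgroup.inv_mem _ ha, by rw [inv_pow, ha2, inv_one]⟩ }
  have hDE : commutator P ≤ E := by
    rw [commutator_def, Subgroup.commutator_le]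
    intro a _ b _
    have hc : ⁅a, b⁆ ∈ Subgroup.center P := by
      rw [← hDZ, commutator_def]
      exact Subgroup.commutator_mem_commutator (Subgroup.mem_top a) (Subgroup.mem_top b)
    refine ⟨hc, ?_⟩
    obtain ⟨c, hcdef⟩ : ∃ c, c = ⁅a, b⁆ := ⟨_, rfl⟩
    rw [← hcdef] at hc ⊢
    have hab : a * b * a⁻¹ = c * b := by
      rw [hcdef, commutatorElement_def]
      group
    have h2 : a ^ 2 * b * (a ^ 2)⁻¹ = b := by
      have h3 : a ^ 2 ∈ Subgroup.center P := hΦZ (hΦ2 a)
      rw [← Subgroup.mem_center_iff.mp h3 b]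
      group
    have h3 : a ^ 2 * b * (a ^ 2)⁻¹ = c * (c * b) := by
      calc a ^ 2 * b * (a ^ 2)⁻¹ = a * (a * b * a⁻¹) * a⁻¹ := by simp only [pow_two]; group
        _ = (a * c) * b * a⁻¹ := by rw [hab]; group
        _ = (c * a) * b * a⁻¹ := by rw [Subgroup.mem_center_iff.mp hc a]
        _ = c * (a * b * a⁻¹) := by group
        _ = c * (c * b) := by rw [hab]
    rw [h3] at h2
    have h4 : c ^ 2 * b = 1 * b := by
      rw [one_mul, pow_two, mul_assoc]
      exact h2
    exact mul_right_cancel h4
  have hDsq : ∀ d ∈ commutator P, d ^ 2 = 1 := fun d hd => (hDE hd).2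
  have hDtop : commutator P ≠ ⊤ := by
    intro h
    apply frattini_ne_top hS hna
    rw [eq_top_iff, ← h]
    exact hDΦ
  have hs := hS.small (commutator P) (fun γ _ v hv => (char_mem _ γ v).2 hv) hDtop
  have hab : ∀ a b : commutator P, a * b = b * a := by
    intro a b
    apply Subtype.ext
    have h3 : (a : P) ∈ Subgroup.center P := by rw [← hDZ]; exact a.2
    exact (Subgroup.mem_center_iff.mp h3 b).symm
  have hSpecial : Cfsg.IsSpecial 2 P := ⟨hS.p2, hΦeq, hDZ⟩
  rcases cyclic_or_four_of_abelian (hS.p2.to_subgroup _) hs hab with hc | ⟨h4, -⟩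
  · left
    have hcard : Nat.card (commutator P) = 2 := by
      obtain ⟨g, hg⟩ := IsCyclic.exists_ofOrder_eq_natCard (α := commutator P)
      have h3 : g ^ 2 = 1 := Subtype.ext (hDsq _ g.2)
      have h5 : orderOf g ∣ 2 := orderOf_dvd_of_pow_eq_one h3
      have h6 := Nat.le_of_dvd (by norm_num) h5
      have h7 : Nat.card (commutator P) ≠ 1 := by
        intro h
        exact commutator_ne_bot hna (Subgroup.card_eq_one.mp h)
      have h8 : 0 < Nat.card (commutator P) := Nat.card_pos
      omega
    refine ⟨⟨hSpecial, by rw [← hDZ]; exact hcard⟩, card_ge_32 hS hna hDZ hcard⟩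
  · right
    exact ⟨hSpecial, by rw [← hDZ]; exact h4⟩

/-- The action on the Frattini subgroup is not trivial. -/
lemma caseB (hna : ¬ ∀ a b : P, a * b = b * a) {β₀ : MulAut P} (hβ₀ : β₀ ∈ 𝒜) {f : P}
    (hf : f ∈ frattini P) (hf1 : β₀ f ≠ f) :
    Cfsg.IsSpecial 2 P ∧ Nat.card (Subgroup.center P) = 4 := by
  classical
  rcases small_char hS (frattini P) (frattini_ne_top hS hna) hβ₀ hf hf1 with ⟨hc, hnc⟩ | ⟨⟨e⟩⟩
  · have hidx : Nat.card P ≤
        2 * Nat.card (frattini P ⊔ Subgroup.centralizer (frattini P : Set P) : Subgroup P) := by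
      have h3 := v4_index hS.p2 (frattini P) hc hnc
      have h4 := Subgroup.card_le_of_le
        (le_sup_right : Subgroup.centralizer (frattini P : Set P) ≤ frattini P ⊔ Subgroup.centralizer (frattini P : Set P))
      omega
    have hΦZ := frattini_le_center_of_index hS hidx
    have hΦeq := le_antisymm hΦZ (center_le_frattini hS hna)
    have hD : commutator P = frattini P :=
      v4_inv hc hnc (hS.p2.to_subgroup _) β₀ (hS.odd β₀ hβ₀) (char_mem _ β₀) ⟨f, hf, hf1⟩
        (commutator_le_fr hS) (fun x hx => (char_mem _ β₀ x).2 hx) (commutator_ne_bot hna)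
    exact ⟨⟨hS.p2, hΦeq, hD.trans hΦeq⟩, by rw [← hΦeq]; exact hc⟩
  · exfalso
    have h3 := q8_index hS.p2 (frattini P) e
    obtain ⟨i₀, hi₀, hi₀2⟩ := q8W_exists e
    have hsqS : ∀ x ∈ frattini P, x ^ 2 = 1 → x ∈ ({1, i₀ ^ 2} : Finset P) := by
      intro x hx hx2
      simp only [Finset.mem_insert, Finset.mem_singleton]
      by_cases h1 : x = 1
      · exact Or.inl h1
      · right
        refine q8W_two e hx (Subgroup.pow_mem _ hi₀ 2) hx2 ?_ h1 hi₀2
        rw [← pow_mul]
        exact q8W_four e hi₀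
    have hSc : ({1, i₀ ^ 2} : Finset P).card ≤ 2 := Finset.card_le_two
    obtain ⟨C, hCdef⟩ : ∃ C, C = Subgroup.centralizer (frattini P : Set P) := ⟨_, rfl⟩
    rw [← hCdef] at h3
    haveI hCn : C.Normal := by rw [hCdef]; infer_instance
    have h4 : Nat.card (C.subgroupOf (frattini P)) ≤ 2 := by
      let g : C.subgroupOf (frattini P) → ({1, i₀ ^ 2} : Finset P) := fun x =>
        ⟨((x : frattini P) : P), hsqS _ (x : frattini P).2 (q8W_center e (x : frattini P).2 (by
          intro t ht
          have h5 : ((x : frattini P) : P) ∈ Subgroup.centralizer (frattini P : Set P) :=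
            hCdef.le (Subgroup.mem_subgroupOf.mp x.2)
          exact (Subgroup.mem_centralizer_iff.mp h5 t ht).symm))⟩
      have hg : Function.Injective g := by
        intro x y hxy
        apply Subtype.ext
        apply Subtype.ext
        exact congrArg (fun z : ({1, i₀ ^ 2} : Finset P) => (z : P)) hxy
      have h5 := Nat.card_le_card_of_injective g hg
      have h6 : Nat.card ({1, i₀ ^ 2} : Finset P) = ({1, i₀ ^ 2} : Finset P).card := by
        rw [Nat.card_eq_fintype_card, Fintype.card_coe]
      omega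
    have h5 : C.relIndex (frattini P) * Nat.card (C.subgroupOf (frattini P)) = 8 := by
      rw [← q8W_card e]
      exact Subgroup.index_mul_card _
    have h6 : 4 ≤ C.relIndex (frattini P) := by
      by_contra hlt
      push Not at hlt
      have h7 : C.relIndex (frattini P) * Nat.card (C.subgroupOf (frattini P)) ≤ 3 * 2 :=
        Nat.mul_le_mul (by omega) h4
      omega
    have h7 : C.relIndex (frattini P ⊔ C) * Nat.card (C.subgroupOf (frattini P ⊔ C)) =
        Nat.card (frattini P ⊔ C : Subgroup P) := Subgroup.index_mul_card _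
    have h8 : Nat.card (C.subgroupOf (frattini P ⊔ C)) = Nat.card C :=
      Nat.card_congr (Subgroup.subgroupOfEquivOfLe le_sup_right).toEquiv
    rw [h8, Subgroup.relIndex_sup_right] at h7
    have hidx : Nat.card P ≤ 2 * Nat.card (frattini P ⊔ C : Subgroup P) := by
      have h9 : 4 * Nat.card C ≤ C.relIndex (frattini P) * Nat.card C := Nat.mul_le_mul_right _ h6
      omega
    rw [hCdef] at hidx
    have hΦZ := frattini_le_center_of_index hS hidx
    apply q8W_noncomm e
    intro a ha b _
    exact (Subgroup.mem_center_iff.mp (hΦZ ha) b).symm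

/-- **Structure of `P`.** -/
theorem structC (hna : ¬ ∀ a b : P, a * b = b * a) :
    (Cfsg.IsExtraspecial 2 P ∧ 32 ≤ Nat.card P) ∨
      (Cfsg.IsSpecial 2 P ∧ Nat.card (Subgroup.center P) = 4) := by
  by_cases hA : ∀ β ∈ 𝒜, ∀ f ∈ frattini P, β f = f
  · exact caseA hS hna hA
  · push Not at hA
    obtain ⟨β, hβ, f, hf, hne⟩ := hA
    exact Or.inr (caseB hS hna hβ hf hne)

end Cfsg.Agent.Lib.SmallC79
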