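import Mathlib
import Cfsg.Agent.Lib.SmallC79
import Cfsg.Agent.Lib.Glauberman
import Cfsg.Agent.S0055

/-!
# A normal 2-subgroup with an odd group acting, all of whose proper invariant subgroups are small
-/

set_option autoImplicit false
set_option linter.unusedSectionVars false
set_option linter.style.haveILetI false

namespace Cfsg.Agent.Lib.SmallB79

open Cfsg.Agent.Lib.SmallA879 Cfsg.Agent.Lib.SmallQ879 Cfsg.Agent.Lib.SmallC79
open scoped commutatorElement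

variable {G : Type*} [Group G] [Finite G]

/-- `A` is a non-cyclic abelian subgroup of order eight of `W`. -/
def AmbA8 (W : Subgroup G) : Prop :=
  ∃ A : Subgroup G, A ≤ W ∧ IsMulCommutative A ∧ ¬ IsCyclic A ∧ Nat.card A = 8

lemma ambA8_of_hom {T : Type*} [Group T] (f : T →* G) (hf : Function.Injective f) (h : HasA8 T) :
    AmbA8 f.range := by
  obtain ⟨A, hAc, hAnc, hA8⟩ := h
  refine ⟨A.map f, ?_, ?_, ?_, ?_⟩
  · rintro _ ⟨a, _, rfl⟩
    exact ⟨a, rfl⟩
  · have hab := comm_of_isMulComm hAc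
    refine ⟨⟨?_⟩⟩
    rintro ⟨_, a, ha, rfl⟩ ⟨_, b, hb, rfl⟩
    apply Subtype.ext
    show f a * f b = f b * f a
    rw [← map_mul, ← map_mul, hab a ha b hb]
  · intro hc
    exact hAnc (isCyclic_of_surjective (A.equivMapOfInjective f hf).symm (MulEquiv.surjective _))
  · rw [← hA8]
    exact Nat.card_congr (A.equivMapOfInjective f hf).symm.toEquiv

lemma ambA8_of_sub {W : Subgroup G} (h : HasA8 W) : AmbA8 W := by
  have h1 := ambA8_of_hom W.subtype W.subtype_injective h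
  rwa [Subgroup.range_subtype] at h1

lemma hasA8_of_amb {W : Subgroup G} (h : AmbA8 W) : HasA8 W := by
  obtain ⟨A, hAW, hAc, hAnc, hA8⟩ := h
  have e : A.subgroupOf W ≃* A := Subgroup.subgroupOfEquivOfLe hAW
  refine ⟨A.subgroupOf W, ?_, ?_, ?_⟩
  · have hab := comm_of_isMulComm hAc
    refine ⟨⟨?_⟩⟩
    rintro ⟨a, ha⟩ ⟨b, hb⟩
    apply Subtype.ext
    apply Subtype.ext
    exact hab _ (Subgroup.mem_subgroupOf.mp ha) _ (Subgroup.mem_subgroupOf.mp hb)
  · intro hc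
    exact hAnc (isCyclic_of_surjective (Subgroup.subgroupOfEquivOfLe hAW) (MulEquiv.surjective _))
  · rw [← hA8]
    exact Nat.card_congr (Subgroup.subgroupOfEquivOfLe hAW).toEquiv

/-- A non-cyclic abelian 2-subgroup of order at least eight. -/
lemma ambA8_of_abelian {W : Subgroup G} (h2 : IsPGroup 2 W) (hab : ∀ a ∈ W, ∀ b ∈ W, a * b = b * a)
    (hnc : ¬ IsCyclic W) (h8 : 8 ≤ Nat.card W) : AmbA8 W := by
  apply ambA8_of_sub
  obtain ⟨A, -, hAc, hAnc, hA8⟩ := exists_A8_of_abelian h2 (⊤ : Subgroup W)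
    (by
      intro a _ b _
      exact Subtype.ext (hab _ a.2 _ b.2))
    (by
      intro hc
      exact hnc (isCyclic_of_surjective (Subgroup.topEquiv (G := W)) (MulEquiv.surjective _)))
    (by rw [Subgroup.card_top]; exact h8)
  exact ⟨A, hAc, hAnc, hA8⟩

lemma ambA8_mono {V W : Subgroup G} (h : V ≤ W) (hV : AmbA8 V) : AmbA8 W := by
  obtain ⟨A, hAV, hA⟩ := hV
  exact ⟨A, hAV.trans h, hA⟩

/-- The hypotheses on the subgroups `X` and `Y`. -/
structure BSetup (X Y : Subgroup G) : Prop where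
  nX : X.Normal
  p2 : IsPGroup 2 X
  oddY : Odd (Nat.card Y)
  small : ∀ W : Subgroup G, W ≤ X → (∀ y ∈ Y, ∀ w ∈ W, y * w * y⁻¹ ∈ W) → W ≠ X → ¬ AmbA8 W
  hasA : AmbA8 X

lemma conj_mem_iff {Y W : Subgroup G} (hW : ∀ y ∈ Y, ∀ w ∈ W, y * w * y⁻¹ ∈ W) {y : G} (hy : y ∈ Y)
    (x : G) : MulAut.conj y x ∈ W ↔ x ∈ W := by
  rw [MulAut.conj_apply]
  constructor
  · intro h
    have h1 := hW _ (Y.inv_mem hy) _ h
    have h2 : y⁻¹ * (y * x * y⁻¹) * y⁻¹⁻¹ = x := by group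
    rwa [h2] at h1
  · exact hW y hy x

lemma odd_conj {Y : Subgroup G} (hY : Odd (Nat.card Y)) {y : G} (hy : y ∈ Y) :
    Odd (orderOf (MulAut.conj y)) := by
  have h1 : orderOf (MulAut.conj y) ∣ orderOf y := orderOf_map_dvd (MulAut.conj : G →* MulAut G) y
  have h2 : orderOf y ∣ Nat.card Y := Subgroup.orderOf_dvd_natCard Y hy
  exact hY.of_dvd_nat (h1.trans h2)

/-- The restriction of an inner automorphism to a subgroup which is invariant under it. -/
noncomputable def rConj (y : G) (W : Subgroup G) (h : ∀ x, MulAut.conj y x ∈ W ↔ x ∈ W) : MulAut W :=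
  resAut (MulAut.conj y) W h

lemma rConj_apply (y : G) (W : Subgroup G) (h : ∀ x, MulAut.conj y x ∈ W ↔ x ∈ W) (k : W) :
    ((rConj y W h k : W) : G) = y * k * y⁻¹ := rfl

variable {X Y : Subgroup G}

lemma BSetup.small_act (hB : BSetup X Y) {W : Subgroup G} (hWX : W ≤ X)
    (hW : ∀ y ∈ Y, ∀ w ∈ W, y * w * y⁻¹ ∈ W) (hne : W ≠ X) {y : G} (hy : y ∈ Y) {w : G} (hw : w ∈ W)
    (hw1 : y * w * y⁻¹ ≠ w) : (Nat.card W = 4 ∧ ¬ IsCyclic W) ∨ Nonempty (W ≃* Q8) := by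
  have h2W : IsPGroup 2 W := IsPGroup.to_le hB.p2 hWX
  refine small_odd_aut h2W (fun h => hB.small W hWX hW hne (ambA8_of_sub h))
    (rConj y W (conj_mem_iff hW hy)) (resAut_odd _ W _ (odd_conj hB.oddY hy)) ?_
  intro h
  apply hw1
  have h3 := congrArg (fun γ : MulAut W => ((γ ⟨w, hw⟩ : W) : G)) h
  simpa [rConj_apply] using h3

lemma BSetup.coprime (hB : BSetup X Y) : (Nat.card Y).Coprime (Nat.card X) := by
  obtain ⟨k, hk⟩ := IsPGroup.iff_card.mp hB.p2
  rw [hk]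
  exact Nat.Coprime.pow_right k (Nat.coprime_two_right.mpr hB.oddY)

lemma BSetup.le_normalizer (hB : BSetup X Y) : Y ≤ Subgroup.normalizer (X : Set G) := by
  haveI := hB.nX
  rw [Subgroup.normalizer_eq_top_iff.mpr hB.nX]
  exact le_top

lemma BSetup.solv (hB : BSetup X Y) : Group.IsSolvable Y ∨ Group.IsSolvable X := by
  right
  haveI : Fact (Nat.Prime 2) := ⟨Nat.prime_two⟩
  haveI := hB.p2.isNilpotent
  infer_instance

/-- The Fitting-type statement needed in the case `[X, Y] = X`. -/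
lemma BSetup.fitting (hB : BSetup X Y) (hQ : ⁅X, Y⁆ = X) {z : X} (hzc : z ∈ Subgroup.center X)
    (hzY : ∀ y ∈ Y, y * (z : G) * y⁻¹ = z) : z ∈ frattini X := by
  haveI : Fact (Nat.Prime 2) := ⟨Nat.prime_two⟩
  haveI hXn := hB.nX
  obtain ⟨Φ, hΦdef⟩ : ∃ Φ, Φ = (frattini X).map X.subtype := ⟨_, rfl⟩
  haveI hΦn : Φ.Normal := by
    constructor
    intro f hf g
    rw [hΦdef] at hf ⊢
    obtain ⟨f₀, hf₀, rfl⟩ := hf
    refine ⟨MulAut.conjNormal g f₀, (char_mem (frattini X) _ f₀).2 hf₀, ?_⟩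
    simp
  let π : G →* G ⧸ Φ := QuotientGroup.mk' Φ
  have hπsurj : Function.Surjective π := QuotientGroup.mk'_surjective Φ
  obtain ⟨V, hVdef⟩ : ∃ V, V = X.map π := ⟨_, rfl⟩
  obtain ⟨B, hBdef⟩ : ∃ B, B = Y.map π := ⟨_, rfl⟩
  haveI hVc : IsMulCommutative V := by
    refine ⟨⟨?_⟩⟩
    rintro ⟨a', ha'⟩ ⟨b', hb'⟩
    apply Subtype.ext
    rw [hVdef] at ha' hb'
    obtain ⟨a, ha, rfl⟩ := ha'
    obtain ⟨b, hb, rfl⟩ := hb'
    show π a * π b = π b * π a
    rw [← map_mul, ← map_mul]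
    apply (QuotientGroup.eq_iff_div_mem).mpr
    rw [hΦdef]
    refine ⟨⁅(⟨a, ha⟩ : X), (⟨b, hb⟩ : X)⁆, ?_, ?_⟩
    · apply Cfsg.Agent.Lib.Frat.commutator_le_frattini hB.p2
      rw [commutator_def]
      exact Subgroup.commutator_mem_commutator (Subgroup.mem_top _) (Subgroup.mem_top _)
    · simp [commutatorElement_def, div_eq_mul_inv, mul_assoc]
  have hVn : V.Normal := by
    rw [hVdef]
    exact hXn.map π hπsurj
  have hBV : B ≤ Subgroup.normalizer (V : Set (G ⧸ Φ)) := by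
    rw [Subgroup.normalizer_eq_top_iff.mpr hVn]
    exact le_top
  have hcop : (Nat.card B).Coprime (Nat.card V) := by
    have h1 : Nat.card B ∣ Nat.card Y := by
      rw [hBdef]
      exact Subgroup.card_map_dvd Y π
    have h3 : Nat.card V ∣ Nat.card X := by
      rw [hVdef]
      exact Subgroup.card_map_dvd X π
    exact (Nat.Coprime.coprime_dvd_left h1 (Nat.Coprime.coprime_dvd_right h3 hB.coprime))
  have hS := (Cfsg.Agent.S0055.result B V hBV hcop).1
  have hVV : ⁅V, B⁆ = V := by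
    rw [hVdef, hBdef, ← Subgroup.map_commutator, hQ]
  rw [hVV] at hS
  have hmem : π z ∈ (V ⊓ Subgroup.centralizer (B : Set (G ⧸ Φ))) ⊓ V := by
    have hzV : π z ∈ V := by
      rw [hVdef]
      exact ⟨z, z.2, rfl⟩
    refine ⟨⟨hzV, ?_⟩, hzV⟩
    refine Subgroup.mem_centralizer_iff.mpr ?_
    intro b hb
    rw [hBdef] at hb
    obtain ⟨y, hy, rfl⟩ := hb
    have h1 := hzY y hy
    show π y * π z = π z * π y
    rw [← map_mul, ← map_mul]
    congr 1
    calc y * (z : G) = (y * z * y⁻¹) * y := by group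
      _ = z * y := by rw [h1]
  rw [hS, Subgroup.mem_bot] at hmem
  have h1 : (z : G) ∈ Φ := (QuotientGroup.eq_one_iff _).mp hmem
  rw [hΦdef] at h1
  obtain ⟨f, hf, hfz⟩ := h1
  have h2 : f = z := Subtype.ext hfz
  rwa [← h2]

/-- The case `[X, Y] = X`. -/
lemma BSetup.caseC (hB : BSetup X Y) (hQ : ⁅X, Y⁆ = X) (hna : ¬ ∀ a b : X, a * b = b * a) :
    (Cfsg.IsExtraspecial 2 X ∧ 32 ≤ Nat.card X) ∨
      (Cfsg.IsSpecial 2 X ∧ Nat.card (Subgroup.center X) = 4) := by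
  haveI hXn := hB.nX
  have hXinv : ∀ y ∈ Y, ∀ w ∈ X, y * w * y⁻¹ ∈ X := fun y _ w hw => hXn.conj_mem w hw y
  let 𝒜 : Set (MulAut X) := {β | ∃ y, ∃ hy : y ∈ Y, β = rConj y X (conj_mem_iff hXinv hy)}
  have hS : CSetup X 𝒜 := by
    refine ⟨hB.p2, ?_, ?_, ?_, ?_, ?_⟩
    · rintro β ⟨y, hy, rfl⟩
      exact resAut_odd _ X _ (odd_conj hB.oddY hy)
    · intro N hN
      have h1 : ⁅X, Y⁆ ≤ N.map X.subtype := by
        rw [Subgroup.commutator_le]
        intro x hx y hy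
        refine ⟨_, hN ⟨x, hx⟩ _ ⟨y, hy, rfl⟩, ?_⟩
        show (x * ((rConj y X (conj_mem_iff hXinv hy) ⟨x, hx⟩ : X) : G)⁻¹) = _
        rw [rConj_apply, commutatorElement_def]
        group
      rw [hQ] at h1
      rw [eq_top_iff]
      rintro ⟨x, hx⟩ _
      obtain ⟨n, hn, hnx⟩ := h1 hx
      have h2 : n = ⟨x, hx⟩ := Subtype.ext hnx
      rwa [← h2]
    · intro W hW hne hA
      have h1 := ambA8_of_hom (X.subtype.comp W.subtype)
        (X.subtype_injective.comp W.subtype_injective) hA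
      have hrange : (X.subtype.comp W.subtype).range = W.map X.subtype := by
        rw [MonoidHom.range_comp, Subgroup.range_subtype]
      rw [hrange] at h1
      apply hB.small (W.map X.subtype) _ _ _ h1
      · rintro _ ⟨w, _, rfl⟩
        exact w.2
      · rintro y hy _ ⟨w, hw, rfl⟩
        exact ⟨_, hW _ ⟨y, hy, rfl⟩ w hw, rfl⟩
      · intro h
        apply hne
        rw [eq_top_iff]
        rintro ⟨x, hx⟩ _
        have h3 : x ∈ W.map X.subtype := by rw [h]; exact hx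
        obtain ⟨n, hn, hnx⟩ := h3
        have h2 : n = ⟨x, hx⟩ := Subtype.ext hnx
        rwa [← h2]
    · exact hasA8_of_amb hB.hasA
    · intro z hz hfix
      apply hB.fitting hQ hz
      intro y hy
      have h1 := hfix _ ⟨y, hy, rfl⟩
      have h2 := congrArg Subtype.val h1
      simpa [rConj_apply] using h2
  exact structC hS hna

lemma inv_sup {U V : Subgroup G} (hU : ∀ y ∈ Y, ∀ w ∈ U, y * w * y⁻¹ ∈ U)
    (hV : ∀ y ∈ Y, ∀ w ∈ V, y * w * y⁻¹ ∈ V) : ∀ y ∈ Y, ∀ w ∈ U ⊔ V, y * w * y⁻¹ ∈ U ⊔ V := by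
  intro y hy w hw
  have h1 : U ⊔ V ≤ (U ⊔ V).comap (MulAut.conj y).toMonoidHom :=
    sup_le (fun u hu => Subgroup.mem_sup_left (hU y hy u hu))
      (fun v hv => Subgroup.mem_sup_right (hV y hy v hv))
  exact h1 hw

lemma inv_zpowers {c : G} (hc : ∀ y ∈ Y, y * c * y⁻¹ = c) :
    ∀ y ∈ Y, ∀ w ∈ Subgroup.zpowers c, y * w * y⁻¹ ∈ Subgroup.zpowers c := by
  intro y hy w hw
  obtain ⟨n, rfl⟩ := Subgroup.mem_zpowers_iff.mp hw
  have h1 : y * c ^ n * y⁻¹ = (y * c * y⁻¹) ^ n := by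
    have := map_zpow (MulAut.conj y) c n
    simpa [MulAut.conj_apply] using this
  rw [h1, hc y hy]
  exact Subgroup.zpow_mem_zpowers c n

lemma BSetup.comm_inv (hB : BSetup X Y) : ∀ y ∈ Y, ∀ w ∈ (⁅X, Y⁆ : Subgroup G),
    y * w * y⁻¹ ∈ (⁅X, Y⁆ : Subgroup G) := by
  intro y hy w hw
  have h1 := Cfsg.Agent.Lib.Glauberman.le_normalizer_commutator hB.le_normalizer hy
  exact (Subgroup.mem_normalizer_iff.mp h1 w).mp hw

/-- The case `[X, Y] = 1`. -/
lemma BSetup.caseTriv (hB : BSetup X Y) (hQ : ⁅X, Y⁆ = ⊥) : IsMulCommutative X := by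
  obtain ⟨A, hAX, hAc, hAnc, hA8⟩ := hB.hasA
  have hcomm : ∀ x ∈ X, ∀ y ∈ Y, y * x * y⁻¹ = x := by
    intro x hx y hy
    have h1 : ⁅x, y⁆ ∈ (⁅X, Y⁆ : Subgroup G) := Subgroup.commutator_mem_commutator hx hy
    rw [hQ, Subgroup.mem_bot, commutatorElement_eq_one_iff_mul_comm] at h1
    rw [← h1]
    group
  have hAeq : A = X := by
    by_contra hne
    refine hB.small A hAX (fun y hy w hw => ?_) hne ⟨A, le_rfl, hAc, hAnc, hA8⟩
    rw [hcomm w (hAX hw) y hy]
    exact hw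
  rw [← hAeq]
  exact hAc

lemma orderOf_rConj {c : G} {W : Subgroup G} (h : ∀ x, MulAut.conj c x ∈ W ↔ x ∈ W) :
    orderOf (rConj c W h) ∣ orderOf c := by
  have h1 : orderOf (MulAut.conj c) ∣ orderOf c := orderOf_map_dvd (MulAut.conj : G →* MulAut G) c
  refine dvd_trans ?_ h1
  apply orderOf_dvd_of_pow_eq_one
  ext k
  rw [show rConj c W h = resAut (MulAut.conj c) W h from rfl, resAut_pow, pow_orderOf_eq_one]
  rfl

/-- An element of `X` centralising `Y` which normalises a small `Y`-invariant subgroup centralises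
it. -/
lemma BSetup.cen_of_act (hB : BSetup X Y) {Q : Subgroup G} (hQX : Q ≤ X)
    (hQinv : ∀ y ∈ Y, ∀ w ∈ Q, y * w * y⁻¹ ∈ Q) (hne : Q ≠ X) {y₀ : G} (hy₀ : y₀ ∈ Y) {q₀ : G}
    (hq₀ : q₀ ∈ Q) (hq₀1 : y₀ * q₀ * y₀⁻¹ ≠ q₀) {c : G} (hcX : c ∈ X)
    (hcy : ∀ y ∈ Y, y * c * y⁻¹ = c) (hcQ : ∀ x, MulAut.conj c x ∈ Q ↔ x ∈ Q) :
    ∀ q ∈ Q, c * q * c⁻¹ = q := by
  classical
  have h2Q : IsPGroup 2 Q := IsPGroup.to_le hB.p2 hQX
  obtain ⟨m, hm⟩ := (IsPGroup.iff_orderOf.mp hB.p2) ⟨c, hcX⟩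
  have hm' : orderOf c = 2 ^ m := by
    rw [← hm]
    exact (Subgroup.orderOf_mk c hcX).symm
  have hγord : ∃ k, orderOf (rConj c Q hcQ) = 2 ^ k := by
    have h1 := orderOf_rConj hcQ
    rw [hm'] at h1
    obtain ⟨k, -, hk⟩ := (Nat.dvd_prime_pow Nat.prime_two).mp h1
    exact ⟨k, hk⟩
  obtain ⟨k, hk⟩ := hγord
  have hβinv := conj_mem_iff hQinv hy₀
  have hβodd : Odd (orderOf (rConj y₀ Q hβinv)) := resAut_odd _ Q _ (odd_conj hB.oddY hy₀)
  have hβ1 : rConj y₀ Q hβinv ≠ 1 := by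
    intro h
    apply hq₀1
    have h3 := congrArg (fun γ : MulAut Q => ((γ ⟨q₀, hq₀⟩ : Q) : G)) h
    simpa [rConj_apply] using h3
  have hyc : y₀ * c = c * y₀ := by
    calc y₀ * c = (y₀ * c * y₀⁻¹) * y₀ := by group
      _ = c * y₀ := by rw [hcy y₀ hy₀]
  rcases hB.small_act hQX hQinv hne hy₀ hq₀ hq₀1 with ⟨hc4, hnc⟩ | ⟨⟨e⟩⟩
  · have hnt : Nontrivial Q := by
      apply Finite.one_lt_card_iff_nontrivial.mp
      omega
    obtain ⟨u, hu1, hγu⟩ := exists_fixed_aut h2Q hnt (rConj c Q hcQ) hk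
    have hu1' : (u : G) ≠ 1 := fun h => hu1 (Subtype.ext h)
    have hcu : c * u * c⁻¹ = u := congrArg Subtype.val hγu
    have hu' : y₀ * u * y₀⁻¹ ≠ u := by
      intro h
      have h3 := v4_fix hc4 hnc h2Q (MulAut.conj y₀) (odd_conj hB.oddY hy₀) hβinv u.2 hu1' h q₀ hq₀
      exact hq₀1 h3
    have hu'1 : y₀ * u * y₀⁻¹ ≠ 1 := by
      intro h
      apply hu1'
      have h3 : (u : G) = y₀⁻¹ * (y₀ * u * y₀⁻¹) * y₀ := by group
      rw [h3, h]
      group
    have hcu' : c * (y₀ * u * y₀⁻¹) * c⁻¹ = y₀ * u * y₀⁻¹ := by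
      have hyc' : c⁻¹ * y₀⁻¹ = y₀⁻¹ * c⁻¹ := by
        have := congrArg (·⁻¹) hyc
        simpa using this
      calc c * (y₀ * u * y₀⁻¹) * c⁻¹ = (c * y₀) * u * (y₀⁻¹ * c⁻¹) := by group
        _ = (y₀ * c) * u * (c⁻¹ * y₀⁻¹) := by rw [hyc, hyc']
        _ = y₀ * (c * u * c⁻¹) * y₀⁻¹ := by group
        _ = y₀ * u * y₀⁻¹ := by rw [hcu]
    intro q hq
    rcases v4_elems hc4 hnc u.2 (hQinv y₀ hy₀ u u.2) hu1' hu'1 (fun h => hu' h.symm) q hq with
      h | h | h | h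
    · rw [h]; group
    · rw [h]; exact hcu
    · rw [h]; exact hcu'
    · rw [h]
      calc c * ((u : G) * (y₀ * u * y₀⁻¹)) * c⁻¹
          = (c * u * c⁻¹) * (c * (y₀ * u * y₀⁻¹) * c⁻¹) := by group
        _ = _ := by rw [hcu, hcu']
  · have h1 := q8T_comm e (rConj y₀ Q hβinv) (rConj c Q hcQ) hβodd hβ1 hk (by
      intro x
      apply Subtype.ext
      rw [rConj_apply, rConj_apply, rConj_apply, rConj_apply]
      have hyc' : c⁻¹ * y₀⁻¹ = y₀⁻¹ * c⁻¹ := by
        have := congrArg (·⁻¹) hyc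
        simpa using this
      calc y₀ * (c * (x : G) * c⁻¹) * y₀⁻¹ = (y₀ * c) * x * (c⁻¹ * y₀⁻¹) := by group
        _ = (c * y₀) * x * (y₀⁻¹ * c⁻¹) := by rw [hyc, hyc']
        _ = _ := by group)
    intro q hq
    have h3 := congrArg (fun γ : MulAut Q => ((γ ⟨q, hq⟩ : Q) : G)) h1
    simpa [rConj_apply] using h3

lemma exists_sq_mem {Q : Subgroup G} {c : G} (hc : c ∉ Q) {k : ℕ} (hk : orderOf c = 2 ^ k) :
    ∃ m : ℕ, c ^ m ∉ Q ∧ (c ^ m) ^ 2 ∈ Q := by
  classical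
  have hex : ∃ n : ℕ, c ^ (2 ^ n) ∈ Q := ⟨k, by rw [← hk, pow_orderOf_eq_one]; exact Q.one_mem⟩
  have h0 : Nat.find hex ≠ 0 := by
    intro h
    have h1 := Nat.find_spec hex
    rw [h] at h1
    exact hc (by simpa using h1)
  obtain ⟨n, hn⟩ := Nat.exists_eq_succ_of_ne_zero h0
  have h1 := Nat.find_spec hex
  have h2 := Nat.find_min hex (m := n) (by omega)
  refine ⟨2 ^ n, h2, ?_⟩
  rw [hn] at h1
  rw [← pow_mul, ← pow_succ]
  exact h1

lemma relIndex_two {Q : Subgroup G} {c : G} (hc : c ∉ Q) (hc2 : c ^ 2 ∈ Q)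
    (hcQ : ∀ q ∈ Q, c * q = q * c) : Q.relIndex (Q ⊔ Subgroup.zpowers c) = 2 := by
  have hcinv : ∀ q ∈ Q, c⁻¹ * q = q * c⁻¹ := by
    intro q hq
    calc c⁻¹ * q = c⁻¹ * (q * c) * c⁻¹ := by group
      _ = c⁻¹ * (c * q) * c⁻¹ := by rw [hcQ q hq]
      _ = q * c⁻¹ := by group
  let H : Subgroup G :=
    { carrier := {x | x ∈ Q ∨ x * c ∈ Q}
      mul_mem' := by
        rintro a b (ha | ha) (hb | hb)
        · exact Or.inl (Q.mul_mem ha hb)
        · right
          rw [mul_assoc]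
          exact Q.mul_mem ha hb
        · right
          have h1 : a * b * c = (a * c) * b := by
            calc a * b * c = a * (b * c) := by group
              _ = a * (c * b) := by rw [hcQ b hb]
              _ = (a * c) * b := by group
          rw [h1]
          exact Q.mul_mem ha hb
        · left
          have h1 : a * b = (a * c) * (b * c) * (c ^ 2)⁻¹ := by
            have h2 : c * (b * c) = (b * c) * c := hcQ _ hb
            calc a * b = (a * c) * c⁻¹ * (b * c) * c⁻¹ := by group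
              _ = (a * c) * (c⁻¹ * (b * c)) * c⁻¹ := by group
              _ = (a * c) * ((b * c) * c⁻¹) * c⁻¹ := by rw [hcinv _ hb]
              _ = (a * c) * (b * c) * (c ^ 2)⁻¹ := by simp only [pow_two]; group
          rw [h1]
          exact Q.mul_mem (Q.mul_mem ha hb) (Q.inv_mem hc2)
      one_mem' := Or.inl Q.one_mem
      inv_mem' := by
        rintro a (ha | ha)
        · exact Or.inl (Q.inv_mem ha)
        · right
          have h1 : a⁻¹ * c = (a * c)⁻¹ * c ^ 2 := by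
            calc a⁻¹ * c = c * (a * c)⁻¹ * c := by group
              _ = (a * c)⁻¹ * c * c := by rw [hcQ _ (Q.inv_mem ha)]
              _ = (a * c)⁻¹ * c ^ 2 := by rw [pow_two, mul_assoc]
          rw [h1]
          exact Q.mul_mem (Q.inv_mem ha) hc2 }
  have hle : Q ⊔ Subgroup.zpowers c ≤ H := by
    apply sup_le
    · intro q hq
      exact Or.inl hq
    · rw [Subgroup.zpowers_le]
      right
      rw [← pow_two]
      exact hc2
  have hcmem : c ∈ Q ⊔ Subgroup.zpowers c := Subgroup.mem_sup_right (Subgroup.mem_zpowers c)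
  show (Q.subgroupOf (Q ⊔ Subgroup.zpowers c)).index = 2
  rw [Subgroup.index_eq_two_iff]
  refine ⟨⟨c, hcmem⟩, ?_⟩
  rintro ⟨b, hb⟩
  simp only [Subgroup.mem_subgroupOf]
  show Xor' (b * c ∈ Q) (b ∈ Q)
  rcases hle hb with h | h
  · right
    refine ⟨h, ?_⟩
    intro h1
    apply hc
    have := Q.mul_mem (Q.inv_mem h) h1
    simpa using this
  · left
    refine ⟨h, ?_⟩
    intro h1
    apply hc
    have := Q.mul_mem (Q.inv_mem h1) h
    simpa using this

/-- The case `1 ≠ [X, Y] ≠ X`. -/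
lemma BSetup.caseMid (hB : BSetup X Y) (hQ0 : ⁅X, Y⁆ ≠ ⊥) (hQX : ⁅X, Y⁆ ≠ X) :
    IsMulCommutative X ∨ (∃ (X₀ : Subgroup G) (k : ℕ), X₀ ≤ X ∧ X₀.relIndex X = 2 ∧
      Nonempty (X₀ ≃* QuaternionGroup (2 ^ (k + 1))) ∧
      X₀ ⊔ (X ⊓ Subgroup.centralizer (X₀ : Set G)) = X) := by
  classical
  haveI : Fact (Nat.Prime 2) := ⟨Nat.prime_two⟩
  haveI hXn := hB.nX
  have hle := Cfsg.Agent.Lib.Glauberman.commutator_le_of_le_normalizer hB.le_normalizer
  have hQQ := Cfsg.Agent.Lib.Glauberman.commutator_commutator_eq hB.le_normalizer hB.coprime hB.solv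
  have hsup := Cfsg.Agent.Lib.Glauberman.commutator_sup_inf_centralizer hB.le_normalizer hB.coprime hB.solv
  have hinv := hB.comm_inv
  obtain ⟨Q, hQdef⟩ : ∃ Q, Q = ⁅X, Y⁆ := ⟨_, rfl⟩
  rw [← hQdef] at hQ0 hQX hle hQQ hsup hinv
  -- a non-trivial action
  obtain ⟨y₀, hy₀, q₀, hq₀, hq₀1⟩ : ∃ y ∈ Y, ∃ q ∈ Q, y * q * y⁻¹ ≠ q := by
    by_contra hno
    push Not at hno
    apply hQ0
    rw [← hQQ, eq_bot_iff, Subgroup.commutator_le]
    intro q hq y hy
    rw [Subgroup.mem_bot, commutatorElement_def]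
    have h1 := hno y hy q hq
    have h2 : q * y * q⁻¹ * y⁻¹ = q * (y * q⁻¹ * y⁻¹) := by group
    have h3 : y * q⁻¹ * y⁻¹ = (y * q * y⁻¹)⁻¹ := by group
    rw [h2, h3, h1]
    group
  obtain ⟨C, hCdef⟩ : ∃ C, C = X ⊓ Subgroup.centralizer (Y : Set G) := ⟨_, rfl⟩
  rw [← hCdef] at hsup
  have hCX : C ≤ X := by rw [hCdef]; exact inf_le_left
  have hCy : ∀ c ∈ C, ∀ y ∈ Y, y * c * y⁻¹ = c := by
    intro c hc y hy
    rw [hCdef] at hc
    rw [Subgroup.mem_centralizer_iff.mp hc.2 y hy]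
    group
  have hCQ : ∀ c ∈ C, ∀ x, MulAut.conj c x ∈ Q ↔ x ∈ Q := by
    intro c hc x
    have h1 : Q.map (MulAut.conj c).toMonoidHom = Q := by
      rw [hQdef, Subgroup.map_commutator]
      have h2 : X.map (MulAut.conj c).toMonoidHom = X :=
        Subgroup.mem_normalizer_iff_map_conj_eq.mp (by
          rw [Subgroup.normalizer_eq_top_iff.mpr hXn]; trivial)
      have hcomm : ∀ h ∈ Y, c * h * c⁻¹ = h := by
        intro h hh
        rw [hCdef] at hc
        rw [← Subgroup.mem_centralizer_iff.mp hc.2 h hh]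
        group
      have h3 : Y.map (MulAut.conj c).toMonoidHom = Y := by
        ext h
        constructor
        · rintro ⟨h', hh', rfl⟩
          show c * h' * c⁻¹ ∈ Y
          rw [hcomm h' hh']
          exact hh'
        · intro hh
          exact ⟨h, hh, hcomm h hh⟩
      rw [h2, h3]
    constructor
    · intro h
      rw [← h1] at h
      obtain ⟨q, hq, hqx⟩ := h
      have h3 : q = x := (MulAut.conj c).injective hqx
      rwa [← h3]
    · intro h
      rw [← h1]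
      exact ⟨x, h, rfl⟩
  have hCcen : ∀ c ∈ C, ∀ q ∈ Q, c * q * c⁻¹ = q := fun c hc =>
    hB.cen_of_act hle hinv hQX hy₀ hq₀ hq₀1 (hCX hc) (hCy c hc) (hCQ c hc)
  have hCcom : ∀ c ∈ C, ∀ q ∈ Q, c * q = q * c := by
    intro c hc q hq
    calc c * q = (c * q * c⁻¹) * c := by group
      _ = q * c := by rw [hCcen c hc q hq]
  -- an element of `C` outside `Q`
  obtain ⟨c₀, hc₀, hc₀Q⟩ : ∃ c ∈ C, c ∉ Q := by
    by_contra hno
    push Not at hno
    apply hQX
    rw [← hsup]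
    exact (sup_eq_left.mpr hno).symm
  have hX2 : ∀ x ∈ X, ∃ k, orderOf x = 2 ^ k := by
    intro x hx
    obtain ⟨m, hm⟩ := (IsPGroup.iff_orderOf.mp hB.p2) ⟨x, hx⟩
    refine ⟨m, ?_⟩
    rw [← hm]
    exact (Subgroup.orderOf_mk x hx).symm
  have h2Q : IsPGroup 2 Q := IsPGroup.to_le hB.p2 hle
  have hβinv := conj_mem_iff hinv hy₀
  have hβodd : Odd (orderOf (rConj y₀ Q hβinv)) := resAut_odd _ Q _ (odd_conj hB.oddY hy₀)
  have hβ1 : rConj y₀ Q hβinv ≠ 1 := by
    intro h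
    apply hq₀1
    have h3 := congrArg (fun γ : MulAut Q => ((γ ⟨q₀, hq₀⟩ : Q) : G)) h
    simpa [rConj_apply] using h3
  rcases hB.small_act hle hinv hQX hy₀ hq₀ hq₀1 with ⟨hc4, hnc⟩ | ⟨⟨e⟩⟩
  · -- the four-group case
    left
    have hCne : Nontrivial C := by
      refine ⟨⟨⟨c₀, hc₀⟩, 1, fun h => hc₀Q ?_⟩⟩
      have h3 : c₀ = 1 := congrArg Subtype.val h
      rw [h3]
      exact Q.one_mem
    have h2C : IsPGroup 2 C := IsPGroup.to_le hB.p2 hCX
    have hdvd : 2 ∣ Nat.card C := by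
      rcases h2C.card_eq_or_dvd with h | h
      · exfalso
        exact (Finite.one_lt_card_iff_nontrivial.mpr hCne).ne' h
      · exact h
    obtain ⟨c', hc'⟩ := exists_prime_orderOf_dvd_card' (G := C) 2 hdvd
    have hc2 : (c' : G) ^ 2 = 1 := by
      have h5 := pow_orderOf_eq_one c'
      rw [hc'] at h5
      exact congrArg Subtype.val h5
    have hc1 : (c' : G) ≠ 1 := by
      intro h
      have : c' = 1 := Subtype.ext h
      rw [this, orderOf_one] at hc'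
      omega
    have hcQ : (c' : G) ∉ Q := by
      intro h
      apply hq₀1
      exact v4_fix hc4 hnc h2Q (MulAut.conj y₀) (odd_conj hB.oddY hy₀) hβinv h hc1
        (hCy _ c'.2 y₀ hy₀) q₀ hq₀
    have hsq := v4_sq hc4 hnc
    have hEab := abelian_sup_zpowers (comm_of_sq hsq) (x := (c' : G))
      (fun a ha => (hCcom _ c'.2 a ha).symm)
    have hcard := card_sup_zpowers_ge hcQ
    rw [hc4] at hcard
    have hEnc : ¬ IsCyclic (Q ⊔ Subgroup.zpowers (c' : G) : Subgroup G) :=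
      not_cyclic_of_exp2 le_sup_left hsq (by omega)
    have hEX : Q ⊔ Subgroup.zpowers (c' : G) ≤ X :=
      sup_le hle ((Subgroup.zpowers_le).mpr (hCX c'.2))
    have hEinv := inv_sup hinv (inv_zpowers (hCy _ c'.2))
    have hA := ambA8_of_abelian (IsPGroup.to_le hB.p2 hEX) hEab hEnc (by omega)
    have hEeq : Q ⊔ Subgroup.zpowers (c' : G) = X := by
      by_contra hne
      exact hB.small _ hEX hEinv hne hA
    refine ⟨⟨?_⟩⟩
    rintro ⟨a, ha⟩ ⟨b, hb⟩
    apply Subtype.ext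
    rw [← hEeq] at ha hb
    exact hEab a ha b hb
  · -- the quaternion case
    right
    obtain ⟨k₀, hk₀⟩ := hX2 c₀ (hCX hc₀)
    obtain ⟨m, hmQ, hmQ2⟩ := exists_sq_mem hc₀Q hk₀
    obtain ⟨c, hcdef⟩ : ∃ c, c = c₀ ^ m := ⟨_, rfl⟩
    rw [← hcdef] at hmQ hmQ2
    have hcC : c ∈ C := by
      rw [hcdef]
      exact C.pow_mem hc₀ m
    have hc4' : c ^ 4 = 1 := by
      have h3 : (rConj y₀ Q hβinv) ⟨c ^ 2, hmQ2⟩ = ⟨c ^ 2, hmQ2⟩ :=
        Subtype.ext (hCy _ (C.pow_mem hcC 2) y₀ hy₀)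
      have h4 := q8T_fix e _ hβodd hβ1 h3
      have h5 := congrArg Subtype.val h4
      have h6 : (c ^ 2) ^ 2 = 1 := by simpa using h5
      rw [← pow_mul] at h6
      exact h6
    obtain ⟨i, hi, hi2⟩ := q8W_exists e
    have hi4 : i ^ 4 = 1 := q8W_four e hi
    have hio : orderOf i = 2 ^ (1 + 1) := by
      apply orderOf_eq_prime_pow
      · simpa using hi2
      · simpa using hi4
    have hzle : Subgroup.zpowers i ≤ Q := (Subgroup.zpowers_le).mpr hi
    have hczp : c ∉ Subgroup.zpowers i := fun h => hmQ (hzle h)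
    have hzcomm : ∀ a ∈ Subgroup.zpowers i, ∀ b ∈ Subgroup.zpowers i, a * b = b * a := by
      intro a ha b hb
      obtain ⟨n, rfl⟩ := Subgroup.mem_zpowers_iff.mp ha
      obtain ⟨n', rfl⟩ := Subgroup.mem_zpowers_iff.mp hb
      rw [← zpow_add, ← zpow_add, add_comm]
    have hEab := abelian_sup_zpowers hzcomm (x := c) (fun a ha => (hCcom c hcC a (hzle ha)).symm)
    have hcard := card_sup_zpowers_ge hczp
    rw [Nat.card_zpowers, hio] at hcard
    obtain ⟨E, hEdef⟩ : ∃ E, E = Subgroup.zpowers i ⊔ Subgroup.zpowers c := ⟨_, rfl⟩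
    rw [← hEdef] at hEab hcard
    have hEexp : ∀ x ∈ E, x ^ 4 = 1 := by
      let F : Subgroup G :=
        { carrier := {x | x ∈ E ∧ x ^ 4 = 1}
          mul_mem' := by
            rintro a b ⟨ha, ha4⟩ ⟨hb, hb4⟩
            refine ⟨E.mul_mem ha hb, ?_⟩
            have h3 : Commute a b := hEab a ha b hb
            rw [h3.mul_pow, ha4, hb4, one_mul]
          one_mem' := ⟨E.one_mem, one_pow _⟩
          inv_mem' := by
            rintro a ⟨ha, ha4⟩
            exact ⟨E.inv_mem ha, by rw [inv_pow, ha4, inv_one]⟩ }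
      have hEF : E ≤ F := by
        rw [hEdef]
        apply sup_le
        · rw [Subgroup.zpowers_le]
          exact ⟨by rw [hEdef]; exact Subgroup.mem_sup_left (Subgroup.mem_zpowers i), hi4⟩
        · rw [Subgroup.zpowers_le]
          exact ⟨by rw [hEdef]; exact Subgroup.mem_sup_right (Subgroup.mem_zpowers c), hc4'⟩
      exact fun x hx => (hEF hx).2
    have hEnc : ¬ IsCyclic E := by
      intro hcyc
      obtain ⟨g, hg⟩ := IsCyclic.exists_ofOrder_eq_natCard (α := E)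
      have h5 : g ^ 4 = 1 := Subtype.ext (hEexp _ g.2)
      have h6 := Nat.le_of_dvd (by norm_num) (orderOf_dvd_of_pow_eq_one h5)
      omega
    have hWinv := inv_sup hinv (inv_zpowers (hCy c hcC))
    have hWX : Q ⊔ Subgroup.zpowers c ≤ X := sup_le hle ((Subgroup.zpowers_le).mpr (hCX hcC))
    have hEW : E ≤ Q ⊔ Subgroup.zpowers c := by
      rw [hEdef]
      exact sup_le_sup_right hzle _
    have hA := ambA8_of_abelian (IsPGroup.to_le hB.p2 (hEW.trans hWX)) hEab hEnc (by omega)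
    have hWeq : Q ⊔ Subgroup.zpowers c = X := by
      by_contra hne
      exact hB.small _ hWX hWinv hne (ambA8_mono hEW hA)
    refine ⟨Q, 0, hle, ?_, ⟨e⟩, ?_⟩
    · rw [← hWeq]
      exact relIndex_two hmQ hmQ2 (hCcom c hcC)
    · apply le_antisymm
      · exact sup_le hle inf_le_left
      · nth_rewrite 1 [← hWeq]
        apply sup_le le_sup_left
        rw [Subgroup.zpowers_le]
        apply Subgroup.mem_sup_right
        refine ⟨hCX hcC, ?_⟩
        refine Subgroup.mem_centralizer_iff.mpr ?_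
        intro q hq
        exact (hCcom c hcC q hq).symm

/-- **The structure theorem.** -/
theorem BSetup.struct (hB : BSetup X Y) :
    IsMulCommutative X ∨ (Cfsg.IsExtraspecial 2 X ∧ 32 ≤ Nat.card X) ∨
      (∃ (X₀ : Subgroup G) (k : ℕ), X₀ ≤ X ∧ X₀.relIndex X = 2 ∧
        Nonempty (X₀ ≃* QuaternionGroup (2 ^ (k + 1))) ∧
        X₀ ⊔ (X ⊓ Subgroup.centralizer (X₀ : Set G)) = X) ∨
      (Cfsg.IsSpecial 2 X ∧ Nat.card (Subgroup.center X) = 4) := by
  by_cases hab : ∀ a b : X, a * b = b * a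
  · left
    exact ⟨⟨hab⟩⟩
  by_cases hQ0 : ⁅X, Y⁆ = ⊥
  · exact Or.inl (hB.caseTriv hQ0)
  by_cases hQX : ⁅X, Y⁆ = X
  · rcases hB.caseC hQX hab with h | h
    · exact Or.inr (Or.inl h)
    · exact Or.inr (Or.inr (Or.inr h))
  · rcases hB.caseMid hQ0 hQX with h | h
    · exact Or.inl h
    · exact Or.inr (Or.inr (Or.inl h))

end Cfsg.Agent.Lib.SmallB79
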