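import Mathlib
import Cfsg.Agent.Lib.TwoTrans
import Cfsg.Agent.Lib.GenChar
import Cfsg.Agent.Lib.CharProduct
import Cfsg.Agent.Lib.CharIntegrality
import Cfsg.Agent.Lib.CharKernel
import Cfsg.Prelude.Def_DegreeGraph

/-!
# A solvable group of order 6048 with an irreducible character of degree 42
-/

set_option autoImplicit false

namespace Cfsg.Agent.Lib.Sol6048

open Cfsg Cfsg.Agent.Lib.CharBasic Cfsg.Agent.Lib.GenChar Cfsg.Agent.Lib.TwoTrans
  Cfsg.Agent.Lib.CharProduct
open scoped ComplexConjugate

/-! ### The affine group of a field -/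

/-- The affine group of a field. -/
@[ext] structure Agl (F : Type) [Field F] where
  /-- translation part -/
  t : F
  /-- linear part -/
  u : Fˣ

namespace Agl

variable {F : Type} [Field F]

instance : Mul (Agl F) := ⟨fun a b => ⟨a.t + a.u * b.t, a.u * b.u⟩⟩
instance : One (Agl F) := ⟨⟨0, 1⟩⟩
instance : Inv (Agl F) := ⟨fun a => ⟨-((a.u⁻¹ : Fˣ) * a.t), a.u⁻¹⟩⟩

@[simp] theorem mul_t (a b : Agl F) : (a * b).t = a.t + a.u * b.t := rfl
@[simp] theorem mul_u (a b : Agl F) : (a * b).u = a.u * b.u := rfl
@[simp] theorem one_t : (1 : Agl F).t = 0 := rfl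
@[simp] theorem one_u : (1 : Agl F).u = 1 := rfl
@[simp] theorem inv_t (a : Agl F) : (a⁻¹).t = -((a.u⁻¹ : Fˣ) * a.t) := rfl
@[simp] theorem inv_u (a : Agl F) : (a⁻¹).u = a.u⁻¹ := rfl

instance : Group (Agl F) :=
  Group.ofLeftAxioms
    (fun a b c => by
      ext
      · simp only [mul_t, mul_u, Units.val_mul]
        ring
      · simp only [mul_u, mul_assoc])
    (fun a => by
      ext
      · simp
      · simp)
    (fun a => by
      ext
      · simp
      · simp)

instance : MulAction (Agl F) F where
  smul g x := g.u * x + g.t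
  one_smul x := by
    show ((1 : Agl F).u : F) * x + (1 : Agl F).t = x
    simp
  mul_smul a b x := by
    show (((a * b).u : Fˣ) : F) * x + (a * b).t = a.u * (b.u * x + b.t) + a.t
    simp only [mul_t, mul_u, Units.val_mul]
    ring

theorem smul_def (g : Agl F) (x : F) : g • x = g.u * x + g.t := rfl

instance : MulAction.IsPretransitive (Agl F) F where
  exists_smul_eq x y := ⟨⟨y - x, 1⟩, by simp [smul_def]⟩

theorem two_trans : MulAction.IsMultiplyPretransitive (Agl F) F 2 := by
  rw [MulAction.is_two_pretransitive_iff]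
  intro a b c d hab hcd
  have h1 : b - a ≠ 0 := sub_ne_zero.2 hab.symm
  have h2 : d - c ≠ 0 := sub_ne_zero.2 hcd.symm
  refine ⟨⟨c - (d - c) / (b - a) * a, Units.mk0 ((d - c) / (b - a)) (div_ne_zero h2 h1)⟩, ?_, ?_⟩
  · simp [smul_def]
  · simp only [smul_def, Units.val_mk0]
    field_simp
    ring

/-- The equivalence with pairs. -/
def equivProd : Agl F ≃ F × Fˣ where
  toFun g := (g.t, g.u)
  invFun p := ⟨p.1, p.2⟩
  left_inv _ := rfl
  right_inv _ := rfl

instance [Finite F] : Finite (Agl F) := Finite.of_equiv _ equivProd.symm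

theorem natCard [Finite F] : Nat.card (Agl F) = Nat.card F * (Nat.card F - 1) := by
  rw [Nat.card_congr equivProd, Nat.card_prod, Nat.card_units]

theorem solvable : Group.IsSolvable (Agl F) := by
  let f : Multiplicative F →* Agl F :=
    { toFun := fun x => ⟨x.toAdd, 1⟩
      map_one' := rfl
      map_mul' := fun x y => by ext <;> simp }
  let g : Agl F →* Fˣ :=
    { toFun := fun a => a.u
      map_one' := rfl
      map_mul' := fun _ _ => rfl }
  refine Group.isSolvable_of_ker_le_range f g ?_
  intro a ha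
  have h : a.u = 1 := ha
  exact ⟨Multiplicative.ofAdd a.t, by ext <;> simp [f, h]⟩

/-- The irreducible character of degree `|F| - 1`. -/
theorem isIrr_deg [Finite F] :
    IsIrrCharacter (Agl F) (fun g => (fix F g : ℂ) - 1) := by
  have h2 : 2 ≤ Nat.card F := Finite.one_lt_card
  exact (isIrrCharacter_fix_sub_one_iff (G := Agl F) F h2).2 two_trans

theorem fix_one (X : Type) [Finite X] {G : Type} [Group G] [MulAction G X] :
    fix X (1 : G) = Nat.card X := by
  unfold fix
  rw [MulAction.fixedBy_one_eq_univ]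
  exact Nat.card_congr (Equiv.Set.univ X)

end Agl

/-! ### A group of order 54 -/

/-- A group of order 54: the maps `(x, y) ↦ (x + a, e y + b x + c)`. -/
@[ext] structure K54 where
  /-- coefficient -/
  a : ZMod 3
  /-- coefficient -/
  b : ZMod 3
  /-- coefficient -/
  c : ZMod 3
  /-- coefficient -/
  e : (ZMod 3)ˣ
  deriving DecidableEq

namespace K54

instance : Mul K54 := ⟨fun p q => ⟨p.a + q.a, p.b + p.e * q.b, p.c + p.e * q.c + p.b * q.a, p.e * q.e⟩⟩
instance : One K54 := ⟨⟨0, 0, 0, 1⟩⟩
instance : Inv K54 := ⟨fun p => ⟨-p.a, -((p.e⁻¹ : (ZMod 3)ˣ) * p.b),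
  -((p.e⁻¹ : (ZMod 3)ˣ) * (p.c - p.b * p.a)), p.e⁻¹⟩⟩

@[simp] theorem mul_a (p q : K54) : (p * q).a = p.a + q.a := rfl
@[simp] theorem mul_b (p q : K54) : (p * q).b = p.b + p.e * q.b := rfl
@[simp] theorem mul_c (p q : K54) : (p * q).c = p.c + p.e * q.c + p.b * q.a := rfl
@[simp] theorem mul_e (p q : K54) : (p * q).e = p.e * q.e := rfl
@[simp] theorem one_a : (1 : K54).a = 0 := rfl
@[simp] theorem one_b : (1 : K54).b = 0 := rfl
@[simp] theorem one_c : (1 : K54).c = 0 := rfl
@[simp] theorem one_e : (1 : K54).e = 1 := rfl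
@[simp] theorem inv_a (p : K54) : (p⁻¹).a = -p.a := rfl
@[simp] theorem inv_b (p : K54) : (p⁻¹).b = -((p.e⁻¹ : (ZMod 3)ˣ) * p.b) := rfl
@[simp] theorem inv_c (p : K54) : (p⁻¹).c = -((p.e⁻¹ : (ZMod 3)ˣ) * (p.c - p.b * p.a)) := rfl
@[simp] theorem inv_e (p : K54) : (p⁻¹).e = p.e⁻¹ := rfl

instance : Group K54 :=
  Group.ofLeftAxioms
    (fun p q r => by
      ext
      · simp only [mul_a]; ring
      · simp only [mul_b, mul_e, Units.val_mul]; ring
      · simp only [mul_c, mul_b, mul_a, mul_e, Units.val_mul]; ring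
      · simp only [mul_e, mul_assoc])
    (fun p => by
      ext <;> simp)
    (fun p => by
      ext
      · simp only [mul_a, inv_a, one_a]
        ring
      · simp only [mul_b, inv_b, inv_e, one_b]
        ring
      · simp only [mul_c, inv_c, inv_b, inv_e, one_c]
        ring
      · simp only [mul_e, inv_e, one_e, inv_mul_cancel])

/-- The equivalence with tuples. -/
def equivProd : K54 ≃ ZMod 3 × ZMod 3 × ZMod 3 × (ZMod 3)ˣ where
  toFun g := (g.a, g.b, g.c, g.e)
  invFun p := ⟨p.1, p.2.1, p.2.2.1, p.2.2.2⟩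
  left_inv _ := rfl
  right_inv _ := rfl

instance : Fintype K54 := Fintype.ofEquiv _ equivProd.symm

theorem natCard : Nat.card K54 = 54 := by
  rw [Nat.card_eq_fintype_card]
  decide +kernel

/-- The nine points. -/
def Pt9 : Type := ZMod 3 × ZMod 3
/-- The three points. -/
def Pt3 : Type := ZMod 3

instance : Fintype Pt9 := inferInstanceAs (Fintype (ZMod 3 × ZMod 3))
instance : Fintype Pt3 := inferInstanceAs (Fintype (ZMod 3))
instance : DecidableEq Pt9 := inferInstanceAs (DecidableEq (ZMod 3 × ZMod 3))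
instance : DecidableEq Pt3 := inferInstanceAs (DecidableEq (ZMod 3))

instance : MulAction K54 Pt9 where
  smul g v := ((show ZMod 3 × ZMod 3 from v).1 + g.a,
    g.e * (show ZMod 3 × ZMod 3 from v).2 + g.b * (show ZMod 3 × ZMod 3 from v).1 + g.c)
  one_smul v := by
    have key : ∀ w : ZMod 3 × ZMod 3, (w.1 + (1 : K54).a,
        (((1 : K54).e : (ZMod 3)ˣ) : ZMod 3) * w.2 + (1 : K54).b * w.1 + (1 : K54).c) = w := by
      intro w
      apply Prod.ext <;> simp
    exact key v
  mul_smul p q v := by
    have key : ∀ w : ZMod 3 × ZMod 3, (w.1 + (p * q).a,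
        (((p * q).e : (ZMod 3)ˣ) : ZMod 3) * w.2 + (p * q).b * w.1 + (p * q).c) =
        (w.1 + q.a + p.a, (p.e : ZMod 3) * ((q.e : ZMod 3) * w.2 + q.b * w.1 + q.c) +
          p.b * (w.1 + q.a) + p.c) := by
      intro w
      apply Prod.ext
      · simp only [mul_a]
        ring
      · simp only [mul_b, mul_c, mul_e, Units.val_mul]
        ring
    exact key v

instance : MulAction K54 Pt3 where
  smul g v := (show ZMod 3 from v) + g.a
  one_smul v := by
    have key : ∀ w : ZMod 3, w + (1 : K54).a = w := by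
      intro w
      simp
    exact key v
  mul_smul p q v := by
    have key : ∀ w : ZMod 3, w + (p * q).a = w + q.a + p.a := by
      intro w
      simp only [mul_a]
      ring
    exact key v

/-- The fixed point statistics. -/
def theta (g : K54) : ℤ :=
  ((Finset.univ.filter (fun x : Pt9 => g • x = x)).card : ℤ) -
    ((Finset.univ.filter (fun x : Pt3 => g • x = x)).card : ℤ)

theorem theta_sum : ∑ g : K54, theta g * theta g = 54 := by decide +kernel

theorem theta_one : theta 1 = 6 := by decide +kernel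

theorem solvable : Group.IsSolvable K54 := by
  let f : Multiplicative (ZMod 3 × ZMod 3) →* K54 :=
    { toFun := fun x => ⟨0, x.toAdd.1, x.toAdd.2, 1⟩
      map_one' := rfl
      map_mul' := fun x y => by
        ext
        · simp
        · simp
        · simp
        · simp }
  let g : K54 →* Multiplicative (ZMod 3) × (ZMod 3)ˣ :=
    { toFun := fun p => (Multiplicative.ofAdd p.a, p.e)
      map_one' := rfl
      map_mul' := fun _ _ => rfl }
  refine Group.isSolvable_of_ker_le_range f g ?_
  intro p hp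
  have h : (Multiplicative.ofAdd p.a, p.e) = (1 : Multiplicative (ZMod 3) × (ZMod 3)ˣ) := hp
  have h1 : p.a = 0 := by
    have := congrArg Prod.fst h
    simpa using this
  have h2 : p.e = 1 := congrArg Prod.snd h
  refine ⟨Multiplicative.ofAdd (p.b, p.c), ?_⟩
  ext
  · exact h1.symm
  · rfl
  · rfl
  · exact congrArg _ h2.symm

theorem fix_eq_card (X : Type) [Fintype X] [DecidableEq X] [MulAction K54 X] (g : K54) :
    fix X g = (Finset.univ.filter (fun x : X => g • x = x)).card := by
  unfold fix
  rw [Nat.card_eq_fintype_card, ← Fintype.card_subtype]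
  exact Fintype.card_congr (Equiv.refl _)

/-- The irreducible character of degree 6. -/
theorem isIrr_theta : IsIrrCharacter K54 (fun g => ((theta g : ℤ) : ℂ)) := by
  have hgen : IsGeneralizedCharacter K54 (fun g => ((theta g : ℤ) : ℂ)) := by
    have h := isGen_sub (isGen_of_isChar (isCharacter_fix (G := K54) Pt9))
      (isGen_of_isChar (isCharacter_fix (G := K54) Pt3))
    convert h using 1
    funext g
    simp [theta, fix_eq_card]
  have hnorm : classInner (fun g => ((theta g : ℤ) : ℂ)) (fun g => ((theta g : ℤ) : ℂ)) = 1 := by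
    unfold classInner
    rw [natCard]
    have e : ∑ g : K54, ((theta g : ℤ) : ℂ) * conj ((theta g : ℤ) : ℂ) =
        ((∑ g : K54, theta g * theta g : ℤ) : ℂ) := by
      push_cast
      apply Finset.sum_congr rfl
      intro g _
      simp
    rw [e, theta_sum]
    norm_num
  rcases gen_norm_one hgen hnorm with h | h
  · exact h
  · exfalso
    obtain ⟨d, hd, h1⟩ := isIrr_one_pos h
    have h2 : (-(fun g => ((theta g : ℤ) : ℂ))) 1 = -6 := by
      simp [theta_one]
    rw [h2] at h1
    have : ((-6 : ℤ) : ℂ) = ((d : ℤ) : ℂ) := by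
      push_cast
      exact h1
    have h3 : (-6 : ℤ) = d := by exact_mod_cast this
    omega

end K54

/-! ### The group of order 6048 -/

/-- The field with eight elements. -/
abbrev F8 : Type := GaloisField 2 3

theorem natCard_F8 : Nat.card F8 = 8 := by
  have := GaloisField.card 2 3 (by norm_num)
  rw [this]
  norm_num

instance : Finite F8 := Nat.finite_of_card_ne_zero (by rw [natCard_F8]; norm_num)

/-- The group of order 6048. -/
abbrev H6048 : Type := Agl F8 × K54 × Multiplicative (ZMod 2)

noncomputable instance : Fintype (Agl F8) := Fintype.ofFinite _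

noncomputable instance : Fintype H6048 := Fintype.ofFinite _

theorem natCard_H : Nat.card H6048 = 6048 := by
  rw [Nat.card_prod, Nat.card_prod, Agl.natCard, natCard_F8, K54.natCard]
  have : Nat.card (Multiplicative (ZMod 2)) = 2 := by
    rw [Nat.card_eq_fintype_card]
    rfl
  rw [this]

theorem solvable_H : Group.IsSolvable H6048 := by
  haveI := Agl.solvable (F := F8)
  haveI := K54.solvable
  infer_instance

theorem degree_42 : 42 ∈ charDegrees H6048 := by
  classical
  have h7 := Agl.isIrr_deg (F := F8)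
  have h6 := K54.isIrr_theta
  have h1 : IsIrrCharacter (Multiplicative (ZMod 2)) (fun _ => (1 : ℂ)) := isIrrCharacter_one
  have hprod := isIrrCharacter_prodChar h7 (isIrrCharacter_prodChar h6 h1)
  refine ⟨⟨_, hprod⟩, ?_⟩
  show charDegree (prodChar _ _) = 42
  unfold charDegree
  have e : prodChar (fun g : Agl F8 => (fix F8 g : ℂ) - 1)
      (prodChar (fun g => ((K54.theta g : ℤ) : ℂ)) (fun _ : Multiplicative (ZMod 2) => (1 : ℂ))) 1 = 42 := by
    show ((fix F8 (1 : Agl F8) : ℂ) - 1) * ((((K54.theta 1 : ℤ) : ℂ)) * 1) = 42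
    rw [Agl.fix_one, natCard_F8, K54.theta_one]
    norm_num
  rw [e]
  norm_num

end Cfsg.Agent.Lib.Sol6048
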