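import Mathlib
import Cfsg.Agent.Lib.IsaMain
import Cfsg.Agent.Lib.RealOdd
import Cfsg.Agent.Lib.DegreeDiv

/-!
# Real characters of odd degree: linear characters, Clifford correspondence, constituents
-/

set_option autoImplicit false
set_option linter.unusedVariables false
set_option linter.unusedSectionVars false
set_option linter.style.haveILetI false

namespace Cfsg.Agent.Lib.SolRo

open Cfsg Cfsg.Agent.Lib.CharBasic Cfsg.Agent.Lib.CharInd Cfsg.Agent.Lib.CharInduction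
open Cfsg.Agent.Lib.Clifford Cfsg.Agent.Lib.CharClifford Cfsg.Agent.Lib.IsaCliff
open Cfsg.Agent.Lib.CharKernel Cfsg.Agent.Lib.RealChars Cfsg.Agent.Lib.GlaubCorr
open Cfsg.Agent.Lib.CharAut
open scoped ComplexConjugate

universe u

variable {Γ : Type u} [Group Γ] [Finite Γ] [fX : ∀ X : Subgroup Γ, Fintype X]

/-- A linear character, as a function. -/
def lin {X : Subgroup Γ} (f : X →* ℂˣ) : X → ℂ := fun x => ((f x : ℂˣ) : ℂ)

theorem lin_irr {X : Subgroup Γ} (f : X →* ℂˣ) : IsIrrCharacter X (lin f) :=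
  isIrrCharacter_of_hom f

theorem lin_deg {X : Subgroup Γ} (f : X →* ℂˣ) : charDegree (lin f) = 1 := by
  simp [charDegree, lin]

theorem lin_inj {X : Subgroup Γ} {f g : X →* ℂˣ} (h : lin f = lin g) : f = g := by
  ext x
  exact congrFun h x

/-- Real and of odd degree. -/
def RO {X : Subgroup Γ} (χ : X → ℂ) : Prop := (∀ g, conj (χ g) = χ g) ∧ Odd (charDegree χ)

/-- The constituent relation. -/
def Over {Y X : Subgroup Γ} (h : Y ≤ X) (χ : X → ℂ) (f : Y →* ℂˣ) : Prop :=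
  classInner (res h χ) (lin f) ≠ 0

/-- A real linear character. -/
def RealH {X : Subgroup Γ} (f : X →* ℂˣ) : Prop := ∀ x, f x * f x = 1

/-- Restriction of a linear character. -/
def rs {Y X : Subgroup Γ} (h : Y ≤ X) (f : X →* ℂˣ) : Y →* ℂˣ := f.comp (Subgroup.inclusion h)

theorem rs_apply {Y X : Subgroup Γ} (h : Y ≤ X) (f : X →* ℂˣ) (y : Y) :
    rs h f y = f ⟨y, h y.2⟩ := rfl

theorem res_lin {Y X : Subgroup Γ} (h : Y ≤ X) (f : X →* ℂˣ) : res h (lin f) = lin (rs h f) := rfl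

theorem rs_rs {Z Y X : Subgroup Γ} (h₁ : Z ≤ Y) (h₂ : Y ≤ X) (f : X →* ℂˣ) :
    rs h₁ (rs h₂ f) = rs (h₁.trans h₂) f := rfl

theorem realH_rs {Y X : Subgroup Γ} (h : Y ≤ X) {f : X →* ℂˣ} (hf : RealH f) : RealH (rs h f) :=
  fun y => hf _

theorem conj_lin {X : Subgroup Γ} (f : X →* ℂˣ) (x : X) :
    lin f x * conj (lin f x) = 1 :=
  Cfsg.Agent.Lib.CharTwist.hom_mul_conj f x

theorem realH_iff {X : Subgroup Γ} (f : X →* ℂˣ) : RealH f ↔ ∀ x, conj (lin f x) = lin f x := by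
  constructor
  · intro h x
    have h1 : lin f x * lin f x = 1 := by
      have := congrArg (fun u : ℂˣ => (u : ℂ)) (h x)
      simpa [lin] using this
    have h2 := conj_lin f x
    have h3 : lin f x ≠ 0 := by
      intro h0
      rw [h0] at h1
      simp at h1
    apply mul_left_cancel₀ h3
    rw [h2, h1]
  · intro h x
    have h2 := conj_lin f x
    rw [h x] at h2
    apply Units.ext
    simpa [lin] using h2

theorem ro_lin {X : Subgroup Γ} {f : X →* ℂˣ} (h : RealH f) : RO (lin f) := by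
  refine ⟨(realH_iff f).mp h, ?_⟩
  rw [lin_deg]
  exact odd_one

theorem inner_lin_self {X : Subgroup Γ} (f : X →* ℂˣ) : classInner (lin f) (lin f) = 1 :=
  classInner_irr_self (lin_irr f)

theorem eq_of_inner {X : Subgroup Γ} {f g : X →* ℂˣ} (h : classInner (lin f) (lin g) ≠ 0) :
    f = g := by
  by_contra hne
  exact h (classInner_irr_ne (lin_irr f) (lin_irr g) (fun h1 => hne (lin_inj h1)))

/-- Constituents go down. -/
theorem over_down {Z Y X : Subgroup Γ} (h₁ : Z ≤ Y) (h₂ : Y ≤ X) {χ : X → ℂ}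
    (hχ : IsCharacter X χ) {f : Y →* ℂˣ} (h : Over h₂ χ f) :
    Over (h₁.trans h₂) χ (rs h₁ f) := by
  refine trans_ne h₁ h₂ hχ (lin_irr f) (lin_irr _) h ?_
  rw [res_lin, inner_lin_self]
  exact one_ne_zero

/-- A variant with the restriction given. -/
theorem over_down' {Z Y X : Subgroup Γ} (h₁ : Z ≤ Y) (h₂ : Y ≤ X) (h₃ : Z ≤ X) {χ : X → ℂ}
    (hχ : IsCharacter X χ) {f : Y →* ℂˣ} {g : Z →* ℂˣ} (hg : rs h₁ f = g) (h : Over h₂ χ f) :
    Over h₃ χ g := by
  subst hg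
  exact over_down h₁ h₂ hχ h

theorem res_res {Z Y X : Subgroup Γ} (h₁ : Z ≤ Y) (h₂ : Y ≤ X) (f : X → ℂ) :
    res h₁ (res h₂ f) = res (h₁.trans h₂) f := rfl

section Cliff

variable {X T L : Subgroup Γ}

/-- The degree in the Clifford correspondence. -/
theorem relCl_deg {θ : L → ℂ} (D : RelCl X T L θ) (ζ : IrrCharacter T)
    (hζ : classInner (res D.LT (ζ : T → ℂ)) θ ≠ 0) (χ : IrrCharacter X)
    (h : classInner (res D.TX (χ : X → ℂ)) (ζ : T → ℂ) ≠ 0) :
    charDegree (χ : X → ℂ) = T.relIndex X * charDegree (ζ : T → ℂ) := by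
  classical
  let N : Subgroup X := L.subgroupOf X
  haveI hN : N.Normal := ⟨fun n hn g => D.Ln g g.2 n hn⟩
  let T₀ : Subgroup X := T.subgroupOf X
  letI : Fintype N := Fintype.ofFinite _
  letI : Fintype T₀ := Fintype.ofFinite _
  have hLX : L ≤ X := D.LT.trans D.TX
  let eN : N ≃* L := Subgroup.subgroupOfEquivOfLe hLX
  let eT : T₀ ≃* T := Subgroup.subgroupOfEquivOfLe D.TX
  let θ₀ : N → ℂ := θ ∘ eN
  let ζ₀ : T₀ → ℂ := (ζ : T → ℂ) ∘ eT
  have hθ₀ : IsIrrCharacter N θ₀ :=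
    isIrrCharacter_comp_of_surjective eN.toMonoidHom eN.surjective D.hθ
  have hζ₀ : IsIrrCharacter T₀ ζ₀ :=
    isIrrCharacter_comp_of_surjective eT.toMonoidHom eT.surjective ζ.2
  have hT₀ : ∀ g : X, g ∈ T₀ ↔ ∀ n : N, θ₀ ⟨g * n * g⁻¹, hN.conj_mem (n : X) n.2 g⟩ = θ₀ n := by
    intro g
    constructor
    · intro hg n
      exact (D.hT g g.2).mp hg (eN n) (eN ⟨g * n * g⁻¹, hN.conj_mem (n : X) n.2 g⟩) rfl
    · intro hg
      apply (D.hT g g.2).mpr
      intro ℓ ℓ' hℓ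
      have h1 := hg (eN.symm ℓ)
      have h2 : eN ⟨g * (eN.symm ℓ) * g⁻¹, hN.conj_mem _ (eN.symm ℓ).2 g⟩ = ℓ' := by
        apply Subtype.ext
        rw [hℓ]
        rfl
      have h3 : θ₀ ⟨g * (eN.symm ℓ) * g⁻¹, hN.conj_mem _ (eN.symm ℓ).2 g⟩ = θ ℓ' := by
        show θ (eN _) = _
        rw [h2]
      have h4 : θ₀ (eN.symm ℓ) = θ ℓ := by
        show θ (eN (eN.symm ℓ)) = _
        rw [MulEquiv.apply_symm_apply]
      rw [← h3, ← h4]
      exact h1
  have hHT : N ≤ T₀ := fun n hn => D.LT hn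
  have hover : classInner (fun n : N => ζ₀ ⟨(n : X), hHT n.2⟩) θ₀ ≠ 0 := by
    have h1 := classInner_comp_mulEquiv eN (res D.LT (ζ : T → ℂ)) θ
    have h2 : (res D.LT (ζ : T → ℂ)) ∘ eN = fun n : N => ζ₀ ⟨(n : X), hHT n.2⟩ := rfl
    rw [h2] at h1
    rw [h1]
    exact hζ
  obtain ⟨hI, hmul⟩ := indFun_irr_of_over N T₀ hθ₀ hT₀ hHT hζ₀ hover
  have e : (χ : X → ℂ) = indFun T₀ ζ₀ := by
    by_contra hc
    apply h
    have h1 := classInner_comp_mulEquiv eT (res D.TX (χ : X → ℂ)) (ζ : T → ℂ)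
    have h2 : (res D.TX (χ : X → ℂ)) ∘ eT = fun t : T₀ => (χ : X → ℂ) t := rfl
    rw [h2] at h1
    rw [← h1]
    have hcl := isClassFunction_of_isCharacter (IsIrrCharacter.isCharacter χ.2)
    have h3 := frobenius T₀ ζ₀ hcl
    have h4 := classInner_conj_symm (indFun T₀ ζ₀) (χ : X → ℂ)
    have h5 := classInner_conj_symm ζ₀ (fun t : T₀ => (χ : X → ℂ) t)
    have h6 : classInner (fun t : T₀ => (χ : X → ℂ) t) ζ₀ = classInner (χ : X → ℂ) (indFun T₀ ζ₀) := by
      rw [← h4, ← h5, h3]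
    show classInner (fun t : T₀ => (χ : X → ℂ) t) ζ₀ = _
    rw [h6]
    exact classInner_irr_ne χ.2 hI hc
  have h1 := indFun_one T₀ ζ₀
  rw [← e] at h1
  have h2 : ζ₀ 1 = (ζ : T → ℂ) 1 := rfl
  rw [h2, one_eq_charDegree (IsIrrCharacter.isCharacter χ.2),
    one_eq_charDegree (IsIrrCharacter.isCharacter ζ.2)] at h1
  have h3 : T₀.index = T.relIndex X := rfl
  rw [h3] at h1
  exact_mod_cast h1

/-- Realness goes down. -/
theorem real_down {θ : L → ℂ} (D : RelCl X T L θ) (hθ : ∀ ℓ, conj (θ ℓ) = θ ℓ) (χ : IrrCharacter X)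
    (hχ : ∀ g, conj ((χ : X → ℂ) g) = (χ : X → ℂ) g) (ζ : IrrCharacter T)
    (hζ : classInner (res D.LT (ζ : T → ℂ)) θ ≠ 0)
    (h : classInner (res D.TX (χ : X → ℂ)) (ζ : T → ℂ) ≠ 0) :
    ∀ t, conj ((ζ : T → ℂ) t) = (ζ : T → ℂ) t := by
  let ζ' : IrrCharacter T := ⟨fun t => conj ((ζ : T → ℂ) t), isIrrCharacter_conj ζ.2⟩
  have h1 : classInner (res D.LT (ζ' : T → ℂ)) θ ≠ 0 := by
    have h2 := classInner_conj_conj (res D.LT (ζ : T → ℂ)) θ
    have h3 : (fun g => conj (θ g)) = θ := funext hθ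
    rw [h3] at h2
    have h4 : (fun g => conj (res D.LT (ζ : T → ℂ) g)) = res D.LT (ζ' : T → ℂ) := rfl
    rw [h4] at h2
    rw [h2, ← classInner_conj_symm]
    intro h0
    apply hζ
    have := congrArg conj h0
    simpa using this
  have h5 : classInner (res D.TX (χ : X → ℂ)) (ζ' : T → ℂ) ≠ 0 := by
    have h2 := classInner_conj_conj (res D.TX (χ : X → ℂ)) (ζ : T → ℂ)
    have h3 : (fun g => conj (res D.TX (χ : X → ℂ) g)) = res D.TX (χ : X → ℂ) := by
      funext g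
      exact hχ _
    rw [h3] at h2
    have h4 : (fun g => conj ((ζ : T → ℂ) g)) = (ζ' : T → ℂ) := rfl
    rw [h4] at h2
    rw [h2, ← classInner_conj_symm]
    intro h0
    apply h
    have := congrArg conj h0
    simpa using this
  have h6 := relCl_C D χ ζ ζ' hζ h1 h h5
  intro t
  have h7 := congrFun (congrArg Subtype.val h6) t
  exact h7.symm

/-- Realness goes up. -/
theorem real_up {θ : L → ℂ} (D : RelCl X T L θ) (χ : IrrCharacter X) (ζ : IrrCharacter T)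
    (hζr : ∀ t, conj ((ζ : T → ℂ) t) = (ζ : T → ℂ) t)
    (hζ : classInner (res D.LT (ζ : T → ℂ)) θ ≠ 0)
    (h : classInner (res D.TX (χ : X → ℂ)) (ζ : T → ℂ) ≠ 0) :
    ∀ g, conj ((χ : X → ℂ) g) = (χ : X → ℂ) g := by
  classical
  let χ' : IrrCharacter X := ⟨fun g => conj ((χ : X → ℂ) g), isIrrCharacter_conj χ.2⟩
  obtain ⟨χ₀, -, h2⟩ := relCl_A D ζ hζ
  have h3 : χ = χ₀ := by
    by_contra hc
    rw [h2 χ, if_neg hc] at h
    exact h rfl
  have h4 : classInner (res D.TX (χ' : X → ℂ)) (ζ : T → ℂ) ≠ 0 := by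
    have h5 := classInner_conj_conj (res D.TX (χ : X → ℂ)) (ζ : T → ℂ)
    have h6 : (fun g => conj ((ζ : T → ℂ) g)) = (ζ : T → ℂ) := funext hζr
    rw [h6] at h5
    have h7 : (fun g => conj (res D.TX (χ : X → ℂ) g)) = res D.TX (χ' : X → ℂ) := rfl
    rw [h7] at h5
    rw [h5, ← classInner_conj_symm]
    intro h0
    apply h
    have := congrArg conj h0
    simpa using this
  have h8 : χ' = χ₀ := by
    by_contra hc
    rw [h2 χ', if_neg hc] at h4
    exact h4 rfl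
  intro g
  have h9 : χ' = χ := h8.trans h3.symm
  exact congrFun (congrArg Subtype.val h9) g

/-- The induction of the correspondence transfers constituents. -/
theorem ct {ν : L →* ℂˣ} (D : RelCl X T L (lin ν)) {P : Subgroup Γ} (hLP : L ≤ P) (hPT : P ≤ T)
    (χ : IrrCharacter X) (ζ : IrrCharacter T)
    (hζ : classInner (res D.LT (ζ : T → ℂ)) (lin ν) ≠ 0)
    (h : classInner (res D.TX (χ : X → ℂ)) (ζ : T → ℂ) ≠ 0) (f : P →* ℂˣ) (hf : rs hLP f = ν) :
    Over (hPT.trans D.TX) (χ : X → ℂ) f ↔ Over hPT (ζ : T → ℂ) f := by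
  constructor
  · intro h1
    unfold Over at h1 ⊢
    have h2 : classInner (res (hPT.trans D.TX) (χ : X → ℂ)) (lin f) ≠ 0 := h1
    rw [sum_formula hPT D.TX (IsIrrCharacter.isCharacter χ.2)] at h2
    obtain ⟨i, -, hi⟩ := Finset.exists_ne_zero_of_sum_ne_zero h2
    have hi1 : classInner (res D.TX (χ : X → ℂ)) (i : T → ℂ) ≠ 0 := left_ne_zero_of_mul hi
    have hi2 : classInner (res hPT (i : T → ℂ)) (lin f) ≠ 0 := right_ne_zero_of_mul hi
    have hi3 : classInner (res D.LT (i : T → ℂ)) (lin ν) ≠ 0 := by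
      have h4 := over_down (X := T) hLP hPT (IsIrrCharacter.isCharacter i.2) (f := f) hi2
      rw [hf] at h4
      exact h4
    have h5 := relCl_C D χ i ζ hi3 hζ hi1 h
    rw [← h5]
    exact hi2
  · intro h1
    exact trans_ne hPT D.TX (IsIrrCharacter.isCharacter χ.2) ζ.2 (lin_irr f) h h1

end Cliff

/-- The inertia group as a Clifford setting. -/
theorem relD {X L : Subgroup Γ} (hLX : L ≤ X) (Ln : ∀ g ∈ X, ∀ ℓ ∈ L, g * ℓ * g⁻¹ ∈ L)
    (ν : L →* ℂˣ) : RelCl X (inertia X L (lin ν) Ln) L (lin ν) where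
  LT := by
    intro l hl
    refine ⟨hLX hl, fun ℓ ℓ' h => ?_⟩
    have h1 : ℓ' = ⟨l, hl⟩ * ℓ * ⟨l, hl⟩⁻¹ := Subtype.ext h
    rw [h1]
    simp [lin, mul_comm]
  TX := fun g hg => hg.1
  Ln := Ln
  hθ := lin_irr ν
  hT := by
    intro g hg
    constructor
    · intro h
      exact h.2
    · intro h
      exact ⟨hg, h⟩

end Cfsg.Agent.Lib.SolRo
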