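import Mathlib
import Cfsg.Agent.Lib.SolRoA

/-!
# Real characters of odd degree: constituents and extensions
-/

set_option autoImplicit false
set_option linter.unusedVariables false
set_option linter.unusedSectionVars false
set_option linter.style.haveILetI false

namespace Cfsg.Agent.Lib.SolRo

open Cfsg Cfsg.Agent.Lib.CharBasic Cfsg.Agent.Lib.CharInd Cfsg.Agent.Lib.CharInduction
open Cfsg.Agent.Lib.Clifford Cfsg.Agent.Lib.CharClifford Cfsg.Agent.Lib.IsaCliff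
open Cfsg.Agent.Lib.CharKernel Cfsg.Agent.Lib.RealChars Cfsg.Agent.Lib.GlaubCorr
open Cfsg.Agent.Lib.CharAut
open scoped ComplexConjugate

universe u

variable {Γ : Type u} [Group Γ] [Finite Γ] [fX : ∀ X : Subgroup Γ, Fintype X]

/-- A fixed constituent: the weighted count. -/
theorem fix_const {X A D : Subgroup Γ} (hAX : A ≤ X) (An : ∀ g ∈ X, ∀ a ∈ A, g * a * g⁻¹ ∈ A)
    (hDX : D ≤ X) (hD : IsPGroup 2 D) (χ : IrrCharacter X) (hodd : Odd (charDegree (χ : X → ℂ))) :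
    ∃ ω : IrrCharacter A, classInner (res hAX (χ : X → ℂ)) (ω : A → ℂ) ≠ 0 ∧
      Odd (charDegree (ω : A → ℂ)) ∧ SInv D (ω : A → ℂ) ∧
      ((∀ g, conj ((χ : X → ℂ) g) = (χ : X → ℂ) g) → ∀ a, conj ((ω : A → ℂ) a) = (ω : A → ℂ) a) := by
  classical
  haveI : Fact (Nat.Prime 2) := ⟨Nat.prime_two⟩
  have hχc := IsIrrCharacter.isCharacter χ.2
  have hcl := isClassFunction_of_isCharacter hχc
  obtain ⟨m, hm⟩ := exists_nat_decomp (isChar_res hAX hχc)
  have hmval : ∀ η : IrrCharacter A, classInner (res hAX (χ : X → ℂ)) (η : A → ℂ) = m η := by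
    intro η
    have := classInner_nat_decomp m (η : A → ℂ) η.2
    rw [← hm] at this
    exact this
  -- degree
  have hdeg : charDegree (χ : X → ℂ) = ∑ η : IrrCharacter A, m η * charDegree (η : A → ℂ) := by
    have h1 := congrFun hm 1
    simp only [Finset.sum_apply, Pi.smul_apply] at h1
    simp only [nsmul_eq_mul] at h1
    have h2 : ((charDegree (χ : X → ℂ) : ℕ) : ℂ) =
        ((∑ η : IrrCharacter A, m η * charDegree (η : A → ℂ) : ℕ) : ℂ) := by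
      rw [← one_eq_charDegree hχc]
      show res hAX (χ : X → ℂ) 1 = _
      rw [h1]
      push_cast
      refine Finset.sum_congr rfl fun η _ => ?_
      rw [one_eq_charDegree (IsIrrCharacter.isCharacter η.2)]
    exact_mod_cast h2
  let φ : D →* MulAut A := conjHom A D (fun s hs g hg => An s (hDX hs) g hg)
  -- invariance of the multiplicities
  have hinv : ∀ (u : D) (η : IrrCharacter A), m (irrAut (φ u) η) = m η := by
    intro u η
    have h1 := hmval (irrAut (φ u) η)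
    have h2 : (irrAut (φ u) η : A → ℂ) = (η : A → ℂ) ∘ (φ u).symm := rfl
    have h3 := classInner_comp_mulEquiv (φ u).symm (res hAX (χ : X → ℂ)) (η : A → ℂ)
    have h4 : (res hAX (χ : X → ℂ)) ∘ (φ u).symm = res hAX (χ : X → ℂ) := by
      funext a
      show (χ : X → ℂ) _ = (χ : X → ℂ) _
      have h5 := hcl ⟨a, hAX a.2⟩ ⟨(u : Γ)⁻¹, X.inv_mem (hDX u.2)⟩
      have h6 : ((⟨(u : Γ)⁻¹, X.inv_mem (hDX u.2)⟩ : X) * ⟨a, hAX a.2⟩ * ⟨(u : Γ)⁻¹, X.inv_mem (hDX u.2)⟩⁻¹ : X) =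
          ⟨(((φ u).symm a : A) : Γ), hAX ((φ u).symm a).2⟩ := by
        apply Subtype.ext
        have h7 : (((φ u).symm a : A) : Γ) = ((φ u⁻¹ a : A) : Γ) := by
          have : (φ u).symm = φ u⁻¹ := by
            rw [map_inv]
            rfl
          rw [this]
        rw [h7, conjHom_apply]
        simp
      rw [h6] at h5
      exact h5
    rw [h4] at h3
    rw [h2, h3, hmval] at h1
    exact_mod_cast h1.symm
  have hinvdeg : ∀ (u : D) (η : IrrCharacter A),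
      charDegree (irrAut (φ u) η : A → ℂ) = charDegree (η : A → ℂ) := by
    intro u η
    unfold charDegree
    rw [irrAut_apply, map_one]
  haveI : Fintype {z // ∀ g : D, irrAut (φ g) z = z} := Fintype.ofFinite _
  have hS := Cfsg.Agent.Lib.CharAutP.sum_eq_sum_fixed (S := ZMod 2) 2 hD (by decide)
    (fun (u : D) (z : IrrCharacter A) => irrAut (φ u) z)
    (fun z => by simp [irrAut_one]) (fun g h z => by simp [irrAut_mul])
    (fun η => ((m η * charDegree (η : A → ℂ) : ℕ) : ZMod 2))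
    (fun g z => by
      show ((m (irrAut (φ g) z) * charDegree (irrAut (φ g) z : A → ℂ) : ℕ) : ZMod 2) = _
      rw [hinv, hinvdeg])
  have hne : (∑ η : IrrCharacter A, ((m η * charDegree (η : A → ℂ) : ℕ) : ZMod 2)) ≠ 0 := by
    rw [← Nat.cast_sum, ← hdeg, Ne, ZMod.natCast_eq_zero_iff]
    exact hodd.not_two_dvd_nat
  rw [hS] at hne
  -- the good elements
  have good : ∀ z : {z // ∀ g : D, irrAut (φ g) z = z},
      ((m z.1 * charDegree (z.1 : A → ℂ) : ℕ) : ZMod 2) ≠ 0 →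
      classInner (res hAX (χ : X → ℂ)) (z.1 : A → ℂ) ≠ 0 ∧ Odd (charDegree (z.1 : A → ℂ)) ∧
        SInv D (z.1 : A → ℂ) := by
    intro z hz
    have h1 : ¬ 2 ∣ m z.1 * charDegree (z.1 : A → ℂ) := by
      rwa [Ne, ZMod.natCast_eq_zero_iff] at hz
    have h2 : m z.1 ≠ 0 := by
      intro h0
      rw [h0] at h1
      simp at h1
    have h3 : ¬ 2 ∣ charDegree (z.1 : A → ℂ) := fun h => h1 (Dvd.dvd.mul_left h _)
    refine ⟨?_, Nat.odd_iff.mpr (by omega), ?_⟩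
    · rw [hmval]
      exact_mod_cast h2
    · intro s hs g g' hg'
      have h4 := z.2 ⟨s, hs⟩
      have h5 := congrFun (congrArg Subtype.val h4) g'
      rw [irrAut_apply] at h5
      have h6 : (φ ⟨s, hs⟩).symm g' = g := by
        rw [MulEquiv.symm_apply_eq]
        apply Subtype.ext
        rw [hg']
        rfl
      rw [h6] at h5
      exact h5.symm
  by_cases hr : ∀ g, conj ((χ : X → ℂ) g) = (χ : X → ℂ) g
  · -- the involution on the fixed characters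
    by_contra hcon
    push Not at hcon
    let F := {z // ∀ g : D, irrAut (φ g) z = z}
    let σ : F → F := fun z => ⟨conjIrr z.1, fun g => by rw [irrAut_conjIrr, z.2 g]⟩
    let fF : F → ZMod 2 := fun z => ((m z.1 * charDegree (z.1 : A → ℂ) : ℕ) : ZMod 2)
    have hmc : ∀ η : IrrCharacter A, m (conjIrr η) = m η := by
      intro η
      have h1 := hmval (conjIrr η)
      have h2 := classInner_conj_conj (res hAX (χ : X → ℂ)) (η : A → ℂ)
      have h3 : (fun g => conj (res hAX (χ : X → ℂ) g)) = res hAX (χ : X → ℂ) := by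
        funext g
        exact hr _
      rw [h3] at h2
      have h4 : (fun g => conj ((η : A → ℂ) g)) = (conjIrr η : A → ℂ) := rfl
      rw [h4, h1, ← classInner_conj_symm, hmval, map_natCast] at h2
      exact_mod_cast h2
    have hdc : ∀ η : IrrCharacter A, charDegree (conjIrr η : A → ℂ) = charDegree (η : A → ℂ) := by
      intro η
      have h1 : (conjIrr η : A → ℂ) 1 = (η : A → ℂ) 1 := by
        show conj ((η : A → ℂ) 1) = _
        rw [one_eq_charDegree (IsIrrCharacter.isCharacter η.2), map_natCast]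
      unfold charDegree
      rw [h1]
    have hsum : ∑ z : F, fF z = 0 := by
      apply Finset.sum_involution (fun z _ => σ z)
      · intro z _
        have : fF (σ z) = fF z := by
          show ((m (conjIrr z.1) * charDegree (conjIrr z.1 : A → ℂ) : ℕ) : ZMod 2) = _
          rw [hmc, hdc]
        rw [this]
        exact CharTwo.add_self_eq_zero _
      · intro z _ hz hσ
        obtain ⟨h1, h2, h3⟩ := good z hz
        have h4 : conjIrr z.1 = z.1 := congrArg Subtype.val hσ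
        have h5 := hcon z.1 h1 h2 h3
        obtain ⟨-, a, ha⟩ := h5
        apply ha
        exact congrFun (congrArg Subtype.val h4) a
      · intro z _
        exact Finset.mem_univ _
      · intro z _
        apply Subtype.ext
        exact conjIrr_conjIrr z.1
    apply hne
    convert hsum
  · obtain ⟨z, -, hz⟩ := Finset.exists_ne_zero_of_sum_ne_zero hne
    obtain ⟨h1, h2, h3⟩ := good z hz
    exact ⟨z.1, h1, h2, h3, fun h => absurd h hr⟩

/-- Constituents of the restriction to a normal subgroup are conjugate. -/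
theorem amb_conj {X A : Subgroup Γ} (hAX : A ≤ X) (An : ∀ g ∈ X, ∀ a ∈ A, g * a * g⁻¹ ∈ A)
    (χ : IrrCharacter X) {ω ω' : A → ℂ} (hω : IsIrrCharacter A ω) (hω' : IsIrrCharacter A ω')
    (h1 : classInner (res hAX (χ : X → ℂ)) ω ≠ 0) (h2 : classInner (res hAX (χ : X → ℂ)) ω' ≠ 0) :
    ∃ g ∈ X, ∀ a a' : A, (a' : Γ) = g * a * g⁻¹ → ω a' = ω' a := by
  classical
  let N : Subgroup X := A.subgroupOf X
  haveI hN : N.Normal := ⟨fun n hn g => An g g.2 n hn⟩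
  letI : Fintype N := Fintype.ofFinite _
  let eN : N ≃* A := Subgroup.subgroupOfEquivOfLe hAX
  have hθ₀ : IsIrrCharacter N (ω ∘ eN) :=
    isIrrCharacter_comp_of_surjective eN.toMonoidHom eN.surjective hω
  have hθ₀' : IsIrrCharacter N (ω' ∘ eN) :=
    isIrrCharacter_comp_of_surjective eN.toMonoidHom eN.surjective hω'
  have hres : (res hAX (χ : X → ℂ)) ∘ eN = fun n : N => (χ : X → ℂ) n := rfl
  have h3 : classInner (fun n : N => (χ : X → ℂ) n) (ω ∘ eN) ≠ 0 := by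
    rw [← hres, classInner_comp_mulEquiv]
    exact h1
  have h4 : classInner (fun n : N => (χ : X → ℂ) n) (ω' ∘ eN) ≠ 0 := by
    rw [← hres, classInner_comp_mulEquiv]
    exact h2
  obtain ⟨g, hg⟩ := exists_conj_of_constituents N hN χ.2 hθ₀ hθ₀' h3 h4
  refine ⟨g, g.2, fun a a' ha => ?_⟩
  -- `ω' = conjBy g ω`
  have h5 := congrFun hg (eN.symm a)
  simp only [Function.comp_apply, MulEquiv.apply_symm_apply] at h5
  rw [h5, conjBy_apply]
  show ω a' = ω (eN _)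
  congr 1
  apply Subtype.ext
  rw [ha]
  rfl

/-- A linear constituent of a real character of odd degree is real. -/
theorem lin_real_of_over {X A : Subgroup Γ} (hAX : A ≤ X) (An : ∀ g ∈ X, ∀ a ∈ A, g * a * g⁻¹ ∈ A)
    (χ : IrrCharacter X) (hχ : RO (χ : X → ℂ)) (b : A →* ℂˣ) (hb : Over hAX (χ : X → ℂ) b) :
    RealH b := by
  have hbot : IsPGroup 2 (⊥ : Subgroup Γ) := IsPGroup.of_bot
  obtain ⟨ω, h1, -, -, h4⟩ := fix_const hAX An (D := ⊥) bot_le hbot χ hχ.2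
  have hr := h4 hχ.1
  obtain ⟨g, hg, hgc⟩ := amb_conj hAX An χ (lin_irr b) ω.2 hb h1
  rw [realH_iff]
  intro a'
  let a : A := ⟨g⁻¹ * a' * g, by
    have := An g⁻¹ (X.inv_mem hg) a' a'.2
    simpa using this⟩
  have h5 := hgc a a' (by simp [a, mul_assoc])
  rw [h5]
  exact hr a

/-- The relative degree divides the index. -/
theorem degree_div_amb {Y X : Subgroup Γ} (h : Y ≤ X) (Yn : ∀ g ∈ X, ∀ a ∈ Y, g * a * g⁻¹ ∈ Y)
    (χ : IrrCharacter X) (ϑ : IrrCharacter Y) (hc : classInner (res h (χ : X → ℂ)) (ϑ : Y → ℂ) ≠ 0) :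
    charDegree (ϑ : Y → ℂ) ∣ charDegree (χ : X → ℂ) ∧
      charDegree (χ : X → ℂ) / charDegree (ϑ : Y → ℂ) ∣ Y.relIndex X := by
  classical
  let N : Subgroup X := Y.subgroupOf X
  haveI hN : N.Normal := ⟨fun n hn g => Yn g g.2 n hn⟩
  letI : Fintype N := Fintype.ofFinite _
  let eN : N ≃* Y := Subgroup.subgroupOfEquivOfLe h
  have hθ₀ : IsIrrCharacter N ((ϑ : Y → ℂ) ∘ eN) :=
    isIrrCharacter_comp_of_surjective eN.toMonoidHom eN.surjective ϑ.2
  have hres : (res h (χ : X → ℂ)) ∘ eN = fun n : N => (χ : X → ℂ) n := rfl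
  have h3 : classInner (fun n : N => (χ : X → ℂ) n) ((ϑ : Y → ℂ) ∘ eN) ≠ 0 := by
    rw [← hres, classInner_comp_mulEquiv]
    exact hc
  have h4 := Cfsg.Agent.Lib.DegreeDiv.degree_div N χ.2 hθ₀ h3
    (one_eq_charDegree (IsIrrCharacter.isCharacter χ.2))
    (by
      show (ϑ : Y → ℂ) 1 = _
      exact one_eq_charDegree (IsIrrCharacter.isCharacter ϑ.2))
  exact h4

/-- Odd degree above a linear character with a `2`-power index is linear. -/
theorem lin_of_odd {A L : Subgroup Γ} (hLA : L ≤ A) (Ln : ∀ g ∈ A, ∀ a ∈ L, g * a * g⁻¹ ∈ L)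
    (hk : ∃ k : ℕ, L.relIndex A = 2 ^ k) (ν : L →* ℂˣ) (ω : IrrCharacter A)
    (hω : classInner (res hLA (ω : A → ℂ)) (lin ν) ≠ 0) (hodd : Odd (charDegree (ω : A → ℂ))) :
    ∃ f : A →* ℂˣ, (ω : A → ℂ) = lin f := by
  obtain ⟨-, h2⟩ := degree_div_amb hLA Ln ω ⟨lin ν, lin_irr ν⟩ hω
  have h3 : charDegree (lin ν) = 1 := lin_deg ν
  have h4 : charDegree (ω : A → ℂ) / charDegree (lin ν) = charDegree (ω : A → ℂ) := by
    rw [h3, Nat.div_one]
  simp only [h4] at h2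
  obtain ⟨k, hk⟩ := hk
  rw [hk] at h2
  obtain ⟨j, -, hj⟩ := (Nat.dvd_prime_pow Nat.prime_two).mp h2
  have h5 : charDegree (ω : A → ℂ) = 1 := by
    rcases j with _ | j
    · simpa using hj
    · exfalso
      rw [hj] at hodd
      have := hodd.not_two_dvd_nat
      exact this (Dvd.intro_left _ (pow_succ 2 j).symm)
  obtain ⟨f, hf⟩ := exists_hom_of_degree_one (IsIrrCharacter.isCharacter ω.2)
    (by rw [one_eq_charDegree (IsIrrCharacter.isCharacter ω.2), h5]; simp)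
  exact ⟨f, funext hf⟩

/-- Conjugation by an element normalizing a subgroup. -/
def conjE (P : Subgroup Γ) (g : Γ) (h : ∀ x, g * x * g⁻¹ ∈ P ↔ x ∈ P) : P ≃* P where
  toFun x := ⟨g * x * g⁻¹, (h x).mpr x.2⟩
  invFun y := ⟨g⁻¹ * y * g, (h _).mp (by
    have : g * (g⁻¹ * (y : Γ) * g) * g⁻¹ = y := by group
    rw [this]
    exact y.2)⟩
  left_inv x := by
    apply Subtype.ext
    show g⁻¹ * (g * (x : Γ) * g⁻¹) * g = x
    group
  right_inv y := by
    apply Subtype.ext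
    show g * (g⁻¹ * (y : Γ) * g) * g⁻¹ = y
    group
  map_mul' a b := by
    apply Subtype.ext
    show g * ((a : Γ) * b) * g⁻¹ = g * a * g⁻¹ * (g * b * g⁻¹)
    group

theorem conjE_apply (P : Subgroup Γ) (g : Γ) (h : ∀ x, g * x * g⁻¹ ∈ P ↔ x ∈ P) (x : P) :
    ((conjE P g h x : P) : Γ) = g * x * g⁻¹ := rfl

theorem conjE_symm_apply (P : Subgroup Γ) (g : Γ) (h : ∀ x, g * x * g⁻¹ ∈ P ↔ x ∈ P) (x : P) :
    (((conjE P g h).symm x : P) : Γ) = g⁻¹ * x * g := rfl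

/-- The conjugate of a linear character. -/
def cjh {P : Subgroup Γ} (g : Γ) (h : ∀ x, g * x * g⁻¹ ∈ P ↔ x ∈ P) (f : P →* ℂˣ) : P →* ℂˣ :=
  f.comp (conjE P g h).symm.toMonoidHom

theorem cjh_apply {P : Subgroup Γ} (g : Γ) (h : ∀ x, g * x * g⁻¹ ∈ P ↔ x ∈ P) (f : P →* ℂˣ)
    (x x' : P) (hx : (x' : Γ) = g * x * g⁻¹) : cjh g h f x' = f x := by
  show f ((conjE P g h).symm x') = f x
  congr 1
  apply Subtype.ext
  rw [conjE_symm_apply, hx]
  group

theorem realH_cjh {P : Subgroup Γ} (g : Γ) (h : ∀ x, g * x * g⁻¹ ∈ P ↔ x ∈ P) {f : P →* ℂˣ}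
    (hf : RealH f) : RealH (cjh g h f) := fun x => hf _

/-- Constituents are preserved by the conjugation with an element of the group. -/
theorem over_cjh {P X : Subgroup Γ} (hPX : P ≤ X) (χ : IrrCharacter X) {g : Γ} (hg : g ∈ X)
    (h : ∀ x, g * x * g⁻¹ ∈ P ↔ x ∈ P) {f : P →* ℂˣ} (hf : Over hPX (χ : X → ℂ) f) :
    Over hPX (χ : X → ℂ) (cjh g h f) := by
  have hcl := isClassFunction_of_isCharacter (IsIrrCharacter.isCharacter χ.2)
  unfold Over at hf ⊢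
  have h1 := classInner_comp_mulEquiv (conjE P g h).symm (res hPX (χ : X → ℂ)) (lin f)
  have h2 : (res hPX (χ : X → ℂ)) ∘ (conjE P g h).symm = res hPX (χ : X → ℂ) := by
    funext a
    show (χ : X → ℂ) _ = (χ : X → ℂ) _
    have h5 := hcl ⟨a, hPX a.2⟩ ⟨g⁻¹, X.inv_mem hg⟩
    have h6 : ((⟨g⁻¹, X.inv_mem hg⟩ : X) * ⟨a, hPX a.2⟩ * ⟨g⁻¹, X.inv_mem hg⟩⁻¹ : X) =
        ⟨(((conjE P g h).symm a : P) : Γ), hPX ((conjE P g h).symm a).2⟩ := by
      apply Subtype.ext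
      rw [conjE_symm_apply]
      simp
    rw [h6] at h5
    exact h5
  rw [h2] at h1
  have h3 : lin f ∘ (conjE P g h).symm = lin (cjh g h f) := rfl
  rw [h3] at h1
  rw [h1]
  exact hf

/-- Gluing linear characters. -/
theorem glue {Z K P : Subgroup Γ} (hKZ : K ≤ Z) (hPZ : P ≤ Z)
    (hform : ∀ z ∈ Z, ∃ k ∈ K, ∃ p ∈ P, z = k * p)
    (hPK : ∀ p ∈ P, ∀ k ∈ K, p * k * p⁻¹ ∈ K) (θ : K →* ℂˣ) (f : P →* ℂˣ)
    (hinv : ∀ p ∈ P, ∀ k k' : K, (k' : Γ) = p * k * p⁻¹ → θ k' = θ k)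
    (hagree : ∀ x (h₁ : x ∈ K) (h₂ : x ∈ P), θ ⟨x, h₁⟩ = f ⟨x, h₂⟩) :
    ∃ μ : Z →* ℂˣ, rs hKZ μ = θ ∧ rs hPZ μ = f := by
  classical
  have hex : ∀ z : Z, ∃ q : K × P, (z : Γ) = q.1 * q.2 := by
    intro z
    obtain ⟨k, hk, p, hp, h⟩ := hform z z.2
    exact ⟨(⟨k, hk⟩, ⟨p, hp⟩), h⟩
  choose q hq using hex
  have key : ∀ (k k' : K) (p p' : P), (k : Γ) * p = k' * p' → θ k * f p = θ k' * f p' := by
    intro k k' p p' h
    have h1 : (k'⁻¹ * k : K) = ⟨(k' : Γ)⁻¹ * k, K.mul_mem (K.inv_mem k'.2) k.2⟩ := rfl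
    have h2 : (k' : Γ)⁻¹ * k = p' * (p : Γ)⁻¹ := by
      rw [inv_mul_eq_iff_eq_mul, ← mul_assoc, eq_mul_inv_iff_mul_eq, h]
    have hm : (k' : Γ)⁻¹ * k ∈ P := by
      rw [h2]
      exact P.mul_mem p'.2 (P.inv_mem p.2)
    have h3 := hagree _ (K.mul_mem (K.inv_mem k'.2) k.2) hm
    have h4 : (⟨(k' : Γ)⁻¹ * k, hm⟩ : P) = p' * p⁻¹ := Subtype.ext h2
    rw [h4, ← h1, map_mul, map_mul, map_inv, map_inv] at h3
    have h5 : (θ k')⁻¹ * θ k * f p = f p' := by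
      rw [h3]
      group
    rw [← h5]
    group
  let μ : Z →* ℂˣ :=
    { toFun := fun z => θ (q z).1 * f (q z).2
      map_one' := by
        have := key (q 1).1 1 (q 1).2 1 (by
          have h := hq 1
          simp only [OneMemClass.coe_one, mul_one]
          exact h.symm)
        rw [this]
        simp
      map_mul' := by
        intro a b
        have hk : (q b).2 * ((q b).1 : Γ) * ((q b).2 : Γ)⁻¹ ∈ K := hPK _ (q b).2.2 _ (q b).1.2
        have hk' : ((q a).2 : Γ) * ((q b).1 : Γ) * ((q a).2 : Γ)⁻¹ ∈ K := hPK _ (q a).2.2 _ (q b).1.2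
        have h1 := key (q (a * b)).1 ((q a).1 * ⟨_, hk'⟩) (q (a * b)).2 ((q a).2 * (q b).2) (by
          rw [← hq (a * b)]
          show (((a * b : Z) : Γ)) = ((q a).1 : Γ) * (((q a).2 : Γ) * ((q b).1 : Γ) * ((q a).2 : Γ)⁻¹) * (((q a).2 : Γ) * ((q b).2 : Γ))
          have ha := hq a
          have hb := hq b
          show (a : Γ) * b = _
          rw [ha, hb]
          group)
        rw [h1, map_mul, map_mul, hinv (q a).2 (q a).2.2 (q b).1 ⟨_, hk'⟩ rfl]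
        exact mul_mul_mul_comm _ _ _ _ }
  refine ⟨μ, ?_, ?_⟩
  · ext k
    have h1 := key (q ⟨k, hKZ k.2⟩).1 k (q ⟨k, hKZ k.2⟩).2 1 (by
      have h := hq ⟨k, hKZ k.2⟩
      simp only [OneMemClass.coe_one, mul_one]
      exact h.symm)
    show ((θ (q ⟨k, hKZ k.2⟩).1 * f (q ⟨k, hKZ k.2⟩).2 : ℂˣ) : ℂ) = _
    rw [h1]
    simp
  · ext p
    have h1 := key (q ⟨p, hPZ p.2⟩).1 1 (q ⟨p, hPZ p.2⟩).2 p (by
      have h := hq ⟨p, hPZ p.2⟩
      simp only [OneMemClass.coe_one, one_mul]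
      exact h.symm)
    show ((θ (q ⟨p, hPZ p.2⟩).1 * f (q ⟨p, hPZ p.2⟩).2 : ℂˣ) : ℂ) = _
    rw [h1]
    simp

/-- **Real extension**. -/
theorem real_ext {K L : Subgroup Γ} (hLK : L ≤ K) (Ln : ∀ g ∈ K, ∀ a ∈ L, g * a * g⁻¹ ∈ L)
    (hodd : Odd (L.relIndex K)) (ν : L →* ℂˣ) (hr : RealH ν)
    (hinv : ∀ g ∈ K, ∀ ℓ ℓ' : L, (ℓ' : Γ) = g * ℓ * g⁻¹ → ν ℓ' = ν ℓ) :
    ∃ θ : K →* ℂˣ, rs hLK θ = ν ∧ RealH θ := by
  classical
  let N : Subgroup K := L.subgroupOf K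
  haveI hN : N.Normal := ⟨fun n hn g => Ln g g.2 n hn⟩
  letI : Fintype N := Fintype.ofFinite _
  let eN : N ≃* L := Subgroup.subgroupOfEquivOfLe hLK
  have hφ : IsIrrCharacter N (lin ν ∘ eN) :=
    isIrrCharacter_comp_of_surjective eN.toMonoidHom eN.surjective (lin_irr ν)
  have hreal : ∀ n, ((lin ν ∘ eN) n).im = 0 := by
    intro n
    exact Complex.conj_eq_iff_im.mp ((realH_iff ν).mp hr _)
  have hinv' : ∀ (t : K) (n : N), (lin ν ∘ eN) (MulAut.conjNormal t n) = (lin ν ∘ eN) n := by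
    intro t n
    show ((ν _ : ℂˣ) : ℂ) = ((ν _ : ℂˣ) : ℂ)
    congr 1
    exact hinv t t.2 (eN n) _ rfl
  obtain ⟨ψ, h1, h2, h3⟩ := Cfsg.Agent.Lib.RealOdd.exists_real_ext N hodd hφ hreal hinv'
  have h4 : ψ 1 = 1 := by
    have h5 := h2 1
    simp only [OneMemClass.coe_one] at h5
    rw [h5]
    simp [lin]
  obtain ⟨f, hf⟩ := exists_hom_of_degree_one (IsIrrCharacter.isCharacter h1) h4
  have hψ : ψ = lin f := funext hf
  refine ⟨f, ?_, ?_⟩
  · ext ℓ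
    have h5 := h2 (eN.symm ℓ)
    rw [hψ] at h5
    show lin f _ = _
    have h6 : (lin ν ∘ eN) (eN.symm ℓ) = lin ν ℓ := by
      simp
    rw [h6] at h5
    exact h5
  · rw [realH_iff]
    intro x
    apply Complex.conj_eq_iff_im.mpr
    rw [← hψ]
    exact h3 x

/-- **Uniqueness** of real characters above a real character. -/
theorem real_uniq {K L : Subgroup Γ} (hLK : L ≤ K) (Ln : ∀ g ∈ K, ∀ a ∈ L, g * a * g⁻¹ ∈ L)
    (hodd : Odd (L.relIndex K)) (ν : L →* ℂˣ) (hr : RealH ν) (ω ω' : IrrCharacter K)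
    (h₁ : ∀ g, conj ((ω : K → ℂ) g) = (ω : K → ℂ) g) (h₂ : ∀ g, conj ((ω' : K → ℂ) g) = (ω' : K → ℂ) g)
    (o₁ : classInner (res hLK (ω : K → ℂ)) (lin ν) ≠ 0)
    (o₂ : classInner (res hLK (ω' : K → ℂ)) (lin ν) ≠ 0) : ω = ω' := by
  classical
  let N : Subgroup K := L.subgroupOf K
  haveI hN : N.Normal := ⟨fun n hn g => Ln g g.2 n hn⟩
  letI : Fintype N := Fintype.ofFinite _
  let eN : N ≃* L := Subgroup.subgroupOfEquivOfLe hLK
  have hφ : IsIrrCharacter N (lin ν ∘ eN) :=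
    isIrrCharacter_comp_of_surjective eN.toMonoidHom eN.surjective (lin_irr ν)
  let θ₀ : IrrCharacter N := ⟨lin ν ∘ eN, hφ⟩
  have hov : ∀ z : IrrCharacter K, classInner (res hLK (z : K → ℂ)) (lin ν) ≠ 0 →
      Cfsg.Agent.Lib.RealOdd.Over N z θ₀ := by
    intro z hz
    unfold Cfsg.Agent.Lib.RealOdd.Over
    have h1 := classInner_comp_mulEquiv eN (res hLK (z : K → ℂ)) (lin ν)
    have h2 : (res hLK (z : K → ℂ)) ∘ eN = fun n : N => (z : K → ℂ) n := rfl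
    rw [h2] at h1
    show classInner (fun n : N => (z : K → ℂ) n) (lin ν ∘ eN) ≠ 0
    rw [h1]
    exact hz
  have hconj : ∀ z : IrrCharacter K, (∀ g, conj ((z : K → ℂ) g) = (z : K → ℂ) g) → conjIrr z = z := by
    intro z hz
    apply Subtype.ext
    funext g
    exact hz g
  exact Cfsg.Agent.Lib.RealOdd.real_unique N hodd (hconj ω h₁) (hconj ω' h₂) (hov ω o₁) (hov ω' o₂)

/-- A real extension is invariant. -/
theorem real_ext_inv {K L : Subgroup Γ} (hLK : L ≤ K) (Ln : ∀ g ∈ K, ∀ a ∈ L, g * a * g⁻¹ ∈ L)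
    (hodd : Odd (L.relIndex K)) (ν : L →* ℂˣ) (hr : RealH ν) (θ : K →* ℂˣ) (hθ : rs hLK θ = ν)
    (hθr : RealH θ) (g : Γ) (hgK : ∀ x, g * x * g⁻¹ ∈ K ↔ x ∈ K)
    (hgν : ∀ ℓ ℓ' : L, (ℓ' : Γ) = g * ℓ * g⁻¹ → ν ℓ' = ν ℓ) (hgL : ∀ x, g * x * g⁻¹ ∈ L ↔ x ∈ L)
    (k k' : K) (hk : (k' : Γ) = g * k * g⁻¹) : θ k' = θ k := by
  have h0 : rs hLK (cjh g hgK θ) = ν := by
    ext ℓ
    show ((cjh g hgK θ ⟨ℓ, hLK ℓ.2⟩ : ℂˣ) : ℂ) = _
    let ℓ₀ : L := ⟨g⁻¹ * ℓ * g, (hgL _).mp (by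
      have : g * (g⁻¹ * (ℓ : Γ) * g) * g⁻¹ = ℓ := by group
      rw [this]
      exact ℓ.2)⟩
    have h1 : cjh g hgK θ ⟨ℓ, hLK ℓ.2⟩ = θ ⟨ℓ₀, hLK ℓ₀.2⟩ := by
      apply cjh_apply
      show (ℓ : Γ) = g * (g⁻¹ * ℓ * g) * g⁻¹
      group
    rw [h1]
    have h2 : θ ⟨ℓ₀, hLK ℓ₀.2⟩ = ν ℓ₀ := by
      rw [← hθ]
      rfl
    rw [h2, hgν ℓ₀ ℓ (by show (ℓ : Γ) = g * (g⁻¹ * ℓ * g) * g⁻¹; group)]
  have hov : ∀ f : K →* ℂˣ, rs hLK f = ν → classInner (res hLK (lin f)) (lin ν) ≠ 0 := by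
    intro f hf
    rw [res_lin, hf, inner_lin_self]
    exact one_ne_zero
  have h3 := real_uniq hLK Ln hodd ν hr ⟨lin θ, lin_irr θ⟩ ⟨lin (cjh g hgK θ), lin_irr _⟩
    ((realH_iff θ).mp hθr) ((realH_iff _).mp (realH_cjh g hgK hθr)) (hov θ hθ) (hov _ h0)
  have h4 : θ = cjh g hgK θ := lin_inj (congrArg Subtype.val h3)
  conv_lhs => rw [h4]
  exact cjh_apply g hgK θ k k' hk

/-- Over an invariant linear character the normal subgroup acts by scalars. -/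
theorem scalar_mul {X K : Subgroup Γ} (hKX : K ≤ X) (Kn : ∀ g ∈ X, ∀ a ∈ K, g * a * g⁻¹ ∈ K)
    (χ : IrrCharacter X) (θ : K →* ℂˣ)
    (hinv : ∀ g ∈ X, ∀ k k' : K, (k' : Γ) = g * k * g⁻¹ → θ k' = θ k)
    (hover : Over hKX (χ : X → ℂ) θ) (k : K) (g : X) :
    (χ : X → ℂ) (⟨k, hKX k.2⟩ * g) = lin θ k * (χ : X → ℂ) g := by
  classical
  let N : Subgroup X := K.subgroupOf X
  haveI hN : N.Normal := ⟨fun n hn g => Kn g g.2 n hn⟩
  letI : Fintype N := Fintype.ofFinite _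
  let eN : N ≃* K := Subgroup.subgroupOfEquivOfLe hKX
  have hφ : IsIrrCharacter N (lin θ ∘ eN) :=
    isIrrCharacter_comp_of_surjective eN.toMonoidHom eN.surjective (lin_irr θ)
  have hres : (res hKX (χ : X → ℂ)) ∘ eN = fun n : N => (χ : X → ℂ) n := rfl
  have h3 : classInner (fun n : N => (χ : X → ℂ) n) (lin θ ∘ eN) ≠ 0 := by
    rw [← hres, classInner_comp_mulEquiv]
    exact hover
  obtain ⟨e, he0, he1, -⟩ := restrict_eq_smul_of_invariant N hφ (by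
    intro g n
    show ((θ _ : ℂˣ) : ℂ) = ((θ _ : ℂˣ) : ℂ)
    congr 1
    exact hinv g g.2 (eN n) _ rfl) χ.2 h3
  obtain ⟨d, ρ, hρ, hχ⟩ := χ.2
  -- the scalar
  have hone : (χ : X → ℂ) 1 = e := by
    have h1 := congrFun he1 1
    simpa [lin] using h1
  have hd : (d : ℂ) = e := by
    rw [← hone, ← hχ, Cfsg.Agent.Lib.CharBasic.char_one_eq_rep]
  let ρ' : Representation ℂ K (Fin d → ℂ) :=
    { toFun := fun k => ((θ k)⁻¹ : ℂˣ).val • ρ ⟨k, hKX k.2⟩
      map_one' := by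
        have h0 : (⟨((1 : K) : Γ), hKX (1 : K).2⟩ : X) = 1 := rfl
        rw [h0, map_one, map_one]
        simp
      map_mul' := fun a b => by
        have : (⟨((a * b : K) : Γ), hKX (a * b : K).2⟩ : X) = ⟨a, hKX a.2⟩ * ⟨b, hKX b.2⟩ := rfl
        rw [this, map_mul, map_mul, mul_inv]
        ext v i
        simp [smul_smul, mul_comm] }
  have hρ' : ρ'.character k = (Module.finrank ℂ (Fin d → ℂ) : ℂ) := by
    show LinearMap.trace ℂ _ (((θ k)⁻¹ : ℂˣ).val • ρ ⟨k, hKX k.2⟩) = _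
    rw [map_smul]
    have h4 : LinearMap.trace ℂ _ (ρ ⟨k, hKX k.2⟩) = (χ : X → ℂ) ⟨k, hKX k.2⟩ := by
      rw [← hχ]
      rfl
    rw [h4]
    have h5 : (χ : X → ℂ) ⟨k, hKX k.2⟩ = (e : ℂ) * (lin θ ∘ eN) (eN.symm k) := congrFun he1 (eN.symm k)
    have h6 : (χ : X → ℂ) ⟨k, hKX k.2⟩ = e * lin θ k := by
      simpa using h5
    rw [h6, smul_eq_mul]
    simp only [Module.finrank_fintype_fun_eq_card, Fintype.card_fin]
    rw [hd]
    have h7 : ((θ k)⁻¹ : ℂˣ).val * lin θ k = 1 := by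
      show ((θ k)⁻¹ : ℂˣ).val * (θ k).val = 1
      simp
    linear_combination (e : ℂ) * h7
  have h8 := (Cfsg.Agent.Lib.CharValues.character_eq_finrank_iff ρ' k).mp hρ'
  have h9 : ρ ⟨k, hKX k.2⟩ = (θ k).val • (LinearMap.id : (Fin d → ℂ) →ₗ[ℂ] (Fin d → ℂ)) := by
    have h10 : ((θ k)⁻¹ : ℂˣ).val • ρ ⟨k, hKX k.2⟩ = LinearMap.id := h8
    rw [← h10, smul_smul]
    simp
  rw [← hχ]
  show LinearMap.trace ℂ _ (ρ (⟨k, hKX k.2⟩ * g)) = _ * LinearMap.trace ℂ _ (ρ g)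
  rw [map_mul, h9, smul_mul_assoc, map_smul, smul_eq_mul]
  rw [show (LinearMap.id : (Fin d → ℂ) →ₗ[ℂ] (Fin d → ℂ)) * ρ g = ρ g from one_mul _]
  rfl

/-- Lifting a constituent. -/
theorem over_lift {X K P Z : Subgroup Γ} (hKZ : K ≤ Z) (hPZ : P ≤ Z) (hZX : Z ≤ X)
    (hform : ∀ z ∈ Z, ∃ k ∈ K, ∃ p ∈ P, z = k * p)
    (Kn : ∀ g ∈ Z, ∀ a ∈ K, g * a * g⁻¹ ∈ K) (χ : X → ℂ) (μ : Z →* ℂˣ)
    (hsc : ∀ (k : K) (z : Z), χ ⟨(k : Γ) * z, X.mul_mem (hZX (hKZ k.2)) (hZX z.2)⟩ =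
      lin μ ⟨k, hKZ k.2⟩ * χ ⟨z, hZX z.2⟩)
    (h : Over (hPZ.trans hZX) χ (rs hPZ μ)) : Over hZX χ μ := by
  classical
  let N : Subgroup Z := K.subgroupOf Z
  haveI hN : N.Normal := ⟨fun n hn g => Kn g g.2 n hn⟩
  let B := Z ⧸ N
  letI : Fintype B := Fintype.ofFinite _
  let q : Z →* B := QuotientGroup.mk' N
  have hq : Function.Surjective q := QuotientGroup.mk'_surjective N
  let q₀ : P →* B := q.comp (Subgroup.inclusion hPZ)
  have hq₀ : Function.Surjective q₀ := by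
    intro b
    obtain ⟨z, rfl⟩ := hq b
    obtain ⟨k, hk, p, hp, hz⟩ := hform z z.2
    refine ⟨⟨p, hp⟩, ?_⟩
    have hz' : z = ⟨k, hKZ hk⟩ * ⟨p, hPZ hp⟩ := Subtype.ext hz
    have h1 : q ⟨k, hKZ hk⟩ = 1 := (QuotientGroup.eq_one_iff _).mpr hk
    show q ⟨p, hPZ hp⟩ = q z
    rw [hz', map_mul, h1, one_mul]
  let F : Z → ℂ := fun z => χ ⟨z, hZX z.2⟩ * conj (lin μ z)
  have hFk : ∀ (k : K) (z : Z), F (⟨k, hKZ k.2⟩ * z) = F z := by
    intro k z
    show χ ⟨(k : Γ) * z, _⟩ * conj (lin μ (⟨k, hKZ k.2⟩ * z)) = _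
    rw [hsc k z]
    have h1 : lin μ (⟨k, hKZ k.2⟩ * z) = lin μ ⟨k, hKZ k.2⟩ * lin μ z := by
      simp [lin]
    rw [h1, map_mul]
    have h2 := conj_lin μ ⟨k, hKZ k.2⟩
    show _ = χ ⟨z, hZX z.2⟩ * conj (lin μ z)
    linear_combination (χ ⟨z, hZX z.2⟩ * conj (lin μ z)) * h2
  have hF : ∀ z₁ z₂ : Z, q z₁ = q z₂ → F z₁ = F z₂ := by
    intro z₁ z₂ h12
    have h1 : z₁⁻¹ * z₂ ∈ N := QuotientGroup.eq.mp h12
    have h2 : (z₁ : Γ) * ((z₁⁻¹ * z₂ : Z) : Γ) * (z₁ : Γ)⁻¹ ∈ K := Kn z₁ z₁.2 _ h1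
    have h3 := hFk ⟨_, h2⟩ z₁
    rw [← h3]
    congr 1
    apply Subtype.ext
    show (z₁ : Γ) * (((z₁ : Γ)⁻¹ * z₂)) * (z₁ : Γ)⁻¹ * z₁ = (z₂ : Γ)
    group
  let F' : B → ℂ := fun b => F (Function.surjInv hq b)
  have hF' : ∀ z, F z = F' (q z) := by
    intro z
    apply hF
    exact (Function.surjInv_eq hq (q z)).symm
  have form : ∀ {I : Subgroup Γ} (a b : I → ℂ),
      classInner a b = classInner (fun g => a g * conj (b g)) (fun _ => 1) := by
    intro I a b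
    unfold classInner
    simp
  have inf : ∀ {I : Subgroup Γ} (r : I →* B), Function.Surjective r → ∀ a : I → ℂ,
      (∀ i, a i = F' (r i)) → classInner a (fun _ => (1 : ℂ)) =
        @classInner B _ (Fintype.ofFinite B) F' (fun _ => (1 : ℂ)) := by
    intro I r hr a ha
    have h1 := Cfsg.Agent.Lib.GlaubSyl1.classInner_infl r hr F' (fun _ => 1)
    have h2 : a = fun i => F' (r i) := funext ha
    rw [h2, Cfsg.Agent.Lib.IsaCover.classInner_inst (fX I) (Fintype.ofFinite _)]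
    exact h1
  unfold Over at h ⊢
  rw [form] at h ⊢
  have e1 := inf q₀ hq₀ (fun g => res (hPZ.trans hZX) χ g * conj (lin (rs hPZ μ) g))
    (fun p => hF' ⟨p, hPZ p.2⟩)
  have e2 := inf q hq (fun g => res hZX χ g * conj (lin μ g)) hF'
  rw [e1] at h
  rw [e2]
  exact h

end Cfsg.Agent.Lib.SolRo
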