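import Mathlib
import Cfsg.Agent.Lib.SolRoB

/-!
# Real characters of odd degree: the parametrization by linear characters
-/

set_option autoImplicit false
set_option linter.unusedVariables false
set_option linter.unusedSectionVars false
set_option linter.style.haveILetI false

namespace Cfsg.Agent.Lib.SolRo

open Cfsg Cfsg.Agent.Lib.CharBasic Cfsg.Agent.Lib.CharInd Cfsg.Agent.Lib.CharInduction
open Cfsg.Agent.Lib.Clifford Cfsg.Agent.Lib.CharClifford Cfsg.Agent.Lib.IsaCliff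
open Cfsg.Agent.Lib.CharKernel Cfsg.Agent.Lib.RealChars Cfsg.Agent.Lib.GlaubCorr
open Cfsg.Agent.Lib.CharAut Cfsg.Agent.Lib.CoprimeInv
open scoped ComplexConjugate

universe u

variable {Γ : Type u} [Group Γ] [Finite Γ] [fX : ∀ X : Subgroup Γ, Fintype X]

/-- The setting. -/
structure Setup (G L Q P : Subgroup Γ) (ν : L →* ℂˣ) : Prop where
  LP : L ≤ P
  QP : Q ≤ P
  PG : P ≤ G
  form : ∀ x ∈ P, ∃ l ∈ L, ∃ y ∈ Q, x = l * y
  Ln : ∀ g ∈ G, ∀ l ∈ L, g * l * g⁻¹ ∈ L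
  two : IsPGroup 2 Q
  oddI : Odd (Q.relIndex G)
  real : RealH ν
  inv : ∀ y ∈ Q, ∀ l l' : L, (l' : Γ) = y * l * y⁻¹ → ν l' = ν l

/-- The conclusion. -/
structure Conc (G L Q P : Subgroup Γ) (ν : L →* ℂˣ) (hLP : L ≤ P) (hPG : P ≤ G) : Prop where
  a : ∀ χ : IrrCharacter G, RO (χ : G → ℂ) → Over (hLP.trans hPG) (χ : G → ℂ) ν →
    ∃ f : P →* ℂˣ, rs hLP f = ν ∧ Over hPG (χ : G → ℂ) f
  b : ∀ f : P →* ℂˣ, rs hLP f = ν → RealH f →
    ∃ χ : IrrCharacter G, RO (χ : G → ℂ) ∧ Over hPG (χ : G → ℂ) f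
  c : ∀ χ χ' : IrrCharacter G, RO (χ : G → ℂ) → RO (χ' : G → ℂ) → ∀ f : P →* ℂˣ, rs hLP f = ν →
    Over hPG (χ : G → ℂ) f → Over hPG (χ' : G → ℂ) f → χ = χ'
  d : ∀ χ : IrrCharacter G, RO (χ : G → ℂ) → ∀ f f' : P →* ℂˣ, rs hLP f = ν → rs hLP f' = ν →
    Over hPG (χ : G → ℂ) f → Over hPG (χ : G → ℂ) f' →
    ∃ n ∈ G, (∀ x, n * x * n⁻¹ ∈ Q ↔ x ∈ Q) ∧ (∀ l l' : L, (l' : Γ) = n * l * n⁻¹ → ν l' = ν l) ∧
      ∀ x x' : P, (x' : Γ) = n * x * n⁻¹ → f' x' = f x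
  e : ∀ χ : IrrCharacter G, RO (χ : G → ℂ) → ∀ f : P →* ℂˣ, rs hLP f = ν →
    Over hPG (χ : G → ℂ) f → RealH f

section Base

/-- The base of the induction. -/
theorem conc_base {L Q : Subgroup Γ} {ν : L →* ℂˣ} (hr : RealH ν) (hLP : L ≤ L) (hPG : L ≤ L) :
    Conc L L Q L ν hLP hPG := by
  have hrs : ∀ f : L →* ℂˣ, rs hLP f = f := fun f => by
    ext x
    rfl
  have hres : ∀ (f : L → ℂ), res hPG f = f := fun f => rfl
  have heq : ∀ (χ : IrrCharacter L) (f : L →* ℂˣ), Over hPG (χ : L → ℂ) f → (χ : L → ℂ) = lin f := by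
    intro χ f h
    unfold Over at h
    rw [hres] at h
    by_contra hne
    exact h (classInner_irr_ne χ.2 (lin_irr f) hne)
  refine ⟨?_, ?_, ?_, ?_, ?_⟩
  · intro χ _ h
    exact ⟨ν, hrs ν, h⟩
  · intro f _ hf
    refine ⟨⟨lin f, lin_irr f⟩, ro_lin hf, ?_⟩
    unfold Over
    rw [hres]
    show classInner (lin f) (lin f) ≠ 0
    rw [inner_lin_self]
    exact one_ne_zero
  · intro χ χ' _ _ f _ h h'
    apply Subtype.ext
    rw [heq χ f h, heq χ' f h']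
  · intro χ _ f f' hf hf' _ _
    refine ⟨1, L.one_mem, by simp, by
      intro l l' h
      congr 1
      apply Subtype.ext
      rw [h]
      simp, ?_⟩
    intro x x' h
    have h1 : x' = x := by
      apply Subtype.ext
      rw [h]
      simp
    rw [h1]
    rw [hrs] at hf hf'
    rw [hf, hf']
  · intro χ _ f hf _
    rw [hrs] at hf
    rw [hf]
    exact hr

end Base

section Step

variable {G L Q P A : Subgroup Γ} {ν : L →* ℂˣ}

/-- `Q` is Sylow in intermediate groups, and so are its conjugates. -/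
theorem sylow_in {G Q X : Subgroup Γ} (hQ : IsPGroup 2 Q) (hodd : Odd (Q.relIndex G)) (hXG : X ≤ G)
    {g : Γ} (hg : g ∈ G) (hQG : Q ≤ G) (hQX : cj Q g ≤ X) : IsSylowIn 2 (cj Q g) X := by
  haveI : Fact (Nat.Prime 2) := ⟨Nat.prime_two⟩
  have hcj : IsPGroup 2 (cj Q g) := by
    intro x
    obtain ⟨k, hk⟩ := hQ ⟨g⁻¹ * x * g, mem_cj.mp x.2⟩
    refine ⟨k, ?_⟩
    apply Subtype.ext
    have h1 := congrArg (fun z : Q => (z : Γ)) hk
    simp only [SubmonoidClass.coe_pow, OneMemClass.coe_one] at h1 ⊢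
    have h2 : (x : Γ) = g * (g⁻¹ * x * g) * g⁻¹ := by group
    rw [h2, conj_pow, h1]
    simp
  refine ⟨hQX, hcj, fun R hRX hR hsub => ?_⟩
  -- transport to `Q`
  have hRG : cj R g⁻¹ ≤ G := by
    intro x hx
    have h1 := mem_cj.mp hx
    have h2 : x = g⁻¹ * (g⁻¹⁻¹ * x * g⁻¹) * g := by group
    rw [h2]
    exact G.mul_mem (G.mul_mem (G.inv_mem hg) (hXG (hRX h1))) hg
  have hQR : Q ≤ cj R g⁻¹ := by
    intro x hx
    rw [mem_cj]
    apply hsub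
    rw [mem_cj]
    have h2 : g⁻¹ * (g⁻¹⁻¹ * x * g⁻¹) * g = x := by group
    rw [h2]
    exact hx
  have hRp : IsPGroup 2 (cj R g⁻¹) := by
    intro x
    obtain ⟨k, hk⟩ := hR ⟨g⁻¹⁻¹ * x * g⁻¹, mem_cj.mp x.2⟩
    refine ⟨k, ?_⟩
    apply Subtype.ext
    have h1 := congrArg (fun z : R => (z : Γ)) hk
    simp only [SubmonoidClass.coe_pow, OneMemClass.coe_one] at h1 ⊢
    have h2 : (x : Γ) = g⁻¹ * (g⁻¹⁻¹ * x * g⁻¹) * g⁻¹⁻¹ := by group
    rw [h2, conj_pow, h1]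
    simp
  -- a `2`-power index dividing an odd number
  have h3 : Q.relIndex (cj R g⁻¹) = 1 := by
    have h4 := Subgroup.relIndex_mul_relIndex Q (cj R g⁻¹) G hQR hRG
    have h5 : Odd (Q.relIndex (cj R g⁻¹)) := by
      rw [← h4] at hodd
      exact (Nat.odd_mul.mp hodd).1
    obtain ⟨j, hj⟩ := IsPGroup.iff_card.mp hRp
    have h6 : Q.relIndex (cj R g⁻¹) ∣ 2 ^ j := by
      rw [← hj]
      have h7 : Nat.card ↥(cj R g⁻¹) = Q.relIndex (cj R g⁻¹) * Nat.card (Q.subgroupOf (cj R g⁻¹)) := by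
        rw [mul_comm]
        exact (Subgroup.card_mul_index _).symm
      rw [h7]
      exact dvd_mul_right _ _
    obtain ⟨i, -, hi⟩ := (Nat.dvd_prime_pow Nat.prime_two).mp h6
    rcases i with _ | i
    · simpa using hi
    · exfalso
      rw [hi] at h5
      exact h5.not_two_dvd_nat (Dvd.intro_left _ (pow_succ 2 i).symm)
  have h8 : cj R g⁻¹ ≤ Q := Subgroup.relIndex_eq_one.mp h3
  apply le_antisymm _ hsub
  intro x hx
  rw [mem_cj]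
  apply h8
  rw [mem_cj]
  have h2 : g⁻¹⁻¹ * (g⁻¹ * x * g) * g⁻¹ = x := by group
  rw [h2]
  exact hx

theorem sylow_in_one {G Q X : Subgroup Γ} (hQ : IsPGroup 2 Q) (hodd : Odd (Q.relIndex G))
    (hXG : X ≤ G) (hQG : Q ≤ G) (hQX : Q ≤ X) : IsSylowIn 2 Q X := by
  have h1 := sylow_in hQ hodd hXG (g := 1) G.one_mem hQG (by rw [cj_one]; exact hQX)
  rwa [cj_one] at h1

/-- The inertia group of an extension. -/
theorem setup_inertia (D : Setup G L Q P ν) (hLA : L ≤ A) (hAP : A ≤ P)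
    (An : ∀ g ∈ G, ∀ a ∈ A, g * a * g⁻¹ ∈ A) (ν₁ : A →* ℂˣ) (hr : RealH ν₁)
    (hinv : ∀ y ∈ Q, ∀ l l' : A, (l' : Γ) = y * l * y⁻¹ → ν₁ l' = ν₁ l) :
    Setup (inertia G A (lin ν₁) An) A Q P ν₁ := by
  have hAG : A ≤ G := hAP.trans D.PG
  have hD := relD hAG An ν₁
  have hQT : Q ≤ inertia G A (lin ν₁) An := by
    intro y hy
    refine ⟨D.PG (D.QP hy), fun ℓ ℓ' h => ?_⟩
    show ((ν₁ ℓ' : ℂˣ) : ℂ) = ((ν₁ ℓ : ℂˣ) : ℂ)
    rw [hinv y hy ℓ ℓ' h]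
  have hPT : P ≤ inertia G A (lin ν₁) An := by
    intro x hx
    obtain ⟨l, hl, y, hy, rfl⟩ := D.form x hx
    exact Subgroup.mul_mem _ (hD.LT (hLA hl)) (hQT hy)
  refine ⟨hAP, D.QP, hPT, ?_, fun g hg a ha => An g hg.1 a ha, D.two, ?_, hr, hinv⟩
  · intro x hx
    obtain ⟨l, hl, y, hy, rfl⟩ := D.form x hx
    exact ⟨l, hLA hl, y, hy, rfl⟩
  · have h1 := Subgroup.relIndex_mul_relIndex Q _ G hQT (fun g hg => hg.1 : inertia G A (lin ν₁) An ≤ G)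
    have h2 := D.oddI
    rw [← h1] at h2
    exact (Nat.odd_mul.mp h2).1

/-- `P` is normalized by the normalizer of `Q`. -/
theorem norm_P (D : Setup G L Q P ν) {n : Γ} (hn : n ∈ G) (hnQ : ∀ x, n * x * n⁻¹ ∈ Q ↔ x ∈ Q) :
    ∀ x, n * x * n⁻¹ ∈ P ↔ x ∈ P := by
  have hinvQ : ∀ x, n⁻¹ * x * n ∈ Q ↔ x ∈ Q := by
    intro x
    rw [← hnQ (n⁻¹ * x * n)]
    have : n * (n⁻¹ * x * n) * n⁻¹ = x := by group
    rw [this]
  have key : ∀ m ∈ G, (∀ x ∈ Q, m * x * m⁻¹ ∈ Q) → ∀ x ∈ P, m * x * m⁻¹ ∈ P := by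
    intro m hm hm' x hx
    obtain ⟨l, hl, y, hy, rfl⟩ := D.form x hx
    have h1 : m * (l * y) * m⁻¹ = (m * l * m⁻¹) * (m * y * m⁻¹) := by group
    rw [h1]
    exact P.mul_mem (D.LP (D.Ln m hm l hl)) (D.QP (hm' y hy))
  intro x
  constructor
  · intro h
    have h1 := key n⁻¹ (G.inv_mem hn) (fun y hy => by simpa using (hinvQ y).mpr hy) _ h
    have h2 : n⁻¹ * (n * x * n⁻¹) * n⁻¹⁻¹ = x := by group
    rwa [h2] at h1
  · exact key n hn (fun y hy => (hnQ y).mpr hy) x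

theorem corr_down {X T A : Subgroup Γ} {ν₁ : A →* ℂˣ} (D : RelCl X T A (lin ν₁)) (hr : RealH ν₁)
    (χ : IrrCharacter X) (hχ : RO (χ : X → ℂ)) (hov : classInner (res (D.LT.trans D.TX) (χ : X → ℂ)) (lin ν₁) ≠ 0) :
    ∃ ζ : IrrCharacter T, RO (ζ : T → ℂ) ∧ classInner (res D.LT (ζ : T → ℂ)) (lin ν₁) ≠ 0 ∧
      classInner (res D.TX (χ : X → ℂ)) (ζ : T → ℂ) ≠ 0 := by
  obtain ⟨ζ, h1, h2⟩ := relCl_B D χ hov
  refine ⟨ζ, ⟨real_down D ((realH_iff ν₁).mp hr) χ hχ.1 ζ h1 h2, ?_⟩, h1, h2⟩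
  have h3 := relCl_deg D ζ h1 χ h2
  have h4 := hχ.2
  rw [h3] at h4
  exact (Nat.odd_mul.mp h4).2

theorem corr_up {X T A : Subgroup Γ} {ν₁ : A →* ℂˣ} (D : RelCl X T A (lin ν₁))
    (hodd : Odd (T.relIndex X)) (ζ : IrrCharacter T) (hζ : RO (ζ : T → ℂ))
    (hov : classInner (res D.LT (ζ : T → ℂ)) (lin ν₁) ≠ 0) :
    ∃ χ : IrrCharacter X, RO (χ : X → ℂ) ∧ classInner (res D.TX (χ : X → ℂ)) (ζ : T → ℂ) ≠ 0 := by
  classical
  obtain ⟨χ, -, h2⟩ := relCl_A D ζ hov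
  have h3 : classInner (res D.TX (χ : X → ℂ)) (ζ : T → ℂ) ≠ 0 := by
    rw [h2 χ, if_pos rfl]
    exact one_ne_zero
  refine ⟨χ, ⟨real_up D χ ζ hζ.1 hov h3, ?_⟩, h3⟩
  rw [relCl_deg D ζ hov χ h3]
  exact Odd.mul hodd hζ.2

theorem corr_inj {X T A : Subgroup Γ} {ν₁ : A →* ℂˣ} (D : RelCl X T A (lin ν₁))
    (ζ : IrrCharacter T) (hov : classInner (res D.LT (ζ : T → ℂ)) (lin ν₁) ≠ 0)
    (χ χ' : IrrCharacter X) (h : classInner (res D.TX (χ : X → ℂ)) (ζ : T → ℂ) ≠ 0)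
    (h' : classInner (res D.TX (χ' : X → ℂ)) (ζ : T → ℂ) ≠ 0) : χ = χ' := by
  classical
  obtain ⟨χ₀, -, h2⟩ := relCl_A D ζ hov
  have h3 : χ = χ₀ := by
    by_contra hc
    rw [h2 χ, if_neg hc] at h
    exact h rfl
  have h4 : χ' = χ₀ := by
    by_contra hc
    rw [h2 χ', if_neg hc] at h'
    exact h' rfl
  rw [h3, h4]

/-- The hypothesis of invariance from an extension to `P`. -/
theorem rs_inv (D : Setup G L Q P ν) (hAP : A ≤ P) (f : P →* ℂˣ) :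
    ∀ y ∈ Q, ∀ l l' : A, (l' : Γ) = y * l * y⁻¹ → (rs hAP f) l' = (rs hAP f) l := by
  intro y hy l l' h
  have h1 : (⟨l', hAP l'.2⟩ : P) = ⟨y, D.QP hy⟩ * ⟨l, hAP l.2⟩ * ⟨y, D.QP hy⟩⁻¹ := Subtype.ext h
  show f ⟨l', hAP l'.2⟩ = f ⟨l, hAP l.2⟩
  rw [h1, map_mul, map_mul, map_inv, mul_comm (f ⟨y, D.QP hy⟩), mul_assoc, mul_inv_cancel, mul_one]

/-- **The step**: from the inertia groups of extensions to `A` to the group. -/
theorem conc_step (D : Setup G L Q P ν) (hLA : L ≤ A) (hAP : A ≤ P)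
    (An : ∀ g ∈ G, ∀ a ∈ A, g * a * g⁻¹ ∈ A)
    (hex : ∀ χ : IrrCharacter G, RO (χ : G → ℂ) → Over (D.LP.trans D.PG) (χ : G → ℂ) ν →
      ∃ ν₁ : A →* ℂˣ, rs hLA ν₁ = ν ∧ RealH ν₁ ∧
        (∀ y ∈ Q, ∀ l l' : A, (l' : Γ) = y * l * y⁻¹ → ν₁ l' = ν₁ l) ∧
        Over (hAP.trans D.PG) (χ : G → ℂ) ν₁)
    (IH : ∀ (ν₁ : A →* ℂˣ) (E : Setup (inertia G A (lin ν₁) An) A Q P ν₁), rs hLA ν₁ = ν →
      Conc (inertia G A (lin ν₁) An) A Q P ν₁ E.LP E.PG) :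
    Conc G L Q P ν D.LP D.PG := by
  classical
  have hAG : A ≤ G := hAP.trans D.PG
  -- the data attached to an extension to `P`
  have data : ∀ (χ : IrrCharacter G) (hχ : RO (χ : G → ℂ)) (f : P →* ℂˣ), rs D.LP f = ν →
      Over D.PG (χ : G → ℂ) f →
      ∃ (E : Setup (inertia G A (lin (rs hAP f)) An) A Q P (rs hAP f))
        (ζ : IrrCharacter (inertia G A (lin (rs hAP f)) An)),
        RO (ζ : ↥(inertia G A (lin (rs hAP f)) An) → ℂ) ∧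
        classInner (res (relD hAG An (rs hAP f)).LT (ζ : ↥(inertia G A (lin (rs hAP f)) An) → ℂ)) (lin (rs hAP f)) ≠ 0 ∧
        classInner (res (relD hAG An (rs hAP f)).TX (χ : G → ℂ)) (ζ : ↥(inertia G A (lin (rs hAP f)) An) → ℂ) ≠ 0 ∧
        Over E.PG (ζ : ↥(inertia G A (lin (rs hAP f)) An) → ℂ) f := by
    intro χ hχ f hf hov
    have hχc := IsIrrCharacter.isCharacter χ.2
    have h1 : Over hAG (χ : G → ℂ) (rs hAP f) := over_down hAP D.PG hχc hov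
    have h2 : RealH (rs hAP f) := lin_real_of_over hAG An χ hχ _ h1
    let E := setup_inertia D hLA hAP An (rs hAP f) h2 (rs_inv D hAP f)
    obtain ⟨ζ, h3, h4, h5⟩ := corr_down (relD hAG An (rs hAP f)) h2 χ hχ h1
    refine ⟨E, ζ, h3, h4, h5, ?_⟩
    exact (ct (relD hAG An (rs hAP f)) hAP E.PG χ ζ h4 h5 f rfl).mp hov
  refine ⟨?_, ?_, ?_, ?_, ?_⟩
  · -- existence of a linear character
    intro χ hχ hov
    obtain ⟨ν₁, h1, h2, h3, h4⟩ := hex χ hχ hov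
    let E := setup_inertia D hLA hAP An ν₁ h2 h3
    obtain ⟨ζ, h5, h6, h7⟩ := corr_down (relD hAG An ν₁) h2 χ hχ h4
    obtain ⟨f, hf1, hf2⟩ := (IH ν₁ E h1).a ζ h5 h6
    refine ⟨f, ?_, ?_⟩
    · show rs hLA (rs hAP f) = ν
      rw [show rs hAP f = ν₁ from hf1]
      exact h1
    · exact (ct (relD hAG An ν₁) hAP E.PG χ ζ h6 h7 f hf1).mpr hf2
  · -- existence of a character
    intro f hf hfr
    have h2 : RealH (rs hAP f) := realH_rs hAP hfr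
    let E := setup_inertia D hLA hAP An (rs hAP f) h2 (rs_inv D hAP f)
    have h1 : rs hLA (rs hAP f) = ν := hf
    obtain ⟨ζ, h3, h4⟩ := (IH _ E h1).b f rfl hfr
    have h5 : classInner (res (relD hAG An (rs hAP f)).LT (ζ : ↥(inertia G A (lin (rs hAP f)) An) → ℂ)) (lin (rs hAP f)) ≠ 0 :=
      over_down hAP E.PG (IsIrrCharacter.isCharacter ζ.2) h4
    have hodd : Odd ((inertia G A (lin (rs hAP f)) An).relIndex G) := by
      have h6 := Subgroup.relIndex_mul_relIndex Q _ G (E.QP.trans E.PG)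
        (fun g hg => hg.1 : inertia G A (lin (rs hAP f)) An ≤ G)
      have h7 := D.oddI
      rw [← h6] at h7
      exact (Nat.odd_mul.mp h7).2
    obtain ⟨χ, h6, h7⟩ := corr_up (relD hAG An (rs hAP f)) hodd ζ h3 h5
    exact ⟨χ, h6, (ct (relD hAG An (rs hAP f)) hAP E.PG χ ζ h5 h7 f rfl).mpr h4⟩
  · -- injectivity
    intro χ χ' hχ hχ' f hf hov hov'
    obtain ⟨E, ζ, h1, h2, h3, h4⟩ := data χ hχ f hf hov
    obtain ⟨E', ζ', h1', h2', h3', h4'⟩ := data χ' hχ' f hf hov'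
    have h5 : rs hLA (rs hAP f) = ν := hf
    have h6 : ζ = ζ' := (IH _ E h5).c ζ ζ' h1 h1' f rfl h4 h4'
    subst h6
    exact corr_inj (relD hAG An (rs hAP f)) ζ h2 χ χ' h3 h3'
  · -- the conjugacy
    intro χ hχ f f' hf hf' hov hov'
    have hχc := IsIrrCharacter.isCharacter χ.2
    have hov₁ : Over hAG (χ : G → ℂ) (rs hAP f) := over_down hAP D.PG hχc hov
    have hov₂ : Over hAG (χ : G → ℂ) (rs hAP f') := over_down hAP D.PG hχc hov'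
    obtain ⟨g, hgG, hg⟩ := amb_conj hAG An χ (lin_irr (rs hAP f')) (lin_irr (rs hAP f)) hov₂ hov₁
    have hr₂ : RealH (rs hAP f') := lin_real_of_over hAG An χ hχ _ hov₂
    let E₂ := setup_inertia D hLA hAP An (rs hAP f') hr₂ (rs_inv D hAP f')
    set I₂ := inertia G A (lin (rs hAP f')) An with hI₂
    have hI₂G : I₂ ≤ G := fun g hg => hg.1
    have hQI₂ : Q ≤ I₂ := E₂.QP.trans E₂.PG
    -- `Q^g` stabilizes the second character
    have hQg : cj Q g ≤ I₂ := by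
      intro x hx
      have hy : g⁻¹ * x * g ∈ Q := mem_cj.mp hx
      have hxG : x ∈ G := by
        have h1 : x = g * (g⁻¹ * x * g) * g⁻¹ := by group
        rw [h1]
        exact G.mul_mem (G.mul_mem hgG (D.PG (D.QP hy))) (G.inv_mem hgG)
      refine ⟨hxG, fun ℓ ℓ' h => ?_⟩
      let a : A := ⟨g⁻¹ * ℓ * g, by
        have := An g⁻¹ (G.inv_mem hgG) ℓ ℓ.2
        simpa using this⟩
      let a' : A := ⟨g⁻¹ * ℓ' * g, by
        have := An g⁻¹ (G.inv_mem hgG) ℓ' ℓ'.2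
        simpa using this⟩
      have h1 := hg a ℓ (by show (ℓ : Γ) = g * (g⁻¹ * ℓ * g) * g⁻¹; group)
      have h2 := hg a' ℓ' (by show (ℓ' : Γ) = g * (g⁻¹ * ℓ' * g) * g⁻¹; group)
      rw [h1, h2]
      have h3 := rs_inv D hAP f (g⁻¹ * x * g) hy a a' (by
        show g⁻¹ * (ℓ' : Γ) * g = g⁻¹ * x * g * (g⁻¹ * ℓ * g) * (g⁻¹ * x * g)⁻¹
        rw [h]
        group)
      show ((rs hAP f a' : ℂˣ) : ℂ) = ((rs hAP f a : ℂˣ) : ℂ)
      rw [h3]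
    have hS₁ : IsSylowIn 2 Q I₂ := sylow_in_one D.two D.oddI hI₂G (D.QP.trans D.PG) hQI₂
    have hS₂ : IsSylowIn 2 (cj Q g) I₂ := sylow_in D.two D.oddI hI₂G hgG (D.QP.trans D.PG) hQg
    haveI : Fact (Nat.Prime 2) := ⟨Nat.prime_two⟩
    obtain ⟨h, hh, hcj⟩ := hS₁.exists_conj hS₂
    -- the element of the normalizer
    set n₀ : Γ := h⁻¹ * g with hn₀
    have hn₀G : n₀ ∈ G := G.mul_mem (G.inv_mem (hI₂G hh)) hgG
    have hn₀Q : ∀ x, n₀ * x * n₀⁻¹ ∈ Q ↔ x ∈ Q := by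
      intro x
      have h1 : n₀ * x * n₀⁻¹ ∈ Q ↔ g * x * g⁻¹ ∈ cj Q h := by
        rw [mem_cj]
        have h2 : h⁻¹ * (g * x * g⁻¹) * h = n₀ * x * n₀⁻¹ := by
          rw [hn₀]
          group
        rw [h2]
      rw [h1, ← hcj, mem_cj]
      have h2 : g⁻¹ * (g * x * g⁻¹) * g = x := by group
      rw [h2]
    have hn₀P := norm_P D hn₀G hn₀Q
    -- `ν₁ ^ n₀ = ν₂`
    have hconj : ∀ a a' : A, (a' : Γ) = n₀ * a * n₀⁻¹ → rs hAP f' a' = rs hAP f a := by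
      intro a a' ha
      let a₁ : A := ⟨g * a * g⁻¹, An g hgG a a.2⟩
      have h1 := hg a a₁ rfl
      have h2 := hh.2 a' a₁ (by
        show g * (a : Γ) * g⁻¹ = h * a' * h⁻¹
        rw [ha, hn₀]
        group)
      apply Units.ext
      show lin (rs hAP f') a' = lin (rs hAP f) a
      rw [← h2, h1]
    let f₁ : P →* ℂˣ := cjh n₀ hn₀P f
    have hf₁ : Over D.PG (χ : G → ℂ) f₁ := over_cjh D.PG χ hn₀G hn₀P hov
    have hf₁r : rs E₂.LP f₁ = rs hAP f' := by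
      ext a
      let a₀ : A := ⟨n₀⁻¹ * a * n₀, by
        have := An n₀⁻¹ (G.inv_mem hn₀G) a a.2
        simpa using this⟩
      have h1 : f₁ ⟨a, hAP a.2⟩ = f ⟨a₀, hAP a₀.2⟩ := by
        apply cjh_apply
        show (a : Γ) = n₀ * (n₀⁻¹ * a * n₀) * n₀⁻¹
        group
      have h2 := hconj a₀ a (by show (a : Γ) = n₀ * (n₀⁻¹ * a * n₀) * n₀⁻¹; group)
      show ((f₁ ⟨a, hAP a.2⟩ : ℂˣ) : ℂ) = ((rs hAP f' a : ℂˣ) : ℂ)
      rw [h1, h2]
      rfl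
    obtain ⟨ζ₂, z1, z2, z3⟩ := corr_down (relD hAG An (rs hAP f')) hr₂ χ hχ hov₂
    have hz₁ : Over E₂.PG (ζ₂ : I₂ → ℂ) f₁ :=
      (ct (relD hAG An (rs hAP f')) hAP E₂.PG χ ζ₂ z2 z3 f₁ hf₁r).mp hf₁
    have hz₂ : Over E₂.PG (ζ₂ : I₂ → ℂ) f' :=
      (ct (relD hAG An (rs hAP f')) hAP E₂.PG χ ζ₂ z2 z3 f' rfl).mp hov'
    have hf'' : rs hLA (rs hAP f') = ν := hf'
    obtain ⟨m, hm, hmQ, hmν, hmC⟩ := (IH _ E₂ hf'').d ζ₂ z1 f₁ f' hf₁r rfl hz₁ hz₂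
    have hmG : m ∈ G := hI₂G hm
    refine ⟨m * n₀, G.mul_mem hmG hn₀G, ?_, ?_, ?_⟩
    · intro x
      have h1 : m * n₀ * x * (m * n₀)⁻¹ = m * (n₀ * x * n₀⁻¹) * m⁻¹ := by group
      rw [h1, hmQ, hn₀Q]
    · intro l l' hl
      let l₁ : A := ⟨n₀ * l * n₀⁻¹, An n₀ hn₀G l (hLA l.2)⟩
      have hl₁L : (l₁ : Γ) ∈ L := D.Ln n₀ hn₀G l l.2
      have h1 := hmν l₁ ⟨l', hLA l'.2⟩ (by
        show (l' : Γ) = m * (n₀ * l * n₀⁻¹) * m⁻¹
        rw [hl]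
        group)
      have h2 := hconj ⟨l, hLA l.2⟩ l₁ rfl
      have h3 : ν l' = rs hAP f' ⟨l', hLA l'.2⟩ := by
        rw [← hf'']
        rfl
      have h4 : ν l = rs hAP f ⟨l, hLA l.2⟩ := by
        rw [← hf]
        rfl
      rw [h3, h4, h1, h2]
    · intro x x' hx
      let x₁ : P := ⟨n₀ * x * n₀⁻¹, (hn₀P x).mpr x.2⟩
      have h1 := hmC x₁ x' (by
        show (x' : Γ) = m * (n₀ * x * n₀⁻¹) * m⁻¹
        rw [hx]
        group)
      have h2 : f₁ x₁ = f x := cjh_apply n₀ hn₀P f x x₁ rfl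
      rw [h1, h2]
  · -- realness
    intro χ hχ f hf hov
    obtain ⟨E, ζ, h1, h2, h3, h4⟩ := data χ hχ f hf hov
    have h5 : rs hLA (rs hAP f) = ν := hf
    exact (IH _ E h5).e ζ h1 f rfl h4

end Step

section Odd

variable {G L Q P K : Subgroup Γ} {ν : L →* ℂˣ}

/-- The product of a subgroup and a subgroup normalizing it. -/
def prodS (K Q : Subgroup Γ) (h : ∀ y ∈ Q, ∀ k ∈ K, y * k * y⁻¹ ∈ K) : Subgroup Γ where
  carrier := {x | ∃ k ∈ K, ∃ y ∈ Q, x = k * y}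
  mul_mem' := by
    rintro _ _ ⟨k, hk, y, hy, rfl⟩ ⟨k', hk', y', hy', rfl⟩
    refine ⟨k * (y * k' * y⁻¹), K.mul_mem hk (h y hy k' hk'), y * y', Q.mul_mem hy hy', ?_⟩
    group
  one_mem' := ⟨1, K.one_mem, 1, Q.one_mem, by simp⟩
  inv_mem' := by
    rintro _ ⟨k, hk, y, hy, rfl⟩
    refine ⟨y⁻¹ * k⁻¹ * y⁻¹⁻¹, h y⁻¹ (Q.inv_mem hy) _ (K.inv_mem hk), y⁻¹, Q.inv_mem hy, ?_⟩
    group

theorem norm_iff {A G : Subgroup Γ} (An : ∀ g ∈ G, ∀ a ∈ A, g * a * g⁻¹ ∈ A) {g : Γ} (hg : g ∈ G) :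
    ∀ x, g * x * g⁻¹ ∈ A ↔ x ∈ A := by
  intro x
  constructor
  · intro h
    have h1 := An g⁻¹ (G.inv_mem hg) _ h
    have h2 : g⁻¹ * (g * x * g⁻¹) * g⁻¹⁻¹ = x := by group
    rwa [h2] at h1
  · exact An g hg x

/-- A `2`-element of a subgroup with an odd index lies in the subgroup. -/
theorem two_mem_of_odd {K L Q : Subgroup Γ} (hLK : L ≤ K) (Ln : ∀ g ∈ K, ∀ a ∈ L, g * a * g⁻¹ ∈ L)
    (hodd : Odd (L.relIndex K)) (hQ : IsPGroup 2 Q) {y : Γ} (hyK : y ∈ K) (hyQ : y ∈ Q) : y ∈ L := by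
  let N : Subgroup K := L.subgroupOf K
  haveI hN : N.Normal := ⟨fun n hn g => Ln g g.2 n hn⟩
  obtain ⟨j, hj⟩ := hQ ⟨y, hyQ⟩
  have hj' : y ^ 2 ^ j = 1 := by
    have := congrArg (fun z : Q => (z : Γ)) hj
    simpa using this
  let z : K ⧸ N := ((⟨y, hyK⟩ : K) : K ⧸ N)
  have h1 : z ^ 2 ^ j = 1 := by
    show (((⟨y, hyK⟩ : K) : K ⧸ N)) ^ 2 ^ j = 1
    rw [← QuotientGroup.mk_pow]
    have h2 : (⟨y, hyK⟩ : K) ^ 2 ^ j = 1 := by
      apply Subtype.ext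
      simpa using hj'
    rw [h2]
    rfl
  have h3 : orderOf z ∣ 2 ^ j := orderOf_dvd_of_pow_eq_one h1
  have h4 : orderOf z ∣ Nat.card (K ⧸ N) := orderOf_dvd_natCard z
  have h5 : Nat.card (K ⧸ N) = L.relIndex K := rfl
  rw [h5] at h4
  obtain ⟨i, -, hi⟩ := (Nat.dvd_prime_pow Nat.prime_two).mp h3
  have h6 : orderOf z = 1 := by
    rcases i with _ | i
    · simpa using hi
    · exfalso
      rw [hi] at h4
      exact hodd.not_two_dvd_nat (dvd_trans (Dvd.intro_left _ (pow_succ 2 i).symm) h4)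
  have h7 : z = 1 := orderOf_eq_one_iff.mp h6
  have h8 : (⟨y, hyK⟩ : K) ∈ N := (QuotientGroup.eq_one_iff _).mp h7
  exact h8

/-- An irreducible character has an irreducible constituent on a subgroup. -/
theorem exists_irr_const {Y X : Subgroup Γ} (h : Y ≤ X) {ω : X → ℂ} (hω : IsIrrCharacter X ω) :
    ∃ i : IrrCharacter Y, classInner (res h ω) (i : Y → ℂ) ≠ 0 := by
  have hc := isChar_res h (IsIrrCharacter.isCharacter hω)
  by_contra hcon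
  push Not at hcon
  have h0 := eq_zero_of_orthogonal (isClassFunction_of_isCharacter hc) hcon
  have h1 := congrFun h0 1
  exact Cfsg.Agent.Lib.Clifford.irr_degree_ne_zero hω h1

/-- Every constituent over an invariant linear character is that character. -/
theorem const_eq {X L : Subgroup Γ} (hLX : L ≤ X) (Ln : ∀ g ∈ X, ∀ a ∈ L, g * a * g⁻¹ ∈ L)
    (χ : IrrCharacter X) (ν : L →* ℂˣ)
    (νinv : ∀ g ∈ X, ∀ l l' : L, (l' : Γ) = g * l * g⁻¹ → ν l' = ν l)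
    (hov : Over hLX (χ : X → ℂ) ν) {i : L → ℂ} (hi : IsIrrCharacter L i)
    (h : classInner (res hLX (χ : X → ℂ)) i ≠ 0) : i = lin ν := by
  obtain ⟨g, hg, hgc⟩ := amb_conj hLX Ln χ hi (lin_irr ν) h hov
  funext b
  let a : L := ⟨g⁻¹ * b * g, by
    have := Ln g⁻¹ (X.inv_mem hg) b b.2
    simpa using this⟩
  have h1 : (b : Γ) = g * a * g⁻¹ := by
    show (b : Γ) = g * (g⁻¹ * b * g) * g⁻¹
    group
  rw [hgc a b h1]
  show ((ν a : ℂˣ) : ℂ) = ((ν b : ℂˣ) : ℂ)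
  rw [νinv g hg a b h1]

/-- **The step at an odd section.** -/
theorem conc_odd (D : Setup G L Q P ν) (hLK : L ≤ K) (hKG : K ≤ G)
    (Kn : ∀ g ∈ G, ∀ a ∈ K, g * a * g⁻¹ ∈ K) (hodd : Odd (L.relIndex K))
    (νinv : ∀ g ∈ G, ∀ l l' : L, (l' : Γ) = g * l * g⁻¹ → ν l' = ν l)
    (IH : ∀ (P₁ : Subgroup Γ) (θ : K →* ℂˣ) (E : Setup G K Q P₁ θ), rs hLK θ = ν →
      Conc G K Q P₁ θ E.LP E.PG) : Conc G L Q P ν D.LP D.PG := by
  classical
  have LnK : ∀ g ∈ K, ∀ a ∈ L, g * a * g⁻¹ ∈ L := fun g hg a ha => D.Ln g (hKG hg) a ha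
  obtain ⟨θ, hθ, hθr⟩ := real_ext hLK LnK hodd ν D.real (fun g hg => νinv g (hKG hg))
  have hθinv : ∀ g ∈ G, ∀ k k' : K, (k' : Γ) = g * k * g⁻¹ → θ k' = θ k := by
    intro g hg k k' h
    exact real_ext_inv hLK LnK hodd ν D.real θ hθ hθr g (norm_iff Kn hg) (νinv g hg)
      (norm_iff D.Ln hg) k k' h
  let P₁ : Subgroup Γ := prodS K Q (fun y hy k hk => Kn y (D.PG (D.QP hy)) k hk)
  have hKP₁ : K ≤ P₁ := fun k hk => ⟨k, hk, 1, Q.one_mem, by simp⟩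
  have hQP₁ : Q ≤ P₁ := fun y hy => ⟨1, K.one_mem, y, hy, by simp⟩
  have hP₁G : P₁ ≤ G := by
    rintro _ ⟨k, hk, y, hy, rfl⟩
    exact G.mul_mem (hKG hk) (D.PG (D.QP hy))
  have hPP₁ : P ≤ P₁ := by
    intro x hx
    obtain ⟨l, hl, y, hy, rfl⟩ := D.form x hx
    exact ⟨l, hLK hl, y, hy, rfl⟩
  let E : Setup G K Q P₁ θ :=
    { LP := hKP₁
      QP := hQP₁
      PG := hP₁G
      form := fun x hx => hx
      Ln := Kn
      two := D.two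
      oddI := D.oddI
      real := hθr
      inv := fun y hy => hθinv y (D.PG (D.QP hy)) }
  have C := IH P₁ θ E hθ
  have hχθ : ∀ χ : IrrCharacter G, RO (χ : G → ℂ) → Over (D.LP.trans D.PG) (χ : G → ℂ) ν →
      Over hKG (χ : G → ℂ) θ := by
    intro χ hχ hov
    have hbot : IsPGroup 2 (⊥ : Subgroup Γ) := IsPGroup.of_bot
    obtain ⟨ω, h1, -, -, h4⟩ := fix_const hKG Kn (D := ⊥) bot_le hbot χ hχ.2
    have hr := h4 hχ.1
    obtain ⟨i, hi⟩ := exists_irr_const hLK ω.2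
    have h2 := trans_ne hLK hKG (IsIrrCharacter.isCharacter χ.2) ω.2 i.2 h1 hi
    have h3 : (i : L → ℂ) = lin ν := const_eq (hLK.trans hKG) D.Ln χ ν νinv hov i.2 h2
    rw [h3] at hi
    have h5 : ω = ⟨lin θ, lin_irr θ⟩ := by
      refine real_uniq hLK LnK hodd ν D.real ω ⟨lin θ, lin_irr θ⟩ hr ((realH_iff θ).mp hθr) hi ?_
      show classInner (res hLK (lin θ)) (lin ν) ≠ 0
      rw [res_lin, hθ, inner_lin_self]
      exact one_ne_zero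
    rw [h5] at h1
    exact h1
  -- the extension of a character on `P`
  have hext : ∀ f : P →* ℂˣ, rs D.LP f = ν → ∃ μ : P₁ →* ℂˣ, rs hKP₁ μ = θ ∧ rs hPP₁ μ = f := by
    intro f hf
    refine glue hKP₁ hPP₁ ?_ (fun p hp k hk => Kn p (D.PG hp) k hk) θ f
      (fun p hp => hθinv p (D.PG hp)) ?_
    · rintro _ ⟨k, hk, y, hy, rfl⟩
      exact ⟨k, hk, y, D.QP hy, rfl⟩
    · intro x h₁ h₂
      obtain ⟨l, hl, y, hy, hx⟩ := D.form x h₂
      have hyK : y ∈ K := by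
        have : y = l⁻¹ * x := by
          rw [hx]
          group
        rw [this]
        exact K.mul_mem (K.inv_mem (hLK hl)) h₁
      have hyL : y ∈ L := two_mem_of_odd hLK LnK hodd D.two hyK hy
      have hxL : x ∈ L := by
        rw [hx]
        exact L.mul_mem hl hyL
      have h3 : θ ⟨x, h₁⟩ = ν ⟨x, hxL⟩ := by
        rw [← hθ]
        rfl
      have h4 : f ⟨x, h₂⟩ = ν ⟨x, hxL⟩ := by
        rw [← hf]
        rfl
      rw [h3, h4]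
  -- lifting constituents
  have hlift : ∀ (χ : IrrCharacter G) (μ : P₁ →* ℂˣ), rs hKP₁ μ = θ → Over hKG (χ : G → ℂ) θ →
      Over (hPP₁.trans hP₁G) (χ : G → ℂ) (rs hPP₁ μ) → Over hP₁G (χ : G → ℂ) μ := by
    intro χ μ hμ hχ hov
    refine over_lift hKP₁ hPP₁ hP₁G ?_ (fun g hg a ha => Kn g (hP₁G hg) a ha) (χ : G → ℂ) μ ?_ hov
    · rintro _ ⟨k, hk, y, hy, rfl⟩
      exact ⟨k, hk, y, D.QP hy, rfl⟩
    · intro k z
      have h1 := scalar_mul hKG Kn χ θ hθinv hχ k ⟨z, hP₁G z.2⟩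
      have h2 : lin μ ⟨k, hKP₁ k.2⟩ = lin θ k := by
        rw [← hμ]
        rfl
      rw [h2]
      exact h1
  refine ⟨?_, ?_, ?_, ?_, ?_⟩
  · -- existence of `f`
    intro χ hχ hov
    have h1 := hχθ χ hχ hov
    obtain ⟨μ, hμ, hμo⟩ := C.a χ hχ h1
    refine ⟨rs hPP₁ μ, ?_, over_down hPP₁ hP₁G (IsIrrCharacter.isCharacter χ.2) hμo⟩
    show rs (D.LP.trans hPP₁) μ = ν
    have h2 : rs hLK (rs hKP₁ μ) = ν := by
      rw [show rs hKP₁ μ = θ from hμ]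
      exact hθ
    exact h2
  · -- existence of `χ`
    intro f hf hfr
    obtain ⟨μ, h1, h2⟩ := hext f hf
    have hμr : RealH μ := by
      rintro ⟨_, k, hk, y, hy, rfl⟩
      have h3 : (⟨k * y, ⟨k, hk, y, hy, rfl⟩⟩ : P₁) = ⟨k, hKP₁ hk⟩ * ⟨y, hPP₁ (D.QP hy)⟩ := rfl
      rw [h3, map_mul, mul_mul_mul_comm]
      have h4 : μ ⟨k, hKP₁ hk⟩ = θ ⟨k, hk⟩ := by
        rw [← h1]
        rfl
      have h5 : μ ⟨y, hPP₁ (D.QP hy)⟩ = f ⟨y, D.QP hy⟩ := by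
        rw [← h2]
        rfl
      rw [h4, h5, hθr, hfr, mul_one]
    obtain ⟨χ, h3, h4⟩ := C.b μ h1 hμr
    refine ⟨χ, h3, ?_⟩
    have h5 := over_down hPP₁ hP₁G (IsIrrCharacter.isCharacter χ.2) h4
    rw [h2] at h5
    exact h5
  · -- injectivity
    intro χ χ' hχ hχ' f hf hov hov'
    obtain ⟨μ, h1, h2⟩ := hext f hf
    have hχL : Over (D.LP.trans D.PG) (χ : G → ℂ) ν := by
      have := over_down D.LP D.PG (IsIrrCharacter.isCharacter χ.2) hov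
      rwa [hf] at this
    have hχL' : Over (D.LP.trans D.PG) (χ' : G → ℂ) ν := by
      have := over_down D.LP D.PG (IsIrrCharacter.isCharacter χ'.2) hov'
      rwa [hf] at this
    have h3 : Over (hPP₁.trans hP₁G) (χ : G → ℂ) (rs hPP₁ μ) := by
      rw [h2]
      exact hov
    have h4 : Over (hPP₁.trans hP₁G) (χ' : G → ℂ) (rs hPP₁ μ) := by
      rw [h2]
      exact hov'
    exact C.c χ χ' hχ hχ' μ h1 (hlift χ μ h1 (hχθ χ hχ hχL) h3) (hlift χ' μ h1 (hχθ χ' hχ' hχL') h4)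
  · -- conjugacy
    intro χ hχ f f' hf hf' hov hov'
    obtain ⟨μ, h1, h2⟩ := hext f hf
    obtain ⟨μ', h1', h2'⟩ := hext f' hf'
    have hχL : Over (D.LP.trans D.PG) (χ : G → ℂ) ν := by
      have := over_down D.LP D.PG (IsIrrCharacter.isCharacter χ.2) hov
      rwa [hf] at this
    have h3 : Over (hPP₁.trans hP₁G) (χ : G → ℂ) (rs hPP₁ μ) := by
      rw [h2]
      exact hov
    have h4 : Over (hPP₁.trans hP₁G) (χ : G → ℂ) (rs hPP₁ μ') := by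
      rw [h2']
      exact hov'
    obtain ⟨n, hn, hnQ, -, hnC⟩ := C.d χ hχ μ μ' h1 h1' (hlift χ μ h1 (hχθ χ hχ hχL) h3)
      (hlift χ μ' h1' (hχθ χ hχ hχL) h4)
    refine ⟨n, hn, hnQ, νinv n hn, ?_⟩
    intro x x' hx
    have h5 := hnC ⟨x, hPP₁ x.2⟩ ⟨x', hPP₁ x'.2⟩ hx
    have h6 : μ ⟨x, hPP₁ x.2⟩ = f x := by
      rw [← h2]
      rfl
    have h7 : μ' ⟨x', hPP₁ x'.2⟩ = f' x' := by
      rw [← h2']
      rfl
    rw [← h6, ← h7, h5]
  · -- realness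
    intro χ hχ f hf hov
    obtain ⟨μ, h1, h2⟩ := hext f hf
    have hχL : Over (D.LP.trans D.PG) (χ : G → ℂ) ν := by
      have := over_down D.LP D.PG (IsIrrCharacter.isCharacter χ.2) hov
      rwa [hf] at this
    have h3 : Over (hPP₁.trans hP₁G) (χ : G → ℂ) (rs hPP₁ μ) := by
      rw [h2]
      exact hov
    have h4 := C.e χ hχ μ h1 (hlift χ μ h1 (hχθ χ hχ hχL) h3)
    rw [← h2]
    exact realH_rs hPP₁ h4

end Odd

end Cfsg.Agent.Lib.SolRo
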