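import Mathlib
import Cfsg.Agent.Lib.FusionCenterGen
import Cfsg.Agent.Lib.PuigBasic

set_option autoImplicit false

/-!
# The `2`-fusion system of a group containing `L ≀ 2`, with `L` like `SL₂(q)`, `q` odd

Abstract data: a group `L` with elements `J, j` generating a quaternion group of order `8`, and a group `Gt`
containing `(L × L) ⋊ ⟨τ⟩` such that the centralizer of `(-1, 1)` is `L × L`.
-/

namespace Cfsg.Agent.Lib.Sp4Frame

open Cfsg.Agent.Lib.FusionNormCent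

/-- The data on `L`. -/
structure QData (L : Type*) [Group L] where
  J : L
  j : L
  m1 : L
  hJJ : J * J = m1
  hjj : j * j = m1
  hm1 : ∀ x, m1 * x = x * m1
  hm1ne : m1 ≠ 1
  hT : ∀ x y, x * J = J * x → y * J = J * y → x * y = y * x
  hinv : ∀ x, x * J = J * x → j * x * j⁻¹ = x⁻¹
  hsq1 : ∀ x, x * J = J * x → x * x = 1 → x = 1 ∨ x = m1
  hsqm : ∀ x, x * J = J * x → x * x = m1 → x = J ∨ x = J⁻¹
  hconjJ : ∀ x : L, x * x = m1 → ∃ h, h * J * h⁻¹ = x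

namespace QData

variable {L : Type*} [Group L] (D : QData L)

theorem m1_sq : D.m1 * D.m1 = 1 := by
  have h1 := D.hinv D.m1 (D.hm1 _)
  have h2 : D.j * D.m1 * D.j⁻¹ = D.m1 := by
    rw [← D.hm1 D.j, mul_assoc, mul_inv_cancel, mul_one]
  rw [h2] at h1
  nth_rewrite 1 [h1]
  simp

theorem m1_inv : D.m1⁻¹ = D.m1 := inv_eq_of_mul_eq_one_left D.m1_sq

theorem J_inv : D.J⁻¹ = D.m1 * D.J := by
  apply inv_eq_of_mul_eq_one_right
  rw [D.hm1 D.J, ← mul_assoc, D.hJJ, D.m1_sq]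

theorem j_inv : D.j⁻¹ = D.m1 * D.j := by
  apply inv_eq_of_mul_eq_one_right
  rw [D.hm1 D.j, ← mul_assoc, D.hjj, D.m1_sq]

theorem J_ne_m1 : D.J ≠ D.m1 := by
  intro h
  have h1 := D.hJJ
  rw [h, D.m1_sq] at h1
  exact D.hm1ne h1.symm

theorem J_ne_one : D.J ≠ 1 := by
  intro h
  apply D.hm1ne
  rw [← D.hJJ, h, one_mul]

theorem j_not_comm : D.j * D.J ≠ D.J * D.j := by
  intro h
  have h1 : D.j * D.J * D.j⁻¹ = D.J⁻¹ := D.hinv D.J rfl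
  rw [h, mul_assoc, mul_inv_cancel, mul_one] at h1
  -- `J = J⁻¹`
  have h2 : D.J * D.J = 1 := by
    nth_rewrite 1 [h1]
    simp
  rw [D.hJJ] at h2
  exact D.hm1ne h2

/-- The `2`-elements commuting with `J`. -/
def Q1 : Subgroup L where
  carrier := {x | x * D.J = D.J * x ∧ ∃ k : ℕ, x ^ 2 ^ k = 1}
  mul_mem' := by
    rintro x y ⟨hx, k, hk⟩ ⟨hy, l, hl⟩
    refine ⟨?_, k + l, ?_⟩
    · rw [mul_assoc, hy, ← mul_assoc, hx, mul_assoc]
    · have hc : Commute x y := D.hT _ _ hx hy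
      rw [hc.mul_pow, pow_add, pow_mul, hk, one_pow, one_mul, mul_comm (2 ^ k), pow_mul, hl, one_pow]
  one_mem' := ⟨by simp, 0, by simp⟩
  inv_mem' := by
    rintro x ⟨hx, k, hk⟩
    refine ⟨?_, k, ?_⟩
    · have h1 : x⁻¹ * D.J * x = D.J := by rw [mul_assoc, ← hx]; group
      calc x⁻¹ * D.J = x⁻¹ * D.J * x * x⁻¹ := by group
        _ = D.J * x⁻¹ := by rw [h1]
    · rw [inv_pow, hk, inv_one]

theorem mem_Q1 {x : L} : x ∈ D.Q1 ↔ x * D.J = D.J * x ∧ ∃ k : ℕ, x ^ 2 ^ k = 1 := Iff.rfl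

theorem J_mem : D.J ∈ D.Q1 := by
  refine ⟨rfl, 2, ?_⟩
  have : D.J ^ 2 ^ 2 = (D.J * D.J) * (D.J * D.J) := by
    simp [pow_succ, mul_assoc]
  rw [this, D.hJJ, D.m1_sq]

theorem m1_mem : D.m1 ∈ D.Q1 := by
  rw [← D.hJJ]
  exact D.Q1.mul_mem D.J_mem D.J_mem

theorem j_conj {y : L} (hy : y * D.J = D.J * y) : D.j * y = y⁻¹ * D.j := by
  rw [← D.hinv y hy]
  group

theorem j_inv_conj {y : L} (hy : y * D.J = D.J * y) : D.j⁻¹ * y = y⁻¹ * D.j⁻¹ := by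
  rw [D.j_inv, mul_assoc, D.j_conj hy, ← mul_assoc, D.hm1, mul_assoc]

/-- The subgroup `Q`. -/
def Q : Subgroup L where
  carrier := {x | x ∈ D.Q1 ∨ x * D.j⁻¹ ∈ D.Q1}
  mul_mem' := by
    rintro x y (hx | hx) (hy | hy)
    · exact Or.inl (D.Q1.mul_mem hx hy)
    · refine Or.inr ?_
      rw [mul_assoc]
      exact D.Q1.mul_mem hx hy
    · refine Or.inr ?_
      have h1 : x * y * D.j⁻¹ = (x * D.j⁻¹) * y⁻¹ := by
        have h2 := D.j_conj hy.1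
        calc x * y * D.j⁻¹ = (x * D.j⁻¹) * (D.j * y) * D.j⁻¹ := by group
          _ = (x * D.j⁻¹) * (y⁻¹ * D.j) * D.j⁻¹ := by rw [h2]
          _ = _ := by group
      rw [h1]
      exact D.Q1.mul_mem hx (D.Q1.inv_mem hy)
    · refine Or.inl ?_
      have h1 : x * y = (x * D.j⁻¹) * (y * D.j⁻¹)⁻¹ * D.m1 := by
        have h2 := D.j_conj hy.1
        have h3 : D.j * (y * D.j⁻¹) = (y * D.j⁻¹)⁻¹ * D.j := h2
        calc x * y = (x * D.j⁻¹) * (D.j * (y * D.j⁻¹)) * D.j := by group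
          _ = (x * D.j⁻¹) * ((y * D.j⁻¹)⁻¹ * D.j) * D.j := by rw [h3]
          _ = (x * D.j⁻¹) * (y * D.j⁻¹)⁻¹ * (D.j * D.j) := by group
          _ = _ := by rw [D.hjj]
      rw [h1]
      exact D.Q1.mul_mem (D.Q1.mul_mem hx (D.Q1.inv_mem hy)) D.m1_mem
  one_mem' := Or.inl D.Q1.one_mem
  inv_mem' := by
    rintro x (hx | hx)
    · exact Or.inl (D.Q1.inv_mem hx)
    · refine Or.inr ?_
      have h2 := D.j_inv_conj hx.1
      have h1 : x⁻¹ * D.j⁻¹ = (x * D.j⁻¹) * D.m1 := by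
        have h3 : D.j⁻¹ * (x * D.j⁻¹)⁻¹ = (x * D.j⁻¹)⁻¹⁻¹ * D.j⁻¹ := D.j_inv_conj (D.Q1.inv_mem hx).1
        have h4 : x⁻¹ = D.j⁻¹ * (x * D.j⁻¹)⁻¹ := by group
        have h5 : D.j⁻¹ * D.j⁻¹ = D.m1 := by
          rw [← mul_inv_rev, D.hjj, D.m1_inv]
        rw [h4, h3, inv_inv, mul_assoc, h5]
      rw [h1]
      exact D.Q1.mul_mem hx D.m1_mem

theorem mem_Q {x : L} : x ∈ D.Q ↔ x ∈ D.Q1 ∨ x * D.j⁻¹ ∈ D.Q1 := Iff.rfl

theorem Q1_le_Q : D.Q1 ≤ D.Q := fun _ h => Or.inl h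

theorem j_mem : D.j ∈ D.Q := Or.inr (by rw [mul_inv_cancel]; exact D.Q1.one_mem)

theorem J_memQ : D.J ∈ D.Q := D.Q1_le_Q D.J_mem

theorem m1_memQ : D.m1 ∈ D.Q := D.Q1_le_Q D.m1_mem

theorem sq_of_not {x : L} (hx : x * D.j⁻¹ ∈ D.Q1) : x * x = D.m1 := by
  have h2 : D.j * (x * D.j⁻¹) = (x * D.j⁻¹)⁻¹ * D.j := D.j_conj hx.1
  calc x * x = (x * D.j⁻¹) * (D.j * (x * D.j⁻¹)) * D.j := by group
    _ = (x * D.j⁻¹) * ((x * D.j⁻¹)⁻¹ * D.j) * D.j := by rw [h2]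
    _ = D.j * D.j := by group
    _ = _ := D.hjj

theorem mem_Q1_of_Q {x : L} (hx : x ∈ D.Q) (hc : x * D.J = D.J * x) : x ∈ D.Q1 := by
  rcases hx with hx | hx
  · exact hx
  · exfalso
    apply D.j_not_comm
    have h1 : x * D.j⁻¹ * D.J = D.J * (x * D.j⁻¹) := hx.1
    -- `j⁻¹` commutes with `J`
    have h2 : x * (D.j⁻¹ * D.J) = x * (D.J * D.j⁻¹) := by
      calc x * (D.j⁻¹ * D.J) = x * D.j⁻¹ * D.J := by group
        _ = D.J * (x * D.j⁻¹) := h1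
        _ = (D.J * x) * D.j⁻¹ := by group
        _ = (x * D.J) * D.j⁻¹ := by rw [hc]
        _ = _ := by group
    have h3 := mul_left_cancel h2
    calc D.j * D.J = D.j * D.J * (D.j⁻¹ * D.j) := by group
      _ = D.j * (D.J * D.j⁻¹) * D.j := by group
      _ = D.j * (D.j⁻¹ * D.J) * D.j := by rw [h3]
      _ = _ := by group

theorem Q_pow {x : L} (hx : x ∈ D.Q) : ∃ k : ℕ, x ^ 2 ^ k = 1 := by
  rcases hx with hx | hx
  · exact hx.2
  · refine ⟨2, ?_⟩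
    have : x ^ 2 ^ 2 = (x * x) * (x * x) := by
      simp [pow_succ, mul_assoc]
    rw [this, D.sq_of_not hx, D.m1_sq]

theorem exists_prod {c : L} (hc : c ∈ D.Q) :
    ∃ a ∈ D.Q, ∃ b ∈ D.Q, a * a = D.m1 ∧ b * b = D.m1 ∧ c = a * b⁻¹ := by
  rcases hc with hc | hc
  · have hb : (D.j * c) * D.j⁻¹ ∈ D.Q1 := by
      rw [D.hinv c hc.1]
      exact D.Q1.inv_mem hc
    refine ⟨D.j, D.j_mem, D.j * c, Or.inr hb, D.hjj, D.sq_of_not hb, ?_⟩
    have h5 := D.hinv c hc.1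
    have h6 : D.j * (D.j * c)⁻¹ = (D.j * c * D.j⁻¹)⁻¹ := by group
    rw [h6, h5, inv_inv]
  · have ha : (c * D.J) * D.j⁻¹ ∈ D.Q1 := by
      have h1 : (c * D.J) * D.j⁻¹ = (c * D.j⁻¹) * (D.j * D.J * D.j⁻¹) := by group
      rw [h1, D.hinv D.J rfl]
      exact D.Q1.mul_mem hc (D.Q1.inv_mem D.J_mem)
    refine ⟨c * D.J, Or.inr ha, D.J, D.J_memQ, D.sq_of_not ha, D.hJJ, ?_⟩
    group

theorem comm_J_j {c : L} (h1 : c * D.J = D.J * c) (h2 : c * D.j = D.j * c) : c = 1 ∨ c = D.m1 := by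
  apply D.hsq1 c h1
  have h3 := D.hinv c h1
  have h4 : D.j * c * D.j⁻¹ = c := by
    rw [← h2]; group
  rw [h4] at h3
  nth_rewrite 1 [h3]
  simp

theorem T_inv {x : L} (hx : x * D.J = D.J * x) : x⁻¹ * D.J = D.J * x⁻¹ := by
  have h1 : x⁻¹ * D.J * x = D.J := by rw [mul_assoc, ← hx]; group
  calc x⁻¹ * D.J = x⁻¹ * D.J * x * x⁻¹ := by group
    _ = D.J * x⁻¹ := by rw [h1]

/-- Elements commuting with `J` and normalizing `Q` lie in `Q1`. -/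
theorem norm_T {w : L} (hw : w * D.J = D.J * w) (hn : ∀ s ∈ D.Q, w * s * w⁻¹ ∈ D.Q) : w ∈ D.Q1 := by
  have h1 : w * D.j * w⁻¹ * D.j⁻¹ ∈ D.Q := D.Q.mul_mem (hn _ D.j_mem) (D.Q.inv_mem D.j_mem)
  have h2 : D.j * w⁻¹ = w * D.j := by
    have := D.j_conj (D.T_inv hw)
    rwa [inv_inv] at this
  have h3 : w * D.j * w⁻¹ * D.j⁻¹ = w * w := by
    calc w * D.j * w⁻¹ * D.j⁻¹ = w * (D.j * w⁻¹) * D.j⁻¹ := by group
      _ = w * (w * D.j) * D.j⁻¹ := by rw [h2]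
      _ = _ := by group
  rw [h3] at h1
  have h4 : (w * w) * D.J = D.J * (w * w) := by
    rw [mul_assoc, hw, ← mul_assoc, hw, mul_assoc]
  obtain ⟨-, k, hk⟩ := D.mem_Q1_of_Q h1 h4
  refine ⟨hw, k + 1, ?_⟩
  rw [pow_succ', pow_mul, pow_two]
  exact hk

/-- Normalizing elements moving `J` to `J^{±1}` lie in `Q`. -/
theorem norm_J {w : L} (h : w * D.J * w⁻¹ = D.J ∨ w * D.J * w⁻¹ = D.J⁻¹) (hn : ∀ s ∈ D.Q, w * s * w⁻¹ ∈ D.Q) :
    w ∈ D.Q := by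
  rcases h with h | h
  · apply D.Q1_le_Q
    apply D.norm_T _ hn
    have h0 : w * D.J = (w * D.J * w⁻¹) * w := by group
    rw [h0, h]
  · have h1 : D.j * w ∈ D.Q1 := by
      apply D.norm_T
      · have h0 : (D.j * w) * D.J = D.j * (w * D.J * w⁻¹) * w := by group
        rw [h0, h]
        have h2 := D.hinv D.J⁻¹ (D.T_inv rfl)
        rw [inv_inv] at h2
        have h3 : D.j * D.J⁻¹ = D.J * D.j := by
          have h4 : D.j * D.J⁻¹ = (D.j * D.J⁻¹ * D.j⁻¹) * D.j := by group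
          rw [h4, h2]
        rw [h3]
        group
      · intro s hs
        have h2 : (D.j * w) * s * (D.j * w)⁻¹ = D.j * (w * s * w⁻¹) * D.j⁻¹ := by group
        rw [h2]
        exact D.Q.mul_mem (D.Q.mul_mem D.j_mem (hn s hs)) (D.Q.inv_mem D.j_mem)
    have h2 : w = D.j⁻¹ * (D.j * w) := by group
    rw [h2]
    exact D.Q.mul_mem (D.Q.inv_mem D.j_mem) (D.Q1_le_Q h1)

theorem sq_conj (w x : L) : (w * x * w⁻¹) * (w * x * w⁻¹) = w * (x * x) * w⁻¹ := by group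

/-- Case I: `J` is a square in `Q1`, then `Q` is self-normalizing. -/
theorem norm_c {c₀ : L} (hc₀ : c₀ ∈ D.Q1) (hc₀2 : c₀ * c₀ = D.J) {w : L} (hn : ∀ s ∈ D.Q, w * s * w⁻¹ ∈ D.Q) :
    w ∈ D.Q := by
  have hm : w * D.m1 * w⁻¹ = D.m1 := by
    rw [← D.hm1 w, mul_assoc, mul_inv_cancel, mul_one]
  have hc₁ : w * c₀ * w⁻¹ ∈ D.Q1 := by
    rcases hn c₀ (D.Q1_le_Q hc₀) with h | h
    · exact h
    · exfalso
      have h1 := D.sq_of_not h
      rw [sq_conj, hc₀2] at h1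
      have h2 : D.J = w⁻¹ * (w * D.J * w⁻¹) * w := by group
      rw [h1, ← D.hm1 w⁻¹] at h2
      apply D.J_ne_m1
      rw [h2]
      group
  apply D.norm_J _ hn
  have h1 : (w * D.J * w⁻¹) * D.J = D.J * (w * D.J * w⁻¹) := by
    have h2 : w * D.J * w⁻¹ = (w * c₀ * w⁻¹) * (w * c₀ * w⁻¹) := by
      rw [sq_conj, hc₀2]
    rw [h2, mul_assoc, hc₁.1, ← mul_assoc, hc₁.1, mul_assoc]
  apply D.hsqm _ h1
  rw [sq_conj, D.hJJ, hm]

section caseII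

variable (hQ1 : ∀ x ∈ D.Q1, x = 1 ∨ x = D.m1 ∨ x = D.J ∨ x = D.J⁻¹) {w : L} (hw3 : w * w * w = 1)
  (hwJ : w * D.J * w⁻¹ = D.j⁻¹) (hwj : w * D.j * w⁻¹ = (D.J * D.j)⁻¹)

include hwJ hwj in
theorem conj_prod_J : w * (D.J * D.j) * w⁻¹ = D.J := by
  have h1 : w * (D.J * D.j) * w⁻¹ = (w * D.J * w⁻¹) * (w * D.j * w⁻¹) := by group
  rw [h1, hwJ, hwj]
  have h2 : D.j⁻¹ * (D.J * D.j)⁻¹ = (D.j * D.j)⁻¹ * D.J⁻¹ := by
    rw [mul_inv_rev (D.J) (D.j), mul_inv_rev (D.j) (D.j)]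
    group
  rw [h2, D.hjj, D.m1_inv, D.J_inv, ← mul_assoc, D.m1_sq, one_mul]

include hQ1 hwJ hwj in
theorem w_norm : ∀ s ∈ D.Q, w * s * w⁻¹ ∈ D.Q := by
  have hm : w * D.m1 * w⁻¹ = D.m1 := by
    rw [← D.hm1 w, mul_assoc, mul_inv_cancel, mul_one]
  have hJj : D.J * D.j ∈ D.Q := D.Q.mul_mem D.J_memQ D.j_mem
  have h1 : ∀ y ∈ D.Q1, w * y * w⁻¹ ∈ D.Q := by
    intro y hy
    rcases hQ1 y hy with rfl | rfl | rfl | rfl
    · simpa using D.Q.one_mem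
    · rw [hm]; exact D.m1_memQ
    · rw [hwJ]; exact D.Q.inv_mem D.j_mem
    · have h2 : w * D.J⁻¹ * w⁻¹ = (w * D.J * w⁻¹)⁻¹ := by group
      rw [h2, hwJ, inv_inv]
      exact D.j_mem
  intro s hs
  rcases hs with hs | hs
  · exact h1 s hs
  · have h2 : w * s * w⁻¹ = (w * (s * D.j⁻¹) * w⁻¹) * (w * D.j * w⁻¹) := by group
    rw [h2, hwj]
    exact D.Q.mul_mem (h1 _ hs) (D.Q.inv_mem hJj)

include hw3 in
theorem w_inv : w⁻¹ = w * w := by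
  apply inv_eq_of_mul_eq_one_right
  rw [← mul_assoc]
  exact hw3

include hQ1 hw3 hwJ hwj in
theorem w_inv_norm : ∀ s ∈ D.Q, w⁻¹ * s * w ∈ D.Q := by
  intro s hs
  have h1 := D.w_norm hQ1 hwJ hwj _ (D.w_norm hQ1 hwJ hwj s hs)
  have h2 : w * (w * s * w⁻¹) * w⁻¹ = w⁻¹ * s * w := by
    have h3 := w_inv hw3
    have h4 : w⁻¹⁻¹ = w := inv_inv w
    calc w * (w * s * w⁻¹) * w⁻¹ = (w * w) * s * (w * w)⁻¹ := by group
      _ = w⁻¹ * s * w⁻¹⁻¹ := by rw [h3]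
      _ = _ := by rw [h4]
  rwa [h2] at h1

include hQ1 hw3 hwJ hwj in
/-- The normalizer in case II. -/
theorem norm_caseII {a : L} (hn : ∀ s ∈ D.Q, a * s * a⁻¹ ∈ D.Q) : a ∈ D.Q ∨ w⁻¹ * a ∈ D.Q ∨ w * a ∈ D.Q := by
  have hm : a * D.m1 * a⁻¹ = D.m1 := by
    rw [← D.hm1 a, mul_assoc, mul_inv_cancel, mul_one]
  have hA : (a * D.J * a⁻¹) * (a * D.J * a⁻¹) = D.m1 := by
    rw [sq_conj, D.hJJ, hm]
  have hwi : ∀ s ∈ D.Q, (w⁻¹ * a) * s * (w⁻¹ * a)⁻¹ ∈ D.Q := by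
    intro s hs
    have h2 : (w⁻¹ * a) * s * (w⁻¹ * a)⁻¹ = w⁻¹ * (a * s * a⁻¹) * w := by group
    rw [h2]
    exact D.w_inv_norm hQ1 hw3 hwJ hwj _ (hn s hs)
  have hwn : ∀ s ∈ D.Q, (w * a) * s * (w * a)⁻¹ ∈ D.Q := by
    intro s hs
    have h2 : (w * a) * s * (w * a)⁻¹ = w * (a * s * a⁻¹) * w⁻¹ := by group
    rw [h2]
    exact D.w_norm hQ1 hwJ hwj _ (hn s hs)
  have h1J : w⁻¹ * D.j⁻¹ * w = D.J := by
    rw [← hwJ]; group
  have h1j : w⁻¹ * D.j * w = D.J⁻¹ := by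
    have : w⁻¹ * D.j * w = (w⁻¹ * D.j⁻¹ * w)⁻¹ := by group
    rw [this, h1J]
  have hL := D.conj_prod_J hwJ hwj
  rcases hn D.J D.J_memQ with h | h
  · left
    rcases hQ1 _ h with h1 | h1 | h1 | h1
    · exfalso
      rw [h1, one_mul] at hA
      exact D.hm1ne hA.symm
    · exfalso
      rw [h1, D.m1_sq] at hA
      exact D.hm1ne hA.symm
    · exact D.norm_J (Or.inl h1) hn
    · exact D.norm_J (Or.inr h1) hn
  · rcases hQ1 _ h with h1 | h1 | h1 | h1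
    · -- `A = j`
      right; left
      have hAe : a * D.J * a⁻¹ = D.j := by
        have : a * D.J * a⁻¹ = (a * D.J * a⁻¹ * D.j⁻¹) * D.j := by group
        rw [this, h1, one_mul]
      apply D.norm_J _ hwi
      right
      have h2 : (w⁻¹ * a) * D.J * (w⁻¹ * a)⁻¹ = w⁻¹ * (a * D.J * a⁻¹) * w := by group
      rw [h2, hAe, h1j]
    · -- `A = j⁻¹`
      right; left
      have hAe : a * D.J * a⁻¹ = D.j⁻¹ := by
        have : a * D.J * a⁻¹ = (a * D.J * a⁻¹ * D.j⁻¹) * D.j := by group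
        rw [this, h1, D.j_inv]
      apply D.norm_J _ hwi
      left
      have h2 : (w⁻¹ * a) * D.J * (w⁻¹ * a)⁻¹ = w⁻¹ * (a * D.J * a⁻¹) * w := by group
      rw [h2, hAe, h1J]
    · -- `A = J j`
      right; right
      have hAe : a * D.J * a⁻¹ = D.J * D.j := by
        have : a * D.J * a⁻¹ = (a * D.J * a⁻¹ * D.j⁻¹) * D.j := by group
        rw [this, h1]
      apply D.norm_J _ hwn
      left
      have h2 : (w * a) * D.J * (w * a)⁻¹ = w * (a * D.J * a⁻¹) * w⁻¹ := by group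
      rw [h2, hAe, hL]
    · -- `A = J⁻¹ j`
      right; right
      have hAe : a * D.J * a⁻¹ = D.J⁻¹ * D.j := by
        have : a * D.J * a⁻¹ = (a * D.J * a⁻¹ * D.j⁻¹) * D.j := by group
        rw [this, h1]
      apply D.norm_J _ hwn
      right
      have h2 : (w * a) * D.J * (w * a)⁻¹ = w * (a * D.J * a⁻¹) * w⁻¹ := by group
      have h3 : w * (D.J⁻¹ * D.j) * w⁻¹ = (w * D.J * w⁻¹)⁻¹ * (w * D.j * w⁻¹) := by group
      rw [h2, hAe, h3, hwJ, hwj, inv_inv, mul_inv_rev]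
      group

include hQ1 hw3 hwJ hwj in
/-- The power statement in case II. -/
theorem pow_caseII {a : L} (hn : ∀ s ∈ D.Q, a * s * a⁻¹ ∈ D.Q) {k : ℕ} (hk : a ^ 2 ^ k ∈ D.Q) : a ∈ D.Q := by
  have hpowmem : ∀ v : L, (∀ s ∈ D.Q, v * s * v⁻¹ ∈ D.Q) → (∀ s ∈ D.Q, v⁻¹ * s * v ∈ D.Q) → ∀ s ∈ D.Q, ∀ n : ℕ,
      ∃ t ∈ D.Q, (v * s) ^ n = v ^ n * t := by
    intro v hv hvi s hs n
    induction n with
    | zero => exact ⟨1, D.Q.one_mem, by simp⟩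
    | succ n ih =>
      obtain ⟨t, ht, hte⟩ := ih
      refine ⟨(v⁻¹ * t * v) * s, D.Q.mul_mem (hvi t ht) hs, ?_⟩
      rw [pow_succ, hte, pow_succ]
      group
  have hfalse : w ^ 2 ^ k ∈ D.Q → False := by
    intro hw
    have hw1 : w ∈ D.Q := by
      have h3 : 2 ^ k % 3 = 1 ∨ 2 ^ k % 3 = 2 := by
        have h4 : ¬ 3 ∣ 2 ^ k := by
          intro h
          have := (Nat.prime_three.dvd_of_dvd_pow h)
          omega
        omega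
      have hw3' : w ^ 3 = 1 := by
        rw [pow_succ, pow_two]; exact hw3
      have hred : w ^ 2 ^ k = w ^ (2 ^ k % 3) := by
        conv_lhs => rw [← Nat.div_add_mod (2 ^ k) 3, pow_add, pow_mul, hw3', one_pow, one_mul]
      rw [hred] at hw
      rcases h3 with h3 | h3
      · rwa [h3, pow_one] at hw
      · rw [h3] at hw
        have h5 : w = w ^ 2 * w ^ 2 := by
          rw [← pow_add]
          have : w ^ (2 + 2) = w ^ 3 * w := by rw [← pow_succ]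
          rw [this, hw3', one_mul]
        rw [h5]
        exact D.Q.mul_mem hw hw
    -- `w` has `2`-power order and order dividing `3`
    obtain ⟨l, hl⟩ := D.Q_pow hw1
    have hw3' : w ^ 3 = 1 := by
      rw [pow_succ, pow_two]; exact hw3
    have h6 : Nat.Coprime 3 (2 ^ l) := by
      apply Nat.Coprime.pow_right
      norm_num
    have hw0 : w = 1 := by
      have := (pow_gcd_eq_one (a := w)).mpr ⟨hw3', hl⟩
      rwa [Nat.Coprime.gcd_eq_one h6, pow_one] at this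
    subst hw0
    apply D.j_not_comm
    have h7 : D.J = D.j⁻¹ := by simpa using hwJ
    rw [h7]
    group
  rcases D.norm_caseII hQ1 hw3 hwJ hwj hn with h | h | h
  · exact h
  · exfalso
    have hae : a = w * (w⁻¹ * a) := by group
    rw [hae] at hk
    obtain ⟨t, ht, hte⟩ := hpowmem w (D.w_norm hQ1 hwJ hwj) (D.w_inv_norm hQ1 hw3 hwJ hwj) _ h (2 ^ k)
    rw [hte] at hk
    apply hfalse
    have : w ^ 2 ^ k = (w ^ 2 ^ k * t) * t⁻¹ := by group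
    rw [this]
    exact D.Q.mul_mem hk (D.Q.inv_mem ht)
  · exfalso
    have hae : a = w⁻¹ * (w * a) := by group
    rw [hae] at hk
    obtain ⟨t, ht, hte⟩ := hpowmem w⁻¹ (by simpa using D.w_inv_norm hQ1 hw3 hwJ hwj)
      (by simpa using D.w_norm hQ1 hwJ hwj) _ h (2 ^ k)
    rw [hte] at hk
    apply hfalse
    have : w ^ 2 ^ k = ((w⁻¹ ^ 2 ^ k * t) * t⁻¹)⁻¹ := by
      rw [mul_inv_cancel_right, inv_pow, inv_inv]
    rw [this]
    exact D.Q.inv_mem (D.Q.mul_mem hk (D.Q.inv_mem ht))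

end caseII

end QData

end Cfsg.Agent.Lib.Sp4Frame
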