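import Mathlib
import Cfsg.Agent.Lib.Sp4Frame

set_option autoImplicit false

/-!
# The `2`-fusion system of a group containing `L ≀ 2`: the group level
-/

namespace Cfsg.Agent.Lib.Sp4Frame

open Cfsg.Agent.Lib.FusionNormCent Cfsg.Agent.Lib.FusionCenterGen

/-- Elements of a normal subgroup which are central modulo `Z(G)`. -/
theorem exists_central_mod {G : Type*} [Group G] [Finite G] (P R : Subgroup G) (hP : IsPGroup 2 P)
    (hZR : Subgroup.center G ≤ R) (hRP : R ≤ P) (hRn : ∀ r ∈ R, ∀ s ∈ P, s * r * s⁻¹ ∈ R) (hne : R ≠ Subgroup.center G) :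
    ∃ x ∈ R, x ∉ Subgroup.center G ∧ ∀ s ∈ P, x * s * x⁻¹ * s⁻¹ ∈ Subgroup.center G := by
  classical
  let π : G →* G ⧸ Subgroup.center G := QuotientGroup.mk' _
  have hker1 : ∀ x : G, π x = 1 ↔ x ∈ Subgroup.center G := fun x => QuotientGroup.eq_one_iff x
  have hPb : IsPGroup 2 (P.map π) := hP.map π
  have hnorm : ((R.map π).subgroupOf (P.map π)).Normal := by
    refine ⟨?_⟩
    rintro ⟨_, r, hr, rfl⟩ hr' ⟨_, s, hs, rfl⟩
    rw [Subgroup.mem_subgroupOf] at hr' ⊢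
    obtain ⟨r', hr'', he⟩ := hr'
    have he' : π r' = π r := he
    show π s * π r * (π s)⁻¹ ∈ R.map π
    rw [← he', ← map_inv, ← map_mul, ← map_mul]
    exact ⟨_, hRn r' hr'' s hs, rfl⟩
  have hne' : (R.map π).subgroupOf (P.map π) ≠ ⊥ := by
    intro hb
    apply hne
    apply le_antisymm _ hZR
    intro x hx
    have h1 : (⟨π x, x, hRP hx, rfl⟩ : P.map π) ∈ (R.map π).subgroupOf (P.map π) := by
      rw [Subgroup.mem_subgroupOf]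
      exact ⟨x, hx, rfl⟩
    rw [hb, Subgroup.mem_bot] at h1
    exact (hker1 x).mp (congrArg Subtype.val h1)
  obtain ⟨⟨_, y, hy, rfl⟩, hzR, hz1, hzc⟩ :=
    Cfsg.Agent.Lib.PuigBasic.exists_mem_center_of_normal hPb ((R.map π).subgroupOf (P.map π)) hne'
  rw [Subgroup.mem_subgroupOf] at hzR
  obtain ⟨x, hx, hxy⟩ := hzR
  have hxy' : π x = π y := hxy
  refine ⟨x, hx, ?_, ?_⟩
  · intro hc
    apply hz1
    apply Subtype.ext
    show π y = 1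
    rw [← hxy']
    exact (hker1 x).mpr hc
  · intro s hs
    have h1 := congrArg Subtype.val ((Subgroup.mem_center_iff.mp hzc) ⟨π s, s, hs, rfl⟩)
    have h2 : π s * π y = π y * π s := h1
    rw [← hker1, map_mul, map_mul, map_mul, map_inv, map_inv, hxy', ← h2]
    group

/-- The data on the group. -/
structure WrData (L Gt : Type*) [Group L] [Group Gt] (D : QData L) where
  dd : L × L →* Gt
  hinj : Function.Injective dd
  τ : Gt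
  hτ2 : τ * τ = 1
  hτd : ∀ a b, τ * dd (a, b) * τ⁻¹ = dd (b, a)
  hneg : ∀ g, g * dd (D.m1, D.m1) = dd (D.m1, D.m1) * g
  hB : ∀ g, g * dd (D.m1, 1) = dd (D.m1, 1) * g → ∃ a b, g = dd (a, b)
  h₀ : ∃ h, h * dd (1, D.m1) * h⁻¹ = τ

namespace WrData

variable {L Gt : Type*} [Group L] [Group Gt] {D : QData L} (W : WrData L Gt D)

theorem dd_mul (a b c d : L) : W.dd (a, b) * W.dd (c, d) = W.dd (a * c, b * d) := by
  rw [← map_mul, Prod.mk_mul_mk]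

theorem dd_inv (a b : L) : (W.dd (a, b))⁻¹ = W.dd (a⁻¹, b⁻¹) := by
  rw [← map_inv, Prod.inv_mk]

theorem dd_one : W.dd (1, 1) = 1 := map_one _

theorem dd_pow (a b : L) (n : ℕ) : (W.dd (a, b)) ^ n = W.dd (a ^ n, b ^ n) := by
  rw [← map_pow, Prod.pow_mk]

theorem dd_inj {a b c d : L} (h : W.dd (a, b) = W.dd (c, d)) : a = c ∧ b = d := by
  have := W.hinj h
  simpa using this

theorem τ_inv : W.τ⁻¹ = W.τ := inv_eq_of_mul_eq_one_left W.hτ2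

theorem τ_dd (a b : L) : W.τ * W.dd (a, b) = W.dd (b, a) * W.τ := by
  rw [← W.hτd a b]
  group

theorem τ_ne (a b : L) : W.τ ≠ W.dd (a, b) := by
  intro h
  have h1 := W.hτd D.J 1
  nth_rewrite 1 [h] at h1
  rw [h, W.dd_inv, W.dd_mul, W.dd_mul, mul_one, mul_inv_cancel] at h1
  exact D.J_ne_one (W.dd_inj h1).2.symm

/-- The subgroup. -/
def P : Subgroup Gt where
  carrier := {g | ∃ a ∈ D.Q, ∃ b ∈ D.Q, g = W.dd (a, b) ∨ g = W.dd (a, b) * W.τ}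
  mul_mem' := by
    rintro _ _ ⟨a, ha, b, hb, rfl | rfl⟩ ⟨c, hc, d, hd, rfl | rfl⟩
    · exact ⟨a * c, D.Q.mul_mem ha hc, b * d, D.Q.mul_mem hb hd, Or.inl (W.dd_mul _ _ _ _)⟩
    · refine ⟨a * c, D.Q.mul_mem ha hc, b * d, D.Q.mul_mem hb hd, Or.inr ?_⟩
      rw [← mul_assoc, W.dd_mul]
    · refine ⟨a * d, D.Q.mul_mem ha hd, b * c, D.Q.mul_mem hb hc, Or.inr ?_⟩
      rw [mul_assoc, W.τ_dd, ← mul_assoc, W.dd_mul]
    · refine ⟨a * d, D.Q.mul_mem ha hd, b * c, D.Q.mul_mem hb hc, Or.inl ?_⟩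
      rw [mul_assoc, ← mul_assoc W.τ, W.τ_dd, mul_assoc, W.hτ2, mul_one, W.dd_mul]
  one_mem' := ⟨1, D.Q.one_mem, 1, D.Q.one_mem, Or.inl W.dd_one.symm⟩
  inv_mem' := by
    rintro _ ⟨a, ha, b, hb, rfl | rfl⟩
    · exact ⟨a⁻¹, D.Q.inv_mem ha, b⁻¹, D.Q.inv_mem hb, Or.inl (W.dd_inv _ _)⟩
    · refine ⟨b⁻¹, D.Q.inv_mem hb, a⁻¹, D.Q.inv_mem ha, Or.inr ?_⟩
      rw [mul_inv_rev, W.τ_inv, W.dd_inv, W.τ_dd]

theorem mem_P {g : Gt} : g ∈ W.P ↔ ∃ a ∈ D.Q, ∃ b ∈ D.Q, g = W.dd (a, b) ∨ g = W.dd (a, b) * W.τ := Iff.rfl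

theorem dd_mem {a b : L} (ha : a ∈ D.Q) (hb : b ∈ D.Q) : W.dd (a, b) ∈ W.P := ⟨a, ha, b, hb, Or.inl rfl⟩

theorem τ_mem : W.τ ∈ W.P := ⟨1, D.Q.one_mem, 1, D.Q.one_mem, Or.inr (by rw [W.dd_one, one_mul])⟩

theorem mem_of_dd_mem {a b : L} (h : W.dd (a, b) ∈ W.P) : a ∈ D.Q ∧ b ∈ D.Q := by
  obtain ⟨c, hc, d, hd, he | he⟩ := h
  · obtain ⟨rfl, rfl⟩ := W.dd_inj he
    exact ⟨hc, hd⟩
  · exfalso
    apply W.τ_ne (c⁻¹ * a) (d⁻¹ * b)
    have : W.dd (c⁻¹ * a, d⁻¹ * b) = (W.dd (c, d))⁻¹ * W.dd (a, b) := by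
      rw [W.dd_inv, W.dd_mul]
    rw [this, he]
    group

theorem isP : IsPGroup 2 W.P := by
  have h1 : ∀ a ∈ D.Q, ∀ b ∈ D.Q, ∃ k : ℕ, (W.dd (a, b)) ^ 2 ^ k = 1 := by
    intro a ha b hb
    obtain ⟨k, hk⟩ := D.Q_pow ha
    obtain ⟨l, hl⟩ := D.Q_pow hb
    refine ⟨k + l, ?_⟩
    rw [W.dd_pow]
    have h2 : a ^ 2 ^ (k + l) = 1 := by rw [pow_add, pow_mul, hk, one_pow]
    have h3 : b ^ 2 ^ (k + l) = 1 := by rw [pow_add, mul_comm, pow_mul, hl, one_pow]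
    rw [h2, h3, W.dd_one]
  rintro ⟨_, a, ha, b, hb, rfl | rfl⟩
  · obtain ⟨k, hk⟩ := h1 a ha b hb
    exact ⟨k, Subtype.ext hk⟩
  · obtain ⟨k, hk⟩ := h1 (a * b) (D.Q.mul_mem ha hb) (b * a) (D.Q.mul_mem hb ha)
    refine ⟨k + 1, Subtype.ext ?_⟩
    show (W.dd (a, b) * W.τ) ^ 2 ^ (k + 1) = 1
    have h2 : (W.dd (a, b) * W.τ) * (W.dd (a, b) * W.τ) = W.dd (a * b, b * a) := by
      rw [mul_assoc, ← mul_assoc W.τ, W.τ_dd, mul_assoc, W.hτ2, mul_one, W.dd_mul]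
    rw [pow_succ', pow_mul, pow_two, h2]
    exact hk

/-- The central element. -/
abbrev Zc : Gt := W.dd (D.m1, D.m1)

theorem m1_ne_dd : ∀ x : L, W.dd (x, 1) = W.Zc → False := by
  intro x h
  exact D.hm1ne (W.dd_inj h).2.symm

theorem mem_center_iff {g : Gt} : g ∈ Subgroup.center Gt ↔ g = 1 ∨ g = W.Zc := by
  constructor
  · intro hg
    have hg' := Subgroup.mem_center_iff.mp hg
    obtain ⟨a, b, rfl⟩ := W.hB _ (hg' _).symm
    have hcomm : ∀ x : L, a * x = x * a ∧ b * x = x * b := by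
      intro x
      have h1 := hg' (W.dd (x, x))
      rw [W.dd_mul, W.dd_mul] at h1
      have := W.dd_inj h1
      exact ⟨this.1.symm, this.2.symm⟩
    have hab : a = b := by
      have h1 := hg' W.τ
      have h2 := W.τ_dd a b
      rw [h1] at h2
      exact (W.dd_inj (mul_right_cancel h2)).1
    subst hab
    rcases D.comm_J_j (hcomm _).1 (hcomm _).1 with rfl | rfl
    · left
      exact W.dd_one
    · right
      rfl
  · rintro (rfl | rfl)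
    · exact Subgroup.one_mem _
    · exact Subgroup.mem_center_iff.mpr (fun g => W.hneg g)

theorem Zc_sq : W.Zc * W.Zc = 1 := by
  rw [W.dd_mul, D.m1_sq, W.dd_one]

theorem center_le : Subgroup.center Gt ≤ W.P := by
  intro g hg
  rcases W.mem_center_iff.mp hg with rfl | rfl
  · exact W.P.one_mem
  · exact W.dd_mem D.m1_memQ D.m1_memQ

/-- Central elements modulo the centre. -/
theorem cenP {x : Gt} (hx : x ∈ W.P) (hc : ∀ s ∈ W.P, x * s * x⁻¹ * s⁻¹ ∈ Subgroup.center Gt) :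
    x ∈ Subgroup.center Gt ∨ x = W.dd (D.m1, 1) ∨ x = W.dd (1, D.m1) := by
  obtain ⟨a, ha, b, hb, rfl | rfl⟩ := hx
  · have h1 : ∀ c ∈ D.Q, a * c = c * a := by
      intro c hc'
      have h2 := hc _ (W.dd_mem hc' D.Q.one_mem)
      rw [W.mem_center_iff, W.dd_inv, W.dd_mul, W.dd_inv, W.dd_mul, W.dd_mul] at h2
      rcases h2 with h2 | h2
      · rw [← W.dd_one] at h2
        have h3 := (W.dd_inj h2).1
        have h4 : a * c * a⁻¹ * c⁻¹ * c * a = c * a := by rw [h3, one_mul]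
        calc a * c = a * c * a⁻¹ * c⁻¹ * c * a := by group
          _ = _ := h4
      · exfalso
        have h3 := (W.dd_inj h2).2
        apply D.hm1ne
        rw [← h3]
        simp
    have h1' : ∀ c ∈ D.Q, b * c = c * b := by
      intro c hc'
      have h2 := hc _ (W.dd_mem D.Q.one_mem hc')
      rw [W.mem_center_iff, W.dd_inv, W.dd_mul, W.dd_inv, W.dd_mul, W.dd_mul] at h2
      rcases h2 with h2 | h2
      · rw [← W.dd_one] at h2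
        have h3 := (W.dd_inj h2).2
        have h4 : b * c * b⁻¹ * c⁻¹ * c * b = c * b := by rw [h3, one_mul]
        calc b * c = b * c * b⁻¹ * c⁻¹ * c * b := by group
          _ = _ := h4
      · exfalso
        have h3 := (W.dd_inj h2).1
        apply D.hm1ne
        rw [← h3]
        simp
    rcases D.comm_J_j (h1 _ D.J_memQ) (h1 _ D.j_mem) with rfl | rfl <;>
      rcases D.comm_J_j (h1' _ D.J_memQ) (h1' _ D.j_mem) with rfl | rfl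
    · left; rw [W.dd_one]; exact Subgroup.one_mem _
    · right; right; rfl
    · right; left; rfl
    · left; exact W.mem_center_iff.mpr (Or.inr rfl)
  · exfalso
    have h2 := hc _ (W.dd_mem D.J_memQ D.Q.one_mem)
    have h3 : W.dd (a, b) * W.τ * W.dd (D.J, 1) * (W.dd (a, b) * W.τ)⁻¹ * (W.dd (D.J, 1))⁻¹ =
        W.dd (D.J⁻¹, b * D.J * b⁻¹) := by
      have h4 : W.τ * W.dd (D.J, 1) * W.τ⁻¹ = W.dd (1, D.J) := W.hτd _ _
      have h5 : W.dd (a, b) * W.τ * W.dd (D.J, 1) * (W.dd (a, b) * W.τ)⁻¹ * (W.dd (D.J, 1))⁻¹ =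
          W.dd (a, b) * (W.τ * W.dd (D.J, 1) * W.τ⁻¹) * (W.dd (a, b))⁻¹ * (W.dd (D.J, 1))⁻¹ := by group
      rw [h5, h4, W.dd_inv, W.dd_inv, W.dd_mul, W.dd_mul, W.dd_mul]
      simp
    rw [h3, W.mem_center_iff] at h2
    rcases h2 with h2 | h2
    · rw [← W.dd_one] at h2
      have h6 := (W.dd_inj h2).1
      apply D.J_ne_one
      simpa using h6
    · have h6 := (W.dd_inj h2).1
      apply D.J_ne_m1
      have h7 : D.J = D.m1⁻¹ := by rw [← h6, inv_inv]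
      rw [h7, D.m1_inv]

variable [Finite Gt]

/-- The dichotomy for fusion-closed subgroups. -/
theorem closed_dichotomy (R : Subgroup Gt) (hZR : Subgroup.center Gt ≤ R) (hRP : R ≤ W.P)
    (hRc : ∀ r ∈ R, ∀ g : Gt, g * r * g⁻¹ ∈ W.P → g * r * g⁻¹ ∈ R) : R = Subgroup.center Gt ∨ R = W.P := by
  by_cases hne : R = Subgroup.center Gt
  · exact Or.inl hne
  refine Or.inr (le_antisymm hRP ?_)
  obtain ⟨x, hxR, hx1, hxc⟩ := exists_central_mod W.P R W.isP hZR hRP (fun r hr s hs =>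
    hRc r hr s (W.P.mul_mem (W.P.mul_mem hs (hRP hr)) (W.P.inv_mem hs))) hne
  have hZcR : W.Zc ∈ R := hZR (W.mem_center_iff.mpr (Or.inr rfl))
  have hz'R : W.dd (1, D.m1) ∈ R := by
    rcases W.cenP (hRP hxR) hxc with h | h | h
    · exact absurd h hx1
    · subst h
      have := R.mul_mem hZcR hxR
      rw [W.dd_mul, D.m1_sq, mul_one] at this
      exact this
    · rwa [h] at hxR
  have hτR : W.τ ∈ R := by
    obtain ⟨h, hh⟩ := W.h₀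
    rw [← hh]
    apply hRc _ hz'R
    rw [hh]
    exact W.τ_mem
  have h1 : ∀ a ∈ D.Q, W.dd (a, a⁻¹) ∈ R := by
    intro a ha
    have h2 : W.dd (a, 1) * W.τ * (W.dd (a, 1))⁻¹ = W.dd (a, a⁻¹) * W.τ := by
      rw [W.dd_inv, mul_assoc, W.τ_dd, ← mul_assoc, W.dd_mul]
      simp
    have h3 := hRc _ hτR (W.dd (a, 1)) (by
      rw [h2]
      exact W.P.mul_mem (W.dd_mem ha (D.Q.inv_mem ha)) W.τ_mem)
    rw [h2] at h3
    have h4 := R.mul_mem h3 (R.inv_mem hτR)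
    rwa [mul_assoc, mul_inv_cancel, mul_one] at h4
  have h2 : ∀ a ∈ D.Q, ∀ b ∈ D.Q, a * a = D.m1 → b * b = D.m1 → W.dd (a, b) ∈ R := by
    intro a ha b hb haa hbb
    have haa' : a⁻¹ * a⁻¹ = D.m1 := by
      rw [← mul_inv_rev, haa, D.m1_inv]
    obtain ⟨h₁, hh₁⟩ := D.hconjJ a⁻¹ haa'
    obtain ⟨h₂, hh₂⟩ := D.hconjJ b hbb
    set h := h₂ * h₁⁻¹ with hh
    have h3 : h * a⁻¹ * h⁻¹ = b := by
      rw [← hh₁, ← hh₂, hh]
      group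
    have h4 : W.dd (1, h) * W.dd (a, a⁻¹) * (W.dd (1, h))⁻¹ = W.dd (a, b) := by
      rw [W.dd_inv, W.dd_mul, W.dd_mul, h3]
      simp
    rw [← h4]
    apply hRc _ (h1 a ha)
    rw [h4]
    exact W.dd_mem ha hb
  have h3 : ∀ c ∈ D.Q, W.dd (c, 1) ∈ R := by
    intro c hc
    obtain ⟨a, ha, b, hb, haa, hbb, rfl⟩ := D.exists_prod hc
    have h4 := R.mul_mem (h2 a ha D.J D.J_memQ haa D.hJJ) (R.inv_mem (h2 b hb D.J D.J_memQ hbb D.hJJ))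
    rw [W.dd_inv, W.dd_mul] at h4
    simpa using h4
  have h4 : ∀ c ∈ D.Q, W.dd (1, c) ∈ R := by
    intro c hc
    have h5 := R.mul_mem (R.mul_mem hτR (h3 c hc)) (R.inv_mem hτR)
    rwa [W.hτd] at h5
  have h5 : ∀ a ∈ D.Q, ∀ b ∈ D.Q, W.dd (a, b) ∈ R := by
    intro a ha b hb
    have h6 := R.mul_mem (h3 a ha) (h4 b hb)
    rw [W.dd_mul] at h6
    simpa using h6
  rintro _ ⟨a, ha, b, hb, rfl | rfl⟩
  · exact h5 a ha b hb
  · exact R.mul_mem (h5 a ha b hb) hτR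

theorem dec_dd {a b : L} (h : ∀ s ∈ W.P, W.dd (a, b) * s * (W.dd (a, b))⁻¹ ∈ W.P) :
    ∃ c ∈ D.Q, ∃ w, (∀ x ∈ D.Q, w * x * w⁻¹ ∈ D.Q) ∧ W.dd (a, b) = W.dd (c, 1) * W.dd (w, w) := by
  have h1 := h _ W.τ_mem
  have h2 : W.dd (a, b) * W.τ * (W.dd (a, b))⁻¹ = W.dd (a * b⁻¹, b * a⁻¹) * W.τ := by
    rw [W.dd_inv, mul_assoc, W.τ_dd, ← mul_assoc, W.dd_mul]
  rw [h2] at h1
  have h3 : W.dd (a * b⁻¹, b * a⁻¹) ∈ W.P := by
    have := W.P.mul_mem h1 (W.P.inv_mem W.τ_mem)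
    rwa [mul_assoc, mul_inv_cancel, mul_one] at this
  have hc := (W.mem_of_dd_mem h3).1
  have he : W.dd (a, b) = W.dd (a * b⁻¹, 1) * W.dd (b, b) := by
    rw [W.dd_mul]
    simp
  refine ⟨a * b⁻¹, hc, b, ?_, he⟩
  intro x hx
  have h4 := h _ (W.P.mul_mem (W.P.mul_mem (W.dd_mem hc D.Q.one_mem) (W.dd_mem hx D.Q.one_mem))
    (W.P.inv_mem (W.dd_mem hc D.Q.one_mem)))
  have h5 : W.dd (a, b) * (W.dd (a * b⁻¹, 1) * W.dd (x, 1) * (W.dd (a * b⁻¹, 1))⁻¹) * (W.dd (a, b))⁻¹ =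
      W.dd (a * (a * b⁻¹ * x * (a * b⁻¹)⁻¹) * a⁻¹, 1) := by
    rw [W.dd_inv, W.dd_inv, W.dd_mul, W.dd_mul, W.dd_mul, W.dd_mul]
    simp
  -- conjugating instead the element `(w x w⁻¹, 1)` by an element of `P`
  have h6 := W.P.mul_mem (W.P.mul_mem (W.P.inv_mem (W.dd_mem hc D.Q.one_mem)) (h _ (W.dd_mem hx D.Q.one_mem)))
    (W.dd_mem hc D.Q.one_mem)
  have h7 : (W.dd (a * b⁻¹, 1))⁻¹ * (W.dd (a, b) * W.dd (x, 1) * (W.dd (a, b))⁻¹) * W.dd (a * b⁻¹, 1) =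
      W.dd (b * x * b⁻¹, 1) := by
    rw [W.dd_inv, W.dd_inv, W.dd_mul, W.dd_mul, W.dd_mul, W.dd_mul]
    congr 2
    · group
    · simp
  rw [h7] at h6
  exact (W.mem_of_dd_mem h6).1

/-- The normalizer of `P`. -/
theorem dec {g : Gt} (hg : ∀ s ∈ W.P, g * s * g⁻¹ ∈ W.P) :
    ∃ s ∈ W.P, ∃ w, (∀ x ∈ D.Q, w * x * w⁻¹ ∈ D.Q) ∧ g = s * W.dd (w, w) := by
  have hinvg : ∀ s ∈ W.P, g⁻¹ * s * g ∈ W.P :=
    Cfsg.Agent.Lib.PSLFusionBasic.conj_inv_mem_of_finite (W.P : Set Gt) hg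
  have hzP : W.dd (D.m1, 1) ∈ W.P := W.dd_mem D.m1_memQ D.Q.one_mem
  have hzc : ∀ s ∈ W.P, W.dd (D.m1, 1) * s * (W.dd (D.m1, 1))⁻¹ * s⁻¹ ∈ Subgroup.center Gt := by
    rintro s ⟨a, -, b, -, rfl | rfl⟩
    · have h1 : W.dd (D.m1, 1) * W.dd (a, b) * (W.dd (D.m1, 1))⁻¹ * (W.dd (a, b))⁻¹ = 1 := by
        rw [W.dd_inv, W.dd_inv, W.dd_mul, W.dd_mul, W.dd_mul, D.hm1 a]
        simp [W.dd_one]
      rw [h1]
      exact Subgroup.one_mem _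
    · have h1 : W.dd (D.m1, 1) * (W.dd (a, b) * W.τ) * (W.dd (D.m1, 1))⁻¹ * (W.dd (a, b) * W.τ)⁻¹ = W.Zc := by
        have h2 : W.τ * (W.dd (D.m1, 1))⁻¹ * W.τ⁻¹ = W.dd (1, D.m1) := by
          rw [W.dd_inv, W.hτd, D.m1_inv, inv_one]
        have h3 : W.dd (D.m1, 1) * (W.dd (a, b) * W.τ) * (W.dd (D.m1, 1))⁻¹ * (W.dd (a, b) * W.τ)⁻¹ =
            W.dd (D.m1, 1) * W.dd (a, b) * (W.τ * (W.dd (D.m1, 1))⁻¹ * W.τ⁻¹) * (W.dd (a, b))⁻¹ := by group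
        have e1 : D.m1 * a * 1 * a⁻¹ = D.m1 := by group
        have e2 : 1 * b * D.m1 * b⁻¹ = D.m1 := by rw [one_mul, ← D.hm1 b]; group
        rw [h3, h2, W.dd_inv, W.dd_mul, W.dd_mul, W.dd_mul, e1, e2]
      rw [h1]
      exact W.mem_center_iff.mpr (Or.inr rfl)
  have hxP := hg _ hzP
  have hxc : ∀ s ∈ W.P, (g * W.dd (D.m1, 1) * g⁻¹) * s * (g * W.dd (D.m1, 1) * g⁻¹)⁻¹ * s⁻¹ ∈ Subgroup.center Gt := by
    intro s hs
    have h1 := hzc _ (hinvg s hs)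
    have h2 : (g * W.dd (D.m1, 1) * g⁻¹) * s * (g * W.dd (D.m1, 1) * g⁻¹)⁻¹ * s⁻¹ =
        g * (W.dd (D.m1, 1) * (g⁻¹ * s * g) * (W.dd (D.m1, 1))⁻¹ * (g⁻¹ * s * g)⁻¹) * g⁻¹ := by group
    rw [h2]
    have h3 := Subgroup.mem_center_iff.mp h1 g
    rw [h3, mul_assoc, mul_inv_cancel, mul_one]
    exact h1
  have hdd : ∀ a b : L, (∀ s ∈ W.P, W.dd (a, b) * s * (W.dd (a, b))⁻¹ ∈ W.P) →
      ∃ s ∈ W.P, ∃ w, (∀ x ∈ D.Q, w * x * w⁻¹ ∈ D.Q) ∧ W.dd (a, b) = s * W.dd (w, w) := by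
    intro a b h
    obtain ⟨c, hc, w, hw, he⟩ := W.dec_dd h
    exact ⟨_, W.dd_mem hc D.Q.one_mem, w, hw, he⟩
  rcases W.cenP hxP hxc with h | h | h
  · exfalso
    have h1 := Subgroup.mem_center_iff.mp h g⁻¹
    have h2 : W.dd (D.m1, 1) = g⁻¹ * (g * W.dd (D.m1, 1) * g⁻¹) * g := by group
    rw [h1] at h2
    have h3 : W.dd (D.m1, 1) = g * W.dd (D.m1, 1) * g⁻¹ := by
      calc W.dd (D.m1, 1) = g * W.dd (D.m1, 1) * g⁻¹ * g⁻¹ * g := h2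
        _ = _ := by group
    rw [← h3] at h
    rcases W.mem_center_iff.mp h with h4 | h4
    · rw [← W.dd_one] at h4
      exact D.hm1ne (W.dd_inj h4).1
    · exact D.hm1ne (W.dd_inj h4).2.symm
  · have hgz : g * W.dd (D.m1, 1) = W.dd (D.m1, 1) * g := by
      have h0 : g * W.dd (D.m1, 1) = (g * W.dd (D.m1, 1) * g⁻¹) * g := by group
      rw [h0, h]
    obtain ⟨a, b, rfl⟩ := W.hB g hgz
    exact hdd a b hg
  · have hgz : (W.τ * g) * W.dd (D.m1, 1) = W.dd (D.m1, 1) * (W.τ * g) := by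
      have h0 : (W.τ * g) * W.dd (D.m1, 1) = W.τ * (g * W.dd (D.m1, 1) * g⁻¹) * W.τ⁻¹ * (W.τ * g) := by group
      rw [h0, h, W.hτd]
    obtain ⟨a, b, hab⟩ := W.hB _ hgz
    have hn : ∀ s ∈ W.P, W.dd (a, b) * s * (W.dd (a, b))⁻¹ ∈ W.P := by
      intro s hs
      rw [← hab]
      have h2 : (W.τ * g) * s * (W.τ * g)⁻¹ = W.τ * (g * s * g⁻¹) * W.τ⁻¹ := by group
      rw [h2]
      exact W.P.mul_mem (W.P.mul_mem W.τ_mem (hg s hs)) (W.P.inv_mem W.τ_mem)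
    obtain ⟨s, hs, w, hw, he⟩ := hdd a b hn
    refine ⟨W.τ * s, W.P.mul_mem W.τ_mem hs, w, hw, ?_⟩
    have h3 : g = W.τ * (W.τ * g) := by rw [← mul_assoc, W.hτ2, one_mul]
    rw [h3, hab, he, mul_assoc]

/-- The diagonal. -/
def δ : L →* Gt := W.dd.comp ((MonoidHom.id L).prod (MonoidHom.id L))

theorem δ_apply (w : L) : W.δ w = W.dd (w, w) := rfl

theorem δ_norm {w : L} (hw : ∀ x ∈ D.Q, w * x * w⁻¹ ∈ D.Q) : ∀ s ∈ W.P, W.δ w * s * (W.δ w)⁻¹ ∈ W.P := by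
  rintro s ⟨a, ha, b, hb, rfl | rfl⟩
  · rw [W.δ_apply, W.dd_inv, W.dd_mul, W.dd_mul]
    exact W.dd_mem (hw a ha) (hw b hb)
  · rw [W.δ_apply, W.dd_inv]
    have h1 : W.dd (w, w) * (W.dd (a, b) * W.τ) * W.dd (w⁻¹, w⁻¹) = W.dd (w * a * w⁻¹, w * b * w⁻¹) * W.τ := by
      rw [mul_assoc (W.dd (w, w)), mul_assoc (W.dd (a, b)), W.τ_dd, ← mul_assoc, ← mul_assoc, W.dd_mul, W.dd_mul]
    rw [h1]
    exact W.P.mul_mem (W.dd_mem (hw a ha) (hw b hb)) W.τ_mem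

/-- The main theorem. -/
theorem main (Ws : Set L) (hW : ∀ w ∈ Ws, ∀ x ∈ D.Q, w * x * w⁻¹ ∈ D.Q)
    (hQN : ∀ w : L, (∀ x ∈ D.Q, w * x * w⁻¹ ∈ D.Q) → w ∈ Subgroup.closure ((D.Q : Set L) ∪ Ws))
    (hQN' : ∀ w : L, (∀ x ∈ D.Q, w * x * w⁻¹ ∈ D.Q) → ∀ k : ℕ, w ^ 2 ^ k ∈ D.Q → w ∈ D.Q)
    (hLoc : ∀ w ∈ Ws, ∃ R : Subgroup Gt, Subgroup.center Gt ≤ R ∧ R ≤ W.P ∧
        (∀ c : Gt, (∀ r ∈ R, c * r * c⁻¹ * r⁻¹ ∈ Subgroup.center Gt) → c ∈ R) ∧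
        W.δ w ∈ Subgroup.closure {y : Gt | (∀ r ∈ R, y * r * y⁻¹ ∈ R) ∧ ∃ k : ℕ, y ^ 2 ^ k ∈ Subgroup.center Gt})
    (S : Sylow 2 (Gt ⧸ Subgroup.center Gt)) :
    (Cfsg.groupFusionSystem (S : Subgroup (Gt ⧸ Subgroup.center Gt))).IsSimple 2 := by
  obtain ⟨S₀, hS₀⟩ := exists_sylow_eq_of_normalizer 2 W.P W.isP (by
    rintro g hg ⟨k, hk⟩
    obtain ⟨s, hs, w, hw, rfl⟩ := W.dec hg
    have hdn : ∀ n : ℕ, ∀ x ∈ W.P, (W.δ w) ^ n * x * ((W.δ w) ^ n)⁻¹ ∈ W.P := by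
      intro n
      induction n with
      | zero => intro x hx; simpa using hx
      | succ n ih =>
        intro x hx
        have h1 := ih _ (W.δ_norm hw x hx)
        have h2 : (W.δ w) ^ (n + 1) * x * ((W.δ w) ^ (n + 1))⁻¹ = (W.δ w) ^ n * (W.δ w * x * (W.δ w)⁻¹) * ((W.δ w) ^ n)⁻¹ := by
          rw [pow_succ]; group
        rw [h2]
        exact h1
    have hpw : ∀ n : ℕ, ∃ t ∈ W.P, (s * W.δ w) ^ n = t * (W.δ w) ^ n := by
      intro n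
      induction n with
      | zero => exact ⟨1, W.P.one_mem, by simp⟩
      | succ n ih =>
        obtain ⟨t, ht, hte⟩ := ih
        refine ⟨t * ((W.δ w) ^ n * s * ((W.δ w) ^ n)⁻¹), W.P.mul_mem ht (hdn n s hs), ?_⟩
        rw [pow_succ, hte, pow_succ]
        group
    obtain ⟨t, ht, hte⟩ := hpw (2 ^ k)
    have hk' : (s * W.δ w) ^ 2 ^ k = 1 := hk
    rw [hk'] at hte
    have h3 : (W.δ w) ^ 2 ^ k = t⁻¹ := eq_inv_of_mul_eq_one_right hte.symm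
    have h4 : (W.δ w) ^ 2 ^ k ∈ W.P := by
      rw [h3]; exact W.P.inv_mem ht
    rw [W.δ_apply, W.dd_pow] at h4
    have hwQ := hQN' w hw k (W.mem_of_dd_mem h4).1
    exact W.P.mul_mem hs (W.dd_mem hwQ hwQ))
  have hδcl : ∀ w ∈ Subgroup.closure ((D.Q : Set L) ∪ Ws),
      W.δ w ∈ Subgroup.closure ((W.P : Set Gt) ∪ (W.δ '' Ws)) := by
    intro w hw
    have h1 : W.δ w ∈ (Subgroup.closure ((D.Q : Set L) ∪ Ws)).map W.δ := ⟨w, hw, rfl⟩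
    rw [MonoidHom.map_closure] at h1
    refine (Subgroup.closure_mono ?_) h1
    rintro _ ⟨y, hy | hy, rfl⟩
    · left
      exact W.dd_mem hy hy
    · right
      exact ⟨y, hy, rfl⟩
  refine isSimple_center_quot_gen 2 S₀ (by rw [hS₀]; exact W.center_le) ?_ ?_ (W.δ '' Ws) ?_ ?_ S
  · rw [hS₀]
    intro h
    have h1 : W.dd (D.m1, 1) ∈ Subgroup.center Gt := by
      rw [← h]
      exact W.dd_mem D.m1_memQ D.Q.one_mem
    rcases W.mem_center_iff.mp h1 with h4 | h4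
    · rw [← W.dd_one] at h4
      exact D.hm1ne (W.dd_inj h4).1
    · exact D.hm1ne (W.dd_inj h4).2.symm
  · rw [hS₀]
    exact W.closed_dichotomy
  · rintro _ ⟨w, hw, rfl⟩
    rw [hS₀]
    exact ⟨W.δ_norm (hW w hw), hLoc w hw⟩
  · rw [hS₀]
    intro g hg
    obtain ⟨s, hs, w, hw, rfl⟩ := W.dec hg
    refine Subgroup.mul_mem _ (Subgroup.subset_closure (Or.inl hs)) ?_
    exact hδcl w (hQN w hw)

include W in
/-- Case I. -/
theorem main_caseI {c₀ : L} (hc₀ : c₀ ∈ D.Q1) (hc₀2 : c₀ * c₀ = D.J) (S : Sylow 2 (Gt ⧸ Subgroup.center Gt)) :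
    (Cfsg.groupFusionSystem (S : Subgroup (Gt ⧸ Subgroup.center Gt))).IsSimple 2 := by
  refine W.main ∅ (by simp) ?_ ?_ (by simp) S
  · intro w hw
    exact Subgroup.subset_closure (Or.inl (D.norm_c hc₀ hc₀2 hw))
  · intro w hw _ _
    exact D.norm_c hc₀ hc₀2 hw

/-- The subgroup `2⁴`. -/
def Rc : Subgroup Gt := Subgroup.closure {W.δ D.J, W.δ D.j, W.dd (1, D.m1), W.τ}

theorem δJ_mem : W.δ D.J ∈ W.Rc := Subgroup.subset_closure (by simp)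
theorem δj_mem : W.δ D.j ∈ W.Rc := Subgroup.subset_closure (by simp)
theorem z'_mem : W.dd (1, D.m1) ∈ W.Rc := Subgroup.subset_closure (by simp)
theorem τ_memR : W.τ ∈ W.Rc := Subgroup.subset_closure (by simp)

theorem Zc_memR : W.Zc ∈ W.Rc := by
  have h1 := W.Rc.mul_mem W.δJ_mem W.δJ_mem
  rwa [W.δ_apply, W.dd_mul, D.hJJ] at h1

theorem z_memR : W.dd (D.m1, 1) ∈ W.Rc := by
  have h1 := W.Rc.mul_mem W.Zc_memR W.z'_mem
  rw [W.dd_mul, D.m1_sq] at h1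
  simpa using h1

theorem center_le_R : Subgroup.center Gt ≤ W.Rc := by
  intro g hg
  rcases W.mem_center_iff.mp hg with rfl | rfl
  · exact W.Rc.one_mem
  · exact W.Zc_memR

theorem Rc_le : W.Rc ≤ W.P := by
  rw [Rc, Subgroup.closure_le]
  rintro x (rfl | rfl | rfl | rfl)
  · exact W.dd_mem D.J_memQ D.J_memQ
  · exact W.dd_mem D.j_mem D.j_mem
  · exact W.dd_mem D.Q.one_mem D.m1_memQ
  · exact W.τ_mem

theorem δ_mem_Rc_of_conj {b : L} (h1 : b * D.J * b⁻¹ = D.J ∨ b * D.J * b⁻¹ = D.J⁻¹)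
    (h2 : b * D.j * b⁻¹ = D.j ∨ b * D.j * b⁻¹ = D.j⁻¹) : W.δ b ∈ W.Rc := by
  have hT : ∀ x : L, x = 1 ∨ x = D.m1 → W.δ x ∈ W.Rc := by
    rintro x (rfl | rfl)
    · rw [map_one]; exact W.Rc.one_mem
    · exact W.Zc_memR
  -- commuting case
  have hA : ∀ x : L, x * D.J * x⁻¹ = D.J → x * D.j * x⁻¹ = D.j → W.δ x ∈ W.Rc := by
    intro x hx1 hx2
    apply hT
    apply D.comm_J_j
    · have h0 : x * D.J = (x * D.J * x⁻¹) * x := by group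
      rw [h0, hx1]
    · have h0 : x * D.j = (x * D.j * x⁻¹) * x := by group
      rw [h0, hx2]
  have hJJi : D.J * D.j⁻¹ * D.J⁻¹ = D.j := by
    have h3 : D.j * D.J * D.j⁻¹ = D.J⁻¹ := D.hinv D.J rfl
    have h4 : D.J⁻¹ * D.j * D.J = D.j⁻¹ ∨ True := Or.inr trivial
    have h5 : D.j⁻¹ * D.J⁻¹ = D.J * D.j⁻¹ := by
      -- `j⁻¹ J⁻¹ j = J`
      have h6 : D.j⁻¹ * D.J⁻¹ * D.j = D.J := by
        rw [← h3]; group
      calc D.j⁻¹ * D.J⁻¹ = (D.j⁻¹ * D.J⁻¹ * D.j) * D.j⁻¹ := by group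
        _ = _ := by rw [h6]
    have h7 : D.J * D.j⁻¹ * D.J⁻¹ = D.j⁻¹ * (D.J⁻¹ * D.J⁻¹) := by
      rw [← h5]; group
    have h8 : D.J⁻¹ * D.J⁻¹ = D.m1 := by
      rw [← mul_inv_rev, D.hJJ, D.m1_inv]
    rw [h7, h8, D.j_inv, mul_assoc, ← D.hm1 D.j, ← mul_assoc, D.m1_sq, one_mul]
  have hJiJ : D.j * D.J⁻¹ * D.j⁻¹ = D.J := by
    have h3 : D.j * D.J * D.j⁻¹ = D.J⁻¹ := D.hinv D.J rfl
    have : D.j * D.J⁻¹ * D.j⁻¹ = (D.j * D.J * D.j⁻¹)⁻¹ := by group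
    rw [this, h3, inv_inv]
  -- reduce the action on `j`
  have hB : ∀ x : L, x * D.J * x⁻¹ = D.J → (x * D.j * x⁻¹ = D.j ∨ x * D.j * x⁻¹ = D.j⁻¹) → W.δ x ∈ W.Rc := by
    rintro x hx1 (hx2 | hx2)
    · exact hA x hx1 hx2
    · have h3 := hA (D.J * x) (by
        have : (D.J * x) * D.J * (D.J * x)⁻¹ = D.J * (x * D.J * x⁻¹) * D.J⁻¹ := by group
        rw [this, hx1]; group) (by
        have : (D.J * x) * D.j * (D.J * x)⁻¹ = D.J * (x * D.j * x⁻¹) * D.J⁻¹ := by group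
        rw [this, hx2, hJJi])
      have h4 : W.δ x = (W.δ D.J)⁻¹ * W.δ (D.J * x) := by
        rw [map_mul]; group
      rw [h4]
      exact W.Rc.mul_mem (W.Rc.inv_mem W.δJ_mem) h3
  rcases h1 with h1 | h1
  · exact hB b h1 h2
  · have h3 := hB (D.j * b) (by
      have : (D.j * b) * D.J * (D.j * b)⁻¹ = D.j * (b * D.J * b⁻¹) * D.j⁻¹ := by group
      rw [this, h1, hJiJ]) (by
      have : (D.j * b) * D.j * (D.j * b)⁻¹ = D.j * (b * D.j * b⁻¹) * D.j⁻¹ := by group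
      rw [this]
      rcases h2 with h2 | h2
      · left; rw [h2]; group
      · right; rw [h2]; group)
    have h4 : W.δ b = (W.δ D.j)⁻¹ * W.δ (D.j * b) := by
      rw [map_mul]; group
    rw [h4]
    exact W.Rc.mul_mem (W.Rc.inv_mem W.δj_mem) h3

/-- Elements of the wreath base centralizing the quotient of `Rc`. -/
theorem dd_mem_Rc {a b : L}
    (hτ' : W.dd (a, b) * W.τ * (W.dd (a, b))⁻¹ * W.τ⁻¹ ∈ Subgroup.center Gt)
    (hJ' : W.dd (a, b) * W.δ D.J * (W.dd (a, b))⁻¹ * (W.δ D.J)⁻¹ ∈ Subgroup.center Gt)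
    (hj' : W.dd (a, b) * W.δ D.j * (W.dd (a, b))⁻¹ * (W.δ D.j)⁻¹ ∈ Subgroup.center Gt) :
    W.dd (a, b) ∈ W.Rc := by
  have hsec : ∀ x : L, W.dd (a, b) * W.δ x * (W.dd (a, b))⁻¹ * (W.δ x)⁻¹ ∈ Subgroup.center Gt →
      b * x * b⁻¹ = x ∨ b * x * b⁻¹ = D.m1 * x := by
    intro x hx
    have h1 : W.dd (a, b) * W.δ x * (W.dd (a, b))⁻¹ * (W.δ x)⁻¹ =
        W.dd (a * x * a⁻¹ * x⁻¹, b * x * b⁻¹ * x⁻¹) := by
      rw [W.δ_apply, W.dd_inv, W.dd_inv, W.dd_mul, W.dd_mul, W.dd_mul]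
    rw [h1, W.mem_center_iff] at hx
    rcases hx with hx | hx
    · left
      rw [← W.dd_one] at hx
      have h2 := (W.dd_inj hx).2
      calc b * x * b⁻¹ = b * x * b⁻¹ * x⁻¹ * x := by group
        _ = x := by rw [h2, one_mul]
    · right
      have h2 := (W.dd_inj hx).2
      calc b * x * b⁻¹ = b * x * b⁻¹ * x⁻¹ * x := by group
        _ = _ := by rw [h2]
  have hδb : W.δ b ∈ W.Rc := by
    apply W.δ_mem_Rc_of_conj
    · rcases hsec _ hJ' with h | h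
      · exact Or.inl h
      · right; rw [h, D.J_inv]
    · rcases hsec _ hj' with h | h
      · exact Or.inl h
      · right; rw [h, D.j_inv]
  have h1 : W.dd (a, b) * W.τ * (W.dd (a, b))⁻¹ * W.τ⁻¹ = W.dd (a * b⁻¹, b * a⁻¹) := by
    have h2 : W.τ * (W.dd (a, b))⁻¹ * W.τ⁻¹ = W.dd (b⁻¹, a⁻¹) := by
      rw [W.dd_inv, W.hτd]
    have h3 : W.dd (a, b) * W.τ * (W.dd (a, b))⁻¹ * W.τ⁻¹ = W.dd (a, b) * (W.τ * (W.dd (a, b))⁻¹ * W.τ⁻¹) := by group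
    rw [h3, h2, W.dd_mul]
  rw [h1, W.mem_center_iff] at hτ'
  rcases hτ' with h | h
  · rw [← W.dd_one] at h
    have h2 := (W.dd_inj h).1
    have h3 : a = b := by
      calc a = a * b⁻¹ * b := by group
        _ = b := by rw [h2, one_mul]
    subst h3
    exact hδb
  · have h2 := (W.dd_inj h).1
    have h3 : a = D.m1 * b := by
      calc a = a * b⁻¹ * b := by group
        _ = _ := by rw [h2]
    subst h3
    have h4 := W.Rc.mul_mem W.z_memR hδb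
    rw [W.δ_apply, W.dd_mul, one_mul] at h4
    exact h4

/-- `Rc` is self-centralizing modulo the centre. -/
theorem Rc_selfcent (c : Gt) (hc : ∀ r ∈ W.Rc, c * r * c⁻¹ * r⁻¹ ∈ Subgroup.center Gt) : c ∈ W.Rc := by
  have hz'inv : (W.dd (1, D.m1))⁻¹ = W.dd (1, D.m1) := by
    rw [W.dd_inv, inv_one, D.m1_inv]
  have hzinv : (W.dd (D.m1, 1))⁻¹ = W.dd (D.m1, 1) := by
    rw [W.dd_inv, inv_one, D.m1_inv]
  have hZz' : W.Zc * W.dd (1, D.m1) = W.dd (D.m1, 1) := by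
    rw [W.dd_mul, D.m1_sq]
    simp
  have hτz : W.τ * W.dd (D.m1, 1) * W.τ⁻¹ = W.dd (1, D.m1) := W.hτd _ _
  have hτδ : ∀ x : L, W.τ * W.δ x * W.τ⁻¹ = W.δ x := fun x => W.hτd x x
  -- an element commuting with `z'` is in the base
  have hbase : ∀ g : Gt, g * W.dd (1, D.m1) * g⁻¹ = W.dd (1, D.m1) → ∃ a b, g = W.dd (a, b) := by
    intro g hg
    apply W.hB
    have h1 : g * W.dd (D.m1, 1) * g⁻¹ = W.dd (D.m1, 1) := by
      calc g * W.dd (D.m1, 1) * g⁻¹ = g * (W.Zc * W.dd (1, D.m1)) * g⁻¹ := by rw [hZz']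
        _ = (g * W.Zc) * W.dd (1, D.m1) * g⁻¹ := by group
        _ = (W.Zc * g) * W.dd (1, D.m1) * g⁻¹ := by rw [W.hneg g]
        _ = W.Zc * (g * W.dd (1, D.m1) * g⁻¹) := by group
        _ = W.Zc * W.dd (1, D.m1) := by rw [hg]
        _ = _ := hZz'
    have h0 : g * W.dd (D.m1, 1) = (g * W.dd (D.m1, 1) * g⁻¹) * g := by group
    rw [h0, h1]
  have h1 := hc _ W.z'_mem
  rw [hz'inv, W.mem_center_iff] at h1
  rcases h1 with h1 | h1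
  · have h2 : c * W.dd (1, D.m1) * c⁻¹ = W.dd (1, D.m1) := by
      have h3 : c * W.dd (1, D.m1) * c⁻¹ = (c * W.dd (1, D.m1) * c⁻¹ * W.dd (1, D.m1)) * (W.dd (1, D.m1))⁻¹ := by group
      rw [h3, h1, one_mul, hz'inv]
    obtain ⟨a, b, rfl⟩ := hbase c h2
    exact W.dd_mem_Rc (hc _ W.τ_memR) (hc _ W.δJ_mem) (hc _ W.δj_mem)
  · have h2 : c * W.dd (1, D.m1) * c⁻¹ = W.dd (D.m1, 1) := by
      have h3 : c * W.dd (1, D.m1) * c⁻¹ = (c * W.dd (1, D.m1) * c⁻¹ * W.dd (1, D.m1)) * (W.dd (1, D.m1))⁻¹ := by group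
      rw [h3, h1, hz'inv, hZz']
    have h3 : (W.τ * c) * W.dd (1, D.m1) * (W.τ * c)⁻¹ = W.dd (1, D.m1) := by
      have h4 : (W.τ * c) * W.dd (1, D.m1) * (W.τ * c)⁻¹ = W.τ * (c * W.dd (1, D.m1) * c⁻¹) * W.τ⁻¹ := by group
      rw [h4, h2, hτz]
    obtain ⟨a, b, hab⟩ := hbase _ h3
    have hcent : ∀ z ∈ Subgroup.center Gt, W.τ * z * W.τ⁻¹ = z := by
      intro z hz
      rw [Subgroup.mem_center_iff.mp hz W.τ]
      group
    have hcom : ∀ r : Gt, W.τ * r * W.τ⁻¹ = r → r ∈ W.Rc →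
        W.dd (a, b) * r * (W.dd (a, b))⁻¹ * r⁻¹ ∈ Subgroup.center Gt := by
      intro r hr hrR
      have h4 := hc r hrR
      have h5 : W.dd (a, b) * r * (W.dd (a, b))⁻¹ * r⁻¹ =
          W.τ * (c * r * c⁻¹ * r⁻¹) * W.τ⁻¹ := by
        have hr0 : W.τ * r = r * W.τ := by
          calc W.τ * r = (W.τ * r * W.τ⁻¹) * W.τ := by group
            _ = _ := by rw [hr]
        have hr' : W.τ⁻¹ * r⁻¹ = r⁻¹ * W.τ⁻¹ := by
          rw [← mul_inv_rev, ← mul_inv_rev, hr0]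
        rw [← hab]
        calc W.τ * c * r * (W.τ * c)⁻¹ * r⁻¹ = W.τ * c * r * c⁻¹ * (W.τ⁻¹ * r⁻¹) := by group
          _ = W.τ * c * r * c⁻¹ * (r⁻¹ * W.τ⁻¹) := by rw [hr']
          _ = _ := by group
      rw [h5, hcent _ h4]
      exact h4
    have hmem := W.dd_mem_Rc (hcom W.τ (by group) W.τ_memR) (hcom _ (hτδ _) W.δJ_mem) (hcom _ (hτδ _) W.δj_mem)
    rw [← hab] at hmem
    have h6 := W.Rc.mul_mem W.τ_memR hmem
    rwa [← mul_assoc, W.hτ2, one_mul] at h6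

theorem conj_mem_Rc {y : Gt} (hJ' : y * W.δ D.J * y⁻¹ ∈ W.Rc) (hj' : y * W.δ D.j * y⁻¹ ∈ W.Rc)
    (hz' : y * W.dd (1, D.m1) * y⁻¹ ∈ W.Rc) (hτ' : y * W.τ * y⁻¹ ∈ W.Rc) : ∀ r ∈ W.Rc, y * r * y⁻¹ ∈ W.Rc := by
  have h1 : W.Rc ≤ W.Rc.comap (MulAut.conj y).toMonoidHom := by
    rw [Rc, Subgroup.closure_le]
    rintro x (rfl | rfl | rfl | rfl)
    · exact hJ'
    · exact hj'
    · exact hz'
    · exact hτ'
  intro r hr
  exact h1 hr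

/-- Case II. -/
theorem main_caseII (hQ1 : ∀ x ∈ D.Q1, x = 1 ∨ x = D.m1 ∨ x = D.J ∨ x = D.J⁻¹) {w : L} (hw3 : w * w * w = 1)
    (hwJ : w * D.J * w⁻¹ = D.j⁻¹) (hwj : w * D.j * w⁻¹ = (D.J * D.j)⁻¹) {y₁ y₂ : Gt} (hy : y₁ * y₂ = W.δ w)
    (hy₁s : y₁ * y₁ = W.Zc) (hy₂s : y₂ * y₂ = W.Zc)
    (hn₁ : ∀ r ∈ W.Rc, y₁ * r * y₁⁻¹ ∈ W.Rc) (hn₂ : ∀ r ∈ W.Rc, y₂ * r * y₂⁻¹ ∈ W.Rc)
    (S : Sylow 2 (Gt ⧸ Subgroup.center Gt)) :
    (Cfsg.groupFusionSystem (S : Subgroup (Gt ⧸ Subgroup.center Gt))).IsSimple 2 := by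
  refine W.main {w} ?_ ?_ ?_ ?_ S
  · rintro _ rfl
    exact D.w_norm hQ1 hwJ hwj
  · intro a ha
    have hwm : w ∈ Subgroup.closure ((D.Q : Set L) ∪ {w}) := Subgroup.subset_closure (Or.inr rfl)
    have hQm : ∀ x ∈ D.Q, x ∈ Subgroup.closure ((D.Q : Set L) ∪ {w}) :=
      fun x hx => Subgroup.subset_closure (Or.inl hx)
    rcases D.norm_caseII hQ1 hw3 hwJ hwj ha with h | h | h
    · exact hQm a h
    · have : a = w * (w⁻¹ * a) := by group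
      rw [this]
      exact Subgroup.mul_mem _ hwm (hQm _ h)
    · have : a = w⁻¹ * (w * a) := by group
      rw [this]
      exact Subgroup.mul_mem _ (Subgroup.inv_mem _ hwm) (hQm _ h)
  · intro a ha k hk
    exact D.pow_caseII hQ1 hw3 hwJ hwj ha hk
  · rintro _ rfl
    refine ⟨W.Rc, W.center_le_R, W.Rc_le, W.Rc_selfcent, ?_⟩
    rw [← hy]
    have hZ : W.Zc ∈ Subgroup.center Gt := W.mem_center_iff.mpr (Or.inr rfl)
    refine Subgroup.mul_mem _ (Subgroup.subset_closure ⟨hn₁, 1, ?_⟩) (Subgroup.subset_closure ⟨hn₂, 1, ?_⟩)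
    · rw [pow_one, pow_two, hy₁s]; exact hZ
    · rw [pow_one, pow_two, hy₂s]; exact hZ

end WrData

end Cfsg.Agent.Lib.Sp4Frame
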