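import Mathlib
import Cfsg.Agent.Lib.Sp4Frame2

set_option autoImplicit false

/-!
# `SL₂(F)`, `|F|` odd: the data for the wreath product framework
-/

namespace Cfsg.Agent.Lib.Sp4Mat

open Cfsg.Agent.Lib.Sp4Frame

variable {F : Type*} [Field F]

/-- Elements of `SL₂`. -/
def mkS (a b c d : F) (h : a * d - b * c = 1) : Matrix.SpecialLinearGroup (Fin 2) F :=
  ⟨!![a, b; c, d], by rw [Matrix.det_fin_two_of]; exact h⟩

@[simp] theorem coe_mkS (a b c d : F) (h : a * d - b * c = 1) :
    ((mkS a b c d h : Matrix.SpecialLinearGroup (Fin 2) F) : Matrix (Fin 2) (Fin 2) F) = !![a, b; c, d] := rfl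

theorem sl_ext {x y : Matrix.SpecialLinearGroup (Fin 2) F} (h : (x : Matrix (Fin 2) (Fin 2) F) = y) : x = y :=
  Subtype.ext h

theorem eta (x : Matrix.SpecialLinearGroup (Fin 2) F) :
    (x : Matrix (Fin 2) (Fin 2) F) = !![x.1 0 0, x.1 0 1; x.1 1 0, x.1 1 1] := Matrix.eta_fin_two _

theorem det_eq (x : Matrix.SpecialLinearGroup (Fin 2) F) : x.1 0 0 * x.1 1 1 - x.1 0 1 * x.1 1 0 = 1 := by
  have := x.2
  rwa [Matrix.det_fin_two] at this

/-- `J`. -/
def Jl : Matrix.SpecialLinearGroup (Fin 2) F := mkS 0 (-1) 1 0 (by ring)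

/-- `-1`. -/
def m1l : Matrix.SpecialLinearGroup (Fin 2) F := mkS (-1) 0 0 (-1) (by ring)

/-- `j`. -/
def jl {a b : F} (h : a * a + b * b = -1) : Matrix.SpecialLinearGroup (Fin 2) F :=
  mkS a b b (-a) (by linear_combination -h)

/-- Elements commuting with `J`. -/
theorem comm_J_form {x : Matrix.SpecialLinearGroup (Fin 2) F} (hx : x * Jl = Jl * x) :
    x.1 0 1 = - x.1 1 0 ∧ x.1 1 1 = x.1 0 0 := by
  have h1 : (x : Matrix (Fin 2) (Fin 2) F) * !![0, -1; 1, 0] = !![0, -1; 1, 0] * (x : Matrix (Fin 2) (Fin 2) F) :=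
    congrArg Subtype.val hx
  have h00 := congrFun (congrFun h1 0) 0
  have h01 := congrFun (congrFun h1 0) 1
  simp [Matrix.mul_apply, Fin.sum_univ_succ] at h00 h01
  exact ⟨h00, by linear_combination -h01⟩

/-- Coordinates for elements commuting with `J`. -/
theorem form_of_comm {x : Matrix.SpecialLinearGroup (Fin 2) F} (hx : x * Jl = Jl * x) :
    ∃ p r : F, (x : Matrix (Fin 2) (Fin 2) F) = !![p, -r; r, p] ∧ p * p + r * r = 1 := by
  obtain ⟨h1, h2⟩ := comm_J_form hx
  refine ⟨x.1 0 0, x.1 1 0, ?_, ?_⟩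
  · ext i j
    fin_cases i <;> fin_cases j <;> simp [h1, h2]
  · have := det_eq x
    rw [h1, h2] at this
    linear_combination this

theorem comm_of_form {x : Matrix.SpecialLinearGroup (Fin 2) F} {p r : F} (hx : (x : Matrix (Fin 2) (Fin 2) F) = !![p, -r; r, p]) :
    x * Jl = Jl * x := by
  apply sl_ext
  show (x : Matrix (Fin 2) (Fin 2) F) * !![0, -1; 1, 0] = !![0, -1; 1, 0] * (x : Matrix (Fin 2) (Fin 2) F)
  rw [hx]
  ext i j
  fin_cases i <;> fin_cases j <;> simp [Matrix.mul_apply, Fin.sum_univ_succ]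

theorem exists_sq_add_sq [Fintype F] (hodd : Fintype.card F % 2 = 1) (s : F) : ∃ U Y : F, U * U + Y * Y = s := by
  classical
  open Polynomial in
  obtain ⟨U, Y, h⟩ := FiniteField.exists_root_sum_quadratic (R := F) (f := X ^ 2 - C s) (g := X ^ 2)
    (degree_X_pow_sub_C (by norm_num) s) (degree_X_pow 2) hodd
  refine ⟨U, Y, ?_⟩
  simp at h
  linear_combination h

/-- The `QData` of `SL₂(F)`. -/
def qdata [Fintype F] (hodd : Fintype.card F % 2 = 1) (h2 : (2 : F) ≠ 0) {a b : F} (hab : a * a + b * b = -1) : QData (Matrix.SpecialLinearGroup (Fin 2) F) where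
  J := Jl
  j := jl hab
  m1 := m1l
  hJJ := by
    apply sl_ext
    show (!![0, -1; 1, 0] : Matrix (Fin 2) (Fin 2) F) * !![0, -1; 1, 0] = !![-1, 0; 0, -1]
    ext i j
    fin_cases i <;> fin_cases j <;> simp [Matrix.mul_apply, Fin.sum_univ_succ]
  hjj := by
    apply sl_ext
    show (!![a, b; b, -a] : Matrix (Fin 2) (Fin 2) F) * !![a, b; b, -a] = !![-1, 0; 0, -1]
    ext i j
    fin_cases i <;> fin_cases j <;> simp [Matrix.mul_apply, Fin.sum_univ_succ]
    · exact hab
    · ring
    · ring
    · linear_combination hab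
  hm1 := by
    intro x
    apply sl_ext
    show (!![-1, 0; 0, -1] : Matrix (Fin 2) (Fin 2) F) * (x : Matrix (Fin 2) (Fin 2) F) = (x : Matrix (Fin 2) (Fin 2) F) * !![-1, 0; 0, -1]
    ext i j
    fin_cases i <;> fin_cases j <;> simp [Matrix.mul_apply, Fin.sum_univ_succ]
  hm1ne := by
    intro h
    have h1 := congrFun (congrFun (congrArg Subtype.val h) 0) 0
    have h3 : (-1 : F) = 1 := by simpa [m1l, mkS] using h1
    apply h2
    have : (2 : F) = 1 - (-1) := by norm_num
    rw [this, h3]
    simp
  hT := by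
    intro x y hx hy
    obtain ⟨p, r, h1, -⟩ := form_of_comm hx
    obtain ⟨s, t, h3, -⟩ := form_of_comm hy
    apply sl_ext
    show (x : Matrix (Fin 2) (Fin 2) F) * (y : Matrix (Fin 2) (Fin 2) F) = (y : Matrix (Fin 2) (Fin 2) F) * (x : Matrix (Fin 2) (Fin 2) F)
    rw [h1, h3]
    ext i j
    fin_cases i <;> fin_cases j <;> simp [Matrix.mul_apply, Fin.sum_univ_succ] <;> ring
  hinv := by
    intro x hx
    obtain ⟨p, r, h1, h3⟩ := form_of_comm hx
    rw [mul_inv_eq_iff_eq_mul, eq_inv_mul_iff_mul_eq]
    apply sl_ext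
    show (x : Matrix (Fin 2) (Fin 2) F) * (!![a, b; b, -a] * (x : Matrix (Fin 2) (Fin 2) F)) = !![a, b; b, -a]
    rw [h1]
    ext i j
    fin_cases i <;> fin_cases j <;> simp [Matrix.mul_apply, Fin.sum_univ_succ]
    · linear_combination a * h3
    · linear_combination b * h3
    · linear_combination b * h3
    · linear_combination -a * h3
  hsq1 := by
    intro x hx hxx
    obtain ⟨p, r, h1, h3⟩ := form_of_comm hx
    have h4 : (x : Matrix (Fin 2) (Fin 2) F) * (x : Matrix (Fin 2) (Fin 2) F) = 1 := congrArg Subtype.val hxx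
    rw [h1] at h4
    have h00 := congrFun (congrFun h4 0) 0
    simp [Matrix.mul_apply, Fin.sum_univ_succ] at h00
    have hr : r = 0 := by
      have : 2 * (r * r) = 0 := by linear_combination h3 - h00
      have h5 := (mul_eq_zero.mp this).resolve_left h2
      simpa using h5
    subst hr
    have hp : p * p = 1 := by linear_combination h3
    rcases mul_self_eq_one_iff.mp hp with rfl | rfl
    · left
      apply sl_ext
      show (x : Matrix (Fin 2) (Fin 2) F) = 1
      rw [h1]
      ext i j
      fin_cases i <;> fin_cases j <;> simp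
    · right
      apply sl_ext
      show (x : Matrix (Fin 2) (Fin 2) F) = !![-1, 0; 0, -1]
      rw [h1]
      ext i j
      fin_cases i <;> fin_cases j <;> simp
  hsqm := by
    intro x hx hxx
    obtain ⟨p, r, h1, h3⟩ := form_of_comm hx
    have h4 : (x : Matrix (Fin 2) (Fin 2) F) * (x : Matrix (Fin 2) (Fin 2) F) = !![-1, 0; 0, -1] := congrArg Subtype.val hxx
    rw [h1] at h4
    have h00 := congrFun (congrFun h4 0) 0
    simp [Matrix.mul_apply, Fin.sum_univ_succ] at h00
    have hp : p = 0 := by
      have : 2 * (p * p) = 0 := by linear_combination h3 + h00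
      have h5 := (mul_eq_zero.mp this).resolve_left h2
      simpa using h5
    subst hp
    have hr : r * r = 1 := by linear_combination h3
    rcases mul_self_eq_one_iff.mp hr with rfl | rfl
    · left
      apply sl_ext
      show (x : Matrix (Fin 2) (Fin 2) F) = !![0, -1; 1, 0]
      rw [h1]
    · right
      rw [eq_inv_iff_mul_eq_one]
      apply sl_ext
      show (x : Matrix (Fin 2) (Fin 2) F) * !![0, -1; 1, 0] = 1
      rw [h1]
      ext i j
      fin_cases i <;> fin_cases j <;> simp [Matrix.mul_apply, Fin.sum_univ_succ]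
  hconjJ := by
    intro x hxx
    have h4 : (x : Matrix (Fin 2) (Fin 2) F) * (x : Matrix (Fin 2) (Fin 2) F) = !![-1, 0; 0, -1] := congrArg Subtype.val hxx
    rw [eta x] at h4
    have hdet := det_eq x
    have h00 := congrFun (congrFun h4 0) 0
    have h01 := congrFun (congrFun h4 0) 1
    have h10 := congrFun (congrFun h4 1) 0
    have h11 := congrFun (congrFun h4 1) 1
    simp [Matrix.mul_apply, Fin.sum_univ_succ] at h00 h01 h10 h11
    set p := x.1 0 0 with hp
    set q := x.1 0 1 with hq
    set s := x.1 1 0 with hs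
    set u := x.1 1 1 with hu
    have hu' : u = -p := by
      by_contra hne
      have ht : p + u ≠ 0 := fun h => hne (by linear_combination h)
      have hq0 : q = 0 := by
        have : q * (p + u) = 0 := by linear_combination h01
        exact (mul_eq_zero.mp this).resolve_right ht
      have hs0 : s = 0 := by
        have : s * (p + u) = 0 := by linear_combination h10
        exact (mul_eq_zero.mp this).resolve_right ht
      rw [hq0] at h00 hdet
      have hp0 : p ≠ 0 := by
        rintro h
        rw [h] at h00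
        have : (1 : F) = 0 := by linear_combination h00
        exact one_ne_zero this
      apply ht
      have : p * (p + u) = 0 := by linear_combination h00 + hdet
      exact (mul_eq_zero.mp this).resolve_left hp0
    obtain ⟨X, Y, hXY⟩ : ∃ X Y : F, s * X * X - 2 * p * X * Y - q * Y * Y = 1 := by
      by_cases hs0 : s = 0
      · rw [hs0] at h00
        have hp0 : p ≠ 0 := by
          rintro h
          rw [h] at h00
          have : (1 : F) = 0 := by linear_combination h00
          exact one_ne_zero this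
        refine ⟨-(1 + q) / (2 * p), 1, ?_⟩
        rw [hs0]
        field_simp
        ring
      · obtain ⟨U, Y, hUY⟩ := exists_sq_add_sq hodd s
        refine ⟨(U + p * Y) / s, Y, ?_⟩
        have hq' : q = (-1 - p * p) / s := by
          field_simp
          linear_combination h00
        rw [hq']
        field_simp
        linear_combination hUY
    have hdet' : X * (s * X - p * Y) - (p * X + q * Y) * Y = 1 := by linear_combination hXY
    refine ⟨mkS X (p * X + q * Y) Y (s * X - p * Y) hdet', ?_⟩
    rw [mul_inv_eq_iff_eq_mul]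
    apply sl_ext
    show (!![X, p * X + q * Y; Y, s * X - p * Y] : Matrix (Fin 2) (Fin 2) F) * !![0, -1; 1, 0] =
      (x : Matrix (Fin 2) (Fin 2) F) * !![X, p * X + q * Y; Y, s * X - p * Y]
    rw [eta x, ← hp, ← hq, ← hs, ← hu, hu']
    ext i j
    fin_cases i <;> fin_cases j <;> simp [Matrix.mul_apply, Fin.sum_univ_succ]
    · linear_combination (-X) * h00
    · ring
    · linear_combination (-Y) * h00

end Cfsg.Agent.Lib.Sp4Mat
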