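import Mathlib
import Cfsg.Agent.Lib.Sp4Mat1

set_option autoImplicit false

/-!
# `SL₂(F) ≀ 2` inside `Sp₄(F)`
-/

namespace Cfsg.Agent.Lib.Sp4Mat

open Cfsg.Agent.Lib.Sp4Frame Matrix

variable {F : Type*} [Field F]

/-- `4 × 4` matrices. -/
abbrev M4 (F : Type*) := Matrix (Fin 2 ⊕ Fin 2) (Fin 2 ⊕ Fin 2) F

/-- `2 × 2` matrices. -/
abbrev M2 (F : Type*) := Matrix (Fin 2) (Fin 2) F

/-- The tensor product. -/
def ten (A B : M2 F) : M4 F := Matrix.fromBlocks (A 0 0 • B) (A 0 1 • B) (A 1 0 • B) (A 1 1 • B)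

/-- Block diagonal with respect to the two planes. -/
def bd (a b : M2 F) : M4 F :=
  Matrix.fromBlocks (Matrix.diagonal ![a 0 0, b 0 0]) (Matrix.diagonal ![a 0 1, b 0 1])
    (Matrix.diagonal ![a 1 0, b 1 0]) (Matrix.diagonal ![a 1 1, b 1 1])

theorem ten_mul (A B C D : M2 F) : ten A B * ten C D = ten (A * C) (B * D) := by
  ext x y
  rcases x with i | i <;> rcases y with j | j <;>
    simp [ten, Matrix.mul_apply, Fintype.sum_sum_type, Fin.sum_univ_two] <;> ring

theorem bd_mul (a b c d : M2 F) : bd a b * bd c d = bd (a * c) (b * d) := by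
  ext x y
  rcases x with i | i <;> rcases y with j | j <;> fin_cases i <;> fin_cases j <;>
    simp [bd, Matrix.mul_apply, Fintype.sum_sum_type, Fin.sum_univ_two]

theorem ten_transpose (A B : M2 F) : (ten A B)ᵀ = ten Aᵀ Bᵀ := by
  ext x y
  rcases x with i | i <;> rcases y with j | j <;> simp [ten]

theorem bd_transpose (a b : M2 F) : (bd a b)ᵀ = bd aᵀ bᵀ := by
  ext x y
  rcases x with i | i <;> rcases y with j | j <;> fin_cases i <;> fin_cases j <;> simp [bd]

theorem ten_one : ten (1 : M2 F) 1 = 1 := by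
  ext x y
  rcases x with i | i <;> rcases y with j | j <;> fin_cases i <;> fin_cases j <;> simp [ten]

theorem bd_one : bd (1 : M2 F) 1 = 1 := by
  ext x y
  rcases x with i | i <;> rcases y with j | j <;> fin_cases i <;> fin_cases j <;> simp [bd]

theorem bd_self (a : M2 F) : bd a a = ten a 1 := by
  ext x y
  rcases x with i | i <;> rcases y with j | j <;> fin_cases i <;> fin_cases j <;> simp [bd, ten]

/-- The standard matrix `J`. -/
abbrev Jm (F : Type*) [Field F] : M2 F := !![0, -1; 1, 0]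

theorem J_eq_ten : Matrix.J (Fin 2) F = ten (Jm F) 1 := by
  ext x y
  rcases x with i | i <;> rcases y with j | j <;> fin_cases i <;> fin_cases j <;> simp [ten, Matrix.J]

theorem J_eq_bd : Matrix.J (Fin 2) F = bd (Jm F) (Jm F) := by
  rw [bd_self, J_eq_ten]

theorem mat_det_J (a : M2 F) : a * Jm F * aᵀ = a.det • Jm F := by
  rw [Matrix.det_fin_two]
  ext i j
  fin_cases i <;> fin_cases j <;> simp [Matrix.mul_apply, Fin.sum_univ_succ] <;> ring

theorem bd_mem {a b : M2 F} (ha : a.det = 1) (hb : b.det = 1) : bd a b ∈ Matrix.symplecticGroup (Fin 2) F := by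
  rw [SymplecticGroup.mem_iff, J_eq_bd, bd_transpose, bd_mul, bd_mul, mat_det_J, mat_det_J, ha, hb, one_smul]

theorem ten_smul_left (c : F) (A B : M2 F) : ten (c • A) B = ten A (c • B) := by
  ext x y
  rcases x with i | i <;> rcases y with j | j <;> simp [ten] <;> ring

theorem ten_mem {A B : M2 F} {c : F} (hB : B * Bᵀ = c • 1) (hc : A.det * c = 1) :
    ten A B ∈ Matrix.symplecticGroup (Fin 2) F := by
  rw [SymplecticGroup.mem_iff, J_eq_ten, ten_transpose, ten_mul, ten_mul, mat_det_J, mul_one, hB, ten_smul_left,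
    smul_smul, hc, one_smul]

end Cfsg.Agent.Lib.Sp4Mat
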