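import Mathlib
import Cfsg.Agent.Lib.Sp4Mat2

set_option autoImplicit false

/-!
# The wreath product data inside `Sp₄(F)`
-/

namespace Cfsg.Agent.Lib.Sp4Mat

open Cfsg.Agent.Lib.Sp4Frame Matrix

variable {F : Type*} [Field F]

/-- Shorthand. -/
abbrev SL2 (F : Type*) [Field F] := Matrix.SpecialLinearGroup (Fin 2) F

/-- Shorthand. -/
abbrev Sp4 (F : Type*) [Field F] := Matrix.symplecticGroup (Fin 2) F

/-- The embedding of `SL₂ × SL₂`. -/
def ddHom : SL2 F × SL2 F →* Sp4 F where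
  toFun x := ⟨bd x.1.1 x.2.1, bd_mem x.1.2 x.2.2⟩
  map_one' := Subtype.ext bd_one
  map_mul' _ _ := Subtype.ext (bd_mul _ _ _ _).symm

@[simp] theorem ddHom_val (x : SL2 F × SL2 F) : ((ddHom x : Sp4 F) : M4 F) = bd x.1.1 x.2.1 := rfl

theorem ddHom_inj : Function.Injective (ddHom : SL2 F × SL2 F →* Sp4 F) := by
  rintro ⟨a, b⟩ ⟨c, d⟩ h
  have h1 : bd a.1 b.1 = bd c.1 d.1 := congrArg Subtype.val h
  have e1 : ∀ x y, bd a.1 b.1 x y = bd c.1 d.1 x y := fun x y => by rw [h1]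
  have a00 := e1 (Sum.inl 0) (Sum.inl 0)
  have a01 := e1 (Sum.inl 0) (Sum.inr 0)
  have a10 := e1 (Sum.inr 0) (Sum.inl 0)
  have a11 := e1 (Sum.inr 0) (Sum.inr 0)
  have b00 := e1 (Sum.inl 1) (Sum.inl 1)
  have b01 := e1 (Sum.inl 1) (Sum.inr 1)
  have b10 := e1 (Sum.inr 1) (Sum.inl 1)
  have b11 := e1 (Sum.inr 1) (Sum.inr 1)
  simp [bd] at a00 a01 a10 a11 b00 b01 b10 b11
  refine Prod.ext ?_ ?_
  · apply Subtype.ext
    ext i j
    fin_cases i <;> fin_cases j <;> assumption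
  · apply Subtype.ext
    ext i j
    fin_cases i <;> fin_cases j <;> assumption

/-- The swap. -/
abbrev sw (F : Type*) [Field F] : M2 F := !![0, 1; 1, 0]

/-- The reflection. -/
abbrev dm (F : Type*) [Field F] : M2 F := !![1, 0; 0, -1]

/-- The Hadamard matrix. -/
abbrev Hm (F : Type*) [Field F] : M2 F := !![1, 1; 1, -1]

theorem sw_mul_sw : sw F * sw F = 1 := by
  ext i j
  fin_cases i <;> fin_cases j <;> simp [Matrix.mul_apply, Fin.sum_univ_succ]

theorem sw_transpose : (sw F)ᵀ = sw F := by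
  ext i j
  fin_cases i <;> fin_cases j <;> simp

theorem Hm_transpose : (Hm F)ᵀ = Hm F := by
  ext i j
  fin_cases i <;> fin_cases j <;> simp

theorem Hm_mul_Hm : Hm F * Hm F = (2 : F) • (1 : M2 F) := by
  ext i j
  fin_cases i <;> fin_cases j <;> simp [Matrix.mul_apply, Fin.sum_univ_succ] <;> norm_num

theorem Hm_mul_dm : Hm F * dm F = sw F * Hm F := by
  ext i j
  fin_cases i <;> fin_cases j <;> simp [Matrix.mul_apply, Fin.sum_univ_succ]

theorem Hm_mul_sw : Hm F * sw F = dm F * Hm F := by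
  ext i j
  fin_cases i <;> fin_cases j <;> simp [Matrix.mul_apply, Fin.sum_univ_succ]

/-- `τ`. -/
def tauS : Sp4 F := ⟨ten 1 (sw F), ten_mem (c := 1) (by rw [sw_transpose, sw_mul_sw, one_smul]) (by simp)⟩

@[simp] theorem tauS_val : ((tauS : Sp4 F) : M4 F) = ten 1 (sw F) := rfl

theorem tau_bd (a b : M2 F) : ten 1 (sw F) * bd a b = bd b a * ten 1 (sw F) := by
  ext x y
  rcases x with i | i <;> rcases y with j | j <;> fin_cases i <;> fin_cases j <;>
    simp [ten, bd, Matrix.mul_apply, Fintype.sum_sum_type, Fin.sum_univ_two]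

theorem bd_neg_eq (a b : M2 F) : bd (-1) (-1) * bd a b = bd a b * bd (-1) (-1) := by
  rw [bd_mul, bd_mul]
  simp

theorem m1l_val : ((m1l : SL2 F) : M2 F) = -1 := by
  ext i j
  fin_cases i <;> fin_cases j <;> simp [m1l, mkS]

theorem bd_one_m1 : bd (1 : M2 F) (-1) = ten 1 (dm F) := by
  ext x y
  rcases x with i | i <;> rcases y with j | j <;> fin_cases i <;> fin_cases j <;> simp [ten, bd]

theorem bd_neg_neg_mul (M : M4 F) : bd (-1 : M2 F) (-1) * M = M * bd (-1) (-1) := by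
  have h : bd (-1 : M2 F) (-1) = -1 := by
    ext x y
    rcases x with i | i <;> rcases y with j | j <;> fin_cases i <;> fin_cases j <;> simp [bd]
  rw [h]
  simp

/-- The eigenvalues of `(-1, 1)`. -/
def dv (F : Type*) [Field F] : Fin 2 ⊕ Fin 2 → F := Sum.elim ![-1, 1] ![-1, 1]

theorem bd_m1_one : bd (-1 : M2 F) 1 = Matrix.diagonal (dv F) := by
  ext x y
  rcases x with i | i <;> rcases y with j | j <;> fin_cases i <;> fin_cases j <;> simp [bd, dv]

theorem centralizer_form (h2 : (2 : F) ≠ 0) (M : M4 F) (hM : M * bd (-1 : M2 F) 1 = bd (-1) 1 * M) :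
    M = bd !![M (Sum.inl 0) (Sum.inl 0), M (Sum.inl 0) (Sum.inr 0); M (Sum.inr 0) (Sum.inl 0), M (Sum.inr 0) (Sum.inr 0)]
      !![M (Sum.inl 1) (Sum.inl 1), M (Sum.inl 1) (Sum.inr 1); M (Sum.inr 1) (Sum.inl 1), M (Sum.inr 1) (Sum.inr 1)] := by
  rw [bd_m1_one] at hM
  have key : ∀ x y, M x y * dv F y = dv F x * M x y := by
    intro x y
    have := congrFun (congrFun hM x) y
    rwa [Matrix.mul_diagonal, Matrix.diagonal_mul] at this
  have hzero : ∀ x y, (dv F y - dv F x = 2 ∨ dv F y - dv F x = -2) → M x y = 0 := by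
    intro x y hxy
    have h1 : M x y * (dv F y - dv F x) = 0 := by linear_combination key x y
    rcases hxy with h | h <;> rw [h] at h1
    · exact (mul_eq_zero.mp h1).resolve_right h2
    · exact (mul_eq_zero.mp h1).resolve_right (neg_ne_zero.mpr h2)
  ext x y
  rcases x with i | i <;> rcases y with j | j <;> fin_cases i <;> fin_cases j <;> simp [bd]
  all_goals exact hzero _ _ (by norm_num [dv])

theorem exists_of_centralizer (h2 : (2 : F) ≠ 0) (g : Sp4 F) (hg : g * ddHom (m1l, 1) = ddHom (m1l, 1) * g) :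
    ∃ a b, g = ddHom (a, b) := by
  have hM : (g : M4 F) * bd (-1 : M2 F) 1 = bd (-1) 1 * (g : M4 F) := by
    have : (g : M4 F) * bd (m1l : SL2 F).1 (1 : SL2 F).1 = bd (m1l : SL2 F).1 (1 : SL2 F).1 * (g : M4 F) :=
      congrArg Subtype.val hg
    simpa [m1l_val] using this
  obtain ⟨a, b, hab⟩ : ∃ a b : M2 F, (g : M4 F) = bd a b := ⟨_, _, centralizer_form h2 _ hM⟩
  have hs : (g : M4 F) * Matrix.J (Fin 2) F * (g : M4 F)ᵀ = Matrix.J (Fin 2) F := SymplecticGroup.mem_iff.mp g.2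
  rw [hab, J_eq_bd, bd_transpose, bd_mul, bd_mul, mat_det_J, mat_det_J] at hs
  have e1 := congrFun (congrFun hs (Sum.inl 0)) (Sum.inr 0)
  have e2 := congrFun (congrFun hs (Sum.inl 1)) (Sum.inr 1)
  simp [bd] at e1 e2
  exact ⟨⟨a, e1⟩, ⟨b, e2⟩, Subtype.ext hab⟩

/-- The conjugating element for `z'` and `τ`. -/
def h0S (h2 : (2 : F) ≠ 0) : Sp4 F :=
  ⟨ten !![1, 0; 0, 2⁻¹] (Hm F), ten_mem (c := 2) (by rw [Hm_transpose, Hm_mul_Hm]) (by
    rw [Matrix.det_fin_two_of]; field_simp; ring)⟩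

/-- The wreath data of `Sp₄(F)`. -/
def wrS [Fintype F] (hodd : Fintype.card F % 2 = 1) (h2 : (2 : F) ≠ 0) {a b : F} (hab : a * a + b * b = -1) :
    WrData (SL2 F) (Sp4 F) (qdata hodd h2 hab) where
  dd := ddHom
  hinj := ddHom_inj
  τ := tauS
  hτ2 := Subtype.ext (by
    show ten 1 (sw F) * ten 1 (sw F) = 1
    rw [ten_mul, sw_mul_sw, one_mul, ten_one])
  hτd := by
    intro x y
    rw [mul_inv_eq_iff_eq_mul]
    apply Subtype.ext
    exact tau_bd x.1 y.1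
  hneg := by
    intro g
    apply Subtype.ext
    show (g : M4 F) * bd (m1l : SL2 F).1 (m1l : SL2 F).1 = bd (m1l : SL2 F).1 (m1l : SL2 F).1 * (g : M4 F)
    rw [m1l_val, bd_neg_neg_mul]
  hB := exists_of_centralizer h2
  h₀ := by
    refine ⟨h0S h2, ?_⟩
    rw [mul_inv_eq_iff_eq_mul]
    apply Subtype.ext
    show ten !![1, 0; 0, 2⁻¹] (Hm F) * bd (1 : SL2 F).1 (m1l : SL2 F).1 = ten 1 (sw F) * ten !![1, 0; 0, 2⁻¹] (Hm F)
    rw [m1l_val, ten_mul]
    simp only [Matrix.SpecialLinearGroup.coe_one]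
    rw [bd_one_m1, ten_mul, Hm_mul_dm, mul_one, one_mul]

/-- Case I: `2` is a square. -/
theorem caseI [Fintype F] (hodd : Fintype.card F % 2 = 1) (h2 : (2 : F) ≠ 0) {a b : F} (hab : a * a + b * b = -1)
    {β : F} (hβ : β * β = 2) (S : Sylow 2 (Sp4 F ⧸ Subgroup.center (Sp4 F))) :
    (Cfsg.groupFusionSystem (S : Subgroup (Sp4 F ⧸ Subgroup.center (Sp4 F)))).IsSimple 2 := by
  have hβ0 : β ≠ 0 := by
    rintro rfl
    apply h2
    rw [← hβ, zero_mul]
  obtain ⟨α, hα⟩ : ∃ α : F, α * α * 2 = 1 := ⟨β⁻¹, by rw [← hβ]; field_simp⟩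
  let c₀ : SL2 F := mkS α (-α) α α (by linear_combination hα)
  have hc₀2 : c₀ * c₀ = (qdata hodd h2 hab).J := by
    apply sl_ext
    show (!![α, -α; α, α] : M2 F) * !![α, -α; α, α] = !![0, -1; 1, 0]
    ext i j
    fin_cases i <;> fin_cases j <;> simp [Matrix.mul_apply, Fin.sum_univ_succ]
    · linear_combination -hα
    · linear_combination hα
  refine (wrS hodd h2 hab).main_caseI (c₀ := c₀) ⟨comm_of_form (p := α) (r := α) rfl, 3, ?_⟩ hc₀2 S
  have h1 : c₀ ^ 2 ^ 3 = ((c₀ * c₀) * (c₀ * c₀)) * ((c₀ * c₀) * (c₀ * c₀)) := by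
    simp [pow_succ, mul_assoc]
  rw [h1, hc₀2, (qdata hodd h2 hab).hJJ, (qdata hodd h2 hab).m1_sq]

end Cfsg.Agent.Lib.Sp4Mat
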