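import Mathlib
import Cfsg.Agent.Lib.Sp4Mat3
import Cfsg.Agent.Lib.L3Fus

set_option autoImplicit false

/-!
# `Sp₄(F)`, the case where `2` is not a square
-/

namespace Cfsg.Agent.Lib.Sp4Mat

open Cfsg.Agent.Lib.Sp4Frame Matrix

variable {F : Type*} [Field F] [Fintype F]

section classify

variable (hodd : Fintype.card F % 2 = 1) (h2 : (2 : F) ≠ 0) {a b : F} (hab : a * a + b * b = -1)

theorem no_fourth (hns : ¬ IsSquare (2 : F)) (y : SL2 F) (hy : y * (qdata hodd h2 hab).J = (qdata hodd h2 hab).J * y) :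
    y * y * (y * y) ≠ (qdata hodd h2 hab).m1 := by
  intro h4
  set D := qdata hodd h2 hab with hD
  have hyy : (y * y) * D.J = D.J * (y * y) := by
    rw [mul_assoc, hy, ← mul_assoc, hy, mul_assoc]
  obtain ⟨p, r, h1, h3⟩ := form_of_comm hy
  have hfin : ∀ p r : F, p * p + r * r = 1 → p * p - r * r = 0 → p ≠ 0 → False := by
    intro p r h3 h5 hp
    apply hns
    refine ⟨p⁻¹, ?_⟩
    field_simp
    linear_combination h3 + h5
  have hval : (y * y : SL2 F).1 = !![p, -r; r, p] * !![p, -r; r, p] := by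
    show (y : M2 F) * (y : M2 F) = _
    rw [h1]
  rcases D.hsqm _ hyy h4 with h6 | h6
  · have h7 : (y * y : SL2 F).1 = !![0, -1; 1, 0] := by
      rw [h6]; rfl
    rw [hval] at h7
    have h00 := congrFun (congrFun h7 0) 0
    have h10 := congrFun (congrFun h7 1) 0
    simp [Matrix.mul_apply, Fin.sum_univ_succ] at h00 h10
    refine hfin p r h3 (by linear_combination h00) ?_
    rintro rfl
    simp at h10
  · have h7 : (y * y * (qdata hodd h2 hab).J : SL2 F).1 = 1 := by
      rw [h6, inv_mul_cancel]; rfl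
    have h8 : (y * y * (qdata hodd h2 hab).J : SL2 F).1 = !![p, -r; r, p] * !![p, -r; r, p] * !![0, -1; 1, 0] := by
      show (y * y : SL2 F).1 * !![0, -1; 1, 0] = _
      rw [hval]
    rw [h8] at h7
    have h00 := congrFun (congrFun h7 0) 0
    have h01 := congrFun (congrFun h7 0) 1
    simp [Matrix.mul_apply, Fin.sum_univ_succ] at h00 h01
    refine hfin p r h3 (by linear_combination -h01) ?_
    rintro rfl
    simp at h00

theorem pow_four (hns : ¬ IsSquare (2 : F)) (k : ℕ) : ∀ x : SL2 F, x * (qdata hodd h2 hab).J = (qdata hodd h2 hab).J * x →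
    x ^ 2 ^ (k + 2) = 1 → x * x * (x * x) = 1 := by
  set D := qdata hodd h2 hab with hD
  induction k with
  | zero =>
    intro x _ hx
    have : x ^ 2 ^ (0 + 2) = x * x * (x * x) := by
      simp [pow_succ, mul_assoc]
    rwa [this] at hx
  | succ k ih =>
    intro x hc hx
    have hyy : (x * x) * D.J = D.J * (x * x) := by
      rw [mul_assoc, hc, ← mul_assoc, hc, mul_assoc]
    have h1 : (x * x) ^ 2 ^ (k + 2) = 1 := by
      rw [← pow_two, ← pow_mul, ← pow_succ']
      exact hx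
    have h2' := ih (x * x) hyy h1
    have hzz : (x * x * (x * x)) * D.J = D.J * (x * x * (x * x)) := by
      rw [mul_assoc, hyy, ← mul_assoc, hyy, mul_assoc]
    rcases D.hsq1 _ hzz h2' with h3 | h3
    · exact h3
    · exact absurd h3 (no_fourth hodd h2 hab hns x hc)

theorem classify_Q1 (hns : ¬ IsSquare (2 : F)) : ∀ x ∈ (qdata hodd h2 hab).Q1,
    x = 1 ∨ x = (qdata hodd h2 hab).m1 ∨ x = (qdata hodd h2 hab).J ∨ x = (qdata hodd h2 hab).J⁻¹ := by
  set D := qdata hodd h2 hab with hD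
  rintro x ⟨hc, k, hk⟩
  have h1 : x ^ 2 ^ (k + 2) = 1 := by
    rw [pow_add, pow_mul, hk, one_pow]
  have h3 := pow_four hodd h2 hab hns k x hc h1
  have hyy : (x * x) * D.J = D.J * (x * x) := by
    rw [mul_assoc, hc, ← mul_assoc, hc, mul_assoc]
  rcases D.hsq1 _ hyy h3 with h4 | h4
  · rcases D.hsq1 _ hc h4 with h5 | h5
    · exact Or.inl h5
    · exact Or.inr (Or.inl h5)
  · rcases D.hsqm _ hc h4 with h5 | h5
    · exact Or.inr (Or.inr (Or.inl h5))
    · exact Or.inr (Or.inr (Or.inr h5))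

end classify

theorem cube_mat (p q s t : F) (ht : p + t = -1) (hd : p * t - q * s = 1) :
    (!![p, q; s, t] * !![p, q; s, t] * !![p, q; s, t] : M2 F) = 1 := by
  have ht' : t = -1 - p := by linear_combination ht
  subst ht'
  ext i j
  fin_cases i <;> fin_cases j <;> simp [Matrix.mul_apply, Fin.sum_univ_succ]
  · linear_combination (1 - p) * hd
  · linear_combination (-q) * hd
  · linear_combination (-s) * hd
  · linear_combination (2 + p) * hd

section data

variable {h a b : F} (hh : 2 * h = 1) (hab : a * a + b * b = -1)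

include hh hab in
theorem w_det : (h * (-1 - a - b)) * (h * (-1 + a + b)) - (h * (-1 - b + a)) * (h * (1 - b + a)) = 1 := by
  linear_combination (2 * h + 1) * hh - 2 * h * h * hab

/-- The element of order three. -/
def wS : SL2 F := mkS (h * (-1 - a - b)) (h * (-1 - b + a)) (h * (1 - b + a)) (h * (-1 + a + b)) (w_det hh hab)

include hh in
theorem wS_cube : (wS hh hab) * (wS hh hab) * (wS hh hab) = 1 := by
  apply sl_ext
  exact cube_mat _ _ _ _ (by linear_combination -hh) (w_det hh hab)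

/-- The element `-J j`. -/
def lS : SL2 F := mkS b (-a) (-a) (-b) (by linear_combination -hab)

theorem wS_J : (wS hh hab) * Jl = m1l * jl hab * (wS hh hab) := by
  apply sl_ext
  show (!![h * (-1 - a - b), h * (-1 - b + a); h * (1 - b + a), h * (-1 + a + b)] : M2 F) * !![0, -1; 1, 0] =
    !![-1, 0; 0, -1] * !![a, b; b, -a] * !![h * (-1 - a - b), h * (-1 - b + a); h * (1 - b + a), h * (-1 + a + b)]
  ext i j
  fin_cases i <;> fin_cases j <;> simp [Matrix.mul_apply, Fin.sum_univ_succ] <;>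
    first
    | ring1
    | linear_combination h * hab
    | linear_combination (-h) * hab

theorem wS_j : (wS hh hab) * jl hab = lS hab * (wS hh hab) := by
  apply sl_ext
  show (!![h * (-1 - a - b), h * (-1 - b + a); h * (1 - b + a), h * (-1 + a + b)] : M2 F) * !![a, b; b, -a] =
    !![b, -a; -a, -b] * !![h * (-1 - a - b), h * (-1 - b + a); h * (1 - b + a), h * (-1 + a + b)]
  ext i j
  fin_cases i <;> fin_cases j <;> simp [Matrix.mul_apply, Fin.sum_univ_succ] <;>
    first
    | ring1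
    | linear_combination h * hab
    | linear_combination (-h) * hab

theorem lS_inv : (Jl * jl hab)⁻¹ = lS hab := by
  apply inv_eq_of_mul_eq_one_left
  apply sl_ext
  show (!![b, -a; -a, -b] : M2 F) * (!![0, -1; 1, 0] * !![a, b; b, -a]) = 1
  ext i j
  fin_cases i <;> fin_cases j <;> simp [Matrix.mul_apply, Fin.sum_univ_succ] <;>
    first
    | ring1
    | linear_combination hab
    | linear_combination -hab

/-- The matrix `u₁`. -/
abbrev u₁ (h a b : F) : M2 F := !![-h * a, -h * (b - 1); -h * (b + 1), h * a]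

/-- The matrix `u₂`. -/
abbrev u₂ (h a b : F) : M2 F := !![-h * (a - b), -h * (a + b); -h * (a + b), -h * (b - a)]

include hh hab in
theorem u₁_det : (u₁ h a b).det * 2 = 1 := by
  rw [Matrix.det_fin_two_of]
  linear_combination (2 * h + 1) * hh - 2 * h * h * hab

include hh hab in
theorem u₂_det : (u₂ h a b).det * 2 = 1 := by
  rw [Matrix.det_fin_two_of]
  linear_combination (2 * h + 1) * hh - 4 * h * h * hab

/-- The element `u ⊗ H`. -/
def yS (u : M2 F) (hu : u.det * 2 = 1) : Sp4 F :=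
  ⟨ten u (Hm F), ten_mem (c := 2) (by rw [Hm_transpose, Hm_mul_Hm]) hu⟩

omit [Fintype F] in
theorem bd_coe_one_m1 : bd ((1 : SL2 F) : M2 F) ((m1l : SL2 F) : M2 F) = ten 1 (dm F) := by
  rw [m1l_val]
  simp only [Matrix.SpecialLinearGroup.coe_one]
  exact bd_one_m1

theorem yS_z (u : M2 F) (hu : u.det * 2 = 1) : yS u hu * ddHom (1, m1l) * (yS u hu)⁻¹ = tauS := by
  rw [mul_inv_eq_iff_eq_mul]
  apply Subtype.ext
  show ten u (Hm F) * bd ((1 : SL2 F) : M2 F) ((m1l : SL2 F) : M2 F) = ten 1 (sw F) * ten u (Hm F)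
  rw [bd_coe_one_m1, ten_mul, ten_mul, Hm_mul_dm, mul_one, one_mul]

theorem yS_τ (u : M2 F) (hu : u.det * 2 = 1) : yS u hu * tauS * (yS u hu)⁻¹ = ddHom (1, m1l) := by
  rw [mul_inv_eq_iff_eq_mul]
  apply Subtype.ext
  show ten u (Hm F) * ten 1 (sw F) = bd ((1 : SL2 F) : M2 F) ((m1l : SL2 F) : M2 F) * ten u (Hm F)
  rw [bd_coe_one_m1, ten_mul, ten_mul, Hm_mul_sw, mul_one, one_mul]

theorem yS_δ (u : M2 F) (hu : u.det * 2 = 1) (x x' : SL2 F) (hx : u * x.1 = x'.1 * u) :
    yS u hu * ddHom (x, x) * (yS u hu)⁻¹ = ddHom (x', x') := by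
  rw [mul_inv_eq_iff_eq_mul]
  apply Subtype.ext
  show ten u (Hm F) * bd x.1 x.1 = bd x'.1 x'.1 * ten u (Hm F)
  rw [bd_self, bd_self, ten_mul, ten_mul, hx, mul_one, one_mul]

theorem yS_mul (u v : M2 F) (hu : u.det * 2 = 1) (hv : v.det * 2 = 1) (x : SL2 F) (hx : (2 : F) • (u * v) = x.1) :
    yS u hu * yS v hv = ddHom (x, x) := by
  apply Subtype.ext
  show ten u (Hm F) * ten v (Hm F) = bd x.1 x.1
  rw [bd_self, ten_mul, Hm_mul_Hm, ← ten_smul_left, hx]

include hh hab in
theorem u₁_I : u₁ h a b * (Jl : SL2 F).1 = (jl hab).1 * u₁ h a b := by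
  show _ * !![0, -1; 1, 0] = !![a, b; b, -a] * _
  ext i j
  fin_cases i <;> fin_cases j <;> simp [Matrix.mul_apply, Fin.sum_univ_succ] <;>
    first
    | ring1
    | linear_combination h * hab
    | linear_combination (-h) * hab

include hh hab in
theorem u₁_K : u₁ h a b * (jl hab).1 = (Jl : SL2 F).1 * u₁ h a b := by
  show _ * !![a, b; b, -a] = !![0, -1; 1, 0] * _
  ext i j
  fin_cases i <;> fin_cases j <;> simp [Matrix.mul_apply, Fin.sum_univ_succ] <;>
    first
    | ring1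
    | linear_combination h * hab
    | linear_combination (-h) * hab

include hh hab in
theorem u₂_I : u₂ h a b * (Jl : SL2 F).1 = ((Jl : SL2 F)⁻¹).1 * u₂ h a b := by
  have h1 : (((Jl : SL2 F)⁻¹).1 : M2 F) = !![0, 1; -1, 0] := by
    have : ((Jl : SL2 F)⁻¹) = mkS 0 1 (-1) 0 (by ring) := by
      apply inv_eq_of_mul_eq_one_left
      apply sl_ext
      show (!![0, 1; -1, 0] : M2 F) * !![0, -1; 1, 0] = 1
      ext i j
      fin_cases i <;> fin_cases j <;> simp [Matrix.mul_apply, Fin.sum_univ_succ]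
    rw [this]
    rfl
  rw [h1]
  show _ * !![0, -1; 1, 0] = _
  ext i j
  fin_cases i <;> fin_cases j <;> simp [Matrix.mul_apply, Fin.sum_univ_succ] <;>
    first
    | ring1
    | linear_combination h * hab
    | linear_combination (-h) * hab

include hh hab in
theorem u₂_K : u₂ h a b * (jl hab).1 = (Jl * jl hab : SL2 F).1 * u₂ h a b := by
  show _ * !![a, b; b, -a] = (!![0, -1; 1, 0] * !![a, b; b, -a]) * _
  ext i j
  fin_cases i <;> fin_cases j <;> simp [Matrix.mul_apply, Fin.sum_univ_succ] <;>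
    first
    | ring1
    | linear_combination h * hab
    | linear_combination (-h) * hab
    | linear_combination (h * a) * hab
    | linear_combination (-h * a) * hab

include hh hab in
theorem u₁u₂ : (2 : F) • (u₁ h a b * u₂ h a b) = (wS hh hab).1 := by
  show _ = !![h * (-1 - a - b), h * (-1 - b + a); h * (1 - b + a), h * (-1 + a + b)]
  ext i j
  fin_cases i <;> fin_cases j <;> simp [Matrix.mul_apply, Fin.sum_univ_succ]
  · linear_combination (h * (-b - a - 1)) * hh + 2 * h * h * hab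
  · linear_combination (h * (a - b - 1)) * hh + 2 * h * h * hab
  · linear_combination (h * (a - b + 1)) * hh - 2 * h * h * hab
  · linear_combination (h * (b + a - 1)) * hh + 2 * h * h * hab

include hh hab in
theorem u₁u₁ : (2 : F) • (u₁ h a b * u₁ h a b) = (m1l : SL2 F).1 := by
  show _ = !![-1, 0; 0, -1]
  ext i j
  fin_cases i <;> fin_cases j <;> simp [Matrix.mul_apply, Fin.sum_univ_succ]
  · linear_combination 2 * h * h * hab - (2 * h + 1) * hh
  · right; ring1
  · right; ring1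
  · linear_combination 2 * h * h * hab - (2 * h + 1) * hh

include hh hab in
theorem u₂u₂ : (2 : F) • (u₂ h a b * u₂ h a b) = (m1l : SL2 F).1 := by
  show _ = !![-1, 0; 0, -1]
  ext i j
  fin_cases i <;> fin_cases j <;> simp [Matrix.mul_apply, Fin.sum_univ_succ]
  · linear_combination 4 * h * h * hab - (2 * h + 1) * hh
  · right; ring1
  · right; ring1
  · linear_combination 4 * h * h * hab - (2 * h + 1) * hh

end data

/-- Case II: `2` is not a square. -/
theorem caseII (hodd : Fintype.card F % 2 = 1) (h2 : (2 : F) ≠ 0) {a b : F} (hab : a * a + b * b = -1)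
    (hns : ¬ IsSquare (2 : F)) (S : Sylow 2 (Sp4 F ⧸ Subgroup.center (Sp4 F))) :
    (Cfsg.groupFusionSystem (S : Subgroup (Sp4 F ⧸ Subgroup.center (Sp4 F)))).IsSimple 2 := by
  obtain ⟨h, hh⟩ : ∃ h : F, 2 * h = 1 := ⟨2⁻¹, by field_simp⟩
  set W := wrS hodd h2 hab with hW
  have hd₁ := u₁_det hh hab
  have hd₂ := u₂_det hh hab
  have hδ : ∀ x : SL2 F, W.δ x = ddHom (x, x) := fun _ => rfl
  have hz : W.dd (1, (qdata hodd h2 hab).m1) = ddHom (1, m1l) := rfl
  have hτ : W.τ = tauS := rfl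
  have hJ : (qdata hodd h2 hab).J = Jl := rfl
  have hj : (qdata hodd h2 hab).j = jl hab := rfl
  have hzm : ddHom (1, m1l) ∈ W.Rc := W.z'_mem
  have hτm : tauS ∈ W.Rc := W.τ_memR
  have hJm : ddHom (Jl, Jl) ∈ W.Rc := W.δJ_mem
  have hjm : ddHom (jl hab, jl hab) ∈ W.Rc := W.δj_mem
  refine W.main_caseII (classify_Q1 hodd h2 hab hns) (w := wS hh hab) (wS_cube hh hab) ?_ ?_
    (y₁ := yS _ hd₁) (y₂ := yS _ hd₂) (yS_mul _ _ hd₁ hd₂ _ (u₁u₂ hh hab))
    (yS_mul _ _ hd₁ hd₁ _ (u₁u₁ hh hab)) (yS_mul _ _ hd₂ hd₂ _ (u₂u₂ hh hab)) ?_ ?_ S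
  · rw [mul_inv_eq_iff_eq_mul, (qdata hodd h2 hab).j_inv]
    exact wS_J hh hab
  · rw [mul_inv_eq_iff_eq_mul]
    show wS hh hab * jl hab = (Jl * jl hab)⁻¹ * wS hh hab
    rw [lS_inv hab]
    exact wS_j hh hab
  · apply W.conj_mem_Rc
    · rw [hδ, hJ, yS_δ _ hd₁ _ _ (u₁_I hh hab)]
      exact hjm
    · rw [hδ, hj, yS_δ _ hd₁ _ _ (u₁_K hh hab)]
      exact hJm
    · rw [hz, yS_z]
      exact hτm
    · rw [hτ, yS_τ]
      exact hzm
  · apply W.conj_mem_Rc
    · rw [hδ, hJ, yS_δ _ hd₂ _ _ (u₂_I hh hab)]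
      have : ddHom (Jl⁻¹, Jl⁻¹) = (ddHom (Jl, Jl) : Sp4 F)⁻¹ := by
        rw [← map_inv, Prod.inv_mk]
      rw [this]
      exact W.Rc.inv_mem hJm
    · rw [hδ, hj, yS_δ _ hd₂ _ _ (u₂_K hh hab)]
      have : ddHom (Jl * jl hab, Jl * jl hab) = (ddHom (Jl, Jl) : Sp4 F) * ddHom (jl hab, jl hab) := by
        rw [← map_mul, Prod.mk_mul_mk]
      rw [this]
      exact W.Rc.mul_mem hJm hjm
    · rw [hz, yS_z]
      exact hτm
    · rw [hτ, yS_τ]
      exact hzm

/-- The main theorem. -/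
theorem main (hodd : Fintype.card F % 2 = 1) (S : Sylow 2 (Sp4 F ⧸ Subgroup.center (Sp4 F))) :
    (Cfsg.groupFusionSystem (S : Subgroup (Sp4 F ⧸ Subgroup.center (Sp4 F)))).IsSimple 2 := by
  have h2 : (2 : F) ≠ 0 := Cfsg.Agent.Lib.L3Fus.two_ne_of_odd hodd
  obtain ⟨a, b, hab⟩ := exists_sq_add_sq hodd (-1 : F)
  by_cases hs : IsSquare (2 : F)
  · obtain ⟨β, hβ⟩ := hs
    exact caseI hodd h2 hab hβ.symm S
  · exact caseII hodd h2 hab hs S

end Cfsg.Agent.Lib.Sp4Mat
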