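import Mathlib
import Cfsg.Agent.Lib.FourierAb
import Cfsg.Agent.Lib.SympForm
import Cfsg.Agent.Lib.SympGen

/-!
# Symplectic groups in characteristic two: the abelian radical of the stabiliser of a vector

Elements `E v u c : x ↦ x + B(x,v) u + B(x,u) v + c B(x,v) v` for `B(v,u) = 0`, their group law,
conjugation, and the elements of the Levi subgroups used in the degree estimate.
-/

set_option autoImplicit false
set_option linter.unusedSectionVars false
set_option linter.unusedVariables false

namespace Cfsg.Agent.Lib.SpEvenMinDeg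

open Matrix Cfsg Cfsg.Agent.Lib.SympForm Cfsg.Agent.Lib.FourierAb

variable {F : Type*} [Field F] [CharP F 2] {n k : ℕ}

/-- The vector space. -/
abbrev VV (n : ℕ) (F : Type*) := Fin n ⊕ Fin n → F

/-- The group. -/
abbrev SpG (n : ℕ) (F : Type*) [Field F] := Matrix.symplecticGroup (Fin n) F

/-- The form. -/
local notation "B" => sympForm n F

/-- The action on vectors. -/
def act (g : SpG n F) (x : VV n F) : VV n F := g.1 *ᵥ x

lemma act_mul (g g' : SpG n F) (x : VV n F) : act (g * g') x = act g (act g' x) :=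
  mulVec_val_mul g g' x

lemma act_one (x : VV n F) : act (1 : SpG n F) x = x := by
  change (1 : Matrix _ _ F) *ᵥ x = x
  simp

lemma act_add (g : SpG n F) (x y : VV n F) : act g (x + y) = act g x + act g y := by
  simp [act, Matrix.mulVec_add]

lemma act_smul (g : SpG n F) (a : F) (x : VV n F) : act g (a • x) = a • act g x := by
  simp [act, Matrix.mulVec_smul]

lemma act_zero (g : SpG n F) : act g (0 : VV n F) = 0 := by
  simp [act]

lemma B_act (g : SpG n F) (x y : VV n F) : B (act g x) (act g y) = B x y := sp_preserves g x y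

lemma act_inv_act (g : SpG n F) (x : VV n F) : act g⁻¹ (act g x) = x := by
  rw [← act_mul, inv_mul_cancel, act_one]

lemma act_act_inv (g : SpG n F) (x : VV n F) : act g (act g⁻¹ x) = x := by
  rw [← act_mul, mul_inv_cancel, act_one]

lemma ext_act {g g' : SpG n F} (h : ∀ x, act g x = act g' x) : g = g' := by
  classical
  apply Subtype.ext
  ext i j
  have := congrFun (h (Pi.single j 1)) i
  simpa [act, Matrix.mulVec_single_one] using this

omit [CharP F 2] in
/-- An element of the group from a form preserving linear map. -/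
def spOf (f : VV n F →ₗ[F] VV n F) (hf : ∀ x y, B (f x) (f y) = B x y) : SpG n F :=
  ⟨LinearMap.toMatrix' f, (mem_symplecticGroup_iff_preserves _).2 (fun x y => by
    rw [LinearMap.toMatrix'_mulVec, LinearMap.toMatrix'_mulVec, hf])⟩

omit [CharP F 2] in
lemma act_spOf (f : VV n F →ₗ[F] VV n F) (hf : ∀ x y, B (f x) (f y) = B x y) (x : VV n F) :
    act (spOf f hf) x = f x := LinearMap.toMatrix'_mulVec f x

/-! ### The form in characteristic two -/

lemma B_comm (x y : VV n F) : B x y = B y x := by
  rw [sympForm_antisymm, CharTwo.neg_eq]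

/-- The quadratic form with polar form `B`. -/
def f0 (x : VV n F) : F := ∑ j, x (Sum.inl j) * x (Sum.inr j)

lemma f0_add (x y : VV n F) : f0 (x + y) = f0 x + f0 y + B x y := by
  rw [sympForm_apply]
  simp only [f0, Pi.add_apply]
  rw [← Finset.sum_add_distrib, ← Finset.sum_add_distrib]
  refine Finset.sum_congr rfl fun j _ => ?_
  rw [CharTwo.sub_eq_add]
  ring

lemma f0_zero : f0 (0 : VV n F) = 0 := by
  simp [f0]

/-- The linear map underlying `E`. -/
def Emap (v u : VV n F) (c : F) : VV n F →ₗ[F] VV n F where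
  toFun x := x + B x v • u + B x u • v + (c * B x v) • v
  map_add' x y := by
    rw [sympForm_add_left, sympForm_add_left]
    module
  map_smul' a x := by
    rw [sympForm_smul_left, sympForm_smul_left]
    simp only [RingHom.id_apply]
    module

lemma Emap_apply (v u : VV n F) (c : F) (x : VV n F) :
    Emap v u c x = x + B x v • u + B x u • v + (c * B x v) • v := rfl

lemma Emap_B {v u : VV n F} (c : F) (h : B v u = 0) (x y : VV n F) :
    B (Emap v u c x) (Emap v u c y) = B x y := by
  have hvv := sympForm_self (m := n) v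
  have huu := sympForm_self (m := n) u
  have h' : B u v = 0 := by rw [B_comm, h]
  simp only [Emap_apply, sympForm_add_left, sympForm_add_right, sympForm_smul_left,
    sympForm_smul_right, hvv, huu, h, h']
  rw [B_comm v y, B_comm u y]
  have h2 : ∀ a : F, a + a = 0 := CharTwo.add_self_eq_zero
  ring_nf
  linear_combination (B y v * B x u + B y u * B x v + c * B y v * B x v) * h2 1

open Classical in
/-- The element `E v u c` (the identity when `B v u ≠ 0`). -/
noncomputable def E (v u : VV n F) (c : F) : SpG n F :=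
  if h : B v u = 0 then spOf (Emap v u c) (Emap_B c h) else 1

lemma act_E {v u : VV n F} (c : F) (h : B v u = 0) (x : VV n F) :
    act (E v u c) x = x + B x v • u + B x u • v + (c * B x v) • v := by
  rw [E, dif_pos h, act_spOf]
  rfl

lemma E_zero_zero (v : VV n F) : E v 0 0 = (1 : SpG n F) := by
  apply ext_act
  intro x
  rw [act_E _ (sympForm_zero_right _), act_one, sympForm_zero_right]
  simp

lemma B_E_left {v u : VV n F} (c : F) (h : B v u = 0) (x : VV n F) :
    B (act (E v u c) x) v = B x v := by
  have h' : B u v = 0 := by rw [B_comm, h]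
  rw [act_E c h]
  simp [sympForm_add_left, sympForm_smul_left, h', sympForm_self]

lemma E_mul {v u u' : VV n F} (c c' : F) (h : B v u = 0) (h' : B v u' = 0) :
    E v u' c' * E v u c = E v (u + u') (c + c' + B u u') := by
  have h3 : B v (u + u') = 0 := by rw [sympForm_add_right, h, h', add_zero]
  apply ext_act
  intro x
  rw [act_mul, act_E c' h', act_E _ h3, B_E_left c h, act_E c h]
  have h4 : B u' v = 0 := by rw [B_comm, h']
  have h5 : B x v • u + B x u • v + (c * B x v) • v = _ := rfl
  simp only [sympForm_add_left, sympForm_add_right, sympForm_smul_left, h4, sympForm_smul_right, h']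
  rw [B_comm u u']
  simp only [mul_zero, zero_smul, add_zero]
  module

lemma E_comm {v u u' : VV n F} (c c' : F) (h : B v u = 0) (h' : B v u' = 0) :
    E v u' c' * E v u c = E v u c * E v u' c' := by
  rw [E_mul c c' h h', E_mul c' c h' h, add_comm u u', add_comm c c', B_comm u u']

lemma conj_E (g : SpG n F) {v u : VV n F} (c : F) (h : B v u = 0) :
    g * E v u c = E (act g v) (act g u) c * g := by
  have h' : B (act g v) (act g u) = 0 := by rw [B_act, h]
  apply ext_act
  intro x
  rw [act_mul, act_mul, act_E c h, act_E c h', act_add, act_add, act_add, act_smul, act_smul,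
    act_smul]
  have e1 : B (act g x) (act g v) = B x v := B_act g x v
  have e2 : B (act g x) (act g u) = B x u := B_act g x u
  rw [e1, e2]

/-- The transvection. -/
noncomputable def tau (v : VV n F) (c : F) : SpG n F := E v 0 c

lemma tau_good (v : VV n F) : B v 0 = 0 := sympForm_zero_right _

lemma act_tau (v : VV n F) (c : F) (x : VV n F) : act (tau v c) x = x + (c * B x v) • v := by
  rw [tau, act_E c (tau_good v), sympForm_zero_right]
  simp

lemma tau_val (v : VV n F) (c : F) :
    ((tau v c : SpG n F) : Matrix _ _ F) = sympTransvection n v c := by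
  classical
  ext i j
  have h1 := congrFun (act_tau v c (Pi.single j 1)) i
  have h2 := congrFun (mulVec_sympTransvection v c (Pi.single j 1)) i
  simp only [act, Matrix.mulVec_single_one, Matrix.col_apply] at h1 h2
  rw [h1, h2]

lemma tau_zero (v : VV n F) : tau v 0 = (1 : SpG n F) := E_zero_zero v

lemma tau_add (v : VV n F) (c c' : F) : tau v (c + c') = tau v c * tau v c' := by
  have := E_mul (v := v) (u := 0) (u' := 0) c' c (tau_good v) (tau_good v)
  rw [add_zero, sympForm_zero_right, add_zero, add_comm c' c] at this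
  exact this.symm

lemma conj_tau (g : SpG n F) (v : VV n F) (c : F) : g * tau v c = tau (act g v) c * g := by
  have := conj_E g (v := v) (u := 0) c (tau_good v)
  rwa [act_zero] at this

lemma tau_smul (v : VV n F) (a c : F) : tau (a • v) c = tau v (a ^ 2 * c) := by
  apply ext_act
  intro x
  rw [act_tau, act_tau, sympForm_smul_right, smul_smul]
  congr 2
  ring

lemma E_tau_comm {v u : VV n F} (c c' : F) (h : B v u = 0) :
    E v u c * tau v c' = tau v c' * E v u c := E_comm c' c (tau_good v) h

lemma tau_act_of_orth {s x : VV n F} (c : F) (h : B x s = 0) : act (tau s c) x = x := by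
  rw [act_tau, h]
  simp

/-! ### Coordinates -/

variable (n) in
/-- The first basis vectors. -/
def ee (F : Type*) [Field F] (i : Fin n) : VV n F := Pi.single (Sum.inl i) 1

variable (n) in
/-- The second basis vectors. -/
def ff (F : Type*) [Field F] (i : Fin n) : VV n F := Pi.single (Sum.inr i) 1

lemma B_ee (x : VV n F) (j : Fin n) : B x (ee n F j) = x (Sum.inr j) := by
  classical
  rw [sympForm_apply, Finset.sum_eq_single j]
  · simp [ee]
  · intro b _ hb
    simp [ee, Pi.single_apply, hb]
  · simp

lemma B_ff (x : VV n F) (j : Fin n) : B x (ff n F j) = x (Sum.inl j) := by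
  classical
  rw [sympForm_apply, Finset.sum_eq_single j]
  · simp [ff, CharTwo.neg_eq]
  · intro b _ hb
    simp [ff, Pi.single_apply, hb]
  · simp

lemma ee_inl_self (j : Fin n) : ee n F j (Sum.inl j) = 1 := by
  classical
  simp [ee]

lemma ee_inr (j l : Fin n) : ee n F j (Sum.inr l) = 0 := by
  classical
  simp [ee]

lemma ee_inl_ne {j l : Fin n} (h : l ≠ j) : ee n F j (Sum.inl l) = 0 := by
  classical
  simp [ee, Pi.single_apply, h]

lemma ff_inr_self (j : Fin n) : ff n F j (Sum.inr j) = 1 := by
  classical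
  simp [ff]

lemma ff_inl (j l : Fin n) : ff n F j (Sum.inl l) = 0 := by
  classical
  simp [ff]

lemma ff_inr_ne {j l : Fin n} (h : l ≠ j) : ff n F j (Sum.inr l) = 0 := by
  classical
  simp [ff, Pi.single_apply, h]

/-- Vectors supported on `S`. -/
def VS (S : Finset (Fin n)) : Submodule F (VV n F) where
  carrier := {x | ∀ j, j ∉ S → x (Sum.inl j) = 0 ∧ x (Sum.inr j) = 0}
  add_mem' := by
    intro a b ha hb j hj
    simp [(ha j hj).1, (ha j hj).2, (hb j hj).1, (hb j hj).2]
  zero_mem' := by
    intro j hj
    simp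
  smul_mem' := by
    intro c x hx j hj
    simp [(hx j hj).1, (hx j hj).2]

lemma mem_VS {S : Finset (Fin n)} {x : VV n F} :
    x ∈ VS S ↔ ∀ j, j ∉ S → x (Sum.inl j) = 0 ∧ x (Sum.inr j) = 0 := Iff.rfl

lemma ee_mem_VS {S : Finset (Fin n)} {j : Fin n} (h : j ∈ S) : ee n F j ∈ VS S := by
  intro l hl
  have : l ≠ j := fun e => hl (e ▸ h)
  exact ⟨ee_inl_ne this, ee_inr _ _⟩

lemma ff_mem_VS {S : Finset (Fin n)} {j : Fin n} (h : j ∈ S) : ff n F j ∈ VS S := by
  intro l hl
  have : l ≠ j := fun e => hl (e ▸ h)
  exact ⟨ff_inl _ _, ff_inr_ne this⟩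

lemma VS_mono {S T : Finset (Fin n)} (h : S ⊆ T) {x : VV n F} (hx : x ∈ VS S) : x ∈ VS T :=
  fun j hj => hx j (fun hj' => hj (h hj'))

/-- Vectors with disjoint supports are orthogonal. -/
lemma B_eq_zero_of_disjoint {S T : Finset (Fin n)} (h : Disjoint S T) {x y : VV n F}
    (hx : x ∈ VS S) (hy : y ∈ VS T) : B x y = 0 := by
  rw [sympForm_apply]
  refine Finset.sum_eq_zero fun j _ => ?_
  by_cases hj : j ∈ S
  · have : j ∉ T := Finset.disjoint_left.1 h hj
    rw [(hy j this).1, (hy j this).2]
    simp
  · rw [(hx j hj).1, (hx j hj).2]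
    simp

/-- Elements fixing the basis vectors outside `S`. -/
def InL (S : Finset (Fin n)) (g : SpG n F) : Prop :=
  ∀ j, j ∉ S → act g (ee n F j) = ee n F j ∧ act g (ff n F j) = ff n F j

lemma InL.mono {S S' : Finset (Fin n)} (h : S' ⊆ S) {g : SpG n F} (hg : InL S' g) : InL S g :=
  fun j hj => hg j (fun hj' => hj (h hj'))

lemma InL.inv {S : Finset (Fin n)} {g : SpG n F} (hg : InL S g) : InL S g⁻¹ := by
  intro j hj
  obtain ⟨h1, h2⟩ := hg j hj
  constructor
  · conv_lhs => rw [← h1]
    exact act_inv_act g _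
  · conv_lhs => rw [← h2]
    exact act_inv_act g _

/-- An element of `L S` maps `VS S` to itself. -/
lemma InL.act_mem {S : Finset (Fin n)} {g : SpG n F} (hg : InL S g) {x : VV n F}
    (hx : x ∈ VS S) : act g x ∈ VS S := by
  intro j hj
  obtain ⟨h1, h2⟩ := hg j hj
  constructor
  · rw [← B_ff (act g x) j, ← h2, B_act, B_ff]
    exact (hx j hj).1
  · rw [← B_ee (act g x) j, ← h1, B_act, B_ee]
    exact (hx j hj).2

/-- Decomposition of a vector along the basis. -/
lemma eq_sum_basis (x : VV n F) :
    x = ∑ j, (x (Sum.inl j) • ee n F j + x (Sum.inr j) • ff n F j) := by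
  classical
  funext l
  rw [Finset.sum_apply]
  rcases l with l | l
  · simp only [Pi.add_apply, Pi.smul_apply, smul_eq_mul, ee, ff]
    rw [Finset.sum_eq_single l]
    · simp
    · intro b _ hb
      simp [Pi.single_apply, hb.symm]
    · simp
  · simp only [Pi.add_apply, Pi.smul_apply, smul_eq_mul, ee, ff]
    rw [Finset.sum_eq_single l]
    · simp
    · intro b _ hb
      simp [Pi.single_apply, hb.symm]
    · simp

/-- An element of `L S` fixes vectors vanishing on `S`. -/
lemma InL.act_eq {S T : Finset (Fin n)} (hd : Disjoint S T) {g : SpG n F} (hg : InL S g)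
    {x : VV n F} (hx : x ∈ VS T) : act g x = x := by
  classical
  have h2 : ∀ (s : Finset (Fin n)) (y : Fin n → VV n F),
      act g (∑ j ∈ s, y j) = ∑ j ∈ s, act g (y j) := by
    intro s y
    simp [act, Matrix.mulVec_sum]
  conv_lhs => rw [eq_sum_basis x]
  rw [h2]
  conv_rhs => rw [eq_sum_basis x]
  refine Finset.sum_congr rfl fun j _ => ?_
  rw [act_add, act_smul, act_smul]
  by_cases hj : j ∈ S
  · have hj' : j ∉ T := Finset.disjoint_left.1 hd hj
    rw [(hx j hj').1, (hx j hj').2]
    simp
  · rw [(hg j hj).1, (hg j hj).2]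

lemma inL_E {S : Finset (Fin n)} {v u : VV n F} (c : F) (h : B v u = 0) (hv : v ∈ VS S)
    (hu : u ∈ VS S) : InL S (E v u c) := by
  intro j hj
  constructor
  · rw [act_E c h, B_comm _ v, B_comm _ u, B_ee, B_ee, (hv j hj).2, (hu j hj).2]
    simp
  · rw [act_E c h, B_comm _ v, B_comm _ u, B_ff, B_ff, (hv j hj).1, (hu j hj).1]
    simp

lemma inL_tau {S : Finset (Fin n)} {v : VV n F} (c : F) (hv : v ∈ VS S) : InL S (tau v c) :=
  inL_E c (tau_good v) hv (Submodule.zero_mem _)

/-! ### Torus elements and permutations -/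

omit [CharP F 2] in
/-- The torus as a linear map. -/
def Dmap (i : Fin n) (a : F) : VV n F →ₗ[F] VV n F where
  toFun x := Sum.elim (fun j => (if j = i then a else 1) * x (Sum.inl j))
    (fun j => (if j = i then a⁻¹ else 1) * x (Sum.inr j))
  map_add' x y := by
    funext l
    rcases l with l | l <;> simp [mul_add]
  map_smul' c x := by
    funext l
    rcases l with l | l <;> simp <;> ring

omit [CharP F 2] in
lemma Dmap_B (i : Fin n) {a : F} (ha : a ≠ 0) (x y : VV n F) :
    B (Dmap i a x) (Dmap i a y) = B x y := by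
  rw [sympForm_apply, sympForm_apply]
  refine Finset.sum_congr rfl fun j _ => ?_
  simp only [Dmap, LinearMap.coe_mk, AddHom.coe_mk, Sum.elim_inl, Sum.elim_inr]
  by_cases hj : j = i
  · simp only [hj, if_true]
    field_simp
  · simp [hj]

/-- The torus element. -/
def Dt (i : Fin n) (a : F) (ha : a ≠ 0) : SpG n F := spOf (Dmap i a) (Dmap_B i ha)

lemma act_Dt (i : Fin n) {a : F} (ha : a ≠ 0) (x : VV n F) :
    act (Dt i a ha) x = Dmap i a x := act_spOf _ _ _

lemma Dt_ee (i : Fin n) {a : F} (ha : a ≠ 0) : act (Dt i a ha) (ee n F i) = a • ee n F i := by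
  classical
  rw [act_Dt]
  funext l
  rcases l with l | l
  · simp only [Dmap, LinearMap.coe_mk, AddHom.coe_mk, Sum.elim_inl, Pi.smul_apply, smul_eq_mul]
    by_cases hl : l = i
    · simp [hl]
    · rw [ee_inl_ne hl]
      simp
  · simp [Dmap, ee_inr]

lemma inL_Dt (i : Fin n) {a : F} (ha : a ≠ 0) : InL {i} (Dt i a ha) := by
  classical
  intro j hj
  have hj' : j ≠ i := by simpa using hj
  constructor
  · rw [act_Dt]
    funext l
    rcases l with l | l
    · simp only [Dmap, LinearMap.coe_mk, AddHom.coe_mk, Sum.elim_inl]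
      by_cases hl : l = i
      · rw [hl, ee_inl_ne hj'.symm]
        simp
      · simp [hl]
    · simp [Dmap, ee_inr]
  · rw [act_Dt]
    funext l
    rcases l with l | l
    · simp [Dmap, ff_inl]
    · simp only [Dmap, LinearMap.coe_mk, AddHom.coe_mk, Sum.elim_inr]
      by_cases hl : l = i
      · rw [hl, ff_inr_ne hj'.symm]
        simp
      · simp [hl]

omit [CharP F 2] in
/-- A permutation of coordinates as a linear map. -/
def Pmap (σ : Equiv.Perm (Fin n)) : VV n F →ₗ[F] VV n F :=
  LinearMap.funLeft F F (Sum.map σ σ)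

omit [CharP F 2] in
lemma Pmap_apply (σ : Equiv.Perm (Fin n)) (x : VV n F) (l : Fin n ⊕ Fin n) :
    Pmap σ x l = x (Sum.map σ σ l) := rfl

omit [CharP F 2] in
lemma Pmap_B (σ : Equiv.Perm (Fin n)) (x y : VV n F) : B (Pmap σ x) (Pmap σ y) = B x y := by
  rw [sympForm_apply, sympForm_apply]
  refine Fintype.sum_equiv σ _ _ fun j => ?_
  simp [Pmap_apply]

/-- The permutation element. -/
def Pt (σ : Equiv.Perm (Fin n)) : SpG n F := spOf (Pmap σ) (Pmap_B σ)

lemma act_Pt (σ : Equiv.Perm (Fin n)) (x : VV n F) : act (Pt σ) x = Pmap σ x := act_spOf _ _ _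

lemma Pt_ee [DecidableEq (Fin n)] (σ : Equiv.Perm (Fin n)) (j : Fin n) :
    act (Pt σ) (ee n F j) = ee n F (σ⁻¹ j) := by
  classical
  rw [act_Pt]
  funext l
  rw [Pmap_apply]
  rcases l with l | l
  · simp only [Sum.map_inl, ee, Pi.single_apply, Sum.inl.injEq]
    by_cases hl : σ l = j
    · have : l = σ⁻¹ j := by rw [← hl]; exact (σ.symm_apply_apply l).symm
      rw [if_pos hl, if_pos this]
    · have : l ≠ σ⁻¹ j := by
        intro h
        apply hl
        rw [h]
        exact σ.apply_symm_apply j
      rw [if_neg hl, if_neg this]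
  · simp [ee]

lemma Pt_ff [DecidableEq (Fin n)] (σ : Equiv.Perm (Fin n)) (j : Fin n) :
    act (Pt σ) (ff n F j) = ff n F (σ⁻¹ j) := by
  classical
  rw [act_Pt]
  funext l
  rw [Pmap_apply]
  rcases l with l | l
  · simp [ff]
  · simp only [Sum.map_inr, ff, Pi.single_apply, Sum.inr.injEq]
    by_cases hl : σ l = j
    · have : l = σ⁻¹ j := by rw [← hl]; exact (σ.symm_apply_apply l).symm
      rw [if_pos hl, if_pos this]
    · have : l ≠ σ⁻¹ j := by
        intro h
        apply hl
        rw [h]
        exact σ.apply_symm_apply j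
      rw [if_neg hl, if_neg this]

/-- The swap of two coordinates. -/
lemma exists_swap {S : Finset (Fin n)} {i i' : Fin n} (hi : i ∈ S) (hi' : i' ∈ S) :
    ∃ g : SpG n F, InL S g ∧ act g (ee n F i) = ee n F i' := by
  classical
  refine ⟨Pt (Equiv.swap i i'), ?_, ?_⟩
  · intro j hj
    have h1 : j ≠ i := fun e => hj (e ▸ hi)
    have h2 : j ≠ i' := fun e => hj (e ▸ hi')
    have h3 : (Equiv.swap i i')⁻¹ j = j := by
      rw [Equiv.swap_inv, Equiv.swap_apply_of_ne_of_ne h1 h2]
    rw [Pt_ee, Pt_ff, h3]
    exact ⟨rfl, rfl⟩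
  · rw [Pt_ee, Equiv.swap_inv, Equiv.swap_apply_left]

end Cfsg.Agent.Lib.SpEvenMinDeg
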