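import Mathlib
import Cfsg.Agent.Lib.SpEvenMinDeg1

/-!
# Additive characters in characteristic two

An Artin--Schreier type solvability statement and the Gauss sum of a quadratic sign function.
-/

set_option autoImplicit false
set_option linter.unusedSectionVars false
set_option linter.unusedVariables false

namespace Cfsg.Agent.Lib.SpEvenMinDeg

open Matrix Cfsg Cfsg.Agent.Lib.SympForm Cfsg.Agent.Lib.FourierAb

section field

variable {F : Type*} [Field F] [CharP F 2]

lemma char_sq_eq_one {A : Type*} [AddGroup A] (ζ : AddChar A ℂ) {a : A} (h : a + a = 0) :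
    ζ a * ζ a = 1 := by
  rw [← AddChar.map_add_eq_mul, h, AddChar.map_zero_eq_one]

lemma char_apply_ne_zero {A : Type*} [AddGroup A] (ζ : AddChar A ℂ) (a : A) : ζ a ≠ 0 :=
  (ζ.val_isUnit a).ne_zero

lemma sq_add_F (x y : F) : (x + y) ^ 2 = x ^ 2 + y ^ 2 := by
  have h : (2 : F) = 0 := CharTwo.two_eq_zero
  linear_combination (x * y) * h

variable [Fintype F]

/-- The twisted character used in the solvability statement. -/
noncomputable def asChar (ζ : AddChar F ℂ) (t β : F) : AddChar F ℂ where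
  toFun x := ζ (t * (x ^ 2 + x) + β * x)
  map_zero_eq_one' := by simp
  map_add_eq_mul' x y := by
    rw [← AddChar.map_add_eq_mul]
    congr 1
    rw [sq_add_F]
    ring

lemma asChar_apply (ζ : AddChar F ℂ) (t β x : F) :
    asChar ζ t β x = ζ (t * (x ^ 2 + x) + β * x) := rfl

/-- Solvability: if `ζ β = 1`, some `t ≠ 0` makes `ζ (t (x² + x)) = ζ (β x)` for all `x`. -/
theorem exists_as (ζ : AddChar F ℂ) (hζ : ζ ≠ 1) {β : F} (hβ : ζ β = 1) :
    ∃ t : F, t ≠ 0 ∧ ∀ x : F, ζ (t * (x ^ 2 + x)) = ζ (β * x) := by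
  classical
  by_contra hcon
  push Not at hcon
  have hprim : ζ.IsPrimitive := AddChar.IsPrimitive.of_ne_one hζ
  -- the double sum
  have h1 : ∑ t : F, ∑ x : F, asChar ζ t β x = ∑ x : F, ζ (β * x) *
      (if x ^ 2 + x = 0 then ((Fintype.card F : ℕ) : ℂ) else 0) := by
    rw [Finset.sum_comm]
    refine Finset.sum_congr rfl fun x _ => ?_
    have h2 := AddChar.sum_mulShift (ψ := ζ) (x ^ 2 + x) hprim
    rw [Nat.cast_ite, Nat.cast_zero] at h2
    rw [← h2, Finset.mul_sum]
    refine Finset.sum_congr rfl fun t _ => ?_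
    rw [asChar_apply, AddChar.map_add_eq_mul, mul_comm]
  -- the right hand side
  have h3 : ∀ x : F, x ^ 2 + x = 0 ↔ x = 0 ∨ x = 1 := by
    intro x
    constructor
    · intro h
      have h4 : x * (x + 1) = 0 := by linear_combination h
      rcases mul_eq_zero.1 h4 with h5 | h5
      · exact Or.inl h5
      · right
        have : x = -1 := eq_neg_of_add_eq_zero_left h5
        rw [this, CharTwo.neg_eq]
    · rintro (h | h)
      · simp [h]
      · rw [h]
        simp [CharTwo.add_self_eq_zero]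
  have h6 : ∑ x : F, ζ (β * x) * (if x ^ 2 + x = 0 then ((Fintype.card F : ℕ) : ℂ) else 0) =
      2 * ((Fintype.card F : ℕ) : ℂ) := by
    have h7 : ∀ x : F, ζ (β * x) * (if x ^ 2 + x = 0 then ((Fintype.card F : ℕ) : ℂ) else 0) =
        if x ∈ ({0, 1} : Finset F) then ζ (β * x) * ((Fintype.card F : ℕ) : ℂ) else 0 := by
      intro x
      simp only [h3, Finset.mem_insert, Finset.mem_singleton]
      split_ifs <;> simp
    simp only [h7]
    rw [Finset.sum_ite_mem, Finset.univ_inter, Finset.sum_pair (zero_ne_one)]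
    simp [hβ]
    ring
  -- the left hand side
  have h8 : ∀ t : F, t ≠ 0 → asChar ζ t β ≠ 1 := by
    intro t ht hone
    obtain ⟨x, hx⟩ := hcon t ht
    apply hx
    have h9 : ζ (t * (x ^ 2 + x)) * ζ (β * x) = 1 := by
      rw [← AddChar.map_add_eq_mul, ← asChar_apply, hone]
      rfl
    have h10 : ζ (β * x) * ζ (β * x) = 1 := char_sq_eq_one ζ (CharTwo.add_self_eq_zero _)
    have h11 := char_apply_ne_zero ζ (β * x)
    apply mul_right_cancel₀ h11
    rw [h9, h10]
  have h12 : ∑ t : F, ∑ x : F, asChar ζ t β x = ∑ x : F, asChar ζ 0 β x := by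
    rw [Finset.sum_eq_single (0 : F)]
    · intro t _ ht
      exact AddChar.sum_eq_zero_of_ne_one (h8 t ht)
    · simp
  have h13 : ‖∑ x : F, asChar ζ 0 β x‖ ≤ ((Fintype.card F : ℕ) : ℝ) := by
    calc _ ≤ ∑ x : F, ‖asChar ζ 0 β x‖ := norm_sum_le _ _
      _ = ∑ x : F, (1 : ℝ) := by
        refine Finset.sum_congr rfl fun x _ => ?_
        exact AddChar.norm_apply _ _
      _ = _ := by simp
  have h14 : ‖2 * ((Fintype.card F : ℕ) : ℂ)‖ = 2 * ((Fintype.card F : ℕ) : ℝ) := by
    rw [norm_mul, Complex.norm_natCast]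
    simp
  rw [h12] at h1
  rw [h1, h6, h14] at h13
  have h15 : (0 : ℝ) < ((Fintype.card F : ℕ) : ℝ) := by
    exact_mod_cast Fintype.card_pos
  linarith

/-- Every additive character is a shift of a given nontrivial one. -/
lemma exists_shift (ζ ψ : AddChar F ℂ) (hζ : ζ ≠ 1) : ∃ β : F, ∀ x, ψ x = ζ (β * x) := by
  classical
  have hinj : Function.Injective ζ.mulShift :=
    AddChar.to_mulShift_inj_of_isPrimitive (AddChar.IsPrimitive.of_ne_one hζ)
  have hbij : Function.Bijective ζ.mulShift :=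
    (Fintype.bijective_iff_injective_and_card _).2 ⟨hinj, by simp⟩
  obtain ⟨β, hβ⟩ := hbij.2 ψ
  refine ⟨β, fun x => ?_⟩
  rw [← hβ, AddChar.mulShift_apply]

/-- Squaring is surjective. -/
lemma exists_sqrt (x : F) : ∃ y : F, y ^ 2 = x := by
  have hinj : Function.Injective (fun y : F => y ^ 2) := by
    intro a b hab
    have h1 : (a + b) ^ 2 = 0 := by
      rw [sq_add_F]
      simp only at hab
      rw [hab]
      exact CharTwo.add_self_eq_zero _
    have h2 : a + b = 0 := by simpa using h1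
    exact CharTwo.add_eq_zero.1 h2
  exact (Finite.injective_iff_surjective.1 hinj) x

lemma mulShift_ne_one (ζ : AddChar F ℂ) (hζ : ζ ≠ 1) {c : F} (hc : c ≠ 0) :
    ∃ x, ζ (c * x) ≠ 1 := by
  have h := AddChar.IsPrimitive.of_ne_one hζ hc
  obtain ⟨x, hx⟩ := AddChar.ne_one_iff.1 h
  exact ⟨x, by simpa [AddChar.mulShift_apply] using hx⟩

lemma exists_char_ne (ζ : AddChar F ℂ) (hζ : ζ ≠ 1) : ∃ x, ζ x ≠ 1 := AddChar.ne_one_iff.1 hζ

end field

section gauss

variable {W : Type*} [AddCommGroup W] [Fintype W] {F : Type*} [Field F] [CharP F 2]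
  (Bf : W → W → F) (ζ : AddChar F ℂ) (Φ : W → ℂ)

/-- The Gauss sum of a quadratic function. -/
theorem gauss_Phi (h2 : ∀ u : W, u + u = 0) (hBadd : ∀ a b c, Bf (a + b) c = Bf a c + Bf b c)
    (hBadd' : ∀ a b c, Bf a (b + c) = Bf a b + Bf a c)
    (hBself : ∀ a, Bf a a = 0) (hΦ0 : Φ 0 = 1)
    (hΦ : ∀ u u', Φ (u + u') = Φ u * Φ u' * ζ (Bf u u'))
    (hnd : ∀ a : W, a ≠ 0 → ∃ u, ζ (Bf u a) ≠ 1) :
    (∑ s, Φ s) * (∑ s, Φ s) = ((Fintype.card W : ℕ) : ℂ) := by
  classical
  have hsq : ∀ u, Φ u * Φ u = 1 := by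
    intro u
    have h3 := hΦ u u
    rw [h2, hΦ0, hBself, AddChar.map_zero_eq_one, mul_one] at h3
    exact h3.symm
  rw [Finset.sum_mul_sum]
  have h4 : ∀ s : W, ∑ t, Φ s * Φ t = ∑ a, Φ a * ζ (Bf s a) := by
    intro s
    symm
    refine Fintype.sum_equiv (Equiv.addLeft s) _ _ fun a => ?_
    simp only [Equiv.coe_addLeft]
    rw [hΦ]
    calc Φ a * ζ (Bf s a) = (Φ s * Φ s) * Φ a * ζ (Bf s a) := by rw [hsq, one_mul]
      _ = _ := by ring
  simp only [h4]
  rw [Finset.sum_comm]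
  rw [Finset.sum_eq_single (0 : W)]
  · rw [hΦ0]
    have h5 : ∀ s : W, Bf s 0 = 0 := by
      intro s
      have := hBadd' s 0 0
      rw [add_zero] at this
      linear_combination -this
    simp [h5]
  · intro a _ ha
    rw [← Finset.mul_sum]
    obtain ⟨u, hu⟩ := hnd a ha
    let ψ : AddChar W ℂ :=
      { toFun := fun s => ζ (Bf s a)
        map_zero_eq_one' := by
          have h5 : Bf 0 a = 0 := by
            have := hBadd 0 0 a
            rw [add_zero] at this
            linear_combination -this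
          rw [h5, AddChar.map_zero_eq_one]
        map_add_eq_mul' := by
          intro x y
          rw [hBadd, AddChar.map_add_eq_mul] }
    have hψ : ψ ≠ 1 := AddChar.ne_one_iff.2 ⟨u, hu⟩
    have h6 : ∑ s, ζ (Bf s a) = 0 := AddChar.sum_eq_zero_of_ne_one hψ
    rw [h6, mul_zero]
  · simp

/-- The number of points where `Φ` is one. -/
theorem count_Phi (h2 : ∀ u : W, u + u = 0) (hBadd : ∀ a b c, Bf (a + b) c = Bf a c + Bf b c)
    (hBadd' : ∀ a b c, Bf a (b + c) = Bf a b + Bf a c)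
    (hBself : ∀ a, Bf a a = 0) (hΦ0 : Φ 0 = 1)
    (hΦ : ∀ u u', Φ (u + u') = Φ u * Φ u' * ζ (Bf u u'))
    (hnd : ∀ a : W, a ≠ 0 → ∃ u, ζ (Bf u a) ≠ 1) [DecidablePred fun s => Φ s = 1] {M : ℕ}
    (hM : Fintype.card W = M * M) :
    M * M ≤ 2 * (Finset.univ.filter fun s => Φ s = 1).card + M := by
  classical
  have hgauss := gauss_Phi Bf ζ Φ h2 hBadd hBadd' hBself hΦ0 hΦ hnd
  have hsq : ∀ u, Φ u * Φ u = 1 := by
    intro u
    have h3 := hΦ u u
    rw [h2, hΦ0, hBself, AddChar.map_zero_eq_one, mul_one] at h3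
    exact h3.symm
  have hval : ∀ u, Φ u = if Φ u = 1 then 1 else -1 := by
    intro u
    split_ifs with h
    · exact h
    · have h3 : (Φ u - 1) * (Φ u + 1) = 0 := by linear_combination hsq u
      rcases mul_eq_zero.1 h3 with h4 | h4
      · exact absurd (by linear_combination h4) h
      · linear_combination h4
  set N := (Finset.univ.filter fun s => Φ s = 1).card with hN
  have hsum : ∑ s, Φ s = (2 * (N : ℂ) - (M * M : ℕ)) := by
    have h1 : ∀ s, Φ s = 2 * (if Φ s = 1 then (1 : ℂ) else 0) - 1 := by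
      intro s
      conv_lhs => rw [hval s]
      split_ifs <;> ring
    calc ∑ s, Φ s = ∑ s, (2 * (if Φ s = 1 then (1 : ℂ) else 0) - 1) :=
          Finset.sum_congr rfl fun s _ => h1 s
      _ = _ := by
        rw [Finset.sum_sub_distrib, ← Finset.mul_sum, Finset.sum_boole, ← hN, Finset.sum_const,
          Finset.card_univ, hM]
        simp
  rw [hsum, hM] at hgauss
  have h3 : (2 * (N : ℤ) - (M * M : ℕ)) * (2 * (N : ℤ) - (M * M : ℕ)) = ((M * M : ℕ) : ℤ) := by
    have : ((2 * (N : ℤ) - (M * M : ℕ)) * (2 * (N : ℤ) - (M * M : ℕ)) : ℤ) = (((M * M : ℕ) : ℤ)) ↔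
        ((2 * (N : ℂ) - (M * M : ℕ)) * (2 * (N : ℂ) - (M * M : ℕ)) : ℂ) = (((M * M : ℕ) : ℂ)) := by
      exact_mod_cast Iff.rfl
    exact this.2 hgauss
  push_cast at h3
  have h4 : (2 * (N : ℤ) - M * M - M) * (2 * (N : ℤ) - M * M + M) = 0 := by linear_combination h3
  have h5 : (M : ℤ) * M ≤ 2 * N + M := by
    rcases mul_eq_zero.1 h4 with h6 | h6
    · have : (0 : ℤ) ≤ M := Int.natCast_nonneg M
      linarith
    · linarith
  exact_mod_cast h5

end gauss

end Cfsg.Agent.Lib.SpEvenMinDeg
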