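import Mathlib
import Cfsg.Agent.Lib.SpEvenMinDeg2

/-!
# The radical as an abelian group, its characters, and the action of the Levi subgroup
-/

set_option autoImplicit false
set_option linter.unusedSectionVars false
set_option linter.unusedVariables false

namespace Cfsg.Agent.Lib.SpEvenMinDeg

open Matrix Cfsg Cfsg.Agent.Lib.SympForm Cfsg.Agent.Lib.FourierAb

variable {F : Type*} [Field F] [CharP F 2] [Fintype F] {n k : ℕ}

local notation "B" => sympForm n F

noncomputable instance instFintypeVS (S : Finset (Fin n)) : Fintype (VS (F := F) S) :=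
  Fintype.ofFinite _

/-- The abelian group. -/
abbrev AA (S : Finset (Fin n)) (F : Type*) [Field F] [CharP F 2] := ↥(VS (F := F) S) × F

lemma AA_two {S : Finset (Fin n)} (a : AA S F) : a + a = 0 := by
  refine Prod.ext ?_ ?_
  · apply Subtype.ext
    funext l
    exact CharTwo.add_self_eq_zero (a.1.1 l)
  · exact CharTwo.add_self_eq_zero a.2

/-- The representation of the abelian group. -/
noncomputable def rQ (R : SpG n F →* Matrix (Fin k) (Fin k) ℂ) (v : VV n F) (S : Finset (Fin n))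
    (a : AA S F) : Matrix (Fin k) (Fin k) ℂ :=
  R (E v a.1.1 (a.2 + f0 a.1.1))

section rep

variable (R : SpG n F →* Matrix (Fin k) (Fin k) ℂ) {v : VV n F} {S : Finset (Fin n)}
  (hv : ∀ u : VV n F, u ∈ VS (F := F) S → sympForm n F v u = 0)

lemma rQ_zero : rQ R v S 0 = 1 := by
  have h : E v (0 : VV n F) ((0 : F) + f0 (0 : VV n F)) = (1 : SpG n F) := by
    rw [f0_zero, add_zero, E_zero_zero]
  simp only [rQ, Prod.fst_zero, ZeroMemClass.coe_zero, Prod.snd_zero]
  rw [h, map_one]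

include hv in
lemma rQ_add (a b : AA S F) : rQ R v S (a + b) = rQ R v S a * rQ R v S b := by
  simp only [rQ]
  rw [← map_mul, E_mul _ _ (hv _ b.1.2) (hv _ a.1.2)]
  congr 2
  · simp only [Prod.fst_add, AddMemClass.coe_add]
    rw [add_comm]
  · simp only [Prod.fst_add, AddMemClass.coe_add, Prod.snd_add]
    rw [f0_add, B_comm (a.1.1) (b.1.1)]
    ring

lemma rQ_inr (c : F) : rQ R v S ((0 : ↥(VS (F := F) S)), c) = R (tau v c) := by
  simp only [rQ, ZeroMemClass.coe_zero, f0_zero, add_zero]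
  rfl

/-- The central characters. -/
noncomputable def zc (χ : AddChar (AA S F) ℂ) : AddChar F ℂ :=
  χ.compAddMonoidHom (AddMonoidHom.inr _ _)

lemma zc_apply (χ : AddChar (AA S F) ℂ) (c : F) : zc χ c = χ ((0 : ↥(VS (F := F) S)), c) := rfl

/-- The quadratic function attached to a character. -/
noncomputable def Phi (χ : AddChar (AA S F) ℂ) (u : VS (F := F) S) : ℂ := χ (u, f0 u.1)

lemma Phi_zero (χ : AddChar (AA S F) ℂ) : Phi χ 0 = 1 := by
  have : ((0 : ↥(VS (F := F) S)), f0 ((0 : ↥(VS (F := F) S)) : VV n F)) = 0 := by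
    refine Prod.ext rfl ?_
    exact f0_zero
  rw [Phi, this, AddChar.map_zero_eq_one]

lemma Phi_add (χ : AddChar (AA S F) ℂ) (u u' : VS (F := F) S) :
    Phi χ (u + u') = Phi χ u * Phi χ u' * zc χ (B u.1 u'.1) := by
  simp only [Phi, zc_apply]
  rw [← AddChar.map_add_eq_mul, ← AddChar.map_add_eq_mul]
  congr 1
  refine Prod.ext ?_ ?_
  · simp
  · simp only [AddMemClass.coe_add, Prod.snd_add]
    rw [f0_add]

lemma Phi_sq (χ : AddChar (AA S F) ℂ) (u : VS (F := F) S) : Phi χ u * Phi χ u = 1 :=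
  char_sq_eq_one χ (AA_two _)

lemma Phi_eq_one_or (χ : AddChar (AA S F) ℂ) (u : VS (F := F) S) :
    Phi χ u = 1 ∨ Phi χ u = -1 := by
  have h3 : (Phi χ u - 1) * (Phi χ u + 1) = 0 := by linear_combination Phi_sq χ u
  rcases mul_eq_zero.1 h3 with h4 | h4
  · exact Or.inl (by linear_combination h4)
  · exact Or.inr (by linear_combination h4)

lemma chi_eq (χ : AddChar (AA S F) ℂ) (u : VS (F := F) S) (c : F) :
    χ (u, c) = Phi χ u * zc χ (c + f0 u.1) := by
  simp only [Phi, zc_apply]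
  rw [← AddChar.map_add_eq_mul]
  congr 1
  refine Prod.ext ?_ ?_
  · simp
  · simp only [Prod.snd_add]
    have : f0 u.1 + f0 u.1 = 0 := CharTwo.add_self_eq_zero _
    linear_combination -this

lemma chi_ext {χ χ' : AddChar (AA S F) ℂ} (h1 : zc χ = zc χ') (h2 : ∀ u, Phi χ u = Phi χ' u) :
    χ = χ' := by
  ext ⟨u, c⟩
  rw [chi_eq, chi_eq, h1, h2]

/-- The action on the abelian group of an element of the Levi subgroup. -/
noncomputable def phiH (h : SpG n F) (hh : InL S h) : AA S F ≃+ AA S F where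
  toFun a := (⟨act h a.1.1, hh.act_mem a.1.2⟩, a.2 + f0 a.1.1 + f0 (act h a.1.1))
  invFun a := (⟨act h⁻¹ a.1.1, hh.inv.act_mem a.1.2⟩, a.2 + f0 a.1.1 + f0 (act h⁻¹ a.1.1))
  left_inv a := by
    refine Prod.ext ?_ ?_
    · apply Subtype.ext
      exact act_inv_act h _
    · simp only
      rw [act_inv_act]
      have h2 : f0 a.1.1 + f0 a.1.1 = 0 := CharTwo.add_self_eq_zero _
      have h3 : f0 (act h a.1.1) + f0 (act h a.1.1) = 0 := CharTwo.add_self_eq_zero _
      linear_combination h2 + h3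
  right_inv a := by
    refine Prod.ext ?_ ?_
    · apply Subtype.ext
      exact act_act_inv h _
    · simp only
      rw [act_act_inv]
      have h2 : f0 a.1.1 + f0 a.1.1 = 0 := CharTwo.add_self_eq_zero _
      have h3 : f0 (act h⁻¹ a.1.1) + f0 (act h⁻¹ a.1.1) = 0 := CharTwo.add_self_eq_zero _
      linear_combination h2 + h3
  map_add' a b := by
    refine Prod.ext ?_ ?_
    · apply Subtype.ext
      exact act_add h _ _
    · simp only [Prod.fst_add, AddMemClass.coe_add, Prod.snd_add]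
      rw [act_add, f0_add, f0_add, B_act]
      have h2 : B a.1.1 b.1.1 + B a.1.1 b.1.1 = 0 := CharTwo.add_self_eq_zero _
      linear_combination h2

lemma phiH_apply (h : SpG n F) (hh : InL S h) (a : AA S F) :
    phiH h hh a = (⟨act h a.1.1, hh.act_mem a.1.2⟩, a.2 + f0 a.1.1 + f0 (act h a.1.1)) := rfl

include hv in
/-- Conjugation of the abelian group by an element of the Levi subgroup. -/
lemma conj_rQ (h : SpG n F) (hh : InL S h) (hvh : act h v = v) (a : AA S F) :
    R h * rQ R v S a = rQ R v S (phiH h hh a) * R h := by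
  simp only [rQ, phiH_apply]
  rw [← map_mul, ← map_mul, conj_E h _ (hv _ a.1.2), hvh]
  congr 3
  have h3 : f0 (act h a.1.1) + f0 (act h a.1.1) = 0 := CharTwo.add_self_eq_zero _
  linear_combination -h3

/-- Pull back of a character. -/
noncomputable def chiH (χ : AddChar (AA S F) ℂ) (h : SpG n F) (hh : InL S h) : AddChar (AA S F) ℂ :=
  χ.compAddMonoidHom (phiH h hh).toAddMonoidHom

lemma Phi_chiH (χ : AddChar (AA S F) ℂ) (h : SpG n F) (hh : InL S h) (u : VS (F := F) S) :
    Phi (chiH χ h hh) u = Phi χ ⟨act h u.1, hh.act_mem u.2⟩ := by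
  simp only [Phi, chiH, AddChar.compAddMonoidHom_apply, AddEquiv.toAddMonoidHom_eq_coe,
    AddMonoidHom.coe_coe, phiH_apply]
  congr 2
  have h3 : f0 u.1 + f0 u.1 = 0 := CharTwo.add_self_eq_zero _
  linear_combination h3

lemma zc_chiH (χ : AddChar (AA S F) ℂ) (h : SpG n F) (hh : InL S h) : zc (chiH χ h hh) = zc χ := by
  ext c
  simp only [zc_apply, chiH, AddChar.compAddMonoidHom_apply, AddEquiv.toAddMonoidHom_eq_coe,
    AddMonoidHom.coe_coe, phiH_apply]
  congr 1
  refine Prod.ext ?_ ?_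
  · apply Subtype.ext
    exact act_zero h
  · simp [act_zero, f0_zero]

/-- The twist of a character by an element of `VS S`. -/
noncomputable def twist (χ : AddChar (AA S F) ℂ) (s : VS (F := F) S) : AddChar (AA S F) ℂ where
  toFun a := χ a * zc χ (B s.1 a.1.1)
  map_zero_eq_one' := by
    simp [sympForm_zero_right]
  map_add_eq_mul' a b := by
    simp only [Prod.fst_add, AddMemClass.coe_add]
    rw [sympForm_add_right, AddChar.map_add_eq_mul, AddChar.map_add_eq_mul]
    ring

lemma twist_apply (χ : AddChar (AA S F) ℂ) (s : VS (F := F) S) (a : AA S F) :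
    twist χ s a = χ a * zc χ (B s.1 a.1.1) := rfl

lemma zc_twist (χ : AddChar (AA S F) ℂ) (s : VS (F := F) S) : zc (twist χ s) = zc χ := by
  ext c
  change χ ((0 : ↥(VS (F := F) S)), c) * zc χ (B (s : VV n F) ((0 : ↥(VS (F := F) S)) : VV n F)) = χ ((0 : ↥(VS (F := F) S)), c)
  simp [sympForm_zero_right]

lemma Phi_twist (χ : AddChar (AA S F) ℂ) (s u : VS (F := F) S) :
    Phi (twist χ s) u = Phi χ u * zc χ (B s.1 u.1) := rfl

lemma twist_eq_chiH (χ : AddChar (AA S F) ℂ) (s : VS (F := F) S) (h : SpG n F) (hh : InL S h)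
    (hΦ : ∀ u : VS (F := F) S, Phi χ ⟨act h u.1, hh.act_mem u.2⟩ = Phi χ u * zc χ (B s.1 u.1)) :
    twist χ s = chiH χ h hh := by
  apply chi_ext
  · rw [zc_twist, zc_chiH]
  · intro u
    rw [Phi_twist, Phi_chiH, hΦ]

/-- The nondegeneracy of the form on `VS S`. -/
lemma exists_B_ne (ζ : AddChar F ℂ) (hζ : ζ ≠ 1) {a : VS (F := F) S} (ha : a ≠ 0) :
    ∃ u : VS (F := F) S, ζ (B u.1 a.1) ≠ 1 := by
  obtain ⟨x, hx⟩ := exists_char_ne ζ hζ
  have hne : a.1 ≠ 0 := fun h => ha (Subtype.ext h)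
  -- a nonzero coordinate
  have h1 : ∃ j, j ∈ S ∧ (a.1 (Sum.inl j) ≠ 0 ∨ a.1 (Sum.inr j) ≠ 0) := by
    by_contra hcon
    push Not at hcon
    apply hne
    funext l
    rcases l with j | j
    · by_cases hj : j ∈ S
      · exact (hcon j hj).1
      · exact (a.2 j hj).1
    · by_cases hj : j ∈ S
      · exact (hcon j hj).2
      · exact (a.2 j hj).2
  obtain ⟨j, hj, h2⟩ := h1
  rcases h2 with h2 | h2
  · refine ⟨⟨(x / a.1 (Sum.inl j)) • ff n F j, Submodule.smul_mem _ _ (ff_mem_VS hj)⟩, ?_⟩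
    simp only
    rw [sympForm_smul_left, B_comm, B_ff, div_mul_cancel₀ _ h2]
    exact hx
  · refine ⟨⟨(x / a.1 (Sum.inr j)) • ee n F j, Submodule.smul_mem _ _ (ee_mem_VS hj)⟩, ?_⟩
    simp only
    rw [sympForm_smul_left, B_comm, B_ee, div_mul_cancel₀ _ h2]
    exact hx

lemma twist_injective (χ : AddChar (AA S F) ℂ) (hχ : zc χ ≠ 1) :
    Function.Injective (twist χ) := by
  intro s s' hss
  by_contra hne
  have h0 : s - s' ≠ 0 := sub_ne_zero.2 hne
  obtain ⟨u, hu⟩ := exists_B_ne (zc χ) hχ h0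
  apply hu
  have h1 := DFunLike.congr_fun hss (u, 0)
  simp only [twist_apply] at h1
  have h2 := mul_left_cancel₀ (char_apply_ne_zero χ _) h1
  have h3 : B u.1 (s - s').1 = B s.1 u.1 + B s'.1 u.1 := by
    simp only [AddSubgroupClass.coe_sub]
    rw [sympForm_sub_right, CharTwo.sub_eq_add, B_comm u.1 s.1, B_comm u.1 s'.1]
  rw [h3, AddChar.map_add_eq_mul, h2]
  exact char_sq_eq_one _ (CharTwo.add_self_eq_zero _)

/-- The key move: a transvection realises the twist by `s` when `Φ s = 1`. -/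
theorem exists_move (χ : AddChar (AA S F) ℂ) (hχ : zc χ ≠ 1) (s : VS (F := F) S)
    (hs : Phi χ s = 1) :
    ∃ c : F, c ≠ 0 ∧ ∀ u : VS (F := F) S, ∀ hm : act (tau s.1 c) u.1 ∈ VS (F := F) S,
      Phi χ ⟨act (tau s.1 c) u.1, hm⟩ = Phi χ u * zc χ (B s.1 u.1) := by
  -- the additive character along `s`
  have hss : B s.1 s.1 = 0 := sympForm_self _
  let ψ : AddChar F ℂ :=
    { toFun := fun y => Phi χ (y • s)
      map_zero_eq_one' := by
        rw [zero_smul]
        exact Phi_zero χ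
      map_add_eq_mul' := by
        intro x y
        rw [add_smul, Phi_add]
        simp only [SetLike.val_smul]
        rw [sympForm_smul_left, sympForm_smul_right, hss]
        simp }
  have hψ : ∀ y, ψ y = Phi χ (y • s) := fun _ => rfl
  obtain ⟨β, hβ⟩ := exists_shift (zc χ) ψ hχ
  have hβ1 : zc χ β = 1 := by
    have h1 := hβ 1
    rw [hψ, one_smul, hs, mul_one] at h1
    exact h1.symm
  obtain ⟨t, ht, hAS⟩ := exists_as (zc χ) hχ hβ1
  refine ⟨t⁻¹, inv_ne_zero ht, fun u hm => ?_⟩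
  set y : F := t⁻¹ * B u.1 s.1 with hy
  have h1 : (⟨act (tau s.1 t⁻¹) u.1, hm⟩ : VS (F := F) S) = u + y • s := by
    apply Subtype.ext
    change act (tau s.1 t⁻¹) u.1 = u.1 + y • s.1
    rw [act_tau]
  rw [h1, Phi_add, ← hψ, hβ]
  simp only [SetLike.val_smul]
  rw [sympForm_smul_right, mul_assoc, ← AddChar.map_add_eq_mul]
  congr 1
  rw [B_comm s.1 u.1]
  -- `ζ (β y + y B(u,s)) = ζ (B(u,s))`
  have hBy : B u.1 s.1 = t * y := by
    rw [hy, mul_inv_cancel_left₀ ht]
  have h2 := hAS y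
  rw [hBy]
  clear_value y
  have h7 : t * y + t * y = 0 := CharTwo.add_self_eq_zero _
  have h5 : β * y + y * (t * y) = (β * y + t * (y ^ 2 + y)) + t * y := by
    linear_combination (-1 : F) * h7
  rw [h5, AddChar.map_add_eq_mul, AddChar.map_add_eq_mul, h2]
  have h8 := char_sq_eq_one (zc χ) (CharTwo.add_self_eq_zero (β * y))
  rw [h8, one_mul]

end rep

end Cfsg.Agent.Lib.SpEvenMinDeg
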