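import Mathlib
import Cfsg.Agent.Lib.SpEvenMinDeg3

/-!
# Rank bounds from the orbit of a character of the radical
-/

set_option autoImplicit false
set_option linter.unusedSectionVars false
set_option linter.unusedVariables false

namespace Cfsg.Agent.Lib.SpEvenMinDeg

open Matrix Cfsg Cfsg.Agent.Lib.SympForm Cfsg.Agent.Lib.FourierAb

variable {F : Type*} [Field F] [CharP F 2] [Fintype F] {n k : ℕ}

local notation "B" => sympForm n F

/-- The order of the space of vectors supported on `S`. -/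
lemma card_VS (S : Finset (Fin n)) :
    Fintype.card (VS (F := F) S) = Fintype.card F ^ S.card * Fintype.card F ^ S.card := by
  classical
  let e : VS (F := F) S ≃ (({j // j ∈ S} ⊕ {j // j ∈ S}) → F) :=
    { toFun := fun x l => x.1 (Sum.map Subtype.val Subtype.val l)
      invFun := fun y => ⟨Sum.elim (fun j => if h : j ∈ S then y (Sum.inl ⟨j, h⟩) else 0)
          (fun j => if h : j ∈ S then y (Sum.inr ⟨j, h⟩) else 0), by
            intro j hj
            simp [hj]⟩
      left_inv := by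
        intro x
        apply Subtype.ext
        funext l
        rcases l with j | j
        · by_cases hj : j ∈ S
          · simp [hj]
          · simp [hj, (x.2 j hj).1]
        · by_cases hj : j ∈ S
          · simp [hj]
          · simp [hj, (x.2 j hj).2]
      right_inv := by
        intro y
        funext l
        rcases l with ⟨j, hj⟩ | ⟨j, hj⟩ <;> simp [hj] }
  rw [Fintype.card_congr e, Fintype.card_fun, Fintype.card_sum, Fintype.card_coe, pow_add]

section bound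

variable (R : SpG n F →* Matrix (Fin k) (Fin k) ℂ) {v : VV n F} {S : Finset (Fin n)}
  (hv : ∀ u : VV n F, u ∈ VS (F := F) S → sympForm n F v u = 0)
  {P : Matrix (Fin k) (Fin k) ℂ} (hP : P * P = P)
  (hPr : ∀ a : AA S F, P * rQ R v S a = rQ R v S a * P)
  (hPh : ∀ h : SpG n F, InL S h → act h v = v → R h * P = P * R h)

/-- The Fourier idempotents of the radical. -/
noncomputable def fQ (R : SpG n F →* Matrix (Fin k) (Fin k) ℂ) (v : VV n F) (S : Finset (Fin n))
    (χ : AddChar (AA S F) ℂ) : Matrix (Fin k) (Fin k) ℂ := eA (rQ R v S) χ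

include hv in
lemma fQ_idem (χ : AddChar (AA S F) ℂ) : fQ R v S χ * fQ R v S χ = fQ R v S χ :=
  eA_idem (rQ_add R hv) χ

include hv in
lemma fQ_orth {χ χ' : AddChar (AA S F) ℂ} (h : χ ≠ χ') : fQ R v S χ * fQ R v S χ' = 0 :=
  eA_orth (rQ_add R hv) h

lemma sum_fQ : ∑ χ, fQ R v S χ = 1 := sum_eA (rQ_zero R)

include hv in
lemma rQ_mul_fQ (a : AA S F) (χ : AddChar (AA S F) ℂ) :
    rQ R v S a * fQ R v S χ = χ a • fQ R v S χ := r_mul_eA (rQ_add R hv) a χ

include hPr in
lemma comm_P_fQ (χ : AddChar (AA S F) ℂ) : P * fQ R v S χ = fQ R v S χ * P :=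
  comm_eA hPr χ

include hv hP hPr in
lemma Pf_idem (χ : AddChar (AA S F) ℂ) :
    (P * fQ R v S χ) * (P * fQ R v S χ) = P * fQ R v S χ := by
  calc (P * fQ R v S χ) * (P * fQ R v S χ) = P * (fQ R v S χ * P) * fQ R v S χ := by noncomm_ring
    _ = P * (P * fQ R v S χ) * fQ R v S χ := by rw [comm_P_fQ R hPr]
    _ = (P * P) * (fQ R v S χ * fQ R v S χ) := by noncomm_ring
    _ = _ := by rw [hP, fQ_idem R hv]

include hv hP hPr in
lemma rk_eq_sum_chi : rk P = ∑ χ, rk (P * fQ R v S χ) := by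
  have h1 : P.trace = ∑ χ, (P * fQ R v S χ).trace := by
    rw [← Matrix.trace_sum, ← Finset.mul_sum, sum_fQ, mul_one]
  rw [trace_eq_rk P hP] at h1
  simp only [fun χ => trace_eq_rk _ (Pf_idem R hv hP hPr χ)] at h1
  exact_mod_cast h1

/-- Conjugation by the Levi subgroup preserves the support of `P`. -/
lemma conj_fQ (hv : ∀ u : VV n F, u ∈ VS (F := F) S → sympForm n F v u = 0)
    (h : SpG n F) (hh : InL S h) (hvh : act h v = v) (χ : AddChar (AA S F) ℂ) :
    R h * fQ R v S (chiH χ h hh) = fQ R v S χ * R h :=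
  conj_eA (r := rQ R v S) (phiH h hh) (fun a => conj_rQ R hv h hh hvh a) χ

include hv hPh in
lemma P_chiH_ne (h : SpG n F) (hh : InL S h) (hvh : act h v = v) (χ : AddChar (AA S F) ℂ)
    (hne : P * fQ R v S χ ≠ 0) : P * fQ R v S (chiH χ h hh) ≠ 0 := by
  intro h0
  apply hne
  have h1 : P * fQ R v S χ * R h = 0 := by
    calc P * fQ R v S χ * R h = P * (R h * fQ R v S (chiH χ h hh)) := by
          rw [conj_fQ R hv h hh hvh, mul_assoc]
      _ = R h * (P * fQ R v S (chiH χ h hh)) := by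
          rw [← mul_assoc, ← mul_assoc, hPh h hh hvh]
      _ = 0 := by rw [h0, mul_zero]
  have h2 : R h * R h⁻¹ = 1 := by rw [← map_mul, mul_inv_cancel, map_one]
  calc P * fQ R v S χ = P * fQ R v S χ * (R h * R h⁻¹) := by rw [h2, mul_one]
    _ = _ := by rw [← mul_assoc, h1, zero_mul]

include hv hPh in
/-- Twists by `s` with `Φ s = 1` preserve the support of `P`. -/
lemma P_twist_ne (χ : AddChar (AA S F) ℂ) (hχ : zc χ ≠ 1) (hne : P * fQ R v S χ ≠ 0)
    (s : VS (F := F) S) (hs : Phi χ s = 1) : P * fQ R v S (twist χ s) ≠ 0 := by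
  obtain ⟨c, hc, hmove⟩ := exists_move χ hχ s hs
  have hh : InL S (tau s.1 c) := inL_tau c s.2
  have hvh : act (tau s.1 c) v = v := tau_act_of_orth c (hv _ s.2)
  rw [twist_eq_chiH χ s (tau s.1 c) hh (fun u => hmove u _)]
  exact P_chiH_ne R hv hPh _ hh hvh χ hne

include hv hP hPr hPh in
/-- The lower bound. -/
theorem rank_bound (χ : AddChar (AA S F) ℂ) (hχ : zc χ ≠ 1) (hne : P * fQ R v S χ ≠ 0) {M : ℕ}
    (hM : M = Fintype.card F ^ S.card) : M * M ≤ 2 * rk P + M := by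
  classical
  have hcount := count_Phi (fun u u' : VS (F := F) S => B u.1 u'.1) (zc χ) (Phi χ)
    (fun u => by
      apply Subtype.ext
      funext l
      exact CharTwo.add_self_eq_zero (u.1 l))
    (fun a b c => by simp [sympForm_add_left]) (fun a b c => by simp [sympForm_add_right])
    (fun a => sympForm_self _) (Phi_zero χ) (Phi_add χ)
    (fun a ha => exists_B_ne (zc χ) hχ ha) (M := M) (by rw [card_VS, hM])
  set T := Finset.univ.filter fun s => Phi χ s = 1 with hT
  have h1 : T.card ≤ rk P := by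
    rw [rk_eq_sum_chi R hv hP hPr]
    have h2 : (T.image (twist χ)).card = T.card :=
      Finset.card_image_of_injective _ (twist_injective χ hχ)
    rw [← h2]
    calc (T.image (twist χ)).card = ∑ χ' ∈ T.image (twist χ), 1 := by simp
      _ ≤ ∑ χ' ∈ T.image (twist χ), rk (P * fQ R v S χ') := by
        refine Finset.sum_le_sum fun χ' hχ' => ?_
        obtain ⟨s, hs, rfl⟩ := Finset.mem_image.1 hχ'
        have hs' : Phi χ s = 1 := (Finset.mem_filter.1 hs).2
        exact rk_pos_of_ne (Pf_idem R hv hP hPr _) (P_twist_ne R hv hPh χ hχ hne s hs')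
      _ ≤ _ := Finset.sum_le_sum_of_subset (Finset.subset_univ _)
  omega

end bound

section decomposition

/-- The representation of the group of transvections with centre `v`. -/
noncomputable def rZ (R : SpG n F →* Matrix (Fin k) (Fin k) ℂ) (v : VV n F) (c : F) :
    Matrix (Fin k) (Fin k) ℂ := R (tau v c)

/-- The Fourier idempotents of the group of transvections. -/
noncomputable def eZ (R : SpG n F →* Matrix (Fin k) (Fin k) ℂ) (v : VV n F) (ζ : AddChar F ℂ) :
    Matrix (Fin k) (Fin k) ℂ := eA (rZ R v) ζ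

variable (R : SpG n F →* Matrix (Fin k) (Fin k) ℂ) (v : VV n F)

lemma rZ_zero : rZ R v 0 = 1 := by
  rw [rZ, tau_zero, map_one]

lemma rZ_add (a b : F) : rZ R v (a + b) = rZ R v a * rZ R v b := by
  simp only [rZ]
  rw [tau_add, map_mul]

lemma eZ_idem (ζ : AddChar F ℂ) : eZ R v ζ * eZ R v ζ = eZ R v ζ :=
  eA_idem (rZ_add R v) ζ

lemma eZ_orth {ζ ζ' : AddChar F ℂ} (h : ζ ≠ ζ') : eZ R v ζ * eZ R v ζ' = 0 :=
  eA_orth (rZ_add R v) h

lemma sum_eZ : ∑ ζ, eZ R v ζ = 1 := sum_eA (rZ_zero R v)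

lemma tau_mul_eZ (ζ : AddChar F ℂ) (c : F) : R (tau v c) * eZ R v ζ = ζ c • eZ R v ζ :=
  r_mul_eA (rZ_add R v) c ζ

lemma comm_eZ {g : SpG n F} (hg : act g v = v) (ζ : AddChar F ℂ) :
    R g * eZ R v ζ = eZ R v ζ * R g := by
  apply comm_eA
  intro a
  simp only [rZ]
  rw [← map_mul, ← map_mul, conj_tau, hg]

lemma comm_eZ_E {u : VV n F} (c : F) (h : sympForm n F v u = 0) (ζ : AddChar F ℂ) :
    R (E v u c) * eZ R v ζ = eZ R v ζ * R (E v u c) := by
  apply comm_eA
  intro a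
  simp only [rZ]
  rw [← map_mul, ← map_mul, E_tau_comm c a h]

variable {Pj : Matrix (Fin k) (Fin k) ℂ} (hPj : Pj * Pj = Pj)
  (hcτ : ∀ c : F, R (tau v c) * Pj = Pj * R (tau v c))

include hcτ in
lemma comm_Pj_eZ (ζ : AddChar F ℂ) : Pj * eZ R v ζ = eZ R v ζ * Pj := by
  apply comm_eA
  intro a
  exact (hcτ a).symm

include hPj hcτ in
lemma E_idem (ζ : AddChar F ℂ) : (Pj * eZ R v ζ) * (Pj * eZ R v ζ) = Pj * eZ R v ζ := by
  calc (Pj * eZ R v ζ) * (Pj * eZ R v ζ) = Pj * (eZ R v ζ * Pj) * eZ R v ζ := by noncomm_ring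
    _ = Pj * (Pj * eZ R v ζ) * eZ R v ζ := by rw [comm_Pj_eZ R v hcτ]
    _ = (Pj * Pj) * (eZ R v ζ * eZ R v ζ) := by noncomm_ring
    _ = _ := by rw [hPj, eZ_idem R v]

lemma sum_E : ∑ ζ, Pj * eZ R v ζ = Pj := by
  rw [← Finset.mul_sum, sum_eZ R v, mul_one]

include hPj hcτ in
lemma rk_eq_sum : rk Pj = ∑ ζ, rk (Pj * eZ R v ζ) := by
  have h1 : Pj.trace = ∑ ζ, (Pj * eZ R v ζ).trace := by
    rw [← Matrix.trace_sum, sum_E R v]
  rw [trace_eq_rk Pj hPj] at h1
  simp only [fun ζ => trace_eq_rk _ (E_idem R v hPj hcτ ζ)] at h1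
  exact_mod_cast h1

include hcτ in
lemma tau_mul_E (ζ : AddChar F ℂ) (c : F) :
    R (tau v c) * (Pj * eZ R v ζ) = ζ c • (Pj * eZ R v ζ) := by
  rw [← mul_assoc, hcτ, mul_assoc, tau_mul_eZ R v, Matrix.mul_smul]

include hcτ in
/-- A nontrivial action gives a nontrivial isotypic component. -/
lemma exists_E_ne {c₀ : F} (hne : R (tau v c₀) * Pj ≠ Pj) :
    ∃ ζ : AddChar F ℂ, ζ ≠ 1 ∧ Pj * eZ R v ζ ≠ 0 := by
  classical
  by_contra hcon
  push Not at hcon
  apply hne
  have h1 : Pj = Pj * eZ R v 1 := by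
    conv_lhs => rw [← sum_E R v (Pj := Pj)]
    rw [Finset.sum_eq_single 1]
    · intro ζ _ hζ
      exact hcon ζ hζ
    · simp
  rw [h1, tau_mul_E R v hcτ]
  simp

/-- The number of nontrivial characters. -/
lemma card_nontrivial [DecidableEq (AddChar F ℂ)] :
    (Finset.univ.erase (1 : AddChar F ℂ)).card = Fintype.card F - 1 := by
  rw [Finset.card_erase_of_mem (Finset.mem_univ _), Finset.card_univ, AddChar.card_eq]

include hPj hcτ in
/-- All nontrivial characters have the same multiplicity: rank count. -/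
lemma rk_count {m : ℕ} (hm : ∀ ζ : AddChar F ℂ, ζ ≠ 1 → rk (Pj * eZ R v ζ) = m) :
    rk Pj = rk (Pj * eZ R v 1) + (Fintype.card F - 1) * m := by
  classical
  rw [rk_eq_sum R v hPj hcτ, ← Finset.add_sum_erase _ _ (Finset.mem_univ (1 : AddChar F ℂ))]
  congr 1
  rw [Finset.sum_congr rfl (fun ζ hζ => hm ζ (Finset.ne_of_mem_erase hζ)), Finset.sum_const,
    card_nontrivial, smul_eq_mul]

include hPj hcτ in
/-- The rank is constant on nontrivial characters. -/
lemma rk_E_eq (hD : ∀ a : F, a ≠ 0 → ∃ D : SpG n F, R D * Pj = Pj * R D ∧ act D v = a • v)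
    (ζ ζ' : AddChar F ℂ) (hζ : ζ ≠ 1) (hζ' : ζ' ≠ 1) :
    rk (Pj * eZ R v ζ) = rk (Pj * eZ R v ζ') := by
  classical
  obtain ⟨β, hβ⟩ := exists_shift ζ' ζ hζ'
  have hβ0 : β ≠ 0 := by
    rintro rfl
    apply hζ
    ext x
    rw [hβ x]
    simp
  obtain ⟨a, ha⟩ := exists_sqrt β
  have ha0 : a ≠ 0 := by
    rintro rfl
    apply hβ0
    rw [← ha]
    simp
  obtain ⟨D, hD1, hD2⟩ := hD a ha0
  let φ : F ≃+ F :=
    { toFun := fun x => β * x
      invFun := fun x => β⁻¹ * x
      left_inv := fun x => by simp only; field_simp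
      right_inv := fun x => by simp only; field_simp
      map_add' := mul_add β }
  have hT : ∀ c : F, R D * rZ R v c = rZ R v (φ c) * R D := by
    intro c
    simp only [rZ]
    rw [← map_mul, ← map_mul, conj_tau, hD2, tau_smul, ha]
    rfl
  have h1 := conj_eA (r := rZ R v) (T := R D) φ hT ζ'
  have h2 : ζ'.compAddMonoidHom φ.toAddMonoidHom = ζ := by
    ext x
    rw [hβ x]
    rfl
  rw [h2] at h1
  refine rk_eq_of_conj (T := R D) (T' := R D⁻¹) (by rw [← map_mul, mul_inv_cancel, map_one])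
    (by rw [← map_mul, inv_mul_cancel, map_one]) (E_idem R v hPj hcτ _) (E_idem R v hPj hcτ _) ?_
  rw [← mul_assoc, hD1, mul_assoc]
  change Pj * (R D * eZ R v ζ) = _
  rw [show eZ R v ζ = eA (rZ R v) ζ from rfl, h1, ← mul_assoc]
  rfl

include hPj hcτ in
/-- The trace of a central element. -/
lemma trace_tau {c₀ : F} (hc0 : c₀ ≠ 0) {m : ℕ}
    (hm : ∀ ζ : AddChar F ℂ, ζ ≠ 1 → rk (Pj * eZ R v ζ) = m) :
    (R (tau v c₀) * Pj).trace = (rk (Pj * eZ R v 1) : ℂ) - m := by
  classical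
  have h1 : R (tau v c₀) * Pj = ∑ ζ, ζ c₀ • (Pj * eZ R v ζ) := by
    conv_lhs => rw [← sum_E R v (Pj := Pj)]
    rw [Finset.mul_sum]
    exact Finset.sum_congr rfl fun ζ _ => tau_mul_E R v hcτ ζ c₀
  have h2 : ∑ ζ : AddChar F ℂ, ζ c₀ = 0 := by
    rw [AddChar.sum_apply_eq_ite, if_neg hc0]
  rw [h1, Matrix.trace_sum]
  simp only [Matrix.trace_smul, smul_eq_mul, fun ζ => trace_eq_rk _ (E_idem R v hPj hcτ ζ)]
  rw [← Finset.add_sum_erase _ _ (Finset.mem_univ (1 : AddChar F ℂ))]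
  have h3 : ∑ ζ ∈ Finset.univ.erase (1 : AddChar F ℂ), ζ c₀ * ((rk (Pj * eZ R v ζ) : ℕ) : ℂ) =
      (∑ ζ ∈ Finset.univ.erase (1 : AddChar F ℂ), ζ c₀) * m := by
    rw [Finset.sum_mul]
    refine Finset.sum_congr rfl fun ζ hζ => ?_
    rw [hm ζ (Finset.ne_of_mem_erase hζ)]
  rw [h3]
  have h4 := Finset.add_sum_erase Finset.univ (fun ζ : AddChar F ℂ => ζ c₀)
    (Finset.mem_univ (1 : AddChar F ℂ))
  rw [h2] at h4
  have h5 : ∑ ζ ∈ Finset.univ.erase (1 : AddChar F ℂ), ζ c₀ = -1 := by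
    simp only [AddChar.one_apply] at h4
    linear_combination h4
  rw [h5]
  simp
  ring

end decomposition

end Cfsg.Agent.Lib.SpEvenMinDeg
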