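import Mathlib
import Cfsg.Agent.Lib.SpEvenMinDeg4

/-!
# Nontriviality of the action on the fixed points of the central transvections
-/

set_option autoImplicit false
set_option linter.unusedSectionVars false
set_option linter.unusedVariables false

namespace Cfsg.Agent.Lib.SpEvenMinDeg

open Matrix Cfsg Cfsg.Agent.Lib.SympForm Cfsg.Agent.Lib.FourierAb

variable {F : Type*} [Field F] [CharP F 2] [Fintype F] {n k : ℕ}

local notation "B" => sympForm n F

/-- The additive character along a vector. -/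
lemma exists_beta {S : Finset (Fin n)} (χ : AddChar (AA S F) ℂ) (hχ : zc χ ≠ 1)
    (s : VS (F := F) S) : ∃ β : F, ∀ y : F, Phi χ (y • s) = zc χ (β * y) := by
  have hss : B s.1 s.1 = 0 := sympForm_self _
  let ψ : AddChar F ℂ :=
    { toFun := fun y => Phi χ (y • s)
      map_zero_eq_one' := by
        rw [zero_smul]
        exact Phi_zero χ
      map_add_eq_mul' := by
        intro x y
        rw [add_smul, Phi_add]
        simp only [SetLike.val_smul]
        rw [sympForm_smul_left, sympForm_smul_right, hss]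
        simp }
  obtain ⟨β, hβ⟩ := exists_shift (zc χ) ψ hχ
  exact ⟨β, hβ⟩

/-- Some value of `Φ` on a hyperbolic plane is `-1`. -/
lemma exists_Phi_neg {S : Finset (Fin n)} (χ : AddChar (AA S F) ℂ) (hχ : zc χ ≠ 1) {i : Fin n}
    (hi : i ∈ S) : ∃ y : VS (F := F) S, y.1 ∈ VS (F := F) ({i} : Finset (Fin n)) ∧ Phi χ y = -1 := by
  by_contra hcon
  push Not at hcon
  have hall : ∀ y : VS (F := F) S, y.1 ∈ VS (F := F) ({i} : Finset (Fin n)) → Phi χ y = 1 := by
    intro y hy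
    exact (Phi_eq_one_or χ y).resolve_right (hcon y hy)
  obtain ⟨x, hx⟩ := exists_char_ne (zc χ) hχ
  have hii := Finset.mem_singleton_self i
  let y₁ : VS (F := F) S := ⟨x • ee n F i, Submodule.smul_mem _ _ (ee_mem_VS hi)⟩
  let y₂ : VS (F := F) S := ⟨ff n F i, ff_mem_VS hi⟩
  have h1 : Phi χ y₁ = 1 := hall y₁ (Submodule.smul_mem _ _ (ee_mem_VS hii))
  have h2 : Phi χ y₂ = 1 := hall y₂ (ff_mem_VS hii)
  have h3 : Phi χ (y₁ + y₂) = 1 := hall (y₁ + y₂)
    (Submodule.add_mem _ (Submodule.smul_mem _ _ (ee_mem_VS hii)) (ff_mem_VS hii))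
  rw [Phi_add, h1, h2, one_mul, one_mul] at h3
  apply hx
  have h4 : B y₁.1 y₂.1 = x := by
    change B (x • ee n F i) (ff n F i) = x
    rw [sympForm_smul_left, B_ff, ee_inl_self, mul_one]
  rwa [h4] at h3

/-- Solving for the twist which kills the linear term. -/
lemma exists_twist_vector {S : Finset (Fin n)} (χ : AddChar (AA S F) ℂ) (hχ : zc χ ≠ 1)
    {i i' : Fin n} (hi : i ∈ S) (hi' : i' ∈ S) (hne : i' ≠ i) (β : F) :
    ∃ s : VS (F := F) S, Phi χ s = 1 ∧ B s.1 (ee n F i) = β := by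
  let x₀ : VS (F := F) S := ⟨β • ff n F i, Submodule.smul_mem _ _ (ff_mem_VS hi)⟩
  have hx₀ : B x₀.1 (ee n F i) = β := by
    change B (β • ff n F i) (ee n F i) = β
    rw [sympForm_smul_left, B_ee, ff_inr_self, mul_one]
  rcases Phi_eq_one_or χ x₀ with h | h
  · exact ⟨x₀, h, hx₀⟩
  · obtain ⟨y, hy, hy'⟩ := exists_Phi_neg χ hχ hi'
    have hd : Disjoint ({i} : Finset (Fin n)) ({i'} : Finset (Fin n)) := by
      simp [hne.symm]
    refine ⟨x₀ + y, ?_, ?_⟩
    · rw [Phi_add, h, hy']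
      have : B x₀.1 y.1 = 0 := by
        change B (β • ff n F i) y.1 = 0
        rw [sympForm_smul_left, B_eq_zero_of_disjoint hd (ff_mem_VS (Finset.mem_singleton_self i)) hy,
          mul_zero]
      rw [this, AddChar.map_zero_eq_one]
      ring
    · simp only [AddMemClass.coe_add]
      rw [sympForm_add_left, hx₀, B_comm y.1,
        B_eq_zero_of_disjoint hd (ee_mem_VS (Finset.mem_singleton_self i)) hy, add_zero]

section nontriv

variable (R : SpG n F →* Matrix (Fin k) (Fin k) ℂ) {S : Finset (Fin n)} {i i' i'' : Fin n}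
  {Pj : Matrix (Fin k) (Fin k) ℂ}

/-- The central character of a component. -/
lemma zc_eq_of_ne {v : VV n F} {S' : Finset (Fin n)}
    (hv : ∀ u : VV n F, u ∈ VS (F := F) S' → sympForm n F v u = 0)
    {ζ : AddChar F ℂ} (hcτ : ∀ c : F, R (tau v c) * Pj = Pj * R (tau v c))
    {χ : AddChar (AA S' F) ℂ} (hne : (Pj * eZ R v ζ) * fQ R v S' χ ≠ 0) : zc χ = ζ := by
  ext c
  have h1 : rQ R v S' ((0 : ↥(VS (F := F) S')), c) = R (tau v c) := rQ_inr R c
  have h2 : ζ c • ((Pj * eZ R v ζ) * fQ R v S' χ) = χ ((0 : ↥(VS (F := F) S')), c) •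
      ((Pj * eZ R v ζ) * fQ R v S' χ) := by
    calc ζ c • ((Pj * eZ R v ζ) * fQ R v S' χ)
        = (ζ c • (Pj * eZ R v ζ)) * fQ R v S' χ := by rw [Matrix.smul_mul]
      _ = (R (tau v c) * (Pj * eZ R v ζ)) * fQ R v S' χ := by rw [tau_mul_E R v hcτ]
      _ = (Pj * (eZ R v ζ * R (tau v c))) * fQ R v S' χ := by
        congr 1
        rw [← mul_assoc, hcτ, mul_assoc, comm_eZ R v (by
          rw [act_tau, sympForm_self]; simp)]
      _ = (Pj * eZ R v ζ) * (rQ R v S' ((0 : ↥(VS (F := F) S')), c) * fQ R v S' χ) := by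
        rw [h1]
        noncomm_ring
      _ = _ := by
        rw [rQ_mul_fQ R hv, Matrix.mul_smul]
  have h3 : (ζ c - χ ((0 : ↥(VS (F := F) S')), c)) • ((Pj * eZ R v ζ) * fQ R v S' χ) = 0 := by
    rw [sub_smul, h2, sub_self]
  have h4 := (smul_eq_zero.1 h3).resolve_right hne
  rw [zc_apply]
  linear_combination -h4

/-- The main nontriviality theorem. -/
theorem nontriv (hi : i ∈ S) (hi' : i' ∈ S.erase i) (hi'' : i'' ∈ S.erase i) (h12 : i'' ≠ i')
    (hPj : Pj * Pj = Pj) (hcomm : ∀ g, InL S g → R g * Pj = Pj * R g) {c₀ : F} (hc0 : c₀ ≠ 0)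
    (hne : R (tau (ee n F i) c₀) * Pj ≠ Pj) :
    R (tau (ee n F i') c₀) * (Pj * eZ R (ee n F i) 1) ≠ Pj * eZ R (ee n F i) 1 := by
  classical
  intro heq
  set v := ee n F i with hvdef
  set s₀ := ee n F i' with hs₀def
  set S' := S.erase i with hS'def
  have hS'sub : S' ⊆ S := Finset.erase_subset _ _
  have hi'S : i' ∈ S := hS'sub hi'
  have hnei' : i' ≠ i := Finset.ne_of_mem_erase hi'
  have hvS' : v ∈ VS (F := F) ({i} : Finset (Fin n)) := ee_mem_VS (Finset.mem_singleton_self i)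
  have hvS : v ∈ VS (F := F) S := ee_mem_VS hi
  have hdisj : Disjoint ({i} : Finset (Fin n)) S' := by simp [hS'def]
  have hv : ∀ u : VV n F, u ∈ VS (F := F) S' → sympForm n F v u = 0 :=
    fun u hu => B_eq_zero_of_disjoint hdisj hvS' hu
  have hfix : ∀ h : SpG n F, InL S' h → act h v = v := fun h hh => InL.act_eq hdisj.symm hh hvS'
  have hcτ : ∀ c : F, R (tau v c) * Pj = Pj * R (tau v c) := fun c => hcomm _ (inL_tau c hvS)
  have hD : ∀ a : F, a ≠ 0 → ∃ D : SpG n F, R D * Pj = Pj * R D ∧ act D v = a • v := fun a ha =>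
    ⟨Dt i a ha, hcomm _ ((inL_Dt i ha).mono (Finset.singleton_subset_iff.2 hi)), Dt_ee i ha⟩
  obtain ⟨ζ₀, hζ₀, hE₀⟩ := exists_E_ne R v hcτ hne
  set m := rk (Pj * eZ R v ζ₀) with hm
  have hrk : ∀ ζ : AddChar F ℂ, ζ ≠ 1 → rk (Pj * eZ R v ζ) = m := fun ζ hζ =>
    rk_E_eq R v hPj hcτ hD ζ ζ₀ hζ hζ₀
  set P' := Pj * eZ R v 1 with hP'
  have hEidem := E_idem R v hPj hcτ
  -- commutation with the components
  have hcommE : ∀ g : SpG n F, InL S g → act g v = v → ∀ ζ,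
      R g * (Pj * eZ R v ζ) = (Pj * eZ R v ζ) * R g := by
    intro g hg hgv ζ
    rw [← mul_assoc, hcomm g hg, mul_assoc, comm_eZ R v hgv, mul_assoc]
  have htL : ∀ c : F, InL S' (tau s₀ c) := fun c => inL_tau c (ee_mem_VS hi')
  have htfix : ∀ c : F, act (tau s₀ c) v = v := fun c => hfix _ (htL c)
  -- (a) all transvections act trivially on `P'`
  have ha : ∀ c : F, c ≠ 0 → R (tau s₀ c) * P' = P' := by
    intro c hc
    obtain ⟨a, ha⟩ := exists_sqrt (c / c₀)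
    have ha0 : a ≠ 0 := by
      rintro rfl
      have : c / c₀ = 0 := by rw [← ha]; simp
      exact (div_ne_zero hc hc0) this
    let D : SpG n F := Dt i' a ha0
    have hDL : InL S' D := (inL_Dt i' ha0).mono (Finset.singleton_subset_iff.2 hi')
    have hDv : act D v = v := hfix D hDL
    have hDs : act D s₀ = a • s₀ := Dt_ee i' ha0
    have hconj : D * tau s₀ c₀ = tau s₀ c * D := by
      rw [conj_tau, hDs, tau_smul, ha]
      congr 2
      field_simp
    have hDP : R D * P' = P' * R D := hcommE D (hDL.mono hS'sub) hDv 1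
    have hDD : R D * R D⁻¹ = 1 := by rw [← map_mul, mul_inv_cancel, map_one]
    have hDD' : R D⁻¹ * R D = 1 := by rw [← map_mul, inv_mul_cancel, map_one]
    have h1 : R (tau s₀ c) * R D = R D * R (tau s₀ c₀) := by
      rw [← map_mul, ← map_mul, hconj]
    calc R (tau s₀ c) * P' = R (tau s₀ c) * (P' * (R D * R D⁻¹)) := by rw [hDD, mul_one]
      _ = R (tau s₀ c) * (R D * P') * R D⁻¹ := by rw [hDP]; noncomm_ring
      _ = (R (tau s₀ c) * R D) * P' * R D⁻¹ := by noncomm_ring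
      _ = R D * (R (tau s₀ c₀) * P') * R D⁻¹ := by rw [h1]; noncomm_ring
      _ = R D * P' * R D⁻¹ := by rw [heq]
      _ = P' * (R D * R D⁻¹) := by rw [hDP]; noncomm_ring
      _ = P' := by rw [hDD, mul_one]
  -- (b) the traces
  have hb : ∀ c : F, c ≠ 0 → ∑ ζ ∈ Finset.univ.erase (1 : AddChar F ℂ),
      (R (tau s₀ c) * (Pj * eZ R v ζ)).trace = -(m : ℂ) := by
    intro c hc
    obtain ⟨g, hgL, hgv⟩ := exists_swap (F := F) hi hi'S
    have hconj : g * tau v c = tau s₀ c * g := by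
      rw [conj_tau, hgv]
    have htr1 : (R (tau s₀ c) * Pj).trace = (R (tau v c) * Pj).trace := by
      have h1 : R (tau s₀ c) = R g * R (tau v c) * R g⁻¹ := by
        have : tau s₀ c = g * tau v c * g⁻¹ := by
          rw [hconj]; group
        rw [this, map_mul, map_mul]
      have h2 : R g⁻¹ * R g = 1 := by rw [← map_mul, inv_mul_cancel, map_one]
      rw [h1]
      calc (R g * R (tau v c) * R g⁻¹ * Pj).trace
          = (R g * (R (tau v c) * R g⁻¹ * Pj)).trace := by noncomm_ring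
        _ = ((R (tau v c) * R g⁻¹ * Pj) * R g).trace := Matrix.trace_mul_comm _ _
        _ = (R (tau v c) * R g⁻¹ * (Pj * R g)).trace := by noncomm_ring
        _ = (R (tau v c) * (R g⁻¹ * R g) * Pj).trace := by
          rw [← hcomm g hgL]; noncomm_ring
        _ = _ := by rw [h2, mul_one]
    rw [trace_tau R v hPj hcτ hc hrk] at htr1
    have hsum : (R (tau s₀ c) * Pj).trace = ∑ ζ, (R (tau s₀ c) * (Pj * eZ R v ζ)).trace := by
      rw [← Matrix.trace_sum, ← Finset.mul_sum, sum_E R v]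
    rw [hsum, ← Finset.add_sum_erase _ _ (Finset.mem_univ (1 : AddChar F ℂ)), ← hP', ha c hc,
      trace_eq_rk _ (hEidem 1)] at htr1
    linear_combination htr1
  -- (c) the sum over the group of transvections
  set e0 := eZ R s₀ 1 with he0
  have he0comm : ∀ ζ, e0 * (Pj * eZ R v ζ) = (Pj * eZ R v ζ) * e0 := by
    intro ζ
    symm
    apply comm_eA
    intro c
    exact (hcommE _ ((htL c).mono hS'sub) (htfix c) ζ).symm
  have he0idem : e0 * e0 = e0 := eZ_idem R s₀ 1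
  have hQidem : ∀ ζ, (e0 * (Pj * eZ R v ζ)) * (e0 * (Pj * eZ R v ζ)) = e0 * (Pj * eZ R v ζ) := by
    intro ζ
    calc (e0 * (Pj * eZ R v ζ)) * (e0 * (Pj * eZ R v ζ))
        = e0 * ((Pj * eZ R v ζ) * e0) * (Pj * eZ R v ζ) := by noncomm_ring
      _ = e0 * (e0 * (Pj * eZ R v ζ)) * (Pj * eZ R v ζ) := by rw [he0comm]
      _ = (e0 * e0) * ((Pj * eZ R v ζ) * (Pj * eZ R v ζ)) := by noncomm_ring
      _ = _ := by rw [he0idem, hEidem]
  have hq : ((Fintype.card F : ℕ) : ℂ) ≠ 0 := card_ne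
  have hQtr : ∀ ζ, (e0 * (Pj * eZ R v ζ)).trace =
      ((Fintype.card F : ℕ) : ℂ)⁻¹ * ∑ c : F, (R (tau s₀ c) * (Pj * eZ R v ζ)).trace := by
    intro ζ
    rw [he0]
    simp only [eZ, eA, AddChar.one_apply, one_smul, rZ, Matrix.smul_mul, Finset.sum_mul,
      Matrix.trace_smul, Matrix.trace_sum, smul_eq_mul]
  have hc' : ∑ ζ ∈ Finset.univ.erase (1 : AddChar F ℂ), (e0 * (Pj * eZ R v ζ)).trace = 0 := by
    simp only [hQtr]
    rw [← Finset.mul_sum, Finset.sum_comm]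
    rw [← Finset.add_sum_erase _ _ (Finset.mem_univ (0 : F))]
    have h0 : ∑ ζ ∈ Finset.univ.erase (1 : AddChar F ℂ),
        (R (tau s₀ 0) * (Pj * eZ R v ζ)).trace = ((Fintype.card F - 1 : ℕ) : ℂ) * m := by
      rw [tau_zero, map_one]
      have : ∀ ζ ∈ Finset.univ.erase (1 : AddChar F ℂ),
          ((1 : Matrix (Fin k) (Fin k) ℂ) * (Pj * eZ R v ζ)).trace = (m : ℂ) := by
        intro ζ hζ
        rw [one_mul, trace_eq_rk _ (hEidem ζ), hrk ζ (Finset.ne_of_mem_erase hζ)]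
      rw [Finset.sum_congr rfl this, Finset.sum_const, card_nontrivial, nsmul_eq_mul]
    have h1 : ∑ c ∈ Finset.univ.erase (0 : F), ∑ ζ ∈ Finset.univ.erase (1 : AddChar F ℂ),
        (R (tau s₀ c) * (Pj * eZ R v ζ)).trace = ((Fintype.card F - 1 : ℕ) : ℂ) * (-(m : ℂ)) := by
      have : ∀ c ∈ Finset.univ.erase (0 : F), ∑ ζ ∈ Finset.univ.erase (1 : AddChar F ℂ),
          (R (tau s₀ c) * (Pj * eZ R v ζ)).trace = -(m : ℂ) :=
        fun c hc => hb c (Finset.ne_of_mem_erase hc)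
      rw [Finset.sum_congr rfl this, Finset.sum_const, Finset.card_erase_of_mem (Finset.mem_univ _),
        Finset.card_univ, nsmul_eq_mul]
    rw [h0, h1]
    ring
  have hQzero : ∀ ζ : AddChar F ℂ, ζ ≠ 1 → e0 * (Pj * eZ R v ζ) = 0 := by
    intro ζ hζ
    by_contra hne0
    have h1 : 0 < rk (e0 * (Pj * eZ R v ζ)) := rk_pos_of_ne (hQidem ζ) hne0
    have h2 : ∑ ζ ∈ Finset.univ.erase (1 : AddChar F ℂ), rk (e0 * (Pj * eZ R v ζ)) = 0 := by
      have h3 : ∑ ζ ∈ Finset.univ.erase (1 : AddChar F ℂ), (e0 * (Pj * eZ R v ζ)).trace =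
          ((∑ ζ ∈ Finset.univ.erase (1 : AddChar F ℂ), rk (e0 * (Pj * eZ R v ζ)) : ℕ) : ℂ) := by
        push_cast
        exact Finset.sum_congr rfl fun ζ _ => trace_eq_rk _ (hQidem ζ)
      rw [h3] at hc'
      exact_mod_cast hc'
    have h4 := (Finset.sum_eq_zero_iff.1 h2) ζ (Finset.mem_erase.2 ⟨hζ, Finset.mem_univ _⟩)
    omega
  -- (d) the contradiction
  set P₁ := Pj * eZ R v ζ₀ with hP₁
  have hP₁idem : P₁ * P₁ = P₁ := hEidem ζ₀
  have hPr : ∀ a : AA S' F, P₁ * rQ R v S' a = rQ R v S' a * P₁ := by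
    intro a
    have hg : InL S (E v a.1.1 (a.2 + f0 a.1.1)) :=
      inL_E _ (hv _ a.1.2) hvS (VS_mono hS'sub a.1.2)
    change P₁ * R _ = R _ * P₁
    rw [hP₁, mul_assoc, ← comm_eZ_E R v _ (hv _ a.1.2), ← mul_assoc, ← hcomm _ hg, mul_assoc]
  have hPh : ∀ h : SpG n F, InL S' h → act h v = v → R h * P₁ = P₁ * R h :=
    fun h hh hhv => hcommE h (hh.mono hS'sub) hhv ζ₀
  obtain ⟨χ₀, hχ₀⟩ : ∃ χ : AddChar (AA S' F) ℂ, P₁ * fQ R v S' χ ≠ 0 := by
    by_contra hcon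
    push Not at hcon
    apply hE₀
    have : P₁ = ∑ χ, P₁ * fQ R v S' χ := by
      rw [← Finset.mul_sum, sum_fQ, mul_one]
    rw [this]
    exact Finset.sum_eq_zero fun χ _ => hcon χ
  have hzc₀ : zc χ₀ = ζ₀ := zc_eq_of_ne R hv hcτ hχ₀
  have hzc₀' : zc χ₀ ≠ 1 := by rw [hzc₀]; exact hζ₀
  let s₀' : VS (F := F) S' := ⟨s₀, ee_mem_VS hi'⟩
  obtain ⟨β₀, hβ₀⟩ := exists_beta χ₀ hzc₀' s₀'
  obtain ⟨s, hs1, hs2⟩ := exists_twist_vector χ₀ hzc₀' hi' hi'' h12 β₀
  set χ₁ := twist χ₀ s with hχ₁def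
  have hχ₁ : P₁ * fQ R v S' χ₁ ≠ 0 := P_twist_ne R hv hPh χ₀ hzc₀' hχ₀ s hs1
  have hzc₁ : zc χ₁ = ζ₀ := by rw [hχ₁def, zc_twist, hzc₀]
  have hΦ₁ : ∀ y : F, Phi χ₁ (y • s₀') = 1 := by
    intro y
    rw [hχ₁def, Phi_twist, hβ₀]
    change zc χ₀ (β₀ * y) * zc χ₀ (B s.1 (y • s₀)) = 1
    rw [sympForm_smul_right, hs2, mul_comm y β₀]
    exact char_sq_eq_one _ (CharTwo.add_self_eq_zero _)
  set f₁ := fQ R v S' χ₁ with hf₁
  have hf₁idem : f₁ * f₁ = f₁ := fQ_idem R hv χ₁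
  -- moving the character
  have hmoved : ∀ c : F, c ≠ 0 → f₁ * R (tau s₀ c) * f₁ = 0 := by
    intro c hc
    have hh := htL c
    have hne1 : chiH χ₁ (tau s₀ c) hh ≠ χ₁ := by
      intro hEq
      obtain ⟨z, hz⟩ := mulShift_ne_one ζ₀ hζ₀ hc
      obtain ⟨x, hx⟩ := exists_sqrt z
      apply hz
      rw [← hx]
      let w₀ : VS (F := F) S' := ⟨ff n F i', ff_mem_VS hi'⟩
      have h1 : Phi (chiH χ₁ (tau s₀ c) hh) (x • w₀) = Phi χ₁ (x • w₀) := by rw [hEq]
      rw [Phi_chiH] at h1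
      have h2 : (⟨act (tau s₀ c) (x • w₀).1, hh.act_mem (x • w₀).2⟩ : VS (F := F) S') =
          x • w₀ + (c * x) • s₀' := by
        apply Subtype.ext
        change act (tau s₀ c) (x • ff n F i') = x • ff n F i' + (c * x) • s₀
        rw [act_tau, sympForm_smul_left, B_ee, ff_inr_self, mul_one]
      rw [h2, Phi_add, hΦ₁, mul_one] at h1
      have h3 : B (x • w₀).1 ((c * x) • s₀').1 = c * x ^ 2 := by
        change B (x • ff n F i') ((c * x) • s₀) = c * x ^ 2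
        rw [sympForm_smul_left, sympForm_smul_right, B_ee, ff_inr_self]
        ring
      rw [h3, hzc₁] at h1
      exact mul_left_cancel₀ (char_apply_ne_zero χ₁ _) (h1.trans (mul_one _).symm)
    calc f₁ * R (tau s₀ c) * f₁ = (f₁ * R (tau s₀ c)) * f₁ := rfl
      _ = (R (tau s₀ c) * fQ R v S' (chiH χ₁ (tau s₀ c) hh)) * f₁ := by
        rw [conj_fQ R hv _ hh (htfix c)]
      _ = R (tau s₀ c) * (fQ R v S' (chiH χ₁ (tau s₀ c) hh) * f₁) := by rw [mul_assoc]
      _ = 0 := by rw [fQ_orth R hv hne1, mul_zero]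
  have he0f : f₁ * e0 * f₁ = ((Fintype.card F : ℕ) : ℂ)⁻¹ • f₁ := by
    rw [he0]
    simp only [eZ, eA, AddChar.one_apply, one_smul, rZ]
    rw [Matrix.mul_smul, Matrix.smul_mul, Finset.mul_sum, Finset.sum_mul]
    congr 1
    rw [Finset.sum_eq_single (0 : F)]
    · rw [tau_zero, map_one, mul_one, hf₁idem]
    · intro c _ hc
      exact hmoved c hc
    · simp
  have hcommf : P₁ * f₁ = f₁ * P₁ := comm_P_fQ R hPr χ₁
  have hfinal : ((Fintype.card F : ℕ) : ℂ)⁻¹ • (P₁ * f₁) = 0 := by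
    calc ((Fintype.card F : ℕ) : ℂ)⁻¹ • (P₁ * f₁) = (((Fintype.card F : ℕ) : ℂ)⁻¹ • f₁) * P₁ := by
          rw [Matrix.smul_mul, hcommf]
      _ = f₁ * e0 * f₁ * P₁ := by rw [he0f]
      _ = f₁ * e0 * (P₁ * f₁) := by rw [hcommf]; noncomm_ring
      _ = f₁ * (e0 * P₁) * f₁ := by noncomm_ring
      _ = 0 := by rw [hQzero ζ₀ hζ₀]; simp
  have h9 := (smul_eq_zero.1 hfinal).resolve_left (inv_ne_zero hq)
  exact hχ₁ h9

end nontriv

end Cfsg.Agent.Lib.SpEvenMinDeg
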