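import Mathlib
import Cfsg.Agent.Lib.SpEvenMinDeg5
import Cfsg.Agent.Lib.CharBasic

/-!
# The minimal degree of `Sp_{2n}(q)`, `q` even: the recursion and the final bound
-/

set_option autoImplicit false
set_option linter.unusedSectionVars false
set_option linter.unusedVariables false

namespace Cfsg.Agent.Lib.SpEvenMinDeg

open Matrix Cfsg Cfsg.Agent.Lib.SympForm Cfsg.Agent.Lib.FourierAb

/-- Twice the recursive lower bound. -/
def dbl (q : ℕ) : ℕ → ℕ
  | 0 => 0
  | 1 => 0
  | (d + 2) => (q - 1) * (q ^ (d + 1) * (q ^ (d + 1) - 1)) + dbl q (d + 1)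

lemma dbl_formula {q : ℕ} (hq : 1 ≤ q) (d : ℕ) :
    (q + 1) * dbl q (d + 1) = (q ^ (d + 1) - 1) * (q ^ (d + 1) - q) := by
  induction d with
  | zero => simp [dbl]
  | succ d ih =>
    have h1 : dbl q (d + 1 + 1) = (q - 1) * (q ^ (d + 1) * (q ^ (d + 1) - 1)) + dbl q (d + 1) := rfl
    rw [h1, mul_add, ih]
    obtain ⟨p, rfl⟩ : ∃ p, q = p + 1 := ⟨q - 1, by omega⟩
    have h2 : p + 1 ≤ (p + 1) ^ (d + 1) := by
      calc p + 1 = (p + 1) ^ 1 := (pow_one _).symm
        _ ≤ _ := Nat.pow_le_pow_right (by omega) (by omega)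
    obtain ⟨b, hb⟩ : ∃ b, (p + 1) ^ (d + 1) = p + 1 + b := ⟨_, (Nat.add_sub_of_le h2).symm⟩
    have h3 : (p + 1) ^ (d + 1 + 1) = (p + 1) * (p + 1 + b) := by
      rw [pow_succ, hb]
      ring
    rw [h3, hb]
    simp only [Nat.add_sub_cancel]
    have h4 : p + 1 + b - 1 = p + b := by omega
    have h5 : p + 1 + b - (p + 1) = b := by omega
    have h6 : (p + 1) * (p + 1 + b) - 1 = p * (p + 1 + b) + p + b := by
      apply Nat.sub_eq_of_eq_add
      ring
    have h7 : (p + 1) * (p + 1 + b) - (p + 1) = (p + 1) * (p + b) := by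
      apply Nat.sub_eq_of_eq_add
      ring
    rw [h4, h5, h6, h7]
    ring

variable {F : Type*} [Field F] [CharP F 2] [Fintype F] {n k : ℕ}

local notation "B" => sympForm n F

/-- The main recursion. -/
theorem main_bound (R : SpG n F →* Matrix (Fin k) (Fin k) ℂ) {c₀ : F} (hc0 : c₀ ≠ 0) :
    ∀ (d : ℕ) (S : Finset (Fin n)), S.card = d → ∀ Pj : Matrix (Fin k) (Fin k) ℂ,
      Pj * Pj = Pj → (∀ g, InL S g → R g * Pj = Pj * R g) →
      ∀ i, i ∈ S → R (tau (ee n F i) c₀) * Pj ≠ Pj → dbl (Fintype.card F) d ≤ 2 * rk Pj := by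
  classical
  intro d
  induction d with
  | zero => intro S _ Pj _ _ _ _ _; simp [dbl]
  | succ d IH =>
  intro S hS Pj hPj hcomm i hi hne
  rcases d with _ | d'
  · simp [dbl]
  set v := ee n F i with hvdef
  set S' := S.erase i with hS'def
  have hS'c : S'.card = d' + 1 := by
    rw [hS'def, Finset.card_erase_of_mem hi, hS]
    omega
  have hS'sub : S' ⊆ S := Finset.erase_subset _ _
  have hvS' : v ∈ VS (F := F) ({i} : Finset (Fin n)) := ee_mem_VS (Finset.mem_singleton_self i)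
  have hvS : v ∈ VS (F := F) S := ee_mem_VS hi
  have hdisj : Disjoint ({i} : Finset (Fin n)) S' := by simp [hS'def]
  have hv : ∀ u : VV n F, u ∈ VS (F := F) S' → sympForm n F v u = 0 :=
    fun u hu => B_eq_zero_of_disjoint hdisj hvS' hu
  have hfix : ∀ h : SpG n F, InL S' h → act h v = v := fun h hh => InL.act_eq hdisj.symm hh hvS'
  have hcτ : ∀ c : F, R (tau v c) * Pj = Pj * R (tau v c) := fun c => hcomm _ (inL_tau c hvS)
  have hD : ∀ a : F, a ≠ 0 → ∃ D : SpG n F, R D * Pj = Pj * R D ∧ act D v = a • v := fun a ha =>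
    ⟨Dt i a ha, hcomm _ ((inL_Dt i ha).mono (Finset.singleton_subset_iff.2 hi)), Dt_ee i ha⟩
  obtain ⟨ζ₀, hζ₀, hE₀⟩ := exists_E_ne R v hcτ hne
  set m := rk (Pj * eZ R v ζ₀) with hm
  have hrk : ∀ ζ : AddChar F ℂ, ζ ≠ 1 → rk (Pj * eZ R v ζ) = m := fun ζ hζ =>
    rk_E_eq R v hPj hcτ hD ζ ζ₀ hζ hζ₀
  have hcount := rk_count R v hPj hcτ hrk
  have hEidem := E_idem R v hPj hcτ
  have hcommE : ∀ g : SpG n F, InL S g → act g v = v → ∀ ζ,
      R g * (Pj * eZ R v ζ) = (Pj * eZ R v ζ) * R g := by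
    intro g hg hgv ζ
    rw [← mul_assoc, hcomm g hg, mul_assoc, comm_eZ R v hgv, mul_assoc]
  -- the bound on `m`
  set P₁ := Pj * eZ R v ζ₀ with hP₁
  have hPr : ∀ a : AA S' F, P₁ * rQ R v S' a = rQ R v S' a * P₁ := by
    intro a
    have hg : InL S (E v a.1.1 (a.2 + f0 a.1.1)) :=
      inL_E _ (hv _ a.1.2) hvS (VS_mono hS'sub a.1.2)
    change P₁ * R _ = R _ * P₁
    rw [hP₁, mul_assoc, ← comm_eZ_E R v _ (hv _ a.1.2), ← mul_assoc, ← hcomm _ hg, mul_assoc]
  have hPh : ∀ h : SpG n F, InL S' h → act h v = v → R h * P₁ = P₁ * R h :=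
    fun h hh hhv => hcommE h (hh.mono hS'sub) hhv ζ₀
  obtain ⟨χ₀, hχ₀⟩ : ∃ χ : AddChar (AA S' F) ℂ, P₁ * fQ R v S' χ ≠ 0 := by
    by_contra hcon
    push Not at hcon
    apply hE₀
    have : P₁ = ∑ χ, P₁ * fQ R v S' χ := by
      rw [← Finset.mul_sum, sum_fQ, mul_one]
    rw [this]
    exact Finset.sum_eq_zero fun χ _ => hcon χ
  have hzc₀ : zc χ₀ = ζ₀ := zc_eq_of_ne R hv hcτ hχ₀
  have hzc₀' : zc χ₀ ≠ 1 := by rw [hzc₀]; exact hζ₀
  have hbound := rank_bound R hv (hEidem ζ₀) hPr hPh χ₀ hzc₀' hχ₀ (M := Fintype.card F ^ (d' + 1))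
    (by rw [hS'c])
  set M := Fintype.card F ^ (d' + 1) with hM
  have h1 : M * (M - 1) ≤ 2 * m := by
    rcases Nat.eq_zero_or_pos M with h0 | h0
    · simp [h0]
    · have key : ∀ N : ℕ, 0 < N → N * (N - 1) + N = N * N := by
        intro N hN
        obtain ⟨a, rfl⟩ : ∃ a, N = a + 1 := ⟨N - 1, by omega⟩
        simp only [Nat.add_sub_cancel]
        ring
      have h2 := key M h0
      have hbound' : M * M ≤ 2 * m + M := hbound
      omega
  have h2 : (Fintype.card F - 1) * (M * (M - 1)) ≤ (Fintype.card F - 1) * (2 * m) :=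
    Nat.mul_le_mul_left _ h1
  have htgt : dbl (Fintype.card F) (d' + 1 + 1) =
      (Fintype.card F - 1) * (M * (M - 1)) + dbl (Fintype.card F) (d' + 1) := rfl
  rw [htgt, hcount]
  rcases d' with _ | d''
  · have : dbl (Fintype.card F) (0 + 1) = 0 := rfl
    rw [this]
    nlinarith
  -- the general case
  obtain ⟨i', hi'⟩ : S'.Nonempty := by
    rw [← Finset.card_pos]; omega
  obtain ⟨i'', hi'', h12⟩ : ∃ i'' ∈ S', i'' ≠ i' := by
    by_contra hcon
    push Not at hcon
    have : S' = {i'} := by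
      ext l
      simp only [Finset.mem_singleton]
      exact ⟨hcon l, fun h => h ▸ hi'⟩
    rw [this, Finset.card_singleton] at hS'c
    omega
  have hnt := nontriv R hi hi' hi'' h12 hPj hcomm hc0 hne
  have hIH := IH S' hS'c (Pj * eZ R v 1) (hEidem 1)
    (fun g hg => hcommE g (hg.mono hS'sub) (hfix g hg) 1) i' hi' hnt
  nlinarith

/-- The lower bound for matrix representations with nontrivial transvections. -/
theorem bound_of_ne (hn : 1 ≤ n) (R : SpG n F →* Matrix (Fin k) (Fin k) ℂ)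
    (hne : R (tau (ee n F ⟨0, by omega⟩) 1) ≠ 1) : dbl (Fintype.card F) n ≤ 2 * k := by
  have h := main_bound R (c₀ := (1 : F)) one_ne_zero n Finset.univ (by simp) 1 (mul_one 1)
    (fun g _ => by rw [one_mul, mul_one]) ⟨0, by omega⟩ (Finset.mem_univ _)
    (by rwa [mul_one])
  rwa [rk_one] at h

/-- If one transvection is in the kernel, the representation is trivial. -/
theorem R_trivial (hn : 1 ≤ n) (R : SpG n F →* Matrix (Fin k) (Fin k) ℂ)
    (h : R (tau (ee n F ⟨0, by omega⟩) 1) = 1) (g : SpG n F) : R g = 1 := by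
  classical
  set i : Fin n := ⟨0, by omega⟩
  have hconj : ∀ w : VV n F, w ≠ 0 → R (tau w 1) = 1 := by
    intro w hw
    have he : ee n F i ≠ 0 := by
      intro h0
      have := congrFun h0 (Sum.inl i)
      rw [ee_inl_self] at this
      exact one_ne_zero this
    obtain ⟨A, _, hA⟩ := exists_transv_vector he hw
    have h1 : A * tau (ee n F i) 1 = tau w 1 * A := by
      rw [conj_tau]
      congr 2
    have h2 : R A * R A⁻¹ = 1 := by rw [← map_mul, mul_inv_cancel, map_one]
    have h3 : R (tau w 1) * R A = R A := by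
      rw [← map_mul, ← h1, map_mul, h, mul_one]
    calc R (tau w 1) = R (tau w 1) * (R A * R A⁻¹) := by rw [h2, mul_one]
      _ = (R (tau w 1) * R A) * R A⁻¹ := by rw [mul_assoc]
      _ = 1 := by rw [h3, h2]
  have hg : g ∈ transvGroup n F := by
    rw [Cfsg.Agent.Lib.SympGen.transvGroup_eq_top]
    exact Subgroup.mem_top g
  induction hg using Subgroup.closure_induction with
  | mem A hA =>
    obtain ⟨w, c, hA⟩ := hA
    have hAeq : A = tau w c := by
      apply Subtype.ext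
      rw [hA, tau_val]
    rw [hAeq]
    by_cases hw : w = 0
    · have : tau w c = (1 : SpG n F) := by
        apply ext_act
        intro x
        rw [act_tau, hw, act_one]
        simp
      rw [this, map_one]
    by_cases hc : c = 0
    · rw [hc, tau_zero, map_one]
    · obtain ⟨a, ha⟩ := exists_sqrt c
      have ha0 : a ≠ 0 := by
        rintro rfl
        apply hc
        rw [← ha]
        simp
      have h1 : tau w c = tau (a • w) 1 := by
        rw [tau_smul, ha, mul_one]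
      rw [h1]
      exact hconj _ (smul_ne_zero ha0 hw)
  | one => exact map_one R
  | mul x y _ _ hx hy => rw [map_mul, hx, hy, one_mul]
  | inv x _ hx =>
    have h3 : R x⁻¹ * R x = 1 := by rw [← map_mul, inv_mul_cancel, map_one]
    rw [hx, mul_one] at h3
    exact h3

/-- The lower bound for irreducible representations. -/
theorem sp_even_min_degree (hn : 1 ≤ n) (k : ℕ)
    (ρ : Representation ℂ (Matrix.symplecticGroup (Fin n) F) (Fin k → ℂ)) (hρ : ρ.IsIrreducible)
    (hk : 2 ≤ k) : dbl (Fintype.card F) n ≤ 2 * k := by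
  classical
  let R : SpG n F →* Matrix (Fin k) (Fin k) ℂ :=
    ((Matrix.toLinAlgEquiv' (R := ℂ) (n := Fin k)).symm.toAlgHom.toRingHom.toMonoidHom).comp
      (ρ : _ →* _)
  have hRρ : ∀ g, R g = 1 → ρ g = 1 := by
    intro g hg
    have h1 : (Matrix.toLinAlgEquiv' (R := ℂ) (n := Fin k)).symm (ρ g) =
        (Matrix.toLinAlgEquiv' (R := ℂ) (n := Fin k)).symm 1 := by
      rw [map_one]
      exact hg
    exact (Matrix.toLinAlgEquiv' (R := ℂ) (n := Fin k)).symm.injective h1
  apply bound_of_ne hn R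
  intro hR
  have htriv : ∀ g, ρ g = 1 := fun g => hRρ g (R_trivial hn R hR g)
  obtain ⟨_, hirr⟩ := (Cfsg.Agent.Lib.CharBasic.isIrreducible_iff ρ).1 hρ
  let i0 : Fin k := ⟨0, by omega⟩
  let i1 : Fin k := ⟨1, by omega⟩
  have hi : i1 ≠ i0 := by simp [i0, i1, Fin.ext_iff]
  let U : Submodule ℂ (Fin k → ℂ) := Submodule.span ℂ {Pi.single i0 1}
  have hU : ∀ g, ∀ v ∈ U, ρ g v ∈ U := by
    intro g v hv
    rw [htriv g]
    exact hv
  rcases hirr U hU with h1 | h1
  · have h2 : (Pi.single i0 1 : Fin k → ℂ) ∈ U := Submodule.mem_span_singleton_self _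
    rw [h1, Submodule.mem_bot] at h2
    have h3 := congrFun h2 i0
    simp at h3
  · have h2 : (Pi.single i1 1 : Fin k → ℂ) ∈ U := by
      rw [h1]
      exact Submodule.mem_top
    obtain ⟨c, hc'⟩ := Submodule.mem_span_singleton.1 h2
    have h3 := congrFun hc' i1
    simp [Pi.single_apply, hi] at h3

end Cfsg.Agent.Lib.SpEvenMinDeg
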