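import Mathlib
import Cfsg.Agent.Lib.ElemEig41
import Cfsg.Agent.Lib.SylNorm41
import Cfsg.Agent.Lib.SpOrder
import Cfsg.Agent.Lib.OmSyl99

/-!
# Normal `2`-rank of Sylow `2`-subgroups of `Sp_{2n}(q)`, `q` odd
-/

set_option autoImplicit false
set_option linter.unusedSectionVars false
set_option linter.unusedVariables false

namespace Cfsg.Agent.Lib.SpNorm41

open Matrix Module Cfsg.Agent.Lib.SpBasic Cfsg.Agent.Lib.ElemEig41

variable {F : Type*} [Field F] {n : ℕ}

local notation "I" => (Fin n ⊕ Fin n)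

/-! ### Upper bound -/

section upper

/-- The action of a subgroup on the natural module. -/
noncomputable def ff (E : Subgroup (Sp (Fin n) F)) (e : E) : End F (I → F) := Matrix.toLin' (e.1.1)

theorem ff_apply (E : Subgroup (Sp (Fin n) F)) (e : E) (x : I → F) : ff E e x = e.1.1 *ᵥ x := rfl

theorem ff_mul (E : Subgroup (Sp (Fin n) F)) (e e' : E) : ff E (e * e') = ff E e * ff E e' := by
  apply LinearMap.ext
  intro x
  simp [ff_apply, Module.End.mul_apply]

theorem ff_one (E : Subgroup (Sp (Fin n) F)) : ff E 1 = 1 := by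
  apply LinearMap.ext
  intro x
  simp [ff_apply]

theorem ff_inj (E : Subgroup (Sp (Fin n) F)) : Function.Injective (ff E) := by
  intro e e' h
  exact Subtype.ext (Subtype.ext ((Matrix.toLin' (R := F) (n := I) (m := I)).injective h))

theorem omega_ff (E : Subgroup (Sp (Fin n) F)) (e : E) (x y : I → F) : ω (ff E e x) (ff E e y) = ω x y :=
  ω_smul_smul e.1 x y

theorem two_le_finrank (h2 : (2 : F) ≠ 0) [Finite F] (E : Subgroup (Sp (Fin n) F)) [Finite E]
    (hc : ∀ i j, Commute (ff E i) (ff E j)) (hf : ∀ i, ff E i * ff E i = 1) {χ : E → F}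
    (hχ : eig (ff E) χ ≠ ⊥) : 2 ≤ finrank F (eig (ff E) χ) := by
  classical
  obtain ⟨v, hv, hv0⟩ := Submodule.exists_mem_ne_zero_of_ne_bot hχ
  have h1ne : (1 : F) ≠ -1 := by
    intro h
    apply h2
    linear_combination h
  -- a vector in the eigenspace not orthogonal to `v`
  have hex : ∃ w ∈ eig (ff E) χ, ω v w ≠ 0 := by
    by_contra hcon
    push Not at hcon
    let L : (I → F) →ₗ[F] F :=
      { toFun := fun y => ω v y
        map_add' := fun y z => ω_add_right v y z
        map_smul' := fun c y => by simpa using ω_smul_right c v y }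
    have hle : ⨆ χ', eig (ff E) χ' ≤ LinearMap.ker L := by
      apply iSup_le
      intro χ' w hw
      rw [LinearMap.mem_ker]
      show ω v w = 0
      by_cases hχ' : χ' = χ
      · subst hχ'
        exact hcon w hw
      by_cases hw0 : w = 0
      · rw [hw0, ω_zero_right]
      obtain ⟨g, hg⟩ := Function.ne_iff.1 hχ'
      have h3 := val_of_mem_eig hw hw0 hf g
      have h4 := val_of_mem_eig hv hv0 hf g
      have h5 := omega_ff E g v w
      rw [mem_eig.1 hv g, mem_eig.1 hw g, ω_smul_left, ω_smul_right] at h5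
      have h6 : χ g * χ' g = -1 := by
        rcases h3 with h3 | h3 <;> rcases h4 with h4 | h4
        · exact absurd (h3.trans h4.symm) hg
        · rw [h3, h4]; ring
        · rw [h3, h4]; ring
        · exact absurd (h3.trans h4.symm) hg
      have h7 : (-1 : F) * ω v w = ω v w := by
        rw [← h6, mul_assoc]
        exact h5
      have h8 : (2 : F) * ω v w = 0 := by linear_combination -h7
      exact (mul_eq_zero.1 h8).resolve_left h2
    rw [iSup_eig h2 hc hf] at hle
    obtain ⟨y, hy⟩ := exists_ω_ne_zero hv0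
    exact hy (hle (Submodule.mem_top : y ∈ ⊤))
  obtain ⟨w, hw, hw0⟩ := hex
  by_contra hlt
  have hle : finrank F (eig (ff E) χ) ≤ 1 := by omega
  obtain ⟨u, hu⟩ := finrank_le_one_iff.1 hle
  obtain ⟨c, hc1⟩ := hu ⟨v, hv⟩
  obtain ⟨d, hd⟩ := hu ⟨w, hw⟩
  have e1 : v = c • (u : I → F) := by
    have := congrArg Subtype.val hc1
    simpa using this.symm
  have e2 : w = d • (u : I → F) := by
    have := congrArg Subtype.val hd
    simpa using this.symm
  apply hw0
  rw [e1, e2, ω_smul_left, ω_smul_right, ω_self]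
  ring

theorem card_le_of_elem (h2 : (2 : F) ≠ 0) [Finite F] (E : Subgroup (Sp (Fin n) F))
    (hcomm : IsMulCommutative E) (hs : ∀ a ∈ E, a ^ 2 = 1) : Nat.card E ≤ 2 ^ n := by
  classical
  haveI : Finite (Sp (Fin n) F) := inferInstance
  haveI : Fintype F := Fintype.ofFinite F
  haveI : Fintype E := Fintype.ofFinite E
  have hc : ∀ i j, Commute (ff E i) (ff E j) := by
    intro i j
    show ff E i * ff E j = ff E j * ff E i
    rw [← ff_mul, ← ff_mul, hcomm.is_comm.comm]
  have hf : ∀ i, ff E i * ff E i = 1 := by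
    intro i
    rw [← ff_mul, ← ff_one]
    congr 1
    apply Subtype.ext
    have := hs i.1 i.2
    rw [sq] at this
    exact this
  have h1 := card_le h2 hc hf (ff_inj E)
  have h3 := sum_supp h2 hc hf
  have h4 : 2 * (supp (ff E)).card ≤ ∑ χ ∈ supp (ff E), finrank F (eig (ff E) χ) := by
    rw [mul_comm, ← smul_eq_mul]
    apply Finset.card_nsmul_le_sum
    intro χ hχ
    exact two_le_finrank h2 E hc hf (mem_supp.1 hχ)
  rw [h3] at h4
  have h5 : finrank F (I → F) = n + n := by
    simp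
  rw [h5] at h4
  exact h1.trans (Nat.pow_le_pow_right (by norm_num) (by omega))

end upper

/-! ### The big subgroup -/

section big

/-- The action on vectors. -/
abbrev vv (g : Sp (Fin n) F) (x : I → F) : I → F := g.1 *ᵥ x

theorem vv_mul (g h : Sp (Fin n) F) (x : I → F) : vv (g * h) x = vv g (vv h x) := by
  show (g.1 * h.1) *ᵥ x = g.1 *ᵥ (h.1 *ᵥ x)
  rw [mulVec_mulVec]

theorem vv_one (x : I → F) : vv (1 : Sp (Fin n) F) x = x := by
  show (1 : Matrix I I F) *ᵥ x = x
  rw [one_mulVec]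

theorem vv_ext {g h : Sp (Fin n) F} (H : ∀ x, vv g x = vv h x) : g = h := by
  apply Subtype.ext
  apply Matrix.mulVec_injective
  funext x
  exact H x

/-- Entries of an element of `Sp_2`. -/
def ca (g : Sp (Fin 1) F) : F := g.1 (Sum.inl 0) (Sum.inl 0)
def cb (g : Sp (Fin 1) F) : F := g.1 (Sum.inl 0) (Sum.inr 0)
def cc (g : Sp (Fin 1) F) : F := g.1 (Sum.inr 0) (Sum.inl 0)
def cd (g : Sp (Fin 1) F) : F := g.1 (Sum.inr 0) (Sum.inr 0)

theorem coe_mul' (g h : Sp (Fin 1) F) : (g * h).1 = g.1 * h.1 := rfl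

theorem ca_mul (g h : Sp (Fin 1) F) : ca (g * h) = ca g * ca h + cb g * cc h := by
  simp [ca, cb, cc, coe_mul', Matrix.mul_apply, Fintype.sum_sum_type]

theorem cb_mul (g h : Sp (Fin 1) F) : cb (g * h) = ca g * cb h + cb g * cd h := by
  simp [ca, cb, cd, coe_mul', Matrix.mul_apply, Fintype.sum_sum_type]

theorem cc_mul (g h : Sp (Fin 1) F) : cc (g * h) = cc g * ca h + cd g * cc h := by
  simp [ca, cc, cd, coe_mul', Matrix.mul_apply, Fintype.sum_sum_type]

theorem cd_mul (g h : Sp (Fin 1) F) : cd (g * h) = cc g * cb h + cd g * cd h := by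
  simp [cb, cc, cd, coe_mul', Matrix.mul_apply, Fintype.sum_sum_type]

theorem det_cc (g : Sp (Fin 1) F) : cd g * ca g - cb g * cc g = 1 := by
  have h := ω_smul_smul g (eR 0) (eL 0)
  rw [ω_eL_right, Sp_smul_def, Sp_smul_def, ω_apply] at h
  simp [ca, cb, cc, cd, Matrix.mulVec, dotProduct, Fintype.sum_sum_type] at h
  simpa [ca, cb, cc, cd] using h

/-- The block matrix. -/
def blk (g : Fin n → Sp (Fin 1) F) : Matrix I I F :=
  fromBlocks (diagonal fun i => ca (g i)) (diagonal fun i => cb (g i))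
    (diagonal fun i => cc (g i)) (diagonal fun i => cd (g i))

theorem blk_inl (g : Fin n → Sp (Fin 1) F) (x : I → F) (i : Fin n) :
    (blk g *ᵥ x) (Sum.inl i) = ca (g i) * x (Sum.inl i) + cb (g i) * x (Sum.inr i) := by
  have hx : x = Sum.elim (fun i => x (Sum.inl i)) (fun i => x (Sum.inr i)) := by
    ext a; cases a <;> rfl
  conv_lhs => rw [hx, blk, fromBlocks_mulVec]
  simp [mulVec_diagonal]

theorem blk_inr (g : Fin n → Sp (Fin 1) F) (x : I → F) (i : Fin n) :
    (blk g *ᵥ x) (Sum.inr i) = cc (g i) * x (Sum.inl i) + cd (g i) * x (Sum.inr i) := by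
  have hx : x = Sum.elim (fun i => x (Sum.inl i)) (fun i => x (Sum.inr i)) := by
    ext a; cases a <;> rfl
  conv_lhs => rw [hx, blk, fromBlocks_mulVec]
  simp [mulVec_diagonal]

theorem blk_mem (g : Fin n → Sp (Fin 1) F) : blk g ∈ symplecticGroup (Fin n) F := by
  rw [mem_symplecticGroup_iff]
  intro x y
  rw [ω_apply, ω_apply]
  apply Finset.sum_congr rfl
  intro i _
  rw [blk_inl, blk_inl, blk_inr, blk_inr]
  have := det_cc (g i)
  linear_combination (x (Sum.inr i) * y (Sum.inl i) - x (Sum.inl i) * y (Sum.inr i)) * this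

/-- The block embedding as a homomorphism. -/
def MM : (Fin n → Sp (Fin 1) F) →* Sp (Fin n) F where
  toFun g := ⟨blk g, blk_mem g⟩
  map_one' := by
    apply vv_ext
    intro x
    rw [vv_one]
    ext a
    rcases a with i | i
    · show (blk 1 *ᵥ x) _ = _
      rw [blk_inl]
      simp [ca, cb]
    · show (blk 1 *ᵥ x) _ = _
      rw [blk_inr]
      simp [cc, cd]
  map_mul' g h := by
    apply vv_ext
    intro x
    rw [vv_mul]
    show blk (g * h) *ᵥ x = blk g *ᵥ (blk h *ᵥ x)
    ext a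
    rcases a with i | i
    · simp only [blk_inl, blk_inr, Pi.mul_apply, ca_mul, cb_mul]
      ring
    · simp only [blk_inl, blk_inr, Pi.mul_apply, cc_mul, cd_mul]
      ring

theorem MM_inl (g : Fin n → Sp (Fin 1) F) (x : I → F) (i : Fin n) :
    vv (MM g) x (Sum.inl i) = ca (g i) * x (Sum.inl i) + cb (g i) * x (Sum.inr i) := blk_inl g x i

theorem MM_inr (g : Fin n → Sp (Fin 1) F) (x : I → F) (i : Fin n) :
    vv (MM g) x (Sum.inr i) = cc (g i) * x (Sum.inl i) + cd (g i) * x (Sum.inr i) := blk_inr g x i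

theorem Sp1_ext {g h : Sp (Fin 1) F} (h1 : ca g = ca h) (h2 : cb g = cb h) (h3 : cc g = cc h) (h4 : cd g = cd h) :
    g = h := by
  apply Subtype.ext
  ext a b
  rcases a with a | a <;> rcases b with b | b
  · rw [Subsingleton.elim a 0, Subsingleton.elim b 0]; exact h1
  · rw [Subsingleton.elim a 0, Subsingleton.elim b 0]; exact h2
  · rw [Subsingleton.elim a 0, Subsingleton.elim b 0]; exact h3
  · rw [Subsingleton.elim a 0, Subsingleton.elim b 0]; exact h4

theorem MM_inj : Function.Injective (MM : (Fin n → Sp (Fin 1) F) →* Sp (Fin n) F) := by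
  intro g h e
  funext i
  have hl : ∀ (x : I → F), vv (MM g) x = vv (MM h) x := fun x => by rw [e]
  have h1 := congrFun (hl (Pi.single (Sum.inl i) 1)) (Sum.inl i)
  have h2 := congrFun (hl (Pi.single (Sum.inr i) 1)) (Sum.inl i)
  have h3 := congrFun (hl (Pi.single (Sum.inl i) 1)) (Sum.inr i)
  have h4 := congrFun (hl (Pi.single (Sum.inr i) 1)) (Sum.inr i)
  rw [MM_inl, MM_inl] at h1 h2
  rw [MM_inr, MM_inr] at h3 h4
  simp at h1 h2 h3 h4
  exact Sp1_ext h1 h2 h3 h4

/-- The permutation matrix. -/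
def pp (τ : Equiv.Perm (Fin n)) : Matrix I I F :=
  (1 : Matrix I I F).submatrix (Equiv.sumCongr τ τ).symm id

theorem pp_mulVec (τ : Equiv.Perm (Fin n)) (x : I → F) (a : I) :
    (pp τ *ᵥ x) a = x ((Equiv.sumCongr τ τ).symm a) := by
  have : (pp τ *ᵥ x) a = ((1 : Matrix I I F) *ᵥ x) ((Equiv.sumCongr τ τ).symm a) := rfl
  rw [this, one_mulVec]

theorem pp_mem (τ : Equiv.Perm (Fin n)) : pp (F := F) τ ∈ symplecticGroup (Fin n) F := by
  rw [mem_symplecticGroup_iff]
  intro x y
  rw [ω_apply, ω_apply, ← Equiv.sum_comp τ]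
  apply Finset.sum_congr rfl
  intro i _
  simp [pp_mulVec]

/-- The permutation matrices as a homomorphism. -/
def PPm : Equiv.Perm (Fin n) →* Sp (Fin n) F where
  toFun τ := ⟨pp τ, pp_mem τ⟩
  map_one' := by
    apply vv_ext
    intro x
    rw [vv_one]
    ext a
    show (pp 1 *ᵥ x) a = _
    rw [pp_mulVec]
    rcases a with i | i <;> rfl
  map_mul' σ τ := by
    apply vv_ext
    intro x
    rw [vv_mul]
    ext a
    show (pp (σ * τ) *ᵥ x) a = (pp σ *ᵥ (pp τ *ᵥ x)) a
    rw [pp_mulVec, pp_mulVec, pp_mulVec]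
    rcases a with i | i <;> rfl

theorem PPm_apply (τ : Equiv.Perm (Fin n)) (x : I → F) (a : I) :
    vv (PPm τ) x a = x ((Equiv.sumCongr τ τ).symm a) := pp_mulVec τ x a

/-- Cast of a sign. -/
def sgn {F : Type*} [Field F] (u : ℤˣ) : F := ((u : ℤ) : F)

theorem sgn_mul (u v : ℤˣ) : (sgn (F := F) (u * v)) = sgn u * sgn v := by
  simp [sgn]

theorem sgn_sq (u : ℤˣ) : (sgn (F := F) u) * sgn u = 1 := by
  rw [← sgn_mul]
  simp [sgn]

/-- The index of a coordinate. -/
def idx : (Fin n ⊕ Fin n) → Fin n := Sum.elim id id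

/-- The sign matrices. -/
def sgm (u : Fin n → ℤˣ) : Matrix I I F := diagonal fun a => sgn (u (idx a))

theorem sgm_mulVec (u : Fin n → ℤˣ) (x : I → F) (a : I) : (sgm u *ᵥ x) a = sgn (u (idx a)) * x a := by
  rw [sgm, mulVec_diagonal]

theorem sgm_mem (u : Fin n → ℤˣ) : sgm (F := F) u ∈ symplecticGroup (Fin n) F := by
  rw [mem_symplecticGroup_iff]
  intro x y
  rw [ω_apply, ω_apply]
  apply Finset.sum_congr rfl
  intro i _
  simp only [sgm_mulVec, idx, Sum.elim_inl, Sum.elim_inr, id]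
  have := sgn_sq (F := F) (u i)
  linear_combination (x (Sum.inr i) * y (Sum.inl i) - x (Sum.inl i) * y (Sum.inr i)) * this

/-- The sign subgroup as a homomorphism. -/
def SS : (Fin n → ℤˣ) →* Sp (Fin n) F where
  toFun u := ⟨sgm u, sgm_mem u⟩
  map_one' := by
    apply vv_ext
    intro x
    rw [vv_one]
    ext a
    show (sgm 1 *ᵥ x) a = _
    rw [sgm_mulVec]
    simp [sgn]
  map_mul' u v := by
    apply vv_ext
    intro x
    rw [vv_mul]
    ext a
    show (sgm (u * v) *ᵥ x) a = (sgm u *ᵥ (sgm v *ᵥ x)) a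
    rw [sgm_mulVec, sgm_mulVec, sgm_mulVec, Pi.mul_apply, sgn_mul]
    ring

theorem SS_apply (u : Fin n → ℤˣ) (x : I → F) (a : I) : vv (SS u) x a = sgn (u (idx a)) * x a := sgm_mulVec u x a

theorem SS_inj (h2 : (2 : F) ≠ 0) : Function.Injective (SS : (Fin n → ℤˣ) →* Sp (Fin n) F) := by
  intro u v e
  funext i
  have h3 := congrFun (congrArg (fun g : Sp (Fin n) F => vv g (eL i : I → F)) e) (Sum.inl i)
  simp only [SS_apply, eL, Pi.single_eq_same, mul_one, idx, Sum.elim_inl, id] at h3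
  rcases Int.units_eq_one_or (u i) with h4 | h4 <;> rcases Int.units_eq_one_or (v i) with h5 | h5
  · rw [h4, h5]
  · rw [h4, h5] at h3
    simp [sgn] at h3
    exfalso
    apply h2
    linear_combination h3
  · rw [h4, h5] at h3
    simp [sgn] at h3
    exfalso
    apply h2
    linear_combination -h3
  · rw [h4, h5]

theorem MM_comm_SS (g : Fin n → Sp (Fin 1) F) (u : Fin n → ℤˣ) : MM g * SS u = SS u * MM g := by
  apply vv_ext
  intro x
  rw [vv_mul, vv_mul]
  ext a
  rcases a with i | i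
  · rw [MM_inl, SS_apply, SS_apply, SS_apply, MM_inl]
    simp only [idx, Sum.elim_inl, Sum.elim_inr, id]
    ring
  · rw [MM_inr, SS_apply, SS_apply, SS_apply, MM_inr]
    simp only [idx, Sum.elim_inl, Sum.elim_inr, id]
    ring

theorem PP_conj_SS (τ : Equiv.Perm (Fin n)) (u : Fin n → ℤˣ) :
    PPm τ * SS u = SS (fun i => u (τ.symm i)) * PPm (F := F) τ := by
  apply vv_ext
  intro x
  rw [vv_mul, vv_mul]
  ext a
  rw [PPm_apply, SS_apply, SS_apply, PPm_apply]
  rcases a with i | i <;> simp [idx]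

/-- The sign subgroup. -/
def E0 (n : ℕ) (F : Type*) [Field F] : Subgroup (Sp (Fin n) F) := (SS (F := F) (n := n)).range

theorem MM_mem_normalizer (g : Fin n → Sp (Fin 1) F) : MM g ∈ Subgroup.normalizer (E0 n F : Set (Sp (Fin n) F)) := by
  rw [Subgroup.mem_normalizer_iff]
  intro y
  have hconj : ∀ y ∈ E0 n F, MM g * y * (MM g)⁻¹ = y := by
    rintro _ ⟨u, rfl⟩
    rw [MM_comm_SS, mul_inv_cancel_right]
  constructor
  · intro hy
    rw [hconj y hy]
    exact hy
  · intro hy
    have h3 := hconj _ hy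
    have h4 : MM g * y * (MM g)⁻¹ = y := by
      have h5 : MM g * (MM g * y * (MM g)⁻¹) * (MM g)⁻¹ * MM g = MM g * y := by
        have h7 : MM g * (MM g * y * (MM g)⁻¹) * (MM g)⁻¹ = MM g * y * (MM g)⁻¹ := h3
        rw [h7]
        group
      have h6 : MM g * (MM g * y * (MM g)⁻¹) * (MM g)⁻¹ * MM g = MM g * (MM g * y * (MM g)⁻¹) := by group
      rw [h6] at h5
      exact mul_left_cancel h5
    rwa [h4] at hy

theorem PP_mem_normalizer (τ : Equiv.Perm (Fin n)) : PPm τ ∈ Subgroup.normalizer (E0 n F : Set (Sp (Fin n) F)) := by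
  rw [Subgroup.mem_normalizer_iff]
  intro y
  constructor
  · rintro ⟨u, rfl⟩
    refine ⟨fun i => u (τ.symm i), ?_⟩
    rw [PP_conj_SS, mul_inv_cancel_right]
  · rintro ⟨v, hv⟩
    refine ⟨fun i => v (τ i), ?_⟩
    have h3 : PPm τ * SS (fun i => v (τ i)) = SS v * PPm (F := F) τ := by
      rw [PP_conj_SS]
      congr 2
      funext i
      simp
    have h4 : PPm τ * y = SS v * PPm (F := F) τ := by
      rw [hv]
      group
    rw [← h3] at h4
    exact (mul_left_cancel h4).symm

end big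

section final

open Cfsg.Agent.Lib.SylNorm41 Cfsg.Agent.Lib.OmSyl99

theorem isPGroup_E0 : IsPGroup 2 (E0 n F) := by
  rintro ⟨_, u, rfl⟩
  refine ⟨1, ?_⟩
  apply Subtype.ext
  show (SS u) ^ 2 ^ 1 = 1
  rw [pow_one, ← map_pow]
  have : u ^ 2 = 1 := by
    funext i
    rcases Int.units_eq_one_or (u i) with h | h <;> simp [h]
  rw [this, map_one]

theorem elem_E0 : Cfsg.IsElementaryAbelian 2 (E0 n F) := by
  constructor
  · constructor
    constructor
    rintro ⟨_, u, rfl⟩ ⟨_, v, rfl⟩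
    apply Subtype.ext
    show SS u * SS v = SS v * SS u
    rw [← map_mul, ← map_mul, mul_comm]
  · rintro _ ⟨u, rfl⟩
    rw [← map_pow]
    have : u ^ 2 = 1 := by
      funext i
      rcases Int.units_eq_one_or (u i) with h | h <;> simp [h]
    rw [this, map_one]

theorem card_E0 (h2 : (2 : F) ≠ 0) : Nat.card (E0 n F) = 2 ^ n := by
  rw [E0, Nat.card_congr (MonoidHom.ofInjective (SS_inj h2)).toEquiv.symm]
  simp [Nat.card_pi, Nat.card_eq_fintype_card, Fintype.card_units_int]

/-- The block embedding into the normalizer. -/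
def MM' : (Fin n → Sp (Fin 1) F) →* Subgroup.normalizer (E0 n F : Set (Sp (Fin n) F)) :=
  MM.codRestrict _ MM_mem_normalizer

/-- The permutations into the normalizer. -/
def PP' : Equiv.Perm (Fin n) →* Subgroup.normalizer (E0 n F : Set (Sp (Fin n) F)) :=
  PPm.codRestrict _ PP_mem_normalizer

theorem card_dvd_N (h2 : (2 : F) ≠ 0) [Finite F] :
    Nat.card (Fin n → Sp (Fin 1) F) * Nat.card (Equiv.Perm (Fin n)) ∣
      Nat.card (Subgroup.normalizer (E0 n F : Set (Sp (Fin n) F))) := by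
  classical
  apply card_dvd_normalizer (E0 n F) MM' ?_ ?_ PP' ?_
  · intro g h e
    exact MM_inj (congrArg Subtype.val e)
  · intro g
    rw [Subgroup.mem_centralizer_iff]
    rintro _ ⟨u, rfl⟩
    exact (MM_comm_SS g u).symm
  · rw [injective_iff_map_eq_one]
    intro τ hτ
    ext i
    by_contra hne
    have hne' : τ.symm i ≠ i := by
      intro h
      apply hne
      have := congrArg τ h
      simp at this
      simp [← this]
    let u : Fin n → ℤˣ := Function.update 1 i (-1)
    have h3 : (Subgroup.normalizerMonoidHom (E0 n F)).comp PP' τ = 1 := hτ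
    have h4 := DFunLike.congr_fun h3 ⟨SS u, u, rfl⟩
    have h5 := congrArg Subtype.val h4
    have h6 : PPm τ * SS u * (PPm τ)⁻¹ = SS u := h5
    rw [PP_conj_SS, mul_inv_cancel_right] at h6
    have h7 := congrFun (SS_inj h2 h6) i
    simp only [u] at h7
    rw [Function.update_self, Function.update_of_ne hne', Pi.one_apply] at h7
    exact absurd h7 (by decide)

theorem two_ne_of_odd [Fintype F] (hF : Odd (Fintype.card F)) : (2 : F) ≠ 0 := by
  intro h
  have hodd : ringChar F ≠ 2 := by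
    intro h4
    have := FiniteField.even_card_of_char_two h4
    rw [Nat.odd_iff] at hF
    omega
  have h3 : ringChar F ∣ 2 := (ringChar.spec F 2).1 (by exact_mod_cast h)
  have hp := (CharP.char_is_prime_or_zero F (ringChar F)).resolve_right (CharP.ringChar_ne_zero_of_finite F)
  exact hodd ((Nat.prime_dvd_prime_iff_eq hp Nat.prime_two).1 h3)

theorem val_card_le [Fintype F] {q : ℕ} (hF : Fintype.card F = q) (hq : Odd q) :
    (Nat.card (Sp (Fin n) F)).factorization 2 ≤
      (Nat.card (Subgroup.normalizer (E0 n F : Set (Sp (Fin n) F)))).factorization 2 := by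
  classical
  have hq1 : 1 < q := by
    rw [← hF]
    exact Fintype.one_lt_card
  have h2 : (2 : F) ≠ 0 := two_ne_of_odd (by rw [hF]; exact hq)
  have hd := card_dvd_N (n := n) h2
  have hNpos : Nat.card (Subgroup.normalizer (E0 n F : Set (Sp (Fin n) F))) ≠ 0 := Nat.card_pos.ne'
  have hc1 : Nat.card (Sp (Fin 1) F) = q ^ 1 * ∏ i ∈ Finset.range 1, (q ^ (2 * (i + 1)) - 1) := by
    rw [Cfsg.Agent.Lib.SpOrder.card_Sp, hF]
    rfl
  have hcn : Nat.card (Sp (Fin n) F) = q ^ (n ^ 2) * ∏ i ∈ Finset.range n, (q ^ (2 * (i + 1)) - 1) := by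
    rw [Cfsg.Agent.Lib.SpOrder.card_Sp, hF]
  have hq0 : ∀ k, padicValNat 2 (q ^ k) = 0 := by
    intro k
    apply padicValNat.eq_zero_of_not_dvd
    intro h
    have := Nat.Prime.dvd_of_dvd_pow Nat.prime_two h
    obtain ⟨t, rfl⟩ := hq
    omega
  have hpne : ∀ m, (∏ i ∈ Finset.range m, (q ^ (2 * (i + 1)) - 1)) ≠ 0 := fun m =>
    Finset.prod_ne_zero_iff.2 fun i _ => pow_sub_one_ne_zero hq1 (by omega)
  have hv : ∀ m k, padicValNat 2 (q ^ k * ∏ i ∈ Finset.range m, (q ^ (2 * (i + 1)) - 1)) =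
      m * e0 q + padicValNat 2 m.factorial := by
    intro m k
    rw [padicValNat.mul (pow_ne_zero _ (by omega)) (hpne m), hq0, zero_add, val_prod hq hq1]
  have hle : (Nat.card (Fin n → Sp (Fin 1) F) * Nat.card (Equiv.Perm (Fin n))).factorization 2 ≤
      (Nat.card (Subgroup.normalizer (E0 n F : Set (Sp (Fin n) F)))).factorization 2 := by
    exact (Nat.factorization_le_iff_dvd (by
      simp only [ne_eq, mul_eq_zero, not_or]
      exact ⟨Nat.card_pos.ne', Nat.card_pos.ne'⟩) hNpos).2 hd 2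
  refine le_trans (le_of_eq ?_) hle
  haveI : Fact (Nat.Prime 2) := ⟨Nat.prime_two⟩
  rw [Nat.factorization_def _ Nat.prime_two, Nat.factorization_def _ Nat.prime_two, hcn, hv]
  have h3 : Nat.card (Fin n → Sp (Fin 1) F) = (Nat.card (Sp (Fin 1) F)) ^ n := by
    simp [Nat.card_pi]
  have h4 : Nat.card (Equiv.Perm (Fin n)) = n.factorial := by
    rw [Nat.card_perm]
    simp
  rw [h3, h4, padicValNat.mul (pow_ne_zero _ Nat.card_pos.ne') (Nat.factorial_ne_zero n), padicValNat.pow _ n,
    hc1, hv 1 1]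
  simp

/-- **Main theorem.** -/
theorem main [Fintype F] (hF : Odd (Fintype.card F)) (n : ℕ) (S : Sylow 2 ↥(Matrix.symplecticGroup (Fin n) F)) :
    ((∃ E : Subgroup ↥(S : Subgroup ↥(Matrix.symplecticGroup (Fin n) F)), E.Normal ∧ Cfsg.IsElementaryAbelian 2 E ∧ 2 ^ (n) ≤ Nat.card ↥E) ∧
      ∀ E : Subgroup ↥(S : Subgroup ↥(Matrix.symplecticGroup (Fin n) F)), E.Normal → Cfsg.IsElementaryAbelian 2 E → Nat.card ↥E ≤ 2 ^ (n)) := by
  classical
  have h2 : (2 : F) ≠ 0 := two_ne_of_odd hF
  constructor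
  · haveI : Fact (Nat.Prime 2) := ⟨Nat.prime_two⟩
    obtain ⟨A, hA, hAe, hAc⟩ := exists_normal_elem (p := 2) isPGroup_E0 elem_E0 (val_card_le rfl hF) S
    refine ⟨A, hA, hAe, ?_⟩
    rw [hAc, card_E0 h2]
  · intro E _ hE
    let E' : Subgroup (Sp (Fin n) F) := (E.map (S : Subgroup (Sp (Fin n) F)).subtype)
    have hcard : Nat.card E' = Nat.card E :=
      Nat.card_congr (Subgroup.equivMapOfInjective E (S : Subgroup (Sp (Fin n) F)).subtype (Subgroup.subtype_injective _)).toEquiv.symm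
    rw [← hcard]
    apply card_le_of_elem h2
    · constructor
      constructor
      rintro ⟨_, a, ha, rfl⟩ ⟨_, b, hb, rfl⟩
      apply Subtype.ext
      have := hE.1.is_comm.comm (⟨a, ha⟩ : E) ⟨b, hb⟩
      have h5 := congrArg (fun x : E => ((x : (S : Subgroup (Sp (Fin n) F))) : Sp (Fin n) F)) this
      exact h5
    · rintro _ ⟨a, ha, rfl⟩
      have := hE.2 a ha
      have h5 := congrArg (fun x : (S : Subgroup (Sp (Fin n) F)) => (x : Sp (Fin n) F)) this
      exact h5

end final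

end Cfsg.Agent.Lib.SpNorm41
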