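import Mathlib

/-!
# Congruence orbits of symmetric matrices over a finite field of odd order

A nonzero congruence stable set of symmetric matrices of size `d` has at least `(q^d - 1)/2` nonzero
elements. The proof works with the rank one perturbations `g = 1 + p rᵀ` of the identity only.
-/

set_option autoImplicit false
set_option linter.unusedSectionVars false
set_option linter.unusedVariables false

namespace Cfsg.Agent.Lib.SpOddOrbit

open Matrix

variable {F : Type*} [Field F] {n : ℕ}

/-- Matrices. -/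
abbrev MM (n : ℕ) (F : Type*) := Matrix (Fin n) (Fin n) F

/-- The congruence by `1 + p rᵀ`, written out. -/
def op (p r : Fin n → F) (M : MM n F) : MM n F :=
  M + vecMulVec r (M *ᵥ p) + vecMulVec (M *ᵥ p) r + (p ⬝ᵥ M *ᵥ p) • vecMulVec r r

lemma op_apply (p r : Fin n → F) (M : MM n F) (a b : Fin n) :
    op p r M a b = M a b + r a * (M *ᵥ p) b + (M *ᵥ p) a * r b + (p ⬝ᵥ M *ᵥ p) * (r a * r b) := rfl

/-- The matrix. -/
def gMat (p r : Fin n → F) : MM n F := 1 + vecMulVec p r

lemma vv_sq (p r u v : Fin n → F) : vecMulVec p r * vecMulVec u v = (r ⬝ᵥ u) • vecMulVec p v := by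
  rw [Matrix.vecMulVec_mul_vecMulVec, Matrix.vecMulVec_smul]

lemma gMat_mul (p r : Fin n → F) (c : F) (hc : (1 + r ⬝ᵥ p) * c = 1) :
    gMat p r * (1 - c • vecMulVec p r) = 1 := by
  simp only [gMat, add_mul, mul_sub, one_mul, mul_one, Matrix.mul_smul, vv_sq]
  rw [smul_smul]
  have h1 : c • vecMulVec p r + (c * (r ⬝ᵥ p)) • vecMulVec p r = ((1 + r ⬝ᵥ p) * c) • vecMulVec p r := by
    rw [← add_smul]
    congr 1
    ring
  have h2 : (1 : MM n F) + vecMulVec p r - (c • vecMulVec p r + (c * (r ⬝ᵥ p)) • vecMulVec p r) = 1 := by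
    rw [h1, hc, one_smul]
    abel
  convert h2 using 1

lemma mul_gMat (p r : Fin n → F) (c : F) (hc : (1 + r ⬝ᵥ p) * c = 1) :
    (1 - c • vecMulVec p r) * gMat p r = 1 := by
  have := gMat_mul p r c hc
  exact mul_eq_one_comm.1 this

lemma gMat_transpose (p r : Fin n → F) : (gMat p r)ᵀ = gMat r p := by
  simp [gMat, Matrix.transpose_add, Matrix.transpose_vecMulVec]

/-- The congruence formula. -/
lemma congr_eq_op (p r : Fin n → F) (M : MM n F) (hM : Mᵀ = M) :
    (gMat p r)ᵀ * M * gMat p r = op p r M := by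
  rw [gMat_transpose]
  have h1 : vecMulVec r p * M = vecMulVec r (M *ᵥ p) := by
    rw [Matrix.vecMulVec_mul, ← Matrix.mulVec_transpose, hM]
  have h2 : M * vecMulVec p r = vecMulVec (M *ᵥ p) r := by
    rw [Matrix.mul_vecMulVec]
  have h3 : vecMulVec r p * M * vecMulVec p r = (p ⬝ᵥ M *ᵥ p) • vecMulVec r r := by
    rw [h1, vv_sq, dotProduct_comm]
  simp only [gMat, add_mul, mul_add, one_mul, mul_one, op, h1, h2]
  have h4 : vecMulVec r (M *ᵥ p) * vecMulVec p r = (p ⬝ᵥ M *ᵥ p) • vecMulVec r r := by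
    rw [vv_sq, dotProduct_comm]
  rw [h4]
  abel

lemma op_eq_zero (p r : Fin n → F) (M : MM n F) (hM : Mᵀ = M) (hc : 1 + r ⬝ᵥ p ≠ 0)
    (h : op p r M = 0) : M = 0 := by
  rw [← congr_eq_op p r M hM] at h
  have h1 := mul_gMat p r _ (mul_inv_cancel₀ hc)
  have h2 := gMat_mul p r _ (mul_inv_cancel₀ hc)
  set gi := (1 - (1 + r ⬝ᵥ p)⁻¹ • vecMulVec p r) with hgi
  have h3 : (gMat p r)ᵀ * giᵀ = 1 := by
    rw [← Matrix.transpose_mul, h1, Matrix.transpose_one]
  have h4 : giᵀ * (gMat p r)ᵀ = 1 := by
    rw [← Matrix.transpose_mul, h2, Matrix.transpose_one]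
  calc M = (giᵀ * (gMat p r)ᵀ) * M * (gMat p r * gi) := by rw [h4, h2, one_mul, mul_one]
    _ = giᵀ * ((gMat p r)ᵀ * M * gMat p r) * gi := by noncomm_ring
    _ = 0 := by rw [h]; simp

/-- Vectors supported on `T`. -/
def Supp (T : Finset (Fin n)) (v : Fin n → F) : Prop := ∀ l, l ∉ T → v l = 0

/-- The hypothesis on the stable set. -/
structure Stab (T : Finset (Fin n)) (Ω : Finset (MM n F)) : Prop where
  sym : ∀ M ∈ Ω, Mᵀ = M
  sup : ∀ M ∈ Ω, ∀ a b, a ∉ T → M a b = 0
  st : ∀ M ∈ Ω, ∀ p r : Fin n → F, Supp T p → Supp T r → 1 + r ⬝ᵥ p ≠ 0 → op p r M ∈ Ω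

variable {T : Finset (Fin n)} {Ω : Finset (MM n F)}

lemma Stab.row_supp (hΩ : Stab T Ω) {M : MM n F} (hM : M ∈ Ω) (a : Fin n) : Supp T (M a) := by
  intro l hl
  have h1 : M a l = M l a := by
    conv_lhs => rw [← hΩ.sym M hM]
    rfl
  rw [h1]
  exact hΩ.sup M hM l a hl

variable [DecidableEq (Fin n)]

lemma mulVec_single_eq (M : MM n F) (i a : Fin n) : (M *ᵥ Pi.single i 1) a = M a i := by
  simp [Matrix.mulVec_single_one]

lemma mulVec_row (M : MM n F) (p : Fin n → F) (a : Fin n) : (M *ᵥ p) a = M a ⬝ᵥ p := rfl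

lemma single_mem_Supp {i : Fin n} (hi : i ∈ T) (c : F) : Supp T (Pi.single i c) := by
  intro l hl
  have : l ≠ i := fun e => hl (e ▸ hi)
  simp [Pi.single_apply, this]

/-- Scaling. -/
lemma exists_scale (hΩ : Stab T Ω) {M : MM n F} (hM : M ∈ Ω) {i : Fin n} (hi : i ∈ T) {t : F}
    (ht : t ≠ 0) : ∃ M' ∈ Ω, M' i i = t ^ 2 * M i i := by
  refine ⟨op (Pi.single i (t - 1)) (Pi.single i 1) M, hΩ.st M hM _ _ (single_mem_Supp hi _)
    (single_mem_Supp hi _) ?_, ?_⟩
  · simp [ht]
  · rw [op_apply, mulVec_row]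
    simp only [Pi.single_eq_same, one_mul, mul_one, dotProduct_single, single_dotProduct]
    have h1 : (M *ᵥ Pi.single i (t - 1)) i = M i i * (t - 1) := by
      rw [mulVec_row, dotProduct_single]
    rw [h1]
    ring

/-- Shifting the row. -/
lemma exists_shift (hΩ : Stab T Ω) {M : MM n F} (hM : M ∈ Ω) {i : Fin n} (hi : i ∈ T)
    (hM0 : M i i ≠ 0) {w : Fin n → F} (hw : Supp T w) (hwi : w i = 0) :
    ∃ M' ∈ Ω, M' i = M i i • (Pi.single i 1) + w := by
  set a := M i i with ha
  set y := M i with hy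
  set u : Fin n → F := a⁻¹ • (w - y + a • Pi.single i 1) with hu
  have hui : u i = 0 := by
    simp only [hu, Pi.smul_apply, Pi.add_apply, Pi.sub_apply, hwi, smul_eq_mul, Pi.single_eq_same,
      mul_one]
    have : y i = a := rfl
    rw [this]
    ring
  have hsu : Supp T u := by
    intro l hl
    have h1 : y l = 0 := hΩ.row_supp hM i l hl
    have h2 : (Pi.single i 1 : Fin n → F) l = 0 := single_mem_Supp hi 1 l hl
    simp [hu, hw l hl, h1, h2]
  refine ⟨op (Pi.single i 1) u M, hΩ.st M hM _ _ (single_mem_Supp hi _) hsu ?_, ?_⟩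
  · simp [dotProduct_single, hui]
  · funext l
    have h5 : (M *ᵥ Pi.single i 1) i = a := by
      rw [mulVec_row, dotProduct_single, mul_one]
    rw [op_apply, hui, h5]
    simp only [mul_one, zero_mul, mul_zero, add_zero]
    simp only [hu, Pi.smul_apply, Pi.add_apply, Pi.sub_apply, smul_eq_mul]
    have h3 : M i l = y l := rfl
    rw [h3]
    field_simp
    ring

/-- Representing values. -/
lemma exists_val (hΩ : Stab T Ω) {M : MM n F} (hM : M ∈ Ω) {i : Fin n} (hi : i ∈ T)
    {x : Fin n → F} (hx : Supp T x) (hx0 : x ≠ 0) :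
    ∃ p r : Fin n → F, Supp T p ∧ Supp T r ∧ 1 + r ⬝ᵥ p ≠ 0 ∧ op p r M i i = x ⬝ᵥ M *ᵥ x := by
  obtain ⟨r, hr, hri, hrx⟩ : ∃ r : Fin n → F, Supp T r ∧ r i = 1 ∧ r ⬝ᵥ x ≠ 0 := by
    by_cases hxi : x i = 0
    · obtain ⟨l, hl⟩ := Function.ne_iff.1 hx0
      have hl' : x l ≠ 0 := hl
      have hli : l ≠ i := fun e => hl' (e ▸ hxi)
      have hlT : l ∈ T := by
        by_contra hc
        exact hl' (hx l hc)
      refine ⟨Pi.single i 1 + Pi.single l 1, ?_, ?_, ?_⟩
      · intro a ha
        simp [single_mem_Supp hi _ a ha, single_mem_Supp hlT _ a ha]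
      · simp [Pi.single_apply, hli.symm]
      · rw [add_dotProduct, single_dotProduct, single_dotProduct, hxi]
        simpa using hl'
    · refine ⟨Pi.single i 1, single_mem_Supp hi _, by simp, ?_⟩
      rw [single_dotProduct]
      simpa using hxi
  set p : Fin n → F := x - Pi.single i 1 with hp
  have hsp : Supp T p := by
    intro l hl
    have h6 : (Pi.single i 1 : Fin n → F) l = 0 := single_mem_Supp hi 1 l hl
    simp [hp, hx l hl, h6]
  refine ⟨p, r, hsp, hr, ?_, ?_⟩
  · have : 1 + r ⬝ᵥ p = r ⬝ᵥ x := by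
      rw [hp, dotProduct_sub, dotProduct_single, hri]
      ring
    rw [this]
    exact hrx
  · rw [op_apply, hri]
    have hxe : x = Pi.single i 1 + p := by rw [hp]; abel
    have hsym := hΩ.sym M hM
    have h1 : (M *ᵥ p) i = p ⬝ᵥ M *ᵥ Pi.single i 1 := by
      rw [mulVec_row, Matrix.mulVec_single_one]
      rw [dotProduct_comm]
      congr 1
      funext a
      have : M a i = M i a := by
        conv_lhs => rw [← hsym]
        rfl
      exact this.symm
    conv_rhs => rw [hxe]
    rw [add_dotProduct, Matrix.mulVec_add, dotProduct_add, dotProduct_add, single_dotProduct,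
      single_dotProduct, mulVec_row M (Pi.single i 1) i, dotProduct_single, h1]
    ring

/-- Moving the row when the diagonal entry vanishes. -/
lemma exists_move (hΩ : Stab T Ω) {M : MM n F} (hM : M ∈ Ω) {i : Fin n} (hi : i ∈ T)
    (hM0 : M i i = 0) (hMi : M i ≠ 0) {w' : Fin n → F} (hw' : Supp T w') (hw'i : w' i = 0)
    (hw'0 : w' ≠ 0) : ∃ M' ∈ Ω, M' i = w' := by
  set w := M i with hw
  have hwS : Supp T w := hΩ.row_supp hM i
  obtain ⟨j, hj⟩ := Function.ne_iff.1 hMi
  obtain ⟨j', hj'⟩ := Function.ne_iff.1 hw'0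
  have hj1 : w j ≠ 0 := hj
  have hj2 : w' j' ≠ 0 := hj'
  have hjT : j ∈ T := by
    by_contra hc
    exact hj1 (hwS j hc)
  have hj'T : j' ∈ T := by
    by_contra hc
    exact hj2 (hw' j' hc)
  have hji : j ≠ i := fun e => hj1 (e ▸ hM0)
  have hj'i : j' ≠ i := fun e => hj2 (e ▸ hw'i)
  -- the vector `p`
  obtain ⟨p, hp, hpi, hp1, hp2⟩ : ∃ p : Fin n → F, Supp T p ∧ p i = 0 ∧ w ⬝ᵥ p = 1 ∧ w' ⬝ᵥ p ≠ 0 := by
    obtain ⟨p₀, hp₀, hp₀i, hp₀1, hp₀2⟩ : ∃ p₀ : Fin n → F, Supp T p₀ ∧ p₀ i = 0 ∧ w ⬝ᵥ p₀ ≠ 0 ∧ w' ⬝ᵥ p₀ ≠ 0 := by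
      by_cases h1 : w' j = 0
      · by_cases h2 : w j' = 0
        · refine ⟨Pi.single j 1 + Pi.single j' 1, ?_, ?_, ?_, ?_⟩
          · intro l hl
            simp [single_mem_Supp hjT _ l hl, single_mem_Supp hj'T _ l hl]
          · simp [Pi.single_apply, hji.symm, hj'i.symm]
          · rw [dotProduct_add, dotProduct_single, dotProduct_single, h2]
            simpa using hj1
          · rw [dotProduct_add, dotProduct_single, dotProduct_single, h1]
            simpa using hj2
        · refine ⟨Pi.single j' 1, single_mem_Supp hj'T _, ?_, ?_, ?_⟩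
          · simp [Pi.single_apply, hj'i.symm]
          · rw [dotProduct_single]
            simpa using h2
          · rw [dotProduct_single]
            simpa using hj2
      · refine ⟨Pi.single j 1, single_mem_Supp hjT _, ?_, ?_, ?_⟩
        · simp [Pi.single_apply, hji.symm]
        · rw [dotProduct_single]
          simpa using hj1
        · rw [dotProduct_single]
          simpa using h1
    refine ⟨(w ⬝ᵥ p₀)⁻¹ • p₀, ?_, ?_, ?_, ?_⟩
    · intro l hl
      simp [hp₀ l hl]
    · simp [hp₀i]
    · rw [dotProduct_smul, smul_eq_mul, inv_mul_cancel₀ hp₀1]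
    · rw [dotProduct_smul, smul_eq_mul]
      exact mul_ne_zero (inv_ne_zero hp₀1) hp₀2
  set r : Fin n → F := w' - w with hr
  have hri : r i = 0 := by
    simp only [hr, Pi.sub_apply, hw'i]
    rw [hM0]
    simp
  have hrS : Supp T r := by
    intro l hl
    simp [hr, hw' l hl, hwS l hl]
  have hdot : 1 + r ⬝ᵥ p = w' ⬝ᵥ p := by
    rw [hr, sub_dotProduct, hp1]
    ring
  refine ⟨op p r M, hΩ.st M hM p r hp hrS (by rw [hdot]; exact hp2), ?_⟩
  funext l
  have h3 : (M *ᵥ p) i = 1 := by
    rw [mulVec_row]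
    exact hp1
  rw [op_apply, hri, h3]
  simp only [zero_mul, mul_zero, add_zero, one_mul]
  simp only [hr, Pi.sub_apply]
  have : M i l = w l := rfl
  rw [this]
  ring

section count

variable [Fintype F] [DecidableEq F]

/-- The finite set of vectors supported on `T`. -/
noncomputable def VT (T : Finset (Fin n)) : Finset (Fin n → F) := by
  classical exact Finset.univ.filter (Supp T)

lemma mem_VT {v : Fin n → F} : v ∈ VT T ↔ Supp T v := by
  classical
  simp [VT]

lemma card_VT : (VT (F := F) T).card = Fintype.card F ^ T.card := by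
  classical
  let e : {v : Fin n → F // Supp T v} ≃ ({j // j ∈ T} → F) :=
    { toFun := fun v j => v.1 j.1
      invFun := fun y => ⟨fun j => if h : j ∈ T then y ⟨j, h⟩ else 0, by
        intro l hl
        simp [hl]⟩
      left_inv := by
        intro v
        apply Subtype.ext
        funext l
        by_cases hl : l ∈ T
        · simp [hl]
        · simp [hl, v.2 l hl]
      right_inv := by
        intro y
        funext l
        simp }
  have h1 : (VT (F := F) T).card = Fintype.card {v : Fin n → F // Supp T v} := by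
    rw [Fintype.card_subtype]
    rfl
  rw [h1, Fintype.card_congr e, Fintype.card_fun, Fintype.card_coe]

lemma exists_quad_ne (h2 : (2 : F) ≠ 0) {M : MM n F} (hsym : Mᵀ = M) (hM : M ≠ 0)
    (hsup : ∀ a b, a ∉ T → M a b = 0) : ∃ x : Fin n → F, Supp T x ∧ x ⬝ᵥ M *ᵥ x ≠ 0 := by
  classical
  obtain ⟨a, b, hab⟩ : ∃ a b, M a b ≠ 0 := by
    by_contra hcon
    push Not at hcon
    apply hM
    ext a b
    exact hcon a b
  have hsy : ∀ c d, M c d = M d c := by
    intro c d
    conv_lhs => rw [← hsym]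
    rfl
  have haT : a ∈ T := by
    by_contra hc
    exact hab (hsup a b hc)
  have hbT : b ∈ T := by
    by_contra hc
    apply hab
    rw [hsy]
    exact hsup b a hc
  have hd : ∀ c, (Pi.single c 1 : Fin n → F) ⬝ᵥ M *ᵥ Pi.single c 1 = M c c := by
    intro c
    rw [single_dotProduct, mulVec_row, dotProduct_single]
    ring
  by_cases h3 : M a a = 0
  · by_cases h4 : M b b = 0
    · refine ⟨Pi.single a 1 + Pi.single b 1, ?_, ?_⟩
      · intro l hl
        simp [single_mem_Supp haT _ l hl, single_mem_Supp hbT _ l hl]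
      · have h5 : (Pi.single a 1 + Pi.single b 1 : Fin n → F) ⬝ᵥ M *ᵥ (Pi.single a 1 + Pi.single b 1) =
            2 * M a b := by
          rw [add_dotProduct, Matrix.mulVec_add, dotProduct_add, dotProduct_add, hd, hd, h3, h4,
            single_dotProduct, single_dotProduct, mulVec_row, dotProduct_single, mulVec_row,
            dotProduct_single, hsy b a]
          ring
        rw [h5]
        exact mul_ne_zero h2 hab
    · exact ⟨Pi.single b 1, single_mem_Supp hbT _, by rwa [hd]⟩
  · exact ⟨Pi.single a 1, single_mem_Supp haT _, by rwa [hd]⟩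

/-- The main theorem: a nonzero stable set has at least `(q^d - 1)/2` nonzero elements. -/
theorem orbit_bound (h2 : (2 : F) ≠ 0) : ∀ (d : ℕ) (T : Finset (Fin n)), T.card = d →
    ∀ Ω : Finset (MM n F), Stab T Ω → (∃ M ∈ Ω, M ≠ 0) →
    Fintype.card F ^ d ≤ 2 * (Ω.filter (fun M => M ≠ 0)).card + 1 := by
  classical
  intro d
  induction d with
  | zero =>
    intro T _ Ω _ _
    simp
  | succ d IH =>
  rintro T hT Ω hΩ ⟨M₀, hM₀, hM₀0⟩
  have hq2 : 2 ≤ Fintype.card F := Fintype.one_lt_card
  set q := Fintype.card F with hq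
  obtain ⟨i, hi⟩ : T.Nonempty := by
    rw [← Finset.card_pos]; omega
  set T' := T.erase i with hT'
  have hT'c : T'.card = d := by
    rw [hT', Finset.card_erase_of_mem hi, hT]
    omega
  have hT'sub : T' ⊆ T := Finset.erase_subset _ _
  have hiT' : i ∉ T' := Finset.notMem_erase _ _
  have hmono : ∀ v : Fin n → F, Supp T' v → Supp T v := fun v hv l hl => hv l (fun h => hl (hT'sub h))
  have hT'i : ∀ v : Fin n → F, Supp T' v → v i = 0 := fun v hv => hv i hiT'
  set Ωp := Ω.filter (fun M => M i i ≠ 0) with hΩp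
  set Ω0 := Ω.filter (fun M => M ≠ 0 ∧ M i i = 0) with hΩ0
  have hsplit : (Ω.filter (fun M => M ≠ 0)).card = Ωp.card + Ω0.card := by
    rw [← Finset.card_union_of_disjoint]
    · congr 1
      ext M
      simp only [hΩp, hΩ0, Finset.mem_filter, Finset.mem_union]
      constructor
      · rintro ⟨h3, h4⟩
        by_cases h5 : M i i = 0
        · exact Or.inr ⟨h3, h4, h5⟩
        · exact Or.inl ⟨h3, h5⟩
      · rintro (⟨h3, h4⟩ | ⟨h3, h4, _⟩)
        · refine ⟨h3, ?_⟩
          rintro rfl
          exact h4 rfl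
        · exact ⟨h3, h4⟩
    · rw [Finset.disjoint_left]
      intro M h3 h4
      exact (Finset.mem_filter.1 h3).2 (Finset.mem_filter.1 h4).2.2
  -- an element with nonzero diagonal entry
  have hnp : ∃ M ∈ Ω, M i i ≠ 0 := by
    obtain ⟨x, hx, hx0⟩ := exists_quad_ne h2 (hΩ.sym M₀ hM₀) hM₀0 (hΩ.sup M₀ hM₀)
    have hxne : x ≠ 0 := by
      rintro rfl
      simp at hx0
    obtain ⟨p, r, hp, hr, hc, he⟩ := exists_val hΩ hM₀ hi hx hxne
    exact ⟨_, hΩ.st M₀ hM₀ p r hp hr hc, by rwa [he]⟩
  set Vals := Ωp.image (fun M => M i i) with hVals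
  -- the count for nonzero diagonal entries
  have hcard : Vals.card * q ^ d ≤ Ωp.card := by
    have h3 : ((Vals ×ˢ VT (F := F) T').image fun c => c.1 • (Pi.single i 1 : Fin n → F) + c.2) ⊆
        Ωp.image (fun M => M i) := by
      intro y hy
      obtain ⟨⟨a, w⟩, hc, rfl⟩ := Finset.mem_image.1 hy
      obtain ⟨ha, hw⟩ := Finset.mem_product.1 hc
      simp only at ha hw
      rw [mem_VT] at hw
      obtain ⟨M', hM', rfl⟩ := Finset.mem_image.1 ha
      obtain ⟨hM'1, hM'2⟩ := Finset.mem_filter.1 hM'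
      obtain ⟨M'', hM'', h4⟩ := exists_shift hΩ hM'1 hi hM'2 (hmono w hw) (hT'i w hw)
      refine Finset.mem_image.2 ⟨M'', Finset.mem_filter.2 ⟨hM'', ?_⟩, h4⟩
      have h5 := congrFun h4 i
      simp only [Pi.add_apply, Pi.smul_apply, Pi.single_eq_same, smul_eq_mul, mul_one, hT'i w hw,
        add_zero] at h5
      rw [h5]
      exact hM'2
    have h4 := Finset.card_le_card h3
    rw [Finset.card_image_of_injOn, Finset.card_product, card_VT, hT'c] at h4
    · exact h4.trans Finset.card_image_le
    · rintro ⟨a, w⟩ hc ⟨a', w'⟩ hc' heq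
      obtain ⟨_, hw⟩ := Finset.mem_product.1 (Finset.mem_coe.1 hc)
      obtain ⟨_, hw'⟩ := Finset.mem_product.1 (Finset.mem_coe.1 hc')
      simp only at hw hw'
      rw [mem_VT] at hw hw'
      simp only at heq
      have h5 := congrFun heq i
      simp only [Pi.add_apply, Pi.smul_apply, Pi.single_eq_same, smul_eq_mul, mul_one, hT'i w hw,
        hT'i w' hw', add_zero] at h5
      subst h5
      have h6 := add_left_cancel heq
      simp [h6]
  -- the number of values
  have hvals : q - 1 ≤ 2 * Vals.card := by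
    obtain ⟨M₁, hM₁, hM₁0⟩ := hnp
    set a := M₁ i i with ha
    let s₁ : Finset F := Finset.univ.erase 0
    let f : F → F := fun t => t ^ 2 * a
    have h3 : s₁.image f ⊆ Vals := by
      intro y hy
      obtain ⟨t, ht, rfl⟩ := Finset.mem_image.1 hy
      have ht0 : t ≠ 0 := Finset.ne_of_mem_erase ht
      obtain ⟨M', hM', h4⟩ := exists_scale hΩ hM₁ hi ht0
      exact Finset.mem_image.2 ⟨M', Finset.mem_filter.2 ⟨hM', by
        rw [h4]; exact mul_ne_zero (pow_ne_zero _ ht0) hM₁0⟩, h4⟩
    have h4 : q - 1 ≤ 2 * (s₁.image f).card := by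
      have h5 : s₁.card = q - 1 := by
        rw [Finset.card_erase_of_mem (Finset.mem_univ _), Finset.card_univ]
      rw [← h5]
      refine Finset.card_le_mul_card_image s₁ 2 ?_
      intro y hy
      obtain ⟨b, hb, hby⟩ := Finset.mem_image.1 hy
      have h6 : (s₁.filter fun x => f x = y) ⊆ {b, -b} := by
        intro x hx
        obtain ⟨_, hx2⟩ := Finset.mem_filter.1 hx
        rw [← hby] at hx2
        have h7 : x ^ 2 = b ^ 2 := mul_right_cancel₀ hM₁0 hx2
        simp only [Finset.mem_insert, Finset.mem_singleton]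
        exact sq_eq_sq_iff_eq_or_eq_neg.1 h7
      exact (Finset.card_le_card h6).trans Finset.card_le_two
    exact h4.trans (Nat.mul_le_mul_left _ (Finset.card_le_card h3))
  -- the elements with zero diagonal entry
  have h0 : Ω0.Nonempty → q ^ d ≤ 2 * Ω0.card + 1 := by
    rintro ⟨M, hM⟩
    obtain ⟨hM1, hM2, hM3⟩ := Finset.mem_filter.1 hM
    by_cases hMi : M i = 0
    · -- recursion
      let Ω' := Ω.filter (fun M => ∀ a b, a ∉ T' → M a b = 0)
      have hΩ' : Stab T' Ω' := by
        refine ⟨fun M hM => hΩ.sym M (Finset.mem_filter.1 hM).1, fun M hM => (Finset.mem_filter.1 hM).2, ?_⟩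
        intro M hM p r hp hr hc
        obtain ⟨hM4, hM5⟩ := Finset.mem_filter.1 hM
        refine Finset.mem_filter.2 ⟨hΩ.st M hM4 p r (hmono p hp) (hmono r hr) hc, ?_⟩
        intro a b ha
        rw [op_apply, hM5 a b ha, hr a ha]
        have h3 : (M *ᵥ p) a = 0 := by
          rw [mulVec_row]
          have : M a = 0 := by
            funext c
            exact hM5 a c ha
          rw [this, zero_dotProduct]
        rw [h3]
        ring
      have hMΩ' : M ∈ Ω' := by
        refine Finset.mem_filter.2 ⟨hM1, ?_⟩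
        intro a b ha
        by_cases hai : a = i
        · rw [hai, hMi]
          rfl
        · refine hΩ.sup M hM1 a b ?_
          intro haT
          exact ha (Finset.mem_erase.2 ⟨hai, haT⟩)
      have h3 := IH T' hT'c Ω' hΩ' ⟨M, hMΩ', hM2⟩
      have h4 : (Ω'.filter (fun M => M ≠ 0)) ⊆ Ω0 := by
        intro M' hM'
        obtain ⟨hM'1, hM'2⟩ := Finset.mem_filter.1 hM'
        obtain ⟨hM'3, hM'4⟩ := Finset.mem_filter.1 hM'1
        exact Finset.mem_filter.2 ⟨hM'3, hM'2, hM'4 i i hiT'⟩
      have h5 := Finset.card_le_card h4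
      omega
    · -- transitivity
      have h3 : (VT (F := F) T').erase 0 ⊆ Ω0.image (fun M => M i) := by
        intro w' hw'
        obtain ⟨hw'0, hw'1⟩ := Finset.mem_erase.1 hw'
        rw [mem_VT] at hw'1
        obtain ⟨M', hM', h4⟩ := exists_move hΩ hM1 hi hM3 hMi (hmono w' hw'1) (hT'i w' hw'1) hw'0
        refine Finset.mem_image.2 ⟨M', Finset.mem_filter.2 ⟨hM', ?_, ?_⟩, h4⟩
        · rintro rfl
          apply hw'0
          rw [← h4]
          rfl
        · have := congrFun h4 i
          rw [this]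
          exact hT'i w' hw'1
      have h4 := (Finset.card_le_card h3).trans Finset.card_image_le
      have h0mem : (0 : Fin n → F) ∈ VT (F := F) T' := mem_VT.2 (fun l _ => rfl)
      rw [Finset.card_erase_of_mem h0mem, card_VT, hT'c] at h4
      have h5 : q ^ d - 1 ≤ Ω0.card := h4
      omega
  have hfinal : q ^ (d + 1) ≤ 2 * (Ωp.card + Ω0.card) + 1 := by
    by_cases hne : Ω0.Nonempty ∨ d = 0
    · have h3 : q ^ d ≤ 2 * Ω0.card + 1 := by
        rcases hne with h | h
        · exact h0 h
        · subst h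
          simp
      obtain ⟨p, hp⟩ : ∃ p, q = p + 1 := ⟨q - 1, by omega⟩
      have h4 : p ≤ 2 * Vals.card := by
        have : q - 1 = p := by omega
        omega
      rw [pow_succ]
      have h5 : q ^ d * q = q ^ d * p + q ^ d := by
        rw [hp]
        ring
      have h6 : q ^ d * p ≤ q ^ d * (2 * Vals.card) := Nat.mul_le_mul_left _ h4
      have h7 : q ^ d * (2 * Vals.card) = 2 * (Vals.card * q ^ d) := by ring
      omega
    · push Not at hne
      obtain ⟨hne1, hd⟩ := hne
      have hempty : ∀ M ∈ Ω, M ≠ 0 → M i i ≠ 0 := by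
        intro M hM hM0 hMii
        have h9 : M ∈ Ω0 := Finset.mem_filter.2 ⟨hM, hM0, hMii⟩
        rw [hne1] at h9
        simp at h9
      -- all values occur
      obtain ⟨j, hj⟩ : T'.Nonempty := by
        rw [← Finset.card_pos]; omega
      have hjT : j ∈ T := hT'sub hj
      have hji : j ≠ i := Finset.ne_of_mem_erase hj
      obtain ⟨M₁, hM₁, hM₁0⟩ := hnp
      obtain ⟨M₂, hM₂, hM₂i⟩ := exists_shift hΩ hM₁ hi hM₁0 (w := 0) (fun _ _ => rfl) rfl
      have hM₂sym := hΩ.sym M₂ hM₂
      have hsy : ∀ c d, M₂ c d = M₂ d c := by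
        intro c d
        conv_lhs => rw [← hM₂sym]
        rfl
      set a := M₁ i i with ha
      have hM₂ii : M₂ i i = a := by
        have := congrFun hM₂i i
        simpa using this
      have hM₂ij : M₂ i j = 0 := by
        have := congrFun hM₂i j
        simpa [Pi.single_apply, hji] using this
      set δ := M₂ j j with hδ
      have hMne : M₂ ≠ 0 := by
        rintro rfl
        exact hM₁0 hM₂ii.symm
      have hδ0 : δ ≠ 0 := by
        intro hd0
        have hx0 : (Pi.single j 1 : Fin n → F) ≠ 0 := by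
          intro h3
          have := congrFun h3 j
          simp at this
        obtain ⟨p, r, hp, hr, hc, he⟩ := exists_val hΩ hM₂ hi (single_mem_Supp hjT 1) hx0
        have h3 : (Pi.single j 1 : Fin n → F) ⬝ᵥ M₂ *ᵥ Pi.single j 1 = δ := by
          rw [single_dotProduct, mulVec_row, dotProduct_single]
          ring
        rw [h3, hd0] at he
        have h4 := hΩ.st M₂ hM₂ p r hp hr hc
        by_cases h5 : op p r M₂ = 0
        · exact hMne (op_eq_zero p r M₂ hM₂sym hc h5)
        · exact hempty _ h4 h5 he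
      have hall : Finset.univ.erase (0 : F) ⊆ Vals := by
        intro t ht
        have ht0 : t ≠ 0 := Finset.ne_of_mem_erase ht
        have hodd : Fintype.card F % 2 = 1 := by
          have h3 : ringChar F ≠ 2 := by
            intro h3
            have : CharP F 2 := by
              rw [← h3]
              exact ringChar.charP F
            exact h2 (CharTwo.two_eq_zero)
          exact FiniteField.odd_card_of_char_ne_two h3
        obtain ⟨X, Y, hXY⟩ := FiniteField.exists_root_sum_quadratic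
          (f := Polynomial.C a * Polynomial.X ^ 2)
          (g := Polynomial.C δ * Polynomial.X ^ 2 - Polynomial.C t)
          (by rw [Polynomial.degree_C_mul_X_pow 2 hM₁0]; rfl)
          (by
            rw [Polynomial.degree_sub_C]
            · rw [Polynomial.degree_C_mul_X_pow 2 hδ0]; rfl
            · rw [Polynomial.degree_C_mul_X_pow 2 hδ0]; decide)
          hodd
        simp only [Polynomial.eval_mul, Polynomial.eval_C, Polynomial.eval_pow, Polynomial.eval_X,
          Polynomial.eval_sub] at hXY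
        have hval : a * X ^ 2 + δ * Y ^ 2 = t := by linear_combination hXY
        set x : Fin n → F := X • Pi.single i 1 + Y • Pi.single j 1 with hx
        have hquad : x ⬝ᵥ M₂ *ᵥ x = t := by
          rw [← hval, hx]
          have h3 : ∀ c d, (Pi.single c 1 : Fin n → F) ⬝ᵥ M₂ *ᵥ Pi.single d 1 = M₂ c d := by
            intro c d
            rw [single_dotProduct, mulVec_row, dotProduct_single]
            ring
          simp only [add_dotProduct, Matrix.mulVec_add, Matrix.mulVec_smul, dotProduct_add,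
            smul_dotProduct, dotProduct_smul, h3, smul_eq_mul]
          rw [hM₂ii, hM₂ij, hsy j i, hM₂ij]
          ring
        have hxS : Supp T x := by
          intro l hl
          have h3 : (Pi.single i 1 : Fin n → F) l = 0 := single_mem_Supp hi 1 l hl
          have h4 : (Pi.single j 1 : Fin n → F) l = 0 := single_mem_Supp hjT 1 l hl
          simp [hx, h3, h4]
        have hx0 : x ≠ 0 := by
          intro h3
          rw [h3] at hquad
          simp at hquad
          exact ht0 hquad.symm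
        obtain ⟨p, r, hp, hr, hc, he⟩ := exists_val hΩ hM₂ hi hxS hx0
        rw [hquad] at he
        exact Finset.mem_image.2 ⟨_, Finset.mem_filter.2 ⟨hΩ.st M₂ hM₂ p r hp hr hc, by rw [he]; exact ht0⟩, he⟩
      have h3 : q - 1 ≤ Vals.card := by
        have h4 := Finset.card_le_card hall
        rwa [Finset.card_erase_of_mem (Finset.mem_univ _), Finset.card_univ] at h4
      have h4 : (q - 1) * q ^ d ≤ Ωp.card := (Nat.mul_le_mul_right _ h3).trans hcard
      obtain ⟨p, hp⟩ : ∃ p, q = p + 1 := ⟨q - 1, by omega⟩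
      have h5 : q - 1 = p := by omega
      rw [h5] at h4
      have h6 : 1 ≤ p := by omega
      rw [pow_succ, hp]
      have h7 : (p + 1) ^ d * (p + 1) ≤ 2 * (p * (p + 1) ^ d) := by
        have h8 : p + 1 ≤ 2 * p := by omega
        calc (p + 1) ^ d * (p + 1) ≤ (p + 1) ^ d * (2 * p) := Nat.mul_le_mul_left _ h8
          _ = 2 * (p * (p + 1) ^ d) := by ring
      rw [hp] at h4
      omega
  rw [hsplit]
  exact hfinal

end count

end Cfsg.Agent.Lib.SpOddOrbit
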