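import Mathlib
import Cfsg.Agent.Lib.SympForm
import Cfsg.Agent.Lib.SympGen

/-!
# The Heisenberg operators and intertwiners of transvections

On the space of functions on `F^n`, `q` odd: the operators `π(a,b) f (x) = ψ(a·x + a·b/2) f(x+b)`,
their commutation relations, the commutant, and explicit intertwiners for transvections.
-/

set_option autoImplicit false
set_option linter.unusedSectionVars false
set_option linter.unusedVariables false

namespace Cfsg.Agent.Lib.WeilHeis

open Matrix Cfsg Cfsg.Agent.Lib.SympForm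

variable {F : Type*} [Field F] {n : ℕ}

/-- The symplectic space. -/
abbrev VV (n : ℕ) (F : Type*) := Fin n ⊕ Fin n → F

/-- The space of functions. -/
abbrev HH (n : ℕ) (F : Type*) := (Fin n → F) → ℂ

/-- The first component. -/
def pr1 (u : VV n F) : Fin n → F := fun i => u (Sum.inl i)

/-- The second component. -/
def pr2 (u : VV n F) : Fin n → F := fun i => u (Sum.inr i)

/-- Building a vector. -/
def mkU (a b : Fin n → F) : VV n F := Sum.elim a b

@[simp] lemma pr1_mkU (a b : Fin n → F) : pr1 (mkU a b) = a := rfl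
@[simp] lemma pr2_mkU (a b : Fin n → F) : pr2 (mkU a b) = b := rfl
@[simp] lemma pr1_add (u v : VV n F) : pr1 (u + v) = pr1 u + pr1 v := rfl
@[simp] lemma pr2_add (u v : VV n F) : pr2 (u + v) = pr2 u + pr2 v := rfl
@[simp] lemma pr1_zero : pr1 (0 : VV n F) = 0 := rfl
@[simp] lemma pr2_zero : pr2 (0 : VV n F) = 0 := rfl
@[simp] lemma pr1_smul (t : F) (u : VV n F) : pr1 (t • u) = t • pr1 u := rfl
@[simp] lemma pr2_smul (t : F) (u : VV n F) : pr2 (t • u) = t • pr2 u := rfl
@[simp] lemma pr1_neg (u : VV n F) : pr1 (-u) = - pr1 u := rfl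
@[simp] lemma pr2_neg (u : VV n F) : pr2 (-u) = - pr2 u := rfl

lemma eq_mkU (u : VV n F) : u = mkU (pr1 u) (pr2 u) := by
  funext l
  rcases l with l | l <;> rfl

lemma B_eq (u v : VV n F) : sympForm n F u v = pr2 u ⬝ᵥ pr1 v - pr1 u ⬝ᵥ pr2 v := by
  rw [sympForm_apply, Finset.sum_sub_distrib]
  rfl

variable (ψ : AddChar F ℂ)

/-- The half. -/
local notation "h" => (2 : F)⁻¹

/-- The Heisenberg operators. -/
noncomputable def piOp (u : VV n F) : Module.End ℂ (HH n F) where
  toFun f x := ψ (pr1 u ⬝ᵥ x + h * (pr1 u ⬝ᵥ pr2 u)) * f (x + pr2 u)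
  map_add' f g := by
    funext x
    simp [mul_add]
  map_smul' c f := by
    funext x
    simp only [Pi.smul_apply, smul_eq_mul, RingHom.id_apply]
    ring

lemma piOp_apply (u : VV n F) (f : HH n F) (x : Fin n → F) :
    piOp ψ u f x = ψ (pr1 u ⬝ᵥ x + h * (pr1 u ⬝ᵥ pr2 u)) * f (x + pr2 u) := rfl

lemma piOp_zero : piOp ψ (0 : VV n F) = 1 := by
  apply LinearMap.ext
  intro f
  funext x
  simp [piOp_apply]

variable (h2 : (2 : F) ≠ 0)

include h2 in
lemma piOp_mul (u v : VV n F) :
    piOp ψ u * piOp ψ v = ψ (h * sympForm n F u v) • piOp ψ (u + v) := by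
  apply LinearMap.ext
  intro f
  funext x
  rw [Module.End.mul_apply, LinearMap.smul_apply, Pi.smul_apply, piOp_apply, piOp_apply, piOp_apply,
    smul_eq_mul, ← mul_assoc, ← AddChar.map_add_eq_mul, ← mul_assoc, ← AddChar.map_add_eq_mul]
  rw [add_assoc x]
  congr 2
  rw [B_eq]
  simp only [pr1_add, pr2_add, add_dotProduct, dotProduct_add]
  rw [dotProduct_comm (pr2 u) (pr1 v)]
  have h3 : (2 : F)⁻¹ + (2 : F)⁻¹ = 1 := by
    field_simp
    norm_num
  linear_combination (-(pr1 v ⬝ᵥ pr2 u)) * h3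

include h2 in
lemma piOp_mul_neg (u : VV n F) : piOp ψ u * piOp ψ (-u) = 1 := by
  rw [piOp_mul ψ h2, sympForm_neg_right, sympForm_self]
  simp [piOp_zero]

include h2 in
lemma piOp_neg_mul (u : VV n F) : piOp ψ (-u) * piOp ψ u = 1 := by
  have := piOp_mul_neg ψ h2 (-u)
  rwa [neg_neg] at this

/-! ### The commutant -/

omit h2 in
lemma exists_ne_one_of_ne_zero (hψ : ψ ≠ 1) {y : Fin n → F} (hy : y ≠ 0) :
    ∃ a : Fin n → F, ψ (a ⬝ᵥ y) ≠ 1 := by
  classical
  obtain ⟨t, ht⟩ := AddChar.ne_one_iff.1 hψ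
  obtain ⟨j, hj⟩ := Function.ne_iff.1 hy
  refine ⟨Pi.single j (t / y j), ?_⟩
  rw [single_dotProduct, div_mul_cancel₀ _ hj]
  exact ht

lemma piOp_mult (a : Fin n → F) (f : HH n F) (x : Fin n → F) :
    piOp ψ (mkU a 0) f x = ψ (a ⬝ᵥ x) * f x := by
  rw [piOp_apply]
  simp

lemma piOp_trans (b : Fin n → F) (f : HH n F) (x : Fin n → F) :
    piOp ψ (mkU 0 b) f x = f (x + b) := by
  rw [piOp_apply]
  simp

variable [Fintype F] [DecidableEq F]

/-- A linear functional fixed by the multiplication operators is a multiple of evaluation at `0`. -/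
lemma functional_eq (hψ : ψ ≠ 1) (l : HH n F →ₗ[ℂ] ℂ)
    (hl : ∀ (a : Fin n → F) f, l (piOp ψ (mkU a 0) f) = l f) (f : HH n F) :
    l f = f 0 * l (Pi.single 0 1) := by
  classical
  have h1 : ∀ y : Fin n → F, y ≠ 0 → l (Pi.single y 1) = 0 := by
    intro y hy
    obtain ⟨a, ha⟩ := exists_ne_one_of_ne_zero ψ hψ hy
    have h2 : piOp ψ (mkU a 0) (Pi.single y 1 : HH n F) = ψ (a ⬝ᵥ y) • (Pi.single y 1 : HH n F) := by
      funext x
      rw [piOp_mult, Pi.smul_apply, smul_eq_mul]
      by_cases hx : x = y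
      · rw [hx]
      · simp [Pi.single_apply, hx]
    have h3 := hl a (Pi.single y 1)
    rw [h2, map_smul, smul_eq_mul] at h3
    have h4 : (ψ (a ⬝ᵥ y) - 1) * l (Pi.single y 1) = 0 := by linear_combination h3
    exact (mul_eq_zero.1 h4).resolve_left (sub_ne_zero.2 ha)
  have h5 : f = ∑ y, f y • (Pi.single y 1 : HH n F) := by
    funext x
    simp [Finset.sum_apply, Pi.single_apply]
  conv_lhs => rw [h5]
  rw [map_sum, Finset.sum_eq_single 0]
  · rw [map_smul, smul_eq_mul]
  · intro y _ hy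
    rw [map_smul, h1 y hy, smul_zero]
  · simp

/-- The commutant of the Heisenberg operators consists of scalars. -/
theorem commutant_scalar (hψ : ψ ≠ 1) (A : Module.End ℂ (HH n F))
    (hA : ∀ u, A * piOp ψ u = piOp ψ u * A) : ∃ c : ℂ, A = c • 1 := by
  classical
  -- a fixed functional at each point
  have hkey : ∀ (z : Fin n → F) (f : HH n F), A f z = f z * A (Pi.single z 1) z := by
    intro z f
    let τ : Fin n → F := z
    -- translate to `0`
    have hT : ∀ g : HH n F, A (piOp ψ (mkU 0 z) g) = piOp ψ (mkU 0 z) (A g) := by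
      intro g
      have := congrArg (fun B : Module.End ℂ (HH n F) => B g) (hA (mkU 0 z))
      simpa [Module.End.mul_apply] using this
    let l : HH n F →ₗ[ℂ] ℂ :=
      { toFun := fun g => A g z
        map_add' := fun g g' => by simp
        map_smul' := fun c g => by simp }
    -- the functional is fixed by the multiplication operators up to a phase
    have hfix : ∀ (y : Fin n → F), y ≠ z → A (Pi.single y 1) z = 0 := by
      intro y hy
      have hyz : y - z ≠ 0 := sub_ne_zero.2 hy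
      obtain ⟨a, ha⟩ := exists_ne_one_of_ne_zero ψ hψ hyz
      have h1 : piOp ψ (mkU a 0) (Pi.single y 1 : HH n F) = ψ (a ⬝ᵥ y) • (Pi.single y 1 : HH n F) := by
        funext x
        rw [piOp_mult, Pi.smul_apply, smul_eq_mul]
        by_cases hx : x = y
        · rw [hx]
        · simp [Pi.single_apply, hx]
      have h2 := congrArg (fun B : Module.End ℂ (HH n F) => B (Pi.single y 1) z) (hA (mkU a 0))
      simp only [Module.End.mul_apply] at h2
      rw [h1, map_smul, Pi.smul_apply, smul_eq_mul, piOp_mult] at h2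
      have h3 : (ψ (a ⬝ᵥ y) - ψ (a ⬝ᵥ z)) * A (Pi.single y 1) z = 0 := by linear_combination h2
      refine (mul_eq_zero.1 h3).resolve_left ?_
      intro h4
      apply ha
      rw [dotProduct_sub, sub_eq_add_neg, AddChar.map_add_eq_mul, AddChar.map_neg_eq_inv,
        sub_eq_zero.1 h4]
      exact mul_inv_cancel₀ (AddChar.val_isUnit _ _).ne_zero
    have h5 : f = ∑ y, f y • (Pi.single y 1 : HH n F) := by
      funext x
      simp [Finset.sum_apply, Pi.single_apply]
    change l f = _
    conv_lhs => rw [h5]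
    rw [map_sum, Finset.sum_eq_single z]
    · rw [map_smul, smul_eq_mul]
      rfl
    · intro y _ hy
      rw [map_smul, smul_eq_mul]
      change f y * A (Pi.single y 1) z = 0
      rw [hfix y hy, mul_zero]
    · simp
  -- the values are constant
  have hconst : ∀ z : Fin n → F, A (Pi.single z 1) z = A (Pi.single 0 1) 0 := by
    intro z
    have h1 : piOp ψ (mkU 0 z) (Pi.single z 1 : HH n F) = (Pi.single 0 1 : HH n F) := by
      funext x
      rw [piOp_trans]
      by_cases hx : x = 0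
      · simp [hx]
      · have : x + z ≠ z := by simpa using hx
        simp [Pi.single_apply, hx, this]
    have h2 := congrArg (fun B : Module.End ℂ (HH n F) => B (Pi.single z 1) 0) (hA (mkU 0 z))
    simp only [Module.End.mul_apply] at h2
    rw [h1, piOp_trans, zero_add] at h2
    exact h2.symm
  refine ⟨A (Pi.single 0 1) 0, ?_⟩
  apply LinearMap.ext
  intro f
  funext z
  rw [hkey z f, hconst z]
  simp [mul_comm]

/-! ### The intertwiners of transvections -/

/-- The intertwiner of the transvection `x ↦ x + c B(x,w) w`. -/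
noncomputable def tvOp (c : F) (w : VV n F) : Module.End ℂ (HH n F) :=
  ∑ t : F, ψ (h * c⁻¹ * t ^ 2) • piOp ψ (t • w)

include h2 in
theorem tvOp_mul_piOp {c : F} (hc : c ≠ 0) (w u : VV n F) :
    tvOp ψ c w * piOp ψ u = piOp ψ (u + (c * sympForm n F u w) • w) * tvOp ψ c w := by
  set y := sympForm n F u w with hy
  have hwu : sympForm n F w u = -y := by rw [sympForm_antisymm, hy]
  have hww : sympForm n F w w = 0 := sympForm_self _
  simp only [tvOp]
  rw [Finset.sum_mul, Finset.mul_sum]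
  symm
  refine Fintype.sum_equiv (Equiv.addLeft (c * y)) _ _ fun t => ?_
  simp only [Equiv.coe_addLeft, Matrix.smul_mul, smul_mul_assoc, mul_smul_comm]
  rw [piOp_mul ψ h2, piOp_mul ψ h2, smul_smul, smul_smul, ← AddChar.map_add_eq_mul,
    ← AddChar.map_add_eq_mul]
  have h3 : (u + (c * y) • w) + t • w = (c * y + t) • w + u := by
    rw [add_smul]
    abel
  rw [h3]
  congr 2
  simp only [sympForm_add_left, sympForm_add_right, sympForm_smul_left, sympForm_smul_right, hww,
    hwu, ← hy]
  have h4 : (2 : F)⁻¹ * 2 = 1 := inv_mul_cancel₀ h2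
  field_simp
  ring

include h2 in
theorem tvOp_mul_tvOp (hψ : ψ ≠ 1) {c : F} (hc : c ≠ 0) (w : VV n F) :
    tvOp ψ c w * tvOp ψ (-c) w = ((Fintype.card F : ℕ) : ℂ) • 1 := by
  have hprim : ψ.IsPrimitive := AddChar.IsPrimitive.of_ne_one hψ
  have hww : sympForm n F w w = 0 := sympForm_self _
  have h4 : (2 : F)⁻¹ * 2 = 1 := inv_mul_cancel₀ h2
  have hprod : ∀ t t' : F, piOp ψ (t • w) * piOp ψ (t' • w) = piOp ψ ((t + t') • w) := by
    intro t t'
    rw [piOp_mul ψ h2, sympForm_smul_left, sympForm_smul_right, hww, add_smul]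
    simp
  simp only [tvOp]
  rw [Finset.sum_mul_sum]
  have h1 : ∀ t : F, ∑ t' : F, (ψ (h * c⁻¹ * t ^ 2) • piOp ψ (t • w)) *
      (ψ (h * (-c)⁻¹ * t' ^ 2) • piOp ψ (t' • w)) =
      ∑ s : F, (ψ (- (h * c⁻¹ * s ^ 2)) * ψ (t * (c⁻¹ * s))) • piOp ψ (s • w) := by
    intro t
    symm
    refine Fintype.sum_equiv (Equiv.subRight t) _ _ fun s => ?_
    simp only [Equiv.subRight_apply]
    rw [smul_mul_smul_comm, hprod]
    congr 1
    · rw [← AddChar.map_add_eq_mul, ← AddChar.map_add_eq_mul]
      congr 1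
      rw [inv_neg]
      field_simp
      ring
    · rw [add_sub_cancel]
  simp only [h1]
  rw [Finset.sum_comm]
  rw [Finset.sum_eq_single (0 : F)]
  · have h2' : ∀ t : F, (ψ (- (h * c⁻¹ * (0 : F) ^ 2)) * ψ (t * (c⁻¹ * 0))) •
        piOp ψ ((0 : F) • w) = (1 : Module.End ℂ (HH n F)) := by
      intro t
      simp [piOp_zero]
    simp only [h2', Finset.sum_const, Finset.card_univ]
    rw [Nat.cast_smul_eq_nsmul]
  · intro s _ hs
    have h5 : ∀ t : F, (ψ (- (h * c⁻¹ * s ^ 2)) * ψ (t * (c⁻¹ * s))) • piOp ψ (s • w) =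
        ψ (t * (c⁻¹ * s)) • (ψ (- (h * c⁻¹ * s ^ 2)) • piOp ψ (s • w)) := by
      intro t
      rw [smul_smul, mul_comm]
    simp only [h5]
    rw [← Finset.sum_smul, AddChar.sum_mulShift _ hprim, if_neg (mul_ne_zero (inv_ne_zero hc) hs)]
    simp
  · simp

end Cfsg.Agent.Lib.WeilHeis
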