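import Mathlib
import Cfsg.Agent.Lib.WeilHeis
import Cfsg.Agent.Lib.LinearExt
import Cfsg.Agent.Lib.SpBorel
import Cfsg.Agent.Lib.SpOrder

/-!
# The Weil representation of the symplectic group

For `q` odd, the group of pairs `(g, A)` with `A π(u) A⁻¹ = π(g u)` is a central extension of
`Sp_{2n}(F)` by `ℂˣ`; a character of this group which inverts the central `ℂˣ` is produced with the
transfer from the stabiliser of a Lagrangian, and it gives a genuine representation.
-/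

set_option autoImplicit false
set_option linter.unusedSectionVars false
set_option linter.unusedVariables false

namespace Cfsg.Agent.Lib.WeilRep

open Matrix Cfsg Cfsg.Agent.Lib.SympForm Cfsg.Agent.Lib.WeilHeis

variable {F : Type*} [Field F] [Fintype F] [DecidableEq F] {n : ℕ}

/-- The group. -/
abbrev SpG (n : ℕ) (F : Type*) [Field F] := Matrix.symplecticGroup (Fin n) F

/-- The action on vectors. -/
def act (g : SpG n F) (x : VV n F) : VV n F := g.1 *ᵥ x

lemma act_mul (g g' : SpG n F) (x : VV n F) : act (g * g') x = act g (act g' x) :=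
  mulVec_val_mul g g' x

lemma act_one (x : VV n F) : act (1 : SpG n F) x = x := by
  change (1 : Matrix _ _ F) *ᵥ x = x
  simp

lemma act_inv_act (g : SpG n F) (x : VV n F) : act g⁻¹ (act g x) = x := by
  rw [← act_mul, inv_mul_cancel, act_one]

lemma act_act_inv (g : SpG n F) (x : VV n F) : act g (act g⁻¹ x) = x := by
  rw [← act_mul, mul_inv_cancel, act_one]

variable (ψ : AddChar F ℂ)

/-- The group of pairs. -/
def EE : Subgroup (SpG n F × (Module.End ℂ (HH n F))ˣ) where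
  carrier := {p | ∀ u, (p.2 : Module.End ℂ (HH n F)) * piOp ψ u = piOp ψ (act p.1 u) * p.2}
  mul_mem' := by
    intro a b ha hb u
    simp only [Prod.fst_mul, Prod.snd_mul, Units.val_mul]
    rw [mul_assoc, hb u, ← mul_assoc, ha, act_mul, mul_assoc]
  one_mem' := by
    intro u
    simp [act_one]
  inv_mem' := by
    intro a ha u
    simp only [Prod.fst_inv, Prod.snd_inv]
    have h1 := ha (act a.1⁻¹ u)
    rw [act_act_inv] at h1
    have h2 : ((a.2⁻¹ : (Module.End ℂ (HH n F))ˣ) : Module.End ℂ (HH n F)) * a.2 = 1 := by simp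
    have h3 : (a.2 : Module.End ℂ (HH n F)) * ((a.2⁻¹ : (Module.End ℂ (HH n F))ˣ) :
        Module.End ℂ (HH n F)) = 1 := by simp
    calc ((a.2⁻¹ : (Module.End ℂ (HH n F))ˣ) : Module.End ℂ (HH n F)) * piOp ψ u
        = ((a.2⁻¹ : (Module.End ℂ (HH n F))ˣ) : Module.End ℂ (HH n F)) * (piOp ψ u * (a.2 *
          ((a.2⁻¹ : (Module.End ℂ (HH n F))ˣ) : Module.End ℂ (HH n F)))) := by rw [h3, mul_one]
      _ = ((a.2⁻¹ : (Module.End ℂ (HH n F))ˣ) : Module.End ℂ (HH n F)) * ((piOp ψ u * a.2) *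
          ((a.2⁻¹ : (Module.End ℂ (HH n F))ˣ) : Module.End ℂ (HH n F))) := by rw [mul_assoc]
      _ = ((a.2⁻¹ : (Module.End ℂ (HH n F))ˣ) : Module.End ℂ (HH n F)) * ((a.2 * piOp ψ (act a.1⁻¹ u)) *
          ((a.2⁻¹ : (Module.End ℂ (HH n F))ˣ) : Module.End ℂ (HH n F))) := by rw [h1]
      _ = (((a.2⁻¹ : (Module.End ℂ (HH n F))ˣ) : Module.End ℂ (HH n F)) * a.2) *
          (piOp ψ (act a.1⁻¹ u) * ((a.2⁻¹ : (Module.End ℂ (HH n F))ˣ) : Module.End ℂ (HH n F))) := by
          noncomm_ring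
      _ = _ := by rw [h2, one_mul]

lemma mem_EE {p : SpG n F × (Module.End ℂ (HH n F))ˣ} :
    p ∈ EE ψ ↔ ∀ u, (p.2 : Module.End ℂ (HH n F)) * piOp ψ u = piOp ψ (act p.1 u) * p.2 := Iff.rfl

/-- The projection. -/
def proj : EE (n := n) ψ →* SpG n F := (MonoidHom.fst _ _).comp (EE ψ).subtype

lemma proj_apply (p : EE (n := n) ψ) : proj ψ p = p.1.1 := rfl

variable (h2 : (2 : F) ≠ 0) (hψ : ψ ≠ 1)

include h2 hψ in
/-- Every element of the symplectic group lifts. -/
theorem proj_surjective : Function.Surjective (proj (n := n) ψ) := by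
  rw [← MonoidHom.range_eq_top, eq_top_iff, ← Cfsg.Agent.Lib.SympGen.transvGroup_eq_top,
    transvGroup, Subgroup.closure_le]
  rintro A ⟨w, c, hA⟩
  by_cases hc : c = 0
  · have hA1 : A = 1 := by
      apply Subtype.ext
      rw [hA]
      ext i j
      simp [sympTransvection, hc]
    rw [hA1]
    exact Subgroup.one_mem _
  have hq : ((Fintype.card F : ℕ) : ℂ) ≠ 0 := Nat.cast_ne_zero.2 Fintype.card_ne_zero
  let U : (Module.End ℂ (HH n F))ˣ :=
    { val := tvOp ψ c w
      inv := ((Fintype.card F : ℕ) : ℂ)⁻¹ • tvOp ψ (-c) w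
      val_inv := by
        rw [mul_smul_comm, tvOp_mul_tvOp ψ h2 hψ hc, smul_smul, inv_mul_cancel₀ hq, one_smul]
      inv_val := by
        have := tvOp_mul_tvOp (n := n) ψ h2 hψ (c := -c) (neg_ne_zero.2 hc) w
        rw [neg_neg] at this
        rw [smul_mul_assoc, this, smul_smul, inv_mul_cancel₀ hq, one_smul] }
  have hact : ∀ u, act A u = u + (c * sympForm n F u w) • w := by
    intro u
    change A.1 *ᵥ u = _
    rw [hA, mulVec_sympTransvection]
  refine ⟨⟨(A, U), ?_⟩, rfl⟩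
  intro u
  rw [hact]
  exact tvOp_mul_piOp ψ h2 hc w u

include hψ in
/-- Elements over the identity are scalars. -/
lemma scalar_of_proj_eq_one {p : EE (n := n) ψ} (hp : proj ψ p = 1) :
    ∃ c : ℂ, ((p.1.2 : (Module.End ℂ (HH n F))ˣ) : Module.End ℂ (HH n F)) = c • 1 := by
  apply commutant_scalar ψ hψ
  intro u
  have := p.2 u
  rw [show p.1.1 = 1 from hp, act_one] at this
  exact this

/-- The stabiliser of the Lagrangian. -/
def HL (n : ℕ) (F : Type*) [Field F] [Fintype F] [DecidableEq F] : Subgroup (SpG n F) where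
  carrier := {g | ∀ u, pr2 u = 0 → pr2 (act g u) = 0 ∧ pr2 (act g⁻¹ u) = 0}
  mul_mem' := by
    intro a b ha hb u hu
    constructor
    · rw [act_mul]
      exact (ha _ (hb u hu).1).1
    · rw [_root_.mul_inv_rev, act_mul]
      exact (hb _ (ha u hu).2).2
  one_mem' := by
    intro u hu
    simp [act_one, hu]
  inv_mem' := by
    intro a ha u hu
    rw [inv_inv]
    exact ⟨(ha u hu).2, (ha u hu).1⟩

lemma Bor_le_HL : Cfsg.Agent.Lib.SpBorel.Bor n F ≤ HL n F := by
  have key : ∀ g : SpG n F, g ∈ Cfsg.Agent.Lib.SpBorel.Bor n F → ∀ u, pr2 u = 0 →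
      pr2 (act g u) = 0 := by
    intro g hg u hu
    obtain ⟨h1, _⟩ := (Cfsg.Agent.Lib.SpBorel.mem_Bor_iff g).1 hg
    funext i
    change (g.1 *ᵥ u) (Sum.inr i) = 0
    simp only [Matrix.mulVec, dotProduct, Fintype.sum_sum_type]
    rw [Finset.sum_eq_zero, Finset.sum_eq_zero, add_zero]
    · intro j _
      have := congrFun hu j
      change u (Sum.inr j) = 0 at this
      rw [this, mul_zero]
    · intro j _
      rw [h1, zero_mul]
  intro g hg u hu
  exact ⟨key g hg u hu, key g⁻¹ (inv_mem hg) u hu⟩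

/-- The index of the stabiliser of a Lagrangian is prime to the characteristic. -/
theorem coprime_index_HL : Nat.Coprime (HL n F).index (Fintype.card F) := by
  set q := Fintype.card F with hq
  have hqpos : 0 < q := Fintype.card_pos
  have h1 : (Cfsg.Agent.Lib.SpBorel.Bor n F).index * (q ^ (n ^ 2) * (q - 1) ^ n) =
      q ^ (n ^ 2) * ∏ i ∈ Finset.range n, (q ^ (2 * (i + 1)) - 1) := by
    have h2 := Subgroup.card_mul_index (Cfsg.Agent.Lib.SpBorel.Bor n F)
    rw [Cfsg.Agent.Lib.SpBorel.card_Bor (F := F) rfl n] at h2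
    have h3 := Cfsg.Agent.Lib.SpOrder.card_Sp (F := F) n
    rw [mul_comm, h2]
    exact h3
  have h4 : (Cfsg.Agent.Lib.SpBorel.Bor n F).index * (q - 1) ^ n =
      ∏ i ∈ Finset.range n, (q ^ (2 * (i + 1)) - 1) := by
    apply Nat.eq_of_mul_eq_mul_left (pow_pos hqpos (n ^ 2))
    rw [← h1]
    ring
  have h5 : Nat.Coprime (∏ i ∈ Finset.range n, (q ^ (2 * (i + 1)) - 1)) q := by
    apply Nat.Coprime.prod_left
    intro i _
    have h6 : 1 ≤ q ^ (2 * (i + 1)) := Nat.one_le_pow _ _ hqpos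
    have hk : 2 * (i + 1) ≠ 0 := by omega
    have a1 := Nat.gcd_dvd_left (q ^ (2 * (i + 1)) - 1) q
    have b1 := Nat.gcd_dvd_right (q ^ (2 * (i + 1)) - 1) q
    have c1 : Nat.gcd (q ^ (2 * (i + 1)) - 1) q ∣ q ^ (2 * (i + 1)) := dvd_pow b1 hk
    have d1 := Nat.dvd_sub c1 a1
    have e1 : q ^ (2 * (i + 1)) - (q ^ (2 * (i + 1)) - 1) = 1 := by omega
    rw [e1] at d1
    exact Nat.dvd_one.1 d1
  have h7 : (HL n F).index ∣ (Cfsg.Agent.Lib.SpBorel.Bor n F).index :=
    Subgroup.index_dvd_of_le Bor_le_HL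
  have h8 : (Cfsg.Agent.Lib.SpBorel.Bor n F).index ∣ ∏ i ∈ Finset.range n, (q ^ (2 * (i + 1)) - 1) :=
    ⟨_, h4.symm⟩
  exact Nat.Coprime.coprime_dvd_left (h7.trans h8) h5

/-- The preimage of the stabiliser. -/
def HT (ψ : AddChar F ℂ) : Subgroup (EE (n := n) ψ) := (HL n F).comap (proj ψ)

include h2 hψ in
lemma index_HT : (HT (n := n) ψ).index = (HL n F).index :=
  Subgroup.index_comap_of_surjective _ (proj_surjective ψ h2 hψ)

/-- The value at the origin. -/
noncomputable def ev0 (A : Module.End ℂ (HH n F)) : ℂ := A (Pi.single 0 1) 0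

omit h2 in
include hψ in
/-- Elements over the stabiliser act on the evaluation at the origin by a scalar. -/
lemma ev0_spec (p : HT (n := n) ψ) (f : HH n F) :
    ((p.1.1.2 : (Module.End ℂ (HH n F))ˣ) : Module.End ℂ (HH n F)) f 0 =
      f 0 * ev0 ((p.1.1.2 : (Module.End ℂ (HH n F))ˣ) : Module.End ℂ (HH n F)) := by
  set A : Module.End ℂ (HH n F) := ((p.1.1.2 : (Module.End ℂ (HH n F))ˣ) : Module.End ℂ (HH n F)) with hA
  let l : HH n F →ₗ[ℂ] ℂ :=
    { toFun := fun g => A g 0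
      map_add' := fun g g' => by simp
      map_smul' := fun c g => by simp }
  have hl : ∀ (a : Fin n → F) f, l (piOp ψ (mkU a 0) f) = l f := by
    intro a f
    have h1 := congrArg (fun B : Module.End ℂ (HH n F) => B f 0) (p.1.2 (mkU a 0))
    simp only [Module.End.mul_apply] at h1
    change A (piOp ψ (mkU a 0) f) 0 = A f 0
    rw [h1, piOp_apply]
    have h3 : pr2 (act p.1.1.1 (mkU a 0)) = 0 := (p.2 (mkU a 0) rfl).1
    rw [h3]
    simp
    rfl
  exact functional_eq ψ hψ l hl f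

lemma ev0_one : ev0 (1 : Module.End ℂ (HH n F)) = 1 := by
  simp [ev0]

/-- The character of the preimage of the stabiliser. -/
noncomputable def chi0 (hψ : ψ ≠ 1) : HT (n := n) ψ →* ℂ where
  toFun p := ev0 ((p.1.1.2 : (Module.End ℂ (HH n F))ˣ) : Module.End ℂ (HH n F))
  map_one' := ev0_one
  map_mul' a b := by
    change ev0 (((a.1.1.2 : (Module.End ℂ (HH n F))ˣ) : Module.End ℂ (HH n F)) *
      ((b.1.1.2 : (Module.End ℂ (HH n F))ˣ) : Module.End ℂ (HH n F))) = _
    change ((a.1.1.2 : (Module.End ℂ (HH n F))ˣ) : Module.End ℂ (HH n F))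
      (((b.1.1.2 : (Module.End ℂ (HH n F))ˣ) : Module.End ℂ (HH n F)) (Pi.single 0 1)) 0 = _
    rw [ev0_spec ψ hψ a, mul_comm]
    rfl

/-- The central subgroup is contained in the preimage of the stabiliser. -/
lemma ker_le_HT : (proj (n := n) ψ).ker ≤ HT ψ := by
  intro p hp
  change proj ψ p ∈ HL n F
  rw [MonoidHom.mem_ker.1 hp]
  exact Subgroup.one_mem _

include hψ in
/-- Central elements. -/
lemma ker_central {p : EE (n := n) ψ} (hp : proj ψ p = 1) (g : EE (n := n) ψ) :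
    g * p * g⁻¹ = p := by
  obtain ⟨c, hc⟩ := scalar_of_proj_eq_one ψ hψ hp
  have h1 : p.1.1 = 1 := hp
  apply Subtype.ext
  apply Prod.ext
  · change g.1.1 * p.1.1 * g.1.1⁻¹ = p.1.1
    rw [h1]
    simp
  · apply Units.ext
    change ((g.1.2 : (Module.End ℂ (HH n F))ˣ) : Module.End ℂ (HH n F)) *
      ((p.1.2 : (Module.End ℂ (HH n F))ˣ) : Module.End ℂ (HH n F)) *
      (((g.1.2)⁻¹ : (Module.End ℂ (HH n F))ˣ) : Module.End ℂ (HH n F)) = _
    rw [hc, mul_smul_comm, mul_one, smul_mul_assoc, Units.mul_inv]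

/-- The character `V` obtained by transfer. -/
noncomputable def VV' (hψ : ψ ≠ 1) (h2 : (2 : F) ≠ 0) : EE (n := n) ψ →* ℂˣ :=
  haveI : (HT (n := n) ψ).FiniteIndex := ⟨by
    rw [index_HT ψ h2 hψ]
    exact Subgroup.FiniteIndex.index_ne_zero⟩
  (chi0 ψ hψ).toHomUnits.transfer

/-- The value of `V` on the central subgroup. -/
lemma VV'_central {p : EE (n := n) ψ} (hp : proj ψ p = 1) {c : ℂ}
    (hc : ((p.1.2 : (Module.End ℂ (HH n F))ˣ) : Module.End ℂ (HH n F)) = c • 1) :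
    ((VV' ψ hψ h2 p : ℂˣ) : ℂ) = c ^ (HL n F).index := by
  haveI : (HT (n := n) ψ).FiniteIndex := ⟨by
    rw [index_HT ψ h2 hψ]
    exact Subgroup.FiniteIndex.index_ne_zero⟩
  have hN : (proj (n := n) ψ).ker.Normal := MonoidHom.normal_ker _
  let ν : HT (n := n) ψ →* ℂˣ := (chi0 ψ hψ).toHomUnits
  let f : (proj (n := n) ψ).ker →* ℂˣ := ν.comp (Subgroup.inclusion (ker_le_HT ψ))
  have hinv : ∀ (g : EE (n := n) ψ) (m : (proj (n := n) ψ).ker),
      f ⟨g * m * g⁻¹, hN.conj_mem (m : EE (n := n) ψ) m.2 g⟩ = f m := by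
    intro g m
    congr 1
    apply Subtype.ext
    exact ker_central ψ hψ m.2 g
  have h1 := Cfsg.Agent.Lib.LinearExt.transfer_apply_of_invariant (proj (n := n) ψ).ker f hinv
    (HT (n := n) ψ) (ker_le_HT ψ) ν (fun _ => rfl) ⟨p, hp⟩
  change ν.transfer p = _ at h1
  change ((ν.transfer p : ℂˣ) : ℂ) = _
  rw [h1, index_HT ψ h2 hψ, Units.val_pow_eq_pow_val]
  congr 1
  change ev0 ((p.1.2 : (Module.End ℂ (HH n F))ˣ) : Module.End ℂ (HH n F)) = c
  rw [hc, ev0]
  simp

/-- The determinant character. -/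
noncomputable def detE : EE (n := n) ψ →* ℂˣ :=
  (Units.map (LinearMap.det : Module.End ℂ (HH n F) →* ℂ)).comp
    ((MonoidHom.snd _ _).comp (EE ψ).subtype)

lemma detE_central {p : EE (n := n) ψ} {c : ℂ}
    (hc : ((p.1.2 : (Module.End ℂ (HH n F))ˣ) : Module.End ℂ (HH n F)) = c • 1) :
    ((detE ψ p : ℂˣ) : ℂ) = c ^ (Fintype.card F ^ n) := by
  change LinearMap.det ((p.1.2 : (Module.End ℂ (HH n F))ˣ) : Module.End ℂ (HH n F)) = _
  rw [hc, LinearMap.det_smul, map_one, mul_one, Module.finrank_fintype_fun_eq_card]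
  simp

include h2 hψ in
/-- A character of `EE` inverting the central scalars. -/
theorem exists_char : ∃ χ : EE (n := n) ψ →* ℂˣ, ∀ (p : EE (n := n) ψ), proj ψ p = 1 → ∀ c : ℂ,
    ((p.1.2 : (Module.End ℂ (HH n F))ˣ) : Module.End ℂ (HH n F)) = c • 1 →
    ((χ p : ℂˣ) : ℂ) * c = 1 := by
  set m := (HL n F).index with hm
  set N := Fintype.card F ^ n with hN
  have hcop : Nat.Coprime m N := (coprime_index_HL (n := n) (F := F)).pow_right n
  have hbez : (1 : ℤ) = m * Nat.gcdA m N + N * Nat.gcdB m N := by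
    have := Nat.gcd_eq_gcd_ab m N
    rw [hcop.gcd_eq_one] at this
    exact_mod_cast this
  refine ⟨(VV' ψ hψ h2) ^ (- Nat.gcdA m N) * (detE ψ) ^ (- Nat.gcdB m N), ?_⟩
  intro p hp c hc
  have hunit : IsUnit ((p.1.2 : (Module.End ℂ (HH n F))ˣ) : Module.End ℂ (HH n F)) := Units.isUnit _
  have hc0 : c ≠ 0 := by
    rintro rfl
    rw [hc, zero_smul] at hunit
    have : Nontrivial (Module.End ℂ (HH n F)) := inferInstance
    exact not_isUnit_zero hunit
  set cu : ℂˣ := Units.mk0 c hc0 with hcu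
  have h1 : VV' ψ hψ h2 p = cu ^ m := by
    apply Units.ext
    rw [VV'_central ψ h2 hψ hp hc, Units.val_pow_eq_pow_val]
    rfl
  have h3 : detE ψ p = cu ^ N := by
    apply Units.ext
    rw [detE_central ψ hc, Units.val_pow_eq_pow_val]
    rfl
  simp only [MonoidHom.mul_apply, MonoidHom.zpow_apply]
  rw [h1, h3]
  have h4 : (cu ^ m) ^ (-Nat.gcdA m N) * (cu ^ N) ^ (-Nat.gcdB m N) * cu = 1 := by
    rw [← zpow_natCast, ← zpow_natCast, ← _root_.zpow_mul, ← _root_.zpow_mul, ← _root_.zpow_add]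
    rw [← _root_.zpow_add_one]
    have h5 : (m : ℤ) * -Nat.gcdA m N + N * -Nat.gcdB m N + 1 = 0 := by
      linear_combination hbez
    rw [h5, zpow_zero]
  have h6 := congrArg (fun x : ℂˣ => (x : ℂ)) h4
  have h7 : c = (cu : ℂ) := rfl
  rw [h7]
  simpa using h6

include h2 hψ in
/-- The Weil representation. -/
theorem exists_weil : ∃ ω : SpG n F →* (Module.End ℂ (HH n F))ˣ, ∀ (g : SpG n F) (u : VV n F),
    ((ω g : (Module.End ℂ (HH n F))ˣ) : Module.End ℂ (HH n F)) * piOp ψ u =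
      piOp ψ (act g u) * (ω g : (Module.End ℂ (HH n F))ˣ) := by
  obtain ⟨χ, hχ⟩ := exists_char (n := n) ψ h2 hψ
  let sc : ℂˣ →* (Module.End ℂ (HH n F))ˣ := Units.map (algebraMap ℂ (Module.End ℂ (HH n F)) : _ →* _)
  have hsc : ∀ a : ℂˣ, ((sc a : (Module.End ℂ (HH n F))ˣ) : Module.End ℂ (HH n F)) = (a : ℂ) • 1 := by
    intro a
    change algebraMap ℂ (Module.End ℂ (HH n F)) a = _
    rw [Algebra.algebraMap_eq_smul_one]
  let ω' : EE (n := n) ψ →* (Module.End ℂ (HH n F))ˣ :=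
    { toFun := fun p => sc (χ p) * p.1.2
      map_one' := by simp
      map_mul' := by
        intro a b
        apply Units.ext
        simp only [map_mul, Units.val_mul, Subgroup.coe_mul, Prod.snd_mul, hsc]
        simp only [smul_mul_assoc, mul_smul_comm, one_mul, mul_one, smul_smul] }
  have hker : (proj (n := n) ψ).ker ≤ ω'.ker := by
    intro p hp
    rw [MonoidHom.mem_ker] at hp ⊢
    obtain ⟨c, hc⟩ := scalar_of_proj_eq_one ψ hψ hp
    have h3 := hχ p hp c hc
    apply Units.ext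
    change ((sc (χ p) : (Module.End ℂ (HH n F))ˣ) : Module.End ℂ (HH n F)) *
      ((p.1.2 : (Module.End ℂ (HH n F))ˣ) : Module.End ℂ (HH n F)) = 1
    rw [hsc, hc, smul_mul_assoc, one_mul, smul_smul, h3, one_smul]
  let ω : SpG n F →* (Module.End ℂ (HH n F))ˣ :=
    (proj (n := n) ψ).liftOfSurjective (proj_surjective ψ h2 hψ) ⟨ω', hker⟩
  refine ⟨ω, ?_⟩
  intro g u
  obtain ⟨p, rfl⟩ := proj_surjective (n := n) ψ h2 hψ g
  have h4 : ω (proj ψ p) = ω' p :=
    MonoidHom.liftOfRightInverse_comp_apply _ _ _ ⟨ω', hker⟩ p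
  rw [h4]
  change ((sc (χ p) : (Module.End ℂ (HH n F))ˣ) : Module.End ℂ (HH n F)) *
    ((p.1.2 : (Module.End ℂ (HH n F))ˣ) : Module.End ℂ (HH n F)) * piOp ψ u =
    piOp ψ (act p.1.1 u) * (((sc (χ p) : (Module.End ℂ (HH n F))ˣ) : Module.End ℂ (HH n F)) *
    ((p.1.2 : (Module.End ℂ (HH n F))ˣ) : Module.End ℂ (HH n F)))
  rw [hsc, smul_mul_assoc, smul_mul_assoc, one_mul, mul_smul_comm]
  congr 1
  exact p.2 u

end Cfsg.Agent.Lib.WeilRep
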