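import Mathlib
import Cfsg.Agent.Lib.WeilRep
import Cfsg.Agent.Lib.CharBasic
import Cfsg.Agent.S2392

/-!
# The odd part of the Weil representation is irreducible
-/

set_option autoImplicit false
set_option linter.unusedSectionVars false
set_option linter.unusedVariables false

namespace Cfsg.Agent.Lib.WeilOdd

open Matrix Cfsg Cfsg.Agent.Lib.SympForm Cfsg.Agent.Lib.WeilHeis Cfsg.Agent.Lib.WeilRep
open scoped MatrixGroups

variable {F : Type*} [Field F] [Fintype F] [DecidableEq F] {n : ℕ}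

variable (ψ : AddChar F ℂ)

local notation "h" => (2 : F)⁻¹

/-! ### The parity operator -/

/-- The parity operator. -/
def Par : Module.End ℂ (HH n F) where
  toFun f x := f (-x)
  map_add' f g := rfl
  map_smul' c f := rfl

lemma Par_apply (f : HH n F) (x : Fin n → F) : Par f x = f (-x) := rfl

lemma Par_sq : (Par : Module.End ℂ (HH n F)) * Par = 1 := by
  apply LinearMap.ext
  intro f
  funext x
  simp [Par_apply, Module.End.mul_apply]

lemma Par_mul_piOp (u : VV n F) :
    (Par : Module.End ℂ (HH n F)) * piOp ψ u = piOp ψ (-u) * Par := by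
  apply LinearMap.ext
  intro f
  funext x
  simp only [Module.End.mul_apply, Par_apply, piOp_apply, pr1_neg, pr2_neg, neg_dotProduct,
    dotProduct_neg, neg_neg, neg_add_rev, mul_neg]
  congr 2
  exact add_comm _ _

/-- The central element. -/
def zz (n : ℕ) (F : Type*) [Field F] : SpG n F :=
  ⟨-1, by
    rw [mem_symplecticGroup_iff_preserves]
    intro x y
    simp [Matrix.neg_mulVec, sympForm_neg_left, sympForm_neg_right]⟩

lemma act_zz (u : VV n F) : act (zz n F) u = -u := by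
  change (-1 : Matrix _ _ F) *ᵥ u = -u
  simp [Matrix.neg_mulVec]

lemma zz_comm (g : SpG n F) : zz n F * g = g * zz n F := by
  apply Subtype.ext
  change (-1 : Matrix _ _ F) * g.1 = g.1 * (-1 : Matrix _ _ F)
  simp

section

variable (hψ : ψ ≠ 1)
  (ω : SpG n F →* (Module.End ℂ (HH n F))ˣ)
  (hω : ∀ (g : SpG n F) (u : VV n F),
    ((ω g : (Module.End ℂ (HH n F))ˣ) : Module.End ℂ (HH n F)) * piOp ψ u =
      piOp ψ (act g u) * (ω g : (Module.End ℂ (HH n F))ˣ))

include hψ hω in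
/-- Any invertible intertwiner is a multiple of the value of `ω`. -/
lemma omega_eq_smul (g : SpG n F) (A A' : Module.End ℂ (HH n F)) (h1 : A * A' = 1) (h2 : A' * A = 1)
    (hA : ∀ u, A * piOp ψ u = piOp ψ (act g u) * A) :
    ∃ c : ℂ, c ≠ 0 ∧ ((ω g : (Module.End ℂ (HH n F))ˣ) : Module.End ℂ (HH n F)) = c • A := by
  have hA' : ∀ u, A' * piOp ψ (act g u) = piOp ψ u * A' := by
    intro u
    calc A' * piOp ψ (act g u) = A' * (piOp ψ (act g u) * (A * A')) := by rw [h1, mul_one]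
      _ = A' * (A * piOp ψ u) * A' := by rw [← mul_assoc (piOp ψ _), ← hA]; noncomm_ring
      _ = (A' * A) * piOp ψ u * A' := by noncomm_ring
      _ = _ := by rw [h2, one_mul]
  obtain ⟨c, hc⟩ := commutant_scalar ψ hψ
    (A' * ((ω g : (Module.End ℂ (HH n F))ˣ) : Module.End ℂ (HH n F))) (by
      intro u
      rw [mul_assoc, hω, ← mul_assoc, hA', mul_assoc])
  have h3 : ((ω g : (Module.End ℂ (HH n F))ˣ) : Module.End ℂ (HH n F)) = c • A := by
    calc ((ω g : (Module.End ℂ (HH n F))ˣ) : Module.End ℂ (HH n F))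
        = (A * A') * ((ω g : (Module.End ℂ (HH n F))ˣ) : Module.End ℂ (HH n F)) := by rw [h1, one_mul]
      _ = A * (A' * ((ω g : (Module.End ℂ (HH n F))ˣ) : Module.End ℂ (HH n F))) := by rw [mul_assoc]
      _ = _ := by rw [hc, mul_smul_comm, mul_one]
  refine ⟨c, ?_, h3⟩
  rintro rfl
  rw [zero_smul] at h3
  have h4 : IsUnit ((ω g : (Module.End ℂ (HH n F))ˣ) : Module.End ℂ (HH n F)) := Units.isUnit _
  rw [h3] at h4
  exact not_isUnit_zero h4

include hψ hω in
/-- The Weil representation commutes with parity. -/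
lemma omega_comm_Par (g : SpG n F) :
    ((ω g : (Module.End ℂ (HH n F))ˣ) : Module.End ℂ (HH n F)) * Par =
      Par * ((ω g : (Module.End ℂ (HH n F))ˣ) : Module.End ℂ (HH n F)) := by
  obtain ⟨c, hc0, hc⟩ := omega_eq_smul ψ hψ ω hω (zz n F) Par Par Par_sq Par_sq (by
    intro u
    rw [act_zz, Par_mul_piOp])
  have h1 : ω (zz n F) * ω g = ω g * ω (zz n F) := by
    rw [← map_mul, ← map_mul, zz_comm]
  have h2 := congrArg (fun x : (Module.End ℂ (HH n F))ˣ => (x : Module.End ℂ (HH n F))) h1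
  simp only [Units.val_mul, hc, smul_mul_assoc, mul_smul_comm] at h2
  exact (smul_right_injective _ hc0 h2).symm

/-- The odd functions. -/
def OddF (n : ℕ) (F : Type*) [Field F] : Submodule ℂ (HH n F) where
  carrier := {f | ∀ x, f (-x) = - f x}
  add_mem' := by
    intro a b ha hb x
    simp only [Pi.add_apply, ha x, hb x]
    ring
  zero_mem' := by
    intro x
    simp
  smul_mem' := by
    intro c f hf x
    simp only [Pi.smul_apply, hf x, smul_eq_mul]
    ring

lemma mem_OddF {f : HH n F} : f ∈ OddF n F ↔ ∀ x, f (-x) = - f x := Iff.rfl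

lemma mem_OddF_iff_Par {f : HH n F} : f ∈ OddF n F ↔ Par f = -f := by
  constructor
  · intro hf
    funext x
    exact hf x
  · intro hf x
    exact congrFun hf x

include hψ hω in
lemma omega_mem_OddF (g : SpG n F) {f : HH n F} (hf : f ∈ OddF n F) :
    ((ω g : (Module.End ℂ (HH n F))ˣ) : Module.End ℂ (HH n F)) f ∈ OddF n F := by
  rw [mem_OddF_iff_Par] at hf ⊢
  have h1 := congrArg (fun B : Module.End ℂ (HH n F) => B f) (omega_comm_Par ψ hψ ω hω g)
  simp only [Module.End.mul_apply] at h1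
  rw [← h1, hf, map_neg]

/-! ### The Siegel radical -/

/-- The Siegel radical. -/
def xS (S : Matrix (Fin n) (Fin n) F) (hS : Sᵀ = S) : SpG n F :=
  ⟨fromBlocks 1 S 0 1, by
    rw [SymplecticGroup.mem_iff, Matrix.J, Matrix.fromBlocks_multiply, Matrix.fromBlocks_transpose,
      Matrix.fromBlocks_multiply]
    simp [hS]⟩

lemma pr1_act_xS (S : Matrix (Fin n) (Fin n) F) (hS : Sᵀ = S) (u : VV n F) :
    pr1 (act (xS S hS) u) = pr1 u + S *ᵥ pr2 u := by
  conv_lhs => rw [eq_mkU u]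
  change pr1 (fromBlocks 1 S 0 1 *ᵥ mkU (pr1 u) (pr2 u)) = _
  funext i
  simp [pr1, mkU, Matrix.fromBlocks_mulVec]

lemma pr2_act_xS (S : Matrix (Fin n) (Fin n) F) (hS : Sᵀ = S) (u : VV n F) :
    pr2 (act (xS S hS) u) = pr2 u := by
  conv_lhs => rw [eq_mkU u]
  change pr2 (fromBlocks 1 S 0 1 *ᵥ mkU (pr1 u) (pr2 u)) = _
  funext i
  simp [pr2, mkU, Matrix.fromBlocks_mulVec]

/-- The diagonal operators. -/
noncomputable def WS (S : Matrix (Fin n) (Fin n) F) : Module.End ℂ (HH n F) where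
  toFun f x := ψ (- (h * (x ⬝ᵥ S *ᵥ x))) * f x
  map_add' f g := by
    funext x
    simp [mul_add]
  map_smul' c f := by
    funext x
    simp only [Pi.smul_apply, smul_eq_mul, RingHom.id_apply]
    ring

lemma WS_apply (S : Matrix (Fin n) (Fin n) F) (f : HH n F) (x : Fin n → F) :
    WS ψ S f x = ψ (- (h * (x ⬝ᵥ S *ᵥ x))) * f x := rfl

lemma WS_mul_neg (S : Matrix (Fin n) (Fin n) F) : WS ψ S * WS ψ (-S) = 1 := by
  apply LinearMap.ext
  intro f
  funext x
  simp only [Module.End.mul_apply, WS_apply, Module.End.one_apply, ← mul_assoc,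
    ← AddChar.map_add_eq_mul, Matrix.neg_mulVec, dotProduct_neg, mul_neg, neg_neg, neg_add_cancel,
    AddChar.map_zero_eq_one, one_mul]

lemma WS_intertwine (h2 : (2 : F) ≠ 0) (S : Matrix (Fin n) (Fin n) F) (hS : Sᵀ = S) (u : VV n F) :
    WS ψ S * piOp ψ u = piOp ψ (act (xS S hS) u) * WS ψ S := by
  apply LinearMap.ext
  intro f
  funext x
  simp only [Module.End.mul_apply, WS_apply, piOp_apply, pr1_act_xS, pr2_act_xS, ← mul_assoc,
    ← AddChar.map_add_eq_mul]
  congr 2
  have h3 : x ⬝ᵥ S *ᵥ pr2 u = pr2 u ⬝ᵥ S *ᵥ x := by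
    rw [Matrix.dotProduct_mulVec, ← Matrix.mulVec_transpose, hS, dotProduct_comm]
  have h4 : (2 : F)⁻¹ * 2 = 1 := inv_mul_cancel₀ h2
  simp only [add_dotProduct, dotProduct_add, Matrix.mulVec_add]
  rw [dotProduct_comm (S *ᵥ pr2 u) x, h3, dotProduct_comm (pr1 u) x, dotProduct_comm (S *ᵥ pr2 u) (pr2 u)]
  linear_combination (pr2 u ⬝ᵥ S *ᵥ x) * h4

/-! ### The Levi subgroup -/

/-- The Levi element. -/
def levi (g : GL (Fin n) F) : SpG n F :=
  ⟨fromBlocks (g⁻¹.1)ᵀ 0 0 g.1, by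
    rw [Cfsg.Agent.Lib.SpBorel.sp_blocks]
    have h1 : g⁻¹.1 * g.1 = 1 := Units.inv_mul g
    have h2 : (g.1)ᵀ * (g⁻¹.1)ᵀ = 1 := by
      rw [← Matrix.transpose_mul, h1, Matrix.transpose_one]
    exact ⟨by rw [Matrix.transpose_transpose]; exact h1, h2, by simp⟩⟩

lemma pr1_act_levi (g : GL (Fin n) F) (u : VV n F) :
    pr1 (act (levi g) u) = (g⁻¹.1)ᵀ *ᵥ pr1 u := by
  conv_lhs => rw [eq_mkU u]
  change pr1 (fromBlocks (g⁻¹.1)ᵀ 0 0 g.1 *ᵥ mkU (pr1 u) (pr2 u)) = _
  funext i
  simp [pr1, mkU, Matrix.fromBlocks_mulVec]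

lemma pr2_act_levi (g : GL (Fin n) F) (u : VV n F) :
    pr2 (act (levi g) u) = g.1 *ᵥ pr2 u := by
  conv_lhs => rw [eq_mkU u]
  change pr2 (fromBlocks (g⁻¹.1)ᵀ 0 0 g.1 *ᵥ mkU (pr1 u) (pr2 u)) = _
  funext i
  simp [pr2, mkU, Matrix.fromBlocks_mulVec]

/-- The operator of the Levi element. -/
noncomputable def LV (g : GL (Fin n) F) : Module.End ℂ (HH n F) where
  toFun f x := f (g⁻¹.1 *ᵥ x)
  map_add' f k := rfl
  map_smul' c f := rfl

lemma LV_apply (g : GL (Fin n) F) (f : HH n F) (x : Fin n → F) : LV g f x = f (g⁻¹.1 *ᵥ x) := rfl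

lemma LV_mul_inv (g : GL (Fin n) F) : LV g * LV g⁻¹ = 1 := by
  apply LinearMap.ext
  intro f
  funext x
  simp only [Module.End.mul_apply, LV_apply, Module.End.one_apply, inv_inv, Matrix.mulVec_mulVec]
  rw [Units.mul_inv, Matrix.one_mulVec]

lemma LV_intertwine (g : GL (Fin n) F) (u : VV n F) :
    LV g * piOp ψ u = piOp ψ (act (levi g) u) * LV g := by
  have h1 : g⁻¹.1 * g.1 = 1 := Units.inv_mul g
  have hdot : ∀ y : Fin n → F, (g⁻¹.1)ᵀ *ᵥ pr1 u ⬝ᵥ y = pr1 u ⬝ᵥ g⁻¹.1 *ᵥ y := by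
    intro y
    rw [Matrix.mulVec_transpose, Matrix.dotProduct_mulVec]
  apply LinearMap.ext
  intro f
  funext x
  simp only [Module.End.mul_apply, LV_apply, piOp_apply, pr1_act_levi, pr2_act_levi, hdot]
  rw [Matrix.mulVec_mulVec, h1, Matrix.one_mulVec, Matrix.mulVec_add, Matrix.mulVec_mulVec, h1,
    Matrix.one_mulVec]

lemma LV_single (g : GL (Fin n) F) (y : Fin n → F) :
    LV g (Pi.single y 1 : HH n F) = (Pi.single (g.1 *ᵥ y) 1 : HH n F) := by
  funext x
  rw [LV_apply]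
  have h1 : g⁻¹.1 * g.1 = 1 := Units.inv_mul g
  have h2 : g.1 * g⁻¹.1 = 1 := Units.mul_inv g
  by_cases hx : x = g.1 *ᵥ y
  · subst hx
    rw [Matrix.mulVec_mulVec, h1, Matrix.one_mulVec]
    simp
  · have hne : g⁻¹.1 *ᵥ x ≠ y := by
      intro hy
      apply hx
      rw [← hy, Matrix.mulVec_mulVec, h2, Matrix.one_mulVec]
    rw [Pi.single_eq_of_ne hne, Pi.single_eq_of_ne hx]

end

/-! ### Summing over the symmetric matrices -/

/-- Symmetric matrices. -/
def SymA (n : ℕ) (F : Type*) [Field F] : AddSubgroup (Matrix (Fin n) (Fin n) F) where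
  carrier := {S | Sᵀ = S}
  add_mem' := by
    intro a b ha hb
    simp only [Set.mem_ofPred_eq, Matrix.transpose_add] at *
    rw [ha, hb]
  zero_mem' := by simp
  neg_mem' := by
    intro a ha
    simp only [Set.mem_ofPred_eq, Matrix.transpose_neg] at *
    rw [ha]

noncomputable instance instFintypeSymA : Fintype (SymA n F) := Fintype.ofFinite _

/-- A difference of two quadratic characters. -/
noncomputable def dChar (x₀ x : Fin n → F) : AddChar (SymA n F) ℂ where
  toFun S := ψ (h * (x₀ ⬝ᵥ S.1 *ᵥ x₀) - h * (x ⬝ᵥ S.1 *ᵥ x))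
  map_zero_eq_one' := by simp
  map_add_eq_mul' a b := by
    rw [← AddChar.map_add_eq_mul]
    congr 1
    simp only [AddMemClass.coe_add, Matrix.add_mulVec, dotProduct_add]
    ring

lemma dChar_apply (x₀ x : Fin n → F) (S : SymA n F) :
    dChar ψ x₀ x S = ψ (h * (x₀ ⬝ᵥ S.1 *ᵥ x₀) - h * (x ⬝ᵥ S.1 *ᵥ x)) := rfl

lemma eq_or_eq_neg_of_mul {x y : Fin n → F} (hxy : ∀ i j, x i * x j = y i * y j) :
    y = x ∨ y = -x := by
  by_cases hx : x = 0
  · left
    subst hx
    funext i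
    have := hxy i i
    simp only [Pi.zero_apply, mul_zero] at this
    simpa using this.symm
  · obtain ⟨k, hk⟩ := Function.ne_iff.1 hx
    have hk' : x k ≠ 0 := hk
    have h1 : (y k - x k) * (y k + x k) = 0 := by
      have := hxy k k
      linear_combination -this
    have hyk : y k ≠ 0 := by
      intro h0
      have := hxy k k
      rw [h0, mul_zero] at this
      exact hk' (by simpa using this)
    rcases mul_eq_zero.1 h1 with h2 | h2
    · left
      funext i
      have h3 := hxy k i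
      have h4 : y k = x k := by linear_combination h2
      rw [h4] at h3
      exact (mul_left_cancel₀ hk' h3).symm
    · right
      funext i
      have h3 := hxy k i
      have h4 : y k = - x k := by linear_combination h2
      rw [h4] at h3
      have h5 : x k * x i = x k * (- y i) := by linear_combination h3
      have h6 := mul_left_cancel₀ hk' h5
      simp only [Pi.neg_apply]
      linear_combination h6

/-- The sum of the quadratic characters. -/
lemma sum_dChar (hψ : ψ ≠ 1) (h2 : (2 : F) ≠ 0) (x₀ x : Fin n → F) :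
    ∑ S : SymA n F, dChar ψ x₀ x S =
      if x = x₀ ∨ x = -x₀ then ((Fintype.card (SymA n F) : ℕ) : ℂ) else 0 := by
  classical
  split_ifs with hx
  · have h1 : dChar ψ x₀ x = 1 := by
      ext S
      rw [dChar_apply]
      rcases hx with rfl | rfl
      · simp
      · simp [Matrix.mulVec_neg]
    simp [h1]
  · apply AddChar.sum_eq_zero_of_ne_one
    rw [AddChar.ne_one_iff]
    -- a coordinate where the products differ
    have h1 : ∃ i j, x₀ i * x₀ j ≠ x i * x j := by
      by_contra hcon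
      push Not at hcon
      exact hx (eq_or_eq_neg_of_mul hcon)
    obtain ⟨i, j, hij⟩ := h1
    obtain ⟨t, ht⟩ := AddChar.ne_one_iff.1 hψ
    set d := x₀ i * x₀ j - x i * x j with hd
    have hd0 : d ≠ 0 := sub_ne_zero.2 hij
    let S₀ : Matrix (Fin n) (Fin n) F :=
      (t / d) • (Matrix.single i j 1 + Matrix.single j i 1)
    have hS₀ : S₀ᵀ = S₀ := by
      simp only [S₀, Matrix.transpose_smul, Matrix.transpose_add, Matrix.transpose_single]
      rw [add_comm]
    have hform : ∀ y : Fin n → F, y ⬝ᵥ S₀ *ᵥ y = (t / d) * (2 * (y i * y j)) := by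
      intro y
      simp only [S₀, Matrix.smul_mulVec, Matrix.add_mulVec, dotProduct_smul, dotProduct_add, smul_eq_mul]
      congr 1
      have h3 : ∀ a b : Fin n, y ⬝ᵥ (Matrix.single a b (1 : F)) *ᵥ y = y a * y b := by
        intro a b
        rw [Matrix.single_mulVec]
        change y ⬝ᵥ (Pi.single a (1 * y b)) = _
        rw [dotProduct_single, one_mul]
      rw [h3, h3]
      ring
    refine ⟨⟨S₀, hS₀⟩, ?_⟩
    rw [dChar_apply]
    simp only
    rw [hform, hform]
    have h4 : (2 : F)⁻¹ * ((t / d) * (2 * (x₀ i * x₀ j))) - (2 : F)⁻¹ * ((t / d) * (2 * (x i * x j))) = t := by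
      rw [hd] at hd0 ⊢
      field_simp
    rw [h4]
    exact ht

/-- The basic odd functions. -/
noncomputable def bb (x : Fin n → F) : HH n F :=
  (Pi.single x 1 : HH n F) - (Pi.single (-x) 1 : HH n F)

lemma neg_ne_self (h2 : (2 : F) ≠ 0) {x : Fin n → F} (hx : x ≠ 0) : -x ≠ x := by
  intro h3
  apply hx
  funext i
  have h4 : x i + x i = 0 := by
    have := congrFun h3 i
    simp only [Pi.neg_apply] at this
    linear_combination -this
  have h5 : 2 * x i = 0 := by linear_combination h4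
  simpa [h2] using h5

lemma bb_mem (x : Fin n → F) : bb x ∈ OddF n F := by
  intro z
  simp only [bb, Pi.sub_apply]
  by_cases h1 : z = x
  · by_cases h2 : z = -x
    · subst h1
      simp [← h2]
    · subst h1
      simp [Pi.single_apply, h2, neg_eq_iff_eq_neg]
  · by_cases h2 : z = -x
    · subst h2
      simp [Pi.single_apply, h1]
    · have h3 : -z ≠ x := fun e => h2 (by rw [← e, neg_neg])
      have h4 : -z ≠ -x := fun e => h1 (neg_injective e)
      simp [Pi.single_apply, h1, h2, h3, h4]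

/-- The projection on `bb x₀`. -/
lemma sum_WS (hψ : ψ ≠ 1) (h2 : (2 : F) ≠ 0) {x₀ : Fin n → F} (hx₀ : x₀ ≠ 0) {f : HH n F}
    (hf : f ∈ OddF n F) :
    ∑ S : SymA n F, ψ (h * (x₀ ⬝ᵥ S.1 *ᵥ x₀)) • WS ψ S.1 f =
      (((Fintype.card (SymA n F) : ℕ) : ℂ) * f x₀) • bb x₀ := by
  funext z
  simp only [Finset.sum_apply, Pi.smul_apply, smul_eq_mul, WS_apply]
  have h3 : ∀ S : SymA n F, ψ (h * (x₀ ⬝ᵥ S.1 *ᵥ x₀)) * (ψ (-(h * (z ⬝ᵥ S.1 *ᵥ z))) * f z) =
      dChar ψ x₀ z S * f z := by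
    intro S
    rw [dChar_apply, ← mul_assoc, ← AddChar.map_add_eq_mul, sub_eq_add_neg]
  simp only [h3]
  rw [← Finset.sum_mul, sum_dChar ψ hψ h2]
  have hne := neg_ne_self h2 hx₀
  simp only [bb, Pi.sub_apply]
  by_cases h4 : z = x₀
  · subst h4
    simp [Pi.single_apply, hne.symm]
  · by_cases h5 : z = -x₀
    · subst h5
      rw [hf x₀]
      simp [Pi.single_apply, hne]
    · simp [Pi.single_apply, h4, h5]

lemma odd_eq_sum {f : HH n F} (hf : f ∈ OddF n F) :
    f = ∑ x : Fin n → F, ((2 : ℂ)⁻¹ * f x) • bb x := by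
  funext z
  simp only [Finset.sum_apply, Pi.smul_apply, smul_eq_mul, bb, Pi.sub_apply, mul_sub,
    Finset.sum_sub_distrib]
  have h1 : ∑ x : Fin n → F, (2 : ℂ)⁻¹ * f x * (Pi.single x 1 : HH n F) z = (2 : ℂ)⁻¹ * f z := by
    rw [Finset.sum_eq_single z]
    · simp
    · intro x _ hx
      simp [Pi.single_apply, hx.symm]
    · simp
  have h2 : ∑ x : Fin n → F, (2 : ℂ)⁻¹ * f x * (Pi.single (-x) 1 : HH n F) z = - ((2 : ℂ)⁻¹ * f z) := by
    rw [Finset.sum_eq_single (-z)]
    · rw [hf z, neg_neg]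
      simp
    · intro x _ hx
      have : z ≠ -x := fun e => hx (by rw [e, neg_neg])
      simp [Pi.single_apply, this]
    · simp
  rw [h1, h2]
  ring

section rep

variable (hψ : ψ ≠ 1) (h2 : (2 : F) ≠ 0)
  (ω : SpG n F →* (Module.End ℂ (HH n F))ˣ)
  (hω : ∀ (g : SpG n F) (u : VV n F),
    ((ω g : (Module.End ℂ (HH n F))ˣ) : Module.End ℂ (HH n F)) * piOp ψ u =
      piOp ψ (act g u) * (ω g : (Module.End ℂ (HH n F))ˣ))

/-- The representation on odd functions. -/
noncomputable def rhoOdd : Representation ℂ (SpG n F) ↥(OddF n F) where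
  toFun g := LinearMap.restrict ((ω g : (Module.End ℂ (HH n F))ˣ) : Module.End ℂ (HH n F))
    (fun f hf => omega_mem_OddF ψ hψ ω hω g hf)
  map_one' := by
    apply LinearMap.ext
    intro f
    apply Subtype.ext
    simp
  map_mul' a b := by
    apply LinearMap.ext
    intro f
    apply Subtype.ext
    simp

lemma rhoOdd_coe (g : SpG n F) (f : ↥(OddF n F)) :
    ((rhoOdd ψ hψ ω hω g f : ↥(OddF n F)) : HH n F) =
      ((ω g : (Module.End ℂ (HH n F))ˣ) : Module.End ℂ (HH n F)) f.1 := rfl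

include h2 in
/-- The representation on odd functions is irreducible. -/
theorem rhoOdd_irr (hn : 2 ≤ n) : (rhoOdd ψ hψ ω hω).IsIrreducible := by
  classical
  rw [Cfsg.Agent.Lib.CharBasic.isIrreducible_iff]
  have hnz : ∃ x : Fin n → F, x ≠ 0 := by
    refine ⟨Pi.single ⟨0, by omega⟩ 1, ?_⟩
    intro h0
    have := congrFun h0 ⟨0, by omega⟩
    simp at this
  constructor
  · obtain ⟨x, hx⟩ := hnz
    refine ⟨⟨⟨bb x, bb_mem x⟩, 0, ?_⟩⟩
    intro h0
    have h3 := congrFun (congrArg Subtype.val h0) x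
    simp only [bb, Pi.sub_apply, Pi.single_eq_same, ZeroMemClass.coe_zero, Pi.zero_apply] at h3
    rw [Pi.single_eq_of_ne (neg_ne_self h2 hx).symm] at h3
    simp at h3
  · intro U hU
    by_cases hbot : U = ⊥
    · exact Or.inl hbot
    right
    obtain ⟨f, hfU, hf0⟩ := Submodule.exists_mem_ne_zero_of_ne_bot hbot
    let U₀ : Submodule ℂ (HH n F) := U.map (OddF n F).subtype
    have hmem : ∀ φ : ↥(OddF n F), φ.1 ∈ U₀ ↔ φ ∈ U := by
      intro φ
      constructor
      · rintro ⟨φ', hφ', h3⟩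
        have : φ' = φ := Subtype.ext h3
        rwa [← this]
      · intro h3
        exact ⟨φ, h3, rfl⟩
    have hsub : ∀ v ∈ U₀, v ∈ OddF n F := by
      rintro v ⟨φ, _, rfl⟩
      exact φ.2
    have hU₀ : ∀ (g : SpG n F), ∀ v ∈ U₀,
        ((ω g : (Module.End ℂ (HH n F))ˣ) : Module.End ℂ (HH n F)) v ∈ U₀ := by
      rintro g v ⟨φ, hφ, rfl⟩
      exact ⟨rhoOdd ψ hψ ω hω g φ, hU g φ hφ, rfl⟩
    have hWS : ∀ (S : SymA n F), ∀ v ∈ U₀, WS ψ S.1 v ∈ U₀ := by
      intro S v hv
      obtain ⟨c, hc0, hc⟩ := omega_eq_smul ψ hψ ω hω (xS S.1 S.2) (WS ψ S.1) (WS ψ (-S.1))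
        (WS_mul_neg ψ S.1) (by simpa using WS_mul_neg ψ (-S.1)) (WS_intertwine ψ h2 S.1 S.2)
      have h3 := hU₀ (xS S.1 S.2) v hv
      rw [hc] at h3
      have h4 : WS ψ S.1 v = c⁻¹ • ((c • WS ψ S.1) v) := by
        rw [LinearMap.smul_apply, smul_smul, inv_mul_cancel₀ hc0, one_smul]
      rw [h4]
      exact U₀.smul_mem _ h3
    have hLV : ∀ (g : GL (Fin n) F), ∀ v ∈ U₀, LV g v ∈ U₀ := by
      intro g v hv
      obtain ⟨c, hc0, hc⟩ := omega_eq_smul ψ hψ ω hω (levi g) (LV g) (LV g⁻¹)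
        (LV_mul_inv g) (by simpa using LV_mul_inv g⁻¹) (LV_intertwine ψ g)
      have h3 := hU₀ (levi g) v hv
      rw [hc] at h3
      have h4 : LV g v = c⁻¹ • ((c • LV g) v) := by
        rw [LinearMap.smul_apply, smul_smul, inv_mul_cancel₀ hc0, one_smul]
      rw [h4]
      exact U₀.smul_mem _ h3
    -- a point where `f` does not vanish
    have hf1 : f.1 ≠ 0 := fun h3 => hf0 (Subtype.ext h3)
    obtain ⟨x₀, hx₀⟩ := Function.ne_iff.1 hf1
    have hx₀' : f.1 x₀ ≠ 0 := hx₀
    have hx₀0 : x₀ ≠ 0 := by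
      rintro rfl
      have h3 := f.2 0
      rw [neg_zero] at h3
      apply hx₀'
      have h4 : (2 : ℂ) * f.1 0 = 0 := by linear_combination h3
      simpa using h4
    have hbb₀ : bb x₀ ∈ U₀ := by
      have h3 := sum_WS ψ hψ h2 hx₀0 f.2
      have h4 : ∑ S : SymA n F, ψ (h * (x₀ ⬝ᵥ S.1 *ᵥ x₀)) • WS ψ S.1 f.1 ∈ U₀ :=
        U₀.sum_mem fun S _ => U₀.smul_mem _ (hWS S _ ((hmem f).2 hfU))
      rw [h3] at h4
      have hcard : ((Fintype.card (SymA n F) : ℕ) : ℂ) ≠ 0 := Nat.cast_ne_zero.2 Fintype.card_ne_zero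
      have h5 := U₀.smul_mem (((Fintype.card (SymA n F) : ℕ) : ℂ) * f.1 x₀)⁻¹ h4
      rwa [smul_smul, inv_mul_cancel₀ (mul_ne_zero hcard hx₀'), one_smul] at h5
    have hbb : ∀ x : Fin n → F, bb x ∈ U₀ := by
      intro x
      by_cases hx : x = 0
      · subst hx
        simp [bb]
      obtain ⟨g, hg⟩ := Cfsg.Agent.S2392.exists_sl_mulVec hn hx₀0 hx
      have h3 := hLV (g : GL (Fin n) F) _ hbb₀
      have h4 : LV (g : GL (Fin n) F) (bb x₀) = bb x := by
        simp only [bb, map_sub]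
        rw [LV_single, LV_single]
        have e1 : ((g : GL (Fin n) F) : Matrix (Fin n) (Fin n) F) = g.1 := rfl
        rw [e1, hg, Matrix.mulVec_neg, hg]
      rwa [h4] at h3
    rw [eq_top_iff]
    intro φ _
    rw [← hmem, odd_eq_sum φ.2]
    exact U₀.sum_mem fun x _ => U₀.smul_mem _ (hbb x)

end rep

/-- The dimension of the space of odd functions. -/
theorem finrank_OddF (h2 : (2 : F) ≠ 0) :
    Module.finrank ℂ ↥(OddF n F) = (Fintype.card F ^ n - 1) / 2 := by
  classical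
  let P : Module.End ℂ (HH n F) := (2 : ℂ)⁻¹ • (1 - Par)
  have hP : LinearMap.IsProj (OddF n F) P := by
    constructor
    · intro f x
      simp only [P, LinearMap.smul_apply, LinearMap.sub_apply, Pi.smul_apply, Pi.sub_apply,
        Module.End.one_apply, Par_apply, neg_neg, smul_eq_mul]
      ring
    · intro f hf
      funext x
      simp only [P, LinearMap.smul_apply, LinearMap.sub_apply, Pi.smul_apply, Pi.sub_apply,
        Module.End.one_apply, Par_apply, smul_eq_mul]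
      rw [hf x]
      ring
  have h1 := hP.trace
  have htrPar : LinearMap.trace ℂ (HH n F) Par = 1 := by
    rw [LinearMap.trace_eq_matrix_trace ℂ (Pi.basisFun ℂ (Fin n → F)) Par, Matrix.trace]
    have h3 : ∀ x : Fin n → F, (LinearMap.toMatrix (Pi.basisFun ℂ (Fin n → F))
        (Pi.basisFun ℂ (Fin n → F)) Par).diag x = if x = 0 then 1 else 0 := by
      intro x
      rw [Matrix.diag_apply, LinearMap.toMatrix_apply]
      simp only [Pi.basisFun_repr, Pi.basisFun_apply, Par_apply]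
      by_cases hx : x = 0
      · subst hx
        simp
      · simp [Pi.single_apply, neg_ne_self h2 hx, hx]
    rw [Finset.sum_congr rfl (fun x _ => h3 x)]
    simp
  have h3 : LinearMap.trace ℂ (HH n F) P = (2 : ℂ)⁻¹ * ((Fintype.card F ^ n : ℕ) - 1) := by
    simp only [P, map_smul, map_sub, htrPar, smul_eq_mul, LinearMap.trace_one]
    rw [Module.finrank_fintype_fun_eq_card]
    simp
  rw [h3] at h1
  have h4 : (2 * Module.finrank ℂ ↥(OddF n F) + 1 : ℕ) = Fintype.card F ^ n := by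
    have h5 : ((2 * Module.finrank ℂ ↥(OddF n F) + 1 : ℕ) : ℂ) = ((Fintype.card F ^ n : ℕ) : ℂ) := by
      push_cast at h1 ⊢
      rw [← h1]
      field_simp
      ring
    exact_mod_cast h5
  omega

/-- The existence of the irreducible representation of the degree `(q^n - 1)/2`. -/
theorem exists_odd_irr (hn : 2 ≤ n) (h2 : (2 : F) ≠ 0) :
    ∃ ρ : Representation ℂ (Matrix.symplecticGroup (Fin n) F)
      (Fin ((Fintype.card F ^ n - 1) / 2) → ℂ), ρ.IsIrreducible := by
  classical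
  obtain ⟨ψ, hψ⟩ : ∃ ψ : AddChar F ℂ, ψ ≠ 1 := by
    by_contra hcon
    push Not at hcon
    have h3 : Fintype.card (AddChar F ℂ) = 1 := Fintype.card_eq_one_iff.2 ⟨1, hcon⟩
    rw [AddChar.card_eq] at h3
    have h4 : Fintype.card F ≠ 1 := by
      have := Fintype.one_lt_card (α := F)
      omega
    exact h4 h3
  obtain ⟨ω, hω⟩ := exists_weil (n := n) ψ h2 hψ
  have hfin : Module.finrank ℂ ↥(OddF n F) =
      Module.finrank ℂ (Fin ((Fintype.card F ^ n - 1) / 2) → ℂ) := by
    rw [finrank_OddF h2, Module.finrank_fin_fun]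
  let e := LinearEquiv.ofFinrankEq ↥(OddF n F) (Fin ((Fintype.card F ^ n - 1) / 2) → ℂ) hfin
  exact ⟨Cfsg.Agent.Lib.CharBasic.transport e (rhoOdd ψ hψ ω hω),
    Cfsg.Agent.Lib.CharBasic.transport_isIrreducible e _ (rhoOdd_irr ψ hψ h2 ω hω hn)⟩

end Cfsg.Agent.Lib.WeilOdd
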