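import Mathlib
import Cfsg.Agent.Lib.WeilOdd
import Cfsg.Agent.Lib.SpOddOrbit
import Cfsg.Agent.Lib.FourierAb
import Cfsg.Agent.Lib.SympGen
import Cfsg.Agent.Lib.CharBasic

/-!
# The lower bound `(q^n - 1)/2` for the degrees of `Sp_{2n}(q)`, `q` odd
-/

set_option autoImplicit false
set_option linter.unusedSectionVars false
set_option linter.unusedVariables false

namespace Cfsg.Agent.Lib.SpOddLower

open Matrix Cfsg Cfsg.Agent.Lib.SympForm Cfsg.Agent.Lib.WeilHeis Cfsg.Agent.Lib.WeilRep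
  Cfsg.Agent.Lib.WeilOdd Cfsg.Agent.Lib.SpOddOrbit Cfsg.Agent.Lib.FourierAb
open scoped MatrixGroups

variable {F : Type*} [Field F] [Fintype F] [DecidableEq F] {n k : ℕ}

lemma xS_add (S S' : Matrix (Fin n) (Fin n) F) (hS : Sᵀ = S) (hS' : S'ᵀ = S')
    (h : (S + S')ᵀ = S + S') : xS (S + S') h = xS S hS * xS S' hS' := by
  apply Subtype.ext
  change fromBlocks 1 (S + S') 0 1 = fromBlocks 1 S 0 1 * fromBlocks 1 S' 0 1
  rw [fromBlocks_multiply]
  simp [add_comm]

lemma xS_zero (h : (0 : Matrix (Fin n) (Fin n) F)ᵀ = 0) : xS 0 h = 1 := by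
  apply Subtype.ext
  change fromBlocks 1 0 0 1 = (1 : Matrix _ _ F)
  simp

variable (R : SpG n F →* Matrix (Fin k) (Fin k) ℂ)

/-- The restriction to the Siegel radical. -/
noncomputable def rA (S : SymA n F) : Matrix (Fin k) (Fin k) ℂ := R (xS S.1 S.2)

lemma rA_zero : rA R 0 = 1 := by
  unfold rA
  have : xS ((0 : SymA n F) : Matrix (Fin n) (Fin n) F) (0 : SymA n F).2 = 1 := xS_zero _
  rw [this, map_one]

lemma rA_add (a b : SymA n F) : rA R (a + b) = rA R a * rA R b := by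
  unfold rA
  rw [← map_mul, ← xS_add _ _ a.2 b.2 (a + b).2]
  rfl

variable (ψ : AddChar F ℂ)

/-- The characters of the Siegel radical. -/
noncomputable def chiM (M : Matrix (Fin n) (Fin n) F) : AddChar (SymA n F) ℂ where
  toFun S := ψ (Matrix.trace (M * S.1))
  map_zero_eq_one' := by simp
  map_add_eq_mul' a b := by
    rw [← AddChar.map_add_eq_mul]
    congr 1
    simp [Matrix.mul_add, Matrix.trace_add]

lemma chiM_apply (M : Matrix (Fin n) (Fin n) F) (S : SymA n F) :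
    chiM ψ M S = ψ (Matrix.trace (M * S.1)) := rfl

lemma chiM_zero : chiM ψ (0 : Matrix (Fin n) (Fin n) F) = 1 := by
  ext S
  simp [chiM_apply]

lemma chiM_sub (M M' : Matrix (Fin n) (Fin n) F) (S : SymA n F) :
    chiM ψ M S = chiM ψ (M - M') S * chiM ψ M' S := by
  simp only [chiM_apply]
  rw [← AddChar.map_add_eq_mul]
  congr 1
  simp [Matrix.sub_mul, Matrix.trace_sub]

lemma trace_single_add {D : Matrix (Fin n) (Fin n) F} (hD : Dᵀ = D) (i j : Fin n) :
    Matrix.trace (D * (Matrix.single i j (1 : F) + Matrix.single j i 1)) = 2 * D i j := by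
  have h1 : D j i = D i j := congrFun (congrFun hD i) j
  simp only [Matrix.mul_add, Matrix.trace_add, Matrix.trace_mul_single]
  simp only [MulOpposite.op_one, one_smul, h1]
  ring

lemma chiM_injective (hψ : ψ ≠ 1) (h2 : (2 : F) ≠ 0) :
    Function.Injective (fun M : SymA n F => chiM ψ M.1) := by
  intro M M' hMM
  by_contra hne
  set D := M.1 - M'.1 with hD
  have hDs : Dᵀ = D := by
    rw [hD, Matrix.transpose_sub]
    rw [show M.1ᵀ = M.1 from M.2, show M'.1ᵀ = M'.1 from M'.2]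
  have hD0 : D ≠ 0 := by
    intro h0
    apply hne
    apply Subtype.ext
    exact sub_eq_zero.1 h0
  have hall : ∀ S : SymA n F, ψ (Matrix.trace (D * S.1)) = 1 := by
    intro S
    have h3 := chiM_sub ψ M.1 M'.1 S
    have h4 : chiM ψ M.1 S = chiM ψ M'.1 S := by
      have := congrArg (fun χ : AddChar (SymA n F) ℂ => χ S) hMM
      exact this
    rw [h4] at h3
    have h5 : chiM ψ M'.1 S ≠ 0 := by
      have h7 : chiM ψ M'.1 S * chiM ψ M'.1 (-S) = 1 := by
        rw [← AddChar.map_add_eq_mul]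
        simp
      exact left_ne_zero_of_mul_eq_one h7
    have h6 : chiM ψ (M.1 - M'.1) S = 1 := by
      apply mul_right_cancel₀ h5
      rw [← h3, one_mul]
    exact h6
  obtain ⟨i, j, hij⟩ : ∃ i j, D i j ≠ 0 := by
    by_contra hcon
    push Not at hcon
    apply hD0
    ext i j
    exact hcon i j
  obtain ⟨t, ht⟩ := AddChar.ne_one_iff.1 hψ
  let S₀ : Matrix (Fin n) (Fin n) F :=
    (t * (2 * D i j)⁻¹) • (Matrix.single i j 1 + Matrix.single j i 1)
  have hS₀ : S₀ᵀ = S₀ := by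
    simp only [S₀, Matrix.transpose_smul, Matrix.transpose_add, Matrix.transpose_single]
    rw [add_comm]
  have h3 := hall ⟨S₀, hS₀⟩
  have h4 : Matrix.trace (D * S₀) = t := by
    simp only [S₀, Matrix.mul_smul, Matrix.trace_smul, smul_eq_mul]
    rw [trace_single_add hDs]
    field_simp
  apply ht
  rw [← h4]
  exact h3

lemma chiM_bijective (hψ : ψ ≠ 1) (h2 : (2 : F) ≠ 0) :
    Function.Bijective (fun M : SymA n F => chiM ψ M.1) := by
  rw [Fintype.bijective_iff_injective_and_card, AddChar.card_eq]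
  exact ⟨chiM_injective ψ hψ h2, rfl⟩

/-- The congruence on the Siegel radical. -/
def phiU (u : GL (Fin n) F) : SymA n F ≃+ SymA n F where
  toFun S := ⟨u.1ᵀ * S.1 * u.1, by
    have hS : S.1ᵀ = S.1 := S.2
    change (u.1ᵀ * S.1 * u.1)ᵀ = _
    rw [Matrix.transpose_mul, Matrix.transpose_mul, Matrix.transpose_transpose, hS, mul_assoc]⟩
  invFun S := ⟨(u⁻¹).1ᵀ * S.1 * (u⁻¹).1, by
    have hS : S.1ᵀ = S.1 := S.2
    change ((u⁻¹).1ᵀ * S.1 * (u⁻¹).1)ᵀ = _
    rw [Matrix.transpose_mul, Matrix.transpose_mul, Matrix.transpose_transpose, hS, mul_assoc]⟩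
  left_inv S := by
    apply Subtype.ext
    have h1 : u⁻¹.1 * u.1 = 1 := Units.inv_mul u
    have h2 : u.1 * u⁻¹.1 = 1 := Units.mul_inv u
    have h3 : (u⁻¹).1ᵀ * u.1ᵀ = 1 := by rw [← Matrix.transpose_mul, h2, Matrix.transpose_one]
    change (u⁻¹).1ᵀ * (u.1ᵀ * S.1 * u.1) * (u⁻¹).1 = S.1
    calc (u⁻¹).1ᵀ * (u.1ᵀ * S.1 * u.1) * (u⁻¹).1
        = ((u⁻¹).1ᵀ * u.1ᵀ) * S.1 * (u.1 * (u⁻¹).1) := by noncomm_ring
      _ = S.1 := by rw [h2, h3, one_mul, mul_one]
  right_inv S := by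
    apply Subtype.ext
    have h1 : u⁻¹.1 * u.1 = 1 := Units.inv_mul u
    have h2 : u.1 * u⁻¹.1 = 1 := Units.mul_inv u
    have h3 : u.1ᵀ * (u⁻¹).1ᵀ = 1 := by rw [← Matrix.transpose_mul, h1, Matrix.transpose_one]
    change u.1ᵀ * ((u⁻¹).1ᵀ * S.1 * (u⁻¹).1) * u.1 = S.1
    calc u.1ᵀ * ((u⁻¹).1ᵀ * S.1 * (u⁻¹).1) * u.1
        = (u.1ᵀ * (u⁻¹).1ᵀ) * S.1 * ((u⁻¹).1 * u.1) := by noncomm_ring
      _ = S.1 := by rw [h1, h3, one_mul, mul_one]
  map_add' a b := by
    apply Subtype.ext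
    change u.1ᵀ * (a.1 + b.1) * u.1 = u.1ᵀ * a.1 * u.1 + u.1ᵀ * b.1 * u.1
    noncomm_ring

lemma phiU_coe (u : GL (Fin n) F) (S : SymA n F) : (phiU u S).1 = u.1ᵀ * S.1 * u.1 := rfl

lemma levi_conj (u : GL (Fin n) F) (S : SymA n F) :
    levi u⁻¹ * xS S.1 S.2 = xS (phiU u S).1 (phiU u S).2 * levi u⁻¹ := by
  apply Subtype.ext
  change fromBlocks ((u⁻¹⁻¹).1)ᵀ 0 0 u⁻¹.1 * fromBlocks 1 S.1 0 1 =
    fromBlocks 1 (u.1ᵀ * S.1 * u.1) 0 1 * fromBlocks ((u⁻¹⁻¹).1)ᵀ 0 0 u⁻¹.1
  have h2 : u.1 * u⁻¹.1 = 1 := Units.mul_inv u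
  rw [fromBlocks_multiply, fromBlocks_multiply, inv_inv]
  simp only [mul_one, mul_zero, add_zero, zero_add, zero_mul, one_mul]
  rw [mul_assoc, h2, mul_one]

lemma chiM_comp (u : GL (Fin n) F) (M : Matrix (Fin n) (Fin n) F) :
    (chiM ψ M).compAddMonoidHom (phiU u).toAddMonoidHom = chiM ψ (u.1 * M * u.1ᵀ) := by
  ext S
  simp only [AddChar.compAddMonoidHom_apply, AddEquiv.toAddMonoidHom_eq_coe, chiM_apply]
  congr 1
  change Matrix.trace (M * (u.1ᵀ * S.1 * u.1)) = _
  rw [show M * (u.1ᵀ * S.1 * u.1) = (M * u.1ᵀ * S.1) * u.1 by noncomm_ring, Matrix.trace_mul_comm]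
  congr 1
  noncomm_ring

open Classical in
/-- The support of the restriction to the Siegel radical. -/
noncomputable def Om : Finset (Matrix (Fin n) (Fin n) F) :=
  (Finset.univ.filter (fun S : SymA n F => eA (rA R) (chiM ψ S.1) ≠ 0)).image Subtype.val

lemma mem_Om {M : Matrix (Fin n) (Fin n) F} :
    M ∈ Om R ψ ↔ Mᵀ = M ∧ eA (rA R) (chiM ψ M) ≠ 0 := by
  classical
  unfold Om
  simp only [Finset.mem_image, Finset.mem_filter, Finset.mem_univ, true_and]
  constructor
  · rintro ⟨S, hS, rfl⟩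
    exact ⟨S.2, hS⟩
  · rintro ⟨h1, h2⟩
    exact ⟨⟨M, h1⟩, h2, rfl⟩

/-- A unit from `1 + p rᵀ`. -/
def gUnit (p r : Fin n → F) (hc : 1 + r ⬝ᵥ p ≠ 0) : GL (Fin n) F where
  val := gMat p r
  inv := 1 - (1 + r ⬝ᵥ p)⁻¹ • vecMulVec p r
  val_inv := gMat_mul p r _ (mul_inv_cancel₀ hc)
  inv_val := mul_gMat p r _ (mul_inv_cancel₀ hc)

lemma Om_stab : Stab Finset.univ (Om R ψ) := by
  classical
  refine ⟨fun M hM => ((mem_Om R ψ).1 hM).1, fun M _ a b ha => absurd (Finset.mem_univ a) ha, ?_⟩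
  intro M hM p r _ _ hc
  obtain ⟨hMs, hMe⟩ := (mem_Om R ψ).1 hM
  have hc' : 1 + p ⬝ᵥ r ≠ 0 := by rwa [dotProduct_comm]
  set u := gUnit r p hc' with hu
  have huval : u.1 = gMat r p := rfl
  have hop : op p r M = u.1 * M * u.1ᵀ := by
    rw [← congr_eq_op p r M hMs, gMat_transpose, huval, gMat_transpose]
  rw [mem_Om, hop]
  have hsym : (u.1 * M * u.1ᵀ)ᵀ = u.1 * M * u.1ᵀ := by
    rw [Matrix.transpose_mul, Matrix.transpose_mul, Matrix.transpose_transpose, hMs, mul_assoc]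
  refine ⟨hsym, ?_⟩
  intro h0
  apply hMe
  rw [← chiM_comp] at h0
  have h1 := conj_eA (A := SymA n F) (r := rA R) (T := R (levi u⁻¹)) (phiU u)
    (fun a => by
      unfold rA
      rw [← map_mul, ← map_mul]
      exact congrArg R (levi_conj u a)) (chiM ψ M)
  rw [h0, mul_zero] at h1
  have h2 : R (levi u⁻¹) * R (levi u⁻¹)⁻¹ = 1 := by rw [← map_mul, mul_inv_cancel, map_one]
  have h3 : R (levi u⁻¹)⁻¹ * R (levi u⁻¹) = 1 := by rw [← map_mul, inv_mul_cancel, map_one]
  calc eA (rA R) (chiM ψ M) = eA (rA R) (chiM ψ M) * (R (levi u⁻¹) * R (levi u⁻¹)⁻¹) := by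
        rw [h2, mul_one]
    _ = (eA (rA R) (chiM ψ M) * R (levi u⁻¹)) * R (levi u⁻¹)⁻¹ := by rw [mul_assoc]
    _ = 0 := by rw [← h1, zero_mul]

lemma card_Om_le (hψ : ψ ≠ 1) (h2 : (2 : F) ≠ 0) : (Om R ψ).card ≤ k := by
  classical
  have hbij := chiM_bijective (n := n) ψ hψ h2
  have h3 : k = ∑ χ : AddChar (SymA n F) ℂ, rk (eA (rA R) χ) := by
    rw [← rk_sum]
    · rw [sum_eA (rA_zero R), rk_one]
    · intro χ _
      exact eA_idem (rA_add R) χ
    · rw [sum_eA (rA_zero R), mul_one]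
  refine le_trans ?_ (le_of_eq h3.symm)
  have h4 : ∑ χ : AddChar (SymA n F) ℂ, rk (eA (rA R) χ) =
      ∑ M : SymA n F, rk (eA (rA R) (chiM ψ M.1)) :=
    (hbij.sum_comp (fun χ => rk (eA (rA R) χ))).symm
  rw [h4]
  calc (Om R ψ).card ≤ (Finset.univ.filter (fun S : SymA n F => eA (rA R) (chiM ψ S.1) ≠ 0)).card :=
        Finset.card_image_le
    _ = ∑ M ∈ Finset.univ.filter (fun S : SymA n F => eA (rA R) (chiM ψ S.1) ≠ 0), 1 := by
        rw [Finset.card_eq_sum_ones]
    _ ≤ ∑ M ∈ Finset.univ.filter (fun S : SymA n F => eA (rA R) (chiM ψ S.1) ≠ 0),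
          rk (eA (rA R) (chiM ψ M.1)) := by
        apply Finset.sum_le_sum
        intro M hM
        exact rk_pos_of_ne (eA_idem (rA_add R) _) (Finset.mem_filter.1 hM).2
    _ ≤ _ := Finset.sum_le_sum_of_subset (Finset.filter_subset _ _)

/-- If the radical acts nontrivially there is a nonzero element in the support. -/
lemma exists_Om_ne (hψ : ψ ≠ 1) (h2 : (2 : F) ≠ 0) (hne : ∃ S : SymA n F, rA R S ≠ 1) :
    ∃ M ∈ Om R ψ, M ≠ 0 := by
  classical
  by_contra hcon
  push Not at hcon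
  obtain ⟨S, hS⟩ := hne
  apply hS
  rw [← rA_zero R, r_eq_sum (rA_zero R) (rA_add R) S, r_eq_sum (rA_zero R) (rA_add R) 0]
  apply Finset.sum_congr rfl
  intro χ _
  by_cases h0 : eA (rA R) χ = 0
  · rw [h0, smul_zero, smul_zero]
  · obtain ⟨M, rfl⟩ := (chiM_bijective (n := n) ψ hψ h2).2 χ
    have h3 : (M.1 : Matrix (Fin n) (Fin n) F) = 0 := hcon _ ((mem_Om R ψ).2 ⟨M.2, h0⟩)
    simp only [h3, chiM_zero]
    simp

lemma sympForm_single (x : Fin n ⊕ Fin n → F) (i : Fin n) :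
    sympForm n F x (Pi.single (Sum.inl i) 1) = x (Sum.inr i) := by
  rw [sympForm_apply]
  simp [Pi.single_apply]

/-- The transvection along a basis vector lies in the Siegel radical. -/
lemma transvElt_ee (i : Fin n) (c : F) :
    transvElt (Pi.single (Sum.inl i) 1 : Fin n ⊕ Fin n → F) c =
      xS (Matrix.single i i c) (by rw [Matrix.transpose_single]) := by
  apply Subtype.ext
  apply Matrix.mulVec_injective
  funext x
  change sympTransvection n _ c *ᵥ x = act (xS _ _) x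
  rw [mulVec_sympTransvection, sympForm_single]
  funext l
  rcases l with l | l
  · have h := congrFun (pr1_act_xS (Matrix.single i i c) (by rw [Matrix.transpose_single]) x) l
    refine Eq.trans ?_ h.symm
    simp only [pr1, pr2, Pi.add_apply, Pi.smul_apply, smul_eq_mul, Matrix.single_mulVec]
    by_cases hl : l = i
    · subst hl
      simp
    · have h3 : i ≠ l := fun e => hl e.symm
      simp [Pi.single_apply, hl]
  · have h := congrFun (pr2_act_xS (Matrix.single i i c) (by rw [Matrix.transpose_single]) x) l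
    refine Eq.trans ?_ h.symm
    simp [pr2, Pi.single_apply]

lemma conj_transv (g : SpG n F) (v : Fin n ⊕ Fin n → F) (c : F) :
    g * transvElt v c = transvElt (g.1 *ᵥ v) c * g := by
  apply Subtype.ext
  apply Matrix.mulVec_injective
  funext x
  change (g.1 * sympTransvection n v c) *ᵥ x = (sympTransvection n (g.1 *ᵥ v) c * g.1) *ᵥ x
  rw [← mulVec_mulVec, ← mulVec_mulVec, mulVec_sympTransvection, mulVec_sympTransvection,
    mulVec_add, mulVec_smul, (mem_symplecticGroup_iff_preserves g.1).1 g.2 x v]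

/-- If the Siegel radical is in the kernel, `R` is trivial. -/
theorem R_trivial (hn : 1 ≤ n) (h : ∀ S : SymA n F, rA R S = 1) (g : SpG n F) : R g = 1 := by
  classical
  set i : Fin n := ⟨0, by omega⟩
  set e : Fin n ⊕ Fin n → F := Pi.single (Sum.inl i) 1 with he
  have he0 : e ≠ 0 := by
    intro h0
    have := congrFun h0 (Sum.inl i)
    simp [he] at this
  have hbase : ∀ c : F, R (transvElt e c) = 1 := by
    intro c
    rw [he, transvElt_ee]
    exact h ⟨Matrix.single i i c, by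
      change (Matrix.single i i c)ᵀ = _
      rw [Matrix.transpose_single]⟩
  have hconj : ∀ (w : Fin n ⊕ Fin n → F) (c : F), w ≠ 0 → R (transvElt w c) = 1 := by
    intro w c hw
    obtain ⟨A, _, hA⟩ := exists_transv_vector he0 hw
    have h1 : A * transvElt e c = transvElt w c * A := by
      rw [conj_transv, hA]
    have h2 : R A * R A⁻¹ = 1 := by rw [← map_mul, mul_inv_cancel, map_one]
    have h3 : R (transvElt w c) * R A = R A := by
      rw [← map_mul, ← h1, map_mul, hbase, mul_one]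
    calc R (transvElt w c) = R (transvElt w c) * (R A * R A⁻¹) := by rw [h2, mul_one]
      _ = (R (transvElt w c) * R A) * R A⁻¹ := by rw [mul_assoc]
      _ = 1 := by rw [h3, h2]
  have hg : g ∈ transvGroup n F := by
    rw [Cfsg.Agent.Lib.SympGen.transvGroup_eq_top]
    exact Subgroup.mem_top g
  induction hg using Subgroup.closure_induction with
  | mem A hA =>
    obtain ⟨w, c, hA⟩ := hA
    have hAeq : A = transvElt w c := by
      apply Subtype.ext
      exact hA
    rw [hAeq]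
    by_cases hw : w = 0
    · have : transvElt w c = (1 : SpG n F) := by
        apply Subtype.ext
        apply Matrix.mulVec_injective
        funext x
        change sympTransvection n w c *ᵥ x = (1 : Matrix _ _ F) *ᵥ x
        rw [mulVec_sympTransvection, hw, one_mulVec]
        simp
      rw [this, map_one]
    · exact hconj w c hw
  | one => exact map_one R
  | mul x y _ _ hx hy => rw [map_mul, hx, hy, one_mul]
  | inv x _ hx =>
    have h3 : R x⁻¹ * R x = 1 := by rw [← map_mul, inv_mul_cancel, map_one]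
    rw [hx, mul_one] at h3
    exact h3

/-- The lower bound for matrix representations with a nontrivial radical. -/
theorem bound_of_ne (h2 : (2 : F) ≠ 0) (hψ : ψ ≠ 1) (hne : ∃ S : SymA n F, rA R S ≠ 1) :
    Fintype.card F ^ n ≤ 2 * k + 1 := by
  classical
  have h3 := orbit_bound (F := F) h2 n (Finset.univ : Finset (Fin n)) (by simp) (Om R ψ) (Om_stab R ψ)
    (exists_Om_ne R ψ hψ h2 hne)
  have h5 := card_Om_le R ψ hψ h2
  exact le_trans h3 (Nat.add_le_add_right
    (Nat.mul_le_mul_left 2 (le_trans (Finset.card_le_card (Finset.filter_subset _ _)) h5)) 1)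

/-- The lower bound for irreducible representations. -/
theorem sp_odd_min_degree (hn : 1 ≤ n) (h2 : (2 : F) ≠ 0) (k : ℕ)
    (ρ : Representation ℂ (Matrix.symplecticGroup (Fin n) F) (Fin k → ℂ)) (hρ : ρ.IsIrreducible)
    (hk : 2 ≤ k) : (Fintype.card F ^ n - 1) / 2 ≤ k := by
  classical
  obtain ⟨ψ, hψ⟩ : ∃ ψ : AddChar F ℂ, ψ ≠ 1 := by
    by_contra hcon
    push Not at hcon
    have h3 : Fintype.card (AddChar F ℂ) = 1 := Fintype.card_eq_one_iff.2 ⟨1, hcon⟩
    rw [AddChar.card_eq] at h3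
    have h4 : Fintype.card F ≠ 1 := by
      have := Fintype.one_lt_card (α := F)
      omega
    exact h4 h3
  let R : SpG n F →* Matrix (Fin k) (Fin k) ℂ :=
    ((Matrix.toLinAlgEquiv' (R := ℂ) (n := Fin k)).symm.toAlgHom.toRingHom.toMonoidHom).comp
      (ρ : _ →* _)
  have hRρ : ∀ g, R g = 1 → ρ g = 1 := by
    intro g hg
    have h1 : (Matrix.toLinAlgEquiv' (R := ℂ) (n := Fin k)).symm (ρ g) =
        (Matrix.toLinAlgEquiv' (R := ℂ) (n := Fin k)).symm 1 := by
      rw [map_one]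
      exact hg
    exact (Matrix.toLinAlgEquiv' (R := ℂ) (n := Fin k)).symm.injective h1
  have hb : Fintype.card F ^ n ≤ 2 * k + 1 := by
    apply bound_of_ne R ψ h2 hψ
    by_contra hR
    push Not at hR
    have htriv : ∀ g, ρ g = 1 := fun g => hRρ g (R_trivial R hn hR g)
    obtain ⟨_, hirr⟩ := (Cfsg.Agent.Lib.CharBasic.isIrreducible_iff ρ).1 hρ
    let i0 : Fin k := ⟨0, by omega⟩
    let i1 : Fin k := ⟨1, by omega⟩
    have hi : i1 ≠ i0 := by simp [i0, i1, Fin.ext_iff]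
    let U : Submodule ℂ (Fin k → ℂ) := Submodule.span ℂ {Pi.single i0 1}
    have hU : ∀ g, ∀ v ∈ U, ρ g v ∈ U := by
      intro g v hv
      rw [htriv g]
      exact hv
    rcases hirr U hU with h1 | h1
    · have h2 : (Pi.single i0 1 : Fin k → ℂ) ∈ U := Submodule.mem_span_singleton_self _
      rw [h1, Submodule.mem_bot] at h2
      have h3 := congrFun h2 i0
      simp at h3
    · have h2 : (Pi.single i1 1 : Fin k → ℂ) ∈ U := by
        rw [h1]
        exact Submodule.mem_top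
      obtain ⟨c, hc'⟩ := Submodule.mem_span_singleton.1 h2
      have h3 := congrFun hc' i1
      simp [Pi.single_apply, hi] at h3
  omega

end Cfsg.Agent.Lib.SpOddLower
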