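import Mathlib
import Cfsg.Agent.Lib.SpBasic

/-!
# Root elements of the symplectic group built from transvections

`E a b c = T (a + b) c * T a (-c) * T b (-c)`: for `ω a b = 0` it is the map
`x ↦ x + c ω(a,x) b + c ω(b,x) a`.
-/

set_option autoImplicit false

namespace Cfsg.Agent.Lib.SpRegGen

open Matrix Cfsg.Agent.Lib.SpBasic

section ECalc

variable {l F : Type*} [Fintype l] [DecidableEq l] [Field F]

/-- The long/short root type element attached to a pair of orthogonal vectors. -/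
def E (a b : l ⊕ l → F) (c : F) : Sp l F := T (a + b) c * T a (-c) * T b (-c)

lemma E_conj (g : Sp l F) (a b : l ⊕ l → F) (c : F) :
    g * E a b c * g⁻¹ = E (g • a) (g • b) c := by
  have : g * E a b c * g⁻¹ =
      (g * T (a + b) c * g⁻¹) * (g * T a (-c) * g⁻¹) * (g * T b (-c) * g⁻¹) := by
    simp only [E]; group
  rw [this, T_conj, T_conj, T_conj, smul_add, E]

lemma E_mem_conj {H : Subgroup (Sp l F)} {g : Sp l F} (hg : g ∈ H) {a b : l ⊕ l → F} {c : F}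
    (h : E a b c ∈ H) : E (g • a) (g • b) c ∈ H := by
  rw [← E_conj]
  exact mul_mem (mul_mem hg h) (inv_mem hg)

lemma T_mem_conj {H : Subgroup (Sp l F)} {g : Sp l F} (hg : g ∈ H) {a : l ⊕ l → F} {c : F}
    (h : T a c ∈ H) : T (g • a) c ∈ H := by
  rw [← T_conj]
  exact mul_mem (mul_mem hg h) (inv_mem hg)

lemma T_add_eq (a b : l ⊕ l → F) (c : F) : T (a + b) c = E a b c * T b c * T a c := by
  simp only [E]
  rw [mul_assoc (T (a + b) c * T a (-c)), T_mul, neg_add_cancel, T_zero_right, mul_one,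
    mul_assoc, T_mul, neg_add_cancel, T_zero_right, mul_one]

lemma E_smul {a b : l ⊕ l → F} (h : ω a b = 0) (c : F) (x : l ⊕ l → F) :
    E a b c • x = x + (c * ω a x) • b + (c * ω b x) • a := by
  have h' : ω b a = 0 := by rw [ω_comm, h, neg_zero]
  simp only [E, mul_smul, T_smul, ω_add_left, ω_add_right, ω_smul_right, ω_self, h, h', mul_zero,
    add_zero, zero_add]
  module

lemma E_comm {a b : l ⊕ l → F} (h : ω a b = 0) (c : F) : E a b c = E b a c := by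
  have h' : ω b a = 0 := by rw [ω_comm, h, neg_zero]
  apply Sp_ext
  intro x
  rw [E_smul h, E_smul h']
  module

lemma E_neg_right {a b : l ⊕ l → F} (h : ω a b = 0) (c : F) : E a (-b) c = (E a b c)⁻¹ := by
  have h1 : ω a (-b) = 0 := by rw [ω_neg_right, h, neg_zero]
  have h' : ω b a = 0 := by rw [ω_comm, h, neg_zero]
  rw [eq_inv_iff_mul_eq_one]
  apply Sp_ext
  intro x
  simp only [mul_smul, one_smul]
  rw [E_smul h, E_smul h1]
  simp only [ω_neg_left, ω_add_right, ω_smul_right, ω_self, h, h', mul_zero, add_zero]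
  module

lemma E_neg_coef {a b : l ⊕ l → F} (h : ω a b = 0) (c : F) : E a b (-c) = (E a b c)⁻¹ := by
  have h' : ω b a = 0 := by rw [ω_comm, h, neg_zero]
  rw [eq_inv_iff_mul_eq_one]
  apply Sp_ext
  intro x
  simp only [mul_smul, one_smul]
  rw [E_smul h, E_smul h]
  simp only [ω_add_right, ω_smul_right, ω_self, h, h', mul_zero, add_zero]
  module

lemma E_smul_right {a b : l ⊕ l → F} (h : ω a b = 0) (r c : F) : E a (r • b) c = E a b (r * c) := by
  have h1 : ω a (r • b) = 0 := by rw [ω_smul_right, h, mul_zero]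
  apply Sp_ext
  intro x
  rw [E_smul h1, E_smul h, ω_smul_left]
  module

lemma E_add_right {a b b' : l ⊕ l → F} (h : ω a b = 0) (h' : ω a b' = 0) (c : F) :
    E a (b + b') c = E a b c * E a b' c * T a (-(c ^ 2 * ω b b')) := by
  have h1 : ω a (b + b') = 0 := by rw [ω_add_right, h, h', add_zero]
  have h2 : ω b a = 0 := by rw [ω_comm, h, neg_zero]
  have h3 : ω b' a = 0 := by rw [ω_comm, h', neg_zero]
  apply Sp_ext
  intro x
  simp only [mul_smul]
  rw [E_smul h1, E_smul h, E_smul h', T_smul]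
  simp only [ω_add_left, ω_add_right, ω_smul_right, ω_self, h, h', h2, h3, mul_zero, add_zero,
    zero_add]
  module

lemma E_add_left {a a' b : l ⊕ l → F} (h : ω a b = 0) (h' : ω a' b = 0) (c : F) :
    E (a + a') b c = E a b c * E a' b c * T b (-(c ^ 2 * ω a a')) := by
  have h1 : ω (a + a') b = 0 := by rw [ω_add_left, h, h', add_zero]
  have h2 : ω b a = 0 := by rw [ω_comm, h, neg_zero]
  have h3 : ω b a' = 0 := by rw [ω_comm, h', neg_zero]
  rw [E_comm h1, E_add_right h2 h3, E_comm h2, E_comm h3]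

lemma E_mem_neg_coef {H : Subgroup (Sp l F)} {a b : l ⊕ l → F} (hab : ω a b = 0) {c : F}
    (h : E a b c ∈ H) : E a b (-c) ∈ H := by
  rw [E_neg_coef hab]
  exact inv_mem h

end ECalc


section Vectors

variable {n : ℕ} {F : Type*} [Field F]

/-- The coordinate function at `k`. -/
def δ (n : ℕ) (F : Type*) [Field F] (k : ℕ) : Fin n → F := fun i => if (i : ℕ) = k then 1 else 0

/-- The vector `e_k`, zero if `n ≤ k`. -/
def e (k : ℕ) : Fin n ⊕ Fin n → F := Sum.elim 0 (δ n F k)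

/-- The vector `f_k`, zero if `n ≤ k`. -/
def f (k : ℕ) : Fin n ⊕ Fin n → F := Sum.elim (δ n F k) 0

lemma δ_eq {k : ℕ} (h : k < n) : δ n F k = Pi.single ⟨k, h⟩ 1 := by
  funext i
  simp [δ, Pi.single_apply, Fin.ext_iff]

lemma e_eq {k : ℕ} (h : k < n) : (e k : Fin n ⊕ Fin n → F) = eR ⟨k, h⟩ := by
  funext i
  rcases i with i | i
  · simp [e]
  · simp [e, δ, Pi.single_apply, Fin.ext_iff]

lemma f_eq {k : ℕ} (h : k < n) : (f k : Fin n ⊕ Fin n → F) = eL ⟨k, h⟩ := by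
  funext i
  rcases i with i | i
  · simp [f, δ, Pi.single_apply, Fin.ext_iff]
  · simp [f]

lemma ω_e_e (i j : ℕ) : ω (e i) (e j : Fin n ⊕ Fin n → F) = 0 := by
  simp [ω_apply, e]

lemma ω_f_f (i j : ℕ) : ω (f i) (f j : Fin n ⊕ Fin n → F) = 0 := by
  simp [ω_apply, f]

lemma ω_e_f_ne {i j : ℕ} (h : i ≠ j) : ω (e i) (f j : Fin n ⊕ Fin n → F) = 0 := by
  rw [ω_apply]
  apply Finset.sum_eq_zero
  intro l _
  simp only [e, f, Sum.elim_inl, Sum.elim_inr, Pi.zero_apply, δ]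
  split_ifs <;> simp_all


lemma ω_e_f_self {i : ℕ} (h : i < n) : ω (e i) (f i : Fin n ⊕ Fin n → F) = 1 := by
  rw [f_eq h, ω_eL_right]
  simp [e, δ]

lemma ω_f_e_ne {i j : ℕ} (h : i ≠ j) : ω (f i) (e j : Fin n ⊕ Fin n → F) = 0 := by
  rw [ω_comm, ω_e_f_ne h.symm, neg_zero]

lemma ω_f_e_self {i : ℕ} (h : i < n) : ω (f i) (e i : Fin n ⊕ Fin n → F) = -1 := by
  rw [ω_comm, ω_e_f_self h]

lemma ω_e_left (x : Fin n ⊕ Fin n → F) {k : ℕ} (h : k < n) : ω (e k) x = x (Sum.inl ⟨k, h⟩) := by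
  rw [ω_comm, e_eq h, ω_eR_right, neg_neg]

lemma ω_f_left (x : Fin n ⊕ Fin n → F) {k : ℕ} (h : k < n) : ω (f k) x = - x (Sum.inr ⟨k, h⟩) := by
  rw [ω_comm, f_eq h, ω_eL_right]

lemma e_ne_zero {k : ℕ} (h : k < n) : (e k : Fin n ⊕ Fin n → F) ≠ 0 := by
  intro h0
  have := congrFun h0 (Sum.inr ⟨k, h⟩)
  simp [e, δ] at this

/-- A symplectic element fixing a vector `x`, `T x 0` style: transvections fix orthogonal vectors. -/
lemma T_smul_of_ω {a x : Fin n ⊕ Fin n → F} (h : ω a x = 0) (c : F) : T a c • x = x := by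
  rw [T_smul, h]
  simp

end Vectors

section Levi

variable {n : ℕ} {F : Type*} [Field F]

/-- The Levi embedding: `M` acts on the span of the `e_k`, and `M⁻ᵀ` on that of the `f_k`. -/
def Lev (M : (Matrix (Fin n) (Fin n) F)ˣ) : Sp (Fin n) F :=
  ⟨fromBlocks ((M⁻¹ : (Matrix (Fin n) (Fin n) F)ˣ).1)ᵀ 0 0 M.1, by
    rw [SymplecticGroup.mem_iff, J, fromBlocks_transpose, fromBlocks_multiply, fromBlocks_multiply]
    have h1 : M.1 * (M⁻¹ : (Matrix (Fin n) (Fin n) F)ˣ).1 = 1 := M.mul_inv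
    have h2 : ((M⁻¹ : (Matrix (Fin n) (Fin n) F)ˣ).1)ᵀ * M.1ᵀ = 1 := by
      rw [← transpose_mul, h1, transpose_one]
    generalize (M⁻¹ : (Matrix (Fin n) (Fin n) F)ˣ).1 = P at h1 h2 ⊢
    simp [h1, h2]⟩

lemma Lev_val (M : (Matrix (Fin n) (Fin n) F)ˣ) :
    (Lev M).1 = fromBlocks ((M⁻¹ : (Matrix (Fin n) (Fin n) F)ˣ).1)ᵀ 0 0 M.1 := rfl

lemma Lev_mul (M N : (Matrix (Fin n) (Fin n) F)ˣ) : Lev (M * N) = Lev M * Lev N := by
  apply Subtype.ext
  change (Lev (M * N)).1 = (Lev M).1 * (Lev N).1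
  rw [Lev_val, Lev_val, Lev_val, fromBlocks_multiply, _root_.mul_inv_rev, Units.val_mul, Units.val_mul,
    transpose_mul]
  simp

lemma Lev_one : Lev (1 : (Matrix (Fin n) (Fin n) F)ˣ) = 1 := by
  apply Subtype.ext
  change (Lev (1 : (Matrix (Fin n) (Fin n) F)ˣ)).1 = 1
  rw [Lev_val]
  simp

lemma Lev_inv (M : (Matrix (Fin n) (Fin n) F)ˣ) : Lev M⁻¹ = (Lev M)⁻¹ := by
  rw [eq_inv_iff_mul_eq_one, ← Lev_mul, inv_mul_cancel, Lev_one]

lemma Lev_elim (M : (Matrix (Fin n) (Fin n) F)ˣ) (a b : Fin n → F) :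
    Lev M • (Sum.elim a b : Fin n ⊕ Fin n → F) =
      Sum.elim (((M⁻¹ : (Matrix (Fin n) (Fin n) F)ˣ).1)ᵀ *ᵥ a) (M.1 *ᵥ b) := by
  rw [Sp_smul_def, Lev_val, fromBlocks_mulVec]
  funext i
  rcases i with i | i <;> simp [Function.comp_def]

lemma Lev_e (M : (Matrix (Fin n) (Fin n) F)ˣ) (k : ℕ) :
    Lev M • (e k : Fin n ⊕ Fin n → F) = (Sum.elim 0 (M.1 *ᵥ δ n F k) : Fin n ⊕ Fin n → F) := by
  rw [e, Lev_elim, mulVec_zero]

lemma Lev_f (M : (Matrix (Fin n) (Fin n) F)ˣ) (k : ℕ) :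
    Lev M • (f k : Fin n ⊕ Fin n → F) =
      (Sum.elim (((M⁻¹ : (Matrix (Fin n) (Fin n) F)ˣ).1)ᵀ *ᵥ δ n F k) 0 : Fin n ⊕ Fin n → F) := by
  rw [f, Lev_elim, mulVec_zero]

lemma mulVec_δ (B : Matrix (Fin n) (Fin n) F) {k : ℕ} (h : k < n) :
    B *ᵥ δ n F k = fun i => B i ⟨k, h⟩ := by
  rw [δ_eq h]
  funext i
  simp [Matrix.mulVec_single_one]

/-- The unit upper bidiagonal matrix. -/
def Am (n : ℕ) (F : Type*) [Field F] : Matrix (Fin n) (Fin n) F :=
  of fun i j => if (i : ℕ) = j ∨ (i : ℕ) + 1 = j then 1 else 0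

lemma Am_det : (Am n F).det = 1 := by
  rw [det_of_upperTriangular]
  · simp [Am]
  · intro i j hij
    change (j : ℕ) < i at hij
    simp only [Am, of_apply]
    rw [if_neg]
    omega

/-- The unit `Am`. -/
noncomputable def Au (n : ℕ) (F : Type*) [Field F] : (Matrix (Fin n) (Fin n) F)ˣ :=
  nonsingInvUnit (Am n F) (by rw [Am_det]; exact isUnit_one)

lemma Au_val : (Au n F).1 = Am n F := rfl

/-- The Levi part of the regular unipotent element. -/
noncomputable def L (n : ℕ) (F : Type*) [Field F] : Sp (Fin n) F := Lev (Au n F)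

lemma L_e0 (hn : 0 < n) : L n F • (e 0 : Fin n ⊕ Fin n → F) = e 0 := by
  rw [L, Lev_e, Au_val, mulVec_δ _ hn, e]
  congr 1
  funext i
  simp only [Am, of_apply, δ]
  by_cases h : (i : ℕ) = 0 <;> simp [h]

lemma L_e {k : ℕ} (hk : k + 1 < n) :
    L n F • (e (k + 1) : Fin n ⊕ Fin n → F) = e (k + 1) + e k := by
  rw [L, Lev_e, Au_val, mulVec_δ _ hk]
  funext i
  rcases i with i | i
  · simp [e]
  · simp only [Am, of_apply, e, Pi.add_apply, Sum.elim_inr, δ]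
    by_cases h1 : (i : ℕ) = k + 1
    · have : (i : ℕ) ≠ k := by omega
      simp [h1]
    · by_cases h2 : (i : ℕ) = k
      · simp [h2]
      · have : ¬ ((i : ℕ) + 1 = k + 1) := by omega
        simp [h1, h2]

lemma Linv_f {k : ℕ} (hk : k + 1 < n) :
    (L n F)⁻¹ • (f k : Fin n ⊕ Fin n → F) = f k + f (k + 1) := by
  rw [L, ← Lev_inv, Lev_f, inv_inv, Au_val, mulVec_δ _ (by omega : k < n)]
  funext i
  rcases i with i | i
  · simp only [Am, transpose_apply, of_apply, f, Pi.add_apply, Sum.elim_inl, δ]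
    by_cases h1 : (i : ℕ) = k
    · have : (i : ℕ) ≠ k + 1 := by omega
      simp [h1]
    · by_cases h2 : (i : ℕ) = k + 1
      · simp [h2]
      · have h3 : ¬ (k = (i : ℕ)) := by omega
        have h4 : ¬ (k + 1 = (i : ℕ)) := by omega
        simp [h1, h2, h3, h4]
  · simp [f]

lemma Linv_f_last (hn : 0 < n) :
    (L n F)⁻¹ • (f (n - 1) : Fin n ⊕ Fin n → F) = f (n - 1) := by
  rw [L, ← Lev_inv, Lev_f, inv_inv, Au_val, mulVec_δ _ (by omega : n - 1 < n)]
  funext i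
  rcases i with i | i
  · simp only [Am, transpose_apply, of_apply, f, Sum.elim_inl, δ]
    have := i.2
    by_cases h1 : (i : ℕ) = n - 1
    · simp [h1]
    · have h3 : ¬ (n - 1 = (i : ℕ) ∨ n - 1 + 1 = (i : ℕ)) := by omega
      simp [h1, h3]
  · simp [f]

end Levi

section Reg

variable {n : ℕ} {F : Type*} [Field F]

/-- The regular unipotent element. -/
noncomputable def u (n : ℕ) (F : Type*) [Field F] : Sp (Fin n) F := T (e (n - 1)) 1 * L n F

lemma u_e0 (hn : 0 < n) : u n F • (e 0 : Fin n ⊕ Fin n → F) = e 0 := by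
  rw [u, mul_smul, L_e0 hn, T_smul_of_ω (ω_e_e _ _)]

lemma u_e {k : ℕ} (hk : k + 1 < n) :
    u n F • (e (k + 1) : Fin n ⊕ Fin n → F) = e (k + 1) + e k := by
  rw [u, mul_smul, L_e hk, T_smul_of_ω]
  rw [ω_add_right, ω_e_e, ω_e_e, add_zero]

lemma uinv_eq : (u n F)⁻¹ = (L n F)⁻¹ * T (e (n - 1)) (-1) := by
  rw [u, _root_.mul_inv_rev, T_inv]

lemma uinv_f {k : ℕ} (hk : k + 1 < n) :
    (u n F)⁻¹ • (f k : Fin n ⊕ Fin n → F) = f k + f (k + 1) := by
  rw [uinv_eq, mul_smul, T_smul_of_ω (ω_e_f_ne (by omega)), Linv_f hk]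

lemma uinv_f_last (hn : 0 < n) :
    (u n F)⁻¹ • (f (n - 1) : Fin n ⊕ Fin n → F) = f (n - 1) - (u n F)⁻¹ • e (n - 1) := by
  rw [uinv_eq, mul_smul, mul_smul, T_smul_of_ω (ω_e_e _ _), T_smul, ω_e_f_self (by omega),
    smul_add, Linv_f_last hn, sub_eq_add_neg]
  simp

/-- The matrix `J` as an element of the symplectic group. -/
noncomputable def s (n : ℕ) (F : Type*) [Field F] : Sp (Fin n) F := SymplecticGroup.symJ (Fin n) F

lemma s_f (k : ℕ) : s n F • (f k : Fin n ⊕ Fin n → F) = e k := by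
  rw [s, Sp_smul_def]
  change J (Fin n) F *ᵥ _ = _
  rw [J_mulVec]
  funext i
  rcases i with i | i <;> simp [e, f]

lemma s_e (k : ℕ) : s n F • (e k : Fin n ⊕ Fin n → F) = - f k := by
  rw [s, Sp_smul_def]
  change J (Fin n) F *ᵥ _ = _
  rw [J_mulVec]
  funext i
  rcases i with i | i <;> simp [e, f]

lemma sinv_e (k : ℕ) : (s n F)⁻¹ • (e k : Fin n ⊕ Fin n → F) = f k := by
  rw [inv_smul_eq_iff, s_f]

lemma sinv_f (k : ℕ) : (s n F)⁻¹ • (f k : Fin n ⊕ Fin n → F) = - e k := by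
  rw [inv_smul_eq_iff, smul_neg, s_e, neg_neg]

/-- The conjugate of `u` under `s⁻¹`. -/
noncomputable def v (n : ℕ) (F : Type*) [Field F] : Sp (Fin n) F := (s n F)⁻¹ * u n F * s n F

lemma v_f0 (hn : 0 < n) : v n F • (f 0 : Fin n ⊕ Fin n → F) = f 0 := by
  rw [v, mul_smul, mul_smul, s_f, u_e0 hn, sinv_e]

lemma v_f {k : ℕ} (hk : k + 1 < n) :
    v n F • (f (k + 1) : Fin n ⊕ Fin n → F) = f (k + 1) + f k := by
  rw [v, mul_smul, mul_smul, s_f, u_e hk, smul_add, sinv_e, sinv_e]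

lemma vinv_eq : (v n F)⁻¹ = (s n F)⁻¹ * (u n F)⁻¹ * s n F := by
  rw [v]; group

lemma vinv_e {k : ℕ} (hk : k + 1 < n) :
    (v n F)⁻¹ • (e k : Fin n ⊕ Fin n → F) = e k + e (k + 1) := by
  rw [vinv_eq, mul_smul, mul_smul, s_e, smul_neg, uinv_f hk, smul_neg, smul_add, sinv_f, sinv_f]
  simp [add_comm]

lemma vinv_e_last (hn : 0 < n) :
    (v n F)⁻¹ • (e (n - 1) : Fin n ⊕ Fin n → F) = e (n - 1) + (v n F)⁻¹ • f (n - 1) := by
  have h1 : (v n F)⁻¹ • (f (n - 1) : Fin n ⊕ Fin n → F) = (s n F)⁻¹ • ((u n F)⁻¹ • e (n - 1)) := by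
    rw [vinv_eq, mul_smul, mul_smul, s_f]
  rw [h1, vinv_eq, mul_smul, mul_smul, s_e, smul_neg, uinv_f_last hn, smul_neg, smul_sub, sinv_f]
  simp [sub_eq_add_neg, add_comm]

end Reg

end Cfsg.Agent.Lib.SpRegGen
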