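import Mathlib
import Cfsg.Agent.Lib.SpRegGen

/-!
# Telescoping, transvection closure and the rules for root elements
-/

set_option autoImplicit false

namespace Cfsg.Agent.Lib.SpRegGen

open Matrix Cfsg.Agent.Lib.SpBasic

section Tel

variable {n : ℕ} {F : Type*} [Field F]

lemma tel_y (p q : Sp (Fin n) F) (y : ℕ → Fin n ⊕ Fin n → F)
    (hq0 : q • y 0 = y 0)
    (hq : ∀ k, k + 1 < n → q • y (k + 1) = y (k + 1) + y k)
    (hp : ∀ k, k + 1 < n → p⁻¹ • y k = y k + y (k + 1)) :
    ∀ k, k + 1 < n → (p⁻¹ * q⁻¹) • y k = y (k + 1) + (-1 : F) ^ k • y 0 := by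
  intro k
  induction k with
  | zero =>
    intro hk
    rw [mul_smul, inv_smul_eq_iff.mpr hq0.symm, hp 0 hk]
    simp [add_comm]
  | succ k ih =>
    intro hk
    have h1 : q⁻¹ • y (k + 1) = y (k + 1) - q⁻¹ • y k := by
      rw [inv_smul_eq_iff, smul_sub, smul_inv_smul, hq k (by omega)]
      abel
    rw [mul_smul, h1, smul_sub, hp (k + 1) hk, ← mul_smul, ih (by omega), pow_succ]
    module

lemma tel_last (p q : Sp (Fin n) F) (x y : ℕ → Fin n ⊕ Fin n → F) (hn : 2 ≤ n)
    (hq0 : q • y 0 = y 0)
    (hq : ∀ k, k + 1 < n → q • y (k + 1) = y (k + 1) + y k)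
    (hp : ∀ k, k + 1 < n → p⁻¹ • y k = y k + y (k + 1))
    (hqx : q⁻¹ • x (n - 1) = x (n - 1) + q⁻¹ • y (n - 1))
    (hpy : p⁻¹ • y (n - 1) = y (n - 1) - p⁻¹ • x (n - 1)) :
    (p⁻¹ * q⁻¹) • x (n - 1) = (-1 : F) ^ (n - 1) • y 0 := by
  obtain ⟨m, rfl⟩ : ∃ m, n = m + 2 := ⟨n - 2, by omega⟩
  have hm : m + 2 - 1 = m + 1 := by omega
  rw [hm] at hqx hpy ⊢
  have h1 : q⁻¹ • y (m + 1) = y (m + 1) - q⁻¹ • y m := by
    rw [inv_smul_eq_iff, smul_sub, smul_inv_smul, hq m (by omega)]
    abel
  have h2 := tel_y p q y hq0 hq hp m (by omega)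
  rw [mul_smul] at h2
  rw [mul_smul, hqx, smul_add, h1, smul_sub, hpy, h2, pow_succ]
  generalize p⁻¹ • x (m + 1) = A
  module

/-- The first coordinate shift. -/
noncomputable def w (n : ℕ) (F : Type*) [Field F] : Sp (Fin n) F := (u n F)⁻¹ * (v n F)⁻¹

/-- The second coordinate shift. -/
noncomputable def w2 (n : ℕ) (F : Type*) [Field F] : Sp (Fin n) F := (v n F)⁻¹ * (u n F)⁻¹

lemma uinv_e0 (hn : 0 < n) : (u n F)⁻¹ • (e 0 : Fin n ⊕ Fin n → F) = e 0 := by
  rw [inv_smul_eq_iff, u_e0 hn]

lemma uinv_add_e {k : ℕ} (hk : k + 1 < n) :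
    (u n F)⁻¹ • ((e k : Fin n ⊕ Fin n → F) + e (k + 1)) = e (k + 1) := by
  rw [inv_smul_eq_iff, u_e hk, add_comm]

lemma w_e {k : ℕ} (hk : k + 1 < n) : w n F • (e k : Fin n ⊕ Fin n → F) = e (k + 1) := by
  rw [w, mul_smul, vinv_e hk, uinv_add_e hk]

lemma w_e_last (hn : 2 ≤ n) :
    w n F • (e (n - 1) : Fin n ⊕ Fin n → F) = (-1 : F) ^ (n - 1) • f 0 :=
  tel_last (u n F) (v n F) e f hn (v_f0 (by omega)) (fun _ hk => v_f hk) (fun _ hk => uinv_f hk)
    (vinv_e_last (by omega)) (uinv_f_last (by omega))

lemma w2_f {k : ℕ} (hk : k + 1 < n) : w2 n F • (f k : Fin n ⊕ Fin n → F) = f (k + 1) := by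
  rw [w2, mul_smul, uinv_f hk, inv_smul_eq_iff, v_f hk, add_comm]

lemma w2_e_aux : ∀ k, k + 1 < n → (w2 n F) • (fun k => -(e k : Fin n ⊕ Fin n → F)) k =
    (fun k => -(e k : Fin n ⊕ Fin n → F)) (k + 1) +
      (-1 : F) ^ k • (fun k => -(e k : Fin n ⊕ Fin n → F)) 0 := by
  intro k hk
  have hn : 0 < n := by omega
  exact tel_y (v n F) (u n F) (fun k => -(e k : Fin n ⊕ Fin n → F))
    (by simp only [smul_neg, u_e0 hn])
    (fun k hk => by simp only [smul_neg, u_e hk, neg_add])
    (fun k hk => by simp only [smul_neg, vinv_e hk, neg_add]) k hk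

lemma w2_e {k : ℕ} (hk : k + 1 < n) :
    w2 n F • (e k : Fin n ⊕ Fin n → F) = e (k + 1) + (-1 : F) ^ k • e 0 := by
  have := w2_e_aux (n := n) (F := F) k hk
  simp only [smul_neg] at this
  rw [← neg_add, neg_inj] at this
  exact this

lemma w2_f_last (hn : 2 ≤ n) :
    w2 n F • (f (n - 1) : Fin n ⊕ Fin n → F) = (-1 : F) ^ n • e 0 := by
  have h0 : 0 < n := by omega
  have := tel_last (v n F) (u n F) f (fun k => -(e k : Fin n ⊕ Fin n → F)) hn
    (by simp only [smul_neg, u_e0 h0])
    (fun k hk => by simp only [smul_neg, u_e hk, neg_add])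
    (fun k hk => by simp only [smul_neg, vinv_e hk, neg_add])
    (by simp only [smul_neg]; rw [uinv_f_last h0, sub_eq_add_neg])
    (by simp only [smul_neg]; rw [vinv_e_last h0, neg_add, sub_eq_add_neg])
  rw [w2, this]
  obtain ⟨m, rfl⟩ : ∃ m, n = m + 1 := ⟨n - 1, by omega⟩
  simp only [Nat.add_sub_cancel, pow_succ]
  module

end Tel

section Om

variable {n : ℕ} {F : Type*} [Field F] {H : Subgroup (Sp (Fin n) F)}

/-- All transvections with centre `a` lie in `H`. -/
def Om (H : Subgroup (Sp (Fin n) F)) (a : Fin n ⊕ Fin n → F) : Prop := ∀ c : F, T a c ∈ H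

lemma Om_zero : Om H 0 := by
  intro c
  rw [T_zero_left]
  exact one_mem H

lemma Om_smul {a : Fin n ⊕ Fin n → F} (ha : Om H a) (r : F) : Om H (r • a) := by
  intro c
  rw [T_smul_vec]
  exact ha _

lemma Om_conj {g : Sp (Fin n) F} (hg : g ∈ H) {a : Fin n ⊕ Fin n → F} (ha : Om H a) :
    Om H (g • a) := fun c => T_mem_conj hg (ha c)

lemma Om_add {a b : Fin n ⊕ Fin n → F} (ha : Om H a) (hb : Om H b) (hab : ω a b ≠ 0) :
    Om H (a + b) := by
  have hba : ω b a ≠ 0 := by
    rw [ω_comm]
    simpa using hab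
  have := Om_conj (hb (ω b a)⁻¹) ha
  rw [T_smul, inv_mul_cancel₀ hba, one_smul] at this
  exact this

lemma G_le {U : Submodule F (Fin n ⊕ Fin n → F)} (hU : ∀ a ∈ U, Om H a) : G U ≤ H := by
  apply (Subgroup.closure_le _).mpr
  rintro g ⟨a, ha, c, rfl⟩
  exact hU a ha c

/-- Indices below `k`. -/
def lowSet (n k : ℕ) : Finset (Fin n) := Finset.univ.filter (fun i => (i : ℕ) < k)

theorem Om_all (he : ∀ k, k < n → Om H (e k)) (hf : ∀ k, k < n → Om H (f k))
    (hb : ∀ k, k + 1 < n → Om H (e k + e (k + 1))) (x : Fin n ⊕ Fin n → F) : Om H x := by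
  have key : ∀ k, k ≤ n → ∀ x ∈ (US (lowSet n k) : Submodule F (Fin n ⊕ Fin n → F)), Om H x := by
    intro k
    induction k with
    | zero =>
      intro _ x hx
      have : x = 0 := by
        funext i
        rcases i with i | i
        · exact (hx i (by simp [lowSet])).1
        · exact (hx i (by simp [lowSet])).2
      rw [this]
      exact Om_zero
    | succ k ih =>
      intro hk x hx
      have hkn : k < n := by omega
      have ih' := ih (by omega)
      set i : Fin n := ⟨k, hkn⟩ with hi
      -- the part at the coordinate `k`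
      have hP : ∀ r ∈ (US {i} : Submodule F (Fin n ⊕ Fin n → F)), Om H r := by
        intro r hr
        have hr' : r = r (Sum.inl i) • f k + r (Sum.inr i) • e k := by
          funext j
          rcases j with j | j
          · by_cases hj : j = i
            · subst hj
              simp [f, e, δ, hi]
            · have h1 := (hr j (by simpa using hj)).1
              have h2 : (j : ℕ) ≠ k := fun h => hj (Fin.ext h)
              simp [f, e, δ, h1, h2]
          · by_cases hj : j = i
            · subst hj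
              simp [f, e, δ, hi]
            · have h1 := (hr j (by simpa using hj)).2
              have h2 : (j : ℕ) ≠ k := fun h => hj (Fin.ext h)
              simp [f, e, δ, h1, h2]
        rw [hr']
        by_cases h1 : r (Sum.inl i) = 0
        · rw [h1, zero_smul, zero_add]
          exact Om_smul (he k hkn) _
        · by_cases h2 : r (Sum.inr i) = 0
          · rw [h2, zero_smul, add_zero]
            exact Om_smul (hf k hkn) _
          · apply Om_add (Om_smul (hf k hkn) _) (Om_smul (he k hkn) _)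
            rw [ω_smul_left, ω_smul_right, ω_f_e_self hkn]
            simp [h1, h2]
      set r : Fin n ⊕ Fin n → F := x (Sum.inl i) • f k + x (Sum.inr i) • e k with hr
      have hrU : r ∈ (US {i} : Submodule F (Fin n ⊕ Fin n → F)) := by
        apply add_mem
        · exact Submodule.smul_mem _ _ (by rw [f_eq hkn]; exact eL_mem_US (by simp [hi]))
        · exact Submodule.smul_mem _ _ (by rw [e_eq hkn]; exact eR_mem_US (by simp [hi]))
      have hpU : x - r ∈ (US (lowSet n k) : Submodule F (Fin n ⊕ Fin n → F)) := by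
        intro j hj
        have hj' : k ≤ (j : ℕ) := by simpa [lowSet] using hj
        by_cases hjk : (j : ℕ) = k
        · have : j = i := Fin.ext hjk
          subst this
          simp [hr, f, e, δ, hi]
        · have h3 : j ∉ lowSet n (k + 1) := by
            simp only [lowSet, Finset.mem_filter, Finset.mem_univ, true_and]
            omega
          have h4 := hx j h3
          simp [hr, f, e, δ, hjk, h4.1, h4.2]
      have hxeq : x = (x - r) + r := by abel
      by_cases hr0 : r = 0
      · have := ih' _ hpU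
        rwa [hr0, sub_zero] at this
      by_cases hp0 : x - r = 0
      · have hxr : x = r := sub_eq_zero.mp hp0
        rw [hxr]
        exact hP _ hrU
      -- both parts non-zero
      obtain ⟨k', rfl⟩ : ∃ k', k = k' + 1 := by
        rcases k with _ | k'
        · exfalso
          apply hp0
          funext j
          rcases j with j | j
          · exact (hpU j (by simp [lowSet])).1
          · exact (hpU j (by simp [lowSet])).2
        · exact ⟨k', rfl⟩
      have hbr : Om H (e k' + r) := by
        have h0 : (e (k' + 1) : Fin n ⊕ Fin n → F) ∈ (US {i} : Submodule F _) := by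
          rw [e_eq hkn]
          exact eR_mem_US (by simp [hi])
        obtain ⟨g, hg, hgx⟩ := exists_mem_G_smul_eq (US_nondeg {i}) h0 hrU (e_ne_zero hkn) hr0
        have hgH : g ∈ H := G_le hP hg
        have hfix : g • (e k' : Fin n ⊕ Fin n → F) = e k' := by
          apply smul_eq_of_mem_G hg
          intro a ha
          rw [e_eq (by omega : k' < n), ω_eR_right]
          have : (⟨k', by omega⟩ : Fin n) ∉ ({i} : Finset (Fin n)) := by
            simp [hi, Fin.ext_iff]
          rw [(ha _ this).1, neg_zero]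
        have := Om_conj hgH (hb k' hkn)
        rwa [smul_add, hfix, hgx] at this
      have hlast : Om H ((x - r) + r) := by
        have h0 : (e k' : Fin n ⊕ Fin n → F) ∈ (US (lowSet n (k' + 1)) : Submodule F _) := by
          rw [e_eq (by omega : k' < n)]
          exact eR_mem_US (by simp [lowSet])
        obtain ⟨g, hg, hgx⟩ := exists_mem_G_smul_eq (US_nondeg (lowSet n (k' + 1))) h0 hpU
          (e_ne_zero (by omega)) hp0
        have hgH : g ∈ H := G_le ih' hg
        have hfix : g • r = r := by
          apply smul_eq_of_mem_G hg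
          intro a ha
          have hia : i ∉ lowSet n (k' + 1) := by simp [lowSet, hi]
          rw [hr, ω_add_right, ω_smul_right, ω_smul_right, f_eq hkn, e_eq hkn, ω_eL_right,
            ω_eR_right]
          have h5 : a (Sum.inl ⟨k' + 1, hkn⟩) = 0 := (ha i hia).1
          have h6 : a (Sum.inr ⟨k' + 1, hkn⟩) = 0 := (ha i hia).2
          simp [h5, h6]
        have := Om_conj hgH hbr
        rwa [smul_add, hfix, hgx] at this
      rw [hxeq]
      exact hlast
  exact key n le_rfl x (by
    intro j hj
    exact absurd (by simp [lowSet]) hj)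

theorem eq_top_of_Om (h : ∀ x, Om H x) : H = ⊤ := by
  rw [eq_top_iff, ← G_top]
  exact G_le (fun a _ => h a)

end Om

section Generation

variable {n : ℕ} {F : Type*} [Field F] {H : Subgroup (Sp (Fin n) F)}

lemma w_mem (hu : u n F ∈ H) (hv : v n F ∈ H) : w n F ∈ H := mul_mem (inv_mem hu) (inv_mem hv)

lemma w2_mem (hu : u n F ∈ H) (hv : v n F ∈ H) : w2 n F ∈ H := mul_mem (inv_mem hv) (inv_mem hu)

/-- If `T(e₀, c) ∈ H` for all `c`, then `H` is everything. -/
theorem eq_top_of_T_e0 (hn : 2 ≤ n) (hu : u n F ∈ H) (hv : v n F ∈ H) (h0 : Om H (e 0)) : H = ⊤ := by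
  have he : ∀ k, k < n → Om H (e k) := by
    intro k
    induction k with
    | zero => intro _; exact h0
    | succ k ih =>
      intro hk
      have := Om_conj (w_mem hu hv) (ih (by omega))
      rwa [w_e hk] at this
  have hf0 : Om H (f 0) := by
    have := Om_smul (Om_conj (w_mem hu hv) (he (n - 1) (by omega))) ((-1 : F) ^ (n - 1))
    rw [w_e_last hn, smul_smul, ← mul_pow] at this
    simpa using this
  have hf : ∀ k, k < n → Om H (f k) := by
    intro k
    induction k with
    | zero => intro _; exact hf0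
    | succ k ih =>
      intro hk
      have := Om_conj (w2_mem hu hv) (ih (by omega))
      rwa [w2_f hk] at this
  have hb : ∀ k, k + 1 < n → Om H (e k + e (k + 1)) := by
    intro k hk
    have := Om_conj (inv_mem hv) (he k (by omega))
    rwa [vinv_e hk] at this
  exact eq_top_of_Om (Om_all he hf hb)

end Generation

end Cfsg.Agent.Lib.SpRegGen
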