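import Mathlib
import Cfsg.Agent.Lib.SpRegGen2

/-!
# The rules for root elements, and the field argument
-/

set_option autoImplicit false

namespace Cfsg.Agent.Lib.SpRegGen

open Matrix Cfsg.Agent.Lib.SpBasic

section Rules

variable {n : ℕ} {F : Type*} [Field F] {H : Subgroup (Sp (Fin n) F)}

lemma E_mem_conj_iff {g : Sp (Fin n) F} (hg : g ∈ H) {a b : Fin n ⊕ Fin n → F} {c : F} :
    E (g • a) (g • b) c ∈ H ↔ E a b c ∈ H := by
  constructor
  · intro h
    have := E_mem_conj (inv_mem hg) h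
    rwa [inv_smul_smul, inv_smul_smul] at this
  · exact E_mem_conj hg

lemma E_sign_iff {a b : Fin n ⊕ Fin n → F} (hab : ω a b = 0) {ε : F} (hε : ε = 1 ∨ ε = -1) {c : F} :
    E a b (ε * c) ∈ H ↔ E a b c ∈ H := by
  rcases hε with rfl | rfl
  · rw [one_mul]
  · rw [neg_one_mul, E_neg_coef hab, inv_mem_iff]

/-- Rule: pushing `X_{1k}` up along `u⁻¹`. -/
lemma R0 (hu : u n F ∈ H) {k : ℕ} (hk1 : 1 ≤ k) (hk : k + 1 < n) {c : F}
    (h : E (e 0) (f k) c ∈ H) : E (e 0) (f (k + 1)) c ∈ H := by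
  have := E_mem_conj (inv_mem hu) h
  rw [uinv_e0 (by omega), uinv_f hk, E_add_right (ω_e_f_ne (by omega)) (ω_e_f_ne (by omega)),
    ω_f_f, mul_zero, neg_zero, T_zero_right, mul_one] at this
  exact (mul_mem_cancel_left h).mp this

lemma R0' (hu : u n F ∈ H) (hn : 2 ≤ n) {c : F} (h : E (e 0) (f 1) c ∈ H) :
    E (e 0) (f (n - 1)) c ∈ H := by
  have key : ∀ m, m + 1 < n → E (e 0) (f (m + 1)) c ∈ H := by
    intro m
    induction m with
    | zero => intro _; exact h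
    | succ m ih =>
      intro hm
      exact R0 hu (by omega) hm (ih (by omega))
  have := key (n - 2) (by omega)
  rwa [show n - 2 + 1 = n - 1 by omega] at this

lemma w2_pow_f {k : ℕ} (j : ℕ) (hk : k + j < n) :
    (w2 n F) ^ j • (f k : Fin n ⊕ Fin n → F) = f (k + j) := by
  induction j with
  | zero => simp
  | succ j ih =>
    rw [pow_succ', mul_smul, ih (by omega), w2_f (by omega)]
    rfl

lemma w2_pow_e0 (j : ℕ) (hj : j + 1 < n) :
    (w2 n F) ^ (j + 1) • (e 0 : Fin n ⊕ Fin n → F) = e j + e (j + 1) := by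
  induction j with
  | zero =>
    rw [zero_add, pow_one, w2_e (by omega)]
    simp [add_comm]
  | succ j ih =>
    rw [pow_succ', mul_smul, ih (by omega), smul_add, w2_e (by omega), w2_e (by omega), pow_succ]
    module

/-- Rule: duality between `X_{1k}` and `Y_{1,n+2-k}` (1-indexed). -/
lemma R1 (hu : u n F ∈ H) (hv : v n F ∈ H) (hn : 2 ≤ n) {k : ℕ} (hk1 : 1 ≤ k) (hk : k < n) {c : F} :
    E (e 0) (f k) c ∈ H ↔ E (e 0) (e (n - k)) c ∈ H := by
  obtain ⟨j, hj⟩ : ∃ j, n - k = j + 1 := ⟨n - k - 1, by omega⟩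
  have hkj : k + j + 1 = n := by omega
  rw [hj]
  set g : Sp (Fin n) F := (u n F)⁻¹ * (w2 n F) ^ (j + 1) with hg
  have hgH : g ∈ H := mul_mem (inv_mem hu) (pow_mem (w2_mem hu hv) _)
  have h1 : g • (e 0 : Fin n ⊕ Fin n → F) = e (j + 1) := by
    rw [hg, mul_smul, w2_pow_e0 j (by omega), uinv_add_e (by omega)]
  have h2 : g • (f k : Fin n ⊕ Fin n → F) = (-1 : F) ^ n • e 0 := by
    rw [hg, mul_smul, pow_succ', mul_smul, w2_pow_f j (by omega),
      show k + j = n - 1 by omega, w2_f_last hn, smul_comm, uinv_e0 (by omega)]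
  have hε : ((-1 : F) ^ n = 1) ∨ ((-1 : F) ^ n = -1) := neg_one_pow_eq_or F n
  have hab : ω (e (j + 1)) (e 0 : Fin n ⊕ Fin n → F) = 0 := ω_e_e _ _
  rw [← E_mem_conj_iff hgH (a := e 0) (b := f k), h1, h2, E_smul_right hab, E_sign_iff hab hε,
    E_comm hab]

/-- Rule: `X_{1n}`, `Y_{1n}` give a transvection. -/
lemma F3 (hu : u n F ∈ H) (hn : 2 ≤ n) {c : F} (h1 : E (e 0) (f (n - 1)) c ∈ H)
    (h2 : E (e 0) (e (n - 1)) c ∈ H) : T (e 0) (c ^ 2) ∈ H := by
  have h0 : 0 < n := by omega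
  set q : Fin n ⊕ Fin n → F := (u n F)⁻¹ • e (n - 1) with hq
  have h1' : E (e 0) (f (n - 1) - q) c ∈ H := by
    have := E_mem_conj (inv_mem hu) h1
    rwa [uinv_e0 h0, uinv_f_last h0] at this
  have h2' : E (e 0) q c ∈ H := by
    have := E_mem_conj (inv_mem hu) h2
    rwa [uinv_e0 h0] at this
  have hq0 : ω (e 0) q = 0 := by
    have := ω_smul_smul (u n F)⁻¹ (e 0) (e (n - 1) : Fin n ⊕ Fin n → F)
    rw [uinv_e0 h0, ω_e_e] at this
    exact this
  have hf0 : ω (e 0) (f (n - 1) : Fin n ⊕ Fin n → F) = 0 := ω_e_f_ne (by omega)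
  have hfq : ω (f (n - 1)) q = -1 := by
    have := ω_smul_smul (u n F)⁻¹ (f (n - 1)) (e (n - 1) : Fin n ⊕ Fin n → F)
    rw [uinv_f_last h0, ω_f_e_self (by omega), ← hq, ω_sub_left, ω_self, sub_zero] at this
    exact this
  have hq1 : ω (e 0) (-q) = 0 := by rw [ω_neg_right, hq0, neg_zero]
  rw [sub_eq_add_neg, E_add_right hf0 hq1, E_neg_right hq0, ω_neg_right, hfq, neg_neg, mul_one] at h1'
  have h3 := (mul_mem_cancel_left (mul_mem h1 (inv_mem h2'))).mp h1'
  rw [← T_inv, inv_mem_iff] at h3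
  exact h3

/-- Rule: transvection parameters give `Y_{12}`. -/
lemma F4 (hu : u n F ∈ H) (hv : v n F ∈ H) (hn : 2 ≤ n) {s : F} (h : T (e 0) s ∈ H) :
    E (e 0) (e 1) s ∈ H := by
  have h1 : T (e 0 + e 1) s ∈ H := by
    have := T_mem_conj (inv_mem hv) h
    rwa [vinv_e (by omega)] at this
  have h2 : T (e 1) s ∈ H := by
    have := T_mem_conj (w_mem hu hv) h
    rwa [w_e (by omega)] at this
  rw [E, ← T_inv, ← T_inv]
  exact mul_mem (mul_mem h1 (inv_mem h)) (inv_mem h2)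

lemma X_e1 {B : F} (hn : 2 ≤ n) :
    (E (e 0) (f 1) (-B) : Sp (Fin n) F) • (e 1 : Fin n ⊕ Fin n → F) = e 1 + B • e 0 := by
  have hab : ω (e 0) (f 1 : Fin n ⊕ Fin n → F) = 0 := ω_e_f_ne (by omega)
  rw [E_smul hab, ω_e_e, ω_f_e_self (by omega)]
  simp

lemma X_e_ne {B : F} {k : ℕ} (hk : k ≠ 1) :
    (E (e 0) (f 1) (-B) : Sp (Fin n) F) • (e k : Fin n ⊕ Fin n → F) = e k := by
  have hab : ω (e 0) (f 1 : Fin n ⊕ Fin n → F) = 0 := ω_e_f_ne (by omega)
  rw [E_smul hab, ω_e_e, ω_f_e_ne (Ne.symm hk)]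
  simp

/-- Rule: the product rule. -/
lemma F5 (hu : u n F ∈ H) (hv : v n F ∈ H) (hn : 2 ≤ n) {s B : F} (hs : T (e 0) s ∈ H)
    (hX : E (e 0) (f 1) (-B) ∈ H) (hY : E (e 0) (e 1) (B * s) ∈ H) : T (e 0) (B ^ 2 * s) ∈ H := by
  have h2 : T (e 1) s ∈ H := by
    have := T_mem_conj (w_mem hu hv) hs
    rwa [w_e (by omega)] at this
  have h3 := T_mem_conj hX h2
  rw [X_e1 hn, T_add_eq, T_smul_vec, E_smul_right (ω_e_e _ _), E_comm (ω_e_e _ _)] at h3
  have h4 := (mul_mem_cancel_left hY).mp (by rwa [mul_assoc] at h3)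
  exact (mul_mem_cancel_right h2).mp h4

/-- Rule: for `n ≥ 3`, multiplication by `ξ` on the parameters of `Y_{12}`. -/
lemma F6 (hu : u n F ∈ H) (hv : v n F ∈ H) (hn : 3 ≤ n) {ξ B : F}
    (hX : E (e 0) (f 1) (-ξ) ∈ H) (hY : E (e 0) (e 1) B ∈ H) : E (e 0) (e 1) (ξ * B) ∈ H := by
  have h1 : E (e 1) (e 2) B ∈ H := by
    have := E_mem_conj (w_mem hu hv) hY
    rwa [w_e (by omega), w_e (by omega)] at this
  have h2 := E_mem_conj hX h1
  have he02 : ω (ξ • e 0) (e 2 : Fin n ⊕ Fin n → F) = 0 := by rw [ω_smul_left, ω_e_e, mul_zero]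
  rw [X_e1 (by omega), X_e_ne (by omega), E_add_left (ω_e_e _ _) he02, ω_smul_right, ω_e_e, mul_zero,
    mul_zero, neg_zero, T_zero_right, mul_one] at h2
  have h3 := (mul_mem_cancel_left h1).mp h2
  rw [E_comm he02, E_smul_right (ω_e_e _ _), E_comm (ω_e_e _ _)] at h3
  have h4 := E_mem_conj hu h3
  rw [u_e0 (by omega), show (2 : ℕ) = 1 + 1 from rfl, u_e (by omega), E_add_right (ω_e_e _ _) (ω_e_e _ _),
    ω_e_e, mul_zero, neg_zero, T_zero_right, mul_one] at h4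
  exact (mul_mem_cancel_left h3).mp h4

/-- The field argument. -/
theorem T_e0_all [Fintype F] (hu : u n F ∈ H) (hv : v n F ∈ H) (hn : 2 ≤ n) {ξ : F}
    (hξ : ∀ d : F, d ≠ 0 → ∃ j : ℕ, d = ξ ^ (j + 1) ∨ d = - ξ ^ (j + 1))
    (hX : E (e 0) (f 1) (-ξ) ∈ H) (s : F) : T (e 0) s ∈ H := by
  have hab : ω (e 0) (f 1 : Fin n ⊕ Fin n → F) = 0 := ω_e_f_ne (by omega)
  have hXneg : ∀ {c : F}, E (e 0) (f 1) c ∈ H → E (e 0) (f 1) (-c) ∈ H := fun h => E_mem_neg_coef hab h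
  -- the basic implications
  have hQP : ∀ {c : F}, E (e 0) (f 1) c ∈ H → T (e 0) (c ^ 2) ∈ H := by
    intro c hc
    have h1 := R0' hu hn hc
    have h2 := (R1 hu hv hn (le_refl 1) (by omega)).mp hc
    exact F3 hu hn h1 h2
  have hQQ2 : ∀ {c : F}, E (e 0) (f 1) c ∈ H → E (e 0) (e 1) c ∈ H := by
    intro c hc
    have h1 := R0' hu hn hc
    have h2 := (R1 hu hv hn (by omega : 1 ≤ n - 1) (by omega)).mp h1
    rwa [show n - (n - 1) = 1 by omega] at h2
  have hPQ2 : ∀ {s : F}, T (e 0) s ∈ H → E (e 0) (e 1) s ∈ H := fun h => F4 hu hv hn h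
  have hF5 : ∀ {s B : F}, T (e 0) s ∈ H → E (e 0) (f 1) B ∈ H → E (e 0) (e 1) (B * s) ∈ H →
      T (e 0) (B ^ 2 * s) ∈ H := fun hs hB hY => F5 hu hv hn hs (hXneg hB) hY
  have hX' : E (e 0) (f 1) ξ ∈ H := by
    have := hXneg hX
    rwa [neg_neg] at this
  have h2 : T (e 0) (ξ ^ 2) ∈ H := hQP hX'
  -- the even powers
  have hpow : ∀ j : ℕ, T (e 0) (ξ ^ (2 * (j + 1))) ∈ H := by
    by_cases hn2 : n = 2
    · subst hn2
      have hQ2Q : ∀ {c : F}, E (e 0) (e 1) c ∈ H → E (e 0) (f 1) c ∈ H := fun {c} hc =>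
        (R1 hu hv le_rfl (le_refl 1) (by omega)).mpr hc
      have hB : E (e 0) (f 1) (ξ ^ 2) ∈ H := hQ2Q (hPQ2 h2)
      have key : ∀ j : ℕ, T (e 0) (ξ ^ (2 * (j + 1))) ∈ H ∧ T (e 0) (ξ ^ (2 * (j + 2))) ∈ H := by
        intro j
        induction j with
        | zero =>
          refine ⟨by simpa using h2, ?_⟩
          have := hQP hB
          rwa [← pow_mul] at this
        | succ j ih =>
          refine ⟨ih.2, ?_⟩
          have h3 : E (e 0) (e 1) (ξ ^ 2 * ξ ^ (2 * (j + 1))) ∈ H := by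
            rw [← pow_add, show 2 + 2 * (j + 1) = 2 * (j + 2) by ring]
            exact hPQ2 ih.2
          have h4 := hF5 ih.1 hB h3
          rwa [← pow_mul, ← pow_add, show 2 * 2 + 2 * (j + 1) = 2 * (j + 1 + 2) by ring] at h4
      exact fun j => (key j).1
    · have hn3 : 3 ≤ n := by omega
      have hstep : ∀ {B : F}, E (e 0) (e 1) B ∈ H → E (e 0) (e 1) (ξ * B) ∈ H :=
        fun h => F6 hu hv hn3 hX h
      have hY1 : ∀ j : ℕ, E (e 0) (e 1) (ξ ^ (j + 1)) ∈ H := by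
        intro j
        induction j with
        | zero => simpa using hQQ2 hX'
        | succ j ih =>
          have := hstep ih
          rwa [← pow_succ'] at this
      have hY : ∀ B : F, E (e 0) (e 1) B ∈ H := by
        intro B
        by_cases hB : B = 0
        · rw [hB, E, neg_zero, T_zero_right, T_zero_right, T_zero_right, mul_one, mul_one]
          exact one_mem H
        · obtain ⟨j, hj | hj⟩ := hξ B hB
          · rw [hj]; exact hY1 j
          · rw [hj]; exact E_mem_neg_coef (ω_e_e _ _) (hY1 j)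
      intro j
      induction j with
      | zero => simpa using h2
      | succ j ih =>
        have := hF5 ih hX' (hY _)
        rwa [← pow_add, show 2 + 2 * (j + 1) = 2 * (j + 1 + 1) by ring] at this
  have hsq : ∀ d : F, T (e 0) (d ^ 2) ∈ H := by
    intro d
    by_cases hd : d = 0
    · rw [hd, zero_pow (by norm_num), T_zero_right]
      exact one_mem H
    · obtain ⟨j, hj | hj⟩ := hξ d hd
      · rw [hj, ← pow_mul, mul_comm]; exact hpow j
      · rw [hj, neg_sq, ← pow_mul, mul_comm]; exact hpow j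
  by_cases hc : ringChar F = 2
  · obtain ⟨r, hr⟩ := FiniteField.isSquare_of_char_two hc s
    rw [hr, ← pow_two]
    exact hsq r
  · have h20 : (2 : F) ≠ 0 := Ring.two_ne_zero hc
    have : s = ((s + 1) / 2) ^ 2 + - ((s - 1) / 2) ^ 2 := by
      field_simp
      ring
    rw [this, ← T_mul, ← T_inv]
    exact mul_mem (hsq _) (inv_mem (hsq _))

end Rules

end Cfsg.Agent.Lib.SpRegGen
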