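import Mathlib
import Cfsg.Agent.Lib.SpRegGen3

/-!
# The third generator, regularity, and the generation theorem
-/

set_option autoImplicit false

namespace Cfsg.Agent.Lib.SpRegGen

open Matrix Cfsg.Agent.Lib.SpBasic

section Third

variable {n : ℕ} {F : Type*} [Field F]

/-- The diagonal matrix with first entry `a`. -/
def Dm (n : ℕ) (a : F) : Matrix (Fin n) (Fin n) F :=
  diagonal fun i => if (i : ℕ) = 0 then a else 1

/-- The diagonal unit. -/
def Du (n : ℕ) (a : F) (ha : a ≠ 0) : (Matrix (Fin n) (Fin n) F)ˣ where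
  val := Dm n a
  inv := Dm n a⁻¹
  val_inv := by
    rw [Dm, Dm, diagonal_mul_diagonal, ← diagonal_one]
    congr 1
    funext i
    by_cases h : (i : ℕ) = 0 <;> simp [h, ha]
  inv_val := by
    rw [Dm, Dm, diagonal_mul_diagonal, ← diagonal_one]
    congr 1
    funext i
    by_cases h : (i : ℕ) = 0 <;> simp [h, ha]

/-- The elementary matrix `1 + ξ E₀₁`. -/
def Xm (n : ℕ) (ξ : F) : Matrix (Fin n) (Fin n) F :=
  1 + ξ • vecMulVec (δ n F 0) (δ n F 1)

lemma δ_dot : δ n F 1 ⬝ᵥ δ n F 0 = 0 := by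
  apply Finset.sum_eq_zero
  intro i _
  simp only [δ]
  by_cases h : (i : ℕ) = 0 <;> simp [h]

lemma Xm_mul (ξ η : F) : Xm n ξ * Xm n η = Xm n (ξ + η) := by
  simp only [Xm, add_mul, mul_add, one_mul, mul_one, smul_mul_assoc, mul_smul_comm, add_smul]
  rw [vecMulVec_mul_vecMulVec]
  simp [δ_dot, add_assoc]

lemma Xm_zero : Xm n (0 : F) = 1 := by simp [Xm]

/-- The elementary unit. -/
def Xu (n : ℕ) (ξ : F) : (Matrix (Fin n) (Fin n) F)ˣ where
  val := Xm n ξ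
  inv := Xm n (-ξ)
  val_inv := by rw [Xm_mul, add_neg_cancel, Xm_zero]
  inv_val := by rw [Xm_mul, neg_add_cancel, Xm_zero]

lemma Dm_Am (hn : 2 ≤ n) {a : F} :
    Dm n a * Am n F = Am n F * Xm n (a - 1) * Dm n a := by
  ext i j
  have h0 : 0 < n := by omega
  have h1 : 1 < n := by omega
  rw [Dm, mul_diagonal, diagonal_mul, Xm, mul_add, mul_one, mul_smul_comm, Matrix.add_apply,
    Matrix.smul_apply, mul_vecMulVec]
  simp only [vecMulVec_apply, smul_eq_mul, mulVec_δ _ h0, Am, of_apply]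
  simp only [δ]
  by_cases hi : (i : ℕ) = 0
  · by_cases hj : (j : ℕ) = 0
    · simp [hi, hj]
    · by_cases hj1 : (j : ℕ) = 1
      · simp [hi, hj1]
      · have h3 : (0 : ℕ) ≠ j := fun h => hj h.symm
        have h4 : ¬ (0 + 1 = (j : ℕ)) := by omega
        simp [hi, hj, hj1, h3, h4]
  · by_cases hj : (j : ℕ) = 0
    · have h3 : ¬ ((i : ℕ) = 0 ∨ (i : ℕ) + 1 = 0) := by omega
      simp [hi, hj, h3]
    · by_cases hj1 : (j : ℕ) = 1 <;> simp [hi, hj, hj1]

lemma δ_dotProduct {k : ℕ} (h : k < n) (b : Fin n → F) : δ n F k ⬝ᵥ b = b ⟨k, h⟩ := by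
  rw [δ_eq h, single_one_dotProduct]

lemma Xm_mulVec (hn : 2 ≤ n) (ξ : F) (b : Fin n → F) :
    Xm n ξ *ᵥ b = b + (ξ * b ⟨1, by omega⟩) • δ n F 0 := by
  rw [Xm, add_mulVec, one_mulVec, smul_mulVec, vecMulVec_mulVec, δ_dotProduct (by omega : 1 < n),
    op_smul_eq_smul, smul_smul]

lemma Xm_transpose_mulVec (hn : 2 ≤ n) (ξ : F) (b : Fin n → F) :
    (Xm n ξ)ᵀ *ᵥ b = b + (ξ * b ⟨0, by omega⟩) • δ n F 1 := by
  rw [Xm, transpose_add, transpose_one, transpose_smul, transpose_vecMulVec, add_mulVec, one_mulVec,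
    smul_mulVec, vecMulVec_mulVec, δ_dotProduct (by omega : 0 < n), op_smul_eq_smul, smul_smul]

lemma Lev_Xu (hn : 2 ≤ n) (ξ : F) : Lev (Xu n ξ) = E (e 0) (f 1) (-ξ) := by
  have h0 : 0 < n := by omega
  have h1 : 1 < n := by omega
  have hab : ω (e 0) (f 1 : Fin n ⊕ Fin n → F) = 0 := ω_e_f_ne (by omega)
  have h2 : ((Xu n ξ)⁻¹ : (Matrix (Fin n) (Fin n) F)ˣ).1 = Xm n (-ξ) := rfl
  have h3 : (Xu n ξ).1 = Xm n ξ := rfl
  apply Sp_ext
  intro x
  rw [E_smul hab, ω_e_left x h0, ω_f_left x h1, Sp_smul_def, Lev_val, fromBlocks_mulVec, h2, h3,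
    Xm_transpose_mulVec hn, Xm_mulVec hn]
  funext i
  rcases i with i | i
  · simp [e, f]
  · simp [e, f]

/-- The torus element. -/
noncomputable def tt (n : ℕ) (a : F) (ha : a ≠ 0) : Sp (Fin n) F := Lev (Du n a ha)

lemma tt_e_last (hn : 2 ≤ n) (a : F) (ha : a ≠ 0) :
    tt n a ha • (e (n - 1) : Fin n ⊕ Fin n → F) = e (n - 1) := by
  rw [tt, Lev_e]
  congr 1
  change Dm n a *ᵥ _ = _
  rw [Dm, mulVec_δ _ (by omega : n - 1 < n)]
  funext i
  simp only [diagonal_apply, δ, Fin.ext_iff]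
  by_cases hi : (i : ℕ) = n - 1
  · have : (i : ℕ) ≠ 0 := by omega
    simp [hi]
    omega
  · simp [hi]

theorem uinv_conj_tt (hn : 2 ≤ n) (a : F) (ha : a ≠ 0) :
    (u n F)⁻¹ * (tt n a ha * u n F * (tt n a ha)⁻¹) = E (e 0) (f 1) (-(a - 1)) := by
  have h1 : tt n a ha * T (e (n - 1)) 1 * (tt n a ha)⁻¹ = T (e (n - 1)) 1 := by
    rw [T_conj, tt_e_last hn]
  have h2 : Du n a ha * Au n F = Au n F * Xu n (a - 1) * Du n a ha := by
    apply Units.ext
    exact Dm_Am hn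
  have h3 : tt n a ha * L n F * (tt n a ha)⁻¹ = L n F * E (e 0) (f 1) (-(a - 1)) := by
    rw [← Lev_Xu hn, tt, L, ← Lev_inv, ← Lev_mul, ← Lev_mul, ← Lev_mul, h2]
    simp
  calc (u n F)⁻¹ * (tt n a ha * u n F * (tt n a ha)⁻¹)
      = (L n F)⁻¹ * (T (e (n - 1)) 1)⁻¹ * ((tt n a ha * T (e (n - 1)) 1 * (tt n a ha)⁻¹) *
          (tt n a ha * L n F * (tt n a ha)⁻¹)) := by
        rw [u]; group
    _ = E (e 0) (f 1) (-(a - 1)) := by
        rw [h1, h3]; group

/-- The other third generator: `h₀` with `u h₀ u⁻¹ = h₀ T(e₀, 1)`. -/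
noncomputable def h0 (n : ℕ) (F : Type*) [Field F] : Sp (Fin n) F :=
  T (e 1) 1 * E (e 0) (e 2) (-1)

theorem conj_h0 (hn : 3 ≤ n) :
    (h0 n F)⁻¹ * u n F * h0 n F * (u n F)⁻¹ = T (e 0) (1 : F) := by
  have h1 : u n F * h0 n F * (u n F)⁻¹ = h0 n F * T (e 0) (1 : F) := by
    have : u n F * h0 n F * (u n F)⁻¹ =
        (u n F * T (e 1) (1 : F) * (u n F)⁻¹) * (u n F * E (e 0) (e 2) (-1 : F) * (u n F)⁻¹) := by
      rw [h0]; group
    have hu1 : u n F • (e 1 : Fin n ⊕ Fin n → F) = e 1 + e 0 := u_e (k := 0) (by omega)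
    have hu2 : u n F • (e 2 : Fin n ⊕ Fin n → F) = e 2 + e 1 := u_e (k := 1) (by omega)
    have h3 : ω (e 0) ((e 2 : Fin n ⊕ Fin n → F) + e 1) = 0 := by
      rw [ω_add_right, ω_e_e, ω_e_e, add_zero]
    have h4 : ω (e 0) (e 2 : Fin n ⊕ Fin n → F) = 0 := ω_e_e _ _
    rw [this, T_conj, E_conj, u_e0 (by omega), hu1, hu2]
    apply Sp_ext
    intro x
    simp only [mul_smul, h0, E_smul h3, E_smul h4, T_smul, ω_add_left, ω_add_right, ω_smul_right,
      ω_e_e, mul_zero, add_zero, zero_add]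
    module
  calc (h0 n F)⁻¹ * u n F * h0 n F * (u n F)⁻¹ = (h0 n F)⁻¹ * (u n F * h0 n F * (u n F)⁻¹) := by
        group
    _ = T (e 0) 1 := by rw [h1]; group

end Third

section Regular

variable {n : ℕ} {F : Type*} [Field F]

theorem reg_u (hn : 2 ≤ n) :
    IsNilpotent ((u n F).1 - 1) ∧ ((u n F).1 - 1) ^ (2 * n - 1) ≠ 0 := by
  have h0 : 0 < n := by omega
  set U : Matrix (Fin n ⊕ Fin n) (Fin n ⊕ Fin n) F := (u n F).1 with hU
  set Ui : Matrix (Fin n ⊕ Fin n) (Fin n ⊕ Fin n) F := ((u n F)⁻¹ : Sp (Fin n) F).1 with hUi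
  have hUUi : U * Ui = 1 := by
    have : ((u n F) * (u n F)⁻¹ : Sp (Fin n) F).1 = 1 := by simp
    exact this
  have hUiU : Ui * U = 1 := by
    have : ((u n F)⁻¹ * (u n F) : Sp (Fin n) F).1 = 1 := by simp
    exact this
  have hsm : ∀ x : Fin n ⊕ Fin n → F, U *ᵥ x = u n F • x := fun _ => rfl
  have hsmi : ∀ x : Fin n ⊕ Fin n → F, Ui *ᵥ x = (u n F)⁻¹ • x := fun _ => rfl
  set N : Matrix (Fin n ⊕ Fin n) (Fin n ⊕ Fin n) F := U - 1 with hN
  set M : Matrix (Fin n ⊕ Fin n) (Fin n ⊕ Fin n) F := Ui - 1 with hM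
  have hNM : N = -U * M := by
    rw [hN, hM, neg_mul, mul_sub, hUUi, mul_one, neg_sub]
  have hcUUi : Commute U Ui := by
    show U * Ui = Ui * U
    rw [hUUi, hUiU]
  have hcUM : Commute U M := by
    rw [hM]
    exact hcUUi.sub_right (Commute.one_right _)
  have hcNU : Commute N U := by
    rw [hN]
    exact (Commute.refl U).sub_left (Commute.one_left _)
  have hcNM : Commute N M := by
    rw [hN]
    exact hcUM.sub_left (Commute.one_left _)
  have hNe0 : N *ᵥ (e 0 : Fin n ⊕ Fin n → F) = 0 := by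
    rw [hN, sub_mulVec, one_mulVec, hsm, u_e0 h0, sub_self]
  have hNe : ∀ k, k + 1 < n → N *ᵥ (e (k + 1) : Fin n ⊕ Fin n → F) = e k := by
    intro k hk
    rw [hN, sub_mulVec, one_mulVec, hsm, u_e hk, add_sub_cancel_left]
  have hMf : ∀ k, k + 1 < n → M *ᵥ (f k : Fin n ⊕ Fin n → F) = f (k + 1) := by
    intro k hk
    rw [hM, sub_mulVec, one_mulVec, hsmi, uinv_f hk, add_sub_cancel_left]
  have hNpow : ∀ k, k < n → (N ^ k) *ᵥ (e k : Fin n ⊕ Fin n → F) = e 0 := by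
    intro k
    induction k with
    | zero => intro _; simp
    | succ k ih =>
      intro hk
      rw [pow_succ, ← mulVec_mulVec, hNe k hk, ih (by omega)]
  have hNkill : ∀ k, k < n → ∀ m, (N ^ (m + k + 1)) *ᵥ (e k : Fin n ⊕ Fin n → F) = 0 := by
    intro k hk m
    rw [show m + k + 1 = m + 1 + k by ring, pow_add, pow_succ, ← mulVec_mulVec, hNpow k hk,
      ← mulVec_mulVec, hNe0, mulVec_zero]
  have hMpow : ∀ k, k < n → (M ^ k) *ᵥ (f 0 : Fin n ⊕ Fin n → F) = f k := by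
    intro k
    induction k with
    | zero => intro _; simp
    | succ k ih =>
      intro hk
      rw [pow_succ', ← mulVec_mulVec, ih (by omega), hMf k hk]
  have hUe0 : ∀ j : ℕ, (U ^ j) *ᵥ (e 0 : Fin n ⊕ Fin n → F) = e 0 := by
    intro j
    induction j with
    | zero => simp
    | succ j ih => rw [pow_succ, ← mulVec_mulVec, hsm, u_e0 h0, ih]
  obtain ⟨m, rfl⟩ : ∃ m, n = m + 1 := ⟨n - 1, by omega⟩
  -- the value on `f₀`
  have hMlast : (M ^ (m + 1)) *ᵥ (f 0 : Fin (m + 1) ⊕ Fin (m + 1) → F) = - (Ui *ᵥ e m) := by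
    rw [pow_succ', ← mulVec_mulVec, hMpow m (by omega), hM, sub_mulVec, one_mulVec, hsmi]
    have := uinv_f_last (n := m + 1) (F := F) h0
    simp only [Nat.add_sub_cancel] at this
    rw [this, hsmi]
    abel
  set c : F := - (-1) ^ (m + 1) with hc
  have hc0 : c ≠ 0 := by
    rw [hc]
    simp
  have hNn : (N ^ (m + 1)) *ᵥ (f 0 : Fin (m + 1) ⊕ Fin (m + 1) → F) = c • ((U ^ m) *ᵥ e m) := by
    have h1 : N ^ (m + 1) = (-U) ^ (m + 1) * M ^ (m + 1) := by
      rw [hNM]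
      exact (hcUM.neg_left).mul_pow _
    have h2 : (-U) ^ (m + 1) = ((-1 : F) ^ (m + 1)) • U ^ (m + 1) := by
      rw [← _root_.smul_pow, neg_one_smul]
    have h3 : (U ^ (m + 1)) *ᵥ (Ui *ᵥ (e m : Fin (m + 1) ⊕ Fin (m + 1) → F)) = (U ^ m) *ᵥ e m := by
      rw [pow_succ, ← mulVec_mulVec, mulVec_mulVec _ U Ui, hUUi, one_mulVec]
    rw [h1, ← mulVec_mulVec, hMlast, mulVec_neg, h2, smul_mulVec, h3, hc, neg_smul]
  have hNtop : (N ^ (2 * (m + 1) - 1)) *ᵥ (f 0 : Fin (m + 1) ⊕ Fin (m + 1) → F) = c • e 0 := by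
    rw [show 2 * (m + 1) - 1 = m + (m + 1) by omega, pow_add, ← mulVec_mulVec, hNn, mulVec_smul,
      mulVec_mulVec, (hcNU.pow_pow m m).eq, ← mulVec_mulVec, hNpow m (by omega), hUe0]
  have hNall : (N ^ (2 * (m + 1))) *ᵥ (f 0 : Fin (m + 1) ⊕ Fin (m + 1) → F) = 0 := by
    rw [show 2 * (m + 1) = (2 * (m + 1) - 1) + 1 by omega, pow_succ', ← mulVec_mulVec, hNtop,
      mulVec_smul, hNe0, smul_zero]
  refine ⟨⟨2 * (m + 1), ?_⟩, ?_⟩
  · apply Matrix.ext
    intro i j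
    have key : (N ^ (2 * (m + 1))) *ᵥ (Pi.single j 1 : Fin (m + 1) ⊕ Fin (m + 1) → F) = 0 := by
      rcases j with ⟨k, hk⟩ | ⟨k, hk⟩
      · have h1 : (Pi.single (Sum.inl ⟨k, hk⟩) 1 : Fin (m + 1) ⊕ Fin (m + 1) → F) = f k :=
          (f_eq hk).symm
        rw [h1, ← hMpow k hk, mulVec_mulVec, ((hcNM.pow_pow _ k).eq), ← mulVec_mulVec, hNall,
          mulVec_zero]
      · have h1 : (Pi.single (Sum.inr ⟨k, hk⟩) 1 : Fin (m + 1) ⊕ Fin (m + 1) → F) = e k :=
          (e_eq hk).symm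
        have h2 := hNkill k hk (2 * (m + 1) - k - 1)
        rw [h1, show 2 * (m + 1) = 2 * (m + 1) - k - 1 + k + 1 by omega]
        exact h2
    have := congrFun key i
    rw [mulVec_single_one] at this
    simpa using this
  · intro h
    rw [h, zero_mulVec] at hNtop
    have := hNtop.symm
    rw [smul_eq_zero] at this
    rcases this with h1 | h1
    · exact hc0 h1
    · exact e_ne_zero (by omega) h1

end Regular


section Main

variable {F : Type*} [Field F] [Fintype F]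

lemma exists_ξ (hF : Fintype.card F ≠ 2) :
    ∃ ξ : F, ξ ≠ -1 ∧ ∀ d : F, d ≠ 0 → ∃ j : ℕ, d = ξ ^ (j + 1) ∨ d = - ξ ^ (j + 1) := by
  obtain ⟨g, hg⟩ := IsCyclic.exists_generator (α := Fˣ)
  have hpow : ∀ d : F, d ≠ 0 → ∃ j : ℕ, d = (g : F) ^ (j + 1) := by
    intro d hd
    have h1 : Units.mk0 d hd ∈ Subgroup.zpowers g := hg _
    rw [← mem_powers_iff_mem_zpowers] at h1
    obtain ⟨m, hm⟩ := h1
    have hord : 0 < orderOf g := orderOf_pos g
    refine ⟨m + orderOf g - 1, ?_⟩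
    have h2 : m + orderOf g - 1 + 1 = m + orderOf g := by omega
    rw [h2]
    have h3 : g ^ (m + orderOf g) = Units.mk0 d hd := by
      rw [pow_add, pow_orderOf_eq_one, mul_one]
      exact hm
    have := congrArg (fun x : Fˣ => (x : F)) h3
    simpa using this.symm
  by_cases hg1 : (g : F) = -1
  · refine ⟨1, ?_, ?_⟩
    · intro h1
      apply hF
      classical
      have huniv : (Finset.univ : Finset F) = {0, 1} := by
        ext d
        simp only [Finset.mem_insert, Finset.mem_singleton, Finset.mem_univ, true_iff]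
        by_cases hd : d = 0
        · exact Or.inl hd
        · right
          obtain ⟨j, hj⟩ := hpow d hd
          rw [hj, hg1, ← h1, one_pow]
      rw [← Finset.card_univ, huniv, Finset.card_pair zero_ne_one]
    · intro d hd
      obtain ⟨j, hj⟩ := hpow d hd
      refine ⟨0, ?_⟩
      rw [hj, hg1]
      rcases neg_one_pow_eq_or F (j + 1) with h | h
      · left; rw [h]; simp
      · right; rw [h]; simp
  · exact ⟨g, hg1, fun d hd => by
      obtain ⟨j, hj⟩ := hpow d hd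
      exact ⟨j, Or.inl hj⟩⟩

theorem main_gen (n : ℕ) (hn : 2 ≤ n) (h22 : ¬ (n = 2 ∧ Fintype.card F = 2)) :
    ∃ g h : Sp (Fin n) F,
      Subgroup.closure ({u n F, g * u n F * g⁻¹, h * u n F * h⁻¹} : Set (Sp (Fin n) F)) = ⊤ := by
  have hv : (s n F)⁻¹ * u n F * ((s n F)⁻¹)⁻¹ = v n F := by
    rw [inv_inv, v]
  by_cases hF : Fintype.card F = 2
  · have hn3 : 3 ≤ n := by
      by_contra hc
      exact h22 ⟨by omega, hF⟩
    refine ⟨(s n F)⁻¹, (h0 n F)⁻¹, ?_⟩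
    set H := Subgroup.closure ({u n F, (s n F)⁻¹ * u n F * ((s n F)⁻¹)⁻¹,
      (h0 n F)⁻¹ * u n F * ((h0 n F)⁻¹)⁻¹} : Set (Sp (Fin n) F)) with hH
    have hu : u n F ∈ H := Subgroup.subset_closure (by simp)
    have hvH : v n F ∈ H := by
      rw [← hv]
      exact Subgroup.subset_closure (by simp)
    have hy : (h0 n F)⁻¹ * u n F * h0 n F ∈ H := by
      have : (h0 n F)⁻¹ * u n F * ((h0 n F)⁻¹)⁻¹ ∈ H := Subgroup.subset_closure (by simp)
      rwa [inv_inv] at this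
    have h1 : T (e 0) (1 : F) ∈ H := by
      rw [← conj_h0 hn3]
      exact mul_mem hy (inv_mem hu)
    apply eq_top_of_T_e0 hn hu hvH
    intro c
    have hc : c = 0 ∨ c = 1 := by
      by_contra hc
      push Not at hc
      have : 2 < Fintype.card F :=
        Fintype.two_lt_card_iff.mpr ⟨0, 1, c, zero_ne_one, hc.1.symm, hc.2.symm⟩
      omega
    rcases hc with rfl | rfl
    · rw [T_zero_right]
      exact one_mem H
    · exact h1
  · obtain ⟨ξ, hξ1, hξ⟩ := exists_ξ hF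
    have ha : 1 + ξ ≠ 0 := by
      intro h
      exact hξ1 (eq_neg_of_add_eq_zero_right h)
    refine ⟨(s n F)⁻¹, tt n (1 + ξ) ha, ?_⟩
    set H := Subgroup.closure ({u n F, (s n F)⁻¹ * u n F * ((s n F)⁻¹)⁻¹,
      tt n (1 + ξ) ha * u n F * (tt n (1 + ξ) ha)⁻¹} : Set (Sp (Fin n) F)) with hH
    have hu : u n F ∈ H := Subgroup.subset_closure (by simp)
    have hvH : v n F ∈ H := by
      rw [← hv]
      exact Subgroup.subset_closure (by simp)
    have hy : tt n (1 + ξ) ha * u n F * (tt n (1 + ξ) ha)⁻¹ ∈ H := Subgroup.subset_closure (by simp)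
    have hX : E (e 0) (f 1) (-ξ) ∈ H := by
      have := mul_mem (inv_mem hu) hy
      rwa [uinv_conj_tt hn, add_sub_cancel_left] at this
    exact eq_top_of_T_e0 hn hu hvH (fun c => T_e0_all hu hvH hn hξ hX c)

end Main

end Cfsg.Agent.Lib.SpRegGen
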