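import Mathlib
import Cfsg.Agent.Lib.FpfNorm
import Cfsg.Agent.Lib.BurnsidePQ

/-!
# Finite groups whose non-identity elements have order a power of two or a prime

Basic facts and the structure of `L / O₂(L)` for subgroups `L` with a nontrivial normal 2-subgroup.
-/

set_option autoImplicit false

namespace Cfsg.Agent.Lib.Spec5

universe u

/-- The property of the statement. -/
def IsP (G : Type*) [Group G] : Prop :=
  ∀ g : G, g ≠ 1 → (∃ k : ℕ, orderOf g = 2 ^ k) ∨ ((orderOf g).Prime ∧ orderOf g ≠ 0)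

section basics

variable {G : Type*} [Group G]

theorem IsP.of_surjective {H : Type*} [Group H] (hP : IsP G) (f : G →* H)
    (hf : Function.Surjective f) : IsP H := by
  intro h' hh'
  obtain ⟨g, rfl⟩ := hf h'
  have hg : g ≠ 1 := by
    rintro rfl
    exact hh' (map_one f)
  have hd : orderOf (f g) ∣ orderOf g := orderOf_map_dvd f g
  have hne : orderOf (f g) ≠ 1 := fun h => hh' (orderOf_eq_one_iff.mp h)
  rcases hP g hg with ⟨k, hk⟩ | ⟨hp, h5⟩
  · left
    rw [hk] at hd
    obtain ⟨j, -, hj⟩ := (Nat.dvd_prime_pow Nat.prime_two).mp hd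
    exact ⟨j, hj⟩
  · right
    have he : orderOf (f g) = orderOf g := by
      rcases (Nat.dvd_prime hp).mp hd with h | h
      · exact absurd h hne
      · exact h
    rw [he]
    exact ⟨hp, h5⟩

theorem IsP.of_injective {H : Type*} [Group H] (hP : IsP G) (f : H →* G)
    (hf : Function.Injective f) : IsP H := by
  intro h hh
  have h1 : f h ≠ 1 := fun he => hh (hf (he.trans (map_one f).symm))
  have h2 := hP (f h) h1
  rwa [orderOf_injective f hf h] at h2

theorem IsP.subgroup (hP : IsP G) (H : Subgroup G) : IsP H :=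
  hP.of_injective H.subtype H.subtype_injective

theorem IsP.of_mulEquiv {H : Type*} [Group H] (hP : IsP G) (e : G ≃* H) : IsP H :=
  hP.of_surjective e.toMonoidHom e.surjective

theorem IsP.quotient (hP : IsP G) (N : Subgroup G) [N.Normal] : IsP (G ⧸ N) :=
  hP.of_surjective (QuotientGroup.mk' N) (QuotientGroup.mk'_surjective N)

/-- Commuting non-identity elements cannot have coprime orders. -/
theorem IsP.comm_false (hP : IsP G) {a b : G} (hab : a * b = b * a) (ha : a ≠ 1) (hb : b ≠ 1)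
    (hc : Nat.Coprime (orderOf a) (orderOf b)) : False := by
  have ho : orderOf (a * b) = orderOf a * orderOf b :=
    Commute.orderOf_mul_eq_mul_orderOf_of_coprime hab hc
  have ha1 : orderOf a ≠ 1 := fun h => ha (orderOf_eq_one_iff.mp h)
  have hb1 : orderOf b ≠ 1 := fun h => hb (orderOf_eq_one_iff.mp h)
  have hab1 : a * b ≠ 1 := by
    intro h
    rw [h, orderOf_one] at ho
    exact ha1 (Nat.eq_one_of_mul_eq_one_right ho.symm)
  rcases hP (a * b) hab1 with ⟨k, hk⟩ | ⟨hp, -⟩
  · rw [hk] at ho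
    have h1 : orderOf a ∣ 2 ^ k := ⟨orderOf b, ho⟩
    have h2 : orderOf b ∣ 2 ^ k := ⟨orderOf a, by rw [ho, mul_comm]⟩
    obtain ⟨i, -, hi⟩ := (Nat.dvd_prime_pow Nat.prime_two).mp h1
    obtain ⟨j, -, hj⟩ := (Nat.dvd_prime_pow Nat.prime_two).mp h2
    have hi0 : i ≠ 0 := by
      rintro rfl
      exact ha1 (by simpa using hi)
    have hj0 : j ≠ 0 := by
      rintro rfl
      exact hb1 (by simpa using hj)
    have h3 : 2 ∣ orderOf a := by
      rw [hi]
      exact dvd_pow_self 2 hi0
    have h4 : 2 ∣ orderOf b := by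
      rw [hj]
      exact dvd_pow_self 2 hj0
    have h5 := Nat.dvd_gcd h3 h4
    rw [hc.gcd_eq_one] at h5
    omega
  · rw [ho] at hp
    exact Nat.not_prime_mul ha1 hb1 hp

/-- A 2-element and an odd element commuting. -/
theorem IsP.comm_two_odd (hP : IsP G) {a b : G} (hab : a * b = b * a) (ha : ∃ k : ℕ, orderOf a = 2 ^ k)
    (hb : Odd (orderOf b)) : a = 1 ∨ b = 1 := by
  by_contra hne
  push Not at hne
  obtain ⟨k, hk⟩ := ha
  refine hP.comm_false hab hne.1 hne.2 ?_
  rw [hk]
  exact Nat.Coprime.pow_left k (Nat.coprime_two_left.mpr hb)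

/-- The dichotomy. -/
theorem IsP.dich (hP : IsP G) {g : G} (hg : g ≠ 1) :
    (∃ k : ℕ, orderOf g = 2 ^ k) ∨ ((orderOf g).Prime ∧ Odd (orderOf g)) := by
  rcases hP g hg with h | ⟨hp, -⟩
  · exact Or.inl h
  · rcases hp.eq_two_or_odd' with h2 | h2
    · exact Or.inl ⟨1, by simpa using h2⟩
    · exact Or.inr ⟨hp, h2⟩

/-- Each element is a 2-element or of odd order. -/
theorem IsP.two_or_odd (hP : IsP G) (g : G) :
    (∃ k : ℕ, orderOf g = 2 ^ k) ∨ Odd (orderOf g) := by
  by_cases hg : g = 1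
  · subst hg
    exact Or.inl ⟨0, by simp⟩
  · rcases hP.dich hg with h | h
    · exact Or.inl h
    · exact Or.inr h.2

theorem two_of_mem {H : Subgroup G} (hH : IsPGroup 2 H) {g : G} (hg : g ∈ H) :
    ∃ k : ℕ, orderOf g = 2 ^ k := by
  obtain ⟨k, hk⟩ := IsPGroup.iff_orderOf.mp hH ⟨g, hg⟩
  exact ⟨k, by rwa [Subgroup.orderOf_mk] at hk⟩

/-- A subgroup all of whose elements are 2-elements is a 2-group. -/
theorem isPGroup_of_two {H : Subgroup G} (h : ∀ g ∈ H, ∃ k : ℕ, orderOf g = 2 ^ k) : IsPGroup 2 H := by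
  rw [IsPGroup.iff_orderOf]
  rintro ⟨g, hg⟩
  rw [Subgroup.orderOf_mk]
  exact h g hg

/-- An element that is both a 2-element and of odd order is trivial. -/
theorem eq_one_of_two_of_odd {g : G} (h2 : ∃ k : ℕ, orderOf g = 2 ^ k) (ho : Odd (orderOf g)) : g = 1 := by
  obtain ⟨k, hk⟩ := h2
  rw [hk] at ho
  rcases k with _ | k
  · rw [← orderOf_eq_one_iff, hk]
    simp
  · exfalso
    rw [pow_succ] at ho
    exact (Nat.not_odd_iff_even.mpr (even_two.mul_left _)) ho

/-- The centralizer of a non-identity 2-element is a 2-group. -/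
theorem IsP.isPGroup_centralizer (hP : IsP G) {t : G} (ht : t ≠ 1) (ht2 : ∃ k : ℕ, orderOf t = 2 ^ k) :
    IsPGroup 2 (Subgroup.centralizer ({t} : Set G)) := by
  apply isPGroup_of_two
  intro c hc
  rcases hP.two_or_odd c with h | h
  · exact h
  · have hct : t * c = c * t := (Subgroup.mem_centralizer_singleton_iff.mp hc).symm
    rcases hP.comm_two_odd hct ht2 h with h1 | h1
    · exact absurd h1 ht
    · exact ⟨0, by simp [h1]⟩

/-- The centralizer in a subgroup `H` of a non-identity 2-element is a 2-group. -/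
theorem IsP.comm_odd_eq_one (hP : IsP G) {t c : G} (ht : t ≠ 1) (ht2 : ∃ k : ℕ, orderOf t = 2 ^ k)
    (hc : Odd (orderOf c)) (hct : t * c = c * t) : c = 1 := by
  rcases hP.comm_two_odd hct ht2 hc with h1 | h1
  · exact absurd h1 ht
  · exact h1

/-- Powers of odd elements are odd, of 2-elements 2-elements. -/
theorem odd_pow {g : G} (h : Odd (orderOf g)) (n : ℕ) : Odd (orderOf (g ^ n)) := by
  have : orderOf (g ^ n) ∣ orderOf g := orderOf_pow_dvd n
  exact Odd.of_dvd_nat h this

theorem two_pow {g : G} (h : ∃ k : ℕ, orderOf g = 2 ^ k) (n : ℕ) : ∃ k : ℕ, orderOf (g ^ n) = 2 ^ k := by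
  obtain ⟨k, hk⟩ := h
  have : orderOf (g ^ n) ∣ 2 ^ k := hk ▸ orderOf_pow_dvd n
  obtain ⟨j, -, hj⟩ := (Nat.dvd_prime_pow Nat.prime_two).mp this
  exact ⟨j, hj⟩

/-- Two conjugate elements have the same order. -/
theorem orderOf_conj (a b : G) : orderOf (a * b * a⁻¹) = orderOf b := by
  have := orderOf_injective (MulAut.conj a).toMonoidHom (MulAut.conj a).injective b
  simpa [MulAut.conj_apply] using this

end basics

end Cfsg.Agent.Lib.Spec5
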