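import Mathlib

/-!
# The arithmetic of the class equation.
-/

set_option autoImplicit false

namespace Cfsg.Agent.Lib.Spec5

theorem dioph11 {r s e : ℕ} (hr : 3 ∣ r) (hs : 5 ∣ s) (hr0 : 0 < r) (hs0 : 0 < s)
    (he : e = 0 ∨ e = 1 ∨ e = 2 ∨ e = 4 ∨ e = 8) (heq : (13 + e) * (r * s) + 1 = 32 * r + 32 * s) :
    r = 3 ∧ s = 5 := by
  have hr3 : 3 ≤ r := Nat.le_of_dvd hr0 hr
  have hs5 : 5 ≤ s := Nat.le_of_dvd hs0 hs
  have hr6 : r < 6 := by
    by_contra hc
    push Not at hc
    have h1 : 13 * (r * s) ≤ (13 + e) * (r * s) := Nat.mul_le_mul_right _ (by omega)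
    nlinarith [Nat.mul_le_mul hc hs5, Nat.mul_le_mul_left r hs5, Nat.mul_le_mul_right s hc]
  have hr' : r = 3 := by
    obtain ⟨k, rfl⟩ := hr
    omega
  subst hr'
  rcases he with rfl | rfl | rfl | rfl | rfl <;> omega

theorem dioph12 {r s e : ℕ} (hr : 3 ∣ r) (hs : 5 ∣ s) (hr0 : 0 < r) (hs0 : 0 < s)
    (he : e = 0 ∨ e = 1 ∨ e = 2 ∨ e = 4 ∨ e = 8) (heq : 3 * (r * s) + 32 * s + 16 * r = 1 + e * (r * s)) :
    False := by
  have hr3 : 3 ≤ r := Nat.le_of_dvd hr0 hr
  have hs5 : 5 ≤ s := Nat.le_of_dvd hs0 hs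
  have hrs : 0 < r * s := Nat.mul_pos hr0 hs0
  rcases he with rfl | rfl | rfl | rfl | rfl
  · omega
  · omega
  · omega
  · -- `(r - 32)(s - 16) = 511`
    have h1 : 4 * (r * s) = (r * s) * 4 := by ring
    have hs16 : 17 ≤ s := by
      by_contra hc
      push Not at hc
      have : r * s ≤ r * 16 := Nat.mul_le_mul_left r (by omega)
      omega
    have hr32 : 33 ≤ r := by
      by_contra hc
      push Not at hc
      have : r * s ≤ 32 * s := Nat.mul_le_mul_right s (by omega)
      omega
    have hs527 : s ≤ 527 := by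
      by_contra hc
      push Not at hc
      nlinarith [Nat.mul_le_mul hr32 hc]
    obtain ⟨k, rfl⟩ := hs
    have hk1 : 4 ≤ k := by omega
    have hk2 : k ≤ 105 := by omega
    interval_cases k <;> omega
  · -- `(5r - 32)(5s - 16) = 507`
    have hr7 : 7 ≤ r := by
      by_contra hc
      push Not at hc
      have h2 : r * s ≤ 6 * s := Nat.mul_le_mul_right s (by omega)
      omega
    have hr9 : 9 ≤ r := by
      obtain ⟨k, rfl⟩ := hr
      omega
    have hs11 : s ≤ 11 := by
      by_contra hc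
      push Not at hc
      nlinarith [Nat.mul_le_mul hr9 hc, Nat.mul_le_mul_right s hr9]
    obtain ⟨k, rfl⟩ := hs
    have hk1 : 1 ≤ k := by omega
    have hk2 : k ≤ 2 := by omega
    interval_cases k <;> omega

theorem dioph21 {r s e : ℕ} (hr : 3 ∣ r) (hs : 5 ∣ s) (hr0 : 0 < r) (hs0 : 0 < s)
    (he : e = 0 ∨ e = 1 ∨ e = 2 ∨ e = 4 ∨ e = 8) (heq : 3 * (r * s) + 16 * s + 32 * r = 1 + e * (r * s)) :
    False := by
  have hr3 : 3 ≤ r := Nat.le_of_dvd hr0 hr
  have hs5 : 5 ≤ s := Nat.le_of_dvd hs0 hs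
  have hrs : 0 < r * s := Nat.mul_pos hr0 hs0
  rcases he with rfl | rfl | rfl | rfl | rfl
  · omega
  · omega
  · omega
  · -- `(r - 16)(s - 32) = 511`
    have hs32 : 33 ≤ s := by
      by_contra hc
      push Not at hc
      have : r * s ≤ r * 32 := Nat.mul_le_mul_left r (by omega)
      omega
    have hr16 : 17 ≤ r := by
      by_contra hc
      push Not at hc
      have : r * s ≤ 16 * s := Nat.mul_le_mul_right s (by omega)
      omega
    have hr527 : r ≤ 527 := by
      by_contra hc
      push Not at hc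
      nlinarith [Nat.mul_le_mul hc hs32]
    obtain ⟨k, rfl⟩ := hr
    have hk1 : 5 ≤ k := by omega
    have hk2 : k ≤ 175 := by omega
    interval_cases k <;> omega
  · -- `(5r - 16)(5s - 32) = 507`
    have hs7 : 7 ≤ s := by
      by_contra hc
      push Not at hc
      have h3 : r * s ≤ r * 6 := Nat.mul_le_mul_left r (by omega)
      omega
    have hs10 : 10 ≤ s := by
      obtain ⟨k, rfl⟩ := hs
      omega
    have hr8 : r ≤ 8 := by
      by_contra hc
      push Not at hc
      nlinarith [Nat.mul_le_mul hc hs10, Nat.mul_le_mul_left r hs10]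
    obtain ⟨k, rfl⟩ := hr
    have hk1 : 1 ≤ k := by omega
    have hk2 : k ≤ 2 := by omega
    interval_cases k <;> omega

/-- The arithmetic of the class equation. -/
theorem dioph {r s e N₃ N₅ b₃ b₅ : ℕ} (hr : 3 ∣ r) (hs : 5 ∣ s) (hr0 : 0 < r) (hs0 : 0 < s)
    (he : e = 0 ∨ e = 1 ∨ e = 2 ∨ e = 4 ∨ e = 8) (hb₃ : 2 ∣ b₃) (hb₃0 : 0 < b₃) (hb₅ : 2 ∣ b₅) (hb₅0 : 0 < b₅)
    (h₃ : N₃ * b₃ = 64 * s) (h₅ : N₅ * b₅ = 64 * r)
    (heq : 64 * (r * s) + N₃ + N₅ = 1 + (13 + e) * (r * s) + N₃ * r + N₅ * s) : r = 3 ∧ s = 5 := by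
  obtain ⟨a, rfl⟩ := hb₃
  obtain ⟨c, rfl⟩ := hb₅
  have ha0 : 0 < a := by omega
  have hc0 : 0 < c := by omega
  have h₃' : N₃ * a = 32 * s := by nlinarith
  have h₅' : N₅ * c = 32 * r := by nlinarith
  have hr3 : 3 ≤ r := Nat.le_of_dvd hr0 hr
  have hs5 : 5 ≤ s := Nat.le_of_dvd hs0 hs
  have hrs : 0 < r * s := Nat.mul_pos hr0 hs0
  have he21 : (13 + e) * (r * s) ≤ 21 * (r * s) := Nat.mul_le_mul_right _ (by omega)
  by_cases ha1 : a = 1
  · have hN₃ : N₃ = 32 * s := by rw [← h₃', ha1, mul_one]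
    subst hN₃
    have e1 : 32 * s * r = 32 * (r * s) := by ring
    by_cases hc1 : c = 1
    · have hN₅ : N₅ = 32 * r := by rw [← h₅', hc1, mul_one]
      subst hN₅
      have e2 : 32 * r * s = 32 * (r * s) := by ring
      apply dioph11 hr hs hr0 hs0 he
      have e3 : (13 + e) * (r * s) = 13 * (r * s) + e * (r * s) := by ring
      rw [e1, e2] at heq
      rw [e3]
      omega
    · by_cases hc2 : c = 2
      · exfalso
        have hN₅ : N₅ = 16 * r := by
          rw [hc2] at h₅'
          omega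
        subst hN₅
        have e2 : 16 * r * s = 16 * (r * s) := by ring
        apply dioph12 hr hs hr0 hs0 he
        have e3 : (13 + e) * (r * s) = 13 * (r * s) + e * (r * s) := by ring
        rw [e1, e2] at heq
        omega
      · exfalso
        have hc3 : 3 ≤ c := by omega
        have h1 : N₅ * 3 ≤ 32 * r := by
          rw [← h₅']
          exact Nat.mul_le_mul_left _ hc3
        have h2 : N₅ * s * 3 ≤ 32 * (r * s) := by
          have := Nat.mul_le_mul_right s h1
          calc N₅ * s * 3 = N₅ * 3 * s := by ring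
            _ ≤ 32 * r * s := this
            _ = 32 * (r * s) := by ring
        rw [e1] at heq
        omega
  · by_cases hc1 : c = 1
    · have hN₅ : N₅ = 32 * r := by rw [← h₅', hc1, mul_one]
      subst hN₅
      have e2 : 32 * r * s = 32 * (r * s) := by ring
      by_cases ha2 : a = 2
      · exfalso
        have hN₃ : N₃ = 16 * s := by
          rw [ha2] at h₃'
          omega
        subst hN₃
        have e1 : 16 * s * r = 16 * (r * s) := by ring
        apply dioph21 hr hs hr0 hs0 he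
        have e3 : (13 + e) * (r * s) = 13 * (r * s) + e * (r * s) := by ring
        rw [e1, e2] at heq
        omega
      · exfalso
        have ha3 : 3 ≤ a := by omega
        have h1 : N₃ * 3 ≤ 32 * s := by
          rw [← h₃']
          exact Nat.mul_le_mul_left _ ha3
        have h2 : N₃ * r * 3 ≤ 32 * (r * s) := by
          have := Nat.mul_le_mul_right r h1
          calc N₃ * r * 3 = N₃ * 3 * r := by ring
            _ ≤ 32 * s * r := this
            _ = 32 * (r * s) := by ring
        rw [e2] at heq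
        omega
    · exfalso
      have ha2 : 2 ≤ a := by omega
      have hc2 : 2 ≤ c := by omega
      have h1 : N₃ * 2 ≤ 32 * s := by
        rw [← h₃']
        exact Nat.mul_le_mul_left _ ha2
      have h2 : N₃ * r * 2 ≤ 32 * (r * s) := by
        have := Nat.mul_le_mul_right r h1
        calc N₃ * r * 2 = N₃ * 2 * r := by ring
          _ ≤ 32 * s * r := this
          _ = 32 * (r * s) := by ring
      have h3 : N₅ * 2 ≤ 32 * r := by
        rw [← h₅']
        exact Nat.mul_le_mul_left _ hc2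
      have h4 : N₅ * s * 2 ≤ 32 * (r * s) := by
        have := Nat.mul_le_mul_right s h3
        calc N₅ * s * 2 = N₅ * 2 * s := by ring
          _ ≤ 32 * r * s := this
          _ = 32 * (r * s) := by ring
      omega

end Cfsg.Agent.Lib.Spec5
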