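import Mathlib
import Cfsg.Agent.Lib.Spec5Base
import Cfsg.Agent.Lib.MinNorm
import Cfsg.Agent.Lib.FpfGeneral

/-!
# The structure of `L / O₂(L)` for groups with the property `IsP`.
-/

set_option autoImplicit false

namespace Cfsg.Agent.Lib.Spec5

open Cfsg.Agent.Lib.FpfNorm

universe u

/-- `p ^ a * q ^ b` from at most two prime factors. -/
theorem exists_two_primes_of_card_le_two {n : ℕ} (hn : n ≠ 0) (h : n.primeFactors.card ≤ 2) :
    ∃ p q a b : ℕ, p.Prime ∧ q.Prime ∧ n = p ^ a * q ^ b := by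
  have hprod : ∏ p ∈ n.primeFactors, p ^ n.factorization p = n := by
    have := Nat.prod_factorization_pow_eq_self hn
    rwa [Finsupp.prod, Nat.support_factorization] at this
  have h3 : n.primeFactors.card = 0 ∨ n.primeFactors.card = 1 ∨ n.primeFactors.card = 2 := by omega
  rcases h3 with h0 | h1 | h2
  · rw [Finset.card_eq_zero] at h0
    rw [h0, Finset.prod_empty] at hprod
    exact ⟨2, 2, 0, 0, Nat.prime_two, Nat.prime_two, by simp [← hprod]⟩
  · obtain ⟨p, hp⟩ := Finset.card_eq_one.mp h1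
    have hpp : p.Prime := Nat.prime_of_mem_primeFactors (by rw [hp]; simp)
    rw [hp, Finset.prod_singleton] at hprod
    exact ⟨p, 2, n.factorization p, 0, hpp, Nat.prime_two, by simp [hprod]⟩
  · obtain ⟨p, q, hpq, hp⟩ := Finset.card_eq_two.mp h2
    have hpp : p.Prime := Nat.prime_of_mem_primeFactors (by rw [hp]; simp)
    have hqq : q.Prime := Nat.prime_of_mem_primeFactors (by rw [hp]; simp)
    rw [hp, Finset.prod_pair hpq] at hprod
    exact ⟨p, q, _, _, hpp, hqq, hprod.symm⟩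

section W

variable {W : Type u} {V : Type*} [Group W] [Finite W] [CommGroup V] [Finite V] [Nontrivial V]

/-- Fixed-point-free on a subgroup all of whose non-identity elements are odd. -/
theorem fpf_of_odd (φ : W →* MulAut V)
    (hfpf : ∀ w : W, w ≠ 1 → Odd (orderOf w) → ∀ v : V, φ w v = v → v = 1)
    (A : Subgroup W) (hA : ∀ a ∈ A, Odd (orderOf a)) : IsFpf (φ.comp A.subtype) := by
  intro a ha v hv
  exact hfpf a (fun h => ha (Subtype.ext h)) (hA a a.2) v hv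

/-- The structure theorem. -/
theorem W_structure (hW : IsP W) (φ : W →* MulAut V)
    (hfpf : ∀ w : W, w ≠ 1 → Odd (orderOf w) → ∀ v : V, φ w v = v → v = 1)
    (hO2 : ∀ A : Subgroup W, A.Normal → IsPGroup 2 A → A = ⊥) [Nontrivial W]
    [hsol : Group.IsSolvable W] :
    ∃ y : W, (orderOf y).Prime ∧ Odd (orderOf y) ∧ (∀ g : W, ∃ i : ℕ, g * y * g⁻¹ = y ^ i) ∧
      (∀ a b : W, ∃ i : ℕ, a * b * a⁻¹ * b⁻¹ = y ^ i) := by
  classical
  obtain ⟨r, M, hr, hMn, hMb, -, hMc, hMe⟩ :=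
    Cfsg.Agent.Lib.MinNorm.exists_abelian_exponent_normal_le (⊤ : Subgroup W) inferInstance
      (by
        intro h
        obtain ⟨a, b, hab⟩ := exists_pair_ne W
        have h1 : (a : W) ∈ (⊤ : Subgroup W) := trivial
        have h2 : (b : W) ∈ (⊤ : Subgroup W) := trivial
        rw [h, Subgroup.mem_bot] at h1 h2
        exact hab (h1.trans h2.symm))
  have hr2 : r ≠ 2 := by
    rintro rfl
    apply hMb
    apply hO2 M hMn
    apply isPGroup_of_two
    intro g hg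
    have h1 : orderOf g ∣ 2 ^ 1 := orderOf_dvd_of_pow_eq_one (by simpa using hMe g hg)
    obtain ⟨j, -, hj⟩ := (Nat.dvd_prime_pow Nat.prime_two).mp h1
    exact ⟨j, hj⟩
  have hrodd : Odd r := hr.odd_of_ne_two hr2
  have hoddpow : ∀ x : W, x ^ r = 1 → Odd (orderOf x) := fun x hx =>
    Odd.of_dvd_nat hrodd (orderOf_dvd_of_pow_eq_one hx)
  have hcM : IsCyclic M := by
    refine isCyclic_of_comm (fpf_of_odd φ hfpf M (fun a ha => hoddpow a (hMe a ha))) ?_
    rintro ⟨a, ha⟩ ⟨b, hb⟩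
    exact Subtype.ext (hMc a ha b hb)
  obtain ⟨g₀, hg₀⟩ := hcM.exists_generator
  set y : W := (g₀ : W) with hy
  have hy1 : y ≠ 1 := by
    intro h
    apply hMb
    rw [eq_bot_iff]
    intro x hx
    obtain ⟨i, hi⟩ := Subgroup.mem_zpowers_iff.mp (hg₀ ⟨x, hx⟩)
    have h1 : (g₀ : M) = 1 := Subtype.ext h
    rw [h1, one_zpow] at hi
    rw [Subgroup.mem_bot]
    exact (congrArg Subtype.val hi).symm
  have hyM : y ∈ M := g₀.2
  have hyo : orderOf y = r := by
    have h1 : orderOf y ∣ r := orderOf_dvd_of_pow_eq_one (hMe y hyM)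
    rcases (Nat.dvd_prime hr).mp h1 with h | h
    · exact absurd (orderOf_eq_one_iff.mp h) hy1
    · exact h
  have hMy : ∀ x ∈ M, ∃ i : ℕ, x = y ^ i := by
    intro x hx
    obtain ⟨i, hi⟩ := Subgroup.mem_zpowers_iff.mp (hg₀ ⟨x, hx⟩)
    have hi' : y ^ i = x := congrArg Subtype.val hi
    have hfin : IsOfFinOrder y := isOfFinOrder_of_finite y
    obtain ⟨n, hn⟩ := (mem_powers_iff_mem_zpowers (x := y) (y := x)).mpr
      (Subgroup.mem_zpowers_iff.mpr ⟨i, hi'⟩)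
    exact ⟨n, by simpa using hn.symm⟩
  have hconj : ∀ g : W, ∃ i : ℕ, g * y * g⁻¹ = y ^ i := fun g => hMy _ (hMn.conj_mem y hyM g)
  -- the centralizer
  have hcent : ∀ c : W, c * y = y * c → c ∈ M := by
    intro c hc
    by_cases hc1 : c = 1
    · rw [hc1]
      exact M.one_mem
    have hodd : Odd (orderOf y) := by rw [hyo]; exact hrodd
    rcases hW.dich hc1 with h2 | ⟨hp, hodd'⟩
    · rcases hW.comm_two_odd hc h2 hodd with h | h
      · exact absurd h hc1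
      · exact absurd h hy1
    · have hrr : orderOf c = r := by
        by_contra hne
        refine hW.comm_false hc hc1 hy1 ?_
        rw [hyo]
        exact (Nat.coprime_primes hp hr).mpr hne
      -- the subgroup generated by `c` and `y`
      set B : Subgroup W := Subgroup.closure {c, y} with hB
      have hBc : ∀ a ∈ B, ∀ b ∈ B, a * b = b * a := by
        intro a ha b hb
        have hcomm : ∀ x ∈ ({c, y} : Set W), ∀ z ∈ ({c, y} : Set W), x * z = z * x := by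
          rintro x (rfl | rfl) z (rfl | rfl)
          · rfl
          · exact hc
          · exact hc.symm
          · rfl
        letI := Subgroup.closureCommGroupOfComm hcomm
        have := mul_comm (⟨a, ha⟩ : B) ⟨b, hb⟩
        exact congrArg Subtype.val this
      have hBe : ∀ a ∈ B, a ^ r = 1 := by
        intro a ha
        induction ha using Subgroup.closure_induction with
        | mem x hx =>
          rcases hx with rfl | rfl
          · rw [← hrr]; exact pow_orderOf_eq_one _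
          · rw [← hyo]; exact pow_orderOf_eq_one _
        | one => simp
        | mul a b ha hb ha' hb' =>
          have hab : Commute a b := hBc a ha b hb
          rw [hab.mul_pow, ha', hb', one_mul]
        | inv a ha ha' => rw [inv_pow, ha', inv_one]
      have hcB : IsCyclic B := by
        refine isCyclic_of_comm (fpf_of_odd φ hfpf B (fun a ha => hoddpow a (hBe a ha))) ?_
        rintro ⟨a, ha⟩ ⟨b, hb⟩
        exact Subtype.ext (hBc a ha b hb)
      have hcmem : c ∈ B := Subgroup.subset_closure (by simp)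
      have hymem : y ∈ B := Subgroup.subset_closure (by simp)
      have heq : Subgroup.zpowers (⟨c, hcmem⟩ : B) = Subgroup.zpowers (⟨y, hymem⟩ : B) := by
        apply Cfsg.Agent.Lib.FpfGeneral.eq_of_card_eq_of_isCyclic
        rw [Nat.card_zpowers, Nat.card_zpowers, Subgroup.orderOf_mk, Subgroup.orderOf_mk, hrr, hyo]
      have h1 : (⟨c, hcmem⟩ : B) ∈ Subgroup.zpowers (⟨y, hymem⟩ : B) := by
        rw [← heq]
        exact Subgroup.mem_zpowers _
      obtain ⟨i, hi⟩ := Subgroup.mem_zpowers_iff.mp h1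
      have hi' : y ^ i = c := congrArg Subtype.val hi
      rw [← hi']
      exact M.zpow_mem hyM i
  refine ⟨y, by rw [hyo]; exact hr, by rw [hyo]; exact hrodd, hconj, ?_⟩
  intro a b
  apply hMy
  apply hcent
  -- conjugation action on `⟨y⟩` is commutative
  obtain ⟨i, hi⟩ := hconj a⁻¹
  obtain ⟨j, hj⟩ := hconj b⁻¹
  have hpow : ∀ (g : W) (x : W) (n : ℕ), g * x ^ n * g⁻¹ = (g * x * g⁻¹) ^ n := by
    intro g x n
    exact (conj_pow).symm
  have h1 : a⁻¹ * b⁻¹ * y * (a⁻¹ * b⁻¹)⁻¹ = b⁻¹ * a⁻¹ * y * (b⁻¹ * a⁻¹)⁻¹ := by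
    have e1 : a⁻¹ * b⁻¹ * y * (a⁻¹ * b⁻¹)⁻¹ = a⁻¹ * (b⁻¹ * y * b⁻¹⁻¹) * a⁻¹⁻¹ := by group
    have e2 : b⁻¹ * a⁻¹ * y * (b⁻¹ * a⁻¹)⁻¹ = b⁻¹ * (a⁻¹ * y * a⁻¹⁻¹) * b⁻¹⁻¹ := by group
    rw [e1, e2, hi, hj, hpow, hpow, hi, hj, ← pow_mul, ← pow_mul, mul_comm]
  have h2 : (b⁻¹ * a⁻¹)⁻¹ * (a⁻¹ * b⁻¹) * y = y * ((b⁻¹ * a⁻¹)⁻¹ * (a⁻¹ * b⁻¹)) := by
    have h3 : a⁻¹ * b⁻¹ * y = b⁻¹ * a⁻¹ * y * (b⁻¹ * a⁻¹)⁻¹ * (a⁻¹ * b⁻¹) := by
      rw [← h1]; group
    calc (b⁻¹ * a⁻¹)⁻¹ * (a⁻¹ * b⁻¹) * y = (b⁻¹ * a⁻¹)⁻¹ * (a⁻¹ * b⁻¹ * y) := by group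
      _ = (b⁻¹ * a⁻¹)⁻¹ * (b⁻¹ * a⁻¹ * y * (b⁻¹ * a⁻¹)⁻¹ * (a⁻¹ * b⁻¹)) := by rw [← h3]
      _ = y * ((b⁻¹ * a⁻¹)⁻¹ * (a⁻¹ * b⁻¹)) := by group
  have h4 : (b⁻¹ * a⁻¹)⁻¹ * (a⁻¹ * b⁻¹) = a * b * a⁻¹ * b⁻¹ := by group
  rwa [h4] at h2

end W

section Package

variable {L : Type u} [Group L] [Finite L]

/-- In the quotient by a normal 2-subgroup. -/
theorem comm_mod (hP : IsP L) (Q : Subgroup L) [Q.Normal] (hQ2 : IsPGroup 2 Q) {a b : L}
    (ha : ∃ k : ℕ, orderOf a = 2 ^ k) (hb : Odd (orderOf b)) (hb1 : b ≠ 1)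
    (hab : a * b * a⁻¹ * b⁻¹ ∈ Q) : a ∈ Q := by
  have hW := hP.quotient Q
  have h1 : (a : L ⧸ Q) * (b : L ⧸ Q) = (b : L ⧸ Q) * (a : L ⧸ Q) := by
    have h2 : ((a * b * a⁻¹ * b⁻¹ : L) : L ⧸ Q) = 1 := (QuotientGroup.eq_one_iff _).mpr hab
    have h3 : ((a * b * a⁻¹ * b⁻¹ : L) : L ⧸ Q) =
        (a : L ⧸ Q) * (b : L ⧸ Q) * (a : L ⧸ Q)⁻¹ * (b : L ⧸ Q)⁻¹ := rfl
    rw [h3] at h2
    have h4 := mul_inv_eq_one.mp h2
    exact mul_inv_eq_iff_eq_mul.mp h4
  have ha' : ∃ k : ℕ, orderOf (a : L ⧸ Q) = 2 ^ k := by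
    obtain ⟨k, hk⟩ := ha
    have h2 : orderOf (a : L ⧸ Q) ∣ 2 ^ k := hk ▸ orderOf_map_dvd (QuotientGroup.mk' Q) a
    obtain ⟨j, -, hj⟩ := (Nat.dvd_prime_pow Nat.prime_two).mp h2
    exact ⟨j, hj⟩
  have hb' : Odd (orderOf (b : L ⧸ Q)) :=
    Odd.of_dvd_nat hb (orderOf_map_dvd (QuotientGroup.mk' Q) b)
  rcases hW.comm_two_odd h1 ha' hb' with h | h
  · exact (QuotientGroup.eq_one_iff _).mp h
  · exfalso
    have hbQ : b ∈ Q := (QuotientGroup.eq_one_iff _).mp h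
    exact hb1 (eq_one_of_two_of_odd (two_of_mem hQ2 hbQ) hb)

/-- The structure of `L / O₂(L)`, in `L`. -/
theorem package (hP : IsP L) (Q : Subgroup L) [hQn : Q.Normal] (hQ2 : IsPGroup 2 Q) (hQ1 : Q ≠ ⊥)
    (hO : ∀ Q' : Subgroup L, Q'.Normal → IsPGroup 2 Q' → Q' ≤ Q) (hne : Q ≠ ⊤)
    (hsol0 : Group.IsSolvable (L ⧸ Q)) :
    ∃ y : L, (orderOf y).Prime ∧ Odd (orderOf y) ∧
      (∀ g : L, ∃ i : ℕ, ∃ q ∈ Q, g * y * g⁻¹ = y ^ i * q) ∧
      (∀ a b : L, ∃ i : ℕ, ∃ q ∈ Q, a * b * a⁻¹ * b⁻¹ = y ^ i * q) := by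
  classical
  set W := L ⧸ Q with hWdef
  have hW : IsP W := hP.quotient Q
  -- the centre of `Q`
  set V₀ : Subgroup L := Q ⊓ Subgroup.centralizer (Q : Set L) with hV₀
  haveI hV₀n : V₀.Normal := by
    refine ⟨fun v hv g => ?_⟩
    refine Subgroup.mem_inf.mpr ⟨hQn.conj_mem v hv.1 g, ?_⟩
    rw [Subgroup.mem_centralizer_iff]
    intro q hq
    have h1 : g⁻¹ * q * g ∈ Q := by
      have := hQn.conj_mem q hq g⁻¹
      simpa using this
    have h2 := (Subgroup.mem_centralizer_iff.mp hv.2) _ h1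
    calc q * (g * v * g⁻¹) = g * ((g⁻¹ * q * g) * v) * g⁻¹ := by group
      _ = g * (v * (g⁻¹ * q * g)) * g⁻¹ := by rw [h2]
      _ = g * v * g⁻¹ * q := by group
  have hV₀ne : ∃ v ∈ V₀, v ≠ 1 := by
    haveI : Nontrivial Q := Q.bot_or_nontrivial.resolve_left hQ1
    haveI := hQ2.center_nontrivial
    obtain ⟨z, hz⟩ := exists_ne (1 : Subgroup.center Q)
    refine ⟨((z : Q) : L), Subgroup.mem_inf.mpr ⟨(z : Q).2, ?_⟩, ?_⟩
    · rw [Subgroup.mem_centralizer_iff]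
      intro q hq
      have := Subgroup.mem_center_iff.mp z.2 ⟨q, hq⟩
      exact congrArg Subtype.val this
    · intro h
      apply hz
      apply Subtype.ext
      apply Subtype.ext
      exact h
  letI : CommGroup V₀ :=
    { (inferInstance : Group V₀) with
      mul_comm := by
        rintro ⟨a, ha⟩ ⟨b, hb⟩
        apply Subtype.ext
        exact Subgroup.mem_centralizer_iff.mp hb.2 a ha.1 }
  haveI : Nontrivial V₀ := by
    obtain ⟨v, hv, hv1⟩ := hV₀ne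
    exact ⟨⟨⟨v, hv⟩, 1, fun h => hv1 (congrArg Subtype.val h)⟩⟩
  -- the action
  let φ₀ : L →* MulAut V₀ := MulAut.conjNormal
  have hφ₀ : ∀ q ∈ Q, φ₀ q = 1 := by
    intro q hq
    apply MulEquiv.ext
    rintro ⟨v, hv⟩
    apply Subtype.ext
    change q * v * q⁻¹ = v
    have := Subgroup.mem_centralizer_iff.mp hv.2 q hq
    rw [this]
    group
  let φ : W →* MulAut V₀ := QuotientGroup.lift Q φ₀ (fun q hq => hφ₀ q hq)
  have hφ : ∀ g : L, φ (g : W) = φ₀ g := fun g => rfl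
  have hfpf : ∀ w : W, w ≠ 1 → Odd (orderOf w) → ∀ v : V₀, φ w v = v → v = 1 := by
    intro w hw hodd v hv
    obtain ⟨g, rfl⟩ := QuotientGroup.mk_surjective w
    have hg1 : g ≠ 1 := by
      rintro rfl
      exact hw rfl
    have hgodd : Odd (orderOf g) := by
      rcases hP.two_or_odd g with ⟨k, hk⟩ | h
      · exfalso
        apply hw
        have h2 : orderOf (g : W) ∣ 2 ^ k := hk ▸ orderOf_map_dvd (QuotientGroup.mk' Q) g
        obtain ⟨j, -, hj⟩ := (Nat.dvd_prime_pow Nat.prime_two).mp h2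
        exact eq_one_of_two_of_odd ⟨j, hj⟩ hodd
      · exact h
    have hv' : g * (v : L) * g⁻¹ = v := by
      have h1 := congrArg Subtype.val hv
      exact h1
    have hcomm : (v : L) * g = g * v := by
      rw [← mul_inv_eq_iff_eq_mul.mp hv']
    have hv2 := two_of_mem hQ2 v.2.1
    rcases hP.comm_two_odd hcomm hv2 hgodd with h | h
    · exact Subtype.ext h
    · exact absurd h hg1
  -- `O₂(W) = 1`
  have hO2 : ∀ A : Subgroup W, A.Normal → IsPGroup 2 A → A = ⊥ := by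
    intro A hA hA2
    have h1 : A.comap (QuotientGroup.mk' Q) ≤ Q := by
      apply hO _ (hA.comap _)
      apply isPGroup_of_two
      intro g hg
      have hgA : (g : W) ∈ A := hg
      obtain ⟨k, hk⟩ := two_of_mem hA2 hgA
      have hg2 : (g : W) ^ (2 ^ k) = 1 := by
        rw [← hk]
        exact pow_orderOf_eq_one _
      have hgQ : g ^ (2 ^ k) ∈ Q := by
        rw [← QuotientGroup.eq_one_iff]
        exact hg2
      obtain ⟨j, hj⟩ := IsPGroup.iff_orderOf.mp hQ2 ⟨_, hgQ⟩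
      rw [Subgroup.orderOf_mk] at hj
      have h3 : g ^ (2 ^ k * 2 ^ j) = 1 := by
        rw [pow_mul, ← hj]
        exact pow_orderOf_eq_one _
      have h4 : orderOf g ∣ 2 ^ (k + j) := by
        rw [pow_add]
        exact orderOf_dvd_of_pow_eq_one h3
      obtain ⟨i, -, hi⟩ := (Nat.dvd_prime_pow Nat.prime_two).mp h4
      exact ⟨i, hi⟩
    rw [eq_bot_iff]
    intro w hw
    obtain ⟨g, rfl⟩ := QuotientGroup.mk_surjective w
    have h2 : g ∈ Q := h1 hw
    rw [Subgroup.mem_bot]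
    exact (QuotientGroup.eq_one_iff _).mpr h2
  haveI hWnt : Nontrivial W := by
    rw [QuotientGroup.nontrivial_iff]
    exact hne
  haveI hsol : Group.IsSolvable W := hsol0
  obtain ⟨yb, hyp, hyo, hconj, hcomm⟩ := W_structure hW φ hfpf hO2
  obtain ⟨y, rfl⟩ := QuotientGroup.mk_surjective yb
  -- the lift has the same prime order
  have hy1 : (y : L) ≠ 1 := by
    rintro rfl
    have h1 : orderOf ((1 : L) : W) = 1 := by
      exact orderOf_one
    rw [h1] at hyp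
    exact Nat.not_prime_one hyp
  have hdvd : orderOf (y : W) ∣ orderOf y := orderOf_map_dvd (QuotientGroup.mk' Q) y
  have hoy : orderOf y = orderOf (y : W) := by
    rcases hP.dich hy1 with ⟨k, hk⟩ | ⟨hp, -⟩
    · exfalso
      rw [hk] at hdvd
      obtain ⟨j, -, hj⟩ := (Nat.dvd_prime_pow Nat.prime_two).mp hdvd
      have h2 : (y : W) = 1 := eq_one_of_two_of_odd ⟨j, hj⟩ hyo
      rw [h2, orderOf_one] at hyp
      exact Nat.not_prime_one hyp
    · rcases (Nat.dvd_prime hp).mp hdvd with h | h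
      · rw [h] at hyp
        exact absurd hyp Nat.not_prime_one
      · exact h.symm
  refine ⟨y, by rw [hoy]; exact hyp, by rw [hoy]; exact hyo, ?_, ?_⟩
  · intro g
    obtain ⟨i, hi⟩ := hconj (g : W)
    refine ⟨i, (y ^ i)⁻¹ * (g * y * g⁻¹), ?_, by group⟩
    rw [← QuotientGroup.eq_one_iff]
    have h1 : (((y ^ i)⁻¹ * (g * y * g⁻¹) : L) : W) =
        ((y : W) ^ i)⁻¹ * ((g : W) * (y : W) * (g : W)⁻¹) := rfl
    rw [h1, hi]
    group
  · intro a b
    obtain ⟨i, hi⟩ := hcomm (a : W) (b : W)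
    refine ⟨i, (y ^ i)⁻¹ * (a * b * a⁻¹ * b⁻¹), ?_, by group⟩
    rw [← QuotientGroup.eq_one_iff]
    have h1 : (((y ^ i)⁻¹ * (a * b * a⁻¹ * b⁻¹) : L) : W) =
        ((y : W) ^ i)⁻¹ * ((a : W) * (b : W) * (a : W)⁻¹ * (b : W)⁻¹) := rfl
    rw [h1, hi]
    group

end Package

end Cfsg.Agent.Lib.Spec5
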