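import Mathlib
import Cfsg.Agent.Lib.Spec5Tame
import Cfsg.Agent.Lib.BrolineGT

/-!
# Local analysis: `Ω₁ Z(R)`, replacement, and the order-three lemma.
-/

set_option autoImplicit false

namespace Cfsg.Agent.Lib.Spec5

universe u

open scoped commutatorElement

variable {G : Type u} [Group G] [Finite G]

/-- `Ω₁ Z(R)`. -/
def omZ (R : Subgroup G) : Subgroup G where
  carrier := {e | e ∈ R ∧ (∀ r ∈ R, e * r = r * e) ∧ e * e = 1}
  mul_mem' := by
    rintro a b ⟨haR, hac, haa⟩ ⟨hbR, hbc, hbb⟩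
    refine ⟨mul_mem haR hbR, ?_, ?_⟩
    · intro r hr
      rw [mul_assoc, hbc r hr, ← mul_assoc, hac r hr, mul_assoc]
    · calc a * b * (a * b) = a * (b * a) * b := by group
        _ = a * (a * b) * b := by rw [hbc a haR]
        _ = (a * a) * (b * b) := by group
        _ = 1 := by rw [haa, hbb, one_mul]
  one_mem' := ⟨R.one_mem, by simp, by simp⟩
  inv_mem' := by
    rintro a ⟨haR, hac, haa⟩
    have h : a⁻¹ = a := inv_eq_of_mul_eq_one_left haa
    rw [h]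
    exact ⟨haR, hac, haa⟩

lemma mem_omZ {R : Subgroup G} {e : G} : e ∈ omZ R ↔ e ∈ R ∧ (∀ r ∈ R, e * r = r * e) ∧ e * e = 1 :=
  Iff.rfl

lemma omZ_le (R : Subgroup G) : omZ R ≤ R := fun _ h => h.1

lemma omZ_conj {R : Subgroup G} {g e : G} (hg : g ∈ Nr R) (he : e ∈ omZ R) : g * e * g⁻¹ ∈ omZ R := by
  obtain ⟨heR, hec, hee⟩ := he
  refine ⟨conj_mem_Nr hg heR, ?_, ?_⟩
  · intro r hr
    have h1 := hec _ (conj_inv_mem_Nr hg hr)
    calc g * e * g⁻¹ * r = g * (e * (g⁻¹ * r * g)) * g⁻¹ := by group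
      _ = g * ((g⁻¹ * r * g) * e) * g⁻¹ := by rw [h1]
      _ = r * (g * e * g⁻¹) := by group
  · calc g * e * g⁻¹ * (g * e * g⁻¹) = g * (e * e) * g⁻¹ := by group
      _ = 1 := by rw [hee]; group

lemma omZ_comm {R : Subgroup G} {a b : G} (ha : a ∈ omZ R) (hb : b ∈ omZ R) : a * b = b * a :=
  ha.2.1 b hb.1

lemma omZ_two {R : Subgroup G} {e : G} (he : e ∈ omZ R) : ∃ k : ℕ, orderOf e = 2 ^ k := by
  have h1 : e ^ 2 ^ 1 = 1 := by
    rw [pow_one, sq]
    exact he.2.2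
  have h2 : orderOf e ∣ 2 ^ 1 := orderOf_dvd_of_pow_eq_one h1
  obtain ⟨j, -, hj⟩ := (Nat.dvd_prime_pow Nat.prime_two).mp h2
  exact ⟨j, hj⟩

/-- A non-trivial normal subgroup of a 2-group contains an involution of the centre. -/
theorem exists_central_inv_of_normal {R N : Subgroup G} (hR : IsPGroup 2 R) (hNR : N ≤ R) (hRN : R ≤ Nr N)
    (hne : N ≠ ⊥) : ∃ i ∈ N, i ∈ omZ R ∧ i ≠ 1 := by
  haveI : Fact (Nat.Prime 2) := ⟨Nat.prime_two⟩
  haveI : Group.IsNilpotent R := hR.isNilpotent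
  haveI hn : (N.subgroupOf R).Normal := (Subgroup.normal_subgroupOf_iff_le_normalizer hNR).mpr hRN
  have hne' : N.subgroupOf R ≠ ⊥ := by
    intro h
    apply hne
    rw [eq_bot_iff]
    intro q hq
    have h1 : (⟨q, hNR hq⟩ : R) ∈ N.subgroupOf R := hq
    rw [h, Subgroup.mem_bot] at h1
    rw [Subgroup.mem_bot]
    exact congrArg Subtype.val h1
  have h1 := Cfsg.Agent.Lib.BrolineGT.inf_center_ne_bot (N.subgroupOf R) hne'
  have h2 : IsPGroup 2 ↥(N.subgroupOf R ⊓ Subgroup.center R) := IsPGroup.to_subgroup hR _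
  obtain ⟨i, hi, hiI⟩ := exists_inv_of_ne_bot h2 h1
  refine ⟨(i : G), hi.1, ⟨i.2, ?_, ?_⟩, ?_⟩
  · intro r hr
    have := Subgroup.mem_center_iff.mp hi.2 ⟨r, hr⟩
    exact (congrArg Subtype.val this).symm
  · exact congrArg Subtype.val hiI.1
  · exact fun h => hiI.2 (Subtype.ext h)

/-- Elementary abelian subgroups. -/
def IsEl (M : Subgroup G) : Prop := ∀ a ∈ M, a * a = 1

lemma IsEl.comm {M : Subgroup G} (h : IsEl M) {a b : G} (ha : a ∈ M) (hb : b ∈ M) : a * b = b * a := by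
  have h1 := h _ (mul_mem ha hb)
  have h2 := h a ha
  have h3 := h b hb
  calc a * b = a * (a * b * (a * b)) * b := by rw [h1]; group
    _ = (a * a) * b * a * (b * b) := by group
    _ = b * a := by rw [h2, h3]; group

/-- The product of two commuting subgroups. -/
def mulC (A B : Subgroup G) (h : ∀ a ∈ A, ∀ b ∈ B, a * b = b * a) : Subgroup G where
  carrier := {x | ∃ a ∈ A, ∃ b ∈ B, x = a * b}
  mul_mem' := by
    rintro _ _ ⟨a, ha, b, hb, rfl⟩ ⟨a', ha', b', hb', rfl⟩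
    refine ⟨a * a', mul_mem ha ha', b * b', mul_mem hb hb', ?_⟩
    calc a * b * (a' * b') = a * (b * a') * b' := by group
      _ = a * (a' * b) * b' := by rw [h a' ha' b hb]
      _ = a * a' * (b * b') := by group
  one_mem' := ⟨1, A.one_mem, 1, B.one_mem, by simp⟩
  inv_mem' := by
    rintro _ ⟨a, ha, b, hb, rfl⟩
    refine ⟨a⁻¹, inv_mem ha, b⁻¹, inv_mem hb, ?_⟩
    rw [mul_inv_rev]
    have h1 := h a⁻¹ (inv_mem ha) b⁻¹ (inv_mem hb)
    exact h1.symm

/-- A general product inequality. -/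
theorem card_mul_le (A B P : Subgroup G) (hP : ∀ a ∈ A, ∀ b ∈ B, a * b ∈ P) :
    Nat.card A * Nat.card B ≤ Nat.card P * Nat.card ↥(A ⊓ B) := by
  classical
  rw [← Nat.card_prod, ← Nat.card_prod]
  let F : A × B → P := fun x => ⟨(x.1 : G) * (x.2 : G), hP _ x.1.2 _ x.2.2⟩
  let s : P → A × B := Function.invFun F
  have hs : ∀ x, F (s (F x)) = F x := fun x => Function.invFun_eq ⟨x, rfl⟩
  have hmem : ∀ x : A × B, ((s (F x)).1 : G)⁻¹ * (x.1 : G) ∈ A ⊓ B := by
    intro x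
    refine Subgroup.mem_inf.mpr ⟨A.mul_mem (A.inv_mem (s (F x)).1.2) x.1.2, ?_⟩
    have h1 : ((s (F x)).1 : G) * ((s (F x)).2 : G) = (x.1 : G) * (x.2 : G) := congrArg Subtype.val (hs x)
    have h2 : ((s (F x)).1 : G)⁻¹ * (x.1 : G) = ((s (F x)).2 : G) * (x.2 : G)⁻¹ := by
      calc ((s (F x)).1 : G)⁻¹ * (x.1 : G)
          = ((s (F x)).1 : G)⁻¹ * ((x.1 : G) * (x.2 : G)) * (x.2 : G)⁻¹ := by group
        _ = ((s (F x)).1 : G)⁻¹ * (((s (F x)).1 : G) * ((s (F x)).2 : G)) * (x.2 : G)⁻¹ := by rw [h1]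
        _ = ((s (F x)).2 : G) * (x.2 : G)⁻¹ := by group
    rw [h2]
    exact B.mul_mem (s (F x)).2.2 (B.inv_mem x.2.2)
  let g : A × B → P × ↥(A ⊓ B) := fun x => (F x, ⟨_, hmem x⟩)
  apply Nat.card_le_card_of_injective g
  rintro x x' h
  have h1 : F x = F x' := congrArg Prod.fst h
  have h2 : ((s (F x)).1 : G)⁻¹ * (x.1 : G) = ((s (F x')).1 : G)⁻¹ * (x'.1 : G) :=
    congrArg (fun p => ((Prod.snd p : ↥(A ⊓ B)) : G)) h
  rw [← h1] at h2
  have h3 : (x.1 : G) = (x'.1 : G) := mul_left_cancel h2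
  have h4 : (x.1 : G) * (x.2 : G) = (x'.1 : G) * (x'.2 : G) := congrArg Subtype.val h1
  rw [h3] at h4
  have h5 : (x.2 : G) = (x'.2 : G) := mul_left_cancel h4
  exact Prod.ext (Subtype.ext h3) (Subtype.ext h5)

section Loc

variable {R : Subgroup G} {y : G} (hP : IsP G) (hL : LocData (Nr R) R y)

include hL

lemma LocData.y_ne_one : y ≠ 1 := by
  rintro rfl
  have := hL.prime
  rw [orderOf_one] at this
  exact Nat.not_prime_one this

lemma LocData.y_sq_ne_one : y * y ≠ 1 := by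
  intro h
  have h1 : y ^ 2 = 1 := by rwa [sq]
  have h2 : orderOf y ∣ 2 := orderOf_dvd_of_pow_eq_one h1
  have h3 := Nat.le_of_dvd (by norm_num) h2
  have h4 := hL.prime.two_le
  have h5 : orderOf y = 2 := by omega
  have h6 := hL.odd
  rw [h5] at h6
  exact absurd h6 (by decide)

include hP

/-- A 2-element commuting with `y` is trivial. -/
lemma LocData.eq_one_of_comm {c : G} (hc : ∃ k : ℕ, orderOf c = 2 ^ k) (h : c * y = y * c) : c = 1 := by
  rcases hP.comm_two_odd h hc hL.odd with h1 | h1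
  · exact h1
  · exact absurd h1 hL.y_ne_one

/-- The key estimate on `C_E(m)`. -/
theorem card_fix_sq {m : G} (hm : m ∈ Nr R) (hmR : m ∉ R) (hmm : m * m ∈ R) :
    Nat.card ↥(omZ R ⊓ Subgroup.centralizer {m}) * Nat.card ↥(omZ R ⊓ Subgroup.centralizer {m}) ≤
      Nat.card (omZ R) := by
  set A := omZ R ⊓ Subgroup.centralizer {m} with hA
  have hyN : y ∈ Nr R := hL.mem
  have key : ∀ e ∈ A, ∀ f ∈ A, e = y * f * y⁻¹ → e = 1 := by
    intro e he f hf hef
    have hcm : Commute e m := Subgroup.mem_centralizer_singleton_iff.mp he.2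
    have hfm : Commute f m := Subgroup.mem_centralizer_singleton_iff.mp hf.2
    have hcm' : Commute e (y * m * y⁻¹) := by
      rw [hef]
      have : (y * f * y⁻¹) * (y * m * y⁻¹) = (y * m * y⁻¹) * (y * f * y⁻¹) := by
        calc (y * f * y⁻¹) * (y * m * y⁻¹) = y * (f * m) * y⁻¹ := by group
          _ = y * (m * f) * y⁻¹ := by rw [hfm.eq]
          _ = (y * m * y⁻¹) * (y * f * y⁻¹) := by group
      exact this
    have hq0 : m * y * m⁻¹ * y ∈ R := hL.inv m hm hmR hmm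
    have hq1 : y⁻¹ * (m * m) * y ∈ R := conj_inv_mem_Nr hyN hmm
    have hc0 : Commute e (m * y * m⁻¹ * y) := he.1.2.1 _ hq0
    have hc1 : Commute e (y⁻¹ * (m * m) * y) := he.1.2.1 _ hq1
    have hid : y⁻¹ * y⁻¹ = ((m * y * m⁻¹ * y) * (y⁻¹ * (m * m) * y))⁻¹ * (m * (y * m * y⁻¹)) := by
      group
    have h1 : Commute e (y⁻¹ * y⁻¹) := by
      rw [hid]
      exact ((hc0.mul_right hc1).inv_right).mul_right (hcm.mul_right hcm')
    have h2 : Commute e (y * y) := by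
      have := h1.inv_right
      simpa using this
    have h3 : Odd (orderOf (y * y)) := by
      have : y * y = y ^ 2 := by rw [sq]
      rw [this]
      exact odd_pow hL.odd 2
    rcases hP.comm_two_odd h2.eq (omZ_two he.1) h3 with h4 | h4
    · exact h4
    · exact absurd h4 hL.y_sq_ne_one
  rw [← Nat.card_prod]
  let f : A × A → omZ R := fun p => ⟨(p.1 : G) * (y * (p.2 : G) * y⁻¹), mul_mem p.1.2.1 (omZ_conj hyN p.2.2.1)⟩
  apply Nat.card_le_card_of_injective f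
  rintro ⟨⟨a, ha⟩, ⟨b, hb⟩⟩ ⟨⟨a', ha'⟩, ⟨b', hb'⟩⟩ h
  have h1 : a * (y * b * y⁻¹) = a' * (y * b' * y⁻¹) := congrArg Subtype.val h
  have h2 : a'⁻¹ * a = y * (b' * b⁻¹) * y⁻¹ := by
    calc a'⁻¹ * a = a'⁻¹ * (a * (y * b * y⁻¹)) * (y * b * y⁻¹)⁻¹ := by group
      _ = a'⁻¹ * (a' * (y * b' * y⁻¹)) * (y * b * y⁻¹)⁻¹ := by rw [h1]
      _ = y * (b' * b⁻¹) * y⁻¹ := by group
  have h3 := key _ (mul_mem (inv_mem ha') ha) _ (mul_mem hb' (inv_mem hb)) h2
  have h4 : a = a' := (inv_mul_eq_one.mp h3).symm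
  subst h4
  have h5 : y * b * y⁻¹ = y * b' * y⁻¹ := mul_left_cancel h1
  have h6 : b = b' := mul_left_cancel (mul_right_cancel h5)
  subst h6
  rfl

/-- Replacement: a maximal elementary abelian subgroup outside `R` forces `|Ω₁Z(R)| ≤ 4`. -/
theorem replacement {T₀ M : Subgroup G} (hRT₀ : R ≤ T₀) (hT₀2 : IsPGroup 2 T₀) (hT₀N : T₀ ≤ Nr R)
    (hM : M ≤ T₀) (hMel : IsEl M) (hmax : ∀ M' : Subgroup G, M' ≤ T₀ → IsEl M' → Nat.card M' ≤ Nat.card M)
    (hMR : ¬ M ≤ R) : Nat.card (omZ R) ≤ 4 := by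
  classical
  obtain ⟨m, hmM, hmR⟩ := SetLike.not_le_iff_exists.mp hMR
  have hmm : m * m = 1 := hMel m hmM
  set A₀ := M ⊓ R with hA₀
  -- `|M| ≤ 2 |A₀|`
  have hM2 : Nat.card M ≤ Nat.card A₀ * 2 := by
    have h1 : Nat.card (↥A₀ × Bool) = Nat.card A₀ * 2 := by
      rw [Nat.card_prod, Nat.card_eq_fintype_card (α := Bool), Fintype.card_bool]
    rw [← h1]
    have hprod : ∀ a ∈ M, a ∉ R → a * m ∈ R := by
      intro a ha haR
      refine hL.prodm a (hT₀N (hM ha)) m (hT₀N (hM hmM)) haR hmR ?_ ?_ ?_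
      · rw [hMel a ha]; exact R.one_mem
      · rw [hmm]; exact R.one_mem
      · exact two_of_mem hT₀2 (hM (mul_mem ha hmM))
    let g : M → ↥A₀ × Bool := fun a =>
      if h : (a : G) ∈ R then (⟨a, a.2, h⟩, true)
      else (⟨(a : G) * m, mul_mem a.2 hmM, hprod a a.2 h⟩, false)
    apply Nat.card_le_card_of_injective g
    rintro ⟨a, ha⟩ ⟨b, hb⟩ hab
    by_cases h1 : a ∈ R <;> by_cases h2 : b ∈ R <;> simp [g, h1, h2] at hab
    · have h3 := congrArg (fun x : ↥A₀ => (x : G)) hab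
      exact Subtype.ext h3
    · have h3 := congrArg (fun x : ↥A₀ => (x : G)) hab
      exact Subtype.ext (mul_right_cancel h3)
  set E := omZ R with hE
  have hcomm : ∀ a ∈ A₀, ∀ e ∈ E, a * e = e * a := fun a ha e he => (he.2.1 a ha.2).symm
  set P := mulC A₀ E hcomm with hPdef
  have hPT : P ≤ T₀ := by
    rintro _ ⟨a, ha, e, he, rfl⟩
    exact mul_mem (hM ha.1) (hRT₀ he.1)
  have hPel : IsEl P := by
    rintro _ ⟨a, ha, e, he, rfl⟩
    calc a * e * (a * e) = a * (e * a) * e := by group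
      _ = a * (a * e) * e := by rw [hcomm a ha e he]
      _ = (a * a) * (e * e) := by group
      _ = 1 := by rw [hMel a ha.1, he.2.2, one_mul]
  have hPc : Nat.card P ≤ Nat.card M := hmax P hPT hPel
  have h1 := card_mul_le A₀ E P (fun a ha e he => ⟨a, ha, e, he, rfl⟩)
  -- `A₀ ⊓ E ≤ C_E(m)`
  set K := E ⊓ Subgroup.centralizer {m} with hK
  have hAK : A₀ ⊓ E ≤ K := by
    intro e he'
    obtain ⟨he, heE⟩ := Subgroup.mem_inf.mp he'
    refine Subgroup.mem_inf.mpr ⟨heE, ?_⟩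
    rw [Subgroup.mem_centralizer_singleton_iff]
    exact hMel.comm (Subgroup.mem_inf.mp he).1 hmM
  have hcardAK : Nat.card ↥(A₀ ⊓ E) ≤ Nat.card K := Subgroup.card_le_of_le hAK
  have h2 := card_fix_sq hP hL (hT₀N (hM hmM)) hmR (by rw [hmm]; exact R.one_mem)
  have hA₀pos : 0 < Nat.card A₀ := Nat.card_pos
  have hKpos : 0 < Nat.card K := Nat.card_pos
  -- arithmetic
  have h3 : Nat.card A₀ * Nat.card E ≤ Nat.card A₀ * (2 * Nat.card K) := by
    calc Nat.card A₀ * Nat.card E ≤ Nat.card P * Nat.card ↥(A₀ ⊓ E) := h1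
      _ ≤ (Nat.card A₀ * 2) * Nat.card K := Nat.mul_le_mul (hPc.trans hM2) hcardAK
      _ = Nat.card A₀ * (2 * Nat.card K) := by ring
  have h4 : Nat.card E ≤ 2 * Nat.card K := Nat.le_of_mul_le_mul_left h3 hA₀pos
  have h5 : Nat.card K ≤ 2 := by
    by_contra hc
    push Not at hc
    have : Nat.card K * Nat.card K ≤ 2 * Nat.card K := h2.trans h4
    have := Nat.le_of_mul_le_mul_right this hKpos
    omega
  omega

end Loc

end Cfsg.Agent.Lib.Spec5
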