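import Mathlib
import Cfsg.Agent.Lib.Spec5Tame2

/-!
# Local analysis: the Thompson-type subgroup, the order-three lemmas.
-/

set_option autoImplicit false

namespace Cfsg.Agent.Lib.Spec5

universe u

open scoped commutatorElement

open Cfsg

variable {G : Type u} [Group G] [Finite G]

/-- `O₂(P)`. -/
theorem exists_O2 (P J : Subgroup G) (hJP : J ≤ P) (hPJ : P ≤ Nr J) (hJ2 : IsPGroup 2 J) :
    ∃ Q : Subgroup G, J ≤ Q ∧ Q ≤ P ∧ P ≤ Nr Q ∧ IsPGroup 2 Q ∧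
      ∀ Q' : Subgroup G, Q' ≤ P → P ≤ Nr Q' → IsPGroup 2 Q' → Q' ≤ Q := by
  haveI : Fact (Nat.Prime 2) := ⟨Nat.prime_two⟩
  set C : Subgroup P := pCore 2 P with hC
  haveI hCn : C.Normal := Cfsg.Agent.Lib.PCore.pCore_normal 2
  have hC2 : IsPGroup 2 C := Cfsg.Agent.Lib.PCore.isPGroup_pCore 2
  have key : ∀ Q' : Subgroup G, Q' ≤ P → P ≤ Nr Q' → IsPGroup 2 Q' → Q' ≤ C.map P.subtype := by
    intro Q' h1 h2 h3
    have hn : (Q'.subgroupOf P).Normal := (Subgroup.normal_subgroupOf_iff_le_normalizer h1).mpr h2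
    have h3' : IsPGroup 2 (Q'.subgroupOf P) := by
      apply isPGroup_of_two
      intro g hg
      obtain ⟨k, hk⟩ := two_of_mem h3 (Subgroup.mem_subgroupOf.mp hg)
      exact ⟨k, by rw [← hk, Subgroup.orderOf_coe]⟩
    have h4 : Q'.subgroupOf P ≤ C := Cfsg.Agent.Lib.PCore.le_pCore hn h3'
    intro x hx
    exact ⟨⟨x, h1 hx⟩, h4 hx, rfl⟩
  refine ⟨C.map P.subtype, key J hJP hPJ hJ2, Subgroup.map_subtype_le C, ?_, ?_, key⟩
  · intro g hg
    apply mem_Nr_of_conj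
    rintro _ ⟨x, hx, rfl⟩
    exact ⟨⟨g, hg⟩ * x * (⟨g, hg⟩ : P)⁻¹, hCn.conj_mem x hx _, rfl⟩
  · apply isPGroup_of_two
    rintro _ ⟨x, hx, rfl⟩
    obtain ⟨k, hk⟩ := two_of_mem hC2 hx
    exact ⟨k, by rw [← hk]; exact Subgroup.orderOf_coe x⟩

/-- The product of `Q` and a subgroup `R` normalizing it. -/
def mulN (Q R : Subgroup G) (h : R ≤ Nr Q) : Subgroup G where
  carrier := {x | ∃ q ∈ Q, ∃ r ∈ R, x = q * r}
  mul_mem' := by
    rintro _ _ ⟨a, ha, b, hb, rfl⟩ ⟨a', ha', b', hb', rfl⟩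
    refine ⟨a * (b * a' * b⁻¹), mul_mem ha (conj_mem_Nr (h hb) ha'), b * b', mul_mem hb hb', ?_⟩
    group
  one_mem' := ⟨1, Q.one_mem, 1, R.one_mem, by simp⟩
  inv_mem' := by
    rintro _ ⟨a, ha, b, hb, rfl⟩
    refine ⟨b⁻¹ * a⁻¹ * b, ?_, b⁻¹, inv_mem hb, by group⟩
    exact conj_inv_mem_Nr (h hb) (inv_mem ha)

/-- `O₂` property for `R`. -/
def HasO2 (R : Subgroup G) : Prop :=
  ∀ Q' : Subgroup G, Q' ≤ Nr R → Nr R ≤ Nr Q' → IsPGroup 2 Q' → Q' ≤ R

/-- If `J ≤ R` is normalized by `N(R)`, then `N(J) ≤ N(R)`. -/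
theorem Nr_J_le (hP : IsP G)
    (hIH : AltH G)
    {R : Subgroup G} {y : G} (hR2 : IsPGroup 2 R) (hO : HasO2 R) (hL : LocData (Nr R) R y)
    (hv₀ : ∃ v ∈ Nr R, v ∉ R ∧ ∃ k : ℕ, orderOf v = 2 ^ k)
    {J : Subgroup G} (hJR : J ≤ R) (hJ1 : J ≠ ⊥) (hRJ : Nr R ≤ Nr J) : Nr J ≤ Nr R := by
  set P := Nr J with hPdef
  have hJP : J ≤ P := Subgroup.le_normalizer
  obtain ⟨Q, hJQ, hQP, hPQ, hQ2, hQO⟩ := exists_O2 P J hJP le_rfl (hR2.to_le hJR)
  have hQ1 : Q ≠ ⊥ := by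
    intro h
    apply hJ1
    rw [eq_bot_iff, ← h]
    exact hJQ
  have hRNR : R ≤ Nr R := Subgroup.le_normalizer
  have hyP : y ∈ P := hRJ hL.mem
  have hyQ : y ∉ Q := fun h => hL.y_ne_one (eq_one_of_two_of_odd (two_of_mem hQ2 h) hL.odd)
  have hne : Q ≠ P := fun h => hyQ (h ▸ hyP)
  -- `Q ≤ R`
  have hQR : Q ≤ R := by
    by_contra hc
    obtain ⟨q₀, hq₀, hq₀R⟩ := SetLike.not_le_iff_exists.mp hc
    have hRNQ : R ≤ Nr Q := (hRNR.trans hRJ).trans hPQ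
    set B := mulN Q R hRNQ with hB
    have hB2 : IsPGroup 2 B := by
      have h1 : IsPGroup 2 (Q ⊔ R : Subgroup G) := IsPGroup.to_sup_of_normal_left' hQ2 hR2 hRNQ
      apply h1.to_le
      rintro _ ⟨q, hq, r, hr, rfl⟩
      exact mul_mem (Subgroup.mem_sup_left hq) (Subgroup.mem_sup_right hr)
    have hRB : R ≤ B := fun r hr => ⟨1, Q.one_mem, r, hr, by simp⟩
    have hRneB : R ≠ B := by
      intro h
      apply hq₀R
      rw [h]
      exact ⟨q₀, hq₀, 1, R.one_mem, by simp⟩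
    obtain ⟨v, hvB, hvN, hvR⟩ := exists_normalizer_gt hB2 hRB hRneB
    obtain ⟨q, hq, r, hr, rfl⟩ := hvB
    have hqN : q ∈ Nr R := by
      have : q = q * r * r⁻¹ := by group
      rw [this]
      exact mul_mem hvN (inv_mem (hRNR hr))
    have hQ₁ : Q ⊓ Nr R ≤ R := by
      apply hO
      · exact inf_le_right
      · intro g hg
        apply mem_Nr_of_conj
        intro c hc
        exact Subgroup.mem_inf.mpr ⟨conj_mem_Nr (hPQ (hRJ hg)) hc.1, conj_mem_Nr (Subgroup.le_normalizer hg) hc.2⟩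
      · exact hQ2.to_le inf_le_left
    have hqR : q ∈ R := hQ₁ (Subgroup.mem_inf.mpr ⟨hq, hqN⟩)
    exact hvR (mul_mem hqR hr)
  have hRQ : R ≤ Q := by
    rcases hIH P Q R y hQP hPQ hQ2 hQ1 hQO hne hL hR2 hRJ hQR hv₀ with hs | hRQ
    swap
    · exact hRQ
    obtain ⟨y₁, hL₁⟩ := exists_locData' hP hQP hPQ hQ2 hQ1 hQO hne hs
    intro r hr
    have hrP : r ∈ P := hRJ (hRNR hr)
    obtain ⟨i, q, hq, he⟩ := hL₁.comm r hrP y hyP
    have hc : r * y * r⁻¹ * y⁻¹ ∈ R := by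
      have : r * y * r⁻¹ * y⁻¹ = r * (y * r⁻¹ * y⁻¹) := by group
      rw [this]
      exact mul_mem hr (conj_mem_Nr hL.mem (inv_mem hr))
    have hyi : y₁ ^ i ∈ R := by
      have : y₁ ^ i = (r * y * r⁻¹ * y⁻¹) * q⁻¹ := by rw [he]; group
      rw [this]
      exact mul_mem hc (inv_mem (hQR hq))
    have hyi1 : y₁ ^ i = 1 := eq_one_of_two_of_odd (two_of_mem hR2 hyi) (odd_pow hL₁.odd i)
    have hcQ : r * y * r⁻¹ * y⁻¹ ∈ Q := by
      rw [he, hyi1, one_mul]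
      exact hq
    exact comm_modG hP hQP hPQ hQ2 hrP hyP (two_of_mem hR2 hr) hL.odd hL.y_ne_one hcQ
  have hQeq : Q = R := le_antisymm hQR hRQ
  rw [← hQeq]
  exact hPQ

/-- `M` is a maximal elementary abelian subgroup of `T₀`. -/
def IsMaxEl (T₀ M : Subgroup G) : Prop :=
  M ≤ T₀ ∧ IsEl M ∧ ∀ M' : Subgroup G, M' ≤ T₀ → IsEl M' → Nat.card M' ≤ Nat.card M

theorem exists_maxEl (T₀ : Subgroup G) : ∃ M, IsMaxEl T₀ M := by
  obtain ⟨M, hM, hmax⟩ := Set.exists_max_image {M : Subgroup G | M ≤ T₀ ∧ IsEl M}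
    (fun M => Nat.card M) (Set.toFinite _) ⟨⊥, bot_le, fun a ha => by
      rw [Subgroup.mem_bot] at ha
      rw [ha, one_mul]⟩
  exact ⟨M, hM.1, hM.2, fun M' h1 h2 => hmax M' ⟨h1, h2⟩⟩

/-- The subgroup generated by the maximal elementary abelian subgroups. -/
def Jt (T₀ : Subgroup G) : Subgroup G :=
  Subgroup.closure {x | ∃ M, IsMaxEl T₀ M ∧ x ∈ M}

lemma IsMaxEl.map_conj {T₀ M : Subgroup G} (hM : IsMaxEl T₀ M) {g : G}
    (hg : M.map (MulAut.conj g).toMonoidHom ≤ T₀) : IsMaxEl T₀ (M.map (MulAut.conj g).toMonoidHom) := by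
  refine ⟨hg, ?_, ?_⟩
  · rintro _ ⟨a, ha, rfl⟩
    have h1 := hM.2.1 a ha
    simp only [MulEquiv.coe_toMonoidHom, MulAut.conj_apply]
    calc g * a * g⁻¹ * (g * a * g⁻¹) = g * (a * a) * g⁻¹ := by group
      _ = 1 := by rw [h1]; group
  · intro M' h1 h2
    rw [Subgroup.card_map_of_injective (MulAut.conj g).injective]
    exact hM.2.2 M' h1 h2

/-- Normalizing the generated subgroup. -/
theorem mem_Nr_Jt {T₀ : Subgroup G} {g : G}
    (hg : ∀ M, IsMaxEl T₀ M → M.map (MulAut.conj g).toMonoidHom ≤ T₀) : g ∈ Nr (Jt T₀) := by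
  apply mem_Nr_of_conj
  intro x hx
  induction hx using Subgroup.closure_induction with
  | mem x hx =>
    obtain ⟨M, hM, hxM⟩ := hx
    apply Subgroup.subset_closure
    exact ⟨_, hM.map_conj (hg M hM), ⟨x, hxM, rfl⟩⟩
  | one => simp
  | mul a b _ _ ha hb =>
    have : g * (a * b) * g⁻¹ = (g * a * g⁻¹) * (g * b * g⁻¹) := by group
    rw [this]
    exact mul_mem ha hb
  | inv a _ ha =>
    have : g * a⁻¹ * g⁻¹ = (g * a * g⁻¹)⁻¹ := by group
    rw [this]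
    exact inv_mem ha

/-- The structure in the non-small case. -/
theorem big_case (hP : IsP G)
    (hIH : AltH G)
    {T R : Subgroup G} {y : G} (hT2 : IsPGroup 2 T) (hRT : R ≤ T) (hR1 : R ≠ ⊥) (hO : HasO2 R)
    (hL : LocData (Nr R) R y) (hE : ¬ Nat.card (omZ R) ≤ 4) (hRne : R ≠ T) :
    T ≤ Nr R ∧ Nr (Jt T) = Nr R := by
  have hR2 : IsPGroup 2 R := hT2.to_le hRT
  have hv₀ : ∃ v ∈ Nr R, v ∉ R ∧ ∃ k : ℕ, orderOf v = 2 ^ k := by
    obtain ⟨v, hvT, hvN, hvR⟩ := exists_normalizer_gt hT2 hRT hRne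
    exact ⟨v, hvN, hvR, two_of_mem hT2 hvT⟩
  set T₀ := T ⊓ Nr R with hT₀
  have hRT₀ : R ≤ T₀ := le_inf hRT Subgroup.le_normalizer
  have hT₀2 : IsPGroup 2 T₀ := hT2.to_le inf_le_left
  have hall : ∀ M, IsMaxEl T₀ M → M ≤ R := by
    intro M hM
    by_contra hc
    exact hE (replacement hP hL hRT₀ hT₀2 inf_le_right hM.1 hM.2.1 hM.2.2 hc)
  have hJR : Jt T₀ ≤ R := by
    rw [Jt, Subgroup.closure_le]
    rintro x ⟨M, hM, hx⟩
    exact hall M hM hx
  obtain ⟨M₀, hM₀⟩ := exists_maxEl T₀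
  have hJ1 : Jt T₀ ≠ ⊥ := by
    intro h
    have hM₀bot : M₀ = ⊥ := by
      rw [eq_bot_iff, ← h]
      intro x hx
      exact Subgroup.subset_closure ⟨M₀, hM₀, hx⟩
    -- `Ω₁Z(R)` would be trivial
    obtain ⟨i, -, hi, hi1⟩ := exists_central_inv_of_normal hR2 le_rfl Subgroup.le_normalizer hR1
    have hc := hM₀.2.2 (Subgroup.zpowers i) ?_ ?_
    · rw [hM₀bot, Subgroup.card_bot, Nat.card_zpowers] at hc
      have h2 : 0 < orderOf i := orderOf_pos i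
      exact hi1 (orderOf_eq_one_iff.mp (by omega))
    · rw [Subgroup.zpowers_le]
      exact hRT₀ hi.1
    · intro a ha
      obtain ⟨k, rfl⟩ := Subgroup.mem_zpowers_iff.mp ha
      have hii : i * i = 1 := hi.2.2
      rw [← zpow_add, ← two_mul, zpow_mul, zpow_two, hii, one_zpow]
  have hRJ : Nr R ≤ Nr (Jt T₀) := by
    intro g hg
    apply mem_Nr_Jt
    intro M hM
    rintro _ ⟨a, ha, rfl⟩
    apply hRT₀
    exact conj_mem_Nr hg (hall M hM ha)
  have hJN := Nr_J_le hP hIH hR2 hO hL hv₀ hJR hJ1 hRJ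
  have hTT₀ : T ≤ Nr R := by
    by_contra hc
    have hne : T₀ ≠ T := by
      intro h
      apply hc
      rw [← h]
      exact inf_le_right
    obtain ⟨v, hvT, hvN, hvT₀⟩ := exists_normalizer_gt hT2 inf_le_left hne
    apply hvT₀
    refine Subgroup.mem_inf.mpr ⟨hvT, hJN ?_⟩
    apply mem_Nr_Jt
    intro M hM
    rintro _ ⟨a, ha, rfl⟩
    exact conj_mem_Nr hvN (hM.1 ha)
  have hT₀eq : T₀ = T := inf_eq_left.mpr hTT₀
  refine ⟨hTT₀, le_antisymm ?_ ?_⟩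
  · rw [← hT₀eq]
    exact hJN
  · rw [← hT₀eq]
    exact hRJ

section Three

variable {R : Subgroup G} {y : G}

/-- The norm identity for an automorphism of order three without fixed points. -/
theorem norm3 (hy : y ∈ Nr R) (hy3 : y * y * y = 1) (hfix : ∀ c ∈ R, y * c * y⁻¹ = c → c = 1)
    {x : G} (hx : x ∈ R) : x * (y * x * y⁻¹) * (y * (y * x * y⁻¹) * y⁻¹) = 1 := by
  -- the map `a ↦ a⁻¹ φ(a)` is bijective
  let f : R → R := fun a => ⟨(a : G)⁻¹ * (y * a * y⁻¹), mul_mem (inv_mem a.2) (conj_mem_Nr hy a.2)⟩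
  have hf : Function.Injective f := by
    rintro ⟨a, ha⟩ ⟨b, hb⟩ hab
    have h1 : a⁻¹ * (y * a * y⁻¹) = b⁻¹ * (y * b * y⁻¹) := congrArg Subtype.val hab
    have h2 : y * (b * a⁻¹) * y⁻¹ = b * a⁻¹ := by
      calc y * (b * a⁻¹) * y⁻¹ = (y * b * y⁻¹) * (y * a * y⁻¹)⁻¹ := by group
        _ = b * (b⁻¹ * (y * b * y⁻¹)) * (y * a * y⁻¹)⁻¹ := by group
        _ = b * (a⁻¹ * (y * a * y⁻¹)) * (y * a * y⁻¹)⁻¹ := by rw [h1]
        _ = b * a⁻¹ := by group
    have h3 := hfix _ (mul_mem hb (inv_mem ha)) h2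
    apply Subtype.ext
    exact (mul_inv_eq_one.mp h3).symm
  obtain ⟨⟨a, ha⟩, hax⟩ := (Finite.injective_iff_surjective.mp hf) ⟨x, hx⟩
  have hax' : a⁻¹ * (y * a * y⁻¹) = x := congrArg Subtype.val hax
  subst hax'
  have hyi : y⁻¹ * y⁻¹ = y := by
    calc y⁻¹ * y⁻¹ = y⁻¹ * y⁻¹ * (y * y * y) := by rw [hy3, mul_one]
      _ = y := by group
  have hyy : y * y = y⁻¹ := by
    calc y * y = (y * y * y) * y⁻¹ := by group
      _ = y⁻¹ := by rw [hy3, one_mul]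
  have e : y * (y * (y * a * y⁻¹) * y⁻¹) * y⁻¹ = a := by
    calc y * (y * (y * a * y⁻¹) * y⁻¹) * y⁻¹ = (y * y * y) * a * (y * y * y)⁻¹ := by group
      _ = a := by rw [hy3]; group
  calc a⁻¹ * (y * a * y⁻¹) * (y * (a⁻¹ * (y * a * y⁻¹)) * y⁻¹) * (y * (y * (a⁻¹ * (y * a * y⁻¹)) * y⁻¹) * y⁻¹)
      = a⁻¹ * (y * (y * (y * a * y⁻¹) * y⁻¹) * y⁻¹) := by group
    _ = 1 := by rw [e]; group

/-- The order-three lemma, for an automorphism. -/
theorem no3_aux (φ : G ≃* G) (hR : ∀ a ∈ R, φ a ∈ R) (hφ3 : ∀ a, φ (φ (φ a)) = a)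
    (hfix : ∀ c ∈ R, φ c = c → c = 1) (hN : ∀ a ∈ R, a * φ a * φ (φ a) = 1)
    {e z : G} (he : e ∈ R) (hz : z ∈ R) (hzc : ∀ r ∈ R, z * r = r * z) (hzz : z * z = 1)
    (hcl : ∀ g ∈ R, g * e * g⁻¹ = e ∨ g * e * g⁻¹ = e * z) : ∀ g ∈ R, g * e = e * g := by
  have hcen : ∀ c, (∀ r ∈ R, c * r = r * c) → ∀ r ∈ R, φ c * r = r * φ c := by
    intro c hc r hr
    have h1 := hc _ (hR _ (hR r hr))
    have h2 := congrArg φ h1
    rw [map_mul, map_mul, hφ3] at h2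
    exact h2
  have hz1c := hcen z hzc
  have hz2c := hcen (φ z) hz1c
  by_contra hcon
  push Not at hcon
  obtain ⟨g, hg, hge⟩ := hcon
  have hgmove : g * e * g⁻¹ = e * z := by
    rcases hcl g hg with h | h
    · exact absurd (mul_inv_eq_iff_eq_mul.mp h) hge
    · exact h
  have hz1 : z ≠ 1 := by
    rintro rfl
    rw [mul_one] at hgmove
    exact hge (mul_inv_eq_iff_eq_mul.mp hgmove)
  have hzi : z⁻¹ = z := inv_eq_of_mul_eq_one_left hzz
  have hNe := hN e he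
  have hg2R := hR g hg
  have hg3R := hR _ hg2R
  have hgN := hN g hg
  have he2R := hR e he
  have he3R := hR _ he2R
  -- the action on `φ e` and `φ² e`
  have hact2 : g * φ e * g⁻¹ = φ (φ (φ g) * e * (φ (φ g))⁻¹) := by
    rw [map_mul, map_mul, map_inv, hφ3]
  have hact3 : g * φ (φ e) * g⁻¹ = φ (φ (φ g * e * (φ g)⁻¹)) := by
    rw [map_mul, map_mul, map_mul, map_mul, map_inv, map_inv, hφ3]
  have hrel : (g * e * g⁻¹) * (g * φ e * g⁻¹) * (g * φ (φ e) * g⁻¹) = 1 := by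
    calc (g * e * g⁻¹) * (g * φ e * g⁻¹) * (g * φ (φ e) * g⁻¹) = g * (e * φ e * φ (φ e)) * g⁻¹ := by group
      _ = 1 := by rw [hNe]; group
  -- `g⁻¹` moves `e` too
  have hginv : (φ g * φ (φ g)) * e * (φ g * φ (φ g))⁻¹ = e * z := by
    have h1 : φ g * φ (φ g) = g⁻¹ := by
      have : g * (φ g * φ (φ g)) = 1 := by rw [← mul_assoc]; exact hgN
      exact eq_inv_of_mul_eq_one_right this
    rw [h1, inv_inv]
    have h2 : g⁻¹ * (e * z) * g = e := by
      rw [← hgmove]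
      group
    have h3 : g⁻¹ * (e * z) * g = (g⁻¹ * e * g) * z := by
      have h4 := hzc g hg
      calc g⁻¹ * (e * z) * g = g⁻¹ * e * (z * g) := by group
        _ = g⁻¹ * e * (g * z) := by rw [h4]
        _ = (g⁻¹ * e * g) * z := by group
    rw [h3] at h2
    calc g⁻¹ * e * g = (g⁻¹ * e * g) * z * z := by rw [mul_assoc (g⁻¹ * e * g) z z, hzz, mul_one]
      _ = e * z := by rw [h2]
  rcases hcl (φ g) hg2R with h2 | h2 <;> rcases hcl (φ (φ g)) hg3R with h3 | h3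
  · -- both fix
    exfalso
    apply hz1
    have h4 : (φ g * φ (φ g)) * e * (φ g * φ (φ g))⁻¹ = e := by
      calc (φ g * φ (φ g)) * e * (φ g * φ (φ g))⁻¹
          = φ g * (φ (φ g) * e * (φ (φ g))⁻¹) * (φ g)⁻¹ := by group
        _ = e := by rw [h3, h2]
    rw [hginv] at h4
    exact mul_left_cancel (h4.trans (mul_one e).symm)
  · -- `φ g` fixes, `φ² g` moves
    exfalso
    rw [hact2, hact3, h3, h2, hgmove] at hrel
    have h4 : e * z * φ (e * z) * φ (φ e) = 1 := hrel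
    rw [map_mul] at h4
    have h5 : (e * φ e * φ (φ e)) * (z * φ z) = 1 := by
      have c1 := hzc _ he2R
      have c2 := hzc _ he3R
      have c3 := hz1c _ he3R
      calc (e * φ e * φ (φ e)) * (z * φ z) = e * φ e * (φ (φ e) * z) * φ z := by group
        _ = e * φ e * (z * φ (φ e)) * φ z := by rw [c2]
        _ = e * (φ e * z) * (φ (φ e) * φ z) := by group
        _ = e * (z * φ e) * (φ z * φ (φ e)) := by rw [c1, c3]
        _ = e * z * (φ e * φ z) * φ (φ e) := by group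
        _ = 1 := h4
    rw [hNe, one_mul] at h5
    have h6 : φ z = z := by
      calc φ z = z⁻¹ := eq_inv_of_mul_eq_one_right h5
        _ = z := hzi
    exact hz1 (hfix z hz h6)
  · -- `φ g` moves, `φ² g` fixes
    exfalso
    rw [hact2, hact3, h3, h2, hgmove] at hrel
    have h4 : e * z * φ e * φ (φ (e * z)) = 1 := hrel
    rw [map_mul, map_mul] at h4
    have h5 : (e * φ e * φ (φ e)) * (z * φ (φ z)) = 1 := by
      have c1 := hzc _ he2R
      have c2 := hzc _ he3R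
      calc (e * φ e * φ (φ e)) * (z * φ (φ z)) = e * φ e * (φ (φ e) * z) * φ (φ z) := by group
        _ = e * φ e * (z * φ (φ e)) * φ (φ z) := by rw [c2]
        _ = e * (φ e * z) * φ (φ e) * φ (φ z) := by group
        _ = e * (z * φ e) * φ (φ e) * φ (φ z) := by rw [c1]
        _ = e * z * φ e * (φ (φ e) * φ (φ z)) := by group
        _ = 1 := h4
    rw [hNe, one_mul] at h5
    have h6 : φ (φ z) = z := by
      calc φ (φ z) = z⁻¹ := eq_inv_of_mul_eq_one_right h5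
        _ = z := hzi
    have h7 : φ z = z := by
      have h8 := hφ3 z
      rw [h6] at h8
      exact h8
    exact hz1 (hfix z hz h7)
  · -- both move
    exfalso
    apply hz1
    have h4 : (φ g * φ (φ g)) * e * (φ g * φ (φ g))⁻¹ = e := by
      calc (φ g * φ (φ g)) * e * (φ g * φ (φ g))⁻¹
          = φ g * (φ (φ g) * e * (φ (φ g))⁻¹) * (φ g)⁻¹ := by group
        _ = φ g * (e * z) * (φ g)⁻¹ := by rw [h3]
        _ = (φ g * e * (φ g)⁻¹) * z := by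
          have h5 := hzc _ hg2R
          calc φ g * (e * z) * (φ g)⁻¹ = φ g * e * (z * (φ g)⁻¹) := by group
            _ = φ g * e * ((φ g)⁻¹ * z) := by
              have h6 := hzc _ (inv_mem hg2R)
              rw [h6]
            _ = (φ g * e * (φ g)⁻¹) * z := by group
        _ = e := by rw [h2, mul_assoc, hzz, mul_one]
    rw [hginv] at h4
    exact mul_left_cancel (h4.trans (mul_one e).symm)

/-- **The order-three lemma**: no element has exactly the conjugates `e, e z`. -/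
theorem no3 (hy : y ∈ Nr R) (hy3 : y * y * y = 1) (hfix : ∀ c ∈ R, y * c * y⁻¹ = c → c = 1)
    {e z : G} (he : e ∈ R) (hz : z ∈ R) (hzc : ∀ r ∈ R, z * r = r * z) (hzz : z * z = 1)
    (hcl : ∀ g ∈ R, g * e * g⁻¹ = e ∨ g * e * g⁻¹ = e * z) : ∀ g ∈ R, g * e = e * g := by
  refine no3_aux (MulAut.conj y) (fun a ha => conj_mem_Nr hy ha) ?_ hfix
    (fun a ha => norm3 hy hy3 hfix ha) he hz hzc hzz hcl
  intro a
  simp only [MulAut.conj_apply]
  calc y * (y * (y * a * y⁻¹) * y⁻¹) * y⁻¹ = (y * y * y) * a * (y * y * y)⁻¹ := by group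
    _ = a := by rw [hy3]; group

end Three

end Cfsg.Agent.Lib.Spec5
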