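import Mathlib
import Cfsg.Agent.Lib.Spec5Tame3

/-!
# Groups all of whose elements have order at most five: basics and the alternating group of degree five.
-/

set_option autoImplicit false

namespace Cfsg.Agent.Lib.Spec5

universe u

/-- All element orders lie in `{1, 2, 3, 4, 5}`. -/
def IsQ (G : Type*) [Group G] : Prop :=
  ∀ g : G, orderOf g = 1 ∨ orderOf g = 2 ∨ orderOf g = 3 ∨ orderOf g = 4 ∨ orderOf g = 5

section basics

variable {G : Type*} [Group G]

theorem IsQ.of_surjective {H : Type*} [Group H] (hQ : IsQ G) (f : G →* H)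
    (hf : Function.Surjective f) : IsQ H := by
  intro h
  obtain ⟨g, rfl⟩ := hf h
  have hd : orderOf (f g) ∣ orderOf g := orderOf_map_dvd f g
  have hpos : 0 < orderOf g := by
    rcases hQ g with h | h | h | h | h <;> omega
  have hle := Nat.le_of_dvd hpos hd
  have hle5 : orderOf g ≤ 5 := by
    rcases hQ g with h | h | h | h | h <;> omega
  have hp2 : 0 < orderOf (f g) := Nat.pos_of_dvd_of_pos hd hpos
  omega

theorem IsQ.of_injective {H : Type*} [Group H] (hQ : IsQ G) (f : H →* G)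
    (hf : Function.Injective f) : IsQ H := by
  intro h
  have := hQ (f h)
  rwa [orderOf_injective f hf h] at this

theorem IsQ.subgroup (hQ : IsQ G) (H : Subgroup G) : IsQ H :=
  hQ.of_injective H.subtype H.subtype_injective

theorem IsQ.quotient (hQ : IsQ G) (N : Subgroup G) [N.Normal] : IsQ (G ⧸ N) :=
  hQ.of_surjective (QuotientGroup.mk' N) (QuotientGroup.mk'_surjective N)

theorem IsQ.toP (hQ : IsQ G) : IsP G := by
  intro g hg
  rcases hQ g with h | h | h | h | h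
  · exact absurd (orderOf_eq_one_iff.mp h) hg
  · exact Or.inl ⟨1, by simpa using h⟩
  · exact Or.inr ⟨by rw [h]; norm_num, by rw [h]; norm_num⟩
  · exact Or.inl ⟨2, by simpa using h⟩
  · exact Or.inr ⟨by rw [h]; norm_num, by rw [h]; norm_num⟩

/-- The order of an element is determined by a divisor which is `3` or `5`. -/
theorem IsQ.ord_three (hQ : IsQ G) {g : G} (h : 3 ∣ orderOf g) : orderOf g = 3 := by
  rcases hQ g with e | e | e | e | e <;> rw [e] at h ⊢ <;> omega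

theorem IsQ.ord_five (hQ : IsQ G) {g : G} (h : 5 ∣ orderOf g) : orderOf g = 5 := by
  rcases hQ g with e | e | e | e | e <;> rw [e] at h ⊢ <;> omega

theorem IsQ.pow_four_of_two (hQ : IsQ G) {g : G} (h : 2 ∣ orderOf g) : g ^ 4 = 1 := by
  have : orderOf g ∣ 4 := by
    rcases hQ g with e | e | e | e | e <;> rw [e] at h ⊢ <;> omega
  exact orderOf_dvd_iff_pow_eq_one.mp this

/-- The order of an element with `g ^ 2 = 1`. -/
theorem order_two_of (g : G) (h2 : g * g = 1) (h1 : g ≠ 1) : orderOf g = 2 :=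
  orderOf_eq_prime (by rw [sq, h2]) h1

theorem order_three_of (g : G) (h2 : g ^ 3 = 1) (h1 : g ≠ 1) : orderOf g = 3 := by
  haveI : Fact (Nat.Prime 3) := ⟨by norm_num⟩
  exact orderOf_eq_prime h2 h1

theorem order_five_of (g : G) (h2 : g ^ 5 = 1) (h1 : g ≠ 1) : orderOf g = 5 := by
  haveI : Fact (Nat.Prime 5) := ⟨by norm_num⟩
  exact orderOf_eq_prime h2 h1

end basics

/-- The alternating group of degree five. -/
abbrev A5 : Type := alternatingGroup (Fin 5)

section A5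

theorem card_A5 : Nat.card A5 = 60 := by
  rw [Nat.card_eq_fintype_card]
  decide +kernel

theorem A5_orders : ∀ g : A5, g = 1 ∨ (g * g = 1 ∧ g ≠ 1) ∨ (g ^ 3 = 1 ∧ g ≠ 1) ∨ (g ^ 5 = 1 ∧ g ≠ 1) := by
  decide +kernel

/-- Every involution inverts an element of order three. -/
theorem A5_inv_inverts : ∀ u : A5, u * u = 1 → u ≠ 1 → ∃ w : A5, w ^ 3 = 1 ∧ w ≠ 1 ∧ u * w * u⁻¹ = w⁻¹ := by
  decide +kernel

/-- `(0 1 2)`. -/
def xb : A5 := ⟨Equiv.swap 0 1 * Equiv.swap 1 2, Equiv.Perm.mem_alternatingGroup.mpr (by decide)⟩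
/-- `(0 1)(2 3)`. -/
def va : A5 := ⟨Equiv.swap 0 1 * Equiv.swap 2 3, Equiv.Perm.mem_alternatingGroup.mpr (by decide)⟩
/-- Conjugate of `va` by `xb`. -/
def vb : A5 := xb * va * xb⁻¹
/-- Conjugate of `vb` by `xb`. -/
def vc : A5 := xb * vb * xb⁻¹

/-- The non-identity elements of the four-group. -/
def IsV (g : A5) : Prop := g = va ∨ g = vb ∨ g = vc

theorem xb_facts : xb ^ 3 = 1 ∧ xb ≠ 1 ∧ xb * vc * xb⁻¹ = va := by decide +kernel

theorem v_inv : va * va = 1 ∧ vb * vb = 1 ∧ vc * vc = 1 ∧ va ≠ 1 ∧ vb ≠ 1 ∧ vc ≠ 1 ∧ va ≠ vb ∧ va ≠ vc ∧ vb ≠ vc := by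
  decide +kernel

theorem v_prods : va * vb = vc ∧ vb * va = vc ∧ vb * vc = va ∧ vc * vb = va ∧ va * vc = vb ∧ vc * va = vb := by
  decide +kernel

theorem xv_orders : (xb * va) ^ 3 = 1 ∧ xb * va ≠ 1 ∧ (xb * vb) ^ 3 = 1 ∧ xb * vb ≠ 1 ∧
    (xb * vc) ^ 3 = 1 ∧ xb * vc ≠ 1 := by
  decide +kernel

theorem IsV.inv {g : A5} (h : IsV g) : g * g = 1 ∧ g ≠ 1 := by
  obtain ⟨h1, h2, h3, h4, h5, h6, -⟩ := v_inv
  rcases h with rfl | rfl | rfl
  · exact ⟨h1, h4⟩
  · exact ⟨h2, h5⟩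
  · exact ⟨h3, h6⟩

theorem IsV.xconj {g : A5} (h : IsV g) : IsV (xb * g * xb⁻¹) := by
  rcases h with rfl | rfl | rfl
  · exact Or.inr (Or.inl rfl)
  · exact Or.inr (Or.inr rfl)
  · exact Or.inl xb_facts.2.2

theorem IsV.xmul {g : A5} (h : IsV g) : (xb * g) ^ 3 = 1 ∧ xb * g ≠ 1 := by
  obtain ⟨h1, h2, h3, h4, h5, h6⟩ := xv_orders
  rcases h with rfl | rfl | rfl
  · exact ⟨h1, h2⟩
  · exact ⟨h3, h4⟩
  · exact ⟨h5, h6⟩

/-- `vb` and `vc` are obtained by iterating the conjugation by `xb`. -/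
theorem IsV.reach {g h : A5} (hg : IsV g) (hh : IsV h) :
    h = g ∨ h = xb * g * xb⁻¹ ∨ h = xb * (xb * g * xb⁻¹) * xb⁻¹ := by
  have e := xb_facts.2.2
  rcases hg with rfl | rfl | rfl <;> rcases hh with rfl | rfl | rfl
  · exact Or.inl rfl
  · exact Or.inr (Or.inl rfl)
  · exact Or.inr (Or.inr rfl)
  · exact Or.inr (Or.inr (by show va = xb * vc * xb⁻¹; rw [e]))
  · exact Or.inl rfl
  · exact Or.inr (Or.inl rfl)
  · exact Or.inr (Or.inl e.symm)
  · exact Or.inr (Or.inr (by show vb = xb * (xb * vc * xb⁻¹) * xb⁻¹; rw [e]; rfl))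
  · exact Or.inl rfl

/-- The four-group. -/
def V4 : Subgroup A5 where
  carrier := {g | g = 1 ∨ IsV g}
  mul_mem' := by
    have h : ∀ a b : A5, (a = 1 ∨ IsV a) → (b = 1 ∨ IsV b) → (a * b = 1 ∨ IsV (a * b)) := by
      obtain ⟨h1, h2, h3, -⟩ := v_inv
      obtain ⟨p1, p2, p3, p4, p5, p6⟩ := v_prods
      rintro a b (rfl | ha) (rfl | hb)
      · simp
      · rw [one_mul]; exact Or.inr hb
      · rw [mul_one]; exact Or.inr ha
      · rcases ha with rfl | rfl | rfl <;> rcases hb with rfl | rfl | rfl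
        · exact Or.inl h1
        · rw [p1]; exact Or.inr (Or.inr (Or.inr rfl))
        · rw [p5]; exact Or.inr (Or.inr (Or.inl rfl))
        · rw [p2]; exact Or.inr (Or.inr (Or.inr rfl))
        · exact Or.inl h2
        · rw [p3]; exact Or.inr (Or.inl rfl)
        · rw [p6]; exact Or.inr (Or.inr (Or.inl rfl))
        · rw [p4]; exact Or.inr (Or.inl rfl)
        · exact Or.inl h3
    intro a b ha hb
    exact h a b ha hb
  one_mem' := Or.inl rfl
  inv_mem' := by
    rintro a (rfl | ha)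
    · left; simp
    · right
      have : a⁻¹ = a := inv_eq_of_mul_eq_one_left ha.inv.1
      rwa [this]

theorem mem_V4 {g : A5} : g ∈ V4 ↔ g = 1 ∨ IsV g := Iff.rfl

/-- A subgroup of `A₅` of 2-power order has order at most four. -/
theorem two_sub_A5 (H : Subgroup A5) (hH : IsPGroup 2 H) : Nat.card H ≤ 4 := by
  obtain ⟨k, hk⟩ := IsPGroup.iff_card.mp hH
  have h1 : Nat.card H ∣ 60 := by
    rw [← card_A5]
    exact Subgroup.card_subgroup_dvd_card H
  rw [hk] at h1 ⊢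
  have hk3 : k < 3 := by
    by_contra hc
    push Not at hc
    have : (2 : ℕ) ^ 3 ∣ 60 := (pow_dvd_pow 2 hc).trans h1
    norm_num at this
  interval_cases k <;> norm_num

theorem card_V4 : Nat.card V4 = 4 := by
  have h : (V4 : Set A5) = (({1, va, vb, vc} : Finset A5) : Set A5) := by
    ext g
    simp [mem_V4, IsV]
  have e : Nat.card V4 = Nat.card ((V4 : Set A5)) := rfl
  rw [e, h, Nat.card_coe_set_eq, Set.ncard_coe_finset]
  decide +kernel

/-- Two involutions with product of order three. -/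
def t3 : A5 := ⟨Equiv.swap 0 1 * Equiv.swap 2 4, Equiv.Perm.mem_alternatingGroup.mpr (by decide)⟩
/-- Two involutions with product of order five. -/
def t5 : A5 := ⟨Equiv.swap 1 2 * Equiv.swap 3 4, Equiv.Perm.mem_alternatingGroup.mpr (by decide)⟩

theorem t_facts : t3 * t3 = 1 ∧ t3 ≠ 1 ∧ t5 * t5 = 1 ∧ t5 ≠ 1 ∧ (va * t3) ^ 3 = 1 ∧ va * t3 ≠ 1 ∧
    (va * t5) ^ 5 = 1 ∧ va * t5 ≠ 1 := by
  decide +kernel

end A5

end Cfsg.Agent.Lib.Spec5
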