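import Mathlib
import Cfsg.Agent.Lib.Spec5Q

/-!
# Elements of odd prime order inverted by an involution.
-/

set_option autoImplicit false

namespace Cfsg.Agent.Lib.Spec5

universe u

variable {G : Type u} [Group G] [Finite G]

/-- A fixed-point-free involutory automorphism inverts. -/
theorem inv_of_fpf (C : Subgroup G) {t : G} (htt : t * t = 1) (hn : ∀ c ∈ C, t * c * t⁻¹ ∈ C)
    (hfix : ∀ c ∈ C, t * c * t⁻¹ = c → c = 1) : ∀ c ∈ C, t * c * t⁻¹ = c⁻¹ := by
  let f : C → C := fun a => ⟨(a : G)⁻¹ * (t * a * t⁻¹), mul_mem (inv_mem a.2) (hn a a.2)⟩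
  have hf : Function.Injective f := by
    rintro ⟨a, ha⟩ ⟨b, hb⟩ hab
    have h1 : a⁻¹ * (t * a * t⁻¹) = b⁻¹ * (t * b * t⁻¹) := congrArg Subtype.val hab
    have h2 : t * (b * a⁻¹) * t⁻¹ = b * a⁻¹ := by
      calc t * (b * a⁻¹) * t⁻¹ = (t * b * t⁻¹) * (t * a * t⁻¹)⁻¹ := by group
        _ = b * (b⁻¹ * (t * b * t⁻¹)) * (t * a * t⁻¹)⁻¹ := by group
        _ = b * (a⁻¹ * (t * a * t⁻¹)) * (t * a * t⁻¹)⁻¹ := by rw [h1]
        _ = b * a⁻¹ := by group
    have h3 := hfix _ (mul_mem hb (inv_mem ha)) h2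
    apply Subtype.ext
    exact (mul_inv_eq_one.mp h3).symm
  intro c hc
  obtain ⟨⟨a, ha⟩, hax⟩ := (Finite.injective_iff_surjective.mp hf) ⟨c, hc⟩
  have hax' : a⁻¹ * (t * a * t⁻¹) = c := congrArg Subtype.val hax
  subst hax'
  have hti : t⁻¹ = t := inv_eq_of_mul_eq_one_left htt
  calc t * (a⁻¹ * (t * a * t⁻¹)) * t⁻¹ = t * a⁻¹ * t⁻¹ * ((t * t) * a * (t⁻¹ * t⁻¹)) := by group
    _ = t * a⁻¹ * t⁻¹ * a := by
      rw [show t⁻¹ * t⁻¹ = 1 by rw [hti, htt], htt]
      group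
    _ = _ := by
      group

theorem comm_of_inv (C : Subgroup G) {t : G} (h : ∀ c ∈ C, t * c * t⁻¹ = c⁻¹) {a b : G} (ha : a ∈ C)
    (hb : b ∈ C) : a * b = b * a := by
  have h1 := h _ (mul_mem ha hb)
  have h2 := h a ha
  have h3 := h b hb
  have h4 : t * (a * b) * t⁻¹ = (t * a * t⁻¹) * (t * b * t⁻¹) := by group
  rw [h1, h2, h3] at h4
  have h5 : (a * b)⁻¹ = (b * a)⁻¹ := by
    rw [h4]
    group
  exact inv_injective h5

section real

variable (hQ : IsQ G) {p : ℕ}

include hQ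

/-- The centralizer of a real element of order three or five. -/
theorem real_cent (hp : p = 3 ∨ p = 5) {t x : G} (htt : t * t = 1) (ht1 : t ≠ 1) (hx : orderOf x = p)
    (htx : t * x * t⁻¹ = x⁻¹) :
    (∀ c ∈ Subgroup.centralizer ({x} : Set G), t * c * t⁻¹ = c⁻¹) ∧
      (∀ c ∈ Subgroup.centralizer ({x} : Set G), c ≠ 1 → orderOf c = p) := by
  have hP := hQ.toP
  have hx1 : x ≠ 1 := by
    rintro rfl
    rw [orderOf_one] at hx
    rcases hp with h | h <;> omega
  have ht2 : ∃ k : ℕ, orderOf t = 2 ^ k := ⟨1, by rw [pow_one]; exact order_two_of t htt ht1⟩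
  have hxo : Odd (orderOf x) := by
    rcases hp with h | h <;> rw [hx, h] <;> decide
  constructor
  · apply inv_of_fpf _ htt
    · intro c hc
      rw [Subgroup.mem_centralizer_singleton_iff] at hc ⊢
      have e : t * x = x⁻¹ * t := by
        rw [← htx]
        group
      have e2 : x⁻¹ * c = c * x⁻¹ := by
        rw [inv_mul_eq_iff_eq_mul, ← mul_assoc, ← hc]
        group
      have hti : t⁻¹ = t := inv_eq_of_mul_eq_one_left htt
      have e3 : t * x⁻¹ = x * t := by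
        have : t * x⁻¹ * t⁻¹ = x := by
          have h1 : t * x⁻¹ * t⁻¹ = (t * x * t⁻¹)⁻¹ := by group
          rw [h1, htx, inv_inv]
        calc t * x⁻¹ = (t * x⁻¹ * t⁻¹) * t := by group
          _ = x * t := by rw [this]
      -- `t c t⁻¹` commutes with `x`
      have e4 : t⁻¹ * x = x⁻¹ * t⁻¹ := by
        rw [hti, e]
      calc t * c * t⁻¹ * x = t * c * (t⁻¹ * x) := by group
        _ = t * (c * x⁻¹) * t⁻¹ := by rw [e4]; group
        _ = t * (x⁻¹ * c) * t⁻¹ := by rw [e2]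
        _ = (t * x⁻¹) * c * t⁻¹ := by group
        _ = x * (t * c * t⁻¹) := by rw [e3]; group
    · intro c hc hfix
      rw [Subgroup.mem_centralizer_singleton_iff] at hc
      have h1 : t * c = c * t := mul_inv_eq_iff_eq_mul.mp hfix
      have h2 : c ∈ Subgroup.centralizer ({t} : Set G) := by
        rw [Subgroup.mem_centralizer_singleton_iff]
        exact h1.symm
      have h3 := two_of_mem (hP.isPGroup_centralizer ht1 ht2) h2
      rcases hP.comm_two_odd hc h3 hxo with h | h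
      · exact h
      · exact absurd h hx1
  · intro c hc hc1
    rw [Subgroup.mem_centralizer_singleton_iff] at hc
    by_contra hne
    apply hP.comm_false hc hc1 hx1
    rw [hx]
    rcases hp with rfl | rfl <;> rcases hQ c with h | h | h | h | h <;> rw [h] <;> first | decide | exact absurd h hne

/-- The main structural statement about a real Sylow subgroup. -/
theorem real_sylow (hp : p = 3 ∨ p = 5) [Fact p.Prime] {t x : G} (htt : t * t = 1) (ht1 : t ≠ 1)
    (hx : orderOf x = p) (htx : t * x * t⁻¹ = x⁻¹) (P : Sylow p G) (hxP : x ∈ (P : Subgroup G)) :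
    (∀ y ∈ (P : Subgroup G), y ≠ 1 → orderOf y = p ∧ Subgroup.centralizer ({y} : Set G) = P) ∧
      (∀ y ∈ (P : Subgroup G), t * y * t⁻¹ = y⁻¹) := by
  haveI : Nontrivial (P : Subgroup G) := by
    refine ⟨⟨⟨x, hxP⟩, 1, fun h => ?_⟩⟩
    have h1 : x = 1 := congrArg Subtype.val h
    rw [h1, orderOf_one] at hx
    rcases hp with h | h <;> omega
  have hcen := IsPGroup.center_nontrivial P.isPGroup'
  obtain ⟨z, hz⟩ := exists_ne (1 : Subgroup.center (P : Subgroup G))
  have hzP : ((z : (P : Subgroup G)) : G) ∈ (P : Subgroup G) := (z : (P : Subgroup G)).2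
  set z₀ : G := ((z : (P : Subgroup G)) : G) with hz₀
  have hz₀1 : z₀ ≠ 1 := by
    intro h
    apply hz
    apply Subtype.ext
    apply Subtype.ext
    exact h
  have hzc : ∀ y ∈ (P : Subgroup G), z₀ * y = y * z₀ := by
    intro y hy
    have := (Subgroup.mem_center_iff.mp z.2 ⟨y, hy⟩)
    exact (congrArg Subtype.val this).symm
  have hzx : z₀ ∈ Subgroup.centralizer ({x} : Set G) := by
    rw [Subgroup.mem_centralizer_singleton_iff]
    exact hzc x hxP
  obtain ⟨h1, h2⟩ := real_cent hQ hp htt ht1 hx htx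
  have hz3 := real_cent hQ hp htt ht1 (h2 z₀ hzx hz₀1) (h1 z₀ hzx)
  have hPz : (P : Subgroup G) ≤ Subgroup.centralizer ({z₀} : Set G) := by
    intro y hy
    rw [Subgroup.mem_centralizer_singleton_iff]
    exact (hzc y hy).symm
  have hiv : ∀ y ∈ (P : Subgroup G), t * y * t⁻¹ = y⁻¹ := fun y hy => hz3.1 y (hPz hy)
  refine ⟨fun y hy hy1 => ?_, hiv⟩
  have hoy := hz3.2 y (hPz hy) hy1
  refine ⟨hoy, ?_⟩
  obtain ⟨h3, h4⟩ := real_cent hQ hp htt ht1 hoy (hiv y hy)
  have hpg : IsPGroup p (Subgroup.centralizer ({y} : Set G)) := by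
    rw [IsPGroup.iff_orderOf]
    rintro ⟨c, hc⟩
    by_cases hc1 : c = 1
    · exact ⟨0, by simp [hc1]⟩
    · exact ⟨1, by rw [pow_one, Subgroup.orderOf_mk]; exact h4 c hc hc1⟩
  have hle : (P : Subgroup G) ≤ Subgroup.centralizer ({y} : Set G) := by
    intro c hc
    rw [Subgroup.mem_centralizer_singleton_iff]
    exact comm_of_inv (t := t) _ hiv hc hy
  exact P.is_maximal' hpg hle

/-- Every Sylow subgroup is as good. -/
theorem real_sylow' (hp : p = 3 ∨ p = 5) [Fact p.Prime] {t x : G} (htt : t * t = 1) (ht1 : t ≠ 1)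
    (hx : orderOf x = p) (htx : t * x * t⁻¹ = x⁻¹) (P : Sylow p G) :
    ∃ t' : G, t' * t' = 1 ∧ t' ≠ 1 ∧
    (∀ y ∈ (P : Subgroup G), y ≠ 1 → orderOf y = p ∧ Subgroup.centralizer ({y} : Set G) = P) ∧
      (∀ y ∈ (P : Subgroup G), t' * y * t'⁻¹ = y⁻¹) := by
  have hx2 : IsPGroup p (Subgroup.zpowers x) := by
    rw [IsPGroup.iff_orderOf]
    rintro ⟨c, hc⟩
    rw [Subgroup.orderOf_mk]
    obtain ⟨k, rfl⟩ := Subgroup.mem_zpowers_iff.mp hc
    have h1 : orderOf (x ^ k) ∣ p ^ 1 := by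
      rw [pow_one, ← hx]
      exact orderOf_dvd_of_pow_eq_one (by rw [← zpow_natCast, ← zpow_mul, mul_comm, zpow_mul, zpow_natCast, pow_orderOf_eq_one, one_zpow])
    obtain ⟨j, -, hj⟩ := (Nat.dvd_prime_pow Fact.out).mp h1
    exact ⟨j, hj⟩
  obtain ⟨P₀, hP₀⟩ := hx2.exists_le_sylow
  have hxP₀ : x ∈ (P₀ : Subgroup G) := hP₀ (Subgroup.mem_zpowers x)
  obtain ⟨g, rfl⟩ := MulAction.exists_smul_eq G P₀ P
  have hmem : g * x * g⁻¹ ∈ ((g • P₀ : Sylow p G) : Subgroup G) := by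
    rw [Sylow.coe_subgroup_smul]
    exact ⟨x, hxP₀, rfl⟩
  have ht'1 : g * t * g⁻¹ ≠ 1 := by
    intro h
    apply ht1
    have : t = g⁻¹ * (g * t * g⁻¹) * g := by group
    rw [this, h]
    group
  obtain ⟨h1, h2⟩ := real_sylow hQ hp (t := g * t * g⁻¹) (x := g * x * g⁻¹)
    (by
      calc g * t * g⁻¹ * (g * t * g⁻¹) = g * (t * t) * g⁻¹ := by group
        _ = 1 := by rw [htt]; group) ht'1
    (by rw [orderOf_conj, hx])
    (by
      calc g * t * g⁻¹ * (g * x * g⁻¹) * (g * t * g⁻¹)⁻¹ = g * (t * x * t⁻¹) * g⁻¹ := by group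
        _ = _ := by rw [htx]; group) _ hmem
  exact ⟨g * t * g⁻¹, by
      calc g * t * g⁻¹ * (g * t * g⁻¹) = g * (t * t) * g⁻¹ := by group
        _ = 1 := by rw [htt]; group, ht'1, h1, h2⟩

/-- Counting in terms of Sylow subgroups. -/
theorem real_count (hp : p = 3 ∨ p = 5) [Fact p.Prime] {t x : G} (htt : t * t = 1) (ht1 : t ≠ 1)
    (hx : orderOf x = p) (htx : t * x * t⁻¹ = x⁻¹) (P : Sylow p G) :
    ∃ n b : ℕ, 2 ∣ b ∧ 0 < b ∧ n * (b * Nat.card (P : Subgroup G)) = Nat.card G ∧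
      n * Nat.card (P : Subgroup G) = n + Nat.card {g : G // orderOf g = p} := by
  classical
  have hall := fun Y : Sylow p G => real_sylow' hQ hp htt ht1 hx htx Y
  haveI : Fintype (Sylow p G) := Fintype.ofFinite _
  -- elements of order `p`
  let F : (Σ Y : Sylow p G, {y : (Y : Subgroup G) // y ≠ 1}) → {g : G // orderOf g = p} := fun a =>
    ⟨((a.2 : (a.1 : Subgroup G)) : G), by
      obtain ⟨-, -, -, h, -⟩ := hall a.1
      exact (h _ (a.2 : (a.1 : Subgroup G)).2 (fun he => a.2.2 (Subtype.ext he))).1⟩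
  have hF : Function.Bijective F := by
    constructor
    · rintro ⟨Y₁, ⟨⟨a₁, ha₁⟩, ha₁1⟩⟩ ⟨Y₂, ⟨⟨a₂, ha₂⟩, ha₂1⟩⟩ he
      have h1 : a₁ = a₂ := congrArg Subtype.val he
      subst h1
      have hne : a₁ ≠ 1 := fun h => ha₁1 (Subtype.ext h)
      obtain ⟨-, -, -, h1, -⟩ := hall Y₁
      obtain ⟨-, -, -, h2, -⟩ := hall Y₂
      have h3 := (h1 a₁ ha₁ hne).2
      have h4 := (h2 a₁ ha₂ hne).2
      have hY : Y₁ = Y₂ := Sylow.ext (h3.symm.trans h4)
      subst hY
      rfl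
    · rintro ⟨g, hg⟩
      have hg2 : IsPGroup p (Subgroup.zpowers g) := by
        rw [IsPGroup.iff_orderOf]
        rintro ⟨c, hc⟩
        rw [Subgroup.orderOf_mk]
        obtain ⟨k, rfl⟩ := Subgroup.mem_zpowers_iff.mp hc
        have h1 : orderOf (g ^ k) ∣ p ^ 1 := by
          rw [pow_one, ← hg]
          exact orderOf_dvd_of_pow_eq_one (by rw [← zpow_natCast, ← zpow_mul, mul_comm, zpow_mul, zpow_natCast, pow_orderOf_eq_one, one_zpow])
        obtain ⟨j, -, hj⟩ := (Nat.dvd_prime_pow Fact.out).mp h1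
        exact ⟨j, hj⟩
      obtain ⟨Y, hY⟩ := hg2.exists_le_sylow
      have hgne : g ≠ 1 := by
        rintro rfl
        rw [orderOf_one] at hg
        rcases hp with h | h <;> omega
      refine ⟨⟨Y, ⟨⟨g, hY (Subgroup.mem_zpowers g)⟩, fun h => hgne (congrArg Subtype.val h)⟩⟩, rfl⟩
  have hcardY : ∀ Y : Sylow p G, Nat.card (P : Subgroup G) = Nat.card {y : (Y : Subgroup G) // y ≠ 1} + 1 := by
    intro Y
    have h1 : Nat.card (P : Subgroup G) = Nat.card (Y : Subgroup G) := Nat.card_congr (Sylow.equiv P Y).toEquiv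
    rw [h1, Nat.card_congr (Equiv.optionSubtypeNe (1 : (Y : Subgroup G))).symm, Finite.card_option]
  have hsum : Nat.card {g : G // orderOf g = p} = Nat.card (Sylow p G) * (Nat.card (P : Subgroup G) - 1) := by
    rw [← Nat.card_congr (Equiv.ofBijective F hF), Nat.card_sigma]
    have : ∀ Y : Sylow p G, Nat.card {y : (Y : Subgroup G) // y ≠ 1} = Nat.card (P : Subgroup G) - 1 := by
      intro Y
      rw [hcardY Y]
      omega
    simp only [this, Finset.sum_const, Finset.card_univ, smul_eq_mul, Nat.card_eq_fintype_card]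
  have hn : Nat.card (Sylow p G) = (Nr (P : Subgroup G)).index := Sylow.card_eq_index_normalizer P
  obtain ⟨b, hb⟩ : Nat.card (P : Subgroup G) ∣ Nat.card (Nr (P : Subgroup G)) :=
    Subgroup.card_dvd_of_le Subgroup.le_normalizer
  obtain ⟨t', h1, h2, -, h4⟩ := hall P
  have ht'N : t' ∈ Nr (P : Subgroup G) := by
    apply mem_Nr_of_conj
    intro r hr
    rw [h4 r hr]
    exact inv_mem hr
  have h2N : 2 ∣ Nat.card (Nr (P : Subgroup G)) := by
    rw [← order_two_of t' h1 h2]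
    exact Subgroup.orderOf_dvd_natCard _ ht'N
  have hodd : Nat.Coprime 2 (Nat.card (P : Subgroup G)) := by
    obtain ⟨k, hk⟩ := IsPGroup.iff_card.mp P.isPGroup'
    rw [hk]
    apply Nat.Coprime.pow_right
    rcases hp with rfl | rfl <;> decide
  have h2b : 2 ∣ b := by
    rw [hb] at h2N
    exact hodd.dvd_of_dvd_mul_left h2N
  have hcardpos : 0 < Nat.card (Nr (P : Subgroup G)) := Nat.card_pos
  have hb0 : 0 < b := by
    rcases Nat.eq_zero_or_pos b with h | h
    · rw [h, mul_zero] at hb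
      omega
    · exact h
  refine ⟨Nat.card (Sylow p G), b, h2b, hb0, ?_, ?_⟩
  · rw [hn, mul_comm b, ← hb, mul_comm]
    exact Subgroup.card_mul_index _
  · rw [hsum]
    have : 1 ≤ Nat.card (P : Subgroup G) := Nat.card_pos
    obtain ⟨c, hc⟩ : ∃ c, Nat.card (P : Subgroup G) = c + 1 := ⟨Nat.card (P : Subgroup G) - 1, by omega⟩
    rw [hc, Nat.add_sub_cancel]
    ring

end real

end Cfsg.Agent.Lib.Spec5
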