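import Mathlib
import Cfsg.Agent.Lib.Spec5Base
import Cfsg.Agent.Lib.FpfCenter
import Cfsg.Agent.Lib.Frat
import Cfsg.Prelude.Def_LieExceptional

/-!
# Groups with the property `IsP` and trivial intersection Sylow 2-subgroups are Zassenhaus groups.
-/

set_option autoImplicit false

namespace Cfsg.Agent.Lib.Spec5

universe u

open scoped commutatorElement

variable {G : Type u} [Group G] [Finite G]

/-- The normalizer of a Sylow subgroup. -/
abbrev Nz (P : Sylow 2 G) : Subgroup G := Subgroup.normalizer ((P : Subgroup G) : Set G)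

lemma mem_Nz_iff {P : Sylow 2 G} {g : G} : g ∈ Nz P ↔ g • P = P :=
  Sylow.smul_eq_iff_mem_normalizer.symm

lemma mem_smul_iff {P : Sylow 2 G} {g x : G} : x ∈ ((g • P : Sylow 2 G) : Subgroup G) ↔ g⁻¹ * x * g ∈ (P : Subgroup G) := by
  rw [Sylow.coe_subgroup_smul, Subgroup.mem_pointwise_smul_iff_inv_smul_mem]
  simp [MulAut.smul_def]

lemma conj_mem_smul {P : Sylow 2 G} {g x : G} (hx : x ∈ (P : Subgroup G)) :
    g * x * g⁻¹ ∈ ((g • P : Sylow 2 G) : Subgroup G) := by
  rw [mem_smul_iff]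
  simpa [mul_assoc] using hx

lemma conj_mem_of_Nz {P : Sylow 2 G} {g x : G} (hg : g ∈ Nz P) (hx : x ∈ (P : Subgroup G)) :
    g * x * g⁻¹ ∈ (P : Subgroup G) :=
  (Subgroup.mem_normalizer_iff.mp hg x).mp hx

/-- A 2-element normalizing a Sylow 2-subgroup lies in it. -/
theorem two_mem_of_Nz {P : Sylow 2 G} {x : G} (hx : ∃ k : ℕ, orderOf x = 2 ^ k) (hxN : x ∈ Nz P) :
    x ∈ (P : Subgroup G) := by
  obtain ⟨k, hk⟩ := hx
  have hQ : IsPGroup 2 (Subgroup.zpowers x) := IsPGroup.of_card (n := k) (by rw [Nat.card_zpowers, hk])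
  have h1 : Subgroup.zpowers x ⊓ Subgroup.normalizer ((P : Subgroup G) : Set G) =
      Subgroup.zpowers x ⊓ (P : Subgroup G) := hQ.inf_normalizer_sylow P
  have h2 : x ∈ Subgroup.zpowers x ⊓ Subgroup.normalizer ((P : Subgroup G) : Set G) :=
    ⟨Subgroup.mem_zpowers x, hxN⟩
  rw [h1] at h2
  exact h2.2

/-- An involution. -/
def IsInv (x : G) : Prop := x * x = 1 ∧ x ≠ 1

lemma IsInv.two {x : G} (h : IsInv x) : ∃ k : ℕ, orderOf x = 2 ^ k :=
  ⟨1, by rw [pow_one]; exact orderOf_eq_prime (by rw [sq]; exact h.1) h.2⟩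

lemma IsInv.inv_eq {x : G} (h : IsInv x) : x⁻¹ = x := inv_eq_of_mul_eq_one_left h.1

lemma IsInv.conj {x : G} (h : IsInv x) (g : G) : IsInv (g * x * g⁻¹) := by
  refine ⟨?_, ?_⟩
  · calc g * x * g⁻¹ * (g * x * g⁻¹) = g * (x * x) * g⁻¹ := by group
      _ = 1 := by rw [h.1]; group
  · intro h1
    apply h.2
    have : x = g⁻¹ * (g * x * g⁻¹) * g := by group
    rw [this, h1]
    group

/-- A nontrivial Sylow 2-subgroup contains an involution. -/
theorem exists_inv_of_ne_bot {H : Subgroup G} (hH : IsPGroup 2 H) (hne : H ≠ ⊥) : ∃ i ∈ H, IsInv i := by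
  haveI : Fact (Nat.Prime 2) := ⟨Nat.prime_two⟩
  obtain ⟨k, hk⟩ := IsPGroup.iff_card.mp hH
  have hk0 : k ≠ 0 := by
    rintro rfl
    have : Nat.card H = 1 := by simpa using hk
    exact hne (Subgroup.card_eq_one.mp this)
  have hd : 2 ∣ Nat.card H := by
    rw [hk]
    exact dvd_pow_self 2 hk0
  obtain ⟨x, hx⟩ := exists_prime_orderOf_dvd_card' (G := H) 2 hd
  refine ⟨x, x.2, ?_, ?_⟩
  · have h1 : x ^ 2 = 1 := by
      rw [← hx]
      exact pow_orderOf_eq_one x
    rw [sq] at h1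
    exact congrArg Subtype.val h1
  · intro h1
    have : x = 1 := Subtype.ext h1
    rw [this, orderOf_one] at hx
    omega

/-- The midpoint. -/
theorem exists_midpoint {i j : G} (hi : IsInv i) (hj : IsInv j) (hodd : Odd (orderOf (i * j))) :
    ∃ u : G, IsInv u ∧ u * i * u⁻¹ = j := by
  obtain ⟨k, hk⟩ := hodd
  set x := i * j with hx
  have hix : ∀ n : ℕ, i * x ^ n * i = (x ^ n)⁻¹ := by
    intro n
    have h1 : i * x * i⁻¹ = x⁻¹ := by
      rw [hi.inv_eq, hx, mul_inv_rev, hj.inv_eq, hi.inv_eq]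
      calc i * (i * j) * i = (i * i) * j * i := by group
        _ = j * i := by rw [hi.1, one_mul]
    have h2 : i * x ^ n * i⁻¹ = (x ^ n)⁻¹ := by
      rw [← conj_pow, h1, inv_pow]
    rwa [hi.inv_eq] at h2
  set u := i * x ^ (k + 1) with hu
  have huu : u * u = 1 := by
    calc u * u = (i * x ^ (k + 1) * i) * x ^ (k + 1) := by rw [hu]; group
      _ = 1 := by rw [hix]; group
  have hu1 : u ≠ 1 := by
    intro h1
    have h2 : x ^ (k + 1) = i := by
      have h3 : i * x ^ (k + 1) = 1 := h1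
      calc x ^ (k + 1) = i * (i * x ^ (k + 1)) := by rw [← mul_assoc, hi.1, one_mul]
        _ = i := by rw [h3, mul_one]
    have h3 : orderOf i ∣ orderOf x := by
      rw [← h2]
      exact orderOf_pow_dvd _
    have h4 : orderOf i = 2 := orderOf_eq_prime (by rw [sq]; exact hi.1) hi.2
    rw [h4, hk] at h3
    omega
  refine ⟨u, ⟨huu, hu1⟩, ?_⟩
  have huinv : u⁻¹ = u := inv_eq_of_mul_eq_one_left huu
  rw [huinv]
  have hxm : x ^ (2 * k + 1) = 1 := by
    rw [← hk]
    exact pow_orderOf_eq_one x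
  calc u * i * u = i * x ^ (k + 1) * i * (i * x ^ (k + 1)) := by rw [hu]
    _ = i * x ^ (k + 1) * (i * i) * x ^ (k + 1) := by group
    _ = i * (x ^ (k + 1) * x ^ (k + 1)) := by rw [hi.1, mul_one, mul_assoc]
    _ = i * (x ^ (2 * k + 1) * x) := by
      congr 1
      rw [← pow_add, ← pow_succ]
      congr 1
      ring
    _ = i * x := by rw [hxm, one_mul]
    _ = j := by rw [hx, ← mul_assoc, hi.1, one_mul]

section TI

variable (hP : IsP G) (hTI : ∀ X Y : Sylow 2 G, X ≠ Y → ∀ a, a ∈ (X : Subgroup G) → a ∈ (Y : Subgroup G) → a = 1)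

include hTI

lemma sylow_unique {X Y : Sylow 2 G} {a : G} (ha1 : a ≠ 1) (hX : a ∈ (X : Subgroup G))
    (hY : a ∈ (Y : Subgroup G)) : X = Y := by
  by_contra h
  exact ha1 (hTI X Y h a hX hY)

include hP

/-- The centralizer of a non-identity element of `X` lies in `X`. -/
theorem centralizer_le {X : Sylow 2 G} {i : G} (hi : i ∈ (X : Subgroup G)) (hi1 : i ≠ 1) :
    Subgroup.centralizer ({i} : Set G) ≤ (X : Subgroup G) := by
  have hC := hP.isPGroup_centralizer hi1 (two_of_mem X.isPGroup' hi)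
  obtain ⟨Z, hZ⟩ := hC.exists_le_sylow
  have hiC : i ∈ Subgroup.centralizer ({i} : Set G) := by
    rw [Subgroup.mem_centralizer_singleton_iff]
  have : Z = X := sylow_unique hTI hi1 (hZ hiC) hi
  rwa [this] at hZ

/-- The product of two involutions in distinct Sylow subgroups has odd order. -/
theorem odd_mul {X Y : Sylow 2 G} (hXY : X ≠ Y) {i j : G} (hiX : i ∈ (X : Subgroup G))
    (hjY : j ∈ (Y : Subgroup G)) (hi : IsInv i) (hj : IsInv j) : Odd (orderOf (i * j)) := by
  classical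
  rcases hP.two_or_odd (i * j) with h2 | h
  swap
  · exact h
  exfalso
  set x := i * j with hx
  have hx1 : x ≠ 1 := by
    intro h1
    have hij : i = j := by
      have h3 : i * j = 1 := h1
      calc i = i * (j * j) := by rw [hj.1, mul_one]
        _ = (i * j) * j := by group
        _ = j := by rw [h3, one_mul]
    apply hi.2
    exact hTI X Y hXY i hiX (hij ▸ hjY)
  obtain ⟨k, hk⟩ := h2
  have hk0 : k ≠ 0 := by
    rintro rfl
    exact hx1 (orderOf_eq_one_iff.mp (by simpa using hk))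
  obtain ⟨k', rfl⟩ := Nat.exists_eq_succ_of_ne_zero hk0
  set w := x ^ (2 ^ k') with hw
  have hw2 : w * w = 1 := by
    rw [hw, ← pow_add, ← two_mul, ← pow_succ', ← Nat.succ_eq_add_one, ← hk]
    exact pow_orderOf_eq_one x
  have hw1 : w ≠ 1 := by
    intro h1
    have := orderOf_dvd_of_pow_eq_one h1
    rw [hk] at this
    have h2 := Nat.le_of_dvd (by positivity) this
    rw [pow_succ] at h2
    have : 0 < 2 ^ k' := by positivity
    omega
  have hwi : IsInv w := ⟨hw2, hw1⟩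
  -- `i` and `j` invert `x`
  have hix : i * x * i⁻¹ = x⁻¹ := by
    rw [hi.inv_eq, hx, mul_inv_rev, hj.inv_eq, hi.inv_eq]
    calc i * (i * j) * i = (i * i) * j * i := by group
      _ = j * i := by rw [hi.1, one_mul]
  have hjx : j * x * j⁻¹ = x⁻¹ := by
    rw [hj.inv_eq, hx, mul_inv_rev, hj.inv_eq, hi.inv_eq]
    calc j * (i * j) * j = j * i * (j * j) := by group
      _ = j * i := by rw [hj.1, mul_one]
  have hcomm : ∀ a : G, a * x * a⁻¹ = x⁻¹ → a ∈ Subgroup.centralizer ({w} : Set G) := by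
    intro a ha
    rw [Subgroup.mem_centralizer_singleton_iff]
    have h1 : a * w * a⁻¹ = w⁻¹ := by
      rw [hw, ← conj_pow, ha, inv_pow]
    have h2 : w⁻¹ = w := hwi.inv_eq
    rw [h2] at h1
    exact mul_inv_eq_iff_eq_mul.mp h1
  have hC := hP.isPGroup_centralizer hw1 hwi.two
  obtain ⟨Z, hZ⟩ := hC.exists_le_sylow
  have h1 : Z = X := sylow_unique hTI hi.2 (hZ (hcomm i hix)) hiX
  have h2 : Z = Y := sylow_unique hTI hj.2 (hZ (hcomm j hjx)) hjY
  exact hXY (h1.symm.trans h2)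

/-- Swapper: an involution carrying `i` to `j`, hence `X` to `Y`. -/
theorem exists_swap {X Y : Sylow 2 G} (hXY : X ≠ Y) {i j : G} (hiX : i ∈ (X : Subgroup G))
    (hjY : j ∈ (Y : Subgroup G)) (hi : IsInv i) (hj : IsInv j) :
    ∃ u : G, IsInv u ∧ u * i * u⁻¹ = j ∧ u • X = Y ∧ u • Y = X := by
  obtain ⟨u, hu, huij⟩ := exists_midpoint hi hj (odd_mul hP hTI hXY hiX hjY hi hj)
  have h1 : u • X = Y := by
    apply sylow_unique hTI hj.2 _ hjY
    rw [← huij]
    exact conj_mem_smul hiX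
  refine ⟨u, hu, huij, h1, ?_⟩
  rw [← h1, smul_smul, ← sq, sq, hu.1, one_smul]

end TI


section Focal

/-- A subgroup with the Frattini-type property. -/
theorem eq_of_sup_commutator {T T₀ : Subgroup G} (hT : IsPGroup 2 T) (h0 : T₀ ≤ T)
    (h : T ≤ T₀ ⊔ ⁅T, T⁆) : T₀ = T := by
  haveI : Fact (Nat.Prime 2) := ⟨Nat.prime_two⟩
  set H : Subgroup T := T₀.subgroupOf T with hH
  have h1 : H ⊔ commutator T = ⊤ := by
    apply Subgroup.map_injective T.subtype_injective
    rw [Subgroup.map_sup, Subgroup.map_subgroupOf_eq_of_le h0, Subgroup.map_subtype_commutator,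
      ← MonoidHom.range_eq_map, Subgroup.range_subtype]
    apply le_antisymm
    · refine sup_le h0 (Subgroup.commutator_le.mpr fun a ha b hb => ?_)
      rw [commutatorElement_def]
      exact T.mul_mem (T.mul_mem (T.mul_mem ha hb) (T.inv_mem ha)) (T.inv_mem hb)
    · exact h
  have h2 : H ⊔ frattini T = ⊤ := by
    rw [eq_top_iff, ← h1]
    exact sup_le_sup_left (Cfsg.Agent.Lib.Frat.commutator_le_frattini hT) _
  have h3 : H = ⊤ := frattini_nongenerating h2
  apply le_antisymm h0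
  intro t ht
  have h4 : (⟨t, ht⟩ : T) ∈ H := by
    rw [h3]
    exact Subgroup.mem_top _
  exact h4

/-- Focal subgroup argument: if `T` is self-normalizing and `T₀` contains every element of `T` lying
in another Sylow subgroup, then `T₀ = T`. -/
theorem focal_cover [IsSimpleGroup G] (hna : ¬ ∀ a b : G, a * b = b * a) (T : Sylow 2 G)
    (hN : Nz T ≤ (T : Subgroup G)) (T₀ : Subgroup G) (hT₀ : T₀ ≤ T)
    (hcov : ∀ w ∈ (T : Subgroup G), ∀ X : Sylow 2 G, X ≠ T → w ∈ (X : Subgroup G) → w ∈ T₀) :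
    T₀ = T := by
  have hc : commutator G = ⊤ := by
    rcases IsSimpleGroup.eq_bot_or_eq_top_of_normal (commutator G) inferInstance with h | h
    · exfalso
      apply hna
      intro a b
      have h1 : ⁅a, b⁆ ∈ commutator G := Subgroup.commutator_mem_commutator (Subgroup.mem_top _) (Subgroup.mem_top _)
      rw [h, Subgroup.mem_bot] at h1
      exact commutatorElement_eq_one_iff_mul_comm.mp h1
    · exact h
  have hf : (T : Subgroup G) = (T : Subgroup G).focalSubgroup := by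
    have := Subgroup.commutator_inf_eq_focalSubgroup T
    rwa [hc, top_inf_eq] at this
  apply eq_of_sup_commutator T.isPGroup' hT₀
  refine hf.le.trans ?_
  rw [Subgroup.focalSubgroup, Subgroup.closure_le]
  rintro g ⟨hgT, x, hx, u, rfl⟩
  by_cases hu : u ∈ (T : Subgroup G)
  · apply Subgroup.mem_sup_right
    exact Subgroup.commutator_mem_commutator hx hu
  · apply Subgroup.mem_sup_left
    have huT : u • T ≠ T := fun h => hu (hN (mem_Nz_iff.mpr h))
    have huT' : u⁻¹ • T ≠ T := by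
      intro h
      apply huT
      rw [← h, smul_inv_smul, h]
    have hy : u * x * u⁻¹ ∈ (T : Subgroup G) := by
      have h2 : ⁅x, u⁆⁻¹ * x ∈ (T : Subgroup G) := mul_mem (inv_mem hgT) hx
      have h3 : ⁅x, u⁆⁻¹ * x = u * x * u⁻¹ := by
        simp only [commutatorElement_def]; group
      rwa [h3] at h2
    have hy0 : u * x * u⁻¹ ∈ T₀ := hcov _ hy _ huT (conj_mem_smul hx)
    have hx1 : x ∈ ((u⁻¹ • T : Sylow 2 G) : Subgroup G) := by
      have := conj_mem_smul (P := T) (g := u⁻¹) hy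
      simpa [mul_assoc] using this
    have hx0 : x ∈ T₀ := hcov _ hx _ huT' hx1
    have h4 : ⁅x, u⁆ = x * (u * x * u⁻¹)⁻¹ := by
      simp only [commutatorElement_def]; group
    change ⁅x, u⁆ ∈ T₀
    rw [h4]
    exact mul_mem hx0 (inv_mem hy0)

end Focal

section TI2

variable (hP : IsP G) (hTI : ∀ X Y : Sylow 2 G, X ≠ Y → ∀ a, a ∈ (X : Subgroup G) → a ∈ (Y : Subgroup G) → a = 1)
  (hne : ∀ X : Sylow 2 G, (X : Subgroup G) ≠ ⊥)

/-- The two-point stabilizer. -/
abbrev Dz (X Y : Sylow 2 G) : Subgroup G := Nz X ⊓ Nz Y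

include hP hTI

lemma Dz_odd {X Y : Sylow 2 G} (hXY : X ≠ Y) {d : G} (hd : d ∈ Dz X Y) : Odd (orderOf d) := by
  rcases hP.two_or_odd d with h | h
  · have h1 := hTI X Y hXY d (two_mem_of_Nz h hd.1) (two_mem_of_Nz h hd.2)
    rw [h1, orderOf_one]
    exact odd_one
  · exact h

include hne

lemma exists_swapper {X Y : Sylow 2 G} (hXY : X ≠ Y) : ∃ u : G, IsInv u ∧ u • X = Y ∧ u • Y = X := by
  obtain ⟨i, hiX, hi⟩ := exists_inv_of_ne_bot X.isPGroup' (hne X)
  obtain ⟨j, hjY, hj⟩ := exists_inv_of_ne_bot Y.isPGroup' (hne Y)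
  obtain ⟨u, hu, -, h1, h2⟩ := exists_swap hP hTI hXY hiX hjY hi hj
  exact ⟨u, hu, h1, h2⟩

omit hne in
lemma swap_inverts {X Y : Sylow 2 G} (hXY : X ≠ Y) {u : G} (hu : IsInv u) (h1 : u • X = Y)
    (h2 : u • Y = X) {d : G} (hd : d ∈ Dz X Y) : u * d * u⁻¹ = d⁻¹ := by
  have hN : u ∈ Subgroup.normalizer ((Dz X Y : Subgroup G) : Set G) := by
    rw [Subgroup.mem_normalizer_iff]
    have key : ∀ c : G, c ∈ Dz X Y → u * c * u⁻¹ ∈ Dz X Y := by
      intro c hc
      have hui : u⁻¹ = u := hu.inv_eq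
      refine ⟨mem_Nz_iff.mpr ?_, mem_Nz_iff.mpr ?_⟩
      · rw [hui, mul_smul, mul_smul, h1, mem_Nz_iff.mp hc.2, h2]
      · rw [hui, mul_smul, mul_smul, h2, mem_Nz_iff.mp hc.1, h1]
    intro c
    refine ⟨key c, fun hc => ?_⟩
    have := key _ hc
    have hui : u⁻¹ = u := hu.inv_eq
    have h3 : u * (u * c * u⁻¹) * u⁻¹ = c := by
      rw [hui]
      calc u * (u * c * u) * u = (u * u) * c * (u * u) := by group
        _ = c := by rw [hu.1]; group
    rwa [h3] at this
  have hf : (Dz X Y) ⊓ Subgroup.centralizer {u} = ⊥ := by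
    rw [eq_bot_iff]
    rintro c ⟨hc, hcu⟩
    rw [Subgroup.mem_bot]
    have h3 : u * c = c * u := (Subgroup.mem_centralizer_singleton_iff.mp hcu).symm
    exact hP.comm_odd_eq_one hu.2 hu.two (Dz_odd hP hTI hXY hc) h3
  exact Cfsg.Agent.Lib.FpfCenter.inv_of_involution _ u hu.1 hN hf d hd

end TI2

end Cfsg.Agent.Lib.Spec5
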