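import Mathlib
import Cfsg.Agent.Lib.Spec5Tame5

/-!
# Tame subgroups: conjugation, and the existence of four-groups.
-/

set_option autoImplicit false

namespace Cfsg.Agent.Lib.Spec5

universe u

open scoped commutatorElement

variable {G : Type u} [Group G] [Finite G]

/-- The conjugate subgroup. -/
def cj (g : G) (R : Subgroup G) : Subgroup G := R.map (MulAut.conj g).toMonoidHom

lemma mem_cj {g x : G} {R : Subgroup G} : x ∈ cj g R ↔ g⁻¹ * x * g ∈ R := by
  constructor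
  · rintro ⟨r, hr, rfl⟩
    have : g⁻¹ * (MulAut.conj g).toMonoidHom r * g = r := by
      simp [MulAut.conj_apply, mul_assoc]
    rw [this]
    exact hr
  · intro h
    refine ⟨_, h, ?_⟩
    simp [MulAut.conj_apply, mul_assoc]

lemma conj_mem_cj {g r : G} {R : Subgroup G} (hr : r ∈ R) : g * r * g⁻¹ ∈ cj g R := by
  rw [mem_cj]
  have : g⁻¹ * (g * r * g⁻¹) * g = r := by group
  rw [this]
  exact hr

lemma mem_Nr_cj {g a : G} {R : Subgroup G} : a ∈ Nr (cj g R) ↔ g⁻¹ * a * g ∈ Nr R := by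
  constructor
  · intro ha
    apply mem_Nr_of_conj
    intro r hr
    have h1 := conj_mem_Nr ha (conj_mem_cj (g := g) hr)
    rw [mem_cj] at h1
    have : g⁻¹ * a * g * r * (g⁻¹ * a * g)⁻¹ = g⁻¹ * (a * (g * r * g⁻¹) * a⁻¹) * g := by group
    rw [this]
    exact h1
  · intro ha
    apply mem_Nr_of_conj
    intro x hx
    rw [mem_cj] at hx ⊢
    have h1 := conj_mem_Nr ha hx
    have : g⁻¹ * (a * x * a⁻¹) * g = g⁻¹ * a * g * (g⁻¹ * x * g) * (g⁻¹ * a * g)⁻¹ := by group
    rw [this]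
    exact h1

lemma omZ_cj (g : G) (R : Subgroup G) : omZ (cj g R) = cj g (omZ R) := by
  ext x
  rw [mem_cj, mem_omZ, mem_omZ, mem_cj]
  constructor
  · rintro ⟨h1, h2, h3⟩
    refine ⟨h1, ?_, ?_⟩
    · intro r hr
      have h4 := h2 _ (conj_mem_cj (g := g) hr)
      calc g⁻¹ * x * g * r = g⁻¹ * (x * (g * r * g⁻¹)) * g := by group
        _ = g⁻¹ * ((g * r * g⁻¹) * x) * g := by rw [h4]
        _ = r * (g⁻¹ * x * g) := by group
    · calc g⁻¹ * x * g * (g⁻¹ * x * g) = g⁻¹ * (x * x) * g := by group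
        _ = 1 := by rw [h3]; group
  · rintro ⟨h1, h2, h3⟩
    refine ⟨h1, ?_, ?_⟩
    · intro r hr
      rw [mem_cj] at hr
      have h4 := h2 _ hr
      calc x * r = g * ((g⁻¹ * x * g) * (g⁻¹ * r * g)) * g⁻¹ := by group
        _ = g * ((g⁻¹ * r * g) * (g⁻¹ * x * g)) * g⁻¹ := by rw [h4]
        _ = r * x := by group
    · calc x * x = g * ((g⁻¹ * x * g) * (g⁻¹ * x * g)) * g⁻¹ := by group
        _ = 1 := by rw [h3]; group

lemma card_omZ_cj (g : G) (R : Subgroup G) : Nat.card (omZ (cj g R)) = Nat.card (omZ R) := by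
  rw [omZ_cj, cj, Subgroup.card_map_of_injective (MulAut.conj g).injective]

variable {T : Sylow 2 G} {R : Subgroup G}

/-- Conjugates of tame subgroups by elements of `T` are tame. -/
lemma Tame.cj (h : Tame T R) {g : G} (hg : g ∈ (T : Subgroup G)) : Tame T (cj g R) := by
  refine ⟨?_, ?_, ?_, ?_⟩
  · intro hb
    apply h.ne_bot
    rw [eq_bot_iff]
    intro r hr
    have h1 := conj_mem_cj (g := g) hr
    rw [hb, Subgroup.mem_bot] at h1
    rw [Subgroup.mem_bot]
    have h2 : r = g⁻¹ * (g * r * g⁻¹) * g := by group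
    rw [h2, h1]
    group
  · intro x hx
    rw [mem_cj] at hx
    have h1 := h.le hx
    have h2 : x = g * (g⁻¹ * x * g) * g⁻¹ := by group
    rw [h2]
    exact mul_mem (mul_mem hg h1) (inv_mem hg)
  · intro he
    apply h.ne
    apply le_antisymm h.le
    intro x hx
    have h1 : g * x * g⁻¹ ∈ Cfsg.Agent.Lib.Spec5.cj g R := by
      rw [he]
      exact mul_mem (mul_mem hg hx) (inv_mem hg)
    rw [mem_cj] at h1
    have h2 : g⁻¹ * (g * x * g⁻¹) * g = x := by group
    rwa [h2] at h1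
  · intro Q' h1 h2 h3
    set Q'' : Subgroup G := Cfsg.Agent.Lib.Spec5.cj g⁻¹ Q' with hQ''
    have hmem : ∀ x, x ∈ Q'' ↔ g * x * g⁻¹ ∈ Q' := by
      intro x
      rw [hQ'', mem_cj, inv_inv]
    have e1 : Q'' ≤ Nr R := by
      intro x hx
      rw [hmem] at hx
      have h4 := mem_Nr_cj.mp (h1 hx)
      have h5 : g⁻¹ * (g * x * g⁻¹) * g = x := by group
      rwa [h5] at h4
    have e2 : Nr R ≤ Nr Q'' := by
      intro a ha
      apply mem_Nr_of_conj
      intro x hx
      rw [hmem] at hx ⊢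
      have h4 : g * a * g⁻¹ ∈ Nr (Cfsg.Agent.Lib.Spec5.cj g R) := by
        rw [mem_Nr_cj]
        have h5 : g⁻¹ * (g * a * g⁻¹) * g = a := by group
        rw [h5]
        exact ha
      have h6 := conj_mem_Nr (h2 h4) hx
      have h7 : g * (a * x * a⁻¹) * g⁻¹ = g * a * g⁻¹ * (g * x * g⁻¹) * (g * a * g⁻¹)⁻¹ := by group
      rw [h7]
      exact h6
    have e3 : IsPGroup 2 Q'' := h3.map _
    have e4 := h.O2 Q'' e1 e2 e3
    intro x hx
    rw [mem_cj]
    apply e4
    rw [hmem]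
    have h5 : g * (g⁻¹ * x * g) * g⁻¹ = x := by group
    rw [h5]
    exact hx

/-- `|Ω₁Z(R)| ≤ 4` implies `= 4`. -/
theorem card_four_of_le (hP : IsP G) {y : G} (hL : LocData (Nr R) R y) (hR2 : IsPGroup 2 R) (hR1 : R ≠ ⊥)
    (h4 : Nat.card (omZ R) ≤ 4) : Nat.card (omZ R) = 4 := by
  obtain ⟨i, -, hiE, hi1⟩ := exists_central_inv_of_normal hR2 le_rfl Subgroup.le_normalizer hR1
  have hfix := fix_of_loc hP hL hR2
  have hle2 : ¬ Nat.card (omZ R) ≤ 2 := by
    intro h
    have h0 : y * i * y⁻¹ ≠ 1 := by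
      intro h1
      apply hi1
      have : i = y⁻¹ * (y * i * y⁻¹) * y := by group
      rw [this, h1]
      group
    have h1 : y * i * y⁻¹ = i := eq_of_card_le_two h (omZ_conj hL.mem hiE) hiE h0 hi1
    exact hi1 (hfix i hiE.1 h1)
  have hp : IsPGroup 2 (omZ R) := hR2.to_le (omZ_le R)
  obtain ⟨k, hk⟩ := IsPGroup.iff_card.mp hp
  rw [hk] at h4 hle2 ⊢
  have hk2 : k ≤ 2 := by
    by_contra hc
    push Not at hc
    have : 2 ^ 3 ≤ 2 ^ k := Nat.pow_le_pow_right (by norm_num) hc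
    omega
  interval_cases k
  · omega
  · omega
  · rfl

/-- Central involutions of `T`. -/
lemma Tame.exists_z (h : Tame T R) : ∃ z, z ∈ omZ (T : Subgroup G) ∧ z ≠ 1 := by
  have hT1 : (T : Subgroup G) ≠ ⊥ := by
    intro hb
    apply h.ne_bot
    rw [eq_bot_iff, ← hb]
    exact h.le
  obtain ⟨z, -, hz, hz1⟩ := exists_central_inv_of_normal T.isPGroup' le_rfl Subgroup.le_normalizer hT1
  exact ⟨z, hz, hz1⟩

/-- If `T` does not normalize the small subgroup `R`, then `R` is a four-group. -/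
theorem small_not_top (hP : IsP G)
    (hIH : SolH G)
    {y : G} (hS : SmallT T R y) (hn : ¬ (T : Subgroup G) ≤ Nr R) : R ≤ omZ R := by
  obtain ⟨z, hz, hz1⟩ := hS.tame.exists_z
  have hne : (T : Subgroup G) ⊓ Nr R ≠ T := fun h => hn (inf_eq_left.mp h)
  obtain ⟨g, hgT, hgN, hgn⟩ := exists_normalizer_gt T.isPGroup' inf_le_left hne
  have hgNR : g ∉ Nr R := fun h => hgn (Subgroup.mem_inf.mpr ⟨hgT, h⟩)
  have hT₂ := hS.tame.cj hgT
  obtain ⟨y₂, hL₂⟩ := hT₂.exists_loc hP hIH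
  have hS₂ : SmallT T (cj g R) y₂ := ⟨hT₂, hL₂, by rw [card_omZ_cj]; exact hS.card⟩
  have hne₂ : R ≠ cj g R := by
    intro h
    apply hgNR
    apply mem_Nr_of_conj
    intro r hr
    rw [h]
    exact conj_mem_cj hr
  have hT₀ : (T : Subgroup G) ⊓ Nr R = (T : Subgroup G) ⊓ Nr (cj g R) := by
    ext a
    rw [Subgroup.mem_inf, Subgroup.mem_inf, mem_Nr_cj]
    constructor
    · rintro ⟨h1, h2⟩
      refine ⟨h1, ?_⟩
      have h3 := conj_inv_mem_Nr hgN (Subgroup.mem_inf.mpr ⟨h1, h2⟩)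
      exact (Subgroup.mem_inf.mp h3).2
    · rintro ⟨h1, h2⟩
      refine ⟨h1, ?_⟩
      have h3 : g⁻¹ * a * g ∈ (T : Subgroup G) ⊓ Nr R :=
        Subgroup.mem_inf.mpr ⟨mul_mem (mul_mem (inv_mem hgT) h1) hgT, h2⟩
      have h4 := conj_mem_Nr hgN h3
      have h5 : g * (g⁻¹ * a * g) * g⁻¹ = a := by group
      rw [h5] at h4
      exact (Subgroup.mem_inf.mp h4).2
  exact two_small hP hS hS₂ hT₀ hne₂ hz hz1

/-- The quasi-central element. -/
theorem exists_quasicentral {T F : Subgroup G} (hT : IsPGroup 2 T) (hFT : F ≤ T) (hTF : T ≤ Nr F) {z : G}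
    (hzT : z ∈ T) (hzc : ∀ g ∈ T, z * g = g * z) (hzz : z * z = 1) (hne : ∃ e ∈ F, e ≠ 1 ∧ e ≠ z) :
    ∃ e ∈ F, e ≠ 1 ∧ e ≠ z ∧ ∀ g ∈ T, g * e * g⁻¹ = e ∨ g * e * g⁻¹ = e * z := by
  haveI : Fact (Nat.Prime 2) := ⟨Nat.prime_two⟩
  let zX : T := ⟨z, hzT⟩
  have hzXc : ∀ g : T, zX * g = g * zX := fun g => Subtype.ext (hzc g g.2)
  have hmemN : ∀ a : T, a ∈ Subgroup.zpowers zX → a = 1 ∨ a = zX := by
    intro a ha
    obtain ⟨k, rfl⟩ := Subgroup.mem_zpowers_iff.mp ha
    have hzzX : zX * zX = 1 := Subtype.ext hzz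
    rcases Int.even_or_odd' k with ⟨m, rfl | rfl⟩
    · left
      rw [zpow_mul, zpow_two, hzzX, one_zpow]
    · right
      rw [zpow_add, zpow_mul, zpow_two, hzzX, one_zpow, one_mul, zpow_one]
  set N : Subgroup T := Subgroup.zpowers zX with hN
  haveI hNn : N.Normal := by
    constructor
    intro n hn g
    obtain ⟨k, rfl⟩ := Subgroup.mem_zpowers_iff.mp hn
    have h1 : g * zX ^ k * g⁻¹ = zX ^ k := by
      have h2 : Commute zX g := hzXc g
      have h3 : g * zX ^ k = zX ^ k * g := ((h2.zpow_left k).eq).symm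
      rw [h3]
      group
    rw [h1]
    exact Subgroup.zpow_mem_zpowers zX k
  haveI hQp : IsPGroup 2 (T ⧸ N) := hT.to_quotient N
  haveI hQn : Group.IsNilpotent (T ⧸ N) := hQp.isNilpotent
  set M : Subgroup (T ⧸ N) := (F.subgroupOf T).map (QuotientGroup.mk' N) with hM
  haveI hMn : M.Normal := by
    apply Subgroup.Normal.map _ _ (QuotientGroup.mk'_surjective N)
    rw [Subgroup.normal_subgroupOf_iff_le_normalizer hFT]
    exact hTF
  have hMne : M ≠ ⊥ := by
    obtain ⟨e, heF, he1, hez⟩ := hne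
    intro hb
    have h1 : (QuotientGroup.mk' N) ⟨e, hFT heF⟩ ∈ M := ⟨_, Subgroup.mem_subgroupOf.mpr heF, rfl⟩
    rw [hb, Subgroup.mem_bot, QuotientGroup.mk'_apply, QuotientGroup.eq_one_iff] at h1
    rcases hmemN _ h1 with h2 | h2
    · exact he1 (congrArg Subtype.val h2)
    · exact hez (congrArg Subtype.val h2)
  have h1 := Cfsg.Agent.Lib.BrolineGT.inf_center_ne_bot M hMne
  obtain ⟨c, hc, hc1⟩ : ∃ c ∈ M ⊓ Subgroup.center (T ⧸ N), c ≠ 1 := by
    by_contra hcon
    push Not at hcon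
    exact h1 ((Subgroup.eq_bot_iff_forall _).mpr hcon)
  obtain ⟨⟨⟨e, heT⟩, heF, rfl⟩, hec⟩ := hc
  have heF' : e ∈ F := Subgroup.mem_subgroupOf.mp heF
  have hne1 : ∀ a : T, a ∈ N → (QuotientGroup.mk' N) a = 1 := fun a ha => by
    rw [QuotientGroup.mk'_apply, QuotientGroup.eq_one_iff]
    exact ha
  refine ⟨e, heF', ?_, ?_, ?_⟩
  · rintro rfl
    apply hc1
    exact hne1 _ N.one_mem
  · rintro rfl
    apply hc1
    exact hne1 _ (Subgroup.mem_zpowers zX)
  · intro g hg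
    have h2 := Subgroup.mem_center_iff.mp hec ((QuotientGroup.mk' N) ⟨g, hg⟩)
    have h3 : (⟨e, heT⟩ : T)⁻¹ * (⟨g, hg⟩ * ⟨e, heT⟩ * (⟨g, hg⟩ : T)⁻¹) ∈ N := by
      rw [← QuotientGroup.eq]
      rw [QuotientGroup.mk'_apply, QuotientGroup.mk'_apply] at h2
      simp only [QuotientGroup.mk_mul, QuotientGroup.mk_inv]
      rw [h2]
      group
    rcases hmemN _ h3 with h4 | h4
    · left
      have h5 := congrArg Subtype.val h4
      simp only [Subgroup.coe_mul, Subgroup.coe_inv, Subgroup.coe_one] at h5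
      calc g * e * g⁻¹ = e * (e⁻¹ * (g * e * g⁻¹)) := by group
        _ = e := by rw [h5, mul_one]
    · right
      have h5 := congrArg Subtype.val h4
      simp only [Subgroup.coe_mul, Subgroup.coe_inv] at h5
      calc g * e * g⁻¹ = e * (e⁻¹ * (g * e * g⁻¹)) := by group
        _ = e * z := by rw [h5]

/-- At most four elements. -/
lemma card_le_four_of_forall {E : Subgroup G} {a b c d : G} (h : ∀ e ∈ E, e = a ∨ e = b ∨ e = c ∨ e = d) :
    Nat.card E ≤ 4 := by
  classical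
  have h1 : (E : Set G) ⊆ (({a, b, c, d} : Finset G) : Set G) := by
    intro e he
    simpa using h e he
  have h2 : Nat.card E = (E : Set G).ncard := Nat.card_coe_set_eq _
  rw [h2]
  calc (E : Set G).ncard ≤ (({a, b, c, d} : Finset G) : Set G).ncard :=
        Set.ncard_le_ncard h1 (Finset.finite_toSet _)
    _ = ({a, b, c, d} : Finset G).card := Set.ncard_coe_finset _
    _ ≤ 4 := Finset.card_le_four

/-- A small `T`-invariant subgroup, and a big `T`-invariant tame subgroup not inside it, are incompatible. -/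
theorem big_small_false (hP : IsP G) {R' : Subgroup G} {y : G} (hS : SmallT T R y)
    (hTR : (T : Subgroup G) ≤ Nr R) (h' : Tame T R') (hTR' : (T : Subgroup G) ≤ Nr R')
    (hbig : ¬ Nat.card (omZ R') ≤ 4) (hnot : ¬ R' ≤ R) {z : G} (hz : z ∈ omZ (T : Subgroup G)) (hz1 : z ≠ 1) : False := by
  set E' := omZ R' with hE'
  set F := E' ⊓ R with hF
  have hzE' : z ∈ E' := h'.z_mem hP hz
  have hzE := hS.tame.z_mem hP hz
  have hzR : z ∈ R := hzE.1
  have hFT : F ≤ (T : Subgroup G) := inf_le_right.trans hS.tame.le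
  have hTF : (T : Subgroup G) ≤ Nr F := fun g hg => mem_Nr_of_conj fun c hc =>
    Subgroup.mem_inf.mpr ⟨omZ_conj (hTR' hg) (Subgroup.mem_inf.mp hc).1,
      conj_mem_Nr (hTR hg) (Subgroup.mem_inf.mp hc).2⟩
  have hne : ∃ e ∈ F, e ≠ 1 ∧ e ≠ z := by
    by_contra hc
    push Not at hc
    apply hbig
    have hFe : ∀ e ∈ E', e ∈ R → e = 1 ∨ e = z := by
      intro e he heR
      by_cases h1 : e = 1
      · exact Or.inl h1
      · exact Or.inr (hc e (Subgroup.mem_inf.mpr ⟨he, heR⟩) h1)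
    by_cases hex : ∃ e₀ ∈ E', e₀ ∉ R
    · obtain ⟨e₀, he₀, he₀R⟩ := hex
      apply card_le_four_of_forall (a := 1) (b := z) (c := e₀) (d := z * e₀)
      intro e he
      by_cases heR : e ∈ R
      · rcases hFe e he heR with h1 | h1
        · exact Or.inl h1
        · exact Or.inr (Or.inl h1)
      · have h1 := hS.index hP (h'.le (omZ_le _ he)) (h'.le (omZ_le _ he₀)) (hTR (h'.le (omZ_le _ he)))
          (hTR (h'.le (omZ_le _ he₀))) heR he₀R
        have h0 : e₀ * e₀ = 1 := he₀.2.2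
        rcases hFe _ (mul_mem he he₀) h1 with h2 | h2
        · right; right; left
          calc e = e * (e₀ * e₀) := by rw [h0, mul_one]
            _ = (e * e₀) * e₀ := by group
            _ = e₀ := by rw [h2, one_mul]
        · right; right; right
          calc e = e * (e₀ * e₀) := by rw [h0, mul_one]
            _ = (e * e₀) * e₀ := by group
            _ = z * e₀ := by rw [h2]
    · push Not at hex
      apply card_le_four_of_forall (a := 1) (b := z) (c := z) (d := z)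
      intro e he
      rcases hFe e he (hex e he) with h1 | h1
      · exact Or.inl h1
      · exact Or.inr (Or.inl h1)
  obtain ⟨e, heF, he1, hez, hcl⟩ := exists_quasicentral T.isPGroup' hFT hTF hz.1 hz.2.1 hz.2.2 hne
  have heF1 := Subgroup.mem_inf.mp heF
  have hcR := no3 hS.loc.mem (hS.yyy hP) (hS.fix hP) heF1.2 hzR hzE.2.1 hzE.2.2
    (fun g hg => hcl g (hS.tame.le hg))
  obtain ⟨r', hr', hr'R⟩ := SetLike.not_le_iff_exists.mp hnot
  have hcent : e ∈ omZ (T : Subgroup G) := by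
    refine ⟨hFT heF, ?_, heF1.1.2.2⟩
    intro g hg
    by_cases hgR : g ∈ R
    · exact (hcR g hgR).symm
    · have h1 : g * r' ∈ R := hS.index hP hg (h'.le hr') (hTR hg) (hTR (h'.le hr')) hgR hr'R
      have h2 := hcR _ h1
      have h3 : e * r' = r' * e := heF1.1.2.1 r' hr'
      have h4 : r'⁻¹ * e = e * r'⁻¹ := by
        calc r'⁻¹ * e = r'⁻¹ * e * (r' * r'⁻¹) := by group
          _ = r'⁻¹ * (e * r') * r'⁻¹ := by group
          _ = r'⁻¹ * (r' * e) * r'⁻¹ := by rw [h3]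
          _ = e * r'⁻¹ := by group
      calc e * g = e * (g * r') * r'⁻¹ := by group
        _ = (g * r') * e * r'⁻¹ := by rw [h2]
        _ = g * (r' * (e * r'⁻¹)) := by group
        _ = g * (r' * (r'⁻¹ * e)) := by rw [h4]
        _ = g * e := by group
  exact hez (hS.z_unique hP hz hz1 hcent he1)

end Cfsg.Agent.Lib.Spec5
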