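import Mathlib
import Cfsg.Agent.Lib.SqfClass1
import Cfsg.Agent.Lib.MinNorm

/-!
# Groups all of whose conjugacy classes have squarefree size: solvability and minimal normal subgroups.
-/

set_option autoImplicit false
set_option linter.unusedSectionVars false
set_option linter.unusedVariables false
set_option linter.style.haveILetI false

namespace Cfsg.Agent.Lib.SqfClass

open Subgroup
open scoped commutatorElement Pointwise

universe u

/-- Groups with all classes of squarefree size are solvable. -/
theorem SqfC.isSolvable : ∀ (n : ℕ) (G : Type u) [Group G] [Finite G], Nat.card G = n → SqfC G →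
    Group.IsSolvable G := by
  intro n
  induction n using Nat.strong_induction_on with
  | _ n ih =>
    intro G _ _ hn h
    by_cases hcomm : ∀ a b : G, a * b = b * a
    · letI : CommGroup G := { (inferInstance : Group G) with mul_comm := hcomm }
      exact Group.isSolvable_of_comm hcomm
    · push Not at hcomm
      obtain ⟨a, b, hab⟩ := hcomm
      by_cases hs : IsSimpleGroup G
      · exact (h.not_simple hs ⟨a, b, hab⟩).elim
      · have hnt : Nontrivial G := ⟨⟨a * b, b * a, hab⟩⟩
        have : ∃ N : Subgroup G, N.Normal ∧ N ≠ ⊥ ∧ N ≠ ⊤ := by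
          by_contra hcon
          push Not at hcon
          apply hs
          refine ⟨?_⟩
          intro N hN
          by_cases hb : N = ⊥
          · exact Or.inl hb
          · exact Or.inr (hcon N hN hb)
        obtain ⟨N, hN, hb, ht⟩ := this
        have hc1 : Nat.card N < n := by
          rw [← hn]
          exact lt_of_le_of_ne (Subgroup.card_le_card_group N) (fun h => ht (Subgroup.eq_top_of_card_eq _ h))
        have hc2 : Nat.card (G ⧸ N) < n := by
          rw [← hn]
          have h1 := N.card_mul_index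
          have h2 : 1 < Nat.card N := by
            have := Nat.card_pos (α := N)
            have h3 : Nat.card N ≠ 1 := fun h => hb (Subgroup.card_eq_one.1 h)
            omega
          rw [Subgroup.index_eq_card] at h1
          have hpos : 0 < Nat.card (G ⧸ N) := Nat.card_pos
          nlinarith
        haveI := ih _ hc1 N rfl (h.normal N)
        haveI := ih _ hc2 (G ⧸ N) rfl (h.quotient N)
        refine Group.isSolvable_of_ker_le_range N.subtype (QuotientGroup.mk' N) ?_
        intro x hx
        rw [MonoidHom.mem_ker, QuotientGroup.mk'_apply, QuotientGroup.eq_one_iff] at hx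
        exact ⟨⟨x, hx⟩, rfl⟩

variable {G : Type u} [Group G]

/-- A subgroup of prime order is generated by any of its non-identity elements. -/
theorem eq_zpowers_of_card_prime {r : ℕ} [hr : Fact r.Prime] [Finite G] {K : Subgroup G} (hK : Nat.card K = r)
    {a : G} (ha : a ∈ K) (ha1 : a ≠ 1) : K = zpowers a := by
  haveI : Fact (Nat.card K).Prime := by rw [hK]; exact hr
  apply le_antisymm
  · intro b hb
    have h1 : (⟨a, ha⟩ : K) ≠ 1 := fun h => ha1 (congrArg Subtype.val h)
    have h2 := mem_zpowers_of_prime_card (p := r) hK (g := ⟨a, ha⟩) (g' := ⟨b, hb⟩) h1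
    obtain ⟨k, hk⟩ := h2
    exact ⟨k, by simpa using congrArg Subtype.val hk⟩
  · exact zpowers_le.2 ha

section rank

variable {r : ℕ} [hr : Fact r.Prime]

/-- A normal `r`-subgroup is moved by any element with index `1` or `r`. -/
theorem SqfC.relIndex_eq [Finite G] (h : SqfC G) (N : Subgroup G) [N.Normal] (hN : IsPGroup r N) (x : G) :
    (centralizer ({x} : Set G)).relIndex N = 1 ∨ (centralizer ({x} : Set G)).relIndex N = r := by
  have hsq := h.relIndex_squarefree x N
  have hd : (centralizer ({x} : Set G)).relIndex N ∣ Nat.card N := by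
    exact ((centralizer ({x} : Set G)).subgroupOf N).index_dvd_card
  obtain ⟨n, hn⟩ := IsPGroup.iff_card.1 hN
  rw [hn] at hd
  obtain ⟨k, -, hk⟩ := (Nat.dvd_prime_pow hr.out).1 hd
  rw [hk] at hsq ⊢
  rcases k with _ | _ | k
  · left; simp
  · right; simp
  · exfalso
    have : r * r ∣ r ^ (k + 1 + 1) := ⟨r ^ k, by ring⟩
    have h2 := hsq r this
    exact hr.out.one_lt.ne' (Nat.isUnit_iff.1 h2)

/-- The image of the commutator map of `x` on an abelian normal subgroup. -/
def LL (A : Subgroup G) [hn : A.Normal] (hab : ∀ a ∈ A, ∀ b ∈ A, a * b = b * a) (x : G) : Subgroup G :=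
  (commHom A hab x (fun a ha => hn.conj_mem a ha x)).range

theorem mem_LL {A : Subgroup G} [hn : A.Normal] {hab : ∀ a ∈ A, ∀ b ∈ A, a * b = b * a} {x w : G} :
    w ∈ LL A hab x ↔ ∃ v ∈ A, v⁻¹ * (x * v * x⁻¹) = w := by
  constructor
  · rintro ⟨v, rfl⟩
    exact ⟨v, v.2, rfl⟩
  · rintro ⟨v, hv, rfl⟩
    exact ⟨⟨v, hv⟩, rfl⟩

theorem LL_le {A : Subgroup G} [hn : A.Normal] {hab : ∀ a ∈ A, ∀ b ∈ A, a * b = b * a} {x : G} :
    LL A hab x ≤ A := by
  intro w hw
  obtain ⟨v, hv, rfl⟩ := mem_LL.1 hw
  exact A.mul_mem (A.inv_mem hv) (hn.conj_mem v hv x)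

theorem card_LL_mul {A : Subgroup G} [hn : A.Normal] {hab : ∀ a ∈ A, ∀ b ∈ A, a * b = b * a} {x : G} :
    Nat.card (LL A hab x) * Nat.card (A ⊓ centralizer ({x} : Set G) : Subgroup G) = Nat.card A :=
  card_range_commHom A hab x _

theorem card_LL_eq [Finite G] {A : Subgroup G} [hn : A.Normal] {hab : ∀ a ∈ A, ∀ b ∈ A, a * b = b * a} {x : G} :
    Nat.card (LL A hab x) = (centralizer ({x} : Set G)).relIndex A := by
  have h1 := card_LL_mul (A := A) (hab := hab) (x := x)
  have h2 := SylowNum.card_mul_relIndex (A ⊓ centralizer ({x} : Set G)) A inf_le_left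
  rw [inf_comm, Subgroup.inf_relIndex_right, inf_comm] at h2
  have hpos : 0 < Nat.card (A ⊓ centralizer ({x} : Set G) : Subgroup G) := Nat.card_pos
  have : Nat.card (A ⊓ centralizer ({x} : Set G) : Subgroup G) * Nat.card (LL A hab x)
      = Nat.card (A ⊓ centralizer ({x} : Set G) : Subgroup G) * (centralizer ({x} : Set G)).relIndex A := by
    rw [h2, mul_comm, h1]
  exact Nat.eq_of_mul_eq_mul_left hpos this

theorem SqfC.card_LL [Finite G] (h : SqfC G) {A : Subgroup G} [hn : A.Normal] (hA : IsPGroup r A)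
    {hab : ∀ a ∈ A, ∀ b ∈ A, a * b = b * a} (x : G) :
    Nat.card (LL A hab x) = 1 ∨ Nat.card (LL A hab x) = r := by
  rw [card_LL_eq]
  exact h.relIndex_eq A hA x

theorem LL_eq_bot_iff {A : Subgroup G} [hn : A.Normal] {hab : ∀ a ∈ A, ∀ b ∈ A, a * b = b * a} {x : G} :
    LL A hab x = ⊥ ↔ ∀ a ∈ A, x * a = a * x := by
  constructor
  · intro h a ha
    have h1 : a⁻¹ * (x * a * x⁻¹) ∈ LL A hab x := mem_LL.2 ⟨a, ha, rfl⟩
    rw [h, Subgroup.mem_bot] at h1
    have h2 := (commHom_eq_one_iff A hab x (fun a ha => hn.conj_mem a ha x) ⟨a, ha⟩).1 h1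
    exact h2
  · intro h
    rw [eq_bot_iff]
    intro w hw
    obtain ⟨v, hv, rfl⟩ := mem_LL.1 hw
    rw [Subgroup.mem_bot, h v hv]
    group

/-- Conjugation transports `LL`. -/
theorem conj_mem_LL {A : Subgroup G} [hn : A.Normal] {hab : ∀ a ∈ A, ∀ b ∈ A, a * b = b * a} {x w : G} (g : G)
    (hw : w ∈ LL A hab x) : g * w * g⁻¹ ∈ LL A hab (g * x * g⁻¹) := by
  obtain ⟨v, hv, rfl⟩ := mem_LL.1 hw
  refine mem_LL.2 ⟨g * v * g⁻¹, hn.conj_mem v hv g, ?_⟩
  group

/-- Two elements acting non-trivially on an abelian normal `r`-subgroup with different fixed points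
have the same commutator line. -/
theorem SqfC.LL_eq_of_ne [Finite G] (h : SqfC G) {A : Subgroup G} [hn : A.Normal] (hA : IsPGroup r A)
    {hab : ∀ a ∈ A, ∀ b ∈ A, a * b = b * a} {x y : G} (hx : LL A hab x ≠ ⊥) (hy : LL A hab y ≠ ⊥)
    (hne : A ⊓ centralizer ({x} : Set G) ≠ A ⊓ centralizer ({y} : Set G)) :
    LL A hab x = LL A hab y := by
  have hcx : Nat.card (LL A hab x) = r := by
    rcases h.card_LL hA (hab := hab) x with h1 | h1
    · exact absurd (Subgroup.card_eq_one.1 h1) hx
    · exact h1
  have hcy : Nat.card (LL A hab y) = r := by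
    rcases h.card_LL hA (hab := hab) y with h1 | h1
    · exact absurd (Subgroup.card_eq_one.1 h1) hy
    · exact h1
  have hHcard : Nat.card (A ⊓ centralizer ({x} : Set G) : Subgroup G)
      = Nat.card (A ⊓ centralizer ({y} : Set G) : Subgroup G) := by
    have h1 := card_LL_mul (A := A) (hab := hab) (x := x)
    have h2 := card_LL_mul (A := A) (hab := hab) (x := y)
    rw [hcx] at h1
    rw [hcy] at h2
    exact Nat.eq_of_mul_eq_mul_left hr.out.pos (h1.trans h2.symm)
  -- elements in one fixed subgroup but not the other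
  have hv : ∃ v ∈ A ⊓ centralizer ({y} : Set G), v ∉ A ⊓ centralizer ({x} : Set G) := by
    by_contra hcon
    push Not at hcon
    exact hne (Subgroup.eq_of_le_of_card_ge hcon hHcard.le).symm
  have hw : ∃ w ∈ A ⊓ centralizer ({x} : Set G), w ∉ A ⊓ centralizer ({y} : Set G) := by
    by_contra hcon
    push Not at hcon
    exact hne (Subgroup.eq_of_le_of_card_ge hcon hHcard.ge)
  obtain ⟨v, hv1, hv2⟩ := hv
  obtain ⟨w, hw1, hw2⟩ := hw
  have hvy : y * v * y⁻¹ = v := by
    have := mem_centralizer_singleton_iff.1 hv1.2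
    rw [← this]; group
  have hvx : x * v ≠ v * x := by
    intro h1
    exact hv2 ⟨hv1.1, mem_centralizer_singleton_iff.2 h1.symm⟩
  have hwx : x * w * x⁻¹ = w := by
    have := mem_centralizer_singleton_iff.1 hw1.2
    rw [← this]; group
  have hwy : y * w ≠ w * y := by
    intro h1
    exact hw2 ⟨hw1.1, mem_centralizer_singleton_iff.2 h1.symm⟩
  set a := v⁻¹ * (x * v * x⁻¹) with ha
  set u := y⁻¹ * w * y with hu
  have huA : u ∈ A := by
    have := hn.conj_mem w hw1.1 y⁻¹
    simpa [hu] using this
  set b := u⁻¹ * (y * u * y⁻¹) with hb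
  have ha1 : a ≠ 1 := by
    intro h1
    apply hvx
    have h2 : x * v * x⁻¹ = v := by
      have := congrArg (fun t => v * t) h1
      simpa [ha] using this
    exact mul_inv_eq_iff_eq_mul.1 h2
  have hb1 : b ≠ 1 := by
    intro h1
    apply hwy
    have h2 : y * u * y⁻¹ = u := by
      have := congrArg (fun t => u * t) h1
      simpa [hb] using this
    have h3 : w = y * u * y⁻¹ := by rw [hu]; group
    have hwu : w = u := h3.trans h2
    have h4 : y * w * y⁻¹ = w := by
      rw [hwu]
      exact h2
    exact mul_inv_eq_iff_eq_mul.1 h4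
  have haL : a ∈ LL A hab x := mem_LL.2 ⟨v, hv1.1, rfl⟩
  have hbL : b ∈ LL A hab y := mem_LL.2 ⟨u, huA, rfl⟩
  have haL' : a ∈ LL A hab (x * y) := by
    refine mem_LL.2 ⟨v, hv1.1, ?_⟩
    rw [ha]
    have : x * y * v * (x * y)⁻¹ = x * (y * v * y⁻¹) * x⁻¹ := by group
    rw [this, hvy]
  have hbL' : b ∈ LL A hab (x * y) := by
    refine mem_LL.2 ⟨u, huA, ?_⟩
    have e : y * u * y⁻¹ = w := by rw [hu]; group
    have : x * y * u * (x * y)⁻¹ = x * (y * u * y⁻¹) * x⁻¹ := by group
    rw [this, hb, e, hwx]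
  have hcxy : Nat.card (LL A hab (x * y)) = r := by
    rcases h.card_LL hA (hab := hab) (x * y) with h1 | h1
    · have := Subgroup.card_eq_one.1 h1
      rw [this, Subgroup.mem_bot] at haL'
      exact absurd haL' ha1
    · exact h1
  rw [eq_zpowers_of_card_prime hcx haL ha1, ← eq_zpowers_of_card_prime hcxy haL' ha1,
    eq_zpowers_of_card_prime hcxy hbL' hb1, ← eq_zpowers_of_card_prime hcy hbL hb1]

/-- A minimal normal subgroup of a group with all classes of squarefree size has prime order. -/
theorem SqfC.card_minimal_normal [Finite G] (h : SqfC G) (M : Subgroup G) [hn : M.Normal] (hM : M ≠ ⊥)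
    (hmin : ∀ K : Subgroup G, K.Normal → K ≤ M → K = ⊥ ∨ K = M)
    (hab : ∀ a ∈ M, ∀ b ∈ M, a * b = b * a) (hexp : ∀ a ∈ M, a ^ r = 1) : Nat.card M = r := by
  have hMp : IsPGroup r M := MinNorm.isPGroup_of_exponent hexp
  have hex : ∃ v ∈ M, v ≠ 1 := by
    by_contra hcon
    push Not at hcon
    exact hM ((Subgroup.eq_bot_iff_forall _).2 hcon)
  by_cases hc : ∀ x : G, LL M hab x = ⊥
  · obtain ⟨v, hv, hv1⟩ := hex
    have hcentral : ∀ x : G, x * v = v * x := fun x => (LL_eq_bot_iff.1 (hc x)) v hv
    have hnz : (zpowers v).Normal := by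
      refine ⟨?_⟩
      rintro _ ⟨k, rfl⟩ g
      refine ⟨k, ?_⟩
      simp only
      rw [← conj_zpow, hcentral g, mul_inv_cancel_right]
    have hle : zpowers v ≤ M := zpowers_le.2 hv
    rcases hmin _ hnz hle with h1 | h1
    · exact absurd (zpowers_eq_bot.1 h1) hv1
    · rw [← h1, Nat.card_zpowers]
      exact orderOf_eq_prime (hexp v hv) hv1
  · push Not at hc
    obtain ⟨x, hx⟩ := hc
    have hxc : Nat.card (LL M hab x) = r := by
      rcases h.card_LL hMp (hab := hab) x with h1 | h1
      · exact absurd (Subgroup.card_eq_one.1 h1) hx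
      · exact h1
    have hconjne : ∀ g : G, LL M hab (g * x * g⁻¹) ≠ ⊥ := by
      intro g hb
      apply hx
      rw [LL_eq_bot_iff] at hb ⊢
      intro a ha
      have h1 := hb (g * a * g⁻¹) (hn.conj_mem a ha g)
      have h2 : g * x * g⁻¹ * (g * a * g⁻¹) = g * (x * a) * g⁻¹ := by group
      have h3 : g * a * g⁻¹ * (g * x * g⁻¹) = g * (a * x) * g⁻¹ := by group
      rw [h2, h3] at h1
      exact mul_left_cancel (mul_right_cancel h1)
    by_cases hh : ∀ g : G, M ⊓ centralizer ({g * x * g⁻¹} : Set G) = M ⊓ centralizer ({x} : Set G)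
    · have hnH : (M ⊓ centralizer ({x} : Set G)).Normal := by
        refine ⟨?_⟩
        intro a ha g
        rw [← hh g]
        refine Subgroup.mem_inf.2 ⟨hn.conj_mem a ha.1 g, mem_centralizer_singleton_iff.2 ?_⟩
        have := mem_centralizer_singleton_iff.1 ha.2
        calc g * a * g⁻¹ * (g * x * g⁻¹) = g * (a * x) * g⁻¹ := by group
          _ = g * (x * a) * g⁻¹ := by rw [this]
          _ = g * x * g⁻¹ * (g * a * g⁻¹) := by group
      rcases hmin _ hnH inf_le_left with h1 | h1
      · have h2 := card_LL_mul (A := M) (hab := hab) (x := x)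
        rw [h1, hxc, Subgroup.card_bot, mul_one] at h2
        exact h2.symm
      · exfalso
        apply hx
        rw [LL_eq_bot_iff]
        intro a ha
        rw [← h1] at ha
        exact (mem_centralizer_singleton_iff.1 ha.2).symm
    · push Not at hh
      obtain ⟨g₀, hg₀⟩ := hh
      have hall : ∀ g : G, LL M hab (g * x * g⁻¹) = LL M hab x := by
        intro g
        by_cases h1 : M ⊓ centralizer ({g * x * g⁻¹} : Set G) = M ⊓ centralizer ({x} : Set G)
        · have h2 := h.LL_eq_of_ne hMp (hconjne g) (hconjne g₀) (by rw [h1]; exact hg₀.symm)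
          rw [h2]
          exact h.LL_eq_of_ne hMp (hconjne g₀) hx hg₀
        · exact h.LL_eq_of_ne hMp (hconjne g) hx h1
      have hnL : (LL M hab x).Normal := by
        refine ⟨?_⟩
        intro a ha g
        have := conj_mem_LL g ha
        rwa [hall g] at this
      rcases hmin _ hnL LL_le with h1 | h1
      · exact absurd h1 hx
      · rw [← h1]
        exact hxc

end rank

end Cfsg.Agent.Lib.SqfClass
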