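import Mathlib
import Cfsg.Agent.Lib.SqfClass2

/-!
# `p`-groups with classes of size at most `p` have derived subgroup of order at most `p`;
the `r`-part of the derived subgroup of a group with classes of squarefree size.
-/

set_option autoImplicit false
set_option linter.unusedSectionVars false
set_option linter.unusedVariables false
set_option linter.style.haveILetI false

namespace Cfsg.Agent.Lib.SqfClass

open Subgroup
open scoped commutatorElement Pointwise

universe u

section knoche

variable {Q : Type u} [Group Q] [Finite Q] {r : ℕ} [hr : Fact r.Prime]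

/-- All classes have size `1` or `r`. -/
def SmallC (r : ℕ) (Q : Type u) [Group Q] : Prop :=
  ∀ x : Q, (centralizer ({x} : Set Q)).index = 1 ∨ (centralizer ({x} : Set Q)).index = r

theorem minFac_card_of_index {K : Subgroup Q} (hQ : IsPGroup r Q) (hK : K.index = r) :
    (Nat.card Q).minFac = r := by
  obtain ⟨n, hn⟩ := IsPGroup.iff_card.1 hQ
  have hn0 : n ≠ 0 := by
    rintro rfl
    rw [pow_zero] at hn
    have h1 : K.index ∣ Nat.card Q := K.index_dvd_card
    rw [hn, hK] at h1
    exact hr.out.one_lt.ne' (Nat.dvd_one.1 h1)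
  rw [hn]
  exact Nat.Prime.pow_minFac hr.out hn0

theorem normal_of_index_prime {K : Subgroup Q} (hQ : IsPGroup r Q) (hK : K.index = r) : K.Normal :=
  normal_of_index_eq_minFac_card (by rw [hK, minFac_card_of_index hQ hK])

theorem exists_zpow_mul_mem {K : Subgroup Q} (hQ : IsPGroup r Q) (hK : K.index = r) {t : Q} (ht : t ∉ K)
    (g : Q) : ∃ i : ℤ, g * t ^ i ∈ K := by
  haveI hn : K.Normal := normal_of_index_prime hQ hK
  have hcq : Nat.card (Q ⧸ K) = r := by rw [← Subgroup.index_eq_card]; exact hK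
  have ht1 : (t : Q ⧸ K) ≠ 1 := fun h => ht ((QuotientGroup.eq_one_iff t).1 h)
  obtain ⟨i, hi⟩ := mem_zpowers_of_prime_card (p := r) hcq (g := (t : Q ⧸ K)) (g' := ((g : Q ⧸ K))⁻¹) ht1
  refine ⟨i, ?_⟩
  rw [← QuotientGroup.eq_one_iff, QuotientGroup.mk_mul, QuotientGroup.mk_zpow]
  simp only at hi
  rw [hi]
  simp

theorem SmallC.centralizer_normal (h : SmallC r Q) (hQ : IsPGroup r Q) (x : Q) :
    (centralizer ({x} : Set Q)).Normal := by
  rcases h x with h1 | h1
  · rw [Subgroup.index_eq_one.1 h1]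
    infer_instance
  · exact normal_of_index_prime hQ h1

/-- Commutators are central. -/
theorem SmallC.comm_central (h : SmallC r Q) (hQ : IsPGroup r Q) (a b : Q) : ⁅a, b⁆ ∈ center Q := by
  by_cases hc : a * b = b * a
  · rw [commutatorElement_eq_one_iff_mul_comm.2 hc]
    exact Subgroup.one_mem _
  set c := ⁅a, b⁆ with hcdef
  have hidx : ∀ x y : Q, x * y ≠ y * x → (centralizer ({x} : Set Q)).index = r := by
    intro x y hxy
    rcases h x with h1 | h1
    · exfalso
      have : y ∈ centralizer ({x} : Set Q) := by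
        rw [Subgroup.index_eq_one.1 h1]; trivial
      exact hxy ((mem_centralizer_singleton_iff.1 this).symm)
    · exact h1
  have hCa := hidx a b hc
  have hCb := hidx b a (fun h1 => hc h1.symm)
  have hna := h.centralizer_normal hQ a
  have hnb := h.centralizer_normal hQ b
  have hself : ∀ x : Q, x ∈ centralizer ({x} : Set Q) := fun x =>
    mem_centralizer_singleton_iff.2 rfl
  have hcA : c ∈ centralizer ({a} : Set Q) := by
    have h1 : b * a⁻¹ * b⁻¹ ∈ centralizer ({a} : Set Q) :=
      hna.conj_mem _ (Subgroup.inv_mem _ (hself a)) b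
    have h2 : c = a * (b * a⁻¹ * b⁻¹) := by rw [hcdef, commutatorElement_def]; group
    rw [h2]
    exact Subgroup.mul_mem _ (hself a) h1
  have hcB : c ∈ centralizer ({b} : Set Q) := by
    have h1 : a * b * a⁻¹ ∈ centralizer ({b} : Set Q) := hnb.conj_mem _ (hself b) a
    have h2 : c = (a * b * a⁻¹) * b⁻¹ := by rw [hcdef, commutatorElement_def]
    rw [h2]
    exact Subgroup.mul_mem _ h1 (Subgroup.inv_mem _ (hself b))
  have hD : ∀ d : Q, d ∈ centralizer ({a} : Set Q) → d ∈ centralizer ({b} : Set Q) → d * c = c * d := by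
    intro d hda hdb
    have hda' : d * a = a * d := mem_centralizer_singleton_iff.1 hda
    have hdb' : d * b = b * d := mem_centralizer_singleton_iff.1 hdb
    set y := a * d with hy
    have hny := h.centralizer_normal hQ y
    have hcy : c = y * (b * y⁻¹ * b⁻¹) := by
      have h1 : b * d⁻¹ = d⁻¹ * b := by
        calc b * d⁻¹ = d⁻¹ * (d * b) * d⁻¹ := by group
          _ = d⁻¹ * (b * d) * d⁻¹ := by rw [hdb']
          _ = d⁻¹ * b := by group
      have : y * (b * y⁻¹ * b⁻¹) = a * d * (b * d⁻¹) * a⁻¹ * b⁻¹ := by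
        rw [hy]; group
      rw [this, h1, hcdef, commutatorElement_def]
      group
    have hcmem : c ∈ centralizer ({y} : Set Q) := by
      rw [hcy]
      exact Subgroup.mul_mem _ (hself y) (hny.conj_mem _ (Subgroup.inv_mem _ (hself y)) b)
    have h1 : c * y = y * c := mem_centralizer_singleton_iff.1 hcmem
    have h2 : c * a = a * c := mem_centralizer_singleton_iff.1 hcA
    rw [hy] at h1
    have h3 : a * (c * d) = a * (d * c) := by
      calc a * (c * d) = (a * c) * d := by group
        _ = (c * a) * d := by rw [h2]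
        _ = c * (a * d) := by group
        _ = a * d * c := h1
        _ = a * (d * c) := by group
    exact (mul_left_cancel h3).symm
  rw [mem_center_iff]
  intro g
  have hU : ∀ x : Q, x * c = c * x → x ∈ centralizer ({c} : Set Q) := fun x hx =>
    mem_centralizer_singleton_iff.2 hx
  have hba : b ∉ centralizer ({a} : Set Q) := fun h1 =>
    hc (mem_centralizer_singleton_iff.1 h1).symm
  have hab : a ∉ centralizer ({b} : Set Q) := fun h1 =>
    hc (mem_centralizer_singleton_iff.1 h1)
  obtain ⟨i, hi⟩ := exists_zpow_mul_mem hQ hCa hba g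
  obtain ⟨j, hj⟩ := exists_zpow_mul_mem hQ hCb hab (g * b ^ i)
  have hd1 : g * b ^ i * a ^ j ∈ centralizer ({a} : Set Q) :=
    Subgroup.mul_mem _ hi (Subgroup.zpow_mem _ (hself a) j)
  have h4 := hU _ (hD _ hd1 hj)
  have h5 : a ∈ centralizer ({c} : Set Q) := hU a (mem_centralizer_singleton_iff.1 hcA).symm
  have h6 : b ∈ centralizer ({c} : Set Q) := hU b (mem_centralizer_singleton_iff.1 hcB).symm
  have h7 : g = (g * b ^ i * a ^ j) * (a ^ j)⁻¹ * (b ^ i)⁻¹ := by group
  have h8 : g ∈ centralizer ({c} : Set Q) := by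
    rw [h7]
    exact Subgroup.mul_mem _ (Subgroup.mul_mem _ h4 (Subgroup.inv_mem _ (Subgroup.zpow_mem _ h5 j)))
      (Subgroup.inv_mem _ (Subgroup.zpow_mem _ h6 i))
  exact mem_centralizer_singleton_iff.1 h8

/-- The commutator map of `a` when commutators are central. -/
def comHom (hc : ∀ a b : Q, ⁅a, b⁆ ∈ center Q) (a : Q) : Q →* Q :=
  MonoidHom.mk' (fun g => ⁅a, g⁆) (by
    intro g h
    have h1 : ∀ x : Q, x * ⁅a, h⁆ = ⁅a, h⁆ * x := fun x => mem_center_iff.1 (hc a h) x
    show ⁅a, g * h⁆ = ⁅a, g⁆ * ⁅a, h⁆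
    have e1 : ⁅a, g * h⁆ = a * g * a⁻¹ * ⁅a, h⁆ * g⁻¹ := by
      simp only [commutatorElement_def]; group
    rw [e1]
    have e2 : a * g * a⁻¹ * ⁅a, h⁆ * g⁻¹ = a * g * a⁻¹ * (⁅a, h⁆ * g⁻¹) := by group
    rw [e2, ← h1 g⁻¹]
    simp only [commutatorElement_def]
    group)

theorem card_range_comHom (hc : ∀ a b : Q, ⁅a, b⁆ ∈ center Q) (a : Q) :
    Nat.card (comHom hc a).range = (centralizer ({a} : Set Q)).index := by
  rw [← Subgroup.index_ker]
  congr 1
  ext g
  rw [MonoidHom.mem_ker, mem_centralizer_singleton_iff]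
  show ⁅a, g⁆ = 1 ↔ _
  rw [commutatorElement_eq_one_iff_mul_comm]
  exact eq_comm

/-- Knoche's theorem: a `p`-group all of whose classes have size at most `p` has derived subgroup of
order at most `p`. -/
theorem SmallC.card_commutator_le (h : SmallC r Q) (hQ : IsPGroup r Q) :
    Nat.card (commutator Q) ≤ r := by
  have hcent := h.comm_central hQ
  by_cases hall : ∀ a b : Q, ⁅a, b⁆ = 1
  · have : commutator Q = ⊥ := by
      rw [_root_.commutator_def, eq_bot_iff, Subgroup.commutator_le]
      intro a _ b _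
      simp [hall a b]
    rw [this, Subgroup.card_bot]
    exact hr.out.one_lt.le
  push Not at hall
  obtain ⟨a, b, hab⟩ := hall
  set c := ⁅a, b⁆ with hc
  have hmem : ∀ x y : Q, ⁅x, y⁆ ∈ (comHom hcent x).range := fun x y => ⟨y, rfl⟩
  have hz : ∀ (z w w' : Q), w ∈ (comHom hcent z).range → w' ∈ (comHom hcent z).range → w ≠ 1 →
      w' ∈ zpowers w := by
    intro z w w' h1 h2 h3
    have hcard : Nat.card (comHom hcent z).range = r := by
      rw [card_range_comHom]
      rcases h z with h4 | h4
      · exfalso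
        rw [← card_range_comHom hcent z] at h4
        have := Subgroup.card_eq_one.1 h4
        rw [this, Subgroup.mem_bot] at h1
        exact h3 h1
      · exact h4
    rw [← eq_zpowers_of_card_prime hcard h1 h3]
    exact h2
  have hcentral : ∀ x y g : Q, g * ⁅x, y⁆ = ⁅x, y⁆ * g := fun x y g => mem_center_iff.1 (hcent x y) g
  have hleft : ∀ x u v : Q, ⁅x * u, v⁆ = ⁅x, v⁆ * ⁅u, v⁆ := by
    intro x u v
    have e1 : ⁅x * u, v⁆ = x * ⁅u, v⁆ * v * x⁻¹ * v⁻¹ := by
      simp only [commutatorElement_def]; group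
    rw [e1, hcentral u v x, hcentral u v ⁅x, v⁆, commutatorElement_def x v]
    group
  have hkey : ∀ x y : Q, ⁅x, y⁆ ∈ zpowers c := by
    intro x y
    set t := ⁅x, b⁆ with ht
    by_cases ht1 : t = 1
    · have h1 : ⁅a * x, b⁆ = c := by rw [hleft, ← ht, ht1, mul_one]
      have h2 : c ∈ (comHom hcent (a * x)).range := by rw [← h1]; exact hmem _ _
      have h3 : ⁅a * x, y⁆ ∈ zpowers c := hz (a * x) c _ h2 (hmem _ _) hab
      rw [hleft] at h3
      have h4 : ⁅a, y⁆ ∈ zpowers c := hz a c _ (hmem a b) (hmem a y) hab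
      have h5 : ⁅x, y⁆ = ⁅a, y⁆⁻¹ * (⁅a, y⁆ * ⁅x, y⁆) := by group
      rw [h5]
      exact Subgroup.mul_mem _ (Subgroup.inv_mem _ h4) h3
    · have h1 : ⁅x, y⁆ ∈ zpowers t := hz x t _ (hmem x b) (hmem x y) ht1
      have h2 : ⁅b, a⁆ = c⁻¹ := by rw [hc, commutatorElement_inv]
      have h3 : ⁅b, x⁆ = t⁻¹ := by rw [ht, commutatorElement_inv]
      have h4 : c⁻¹ ∈ (comHom hcent b).range := by rw [← h2]; exact hmem _ _
      have h5 : t⁻¹ ∈ (comHom hcent b).range := by rw [← h3]; exact hmem _ _
      have h6 : t⁻¹ ∈ zpowers c⁻¹ := hz b c⁻¹ _ h4 h5 (inv_ne_one.2 hab)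
      have h7 : t ∈ zpowers c := by
        rw [Subgroup.zpowers_inv] at h6
        simpa using Subgroup.inv_mem _ h6
      exact (zpowers_le.2 h7) h1
  have hle : commutator Q ≤ zpowers c := by
    rw [_root_.commutator_def, Subgroup.commutator_le]
    intro x _ y _
    exact hkey x y
  have hcr : c ^ r = 1 := by
    have hcard : Nat.card (comHom hcent a).range = r := by
      rw [card_range_comHom]
      rcases h a with h4 | h4
      · exfalso
        rw [← card_range_comHom hcent a] at h4
        have := Subgroup.card_eq_one.1 h4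
        have h5 := hmem a b
        rw [this, Subgroup.mem_bot] at h5
        exact hab h5
      · exact h4
    have h5 : (⟨c, hmem a b⟩ : (comHom hcent a).range) ^ r = 1 := by
      rw [← hcard]
      exact pow_card_eq_one'
    simpa using congrArg Subtype.val h5
  calc Nat.card (commutator Q) ≤ Nat.card (zpowers c) := Subgroup.card_le_of_le hle
    _ = orderOf c := Nat.card_zpowers c
    _ ≤ r := Nat.le_of_dvd hr.out.pos (orderOf_dvd_of_pow_eq_one hcr)

end knoche

end Cfsg.Agent.Lib.SqfClass
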