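import Mathlib
import Cfsg.Agent.Lib.SqfClass3

/-!
# The `r`-part of the derived subgroup of a group with classes of squarefree size.
-/

set_option autoImplicit false
set_option linter.unusedSectionVars false
set_option linter.unusedVariables false
set_option linter.style.haveILetI false

namespace Cfsg.Agent.Lib.SqfClass

open Subgroup
open scoped commutatorElement Pointwise

universe u

variable {G : Type u} [Group G] {r : ℕ} [hr : Fact r.Prime]

theorem centralizer_mul_eq {x y : G} (hc : x * y = y * x) (hco : (orderOf x).Coprime (orderOf y)) :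
    centralizer ({x * y} : Set G) = centralizer ({x} : Set G) ⊓ centralizer ({y} : Set G) := by
  have hcomm : Commute x y := hc
  ext g
  constructor
  · intro hg
    have hg' : g * (x * y) = (x * y) * g := mem_centralizer_singleton_iff.1 hg
    have hH : x * y ∈ centralizer ({g} : Set G) := mem_centralizer_singleton_iff.2 hg'.symm
    have h1 : x ^ orderOf y ∈ centralizer ({g} : Set G) := by
      have : (x * y) ^ orderOf y = x ^ orderOf y := by
        rw [hcomm.mul_pow, pow_orderOf_eq_one, mul_one]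
      rw [← this]
      exact Subgroup.pow_mem _ hH _
    have h2 : x ^ orderOf x ∈ centralizer ({g} : Set G) := by
      rw [pow_orderOf_eq_one]; exact Subgroup.one_mem _
    have h3 : y ^ orderOf x ∈ centralizer ({g} : Set G) := by
      have : (x * y) ^ orderOf x = y ^ orderOf x := by
        rw [hcomm.mul_pow, pow_orderOf_eq_one, one_mul]
      rw [← this]
      exact Subgroup.pow_mem _ hH _
    have h4 : y ^ orderOf y ∈ centralizer ({g} : Set G) := by
      rw [pow_orderOf_eq_one]; exact Subgroup.one_mem _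
    have hx := mem_of_pow_mem_of_coprime h2 h1 hco
    have hy := mem_of_pow_mem_of_coprime h3 h4 hco
    exact Subgroup.mem_inf.2 ⟨mem_centralizer_singleton_iff.2 (mem_centralizer_singleton_iff.1 hx).symm,
      mem_centralizer_singleton_iff.2 (mem_centralizer_singleton_iff.1 hy).symm⟩
  · intro hg
    have h1 : g * x = x * g := mem_centralizer_singleton_iff.1 hg.1
    have h2 : g * y = y * g := mem_centralizer_singleton_iff.1 hg.2
    refine mem_centralizer_singleton_iff.2 ?_
    calc g * (x * y) = (g * x) * y := by group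
      _ = x * (g * y) := by rw [h1]; group
      _ = (x * y) * g := by rw [h2]; group

theorem pow_mul_eq_of_comm {v y z : G} (hz : z = v⁻¹ * (y * v * y⁻¹)) (hc : y * z = z * y) (k : ℕ) :
    y ^ k * v = v * z ^ k * y ^ k := by
  have hstep : y * v = v * z * y := by rw [hz]; group
  induction k with
  | zero => simp
  | succ k ih =>
    have hc' : Commute y (z ^ k) := (show Commute y z from hc).pow_right k
    calc y ^ (k + 1) * v = y * (y ^ k * v) := by rw [pow_succ']; group
      _ = y * (v * z ^ k * y ^ k) := by rw [ih]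
      _ = (y * v) * z ^ k * y ^ k := by group
      _ = (v * z * y) * z ^ k * y ^ k := by rw [hstep]
      _ = v * z * (y * z ^ k) * y ^ k := by group
      _ = v * z * (z ^ k * y) * y ^ k := by rw [hc'.eq]
      _ = v * z ^ (k + 1) * y ^ (k + 1) := by rw [pow_succ', pow_succ']; group

theorem eq_one_of_fixed {v y z : G} (hz : z = v⁻¹ * (y * v * y⁻¹)) (hc : y * z = z * y)
    (hcop : (orderOf y).Coprime r) {n : ℕ} (hzr : z ^ r ^ n = 1) : z = 1 := by
  have h1 := pow_mul_eq_of_comm hz hc (orderOf y)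
  rw [pow_orderOf_eq_one, one_mul, mul_one] at h1
  have h2 : z ^ orderOf y = 1 := by
    have : v * 1 = v * z ^ orderOf y := by rw [mul_one]; exact h1
    exact (mul_left_cancel this).symm
  have h3 : z ∈ (⊥ : Subgroup G) :=
    mem_of_pow_mem_of_coprime (by simp [h2]) (by simp [hzr]) (Nat.Coprime.pow_right n hcop)
  exact Subgroup.mem_bot.1 h3

theorem SqfC.smallC [Finite G] (h : SqfC G) (R : Subgroup G) [R.Normal] (hR : IsPGroup r R) :
    SmallC r R := by
  intro x
  have : centralizer ({x} : Set R) = (centralizer ({(x : G)} : Set G)).subgroupOf R := by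
    ext y
    simp [mem_centralizer_singleton_iff, Subgroup.mem_subgroupOf, Subtype.ext_iff]
  rw [this]
  exact h.relIndex_eq R hR x

/-- An abelian normal subgroup structure: a normal `r`-subgroup moved by an `r'`-element is abelian. -/
theorem SqfC.abelian_of_moved [Finite G] (h : SqfC G) (R : Subgroup G) [hRn : R.Normal] (hR : IsPGroup r R)
    {y : G} (hy : (orderOf y).Coprime r) (hnc : ∃ ρ ∈ R, y * ρ ≠ ρ * y) :
    ∀ a ∈ R, ∀ b ∈ R, a * b = b * a := by
  classical
  set Cy := centralizer ({y} : Set G) with hCy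
  set D := R ⊓ Cy with hD
  obtain ⟨ρ₀, hρ₀, hne⟩ := hnc
  have hrel : Cy.relIndex R = r := by
    rcases h.relIndex_eq R hR y with h1 | h1
    · exfalso
      have := Subgroup.relIndex_eq_one.1 h1 hρ₀
      exact hne (mem_centralizer_singleton_iff.1 this).symm
    · exact h1
  have hrelD : D.relIndex R = r := by rw [hD, Subgroup.inf_relIndex_left]; exact hrel
  have hcardD : Nat.card D * r = Nat.card R := by
    rw [← hrelD]; exact SylowNum.card_mul_relIndex D R inf_le_left
  have hsmall := h.smallC R hR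
  have hcomm := hsmall.comm_central hR
  have hcentral : ∀ a ∈ R, ∀ b ∈ R, ∀ g ∈ R, g * ⁅a, b⁆ = ⁅a, b⁆ * g := by
    intro a ha b hb g hg
    have h1 := mem_center_iff.1 (hcomm ⟨a, ha⟩ ⟨b, hb⟩) ⟨g, hg⟩
    exact congrArg Subtype.val h1
  have hDab : ∀ x ∈ D, ∀ x₂ ∈ D, x * x₂ = x₂ * x := by
    intro x hx x₂ hx₂
    have hxR : x ∈ R := hx.1
    have hxy : x * y = y * x := mem_centralizer_singleton_iff.1 hx.2
    by_cases hxz : ∀ ρ ∈ R, x * ρ = ρ * x
    · exact hxz x₂ hx₂.1
    push Not at hxz
    obtain ⟨ρ, hρ, hρne⟩ := hxz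
    set Cx := centralizer ({x} : Set G) with hCx
    have hrelx : Cx.relIndex R = r := by
      rcases h.relIndex_eq R hR x with h1 | h1
      · exfalso
        have := Subgroup.relIndex_eq_one.1 h1 hρ
        exact hρne (mem_centralizer_singleton_iff.1 this).symm
      · exact h1
    obtain ⟨k, hk⟩ := hR ⟨x, hxR⟩
    have hxk : x ^ r ^ k = 1 := congrArg Subtype.val hk
    have hco : (orderOf x).Coprime (orderOf y) :=
      Nat.Coprime.coprime_dvd_left (orderOf_dvd_of_pow_eq_one hxk)
        (Nat.Coprime.pow_left k hy.symm)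
    have hcm := centralizer_mul_eq hxy hco
    have hsq := h (x * y)
    rw [hcm] at hsq
    have hmul : Cy.relIndex Cx * Cx.index = (Cx ⊓ Cy).index := by
      rw [← Subgroup.inf_relIndex_left Cx Cy]
      exact Subgroup.relIndex_mul_index inf_le_left
    have hrd : r ∣ Cx.index := by
      rw [← hrelx]; exact SylowNum.relIndex_normal_dvd_index Cx R
    have hnd : ¬ r ∣ Cy.relIndex Cx := by
      intro h1
      have h2 : r * r ∣ (Cx ⊓ Cy).index := by rw [← hmul]; exact mul_dvd_mul h1 hrd
      exact hr.out.one_lt.ne' (Nat.isUnit_iff.1 (hsq r h2))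
    set W := R ⊓ Cx with hW
    have hWE : W ≤ Cx := inf_le_right
    have hnW : (W.subgroupOf Cx).Normal := by
      have : W.subgroupOf Cx = R.subgroupOf Cx := by
        ext g
        simp only [Subgroup.mem_subgroupOf, hW, Subgroup.mem_inf]
        exact ⟨fun h1 => h1.1, fun h1 => ⟨h1, g.2⟩⟩
      rw [this]
      infer_instance
    have hdvd : Cy.relIndex W ∣ Cy.relIndex Cx := by
      have h1 := SylowNum.relIndex_normal_dvd_index (Cy.subgroupOf Cx) (W.subgroupOf Cx)
      rwa [Subgroup.relIndex_subgroupOf hWE] at h1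
    have hWp : IsPGroup r W := hR.to_le inf_le_left
    obtain ⟨m, hm⟩ := IsPGroup.iff_card.1 hWp
    have hd2 : Cy.relIndex W ∣ r ^ m := by
      rw [← hm]
      exact (Cy.subgroupOf W).index_dvd_card
    obtain ⟨j, -, hj⟩ := (Nat.dvd_prime_pow hr.out).1 hd2
    have hj0 : j = 0 := by
      by_contra hj0
      apply hnd
      refine dvd_trans ?_ hdvd
      rw [hj]
      exact dvd_pow_self r hj0
    have hWy : W ≤ Cy := by
      rw [hj0, pow_zero] at hj
      exact Subgroup.relIndex_eq_one.1 hj
    have hWD : W ≤ D := le_inf inf_le_left hWy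
    have hcardW : Nat.card W * r = Nat.card R := by
      have h1 := SylowNum.card_mul_relIndex W R inf_le_left
      rw [hW, Subgroup.inf_relIndex_left, hrelx] at h1
      exact h1
    have hEq : W = D := by
      apply Subgroup.eq_of_le_of_card_ge hWD
      have : Nat.card D * r = Nat.card W * r := by rw [hcardD, hcardW]
      exact (Nat.eq_of_mul_eq_mul_right hr.out.pos this).le
    have hx2 : x₂ ∈ W := by rw [hEq]; exact hx₂
    exact (mem_centralizer_singleton_iff.1 hx2.2).symm
  set z := ρ₀⁻¹ * (y * ρ₀ * y⁻¹) with hz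
  have hzR : z ∈ R := R.mul_mem (R.inv_mem hρ₀) (hRn.conj_mem ρ₀ hρ₀ y)
  have hz1 : z ≠ 1 := by
    intro h1
    apply hne
    have h2 : y * ρ₀ * y⁻¹ = ρ₀ := by
      have := congrArg (fun t => ρ₀ * t) h1
      simpa [hz] using this
    exact mul_inv_eq_iff_eq_mul.1 h2
  have hzD : z ∉ D := by
    intro hzD
    obtain ⟨n, hn⟩ := hR ⟨z, hzR⟩
    have hn' : z ^ r ^ n = 1 := congrArg Subtype.val hn
    have hc : y * z = z * y := (mem_centralizer_singleton_iff.1 hzD.2).symm
    exact hz1 (eq_one_of_fixed hz hc hy hn')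
  have hcRD : Nat.card R ≤ r * Nat.card D := by rw [← hcardD, mul_comm]
  have hzd : ∀ d ∈ D, z * d = d * z := by
    intro d hd
    have hdR : d ∈ R := hd.1
    have hdy : d * y = y * d := mem_centralizer_singleton_iff.1 hd.2
    have hwD : ⁅ρ₀, d⁆ ∈ D := (mem_of_index_le hR inf_le_left hcRD hρ₀ hdR).2
    have hwy : ⁅ρ₀, d⁆ * y = y * ⁅ρ₀, d⁆ := mem_centralizer_singleton_iff.1 hwD.2
    have hconj : y * ⁅ρ₀, d⁆ * y⁻¹ = ⁅ρ₀ * z, d⁆ := by
      have h1 : y * d * y⁻¹ = d := by rw [← hdy]; group
      have h2 : y * ρ₀ * y⁻¹ = ρ₀ * z := by rw [hz]; group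
      calc y * ⁅ρ₀, d⁆ * y⁻¹ = ⁅y * ρ₀ * y⁻¹, y * d * y⁻¹⁆ := by
            simp only [commutatorElement_def]; group
        _ = ⁅ρ₀ * z, d⁆ := by rw [h1, h2]
    have hexp : ⁅ρ₀ * z, d⁆ = ⁅z, d⁆ * ⁅ρ₀, d⁆ := by
      have e1 : ⁅ρ₀ * z, d⁆ = ρ₀ * ⁅z, d⁆ * d * ρ₀⁻¹ * d⁻¹ := by
        simp only [commutatorElement_def]; group
      rw [e1, hcentral z hzR d hdR ρ₀ hρ₀, commutatorElement_def ρ₀ d]
      group
    have h3 : ⁅ρ₀, d⁆ = ⁅z, d⁆ * ⁅ρ₀, d⁆ := by
      rw [← hexp, ← hconj, ← hwy]
      group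
    have h4 : ⁅z, d⁆ = 1 := by
      have h5 : 1 * ⁅ρ₀, d⁆ = ⁅z, d⁆ * ⁅ρ₀, d⁆ := by rw [one_mul]; exact h3
      exact (mul_right_cancel h5).symm
    exact commutatorElement_eq_one_iff_mul_comm.1 h4
  have hDZ : ∀ d ∈ D, ∀ ρ ∈ R, d * ρ = ρ * d := by
    intro d hd ρ hρ
    set U := R ⊓ centralizer ({d} : Set G) with hU
    have hDU : D ≤ U := by
      intro t ht
      exact ⟨ht.1, mem_centralizer_singleton_iff.2 (hDab t ht d hd)⟩
    have hUR : U ≤ R := inf_le_left
    have hm := Subgroup.relIndex_mul_relIndex D U R hDU hUR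
    rw [hrelD] at hm
    have hzU : z ∈ U := ⟨hzR, mem_centralizer_singleton_iff.2 (hzd d hd)⟩
    have h1 : D.relIndex U ≠ 1 := by
      intro h1
      exact hzD (Subgroup.relIndex_eq_one.1 h1 hzU)
    have h2 : U.relIndex R = 1 := by
      rcases (Nat.dvd_prime hr.out).1 (Dvd.intro _ hm) with h3 | h3
      · exact absurd h3 h1
      · rw [h3] at hm
        have : r * U.relIndex R = r * 1 := by rw [hm, mul_one]
        exact Nat.eq_of_mul_eq_mul_left hr.out.pos this
    have h3 := Subgroup.relIndex_eq_one.1 h2 hρ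
    exact (mem_centralizer_singleton_iff.1 h3.2).symm
  -- every element of `R` is a power of `z` times an element of `D`
  have hKidx : (D.subgroupOf R).index = r := hrelD
  have htK : (⟨z, hzR⟩ : R) ∉ D.subgroupOf R := by
    intro h1
    exact hzD (Subgroup.mem_subgroupOf.1 h1)
  have hdecomp : ∀ a ∈ R, ∃ (i : ℤ) (d : G), d ∈ D ∧ a = d * (z ^ i)⁻¹ := by
    intro a ha
    obtain ⟨i, hi⟩ := exists_zpow_mul_mem hR hKidx htK ⟨a, ha⟩
    refine ⟨i, a * z ^ i, ?_, by group⟩
    have := Subgroup.mem_subgroupOf.1 hi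
    simpa using this
  have hzc : ∀ a ∈ R, Commute a z := by
    intro a ha
    obtain ⟨i, d, hd, rfl⟩ := hdecomp a ha
    have h1 : Commute d z := (hzd d hd).symm
    have h2 : Commute (z ^ i)⁻¹ z := ((Commute.refl z).zpow_left i).inv_left
    exact h1.mul_left h2
  intro a ha b hb
  obtain ⟨i, d, hd, rfl⟩ := hdecomp b hb
  have h1 : Commute a d := (hDZ d hd a ha).symm
  have h2 : Commute a (z ^ i)⁻¹ := ((hzc a ha).zpow_right i).inv_right
  exact h1.mul_right h2

/-- The commutator criterion for a complemented normal subgroup. -/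
theorem commutator_le_of_split {R K M : Subgroup G} [hM : M.Normal] (hc : R.IsComplement' K)
    (h1 : ∀ a ∈ R, ∀ b ∈ R, ⁅a, b⁆ ∈ M) (h2 : ∀ a ∈ R, ∀ k ∈ K, ⁅a, k⁆ ∈ M)
    (h3 : ∀ k ∈ K, ∀ l ∈ K, ⁅k, l⁆ ∈ M) : commutator G ≤ M := by
  have hπ : ∀ a b : G, ⁅a, b⁆ ∈ M → Commute (QuotientGroup.mk' M a) (QuotientGroup.mk' M b) := by
    intro a b hab
    have h4 : QuotientGroup.mk' M ⁅a, b⁆ = 1 := (QuotientGroup.eq_one_iff _).2 hab
    rw [map_commutatorElement] at h4
    exact commutatorElement_eq_one_iff_commute.1 h4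
  rw [_root_.commutator_def, Subgroup.commutator_le]
  intro g _ g' _
  obtain ⟨⟨⟨a, ha⟩, ⟨k, hk⟩⟩, hag⟩ := (hc : Subgroup.IsComplement _ _).2 g
  obtain ⟨⟨⟨b, hb⟩, ⟨l, hl⟩⟩, hbg⟩ := (hc : Subgroup.IsComplement _ _).2 g'
  simp only at hag hbg
  subst hag hbg
  rw [← QuotientGroup.eq_one_iff (⁅a * k, b * l⁆ : G)]
  show QuotientGroup.mk' M ⁅a * k, b * l⁆ = 1
  rw [map_commutatorElement, commutatorElement_eq_one_iff_commute, map_mul, map_mul]
  have c1 := hπ a b (h1 a ha b hb)
  have c2 := hπ a l (h2 a ha l hl)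
  have c3 := (hπ b k (h2 b hb k hk)).symm
  have c4 := hπ k l (h3 k hk l hl)
  exact (c1.mul_right c2).mul_left (c3.mul_right c4)

/-- If the derived subgroup of a group with classes of squarefree size is an `r`-group, then it has
order at most `r`. -/
theorem SqfC.card_commutator_le_of_isPGroup [Finite G] (h : SqfC G) (hp : IsPGroup r (commutator G)) :
    Nat.card (commutator G) ≤ r := by
  classical
  obtain ⟨R₀⟩ : Nonempty (Sylow r G) := inferInstance
  set R : Subgroup G := (R₀ : Subgroup G) with hRdef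
  have hRp : IsPGroup r R := R₀.isPGroup'
  have hle : commutator G ≤ R := by
    obtain ⟨Q, hQ⟩ := hp.exists_le_sylow
    obtain ⟨g, hg⟩ := MulAction.exists_smul_eq G Q R₀
    intro x hx
    have hx' : g⁻¹ * x * g ∈ commutator G := by
      have := (inferInstance : (commutator G).Normal).conj_mem x hx g⁻¹
      simpa using this
    have h1 := hQ hx'
    rw [hRdef, ← hg, Sylow.coe_subgroup_smul, Subgroup.mem_pointwise_smul_iff_inv_smul_mem]
    simpa [MulAut.smul_def, mul_assoc] using h1
  have hRn : R.Normal := by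
    refine ⟨?_⟩
    intro a ha g
    have h1 : ⁅g, a⁆ ∈ R := hle (by rw [_root_.commutator_def]; exact Subgroup.commutator_mem_commutator (Subgroup.mem_top g) (Subgroup.mem_top a))
    have h2 : g * a * g⁻¹ = ⁅g, a⁆ * a := by
      simp only [commutatorElement_def]; group
    rw [h2]
    exact R.mul_mem h1 ha
  obtain ⟨K, hc⟩ := Subgroup.exists_right_complement'_of_coprime (N := R) R₀.card_coprime_index
  have hdis : ∀ t, t ∈ R → t ∈ K → t = 1 := by
    intro t h1 h2
    have := Subgroup.disjoint_def.1 hc.disjoint h1 h2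
    exact this
  have hKab : ∀ k ∈ K, ∀ l ∈ K, ⁅k, l⁆ = 1 := by
    intro k hk l hl
    refine hdis _ (hle (by rw [_root_.commutator_def]; exact Subgroup.commutator_mem_commutator (Subgroup.mem_top k) (Subgroup.mem_top l))) ?_
    simp only [commutatorElement_def]
    exact K.mul_mem (K.mul_mem (K.mul_mem hk hl) (K.inv_mem hk)) (K.inv_mem hl)
  have hKcard : Nat.card K = R.index := by
    have h1 := hc.card_mul_card
    have h2 := R.card_mul_index
    have hpos : 0 < Nat.card R := Nat.card_pos
    exact Nat.eq_of_mul_eq_mul_left hpos (h1.trans h2.symm)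
  have hKco : ∀ k ∈ K, (orderOf k).Coprime r := by
    intro k hk
    have hd : orderOf k ∣ R.index := by
      rw [← hKcard, ← Subgroup.orderOf_mk k hk]
      exact orderOf_dvd_natCard _
    have hnd : ¬ r ∣ orderOf k := fun h1 => R₀.not_dvd_index (h1.trans hd)
    exact ((Nat.Prime.coprime_iff_not_dvd hr.out).2 hnd).symm
  by_cases hK : ∀ k ∈ K, ∀ ρ ∈ R, k * ρ = ρ * k
  · -- `K` centralizes `R`
    have hM : commutator G ≤ ⁅R, R⁆ := by
      refine commutator_le_of_split hc ?_ ?_ ?_
      · intro a ha b hb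
        exact Subgroup.commutator_mem_commutator ha hb
      · intro a ha k hk
        rw [commutatorElement_eq_one_iff_mul_comm.2 (hK k hk a ha).symm]
        exact Subgroup.one_mem _
      · intro k hk l hl
        rw [hKab k hk l hl]
        exact Subgroup.one_mem _
    have hcard : Nat.card (⁅R, R⁆ : Subgroup G) = Nat.card (commutator R) := by
      rw [← Subgroup.map_subtype_commutator R]
      exact Nat.card_congr (Subgroup.equivMapOfInjective _ _ R.subtype_injective).symm.toEquiv
    calc Nat.card (commutator G) ≤ Nat.card (⁅R, R⁆ : Subgroup G) := Subgroup.card_le_of_le hM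
      _ = Nat.card (commutator R) := hcard
      _ ≤ r := (h.smallC R hRp).card_commutator_le hRp
  · push Not at hK
    obtain ⟨y, hyK, ρ₀, hρ₀, hne⟩ := hK
    have hab := h.abelian_of_moved R hRp (hKco y hyK) ⟨ρ₀, hρ₀, hne⟩
    set L := LL R hab y with hL
    have hLne : L ≠ ⊥ := by
      intro hb
      exact hne (LL_eq_bot_iff.1 hb ρ₀ hρ₀)
    have hLcard : Nat.card L = r := by
      rcases h.card_LL hRp (hab := hab) y with h1 | h1
      · exact absurd (Subgroup.card_eq_one.1 h1) hLne
      · exact h1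
    have hconjK : ∀ k ∈ K, ∀ l ∈ K, ∀ w ∈ LL R hab k, l * w * l⁻¹ ∈ LL R hab k := by
      intro k hk l hl w hw
      have h1 := conj_mem_LL l hw
      have h2 : l * k * l⁻¹ = k := by
        have := commutatorElement_eq_one_iff_mul_comm.1 (hKab l hl k hk)
        rw [this]; group
      rwa [h2] at h1
    have hLall : ∀ k ∈ K, LL R hab k ≤ L := by
      intro k hk
      by_cases hb : LL R hab k = ⊥
      · rw [hb]; exact bot_le
      by_cases heq : LL R hab k = L
      · exact heq.le
      exfalso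
      have hH : R ⊓ centralizer ({k} : Set G) = R ⊓ centralizer ({y} : Set G) := by
        by_contra hH
        exact heq (h.LL_eq_of_ne hRp hb hLne hH)
      have hkcard : Nat.card (LL R hab k) = r := by
        rcases h.card_LL hRp (hab := hab) k with h1 | h1
        · exact absurd (Subgroup.card_eq_one.1 h1) hb
        · exact h1
      obtain ⟨w, hw, hw1⟩ : ∃ w ∈ LL R hab k, w ≠ 1 := by
        by_contra hcon
        push Not at hcon
        exact hb ((Subgroup.eq_bot_iff_forall _).2 hcon)
      have hwR : w ∈ R := LL_le hw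
      set u := w⁻¹ * (y * w * y⁻¹) with hu
      have hu1 : u ∈ LL R hab k :=
        Subgroup.mul_mem _ (Subgroup.inv_mem _ hw) (hconjK k hk y hyK w hw)
      have hu2 : u ∈ L := mem_LL.2 ⟨w, hwR, rfl⟩
      have hu3 : u = 1 := by
        by_contra hune
        apply heq
        rw [eq_zpowers_of_card_prime hkcard hu1 hune, ← eq_zpowers_of_card_prime hLcard hu2 hune]
      have hwy : y * w = w * y := by
        have h2 : y * w * y⁻¹ = w := by
          have := congrArg (fun t => w * t) hu3
          simpa [hu] using this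
        exact mul_inv_eq_iff_eq_mul.1 h2
      have hwk : w ∈ R ⊓ centralizer ({k} : Set G) := by
        rw [hH]
        exact ⟨hwR, mem_centralizer_singleton_iff.2 hwy.symm⟩
      have hwk' : k * w = w * k := (mem_centralizer_singleton_iff.1 hwk.2).symm
      obtain ⟨v, hv, hvw⟩ := mem_LL.1 hw
      obtain ⟨n, hn⟩ := hRp ⟨w, hwR⟩
      have hn' : w ^ r ^ n = 1 := congrArg Subtype.val hn
      exact hw1 (eq_one_of_fixed hvw.symm hwk' (hKco k hk) hn')
    have hLn : L.Normal := by
      refine ⟨?_⟩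
      intro a ha g
      obtain ⟨⟨⟨ρ, hρ⟩, ⟨k, hk⟩⟩, hag⟩ := (hc : Subgroup.IsComplement _ _).2 g
      simp only at hag
      subst hag
      have h1 : k * a * k⁻¹ ∈ L := hconjK y hyK k hk a ha
      have h2 : k * a * k⁻¹ ∈ R := LL_le h1
      have h3 : ρ * (k * a * k⁻¹) * ρ⁻¹ = k * a * k⁻¹ := by
        rw [hab ρ hρ _ h2]; group
      have h4 : ρ * k * a * (ρ * k)⁻¹ = ρ * (k * a * k⁻¹) * ρ⁻¹ := by group
      rw [h4, h3]
      exact h1
    have hM : commutator G ≤ L := by
      refine commutator_le_of_split hc ?_ ?_ ?_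
      · intro a ha b hb
        rw [commutatorElement_eq_one_iff_mul_comm.2 (hab a ha b hb)]
        exact L.one_mem
      · intro a ha k hk
        apply hLall k hk
        refine mem_LL.2 ⟨a⁻¹, R.inv_mem ha, ?_⟩
        simp only [commutatorElement_def]
        group
      · intro k hk l hl
        rw [hKab k hk l hl]
        exact L.one_mem
    calc Nat.card (commutator G) ≤ Nat.card L := Subgroup.card_le_of_le hM
      _ = r := hLcard

end Cfsg.Agent.Lib.SqfClass
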