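import Mathlib
import Cfsg.Agent.Lib.SqfClass4
import Cfsg.Agent.Lib.MinNorm
import Cfsg.Agent.Lib.SuperSolv2
import Cfsg.Agent.Lib.BrolineGT
import Cfsg.Agent.Lib.PCore
import Cfsg.Prelude.Def_SolvableStructure
import Cfsg.Prelude.Def_Solvable

/-!
# Finite groups with conjugacy classes of squarefree size: the structure theorem.
-/

set_option autoImplicit false
set_option linter.unusedSectionVars false
set_option linter.unusedVariables false
set_option linter.style.haveILetI false

namespace Cfsg.Agent.Lib.SqfClass

open Subgroup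
open scoped commutatorElement Pointwise

universe u

theorem dvd_of_squarefree_of_primes {n m : ℕ} (hn : Squarefree n)
    (h : ∀ p, p.Prime → p ∣ n → p ∣ m) : n ∣ m := by
  rw [← Nat.prod_primeFactors_of_squarefree hn]
  apply Finset.prod_primes_dvd
  · intro a ha
    exact (Nat.prime_of_mem_primeFactors ha).prime
  · intro a ha
    exact h a (Nat.prime_of_mem_primeFactors ha) (Nat.dvd_of_mem_primeFactors ha)

theorem isCyclic_of_comm_of_squarefree {Q : Type*} [Group Q] [Finite Q]
    (hcomm : ∀ a b : Q, a * b = b * a) (hsq : Squarefree (Nat.card Q)) : IsCyclic Q := by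
  letI : CommGroup Q := { (inferInstance : Group Q) with mul_comm := hcomm }
  rw [IsCyclic.iff_exponent_eq_card]
  apply Nat.dvd_antisymm
  · exact Monoid.exponent_dvd_of_forall_pow_eq_one (fun g => pow_card_eq_one')
  · apply dvd_of_squarefree_of_primes hsq
    intro p hp hd
    haveI := Fact.mk hp
    obtain ⟨x, hx⟩ := exists_prime_orderOf_dvd_card' p hd
    rw [← hx]
    exact Monoid.order_dvd_exponent x

theorem map_mk_commutator {G : Type*} [Group G] (N : Subgroup G) [N.Normal] :
    (commutator G).map (QuotientGroup.mk' N) = commutator (G ⧸ N) := by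
  rw [map_commutator_eq, MonoidHom.range_eq_top.2 (QuotientGroup.mk'_surjective N)]
  rfl

/-- In a group with classes of squarefree size the derived subgroup is cyclic of squarefree
order. -/
theorem SqfC.commutator_cyclic : ∀ (n : ℕ) (G : Type u) [Group G] [Finite G], Nat.card G = n → SqfC G →
    IsCyclic (commutator G) ∧ Squarefree (Nat.card (commutator G)) := by
  intro n
  induction n using Nat.strong_induction_on with
  | _ n ih =>
    intro G _ _ hn h
    classical
    by_cases hbot : commutator G = ⊥
    · rw [hbot]
      refine ⟨inferInstance, ?_⟩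
      simp
    haveI hsolv : Group.IsSolvable G := SqfC.isSolvable _ G rfl h
    have hGne : (⊤ : Subgroup G) ≠ ⊥ := by
      intro htop
      apply hbot
      exact le_bot_iff.1 (htop ▸ le_top)
    obtain ⟨M, hMn, hMne, -, hmin⟩ :=
      MinNorm.exists_minimal_normal_le (⊤ : Subgroup G) inferInstance hGne
    obtain ⟨r, hr, hab, hexp⟩ := MinNorm.minimal_normal_abelian M hMne hmin
    haveI : Fact r.Prime := ⟨hr⟩
    have hcard : Nat.card M = r := h.card_minimal_normal M hMne hmin hab hexp
    obtain ⟨a, ha, ha1⟩ : ∃ a ∈ M, a ≠ 1 := (Subgroup.ne_bot_iff_exists_ne_one.1 hMne).elim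
      (fun x hx => ⟨x, x.2, fun h => hx (Subtype.ext h)⟩)
    have hMz : M = zpowers a := eq_zpowers_of_card_prime hcard ha ha1
    have hz : (zpowers a).Normal := hMz ▸ hMn
    have hcent : commutator G ≤ centralizer (zpowers a : Set G) :=
      SuperSolv2.commutator_le_centralizer_of_zpowers_normal a hz
    have hlt : Nat.card (G ⧸ M) < n := by
      rw [← hn]
      exact SuperSolv2.card_quotient_lt M hMne
    obtain ⟨hc1, -⟩ := ih (Nat.card (G ⧸ M)) hlt (G ⧸ M) rfl (h.quotient M)
    have hmem : ∀ x : commutator G, QuotientGroup.mk' M (x : G) ∈ commutator (G ⧸ M) := by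
      intro x
      rw [← map_mk_commutator]
      exact Subgroup.mem_map_of_mem _ x.2
    let f : commutator G →* commutator (G ⧸ M) :=
      ((QuotientGroup.mk' M).comp (commutator G).subtype).codRestrict _ hmem
    have hker : f.ker ≤ center (commutator G) := by
      intro x hx
      have hx1 : QuotientGroup.mk' M (x : G) = 1 := congrArg Subtype.val (MonoidHom.mem_ker.1 hx)
      have hx2 : (x : G) ∈ M := (QuotientGroup.eq_one_iff _).1 hx1
      rw [Subgroup.mem_center_iff]
      intro y
      apply Subtype.ext
      have h3 := hcent y.2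
      rw [Subgroup.mem_centralizer_iff] at h3
      have h4 := h3 (x : G) (by rw [SetLike.mem_coe, ← hMz]; exact hx2)
      simpa using h4.symm
    have hcomm := MonoidHom.isMulCommutative_of_isCyclic_of_ker_le_center f hker
    have hGab : ∀ x ∈ commutator G, ∀ y ∈ commutator G, x * y = y * x := by
      intro x hx y hy
      have := (hcomm.is_comm.comm (⟨x, hx⟩ : commutator G) ⟨y, hy⟩)
      exact congrArg Subtype.val this
    have hsq : Squarefree (Nat.card (commutator G)) := by
      rw [Nat.squarefree_iff_prime_squarefree]
      intro l hl hdvd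
      haveI : Fact l.Prime := ⟨hl⟩
      set N := Nat.card (commutator G) with hNdef
      have hNpos : N ≠ 0 := Nat.card_pos.ne'
      set m := ordCompl[l] N with hm
      set k := N.factorization l with hk
      have hNfac : l ^ k * m = N := Nat.ordProj_mul_ordCompl_eq_self N l
      have hcop : Nat.Coprime l m := Nat.coprime_ordCompl hl hNpos
      have hpowN : ∀ x ∈ commutator G, x ^ N = 1 := by
        intro x hx
        have : (⟨x, hx⟩ : commutator G) ^ N = 1 := pow_card_eq_one'
        exact congrArg Subtype.val this
      let B : Subgroup G :=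
        { carrier := {x | x ∈ commutator G ∧ x ^ m = 1}
          one_mem' := ⟨(commutator G).one_mem, one_pow m⟩
          mul_mem' := by
            rintro x y ⟨hx, hx'⟩ ⟨hy, hy'⟩
            refine ⟨(commutator G).mul_mem hx hy, ?_⟩
            have hc : Commute x y := hGab x hx y hy
            rw [hc.mul_pow, hx', hy', one_mul]
          inv_mem' := by
            rintro x ⟨hx, hx'⟩
            exact ⟨(commutator G).inv_mem hx, by rw [inv_pow, hx', inv_one]⟩ }
      have hBmem : ∀ x, x ∈ B ↔ x ∈ commutator G ∧ x ^ m = 1 := fun x => Iff.rfl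
      have hBle : B ≤ commutator G := fun x hx => hx.1
      haveI hBn : B.Normal := by
        refine ⟨fun x hx g => ?_⟩
        rw [hBmem] at hx ⊢
        refine ⟨(inferInstance : (commutator G).Normal).conj_mem x hx.1 g, ?_⟩
        rw [conj_pow, hx.2]
        simp
      have hmap := SuperSolv2.card_map_mk_of_le B (commutator G) hBle
      rw [map_mk_commutator] at hmap
      have hP : IsPGroup l (commutator (G ⧸ B)) := by
        intro y
        refine ⟨k, ?_⟩
        apply Subtype.ext
        have hy : (y : G ⧸ B) ∈ (commutator G).map (QuotientGroup.mk' B) := by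
          rw [map_mk_commutator]
          exact y.2
        obtain ⟨x, hx, hxy⟩ := hy
        have h1 : x ^ l ^ k ∈ B := by
          rw [hBmem]
          refine ⟨(commutator G).pow_mem hx _, ?_⟩
          rw [← pow_mul, hNfac]
          exact hpowN x hx
        have h2 : QuotientGroup.mk' B (x ^ l ^ k) = 1 := (QuotientGroup.eq_one_iff _).2 h1
        rw [map_pow, hxy] at h2
        simpa using h2
      have hle := (h.quotient B).card_commutator_le_of_isPGroup hP
      have hnd : ¬ l ∣ Nat.card B := by
        intro hd
        obtain ⟨x, hx⟩ := exists_prime_orderOf_dvd_card' l hd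
        have h1 : (x : G) ^ m = 1 := x.2.2
        have h2 : x ^ m = 1 := Subtype.ext h1
        have h3 : l ∣ m := hx ▸ orderOf_dvd_of_pow_eq_one h2
        have := Nat.Coprime.eq_one_of_dvd hcop h3
        exact hl.one_lt.ne' this
      have hcop2 : Nat.Coprime (l * l) (Nat.card B) := by
        have := (Nat.Prime.coprime_iff_not_dvd hl).2 hnd
        exact Nat.Coprime.mul_left this this
      have hmap' : Nat.card (commutator (G ⧸ B)) * Nat.card B = N := hmap
      rw [← hmap'] at hdvd
      have h3 := hcop2.dvd_of_dvd_mul_right hdvd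
      have h4 := Nat.le_of_dvd Nat.card_pos h3
      have h5 : l < l * l := by nlinarith [hl.two_le]
      omega
    refine ⟨?_, hsq⟩
    refine isCyclic_of_comm_of_squarefree ?_ hsq
    rintro ⟨x, hx⟩ ⟨y, hy⟩
    exact Subtype.ext (hGab x hx y hy)

theorem isSupersolvable_of_comm : ∀ (n : ℕ) (Q : Type u) [Group Q] [Finite Q], Nat.card Q = n →
    (∀ a b : Q, a * b = b * a) → Cfsg.IsSupersolvable Q := by
  intro n
  induction n using Nat.strong_induction_on with
  | _ n ih =>
    intro Q _ _ hn hcomm
    by_cases hs : Subsingleton Q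
    · exact SuperSolv.isSupersolvable_of_subsingleton
    · rw [not_subsingleton_iff_nontrivial] at hs
      obtain ⟨g, hg⟩ := exists_ne (1 : Q)
      haveI hzn : (zpowers g).Normal := by
        refine ⟨fun x hx y => ?_⟩
        have : y * x * y⁻¹ = x := by rw [hcomm y x, mul_assoc, mul_inv_cancel, mul_one]
        rwa [this]
      refine SuperSolv.isSupersolvable_of_zpowers g ?_
      have hne : zpowers g ≠ ⊥ := by
        intro h
        exact hg (Subgroup.zpowers_eq_bot.1 h)
      have hlt : Nat.card (Q ⧸ zpowers g) < n := by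
        rw [← hn]
        exact SuperSolv2.card_quotient_lt _ hne
      refine ih _ hlt (Q ⧸ zpowers g) rfl ?_
      intro a b
      obtain ⟨a', rfl⟩ := QuotientGroup.mk'_surjective (zpowers g) a
      obtain ⟨b', rfl⟩ := QuotientGroup.mk'_surjective (zpowers g) b
      rw [← map_mul, ← map_mul, hcomm]

theorem upper2_of_comm {X : Type*} [Group X] (h : ∀ a b c : X, ⁅a, b⁆ * c = c * ⁅a, b⁆) :
    Subgroup.upperCentralSeries X 2 = ⊤ := by
  rw [eq_top_iff]
  intro x _
  rw [Subgroup.mem_upperCentralSeries_succ_iff]
  intro y
  rw [Subgroup.upperCentralSeries_one, Subgroup.mem_center_iff]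
  intro z
  exact (h x y z).symm

/-- The main structure statement. -/
theorem SqfC.structure {G : Type u} [Group G] [Finite G] (h : SqfC G) :
    Cfsg.IsSupersolvable G ∧
    (IsCyclic (G ⧸ Cfsg.fittingSubgroup G) ∧ Squarefree (Cfsg.fittingSubgroup G).index) ∧
    IsCyclic (commutator G) ∧ Squarefree (Nat.card (commutator G)) ∧
    Subgroup.upperCentralSeries ↥(Cfsg.fittingSubgroup G) 2 = ⊤ ∧
    commutator ↥(commutator G) = ⊥ := by
  classical
  obtain ⟨hcyc, hsq⟩ := SqfC.commutator_cyclic _ G rfl h
  have hcyc0 := hcyc
  obtain ⟨c, hc⟩ := (Subgroup.isCyclic_iff_exists_zpowers_eq_top (commutator G)).1 hcyc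
  have hmemc : ∀ y, y ∈ commutator G ↔ y ∈ zpowers c := fun y => by rw [hc]
  have hab : ∀ x ∈ commutator G, ∀ y ∈ commutator G, x * y = y * x := by
    intro x hx y hy
    rw [hmemc] at hx hy
    obtain ⟨i, rfl⟩ := hx
    obtain ⟨j, rfl⟩ := hy
    simp only
    rw [← zpow_add, ← zpow_add, add_comm]
  -- Conjugation on the derived subgroup acts by a power map.
  have hconj : ∀ (g y : G), y ∈ commutator G → g * y * g⁻¹ ∈ zpowers y := by
    intro g y hy
    have h1 : g * c * g⁻¹ ∈ zpowers c := by
      rw [← hmemc]
      exact (inferInstance : (commutator G).Normal).conj_mem c ((hmemc c).2 (mem_zpowers c)) g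
    obtain ⟨t, ht⟩ := h1
    simp only at ht
    rw [hmemc] at hy
    obtain ⟨j, rfl⟩ := hy
    refine ⟨t, ?_⟩
    simp only
    rw [← conj_zpow, ← ht, ← zpow_mul, ← zpow_mul, mul_comm]
  have hzn : ∀ y ∈ commutator G, (zpowers y).Normal := by
    intro y hy
    refine ⟨fun x hx g => ?_⟩
    obtain ⟨i, rfl⟩ := hx
    simp only
    rw [← conj_zpow]
    exact (zpowers y).zpow_mem (hconj g y hy) i
  -- Normal nilpotent subgroups centralize prime-order elements of the derived subgroup.
  have hprime : ∀ N : Subgroup G, N.Normal → Group.IsNilpotent N → ∀ x ∈ N, ∀ y ∈ commutator G,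
      (orderOf y).Prime → x * y = y * x := by
    intro N hN hNil x hx y hy hyp
    set l := orderOf y with hl
    haveI : Fact l.Prime := ⟨hyp⟩
    have hcardz : Nat.card (zpowers y) = l := Nat.card_zpowers y
    have hgen : ∀ z ∈ zpowers y, z ≠ 1 → y ∈ zpowers z := by
      intro z hz hz1
      rw [← eq_zpowers_of_card_prime hcardz hz hz1]
      exact mem_zpowers y
    by_cases hyN : y ∈ N
    · let y' : N := ⟨y, hyN⟩
      have hy'ord : orderOf y' = l := by
        rw [hl, ← Subgroup.orderOf_coe]
      have hcardz' : Nat.card (zpowers y') = l := by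
        rw [Nat.card_zpowers, hy'ord]
      haveI hM' : (zpowers y').Normal := by
        refine ⟨fun u hu g => ?_⟩
        obtain ⟨i, rfl⟩ := hu
        simp only
        rw [← conj_zpow]
        refine (zpowers y').zpow_mem ?_ i
        obtain ⟨t, ht⟩ := hconj (g : G) y hy
        simp only at ht
        refine ⟨t, ?_⟩
        apply Subtype.ext
        simpa [y'] using ht
      have hy'1 : y' ≠ 1 := by
        intro h1
        have h0 : y = 1 := congrArg Subtype.val h1
        have h00 : l = 1 := by rw [hl, h0, orderOf_one]
        exact hyp.one_lt.ne' h00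
      have hne : zpowers y' ≠ ⊥ := fun h1 => hy'1 (Subgroup.zpowers_eq_bot.1 h1)
      have h2 := BrolineGT.inf_center_ne_bot (zpowers y') hne
      obtain ⟨z, hz1⟩ := Subgroup.ne_bot_iff_exists_ne_one.1 h2
      have hz2 : (z : N) ∈ zpowers y' := z.2.1
      have hz3 : (z : N) ∈ center N := z.2.2
      have hz4 : (z : N) ≠ 1 := fun h => hz1 (Subtype.ext h)
      have h3 : y' ∈ zpowers (z : N) := by
        rw [← eq_zpowers_of_card_prime hcardz' hz2 hz4]
        exact mem_zpowers y'
      have h4 : y' ∈ center N := by
        have : zpowers (z : N) ≤ center N := by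
          rw [zpowers_le]
          exact hz3
        exact this h3
      have h5 := (Subgroup.mem_center_iff.1 h4) ⟨x, hx⟩
      exact congrArg Subtype.val h5
    · set u := x * y * x⁻¹ * y⁻¹ with hu
      have h1 : u ∈ zpowers y := by
        refine (zpowers y).mul_mem (hconj x y hy) ?_
        exact (zpowers y).inv_mem (mem_zpowers y)
      have h2 : u ∈ N := by
        rw [hu, mul_assoc, mul_assoc]
        refine N.mul_mem hx ?_
        have := hN.conj_mem x⁻¹ (N.inv_mem hx) y
        simpa [mul_assoc] using this
      by_cases hu1 : u = 1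
      · rw [hu] at hu1
        have h3 : x * y * x⁻¹ = y := by
          have := mul_inv_eq_one.1 hu1
          exact this
        calc x * y = x * y * x⁻¹ * x := by group
          _ = y * x := by rw [h3]
      · exfalso
        apply hyN
        have h3 := hgen u h1 hu1
        have : zpowers u ≤ N := by
          rw [zpowers_le]
          exact h2
        exact this h3
  have hcent : ∀ N : Subgroup G, N.Normal → Group.IsNilpotent N →
      N ≤ centralizer (commutator G : Set G) := by
    intro N hN hNil x hx
    rw [Subgroup.mem_centralizer_iff]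
    let K : Subgroup G := centralizer ({x} : Set G) ⊓ commutator G
    have hKle : K ≤ commutator G := inf_le_right
    have hd : Nat.card (commutator G) ∣ Nat.card K := by
      apply dvd_of_squarefree_of_primes hsq
      intro p hp hd
      haveI : Fact p.Prime := ⟨hp⟩
      obtain ⟨y, hy⟩ := exists_prime_orderOf_dvd_card' p hd
      have hy1 : orderOf (y : G) = p := by rw [Subgroup.orderOf_coe, hy]
      have hy2 : (y : G) ∈ K := by
        refine ⟨?_, y.2⟩
        show (y : G) ∈ centralizer ({x} : Set G)
        rw [mem_centralizer_singleton_iff]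
        have := hprime N hN hNil x hx y y.2 (by rw [hy1]; exact hp)
        exact this.symm
      rw [← hy1]
      exact Subgroup.orderOf_dvd_natCard K hy2
    have hKeq : K = commutator G :=
      Subgroup.eq_of_le_of_card_ge hKle (Nat.le_of_dvd Nat.card_pos hd)
    intro y hy
    have hy' : y ∈ K := by rw [hKeq]; exact hy
    have := mem_centralizer_singleton_iff.1 hy'.1
    exact this
  set C : Subgroup G := centralizer (commutator G : Set G) with hCdef
  haveI hCn : C.Normal := Subgroup.normal_centralizer
  have hCcomm : ∀ a ∈ C, ∀ y ∈ commutator G, y * a = a * y := by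
    intro a ha y hy
    exact (Subgroup.mem_centralizer_iff.1 ha) y hy
  have hcommEl : ∀ a b : G, ⁅a, b⁆ ∈ commutator G := by
    intro a b
    rw [_root_.commutator_def]
    exact Subgroup.commutator_mem_commutator (Subgroup.mem_top a) (Subgroup.mem_top b)
  have hCup : Subgroup.upperCentralSeries C 2 = ⊤ := by
    apply upper2_of_comm
    intro a b d
    apply Subtype.ext
    have := hCcomm d d.2 ⁅(a : G), (b : G)⁆ (hcommEl _ _)
    exact this
  have hCnil : Group.IsNilpotent C := ⟨2, hCup⟩
  have hF : Cfsg.fittingSubgroup G = C := by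
    apply le_antisymm
    · exact sSup_le (fun N hN => hcent N hN.1 hN.2)
    · exact le_sSup ⟨hCn, hCnil⟩
  have hleC : commutator G ≤ C := by
    intro x hx
    rw [hCdef, Subgroup.mem_centralizer_iff]
    intro y hy
    exact hab y hy x hx
  have hCc : C = centralizer ({c} : Set G) := by
    rw [hCdef, ← hc, Subgroup.zpowers_eq_closure, Subgroup.centralizer_closure]
  have hind : Squarefree (Cfsg.fittingSubgroup G).index := by
    rw [hF, hCc]
    exact h c
  refine ⟨?_, ⟨?_, hind⟩, hcyc0, hsq, ?_, ?_⟩
  · haveI : IsCyclic (commutator G) := hcyc0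
    refine SuperSolv.isSupersolvable_of_cyclic_normal (commutator G) ?_
    refine isSupersolvable_of_comm _ _ rfl ?_
    intro a b
    obtain ⟨a', rfl⟩ := QuotientGroup.mk'_surjective (commutator G) a
    obtain ⟨b', rfl⟩ := QuotientGroup.mk'_surjective (commutator G) b
    have h1 : QuotientGroup.mk' (commutator G) ⁅a', b'⁆ = 1 :=
      (QuotientGroup.eq_one_iff _).2 (hcommEl a' b')
    rw [map_commutatorElement] at h1
    exact commutatorElement_eq_one_iff_commute.1 h1
  · apply isCyclic_of_comm_of_squarefree
    · intro a b
      obtain ⟨a', rfl⟩ := QuotientGroup.mk'_surjective (Cfsg.fittingSubgroup G) a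
      obtain ⟨b', rfl⟩ := QuotientGroup.mk'_surjective (Cfsg.fittingSubgroup G) b
      have h1 : QuotientGroup.mk' (Cfsg.fittingSubgroup G) ⁅a', b'⁆ = 1 :=
        (QuotientGroup.eq_one_iff _).2 (by rw [hF]; exact hleC (hcommEl a' b'))
      rw [map_commutatorElement] at h1
      exact commutatorElement_eq_one_iff_commute.1 h1
    · exact hind
  · have : ∀ X : Subgroup G, X = C → Subgroup.upperCentralSeries X 2 = ⊤ := by
      rintro X rfl
      exact hCup
    exact this _ hF
  · show ⁅(⊤ : Subgroup (commutator G)), (⊤ : Subgroup (commutator G))⁆ = ⊥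
    rw [commutator_eq_bot_iff_le_centralizer]
    intro x _
    rw [Subgroup.mem_centralizer_iff]
    intro y _
    exact Subtype.ext (hab _ y.2 _ x.2)

end Cfsg.Agent.Lib.SqfClass
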