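import Mathlib

/-!
# Class-two groups with the same squaring map are isomorphic

Let `X`, `Y` be finite groups with surjective homomorphisms `P`, `P'` to the same abelian group `A`, whose kernels are
central and parametrised by the same abelian group `B`, such that squares correspond. Then `X ≃* Y`.
The proof chooses a subgroup of the fibre product maximal subject to meeting the kernel in the diagonal.
-/

set_option autoImplicit false
set_option linter.style.haveILetI false
set_option linter.unusedSectionVars false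
set_option linter.unusedVariables false

namespace Cfsg.Agent.Lib.SquaringIso

open scoped commutatorElement

universe u v w x

theorem iso_of_sq {X : Type u} {Y : Type v} {A : Type w} {B : Type x} [Group X] [Group Y] [Finite X] [Finite Y]
    [AddCommGroup A] [AddCommGroup B]
    (P : X → A) (P' : Y → A) (Pm : ∀ x y, P (x * y) = P x + P y) (P'm : ∀ x y, P' (x * y) = P' x + P' y)
    (Ps : ∀ a, ∃ x, P x = a) (P's : ∀ a, ∃ y, P' y = a)
    (i : B → X) (j : B → Y) (ia : ∀ a b, i (a + b) = i a * i b) (ja : ∀ a b, j (a + b) = j a * j b)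
    (ii : ∀ b, i b = 1 → b = 0) (ji : ∀ b, j b = 1 → b = 0)
    (kP : ∀ x, P x = 0 ↔ ∃ b, x = i b) (kP' : ∀ y, P' y = 0 ↔ ∃ b, y = j b)
    (ci : ∀ b x, i b * x = x * i b) (cj : ∀ b y, j b * y = y * j b)
    (sqX : ∀ x, ∃ b, x * x = i b) (sq : ∀ x y b, P x = P' y → x * x = i b → y * y = j b) :
    Nonempty (X ≃* Y) := by
  classical
  have i0 : i 0 = 1 := by
    have h := ia 0 0
    rw [add_zero] at h
    exact mul_eq_left.mp h.symm
  have j0 : j 0 = 1 := by
    have h := ja 0 0
    rw [add_zero] at h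
    exact mul_eq_left.mp h.symm
  have P1 : P 1 = 0 := by
    have h := Pm 1 1
    rw [mul_one] at h
    exact left_eq_add.mp h
  have P'1 : P' 1 = 0 := by
    have h := P'm 1 1
    rw [mul_one] at h
    exact left_eq_add.mp h
  have Pinv : ∀ x, P x⁻¹ = - P x := by
    intro x
    have h := Pm x⁻¹ x
    rw [inv_mul_cancel, P1] at h
    exact (neg_eq_of_add_eq_zero_left h.symm).symm
  have P'inv : ∀ x, P' x⁻¹ = - P' x := by
    intro x
    have h := P'm x⁻¹ x
    rw [inv_mul_cancel, P'1] at h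
    exact (neg_eq_of_add_eq_zero_left h.symm).symm
  let D : Subgroup (X × Y) :=
    { carrier := {g | P g.1 = P' g.2}
      mul_mem' := by
        intro a b ha hb
        show P (a.1 * b.1) = P' (a.2 * b.2)
        rw [Pm, P'm, show P a.1 = P' a.2 from ha, show P b.1 = P' b.2 from hb]
      one_mem' := by
        show P 1 = P' 1
        rw [P1, P'1]
      inv_mem' := by
        intro a ha
        show P a.1⁻¹ = P' a.2⁻¹
        rw [Pinv, P'inv, show P a.1 = P' a.2 from ha] }
  have memD : ∀ g : X × Y, g ∈ D ↔ P g.1 = P' g.2 := fun g => Iff.rfl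
  let Δ : Subgroup (X × Y) :=
    { carrier := {g | ∃ b, g = (i b, j b)}
      mul_mem' := by
        rintro _ _ ⟨a, rfl⟩ ⟨b, rfl⟩
        exact ⟨a + b, by rw [ia, ja]; rfl⟩
      one_mem' := ⟨0, by rw [i0, j0]; rfl⟩
      inv_mem' := by
        rintro _ ⟨a, rfl⟩
        refine ⟨-a, ?_⟩
        have h1 : i (-a) = (i a)⁻¹ := by
          apply eq_inv_of_mul_eq_one_left
          rw [← ia, neg_add_cancel, i0]
        have h2 : j (-a) = (j a)⁻¹ := by
          apply eq_inv_of_mul_eq_one_left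
          rw [← ja, neg_add_cancel, j0]
        rw [h1, h2]
        rfl }
  have memΔ : ∀ g : X × Y, g ∈ Δ ↔ ∃ b, g = (i b, j b) := fun g => Iff.rfl
  have Δcen : ∀ g ∈ Δ, ∀ h : X × Y, g * h = h * g := by
    rintro _ ⟨b, rfl⟩ ⟨x, y⟩
    show (i b * x, j b * y) = (x * i b, y * j b)
    rw [ci, cj]
  have sqD : ∀ d ∈ D, d * d ∈ Δ := by
    intro d hd
    obtain ⟨b, hb⟩ := sqX d.1
    exact ⟨b, Prod.ext hb (sq d.1 d.2 b hd hb)⟩
  have commD : ∀ d ∈ D, ∀ e ∈ D, d * e * d⁻¹ * e⁻¹ ∈ Δ := by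
    intro d hd e he
    have h1 := sqD _ (D.mul_mem hd he)
    have h2 := Δ.inv_mem (sqD _ hd)
    have h3 := Δ.inv_mem (sqD _ he)
    have h4 : d * e * d⁻¹ * e⁻¹ = (d * e * (d * e)) * (e⁻¹ * (d * d)⁻¹ * e⁻¹) := by group
    have h5 : e⁻¹ * (d * d)⁻¹ * e⁻¹ = (d * d)⁻¹ * (e * e)⁻¹ := by
      rw [← Δcen _ h2 e⁻¹, mul_inv_rev e e, mul_assoc]
    rw [h4, h5]
    exact Δ.mul_mem h1 (Δ.mul_mem h2 h3)
  haveI : Finite (Subgroup (X × Y)) :=
    Finite.of_injective (fun S : Subgroup (X × Y) => (S : Set (X × Y))) SetLike.coe_injective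
  let 𝒮 : Set (Subgroup (X × Y)) := {S | Δ ≤ S ∧ S ≤ D ∧ ∀ g ∈ S, P g.1 = 0 → g ∈ Δ}
  have hΔD : Δ ≤ D := by
    rintro _ ⟨b, rfl⟩
    show P (i b) = P' (j b)
    rw [(kP _).mpr ⟨b, rfl⟩, (kP' _).mpr ⟨b, rfl⟩]
  have hΔ𝒮 : Δ ∈ 𝒮 := ⟨le_rfl, hΔD, fun g hg _ => hg⟩
  obtain ⟨S, -, hSmax⟩ := (Set.toFinite 𝒮).exists_le_maximal hΔ𝒮
  obtain ⟨hΔS, hSD, hSZ⟩ := hSmax.prop
  have key : ∀ d ∈ D, ∃ s ∈ S, P s.1 = P d.1 := by
    intro d hd
    by_contra hno
    push Not at hno
    let S' : Subgroup (X × Y) :=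
      { carrier := {h | h ∈ S ∨ d * h ∈ S}
        one_mem' := Or.inl S.one_mem
        mul_mem' := by
          rintro a b (ha | ha) (hb | hb)
          · exact Or.inl (S.mul_mem ha hb)
          · right
            have h1 : d * a * d⁻¹ * a⁻¹ ∈ S := hΔS (commD d hd a (hSD ha))
            have h2 : d * (a * b) = (d * a * d⁻¹ * a⁻¹) * a * (d * b) := by group
            rw [h2]
            exact S.mul_mem (S.mul_mem h1 ha) hb
          · right
            rw [← mul_assoc]
            exact S.mul_mem ha hb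
          · left
            have hdi : d⁻¹ ∈ D := D.inv_mem hd
            have h1 : d⁻¹ * (d * a) * (d⁻¹)⁻¹ * (d * a)⁻¹ ∈ S := hΔS (commD d⁻¹ hdi _ (hSD ha))
            have h3 : (d⁻¹ * d⁻¹) ∈ S := hΔS (sqD _ hdi)
            have h2 : a * b = (d⁻¹ * (d * a) * (d⁻¹)⁻¹ * (d * a)⁻¹) * (d * a) * (d⁻¹ * d⁻¹) * (d * b) := by group
            rw [h2]
            exact S.mul_mem (S.mul_mem (S.mul_mem h1 ha) h3) hb
        inv_mem' := by
          rintro a (ha | ha)
          · exact Or.inl (S.inv_mem ha)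
          · right
            have hs := S.inv_mem ha
            have h1 : d * (d * a)⁻¹ * d⁻¹ * ((d * a)⁻¹)⁻¹ ∈ S := hΔS (commD d hd _ (hSD hs))
            have h3 : (d * d) ∈ S := hΔS (sqD _ hd)
            have h2 : d * a⁻¹ = (d * (d * a)⁻¹ * d⁻¹ * ((d * a)⁻¹)⁻¹) * (d * a)⁻¹ * (d * d) := by group
            rw [h2]
            exact S.mul_mem (S.mul_mem h1 hs) h3 }
    have hSS' : S ≤ S' := fun a ha => Or.inl ha
    have hS'𝒮 : S' ∈ 𝒮 := by
      refine ⟨hΔS.trans hSS', ?_, ?_⟩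
      · rintro a (ha | ha)
        · exact hSD ha
        · have h1 := hSD ha
          have h2 : a = d⁻¹ * (d * a) := by group
          rw [h2]
          exact D.mul_mem (D.inv_mem hd) h1
      · rintro g (hg | hg) hg0
        · exact hSZ g hg hg0
        · exfalso
          have h1 := hno _ hg
          apply h1
          show P (d.1 * g.1) = _
          rw [Pm, hg0, add_zero]
    have h1 : S' ≤ S := hSmax.le_of_ge hS'𝒮 hSS'
    have h2 : d ∈ S' := Or.inr (hΔS (sqD d hd))
    exact hno d (h1 h2) rfl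
  -- `S` is the graph of an isomorphism
  let f₁ : S →* X := (MonoidHom.fst X Y).comp S.subtype
  let f₂ : S →* Y := (MonoidHom.snd X Y).comp S.subtype
  have hf₁ : Function.Bijective f₁ := by
    constructor
    · rw [injective_iff_map_eq_one]
      rintro ⟨s, hs⟩ h
      have h0 : s.1 = 1 := h
      have h1 := hSZ s hs (by rw [h0, P1])
      obtain ⟨b, hb⟩ := h1
      have h3 : i b = 1 := by
        rw [← h0, hb]
      have h4 := ii b h3
      apply Subtype.ext
      show s = 1
      rw [hb, h4, i0, j0]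
      rfl
    · intro x
      obtain ⟨y, hy⟩ := P's (P x)
      have hd : (x, y) ∈ D := hy.symm
      obtain ⟨s, hs, hsx⟩ := key _ hd
      have h1 : P (s.1⁻¹ * x) = 0 := by
        rw [Pm, Pinv, hsx]
        exact neg_add_cancel _
      obtain ⟨b, hb⟩ := (kP _).mp h1
      have hb' : (i b, j b) ∈ S := hΔS ⟨b, rfl⟩
      refine ⟨⟨s * (i b, j b), S.mul_mem hs hb'⟩, ?_⟩
      show s.1 * i b = x
      rw [← hb]
      group
  have hf₂ : Function.Bijective f₂ := by
    constructor
    · rw [injective_iff_map_eq_one]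
      rintro ⟨s, hs⟩ h
      have h0 : s.2 = 1 := h
      have hsD : P s.1 = P' s.2 := hSD hs
      have h1 := hSZ s hs (by rw [hsD, h0, P'1])
      obtain ⟨b, hb⟩ := h1
      have h3 : j b = 1 := by
        rw [← h0, hb]
      have h4 := ji b h3
      apply Subtype.ext
      show s = 1
      rw [hb, h4, i0, j0]
      rfl
    · intro y
      obtain ⟨x, hx⟩ := Ps (P' y)
      have hd : (x, y) ∈ D := hx
      obtain ⟨s, hs, hsx⟩ := key _ hd
      have hsD : P s.1 = P' s.2 := hSD hs
      have h1 : P' (s.2⁻¹ * y) = 0 := by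
        rw [P'm, P'inv, ← hsD, hsx, hx]
        exact neg_add_cancel _
      obtain ⟨b, hb⟩ := (kP' _).mp h1
      have hb' : (i b, j b) ∈ S := hΔS ⟨b, rfl⟩
      refine ⟨⟨s * (i b, j b), S.mul_mem hs hb'⟩, ?_⟩
      show s.2 * j b = y
      rw [← hb]
      group
  exact ⟨(MulEquiv.ofBijective f₁ hf₁).symm.trans (MulEquiv.ofBijective f₂ hf₂)⟩

end Cfsg.Agent.Lib.SquaringIso
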