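import Mathlib

/-!
# Equivariant version of the squaring recognition

`X`, `Y` as in `SquaringIso.iso_of_sq`, with automorphisms `τX`, `τY` of order dividing 5, trivial on the central kernels,
acting on `A` through the same `g` with `1 + g + g² + g³ + g⁴ = 0`. Then the isomorphism can be chosen equivariant.
-/

set_option autoImplicit false
set_option linter.style.haveILetI false
set_option linter.unusedSectionVars false
set_option linter.unusedVariables false

namespace Cfsg.Agent.Lib.SquaringIso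

theorem norm_ac {W : Type*} [CommMonoid W] (a b c d e a' b' c' d' e' : W) :
    a * a' * (b * b') * (c * c') * (d * d') * (e * e') = a * b * c * d * e * (a' * b' * c' * d' * e') := by
  ac_rfl

theorem norm_core {D : Type*} [Group D] (Δ : Subgroup D) [Δ.Normal]
    (comm : ∀ d e : D, d * e * d⁻¹ * e⁻¹ ∈ Δ) (sq : ∀ d : D, d * d ∈ Δ)
    (τ : D →* D) (τ5 : ∀ d, τ (τ (τ (τ (τ d)))) = d) (hτΔ : ∀ c ∈ Δ, τ c = c) :
    ∃ S : Subgroup D, Δ ≤ S ∧ (∀ d ∈ S, τ d ∈ S) ∧ (∀ z ∈ S, τ z = z → z ∈ Δ) ∧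
      ∀ d : D, d * (d * τ d * τ (τ d) * τ (τ (τ d)) * τ (τ (τ (τ d))))⁻¹ ∈ S := by
  classical
  have hcomm : ∀ a b : D ⧸ Δ, a * b = b * a := by
    intro a b
    induction a using QuotientGroup.induction_on with | _ x => ?_
    induction b using QuotientGroup.induction_on with | _ y => ?_
    rw [← QuotientGroup.mk_mul, ← QuotientGroup.mk_mul, QuotientGroup.eq]
    have h := comm y⁻¹ x⁻¹
    have h2 : (x * y)⁻¹ * (y * x) = y⁻¹ * x⁻¹ * y⁻¹⁻¹ * x⁻¹⁻¹ := by group
    rw [h2]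
    exact h
  letI instW : CommGroup (D ⧸ Δ) := { (QuotientGroup.Quotient.group Δ) with mul_comm := hcomm }
  let π : D →* D ⧸ Δ := QuotientGroup.mk' Δ
  have hπ2 : ∀ a, π a * π a = 1 := by
    intro a
    rw [← map_mul]
    exact (QuotientGroup.eq_one_iff _).mpr (sq a)
  have hπ5 : ∀ a : D, π a * π a * π a * π a * π a = π a := by
    intro a
    rw [hπ2, one_mul, hπ2, one_mul]
  have hker : ∀ a, π a = 1 ↔ a ∈ Δ := fun a => QuotientGroup.eq_one_iff a
  let n : D →* D ⧸ Δ :=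
    { toFun := fun d => π d * π (τ d) * π (τ (τ d)) * π (τ (τ (τ d))) * π (τ (τ (τ (τ d))))
      map_one' := by simp only [map_one, mul_one]
      map_mul' := by
        intro a b
        simp only [map_mul]
        exact norm_ac _ _ _ _ _ _ _ _ _ _ }
  have hn : ∀ d, n d = π d * π (τ d) * π (τ (τ d)) * π (τ (τ (τ d))) * π (τ (τ (τ (τ d)))) := fun d => rfl
  have hnτ : ∀ d, n (τ d) = n d := by
    intro d
    rw [hn, hn, τ5, mul_assoc (π d), mul_assoc (π d), mul_assoc (π d), mul_comm (π d)]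
  refine ⟨n.ker, ?_, ?_, ?_, ?_⟩
  · intro c hc
    rw [MonoidHom.mem_ker, hn, hτΔ c hc, hτΔ c hc, hτΔ c hc, hτΔ c hc, hπ5]
    exact (hker c).mpr hc
  · intro d hd
    rw [MonoidHom.mem_ker] at hd ⊢
    rw [hnτ, hd]
  · intro z hz hfix
    rw [MonoidHom.mem_ker, hn, hfix, hfix, hfix, hfix, hπ5] at hz
    exact (hker z).mp hz
  · intro d
    rw [MonoidHom.mem_ker, map_mul, map_inv]
    set w := d * τ d * τ (τ d) * τ (τ (τ d)) * τ (τ (τ (τ d))) with hw
    have h1 : π w = n d := by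
      rw [hw, hn]
      simp only [map_mul]
    have h2 : π (τ w) = π w := by
      have : τ w = τ d * τ (τ d) * τ (τ (τ d)) * τ (τ (τ (τ d))) * d := by
        rw [hw]
        simp only [map_mul, τ5]
      rw [this, hw]
      simp only [map_mul]
      rw [mul_comm _ (π d)]
      simp only [mul_assoc]
    have hd : ∀ u v : D, π u = π v → π (τ u) = π (τ v) := by
      intro u v huv
      have h : u⁻¹ * v ∈ Δ := by
        apply (hker _).mp
        rw [map_mul, map_inv, huv, inv_mul_cancel]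
      have h' : π (τ (u⁻¹ * v)) = 1 := by
        rw [hτΔ _ h]
        exact (hker _).mpr h
      rw [map_mul, map_mul, map_inv, map_inv] at h'
      exact (inv_mul_eq_one.mp h')
    have h4 := hd _ _ h2
    have h5 := hd _ _ h4
    have h6 := hd _ _ h5
    have h3 : n w = n d := by
      rw [hn, h6, h5, h4, h2, hπ5, h1]
    rw [h3, mul_inv_cancel]


universe u v w x

theorem iso_of_sq_equiv {X : Type u} {Y : Type v} {A : Type w} {B : Type x} [Group X] [Group Y] [Finite X] [Finite Y]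
    [AddCommGroup A] [AddCommGroup B]
    (P : X → A) (P' : Y → A) (Pm : ∀ x y, P (x * y) = P x + P y) (P'm : ∀ x y, P' (x * y) = P' x + P' y)
    (Ps : ∀ a, ∃ x, P x = a) (P's : ∀ a, ∃ y, P' y = a)
    (i : B → X) (j : B → Y) (ia : ∀ a b, i (a + b) = i a * i b) (ja : ∀ a b, j (a + b) = j a * j b)
    (ii : ∀ b, i b = 1 → b = 0) (ji : ∀ b, j b = 1 → b = 0)
    (kP : ∀ x, P x = 0 ↔ ∃ b, x = i b) (kP' : ∀ y, P' y = 0 ↔ ∃ b, y = j b)
    (ci : ∀ b x, i b * x = x * i b) (cj : ∀ b y, j b * y = y * j b)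
    (sqX : ∀ x, ∃ b, x * x = i b) (sq : ∀ x y b, P x = P' y → x * x = i b → y * y = j b)
    (τX : X ≃* X) (τY : Y ≃* Y) (g : A → A)
    (τX5 : ∀ x, τX (τX (τX (τX (τX x)))) = x) (τY5 : ∀ y, τY (τY (τY (τY (τY y)))) = y)
    (Pτ : ∀ x, P (τX x) = g (P x)) (P'τ : ∀ y, P' (τY y) = g (P' y))
    (gN : ∀ a, a + g a + g (g a) + g (g (g a)) + g (g (g (g a))) = 0)
    (iτ : ∀ b, τX (i b) = i b) (jτ : ∀ b, τY (j b) = j b) :
    ∃ φ : X ≃* Y, ∀ x, φ (τX x) = τY (φ x) := by
  classical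
  have i0 : i 0 = 1 := by
    have h := ia 0 0
    rw [add_zero] at h
    exact mul_eq_left.mp h.symm
  have j0 : j 0 = 1 := by
    have h := ja 0 0
    rw [add_zero] at h
    exact mul_eq_left.mp h.symm
  have P1 : P 1 = 0 := by
    have h := Pm 1 1
    rw [mul_one] at h
    exact left_eq_add.mp h
  have P'1 : P' 1 = 0 := by
    have h := P'm 1 1
    rw [mul_one] at h
    exact left_eq_add.mp h
  have Pinv : ∀ x, P x⁻¹ = - P x := by
    intro x
    have h := Pm x⁻¹ x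
    rw [inv_mul_cancel, P1] at h
    exact (neg_eq_of_add_eq_zero_left h.symm).symm
  have P'inv : ∀ x, P' x⁻¹ = - P' x := by
    intro x
    have h := P'm x⁻¹ x
    rw [inv_mul_cancel, P'1] at h
    exact (neg_eq_of_add_eq_zero_left h.symm).symm
  let D : Subgroup (X × Y) :=
    { carrier := {g | P g.1 = P' g.2}
      mul_mem' := by
        intro a b ha hb
        show P (a.1 * b.1) = P' (a.2 * b.2)
        rw [Pm, P'm, show P a.1 = P' a.2 from ha, show P b.1 = P' b.2 from hb]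
      one_mem' := by
        show P 1 = P' 1
        rw [P1, P'1]
      inv_mem' := by
        intro a ha
        show P a.1⁻¹ = P' a.2⁻¹
        rw [Pinv, P'inv, show P a.1 = P' a.2 from ha] }
  have memD : ∀ g : X × Y, g ∈ D ↔ P g.1 = P' g.2 := fun g => Iff.rfl
  let Δ : Subgroup D :=
    { carrier := {g | ∃ b, g.1 = (i b, j b)}
      mul_mem' := by
        rintro a c ⟨u, hu⟩ ⟨v, hv⟩
        refine ⟨u + v, ?_⟩
        show a.1 * c.1 = _
        rw [hu, hv, ia, ja]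
        rfl
      one_mem' := ⟨0, by rw [i0, j0]; rfl⟩
      inv_mem' := by
        rintro a ⟨u, hu⟩
        refine ⟨-u, ?_⟩
        have h1 : i (-u) = (i u)⁻¹ := by
          apply eq_inv_of_mul_eq_one_left
          rw [← ia, neg_add_cancel, i0]
        have h2 : j (-u) = (j u)⁻¹ := by
          apply eq_inv_of_mul_eq_one_left
          rw [← ja, neg_add_cancel, j0]
        show (a.1)⁻¹ = _
        rw [hu, h1, h2]
        rfl }
  have memΔ : ∀ g : D, g ∈ Δ ↔ ∃ b, g.1 = (i b, j b) := fun g => Iff.rfl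
  have Δcen : ∀ c ∈ Δ, ∀ h : D, c * h = h * c := by
    rintro c ⟨b, hb⟩ h
    apply Subtype.ext
    show c.1 * h.1 = h.1 * c.1
    rw [hb]
    exact Prod.ext (ci b h.1.1) (cj b h.1.2)
  haveI hΔN : Δ.Normal := by
    constructor
    intro n hn g
    have h1 := Δcen n hn g
    have h2 : g * n * g⁻¹ = n := by
      rw [← h1, mul_inv_cancel_right]
    rw [h2]
    exact hn
  have sqD : ∀ d : D, d * d ∈ Δ := by
    intro d
    obtain ⟨b, hb⟩ := sqX d.1.1
    exact ⟨b, Prod.ext hb (sq d.1.1 d.1.2 b d.2 hb)⟩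
  have commD : ∀ d e : D, d * e * d⁻¹ * e⁻¹ ∈ Δ := by
    intro d e
    have h1 := sqD (d * e)
    have h2 := Δ.inv_mem (sqD d)
    have h3 := Δ.inv_mem (sqD e)
    have h4 : d * e * d⁻¹ * e⁻¹ = (d * e * (d * e)) * (e⁻¹ * (d * d)⁻¹ * e⁻¹) := by group
    have h5 : e⁻¹ * (d * d)⁻¹ * e⁻¹ = (d * d)⁻¹ * (e * e)⁻¹ := by
      rw [← Δcen _ h2 e⁻¹, mul_inv_rev e e, mul_assoc]
    rw [h4, h5]
    exact Δ.mul_mem h1 (Δ.mul_mem h2 h3)
  let τD : D →* D :=
    { toFun := fun d => ⟨(τX d.1.1, τY d.1.2), by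
        show P (τX d.1.1) = P' (τY d.1.2)
        rw [Pτ, P'τ, show P d.1.1 = P' d.1.2 from d.2]⟩
      map_one' := by
        apply Subtype.ext
        exact Prod.ext (map_one τX) (map_one τY)
      map_mul' := by
        intro a b
        apply Subtype.ext
        exact Prod.ext (map_mul τX _ _) (map_mul τY _ _) }
  have hτD : ∀ d : D, (τD d).1 = (τX d.1.1, τY d.1.2) := fun d => rfl
  have hτ5 : ∀ d : D, τD (τD (τD (τD (τD d)))) = d := by
    intro d
    apply Subtype.ext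
    exact Prod.ext (τX5 _) (τY5 _)
  have hτΔ : ∀ c ∈ Δ, τD c = c := by
    rintro c ⟨b, hb⟩
    apply Subtype.ext
    rw [hτD, hb]
    exact Prod.ext (iτ b) (jτ b)
  obtain ⟨S₀, hΔS₀, hS₀τ, hS₀fix, hS₀n⟩ := norm_core Δ commD sqD τD hτ5 hτΔ
  let S : Subgroup (X × Y) := S₀.map D.subtype
  have memS : ∀ s : X × Y, s ∈ S ↔ ∃ h : s ∈ D, (⟨s, h⟩ : D) ∈ S₀ := by
    intro s
    constructor
    · rintro ⟨d, hd, rfl⟩
      exact ⟨d.2, hd⟩
    · rintro ⟨h, h'⟩
      exact ⟨⟨s, h⟩, h', rfl⟩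
  have hSD : ∀ {s}, s ∈ S → s ∈ D := by
    intro s hs
    exact ((memS s).mp hs).1
  have hΔS : ∀ b, (i b, j b) ∈ S := by
    intro b
    have hd : (i b, j b) ∈ D := by
      show P (i b) = P' (j b)
      rw [(kP _).mpr ⟨b, rfl⟩, (kP' _).mpr ⟨b, rfl⟩]
    exact (memS _).mpr ⟨hd, hΔS₀ ⟨b, rfl⟩⟩
  have hSZ : ∀ s ∈ S, P s.1 = 0 → ∃ b, s = (i b, j b) := by
    intro s hs h0
    obtain ⟨hd, hs'⟩ := (memS s).mp hs
    have h1 : P' s.2 = 0 := by
      rw [← show P s.1 = P' s.2 from hd, h0]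
    obtain ⟨b, hb⟩ := (kP _).mp h0
    obtain ⟨b', hb'⟩ := (kP' _).mp h1
    have hfix : τD ⟨s, hd⟩ = ⟨s, hd⟩ := by
      apply Subtype.ext
      rw [hτD]
      apply Prod.ext
      · show τX s.1 = s.1
        rw [hb, iτ]
      · show τY s.2 = s.2
        rw [hb', jτ]
    exact hS₀fix _ hs' hfix
  have hSτ : ∀ s ∈ S, (τX s.1, τY s.2) ∈ S := by
    intro s hs
    obtain ⟨hd, hs'⟩ := (memS s).mp hs
    have := hS₀τ _ hs'
    exact ⟨_, this, rfl⟩
  have key : ∀ d ∈ D, ∃ s ∈ S, P s.1 = P d.1 := by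
    intro d hd
    let d' : D := ⟨d, hd⟩
    have h1 := hS₀n d'
    refine ⟨_, ⟨_, h1, rfl⟩, ?_⟩
    have h2 : ∀ (u : D), P (u⁻¹).1.1 = - P u.1.1 := by
      intro u
      exact Pinv _
    have h3 : ∀ u v : D, P (u * v).1.1 = P u.1.1 + P v.1.1 := by
      intro u v
      exact Pm _ _
    have h4 : ∀ u : D, P (τD u).1.1 = g (P u.1.1) := by
      intro u
      exact Pτ _
    show P (d' * (d' * τD d' * τD (τD d') * τD (τD (τD d')) * τD (τD (τD (τD d'))))⁻¹).1.1 = P d'.1.1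
    rw [h3, h2, h3, h3, h3, h3]
    simp only [h4]
    rw [gN]
    simp
  -- `S` is the graph of an isomorphism
  let f₁ : S →* X := (MonoidHom.fst X Y).comp S.subtype
  let f₂ : S →* Y := (MonoidHom.snd X Y).comp S.subtype
  have hf₁ : Function.Bijective f₁ := by
    constructor
    · rw [injective_iff_map_eq_one]
      rintro ⟨s, hs⟩ h
      have h0 : s.1 = 1 := h
      obtain ⟨b, hb⟩ := hSZ s hs (by rw [h0, P1])
      have h3 : i b = 1 := by
        rw [← h0, hb]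
      have h4 := ii b h3
      apply Subtype.ext
      show s = 1
      rw [hb, h4, i0, j0]
      rfl
    · intro x
      obtain ⟨y, hy⟩ := P's (P x)
      have hd : (x, y) ∈ D := hy.symm
      obtain ⟨s, hs, hsx⟩ := key _ hd
      have h1 : P (s.1⁻¹ * x) = 0 := by
        rw [Pm, Pinv, hsx]
        exact neg_add_cancel _
      obtain ⟨b, hb⟩ := (kP _).mp h1
      refine ⟨⟨s * (i b, j b), S.mul_mem hs (hΔS b)⟩, ?_⟩
      show s.1 * i b = x
      rw [← hb]
      group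
  have hf₂ : Function.Bijective f₂ := by
    constructor
    · rw [injective_iff_map_eq_one]
      rintro ⟨s, hs⟩ h
      have h0 : s.2 = 1 := h
      have hsD : P s.1 = P' s.2 := hSD hs
      obtain ⟨b, hb⟩ := hSZ s hs (by rw [hsD, h0, P'1])
      have h3 : j b = 1 := by
        rw [← h0, hb]
      have h4 := ji b h3
      apply Subtype.ext
      show s = 1
      rw [hb, h4, i0, j0]
      rfl
    · intro y
      obtain ⟨x, hx⟩ := Ps (P' y)
      have hd : (x, y) ∈ D := hx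
      obtain ⟨s, hs, hsx⟩ := key _ hd
      have hsD : P s.1 = P' s.2 := hSD hs
      have h1 : P' (s.2⁻¹ * y) = 0 := by
        rw [P'm, P'inv, ← hsD, hsx, hx]
        exact neg_add_cancel _
      obtain ⟨b, hb⟩ := (kP' _).mp h1
      refine ⟨⟨s * (i b, j b), S.mul_mem hs (hΔS b)⟩, ?_⟩
      show s.2 * j b = y
      rw [← hb]
      group
  refine ⟨(MulEquiv.ofBijective f₁ hf₁).symm.trans (MulEquiv.ofBijective f₂ hf₂), ?_⟩
  intro x
  obtain ⟨s, rfl⟩ := hf₁.2 x
  have h1 : (MulEquiv.ofBijective f₁ hf₁).symm (f₁ s) = s :=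
    (MulEquiv.ofBijective f₁ hf₁).symm_apply_apply s
  let s' : S := ⟨(τX s.1.1, τY s.1.2), hSτ s.1 s.2⟩
  have h2 : τX (f₁ s) = f₁ s' := rfl
  have h3 : (MulEquiv.ofBijective f₁ hf₁).symm (f₁ s') = s' :=
    (MulEquiv.ofBijective f₁ hf₁).symm_apply_apply s'
  show (MulEquiv.ofBijective f₂ hf₂) ((MulEquiv.ofBijective f₁ hf₁).symm (τX (f₁ s))) =
    τY ((MulEquiv.ofBijective f₂ hf₂) ((MulEquiv.ofBijective f₁ hf₁).symm (f₁ s)))
  rw [h1, h2, h3]
  rfl

end Cfsg.Agent.Lib.SquaringIso
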