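import Mathlib

/-!
# Subnormal chains of subgroups of a fixed ambient group

`SC A B l`: there is a chain `A = H₀ < H₁ < ⋯ < H_l = B` of subgroups of the ambient group with each term normal
in the next one. Tools: concatenation, splitting along a normalised subgroup, intersecting with a complement-like
subgroup, transfer along a homomorphism, and a bound by the number of prime factors of the order.
-/

set_option autoImplicit false
set_option linter.unusedSectionVars false
set_option linter.unusedVariables false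

namespace Cfsg.Agent.Lib.SubnChain

open ArithmeticFunction

universe u v

/-- `B` is normal in `C`, as a condition on subgroups of the ambient group. -/
def NI {G : Type u} [Group G] (B C : Subgroup G) : Prop := ∀ c ∈ C, ∀ b ∈ B, c * b * c⁻¹ ∈ B

inductive SC {G : Type u} [Group G] (A : Subgroup G) : Subgroup G → ℕ → Prop
  | refl : SC A A 0
  | step {B C : Subgroup G} {l : ℕ} : SC A B l → B < C → NI B C → SC A C (l + 1)

variable {G : Type u} [Group G]

theorem SC.le {A B : Subgroup G} {l : ℕ} (h : SC A B l) : A ≤ B := by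
  induction h with
  | refl => exact le_rfl
  | step _ hlt _ ih => exact ih.trans hlt.le

theorem SC.trans {A B C : Subgroup G} {l m : ℕ} (h : SC A B l) (h' : SC B C m) : SC A C (l + m) := by
  induction h' with
  | refl => simpa using h
  | step _ hlt hn ih => exact (SC.step ih hlt hn)

theorem SC.eq_zero_of_self {A : Subgroup G} {l : ℕ} (h : SC A A l) : l = 0 := by
  cases h with
  | refl => rfl
  | step h' hlt hn => exact absurd (h'.le.trans_lt hlt) (lt_irrefl _)

theorem SC.one_step {B C : Subgroup G} (hlt : B < C) (hn : NI B C) : SC B C 1 :=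
  SC.step SC.refl hlt hn

theorem SC.exists_bot (B : Subgroup G) : ∃ m, SC ⊥ B m := by
  by_cases hB : ⊥ = B
  · exact ⟨0, hB ▸ SC.refl⟩
  · refine ⟨1, SC.one_step (lt_of_le_of_ne bot_le hB) ?_⟩
    intro c hc b hb
    have : b = 1 := by simpa using hb
    simp [this]

/-- Elements of the join with a normalised subgroup. -/
theorem mem_sup_of_normalized {B N : Subgroup G} (hN : ∀ b ∈ B, ∀ n ∈ N, b * n * b⁻¹ ∈ N) (x : G)
    (hx : x ∈ B ⊔ N) : ∃ b ∈ B, ∃ n ∈ N, x = b * n := by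
  let P : Subgroup G :=
    { carrier := {x | ∃ b ∈ B, ∃ n ∈ N, x = b * n}
      one_mem' := ⟨1, B.one_mem, 1, N.one_mem, by simp⟩
      mul_mem' := by
        rintro _ _ ⟨b, hb, n, hn, rfl⟩ ⟨b', hb', n', hn', rfl⟩
        refine ⟨b * b', B.mul_mem hb hb', b'⁻¹ * n * b' * n', ?_, by group⟩
        refine N.mul_mem ?_ hn'
        have := hN b'⁻¹ (B.inv_mem hb') n hn
        simpa using this
      inv_mem' := by
        rintro _ ⟨b, hb, n, hn, rfl⟩
        refine ⟨b⁻¹, B.inv_mem hb, b * n⁻¹ * b⁻¹, hN b hb _ (N.inv_mem hn), by group⟩ }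
  have hle : B ⊔ N ≤ P := by
    refine sup_le (fun b hb => ⟨b, hb, 1, N.one_mem, by simp⟩)
      (fun n hn => ⟨1, B.one_mem, n, hn, by simp⟩)
  exact hle hx

/-- Splitting a chain along a normalised subgroup. -/
theorem SC.split {A B : Subgroup G} {l : ℕ} (h : SC A B l) (N : Subgroup G)
    (hN : ∀ b ∈ B, ∀ n ∈ N, b * n * b⁻¹ ∈ N) :
    ∃ a b', SC (A ⊓ N) (B ⊓ N) a ∧ SC (A ⊔ N) (B ⊔ N) b' ∧ l ≤ a + b' := by
  induction h with
  | refl => exact ⟨0, 0, SC.refl, SC.refl, le_rfl⟩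
  | @step B C l h' hlt hn ih =>
    have hNB : ∀ b ∈ B, ∀ n ∈ N, b * n * b⁻¹ ∈ N := fun b hb n hn' => hN b (hlt.le hb) n hn'
    obtain ⟨a, b', h1, h2, hl⟩ := ih hNB
    have hle1 : B ⊓ N ≤ C ⊓ N := inf_le_inf_right _ hlt.le
    have hle2 : B ⊔ N ≤ C ⊔ N := sup_le_sup_right hlt.le _
    have hn1 : NI (B ⊓ N) (C ⊓ N) := fun c hc b hb =>
      ⟨hn c hc.1 b hb.1, N.mul_mem (N.mul_mem hc.2 hb.2) (N.inv_mem hc.2)⟩
    have hn2 : NI (B ⊔ N) (C ⊔ N) := by
      intro c hc x hx
      obtain ⟨c', hc', n₁, hn₁, rfl⟩ := mem_sup_of_normalized hN c hc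
      obtain ⟨b, hb, n₂, hn₂, rfl⟩ := mem_sup_of_normalized hNB x hx
      have e : c' * n₁ * (b * n₂) * (c' * n₁)⁻¹ =
          (c' * b * c'⁻¹) * (c' * (b⁻¹ * n₁ * b * n₂ * n₁⁻¹) * c'⁻¹) := by group
      rw [e]
      refine Subgroup.mul_mem _ (Subgroup.mem_sup_left (hn c' hc' b hb))
        (Subgroup.mem_sup_right (hN c' hc' _ ?_))
      refine N.mul_mem (N.mul_mem ?_ hn₂) (N.inv_mem hn₁)
      have := hNB b⁻¹ (B.inv_mem hb) n₁ hn₁
      simpa using this
    by_cases he1 : B ⊓ N = C ⊓ N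
    · by_cases he2 : B ⊔ N = C ⊔ N
      · exfalso
        obtain ⟨c, hc, hcB⟩ := SetLike.exists_of_lt hlt
        have hc' : c ∈ B ⊔ N := he2 ▸ Subgroup.mem_sup_left hc
        obtain ⟨b, hb, n, hn', rfl⟩ := mem_sup_of_normalized hNB c hc'
        have hnC : n ∈ C := by
          have := C.mul_mem (C.inv_mem (hlt.le hb)) hc
          simpa using this
        have : n ∈ B ⊓ N := he1 ▸ ⟨hnC, hn'⟩
        exact hcB (B.mul_mem hb this.1)
      · exact ⟨a, b' + 1, he1 ▸ h1, SC.step h2 (lt_of_le_of_ne hle2 he2) hn2, by omega⟩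
    · by_cases he2 : B ⊔ N = C ⊔ N
      · exact ⟨a + 1, b', SC.step h1 (lt_of_le_of_ne hle1 he1) hn1, he2 ▸ h2, by omega⟩
      · exact ⟨a + 1, b' + 1, SC.step h1 (lt_of_le_of_ne hle1 he1) hn1,
          SC.step h2 (lt_of_le_of_ne hle2 he2) hn2, by omega⟩

/-- Splitting at a normal subgroup contained in the top and starting from the bottom. -/
theorem SC.split_bot {B N : Subgroup G} {l : ℕ} (h : SC ⊥ B l) (hNB : N ≤ B)
    (hN : ∀ b ∈ B, ∀ n ∈ N, b * n * b⁻¹ ∈ N) :
    ∃ a b', SC ⊥ N a ∧ SC N B b' ∧ l ≤ a + b' := by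
  obtain ⟨a, b', h1, h2, hl⟩ := h.split N hN
  have e1 : (⊥ : Subgroup G) ⊓ N = ⊥ := bot_inf_eq _
  have e2 : B ⊓ N = N := inf_eq_right.mpr hNB
  have e3 : (⊥ : Subgroup G) ⊔ N = N := bot_sup_eq _
  have e4 : B ⊔ N = B := sup_eq_left.mpr hNB
  rw [e1, e2] at h1
  rw [e3, e4] at h2
  exact ⟨a, b', h1, h2, hl⟩

/-- Intersecting a chain above `N` with a subgroup `S` with `C = N S`. -/
theorem SC.inf_stab {N C : Subgroup G} {l : ℕ} (h : SC N C l) (S : Subgroup G)
    (hS : ∀ c ∈ C, ∃ n ∈ N, ∃ s ∈ S, c = n * s) : SC (N ⊓ S) (C ⊓ S) l := by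
  induction h with
  | refl => exact SC.refl
  | @step B C₁ l h' hlt hn ih =>
    have hNB : N ≤ B := h'.le
    refine SC.step (ih fun c hc => hS c (hlt.le hc)) (lt_of_le_of_ne (inf_le_inf_right _ hlt.le) ?_) ?_
    · intro he
      obtain ⟨c, hc, hcB⟩ := SetLike.exists_of_lt hlt
      obtain ⟨n₀, hn₀, s, hs, rfl⟩ := hS c hc
      have hsC : s ∈ C₁ := by
        have := C₁.mul_mem (C₁.inv_mem (hlt.le (hNB hn₀))) hc
        simpa using this
      have : s ∈ B ⊓ S := he ▸ ⟨hsC, hs⟩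
      exact hcB (B.mul_mem (hNB hn₀) this.1)
    · exact fun c hc b hb =>
        ⟨hn c hc.1 b hb.1, S.mul_mem (S.mul_mem hc.2 hb.2) (S.inv_mem hc.2)⟩

section Transfer

variable {P : Type v} [Group P]

/-- Pushing a chain through a homomorphism whose kernel lies in the bottom. -/
theorem SC.map_hom {B : Subgroup G} (φ : ↥B →* P) {C D : Subgroup G} {l : ℕ} (h : SC C D l)
    (hD : D ≤ B) (hk : ∀ x : ↥B, φ x = 1 → (x : G) ∈ C) :
    SC ((C.subgroupOf B).map φ) ((D.subgroupOf B).map φ) l := by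
  induction h with
  | refl => exact SC.refl
  | @step C₁ C₂ l h' hlt hn ih =>
    have hC₁ : C₁ ≤ B := hlt.le.trans hD
    refine SC.step (ih hC₁) (lt_of_le_of_ne ?_ ?_) ?_
    · exact Subgroup.map_mono (fun x hx => hlt.le hx)
    · intro he
      obtain ⟨c, hc, hcB⟩ := SetLike.exists_of_lt hlt
      have h1 : φ ⟨c, hD hc⟩ ∈ (C₁.subgroupOf B).map φ := by
        rw [he]
        exact ⟨⟨c, hD hc⟩, hc, rfl⟩
      obtain ⟨x, hx, hxe⟩ := h1
      have h2 : φ (x⁻¹ * ⟨c, hD hc⟩) = 1 := by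
        rw [map_mul, map_inv, hxe]; simp
      have h3 := hk _ h2
      have h4 : (x⁻¹ * ⟨c, hD hc⟩ : ↥B).1 ∈ C₁ := h'.le h3
      have h5 : (x : G) ∈ C₁ := hx
      have h6 : (x : G)⁻¹ * c ∈ C₁ := h4
      have := C₁.mul_mem h5 h6
      simp only [mul_inv_cancel_left] at this
      exact hcB this
    · rintro _ ⟨c, hc, rfl⟩ _ ⟨b, hb, rfl⟩
      refine ⟨c * b * c⁻¹, ?_, by simp⟩
      exact hn c.1 hc b.1 hb

/-- A chain below a group pushes to a chain in the range, with the kernel at the bottom. -/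
theorem SC.range_of_ker {C B : Subgroup G} {l : ℕ} (h : SC C B l) (φ : ↥B →* P)
    (hk : ∀ x : ↥B, φ x = 1 ↔ (x : G) ∈ C) : SC ⊥ φ.range l := by
  have h1 := h.map_hom φ le_rfl (fun x hx => (hk x).1 hx)
  have e1 : (C.subgroupOf B).map φ = ⊥ := by
    rw [Subgroup.map_eq_bot_iff]
    intro x hx
    exact (hk x).2 hx
  have e2 : (B.subgroupOf B).map φ = φ.range := by
    rw [Subgroup.subgroupOf_self]
    exact (MonoidHom.range_eq_map φ).symm
  rwa [e1, e2] at h1

/-- An injective homomorphism carries a chain to a chain of the range. -/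
theorem SC.range_of_injective {B : Subgroup G} {l : ℕ} (h : SC ⊥ B l) (φ : ↥B →* P)
    (hφ : Function.Injective φ) : SC ⊥ φ.range l := by
  refine h.range_of_ker φ (fun x => ⟨fun hx => ?_, fun hx => ?_⟩)
  · have : x = 1 := hφ (by rw [hx, map_one])
    simp [this]
  · have : x = 1 := Subtype.ext (by simpa using hx)
    simp [this]

/-- Splitting a chain along the kernel of a homomorphism defined on the top. -/
theorem SC.hom_split {A : Subgroup G} {l : ℕ} (h : SC ⊥ A l) (φ : ↥A →* P) :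
    ∃ a b, l ≤ a + b ∧ SC ⊥ (φ.ker.map A.subtype) a ∧ SC ⊥ φ.range b := by
  have hle : φ.ker.map A.subtype ≤ A := by
    rintro _ ⟨x, _, rfl⟩
    exact x.2
  obtain ⟨a, b, h1, h2, hl⟩ := h.split_bot hle (by
    rintro c hc _ ⟨x, hx, rfl⟩
    refine ⟨⟨c, hc⟩ * x * ⟨c, hc⟩⁻¹, ?_, by simp⟩
    have : φ x = 1 := hx
    simp [MonoidHom.mem_ker, map_mul, this])
  refine ⟨a, b, hl, h1, h2.range_of_ker φ (fun x => ⟨fun hx => ?_, fun hx => ?_⟩)⟩
  · exact ⟨x, hx, rfl⟩
  · obtain ⟨y, hy, hye⟩ := hx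
    have : y = x := Subtype.ext hye
    rw [← this]
    exact hy

end Transfer

section Counting

variable [Finite G]

theorem card_step_cardFactors {B C : Subgroup G} (hlt : B < C) :
    cardFactors (Nat.card B) + 1 ≤ cardFactors (Nat.card C) := by
  have hdvd : Nat.card B ∣ Nat.card C := Subgroup.card_dvd_of_le hlt.le
  obtain ⟨q, hq⟩ := hdvd
  have hB : Nat.card B ≠ 0 := Nat.card_pos.ne'
  have hC : Nat.card C ≠ 0 := Nat.card_pos.ne'
  have hq0 : q ≠ 0 := by
    rintro rfl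
    simp at hq
    exact hC hq
  have hq1 : q ≠ 1 := by
    rintro rfl
    have hle : Nat.card C ≤ Nat.card B := by simp [hq]
    exact hlt.ne (Subgroup.eq_of_le_of_card_ge hlt.le hle)
  rw [hq, cardFactors_mul hB hq0]
  have : 0 < cardFactors q := by
    rw [cardFactors_pos_iff_one_lt]
    omega
  omega

/-- The length of a chain from the identity is bounded by the number of prime factors of the order. -/
theorem SC.le_cardFactors {B : Subgroup G} {l : ℕ} (h : SC ⊥ B l) :
    l ≤ cardFactors (Nat.card B) := by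
  induction h with
  | refl => simp
  | step _ hlt _ ih =>
    have := card_step_cardFactors hlt
    omega

end Counting

/-- A simple group admits only chains of length at most one. -/
theorem SC.le_one_of_simple {T : Subgroup G} (hT : ∀ B, B ≤ T → NI B T → B = ⊥ ∨ B = T) {l : ℕ}
    (h : SC ⊥ T l) : l ≤ 1 := by
  cases h with
  | refl => omega
  | @step B _ l h' hlt hn =>
    rcases hT B hlt.le hn with rfl | rfl
    · have := h'.eq_zero_of_self
      omega
    · exact absurd hlt (lt_irrefl _)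

/-- Bound for the join of a subgroup and a commuting simple subgroup meeting it trivially. -/
theorem SC.sup_simple {M T : Subgroup G} (k : ℕ) (hM : ∀ l, SC ⊥ M l → l ≤ k)
    (hT : ∀ B, B ≤ T → NI B T → B = ⊥ ∨ B = T)
    (hMT : M ⊓ T = ⊥) (hcomm : ∀ x ∈ M, ∀ y ∈ T, x * y = y * x) {l : ℕ}
    (h : SC ⊥ (M ⊔ T) l) : l ≤ k + 1 := by
  have hnorm : ∀ b ∈ M ⊔ T, ∀ n ∈ T, b * n * b⁻¹ ∈ T := by
    intro b hb n hn
    have hcomm' : ∀ b ∈ M, ∀ n ∈ T, b * n * b⁻¹ ∈ T := by
      intro b hb n hn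
      rw [hcomm b hb n hn]
      simpa using hn
    obtain ⟨m, hm, t, ht, rfl⟩ := mem_sup_of_normalized hcomm' b hb
    have e : m * t * n * (m * t)⁻¹ = m * (t * n * t⁻¹) * m⁻¹ := by group
    rw [e]
    exact hcomm' m hm _ (T.mul_mem (T.mul_mem ht hn) (T.inv_mem ht))
  obtain ⟨a, b, h1, h2, hl⟩ := h.split_bot (le_sup_right) hnorm
  have ha := h1.le_one_of_simple hT
  have h3 := h2.inf_stab M (fun c hc => by
    have hcomm' : ∀ b ∈ T, ∀ n ∈ M, b * n * b⁻¹ ∈ M := by
      intro b hb n hn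
      rw [← hcomm n hn b hb]
      simpa using hn
    rw [sup_comm] at hc
    obtain ⟨t, ht, m, hm, rfl⟩ := mem_sup_of_normalized hcomm' c hc
    exact ⟨t, ht, m, hm, rfl⟩)
  have e1 : T ⊓ M = ⊥ := by rw [inf_comm]; exact hMT
  have e2 : (M ⊔ T) ⊓ M = M := inf_eq_right.mpr le_sup_left
  rw [e1, e2] at h3
  have := hM b h3
  omega

end Cfsg.Agent.Lib.SubnChain
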