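import Mathlib
import Cfsg.Prelude.Def_Solvable
import Cfsg.Agent.Lib.PCore
import Cfsg.Agent.Lib.PResid

set_option autoImplicit false

open Cfsg

namespace Cfsg.Agent.Lib.SubnormalizerCount

open Cfsg.Agent.Lib.PCore Cfsg.Agent.Lib.PResid

variable {G : Type*} [Group G]

/-- Every subgroup of a finite nilpotent group is subnormal. -/
theorem isSubnormal_of_isNilpotent [Finite G] [Group.IsNilpotent G] (H : Subgroup G) :
    H.IsSubnormal := by
  have hwf : WellFoundedGT (Subgroup G) := inferInstance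
  induction H using hwf.induction with
  | ind H ih =>
    by_cases h : H = ⊤
    · rw [h]; exact Subgroup.IsSubnormal.top
    · have h1 : H < Subgroup.normalizer (H : Set G) :=
        normalizerCondition_of_isNilpotent H (lt_top_iff_ne_top.mpr h)
      exact Subgroup.IsSubnormal.step H _ h1.le (ih _ h1)
        (Subgroup.normal_subgroupOf_of_le_normalizer le_rfl)

/-- The subnormalizer of `H`, described via `p`-subgroups. -/
def subN (p : ℕ) (H : Subgroup G) : Set G :=
  {g | ∃ R : Subgroup G, IsPGroup p R ∧ H ≤ R ∧ g ∈ Subgroup.normalizer (R : Set G)}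

theorem subnormal_iff [Finite G] {p : ℕ} [Fact p.Prime] {H : Subgroup G} (hH : IsPGroup p H)
    (g : G) : (H.subgroupOf (H ⊔ Subgroup.zpowers g)).IsSubnormal ↔ g ∈ subN p H := by
  set T := H ⊔ Subgroup.zpowers g with hT
  have hHT : H ≤ T := le_sup_left
  have hgT : g ∈ T := (le_sup_right : Subgroup.zpowers g ≤ T) (Subgroup.mem_zpowers g)
  constructor
  · intro hsn
    have hAp : IsPGroup p (H.subgroupOf T) :=
      hH.comap_of_injective T.subtype T.subtype_injective
    have hle := le_pCore_of_isSubnormal hsn hAp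
    refine ⟨(pCore p T).map T.subtype, (isPGroup_pCore p).map _, ?_, ?_⟩
    · intro x hx
      exact ⟨⟨x, hHT hx⟩, hle hx, rfl⟩
    · have h1 : (Subgroup.normalizer ((pCore p T : Subgroup T) : Set T)).map T.subtype ≤
          Subgroup.normalizer (((pCore p T).map T.subtype : Subgroup G) : Set G) :=
        Subgroup.le_normalizer_map _
      apply h1
      refine ⟨⟨g, hgT⟩, ?_, rfl⟩
      have : (pCore p T).Normal := inferInstance
      rw [Subgroup.normalizer_eq_top_iff.mpr this]
      trivial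
  · rintro ⟨R, hR, hHR, hg⟩
    have hTN : T ≤ Subgroup.normalizer (R : Set G) := by
      refine sup_le ?_ ?_
      · exact fun x hx => Subgroup.le_normalizer (hHR hx)
      · rw [Subgroup.zpowers_le]; exact hg
    have hN : (R.subgroupOf T).Normal := Subgroup.normal_subgroupOf_of_le_normalizer hTN
    have hRp : IsPGroup p (R.subgroupOf T) :=
      hR.comap_of_injective T.subtype T.subtype_injective
    haveI : Group.IsNilpotent (R.subgroupOf T) := hRp.isNilpotent
    exact Subgroup.IsSubnormal.trans (K := R.subgroupOf T)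
      (fun x hx => hHR hx) (isSubnormal_of_isNilpotent _) hN.isSubnormal



section comb
open Finset




theorem exists_weight {α : Type*} [PartialOrder α] [DecidableLE α] [DecidableEq α] (S : Finset α) :
    ∃ w : α → ℤ, ∀ T ∈ S, ∑ R ∈ S.filter (· ≤ T), w R = 1 := by
  induction S using Finset.strongInduction with
  | H S ih =>
    rcases S.eq_empty_or_nonempty with rfl | hne
    · exact ⟨fun _ => 0, by simp⟩
    obtain ⟨m, hm⟩ := S.exists_maximal hne
    have hmS : m ∈ S := hm.1
    have hmax : ∀ b ∈ S, m ≤ b → b = m := fun b hb hmb => le_antisymm (hm.2 hb hmb) hmb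
    obtain ⟨w', hw'⟩ := ih (S.erase m) (Finset.erase_ssubset hmS)
    refine ⟨Function.update w' m (1 - ∑ R ∈ (S.erase m).filter (· ≤ m), w' R), ?_⟩
    intro T hT
    by_cases hTm : T = m
    · subst hTm
      have h1 : S.filter (· ≤ T) = insert T ((S.erase T).filter (· ≤ T)) := by
        ext x
        simp only [mem_filter, mem_insert, mem_erase]
        constructor
        · rintro ⟨h1, h2⟩
          by_cases hx : x = T
          · exact Or.inl hx
          · exact Or.inr ⟨⟨hx, h1⟩, h2⟩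
        · rintro (rfl | ⟨⟨_, h1⟩, h2⟩)
          · exact ⟨hmS, le_rfl⟩
          · exact ⟨h1, h2⟩
      rw [h1, Finset.sum_insert (by simp)]
      rw [Function.update_self]
      have h2 : ∑ R ∈ (S.erase T).filter (· ≤ T), Function.update w' T (1 - ∑ R ∈ (S.erase T).filter (· ≤ T), w' R) R
          = ∑ R ∈ (S.erase T).filter (· ≤ T), w' R := by
        apply Finset.sum_congr rfl
        intro x hx
        rw [Function.update_of_ne]
        simp only [mem_filter, mem_erase] at hx
        exact hx.1.1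
      rw [h2]
      ring
    · have hT' : T ∈ S.erase m := mem_erase.mpr ⟨hTm, hT⟩
      have h1 : S.filter (· ≤ T) = (S.erase m).filter (· ≤ T) := by
        ext x
        simp only [mem_filter, mem_erase]
        constructor
        · rintro ⟨h1, h2⟩
          refine ⟨⟨?_, h1⟩, h2⟩
          rintro rfl
          exact hTm (hmax T hT h2)
        · rintro ⟨⟨_, h1⟩, h2⟩
          exact ⟨h1, h2⟩
      rw [h1, ← hw' T hT']
      apply Finset.sum_congr rfl
      intro x hx
      rw [Function.update_of_ne]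
      simp only [mem_filter, mem_erase] at hx
      exact hx.1.1

theorem cone_sum {α : Type*} [Lattice α] [Finite α] [DecidableEq α] [DecidableLE α] [DecidableLT α]
    (S Y : Finset α) (w : α → ℤ)
    (hw : ∀ T ∈ S, ∑ R ∈ S.filter (· ≤ T), w R = 1) (hY : Y ⊆ S)
    (hdown : ∀ U ∈ Y, ∀ R ∈ S, R ≤ U → R ∈ Y) (T₁ : α) (hT₁ : T₁ ∈ Y)
    (hjoin : ∀ R ∈ Y, R ⊔ T₁ ∈ Y) : ∑ R ∈ Y, w R = 1 := by
  set Y' := Y.filter (T₁ ≤ ·) with hY'
  set f : α → ℤ := fun U => ∑ R ∈ Y.filter (fun R => R ⊔ T₁ = U), w R with hf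
  have hT₁' : T₁ ∈ Y' := mem_filter.mpr ⟨hT₁, le_rfl⟩
  have fact1 : ∀ U ∈ Y', ∑ U' ∈ Y'.filter (· ≤ U), f U' = 1 := by
    intro U hU
    have hUY : U ∈ Y := (mem_filter.mp hU).1
    have h0 := hw U (hY hUY)
    rw [← h0]
    have hmaps : ∀ x ∈ S.filter (· ≤ U), x ⊔ T₁ ∈ Y'.filter (· ≤ U) := by
      intro x hx
      obtain ⟨hx1, hx2⟩ := mem_filter.mp hx
      have hxY : x ∈ Y := hdown U hUY x hx1 hx2
      refine mem_filter.mpr ⟨mem_filter.mpr ⟨hjoin x hxY, le_sup_right⟩, ?_⟩
      exact sup_le hx2 (mem_filter.mp hU).2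
    rw [← Finset.sum_fiberwise_of_maps_to hmaps]
    apply Finset.sum_congr rfl
    intro y hy
    obtain ⟨hy1, hy2⟩ := mem_filter.mp hy
    apply Finset.sum_congr _ (fun _ _ => rfl)
    ext x
    simp only [mem_filter]
    constructor
    · rintro ⟨hx1, hx2⟩
      have hxU : x ≤ U := by
        have : x ≤ x ⊔ T₁ := le_sup_left
        rw [hx2] at this
        exact this.trans hy2
      exact ⟨⟨hY hx1, hxU⟩, hx2⟩
    · rintro ⟨⟨hx1, hx2⟩, hx3⟩
      exact ⟨hdown U hUY x hx1 hx2, hx3⟩
  have fact2 : ∀ U, U ∈ Y' → f U = if U = T₁ then 1 else 0 := by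
    intro U
    induction U using (wellFounded_lt (α := α)).induction with
    | _ U ih =>
      intro hU
      have h1 := fact1 U hU
      have h2 : Y'.filter (· ≤ U) = insert U (Y'.filter (· < U)) := by
        ext x
        simp only [mem_filter, mem_insert]
        constructor
        · rintro ⟨h1, h2⟩
          rcases h2.lt_or_eq with h | h
          · exact Or.inr ⟨h1, h⟩
          · exact Or.inl h
        · rintro (rfl | ⟨h1, h2⟩)
          · exact ⟨hU, le_rfl⟩
          · exact ⟨h1, h2.le⟩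
      rw [h2, Finset.sum_insert (by simp)] at h1
      have h3 : ∑ U' ∈ Y'.filter (· < U), f U' =
          ∑ U' ∈ Y'.filter (· < U), if U' = T₁ then 1 else 0 := by
        apply Finset.sum_congr rfl
        intro x hx
        obtain ⟨hx1, hx2⟩ := mem_filter.mp hx
        exact ih x hx2 hx1
      rw [h3, Finset.sum_ite_eq'] at h1
      by_cases hUT : U = T₁
      · subst hUT
        simpa using h1
      · have hlt : T₁ < U := lt_of_le_of_ne (mem_filter.mp hU).2 (Ne.symm hUT)
        have hmem : T₁ ∈ Y'.filter (· < U) := mem_filter.mpr ⟨hT₁', hlt⟩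
        rw [if_pos hmem] at h1
        rw [if_neg hUT]
        omega
  have hmaps : ∀ x ∈ Y, x ⊔ T₁ ∈ Y' := fun x hx => mem_filter.mpr ⟨hjoin x hx, le_sup_right⟩
  rw [← Finset.sum_fiberwise_of_maps_to hmaps]
  have h3 : ∑ U ∈ Y', ∑ R ∈ Y.filter (fun R => R ⊔ T₁ = U), w R = ∑ U ∈ Y', if U = T₁ then 1 else 0 := by
    apply Finset.sum_congr rfl
    intro U hU
    exact fact2 U hU
  rw [h3, Finset.sum_ite_eq', if_pos hT₁']



end comb

section main

variable {G : Type*} [Group G]

theorem subN_mono {p : ℕ} {H R : Subgroup G} (h : H ≤ R) {g : G} (hg : g ∈ subN p R) :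
    g ∈ subN p H := by
  obtain ⟨R₂, h1, h2, h3⟩ := hg
  exact ⟨R₂, h1, h.trans h2, h3⟩

theorem lt_inf_normalizer [Finite G] {p : ℕ} [Fact p.Prime] {H L : Subgroup G}
    (hL : IsPGroup p L) (h : H < L) : H < L ⊓ Subgroup.normalizer (H : Set G) := by
  haveI : Group.IsNilpotent L := hL.isNilpotent
  have h1 : H.subgroupOf L ≠ ⊤ := by
    intro h2
    rw [Subgroup.subgroupOf_eq_top] at h2
    exact absurd h2 (not_le_of_gt h)
  have h2 := normalizerCondition_of_isNilpotent (G := L) (H.subgroupOf L) (lt_top_iff_ne_top.mpr h1)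
  obtain ⟨x, hx1, hx2⟩ := SetLike.exists_of_lt h2
  refine lt_of_le_of_ne (le_inf h.le Subgroup.le_normalizer) ?_
  intro h3
  apply hx2
  have h4 : (x : G) ∈ L ⊓ Subgroup.normalizer (H : Set G) := by
    refine ⟨x.2, Subgroup.mem_normalizer_iff.mpr ?_⟩
    intro y
    rw [Subgroup.mem_normalizer_iff] at hx1
    constructor
    · intro hy
      have hyL : y ∈ L := h.le hy
      have h5 := (hx1 ⟨y, hyL⟩).1 hy
      exact h5
    · intro hy
      have hyL' : (x : G) * y * (x : G)⁻¹ ∈ L := h.le hy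
      have hyL : y ∈ L := by
        have h6 : y = (x : G)⁻¹ * ((x : G) * y * (x : G)⁻¹) * (x : G) := by group
        rw [h6]
        exact L.mul_mem (L.mul_mem (L.inv_mem x.2) hyL') x.2
      exact (hx1 ⟨y, hyL⟩).2 hy
  rw [← h3] at h4
  exact h4

/-- The counting claim. -/
def CountClaim (p : ℕ) {X : Type*} [Group X] (H : Subgroup X) : Prop :=
  Nat.card (subN p H) * Nat.card (Sylow p X) = Nat.card {Q : Sylow p X // H ≤ (Q : Subgroup X)} * Nat.card X

theorem countClaim_of_normal [Finite G] {p : ℕ} [Fact p.Prime] {H : Subgroup G} (hH : IsPGroup p H)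
    (hN : H.Normal) : CountClaim p H := by
  unfold CountClaim
  have h1 : subN p H = Set.univ := by
    ext g
    simp only [Set.mem_univ, iff_true]
    refine ⟨H, hH, le_rfl, ?_⟩
    rw [Subgroup.normalizer_eq_top_iff.mpr hN]
    trivial
  have h2 : Nat.card {Q : Sylow p G // H ≤ (Q : Subgroup G)} = Nat.card (Sylow p G) := by
    apply Nat.card_congr
    apply Equiv.subtypeUnivEquiv
    intro Q
    exact hH.le_sylow_of_normal Q
  rw [h1, h2, Nat.card_congr (Equiv.Set.univ G), mul_comm]

theorem countClaim_of_sylow [Finite G] {p : ℕ} [Fact p.Prime] (Q₀ : Sylow p G) :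
    CountClaim p (Q₀ : Subgroup G) := by
  unfold CountClaim
  have h1 : subN p (Q₀ : Subgroup G) = (Subgroup.normalizer ((Q₀ : Subgroup G) : Set G) : Set G) := by
    ext g
    constructor
    · rintro ⟨R, hR, hHR, hg⟩
      have : R = Q₀ := Q₀.is_maximal' hR hHR
      rw [this] at hg
      exact hg
    · intro hg
      exact ⟨Q₀, Q₀.isPGroup', le_rfl, hg⟩
  have h2 : Nat.card {Q : Sylow p G // (Q₀ : Subgroup G) ≤ (Q : Subgroup G)} = 1 := by
    rw [Nat.card_eq_one_iff_unique]
    refine ⟨⟨?_⟩, ⟨⟨Q₀, le_rfl⟩⟩⟩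
    rintro ⟨Q, hQ⟩ ⟨Q', hQ'⟩
    apply Subtype.ext
    apply Sylow.ext
    rw [Q₀.is_maximal' Q.isPGroup' hQ, Q₀.is_maximal' Q'.isPGroup' hQ']
  rw [h1, h2, one_mul, Sylow.card_eq_index_normalizer Q₀]
  have := Subgroup.index_mul_card (Subgroup.normalizer ((Q₀ : Subgroup G) : Set G))
  rw [mul_comm] 
  exact this

theorem card_subtype_int {α : Type*} [Fintype α] (P : α → Prop) [DecidablePred P] :
    (Nat.card {x // P x} : ℤ) = ∑ x, if P x then 1 else 0 := by
  rw [Nat.card_eq_fintype_card, Fintype.card_subtype, Finset.sum_boole]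

theorem subN_subgroupOf {p : ℕ} [Fact p.Prime] {N R : Subgroup G} (hRN : R ≤ N) (g : N) :
    (g : G) ∈ subN p R ↔ g ∈ subN p (R.subgroupOf N) := by
  constructor
  · rintro ⟨R₂, h1, h2, h3⟩
    refine ⟨R₂.subgroupOf N, h1.comap_of_injective N.subtype N.subtype_injective,
      fun x hx => h2 hx, ?_⟩
    rw [Subgroup.mem_normalizer_iff] at h3 ⊢
    intro y
    exact h3 y
  · rintro ⟨R₃, h1, h2, h3⟩
    refine ⟨R₃.map N.subtype, h1.map _, ?_, ?_⟩
    · intro x hx
      exact ⟨⟨x, hRN hx⟩, h2 hx, rfl⟩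
    · have h4 : (Subgroup.normalizer ((R₃ : Subgroup N) : Set N)).map N.subtype ≤
          Subgroup.normalizer ((R₃.map N.subtype : Subgroup G) : Set G) :=
        Subgroup.le_normalizer_map _
      exact h4 ⟨g, h3, rfl⟩

/-- The minimal `p`-subgroup above `H` normalized by `g`. -/
theorem exists_min_of_mem_subN [Finite G] {p : ℕ} [Fact p.Prime] {H : Subgroup G} {g : G}
    (hg : g ∈ subN p H) :
    ∃ L : Subgroup G, IsPGroup p L ∧ H ≤ L ∧ g ∈ Subgroup.normalizer (L : Set G) ∧
      ∀ R : Subgroup G, IsPGroup p R → H ≤ R → g ∈ Subgroup.normalizer (R : Set G) → L ≤ R := by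
  obtain ⟨R₀, h0, h1, h2⟩ := hg
  set F : Set (Subgroup G) := {R | IsPGroup p R ∧ H ≤ R ∧ g ∈ Subgroup.normalizer (R : Set G)} with hF
  refine ⟨sInf F, ?_, ?_, ?_, ?_⟩
  · exact h0.to_le (sInf_le ⟨h0, h1, h2⟩)
  · exact le_sInf fun R hR => hR.2.1
  · rw [Subgroup.mem_normalizer_iff]
    intro y
    simp only [Subgroup.mem_sInf]
    constructor
    · intro hy R hR
      have := hR.2.2
      rw [Subgroup.mem_normalizer_iff] at this
      exact (this y).1 (hy R hR)
    · intro hy R hR
      have := hR.2.2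
      rw [Subgroup.mem_normalizer_iff] at this
      exact (this y).2 (hy R hR)
  · intro R h3 h4 h5
    exact sInf_le ⟨h3, h4, h5⟩

theorem sum_mul_ite {α : Type*} (S : Finset α) (w : α → ℤ) (P : α → Prop) [DecidablePred P] :
    ∑ R ∈ S, w R * (if P R then 1 else 0) = ∑ R ∈ S.filter P, w R := by
  rw [Finset.sum_filter]
  apply Finset.sum_congr rfl
  intro R _
  split_ifs <;> simp

open Finset in
theorem countClaim_step [Finite G] {p : ℕ} [Fact p.Prime] {H : Subgroup G} (hH : IsPGroup p H)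
    (hS : ∀ Q : Sylow p G, H ≠ Q)
    (IH1 : ∀ R, H < R → IsPGroup p R → CountClaim p R)
    (IH2 : ∀ R : Subgroup (Subgroup.normalizer (H : Set G)), IsPGroup p R → CountClaim p R) :
    CountClaim p H := by
  classical
  haveI := Fintype.ofFinite G
  haveI := Fintype.ofFinite (Sylow p G)
  haveI := Fintype.ofFinite (Subgroup G)
  set N := Subgroup.normalizer (H : Set G) with hNdef
  haveI := Fintype.ofFinite (Sylow p N)
  haveI := Fintype.ofFinite N
  set S : Finset (Subgroup G) := univ.filter (fun R => H < R ∧ R ≤ N ∧ IsPGroup p R) with hSdef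
  have hSmem : ∀ R, R ∈ S ↔ H < R ∧ R ≤ N ∧ IsPGroup p R := by
    intro R; simp [hSdef]
  obtain ⟨w, hw⟩ := exists_weight S
  have hw0 : ∀ T₀ : Subgroup G, IsPGroup p T₀ → H < T₀ → ∑ R ∈ S.filter (· ≤ T₀), w R = 1 := by
    intro T₀ h1 h2
    have h3 : T₀ ⊓ N ∈ S := (hSmem _).2 ⟨lt_inf_normalizer h1 h2, inf_le_right, h1.to_le inf_le_left⟩
    rw [← hw _ h3]
    apply Finset.sum_congr _ (fun _ _ => rfl)
    ext R
    simp only [mem_filter, le_inf_iff]
    constructor
    · rintro ⟨h4, h5⟩
      exact ⟨h4, h5, ((hSmem R).1 h4).2.1⟩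
    · rintro ⟨h4, h5, _⟩
      exact ⟨h4, h5⟩
  -- Step A
  have hA : ∑ R ∈ S, w R * (Nat.card {Q : Sylow p G // R ≤ (Q : Subgroup G)} : ℤ) =
      (Nat.card {Q : Sylow p G // H ≤ (Q : Subgroup G)} : ℤ) := by
    rw [card_subtype_int]
    simp_rw [card_subtype_int, Finset.mul_sum]
    rw [Finset.sum_comm]
    apply Finset.sum_congr rfl
    intro Q _
    by_cases hQ : H ≤ (Q : Subgroup G)
    · rw [if_pos hQ]
      have h1 := hw0 Q Q.isPGroup' (lt_of_le_of_ne hQ (hS Q))
      rw [sum_mul_ite S w (fun R => R ≤ (Q : Subgroup G)), h1]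
    · rw [if_neg hQ]
      apply Finset.sum_eq_zero
      intro R hR
      have h2 : ¬ R ≤ (Q : Subgroup G) := fun h3 => hQ (((hSmem R).1 hR).1.le.trans h3)
      rw [if_neg h2, mul_zero]
  -- W
  set W : G → ℤ := fun g => ∑ R ∈ S.filter (fun R => g ∈ subN p R), w R with hW
  have hC : ∑ R ∈ S, w R * (Nat.card (subN p R) : ℤ) = ∑ g, W g := by
    have h1 : ∀ R : Subgroup G, (Nat.card (subN p R) : ℤ) = ∑ g, if g ∈ subN p R then 1 else 0 :=
      fun R => card_subtype_int (fun g => g ∈ subN p R)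
    simp_rw [h1, Finset.mul_sum]
    rw [Finset.sum_comm]
    apply Finset.sum_congr rfl
    intro g _
    rw [hW]
    exact sum_mul_ite S w (fun R => g ∈ subN p R)
  have hD0 : ∀ g, g ∉ subN p H → W g = 0 := by
    intro g hg
    apply Finset.sum_eq_zero
    intro R hR
    exfalso
    obtain ⟨h1, h2⟩ := mem_filter.mp hR
    exact hg (subN_mono ((hSmem R).1 h1).1.le h2)
  have hD1 : ∀ g, g ∈ subN p H → g ∉ N → W g = 1 := by
    intro g hg hgN
    obtain ⟨L, hL1, hL2, hL3, hL4⟩ := exists_min_of_mem_subN hg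
    have hHL : H < L := by
      refine lt_of_le_of_ne hL2 ?_
      rintro rfl
      exact hgN hL3
    have hT1 : L ⊓ N ∈ S.filter (fun R => g ∈ subN p R) := by
      refine mem_filter.mpr ⟨(hSmem _).2 ⟨lt_inf_normalizer hL1 hHL, inf_le_right,
        hL1.to_le inf_le_left⟩, ⟨L, hL1, inf_le_left, hL3⟩⟩
    refine cone_sum S (S.filter (fun R => g ∈ subN p R)) w hw (filter_subset _ _) ?_ (L ⊓ N) hT1 ?_
    · intro U hU R hR hRU
      exact mem_filter.mpr ⟨hR, subN_mono hRU (mem_filter.mp hU).2⟩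
    · intro R hR
      obtain ⟨hR1, R₂, h1, h2, h3⟩ := mem_filter.mp hR
      obtain ⟨h4, h5, h6⟩ := (hSmem R).1 hR1
      have h7 : L ≤ R₂ := hL4 R₂ h1 (h4.le.trans h2) h3
      have h8 : R ⊔ (L ⊓ N) ≤ R₂ := sup_le h2 (inf_le_left.trans h7)
      refine mem_filter.mpr ⟨(hSmem _).2 ⟨lt_of_lt_of_le h4 le_sup_left,
        sup_le h5 inf_le_right, h1.to_le h8⟩, ⟨R₂, h1, h8, h3⟩⟩
  -- Step E
  have hE : ∑ g : N, W (g : G) = (Nat.card N : ℤ) := by
    have h1 : ∀ g : N, W (g : G) =
        ∑ R ∈ S, w R * (if g ∈ subN p (R.subgroupOf N) then 1 else 0) := by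
      intro g
      rw [hW]
      simp only
      rw [← sum_mul_ite S w (fun R => (g : G) ∈ subN p R)]
      apply Finset.sum_congr rfl
      intro R hR
      have h2 := subN_subgroupOf (p := p) ((hSmem R).1 hR).2.1 g
      by_cases h3 : (g : G) ∈ subN p R
      · rw [if_pos h3, if_pos (h2.1 h3)]
      · rw [if_neg h3, if_neg (fun h4 => h3 (h2.2 h4))]
    simp_rw [h1]
    rw [Finset.sum_comm]
    have h2 : ∀ R ∈ S, ∑ g : N, w R * (if g ∈ subN p (R.subgroupOf N) then (1 : ℤ) else 0) =
        w R * (Nat.card (subN p (R.subgroupOf N)) : ℤ) := by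
      intro R _
      rw [← Finset.mul_sum]
      congr 1
      exact (card_subtype_int (fun g => g ∈ subN p (R.subgroupOf N))).symm
    rw [Finset.sum_congr rfl h2]
    have hn' : (Nat.card (Sylow p N) : ℤ) ≠ 0 := by
      exact_mod_cast (Nat.card_pos (α := Sylow p N)).ne'
    apply mul_left_cancel₀ hn'
    rw [Finset.mul_sum]
    have h3 : ∀ R ∈ S, (Nat.card (Sylow p N) : ℤ) * (w R * (Nat.card (subN p (R.subgroupOf N)) : ℤ)) =
        (Nat.card N : ℤ) * (w R * (Nat.card {Q : Sylow p N // R.subgroupOf N ≤ (Q : Subgroup N)} : ℤ)) := by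
      intro R hR
      have h4 : IsPGroup p (R.subgroupOf N) :=
        ((hSmem R).1 hR).2.2.comap_of_injective N.subtype N.subtype_injective
      have h5 := IH2 _ h4
      unfold CountClaim at h5
      have h6 : (Nat.card (subN p (R.subgroupOf N)) : ℤ) * (Nat.card (Sylow p N) : ℤ) =
          (Nat.card {Q : Sylow p N // R.subgroupOf N ≤ (Q : Subgroup N)} : ℤ) * (Nat.card N : ℤ) := by
        exact_mod_cast h5
      linear_combination (w R) * h6
    rw [Finset.sum_congr rfl h3, ← Finset.mul_sum, mul_comm]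
    congr 1
    simp_rw [card_subtype_int (fun Q : Sylow p N => _ ≤ (Q : Subgroup N)), Finset.mul_sum]
    rw [Finset.sum_comm]
    have h7 : (Nat.card (Sylow p N) : ℤ) = ∑ _Q : Sylow p N, 1 := by
      simp [Nat.card_eq_fintype_card]
    rw [h7]
    apply Finset.sum_congr rfl
    intro Q₁ _
    -- the subgroup `T₀`
    have hT₀p : IsPGroup p ((Q₁ : Subgroup N).map N.subtype) := Q₁.isPGroup'.map _
    have hH' : IsPGroup p (H.subgroupOf N) := hH.comap_of_injective N.subtype N.subtype_injective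
    haveI hH'n : (H.subgroupOf N).Normal := Subgroup.normal_subgroupOf_of_le_normalizer le_rfl
    have hH'Q : H.subgroupOf N ≤ (Q₁ : Subgroup N) := hH'.le_sylow_of_normal Q₁
    have hHT : H ≤ (Q₁ : Subgroup N).map N.subtype := by
      intro x hx
      exact ⟨⟨x, Subgroup.le_normalizer hx⟩, hH'Q hx, rfl⟩
    have hHT' : H ≠ (Q₁ : Subgroup N).map N.subtype := by
      intro heq
      have hQeq : (Q₁ : Subgroup N) = H.subgroupOf N := by
        apply le_antisymm _ hH'Q
        intro x hx
        have : (x : G) ∈ (Q₁ : Subgroup N).map N.subtype := ⟨x, hx, rfl⟩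
        rw [← heq] at this
        exact this
      obtain ⟨P, hP⟩ := hH.exists_le_sylow
      have hHP : H < P := lt_of_le_of_ne hP (hS P)
      have hA := lt_inf_normalizer P.isPGroup' hHP
      obtain ⟨x, hx1, hx2⟩ := SetLike.exists_of_lt hA
      have hA' : IsPGroup p (((P : Subgroup G) ⊓ N).subgroupOf N) :=
        (P.isPGroup'.to_le inf_le_left).comap_of_injective N.subtype N.subtype_injective
      obtain ⟨Q₂, hQ₂⟩ := hA'.exists_le_sylow
      have hQ₁n : (Q₁ : Subgroup N).Normal := by rw [hQeq]; exact hH'n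
      haveI := Sylow.unique_of_normal Q₁ hQ₁n
      have hQ12 : Q₂ = Q₁ := Subsingleton.elim _ _
      have hx3 : (⟨x, hx1.2⟩ : N) ∈ (Q₂ : Subgroup N) := hQ₂ hx1
      rw [hQ12, hQeq] at hx3
      exact hx2 hx3
    have h8 := hw0 _ hT₀p (lt_of_le_of_ne hHT hHT')
    refine Eq.trans ?_ h8
    rw [← sum_mul_ite S w (fun R => R ≤ (Q₁ : Subgroup N).map N.subtype)]
    apply Finset.sum_congr rfl
    intro R hR
    have hRN := ((hSmem R).1 hR).2.1
    have h9 : R ≤ (Q₁ : Subgroup N).map N.subtype ↔ R.subgroupOf N ≤ (Q₁ : Subgroup N) := by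
      constructor
      · intro h x hx
        obtain ⟨y, hy, hxy⟩ := h hx
        have : y = x := Subtype.ext hxy
        rwa [← this]
      · intro h x hx
        exact ⟨⟨x, hRN hx⟩, h hx, rfl⟩
    by_cases h10 : R.subgroupOf N ≤ (Q₁ : Subgroup N)
    · rw [if_pos h10, if_pos (h9.2 h10)]
    · rw [if_neg h10, if_neg (fun h => h10 (h9.1 h))]
  -- combination
  have hF : ∑ g, W g = (Nat.card (subN p H) : ℤ) := by
    have h1 : (Nat.card (subN p H) : ℤ) = ∑ g, if g ∈ subN p H then 1 else 0 :=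
      card_subtype_int (fun g => g ∈ subN p H)
    rw [h1, ← Finset.sum_filter_add_sum_filter_not univ (· ∈ N) W,
      ← Finset.sum_filter_add_sum_filter_not univ (· ∈ N) (fun g => if g ∈ subN p H then (1 : ℤ) else 0)]
    congr 1
    · have h2 : ∑ g ∈ univ.filter (· ∈ N), W g = ∑ g : N, W (g : G) := by
        apply Finset.sum_subtype
        intro x
        simp
      have h3 : ∑ g ∈ univ.filter (· ∈ N), (if g ∈ subN p H then (1 : ℤ) else 0) = (Nat.card N : ℤ) := by
        have h4 : ∑ g ∈ univ.filter (· ∈ N), (if g ∈ subN p H then (1 : ℤ) else 0) =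
            ∑ g ∈ univ.filter (· ∈ N), 1 := by
          apply Finset.sum_congr rfl
          intro g hg
          have : g ∈ N := (mem_filter.mp hg).2
          rw [if_pos ⟨H, hH, le_rfl, this⟩]
        rw [h4]
        simp only [sum_const, nsmul_eq_mul, mul_one]
        rw [Nat.card_eq_fintype_card, Fintype.card_subtype]
      rw [h2, h3, hE]
    · apply Finset.sum_congr rfl
      intro g hg
      have hg' : g ∉ N := (mem_filter.mp hg).2
      by_cases h4 : g ∈ subN p H
      · rw [if_pos h4, hD1 g h4 hg']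
      · rw [if_neg h4, hD0 g h4]
  unfold CountClaim
  have hfin : (Nat.card (subN p H) : ℤ) * (Nat.card (Sylow p G) : ℤ) =
      (Nat.card {Q : Sylow p G // H ≤ (Q : Subgroup G)} : ℤ) * (Nat.card G : ℤ) := by
    rw [← hF, ← hC, ← hA, Finset.sum_mul, Finset.sum_mul]
    apply Finset.sum_congr rfl
    intro R hR
    obtain ⟨h1, h2, h3⟩ := (hSmem R).1 hR
    have h5 := IH1 R h1 h3
    unfold CountClaim at h5
    have h6 : (Nat.card (subN p R) : ℤ) * (Nat.card (Sylow p G) : ℤ) =
        (Nat.card {Q : Sylow p G // R ≤ (Q : Subgroup G)} : ℤ) * (Nat.card G : ℤ) := by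
      exact_mod_cast h5
    linear_combination (w R) * h6
  exact_mod_cast hfin

universe u in
/-- The main counting theorem. -/
theorem countClaim {p : ℕ} [Fact p.Prime] : ∀ (n : ℕ) (X : Type u) [Group X] [Finite X],
    Nat.card X = n → ∀ H : Subgroup X, IsPGroup p H → CountClaim p H := by
  intro n
  induction n using Nat.strong_induction_on with
  | _ n ih =>
    intro X _ _ hn H
    have hwf : WellFoundedGT (Subgroup X) := inferInstance
    induction H using hwf.induction with
    | ind H ih2 =>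
      intro hH
      by_cases hN : H.Normal
      · exact countClaim_of_normal hH hN
      by_cases hS : ∃ Q : Sylow p X, H = Q
      · obtain ⟨Q, rfl⟩ := hS
        exact countClaim_of_sylow Q
      push_neg at hS
      refine countClaim_step hH hS (fun R h1 h2 => ih2 R h1 h2) ?_
      intro R hR
      refine ih (Nat.card (Subgroup.normalizer (H : Set X))) ?_ _ rfl R hR
      rw [← hn]
      have h1 : Subgroup.normalizer (H : Set X) ≠ ⊤ := by
        intro h2
        exact hN (Subgroup.normalizer_eq_top_iff.mp h2)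
      have h2 := Subgroup.index_mul_card (Subgroup.normalizer (H : Set X))
      have h3 := Subgroup.one_lt_index_of_ne_top h1
      have h4 : 0 < Nat.card (Subgroup.normalizer (H : Set X)) := Nat.card_pos
      nlinarith

end main


end Cfsg.Agent.Lib.SubnormalizerCount
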