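import Mathlib
import Cfsg.Agent.Lib.SylowCommute2
import Cfsg.Agent.Lib.GlaubCorr
import Cfsg.Agent.Lib.CharTable

/-!
# Commuting Sylow subgroups: `N(P) ≤ N(Q)` under a degree hypothesis

Let `G` be `p`-solvable and `q`-solvable, with commuting Sylow subgroups `P`, `Q`.  If every irreducible
character of degree prime to `p` has degree prime to `q`, then `N_G(P)` normalizes `Q`.
-/

set_option autoImplicit false
set_option linter.unusedSectionVars false
set_option linter.unusedVariables false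
set_option linter.style.haveILetI false

open Cfsg Cfsg.Agent.Lib Cfsg.Agent.Lib.CharBasic Cfsg.Agent.Lib.CharInd Cfsg.Agent.Lib.CharKernel
open Cfsg.Agent.Lib.CharTable Cfsg.Agent.Lib.SylowCommute Cfsg.Agent.Lib.SylowCommute2
open Cfsg.Agent.Lib.GlaubCorr
open scoped ComplexConjugate Pointwise

namespace Cfsg.Agent.Lib.SylowCommute3

universe u

/-- An automorphism fixing all irreducible characters fixes all classes (Brauer). -/
theorem isConj_of_aut_fixes_irr {C : Type*} [Group C] [Finite C] (α : MulAut C)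
    (h : ∀ θ : C → ℂ, IsIrrCharacter C θ → ∀ c, θ (α c) = θ c) (n : C) : IsConj (α n) n := by
  classical
  letI : Fintype C := Fintype.ofFinite _
  letI : Fintype (ConjClasses C) := Fintype.ofFinite _
  let σ : IrrCharacter C → IrrCharacter C := fun χ =>
    ⟨(χ : C → ℂ) ∘ α, isIrrCharacter_comp_of_surjective α.toMonoidHom α.surjective χ.2⟩
  have key := card_fixed_irr_eq_card_fixed_class σ (ConjClasses.map α.toMonoidHom) (by
    intro χ g
    show (χ : C → ℂ) (α g) = _
    have : ConjClasses.map α.toMonoidHom (ConjClasses.mk g) = ConjClasses.mk (α g) := rfl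
    rw [this]
    exact (char_eq_of_isConj (IsIrrCharacter.isCharacter χ.2) (isConj_out_mk (α g))).symm)
  have h1 : ∀ χ : IrrCharacter C, σ χ = χ := by
    intro χ
    apply Subtype.ext
    funext c
    exact h χ χ.2 c
  have h2 : Nat.card {χ : IrrCharacter C // σ χ = χ} = Nat.card (IrrCharacter C) :=
    Nat.card_congr (Equiv.subtypeUnivEquiv h1)
  rw [h2, card_irr_eq_card_conjClasses] at key
  have h3 : ∀ D : ConjClasses C, ConjClasses.map α.toMonoidHom D = D := by
    by_contra hc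
    push Not at hc
    obtain ⟨C₀, hC₀⟩ := hc
    have := Fintype.card_subtype_lt (p := fun D => ConjClasses.map α.toMonoidHom D = D) hC₀
    rw [Nat.card_eq_fintype_card, Nat.card_eq_fintype_card] at key
    omega
  have h4 := h3 (ConjClasses.mk n)
  have h5 : ConjClasses.map α.toMonoidHom (ConjClasses.mk n) = ConjClasses.mk (α n) := rfl
  rw [h5] at h4
  exact ConjClasses.mk_eq_mk_iff_isConj.mp h4

section Key

variable {X : Type u} [Group X] [Finite X] {p q : ℕ} [hp : Fact p.Prime] [hq : Fact q.Prime]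

/-- The key step: `C_N(P)` centralizes `Q`. -/
theorem commute_centralizer (hpq : p ≠ q) (hps : IsPSolvable p X) (hdeg : DegImp p q X)
    (N : Subgroup X) [hN : N.Normal] (hNp : ¬ p ∣ Nat.card N) (hNq : ¬ q ∣ Nat.card N)
    (P : Sylow p X) (Q : Sylow q X)
    (hc : ∀ x ∈ (P : Subgroup X), ∀ y ∈ (Q : Subgroup X), x * y = y * x)
    (hIH : ∀ g : X, (∀ x ∈ (P : Subgroup X), g * x * g⁻¹ ∈ (P : Subgroup X)) →
      ∀ y ∈ (Q : Subgroup X), ∃ y' ∈ (Q : Subgroup X), ∃ m ∈ N, g * y * g⁻¹ = y' * m) :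
    ∀ c ∈ N, (∀ x ∈ (P : Subgroup X), c * x = x * c) → ∀ y ∈ (Q : Subgroup X), c * y = y * c := by
  classical
  letI : Fintype X := Fintype.ofFinite _
  let C₀ : Subgroup X := N ⊓ Subgroup.centralizer ((P : Subgroup X) : Set X)
  have hCN : C₀ ≤ N := inf_le_left
  letI : Fintype N := Fintype.ofFinite _
  letI : Fintype C₀ := Fintype.ofFinite _
  have hnorm : ∀ s ∈ (P : Subgroup X), ∀ g ∈ N, s * g * s⁻¹ ∈ N := fun s _ g hg => hN.conj_mem g hg s
  let A : Subgroup (MulAut N) := (conjHom N (P : Subgroup X) hnorm).range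
  have hAp : IsPGroup p A :=
    IsPGroup.of_surjective P.isPGroup' (conjHom N (P : Subgroup X) hnorm).rangeRestrict
      (conjHom N (P : Subgroup X) hnorm).rangeRestrict_surjective
  have hcop : (Nat.card N).Coprime (Nat.card A) := by
    obtain ⟨a, ha⟩ := IsPGroup.iff_card.mp P.isPGroup'
    have ha' : Nat.card (P : Subgroup X) = p ^ a := ha
    have h1 : Nat.card A ∣ p ^ a := ha' ▸ card_range_conjHom_dvd N (P : Subgroup X) hnorm
    refine Nat.Coprime.coprime_dvd_right h1 (Nat.Coprime.pow_right _ ?_)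
    exact ((Nat.Prime.coprime_iff_not_dvd hp.out).mpr hNp).symm
  have hι : IsFixModel A (Subgroup.inclusion hCN) :=
    fixModel_inclusion N (P : Subgroup X) C₀ hnorm rfl hCN
  obtain ⟨π, hπ, hspec⟩ := corr_pgroup p _ N A rfl hAp hcop C₀ (Subgroup.inclusion hCN) hι
  have hQC : ∀ y ∈ (Q : Subgroup X), ∀ c ∈ C₀, y * c * y⁻¹ ∈ C₀ := by
    intro y hy c hc'
    refine Subgroup.mem_inf.mpr ⟨hN.conj_mem c hc'.1 y, ?_⟩
    rw [Subgroup.mem_centralizer_iff]
    intro x hx
    have h1 := Subgroup.mem_centralizer_iff.mp hc'.2 x hx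
    have h2 := hc x hx y hy
    have h3 := hc x hx y⁻¹ (Subgroup.inv_mem _ hy)
    calc x * (y * c * y⁻¹) = (x * y) * c * y⁻¹ := by group
      _ = y * (x * c) * y⁻¹ := by rw [h2]; group
      _ = y * (c * x) * y⁻¹ := by rw [h1]
      _ = y * c * (x * y⁻¹) := by group
      _ = y * c * (y⁻¹ * x) := by rw [h3]
      _ = y * c * y⁻¹ * x := by group
  -- every irreducible character of `C₀` is fixed by `Q`
  have hfix : ∀ (y : Q.toSubgroup) (θ : C₀ → ℂ), IsIrrCharacter C₀ θ →
      ∀ c, θ (conjHom C₀ Q.toSubgroup hQC y c) = θ c := by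
    intro y θ hθ c
    obtain ⟨ξ, hξ⟩ := hπ.2 ⟨θ, hθ⟩
    have hinvP : ∀ x ∈ (P : Subgroup X), ∀ n : N,
        (ξ.1 : N → ℂ) ⟨x * n * x⁻¹, hN.conj_mem _ n.2 x⟩ = (ξ.1 : N → ℂ) n := by
      intro x hx n
      exact (invA_conjHom_iff N (P : Subgroup X) hnorm (ξ.1 : N → ℂ)).mp ξ.2 x hx n _ rfl
    obtain ⟨χ, hχp, hcon⟩ := exists_pprime_over N hNp P ξ.1.2 hinvP
    have hχq := hdeg χ hχp
    have hTq := not_dvd_inertia_index N ξ.1.2 χ hχq hcon
    set T := DegreeDiv.inertia N hN (ξ.1 : N → ℂ) with hT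
    obtain ⟨S, hS⟩ := exists_sylow_le_of_not_dvd_index (q := q) T hTq
    have hPT : (P : Subgroup X) ≤ T := fun x hx n => hinvP x hx n
    obtain ⟨n, hnP, hnQ⟩ := exists_normalizer_conj_le hpq hps P Q hc T hPT S hS
    obtain ⟨n₁, hn₁, hn₁Q⟩ := exists_mem_normal_conj N Q n (hIH n hnP)
    have hNT : N ≤ T := DegreeDiv.le_inertia N hN (IsIrrCharacter.isCharacter ξ.1.2)
    have hQT : (Q : Subgroup X) ≤ T := by
      intro z hz
      have h1 := hnQ _ (hn₁Q z hz)
      have h2 : n * (n⁻¹ * (n₁ * z * n₁⁻¹) * n) * n⁻¹ = n₁ * z * n₁⁻¹ := by group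
      rw [h2] at h1
      have h3 := T.mul_mem (T.mul_mem (T.inv_mem (hNT hn₁)) h1) (hNT hn₁)
      have h4 : n₁⁻¹ * (n₁ * z * n₁⁻¹) * n₁ = z := by group
      rwa [h4] at h3
    -- the conjugate of `θ`
    let α := conjHom C₀ Q.toSubgroup hQC y
    let ι := Subgroup.inclusion hCN
    let θ' : IrrCharacter C₀ := ⟨θ ∘ α, isIrrCharacter_comp_of_surjective α.toMonoidHom α.surjective hθ⟩
    have hξι : (fun c => (ξ.1 : N → ℂ) (ι c)) ∘ α = fun c => (ξ.1 : N → ℂ) (ι c) := by
      funext c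
      exact hQT y.2 (ι c)
    have h1 : classInner (fun c => (ξ.1 : N → ℂ) (ι c)) (θ' : C₀ → ℂ) =
        classInner (fun c => (ξ.1 : N → ℂ) (ι c)) θ := by
      have h2 := classInner_equiv α (fun c => (ξ.1 : N → ℂ) (ι c)) θ
      rw [hξι] at h2
      exact h2
    obtain ⟨m, hm⟩ := natCast_classInner_irr ι ξ.1 (⟨θ, hθ⟩ : IrrCharacter C₀)
    have hm' : classInner (fun c => (ξ.1 : N → ℂ) (ι c)) θ = m := hm
    have h3 : ¬ p ∣ m :=
      (CorrSpec.not_dvd_iff hp.out hspec ξ ⟨θ, hθ⟩ m hm).mpr hξ.symm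
    have h4 : θ' = π ξ :=
      (CorrSpec.not_dvd_iff hp.out hspec ξ θ' m (h1.trans hm')).mp h3
    have h5 : (θ' : C₀ → ℂ) = θ := by
      rw [h4, hξ]
    exact congrFun h5 c
  have hconj : ∀ (x : X) (hx : x ∈ (Q : Subgroup X)) (n : C₀),
      IsConj (⟨x * n * x⁻¹, hQC x hx n n.2⟩ : C₀) n := by
    intro x hx n
    exact isConj_of_aut_fixes_irr (conjHom C₀ Q.toSubgroup hQC ⟨x, hx⟩)
      (fun θ hθ c => hfix ⟨x, hx⟩ θ hθ c) n
  have hC₀q : ¬ q ∣ Nat.card C₀ := fun h => hNq (h.trans (Subgroup.card_dvd_of_le hCN))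
  have hfinal := CharCoprime.commute_of_fixes_classes (Q : Subgroup X) C₀ Q.isPGroup' hC₀q hQC hconj
  intro c hcN hcP y hy
  have hcC : c ∈ C₀ := Subgroup.mem_inf.mpr ⟨hcN, by
    rw [Subgroup.mem_centralizer_iff]
    intro x hx
    exact (hcP x hx).symm⟩
  exact (hfinal y hy c hcC).symm

/-- Lifting the normalizer property from the quotient: `g` normalizes `Q` modulo `N`. -/
theorem step_quot (N : Subgroup X) [N.Normal] (P : Sylow p X) (Q : Sylow q X) (g : X)
    (hg : ∀ y ∈ ((Q.mapSurjective (QuotientGroup.mk'_surjective N) : Sylow q (X ⧸ N)) : Subgroup (X ⧸ N)),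
      QuotientGroup.mk' N g * y * (QuotientGroup.mk' N g)⁻¹ ∈
        ((Q.mapSurjective (QuotientGroup.mk'_surjective N) : Sylow q (X ⧸ N)) : Subgroup (X ⧸ N))) :
    ∀ y ∈ (Q : Subgroup X), ∃ y' ∈ (Q : Subgroup X), ∃ m ∈ N, g * y * g⁻¹ = y' * m := by
  intro y hy
  have h1 : QuotientGroup.mk' N y ∈ ((Q.mapSurjective (QuotientGroup.mk'_surjective N) : Sylow q (X ⧸ N)) : Subgroup (X ⧸ N)) := by
    rw [Sylow.coe_mapSurjective]
    exact Subgroup.mem_map_of_mem _ hy
  have h2 := hg _ h1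
  rw [Sylow.coe_mapSurjective] at h2
  obtain ⟨y', hy', e⟩ := h2
  refine ⟨y', hy', y'⁻¹ * (g * y * g⁻¹), ?_, by group⟩
  rw [← QuotientGroup.eq_one_iff]
  have e2 : ((y'⁻¹ * (g * y * g⁻¹) : X) : X ⧸ N) =
      (QuotientGroup.mk' N y')⁻¹ * (QuotientGroup.mk' N g * QuotientGroup.mk' N y * (QuotientGroup.mk' N g)⁻¹) := by
    simp only [← map_mul, ← map_inv]
    rfl
  rw [e2, ← e]
  simp

/-- Commuting Sylow subgroups stay commuting in quotients. -/
theorem commuting_map {Y : Type*} [Group Y] (f : X →* Y) (hf : Function.Surjective f)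
    (P : Sylow p X) (Q : Sylow q X)
    (hc : ∀ x ∈ (P : Subgroup X), ∀ y ∈ (Q : Subgroup X), f x * f y = f y * f x) :
    ∀ x ∈ ((P.mapSurjective hf : Sylow p Y) : Subgroup Y),
      ∀ y ∈ ((Q.mapSurjective hf : Sylow q Y) : Subgroup Y), x * y = y * x := by
  intro x hx y hy
  rw [Sylow.coe_mapSurjective] at hx hy
  obtain ⟨x, hx, rfl⟩ := hx
  obtain ⟨y, hy, rfl⟩ := hy
  exact hc x hx y hy

/-- **`N_X(P)` normalizes `Q`.** -/
theorem normalizer_le (hpq : p ≠ q) : ∀ (n : ℕ) (X : Type u) [Group X] [Finite X], Nat.card X = n →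
    IsPSolvable p X → IsPSolvable q X → DegImp p q X → ∀ (P : Sylow p X) (Q : Sylow q X),
    (∀ x ∈ (P : Subgroup X), ∀ y ∈ (Q : Subgroup X), x * y = y * x) →
    ∀ g : X, (∀ x ∈ (P : Subgroup X), g * x * g⁻¹ ∈ (P : Subgroup X)) →
    ∀ y ∈ (Q : Subgroup X), g * y * g⁻¹ ∈ (Q : Subgroup X) := by
  intro n
  induction n using Nat.strong_induction_on with
  | _ n ih =>
    intro X _ _ hn hps hqs hdeg P Q hc g hg y hy
    by_cases hX : Nontrivial X
    swap
    · rw [not_nontrivial_iff_subsingleton] at hX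
      have : g * y * g⁻¹ = y := Subsingleton.elim _ _
      rwa [this]
    -- the inductive step
    have hstep : ∀ (N : Subgroup X) [N.Normal], N ≠ ⊥ → ∀ g : X,
        (∀ x ∈ (P : Subgroup X), g * x * g⁻¹ ∈ (P : Subgroup X)) →
        ∀ y ∈ (Q : Subgroup X), ∃ y' ∈ (Q : Subgroup X), ∃ m ∈ N, g * y * g⁻¹ = y' * m := by
      intro N _ hN1 g hg
      have hlt : Nat.card (X ⧸ N) < n := by
        rw [← hn, ← Subgroup.index_eq_card]
        have h1 := Subgroup.card_mul_index N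
        have h2 : 1 < Nat.card N := by
          rw [Finite.one_lt_card_iff_nontrivial]
          exact (Subgroup.nontrivial_iff_ne_bot N).mpr hN1
        have h3 : 0 < N.index := Nat.pos_of_ne_zero Subgroup.index_ne_zero_of_finite
        nlinarith
      apply step_quot N P Q g
      refine ih _ hlt (X ⧸ N) rfl (PSolv.isPSolvable_quotient hps N) (PSolv.isPSolvable_quotient hqs N)
        (hdeg.quotient N) (P.mapSurjective (QuotientGroup.mk'_surjective N)) _ ?_ _ ?_
      · apply commuting_map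
        intro x hx y hy
        rw [← map_mul, ← map_mul, hc x hx y hy]
      · intro x hx
        rw [Sylow.coe_mapSurjective] at hx ⊢
        obtain ⟨x, hx, rfl⟩ := hx
        rw [← map_inv, ← map_mul, ← map_mul]
        exact Subgroup.mem_map_of_mem _ (hg x hx)
    rcases trichotomy hps hqs with h1 | h1 | ⟨N, hNn, hN1, hNp, hNq⟩
    · obtain ⟨y', hy', m, hm, e⟩ := hstep (pCore p X) h1 g hg y hy
      exact conj_mem_of_pgroup_part hpq Q.isPGroup' P.isPGroup' (PCore.pCore_le_sylow p P) hc hy hy' hm e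
    · obtain ⟨y', hy', m, hm, e⟩ := hstep (pCore q X) h1 g hg y hy
      rw [e]
      exact Subgroup.mul_mem _ hy' (PCore.pCore_le_sylow q Q hm)
    · haveI := hNn
      exact conj_mem_of_centralizer_commute N hNp P Q hc g hg (hstep N hN1 g hg)
        (commute_centralizer hpq hps hdeg N hNp hNq P Q hc (fun g' hg' => hstep N hN1 g' hg')) y hy

end Key

end Cfsg.Agent.Lib.SylowCommute3
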