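import Mathlib
import Cfsg.Agent.Lib.SylowCommute3
import Cfsg.Agent.Lib.BurnsideAut
import Cfsg.Agent.Lib.Frat
import Cfsg.Agent.Lib.BlockNormal

/-!
# Commuting Sylow subgroups and principal blocks
-/

set_option autoImplicit false
set_option linter.unusedSectionVars false
set_option linter.unusedVariables false
set_option linter.style.haveILetI false

open Cfsg Cfsg.Agent.Lib Cfsg.Agent.Lib.CharBasic Cfsg.Agent.Lib.CharInd Cfsg.Agent.Lib.CharKernel
open Cfsg.Agent.Lib.SylowCommute Cfsg.Agent.Lib.SylowCommute2 Cfsg.Agent.Lib.SylowCommute3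
open Cfsg.Agent.Lib.GlaubCorr
open scoped ComplexConjugate Pointwise

namespace Cfsg.Agent.Lib.SylowCommute4

universe u

/-- The degree implication for characters with `O_{p'}` in the kernel. -/
def DegImpCore (p q : ℕ) (G : Type u) [Group G] : Prop :=
  ∀ χ : IrrCharacter G, (∀ t ∈ pPrimeCore p G, (χ : G → ℂ) t = (χ : G → ℂ) 1) →
    ¬ p ∣ charDegree (χ : G → ℂ) → ¬ q ∣ charDegree (χ : G → ℂ)

section Core

variable {G : Type u} [Group G] [Finite G] {p q : ℕ}

theorem map_pPrimeCore_le (K : Subgroup G) [K.Normal] :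
    (pPrimeCore p G).map (QuotientGroup.mk' K) ≤ pPrimeCore p (G ⧸ K) := by
  apply PCore.le_pPrimeCore
  · exact Subgroup.Normal.map inferInstance _ (QuotientGroup.mk'_surjective K)
  · refine Nat.Coprime.coprime_dvd_left ?_ (PCore.card_pPrimeCore_coprime (G := G) p)
    exact Subgroup.card_dvd_of_surjective
      ((QuotientGroup.mk' K).subgroupMap (pPrimeCore p G))
      ((QuotientGroup.mk' K).subgroupMap_surjective (pPrimeCore p G))

theorem DegImpCore.quotient (h : DegImpCore p q G) (K : Subgroup G) [K.Normal] :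
    DegImpCore p q (G ⧸ K) := by
  intro χ hker h1
  have h2 := h ⟨(χ : G ⧸ K → ℂ) ∘ QuotientGroup.mk' K,
    isIrrCharacter_comp_of_surjective _ (QuotientGroup.mk'_surjective K) χ.2⟩
    (by
      intro t ht
      show (χ : G ⧸ K → ℂ) (QuotientGroup.mk' K t) = (χ : G ⧸ K → ℂ) (QuotientGroup.mk' K 1)
      rw [map_one]
      exact hker _ (map_pPrimeCore_le K (Subgroup.mem_map_of_mem _ ht)))
    (by rwa [charDegree_comp])
  simp only [charDegree_comp] at h2
  exact h2

theorem degImp_of_le_core (h : DegImpCore p q G) (C : Subgroup G) [C.Normal]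
    (hC : pPrimeCore p G ≤ C) : DegImp p q (G ⧸ C) := by
  intro χ h1
  have h2 := h ⟨(χ : G ⧸ C → ℂ) ∘ QuotientGroup.mk' C,
    isIrrCharacter_comp_of_surjective _ (QuotientGroup.mk'_surjective C) χ.2⟩
    (by
      intro t ht
      show (χ : G ⧸ C → ℂ) (QuotientGroup.mk' C t) = (χ : G ⧸ C → ℂ) (QuotientGroup.mk' C 1)
      have e : QuotientGroup.mk' C t = 1 := (QuotientGroup.eq_one_iff t).mpr (hC ht)
      rw [map_one, e])
    (by rwa [charDegree_comp])
  simp only [charDegree_comp] at h2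
  exact h2

end Core

section Lin

variable {G : Type u} [Group G] [Finite G] {p q : ℕ} [hp : Fact p.Prime] [hq : Fact q.Prime]

/-- If all linear characters of `P` restricted to `N` are `Q`-invariant, then `P`, `Q` commute. -/
theorem commute_of_linear_invariant (hpq : p ≠ q) (N : Subgroup G) (P : Sylow p G) (Q : Sylow q G)
    (hNP : N ≤ P) (hcN : ∀ x ∈ (P : Subgroup G), ∀ y ∈ (Q : Subgroup G), x * y * x⁻¹ * y⁻¹ ∈ N)
    (hinv : ∀ μ : (P : Subgroup G) →* ℂˣ, ∀ y ∈ (Q : Subgroup G), ∀ n n' : (P : Subgroup G),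
      (n : G) ∈ N → (n' : G) = y * n * y⁻¹ → μ n' = μ n) :
    ∀ x ∈ (P : Subgroup G), ∀ y ∈ (Q : Subgroup G), x * y = y * x := by
  intro x hx y hy
  have hcN' : ∀ x ∈ (P : Subgroup G), ∀ y ∈ (Q : Subgroup G), y * x * y⁻¹ * x⁻¹ ∈ N := by
    intro x hx y hy
    have h1 := N.inv_mem (hcN x hx y hy)
    have e : (x * y * x⁻¹ * y⁻¹)⁻¹ = y * x * y⁻¹ * x⁻¹ := by group
    rwa [e] at h1
  have hnorm : ∀ s ∈ (Q : Subgroup G), ∀ g ∈ (P : Subgroup G), s * g * s⁻¹ ∈ (P : Subgroup G) := by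
    intro s hs g hg
    have e : s * g * s⁻¹ = (s * g * s⁻¹ * g⁻¹) * g := by group
    rw [e]
    exact Subgroup.mul_mem _ (hNP (hcN' g hg s hs)) hg
  let φ := conjHom (P : Subgroup G) (Q : Subgroup G) hnorm
  let τ : MulAut (P : Subgroup G) := φ ⟨y, hy⟩
  have hτ : ∀ z : (P : Subgroup G), ((τ z : (P : Subgroup G)) : G) = y * z * y⁻¹ := fun z => rfl
  -- Step 1
  have hstep1 : ∀ (μ : (P : Subgroup G) →* ℂˣ) (z : (P : Subgroup G)), μ (τ z) = μ z := by
    intro μ z
    let F : (P : Subgroup G) →* ℂˣ := (μ.comp τ.toMonoidHom) * μ⁻¹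
    have hF : ∀ w, F w = μ (τ w) * (μ w)⁻¹ := fun w => rfl
    have hFN : ∀ w : (P : Subgroup G), (w : G) ∈ N → F w = 1 := by
      intro w hw
      rw [hF, hinv μ y hy w (τ w) hw (hτ w), mul_inv_cancel]
    have hFτ : ∀ w, F (τ w) = F w := by
      intro w
      have e : τ w = (τ w * w⁻¹) * w := by group
      have h1 : ((τ w * w⁻¹ : (P : Subgroup G)) : G) ∈ N := by
        show y * w * y⁻¹ * (w : G)⁻¹ ∈ N
        exact hcN' w w.2 y hy
      conv_lhs => rw [e]
      rw [map_mul, hFN _ h1, one_mul]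
    have hμτ : ∀ w, μ (τ w) = F w * μ w := by
      intro w
      rw [hF]
      group
    have hpow : ∀ (k : ℕ) (w : (P : Subgroup G)), μ ((τ ^ k) w) = F w ^ k * μ w := by
      intro k
      induction k with
      | zero =>
        intro w
        simp
      | succ k ih =>
        intro w
        rw [pow_succ, MulAut.mul_apply, ih, hFτ, hμτ, pow_succ, mul_assoc]
    have h1 : τ ^ Nat.card (Q : Subgroup G) = 1 := by
      show (φ ⟨y, hy⟩) ^ Nat.card (Q : Subgroup G) = 1
      rw [← map_pow, pow_card_eq_one', map_one]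
    have h2 := hpow (Nat.card (Q : Subgroup G)) z
    rw [h1] at h2
    have h3 : F z ^ Nat.card (Q : Subgroup G) = 1 := by
      have h4 : μ z = F z ^ Nat.card (Q : Subgroup G) * μ z := h2
      exact (mul_eq_right.mp h4.symm)
    have h4 : F z ^ Nat.card (P : Subgroup G) = 1 := by
      rw [← map_pow, pow_card_eq_one', map_one]
    have hcop : (Nat.card (Q : Subgroup G)).Coprime (Nat.card (P : Subgroup G)) := by
      obtain ⟨a, ha⟩ := IsPGroup.iff_card.mp P.isPGroup'
      obtain ⟨b, hb⟩ := IsPGroup.iff_card.mp Q.isPGroup'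
      have ha' : Nat.card (P : Subgroup G) = p ^ a := ha
      have hb' : Nat.card (Q : Subgroup G) = q ^ b := hb
      rw [ha', hb']
      exact Nat.Coprime.pow _ _ ((Nat.coprime_primes hq.out hp.out).mpr hpq.symm)
    have h5 := eq_one_of_pow_coprime hcop h3 h4
    have h6 := hμτ z
    rw [h5, one_mul] at h6
    exact h6
  -- Step 2
  have hstep2 : ∀ z : (P : Subgroup G), τ z * z⁻¹ ∈ commutator (P : Subgroup G) := by
    intro z
    by_contra h
    have h1 : Abelianization.of (τ z * z⁻¹) ≠ 1 := by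
      intro h2
      exact h ((QuotientGroup.eq_one_iff _).mp h2)
    obtain ⟨l, hl⟩ := CommGroup.exists_apply_ne_one_of_hasEnoughRootsOfUnity
      (Abelianization (P : Subgroup G)) ℂ h1
    apply hl
    have h2 := hstep1 (l.comp Abelianization.of) z
    simp only [MonoidHom.comp_apply] at h2
    rw [map_mul, map_mul, map_inv, map_inv, h2, mul_inv_cancel]
  have hP : IsPGroup p (P : Subgroup G) := P.isPGroup'
  have hstep3 : ∀ z : (P : Subgroup G), τ z * z⁻¹ ∈ frattini (P : Subgroup G) := fun z =>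
    Frat.commutator_le_frattini hP (hstep2 z)
  have hstep4 : ∀ (m : ℕ) (z : (P : Subgroup G)), (τ ^ m) z * z⁻¹ ∈ frattini (P : Subgroup G) := by
    intro m
    induction m with
    | zero =>
      intro z
      simp
    | succ m ih =>
      intro z
      rw [pow_succ, MulAut.mul_apply]
      have e : (τ ^ m) (τ z) * z⁻¹ = ((τ ^ m) (τ z) * (τ z)⁻¹) * (τ z * z⁻¹) := by group
      rw [e]
      exact Subgroup.mul_mem _ (ih _) (hstep3 z)
  have hstep5 : τ = 1 := by
    obtain ⟨k, hk⟩ := Q.isPGroup' ⟨y, hy⟩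
    have h1 : τ ^ q ^ k = 1 := by
      show (φ ⟨y, hy⟩) ^ q ^ k = 1
      rw [← map_pow, hk, map_one]
    clear hk
    induction k with
    | zero => simpa using h1
    | succ k ih =>
      apply ih
      refine BurnsideAut.aut_eq_one_of_trivial_on_frattini hP hq.out hpq.symm _ ?_ (hstep4 _)
      rw [← pow_mul, ← pow_succ]
      exact h1
  have h1 : τ ⟨x, hx⟩ = ⟨x, hx⟩ := by
    rw [hstep5]
    rfl
  have h2 : y * x * y⁻¹ = x := congrArg Subtype.val h1
  rw [mul_inv_eq_iff_eq_mul] at h2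
  exact h2.symm

/-- **Main step, normal abelian `p`-subgroup.** -/
theorem commute_of_abelian_normal (hpq : p ≠ q) (hps : IsPSolvable p G) (hqs : IsPSolvable q G)
    (hA : DegImpCore p q G) (N : Subgroup G) [hN : N.Normal]
    (hab : ∀ a ∈ N, ∀ b ∈ N, a * b = b * a) (P : Sylow p G) (Q : Sylow q G)
    (hNP : N ≤ P) (hcN : ∀ x ∈ (P : Subgroup G), ∀ y ∈ (Q : Subgroup G), x * y * x⁻¹ * y⁻¹ ∈ N) :
    ∀ x ∈ (P : Subgroup G), ∀ y ∈ (Q : Subgroup G), x * y = y * x := by
  classical
  letI : Fintype G := Fintype.ofFinite _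
  letI : Fintype N := Fintype.ofFinite _
  letI : Fintype (P : Subgroup G) := Fintype.ofFinite _
  apply commute_of_linear_invariant hpq N P Q hNP hcN
  intro μ y₀ hy₀ n₀ n₀' hn₀ hn₀'
  by_contra hne
  let ι : N →* (P : Subgroup G) := Subgroup.inclusion hNP
  let lam : N →* ℂˣ := μ.comp ι
  let θ : N → ℂ := fun n => ((lam n : ℂˣ) : ℂ)
  have hθ : IsIrrCharacter N θ := isIrrCharacter_of_hom lam
  set T := DegreeDiv.inertia N hN θ with hT
  have hy₀T : y₀ ∉ T := by
    intro h
    have h1 := h ⟨n₀, hn₀⟩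
    apply hne
    apply Units.ext
    have e : ι ⟨y₀ * n₀ * y₀⁻¹, hN.conj_mem _ hn₀ y₀⟩ = n₀' := Subtype.ext hn₀'.symm
    have e2 : ι ⟨n₀, hn₀⟩ = n₀ := rfl
    have h2 : ((μ (ι ⟨y₀ * n₀ * y₀⁻¹, hN.conj_mem _ hn₀ y₀⟩) : ℂˣ) : ℂ) = ((μ (ι ⟨n₀, hn₀⟩) : ℂˣ) : ℂ) := h1
    rwa [e, e2] at h2
  obtain ⟨χ, hker, hχp, hcon⟩ := exists_char_over_linear P μ
  have hχq := hA χ hker hχp
  have hcon' : classInner (fun n : N => (χ : G → ℂ) n) θ ≠ 0 := by
    have h1 := over_trans ι (isCharacter_restrict (P : Subgroup G) (IsIrrCharacter.isCharacter χ.2))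
      (isIrrCharacter_of_hom μ) hcon hθ (by
        have : (fun x : (P : Subgroup G) => ((μ x : ℂˣ) : ℂ)) ∘ ι = θ := rfl
        rw [this, classInner_irr_self hθ]
        exact one_ne_zero)
    exact h1
  have hTq := not_dvd_inertia_index N hθ χ hχq hcon'
  obtain ⟨S, hS⟩ := exists_sylow_le_of_not_dvd_index (q := q) T hTq
  let C : Subgroup G := Subgroup.centralizer (N : Set G)
  have hCn : C.Normal := inferInstance
  have hCT : C ≤ T := by
    intro c hc n
    congr 1
    apply Subtype.ext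
    have h1 := Subgroup.mem_centralizer_iff.mp hc n n.2
    show c * n * c⁻¹ = n
    rw [← h1, mul_inv_cancel_right]
  have hNC : N ≤ C := by
    intro a ha
    rw [Subgroup.mem_centralizer_iff]
    intro b hb
    exact hab b hb a ha
  have hPT : (P : Subgroup G) ≤ T := by
    intro x hx n
    have e : ι ⟨x * n * x⁻¹, hN.conj_mem _ n.2 x⟩ = (⟨x, hx⟩ : (P : Subgroup G)) * ι n * (⟨x, hx⟩ : (P : Subgroup G))⁻¹ := rfl
    show ((μ (ι ⟨x * n * x⁻¹, hN.conj_mem _ n.2 x⟩) : ℂˣ) : ℂ) = ((μ (ι n) : ℂˣ) : ℂ)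
    rw [e, map_mul, map_mul, map_inv, mul_inv_cancel_comm]
  have hTC : pPrimeCore p G ≤ C := by
    intro t ht
    rw [Subgroup.mem_centralizer_iff]
    intro n hn
    have h1 : t * n * t⁻¹ * n⁻¹ ∈ N := N.mul_mem (hN.conj_mem _ hn t) (N.inv_mem hn)
    have h2 : t * n * t⁻¹ * n⁻¹ ∈ pPrimeCore p G := by
      have e : t * n * t⁻¹ * n⁻¹ = t * (n * t⁻¹ * n⁻¹) := by group
      rw [e]
      exact Subgroup.mul_mem _ ht ((inferInstance : (pPrimeCore p G).Normal).conj_mem _ (Subgroup.inv_mem _ ht) n)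
    have h3 := eq_one_of_mem_of_not_dvd P.isPGroup' (PCore.not_dvd_card_pPrimeCore p) (hNP h1) h2
    rw [mul_inv_eq_one, mul_inv_eq_iff_eq_mul] at h3
    exact h3.symm
  let π := QuotientGroup.mk' C
  have hπ : Function.Surjective π := QuotientGroup.mk'_surjective C
  have hdeg := degImp_of_le_core hA C hTC
  have hps' := PSolv.isPSolvable_quotient hps C
  have hqs' := PSolv.isPSolvable_quotient hqs C
  have hcomm := commuting_map π hπ P Q (by
    intro x hx y hy
    have h1 := hNC (hcN x hx y hy)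
    have h2 : π (x * y * x⁻¹ * y⁻¹) = 1 := (QuotientGroup.eq_one_iff _).mpr h1
    rw [map_mul, map_mul, map_mul, map_inv, map_inv, mul_inv_eq_one, mul_inv_eq_iff_eq_mul] at h2
    exact h2)
  obtain ⟨n, hnP, hnQ⟩ := exists_normalizer_conj_le hpq hps' (P.mapSurjective hπ) (Q.mapSurjective hπ)
    hcomm (T.map π) (by
      rw [Sylow.coe_mapSurjective]
      exact Subgroup.map_mono hPT) (S.mapSurjective hπ) (by
      rw [Sylow.coe_mapSurjective]
      exact Subgroup.map_mono hS)
  have hnorm := normalizer_le hpq _ (G ⧸ C) rfl hps' hqs' hdeg (P.mapSurjective hπ) (Q.mapSurjective hπ)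
    hcomm n hnP
  have hinv' := inv_conj_mem hnorm
  have h1 : π y₀ ∈ ((Q.mapSurjective hπ : Sylow q (G ⧸ C)) : Subgroup (G ⧸ C)) := by
    rw [Sylow.coe_mapSurjective]
    exact Subgroup.mem_map_of_mem _ hy₀
  have h2 := hnQ _ (hinv' _ h1)
  have e : n * (n⁻¹ * π y₀ * n) * n⁻¹ = π y₀ := by group
  rw [e] at h2
  obtain ⟨t, ht, e2⟩ := h2
  apply hy₀T
  have h3 : t⁻¹ * y₀ ∈ C := by
    rw [← QuotientGroup.eq_one_iff]
    have : ((t⁻¹ * y₀ : G) : G ⧸ C) = (π t)⁻¹ * π y₀ := by
      simp only [← map_mul, ← map_inv]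
      rfl
    rw [this, e2, inv_mul_cancel]
  have h4 := T.mul_mem ht (hCT h3)
  simpa using h4

/-- A nontrivial `p`-core contains a nontrivial normal abelian subgroup. -/
theorem exists_abelian_normal (h : pCore p G ≠ ⊥) :
    ∃ N : Subgroup G, N.Normal ∧ N ≠ ⊥ ∧ (∀ a ∈ N, ∀ b ∈ N, a * b = b * a) ∧ N ≤ pCore p G := by
  set C := pCore p G with hC
  haveI : Nontrivial C := (Subgroup.nontrivial_iff_ne_bot C).mpr h
  haveI hcn := IsPGroup.center_nontrivial (PCore.isPGroup_pCore (G := G) p)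
  refine ⟨(Subgroup.center C).map C.subtype, ConjAct.normal_of_characteristic_of_normal, ?_, ?_, ?_⟩
  · intro hb
    have h1 := (Subgroup.map_eq_bot_iff_of_injective _ C.subtype_injective).mp hb
    exact ((Subgroup.nontrivial_iff_ne_bot _).mp hcn) h1
  · rintro _ ⟨a, ha, rfl⟩ _ ⟨b, hb, rfl⟩
    have := Subgroup.mem_center_iff.mp ha b
    show (a : G) * b = b * a
    exact (congrArg Subtype.val this).symm
  · rintro _ ⟨a, _, rfl⟩
    exact a.2

/-- **Existence of commuting Sylow subgroups.** -/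
theorem exists_commuting (hpq : p ≠ q) : ∀ (n : ℕ) (G : Type u) [Group G] [Finite G], Nat.card G = n →
    IsPSolvable p G → IsPSolvable q G → DegImpCore p q G → DegImpCore q p G →
    ∃ (P : Sylow p G) (Q : Sylow q G), ∀ x ∈ (P : Subgroup G), ∀ y ∈ (Q : Subgroup G), x * y = y * x := by
  intro n
  induction n using Nat.strong_induction_on with
  | _ n ih =>
    intro G _ _ hn hps hqs hA hB
    by_cases hG : Nontrivial G
    swap
    · rw [not_nontrivial_iff_subsingleton] at hG
      obtain ⟨P⟩ : Nonempty (Sylow p G) := inferInstance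
      obtain ⟨Q⟩ : Nonempty (Sylow q G) := inferInstance
      exact ⟨P, Q, fun x _ y _ => Subsingleton.elim _ _⟩
    have hquot : ∀ (N : Subgroup G) [N.Normal], N ≠ ⊥ → ∃ (P : Sylow p G) (Q : Sylow q G),
        ∀ x ∈ (P : Subgroup G), ∀ y ∈ (Q : Subgroup G), x * y * x⁻¹ * y⁻¹ ∈ N := by
      intro N _ hN1
      have hlt : Nat.card (G ⧸ N) < n := by
        rw [← hn, ← Subgroup.index_eq_card]
        have h1 := Subgroup.card_mul_index N
        have h2 : 1 < Nat.card N := by
          rw [Finite.one_lt_card_iff_nontrivial]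
          exact (Subgroup.nontrivial_iff_ne_bot N).mpr hN1
        have h3 : 0 < N.index := Nat.pos_of_ne_zero Subgroup.index_ne_zero_of_finite
        nlinarith
      obtain ⟨P₁, Q₁, hc⟩ := ih _ hlt (G ⧸ N) rfl (PSolv.isPSolvable_quotient hps N)
        (PSolv.isPSolvable_quotient hqs N) (hA.quotient N) (hB.quotient N)
      have hπ : Function.Surjective (QuotientGroup.mk' N) := QuotientGroup.mk'_surjective N
      obtain ⟨P, rfl⟩ := Sylow.mapSurjective_surjective hπ p P₁
      obtain ⟨Q, rfl⟩ := Sylow.mapSurjective_surjective hπ q Q₁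
      refine ⟨P, Q, fun x hx y hy => ?_⟩
      have h1 := hc (QuotientGroup.mk' N x) (by
        rw [Sylow.coe_mapSurjective]
        exact Subgroup.mem_map_of_mem _ hx) (QuotientGroup.mk' N y) (by
        rw [Sylow.coe_mapSurjective]
        exact Subgroup.mem_map_of_mem _ hy)
      rw [← QuotientGroup.eq_one_iff]
      have e : ((x * y * x⁻¹ * y⁻¹ : G) : G ⧸ N) =
          QuotientGroup.mk' N x * QuotientGroup.mk' N y * (QuotientGroup.mk' N x)⁻¹ *
            (QuotientGroup.mk' N y)⁻¹ := by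
        simp only [← map_mul, ← map_inv]
        rfl
      rw [e, h1]
      simp
    rcases trichotomy hps hqs with h1 | h1 | ⟨N, hNn, hN1, hNp, hNq⟩
    · obtain ⟨N, hNn, hN1, hab, hNle⟩ := exists_abelian_normal h1
      haveI := hNn
      obtain ⟨P, Q, hc⟩ := hquot N hN1
      exact ⟨P, Q, commute_of_abelian_normal hpq hps hqs hA N hab P Q
        (hNle.trans (PCore.pCore_le_sylow p P)) hc⟩
    · obtain ⟨N, hNn, hN1, hab, hNle⟩ := exists_abelian_normal h1
      haveI := hNn
      obtain ⟨P, Q, hc⟩ := hquot N hN1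
      have hc' : ∀ y ∈ (Q : Subgroup G), ∀ x ∈ (P : Subgroup G), y * x * y⁻¹ * x⁻¹ ∈ N := by
        intro y hy x hx
        have h2 := N.inv_mem (hc x hx y hy)
        have e : (x * y * x⁻¹ * y⁻¹)⁻¹ = y * x * y⁻¹ * x⁻¹ := by group
        rwa [e] at h2
      have h3 := commute_of_abelian_normal hpq.symm hqs hps hB N hab Q P
        (hNle.trans (PCore.pCore_le_sylow q Q)) hc'
      exact ⟨P, Q, fun x hx y hy => (h3 y hy x hx).symm⟩
    · haveI := hNn
      obtain ⟨P, Q, hc⟩ := hquot N hN1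
      obtain ⟨Q₁, hQ₁⟩ := exists_commuting_of_normal N hNp hNq hpq P Q hc
      exact ⟨P, Q₁, hQ₁⟩

end Lin

section Blocks

variable {G : Type u} [Group G] [Finite G] {p q : ℕ} [hp : Fact p.Prime] [hq : Fact q.Prime]

/-- Block hypotheses imply the core hypotheses. -/
theorem degImpCore_of_block {Mp : Ideal AlgInt} (hMp : IsPModular p Mp) (hps : IsPSolvable p G)
    (h : ∀ χ : IrrCharacter G, χ ∈ principalBlock Mp G → ¬ p ∣ charDegree (χ : G → ℂ) →
      ¬ q ∣ charDegree (χ : G → ℂ)) : DegImpCore p q G := by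
  intro χ hker h1
  letI : Fintype G := Fintype.ofFinite _
  exact h χ (BlockNormal.mem_principalBlock_of_pSolvable hMp hps χ hker) h1

/-- The kernel of principal block characters contains `O_{p'}`. -/
theorem ker_of_block {Mp : Ideal AlgInt} (hMp : IsPModular p Mp) (χ : IrrCharacter G)
    (hχ : χ ∈ principalBlock Mp G) : ∀ t ∈ pPrimeCore p G, (χ : G → ℂ) t = (χ : G → ℂ) 1 := by
  letI : Fintype G := Fintype.ofFinite _
  exact BlockNormal.eq_of_mem_principalBlock hMp (pPrimeCore p G) (PCore.not_dvd_card_pPrimeCore p) χ hχ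

/-- Commuting Sylow subgroups imply the degree implication in the principal block. -/
theorem not_dvd_of_commuting (hpq : p ≠ q) {Mp : Ideal AlgInt} (hMp : IsPModular p Mp)
    (hps : IsPSolvable p G) (P : Sylow p G) (Q : Sylow q G)
    (hc : ∀ x ∈ (P : Subgroup G), ∀ y ∈ (Q : Subgroup G), x * y = y * x)
    (χ : IrrCharacter G) (hχ : χ ∈ principalBlock Mp G) : ¬ q ∣ charDegree (χ : G → ℂ) := by
  have h1 := ker_of_block hMp χ hχ
  have h2 := charDegree_dvd_index (pPrimeCore p G) χ.2 h1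
  have h3 : (Q : Subgroup G) ≤ pPrimeCore p G := le_pPrimeCore_of_commute hpq hps P Q.isPGroup' hc
  intro h
  exact Q.not_dvd_index (h.trans (h2.trans (Subgroup.index_dvd_of_le h3)))

end Blocks

end Cfsg.Agent.Lib.SylowCommute4
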