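import Mathlib

/-!
# Fixed points of Sylow subgroups in transitive actions

Elementary proof that if `K` is generated by its `p`-elements and acts transitively and
nontrivially on a finite set, then a Sylow `p`-subgroup fixes at most a fraction
`(p-1)/(2p-1)` of the points.
-/

namespace Cfsg.Agent.Lib.SylowFix

open scoped Classical

variable {G : Type*} [Group G] [Finite G]

/-- conjugate of a subgroup -/
def cj (g : G) (H : Subgroup G) : Subgroup G := H.map (MulAut.conj g).toMonoidHom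

lemma mem_cj {g x : G} {H : Subgroup G} : x ∈ cj g H ↔ g⁻¹ * x * g ∈ H := by
  simp only [cj, Subgroup.mem_map]
  constructor
  · rintro ⟨y, hy, rfl⟩
    simpa [mul_assoc] using hy
  · intro h
    exact ⟨_, h, by simp [mul_assoc]⟩

lemma cj_one (H : Subgroup G) : cj 1 H = H := by
  ext x; simp [mem_cj]

lemma cj_mul (g h : G) (H : Subgroup G) : cj (g * h) H = cj g (cj h H) := by
  ext x; simp only [mem_cj, mul_inv_rev, mul_assoc]

/-- conjugation action on subgroups -/
instance conjAction : MulAction G (Subgroup G) where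
  smul := cj
  one_smul := cj_one
  mul_smul := cj_mul

lemma smul_eq_cj (g : G) (H : Subgroup G) : g • H = cj g H := rfl

lemma mem_smul' {g x : G} {H : Subgroup G} : x ∈ g • H ↔ g⁻¹ * x * g ∈ H := mem_cj

lemma smul_le_smul' (g : G) {H L : Subgroup G} (h : H ≤ L) : g • H ≤ g • L := by
  intro x hx
  exact mem_smul'.2 (h (mem_smul'.1 hx))

lemma smul_le_iff (g : G) {H L : Subgroup G} : g • H ≤ L ↔ H ≤ g⁻¹ • L := by
  constructor
  · intro h
    have := smul_le_smul' g⁻¹ h
    simpa [inv_smul_smul] using this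
  · intro h
    have := smul_le_smul' g h
    simpa using this

lemma card_smul' (g : G) (H : Subgroup G) : Nat.card (g • H : Subgroup G) = Nat.card H := by
  show Nat.card (cj g H) = Nat.card H
  exact Subgroup.card_map_of_injective (MulAut.conj g).injective

lemma smul_le_of_mem {K : Subgroup G} {g : G} (hg : g ∈ K) {H : Subgroup G} (h : H ≤ K) :
    g • H ≤ K := by
  intro x hx
  have := h (mem_smul'.1 hx)
  have h2 : x = g * (g⁻¹ * x * g) * g⁻¹ := by group
  rw [h2]
  exact K.mul_mem (K.mul_mem hg this) (K.inv_mem hg)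

lemma smul_self_of_mem {K : Subgroup G} {g : G} (hg : g ∈ K) : g • K = K := by
  apply le_antisymm (smul_le_of_mem hg le_rfl)
  have := smul_le_of_mem (K.inv_mem hg) (le_refl K)
  rwa [smul_le_iff, inv_inv] at this

lemma smul_inf (g : G) (H L : Subgroup G) : g • (H ⊓ L) = g • H ⊓ g • L := by
  ext x
  simp only [mem_smul', Subgroup.mem_inf]

lemma smul_smul_mem {g : G} {H : Subgroup G} {x : G} (hx : x ∈ H) : g * x * g⁻¹ ∈ g • H := by
  rw [mem_smul']; simpa [mul_assoc] using hx

section PEl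

variable (p : ℕ)

/-- the `p`-elements of `G` -/
def pEl : Set G := {g | ∃ k : ℕ, g ^ (p ^ k) = 1}

/-- subgroup generated by the `p`-elements of `L` -/
def Opp (L : Subgroup G) : Subgroup G := Subgroup.closure (pEl p ∩ (L : Set G))

variable {p}

lemma Opp_le (L : Subgroup G) : Opp p L ≤ L :=
  (Subgroup.closure_le _).2 Set.inter_subset_right

lemma mem_Opp {L : Subgroup G} {x : G} (hx : x ∈ pEl p) (hL : x ∈ L) : x ∈ Opp p L :=
  Subgroup.subset_closure ⟨hx, hL⟩

lemma mem_pEl_of_isPGroup {Q : Subgroup G} (hQ : IsPGroup p Q) {x : G} (hx : x ∈ Q) :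
    x ∈ pEl p := by
  obtain ⟨k, hk⟩ := hQ ⟨x, hx⟩
  exact ⟨k, by simpa [Subtype.ext_iff] using hk⟩

lemma le_Opp_of_isPGroup {L Q : Subgroup G} (hQ : IsPGroup p Q) (h : Q ≤ L) : Q ≤ Opp p L :=
  fun _ hx => mem_Opp (mem_pEl_of_isPGroup hQ hx) (h hx)

lemma Opp_idem (L : Subgroup G) : Opp p (Opp p L) = Opp p L := by
  apply le_antisymm (Opp_le _)
  refine (Subgroup.closure_le _).2 ?_
  rintro x ⟨h1, h2⟩
  exact mem_Opp h1 (mem_Opp h1 h2)

lemma Opp_mono {L L' : Subgroup G} (h : L ≤ L') : Opp p L ≤ Opp p L' :=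
  Subgroup.closure_mono (Set.inter_subset_inter_right _ h)

lemma pEl_conj {x : G} (hx : x ∈ pEl p) (g : G) : g⁻¹ * x * g ∈ pEl p := by
  obtain ⟨k, hk⟩ := hx
  refine ⟨k, ?_⟩
  have : (g⁻¹ * x * g) ^ (p ^ k) = g⁻¹ * x ^ (p ^ k) * g := by
    have h := conj_pow (a := g⁻¹) (b := x) (i := p ^ k)
    simpa using h
  rw [this, hk]; simp

lemma Opp_smul_le (g : G) (L : Subgroup G) : Opp p (g • L) ≤ g • Opp p L := by
  refine (Subgroup.closure_le _).2 ?_
  rintro x ⟨h1, h2⟩
  exact mem_smul'.2 (mem_Opp (pEl_conj h1 g) (mem_smul'.1 h2))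

lemma Opp_smul (g : G) (L : Subgroup G) : Opp p (g • L) = g • Opp p L := by
  apply le_antisymm (Opp_smul_le g L)
  have := Opp_smul_le (p := p) g⁻¹ (g • L)
  rw [inv_smul_smul] at this
  rw [smul_le_iff]
  exact this

end PEl

section Sylow

variable (p : ℕ)

/-- `R` is a Sylow `p`-subgroup of the subgroup `K` -/
def IsSyl (R K : Subgroup G) : Prop := R ≤ K ∧ IsPGroup p R ∧ ¬ p ∣ R.relIndex K

variable {p} [hp : Fact p.Prime]

lemma isPGroup_subgroupOf {R K : Subgroup G} (hR : IsPGroup p R) : IsPGroup p (R.subgroupOf K) := by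
  rintro ⟨⟨x, hxK⟩, hx⟩
  obtain ⟨k, hk⟩ := hR ⟨x, hx⟩
  refine ⟨k, ?_⟩
  apply Subtype.ext
  apply Subtype.ext
  simpa [Subtype.ext_iff] using hk

/-- Sylow subgroup of `↥K` attached to `IsSyl` -/
noncomputable def IsSyl.toSylow {R K : Subgroup G} (h : IsSyl p R K) : Sylow p K :=
  (isPGroup_subgroupOf h.2.1).toSylow h.2.2

lemma IsSyl.mem_toSylow {R K : Subgroup G} (h : IsSyl p R K) {x : K} :
    x ∈ h.toSylow ↔ (x : G) ∈ R := by
  exact (IsPGroup.mem_toSylow (isPGroup_subgroupOf h.2.1) h.2.2).trans Subgroup.mem_subgroupOf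

lemma IsSyl.mem_smul_toSylow {R K : Subgroup G} (h : IsSyl p R K) (g x : K) :
    x ∈ (g • h.toSylow : Sylow p K) ↔ (x : G) ∈ (g : G) • R := by
  have hh : x ∈ (g • h.toSylow : Sylow p K) ↔ x ∈ ((g • h.toSylow : Sylow p K) : Subgroup K) :=
    Iff.rfl
  rw [hh, Sylow.coe_subgroup_smul, Subgroup.mem_pointwise_smul_iff_inv_smul_mem,
    mem_smul']
  have h2 : ((MulAut.conj g)⁻¹ • x) ∈ (h.toSylow : Subgroup K) ↔
      ((MulAut.conj g)⁻¹ • x) ∈ h.toSylow := Iff.rfl
  rw [h2, h.mem_toSylow]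
  simp [MulAut.smul_def, MulAut.conj_inv_apply]

lemma exists_isSyl (K : Subgroup G) : ∃ R, IsSyl p R K := by
  obtain ⟨S⟩ : Nonempty (Sylow p K) := inferInstance
  refine ⟨(S : Subgroup K).map K.subtype, ?_, ?_, ?_⟩
  · rintro _ ⟨x, _, rfl⟩; exact x.2
  · exact S.isPGroup'.map _
  · have : ((S : Subgroup K).map K.subtype).relIndex K = (S : Subgroup K).index := by
      show (((S : Subgroup K).map K.subtype).comap K.subtype).index = _
      rw [Subgroup.comap_map_eq_self_of_injective K.subtype_injective]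
    rw [this]
    exact S.not_dvd_index

lemma IsSyl.cover {R K Q : Subgroup G} (h : IsSyl p R K) (hQK : Q ≤ K) (hQ : IsPGroup p Q) :
    ∃ g ∈ K, Q ≤ g • R := by
  obtain ⟨S₁, hS₁⟩ := (isPGroup_subgroupOf (K := K) hQ).exists_le_sylow
  obtain ⟨g, hg⟩ := MulAction.exists_smul_eq K h.toSylow S₁
  refine ⟨g, g.2, ?_⟩
  intro x hx
  have hx1 : (⟨x, hQK hx⟩ : K) ∈ S₁ := hS₁ (by simpa [Subgroup.mem_subgroupOf] using hx)
  rw [← hg] at hx1
  exact (h.mem_smul_toSylow g _).1 hx1

lemma IsSyl.conj {R R' K : Subgroup G} (h : IsSyl p R K) (h' : IsSyl p R' K) :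
    ∃ g ∈ K, g • R = R' := by
  obtain ⟨g, hg⟩ := MulAction.exists_smul_eq K h.toSylow h'.toSylow
  refine ⟨g, g.2, ?_⟩
  ext x
  constructor
  · intro hx
    have hxK : x ∈ K := smul_le_of_mem g.2 h.1 hx
    have := (h.mem_smul_toSylow g ⟨x, hxK⟩).2 hx
    rw [hg] at this
    exact h'.mem_toSylow.1 this
  · intro hx
    have hxK : x ∈ K := h'.1 hx
    have : (⟨x, hxK⟩ : K) ∈ h'.toSylow := h'.mem_toSylow.2 hx
    rw [← hg] at this
    exact (h.mem_smul_toSylow g _).1 this

lemma relIndex_mul_card' {R K : Subgroup G} (h : R ≤ K) : R.relIndex K * Nat.card R = Nat.card K := by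
  have h1 := Subgroup.index_mul_card (R.subgroupOf K)
  have h2 : Nat.card (R.subgroupOf K) = Nat.card R :=
    Nat.card_congr (Subgroup.subgroupOfEquivOfLe h).toEquiv
  rw [h2] at h1
  exact h1

lemma IsSyl.smul {R K : Subgroup G} (h : IsSyl p R K) {g : G} (hg : g ∈ K) :
    IsSyl p (g • R) K := by
  refine ⟨smul_le_of_mem hg h.1, h.2.1.map _, ?_⟩
  have h1 := relIndex_mul_card' h.1
  have h2 := relIndex_mul_card' (smul_le_of_mem hg h.1)
  rw [card_smul'] at h2
  have hpos : 0 < Nat.card R := Nat.card_pos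
  have : (g • R).relIndex K = R.relIndex K :=
    Nat.eq_of_mul_eq_mul_right hpos (h2.trans h1.symm)
  rw [this]
  exact h.2.2

lemma IsSyl.mono {R K L : Subgroup G} (h : IsSyl p R K) (hRL : R ≤ L) (hLK : L ≤ K) :
    IsSyl p R L := by
  refine ⟨hRL, h.2.1, fun hd => h.2.2 ?_⟩
  rw [← Subgroup.relIndex_mul_relIndex R L K hRL hLK]
  exact Dvd.dvd.mul_right hd _

lemma IsSyl.up {R R₀ K L : Subgroup G} (h : IsSyl p R L) (hLK : L ≤ K) (h₀ : IsSyl p R₀ K)
    (hR₀ : R₀ ≤ L) : IsSyl p R K := by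
  obtain ⟨g, hg, rfl⟩ := (h₀.mono hR₀ hLK).conj h
  exact h₀.smul (hLK hg)

lemma isPGroup_zpowers {x : G} (hx : x ∈ pEl p) : IsPGroup p (Subgroup.zpowers x) := by
  obtain ⟨k, hk⟩ := hx
  rintro ⟨y, n, rfl⟩
  refine ⟨k, ?_⟩
  apply Subtype.ext
  simp only [SubmonoidClass.coe_pow, OneMemClass.coe_one]
  show (x ^ n) ^ p ^ k = 1
  rw [← zpow_natCast, ← zpow_mul, mul_comm, zpow_mul, zpow_natCast, hk, one_zpow]

/-- A `p`-element normalizing a subgroup containing a Sylow subgroup lies in that subgroup. -/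
lemma IsSyl.mem_of_normalizes {R K I : Subgroup G} (h : IsSyl p R K) (hRI : R ≤ I) {x : G}
    (hxK : x ∈ K) (hx : x ∈ pEl p) (hn : x • I = I) : x ∈ I := by
  set L' : Subgroup G := K ⊓ MulAction.stabilizer G I with hL'
  have hRL' : R ≤ L' := fun r hr =>
    ⟨h.1 hr, MulAction.mem_stabilizer_iff.2 (smul_self_of_mem (hRI hr))⟩
  have hS : IsSyl p R L' := h.mono hRL' inf_le_left
  have hxL' : x ∈ L' := ⟨hxK, MulAction.mem_stabilizer_iff.2 hn⟩
  have hle : Subgroup.zpowers x ≤ L' := by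
    rwa [Subgroup.zpowers_le]
  obtain ⟨g, hg, hQ⟩ := hS.cover hle (isPGroup_zpowers hx)
  have hgI : g • I = I := MulAction.mem_stabilizer_iff.1 hg.2
  have : x ∈ g • R := hQ (Subgroup.mem_zpowers x)
  have h3 := smul_le_smul' g hRI this
  rwa [hgI] at h3

end Sylow

section Orbits

variable {α : Type*} [MulAction G α] [Fintype α]

/-- `R` fixes the point `b` -/
def fixes (R : Subgroup G) (b : α) : Prop := ∀ r ∈ R, r • b = b

/-- the orbit of `a` under the subgroup `K`, as a finset -/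
noncomputable def orb (K : Subgroup G) (a : α) : Finset α :=
  Finset.univ.filter (fun b => ∃ g ∈ K, g • a = b)

lemma mem_orb {K : Subgroup G} {a b : α} : b ∈ orb K a ↔ ∃ g ∈ K, g • a = b := by
  simp [orb]

lemma self_mem_orb (K : Subgroup G) (a : α) : a ∈ orb K a :=
  mem_orb.2 ⟨1, K.one_mem, one_smul _ _⟩

lemma smul_mem_orb {K : Subgroup G} {a : α} {g : G} (hg : g ∈ K) : g • a ∈ orb K a :=
  mem_orb.2 ⟨g, hg, rfl⟩

lemma orb_eq_of_mem {K : Subgroup G} {a b : α} (h : b ∈ orb K a) : orb K b = orb K a := by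
  obtain ⟨g, hg, rfl⟩ := mem_orb.1 h
  ext c
  simp only [mem_orb]
  constructor
  · rintro ⟨k, hk, rfl⟩
    exact ⟨k * g, K.mul_mem hk hg, mul_smul _ _ _⟩
  · rintro ⟨k, hk, rfl⟩
    refine ⟨k * g⁻¹, K.mul_mem hk (K.inv_mem hg), ?_⟩
    simp [mul_smul]

lemma orb_disjoint {K : Subgroup G} {a b : α} (h : orb K a ≠ orb K b) :
    Disjoint (orb K a) (orb K b) := by
  rw [Finset.disjoint_left]
  intro c h1 h2
  exact h ((orb_eq_of_mem h1).symm.trans (orb_eq_of_mem h2))

/-- the finset `A` is stable under `K` -/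
def Stable (K : Subgroup G) (A : Finset α) : Prop := ∀ g ∈ K, ∀ b ∈ A, g • b ∈ A

lemma stable_orb (K : Subgroup G) (a : α) : Stable K (orb K a) := by
  intro g hg b hb
  rw [← orb_eq_of_mem hb]
  exact smul_mem_orb hg

lemma Stable.mono {K L : Subgroup G} {A : Finset α} (h : Stable K A) (hL : L ≤ K) : Stable L A :=
  fun g hg b hb => h g (hL hg) b hb

lemma Stable.orb_subset {K : Subgroup G} {A : Finset α} (h : Stable K A) {a : α} (ha : a ∈ A) :
    orb K a ⊆ A := by
  intro b hb
  obtain ⟨g, hg, rfl⟩ := mem_orb.1 hb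
  exact h g hg a ha

variable (p : ℕ)

/-- weight of a point -/
noncomputable def w (R : Subgroup G) (b : α) : ℤ := if fixes R b then -(p : ℤ) else (p : ℤ) - 1

/-- the defect of a finite set of points -/
noncomputable def d (R : Subgroup G) (A : Finset α) : ℤ := ∑ b ∈ A, w p R b

variable {p}

lemma d_formula (R : Subgroup G) (A : Finset α) :
    d p R A = ((p : ℤ) - 1) * A.card - (2 * (p : ℤ) - 1) * (A.filter (fixes R)).card := by
  unfold d w
  rw [Finset.sum_ite]
  simp only [Finset.sum_const, nsmul_eq_mul]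
  have h : (A.filter (fun x => ¬ fixes R x)).card = A.card - (A.filter (fixes R)).card := by
    rw [← Finset.card_filter_add_card_filter_not (s := A) (fixes R)]
    simp
  have h2 : ((A.filter (fun x => ¬ fixes R x)).card : ℤ) = A.card - (A.filter (fixes R)).card := by
    rw [← Finset.card_filter_add_card_filter_not (s := A) (fixes R)]
    push_cast
    ring
  rw [h2]
  ring

lemma d_eq_sum_orbits {K R : Subgroup G} {A : Finset α} (hA : Stable K A) :
    d p R A = ∑ V ∈ A.image (orb K), d p R V := by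
  have h1 : A = (A.image (orb K)).biUnion id := by
    ext b
    simp only [Finset.mem_biUnion, Finset.mem_image, id]
    constructor
    · intro hb
      exact ⟨orb K b, ⟨b, hb, rfl⟩, self_mem_orb K b⟩
    · rintro ⟨_, ⟨c, hc, rfl⟩, hb⟩
      exact hA.orb_subset hc hb
  have h2 : Set.PairwiseDisjoint (↑(A.image (orb K)) : Set (Finset α)) id := by
    intro V hV W hW hne
    simp only [Finset.coe_image, Set.mem_image, Finset.mem_coe] at hV hW
    obtain ⟨a, _, rfl⟩ := hV
    obtain ⟨b, _, rfl⟩ := hW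
    exact orb_disjoint hne
  unfold d
  conv_lhs => rw [h1]
  rw [Finset.sum_biUnion h2]
  rfl

/-- For a `p`-group `R` and an `R`-stable set `A`, the set `A` and its fixed points have the same
size modulo `p`. -/
lemma card_modEq_filter [Fact p.Prime] {R : Subgroup G} (hR : IsPGroup p R) {A : Finset α}
    (hA : Stable R A) : A.card ≡ (A.filter (fixes R)).card [MOD p] := by
  let S : SubMulAction R α :=
    { carrier := ↑A
      smul_mem' := fun c b hb => hA c.1 c.2 b hb }
  have h := hR.card_modEq_card_fixedPoints S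
  have h1 : Nat.card S = A.card := by
    have : Nat.card S = Nat.card (↑A : Set α) := rfl
    rw [this]
    simp
  have h2 : Nat.card (MulAction.fixedPoints R S) = (A.filter (fixes R)).card := by
    have e : MulAction.fixedPoints R S ≃ ((A.filter (fixes R)) : Finset α) :=
      { toFun := fun x => ⟨x.1.1, Finset.mem_filter.2 ⟨x.1.2, fun r hr => by
            have := x.2 ⟨r, hr⟩
            exact congrArg Subtype.val this⟩⟩
        invFun := fun x => ⟨⟨x.1, (Finset.mem_filter.1 x.2).1⟩, fun r => by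
            apply Subtype.ext
            exact (Finset.mem_filter.1 x.2).2 r.1 r.2⟩
        left_inv := fun x => rfl
        right_inv := fun x => rfl }
    rw [Nat.card_congr e, Nat.card_eq_fintype_card, Fintype.card_coe]
  rw [h1, h2] at h
  exact h

lemma fixes_smul_iff {R : Subgroup G} {g : G} {b : α} : fixes (g • R) (g • b) ↔ fixes R b := by
  constructor
  · intro h r hr
    have h1 : g * r * g⁻¹ ∈ g • R := smul_smul_mem hr
    have h2 := h _ h1
    have h3 : (g * r * g⁻¹) • (g • b) = g • (r • b) := by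
      simp [mul_smul]
    rw [h3] at h2
    exact smul_left_cancel g h2
  · intro h r hr
    have h1 := h _ (mem_smul'.1 hr)
    have h2 : r • (g • b) = g • ((g⁻¹ * r * g) • b) := by
      simp [mul_smul]
    rw [h2, h1]

lemma d_smul {K R : Subgroup G} {A : Finset α} (hA : Stable K A) {g : G} (hg : g ∈ K) :
    d p (g • R) A = d p R A := by
  unfold d
  symm
  refine Finset.sum_nbij' (fun b => g • b) (fun b => g⁻¹ • b) ?_ ?_ ?_ ?_ ?_
  · intro b hb; exact hA g hg b hb
  · intro b hb; exact hA g⁻¹ (K.inv_mem hg) b hb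
  · intro b _; simp
  · intro b _; simp
  · intro b _
    unfold w
    by_cases h : fixes R b
    · rw [if_pos h, if_pos (fixes_smul_iff.2 h)]
    · rw [if_neg h, if_neg (fun h' => h (fixes_smul_iff.1 h'))]

lemma d_conj_eq [Fact p.Prime] {K R R' : Subgroup G} {A : Finset α} (hA : Stable K A)
    (hR : IsSyl p R K) (hR' : IsSyl p R' K) : d p R A = d p R' A := by
  obtain ⟨g, hg, rfl⟩ := hR.conj hR'
  exact (d_smul hA hg).symm

lemma p_dvd_d [Fact p.Prime] {R : Subgroup G} (hR : IsPGroup p R) {A : Finset α}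
    (hA : Stable R A) : (p : ℤ) ∣ d p R A := by
  rw [d_formula]
  have h := card_modEq_filter hR hA
  have h2 : (p : ℤ) ∣ (A.filter (fixes R)).card - A.card := by
    have := (Nat.modEq_iff_dvd.1 h)
    simpa using this
  obtain ⟨c, hc⟩ := h2
  refine ⟨c - p * c - (A.filter (fixes R)).card, ?_⟩
  have : ((A.card : ℤ)) = (A.filter (fixes R)).card - p * c := by linarith
  rw [this]
  ring

/-- If `R` fixes no point of the nonempty stable set `A` then `d` is large. -/
lemma d_ge_of_no_fixed [Fact p.Prime] {R : Subgroup G} (hR : IsPGroup p R) {A : Finset α}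
    (hA : Stable R A) (hne : A.Nonempty) (hno : ∀ b ∈ A, ¬ fixes R b) :
    (p : ℤ) * ((p : ℤ) - 1) ≤ d p R A := by
  have hf : A.filter (fixes R) = ∅ := Finset.filter_eq_empty_iff.2 hno
  have h := card_modEq_filter hR hA
  rw [hf, Finset.card_empty] at h
  have hd : p ∣ A.card := (Nat.modEq_zero_iff_dvd).1 h
  have hle : p ≤ A.card := Nat.le_of_dvd (Finset.card_pos.2 hne) hd
  rw [d_formula, hf, Finset.card_empty]
  have hp1 : (1 : ℤ) ≤ p := by exact_mod_cast (Fact.out : p.Prime).one_lt.le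
  have : (p : ℤ) ≤ A.card := by exact_mod_cast hle
  simp only [Nat.cast_zero, mul_zero, sub_zero]
  nlinarith [mul_le_mul_of_nonneg_left this (sub_nonneg.2 hp1)]

end Orbits

section Psi

noncomputable instance instFintypeSubgroupG : Fintype (Subgroup G) := Fintype.ofFinite _

variable {α : Type*} [MulAction G α] [Fintype α]
variable (p : ℕ)

/-- the subgroup generated by the `p`-elements of the `K`-stabilizer of `b` -/
def Psi (K : Subgroup G) (b : α) : Subgroup G := Opp p (K ⊓ MulAction.stabilizer G b)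

/-- `M` is a Sylow-generated subgroup of `K` containing a Sylow subgroup of `K`. -/
def Good (K M : Subgroup G) : Prop := M ≤ K ∧ Opp p M = M ∧ ∃ R, IsSyl p R K ∧ R ≤ M

variable {p}

lemma stabilizer_smul' (g : G) (b : α) :
    MulAction.stabilizer G (g • b) = g • MulAction.stabilizer G b := by
  ext x
  rw [mem_smul', MulAction.mem_stabilizer_iff, MulAction.mem_stabilizer_iff]
  simp only [mul_smul]
  constructor
  · intro h
    rw [h]; simp
  · intro h
    have := congrArg (fun c => g • c) h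
    simpa using this

lemma Psi_smul {K : Subgroup G} {g : G} (hg : g ∈ K) (b : α) :
    Psi p K (g • b) = g • Psi p K b := by
  unfold Psi
  rw [← Opp_smul, smul_inf, smul_self_of_mem hg, stabilizer_smul']

lemma Psi_le (K : Subgroup G) (b : α) : Psi p K b ≤ K ⊓ MulAction.stabilizer G b := Opp_le _

lemma Good.smul [Fact p.Prime] {K M : Subgroup G} (h : Good p K M) {g : G} (hg : g ∈ K) : Good p K (g • M) := by
  obtain ⟨h1, h2, R, hR, hRM⟩ := h
  refine ⟨smul_le_of_mem hg h1, ?_, g • R, hR.smul hg, smul_le_smul' g hRM⟩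
  rw [Opp_smul, h2]

lemma le_Psi_of_fixes [Fact p.Prime] {K R : Subgroup G} (hR : IsSyl p R K) {b : α}
    (hb : fixes R b) : R ≤ Psi p K b :=
  le_Opp_of_isPGroup hR.2.1 (fun r hr => ⟨hR.1 hr, MulAction.mem_stabilizer_iff.2 (hb r hr)⟩)

lemma Psi_good [Fact p.Prime] {K R : Subgroup G} (hR : IsSyl p R K) {b : α} (hb : fixes R b) :
    Good p K (Psi p K b) :=
  ⟨(Psi_le K b).trans inf_le_left, Opp_idem _, R, hR, le_Psi_of_fixes hR hb⟩

lemma fixes_iff_Psi [Fact p.Prime] {K R : Subgroup G} (hR : IsSyl p R K) {b : α}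
    (hg : Good p K (Psi p K b)) : fixes R b ↔ fixes R (Psi p K b) := by
  constructor
  · intro hb r hr
    exact smul_self_of_mem (le_Psi_of_fixes hR hb hr)
  · intro hb r hr
    obtain ⟨_, _, R₀, hR₀, hle⟩ := hg
    have := hR₀.mem_of_normalizes hle (hR.1 hr) (mem_pEl_of_isPGroup hR.2.1 hr) (hb r hr)
    exact MulAction.mem_stabilizer_iff.1 ((Psi_le K b this).2)

/-- Relation between the defect of an orbit and the defect of its Sylow-generated quotient. -/
lemma d_Psi [Fact p.Prime] {K R : Subgroup G} (hR : IsSyl p R K) {a : α} (ha : fixes R a) :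
    ∃ φ : ℕ, 1 ≤ φ ∧ d p R (orb K a) = φ * d p R (orb K (Psi p K a)) := by
  classical
  set A := orb K a with hA
  set B := orb K (Psi p K a) with hB
  have hgood : Good p K (Psi p K a) := Psi_good hR ha
  have hmaps : ∀ b ∈ A, Psi p K b ∈ B := by
    intro b hb
    obtain ⟨g, hg, rfl⟩ := mem_orb.1 hb
    rw [Psi_smul hg]
    exact smul_mem_orb hg
  have hgood' : ∀ b ∈ A, Good p K (Psi p K b) := by
    intro b hb
    obtain ⟨g, hg, rfl⟩ := mem_orb.1 hb
    rw [Psi_smul hg]
    exact hgood.smul hg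
  set φ := (A.filter (fun b => Psi p K b = Psi p K a)).card with hφ
  have hφ1 : 1 ≤ φ := Finset.card_pos.2 ⟨a, Finset.mem_filter.2 ⟨self_mem_orb K a, rfl⟩⟩
  have hfib : ∀ c ∈ B, (A.filter (fun b => Psi p K b = c)).card = φ := by
    intro c hc
    obtain ⟨g, hg, rfl⟩ := mem_orb.1 hc
    symm
    refine Finset.card_nbij' (fun b => g • b) (fun b => g⁻¹ • b) ?_ ?_ ?_ ?_
    · intro b hb
      have hb' := Finset.mem_filter.1 (Finset.mem_coe.1 hb)
      refine Finset.mem_coe.2 (Finset.mem_filter.2 ⟨stable_orb K a g hg b hb'.1, ?_⟩)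
      rw [Psi_smul hg, hb'.2]
    · intro b hb
      have hb' := Finset.mem_filter.1 (Finset.mem_coe.1 hb)
      refine Finset.mem_coe.2 (Finset.mem_filter.2 ⟨stable_orb K a _ (K.inv_mem hg) b hb'.1, ?_⟩)
      rw [Psi_smul (K.inv_mem hg), hb'.2, inv_smul_smul]
    · intro b _; simp
    · intro b _; simp
  refine ⟨φ, hφ1, ?_⟩
  have h1 : d p R A = ∑ b ∈ A, w p R (Psi p K b) := by
    unfold d
    refine Finset.sum_congr rfl ?_
    intro b hb
    unfold w
    by_cases h : fixes R b
    · rw [if_pos h, if_pos ((fixes_iff_Psi hR (hgood' b hb)).1 h)]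
    · rw [if_neg h, if_neg (fun h' => h ((fixes_iff_Psi hR (hgood' b hb)).2 h'))]
  rw [h1, ← Finset.sum_fiberwise_of_maps_to hmaps]
  unfold d
  rw [Finset.mul_sum]
  refine Finset.sum_congr rfl ?_
  intro c hc
  have : ∀ b ∈ A.filter (fun b => Psi p K b = c), w p R (Psi p K b) = w p R c := by
    intro b hb
    rw [(Finset.mem_filter.1 hb).2]
  rw [Finset.sum_congr rfl this, Finset.sum_const, hfib c hc, nsmul_eq_mul]

/-- The main hypothesis: defect of the conjugacy class of a proper good subgroup is nonnegative -/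
def T0stmt (p : ℕ) (K : Subgroup G) : Prop :=
  ∀ M R : Subgroup G, Good p K M → M ≠ K → IsSyl p R K → 0 ≤ d p R (orb K M)

lemma T1 [Fact p.Prime] {K R : Subgroup G} (hT : T0stmt p K) {a : α}
    (hmove : ¬ K ≤ MulAction.stabilizer G a) (hR : IsSyl p R K) : 0 ≤ d p R (orb K a) := by
  by_cases h : ∃ b ∈ orb K a, fixes R b
  · obtain ⟨b, hb, hfb⟩ := h
    rw [← orb_eq_of_mem hb]
    obtain ⟨φ, hφ, hd⟩ := d_Psi hR hfb
    rw [hd]
    have hne : Psi p K b ≠ K := by
      intro he
      apply hmove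
      obtain ⟨g, hg, rfl⟩ := mem_orb.1 hb
      intro k hk
      have hk2 : g * k * g⁻¹ ∈ K := K.mul_mem (K.mul_mem hg hk) (K.inv_mem hg)
      rw [← he] at hk2
      have h3 : g * k * g⁻¹ ∈ MulAction.stabilizer G (g • a) := ((Psi_le K (g • a)) hk2).2
      rw [MulAction.mem_stabilizer_iff] at h3
      simp only [mul_smul, inv_smul_smul] at h3
      exact MulAction.mem_stabilizer_iff.2 (smul_left_cancel g h3)
    have := hT _ R (Psi_good hR hfb) hne hR
    positivity
  · push Not at h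
    rw [d_formula, Finset.filter_eq_empty_iff.2 h]
    have hp1 : (1 : ℤ) ≤ p := by exact_mod_cast (Fact.out : p.Prime).one_lt.le
    simp only [Finset.card_empty, Nat.cast_zero, mul_zero, sub_zero]
    have : (0 : ℤ) ≤ (orb K a).card := by positivity
    nlinarith

end Psi

section Main

variable {p : ℕ} [hp : Fact p.Prime]

lemma eq_of_normalizes {K K' c : Subgroup G} (hK' : Good p K K') (hc : Good p K c)
    (hn : K' ≤ MulAction.stabilizer G c) (hcard : Nat.card c ≤ Nat.card K') : c = K' := by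
  obtain ⟨h1, h2, _⟩ := hK'
  obtain ⟨_, _, R₀, hR₀, hle⟩ := hc
  have hle2 : K' ≤ c := by
    rw [← h2]
    refine (Subgroup.closure_le _).2 ?_
    rintro x ⟨hx1, hx2⟩
    have hx3 : x ∈ K' := hx2
    exact hR₀.mem_of_normalizes hle (h1 hx3) hx1 (MulAction.mem_stabilizer_iff.1 (hn hx3))
  exact (Subgroup.eq_of_le_of_card_ge hle2 hcard).symm

lemma sum_image_le_of_factor {ι β γ : Type*} [DecidableEq β] [DecidableEq γ] (s : Finset ι) (V : ι → β) (C : ι → γ)
    (hVC : ∀ i ∈ s, ∀ j ∈ s, V i = V j → C i = C j) (a : γ → ℤ) (b : β → ℤ)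
    (hb : ∀ i ∈ s, 0 ≤ b (V i)) (hab : ∀ i ∈ s, a (C i) ≤ b (V i)) :
    ∑ c ∈ s.image C, a c ≤ ∑ v ∈ s.image V, b v := by
  induction s using Finset.induction_on with
  | empty => simp
  | insert i t hi ih =>
    have ih' := ih (fun x hx y hy => hVC x (Finset.mem_insert_of_mem hx) y
      (Finset.mem_insert_of_mem hy)) (fun x hx => hb x (Finset.mem_insert_of_mem hx))
      (fun x hx => hab x (Finset.mem_insert_of_mem hx))
    rw [Finset.image_insert, Finset.image_insert]
    by_cases h : C i ∈ t.image C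
    · rw [Finset.insert_eq_of_mem h]
      refine ih'.trans (Finset.sum_le_sum_of_subset_of_nonneg (Finset.subset_insert _ _) ?_)
      intro v hv hv2
      simp only [Finset.mem_insert] at hv
      rcases hv with rfl | hv
      · exact hb i (Finset.mem_insert_self _ _)
      · exact absurd hv hv2
    · have h2 : V i ∉ t.image V := by
        intro hv
        obtain ⟨j, hj, hje⟩ := Finset.mem_image.1 hv
        apply h
        rw [← hVC j (Finset.mem_insert_of_mem hj) i (Finset.mem_insert_self _ _) hje]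
        exact Finset.mem_image_of_mem _ hj
      rw [Finset.sum_insert h, Finset.sum_insert h2]
      exact add_le_add (hab i (Finset.mem_insert_self _ _)) ih'

lemma fixes_of_le {K' R₁ : Subgroup G} (h : R₁ ≤ K') : fixes R₁ K' :=
  fun _ hr => smul_self_of_mem (h hr)

lemma w_of_le {K' R₁ : Subgroup G} (h : R₁ ≤ K') : w p R₁ K' = -(p : ℤ) := by
  unfold w; rw [if_pos (fixes_of_le h)]

lemma card_lt_of_le_ne {K' K : Subgroup G} (h : K' ≤ K) (hne : K' ≠ K) :
    Nat.card K' < Nat.card K := by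
  refine lt_of_le_of_ne (Subgroup.card_le_of_le h) ?_
  intro he
  exact hne (Subgroup.eq_of_le_of_card_ge h he.ge)

lemma Psi_le_of_good {K K' c : Subgroup G} (hK' : K' ≤ K) (hc : Good p K c) :
    Psi p K' c ≤ c := by
  obtain ⟨_, _, R₀, hR₀, hle⟩ := hc
  refine (Subgroup.closure_le _).2 ?_
  rintro x ⟨hx1, hx2⟩
  have hx3 : x ∈ K' ⊓ MulAction.stabilizer G c := hx2
  exact hR₀.mem_of_normalizes hle (hK' hx3.1) hx1 (MulAction.mem_stabilizer_iff.1 hx3.2)

/-- If an orbit of `K'` on `Subgroup G` contains a point fixed by a Sylow subgroup `R₁` of `K'` then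
we can compare the defect of that orbit with the one of the associated good subgroup. -/
lemma orb_Psi_facts {K' R₁ : Subgroup G} (hR₁ : IsSyl p R₁ K') {c : Subgroup G}
    (h : ∃ b ∈ orb K' c, fixes R₁ b) (hT : T0stmt p K')
    (hc : ¬ K' ≤ MulAction.stabilizer G c) :
    Good p K' (Psi p K' c) ∧ Psi p K' c ≠ K' ∧
      d p R₁ (orb K' (Psi p K' c)) ≤ d p R₁ (orb K' c) ∧
      (d p R₁ (orb K' c) = 0 → d p R₁ (orb K' (Psi p K' c)) = 0) := by
  obtain ⟨b, hb, hfb⟩ := h
  obtain ⟨m, hm, rfl⟩ := mem_orb.1 hb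
  have hg1 : Good p K' (Psi p K' (m • c)) := Psi_good hR₁ hfb
  have hPsi : Psi p K' (m • c) = m • Psi p K' c := Psi_smul hm c
  have hg2 : Good p K' (Psi p K' c) := by
    have := hg1.smul (K'.inv_mem hm)
    rwa [hPsi, inv_smul_smul] at this
  have hne : Psi p K' c ≠ K' := by
    intro he
    apply hc
    intro x hx
    have hx' : x ∈ Psi p K' c := by rw [he]; exact hx
    exact ((Psi_le K' c) hx').2
  obtain ⟨φ, hφ, hd⟩ := d_Psi hR₁ hfb
  have ho1 : orb K' (m • c) = orb K' c := orb_eq_of_mem hb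
  have ho2 : orb K' (Psi p K' (m • c)) = orb K' (Psi p K' c) := by
    rw [hPsi]
    exact orb_eq_of_mem (smul_mem_orb hm)
  rw [ho1, ho2] at hd
  have hnn := hT _ R₁ hg2 hne hR₁
  refine ⟨hg2, hne, ?_, ?_⟩
  · rw [hd]
    have : (1 : ℤ) ≤ φ := by exact_mod_cast hφ
    nlinarith
  · intro h0
    rw [h0] at hd
    have : (1 : ℤ) ≤ φ := by exact_mod_cast hφ
    nlinarith

/-- The simultaneous fixing lemma. -/
theorem lemD {ι : Type*} (n : ℕ) : ∀ (K : Subgroup G) (_ : Opp p K = K)
    (_ : ∀ K₁ : Subgroup G, Nat.card K₁ < Nat.card K → Opp p K₁ = K₁ → T0stmt p K₁)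
    (s : Finset ι) (_ : s.card ≤ n) (M : ι → Subgroup G)
    (_ : ∀ i ∈ s, Good p K (M i) ∧ M i ≠ K) (R : Subgroup G) (_ : IsSyl p R K)
    (_ : ∑ C ∈ s.image (fun i => orb K (M i)), d p R C + (p : ℤ) * s.card ≤
      (p : ℤ) * ((p : ℤ) - 1)),
    ∃ R', IsSyl p R' K ∧ ∀ i ∈ s, R' ≤ M i := by
  induction n with
  | zero =>
    intro K _ _ s hs M _ R hR _
    have : s = ∅ := Finset.card_eq_zero.1 (Nat.le_zero.1 hs)
    subst this
    exact ⟨R, hR, by simp⟩
  | succ n ih =>
    intro K hK IH s hs M hM R hR hμ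
    rcases s.eq_empty_or_nonempty with rfl | hne
    · exact ⟨R, hR, by simp⟩
    obtain ⟨i₁, hi₁, hmax⟩ := Finset.exists_max_image s (fun i => Nat.card (M i)) hne
    set K' := M i₁ with hK'def
    have hgK' : Good p K K' := (hM i₁ hi₁).1
    obtain ⟨hK'le, hK'o, R₁, hR₁, hR₁le⟩ := id hgK'
    have hK'ne : K' ≠ K := (hM i₁ hi₁).2
    have hcardlt : Nat.card K' < Nat.card K := card_lt_of_le_ne hK'le hK'ne
    have hT' : T0stmt p K' := IH K' hcardlt hK'o
    have hR₁' : IsSyl p R₁ K' := hR₁.mono hR₁le hK'le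
    set s' := s.filter (fun i => M i ≠ K') with hs'def
    have hs'sub : s' ⊆ s := Finset.filter_subset _ _
    have hi₁s' : i₁ ∉ s' := by
      intro h
      exact (Finset.mem_filter.1 h).2 rfl
    have hs'card : s'.card + 1 ≤ s.card := by
      have : s' ⊂ s := by
        refine Finset.ssubset_iff_subset_ne.2 ⟨hs'sub, ?_⟩
        intro he
        exact hi₁s' (he ▸ hi₁)
      exact Finset.card_lt_card this
    have hfix : ∀ i ∈ s, ∀ c ∈ orb K (M i), K' ≤ MulAction.stabilizer G c → c = K' := by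
      intro i hi c hc hn
      obtain ⟨g, hg, rfl⟩ := mem_orb.1 hc
      refine eq_of_normalizes hgK' ((hM i hi).1.smul hg) hn ?_
      rw [card_smul']
      exact hmax i hi
    have hnostab : ∀ i ∈ s', ¬ K' ≤ MulAction.stabilizer G (M i) := by
      intro i hi hn
      have hi' := Finset.mem_filter.1 hi
      exact hi'.2 (hfix i hi'.1 _ (self_mem_orb _ _) hn)
    -- the union of the classes
    set CC := s.image (fun i => orb K (M i)) with hCC
    set Uplus := CC.biUnion id with hUplus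
    have hdU : d p R₁ Uplus = ∑ C ∈ CC, d p R₁ C := by
      have h2 : Set.PairwiseDisjoint (↑CC : Set (Finset (Subgroup G))) id := by
        intro V hV W hW hne
        simp only [hCC, Finset.coe_image, Set.mem_image, Finset.mem_coe] at hV hW
        obtain ⟨a, _, rfl⟩ := hV
        obtain ⟨b, _, rfl⟩ := hW
        exact orb_disjoint hne
      unfold d
      rw [hUplus, Finset.sum_biUnion h2]
      rfl
    have hKin : K' ∈ Uplus := by
      rw [hUplus, Finset.mem_biUnion]
      exact ⟨orb K K', Finset.mem_image.2 ⟨i₁, hi₁, rfl⟩, self_mem_orb _ _⟩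
    have hUmem : ∀ c, c ∈ Uplus ↔ ∃ i ∈ s, c ∈ orb K (M i) := by
      intro c
      simp only [hUplus, hCC, Finset.mem_biUnion, Finset.mem_image, id]
      constructor
      · rintro ⟨_, ⟨i, hi, rfl⟩, hc⟩
        exact ⟨i, hi, hc⟩
      · rintro ⟨i, hi, hc⟩
        exact ⟨_, ⟨i, hi, rfl⟩, hc⟩
    set U := Uplus.erase K' with hU
    have hdU2 : d p R₁ U = d p R₁ Uplus + p := by
      unfold d
      rw [hU, Finset.sum_erase_eq_sub hKin, w_of_le hR₁le]
      ring
    have hUstable : Stable K' U := by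
      intro g hg b hb
      have hb' := Finset.mem_erase.1 hb
      obtain ⟨i, hi, hbi⟩ := (hUmem b).1 hb'.2
      refine Finset.mem_erase.2 ⟨?_, (hUmem _).2 ⟨i, hi, stable_orb K _ g (hK'le hg) b hbi⟩⟩
      intro he
      apply hb'.1
      have : b = g⁻¹ • K' := by rw [← he]; simp
      rw [this]
      exact smul_self_of_mem (K'.inv_mem hg)
    have hVnonneg : ∀ c ∈ U, 0 ≤ d p R₁ (orb K' c) := by
      intro c hc
      have hc' := Finset.mem_erase.1 hc
      obtain ⟨i, hi, hci⟩ := (hUmem c).1 hc'.2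
      exact T1 hT' (fun hn => hc'.1 (hfix i hi c hci hn)) hR₁'
    have hpart := d_eq_sum_orbits (p := p) (K := K') (R := R₁) hUstable
    set VV := s'.image (fun i => orb K' (M i)) with hVV
    have hs'U : ∀ i ∈ s', M i ∈ U := by
      intro i hi
      have hi' := Finset.mem_filter.1 hi
      exact Finset.mem_erase.2 ⟨hi'.2, (hUmem _).2 ⟨i, hi'.1, self_mem_orb _ _⟩⟩
    have hsub : VV ⊆ U.image (orb K') := by
      intro V hV
      obtain ⟨i, hi, rfl⟩ := Finset.mem_image.1 hV
      exact Finset.mem_image.2 ⟨_, hs'U i hi, rfl⟩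
    have himgnonneg : ∀ V ∈ U.image (orb K'), 0 ≤ d p R₁ V := by
      intro V hV
      obtain ⟨c, hc, rfl⟩ := Finset.mem_image.1 hV
      exact hVnonneg c hc
    have hVsum : ∑ V ∈ VV, d p R₁ V ≤ d p R₁ U := by
      rw [hpart]
      exact Finset.sum_le_sum_of_subset_of_nonneg hsub (fun V hV _ => himgnonneg V hV)
    have hμ₁ : ∑ C ∈ CC, d p R C = ∑ C ∈ CC, d p R₁ C := by
      refine Finset.sum_congr rfl ?_
      intro C hC
      obtain ⟨i, _, rfl⟩ := Finset.mem_image.1 hC
      exact d_conj_eq (stable_orb K _) hR hR₁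
    have hp0 : (0 : ℤ) < p := by exact_mod_cast (Fact.out : p.Prime).pos
    have hmain : ∑ V ∈ VV, d p R₁ V + (p : ℤ) * s'.card ≤ (p : ℤ) * ((p : ℤ) - 1) := by
      have h1 : (s'.card : ℤ) + 1 ≤ s.card := by exact_mod_cast hs'card
      have h2 : (p : ℤ) * (s'.card + 1) ≤ p * s.card := mul_le_mul_of_nonneg_left h1 hp0.le
      rw [hμ₁] at hμ
      rw [hdU2, hdU] at hVsum
      nlinarith
    have hVVnonneg : ∀ V ∈ VV, 0 ≤ d p R₁ V := fun V hV => himgnonneg V (hsub hV)
    have hleaf : ∀ i ∈ s', ∃ b ∈ orb K' (M i), fixes R₁ b := by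
      intro i hi
      by_contra hno
      push Not at hno
      have h1 := d_ge_of_no_fixed (p := p) hR₁.2.1 ((stable_orb K' (M i)).mono hR₁le)
        ⟨_, self_mem_orb _ _⟩ hno
      have h2 : d p R₁ (orb K' (M i)) ≤ ∑ V ∈ VV, d p R₁ V :=
        Finset.single_le_sum hVVnonneg (Finset.mem_image_of_mem _ hi)
      have h3 : (1 : ℤ) ≤ s'.card := by
        exact_mod_cast Finset.card_pos.2 ⟨i, hi⟩
      nlinarith
    have hfacts := fun i (hi : i ∈ s') => orb_Psi_facts hR₁' (hleaf i hi) hT' (hnostab i hi)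
    have hfactor : ∀ i ∈ s', ∀ j ∈ s', orb K' (M i) = orb K' (M j) →
        orb K' (Psi p K' (M i)) = orb K' (Psi p K' (M j)) := by
      intro i _ j _ he
      have : M j ∈ orb K' (M i) := by rw [he]; exact self_mem_orb _ _
      obtain ⟨m, hm, hmj⟩ := mem_orb.1 this
      rw [← hmj, Psi_smul hm]
      exact (orb_eq_of_mem (smul_mem_orb hm)).symm
    have hμ' : ∑ C ∈ s'.image (fun i => orb K' (Psi p K' (M i))), d p R₁ C + (p : ℤ) * s'.card ≤
        (p : ℤ) * ((p : ℤ) - 1) := by
      have := sum_image_le_of_factor s' (fun i => orb K' (M i))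
        (fun i => orb K' (Psi p K' (M i))) hfactor (d p R₁) (d p R₁)
        (fun i hi => hVVnonneg _ (Finset.mem_image_of_mem _ hi))
        (fun i hi => (hfacts i hi).2.2.1)
      have this' : ∑ c ∈ s'.image (fun i => orb K' (Psi p K' (M i))), d p R₁ c ≤
          ∑ v ∈ VV, d p R₁ v := this
      linarith
    have hs'n : s'.card ≤ n := by omega
    obtain ⟨R', hR', hR'le⟩ := ih K' hK'o
      (fun K₁ h1 h2 => IH K₁ (h1.trans hcardlt) h2) s' hs'n (fun i => Psi p K' (M i))
      (fun i hi => ⟨(hfacts i hi).1, (hfacts i hi).2.1⟩) R₁ hR₁' hμ'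
    refine ⟨R', hR'.up hK'le hR₁ hR₁le, ?_⟩
    intro i hi
    by_cases h : M i = K'
    · rw [h]; exact hR'.1
    · have hi' : i ∈ s' := Finset.mem_filter.2 ⟨hi, h⟩
      exact (hR'le i hi').trans (Psi_le_of_good hK'le (hM i hi).1)

lemma pow_smul_mod_aux {y : G} {M : Subgroup G} (hy : y ^ p • M = M) (q : ℕ) :
    y ^ (p * q) • M = M := by
  induction q with
  | zero => simp
  | succ q ih => rw [Nat.mul_succ, pow_add, mul_smul, hy, ih]

lemma pow_smul_mod {y : G} {M : Subgroup G} (hy : y ^ p • M = M) (j : ℕ) :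
    y ^ j • M = y ^ (j % p) • M := by
  conv_lhs => rw [← Nat.mod_add_div j p, pow_add, mul_smul, pow_smul_mod_aux hy]

lemma pow_smul_ne {y : G} {M : Subgroup G} (hy : y ^ p • M = M) (hy1 : y • M ≠ M) {i : ℕ}
    (hi0 : 0 < i) (hip : i < p) : y ^ i • M ≠ M := by
  intro h
  apply hy1
  have hcop : Nat.gcd i p = 1 := by
    have hpp : p.Prime := Fact.out
    exact (Nat.coprime_comm.1 ((Nat.Prime.coprime_iff_not_dvd hpp).2
      (fun hd => absurd (Nat.le_of_dvd hi0 hd) (by omega))))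
  have hgcd := Nat.gcd_eq_gcd_ab i p
  rw [hcop] at hgcd
  have h1 : y ^ i ∈ MulAction.stabilizer G M := MulAction.mem_stabilizer_iff.2 h
  have h2 : y ^ p ∈ MulAction.stabilizer G M := MulAction.mem_stabilizer_iff.2 hy
  have h3 : y = (y ^ i) ^ (Nat.gcdA i p) * (y ^ p) ^ (Nat.gcdB i p) := by
    rw [← zpow_natCast, ← zpow_natCast, ← zpow_mul, ← zpow_mul, ← zpow_add, ← hgcd]
    simp
  have h4 : y ∈ MulAction.stabilizer G M := by
    rw [h3]
    exact Subgroup.mul_mem _ (Subgroup.zpow_mem _ h1 _) (Subgroup.zpow_mem _ h2 _)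
  exact MulAction.mem_stabilizer_iff.1 h4

theorem T0_step (K : Subgroup G) (hK : Opp p K = K)
    (IH : ∀ K₁ : Subgroup G, Nat.card K₁ < Nat.card K → Opp p K₁ = K₁ → T0stmt p K₁) :
    T0stmt p K := by
  intro M R hM hne hR
  obtain ⟨hMle, hMo, R₀, hR₀, hR₀le⟩ := id hM
  rw [d_conj_eq (stable_orb K M) hR hR₀]
  have hcardlt : Nat.card M < Nat.card K := card_lt_of_le_ne hMle hne
  have hT : T0stmt p M := IH M hcardlt hMo
  have hR₀M : IsSyl p R₀ M := hR₀.mono hR₀le hMle
  set C := orb K M with hC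
  set A := C.erase M with hA
  have hMC : M ∈ C := self_mem_orb _ _
  have hdA : d p R₀ A = d p R₀ C + p := by
    unfold d
    rw [hA, Finset.sum_erase_eq_sub hMC, w_of_le hR₀le]
    ring
  have hfix : ∀ c ∈ C, M ≤ MulAction.stabilizer G c → c = M := by
    intro c hc hn
    obtain ⟨g, hg, rfl⟩ := mem_orb.1 hc
    refine eq_of_normalizes hM (hM.smul hg) hn ?_
    rw [card_smul']
  have hAstable : Stable M A := by
    intro g hg b hb
    have hb' := Finset.mem_erase.1 hb
    refine Finset.mem_erase.2 ⟨?_, stable_orb K M g (hMle hg) b hb'.2⟩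
    intro he
    apply hb'.1
    have : b = g⁻¹ • M := by rw [← he]; simp
    rw [this]
    exact smul_self_of_mem (M.inv_mem hg)
  have hV0 : ∀ c ∈ A, ¬ M ≤ MulAction.stabilizer G c := by
    intro c hc hn
    have hc' := Finset.mem_erase.1 hc
    exact hc'.1 (hfix c hc'.2 hn)
  have hnonneg : ∀ c ∈ A, 0 ≤ d p R₀ (orb M c) := fun c hc => T1 hT (hV0 c hc) hR₀M
  have hpart := d_eq_sum_orbits (p := p) (K := M) (R := R₀) hAstable
  have himg : ∀ V ∈ A.image (orb M), 0 ≤ d p R₀ V := by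
    intro V hV
    obtain ⟨c, hc, rfl⟩ := Finset.mem_image.1 hV
    exact hnonneg c hc
  by_contra hneg
  push Not at hneg
  have hp0 : (0 : ℤ) < p := by exact_mod_cast (Fact.out : p.Prime).pos
  have hp2 : (2 : ℤ) ≤ p := by exact_mod_cast (Fact.out : p.Prime).two_le
  have hzero : ∀ c ∈ A, d p R₀ (orb M c) = 0 := by
    intro c hc
    have h1 : d p R₀ (orb M c) ≤ d p R₀ A := by
      rw [hpart]
      exact Finset.single_le_sum himg (Finset.mem_image_of_mem _ hc)
    have h2 := hnonneg c hc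
    obtain ⟨t, ht⟩ := p_dvd_d (p := p) hR₀.2.1 ((stable_orb M c).mono hR₀M.1)
    have h3 : (p : ℤ) * t < p * 1 := by
      rw [← ht]; linarith
    have h4 : t < 1 := lt_of_mul_lt_mul_left h3 hp0.le
    have h5 : 0 ≤ t := by
      by_contra hcon
      push Not at hcon
      nlinarith
    have h6 : t = 0 := by omega
    rw [ht, h6, mul_zero]
  -- a `p`-element moving `M`
  have hexists : ∃ x ∈ K, x ∈ pEl p ∧ x • M ≠ M := by
    by_contra hno
    push Not at hno
    apply hne
    apply le_antisymm hMle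
    rw [← hK]
    refine (Subgroup.closure_le _).2 ?_
    rintro x ⟨hx1, hx2⟩
    exact hR₀.mem_of_normalizes hR₀le hx2 hx1 (hno x hx2 hx1)
  obtain ⟨x, hxK, hxp, hxM⟩ := hexists
  obtain ⟨k, hk⟩ := id hxp
  have hexa : ∃ a : ℕ, x ^ (p ^ a) • M = M := ⟨k, by rw [hk, one_smul]⟩
  have ha0 : Nat.find hexa ≠ 0 := by
    intro h0
    have := Nat.find_spec hexa
    rw [h0] at this
    simp at this
    exact hxM this
  obtain ⟨b, hb⟩ := Nat.exists_eq_succ_of_ne_zero ha0
  set y := x ^ (p ^ b) with hy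
  have hyM : y • M ≠ M := Nat.find_min hexa (by rw [hb]; exact Nat.lt_succ_self b)
  have hypM : y ^ p • M = M := by
    have := Nat.find_spec hexa
    rw [hb, pow_succ, pow_mul] at this
    exact this
  have hyK : y ∈ K := K.pow_mem hxK _
  have hyp : y ∈ pEl p := by
    refine ⟨k, ?_⟩
    rw [hy, ← pow_mul, mul_comm, pow_mul, hk, one_pow]
  -- the family
  set c : ℕ → Subgroup G := fun i => y ^ (i + 1) • M with hc
  have hcA : ∀ i ∈ Finset.range (p - 1), c i ∈ A := by
    intro i hi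
    have hi' : i < p - 1 := Finset.mem_range.1 hi
    refine Finset.mem_erase.2 ⟨pow_smul_ne hypM hyM (by omega) (by omega), ?_⟩
    exact smul_mem_orb (K.pow_mem hyK _)
  have hcfix : ∀ i ∈ Finset.range (p - 1), ∃ b ∈ orb M (c i), fixes R₀ b := by
    intro i hi
    by_contra hno
    push Not at hno
    have h1 := d_ge_of_no_fixed (p := p) hR₀.2.1 ((stable_orb M (c i)).mono hR₀M.1)
      ⟨_, self_mem_orb _ _⟩ hno
    rw [hzero _ (hcA i hi)] at h1
    nlinarith
  have hfacts := fun i (hi : i ∈ Finset.range (p - 1)) =>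
    orb_Psi_facts hR₀M (hcfix i hi) hT (hV0 _ (hcA i hi))
  have hcard : ((Finset.range (p - 1)).card : ℤ) = (p : ℤ) - 1 := by
    rw [Finset.card_range]
    have : 1 ≤ p := (Fact.out : p.Prime).one_lt.le
    push_cast [Nat.cast_sub this]
    ring
  have hμ : ∑ C' ∈ (Finset.range (p - 1)).image (fun i => orb M (Psi p M (c i))), d p R₀ C' +
      (p : ℤ) * (Finset.range (p - 1)).card ≤ (p : ℤ) * ((p : ℤ) - 1) := by
    have : ∑ C' ∈ (Finset.range (p - 1)).image (fun i => orb M (Psi p M (c i))), d p R₀ C' = 0 := by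
      refine Finset.sum_eq_zero ?_
      intro C' hC'
      obtain ⟨i, hi, rfl⟩ := Finset.mem_image.1 hC'
      exact (hfacts i hi).2.2.2 (hzero _ (hcA i hi))
    rw [this, hcard]
    simp
  obtain ⟨R', hR', hR'le⟩ := lemD (ι := ℕ) _ M hMo
    (fun K₁ h1 h2 => IH K₁ (h1.trans hcardlt) h2) (Finset.range (p - 1)) le_rfl
    (fun i => Psi p M (c i)) (fun i hi => ⟨(hfacts i hi).1, (hfacts i hi).2.1⟩) R₀ hR₀M hμ
  have hR'K : IsSyl p R' K := hR'.up hMle hR₀ hR₀le
  have hgoodc : ∀ i, Good p K (c i) := fun i => hM.smul (K.pow_mem hyK _)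
  have hR'c : ∀ i ∈ Finset.range (p - 1), R' ≤ c i := fun i hi =>
    (hR'le i hi).trans (Psi_le_of_good hMle (hgoodc i))
  have hR'all : ∀ j : ℕ, R' ≤ y ^ j • M := by
    intro j
    rw [pow_smul_mod hypM j]
    have hlt : j % p < p := Nat.mod_lt _ (Fact.out : p.Prime).pos
    rcases Nat.eq_zero_or_pos (j % p) with h0 | hpos
    · rw [h0, pow_zero, one_smul]
      exact hR'.1
    · obtain ⟨i, hi⟩ := Nat.exists_eq_succ_of_ne_zero hpos.ne'
      rw [hi]
      exact hR'c i (Finset.mem_range.2 (by omega))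
  set I : Subgroup G := ⨅ j : ℕ, y ^ j • M with hI
  have hR'I : R' ≤ I := le_iInf hR'all
  have hyI1 : y • I ≤ I := by
    intro g hg
    refine Subgroup.mem_iInf.2 (fun j => ?_)
    have h1 := mem_smul'.1 hg
    have h2 : y⁻¹ * g * y ∈ y ^ (j + (p - 1)) • M := (Subgroup.mem_iInf.1 h1) _
    have h3 : g ∈ y • (y ^ (j + (p - 1)) • M) := mem_smul'.2 h2
    rw [← mul_smul, ← pow_succ'] at h3
    have hpp : 1 ≤ p := (Fact.out : p.Prime).one_lt.le
    have h4 : j + (p - 1) + 1 = j + p := by omega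
    rw [h4, pow_add, mul_smul, hypM] at h3
    exact h3
  have hyI : y • I = I := Subgroup.eq_of_le_of_card_ge hyI1 (by rw [card_smul'])
  have hyin : y ∈ I := hR'K.mem_of_normalizes hR'I hyK hyp hyI
  have hy0 : y ∈ y ^ 0 • M := (Subgroup.mem_iInf.1 hyin) 0
  rw [pow_zero, one_smul] at hy0
  exact hyM (smul_self_of_mem hy0)

theorem T0_all (n : ℕ) : ∀ K : Subgroup G, Nat.card K = n → Opp p K = K → T0stmt p K := by
  induction n using Nat.strong_induction_on with
  | _ n ih =>
    intro K hn hK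
    refine T0_step K hK ?_
    intro K₁ h1 h2
    exact ih _ (hn ▸ h1) K₁ rfl h2

/-- Sylow subgroups of a group generated by `p`-elements fix few points, in defect form. -/
theorem d_univ_nonneg {α : Type*} [MulAction G α] [Fintype α] {K R : Subgroup G}
    (hK : Opp p K = K) (hmove : ∀ a : α, ¬ K ≤ MulAction.stabilizer G a) (hR : IsSyl p R K) :
    0 ≤ d p R (Finset.univ : Finset α) := by
  have hst : Stable K (Finset.univ : Finset α) := fun _ _ _ _ => Finset.mem_univ _
  rw [d_eq_sum_orbits hst]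
  refine Finset.sum_nonneg ?_
  intro V hV
  obtain ⟨a, _, rfl⟩ := Finset.mem_image.1 hV
  exact T1 (T0_all _ K rfl hK) (hmove a) hR

/-- Main fixed point theorem. -/
theorem fix_bound {α : Type*} [MulAction G α] [Fintype α] {K R : Subgroup G}
    (hK : Opp p K = K) (hmove : ∀ a : α, ¬ K ≤ MulAction.stabilizer G a) (hR : IsSyl p R K) :
    (2 * (p : ℤ) - 1) * ((Finset.univ : Finset α).filter (fixes R)).card ≤
      ((p : ℤ) - 1) * Fintype.card α := by
  have := d_univ_nonneg hK hmove hR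
  rw [d_formula, Finset.card_univ] at this
  linarith

end Main

end Cfsg.Agent.Lib.SylowFix
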