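import Mathlib
import Cfsg.Agent.Lib.SylowConjLemmas

/-!
# Intersections of Sylow subgroups in quotients
-/

set_option autoImplicit false

namespace Cfsg.Agent.Lib.SylowQuot

open Cfsg.Agent.Lib.SylowConjLemmas

variable {G : Type*} [Group G] [Finite G] {p : ℕ} [Fact p.Prime]

/-- Two distinct Sylow subgroups of a quotient `G ⧸ H`: there are distinct Sylow subgroups `S`, `T`
of `G` lying over them and a subgroup `R ≤ S ⊓ T` mapping onto the intersection. -/
theorem exists_sylow_pair_of_quotient (H : Subgroup G) [H.Normal] (S' T' : Sylow p (G ⧸ H)) (hne : S' ≠ T') :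
    ∃ (S T : Sylow p G) (R : Subgroup G), S ≠ T ∧ R ≤ (S : Subgroup G) ⊓ (T : Subgroup G) ∧
      R.map (QuotientGroup.mk' H) = (S' : Subgroup (G ⧸ H)) ⊓ (T' : Subgroup (G ⧸ H)) ∧
      (S : Subgroup G).map (QuotientGroup.mk' H) = (S' : Subgroup (G ⧸ H)) ∧
      (T : Subgroup G).map (QuotientGroup.mk' H) = (T' : Subgroup (G ⧸ H)) := by
  classical
  set π : G →* G ⧸ H := QuotientGroup.mk' H with hπ
  have hsurj : Function.Surjective π := QuotientGroup.mk'_surjective H
  obtain ⟨S, hS⟩ := Sylow.mapSurjective_surjective hsurj p S'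
  obtain ⟨T, hT⟩ := Sylow.mapSurjective_surjective hsurj p T'
  have hS' : (S : Subgroup G).map π = (S' : Subgroup (G ⧸ H)) := by
    rw [← hS]; rfl
  have hT' : (T : Subgroup G).map π = (T' : Subgroup (G ⧸ H)) := by
    rw [← hT]; rfl
  set Dbar : Subgroup (G ⧸ H) := (S' : Subgroup (G ⧸ H)) ⊓ (T' : Subgroup (G ⧸ H)) with hDbar
  set D : Subgroup G := Dbar.comap π with hD
  have hle_sup : ∀ (A : Subgroup G), A.map π = Dbar ⊔ A.map π → D ≤ A ⊔ H := by
    intro A hA d hd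
    have h1 : π d ∈ A.map π := by
      rw [hA]; exact Subgroup.mem_sup_left hd
    obtain ⟨a, ha, hae⟩ := h1
    have h2 : a⁻¹ * d ∈ H := by
      have : π (a⁻¹ * d) = 1 := by simp [hae]
      rw [← QuotientGroup.ker_mk' H]
      exact this
    have : d = a * (a⁻¹ * d) := by group
    rw [this]
    exact Subgroup.mul_mem_sup ha h2
  have hDS : D ≤ (S : Subgroup G) ⊔ H := hle_sup _ (by rw [hS']; exact (sup_eq_right.2 inf_le_left).symm)
  have hDT : D ≤ (T : Subgroup G) ⊔ H := hle_sup _ (by rw [hT']; exact (sup_eq_right.2 inf_le_right).symm)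
  -- Sylow of D
  obtain ⟨Q⟩ : Nonempty (Sylow p ↥D) := inferInstance
  set Q' : Subgroup G := (Q : Subgroup ↥D).map D.subtype with hQ'
  have hQ'p : IsPGroup p ↥Q' := Q.isPGroup'.map D.subtype
  have hQ'D : Q' ≤ D := by
    rintro _ ⟨x, _, rfl⟩
    exact x.2
  have hQ'map : Q'.map π = Dbar := by
    apply le_antisymm
    · rw [Subgroup.map_le_iff_le_comap]; exact hQ'D
    · intro d hd
      have hf : Function.Surjective (π.subgroupComap Dbar) :=
        π.subgroupComap_surjective_of_surjective Dbar hsurj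
      have hpD : IsPGroup p ↥Dbar := S'.isPGroup'.to_le inf_le_left
      have htop : ((Q.mapSurjective hf : Sylow p ↥Dbar) : Subgroup ↥Dbar) = ⊤ := by
        have := (Q.mapSurjective hf).is_maximal' (Q := ⊤) (by
            exact (hpD.of_equiv (Subgroup.topEquiv (G := ↥Dbar)).symm)) le_top
        exact this.symm
      have hmem : (⟨d, hd⟩ : ↥Dbar) ∈ ((Q.mapSurjective hf : Sylow p ↥Dbar) : Subgroup ↥Dbar) := by
        rw [htop]; trivial
      obtain ⟨q, hq, hqe⟩ := hmem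
      refine ⟨(q : G), ⟨q, hq, rfl⟩, ?_⟩
      exact congrArg Subtype.val hqe
  obtain ⟨h₁, hh₁, hS1⟩ := exists_conj_mem_of_le_sup S H Q' hQ'p (hQ'D.trans hDS)
  obtain ⟨h₂, hh₂, hT1⟩ := exists_conj_mem_of_le_sup T H Q' hQ'p (hQ'D.trans hDT)
  set g : G := h₁ * h₂⁻¹ with hg
  have hgH : g ∈ H := H.mul_mem hh₁ (H.inv_mem hh₂)
  have hπg : π g = 1 := by
    have : g ∈ π.ker := by rw [hπ, QuotientGroup.ker_mk']; exact hgH
    exact this
  have hmemT : ∀ y : G, y ∈ ((g • T : Sylow p G) : Subgroup G) ↔ g⁻¹ * y * g ∈ (T : Subgroup G) := by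
    intro y
    rw [Sylow.smul_def, Sylow.pointwise_smul_def, Subgroup.mem_pointwise_smul_iff_inv_smul_mem]
    simp [MulAut.smul_def, MulAut.conj_apply]
  have hgT : ((g • T : Sylow p G) : Subgroup G).map π = (T' : Subgroup (G ⧸ H)) := by
    rw [← hT']
    ext x
    constructor
    · rintro ⟨y, hy, rfl⟩
      refine ⟨_, (hmemT y).1 hy, ?_⟩
      simp [hπg]
    · rintro ⟨y, hy, rfl⟩
      refine ⟨g * y * g⁻¹, (hmemT _).2 (by
        have e : g⁻¹ * (g * y * g⁻¹) * g = y := by group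
        rw [e]; exact hy), ?_⟩
      simp [hπg]
  refine ⟨S, g • T, Q'.map (MulAut.conj h₁).toMonoidHom, ?_, ?_, ?_, hS', hgT⟩
  · intro he
    apply hne
    rw [Sylow.ext_iff, ← hS', ← hgT, he]
  · rintro _ ⟨t, ht, rfl⟩
    refine ⟨hS1 t ht, (hmemT _).2 ?_⟩
    have e : g⁻¹ * ((MulAut.conj h₁).toMonoidHom t) * g = h₂ * t * h₂⁻¹ := by
      simp [hg]; group
    rw [e]
    exact hT1 t ht
  · rw [← hQ'map]
    have hπh : π h₁ = 1 := by
      have : h₁ ∈ π.ker := by rw [hπ, QuotientGroup.ker_mk']; exact hh₁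
      exact this
    ext x
    constructor
    · rintro ⟨_, ⟨t, ht, rfl⟩, rfl⟩
      refine ⟨t, ht, ?_⟩
      simp [hπh]
    · rintro ⟨t, ht, rfl⟩
      refine ⟨_, ⟨t, ht, rfl⟩, ?_⟩
      simp [hπh]

end Cfsg.Agent.Lib.SylowQuot
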