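/-
Maximal subgroups above the Sylow 2-subgroups of the symmetric and alternating groups.
-/
import Mathlib
import Cfsg.Agent.Lib.SymSylow2

set_option autoImplicit false

namespace Cfsg.Agent.Lib.SymSylow2

open Equiv MulAction
open scoped Pointwise

/-! ### Unique coatoms, transport -/

theorem unique_coatom_map {G : Type*} [Group G] (φ : G ≃* G) (R : Subgroup G) :
    (∃! M : Subgroup G, IsCoatom M ∧ R.map φ.toMonoidHom ≤ M) ↔
      ∃! M : Subgroup G, IsCoatom M ∧ R ≤ M := by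
  let e : Subgroup G ≃o Subgroup G := φ.mapSubgroup
  have he : ∀ M : Subgroup G, e M = M.map φ.toMonoidHom := fun _ => rfl
  have hle : ∀ M : Subgroup G, R.map φ.toMonoidHom ≤ e M ↔ R ≤ M := by
    intro M
    rw [← he]
    exact e.le_iff_le
  have hco : ∀ M : Subgroup G, IsCoatom (e M) ↔ IsCoatom M := fun M => e.isCoatom_iff M
  constructor
  · rintro ⟨M, ⟨h1, h2⟩, hu⟩
    refine ⟨e.symm M, ⟨?_, ?_⟩, ?_⟩
    · rw [← hco, e.apply_symm_apply]; exact h1
    · rw [← hle, e.apply_symm_apply]; exact h2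
    · rintro M' ⟨h3, h4⟩
      have := hu (e M') ⟨(hco M').2 h3, (hle M').2 h4⟩
      rw [← this, e.symm_apply_apply]
  · rintro ⟨M, ⟨h1, h2⟩, hu⟩
    refine ⟨e M, ⟨(hco M).2 h1, (hle M).2 h2⟩, ?_⟩
    rintro M' ⟨h3, h4⟩
    have h5 := hu (e.symm M') ⟨?_, ?_⟩
    · rw [← h5, e.apply_symm_apply]
    · rw [← hco, e.apply_symm_apply]; exact h3
    · rw [← hle, e.apply_symm_apply]; exact h4

theorem le_of_unique_coatom {G : Type*} [Group G] [Finite G] {R M H : Subgroup G}
    (hM : ∀ M' : Subgroup G, IsCoatom M' ∧ R ≤ M' → M' = M) (hRH : R ≤ H) (hH : H ≠ ⊤) :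
    H ≤ M := by
  rcases eq_top_or_exists_le_coatom H with h | ⟨M', h1, h2⟩
  · exact absurd h hH
  · rw [← hM M' ⟨h1, hRH.trans h2⟩]
    exact h2

/-- Criterion for a unique coatom: a proper subgroup `H` above `R` such that every coatom above `R`
lies in `H`. -/
theorem unique_coatom_of_le {G : Type*} [Group G] [Finite G] {R H : Subgroup G}
    (hRH : R ≤ H) (hH : H ≠ ⊤) (hall : ∀ M : Subgroup G, IsCoatom M → R ≤ M → M ≤ H) :
    ∃! M : Subgroup G, IsCoatom M ∧ R ≤ M := by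
  rcases eq_top_or_exists_le_coatom H with h | ⟨M0, h1, h2⟩
  · exact absurd h hH
  · refine ⟨M0, ⟨h1, hRH.trans h2⟩, ?_⟩
    rintro M ⟨h3, h4⟩
    have h5 : M ≤ M0 := (hall M h3 h4).trans h2
    by_contra hne
    exact h1.1 (h3.2 M0 (lt_of_le_of_ne h5 hne))

/-- Two different coatoms above `R`: no uniqueness. -/
theorem not_unique_of_two {G : Type*} [Group G] {R M1 M2 : Subgroup G}
    (h1 : IsCoatom M1) (h1' : R ≤ M1) (h2 : IsCoatom M2) (h2' : R ≤ M2) (hne : M1 ≠ M2) :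
    ¬ ∃! M : Subgroup G, IsCoatom M ∧ R ≤ M := by
  rintro ⟨M, -, hu⟩
  exact hne ((hu M1 ⟨h1, h1'⟩).trans (hu M2 ⟨h2, h2'⟩).symm)

/-! ### Facts about the model -/

theorem swap_mem_Q {n j : ℕ} (hj : 2 * j + 2 ≤ n) :
    swap (⟨2 * j, by omega⟩ : Fin n) ⟨2 * j + 1, by omega⟩ ∈ Q n := by
  have hc : (1 : ℕ) < 2 ^ 1 := by norm_num
  have hm : (j + 1) * 2 ^ 1 ≤ n := by omega
  have : tau n 1 j 1 hc hm = swap ⟨2 * j, by omega⟩ ⟨2 * j + 1, by omega⟩ := by
    ext z
    by_cases hz : z.val = 2 * j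
    · have h1 : z = ⟨2 * j, by omega⟩ := Fin.ext hz
      rw [h1, swap_apply_left, tau_apply_xor hc hm (by norm_num)]
      exact Nat.xor_one_of_even (by simp)
    by_cases hz' : z.val = 2 * j + 1
    · have h1 : z = ⟨2 * j + 1, by omega⟩ := Fin.ext hz'
      rw [h1, swap_apply_right, tau_apply_xor hc hm (by norm_num; omega)]
      simp only
      rw [Nat.xor_one_of_odd (by simp)]
      omega
    · rw [swap_apply_of_ne_of_ne (fun h => hz (by rw [h])) (fun h => hz' (by rw [h])),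
        tau_apply_of_ne hc hm (by norm_num; omega)]
  rw [← this]
  exact tau_mem_Q _ _ _ _ _ _

theorem exists_swap_avoiding_one {n : ℕ} (hn : 4 ≤ n) (a : Fin n) :
    ∃ s ∈ Q n, Perm.sign s = -1 ∧ s a = a := by
  have : ∃ j, j < 2 ∧ a.val / 2 ≠ j := by
    by_cases h0 : a.val / 2 ≠ 0
    · exact ⟨0, by norm_num, h0⟩
    · exact ⟨1, by norm_num, by omega⟩
  obtain ⟨j, hj, h1⟩ := this
  obtain ⟨s, hs, hsgn, hfix⟩ := exists_swap_mem_Q (n := n) (j := j) (by omega)
  exact ⟨s, hs, hsgn, hfix a h1⟩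

/-- Even part of `Q n` is transitive on the levels, `n ≥ 4`. -/
theorem R0_H1 {n : ℕ} (hn : 4 ≤ n) (u w : Fin n) (h : dist2 w n = dist2 u n) :
    ∃ g ∈ R0 n, g u = w := by
  obtain ⟨g, hg, hgu⟩ := Q_H1 u w h
  rcases Int.units_eq_one_or (Perm.sign g) with h1 | h1
  · exact ⟨g, mem_R0_iff.2 ⟨hg, h1⟩, hgu⟩
  · obtain ⟨s, hs, hsgn, hsa⟩ := exists_swap_avoiding_one hn w
    refine ⟨s * g, mem_R0_iff.2 ⟨mul_mem hs hg, by simp [h1, hsgn]⟩, ?_⟩
    rw [Perm.mul_apply, hgu, hsa]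

/-- Each Sylow 2-subgroup of `A_n` is conjugate in `S_n` to the even part of `Q n`. -/
theorem alt_sylow_conj {n : ℕ} (S : Sylow 2 (alternatingGroup (Fin n))) :
    ∃ a : Perm (Fin n), ∀ y : alternatingGroup (Fin n),
      y ∈ (S : Subgroup (alternatingGroup (Fin n))) ↔ a⁻¹ * y.val * a ∈ R0 n := by
  have hS1 : IsPGroup 2 ((S : Subgroup (alternatingGroup (Fin n))).map
      (alternatingGroup (Fin n)).subtype) := S.isPGroup'.map _
  obtain ⟨T, hT⟩ := hS1.exists_le_sylow
  obtain ⟨Qh, hQh⟩ := exists_sylow_Q n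
  obtain ⟨a, ha⟩ := MulAction.exists_smul_eq (Perm (Fin n)) Qh T
  refine ⟨a, ?_⟩
  have hTmem : ∀ y : Perm (Fin n), y ∈ T → a⁻¹ * y * a ∈ Q n := by
    intro y hy
    rw [← ha, ← SetLike.mem_coe, Sylow.coe_smul] at hy
    obtain ⟨z, hz, rfl⟩ := hy
    rw [← hQh]
    have : a⁻¹ * (MulAut.conj a • z) * a = z := by
      simp [MulAut.conj_apply, MulAut.smul_def, mul_assoc]
    rw [this]
    exact hz
  have hsign : ∀ (y : Perm (Fin n)), Perm.sign (a⁻¹ * y * a) = Perm.sign y := by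
    intro y
    simp only [map_mul, map_inv]
    rw [mul_comm, ← mul_assoc]
    simp
  let R1 : Subgroup (alternatingGroup (Fin n)) :=
    { carrier := {y | a⁻¹ * y.val * a ∈ R0 n}
      one_mem' := by
        simp only [Set.mem_ofPred_eq, OneMemClass.coe_one, mul_one, inv_mul_cancel]
        exact one_mem _
      mul_mem' := by
        intro x y hx hy
        have : a⁻¹ * (x * y).val * a = (a⁻¹ * x.val * a) * (a⁻¹ * y.val * a) := by
          simp only [MulMemClass.coe_mul]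
          group
        simp only [Set.mem_ofPred_eq] at *
        rw [this]
        exact mul_mem hx hy
      inv_mem' := by
        intro x hx
        have : a⁻¹ * (x⁻¹).val * a = (a⁻¹ * x.val * a)⁻¹ := by
          simp only [InvMemClass.coe_inv]
          group
        simp only [Set.mem_ofPred_eq] at *
        rw [this]
        exact inv_mem hx }
  have hR1mem : ∀ y : alternatingGroup (Fin n), y ∈ R1 ↔ a⁻¹ * y.val * a ∈ R0 n := fun _ => Iff.rfl
  have hle : (S : Subgroup (alternatingGroup (Fin n))) ≤ R1 := by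
    intro y hy
    rw [hR1mem, mem_R0_iff]
    refine ⟨hTmem _ (hT (Subgroup.mem_map_of_mem _ hy)), ?_⟩
    rw [hsign]
    exact Perm.mem_alternatingGroup.1 y.2
  have hR1p : IsPGroup 2 R1 := by
    rintro ⟨y, hy⟩
    obtain ⟨k, hk⟩ := Q_isPGroup n ⟨a⁻¹ * y.val * a, ((hR1mem y).1 hy |> mem_R0_iff.1).1⟩
    refine ⟨k, ?_⟩
    apply Subtype.ext
    apply Subtype.ext
    have h1 := congrArg Subtype.val hk
    simp only [Subgroup.coe_pow, OneMemClass.coe_one] at h1
    have h2 : a⁻¹ * y.val ^ 2 ^ k * a = 1 := by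
      rw [← h1]
      have := conj_pow (a := a⁻¹) (b := y.val) (i := 2 ^ k)
      simpa using this.symm
    simp only [Subgroup.coe_pow, OneMemClass.coe_one]
    have : y.val ^ 2 ^ k = a * (a⁻¹ * y.val ^ 2 ^ k * a) * a⁻¹ := by group
    rw [this, h2]
    simp
  have hSeq : (S : Subgroup (alternatingGroup (Fin n))) = R1 := (S.is_maximal' hR1p hle).symm
  intro y
  rw [hSeq, hR1mem]

/-- The even part of `Q n`, as a subgroup of the alternating group. -/
def R0A (n : ℕ) : Subgroup (alternatingGroup (Fin n)) :=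
  (R0 n).comap (alternatingGroup (Fin n)).subtype

theorem mem_R0A_iff {n : ℕ} {y : alternatingGroup (Fin n)} : y ∈ R0A n ↔ y.val ∈ R0 n := Iff.rfl

/-- Each Sylow 2-subgroup of `A_n` is the image of `R0A n` under an automorphism of `A_n`. -/
theorem alt_sylow_eq_map {n : ℕ} (S : Sylow 2 (alternatingGroup (Fin n))) :
    ∃ φ : alternatingGroup (Fin n) ≃* alternatingGroup (Fin n),
      (S : Subgroup (alternatingGroup (Fin n))) = (R0A n).map φ.toMonoidHom := by
  obtain ⟨a, ha⟩ := alt_sylow_conj S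
  refine ⟨MulAut.conjNormal a, ?_⟩
  ext y
  rw [ha]
  constructor
  · intro h
    refine ⟨(MulAut.conjNormal a⁻¹) y, ?_, ?_⟩
    · show _ ∈ R0A n
      rw [mem_R0A_iff, MulAut.conjNormal_apply]
      simpa using h
    · simp
  · rintro ⟨z, hz, rfl⟩
    have hz' : z.val ∈ R0 n := hz
    have : a⁻¹ * ((MulAut.conjNormal a).toMonoidHom z).val * a = z.val := by
      have h := MulAut.conjNormal_apply a z
      show a⁻¹ * ((MulAut.conjNormal a) z).val * a = z.val
      rw [h]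
      group
    rw [this]
    exact hz'

/-! ### The low part of `Fin n` -/

theorem lev_low {n a : ℕ} (h1 : 2 ^ a ≤ n) (h2 : n < 2 ^ (a + 1)) {u : ℕ} (hu : u < 2 ^ a) :
    dist2 u n = a + 1 := by
  have h3 : n / 2 ^ a = 1 := by
    apply Nat.div_eq_of_lt_le
    · omega
    · rw [pow_succ] at h2; omega
  apply le_antisymm
  · rw [← agree_iff, Nat.div_eq_of_lt h2, Nat.div_eq_of_lt (by rw [pow_succ]; omega)]
  · by_contra hlt
    have : dist2 u n ≤ a := by omega
    rw [← agree_iff, h3, Nat.div_eq_of_lt hu] at this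
    omega

theorem lev_high {n a : ℕ} (h2 : n < 2 ^ (a + 1)) {u : ℕ} (hu : 2 ^ a ≤ u) (hun : u ≤ n) :
    dist2 u n ≤ a := by
  rw [← agree_iff]
  have h3 : ∀ z, 2 ^ a ≤ z → z < 2 ^ (a + 1) → z / 2 ^ a = 1 := by
    intro z hz1 hz2
    apply Nat.div_eq_of_lt_le
    · omega
    · rw [pow_succ] at hz2; omega
  rw [h3 u hu (by omega), h3 n (by omega) h2]

theorem Q_low_iff {n a : ℕ} (h1 : 2 ^ a ≤ n) (h2 : n < 2 ^ (a + 1)) {g : Perm (Fin n)}
    (hg : g ∈ Q n) (u : Fin n) : (g u).val < 2 ^ a ↔ u.val < 2 ^ a := by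
  have hlev := (mem_Q_iff_dist.1 hg).2 u
  constructor
  · intro h
    by_contra h'
    have h3 := lev_high h2 (u := u.val) (by omega) u.isLt.le
    have h4 := lev_low h1 h2 h
    omega
  · intro h
    by_contra h'
    have h3 := lev_high h2 (u := (g u).val) (by omega) (g u).isLt.le
    have h4 := lev_low h1 h2 h
    omega

theorem Q_fix_last {n : ℕ} (hodd : n % 2 = 1) {g : Perm (Fin n)} (hg : g ∈ Q n) :
    g ⟨n - 1, by omega⟩ = ⟨n - 1, by omega⟩ := by
  have h1 : ((n - 1) : ℕ) / 2 ^ 1 = n / 2 ^ 1 := by norm_num; omega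
  have h2 := ((mem_Q_iff.1 hg).2 1 ⟨n - 1, by omega⟩).2 h1
  apply Fin.ext
  have h3 := (g ⟨n - 1, by omega⟩).isLt
  norm_num at h2
  show (g ⟨n - 1, by omega⟩).val = n - 1
  omega

/-! ### Three-cycles from products of double transpositions -/

theorem swap_disjoint {α : Type*} [DecidableEq α] {x y z t : α} (hxz : x ≠ z) (hxt : x ≠ t)
    (hyz : y ≠ z) (hyt : y ≠ t) : Perm.Disjoint (swap x y) (swap z t) := by
  intro w
  by_cases h1 : w = x
  · right; subst h1; exact swap_apply_of_ne_of_ne hxz hxt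
  by_cases h2 : w = y
  · right; subst h2; exact swap_apply_of_ne_of_ne hyz hyt
  · left; exact swap_apply_of_ne_of_ne h1 h2

theorem isThreeCycle_sq_of_disjoint {α : Type*} [DecidableEq α] [Fintype α] {a b p c d e f : α}
    (hab : a ≠ b) (hap : a ≠ p) (hbp : b ≠ p)
    (hca : c ≠ a) (hcb : c ≠ b) (hcp : c ≠ p) (hda : d ≠ a) (hdb : d ≠ b) (hdp : d ≠ p)
    (hea : e ≠ a) (heb : e ≠ b) (hep : e ≠ p) (hfa : f ≠ a) (hfb : f ≠ b) (hfp : f ≠ p)
    (hce : c ≠ e) (hcf : c ≠ f) (hde : d ≠ e) (hdf : d ≠ f) :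
    ((swap a b * swap c d * (swap a p * swap e f)) ^ 2).IsThreeCycle := by
  have hXY : Commute (swap a b) (swap c d) :=
    (Perm.Disjoint.commute (swap_disjoint hca.symm hda.symm hcb.symm hdb.symm))
  have hXW : Commute (swap a b) (swap e f) :=
    (Perm.Disjoint.commute (swap_disjoint hea.symm hfa.symm heb.symm hfb.symm))
  have hZY : Commute (swap a p) (swap c d) :=
    (Perm.Disjoint.commute (swap_disjoint hca.symm hda.symm hcp.symm hdp.symm))
  have hZW : Commute (swap a p) (swap e f) :=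
    (Perm.Disjoint.commute (swap_disjoint hea.symm hfa.symm hep.symm hfp.symm))
  have hYW : Commute (swap c d) (swap e f) :=
    (Perm.Disjoint.commute (swap_disjoint hce hcf hde hdf))
  have h1 : swap a b * swap c d * (swap a p * swap e f) =
      (swap a b * swap a p) * (swap c d * swap e f) := by
    rw [mul_assoc, ← mul_assoc (swap c d), hZY.symm.eq, mul_assoc, mul_assoc]
  have hAB : Commute (swap a b * swap a p) (swap c d * swap e f) :=
    Commute.mul_left (Commute.mul_right hXY hXW) (Commute.mul_right hZY hZW)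
  rw [h1, hAB.mul_pow, hYW.mul_pow]
  have h2 : (swap c d) ^ 2 = 1 := by rw [pow_two, swap_mul_self]
  have h3 : (swap e f) ^ 2 = 1 := by rw [pow_two, swap_mul_self]
  rw [h2, h3, one_mul, mul_one, pow_two]
  exact (Perm.isThreeCycle_swap_mul_swap_same hab hap hbp).isThreeCycle_sq

/-! ### Degree `2 ^ k + 1` -/

section Unique

variable {n k : ℕ}

/-- The points other than `2 ^ k` are a single orbit of the even part of `Q n`. -/
theorem R0_trans_delta (hk : 2 ≤ k) (hn : n = 2 ^ k + 1) (u w : Fin n)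
    (hu : u.val ≠ 2 ^ k) (hw : w.val ≠ 2 ^ k) : ∃ g ∈ R0 n, g u = w := by
  have h4 : 4 ≤ 2 ^ k := by
    calc 4 = 2 ^ 2 := by norm_num
      _ ≤ 2 ^ k := Nat.pow_le_pow_right (by norm_num) hk
  have h1 : 2 ^ k ≤ n := by omega
  have h2 : n < 2 ^ (k + 1) := by rw [pow_succ]; omega
  apply R0_H1 (by omega)
  have hu' : u.val < 2 ^ k := by have := u.isLt; omega
  have hw' : w.val < 2 ^ k := by have := w.isLt; omega
  rw [lev_low h1 h2 hu', lev_low h1 h2 hw']

theorem Q_fix_pt (hk : 2 ≤ k) (hn : n = 2 ^ k + 1) {g : Perm (Fin n)} (hg : g ∈ Q n) (u : Fin n)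
    (hu : u.val = 2 ^ k) : g u = u := by
  have h4 : 4 ≤ 2 ^ k := by
    calc 4 = 2 ^ 2 := by norm_num
      _ ≤ 2 ^ k := Nat.pow_le_pow_right (by norm_num) hk
  have h1 : 2 ^ k ≤ n := by omega
  have h2 : n < 2 ^ (k + 1) := by rw [pow_succ]; omega
  have h3 := Q_low_iff h1 h2 hg u
  apply Fin.ext
  have h5 := (g u).isLt
  have h6 : ¬ (g u).val < 2 ^ k := by rw [h3]; omega
  omega

variable {G : Subgroup (Perm (Fin n))}

theorem trans_of_moves (hk : 2 ≤ k) (hn : n = 2 ^ k + 1) (hG : R0 n ≤ G) (p : Fin n)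
    (hp : p.val = 2 ^ k) {g0 : Perm (Fin n)} (hg0 : g0 ∈ G) (hmove : g0 p ≠ p) (x : Fin n) :
    ∃ g ∈ G, g p = x := by
  by_cases hx : x = p
  · exact ⟨1, one_mem _, by rw [hx]; rfl⟩
  · have h1 : (g0 p).val ≠ 2 ^ k := fun h => hmove (Fin.ext (h.trans hp.symm))
    have h2 : x.val ≠ 2 ^ k := fun h => hx (Fin.ext (h.trans hp.symm))
    obtain ⟨r, hr, hrx⟩ := R0_trans_delta hk hn (g0 p) x h1 h2
    exact ⟨r * g0, mul_mem (hG hr) hg0, hrx⟩

theorem prim_of_moves (hk : 2 ≤ k) (hn : n = 2 ^ k + 1) (hG : R0 n ≤ G) (p : Fin n)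
    (hp : p.val = 2 ^ k) {g0 : Perm (Fin n)} (hg0 : g0 ∈ G) (hmove : g0 p ≠ p) :
    IsPreprimitive G (Fin n) := by
  have htr := trans_of_moves hk hn hG p hp hg0 hmove
  have : IsPretransitive G (Fin n) := by
    refine ⟨fun x y => ?_⟩
    obtain ⟨g1, hg1, h1⟩ := htr x
    obtain ⟨g2, hg2, h2⟩ := htr y
    refine ⟨⟨g2 * g1⁻¹, mul_mem hg2 (inv_mem hg1)⟩, ?_⟩
    show (g2 * g1⁻¹) x = y
    rw [Perm.mul_apply, ← h1]
    simpa using h2
  apply IsPreprimitive.of_isTrivialBlock_base p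
  intro B hpB hB
  by_cases hsub : B.Subsingleton
  · exact Or.inl hsub
  right
  obtain ⟨x, hxB, hxp⟩ : ∃ x ∈ B, x ≠ p := by
    by_contra hcon
    push Not at hcon
    exact hsub (fun a ha b hb => by rw [hcon a ha, hcon b hb])
  apply Set.eq_univ_of_forall
  intro w
  by_cases hw : w = p
  · rw [hw]; exact hpB
  have h1 : x.val ≠ 2 ^ k := fun h => hxp (Fin.ext (h.trans hp.symm))
  have h2 : w.val ≠ 2 ^ k := fun h => hw (Fin.ext (h.trans hp.symm))
  obtain ⟨r, hr, hrx⟩ := R0_trans_delta hk hn x w h1 h2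
  have hrp : r p = p := Q_fix_pt hk hn (mem_R0_iff.1 hr).1 p hp
  let r' : G := ⟨r, hG hr⟩
  have hinter : ((r' • B) ∩ B).Nonempty := by
    refine ⟨p, ?_, hpB⟩
    refine ⟨p, hpB, ?_⟩
    exact hrp
  have heq : r' • B = B := isBlock_iff_smul_eq_of_nonempty.1 hB hinter
  rw [← heq]
  exact ⟨x, hxB, hrx⟩

theorem two_trans_of_moves (hk : 2 ≤ k) (hn : n = 2 ^ k + 1) (hG : R0 n ≤ G) (p : Fin n)
    (hp : p.val = 2 ^ k) {g0 : Perm (Fin n)} (hg0 : g0 ∈ G) (hmove : g0 p ≠ p) (a b : Fin n)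
    (ha : a ≠ p) (hab : a ≠ b) : ∃ g ∈ G, g a = a ∧ g b = p := by
  obtain ⟨h, hh, hpa⟩ := trans_of_moves hk hn hG p hp hg0 hmove a
  have h1 : (h⁻¹ b).val ≠ 2 ^ k := fun e => by
    have : h⁻¹ b = p := Fin.ext (e.trans hp.symm)
    apply hab
    rw [← hpa, ← this]
    simp
  have h2 : (h⁻¹ p).val ≠ 2 ^ k := fun e => by
    have : h⁻¹ p = p := Fin.ext (e.trans hp.symm)
    apply ha
    rw [← hpa]
    nth_rewrite 1 [← this]
    simp
  obtain ⟨r, hr, hrb⟩ := R0_trans_delta hk hn (h⁻¹ b) (h⁻¹ p) h1 h2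
  have hrp : r p = p := Q_fix_pt hk hn (mem_R0_iff.1 hr).1 p hp
  refine ⟨h * r * h⁻¹, mul_mem (mul_mem hh (hG hr)) (inv_mem hh), ?_, ?_⟩
  · have : h⁻¹ a = p := by rw [← hpa]; simp
    simp only [Perm.mul_apply]
    rw [this, hrp, hpa]
  · simp only [Perm.mul_apply]
    rw [hrb]
    simp

/-- The three-cycle, `k ≥ 3`. -/
theorem exists_threeCycle_of_two_trans (hk : 3 ≤ k) (hn : n = 2 ^ k + 1) (hG : R0 n ≤ G)
    (p : Fin n) (hp : p.val = 2 ^ k) {g : Perm (Fin n)} (hg : g ∈ G)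
    (h8 : 8 ≤ 2 ^ k)
    (hga : g ⟨0, by omega⟩ = ⟨0, by omega⟩) (hgb : g ⟨1, by omega⟩ = p) :
    ∃ c ∈ G, Perm.IsThreeCycle c := by
  let P : ℕ → Fin n := fun z => if h : z < n then ⟨z, h⟩ else ⟨0, by omega⟩
  have hPv : ∀ z, z < n → (P z).val = z := by
    intro z hz
    simp [P, hz]
  let a : Fin n := ⟨0, by omega⟩
  let b : Fin n := ⟨1, by omega⟩
  have hT : ∀ j, 1 ≤ j → j ≤ 3 →
      swap a b * swap (P (2 * j)) (P (2 * j + 1)) ∈ G := by
    intro j hj1 hj3
    apply hG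
    rw [mem_R0_iff]
    have hP1 : P (2 * j) = ⟨2 * j, by omega⟩ := Fin.ext (hPv _ (by omega))
    have hP2 : P (2 * j + 1) = ⟨2 * j + 1, by omega⟩ := Fin.ext (hPv _ (by omega))
    rw [hP1, hP2]
    refine ⟨mul_mem (swap_mem_Q (n := n) (j := 0) (by omega)) (swap_mem_Q (by omega)), ?_⟩
    rw [map_mul, Perm.sign_swap, Perm.sign_swap]
    · simp
    · intro h
      have := congrArg Fin.val h
      simp at this
    · intro h
      have := congrArg Fin.val h
      simp [a, b] at this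
  -- choose i avoiding the preimage of b
  obtain ⟨i, hi1, hi3, hi⟩ : ∃ i, 1 ≤ i ∧ i ≤ 3 ∧ (g⁻¹ b).val / 2 ≠ i := by
    by_cases h : (g⁻¹ b).val / 2 = 1
    · exact ⟨2, by norm_num, by norm_num, by omega⟩
    · exact ⟨1, by norm_num, by norm_num, h⟩
  set e := g (P (2 * i)) with he
  set f := g (P (2 * i + 1)) with hf
  -- choose j away from e, f
  obtain ⟨j, hj1, hj3, hje, hjf⟩ : ∃ j, 1 ≤ j ∧ j ≤ 3 ∧ e.val / 2 ≠ j ∧ f.val / 2 ≠ j := by
    by_cases h1 : e.val / 2 ≠ 1 ∧ f.val / 2 ≠ 1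
    · exact ⟨1, by norm_num, by norm_num, h1.1, h1.2⟩
    by_cases h2 : e.val / 2 ≠ 2 ∧ f.val / 2 ≠ 2
    · exact ⟨2, by norm_num, by norm_num, h2.1, h2.2⟩
    exact ⟨3, by norm_num, by norm_num, by omega, by omega⟩
  have hPi1 : (P (2 * i)).val = 2 * i := hPv _ (by omega)
  have hPi2 : (P (2 * i + 1)).val = 2 * i + 1 := hPv _ (by omega)
  have hPj1 : (P (2 * j)).val = 2 * j := hPv _ (by omega)
  have hPj2 : (P (2 * j + 1)).val = 2 * j + 1 := hPv _ (by omega)
  have hav : a.val = 0 := rfl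
  have hbv : b.val = 1 := rfl
  -- conjugate
  have hconj : g * (swap a b * swap (P (2 * i)) (P (2 * i + 1))) * g⁻¹ = swap a p * swap e f := by
    have h1 := swap_apply_apply g a b
    have h2 := swap_apply_apply g (P (2 * i)) (P (2 * i + 1))
    have hga' : g a = a := hga
    have hgb' : g b = p := hgb
    rw [hga', hgb'] at h1
    rw [h1, he, hf, h2]
    group
  have hmem : swap a b * swap (P (2 * j)) (P (2 * j + 1)) * (swap a p * swap e f) ∈ G := by
    apply mul_mem (hT j hj1 hj3)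
    rw [← hconj]
    exact mul_mem (mul_mem hg (hT i hi1 hi3)) (inv_mem hg)
  refine ⟨_, pow_mem hmem 2, ?_⟩
  have hinj : ∀ x y : Fin n, x ≠ y → g x ≠ g y := fun x y h h' => h (g.injective h')
  have hga' : g a = a := hga
  have hgb' : g b = p := hgb
  have hne : ∀ x y : Fin n, x.val ≠ y.val → x ≠ y := fun x y h h' => h (by rw [h'])
  have h_ap : a ≠ p := hne _ _ (by rw [hav, hp]; positivity)
  have h_bp : b ≠ p := hne _ _ (by rw [hbv, hp]; omega)
  have h_eb : e ≠ b := by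
    intro h
    apply hi
    have : g⁻¹ b = P (2 * i) := by rw [← h, he]; simp
    rw [this, hPi1]
    omega
  have h_fb : f ≠ b := by
    intro h
    apply hi
    have : g⁻¹ b = P (2 * i + 1) := by rw [← h, hf]; simp
    rw [this, hPi2]
    omega
  have h_ea : e ≠ a := by
    rw [← hga']
    exact hinj _ _ (hne _ _ (by rw [hPi1, hav]; omega))
  have h_fa : f ≠ a := by
    rw [← hga']
    exact hinj _ _ (hne _ _ (by rw [hPi2, hav]; omega))
  have h_ep : e ≠ p := by
    rw [← hgb']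
    exact hinj _ _ (hne _ _ (by rw [hPi1, hbv]; omega))
  have h_fp : f ≠ p := by
    rw [← hgb']
    exact hinj _ _ (hne _ _ (by rw [hPi2, hbv]; omega))
  apply isThreeCycle_sq_of_disjoint (hne _ _ (by rw [hav, hbv]; omega)) h_ap h_bp
    (hne _ _ (by rw [hPj1, hav]; omega)) (hne _ _ (by rw [hPj1, hbv]; omega))
    (hne _ _ (by rw [hPj1, hp]; omega))
    (hne _ _ (by rw [hPj2, hav]; omega)) (hne _ _ (by rw [hPj2, hbv]; omega))
    (hne _ _ (by rw [hPj2, hp]; omega))
    h_ea h_eb h_ep h_fa h_fb h_fp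
    (hne _ _ (by rw [hPj1]; omega)) (hne _ _ (by rw [hPj1]; omega))
    (hne _ _ (by rw [hPj2]; omega)) (hne _ _ (by rw [hPj2]; omega))

end Unique

/-- The three-cycle, degree 5. -/
theorem exists_threeCycle_five {G : Subgroup (Perm (Fin 5))} (hG : R0 5 ≤ G) {g : Perm (Fin 5)}
    (hg : g ∈ G) (hga : g 0 = 0) (hgb : g 1 = 4) : ∃ c ∈ G, Perm.IsThreeCycle c := by
  have h1 : swap (0 : Fin 5) 1 * swap 2 3 ∈ R0 5 := by
    rw [mem_R0_iff]
    refine ⟨mul_mem (swap_mem_Q (n := 5) (j := 0) (by omega)) (swap_mem_Q (n := 5) (j := 1) (by omega)), ?_⟩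
    decide
  have h2 : swap (0 : Fin 5) 2 * swap 1 3 ∈ R0 5 := by
    rw [mem_R0_iff]
    constructor
    · have : swap (0 : Fin 5) 2 * swap 1 3 = tau 5 2 0 2 (by norm_num) (by norm_num) := by
        decide +kernel
      rw [this]
      exact tau_mem_Q _ _ _ _ _ _
    · decide
  have h3 : swap (0 : Fin 5) 3 * swap 1 2 ∈ R0 5 := by
    rw [mem_R0_iff]
    constructor
    · have : swap (0 : Fin 5) 3 * swap 1 2 = tau 5 2 0 3 (by norm_num) (by norm_num) := by
        decide +kernel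
      rw [this]
      exact tau_mem_Q _ _ _ _ _ _
    · decide
  have hconj : g * (swap (0 : Fin 5) 1 * swap 2 3) * g⁻¹ = swap 0 4 * swap (g 2) (g 3) := by
    have e1 := swap_apply_apply g 0 1
    have e2 := swap_apply_apply g 2 3
    rw [hga, hgb] at e1
    rw [e1, e2]
    group
  have hkey : ∀ e f : Fin 5, e ≠ f → e ≠ 0 → e ≠ 4 → f ≠ 0 → f ≠ 4 →
      ∃ x : Fin 5, x ≠ 0 ∧ x ≠ 4 ∧
        ((swap (0 : Fin 5) 1 * swap 2 3) * (swap 0 4 * swap e f) = swap 0 x * swap 0 4 ∨
         (swap (0 : Fin 5) 2 * swap 1 3) * (swap 0 4 * swap e f) = swap 0 x * swap 0 4 ∨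
         (swap (0 : Fin 5) 3 * swap 1 2) * (swap 0 4 * swap e f) = swap 0 x * swap 0 4) := by
    decide +kernel
  have he0 : g 2 ≠ 0 := fun h => by
    have := g.injective (h.trans hga.symm)
    exact absurd this (by decide)
  have he4 : g 2 ≠ 4 := fun h => by
    have := g.injective (h.trans hgb.symm)
    exact absurd this (by decide)
  have hf0 : g 3 ≠ 0 := fun h => by
    have := g.injective (h.trans hga.symm)
    exact absurd this (by decide)
  have hf4 : g 3 ≠ 4 := fun h => by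
    have := g.injective (h.trans hgb.symm)
    exact absurd this (by decide)
  have hef : g 2 ≠ g 3 := fun h => by
    have := g.injective h
    exact absurd this (by decide)
  obtain ⟨x, hx0, hx4, hx⟩ := hkey (g 2) (g 3) hef he0 he4 hf0 hf4
  obtain ⟨t, ht', hx⟩ : ∃ t ∈ R0 5, t * (swap 0 4 * swap (g 2) (g 3)) = swap 0 x * swap 0 4 := by
    rcases hx with hx | hx | hx
    · exact ⟨_, h1, hx⟩
    · exact ⟨_, h2, hx⟩
    · exact ⟨_, h3, hx⟩
  refine ⟨t * (swap 0 4 * swap (g 2) (g 3)), mul_mem (hG ht') ?_, ?_⟩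
  · rw [← hconj]
    exact mul_mem (mul_mem hg (hG h1)) (inv_mem hg)
  · rw [hx]
    exact Perm.isThreeCycle_swap_mul_swap_same hx0.symm (by decide) hx4

section UniqueMain

variable {n k : ℕ}

theorem unique_S (hk : 2 ≤ k) (hn : n = 2 ^ k + 1) :
    ∃! M : Subgroup (Perm (Fin n)), IsCoatom M ∧ Q n ≤ M := by
  have h4 : 4 ≤ 2 ^ k := by
    calc 4 = 2 ^ 2 := by norm_num
      _ ≤ 2 ^ k := Nat.pow_le_pow_right (by norm_num) hk
  let p : Fin n := ⟨2 ^ k, by omega⟩
  have hp : p.val = 2 ^ k := rfl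
  apply unique_coatom_of_le (H := stabilizer (Perm (Fin n)) p)
  · intro g hg
    rw [mem_stabilizer_iff]
    exact Q_fix_pt hk hn hg p hp
  · intro htop
    have : swap p ⟨0, by omega⟩ ∈ stabilizer (Perm (Fin n)) p := by
      rw [htop]; exact Subgroup.mem_top _
    rw [mem_stabilizer_iff] at this
    have h5 : swap p ⟨0, by omega⟩ p = p := this
    rw [swap_apply_left] at h5
    have := congrArg Fin.val h5
    simp only [hp] at this
    omega
  · intro M hM hQM g hg
    by_contra hng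
    rw [mem_stabilizer_iff] at hng
    have hmove : g p ≠ p := hng
    have hprim := prim_of_moves hk hn (inf_le_left.trans hQM) p hp hg hmove
    have hswap := hQM (swap_mem_Q (n := n) (j := 0) (by omega))
    have := Perm.subgroup_eq_top_of_isPreprimitive_of_isSwap_mem hprim _
      ⟨⟨2 * 0, by omega⟩, ⟨2 * 0 + 1, by omega⟩, by simp [Fin.ext_iff], rfl⟩ hswap
    exact hM.1 this

theorem unique_A (hk : 2 ≤ k) (hn : n = 2 ^ k + 1) :
    ∃! M : Subgroup (alternatingGroup (Fin n)), IsCoatom M ∧ R0A n ≤ M := by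
  have h4 : 4 ≤ 2 ^ k := by
    calc 4 = 2 ^ 2 := by norm_num
      _ ≤ 2 ^ k := Nat.pow_le_pow_right (by norm_num) hk
  let p : Fin n := ⟨2 ^ k, by omega⟩
  have hp : p.val = 2 ^ k := rfl
  apply unique_coatom_of_le
    (H := (stabilizer (Perm (Fin n)) p).comap (alternatingGroup (Fin n)).subtype)
  · intro g hg
    rw [Subgroup.mem_comap, mem_stabilizer_iff]
    exact Q_fix_pt hk hn (mem_R0_iff.1 hg).1 p hp
  · intro htop
    have hy : swap p ⟨0, by omega⟩ * swap ⟨1, by omega⟩ ⟨2, by omega⟩ ∈ alternatingGroup (Fin n) := by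
      rw [Perm.mem_alternatingGroup, map_mul, Perm.sign_swap, Perm.sign_swap]
      · simp
      · simp [Fin.ext_iff]
      · simp only [ne_eq, Fin.ext_iff, hp]
        omega
    have h5 : (⟨_, hy⟩ : alternatingGroup (Fin n)) ∈
        (stabilizer (Perm (Fin n)) p).comap (alternatingGroup (Fin n)).subtype := by
      rw [htop]; exact Subgroup.mem_top _
    rw [Subgroup.mem_comap, mem_stabilizer_iff] at h5
    have h6 : (swap p ⟨0, by omega⟩ * swap (⟨1, by omega⟩ : Fin n) ⟨2, by omega⟩) p = p := h5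
    have h7 : swap (⟨1, by omega⟩ : Fin n) ⟨2, by omega⟩ p = p :=
      swap_apply_of_ne_of_ne (by simp only [ne_eq, Fin.ext_iff, hp]; omega)
        (by simp only [ne_eq, Fin.ext_iff, hp]; omega)
    rw [Perm.mul_apply, h7, swap_apply_left] at h6
    have := congrArg Fin.val h6
    simp only [hp] at this
    omega
  · intro M hM hRM g hg
    by_contra hng
    rw [Subgroup.mem_comap, mem_stabilizer_iff] at hng
    have hmove : g.val p ≠ p := hng
    let G : Subgroup (Perm (Fin n)) := M.map (alternatingGroup (Fin n)).subtype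
    have hR0G : R0 n ≤ G := by
      intro r hr
      have hr' : r ∈ alternatingGroup (Fin n) := Perm.mem_alternatingGroup.2 (mem_R0_iff.1 hr).2
      exact ⟨⟨r, hr'⟩, hRM hr, rfl⟩
    have hgG : g.val ∈ G := ⟨g, hg, rfl⟩
    have hprim := prim_of_moves hk hn hR0G p hp hgG hmove
    have hthree : ∃ c ∈ G, Perm.IsThreeCycle c := by
      rcases eq_or_lt_of_le hk with h2 | h3
      · subst h2
        obtain rfl : n = 5 := by omega
        obtain ⟨g', hg', h1, h2⟩ := two_trans_of_moves (k := 2) hk rfl hR0G p hp hgG hmove 0 1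
          (by simp only [ne_eq, Fin.ext_iff, hp]; norm_num) (by decide)
        have hp4 : p = 4 := Fin.ext (by rw [hp]; norm_num)
        rw [hp4] at h2
        exact exists_threeCycle_five hR0G hg' h1 h2
      · have h8 : 8 ≤ 2 ^ k := by
          calc 8 = 2 ^ 3 := by norm_num
            _ ≤ 2 ^ k := Nat.pow_le_pow_right (by norm_num) h3
        obtain ⟨g', hg', h1, h2⟩ := two_trans_of_moves hk hn hR0G p hp hgG hmove
          (⟨0, by omega⟩ : Fin n) (⟨1, by omega⟩ : Fin n)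
          (by simp only [ne_eq, Fin.ext_iff, hp]; omega) (by simp [Fin.ext_iff])
        exact exists_threeCycle_of_two_trans (k := k) h3 hn hR0G p hp hg' h8 h1 h2
    obtain ⟨c, hc, hc3⟩ := hthree
    have hle := Perm.alternatingGroup_le_of_isPreprimitive_of_isThreeCycle_mem hprim hc3 hc
    apply hM.1
    rw [eq_top_iff]
    intro y _
    obtain ⟨z, hz, hzy⟩ := hle y.2
    have : z = y := Subtype.ext hzy
    rwa [← this]

end UniqueMain

/-! ### Non-uniqueness -/

/-- Permutations preserving the partition into dyadic blocks of size `2 ^ j`. -/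
def blockStab (n j : ℕ) : Subgroup (Perm (Fin n)) where
  carrier := {g | ∀ u v : Fin n, (g u).val / 2 ^ j = (g v).val / 2 ^ j ↔ u.val / 2 ^ j = v.val / 2 ^ j}
  one_mem' := by simp
  mul_mem' := by
    intro a b ha hb u v
    exact (ha _ _).trans (hb u v)
  inv_mem' := by
    intro a ha u v
    have := ha (a⁻¹ u) (a⁻¹ v)
    rw [show a (a⁻¹ u) = u from by simp, show a (a⁻¹ v) = v from by simp] at this
    exact this.symm

theorem Q_le_blockStab (n j : ℕ) : Q n ≤ blockStab n j := fun _ hg => (mem_Q_iff.1 hg).1 j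

theorem mem_stab_of_iff {n : ℕ} (g : Perm (Fin n)) (s : Set (Fin n)) (h : ∀ u, g u ∈ s ↔ u ∈ s) :
    g ∈ stabilizer (Perm (Fin n)) s := by
  rw [mem_stabilizer_iff]
  ext x
  rw [Set.mem_smul_set_iff_inv_smul_mem, ← h (g⁻¹ • x)]
  have : g (g⁻¹ • x) = x := by
    show g (g⁻¹ x) = x
    simp
  rw [this]

theorem iff_of_mem_stab {n : ℕ} {g : Perm (Fin n)} {s : Set (Fin n)}
    (hg : g ∈ stabilizer (Perm (Fin n)) s) (u : Fin n) : g u ∈ s ↔ u ∈ s := by
  rw [mem_stabilizer_iff] at hg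
  have h1 : g u ∈ g • s ↔ u ∈ s := by
    rw [Set.mem_smul_set_iff_inv_smul_mem]
    have : g⁻¹ • g u = u := by
      show g⁻¹ (g u) = u
      simp
    rw [this]
  rwa [hg] at h1

/-- The element exchanging the blocks `{0, 1}` and `{p, p + 1}`. -/
theorem double_swap_mem_blockStab {n p : ℕ} (hp2 : p % 2 = 0) (hp0 : 2 ≤ p) (hpn : p + 1 < n) :
    swap (⟨0, by omega⟩ : Fin n) ⟨p, by omega⟩ * swap (⟨1, by omega⟩ : Fin n) ⟨p + 1, by omega⟩ ∈
      blockStab n 1 := by
  intro u v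
  have hval : ∀ z : Fin n,
      ((swap (⟨0, by omega⟩ : Fin n) ⟨p, by omega⟩ *
        swap (⟨1, by omega⟩ : Fin n) ⟨p + 1, by omega⟩) z).val / 2 =
      if z.val / 2 = 0 then p / 2 else if z.val / 2 = p / 2 then 0 else z.val / 2 := by
    intro z
    simp only [Perm.mul_apply, swap_apply_def, Fin.ext_iff]
    split_ifs <;> simp_all <;> omega
  simp only [pow_one]
  rw [hval, hval]
  split_ifs <;> omega

theorem double_swap_mem_alt {n p : ℕ} (hp0 : 2 ≤ p) (hpn : p + 1 < n) :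
    swap (⟨0, by omega⟩ : Fin n) ⟨p, by omega⟩ * swap (⟨1, by omega⟩ : Fin n) ⟨p + 1, by omega⟩ ∈
      alternatingGroup (Fin n) := by
  rw [Perm.mem_alternatingGroup, map_mul, Perm.sign_swap, Perm.sign_swap]
  · simp
  · simp only [ne_eq, Fin.ext_iff]; omega
  · simp only [ne_eq, Fin.ext_iff]; omega

section NonUnique

variable {n a : ℕ}

/-- The low part of `Fin n`. -/
def low (n a : ℕ) : Set (Fin n) := {z | z.val / 2 ^ a = 0}

theorem mem_low {n a : ℕ} {z : Fin n} : z ∈ low n a ↔ z.val < 2 ^ a := by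
  show z.val / 2 ^ a = 0 ↔ _
  exact Nat.div_eq_zero_iff_lt (by positivity)

theorem ncard_low (h : 2 ^ a ≤ n) : (low n a).ncard = 2 ^ a :=
  ncard_block n a 0 (by omega)

theorem Q_le_stab_low (h1 : 2 ^ a ≤ n) (h2 : n < 2 ^ (a + 1)) :
    Q n ≤ stabilizer (Perm (Fin n)) (low n a) := by
  intro g hg
  apply mem_stab_of_iff
  intro u
  rw [mem_low, mem_low]
  exact Q_low_iff h1 h2 hg u

theorem isCoatom_stab_low (h0 : 2 ^ a < n) (h2 : n < 2 ^ (a + 1)) :
    IsCoatom (stabilizer (Perm (Fin n)) (low n a)) := by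
  apply Perm.isCoatom_stabilizer
  · exact ⟨⟨0, by omega⟩, by rw [mem_low]; simp⟩
  · exact ⟨⟨2 ^ a, h0⟩, by rw [Set.mem_compl_iff, mem_low]; simp⟩
  · rw [ncard_low h0.le, Nat.card_fin]
    rw [pow_succ] at h2
    omega

theorem isCoatom_stab_low_A (h0 : 2 ^ a < n) (h2 : n < 2 ^ (a + 1)) :
    IsCoatom (stabilizer (alternatingGroup (Fin n)) (low n a)) := by
  apply alternatingGroup.isCoatom_stabilizer
  · exact ⟨⟨0, by omega⟩, by rw [mem_low]; simp⟩
  · exact ⟨⟨2 ^ a, h0⟩, by rw [Set.mem_compl_iff, mem_low]; simp⟩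
  · rw [ncard_low h0.le, Nat.card_fin]
    rw [pow_succ] at h2
    omega

theorem mem_stabA_iff {s : Set (Fin n)} {y : alternatingGroup (Fin n)} :
    y ∈ stabilizer (alternatingGroup (Fin n)) s ↔ y.val ∈ stabilizer (Perm (Fin n)) s := by
  rw [mem_stabilizer_iff, mem_stabilizer_iff]
  rfl

theorem R0A_le_stab_low (h1 : 2 ^ a ≤ n) (h2 : n < 2 ^ (a + 1)) :
    R0A n ≤ stabilizer (alternatingGroup (Fin n)) (low n a) := by
  intro y hy
  rw [mem_stabA_iff]
  exact Q_le_stab_low h1 h2 (mem_R0_iff.1 hy).1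

theorem odd_elt (ha : 1 ≤ a) (h0 : 2 ^ a + 1 < n) (h2 : n < 2 ^ (a + 1)) :
    ∃ g ∈ alternatingGroup (Fin n), g ∈ stabilizer (Perm (Fin n)) (low n a) ∧
      g (⟨n - 1, by omega⟩ : Fin n) ≠ ⟨n - 1, by omega⟩ := by
  have h20 : 2 ≤ 2 ^ a := by
    calc 2 = 2 ^ 1 := by norm_num
      _ ≤ 2 ^ a := Nat.pow_le_pow_right (by norm_num) ha
  refine ⟨swap (⟨2 ^ a, by omega⟩ : Fin n) ⟨n - 1, by omega⟩ *
      swap (⟨0, by omega⟩ : Fin n) ⟨1, by omega⟩, ?_, ?_, ?_⟩
  · rw [Perm.mem_alternatingGroup, map_mul, Perm.sign_swap, Perm.sign_swap]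
    · simp
    · simp [Fin.ext_iff]
    · simp only [ne_eq, Fin.ext_iff]; omega
  · apply mem_stab_of_iff
    intro u
    rw [mem_low, mem_low]
    simp only [Perm.mul_apply, swap_apply_def, Fin.ext_iff]
    split_ifs <;> (try dsimp only at *) <;> omega
  · have h3 : swap (⟨0, by omega⟩ : Fin n) ⟨1, by omega⟩ ⟨n - 1, by omega⟩ = ⟨n - 1, by omega⟩ :=
      swap_apply_of_ne_of_ne (by simp only [ne_eq, Fin.ext_iff]; omega)
        (by simp only [ne_eq, Fin.ext_iff]; omega)
    rw [Perm.mul_apply, h3, swap_apply_right]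
    simp only [ne_eq, Fin.ext_iff]
    omega

theorem stab_pt_of_fix {pt : Fin n} {g : Perm (Fin n)} (h : g pt = pt) :
    g ∈ stabilizer (Perm (Fin n)) ({pt} : Set (Fin n)) := by
  apply mem_stab_of_iff
  intro u
  simp only [Set.mem_singleton_iff]
  constructor
  · intro h1
    exact g.injective (h1.trans h.symm)
  · rintro rfl
    exact h

theorem fix_of_stab_pt {pt : Fin n} {g : Perm (Fin n)}
    (h : g ∈ stabilizer (Perm (Fin n)) ({pt} : Set (Fin n))) : g pt = pt := by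
  have := (iff_of_mem_stab h pt).2 rfl
  exact this

/-- `n` odd, not of the form `2 ^ a + 1`. -/
theorem not_unique_S_odd (ha : 1 ≤ a) (h0 : 2 ^ a + 1 < n) (h2 : n < 2 ^ (a + 1))
    (hodd : n % 2 = 1) : ¬ ∃! M : Subgroup (Perm (Fin n)), IsCoatom M ∧ Q n ≤ M := by
  have h20 : 2 ≤ 2 ^ a := by
    calc 2 = 2 ^ 1 := by norm_num
      _ ≤ 2 ^ a := Nat.pow_le_pow_right (by norm_num) ha
  let pt : Fin n := ⟨n - 1, by omega⟩
  have hc1 := isCoatom_stab_low (a := a) (n := n) (by omega) h2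
  have hc2 : IsCoatom (stabilizer (Perm (Fin n)) ({pt} : Set (Fin n))) := by
    apply Perm.isCoatom_stabilizer
    · exact ⟨pt, rfl⟩
    · refine ⟨⟨0, by omega⟩, ?_⟩
      simp only [Set.mem_compl_iff, Set.mem_singleton_iff, pt, Fin.ext_iff]
      omega
    · rw [Set.ncard_singleton, Nat.card_fin]
      omega
  have hQ2 : Q n ≤ stabilizer (Perm (Fin n)) ({pt} : Set (Fin n)) := fun g hg =>
    stab_pt_of_fix (Q_fix_last hodd hg)
  refine not_unique_of_two hc1 (Q_le_stab_low (by omega) h2) hc2 hQ2 ?_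
  intro heq
  obtain ⟨g, -, hg1, hg2⟩ := odd_elt ha h0 h2
  rw [heq] at hg1
  exact hg2 (fix_of_stab_pt hg1)

theorem not_unique_A_odd (ha : 1 ≤ a) (h0 : 2 ^ a + 1 < n) (h2 : n < 2 ^ (a + 1))
    (hodd : n % 2 = 1) :
    ¬ ∃! M : Subgroup (alternatingGroup (Fin n)), IsCoatom M ∧ R0A n ≤ M := by
  have h20 : 2 ≤ 2 ^ a := by
    calc 2 = 2 ^ 1 := by norm_num
      _ ≤ 2 ^ a := Nat.pow_le_pow_right (by norm_num) ha
  let pt : Fin n := ⟨n - 1, by omega⟩
  have hc1 := isCoatom_stab_low_A (a := a) (n := n) (by omega) h2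
  have hc2 : IsCoatom (stabilizer (alternatingGroup (Fin n)) ({pt} : Set (Fin n))) := by
    apply alternatingGroup.isCoatom_stabilizer
    · exact ⟨pt, rfl⟩
    · refine ⟨⟨0, by omega⟩, ?_⟩
      simp only [Set.mem_compl_iff, Set.mem_singleton_iff, pt, Fin.ext_iff]
      omega
    · rw [Set.ncard_singleton, Nat.card_fin]
      omega
  have hQ2 : R0A n ≤ stabilizer (alternatingGroup (Fin n)) ({pt} : Set (Fin n)) := fun g hg => by
    rw [mem_stabA_iff]
    exact stab_pt_of_fix (Q_fix_last hodd (mem_R0_iff.1 hg).1)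
  refine not_unique_of_two hc1 (R0A_le_stab_low (by omega) h2) hc2 hQ2 ?_
  intro heq
  obtain ⟨g, hga, hg1, hg2⟩ := odd_elt ha h0 h2
  have hy : (⟨g, hga⟩ : alternatingGroup (Fin n)) ∈
      stabilizer (alternatingGroup (Fin n)) (low n a) := mem_stabA_iff.2 hg1
  rw [heq] at hy
  exact hg2 (fix_of_stab_pt (mem_stabA_iff.1 hy))

/-- An even element outside `blockStab n 1`. -/
theorem exists_not_mem_blockStab_one (hn : 5 ≤ n) :
    ∃ g ∈ alternatingGroup (Fin n), g ∉ blockStab n 1 := by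
  refine ⟨swap (⟨1, by omega⟩ : Fin n) ⟨2, by omega⟩ * swap (⟨3, by omega⟩ : Fin n) ⟨4, by omega⟩,
    ?_, ?_⟩
  · rw [Perm.mem_alternatingGroup, map_mul, Perm.sign_swap, Perm.sign_swap]
    · simp
    · simp [Fin.ext_iff]
    · simp [Fin.ext_iff]
  · intro h
    have h1 := (h ⟨0, by omega⟩ ⟨1, by omega⟩).2 (by norm_num)
    simp only [Perm.mul_apply, swap_apply_def, Fin.ext_iff] at h1
    simp at h1

/-- An even element outside the block stabilizer of the halves. -/
theorem exists_not_mem_blockStab_half {P : ℕ} (hP : 2 ^ a = P) (hP4 : 4 ≤ P) (hn : P + 1 < n)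
    (hn2 : n ≤ 2 * P) :
    ∃ g ∈ alternatingGroup (Fin n), g ∉ blockStab n a := by
  refine ⟨swap (⟨0, by omega⟩ : Fin n) ⟨P, by omega⟩ * swap (⟨2, by omega⟩ : Fin n) ⟨3, by omega⟩,
    ?_, ?_⟩
  · rw [Perm.mem_alternatingGroup, map_mul, Perm.sign_swap, Perm.sign_swap]
    · simp
    · simp [Fin.ext_iff]
    · simp only [ne_eq, Fin.ext_iff]; omega
  · intro h
    have h1 := (h ⟨0, by omega⟩ ⟨1, by omega⟩).2 (by
      simp only [hP]
      rw [Nat.div_eq_of_lt (by omega), Nat.div_eq_of_lt (by omega)])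
    have h2 : (swap (⟨0, by omega⟩ : Fin n) ⟨P, by omega⟩ *
        swap (⟨2, by omega⟩ : Fin n) ⟨3, by omega⟩) ⟨0, by omega⟩ = ⟨P, by omega⟩ := by
      simp [Perm.mul_apply, swap_apply_def, Fin.ext_iff]
    have h3 : (swap (⟨0, by omega⟩ : Fin n) ⟨P, by omega⟩ *
        swap (⟨2, by omega⟩ : Fin n) ⟨3, by omega⟩) ⟨1, by omega⟩ = ⟨1, by omega⟩ := by
      simp [Perm.mul_apply, swap_apply_def, Fin.ext_iff]
      omega
    rw [h2, h3, hP] at h1
    simp only at h1
    rw [Nat.div_self (by omega), Nat.div_eq_of_lt (by omega)] at h1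
    omega

/-- `n` even, not a power of 2. -/
theorem not_unique_S_even (ha : 1 ≤ a) (h0 : 2 ^ a < n) (h2 : n < 2 ^ (a + 1))
    (heven : n % 2 = 0) (hn : 5 ≤ n) :
    ¬ ∃! M : Subgroup (Perm (Fin n)), IsCoatom M ∧ Q n ≤ M := by
  have h20 : 2 ≤ 2 ^ a := by
    calc 2 = 2 ^ 1 := by norm_num
      _ ≤ 2 ^ a := Nat.pow_le_pow_right (by norm_num) ha
  have hpeven : 2 ^ a % 2 = 0 := by
    obtain ⟨b, rfl⟩ := Nat.exists_eq_add_of_le ha
    rw [pow_add]
    simp
  have hc1 := isCoatom_stab_low (a := a) (n := n) h0 h2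
  obtain ⟨y, -, hy⟩ := exists_not_mem_blockStab_one hn
  have hne : blockStab n 1 ≠ ⊤ := fun h => hy (by rw [h]; exact Subgroup.mem_top _)
  rcases eq_top_or_exists_le_coatom (blockStab n 1) with h | ⟨M2, hM2, hle⟩
  · exact absurd h hne
  refine not_unique_of_two hc1 (Q_le_stab_low h0.le h2) hM2 ((Q_le_blockStab n 1).trans hle) ?_
  intro heq
  have hg := double_swap_mem_blockStab (n := n) (p := 2 ^ a) hpeven h20 (by omega)
  have hg' := hle hg
  rw [← heq] at hg'
  have h3 := (iff_of_mem_stab hg' ⟨0, by omega⟩).2 (by rw [mem_low]; positivity)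
  rw [mem_low] at h3
  simp only [Perm.mul_apply, swap_apply_def, Fin.ext_iff] at h3
  revert h3
  split_ifs <;> simp_all

theorem not_unique_A_even (ha : 1 ≤ a) (h0 : 2 ^ a < n) (h2 : n < 2 ^ (a + 1))
    (heven : n % 2 = 0) (hn : 5 ≤ n) :
    ¬ ∃! M : Subgroup (alternatingGroup (Fin n)), IsCoatom M ∧ R0A n ≤ M := by
  have h20 : 2 ≤ 2 ^ a := by
    calc 2 = 2 ^ 1 := by norm_num
      _ ≤ 2 ^ a := Nat.pow_le_pow_right (by norm_num) ha
  have hpeven : 2 ^ a % 2 = 0 := by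
    obtain ⟨b, rfl⟩ := Nat.exists_eq_add_of_le ha
    rw [pow_add]
    simp
  have hc1 := isCoatom_stab_low_A (a := a) (n := n) h0 h2
  obtain ⟨y, hya, hy⟩ := exists_not_mem_blockStab_one hn
  have hne : (blockStab n 1).comap (alternatingGroup (Fin n)).subtype ≠ ⊤ := fun h => by
    have : (⟨y, hya⟩ : alternatingGroup (Fin n)) ∈
        (blockStab n 1).comap (alternatingGroup (Fin n)).subtype := by
      rw [h]; exact Subgroup.mem_top _
    exact hy this
  rcases eq_top_or_exists_le_coatom ((blockStab n 1).comap (alternatingGroup (Fin n)).subtype)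
    with h | ⟨M2, hM2, hle⟩
  · exact absurd h hne
  have hR : R0A n ≤ (blockStab n 1).comap (alternatingGroup (Fin n)).subtype := fun r hr =>
    Q_le_blockStab n 1 (mem_R0_iff.1 hr).1
  refine not_unique_of_two hc1 (R0A_le_stab_low h0.le h2) hM2 (hR.trans hle) ?_
  intro heq
  have hg := double_swap_mem_blockStab (n := n) (p := 2 ^ a) hpeven h20 (by omega)
  have hga := double_swap_mem_alt (n := n) (p := 2 ^ a) h20 (by omega)
  have hg' := hle (show (⟨_, hga⟩ : alternatingGroup (Fin n)) ∈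
    (blockStab n 1).comap (alternatingGroup (Fin n)).subtype from hg)
  rw [← heq, mem_stabA_iff] at hg'
  have h3 := (iff_of_mem_stab hg' ⟨0, by omega⟩).2 (by rw [mem_low]; positivity)
  rw [mem_low] at h3
  simp only [Perm.mul_apply, swap_apply_def, Fin.ext_iff] at h3
  revert h3
  split_ifs <;> simp_all

end NonUnique

/-! ### Degree `2 ^ k` -/

section Power

variable {n j P : ℕ}

theorem stab_le_blockStab_half (hP : P = 2 ^ j) (hn : n = 2 * P) :
    stabilizer (Perm (Fin n)) (low n j) ≤ blockStab n j := by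
  intro g hg u v
  have hb : ∀ z : Fin n, z.val / 2 ^ j < 2 := fun z => by
    apply Nat.div_lt_of_lt_mul
    have := z.isLt
    rw [← hP]
    omega
  have h1 := iff_of_mem_stab hg u
  have h2 := iff_of_mem_stab hg v
  have hl : ∀ z : Fin n, z ∈ low n j ↔ z.val / 2 ^ j = 0 := fun _ => Iff.rfl
  rw [hl, hl] at h1 h2
  have h3 := hb u
  have h4 := hb v
  have h5 := hb (g u)
  have h6 := hb (g v)
  generalize (g u).val / 2 ^ j = a at *
  generalize (g v).val / 2 ^ j = b at *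
  generalize u.val / 2 ^ j = c at *
  generalize v.val / 2 ^ j = d at *
  omega

theorem mem_low_iff_lt (hP : P = 2 ^ j) {z : Fin n} : z ∈ low n j ↔ z.val < P := by
  rw [mem_low, hP]

/-- The element exchanging `{0, 1}` and `{P, P + 1}`. -/
def dsw (n P : ℕ) (hP4 : 4 ≤ P) (hn : n = 2 * P) : Perm (Fin n) :=
  swap (⟨0, by omega⟩ : Fin n) ⟨P, by omega⟩ * swap (⟨1, by omega⟩ : Fin n) ⟨P + 1, by omega⟩

theorem dsw_apply (hP4 : 4 ≤ P) (hn : n = 2 * P) (z : Fin n) :
    (dsw n P hP4 hn z).val =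
      if z.val = 0 then P else if z.val = P then 0 else if z.val = 1 then P + 1
        else if z.val = P + 1 then 1 else z.val := by
  simp only [dsw, Perm.mul_apply, swap_apply_def, Fin.ext_iff]
  split_ifs <;> (try dsimp only at *) <;> omega

theorem prim_blocks_aux (hP : P = 2 ^ j) (hP4 : 4 ≤ P) (hn : n = 2 * P) {G : Type*} [Group G]
    [MulAction G (Fin n)] {B : Set (Fin n)} (hB : IsBlock G B) (g0 : G)
    (hg0 : ∀ z : Fin n, (g0 • z).val = (dsw n P hP4 hn z).val) :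
    B ≠ low n j ∧ B ≠ (low n j)ᶜ := by
  constructor
  · rintro rfl
    have h1 : (⟨2, by omega⟩ : Fin n) ∈ low n j := by rw [mem_low_iff_lt hP]; simp; omega
    have h2 : (⟨0, by omega⟩ : Fin n) ∈ low n j := by rw [mem_low_iff_lt hP]; simp; omega
    have hv : (g0 • (⟨2, by omega⟩ : Fin n)) = ⟨2, by omega⟩ := by
      apply Fin.ext
      rw [hg0, dsw_apply]
      simp only
      rw [if_neg (by norm_num), if_neg (by omega), if_neg (by norm_num), if_neg (by omega)]
    have hne : ((g0 • low n j) ∩ low n j).Nonempty :=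
      ⟨⟨2, by omega⟩, ⟨⟨2, by omega⟩, h1, hv⟩, h1⟩
    have heq := isBlock_iff_smul_eq_of_nonempty.1 hB hne
    have h3 : g0 • (⟨0, by omega⟩ : Fin n) ∈ low n j := by
      rw [← heq]
      exact ⟨_, h2, rfl⟩
    rw [mem_low_iff_lt hP, hg0, dsw_apply] at h3
    simp at h3
  · rintro rfl
    have h1 : (⟨P + 2, by omega⟩ : Fin n) ∈ (low n j)ᶜ := by
      rw [Set.mem_compl_iff, mem_low_iff_lt hP]; simp
    have h2 : (⟨P, by omega⟩ : Fin n) ∈ (low n j)ᶜ := by
      rw [Set.mem_compl_iff, mem_low_iff_lt hP]; simp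
    have hv : (g0 • (⟨P + 2, by omega⟩ : Fin n)) = ⟨P + 2, by omega⟩ := by
      apply Fin.ext
      rw [hg0, dsw_apply]
      simp only
      rw [if_neg (by omega), if_neg (by omega), if_neg (by omega), if_neg (by omega)]
    have hne : ((g0 • (low n j)ᶜ) ∩ (low n j)ᶜ).Nonempty :=
      ⟨⟨P + 2, by omega⟩, ⟨⟨P + 2, by omega⟩, h1, hv⟩, h1⟩
    have heq := isBlock_iff_smul_eq_of_nonempty.1 hB hne
    have h3 : g0 • (⟨P, by omega⟩ : Fin n) ∈ (low n j)ᶜ := by
      rw [← heq]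
      exact ⟨_, h2, rfl⟩
    rw [Set.mem_compl_iff, mem_low_iff_lt hP, hg0, dsw_apply] at h3
    simp only at h3
    rw [if_neg (by omega), if_pos trivial] at h3
    omega

theorem trans_pow (hP : P = 2 ^ j) (hn : n = 2 * P) (hP4 : 4 ≤ P) (u w : Fin n) :
    ∃ g ∈ R0 n, g u = w := by
  apply R0_H1 (by omega)
  have h1 : 2 ^ (j + 1) ≤ n := by rw [pow_succ, ← hP]; omega
  have h2 : n < 2 ^ (j + 1 + 1) := by rw [pow_succ, pow_succ, ← hP]; omega
  have hb : ∀ z : Fin n, z.val < 2 ^ (j + 1) := fun z => by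
    have := z.isLt
    rw [pow_succ, ← hP]
    omega
  rw [lev_low h1 h2 (hb u), lev_low h1 h2 (hb w)]

theorem prim_pow_S (hP : P = 2 ^ j) (hP4 : 4 ≤ P) (hn : n = 2 * P)
    {M : Subgroup (Perm (Fin n))} (hQ : R0 n ≤ M)
    (hst : stabilizer (Perm (Fin n)) (low n j) ≤ M) (hg0 : dsw n P hP4 hn ∈ M) :
    IsPreprimitive M (Fin n) := by
  have : IsPretransitive M (Fin n) := by
    refine ⟨fun x y => ?_⟩
    obtain ⟨g, hg, h⟩ := trans_pow hP hn hP4 x y
    exact ⟨⟨g, hQ hg⟩, h⟩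
  have hst' : stabilizer (Perm (Fin n)) (low n j)ᶜ ≤ M := by rwa [stabilizer_compl]
  apply IsPreprimitive.mk
  intro B hB
  rw [IsTrivialBlock, or_iff_not_imp_left]
  intro hsub
  obtain ⟨hne1, hne2⟩ := prim_blocks_aux hP hP4 hn hB (⟨_, hg0⟩ : M) (fun _ => rfl)
  have h1 : ¬ B ⊆ low n j := fun h =>
    hsub (hB.subsingleton_of_ssubset_of_stabilizer_Perm_le (h.ssubset_of_ne hne1) hst)
  have h2 : ¬ B ⊆ (low n j)ᶜ := fun h =>
    hsub (hB.subsingleton_of_ssubset_of_stabilizer_Perm_le (h.ssubset_of_ne hne2) hst')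
  have := Perm.isMultiplyPretransitive (Fin n) ((low n j).ncard + 1)
  have := Perm.isMultiplyPretransitive (Fin n) ((low n j)ᶜ.ncard + 1)
  have h3 : (low n j)ᶜ ⊆ B :=
    hB.compl_subset_of_stabilizer_le_of_not_subset_of_not_subset_compl hst h1 h2
  have h4 : (low n j)ᶜᶜ ⊆ B :=
    hB.compl_subset_of_stabilizer_le_of_not_subset_of_not_subset_compl hst' h2
      (by rwa [compl_compl])
  rw [compl_compl] at h4
  apply Set.eq_univ_of_forall
  intro x
  by_cases hx : x ∈ low n j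
  · exact h4 hx
  · exact h3 hx

theorem not_unique_S_pow (hP : P = 2 ^ j) (hP4 : 4 ≤ P) (hn : n = 2 * P) :
    ¬ ∃! M : Subgroup (Perm (Fin n)), IsCoatom M ∧ Q n ≤ M := by
  rintro ⟨M, ⟨hM, hQM⟩, hu⟩
  have hu' : ∀ M' : Subgroup (Perm (Fin n)), IsCoatom M' ∧ Q n ≤ M' → M' = M := hu
  obtain ⟨y, -, hy⟩ := exists_not_mem_blockStab_one (n := n) (by omega)
  obtain ⟨y', -, hy'⟩ := exists_not_mem_blockStab_half (n := n) (a := j) (P := P) hP.symm hP4
    (by omega) (by omega)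
  have h1 : blockStab n 1 ≤ M := le_of_unique_coatom hu' (Q_le_blockStab n 1)
    (fun h => hy (by rw [h]; exact Subgroup.mem_top _))
  have h2 : blockStab n j ≤ M := le_of_unique_coatom hu' (Q_le_blockStab n j)
    (fun h => hy' (by rw [h]; exact Subgroup.mem_top _))
  have hd : dsw n P hP4 hn ∈ blockStab n 1 :=
    double_swap_mem_blockStab (n := n) (p := P) (by
      have : 2 ≤ j := by
        by_contra hj
        have : j = 0 ∨ j = 1 := by omega
        rcases this with rfl | rfl <;> simp at hP <;> omega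
      obtain ⟨b, rfl⟩ := Nat.exists_eq_add_of_le this
      rw [hP, pow_add]
      simp
      omega) (by omega) (by omega)
  have hprim := prim_pow_S hP hP4 hn (M := M) (inf_le_left.trans hQM)
    ((stab_le_blockStab_half hP hn).trans h2) (h1 hd)
  have hswap := hQM (swap_mem_Q (n := n) (j := 0) (by omega))
  have := Perm.subgroup_eq_top_of_isPreprimitive_of_isSwap_mem hprim _
    ⟨⟨2 * 0, by omega⟩, ⟨2 * 0 + 1, by omega⟩, by simp [Fin.ext_iff], rfl⟩ hswap
  exact hM.1 this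

theorem dsw_mem_alt (hP4 : 4 ≤ P) (hn : n = 2 * P) : dsw n P hP4 hn ∈ alternatingGroup (Fin n) :=
  double_swap_mem_alt (by omega) (by omega)

theorem prim_pow_A (hP : P = 2 ^ j) (hP4 : 4 ≤ P) (hn : n = 2 * P)
    {M : Subgroup (alternatingGroup (Fin n))} (hQ : R0A n ≤ M)
    (hst : stabilizer (alternatingGroup (Fin n)) (low n j) ≤ M)
    (hg0 : (⟨dsw n P hP4 hn, dsw_mem_alt hP4 hn⟩ : alternatingGroup (Fin n)) ∈ M) :
    IsPreprimitive M (Fin n) := by
  have : IsPretransitive M (Fin n) := by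
    refine ⟨fun x y => ?_⟩
    obtain ⟨g, hg, h⟩ := trans_pow hP hn hP4 x y
    have hga : g ∈ alternatingGroup (Fin n) := Perm.mem_alternatingGroup.2 (mem_R0_iff.1 hg).2
    exact ⟨⟨⟨g, hga⟩, hQ hg⟩, h⟩
  have hst' : stabilizer (alternatingGroup (Fin n)) (low n j)ᶜ ≤ M := by rwa [stabilizer_compl]
  have hnt1 : (low n j).Nontrivial :=
    ⟨⟨0, by omega⟩, by rw [mem_low_iff_lt hP]; simp; omega,
     ⟨1, by omega⟩, by rw [mem_low_iff_lt hP]; simp; omega, by simp [Fin.ext_iff]⟩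
  have hnt2 : (low n j)ᶜ.Nontrivial :=
    ⟨⟨P, by omega⟩, by rw [Set.mem_compl_iff, mem_low_iff_lt hP]; simp,
     ⟨P + 1, by omega⟩, by rw [Set.mem_compl_iff, mem_low_iff_lt hP]; simp, by simp [Fin.ext_iff]⟩
  apply IsPreprimitive.mk
  intro B hB
  rw [IsTrivialBlock, or_iff_not_imp_left]
  intro hsub
  obtain ⟨hne1, hne2⟩ := prim_blocks_aux hP hP4 hn hB (⟨_, hg0⟩ : M) (fun _ => rfl)
  have h1 : ¬ B ⊆ low n j := fun h =>
    hsub (IsBlock.subsingleton_of_ssubset_compl_of_stabilizer_alternatingGroup_le hnt2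
      (by rw [compl_compl]; exact h.ssubset_of_ne hne1) hst' hB)
  have h2 : ¬ B ⊆ (low n j)ᶜ := fun h =>
    hsub (IsBlock.subsingleton_of_ssubset_compl_of_stabilizer_alternatingGroup_le hnt1
      (h.ssubset_of_ne hne2) hst hB)
  have hcard : (low n j).ncard = P := by
    rw [ncard_low (by omega), hP]
  have hcard' : (low n j)ᶜ.ncard = P := by
    have := Set.ncard_add_ncard_compl (low n j)
    rw [hcard, Nat.card_fin] at this
    omega
  have hmt := alternatingGroup.isMultiplyPretransitive (Fin n)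
  have i1 : IsMultiplyPretransitive (alternatingGroup (Fin n)) (Fin n) ((low n j).ncard + 1) := by
    apply isMultiplyPretransitive_of_le (n := Nat.card (Fin n) - 2) _ (Nat.sub_le _ _)
    rw [hcard, Nat.card_fin]
    omega
  have i2 : IsMultiplyPretransitive (alternatingGroup (Fin n)) (Fin n) ((low n j)ᶜ.ncard + 1) := by
    apply isMultiplyPretransitive_of_le (n := Nat.card (Fin n) - 2) _ (Nat.sub_le _ _)
    rw [hcard', Nat.card_fin]
    omega
  have h3 : (low n j)ᶜ ⊆ B :=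
    hB.compl_subset_of_stabilizer_le_of_not_subset_of_not_subset_compl hst h1 h2
  have h4 : (low n j)ᶜᶜ ⊆ B :=
    hB.compl_subset_of_stabilizer_le_of_not_subset_of_not_subset_compl hst' h2
      (by rwa [compl_compl])
  rw [compl_compl] at h4
  apply Set.eq_univ_of_forall
  intro x
  by_cases hx : x ∈ low n j
  · exact h4 hx
  · exact h3 hx

theorem not_unique_A_pow (hP : P = 2 ^ j) (hP4 : 4 ≤ P) (hn : n = 2 * P) :
    ¬ ∃! M : Subgroup (alternatingGroup (Fin n)), IsCoatom M ∧ R0A n ≤ M := by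
  rintro ⟨M, ⟨hM, hQM⟩, hu⟩
  have hu' : ∀ M' : Subgroup (alternatingGroup (Fin n)), IsCoatom M' ∧ R0A n ≤ M' → M' = M := hu
  obtain ⟨y, hya, hy⟩ := exists_not_mem_blockStab_one (n := n) (by omega)
  obtain ⟨y', hya', hy'⟩ := exists_not_mem_blockStab_half (n := n) (a := j) (P := P) hP.symm hP4
    (by omega) (by omega)
  have h1 : (blockStab n 1).comap (alternatingGroup (Fin n)).subtype ≤ M :=
    le_of_unique_coatom hu' (fun r hr => Q_le_blockStab n 1 (mem_R0_iff.1 hr).1)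
    (fun h => hy (by
      have : (⟨y, hya⟩ : alternatingGroup (Fin n)) ∈
        (blockStab n 1).comap (alternatingGroup (Fin n)).subtype := by
        rw [h]; exact Subgroup.mem_top _
      exact this))
  have h2 : (blockStab n j).comap (alternatingGroup (Fin n)).subtype ≤ M :=
    le_of_unique_coatom hu' (fun r hr => Q_le_blockStab n j (mem_R0_iff.1 hr).1)
    (fun h => hy' (by
      have : (⟨y', hya'⟩ : alternatingGroup (Fin n)) ∈
        (blockStab n j).comap (alternatingGroup (Fin n)).subtype := by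
        rw [h]; exact Subgroup.mem_top _
      exact this))
  have hd : dsw n P hP4 hn ∈ blockStab n 1 :=
    double_swap_mem_blockStab (n := n) (p := P) (by
      have : 2 ≤ j := by
        by_contra hj
        have : j = 0 ∨ j = 1 := by omega
        rcases this with rfl | rfl <;> simp at hP <;> omega
      obtain ⟨b, rfl⟩ := Nat.exists_eq_add_of_le this
      rw [hP, pow_add]
      simp
      omega) (by omega) (by omega)
  have hst : stabilizer (alternatingGroup (Fin n)) (low n j) ≤ M := by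
    intro z hz
    apply h2
    exact stab_le_blockStab_half hP hn (mem_stabA_iff.1 hz)
  have hprim := prim_pow_A hP hP4 hn (M := M) hQM hst (h1 hd)
  exact hM.1 (alternatingGroup.subgroup_eq_top_of_isPreprimitive
    (by rw [Nat.card_fin]; omega) M hst)

end Power

/-! ### Main theorem -/

theorem log_cases {n : ℕ} (hn : 5 ≤ n) :
    ∃ a, 2 ≤ a ∧ 2 ^ a ≤ n ∧ n < 2 ^ (a + 1) := by
  refine ⟨Nat.log 2 n, ?_, Nat.pow_log_le_self 2 (by omega), Nat.lt_pow_succ_log_self (by norm_num) n⟩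
  have : 2 ^ 2 ≤ n := by omega
  exact (Nat.le_log_iff_pow_le (by norm_num) (by omega)).2 this

theorem main_iff {n : ℕ} (hn : 5 ≤ n) :
    ((∃! M : Subgroup (alternatingGroup (Fin n)), IsCoatom M ∧ R0A n ≤ M) ↔
        ∃ k : ℕ, 2 ≤ k ∧ n = 2 ^ k + 1) ∧
    ((∃! M : Subgroup (Perm (Fin n)), IsCoatom M ∧ Q n ≤ M) ↔
        ∃ k : ℕ, 2 ≤ k ∧ n = 2 ^ k + 1) := by
  by_cases hform : ∃ k : ℕ, 2 ≤ k ∧ n = 2 ^ k + 1
  · obtain ⟨k, hk, hnk⟩ := hform
    have hex : ∃ k : ℕ, 2 ≤ k ∧ n = 2 ^ k + 1 := ⟨k, hk, hnk⟩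
    exact ⟨⟨fun _ => hex, fun _ => unique_A hk hnk⟩, ⟨fun _ => hex, fun _ => unique_S hk hnk⟩⟩
  · refine ⟨⟨?_, fun h => absurd h hform⟩, ⟨?_, fun h => absurd h hform⟩⟩
    all_goals
      intro hu
      exfalso
      obtain ⟨a, ha, h1, h2⟩ := log_cases hn
      have hpeven : 2 ^ a % 2 = 0 := by
        obtain ⟨b, rfl⟩ := Nat.exists_eq_add_of_le ha
        rw [pow_add]
        simp
        omega
      have h4 : 4 ≤ 2 ^ a := by
        calc 4 = 2 ^ 2 := by norm_num
          _ ≤ 2 ^ a := Nat.pow_le_pow_right (by norm_num) ha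
      by_cases h0 : 2 ^ a = n
      · -- a power of two
        have ha3 : 3 ≤ a := by
          by_contra h
          have : a = 2 := by omega
          subst this
          omega
        have hP : 2 ^ (a - 1) = 2 ^ a / 2 := by
          obtain ⟨b, rfl⟩ := Nat.exists_eq_add_of_le (show 1 ≤ a by omega)
          simp [pow_add, pow_succ]
        have hP4 : 4 ≤ 2 ^ (a - 1) := by
          calc 4 = 2 ^ 2 := by norm_num
            _ ≤ 2 ^ (a - 1) := Nat.pow_le_pow_right (by norm_num) (by omega)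
        first
          | exact not_unique_A_pow rfl hP4 (by omega) hu
          | exact not_unique_S_pow rfl hP4 (by omega) hu
      · have hlt : 2 ^ a < n := by omega
        have hne1 : n ≠ 2 ^ a + 1 := fun h => hform ⟨a, ha, h⟩
        by_cases hodd : n % 2 = 1
        · first
            | exact not_unique_A_odd (a := a) (by omega) (by omega) h2 hodd hu
            | exact not_unique_S_odd (a := a) (by omega) (by omega) h2 hodd hu
        · first
            | exact not_unique_A_even (a := a) (by omega) hlt h2 (by omega) hn hu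
            | exact not_unique_S_even (a := a) (by omega) hlt h2 (by omega) hn hu

end Cfsg.Agent.Lib.SymSylow2
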