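import Mathlib
import Cfsg.Agent.Lib.FSForm
import Cfsg.Agent.Lib.LinTwist
import Cfsg.Agent.Lib.CharClifford
import Cfsg.Agent.Lib.CharKernel
import Cfsg.Agent.Lib.DefectZero
import Cfsg.Agent.Lib.CharInd
import Cfsg.Agent.Lib.ExtraBasics
import Cfsg.Agent.Lib.CharTable

set_option autoImplicit false
set_option linter.unusedSectionVars false
set_option linter.unusedVariables false
set_option linter.style.haveILetI false

namespace Cfsg.Agent.Lib.SymplEven

open Cfsg Cfsg.Agent.Lib.CharBasic Cfsg.Agent.Lib.FSForm Cfsg.Agent.Lib.FrobeniusSchur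
open scoped ComplexConjugate Matrix

universe u

section Form

variable {Γ : Type u} [Group Γ] [Fintype Γ] {n : Type*} [Fintype n] [DecidableEq n]
  (A : Γ →* Matrix n n ℂ)

/-- Existence of the alternating form. -/
theorem exists_alt_form
    (h1 : (Nat.card Γ : ℂ)⁻¹ * ∑ g : Γ, (A g).trace ^ 2 = 1)
    (h2 : (Nat.card Γ : ℂ)⁻¹ * ∑ g : Γ, (A (g * g)).trace = -1) :
    ∃ X : Matrix n n ℂ, X ≠ 0 ∧ Xᵀ = -X ∧ ∀ g, A g * X * (A g)ᵀ = X := by
  classical
  set P := avgA A with hP
  have hid : IsIdempotentElem P := avgA_idem A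
  have hproj := LinearMap.IsIdempotentElem.isProj_range P hid
  have htr : LinearMap.trace ℂ _ P = 1 := by rw [hP, trace_avgA, h1]
  have hrank : Module.finrank ℂ (LinearMap.range P) = 1 := by
    rw [hproj.trace] at htr
    exact_mod_cast htr
  obtain ⟨v, hv0, hv⟩ := finrank_eq_one_iff'.mp hrank
  have hv0' : (v : Matrix n n ℂ) ≠ 0 := fun h => hv0 (Subtype.ext h)
  have hPv : P (v : Matrix n n ℂ) = v := by
    obtain ⟨u, hu⟩ := v.2
    have := LinearMap.congr_fun hid u
    simp only [Module.End.mul_apply] at this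
    rw [hu] at this
    exact this
  have hTv : swapT (v : Matrix n n ℂ) ∈ LinearMap.range P := by
    refine ⟨swapT (v : Matrix n n ℂ), ?_⟩
    have h3 := LinearMap.congr_fun (swapT_comp_avgA A) (v : Matrix n n ℂ)
    simp only [LinearMap.comp_apply] at h3
    rw [← h3, hPv]
  obtain ⟨ε, hε⟩ := hv ⟨swapT (v : Matrix n n ℂ), hTv⟩
  have hε' : ε • (v : Matrix n n ℂ) = swapT (v : Matrix n n ℂ) := congrArg Subtype.val hε
  have hcomp : swapT ∘ₗ P = ε • P := by
    apply LinearMap.ext
    intro x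
    obtain ⟨c, hc⟩ := hv ⟨P x, ⟨x, rfl⟩⟩
    have hc' : c • (v : Matrix n n ℂ) = P x := congrArg Subtype.val hc
    simp only [LinearMap.comp_apply, LinearMap.smul_apply]
    rw [← hc', map_smul, ← hε', smul_comm]
  have hε1 : ε = -1 := by
    have h3 := congrArg (LinearMap.trace ℂ _) hcomp
    rw [map_smul, htr, smul_eq_mul, mul_one, hP, trace_swapT_avgA, h2] at h3
    exact h3.symm
  refine ⟨v, hv0', ?_, ?_⟩
  · have : swapT (v : Matrix n n ℂ) = -v := by rw [← hε', hε1, neg_smul, one_smul]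
    exact this
  · intro g
    have h3 := LinearMap.congr_fun (sand_comp_avgA A g) (v : Matrix n n ℂ)
    simp only [LinearMap.comp_apply] at h3
    rw [hPv] at h3
    exact h3

end Form

section Even

variable {Γ : Type u} [Group Γ] [Fintype Γ] {k : ℕ}

/-- A character of indicator `-1` contains the principal character of a subgroup with even
multiplicity. -/
theorem even_of_nu_neg (ρ : Representation ℂ Γ (Fin k → ℂ)) (hρ : ρ.IsIrreducible)
    (hν : (Nat.card Γ : ℂ)⁻¹ * ∑ g : Γ, ρ.character (g * g) = -1) (H : Subgroup Γ) [Fintype H]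
    (a : ℕ) (ha : (Nat.card H : ℂ)⁻¹ * ∑ h : H, ρ.character (h : Γ) = a) : Even a := by
  classical
  have hchi := isIrrCharacter_of_rep ρ hρ
  have hreal := Cfsg.Agent.Lib.LinTwist.real_of_nu_ne_zero hchi (by rw [hν]; norm_num)
  set A := matOfRep ρ with hA
  have htr : ∀ g, (A g).trace = ρ.character g := trace_matOfRep ρ
  have h1 : (Nat.card Γ : ℂ)⁻¹ * ∑ g : Γ, (A g).trace ^ 2 = 1 := by
    have h2 := classInner_irr_self hchi
    unfold classInner at h2
    rw [← h2]
    congr 1
    refine Finset.sum_congr rfl fun g _ => ?_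
    rw [htr, sq]
    congr 1
    exact (Complex.conj_eq_iff_im.mpr (hreal g)).symm
  have h2 : (Nat.card Γ : ℂ)⁻¹ * ∑ g : Γ, (A (g * g)).trace = -1 := by
    simpa only [htr] using hν
  obtain ⟨X, hX0, hXa, hXinv⟩ := exists_alt_form A h1 h2
  have hXu : IsUnit X := isUnit_of_form hρ hX0 hXinv
  -- the averaging matrix
  let B : H → Matrix (Fin k) (Fin k) ℂ := fun h => (A ((h : Γ)⁻¹))ᵀ
  have hBmul : ∀ h h' : H, B h * B h' = B (h * h') := by
    intro h h'
    simp only [B, Subgroup.coe_mul, mul_inv_rev, map_mul, Matrix.transpose_mul]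
  have hBone : B 1 = 1 := by simp [B]
  have hXB : ∀ h : H, X * B h = A h * X := by
    intro h
    have h3 := hXinv ((h : Γ)⁻¹)
    have h4 : A h * A ((h : Γ)⁻¹) = 1 := by rw [← map_mul]; simp
    calc X * B h = (A h * A ((h : Γ)⁻¹)) * X * B h := by rw [h4, Matrix.one_mul]
      _ = A h * (A ((h : Γ)⁻¹) * X * (A ((h : Γ)⁻¹))ᵀ) := by simp only [B, Matrix.mul_assoc]
      _ = A h * X := by rw [h3]
  have hBt : ∀ h : H, (A h)ᵀ = B h⁻¹ := by
    intro h
    simp [B]
  have hcard : (Nat.card H : ℂ) ≠ 0 := by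
    exact_mod_cast (Nat.card_pos (α := H)).ne'
  let π : Matrix (Fin k) (Fin k) ℂ := (Nat.card H : ℂ)⁻¹ • ∑ h : H, B h
  have hBπ : ∀ h : H, B h * π = π := by
    intro h
    simp only [π]
    rw [Matrix.mul_smul, Finset.mul_sum]
    congr 1
    simp only [hBmul]
    exact Fintype.sum_equiv (Equiv.mulLeft h) _ _ fun _ => rfl
  have hπ2 : π * π = π := by
    conv_lhs => rw [show π * π = (Nat.card H : ℂ)⁻¹ • ∑ h : H, B h * π by
      simp only [π]; rw [Matrix.smul_mul, Finset.sum_mul]]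
    simp only [hBπ, Finset.sum_const, Finset.card_univ]
    rw [Fintype.card_eq_nat_card, ← Nat.cast_smul_eq_nsmul ℂ, smul_smul, inv_mul_cancel₀ hcard,
      one_smul]
  have hπtr : π.trace = a := by
    rw [← ha]
    simp only [π, Matrix.trace_smul, Matrix.trace_sum, smul_eq_mul, B, Matrix.trace_transpose, htr]
    congr 1
    refine Fintype.sum_equiv (Equiv.inv H) _ _ fun h => ?_
    simp
  -- the fixed subspace
  have hfix : ∀ u, π *ᵥ u = u → ∀ h : H, B h *ᵥ u = u := by
    intro u hu h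
    rw [← hu, Matrix.mulVec_mulVec, hBπ]
  have horth : ∀ u w, π *ᵥ u = u → π *ᵥ w = 0 → u ⬝ᵥ (X *ᵥ w) = 0 := by
    intro u w hu hw
    have h3 : ∀ h : H, u ⬝ᵥ (X *ᵥ (B h *ᵥ w)) = u ⬝ᵥ (X *ᵥ w) := by
      intro h
      rw [Matrix.mulVec_mulVec, hXB, ← Matrix.mulVec_mulVec, Matrix.dotProduct_mulVec,
        ← Matrix.mulVec_transpose, hBt, hfix u hu]
    have h4 : u ⬝ᵥ (X *ᵥ (π *ᵥ w)) = u ⬝ᵥ (X *ᵥ w) := by
      simp only [π]
      rw [Matrix.smul_mulVec, Matrix.mulVec_smul, dotProduct_smul, Matrix.sum_mulVec,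
        Matrix.mulVec_sum, dotProduct_sum]
      simp only [h3, Finset.sum_const, Finset.card_univ]
      rw [Fintype.card_eq_nat_card, nsmul_eq_mul, smul_eq_mul, ← mul_assoc,
        inv_mul_cancel₀ hcard, one_mul]
    rw [← h4, hw, Matrix.mulVec_zero, dotProduct_zero]
  have hskew : ∀ u v, u ⬝ᵥ (X *ᵥ v) = - (v ⬝ᵥ (X *ᵥ u)) := by
    intro u v
    have h3 : u ⬝ᵥ (X *ᵥ v) = v ⬝ᵥ (Xᵀ *ᵥ u) := by
      rw [Matrix.mulVec_transpose, dotProduct_comm v, Matrix.dotProduct_mulVec]
    rw [h3, hXa, Matrix.neg_mulVec, dotProduct_neg]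
  -- the dimension of the range
  let L : (Fin k → ℂ) →ₗ[ℂ] (Fin k → ℂ) := Matrix.toLin' π
  have hLid : IsIdempotentElem L := by
    show L * L = L
    apply LinearMap.ext
    intro v
    simp only [L, Module.End.mul_apply, Matrix.toLin'_apply, Matrix.mulVec_mulVec, hπ2]
  have hproj := LinearMap.IsIdempotentElem.isProj_range L hLid
  have htrL : LinearMap.trace ℂ _ L = a := by
    rw [← hπtr]
    simp only [L]
    rw [Matrix.trace_toLin'_eq]
  have hrank : Module.finrank ℂ (LinearMap.range L) = a := by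
    rw [hproj.trace] at htrL
    exact_mod_cast htrL
  let E := LinearMap.range L
  have hE : ∀ v ∈ E, π *ᵥ v = v := by
    rintro _ ⟨w, rfl⟩
    show π *ᵥ (π *ᵥ w) = π *ᵥ w
    rw [Matrix.mulVec_mulVec, hπ2]
  let b := Module.finBasisOfFinrankEq ℂ E hrank
  let M : Matrix (Fin a) (Fin a) ℂ := Matrix.of fun i j => (b i : Fin k → ℂ) ⬝ᵥ (X *ᵥ (b j : Fin k → ℂ))
  have hMt : Mᵀ = -M := by
    ext i j
    simp only [Matrix.transpose_apply, M, Matrix.of_apply, Matrix.neg_apply]
    exact hskew _ _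
  have hdet : M.det ≠ 0 := by
    intro h0
    obtain ⟨c, hc0, hc⟩ := Matrix.exists_mulVec_eq_zero_iff.mpr h0
    set v : E := ∑ j, c j • b j with hv
    have hv0 : v ≠ 0 := by
      intro hv00
      apply hc0
      funext j
      exact Fintype.linearIndependent_iff.mp b.linearIndependent c hv00 j
    have hvcoe : (v : Fin k → ℂ) = ∑ j, c j • (b j : Fin k → ℂ) := by
      simp only [hv]
      rw [Submodule.coe_sum]
      rfl
    have hi : ∀ i, (b i : Fin k → ℂ) ⬝ᵥ (X *ᵥ (v : Fin k → ℂ)) = 0 := by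
      intro i
      have h4 := congrFun hc i
      simp only [Matrix.mulVec, M, Matrix.of_apply, Pi.zero_apply, dotProduct] at h4
      rw [hvcoe, Matrix.mulVec_sum, dotProduct_sum, ← h4]
      refine Finset.sum_congr rfl fun j _ => ?_
      rw [Matrix.mulVec_smul, dotProduct_smul, smul_eq_mul, mul_comm]
      simp only [dotProduct, Matrix.mulVec]
    have hE0 : ∀ u : E, (u : Fin k → ℂ) ⬝ᵥ (X *ᵥ (v : Fin k → ℂ)) = 0 := by
      intro u
      have h4 : (u : Fin k → ℂ) = ∑ j, b.repr u j • (b j : Fin k → ℂ) := by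
        conv_lhs => rw [← b.sum_repr u]
        rw [Submodule.coe_sum]
        rfl
      rw [h4, sum_dotProduct]
      refine Finset.sum_eq_zero fun j _ => ?_
      rw [smul_dotProduct, hi, smul_zero]
    have hall : ∀ u : Fin k → ℂ, u ⬝ᵥ (X *ᵥ (v : Fin k → ℂ)) = 0 := by
      intro u
      have h4 : u = π *ᵥ u + (u - π *ᵥ u) := by abel
      rw [h4, add_dotProduct]
      have h5 := hE0 ⟨π *ᵥ u, ⟨u, rfl⟩⟩
      have h6 : π *ᵥ (u - π *ᵥ u) = 0 := by
        rw [Matrix.mulVec_sub, Matrix.mulVec_mulVec, hπ2, sub_self]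
      have h7 := horth (v : Fin k → ℂ) (u - π *ᵥ u) (hE _ v.2) h6
      rw [show (π *ᵥ u) ⬝ᵥ (X *ᵥ (v : Fin k → ℂ)) = 0 from h5, zero_add, hskew, h7, neg_zero]
    have hXv : X *ᵥ (v : Fin k → ℂ) = 0 := by
      funext i
      have := hall (Pi.single i 1)
      simpa using this
    have hv00 : (v : Fin k → ℂ) = 0 := by
      obtain ⟨U, rfl⟩ := hXu
      have h4 := congrArg (fun w => ((U⁻¹ : (Matrix (Fin k) (Fin k) ℂ)ˣ) : Matrix (Fin k) (Fin k) ℂ) *ᵥ w) hXv
      simpa [Matrix.mulVec_mulVec] using h4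
    exact hv0 (Subtype.ext hv00)
  have h3 : M.det = (-1) ^ a * M.det := by
    conv_lhs => rw [← Matrix.det_transpose, hMt, Matrix.det_neg]
    simp
  have h4 : ((-1 : ℂ)) ^ a = 1 := by
    have := mul_right_cancel₀ hdet (show (-1 : ℂ) ^ a * M.det = 1 * M.det by rw [one_mul]; exact h3.symm)
    exact this
  exact (neg_one_pow_eq_one_iff_even (by norm_num)).mp h4

end Even


section OddMult

variable {G : Type u} [Group G] [Fintype G]

open Cfsg.Agent.Lib.CharInduction Cfsg.Agent.Lib.CharClifford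

theorem norm_restrict_le (N : Subgroup G) [Fintype N] {χ : G → ℂ} (hχ : IsIrrCharacter G χ)
    {m : IrrCharacter N → ℕ} (hm : (fun n : N => χ n) = ∑ i, m i • (i : N → ℂ)) :
    ∑ i, m i ^ 2 ≤ N.index := by
  classical
  have h1 := classInner_nat_decomp_self m
  rw [← hm] at h1
  have h2 := classInner_irr_self hχ
  have hNpos : (0 : ℝ) < Nat.card N := by exact_mod_cast (Nat.card_pos (α := N))
  have hGpos : (0 : ℝ) < Nat.card G := by exact_mod_cast (Nat.card_pos (α := G))
  have hG : ∑ g : G, ‖χ g‖ ^ 2 = (Nat.card G : ℝ) := by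
    unfold classInner at h2
    have h3 : (∑ g : G, χ g * conj (χ g)) = (Nat.card G : ℂ) := by
      have hG0 : (Nat.card G : ℂ) ≠ 0 := natCard_ne_zero'
      field_simp at h2
      simpa using h2
    have h4 : (∑ g : G, χ g * conj (χ g)) = ((∑ g : G, ‖χ g‖ ^ 2 : ℝ) : ℂ) := by
      push_cast
      refine Finset.sum_congr rfl fun g _ => ?_
      rw [Complex.mul_conj, Complex.normSq_eq_norm_sq]
      push_cast
      rfl
    rw [h4] at h3
    exact_mod_cast h3
  have hN : ∑ n : N, ‖χ n‖ ^ 2 = ((∑ i, m i ^ 2 : ℕ) : ℝ) * (Nat.card N : ℝ) := by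
    unfold classInner at h1
    have h3 : (∑ n : N, χ n * conj (χ n)) = ((∑ i, m i ^ 2 : ℕ) : ℂ) * (Nat.card N : ℂ) := by
      have hG0 : (Nat.card N : ℂ) ≠ 0 := natCard_ne_zero'
      field_simp at h1
      simpa [mul_comm] using h1
    have h4 : (∑ n : N, χ n * conj (χ n)) = ((∑ n : N, ‖χ n‖ ^ 2 : ℝ) : ℂ) := by
      push_cast
      refine Finset.sum_congr rfl fun g _ => ?_
      rw [Complex.mul_conj, Complex.normSq_eq_norm_sq]
      push_cast
      rfl
    rw [h4] at h3
    exact_mod_cast h3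
  have hle : ∑ n : N, ‖χ n‖ ^ 2 ≤ ∑ g : G, ‖χ g‖ ^ 2 := by
    have : ∑ n : N, ‖χ n‖ ^ 2 = ∑ g ∈ Finset.univ.map (Function.Embedding.subtype (· ∈ N)), ‖χ g‖ ^ 2 := by
      rw [Finset.sum_map]
      rfl
    rw [this]
    exact Finset.sum_le_univ_sum_of_nonneg fun g => by positivity
  have hcard : (Nat.card G : ℝ) = Nat.card N * N.index := by
    exact_mod_cast (N.card_mul_index).symm
  rw [hN, hG, hcard, mul_comm] at hle
  have := le_of_mul_le_mul_left hle hNpos
  exact_mod_cast this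


/-- An index two subgroup above `N`. -/
theorem exists_index_two (N : Subgroup G) [N.Normal] (h2 : IsPGroup 2 (G ⧸ N)) (hn : N.index ≠ 1) :
    ∃ M : Subgroup G, M.Normal ∧ N ≤ M ∧ M.index = 2 := by
  classical
  haveI : Fact (Nat.Prime 2) := ⟨Nat.prime_two⟩
  obtain ⟨k, hk⟩ := h2.exists_card_eq
  have hk' : N.index = 2 ^ k := hk
  rcases k with _ | k
  · exact absurd (by simpa using hk') hn
  obtain ⟨L, hL⟩ := Sylow.exists_subgroup_card_pow_prime (G := G ⧸ N) 2 (n := k) (by
    rw [hk]; exact pow_dvd_pow 2 (Nat.le_succ k))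
  have hLi : L.index = 2 := by
    have h := L.card_mul_index
    rw [hL, hk, pow_succ] at h
    exact Nat.eq_of_mul_eq_mul_left (by positivity) h
  have hLn : L.Normal := Cfsg.Agent.Lib.ExtraBasics.normal_of_index_eq_prime h2 L hLi
  refine ⟨L.comap (QuotientGroup.mk' N), Subgroup.Normal.comap hLn _, ?_, ?_⟩
  · intro n hn
    rw [Subgroup.mem_comap, QuotientGroup.mk'_apply, (QuotientGroup.eq_one_iff n).mpr hn]
    exact L.one_mem
  · rw [Subgroup.index_comap_of_surjective L (QuotientGroup.mk'_surjective N)]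
    exact hLi

theorem odd_mult_eq_one (n : ℕ) : ∀ (G : Type u) [Group G] [Fintype G] (N : Subgroup G) [N.Normal]
    [Fintype N], N.index = n → IsPGroup 2 (G ⧸ N) → ∀ (χ : G → ℂ) (φ : N → ℂ), IsIrrCharacter G χ →
    IsIrrCharacter N φ → ∀ e : ℕ, classInner (fun x : N => χ x) φ = e → Odd e → e = 1 := by
  induction n using Nat.strong_induction_on with
  | _ n ih =>
  intro G _ _ N _ _ hn h2 χ φ hχ hφ e he hodd
  classical
  by_cases hn1 : n = 1
  · -- the base
    obtain ⟨m, hm⟩ := exists_nat_decomp (isCharacter_restrict N (IsIrrCharacter.isCharacter hχ))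
    have h1 := norm_restrict_le N hχ hm
    have h3 : e = m ⟨φ, hφ⟩ := by
      have := classInner_nat_decomp m φ hφ
      rw [← hm, he] at this
      exact_mod_cast this
    have h4 : m ⟨φ, hφ⟩ ^ 2 ≤ ∑ i, m i ^ 2 :=
      Finset.single_le_sum (f := fun i => m i ^ 2) (fun _ _ => Nat.zero_le _) (Finset.mem_univ _)
    rw [hn, hn1] at h1
    have h5 : e ^ 2 ≤ 1 := by rw [h3]; exact h4.trans h1
    have h6 : e ≤ 1 := by nlinarith
    obtain ⟨t, rfl⟩ := hodd
    omega
  obtain ⟨M, hMn, hNM, hMi⟩ := exists_index_two N h2 (by rw [hn]; exact hn1)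
  haveI := hMn
  haveI : Fintype M := Fintype.ofFinite _
  -- the subgroup of `M`
  let N' : Subgroup M := N.subgroupOf M
  haveI hN' : N'.Normal := inferInstance
  haveI : Fintype N' := Fintype.ofFinite _
  let ι : N' ≃* N := Subgroup.subgroupOfEquivOfLe hNM
  let φ' : N' → ℂ := φ ∘ ι
  have hφ' : IsIrrCharacter N' φ' :=
    isIrrCharacter_comp_of_surjective ι.toMonoidHom ι.surjective hφ
  have hN'i : N'.index * M.index = n := by
    rw [← hn]
    exact Subgroup.relIndex_mul_index hNM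
  have hN'idx : N'.index < n := by
    rw [← hN'i, hMi]
    have : 0 < N'.index := Nat.pos_of_ne_zero (Subgroup.index_ne_zero_of_finite)
    omega
  have h2' : IsPGroup 2 (M ⧸ N') := by
    obtain ⟨k, hk⟩ := h2.exists_card_eq
    have hk' : n = 2 ^ k := by rw [← hn]; exact hk
    have hdvd : N'.index ∣ 2 ^ k := by
      rw [← hk', ← hN'i]
      exact dvd_mul_right _ _
    obtain ⟨j, -, hj⟩ := (Nat.dvd_prime_pow Nat.prime_two).mp hdvd
    exact IsPGroup.of_card (n := j) hj
  obtain ⟨m, hm⟩ := exists_nat_decomp (isCharacter_restrict M (IsIrrCharacter.isCharacter hχ))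
  have hnorm := norm_restrict_le M hχ hm
  rw [hMi] at hnorm
  -- multiplicities below
  have hE : ∀ ψ : IrrCharacter M, ∃ c : ℕ, classInner (fun x : N' => (ψ : M → ℂ) x) φ' = c := fun ψ =>
    classInner_char_irr (isCharacter_restrict N' (IsIrrCharacter.isCharacter ψ.2)) hφ'
  choose c hc using hE
  have hsum : e = ∑ ψ, m ψ * c ψ := by
    have h1 : classInner (fun x : N' => (fun y : M => χ y) (x : M)) φ' = e := by
      rw [← he]
      exact Cfsg.Agent.Lib.Clifford.classInner_comp_mulEquiv ι (fun x : N => χ x) φ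
    rw [hm] at h1
    have h3 : (fun x : N' => (∑ i, m i • (i : M → ℂ)) (x : M)) =
        ∑ i, (m i : ℂ) • (fun x : N' => (i : M → ℂ) x) := by
      funext x
      simp [Finset.sum_apply]
    rw [h3, classInner_sum_left] at h1
    simp only [classInner_smul_left, hc] at h1
    exact_mod_cast h1.symm
  have hIH : ∀ ψ, Odd (c ψ) → c ψ = 1 := fun ψ h =>
    ih _ hN'idx M N' rfl h2' _ φ' ψ.2 hφ' _ (hc ψ) h
  have hmm : ∀ ψ : IrrCharacter M, classInner (fun y : M => χ y) (ψ : M → ℂ) = m ψ := by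
    intro ψ
    have := classInner_nat_decomp m ψ ψ.2
    rw [← hm] at this
    exact this
  obtain ⟨ψ₀, hψ₀⟩ : ∃ ψ, Odd (m ψ * c ψ) := by
    by_contra hcon
    push Not at hcon
    have : Even (∑ ψ, m ψ * c ψ) :=
      Finset.even_sum _ fun ψ _ => Nat.not_odd_iff_even.mp (hcon ψ)
    rw [← hsum] at this
    exact (Nat.not_even_iff_odd.mpr hodd) this
  obtain ⟨hm0, hc0⟩ := Nat.odd_mul.mp hψ₀
  have hc01 := hIH ψ₀ hc0
  have hm01 : m ψ₀ = 1 := by
    have h4 : m ψ₀ ^ 2 ≤ ∑ i, m i ^ 2 :=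
      Finset.single_le_sum (f := fun i => m i ^ 2) (fun _ _ => Nat.zero_le _) (Finset.mem_univ _)
    have h5 : m ψ₀ ≤ 1 := by nlinarith
    obtain ⟨t, ht⟩ := hm0
    omega
  have hzero : ∀ ψ, ψ ≠ ψ₀ → m ψ * c ψ = 0 := by
    intro ψ₁ hne
    by_contra hcon
    have hm1 : m ψ₁ ≠ 0 := fun h => hcon (by rw [h, zero_mul])
    have hc1 : c ψ₁ ≠ 0 := fun h => hcon (by rw [h, mul_zero])
    -- equal degrees
    have hdeg : (ψ₁ : M → ℂ) 1 = (ψ₀ : M → ℂ) 1 := by
      obtain ⟨g, hg⟩ := exists_conj_of_constituents M hMn hχ ψ₀.2 ψ₁.2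
        (by rw [hmm]; exact_mod_cast (by omega : m ψ₀ ≠ 0))
        (by rw [hmm]; exact_mod_cast hm1)
      rw [hg, conjBy_apply]
      have : (⟨g * ((1 : M) : G) * g⁻¹, hMn.conj_mem _ (1 : M).2 g⟩ : M) = 1 := by
        apply Subtype.ext
        simp
      rw [this]
    have hc11 : c ψ₁ = c ψ₀ := by
      have h3 := restrict_eq_smul_sum N' hN' ψ₀.2 hφ' (by rw [hc]; exact_mod_cast (by omega : c ψ₀ ≠ 0))
      have h4 := restrict_eq_smul_sum N' hN' ψ₁.2 hφ' (by rw [hc]; exact_mod_cast hc1)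
      rw [hc] at h3 h4
      have h5 := congrFun h3 1
      have h6 := congrFun h4 1
      simp only [Pi.smul_apply, smul_eq_mul, OneMemClass.coe_one] at h5 h6
      rw [hdeg, h5] at h6
      have hS : ∑ ξ ∈ Finset.univ.image (fun g : M => conjBy N' hN' g φ'), ξ 1 ≠ 0 := by
        intro h0
        rw [Finset.sum_apply, h0, mul_zero] at h5
        exact Cfsg.Agent.Lib.Clifford.irr_degree_ne_zero ψ₀.2 h5
      rw [Finset.sum_apply] at h6
      have h7 := mul_right_cancel₀ hS h6
      exact_mod_cast h7.symm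
    have hms : m ψ₀ ^ 2 + m ψ₁ ^ 2 + ∑ i ∈ (Finset.univ.erase ψ₀).erase ψ₁, m i ^ 2 = ∑ i, m i ^ 2 := by
      rw [← Finset.add_sum_erase Finset.univ (fun i => m i ^ 2) (Finset.mem_univ ψ₀),
        ← Finset.add_sum_erase (Finset.univ.erase ψ₀) (fun i => m i ^ 2)
          (Finset.mem_erase.mpr ⟨hne, Finset.mem_univ _⟩), add_assoc]
    have hm11 : m ψ₁ = 1 := by
      have h4 : 1 ≤ m ψ₁ := Nat.one_le_iff_ne_zero.mpr hm1
      rw [hm01] at hms
      have h5 : m ψ₁ ^ 2 ≤ 1 := by
        simp only [one_pow] at hms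
        omega
      have h6 : m ψ₁ ≤ 1 := by nlinarith
      omega
    have hrest : ∑ i ∈ (Finset.univ.erase ψ₀).erase ψ₁, m i ^ 2 = 0 := by
      rw [hm01, hm11] at hms
      simp only [one_pow] at hms
      omega
    have hrest' : ∀ i ∈ (Finset.univ.erase ψ₀).erase ψ₁, m i = 0 := by
      intro i hi
      have := (Finset.sum_eq_zero_iff_of_nonneg (fun _ _ => Nat.zero_le _)).mp hrest i hi
      exact pow_eq_zero_iff (by norm_num) |>.mp this
    have he2 : e = 2 := by
      rw [hsum, ← Finset.add_sum_erase Finset.univ (fun i => m i * c i) (Finset.mem_univ ψ₀),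
        ← Finset.add_sum_erase (Finset.univ.erase ψ₀) (fun i => m i * c i)
          (Finset.mem_erase.mpr ⟨hne, Finset.mem_univ _⟩),
        Finset.sum_eq_zero (fun i hi => by rw [hrest' i hi, zero_mul]), hm01, hm11, hc11, hc01]
      norm_num
    rw [he2] at hodd
    exact absurd hodd (by decide)
  have he1 : e = m ψ₀ * c ψ₀ := by
    rw [hsum]
    exact Finset.sum_eq_single ψ₀ (fun ψ _ h => hzero ψ h) (fun h => absurd (Finset.mem_univ _) h)
  rw [he1, hm01, hc01]


end OddMult

section Main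

variable {G : Type u} [Group G] [Fintype G]

open Cfsg.Agent.Lib.CharInd Cfsg.Agent.Lib.CharTable

/-- The main theorem with `Fintype` assumptions. -/
theorem main (N : Subgroup G) [N.Normal] [Fintype N] (h2 : IsPGroup 2 (G ⧸ N)) (φ : N → ℂ)
    (hφ : IsIrrCharacter N φ)
    (hdef : 2 ^ (Nat.card N).factorization 2 ∣ charDegree φ)
    (hconj : ∃ g : G, ∀ n n' : N, (n' : G) = g * (n : G) * g⁻¹ → φ n' = conj (φ n)) :
    ∃ χ : IrrCharacter G, (Nat.card G : ℂ)⁻¹ * ∑ g : G, (χ : G → ℂ) (g * g) = 1 ∧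
      (Nat.card N : ℂ)⁻¹ * ∑ n : N, (χ : G → ℂ) n * conj (φ n) = 1 := by
  classical
  haveI : Fact (Nat.Prime 2) := ⟨Nat.prime_two⟩
  obtain ⟨S⟩ : Nonempty (Sylow 2 G) := inferInstance
  haveI : Fintype (S : Subgroup G) := Fintype.ofFinite _
  -- multiplicities
  have hA : ∀ χ : IrrCharacter G, ∃ a : ℕ,
      classInner (fun s : (S : Subgroup G) => (χ : G → ℂ) s) (fun _ => 1) = a := fun χ =>
    classInner_char_irr (isCharacter_restrict _ (IsIrrCharacter.isCharacter χ.2)) isIrrCharacter_one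
  choose a ha using hA
  have hE : ∀ χ : IrrCharacter G, ∃ e : ℕ, classInner (fun n : N => (χ : G → ℂ) n) φ = e := fun χ =>
    classInner_char_irr (isCharacter_restrict _ (IsIrrCharacter.isCharacter χ.2)) hφ
  choose e he using hE
  have hSpos : (Nat.card (S : Subgroup G) : ℂ) ≠ 0 := natCard_ne_zero'
  have hNpos : (Nat.card N : ℂ) ≠ 0 := natCard_ne_zero'
  have hGpos : (Nat.card G : ℂ) ≠ 0 := natCard_ne_zero'
  -- the values of the multiplicities
  have ha1 : ∀ χ : IrrCharacter G,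
      (a χ : ℂ) = (Nat.card (S : Subgroup G) : ℂ)⁻¹ * ∑ s : (S : Subgroup G), (χ : G → ℂ) s := by
    intro χ
    rw [← ha χ]
    unfold classInner
    simp
  have ha2 : ∀ χ : IrrCharacter G,
      (a χ : ℂ) = (Nat.card (S : Subgroup G) : ℂ)⁻¹ * ∑ s : (S : Subgroup G), conj ((χ : G → ℂ) s) := by
    intro χ
    have h1 := congrArg (starRingEnd ℂ) (ha1 χ)
    simp only [map_mul, map_inv₀, map_natCast, map_sum] at h1
    exact h1
  have he1 : ∀ χ : IrrCharacter G,
      (e χ : ℂ) = (Nat.card N : ℂ)⁻¹ * ∑ n : N, (χ : G → ℂ) n * conj (φ n) := by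
    intro χ
    rw [← he χ]
    rfl
  -- the vanishing
  have hvan : ∀ n : N, 2 ∣ orderOf n → φ n = 0 := by
    intro n hn
    obtain ⟨k, ρ, hρ, rfl⟩ := hφ
    refine Cfsg.Agent.Lib.DefectZero.character_eq_zero_of_defect_zero ρ hρ Nat.prime_two
      (n := (Nat.card N).factorization 2) (Nat.ordProj_dvd _ _)
      (Nat.pow_succ_factorization_not_dvd Nat.card_pos.ne' Nat.prime_two) ?_ n hn
    have h1 : charDegree ρ.character = k := by
      apply Cfsg.Agent.Lib.LinTwist.charDegree_eq_of_one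
      exact char_one_eq_rep ρ
    rw [h1] at hdef
    simpa using hdef
  have hsum1 : ((∑ χ, a χ * e χ : ℕ) : ℂ) = (Nat.card (S : Subgroup G) : ℂ)⁻¹ * (Nat.card N : ℂ)⁻¹ *
      (φ 1 * (Nat.card G : ℂ)) := by
    have hcent1 : (Nat.card (Subgroup.centralizer ({(1 : G)} : Set G)) : ℂ) = Nat.card G := by
      have : Subgroup.centralizer ({(1 : G)} : Set G) = ⊤ := by
        ext x
        simp [Subgroup.mem_centralizer_iff]
      rw [this]
      simp
    have hφ1 : conj (φ 1) = φ 1 := by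
      rw [Cfsg.Agent.Lib.CharKernel.one_eq_charDegree (IsIrrCharacter.isCharacter hφ)]
      simp
    have hterm : ∀ (n : N) (s : (S : Subgroup G)), conj (φ n) * (∑ χ : IrrCharacter G, (χ : G → ℂ) n * conj ((χ : G → ℂ) s)) =
        if n = 1 ∧ s = 1 then φ 1 * (Nat.card G : ℂ) else 0 := by
      intro n s
      rw [sum_irr_mul_conj]
      by_cases hc : IsConj (n : G) (s : G)
      · rw [if_pos hc]
        by_cases hn : n = 1
        · subst hn
          have hs : s = 1 := by
            have : (s : G) = 1 := by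
              have := hc
              simpa using this.symm
            exact Subtype.ext this
          subst hs
          rw [if_pos ⟨rfl, rfl⟩, hφ1]
          simp only [OneMemClass.coe_one]
          rw [hcent1]
        · have h2n : 2 ∣ orderOf n := by
            have hs := S.isPGroup'
            obtain ⟨j, hj⟩ := (IsPGroup.iff_orderOf.mp hs) s
            have h3 : orderOf (n : G) = orderOf (s : G) := by
              obtain ⟨c', hc'⟩ := isConj_iff.mp hc
              rw [← hc']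
              exact ((MulAut.conj c').orderOf_eq (n : G)).symm
            rw [Subgroup.orderOf_coe] at h3
            rw [Subgroup.orderOf_coe] at h3
            rw [h3, hj]
            rcases j with _ | j
            · exfalso
              have h4 : orderOf n = 1 := by rw [h3, hj, pow_zero]
              exact hn (orderOf_eq_one_iff.mp h4)
            · exact dvd_pow_self 2 (Nat.succ_ne_zero j)
          rw [hvan n h2n, map_zero, zero_mul, if_neg (fun h => hn h.1)]
      · rw [if_neg hc, mul_zero, if_neg]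
        rintro ⟨rfl, rfl⟩
        exact hc (IsConj.refl _)
    have h1 : ((∑ χ, a χ * e χ : ℕ) : ℂ) = ∑ χ : IrrCharacter G, (a χ : ℂ) * (e χ : ℂ) := by
      push_cast
      rfl
    rw [h1]
    simp_rw [ha2, he1]
    have h2 : ∀ χ : IrrCharacter G,
        (Nat.card (S : Subgroup G) : ℂ)⁻¹ * (∑ s : (S : Subgroup G), conj ((χ : G → ℂ) s)) *
          ((Nat.card N : ℂ)⁻¹ * ∑ n : N, (χ : G → ℂ) n * conj (φ n)) =
        (Nat.card (S : Subgroup G) : ℂ)⁻¹ * (Nat.card N : ℂ)⁻¹ *
          ∑ n : N, ∑ s : (S : Subgroup G), conj (φ n) * ((χ : G → ℂ) n * conj ((χ : G → ℂ) s)) := by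
      intro χ
      rw [mul_mul_mul_comm, Finset.sum_mul_sum]
      congr 1
      rw [Finset.sum_comm]
      refine Finset.sum_congr rfl fun n _ => Finset.sum_congr rfl fun s _ => ?_
      ring
    simp_rw [h2]
    rw [← Finset.mul_sum, Finset.sum_comm]
    congr 1
    have h3 : ∀ n : N, ∑ χ : IrrCharacter G, ∑ s : (S : Subgroup G),
        conj (φ n) * ((χ : G → ℂ) n * conj ((χ : G → ℂ) s)) =
        ∑ s : (S : Subgroup G), if n = 1 ∧ s = 1 then φ 1 * (Nat.card G : ℂ) else 0 := by
      intro n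
      rw [Finset.sum_comm]
      refine Finset.sum_congr rfl fun s _ => ?_
      rw [← hterm n s, Finset.mul_sum]
    simp_rw [h3]
    rw [Finset.sum_eq_single (1 : N), Finset.sum_eq_single (1 : (S : Subgroup G))]
    · simp
    · intro s _ hs
      rw [if_neg (fun h => hs h.2)]
    · intro h; exact absurd (Finset.mem_univ _) h
    · intro n _ hn
      refine Finset.sum_eq_zero fun s _ => ?_
      rw [if_neg (fun h => hn h.1)]
    · intro h; exact absurd (Finset.mem_univ _) h
  -- arithmetic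
  set t := ∑ χ, a χ * e χ with ht
  have hd : φ 1 = (charDegree φ : ℂ) :=
    Cfsg.Agent.Lib.CharKernel.one_eq_charDegree (IsIrrCharacter.isCharacter hφ)
  have hcardS : Nat.card (S : Subgroup G) = 2 ^ (Nat.card G).factorization 2 := Sylow.card_eq_multiplicity S
  obtain ⟨k, hk⟩ := h2.exists_card_eq
  have hGN : Nat.card G = Nat.card N * 2 ^ k := by
    have := N.card_mul_index
    rw [← this]
    congr 1
  have hfac : (Nat.card G).factorization 2 = (Nat.card N).factorization 2 + k := by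
    rw [hGN, Nat.factorization_mul Nat.card_pos.ne' (by positivity)]
    simp [Nat.Prime.factorization_pow Nat.prime_two]
  set v := (Nat.card N).factorization 2 with hv
  have hdt : charDegree φ = 2 ^ v * t := by
    have h4 : (Nat.card (S : Subgroup G) : ℂ) * (Nat.card N : ℂ) * (t : ℂ) = (charDegree φ : ℂ) * (Nat.card G : ℂ) := by
      rw [hsum1, hd]
      field_simp
    have h5 : Nat.card (S : Subgroup G) * Nat.card N * t = charDegree φ * Nat.card G := by
      exact_mod_cast h4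
    rw [hcardS, hfac, hGN, pow_add] at h5
    have h6 : 0 < Nat.card N * 2 ^ k := Nat.mul_pos Nat.card_pos (by positivity)
    have h7 : (Nat.card N * 2 ^ k) * (2 ^ v * t) = (Nat.card N * 2 ^ k) * charDegree φ := by
      calc _ = 2 ^ v * 2 ^ k * Nat.card N * t := by ring
        _ = charDegree φ * (Nat.card N * 2 ^ k) := h5
        _ = _ := by ring
    exact (Nat.eq_of_mul_eq_mul_left h6 h7).symm
  have htodd : Odd t := by
    have h4 := Cfsg.Agent.Lib.CharKernel.charDegree_dvd_card hφ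
    rw [hdt] at h4
    have h5 : Nat.card N = 2 ^ v * (Nat.card N / 2 ^ v) := (Nat.ordProj_mul_ordCompl_eq_self _ _).symm
    rw [h5] at h4
    have h6 := Nat.dvd_of_mul_dvd_mul_left (by positivity) h4
    have h7 : ¬ 2 ∣ Nat.card N / 2 ^ v := Nat.not_dvd_ordCompl Nat.prime_two Nat.card_pos.ne'
    rw [← Nat.not_even_iff_odd, even_iff_two_dvd]
    exact fun h8 => h7 (h8.trans h6)
  -- the involution
  let c : IrrCharacter G → IrrCharacter G := fun χ =>
    ⟨fun g => conj ((χ : G → ℂ) g), Cfsg.Agent.Lib.CharTable.isIrrCharacter_conj χ.2⟩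
  have hcc : ∀ χ, c (c χ) = χ := by
    intro χ
    apply Subtype.ext
    funext g
    simp [c]
  have hac : ∀ χ, a (c χ) = a χ := by
    intro χ
    have h4 : (a (c χ) : ℂ) = a χ := by
      rw [ha1 (c χ), ha2 χ]
    exact_mod_cast h4
  have hec : ∀ χ, e (c χ) = e χ := by
    intro χ
    obtain ⟨g, hg⟩ := hconj
    have h4 : ∑ n : N, (χ : G → ℂ) n * φ n = ∑ n : N, (χ : G → ℂ) n * conj (φ n) := by
      have h5 : ∀ n : N, (χ : G → ℂ) n * φ n =
          (χ : G → ℂ) (MulAut.conjNormal g n) * conj (φ (MulAut.conjNormal g n)) := by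
        intro n
        rw [hg n (MulAut.conjNormal g n) (by simp), Complex.conj_conj]
        congr 1
        rw [MulAut.conjNormal_apply]
        exact ((isClassFunction_of_isCharacter (IsIrrCharacter.isCharacter χ.2)) _ _).symm
      simp_rw [h5]
      exact Fintype.sum_equiv (MulAut.conjNormal g).toEquiv _ _ fun _ => rfl
    have h5 : (e (c χ) : ℂ) = e χ := by
      rw [he1 (c χ)]
      have h6 : ∑ n : N, ((c χ : IrrCharacter G) : G → ℂ) n * conj (φ n) =
          conj (∑ n : N, (χ : G → ℂ) n * φ n) := by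
        rw [map_sum]
        refine Finset.sum_congr rfl fun n _ => ?_
        rw [map_mul]
      rw [h6, h4]
      have h7 := congrArg (starRingEnd ℂ) (he1 χ)
      simp only [map_mul, map_inv₀, map_natCast] at h7
      exact h7.symm
    exact_mod_cast h5
  have hexists : ∃ χ : IrrCharacter G, c χ = χ ∧ Odd (a χ * e χ) := by
    by_contra hcon
    push Not at hcon
    have h4 : ∑ χ, ((a χ * e χ : ℕ) : ZMod 2) = 0 := by
      refine Finset.sum_involution (fun χ _ => c χ) ?_ ?_ (fun _ _ => Finset.mem_univ _) (fun χ _ => hcc χ)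
      · intro χ _
        rw [hac, hec]
        exact CharTwo.add_self_eq_zero _
      · intro χ _ h5 h6
        apply h5
        have := hcon χ h6
        rw [Nat.not_odd_iff_even] at this
        exact (ZMod.natCast_eq_zero_iff_even).mpr this
    have h5 : ((t : ℕ) : ZMod 2) = 0 := by
      rw [ht]
      push_cast
      push_cast at h4
      exact h4
    rw [ZMod.natCast_eq_zero_iff_even] at h5
    exact (Nat.not_even_iff_odd.mpr htodd) h5
  obtain ⟨χ, hχc, hχodd⟩ := hexists
  obtain ⟨hao, heo⟩ := Nat.odd_mul.mp hχodd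
  have he1' : e χ = 1 := odd_mult_eq_one _ G N rfl h2 χ φ χ.2 hφ _ (he χ) heo
  refine ⟨χ, ?_, ?_⟩
  · have hreal : ∀ s, ((χ : G → ℂ) s).im = 0 := by
      intro s
      have := congrFun (congrArg Subtype.val hχc) s
      exact Complex.conj_eq_iff_im.mp this
    obtain ⟨χf, hχf⟩ := χ
    obtain ⟨k', ρ, hρ, rfl⟩ := hχf
    obtain ⟨h5, h6⟩ := frobeniusSchur ρ hρ
    rcases h5 with h5 | h5 | h5
    · obtain ⟨s, hs⟩ := h6.mp h5
      exact absurd (hreal s) hs
    · exact h5
    · exfalso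
      have := even_of_nu_neg ρ hρ h5 (S : Subgroup G) _ (ha1 ⟨ρ.character, k', ρ, hρ, rfl⟩).symm
      exact (Nat.not_even_iff_odd.mpr hao) this
  · rw [← he1 χ, he1']
    simp

end Main

end Cfsg.Agent.Lib.SymplEven
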