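import Mathlib
import Cfsg.Agent.Lib.Sz8Data

/-!
# The Suzuki group `Sz(8)`: Bruhat form, the characteristic equation, the Frobenius map
-/

set_option autoImplicit false

namespace Cfsg.Agent.Lib.Sz8

open K8

/-! ### The units -/

theorem add_key (a b : K8) : add (add (mul a (th4 a)) (add (mul a (th4 a)) b)) b = 0 := by
  revert a b; decide +kernel

theorem add_key' (a b : K8) : add (add (mul a (th4 a)) b) (add (mul a (th4 a)) b) = 0 := by
  revert a b; decide +kernel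

theorem add_self0 (a : K8) : add a a = 0 := by
  revert a; decide +kernel

/-- The units of the Sylow 2-subgroup. -/
def S (a b : K8) : Matˣ where
  val := Sm a b
  inv := Sm a (add (mul a (th4 a)) b)
  val_inv := by rw [Sm_mul, add_self0, add_key', Sm_zero]
  inv_val := by rw [Sm_mul, add_self0, add_key, Sm_zero]

/-- The diagonal unit. -/
def T : Matˣ := ⟨Dm 1, Dm 6, Dm_one_six, Dm_six_one⟩

/-- The antidiagonal unit. -/
def W : Matˣ := ⟨Wm, Wm, Wm_sq, Wm_sq⟩

theorem S_mul (a b c d : K8) : S a b * S c d = S (add a c) (add (add (mul a (th4 c)) b) d) :=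
  Units.ext (Sm_mul a b c d)

theorem S_zero : S 0 0 = 1 := Units.ext Sm_zero

theorem S_inv (a b : K8) : (S a b)⁻¹ = S a (add (mul a (th4 a)) b) := by
  apply Units.ext
  rfl

theorem W_sq : W * W = 1 := Units.ext Wm_sq

theorem W_inv : W⁻¹ = W := by
  apply Units.ext
  rfl

theorem T_seven : T ^ 7 = 1 := Units.ext (by rw [Units.val_pow_eq_pow_val]; exact Dm_seven)

theorem T_inv : T⁻¹ = T ^ 6 := by
  rw [inv_eq_iff_mul_eq_one, ← pow_succ', T_seven]

theorem T_S (a b : K8) : T * S a b = S (mul (cc 5) a) (mul (cc 4) b) * T := by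
  apply Units.ext
  show Dm 1 * Sm a b = Sm (mul (cc 5) a) (mul (cc 4) b) * Dm 1
  rw [← mulF_eq, ← mulF_eq]
  exact Dm_mul_S a b

theorem W_T : W * T = T ^ 6 * W := by
  apply Units.ext
  rw [Units.val_mul, Units.val_mul, Units.val_pow_eq_pow_val]
  show Wm * Dm 1 = (Dm 1) ^ 6 * Wm
  rw [show (Dm 1) ^ 6 = Dm 6 from Dm_pow 6, ← mulF_eq, ← mulF_eq]
  exact Wm_Dm

theorem T_pow_val (i : Fin 7) : ((T ^ (i : ℕ) : Matˣ) : Mat) = Dm i := by
  rw [Units.val_pow_eq_pow_val]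
  exact Dm_pow i

theorem exists_T_pow (n : ℕ) : ∃ i : Fin 7, T ^ n = T ^ (i : ℕ) := by
  refine ⟨⟨n % 7, Nat.mod_lt _ (by decide)⟩, ?_⟩
  show T ^ n = T ^ (n % 7)
  conv_lhs => rw [← Nat.div_add_mod n 7, pow_add, pow_mul, T_seven, one_pow, one_mul]

/-- The key relation for the units. -/
theorem W_S_W (a b : K8) (h : a ≠ 0 ∨ b ≠ 0) :
    W * S a b * W = S (keyA a b) (keyB a b) * T ^ ((keyI a b : Fin 7) : ℕ) * W * S (keyC a b) (keyD a b) := by
  apply Units.ext
  simp only [Units.val_mul]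
  rw [T_pow_val]
  show Wm * Sm a b * Wm = Sm (keyA a b) (keyB a b) * Dm (keyI a b) * Wm * Sm (keyC a b) (keyD a b)
  simp only [← mulF_eq]
  exact key_rel a b h

theorem T_pow_S (n : ℕ) : ∀ a b : K8, ∃ a' b' : K8, T ^ n * S a b = S a' b' * T ^ n := by
  induction n with
  | zero => intro a b; exact ⟨a, b, by simp⟩
  | succ n ih =>
    intro a b
    rw [pow_succ, mul_assoc, T_S, ← mul_assoc]
    obtain ⟨a', b', h⟩ := ih (mul (cc 5) a) (mul (cc 4) b)
    exact ⟨a', b', by rw [h, mul_assoc]⟩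

theorem S_T (a b : K8) : ∃ a' b' : K8, S a b * T = T * S a' b' := by
  refine ⟨mul (cc 2) a, mul (cc 7) b, ?_⟩
  rw [T_S]
  congr 1
  have h1 : ∀ x : K8, mul (cc 5) (mul (cc 2) x) = x := by decide +kernel
  have h2 : ∀ x : K8, mul (cc 4) (mul (cc 7) x) = x := by decide +kernel
  rw [h1, h2]

/-! ### The Bruhat form -/

/-- The Bruhat form of an element. -/
def ZZ (g : Matˣ) : Prop :=
  (∃ a b i, g = S a b * T ^ (i : ℕ)) ∨ (∃ a b i c d, g = S a b * T ^ (i : ℕ) * W * S c d)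

theorem ZZ_one : ZZ 1 := Or.inl ⟨0, 0, 0, by simp [S_zero]⟩

theorem ZZ_mul_S {g : Matˣ} (hg : ZZ g) (c d : K8) : ZZ (g * S c d) := by
  rcases hg with ⟨a, b, i, rfl⟩ | ⟨a, b, i, e, f, rfl⟩
  · obtain ⟨a', b', h⟩ := T_pow_S i c d
    left
    refine ⟨add a a', add (add (mul a (th4 a')) b) b', i, ?_⟩
    rw [mul_assoc, h, ← mul_assoc, S_mul]
  · right
    refine ⟨a, b, i, add e c, add (add (mul e (th4 c)) f) d, ?_⟩
    rw [mul_assoc, S_mul]

theorem ZZ_mul_T {g : Matˣ} (hg : ZZ g) : ZZ (g * T) := by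
  rcases hg with ⟨a, b, i, rfl⟩ | ⟨a, b, i, e, f, rfl⟩
  · left
    refine ⟨a, b, i + 1, ?_⟩
    rw [mul_assoc, ← pow_succ]
  · right
    obtain ⟨e', f', h⟩ := S_T e f
    obtain ⟨n, hn⟩ := exists_T_pow (i + 6)
    refine ⟨a, b, n, e', f', ?_⟩
    rw [← hn, pow_add, mul_assoc, h, ← mul_assoc, mul_assoc _ W T, W_T]
    simp only [mul_assoc]

theorem ZZ_mul_W {g : Matˣ} (hg : ZZ g) : ZZ (g * W) := by
  rcases hg with ⟨a, b, i, rfl⟩ | ⟨a, b, i, e, f, rfl⟩
  · right
    refine ⟨a, b, i, 0, 0, ?_⟩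
    rw [S_zero, mul_one]
  · by_cases h0 : e ≠ 0 ∨ f ≠ 0
    · have hk := W_S_W e f h0
      obtain ⟨a', b', h1⟩ := T_pow_S i (keyA e f) (keyB e f)
      obtain ⟨n, hn⟩ := exists_T_pow (i + ((keyI e f : Fin 7) : ℕ))
      right
      refine ⟨add a a', add (add (mul a (th4 a')) b) b', n, keyC e f, keyD e f, ?_⟩
      rw [← hn, pow_add, ← S_mul]
      calc S a b * T ^ (i : ℕ) * W * S e f * W = S a b * T ^ (i : ℕ) * (W * S e f * W) := by group
        _ = S a b * (T ^ (i : ℕ) * S (keyA e f) (keyB e f)) * T ^ ((keyI e f : Fin 7) : ℕ) * W * S (keyC e f) (keyD e f) := by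
          rw [hk]; group
        _ = _ := by rw [h1]; group
    · have he : e = 0 := by
        by_contra h; exact h0 (Or.inl h)
      have hf : f = 0 := by
        by_contra h; exact h0 (Or.inr h)
      subst he hf
      left
      refine ⟨a, b, i, ?_⟩
      rw [S_zero, mul_one, mul_assoc, W_sq, mul_one]

/-- The generators of the Suzuki group. -/
def gens : Set Matˣ := Set.range (fun p : K8 × K8 => S p.1 p.2) ∪ {T, W}

/-- The Suzuki group `Sz(8)`. -/
def Sz0 : Subgroup Matˣ := Subgroup.closure gens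

theorem S_mem (a b : K8) : S a b ∈ Sz0 := Subgroup.subset_closure (Or.inl ⟨(a, b), rfl⟩)

theorem T_mem : T ∈ Sz0 := Subgroup.subset_closure (Or.inr (Or.inl rfl))

theorem W_mem : W ∈ Sz0 := Subgroup.subset_closure (Or.inr (Or.inr rfl))

theorem ZZ_mul_T_pow {g : Matˣ} (hg : ZZ g) (n : ℕ) : ZZ (g * T ^ n) := by
  induction n with
  | zero => simpa using hg
  | succ n ih =>
    rw [pow_succ, ← mul_assoc]
    exact ZZ_mul_T ih

theorem ZZ_of_mem {g : Matˣ} (hg : g ∈ Sz0) : ZZ g := by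
  induction hg using Subgroup.closure_induction_right with
  | one => exact ZZ_one
  | mul_right x _ y hy hx =>
    rcases hy with ⟨p, rfl⟩ | rfl | rfl
    · exact ZZ_mul_S hx _ _
    · exact ZZ_mul_T hx
    · exact ZZ_mul_W hx
  | mul_inv_cancel x _ y hy hx =>
    rcases hy with ⟨p, rfl⟩ | rfl | rfl
    · simp only [S_inv]
      exact ZZ_mul_S hx _ _
    · rw [T_inv]
      exact ZZ_mul_T_pow hx 6
    · rw [W_inv]
      exact ZZ_mul_W hx

/-- Conjugation invariance of the Suzuki equation. -/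
theorem PP_conj (u g : Matˣ) (h : PP g.1) : PP (u * g * u⁻¹).1 := by
  unfold PP at h ⊢
  have htr : Matrix.trace (u * g * u⁻¹).1 = Matrix.trace g.1 := by
    simp only [Units.val_mul]
    rw [Matrix.trace_mul_cycle]
    simp
  have hp : ∀ k : ℕ, ((u * g * u⁻¹ : Matˣ) : Mat) ^ k = u.1 * g.1 ^ k * (u⁻¹ : Matˣ).1 := by
    intro k
    rw [← Units.val_pow_eq_pow_val, conj_pow]
    simp [Units.val_pow_eq_pow_val]
  rw [htr, hp, hp, hp]
  have h1 := hp 1
  rw [pow_one, pow_one] at h1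
  rw [h1]
  have h2 : (1 : Mat) = u.1 * 1 * (u⁻¹ : Matˣ).1 := by simp
  have h3 : u.1 * (g.1 ^ 4 + Matrix.trace g.1 • g.1 ^ 3 + th4 (Matrix.trace g.1) • g.1 ^ 2 +
      Matrix.trace g.1 • g.1 + 1) * (u⁻¹ : Matˣ).1 = 0 := by
    rw [h]; simp
  rw [← h3, mul_add, mul_add, mul_add, mul_add, add_mul, add_mul, add_mul, add_mul, ← h2]
  simp only [mul_smul_comm, smul_mul_assoc]

theorem S_val (a b : K8) : (S a b).1 = Sm a b := rfl

theorem W_val : W.1 = Wm := rfl

theorem PP_S_D' (a b : K8) (i : Fin 7) : PP (Sm a b * Dm i) := by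
  have h := PP_of_FA (PP_S_D a b i)
  rwa [mulF_eq] at h

theorem PP_S_D_W' (a b : K8) (i : Fin 7) : PP (Sm a b * Dm i * Wm) := by
  have h := PP_of_FA (PP_S_D_W a b i)
  rwa [mulF_eq, mulF_eq] at h

theorem PP_of_mem {g : Matˣ} (hg : g ∈ Sz0) : PP g.1 := by
  rcases ZZ_of_mem hg with ⟨a, b, i, rfl⟩ | ⟨a, b, i, c, d, rfl⟩
  · obtain ⟨j, hj⟩ := exists_T_pow i
    rw [hj, Units.val_mul, T_pow_val, S_val]
    exact PP_S_D' a b j
  · obtain ⟨j, hj⟩ := exists_T_pow i
    have h3 : PP (S (add c a) (add (add (mul c (th4 a)) d) b) * T ^ (j : ℕ) * W).1 := by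
      rw [Units.val_mul, Units.val_mul, T_pow_val, S_val, W_val]
      exact PP_S_D_W' _ _ j
    have h4 := PP_conj (S c d)⁻¹ _ h3
    have h5 : (S c d)⁻¹ * (S (add c a) (add (add (mul c (th4 a)) d) b) * T ^ (j : ℕ) * W) * (S c d)⁻¹⁻¹ =
        S a b * T ^ i * W * S c d := by
      rw [← S_mul, inv_inv, hj]
      group
    rwa [h5] at h4

/-! ### The Frobenius map -/

/-- The Frobenius map on matrices. -/
def frM : Mat →+* Mat := fr.mapMatrix

theorem frM_apply (X : Mat) (i j : Fin 4) : frM X i j = fr (X i j) := rfl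

/-- The Frobenius map on units. -/
def FrU : Matˣ →* Matˣ := Units.map (frM : Mat →* Mat)

theorem FrU_val (g : Matˣ) : (FrU g).1 = frM g.1 := rfl

theorem frM_Sm : ∀ a b : K8, frM (Sm a b) = Sm (fr a) (fr b) := by
  decide +kernel

theorem frM_D : frM (Dm 1) = Dm 2 := by decide +kernel

theorem frM_W : frM Wm = Wm := by decide +kernel

theorem FrU_S (a b : K8) : FrU (S a b) = S (fr a) (fr b) := Units.ext (frM_Sm a b)

theorem FrU_T : FrU T = T ^ 2 := by
  apply Units.ext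
  rw [FrU_val]
  show frM (Dm 1) = _
  rw [frM_D]
  exact (T_pow_val 2).symm

theorem FrU_W : FrU W = W := Units.ext frM_W

theorem FrU_mem {g : Matˣ} (hg : g ∈ Sz0) : FrU g ∈ Sz0 := by
  have h : Sz0 ≤ Sz0.comap FrU := by
    unfold Sz0
    rw [Subgroup.closure_le]
    rintro x (⟨p, rfl⟩ | rfl | rfl)
    · show FrU _ ∈ Sz0
      rw [FrU_S]
      exact S_mem _ _
    · show FrU _ ∈ Sz0
      rw [FrU_T]
      exact Subgroup.pow_mem _ T_mem _
    · show FrU _ ∈ Sz0
      rw [FrU_W]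
      exact W_mem
  exact h hg

theorem FrU_three (g : Matˣ) : FrU (FrU (FrU g)) = g := by
  apply Units.ext
  ext i j
  exact fr_fr_fr _

theorem trace_FrU (g : Matˣ) : Matrix.trace (FrU g).1 = fr (Matrix.trace g.1) := by
  simp only [Matrix.trace, Matrix.diag_apply, Fin.sum_univ_four, FrU_val, frM_apply, map_add]

end Cfsg.Agent.Lib.Sz8
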