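import Mathlib
import Cfsg.Agent.Lib.Sz8Mat

/-!
# The group `Sz(8) : 3` acting on the matrices

`rho g` acts on `4 × 4` matrices by `M ↦ g M (Fr g)ᵀ` (the module `V ⊗ V^(2)`), and `Phi` is the
entrywise Frobenius map.  They generate the group `KK`.  Every element `k` of `KK` satisfies
`k¹² = 1`, `k¹⁵ = 1`, `k⁷ = 1`, or `k¹³ = 1` and then `k` has no non-zero fixed point.
-/

set_option autoImplicit false

namespace Cfsg.Agent.Lib.Sz8

open K8

/-! ### Consequences of the Suzuki equation -/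

theorem add_self_M (X : Mat) : X + X = 0 := by
  ext i j
  exact add_self' _

theorem eq_of_add_eq_zero_M {X Y : Mat} (h : X + Y = 0) : X = Y := by
  have h1 : X + (Y + Y) = Y := by rw [← add_assoc, h, zero_add]
  rwa [add_self_M, add_zero] at h1

/-- The coordinates of the powers modulo the Suzuki polynomial. -/
def stV (A : K8) : ℕ → K8 × K8 × K8 × K8
  | 0 => (1, 0, 0, 0)
  | n + 1 =>
    let v := stV A n
    (v.2.2.2, add v.1 (mul v.2.2.2 A), add v.2.1 (mul v.2.2.2 (th4 A)), add v.2.2.1 (mul v.2.2.2 A))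

theorem step_stV (g : Mat) (A θ : K8) (h4 : g ^ 4 = A • g ^ 3 + θ • g ^ 2 + A • g + 1) (v₀ v₁ v₂ v₃ : K8) :
    (v₀ • (1 : Mat) + v₁ • g + v₂ • g ^ 2 + v₃ • g ^ 3) * g =
      v₃ • (1 : Mat) + (v₀ + v₃ * A) • g + (v₁ + v₃ * θ) • g ^ 2 + (v₂ + v₃ * A) • g ^ 3 := by
  have e1 : g * g = g ^ 2 := (pow_two g).symm
  have e2 : g ^ 2 * g = g ^ 3 := (pow_succ g 2).symm
  have e3 : g ^ 3 * g = g ^ 4 := (pow_succ g 3).symm
  simp only [add_mul, smul_mul_assoc, one_mul]
  rw [e1, e2, e3, h4]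
  simp only [smul_add, smul_smul, add_smul]
  abel

theorem pow_stV {g : Mat} {A : K8} (hA : Matrix.trace g = A) (h : PP g) (n : ℕ) :
    g ^ n = (stV A n).1 • 1 + (stV A n).2.1 • g + (stV A n).2.2.1 • g ^ 2 + (stV A n).2.2.2 • g ^ 3 := by
  subst hA
  have h4 : g ^ 4 = Matrix.trace g • g ^ 3 + th4 (Matrix.trace g) • g ^ 2 + Matrix.trace g • g + 1 := by
    apply eq_of_add_eq_zero_M
    rw [← h]
    simp only [add_assoc]
  induction n with
  | zero =>
    simp only [stV, pow_zero]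
    show (1 : Mat) = (1 : K8) • 1 + (0 : K8) • g + (0 : K8) • g ^ 2 + (0 : K8) • g ^ 3
    simp
  | succ n ih =>
    rw [pow_succ, ih, step_stV g _ _ h4]
    rfl

theorem stV_zero : stV 0 4 = (1, 0, 0, 0) := by decide +kernel
theorem stV_one : stV 1 5 = (1, 0, 0, 0) := by decide +kernel
theorem stV_seven : ∀ A : K8, A = cc 2 ∨ A = cc 4 ∨ A = cc 6 → stV A 7 = (1, 0, 0, 0) := by decide +kernel
theorem stV_thirteen : ∀ A : K8, A = cc 3 ∨ A = cc 5 ∨ A = cc 7 → stV A 13 = (1, 0, 0, 0) := by decide +kernel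

theorem K8_cases : ∀ A : K8, A = 0 ∨ A = 1 ∨ (A = cc 2 ∨ A = cc 4 ∨ A = cc 6) ∨ (A = cc 3 ∨ A = cc 5 ∨ A = cc 7) := by
  decide +kernel

theorem pow_of_stV {g : Mat} {A : K8} (hA : Matrix.trace g = A) (h : PP g) {n : ℕ}
    (hn : stV A n = (1, 0, 0, 0)) : g ^ n = 1 := by
  rw [pow_stV hA h n, hn]
  show (1 : K8) • (1 : Mat) + (0 : K8) • g + (0 : K8) • g ^ 2 + (0 : K8) • g ^ 3 = 1
  simp

/-- The elements of `Sz(8)` according to their trace. -/
theorem Sz0_pow0 {g : Matˣ} (hg : g ∈ Sz0) (h : Matrix.trace g.1 = 0) : g ^ 4 = 1 :=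
  Units.ext (by rw [Units.val_pow_eq_pow_val]; exact pow_of_stV h (PP_of_mem hg) stV_zero)

theorem Sz0_pow1 {g : Matˣ} (hg : g ∈ Sz0) (h : Matrix.trace g.1 = 1) : g ^ 5 = 1 :=
  Units.ext (by rw [Units.val_pow_eq_pow_val]; exact pow_of_stV h (PP_of_mem hg) stV_one)

theorem Sz0_pow7 {g : Matˣ} (hg : g ∈ Sz0) (h : Matrix.trace g.1 = cc 2 ∨ Matrix.trace g.1 = cc 4 ∨ Matrix.trace g.1 = cc 6) :
    g ^ 7 = 1 :=
  Units.ext (by rw [Units.val_pow_eq_pow_val]; exact pow_of_stV rfl (PP_of_mem hg) (stV_seven _ h))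

theorem Sz0_pow13 {g : Matˣ} (hg : g ∈ Sz0) (h : Matrix.trace g.1 = cc 3 ∨ Matrix.trace g.1 = cc 5 ∨ Matrix.trace g.1 = cc 7) :
    g ^ 13 = 1 :=
  Units.ext (by rw [Units.val_pow_eq_pow_val]; exact pow_of_stV rfl (PP_of_mem hg) (stV_thirteen _ h))

/-! ### The action -/

/-- The twisted transpose. -/
def tw (g : Matˣ) : Mat := Matrix.transpose (FrU g).1

theorem tw_mul (g h : Matˣ) : tw (g * h) = tw h * tw g := by
  rw [tw, map_mul, Units.val_mul, Matrix.transpose_mul]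
  rfl

theorem tw_one : tw 1 = 1 := by
  rw [tw, map_one, Units.val_one, Matrix.transpose_one]

theorem tw_inv_mul (g : Matˣ) : tw g * tw g⁻¹ = 1 := by
  rw [← tw_mul, inv_mul_cancel, tw_one]

theorem tw_mul_inv (g : Matˣ) : tw g⁻¹ * tw g = 1 := by
  rw [← tw_mul, mul_inv_cancel, tw_one]

/-- The action of a unit on matrices. -/
def rhoFun (g : Matˣ) : Equiv.Perm Mat where
  toFun M := g.1 * M * tw g
  invFun M := (g⁻¹ : Matˣ).1 * M * tw g⁻¹
  left_inv M := by
    show (g⁻¹ : Matˣ).1 * (g.1 * M * tw g) * tw g⁻¹ = M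
    calc (g⁻¹ : Matˣ).1 * (g.1 * M * tw g) * tw g⁻¹ = ((g⁻¹ : Matˣ).1 * g.1) * M * (tw g * tw g⁻¹) := by
          simp only [mul_assoc]
      _ = M := by rw [tw_inv_mul]; simp
  right_inv M := by
    show g.1 * ((g⁻¹ : Matˣ).1 * M * tw g⁻¹) * tw g = M
    calc g.1 * ((g⁻¹ : Matˣ).1 * M * tw g⁻¹) * tw g = (g.1 * (g⁻¹ : Matˣ).1) * M * (tw g⁻¹ * tw g) := by
          simp only [mul_assoc]
      _ = M := by rw [tw_mul_inv]; simp

theorem rhoFun_apply (g : Matˣ) (M : Mat) : rhoFun g M = g.1 * M * tw g := rfl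

/-- The action as a homomorphism. -/
def rho : Matˣ →* Equiv.Perm Mat where
  toFun := rhoFun
  map_one' := by
    ext M i j
    simp [rhoFun_apply, tw_one]
  map_mul' g h := by
    ext M i j
    rw [Equiv.Perm.mul_apply]
    simp only [rhoFun_apply, tw_mul, Units.val_mul, mul_assoc]

theorem rho_apply (g : Matˣ) (M : Mat) : rho g M = g.1 * M * tw g := rfl

/-- The entrywise Frobenius map as an automorphism. -/
def Phi : Equiv.Perm Mat where
  toFun := frM
  invFun M := frM (frM M)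
  left_inv M := by
    ext i j
    exact fr_fr_fr _
  right_inv M := by
    ext i j
    exact fr_fr_fr _

theorem Phi_apply (M : Mat) : Phi M = frM M := rfl

theorem Phi_three : Phi ^ 3 = 1 := by
  ext M i j
  show fr (fr (fr (M i j))) = M i j
  exact fr_fr_fr _

theorem tw_FrU (g : Matˣ) : tw (FrU g) = frM (tw g) := by
  ext i j
  rfl

theorem Phi_rho (g : Matˣ) : Phi * rho g = rho (FrU g) * Phi := by
  ext M i j
  rw [Equiv.Perm.mul_apply, Equiv.Perm.mul_apply, rho_apply, rho_apply, Phi_apply, Phi_apply, map_mul, map_mul,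
    tw_FrU, FrU_val]

/-- The group `Sz(8) : 3`. -/
def KK : Subgroup (Equiv.Perm Mat) := Subgroup.closure (rho '' (Sz0 : Set Matˣ) ∪ {Phi})

theorem rho_mem {g : Matˣ} (hg : g ∈ Sz0) : rho g ∈ KK :=
  Subgroup.subset_closure (Or.inl ⟨g, hg, rfl⟩)

theorem Phi_mem : Phi ∈ KK := Subgroup.subset_closure (Or.inr rfl)

/-- The three shapes of the elements of `KK`. -/
def KShape (k : Equiv.Perm Mat) : Prop :=
  ∃ g ∈ Sz0, k = rho g ∨ k = rho g * Phi ∨ k = rho g * Phi ^ 2

theorem Phi_inv : Phi⁻¹ = Phi ^ 2 := by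
  rw [inv_eq_iff_mul_eq_one, ← pow_succ', Phi_three]

theorem KShape_mul_Phi {k : Equiv.Perm Mat} (h : KShape k) : KShape (k * Phi) := by
  obtain ⟨g, hg, rfl | rfl | rfl⟩ := h
  · exact ⟨g, hg, Or.inr (Or.inl rfl)⟩
  · refine ⟨g, hg, Or.inr (Or.inr ?_)⟩
    rw [mul_assoc, pow_two]
  · refine ⟨g, hg, Or.inl ?_⟩
    rw [mul_assoc, ← pow_succ, Phi_three, mul_one]

theorem KShape_mul_rho {k : Equiv.Perm Mat} (h : KShape k) {x : Matˣ} (hx : x ∈ Sz0) : KShape (k * rho x) := by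
  obtain ⟨g, hg, rfl | rfl | rfl⟩ := h
  · exact ⟨g * x, Sz0.mul_mem hg hx, Or.inl (map_mul rho g x).symm⟩
  · refine ⟨g * FrU x, Sz0.mul_mem hg (FrU_mem hx), Or.inr (Or.inl ?_)⟩
    rw [mul_assoc, Phi_rho, map_mul, mul_assoc]
  · refine ⟨g * FrU (FrU x), Sz0.mul_mem hg (FrU_mem (FrU_mem hx)), Or.inr (Or.inr ?_)⟩
    rw [mul_assoc, pow_two, mul_assoc, Phi_rho, ← mul_assoc Phi, Phi_rho, map_mul]
    simp only [mul_assoc]

theorem KShape_of_mem {k : Equiv.Perm Mat} (hk : k ∈ KK) : KShape k := by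
  induction hk using Subgroup.closure_induction_right with
  | one => exact ⟨1, Sz0.one_mem, Or.inl (map_one rho).symm⟩
  | mul_right x _ y hy hx =>
    rcases hy with ⟨z, hz, rfl⟩ | rfl
    · exact KShape_mul_rho hx hz
    · exact KShape_mul_Phi hx
  | mul_inv_cancel x _ y hy hx =>
    rcases hy with ⟨z, hz, rfl⟩ | rfl
    · rw [← map_inv]
      exact KShape_mul_rho hx (Sz0.inv_mem hz)
    · rw [Phi_inv, pow_two, ← mul_assoc]
      exact KShape_mul_Phi (KShape_mul_Phi hx)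

/-! ### Elements outside `Sz(8)` -/

theorem K8_fixed : ∀ A : K8, (fr A = A ∨ fr (fr A) = A) → A = 0 ∨ A = 1 := by decide +kernel

/-- The cube of an element outside `Sz(8)` has trace `0` or `1`. -/
theorem outer_aux (σ : Matˣ →* Matˣ) (ψ : Equiv.Perm Mat) (τ : K8 → K8) (hψ : ψ ^ 3 = 1)
    (hψρ : ∀ h, ψ * rho h = rho (σ h) * ψ) (hσmem : ∀ h ∈ Sz0, σ h ∈ Sz0) (hσ3 : ∀ h, σ (σ (σ h)) = h)
    (hτ : ∀ h : Matˣ, Matrix.trace (σ h).1 = τ (Matrix.trace h.1)) (hτfix : ∀ A, τ A = A → A = 0 ∨ A = 1)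
    {g : Matˣ} (hg : g ∈ Sz0) : (rho g * ψ) ^ 12 = 1 ∨ (rho g * ψ) ^ 15 = 1 := by
  set N : Matˣ := g * σ g * σ (σ g) with hN
  have hNmem : N ∈ Sz0 := Sz0.mul_mem (Sz0.mul_mem hg (hσmem _ hg)) (hσmem _ (hσmem _ hg))
  have h3 : (rho g * ψ) ^ 3 = rho N := by
    have h1 : ψ * ψ * rho g = rho (σ (σ g)) * ψ * ψ := by
      rw [mul_assoc, hψρ, ← mul_assoc, hψρ]
    have h2 : (rho g * ψ) ^ 3 = rho g * (ψ * rho g) * (ψ * rho g) * ψ := by
      rw [pow_succ, pow_two]
      simp only [mul_assoc]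
    have h4 : rho g * (rho (σ g) * ψ) * (rho (σ g) * ψ) * ψ = rho g * rho (σ g) * (ψ * rho (σ g)) * (ψ * ψ) := by
      simp only [mul_assoc]
    have h5 : ψ * ψ * ψ = 1 := by
      rw [← hψ, pow_succ, pow_two]
    rw [h2, hψρ, h4, hψρ, hN, map_mul, map_mul]
    simp only [mul_assoc]
    rw [show ψ * (ψ * ψ) = ψ * ψ * ψ by simp only [mul_assoc], h5, mul_one]
  have htr : τ (Matrix.trace N.1) = Matrix.trace N.1 := by
    rw [← hτ]
    have h6 : σ N = σ g * σ (σ g) * g := by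
      rw [hN, map_mul, map_mul, hσ3]
    rw [h6, Units.val_mul, Matrix.trace_mul_comm, ← Units.val_mul, hN]
    simp only [mul_assoc]
  have hpow : ∀ e : ℕ, N ^ e = 1 → (rho g * ψ) ^ (3 * e) = 1 := by
    intro e he
    rw [pow_mul, h3, ← map_pow, he, map_one]
  rcases hτfix _ htr with h | h
  · left
    exact hpow 4 (Sz0_pow0 hNmem h)
  · right
    exact hpow 5 (Sz0_pow1 hNmem h)

theorem outer_one {g : Matˣ} (hg : g ∈ Sz0) : (rho g * Phi) ^ 12 = 1 ∨ (rho g * Phi) ^ 15 = 1 :=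
  outer_aux FrU Phi fr Phi_three Phi_rho (fun _ h => FrU_mem h) FrU_three trace_FrU
    (fun A hA => K8_fixed A (Or.inl hA)) hg

theorem outer_two {g : Matˣ} (hg : g ∈ Sz0) :
    (rho g * Phi ^ 2) ^ 12 = 1 ∨ (rho g * Phi ^ 2) ^ 15 = 1 := by
  refine outer_aux (FrU.comp FrU) (Phi ^ 2) (fun x => fr (fr x)) ?_ ?_ (fun _ h => FrU_mem (FrU_mem h)) ?_ ?_
    (fun A hA => K8_fixed A (Or.inr hA)) hg
  · rw [← pow_mul]
    show Phi ^ 6 = 1
    rw [show 6 = 3 * 2 by norm_num, pow_mul, Phi_three, one_pow]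
  · intro h
    rw [pow_two, mul_assoc, Phi_rho, ← mul_assoc, Phi_rho]
    simp only [mul_assoc, MonoidHom.comp_apply]
  · intro h
    simp only [MonoidHom.comp_apply]
    rw [FrU_three, FrU_three]
  · intro h
    simp only [MonoidHom.comp_apply]
    rw [trace_FrU, trace_FrU]

/-! ### Fixed points of the elements of order `13` -/

theorem K8_fix_data : ∀ A : K8, A = cc 3 ∨ A = cc 5 ∨ A = cc 7 →
    (A + fr A ≠ 0 ∧
      (((th4 A + fr (th4 A)) * (A + fr A)⁻¹) * ((th4 A + fr (th4 A)) * (A + fr A)⁻¹) +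
        fr A * ((th4 A + fr (th4 A)) * (A + fr A)⁻¹) + fr (th4 A)) ≠ 0) := by
  decide +kernel

theorem frM_smul (c : K8) (X : Mat) : frM (c • X) = fr c • frM X := by
  ext i j
  simp only [frM_apply, Matrix.smul_apply, smul_eq_mul, map_mul]

theorem add_add_self_M (X Y : Mat) : X + (X + Y) = Y := by
  rw [← add_assoc, add_self_M, zero_add]

theorem fix_zero {g : Matˣ} (hg : g ∈ Sz0)
    (hA : Matrix.trace g.1 = cc 3 ∨ Matrix.trace g.1 = cc 5 ∨ Matrix.trace g.1 = cc 7)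
    {M : Mat} (hM : rho g M = M) : M = 0 := by
  have hP := PP_of_mem hg
  obtain ⟨hδ, he⟩ := K8_fix_data _ hA
  set A := Matrix.trace g.1 with hAdef
  set G := g.1 with hG
  set Gi := (g⁻¹ : Matˣ).1 with hGi
  set H := tw g with hH
  set Hi := tw g⁻¹ with hHi
  have e1 : G * Gi = 1 := g.mul_inv
  have e2 : Gi * G = 1 := g.inv_mul
  have e3 : ∀ X : Mat, G * (Gi * X) = X := fun X => by rw [← mul_assoc, e1, one_mul]
  have e4 : ∀ X : Mat, Gi * (G * X) = X := fun X => by rw [← mul_assoc, e2, one_mul]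
  have hM' : G * M * H = M := hM
  have hm1 : G * M = M * Hi := by
    calc G * M = G * M * (H * Hi) := by rw [tw_inv_mul]; simp
      _ = M * Hi := by rw [← mul_assoc, hM']
  have hm2 : Gi * M = M * H := by
    calc Gi * M = Gi * (G * M * H) := by rw [hM']
      _ = M * H := by rw [mul_assoc, e4]
  set y := G + Gi with hy
  set y' := H + Hi with hy'
  have hyM : y * M = M * y' := by
    rw [hy, hy', add_mul, mul_add, hm1, hm2, add_comm]
  -- the quadratic equation for `y`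
  have ty : y * y + A • y + th4 A • (1 : Mat) = 0 := by
    have hEq : G * G * (y * y + A • y + th4 A • (1 : Mat)) =
        G ^ 4 + A • G ^ 3 + th4 A • G ^ 2 + A • G + 1 := by
      have hg2 : G ^ 2 = G * G := pow_two G
      have hg3 : G ^ 3 = G * (G * G) := by rw [pow_succ, pow_two, mul_assoc]
      have hg4 : G ^ 4 = G * (G * (G * G)) := by rw [pow_succ, hg3]; simp only [mul_assoc]
      rw [hg2, hg3, hg4, hy]
      simp only [mul_add, add_mul, mul_smul_comm, smul_mul_assoc, mul_assoc, e1, e2, e3, e4, mul_one]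
      rw [smul_add]
      have h0 := add_self_M (G * G)
      have h1 : G * (G * (G * G)) + G * G + (G * G + 1) + (A • (G * (G * G)) + A • G) + th4 A • (G * G) =
          (G * G + G * G) + (G * (G * (G * G)) + A • (G * (G * G)) + th4 A • (G * G) + A • G + 1) := by abel
      rw [h1, h0, zero_add]
    have hEq0 : G * G * (y * y + A • y + th4 A • (1 : Mat)) = 0 := by rw [hEq]; exact hP
    calc y * y + A • y + th4 A • (1 : Mat) = Gi * Gi * (G * G * (y * y + A • y + th4 A • (1 : Mat))) := by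
          simp only [mul_assoc, e4]
      _ = 0 := by rw [hEq0, mul_zero]
  -- the quadratic equation for `y'`
  have hyt : y' = Matrix.transpose (frM y) := by
    rw [hy', hy, map_add, Matrix.transpose_add]
    rfl
  have ty' : y' * y' + fr A • y' + fr (th4 A) • (1 : Mat) = 0 := by
    have h1 := congrArg (fun X => Matrix.transpose (frM X)) ty
    simp only [map_add, Matrix.transpose_add, map_mul, Matrix.transpose_mul, frM_smul, Matrix.transpose_smul,
      map_one, Matrix.transpose_one, map_zero, Matrix.transpose_zero] at h1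
    rw [hyt]
    exact h1
  set X := M * y' with hX
  -- the two linear relations
  have r1 : M * y' * y' + A • X + th4 A • M = 0 := by
    have h1 : (y * y + A • y + th4 A • (1 : Mat)) * M = 0 := by rw [ty, zero_mul]
    rw [add_mul, add_mul, mul_assoc, hyM, ← mul_assoc, hyM, smul_mul_assoc, smul_mul_assoc, hyM, one_mul] at h1
    exact h1
  have r2 : M * y' * y' + fr A • X + fr (th4 A) • M = 0 := by
    have h1 : M * (y' * y' + fr A • y' + fr (th4 A) • (1 : Mat)) = 0 := by rw [ty', mul_zero]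
    rw [mul_add, mul_add, ← mul_assoc, mul_smul_comm, mul_smul_comm, mul_one] at h1
    exact h1
  have h3 : (A + fr A) • X = (th4 A + fr (th4 A)) • M := by
    have h4 : (A + fr A) • X + (th4 A + fr (th4 A)) • M + (M * y' * y' + M * y' * y') =
        (M * y' * y' + A • X + th4 A • M) + (M * y' * y' + fr A • X + fr (th4 A) • M) := by
      simp only [add_smul]
      abel
    rw [r1, r2, add_self_M, add_zero, add_zero] at h4
    exact eq_of_add_eq_zero_M h4
  set c := (th4 A + fr (th4 A)) * (A + fr A)⁻¹ with hc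
  have h5 : X = c • M := by
    calc X = (A + fr A)⁻¹ • ((A + fr A) • X) := by rw [smul_smul, inv_mul_cancel₀ hδ, one_smul]
      _ = c • M := by rw [h3, smul_smul, hc, mul_comm]
  have h6 : M * y' * y' = (c * c) • M := by
    rw [← hX, h5, smul_mul_assoc, ← hX, h5, smul_smul]
  have h7 : (c * c + fr A * c + fr (th4 A)) • M = 0 := by
    rw [← r2, h6, h5]
    simp only [add_smul, smul_smul]
  exact (smul_eq_zero.mp h7).resolve_left he

/-! ### The classification of the elements -/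

/-- The element orders in `KK`. -/
theorem KK_pow {k : Equiv.Perm Mat} (hk : k ∈ KK) :
    k ^ 12 = 1 ∨ k ^ 15 = 1 ∨ k ^ 7 = 1 ∨ (k ^ 13 = 1 ∧ ∀ M, k M = M → M = 0) := by
  obtain ⟨g, hg, rfl | rfl | rfl⟩ := KShape_of_mem hk
  · rcases K8_cases (Matrix.trace g.1) with h | h | h | h
    · left
      rw [show 12 = 4 * 3 by norm_num, pow_mul, ← map_pow, Sz0_pow0 hg h, map_one, one_pow]
    · right; left
      rw [show 15 = 5 * 3 by norm_num, pow_mul, ← map_pow, Sz0_pow1 hg h, map_one, one_pow]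
    · right; right; left
      rw [← map_pow, Sz0_pow7 hg h, map_one]
    · right; right; right
      refine ⟨?_, fun M hM => fix_zero hg h hM⟩
      rw [← map_pow, Sz0_pow13 hg h, map_one]
  · rcases outer_one hg with h | h
    · exact Or.inl h
    · exact Or.inr (Or.inl h)
  · rcases outer_two hg with h | h
    · exact Or.inl h
    · exact Or.inr (Or.inl h)

/-! ### Additivity -/

theorem rho_add (g : Matˣ) (x y : Mat) : rho g (x + y) = rho g x + rho g y := by
  simp only [rho_apply, mul_add, add_mul]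

theorem Phi_add (x y : Mat) : Phi (x + y) = Phi x + Phi y := map_add frM x y

theorem KK_add {k : Equiv.Perm Mat} (hk : k ∈ KK) (x y : Mat) : k (x + y) = k x + k y := by
  have hpow : ∀ n : ℕ, ∀ x y : Mat, (Phi ^ n) (x + y) = (Phi ^ n) x + (Phi ^ n) y := by
    intro n
    induction n with
    | zero => intro x y; rfl
    | succ n ih =>
      intro x y
      rw [pow_succ, Equiv.Perm.mul_apply, Equiv.Perm.mul_apply, Equiv.Perm.mul_apply, Phi_add, ih]
  obtain ⟨g, hg, rfl | rfl | rfl⟩ := KShape_of_mem hk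
  · exact rho_add g x y
  · rw [Equiv.Perm.mul_apply, Equiv.Perm.mul_apply, Equiv.Perm.mul_apply, Phi_add, rho_add]
  · rw [Equiv.Perm.mul_apply, Equiv.Perm.mul_apply, Equiv.Perm.mul_apply, hpow, rho_add]

/-! ### Some elements -/

/-- The element of order `5`. -/
def g5 : Matˣ := S 0 1 * W

/-- The element of order `13`. -/
def g13 : Matˣ := S 0 (cc 3) * W

theorem g5_mem : g5 ∈ Sz0 := Sz0.mul_mem (S_mem _ _) W_mem

theorem g13_mem : g13 ∈ Sz0 := Sz0.mul_mem (S_mem _ _) W_mem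

theorem g5_val : g5.1 = mulF (Sm 0 1) Wm := by
  rw [mulF_eq]; rfl

theorem tw_g5 : tw g5 = Matrix.transpose (frM (mulF (Sm 0 1) Wm)) := by
  rw [← g5_val]; rfl

theorem g13_val : g13.1 = mulF (Sm 0 (cc 3)) Wm := by
  rw [mulF_eq]; rfl

theorem trace_g5 : Matrix.trace g5.1 = 1 := by
  rw [g5_val, ← tr4_eq]
  decide +kernel

theorem trace_g13 : Matrix.trace g13.1 = cc 7 := by
  rw [g13_val, ← tr4_eq]
  decide +kernel

theorem g5_pow : g5 ^ 5 = 1 := Sz0_pow1 g5_mem trace_g5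

theorem g13_pow : g13 ^ 13 = 1 := Sz0_pow13 g13_mem (Or.inr (Or.inr trace_g13))

theorem FrU_g5 : FrU g5 = g5 := by
  rw [g5, map_mul, FrU_S, FrU_W]
  congr 2 <;> decide +kernel

theorem fixed_g5 : rho g5 Wm = Wm := by
  rw [rho_apply, g5_val, tw_g5, ← mulF_eq, ← mulF_eq]
  decide +kernel

/-- A matrix fixed by `T`. -/
def E01 : Mat := Matrix.of fun i j => if i = 0 ∧ j = 1 then 1 else 0

theorem E01_ne : E01 ≠ 0 := by decide +kernel

theorem Wm_ne : Wm ≠ 0 := by decide +kernel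

theorem fixed_T : rho T E01 = E01 := by
  rw [rho_apply]
  show Dm 1 * E01 * Matrix.transpose (frM (Dm 1)) = E01
  rw [← mulF_eq, ← mulF_eq]
  decide +kernel

theorem rho_g5_ne : rho g5 ≠ 1 := by
  intro h
  have h1 : rho g5 1 = 1 := by rw [h]; rfl
  rw [rho_apply, g5_val, tw_g5, mul_one, ← mulF_eq] at h1
  revert h1
  decide +kernel

theorem rho_T_ne : rho T ≠ 1 := by
  intro h
  have h1 : rho T 1 = 1 := by rw [h]; rfl
  have h2 : Dm 1 * 1 * Matrix.transpose (frM (Dm 1)) = 1 := h1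
  rw [mul_one, ← mulF_eq] at h2
  revert h2
  decide +kernel

theorem rho_g13_ne : rho g13 ≠ 1 := by
  intro h
  have h1 : (1 : Mat) = 0 := by
    apply fix_zero g13_mem (Or.inr (Or.inr trace_g13))
    rw [h]; rfl
  exact one_ne_zero h1

theorem Phi_ne : Phi ≠ 1 := by
  intro h
  have h1 : Phi (Dm 1) = Dm 1 := by rw [h]; rfl
  have h2 : frM (Dm 1) = Dm 1 := h1
  rw [frM_D] at h2
  revert h2
  decide +kernel

/-- The involution. -/
def g2 : Matˣ := S 0 1

theorem g2_pow : g2 ^ 2 = 1 := by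
  rw [g2, pow_two, S_mul, ← S_zero]
  congr 1 <;> decide +kernel

theorem FrU_g2 : FrU g2 = g2 := by
  rw [g2, FrU_S]
  congr 1 <;> decide +kernel

theorem rho_g2_ne : rho g2 ≠ 1 := by
  intro h
  have h1 : rho g2 1 = 1 := by rw [h]; rfl
  have h2 : Sm 0 1 * 1 * Matrix.transpose (frM (Sm 0 1)) = 1 := h1
  rw [mul_one, ← mulF_eq] at h2
  revert h2
  decide +kernel

theorem Phi_comm_of_fixed {g : Matˣ} (h : FrU g = g) : Commute Phi (rho g) := by
  show Phi * rho g = rho g * Phi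
  rw [Phi_rho, h]

end Cfsg.Agent.Lib.Sz8
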