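import Mathlib
import Cfsg.Agent.Lib.Sz8Act

/-!
# The semidirect products `(Fin n → Mat) ⋊ KK`
-/

set_option autoImplicit false

namespace Cfsg.Agent.Lib.Sz8

section generic

variable {K A : Type*} [Group K] [AddCommGroup A]

/-- A group acting additively on `A` acts on `Multiplicative A`. -/
def psiOf (α : K →* Equiv.Perm A) (hα : ∀ k x y, α k (x + y) = α k x + α k y) :
    K →* MulAut (Multiplicative A) where
  toFun k :=
    { toEquiv := (Multiplicative.toAdd.trans (α k)).trans Multiplicative.ofAdd
      map_mul' := fun x y => congrArg Multiplicative.ofAdd (hα k _ _) }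
  map_one' := by
    ext x
    simp
  map_mul' k l := by
    ext x
    simp
    rfl

variable (α : K →* Equiv.Perm A) (hα : ∀ k x y, α k (x + y) = α k x + α k y)

theorem psiOf_apply (k : K) (x : A) :
    psiOf α hα k (Multiplicative.ofAdd x) = Multiplicative.ofAdd (α k x) := rfl

/-- The semidirect product. -/
abbrev SemiOf := Multiplicative A ⋊[psiOf α hα] K

/-- Powers of an element with trivial right part. -/
theorem pow_two_index (h2 : ∀ x : A, x + x = 0) (g : SemiOf α hα) {e : ℕ} (he : g.right ^ e = 1) :
    g ^ (e * 2) = 1 := by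
  have h1 : (g ^ e).right = 1 := by
    have := map_pow (SemidirectProduct.rightHom : SemiOf α hα →* K) g e
    simp only [SemidirectProduct.rightHom_eq_right] at this
    rw [this, he]
  rw [pow_mul, pow_two]
  ext
  · simp only [SemidirectProduct.mul_left, SemidirectProduct.one_left, h1, map_one, MulAut.one_apply]
    exact congrArg Multiplicative.ofAdd (h2 (Multiplicative.toAdd (g ^ e).left))
  · simp only [SemidirectProduct.mul_right, SemidirectProduct.one_right, h1, one_mul]

/-- If `k` has no non-trivial fixed point the power is trivial. -/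
theorem pow_of_fpf (g : SemiOf α hα) {e : ℕ} (he : g.right ^ e = 1)
    (hf : ∀ x : A, α g.right x = x → x = 0) : g ^ e = 1 := by
  have h1 : (g ^ e).right = 1 := by
    have := map_pow (SemidirectProduct.rightHom : SemiOf α hα →* K) g e
    simp only [SemidirectProduct.rightHom_eq_right] at this
    rw [this, he]
  have hcomm : g * g ^ e = g ^ e * g := (Commute.pow_right (Commute.refl g) e).eq
  have h3 := congrArg SemidirectProduct.left hcomm
  simp only [SemidirectProduct.mul_left, h1, map_one, MulAut.one_apply] at h3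
  have h4 : α g.right (Multiplicative.toAdd (g ^ e).left) = Multiplicative.toAdd (g ^ e).left := by
    have h5 := congrArg Multiplicative.toAdd h3
    have h6 : Multiplicative.toAdd (g.left * psiOf α hα g.right (g ^ e).left) =
        Multiplicative.toAdd g.left + α g.right (Multiplicative.toAdd (g ^ e).left) := rfl
    have h7 : Multiplicative.toAdd ((g ^ e).left * g.left) =
        Multiplicative.toAdd (g ^ e).left + Multiplicative.toAdd g.left := rfl
    rw [h6, h7, add_comm] at h5
    exact add_right_cancel h5
  have h8 := hf _ h4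
  ext
  · show (g ^ e).left = 1
    exact congrArg Multiplicative.ofAdd h8
  · simpa using h1

/-- The order of an element with a fixed vector. -/
theorem order_of_fixed (h2 : ∀ x : A, x + x = 0) {k : K} {x : A} (hx : x ≠ 0) (hk : α k x = x)
    {r : ℕ} (hr : orderOf k = r) (hodd : Odd r) :
    ∃ g : SemiOf α hα, orderOf g = 2 * r := by
  set a : SemiOf α hα := SemidirectProduct.inl (Multiplicative.ofAdd x) with ha
  set b : SemiOf α hα := SemidirectProduct.inr k with hb
  have hab : Commute a b := by
    show a * b = b * a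
    ext
    · simp only [ha, hb, SemidirectProduct.mul_left, SemidirectProduct.left_inl, SemidirectProduct.left_inr,
        SemidirectProduct.right_inl, map_one, MulAut.one_apply, mul_one, one_mul, SemidirectProduct.right_inr]
      exact congrArg Multiplicative.ofAdd hk.symm
    · simp [ha, hb]
  have hoa : orderOf a = 2 := by
    apply orderOf_eq_prime
    · rw [pow_two, ha, ← map_mul]
      have : Multiplicative.ofAdd x * Multiplicative.ofAdd x = 1 :=
        congrArg Multiplicative.ofAdd (h2 x)
      rw [this, map_one]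
    · rw [ha]
      intro h
      have := SemidirectProduct.inl_injective (h.trans (map_one _).symm)
      exact hx (Multiplicative.ofAdd.injective this)
  have hob : orderOf b = r := by
    rw [hb, orderOf_injective _ SemidirectProduct.inr_injective, hr]
  refine ⟨a * b, ?_⟩
  rw [hab.orderOf_mul_eq_mul_orderOf_of_coprime, hoa, hob]
  rw [hoa, hob]
  exact Nat.coprime_two_left.mpr hodd

end generic

/-! ### The concrete groups -/

/-- The action of `KK` on `n`-tuples of matrices. -/
def alphaN (n : ℕ) : KK →* Equiv.Perm (Fin n → Mat) where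
  toFun k := Equiv.piCongrRight fun _ => k.1
  map_one' := rfl
  map_mul' _ _ := rfl

theorem alphaN_apply (n : ℕ) (k : KK) (v : Fin n → Mat) (i : Fin n) : alphaN n k v i = k.1 (v i) := rfl

theorem alphaN_add (n : ℕ) (k : KK) (x y : Fin n → Mat) :
    alphaN n k (x + y) = alphaN n k x + alphaN n k y := by
  ext1 i
  exact KK_add k.2 (x i) (y i)

/-- The groups of the theorem. -/
abbrev HH (n : ℕ) := SemiOf (alphaN n) (alphaN_add n)

theorem add_self_N {n : ℕ} (x : Fin n → Mat) : x + x = 0 := by
  ext1 i
  exact add_self_M (x i)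

theorem HH_pow {n : ℕ} (g : HH n) : g ^ 24 = 1 ∨ g ^ 30 = 1 ∨ g ^ 14 = 1 ∨ g ^ 13 = 1 := by
  have hk : ∀ e, (g.right.1) ^ e = 1 → g.right ^ e = 1 := fun e he => Subtype.ext (by simpa using he)
  rcases KK_pow g.right.2 with h | h | h | ⟨h, hf⟩
  · left
    exact pow_two_index (alphaN n) (alphaN_add n) add_self_N g (hk 12 h)
  · right; left
    exact pow_two_index (alphaN n) (alphaN_add n) add_self_N g (hk 15 h)
  · right; right; left
    exact pow_two_index (alphaN n) (alphaN_add n) add_self_N g (hk 7 h)
  · right; right; right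
    refine pow_of_fpf (alphaN n) (alphaN_add n) g (hk 13 h) ?_
    intro x hx
    ext1 i
    exact hf _ (congrFun hx i)

/-! ### Existence of elements -/

/-- The elements of `KK` as elements of the subtype. -/
def kPhi : KK := ⟨Phi, Phi_mem⟩
def kg2 : KK := ⟨rho g2, rho_mem (S_mem _ _)⟩
def kg5 : KK := ⟨rho g5, rho_mem g5_mem⟩
def kT : KK := ⟨rho T, rho_mem T_mem⟩
def kg13 : KK := ⟨rho g13, rho_mem g13_mem⟩

instance : Fact (Nat.Prime 3) := ⟨by norm_num⟩
instance : Fact (Nat.Prime 5) := ⟨by norm_num⟩
instance : Fact (Nat.Prime 7) := ⟨by norm_num⟩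
instance : Fact (Nat.Prime 13) := ⟨by norm_num⟩

theorem order_kPhi : orderOf kPhi = 3 :=
  orderOf_eq_prime (Subtype.ext Phi_three) (fun h => Phi_ne (congrArg Subtype.val h))

theorem order_kg2 : orderOf kg2 = 2 :=
  orderOf_eq_prime (Subtype.ext (by show (rho g2) ^ 2 = 1; rw [← map_pow, g2_pow, map_one]))
    (fun h => rho_g2_ne (congrArg Subtype.val h))

theorem order_kg5 : orderOf kg5 = 5 :=
  orderOf_eq_prime (Subtype.ext (by show (rho g5) ^ 5 = 1; rw [← map_pow, g5_pow, map_one]))
    (fun h => rho_g5_ne (congrArg Subtype.val h))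

theorem order_kT : orderOf kT = 7 :=
  orderOf_eq_prime (Subtype.ext (by show (rho T) ^ 7 = 1; rw [← map_pow, T_seven, map_one]))
    (fun h => rho_T_ne (congrArg Subtype.val h))

theorem order_kg13 : orderOf kg13 = 13 :=
  orderOf_eq_prime (Subtype.ext (by show (rho g13) ^ 13 = 1; rw [← map_pow, g13_pow, map_one]))
    (fun h => rho_g13_ne (congrArg Subtype.val h))

theorem exists_six (n : ℕ) : ∃ g : HH n, orderOf g = 6 := by
  have hc : Commute kPhi kg2 := Subtype.ext (Phi_comm_of_fixed FrU_g2)
  refine ⟨SemidirectProduct.inr (kPhi * kg2), ?_⟩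
  rw [orderOf_injective _ SemidirectProduct.inr_injective, hc.orderOf_mul_eq_mul_orderOf_of_coprime,
    order_kPhi, order_kg2]
  rw [order_kPhi, order_kg2]
  norm_num

theorem exists_fifteen (n : ℕ) : ∃ g : HH n, orderOf g = 15 := by
  have hc : Commute kPhi kg5 := Subtype.ext (Phi_comm_of_fixed FrU_g5)
  refine ⟨SemidirectProduct.inr (kPhi * kg5), ?_⟩
  rw [orderOf_injective _ SemidirectProduct.inr_injective, hc.orderOf_mul_eq_mul_orderOf_of_coprime,
    order_kPhi, order_kg5]
  rw [order_kPhi, order_kg5]
  norm_num

theorem exists_ten (n : ℕ) : ∃ g : HH (n + 1), orderOf g = 10 := by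
  have hx : (fun _ => Wm : Fin (n + 1) → Mat) ≠ 0 := fun h => Wm_ne (congrFun h 0)
  exact order_of_fixed (alphaN (n + 1)) (alphaN_add (n + 1)) add_self_N (k := kg5) hx
    (funext fun _ => fixed_g5) order_kg5 (by decide)

theorem exists_fourteen (n : ℕ) : ∃ g : HH (n + 1), orderOf g = 14 := by
  have hx : (fun _ => E01 : Fin (n + 1) → Mat) ≠ 0 := fun h => E01_ne (congrFun h 0)
  exact order_of_fixed (alphaN (n + 1)) (alphaN_add (n + 1)) add_self_N (k := kT) hx
    (funext fun _ => fixed_T) order_kT (by decide)

theorem exists_thirteen (n : ℕ) : ∃ g : HH n, orderOf g = 13 :=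
  ⟨SemidirectProduct.inr kg13, by rw [orderOf_injective _ SemidirectProduct.inr_injective, order_kg13]⟩

end Cfsg.Agent.Lib.Sz8
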