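/-
Binary coset actions: a witness criterion for failure and a criterion for binarity.
-/
import Mathlib

set_option autoImplicit false
set_option linter.unusedSectionVars false
set_option linter.unusedVariables false
set_option linter.unnecessarySimpa false
set_option linter.style.haveILetI false

namespace Cfsg.Agent.Lib.SzBin

section generic

variable {G : Type*} [Group G]

/-- The action on the cosets of `H` is binary. -/
def IsBinary (H : Subgroup G) : Prop :=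
  ∀ (n : ℕ) (I J : Fin n → G ⧸ H), 2 ≤ n →
    (∀ i j : Fin n, i ≠ j → ∃ g : G, g • I i = J i ∧ g • I j = J j) → ∃ g : G, ∀ i, g • I i = J i

theorem smul_coe_eq {H : Subgroup G} {g a b : G} :
    g • (a : G ⧸ H) = (b : G ⧸ H) ↔ b⁻¹ * g * a ∈ H := by
  rw [MulAction.Quotient.smul_coe, smul_eq_mul, QuotientGroup.eq]
  constructor
  · intro h
    have := H.inv_mem h
    have e : ((g * a)⁻¹ * b)⁻¹ = b⁻¹ * g * a := by group
    rwa [e] at this
  · intro h
    have := H.inv_mem h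
    have e : (b⁻¹ * g * a)⁻¹ = (g * a)⁻¹ * b := by group
    rwa [e] at this

/-- A configuration of three conjugates violating the Helly property. -/
def Witness (H : Subgroup G) : Prop :=
  ∃ a₁ a₂ a₃ u v w : G, a₁⁻¹ * u * a₁ ∈ H ∧ a₂⁻¹ * v * a₂ ∈ H ∧ a₃⁻¹ * w * a₃ ∈ H ∧ u = v * w ∧
    ∀ g h : G, a₁⁻¹ * g * a₁ ∈ H → a₂⁻¹ * g * a₂ ∈ H → a₁⁻¹ * h * a₁ ∈ H → a₃⁻¹ * h * a₃ ∈ H →
      u ≠ g * h

theorem IsBinary.not_witness {H : Subgroup G} (hb : IsBinary H) : ¬ Witness H := by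
  rintro ⟨a₁, a₂, a₃, u, v, w, hu, hv, hw, huvw, hno⟩
  let I : Fin 3 → G ⧸ H := ![(a₁ : G ⧸ H), (a₂ : G ⧸ H), (a₃ : G ⧸ H)]
  let J : Fin 3 → G ⧸ H := ![(a₁ : G ⧸ H), (a₂ : G ⧸ H), ((v * a₃ : G) : G ⧸ H)]
  have h01 : (1 : G) • (a₁ : G ⧸ H) = a₁ ∧ (1 : G) • (a₂ : G ⧸ H) = a₂ := ⟨one_smul _ _, one_smul _ _⟩
  have h02 : u • (a₁ : G ⧸ H) = a₁ ∧ u • (a₃ : G ⧸ H) = ((v * a₃ : G) : G ⧸ H) := by
    refine ⟨smul_coe_eq.2 hu, smul_coe_eq.2 ?_⟩
    have e : (v * a₃)⁻¹ * u * a₃ = a₃⁻¹ * w * a₃ := by rw [huvw]; group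
    rw [e]
    exact hw
  have h12 : v • (a₂ : G ⧸ H) = a₂ ∧ v • (a₃ : G ⧸ H) = ((v * a₃ : G) : G ⧸ H) := by
    refine ⟨smul_coe_eq.2 hv, ?_⟩
    rw [MulAction.Quotient.smul_coe, smul_eq_mul]
  obtain ⟨g, hg⟩ := hb 3 I J (by norm_num) (by
    intro i j hij
    fin_cases i <;> fin_cases j
    · exact absurd rfl hij
    · exact ⟨1, h01.1, h01.2⟩
    · exact ⟨u, h02.1, h02.2⟩
    · exact ⟨1, h01.2, h01.1⟩
    · exact absurd rfl hij
    · exact ⟨v, h12.1, h12.2⟩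
    · exact ⟨u, h02.2, h02.1⟩
    · exact ⟨v, h12.2, h12.1⟩
    · exact absurd rfl hij)
  have g0 : g • (a₁ : G ⧸ H) = a₁ := hg 0
  have g1 : g • (a₂ : G ⧸ H) = a₂ := hg 1
  have g2 : g • (a₃ : G ⧸ H) = ((v * a₃ : G) : G ⧸ H) := hg 2
  have m0 := smul_coe_eq.1 g0
  have m1 := smul_coe_eq.1 g1
  have m2 := smul_coe_eq.1 g2
  apply hno g (g⁻¹ * u) m0 m1
  · have := H.mul_mem (H.inv_mem m0) hu
    have e : a₁⁻¹ * (g⁻¹ * u) * a₁ = (a₁⁻¹ * g * a₁)⁻¹ * (a₁⁻¹ * u * a₁) := by group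
    rw [e]
    exact this
  · have := H.mul_mem (H.inv_mem m2) hw
    have e : a₃⁻¹ * (g⁻¹ * u) * a₃ = ((v * a₃)⁻¹ * g * a₃)⁻¹ * (a₃⁻¹ * w * a₃) := by
      rw [huvw]; group
    rw [e]
    exact this
  · group

theorem mem_map_conj {H : Subgroup G} {k x : G} :
    x ∈ H.map (MulAut.conj k).toMonoidHom ↔ k⁻¹ * x * k ∈ H := by
  constructor
  · rintro ⟨y, hy, rfl⟩
    have e : k⁻¹ * (MulAut.conj k).toMonoidHom y * k = y := by
      change k⁻¹ * (k * y * k⁻¹) * k = y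
      group
    rw [e]
    exact hy
  · intro h
    refine ⟨k⁻¹ * x * k, h, ?_⟩
    change k * (k⁻¹ * x * k) * k⁻¹ = x
    group

/-- A witness for a conjugate gives a witness. -/
theorem Witness.of_map {H : Subgroup G} {k : G} (h : Witness (H.map (MulAut.conj k).toMonoidHom)) :
    Witness H := by
  obtain ⟨a₁, a₂, a₃, u, v, w, hu, hv, hw, huvw, hno⟩ := h
  have key : ∀ a x : G, (a * k)⁻¹ * x * (a * k) ∈ H ↔ a⁻¹ * x * a ∈ H.map (MulAut.conj k).toMonoidHom := by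
    intro a x
    rw [mem_map_conj]
    have e : (a * k)⁻¹ * x * (a * k) = k⁻¹ * (a⁻¹ * x * a) * k := by group
    rw [e]
  refine ⟨a₁ * k, a₂ * k, a₃ * k, u, v, w, (key _ _).2 hu, (key _ _).2 hv, (key _ _).2 hw, huvw, ?_⟩
  intro g h h1 h2 h3 h4
  exact hno g h ((key _ _).1 h1) ((key _ _).1 h2) ((key _ _).1 h3) ((key _ _).1 h4)

/-- A convenient form of a witness: the two intersections are trivial. -/
theorem witness_of_trivial {H : Subgroup G} {a₂ a₃ u v w : G} (hu : u ∈ H) (hu1 : u ≠ 1)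
    (hv : a₂⁻¹ * v * a₂ ∈ H) (hw : a₃⁻¹ * w * a₃ ∈ H) (huvw : u = v * w)
    (h2 : ∀ g ∈ H, a₂⁻¹ * g * a₂ ∈ H → g = 1) (h3 : ∀ g ∈ H, a₃⁻¹ * g * a₃ ∈ H → g = 1) :
    Witness H := by
  refine ⟨1, a₂, a₃, u, v, w, by simpa using hu, hv, hw, huvw, ?_⟩
  intro g h g1 g2 h1 h2'
  have g1' : g ∈ H := by simpa using g1
  have h1' : h ∈ H := by simpa using h1
  rw [h2 g g1' g2, h3 h h1' h2', mul_one]
  exact hu1

theorem isBinary_bot : IsBinary (⊥ : Subgroup G) := by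
  intro n I J hn hpair
  have key : ∀ (g g' : G) (x : G ⧸ (⊥ : Subgroup G)), g • x = g' • x → g = g' := by
    intro g g' x h
    obtain ⟨a, rfl⟩ := QuotientGroup.mk_surjective x
    rw [MulAction.Quotient.smul_coe, MulAction.Quotient.smul_coe, smul_eq_mul, smul_eq_mul,
      QuotientGroup.eq, Subgroup.mem_bot] at h
    have : g * a = g' * a := by
      rw [inv_mul_eq_one] at h
      exact h
    exact mul_right_cancel this
  let i₀ : Fin n := ⟨0, by omega⟩
  let i₁ : Fin n := ⟨1, by omega⟩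
  have h01 : i₀ ≠ i₁ := by
    intro h
    have := congrArg Fin.val h
    simp [i₀, i₁] at this
  obtain ⟨g, hg0, hg1⟩ := hpair i₀ i₁ h01
  refine ⟨g, fun l => ?_⟩
  by_cases hl : l = i₀
  · rw [hl]; exact hg0
  · obtain ⟨g', h0', h1'⟩ := hpair i₀ l (Ne.symm hl)
    have : g = g' := key _ _ (I i₀) (hg0.trans h0'.symm)
    rw [this]
    exact h1'

/-- A subgroup behaving like the centre of a Sylow subgroup of a Zassenhaus group is binary. -/
theorem isBinary_of_zlike {Ω : Type*} [MulAction G Ω] (H : Subgroup G) (p : Ω)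
    (h1 : ∀ x ∈ H, x • p = p) (h2 : ∀ x ∈ H, x * x = 1) (h3 : ∀ x ∈ H, x ≠ 1 → ∀ r : Ω, x • r = r → r = p)
    (h4 : ∀ k : G, k • p = p → ∀ x ∈ H, k * x * k⁻¹ ∈ H) : IsBinary H := by
  classical
  intro n I J hn hpair
  have hIa : ∀ i, ∃ a : G, (a : G ⧸ H) = I i := fun i => QuotientGroup.mk_surjective (I i)
  have hJb : ∀ i, ∃ a : G, (a : G ⧸ H) = J i := fun i => QuotientGroup.mk_surjective (J i)
  choose a ha using hIa
  choose b hb using hJb
  have hC : ∀ (g : G) (i : Fin n), g • I i = J i ↔ (b i)⁻¹ * g * a i ∈ H := by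
    intro g i
    rw [← ha i, ← hb i]
    exact smul_coe_eq
  simp only [hC] at hpair ⊢
  -- equal points
  have factA : ∀ (i j : Fin n) (g₀ g : G), (b i)⁻¹ * g₀ * a i ∈ H → (b j)⁻¹ * g₀ * a j ∈ H →
      a i • p = a j • p → (b i)⁻¹ * g * a i ∈ H → (b j)⁻¹ * g * a j ∈ H := by
    intro i j g₀ g h0i h0j hP hgi
    have hx := H.mul_mem (H.inv_mem h0i) hgi
    have hk : ((a j)⁻¹ * a i) • p = p := by
      rw [mul_smul, hP, inv_smul_smul]
    have hy := h4 _ hk _ hx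
    have e : (b j)⁻¹ * g * a j = ((b j)⁻¹ * g₀ * a j) *
        (((a j)⁻¹ * a i) * (((b i)⁻¹ * g₀ * a i)⁻¹ * ((b i)⁻¹ * g * a i)) * ((a j)⁻¹ * a i)⁻¹) := by
      group
    rw [e]
    exact H.mul_mem h0j hy
  -- three distinct points
  have factB : ∀ (i j l : Fin n) (g g' g'' : G), (b i)⁻¹ * g * a i ∈ H → (b j)⁻¹ * g * a j ∈ H →
      (b i)⁻¹ * g' * a i ∈ H → (b l)⁻¹ * g' * a l ∈ H → (b j)⁻¹ * g'' * a j ∈ H →
      (b l)⁻¹ * g'' * a l ∈ H → a i • p ≠ a j • p → (b l)⁻¹ * g * a l ∈ H := by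
    intro i j l g g' g'' hi hj hi' hl' hj'' hl'' hne
    by_cases hu : g⁻¹ * g' = 1
    · have : g = g' := by
        rw [inv_mul_eq_one] at hu
        exact hu
      rw [this]
      exact hl'
    by_cases hv : g⁻¹ * g'' = 1
    · have : g = g'' := by
        rw [inv_mul_eq_one] at hv
        exact hv
      rw [this]
      exact hl''
    exfalso
    have xu : (a i)⁻¹ * (g⁻¹ * g') * a i ∈ H := by
      have := H.mul_mem (H.inv_mem hi) hi'
      have e : (a i)⁻¹ * (g⁻¹ * g') * a i = ((b i)⁻¹ * g * a i)⁻¹ * ((b i)⁻¹ * g' * a i) := by group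
      rw [e]; exact this
    have xv : (a j)⁻¹ * (g⁻¹ * g'') * a j ∈ H := by
      have := H.mul_mem (H.inv_mem hj) hj''
      have e : (a j)⁻¹ * (g⁻¹ * g'') * a j = ((b j)⁻¹ * g * a j)⁻¹ * ((b j)⁻¹ * g'' * a j) := by group
      rw [e]; exact this
    have xy : (a l)⁻¹ * (g'⁻¹ * g'') * a l ∈ H := by
      have := H.mul_mem (H.inv_mem hl') hl''
      have e : (a l)⁻¹ * (g'⁻¹ * g'') * a l = ((b l)⁻¹ * g' * a l)⁻¹ * ((b l)⁻¹ * g'' * a l) := by group
      rw [e]; exact this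
    set u := g⁻¹ * g' with hu_def
    set v := g⁻¹ * g'' with hv_def
    have huu : u * u = 1 := by
      have := h2 _ xu
      have e : u * u = a i * (((a i)⁻¹ * u * a i) * ((a i)⁻¹ * u * a i)) * (a i)⁻¹ := by group
      rw [e, this]; group
    have hvv : v * v = 1 := by
      have := h2 _ xv
      have e : v * v = a j * (((a j)⁻¹ * v * a j) * ((a j)⁻¹ * v * a j)) * (a j)⁻¹ := by group
      rw [e, this]; group
    have hyy : (g'⁻¹ * g'') * (g'⁻¹ * g'') = 1 := by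
      have := h2 _ xy
      have e : (g'⁻¹ * g'') * (g'⁻¹ * g'') =
          a l * (((a l)⁻¹ * (g'⁻¹ * g'') * a l) * ((a l)⁻¹ * (g'⁻¹ * g'') * a l)) * (a l)⁻¹ := by group
      rw [e, this]; group
    have hy_eq : g'⁻¹ * g'' = u⁻¹ * v := by
      rw [hu_def, hv_def]; group
    rw [hy_eq] at hyy
    have huinv : u⁻¹ = u := by
      rw [inv_eq_iff_mul_eq_one]
      exact huu
    have hvinv : v⁻¹ = v := by
      rw [inv_eq_iff_mul_eq_one]
      exact hvv
    rw [huinv] at hyy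
    have hcomm : u * v = v * u := by
      have h5 : (u * v) * (u * v)⁻¹ = 1 := mul_inv_cancel _
      have h6 : (u * v)⁻¹ = v * u := by
        rw [mul_inv_rev, huinv, hvinv]
      have h7 : (u * v)⁻¹ = u * v := by
        rw [inv_eq_iff_mul_eq_one]
        exact hyy
      rw [← h6, h7]
    -- fixed points
    have xu1 : (a i)⁻¹ * u * a i ≠ 1 := by
      intro h
      apply hu
      have : u = a i * ((a i)⁻¹ * u * a i) * (a i)⁻¹ := by group
      rw [this, h]; group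
    have xv1 : (a j)⁻¹ * v * a j ≠ 1 := by
      intro h
      apply hv
      have : v = a j * ((a j)⁻¹ * v * a j) * (a j)⁻¹ := by group
      rw [this, h]; group
    have fu : u • (a i • p) = a i • p := by
      have := h1 _ xu
      rw [mul_smul, mul_smul, inv_smul_eq_iff] at this
      exact this
    have uu : ∀ r : Ω, u • r = r → r = a i • p := by
      intro r hr
      have := h3 _ xu xu1 ((a i)⁻¹ • r) (by
        rw [mul_smul, mul_smul, smul_inv_smul, hr])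
      rw [inv_smul_eq_iff] at this
      exact this
    have uv : ∀ r : Ω, v • r = r → r = a j • p := by
      intro r hr
      have := h3 _ xv xv1 ((a j)⁻¹ • r) (by
        rw [mul_smul, mul_smul, smul_inv_smul, hr])
      rw [inv_smul_eq_iff] at this
      exact this
    have h8 : v • (a i • p) = a i • p := by
      apply uu
      rw [← mul_smul, hcomm, mul_smul, fu]
    exact hne (uv _ h8)
  let i₀ : Fin n := ⟨0, by omega⟩
  let i₁ : Fin n := ⟨1, by omega⟩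
  have h01 : i₀ ≠ i₁ := by
    intro h
    have := congrArg Fin.val h
    simp [i₀, i₁] at this
  by_cases hall : ∃ i j : Fin n, a i • p ≠ a j • p
  · obtain ⟨i, j, hij⟩ := hall
    have hne : i ≠ j := by
      rintro rfl
      exact hij rfl
    obtain ⟨g, hgi, hgj⟩ := hpair i j hne
    refine ⟨g, fun l => ?_⟩
    by_cases hli : l = i
    · rw [hli]; exact hgi
    by_cases hlj : l = j
    · rw [hlj]; exact hgj
    obtain ⟨g', hi', hl'⟩ := hpair i l (Ne.symm hli)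
    obtain ⟨g'', hj'', hl''⟩ := hpair j l (Ne.symm hlj)
    exact factB i j l g g' g'' hgi hgj hi' hl' hj'' hl'' hij
  · push Not at hall
    obtain ⟨g, hg0, hg1⟩ := hpair i₀ i₁ h01
    refine ⟨g, fun l => ?_⟩
    by_cases hl : l = i₀
    · rw [hl]; exact hg0
    · obtain ⟨g', h0', h1'⟩ := hpair i₀ l (Ne.symm hl)
      exact factA i₀ l g' g h0' h1' (hall _ _) hg0

end generic

end Cfsg.Agent.Lib.SzBin
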