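/-
Binary coset actions of the Suzuki group: the positive cases, and the failure for subgroups fixing a
point and containing an element of order four or a non-trivial element of a torus.
-/
import Mathlib
import Cfsg.Agent.Lib.SzBinA
import Cfsg.Agent.Lib.SzSolB

set_option autoImplicit false
set_option linter.unusedSectionVars false
set_option linter.unusedVariables false
set_option linter.unnecessarySimpa false
set_option linter.style.haveILetI false

namespace Cfsg.Agent.Lib.SzBin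

open Cfsg Cfsg.Agent.Lib.SuzukiBasic Cfsg.Agent.Lib.Suzuki Cfsg.Agent.Lib.Suzuki2
  Cfsg.Agent.Lib.Suzuki3 Cfsg.Agent.Lib.Suzuki4 Cfsg.Agent.Lib.SuzukiMax Cfsg.Agent.Lib.SzSub
  Cfsg.Agent.Lib.SzTorus

theorem mem_center_map {G : Type*} [Group G] {P : Subgroup G} {x : G} :
    x ∈ (Subgroup.center P).map P.subtype ↔ x ∈ P ∧ ∀ y ∈ P, y * x = x * y := by
  constructor
  · rintro ⟨y, hy, rfl⟩
    refine ⟨y.2, fun z hz => ?_⟩
    have := (Subgroup.mem_center_iff.1 hy) ⟨z, hz⟩
    exact congrArg Subtype.val this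
  · rintro ⟨h1, h2⟩
    refine ⟨⟨x, h1⟩, ?_, rfl⟩
    rw [SetLike.mem_coe, Subgroup.mem_center_iff]
    intro z
    exact Subtype.ext (h2 z.1 z.2)

variable {F : Type*} [Field F] [Fintype F] {m : ℕ} [CharP F 2] [SzHyp F m]

theorem two_eq_zero_F : (2 : F) = 0 := CharTwo.two_eq_zero

theorem add_self_F' (a : F) : a + a = 0 := CharTwo.add_self_eq_zero a

/-- The centre of a conjugate of the standard Sylow subgroup. -/
theorem center_of_conj {P₀ : Subgroup (Sz F m)} {a : Sz F m}
    (hP : ∀ y, y ∈ P₀ ↔ a⁻¹ * y * a ∈ Tsub F m) {x : Sz F m} :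
    x ∈ (Subgroup.center P₀).map P₀.subtype ↔ ∃ b : F, a⁻¹ * x * a = tt 0 b := by
  rw [mem_center_map]
  constructor
  · rintro ⟨h1, h2⟩
    obtain ⟨c, d, hcd⟩ := mem_Tsub.1 ((hP x).1 h1)
    have hc : (ttS c d : Tsub F m) ∈ Subgroup.center (Tsub F m) := by
      rw [Subgroup.mem_center_iff]
      rintro ⟨z, hz⟩
      apply Subtype.ext
      change z * tt c d = tt c d * z
      have h3 : a * z * a⁻¹ ∈ P₀ := by
        rw [hP]
        have e : a⁻¹ * (a * z * a⁻¹) * a = z := by group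
        rw [e]
        exact hz
      have h4 := h2 _ h3
      rw [← hcd]
      have e1 : z * (a⁻¹ * x * a) = a⁻¹ * ((a * z * a⁻¹) * x) * a := by group
      have e2 : a⁻¹ * x * a * z = a⁻¹ * (x * (a * z * a⁻¹)) * a := by group
      rw [e1, e2, h4]
    obtain ⟨b, hb⟩ := mem_center_Tsub.1 hc
    obtain ⟨h5, h6⟩ := ttS_inj hb
    exact ⟨b, by rw [hcd, h5, h6]⟩
  · rintro ⟨b, hb⟩
    have hxe : x = a * tt 0 b * a⁻¹ := by
      rw [← hb]; group
    refine ⟨(hP x).2 (by rw [hb]; exact mem_Tsub.2 ⟨0, b, rfl⟩), fun y hy => ?_⟩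
    obtain ⟨c, d, hcd⟩ := mem_Tsub.1 ((hP y).1 hy)
    have hye : y = a * tt c d * a⁻¹ := by
      rw [← hcd]; group
    have h7 := conj_tt_zero (m := m) c d b
    have h8 : (tt c d * tt 0 b : Sz F m) = tt 0 b * tt c d := by
      exact mul_inv_eq_iff_eq_mul.1 h7
    rw [hye, hxe]
    have e1 : a * tt c d * a⁻¹ * (a * tt 0 b * a⁻¹) = a * (tt c d * tt 0 b) * a⁻¹ := by group
    have e2 : a * tt 0 b * a⁻¹ * (a * tt c d * a⁻¹) = a * (tt 0 b * tt c d) * a⁻¹ := by group
    rw [e1, e2, h8]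

theorem exists_sylow_center_iff {H : Subgroup (Sz F m)} :
    (∃ P : Sylow 2 (Sz F m), H = (Subgroup.center (P : Subgroup (Sz F m))).map
        (P : Subgroup (Sz F m)).subtype) ↔
      ∃ a : Sz F m, ∀ x, x ∈ H ↔ ∃ b : F, a⁻¹ * x * a = tt 0 b := by
  constructor
  · rintro ⟨P, rfl⟩
    obtain ⟨a, ha⟩ := exists_conj_sylow P
    refine ⟨a, fun x => center_of_conj (fun y => ?_)⟩
    rw [ha]
    exact mem_map_conj
  · rintro ⟨a, ha⟩
    refine ⟨a • sylowT F m, ?_⟩
    ext x
    rw [ha x]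
    exact (center_of_conj (fun y => mem_smul_sylowT)).symm

/-- The centres of the Sylow subgroups give binary actions. -/
theorem isBinary_center {H : Subgroup (Sz F m)} {a : Sz F m}
    (ha : ∀ x, x ∈ H ↔ ∃ b : F, a⁻¹ * x * a = tt 0 b) : IsBinary H := by
  have hx : ∀ x ∈ H, ∃ b : F, x = a * tt 0 b * a⁻¹ := by
    intro x hx
    obtain ⟨b, hb⟩ := (ha x).1 hx
    exact ⟨b, by rw [← hb]; group⟩
  apply isBinary_of_zlike H (a • oInf F m)
  · intro x hxH
    obtain ⟨b, rfl⟩ := hx x hxH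
    rw [mul_smul, mul_smul, inv_smul_smul, tt_smul_inf]
  · intro x hxH
    obtain ⟨b, rfl⟩ := hx x hxH
    have e : a * tt 0 b * a⁻¹ * (a * tt 0 b * a⁻¹) = a * (tt 0 b * tt 0 b) * a⁻¹ := by group
    rw [e, tt_zero_mul_self]
    group
  · intro x hxH hx1 r hr
    obtain ⟨b, rfl⟩ := hx x hxH
    have hb : b ≠ 0 := by
      rintro rfl
      apply hx1
      rw [tt_zero]
      group
    rw [mul_smul, mul_smul, smul_eq_iff_eq_inv_smul] at hr
    have := tt_zero_fix hb hr
    rw [inv_smul_eq_iff] at this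
    exact this
  · intro k hk x hxH
    obtain ⟨b, rfl⟩ := hx x hxH
    have h1 : (a⁻¹ * k * a) • oInf F m = oInf F m := by
      rw [mul_smul, mul_smul, hk, inv_smul_smul]
    obtain ⟨c, d, α, hcd⟩ := stab_inf h1
    rw [ha]
    refine ⟨phi m (α : F) * α * b, ?_⟩
    rw [← conj_stab_tt c d α b, ← hcd]
    group

/-! ### The relation in the smallest Suzuki group -/

theorem fn_one_zero : fn m (1 : F) 0 = 1 := by
  rw [fn_eq, phi_one, phi_zero]
  ring

theorem fn_zero_one : fn m (0 : F) 1 = 1 := by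
  rw [fn_eq, phi_one, phi_zero]
  ring

theorem fn_one_one : fn m (1 : F) 1 = 1 := by
  rw [fn_eq, phi_one]
  have := add_self_F' (1 : F)
  linear_combination this

theorem r_P00 : (tt 1 0 : Sz F m) • oZero F m = oPt m 1 0 := tt_smul_zero _ _

theorem r_P10 : (tt 1 0 : Sz F m) • oPt m (1 : F) 0 = oPt m 0 1 := by
  rw [tt_smul_pt, phi_one, add_self_F']
  simp

theorem r_P01 : (tt 1 0 : Sz F m) • oPt m (0 : F) 1 = oPt m 1 1 := by
  rw [tt_smul_pt, phi_one]
  simp

theorem r_P11 : (tt 1 0 : Sz F m) • oPt m (1 : F) 1 = oZero F m := by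
  rw [tt_smul_pt, phi_one, add_self_F', ← oPt_zero]
  simp [add_self_F']

theorem w_P10 : (ww : Sz F m) • oPt m (1 : F) 0 = oPt m 0 1 := by
  rw [ww_smul_pt (by rw [fn_one_zero]; exact one_ne_zero), fn_one_zero]
  simp

theorem w_P01 : (ww : Sz F m) • oPt m (0 : F) 1 = oPt m 1 0 := by
  rw [ww_smul_pt (by rw [fn_zero_one]; exact one_ne_zero), fn_zero_one]
  simp

theorem w_P11 : (ww : Sz F m) • oPt m (1 : F) 1 = oPt m 1 1 := by
  rw [ww_smul_pt (by rw [fn_one_one]; exact one_ne_zero), fn_one_one]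
  simp

theorem oZero_ne_P10 : oZero F m ≠ oPt m (1 : F) 0 := by
  rw [← oPt_zero]
  intro h
  exact zero_ne_one (oPt_inj h).1

/-- The relation `V r V r = 1` for `V = w r w`. -/
theorem rel_V : ((ww * tt 1 0 * ww) * tt 1 0 * (ww * tt 1 0 * ww) * tt 1 0 : Sz F m) = 1 := by
  apply eq_one_of_three (a := oInf F m) (b := oZero F m) (c := oPt m (1 : F) 0)
    oZero_ne_inf.symm oZero_ne_P10 (oPt_ne_inf _ _).symm
  · simp only [mul_smul, tt_smul_inf, ww_smul_inf, r_P00, w_P10, r_P01, w_P11, r_P11, ww_smul_zero]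
  · simp only [mul_smul, r_P00, w_P10, r_P01, w_P11, r_P11, ww_smul_zero, tt_smul_inf, ww_smul_inf]
  · simp only [mul_smul, r_P10, w_P01]

/-- A subgroup fixing a point and containing an element of order four is not binary. -/
theorem witness_order_four {H : Subgroup (Sz F m)} (hfix : ∀ x ∈ H, x • oInf F m = oInf F m)
    (hr : (tt 1 0 : Sz F m) ∈ H) : Witness H := by
  set r : Sz F m := tt 1 0 with hrdef
  set V : Sz F m := ww * r * ww with hV
  have hsq : r * r = tt 0 1 := by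
    rw [hrdef, tt_sq, phi_one, mul_one]
  have hrr : (r * r)⁻¹ = r * r := by
    rw [inv_eq_iff_mul_eq_one, hsq]
    exact tt_zero_mul_self 1
  have hrel : V * r * V * r = 1 := rel_V
  have h1 : V * r * V = r⁻¹ := by
    rw [eq_inv_iff_mul_eq_one]
    exact hrel
  have hu : r * r = V * (r * V * r⁻¹) := by
    have e : V * (r * V * r⁻¹) = (V * r * V) * r⁻¹ := by group
    rw [e, h1, ← mul_inv_rev, hrr]
  have hw : (ww : Sz F m)⁻¹ = ww := ww_inv
  refine ⟨1, ww, r * ww, r * r, V, r * V * r⁻¹, ?_, ?_, ?_, hu, ?_⟩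
  · simpa using H.mul_mem hr hr
  · have e : (ww : Sz F m)⁻¹ * V * ww = r := by
      rw [hV, hw]
      calc (ww : Sz F m) * (ww * r * ww) * ww = (ww * ww) * r * (ww * ww) := by group
        _ = r := by rw [ww_mul_self]; group
    rw [e]
    exact hr
  · have e : (r * ww)⁻¹ * (r * V * r⁻¹) * (r * ww) = r := by
      rw [hV, mul_inv_rev, hw]
      calc (ww : Sz F m) * r⁻¹ * (r * (ww * r * ww) * r⁻¹) * (r * ww)
          = (ww * ww) * r * (ww * ww) := by group
        _ = r := by rw [ww_mul_self]; group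
    rw [e]
    exact hr
  · intro g h g1 g2 h1' h2' heq
    have g1' : g ∈ H := by simpa using g1
    have h1'' : h ∈ H := by simpa using h1'
    -- `g` fixes the two points
    have hgI := hfix g g1'
    have hg0 : g • oZero F m = oZero F m := by
      have := hfix _ g2
      rw [hw, mul_smul, mul_smul, ww_smul_inf] at this
      have h3 : g • oZero F m = (ww : Sz F m) • oInf F m := by
        rw [← this, ← mul_smul, ww_mul_self, one_smul]
      rw [ww_smul_inf] at h3
      exact h3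
    obtain ⟨α, rfl⟩ := stab_inf_zero hgI hg0
    -- `h` fixes `(1, 0)`
    have hh10 : h • oPt m (1 : F) 0 = oPt m 1 0 := by
      have := hfix _ h2'
      rw [mul_smul, mul_smul, mul_smul, ww_smul_inf, r_P00, inv_smul_eq_iff, mul_smul, ww_smul_inf,
        r_P00] at this
      exact this
    have hhe : h = hh α⁻¹ * tt 0 1 := by
      rw [← hsq, heq, ← mul_assoc, ← hh_inv, inv_mul_cancel, one_mul]
    rw [hhe, mul_smul, tt_smul_pt, hh_smul_pt] at hh10
    have := (oPt_inj hh10).2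
    simp only [phi_zero, zero_mul, add_zero, zero_add, mul_one] at this
    have h0 : phi m (α⁻¹ : Fˣ).val ≠ 0 := by
      simp [phi]
    exact (mul_ne_zero h0 (Units.ne_zero _)) this

/-- An involution moving `∞` is conjugate to a given involution in `Z`, the conjugating element sending
a prescribed point to `∞`. -/
theorem exists_conj_to_P10 {b₀ : F} (hb₀ : b₀ ≠ 0) {v : Sz F m} (hv : orderOf v = 2)
    (hvI : v • oInf F m ≠ oInf F m) :
    ∃ k : Sz F m, v = k * tt 0 b₀ * k⁻¹ ∧ k⁻¹ • oInf F m = oPt m 1 0 := by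
  obtain ⟨k, hk⟩ := conj_order_two (orderOf_tt_zero (m := m) hb₀) hv
  have h1 : k⁻¹ • oInf F m ≠ oInf F m := by
    intro h
    apply hvI
    rw [hk, mul_smul, mul_smul, h, tt_smul_inf]
    exact (inv_smul_eq_iff.1 h).symm
  obtain ⟨x, y, hxy⟩ := (om_cases (k⁻¹ • oInf F m)).resolve_left h1
  let c : Sz F m := tt (x + 1) (y + phi m (x + 1))
  have hc : c • oPt m (1 : F) 0 = oPt m x y := by
    change (tt (x + 1) (y + phi m (x + 1)) : Sz F m) • oPt m (1 : F) 0 = oPt m x y
    rw [tt_smul_pt, mul_one, zero_add]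
    congr 1
    · have := add_self_F' (1 : F)
      linear_combination this
    · have := add_self_F' (phi m (x + 1))
      linear_combination this
  refine ⟨k * c, ?_, ?_⟩
  · have h2 : c * tt 0 b₀ * c⁻¹ = tt 0 b₀ := conj_tt_zero _ _ _
    calc v = k * tt 0 b₀ * k⁻¹ := hk
      _ = k * (c * tt 0 b₀ * c⁻¹) * k⁻¹ := by rw [h2]
      _ = k * c * tt 0 b₀ * (k * c)⁻¹ := by group
  · rw [mul_inv_rev, mul_smul, hxy, inv_smul_eq_iff, hc]

/-- A subgroup fixing a point, without elements of order four, containing an involution and a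
non-trivial element of the torus is not binary. -/
theorem witness_fix_torus {H : Subgroup (Sz F m)} (hfix : ∀ x ∈ H, x • oInf F m = oInf F m)
    (hno4 : ∀ y ∈ H, orderOf y ≠ 4) {α : Fˣ} (hα : α ≠ 1) (hx : (hh α : Sz F m) ∈ H) {b₀ : F}
    (hb₀ : b₀ ≠ 0) (ht : (tt 0 b₀ : Sz F m) ∈ H) : Witness H := by
  -- the shape of the elements
  have hshape : ∀ y ∈ H, ∃ (b : F) (γ : Fˣ), y = tt 0 b * hh γ := by
    intro y hy
    obtain ⟨a, b, γ, rfl⟩ := stab_inf (hfix y hy)
    by_cases ha : a = 0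
    · exact ⟨b, γ, by rw [ha]⟩
    exfalso
    have hz := H.mul_mem (H.mul_mem (H.mul_mem hy hx) (H.inv_mem hy)) (H.inv_mem hx)
    have e : ((tt a b * hh γ) * hh α * (tt a b * hh γ)⁻¹ * (hh α)⁻¹ : Sz F m) =
        tt (a + α * a) (b + (b + phi m a * a) * (phi m (α : F) * α) + phi m a * (α * a)) := by
      have h1 : (hh γ * hh α * (hh γ)⁻¹ : Sz F m) = hh α := by
        rw [hh_mul, hh_inv, hh_mul]
        congr 1
        rw [mul_comm γ α, mul_assoc, mul_inv_cancel, mul_one]
      have h2 : ((tt a b : Sz F m) * hh γ * hh α * (tt a b * hh γ)⁻¹ * (hh α)⁻¹) =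
          tt a b * (hh γ * hh α * (hh γ)⁻¹) * (tt a b)⁻¹ * (hh α)⁻¹ := by group
      rw [h2, h1, tt_inv, mul_assoc (tt a b), hh_mul_tt, mul_assoc, mul_assoc, mul_inv_cancel, mul_one,
        ← mul_assoc, tt_mul]
      congr 1
      ring
    rw [e] at hz
    apply hno4 _ hz
    apply orderOf_tt_ne
    intro h0
    have h1 : a * (1 + (α : F)) = 0 := by
      linear_combination h0
    rcases mul_eq_zero.1 h1 with h2 | h2
    · exact ha h2
    · apply hα
      apply Units.ext
      rw [Units.val_one]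
      have := add_self_F' (1 : F)
      linear_combination h2 - this
  have hww2 : orderOf (ww : Sz F m) = 2 := by
    apply orderOf_eq_prime (p := 2)
    · rw [pow_two, ww_mul_self]
    · intro h
      have := ww_smul_inf (F := F) (m := m)
      rw [h, one_smul] at this
      exact oZero_ne_inf this.symm
  have hv2 : orderOf ((hh α * ww : Sz F m)) = 2 := by
    apply orderOf_eq_prime (p := 2)
    · rw [pow_two]
      calc (hh α * ww * (hh α * ww) : Sz F m) = hh α * (ww * hh α * ww) := by group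
        _ = 1 := by rw [ww_hh_ww, hh_mul, mul_inv_cancel, hh_one]
    · intro h
      have : (hh α * ww : Sz F m) • oInf F m = oZero F m := by
        rw [mul_smul, ww_smul_inf, hh_smul_zero]
      rw [h, one_smul] at this
      exact oZero_ne_inf this.symm
  obtain ⟨k₂, hk₂, hk₂I⟩ := exists_conj_to_P10 hb₀ hv2 (by
    rw [mul_smul, ww_smul_inf, hh_smul_zero]
    exact oZero_ne_inf)
  obtain ⟨k₃, hk₃, hk₃I⟩ := exists_conj_to_P10 hb₀ hww2 (by
    rw [ww_smul_inf]
    exact oZero_ne_inf)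
  have key : ∀ k : Sz F m, k⁻¹ • oInf F m = oPt m 1 0 → ∀ g ∈ H, k⁻¹ * g * k ∈ H → g = 1 := by
    intro k hk g hg hg'
    obtain ⟨b, γ, hbγ⟩ := hshape _ hg'
    have h1 : (k⁻¹ * g * k) • oPt m (1 : F) 0 = oPt m 1 0 := by
      rw [← hk, ← mul_smul]
      have e : k⁻¹ * g * k * k⁻¹ = k⁻¹ * g := by group
      rw [e, mul_smul, hfix g hg]
    rw [hbγ, mul_smul, hh_smul_pt, tt_smul_pt] at h1
    obtain ⟨h2, h3⟩ := oPt_inj h1
    simp only [phi_zero, zero_mul, mul_zero, add_zero, zero_add, mul_one] at h2 h3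
    have hγ : γ = 1 := Units.ext h2
    subst h3
    subst hγ
    rw [tt_zero, hh_one, one_mul] at hbγ
    have e : g = k * (k⁻¹ * g * k) * k⁻¹ := by group
    rw [e, hbγ]
    group
  refine witness_of_trivial (a₂ := k₂) (a₃ := k₃) (v := hh α * ww) (w := ww) hx ?_ ?_ ?_ ?_
    (key k₂ hk₂I) (key k₃ hk₃I)
  · intro h
    apply hα
    apply hh_inj (m := m)
    rw [h, hh_one]
  · have e : k₂⁻¹ * (hh α * ww) * k₂ = tt 0 b₀ := by
      rw [hk₂]; group
    rw [e]
    exact ht
  · have e : k₃⁻¹ * ww * k₃ = tt 0 b₀ := by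
      rw [hk₃]; group
    rw [e]
    exact ht
  · rw [mul_assoc, ww_mul_self, mul_one]

end Cfsg.Agent.Lib.SzBin
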