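/-
Binary coset actions of the Suzuki group: subgroups of the centre of a Sylow subgroup.
-/
import Mathlib
import Cfsg.Agent.Lib.SzBinB

set_option autoImplicit false
set_option linter.unusedSectionVars false
set_option linter.unusedVariables false
set_option linter.unnecessarySimpa false
set_option linter.style.haveILetI false

namespace Cfsg.Agent.Lib.SzBin

open Cfsg Cfsg.Agent.Lib.SuzukiBasic Cfsg.Agent.Lib.Suzuki Cfsg.Agent.Lib.Suzuki2
  Cfsg.Agent.Lib.Suzuki3 Cfsg.Agent.Lib.Suzuki4 Cfsg.Agent.Lib.SuzukiMax Cfsg.Agent.Lib.SzSub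
  Cfsg.Agent.Lib.SzTorus

section field

variable {F : Type*} [Field F] [Fintype F] [CharP F 2]

theorem exists_avoid [DecidableEq F] (D : Finset F) (h : 2 * D.card + 2 < Fintype.card F) :
    ∃ l : F, l ≠ 0 ∧ l ≠ 1 ∧ l ∉ D ∧ 1 + l ∉ D := by
  let E : Finset F := ({0, 1} ∪ D) ∪ D.image (fun x => 1 + x)
  have hE : E.card < (Finset.univ : Finset F).card := by
    have h1 : E.card ≤ (({0, 1} : Finset F) ∪ D).card + (D.image (fun x => 1 + x)).card :=
      Finset.card_union_le _ _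
    have h2 : (({0, 1} : Finset F) ∪ D).card ≤ ({0, 1} : Finset F).card + D.card :=
      Finset.card_union_le _ _
    have h3 : ({0, 1} : Finset F).card ≤ 2 := Finset.card_le_two
    have h4 : (D.image (fun x => 1 + x)).card ≤ D.card := Finset.card_image_le
    rw [Finset.card_univ]
    omega
  obtain ⟨l, -, hl⟩ := Finset.exists_mem_notMem_of_card_lt_card hE
  have hl1 : l ∉ ({0, 1} : Finset F) ∪ D := fun h => hl (Finset.mem_union_left _ h)
  have hl2 : l ∉ D.image (fun x => 1 + x) := fun h => hl (Finset.mem_union_right _ h)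
  refine ⟨l, ?_, ?_, ?_, ?_⟩
  · intro h0
    apply hl1
    simp [h0]
  · intro h0
    apply hl1
    simp [h0]
  · intro h0
    exact hl1 (Finset.mem_union_right _ h0)
  · intro h0
    apply hl2
    rw [Finset.mem_image]
    refine ⟨1 + l, h0, ?_⟩
    rw [← add_assoc, CharTwo.add_self_eq_zero, zero_add]

theorem mulShift_inj {ψ : AddChar F ℂ} (hψ : ψ ≠ 1) {ν ν' : F}
    (h : AddChar.mulShift ψ ν = AddChar.mulShift ψ ν') : ν = ν' := by
  by_contra hne
  apply hψ
  ext y
  have hd : ν + ν' ≠ 0 := by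
    intro h0
    apply hne
    have := CharTwo.add_self_eq_zero ν'
    linear_combination h0 - this
  set x := (ν + ν')⁻¹ * y with hx
  have hy : y = ν * x + ν' * x := by
    rw [← add_mul, hx, mul_inv_cancel_left₀ hd]
  have h1 : ψ (ν * x) = ψ (ν' * x) := by
    have := congrArg (fun χ : AddChar F ℂ => χ x) h
    simpa [AddChar.mulShift_apply] using this
  rw [AddChar.one_apply, hy, AddChar.map_add_eq_mul, h1, ← AddChar.map_add_eq_mul,
    CharTwo.add_self_eq_zero, AddChar.map_zero_eq_one]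

/-- A proper sum of a subgroup and a scaled copy is detected by a character. -/
theorem sum_of_no_char (A : AddSubgroup F) {ν : F} (hν : ν ≠ 0)
    (hno : ∀ ψ : AddChar F ℂ, ψ ≠ 1 → (∀ x ∈ A, ψ x = 1) →
      AddChar.mulShift ψ ν ≠ 1 → (∀ x ∈ A, AddChar.mulShift ψ ν x = 1) → False) (z : F) :
    ∃ v ∈ A, ∃ w : F, ν⁻¹ * w ∈ A ∧ z = v + w := by
  classical
  let C : AddSubgroup F := A ⊔ A.map (AddMonoidHom.mulLeft ν)
  by_cases hz : z ∈ C
  · obtain ⟨v, hv, w, hw, rfl⟩ := AddSubgroup.mem_sup.1 hz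
    obtain ⟨a, ha, rfl⟩ := hw
    refine ⟨v, hv, _, ?_, rfl⟩
    have e : ν⁻¹ * (AddMonoidHom.mulLeft ν) a = a := by
      change ν⁻¹ * (ν * a) = a
      rw [inv_mul_cancel_left₀ hν]
    rw [e]
    exact ha
  · exfalso
    have hz' : ((z : F) : F ⧸ C) ≠ 0 := by
      rwa [Ne, QuotientAddGroup.eq_zero_iff]
    obtain ⟨ψ₀, hψ₀⟩ := AddChar.exists_apply_ne_zero.2 hz'
    let ψ : AddChar F ℂ := ψ₀.compAddMonoidHom (QuotientAddGroup.mk' C)
    have htriv : ∀ x ∈ C, ψ x = 1 := by
      intro x hx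
      have h1 : QuotientAddGroup.mk' C x = 0 := (QuotientAddGroup.eq_zero_iff x).2 hx
      change ψ₀ (QuotientAddGroup.mk' C x) = 1
      rw [h1, AddChar.map_zero_eq_one]
    have hψz : ψ z ≠ 1 := hψ₀
    have hψ1 : ψ ≠ 1 := by
      rintro h
      apply hψz
      rw [h, AddChar.one_apply]
    have hA : ∀ x ∈ A, ψ x = 1 := fun x hx => htriv x (AddSubgroup.mem_sup_left hx)
    have hA' : ∀ x ∈ A, AddChar.mulShift ψ ν x = 1 := by
      intro x hx
      rw [AddChar.mulShift_apply]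
      exact htriv _ (AddSubgroup.mem_sup_right ⟨x, hx, rfl⟩)
    refine hno ψ hψ1 hA ?_ hA'
    intro h
    apply hψ1
    ext y
    have := congrArg (fun χ : AddChar F ℂ => χ (ν⁻¹ * y)) h
    simpa [AddChar.mulShift_apply, mul_inv_cancel_left₀ hν] using this

/-- The characters trivial on a subgroup factor through the quotient. -/
noncomputable def liftChar (A : AddSubgroup F) (ψ : AddChar F ℂ) (h : ∀ x ∈ A, ψ x = 1) :
    AddChar (F ⧸ A) ℂ :=
  AddChar.toAddMonoidHomEquiv.symm (QuotientAddGroup.lift A ψ.toAddMonoidHom (by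
    intro x hx
    change Additive.ofMul (ψ x) = 0
    rw [h x hx]
    rfl))

theorem liftChar_coe (A : AddSubgroup F) (ψ : AddChar F ℂ) (h : ∀ x ∈ A, ψ x = 1) (z : F) :
    liftChar A ψ h (z : F ⧸ A) = ψ z := rfl

/-- The pure field statement: scalings of a proper non-zero subgroup violate distributivity. -/
theorem exists_config (A : AddSubgroup F) (hA1 : A ≠ ⊥) (hA2 : A ≠ ⊤) {n : ℕ} (hn : Odd n)
    (hq : Fintype.card F = 2 ^ n) :
    ∃ l₁ l₂ l₃ : F, l₁ ≠ 0 ∧ l₂ ≠ 0 ∧ l₃ ≠ 0 ∧ ∃ u v w : F, l₁⁻¹ * u ∈ A ∧ l₂⁻¹ * v ∈ A ∧ l₃⁻¹ * w ∈ A ∧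
      u = v + w ∧ ∀ g h : F, l₁⁻¹ * g ∈ A → l₂⁻¹ * g ∈ A → l₁⁻¹ * h ∈ A → l₃⁻¹ * h ∈ A → u ≠ g + h := by
  classical
  have hcard : Nat.card F = 2 ^ n := by rw [Nat.card_eq_fintype_card, hq]
  -- sizes
  have hmul : Nat.card (F ⧸ A) * Nat.card A = 2 ^ n := by
    rw [← hcard]
    exact (AddSubgroup.card_eq_card_quotient_mul_card_addSubgroup A).symm
  obtain ⟨k, hkn, hk⟩ := (Nat.dvd_prime_pow Nat.prime_two).1 (Dvd.intro_left _ hmul)
  have hc : Nat.card (F ⧸ A) = 2 ^ (n - k) := by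
    have h1 : Nat.card (F ⧸ A) * 2 ^ k = 2 ^ (n - k) * 2 ^ k := by
      rw [← pow_add, Nat.sub_add_cancel hkn, ← hmul, hk]
    exact Nat.eq_of_mul_eq_mul_right (by positivity) h1
  obtain ⟨a₀, ha₀, ha₀0⟩ : ∃ a₀ ∈ A, a₀ ≠ 0 := (AddSubgroup.bot_or_exists_ne_zero A).resolve_left hA1
  have hlam : ∀ l : F, l ≠ 1 → 1 + l ≠ 0 := by
    intro l hl h
    apply hl
    have := CharTwo.add_self_eq_zero (1 : F)
    linear_combination h - this
  have hsplit : ∀ (l x : F), l * x + (1 + l) * x = x := by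
    intro l x
    have := CharTwo.add_self_eq_zero (l * x)
    linear_combination this
  have hnk : 2 * k ≠ n := by
    rintro rfl
    exact (Nat.not_even_iff_odd.2 hn) (even_two_mul k)
  rcases Nat.lt_or_gt_of_ne hnk with hlt | hgt
  · -- small subgroups
    let A₀ : Finset F := Finset.univ.filter (fun x => x ∈ A ∧ x ≠ 0)
    have hA₀ : A₀.card + 1 = Nat.card A := by
      have h1 : Nat.card A = (Finset.univ.filter (fun x => x ∈ A)).card := by
        rw [Nat.card_eq_fintype_card, Fintype.card_subtype]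
      have h2 : Finset.univ.filter (fun x => x ∈ A) = insert 0 A₀ := by
        ext x
        simp only [Finset.mem_filter, Finset.mem_univ, true_and, Finset.mem_insert, A₀]
        constructor
        · intro h
          by_cases h0 : x = 0
          · exact Or.inl h0
          · exact Or.inr ⟨h, h0⟩
        · rintro (rfl | h)
          · exact A.zero_mem
          · exact h.1
      rw [h1, h2, Finset.card_insert_of_notMem]
      simp [A₀]
    have ha₀' : a₀ ∈ A₀ := by
      simp [A₀, ha₀, ha₀0]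
    have hpos : 1 ≤ A₀.card := Finset.card_pos.2 ⟨a₀, ha₀'⟩
    let D : Finset F := Finset.image₂ (fun x y => x / y) A₀ A₀
    have hD : D.card ≤ A₀.card * A₀.card := Finset.card_image₂_le _ _ _
    have hbound : 2 * (A₀.card + 1) * (A₀.card + 1) ≤ 2 ^ n := by
      rw [hA₀, hk]
      calc 2 * 2 ^ k * 2 ^ k = 2 ^ (2 * k + 1) := by ring
        _ ≤ 2 ^ n := Nat.pow_le_pow_right (by norm_num) hlt
    have hlt2 : 2 * D.card + 2 < Fintype.card F := by
      rw [hq]
      nlinarith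
    obtain ⟨l, hl0, hl1, hlD, hlD'⟩ := exists_avoid D hlt2
    have hlam0 := hlam l hl1
    have htriv : ∀ d : F, d ≠ 0 → d ∉ D → ∀ g : F, g ∈ A → d⁻¹ * g ∈ A → g = 0 := by
      intro d hd hdD g hg hg'
      by_contra h0
      apply hdD
      refine Finset.mem_image₂.2 ⟨g, ?_, d⁻¹ * g, ?_, ?_⟩
      · simp [A₀, hg, h0]
      · simp [A₀, hg', h0, hd]
      · field_simp
    refine ⟨1, l, 1 + l, one_ne_zero, hl0, hlam0, a₀, l * a₀, (1 + l) * a₀, ?_, ?_, ?_, ?_, ?_⟩
    · simpa using ha₀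
    · rw [inv_mul_cancel_left₀ hl0]
      exact ha₀
    · rw [inv_mul_cancel_left₀ hlam0]
      exact ha₀
    · exact (hsplit l a₀).symm
    · intro g h g1 g2 h1 h3
      simp only [inv_one, one_mul] at g1 h1
      rw [htriv l hl0 hlD g g1 g2, htriv (1 + l) hlam0 hlD' h h1 h3, add_zero]
      exact ha₀0
  · -- large subgroups
    let T : Finset (AddChar F ℂ) := Finset.univ.filter (fun ψ => ∀ x ∈ A, ψ x = 1)
    have h1T : (1 : AddChar F ℂ) ∈ T := by
      simp [T]
    let B : Finset (AddChar F ℂ) := T.erase 1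
    have hB : B.card + 1 = T.card := Finset.card_erase_add_one h1T
    have hTle : T.card ≤ Nat.card (F ⧸ A) := by
      letI : Fintype (F ⧸ A) := Fintype.ofFinite _
      rw [Nat.card_eq_fintype_card, ← AddChar.card_eq, ← Finset.card_univ]
      refine Finset.card_le_card_of_injOn
        (fun ψ => if h : ∀ x ∈ A, ψ x = 1 then liftChar A ψ h else 1) (fun _ _ => Finset.mem_univ _) ?_
      intro ψ hψ ψ' hψ' h
      have h1 : ∀ x ∈ A, ψ x = 1 := (Finset.mem_filter.1 hψ).2
      have h2 : ∀ x ∈ A, ψ' x = 1 := (Finset.mem_filter.1 hψ').2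
      simp only [dif_pos h1, dif_pos h2] at h
      ext z
      have := congrArg (fun χ : AddChar (F ⧸ A) ℂ => χ (z : F ⧸ A)) h
      exact this
    -- the bad scalars
    let gg : AddChar F ℂ × AddChar F ℂ → F := fun P =>
      if h : ∃ ν : F, AddChar.mulShift P.1 ν = P.2 then h.choose else 0
    let D₀ : Finset F := (B ×ˢ B).image gg
    let D : Finset F := D₀.image (fun x => x⁻¹)
    have hD : D.card ≤ B.card * B.card := by
      calc D.card ≤ D₀.card := Finset.card_image_le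
        _ ≤ (B ×ˢ B).card := Finset.card_image_le
        _ = B.card * B.card := Finset.card_product _ _
    have hb1 : Nat.card (F ⧸ A) * Nat.card (F ⧸ A) * 2 ≤ 2 ^ n := by
      rw [hc]
      calc 2 ^ (n - k) * 2 ^ (n - k) * 2 = 2 ^ (2 * (n - k) + 1) := by ring
        _ ≤ 2 ^ n := Nat.pow_le_pow_right (by norm_num) (by omega)
    have hlt2 : 2 * D.card + 2 < Fintype.card F := by
      rw [hq]
      have h2 : B.card + 1 ≤ Nat.card (F ⧸ A) := by omega
      have h3 : (B.card + 1) * (B.card + 1) * 2 ≤ 2 ^ n :=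
        (Nat.mul_le_mul_right 2 (Nat.mul_le_mul h2 h2)).trans hb1
      have h4 : 1 ≤ Nat.card (F ⧸ A) := Nat.card_pos
      have h5 : 2 ≤ 2 ^ n := by
        have : n ≠ 0 := by
          rintro rfl
          simp at hn
        calc 2 = 2 ^ 1 := by norm_num
          _ ≤ 2 ^ n := Nat.pow_le_pow_right (by norm_num) (by omega)
      -- a non-trivial character exists, since the subgroup is proper
      have hBpos : 1 ≤ B.card := by
        obtain ⟨y, hy⟩ : ∃ y : F, y ∉ A := by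
          by_contra hall
          push Not at hall
          exact hA2 ((AddSubgroup.eq_top_iff' A).2 hall)
        have hy' : ((y : F) : F ⧸ A) ≠ 0 := by
          rwa [Ne, QuotientAddGroup.eq_zero_iff]
        obtain ⟨ψ₀, hψ₀⟩ := AddChar.exists_apply_ne_zero.2 hy'
        let ψ : AddChar F ℂ := ψ₀.compAddMonoidHom (QuotientAddGroup.mk' A)
        have hψ : ψ ∈ B := by
          refine Finset.mem_erase.2 ⟨?_, Finset.mem_filter.2 ⟨Finset.mem_univ _, ?_⟩⟩
          · rintro h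
            apply hψ₀
            have := congrArg (fun χ : AddChar F ℂ => χ y) h
            simpa [ψ] using this
          · intro x hx
            have h1 : QuotientAddGroup.mk' A x = 0 := (QuotientAddGroup.eq_zero_iff x).2 hx
            change ψ₀ (QuotientAddGroup.mk' A x) = 1
            rw [h1, AddChar.map_zero_eq_one]
        exact Finset.card_pos.2 ⟨ψ, hψ⟩
      nlinarith
    obtain ⟨l, hl0, hl1, hlD, hlD'⟩ := exists_avoid D hlt2
    have hlam0 := hlam l hl1
    -- the sum property for a scalar outside the bad set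
    have hsum : ∀ ν : F, ν ≠ 0 → ν ∉ D₀ → ∀ z : F, ∃ v ∈ A, ∃ w : F, ν⁻¹ * w ∈ A ∧ z = v + w := by
      intro ν hν hνD
      refine sum_of_no_char A hν ?_
      intro ψ hψ1 hψA hψ'1 hψ'A
      apply hνD
      have hmem : ψ ∈ B := Finset.mem_erase.2 ⟨hψ1, Finset.mem_filter.2 ⟨Finset.mem_univ _, hψA⟩⟩
      have hmem' : AddChar.mulShift ψ ν ∈ B :=
        Finset.mem_erase.2 ⟨hψ'1, Finset.mem_filter.2 ⟨Finset.mem_univ _, hψ'A⟩⟩
      refine Finset.mem_image.2 ⟨(ψ, AddChar.mulShift ψ ν), Finset.mem_product.2 ⟨hmem, hmem'⟩, ?_⟩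
      have hex : ∃ ν' : F, AddChar.mulShift ψ ν' = AddChar.mulShift ψ ν := ⟨ν, rfl⟩
      change (if h : ∃ ν' : F, AddChar.mulShift ψ ν' = AddChar.mulShift ψ ν then h.choose else 0) = ν
      rw [dif_pos hex]
      exact mulShift_inj hψ1 hex.choose_spec
    have hnotD : ∀ d : F, d ∉ D → d⁻¹ ∉ D₀ := by
      intro d hd h
      apply hd
      exact Finset.mem_image.2 ⟨d⁻¹, h, inv_inv d⟩
    have hsum₂ := hsum l⁻¹ (inv_ne_zero hl0) (hnotD l hlD)
    have hsum₃ := hsum (1 + l)⁻¹ (inv_ne_zero hlam0) (hnotD _ hlD')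
    simp only [inv_inv] at hsum₂ hsum₃
    obtain ⟨z, hz1, hz2⟩ : ∃ z : F, l * z ∈ A ∧ z ∉ A := by
      by_contra hall
      push Not at hall
      obtain ⟨y, hy⟩ : ∃ y : F, y ∉ A := by
        by_contra hall'
        push Not at hall'
        exact hA2 ((AddSubgroup.eq_top_iff' A).2 hall')
      obtain ⟨v, hv, w, hw, rfl⟩ := hsum₂ y
      exact hy (A.add_mem hv (hall w hw))
    obtain ⟨v, hv, w, hw, hzvw⟩ := hsum₃ z
    refine ⟨l⁻¹, 1, (1 + l)⁻¹, inv_ne_zero hl0, one_ne_zero, inv_ne_zero hlam0, z, v, w, ?_, ?_, ?_,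
      hzvw, ?_⟩
    · rw [inv_inv]
      exact hz1
    · simpa using hv
    · rw [inv_inv]
      exact hw
    · intro g h g1 g2 h1 h3
      rw [inv_inv] at g1 h1
      rw [inv_inv] at h3
      simp only [inv_one, one_mul] at g2
      intro heq
      apply hz2
      rw [heq]
      refine A.add_mem g2 ?_
      rw [← hsplit l h]
      exact A.add_mem h1 h3

end field

section group

variable {F : Type*} [Field F] [Fintype F] {m : ℕ} [CharP F 2] [SzHyp F m]

theorem conj_hh_tt (α : Fˣ) (x : F) :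
    ((hh α)⁻¹ * tt 0 x * hh α : Sz F m) = tt 0 ((phi m (α : F) * α)⁻¹ * x) := by
  rw [hh_inv, hh_mul_tt, mul_assoc, hh_mul, inv_mul_cancel, hh_one, mul_one, mul_zero]
  congr 1
  have h1 : phi m ((α⁻¹ : Fˣ) : F) = (phi m (α : F))⁻¹ := by
    simp [phi]
  rw [h1, mul_inv, Units.val_inv_eq_inv_val]

/-- A proper non-trivial subgroup of the centre of the Sylow subgroup is not binary. -/
theorem witness_sub_Z {H : Subgroup (Sz F m)} (hZ : ∀ x ∈ H, ∃ b : F, x = tt 0 b) (hne : H ≠ ⊥)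
    (hnZ : ¬ ∀ b : F, (tt 0 b : Sz F m) ∈ H) : Witness H := by
  let A : AddSubgroup F :=
    { carrier := {b | (tt 0 b : Sz F m) ∈ H}
      zero_mem' := by
        change (tt 0 0 : Sz F m) ∈ H
        rw [tt_zero]
        exact H.one_mem
      add_mem' := by
        intro a b ha hb
        change (tt 0 (a + b) : Sz F m) ∈ H
        have := H.mul_mem ha hb
        rw [tt_mul] at this
        simpa [phi_zero] using this
      neg_mem' := by
        intro a ha
        change (tt 0 (-a) : Sz F m) ∈ H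
        rw [CharTwo.neg_eq]
        exact ha }
  have hAm : ∀ b, b ∈ A ↔ (tt 0 b : Sz F m) ∈ H := fun b => Iff.rfl
  have hA1 : A ≠ ⊥ := by
    rintro hA
    apply hne
    rw [Subgroup.eq_bot_iff_forall]
    intro x hx
    obtain ⟨b, rfl⟩ := hZ x hx
    have : b ∈ A := hx
    rw [hA, AddSubgroup.mem_bot] at this
    rw [this, tt_zero]
  have hA2 : A ≠ ⊤ := by
    rintro hA
    apply hnZ
    intro b
    have : b ∈ A := by
      rw [hA]
      exact AddSubgroup.mem_top b
    exact this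
  obtain ⟨l₁, l₂, l₃, h1, h2, h3, u, v, w, hu, hv, hw, huvw, hno⟩ :=
    exists_config A hA1 hA2 (n := 2 * m + 1) ⟨m, rfl⟩ card_F
  have hunit : ∀ l : F, l ≠ 0 → ∃ α : Fˣ, phi m (α : F) * α = l := by
    intro l hl
    obtain ⟨a, ha⟩ := lam_surj (m := m) l
    have ha0 : a ≠ 0 := by
      rintro rfl
      rw [phi_zero, zero_mul] at ha
      exact hl ha.symm
    exact ⟨Units.mk0 a ha0, ha⟩
  obtain ⟨α₁, ha₁⟩ := hunit l₁ h1
  obtain ⟨α₂, ha₂⟩ := hunit l₂ h2
  obtain ⟨α₃, ha₃⟩ := hunit l₃ h3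
  have hform : ∀ (α : Fˣ) (g : Sz F m), (hh α)⁻¹ * g * hh α ∈ H →
      ∃ b : F, g = tt 0 b ∧ (phi m (α : F) * α)⁻¹ * b ∈ A := by
    intro α g hg
    obtain ⟨c, hc⟩ := hZ _ hg
    have hle : phi m (α : F) * α ≠ 0 := by
      refine mul_ne_zero ?_ (Units.ne_zero _)
      simp [phi]
    refine ⟨phi m (α : F) * α * c, ?_, ?_⟩
    · have e1 := conj_hh_tt (m := m) α (phi m (α : F) * α * c)
      rw [inv_mul_cancel_left₀ hle, ← hc] at e1
      have e2 : (hh α)⁻¹ * tt 0 (phi m (α : F) * α * c) * hh α = (hh α)⁻¹ * g * hh α := e1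
      exact (mul_left_cancel (mul_right_cancel e2)).symm
    · rw [inv_mul_cancel_left₀ hle, hAm, ← hc]
      exact hg
  refine ⟨hh α₁, hh α₂, hh α₃, tt 0 u, tt 0 v, tt 0 w, ?_, ?_, ?_, ?_, ?_⟩
  · rw [conj_hh_tt, ha₁]
    exact hu
  · rw [conj_hh_tt, ha₂]
    exact hv
  · rw [conj_hh_tt, ha₃]
    exact hw
  · rw [tt_mul, huvw]
    simp [phi_zero]
  · intro g h g1 g2 h1' h3' heq
    obtain ⟨b₁, rfl, hb₁⟩ := hform α₁ g g1
    obtain ⟨c₁, rfl, hc₁⟩ := hform α₁ h h1'
    rw [conj_hh_tt] at g2 h3'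
    rw [ha₁] at hb₁ hc₁
    rw [ha₂] at g2
    rw [ha₃] at h3'
    apply hno b₁ c₁ hb₁ g2 hc₁ h3'
    rw [tt_mul] at heq
    have := (tt_inj heq).2
    simpa [phi_zero] using this

end group

end Cfsg.Agent.Lib.SzBin
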