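/-
Binary coset actions of the Suzuki group: subgroups with involutions at two points.
-/
import Mathlib
import Cfsg.Agent.Lib.SzBinC
import Cfsg.Agent.Lib.SzTorusF
import Cfsg.Agent.Lib.SzTorusX

set_option autoImplicit false
set_option linter.unusedSectionVars false
set_option linter.unusedVariables false
set_option linter.unnecessarySimpa false
set_option linter.style.haveILetI false

namespace Cfsg.Agent.Lib.SzBin

open Cfsg Cfsg.Agent.Lib.SuzukiBasic Cfsg.Agent.Lib.Suzuki Cfsg.Agent.Lib.Suzuki2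
  Cfsg.Agent.Lib.Suzuki3 Cfsg.Agent.Lib.Suzuki4 Cfsg.Agent.Lib.SuzukiMax Cfsg.Agent.Lib.SzSub
  Cfsg.Agent.Lib.SzTorus
open Subgroup

variable {F : Type*} [Field F] [Fintype F] {m : ℕ} [CharP F 2] [SzHyp F m]

section subfield

variable (S : Subfield F)

/-- The points with coordinates in a subfield. -/
def RatPt (p : Om F m) : Prop := p = oInf F m ∨ ∃ x ∈ S, ∃ y ∈ S, p = oPt m x y

/-- The stabilizer of the rational points. -/
def ratStab : Subgroup (Sz F m) where
  carrier := {g | ∀ p : Om F m, RatPt S p ↔ RatPt S (g • p)}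
  one_mem' := by
    intro p
    rw [one_smul]
  mul_mem' := by
    intro a b ha hb p
    rw [mul_smul]
    exact (hb p).trans (ha _)
  inv_mem' := by
    intro a ha p
    have := ha (a⁻¹ • p)
    rw [smul_inv_smul] at this
    exact this.symm

theorem phi_mem {a : F} (ha : a ∈ S) : phi m a ∈ S := S.pow_mem ha _

theorem mem_ratStab_of {g : Sz F m} (h1 : ∀ p : Om F m, RatPt S p → RatPt S (g • p))
    (h2 : ∀ p : Om F m, RatPt S p → RatPt S (g⁻¹ • p)) : g ∈ ratStab S := by
  intro p
  refine ⟨h1 p, fun h => ?_⟩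
  have := h2 _ h
  rwa [inv_smul_smul] at this

theorem tt_rat {a b : F} (ha : a ∈ S) (hb : b ∈ S) (p : Om F m) (hp : RatPt S p) :
    RatPt S ((tt a b : Sz F m) • p) := by
  rcases hp with rfl | ⟨x, hx, y, hy, rfl⟩
  · left
    exact tt_smul_inf a b
  · right
    refine ⟨x + a, S.add_mem hx ha, y + b + phi m a * x,
      S.add_mem (S.add_mem hy hb) (S.mul_mem (phi_mem S ha) hx), tt_smul_pt a b x y⟩

theorem hh_rat {α : Fˣ} (ha : (α : F) ∈ S) (p : Om F m) (hp : RatPt S p) :
    RatPt S ((hh α : Sz F m) • p) := by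
  rcases hp with rfl | ⟨x, hx, y, hy, rfl⟩
  · left
    exact hh_smul_inf α
  · right
    refine ⟨α * x, S.mul_mem ha hx, phi m (α : F) * α * y,
      S.mul_mem (S.mul_mem (phi_mem S ha) ha) hy, hh_smul_pt α x y⟩

theorem fn_mem {x y : F} (hx : x ∈ S) (hy : y ∈ S) : fn m x y ∈ S := by
  unfold fn
  exact S.add_mem (S.add_mem (S.mul_mem hx hy) (S.pow_mem hx _)) (S.pow_mem hy _)

theorem ww_rat (p : Om F m) (hp : RatPt S p) : RatPt S ((ww : Sz F m) • p) := by
  rcases hp with rfl | ⟨x, hx, y, hy, rfl⟩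
  · right
    refine ⟨0, S.zero_mem, 0, S.zero_mem, ?_⟩
    rw [ww_smul_inf, oPt_zero]
  · by_cases h0 : x = 0 ∧ y = 0
    · left
      rw [h0.1, h0.2, oPt_zero, ww_smul_zero]
    · have hf : fn m x y ≠ 0 := by
        apply fn_ne_zero
        by_contra hc
        push Not at hc
        exact h0 hc
      right
      refine ⟨y / fn m x y, S.div_mem hy (fn_mem S hx hy), x / fn m x y,
        S.div_mem hx (fn_mem S hx hy), ww_smul_pt hf⟩

theorem le_ratStab {M : Subgroup (Sz F m)} (hW : (ww : Sz F m) ∈ M) {b₀ b₁ : F}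
    (hb₀ : b₀ ≠ 0) (hb₁ : b₁ ≠ 0) (hne : b₀ ≠ b₁) (h0 : (tt 0 b₀ : Sz F m) ∈ M)
    (h1 : (tt 0 b₁ : Sz F m) ∈ M) (hS : ∀ a b : F, (tt a b : Sz F m) ∈ M ↔ a ∈ S ∧ b ∈ S) :
    M ≤ ratStab S := by
  refine le_of_gens hW hb₀ hb₁ hne h0 h1 hS ?_ ?_ ?_
  · intro a ha b hb
    refine mem_ratStab_of S (tt_rat S ha hb) ?_
    rw [tt_inv]
    exact tt_rat S ha (S.add_mem hb (S.mul_mem (phi_mem S ha) ha))
  · intro α hα
    refine mem_ratStab_of S (hh_rat S hα) ?_
    rw [hh_inv]
    refine hh_rat S ?_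
    rw [Units.val_inv_eq_inv_val]
    exact S.inv_mem hα
  · refine mem_ratStab_of S (ww_rat S) ?_
    rw [ww_inv]
    exact ww_rat S

theorem scale_zero {α : Fˣ} (hα : (α : F) ∉ S) (hc : phi m (α : F) * α ∉ S) {x y : F}
    (h1 : RatPt S (oPt m x y)) (h2 : RatPt S ((hh α : Sz F m)⁻¹ • oPt m x y)) : x = 0 ∧ y = 0 := by
  have hx : x ∈ S ∧ y ∈ S := by
    rcases h1 with h | ⟨x', hx', y', hy', h⟩
    · exact absurd h (oPt_ne_inf _ _)
    · obtain ⟨rfl, rfl⟩ := oPt_inj h
      exact ⟨hx', hy'⟩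
  rw [hh_inv, hh_smul_pt] at h2
  have hy : ((α⁻¹ : Fˣ) : F) * x ∈ S ∧ phi m ((α⁻¹ : Fˣ) : F) * ((α⁻¹ : Fˣ) : F) * y ∈ S := by
    rcases h2 with h | ⟨x', hx', y', hy', h⟩
    · exact absurd h (oPt_ne_inf _ _)
    · obtain ⟨e1, e2⟩ := oPt_inj h
      rw [e1, e2]
      exact ⟨hx', hy'⟩
  constructor
  · by_contra h0
    apply hα
    have h3 : ((α⁻¹ : Fˣ) : F) ∈ S := by
      have e : ((α⁻¹ : Fˣ) : F) = ((α⁻¹ : Fˣ) : F) * x * x⁻¹ := by
        rw [mul_assoc, mul_inv_cancel₀ h0, mul_one]
      rw [e]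
      exact S.mul_mem hy.1 (S.inv_mem hx.1)
    have := S.inv_mem h3
    rwa [Units.val_inv_eq_inv_val, inv_inv] at this
  · by_contra h0
    apply hc
    have h3 : phi m ((α⁻¹ : Fˣ) : F) * ((α⁻¹ : Fˣ) : F) ∈ S := by
      have e : phi m ((α⁻¹ : Fˣ) : F) * ((α⁻¹ : Fˣ) : F) =
          phi m ((α⁻¹ : Fˣ) : F) * ((α⁻¹ : Fˣ) : F) * y * y⁻¹ := by
        rw [mul_assoc _ y, mul_inv_cancel₀ h0, mul_one]
      rw [e]
      exact S.mul_mem hy.2 (S.inv_mem hx.2)
    have := S.inv_mem h3
    have h4 : phi m ((α⁻¹ : Fˣ) : F) = (phi m (α : F))⁻¹ := by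
      simp [phi]
    rw [h4, Units.val_inv_eq_inv_val, mul_inv, inv_inv, inv_inv] at this
    exact this

theorem rat_inf : RatPt (m := m) S (oInf F m) := Or.inl rfl

theorem rat_zero : RatPt (m := m) S (oZero F m) :=
  Or.inr ⟨0, S.zero_mem, 0, S.zero_mem, oPt_zero.symm⟩

/-- Elements in the intersection of a subfield group with a generic conjugate. -/
theorem fix_pts {M : Subgroup (Sz F m)} (hM : M ≤ ratStab S) {α : Fˣ} (hα : (α : F) ∉ S)
    (hc : phi m (α : F) * α ∉ S) {g : Sz F m} (hg : g ∈ M) (hg' : (hh α)⁻¹ * g * hh α ∈ M) :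
    (∃ γ : Fˣ, g = hh γ) ∨ g • oInf F m = oZero F m := by
  rcases om_cases (g • oInf F m) with h | ⟨x, y, h⟩
  · left
    obtain ⟨a, b, γ, rfl⟩ := stab_inf h
    have h1 : RatPt S ((tt a b * hh γ : Sz F m) • oZero F m) := (hM hg _).1 (rat_zero S)
    have h2 : RatPt S (((hh α)⁻¹ * (tt a b * hh γ) * hh α : Sz F m) • oZero F m) :=
      (hM hg' _).1 (rat_zero S)
    have e1 : (tt a b * hh γ : Sz F m) • oZero F m = oPt m a b := by
      rw [mul_smul, hh_smul_zero, tt_smul_zero]
    have e2 : ((hh α)⁻¹ * (tt a b * hh γ) * hh α : Sz F m) • oZero F m =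
        (hh α : Sz F m)⁻¹ • oPt m a b := by
      rw [mul_smul, hh_smul_zero, mul_smul, e1]
    rw [e1] at h1
    rw [e2] at h2
    obtain ⟨rfl, rfl⟩ := scale_zero S hα hc h1 h2
    exact ⟨γ, by rw [tt_zero, one_mul]⟩
  · right
    have h1 : RatPt S (g • oInf F m) := (hM hg _).1 (rat_inf S)
    have h2 : RatPt S (((hh α)⁻¹ * g * hh α : Sz F m) • oInf F m) := (hM hg' _).1 (rat_inf S)
    have e2 : ((hh α)⁻¹ * g * hh α : Sz F m) • oInf F m = (hh α : Sz F m)⁻¹ • oPt m x y := by
      rw [mul_smul, hh_smul_inf, mul_smul, h]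
    rw [h] at h1
    rw [e2] at h2
    obtain ⟨rfl, rfl⟩ := scale_zero S hα hc h1 h2
    rw [h, oPt_zero]

end subfield

/-- Subgroups with many involutions at a point and involutions elsewhere are not binary. -/
theorem witness_subfield {M : Subgroup (Sz F m)} (hMt : M ≠ ⊤) (hW : (ww : Sz F m) ∈ M) {b₀ b₁ : F}
    (hb₀ : b₀ ≠ 0) (hb₁ : b₁ ≠ 0) (hne : b₀ ≠ b₁) (h0 : (tt 0 b₀ : Sz F m) ∈ M)
    (h1 : (tt 0 b₁ : Sz F m) ∈ M) : Witness M := by
  classical
  obtain ⟨S, hS⟩ := exists_subfield_struct hW hb₀ hb₁ hne h0 h1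
  have hStop : S ≠ ⊤ := by
    rintro rfl
    apply hMt
    apply eq_top_of_Tsub_le (g0 := ww) _ hW
    · intro h
      have h2 : (ww : Sz F m) • oInf F m = oInf F m := Subtype.ext h
      rw [ww_smul_inf] at h2
      exact oZero_ne_inf h2
    · rintro _ ⟨a, b, rfl⟩
      exact (hS a b).2 ⟨Subfield.mem_top _, Subfield.mem_top _⟩
  have hMR := le_ratStab S hW hb₀ hb₁ hne h0 h1 hS
  obtain ⟨β, hβ⟩ : ∃ β : F, β ∉ S := by
    by_contra hall
    push Not at hall
    apply hStop
    ext x
    simp [hall x]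
  have hβ1 : 1 + β ∉ S := by
    intro h
    apply hβ
    have e : β = 1 + β + 1 := by
      have := CharTwo.add_self_eq_zero (1 : F)
      linear_combination -this
    rw [e]
    exact S.add_mem h S.one_mem
  have hunit : ∀ l : F, l ∉ S → ∃ α : Fˣ, phi m (α : F) * α = l ∧ (α : F) ∉ S := by
    intro l hl
    obtain ⟨a, ha⟩ := lam_surj (m := m) l
    have ha0 : a ≠ 0 := by
      rintro rfl
      rw [phi_zero, zero_mul] at ha
      rw [← ha] at hl
      exact hl S.zero_mem
    refine ⟨Units.mk0 a ha0, ha, ?_⟩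
    intro h
    apply hl
    rw [← ha]
    exact S.mul_mem (phi_mem S h) h
  obtain ⟨α₂, hc₂, hα₂⟩ := hunit β hβ
  obtain ⟨α₃, hc₃, hα₃⟩ := hunit (1 + β) hβ1
  have hcs₂ : phi m (α₂ : F) * α₂ ∉ S := by rwa [hc₂]
  have hcs₃ : phi m (α₃ : F) * α₃ ∉ S := by rwa [hc₃]
  have ht : (tt 0 1 : Sz F m) ∈ M := (hS 0 1).2 ⟨S.zero_mem, S.one_mem⟩
  have hβ0 : β ≠ 0 := by
    rintro rfl
    exact hβ S.zero_mem
  have hβ10 : 1 + β ≠ 0 := by
    intro h
    rw [h] at hβ1
    exact hβ1 S.zero_mem
  refine ⟨1, hh α₂, hh α₃, tt 0 1, tt 0 β, tt 0 (1 + β), by simpa using ht, ?_, ?_, ?_, ?_⟩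
  · rw [conj_hh_tt, hc₂, inv_mul_cancel₀ hβ0]
    exact ht
  · rw [conj_hh_tt, hc₃, inv_mul_cancel₀ hβ10]
    exact ht
  · rw [tt_mul]
    congr 1
    · simp
    · have := CharTwo.add_self_eq_zero β
      simp only [phi_zero, zero_mul, add_zero]
      linear_combination -this
  · intro g h g1 g2 h1' h3 heq
    have g1' : g ∈ M := by simpa using g1
    have h1'' : h ∈ M := by simpa using h1'
    have hte : (tt 0 1 : Sz F m) • oZero F m ≠ oZero F m := by
      rw [tt_smul_zero, ← oPt_zero]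
      intro h5
      exact one_ne_zero (oPt_inj h5).2
    have htI : (tt 0 1 : Sz F m) • oInf F m = oInf F m := tt_smul_inf _ _
    have hinv : (hh α₃)⁻¹ * h⁻¹ * hh α₃ ∈ M := by
      have := M.inv_mem h3
      have e : ((hh α₃)⁻¹ * h * hh α₃)⁻¹ = (hh α₃)⁻¹ * h⁻¹ * hh α₃ := by group
      rwa [e] at this
    rcases fix_pts S hMR hα₃ hcs₃ h1'' h3 with ⟨γ, rfl⟩ | hI
    · -- `h` is diagonal
      have hgI : g • oInf F m = oInf F m := by
        have := htI
        rw [heq, mul_smul, hh_smul_inf] at this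
        exact this
      rcases fix_pts S hMR hα₂ hcs₂ g1' g2 with ⟨γ', rfl⟩ | h5
      · apply hte
        rw [heq, mul_smul, hh_smul_zero, hh_smul_zero]
      · rw [hgI] at h5
        exact oZero_ne_inf h5.symm
    · -- `h` moves the point
      have hh0 : h • oZero F m = oInf F m := by
        rcases fix_pts S hMR hα₃ hcs₃ (M.inv_mem h1'') hinv with ⟨γ, h5⟩ | h5
        · exfalso
          have e : h = hh γ⁻¹ := by
            rw [← hh_inv, ← h5, inv_inv]
          rw [e, hh_smul_inf] at hI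
          exact oZero_ne_inf hI.symm
        · rw [inv_smul_eq_iff] at h5
          exact h5.symm
      have hg0 : g • oZero F m = oInf F m := by
        have := htI
        rw [heq, mul_smul, hI] at this
        exact this
      rcases fix_pts S hMR hα₂ hcs₂ g1' g2 with ⟨γ', rfl⟩ | h5
      · rw [hh_smul_zero] at hg0
        exact oZero_ne_inf hg0
      · apply hte
        rw [heq, mul_smul, hh0, h5]

/-- Subgroups with one involution at a point and involutions elsewhere are not binary. -/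
theorem witness_single {M : Subgroup (Sz F m)} (hW : (ww : Sz F m) ∈ M) {b₀ : F} (hb₀ : b₀ ≠ 0)
    (h0 : (tt 0 b₀ : Sz F m) ∈ M) (huniq : ∀ b : F, b ≠ 0 → (tt 0 b : Sz F m) ∈ M → b = b₀) :
    Witness M := by
  classical
  letI : Fintype (Sz F m) := Fintype.ofFinite _
  obtain ⟨U, hU, hle⟩ := single_case hW hb₀ h0 huniq
  set t : Sz F m := tt 0 b₀ with ht
  have ht2 : orderOf t = 2 := orderOf_tt_zero hb₀
  have hinvol : ∀ {x : Sz F m}, x * x = 1 → x ≠ 1 → orderOf x = 2 := by
    intro x h1 h2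
    apply orderOf_eq_prime (p := 2)
    · rw [pow_two]; exact h1
    · exact h2
  -- products of two involutions lie in the torus
  have hprod : ∀ x ∈ M, ∀ y ∈ M, x * x = 1 → x ≠ 1 → y * y = 1 → y ≠ 1 → x * y ∈ U := by
    intro x hx y hy hx2 hx1 hy2 hy1
    obtain ⟨y₀, hy₀, hy₀1⟩ := hU.exists_ne_one
    refine hU.centralizer_le hy₀ hy₀1 (mem_centralizer_singleton_iff.2 ?_)
    have h1 := invol_inverts hU (hinvol hx2 hx1) (hle hx) hy₀
    have h2 := invol_inverts hU (hinvol hy2 hy1) (hle hy) hy₀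
    have hxinv : x⁻¹ = x := inv_eq_of_mul_eq_one_left hx2
    have hyinv : y⁻¹ = y := inv_eq_of_mul_eq_one_left hy2
    rw [hxinv] at h1
    rw [hyinv] at h2
    -- `x y` commutes with `y₀`
    have h3 : y * y₀ = y₀⁻¹ * y := by
      calc y * y₀ = (y * y₀ * y) * y := by rw [mul_assoc _ y y, hy2, mul_one]
        _ = y₀⁻¹ * y := by rw [h2]
    have h4 : x * y₀⁻¹ = y₀ * x := by
      have h5 : x * y₀ = y₀⁻¹ * x := by
        calc x * y₀ = (x * y₀ * x) * x := by rw [mul_assoc _ x x, hx2, mul_one]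
          _ = y₀⁻¹ * x := by rw [h1]
      have h6 : y₀ * (x * y₀) = x := by
        rw [h5]; group
      calc x * y₀⁻¹ = (y₀ * (x * y₀)) * y₀⁻¹ := by rw [h6]
        _ = y₀ * x := by group
    symm
    calc y₀ * (x * y) = (y₀ * x) * y := by rw [mul_assoc]
      _ = x * y₀⁻¹ * y := by rw [h4]
      _ = x * (y₀⁻¹ * y) := by rw [mul_assoc]
      _ = x * (y * y₀) := by rw [h3]
      _ = x * y * y₀ := by rw [mul_assoc]
  -- the other involutions
  let J : Finset (Sz F m) := Finset.univ.filter (fun x => x ∈ M ∧ x * x = 1 ∧ x ≠ 1 ∧ x ≠ t)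
  have hmemJ : ∀ {x}, x ∈ J ↔ x ∈ M ∧ x * x = 1 ∧ x ≠ 1 ∧ x ≠ t := by
    intro x
    simp [J]
  have ht1 : t ≠ 1 := by
    intro h
    rw [h, orderOf_one] at ht2
    omega
  have ht22 : t * t = 1 := tt_zero_mul_self _
  have hJI : ∀ {x}, x ∈ J → x • oInf F m ≠ oInf F m := by
    intro x hx h
    obtain ⟨h1, h2, h3, h4⟩ := hmemJ.1 hx
    obtain ⟨b, rfl⟩ := invol_inf h h2
    have hb : b ≠ 0 := by
      rintro rfl
      exact h3 tt_zero
    exact h4 (by rw [huniq b hb h1])
  -- the size of `J`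
  have hJU : J.card + 1 ≤ Nat.card U := by
    let UF : Finset (Sz F m) := Finset.univ.filter (fun x => x ∈ U)
    have hUF : Nat.card U = UF.card := by
      rw [Nat.card_eq_fintype_card, Fintype.card_subtype]
    have h1UF : (1 : Sz F m) ∈ UF := by
      simp [UF, U.one_mem]
    have h2 : J.card ≤ (UF.erase 1).card := by
      refine Finset.card_le_card_of_injOn (fun x => t * x) ?_ ?_
      · intro x hx
        obtain ⟨h1, h2, h3, h4⟩ := hmemJ.1 hx
        refine Finset.mem_erase.2 ⟨?_, ?_⟩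
        · intro h5
          apply h4
          have h6 : t⁻¹ = t := inv_eq_of_mul_eq_one_left ht22
          have := eq_inv_of_mul_eq_one_right h5
          rw [this, h6]
        · simp only [UF, Finset.mem_filter, Finset.mem_univ, true_and]
          exact hprod t h0 x h1 ht22 ht1 h2 h3
      · intro x _ y _ h
        exact mul_left_cancel h
    rw [hUF]
    have h3 := Finset.card_erase_add_one h1UF
    omega
  -- numerics
  obtain ⟨q, s, hq, hs, h8, h4s, h2s, hss, -, -⟩ := ar_base (hm_of F m)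
  have hqF : Fintype.card F = q := by rw [card_F (F := F) (m := m), hq]
  have hUle : Nat.card U ≤ q + s + 1 := by
    have h1 := hU.2
    simp only [Sset, Set.mem_insert_iff, Set.mem_singleton_iff] at h1
    rw [← hq, ← hs] at h1
    rcases h1 with h1 | h1 | h1
    · omega
    · rw [h1]
    · rw [h1]; omega
  have hJle : J.card ≤ q + s := by omega
  -- the bad elements
  let Bad : Fˣ → F → F → Prop := fun α a b =>
    ∃ x y : Sz F m, x ∈ J ∧ y ∈ J ∧ (tt a b * hh α) * x * (tt a b * hh α)⁻¹ = y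
  let W : Finset Fˣ := Finset.univ.filter (fun α => ∀ a b : F, Bad α a b)
  have hWcount : W.card * (q * q) ≤ J.card * J.card := by
    let ff : Fˣ × F × F → Sz F m × Sz F m := fun z =>
      if h : Bad z.1 z.2.1 z.2.2 then (h.choose, h.choose_spec.choose) else (1, 1)
    have hspec : ∀ (α : Fˣ) (a b : F), Bad α a b → (ff (α, a, b)).1 ∈ J ∧ (ff (α, a, b)).2 ∈ J ∧
        (tt a b * hh α) * (ff (α, a, b)).1 * (tt a b * hh α)⁻¹ = (ff (α, a, b)).2 := by
      intro α a b hB
      have e : ff (α, a, b) = (hB.choose, hB.choose_spec.choose) := dif_pos hB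
      rw [e]
      exact hB.choose_spec.choose_spec
    have hcard : (W ×ˢ ((Finset.univ : Finset F) ×ˢ (Finset.univ : Finset F))).card = W.card * (q * q) := by
      rw [Finset.card_product, Finset.card_product, Finset.card_univ, hqF]
    rw [← hcard, ← Finset.card_product]
    refine Finset.card_le_card_of_injOn ff ?_ ?_
    · rintro ⟨α, a, b⟩ hz
      have hz1 : α ∈ W := (Finset.mem_product.1 hz).1
      have hB : Bad α a b := (Finset.mem_filter.1 hz1).2 a b
      have hs' := hspec α a b hB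
      exact Finset.mem_coe.2 (Finset.mem_product.2 ⟨hs'.1, hs'.2.1⟩)
    · rintro ⟨α, a, b⟩ hz ⟨α', a', b'⟩ hz' hf
      have hz1 : α ∈ W := (Finset.mem_product.1 hz).1
      have hz1' : α' ∈ W := (Finset.mem_product.1 hz').1
      have hB : Bad α a b := (Finset.mem_filter.1 hz1).2 a b
      have hB' : Bad α' a' b' := (Finset.mem_filter.1 hz1').2 a' b'
      obtain ⟨hx, hy, hk⟩ := hspec α a b hB
      obtain ⟨hx', hy', hk'⟩ := hspec α' a' b' hB'
      rw [← hf] at hk'
      set x := (ff (α, a, b)).1 with hxdef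
      set y := (ff (α, a, b)).2 with hydef
      -- the quotient commutes with `x`
      set k : Sz F m := tt a b * hh α with hkdef
      set k' : Sz F m := tt a' b' * hh α' with hk'def
      let c := k⁻¹ * k'
      have hc : c * x = x * c := by
        have h1 : k * x = y * k := by
          rw [← hk]; group
        have h2 : k' * x = y * k' := by
          rw [← hk']; group
        calc c * x = k⁻¹ * (k' * x) := by rw [mul_assoc]
          _ = k⁻¹ * (y * k') := by rw [h2]
          _ = (k⁻¹ * y) * k' := by rw [mul_assoc]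
          _ = (x * k⁻¹) * k' := by
            have h3 : k⁻¹ * y = x * k⁻¹ := by
              rw [inv_mul_eq_iff_eq_mul, ← mul_assoc, h1]
              group
            rw [h3]
          _ = x * c := by rw [mul_assoc]
      have hkI : k • oInf F m = oInf F m := by
        rw [hkdef, mul_smul, hh_smul_inf, tt_smul_inf]
      have hk'I : k' • oInf F m = oInf F m := by
        rw [hk'def, mul_smul, hh_smul_inf, tt_smul_inf]
      have hcI : c • oInf F m = oInf F m := by
        change (k⁻¹ * k') • oInf F m = oInf F m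
        rw [mul_smul, hk'I, inv_smul_eq_iff, hkI]
      obtain ⟨hxM, hx2, hx1, hxt⟩ := hmemJ.1 hx
      obtain ⟨p, hp⟩ := invol_exists_fix hx2
      have hxI := hJI hx
      have hcp : c • p = p := by
        have h1 : x • (c • p) = c • p := by
          rw [← mul_smul, ← hc, mul_smul, hp]
        exact invol_unique hx2 hx1 h1 hp
      have hcx : c • (x • oInf F m) = x • oInf F m := by
        rw [← mul_smul, hc, mul_smul, hcI]
      have hc1 : c = 1 := by
        apply eq_one_of_three (a := oInf F m) (b := x • oInf F m) (c := p) (Ne.symm hxI) ?_ ?_ hcI hcx hcp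
        · intro h
          have h1 : x • (x • oInf F m) = x • oInf F m := by rw [h, hp]
          rw [← mul_smul, hx2, one_smul] at h1
          exact hxI h1.symm
        · rintro rfl
          exact hxI hp
      have hkk : k = k' := by
        have h1 : k⁻¹ * k' = 1 := hc1
        rw [inv_mul_eq_one] at h1
        exact h1
      obtain ⟨h1, h2, h3⟩ := tt_hh_inj hkk
      rw [h1, h2, h3]
  have hW2 : W.card ≤ 2 := by
    by_contra hlt
    have h3 : 3 ≤ W.card := by omega
    have h1 : 3 * (q * q) ≤ J.card * J.card :=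
      (Nat.mul_le_mul_right _ h3).trans hWcount
    have h2 : J.card * J.card ≤ (q + s) * (q + s) := Nat.mul_le_mul hJle hJle
    nlinarith
  let D : Finset F := W.image (fun α : Fˣ => phi m (α : F) * (α : F))
  have hD : D.card ≤ 2 := le_trans (Finset.card_image_le (s := W)
    (f := fun α : Fˣ => phi m (α : F) * (α : F))) hW2
  obtain ⟨β, hβ0, hβ1, hβD, hβD'⟩ := exists_avoid D (by rw [hqF]; omega)
  have hβ10 : 1 + β ≠ 0 := by
    intro h
    apply hβ1
    have := CharTwo.add_self_eq_zero (1 : F)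
    linear_combination h - this
  have hunit : ∀ l : F, l ≠ 0 → ∃ α : Fˣ, phi m (α : F) * α = l := by
    intro l hl
    obtain ⟨a, ha⟩ := lam_surj (m := m) l
    have ha0 : a ≠ 0 := by
      rintro rfl
      rw [phi_zero, zero_mul] at ha
      exact hl ha.symm
    exact ⟨Units.mk0 a ha0, ha⟩
  obtain ⟨α₂, hc₂⟩ := hunit β hβ0
  obtain ⟨α₃, hc₃⟩ := hunit (1 + β) hβ10
  have hnot : ∀ (α : Fˣ), phi m (α : F) * α ∉ D → ∃ a b : F, ¬ Bad α a b := by
    intro α hα
    by_contra hall
    push Not at hall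
    apply hα
    exact Finset.mem_image.2 ⟨α, Finset.mem_filter.2 ⟨Finset.mem_univ _, hall⟩, rfl⟩
  obtain ⟨a₂, b₂, hB₂⟩ := hnot α₂ (by rwa [hc₂])
  obtain ⟨a₃, b₃, hB₃⟩ := hnot α₃ (by rwa [hc₃])
  -- triviality of the intersections
  have key : ∀ (α : Fˣ) (a b l : F), phi m (α : F) * α = l → l ≠ 1 → ¬ Bad α a b →
      ∀ g ∈ M, (tt a b * hh α)⁻¹ * g * (tt a b * hh α) ∈ M → g = 1 := by
    intro α a b l hl hl1 hB g hg hg'
    set k : Sz F m := tt a b * hh α with hk
    have hkt : k * t * k⁻¹ = tt 0 (l * b₀) := by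
      rw [hk, ht, conj_stab_tt, hl]
    have hkt1 : tt 0 (l * b₀) ≠ (t : Sz F m) := by
      intro h
      have := (tt_inj h).2
      apply hl1
      exact mul_right_cancel₀ hb₀ (by rw [this, one_mul])
    by_contra hg1
    by_cases hodd : Odd (orderOf g)
    · -- both lie in the torus, so `k` normalizes it
      have h1 : g ∈ U := hU.mem_of_normalizer (hle hg) hodd
      have h2 : k⁻¹ * g * k ∈ U := by
        refine hU.mem_of_normalizer (hle hg') ?_
        have := orderOf_conj_eq k⁻¹ g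
        rw [inv_inv] at this
        rw [this]
        exact hodd
      have h3 : g ∈ U.map (MulAut.conj k).toMonoidHom := mem_map_conj.2 h2
      have h4 := torus_unique hU (hU.conj k) hg1 h1 h3
      have h5 : k ∈ normalizer (U : Set (Sz F m)) := mem_normalizer_of_map_eq h4.symm
      -- the two involutions in the normalizer
      have h6 : k * t * k⁻¹ ∈ normalizer (U : Set (Sz F m)) :=
        (normalizer (U : Set (Sz F m))).mul_mem
          ((normalizer (U : Set (Sz F m))).mul_mem h5 (hle h0))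
          ((normalizer (U : Set (Sz F m))).inv_mem h5)
      rw [hkt] at h6
      -- their product is an involution in the normalizer, of even order
      have h7 : (tt 0 (l * b₀) : Sz F m) * t ∈ normalizer (U : Set (Sz F m)) :=
        (normalizer (U : Set (Sz F m))).mul_mem h6 (hle h0)
      have e : (tt 0 (l * b₀) : Sz F m) * t = tt 0 (l * b₀ + b₀) := by
        rw [ht, tt_mul]
        simp [phi_zero]
      rw [e] at h7
      have hne0 : l * b₀ + b₀ ≠ 0 := by
        intro h
        apply hl1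
        have h8 : (l + 1) * b₀ = 0 := by linear_combination h
        have h9 := (mul_eq_zero.1 h8).resolve_right hb₀
        have := CharTwo.add_self_eq_zero (1 : F)
        linear_combination h9 - this
      -- two involutions of the normalizer have product in the torus
      have hl0 : l ≠ 0 := by
        rw [← hl]
        exact mul_ne_zero (by simp [phi]) (Units.ne_zero _)
      have hv2 : orderOf (tt 0 (l * b₀) : Sz F m) = 2 := orderOf_tt_zero (mul_ne_zero hl0 hb₀)
      have h11 : orderOf (tt 0 (l * b₀ + b₀) : Sz F m) = 2 := orderOf_tt_zero hne0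
      -- the product of `v` and `t` inverts the torus twice, so it lies in the torus
      obtain ⟨y₀, hy₀, hy₀1⟩ := hU.exists_ne_one
      have h12 := invol_inverts hU hv2 h6 hy₀
      have h13 := invol_inverts hU ht2 (hle h0) hy₀
      have h14 := invol_inverts hU h11 h7 hy₀
      -- `w = v t` both inverts and centralizes `y₀`
      have e2 : (tt 0 (l * b₀ + b₀) : Sz F m) * y₀ * (tt 0 (l * b₀ + b₀) : Sz F m)⁻¹ = y₀ := by
        rw [← e]
        have e3 : (tt 0 (l * b₀) * t : Sz F m) * y₀ * (tt 0 (l * b₀) * t)⁻¹ =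
            tt 0 (l * b₀) * (t * y₀ * t⁻¹) * (tt 0 (l * b₀))⁻¹ := by group
        rw [e3, h13]
        have e4 : (tt 0 (l * b₀) : Sz F m) * y₀⁻¹ * (tt 0 (l * b₀))⁻¹ =
            (tt 0 (l * b₀) * y₀ * (tt 0 (l * b₀))⁻¹)⁻¹ := by group
        rw [e4, h12, inv_inv]
      rw [e2] at h14
      -- so `y₀ = y₀⁻¹`, contradicting odd order
      have h15 : y₀ * y₀ = 1 := by
        nth_rewrite 2 [h14]
        exact mul_inv_cancel y₀
      have h16 : orderOf y₀ ∣ 2 := orderOf_dvd_of_pow_eq_one (by rw [pow_two]; exact h15)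
      have h17 := hU.odd_orderOf hy₀
      have h18 : orderOf y₀ = 1 := by
        rcases (Nat.dvd_prime Nat.prime_two).1 h16 with h | h
        · exact h
        · rw [h] at h17
          exact absurd h17 (by decide)
      exact hy₀1 (orderOf_eq_one_iff.1 h18)
    · -- an involution in the intersection
      have heven : 2 ∣ orderOf g := even_iff_two_dvd.1 (Nat.not_odd_iff_even.1 hodd)
      set e := orderOf g / 2 with he
      have hy : orderOf (g ^ e) = 2 := orderOf_pow_orderOf_div (orderOf_pos g).ne' heven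
      set y := g ^ e with hydef
      have hy2 : y * y = 1 := by
        rw [← pow_two, ← hy]
        exact pow_orderOf_eq_one y
      have hy1 : y ≠ 1 := by
        intro h
        rw [h, orderOf_one] at hy
        omega
      have hyM : y ∈ M := M.pow_mem hg e
      set y' := k⁻¹ * y * k with hy'def
      have hy'M : y' ∈ M := by
        have e1 : y' = (k⁻¹ * g * k) ^ e := by
          rw [hy'def, hydef]
          have := conj_pow (a := k⁻¹) (b := g) (i := e)
          rw [inv_inv] at this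
          exact this.symm
        rw [e1]
        exact M.pow_mem hg' e
      have hy'2 : y' * y' = 1 := by
        have e1 : y' * y' = k⁻¹ * (y * y) * k := by rw [hy'def]; group
        rw [e1, hy2]
        group
      have hy'1 : y' ≠ 1 := by
        intro h
        apply hy1
        have e1 : y = k * y' * k⁻¹ := by rw [hy'def]; group
        rw [e1, h]
        group
      have hyy : k * y' * k⁻¹ = y := by rw [hy'def]; group
      by_cases h1 : y' = t
      · -- then `v` lies in `M`
        exfalso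
        rw [h1, hkt] at hyy
        rw [← hyy] at hyM
        have hl0 : l * b₀ ≠ 0 := by
          intro h
          rw [← hyy, h, tt_zero] at hy1
          exact hy1 rfl
        apply hkt1
        rw [huniq _ hl0 hyM]
      by_cases h2 : y = t
      · exfalso
        have hkI : k⁻¹ • oInf F m = oInf F m := by
          rw [inv_smul_eq_iff, hk, mul_smul, hh_smul_inf, tt_smul_inf]
        have h3 : y' • oInf F m = oInf F m := by
          rw [hy'def, mul_smul, mul_smul, h2, hk, mul_smul, hh_smul_inf, tt_smul_inf, ht, tt_smul_inf,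
            ← hk]
          exact hkI
        obtain ⟨c, hc⟩ := invol_inf h3 hy'2
        have hc0 : c ≠ 0 := by
          rintro rfl
          rw [tt_zero] at hc
          exact hy'1 hc
        rw [hc, huniq c hc0 (by rw [← hc]; exact hy'M)] at h1
        exact h1 rfl
      · exact hB ⟨y', y, hmemJ.2 ⟨hy'M, hy'2, hy'1, h1⟩, hmemJ.2 ⟨hyM, hy2, hy1, h2⟩, hyy⟩
  have hl₂ : β ≠ 1 := hβ1
  have hl₃ : 1 + β ≠ 1 := by
    intro h
    apply hβ0
    linear_combination h
  refine witness_of_trivial (a₂ := tt a₂ b₂ * hh α₂) (a₃ := tt a₃ b₃ * hh α₃)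
    (v := tt 0 (β * b₀)) (w := tt 0 ((1 + β) * b₀)) h0 ht1 ?_ ?_ ?_
    (key α₂ a₂ b₂ β hc₂ hl₂ hB₂) (key α₃ a₃ b₃ (1 + β) hc₃ hl₃ hB₃)
  · have e : (tt a₂ b₂ * hh α₂ : Sz F m) * t * (tt a₂ b₂ * hh α₂)⁻¹ = tt 0 (β * b₀) := by
      rw [ht, conj_stab_tt, hc₂]
    rw [← e]
    have e2 : (tt a₂ b₂ * hh α₂ : Sz F m)⁻¹ * ((tt a₂ b₂ * hh α₂) * t * (tt a₂ b₂ * hh α₂)⁻¹) *
        (tt a₂ b₂ * hh α₂) = t := by group
    rw [e2]
    exact h0
  · have e : (tt a₃ b₃ * hh α₃ : Sz F m) * t * (tt a₃ b₃ * hh α₃)⁻¹ = tt 0 ((1 + β) * b₀) := by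
      rw [ht, conj_stab_tt, hc₃]
    rw [← e]
    have e2 : (tt a₃ b₃ * hh α₃ : Sz F m)⁻¹ * ((tt a₃ b₃ * hh α₃) * t * (tt a₃ b₃ * hh α₃)⁻¹) *
        (tt a₃ b₃ * hh α₃) = t := by group
    rw [e2]
    exact h0
  · rw [ht, tt_mul]
    congr 1
    · simp
    · have := CharTwo.add_self_eq_zero (β * b₀)
      simp only [phi_zero, zero_mul, add_zero]
      linear_combination -this

end Cfsg.Agent.Lib.SzBin
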