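/-
Binary coset actions of the Suzuki group: subgroups of odd order.
-/
import Mathlib
import Cfsg.Agent.Lib.SzBinA
import Cfsg.Agent.Lib.SzCharF

set_option autoImplicit false
set_option linter.unusedSectionVars false
set_option linter.unusedVariables false
set_option linter.unnecessarySimpa false
set_option linter.style.haveILetI false

namespace Cfsg.Agent.Lib.SzBin

open Cfsg Cfsg.Agent.Lib.CharBasic Cfsg.Agent.Lib.CharInd Cfsg.Agent.Lib.SzTorus
  Cfsg.Agent.Lib.SuzukiBasic Cfsg.Agent.Lib.Suzuki Cfsg.Agent.Lib.Suzuki2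
  Cfsg.Agent.Lib.Suzuki3 Cfsg.Agent.Lib.Suzuki4 Cfsg.Agent.Lib.SuzukiMax Cfsg.Agent.Lib.SzSub
  Cfsg.Agent.Lib.SzChar
open scoped ComplexConjugate

section count

variable {G : Type*} [Group G] [Fintype G] [DecidableEq G]

theorem card_centralizer_eq (g : G) :
    Nat.card (Subgroup.centralizer ({g} : Set G)) =
      (Finset.univ.filter (fun d : G => d * g = g * d)).card := by
  classical
  rw [Nat.card_eq_fintype_card, Fintype.card_subtype]
  congr 1
  ext d
  simp [Subgroup.mem_centralizer_singleton_iff]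

theorem card_sols_eq {a g : G} (h : IsConj a g) :
    (Finset.univ.filter (fun c : G => a = c * g * c⁻¹)).card =
      Nat.card (Subgroup.centralizer ({g} : Set G)) := by
  classical
  rw [card_centralizer_eq]
  obtain ⟨c₀, hc₀⟩ := isConj_iff.1 h.symm
  refine Finset.card_nbij' (fun c => c₀⁻¹ * c) (fun d => c₀ * d) ?_ ?_ ?_ ?_
  · intro c hc
    have hc' : a = c * g * c⁻¹ := (Finset.mem_filter.1 hc).2
    have hm : (c₀⁻¹ * c) * g = g * (c₀⁻¹ * c) := by
      have h1 : c₀ * g * c₀⁻¹ = c * g * c⁻¹ := hc₀.trans hc'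
      have h2 : g = c₀⁻¹ * (c * g * c⁻¹) * c₀ := by
        rw [← h1]; group
      calc (c₀⁻¹ * c) * g = c₀⁻¹ * (c * g * c⁻¹) * c := by group
        _ = (c₀⁻¹ * (c * g * c⁻¹) * c₀) * (c₀⁻¹ * c) := by group
        _ = g * (c₀⁻¹ * c) := by rw [← h2]
    simp [hm]
  · intro d hd
    have hd' : d * g = g * d := (Finset.mem_filter.1 hd).2
    have hm : a = (c₀ * d) * g * (c₀ * d)⁻¹ := by
      rw [← hc₀]
      calc c₀ * g * c₀⁻¹ = c₀ * (g * d) * d⁻¹ * c₀⁻¹ := by group
        _ = c₀ * (d * g) * d⁻¹ * c₀⁻¹ := by rw [hd']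
        _ = (c₀ * d) * g * (c₀ * d)⁻¹ := by group
    simp [hm]
  · intro c _
    simp
  · intro d _
    simp

theorem card_sols_le (a g : G) :
    (Finset.univ.filter (fun c : G => a = c * g * c⁻¹)).card ≤
      Nat.card (Subgroup.centralizer ({g} : Set G)) := by
  classical
  by_cases h : IsConj a g
  · exact (card_sols_eq h).le
  · have : Finset.univ.filter (fun c : G => a = c * g * c⁻¹) = ∅ := by
      ext c
      simp only [Finset.mem_filter, Finset.mem_univ, true_and, Finset.notMem_empty, iff_false]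
      intro hc
      apply h
      rw [hc]
      exact (isConj_iff.2 ⟨c, rfl⟩).symm
    rw [this, Finset.card_empty]
    exact Nat.zero_le _

theorem sum_sols (a g : G) :
    ∑ χ : IrrCharacter G, (χ : G → ℂ) a * conj ((χ : G → ℂ) g) =
      ∑ c : G, if a = c * g * c⁻¹ then (1 : ℂ) else 0 := by
  classical
  rw [sum_irr_mul_conj, Finset.sum_boole]
  split_ifs with h
  · rw [card_sols_eq h]
  · have : Finset.univ.filter (fun c : G => a = c * g * c⁻¹) = ∅ := by
      ext c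
      simp only [Finset.mem_filter, Finset.mem_univ, true_and, Finset.notMem_empty, iff_false]
      intro hc
      apply h
      rw [hc]
      exact (isConj_iff.2 ⟨c, rfl⟩).symm
    rw [this, Finset.card_empty, Nat.cast_zero]

/-- The class sum counts factorizations. -/
theorem card_prod_sols (x g : G) :
    (((Finset.univ.filter (fun p : G × G => (p.1 * x * p.1⁻¹) * (p.2 * x * p.2⁻¹) = g)).card : ℕ) : ℂ) =
      (Nat.card G : ℂ) * ∑ χ : IrrCharacter G, (χ : G → ℂ) x * (χ : G → ℂ) x *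
        conj ((χ : G → ℂ) g) / (χ : G → ℂ) 1 := by
  classical
  have hGne : (Nat.card G : ℂ) ≠ 0 := natCard_ne_zero'
  have h3 : ∑ u : G, ∑ v : G, ∑ χ : IrrCharacter G,
      (χ : G → ℂ) ((u * x * u⁻¹) * (v * x * v⁻¹)) * conj ((χ : G → ℂ) g) =
      (Nat.card G : ℂ) ^ 2 * ∑ χ : IrrCharacter G,
        (χ : G → ℂ) x * (χ : G → ℂ) x * conj ((χ : G → ℂ) g) / (χ : G → ℂ) 1 := by
    have h4 : ∀ (χ : IrrCharacter G) (u : G), ∑ v : G,
        (χ : G → ℂ) ((u * x * u⁻¹) * (v * x * v⁻¹)) * conj ((χ : G → ℂ) g) =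
        (Nat.card G : ℂ) * ((χ : G → ℂ) x * (χ : G → ℂ) x * conj ((χ : G → ℂ) g) / (χ : G → ℂ) 1) := by
      intro χ u
      rw [← Finset.sum_mul]
      have h5 := Cfsg.Agent.Lib.CharAvg.irr_avg χ.2 (u * x * u⁻¹) x
      rw [char_apply_conj (IsIrrCharacter.isCharacter χ.2)] at h5
      have h6 := Cfsg.Agent.Lib.CharAvg.irr_one_ne_zero χ.2
      field_simp
      linear_combination (conj ((χ : G → ℂ) g)) * h5
    calc ∑ u : G, ∑ v : G, ∑ χ : IrrCharacter G,
          (χ : G → ℂ) ((u * x * u⁻¹) * (v * x * v⁻¹)) * conj ((χ : G → ℂ) g)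
        = ∑ u : G, ∑ χ : IrrCharacter G, ∑ v : G,
          (χ : G → ℂ) ((u * x * u⁻¹) * (v * x * v⁻¹)) * conj ((χ : G → ℂ) g) := by
          refine Finset.sum_congr rfl fun u _ => ?_
          rw [Finset.sum_comm]
      _ = ∑ u : G, ∑ χ : IrrCharacter G,
          (Nat.card G : ℂ) * ((χ : G → ℂ) x * (χ : G → ℂ) x * conj ((χ : G → ℂ) g) / (χ : G → ℂ) 1) := by
          refine Finset.sum_congr rfl fun u _ => Finset.sum_congr rfl fun χ _ => h4 χ u
      _ = _ := by
          rw [Finset.sum_const, Finset.card_univ, ← Finset.mul_sum, nsmul_eq_mul,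
            ← Nat.card_eq_fintype_card]
          ring
  -- the triple count
  have h7 : ∑ u : G, ∑ v : G, ∑ χ : IrrCharacter G,
      (χ : G → ℂ) ((u * x * u⁻¹) * (v * x * v⁻¹)) * conj ((χ : G → ℂ) g) =
      (Nat.card G : ℂ) * (((Finset.univ.filter
        (fun p : G × G => (p.1 * x * p.1⁻¹) * (p.2 * x * p.2⁻¹) = g)).card : ℕ) : ℂ) := by
    simp only [sum_sols]
    have h8 : ∑ u : G, ∑ v : G, ∑ c : G,
        (if (u * x * u⁻¹) * (v * x * v⁻¹) = c * g * c⁻¹ then (1 : ℂ) else 0) =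
        ∑ c : G, ∑ u : G, ∑ v : G,
          (if (u * x * u⁻¹) * (v * x * v⁻¹) = c * g * c⁻¹ then (1 : ℂ) else 0) := by
      have h8a : ∀ u : G, ∑ v : G, ∑ c : G,
          (if (u * x * u⁻¹) * (v * x * v⁻¹) = c * g * c⁻¹ then (1 : ℂ) else 0) =
          ∑ c : G, ∑ v : G,
          (if (u * x * u⁻¹) * (v * x * v⁻¹) = c * g * c⁻¹ then (1 : ℂ) else 0) :=
        fun u => Finset.sum_comm
      simp only [h8a]
      rw [Finset.sum_comm]
    rw [h8]
    have h9 : ∀ c : G, ∑ u : G, ∑ v : G,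
        (if (u * x * u⁻¹) * (v * x * v⁻¹) = c * g * c⁻¹ then (1 : ℂ) else 0) =
        (((Finset.univ.filter
          (fun p : G × G => (p.1 * x * p.1⁻¹) * (p.2 * x * p.2⁻¹) = g)).card : ℕ) : ℂ) := by
      intro c
      rw [← Finset.sum_boole, ← Finset.univ_product_univ, Finset.sum_product]
      rw [← Equiv.sum_comp (Equiv.mulLeft c)]
      refine Finset.sum_congr rfl fun u _ => ?_
      rw [← Equiv.sum_comp (Equiv.mulLeft c)]
      refine Finset.sum_congr rfl fun v _ => ?_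
      have hiff : ((Equiv.mulLeft c) u * x * ((Equiv.mulLeft c) u)⁻¹) *
          ((Equiv.mulLeft c) v * x * ((Equiv.mulLeft c) v)⁻¹) = c * g * c⁻¹ ↔
          (u * x * u⁻¹) * (v * x * v⁻¹) = g := by
        have e : ((Equiv.mulLeft c) u * x * ((Equiv.mulLeft c) u)⁻¹) *
            ((Equiv.mulLeft c) v * x * ((Equiv.mulLeft c) v)⁻¹) =
            c * ((u * x * u⁻¹) * (v * x * v⁻¹)) * c⁻¹ := by
          simp only [Equiv.coe_mulLeft]
          group
        rw [e]
        constructor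
        · intro h
          have := mul_left_cancel (mul_right_cancel h)
          exact this
        · intro h
          rw [h]
      exact if_congr hiff rfl rfl
    simp only [h9]
    rw [Finset.sum_const, Finset.card_univ, nsmul_eq_mul, Nat.card_eq_fintype_card]
  rw [h3] at h7
  have h10 : (Nat.card G : ℂ) * ((((Finset.univ.filter
        (fun p : G × G => (p.1 * x * p.1⁻¹) * (p.2 * x * p.2⁻¹) = g)).card : ℕ) : ℂ) -
        (Nat.card G : ℂ) * ∑ χ : IrrCharacter G, (χ : G → ℂ) x * (χ : G → ℂ) x *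
        conj ((χ : G → ℂ) g) / (χ : G → ℂ) 1) = 0 := by
    linear_combination -h7
  have h11 := (mul_eq_zero.1 h10).resolve_left hGne
  exact sub_eq_zero.1 h11

/-- If every factorization has its first factor in a set of conjugators, there are few of them. -/
theorem card_prod_le (x g : G) (A : Finset G)
    (hA : ∀ a b : G, (a * x * a⁻¹) * (b * x * b⁻¹) = g → a ∈ A) :
    (Finset.univ.filter (fun p : G × G => (p.1 * x * p.1⁻¹) * (p.2 * x * p.2⁻¹) = g)).card ≤
      Nat.card (Subgroup.centralizer ({x} : Set G)) * A.card := by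
  classical
  refine Finset.card_le_mul_card_image_of_maps_to (f := Prod.fst) ?_ _ ?_
  · rintro ⟨a, b⟩ hp
    exact hA a b (Finset.mem_filter.1 hp).2
  · intro a _
    refine le_trans ?_ (card_sols_le ((a * x * a⁻¹)⁻¹ * g) x)
    refine Finset.card_le_card_of_injOn Prod.snd ?_ ?_
    · rintro ⟨a', b⟩ hp
      have hp' := Finset.mem_filter.1 (Finset.mem_coe.1 hp)
      have h1 : a' = a := hp'.2
      have h2 : (a' * x * a'⁻¹) * (b * x * b⁻¹) = g := (Finset.mem_filter.1 hp'.1).2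
      refine Finset.mem_coe.2 (Finset.mem_filter.2 ⟨Finset.mem_univ _, ?_⟩)
      change (a * x * a⁻¹)⁻¹ * g = b * x * b⁻¹
      rw [← h2, h1]
      group
    · rintro ⟨a', b⟩ hp ⟨a'', b'⟩ hp' h
      have h1 : a' = a := (Finset.mem_filter.1 (Finset.mem_coe.1 hp)).2
      have h2 : a'' = a := (Finset.mem_filter.1 (Finset.mem_coe.1 hp')).2
      have h3 : b = b' := h
      rw [h1, h2, h3]

end count

variable {F : Type*} [Field F] [Fintype F] {m : ℕ} [CharP F 2] [SzHyp F m]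

theorem exists_outside [Fintype (Sz F m)] {U : Subgroup (Sz F m)} (hU : IsTorus U) {y : Sz F m}
    (hy : y ∈ U) (h1 : y ≠ 1)
    (hN : Nat.card (Subgroup.normalizer (U : Set (Sz F m))) ≤ 4 * Nat.card U)
    (hL : 4 * (Nat.card U : ℝ) ^ 2 < (Nat.card (Sz F m) : ℝ) *
      (∑ χ : IrrCharacter (Sz F m), (χ : Sz F m → ℂ) y * (χ : Sz F m → ℂ) y *
        conj ((χ : Sz F m → ℂ) y) / (χ : Sz F m → ℂ) 1).re) :
    ∃ a b : Sz F m, y = (a * y * a⁻¹) * (b * y * b⁻¹) ∧ a * y * a⁻¹ ∉ U := by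
  classical
  by_contra hall
  push Not at hall
  let A : Finset (Sz F m) := Finset.univ.filter (fun a => a ∈ Subgroup.normalizer (U : Set (Sz F m)))
  have hAcard : A.card = Nat.card (Subgroup.normalizer (U : Set (Sz F m))) := by
    rw [Nat.card_eq_fintype_card, Fintype.card_subtype]
  have hle := card_prod_le y y A (by
    intro a b hab
    have h2 := hall a b hab.symm
    have h3 : a * y * a⁻¹ ∈ U.map (MulAut.conj a).toMonoidHom := ⟨y, hy, rfl⟩
    have h4 := torus_unique hU (hU.conj a) (conj_ne_one h1) h2 h3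
    simp only [A, Finset.mem_filter, Finset.mem_univ, true_and]
    exact mem_normalizer_of_map_eq h4.symm)
  rw [card_centralizer_torus hU hy h1, hAcard] at hle
  have hform := card_prod_sols y y
  have hre := congrArg Complex.re hform
  rw [Complex.natCast_re] at hre
  have hG : ((Nat.card (Sz F m) : ℂ) * ∑ χ : IrrCharacter (Sz F m), (χ : Sz F m → ℂ) y *
      (χ : Sz F m → ℂ) y * conj ((χ : Sz F m → ℂ) y) / (χ : Sz F m → ℂ) 1).re =
      (Nat.card (Sz F m) : ℝ) * (∑ χ : IrrCharacter (Sz F m), (χ : Sz F m → ℂ) y *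
      (χ : Sz F m → ℂ) y * conj ((χ : Sz F m → ℂ) y) / (χ : Sz F m → ℂ) 1).re := by
    rw [← Complex.ofReal_natCast, Complex.re_ofReal_mul]
  rw [hG] at hre
  have hle' : ((Finset.univ.filter (fun p : Sz F m × Sz F m =>
      (p.1 * y * p.1⁻¹) * (p.2 * y * p.2⁻¹) = y)).card : ℝ) ≤ 4 * (Nat.card U : ℝ) ^ 2 := by
    have h5 : (Finset.univ.filter (fun p : Sz F m × Sz F m =>
        (p.1 * y * p.1⁻¹) * (p.2 * y * p.2⁻¹) = y)).card ≤ 4 * Nat.card U ^ 2 :=
      hle.trans ((Nat.mul_le_mul_left _ hN).trans (by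
        apply le_of_eq
        ring))
    exact_mod_cast h5
  rw [hre] at hle'
  linarith

/-- A factorization outside the torus gives a witness. -/
theorem witness_of_outside {H U : Subgroup (Sz F m)} (hU : IsTorus U) (hle : H ≤ U) {y : Sz F m}
    (hy : y ∈ H) (h1 : y ≠ 1) {a b : Sz F m} (hp : y = (a * y * a⁻¹) * (b * y * b⁻¹))
    (hout : a * y * a⁻¹ ∉ U) : Witness H := by
  have key : ∀ (c g : Sz F m), g ∈ H → c⁻¹ * g * c ∈ H → g ≠ 1 → c * y * c⁻¹ ∈ U := by
    intro c g hg hg' hg1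
    have h2 : g ∈ U.map (MulAut.conj c).toMonoidHom := mem_map_conj.2 (hle hg')
    have h3 := torus_unique hU (hU.conj c) hg1 (hle hg) h2
    rw [h3]
    exact ⟨y, hle hy, rfl⟩
  refine witness_of_trivial (a₂ := a) (a₃ := b) (v := a * y * a⁻¹) (w := b * y * b⁻¹) hy h1 ?_ ?_ hp ?_ ?_
  · have e : a⁻¹ * (a * y * a⁻¹) * a = y := by group
    rw [e]
    exact hy
  · have e : b⁻¹ * (b * y * b⁻¹) * b = y := by group
    rw [e]
    exact hy
  · intro g hg hg'
    by_contra hg1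
    exact hout (key a g hg hg' hg1)
  · intro g hg hg'
    by_contra hg1
    apply hout
    have h2 := key b g hg hg' hg1
    have e : a * y * a⁻¹ = y * (b * y * b⁻¹)⁻¹ := by
      nth_rewrite 2 [hp]
      group
    rw [e]
    exact U.mul_mem (hle hy) (U.inv_mem h2)

theorem rK_vals' : rK 0 = 1 ∧ rK 1 = 1 ∧ rK 2 = -2 := ⟨rfl, rfl, rfl⟩
theorem rU_vals' : rU 0 = 1 ∧ rU 1 = -1 ∧ rU 3 = -4 ∧ rU 5 = 1 := ⟨rfl, rfl, rfl, rfl⟩
theorem rV_vals' : rV 0 = 1 ∧ rV 1 = -1 ∧ rV 4 = -4 ∧ rV 5 = -1 := ⟨rfl, rfl, rfl, rfl⟩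

theorem card_G_real : (Nat.card (Sz F m) : ℝ) =
    (2 * ((2 : ℝ) ^ m) ^ 2) ^ 2 * ((2 * ((2 : ℝ) ^ m) ^ 2) ^ 2 + 1) * (2 * ((2 : ℝ) ^ m) ^ 2 - 1) := by
  letI : Fintype (Sz F m) := Fintype.ofFinite _
  rw [card_Sz]
  have h1 : 1 ≤ Fintype.card F := Fintype.card_pos
  rw [Nat.cast_mul, Nat.cast_mul, Nat.cast_sub h1]
  push_cast
  rw [card_F_real (F := F) (m := m)]

variable (F m) in
theorem G_pos : (0 : ℝ) < Nat.card (Sz F m) := by
  exact_mod_cast Nat.card_pos

/-- The factorization outside the torus, in the three cases. -/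
theorem exists_outside_K [Fintype (Sz F m)] {y : Sz F m} (hy : y ∈ dd (oInf F m) (oZero F m)) (h1 : y ≠ 1)
    {x₁ x₂ : Sz F m} (hT : TPair x₁ x₂) :
    ∃ a b : Sz F m, y = (a * y * a⁻¹) * (b * y * b⁻¹) ∧ a * y * a⁻¹ ∉ dd (oInf F m) (oZero F m) := by
  have hs : (2 : ℝ) ≤ 2 ^ m := two_le_s_of (hm_of F m)
  have hU : IsTorus (dd (oInf F m) (oZero F m)) := isTorus_dd oZero_ne_inf.symm
  refine exists_outside hU hy h1 ?_ ?_
  · rw [card_normalizer_dd, card_dd oZero_ne_inf.symm]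
    omega
  · have hqr : (Fintype.card F : ℝ) = 2 * ((2 : ℝ) ^ m) ^ 2 := card_F_real
    have hcardU : (Nat.card (dd (oInf F m) (oZero F m)) : ℝ) = 2 * ((2 : ℝ) ^ m) ^ 2 - 1 := by
      rw [card_dd oZero_ne_inf.symm, Nat.cast_sub (Fintype.card_pos_iff.2 ⟨0⟩ : 0 < Fintype.card F), hqr]
      push_cast
      ring
    have hge := re_ge_K (k := 1) hT hy h1 (gd_K (k := 1) hT hy h1)
    have e : (1 : Sz F m) * y * 1⁻¹ = y := by group
    rw [e] at hge
    obtain ⟨r0, r1, r2⟩ := rK_vals'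
    rw [r0, r1, r2] at hge
    have har := ar_card_K _ hs
    rw [hcardU]
    refine lt_of_lt_of_le (sub_pos.1 har) ?_
    rw [card_G_real (F := F) (m := m)]
    refine mul_le_mul_of_nonneg_left hge ?_
    rw [← card_G_real (F := F) (m := m)]
    exact (G_pos F m).le

theorem exists_outside_U [Fintype (Sz F m)] {x₁ x₂ : Sz F m} (hT : TPair x₁ x₂) {y : Sz F m}
    (hy : y ∈ cen x₁) (h1 : y ≠ 1) :
    ∃ a b : Sz F m, y = (a * y * a⁻¹) * (b * y * b⁻¹) ∧ a * y * a⁻¹ ∉ cen x₁ := by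
  have hs : (2 : ℝ) ≤ 2 ^ m := two_le_s_of (hm_of F m)
  have hU : IsTorus (cen x₁) := isTorus_cen hT.h₁
  refine exists_outside hU hy h1 ?_ ?_
  · rw [hT.n₁, mul_comm]
  · have hqr : (Fintype.card F : ℝ) = 2 * ((2 : ℝ) ^ m) ^ 2 := card_F_real
    have hcardU : (Nat.card (cen x₁) : ℝ) = 2 * ((2 : ℝ) ^ m) ^ 2 + 2 * (2 : ℝ) ^ m + 1 := by
      rw [hT.c₁]
      push_cast
      rw [hqr, pow_succ]
      ring
    have hge := re_ge_U (k := 1) hT hy h1 (gd_U (k := 1) hT hy h1)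
    have e : (1 : Sz F m) * y * 1⁻¹ = y := by group
    rw [e] at hge
    obtain ⟨r0, r1, r3, r5⟩ := rU_vals'
    rw [r0, r1, r3, r5] at hge
    have har := ar_card_U _ hs
    rw [hcardU]
    refine lt_of_lt_of_le (sub_pos.1 har) ?_
    rw [card_G_real (F := F) (m := m)]
    refine mul_le_mul_of_nonneg_left hge ?_
    rw [← card_G_real (F := F) (m := m)]
    exact (G_pos F m).le

theorem exists_outside_V [Fintype (Sz F m)] {x₁ x₂ : Sz F m} (hT : TPair x₁ x₂) {y : Sz F m}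
    (hy : y ∈ cen x₂) (h1 : y ≠ 1) :
    ∃ a b : Sz F m, y = (a * y * a⁻¹) * (b * y * b⁻¹) ∧ a * y * a⁻¹ ∉ cen x₂ := by
  have hs : (2 : ℝ) ≤ 2 ^ m := two_le_s_of (hm_of F m)
  have hU : IsTorus (cen x₂) := isTorus_cen hT.h₂
  refine exists_outside hU hy h1 ?_ ?_
  · rw [hT.n₂, mul_comm]
  · have hqr : (Fintype.card F : ℝ) = 2 * ((2 : ℝ) ^ m) ^ 2 := card_F_real
    have hcardU : (Nat.card (cen x₂) : ℝ) = 2 * ((2 : ℝ) ^ m) ^ 2 - 2 * (2 : ℝ) ^ m + 1 := by
      have := hT.c₂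
      have h2 : (Nat.card (cen x₂) : ℝ) + 2 ^ (m + 1) = Fintype.card F + 1 := by exact_mod_cast this
      rw [hqr, pow_succ] at h2
      linarith
    have hge := re_ge_V (k := 1) hT hy h1 (gd_V (k := 1) hT hy h1)
    have e : (1 : Sz F m) * y * 1⁻¹ = y := by group
    rw [e] at hge
    obtain ⟨r0, r1, r4, r5⟩ := rV_vals'
    rw [r0, r1, r4, r5] at hge
    have har := ar_card_V _ hs
    rw [hcardU]
    refine lt_of_lt_of_le (sub_pos.1 har) ?_
    rw [card_G_real (F := F) (m := m)]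
    refine mul_le_mul_of_nonneg_left hge ?_
    rw [← card_G_real (F := F) (m := m)]
    exact (G_pos F m).le

/-- Subgroups of odd order are not binary. -/
theorem witness_odd {H : Subgroup (Sz F m)} (hodd : Odd (Nat.card H)) (hne : H ≠ ⊥) : Witness H := by
  classical
  letI : Fintype (Sz F m) := Fintype.ofFinite _
  obtain ⟨x₁, x₂, hT⟩ := exists_TPair F m
  obtain ⟨x, hx, hx1⟩ := (Subgroup.bot_or_exists_ne_one H).resolve_left hne
  have hxo : Odd (orderOf x) := Odd.of_dvd_nat hodd (Subgroup.orderOf_dvd_natCard H hx)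
  -- the reduction to a torus
  have key : ∀ (U : Subgroup (Sz F m)) (k y : Sz F m), IsTorus U → y ∈ U → y ≠ 1 → x = k * y * k⁻¹ →
      (∃ a b : Sz F m, y = (a * y * a⁻¹) * (b * y * b⁻¹) ∧ a * y * a⁻¹ ∉ U) → Witness H := by
    intro U k y hU hy h1 hxe ⟨a, b, hp, hout⟩
    apply Witness.of_map (k := k⁻¹)
    set H' := H.map (MulAut.conj k⁻¹).toMonoidHom with hH'
    have hyH' : y ∈ H' := by
      rw [hH', mem_map_conj, inv_inv, ← hxe]
      exact hx
    have hH'odd : Odd (Nat.card H') := by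
      rw [hH', card_conj]
      exact hodd
    have hH'ne : H' ≠ ⊥ := by
      intro h
      rw [h, Subgroup.mem_bot] at hyH'
      exact h1 hyH'
    obtain ⟨U', hU', hle⟩ := exists_torus_of_odd H' hH'odd hH'ne
    have hUU := torus_unique hU' hU h1 (hle hyH') hy
    rw [hUU] at hle
    exact witness_of_outside hU hle hyH' h1 hp hout
  rcases kinds hT hx1 with h | h | ⟨k, y, hy, h1, h2⟩ | ⟨k, y, hy, h1, h2⟩ | ⟨k, y, hy, h1, h2⟩
  · rw [h] at hxo
    exact absurd hxo (by decide)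
  · rw [h] at hxo
    exact absurd hxo (by decide)
  · exact key _ k y (isTorus_dd oZero_ne_inf.symm) hy h1 h2 (exists_outside_K hy h1 hT)
  · exact key _ k y (isTorus_cen hT.h₁) hy h1 h2 (exists_outside_U hT hy h1)
  · exact key _ k y (isTorus_cen hT.h₂) hy h1 h2 (exists_outside_V hT hy h1)

end Cfsg.Agent.Lib.SzBin
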