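/-
Binary coset actions of the Suzuki group: the classification.
-/
import Mathlib
import Cfsg.Agent.Lib.SzBinD
import Cfsg.Agent.Lib.SzBinE

set_option autoImplicit false
set_option linter.unusedSectionVars false
set_option linter.unusedVariables false
set_option linter.unnecessarySimpa false
set_option linter.style.haveILetI false

namespace Cfsg.Agent.Lib.SzBin

open Cfsg Cfsg.Agent.Lib.SuzukiBasic Cfsg.Agent.Lib.Suzuki Cfsg.Agent.Lib.Suzuki2
  Cfsg.Agent.Lib.Suzuki3 Cfsg.Agent.Lib.Suzuki4 Cfsg.Agent.Lib.SuzukiMax Cfsg.Agent.Lib.SzSub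
  Cfsg.Agent.Lib.SzTorus

section transport

variable {G G' : Type*} [Group G] [Group G']

theorem isBinary_iff_elem {H : Subgroup G} : IsBinary H ↔
    ∀ (n : ℕ) (a b : Fin n → G), 2 ≤ n →
      (∀ i j : Fin n, i ≠ j → ∃ g : G, (b i)⁻¹ * g * a i ∈ H ∧ (b j)⁻¹ * g * a j ∈ H) →
      ∃ g : G, ∀ i, (b i)⁻¹ * g * a i ∈ H := by
  constructor
  · intro h n a b hn hp
    obtain ⟨g, hg⟩ := h n (fun i => (a i : G ⧸ H)) (fun i => (b i : G ⧸ H)) hn (by
      intro i j hij
      obtain ⟨g, h1, h2⟩ := hp i j hij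
      exact ⟨g, smul_coe_eq.2 h1, smul_coe_eq.2 h2⟩)
    exact ⟨g, fun i => smul_coe_eq.1 (hg i)⟩
  · intro h n I J hn hp
    have hIa : ∀ i, ∃ a : G, (a : G ⧸ H) = I i := fun i => QuotientGroup.mk_surjective (I i)
    have hJb : ∀ i, ∃ a : G, (a : G ⧸ H) = J i := fun i => QuotientGroup.mk_surjective (J i)
    choose a ha using hIa
    choose b hb using hJb
    have hC : ∀ (g : G) (i : Fin n), g • I i = J i ↔ (b i)⁻¹ * g * a i ∈ H := by
      intro g i
      rw [← ha i, ← hb i]
      exact smul_coe_eq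
    obtain ⟨g, hg⟩ := h n a b hn (by
      intro i j hij
      obtain ⟨g, h1, h2⟩ := hp i j hij
      exact ⟨g, (hC g i).1 h1, (hC g j).1 h2⟩)
    exact ⟨g, fun i => (hC g i).2 (hg i)⟩

theorem IsBinary.map_equiv {H : Subgroup G} (h : IsBinary H) (e : G ≃* G') :
    IsBinary (H.map e.toMonoidHom) := by
  rw [isBinary_iff_elem] at h ⊢
  have key : ∀ x' : G', x' ∈ H.map e.toMonoidHom ↔ e.symm x' ∈ H := by
    intro x'
    constructor
    · rintro ⟨y, hy, rfl⟩
      simpa using hy
    · intro hx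
      exact ⟨_, hx, by simp⟩
  intro n a b hn hp
  obtain ⟨g, hg⟩ := h n (fun i => e.symm (a i)) (fun i => e.symm (b i)) hn (by
    intro i j hij
    obtain ⟨g', h1, h2⟩ := hp i j hij
    refine ⟨e.symm g', ?_, ?_⟩
    · have := (key _).1 h1
      simpa [map_mul, map_inv] using this
    · have := (key _).1 h2
      simpa [map_mul, map_inv] using this)
  refine ⟨e g, fun i => (key _).2 ?_⟩
  have := hg i
  simpa [map_mul, map_inv] using this

theorem isZ_map_equiv [Finite G] {H : Subgroup G} (e : G ≃* G')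
    (h : ∃ P : Sylow 2 G, H = (Subgroup.center (P : Subgroup G)).map (P : Subgroup G).subtype) :
    ∃ P : Sylow 2 G', H.map e.toMonoidHom =
      (Subgroup.center (P : Subgroup G')).map (P : Subgroup G').subtype := by
  obtain ⟨P, rfl⟩ := h
  have hs : Function.Surjective e.toMonoidHom := e.surjective
  refine ⟨P.mapSurjective hs, ?_⟩
  ext x
  rw [mem_center_map, Sylow.coe_mapSurjective]
  constructor
  · rintro ⟨y, hy, rfl⟩
    obtain ⟨h1, h2⟩ := mem_center_map.1 hy
    refine ⟨⟨y, h1, rfl⟩, ?_⟩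
    rintro _ ⟨z, hz, rfl⟩
    have := h2 z hz
    rw [← map_mul, this, map_mul]
  · rintro ⟨⟨y, hy, rfl⟩, h2⟩
    refine ⟨y, mem_center_map.2 ⟨hy, fun z hz => ?_⟩, rfl⟩
    have := h2 (e.toMonoidHom z) ⟨z, hz, rfl⟩
    rw [← map_mul, ← map_mul] at this
    exact e.injective this

end transport

variable {F : Type*} [Field F] [Fintype F] {m : ℕ} [CharP F 2] [SzHyp F m]

/-- Subgroups fixing `∞` other than `1` and the centre of the Sylow subgroup. -/
theorem witness_fix {H : Subgroup (Sz F m)} (hfix : ∀ x ∈ H, x • oInf F m = oInf F m)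
    (hne : H ≠ ⊥) {z : Sz F m} (hzH : z ∈ H) (hz2 : z * z = 1) (hz1 : z ≠ 1)
    (hnZ : ¬ ∀ x, x ∈ H ↔ ∃ b : F, x = tt 0 b) : Witness H := by
  by_cases h4 : ∃ y ∈ H, orderOf y = 4
  · -- an element of order four
    obtain ⟨y, hy, hy4⟩ := h4
    obtain ⟨k, hk⟩ := conj_order_four (orderOf_tt_ne (F := F) (m := m) (one_ne_zero) 0) hy4
    have hk1 : k * tt 1 0 * k⁻¹ ∈ H := by
      rcases hk with hk | hk
      · rw [← hk]
        exact hy
      · have e : k * tt 1 0 * k⁻¹ = y⁻¹ := by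
          rw [hk]; group
        rw [e]
        exact H.inv_mem hy
    apply Witness.of_map (k := k⁻¹)
    have hmem : ∀ x, x ∈ H.map (MulAut.conj k⁻¹).toMonoidHom ↔ k * x * k⁻¹ ∈ H := by
      intro x
      rw [mem_map_conj, inv_inv]
    have hr : (tt 1 0 : Sz F m) ∈ H.map (MulAut.conj k⁻¹).toMonoidHom := (hmem _).2 hk1
    have hfix' : ∀ x ∈ H.map (MulAut.conj k⁻¹).toMonoidHom, x • (k⁻¹ • oInf F m) = k⁻¹ • oInf F m := by
      intro x hx
      have h1 := hfix _ ((hmem x).1 hx)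
      rw [mul_smul, mul_smul] at h1
      rw [smul_eq_iff_eq_inv_smul] at h1
      exact h1
    have hr1 : (tt 1 0 : Sz F m) ≠ 1 := by
      intro h
      have h1 := tt_eq_one h
      exact one_ne_zero h1.1
    have hinf : k⁻¹ • oInf F m = oInf F m := tt_fix_inf hr1 (hfix' _ hr)
    rw [hinf] at hfix'
    exact witness_order_four hfix' hr
  push Not at h4
  by_cases h5 : ∃ y ∈ H, ∃ (a b : F) (α : Fˣ), y = tt a b * hh α ∧ α ≠ 1
  · -- a non-trivial element of a torus
    obtain ⟨y, hy, a, b, α, rfl, hα⟩ := h5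
    obtain ⟨p', hp', hne'⟩ := exists_second_fix (m := m) a b hα
    obtain ⟨x₁, y₁, rfl⟩ := (om_cases p').resolve_left hne'
    set c : Sz F m := tt x₁ y₁ with hc
    have hc0 : c • oZero F m = oPt m x₁ y₁ := tt_smul_zero _ _
    have hcI : c • oInf F m = oInf F m := tt_smul_inf _ _
    apply Witness.of_map (k := c⁻¹)
    have hmem : ∀ x, x ∈ H.map (MulAut.conj c⁻¹).toMonoidHom ↔ c * x * c⁻¹ ∈ H := by
      intro x
      rw [mem_map_conj, inv_inv]
    have hfix' : ∀ x ∈ H.map (MulAut.conj c⁻¹).toMonoidHom, x • oInf F m = oInf F m := by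
      intro x hx
      have h1 := hfix _ ((hmem x).1 hx)
      have hcI' : c⁻¹ • oInf F m = oInf F m := by
        rw [inv_smul_eq_iff, hcI]
      rw [mul_smul, mul_smul, hcI', smul_eq_iff_eq_inv_smul, hcI'] at h1
      exact h1
    -- the torus element
    set y' : Sz F m := c⁻¹ * (tt a b * hh α) * c with hy'
    have hy'H : y' ∈ H.map (MulAut.conj c⁻¹).toMonoidHom := by
      rw [hmem]
      have e : c * y' * c⁻¹ = tt a b * hh α := by
        rw [hy']; group
      rw [e]
      exact hy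
    have hy'I : y' • oInf F m = oInf F m := hfix' _ hy'H
    have hy'0 : y' • oZero F m = oZero F m := by
      rw [hy', mul_smul, mul_smul, hc0, hp', ← hc0, inv_smul_smul]
    obtain ⟨α', hα'⟩ := stab_inf_zero hy'I hy'0
    have hα'1 : α' ≠ 1 := by
      rintro rfl
      rw [hh_one] at hα'
      have h1 : (tt a b * hh α : Sz F m) = 1 := by
        have e : (tt a b * hh α : Sz F m) = c * y' * c⁻¹ := by
          rw [hy']; group
        rw [e, hα']
        group
      have h2 : (tt a b * hh α : Sz F m) = tt 0 0 * hh 1 := by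
        rw [h1, tt_zero, hh_one, one_mul]
      exact hα (tt_hh_inj h2).2.2
    have hH' : (hh α' : Sz F m) ∈ H.map (MulAut.conj c⁻¹).toMonoidHom := by
      rw [← hα']
      exact hy'H
    -- the involution
    have hz' : c⁻¹ * z * c ∈ H.map (MulAut.conj c⁻¹).toMonoidHom := by
      rw [hmem]
      have e : c * (c⁻¹ * z * c) * c⁻¹ = z := by group
      rw [e]
      exact hzH
    have hz'2 : (c⁻¹ * z * c) * (c⁻¹ * z * c) = 1 := by
      have e : (c⁻¹ * z * c) * (c⁻¹ * z * c) = c⁻¹ * (z * z) * c := by group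
      rw [e, hz2]
      group
    obtain ⟨b₀, hb₀e⟩ := invol_inf (hfix' _ hz') hz'2
    have hb₀ : b₀ ≠ 0 := by
      rintro rfl
      rw [tt_zero] at hb₀e
      apply hz1
      have e : z = c * (c⁻¹ * z * c) * c⁻¹ := by group
      rw [e, hb₀e]
      group
    have hno4 : ∀ x ∈ H.map (MulAut.conj c⁻¹).toMonoidHom, orderOf x ≠ 4 := by
      intro x hx
      have := h4 _ ((hmem x).1 hx)
      rwa [orderOf_conj_eq] at this
    refine witness_fix_torus hfix' hno4 hα'1 hH' hb₀ ?_
    rw [← hb₀e]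
    exact hz'
  · -- the centre
    push Not at h5
    have hshape : ∀ x ∈ H, ∃ b : F, x = tt 0 b := by
      intro x hx
      obtain ⟨a, b, α, rfl⟩ := stab_inf (hfix x hx)
      have hα := h5 _ hx a b α rfl
      rw [hα, hh_one, mul_one] at hx ⊢
      by_cases ha : a = 0
      · exact ⟨b, by rw [ha]⟩
      · exact absurd (orderOf_tt_ne ha b) (h4 _ hx)
    refine witness_sub_Z hshape hne ?_
    intro hall
    apply hnZ
    intro x
    constructor
    · exact hshape x
    · rintro ⟨b, rfl⟩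
      exact hall b

/-- All the remaining subgroups are not binary. -/
theorem witness_all {H : Subgroup (Sz F m)} (hH : H ≠ ⊤) (hne : H ≠ ⊥)
    (hnc : ¬ ∃ a : Sz F m, ∀ x, x ∈ H ↔ ∃ b : F, a⁻¹ * x * a = tt 0 b) : Witness H := by
  classical
  haveI : Fact (Nat.Prime 2) := ⟨Nat.prime_two⟩
  by_cases hodd : Odd (Nat.card H)
  · exact witness_odd hodd hne
  have h2 : 2 ∣ Nat.card H := even_iff_two_dvd.1 (Nat.not_odd_iff_even.1 hodd)
  obtain ⟨⟨z, hzM⟩, hoz⟩ := exists_prime_orderOf_dvd_card' 2 h2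
  replace hoz : orderOf z = 2 := (Subgroup.orderOf_mk z hzM).symm.trans hoz
  have hz1 : z ≠ 1 := by
    intro h
    rw [h, orderOf_one] at hoz
    omega
  have hz2 : z * z = 1 := by
    rw [← pow_two, ← hoz]
    exact pow_orderOf_eq_one z
  obtain ⟨p₁, hp₁⟩ := invol_exists_fix hz2
  by_cases hall : ∀ z₂ ∈ H, z₂ * z₂ = 1 → z₂ ≠ 1 → z₂ • p₁ = p₁
  · -- the subgroup fixes a point
    have hfix₁ : ∀ n ∈ H, n • p₁ = p₁ := by
      intro n hn
      have h3 : (n⁻¹ * z * n) ∈ H := H.mul_mem (H.mul_mem (H.inv_mem hn) hzM) hn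
      have h4 : (n⁻¹ * z * n) * (n⁻¹ * z * n) = 1 := by
        calc (n⁻¹ * z * n) * (n⁻¹ * z * n) = n⁻¹ * (z * z) * n := by group
          _ = 1 := by rw [hz2]; group
      have h5 : n⁻¹ * z * n ≠ 1 := by
        have := conj_ne_one (g := n⁻¹) hz1
        simpa using this
      have h6 := hall _ h3 h4 h5
      have h7 : z • (n • p₁) = n • p₁ := by
        rw [mul_smul, mul_smul] at h6
        exact inv_smul_eq_iff.1 h6
      exact invol_unique hz2 hz1 h7 hp₁
    obtain ⟨k, hk⟩ := exists_conj_one p₁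
    apply Witness.of_map (k := k⁻¹)
    have hmem : ∀ x, x ∈ H.map (MulAut.conj k⁻¹).toMonoidHom ↔ k * x * k⁻¹ ∈ H := by
      intro x
      rw [mem_map_conj, inv_inv]
    have hfix' : ∀ x ∈ H.map (MulAut.conj k⁻¹).toMonoidHom, x • oInf F m = oInf F m := by
      intro x hx
      have h1 := hfix₁ _ ((hmem x).1 hx)
      rw [← hk, mul_smul, mul_smul, inv_smul_smul] at h1
      exact smul_left_cancel k h1
    have hz' : k⁻¹ * z * k ∈ H.map (MulAut.conj k⁻¹).toMonoidHom := by
      rw [hmem]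
      have e : k * (k⁻¹ * z * k) * k⁻¹ = z := by group
      rw [e]
      exact hzM
    refine witness_fix hfix' ?_ hz' ?_ ?_ ?_
    · intro h
      rw [h, Subgroup.mem_bot] at hz'
      apply hz1
      have e : z = k * (k⁻¹ * z * k) * k⁻¹ := by group
      rw [e, hz']
      group
    · have e : (k⁻¹ * z * k) * (k⁻¹ * z * k) = k⁻¹ * (z * z) * k := by group
      rw [e, hz2]
      group
    · intro h
      apply hz1
      have e : z = k * (k⁻¹ * z * k) * k⁻¹ := by group
      rw [e, h]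
      group
    · intro hZ
      apply hnc
      refine ⟨k, fun x => ?_⟩
      rw [← hZ (k⁻¹ * x * k), hmem]
      have e : k * (k⁻¹ * x * k) * k⁻¹ = x := by group
      rw [e]
  · -- involutions at two points
    push Not at hall
    obtain ⟨z₂, hz₂M, hz₂2, hz₂1, hz₂n⟩ := hall
    obtain ⟨p₂, hp₂⟩ := invol_exists_fix hz₂2
    have hne' : p₁ ≠ p₂ := by
      rintro rfl
      exact hz₂n hp₂
    obtain ⟨g, hgW, hgp⟩ := exists_normal_form H hzM hz₂M hz2 hz₂2 hz1 hz₂1 hp₁ hp₂ hne'
    apply Witness.of_map (k := g⁻¹)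
    have hmem : ∀ x, x ∈ H.map (MulAut.conj g⁻¹).toMonoidHom ↔ g * x * g⁻¹ ∈ H := by
      intro x
      rw [mem_map_conj, inv_inv]
    have hM't : H.map (MulAut.conj g⁻¹).toMonoidHom ≠ ⊤ := by
      intro h
      apply hH
      rw [Subgroup.eq_top_iff']
      intro x
      have h1 : g⁻¹ * x * g ∈ H.map (MulAut.conj g⁻¹).toMonoidHom := by
        rw [h]
        exact Subgroup.mem_top _
      rw [hmem] at h1
      have e : g * (g⁻¹ * x * g) * g⁻¹ = x := by group
      rwa [e] at h1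
    have hW' : (ww : Sz F m) ∈ H.map (MulAut.conj g⁻¹).toMonoidHom := (hmem _).2 hgW
    have hz'M : g⁻¹ * z * g ∈ H.map (MulAut.conj g⁻¹).toMonoidHom := by
      rw [hmem]
      have e : g * (g⁻¹ * z * g) * g⁻¹ = z := by group
      rw [e]
      exact hzM
    have hz'1 : g⁻¹ * z * g ≠ 1 := by
      have := conj_ne_one (g := g⁻¹) hz1
      simpa using this
    have hz'2 : (g⁻¹ * z * g) * (g⁻¹ * z * g) = 1 := by
      calc (g⁻¹ * z * g) * (g⁻¹ * z * g) = g⁻¹ * (z * z) * g := by group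
        _ = 1 := by rw [hz2]; group
    have hz'f : (g⁻¹ * z * g) • oInf F m = oInf F m := by
      rw [mul_smul, mul_smul, hgp, hp₁, ← hgp, inv_smul_smul]
    obtain ⟨b₀, hb₀e⟩ := invol_inf hz'f hz'2
    have hb₀ : b₀ ≠ 0 := by
      rintro rfl
      rw [tt_zero] at hb₀e
      exact hz'1 hb₀e
    have h0 : (tt 0 b₀ : Sz F m) ∈ H.map (MulAut.conj g⁻¹).toMonoidHom := by
      rw [← hb₀e]
      exact hz'M
    by_cases hex : ∃ b₁ : F, b₁ ≠ 0 ∧ b₀ ≠ b₁ ∧ (tt 0 b₁ : Sz F m) ∈ H.map (MulAut.conj g⁻¹).toMonoidHom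
    · obtain ⟨b₁, hb₁, hne'', h1⟩ := hex
      exact witness_subfield hM't hW' hb₀ hb₁ hne'' h0 h1
    · push Not at hex
      refine witness_single hW' hb₀ h0 ?_
      intro b hb hbM
      by_contra hbne
      exact hex b hb (Ne.symm hbne) hbM

/-- **The classification of binary coset actions of the Suzuki group.** -/
theorem isBinary_iff {H : Subgroup (Sz F m)} (hH : H ≠ ⊤) :
    IsBinary H ↔ (H = ⊥ ∨ ∃ P : Sylow 2 (Sz F m),
      H = (Subgroup.center (P : Subgroup (Sz F m))).map (P : Subgroup (Sz F m)).subtype) := by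
  constructor
  · intro hb
    by_contra hno
    push Not at hno
    obtain ⟨h1, h2⟩ := hno
    refine hb.not_witness (witness_all hH h1 ?_)
    intro hc
    obtain ⟨P, hP⟩ := exists_sylow_center_iff.2 hc
    exact h2 P hP
  · rintro (rfl | hc)
    · exact isBinary_bot
    · obtain ⟨a, ha⟩ := exists_sylow_center_iff.1 hc
      exact isBinary_center ha

end Cfsg.Agent.Lib.SzBin
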