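import Cfsg.Prelude.Def_Sz

/-!
# Elements of odd order of the Suzuki groups act fixed-point-freely on the natural module

Every element of `Sz(F, e)` lies in `Sp₄(F)` and satisfies `g* = g^θ`.  For `v ≠ 0` fixed by `g`,
the map `w ↦ ψ (c(v, w))` on `v^⊥`, where `c(v, w)` is the class of `v ∧ w` in `U/W` and `ψ = θ⁻¹`,
is additive, commutes with `g`, has kernel `F v` and totally isotropic image.  Hence, if `g` has odd
order, the commutator `[V, g]`, which is nondegenerate, is totally isotropic, so it is zero.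
-/

set_option autoImplicit false
set_option linter.unusedSectionVars false
set_option linter.style.haveILetI false

namespace Cfsg.Agent.Lib.SzFixedPoint

open Matrix Cfsg.Lie Finset

section Basic

variable {F : Type*} [Field F]

/-- The class of `v ∧ w` in `U/W`. -/
def cc (v w : Fin 4 → F) : Fin 4 → F :=
  fun p => v (pairOf p).1 * w (pairOf p).2 - v (pairOf p).2 * w (pairOf p).1

lemma pairOf_0 : pairOf 0 = (0, 1) := rfl
lemma pairOf_1 : pairOf 1 = (0, 2) := rfl
lemma pairOf_2 : pairOf 2 = (1, 3) := rfl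
lemma pairOf_3 : pairOf 3 = (2, 3) := rfl

lemma star4_apply (g : Matrix (Fin 4) (Fin 4) F) (p r : Fin 4) :
    star4 g p r = g (pairOf p).1 (pairOf r).1 * g (pairOf p).2 (pairOf r).2 -
      g (pairOf p).2 (pairOf r).1 * g (pairOf p).1 (pairOf r).2 := rfl

/-- The matrix of the form. -/
def J4 : Matrix (Fin 4) (Fin 4) F :=
  !![0, 0, 0, 1; 0, 0, 1, 0; 0, 1, 0, 0; 1, 0, 0, 0]

lemma J4_sq : (J4 : Matrix (Fin 4) (Fin 4) F) * J4 = 1 := by
  ext i j
  fin_cases i <;> fin_cases j <;> simp [J4, Matrix.mul_apply, Fin.sum_univ_four]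

/-- A matrix preserving the form, in the sense of `formStab`. -/
def Pres (g : Matrix (Fin 4) (Fin 4) F) : Prop :=
  ∀ u v, altForm4 (g *ᵥ u) (g *ᵥ v) = altForm4 u v

lemma col_rel {g : Matrix (Fin 4) (Fin 4) F} (hg : Pres g) (i j : Fin 4) :
    g 0 i * g 3 j + g 1 i * g 2 j + g 2 i * g 1 j + g 3 i * g 0 j = J4 i j := by
  have h := hg (Pi.single i 1) (Pi.single j 1)
  simp only [Matrix.mulVec_single_one, altForm4] at h
  simp only [Matrix.col_apply] at h
  rw [h]
  fin_cases i <;> fin_cases j <;> simp [J4]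

lemma mul_transpose_rel {g : Matrix (Fin 4) (Fin 4) F} (hg : Pres g) :
    g * J4 * gᵀ = J4 := by
  have h1 : gᵀ * J4 * g = J4 := by
    ext i j
    rw [← col_rel hg i j]
    simp only [J4, Matrix.mul_apply, Matrix.transpose_apply, Fin.sum_univ_four]
    simp
    ring
  have h2 : (J4 * gᵀ * J4) * g = 1 := by
    rw [Matrix.mul_assoc, Matrix.mul_assoc, ← Matrix.mul_assoc gᵀ, h1, J4_sq]
  have h3 : g * (J4 * gᵀ * J4) = 1 := mul_eq_one_comm.mp h2
  calc g * J4 * gᵀ = (g * (J4 * gᵀ * J4)) * J4 := by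
        simp only [Matrix.mul_assoc, J4_sq, Matrix.mul_one]
    _ = J4 := by rw [h3, Matrix.one_mul]

lemma row_rel {g : Matrix (Fin 4) (Fin 4) F} (hg : Pres g) (k l : Fin 4) :
    g k 0 * g l 3 + g k 1 * g l 2 + g k 2 * g l 1 + g k 3 * g l 0 = J4 k l := by
  rw [← mul_transpose_rel hg]
  simp only [J4, Matrix.mul_apply, Matrix.transpose_apply, Fin.sum_univ_four]
  simp
  ring

end Basic

section Char2

variable {F : Type*} [Field F] [CharP F 2]

/-- The Cauchy-Binet computation. -/
lemma cc_mulVec_aux {g : Matrix (Fin 4) (Fin 4) F} (hg : Pres g) {v w : Fin 4 → F}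
    (hB : altForm4 v w = 0) (p : Fin 4) :
    cc (g *ᵥ v) (g *ᵥ w) p = (star4 g *ᵥ cc v w) p := by
  have h2 : (2 : F) = 0 := CharTwo.two_eq_zero
  have hJ : J4 (pairOf p).1 (pairOf p).2 = (0 : F) := by
    fin_cases p <;> simp [pairOf, J4]
  set k := (pairOf p).1 with hk
  set l := (pairOf p).2 with hl
  have hr := row_rel hg k l
  rw [hJ] at hr
  simp only [altForm4] at hB
  simp only [cc, ← hk, ← hl, Matrix.mulVec, dotProduct, Fin.sum_univ_four, star4_apply, pairOf_0,
    pairOf_1, pairOf_2, pairOf_3]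
  have hp : (v 1 * w 2 - v 2 * w 1) = -(v 0 * w 3 - v 3 * w 0) := by
    linear_combination hB - (v 2 * w 1 + v 3 * w 0) * h2
  have hm : (g k 1 * g l 2 - g l 1 * g k 2) = -(g k 0 * g l 3 - g l 0 * g k 3) := by
    linear_combination hr - (g l 1 * g k 2 + g k 3 * g l 0) * h2
  have key : (g k 0 * g l 3 - g l 0 * g k 3) * (v 0 * w 3 - v 3 * w 0) +
      (g k 1 * g l 2 - g l 1 * g k 2) * (v 1 * w 2 - v 2 * w 1) = 0 := by
    rw [hp, hm]
    linear_combination (g k 0 * g l 3 - g l 0 * g k 3) * (v 0 * w 3 - v 3 * w 0) * h2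
  linear_combination key

lemma cc_mulVec {g : Matrix (Fin 4) (Fin 4) F} (hg : Pres g) {v w : Fin 4 → F}
    (hB : altForm4 v w = 0) : cc (g *ᵥ v) (g *ᵥ w) = star4 g *ᵥ cc v w :=
  funext (cc_mulVec_aux hg hB)

/-- `g ↦ g*` is multiplicative on matrices preserving the form. -/
lemma star4_mul {g h : Matrix (Fin 4) (Fin 4) F} (hg : Pres g) (hh : Pres h) :
    star4 (g * h) = star4 g * star4 h := by
  ext p r
  have hB : altForm4 (h.col (pairOf r).1) (h.col (pairOf r).2) = 0 := by
    have h0 := col_rel hh (pairOf r).1 (pairOf r).2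
    have hJ : J4 (pairOf r).1 (pairOf r).2 = (0 : F) := by
      fin_cases r <;> simp [pairOf, J4]
    rw [hJ] at h0
    simpa [altForm4] using h0
  have h1 := cc_mulVec_aux hg hB p
  have h2 : ∀ i, (g *ᵥ h.col i) = (g * h).col i := by
    intro i
    ext a
    simp [Matrix.mulVec, dotProduct, Matrix.mul_apply]
  rw [h2, h2] at h1
  have h3 : cc ((g * h).col (pairOf r).1) ((g * h).col (pairOf r).2) p = star4 (g * h) p r := rfl
  rw [← h3, h1, Matrix.mul_apply]
  simp only [Matrix.mulVec, dotProduct]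
  rfl

/-- The identity giving total isotropy of the image. -/
lemma altForm4_cc {v w w' : Fin 4 → F} (hw : altForm4 v w = 0) (hw' : altForm4 v w' = 0) :
    altForm4 (cc v w) (cc v w') = 0 := by
  have h2 : (2 : F) = 0 := CharTwo.two_eq_zero
  simp only [altForm4] at hw hw'
  simp only [altForm4, cc, pairOf_0, pairOf_1, pairOf_2, pairOf_3]
  have hp : (v 1 * w 2 - v 2 * w 1) = -(v 0 * w 3 - v 3 * w 0) := by
    linear_combination hw - (v 2 * w 1 + v 3 * w 0) * h2
  have hp' : (v 1 * w' 2 - v 2 * w' 1) = -(v 0 * w' 3 - v 3 * w' 0) := by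
    linear_combination hw' - (v 2 * w' 1 + v 3 * w' 0) * h2
  linear_combination ((v 0 * w 2 - v 2 * w 0) * (v 1 * w' 3 - v 3 * w' 1) +
    (v 1 * w 3 - v 3 * w 1) * (v 0 * w' 2 - v 2 * w' 0) +
    (v 0 * w 3 - v 3 * w 0) * (v 0 * w' 3 - v 3 * w' 0)) * h2 -
    (v 0 * w 3 - v 3 * w 0) * hp' - (v 0 * w' 3 - v 3 * w' 0) * hp

/-- The kernel of `c(v, ·)` on `v^⊥`. -/
lemma eq_smul_of_cc_eq_zero {v w : Fin 4 → F} (hv : v ≠ 0) (hw : altForm4 v w = 0)
    (hc : cc v w = 0) : ∃ a : F, w = a • v := by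
  have h2 : (2 : F) = 0 := CharTwo.two_eq_zero
  simp only [altForm4] at hw
  have h01 := congrFun hc 0
  have h02 := congrFun hc 1
  have h13 := congrFun hc 2
  have h23 := congrFun hc 3
  simp only [cc, pairOf_0, pairOf_1, pairOf_2, pairOf_3, Pi.zero_apply] at h01 h02 h13 h23
  have hp : (v 1 * w 2 - v 2 * w 1) = -(v 0 * w 3 - v 3 * w 0) := by
    linear_combination hw - (v 2 * w 1 + v 3 * w 0) * h2
  have h03 : v 0 * w 3 - v 3 * w 0 = 0 := by
    have hsq : (v 0 * w 3 - v 3 * w 0) ^ 2 = 0 := by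
      linear_combination (v 0 * w 3 - v 3 * w 0) * hp + (v 2 * w 3 - v 3 * w 2) * h01 -
        (v 1 * w 3 - v 3 * w 1) * h02
    exact pow_eq_zero_iff (two_ne_zero) |>.mp hsq
  have h12 : v 1 * w 2 - v 2 * w 1 = 0 := by
    rw [hp, h03, neg_zero]
  have hall : ∀ i j, v i * w j = v j * w i := by
    intro i j
    fin_cases i <;> fin_cases j <;> simp only [Fin.zero_eta, Fin.mk_one, Fin.reduceFinMk] <;>
      first
        | linear_combination h01
        | linear_combination h02
        | linear_combination h03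
        | linear_combination h12
        | linear_combination h13
        | linear_combination h23
        | linear_combination -h01
        | linear_combination -h02
        | linear_combination -h03
        | linear_combination -h12
        | linear_combination -h13
        | linear_combination -h23
  obtain ⟨i, hi⟩ := Function.ne_iff.mp hv
  have hi' : v i ≠ 0 := hi
  refine ⟨w i / v i, funext fun j => ?_⟩
  simp only [Pi.smul_apply, smul_eq_mul]
  field_simp
  linear_combination hall i j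

lemma cc_add_right (v u u' : Fin 4 → F) : cc v (u + u') = cc v u + cc v u' := by
  funext p
  simp only [cc, Pi.add_apply]
  ring

lemma cc_sub_right (v u u' : Fin 4 → F) : cc v (u - u') = cc v u - cc v u' := by
  funext p
  simp only [cc, Pi.sub_apply]
  ring

lemma cc_zero_right (v : Fin 4 → F) : cc v 0 = 0 := by
  funext p
  simp [cc]

lemma altForm4_add_right (c u u' : Fin 4 → F) :
    altForm4 c (u + u') = altForm4 c u + altForm4 c u' := by
  simp only [altForm4, Pi.add_apply]
  ring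

lemma altForm4_add_left (c c' u : Fin 4 → F) :
    altForm4 (c + c') u = altForm4 c u + altForm4 c' u := by
  simp only [altForm4, Pi.add_apply]
  ring

lemma altForm4_zero_right (c : Fin 4 → F) : altForm4 c 0 = 0 := by
  simp [altForm4]

lemma altForm4_sub_right (c u u' : Fin 4 → F) :
    altForm4 c (u - u') = altForm4 c u - altForm4 c u' := by
  simp only [altForm4, Pi.sub_apply]
  ring

lemma eq_zero_of_forall_altForm4 {d : Fin 4 → F} (h : ∀ u, altForm4 u d = 0) : d = 0 := by
  have h0 := h (Pi.single 3 1)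
  have h1 := h (Pi.single 2 1)
  have h2' := h (Pi.single 1 1)
  have h3 := h (Pi.single 0 1)
  simp [altForm4] at h0 h1 h2' h3
  funext i
  fin_cases i <;> simp [*]

/-- The form as an additive map in its second variable. -/
def altHom (c : Fin 4 → F) : (Fin 4 → F) →+ F :=
  AddMonoidHom.mk' (altForm4 c) (altForm4_add_right c)

end Char2

section Main

variable {F : Type*} [Field F] [Fintype F] [CharP F 2]

/-- **Key lemma.** An element of odd order of the Suzuki group fixing a nonzero vector is trivial. -/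
theorem eq_one_of_fixed_vector {g : Matrix (Fin 4) (Fin 4) F} (hg : Pres g) (ψ : F →+* F) {e : ℕ}
    (hψ : ∀ x, ψ (x ^ e) = x)
    (hstar : star4 g = g.map (fun x => x ^ e)) {s : ℕ} (hs : Odd s) (hgs : g ^ s = 1)
    {v : Fin 4 → F} (hv : v ≠ 0) (hfix : g *ᵥ v = v) : g = 1 := by
  classical
  have h2 : (2 : F) = 0 := CharTwo.two_eq_zero
  have hscast : (s : F) = 1 := by
    obtain ⟨k, rfl⟩ := hs
    push_cast
    linear_combination (k : F) * h2
  have hpow : ∀ i : ℕ, Pres (g ^ i) := by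
    intro i
    induction i with
    | zero => intro u w; simp
    | succ i ih =>
      intro u w
      rw [pow_succ, ← Matrix.mulVec_mulVec, ← Matrix.mulVec_mulVec, ih, hg]
  let A : Matrix (Fin 4) (Fin 4) F := ∑ i ∈ range s, g ^ i
  have hgA : g * A = A := by
    have := mul_geom_sum g s
    rw [hgs, sub_self, sub_mul, one_mul, sub_eq_zero] at this
    exact this
  have hgiA : ∀ i : ℕ, g ^ i * A = A := by
    intro i
    induction i with
    | zero => simp
    | succ i ih => rw [pow_succ, Matrix.mul_assoc, hgA, ih]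
  have hAA : A * A = A := by
    calc A * A = ∑ i ∈ range s, g ^ i * A := Finset.sum_mul _ _ _
      _ = ∑ i ∈ range s, A := sum_congr rfl (fun i _ => hgiA i)
      _ = (s : F) • A := by simp [Nat.cast_smul_eq_nsmul]
      _ = A := by rw [hscast, one_smul]
  have hfixpow : ∀ (c : Fin 4 → F), g *ᵥ c = c → ∀ i : ℕ, g ^ i *ᵥ c = c := by
    intro c hc i
    induction i with
    | zero => simp
    | succ i ih => rw [pow_succ, ← Matrix.mulVec_mulVec, hc, ih]
  have hAfix : ∀ c : Fin 4 → F, g *ᵥ c = c → A *ᵥ c = c := by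
    intro c hc
    calc A *ᵥ c = ∑ i ∈ range s, (g ^ i) *ᵥ c := Matrix.sum_mulVec _ _ _
      _ = ∑ i ∈ range s, c := sum_congr rfl (fun i _ => hfixpow c hc i)
      _ = (s : F) • c := by rw [sum_const, card_range, Nat.cast_smul_eq_nsmul]
      _ = c := by rw [hscast, one_smul]
  have hAimg : ∀ u : Fin 4 → F, g *ᵥ (A *ᵥ u) = A *ᵥ u := by
    intro u
    rw [Matrix.mulVec_mulVec, hgA]
  have hAsub : ∀ u : Fin 4 → F, A *ᵥ (u - A *ᵥ u) = 0 := by
    intro u
    rw [Matrix.mulVec_sub, Matrix.mulVec_mulVec, hAA, sub_self]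
  -- the fixed vectors are orthogonal to the kernel of `A`
  have hortho : ∀ c d : Fin 4 → F, g *ᵥ c = c → A *ᵥ d = 0 → altForm4 c d = 0 := by
    intro c d hc hd
    have h3 : ∀ i : ℕ, altForm4 c (g ^ i *ᵥ d) = altForm4 c d := by
      intro i
      have := hpow i c d
      rwa [hfixpow c hc i] at this
    have h4 : altForm4 c (A *ᵥ d) = (s : F) • altForm4 c d := by
      calc altForm4 c (A *ᵥ d) = altHom c (∑ i ∈ range s, (g ^ i) *ᵥ d) := by
            rw [Matrix.sum_mulVec]; rfl
        _ = ∑ i ∈ range s, altForm4 c (g ^ i *ᵥ d) := by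
            rw [map_sum]; rfl
        _ = ∑ i ∈ range s, altForm4 c d := sum_congr rfl (fun i _ => h3 i)
        _ = (s : F) • altForm4 c d := by simp
    rw [hd, altForm4_zero_right, hscast, one_smul] at h4
    exact h4.symm
  -- the map `X`
  let X : (Fin 4 → F) →+ (Fin 4 → F) := AddMonoidHom.mk' (fun u p => ψ (cc v u p)) (by
    intro u u'
    funext p
    simp only [cc_add_right, Pi.add_apply, map_add])
  have hX : ∀ u, X u = fun p => ψ (cc v u p) := fun u => rfl
  have hXg : ∀ u, altForm4 v u = 0 → X (g *ᵥ u) = g *ᵥ X u := by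
    intro u hu
    funext p
    have h3 : cc v (g *ᵥ u) p = (star4 g *ᵥ cc v u) p := by
      have := cc_mulVec_aux hg hu p
      rwa [hfix] at this
    rw [hX]
    simp only
    rw [h3, hstar]
    simp only [Matrix.mulVec, dotProduct, map_sum, map_mul, Matrix.map_apply, hψ]
    rfl
  have hvg : ∀ u, altForm4 v u = 0 → altForm4 v (g *ᵥ u) = 0 := by
    intro u hu
    have := hg v u
    rwa [hfix, hu] at this
  have hXgi : ∀ (i : ℕ) (u : Fin 4 → F), altForm4 v u = 0 → X (g ^ i *ᵥ u) = g ^ i *ᵥ X u := by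
    intro i
    induction i with
    | zero => intro u _; simp
    | succ i ih =>
      intro u hu
      rw [pow_succ, ← Matrix.mulVec_mulVec, ih _ (hvg u hu), hXg u hu, Matrix.mulVec_mulVec]
  have hXD : ∀ d : Fin 4 → F, A *ᵥ d = 0 → A *ᵥ X d = 0 := by
    intro d hd
    have hvd := hortho v d hfix hd
    calc A *ᵥ X d = ∑ i ∈ range s, (g ^ i) *ᵥ X d := Matrix.sum_mulVec _ _ _
      _ = ∑ i ∈ range s, X (g ^ i *ᵥ d) := sum_congr rfl (fun i _ => (hXgi i d hvd).symm)
      _ = X (∑ i ∈ range s, g ^ i *ᵥ d) := (map_sum X _ _).symm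
      _ = X (A *ᵥ d) := by rw [Matrix.sum_mulVec]
      _ = 0 := by rw [hd, map_zero]
  -- injectivity on the kernel of `A`
  have hinj : ∀ d d' : Fin 4 → F, A *ᵥ d = 0 → A *ᵥ d' = 0 → X d = X d' → d = d' := by
    intro d d' hd hd' hXdd
    have h3 : cc v d = cc v d' := by
      funext p
      exact ψ.injective (congrFun hXdd p)
    have h4 : cc v (d - d') = 0 := by
      rw [cc_sub_right, h3, sub_self]
    have h5 : A *ᵥ (d - d') = 0 := by
      rw [Matrix.mulVec_sub, hd, hd', sub_self]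
    obtain ⟨a, ha⟩ := eq_smul_of_cc_eq_zero hv (hortho v _ hfix h5) h4
    have h6 : a • v = 0 := by
      have := h5
      rw [ha, Matrix.mulVec_smul, hAfix v hfix] at this
      exact this
    rw [h6] at ha
    exact sub_eq_zero.mp ha
  -- surjectivity
  let D : Type _ := {d : Fin 4 → F // A *ᵥ d = 0}
  let XD : D → D := fun d => ⟨X d.1, hXD d.1 d.2⟩
  have hXDinj : Function.Injective XD := by
    intro a b hab
    exact Subtype.ext (hinj a.1 b.1 a.2 b.2 (congrArg Subtype.val hab))
  have hXDsurj : Function.Surjective XD := Finite.injective_iff_surjective.mp hXDinj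
  -- total isotropy
  have hiso : ∀ d d' : Fin 4 → F, A *ᵥ d = 0 → A *ᵥ d' = 0 → altForm4 d d' = 0 := by
    intro d d' hd hd'
    obtain ⟨a, ha⟩ := hXDsurj ⟨d, hd⟩
    obtain ⟨b, hb⟩ := hXDsurj ⟨d', hd'⟩
    have ha' : X a.1 = d := congrArg Subtype.val ha
    have hb' : X b.1 = d' := congrArg Subtype.val hb
    have h3 := altForm4_cc (hortho v a.1 hfix a.2) (hortho v b.1 hfix b.2)
    rw [← ha', ← hb']
    simp only [hX, altForm4]
    simp only [altForm4] at h3
    have := congrArg ψ h3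
    simpa only [map_add, map_mul, map_zero] using this
  -- everything is orthogonal to `D`
  have hall : ∀ u d : Fin 4 → F, A *ᵥ d = 0 → altForm4 u d = 0 := by
    intro u d hd
    have h3 : u = A *ᵥ u + (u - A *ᵥ u) := by abel
    rw [h3, altForm4_add_left, hortho _ d (hAimg u) hd, hiso _ d (hAsub u) hd, zero_add]
  have hzero : ∀ d : Fin 4 → F, A *ᵥ d = 0 → d = 0 := by
    intro d hd
    exact eq_zero_of_forall_altForm4 (fun u => hall u d hd)
  have hAid : ∀ u : Fin 4 → F, A *ᵥ u = u := by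
    intro u
    have := hzero _ (hAsub u)
    exact (sub_eq_zero.mp this).symm
  apply Matrix.mulVec_injective
  funext u
  have := hAimg u
  rw [hAid u] at this
  rw [this, Matrix.one_mulVec]

end Main

section SzMem

variable {F : Type*} [Field F] [CharP F 2]

lemma pres_one : Pres (1 : Matrix (Fin 4) (Fin 4) F) := by
  intro u v
  simp

lemma star4_one : star4 (1 : Matrix (Fin 4) (Fin 4) F) = 1 := by
  ext p r
  fin_cases p <;> fin_cases r <;>
    simp [star4_apply, pairOf_0, pairOf_1, pairOf_2, pairOf_3, Matrix.one_apply]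

lemma pres_mul {g h : Matrix (Fin 4) (Fin 4) F} (hg : Pres g) (hh : Pres h) : Pres (g * h) := by
  intro u v
  rw [← Matrix.mulVec_mulVec, ← Matrix.mulVec_mulVec, hg, hh]

/-- All elements of `Sz(F, e)` lie in `Sp₄(F)` and satisfy `g* = g^θ`. -/
theorem sz_mem (θ : F →+* F) {e : ℕ} (hθ : ∀ x, θ x = x ^ e) {g : GL (Fin 4) F}
    (hg : g ∈ Sz F e) :
    Pres (g : Matrix (Fin 4) (Fin 4) F) ∧
      star4 (g : Matrix (Fin 4) (Fin 4) F) = (g : Matrix (Fin 4) (Fin 4) F).map (fun x => x ^ e) := by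
  have hθ' : (fun x : F => x ^ e) = θ := funext fun x => (hθ x).symm
  rw [hθ']
  induction hg using Subgroup.closure_induction with
  | mem x hx =>
    rw [← hθ']
    exact ⟨hx.1, hx.2⟩
  | one =>
    refine ⟨pres_one, ?_⟩
    rw [Units.val_one, star4_one]
    exact (Matrix.map_one (θ : F → F) (map_zero θ) (map_one θ)).symm
  | mul x y _ _ hx hy =>
    refine ⟨pres_mul hx.1 hy.1, ?_⟩
    rw [Units.val_mul, star4_mul hx.1 hy.1, hx.2, hy.2, Matrix.map_mul]
  | inv x _ hx =>
    have hxx : (x : Matrix (Fin 4) (Fin 4) F) * ((x⁻¹ : GL (Fin 4) F) : Matrix (Fin 4) (Fin 4) F) = 1 := by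
      rw [← Units.val_mul, mul_inv_cancel, Units.val_one]
    have hxx' : ((x⁻¹ : GL (Fin 4) F) : Matrix (Fin 4) (Fin 4) F) * (x : Matrix (Fin 4) (Fin 4) F) = 1 := by
      rw [← Units.val_mul, inv_mul_cancel, Units.val_one]
    have hpi : Pres ((x⁻¹ : GL (Fin 4) F) : Matrix (Fin 4) (Fin 4) F) := by
      intro u v
      have := hx.1 (((x⁻¹ : GL (Fin 4) F) : Matrix (Fin 4) (Fin 4) F) *ᵥ u)
        (((x⁻¹ : GL (Fin 4) F) : Matrix (Fin 4) (Fin 4) F) *ᵥ v)
      rw [Matrix.mulVec_mulVec, Matrix.mulVec_mulVec, hxx, Matrix.one_mulVec,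
        Matrix.one_mulVec] at this
      exact this.symm
    refine ⟨hpi, ?_⟩
    have h1 : star4 ((x⁻¹ : GL (Fin 4) F) : Matrix (Fin 4) (Fin 4) F) *
        (x : Matrix (Fin 4) (Fin 4) F).map θ = 1 := by
      rw [← hx.2, ← star4_mul hpi hx.1, hxx', star4_one]
    have h2 : (x : Matrix (Fin 4) (Fin 4) F).map θ *
        ((x⁻¹ : GL (Fin 4) F) : Matrix (Fin 4) (Fin 4) F).map θ = 1 := by
      rw [← Matrix.map_mul, hxx]
      exact Matrix.map_one (θ : F → F) (map_zero θ) (map_one θ)
    calc star4 ((x⁻¹ : GL (Fin 4) F) : Matrix (Fin 4) (Fin 4) F)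
        = star4 ((x⁻¹ : GL (Fin 4) F) : Matrix (Fin 4) (Fin 4) F) *
          ((x : Matrix (Fin 4) (Fin 4) F).map θ *
            ((x⁻¹ : GL (Fin 4) F) : Matrix (Fin 4) (Fin 4) F).map θ) := by rw [h2, Matrix.mul_one]
      _ = ((x⁻¹ : GL (Fin 4) F) : Matrix (Fin 4) (Fin 4) F).map θ := by
          rw [← Matrix.mul_assoc, h1, Matrix.one_mul]

end SzMem

end Cfsg.Agent.Lib.SzFixedPoint
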