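import Mathlib
import Cfsg.Agent.Lib.ReprFourier
import Cfsg.Agent.Lib.SuzukiMax
import Cfsg.Agent.Lib.SuzukiIso

set_option autoImplicit false

/-!
# Minimal degree of a complex representation of the Suzuki groups
-/

namespace Cfsg.Agent.Lib.SzMinDeg

open Cfsg Cfsg.Agent.Lib.SuzukiBasic Cfsg.Agent.Lib.Suzuki Cfsg.Agent.Lib.Suzuki2
  Cfsg.Agent.Lib.Suzuki3 Cfsg.Agent.Lib.Suzuki4 Cfsg.Agent.Lib.SuzukiMax
open Matrix Cfsg.Agent.Lib.ReprFourier

variable {F : Type*} [Field F] [Fintype F] {m : ℕ} [CharP F 2] [SzHyp F m]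

/-! ### The normal closure of the centre of the Sylow 2-subgroup -/

lemma ww_eq : (ww * tt 1 0 * ww : Sz F m) = tt 0 1 * (ww * tt 1 0) := by
  apply Subtype.ext
  apply Subtype.ext
  change suzukiForm F * matT m 1 0 * suzukiForm F = matT m 0 1 * (suzukiForm F * matT m 1 0)
  have h2 : (1 : F) + 1 = 0 := CharTwo.add_self_eq_zero 1
  have hfn1 : fn m (1 : F) 0 = 1 := by
    simp [fn]
  have hfn2 : fn m (0 : F) 1 = 1 := by
    simp [fn]
  ext i j
  fin_cases i <;> fin_cases j <;>
    simp [matT, suzukiForm, Matrix.mul_apply, Fin.sum_univ_four, phi, hfn1, hfn2, h2]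

/-- The centre of the Sylow 2-subgroup generates the whole group as a normal subgroup. -/
theorem normal_eq_top (N : Subgroup (Sz F m)) [hN : N.Normal] (hZ : ∀ b : F, (tt 0 b : Sz F m) ∈ N) :
    N = ⊤ := by
  have hw : (ww : Sz F m) ∈ N := by
    have h1 : (ww : Sz F m) = (ww * tt 1 0)⁻¹ * tt 0 1 * (ww * tt 1 0) := by
      have h2 := ww_eq (F := F) (m := m)
      rw [mul_assoc, ← h2]
      group
    rw [h1]
    have h3 := hN.conj_mem _ (hZ 1) (ww * tt 1 0)⁻¹
    simpa using h3
  -- squares of the torus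
  have hsq : ∀ α : Fˣ, (hh (α⁻¹ * α⁻¹) : Sz F m) ∈ N := by
    intro α
    have h1 : (ww * (hh α * ww * (hh α)⁻¹) : Sz F m) ∈ N := mul_mem hw (hN.conj_mem _ hw _)
    have h2 : (ww * (hh α * ww * (hh α)⁻¹) : Sz F m) = hh (α⁻¹ * α⁻¹) := by
      calc (ww * (hh α * ww * (hh α)⁻¹) : Sz F m) = (ww * hh α * ww) * (hh α)⁻¹ := by group
        _ = hh α⁻¹ * hh α⁻¹ := by rw [ww_hh_ww, hh_inv]
        _ = _ := hh_mul _ _
    rwa [h2] at h1
  have hH : ∀ β : Fˣ, (hh β : Sz F m) ∈ N := by
    intro β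
    obtain ⟨x, hx⟩ : IsSquare (β : F) := FiniteField.isSquare_of_char_two (ringChar.eq F 2) _
    have hx0 : x ≠ 0 := by
      rintro rfl
      exact β.ne_zero (by simpa using hx)
    have h1 := hsq (Units.mk0 x hx0)⁻¹
    have h2 : ((Units.mk0 x hx0)⁻¹⁻¹ * (Units.mk0 x hx0)⁻¹⁻¹ : Fˣ) = β := by
      ext
      simp [hx]
    rwa [h2] at h1
  obtain ⟨α, hα⟩ := exists_unit_ne_one F m
  have hα1 : (α : F) + 1 ≠ 0 := by
    intro h
    exact hα (Units.ext (CharTwo.add_eq_zero.1 h))
  have hT : Tsub F m ≤ N := by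
    rintro _ ⟨c, b, rfl⟩
    set a : F := c / ((α : F) + 1) with ha
    have hc : (α : F) * a + a = c := by
      rw [ha]
      field_simp
    have h1 : (hh α * (tt a 0 * (hh α)⁻¹ * (tt a 0)⁻¹) : Sz F m) ∈ N :=
      mul_mem (hH α) (hN.conj_mem _ (inv_mem (hH α)) _)
    obtain ⟨y, hy⟩ : ∃ y, (hh α * (tt a 0 * (hh α)⁻¹ * (tt a 0)⁻¹) : Sz F m) = tt c y := by
      have h2 : (hh α * (tt a 0 * (hh α)⁻¹ * (tt a 0)⁻¹) : Sz F m) =
          (hh α * tt a 0) * (hh α)⁻¹ * (tt a 0)⁻¹ := by group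
      rw [h2, hh_mul_tt, mul_inv_cancel_right, tt_inv, tt_mul, hc]
      exact ⟨_, rfl⟩
    rw [hy] at h1
    have h3 : (tt c b : Sz F m) = tt c y * tt 0 (b + y) := by
      rw [tt_mul]
      have h4 : y + (b + y) + phi m c * 0 = b := by
        rw [mul_zero, add_zero, add_comm b y, ← add_assoc, CharTwo.add_self_eq_zero, zero_add]
      rw [add_zero, h4]
    rw [h3]
    exact mul_mem h1 (hZ _)
  refine eq_top_of_Tsub_le hT hw ?_
  change W F • suzukiPointInfinity F ≠ suzukiPointInfinity F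
  rw [W_smul_pInf (m := m)]
  exact pt_ne_inf (m := m) _ _

/-! ### The trace -/

/-- The absolute trace, as a polynomial. -/
def trF (m : ℕ) (x : F) : F := ∑ i ∈ Finset.range (2 * m + 1), x ^ (2 ^ i)

omit [SzHyp F m] in
lemma trF_add (x y : F) : trF m (x + y) = trF m x + trF m y := by
  simp only [trF, ← Finset.sum_add_distrib]
  refine Finset.sum_congr rfl fun i _ => ?_
  exact add_pow_char_pow x y 2 i

omit [SzHyp F m] in
lemma trF_zero : trF m (0 : F) = 0 := by
  simp [trF]

lemma trF_sq (x : F) : trF m (x ^ 2) = trF m x := by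
  have h1 : x ^ (2 ^ (2 * m + 1)) = x := by
    rw [show 2 ^ (2 * m + 1) = Fintype.card F from (SzHyp.hF).symm, FiniteField.pow_card]
  have key := Finset.sum_range_succ' (fun i => x ^ (2 ^ i)) (2 * m + 1)
  have key2 := Finset.sum_range_succ (fun i => x ^ (2 ^ i)) (2 * m + 1)
  simp only [pow_zero, pow_one, h1] at key key2
  rw [key2] at key
  have h3 := add_right_cancel key
  rw [trF, trF, h3]
  refine Finset.sum_congr rfl fun i _ => ?_
  rw [← pow_mul, pow_succ', mul_comm 2]

lemma trF_pow2 (x : F) (j : ℕ) : trF m (x ^ (2 ^ j)) = trF m x := by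
  induction j with
  | zero => simp
  | succ j ih =>
    rw [pow_succ, pow_mul, trF_sq, ih]

lemma trF_phi (x : F) : trF m (phi m x) = trF m x := trF_pow2 x (m + 1)

lemma trF_sq_self (x : F) : trF m x ^ 2 = trF m x := by
  conv_rhs => rw [← trF_sq]
  simp only [trF]
  rw [sum_pow_char 2]
  refine Finset.sum_congr rfl fun i _ => ?_
  rw [← pow_mul, ← pow_mul, mul_comm]

lemma trF_cases (x : F) : trF m x = 0 ∨ trF m x = 1 := by
  have h := trF_sq_self (m := m) x
  have h2 : trF m x * (trF m x - 1) = 0 := by linear_combination h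
  rcases mul_eq_zero.1 h2 with h3 | h3
  · exact Or.inl h3
  · exact Or.inr (sub_eq_zero.1 h3)

omit [SzHyp F m] in
lemma trF_one : trF m (1 : F) = 1 := by
  simp only [trF, one_pow, Finset.sum_const, Finset.card_range, nsmul_eq_mul, mul_one]
  push_cast
  have h2 : (2 : F) = 0 := CharTwo.two_eq_zero
  rw [h2]
  simp

open Classical in
/-- The additive character attached to the trace. -/
noncomputable def psi0 (m : ℕ) (F : Type*) [Field F] [Fintype F] [CharP F 2] [SzHyp F m] : AddChar F ℂ where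
  toFun x := if trF m x = 0 then 1 else -1
  map_zero_eq_one' := by simp [trF_zero]
  map_add_eq_mul' x y := by
    rw [trF_add]
    rcases trF_cases (m := m) x with h | h <;> rcases trF_cases (m := m) y with h' | h' <;>
      simp [h, h', CharTwo.add_self_eq_zero]

open Classical in
lemma psi0_apply (x : F) : psi0 m F x = if trF m x = 0 then 1 else -1 := rfl

lemma psi0_ne_one {x : F} (h : trF m x ≠ 0) : psi0 m F x ≠ 1 := by
  rw [psi0_apply, if_neg h]
  norm_num

lemma psi0_prim : (psi0 m F).IsPrimitive := by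
  intro a ha
  refine AddChar.ne_one_iff.2 ⟨a⁻¹, ?_⟩
  rw [AddChar.mulShift_apply, mul_inv_cancel₀ ha]
  apply psi0_ne_one
  rw [trF_one]
  exact one_ne_zero

/-- The commutator form. -/
def cc (m : ℕ) (d b : F) : F := phi m b * d + phi m d * b

lemma cc_add_left (d d' b : F) : cc m (d + d') b = cc m d b + cc m d' b := by
  simp only [cc, phi_add]
  ring

lemma cc_add_right (d b b' : F) : cc m d (b + b') = cc m d b + cc m d b' := by
  simp only [cc, phi_add]
  ring

lemma sum_psi_cc {d : F} (hd0 : d ≠ 0) (hd : trF m d = 0) : ∑ b, psi0 m F (cc m d b) = 0 := by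
  have hd1 : d ≠ 1 := by
    rintro rfl
    rw [trF_one] at hd
    exact one_ne_zero hd
  have hdd : d + d ^ 2 ≠ 0 := by
    have : d + d ^ 2 = d * (1 + d) := by ring
    rw [this]
    refine mul_ne_zero hd0 ?_
    intro h
    exact hd1 (CharTwo.add_eq_zero.1 h).symm
  let f : F →+ F :=
    { toFun := fun b => cc m d b
      map_zero' := by simp [cc, phi_zero]
      map_add' := cc_add_right d }
  have hχ : (psi0 m F).compAddMonoidHom f ≠ 1 := by
    -- surjectivity of phi
    have hsurj : Function.Surjective (phi m : F → F) :=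
      Finite.injective_iff_surjective.1 (fun _ _ h => phi_inj h)
    obtain ⟨b, hb⟩ := hsurj (d + d ^ 2)⁻¹
    refine AddChar.ne_one_iff.2 ⟨b, ?_⟩
    change psi0 m F (cc m d b) ≠ 1
    apply psi0_ne_one
    have h1 : trF m (cc m d b) = trF m (phi m b * d) + trF m (phi m d * b) := by
      rw [cc, trF_add]
    have h2 : trF m (phi m d * b) = trF m (d ^ 2 * phi m b) := by
      rw [← trF_phi (phi m d * b), phi_mul, phi_phi]
    rw [h1, h2, ← trF_add]
    have h3 : phi m b * d + d ^ 2 * phi m b = 1 := by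
      rw [hb, ← inv_mul_cancel₀ hdd]
      ring
    rw [h3, trF_one]
    exact one_ne_zero
  exact AddChar.sum_eq_zero_of_ne_one hχ

/-! ### Traces of idempotents -/

lemma trace_idem {k : ℕ} (e : Matrix (Fin k) (Fin k) ℂ) (he : e * e = e) :
    e.trace = ((Module.finrank ℂ (LinearMap.range (Matrix.toLin' e)) : ℕ) : ℂ) := by
  have h1 : IsIdempotentElem (Matrix.toLin' e) := by
    change Matrix.toLin' e * Matrix.toLin' e = _
    rw [Module.End.mul_eq_comp, ← Matrix.toLin'_mul, he]
  have h2 := (LinearMap.IsIdempotentElem.isProj_range _ h1).trace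
  rwa [Matrix.trace_toLin'_eq] at h2

/-! ### The main argument -/

section main

variable [DecidableEq F] {k : ℕ} (τ : Sz F m →* Matrix (Fin k) (Fin k) ℂ)

/-- The representation of the centre. -/
noncomputable def rr (v : Fin 1 → F) : Matrix (Fin k) (Fin k) ℂ := τ (tt 0 (v 0))

lemma tt0_add (b b' : F) : (tt 0 (b + b') : Sz F m) = tt 0 b * tt 0 b' := by
  rw [tt_mul]
  simp [phi_zero]

lemma rr_zero : rr τ 0 = 1 := by
  simp only [rr, Pi.zero_apply]
  rw [tt_zero, map_one]

lemma rr_add (v w : Fin 1 → F) : rr τ (v + w) = rr τ v * rr τ w := by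
  simp only [rr, Pi.add_apply]
  rw [tt0_add, map_mul]

lemma card_cast_ne : ((Fintype.card (Fin 1 → F) : ℕ) : ℂ) ≠ 0 := by
  exact_mod_cast Fintype.card_ne_zero

/-- The idempotent of the trace character. -/
noncomputable def e1 : Matrix (Fin k) (Fin k) ℂ := eU (psi0 m F) (rr τ) (fun _ => 1)

lemma X_comm_rr (a : F) (v : Fin 1 → F) : τ (tt a 0) * rr τ v = rr τ v * τ (tt a 0) := by
  simp only [rr]
  rw [← map_mul, ← map_mul, tt_mul, tt_mul]
  simp [phi_zero, add_comm]

lemma X_comm_e1 (a : F) : τ (tt a 0) * e1 τ = e1 τ * τ (tt a 0) :=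
  comm_eU (fun v => X_comm_rr τ a v) _

lemma rr_mul_e1 (z : F) : τ (tt 0 z) * e1 τ = psi0 m F z • e1 τ := by
  have h := r_mul_eU (ψ := psi0 m F) (r := rr τ) (rr_add τ) (fun _ => (1 : F)) (fun _ => z)
  simpa [rr, e1, dotProduct] using h

lemma X_mul_X (a b : F) : τ (tt b 0) * τ (tt a 0) = τ (tt 0 (cc m a b)) * (τ (tt a 0) * τ (tt b 0)) := by
  rw [← map_mul, ← map_mul, ← map_mul, tt_mul, tt_mul, tt_mul]
  congr 2
  · simp [add_comm]
  · simp only [cc, phi_zero, zero_mul, add_zero, zero_add]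
    rw [add_assoc, CharTwo.add_self_eq_zero, add_zero]

/-- An inverse for the image of a group element. -/
lemma tau_inv_mul (g : Sz F m) : τ g⁻¹ * τ g = 1 := by
  rw [← map_mul, inv_mul_cancel, map_one]

lemma tau_mul_inv (g : Sz F m) : τ g * τ g⁻¹ = 1 := by
  rw [← map_mul, mul_inv_cancel, map_one]

/-- The conjugation action on the compressed operators. -/
lemma conj_Y (a b : F) : τ (tt b 0) * (τ (tt a 0) * e1 τ) * τ (tt b 0)⁻¹ =
    psi0 m F (cc m a b) • (τ (tt a 0) * e1 τ) := by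
  set z := cc m a b with hz
  have h1 : τ (tt 0 z) * τ (tt a 0) = τ (tt a 0) * τ (tt 0 z) := by
    have := X_comm_rr τ a (fun _ => z)
    simpa [rr] using this.symm
  calc τ (tt b 0) * (τ (tt a 0) * e1 τ) * τ (tt b 0)⁻¹
      = (τ (tt b 0) * τ (tt a 0)) * e1 τ * τ (tt b 0)⁻¹ := by simp only [Matrix.mul_assoc]
    _ = τ (tt 0 z) * (τ (tt a 0) * τ (tt b 0)) * e1 τ * τ (tt b 0)⁻¹ := by rw [X_mul_X]
    _ = τ (tt 0 z) * τ (tt a 0) * (τ (tt b 0) * e1 τ) * τ (tt b 0)⁻¹ := by
        simp only [Matrix.mul_assoc]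
    _ = τ (tt 0 z) * τ (tt a 0) * e1 τ * (τ (tt b 0) * τ (tt b 0)⁻¹) := by
        rw [X_comm_e1]
        simp only [Matrix.mul_assoc]
    _ = τ (tt a 0) * (τ (tt 0 z) * e1 τ) := by
        rw [tau_mul_inv, Matrix.mul_one, h1, Matrix.mul_assoc]
    _ = _ := by
        rw [rr_mul_e1, Matrix.mul_smul]

/-- Linear independence of the compressed operators. -/
lemma Y_indep (he : e1 τ ≠ 0) (C : Finset F) (hC : ∀ a ∈ C, trF m a = 0)
    (c : F → ℂ) (h : ∑ a ∈ C, c a • (τ (tt a 0) * e1 τ) = 0) {a₀ : F} (ha₀ : a₀ ∈ C) : c a₀ = 0 := by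
  -- the conjugated relation
  have h1 : ∀ b : F, ∑ a ∈ C, (c a * psi0 m F (cc m a b)) • (τ (tt a 0) * e1 τ) = 0 := by
    intro b
    have h2 := congrArg (fun M => τ (tt b 0) * M * τ (tt b 0)⁻¹) h
    simp only [Matrix.mul_zero, Matrix.zero_mul, Finset.mul_sum, Finset.sum_mul, Matrix.mul_smul,
      Matrix.smul_mul, conj_Y] at h2
    rw [← h2]
    refine Finset.sum_congr rfl fun a _ => ?_
    rw [mul_smul]
  -- summing up
  have h3 : ∑ b, psi0 m F (cc m a₀ b) • ∑ a ∈ C, (c a * psi0 m F (cc m a b)) • (τ (tt a 0) * e1 τ) = 0 := by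
    simp only [h1, smul_zero, Finset.sum_const_zero]
  have h4 : ∑ b, psi0 m F (cc m a₀ b) • ∑ a ∈ C, (c a * psi0 m F (cc m a b)) • (τ (tt a 0) * e1 τ) =
      ∑ a ∈ C, (c a * ∑ b, psi0 m F (cc m (a₀ + a) b)) • (τ (tt a 0) * e1 τ) := by
    simp only [Finset.smul_sum, smul_smul]
    rw [Finset.sum_comm]
    refine Finset.sum_congr rfl fun a _ => ?_
    rw [Finset.mul_sum, Finset.sum_smul]
    refine Finset.sum_congr rfl fun b _ => ?_
    rw [cc_add_left, AddChar.map_add_eq_mul]
    congr 1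
    ring
  rw [h4] at h3
  rw [Finset.sum_eq_single a₀] at h3
  · have h5 : cc m (a₀ + a₀) = fun _ : F => 0 := by
      funext b
      rw [CharTwo.add_self_eq_zero]
      simp [cc, phi_zero]
    simp only [h5, AddChar.map_zero_eq_one, Finset.sum_const, Finset.card_univ, nsmul_eq_mul, mul_one] at h3
    have h6 : τ (tt a₀ 0) * e1 τ ≠ 0 := by
      intro h7
      apply he
      calc e1 τ = τ (tt a₀ 0)⁻¹ * τ (tt a₀ 0) * e1 τ := by rw [tau_inv_mul, Matrix.one_mul]
        _ = τ (tt a₀ 0)⁻¹ * (τ (tt a₀ 0) * e1 τ) := by rw [Matrix.mul_assoc]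
        _ = 0 := by rw [h7, Matrix.mul_zero]
    have h7 := (smul_eq_zero.1 h3).resolve_right h6
    have h8 : ((Fintype.card F : ℕ) : ℂ) ≠ 0 := by
      exact_mod_cast Fintype.card_ne_zero
    exact (mul_eq_zero.1 h7).resolve_right h8
  · intro a ha hne
    have h9 : a₀ + a ≠ 0 := by
      intro h
      exact hne (CharTwo.add_eq_zero.1 h).symm
    have h10 : trF m (a₀ + a) = 0 := by
      rw [trF_add, hC _ ha₀, hC _ ha, add_zero]
    rw [sum_psi_cc h9 h10]
    simp
  · intro h
    exact absurd ha₀ h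

lemma card_C : (Finset.univ.filter fun a : F => trF m a = 0).card = 2 ^ (2 * m) := by
  classical
  set C := Finset.univ.filter fun a : F => trF m a = 0 with hC
  have h1 : (Finset.univ.filter fun a : F => ¬ trF m a = 0).card = C.card := by
    refine Finset.card_bij (fun a _ => a + 1) ?_ ?_ ?_
    · intro a ha
      have h2 := (Finset.mem_filter.1 ha).2
      refine Finset.mem_filter.2 ⟨Finset.mem_univ _, ?_⟩
      rw [trF_add, trF_one]
      rcases trF_cases (m := m) a with h3 | h3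
      · exact absurd h3 h2
      · rw [h3]
        exact CharTwo.add_self_eq_zero 1
    · intro a _ b _ h
      exact add_right_cancel h
    · intro b hb
      refine ⟨b + 1, ?_, ?_⟩
      · refine Finset.mem_filter.2 ⟨Finset.mem_univ _, ?_⟩
        rw [trF_add, trF_one, (Finset.mem_filter.1 hb).2, zero_add]
        exact one_ne_zero
      · rw [add_assoc, CharTwo.add_self_eq_zero, add_zero]
  have h2 := Finset.card_filter_add_card_filter_not (s := (Finset.univ : Finset F)) (fun a : F => trF m a = 0)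
  rw [h1, Finset.card_univ, SzHyp.hF (F := F) (m := m), ← hC] at h2
  have h3 : 2 ^ (2 * m + 1) = 2 * 2 ^ (2 * m) := by ring
  omega

omit [DecidableEq F] in
lemma card_le_of_indep {K V ι : Type*} [Field K] [AddCommGroup V] [Module K V] [FiniteDimensional K V]
    [Fintype ι] (y : ι → (V →ₗ[K] V)) (h : ∀ g : ι → K, ∑ i, g i • y i = 0 → ∀ i, g i = 0) :
    Fintype.card ι ≤ Module.finrank K V * Module.finrank K V := by
  have hli : LinearIndependent K y := Fintype.linearIndependent_iff.2 h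
  have h6 := hli.fintype_card_le_finrank
  rwa [Module.finrank_linearMap] at h6

/-- The dimension of a non-zero eigenspace. -/
lemma rank_bound (he : e1 τ ≠ 0) :
    2 ^ m ≤ Module.finrank ℂ (LinearMap.range (Matrix.toLin' (e1 τ))) := by
  classical
  set W := LinearMap.range (Matrix.toLin' (e1 τ)) with hW
  have hmaps : ∀ a : F, ∀ x ∈ W, Matrix.toLin' (τ (tt a 0)) x ∈ W := by
    rintro a _ ⟨z, rfl⟩
    refine ⟨Matrix.toLin' (τ (tt a 0)) z, ?_⟩
    simp only [Matrix.toLin'_apply, Matrix.mulVec_mulVec]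
    rw [X_comm_e1]
  let C : Finset F := Finset.univ.filter fun a : F => trF m a = 0
  let y : C → (W →ₗ[ℂ] W) := fun a => LinearMap.restrict (Matrix.toLin' (τ (tt a.1 0))) (hmaps a.1)
  have h6 : Fintype.card C ≤ Module.finrank ℂ W * Module.finrank ℂ W := by
    refine card_le_of_indep y ?_
    intro g hg a
    -- extend `g` to `F`
    let c : F → ℂ := fun x => if hx : x ∈ C then g ⟨x, hx⟩ else 0
    have h1 : ∑ x ∈ C, c x • (τ (tt x 0) * e1 τ) = 0 := by
      apply Matrix.toLin'.injective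
      apply LinearMap.ext
      intro z
      have h2 := congrArg (fun f : W →ₗ[ℂ] W => ((f ⟨Matrix.toLin' (e1 τ) z, LinearMap.mem_range_self _ z⟩ : W) : Fin k → ℂ)) hg
      simp only [LinearMap.sum_apply, LinearMap.smul_apply, y, LinearMap.zero_apply] at h2
      simp only [map_zero, LinearMap.zero_apply]
      rw [map_sum, LinearMap.sum_apply, ← Finset.sum_coe_sort C]
      have h3 : ∀ x : C, c x.1 = g x := fun x => by simp [c, x.2]
      simp only [h3, map_smul, LinearMap.smul_apply]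
      simp only [Submodule.coe_sum, Submodule.coe_smul, LinearMap.coe_restrict_apply,
        Submodule.coe_zero] at h2
      simpa [Matrix.toLin'_mul] using h2
    have h5 : c a.1 = 0 := Y_indep τ he C (fun x hx => (Finset.mem_filter.1 hx).2) c h1 a.2
    simpa [c, a.2] using h5
  rw [Fintype.card_coe, card_C] at h6
  by_contra hcon
  push Not at hcon
  have h7 : Module.finrank ℂ W * Module.finrank ℂ W < 2 ^ m * 2 ^ m :=
    Nat.mul_lt_mul'' hcon hcon
  have h8 : 2 ^ m * 2 ^ m = 2 ^ (2 * m) := by ring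
  omega

/-- The main bound, when the centre of the Sylow subgroup does not act trivially. -/
theorem main_bound (hτ : ∃ b : F, τ (tt 0 b) ≠ 1) :
    2 ^ m * (2 ^ (2 * m + 1) - 1) ≤ k := by
  classical
  obtain ⟨b, hb⟩ := hτ
  have hprim := psi0_prim (F := F) (m := m)
  have hr0 := rr_zero τ
  have hradd := rr_add τ
  have hc := card_cast_ne (F := F)
  have hrw : rr τ (fun _ => b) ≠ 1 := by simpa [rr] using hb
  obtain ⟨u, hu, hu1⟩ := exists_eU_ne hprim hr0 hradd hc hrw
  have hu0 : u ≠ 0 := by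
    rintro rfl
    apply hu1
    simp
  -- the conjugation
  have hconj : ∀ u' : Fin 1 → F, u' ≠ 0 → ∃ P P' : Matrix (Fin k) (Fin k) ℂ, P' * P = 1 ∧
      P * e1 τ * P' = eU (psi0 m F) (rr τ) u' := by
    intro u' hu'
    have ht : u' 0 ≠ 0 := by
      intro h
      apply hu'
      funext i
      rw [Fin.eq_zero i, h]
      rfl
    set β : F := (u' 0)⁻¹ with hβ
    have hβ0 : β ≠ 0 := inv_ne_zero ht
    have hφ0 : phi m β ≠ 0 := phi_ne_zero hβ0
    set α : Fˣ := Units.mk0 (phi m β / β) (div_ne_zero hφ0 hβ0) with hα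
    have hαc : phi m (α : F) * α = β := by
      have h1 : phi m (phi m β / β) = β ^ 2 / phi m β := by
        rw [div_eq_mul_inv, phi_mul, phi_phi]
        have h2 : phi m β⁻¹ = (phi m β)⁻¹ := by
          simp [phi]
        rw [h2, div_eq_mul_inv]
      simp only [hα, Units.val_mk0]
      rw [h1]
      field_simp
    refine ⟨τ (hh α), τ (hh α)⁻¹, tau_inv_mul τ _, ?_⟩
    let eqv : (Fin 1 → F) ≃ (Fin 1 → F) :=
      { toFun := fun v i => β * v i
        invFun := fun v i => β⁻¹ * v i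
        left_inv := fun v => by
          funext i
          field_simp
        right_inv := fun v => by
          funext i
          field_simp }
    refine conj_eU_eq eqv ?_ ?_
    · intro v
      simp only [rr]
      rw [← map_mul, ← map_mul, hh_mul_tt, mul_inv_cancel_right, hαc, mul_zero]
      rfl
    · intro v
      simp only [dotProduct, Fin.sum_univ_one]
      change u' 0 * (β * v 0) = 1 * v 0
      rw [hβ]
      field_simp
  have he1 : e1 τ ≠ 0 := by
    intro h0
    obtain ⟨P, P', _, h2⟩ := hconj u hu0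
    rw [h0, Matrix.mul_zero, Matrix.zero_mul] at h2
    exact hu h2.symm
  have hrk := rank_bound τ he1
  -- summing ranks
  let rk : (Fin 1 → F) → ℕ := fun u' =>
    Module.finrank ℂ (LinearMap.range (Matrix.toLin' (eU (psi0 m F) (rr τ) u')))
  have htr : ∀ u', (eU (psi0 m F) (rr τ) u').trace = ((rk u' : ℕ) : ℂ) := by
    intro u'
    apply trace_idem
    rw [eU_mul_eU hprim hradd hc, if_pos rfl]
  have hrk1 : ∀ u', u' ≠ 0 → rk u' = rk (fun _ => 1) := by
    intro u' hu'
    obtain ⟨P, P', h1, h2⟩ := hconj u' hu'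
    have h3 : (eU (psi0 m F) (rr τ) u').trace = (e1 τ).trace := by
      rw [← h2, Matrix.trace_mul_comm, ← Matrix.mul_assoc, h1, Matrix.one_mul]
    rw [htr] at h3
    have h4 := htr (fun _ => 1)
    change (e1 τ).trace = _ at h4
    rw [h4] at h3
    exact_mod_cast h3
  have hsum : k = ∑ u', rk u' := by
    have h1 := sum_eU hprim hr0 hc (ψ := psi0 m F) (r := rr τ)
    have h2 := congrArg Matrix.trace h1
    rw [Matrix.trace_sum, Matrix.trace_one, Fintype.card_fin] at h2
    simp only [htr] at h2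
    exact_mod_cast h2.symm
  have hcard : (Finset.univ.erase (0 : Fin 1 → F)).card = 2 ^ (2 * m + 1) - 1 := by
    rw [Finset.card_erase_of_mem (Finset.mem_univ _), Finset.card_univ]
    simp [SzHyp.hF (F := F) (m := m)]
  calc 2 ^ m * (2 ^ (2 * m + 1) - 1) ≤ rk (fun _ => 1) * (2 ^ (2 * m + 1) - 1) :=
        Nat.mul_le_mul_right _ hrk
    _ = ∑ u' ∈ Finset.univ.erase (0 : Fin 1 → F), rk (fun _ => 1) := by
        rw [Finset.sum_const, hcard, smul_eq_mul, mul_comm]
    _ = ∑ u' ∈ Finset.univ.erase (0 : Fin 1 → F), rk u' :=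
        Finset.sum_congr rfl fun u' hu' => (hrk1 u' (Finset.ne_of_mem_erase hu')).symm
    _ ≤ ∑ u', rk u' := Finset.sum_le_sum_of_subset (Finset.subset_univ _)
    _ = k := hsum.symm

end main

end Cfsg.Agent.Lib.SzMinDeg
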