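import Mathlib
import Cfsg.Agent.Lib.Frat

/-!
# An abstract core for groups of class two with a Klein four action

Used for `S3174`.  Here `G` is a group with a central elementary abelian subgroup `Y` containing
all squares, `Z ≤ Y` a subgroup of index two.  Two endomorphisms `K`, `L` act; the conclusion is a
subgroup of index at most eight missing a given element of `Y \ Z`.
-/

set_option autoImplicit false

namespace Cfsg.Agent.Lib.T14Abs

variable {G : Type*} [Group G]

/-- The hypotheses on `Y`, `Z`. -/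
structure Ctx (Y Z : Subgroup G) : Prop where
  central : ∀ y ∈ Y, ∀ g : G, g * y = y * g
  sq : ∀ g : G, g * g ∈ Y
  el : ∀ y ∈ Y, y * y = 1
  le : Z ≤ Y
  idx : ∀ y ∈ Y, ∀ y' ∈ Y, y ∉ Z → y' ∉ Z → y * y' ∈ Z

open Classical in
/-- The indicator of the complement of `Z`. -/
noncomputable def chi (Z : Subgroup G) (y : G) : ZMod 2 := if y ∈ Z then 0 else 1

/-- The commutator. -/
def cm (a b : G) : G := a * b * a⁻¹ * b⁻¹

/-- The commutator form. -/
noncomputable def bt (Z : Subgroup G) (a b : G) : ZMod 2 := chi Z (cm a b)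

/-- The squaring form. -/
noncomputable def qd (Z : Subgroup G) (a : G) : ZMod 2 := chi Z (a * a)

theorem eq_of_add_eq_zero2 {x y : ZMod 2} (h : x + y = 0) : x = y := by
  revert x y; decide

theorem add_self2 (x : ZMod 2) : x + x = 0 := by
  revert x; decide

section
variable {Y Z : Subgroup G} (h : Ctx Y Z)
include h

theorem chi_mul {y y' : G} (hy : y ∈ Y) (hy' : y' ∈ Y) : chi Z (y * y') = chi Z y + chi Z y' := by
  unfold chi
  by_cases h1 : y ∈ Z <;> by_cases h2 : y' ∈ Z
  · simp [h1, h2, Z.mul_mem h1 h2]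
  · have : y * y' ∉ Z := fun h3 => h2 (by simpa using Z.mul_mem (Z.inv_mem h1) h3)
    simp [h1, h2, this]
  · have : y * y' ∉ Z := fun h3 => h1 (by simpa using Z.mul_mem h3 (Z.inv_mem h2))
    simp [h1, h2, this]
  · have := h.idx y hy y' hy' h1 h2
    simp only [h1, h2, this, if_true, if_false]
    decide

theorem cm_eq (a b : G) : cm a b = (a * b) * (a * b) * (a * a)⁻¹ * (b * b)⁻¹ := by
  have hc : b * (a * a)⁻¹ = (a * a)⁻¹ * b := h.central _ (Y.inv_mem (h.sq a)) b
  calc cm a b = a * b * a * ((a * a)⁻¹ * b) * (b * b)⁻¹ := by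
        simp only [cm]; group
    _ = a * b * a * (b * (a * a)⁻¹) * (b * b)⁻¹ := by rw [hc]
    _ = _ := by group

theorem cm_mem (a b : G) : cm a b ∈ Y := by
  rw [cm_eq h]
  exact Y.mul_mem (Y.mul_mem (h.sq _) (Y.inv_mem (h.sq _))) (Y.inv_mem (h.sq _))

theorem cm_inv (a b : G) : (cm a b)⁻¹ = cm a b :=
  inv_eq_of_mul_eq_one_left (h.el _ (cm_mem h a b))

theorem cm_symm (a b : G) : cm b a = cm a b := by
  rw [← cm_inv h a b]
  simp only [cm]; group

theorem sq_mul (a b : G) : (a * b) * (a * b) = a * a * (b * b) * cm a b := by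
  have h1 : (a * b) * (a * b) = cm a b * (b * b) * (a * a) := by
    rw [cm_eq h]; group
  rw [h1, h.central _ (h.sq a) (cm a b * (b * b)), mul_assoc (a * a) (b * b),
    h.central _ (cm_mem h a b) (b * b)]

theorem cm_mul_left (a b c : G) : cm (a * b) c = cm a c * cm b c := by
  have h1 : cm (a * b) c = a * cm b c * (c * a⁻¹ * c⁻¹) := by
    simp only [cm]; group
  have h2 : c * a⁻¹ * c⁻¹ = a⁻¹ * (cm a c) := by simp only [cm]; group
  rw [h1, h2, ← mul_assoc, h.central _ (cm_mem h b c) a]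
  have h3 : cm b c * a * a⁻¹ * cm a c = cm b c * cm a c := by group
  rw [h3]
  exact (h.central _ (cm_mem h a c) _)

theorem bt_mul_left (a b c : G) : bt Z (a * b) c = bt Z a c + bt Z b c := by
  simp only [bt]
  rw [cm_mul_left h, chi_mul h (cm_mem h _ _) (cm_mem h _ _)]

theorem bt_symm (a b : G) : bt Z a b = bt Z b a := by
  simp only [bt]; rw [cm_symm h]

theorem bt_mul_right (a b c : G) : bt Z a (b * c) = bt Z a b + bt Z a c := by
  rw [bt_symm h, bt_mul_left h, bt_symm h b, bt_symm h c]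

omit h in
theorem chi_one : chi Z (1 : G) = 0 := by simp [chi, Z.one_mem]

omit h in
theorem bt_self (a : G) : bt Z a a = 0 := by
  have : cm a a = 1 := by simp [cm]
  simp only [bt, this, chi_one]

theorem bt_central {y : G} (hy : y ∈ Y) (b : G) : bt Z y b = 0 := by
  have : cm y b = 1 := by
    have h1 := h.central y hy b
    simp only [cm]
    rw [← h1]
    group
  simp only [bt, this, chi_one]

theorem bt_central_right {y : G} (hy : y ∈ Y) (b : G) : bt Z b y = 0 := by
  rw [bt_symm h, bt_central h hy]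

theorem qd_central {y : G} (hy : y ∈ Y) : qd Z y = 0 := by
  simp only [qd, h.el y hy, chi_one]

theorem qd_mul (a b : G) : qd Z (a * b) = qd Z a + qd Z b + bt Z a b := by
  simp only [qd, bt]
  rw [sq_mul h, chi_mul h (Y.mul_mem (h.sq _) (h.sq _)) (cm_mem h _ _), chi_mul h (h.sq _) (h.sq _)]

theorem qd_inv (a : G) : qd Z a⁻¹ = qd Z a := by
  have h1 : a⁻¹ * a⁻¹ = a * a := by
    have h2 := inv_eq_of_mul_eq_one_left (h.el _ (h.sq a))
    rw [← h2]; group
  simp only [qd, h1]

theorem bt_inv_left (a c : G) : bt Z a⁻¹ c = bt Z a c := by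
  have h1 := bt_mul_left h a⁻¹ a c
  rw [inv_mul_cancel] at h1
  have h0 : bt Z (1 : G) c = 0 := bt_central h Y.one_mem c
  rw [h0] at h1
  exact eq_of_add_eq_zero2 h1.symm

theorem bt_inv_right (a c : G) : bt Z c a⁻¹ = bt Z c a := by
  rw [bt_symm h, bt_inv_left h, bt_symm h]

theorem bt_congr {a a' : G} (ha : a * a'⁻¹ ∈ Y) (b : G) : bt Z a b = bt Z a' b := by
  have h1 : a = (a * a'⁻¹) * a' := by group
  rw [h1, bt_mul_left h, bt_central h ha, zero_add]

end

/-- The hypotheses on an endomorphism. -/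
structure AutH (Y Z : Subgroup G) (K : G →* G) : Prop where
  chi : ∀ g, K g ∈ Z ↔ g ∈ Z
  mapY : ∀ y ∈ Y, K y ∈ Y
  sqr : ∀ a, K (K a) * a⁻¹ ∈ Y
  fix : ∀ y ∈ Y, K y = y → y ∈ Z

section
variable {Y Z : Subgroup G} {K : G →* G} (hK : AutH Y Z K)
include hK

theorem chi_K (g : G) : chi Z (K g) = chi Z g := by
  have := hK.chi g
  by_cases h1 : g ∈ Z
  · simp [chi, h1, this]
  · simp [chi, h1, this]

omit hK in
theorem cm_map (a b : G) : K (cm a b) = cm (K a) (K b) := by
  simp only [cm, map_mul, map_inv]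

theorem bt_K (a b : G) : bt Z (K a) (K b) = bt Z a b := by
  simp only [bt, ← cm_map, chi_K hK]

theorem qd_K (a : G) : qd Z (K a) = qd Z a := by
  simp only [qd, ← map_mul, chi_K hK]

variable (h : Ctx Y Z)
include h

theorem bt_KK (a b : G) : bt Z (K (K a)) b = bt Z a b :=
  bt_congr h (hK.sqr a) b

theorem bt_swap (a b : G) : bt Z (K a) b = bt Z a (K b) := by
  rw [← bt_K hK a (K b), bt_symm h (K a), bt_symm h (K a), bt_KK hK h]

theorem bt_key (a : G) : bt Z (K a) a = 0 := by
  have h1 : K (cm (K a) a) = cm (K a) a := by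
    rw [cm_map]
    have h2 : K (K a) = (K (K a) * a⁻¹) * a := by group
    have h3 : cm (K (K a) * a⁻¹) (K a) = 1 := by
      have h4 := h.central _ (hK.sqr a) (K a)
      simp only [cm]
      rw [← h4]
      group
    rw [h2, cm_mul_left h, h3, one_mul, cm_symm h]
  have h2 := hK.fix _ (cm_mem h _ _) h1
  simp [bt, chi, h2]

end

section
variable {Y Z : Subgroup G} (K L : G →* G)

/-- The norm form. -/
noncomputable def pf (Z : Subgroup G) (K L : G →* G) (a b : G) : ZMod 2 :=
  bt Z a b + bt Z (K a) b + bt Z (L a) b + bt Z (K (L a)) b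

variable {K L} (h : Ctx Y Z) (hK : AutH Y Z K) (hL : AutH Y Z L) (hKL : AutH Y Z (K.comp L))
  (hc : ∀ a, K (L a) * (L (K a))⁻¹ ∈ Y)
include h

theorem pf_mul_left (a b c : G) : pf Z K L (a * b) c = pf Z K L a c + pf Z K L b c := by
  simp only [pf, map_mul, bt_mul_left h]
  abel

theorem pf_mul_right (a b c : G) : pf Z K L a (b * c) = pf Z K L a b + pf Z K L a c := by
  simp only [pf, bt_mul_right h]
  abel

theorem pf_inv_left (a c : G) : pf Z K L a⁻¹ c = pf Z K L a c := by
  simp only [pf, map_inv, bt_inv_left h]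

theorem pf_inv_right (a c : G) : pf Z K L a c⁻¹ = pf Z K L a c := by
  simp only [pf, bt_inv_right h]

include hK hL

theorem pf_Y {y : G} (hy : y ∈ Y) (b : G) : pf Z K L y b = 0 := by
  simp only [pf]
  rw [bt_central h hy, bt_central h (hK.mapY _ hy), bt_central h (hL.mapY _ hy),
    bt_central h (hK.mapY _ (hL.mapY _ hy))]
  decide

/-- `K L K ≡ L` modulo `Y`. -/
theorem KLK (hc : ∀ a, K (L a) * (L (K a))⁻¹ ∈ Y) (a : G) : K (L (K a)) * (L a)⁻¹ ∈ Y := by
  have h1 := hc (K a)
  have h2 := hL.mapY _ (hK.sqr a)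
  have h3 : K (L (K a)) * (L a)⁻¹ =
      (K (L (K a)) * (L (K (K a)))⁻¹) * (L (K (K a) * a⁻¹)) := by
    simp only [map_mul, map_inv]; group
  rw [h3]
  exact Y.mul_mem h1 h2

theorem KLL (a : G) : K (L (L a)) * (K a)⁻¹ ∈ Y := by
  have h2 := hK.mapY _ (hL.sqr a)
  have h3 : K (L (L a)) * (K a)⁻¹ = K (L (L a) * a⁻¹) := by
    simp only [map_mul, map_inv]
  rw [h3]
  exact h2

theorem LKform (hc : ∀ a, K (L a) * (L (K a))⁻¹ ∈ Y) (a b : G) :
    bt Z (L (K a)) b = bt Z (K (L a)) b := by
  refine (bt_congr h ?_ b).symm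
  exact hc a

theorem pf_K_left (hc : ∀ a, K (L a) * (L (K a))⁻¹ ∈ Y) (a b : G) :
    pf Z K L (K a) b = pf Z K L a b := by
  simp only [pf]
  rw [bt_KK hK h, bt_congr h (KLK h hK hL hc a) b, LKform h hK hL hc a b]
  abel

theorem pf_L_left (a b : G) : pf Z K L (L a) b = pf Z K L a b := by
  simp only [pf]
  rw [bt_KK hL h, bt_congr h (KLL h hK hL a) b]
  abel

theorem pf_symm (hc : ∀ a, K (L a) * (L (K a))⁻¹ ∈ Y) (a b : G) : pf Z K L a b = pf Z K L b a := by
  simp only [pf]
  have h1 : bt Z (K a) b = bt Z (K b) a := by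
    rw [bt_swap hK h, bt_symm h]
  have h2 : bt Z (L a) b = bt Z (L b) a := by
    rw [bt_swap hL h, bt_symm h]
  have h3 : bt Z (K (L a)) b = bt Z (K (L b)) a := by
    rw [bt_swap hK h, bt_swap hL h, bt_symm h, LKform h hK hL hc]
  rw [h1, h2, h3, bt_symm h a b]

omit hK hL in
theorem pf_self (hK : AutH Y Z K) (hL : AutH Y Z L) (hKL : AutH Y Z (K.comp L)) (a : G) :
    pf Z K L a a = 0 := by
  simp only [pf]
  have h3 : bt Z (K (L a)) a = 0 := bt_key hKL h a
  rw [bt_self, bt_key hK h, bt_key hL h, h3]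
  decide

end

section Main
variable {Y Z : Subgroup G} {K L : G →* G} (h : Ctx Y Z) (hK : AutH Y Z K) (hL : AutH Y Z L)
  (hKL : AutH Y Z (K.comp L)) (hc : ∀ a, K (L a) * (L (K a))⁻¹ ∈ Y)

/-- The eight generators. -/
def gens (K L : G →* G) (e e' : G) : Set G :=
  {e, K e, L e, K (L e), e', K e', L e', K (L e')}

/-- The value of the norm form on the generators. -/
theorem pf_gen_aux {e : G} (h : Ctx Y Z) (hK : AutH Y Z K) (hL : AutH Y Z L)
    (hc : ∀ a, K (L a) * (L (K a))⁻¹ ∈ Y) (a : G) {b : ZMod 2} (h1 : pf Z K L e a = b) :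
    pf Z K L (K e) a = b ∧ pf Z K L (L e) a = b ∧ pf Z K L (K (L e)) a = b := by
  refine ⟨?_, ?_, ?_⟩
  · rw [pf_K_left h hK hL hc, h1]
  · rw [pf_L_left h hK hL, h1]
  · rw [pf_K_left h hK hL hc, pf_L_left h hK hL, h1]

include h hK hL hKL hc

theorem pf_eq_zero {e e' : G} (hgen : ∀ u, u ∈ Subgroup.closure ((Y : Set G) ∪ gens K L e e'))
    (hP : pf Z K L e e + pf Z K L e' e = 0) (a b : G) : pf Z K L a b = 0 := by
  have hee : pf Z K L e e = 0 := pf_self h hK hL hKL e
  have he'e' : pf Z K L e' e' = 0 := pf_self h hK hL hKL e'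
  have he'e : pf Z K L e' e = 0 := by simpa [hee] using hP
  have hee' : pf Z K L e e' = 0 := by rw [pf_symm h hK hL hc, he'e]
  -- first: anything paired with `e`, `e'`
  have step1 : ∀ a, pf Z K L a e = 0 ∧ pf Z K L a e' = 0 := by
    intro a
    induction hgen a using Subgroup.closure_induction with
    | mem x hx =>
      rcases hx with hx | hx
      · exact ⟨pf_Y h hK hL hx _, pf_Y h hK hL hx _⟩
      · obtain ⟨h1, h2, h3⟩ := pf_gen_aux h hK hL hc e hee
        obtain ⟨h1', h2', h3'⟩ := pf_gen_aux h hK hL hc e' hee'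
        obtain ⟨h4, h5, h6⟩ := pf_gen_aux (e := e') h hK hL hc e he'e
        obtain ⟨h4', h5', h6'⟩ := pf_gen_aux (e := e') h hK hL hc e' he'e'
        simp only [gens, Set.mem_insert_iff, Set.mem_singleton_iff] at hx
        rcases hx with rfl | rfl | rfl | rfl | rfl | rfl | rfl | rfl <;> constructor <;> assumption
    | one => exact ⟨pf_Y h hK hL Y.one_mem _, pf_Y h hK hL Y.one_mem _⟩
    | mul x y _ _ hx hy =>
      rw [pf_mul_left h, pf_mul_left h, hx.1, hx.2, hy.1, hy.2]
      decide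
    | inv x _ hx => rw [pf_inv_left h, pf_inv_left h]; exact hx
  induction hgen b using Subgroup.closure_induction with
  | mem x hx =>
    rw [pf_symm h hK hL hc]
    rcases hx with hx | hx
    · exact pf_Y h hK hL hx _
    · obtain ⟨h1, h2, h3⟩ := pf_gen_aux h hK hL hc a (pf_symm h hK hL hc e a ▸ (step1 a).1)
      obtain ⟨h4, h5, h6⟩ := pf_gen_aux (e := e') h hK hL hc a
        (pf_symm h hK hL hc e' a ▸ (step1 a).2)
      simp only [gens, Set.mem_insert_iff, Set.mem_singleton_iff] at hx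
      rcases hx with rfl | rfl | rfl | rfl | rfl | rfl | rfl | rfl
      · rw [pf_symm h hK hL hc]; exact (step1 a).1
      · exact h1
      · exact h2
      · exact h3
      · rw [pf_symm h hK hL hc]; exact (step1 a).2
      · exact h4
      · exact h5
      · exact h6
  | one => rw [pf_symm h hK hL hc]; exact pf_Y h hK hL Y.one_mem _
  | mul x y _ _ hx hy =>
    rw [pf_mul_right h, hx, hy]
    decide
  | inv x _ hx => rw [pf_inv_right h]; exact hx

/-- The subgroup spanned by `Y` and the images of `K - 1`, `L - 1`. -/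
def rr (Y : Subgroup G) (K L : G →* G) : Subgroup G :=
  Subgroup.closure ((Y : Set G) ∪ Set.range (fun a => a⁻¹ * K a) ∪ Set.range (fun a => a⁻¹ * L a))

omit hKL hc hK hL in
theorem bt_gen (A B : G →* G) (a b : G) :
    bt Z (a⁻¹ * A a) (b⁻¹ * B b) = bt Z a b + bt Z (A a) b + bt Z a (B b) + bt Z (A a) (B b) := by
  rw [bt_mul_left h, bt_mul_right h, bt_mul_right h, bt_inv_left h, bt_inv_left h, bt_inv_right h,
    bt_inv_right h]
  abel

omit hKL hc hL in
theorem bt_KK' (a b : G) : bt Z (a⁻¹ * K a) (b⁻¹ * K b) = 0 := by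
  rw [bt_gen h, bt_K hK, ← bt_swap hK h]
  have : ∀ x y : ZMod 2, x + y + y + x = 0 := by decide
  exact this _ _

theorem bt_KL' (hp : ∀ a b, pf Z K L a b = 0) (a b : G) : bt Z (a⁻¹ * K a) (b⁻¹ * L b) = 0 := by
  rw [bt_gen h, ← bt_swap hL h, ← bt_swap hL h, LKform h hK hL hc, ← hp a b]
  simp only [pf]

theorem bt_rr (hp : ∀ a b, pf Z K L a b = 0) {r s : G} (hr : r ∈ rr Y K L) (hs : s ∈ rr Y K L) :
    bt Z r s = 0 := by
  have base : ∀ x ∈ ((Y : Set G) ∪ Set.range (fun a => a⁻¹ * K a) ∪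
      Set.range (fun a => a⁻¹ * L a)), ∀ y ∈ ((Y : Set G) ∪ Set.range (fun a => a⁻¹ * K a) ∪
      Set.range (fun a => a⁻¹ * L a)), bt Z x y = 0 := by
    intro x hx y hy
    rcases hx with (hx | ⟨a, rfl⟩) | ⟨a, rfl⟩
    · exact bt_central h hx _
    · rcases hy with (hy | ⟨b, rfl⟩) | ⟨b, rfl⟩
      · exact bt_central_right h hy _
      · exact bt_KK' h hK a b
      · exact bt_KL' h hK hL hKL hc hp a b
    · rcases hy with (hy | ⟨b, rfl⟩) | ⟨b, rfl⟩
      · exact bt_central_right h hy _
      · rw [bt_symm h]; exact bt_KL' h hK hL hKL hc hp b a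
      · exact bt_KK' h hL a b
  induction hr using Subgroup.closure_induction with
  | mem x hx =>
    induction hs using Subgroup.closure_induction with
    | mem y hy => exact base x hx y hy
    | one => exact bt_central_right h Y.one_mem _
    | mul u v _ _ hu hv => rw [bt_mul_right h, hu, hv]; decide
    | inv u _ hu => rw [bt_inv_right h]; exact hu
  | one => exact bt_central h Y.one_mem _
  | mul u v _ _ hu hv => rw [bt_mul_left h, hu, hv]; decide
  | inv u _ hu => rw [bt_inv_left h]; exact hu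

omit hKL hc hL in
theorem qd_gen (a : G) : qd Z (a⁻¹ * K a) = 0 := by
  rw [qd_mul h, qd_inv h, qd_K hK, bt_inv_left h, bt_symm h, bt_key hK h, add_self2, add_zero]

theorem qd_rr (hp : ∀ a b, pf Z K L a b = 0) {r : G} (hr : r ∈ rr Y K L) : qd Z r = 0 := by
  have hr' := hr
  induction hr using Subgroup.closure_induction with
  | mem x hx =>
    rcases hx with (hx | ⟨a, rfl⟩) | ⟨a, rfl⟩
    · exact qd_central h hx
    · exact qd_gen h hK a
    · exact qd_gen h hL a
  | one => exact qd_central h Y.one_mem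
  | mul u v hu hv ihu ihv =>
    rw [qd_mul h, ihu hu, ihv hv, bt_rr h hK hL hKL hc hp hu hv]
    decide
  | inv u hu ihu => rw [qd_inv h]; exact ihu hu

omit hKL hc hK hL in
theorem Y_le_rr : Y ≤ rr Y K L := fun _ hy =>
  Subgroup.subset_closure (Or.inl (Or.inl hy))

omit hKL hc hK hL h in
theorem K_gen_mem (a : G) : a⁻¹ * K a ∈ rr Y K L :=
  Subgroup.subset_closure (Or.inl (Or.inr ⟨a, rfl⟩))

omit hKL hc hK hL h in
theorem L_gen_mem (a : G) : a⁻¹ * L a ∈ rr Y K L :=
  Subgroup.subset_closure (Or.inr ⟨a, rfl⟩)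

omit hKL hc hK hL in
theorem rr_normal : (rr Y K L).Normal := by
  constructor
  intro n hn g
  have h1 : g * n * g⁻¹ = cm g n * n := by simp only [cm]; group
  rw [h1]
  exact Subgroup.mul_mem _ (Y_le_rr h (cm_mem h g n)) hn

omit hKL hc hK hL in
theorem index_rr_le {e e' : G} (hgen : ∀ u, u ∈ Subgroup.closure ((Y : Set G) ∪ gens K L e e')) :
    (rr Y K L).index ≤ 4 := by
  have := rr_normal (K := K) (L := L) h
  let R := rr Y K L
  let π : G →* G ⧸ R := QuotientGroup.mk' R
  have hπY : ∀ y ∈ Y, π y = 1 := fun y hy =>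
    (QuotientGroup.eq_one_iff y).2 (Y_le_rr h hy)
  have hπK : ∀ x, π (K x) = π x := by
    intro x
    have := (QuotientGroup.eq_one_iff (x⁻¹ * K x)).2 (K_gen_mem (Y := Y) (K := K) (L := L) x)
    have h2 : π (x⁻¹ * K x) = 1 := this
    rw [map_mul, map_inv, inv_mul_eq_one] at h2
    exact h2.symm
  have hπL : ∀ x, π (L x) = π x := by
    intro x
    have := (QuotientGroup.eq_one_iff (x⁻¹ * L x)).2 (L_gen_mem (Y := Y) (K := K) (L := L) x)
    have h2 : π (x⁻¹ * L x) = 1 := this
    rw [map_mul, map_inv, inv_mul_eq_one] at h2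
    exact h2.symm
  have hsq : ∀ x, π x * π x = 1 := by
    intro x
    rw [← map_mul]
    exact hπY _ (h.sq x)
  have hcomm : ∀ x y, π x * π y = π y * π x := by
    intro x y
    have h1 := hπY _ (cm_mem h x y)
    simp only [cm, map_mul, map_inv] at h1
    have h2 : π x * π y * (π x)⁻¹ * (π y)⁻¹ = 1 := h1
    rw [mul_inv_eq_one, mul_inv_eq_iff_eq_mul] at h2
    exact h2
  set a := π e with ha
  set b := π e' with hb
  have key : ∀ u, π u = 1 ∨ π u = a ∨ π u = b ∨ π u = a * b := by
    intro u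
    induction hgen u using Subgroup.closure_induction with
    | mem x hx =>
      rcases hx with hx | hx
      · exact Or.inl (hπY x hx)
      · simp only [gens, Set.mem_insert_iff, Set.mem_singleton_iff] at hx
        rcases hx with rfl | rfl | rfl | rfl | rfl | rfl | rfl | rfl
        · exact Or.inr (Or.inl rfl)
        · exact Or.inr (Or.inl (hπK _))
        · exact Or.inr (Or.inl (hπL _))
        · exact Or.inr (Or.inl ((hπK _).trans (hπL _)))
        · exact Or.inr (Or.inr (Or.inl rfl))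
        · exact Or.inr (Or.inr (Or.inl (hπK _)))
        · exact Or.inr (Or.inr (Or.inl (hπL _)))
        · exact Or.inr (Or.inr (Or.inl ((hπK _).trans (hπL _))))
    | one => exact Or.inl (map_one _)
    | mul x y _ _ hx hy =>
      have haa : a * a = 1 := hsq e
      have hbb : b * b = 1 := hsq e'
      have hba : b * a = a * b := hcomm e' e
      have h1 : a * (a * b) = b := by rw [← mul_assoc, haa, one_mul]
      have h2 : b * (a * b) = a := by rw [← mul_assoc, hba, mul_assoc, hbb, mul_one]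
      have h3 : a * b * a = b := by rw [mul_assoc, hba, ← mul_assoc, haa, one_mul]
      have h4 : a * b * b = a := by rw [mul_assoc, hbb, mul_one]
      have h5 : a * b * (a * b) = 1 := by rw [← mul_assoc, h3, hbb]
      rw [map_mul]
      rcases hx with hx | hx | hx | hx <;> rcases hy with hy | hy | hy | hy <;> rw [hx, hy] <;>
        simp only [one_mul, mul_one, haa, hbb, hba, h1, h2, h3, h4, h5, true_or, or_true]
    | inv x _ hx =>
      have hinv : ∀ z : G, π z⁻¹ = π z := by
        intro z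
        rw [map_inv]
        exact inv_eq_of_mul_eq_one_left (hsq z)
      rw [hinv]
      exact hx
  have hsurj : Function.Surjective (fun i : Fin 4 => (![1, a, b, a * b] : Fin 4 → G ⧸ R) i) := by
    intro x
    obtain ⟨u, rfl⟩ := QuotientGroup.mk'_surjective R x
    rcases key u with h1 | h1 | h1 | h1
    · exact ⟨0, h1.symm⟩
    · exact ⟨1, h1.symm⟩
    · exact ⟨2, h1.symm⟩
    · exact ⟨3, h1.symm⟩
  have := Nat.card_le_card_of_surjective _ hsurj
  simpa [Subgroup.index] using this

end Main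

/-- A group with all squares in a normal subgroup `N` has an index-two subgroup containing `N` and
missing a given element outside `N`. -/
theorem exists_index_two {H : Type*} [Group H] [Finite H] (N : Subgroup H) [N.Normal]
    (hsq : ∀ g : H, g * g ∈ N) {z : H} (hz : z ∉ N) :
    ∃ U : Subgroup H, N ≤ U ∧ z ∉ U ∧ U.index = 2 := by
  have : Fact (Nat.Prime 2) := ⟨Nat.prime_two⟩
  let Q := H ⧸ N
  have hQ : ∀ x : Q, x * x = 1 := by
    intro x
    obtain ⟨g, rfl⟩ := QuotientGroup.mk'_surjective N x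
    rw [← map_mul]
    exact (QuotientGroup.eq_one_iff _).2 (hsq g)
  have hcomm : ∀ x y : Q, x * y = y * x := by
    intro x y
    have h1 : x⁻¹ = x := inv_eq_of_mul_eq_one_left (hQ x)
    have h2 : y⁻¹ = y := inv_eq_of_mul_eq_one_left (hQ y)
    have h3 : (x * y)⁻¹ = x * y := inv_eq_of_mul_eq_one_left (hQ _)
    rw [mul_inv_rev, h1, h2] at h3
    exact h3.symm
  have hP : IsPGroup 2 Q := fun x => ⟨1, by rw [pow_one, pow_two]; exact hQ x⟩
  have hfr : frattini Q ≤ ⊥ := by
    apply Cfsg.Agent.Lib.Frat.frattini_le_of_commutator_pow (p := 2)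
    · rw [commutator_def, Subgroup.commutator_le]
      intro x _ y _
      rw [Subgroup.mem_bot, commutatorElement_def, hcomm x y]
      group
    · intro x
      rw [pow_two, hQ x]
      exact Subgroup.one_mem _
  have hz' : QuotientGroup.mk' N z ≠ 1 := fun h => hz ((QuotientGroup.eq_one_iff _).1 h)
  have hnot : QuotientGroup.mk' N z ∉ frattini Q := fun h => hz' (Subgroup.mem_bot.mp (hfr h))
  have : ∃ C : Subgroup Q, IsCoatom C ∧ QuotientGroup.mk' N z ∉ C := by
    by_contra hcon
    push Not at hcon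
    apply hnot
    simpa [frattini, Order.radical, Subgroup.mem_iInf] using hcon
  obtain ⟨C, hC, hzC⟩ := this
  refine ⟨C.comap (QuotientGroup.mk' N), ?_, hzC, ?_⟩
  · intro n hn
    rw [Subgroup.mem_comap]
    have : QuotientGroup.mk' N n = 1 := (QuotientGroup.eq_one_iff _).2 hn
    rw [this]
    exact C.one_mem
  · rw [Subgroup.index_comap_of_surjective _ (QuotientGroup.mk'_surjective N)]
    exact Cfsg.Agent.Lib.Frat.index_eq_of_isCoatom hP hC

/-- **The abstract core.** -/
theorem core [Finite G] {Y Z : Subgroup G} {K L : G →* G} (h : Ctx Y Z) (hK : AutH Y Z K)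
    (hL : AutH Y Z L) (hKL : AutH Y Z (K.comp L)) (hc : ∀ a, K (L a) * (L (K a))⁻¹ ∈ Y)
    {e e' : G} (hgen : ∀ u, u ∈ Subgroup.closure ((Y : Set G) ∪ gens K L e e'))
    (hP : pf Z K L e e + pf Z K L e' e = 0) {z : G} (hzY : z ∈ Y) (hz : z ∉ Z) :
    ∃ U : Subgroup G, U.index ≤ 8 ∧ z ∉ U := by
  have hp := pf_eq_zero h hK hL hKL hc hgen hP
  let R := rr Y K L
  have hbt : ∀ {r s}, r ∈ R → s ∈ R → cm r s ∈ Z := by
    intro r s hr hs
    have h1 := bt_rr h hK hL hKL hc hp hr hs
    by_contra hcon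
    simp [bt, chi, hcon] at h1
  have hq : ∀ {r}, r ∈ R → r * r ∈ Z := by
    intro r hr
    have h1 := qd_rr h hK hL hKL hc hp hr
    by_contra hcon
    simp [qd, chi, hcon] at h1
  have hYR : Y ≤ R := Y_le_rr h
  let N : Subgroup R := Z.subgroupOf R
  have hN : N.Normal := by
    constructor
    intro n hn g
    rw [Subgroup.mem_subgroupOf] at hn ⊢
    have h1 : ((g * n * g⁻¹ : R) : G) = n := by
      have h2 := h.central _ (h.le hn) (g : G)
      simp only [Subgroup.coe_mul, Subgroup.coe_inv]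
      rw [h2]
      group
    rw [h1]
    exact hn
  have hz1 : (⟨z, hYR hzY⟩ : R) ∉ N := by
    rw [Subgroup.mem_subgroupOf]
    exact hz
  obtain ⟨U, hNU, hzU, hUi⟩ := exists_index_two N (fun g => by
    rw [Subgroup.mem_subgroupOf]
    exact hq g.2) hz1
  refine ⟨U.map R.subtype, ?_, ?_⟩
  · rw [Subgroup.index_map_subtype, hUi]
    have := index_rr_le h hgen
    change R.index ≤ 4 at this
    omega
  · rintro ⟨u, hu, hue⟩
    apply hzU
    have : u = ⟨z, hYR hzY⟩ := Subtype.ext hue
    rwa [← this]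

end Cfsg.Agent.Lib.T14Abs
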