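import Mathlib
import Cfsg.Agent.Lib.Frat
import Cfsg.Agent.Lib.T14A
import Cfsg.Agent.Lib.T14Abs
import Cfsg.Agent.Lib.DihedralIso

/-!
# Second stage for `S3174`: the structure of `Z₃(T)` and `T / W`.
-/

set_option autoImplicit false
set_option linter.unusedSectionVars false

namespace Cfsg.Agent.Lib.T14B

open Cfsg.Agent.Lib.T14A Cfsg.Agent.Lib.Frat

variable {T : Type*} [Group T] [Finite T] {W : Subgroup T}

local notation "𝒵" => Subgroup.upperCentralSeries T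

theorem hG (h : S1 W) : IsPGroup 2 ↥W := h.hT.to_subgroup W

theorem mem_frattini (h : S1 W) (u : ↥W) : u ∈ frattini ↥W ↔ (u : T) ∈ 𝒵 3 := by
  rw [← h.fr]
  constructor
  · intro hu
    exact ⟨u, hu, rfl⟩
  · rintro ⟨v, hv, hvu⟩
    have : v = u := Subtype.ext hvu
    rwa [← this]

theorem card_frattini (h : S1 W) : Nat.card (frattini ↥W) = 8 := by
  rw [← h.c3, ← h.fr]
  exact (Subgroup.card_subtype _ _).symm

theorem frat_eq_comm (h : S1 W) : frattini ↥W = commutator ↥W := by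
  have : Fact (Nat.Prime 2) := ⟨Nat.prime_two⟩
  exact le_antisymm (frattini_le_commutator (hG h) (card_frattini h).le h.hd)
    (commutator_le_frattini (hG h))

theorem comm_W (h : S1 W) {u y : T} (hu : u ∈ W) (hy : y ∈ 𝒵 3) : y * u = u * y := by
  have h1 := hu
  rw [h.hW, Subgroup.mem_centralizer_iff] at h1
  exact h1 y hy

theorem Z3_le_W (h : S1 W) : 𝒵 3 ≤ W := by
  rw [← h.fr]
  rintro _ ⟨v, _, rfl⟩
  exact v.2

theorem frat_central (h : S1 W) {y : ↥W} (hy : y ∈ frattini ↥W) (g : ↥W) : g * y = y * g := by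
  apply Subtype.ext
  exact (comm_W h g.2 ((mem_frattini h y).1 hy)).symm

theorem sq_mem (h : S1 W) (g : ↥W) : g * g ∈ frattini ↥W := by
  have : Fact (Nat.Prime 2) := ⟨Nat.prime_two⟩
  have := pow_mem_frattini (hG h) g
  rwa [pow_two] at this

/-- In class two with squares central, commutators have order at most two. -/
theorem comm_sq_one {G : Type*} [Group G] (Y : Subgroup G)
    (hYc : ∀ y ∈ Y, ∀ g : G, g * y = y * g) (hsq : ∀ g : G, g * g ∈ Y) (hcY : commutator G ≤ Y) :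
    ∀ y ∈ commutator G, y * y = 1 := by
  have hcom : ∀ a b : G, a * b * a⁻¹ * b⁻¹ ∈ Y := by
    intro a b
    apply hcY
    rw [commutator_def]
    have := Subgroup.commutator_mem_commutator (Subgroup.mem_top a) (Subgroup.mem_top b)
    rwa [commutatorElement_def] at this
  have hone : ∀ a b : G, (a * b * a⁻¹ * b⁻¹) * (a * b * a⁻¹ * b⁻¹) = 1 := by
    intro a b
    set c := a * b * a⁻¹ * b⁻¹ with hc
    have hcc : c ∈ Y := hcom a b
    have h1 : a * b * a⁻¹ = c * b := by rw [hc]; group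
    have h2 : (a * a) * b * (a * a)⁻¹ = c * c * b := by
      calc (a * a) * b * (a * a)⁻¹ = a * (a * b * a⁻¹) * a⁻¹ := by group
        _ = a * (c * b) * a⁻¹ := by rw [h1]
        _ = (a * c) * b * a⁻¹ := by group
        _ = (c * a) * b * a⁻¹ := by rw [hYc c hcc a]
        _ = c * (a * b * a⁻¹) := by group
        _ = c * (c * b) := by rw [h1]
        _ = _ := by group
    have h3 : (a * a) * b * (a * a)⁻¹ = b := by
      have := hYc _ (hsq a) b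
      rw [← this]
      group
    rw [h3] at h2
    have h4 : c * c * b = 1 * b := by rw [← h2, one_mul]
    exact mul_right_cancel h4
  intro y hy
  rw [commutator_eq_closure] at hy
  have hP : y ∈ Y ∧ y * y = 1 := by
    induction hy using Subgroup.closure_induction with
    | mem x hx =>
      obtain ⟨a, b, rfl⟩ := hx
      rw [commutatorElement_def]
      exact ⟨hcom a b, hone a b⟩
    | one => exact ⟨Y.one_mem, mul_one 1⟩
    | mul u v _ _ hu hv =>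
      refine ⟨Y.mul_mem hu.1 hv.1, ?_⟩
      calc u * v * (u * v) = u * (v * u) * v := by group
        _ = u * (u * v) * v := by rw [hYc v hv.1 u]
        _ = (u * u) * (v * v) := by group
        _ = 1 := by rw [hu.2, hv.2, one_mul]
    | inv u _ hu =>
      refine ⟨Y.inv_mem hu.1, ?_⟩
      rw [← mul_inv_rev, hu.2, inv_one]
  exact hP.2

theorem el (h : S1 W) {y : T} (hy : y ∈ 𝒵 3) : y * y = 1 := by
  have hyW : y ∈ W := Z3_le_W h hy
  have h1 : (⟨y, hyW⟩ : ↥W) ∈ frattini ↥W := (mem_frattini h _).2 hy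
  rw [frat_eq_comm h] at h1
  have h2 := comm_sq_one (frattini ↥W) (fun y hy g => frat_central h hy g) (sq_mem h)
    (frat_eq_comm h).ge _ h1
  exact congrArg Subtype.val h2

theorem comm_Z3 (h : S1 W) {y y' : T} (hy : y ∈ 𝒵 3) (hy' : y' ∈ 𝒵 3) : y * y' = y' * y :=
  comm_W h (Z3_le_W h hy') hy

/-- The commutator map from `T` to `Z₁ × Z₂` is onto. -/
theorem sep_surj (h : S1 W) {z₂ z₃ : T} (hz2 : z₂ ∈ 𝒵 2) (hz2' : z₂ ∉ 𝒵 1) (hz3 : z₃ ∈ 𝒵 3)
    (hz3' : z₃ ∉ 𝒵 2) (a : ↥(𝒵 1)) (b : ↥(𝒵 2)) :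
    ∃ t : T, t * z₂ * t⁻¹ * z₂⁻¹ = a ∧ t * z₃ * t⁻¹ * z₃⁻¹ = b := by
  let f : T → ↥(𝒵 1) × ↥(𝒵 2) := fun t =>
    (⟨t * z₂ * t⁻¹ * z₂⁻¹, conj_comm_mem hz2 t⟩, ⟨t * z₃ * t⁻¹ * z₃⁻¹, conj_comm_mem hz3 t⟩)
  have hf : ∀ a a', f a = f a' → a⁻¹ * a' ∈ W := by
    intro a a' h0
    have h1 : a * z₂ * a⁻¹ * z₂⁻¹ = a' * z₂ * a'⁻¹ * z₂⁻¹ :=
      congrArg (fun x : ↥(𝒵 1) × ↥(𝒵 2) => (x.1 : T)) h0
    have h2 : a * z₃ * a⁻¹ * z₃⁻¹ = a' * z₃ * a'⁻¹ * z₃⁻¹ :=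
      congrArg (fun x : ↥(𝒵 1) × ↥(𝒵 2) => (x.2 : T)) h0
    have h1' : a * z₂ * a⁻¹ = a' * z₂ * a'⁻¹ := mul_right_cancel h1
    have h2' : a * z₃ * a⁻¹ = a' * z₃ * a'⁻¹ := mul_right_cancel h2
    rw [h.hW]
    apply mem_centralizer_of_comm h.c1 h.c2 h.c3 hz2 hz2' hz3 hz3'
    · calc z₂ * (a⁻¹ * a') = a⁻¹ * (a * z₂ * a⁻¹) * a' := by group
        _ = a⁻¹ * (a' * z₂ * a'⁻¹) * a' := by rw [h1']
        _ = _ := by group
    · calc z₃ * (a⁻¹ * a') = a⁻¹ * (a * z₃ * a⁻¹) * a' := by group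
        _ = a⁻¹ * (a' * z₃ * a'⁻¹) * a' := by rw [h2']
        _ = _ := by group
  have hinj : Function.Injective (fun q : T ⧸ W => f q.out) := by
    intro q q' h0
    have h1 := hf _ _ h0
    rw [← q.out_eq', ← q'.out_eq']
    exact QuotientGroup.eq.mpr h1
  have hbij : Function.Bijective (fun q : T ⧸ W => f q.out) := by
    rw [Nat.bijective_iff_injective_and_card]
    refine ⟨hinj, ?_⟩
    rw [Nat.card_prod, h.c1, h.c2]
    exact h.idx
  obtain ⟨q, hq⟩ := hbij.2 (a, b)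
  refine ⟨q.out, ?_, ?_⟩
  · exact congrArg (fun x : ↥(𝒵 1) × ↥(𝒵 2) => (x.1 : T)) hq
  · exact congrArg (fun x : ↥(𝒵 1) × ↥(𝒵 2) => (x.2 : T)) hq

/-- Chosen elements. -/
structure Elts (W : Subgroup T) (z₁ z₂ z₃ x l k : T) : Prop where
  h1 : z₁ ∈ 𝒵 1
  h1' : z₁ ≠ 1
  h2 : z₂ ∈ 𝒵 2
  h2' : z₂ ∉ 𝒵 1
  h3 : z₃ ∈ 𝒵 3
  h3' : z₃ ∉ 𝒵 2
  x2 : x * z₂ * x⁻¹ = z₁ * z₂
  x3 : x * z₃ * x⁻¹ = z₃
  l2 : l * z₂ * l⁻¹ = z₂
  l3 : l * z₃ * l⁻¹ = z₂ * z₃
  k2 : k * z₂ * k⁻¹ = z₂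
  k3 : k * z₃ * k⁻¹ = z₁ * z₃

theorem exists_elts (h : S1 W) : ∃ z₁ z₂ z₃ x l k, Elts W z₁ z₂ z₃ x l k := by
  obtain ⟨z₁, hz1, hz1'⟩ := exists_diff (A := 𝒵 1) (B := 𝒵 0) (by
    rw [h.c1]; simp) (Subgroup.upperCentralSeries_mono T (by omega : 0 ≤ 1))
  have hz1'' : z₁ ≠ 1 := fun h1 => hz1' (h1 ▸ Subgroup.one_mem _)
  obtain ⟨z₂, hz2, hz2'⟩ := exists_diff (by rw [h.c1, h.c2]; norm_num)
    (Subgroup.upperCentralSeries_mono T (by omega : 1 ≤ 2))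
  obtain ⟨z₃, hz3, hz3'⟩ := exists_diff (by rw [h.c2, h.c3]; norm_num)
    (Subgroup.upperCentralSeries_mono T (by omega : 2 ≤ 3))
  have hz12 : z₁ ∈ 𝒵 2 := Subgroup.upperCentralSeries_mono T (by omega : 1 ≤ 2) hz1
  obtain ⟨x, hx2, hx3⟩ := sep_surj h hz2 hz2' hz3 hz3' ⟨z₁, hz1⟩ 1
  obtain ⟨l, hl2, hl3⟩ := sep_surj h hz2 hz2' hz3 hz3' 1 ⟨z₂, hz2⟩
  obtain ⟨k, hk2, hk3⟩ := sep_surj h hz2 hz2' hz3 hz3' 1 ⟨z₁, hz12⟩
  refine ⟨z₁, z₂, z₃, x, l, k, hz1, hz1'', hz2, hz2', hz3, hz3', ?_, ?_, ?_, ?_, ?_, ?_⟩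
  all_goals
    simp only [Subgroup.coe_one] at hx2 hx3 hl2 hl3 hk2 hk3
    first
    | rw [mul_inv_eq_iff_eq_mul] at hx2; exact hx2
    | rw [mul_inv_eq_iff_eq_mul] at hl3; exact hl3
    | rw [mul_inv_eq_iff_eq_mul] at hk3; exact hk3
    | rw [mul_inv_eq_one] at hx3; exact hx3
    | rw [mul_inv_eq_one] at hl2; exact hl2
    | rw [mul_inv_eq_one] at hk2; exact hk2

section WithElts

variable {z₁ z₂ z₃ x l k : T} (h : S1 W) (E : Elts W z₁ z₂ z₃ x l k)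
include h E

theorem z1_central (t : T) : t * z₁ = z₁ * t := by
  have := E.h1
  rw [Subgroup.upperCentralSeries_one] at this
  exact Subgroup.mem_center_iff.mp this t

theorem conj_z1 (t : T) : t * z₁ * t⁻¹ = z₁ := by
  rw [z1_central h E t]
  group

theorem z1_mem3 : z₁ ∈ 𝒵 3 := Subgroup.upperCentralSeries_mono T (by omega : 1 ≤ 3) E.h1

theorem z2_mem3 : z₂ ∈ 𝒵 3 := Subgroup.upperCentralSeries_mono T (by omega : 2 ≤ 3) E.h2

theorem z12 : z₁ * z₂ = z₂ * z₁ := comm_Z3 h (z1_mem3 h E) (z2_mem3 h E)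

theorem z13 : z₁ * z₃ = z₃ * z₁ := comm_Z3 h (z1_mem3 h E) E.h3

theorem z23 : z₂ * z₃ = z₃ * z₂ := comm_Z3 h (z2_mem3 h E) E.h3

theorem z11 : z₁ * z₁ = 1 := el h (z1_mem3 h E)

theorem z22 : z₂ * z₂ = 1 := el h (z2_mem3 h E)

theorem z33 : z₃ * z₃ = 1 := el h E.h3

theorem mem_W_of_conj {t : T} (h2 : t * z₂ * t⁻¹ = z₂) (h3 : t * z₃ * t⁻¹ = z₃) : t ∈ W := by
  rw [h.hW]
  refine mem_centralizer_of_comm h.c1 h.c2 h.c3 E.h2 E.h2' E.h3 E.h3' ?_ ?_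
  · rw [mul_inv_eq_iff_eq_mul] at h2; exact h2.symm
  · rw [mul_inv_eq_iff_eq_mul] at h3; exact h3.symm

omit E in
theorem conj_eq_of_coset {t t' y : T} (ht : t⁻¹ * t' ∈ W) (hy : y ∈ 𝒵 3) :
    t * y * t⁻¹ = t' * y * t'⁻¹ := by
  have h1 := comm_W h ht hy
  calc t * y * t⁻¹ = t * (y * (t⁻¹ * t')) * (t⁻¹ * t')⁻¹ * t⁻¹ := by group
    _ = t * ((t⁻¹ * t') * y) * (t⁻¹ * t')⁻¹ * t⁻¹ := by rw [h1]
    _ = _ := by group

theorem conj_mul' (a b y : T) : (a * b) * y * (a * b)⁻¹ = a * (b * y * b⁻¹) * a⁻¹ := by group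

theorem conj_mul2 (a u v : T) : a * (u * v) * a⁻¹ = (a * u * a⁻¹) * (a * v * a⁻¹) := by group

theorem z_ac : (z₂ * z₁ = z₁ * z₂) ∧ (z₃ * z₁ = z₁ * z₃) ∧ (z₃ * z₂ = z₂ * z₃) ∧
    (∀ a, z₂ * (z₁ * a) = z₁ * (z₂ * a)) ∧ (∀ a, z₃ * (z₁ * a) = z₁ * (z₃ * a)) ∧
    (∀ a, z₃ * (z₂ * a) = z₂ * (z₃ * a)) ∧ (∀ a, z₁ * (z₁ * a) = a) ∧ (∀ a, z₂ * (z₂ * a) = a) ∧
    (∀ a, z₃ * (z₃ * a) = a) ∧ z₁ * z₁ = 1 ∧ z₂ * z₂ = 1 ∧ z₃ * z₃ = 1 := by
  have c12 := z12 h E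
  have c13 := z13 h E
  have c23 := z23 h E
  have s1 := z11 h E
  have s2 := z22 h E
  have s3 := z33 h E
  refine ⟨c12.symm, c13.symm, c23.symm, ?_, ?_, ?_, ?_, ?_, ?_, s1, s2, s3⟩
  · intro a; rw [← mul_assoc, ← mul_assoc, c12]
  · intro a; rw [← mul_assoc, ← mul_assoc, c13]
  · intro a; rw [← mul_assoc, ← mul_assoc, c23]
  · intro a; rw [← mul_assoc, s1, one_mul]
  · intro a; rw [← mul_assoc, s2, one_mul]
  · intro a; rw [← mul_assoc, s3, one_mul]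

theorem z2_ne_one : z₂ ≠ 1 := fun h0 => E.h2' (h0 ▸ Subgroup.one_mem _)

theorem ne12 : z₁ * z₂ ≠ z₂ := fun h0 => E.h1' (mul_eq_right.mp h0)

theorem ne13 : z₁ * z₃ ≠ z₃ := fun h0 => E.h1' (mul_eq_right.mp h0)

theorem ne23 : z₂ * z₃ ≠ z₃ := fun h0 => z2_ne_one h E (mul_eq_right.mp h0)

theorem zeta_facts :
    (x * l) * z₂ * (x * l)⁻¹ = z₁ * z₂ ∧ (x * l) * z₃ * (x * l)⁻¹ = z₁ * (z₂ * z₃) ∧
    (x * l * (x * l)) * z₂ * (x * l * (x * l))⁻¹ = z₂ ∧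
    (x * l * (x * l)) * z₃ * (x * l * (x * l))⁻¹ = z₁ * z₃ := by
  obtain ⟨c21, c31, c32, lc21, lc31, lc32, can1, can2, can3, s1, s2, s3⟩ := z_ac h E
  have H2 : (x * l) * z₂ * (x * l)⁻¹ = z₁ * z₂ := by
    rw [conj_mul' h E, E.l2, E.x2]
  have H3 : (x * l) * z₃ * (x * l)⁻¹ = z₁ * (z₂ * z₃) := by
    rw [conj_mul' h E, E.l3, conj_mul2 h E, E.x2, E.x3, mul_assoc]
  refine ⟨H2, H3, ?_, ?_⟩
  · rw [conj_mul' h E, H2, conj_mul2 h E, conj_z1 h E, H2, can1]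
  · rw [conj_mul' h E, H3, conj_mul2 h E, conj_z1 h E, conj_mul2 h E, H2, H3]
    simp only [mul_assoc, can1, lc21, can2]

theorem x_sq : x * x ∈ W := by
  obtain ⟨c21, c31, c32, lc21, lc31, lc32, can1, can2, can3, s1, s2, s3⟩ := z_ac h E
  apply mem_W_of_conj h E
  · rw [conj_mul' h E, E.x2, conj_mul2 h E, conj_z1 h E, E.x2, can1]
  · rw [conj_mul' h E, E.x3, E.x3]

theorem l_sq : l * l ∈ W := by
  obtain ⟨c21, c31, c32, lc21, lc31, lc32, can1, can2, can3, s1, s2, s3⟩ := z_ac h E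
  apply mem_W_of_conj h E
  · rw [conj_mul' h E, E.l2, E.l2]
  · rw [conj_mul' h E, E.l3, conj_mul2 h E, E.l2, E.l3, can2]

theorem dihedral : ∃ _ : W.Normal, Nonempty (T ⧸ W ≃* DihedralGroup 4) := by
  have hnW := h.hn
  refine ⟨hnW, ?_⟩
  obtain ⟨c21, c31, c32, lc21, lc31, lc32, can1, can2, can3, s1, s2, s3⟩ := z_ac h E
  obtain ⟨H2, H3, H22, H23⟩ := zeta_facts h E
  let π := QuotientGroup.mk' W
  let a : T ⧸ W := π x
  let b : T ⧸ W := π l
  have haa : a * a = 1 := by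
    rw [← map_mul]; exact (QuotientGroup.eq_one_iff _).2 (x_sq h E)
  have hbb : b * b = 1 := by
    rw [← map_mul]; exact (QuotientGroup.eq_one_iff _).2 (l_sq h E)
  have hainv : a⁻¹ = a := inv_eq_of_mul_eq_one_left haa
  have hbinv : b⁻¹ = b := inv_eq_of_mul_eq_one_left hbb
  have hz4 : (a * b) * (a * b) * ((a * b) * (a * b)) = 1 := by
    have : π ((x * l * (x * l)) * (x * l * (x * l))) = 1 := by
      apply (QuotientGroup.eq_one_iff _).2
      apply mem_W_of_conj h E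
      · rw [conj_mul' h E, H22, H22]
      · rw [conj_mul' h E, H23, conj_mul2 h E, conj_z1 h E, H23, can1]
    simpa only [map_mul] using this
  have hζ4 : (a * b) ^ 4 = 1 := by
    rw [show (4 : ℕ) = 2 + 2 from rfl, pow_add, pow_two]
    exact hz4
  have hζ2 : (a * b) ^ 2 ≠ 1 := by
    rw [pow_two]
    intro h0
    have h1 : π (x * l * (x * l)) = 1 := by simpa only [map_mul] using h0
    have h2 : x * l * (x * l) ∈ W := (QuotientGroup.eq_one_iff _).1 h1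
    have h3 := comm_W h h2 E.h3
    apply ne13 h E
    rw [← H23, ← h3]
    group
  have hord : orderOf (a * b) = 4 := by
    have := orderOf_eq_prime_pow (p := 2) (n := 1) (x := a * b) (by simpa using hζ2) (by simpa using hζ4)
    simpa using this
  -- elements congruent modulo `W` act in the same way
  have hcoset : ∀ t t' : T, π t = π t' → ∀ y ∈ 𝒵 3, t * y * t⁻¹ = t' * y * t'⁻¹ := by
    intro t t' ht y hy
    exact conj_eq_of_coset h (QuotientGroup.eq.mp ht) hy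
  have hout : ∀ n : ℕ, (a * b) ^ n ≠ a := by
    intro n hn
    rw [pow_eq_pow_mod n hζ4] at hn
    have hlt : n % 4 < 4 := Nat.mod_lt _ (by norm_num)
    generalize n % 4 = m at hn hlt
    interval_cases m
    · -- `x ∈ W`
      have h0 : π 1 = π x := by simpa using hn
      have h1 := hcoset _ _ h0 z₂ (z2_mem3 h E)
      rw [E.x2] at h1
      apply ne12 h E
      rw [← h1]
      group
    · -- `x l ≡ x`
      have h0 : π (x * l) = π x := by simpa using hn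
      have h1 : b = 1 := by
        have : a * b = a * 1 := by simpa [map_mul] using h0
        exact mul_left_cancel this
      have h2 : π l = π 1 := by simpa using h1
      have h3 := hcoset _ _ h2 z₃ E.h3
      rw [E.l3] at h3
      apply ne23 h E
      rw [h3]
      group
    · have h0 : π (x * l * (x * l)) = π x := by
        simpa only [map_mul, pow_two] using hn
      have h1 := hcoset _ _ h0 z₂ (z2_mem3 h E)
      rw [H22, E.x2] at h1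
      exact ne12 h E h1.symm
    · have h0 : π (x * l * (x * l) * (x * l)) = π x := by
        have : (a * b) ^ 3 = (a * b) * (a * b) * (a * b) := by
          rw [pow_succ, pow_two]
        rw [this] at hn
        simpa only [map_mul] using hn
      have h1 := hcoset _ _ h0 z₃ E.h3
      rw [conj_mul' h E, H3, conj_mul2 h E, conj_z1 h E, conj_mul2 h E, H22, H23, E.x3] at h1
      simp only [lc21, can1] at h1
      exact ne23 h E h1
  refine Cfsg.Agent.Lib.DihedralIso.nonempty_dihedral_of_card (a * b) a hζ4 haa ?_ hord hout ?_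
  · rw [mul_inv_rev, hainv, hbinv, ← mul_assoc, haa, one_mul]
  · exact h.idx

end WithElts

end Cfsg.Agent.Lib.T14B
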