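import Mathlib
import Cfsg.Agent.Lib.Frat
import Cfsg.Agent.Lib.T14A
import Cfsg.Agent.Lib.T14Abs
import Cfsg.Agent.Lib.T14B

/-!
# Third stage for `S3174`: the centre of `W`.
-/

set_option autoImplicit false
set_option linter.unusedSectionVars false
set_option linter.unusedSimpArgs false
set_option linter.unusedTactic false
set_option linter.unreachableTactic false

namespace Cfsg.Agent.Lib.T14C

open Cfsg.Agent.Lib.T14A Cfsg.Agent.Lib.T14Abs Cfsg.Agent.Lib.T14B Cfsg.Agent.Lib.Frat

variable {T : Type*} [Group T] [Finite T] {W : Subgroup T}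

local notation "𝒵" => Subgroup.upperCentralSeries T

/-- Conjugation on a normal subgroup as an endomorphism. -/
noncomputable def cn {T : Type*} [Group T] (W : Subgroup T) [W.Normal] (t : T) : ↥W →* ↥W :=
  (MulAut.conjNormal t : MulAut ↥W).toMonoidHom

@[simp] theorem cn_coe [W.Normal] (t : T) (u : ↥W) : ((cn W t u : ↥W) : T) = t * u * t⁻¹ := by
  simp [cn]

theorem cn_mul [W.Normal] (s t : T) (u : ↥W) : cn W (s * t) u = cn W s (cn W t u) := by
  apply Subtype.ext
  simp only [cn_coe]
  group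

/-- `Z₂(T)` inside `W`. -/
abbrev Zz (W : Subgroup T) : Subgroup ↥W := (𝒵 2).subgroupOf W

theorem ctx (h : S1 W) : Ctx (frattini ↥W) (Zz W) where
  central y hy g := frat_central h hy g
  sq := sq_mem h
  el y hy := Subtype.ext (el h ((mem_frattini h y).1 hy))
  le u hu := (mem_frattini h u).2
    (Subgroup.upperCentralSeries_mono T (by omega : 2 ≤ 3) (Subgroup.mem_subgroupOf.mp hu))
  idx y hy y' hy' h1 h2 := by
    have h3 := idx2 (Subgroup.upperCentralSeries_mono T (by omega : 2 ≤ 3))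
      (by rw [h.c2, h.c3]) ((mem_frattini h y').1 hy') ((mem_frattini h y).1 hy)
      (fun h4 => h2 (Subgroup.mem_subgroupOf.mpr h4)) (fun h4 => h1 (Subgroup.mem_subgroupOf.mpr h4))
    have hinv : ((y : T))⁻¹ = y :=
      inv_eq_of_mul_eq_one_left (el h ((mem_frattini h y).1 hy))
    rw [hinv] at h3
    exact Subgroup.mem_subgroupOf.mpr h3

section Part5

variable [W.Normal] {z₁ z₂ z₃ x l k : T} (h : S1 W) (E : Elts W z₁ z₂ z₃ x l k)
include h E

theorem comm_Z2 {t : T} (ht2 : t * z₂ * t⁻¹ = z₂) {u : T} (hu : u ∈ 𝒵 2) : t * u * t⁻¹ = u := by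
  have h1' : ∀ b ∈ 𝒵 1, b * t = t * b := by
    intro b hb
    rw [Subgroup.upperCentralSeries_one] at hb
    exact (Subgroup.mem_center_iff.mp hb t).symm
  have h2 : z₂ * t = t * z₂ := by
    rw [mul_inv_eq_iff_eq_mul] at ht2; exact ht2.symm
  have h3 := comm_of_idx (Subgroup.upperCentralSeries_mono _ (by omega : 1 ≤ 2))
    (by rw [h.c1, h.c2]) E.h2 E.h2' h2 h1' u hu
  rw [← h3]
  group

theorem sq_mem_W {t u : T} (ht2 : t * z₂ * t⁻¹ = z₂) (hu : u ∈ 𝒵 2)
    (ht3 : t * z₃ * t⁻¹ = u * z₃) : t * t ∈ W := by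
  apply mem_W_of_conj h E
  · rw [conj_mul' h E, ht2, ht2]
  · rw [conj_mul' h E, ht3, conj_mul2 h E, comm_Z2 h E ht2 hu, ht3, ← mul_assoc,
      el h (Subgroup.upperCentralSeries_mono T (by omega : 2 ≤ 3) hu), one_mul]

theorem autH {t u : T} (ht2 : t * z₂ * t⁻¹ = z₂) (hu : u ∈ 𝒵 2) (hu1 : u ≠ 1)
    (ht3 : t * z₃ * t⁻¹ = u * z₃) : AutH (frattini ↥W) (Zz W) (cn W t) where
  chi g := by
    rw [Subgroup.mem_subgroupOf, Subgroup.mem_subgroupOf, cn_coe]
    constructor
    · intro h1
      have := (inferInstance : (𝒵 2).Normal).conj_mem _ h1 t⁻¹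
      simpa [mul_assoc] using this
    · intro h1
      exact (inferInstance : (𝒵 2).Normal).conj_mem _ h1 t
  mapY y hy := by
    rw [mem_frattini h] at hy ⊢
    rw [cn_coe]
    exact (inferInstance : (𝒵 3).Normal).conj_mem _ hy t
  sqr a := by
    have hw := sq_mem_W h E ht2 hu ht3
    have h1 := cm_mem (ctx h) (⟨t * t, hw⟩ : ↥W) a
    convert h1 using 1
    apply Subtype.ext
    simp only [cn_coe, cm, Subgroup.coe_mul, Subgroup.coe_inv]
    group
  fix y hy hfix := by
    rw [Subgroup.mem_subgroupOf]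
    by_contra hcon
    have hy3 := (mem_frattini h y).1 hy
    have h1 := idx2 (Subgroup.upperCentralSeries_mono T (by omega : 2 ≤ 3))
      (by rw [h.c2, h.c3]) hy3 E.h3 hcon E.h3'
    have h3 : t * (y : T) * t⁻¹ = y := by rw [← cn_coe t y, hfix]
    have h4 : u * (y : T) = y := by
      calc u * (y : T) = u * z₃ * (z₃⁻¹ * y) := by group
        _ = t * (z₃ * (z₃⁻¹ * y)) * t⁻¹ := by rw [conj_mul2 h E, ht3, comm_Z2 h E ht2 h1]
        _ = t * y * t⁻¹ := by group
        _ = y := h3
    exact hu1 (mul_eq_right.mp h4)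

theorem autK : AutH (frattini ↥W) (Zz W) (cn W k) :=
  autH h E E.k2 (Subgroup.upperCentralSeries_mono T (by omega : 1 ≤ 2) E.h1) E.h1' E.k3

theorem autL : AutH (frattini ↥W) (Zz W) (cn W l) :=
  autH h E E.l2 E.h2 (z2_ne_one h E) E.l3

theorem kl_z3 : (k * l) * z₃ * (k * l)⁻¹ = (z₂ * z₁) * z₃ := by
  rw [conj_mul' h E, E.l3, conj_mul2 h E, E.k2, E.k3, mul_assoc]

theorem lk_z3 : (l * k) * z₃ * (l * k)⁻¹ = (z₂ * z₁) * z₃ := by
  rw [conj_mul' h E, E.k3, conj_mul2 h E, conj_z1 h E, E.l3, ← mul_assoc, z12 h E]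

theorem kl_z2 : (k * l) * z₂ * (k * l)⁻¹ = z₂ := by
  rw [conj_mul' h E, E.l2, E.k2]

theorem lk_z2 : (l * k) * z₂ * (l * k)⁻¹ = z₂ := by
  rw [conj_mul' h E, E.k2, E.l2]

theorem autKL : AutH (frattini ↥W) (Zz W) ((cn W k).comp (cn W l)) := by
  have h1 : (cn W k).comp (cn W l) = cn W (k * l) := by
    ext u
    simp only [MonoidHom.comp_apply, cn_coe]
    group
  rw [h1]
  refine autH h E (kl_z2 h E) (Subgroup.mul_mem _ E.h2
    (Subgroup.upperCentralSeries_mono T (by omega : 1 ≤ 2) E.h1)) ?_ (kl_z3 h E)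
  intro h2
  apply E.h2'
  have h3 : z₂ = z₁⁻¹ := eq_inv_of_mul_eq_one_left h2
  rw [h3]
  exact Subgroup.inv_mem _ E.h1

theorem comm_KL (a : ↥W) : cn W k (cn W l a) * (cn W l (cn W k a))⁻¹ ∈ frattini ↥W := by
  have hw : (l * k)⁻¹ * (k * l) ∈ W := by
    apply mem_W_of_conj h E
    · calc _ = (l * k)⁻¹ * ((k * l) * z₂ * (k * l)⁻¹) * (l * k) := by group
        _ = (l * k)⁻¹ * ((l * k) * z₂ * (l * k)⁻¹) * (l * k) := by rw [kl_z2 h E, lk_z2 h E]
        _ = _ := by group
    · calc _ = (l * k)⁻¹ * ((k * l) * z₃ * (k * l)⁻¹) * (l * k) := by group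
        _ = (l * k)⁻¹ * ((l * k) * z₃ * (l * k)⁻¹) * (l * k) := by rw [kl_z3 h E, lk_z3 h E]
        _ = _ := by group
  have hs : (l * k) * ((l * k)⁻¹ * (k * l)) * (l * k)⁻¹ ∈ W :=
    (inferInstance : W.Normal).conj_mem _ hw _
  have h1 := cm_mem (ctx h) (⟨_, hs⟩ : ↥W) (cn W l (cn W k a))
  convert h1 using 1
  apply Subtype.ext
  simp only [cn_coe, cm, Subgroup.coe_mul, Subgroup.coe_inv]
  group

end Part5

/-- Optional factor. -/
def pw {T : Type*} [Group T] (t : T) (b : Bool) : T := cond b t 1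

/-- The index set of the cosets. -/
abbrev I8 := Bool × Bool × Bool

/-- Coset representatives. -/
def rho {T : Type*} [Group T] (x l k : T) (s : I8) : T := pw k s.1 * pw l s.2.1 * pw x s.2.2

section Part5b

variable {z₁ z₂ z₃ x l k : T} (h : S1 W) (E : Elts W z₁ z₂ z₃ x l k)
include h E

theorem rho_z2 (s : I8) : rho x l k s * z₂ * (rho x l k s)⁻¹ = pw z₁ s.2.2 * z₂ := by
  obtain ⟨i, j, m⟩ := s
  have hk := E.k2
  have hl := E.l2
  have hx := E.x2
  have hz := conj_z1 h E
  cases i <;> cases j <;> cases m <;>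
    simp only [rho, pw, cond_true, cond_false, mul_one, one_mul, inv_one, conj_mul' h E, conj_mul2 h E,
      hk, hl, hx, hz]

theorem rho_z3 (s : I8) : rho x l k s * z₃ * (rho x l k s)⁻¹ = pw z₁ s.1 * (pw z₂ s.2.1 * z₃) := by
  obtain ⟨i, j, m⟩ := s
  obtain ⟨c21, c31, c32, lc21, lc31, lc32, can1, can2, can3, s1, s2, s3⟩ := z_ac h E
  have hk := E.k2
  have hk3 := E.k3
  have hl := E.l2
  have hl3 := E.l3
  have hx := E.x3
  have hz := conj_z1 h E
  cases i <;> cases j <;> cases m <;>
    simp only [rho, pw, cond_true, cond_false, mul_one, one_mul, inv_one, conj_mul' h E, conj_mul2 h E,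
      hk, hl, hx, hz, hk3, hl3, lc21]

theorem mem_Z1 {a : T} (ha : a ∈ 𝒵 1) : ∃ m : Bool, a = pw z₁ m := by
  by_cases h1 : a ∈ 𝒵 0
  · refine ⟨false, ?_⟩
    simpa [pw] using h1
  · refine ⟨true, ?_⟩
    have h2 := idx2 (Subgroup.upperCentralSeries_mono T (by omega : 0 ≤ 1)) (by rw [h.c1]; simp)
      ha E.h1 h1 (fun h3 => E.h1' (by simpa using h3))
    have h3 : z₁⁻¹ * a = 1 := by simpa using h2
    simp only [pw, cond_true]
    exact (inv_mul_eq_one.mp h3).symm

theorem mem_Z2 {b : T} (hb : b ∈ 𝒵 2) : ∃ i j : Bool, b = pw z₁ i * pw z₂ j := by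
  by_cases h1 : b ∈ 𝒵 1
  · obtain ⟨m, hm⟩ := mem_Z1 h E h1
    refine ⟨m, false, ?_⟩
    show b = pw z₁ m * 1
    rw [mul_one]
    exact hm
  · have h2 := idx2 (Subgroup.upperCentralSeries_mono T (by omega : 1 ≤ 2))
      (by rw [h.c1, h.c2]) hb E.h2 h1 E.h2'
    obtain ⟨m, hm⟩ := mem_Z1 h E h2
    refine ⟨m, true, ?_⟩
    show b = pw z₁ m * z₂
    have h3 : b = z₂ * pw z₁ m := by rw [← hm]; group
    rw [h3]
    cases m
    · simp [pw]
    · exact (z12 h E).symm

theorem rho_surj (t : T) : ∃ s : I8, (rho x l k s)⁻¹ * t ∈ W := by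
  obtain ⟨m, hm⟩ := mem_Z1 h E (conj_comm_mem E.h2 t)
  obtain ⟨i, j, hij⟩ := mem_Z2 h E (conj_comm_mem E.h3 t)
  refine ⟨(i, j, m), ?_⟩
  set ρ := rho x l k (i, j, m) with hρ
  have h2 : t * z₂ * t⁻¹ = ρ * z₂ * ρ⁻¹ := by
    rw [hρ, rho_z2 h E]
    simp only
    rw [← hm]
    group
  have h3 : t * z₃ * t⁻¹ = ρ * z₃ * ρ⁻¹ := by
    rw [hρ, rho_z3 h E]
    simp only
    rw [← mul_assoc, ← hij]
    group
  apply mem_W_of_conj h E
  · calc _ = ρ⁻¹ * (t * z₂ * t⁻¹) * ρ := by group
      _ = ρ⁻¹ * (ρ * z₂ * ρ⁻¹) * ρ := by rw [h2]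
      _ = _ := by group
  · calc _ = ρ⁻¹ * (t * z₃ * t⁻¹) * ρ := by group
      _ = ρ⁻¹ * (ρ * z₃ * ρ⁻¹) * ρ := by rw [h3]
      _ = _ := by group

theorem rho_inj {s s' : I8} (hs : (rho x l k s)⁻¹ * rho x l k s' ∈ W) : s = s' := by
  have hn := h.hn
  let F : I8 → T ⧸ W := fun s => QuotientGroup.mk (rho x l k s)
  have hsurj : Function.Surjective F := by
    intro q
    obtain ⟨t, rfl⟩ := QuotientGroup.mk_surjective q
    obtain ⟨s, hs⟩ := rho_surj h E t
    exact ⟨s, QuotientGroup.eq.mpr hs⟩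
  have hbij : Function.Bijective F := by
    apply hsurj.bijective_of_nat_card_le
    have h1 : Nat.card (T ⧸ W) = 8 := h.idx
    rw [h1]
    simp
  exact hbij.1 (QuotientGroup.eq.mpr hs)

end Part5b

section Part5c

theorem chi_eq_zero_iff {G : Type*} [Group G] {M : Subgroup G} {g : G} : chi M g = 0 ↔ g ∈ M := by
  by_cases h : g ∈ M <;> simp [chi, h]

theorem chi_mul_of_index {G : Type*} [Group G] {M : Subgroup G} (hMi : M.index = 2) (a b : G) :
    chi M (a * b) = chi M a + chi M b := by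
  have := Subgroup.mul_mem_iff_of_index_two hMi (a := a) (b := b)
  unfold chi
  by_cases h1 : a ∈ M <;> by_cases h2 : b ∈ M <;> simp only [h1, h2, this, if_true, if_false] <;>
    first | decide | simp

theorem chi_conj {G : Type*} [Group G] {M : Subgroup G} [hM : M.Normal] (g v : G) :
    chi M (g * v * g⁻¹) = chi M v := by
  have h1 : g * v * g⁻¹ ∈ M ↔ v ∈ M := by
    constructor
    · intro h
      have := hM.conj_mem _ h g⁻¹
      simpa [mul_assoc] using this
    · exact fun h => hM.conj_mem _ h g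
  by_cases h2 : v ∈ M
  · simp [chi, h2, h1.2 h2]
  · have h3 : g * v * g⁻¹ ∉ M := fun h => h2 (h1.1 h)
    simp [chi, h2, h3]

/-- Coordinates. -/
noncomputable def th {T : Type*} [Group T] {W : Subgroup T} [W.Normal] (M : Subgroup ↥W) (x l k : T)
    (u : ↥W) (s : I8) : ZMod 2 :=
  chi M (cn W (rho x l k s)⁻¹ u)

variable [W.Normal] {z₁ z₂ z₃ x l k : T} (h : S1 W) (E : Elts W z₁ z₂ z₃ x l k)
  {M : Subgroup ↥W} (hM : IsCoatom M)
  (hD : ∀ u : ↥W, (∀ t : T, t⁻¹ * u * t ∈ M.map W.subtype) → u ∈ frattini ↥W)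

omit [Finite T] in
theorem frattini_le (hM : IsCoatom M) : frattini ↥W ≤ M := frattini_le_coatom hM

include h hM in
theorem M_index : M.index = 2 := by
  have : Fact (Nat.Prime 2) := ⟨Nat.prime_two⟩
  exact index_eq_of_isCoatom (hG h) hM

include h hM in
theorem M_normal : M.Normal := by
  have : Fact (Nat.Prime 2) := ⟨Nat.prime_two⟩
  exact normal_of_commutator_le (commutator_and_pow_mem_of_isCoatom (hG h) hM).1

include h hM in
theorem th_mul (u v : ↥W) (s : I8) : th M x l k (u * v) s = th M x l k u s + th M x l k v s := by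
  simp only [th, map_mul]
  exact chi_mul_of_index (M_index h hM) _ _

include h hM in
theorem th_frat {u : ↥W} (hu : u ∈ frattini ↥W) (s : I8) : th M x l k u s = 0 := by
  rw [th, chi_eq_zero_iff]
  apply frattini_le hM
  rw [mem_frattini h] at hu ⊢
  rw [cn_coe]
  exact (inferInstance : (𝒵 3).Normal).conj_mem _ hu _

include h E hM hD in
theorem frat_of_th {u : ↥W} (hu : ∀ s, th M x l k u s = 0) : u ∈ frattini ↥W := by
  have hMn := M_normal h hM
  apply hD
  intro t
  obtain ⟨s, hs⟩ := rho_surj h E t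
  have h1 := chi_eq_zero_iff.mp (hu s)
  let w : ↥W := ⟨_, hs⟩
  have h2 := hMn.conj_mem _ h1 w⁻¹
  refine ⟨_, h2, ?_⟩
  simp only [Subgroup.subtype_apply, Subgroup.coe_mul, Subgroup.coe_inv, cn_coe, w]
  group

/-- The coordinates as a homomorphism. -/
noncomputable def thHom (hM : IsCoatom M) (h : S1 W) : ↥W →* Multiplicative (I8 → ZMod 2) where
  toFun u := Multiplicative.ofAdd (fun s => th M x l k u s)
  map_one' := by
    have : (fun s => th M x l k (1 : ↥W) s) = 0 := by
      funext s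
      simp [th, chi, Subgroup.one_mem]
    rw [this]
    rfl
  map_mul' u v := by
    rw [← ofAdd_add]
    congr 1
    funext s
    exact th_mul h hM u v s

include h E hM hD in
theorem thHom_ker : (thHom (x := x) (l := l) (k := k) hM h).ker = frattini ↥W := by
  ext u
  rw [MonoidHom.mem_ker]
  constructor
  · intro hu
    apply frat_of_th h E hM hD
    intro s
    have : (fun s => th M x l k u s) = 0 := by
      exact congrArg Multiplicative.toAdd hu
    exact congrFun this s
  · intro hu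
    apply congrArg Multiplicative.ofAdd
    funext s
    exact th_frat h hM hu s

include h E hM hD in
theorem thHom_surj : Function.Surjective (thHom (x := x) (l := l) (k := k) hM h) := by
  rw [← MonoidHom.range_eq_top]
  apply Subgroup.eq_top_of_card_eq
  rw [← Subgroup.index_ker, thHom_ker h E hM hD, h.frIdx]
  simp [Nat.card_eq_fintype_card, ZMod.card]

include h E hM hD in
theorem exists_e : ∃ e : ↥W, ∀ s, th M x l k e s = if s = (false, false, false) then 1 else 0 := by
  obtain ⟨e, he⟩ := thHom_surj h E hM hD (x := x) (l := l) (k := k)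
    (Multiplicative.ofAdd (fun s => if s = (false, false, false) then 1 else 0))
  exact ⟨e, fun s => congrFun (congrArg Multiplicative.toAdd he) s⟩

/-- The generators. -/
noncomputable def gen {T : Type*} [Group T] {W : Subgroup T} [W.Normal] (x l k : T) (e : ↥W) (s : I8) :
    ↥W :=
  cn W (rho x l k s) e

omit [Finite T] in
theorem rho_base : rho x l k (false, false, false) = 1 := by
  simp [rho, pw]

section
variable {e : ↥W} (he : ∀ s, th M x l k e s = if s = (false, false, false) then 1 else 0)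
include h E hM he

open Classical in
theorem th_e (t : T) : chi M (cn W t⁻¹ e) = if t ∈ W then 1 else 0 := by
  have hMn := M_normal h hM
  obtain ⟨s, hs⟩ := rho_surj h E t
  let w : ↥W := ⟨_, hs⟩
  have h1 : cn W t⁻¹ e = w⁻¹ * (cn W (rho x l k s)⁻¹ e) * (w⁻¹)⁻¹ := by
    apply Subtype.ext
    simp only [Subgroup.coe_mul, Subgroup.coe_inv, cn_coe, w]
    group
  rw [h1, chi_conj]
  have h2 := he s
  rw [th] at h2
  rw [h2]
  have h3 : s = (false, false, false) ↔ t ∈ W := by
    constructor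
    · rintro rfl
      rw [rho_base] at hs
      simpa using hs
    · intro ht
      have h4 : rho x l k s ∈ W := by
        have := W.mul_mem ht (W.inv_mem hs)
        simpa using this
      have h5 : (rho x l k (false, false, false))⁻¹ * rho x l k s ∈ W := by
        rw [rho_base]
        simpa using h4
      exact (rho_inj h E h5).symm
  by_cases h4 : t ∈ W
  · rw [if_pos h4, if_pos (h3.2 h4)]
  · rw [if_neg h4, if_neg (fun h5 => h4 (h3.1 h5))]

theorem th_gen (τ s : I8) : th M x l k (gen x l k e τ) s = if s = τ then 1 else 0 := by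
  have h1 : cn W (rho x l k s)⁻¹ (gen x l k e τ) = cn W ((rho x l k τ)⁻¹ * rho x l k s)⁻¹ e := by
    apply Subtype.ext
    simp only [gen, cn_coe]
    group
  rw [th, h1, th_e h E hM he]
  by_cases h2 : s = τ
  · subst h2
    simp [W.one_mem]
  · have h3 : (rho x l k τ)⁻¹ * rho x l k s ∉ W := fun h4 => h2 (rho_inj h E h4).symm
    rw [if_neg h3, if_neg h2]

end

section
variable {e : ↥W} (he : ∀ s, th M x l k e s = if s = (false, false, false) then 1 else 0)
include h E hM hD he

theorem gen_closure (u : ↥W) :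
    u ∈ Subgroup.closure ((frattini ↥W : Set ↥W) ∪ Set.range (gen x l k e)) := by
  set H := Subgroup.closure ((frattini ↥W : Set ↥W) ∪ Set.range (gen x l k e)) with hH
  have hY : frattini ↥W ≤ H := fun y hy => Subgroup.subset_closure (Or.inl hy)
  have hg : ∀ τ, gen x l k e τ ∈ H := fun τ => Subgroup.subset_closure (Or.inr ⟨τ, rfl⟩)
  have key : ∀ S : Finset I8, ∃ v ∈ H, ∀ s, th M x l k v s = if s ∈ S then th M x l k u s else 0 := by
    intro S
    induction S using Finset.induction_on with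
    | empty =>
      refine ⟨1, H.one_mem, fun s => ?_⟩
      simp [th, chi]
    | insert a S ha ih =>
      obtain ⟨v, hv, hvs⟩ := ih
      have hval : ∀ x : ZMod 2, x = 0 ∨ x = 1 := by decide
      rcases hval (th M x l k u a) with h0 | h1
      · refine ⟨v, hv, fun s => ?_⟩
        rw [hvs s]
        by_cases hs : s = a
        · subst hs
          simp [ha, h0]
        · simp [hs]
      · refine ⟨v * gen x l k e a, H.mul_mem hv (hg a), fun s => ?_⟩
        rw [th_mul h hM, hvs s, th_gen h E hM he]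
        by_cases hs : s = a
        · subst hs
          simp [ha, h1]
        · simp [hs]
  obtain ⟨v, hv, hvs⟩ := key Finset.univ
  have h1 : v⁻¹ * u ∈ frattini ↥W := by
    apply frat_of_th h E hM hD
    intro s
    have h2 := th_mul (x := x) (l := l) (k := k) h hM v (v⁻¹ * u) s
    rw [mul_inv_cancel_left, hvs s, if_pos (Finset.mem_univ s)] at h2
    have h3 : ∀ a b : ZMod 2, a = a + b → b = 0 := by decide
    exact h3 _ _ h2
  have h2 := H.mul_mem hv (hY h1)
  simpa using h2

theorem sum_formula (u : ↥W) :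
    bt (Zz W) u e = ∑ τ, th M x l k u τ * bt (Zz W) (gen x l k e τ) e := by
  have hctx := ctx h
  induction gen_closure h E hM hD he u using Subgroup.closure_induction with
  | mem y hy =>
    rcases hy with hy | ⟨τ, rfl⟩
    · rw [bt_central hctx hy]
      simp [th_frat h hM hy]
    · rw [Finset.sum_eq_single τ]
      · rw [th_gen h E hM he, if_pos rfl, one_mul]
      · intro b _ hb
        rw [th_gen h E hM he, if_neg hb, zero_mul]
      · intro hb
        exact absurd (Finset.mem_univ τ) hb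
  | one =>
    rw [bt_central hctx (Subgroup.one_mem _)]
    simp [th_frat h hM (Subgroup.one_mem _)]
  | mul a b _ _ ha hb =>
    rw [bt_mul_left hctx, ha, hb, ← Finset.sum_add_distrib]
    refine Finset.sum_congr rfl fun τ _ => ?_
    rw [th_mul h hM, add_mul]
  | inv a _ ha =>
    rw [bt_inv_left hctx, ha]
    refine Finset.sum_congr rfl fun τ _ => ?_
    congr 1
    have h2 := th_mul (x := x) (l := l) (k := k) h hM a a⁻¹ τ
    rw [mul_inv_cancel] at h2
    have h3 : th M x l k (1 : ↥W) τ = 0 := th_frat h hM (Subgroup.one_mem _) τ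
    rw [h3] at h2
    exact eq_of_add_eq_zero2 h2.symm

end

end Part5c

/-- The contradiction when `a₀` is central in `W`. -/
theorem false_of_central (h : S1 W) {a₀ : ↥W} {M : Subgroup ↥W} (hM : IsCoatom M) (ha₀M : a₀ ∉ M)
    (ha₀4 : (a₀ : T) ∈ 𝒵 4)
    (hD : ∀ u : ↥W, (∀ t : T, t⁻¹ * u * t ∈ M.map W.subtype) → u ∈ frattini ↥W)
    (hcen : ∀ g : ↥W, a₀ * g = g * a₀) : False := by
  have hnW := h.hn
  obtain ⟨z₁, z₂, z₃, x, l, k, E⟩ := exists_elts h
  obtain ⟨e, he⟩ := exists_e h E hM hD (x := x) (l := l) (k := k)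
  have hctx := ctx h
  -- `a₀` has all coordinates one
  have hMn := M_normal h hM
  have hMi := M_index h hM
  have hthA : ∀ τ, th M x l k a₀ τ = 1 := by
    intro τ
    have h1 : cn W (rho x l k τ)⁻¹ a₀ * a₀⁻¹ ∈ frattini ↥W := by
      rw [mem_frattini h]
      have := conj_comm_mem ha₀4 (rho x l k τ)⁻¹
      simpa using this
    have h2 : cn W (rho x l k τ)⁻¹ a₀ = (cn W (rho x l k τ)⁻¹ a₀ * a₀⁻¹) * a₀ := by group
    rw [th, h2, chi_mul_of_index hMi, chi_eq_zero_iff.mpr (frattini_le hM h1), zero_add]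
    simp [chi, ha₀M]
  have hsum := sum_formula h E hM hD he a₀
  have hzero : bt (Zz W) a₀ e = 0 := by
    have h1 : cm a₀ e = 1 := by
      simp only [cm]
      rw [hcen e]
      group
    simp [bt, h1, chi]
  rw [hzero] at hsum
  simp only [hthA, one_mul] at hsum
  set K := cn W k with hK
  set L := cn W l with hL
  set e' := cn W x e with he'
  -- identify the generators
  have g0 : gen x l k e (false, false, false) = e := by
    apply Subtype.ext
    simp [gen, rho, pw]
  have g1 : gen x l k e (true, false, false) = K e := by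
    apply Subtype.ext
    simp [gen, rho, pw, hK]
  have g2 : gen x l k e (false, true, false) = L e := by
    apply Subtype.ext
    simp [gen, rho, pw, hL]
  have g3 : gen x l k e (true, true, false) = K (L e) := by
    apply Subtype.ext
    simp only [gen, rho, pw, hK, hL, cn_coe, cond_true, cond_false, mul_one, inv_one]
    group
  have g4 : gen x l k e (false, false, true) = e' := by
    apply Subtype.ext
    simp [gen, rho, pw, he']
  have g5 : gen x l k e (true, false, true) = K e' := by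
    apply Subtype.ext
    simp only [gen, rho, pw, hK, he', cn_coe, cond_true, cond_false, mul_one, inv_one]
    group
  have g6 : gen x l k e (false, true, true) = L e' := by
    apply Subtype.ext
    simp only [gen, rho, pw, hL, he', cn_coe, cond_true, cond_false, one_mul]
    group
  have g7 : gen x l k e (true, true, true) = K (L e') := by
    apply Subtype.ext
    simp only [gen, rho, pw, hK, hL, he', cn_coe, cond_true, cond_false]
    group
  have hP : pf (Zz W) K L e e + pf (Zz W) K L e' e = 0 := by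
    rw [hsum]
    simp only [Fintype.sum_prod_type, Fintype.sum_bool, g0, g1, g2, g3, g4, g5, g6, g7, pf]
    abel
  have hgen : ∀ u, u ∈ Subgroup.closure ((frattini ↥W : Set ↥W) ∪ gens K L e e') := by
    intro u
    refine Subgroup.closure_mono ?_ (gen_closure h E hM hD he u)
    apply Set.union_subset_union_right
    rintro _ ⟨⟨i, j, m⟩, rfl⟩
    simp only [gens, Set.mem_insert_iff, Set.mem_singleton_iff]
    cases i <;> cases j <;> cases m <;> simp only [g0, g1, g2, g3, g4, g5, g6, g7, true_or, or_true]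
  have hz3Y : (⟨z₃, Z3_le_W h E.h3⟩ : ↥W) ∈ frattini ↥W := (mem_frattini h _).2 E.h3
  have hz3Z : (⟨z₃, Z3_le_W h E.h3⟩ : ↥W) ∉ Zz W := fun h0 => E.h3' (Subgroup.mem_subgroupOf.mp h0)
  obtain ⟨U, hUi, hzU⟩ := core hctx (autK h E) (autL h E) (autKL h E) (comm_KL h E) hgen hP hz3Y hz3Z
  exact hzU (h.hd U (by omega) hz3Y)

/-- The centre of `W` has order eight. -/
theorem card_center (h : S1 W) : Nat.card (Subgroup.center ↥W) = 8 := by
  have hnW := h.hn
  have hle : frattini ↥W ≤ Subgroup.center ↥W := by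
    intro y hy
    rw [Subgroup.mem_center_iff]
    exact fun g => frat_central h hy g
  suffices hs : Subgroup.center ↥W ≤ frattini ↥W by
    rw [le_antisymm hs hle]
    exact card_frattini h
  by_contra hcon
  have hN : ((Subgroup.center ↥W).map W.subtype).Normal := map_char_normal
  have hnot : ¬ (Subgroup.center ↥W).map W.subtype ≤ 𝒵 3 := by
    intro hle2
    apply hcon
    intro c hc
    rw [mem_frattini h]
    exact hle2 ⟨c, hc, rfl⟩
  obtain ⟨y, ⟨c, hc, rfl⟩, hy4, hy3⟩ := exists_next h.hT _ 3 hnot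
  obtain ⟨a₀, M, hM, ha₀M, ha₀4, ha₀3, hD⟩ := h.ex
  have h1 := idx2 (Subgroup.upperCentralSeries_mono T (by omega : 3 ≤ 4))
    (by rw [h.c3, h.c4]) ha₀4 hy4 ha₀3 hy3
  have h2 : (c⁻¹ * a₀ : ↥W) ∈ Subgroup.center ↥W :=
    hle ((mem_frattini h _).2 (by simpa using h1))
  have h3 : a₀ ∈ Subgroup.center ↥W := by
    have := Subgroup.mul_mem _ hc h2
    simpa using this
  apply false_of_central h hM ha₀M ha₀4 hD
  intro g
  exact (Subgroup.mem_center_iff.mp h3 g).symm

end Cfsg.Agent.Lib.T14C
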