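import Mathlib
import Cfsg.Agent.Lib.Frat
import Cfsg.Agent.Lib.T14A
import Cfsg.Agent.Lib.T14Abs
import Cfsg.Agent.Lib.T14B
import Cfsg.Agent.Lib.T14C

/-!
# Automorphisms and weak closure for `S3175`
-/

set_option autoImplicit false
set_option linter.unusedSectionVars false
set_option linter.unusedSimpArgs false

namespace Cfsg.Agent.Lib.T14D

open Cfsg.Agent.Lib.T14A Cfsg.Agent.Lib.T14Abs Cfsg.Agent.Lib.T14B Cfsg.Agent.Lib.T14C
  Cfsg.Agent.Lib.Frat

variable {T : Type*} [Group T] [Finite T] {W : Subgroup T}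

local notation "𝒵" => Subgroup.upperCentralSeries T

/-- Any subgroup of index two type of `W` missing `a₀` has trivial core modulo `Φ(W)`. -/
theorem D_prop (h : S1 W) {a₀ : ↥W} (ha₀4 : (a₀ : T) ∈ 𝒵 4) (ha₀3 : (a₀ : T) ∉ 𝒵 3)
    {M : Subgroup ↥W} (hF : frattini ↥W ≤ M) (ha₀M : a₀ ∉ M) (u : ↥W)
    (hu : ∀ t : T, t⁻¹ * u * t ∈ M.map W.subtype) : u ∈ frattini ↥W := by
  let MT : Subgroup T := M.map W.subtype
  have hmemMT : ∀ u : ↥W, (u : T) ∈ MT ↔ u ∈ M := by
    intro u
    constructor
    · rintro ⟨v, hv, hvu⟩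
      have : v = u := Subtype.ext hvu
      rwa [← this]
    · intro h
      exact ⟨u, h, rfl⟩
  let D : Subgroup T := ⨅ t : T, MT.comap (MulAut.conj t⁻¹).toMonoidHom
  have hmemD : ∀ u, u ∈ D ↔ ∀ t : T, t⁻¹ * u * t ∈ MT := by
    intro u
    simp only [D, Subgroup.mem_iInf, Subgroup.mem_comap]
    constructor
    · intro h t
      have := h t
      simpa [MulAut.conj_apply] using this
    · intro h t
      simpa [MulAut.conj_apply] using h t
  have hDn : D.Normal := by
    constructor
    intro n hn g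
    rw [hmemD] at hn ⊢
    intro t
    have := hn (g⁻¹ * t)
    convert this using 1
    group
  have hDM : D ≤ MT := by
    intro u hu
    have := (hmemD u).1 hu 1
    simpa using this
  have hYD : 𝒵 3 ≤ D := by
    intro y hy
    rw [hmemD]
    intro t
    have h1 : t⁻¹ * y * t ∈ 𝒵 3 := by
      have := (inferInstance : (𝒵 3).Normal).conj_mem y hy t⁻¹
      simpa using this
    have h2 := (mem_frattini h ⟨_, Z3_le_W h h1⟩).2 h1
    exact (hmemMT _).2 (hF h2)
  have hDZ : D ≤ 𝒵 3 := by
    by_contra hcon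
    obtain ⟨x, hxD, hx1, hx0⟩ := exists_next h.hT D 3 hcon
    have h1 : x⁻¹ * a₀ ∈ 𝒵 3 := idx2 (Subgroup.upperCentralSeries_mono _ (by omega))
      (by rw [h.c3, h.c4]) ha₀4 hx1 ha₀3 hx0
    have h2 : (a₀ : T) ∈ D := by
      have h3 := D.mul_mem hxD (hYD h1)
      simpa using h3
    exact ha₀M ((hmemMT a₀).1 (hDM h2))
  exact (mem_frattini h u).2 (hDZ ((hmemD _).2 hu))

/-- An odd-order automorphism moving `z` by a fixed element fixes `z`. -/
theorem fix_of_move (hT : IsPGroup 2 T) {α : MulAut T} {n : ℕ} (hn : Odd n) (hα : α ^ n = 1)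
    {z b : T} (h1 : α z = z * b) (h2 : α b = b) : b = 1 := by
  have hi : ∀ i : ℕ, (α ^ i) z = z * b ^ i ∧ (α ^ i) b = b := by
    intro i
    induction i with
    | zero => simp
    | succ i ih =>
      rw [pow_succ, MulAut.mul_apply, MulAut.mul_apply, h1, h2, map_mul, ih.1, ih.2, pow_succ,
        mul_assoc]
      exact ⟨rfl, rfl⟩
  have h3 := (hi n).1
  rw [hα] at h3
  have h4 : b ^ n = 1 := by
    have : z * 1 = z * b ^ n := by
      rw [mul_one]
      exact h3
    exact (mul_left_cancel this).symm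
  obtain ⟨k, hk⟩ := hT b
  have h5 : orderOf b ∣ n := orderOf_dvd_of_pow_eq_one h4
  have h6 : orderOf b ∣ 2 ^ k := orderOf_dvd_of_pow_eq_one hk
  have hcop : Nat.Coprime n (2 ^ k) := Nat.Coprime.pow_right k hn.coprime_two_right
  have h7 : orderOf b = 1 := Nat.eq_one_of_dvd_coprimes hcop h5 h6
  exact orderOf_eq_one_iff.mp h7

theorem char_mem (α : MulAut T) {i : ℕ} {z : T} (hz : z ∈ 𝒵 i) : α z ∈ 𝒵 i :=
  (Subgroup.characteristic_iff_le_comap.mp inferInstance) α hz

theorem char_not_mem (α : MulAut T) {i : ℕ} {z : T} (hz : z ∉ 𝒵 i) : α z ∉ 𝒵 i := by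
  intro h1
  apply hz
  have := char_mem α⁻¹ h1
  simpa using this

/-- Odd-order automorphisms of `T` are trivial. -/
theorem aut_trivial (h : S1 W) (α : MulAut T) {n : ℕ} (hn : Odd n) (hα : α ^ n = 1) : α = 1 := by
  have hnW := h.hn
  -- Step 1: `α` is trivial on the `Z i`, `i ≤ 3`
  have step : ∀ i, Nat.card (𝒵 (i + 1)) = 2 * Nat.card (𝒵 i) → (∀ z ∈ 𝒵 i, α z = z) →
      ∀ z ∈ 𝒵 (i + 1), α z = z := by
    intro i hc hi z hz
    by_cases hzi : z ∈ 𝒵 i
    · exact hi z hzi
    · have h1 := idx2 (Subgroup.upperCentralSeries_mono T (by omega : i ≤ i + 1)) hc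
        (char_mem α hz) hz (char_not_mem α hzi) hzi
      have h2 := fix_of_move h.hT hn hα (z := z) (b := z⁻¹ * α z) (by group) (hi _ h1)
      have h3 : z⁻¹ * α z = 1 := h2
      exact (inv_mul_eq_one.mp h3).symm
  have hz0 : ∀ z ∈ 𝒵 0, α z = z := by
    intro z hz
    have : z = 1 := by simpa using hz
    rw [this, map_one]
  have hz1 := step 0 (by rw [h.c1]; simp) hz0
  have hz2 := step 1 (by rw [h.c1, h.c2]) hz1
  have hz3 := step 2 (by rw [h.c2, h.c3]) hz2
  -- Step 2: `α` is trivial on `T / W`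
  have hTW : ∀ t, t⁻¹ * α t ∈ W := by
    intro t
    rw [h.hW, Subgroup.mem_centralizer_iff]
    intro y hy
    have hy' : y ∈ 𝒵 3 := hy
    have h1 : t * y * t⁻¹ ∈ 𝒵 3 := (inferInstance : (𝒵 3).Normal).conj_mem y hy' t
    have h2 : α (t * y * t⁻¹) = t * y * t⁻¹ := hz3 _ h1
    rw [map_mul, map_mul, map_inv, hz3 y hy'] at h2
    calc y * (t⁻¹ * α t) = t⁻¹ * (t * y * t⁻¹) * α t := by group
      _ = t⁻¹ * (α t * y * (α t)⁻¹) * α t := by rw [h2]
      _ = _ := by group
  have hWinv : ∀ u ∈ W, α u ∈ W := by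
    intro u hu
    have := W.mul_mem hu (hTW u)
    simpa using this
  -- the restriction to `W`
  have hWpow : ∀ (i : ℕ), ∀ u ∈ W, (α ^ i) u ∈ W := by
    intro i
    induction i with
    | zero => simp
    | succ i ih =>
      intro u hu
      rw [pow_succ, MulAut.mul_apply]
      exact ih _ (hWinv u hu)
  let pwr : ℕ → (↥W →* ↥W) := fun i =>
    { toFun := fun u => ⟨(α ^ i) u, hWpow i u u.2⟩
      map_one' := by
        apply Subtype.ext
        simp
      map_mul' := by
        intro u v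
        apply Subtype.ext
        simp }
  have hpwr : ∀ i (u : ↥W), ((pwr i u : ↥W) : T) = (α ^ i) u := fun i u => rfl
  obtain ⟨a₀, M, hM, ha₀M, ha₀4, ha₀3, -⟩ := h.ex
  have hMi := M_index h hM
  have hFM := frattini_le (W := W) hM
  -- the averaged functional
  let F : ↥W → ZMod 2 := fun u => ∑ i ∈ Finset.range n, chi M (pwr i u)
  have hFmul : ∀ u v, F (u * v) = F u + F v := by
    intro u v
    simp only [F, map_mul, ← Finset.sum_add_distrib]
    exact Finset.sum_congr rfl fun i _ => chi_mul_of_index hMi _ _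
  have hF1 : F 1 = 0 := by
    have := hFmul 1 1
    rw [mul_one] at this
    have h2 : ∀ a : ZMod 2, a = a + a → a = 0 := by decide
    exact h2 _ this
  have hFinv : ∀ u, F u⁻¹ = F u := by
    intro u
    have h1 := hFmul u⁻¹ u
    rw [inv_mul_cancel, hF1] at h1
    exact eq_of_add_eq_zero2 h1.symm
  have hFconj : ∀ w x : ↥W, F (w⁻¹ * x * w) = F x := by
    intro w x
    rw [hFmul, hFmul, hFinv]
    have h2 : ∀ a b : ZMod 2, a + b + a = b := by decide
    exact h2 _ _
  have hFα : ∀ u, F (pwr 1 u) = F u := by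
    intro u
    have h1 : ∀ i, pwr i (pwr 1 u) = pwr (i + 1) u := by
      intro i
      apply Subtype.ext
      show (α ^ i) ((α ^ 1) (u : T)) = (α ^ (i + 1)) (u : T)
      rw [pow_succ α i, MulAut.mul_apply, pow_one]
    simp only [F, h1]
    have h2 := Finset.sum_range_succ (fun i => chi M (pwr i u)) n
    have h3 := Finset.sum_range_succ' (fun i => chi M (pwr i u)) n
    have h4 : pwr n u = pwr 0 u := by
      apply Subtype.ext
      rw [hpwr, hpwr, hα]
      simp
    rw [h2, h4] at h3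
    exact (add_right_cancel h3).symm
  have hFY : ∀ y ∈ frattini ↥W, F y = 0 := by
    intro y hy
    apply Finset.sum_eq_zero
    intro i _
    rw [chi_eq_zero_iff]
    apply hFM
    rw [mem_frattini h, hpwr]
    exact char_mem _ ((mem_frattini h y).1 hy)
  have hFa : F a₀ = 1 := by
    have h1 : ∀ i ∈ Finset.range n, chi M (pwr i a₀) = 1 := by
      intro i _
      have h2 : ((a₀⁻¹ * pwr i a₀ : ↥W) : T) ∈ 𝒵 3 := by
        have h3 := idx2 (Subgroup.upperCentralSeries_mono T (by omega : 3 ≤ 4))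
          (by rw [h.c3, h.c4]) (char_mem (α ^ i) ha₀4) ha₀4 (char_not_mem (α ^ i) ha₀3) ha₀3
        simpa [hpwr] using h3
      have h3 : pwr i a₀ = a₀ * (a₀⁻¹ * pwr i a₀) := by group
      rw [h3, chi_mul_of_index hMi, chi_eq_zero_iff.mpr (hFM ((mem_frattini h _).2 h2))]
      simp [chi, ha₀M]
    simp only [F]
    rw [Finset.sum_congr rfl h1]
    simp only [Finset.sum_const, Finset.card_range, nsmul_eq_mul, mul_one]
    exact ZMod.natCast_eq_one_iff_odd.mpr hn
  let M' : Subgroup ↥W :=
    { carrier := {u | F u = 0}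
      mul_mem' := by
        intro a b ha hb
        simp only [Set.mem_ofPred_eq] at ha hb ⊢
        rw [hFmul, ha, hb, add_zero]
      one_mem' := hF1
      inv_mem' := by
        intro a ha
        simp only [Set.mem_ofPred_eq] at ha ⊢
        rw [hFinv, ha] }
  have hmemM' : ∀ u, u ∈ M' ↔ F u = 0 := fun u => Iff.rfl
  have hD := D_prop h ha₀4 ha₀3 (M := M') (fun y hy => hFY y hy) (by
    rw [hmemM', hFa]; decide)
  -- Step 4: `α` is trivial on `W / Y`
  have hαW : ∀ u : ↥W, α u = u := by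
    intro u
    have hv : u⁻¹ * pwr 1 u ∈ frattini ↥W := by
      apply hD
      intro t
      let t' : T := α⁻¹ t
      have htt' : α t' = t := by simp [t']
      have hw : t⁻¹ * t' ∈ W := by
        have h1 := W.inv_mem (hTW t')
        rw [htt'] at h1
        simpa using h1
      let w : ↥W := ⟨_, hw⟩
      have h5 : F (cj W t (pwr 1 u)) = F (cj W t u) := by
        have h6 : cj W t (pwr 1 u) = pwr 1 (w⁻¹ * (cj W t u) * w) := by
          apply Subtype.ext
          have h8 : w⁻¹ * (cj W t u) * w = (⟨t'⁻¹ * u * t', (inferInstance : W.Normal).conj_mem' _ u.2 t'⟩ : ↥W) := by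
            apply Subtype.ext
            simp only [Subgroup.coe_mul, Subgroup.coe_inv, cj_coe, w]
            group
          rw [h8, hpwr]
          simp only [cj_coe, hpwr, pow_one, map_mul, map_inv, htt']
        rw [h6, hFα, hFconj]
      have h7 : cj W t (u⁻¹ * pwr 1 u) ∈ M' := by
        rw [hmemM', map_mul, hFmul, map_inv, hFinv, h5]
        exact add_self2 _
      refine ⟨_, h7, ?_⟩
      simp only [Subgroup.subtype_apply, cj_coe]
    have h1 := fix_of_move h.hT hn hα (z := u) (b := ((u⁻¹ * pwr 1 u : ↥W) : T)) (by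
        simp only [Subgroup.coe_mul, Subgroup.coe_inv, hpwr, pow_one]
        group) (hz3 _ ((mem_frattini h _).1 hv))
    simp only [Subgroup.coe_mul, Subgroup.coe_inv, hpwr, pow_one] at h1
    exact (inv_mul_eq_one.mp h1).symm
  -- Step 5
  ext t
  have h1 := fix_of_move h.hT hn hα (z := t) (b := t⁻¹ * α t) (by group) (hαW ⟨_, hTW t⟩)
  have h2 : t⁻¹ * α t = 1 := h1
  simpa using (inv_mul_eq_one.mp h2).symm

/-- `W` is the only subgroup of `T` which is the image of `W` under an injective homomorphism. -/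
theorem range_eq (h : S1 W) (φ : ↥W →* T) (hφ : Function.Injective φ) : φ.range = W := by
  have hnW := h.hn
  have : Fact (Nat.Prime 2) := ⟨Nat.prime_two⟩
  set A := φ.range with hA
  have hAc : Nat.card A = Nat.card W := Nat.card_congr (MonoidHom.ofInjective hφ).toEquiv.symm
  -- the relative index
  have hk : W.relIndex A ≤ 8 := by
    have h1 : W.relIndex A ∣ W.index := Subgroup.relIndex_dvd_index_of_normal W A
    rw [h.idx] at h1
    exact Nat.le_of_dvd (by norm_num) h1
  have hc1 : Nat.card (A.subgroupOf W) = Nat.card ↥(A ⊓ W) := by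
    rw [← Subgroup.subgroupOf_map_subtype]
    exact (Subgroup.card_subtype _ _).symm
  have hc2 : Nat.card (W.subgroupOf A) = Nat.card ↥(A ⊓ W) := by
    rw [inf_comm, ← Subgroup.subgroupOf_map_subtype]
    exact (Subgroup.card_subtype _ _).symm
  have hV1 : (A.subgroupOf W).index = W.relIndex A := by
    have h1 := (A.subgroupOf W).card_mul_index
    have h2 := (W.subgroupOf A).card_mul_index
    rw [hc1] at h1
    rw [hc2, hAc, ← h1] at h2
    exact (Nat.eq_of_mul_eq_mul_left Nat.card_pos h2).symm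
  have hV2 : (W.comap φ).index = W.relIndex A := Subgroup.index_comap W φ
  have hΦ1 : frattini ↥W ≤ A.subgroupOf W := h.hd _ (by omega)
  have hΦ2 : frattini ↥W ≤ W.comap φ := h.hd _ (by omega)
  set B : Subgroup T := (frattini ↥W).map φ with hB
  have hBc : Nat.card B = 8 := by
    rw [hB, Subgroup.card_map_of_injective hφ]
    exact card_frattini h
  -- elements of `B` commute with those of `A`
  have hBA : ∀ y ∈ B, ∀ a ∈ A, a * y = y * a := by
    rintro _ ⟨y, hy, rfl⟩ _ ⟨a, rfl⟩
    rw [← map_mul, ← map_mul, frat_central h hy a]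
  have hZB : 𝒵 3 ≤ B := by
    intro z hz
    by_contra hzB
    let z' : ↥W := ⟨z, Z3_le_W h hz⟩
    have hz'F : z' ∈ frattini ↥W := (mem_frattini h z').2 hz
    let V₁ := A.subgroupOf W
    let zz : ↥V₁ := ⟨z', hΦ1 hz'F⟩
    let N : Subgroup ↥V₁ := B.comap (W.subtype.comp V₁.subtype)
    have hNn : N.Normal := by
      constructor
      intro n hn g
      have hg : ((g : ↥W) : T) ∈ A := Subgroup.mem_subgroupOf.mp g.2
      have h1 := hBA _ hn _ hg
      have h2 : g * n * g⁻¹ = n := by
        apply Subtype.ext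
        apply Subtype.ext
        simp only [Subgroup.coe_mul, Subgroup.coe_inv]
        have h3 : ((g : ↥W) : T) * ((n : ↥W) : T) = ((n : ↥W) : T) * ((g : ↥W) : T) := h1
        rw [h3]
        group
      rw [h2]
      exact hn
    have hsq : ∀ g : ↥V₁, g * g ∈ N := by
      intro g
      have hg : ((g : ↥W) : T) ∈ A := Subgroup.mem_subgroupOf.mp g.2
      obtain ⟨a, ha⟩ := hg
      show ((g : ↥W) : T) * ((g : ↥W) : T) ∈ B
      rw [← ha, ← map_mul]
      exact ⟨_, sq_mem h a, rfl⟩
    have hzzN : zz ∉ N := fun h0 => hzB h0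
    obtain ⟨U₁, -, hzzU, hUi⟩ := exists_index_two N hsq hzzN
    have hUindex : (U₁.map V₁.subtype).index ≤ 16 := by
      rw [Subgroup.index_map_subtype, hUi]
      have : V₁.index ≤ 8 := by
        show (A.subgroupOf W).index ≤ 8
        omega
      omega
    have h1 := h.hd _ hUindex hz'F
    obtain ⟨u, hu, hue⟩ := h1
    have h2 : u = zz := Subtype.ext hue
    exact hzzU (h2 ▸ hu)
  have hZBeq : 𝒵 3 = B := Subgroup.eq_of_le_of_card_ge hZB (by rw [hBc, h.c3])
  have hAW : A ≤ W := by
    intro a ha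
    rw [h.hW, Subgroup.mem_centralizer_iff]
    intro y hy
    have hy' : y ∈ B := hZBeq ▸ hy
    exact (hBA y hy' a ha).symm
  exact Subgroup.eq_of_le_of_card_ge hAW hAc.ge

end Cfsg.Agent.Lib.T14D
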