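import Mathlib
import Cfsg.Agent.Lib.TICent71
import Cfsg.Agent.Lib.CNSolv
import Cfsg.Agent.Lib.CNFrob
import Cfsg.Agent.Lib.FpfCenter
import Cfsg.Agent.Lib.BrolineGT

/-!
# TI centralizers: the case of a nontrivial proper Fitting subgroup

Then `G` is a Frobenius group with kernel `F(G)` whose complement is cyclic or `C_odd × Q₈`.
-/

set_option autoImplicit false

namespace Cfsg.Agent.Lib.TICent71

open Cfsg Cfsg.Agent.Lib.PCore

variable {G : Type*} [Group G] [Finite G]

/-- Centralizers of non-identity elements of the Fitting subgroup lie in it. -/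
theorem Cz_le_fitting (hTI : TICent G) {k : G} (hk : k ∈ fittingSubgroup G) (hk1 : k ≠ 1) :
    Cz k ≤ fittingSubgroup G := by
  classical
  set F := fittingSubgroup G with hF
  have hFn : F.Normal := fittingSubgroup_normal
  haveI hFnil : Group.IsNilpotent F := isNilpotent_fittingSubgroup
  haveI : Nontrivial F := ⟨⟨⟨k, hk⟩, 1, fun h => hk1 (congrArg Subtype.val h)⟩⟩
  have hZ := Group.IsNilpotent.center_ne_bot (G := F)
  obtain ⟨⟨z0, hz0⟩, hz1⟩ := Subgroup.ne_bot_iff_exists_ne_one.mp hZ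
  have hz1' : (z0 : G) ≠ 1 := fun h => hz1 (Subtype.ext (Subtype.ext h))
  have hzc : ∀ a ∈ F, a * (z0 : G) = z0 * a := by
    intro a ha
    have := Subgroup.mem_center_iff.mp hz0 ⟨a, ha⟩
    exact (congrArg Subtype.val this)
  have hzg : ∀ g : G, ∀ a ∈ F, a * (g * z0 * g⁻¹) = (g * z0 * g⁻¹) * a := by
    intro g a ha
    have h1 : g⁻¹ * a * g ∈ F := by simpa using hFn.conj_mem a ha g⁻¹
    have h2 := hzc _ h1
    calc a * (g * z0 * g⁻¹) = g * ((g⁻¹ * a * g) * z0) * g⁻¹ := by group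
      _ = g * (z0 * (g⁻¹ * a * g)) * g⁻¹ := by rw [h2]
      _ = (g * z0 * g⁻¹) * a := by group
  have hkz : (z0 : G) ∈ Cz k := mem_Cz.mpr (hzc k hk).symm
  have hnorm : (Cz k).Normal := by
    rw [← Subgroup.normalizer_eq_top_iff, eq_top_iff]
    intro g _
    apply mem_normalizer_of_conj_mem hTI hz1' hkz
    exact mem_Cz.mpr (hzg g k hk).symm
  exact le_fittingSubgroup hnorm (isNilpotent_Cz hTI hk1)

/-- `F(G)` is a Hall subgroup. -/
theorem coprime_fitting (hTI : TICent G) :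
    (Nat.card (fittingSubgroup G)).Coprime (fittingSubgroup G).index := by
  classical
  set F := fittingSubgroup G with hF
  have hFn : F.Normal := fittingSubgroup_normal
  apply Nat.coprime_of_dvd
  intro p hp hpF hpi
  haveI : Fact p.Prime := ⟨hp⟩
  obtain ⟨P⟩ : Nonempty (Sylow p G) := inferInstance
  obtain ⟨y, hy⟩ := exists_prime_orderOf_dvd_card' (G := F) p hpF
  have hy' : orderOf (y : G) = p := by rw [Subgroup.orderOf_coe, hy]
  have hR : IsPGroup p (Subgroup.zpowers (y : G)) := by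
    apply IsPGroup.of_card (n := 1)
    rw [Nat.card_zpowers, hy', pow_one]
  obtain ⟨Q, hQ⟩ := hR.exists_le_sylow
  obtain ⟨g, hg⟩ := MulAction.exists_smul_eq G Q P
  have hwP : g * (y : G) * g⁻¹ ∈ (P : Subgroup G) := by
    rw [← hg, Sylow.coe_subgroup_smul]
    have := Subgroup.smul_mem_pointwise_smul (y : G) (MulAut.conj g) (Q : Subgroup G)
      (hQ (Subgroup.mem_zpowers _))
    simpa [MulAut.smul_def] using this
  have hwF : g * (y : G) * g⁻¹ ∈ F := hFn.conj_mem _ y.2 g
  have hw1 : g * (y : G) * g⁻¹ ≠ 1 := by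
    intro h
    have h2 : (y : G) = 1 := by
      have : g * (y : G) = g := by
        calc g * (y : G) = g * (y : G) * g⁻¹ * g := by group
          _ = g := by rw [h, one_mul]
      exact mul_eq_left.mp this
    rw [h2, orderOf_one] at hy'
    exact hp.one_lt.ne hy'
  haveI hPnil : Group.IsNilpotent (P : Subgroup G) := P.isPGroup'.isNilpotent
  have hne : F.subgroupOf (P : Subgroup G) ≠ ⊥ := by
    rw [Subgroup.ne_bot_iff_exists_ne_one]
    refine ⟨⟨⟨g * (y : G) * g⁻¹, hwP⟩, hwF⟩, fun h => hw1 ?_⟩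
    exact congrArg (fun x => ((x : (P : Subgroup G)) : G)) (congrArg Subtype.val h)
  have h3 := Cfsg.Agent.Lib.BrolineGT.inf_center_ne_bot (F.subgroupOf (P : Subgroup G)) hne
  obtain ⟨⟨k, hk⟩, hk1⟩ := Subgroup.ne_bot_iff_exists_ne_one.mp h3
  have hkF : (k : G) ∈ F := hk.1
  have hkc := Subgroup.mem_center_iff.mp hk.2
  have hk1' : (k : G) ≠ 1 := fun h => hk1 (Subtype.ext (Subtype.ext h))
  have hPF : (P : Subgroup G) ≤ F := by
    intro a ha
    apply Cz_le_fitting hTI hkF hk1'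
    have := hkc ⟨a, ha⟩
    exact mem_Cz.mpr (congrArg Subtype.val this)
  exact P.not_dvd_index (hpi.trans (Subgroup.index_dvd_of_le hPF))

/-- In the generalized quaternion group of order at least `16` there is a non-normal centralizer. -/
lemma quat_contra {n : ℕ} (hn : 2 ≤ n) (h : ((QuaternionGroup.a 1 : QuaternionGroup (2 ^ n)) *
    QuaternionGroup.xa 0 * (QuaternionGroup.a 1)⁻¹) * QuaternionGroup.xa 0 =
    QuaternionGroup.xa 0 * ((QuaternionGroup.a 1 : QuaternionGroup (2 ^ n)) *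
    QuaternionGroup.xa 0 * (QuaternionGroup.a 1)⁻¹)) : False := by
  have h1 : ((QuaternionGroup.a 1 : QuaternionGroup (2 ^ n)))⁻¹ = QuaternionGroup.a (-1) := rfl
  rw [h1] at h
  simp only [QuaternionGroup.a_mul_xa, QuaternionGroup.xa_mul_a, QuaternionGroup.xa_mul_xa,
    QuaternionGroup.a.injEq] at h
  have h2 : ((4 : ℕ) : ZMod (2 * 2 ^ n)) = 0 := by
    push_cast
    linear_combination h
  rw [ZMod.natCast_eq_zero_iff] at h2
  have h3 : 2 * 2 ^ n ≤ 4 := Nat.le_of_dvd (by norm_num) h2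
  have h4 : 2 ^ 2 ≤ 2 ^ n := Nat.pow_le_pow_right (by norm_num) hn
  omega

/-- The Frobenius case. -/
theorem caseA (hTI : TICent G) (hF1 : fittingSubgroup G ≠ ⊥) (hF2 : fittingSubgroup G ≠ ⊤) :
    ∃ H : Subgroup G, IsFrobeniusComplement H ∧
      (IsCyclic H ∨ ∃ m : ℕ, Odd m ∧ Nonempty (H ≃* Multiplicative (ZMod m) × QuaternionGroup 2)) := by
  classical
  set F := fittingSubgroup G with hF
  haveI hFn : F.Normal := fittingSubgroup_normal
  obtain ⟨E, hE⟩ := Subgroup.exists_right_complement'_of_coprime (N := F) (coprime_fitting hTI)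
  have hdisj : F ⊓ E = ⊥ := hE.disjoint.eq_bot
  have hE1 : E ≠ ⊥ := by
    rintro rfl
    apply hF2
    have := hE.sup_eq_top
    rwa [sup_bot_eq] at this
  have hfpf : ∀ e ∈ E, e ≠ 1 → F ⊓ Subgroup.centralizer ({e} : Set G) = ⊥ := by
    intro e he he1
    rw [eq_bot_iff]
    rintro k ⟨hkF, hkC⟩
    rw [Subgroup.mem_bot]
    by_contra hk1
    have h1 : e ∈ Cz k := mem_Cz.mpr (mem_Cz.mp hkC).symm
    have h2 : e ∈ F ⊓ E := ⟨Cz_le_fitting hTI hkF hk1 h1, he⟩
    rw [hdisj, Subgroup.mem_bot] at h2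
    exact he1 h2
  have hfrob : IsFrobeniusComplement E :=
    Cfsg.Agent.Lib.CNFrob.isFrobeniusComplement_of_fpf hF1 hE1 hE hfpf
  refine ⟨E, hfrob, ?_⟩
  have hEN : E ≤ Subgroup.normalizer (F : Set G) := by
    intro e _
    rw [Subgroup.normalizer_eq_top_iff.mpr hFn]
    exact Subgroup.mem_top e
  -- a central element of `E`
  have hZ := Cfsg.Agent.Lib.FpfCenter.center_ne_bot_of_fpf E F hF1 hE1 hEN hfpf
  obtain ⟨⟨c0, hc0⟩, hc1⟩ := Subgroup.ne_bot_iff_exists_ne_one.mp hZ
  have hc1' : (c0 : G) ≠ 1 := fun h => hc1 (Subtype.ext (Subtype.ext h))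
  have hcc : ∀ a ∈ E, a * (c0 : G) = c0 * a := by
    intro a ha
    have := Subgroup.mem_center_iff.mp hc0 ⟨a, ha⟩
    exact (congrArg Subtype.val this)
  have hEle : E ≤ Cz (c0 : G) := fun a ha => mem_Cz.mpr (hcc a ha)
  have hEnil : Group.IsNilpotent E := by
    haveI := isNilpotent_Cz hTI hc1'
    exact Group.nilpotent_of_mulEquiv (Subgroup.subgroupOfEquivOfLe hEle)
  rcases Cfsg.Agent.Lib.CNSolv.cyclic_or_quat_of_nilpotent_fpf hF1 hEN hfpf hEnil with h | h
  · exact Or.inl h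
  obtain ⟨C, Q, hCQ, hcomm, hCc, hCo, n, ⟨e⟩⟩ := h
  have hQE : Q ≤ E := hCQ ▸ le_sup_right
  have hCE : C ≤ E := hCQ ▸ le_sup_left
  -- `n ≤ 1`
  have hn : n ≤ 1 := by
    by_contra hn
    push Not at hn
    apply quat_contra (n := n) hn
    set y : G := ((e.symm (QuaternionGroup.xa 0) : Q) : G) with hy
    set g : G := ((e.symm (QuaternionGroup.a 1) : Q) : G) with hg
    have hyQ : y ∈ Q := (e.symm _).2
    have hgQ : g ∈ Q := (e.symm _).2
    have hy1 : y ≠ 1 := by
      intro h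
      have h1 : e.symm (QuaternionGroup.xa 0) = 1 := Subtype.ext h
      have h2 := (map_eq_one_iff e.symm e.symm.injective).mp h1
      rw [QuaternionGroup.one_def] at h2
      cases h2
    have key := comm_conj_of_comm hTI (x := (c0 : G)) (y := y) (g := g) (c := y) hc1' hy1
      ((hcc y (hQE hyQ)).symm) (hcc g (hQE hgQ)) rfl
    apply e.symm.injective
    apply Subtype.ext
    simp only [map_mul, map_inv, Subgroup.coe_mul, Subgroup.coe_inv]
    exact key
  -- the decomposition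
  have hQ2 : IsPGroup 2 Q := by
    apply IsPGroup.of_card (n := n + 2)
    rw [Nat.card_congr e.toEquiv, Nat.card_eq_fintype_card, QuaternionGroup.card]
    ring
  have hcop : (Nat.card C).Coprime (Nat.card Q) := by
    obtain ⟨k, hk⟩ := IsPGroup.iff_card.mp hQ2
    rw [hk]
    exact Nat.Coprime.pow_right _ (Nat.coprime_two_right.mpr hCo)
  have hdis : C ⊓ Q = ⊥ := by
    rw [eq_bot_iff]
    rintro x ⟨hxC, hxQ⟩
    rw [Subgroup.mem_bot]
    have h1 : orderOf x ∣ Nat.card C := Subgroup.orderOf_dvd_natCard C hxC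
    have h2 : orderOf x ∣ Nat.card Q := Subgroup.orderOf_dvd_natCard Q hxQ
    exact orderOf_eq_one_iff.mp (Nat.eq_one_of_dvd_coprimes hcop h1 h2)
  let φ : C × Q →* G := MonoidHom.noncommCoprod C.subtype Q.subtype (fun a b => hcomm a a.2 b b.2)
  have hφ : ∀ a : C, ∀ b : Q, φ (a, b) = (a : G) * b := fun a b => rfl
  have hinj : Function.Injective φ := by
    rw [injective_iff_map_eq_one]
    rintro ⟨a, b⟩ hab
    rw [hφ] at hab
    have h1 : (a : G) = (b : G)⁻¹ := eq_inv_of_mul_eq_one_left hab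
    have h2 : (a : G) ∈ C ⊓ Q := ⟨a.2, by rw [h1]; exact Q.inv_mem b.2⟩
    rw [hdis, Subgroup.mem_bot] at h2
    have h3 : (b : G) = 1 := by
      rw [h2, one_mul] at hab
      exact hab
    exact Prod.ext (Subtype.ext h2) (Subtype.ext h3)
  have hrange : φ.range = E := by
    apply le_antisymm
    · rintro _ ⟨⟨a, b⟩, rfl⟩
      rw [hφ]
      exact E.mul_mem (hCE a.2) (hQE b.2)
    · rw [← hCQ]
      apply sup_le
      · intro a ha
        exact ⟨(⟨a, ha⟩, 1), by simp [hφ]⟩
      · intro b hb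
        exact ⟨(1, ⟨b, hb⟩), by simp [hφ]⟩
  let e₂ : C × Q ≃* E := (MonoidHom.ofInjective hinj).trans (MulEquiv.subgroupCongr hrange)
  interval_cases n
  · -- `Q` is cyclic of order 4
    left
    have hQc : IsCyclic Q := by
      haveI := QuaternionGroup.quaternionGroup_one_isCyclic
      exact isCyclic_of_surjective e.symm e.symm.surjective
    have hprod : IsCyclic (C × Q) := Group.isCyclic_prod_iff.mpr ⟨hCc, hQc, hcop⟩
    exact isCyclic_of_surjective e₂ e₂.surjective
  · right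
    refine ⟨Nat.card C, hCo, ⟨e₂.symm.trans (MulEquiv.prodCongr (zmodCyclicMulEquiv hCc).symm e)⟩⟩

end Cfsg.Agent.Lib.TICent71
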