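import Mathlib
import Cfsg.Agent.Lib.TICent71
import Cfsg.Agent.Lib.EmbInvol
import Cfsg.Agent.Lib.BrolineGT
import Cfsg.Agent.Lib.DicksonStruct

/-!
# TI centralizers: the strongly embedded configuration

`H` is strongly embedded, `K ⊴ H` is the common centralizer of the involutions of `H`.
-/

set_option autoImplicit false

namespace Cfsg.Agent.Lib.TICent71

open Cfsg Cfsg.Agent.Lib.EmbInvol

variable {G : Type*} [Group G] [Finite G]

/-- A nilpotent group of even order has a central involution. -/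
theorem exists_central_involution {N : Type*} [Group N] [Finite N] [hN : Group.IsNilpotent N]
    (he : Even (Nat.card N)) : ∃ t ∈ Subgroup.center N, orderOf t = 2 := by
  classical
  haveI : Fact (Nat.Prime 2) := ⟨Nat.prime_two⟩
  obtain ⟨P⟩ : Nonempty (Sylow 2 N) := inferInstance
  have h2 : 2 ∣ Nat.card N := even_iff_two_dvd.mp he
  have hP1 : (P : Subgroup N) ≠ ⊥ := P.ne_bot_of_dvd_card h2
  have hPn : (P : Subgroup N).Normal :=
    ((Group.isNilpotent_of_finite_tfae (G := N)).out 0 3 rfl rfl).1 hN 2 inferInstance P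
  have h3 := Cfsg.Agent.Lib.BrolineGT.inf_center_ne_bot (P : Subgroup N) hP1
  have hpg : IsPGroup 2 ↥((P : Subgroup N) ⊓ Subgroup.center N) :=
    P.isPGroup'.to_le inf_le_left
  haveI : Nontrivial ↥((P : Subgroup N) ⊓ Subgroup.center N) := Subgroup.nontrivial_iff_ne_bot _ |>.mpr h3
  obtain ⟨t, ht⟩ := exists_prime_orderOf_dvd_card' (G := ↥((P : Subgroup N) ⊓ Subgroup.center N)) 2
    (by
      obtain ⟨k, hk⟩ := IsPGroup.iff_card.mp hpg
      have h1 : 1 < Nat.card ↥((P : Subgroup N) ⊓ Subgroup.center N) := Finite.one_lt_card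
      rw [hk] at h1 ⊢
      cases k with
      | zero => simp at h1
      | succ k => exact dvd_pow_self 2 (Nat.succ_ne_zero k))
  exact ⟨t, t.2.2, by rw [Subgroup.orderOf_coe, ht]⟩

section pts

omit [Finite G]

/-- The intersection `H ∩ uHu`. -/
abbrev Dd (H : Subgroup G) (u : G) : Subgroup G := H ⊓ H.map (MulAut.conj u).toMonoidHom

/-- The two-point stabilizer `H ∩ G_β`. -/
abbrev Dpt (H : Subgroup G) (β : G ⧸ H) : Subgroup G := H ⊓ MulAction.stabilizer G β

lemma mem_Dpt_mk {H : Subgroup G} {u d : G} :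
    d ∈ Dpt H (QuotientGroup.mk u) ↔ d ∈ H ∧ u⁻¹ * d * u ∈ H := by
  rw [Subgroup.mem_inf, MulAction.mem_stabilizer_iff, smul_mk_eq_iff]

lemma Dpt_mk_eq {H : Subgroup G} (u : G) : Dpt H (QuotientGroup.mk u) = Dd H u := by
  ext d
  rw [mem_Dpt_mk, Subgroup.mem_inf, mem_map_conj_iff]

lemma mem_H_of_fix {H : Subgroup G} {d : G} (hd : d • (QuotientGroup.mk 1 : G ⧸ H) = QuotientGroup.mk 1) : d ∈ H := by
  have := (smul_mk_eq_iff (H := H) d 1).mp hd
  simpa using this

lemma fix_of_mem_H {H : Subgroup G} {d : G} (hd : d ∈ H) : d • (QuotientGroup.mk 1 : G ⧸ H) = QuotientGroup.mk 1 := by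
  apply (smul_mk_eq_iff (H := H) d 1).mpr
  simpa using hd

end pts

/-- The strongly embedded configuration. -/
structure Cfg (K H : Subgroup G) : Prop where
  ti : TICent G
  emb : IsStronglyEmbedded H
  cent : ∀ t ∈ H, orderOf t = 2 → Cz t = K
  norm : Subgroup.normalizer (K : Set G) = H

namespace Cfg

variable {K H : Subgroup G} (h : Cfg K H)

include h

lemma le : K ≤ H := by
  rw [← h.norm]
  exact Subgroup.le_normalizer

lemma exists_z : ∃ z ∈ H, orderOf z = 2 ∧ Cz z = K := by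
  obtain ⟨z, hz, hz2⟩ := exists_involution_mem h.emb
  exact ⟨z, hz, hz2, h.cent z hz hz2⟩

lemma conj_mem {x y : G} (hx : x ∈ H) (hy : y ∈ K) : x * y * x⁻¹ ∈ K := by
  rw [← h.norm] at hx
  exact (Subgroup.mem_normalizer_iff.mp hx y).mp hy

lemma mem_of_conj_mem {x y : G} (hx : x ∈ H) (hy : x * y * x⁻¹ ∈ K) : y ∈ K := by
  rw [← h.norm] at hx
  exact (Subgroup.mem_normalizer_iff.mp hx y).mpr hy

/-- `K` is TI. -/
lemma ti_K {g y : G} (hg : g ∉ H) (hy : y ∈ K) (hgy : g * y * g⁻¹ ∈ K) : y = 1 := by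
  obtain ⟨z, -, -, hzK⟩ := h.exists_z
  subst hzK
  by_contra hy1
  apply hg
  rw [← h.norm]
  exact mem_normalizer_of_conj_mem h.ti hy1 hy hgy

/-- Centralizers of non-identity elements of `K` lie in `K`. -/
theorem Cz_le {y : G} (hy : y ∈ K) (hy1 : y ≠ 1) : Cz y ≤ K := by
  classical
  obtain ⟨z, hzH, hz2, hzK⟩ := h.exists_z
  have hnil : Group.IsNilpotent (Cz y) := isNilpotent_Cz h.ti hy1
  have hzy : z ∈ Cz y := by
    rw [← hzK] at hy
    exact mem_Cz.mpr (mem_Cz.mp hy).symm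
  have hCH : Cz y ≤ H := by
    intro c hc
    rw [← h.norm, ← hzK]
    exact normalizes h.ti hy1 (by rwa [← hzK] at hy) hc
  have he : Even (Nat.card (Cz y)) := by
    rw [even_iff_two_dvd]
    have h1 : orderOf (⟨z, hzy⟩ : Cz y) = 2 := by rw [Subgroup.orderOf_mk, hz2]
    rw [← h1]
    exact orderOf_dvd_natCard _
  obtain ⟨t, htc, ht2⟩ := exists_central_involution he
  have ht2' : orderOf (t : G) = 2 := by rw [Subgroup.orderOf_coe, ht2]
  intro c hc
  rw [← h.cent (t : G) (hCH t.2) ht2']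
  have := Subgroup.mem_center_iff.mp htc ⟨c, hc⟩
  exact mem_Cz.mpr (congrArg Subtype.val this)

/-- An element of `H` outside... commuting with a non-identity element of `K` lies in `K`. -/
lemma mem_K_of_comm {y c : G} (hy : y ∈ K) (hy1 : y ≠ 1) (hc : c * y = y * c) : c ∈ K :=
  h.Cz_le hy hy1 (mem_Cz.mpr hc)

/-- `H ∩ uHu`, as a set. -/
lemma mem_D {u x : G} (huu : u * u = 1) :
    x ∈ H ⊓ H.map (MulAut.conj u).toMonoidHom ↔ x ∈ H ∧ u * x * u ∈ H := by
  have hui : u⁻¹ = u := inv_eq_of_mul_eq_one_left huu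
  rw [Subgroup.mem_inf, mem_map_conj_iff, hui]

/-- `K ∩ (H ∩ uHu) = 1`. -/
theorem K_inf_D {u x : G} (huu : u * u = 1) (huH : u ∉ H) (hxK : x ∈ K) (hx : u * x * u ∈ H) : x = 1 := by
  have hui : u⁻¹ = u := inv_eq_of_mul_eq_one_left huu
  have hxH : x ∈ H := h.le hxK
  obtain ⟨y, hy⟩ : ∃ y, y = u * x * u := ⟨_, rfl⟩
  rw [← hy] at hx
  have hyi : y⁻¹ = u * x⁻¹ * u := by
    rw [hy, mul_inv_rev, mul_inv_rev, hui, mul_assoc]
  -- the commutator
  have h1 : x * y * x⁻¹ * y⁻¹ ∈ K := by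
    have : x * y * x⁻¹ * y⁻¹ = x * (y * x⁻¹ * y⁻¹) := by group
    rw [this]
    exact K.mul_mem hxK (h.conj_mem hx (K.inv_mem hxK))
  have h2 : u * (x * y * x⁻¹ * y⁻¹) * u⁻¹ ∈ K := by
    have e : u * (x * y * x⁻¹ * y⁻¹) * u⁻¹ = (y * x * y⁻¹) * x⁻¹ := by
      rw [hui, hyi, hy]
      simp only [mul_assoc, huu, mul_one]
    rw [e]
    exact K.mul_mem (h.conj_mem hx hxK) (K.inv_mem hxK)
  have h3 := h.ti_K (g := u) huH h1 h2
  have hcomm : y * x = x * y := by
    have : x * y * x⁻¹ = y := mul_inv_eq_one.mp h3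
    calc y * x = x * y * x⁻¹ * x := by rw [this]
      _ = x * y := by group
  by_contra hx1
  have hyK : y ∈ K := h.mem_K_of_comm hxK hx1 hcomm
  apply hx1
  apply h.ti_K (g := u) huH hxK
  rw [hui, ← hy]
  exact hyK

/-- Decomposition of `H`. -/
lemma exists_decomp {u x : G} (hu : orderOf u = 2) (huH : u ∉ H) (hx : x ∈ H) :
    ∃ d ∈ Dd H u, d⁻¹ * x ∈ K := by
  obtain ⟨z, hzH, hz2, hzK⟩ := h.exists_z
  have hx2 : orderOf (x * z * x⁻¹) = 2 := by
    have := MulEquiv.orderOf_eq (MulAut.conj x) z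
    simp only [MulAut.conj_apply] at this
    rw [this, hz2]
  obtain ⟨d, hd, hdz⟩ := exists_conj_inf h.emb hu huH hz2 hzH hx2 (H.mul_mem (H.mul_mem hx hzH) (H.inv_mem hx))
  refine ⟨d, hd, ?_⟩
  rw [← hzK, mem_Cz]
  have h1 : x⁻¹ * d * z * d⁻¹ * x = z := by
    have : x⁻¹ * d * z * d⁻¹ * x = x⁻¹ * (d * z * d⁻¹) * x := by group
    rw [this, hdz]; group
  calc d⁻¹ * x * z = d⁻¹ * x * (x⁻¹ * d * z * d⁻¹ * x) := by rw [h1]
    _ = z * (d⁻¹ * x) := by group

/-- The order of the intersection is the number of involutions of `H`. -/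
theorem card_Dd {u : G} (hu : orderOf u = 2) (huH : u ∉ H) :
    Nat.card (Dd H u) = Nat.card {t : G // orderOf t = 2 ∧ t ∈ H} := by
  classical
  obtain ⟨z, hzH, hz2, hzK⟩ := h.exists_z
  have huu := mul_self_of_order hu
  let f : Dd H u → {t : G // orderOf t = 2 ∧ t ∈ H} := fun d =>
    ⟨d * z * (d : G)⁻¹, by
      have := MulEquiv.orderOf_eq (MulAut.conj (d : G)) z
      simp only [MulAut.conj_apply] at this
      rw [this, hz2], H.mul_mem (H.mul_mem d.2.1 hzH) (H.inv_mem d.2.1)⟩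
  apply Nat.card_congr
  refine Equiv.ofBijective f ⟨?_, ?_⟩
  · intro a b hab
    have h1 : (a : G) * z * (a : G)⁻¹ = b * z * (b : G)⁻¹ := congrArg Subtype.val hab
    have h2 : (b : G)⁻¹ * a ∈ K := by
      rw [← hzK, mem_Cz]
      have : (b : G)⁻¹ * a * z * (a : G)⁻¹ * b = z := by
        have e : (b : G)⁻¹ * a * z * (a : G)⁻¹ * b = (b : G)⁻¹ * (a * z * (a : G)⁻¹) * b := by group
        rw [e, h1]; group
      calc (b : G)⁻¹ * a * z = (b : G)⁻¹ * a * z * (a : G)⁻¹ * b * ((b : G)⁻¹ * a) := by group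
        _ = z * ((b : G)⁻¹ * a) := by rw [this]
    have h3 : (b : G)⁻¹ * a ∈ Dd H u := (Dd H u).mul_mem ((Dd H u).inv_mem b.2) a.2
    have h4 := ((h.mem_D huu).mp h3).2
    have h5 := h.K_inf_D huu huH h2 h4
    apply Subtype.ext
    exact (inv_mul_eq_one.mp h5).symm
  · rintro ⟨t, ht2, htH⟩
    obtain ⟨d, hd, hdt⟩ := exists_conj_inf h.emb hu huH hz2 hzH ht2 htH
    exact ⟨⟨d, hd⟩, Subtype.ext hdt⟩

/-- An involution outside `H` inverts `H ∩ uHu`. -/
theorem inverts {u d : G} (hu : orderOf u = 2) (huH : u ∉ H) (hd : d ∈ Dd H u) : u * d * u = d⁻¹ := by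
  classical
  have huu := mul_self_of_order hu
  set x : G ⧸ H := QuotientGroup.mk 1 with hx
  set y : G ⧸ H := QuotientGroup.mk u with hy
  have hxy : x ≠ y := by
    intro h1
    rw [hx, hy, QuotientGroup.eq] at h1
    apply huH
    simpa using h1
  have hc := card_swap h.emb x y hxy
  rw [← h.card_Dd hu huH] at hc
  have hux : u • x = y := by
    rw [hx, hy, MulAction.Quotient.smul_mk, smul_eq_mul, mul_one]
  have huy : u • y = x := by
    rw [← hux, ← mul_smul, huu, one_smul]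
  let f : {i : G // orderOf i = 2 ∧ i • x = y} → Dd H u := fun i =>
    ⟨u * i, by
      obtain ⟨i, hi2, hi⟩ := i
      have hii := mul_self_of_order hi2
      have hiy : i • y = x := by rw [← hi, ← mul_smul, hii, one_smul]
      refine (h.mem_D huu).mpr ⟨?_, ?_⟩
      · have h1 : (u * i) • x = x := by rw [mul_smul, hi, huy]
        have := (smul_mk_eq_iff (H := H) (u * i) 1).mp h1
        simpa using this
      · have h1 : (i * u) • x = x := by rw [mul_smul, hux, hiy]
        have := (smul_mk_eq_iff (H := H) (i * u) 1).mp h1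
        have e : u * (u * i) * u = i * u := by
          rw [← mul_assoc, huu, one_mul]
        show u * (u * i) * u ∈ H
        rw [e]
        simpa using this⟩
  have hinj : Function.Injective f := by
    rintro ⟨a, ha⟩ ⟨b, hb⟩ hab
    have : u * a = u * b := congrArg Subtype.val hab
    exact Subtype.ext (mul_left_cancel this)
  have hbij := (Function.Injective.bijective_of_nat_card_le hinj (le_of_eq hc.symm))
  obtain ⟨⟨i, hi2, hi0⟩, hi⟩ := hbij.2 ⟨d, hd⟩
  have hid : u * i = d := congrArg Subtype.val hi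
  have hii := mul_self_of_order hi2
  have hie : i = u * d := by
    rw [← hid, ← mul_assoc, huu, one_mul]
  rw [hie] at hii
  have : u * d * u * d = 1 := by
    rw [← hii]; group
  exact eq_inv_of_mul_eq_one_left this

/-- `H ∩ uHu` is abelian. -/
theorem Dd_comm {u a b : G} (hu : orderOf u = 2) (huH : u ∉ H) (ha : a ∈ Dd H u) (hb : b ∈ Dd H u) :
    a * b = b * a := by
  have huu := mul_self_of_order hu
  have h1 := h.inverts hu huH ha
  have h2 := h.inverts hu huH hb
  have h3 := h.inverts hu huH ((Dd H u).mul_mem ha hb)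
  have h4 : u * (a * b) * u = (u * a * u) * (u * b * u) := by
    calc u * (a * b) * u = u * a * 1 * b * u := by group
      _ = u * a * (u * u) * b * u := by rw [huu]
      _ = _ := by group
  rw [h4, h1, h2, mul_inv_rev] at h3
  have h5 := congrArg (fun x => x⁻¹) h3
  simp only [mul_inv_rev, inv_inv] at h5
  exact h5.symm

/-- `H ∩ uHu` has odd order. -/
lemma odd_Dd {u : G} (huH : u ∉ H) : Odd (Nat.card (Dd H u)) := h.emb.2.2 u huH

/-- An element of `H` cannot invert a non-identity element of `H ∩ uHu`. -/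
theorem not_inverted {u d x : G} (hu : orderOf u = 2) (huH : u ∉ H) (hd : d ∈ Dd H u) (hx : x ∈ H)
    (hxd : x * d * x⁻¹ = d⁻¹) : d = 1 := by
  have huu := mul_self_of_order hu
  obtain ⟨d', hd', hk⟩ := h.exists_decomp hu huH hx
  set k := d'⁻¹ * x with hkdef
  have hxe : x = d' * k := by rw [hkdef]; group
  have hcomm := h.Dd_comm hu huH hd hd'
  have h1 : k * d * k⁻¹ = d⁻¹ := by
    have : k * d * k⁻¹ = d'⁻¹ * (x * d * x⁻¹) * d' := by
      rw [hkdef]; group
    rw [this, hxd]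
    have h2 : d'⁻¹ * d⁻¹ * d' = d⁻¹ := by
      have h3 : d⁻¹ * d' = d' * d⁻¹ := by
        have := h.Dd_comm hu huH ((Dd H u).inv_mem hd) hd'
        exact this
      rw [mul_assoc, h3]; group
    exact h2
  have h2 : d⁻¹ * d⁻¹ ∈ K := by
    have e : d⁻¹ * d⁻¹ = k * (d * k⁻¹ * d⁻¹) := by
      rw [← h1]; group
    rw [e]
    exact K.mul_mem hk (h.conj_mem hd.1 (K.inv_mem hk))
  have h3 : d⁻¹ * d⁻¹ ∈ Dd H u := (Dd H u).mul_mem ((Dd H u).inv_mem hd) ((Dd H u).inv_mem hd)
  have h4 := h.K_inf_D huu huH h2 ((h.mem_D huu).mp h3).2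
  have h5 : d * d = 1 := by
    have : (d * d)⁻¹ = 1 := by rw [mul_inv_rev]; exact h4
    exact inv_eq_one.mp this
  have h6 : orderOf (⟨d, hd⟩ : Dd H u) ∣ Nat.card (Dd H u) := orderOf_dvd_natCard _
  rw [Subgroup.orderOf_mk] at h6
  have h7 : Odd (orderOf d) := Odd.of_dvd_nat (h.odd_Dd huH) h6
  have h8 : orderOf d ∣ 2 := orderOf_dvd_of_pow_eq_one (by rw [pow_two]; exact h5)
  have h9 : orderOf d = 1 := by
    rcases (Nat.dvd_prime Nat.prime_two).mp h8 with h | h
    · exact h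
    · rw [h] at h7; exact absurd h7 (by decide)
  exact orderOf_eq_one_iff.mp h9

/-- There is an involution carrying the base point to any other given point. -/
lemma exists_swapper {g : G} (hg : g ∉ H) : ∃ i : G, orderOf i = 2 ∧ i * g ∈ H ∧ i ∉ H := by
  classical
  set x : G ⧸ H := QuotientGroup.mk 1 with hx
  set y : G ⧸ H := QuotientGroup.mk g with hy
  have hxy : x ≠ y := by
    intro h1
    rw [hx, hy, QuotientGroup.eq] at h1
    apply hg
    simpa using h1
  have hc := card_swap h.emb x y hxy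
  obtain ⟨z, hzH, hz2, -⟩ := h.exists_z
  have hne : Nonempty {t : G // orderOf t = 2 ∧ t ∈ H} := ⟨⟨z, hz2, hzH⟩⟩
  have hpos : 0 < Nat.card {t : G // orderOf t = 2 ∧ t ∈ H} := Nat.card_pos
  rw [← hc] at hpos
  haveI : Nonempty {i : G // orderOf i = 2 ∧ i • x = y} := (Nat.card_pos_iff.mp hpos).1
  obtain ⟨⟨i, hi2, hi⟩⟩ := (inferInstance : Nonempty {i : G // orderOf i = 2 ∧ i • x = y})
  have hii := mul_self_of_order hi2
  have h1 : (i : G) • x = y := hi
  rw [hx, hy, MulAction.Quotient.smul_mk, smul_eq_mul, mul_one, QuotientGroup.eq] at h1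
  have hig : i * g ∈ H := by
    have := h1
    rwa [inv_of_order hi2] at this
  refine ⟨i, hi2, hig, fun hiH => hg ?_⟩
  have : g = i * (i * g) := by rw [← mul_assoc, hii, one_mul]
  rw [this]
  exact H.mul_mem hiH hig

/-- **No non-identity element fixes three points**, in terms of the intersections. -/
theorem no_three {u w d : G} (hu : orderOf u = 2) (huH : u ∉ H) (hw : orderOf w = 2) (hwH : w ∉ H)
    (huw : u * w ∉ H) (hdu : d ∈ Dd H u) (hdw : d ∈ Dd H w) : d = 1 := by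
  have huu := mul_self_of_order hu
  have hww := mul_self_of_order hw
  have hui := inv_of_order hu
  have hwi := inv_of_order hw
  have h1 := h.inverts hu huH hdu
  have h2 := h.inverts hw hwH hdw
  have h1' := h.inverts hu huH ((Dd H u).inv_mem hdu)
  obtain ⟨i, hi2, hic, hiH⟩ := h.exists_swapper huw
  have hii := mul_self_of_order hi2
  have hii' := inv_of_order hi2
  set c := u * w with hc
  have hcd : c * d * c⁻¹ = d := by
    have : c * d * c⁻¹ = u * (w * d * w) * u := by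
      rw [hc, mul_inv_rev, hui, hwi]; group
    rw [this, h2, h1', inv_inv]
  have hdH : d ∈ H := hdu.1
  have hi3 : i * d * i = (i * c) * d * (i * c)⁻¹ := by
    calc i * d * i = i * (c * d * c⁻¹) * i⁻¹ := by rw [hcd, hii']
      _ = _ := by group
  have hdi : d ∈ Dd H i := by
    refine (h.mem_D hii).mpr ⟨hdH, ?_⟩
    rw [hi3]
    exact H.mul_mem (H.mul_mem hic hdH) (H.inv_mem hic)
  have hinv := h.inverts hi2 hiH hdi
  apply h.not_inverted hi2 hiH hdi hic
  rw [← hi3, hinv]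

/-! ### The permutation action -/

/-- Every point other than the base point is the image of the base point under an involution. -/
lemma exists_rep {β : G ⧸ H} (hβ : β ≠ QuotientGroup.mk 1) :
    ∃ u : G, orderOf u = 2 ∧ u ∉ H ∧ β = QuotientGroup.mk u := by
  obtain ⟨g, rfl⟩ := QuotientGroup.mk_surjective β
  have hg : g ∉ H := by
    intro hg
    apply hβ
    rw [QuotientGroup.eq]
    simpa using H.inv_mem hg
  obtain ⟨i, hi2, hig, hiH⟩ := h.exists_swapper hg
  refine ⟨i, hi2, hiH, ?_⟩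
  rw [QuotientGroup.eq]
  have : g⁻¹ * i = (i * g)⁻¹ := by
    rw [mul_inv_rev, inv_of_order hi2]
  rw [this]
  exact H.inv_mem hig

theorem card_Dpt {β : G ⧸ H} (hβ : β ≠ QuotientGroup.mk 1) :
    Nat.card (Dpt H β) = Nat.card {t : G // orderOf t = 2 ∧ t ∈ H} := by
  obtain ⟨u, hu, huH, rfl⟩ := h.exists_rep hβ
  rw [Dpt_mk_eq, h.card_Dd hu huH]

theorem no_three' {β γ : G ⧸ H} (hβ : β ≠ QuotientGroup.mk 1) (hγ : γ ≠ QuotientGroup.mk 1) (hβγ : β ≠ γ)
    {d : G} (h1 : d ∈ Dpt H β) (h2 : d ∈ Dpt H γ) : d = 1 := by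
  obtain ⟨u, hu, huH, rfl⟩ := h.exists_rep hβ
  obtain ⟨w, hw, hwH, rfl⟩ := h.exists_rep hγ
  rw [Dpt_mk_eq] at h1 h2
  refine h.no_three hu huH hw hwH ?_ h1 h2
  intro huw
  apply hβγ
  rw [QuotientGroup.eq, inv_of_order hu]
  exact huw

theorem K_inf_Dpt {β : G ⧸ H} (hβ : β ≠ QuotientGroup.mk 1) {k : G} (hk : k ∈ K) (hkβ : k • β = β) : k = 1 := by
  obtain ⟨u, hu, huH, rfl⟩ := h.exists_rep hβ
  have huu := mul_self_of_order hu
  refine h.K_inf_D huu huH hk ?_
  have := (smul_mk_eq_iff (H := H) k u).mp hkβ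
  rwa [inv_of_order hu] at this

/-- `H` is the product of `K` and a two-point stabilizer. -/
theorem card_H {u : G} (hu : orderOf u = 2) (huH : u ∉ H) :
    Nat.card H = Nat.card (Dd H u) * Nat.card K := by
  classical
  have huu := mul_self_of_order hu
  have hle := h.le
  let f : Dd H u × K → H := fun p => ⟨p.1 * p.2, H.mul_mem p.1.2.1 (hle p.2.2)⟩
  rw [← Nat.card_prod]
  apply Nat.card_congr
  symm
  refine Equiv.ofBijective f ⟨?_, ?_⟩
  · rintro ⟨a, k⟩ ⟨b, l⟩ hab
    have h1 : (a : G) * k = b * l := congrArg Subtype.val hab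
    have h2 : (b : G)⁻¹ * a = l * (k : G)⁻¹ := by
      calc (b : G)⁻¹ * a = (b : G)⁻¹ * (a * k) * (k : G)⁻¹ := by group
        _ = l * (k : G)⁻¹ := by rw [h1]; group
    have h3 : (b : G)⁻¹ * a ∈ K := by
      rw [h2]
      exact K.mul_mem l.2 (K.inv_mem k.2)
    have h4 : (b : G)⁻¹ * a ∈ Dd H u := (Dd H u).mul_mem ((Dd H u).inv_mem b.2) a.2
    have h5 := h.K_inf_D huu huH h3 ((h.mem_D huu).mp h4).2
    have hab' : (a : G) = b := (inv_mul_eq_one.mp h5).symm
    have hkl : (k : G) = l := by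
      rw [hab'] at h1
      exact mul_left_cancel h1
    exact Prod.ext (Subtype.ext hab') (Subtype.ext hkl)
  · rintro ⟨x, hx⟩
    obtain ⟨d, hd, hk⟩ := h.exists_decomp hu huH hx
    refine ⟨(⟨d, hd⟩, ⟨d⁻¹ * x, hk⟩), ?_⟩
    apply Subtype.ext
    show d * (d⁻¹ * x) = x
    group

variable (hi : 1 < Nat.card {t : G // orderOf t = 2 ∧ t ∈ H})

include hi

/-- The counting bound. -/
theorem card_points_le : Nat.card {β : G ⧸ H // β ≠ QuotientGroup.mk 1} ≤ Nat.card K := by
  classical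
  haveI : Fintype {β : G ⧸ H // β ≠ QuotientGroup.mk 1} := Fintype.ofFinite _
  set i := Nat.card {t : G // orderOf t = 2 ∧ t ∈ H} with hidef
  have hH : H ≠ ⊤ := h.emb.1
  obtain ⟨g, hg⟩ : ∃ g, g ∉ H := by
    by_contra hcon
    push Not at hcon
    exact hH (eq_top_iff.mpr fun x _ => hcon x)
  obtain ⟨u, hu, -, huH⟩ := h.exists_swapper hg
  have hcardH : Nat.card H = i * Nat.card K := by
    rw [h.card_H hu huH, h.card_Dd hu huH]
  let X := (Σ β : {β : G ⧸ H // β ≠ QuotientGroup.mk 1}, {d : Dpt H β.1 // d ≠ 1}) ⊕ K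
  have hle := h.le
  let f : X → H := fun x => match x with
    | Sum.inl p => ⟨p.2.1, p.2.1.2.1⟩
    | Sum.inr k => ⟨k, hle k.2⟩
  have hf : Function.Injective f := by
    rintro (⟨⟨β, hβ⟩, ⟨d, hd⟩⟩ | k) (⟨⟨γ, hγ⟩, ⟨e, he⟩⟩ | l) hxy
    · have h1 : (d : G) = e := congrArg Subtype.val hxy
      have hd1 : (d : G) ≠ 1 := fun h0 => hd (Subtype.ext h0)
      have hβγ : β = γ := by
        by_contra hne
        exact hd1 (h.no_three' hβ hγ hne d.2 (by rw [h1]; exact e.2))
      subst hβγ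
      have h2 : d = e := Subtype.ext h1
      subst h2
      rfl
    · exfalso
      have h1 : (d : G) = l := congrArg Subtype.val hxy
      have hd1 : (d : G) ≠ 1 := fun h0 => hd (Subtype.ext h0)
      apply hd1
      apply h.K_inf_Dpt hβ (by rw [h1]; exact l.2)
      exact d.2.2
    · exfalso
      have h1 : (k : G) = e := congrArg Subtype.val hxy
      have he1 : (e : G) ≠ 1 := fun h0 => he (Subtype.ext h0)
      apply he1
      apply h.K_inf_Dpt hγ (by rw [← h1]; exact k.2)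
      exact e.2.2
    · have h0 : ((f (Sum.inr k) : H) : G) = ((f (Sum.inr l) : H) : G) := by rw [hxy]
      have h1 : (k : G) = l := h0
      have : k = l := Subtype.ext h1
      rw [this]
  have h1 := Nat.card_le_card_of_injective f hf
  rw [Nat.card_sum, Nat.card_sigma, hcardH] at h1
  have h2 : ∀ β : {β : G ⧸ H // β ≠ QuotientGroup.mk 1}, Nat.card {d : Dpt H β.1 // d ≠ 1} = i - 1 := by
    intro β
    rw [Cfsg.Agent.Lib.DicksonStruct.card_ne_one_subtype, h.card_Dpt β.2]
  rw [Finset.sum_congr rfl (fun β _ => h2 β), Finset.sum_const, Finset.card_univ, ← Nat.card_eq_fintype_card,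
    smul_eq_mul] at h1
  obtain ⟨j, hj⟩ : ∃ j, i = j + 2 := ⟨i - 2, by omega⟩
  rw [hj] at h1
  have h3 : (Nat.card {β : G ⧸ H // β ≠ QuotientGroup.mk 1}) * (j + 1) ≤ Nat.card K * (j + 1) := by
    have e1 : j + 2 - 1 = j + 1 := by omega
    rw [e1] at h1
    nlinarith
  exact Nat.le_of_mul_le_mul_right h3 (by omega)

/-- `K` is regular on the points other than the base point. -/
theorem exists_K_smul {β γ : G ⧸ H} (hβ : β ≠ QuotientGroup.mk 1) (hγ : γ ≠ QuotientGroup.mk 1) :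
    ∃ k ∈ K, k • β = γ := by
  classical
  have hle := h.le
  let f : K → {β : G ⧸ H // β ≠ QuotientGroup.mk 1} := fun k => ⟨(k : G) • β, by
    intro h1
    apply hβ
    have h2 : (k : G)⁻¹ • ((k : G) • β) = (k : G)⁻¹ • (QuotientGroup.mk 1 : G ⧸ H) := by rw [h1]
    rw [inv_smul_smul] at h2
    rw [h2]
    exact fix_of_mem_H (H.inv_mem (hle k.2))⟩
  have hinj : Function.Injective f := by
    intro k l hkl
    have h1 : (k : G) • β = (l : G) • β := congrArg Subtype.val hkl
    have h2 : ((l : G)⁻¹ * k) • β = β := by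
      rw [mul_smul, h1, inv_smul_smul]
    have h3 := h.K_inf_Dpt hβ (K.mul_mem (K.inv_mem l.2) k.2) h2
    exact Subtype.ext (inv_mul_eq_one.mp h3).symm
  have hbij := Function.Injective.bijective_of_nat_card_le hinj (h.card_points_le hi)
  obtain ⟨k, hk⟩ := hbij.2 ⟨γ, hγ⟩
  exact ⟨k, k.2, congrArg Subtype.val hk⟩

end Cfg

end Cfsg.Agent.Lib.TICent71
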