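import Mathlib
import Cfsg.Agent.Lib.TICent71B
import Cfsg.Prelude.Def_LieExceptional

/-!
# TI centralizers: the strongly embedded configuration is a simple Zassenhaus group
-/

set_option autoImplicit false

namespace Cfsg.Agent.Lib.TICent71

open Cfsg Cfsg.Agent.Lib.EmbInvol

variable {G : Type*} [Group G] [Finite G]

namespace Cfg

variable {K H : Subgroup G} (h : Cfg K H)

include h

/-- No non-identity element fixes three points. -/
theorem three_fix {g : G} {a b c : G ⧸ H} (hab : a ≠ b) (hbc : b ≠ c) (hac : a ≠ c) (ha : g • a = a)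
    (hb : g • b = b) (hc : g • c = c) : g = 1 := by
  obtain ⟨a₀, rfl⟩ := QuotientGroup.mk_surjective a
  have hd : a₀⁻¹ * g * a₀ ∈ H := (smul_mk_eq_iff (H := H) g a₀).mp ha
  have hshift : ∀ x : G ⧸ H, g • x = x → (a₀⁻¹ * g * a₀) • (a₀⁻¹ • x) = a₀⁻¹ • x := by
    intro x hx
    rw [← mul_smul]
    have e : a₀⁻¹ * g * a₀ * a₀⁻¹ = a₀⁻¹ * g := by group
    rw [e, mul_smul, hx]
  have hne : ∀ x : G ⧸ H, (QuotientGroup.mk a₀ : G ⧸ H) ≠ x → a₀⁻¹ • x ≠ QuotientGroup.mk 1 := by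
    intro x hx h1
    apply hx
    have h2 : a₀ • (a₀⁻¹ • x) = a₀ • (QuotientGroup.mk 1 : G ⧸ H) := by rw [h1]
    rw [smul_inv_smul, MulAction.Quotient.smul_mk, smul_eq_mul, mul_one] at h2
    exact h2.symm
  have hβγ : a₀⁻¹ • b ≠ a₀⁻¹ • c := fun h1 => hbc (smul_left_cancel _ h1)
  have h1 : a₀⁻¹ * g * a₀ = 1 := h.no_three' (hne b hab) (hne c hac) hβγ
    ⟨hd, MulAction.mem_stabilizer_iff.mpr (hshift b hb)⟩ ⟨hd, MulAction.mem_stabilizer_iff.mpr (hshift c hc)⟩
  have h2 : g = a₀ * (a₀⁻¹ * g * a₀) * a₀⁻¹ := by group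
  rw [h2, h1]
  group

variable (hi : 1 < Nat.card {t : G // orderOf t = 2 ∧ t ∈ H})

include hi

/-- Double transitivity. -/
theorem two_trans : MulAction.IsMultiplyPretransitive G (G ⧸ H) 2 := by
  rw [MulAction.is_two_pretransitive_iff]
  intro a b c d hab hcd
  obtain ⟨g₁, hg₁⟩ := MulAction.exists_smul_eq G a (QuotientGroup.mk 1 : G ⧸ H)
  obtain ⟨g₂, hg₂⟩ := MulAction.exists_smul_eq G c (QuotientGroup.mk 1 : G ⧸ H)
  have hβ : g₁ • b ≠ QuotientGroup.mk 1 := by
    rw [← hg₁]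
    exact fun h1 => hab (smul_left_cancel _ h1).symm
  have hδ : g₂ • d ≠ QuotientGroup.mk 1 := by
    rw [← hg₂]
    exact fun h1 => hcd (smul_left_cancel _ h1).symm
  obtain ⟨k, hk, hkb⟩ := h.exists_K_smul hi hβ hδ
  refine ⟨g₂⁻¹ * k * g₁, ?_, ?_⟩
  · rw [mul_smul, mul_smul, hg₁, fix_of_mem_H (h.le hk), ← hg₂, inv_smul_smul]
  · rw [mul_smul, mul_smul, hkb, inv_smul_smul]

/-- An involution outside `H`. -/
lemma exists_u : ∃ u : G, orderOf u = 2 ∧ u ∉ H := by
  obtain ⟨g, hg⟩ : ∃ g, g ∉ H := by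
    by_contra hcon
    push Not at hcon
    exact h.emb.1 (eq_top_iff.mpr fun x _ => hcon x)
  obtain ⟨u, hu, -, huH⟩ := h.exists_swapper hg
  exact ⟨u, hu, huH⟩

lemma exists_ne_one_Dd {u : G} (hu : orderOf u = 2) (huH : u ∉ H) : ∃ d ∈ Dd H u, d ≠ 1 := by
  have h1 : 1 < Nat.card (Dd H u) := by rw [h.card_Dd hu huH]; exact hi
  haveI : Nontrivial (Dd H u) := Finite.one_lt_card_iff_nontrivial.mp h1
  exact Subgroup.exists_ne_one_of_nontrivial _

omit hi in
lemma mk_u_ne {u : G} (huH : u ∉ H) : (QuotientGroup.mk u : G ⧸ H) ≠ QuotientGroup.mk 1 := by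
  intro h1
  apply huH
  rw [QuotientGroup.eq] at h1
  simpa using H.inv_mem h1

/-- The action is a Zassenhaus action. -/
theorem zassenhaus (hodd : ∀ N : Subgroup G, N.Normal → Odd (Nat.card N) → N = ⊥) :
    IsZassenhausGroup G (G ⧸ H) := by
  classical
  obtain ⟨u, hu, huH⟩ := h.exists_u hi
  obtain ⟨z, hzH, hz2, hzK⟩ := h.exists_z
  have hz1 : z ≠ 1 := ne_one_of_order hz2
  have hzKm : z ∈ K := by rw [← hzK]; exact mem_Cz.mpr rfl
  have h1 := mk_u_ne h huH
  refine ⟨⟨?_⟩, h.two_trans hi, fun g a b c hab hbc hac ha hb hc => h.three_fix hab hbc hac ha hb hc, ?_, ?_⟩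
  · intro g₁ g₂ hfix
    have hf : ∀ a : G ⧸ H, (g₂⁻¹ * g₁) • a = a := by
      intro a
      rw [mul_smul, hfix, inv_smul_smul]
    set β : G ⧸ H := QuotientGroup.mk u with hβ
    have h2 : z • β ≠ β := fun h3 => hz1 (h.K_inf_Dpt h1 hzKm h3)
    have h3 : z • β ≠ QuotientGroup.mk 1 := by
      intro h4
      apply h1
      have h5 : z⁻¹ • (z • β) = z⁻¹ • (QuotientGroup.mk 1 : G ⧸ H) := by rw [h4]
      rw [inv_smul_smul, fix_of_mem_H (H.inv_mem hzH)] at h5
      exact h5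
    have h4 := h.three_fix (g := g₂⁻¹ * g₁) (a := QuotientGroup.mk 1) (b := β) (c := z • β) h1.symm h2.symm h3.symm
      (hf _) (hf _) (hf _)
    exact (inv_mul_eq_one.mp h4).symm
  · obtain ⟨d, hd, hd1⟩ := h.exists_ne_one_Dd hi hu huH
    refine ⟨d, hd1, QuotientGroup.mk 1, QuotientGroup.mk u, h1.symm, fix_of_mem_H hd.1, ?_⟩
    rw [← Dpt_mk_eq] at hd
    exact hd.2
  · intro N hN htr
    by_contra hcon
    push Not at hcon
    have hNbot : N = ⊥ := by
      apply hodd N hN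
      rw [← Nat.not_even_iff_odd]
      intro he
      obtain ⟨t, ht⟩ := exists_prime_orderOf_dvd_card' (G := N) 2 (even_iff_two_dvd.mp he)
      have ht' : orderOf (t : G) = 2 := by rw [Subgroup.orderOf_coe, ht]
      obtain ⟨x, hx⟩ := exists_fixed h.emb ht'
      have h2 := (Subgroup.eq_bot_iff_forall _).mp (hcon x) t (MulAction.mem_stabilizer_iff.mpr hx)
      rw [h2, orderOf_one] at ht
      omega
    obtain ⟨n, hn⟩ := htr.exists_smul_eq (QuotientGroup.mk 1 : G ⧸ H) (QuotientGroup.mk u)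
    have hn1 : (n : G) = 1 := Subgroup.mem_bot.mp ((SetLike.ext_iff.mp hNbot _).mp n.2)
    have hn2 : (n : G) • (QuotientGroup.mk 1 : G ⧸ H) = QuotientGroup.mk u := hn
    rw [hn1, one_smul] at hn2
    exact h1 hn2.symm

/-- The group is simple. -/
theorem simple (hodd : ∀ N : Subgroup G, N.Normal → Odd (Nat.card N) → N = ⊥) : IsSimpleGroup G := by
  classical
  obtain ⟨u, hu, huH⟩ := h.exists_u hi
  have huu := mul_self_of_order hu
  obtain ⟨z, hzH, hz2, hzK⟩ := h.exists_z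
  haveI : Nontrivial G := ⟨⟨z, 1, ne_one_of_order hz2⟩⟩
  refine ⟨fun M hM => ?_⟩
  by_cases hM1 : M = ⊥
  · exact Or.inl hM1
  right
  have hev : Even (Nat.card M) := by
    rw [← Nat.not_odd_iff_even]
    exact fun ho => hM1 (hodd M hM ho)
  obtain ⟨t, ht⟩ := exists_prime_orderOf_dvd_card' (G := M) 2 (even_iff_two_dvd.mp hev)
  have ht' : orderOf (t : G) = 2 := by rw [Subgroup.orderOf_coe, ht]
  have hinv : ∀ a : G, orderOf a = 2 → a ∈ M := by
    intro a ha
    obtain ⟨g, rfl⟩ := isConj_iff.mp (isConj_of_involutions h.emb hu huH ht' ha)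
    exact hM.conj_mem _ t.2 g
  have hDM : ∀ d ∈ Dd H u, d ∈ M := by
    intro d hd
    have h1 := h.inverts hu huH hd
    have h2 : u * d * (u * d) = 1 := by
      have : u * d * (u * d) = (u * d * u) * d := by group
      rw [this, h1]; group
    have h3 : u * d ≠ 1 := by
      intro h4
      have h5 : u = d⁻¹ := eq_inv_of_mul_eq_one_left h4
      exact huH (by rw [h5]; exact H.inv_mem hd.1)
    have h4 := hinv _ (order_of_mul_self h2 h3)
    have h5 := hinv u hu
    have : d = u * (u * d) := by rw [← mul_assoc, huu, one_mul]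
    rw [this]
    exact M.mul_mem h5 h4
  obtain ⟨d₀, hd₀, hd₀1⟩ := h.exists_ne_one_Dd hi hu huH
  have hKM : K ≤ M := by
    have hd₀M := hDM d₀ hd₀
    let f : K → K := fun k => ⟨k * d₀ * (k : G)⁻¹ * d₀⁻¹, by
      have : (k : G) * d₀ * (k : G)⁻¹ * d₀⁻¹ = k * (d₀ * (k : G)⁻¹ * d₀⁻¹) := by group
      rw [this]
      exact K.mul_mem k.2 (h.conj_mem hd₀.1 (K.inv_mem k.2))⟩
    have hfinj : Function.Injective f := by
      intro k l hkl
      have h1 : (k : G) * d₀ * (k : G)⁻¹ * d₀⁻¹ = l * d₀ * (l : G)⁻¹ * d₀⁻¹ := congrArg Subtype.val hkl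
      have h2 : (k : G) * d₀ * (k : G)⁻¹ = l * d₀ * (l : G)⁻¹ := mul_right_cancel h1
      have h3 : d₀ * ((l : G)⁻¹ * k) = ((l : G)⁻¹ * k) * d₀ := by
        calc d₀ * ((l : G)⁻¹ * k) = (l : G)⁻¹ * (l * d₀ * (l : G)⁻¹) * k := by group
          _ = (l : G)⁻¹ * (k * d₀ * (k : G)⁻¹) * k := by rw [h2]
          _ = _ := by group
      by_contra hne
      have h4 : (l : G)⁻¹ * k ≠ 1 := by
        intro h5
        exact hne (Subtype.ext (inv_mul_eq_one.mp h5).symm)
      have h5 : d₀ ∈ K := h.mem_K_of_comm (K.mul_mem (K.inv_mem l.2) k.2) h4 h3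
      exact hd₀1 (h.K_inf_D huu huH h5 ((h.mem_D huu).mp hd₀).2)
    have hfbij := Finite.injective_iff_bijective.mp hfinj
    intro k hk
    obtain ⟨l, hl⟩ := hfbij.2 ⟨k, hk⟩
    have h1 : (l : G) * d₀ * (l : G)⁻¹ * d₀⁻¹ = k := congrArg Subtype.val hl
    rw [← h1]
    exact M.mul_mem (hM.conj_mem _ hd₀M _) (M.inv_mem hd₀M)
  have hHM : H ≤ M := by
    intro x hx
    obtain ⟨d, hd, hk⟩ := h.exists_decomp hu huH hx
    have : x = d * (d⁻¹ * x) := by group
    rw [this]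
    exact M.mul_mem (hDM d hd) (hKM hk)
  rw [eq_top_iff]
  intro g _
  by_cases hg : g ∈ H
  · exact hHM hg
  obtain ⟨i, hi2, hig, -⟩ := h.exists_swapper hg
  have hii := mul_self_of_order hi2
  have : g = i * (i * g) := by rw [← mul_assoc, hii, one_mul]
  rw [this]
  exact M.mul_mem (hinv i hi2) (hHM hig)

/-- `|K|` is the number of points other than the base point. -/
theorem card_K : Nat.card K + 1 = Nat.card (G ⧸ H) := by
  classical
  have h1 := h.card_points_le hi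
  obtain ⟨u, hu, huH⟩ := h.exists_u hi
  have hm := mk_u_ne h huH
  have hle := h.le
  let f : K → {β : G ⧸ H // β ≠ QuotientGroup.mk 1} := fun k => ⟨(k : G) • QuotientGroup.mk u, by
    intro h1
    apply hm
    have h2 : (k : G)⁻¹ • ((k : G) • (QuotientGroup.mk u : G ⧸ H)) = (k : G)⁻¹ • (QuotientGroup.mk 1 : G ⧸ H) := by rw [h1]
    rw [inv_smul_smul] at h2
    rw [h2]
    exact fix_of_mem_H (H.inv_mem (hle k.2))⟩
  have hinj : Function.Injective f := by
    intro k l hkl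
    have h1 : (k : G) • (QuotientGroup.mk u : G ⧸ H) = (l : G) • QuotientGroup.mk u := congrArg Subtype.val hkl
    have h2 : ((l : G)⁻¹ * k) • (QuotientGroup.mk u : G ⧸ H) = QuotientGroup.mk u := by
      rw [mul_smul, h1, inv_smul_smul]
    have h3 := h.K_inf_Dpt hm (K.mul_mem (K.inv_mem l.2) k.2) h2
    exact Subtype.ext (inv_mul_eq_one.mp h3).symm
  have h2 := Nat.card_le_card_of_injective f hinj
  have h3 : Nat.card {β : G ⧸ H // β ≠ QuotientGroup.mk 1} = Nat.card (G ⧸ H) - 1 := by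
    haveI := Fintype.ofFinite (G ⧸ H)
    rw [Nat.card_eq_fintype_card, Nat.card_eq_fintype_card, Fintype.card_subtype_compl]
    simp
  have h4 : 0 < Nat.card (G ⧸ H) := Nat.card_pos
  omega

omit hi in
/-- A non-identity invariant subgroup of `K`. -/
theorem card_dvd {M : Subgroup G} (hMK : M ≤ K) (hinv : ∀ x ∈ H, ∀ y ∈ M, x * y * x⁻¹ ∈ M) {u : G}
    (hu : orderOf u = 2) (huH : u ∉ H) : Nat.card (Dd H u) ∣ Nat.card M - 1 := by
  have huu := mul_self_of_order hu
  apply Cfsg.Agent.Lib.DicksonStruct.card_dvd_of_conj_free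
  · intro d hd
    rw [Subgroup.mem_normalizer_iff]
    intro y
    constructor
    · exact hinv d hd.1 y
    · intro hy
      have := hinv d⁻¹ (H.inv_mem hd.1) _ hy
      simpa [mul_assoc] using this
  · intro d hd x hx hx1 hdx
    have h1 : d * x = x * d := by
      calc d * x = d * x * d⁻¹ * d := by group
        _ = x * d := by rw [hdx]
    have h2 : d ∈ K := h.mem_K_of_comm (hMK hx) hx1 h1
    exact h.K_inf_D huu huH h2 ((h.mem_D huu).mp hd).2

end Cfg

end Cfsg.Agent.Lib.TICent71
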