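import Mathlib
import Cfsg.Agent.Lib.TransferCore

/-!
Trivial intersection Sylow subgroups: element form and invariance under conjugation.
-/

set_option autoImplicit false

namespace Cfsg.Agent.Lib.TIElt

open scoped Pointwise

variable {G : Type*} [Group G]

lemma mem_conj_smul {A : Subgroup G} {g x : G} : x ∈ (MulAut.conj g • A) ↔ g⁻¹ * x * g ∈ A := by
  rw [Subgroup.mem_pointwise_smul_iff_inv_smul_mem]
  rfl

/-- Element form of the trivial intersection property. -/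
def TI (A : Subgroup G) : Prop :=
  ∀ g x : G, x ∈ A → g⁻¹ * x * g ∈ A → x ≠ 1 → g ∈ Subgroup.normalizer (A : Set G)

lemma ti_iff (A : Subgroup G) :
    (∀ g : G, g ∉ Subgroup.normalizer (A : Set G) → A ⊓ (MulAut.conj g • A) = ⊥) ↔ TI A := by
  constructor
  · intro h g x hx hgx hx1
    by_contra hg
    have h1 := h g hg
    have h2 : x ∈ A ⊓ (MulAut.conj g • A) := Subgroup.mem_inf.mpr ⟨hx, mem_conj_smul.mpr hgx⟩
    rw [h1, Subgroup.mem_bot] at h2
    exact hx1 h2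
  · intro h g hg
    rw [eq_bot_iff]
    intro x hx
    obtain ⟨h1, h2⟩ := Subgroup.mem_inf.mp hx
    rw [Subgroup.mem_bot]
    by_contra hx1
    exact hg (h g x h1 (mem_conj_smul.mp h2) hx1)

lemma ti_conj {A : Subgroup G} (hA : TI A) (k : G) : TI (MulAut.conj k • A) := by
  intro g x hx hgx hx1
  rw [mem_conj_smul] at hx hgx
  have hx2 : k⁻¹ * x * k ≠ 1 := by
    intro h
    apply hx1
    have : x = k * (k⁻¹ * x * k) * k⁻¹ := by group
    rw [this, h]
    group
  have h1 : (k⁻¹ * g * k)⁻¹ * (k⁻¹ * x * k) * (k⁻¹ * g * k) ∈ A := by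
    have e : (k⁻¹ * g * k)⁻¹ * (k⁻¹ * x * k) * (k⁻¹ * g * k) = k⁻¹ * (g⁻¹ * x * g) * k := by group
    rw [e]
    exact hgx
  have h2 := hA _ _ hx h1 hx2
  rw [Subgroup.mem_normalizer_iff] at h2 ⊢
  intro n
  have h3 := h2 (k⁻¹ * n * k)
  rw [mem_conj_smul, mem_conj_smul]
  have e : k⁻¹ * g * k * (k⁻¹ * n * k) * (k⁻¹ * g * k)⁻¹ = k⁻¹ * (g * n * g⁻¹) * k := by group
  rw [e] at h3
  exact h3

lemma ti_sylow {p : ℕ} [Fact p.Prime] [Finite G] {P : Sylow p G} (hP : TI (P : Subgroup G)) (P' : Sylow p G) :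
    TI (P' : Subgroup G) := by
  obtain ⟨k, rfl⟩ := MulAction.exists_smul_eq G P P'
  exact ti_conj hP k

end Cfsg.Agent.Lib.TIElt
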