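import Mathlib
import Cfsg.Prelude.Def_OddOrderLocal
import Cfsg.Agent.Lib.Glauberman
import Cfsg.Agent.Lib.Glauberman2
import Cfsg.Agent.Lib.CoprimeHyper
import Cfsg.Agent.Lib.CoprimeIndexP
import Cfsg.Agent.Lib.OddLocalB
import Cfsg.Agent.Lib.UniqueSub
import Cfsg.Agent.Lib.FpfGeneral
import Cfsg.Agent.Lib.NilpCover
import Cfsg.Agent.Lib.H73Cyc1
import Cfsg.Agent.Lib.CoprimeInv

/-!
# TI subgroups that are Hall in their normalizer, in separable groups
-/

set_option autoImplicit false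

open scoped Pointwise commutatorElement

namespace Cfsg.Agent.Lib.TIHall

universe u

variable {G : Type u} [Group G]

/-- TI in membership form. -/
theorem mem_normalizer_of_ti {H : Subgroup G} (hTI : Cfsg.IsTISubset (H : Set G)) {g x : G}
    (hx : x ∈ H) (hx1 : x ≠ 1) (hg : g * x * g⁻¹ ∈ H) : g ∈ Subgroup.normalizer (H : Set G) := by
  by_contra h
  exact hx1 (hTI g h x hx hg)

/-- A `p`-element lies in a normal subgroup of index prime to `p`. -/
theorem mem_of_pow_of_index {X : Type*} [Group X] [Finite X] {N : Subgroup X} [N.Normal]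
    {p k : ℕ} (hp : p.Prime) (hi : ¬ p ∣ N.index) {x : X} (hx : x ^ p ^ k = 1) : x ∈ N := by
  have h1 : orderOf ((x : X) : X ⧸ N) ∣ Nat.card (X ⧸ N) := orderOf_dvd_natCard _
  rw [← Subgroup.index_eq_card] at h1
  have h2 : orderOf ((x : X) : X ⧸ N) ∣ p ^ k := by
    apply orderOf_dvd_of_pow_eq_one
    rw [← QuotientGroup.mk_pow, hx, QuotientGroup.mk_one]
  have h3 : orderOf ((x : X) : X ⧸ N) = 1 := by
    have hc : Nat.Coprime (N.index) (p ^ k) := Nat.Coprime.pow_right k ((Nat.Prime.coprime_iff_not_dvd hp).2 hi).symm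
    exact Nat.eq_one_of_dvd_coprimes hc h1 h2
  rw [orderOf_eq_one_iff] at h3
  exact (QuotientGroup.eq_one_iff x).1 h3

variable [Finite G]

/-- The Sylow subgroup of a TI subgroup, Hall in its normalizer, is Sylow in the whole group. -/
theorem image_sylow_eq {H : Subgroup G} (hTI : Cfsg.IsTISubset (H : Set G))
    (hHall : (Nat.card H).Coprime (H.subgroupOf (Subgroup.normalizer (H : Set G))).index)
    {p : ℕ} [hp : Fact p.Prime] (hpH : p ∣ Nat.card H) (P : Sylow p H) (R : Sylow p G)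
    (hPR : (P : Subgroup H).map H.subtype ≤ R) :
    (P : Subgroup H).map H.subtype = R := by
  classical
  set P' := (P : Subgroup H).map H.subtype with hP'
  by_contra hne
  have hlt : P' < R := lt_of_le_of_ne hPR hne
  -- normalizer growth in `R`
  have hRnil : Group.IsNilpotent (R : Subgroup G) := R.isPGroup'.isNilpotent
  have hcond := Group.normalizerCondition_of_isNilpotent (G := (R : Subgroup G))
  have hlt' : P'.subgroupOf (R : Subgroup G) < ⊤ := by
    refine lt_top_iff_ne_top.mpr ?_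
    intro h
    apply hne
    apply le_antisymm hPR
    intro y hy
    have : (⟨y, hy⟩ : (R : Subgroup G)) ∈ P'.subgroupOf (R : Subgroup G) := by rw [h]; trivial
    exact this
  have hgrow := hcond _ hlt'
  obtain ⟨⟨r, hrR⟩, hr, hrn⟩ := SetLike.exists_of_lt hgrow
  have hrP : r ∉ P' := fun h => hrn h
  have hrnorm : ∀ x ∈ P', r * x * r⁻¹ ∈ P' := by
    intro x hx
    have h1 : (⟨x, hPR hx⟩ : (R : Subgroup G)) ∈ P'.subgroupOf (R : Subgroup G) := hx
    have h2 := (Subgroup.mem_normalizer_iff.1 hr _).1 h1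
    exact h2
  -- nontrivial element
  have hPne : (P : Subgroup H) ≠ ⊥ := P.ne_bot_of_dvd_card hpH
  obtain ⟨x₀, hx₀, hx₀1⟩ := (Subgroup.bot_or_exists_ne_one (P : Subgroup H)).resolve_left hPne
  have hx₀' : (x₀ : G) ∈ P' := ⟨x₀, hx₀, rfl⟩
  have hx₀H : (x₀ : G) ∈ H := x₀.2
  have hx₀ne : (x₀ : G) ≠ 1 := fun h => hx₀1 (Subtype.ext h)
  have hP'H : P' ≤ H := by
    rintro _ ⟨y, _, rfl⟩
    exact y.2
  have hrN : r ∈ Subgroup.normalizer (H : Set G) :=
    mem_normalizer_of_ti hTI hx₀H hx₀ne (hP'H (hrnorm _ hx₀'))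
  -- `r` is a `p`-element
  obtain ⟨k, hk⟩ : ∃ k, r ^ p ^ k = 1 := by
    obtain ⟨k, hk⟩ := R.isPGroup' ⟨r, hrR⟩
    refine ⟨k, ?_⟩
    have := congrArg Subtype.val hk
    simpa using this
  -- `r ∈ H`
  have hrH : r ∈ H := by
    haveI hnorm : (H.subgroupOf (Subgroup.normalizer (H : Set G))).Normal :=
      (Subgroup.normal_subgroupOf_iff_le_normalizer Subgroup.le_normalizer).mpr le_rfl
    have hpi : ¬ p ∣ (H.subgroupOf (Subgroup.normalizer (H : Set G))).index := by
      intro h
      have := Nat.Coprime.eq_one_of_dvd (Nat.Coprime.coprime_dvd_left hpH hHall) h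
      exact hp.out.one_lt.ne' this
    have h1 : (⟨r, hrN⟩ : Subgroup.normalizer (H : Set G)) ^ p ^ k = 1 := by
      apply Subtype.ext
      simpa using hk
    exact mem_of_pow_of_index hp.out hpi h1
  -- contradiction with Sylow in `H`
  have hmem : (⟨r, hrH⟩ : H) ∈ (P : Subgroup H) := by
    apply Cfsg.Agent.Lib.NilpCover.mem_of_mem_normalizer P
    · rw [Subgroup.mem_normalizer_iff]
      intro y
      constructor
      · intro hy
        have h1 : (y : G) ∈ P' := ⟨y, hy, rfl⟩
        have h2 := hrnorm _ h1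
        obtain ⟨z, hz, hze⟩ := h2
        have : (⟨r, hrH⟩ : H) * y * (⟨r, hrH⟩ : H)⁻¹ = z := by
          apply Subtype.ext
          simpa using hze.symm
        rw [this]
        exact hz
      · intro hy
        -- finiteness: conjugation by `r` maps `P` injectively into itself
        have hfin : ∀ x ∈ (P : Subgroup H), (⟨r, hrH⟩ : H) * x * (⟨r, hrH⟩ : H)⁻¹ ∈ (P : Subgroup H) := by
          intro x hx
          have h1 : (x : G) ∈ P' := ⟨x, hx, rfl⟩
          have h2 := hrnorm _ h1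
          obtain ⟨z, hz, hze⟩ := h2
          have : (⟨r, hrH⟩ : H) * x * (⟨r, hrH⟩ : H)⁻¹ = z := by
            apply Subtype.ext
            simpa using hze.symm
          rw [this]
          exact hz
        have hmemn := Subgroup.mem_normalizer_fintype (S := ((P : Subgroup H) : Set H)) hfin
        exact (Subgroup.mem_normalizer_iff.1 hmemn y).2 hy
    · exact ⟨k, Subtype.ext (by simpa using hk)⟩
  exact hrP ⟨⟨r, hrH⟩, hmem, rfl⟩

/-- The subgroup `H` is Hall in the whole group. -/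
theorem coprime_card_index {H : Subgroup G} (hTI : Cfsg.IsTISubset (H : Set G))
    (hHall : (Nat.card H).Coprime (H.subgroupOf (Subgroup.normalizer (H : Set G))).index) :
    (Nat.card H).Coprime H.index := by
  classical
  by_contra hnc
  obtain ⟨p, hp, h1, h2⟩ := Nat.Prime.not_coprime_iff_dvd.mp hnc
  haveI : Fact p.Prime := ⟨hp⟩
  let P : Sylow p H := default
  have hP'p : IsPGroup p ((P : Subgroup H).map H.subtype) := P.isPGroup'.map H.subtype
  obtain ⟨R, hR⟩ := hP'p.exists_le_sylow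
  have heq := image_sylow_eq hTI hHall h1 P R hR
  have hnd : ¬ p ∣ ((R : Subgroup G)).index := R.not_dvd_index
  apply hnd
  rw [← heq]
  refine h2.trans (Subgroup.index_dvd_of_le ?_)
  rintro _ ⟨y, _, rfl⟩
  exact y.2

/-- The largest normal subgroup of order coprime to `m`. -/
theorem core_spec (m : ℕ) (O : Subgroup G)
    (hO : O = sSup {K : Subgroup G | K.Normal ∧ (Nat.card K).Coprime m}) :
    O.Normal ∧ (Nat.card O).Coprime m ∧ ∀ K : Subgroup G, K.Normal → (Nat.card K).Coprime m → K ≤ O := by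
  classical
  set S : Set (Subgroup G) := {K : Subgroup G | K.Normal ∧ (Nat.card K).Coprime m} with hS
  have hbot : (⊥ : Subgroup G) ∈ S := ⟨inferInstance, by simp⟩
  obtain ⟨M, hM⟩ := S.toFinite.exists_maximal ⟨⊥, hbot⟩
  have hMn : M.Normal := hM.1.1
  have hMc : (Nat.card M).Coprime m := hM.1.2
  have hall : ∀ K ∈ S, K ≤ M := by
    intro K hK
    have hKn := hK.1
    have hsup : K ⊔ M ∈ S := by
      refine ⟨inferInstance, ?_⟩
      rw [Cfsg.Agent.Lib.Coprime.card_sup_eq]
      apply Nat.Coprime.mul_left _ hMc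
      exact Nat.Coprime.coprime_dvd_left (Subgroup.relIndex_dvd_card _ _) hK.2
    have := hM.2 hsup (le_sup_right)
    exact le_sup_left.trans this
  have hOM : O = M := by
    rw [hO]
    exact le_antisymm (sSup_le hall) (le_sSup hM.1)
  rw [hOM]
  exact ⟨hMn, hMc, fun K h1 h2 => hall K ⟨h1, h2⟩⟩

/-- Second isomorphism theorem at the level of indices for `R` normal: `|R : H ∩ R|` divides the
index of `H`. -/
theorem relIndex_dvd_index_of_normal' (H R : Subgroup G) [hR : R.Normal] :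
    H.relIndex R ∣ H.index := by
  have hle : H ≤ Subgroup.normalizer (R : Set G) := by
    rw [Subgroup.normalizer_eq_top_iff.2 hR]; exact le_top
  have h1 := Cfsg.Agent.Lib.CoprimeInv.card_sup_mul_card_inf hle
  have h2 : H.relIndex (H ⊔ R) * Nat.card H = Nat.card (H ⊔ R : Subgroup G) :=
    Cfsg.Agent.Lib.Coprime.relIndex_mul_card_of_le le_sup_left
  have h3 : H.relIndex R * Nat.card (H ⊓ R : Subgroup G) = Nat.card R := by
    rw [← Subgroup.inf_relIndex_left R H, inf_comm]
    exact Cfsg.Agent.Lib.Coprime.relIndex_mul_card_of_le inf_le_right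
  have hHpos : 0 < Nat.card H := Nat.card_pos
  have hIpos : 0 < Nat.card (H ⊓ R : Subgroup G) := Nat.card_pos
  have h4 : H.relIndex R = H.relIndex (H ⊔ R) := by
    apply Nat.eq_of_mul_eq_mul_right (Nat.mul_pos hHpos hIpos)
    calc H.relIndex R * (Nat.card H * Nat.card (H ⊓ R : Subgroup G))
        = Nat.card H * (H.relIndex R * Nat.card (H ⊓ R : Subgroup G)) := by ring
      _ = Nat.card H * Nat.card R := by rw [h3]
      _ = Nat.card (H ⊔ R : Subgroup G) * Nat.card (H ⊓ R : Subgroup G) := h1.symm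
      _ = H.relIndex (H ⊔ R) * Nat.card H * Nat.card (H ⊓ R : Subgroup G) := by rw [h2]
      _ = H.relIndex (H ⊔ R) * (Nat.card H * Nat.card (H ⊓ R : Subgroup G)) := by ring
  rw [h4, ← Subgroup.relIndex_mul_index (le_sup_left : H ≤ H ⊔ R)]
  exact Dvd.intro _ rfl

/-- `G = O N_G(H)`. -/
theorem sup_normalizer_eq_top {H O : Subgroup G} (hTI : Cfsg.IsTISubset (H : Set G)) (hnn : ¬ H.Normal)
    (hHall : (Nat.card H).Coprime (H.subgroupOf (Subgroup.normalizer (H : Set G))).index)
    (hsep : ∃ (n : ℕ) (M : Fin (n + 1) → Subgroup G), M 0 = ⊥ ∧ M (Fin.last n) = ⊤ ∧ Monotone M ∧ (∀ i, (M i).Normal) ∧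
      ∀ i : Fin n, (∀ q : ℕ, q.Prime → q ∣ (M i.castSucc).relIndex (M i.succ) → q ∣ Nat.card H) ∨
        ((M i.castSucc).relIndex (M i.succ)).Coprime (Nat.card H))
    (hOn : O.Normal) (hOc : (Nat.card O).Coprime (Nat.card H))
    (hOm : ∀ K : Subgroup G, K.Normal → (Nat.card K).Coprime (Nat.card H) → K ≤ O) :
    O ⊔ Subgroup.normalizer (H : Set G) = ⊤ := by
  classical
  obtain ⟨n, M, hM0, hMl, -, hMn, hMf⟩ := hsep
  have hHidx := coprime_card_index hTI hHall
  have hOtop : ¬ (⊤ ≤ O) := by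
    intro htop
    apply hnn
    have hO' : O = ⊤ := top_le_iff.1 htop
    have h1 : Nat.card H = 1 := by
      have h2 : Nat.card H ∣ Nat.card O := by
        rw [hO']
        rw [Subgroup.card_top]
        exact Subgroup.card_subgroup_dvd_card H
      exact Nat.Coprime.eq_one_of_dvd hOc.symm h2
    rw [Subgroup.card_eq_one.1 h1]
    infer_instance
  have hstep : ∃ i : Fin n, M i.castSucc ≤ O ∧ ¬ M i.succ ≤ O := by
    by_contra hno
    push_neg at hno
    have hall : ∀ i : Fin (n + 1), M i ≤ O := by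
      intro i
      induction i using Fin.induction with
      | zero => rw [hM0]; exact bot_le
      | succ i ih => exact hno i ih
    apply hOtop
    rw [← hMl]
    exact hall _
  obtain ⟨i, hi1, hi2⟩ := hstep
  set M' := M i.succ with hM'
  haveI hM'n : M'.Normal := hMn _
  set R := O ⊔ M' with hR
  haveI hRn : R.Normal := Subgroup.sup_normal _ _
  have hOR : O ≤ R := le_sup_left
  set d := O.relIndex R with hd
  have hd' : d = O.relIndex M' := Subgroup.relIndex_sup_left _ _
  have hddvd : d ∣ (M i.castSucc).relIndex M' := by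
    rw [hd']
    exact Subgroup.relIndex_dvd_of_le_left _ hi1
  have hcardR : d * Nat.card O = Nat.card R := Cfsg.Agent.Lib.Coprime.relIndex_mul_card_of_le hOR
  have hd1 : d ≠ 1 := by
    intro h1
    have := Subgroup.relIndex_eq_one.1 h1
    exact hi2 (le_sup_right.trans this)
  have hdprimes : ∀ q : ℕ, q.Prime → q ∣ d → q ∣ Nat.card H := by
    rcases hMf i with hf | hf
    · exact fun q hq hqd => hf q hq (hqd.trans hddvd)
    · exfalso
      have hdc : d.Coprime (Nat.card H) := Nat.Coprime.coprime_dvd_left hddvd hf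
      have hRc : (Nat.card R).Coprime (Nat.card H) := by
        rw [← hcardR]
        exact Nat.Coprime.mul_left hdc hOc
      exact hi2 (le_sup_right.trans (hOm R hRn hRc))
  -- `R ≤ O H`
  have hRle : R ≤ O ⊔ H := by
    set X := O ⊔ (R ⊓ H) with hX
    have hXR : X ≤ R := sup_le hOR inf_le_left
    have h1 : X.relIndex R = 1 := by
      by_contra hne
      obtain ⟨l, hl, hld⟩ := Nat.exists_prime_and_dvd hne
      have hl1 : l ∣ d := hld.trans (Subgroup.relIndex_dvd_of_le_left _ le_sup_left)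
      have hl2 : l ∣ Nat.card H := hdprimes l hl hl1
      have hl3 : l ∣ (R ⊓ H).relIndex R :=
        hld.trans (Subgroup.relIndex_dvd_of_le_left _ le_sup_right)
      have hl4 : (R ⊓ H).relIndex R = H.relIndex R := by
        rw [inf_comm]
        exact Subgroup.inf_relIndex_right _ _
      rw [hl4] at hl3
      have hl5 : l ∣ H.index := hl3.trans (relIndex_dvd_index_of_normal' H R)
      have := Nat.eq_one_of_dvd_coprimes hHidx hl2 hl5
      exact hl.one_lt.ne' this
    have h2 := Subgroup.relIndex_eq_one.1 h1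
    exact h2.trans (sup_le_sup_left inf_le_right _)
  -- a prime dividing `d`
  obtain ⟨p, hp, hpd⟩ := Nat.exists_prime_and_dvd hd1
  haveI : Fact p.Prime := ⟨hp⟩
  have hpH : p ∣ Nat.card H := hdprimes p hp hpd
  have hpR : p ∣ Nat.card R := hpd.trans (Dvd.intro _ hcardR)
  -- a Sylow `S` of `R` conjugated into `H`
  let S : Sylow p R := default
  set S' := (S : Subgroup R).map R.subtype with hS'
  have hS'p : IsPGroup p S' := S.isPGroup'.map R.subtype
  have hS'R : S' ≤ R := by
    rintro _ ⟨y, _, rfl⟩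
    exact y.2
  obtain ⟨R₂, hR₂⟩ := hS'p.exists_le_sylow
  let P : Sylow p H := default
  obtain ⟨R₁, hR₁⟩ := (P.isPGroup'.map H.subtype).exists_le_sylow
  have heq := image_sylow_eq hTI hHall hpH P R₁ hR₁
  obtain ⟨g, hg⟩ := MulAction.exists_smul_eq G R₂ R₁
  have hconj : ∀ y ∈ S', g * y * g⁻¹ ∈ H := by
    intro y hy
    have h1 : y ∈ (R₂ : Subgroup G) := hR₂ hy
    have h2 : g * y * g⁻¹ ∈ (R₁ : Subgroup G) := by
      rw [← hg]
      exact Subgroup.mem_map_of_mem (MulAut.conj g).toMonoidHom h1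
    rw [← heq] at h2
    obtain ⟨z, _, hz⟩ := h2
    rw [← hz]
    exact z.2
  -- a nontrivial element
  have hSne : (S : Subgroup R) ≠ ⊥ := S.ne_bot_of_dvd_card hpR
  obtain ⟨x₀, hx₀, hx₀1⟩ := (Subgroup.bot_or_exists_ne_one (S : Subgroup R)).resolve_left hSne
  have hx₀' : (x₀ : G) ∈ S' := ⟨x₀, hx₀, rfl⟩
  have hx₀ne : (x₀ : G) ≠ 1 := fun h => hx₀1 (Subtype.ext h)
  -- the Frattini argument
  have hfrat : Subgroup.normalizer (S' : Set G) ⊔ R = ⊤ := Sylow.normalizer_sup_eq_top S
  have key : ∀ n ∈ Subgroup.normalizer (S' : Set G),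
      g * n * g⁻¹ ∈ Subgroup.normalizer (H : Set G) := by
    intro n hn
    have h1 : g * (x₀ : G) * g⁻¹ ∈ H := hconj _ hx₀'
    have h2 : g * (x₀ : G) * g⁻¹ ≠ 1 := by
      intro h
      apply hx₀ne
      have := congrArg (fun z => g⁻¹ * z * g) h
      simpa [mul_assoc] using this
    apply mem_normalizer_of_ti hTI h1 h2
    have h3 : n * (x₀ : G) * n⁻¹ ∈ S' := (Subgroup.mem_normalizer_iff.1 hn _).1 hx₀'
    have h4 := hconj _ h3
    have h5 : g * n * g⁻¹ * (g * (x₀ : G) * g⁻¹) * (g * n * g⁻¹)⁻¹ =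
        g * (n * (x₀ : G) * n⁻¹) * g⁻¹ := by group
    rw [h5]
    exact h4
  rw [eq_top_iff]
  intro y _
  -- decompose `g⁻¹ y g`... we use `g⁻¹ * y * g`-conjugate
  have hy : g⁻¹ * y * g ∈ Subgroup.normalizer (S' : Set G) ⊔ R := by rw [hfrat]; trivial
  obtain ⟨n, hn, r, hr, hnr⟩ := Subgroup.mem_sup_of_normal_right.mp hy
  have hy2 : y = (g * n * g⁻¹) * (g * r * g⁻¹) := by
    have : g * (g⁻¹ * y * g) * g⁻¹ = g * (n * r) * g⁻¹ := by rw [hnr]
    have h2 : g * (g⁻¹ * y * g) * g⁻¹ = y := by group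
    rw [h2] at this
    rw [this]
    group
  rw [hy2]
  apply Subgroup.mul_mem
  · exact Subgroup.mem_sup_right (key n hn)
  · have h1 : g * r * g⁻¹ ∈ R := hRn.conj_mem r hr g
    have h2 := hRle h1
    exact (sup_le_sup_left Subgroup.le_normalizer O) h2

/-- `O H` is normal. -/
theorem sup_normal_of_top {H O : Subgroup G} (hOn : O.Normal)
    (htop : O ⊔ Subgroup.normalizer (H : Set G) = ⊤) : (O ⊔ H).Normal := by
  apply Cfsg.Agent.Lib.OddLocalB.normal_of_sup_eq_top htop
  · intro a ha m hm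
    exact (O ⊔ H).mul_mem ((O ⊔ H).mul_mem (Subgroup.mem_sup_left ha) hm)
      ((O ⊔ H).inv_mem (Subgroup.mem_sup_left ha))
  · intro b hb m hm
    have hle : O ⊔ H ≤ (O ⊔ H).comap (MulAut.conj b).toMonoidHom := by
      apply sup_le
      · intro x hx
        exact Subgroup.mem_sup_left (hOn.conj_mem x hx b)
      · intro x hx
        exact Subgroup.mem_sup_right ((Subgroup.mem_normalizer_iff.1 hb x).1 hx)
    exact hle hm

/-- Fixed points in `O` of a nontrivial element of `H` are fixed by `H`. -/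
theorem centralizer_of_fix {H O : Subgroup G} (hTI : Cfsg.IsTISubset (H : Set G))
    (hOn : O.Normal) (hOc : (Nat.card O).Coprime (Nat.card H)) {c h : G} (hc : c ∈ O) (hh : h ∈ H)
    (hh1 : h ≠ 1) (hch : c * h = h * c) : c ∈ Subgroup.centralizer (H : Set G) := by
  have hN : c ∈ Subgroup.normalizer (H : Set G) := by
    apply mem_normalizer_of_ti hTI hh hh1
    rw [hch]
    simpa using hh
  rw [Subgroup.mem_centralizer_iff]
  intro h' hh'
  have h1 : c * h' * c⁻¹ * h'⁻¹ ∈ H :=
    H.mul_mem ((Subgroup.mem_normalizer_iff.1 hN h').1 hh') (H.inv_mem hh')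
  have h2 : c * h' * c⁻¹ * h'⁻¹ ∈ O := by
    have : c * h' * c⁻¹ * h'⁻¹ = c * (h' * c⁻¹ * h'⁻¹) := by group
    rw [this]
    exact O.mul_mem hc (hOn.conj_mem _ (O.inv_mem hc) _)
  have hdisj : Disjoint O H := Subgroup.disjoint_of_coprime_natCard hOc
  have h3 := Subgroup.disjoint_def.1 hdisj h2 h1
  have h4 : c * h' * c⁻¹ = h' := mul_inv_eq_one.1 h3
  have h5 : c * h' = h' * c := mul_inv_eq_iff_eq_mul.1 h4
  exact h5.symm

/-- `O` does not centralize `H`. -/
theorem not_le_centralizer {H O : Subgroup G} (hnn : ¬ H.Normal)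
    (htop : O ⊔ Subgroup.normalizer (H : Set G) = ⊤) : ¬ O ≤ Subgroup.centralizer (H : Set G) := by
  intro hle
  apply hnn
  have h1 : O ≤ Subgroup.normalizer (H : Set G) := by
    intro c hc
    rw [Subgroup.mem_normalizer_iff]
    intro y
    constructor
    · intro hy
      have := hle hc
      rw [Subgroup.mem_centralizer_iff] at this
      rw [← this y hy]
      simpa using hy
    · intro hy
      have h2 := hle hc
      rw [Subgroup.mem_centralizer_iff] at h2
      have h3 := h2 _ hy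
      have h4 : y = c⁻¹ * (c * y * c⁻¹) * c := by group
      have h5 : c⁻¹ * (c * y * c⁻¹) * c = c * y * c⁻¹ := by
        rw [mul_assoc, h3]; group
      rw [h4, h5]
      exact hy
  have h2 : Subgroup.normalizer (H : Set G) = ⊤ := by
    rw [← htop]
    exact (sup_eq_right.2 h1).symm
  exact Subgroup.normalizer_eq_top_iff.1 h2

/-- No elementary abelian subgroup of order `p²` in `H`. -/
theorem no_rank_two {H O : Subgroup G} (hTI : Cfsg.IsTISubset (H : Set G))
    (hnn : ¬ H.Normal) (hOn : O.Normal) (hOc : (Nat.card O).Coprime (Nat.card H))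
    (htop : O ⊔ Subgroup.normalizer (H : Set G) = ⊤)
    {p : ℕ} [hp : Fact p.Prime] (A : Subgroup G) (hAH : A ≤ H) (hAc : IsMulCommutative A)
    (hAp : ∀ a ∈ A, a ^ p = 1) (hAcard : Nat.card A = p * p) : False := by
  classical
  have hpA : p ∣ Nat.card A := by rw [hAcard]; exact Dvd.intro _ rfl
  have hpH : p ∣ Nat.card H := hpA.trans (Subgroup.card_dvd_of_le hAH)
  have hpO : ¬ p ∣ Nat.card O := by
    intro h
    have := Nat.eq_one_of_dvd_coprimes hOc h hpH
    exact hp.out.one_lt.ne' this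
  have hAN : A ≤ Subgroup.normalizer (O : Set G) := by
    rw [Subgroup.normalizer_eq_top_iff.2 hOn]; exact le_top
  have hgen := Cfsg.Agent.Lib.CoprimeHyper.eq_iSup_inf_centralizer A O hAc hAp hpO hAN
  apply not_le_centralizer hnn htop
  rw [hgen]
  refine iSup_le fun B => ?_
  obtain ⟨B, hBA, hBi⟩ := B
  -- `B` is nontrivial
  have hBne : B ≠ ⊥ := by
    rintro rfl
    have h1 : (⊥ : Subgroup G).relIndex A = Nat.card A := by
      simp
    rw [h1, hAcard] at hBi
    have := hp.out.two_le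
    nlinarith
  obtain ⟨b, hb, hb1⟩ := (Subgroup.bot_or_exists_ne_one B).resolve_left hBne
  intro x hx
  simp only at hx
  exact centralizer_of_fix hTI hOn hOc hx.1 (hAH (hBA hb)) hb1
    ((Subgroup.mem_centralizer_iff.1 hx.2 b hb).symm)

/-- Uniqueness of subgroups of order `p` in Sylow subgroups of `H`, hence cyclic or quaternion. -/
theorem sylow_cyclic_or_quat {H O : Subgroup G} (hTI : Cfsg.IsTISubset (H : Set G))
    (hnn : ¬ H.Normal) (hOn : O.Normal) (hOc : (Nat.card O).Coprime (Nat.card H))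
    (htop : O ⊔ Subgroup.normalizer (H : Set G) = ⊤)
    {p : ℕ} [hp : Fact p.Prime] (P : Sylow p H) :
    IsCyclic (P : Subgroup H) ∨ (p = 2 ∧ ∃ n : ℕ, Nonempty ((P : Subgroup H) ≃* QuaternionGroup (2 ^ n))) := by
  classical
  apply Cfsg.Agent.Lib.UniqueSub.main p P.isPGroup'
  apply Cfsg.Agent.Lib.FpfGeneral.unique_of_forall_cyclic P.isPGroup'
  intro E hE
  by_contra hnc
  let f : (P : Subgroup H) →* G := H.subtype.comp (P : Subgroup H).subtype
  have hf : Function.Injective f :=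
    H.subtype_injective.comp (P : Subgroup H).subtype_injective
  set A := E.map f with hA
  have hAH : A ≤ H := by
    rintro _ ⟨y, _, rfl⟩
    exact (y : H).2
  have hEc : Nat.card E = p ^ 2 := by rw [hE, sq]
  have hEcomm : ∀ a b : E, a * b = b * a :=
    (IsPGroup.isMulCommutative_of_card_eq_prime_sq (G := E) hEc).is_comm.comm
  have hAc : IsMulCommutative A := by
    refine ⟨⟨?_⟩⟩
    rintro ⟨_, x, hx, rfl⟩ ⟨_, y, hy, rfl⟩
    apply Subtype.ext
    have := hEcomm ⟨x, hx⟩ ⟨y, hy⟩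
    have h2 : x * y = y * x := congrArg Subtype.val this
    show f x * f y = f y * f x
    rw [← map_mul, ← map_mul, h2]
  have hAp : ∀ a ∈ A, a ^ p = 1 := by
    rintro _ ⟨x, hx, rfl⟩
    rw [← map_pow]
    have h1 : (⟨x, hx⟩ : E) ^ p = 1 := by
      have h2 : orderOf (⟨x, hx⟩ : E) ∣ p ^ 2 := by
        rw [← hEc]; exact orderOf_dvd_natCard _
      obtain ⟨k, hk, hk2⟩ := (Nat.dvd_prime_pow hp.out).1 h2
      have hk3 : k ≠ 2 := by
        rintro rfl
        apply hnc
        apply isCyclic_of_orderOf_eq_card (⟨x, hx⟩ : E)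
        rw [hk2, hEc]
      have hk4 : k ≤ 1 := by omega
      rw [← orderOf_dvd_iff_pow_eq_one, hk2]
      exact dvd_trans (pow_dvd_pow p hk4) (by simp)
    have h2 := congrArg Subtype.val h1
    simp only [SubmonoidClass.coe_pow, OneMemClass.coe_one] at h2
    rw [h2, map_one]
  have hAcard : Nat.card A = p * p := by
    rw [hA, Subgroup.card_map_of_injective hf, hE]
  exact no_rank_two hTI hnn hOn hOc htop A hAH hAc hAp hAcard

/-- A commutative group isomorphic to a generalized quaternion group is cyclic. -/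
theorem isCyclic_of_comm_quat {X : Type*} [Group X] (hX : ∀ a b : X, a * b = b * a) (n : ℕ)
    (e : X ≃* QuaternionGroup (2 ^ n)) : IsCyclic X := by
  cases n with
  | zero =>
    have h1 : IsCyclic (QuaternionGroup (2 ^ 0)) := by
      haveI : NeZero (2 ^ 0 : ℕ) := ⟨by norm_num⟩
      apply isCyclic_of_orderOf_eq_card (QuaternionGroup.xa 0)
      rw [QuaternionGroup.orderOf_xa, Nat.card_eq_fintype_card, QuaternionGroup.card]
      norm_num
    exact isCyclic_of_surjective e.symm e.symm.surjective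
  | succ m =>
    exfalso
    set N := 2 ^ (m + 1) with hN
    have hcomm : ∀ a b : QuaternionGroup N, a * b = b * a := by
      intro a b
      apply e.symm.injective
      rw [map_mul, map_mul, hX]
    have h1 := hcomm (QuaternionGroup.a 1) (QuaternionGroup.xa 0)
    rw [QuaternionGroup.a_mul_xa, QuaternionGroup.xa_mul_a] at h1
    have h2 : (0 : ZMod (2 * N)) - 1 = 0 + 1 := QuaternionGroup.xa.inj h1
    have h3 : (2 : ZMod (2 * N)) = 0 := by
      have : (2 : ZMod (2 * N)) = ((0 : ZMod (2 * N)) + 1) - ((0 : ZMod (2 * N)) - 1) := by ring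
      rw [this, ← h2]; ring
    have h4 : ((2 : ℕ) : ZMod (2 * N)) = 0 := by exact_mod_cast h3
    rw [ZMod.natCast_eq_zero_iff] at h4
    have h5 : 4 ≤ 2 * N := by
      have : 2 ≤ N := by
        rw [hN, pow_succ]
        have := Nat.one_le_two_pow (n := m)
        omega
      omega
    have := Nat.le_of_dvd (by norm_num) h4
    omega

/-- With abelian Sylow `2`-subgroups, `H` is a Z-group. -/
theorem isZGroup_of_sylow_two {H O : Subgroup G} (hTI : Cfsg.IsTISubset (H : Set G))
    (hnn : ¬ H.Normal) (hOn : O.Normal) (hOc : (Nat.card O).Coprime (Nat.card H))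
    (htop : O ⊔ Subgroup.normalizer (H : Set G) = ⊤)
    (h2 : ∀ P : Sylow 2 H, IsMulCommutative (P : Subgroup H)) : IsZGroup H := by
  refine ⟨fun p hp P => ?_⟩
  haveI : Fact p.Prime := ⟨hp⟩
  rcases sylow_cyclic_or_quat hTI hnn hOn hOc htop P with hc | ⟨rfl, n, ⟨e⟩⟩
  · exact hc
  · have hc := h2 P
    exact isCyclic_of_comm_quat (fun a b => hc.is_comm.comm a b) n e

/-- A central subgroup of coprime order and index meets the commutator subgroup trivially. -/
theorem central_inf_commutator {X : Type*} [Group X] [Finite X] (S : Subgroup X)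
    (hS : S ≤ Subgroup.center X) (hcop : (Nat.card S).Coprime S.index) :
    S ⊓ commutator X = ⊥ := by
  haveI hn : S.Normal := by
    refine ⟨fun n hn g => ?_⟩
    have h1 := Subgroup.mem_center_iff.1 (hS hn) g
    rw [h1, mul_inv_cancel_right]
    exact hn
  obtain ⟨K, hK⟩ := Subgroup.exists_left_complement'_of_coprime hcop
  have hsup : K ⊔ S = ⊤ := hK.sup_eq_top
  have hcomm : commutator X ≤ K := by
    rw [commutator_def, Subgroup.commutator_le]
    intro a _ b _
    have ha : a ∈ K ⊔ S := by rw [hsup]; trivial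
    have hb : b ∈ K ⊔ S := by rw [hsup]; trivial
    obtain ⟨k, hk, s, hs, rfl⟩ := Subgroup.mem_sup_of_normal_right.mp ha
    obtain ⟨k', hk', s', hs', rfl⟩ := Subgroup.mem_sup_of_normal_right.mp hb
    have h1 := Subgroup.mem_center_iff.1 (hS hs)
    have h2 := Subgroup.mem_center_iff.1 (hS hs')
    have e : ⁅k * s, k' * s'⁆ = ⁅k, k'⁆ := by
      rw [commutatorElement_def, commutatorElement_def]
      have e1 : k * s * (k' * s') * (k * s)⁻¹ * (k' * s')⁻¹ =
          k * k' * (s * s' * s⁻¹ * s'⁻¹) * k⁻¹ * k'⁻¹ := by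
        have hs1 : s * k' = k' * s := (h1 k').symm
        have hs2 : s' * k⁻¹ = k⁻¹ * s' := (h2 k⁻¹).symm
        have hs3 : s * k⁻¹ = k⁻¹ * s := (h1 k⁻¹).symm
        have hs4 : s' * k'⁻¹ = k'⁻¹ * s' := (h2 k'⁻¹).symm
        have hs5 : s * k'⁻¹ = k'⁻¹ * s := (h1 k'⁻¹).symm
        have hs6 : s⁻¹ * k⁻¹ = k⁻¹ * s⁻¹ := by
          have := (Subgroup.mem_center_iff.1 (hS (S.inv_mem hs)) k⁻¹)
          exact this.symm
        have hs7 : s⁻¹ * k'⁻¹ = k'⁻¹ * s⁻¹ := by
          have := (Subgroup.mem_center_iff.1 (hS (S.inv_mem hs)) k'⁻¹)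
          exact this.symm
        have hs8 : s'⁻¹ * k'⁻¹ = k'⁻¹ * s'⁻¹ := by
          have := (Subgroup.mem_center_iff.1 (hS (S.inv_mem hs')) k'⁻¹)
          exact this.symm
        have hs9 : s'⁻¹ * k⁻¹ = k⁻¹ * s'⁻¹ := by
          have := (Subgroup.mem_center_iff.1 (hS (S.inv_mem hs')) k⁻¹)
          exact this.symm
        calc k * s * (k' * s') * (k * s)⁻¹ * (k' * s')⁻¹
            = k * (s * k') * s' * (s⁻¹ * k⁻¹) * (s'⁻¹ * k'⁻¹) := by group
          _ = k * (k' * s) * s' * (k⁻¹ * s⁻¹) * (k'⁻¹ * s'⁻¹) := by rw [hs1, hs6, hs8]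
          _ = k * k' * (s * s') * k⁻¹ * (s⁻¹ * k'⁻¹) * s'⁻¹ := by group
          _ = k * k' * (s * s') * k⁻¹ * (k'⁻¹ * s⁻¹) * s'⁻¹ := by rw [hs7]
          _ = k * k' * s * (s' * k⁻¹) * k'⁻¹ * s⁻¹ * s'⁻¹ := by group
          _ = k * k' * s * (k⁻¹ * s') * k'⁻¹ * s⁻¹ * s'⁻¹ := by rw [hs2]
          _ = k * k' * (s * k⁻¹) * (s' * k'⁻¹) * s⁻¹ * s'⁻¹ := by group
          _ = k * k' * (k⁻¹ * s) * (k'⁻¹ * s') * s⁻¹ * s'⁻¹ := by rw [hs3, hs4]
          _ = k * k' * k⁻¹ * (s * k'⁻¹) * s' * s⁻¹ * s'⁻¹ := by group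
          _ = k * k' * k⁻¹ * (k'⁻¹ * s) * s' * s⁻¹ * s'⁻¹ := by rw [hs5]
          _ = k * k' * (k⁻¹ * k'⁻¹) * (s * s' * s⁻¹ * s'⁻¹) := by group
          _ = k * k' * (s * s' * s⁻¹ * s'⁻¹) * k⁻¹ * k'⁻¹ := by
            have hcen : s * s' * s⁻¹ * s'⁻¹ = 1 := by
              rw [show s * s' = s' * s from h2 s]
              group
            rw [hcen]; group
      rw [e1]
      have hcen : s * s' * s⁻¹ * s'⁻¹ = 1 := by
        rw [show s * s' = s' * s from h2 s]
        group
      rw [hcen]; group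
    rw [e]
    exact K.mul_mem (K.mul_mem (K.mul_mem hk hk') (K.inv_mem hk)) (K.inv_mem hk')
  rw [eq_bot_iff]
  rintro x ⟨hx1, hx2⟩
  have hd : Disjoint K S := hK.disjoint
  exact Subgroup.disjoint_def.1 hd (hcomm hx2) hx1

/-- `U ≤ C(Q)` implies `Q ≤ N(U)`. -/
theorem le_normalizer_of_le_centralizer {U Q : Subgroup G}
    (h : U ≤ Subgroup.centralizer (Q : Set G)) : Q ≤ Subgroup.normalizer (U : Set G) := by
  intro q hq
  rw [Subgroup.mem_normalizer_iff]
  intro y
  constructor
  · intro hy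
    have h1 := Subgroup.mem_centralizer_iff.1 (h hy) q hq
    rw [h1]
    simpa using hy
  · intro hy
    have h1 := Subgroup.mem_centralizer_iff.1 (h hy) q hq
    have h2 : q * y * q⁻¹ * q = q * (q * y * q⁻¹) := h1.symm
    have h3 : q * y = q * (q * y * q⁻¹) := by
      calc q * y = q * y * q⁻¹ * q := by group
        _ = _ := h2
    have h4 : y = q * y * q⁻¹ := mul_left_cancel h3
    rw [h4]
    exact hy

/-- Coprime action on a cyclic `t`-group with a nontrivial fixed point is trivial. -/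
theorem fix_cyclic {T Q : Subgroup G} {t : ℕ} [Fact t.Prime] (hTp : IsPGroup t T) (hTc : IsCyclic T)
    (hQ : Q ≤ Subgroup.normalizer (T : Set G)) (hcop : (Nat.card Q).Coprime (Nat.card T))
    {c : G} (hc : c ∈ T) (hc1 : c ≠ 1) (hcQ : c ∈ Subgroup.centralizer (Q : Set G)) :
    T ≤ Subgroup.centralizer (Q : Set G) := by
  classical
  have hsol : Group.IsSolvable T := inferInstance
  set M := ⁅T, Q⁆ with hM
  have hMT : M ≤ T := Cfsg.Agent.Lib.Glauberman.commutator_le_of_le_normalizer hQ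
  have hQM : Q ≤ Subgroup.normalizer (M : Set G) := Cfsg.Agent.Lib.Glauberman.le_normalizer_commutator hQ
  have hcopM : (Nat.card Q).Coprime (Nat.card M) :=
    Nat.Coprime.coprime_dvd_right (Subgroup.card_dvd_of_le hMT) hcop
  have hTcomm : ∀ x ∈ T, ∀ y ∈ T, x * y = y * x := by
    intro x hx y hy
    have := IsCyclic.isMulCommutative (α := T)
    have h2 := this.is_comm.comm ⟨x, hx⟩ ⟨y, hy⟩
    exact congrArg Subtype.val h2
  have hMM : M ≤ ⁅M, Q⁆ := by
    rw [hM, Cfsg.Agent.Lib.Glauberman.commutator_commutator_eq hQ hcop (Or.inr hsol)]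
  have hbot : M ⊓ Subgroup.centralizer (Q : Set G) = ⊥ :=
    Cfsg.Agent.Lib.CoprimeIndexP.inf_centralizer_eq_bot_of_comm hQM hcopM
      (fun x hx y hy => hTcomm x (hMT hx) y (hMT hy)) hMM
  have hsup := Cfsg.Agent.Lib.Glauberman.commutator_sup_inf_centralizer hQ hcop (Or.inr hsol)
  rw [← hM] at hsup
  rcases Cfsg.Agent.Lib.H73Cyc.le_total_in_cyclic (p := t) T hTp hTc hMT
    (inf_le_left : T ⊓ Subgroup.centralizer (Q : Set G) ≤ T) with h | h
  · have h1 : M ≤ M ⊓ Subgroup.centralizer (Q : Set G) := le_inf le_rfl (h.trans inf_le_right)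
    rw [hbot] at h1
    have h2 : M = ⊥ := le_bot_iff.1 h1
    rw [h2, bot_sup_eq] at hsup
    rw [← hsup]
    exact inf_le_right
  · exfalso
    have h1 : c ∈ M ⊓ Subgroup.centralizer (Q : Set G) := ⟨h ⟨hc, hcQ⟩, hcQ⟩
    rw [hbot] at h1
    exact hc1 h1

/-- Subgroup form of the averaging lemma: `Y = [Y, Q]` implies `C_Y(Q) ≤ [Y, Y]`. -/
theorem inf_cent_le_comm {Y Q : Subgroup G} (hQY : Q ≤ Subgroup.normalizer (Y : Set G))
    (hcop : (Nat.card Q).Coprime (Nat.card Y)) (hY : Y ≤ ⁅Y, Q⁆) :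
    Y ⊓ Subgroup.centralizer (Q : Set G) ≤ ⁅Y, Y⁆ := by
  set X := Y ⊔ Q with hX
  have hYX : Y ≤ X := le_sup_left
  have hQX : Q ≤ X := le_sup_right
  set Y₀ := Y.subgroupOf X with hY₀
  set Q₀ := Q.subgroupOf X with hQ₀
  haveI hn : Y₀.Normal := (Subgroup.normal_subgroupOf_iff_le_normalizer hYX).mpr
    (sup_le Subgroup.le_normalizer hQY)
  have hmY : Y₀.map X.subtype = Y := Subgroup.map_subgroupOf_eq_of_le hYX
  have hmQ : Q₀.map X.subtype = Q := Subgroup.map_subgroupOf_eq_of_le hQX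
  have hcop₀ : (Nat.card Q₀).Coprime (Nat.card Y₀) := by
    rw [hY₀, hQ₀, Cfsg.Agent.Lib.Coprime.card_subgroupOf_of_le hYX,
      Cfsg.Agent.Lib.Coprime.card_subgroupOf_of_le hQX]
    exact hcop
  have hY₀' : Y₀ ≤ ⁅Y₀, Q₀⁆ := by
    intro x hx
    have h1 : (x : G) ∈ Y := hx
    have h2 := hY h1
    rw [← hmY, ← hmQ, ← Subgroup.map_commutator] at h2
    obtain ⟨z, hz, hze⟩ := h2
    have : z = x := Subtype.ext hze
    rwa [← this]
  have hkey := Cfsg.Agent.Lib.OddLocalB.inf_centralizer_le_commutator Y₀ Q₀ hcop₀ hY₀'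
  rintro y ⟨hy1, hy2⟩
  have hy3 : (⟨y, hYX hy1⟩ : X) ∈ Y₀ ⊓ Subgroup.centralizer (Q₀ : Set X) := by
    refine ⟨hy1, Subgroup.mem_centralizer_iff.2 ?_⟩
    intro q hq
    apply Subtype.ext
    exact Subgroup.mem_centralizer_iff.1 hy2 q hq
  have hy4 := hkey hy3
  have hy5 : y ∈ (⁅Y₀, Y₀⁆ : Subgroup X).map X.subtype := ⟨_, hy4, rfl⟩
  rwa [Subgroup.map_commutator, hmY] at hy5

/-- A `Q`-invariant `t`-subgroup of a Z-group `H` is centralized by `Q`, if `t` divides `|C_H(Q)|`. -/
theorem invariant_le_centralizer {H Q : Subgroup G} (hZ : IsZGroup H)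
    (hQ : Q ≤ Subgroup.normalizer (H : Set G)) (hcop : (Nat.card Q).Coprime (Nat.card H))
    {t : ℕ} [ht : Fact t.Prime] (htC : t ∣ Nat.card ↥(H ⊓ Subgroup.centralizer (Q : Set G)))
    {W : Subgroup G} (hWH : W ≤ H) (hWp : IsPGroup t W) (hQW : Q ≤ Subgroup.normalizer (W : Set G)) :
    W ≤ Subgroup.centralizer (Q : Set G) := by
  classical
  have hsolv : Group.IsSolvable H := inferInstance
  obtain ⟨c', hc'⟩ := exists_prime_orderOf_dvd_card' (G := ↥(H ⊓ Subgroup.centralizer (Q : Set G))) t htC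
  set c : G := (c' : G) with hc
  have hcH : c ∈ H := c'.2.1
  have hcC : c ∈ Subgroup.centralizer (Q : Set G) := c'.2.2
  have hco : orderOf c = t := by rw [hc, Subgroup.orderOf_coe, hc']
  have hc1 : c ≠ 1 := by
    intro h
    rw [h, orderOf_one] at hco
    exact ht.out.one_lt.ne hco
  set U := Subgroup.zpowers c with hU
  have hUH : U ≤ H := (Subgroup.zpowers_le).2 hcH
  have hUp : IsPGroup t U := by
    apply IsPGroup.of_card (n := 1)
    rw [hU, Nat.card_zpowers, hco, pow_one]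
  have hUQ : Q ≤ Subgroup.normalizer (U : Set G) :=
    le_normalizer_of_le_centralizer ((Subgroup.zpowers_le).2 hcC)
  obtain ⟨T, hUT, hQT⟩ := Cfsg.Agent.Lib.Glauberman2.exists_invariant_sylow_containing hQ hcop
    (Or.inr hsolv) t hUH hUp hUQ
  set T' := (T : Subgroup H).map H.subtype with hT'
  have hT'H : T' ≤ H := by
    rintro _ ⟨y, _, rfl⟩
    exact y.2
  have hT'p : IsPGroup t T' := T.isPGroup'.map H.subtype
  have hT'c : IsCyclic T' := by
    haveI : IsCyclic (T : Subgroup H) := inferInstance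
    let e : (T : Subgroup H) ≃* T' := (T : Subgroup H).equivMapOfInjective H.subtype H.subtype_injective
    exact isCyclic_of_surjective e e.surjective
  have hT'C : T' ≤ Subgroup.centralizer (Q : Set G) :=
    fix_cyclic hT'p hT'c hQT (Nat.Coprime.coprime_dvd_right (Subgroup.card_dvd_of_le hT'H) hcop)
      (hUT (Subgroup.mem_zpowers c)) hc1 hcC
  obtain ⟨T₂, hWT₂, hQT₂⟩ := Cfsg.Agent.Lib.Glauberman2.exists_invariant_sylow_containing hQ hcop
    (Or.inr hsolv) t hWH hWp hQW
  obtain ⟨c₂, hc₂, hconj⟩ := Cfsg.Agent.Lib.Glauberman2.exists_centralizer_conj_sylow hQ hcop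
    (Or.inr hsolv) t T T₂ hQT hQT₂
  intro w hw
  have hw2 := hWT₂ hw
  obtain ⟨y, hy, hye⟩ := hw2
  rw [← hconj] at hy
  have hy' : c₂⁻¹ * y * c₂ ∈ (T : Subgroup H) := by
    have h2 : y ∈ MulAut.conj c₂ • (T : Subgroup H) := hy
    exact Cfsg.Agent.Lib.PCore.mem_conj_smul_iff.1 h2
  have hx : ((c₂⁻¹ * y * c₂ : H) : G) ∈ T' := ⟨_, hy', rfl⟩
  have hxC := hT'C hx
  have heq : w = (c₂ : G) * ((c₂⁻¹ * y * c₂ : H) : G) * (c₂ : G)⁻¹ := by
    have h5 : (y : G) = w := hye
    push_cast
    rw [h5]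
    group
  rw [heq]
  exact Subgroup.mul_mem _ (Subgroup.mul_mem _ hc₂ hxC) (Subgroup.inv_mem _ hc₂)

/-- The key coprimality: `|C_H(Q)|` and `|[H, Q]|` are coprime for a Z-group `H`. -/
theorem coprime_centralizer_commutator {H Q : Subgroup G} (hZ : IsZGroup H)
    (hQ : Q ≤ Subgroup.normalizer (H : Set G)) (hcop : (Nat.card Q).Coprime (Nat.card H)) :
    (Nat.card ↥(H ⊓ Subgroup.centralizer (Q : Set G))).Coprime (Nat.card (⁅H, Q⁆ : Subgroup G)) := by
  classical
  by_contra hnc
  obtain ⟨t, ht, htC, htY⟩ := Nat.Prime.not_coprime_iff_dvd.mp hnc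
  haveI : Fact t.Prime := ⟨ht⟩
  have hsolv : Group.IsSolvable H := inferInstance
  set Y : Subgroup G := ⁅H, Q⁆ with hY
  have hYH : Y ≤ H := Cfsg.Agent.Lib.Glauberman.commutator_le_of_le_normalizer hQ
  have hQY : Q ≤ Subgroup.normalizer (Y : Set G) := Cfsg.Agent.Lib.Glauberman.le_normalizer_commutator hQ
  have hcopY : (Nat.card Q).Coprime (Nat.card Y) :=
    Nat.Coprime.coprime_dvd_right (Subgroup.card_dvd_of_le hYH) hcop
  have hYY : ⁅Y, Q⁆ = Y := Cfsg.Agent.Lib.Glauberman.commutator_commutator_eq hQ hcop (Or.inr hsolv)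
  haveI hZY : IsZGroup Y := IsZGroup.of_injective (f := Subgroup.inclusion hYH)
    (Subgroup.inclusion_injective hYH)
  have hsolvY : Group.IsSolvable Y := inferInstance
  obtain ⟨TY, hTY⟩ := Cfsg.Agent.Lib.Glauberman2.exists_invariant_sylow hQY hcopY (Or.inr hsolvY) t
  set W := (TY : Subgroup Y).map Y.subtype with hW
  have hWY : W ≤ Y := by
    rintro _ ⟨y, _, rfl⟩
    exact y.2
  have hWp : IsPGroup t W := TY.isPGroup'.map Y.subtype
  have hWC : W ≤ Subgroup.centralizer (Q : Set G) :=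
    invariant_le_centralizer hZ hQ hcop htC (hWY.trans hYH) hWp hTY
  -- `W` lies in the derived subgroup of `Y`
  have hWYY : W ≤ ⁅Y, Y⁆ :=
    (le_inf hWY hWC).trans (inf_cent_le_comm hQY hcopY hYY.ge)
  have hTYle : (TY : Subgroup Y) ≤ commutator Y := by
    intro x hx
    have h1 : (x : G) ∈ W := ⟨x, hx, rfl⟩
    have h2 := hWYY h1
    rw [← Subgroup.map_subtype_commutator] at h2
    obtain ⟨z, hz, hze⟩ := h2
    have : z = x := Subtype.ext hze
    rwa [← this]
  -- normality of `W` in `Y`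
  haveI hcycY : IsCyclic (commutator Y) := IsZGroup.isCyclic_commutator Y
  have hTYn : ∀ y : Y, MulAut.conj y • (TY : Subgroup Y) = (TY : Subgroup Y) := by
    intro y
    have hle1 : MulAut.conj y • (TY : Subgroup Y) ≤ commutator Y := by
      intro x hx
      have h1 := Cfsg.Agent.Lib.PCore.mem_conj_smul_iff.1 hx
      have h2 := hTYle h1
      have h3 := (inferInstance : (commutator Y).Normal).conj_mem _ h2 y
      have h4 : y * (y⁻¹ * x * y) * y⁻¹ = x := by group
      rwa [h4] at h3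
    have hcard : Nat.card ((MulAut.conj y • (TY : Subgroup Y) : Subgroup Y).subgroupOf (commutator Y)) =
        Nat.card ((TY : Subgroup Y).subgroupOf (commutator Y)) := by
      rw [Cfsg.Agent.Lib.Coprime.card_subgroupOf_of_le hle1,
        Cfsg.Agent.Lib.Coprime.card_subgroupOf_of_le hTYle,
        Cfsg.Agent.Lib.Coprime.card_conj_smul]
    have h := Cfsg.Agent.Lib.FpfGeneral.eq_of_card_eq_of_isCyclic _ _ hcard
    have h2 := (Subgroup.subgroupOf_inj).1 h
    rwa [inf_eq_left.2 hle1, inf_eq_left.2 hTYle] at h2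
  have hWnorm : ∀ y ∈ Y, ∀ w ∈ W, y * w * y⁻¹ ∈ W := by
    intro y hy w hw
    obtain ⟨x, hx, rfl⟩ := hw
    have h1 : (⟨y, hy⟩ : Y) * x * (⟨y, hy⟩ : Y)⁻¹ ∈ (TY : Subgroup Y) := by
      rw [← hTYn ⟨y, hy⟩] at hx
      have h2 := hTYn ⟨y, hy⟩
      rw [← h2]
      rw [Cfsg.Agent.Lib.PCore.mem_conj_smul_iff]
      have h3 := Cfsg.Agent.Lib.PCore.mem_conj_smul_iff.1 hx
      have h4 : (⟨y, hy⟩ : Y)⁻¹ * ((⟨y, hy⟩ : Y) * x * (⟨y, hy⟩ : Y)⁻¹) * (⟨y, hy⟩ : Y) = x := by group
      rw [h4]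
      rw [h2] at hx
      exact hx
    exact ⟨_, h1, rfl⟩
  -- `Y` centralizes `W`
  have hYW : Y ≤ Subgroup.centralizer (W : Set G) := by
    rw [← hYY, Subgroup.commutator_le]
    intro y hy q hq
    rw [Subgroup.mem_centralizer_iff]
    intro w hw
    have hw1 : y⁻¹ * w * y ∈ W := by
      have := hWnorm y⁻¹ (Y.inv_mem hy) w hw
      simpa using this
    have h1 : q * (y⁻¹ * w * y) = (y⁻¹ * w * y) * q :=
      (Subgroup.mem_centralizer_iff.1 (hWC hw1) q hq)
    have h2 : q * w = w * q := Subgroup.mem_centralizer_iff.1 (hWC hw) q hq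
    rw [commutatorElement_def]
    have h3 : w * (y * q * y⁻¹ * q⁻¹) = y * (y⁻¹ * w * y) * q * y⁻¹ * q⁻¹ := by group
    have h4 : y * q * y⁻¹ * q⁻¹ * w = y * (q * (y⁻¹ * (q⁻¹ * w * q) * y)) * y⁻¹ * q⁻¹ * q⁻¹ * q := by
      group
    have h5 : q⁻¹ * w * q = w := by
      rw [mul_assoc, ← h2]; group
    rw [h3, h4, h5, h1]
    group
  -- `TY` is central in `Y`
  have hTYc : (TY : Subgroup Y) ≤ Subgroup.center Y := by
    intro x hx
    rw [Subgroup.mem_center_iff]
    intro y
    have h1 : (x : G) ∈ W := ⟨x, hx, rfl⟩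
    have h2 := Subgroup.mem_centralizer_iff.1 (hYW y.2) x h1
    exact Subtype.ext h2.symm
  have hbot := central_inf_commutator (TY : Subgroup Y) hTYc (TY.card_coprime_index)
  have hTYbot : (TY : Subgroup Y) = ⊥ := by
    rw [eq_bot_iff, ← hbot]
    exact le_inf le_rfl hTYle
  exact TY.ne_bot_of_dvd_card htY hTYbot

/-- `H` normalizes `[H, Q]`. -/
theorem le_normalizer_commutator_left (H Q : Subgroup G) :
    H ≤ Subgroup.normalizer ((⁅H, Q⁆ : Subgroup G) : Set G) := by
  intro h hh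
  apply Subgroup.mem_normalizer_fintype
  intro y hy
  have hle : (⁅H, Q⁆ : Subgroup G) ≤ (⁅H, Q⁆ : Subgroup G).comap (MulAut.conj h).toMonoidHom := by
    rw [Subgroup.commutator_le]
    intro a ha q hq
    show h * ⁅a, q⁆ * h⁻¹ ∈ (⁅H, Q⁆ : Subgroup G)
    have h1 : h * ⁅a, q⁆ * h⁻¹ = ⁅h * a, q⁆ * ⁅h, q⁆⁻¹ := by
      simp only [commutatorElement_def]
      group
    rw [h1]
    exact Subgroup.mul_mem _ (Subgroup.commutator_mem_commutator (H.mul_mem hh ha) hq)
      (Subgroup.inv_mem _ (Subgroup.commutator_mem_commutator hh hq))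
  exact hle hy

/-- The normal complement. -/
theorem main_complement {H O Q : Subgroup G} (hZ : IsZGroup H) (hOn : O.Normal)
    (hOc : (Nat.card O).Coprime (Nat.card H))
    (hHi : (Nat.card H).Coprime H.index)
    (htop : O ⊔ Subgroup.normalizer (H : Set G) = ⊤)
    (hQ : Q ≤ Subgroup.normalizer (H : Set G)) (hQH' : Q ⊔ H = Subgroup.normalizer (H : Set G))
    (hcop : (Nat.card Q).Coprime (Nat.card H)) :
    (Nat.card ↥(H ⊓ Subgroup.centralizer (Q : Set G))).Coprime (H ⊓ Subgroup.centralizer (Q : Set G)).index ∧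
    ∃ N : Subgroup G, N.Normal ∧ N.IsComplement' (H ⊓ Subgroup.centralizer (Q : Set G)) := by
  classical
  set C := H ⊓ Subgroup.centralizer (Q : Set G) with hC
  set Y : Subgroup G := ⁅H, Q⁆ with hY
  have hCH : C ≤ H := inf_le_left
  have hYH : Y ≤ H := Cfsg.Agent.Lib.Glauberman.commutator_le_of_le_normalizer hQ
  have hCY : (Nat.card C).Coprime (Nat.card Y) := coprime_centralizer_commutator hZ hQ hcop
  have hsolv : Group.IsSolvable H := inferInstance
  have hsup : Y ⊔ C = H := Cfsg.Agent.Lib.Glauberman.commutator_sup_inf_centralizer hQ hcop (Or.inr hsolv)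
  have hHY : H ≤ Subgroup.normalizer (Y : Set G) := le_normalizer_commutator_left H Q
  have hQY : Q ≤ Subgroup.normalizer (Y : Set G) := Cfsg.Agent.Lib.Glauberman.le_normalizer_commutator hQ
  have hdCY : C ⊓ Y = ⊥ := (Subgroup.disjoint_of_coprime_natCard hCY).eq_bot
  have hcardH : Nat.card H = Nat.card C * Nat.card Y := by
    have h1 := Cfsg.Agent.Lib.CoprimeInv.card_sup_mul_card_inf (hCH.trans hHY)
    rw [sup_comm, hsup, hdCY, Subgroup.card_bot, mul_one] at h1
    exact h1
  have hCHc : (Nat.card C).Coprime (Nat.card H) → True := fun _ => trivial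
  have hCdvd : Nat.card C ∣ Nat.card H := Subgroup.card_dvd_of_le hCH
  -- first claim
  have hfirst : (Nat.card C).Coprime C.index := by
    have h1 : C.relIndex H * H.index = C.index := Subgroup.relIndex_mul_index hCH
    have h2 : C.relIndex H * Nat.card C = Nat.card H := Cfsg.Agent.Lib.Coprime.relIndex_mul_card_of_le hCH
    have hCpos : 0 < Nat.card C := Nat.card_pos
    have h3 : C.relIndex H = Nat.card Y := by
      apply Nat.eq_of_mul_eq_mul_right hCpos
      rw [h2, hcardH, mul_comm]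
    rw [← h1, h3]
    exact Nat.Coprime.mul_right hCY (Nat.Coprime.coprime_dvd_left hCdvd hHi)
  refine ⟨hfirst, ?_⟩
  -- the complement
  set L := Y ⊔ Q with hL
  have hHL : H ≤ Subgroup.normalizer (L : Set G) := by
    intro h hh
    apply Subgroup.mem_normalizer_fintype
    have hle : L ≤ L.comap (MulAut.conj h).toMonoidHom := by
      apply sup_le
      · intro y hy
        exact Subgroup.mem_sup_left ((Subgroup.mem_normalizer_iff.1 (hHY hh) y).1 hy)
      · intro q hq
        show h * q * h⁻¹ ∈ L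
        have h1 : h * q * h⁻¹ = ⁅h, q⁆ * q := by
          rw [commutatorElement_def]; group
        rw [h1]
        exact L.mul_mem (Subgroup.mem_sup_left (Subgroup.commutator_mem_commutator hh hq))
          (Subgroup.mem_sup_right hq)
    exact fun y hy => hle hy
  have hQL : Q ≤ Subgroup.normalizer (L : Set G) := by
    intro q hq
    apply Subgroup.mem_normalizer_fintype
    have hle : L ≤ L.comap (MulAut.conj q).toMonoidHom := by
      apply sup_le
      · intro y hy
        exact Subgroup.mem_sup_left ((Subgroup.mem_normalizer_iff.1 (hQY hq) y).1 hy)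
      · intro q' hq'
        show q * q' * q⁻¹ ∈ L
        exact Subgroup.mem_sup_right (Q.mul_mem (Q.mul_mem hq hq') (Q.inv_mem hq))
    exact fun y hy => hle hy
  have hNL : Subgroup.normalizer (H : Set G) ≤ Subgroup.normalizer (L : Set G) := by
    rw [← hQH']
    exact sup_le hQL hHL
  set N := O ⊔ L with hN
  have hNn : N.Normal := by
    apply Cfsg.Agent.Lib.OddLocalB.normal_of_sup_eq_top htop
    · intro a ha m hm
      exact N.mul_mem (N.mul_mem (Subgroup.mem_sup_left ha) hm) (N.inv_mem (Subgroup.mem_sup_left ha))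
    · intro b hb m hm
      have hle : N ≤ N.comap (MulAut.conj b).toMonoidHom := by
        apply sup_le
        · intro x hx
          exact Subgroup.mem_sup_left (hOn.conj_mem x hx b)
        · intro x hx
          exact Subgroup.mem_sup_right ((Subgroup.mem_normalizer_iff.1 (hNL hb) x).1 hx)
      exact hle hm
  -- orders
  have hLc : (Nat.card L).Coprime (Nat.card C) := by
    have h1 := Cfsg.Agent.Lib.CoprimeInv.card_sup_mul_card_inf hQY
    have h2 : Nat.card L ∣ Nat.card Q * Nat.card Y := by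
      rw [← h1, hL, sup_comm]
      exact Dvd.intro _ rfl
    apply Nat.Coprime.coprime_dvd_left h2
    apply Nat.Coprime.mul_left
    · exact Nat.Coprime.coprime_dvd_right hCdvd hcop
    · exact hCY.symm
  have hNc : (Nat.card N).Coprime (Nat.card C) := by
    have h1 : Nat.card (L ⊔ O : Subgroup G) = O.relIndex L * Nat.card O :=
      @Cfsg.Agent.Lib.Coprime.card_sup_eq G _ _ L O hOn
    rw [hN, sup_comm, h1]
    apply Nat.Coprime.mul_left
    · exact Nat.Coprime.coprime_dvd_left (Subgroup.relIndex_dvd_card _ _) hLc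
    · exact Nat.Coprime.coprime_dvd_right hCdvd hOc
  have hNC : C ⊔ N = ⊤ := by
    rw [eq_top_iff, ← htop, ← hQH', ← hsup, hN, hL]
    apply sup_le
    · exact le_sup_of_le_right le_sup_left
    · apply sup_le
      · exact le_sup_of_le_right (le_sup_of_le_right le_sup_right)
      · rw [sup_le_iff]
        exact ⟨le_sup_of_le_right (le_sup_of_le_right le_sup_left), le_sup_left⟩
  refine ⟨N, hNn, ?_⟩
  apply Subgroup.isComplement'_of_coprime _ hNc
  have h1 : Nat.card (C ⊔ N : Subgroup G) = N.relIndex C * Nat.card N :=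
    @Cfsg.Agent.Lib.Coprime.card_sup_eq G _ _ C N hNn
  have hd : Disjoint C N := (Subgroup.disjoint_of_coprime_natCard hNc.symm)
  rw [Cfsg.Agent.Lib.Coprime.relIndex_eq_card_of_disjoint hd, hNC, Subgroup.card_top] at h1
  rw [h1, mul_comm]

end Cfsg.Agent.Lib.TIHall
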