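import Mathlib

/-!
# A TI-subgroup normalized by an involution with odd centralizers: basic facts

`M` is a trivial-intersection subgroup, `z` an involution of `N(M)` with `N(M) = M C_{N(M)}(z)` and
all centralizers of nontrivial elements of `M` have odd order.
-/

set_option autoImplicit false

namespace Cfsg.Agent.Lib.TIInv

variable {G : Type*} [Group G] [Finite G]

/-- The normalizer. -/
abbrev Nm (M : Subgroup G) : Subgroup G := Subgroup.normalizer (M : Set G)

/-- Elementwise form of the hypotheses. -/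
structure Hyp (M : Subgroup G) (z : G) : Prop where
  ne_bot : M ≠ ⊥
  ti : ∀ g x : G, x ∈ M → x ≠ 1 → g⁻¹ * x * g ∈ M → g ∈ Nm M
  hz : z * z = 1
  hz1 : z ≠ 1
  hzN : z ∈ Nm M
  fac : ∀ g ∈ Nm M, ∃ m ∈ M, ∃ c ∈ Nm M, c * z = z * c ∧ g = m * c
  odd : ∀ x ∈ M, x ≠ 1 → Odd (Nat.card (Subgroup.centralizer ({x} : Set G)))

variable {M : Subgroup G} {z : G}

theorem conj_mem {g m : G} (hg : g ∈ Nm M) (hm : m ∈ M) : g * m * g⁻¹ ∈ M :=
  (Subgroup.mem_normalizer_iff.mp hg m).mp hm

theorem conj_inv_mem {g m : G} (hg : g ∈ Nm M) (hm : m ∈ M) : g⁻¹ * m * g ∈ M := by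
  have := conj_mem (M := M) (Subgroup.inv_mem _ hg) hm
  simpa using this

theorem mem_Nm_of_le {m : G} (hm : m ∈ M) : m ∈ Nm M := Subgroup.le_normalizer hm

/-- An involutive automorphism without fixed points inverts. -/
theorem inverts_of_fpf {H : Type*} [Group H] [Finite H] (τ : H →* H) (h2 : ∀ x, τ (τ x) = x)
    (hfix : ∀ x, τ x = x → x = 1) (a : H) : τ a = a⁻¹ := by
  have hinj : Function.Injective (fun x : H => x⁻¹ * τ x) := by
    intro x y hxy
    simp only at hxy
    have h1 : y * x⁻¹ = τ y * (τ x)⁻¹ := by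
      have : x⁻¹ * τ x = y⁻¹ * τ y := hxy
      have h3 : y * x⁻¹ * τ x = τ y := by
        rw [mul_assoc, this, mul_inv_cancel_left]
      exact eq_mul_inv_of_mul_eq h3
    have h4 : τ (y * x⁻¹) = y * x⁻¹ := by
      rw [map_mul, map_inv, h1]
    have := hfix _ h4
    exact (mul_inv_eq_one.mp this).symm
  obtain ⟨x, rfl⟩ := (Finite.injective_iff_surjective.mp hinj) a
  simp only [map_mul, map_inv, h2, mul_inv_rev, inv_inv]

namespace Hyp

variable (h : Hyp M z)
include h

/-- An involution commutes with no nontrivial element of `M`. -/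
theorem no_comm {y x : G} (hy : y * y = 1) (hy1 : y ≠ 1) (hx : x ∈ M) (hx1 : x ≠ 1) :
    y * x ≠ x * y := by
  intro hc
  have hmem : y ∈ Subgroup.centralizer ({x} : Set G) := by
    rw [Subgroup.mem_centralizer_singleton_iff]
    exact hc
  have ho : orderOf y = 2 := orderOf_eq_prime (by rw [pow_two]; exact hy) hy1
  have h1 : orderOf (⟨y, hmem⟩ : Subgroup.centralizer ({x} : Set G)) = 2 := by
    rw [Subgroup.orderOf_mk]; exact ho
  have h2 := orderOf_dvd_natCard (⟨y, hmem⟩ : Subgroup.centralizer ({x} : Set G))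
  rw [h1] at h2
  exact (Nat.not_even_iff_odd.mpr (h.odd x hx hx1)) (even_iff_two_dvd.mpr h2)

/-- An involution of `N(M)` inverts `M`. -/
theorem inverts {y m : G} (hy : y * y = 1) (hy1 : y ≠ 1) (hyN : y ∈ Nm M) (hm : m ∈ M) :
    y * m * y = m⁻¹ := by
  have hyi : y⁻¹ = y := inv_eq_of_mul_eq_one_left hy
  let τ : ↥M →* ↥M :=
    { toFun := fun a => ⟨y * a * y⁻¹, conj_mem hyN a.2⟩
      map_one' := by ext; simp
      map_mul' := by
        intro a b
        ext
        change y * ((a : G) * b) * y⁻¹ = (y * (a : G) * y⁻¹) * (y * (b : G) * y⁻¹)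
        group }
  have hτ : ∀ a : ↥M, (τ a : G) = y * a * y := fun a => by
    change y * (a : G) * y⁻¹ = _
    rw [hyi]
  have h2 : ∀ a, τ (τ a) = a := by
    intro a
    ext
    rw [hτ, hτ]
    calc y * (y * (a : G) * y) * y = (y * y) * a * (y * y) := by group
      _ = a := by rw [hy]; simp
  have hfix : ∀ a, τ a = a → a = 1 := by
    intro a ha
    by_contra hne
    have ha1 : (a : G) ≠ 1 := fun h' => hne (Subtype.ext h')
    apply h.no_comm hy hy1 a.2 ha1
    have h3 : y * (a : G) * y = a := by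
      rw [← hτ, ha]
    calc y * (a : G) = y * a * y * y := by rw [mul_assoc (y * (a : G)), hy, mul_one]
      _ = a * y := by rw [h3]
  have := inverts_of_fpf τ h2 hfix ⟨m, hm⟩
  have h5 := congrArg Subtype.val this
  rw [hτ] at h5
  simpa using h5

theorem z_inv {m : G} (hm : m ∈ M) : z * m * z = m⁻¹ := h.inverts h.hz h.hz1 h.hzN hm

theorem comm {a b : G} (ha : a ∈ M) (hb : b ∈ M) : a * b = b * a := by
  have h1 : z * (a * b) * z = (a * b)⁻¹ := h.z_inv (M.mul_mem ha hb)
  have h2 : z * (a * b) * z = (z * a * z) * (z * b * z) := by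
    calc z * (a * b) * z = z * a * (z * z) * b * z := by rw [h.hz]; group
      _ = _ := by group
  rw [h2, h.z_inv ha, h.z_inv hb, mul_inv_rev] at h1
  have h3 : a⁻¹ * b⁻¹ = (b * a)⁻¹ := by group
  rw [h3] at h1
  have h4 := inv_injective (h1.trans (by group : (b⁻¹ * a⁻¹) = (a * b)⁻¹))
  exact h4.symm

/-- No nontrivial element of `M` has square one. -/
theorem sq_eq_one {m : G} (hm : m ∈ M) (hs : m * m = 1) : m = 1 := by
  by_contra hm1
  apply h.no_comm h.hz h.hz1 hm hm1
  have h1 : z * m * z = m := by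
    rw [h.z_inv hm]; exact inv_eq_of_mul_eq_one_left hs
  calc z * m = z * m * z * z := by rw [mul_assoc (z * m), h.hz, mul_one]
    _ = m * z := by rw [h1]

theorem odd_card : Odd (Nat.card M) := by
  by_contra hne
  rw [Nat.not_odd_iff_even, even_iff_two_dvd] at hne
  haveI : Fact (Nat.Prime 2) := ⟨Nat.prime_two⟩
  obtain ⟨x, hx⟩ := exists_prime_orderOf_dvd_card' (G := ↥M) 2 hne
  have h1 : ((x : G)) * x = 1 := by
    have := pow_orderOf_eq_one x
    rw [hx, pow_two] at this
    exact congrArg Subtype.val this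
  have h2 := h.sq_eq_one x.2 h1
  have h3 : x = 1 := Subtype.ext h2
  rw [h3, orderOf_one] at hx
  omega

/-- Every element of `M` is a square in `M`. -/
theorem exists_sqrt {m : G} (hm : m ∈ M) : ∃ n ∈ M, n * n = m := by
  have hinj : Function.Injective (fun a : ↥M => a * a) := by
    intro a b hab
    simp only at hab
    have h1 : ((a : G) * (b : G)⁻¹) * ((a : G) * (b : G)⁻¹) = 1 := by
      have h2 : (a : G) * a = b * b := congrArg Subtype.val hab
      have h3 : (b : G)⁻¹ * a = a * (b : G)⁻¹ := h.comm (M.inv_mem b.2) a.2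
      generalize (a : G) = a' at *
      generalize (b : G) = b' at *
      calc (a' * b'⁻¹) * (a' * b'⁻¹) = a' * (b'⁻¹ * a') * b'⁻¹ := by group
        _ = a' * (a' * b'⁻¹) * b'⁻¹ := by rw [h3]
        _ = (a' * a') * b'⁻¹ * b'⁻¹ := by group
        _ = 1 := by rw [h2]; group
    have h4 := h.sq_eq_one (M.mul_mem a.2 (M.inv_mem b.2)) h1
    exact Subtype.ext (mul_inv_eq_one.mp h4)
  obtain ⟨a, ha⟩ := (Finite.injective_iff_surjective.mp hinj) ⟨m, hm⟩
  exact ⟨a, a.2, congrArg Subtype.val ha⟩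

/-- The centralizer of `z` in `N(M)` meets `M` trivially. -/
theorem eq_one_of_comm_z {m : G} (hm : m ∈ M) (hc : m * z = z * m) : m = 1 := by
  by_contra hm1
  exact h.no_comm h.hz h.hz1 hm hm1 hc.symm

/-- Involutions of `N(M)` lie in the coset `Mz`. -/
theorem inv_in_coset {y : G} (hy : y * y = 1) (hy1 : y ≠ 1) (hyN : y ∈ Nm M) :
    ∃ m ∈ M, y = m * z := by
  obtain ⟨m, hm, c, hcN, hcz, rfl⟩ := h.fac y hyN
  -- c squares to one
  have hc2 : c * c = 1 := by
    have h1 : m * c * m * c = 1 := by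
      rw [← hy]; group
    have h2 : c * m * c⁻¹ ∈ M := conj_mem hcN hm
    have h3 : m * (c * m * c⁻¹) * (c * c) = 1 := by
      rw [← h1]; group
    have h4 : c * c = (m * (c * m * c⁻¹))⁻¹ := eq_inv_of_mul_eq_one_right h3
    have h5 : c * c ∈ M := by rw [h4]; exact M.inv_mem (M.mul_mem hm h2)
    have h6 : c * c * z = z * (c * c) := by
      rw [mul_assoc, hcz, ← mul_assoc, hcz, mul_assoc]
    exact h.eq_one_of_comm_z h5 h6
  have hc1 : c ≠ 1 := by
    rintro rfl
    rw [mul_one] at hy hy1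
    exact hy1 (h.sq_eq_one hm hy)
  -- c and z invert M
  have hcz2 : c * z = 1 ∨ c * z ≠ 1 := eq_or_ne _ _
  rcases hcz2 with h0 | h0
  · have hcz3 : c = z := by
      have : c = z⁻¹ := eq_inv_of_mul_eq_one_left h0
      rw [this]; exact inv_eq_of_mul_eq_one_left h.hz
    exact ⟨m, hm, by rw [hcz3]⟩
  · exfalso
    have hne : ∃ x ∈ M, x ≠ 1 := by
      by_contra hno
      push Not at hno
      exact h.ne_bot ((Subgroup.eq_bot_iff_forall M).mpr hno)
    obtain ⟨x, hx, hx1⟩ := hne
    have hsq : (c * z) * (c * z) = 1 := by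
      calc (c * z) * (c * z) = c * (z * c) * z := by group
        _ = c * (c * z) * z := by rw [hcz]
        _ = (c * c) * (z * z) := by group
        _ = 1 := by rw [hc2, h.hz, one_mul]
    apply h.no_comm hsq h0 hx hx1
    have h1 : c * x * c = x⁻¹ := h.inverts hc2 hc1 hcN hx
    have h2 : z * x * z = x⁻¹ := h.z_inv hx
    have h3 : z * x = x⁻¹ * z := by
      calc z * x = z * x * z * z := by rw [mul_assoc (z * x), h.hz, mul_one]
        _ = x⁻¹ * z := by rw [h2]
    have h4 : c * x⁻¹ = x * c := by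
      have h5 : c * x⁻¹ * c = x := by
        have h6 := h.inverts hc2 hc1 hcN (M.inv_mem hx)
        rw [h6, inv_inv]
      calc c * x⁻¹ = c * x⁻¹ * c * c := by rw [mul_assoc (c * x⁻¹), hc2, mul_one]
        _ = x * c := by rw [h5]
    calc c * z * x = c * (z * x) := by group
      _ = c * (x⁻¹ * z) := by rw [h3]
      _ = (c * x⁻¹) * z := by group
      _ = x * c * z := by rw [h4]
      _ = x * (c * z) := by group

/-- `m z` is an involution. -/
theorem mul_z_sq {m : G} (hm : m ∈ M) : (m * z) * (m * z) = 1 := by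
  have h1 := h.z_inv hm
  calc (m * z) * (m * z) = m * (z * m * z) := by group
    _ = 1 := by rw [h1]; simp

theorem mul_z_ne_one {m : G} (hm : m ∈ M) : m * z ≠ 1 := by
  intro h1
  have h2 : m = z⁻¹ := eq_inv_of_mul_eq_one_left h1
  have h3 : z = m⁻¹ := by rw [h2, inv_inv]
  apply h.hz1
  apply h.sq_eq_one (m := z) (by rw [h3]; exact M.inv_mem hm) h.hz

theorem conj_z {n : G} (hn : n ∈ M) : n * z * n⁻¹ = (n * n) * z := by
  have h1 := h.z_inv (M.inv_mem hn)
  rw [inv_inv] at h1
  calc n * z * n⁻¹ = n * (z * n⁻¹ * z) * z := by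
        rw [mul_assoc n (z * n⁻¹ * z), mul_assoc (z * n⁻¹), h.hz, mul_one]; group
    _ = n * n * z := by rw [h1]

/-- Every involution of `N(M)` is an `M`-conjugate of `z`. -/
theorem inv_conj {y : G} (hy : y * y = 1) (hy1 : y ≠ 1) (hyN : y ∈ Nm M) :
    ∃ n ∈ M, y = n * z * n⁻¹ := by
  obtain ⟨m, hm, rfl⟩ := h.inv_in_coset hy hy1 hyN
  obtain ⟨n, hn, rfl⟩ := h.exists_sqrt hm
  exact ⟨n, hn, (h.conj_z hn).symm⟩

/-- Two commuting involutions of `N(M)` coincide. -/
theorem inv_eq_of_comm {a b : G} (ha : a * a = 1) (ha1 : a ≠ 1) (haN : a ∈ Nm M) (hb : b * b = 1)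
    (hb1 : b ≠ 1) (hbN : b ∈ Nm M) (hc : a * b = b * a) : a = b := by
  obtain ⟨m, hm, rfl⟩ := h.inv_in_coset ha ha1 haN
  obtain ⟨n, hn, rfl⟩ := h.inv_in_coset hb hb1 hbN
  have h1 : m * z * (n * z) = m * n⁻¹ := by
    have h2 := h.z_inv hn
    calc m * z * (n * z) = m * (z * n * z) := by group
      _ = m * n⁻¹ := by rw [h2]
  have h3 : (m * n⁻¹) * (m * n⁻¹) = 1 := by
    have h4 : n * z * (m * z) = n * m⁻¹ := by
      have h2 := h.z_inv hm
      calc n * z * (m * z) = n * (z * m * z) := by group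
        _ = n * m⁻¹ := by rw [h2]
    have h5 : m * n⁻¹ = n * m⁻¹ := by rw [← h1, ← h4, hc]
    calc (m * n⁻¹) * (m * n⁻¹) = (m * n⁻¹) * (n * m⁻¹) := by rw [← h5]
      _ = 1 := by group
  have h6 := h.sq_eq_one (M.mul_mem hm (M.inv_mem hn)) h3
  rw [mul_inv_eq_one.mp h6]

/-- Cosets of `M` outside `N(M)` contain at most one involution. -/
theorem coset_unique {y m : G} (hy : y * y = 1) (hyN : y ∉ Nm M) (hm : m ∈ M)
    (hym : (y * m) * (y * m) = 1) : m = 1 := by
  by_contra hm1
  apply hyN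
  have hyi : y⁻¹ = y := inv_eq_of_mul_eq_one_left hy
  apply h.ti y m hm hm1
  rw [hyi]
  have h1 : y * m * y = m⁻¹ := by
    have : y * m * y * m = 1 := by
      rw [← hym]; group
    exact eq_inv_of_mul_eq_one_left this
  rw [h1]
  exact M.inv_mem hm

end Hyp

end Cfsg.Agent.Lib.TIInv
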