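import Mathlib
import Cfsg.Agent.Lib.TIInvA

/-!
# TI-subgroups normalized by an involution: the counting step and its consequences
-/

set_option autoImplicit false

namespace Cfsg.Agent.Lib.TIInv

variable {G : Type*} [Group G] [Finite G] {M : Subgroup G} {z : G}

/-- The counting step: if there are more involutions than cosets, then every coset of `M` outside
`N(M)` contains an involution. -/
theorem Hyp.dense_of_card (h : Hyp M z) (hcard : M.index < Nat.card {g : G // orderOf g = 2})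
    {g₀ : G} (hg₀ : g₀ ∉ Nm M) : ∃ m ∈ M, (g₀ * m) * (g₀ * m) = 1 := by
  classical
  by_contra hno
  push Not at hno
  let J := {y : G // y * y = 1 ∧ y ∉ Nm M}
  -- involutions inject into `M ⊕ J`
  have hinj1 : Function.Injective (fun y : {g : G // orderOf g = 2} =>
      if hy : y.1 ∈ Nm M then
        (Sum.inl ⟨y.1 * z, by
          have hy2 : y.1 * y.1 = 1 := by
            have := pow_orderOf_eq_one y.1
            rw [y.2, pow_two] at this
            exact this
          have hy1 : y.1 ≠ 1 := by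
            intro h1
            have := y.2
            rw [h1, orderOf_one] at this
            omega
          obtain ⟨m, hm, hm2⟩ := h.inv_in_coset hy2 hy1 hy
          rw [hm2, mul_assoc, h.hz, mul_one]
          exact hm⟩ : ↥M ⊕ J)
      else
        Sum.inr ⟨y.1, by
          have := pow_orderOf_eq_one y.1
          rw [y.2, pow_two] at this
          exact this, hy⟩) := by
    intro a b hab
    simp only at hab
    by_cases ha : a.1 ∈ Nm M <;> by_cases hb : b.1 ∈ Nm M
    · rw [dif_pos ha, dif_pos hb] at hab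
      have h1 := Sum.inl.inj hab
      have h2 : a.1 * z = b.1 * z := congrArg Subtype.val h1
      exact Subtype.ext (mul_right_cancel h2)
    · rw [dif_pos ha, dif_neg hb] at hab
      cases hab
    · rw [dif_neg ha, dif_pos hb] at hab
      cases hab
    · rw [dif_neg ha, dif_neg hb] at hab
      have h1 := Sum.inr.inj hab
      exact Subtype.ext (congrArg (fun x : J => x.1) h1)
  -- `J ⊕ M` injects into the cosets
  have hinj2 : Function.Injective (fun x : ↥M ⊕ J =>
      match x with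
      | Sum.inl m => ((m.1 * g₀ : G) : G ⧸ M)
      | Sum.inr y => ((y.1 : G) : G ⧸ M)) := by
    rintro (a | a) (b | b) hab
    · simp only at hab
      rw [QuotientGroup.eq] at hab
      have h1 : (a.1 * g₀)⁻¹ * (b.1 * g₀) = g₀⁻¹ * (a.1⁻¹ * b.1) * g₀ := by group
      rw [h1] at hab
      by_cases hx : a.1⁻¹ * b.1 = 1
      · have : a = b := Subtype.ext (inv_mul_eq_one.mp hx)
        rw [this]
      · exact absurd (h.ti g₀ _ (M.mul_mem (M.inv_mem a.2) b.2) hx hab) hg₀
    · exfalso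
      simp only at hab
      rw [QuotientGroup.eq] at hab
      -- `y⁻¹`... the conjugate `a⁻¹ y a` lies in `g₀ M`
      obtain ⟨y, hy, hyN⟩ := b
      set c : G := (a.1 * g₀)⁻¹ * y with hc
      have hy' : y = a.1 * g₀ * c := by rw [hc]; group
      have hcM : c ∈ M := hab
      apply hno (c * a.1) (M.mul_mem hcM a.2)
      have h2 : g₀ * (c * a.1) = a.1⁻¹ * y * a.1 := by rw [hy']; group
      rw [h2]
      calc a.1⁻¹ * y * a.1 * (a.1⁻¹ * y * a.1) = a.1⁻¹ * (y * y) * a.1 := by group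
        _ = 1 := by rw [hy]; group
    · exfalso
      simp only at hab
      rw [QuotientGroup.eq] at hab
      obtain ⟨y, hy, hyN⟩ := a
      set c : G := y⁻¹ * (b.1 * g₀) with hc
      have hcM : c ∈ M := hab
      have hy' : g₀ = b.1⁻¹ * y * c := by rw [hc]; group
      apply hno (c⁻¹ * b.1) (M.mul_mem (M.inv_mem hcM) b.2)
      have h2 : g₀ * (c⁻¹ * b.1) = b.1⁻¹ * y * b.1 := by rw [hy']; group
      rw [h2]
      calc b.1⁻¹ * y * b.1 * (b.1⁻¹ * y * b.1) = b.1⁻¹ * (y * y) * b.1 := by group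
        _ = 1 := by rw [hy]; group
    · simp only at hab
      rw [QuotientGroup.eq] at hab
      obtain ⟨y, hy, hyN⟩ := a
      obtain ⟨y', hy', hyN'⟩ := b
      simp only at hab
      have h1 : y' = y * (y⁻¹ * y') := by group
      have h2 := h.coset_unique hy hyN hab (by rw [← h1]; exact hy')
      have h3 : y = y' := inv_mul_eq_one.mp h2 |> fun h4 => h4
      subst h3
      rfl
  have h1 := Nat.card_le_card_of_injective _ hinj1
  have h2 := Nat.card_le_card_of_injective _ hinj2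
  rw [Nat.card_sum] at h1 h2
  have h3 : Nat.card (G ⧸ M) = M.index := rfl
  rw [h3] at h2
  omega

/-- The hypothesis that every coset of `M` outside the normalizer contains an involution. -/
structure Dn (M : Subgroup G) (z : G) : Prop extends Hyp M z where
  dense : ∀ g : G, g ∉ Nm M → ∃ m ∈ M, (g * m) * (g * m) = 1

/-- The hypothesis is inherited by any involution of `N(M)`. -/
theorem Hyp.at (h : Hyp M z) {s : G} (hs : s * s = 1) (hs1 : s ≠ 1) (hsN : s ∈ Nm M) : Hyp M s := by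
  obtain ⟨n, hn, rfl⟩ := h.inv_conj hs hs1 hsN
  refine ⟨h.ne_bot, h.ti, hs, hs1, hsN, ?_, h.odd⟩
  intro g hg
  obtain ⟨m, hm, c, hc, hcz, rfl⟩ := h.fac g hg
  have hnN : n ∈ Nm M := mem_Nm_of_le hn
  refine ⟨m * n⁻¹ * (n * c * n⁻¹ * n * (n * c * n⁻¹)⁻¹), ?_, n * c * n⁻¹,
    (Nm M).mul_mem ((Nm M).mul_mem hnN hc) ((Nm M).inv_mem hnN), ?_, ?_⟩
  · refine M.mul_mem (M.mul_mem hm (M.inv_mem hn)) ?_
    exact conj_mem ((Nm M).mul_mem ((Nm M).mul_mem hnN hc) ((Nm M).inv_mem hnN)) hn
  · have : n * c * n⁻¹ * (n * z * n⁻¹) = n * (c * z) * n⁻¹ := by group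
    rw [this, hcz]
    group
  · group

theorem Dn.at (h : Dn M z) {s : G} (hs : s * s = 1) (hs1 : s ≠ 1) (hsN : s ∈ Nm M) : Dn M s :=
  { h.toHyp.at hs hs1 hsN with dense := h.dense }

namespace Dn

variable (h : Dn M z)
include h

theorem ne_one_of_notMem {y : G} (hy : y ∉ Nm M) : y ≠ 1 := by
  rintro rfl
  exact hy (Subgroup.one_mem _)

/-- An involution outside `N(M)` commutes with an involution of `N(M)`. -/
theorem exists_comm_inv {y : G} (hy : y * y = 1) (hyN : y ∉ Nm M) :
    ∃ s, s * s = 1 ∧ s ≠ 1 ∧ s ∈ Nm M ∧ s * y = y * s := by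
  have hyz : y * z ∉ Nm M := by
    intro h1
    apply hyN
    have : y = (y * z) * z⁻¹ := by group
    rw [this]
    exact (Nm M).mul_mem h1 ((Nm M).inv_mem h.hzN)
  obtain ⟨m, hm, hm2⟩ := h.dense _ hyz
  have hzm : (z * m) * (z * m) = 1 := by
    have := h.z_inv hm
    calc (z * m) * (z * m) = (z * m * z) * m := by group
      _ = 1 := by rw [this]; simp
  have hzm1 : z * m ≠ 1 := by
    intro h1
    have h2 : z = m⁻¹ := eq_inv_of_mul_eq_one_left h1
    apply h.hz1
    apply h.sq_eq_one (m := z) (by rw [h2]; exact M.inv_mem hm) h.hz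
  refine ⟨z * m, hzm, hzm1, (Nm M).mul_mem h.hzN (mem_Nm_of_le hm), ?_⟩
  set s := z * m with hs
  have h3 : (y * s) * (y * s) = 1 := by
    rw [hs, ← mul_assoc y z m]; exact hm2
  have hsi : s⁻¹ = s := inv_eq_of_mul_eq_one_left hzm
  have hyi : y⁻¹ = y := inv_eq_of_mul_eq_one_left hy
  have h4 : y * s = (y * s)⁻¹ := eq_inv_of_mul_eq_one_left h3
  rw [mul_inv_rev, hsi, hyi] at h4
  exact h4.symm

/-- The involution of `N(M)` commuting with a given involution outside is unique. -/
theorem comm_inv_unique {y s s' : G} (hy : y * y = 1) (hyN : y ∉ Nm M) (hs : s * s = 1) (hs1 : s ≠ 1)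
    (hsN : s ∈ Nm M) (hsy : s * y = y * s) (hs' : s' * s' = 1) (hs1' : s' ≠ 1) (hsN' : s' ∈ Nm M)
    (hsy' : s' * y = y * s') : s = s' := by
  obtain ⟨m, hm, rfl⟩ := h.inv_in_coset hs hs1 hsN
  obtain ⟨m', hm', rfl⟩ := h.inv_in_coset hs' hs1' hsN'
  have hv : (y * (m * z)) * (y * (m * z)) = 1 := by
    calc (y * (m * z)) * (y * (m * z)) = y * ((m * z) * y) * (m * z) := by group
      _ = y * (y * (m * z)) * (m * z) := by rw [hsy]
      _ = (y * y) * ((m * z) * (m * z)) := by group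
      _ = 1 := by rw [hy, hs, one_mul]
  have hvN : y * (m * z) ∉ Nm M := by
    intro h1
    apply hyN
    have : y = (y * (m * z)) * (m * z)⁻¹ := by group
    rw [this]
    exact (Nm M).mul_mem h1 ((Nm M).inv_mem hsN)
  have hv' : (y * (m' * z)) * (y * (m' * z)) = 1 := by
    calc (y * (m' * z)) * (y * (m' * z)) = y * ((m' * z) * y) * (m' * z) := by group
      _ = y * (y * (m' * z)) * (m' * z) := by rw [hsy']
      _ = (y * y) * ((m' * z) * (m' * z)) := by group
      _ = 1 := by rw [hy, hs', one_mul]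
  have hx : z * (m⁻¹ * m') * z ∈ M := by
    rw [h.z_inv (M.mul_mem (M.inv_mem hm) hm')]
    exact M.inv_mem (M.mul_mem (M.inv_mem hm) hm')
  have h2 : y * (m * z) * (z * (m⁻¹ * m') * z) = y * (m' * z) := by
    have : y * (m * z) * (z * (m⁻¹ * m') * z) = y * m * (z * z) * (m⁻¹ * m') * z := by group
    rw [this, h.hz]
    group
  have h3 := h.coset_unique hv hvN hx (by rw [h2]; exact hv')
  have h4 : y * (m * z) = y * (m' * z) := by
    rw [← h2, h3, mul_one]
  exact mul_left_cancel h4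

/-- Elements outside `N(M)` commuting with `z` are involutions. -/
theorem sq_of_comm_z {w : G} (hw : w ∉ Nm M) (hc : w * z = z * w) : w * w = 1 := by
  obtain ⟨m, hm, hm2⟩ := h.dense w hw
  have hwm : w * m ∉ Nm M := by
    intro h1
    apply hw
    have : w = (w * m) * m⁻¹ := by group
    rw [this]
    exact (Nm M).mul_mem h1 ((Nm M).inv_mem (mem_Nm_of_le hm))
  have hzi := h.z_inv hm
  have h1 : z * (w * m) * z = w * m⁻¹ := by
    calc z * (w * m) * z = (z * w) * (z * z) * m * z := by rw [h.hz]; group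
      _ = (w * z) * (z * z) * m * z := by rw [hc]
      _ = w * (z * m * z) * (z * z) := by rw [h.hz]; group
      _ = w * m⁻¹ := by rw [hzi, h.hz]; group
  have h2 : (w * m⁻¹) * (w * m⁻¹) = 1 := by
    rw [← h1]
    calc z * (w * m) * z * (z * (w * m) * z) = z * (w * m) * (z * z) * (w * m) * z := by group
      _ = z * ((w * m) * (w * m)) * z := by rw [h.hz]; group
      _ = 1 := by rw [hm2]; simp [h.hz]
  have h3 : (w * m) * (m⁻¹ * m⁻¹) = w * m⁻¹ := by group
  have h4 := h.coset_unique hm2 hwm (M.mul_mem (M.inv_mem hm) (M.inv_mem hm)) (by rw [h3]; exact h2)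
  have h5 : m⁻¹ = 1 := h.sq_eq_one (M.inv_mem hm) h4
  have h6 : m = 1 := by simpa using h5
  subst h6
  simpa using hm2

/-- Elements outside `N(M)` commuting with `z` invert the centralizer of `z` in `N(M)`. -/
theorem inverts_cent {y c : G} (hy : y ∉ Nm M) (hyz : y * z = z * y) (hc : c ∈ Nm M)
    (hcz : c * z = z * c) : y * c * y = c⁻¹ := by
  have hy2 := h.sq_of_comm_z hy hyz
  have hcy : c * y ∉ Nm M := by
    intro h1
    apply hy
    have : y = c⁻¹ * (c * y) := by group
    rw [this]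
    exact (Nm M).mul_mem ((Nm M).inv_mem hc) h1
  have h1 : (c * y) * z = z * (c * y) := by
    rw [mul_assoc, hyz, ← mul_assoc, hcz, mul_assoc]
  have h2 := h.sq_of_comm_z hcy h1
  have h3 : y * c * y * c = 1 := by
    have : y * c * y * c = y * ((c * y) * (c * y)) * y⁻¹ := by
      have hyi : y⁻¹ = y := inv_eq_of_mul_eq_one_left hy2
      rw [hyi]
      calc y * c * y * c = y * c * y * c * (y * y) := by rw [hy2, mul_one]
        _ = _ := by group
    rw [this, h2]
    simp
  exact eq_inv_of_mul_eq_one_left h3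

/-- Two points: an involution of `N(M)` fixing a second point. -/
theorem exists_two_point {g : G} (hg : g ∉ Nm M) :
    ∃ s, s * s = 1 ∧ s ≠ 1 ∧ s ∈ Nm M ∧ g⁻¹ * s * g ∈ Nm M := by
  obtain ⟨m, hm, hm2⟩ := h.dense g hg
  have hgm : g * m ∉ Nm M := by
    intro h1
    apply hg
    have : g = (g * m) * m⁻¹ := by group
    rw [this]
    exact (Nm M).mul_mem h1 ((Nm M).inv_mem (mem_Nm_of_le hm))
  obtain ⟨s, hs, hs1, hsN, hsy⟩ := h.exists_comm_inv hm2 hgm
  refine ⟨s, hs, hs1, hsN, ?_⟩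
  have h1 : (g * m)⁻¹ * s * (g * m) = s := by
    have : s * (g * m) = (g * m) * s := hsy
    rw [mul_assoc, this]
    group
  have h2 : g⁻¹ * s * g = m * s * m⁻¹ := by
    have : g⁻¹ * s * g = m * ((g * m)⁻¹ * s * (g * m)) * m⁻¹ := by group
    rw [this, h1]
  rw [h2]
  exact (Nm M).mul_mem ((Nm M).mul_mem (mem_Nm_of_le hm) hsN) ((Nm M).inv_mem (mem_Nm_of_le hm))

/-- Two points: uniqueness of the involution fixing both. -/
theorem two_point_unique {g s s' : G} (hg : g ∉ Nm M) (hs : s * s = 1) (hs1 : s ≠ 1)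
    (hsN : s ∈ Nm M) (hsg : g⁻¹ * s * g ∈ Nm M) (hs' : s' * s' = 1) (hs1' : s' ≠ 1)
    (hsN' : s' ∈ Nm M) (hsg' : g⁻¹ * s' * g ∈ Nm M) : s = s' := by
  obtain ⟨m, hm, rfl⟩ := h.inv_in_coset hs hs1 hsN
  obtain ⟨m', hm', rfl⟩ := h.inv_in_coset hs' hs1' hsN'
  have conj_inv : ∀ a : G, a * a = 1 → a ≠ 1 → (g⁻¹ * a * g) * (g⁻¹ * a * g) = 1 ∧ g⁻¹ * a * g ≠ 1 := by
    intro a ha ha1
    constructor
    · calc (g⁻¹ * a * g) * (g⁻¹ * a * g) = g⁻¹ * (a * a) * g := by group
        _ = 1 := by rw [ha]; group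
    · intro h1
      apply ha1
      have : a = g * (g⁻¹ * a * g) * g⁻¹ := by group
      rw [this, h1]
      group
  obtain ⟨h1, h2⟩ := conj_inv _ hs hs1
  obtain ⟨h1', h2'⟩ := conj_inv _ hs' hs1'
  obtain ⟨n, hn, hn2⟩ := h.inv_in_coset h1 h2 hsg
  obtain ⟨n', hn', hn2'⟩ := h.inv_in_coset h1' h2' hsg'
  -- the product of the two involutions lies in `M` and conjugates into `M`
  have hp : (m * z) * (m' * z) = m * m'⁻¹ := by
    have := h.z_inv hm'
    calc (m * z) * (m' * z) = m * (z * m' * z) := by group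
      _ = _ := by rw [this]
  have hq : (g⁻¹ * (m * z) * g) * (g⁻¹ * (m' * z) * g) = n * n'⁻¹ := by
    rw [hn2, hn2']
    have := h.z_inv hn'
    calc (n * z) * (n' * z) = n * (z * n' * z) := by group
      _ = _ := by rw [this]
  have hx : g⁻¹ * (m * m'⁻¹) * g = n * n'⁻¹ := by
    rw [← hq, ← hp]
    group
  by_cases h1x : m * m'⁻¹ = 1
  · rw [mul_inv_eq_one.mp h1x]
  · exact absurd (h.ti g _ (M.mul_mem hm (M.inv_mem hm')) h1x (by
      rw [hx]; exact M.mul_mem hn (M.inv_mem hn'))) hg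

/-- A nontrivial element of `M` fixes no second point. -/
theorem free {g x : G} (hg : g ∉ Nm M) (hx : x ∈ M) (hx1 : x ≠ 1) : g⁻¹ * x * g ∉ Nm M := by
  intro hgx
  obtain ⟨s, hs, hs1, hsN, hsg⟩ := h.exists_two_point hg
  have hxN := mem_Nm_of_le hx
  have h1 : (x * s * x⁻¹) * (x * s * x⁻¹) = 1 := by
    calc (x * s * x⁻¹) * (x * s * x⁻¹) = x * (s * s) * x⁻¹ := by group
      _ = 1 := by rw [hs]; group
  have h2 : x * s * x⁻¹ ≠ 1 := by
    intro h3
    apply hs1
    have : s = x⁻¹ * (x * s * x⁻¹) * x := by group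
    rw [this, h3]
    group
  have h3 : x * s * x⁻¹ ∈ Nm M := (Nm M).mul_mem ((Nm M).mul_mem hxN hsN) ((Nm M).inv_mem hxN)
  have h4 : g⁻¹ * (x * s * x⁻¹) * g ∈ Nm M := by
    have : g⁻¹ * (x * s * x⁻¹) * g = (g⁻¹ * x * g) * (g⁻¹ * s * g) * (g⁻¹ * x * g)⁻¹ := by group
    rw [this]
    exact (Nm M).mul_mem ((Nm M).mul_mem hgx hsg) ((Nm M).inv_mem hgx)
  have h5 := h.two_point_unique hg h1 h2 h3 h4 hs hs1 hsN hsg
  apply h.no_comm hs hs1 hx hx1
  have h6 : x * s = s * x := by
    calc x * s = x * s * x⁻¹ * x := by group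
      _ = s * x := by rw [h5]
  exact h6.symm

/-- An element of `N(M)` commuting with an involution outside `N(M)` squares to one. -/
theorem sq_of_comm_outside {c v : G} (hc : c ∈ Nm M) (hv : v * v = 1) (hvN : v ∉ Nm M)
    (hcv : c * v = v * c) : c * c = 1 := by
  obtain ⟨s, hs, hs1, hsN, hsv⟩ := h.exists_comm_inv hv hvN
  have h1 : (c * s * c⁻¹) * (c * s * c⁻¹) = 1 := by
    calc (c * s * c⁻¹) * (c * s * c⁻¹) = c * (s * s) * c⁻¹ := by group
      _ = 1 := by rw [hs]; group
  have h2 : c * s * c⁻¹ ≠ 1 := by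
    intro h3
    apply hs1
    have : s = c⁻¹ * (c * s * c⁻¹) * c := by group
    rw [this, h3]
    group
  have h3 : c * s * c⁻¹ ∈ Nm M := (Nm M).mul_mem ((Nm M).mul_mem hc hsN) ((Nm M).inv_mem hc)
  have h4 : (c * s * c⁻¹) * v = v * (c * s * c⁻¹) := by
    have h5 : c⁻¹ * v = v * c⁻¹ := by
      calc c⁻¹ * v = c⁻¹ * (v * c) * c⁻¹ := by group
        _ = c⁻¹ * (c * v) * c⁻¹ := by rw [hcv]
        _ = v * c⁻¹ := by group
    calc (c * s * c⁻¹) * v = c * s * (c⁻¹ * v) := by group
      _ = c * s * (v * c⁻¹) := by rw [h5]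
      _ = c * (s * v) * c⁻¹ := by group
      _ = c * (v * s) * c⁻¹ := by rw [hsv]
      _ = (c * v) * s * c⁻¹ := by group
      _ = (v * c) * s * c⁻¹ := by rw [hcv]
      _ = _ := by group
  have h5 := h.comm_inv_unique hv hvN h1 h2 h3 h4 hs hs1 hsN hsv
  have h6 : c * s = s * c := by
    calc c * s = c * s * c⁻¹ * c := by group
      _ = s * c := by rw [h5]
  have h7 := (h.at hs hs1 hsN).inverts_cent hvN (by rw [hsv]) hc h6
  have h8 : v * c * v = c := by
    calc v * c * v = c * v * v := by rw [hcv]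
      _ = c * (v * v) := by group
      _ = c := by rw [hv, mul_one]
  rw [h8] at h7
  rw [eq_inv_iff_mul_eq_one] at h7
  exact h7

/-- The centralizer of `z` in `N(M)` acts fixed point freely on `M`. -/
theorem fpf {y c m : G} (hy : y ∉ Nm M) (hyz : y * z = z * y) (hc : c ∈ Nm M) (hcz : c * z = z * c)
    (hm : m ∈ M) (hm1 : m ≠ 1) (hcm : c * m = m * c) : c = 1 := by
  have hy2 := h.sq_of_comm_z hy hyz
  have hyi : y⁻¹ = y := inv_eq_of_mul_eq_one_left hy2
  have hinv := h.inverts_cent hy hyz hc hcz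
  -- `t = y m y`
  set t := y * m * y with ht
  have htN : t ∉ Nm M := by
    have := h.free hy hm hm1
    rw [hyi] at this
    exact this
  obtain ⟨n, hn, hn2⟩ := h.dense t htN
  have htn : t * n ∉ Nm M := by
    intro h1
    apply htN
    have : t = (t * n) * n⁻¹ := by group
    rw [this]
    exact (Nm M).mul_mem h1 ((Nm M).inv_mem (mem_Nm_of_le hn))
  -- `c` commutes with `t`
  have hcy : c * y = y * c⁻¹ := by
    have h1 : y * c = c⁻¹ * y := by
      calc y * c = y * c * y * y := by rw [mul_assoc (y * c), hy2, mul_one]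
        _ = c⁻¹ * y := by rw [hinv]
    have h2 : c * (y * c) * c⁻¹ = c * (c⁻¹ * y) * c⁻¹ := by rw [h1]
    have h3 : c * (y * c) * c⁻¹ = c * y := by group
    have h4 : c * (c⁻¹ * y) * c⁻¹ = y * c⁻¹ := by group
    rw [h3, h4] at h2
    exact h2
  have hct : c * t * c⁻¹ = t := by
    have h1 : c⁻¹ * y = y * c := by
      have h2 : y * c = c⁻¹ * y := by
        calc y * c = y * c * y * y := by rw [mul_assoc (y * c), hy2, mul_one]
          _ = c⁻¹ * y := by rw [hinv]
      exact h2.symm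
    have hmc : c⁻¹ * m = m * c⁻¹ := by
      calc c⁻¹ * m = c⁻¹ * (m * c) * c⁻¹ := by group
        _ = c⁻¹ * (c * m) * c⁻¹ := by rw [hcm]
        _ = m * c⁻¹ := by group
    calc c * t * c⁻¹ = (c * y) * m * (y * c⁻¹) := by rw [ht]; group
      _ = (y * c⁻¹) * m * (c * y) := by rw [hcy]
      _ = y * (c⁻¹ * m) * c * y := by group
      _ = y * (m * c⁻¹) * c * y := by rw [hmc]
      _ = t := by rw [ht]; group
  -- `c` commutes with the involution of `t M`
  have hcn : c * n * c⁻¹ ∈ M := conj_mem hc hn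
  have hv : c * (t * n) * c⁻¹ = t * (c * n * c⁻¹) := by
    calc c * (t * n) * c⁻¹ = (c * t * c⁻¹) * (c * n * c⁻¹) := by group
      _ = _ := by rw [hct]
  have h1 : (t * (c * n * c⁻¹)) * (t * (c * n * c⁻¹)) = 1 := by
    rw [← hv]
    calc c * (t * n) * c⁻¹ * (c * (t * n) * c⁻¹) = c * ((t * n) * (t * n)) * c⁻¹ := by group
      _ = 1 := by rw [hn2]; group
  have h2 : (t * n) * (n⁻¹ * (c * n * c⁻¹)) = t * (c * n * c⁻¹) := by group
  have h3 := h.coset_unique hn2 htn (M.mul_mem (M.inv_mem hn) hcn) (by rw [h2]; exact h1)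
  have h4 : c * n * c⁻¹ = n := (inv_mul_eq_one.mp h3).symm
  have h5 : c * (t * n) = (t * n) * c := by
    have h6 : c * (t * n) * c⁻¹ = t * n := by rw [hv, h4]
    calc c * (t * n) = c * (t * n) * c⁻¹ * c := by group
      _ = (t * n) * c := by rw [h6]
  have hc2 := h.sq_of_comm_outside hc hn2 htn h5
  by_contra hc1
  have hcz' : c = z := h.inv_eq_of_comm hc2 hc1 hc h.hz h.hz1 h.hzN hcz
  apply h.no_comm h.hz h.hz1 hm hm1
  rw [← hcz']
  exact hcm

end Dn

end Cfsg.Agent.Lib.TIInv
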