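import Mathlib
import Cfsg.Agent.Lib.TIInvB

/-!
# TI-subgroups normalized by an involution: points, and the two-point stabilizer dichotomy
-/

set_option autoImplicit false

namespace Cfsg.Agent.Lib.TIInv

variable {G : Type*} [Group G] [Finite G] {M : Subgroup G} {z : G}

/-- Action on cosets: when a point is fixed. -/
theorem fix_iff {u g : G} : u • ((g : G) : G ⧸ Nm M) = (g : G ⧸ Nm M) ↔ g⁻¹ * u * g ∈ Nm M := by
  have h1 : u • ((g : G) : G ⧸ Nm M) = ((u * g : G) : G ⧸ Nm M) := rfl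
  rw [h1, QuotientGroup.eq]
  constructor
  · intro h2
    have := (Nm M).inv_mem h2
    simpa [mul_assoc] using this
  · intro h2
    have := (Nm M).inv_mem h2
    simpa [mul_assoc] using this

theorem mk_eq_one_iff {g : G} : ((g : G) : G ⧸ Nm M) = ((1 : G) : G ⧸ Nm M) ↔ g ∈ Nm M := by
  rw [eq_comm, QuotientGroup.eq]
  simp

theorem smul_mk (u g : G) : u • ((g : G) : G ⧸ Nm M) = ((u * g : G) : G ⧸ Nm M) := rfl

theorem mk_eq_iff {g k : G} : ((g : G) : G ⧸ Nm M) = ((k : G) : G ⧸ Nm M) ↔ g⁻¹ * k ∈ Nm M :=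
  QuotientGroup.eq

namespace Dn

variable (h : Dn M z)
include h

/-- There are elements outside `N(M)` commuting with `z`. -/
theorem exists_out (hne : ¬ M.Normal) : ∃ y, y ∉ Nm M ∧ y * z = z * y := by
  have h1 : ∃ g, g ∉ Nm M := by
    by_contra hno
    push Not at hno
    apply hne
    refine ⟨fun a ha g => ?_⟩
    exact conj_mem (hno g) ha
  obtain ⟨g, hg⟩ := h1
  obtain ⟨m, hm, hm2⟩ := h.dense g hg
  have hgm : g * m ∉ Nm M := by
    intro h1
    apply hg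
    have : g = (g * m) * m⁻¹ := by group
    rw [this]
    exact (Nm M).mul_mem h1 ((Nm M).inv_mem (mem_Nm_of_le hm))
  obtain ⟨s, hs, hs1, hsN, hsy⟩ := h.exists_comm_inv hm2 hgm
  obtain ⟨n, hn, rfl⟩ := h.inv_conj hs hs1 hsN
  refine ⟨n⁻¹ * (g * m) * n, ?_, ?_⟩
  · intro h1
    apply hgm
    have : g * m = n * (n⁻¹ * (g * m) * n) * n⁻¹ := by group
    rw [this]
    have hnN := mem_Nm_of_le hn
    exact (Nm M).mul_mem ((Nm M).mul_mem hnN h1) ((Nm M).inv_mem hnN)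
  · set v := g * m
    have h2 : z * (n⁻¹ * v * n) = n⁻¹ * ((n * z * n⁻¹) * v) * n := by group
    rw [h2, hsy]
    group

/-- Dichotomy for the centralizer of `z`. -/
theorem dichotomy {y : G} (hy : y ∉ Nm M) (hyz : y * z = z * y) :
    (∀ a, a ∉ Nm M → a * z = z * a → y * a ∈ Nm M) ∨
    ((∀ c ∈ Nm M, c * z = z * c → c = 1 ∨ c = z) ∧ ∀ w, w * z = z * w → w * w = 1) := by
  by_cases hA : ∀ a, a ∉ Nm M → a * z = z * a → y * a ∈ Nm M
  · exact Or.inl hA
  right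
  push Not at hA
  obtain ⟨y', hy', hy'z, hyy'⟩ := hA
  have hcomm : ∀ a b : G, a ∉ Nm M → a * z = z * a → b ∉ Nm M → b * z = z * b → a * b ∉ Nm M →
      a * b = b * a := by
    intro a b ha haz hb hbz hab
    have h1 := h.sq_of_comm_z ha haz
    have h2 := h.sq_of_comm_z hb hbz
    have h3 : (a * b) * z = z * (a * b) := by
      rw [mul_assoc, hbz, ← mul_assoc, haz, mul_assoc]
    have h4 := h.sq_of_comm_z hab h3
    have hai : a⁻¹ = a := inv_eq_of_mul_eq_one_left h1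
    have hbi : b⁻¹ = b := inv_eq_of_mul_eq_one_left h2
    have h5 : a * b = (a * b)⁻¹ := eq_inv_of_mul_eq_one_left h4
    rw [mul_inv_rev, hai, hbi] at h5
    exact h5
  have hsq : ∀ c ∈ Nm M, c * z = z * c → c * c = 1 := by
    intro c hc hcz
    have hcy : c * y ∉ Nm M := by
      intro h1
      apply hy
      have : y = c⁻¹ * (c * y) := by group
      rw [this]
      exact (Nm M).mul_mem ((Nm M).inv_mem hc) h1
    have hcyz : (c * y) * z = z * (c * y) := by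
      rw [mul_assoc, hyz, ← mul_assoc, hcz, mul_assoc]
    have hcyy : (c * y) * y' ∉ Nm M := by
      intro h1
      apply hyy'
      have : y * y' = c⁻¹ * (c * y * y') := by group
      rw [this]
      exact (Nm M).mul_mem ((Nm M).inv_mem hc) h1
    have h1 := hcomm _ _ hcy hcyz hy' hy'z hcyy
    have h2 := hcomm _ _ hy hyz hy' hy'z hyy'
    have h3 := h.inverts_cent hy' hy'z hc hcz
    have hy'2 := h.sq_of_comm_z hy' hy'z
    have h4 : y' * c = c⁻¹ * y' := by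
      calc y' * c = y' * c * y' * y' := by rw [mul_assoc (y' * c), hy'2, mul_one]
        _ = c⁻¹ * y' := by rw [h3]
    have h5 : c * (y * y') = c⁻¹ * (y * y') := by
      calc c * (y * y') = c * y * y' := by group
        _ = y' * (c * y) := h1
        _ = (y' * c) * y := by group
        _ = c⁻¹ * y' * y := by rw [h4]
        _ = c⁻¹ * (y' * y) := by group
        _ = c⁻¹ * (y * y') := by rw [h2]
    have h6 : c = c⁻¹ := mul_right_cancel h5
    exact (eq_inv_iff_mul_eq_one.mp h6)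
  refine ⟨fun c hc hcz => ?_, fun w hw => ?_⟩
  · by_cases hc1 : c = 1
    · exact Or.inl hc1
    · exact Or.inr (h.inv_eq_of_comm (hsq c hc hcz) hc1 hc h.hz h.hz1 h.hzN hcz)
  · by_cases hwN : w ∈ Nm M
    · exact hsq w hwN hw
    · exact h.sq_of_comm_z hwN hw

/-- Two distinct points are fixed by at most one involution. -/
theorem line_unique {g₁ g₂ u u' : G} (hne : ((g₁ : G) : G ⧸ Nm M) ≠ ((g₂ : G) : G ⧸ Nm M))
    (hu : u * u = 1) (hu1 : u ≠ 1) (hu1f : g₁⁻¹ * u * g₁ ∈ Nm M) (hu2f : g₂⁻¹ * u * g₂ ∈ Nm M)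
    (hu' : u' * u' = 1) (hu1' : u' ≠ 1) (hu1f' : g₁⁻¹ * u' * g₁ ∈ Nm M)
    (hu2f' : g₂⁻¹ * u' * g₂ ∈ Nm M) : u = u' := by
  have hg : g₁⁻¹ * g₂ ∉ Nm M := fun h1 => hne (mk_eq_iff.mpr h1)
  have conj1 : ∀ a : G, a * a = 1 → (g₁⁻¹ * a * g₁) * (g₁⁻¹ * a * g₁) = 1 := by
    intro a ha
    calc (g₁⁻¹ * a * g₁) * (g₁⁻¹ * a * g₁) = g₁⁻¹ * (a * a) * g₁ := by group
      _ = 1 := by rw [ha]; group
  have conj2 : ∀ a : G, a ≠ 1 → g₁⁻¹ * a * g₁ ≠ 1 := by
    intro a ha h1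
    apply ha
    have : a = g₁ * (g₁⁻¹ * a * g₁) * g₁⁻¹ := by group
    rw [this, h1]
    group
  have conj3 : ∀ a : G, (g₁⁻¹ * g₂)⁻¹ * (g₁⁻¹ * a * g₁) * (g₁⁻¹ * g₂) = g₂⁻¹ * a * g₂ := by
    intro a
    group
  have := h.two_point_unique hg (conj1 u hu) (conj2 u hu1) hu1f (by rw [conj3]; exact hu2f)
    (conj1 u' hu') (conj2 u' hu1') hu1f' (by rw [conj3]; exact hu2f')
  have h5 : u = g₁ * (g₁⁻¹ * u * g₁) * g₁⁻¹ := by group
  rw [h5, this]
  group

end Dn

end Cfsg.Agent.Lib.TIInv
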