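import Mathlib
import Cfsg.Agent.Lib.TIInvC

/-!
# TI-subgroups normalized by an involution: two fixed points of `z` (action facts)
-/

set_option autoImplicit false

namespace Cfsg.Agent.Lib.TIInv

variable {G : Type*} [Group G] [Finite G] {M : Subgroup G} {z y : G}

/-- The case in which `z` fixes exactly two points. -/
structure AA (M : Subgroup G) (z y : G) : Prop extends Dn M z where
  hy : y ∉ Nm M
  hyz : y * z = z * y
  hA : ∀ a, a ∉ Nm M → a * z = z * a → y * a ∈ Nm M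

/-- Points. -/
abbrev Pt (M : Subgroup G) : Type _ := G ⧸ Nm M

/-- The coset of `g`. -/
abbrev pt (M : Subgroup G) (g : G) : Pt M := (g : G ⧸ Nm M)

theorem pt_mul_mem {g k : G} (hk : k ∈ Nm M) : pt M (g * k) = pt M g := by
  rw [pt, pt, mk_eq_iff]
  have : (g * k)⁻¹ * g = k⁻¹ := by group
  rw [this]
  exact (Nm M).inv_mem hk

namespace AA

variable (h : AA M z y)
include h

theorem y_sq : y * y = 1 := h.toDn.sq_of_comm_z h.hy h.hyz

theorem y_inv : y⁻¹ = y := inv_eq_of_mul_eq_one_left h.y_sq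

theorem pt_ne : pt M y ≠ pt M 1 := fun h1 => h.hy (mk_eq_one_iff.mp h1)

theorem z_fix_y : z • pt M y = pt M y := by
  rw [pt, fix_iff]
  have : y⁻¹ * z * y = z := by
    have h1 := h.hyz
    calc y⁻¹ * z * y = y⁻¹ * (z * y) := by group
      _ = y⁻¹ * (y * z) := by rw [h1]
      _ = z := by group
  rw [this]
  exact h.hzN

theorem z_fix_one : z • pt M 1 = pt M 1 := by
  rw [pt, fix_iff]
  simpa using h.hzN

theorem fix_z {g : G} (hg : z • pt M g = pt M g) : pt M g = pt M 1 ∨ pt M g = pt M y := by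
  by_cases hgN : g ∈ Nm M
  · exact Or.inl (mk_eq_one_iff.mpr hgN)
  right
  rw [pt, fix_iff] at hg
  have h1 : (g⁻¹ * z * g) * (g⁻¹ * z * g) = 1 := by
    calc (g⁻¹ * z * g) * (g⁻¹ * z * g) = g⁻¹ * (z * z) * g := by group
      _ = 1 := by rw [h.hz]; group
  have h2 : g⁻¹ * z * g ≠ 1 := by
    intro h3
    apply h.hz1
    have : z = g * (g⁻¹ * z * g) * g⁻¹ := by group
    rw [this, h3]
    group
  obtain ⟨k, hk, hk2⟩ := h.inv_conj h1 h2 hg
  have hkN := mem_Nm_of_le hk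
  have ha : g * k ∉ Nm M := by
    intro h3
    apply hgN
    have : g = (g * k) * k⁻¹ := by group
    rw [this]
    exact (Nm M).mul_mem h3 ((Nm M).inv_mem hkN)
  have hcz : (g * k) * z = z * (g * k) := by
    have h3 : z * g = g * (k * z * k⁻¹) := by
      rw [← hk2]; group
    calc (g * k) * z = g * (k * z * k⁻¹) * k := by group
      _ = z * g * k := by rw [h3]
      _ = z * (g * k) := by group
  have h4 := h.hA _ ha hcz
  have h5 : pt M (g * k) = pt M g := pt_mul_mem hkN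
  rw [← h5]
  rw [pt, pt, mk_eq_iff]
  have h6 : (g * k)⁻¹ * y = (y * (g * k))⁻¹ := by
    rw [mul_inv_rev (y), h.y_inv]
  rw [h6]
  exact (Nm M).inv_mem h4

/-- `M` is transitive on the remaining points. -/
theorem exists_reg {ω : Pt M} (hω : ω ≠ pt M 1) : ∃ n ∈ M, n • pt M y = ω := by
  obtain ⟨g, rfl⟩ := QuotientGroup.mk_surjective ω
  have hg : g ∉ Nm M := fun h1 => hω (mk_eq_one_iff.mpr h1)
  obtain ⟨s, hs, hs1, hsN, hsg⟩ := h.toDn.exists_two_point hg
  obtain ⟨n, hn, rfl⟩ := h.inv_conj hs hs1 hsN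
  have hnN := mem_Nm_of_le hn
  have h1 : z • pt M (n⁻¹ * g) = pt M (n⁻¹ * g) := by
    rw [pt, fix_iff]
    have : (n⁻¹ * g)⁻¹ * z * (n⁻¹ * g) = g⁻¹ * (n * z * n⁻¹) * g := by group
    rw [this]
    exact hsg
  rcases h.fix_z h1 with h2 | h2
  · exfalso
    have h3 : n⁻¹ * g ∈ Nm M := mk_eq_one_iff.mp h2
    apply hg
    have : g = n * (n⁻¹ * g) := by group
    rw [this]
    exact (Nm M).mul_mem hnN h3
  · refine ⟨n, hn, ?_⟩
    have h3 : n • pt M (n⁻¹ * g) = n • pt M y := by rw [h2]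
    rw [← h3, pt, smul_mk]
    congr 1
    group

/-- `M` acts freely on the remaining points. -/
theorem reg_unique {n n' : G} (hn : n ∈ M) (hn' : n' ∈ M) (he : n • pt M y = n' • pt M y) :
    n = n' := by
  rw [pt, smul_mk, smul_mk, mk_eq_iff] at he
  have h1 : (n * y)⁻¹ * (n' * y) = y⁻¹ * (n⁻¹ * n') * y := by group
  rw [h1] at he
  by_contra hne
  have h2 : n⁻¹ * n' ≠ 1 := fun h3 => hne (inv_mul_eq_one.mp h3)
  exact h.toDn.free h.hy (M.mul_mem (M.inv_mem hn) hn') h2 he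

theorem smul_y_ne {n : G} (hn : n ∈ M) : n • pt M y ≠ pt M 1 := by
  intro h1
  rw [pt, smul_mk] at h1
  have h2 : n * y ∈ Nm M := mk_eq_one_iff.mp h1
  apply h.hy
  have : y = n⁻¹ * (n * y) := by group
  rw [this]
  exact (Nm M).mul_mem ((Nm M).inv_mem (mem_Nm_of_le hn)) h2

theorem mem_smul_one {n : G} (hn : n ∈ Nm M) : n • pt M 1 = pt M 1 := by
  rw [pt, smul_mk, mul_one]
  exact mk_eq_one_iff.mpr hn

/-- A two-point stabilizer element lies in the centralizer of `z`. -/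
theorem two_stab {c : G} (hc1 : c • pt M 1 = pt M 1) (hcy : c • pt M y = pt M y) :
    c ∈ Nm M ∧ c * z = z * c := by
  have hcN : c ∈ Nm M := by
    rw [pt, fix_iff] at hc1
    simpa using hc1
  refine ⟨hcN, ?_⟩
  rw [pt, fix_iff] at hcy
  have hzy : y⁻¹ * z * y ∈ Nm M := by
    have := h.z_fix_y
    rw [pt, fix_iff] at this
    exact this
  have h1 : (c * z * c⁻¹) * (c * z * c⁻¹) = 1 := by
    calc (c * z * c⁻¹) * (c * z * c⁻¹) = c * (z * z) * c⁻¹ := by group
      _ = 1 := by rw [h.hz]; group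
  have h2 : c * z * c⁻¹ ≠ 1 := by
    intro h3
    apply h.hz1
    have : z = c⁻¹ * (c * z * c⁻¹) * c := by group
    rw [this, h3]
    group
  have h3 : c * z * c⁻¹ ∈ Nm M := (Nm M).mul_mem ((Nm M).mul_mem hcN h.hzN) ((Nm M).inv_mem hcN)
  have h4 : y⁻¹ * (c * z * c⁻¹) * y ∈ Nm M := by
    have : y⁻¹ * (c * z * c⁻¹) * y = (y⁻¹ * c * y) * (y⁻¹ * z * y) * (y⁻¹ * c * y)⁻¹ := by group
    rw [this]
    exact (Nm M).mul_mem ((Nm M).mul_mem hcy hzy) ((Nm M).inv_mem hcy)
  have h5 := h.toDn.two_point_unique h.hy h1 h2 h3 h4 h.hz h.hz1 h.hzN hzy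
  calc c * z = c * z * c⁻¹ * c := by group
    _ = z * c := by rw [h5]

theorem cent_fix_y {c : G} (hc : c ∈ Nm M) (hcz : c * z = z * c) : c • pt M y = pt M y := by
  rw [pt, fix_iff, h.y_inv]
  rw [h.toDn.inverts_cent h.hy h.hyz hc hcz]
  exact (Nm M).inv_mem hc

/-- Fixing a third point is impossible. -/
theorem three_fix {c n : G} (hc : c ∈ Nm M) (hcz : c * z = z * c) (hn : n ∈ M) (hn1 : n ≠ 1)
    (hfix : c • (n • pt M y) = n • pt M y) : c = 1 := by
  have h1 : c • (n • pt M y) = (c * n * c⁻¹) • pt M y := by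
    have h2 := h.cent_fix_y hc hcz
    calc c • (n • pt M y) = (c * n) • pt M y := by rw [mul_smul]
      _ = (c * n * c⁻¹) • (c • pt M y) := by rw [← mul_smul]; congr 1; group
      _ = _ := by rw [h2]
  rw [h1] at hfix
  have h3 := h.reg_unique (conj_mem hc hn) hn hfix
  have h4 : c * n = n * c := by
    calc c * n = c * n * c⁻¹ * c := by group
      _ = n * c := by rw [h3]
  exact h.toDn.fpf h.hy h.hyz hc hcz hn hn1 h4

/-- Any two distinct points can be moved to the base pair. -/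
theorem to_base {a b : Pt M} (hab : a ≠ b) : ∃ t : G, t • a = pt M 1 ∧ t • b = pt M y := by
  obtain ⟨g, rfl⟩ := QuotientGroup.mk_surjective a
  have h1 : g⁻¹ • ((g : G) : Pt M) = pt M 1 := by
    rw [smul_mk, inv_mul_cancel]
  have h2 : g⁻¹ • b ≠ pt M 1 := by
    intro h3
    apply hab
    rw [← h1] at h3
    exact (MulAction.injective g⁻¹ h3).symm
  obtain ⟨n, hn, hn2⟩ := h.exists_reg h2
  refine ⟨n⁻¹ * g⁻¹, ?_, ?_⟩
  · rw [mul_smul, h1]
    exact h.mem_smul_one ((Nm M).inv_mem (mem_Nm_of_le hn))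
  · rw [mul_smul, ← hn2, inv_smul_smul]

theorem two_trans {a b c d : Pt M} (hab : a ≠ b) (hcd : c ≠ d) : ∃ g : G, g • a = c ∧ g • b = d := by
  obtain ⟨t, ht1, ht2⟩ := h.to_base hab
  obtain ⟨s, hs1, hs2⟩ := h.to_base hcd
  refine ⟨s⁻¹ * t, ?_, ?_⟩
  · rw [mul_smul, ht1, ← hs1, inv_smul_smul]
  · rw [mul_smul, ht2, ← hs2, inv_smul_smul]

/-- Only the identity fixes three points. -/
theorem three_eq_one {g : G} {a b c : Pt M} (hab : a ≠ b) (hbc : b ≠ c) (hac : a ≠ c)
    (ha : g • a = a) (hb : g • b = b) (hc : g • c = c) : g = 1 := by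
  obtain ⟨t, ht1, ht2⟩ := h.to_base hab
  have hk : t * g * t⁻¹ = (t * g * t⁻¹) := rfl
  have h1 : (t * g * t⁻¹) • pt M 1 = pt M 1 := by
    rw [← ht1, mul_smul, mul_smul, inv_smul_smul, ha]
  have h2 : (t * g * t⁻¹) • pt M y = pt M y := by
    rw [← ht2, mul_smul, mul_smul, inv_smul_smul, hb]
  obtain ⟨h3, h4⟩ := h.two_stab h1 h2
  have h5 : t • c ≠ pt M 1 := by
    intro h6
    apply hac
    rw [← ht1] at h6
    exact (MulAction.injective t h6).symm
  obtain ⟨n, hn, hn2⟩ := h.exists_reg h5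
  have hn1 : n ≠ 1 := by
    rintro rfl
    rw [one_smul] at hn2
    apply hbc
    rw [← ht2] at hn2
    exact MulAction.injective t hn2
  have h6 : (t * g * t⁻¹) • (n • pt M y) = n • pt M y := by
    rw [hn2, mul_smul, mul_smul, inv_smul_smul, hc]
  have h7 := h.three_fix h3 h4 hn hn1 h6
  have h8 : g = t⁻¹ * (t * g * t⁻¹) * t := by group
  rw [h8, h7]
  group

theorem exists_ne_one : ∃ n ∈ M, n ≠ 1 := by
  by_contra hno
  push Not at hno
  exact h.ne_bot ((Subgroup.eq_bot_iff_forall M).mpr hno)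

/-- The action on cosets is faithful. -/
theorem faithful : FaithfulSMul G (Pt M) := by
  refine ⟨fun {g k} hgk => ?_⟩
  obtain ⟨n, hn, hn1⟩ := h.exists_ne_one
  have h1 : (k⁻¹ * g) = 1 := by
    have hfix : ∀ ω : Pt M, (k⁻¹ * g) • ω = ω := by
      intro ω
      rw [mul_smul, hgk, inv_smul_smul]
    have hab : pt M 1 ≠ pt M y := h.pt_ne.symm
    have hbc : pt M y ≠ n • pt M y := by
      intro h2
      have h3 : (1 : G) • pt M y = n • pt M y := by rw [one_smul]; exact h2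
      exact hn1 (h.reg_unique (M.one_mem) hn h3).symm
    have hac : pt M 1 ≠ n • pt M y := (h.smul_y_ne hn).symm
    exact h.three_eq_one hab hbc hac (hfix _) (hfix _) (hfix _)
  have h2 : g = k := by
    have : g = k * (k⁻¹ * g) := by group
    rw [this, h1, mul_one]
  exact h2

/-- Counting points. -/
theorem card_pt : Nat.card (Pt M) = Nat.card M + 1 := by
  classical
  have e : ↥M ≃ {ω : Pt M // ω ≠ pt M 1} :=
    Equiv.ofBijective (fun n => ⟨n.1 • pt M y, h.smul_y_ne n.2⟩) ⟨by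
      intro a b hab
      have h1 : a.1 • pt M y = b.1 • pt M y := congrArg Subtype.val hab
      exact Subtype.ext (h.reg_unique a.2 b.2 h1), by
      rintro ⟨ω, hω⟩
      obtain ⟨n, hn, hn2⟩ := h.exists_reg hω
      exact ⟨⟨n, hn⟩, Subtype.ext hn2⟩⟩
  letI : Fintype (Pt M) := Fintype.ofFinite _
  rw [Nat.card_congr e, Nat.card_eq_fintype_card, Nat.card_eq_fintype_card,
    Fintype.card_subtype_compl, Fintype.card_subtype_eq]
  have : 0 < Fintype.card (Pt M) := Fintype.card_pos_iff.mpr ⟨pt M 1⟩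
  omega

/-- No regular normal subgroup when `M` is large. -/
theorem no_regular (hM : 5 ≤ Nat.card M) (R : Subgroup G) [hRn : R.Normal]
    (htr : ∀ a b : Pt M, ∃ ρ ∈ R, ρ • a = b) (hfree : ∀ ρ ∈ R, ∀ a : Pt M, ρ • a = a → ρ = 1) :
    False := by
  obtain ⟨r, hrR, hr⟩ := htr (pt M 1) (pt M y)
  have hunique : ∀ ρ ∈ R, ∀ ρ' ∈ R, ρ • pt M 1 = ρ' • pt M 1 → ρ = ρ' := by
    intro ρ hρ ρ' hρ' he
    have h1 : (ρ'⁻¹ * ρ) • pt M 1 = pt M 1 := by
      rw [mul_smul, he, inv_smul_smul]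
    have h2 := hfree _ (R.mul_mem (R.inv_mem hρ') hρ) _ h1
    have : ρ = ρ' * (ρ'⁻¹ * ρ) := by group
    rw [this, h2, mul_one]
  have hzi : z⁻¹ = z := inv_eq_of_mul_eq_one_left h.hz
  have hzrz : z * r * z = r := by
    have h1 : z * r * z ∈ R := by
      have := hRn.conj_mem r hrR z
      rwa [hzi] at this
    apply hunique _ h1 _ hrR
    rw [mul_smul, mul_smul, h.z_fix_one, hr, h.z_fix_y]
  have hrz : r * z = z * r := by
    calc r * z = z * r * z * z := by rw [hzrz]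
      _ = z * r * (z * z) := by group
      _ = z * r := by rw [h.hz, mul_one]
  have hrN : r ∉ Nm M := by
    intro h1
    apply h.pt_ne
    rw [← hr]
    exact h.mem_smul_one h1
  have hr2 : r * r = 1 := h.toDn.sq_of_comm_z hrN hrz
  let ρ : G → G := fun n => n * r * n⁻¹
  have hρR : ∀ n, ρ n ∈ R := fun n => hRn.conj_mem r hrR n
  have hρ1 : ∀ n, n ∈ M → ρ n • pt M 1 = n • pt M y := by
    intro n hn
    have h1 := h.mem_smul_one ((Nm M).inv_mem (mem_Nm_of_le hn))
    change (n * r * n⁻¹) • pt M 1 = _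
    rw [mul_smul, mul_smul, h1, hr]
  have hρ2 : ∀ n, ρ n * ρ n = 1 := by
    intro n
    change (n * r * n⁻¹) * (n * r * n⁻¹) = 1
    calc (n * r * n⁻¹) * (n * r * n⁻¹) = n * (r * r) * n⁻¹ := by group
      _ = 1 := by rw [hr2]; group
  have hall2 : ∀ a ∈ R, a * a = 1 := by
    intro a ha
    by_cases ha1 : a = 1
    · rw [ha1, one_mul]
    have h1 : a • pt M 1 ≠ pt M 1 := fun h2 => ha1 (hfree a ha _ h2)
    obtain ⟨n, hn, hn2⟩ := h.exists_reg h1
    have h3 : a = ρ n := hunique a ha _ (hρR n) (by rw [hρ1 n hn, hn2])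
    rw [h3]
    exact hρ2 n
  have hcomm : ∀ a ∈ R, ∀ b ∈ R, a * b = b * a := by
    intro a ha b hb
    have h1 := hall2 _ (R.mul_mem ha hb)
    have h2 := hall2 a ha
    have h3 := hall2 b hb
    have hai : a⁻¹ = a := inv_eq_of_mul_eq_one_left h2
    have hbi : b⁻¹ = b := inv_eq_of_mul_eq_one_left h3
    have h4 : a * b = (a * b)⁻¹ := eq_inv_of_mul_eq_one_left h1
    rw [mul_inv_rev, hai, hbi] at h4
    exact h4
  have hRfix : ∀ a ∈ R, a * z = z * a → a = 1 ∨ a = r := by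
    intro a ha haz
    have h1 : z • (a • pt M 1) = a • pt M 1 := by
      rw [← mul_smul, ← haz, mul_smul, h.z_fix_one]
    obtain ⟨g, hg⟩ := QuotientGroup.mk_surjective (a • pt M 1)
    rw [← hg] at h1
    rcases h.fix_z (g := g) h1 with h2 | h2
    · left
      have h3 : a • pt M 1 = pt M 1 := by rw [← hg]; exact h2
      exact hfree a ha _ h3
    · right
      have h3 : a • pt M 1 = r • pt M 1 := by rw [hr, ← hg]; exact h2
      exact hunique a ha r hrR h3
  have hzρ : ∀ n ∈ M, z * ρ n * z = ρ n⁻¹ := by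
    intro n hn
    have h1 := h.z_inv hn
    have h2 := h.z_inv (M.inv_mem hn)
    change z * (n * r * n⁻¹) * z = n⁻¹ * r * n⁻¹⁻¹
    rw [inv_inv] at h2 ⊢
    calc z * (n * r * n⁻¹) * z = (z * n * z) * (z * r * z) * (z * n⁻¹ * z) := by
          have : (z * n * z) * (z * r * z) * (z * n⁻¹ * z)
              = z * n * (z * z) * r * (z * z) * n⁻¹ * z := by group
          rw [this, h.hz]
          group
      _ = n⁻¹ * r * n := by rw [h1, hzrz, h2]
  have hρinj : ∀ n ∈ M, ∀ n' ∈ M, ρ n = ρ n' → n = n' := by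
    intro n hn n' hn' he
    apply h.reg_unique hn hn'
    rw [← hρ1 n hn, ← hρ1 n' hn', he]
  have hsym : ∀ a ∈ R, ∀ b ∈ R, z * a * z = b → z * b * z = a → (a * b) * z = z * (a * b) := by
    intro a ha b hb h1 h2
    have h3 : z * (a * b) * z = a * b := by
      calc z * (a * b) * z = z * a * (z * z) * b * z := by rw [h.hz]; group
        _ = (z * a * z) * (z * b * z) := by group
        _ = b * a := by rw [h1, h2]
        _ = a * b := hcomm b hb a ha
    calc (a * b) * z = z * (a * b) * z * z := by rw [h3]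
      _ = z * (a * b) * (z * z) := by group
      _ = z * (a * b) := by rw [h.hz, mul_one]
  have hzz : ∀ a, z * (z * a * z) * z = a := by
    intro a
    calc z * (z * a * z) * z = (z * z) * a * (z * z) := by group
      _ = a := by rw [h.hz]; group
  -- the key relation
  have hkey : ∀ n ∈ M, n ≠ 1 → ρ n⁻¹ = ρ n * r := by
    intro n hn hn1
    have h1 := hsym (ρ n) (hρR n) (ρ n⁻¹) (hρR _) (hzρ n hn) (by
      rw [← hzρ n hn, hzz])
    rcases hRfix _ (R.mul_mem (hρR n) (hρR _)) h1 with h2 | h2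
    · exfalso
      have h3 : ρ n = ρ n⁻¹ := by
        have h4 := hρ2 n
        have h5 : (ρ n)⁻¹ = ρ n := inv_eq_of_mul_eq_one_left h4
        have h6 : ρ n⁻¹ = (ρ n)⁻¹ := eq_inv_of_mul_eq_one_right h2
        rw [h6, h5]
      have h7 := hρinj n hn _ (M.inv_mem hn) h3
      apply hn1
      apply h.sq_eq_one hn
      nth_rewrite 2 [h7]
      simp
    · rw [← h2]
      have h4 := hρ2 n
      calc ρ n⁻¹ = (ρ n * ρ n) * ρ n⁻¹ := by rw [h4, one_mul]
        _ = _ := by group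
  -- choosing two elements
  obtain ⟨n, hn, hn1⟩ := h.exists_ne_one
  have hex : ∃ n' ∈ M, n' ≠ 1 ∧ n' ≠ n ∧ n' ≠ n⁻¹ := by
    classical
    letI : Fintype ↥M := Fintype.ofFinite _
    have hc : ({1, ⟨n, hn⟩, ⟨n, hn⟩⁻¹} : Finset ↥M).card < Fintype.card ↥M := by
      rw [← Nat.card_eq_fintype_card]
      have := Finset.card_le_three (a := (1 : ↥M)) (b := ⟨n, hn⟩) (c := (⟨n, hn⟩ : ↥M)⁻¹)
      omega
    obtain ⟨x, -, hx⟩ := Finset.exists_mem_notMem_of_card_lt_card
      (s := ({1, ⟨n, hn⟩, ⟨n, hn⟩⁻¹} : Finset ↥M)) (t := Finset.univ) (by simpa using hc)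
    simp only [Finset.mem_insert, Finset.mem_singleton, not_or] at hx
    refine ⟨x.1, x.2, fun h1 => hx.1 (Subtype.ext h1), fun h1 => hx.2.1 (Subtype.ext h1),
      fun h1 => hx.2.2 (Subtype.ext h1)⟩
  obtain ⟨n', hn', hn'1, hn'2, hn'3⟩ := hex
  have h1 := hkey n hn hn1
  have h2 := hkey n' hn' hn'1
  have h3 : z * ρ n * z = ρ n⁻¹ := hzρ n hn
  have h4 : z * ρ n' * z = ρ n'⁻¹ := hzρ n' hn'
  -- `w = ρ n ρ n'` commutes with `z`
  have hw : (ρ n * ρ n') * z = z * (ρ n * ρ n') := by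
    have h5 : z * (ρ n * ρ n') * z = ρ n * ρ n' := by
      calc z * (ρ n * ρ n') * z = z * ρ n * (z * z) * ρ n' * z := by rw [h.hz]; group
        _ = (z * ρ n * z) * (z * ρ n' * z) := by group
        _ = (ρ n * r) * (ρ n' * r) := by rw [h3, h4, h1, h2]
        _ = ρ n * (r * ρ n') * r := by group
        _ = ρ n * (ρ n' * r) * r := by rw [hcomm r hrR _ (hρR n')]
        _ = ρ n * ρ n' * (r * r) := by group
        _ = ρ n * ρ n' := by rw [hr2, mul_one]
    calc (ρ n * ρ n') * z = z * (ρ n * ρ n') * z * z := by rw [h5]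
      _ = z * (ρ n * ρ n') * (z * z) := by group
      _ = z * (ρ n * ρ n') := by rw [h.hz, mul_one]
  rcases hRfix _ (R.mul_mem (hρR n) (hρR n')) hw with h5 | h5
  · have h6 : ρ n' = ρ n := by
      have h7 := hρ2 n
      have h8 : (ρ n)⁻¹ = ρ n := inv_eq_of_mul_eq_one_left h7
      have h9 : ρ n' = (ρ n)⁻¹ := eq_inv_of_mul_eq_one_right h5
      rw [h9, h8]
    exact hn'2 (hρinj n' hn' n hn h6)
  · have h6 : ρ n' = ρ n⁻¹ := by
      rw [h1, ← h5]
      have h7 := hρ2 n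
      calc ρ n' = (ρ n * ρ n) * ρ n' := by rw [h7, one_mul]
        _ = _ := by group
    exact hn'3 (hρinj n' hn' _ (M.inv_mem hn) h6)

end AA

end Cfsg.Agent.Lib.TIInv
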