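import Mathlib
import Cfsg.Prelude.Def_Transfer
import Cfsg.Prelude.Def_LieExceptional
import Cfsg.Agent.Lib.TIInvD
import Cfsg.Agent.Lib.Sharp3Odd
import Cfsg.Agent.S0742
import Cfsg.Agent.S0741
import Cfsg.Agent.S0738

/-!
# TI-subgroups normalized by an involution: two fixed points of `z` (conclusion)
-/

set_option autoImplicit false

namespace Cfsg.Agent.Lib.TIInv

open Cfsg.Agent.Lib.Sharp3Even Cfsg.Agent.Lib.Sharp3Odd

variable {G : Type*} [Group G] [Finite G] {M : Subgroup G} {z y : G}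

namespace AA

variable (h : AA M z y)
include h

theorem cent_comm {a b : G} (ha : a ∈ Nm M) (haz : a * z = z * a) (hb : b ∈ Nm M)
    (hbz : b * z = z * b) : a * b = b * a := by
  have h1 := h.toDn.inverts_cent h.hy h.hyz ha haz
  have h2 := h.toDn.inverts_cent h.hy h.hyz hb hbz
  have h3 := h.toDn.inverts_cent h.hy h.hyz ((Nm M).mul_mem ha hb) (by
    rw [mul_assoc, hbz, ← mul_assoc, haz, mul_assoc])
  have hy2 := h.y_sq
  have h4 : y * (a * b) * y = (y * a * y) * (y * b * y) := by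
    calc y * (a * b) * y = y * a * b * y := by group
      _ = y * a * (y * y) * b * y := by rw [hy2]; group
      _ = _ := by group
  rw [h4, h1, h2, mul_inv_rev] at h3
  have h5 : (b * a)⁻¹ = (a * b)⁻¹ := by
    rw [mul_inv_rev, mul_inv_rev]
    exact h3
  exact (inv_injective h5).symm

/-- The two-point stabilizer. -/
theorem stab_inf : MulAction.stabilizer G (pt M 1) ⊓ MulAction.stabilizer G (pt M y) =
    Nm M ⊓ Subgroup.centralizer ({z} : Set G) := by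
  ext c
  rw [Subgroup.mem_inf, Subgroup.mem_inf, MulAction.mem_stabilizer_iff, MulAction.mem_stabilizer_iff,
    Subgroup.mem_centralizer_singleton_iff]
  constructor
  · rintro ⟨h1, h2⟩
    exact h.two_stab h1 h2
  · rintro ⟨h1, h2⟩
    exact ⟨h.mem_smul_one h1, h.cent_fix_y h1 h2⟩

/-- The sharply triply transitive case. -/
theorem sharp_case {n₀ : G} (hn₀ : n₀ ∈ M) (hn₀1 : n₀ ≠ 1)
    (hT : ∀ n ∈ M, n ≠ 1 → ∃ c ∈ Nm M, c * z = z * c ∧ c * n₀ * c⁻¹ = n) :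
    ∃ (F : Type) (_ : Field F) (_ : Fintype F) (p : ℕ) (_ : Fact p.Prime) (_ : CharP F p),
      Fintype.card F = Nat.card M ∧ Cfsg.IsElementaryAbelian p M ∧
        (Nonempty (G ≃* (GL (Fin 2) F ⧸ Subgroup.center (GL (Fin 2) F))) ∨
         (Fintype.card F % 4 = 1 ∧ Nonempty (G ≃* Matrix.ProjectiveSpecialLinearGroup (Fin 2) F))) := by
  classical
  letI : Fintype (Pt M) := Fintype.ofFinite _
  set γ₀ : Pt M := n₀ • pt M y with hγ₀
  have h3pts : ∀ {a b c : Pt M}, a ≠ b → a ≠ c → b ≠ c →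
      ∃ t : G, t • a = pt M 1 ∧ t • b = pt M y ∧ t • c = γ₀ := by
    intro a b c hab hac hbc
    obtain ⟨t₁, ht1, ht2⟩ := h.to_base hab
    have h5 : t₁ • c ≠ pt M 1 := by
      intro h6
      apply hac
      rw [← ht1] at h6
      exact (MulAction.injective t₁ h6).symm
    obtain ⟨n, hn, hn2⟩ := h.exists_reg h5
    have hn1 : n ≠ 1 := by
      rintro rfl
      rw [one_smul] at hn2
      apply hbc
      rw [← ht2] at hn2
      exact MulAction.injective t₁ hn2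
    obtain ⟨c₀, hc₀, hc₀z, hc₀n⟩ := hT n hn hn1
    have hinvN : c₀⁻¹ ∈ Nm M := (Nm M).inv_mem hc₀
    have hinvz : c₀⁻¹ * z = z * c₀⁻¹ := by
      calc c₀⁻¹ * z = c₀⁻¹ * (z * c₀) * c₀⁻¹ := by group
        _ = c₀⁻¹ * (c₀ * z) * c₀⁻¹ := by rw [hc₀z]
        _ = z * c₀⁻¹ := by group
    refine ⟨c₀⁻¹ * t₁, ?_, ?_, ?_⟩
    · rw [mul_smul, ht1]
      exact h.mem_smul_one hinvN
    · rw [mul_smul, ht2]
      exact h.cent_fix_y hinvN hinvz
    · rw [mul_smul, ← hn2, ← hc₀n, hγ₀]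
      have h7 := h.cent_fix_y hinvN hinvz
      calc c₀⁻¹ • ((c₀ * n₀ * c₀⁻¹) • pt M y) = (c₀⁻¹ * (c₀ * n₀ * c₀⁻¹)) • pt M y :=
            (mul_smul _ _ _).symm
        _ = (n₀ * c₀⁻¹) • pt M y := by congr 1; group
        _ = n₀ • pt M y := by rw [mul_smul, h7]
  let φ : G →* Equiv.Perm (Pt M) := MulAction.toPermHom G (Pt M)
  have hφ : ∀ g x, φ g x = g • x := fun _ _ => rfl
  let Ĝ : Subgroup (Equiv.Perm (Pt M)) := φ.range
  have hS : Sharp3 Ĝ := by
    refine ⟨?_, ?_⟩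
    · intro a b c a' b' c' hab hac hbc hab' hac' hbc'
      obtain ⟨t, t1, t2, t3⟩ := h3pts hab hac hbc
      obtain ⟨s, s1, s2, s3⟩ := h3pts hab' hac' hbc'
      refine ⟨φ (s⁻¹ * t), ⟨_, rfl⟩, ?_, ?_, ?_⟩
      · rw [hφ, mul_smul, t1, ← s1, inv_smul_smul]
      · rw [hφ, mul_smul, t2, ← s2, inv_smul_smul]
      · rw [hφ, mul_smul, t3, ← s3, inv_smul_smul]
    · rintro _ ⟨g, rfl⟩ a b c hab hac hbc h1 h2 h3
      rw [hφ] at h1 h2 h3
      rw [h.three_eq_one hab hbc hac h1 h2 h3, map_one]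
  have hio : pt M 1 ≠ pt M y := h.pt_ne.symm
  have hie : pt M 1 ≠ γ₀ := (h.smul_y_ne hn₀).symm
  have hoe : pt M y ≠ γ₀ := by
    intro h2
    have h3 : (1 : G) • pt M y = n₀ • pt M y := by rw [one_smul]; exact h2
    exact hn₀1 (h.reg_unique (M.one_mem) hn₀ h3).symm
  obtain ⟨σ, hσ, hσi, hσo, hσe⟩ := hS.tr hio hie hoe hio.symm hoe hie
  have hcard : Fintype.card {x : Pt M // x ≠ pt M 1} = Nat.card M := by
    rw [Fintype.card_subtype_compl, Fintype.card_subtype_eq, ← Nat.card_eq_fintype_card, h.card_pt]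
    omega
  have hodd : Odd (Fintype.card {x : Pt M // x ≠ pt M 1}) := by
    rw [hcard]
    exact h.odd_card
  have hcomm : ∀ g ∈ stabTwo Ĝ (pt M 1) (pt M y), ∀ k ∈ stabTwo Ĝ (pt M 1) (pt M y),
      g * k = k * g := by
    rintro _ ⟨⟨g, rfl⟩, hg1, hg2⟩ _ ⟨⟨k, rfl⟩, hk1, hk2⟩
    rw [hφ] at hg1 hg2 hk1 hk2
    obtain ⟨a1, a2⟩ := h.two_stab hg1 hg2
    obtain ⟨b1, b2⟩ := h.two_stab hk1 hk2
    rw [← map_mul, ← map_mul, h.cent_comm a1 a2 b1 b2]
  obtain ⟨F, i1, i2, hF, ⟨e⟩⟩ := pgl_of_comm hS hio hie hoe hσ hσi hσo hσe hodd hcomm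
  have hinj : Function.Injective φ := by
    intro a b hab
    haveI := h.faithful
    apply FaithfulSMul.eq_of_smul_eq_smul (α := Pt M)
    intro ω
    have := congrArg (fun p : Equiv.Perm (Pt M) => p ω) hab
    exact this
  have eG : G ≃* Ĝ := MonoidHom.ofInjective hinj
  -- the prime
  have hne1 : Nat.card M ≠ 1 := by
    intro h1
    haveI : Subsingleton ↥M := (Nat.card_eq_one_iff_unique.mp h1).1
    have : (⟨n₀, hn₀⟩ : ↥M) = 1 := Subsingleton.elim _ _
    exact hn₀1 (congrArg Subtype.val this)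
  obtain ⟨p, hp, hpd⟩ := Nat.exists_prime_and_dvd hne1
  haveI : Fact p.Prime := ⟨hp⟩
  obtain ⟨x, hx⟩ := exists_prime_orderOf_dvd_card' (G := ↥M) p hpd
  have hx1 : (x : G) ≠ 1 := by
    intro h2
    have : x = 1 := Subtype.ext h2
    rw [this, orderOf_one] at hx
    exact hp.one_lt.ne hx
  have hxp : (x : G) ^ p = 1 := by
    have := pow_orderOf_eq_one x
    rw [hx] at this
    exact congrArg Subtype.val this
  have hexp : ∀ m ∈ M, m ^ p = 1 := by
    intro m hm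
    by_cases hm1 : m = 1
    · rw [hm1, one_pow]
    obtain ⟨c₁, -, -, hc₁⟩ := hT x x.2 hx1
    obtain ⟨c₂, -, -, hc₂⟩ := hT m hm hm1
    have h3 : m = (c₂ * c₁⁻¹) * x * (c₂ * c₁⁻¹)⁻¹ := by
      rw [← hc₁, ← hc₂]
      group
    rw [h3, conj_pow, hxp]
    group
  have hpg : IsPGroup p ↥M := fun g => ⟨1, by
    rw [pow_one]
    exact Subtype.ext (hexp g.1 g.2)⟩
  obtain ⟨k, hk⟩ := IsPGroup.iff_card.mp hpg
  have hFc : Fintype.card F = Nat.card M := hF.trans hcard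
  have hchar : @CharP F _ p := by
    letI := i1
    letI := i2
    exact charP_of_card_eq_prime_pow (p := p) (f := k) (hFc.trans hk)
  refine ⟨F, i1, i2, p, inferInstance, hchar, hFc, ?_, Or.inl ⟨eG.trans e⟩⟩
  refine ⟨⟨⟨fun a b => Subtype.ext (h.comm a.2 b.2)⟩⟩, hexp⟩

/-- The Zassenhaus case. -/
theorem nonsharp_case {n₀ n₁ : G} (hn₀ : n₀ ∈ M) (hn₀1 : n₀ ≠ 1) (hn₁ : n₁ ∈ M) (hn₁1 : n₁ ≠ 1)
    (hT : ¬ ∃ c ∈ Nm M, c * z = z * c ∧ c * n₀ * c⁻¹ = n₁) :
    ∃ (F : Type) (_ : Field F) (_ : Fintype F) (p : ℕ) (_ : Fact p.Prime) (_ : CharP F p),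
      Fintype.card F = Nat.card M ∧ Cfsg.IsElementaryAbelian p M ∧
        (Nonempty (G ≃* (GL (Fin 2) F ⧸ Subgroup.center (GL (Fin 2) F))) ∨
         (Fintype.card F % 4 = 1 ∧ Nonempty (G ≃* Matrix.ProjectiveSpecialLinearGroup (Fin 2) F))) := by
  classical
  letI : Fintype (Pt M) := Fintype.ofFinite _
  let CC : Subgroup G := Nm M ⊓ Subgroup.centralizer ({z} : Set G)
  have memCC : ∀ c, c ∈ CC ↔ c ∈ Nm M ∧ c * z = z * c := by
    intro c
    rw [Subgroup.mem_inf, Subgroup.mem_centralizer_singleton_iff]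
  -- two orbits
  have hfree : ∀ (n : G), n ∈ M → n ≠ 1 → ∀ a b : ↥CC, (a : G) * n * (a : G)⁻¹ = b * n * (b : G)⁻¹ → a = b := by
    intro n hn hn1 a b hab
    have ha := (memCC _).1 a.2
    have hb := (memCC _).1 b.2
    have hN : (b : G)⁻¹ * a ∈ Nm M := (Nm M).mul_mem ((Nm M).inv_mem hb.1) ha.1
    have hbz : (b : G)⁻¹ * z = z * (b : G)⁻¹ := by
      calc (b : G)⁻¹ * z = (b : G)⁻¹ * (z * b) * (b : G)⁻¹ := by group
        _ = (b : G)⁻¹ * (b * z) * (b : G)⁻¹ := by rw [hb.2]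
        _ = z * (b : G)⁻¹ := by group
    have hz' : ((b : G)⁻¹ * a) * z = z * ((b : G)⁻¹ * a) := by
      rw [mul_assoc, ha.2, ← mul_assoc, hbz, mul_assoc]
    have hc : ((b : G)⁻¹ * a) * n = n * ((b : G)⁻¹ * a) := by
      have h1 : (a : G) * n = b * n * (b : G)⁻¹ * a := by
        calc (a : G) * n = (a : G) * n * (a : G)⁻¹ * a := by group
          _ = _ := by rw [hab]
      calc ((b : G)⁻¹ * a) * n = (b : G)⁻¹ * (a * n) := by group
        _ = (b : G)⁻¹ * (b * n * (b : G)⁻¹ * a) := by rw [h1]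
        _ = n * ((b : G)⁻¹ * a) := by group
    have h2 := h.toDn.fpf h.hy h.hyz hN hz' hn hn1 hc
    exact Subtype.ext (inv_mul_eq_one.mp h2).symm
  have hinj : Function.Injective (fun x : ↥CC ⊕ ↥CC =>
      match x with
      | Sum.inl c => (⟨(c : G) * n₀ * (c : G)⁻¹, conj_mem ((memCC _).1 c.2).1 hn₀, fun h1 => hn₀1 (by
          have : n₀ = (c : G)⁻¹ * ((c : G) * n₀ * (c : G)⁻¹) * c := by group
          rw [this, h1]; group)⟩ : {m : G // m ∈ M ∧ m ≠ 1})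
      | Sum.inr c => ⟨(c : G) * n₁ * (c : G)⁻¹, conj_mem ((memCC _).1 c.2).1 hn₁, fun h1 => hn₁1 (by
          have : n₁ = (c : G)⁻¹ * ((c : G) * n₁ * (c : G)⁻¹) * c := by group
          rw [this, h1]; group)⟩) := by
    rintro (a | a) (b | b) hab
    · have h1 := congrArg Subtype.val hab
      rw [hfree n₀ hn₀ hn₀1 a b h1]
    · exfalso
      have h1 : (a : G) * n₀ * (a : G)⁻¹ = b * n₁ * (b : G)⁻¹ := congrArg Subtype.val hab
      apply hT
      have ha := (memCC _).1 a.2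
      have hb := (memCC _).1 b.2
      have hbz : (b : G)⁻¹ * z = z * (b : G)⁻¹ := by
        calc (b : G)⁻¹ * z = (b : G)⁻¹ * (z * b) * (b : G)⁻¹ := by group
          _ = (b : G)⁻¹ * (b * z) * (b : G)⁻¹ := by rw [hb.2]
          _ = z * (b : G)⁻¹ := by group
      refine ⟨(b : G)⁻¹ * a, (Nm M).mul_mem ((Nm M).inv_mem hb.1) ha.1, ?_, ?_⟩
      · rw [mul_assoc, ha.2, ← mul_assoc, hbz, mul_assoc]
      · calc (b : G)⁻¹ * a * n₀ * ((b : G)⁻¹ * a)⁻¹ = (b : G)⁻¹ * ((a : G) * n₀ * (a : G)⁻¹) * b := by group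
          _ = (b : G)⁻¹ * (b * n₁ * (b : G)⁻¹) * b := by rw [h1]
          _ = n₁ := by group
    · exfalso
      have h1 : (a : G) * n₁ * (a : G)⁻¹ = b * n₀ * (b : G)⁻¹ := congrArg Subtype.val hab
      apply hT
      have ha := (memCC _).1 a.2
      have hb := (memCC _).1 b.2
      have haz : (a : G)⁻¹ * z = z * (a : G)⁻¹ := by
        calc (a : G)⁻¹ * z = (a : G)⁻¹ * (z * a) * (a : G)⁻¹ := by group
          _ = (a : G)⁻¹ * (a * z) * (a : G)⁻¹ := by rw [ha.2]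
          _ = z * (a : G)⁻¹ := by group
      refine ⟨(a : G)⁻¹ * b, (Nm M).mul_mem ((Nm M).inv_mem ha.1) hb.1, ?_, ?_⟩
      · rw [mul_assoc, hb.2, ← mul_assoc, haz, mul_assoc]
      · calc (a : G)⁻¹ * b * n₀ * ((a : G)⁻¹ * b)⁻¹ = (a : G)⁻¹ * ((b : G) * n₀ * (b : G)⁻¹) * a := by group
          _ = (a : G)⁻¹ * (a * n₁ * (a : G)⁻¹) * a := by rw [h1]
          _ = n₁ := by group
    · have h1 := congrArg Subtype.val hab
      rw [hfree n₁ hn₁ hn₁1 a b h1]
  have hcardne : Nat.card {m : G // m ∈ M ∧ m ≠ 1} = Nat.card M - 1 := by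
    have e : {m : G // m ∈ M ∧ m ≠ 1} ≃ {x : ↥M // x ≠ 1} :=
      { toFun := fun x => ⟨⟨x.1, x.2.1⟩, fun h1 => x.2.2 (congrArg Subtype.val h1)⟩
        invFun := fun x => ⟨x.1.1, x.1.2, fun h1 => x.2 (Subtype.ext h1)⟩
        left_inv := fun _ => rfl
        right_inv := fun _ => rfl }
    letI : Fintype ↥M := Fintype.ofFinite _
    rw [Nat.card_congr e, Nat.card_eq_fintype_card, Fintype.card_subtype_compl,
      Fintype.card_subtype_eq, Nat.card_eq_fintype_card]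
  have hle := Nat.card_le_card_of_injective _ hinj
  rw [Nat.card_sum, hcardne] at hle
  have hzCC : z ∈ CC := (memCC z).2 ⟨h.hzN, rfl⟩
  have hCCeven : Even (Nat.card CC) := by
    have h1 : orderOf (⟨z, hzCC⟩ : ↥CC) = 2 := by
      rw [Subgroup.orderOf_mk]
      exact orderOf_eq_prime (by rw [pow_two]; exact h.hz) h.hz1
    have h2 := orderOf_dvd_natCard (⟨z, hzCC⟩ : ↥CC)
    rw [h1] at h2
    exact even_iff_two_dvd.mpr h2
  have hCCpos : 0 < Nat.card CC := Nat.card_pos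
  have hM5 : 5 ≤ Nat.card M := by
    obtain ⟨r, hr⟩ := hCCeven
    omega
  have hab : pt M 1 ≠ pt M y := h.pt_ne.symm
  have hZ : Cfsg.IsZassenhausGroup G (Pt M) := by
    refine ⟨h.faithful, ?_, ?_, ?_, ?_⟩
    · exact MulAction.is_two_pretransitive_iff.mpr (fun hab hcd => h.two_trans hab hcd)
    · intro g a b c hab hbc hac ha hb hc
      exact h.three_eq_one hab hbc hac ha hb hc
    · exact ⟨z, h.hz1, pt M 1, pt M y, hab, h.z_fix_one, h.z_fix_y⟩
    · intro R hRn htr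
      haveI := htr
      by_contra hno
      push Not at hno
      refine h.no_regular hM5 R ?_ ?_
      · intro a b
        obtain ⟨ρ, hρ⟩ := htr.exists_smul_eq a b
        exact ⟨ρ.1, ρ.2, hρ⟩
      · intro ρ hρ a ha
        have h2 := hno a
        rw [Subgroup.eq_bot_iff_forall] at h2
        have h3 := h2 ⟨ρ, hρ⟩ ha
        exact congrArg Subtype.val h3
  have hstab := h.stab_inf
  have hCC : Nat.card ↥(MulAction.stabilizer G (pt M 1) ⊓ MulAction.stabilizer G (pt M y)) =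
      Nat.card CC := by rw [hstab]
  have hcardΩ : Fintype.card (Pt M) = Nat.card M + 1 := by
    rw [← Nat.card_eq_fintype_card, h.card_pt]
  have heven : Even (Nat.card ↥(MulAction.stabilizer G (pt M 1) ⊓ MulAction.stabilizer G (pt M y))) := by
    rw [hCC]; exact hCCeven
  have hd : 2 * Nat.card ↥(MulAction.stabilizer G (pt M 1) ⊓ MulAction.stabilizer G (pt M y)) ≤
      Fintype.card (Pt M) - 2 := by
    rw [hCC, hcardΩ]
    omega
  obtain ⟨p, f, K, i1, i2, hp, hp2, hKc, hΩc, hiso⟩ := Cfsg.Agent.S0742.result hZ hab heven hd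
  have hd' := Cfsg.Agent.S0741.result hZ hab heven
  have hFle : M ≤ MulAction.stabilizer G (pt M 1) := fun n hn =>
    h.mem_smul_one (mem_Nm_of_le hn)
  have hFn : (M.subgroupOf (MulAction.stabilizer G (pt M 1))).Normal := by
    refine ⟨fun n hn g => ?_⟩
    rw [Subgroup.mem_subgroupOf] at hn ⊢
    have hg : (g : G) ∈ Nm M := by
      have h1 : (g : G) • pt M 1 = pt M 1 := MulAction.mem_stabilizer_iff.mp g.2
      have h2 : (1 : G)⁻¹ * (g : G) * 1 ∈ Nm M := fix_iff.mp h1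
      simpa using h2
    exact conj_mem hg hn
  have hreg : ∀ a b : Pt M, a ≠ pt M 1 → b ≠ pt M 1 → ∃! u : ↥M, (u : G) • a = b := by
    intro a b ha hb
    obtain ⟨n, hn, rfl⟩ := h.exists_reg ha
    obtain ⟨n', hn', rfl⟩ := h.exists_reg hb
    refine ⟨⟨n' * n⁻¹, M.mul_mem hn' (M.inv_mem hn)⟩, ?_, ?_⟩
    · change (n' * n⁻¹) • (n • pt M y) = n' • pt M y
      rw [← mul_smul]
      congr 1
      group
    · intro u hu
      have h1 : ((u : G) * n) • pt M y = n' • pt M y := by rw [mul_smul]; exact hu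
      have h2 := h.reg_unique (M.mul_mem u.2 hn) hn' h1
      apply Subtype.ext
      change (u : G) = n' * n⁻¹
      rw [← h2]
      group
  obtain ⟨-, p', f', hp', hexp, -⟩ := Cfsg.Agent.S0738.result hZ hab hd' M hFle hFn hreg
  have hMc : Nat.card M = p ^ f := by omega
  have hfne : f ≠ 0 := by
    rintro rfl
    rw [pow_zero] at hMc
    omega
  -- the two primes agree
  obtain ⟨n, hn, hn1⟩ := h.exists_ne_one
  have hpp : p' = p := by
    haveI : Fact p'.Prime := ⟨hp'⟩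
    have h1 : orderOf n = p' := orderOf_eq_prime (hexp n hn) hn1
    have h2 : orderOf (⟨n, hn⟩ : ↥M) = p' := by rw [Subgroup.orderOf_mk]; exact h1
    have h3 := orderOf_dvd_natCard (⟨n, hn⟩ : ↥M)
    rw [h2, hMc] at h3
    exact (Nat.prime_dvd_prime_iff_eq hp' hp).mp (hp'.dvd_of_dvd_pow h3)
  subst hpp
  haveI : Fact p'.Prime := ⟨hp'⟩
  have hchar : @CharP K _ p' := by
    letI := i1
    letI := i2
    exact charP_of_card_eq_prime_pow (p := p') (f := f) hKc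
  refine ⟨K, i1, i2, p', inferInstance, hchar, hKc.trans hMc.symm, ?_, Or.inr ⟨?_, hiso⟩⟩
  · exact ⟨⟨⟨fun a b => Subtype.ext (h.comm a.2 b.2)⟩⟩, hexp⟩
  · rw [hKc, ← hMc]
    rw [hCC, hcardΩ] at hd'
    obtain ⟨r, hr⟩ := hCCeven
    omega

/-- The conclusion when `z` has two fixed points. -/
theorem main :
    ∃ (F : Type) (_ : Field F) (_ : Fintype F) (p : ℕ) (_ : Fact p.Prime) (_ : CharP F p),
      Fintype.card F = Nat.card M ∧ Cfsg.IsElementaryAbelian p M ∧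
        (Nonempty (G ≃* (GL (Fin 2) F ⧸ Subgroup.center (GL (Fin 2) F))) ∨
         (Fintype.card F % 4 = 1 ∧ Nonempty (G ≃* Matrix.ProjectiveSpecialLinearGroup (Fin 2) F))) := by
  obtain ⟨n₀, hn₀, hn₀1⟩ := h.exists_ne_one
  by_cases hT : ∀ n ∈ M, n ≠ 1 → ∃ c ∈ Nm M, c * z = z * c ∧ c * n₀ * c⁻¹ = n
  · exact h.sharp_case hn₀ hn₀1 hT
  · push Not at hT
    obtain ⟨n₁, hn₁, hn₁1, hT⟩ := hT
    exact h.nonsharp_case hn₀ hn₀1 hn₁ hn₁1 (by
      rintro ⟨c, hc, hcz, hcn⟩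
      exact hT c hc hcz hcn)

end AA

end Cfsg.Agent.Lib.TIInv
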