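import Mathlib
import Cfsg.Agent.Lib.TIInvD

/-!
# TI-subgroups normalized by an involution: the case of an exponent two centralizer (counting)
-/

set_option autoImplicit false

namespace Cfsg.Agent.Lib.TIInv

variable {G : Type*} [Group G] [Finite G] {M : Subgroup G} {z y : G}

/-- Counting by fibers. -/
theorem card_of_fibers {α β : Type*} [Finite α] [Finite β] (f : α → β) (k : ℕ)
    (h : ∀ b, Nat.card {a // f a = b} = k) : Nat.card α = Nat.card β * k := by
  classical
  haveI := Fintype.ofFinite β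
  rw [Nat.card_congr (Equiv.sigmaFiberEquiv f).symm, Nat.card_sigma]
  simp only [h, Finset.sum_const, Finset.card_univ, smul_eq_mul, Nat.card_eq_fintype_card]

/-- Removing one point. -/
theorem card_sub_add_one {α : Type*} [Finite α] (P : α → Prop) {a : α} (ha : P a) :
    Nat.card {x // P x} = Nat.card {x // P x ∧ x ≠ a} + 1 := by
  classical
  rw [← Finite.card_option]
  symm
  apply Nat.card_eq_of_bijective (fun o : Option {x // P x ∧ x ≠ a} =>
    match o with
    | none => (⟨a, ha⟩ : {x // P x})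
    | some x => ⟨x.1, x.2.1⟩)
  constructor
  · rintro (_ | x) (_ | y) hxy
    · rfl
    · simp only [Subtype.mk.injEq] at hxy
      exact absurd hxy.symm y.2.2
    · simp only [Subtype.mk.injEq] at hxy
      exact absurd hxy x.2.2
    · simp only [Subtype.mk.injEq] at hxy
      rw [Subtype.ext hxy]
  · rintro ⟨x, hx⟩
    by_cases hxa : x = a
    · exact ⟨none, Subtype.ext hxa.symm⟩
    · exact ⟨some ⟨x, hx, hxa⟩, rfl⟩

/-- The conjugacy relation. -/
def Cj (z u : G) : Prop := ∃ g, u = g * z * g⁻¹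

/-- The fixed points. -/
abbrev Fx (M : Subgroup G) (u : G) : Type _ := {ω : Pt M // u • ω = ω}

theorem card_Fx_conj (M : Subgroup G) (g u : G) :
    Nat.card (Fx M (g * u * g⁻¹)) = Nat.card (Fx M u) := by
  refine Nat.card_congr ⟨fun ω => ⟨g⁻¹ • ω.1, ?_⟩, fun ω => ⟨g • ω.1, ?_⟩, ?_, ?_⟩
  · have := ω.2
    rw [smul_smul]
    have h1 : u * g⁻¹ = g⁻¹ * (g * u * g⁻¹) := by group
    rw [h1, ← smul_smul, this]
  · have := ω.2
    rw [smul_smul]
    have h1 : g * u * g⁻¹ * g = g * u := by group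
    rw [h1, ← smul_smul, this]
  · intro ω
    apply Subtype.ext
    simp
  · intro ω
    apply Subtype.ext
    simp

theorem conj_sq {u : G} (hu : u * u = 1) (g : G) : (g * u * g⁻¹) * (g * u * g⁻¹) = 1 := by
  calc (g * u * g⁻¹) * (g * u * g⁻¹) = g * (u * u) * g⁻¹ := by group
    _ = 1 := by rw [hu]; group

theorem conj_ne {u : G} (hu : u ≠ 1) (g : G) : g * u * g⁻¹ ≠ 1 := by
  intro h1
  apply hu
  have : u = g⁻¹ * (g * u * g⁻¹) * g := by group
  rw [this, h1]
  group

/-- The case of an exponent two centralizer. -/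
structure BB (M : Subgroup G) (z y : G) : Prop extends Dn M z where
  hy : y ∉ Nm M
  hyz : y * z = z * y
  hC : ∀ c ∈ Nm M, c * z = z * c → c = 1 ∨ c = z
  hW : ∀ w, w * z = z * w → w * w = 1

/-- The centralizer of `z`. -/
abbrev Wz (z : G) : Subgroup G := Subgroup.centralizer ({z} : Set G)

theorem mem_Wz {z w : G} : w ∈ Wz z ↔ w * z = z * w := by
  rw [Subgroup.mem_centralizer_singleton_iff]

/-- The conjugates of `z` in its centralizer. -/
abbrev Sz (z : G) : Type _ := {u : G // u * z = z * u ∧ Cj z u}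

namespace BB

variable (h : BB M z y)
include h

theorem W_comm {a b : G} (ha : a * z = z * a) (hb : b * z = z * b) : a * b = b * a := by
  have h1 := h.hW a ha
  have h2 := h.hW b hb
  have h3 := h.hW (a * b) (by rw [mul_assoc, hb, ← mul_assoc, ha, mul_assoc])
  have hai : a⁻¹ = a := inv_eq_of_mul_eq_one_left h1
  have hbi : b⁻¹ = b := inv_eq_of_mul_eq_one_left h2
  have h5 : a * b = (a * b)⁻¹ := eq_inv_of_mul_eq_one_left h3
  rw [mul_inv_rev, hai, hbi] at h5
  exact h5

theorem Cj_sq {u : G} (hu : Cj z u) : u * u = 1 := by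
  obtain ⟨g, rfl⟩ := hu
  exact conj_sq h.hz g

theorem Cj_ne {u : G} (hu : Cj z u) : u ≠ 1 := by
  obtain ⟨g, rfl⟩ := hu
  exact conj_ne h.hz1 g

/-- An involution fixing a point is conjugate to `z`. -/
theorem Cj_of_fix {u : G} (hu : u * u = 1) (hu1 : u ≠ 1) {ω : Pt M} (hω : u • ω = ω) : Cj z u := by
  obtain ⟨g, rfl⟩ := QuotientGroup.mk_surjective ω
  rw [fix_iff] at hω
  have h1 := conj_sq hu g⁻¹
  have h2 := conj_ne hu1 g⁻¹
  rw [inv_inv] at h1 h2
  obtain ⟨n, hn, hn2⟩ := h.inv_conj h1 h2 hω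
  refine ⟨g * n, ?_⟩
  have : u = g * (g⁻¹ * u * g) * g⁻¹ := by group
  rw [this, hn2]
  group

/-- A conjugate of `z` fixes a point of a line. -/
theorem exists_line {ω : Pt M} (hω : ω ≠ pt M 1) :
    ∃ n ∈ M, (n * z * n⁻¹) • ω = ω := by
  obtain ⟨g, rfl⟩ := QuotientGroup.mk_surjective ω
  have hg : g ∉ Nm M := fun h1 => hω (mk_eq_one_iff.mpr h1)
  obtain ⟨s, hs, hs1, hsN, hsg⟩ := h.toDn.exists_two_point hg
  obtain ⟨n, hn, rfl⟩ := h.inv_conj hs hs1 hsN
  exact ⟨n, hn, fix_iff.mpr hsg⟩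

theorem mem_fix_one {c : G} (hc : c ∈ Nm M) : c • pt M 1 = pt M 1 := by
  rw [pt, fix_iff]
  simpa using hc

theorem conj_mem_Nm {n : G} (hn : n ∈ M) : n * z * n⁻¹ ∈ Nm M :=
  (Nm M).mul_mem ((Nm M).mul_mem (mem_Nm_of_le hn) h.hzN) ((Nm M).inv_mem (mem_Nm_of_le hn))

/-- Distinct points `ω ≠ ω'` are fixed by at most one involution. -/
theorem line_unique' {ω ω' : Pt M} (hne : ω ≠ ω') {u u' : G} (hu : u * u = 1) (hu1 : u ≠ 1)
    (hω : u • ω = ω) (hω' : u • ω' = ω') (hu' : u' * u' = 1) (hu1' : u' ≠ 1) (hω2 : u' • ω = ω)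
    (hω2' : u' • ω' = ω') : u = u' := by
  obtain ⟨g, rfl⟩ := QuotientGroup.mk_surjective ω
  obtain ⟨g', rfl⟩ := QuotientGroup.mk_surjective ω'
  rw [fix_iff] at hω hω' hω2 hω2'
  exact h.toDn.line_unique hne hu hu1 hω hω' hu' hu1' hω2 hω2'

theorem conj_inj {n n' : G} (hn : n ∈ M) (hn' : n' ∈ M) (he : n * z * n⁻¹ = n' * z * n'⁻¹) :
    n = n' := by
  have h1 : n⁻¹ * n' ∈ M := M.mul_mem (M.inv_mem hn) hn'
  have h2 : (n⁻¹ * n') * z = z * (n⁻¹ * n') := by
    have h3 : z * n⁻¹ = n⁻¹ * (n' * z * n'⁻¹) := by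
      rw [← he]; group
    calc (n⁻¹ * n') * z = n⁻¹ * (n' * z * n'⁻¹) * n' := by group
      _ = z * n⁻¹ * n' := by rw [h3]
      _ = _ := by group
  have h4 := h.eq_one_of_comm_z h1 h2
  exact inv_mul_eq_one.mp h4

/-- The count of the centralizer. -/
theorem card_W : Nat.card (Wz z) = Nat.card (Fx M z) * 2 := by
  classical
  refine card_of_fibers (fun w : Wz z => (⟨pt M w.1, by
    rw [pt, fix_iff]
    have h1 : w.1⁻¹ * z * w.1 = z := by
      have h2 : z * w.1 = w.1 * z := (mem_Wz.mp w.2).symm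
      rw [mul_assoc, h2]
      group
    rw [h1]
    exact h.hzN⟩ : Fx M z)) 2 ?_
  rintro ⟨ω, hω⟩
  obtain ⟨g, rfl⟩ := QuotientGroup.mk_surjective ω
  have hω' := hω
  rw [fix_iff] at hω'
  have h1 := conj_sq h.hz g⁻¹
  have h2 := conj_ne h.hz1 g⁻¹
  rw [inv_inv] at h1 h2
  obtain ⟨n, hn, hn2⟩ := h.inv_conj h1 h2 hω'
  have hnN := mem_Nm_of_le hn
  have hw0 : (g * n) * z = z * (g * n) := by
    have h3 : z * g = g * (n * z * n⁻¹) := by
      rw [← hn2]; group
    calc (g * n) * z = g * (n * z * n⁻¹) * n := by group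
      _ = z * g * n := by rw [h3]
      _ = _ := by group
  have hw1 : pt M (g * n) = (g : Pt M) := pt_mul_mem hnN
  have hw2 : (g * n * z) * z = z * (g * n * z) := by
    calc (g * n * z) * z = z * (g * n) * z := by rw [hw0]
      _ = z * (g * n * z) := by group
  have hw3 : pt M (g * n * z) = (g : Pt M) := by
    rw [pt_mul_mem h.hzN, hw1]
  rw [Nat.card_eq_two_iff]
  refine ⟨⟨⟨g * n, mem_Wz.mpr hw0⟩, Subtype.ext hw1⟩, ⟨⟨g * n * z, mem_Wz.mpr hw2⟩, Subtype.ext hw3⟩,
    ?_, ?_⟩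
  · intro he
    have h3 : g * n = g * n * z := congrArg (fun x => x.1.1) he
    apply h.hz1
    exact (mul_eq_left.mp h3.symm)
  · ext ⟨⟨w, hw⟩, hf⟩
    simp only [Set.mem_insert_iff, Set.mem_singleton_iff, Set.mem_univ, iff_true]
    have hf' : pt M w = (g : Pt M) := congrArg Subtype.val hf
    have h3 : pt M (g * n) = pt M w := hw1.trans hf'.symm
    have h4 : (g * n)⁻¹ * w ∈ Nm M := mk_eq_iff.mp h3
    have h5 : ((g * n)⁻¹ * w) * z = z * ((g * n)⁻¹ * w) := by
      have h6 : w * z = z * w := mem_Wz.mp hw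
      have h7 : (g * n)⁻¹ * z = z * (g * n)⁻¹ := by
        calc (g * n)⁻¹ * z = (g * n)⁻¹ * (z * (g * n)) * (g * n)⁻¹ := by group
          _ = (g * n)⁻¹ * ((g * n) * z) * (g * n)⁻¹ := by rw [hw0]
          _ = _ := by group
      calc ((g * n)⁻¹ * w) * z = (g * n)⁻¹ * (w * z) := by group
        _ = (g * n)⁻¹ * (z * w) := by rw [h6]
        _ = ((g * n)⁻¹ * z) * w := by group
        _ = (z * (g * n)⁻¹) * w := by rw [h7]
        _ = _ := by group
    rcases h.hC _ h4 h5 with h6 | h6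
    · left
      apply Subtype.ext
      apply Subtype.ext
      exact (inv_mul_eq_one.mp h6).symm
    · right
      apply Subtype.ext
      apply Subtype.ext
      change w = g * n * z
      rw [← h6]
      group

/-- The points other than the base point on the line of `z`. -/
abbrev Fx' (M : Subgroup G) (z : G) : Type _ := {ω : Pt M // z • ω = ω ∧ ω ≠ pt M 1}

theorem card_Fx : Nat.card (Fx M z) = Nat.card (Fx' M z) + 1 := by
  have := card_sub_add_one (fun ω : Pt M => z • ω = ω) (a := pt M 1) (h.mem_fix_one h.hzN)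
  exact this

/-- The first count of the points. -/
theorem card_Pt : Nat.card (Pt M) = Nat.card M * Nat.card (Fx' M z) + 1 := by
  classical
  rw [← Nat.card_prod, ← Finite.card_option]
  symm
  apply Nat.card_eq_of_bijective (fun o : Option (↥M × Fx' M z) =>
    match o with
    | none => pt M 1
    | some x => (x.1 : G) • x.2.1)
  constructor
  · rintro (_ | ⟨n, γ⟩) (_ | ⟨n', γ'⟩) hxy
    · rfl
    · exfalso
      simp only at hxy
      apply γ'.2.2
      have h1 : (n' : G)⁻¹ • ((n' : G) • γ'.1) = (n' : G)⁻¹ • pt M 1 := by rw [← hxy]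
      rw [inv_smul_smul] at h1
      rw [h1]
      exact h.mem_fix_one ((Nm M).inv_mem (mem_Nm_of_le n'.2))
    · exfalso
      simp only at hxy
      apply γ.2.2
      have h1 : (n : G)⁻¹ • ((n : G) • γ.1) = (n : G)⁻¹ • pt M 1 := by rw [hxy]
      rw [inv_smul_smul] at h1
      rw [h1]
      exact h.mem_fix_one ((Nm M).inv_mem (mem_Nm_of_le n.2))
    · simp only at hxy
      have hn := n.2
      have hn' := n'.2
      -- the point is fixed by both conjugates, and so is the base point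
      have hne : ((n : G) • γ.1) ≠ pt M 1 := by
        intro h0
        apply γ.2.2
        have h1 : (n : G)⁻¹ • ((n : G) • γ.1) = (n : G)⁻¹ • pt M 1 := by rw [h0]
        rw [inv_smul_smul] at h1
        rw [h1]
        exact h.mem_fix_one ((Nm M).inv_mem (mem_Nm_of_le n.2))
      have hfix : ∀ (a : G) (δ : Pt M), z • δ = δ → (a * z * a⁻¹) • (a • δ) = a • δ := by
        intro a δ hδ
        rw [smul_smul]
        have h1 : a * z * a⁻¹ * a = a * z := by group
        rw [h1, ← smul_smul, hδ]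
      have h1 := hfix n γ.1 γ.2.1
      have h2 := hfix n' γ'.1 γ'.2.1
      rw [← hxy] at h2
      have h3 := h.line_unique' hne (conj_sq h.hz _) (conj_ne h.hz1 _) h1
        (h.mem_fix_one (h.conj_mem_Nm hn)) (conj_sq h.hz _) (conj_ne h.hz1 _) h2
        (h.mem_fix_one (h.conj_mem_Nm hn'))
      have h4 : (n : G) = n' := h.conj_inj hn hn' h3
      have h5 : n = n' := Subtype.ext h4
      subst h5
      have h6 : γ.1 = γ'.1 := smul_left_cancel _ hxy
      rw [Subtype.ext h6]
  · intro ω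
    by_cases hω : ω = pt M 1
    · exact ⟨none, hω.symm⟩
    · obtain ⟨n, hn, hn2⟩ := h.exists_line hω
      refine ⟨some (⟨n, hn⟩, ⟨n⁻¹ • ω, ?_, ?_⟩), ?_⟩
      · rw [smul_smul]
        have h1 : z * n⁻¹ = n⁻¹ * (n * z * n⁻¹) := by group
        rw [h1, ← smul_smul, hn2]
      · intro h0
        apply hω
        have h1 : n • (n⁻¹ • ω) = n • pt M 1 := by rw [h0]
        rw [smul_inv_smul] at h1
        rw [h1]
        exact h.mem_fix_one (mem_Nm_of_le hn)
      · simp

/-- Each point is fixed by some conjugate of `z` in the centralizer of `z`. -/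
theorem exists_sel (ω : Pt M) : ∃ u : G, u * z = z * u ∧ Cj z u ∧ u • ω = ω := by
  by_cases hfix : z • ω = ω
  · exact ⟨z, rfl, ⟨1, by simp⟩, hfix⟩
  obtain ⟨g, rfl⟩ := QuotientGroup.mk_surjective ω
  rw [fix_iff] at hfix
  have h1 := conj_sq h.hz g⁻¹
  rw [inv_inv] at h1
  obtain ⟨s, hs, hs1, hsN, hsv⟩ := h.toDn.exists_comm_inv h1 hfix
  obtain ⟨n, hn, rfl⟩ := h.inv_conj hs hs1 hsN
  refine ⟨g * (n * z * n⁻¹) * g⁻¹, ?_, ⟨g * n, by group⟩, fix_iff.mpr ?_⟩
  · set s := n * z * n⁻¹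
    calc g * s * g⁻¹ * z = g * (s * (g⁻¹ * z * g)) * g⁻¹ := by group
      _ = g * ((g⁻¹ * z * g) * s) * g⁻¹ := by rw [hsv]
      _ = _ := by group
  · have : g⁻¹ * (g * (n * z * n⁻¹) * g⁻¹) * g = n * z * n⁻¹ := by group
    rw [this]
    exact hsN

/-- Uniqueness of the conjugate in the centralizer of `z` fixing a given point. -/
theorem sel_unique {ω : Pt M} {u u' : G} (hu : u * z = z * u) (hc : Cj z u) (hf : u • ω = ω)
    (hu' : u' * z = z * u') (hc' : Cj z u') (hf' : u' • ω = ω) : u = u' := by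
  obtain ⟨g, rfl⟩ := QuotientGroup.mk_surjective ω
  rw [fix_iff] at hf hf'
  have h1 := conj_sq (h.Cj_sq hc) g⁻¹
  have h2 := conj_ne (h.Cj_ne hc) g⁻¹
  have h1' := conj_sq (h.Cj_sq hc') g⁻¹
  have h2' := conj_ne (h.Cj_ne hc') g⁻¹
  rw [inv_inv] at h1 h2 h1' h2'
  have h3 := h.inv_eq_of_comm h1 h2 hf h1' h2' hf' (by
    have := h.W_comm hu hu'
    calc g⁻¹ * u * g * (g⁻¹ * u' * g) = g⁻¹ * (u * u') * g := by group
      _ = g⁻¹ * (u' * u) * g := by rw [this]
      _ = _ := by group)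
  have h4 : g * (g⁻¹ * u * g) * g⁻¹ = g * (g⁻¹ * u' * g) * g⁻¹ := by rw [h3]
  simpa using h4

/-- The second count of the points. -/
theorem card_Pt₂ : Nat.card (Pt M) = Nat.card (Sz z) * Nat.card (Fx M z) := by
  classical
  choose sel hsel1 hsel2 hsel3 using h.exists_sel
  refine card_of_fibers (fun ω : Pt M => (⟨sel ω, hsel1 ω, hsel2 ω⟩ : Sz z)) _ ?_
  rintro ⟨u, hu, hc⟩
  obtain ⟨g, rfl⟩ := hc
  rw [← card_Fx_conj M g z]
  apply Nat.card_congr
  apply Equiv.subtypeEquivRight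
  intro ω
  constructor
  · intro h1
    have h2 : sel ω = g * z * g⁻¹ := congrArg Subtype.val h1
    rw [← h2]
    exact hsel3 ω
  · intro h1
    apply Subtype.ext
    exact h.sel_unique (hsel1 ω) (hsel2 ω) (hsel3 ω) hu ⟨g, rfl⟩ h1

/-- A bound. -/
theorem card_Sz_lt : Nat.card (Sz z) + 1 ≤ Nat.card (Wz z) := by
  classical
  rw [← Finite.card_option]
  apply Nat.card_le_card_of_injective (fun o : Option (Sz z) =>
    match o with
    | none => (1 : Wz z)
    | some x => (⟨x.1, mem_Wz.mpr x.2.1⟩ : Wz z))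
  rintro (_ | ⟨u, hu, hc⟩) (_ | ⟨u', hu', hc'⟩) hxy
  · rfl
  · exfalso
    have := congrArg Subtype.val hxy
    exact h.Cj_ne hc' this.symm
  · exfalso
    have := congrArg Subtype.val hxy
    exact h.Cj_ne hc this
  · have : u = u' := congrArg Subtype.val hxy
    subst this
    rfl

theorem exists_Fx' : 0 < Nat.card (Fx' M z) := by
  haveI : Nonempty (Fx' M z) := ⟨⟨pt M y, by
    rw [pt, fix_iff]
    have h1 : y⁻¹ * z * y = z := by
      have h2 : z * y = y * z := h.hyz.symm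
      rw [mul_assoc, h2]
      group
    rw [h1]
    exact h.hzN, fun h1 => h.hy (mk_eq_one_iff.mp h1)⟩⟩
  exact Nat.card_pos

theorem one_lt_card_M : 1 < Nat.card M := by
  have hb := h.ne_bot
  rw [Subgroup.ne_bot_iff_exists_ne_one] at hb
  obtain ⟨x, hx⟩ := hb
  haveI : Nontrivial M := ⟨⟨x, 1, hx⟩⟩
  exact Finite.one_lt_card

/-- The numerical conclusion. -/
theorem numbers :
    2 ≤ Nat.card (Fx M z) ∧ Nat.card (Wz z) = Nat.card (Fx M z) * 2 ∧
    ((Nat.card M = 2 * Nat.card (Fx M z) + 1 ∧ Nat.card (Sz z) + 1 = Nat.card (Wz z)) ∨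
     (Nat.card M = Nat.card (Fx M z) + 1 ∧ Nat.card (Sz z) = Nat.card (Fx M z))) := by
  have h1 := h.card_W
  have h2 := h.card_Fx
  have h3 := h.card_Pt
  have h4 := h.card_Pt₂
  have h5 := h.card_Sz_lt
  have h6 := h.exists_Fx'
  have h7 := h.one_lt_card_M
  refine ⟨by omega, h1, ?_⟩
  generalize Nat.card (Fx M z) = f at *
  generalize Nat.card (Fx' M z) = f' at *
  generalize Nat.card M = a at *
  generalize Nat.card (Sz z) = s at *
  generalize Nat.card (Wz z) = W at *
  generalize Nat.card (Pt M) = P at *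
  subst h2
  subst h1
  subst h4
  -- `a ≡ 1 mod f`
  have h8 : s * (f' + 1) = a * f' + 1 := h3
  have h9 : (f' + 1) ∣ a - 1 := by
    have : a * f' + 1 + (a - 1) = a * (f' + 1) := by
      obtain ⟨b, rfl⟩ : ∃ b, a = b + 1 := ⟨a - 1, by omega⟩
      simp only [Nat.add_sub_cancel]
      ring
    have h10 : (f' + 1) ∣ (a * f' + 1) + (a - 1) := by
      rw [this]; exact Dvd.intro_left _ rfl
    rw [← h8] at h10
    exact (Nat.dvd_add_right (Dvd.intro_left _ rfl)).mp h10
  obtain ⟨k, hk⟩ := h9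
  have ha : a = 1 + (f' + 1) * k := by omega
  subst ha
  have hk1 : 1 ≤ k := by
    rcases Nat.eq_zero_or_pos k with rfl | hk0
    · simp at h7
    · exact hk0
  have hs : s = 1 + k * f' := by
    have h10 : s * (f' + 1) = (1 + k * f') * (f' + 1) := by
      rw [h8]; ring
    exact Nat.eq_of_mul_eq_mul_right (Nat.succ_pos _) h10
  subst hs
  have hk2 : k ≤ 2 := by
    by_contra hk3
    push Not at hk3
    have : 3 * f' ≤ k * f' := Nat.mul_le_mul_right _ hk3
    omega
  interval_cases k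
  · right
    constructor <;> ring
  · left
    constructor
    · ring
    · ring

end BB

end Cfsg.Agent.Lib.TIInv
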