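import Mathlib
import Cfsg.Agent.Lib.TIInvF
import Cfsg.Agent.Lib.CITElem3
import Cfsg.Agent.Lib.CAInvSplit
import Cfsg.Agent.Lib.PrimeGraphSL2

/-!
# TI-subgroups normalized by an involution: the large case, `PSL₂` in characteristic two
-/

set_option autoImplicit false

namespace Cfsg.Agent.Lib.TIInv

variable {G : Type*} [Group G] [Finite G] {M : Subgroup G} {z y : G}

theorem comm_of_sq {a b : G} (ha : a * a = 1) (hb : b * b = 1) (hab : (a * b) * (a * b) = 1) :
    a * b = b * a := by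
  have hai : a⁻¹ = a := inv_eq_of_mul_eq_one_left ha
  have hbi : b⁻¹ = b := inv_eq_of_mul_eq_one_left hb
  have h5 : a * b = (a * b)⁻¹ := eq_inv_of_mul_eq_one_left hab
  rw [mul_inv_rev, hai, hbi] at h5
  exact h5

/-- Abelian subgroups of odd order of `SL₂` in characteristic two are cyclic. -/
theorem cyclic_of_psl {F : Type*} [Field F] [Fintype F] [CharP F 2]
    (e : G ≃* Matrix.ProjectiveSpecialLinearGroup (Fin 2) F) (hc : ∀ a b : M, a * b = b * a)
    (hodd : Odd (Nat.card M)) : IsCyclic M := by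
  classical
  let e' := e.trans (Cfsg.Agent.Lib.PrimeGraphSL2.pslEquivSl (F := F))
  haveI : IsZGroup M := by
    refine ⟨fun p hpp P => ?_⟩
    haveI : Fact p.Prime := ⟨hpp⟩
    by_cases hp2 : p = 2
    · subst hp2
      obtain ⟨k, hk⟩ := IsPGroup.iff_card.mp P.isPGroup'
      have hd : Nat.card P ∣ Nat.card M := Subgroup.card_subgroup_dvd_card _
      have hk0 : k = 0 := by
        by_contra hk1
        have h2 : 2 ∣ Nat.card P := by
          rw [hk]; exact dvd_pow_self 2 hk1
        exact (Nat.not_even_iff_odd.mpr hodd) (even_iff_two_dvd.mpr (h2.trans hd))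
      subst hk0
      rw [pow_zero] at hk
      haveI : Subsingleton P := (Nat.card_eq_one_iff_unique.mp hk).1
      infer_instance
    · let f : M →* Matrix.SpecialLinearGroup (Fin 2) F := e'.toMonoidHom.comp M.subtype
      have hf : Function.Injective f := e'.injective.comp M.subtype_injective
      have hR : IsPGroup p ((P : Subgroup M).map f) := P.isPGroup'.map f
      haveI := Cfsg.Agent.Lib.CAInv.sl_isCyclic ((P : Subgroup M).map f) hp2 hR
      exact isCyclic_of_surjective _ (Subgroup.equivMapOfInjective (P : Subgroup M) f hf).symm.surjective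
  letI : CommGroup M := { (inferInstance : Group M) with mul_comm := hc }
  haveI : Group.IsNilpotent M := CommGroup.isNilpotent
  infer_instance

namespace BB

variable (h : BB M z y)
include h

theorem all_W_conj (hS : Nat.card (Sz z) + 1 = Nat.card (Wz z)) {w : G} (hw : w * z = z * w)
    (hw1 : w ≠ 1) : Cj z w := by
  classical
  have hinj : Function.Injective (fun o : Option (Sz z) =>
    match o with
    | none => (1 : Wz z)
    | some x => (⟨x.1, mem_Wz.mpr x.2.1⟩ : Wz z)) := by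
    rintro (_ | ⟨u, hu, hc⟩) (_ | ⟨u', hu', hc'⟩) hxy
    · rfl
    · exfalso
      have := congrArg Subtype.val hxy
      exact h.Cj_ne hc' this.symm
    · exfalso
      have := congrArg Subtype.val hxy
      exact h.Cj_ne hc this
    · have : u = u' := congrArg Subtype.val hxy
      subst this
      rfl
  have hbij := hinj.bijective_of_nat_card_le (by rw [Finite.card_option, hS])
  obtain ⟨o, ho⟩ := hbij.2 ⟨w, mem_Wz.mpr hw⟩
  rcases o with _ | x
  · exfalso
    exact hw1 (congrArg Subtype.val ho).symm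
  · have h1 : x.1 = w := congrArg Subtype.val ho
    rw [← h1]
    exact x.2.2

theorem all_conj (hS : Nat.card (Sz z) + 1 = Nat.card (Wz z)) {t : G} (ht : t * t = 1)
    (ht1 : t ≠ 1) : Cj z t := by
  by_cases htN : t ∈ Nm M
  · obtain ⟨n, -, hn⟩ := h.inv_conj ht ht1 htN
    exact ⟨n, hn⟩
  obtain ⟨s, hs, hs1, hsN, hst⟩ := h.toDn.exists_comm_inv ht htN
  obtain ⟨n, -, rfl⟩ := h.inv_conj hs hs1 hsN
  have h1 : (n⁻¹ * t * n) * z = z * (n⁻¹ * t * n) := by
    calc (n⁻¹ * t * n) * z = n⁻¹ * (t * (n * z * n⁻¹)) * n := by group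
      _ = n⁻¹ * ((n * z * n⁻¹) * t) * n := by rw [hst]
      _ = _ := by group
  have h2 : n⁻¹ * t * n ≠ 1 := by
    have := conj_ne ht1 n⁻¹
    rwa [inv_inv] at this
  obtain ⟨g, hg⟩ := h.all_W_conj hS h1 h2
  refine ⟨n * g, ?_⟩
  have h3 : t = n * (n⁻¹ * t * n) * n⁻¹ := by group
  rw [h3, hg]
  group

/-- Centralizers of all conjugates of `z` are elementary abelian. -/
theorem cent_of_Cj {t c : G} (ht : Cj z t) (hc : c * t = t * c) : c * c = 1 := by
  obtain ⟨g, rfl⟩ := ht
  have h1 : (g⁻¹ * c * g) * z = z * (g⁻¹ * c * g) := by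
    calc (g⁻¹ * c * g) * z = g⁻¹ * (c * (g * z * g⁻¹)) * g := by group
      _ = g⁻¹ * ((g * z * g⁻¹) * c) * g := by rw [hc]
      _ = _ := by group
  have h2 := h.hW _ h1
  have h3 := conj_sq h2 g
  have h4 : g * (g⁻¹ * c * g) * g⁻¹ = c := by group
  rwa [h4] at h3

theorem card_W_two_pow : ∃ n, Nat.card (Wz z) = 2 ^ n := by
  apply IsPGroup.iff_card.mp
  intro w
  refine ⟨1, ?_⟩
  apply Subtype.ext
  have := h.hW w.1 (mem_Wz.mp w.2)
  simpa [pow_two] using this

theorem isPGroup_W : IsPGroup 2 (Wz z) := by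
  intro w
  refine ⟨1, ?_⟩
  apply Subtype.ext
  have := h.hW w.1 (mem_Wz.mp w.2)
  simpa [pow_two] using this

/-- The large case: `G` is `PSL₂(2^e)`. -/
theorem large_case (hnum : 2 ≤ Nat.card (Fx M z)) (hcardW : Nat.card (Wz z) = Nat.card (Fx M z) * 2)
    (hM : Nat.card M = 2 * Nat.card (Fx M z) + 1) (hS : Nat.card (Sz z) + 1 = Nat.card (Wz z)) :
    ∃ (F : Type) (_ : Field F) (_ : Fintype F) (e : ℕ), 1 < e ∧ Fintype.card F = 2 ^ e ∧
      IsCyclic ↥M ∧ Nat.card M = 2 ^ e + 1 ∧
      Nonempty (G ≃* Matrix.ProjectiveSpecialLinearGroup (Fin 2) F) := by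
  classical
  haveI : Fact (Nat.Prime 2) := ⟨Nat.prime_two⟩
  have hzo : orderOf z = 2 := orderOf_eq_prime (by rw [pow_two]; exact h.hz) h.hz1
  have hall : ∀ t : G, orderOf t = 2 → t * t = 1 ∧ t ≠ 1 := by
    intro t ht
    constructor
    · have := pow_orderOf_eq_one t
      rwa [ht, pow_two] at this
    · rintro rfl
      rw [orderOf_one] at ht
      omega
  obtain ⟨T, hWT⟩ := h.isPGroup_W.exists_le_sylow
  have hzT : z ∈ (T : Subgroup G) := hWT (mem_Wz.mpr rfl)
  -- `T` is contained in the centralizer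
  have hsqT : ∀ c ∈ (T : Subgroup G), c * c = 1 := by
    intro c hc
    haveI : Nontrivial (T : Subgroup G) := ⟨⟨⟨z, hzT⟩, 1, fun h1 => h.hz1 (congrArg Subtype.val h1)⟩⟩
    haveI : Nontrivial (Subgroup.center (T : Subgroup G)) := T.isPGroup'.center_nontrivial
    have hp : IsPGroup 2 (Subgroup.center (T : Subgroup G)) := T.isPGroup'.to_subgroup _
    have hd : 2 ∣ Nat.card (Subgroup.center (T : Subgroup G)) := by
      obtain ⟨k, hk⟩ := IsPGroup.iff_card.mp hp
      have h1 : 1 < Nat.card (Subgroup.center (T : Subgroup G)) := Finite.one_lt_card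
      rw [hk] at h1 ⊢
      have hk0 : k ≠ 0 := by
        rintro rfl
        simp at h1
      exact dvd_pow_self 2 hk0
    obtain ⟨t, ht⟩ := exists_prime_orderOf_dvd_card' 2 hd
    have ht2 : orderOf ((t : (T : Subgroup G)) : G) = 2 := by
      rw [Subgroup.orderOf_coe, Subgroup.orderOf_coe]; exact ht
    obtain ⟨ht3, ht4⟩ := hall _ ht2
    have hcj := h.all_conj hS ht3 ht4
    have hcomm : c * ((t : (T : Subgroup G)) : G) = ((t : (T : Subgroup G)) : G) * c := by
      have := (Subgroup.mem_center_iff.mp t.2) ⟨c, hc⟩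
      exact (congrArg Subtype.val this)
    exact h.cent_of_Cj hcj hcomm
  have hTW : (T : Subgroup G) ≤ Wz z := by
    intro c hc
    rw [mem_Wz]
    exact comm_of_sq (hsqT c hc) h.hz (hsqT _ ((T : Subgroup G).mul_mem hc hzT))
  have hTeq : (T : Subgroup G) = Wz z := le_antisymm hTW hWT
  have hcit : Cfsg.Agent.Lib.CITElem.CIT G := by
    refine Cfsg.Agent.Lib.CITElem.CIT.of T ?_ ?_ ?_
    · intro hcyc
      obtain ⟨⟨g, hg⟩, hgen⟩ := hcyc.exists_generator
      have h1 : orderOf (⟨g, hg⟩ : (T : Subgroup G)) = Nat.card (T : Subgroup G) :=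
        orderOf_eq_card_of_forall_mem_zpowers hgen
      have h2 : orderOf (⟨g, hg⟩ : (T : Subgroup G)) ∣ 2 := by
        apply orderOf_dvd_of_pow_eq_one
        apply Subtype.ext
        simpa [pow_two] using hsqT g hg
      rw [h1, hTeq, hcardW] at h2
      have := Nat.le_of_dvd (by norm_num) h2
      omega
    · intro hn
      obtain ⟨m, hm⟩ := (Subgroup.ne_bot_iff_exists_ne_one.mp h.ne_bot)
      have hm' : (m : G) ∈ M := m.2
      have hm1' : (m : G) ≠ 1 := fun h1 => hm (Subtype.ext h1)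
      have h1 : (m : G) * z * (m : G)⁻¹ ∈ (T : Subgroup G) := hn.conj_mem z hzT m
      rw [hTeq, mem_Wz] at h1
      have h2 := h.inv_eq_of_comm (conj_sq h.hz _) (conj_ne h.hz1 _) (h.conj_mem_Nm hm') h.hz h.hz1
        h.hzN h1
      have h3 : (m : G) * z * (m : G)⁻¹ = 1 * z * 1⁻¹ := by
        rw [h2]; group
      exact hm1' (h.conj_inj hm' M.one_mem h3)
    · intro t ht
      obtain ⟨ht3, ht4⟩ := hall t ht
      have hcj := h.all_conj hS ht3 ht4
      have hsq : ∀ c ∈ Subgroup.centralizer ({t} : Set G), c * c = 1 := by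
        intro c hc
        exact h.cent_of_Cj hcj (Subgroup.mem_centralizer_singleton_iff.mp hc)
      refine ⟨⟨⟨fun a b => ?_⟩⟩, fun c hc => by rw [pow_two]; exact hsq c hc⟩
      apply Subtype.ext
      exact comm_of_sq (hsq a a.2) (hsq b b.2) (hsq _ (a * b).2)
  obtain ⟨F, fF, fin, hF, ⟨e⟩⟩ := hcit.exists_psl T
  obtain ⟨n, hn⟩ := h.card_W_two_pow
  have hcT : Nat.card (T : Subgroup G) = 2 ^ n := by rw [hTeq]; exact hn
  have hF2 : Fintype.card F = 2 ^ n := hF.trans hcT
  have hn1 : 1 < n := by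
    by_contra hn2
    push Not at hn2
    have : 2 ^ n ≤ 2 ^ 1 := Nat.pow_le_pow_right (by norm_num) hn2
    rw [← hn, hcardW] at this
    omega
  haveI : CharP F 2 := charP_of_card_eq_prime_pow (R := F) (p := 2) (f := n) hF2
  refine ⟨F, fF, fin, n, hn1, hF2, ?_, ?_, ⟨e⟩⟩
  · refine cyclic_of_psl e (fun a b => Subtype.ext (h.comm a.2 b.2)) h.odd_card
  · rw [hM, ← hn, hcardW]
    ring

end BB

end Cfsg.Agent.Lib.TIInv
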