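import Mathlib
import Cfsg.Prelude.Def_Transfer
import Cfsg.Agent.Lib.TIInvG
import Cfsg.Agent.Lib.FpfNorm
import Cfsg.Agent.Lib.DicksonGroups

/-!
# TI-subgroups normalized by an involution: the small case, a normal elementary abelian subgroup
-/

set_option autoImplicit false

namespace Cfsg.Agent.Lib.TIInv

variable {G : Type*} [Group G] [Finite G] {M : Subgroup G} {z y : G}

/-- The conjugacy class. -/
abbrev Cl (z : G) : Type _ := {u : G // Cj z u}

/-- The involutions. -/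
abbrev IV (G : Type*) [Group G] : Type _ := {g : G // g * g = 1 ∧ g ≠ 1}

/-- The involutions not conjugate to `z`. -/
abbrev Bz (z : G) : Type _ := {t : G // t * t = 1 ∧ t ≠ 1 ∧ ¬ Cj z t}

/-- The involutions outside the normalizer. -/
abbrev Jz (M : Subgroup G) : Type _ := {t : G // t * t = 1 ∧ t ∉ Nm M}

/-- The class equation for `z`. -/
theorem card_cl (z : G) : Nat.card G = Nat.card (Cl z) * Nat.card (Wz z) := by
  refine card_of_fibers (fun g : G => (⟨g * z * g⁻¹, g, rfl⟩ : Cl z)) _ ?_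
  rintro ⟨u, g₀, rfl⟩
  symm
  refine Nat.card_congr ⟨fun w => ⟨g₀ * w.1, ?_⟩, fun g => ⟨g₀⁻¹ * g.1, ?_⟩, ?_, ?_⟩
  · have h1 : w.1 * z = z * w.1 := mem_Wz.mp w.2
    apply Subtype.ext
    change g₀ * w.1 * z * (g₀ * w.1)⁻¹ = g₀ * z * g₀⁻¹
    calc g₀ * w.1 * z * (g₀ * w.1)⁻¹ = g₀ * (w.1 * z) * w.1⁻¹ * g₀⁻¹ := by group
      _ = g₀ * (z * w.1) * w.1⁻¹ * g₀⁻¹ := by rw [h1]
      _ = _ := by group
  · have h1 : g.1 * z * g.1⁻¹ = g₀ * z * g₀⁻¹ := congrArg Subtype.val g.2
    rw [mem_Wz]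
    have h2 : g₀⁻¹ * g.1 * z = z * g₀⁻¹ * g.1 := by
      calc g₀⁻¹ * g.1 * z = g₀⁻¹ * (g.1 * z * g.1⁻¹) * g.1 := by group
        _ = g₀⁻¹ * (g₀ * z * g₀⁻¹) * g.1 := by rw [h1]
        _ = _ := by group
    rw [h2]
    group
  · intro w
    apply Subtype.ext
    simp
  · intro g
    apply Subtype.ext
    simp

/-- A group acting freely on a normal abelian subgroup is cyclic, if it is abelian. -/
theorem isCyclic_of_conj_free (K : Subgroup G) [K.Normal] (hKc : ∀ a ∈ K, ∀ b ∈ K, a * b = b * a)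
    (hK1 : K ≠ ⊥) (hMc : ∀ a ∈ M, ∀ b ∈ M, a * b = b * a)
    (hfree : ∀ m ∈ M, m ≠ 1 → ∀ k ∈ K, m * k = k * m → k = 1) : IsCyclic M := by
  letI : CommGroup K := { (inferInstance : Group K) with
    mul_comm := fun a b => Subtype.ext (hKc a a.2 b b.2) }
  haveI : Nontrivial K := by
    obtain ⟨x, hx⟩ := Subgroup.ne_bot_iff_exists_ne_one.mp hK1
    exact ⟨⟨x, 1, hx⟩⟩
  let φ : ↥M →* MulAut ↥K := (MulAut.conjNormal (H := K)).comp M.subtype
  refine Cfsg.Agent.Lib.FpfNorm.isCyclic_of_comm (φ := φ) ?_ (fun a b => Subtype.ext (hMc a a.2 b b.2))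
  intro a ha v hv
  have hv' : (a : G) * (v : G) * (a : G)⁻¹ = v := congrArg Subtype.val hv
  have h1 : (a : G) ≠ 1 := fun h2 => ha (Subtype.ext h2)
  have h2 : (a : G) * v = v * a := by
    calc (a : G) * v = (a : G) * v * (a : G)⁻¹ * a := by group
      _ = v * a := by rw [hv']
  exact Subtype.ext (hfree a a.2 h1 v v.2 h2)

namespace BB

variable (h : BB M z y)
include h

theorem card_Nm : Nat.card (Nm M) = 2 * Nat.card M := by
  classical
  rw [two_mul, ← Nat.card_sum]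
  symm
  apply Nat.card_eq_of_bijective (fun o : ↥M ⊕ ↥M =>
    match o with
    | Sum.inl m => (⟨m.1, mem_Nm_of_le m.2⟩ : Nm M)
    | Sum.inr m => ⟨m.1 * z, (Nm M).mul_mem (mem_Nm_of_le m.2) h.hzN⟩)
  constructor
  · have hzM : ∀ m m' : G, m ∈ M → m' ∈ M → m ≠ m' * z := by
      rintro m m' hm hm' rfl
      have h1 : z ∈ M := by
        have : z = m'⁻¹ * (m' * z) := by group
        rw [this]
        exact M.mul_mem (M.inv_mem hm') hm
      exact h.hz1 (h.sq_eq_one h1 h.hz)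
    rintro (a | a) (b | b) hab
    · have h1 : a.1 = b.1 := congrArg (fun x : Nm M => (x : G)) hab
      rw [Subtype.ext h1]
    · exact absurd (congrArg Subtype.val hab) (hzM _ _ a.2 b.2)
    · exact absurd (congrArg Subtype.val hab).symm (hzM _ _ b.2 a.2)
    · have h1 : a.1 * z = b.1 * z := congrArg Subtype.val hab
      rw [Subtype.ext (mul_right_cancel h1)]
  · rintro ⟨g, hg⟩
    obtain ⟨m, hm, c, hc, hcz, rfl⟩ := h.fac g hg
    rcases h.hC c hc hcz with rfl | rfl
    · exact ⟨Sum.inl ⟨m, hm⟩, Subtype.ext (by simp)⟩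
    · exact ⟨Sum.inr ⟨m, hm⟩, rfl⟩

theorem index_eq : M.index = 2 * Nat.card (Pt M) := by
  have h1 := Subgroup.card_mul_index M
  have h2 := Subgroup.card_mul_index (Nm M)
  rw [h.card_Nm] at h2
  have h3 : (Nm M).index = Nat.card (Pt M) := rfl
  rw [h3] at h2
  have h4 : 0 < Nat.card M := Nat.card_pos
  have h5 : Nat.card M * M.index = Nat.card M * (2 * Nat.card (Pt M)) := by
    rw [h1, ← h2]; ring
  exact Nat.eq_of_mul_eq_mul_left h4 h5

theorem card_J : M.index ≤ Nat.card (Jz M) + 2 := by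
  classical
  have h2 : Nat.card Bool = 2 := by simp
  rw [← h2, ← Nat.card_sum]
  apply Nat.card_le_card_of_surjective (fun o : Jz M ⊕ Bool =>
    match o with
    | Sum.inl y => ((y.1 : G) : G ⧸ M)
    | Sum.inr true => ((z : G) : G ⧸ M)
    | Sum.inr false => ((1 : G) : G ⧸ M))
  intro x
  obtain ⟨g, rfl⟩ := QuotientGroup.mk_surjective x
  by_cases hg : g ∈ Nm M
  · obtain ⟨m, hm, c, hc, hcz, rfl⟩ := h.fac g hg
    rcases h.hC c hc hcz with rfl | rfl
    · refine ⟨Sum.inr false, ?_⟩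
      change ((1 : G) : G ⧸ M) = _
      rw [QuotientGroup.eq]
      simpa using hm
    · refine ⟨Sum.inr true, ?_⟩
      change ((c : G) : G ⧸ M) = _
      rw [QuotientGroup.eq]
      have h3 : c⁻¹ * (m * c) = c * m * c := by
        have : c⁻¹ = c := inv_eq_of_mul_eq_one_left h.hz
        rw [this]; group
      rw [h3, h.z_inv hm]
      exact M.inv_mem hm
  · obtain ⟨m, hm, hm2⟩ := h.dense g hg
    have hgm : g * m ∉ Nm M := by
      intro h1
      apply hg
      have : g = (g * m) * m⁻¹ := by group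
      rw [this]
      exact (Nm M).mul_mem h1 ((Nm M).inv_mem (mem_Nm_of_le hm))
    refine ⟨Sum.inl ⟨g * m, hm2, hgm⟩, ?_⟩
    change ((g * m : G) : G ⧸ M) = _
    rw [QuotientGroup.eq]
    have : (g * m)⁻¹ * g = m⁻¹ := by group
    rw [this]
    exact M.inv_mem hm

theorem card_IV_lb : Nat.card M + Nat.card (Jz M) ≤ Nat.card (IV G) := by
  classical
  rw [← Nat.card_sum]
  apply Nat.card_le_card_of_injective (fun o : ↥M ⊕ Jz M =>
    match o with
    | Sum.inl m => (⟨m.1 * z, h.mul_z_sq m.2, h.mul_z_ne_one m.2⟩ : IV G)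
    | Sum.inr t => ⟨t.1, t.2.1, fun h1 => t.2.2 (by rw [h1]; exact Subgroup.one_mem _)⟩)
  rintro (a | a) (b | b) hab
  · have h1 : a.1 * z = b.1 * z := congrArg Subtype.val hab
    rw [Subtype.ext (mul_right_cancel h1)]
  · have h1 : a.1 * z = b.1 := congrArg Subtype.val hab
    exfalso
    apply b.2.2
    rw [← h1]
    exact (Nm M).mul_mem (mem_Nm_of_le a.2) h.hzN
  · have h1 : a.1 = b.1 * z := congrArg Subtype.val hab
    exfalso
    apply a.2.2
    rw [h1]
    exact (Nm M).mul_mem (mem_Nm_of_le b.2) h.hzN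
  · have h1 : a.1 = b.1 := congrArg (fun x : IV G => (x : G)) hab
    rw [Subtype.ext h1]

omit h in
theorem card_IV_ub (z : G) : Nat.card (IV G) ≤ Nat.card (Cl z) + Nat.card (Bz z) := by
  classical
  rw [← Nat.card_sum]
  apply Nat.card_le_card_of_injective (fun t : IV G =>
    if ht : Cj z t.1 then (Sum.inl ⟨t.1, ht⟩ : Cl z ⊕ Bz z)
    else Sum.inr ⟨t.1, t.2.1, t.2.2, ht⟩)
  intro a b hab
  by_cases ha : Cj z a.1 <;> by_cases hb : Cj z b.1
  · simp only [dif_pos ha, dif_pos hb, Sum.inl.injEq, Subtype.mk.injEq] at hab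
    exact Subtype.ext hab
  · simp [dif_pos ha, dif_neg hb] at hab
  · simp [dif_neg ha, dif_pos hb] at hab
  · simp only [dif_neg ha, dif_neg hb, Sum.inr.injEq, Subtype.mk.injEq] at hab
    exact Subtype.ext hab

/-- The lower bound for the involutions outside. -/
theorem card_Bz (hM : Nat.card M = Nat.card (Fx M z) + 1)
    (hS : Nat.card (Sz z) = Nat.card (Fx M z)) (hcardW : Nat.card (Wz z) = Nat.card (Fx M z) * 2) :
    Nat.card (Pt M) = Nat.card (Fx M z) ^ 2 ∧
    Nat.card (Fx M z) ^ 2 ≤ Nat.card (Bz z) + 1 := by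
  have h1 := h.card_Pt₂
  rw [hS] at h1
  have h2 : Nat.card (Pt M) = Nat.card (Fx M z) ^ 2 := by rw [h1, pow_two]
  refine ⟨h2, ?_⟩
  have h3 := h.index_eq
  have h4 := h.card_J
  have h5 := h.card_IV_lb
  have h6 := card_IV_ub z
  have h7 := card_cl z
  have h8 := Subgroup.card_mul_index M
  rw [h8.symm, hM, h3, h2, hcardW] at h7
  set f := Nat.card (Fx M z) with hf
  have hf0 : 0 < f := by
    rw [hf]
    haveI : Nonempty (Fx M z) := ⟨⟨pt M 1, h.mem_fix_one h.hzN⟩⟩
    exact Nat.card_pos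
  have h9 : Nat.card (Cl z) = (f + 1) * f := by
    have h10 : (f * 2) * Nat.card (Cl z) = (f * 2) * ((f + 1) * f) := by
      have : (f + 1) * (2 * f ^ 2) = (f * 2) * ((f + 1) * f) := by ring
      rw [← this, h7]
      ring
    exact Nat.eq_of_mul_eq_mul_left (by positivity) h10
  rw [h3, h2] at h4
  rw [hM] at h5
  rw [h9] at h6
  have h11 : (f + 1) * f = f ^ 2 + f := by ring
  rw [h11] at h6
  omega

end BB

end Cfsg.Agent.Lib.TIInv
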