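import Mathlib
import Cfsg.Agent.Lib.TIInvH

/-!
# TI-subgroups normalized by an involution: the small case, construction of the normal subgroup
-/

set_option autoImplicit false

namespace Cfsg.Agent.Lib.TIInv

variable {G : Type*} [Group G] [Finite G] {M : Subgroup G} {z y : G}

/-- Centralizers of conjugates have the same order. -/
theorem card_Wz_conj (g z : G) : Nat.card (Wz (g * z * g⁻¹)) = Nat.card (Wz z) := by
  symm
  refine Nat.card_congr ⟨fun w => ⟨g * w.1 * g⁻¹, ?_⟩, fun w => ⟨g⁻¹ * w.1 * g, ?_⟩, ?_, ?_⟩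
  · have h1 : w.1 * z = z * w.1 := mem_Wz.mp w.2
    rw [mem_Wz]
    calc g * w.1 * g⁻¹ * (g * z * g⁻¹) = g * (w.1 * z) * g⁻¹ := by group
      _ = g * (z * w.1) * g⁻¹ := by rw [h1]
      _ = _ := by group
  · have h1 : w.1 * (g * z * g⁻¹) = (g * z * g⁻¹) * w.1 := mem_Wz.mp w.2
    rw [mem_Wz]
    calc g⁻¹ * w.1 * g * z = g⁻¹ * (w.1 * (g * z * g⁻¹)) * g := by group
      _ = g⁻¹ * ((g * z * g⁻¹) * w.1) * g := by rw [h1]
      _ = _ := by group
  · intro w
    apply Subtype.ext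
    simp only
    group
  · intro w
    apply Subtype.ext
    simp only
    group

namespace BB

variable (h : BB M z y)
include h

/-- The line of a conjugate of `z` not commuting with `z` meets the line of `z`. -/
theorem lines_meet (hS : Nat.card (Sz z) = Nat.card (Fx M z)) {u : G} (hcj : Cj z u)
    (hnc : u * z ≠ z * u) : ∃ ω : Pt M, u • ω = ω ∧ z • ω = ω := by
  classical
  choose sel hsel1 hsel2 hsel3 using h.exists_sel
  let φ : Fx M u → Sz z := fun ω => ⟨sel ω.1, hsel1 ω.1, hsel2 ω.1⟩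
  have hinj : Function.Injective φ := by
    intro a b hab
    by_contra hne
    have hne' : a.1 ≠ b.1 := fun h1 => hne (Subtype.ext h1)
    have hsel : sel a.1 = sel b.1 := congrArg (fun x : Sz z => (x : G)) hab
    have h1 := h.line_unique' hne' (h.Cj_sq hcj) (h.Cj_ne hcj) a.2 b.2
      (h.Cj_sq (hsel2 a.1)) (h.Cj_ne (hsel2 a.1)) (hsel3 a.1) (by rw [hsel]; exact hsel3 b.1)
    apply hnc
    rw [h1]
    exact hsel1 a.1
  have hcard : Nat.card (Sz z) ≤ Nat.card (Fx M u) := by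
    obtain ⟨g, rfl⟩ := hcj
    rw [card_Fx_conj, hS]
  have hbij := hinj.bijective_of_nat_card_le hcard
  obtain ⟨ω, hω⟩ := hbij.2 ⟨z, rfl, ⟨1, by simp⟩⟩
  refine ⟨ω.1, ω.2, ?_⟩
  have h1 : sel ω.1 = z := congrArg (fun x : Sz z => (x : G)) hω
  have h2 := hsel3 ω.1
  rw [h1] at h2
  exact h2

/-- Fixed point free involutions map `z` into its centralizer. -/
theorem comm_of_B (hS : Nat.card (Sz z) = Nat.card (Fx M z)) {t : G} (ht : t * t = 1) (ht1 : t ≠ 1)
    (hc : ¬ Cj z t) : (t * z * t⁻¹) * z = z * (t * z * t⁻¹) := by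
  by_contra hnc
  have hti : t⁻¹ = t := inv_eq_of_mul_eq_one_left ht
  obtain ⟨ω, h1, h2⟩ := h.lines_meet hS ⟨t, rfl⟩ hnc
  rw [hti] at h1 hnc
  have h3 : z • (t • ω) = t • ω := by
    have h4 : z * t = t * (t * z * t) := by
      calc z * t = (t * t) * z * t := by rw [ht, one_mul]
        _ = _ := by group
    rw [smul_smul, h4, ← smul_smul, h1]
  have h4 : (t * z * t) • (t • ω) = t • ω := by
    have h5 : t * z * t * t = t * z := by
      rw [mul_assoc (t * z), ht, mul_one]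
    rw [smul_smul, h5, ← smul_smul, h2]
  by_cases h5 : t • ω = ω
  · exact hc (h.Cj_of_fix ht ht1 h5)
  · have h6 := h.line_unique' h5 h.hz h.hz1 h3 h2 (h.Cj_sq ⟨t, by rw [hti]⟩) (conj_ne_t h ht ht1) h4 h1
    apply hnc
    rw [← h6]
where
  conj_ne_t {t : G} (h : BB M z y) (ht : t * t = 1) (ht1 : t ≠ 1) : t * z * t ≠ 1 := by
    have hti : t⁻¹ = t := inv_eq_of_mul_eq_one_left ht
    have := conj_ne h.hz1 t
    rwa [hti] at this

/-- A conjugate of `z` in its centralizer has the same centralizer. -/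
theorem Wz_conj_eq {u : G} (hcj : Cj z u) (hu : u * z = z * u) : Wz u = Wz z := by
  have hle : Wz z ≤ Wz u := by
    intro w hw
    rw [mem_Wz] at hw ⊢
    exact h.W_comm hw hu
  have hcard : Nat.card (Wz u) ≤ Nat.card (Wz z) := by
    obtain ⟨g, rfl⟩ := hcj
    rw [card_Wz_conj]
  exact (Subgroup.eq_of_le_of_card_ge hle hcard).symm

/-- Fixed point free involutions normalize the centralizer of `z`. -/
theorem B_norm (hS : Nat.card (Sz z) = Nat.card (Fx M z)) {t : G} (ht : t * t = 1) (ht1 : t ≠ 1)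
    (hc : ¬ Cj z t) : t ∈ Subgroup.normalizer (Wz z : Set G) := by
  have h1 := h.comm_of_B hS ht ht1 hc
  have h2 := h.Wz_conj_eq (u := t * z * t⁻¹) ⟨t, rfl⟩ h1
  rw [Subgroup.mem_normalizer_iff]
  intro w
  have h3 : t * w * t⁻¹ ∈ Wz z ↔ w ∈ Wz z := by
    constructor
    · intro h4
      rw [← h2, mem_Wz] at h4
      rw [mem_Wz]
      have h5 : t * (w * z) * t⁻¹ = t * (z * w) * t⁻¹ := by
        calc t * (w * z) * t⁻¹ = t * w * t⁻¹ * (t * z * t⁻¹) := by group
          _ = t * z * t⁻¹ * (t * w * t⁻¹) := h4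
          _ = _ := by group
      exact mul_left_cancel (mul_right_cancel h5)
    · intro h4
      rw [mem_Wz] at h4
      rw [← h2, mem_Wz]
      calc t * w * t⁻¹ * (t * z * t⁻¹) = t * (w * z) * t⁻¹ := by group
        _ = t * (z * w) * t⁻¹ := by rw [h4]
        _ = _ := by group
  exact h3.symm

/-- The normal subgroup. -/
abbrev Kz (z : G) : Subgroup G := (Subgroup.normalizer (Wz z : Set G)).normalCore

theorem B_mem_K (hS : Nat.card (Sz z) = Nat.card (Fx M z)) {t : G} (ht : t * t = 1) (ht1 : t ≠ 1)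
    (hc : ¬ Cj z t) : t ∈ Kz z := by
  intro b
  refine h.B_norm hS (conj_sq ht b) (conj_ne ht1 b) ?_
  rintro ⟨g, hg⟩
  apply hc
  refine ⟨b⁻¹ * g, ?_⟩
  have h1 : t = b⁻¹ * (b * t * b⁻¹) * b := by group
  rw [h1, hg]
  group

/-- Elements of `N(M)` normalizing the centralizer of `z` are trivial or `z`. -/
theorem mem_Nm_norm {k : G} (hk : k ∈ Nm M) (hk2 : k ∈ Subgroup.normalizer (Wz z : Set G)) :
    k = 1 ∨ k = z := by
  have h1 : k * z * k⁻¹ ∈ Wz z :=
    (Subgroup.mem_normalizer_iff.mp hk2 z).mp (mem_Wz.mpr rfl)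
  rw [mem_Wz] at h1
  have hN : k * z * k⁻¹ ∈ Nm M := (Nm M).mul_mem ((Nm M).mul_mem hk h.hzN) ((Nm M).inv_mem hk)
  have h2 := h.inv_eq_of_comm (conj_sq h.hz _) (conj_ne h.hz1 _) hN h.hz h.hz1 h.hzN h1
  apply h.hC k hk
  calc k * z = k * z * k⁻¹ * k := by group
    _ = z * k := by rw [h2]

theorem z_notMem_K : z ∉ Kz z := by
  intro hz
  obtain ⟨m, hm⟩ := Subgroup.ne_bot_iff_exists_ne_one.mp h.ne_bot
  have hm' : (m : G) ∈ M := m.2
  have hm1' : (m : G) ≠ 1 := fun h1 => hm (Subtype.ext h1)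
  have h1 : (m : G) * z * (m : G)⁻¹ ∈ Subgroup.normalizer (Wz z : Set G) := hz m
  rcases h.mem_Nm_norm (h.conj_mem_Nm hm') h1 with h2 | h2
  · exact conj_ne h.hz1 _ h2
  · have h3 : (m : G) * z * (m : G)⁻¹ = 1 * z * 1⁻¹ := by
      rw [h2]; group
    exact hm1' (h.conj_inj hm' M.one_mem h3)

theorem K_inf_N : Kz z ⊓ Nm M = ⊥ := by
  rw [eq_bot_iff]
  rintro k ⟨hk, hkN⟩
  rw [Subgroup.mem_bot]
  rcases h.mem_Nm_norm hkN (Subgroup.normalCore_le _ hk) with h1 | h1
  · exact h1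
  · exfalso
    apply h.z_notMem_K
    rw [h1] at hk
    exact hk

theorem card_K_le : Nat.card (Kz z) ≤ Nat.card (Pt M) := by
  apply Nat.card_le_card_of_injective (fun k : Kz z => pt M k.1)
  intro a b hab
  have h1 : (a.1)⁻¹ * b.1 ∈ Nm M := mk_eq_iff.mp hab
  have h2 : (a.1)⁻¹ * b.1 ∈ Kz z ⊓ Nm M :=
    ⟨(Kz z).mul_mem ((Kz z).inv_mem a.2) b.2, h1⟩
  rw [h.K_inf_N, Subgroup.mem_bot] at h2
  exact Subtype.ext (inv_mul_eq_one.mp h2)

/-- The main facts on the normal subgroup. -/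
theorem K_facts (hM : Nat.card M = Nat.card (Fx M z) + 1)
    (hS : Nat.card (Sz z) = Nat.card (Fx M z)) (hcardW : Nat.card (Wz z) = Nat.card (Fx M z) * 2) :
    Nat.card (Kz z) = Nat.card (Fx M z) ^ 2 ∧ (∀ k ∈ Kz z, k * k = 1) := by
  classical
  obtain ⟨h1, h2⟩ := h.card_Bz hM hS hcardW
  let φ : Option (Bz z) → Kz z := fun o =>
    match o with
    | none => 1
    | some t => ⟨t.1, h.B_mem_K hS t.2.1 t.2.2.1 t.2.2.2⟩
  have hinj : Function.Injective φ := by
    rintro (_ | a) (_ | b) hab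
    · rfl
    · exfalso
      exact b.2.2.1 (congrArg (fun x : Kz z => (x : G)) hab).symm
    · exfalso
      exact a.2.2.1 (congrArg (fun x : Kz z => (x : G)) hab)
    · have h3 : a.1 = b.1 := congrArg (fun x : Kz z => (x : G)) hab
      rw [Subtype.ext h3]
  have h3 : Nat.card (Kz z) ≤ Nat.card (Fx M z) ^ 2 := by
    rw [← h1]; exact h.card_K_le
  have h4 : Nat.card (Kz z) ≤ Nat.card (Option (Bz z)) := by
    rw [Finite.card_option]; omega
  have hbij := hinj.bijective_of_nat_card_le h4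
  have h5 := Nat.card_eq_of_bijective _ hbij
  rw [Finite.card_option] at h5
  refine ⟨by omega, fun k hk => ?_⟩
  obtain ⟨o, ho⟩ := hbij.2 ⟨k, hk⟩
  rcases o with _ | t
  · have h6 : (1 : G) = k := congrArg (fun x : Kz z => (x : G)) ho
    rw [← h6, one_mul]
  · have h6 : t.1 = k := congrArg (fun x : Kz z => (x : G)) ho
    rw [← h6]
    exact t.2.1

/-- The small case: a normal elementary abelian subgroup with complement the normalizer. -/
theorem small_case (hf2 : 2 ≤ Nat.card (Fx M z)) (hM : Nat.card M = Nat.card (Fx M z) + 1)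
    (hS : Nat.card (Sz z) = Nat.card (Fx M z)) (hcardW : Nat.card (Wz z) = Nat.card (Fx M z) * 2) :
    ∃ (d : ℕ) (E : Subgroup G), 1 ≤ d ∧ E.Normal ∧ Cfsg.IsElementaryAbelian 2 E ∧
      Nat.card E = 2 ^ (2 * d) ∧ E ⊓ Subgroup.normalizer (M : Set G) = ⊥ ∧
      E ⊔ Subgroup.normalizer (M : Set G) = ⊤ ∧
      Nonempty (↥(Subgroup.normalizer (M : Set G)) ≃* DihedralGroup (2 ^ d + 1)) := by
  classical
  obtain ⟨hK1, hK2⟩ := h.K_facts hM hS hcardW
  obtain ⟨h1, -⟩ := h.card_Bz hM hS hcardW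
  obtain ⟨n, hn⟩ := h.card_W_two_pow
  have hn0 : n ≠ 0 := by
    rintro rfl
    rw [hcardW] at hn
    omega
  obtain ⟨d, rfl⟩ : ∃ d, n = d + 1 := ⟨n - 1, by omega⟩
  have hf : Nat.card (Fx M z) = 2 ^ d := by
    rw [hcardW, pow_succ] at hn
    exact Nat.eq_of_mul_eq_mul_right (by norm_num) hn
  have hd : 1 ≤ d := by
    rcases Nat.eq_zero_or_pos d with rfl | hd
    · rw [hf] at hf2
      norm_num at hf2
    · exact hd
  have hKc : ∀ a ∈ Kz z, ∀ b ∈ Kz z, a * b = b * a := fun a ha b hb =>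
    comm_of_sq (hK2 a ha) (hK2 b hb) (hK2 _ ((Kz z).mul_mem ha hb))
  have hKcard : Nat.card (Kz z) = 2 ^ (2 * d) := by
    rw [hK1, hf, ← pow_mul, mul_comm]
  have hinf := h.K_inf_N
  have hsup : Kz z ⊔ Nm M = ⊤ := by
    have hG : Nat.card (Kz z) * Nat.card (Nm M) = Nat.card G := by
      have h2 := Subgroup.card_mul_index (Nm M)
      have h3 : (Nm M).index = Nat.card (Pt M) := rfl
      rw [h3, h1, ← hK1] at h2
      rw [← h2, mul_comm]
    exact (Subgroup.isComplement'_of_card_mul_and_disjoint hG (disjoint_iff.mpr hinf)).sup_eq_top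
  refine ⟨d, Kz z, hd, inferInstance, ⟨⟨⟨fun a b => Subtype.ext (hKc a a.2 b b.2)⟩⟩, ?_⟩, hKcard, hinf,
    hsup, ?_⟩
  · intro a ha
    rw [pow_two]
    exact hK2 a ha
  -- the normalizer is dihedral
  have hK1' : Kz z ≠ ⊥ := by
    intro hb
    rw [hb, Subgroup.card_bot] at hK1
    have : 2 ^ 2 ≤ Nat.card (Fx M z) ^ 2 := Nat.pow_le_pow_left hf2 2
    omega
  have hcyc : IsCyclic M := by
    refine isCyclic_of_conj_free (Kz z) hKc hK1' (fun a ha b hb => h.comm ha hb) ?_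
    intro m hm hm1 k hk hmk
    by_contra hk1
    exact h.no_comm (hK2 k hk) hk1 hm hm1 hmk.symm
  let C : Subgroup (Nm M) := M.subgroupOf (Nm M)
  have hle : M ≤ Nm M := Subgroup.le_normalizer
  let eC : C ≃* M := Subgroup.subgroupOfEquivOfLe hle
  have hcC : Nat.card C = Nat.card M := Nat.card_congr eC.toEquiv
  have hCcyc : IsCyclic C := isCyclic_of_surjective eC.symm eC.symm.surjective
  have hCbot : C ≠ ⊥ := by
    intro hb
    obtain ⟨m, hm⟩ := Subgroup.ne_bot_iff_exists_ne_one.mp h.ne_bot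
    have h2 : (⟨m.1, hle m.2⟩ : Nm M) ∈ C := m.2
    rw [hb, Subgroup.mem_bot] at h2
    have h3 : (m : G) = 1 := congrArg (fun x : Nm M => (x : G)) h2
    exact hm (Subtype.ext h3)
  have hd2 : Nat.card C = 2 ^ d + 1 := by
    rw [hcC, hM, hf]
  have houter : ∀ g : Nm M, g ∉ C → g * g = 1 ∧ ∀ y' ∈ C, g * y' * g⁻¹ = y'⁻¹ := by
    rintro ⟨g, hg⟩ hgC
    have hgM : g ∉ M := hgC
    obtain ⟨m, hm, c, hc, hcz, hgc⟩ := h.fac g hg
    rcases h.hC c hc hcz with h2 | h2
    · exfalso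
      apply hgM
      rw [hgc, h2, mul_one]
      exact hm
    · rw [h2] at hgc
      have hs := h.mul_z_sq hm
      rw [← hgc] at hs
      have hs1 : g ≠ 1 := by
        rw [hgc]
        exact h.mul_z_ne_one hm
      refine ⟨Subtype.ext hs, ?_⟩
      rintro ⟨y', hy'⟩ hyC
      apply Subtype.ext
      have hi := h.inverts hs hs1 hg (m := y') hyC
      have hgi : g⁻¹ = g := inv_eq_of_mul_eq_one_left hs
      change g * y' * g⁻¹ = y'⁻¹
      rw [hgi]
      exact hi
  have := Cfsg.Agent.Lib.DicksonGroups.dihedral_of_index_two C hCcyc hCbot (by rw [hcC, h.card_Nm]) houter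
  rw [hd2] at this
  exact this

end BB

end Cfsg.Agent.Lib.TIInv
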