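import Mathlib

/-!
# Isomorphisms of small groups from Cayley tables

Two groups generated by involutions whose right Cayley graphs (with respect to matched generators)
coincide are isomorphic.  The graph is a table `next`; elements are indexed by `Fin n`, and the index
of the identity is recognised by a kernel computation on each side.
-/

set_option autoImplicit false

namespace Cfsg.Agent.Lib.TableIso79

open Subgroup

section one

variable {X : Type*} [Group X] {r n : ℕ} (a : Fin r → X) (next : Fin r → Fin n → Fin n)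
  (e : Fin n → X) (i0 : Fin n)

/-- One side of a table. -/
structure IsTable : Prop where
  inv : ∀ j i, next j (next j i) = i
  e0 : e i0 = 1
  ea : ∀ i j, e i * a j = e (next j i)
  e1 : ∀ i, e i = 1 → i = i0
  trans : ∀ i : Fin n, i ≠ i0 → ∃ p j, p < i ∧ next j p = i

variable {a next e i0} (T : IsTable a next e i0)
include T

lemma IsTable.a_sq (j : Fin r) : a j * a j = 1 := by
  have h := T.ea i0 j
  have h2 := T.ea (next j i0) j
  rw [T.inv, T.e0, ← h] at h2
  rwa [T.e0, one_mul] at h2

lemma IsTable.a_inv (j : Fin r) : (a j)⁻¹ = a j := inv_eq_of_mul_eq_one_left (T.a_sq j)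

lemma IsTable.e_mem (i : Fin n) : e i ∈ closure (Set.range a) := by
  induction i using WellFoundedLT.induction with
  | ind i ih =>
    by_cases h : i = i0
    · rw [h, T.e0]
      exact one_mem _
    · obtain ⟨p, j, hp, rfl⟩ := T.trans i h
      rw [← T.ea]
      exact mul_mem (ih p hp) (subset_closure ⟨j, rfl⟩)

lemma IsTable.exists_of_mem {x : X} (hx : x ∈ closure (Set.range a)) : ∃ i, e i = x := by
  induction hx using Subgroup.closure_induction_right with
  | one => exact ⟨i0, T.e0⟩
  | mul_right x hx y hy ih =>
    obtain ⟨i, rfl⟩ := ih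
    obtain ⟨j, rfl⟩ := hy
    exact ⟨next j i, (T.ea i j).symm⟩
  | mul_inv_cancel x hx y hy ih =>
    obtain ⟨i, rfl⟩ := ih
    obtain ⟨j, rfl⟩ := hy
    rw [T.a_inv]
    exact ⟨next j i, (T.ea i j).symm⟩

lemma IsTable.e_inj : Function.Injective e := by
  have key : ∀ k l : Fin n, e k = e l → k = l := by
    intro k
    induction k using WellFoundedLT.induction with
    | ind k ih =>
      intro l hl
      by_cases h : k = i0
      · subst h
        rw [T.e0] at hl
        exact (T.e1 l hl.symm).symm
      · obtain ⟨p, j, hp, rfl⟩ := T.trans k h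
        have h1 : e p = e (next j l) := by
          have h2 := T.ea (next j p) j
          rw [T.inv, hl] at h2
          rw [← h2, T.ea]
        have h3 := ih p hp _ h1
        rw [h3, T.inv]
  intro k l h
  exact key k l h

/-- The bijection between indices and the group. -/
noncomputable def IsTable.equiv : Fin n ≃ closure (Set.range a) :=
  Equiv.ofBijective (fun i => ⟨e i, T.e_mem i⟩)
    ⟨fun k l h => T.e_inj (congrArg Subtype.val h), fun x => by
      obtain ⟨i, hi⟩ := T.exists_of_mem x.2
      exact ⟨i, Subtype.ext hi⟩⟩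

lemma IsTable.equiv_apply (i : Fin n) : ((T.equiv i : closure (Set.range a)) : X) = e i := rfl

lemma IsTable.card : Nat.card (closure (Set.range a)) = n := by
  rw [← Nat.card_congr T.equiv, Nat.card_eq_fintype_card, Fintype.card_fin]

end one

section two

variable {X Y : Type*} [Group X] [Group Y] {r n : ℕ} {a : Fin r → X} {b : Fin r → Y}
  {next : Fin r → Fin n → Fin n} {e : Fin n → X} {f : Fin n → Y} {i0 : Fin n}

/-- Two groups with the same table are isomorphic. -/
theorem IsTable.iso (T : IsTable a next e i0) (U : IsTable b next f i0) :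
    Nonempty (closure (Set.range a) ≃* closure (Set.range b)) := by
  let E : closure (Set.range a) ≃ closure (Set.range b) := T.equiv.symm.trans U.equiv
  have hE : ∀ i, E (T.equiv i) = U.equiv i := by
    intro i
    simp [E]
  have hstep : ∀ (z : closure (Set.range a)) (j : Fin r),
      E (z * ⟨a j, subset_closure ⟨j, rfl⟩⟩) = E z * ⟨b j, subset_closure ⟨j, rfl⟩⟩ := by
    intro z j
    obtain ⟨i, rfl⟩ := T.equiv.surjective z
    have h1 : T.equiv i * ⟨a j, subset_closure ⟨j, rfl⟩⟩ = T.equiv (next j i) := by
      apply Subtype.ext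
      exact T.ea i j
    rw [h1, hE, hE]
    apply Subtype.ext
    exact (U.ea i j).symm
  have h1 : E 1 = 1 := by
    have h0 : (1 : closure (Set.range a)) = T.equiv i0 := by
      apply Subtype.ext
      exact T.e0.symm
    rw [h0, hE]
    apply Subtype.ext
    exact U.e0
  have hmul : ∀ (y : X) (hy : y ∈ closure (Set.range a)) (x : closure (Set.range a)),
      E (x * ⟨y, hy⟩) = E x * E ⟨y, hy⟩ := by
    intro y hy
    induction hy using Subgroup.closure_induction_right with
    | one =>
      intro x
      have : (⟨1, one_mem _⟩ : closure (Set.range a)) = 1 := rfl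
      rw [this, mul_one, h1, mul_one]
    | mul_right y hy z hz ih =>
      obtain ⟨j, rfl⟩ := hz
      intro x
      have h2 : (⟨y * a j, mul_mem hy (subset_closure ⟨j, rfl⟩)⟩ : closure (Set.range a)) =
          ⟨y, hy⟩ * ⟨a j, subset_closure ⟨j, rfl⟩⟩ := rfl
      rw [h2, ← mul_assoc, hstep, hstep, ih, mul_assoc]
    | mul_inv_cancel y hy z hz ih =>
      obtain ⟨j, rfl⟩ := hz
      intro x
      have h3 : (a j)⁻¹ = a j := T.a_inv j
      have h2 : (⟨y * (a j)⁻¹, mul_mem hy (inv_mem (subset_closure ⟨j, rfl⟩))⟩ : closure (Set.range a)) =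
          ⟨y, hy⟩ * ⟨a j, subset_closure ⟨j, rfl⟩⟩ := by
        apply Subtype.ext
        change y * (a j)⁻¹ = y * a j
        rw [h3]
      rw [h2, ← mul_assoc, hstep, hstep, ih, mul_assoc]
  exact ⟨MulEquiv.mk' E (fun x y => hmul y.1 y.2 x)⟩

/-- Sylow subgroups of two groups are isomorphic as soon as two explicit subgroups with the Sylow
property are. -/
theorem sylow_iso {G G' : Type*} [Group G] [Group G'] [Finite G] [Finite G'] {p : ℕ} [Fact p.Prime]
    (A : Subgroup G) (B : Subgroup G') (E : A ≃* B) (hA : IsPGroup p A) (hA' : ¬ p ∣ A.index)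
    (hB : IsPGroup p B) (hB' : ¬ p ∣ B.index) (P : Sylow p G) (Q : Sylow p G') :
    Nonempty ((P : Subgroup G) ≃* (Q : Subgroup G')) := by
  have e1 : (P : Subgroup G) ≃* A :=
    (P.equiv (hA.toSylow hA')).trans (MulEquiv.subgroupCongr (IsPGroup.toSylow_coe hA hA'))
  have e2 : (Q : Subgroup G') ≃* B :=
    (Q.equiv (hB.toSylow hB')).trans (MulEquiv.subgroupCongr (IsPGroup.toSylow_coe hB hB'))
  exact ⟨(e1.trans E).trans e2.symm⟩

end two

end Cfsg.Agent.Lib.TableIso79
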