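import Mathlib
import Cfsg.Agent.Lib.AlperinControl
import Cfsg.Agent.Lib.PComplement
import Cfsg.Agent.Lib.TransferCore

/-!
# Chains of tame intersections of Sylow subgroups

`Tame p R Q`: `N_R(R ∩ Q)` and `N_Q(R ∩ Q)` are Sylow `p`-subgroups of `N_G(R ∩ Q)`.

`chain`: an abstract form of Alperin's connectivity argument: a relation `L R₁ R₂ A` between Sylow
subgroups which is reflexive, transitive, antitone in `A` and which allows one to move across tame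
intersections holds for all pairs `(R₁, R₂, R₁ ∩ R₂)` with `R₁ ∩ R₂ ≠ 1`.
-/

set_option autoImplicit false

namespace Cfsg.Agent.Lib.TameChain

open Subgroup Cfsg.Agent.Lib.AlperinControl

variable {G : Type*} [Group G]

/-- Tame intersections. -/
def Tame (p : ℕ) (R Q : Subgroup G) : Prop :=
  ¬ p ∣ (R ⊓ normalizer ((R ⊓ Q : Subgroup G) : Set G)).relIndex
      (normalizer ((R ⊓ Q : Subgroup G) : Set G)) ∧
    ¬ p ∣ (Q ⊓ normalizer ((R ⊓ Q : Subgroup G) : Set G)).relIndex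
      (normalizer ((R ⊓ Q : Subgroup G) : Set G))

theorem Tame.symm {p : ℕ} {R Q : Subgroup G} (h : Tame p R Q) : Tame p Q R := by
  unfold Tame at *
  rw [inf_comm Q R]
  exact ⟨h.2, h.1⟩

theorem cj_inf (a : G) (A B : Subgroup G) : cj a (A ⊓ B) = cj a A ⊓ cj a B :=
  Subgroup.map_inf _ _ _ (MulAut.conj a).injective

theorem Tame.conj {p : ℕ} {R Q : Subgroup G} [Finite G] (h : Tame p R Q) (a : G) :
    Tame p (cj a R) (cj a Q) := by
  unfold Tame at *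
  have e0 : normalizer ((cj a R ⊓ cj a Q : Subgroup G) : Set G) = cj a (NN (R ⊓ Q)) := by
    rw [← cj_inf]
    exact (cj_NN a _).symm
  rw [e0, ← cj_inf, ← cj_inf]
  have e : ∀ A : Subgroup G, (cj a A).relIndex (cj a (NN (R ⊓ Q))) = A.relIndex (NN (R ⊓ Q)) :=
    fun A => Subgroup.relIndex_map_map_of_injective _ _ (MulAut.conj a).injective
  rw [e, e]
  exact h

variable [Finite G] {p : ℕ} [hp : Fact p.Prime]

theorem coe_smul (a : G) (R : Sylow p G) : ((a • R : Sylow p G) : Subgroup G) = cj a R := by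
  ext y
  rw [mem_cj]
  exact Cfsg.Agent.Lib.TransferCore.mem_smul_sylow

theorem eq_of_le_sylow {R₁ R₂ : Sylow p G} (h : (R₁ : Subgroup G) ≤ R₂) : R₁ = R₂ :=
  Sylow.ext (R₁.is_maximal' R₂.isPGroup' h).symm

theorem exists_sylow_above (N Z : Subgroup G) (hZN : Z ≤ N) (hZ : IsPGroup p Z) :
    ∃ Q : Sylow p G, Z ≤ Q ∧ ¬ p ∣ ((Q : Subgroup G) ⊓ N).relIndex N := by
  have hZ' : IsPGroup p (Z.subgroupOf N) := hZ.comap_of_injective N.subtype N.subtype_injective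
  obtain ⟨T, hT⟩ := hZ'.exists_le_sylow
  have hT' : IsPGroup p ((T : Subgroup N).map N.subtype) := T.isPGroup'.map _
  obtain ⟨Q, hQ⟩ := hT'.exists_le_sylow
  refine ⟨Q, fun z hz => hQ ⟨⟨z, hZN hz⟩, hT (by rw [mem_subgroupOf]; exact hz), rfl⟩, ?_⟩
  have h1 : ((Q : Subgroup G) ⊓ N).subgroupOf N = T := by
    apply T.is_maximal'
    · exact ((Q.isPGroup').to_le inf_le_left).comap_of_injective N.subtype N.subtype_injective
    · intro t ht
      rw [mem_subgroupOf]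
      exact ⟨hQ ⟨t, ht, rfl⟩, t.2⟩
  rw [Subgroup.relIndex, h1]
  exact T.not_dvd_index

/-- The abstract chain argument. -/
theorem chain (L : Sylow p G → Sylow p G → Subgroup G → Prop)
    (hrefl : ∀ R A, L R R A) (htrans : ∀ R₁ R₂ R₃ A, L R₁ R₂ A → L R₂ R₃ A → L R₁ R₃ A)
    (hmono : ∀ R₁ R₂ A B, B ≤ A → L R₁ R₂ A → L R₁ R₂ B)
    (htame : ∀ Q₁ Q₂ : Sylow p G, (Q₁ : Subgroup G) ⊓ Q₂ ≠ ⊥ → Tame p (Q₁ : Subgroup G) Q₂ →
      ∃ Q₃ : Sylow p G, (Q₁ : Subgroup G) ⊓ normalizer (((Q₁ : Subgroup G) ⊓ Q₂ : Subgroup G) : Set G) ≤ Q₃ ∧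
        L Q₃ Q₂ ((Q₁ : Subgroup G) ⊓ Q₂)) :
    ∀ R₁ R₂ : Sylow p G, (R₁ : Subgroup G) ⊓ R₂ ≠ ⊥ → L R₁ R₂ ((R₁ : Subgroup G) ⊓ R₂) := by
  have key : ∀ n : ℕ, ∀ R₁ R₂ : Sylow p G,
      Nat.card G - Nat.card ↥((R₁ : Subgroup G) ⊓ R₂) = n → (R₁ : Subgroup G) ⊓ R₂ ≠ ⊥ →
        L R₁ R₂ ((R₁ : Subgroup G) ⊓ R₂) := by
    intro n
    induction n using Nat.strong_induction_on with
    | _ n ih =>
      intro R₁ R₂ hn hbot
      set D : Subgroup G := (R₁ : Subgroup G) ⊓ R₂ with hD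
      have IH : ∀ S₁ S₂ : Sylow p G, D < (S₁ : Subgroup G) ⊓ S₂ → L S₁ S₂ D := by
        intro S₁ S₂ hlt
        have h1 := Cfsg.Agent.Lib.PComplement.card_lt_of_lt' hlt
        have h2 : Nat.card ↥((S₁ : Subgroup G) ⊓ S₂) ≤ Nat.card G := Subgroup.card_le_card_group _
        have h3 : L S₁ S₂ ((S₁ : Subgroup G) ⊓ S₂) :=
          ih _ (by omega) S₁ S₂ rfl (ne_bot_of_gt hlt)
        exact hmono _ _ _ _ hlt.le h3
      by_cases hR : R₁ = R₂
      · subst hR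
        exact hrefl _ _
      have hlt₁ : D < (R₁ : Subgroup G) := by
        refine lt_of_le_of_ne inf_le_left (fun h => hR (eq_of_le_sylow ?_))
        rw [← h]
        exact inf_le_right
      have hlt₂ : D < (R₂ : Subgroup G) := by
        refine lt_of_le_of_ne inf_le_right (fun h => hR (eq_of_le_sylow ?_).symm)
        rw [← h]
        exact inf_le_left
      set N : Subgroup G := normalizer (D : Set G) with hN
      have hD₁ : D < (R₁ : Subgroup G) ⊓ N := lt_inf_NN R₁.isPGroup' hlt₁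
      have hD₂ : D < (R₂ : Subgroup G) ⊓ N := lt_inf_NN R₂.isPGroup' hlt₂
      obtain ⟨Q₁, hQ₁, hQ₁s⟩ := exists_sylow_above N ((R₁ : Subgroup G) ⊓ N) inf_le_right
        (R₁.isPGroup'.to_le inf_le_left)
      obtain ⟨Q₂, hQ₂, hQ₂s⟩ := exists_sylow_above N ((R₂ : Subgroup G) ⊓ N) inf_le_right
        (R₂.isPGroup'.to_le inf_le_left)
      have L₁ : L R₁ Q₁ D := IH R₁ Q₁ (lt_of_lt_of_le hD₁ (le_inf inf_le_left hQ₁))
      have L₃ : L Q₂ R₂ D := IH Q₂ R₂ (lt_of_lt_of_le hD₂ (le_inf hQ₂ inf_le_left))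
      have L₂ : L Q₁ Q₂ D := by
        by_cases hlt : D < (Q₁ : Subgroup G) ⊓ Q₂
        · exact IH Q₁ Q₂ hlt
        have hle : D ≤ (Q₁ : Subgroup G) ⊓ Q₂ := le_inf (hD₁.le.trans hQ₁) (hD₂.le.trans hQ₂)
        have he : (Q₁ : Subgroup G) ⊓ Q₂ = D := (eq_of_le_of_not_lt hle hlt).symm
        have htm : Tame p (Q₁ : Subgroup G) Q₂ := by
          unfold Tame
          rw [he]
          exact ⟨hQ₁s, hQ₂s⟩
        obtain ⟨Q₃, hQ₃, hL⟩ := htame Q₁ Q₂ (by rw [he]; exact hbot) htm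
        rw [he] at hQ₃ hL
        have h5 : (R₁ : Subgroup G) ⊓ N ≤ (Q₁ : Subgroup G) ⊓ N := le_inf hQ₁ inf_le_right
        have h6 : D < (Q₁ : Subgroup G) ⊓ Q₃ :=
          lt_of_lt_of_le hD₁ (le_inf hQ₁ (h5.trans hQ₃))
        exact htrans _ Q₃ _ _ (IH Q₁ Q₃ h6) hL
      exact htrans _ _ _ _ L₁ (htrans _ _ _ _ L₂ L₃)
  intro R₁ R₂ hbot
  exact key _ R₁ R₂ rfl hbot

/-- Sylow subgroups of `N` are conjugate inside the subgroup they generate. -/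
theorem exists_conj_in_sup (N T₁ T₂ : Subgroup G) (h₁ : T₁ ≤ N) (h₂ : T₂ ≤ N)
    (hp₁ : IsPGroup p T₁) (hp₂ : IsPGroup p T₂) (hi₁ : ¬ p ∣ T₁.relIndex N)
    (hi₂ : ¬ p ∣ T₂.relIndex N) : ∃ a ∈ T₁ ⊔ T₂, cj a T₂ = T₁ := by
  set O : Subgroup G := T₁ ⊔ T₂ with hO
  have hON : O ≤ N := sup_le h₁ h₂
  have h1O : T₁ ≤ O := le_sup_left
  have h2O : T₂ ≤ O := le_sup_right
  have hi₁' : ¬ p ∣ (T₁.subgroupOf O).index := by
    intro h
    apply hi₁
    rw [← Subgroup.relIndex_mul_relIndex T₁ O N h1O hON]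
    exact Dvd.dvd.mul_right h _
  have hi₂' : ¬ p ∣ (T₂.subgroupOf O).index := by
    intro h
    apply hi₂
    rw [← Subgroup.relIndex_mul_relIndex T₂ O N h2O hON]
    exact Dvd.dvd.mul_right h _
  have hS₁ : IsPGroup p (T₁.subgroupOf O) := hp₁.comap_of_injective O.subtype O.subtype_injective
  have hS₂ : IsPGroup p (T₂.subgroupOf O) := hp₂.comap_of_injective O.subtype O.subtype_injective
  set S₁ : Sylow p ↥O := hS₁.toSylow hi₁' with hS₁d
  set S₂ : Sylow p ↥O := hS₂.toSylow hi₂' with hS₂d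
  obtain ⟨a, ha⟩ := MulAction.exists_smul_eq ↥O S₂ S₁
  refine ⟨a, a.2, le_antisymm ?_ ?_⟩
  · rw [cj_le_iff]
    intro z hz
    have hz' : (⟨z, h2O hz⟩ : O) ∈ S₂ := by
      rw [hS₂d, IsPGroup.mem_toSylow, mem_subgroupOf]
      exact hz
    have h3 : a * (⟨z, h2O hz⟩ : O) * a⁻¹ ∈ a • S₂ :=
      Cfsg.Agent.Lib.TransferCore.mem_smul_sylow'.2 hz'
    rw [ha, hS₁d, IsPGroup.mem_toSylow, mem_subgroupOf] at h3
    exact h3
  · intro x hx
    rw [mem_cj]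
    have hx' : (⟨x, h1O hx⟩ : O) ∈ S₁ := by
      rw [hS₁d, IsPGroup.mem_toSylow, mem_subgroupOf]
      exact hx
    rw [← ha, Cfsg.Agent.Lib.TransferCore.mem_smul_sylow, hS₂d, IsPGroup.mem_toSylow,
      mem_subgroupOf] at hx'
    exact hx'

end Cfsg.Agent.Lib.TameChain
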