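import Mathlib
import Cfsg.Agent.S1666
import Cfsg.Agent.Lib.GolayPerm
import Cfsg.Agent.Lib.TcChain
import Cfsg.Prelude.Def_SporadicB

/-!
# A double cover of the group on one hundred points

From a permutation group on `ℕ` moving only the points below `100`, with the data of a point stabiliser:
the recognition of the group, and the non-split double cover structure of a subgroup of index two in a group
mapping onto an extension of it.
-/

set_option autoImplicit false
set_option linter.all false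

namespace Cfsg.Agent.Lib.TcCover

open Cfsg Cfsg.Spor Cfsg.Agent.Lib.TcBits Cfsg.Agent.Lib.TcChain
open scoped commutatorElement

/-- The permutations keeping a predicate. -/
def invS (P : ℕ → Prop) : Subgroup (Equiv.Perm ℕ) where
  carrier := {g | ∀ i, P (g i) ↔ P i}
  one_mem' := fun i => Iff.rfl
  mul_mem' := fun {a b} ha hb i => by
    rw [Equiv.Perm.mul_apply]; exact (ha (b i)).trans (hb i)
  inv_mem' := fun {a} ha i => by
    have h := ha (a⁻¹ i)
    rw [show a (a⁻¹ i) = i from by simp] at h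
    exact h.symm

/-- The permutations fixing all the points from `n` on. -/
def fixAbove (n : ℕ) : Subgroup (Equiv.Perm ℕ) where
  carrier := {g | ∀ i, n ≤ i → g i = i}
  one_mem' := fun i _ => rfl
  mul_mem' := fun {a b} ha hb i hi => by
    rw [Equiv.Perm.mul_apply, hb i hi, ha i hi]
  inv_mem' := fun {a} ha i hi => by
    rw [Equiv.Perm.inv_eq_iff_eq]; exact (ha i hi).symm

theorem fixAbove_le (n : ℕ) : fixAbove n ≤ invS (· < n) := by
  intro g hg i
  by_cases hi : i < n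
  · refine ⟨fun _ => hi, fun _ => ?_⟩
    by_contra h
    have h1 : n ≤ g i := not_lt.mp h
    have h2 := hg (g i) h1
    have h3 : g i = i := g.injective h2
    rw [h3] at h
    exact h hi
  · have h := hg i (not_lt.mp hi)
    show g i < n ↔ i < n
    rw [h]

/-- The restriction of a permutation keeping the points below `n`. -/
def resP (n : ℕ) : ↥(invS (· < n)) →* Equiv.Perm (Fin n) where
  toFun g :=
    { toFun := fun i => ⟨g.1 i, (g.2 i).2 i.2⟩
      invFun := fun i => ⟨g.1⁻¹ i, ((invS (· < n)).inv_mem g.2 i).2 i.2⟩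
      left_inv := fun i => Fin.ext (by simp)
      right_inv := fun i => Fin.ext (by simp) }
  map_one' := by ext i; rfl
  map_mul' a b := by ext i; rfl

section A

variable {G0 G2 : Subgroup (Equiv.Perm ℕ)}

/-- Recognition of the group on one hundred points. -/
theorem isoHS_of_data (hfix : G0 ≤ fixAbove 100)
    (htrans : ∀ i, i < 100 → ∃ g ∈ G0, g 0 = i)
    (hcard : Nat.card G0 = 44352000)
    (hG2le : G2 ≤ G0) (hG2fix : ∀ g ∈ G2, g 0 = 0)
    (hG2card : 443520 ≤ Nat.card G2)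
    (hΔ : ∀ g ∈ G2, ∀ i, 1 ≤ i → i ≤ 22 → 1 ≤ g i ∧ g i ≤ 22)
    (hΓ : ∀ g ∈ G2, ∀ i, 23 ≤ i → i < 100 → 23 ≤ g i ∧ g i < 100)
    (hs1 : ∀ i, 1 ≤ i → i ≤ 22 → ∃ g ∈ G2, g 1 = i)
    (hs2 : ∀ i, 23 ≤ i → i < 100 → ∃ g ∈ G2, g 23 = i)
    (e : ↥G2 ≃* Spor.M22) : Spor.IsoHS G0 := by
  classical
  have hle : G0 ≤ invS (· < 100) := hfix.trans (fixAbove_le 100)
  let ρ : ↥G0 →* Equiv.Perm (Fin 100) := (resP 100).comp (Subgroup.inclusion hle)
  have hρ : ∀ g : ↥G0, ∀ i : Fin 100, ((ρ g i : Fin 100) : ℕ) = g.1 i := fun g i => rfl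
  have hinj : Function.Injective ρ := by
    rw [injective_iff_map_eq_one]
    intro g hg
    apply Subtype.ext
    apply Equiv.ext
    intro i
    by_cases hi : i < 100
    · have := congrArg (fun p : Equiv.Perm (Fin 100) => ((p ⟨i, hi⟩ : Fin 100) : ℕ)) hg
      simpa [hρ] using this
    · exact hfix g.2 i (not_lt.mp hi)
  let E : ↥G0 ≃* ρ.range := MonoidHom.ofInjective hinj
  have hfin0 : Finite ↥G0 := Nat.finite_of_card_ne_zero (by rw [hcard]; norm_num)
  have hcardR : Nat.card ρ.range = 44352000 := by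
    rw [← Nat.card_congr E.toEquiv, hcard]
  haveI htr : MulAction.IsPretransitive ρ.range (Fin 100) := by
    have h0 : ∀ b : Fin 100, ∃ g : ρ.range, g • (0 : Fin 100) = b := by
      intro b
      obtain ⟨g, hg, h⟩ := htrans b.1 b.2
      refine ⟨⟨ρ ⟨g, hg⟩, MonoidHom.mem_range.2 ⟨_, rfl⟩⟩, ?_⟩
      apply Fin.ext
      exact h
    refine ⟨fun a b => ?_⟩
    obtain ⟨g, hg⟩ := h0 a
    obtain ⟨k, hk⟩ := h0 b
    refine ⟨k * g⁻¹, ?_⟩
    rw [mul_smul, ← hg, inv_smul_smul, hk]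
  set a : Fin 100 := 0 with ha
  set T := MulAction.stabilizer ρ.range a with hT
  have hidx : T.index = 100 := by
    rw [hT, MulAction.index_stabilizer]
    have : MulAction.orbit ρ.range a = Set.univ := MulAction.orbit_eq_univ _ _
    rw [this, Set.ncard_univ]
    simp
  have hcardT : Nat.card T = 443520 := by
    have := Subgroup.card_mul_index T
    rw [hidx, hcardR] at this
    omega
  have hG2G0 : ∀ g : ↥G2, g.1 ∈ G0 := fun g => hG2le g.2
  let jf : ↥G2 → T := fun g => ⟨⟨ρ ⟨g.1, hG2G0 g⟩, MonoidHom.mem_range.2 ⟨_, rfl⟩⟩, by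
    rw [hT, MulAction.mem_stabilizer_iff]
    apply Fin.ext
    exact hG2fix g.1 g.2⟩
  let j : ↥G2 →* T :=
    { toFun := jf
      map_one' := by
        apply Subtype.ext; apply Subtype.ext
        exact map_one ρ
      map_mul' := fun x y => by
        apply Subtype.ext; apply Subtype.ext
        exact map_mul ρ ⟨x.1, hG2G0 x⟩ ⟨y.1, hG2G0 y⟩ }
  have hjval : ∀ (g : ↥G2) (i : Fin 100), (((j g).1.1 i : Fin 100) : ℕ) = g.1 i := fun g i => rfl
  have hjinj : Function.Injective j := by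
    intro x y hxy
    have h1 : (⟨x.1, hG2G0 x⟩ : ↥G0) = ⟨y.1, hG2G0 y⟩ := hinj (congrArg (fun t : T => t.1.1) hxy)
    exact Subtype.ext (congrArg (fun t : ↥G0 => t.1) h1)
  have hfinT : Finite T := Nat.finite_of_card_ne_zero (by rw [hcardT]; norm_num)
  have hjbij : Function.Bijective j :=
    hjinj.bijective_of_nat_card_le (by rw [hcardT]; exact hG2card)
  let J : ↥G2 ≃* T := MulEquiv.ofBijective j hjbij
  let b : Fin 100 := 1
  let c : Fin 100 := 23
  have hJ : ∀ t : T, ∃ g : ↥G2, j g = t := fun t => hjbij.2 t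
  have horb1 : MulAction.orbit T b = {i : Fin 100 | 1 ≤ i.1 ∧ i.1 ≤ 22} := by
    ext x
    constructor
    · rintro ⟨t, rfl⟩
      obtain ⟨g, rfl⟩ := hJ t
      exact hΔ g.1 g.2 1 le_rfl (by norm_num)
    · rintro ⟨h1, h2⟩
      obtain ⟨g, hg, h⟩ := hs1 x.1 h1 h2
      refine ⟨j ⟨g, hg⟩, ?_⟩
      apply Fin.ext
      exact h
  have horb2 : MulAction.orbit T c = {i : Fin 100 | 23 ≤ i.1} := by
    ext x
    constructor
    · rintro ⟨t, rfl⟩
      obtain ⟨g, rfl⟩ := hJ t
      exact (hΓ g.1 g.2 23 le_rfl (by norm_num)).1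
    · intro h1
      obtain ⟨g, hg, h⟩ := hs2 x.1 h1 x.2
      refine ⟨j ⟨g, hg⟩, ?_⟩
      apply Fin.ext
      exact h
  have hb : (MulAction.orbit T b).ncard = 22 := by
    rw [horb1, Set.ncard_eq_toFinset_card']
    decide
  have hc : (MulAction.orbit T c).ncard = 77 := by
    rw [horb2, Set.ncard_eq_toFinset_card']
    decide
  have hiso : Spor.IsoHS ρ.range :=
    Cfsg.Agent.S1666.result (Ω := Fin 100) (by simp) ρ.range a (J.symm.trans e) b c hb hc
  obtain ⟨f⟩ := hiso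
  exact ⟨E.trans f⟩

end A

section B

/-- Points of the first orbit. -/
def D22 (i : ℕ) : Prop := 1 ≤ i ∧ i ≤ 22

/-- The action on the small orbit, as a function. -/
noncomputable def hh (g : Equiv.Perm ℕ) (i : ℕ) : ℕ := if 1 ≤ i ∧ i ≤ 22 then g i else i

theorem hh_lt {g : Equiv.Perm ℕ} (hg : g ∈ invS D22) {i : ℕ} (hi : i < 24) : hh g i < 24 := by
  unfold hh
  split_ifs with h
  · have := (hg i).2 h
    have h2 : g i ≤ 22 := this.2
    omega
  · exact hi

theorem hh_hh {g g' : Equiv.Perm ℕ} (hg' : g' ∈ invS D22) (i : ℕ) : hh g (hh g' i) = hh (g * g') i := by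
  unfold hh
  by_cases h : 1 ≤ i ∧ i ≤ 22
  · have h2 := (hg' i).2 h
    have h3 : 1 ≤ g' i ∧ g' i ≤ 22 := h2
    simp [h, h3, Equiv.Perm.mul_apply]
  · simp [h]

theorem hh_one (i : ℕ) : hh 1 i = i := by
  unfold hh
  split_ifs <;> rfl

open Cfsg.Agent.Lib.Golay in
/-- The action on the coordinates. -/
noncomputable def Fh : ↥(invS D22) →* Equiv.Perm GolayPt where
  toFun g :=
    { toFun := fun p => pt (hh g.1 (idx p))
      invFun := fun p => pt (hh (g.1)⁻¹ (idx p))
      left_inv := fun p => by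
        show pt (hh (g.1)⁻¹ (idx (pt (hh g.1 (idx p))))) = p
        rw [idx_pt (hh_lt g.2 (idx_lt p)), hh_hh g.2]
        simp [hh_one, pt_idx]
      right_inv := fun p => by
        show pt (hh g.1 (idx (pt (hh (g.1)⁻¹ (idx p))))) = p
        rw [idx_pt (hh_lt ((invS D22).inv_mem g.2) (idx_lt p)), hh_hh ((invS D22).inv_mem g.2)]
        simp [hh_one, pt_idx] }
  map_one' := by
    apply Equiv.ext
    intro p
    show pt (hh 1 (idx p)) = p
    rw [hh_one, pt_idx]
  map_mul' a b := by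
    apply Equiv.ext
    intro p
    show pt (hh (a.1 * b.1) (idx p)) = pt (hh a.1 (idx (pt (hh b.1 (idx p)))))
    rw [idx_pt (hh_lt b.2 (idx_lt p)), hh_hh b.2]

open Cfsg.Agent.Lib.Golay in
theorem Fh_apply (g : ↥(invS D22)) (p : GolayPt) : Fh g p = pt (hh g.1 (idx p)) := rfl

open Cfsg.Agent.Lib.Golay in
/-- A generator acting on the coordinates as an element of the code's group. -/
theorem Fh_mem_of_code {g : Equiv.Perm ℕ} (hg : g ∈ invS D22) {c : ℕ} (hc : isM24 c = true)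
    (h : ∀ i, i < 24 → ap c i = hh g i) (h0 : ap c 0 = 0) (h23 : ap c 23 = 23) :
    Fh ⟨g, hg⟩ ∈ Spor.M22 := by
  have hv := isM24_valid hc
  have hE : Fh ⟨g, hg⟩ = decode c := by
    ext p
    rw [Fh_apply, decode_apply hv, h _ (idx_lt p)]
  rw [hE]
  have e0 : (pt 0 : GolayPt) = some 0 := by simp [pt]
  have e23 : (pt 23 : GolayPt) = none := by simp [pt]
  refine ⟨⟨decode_mem_M24 hc, ?_⟩, ?_⟩
  · show (decode c) • (none : GolayPt) = none
    rw [Equiv.Perm.smul_def, ← e23, decode_pt hv (by norm_num), h23]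
  · show (decode c) • (some 0 : GolayPt) = some 0
    rw [Equiv.Perm.smul_def, ← e0, decode_pt hv (by norm_num), h0]

variable {G2 : Subgroup (Equiv.Perm ℕ)}

/-- The isomorphism with the Mathieu group from generators. -/
theorem iso_M22 {Y : Set (Equiv.Perm ℕ)} (hG2 : G2 = Subgroup.closure Y) (hY : ∀ y ∈ Y, y ∈ invS D22)
    (hgen : ∀ y (hy : y ∈ Y), Fh ⟨y, hY y hy⟩ ∈ Spor.M22)
    (hfaith : ∀ g ∈ G2, (∀ i, 1 ≤ i → i ≤ 22 → g i = i) → g = 1)
    (hcard : 443520 ≤ Nat.card G2) : Nonempty (↥G2 ≃* Spor.M22) := by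
  classical
  have hle : G2 ≤ invS D22 := by
    rw [hG2, Subgroup.closure_le]; exact hY
  have hmem : ∀ g (hg : g ∈ G2), Fh ⟨g, hle hg⟩ ∈ Spor.M22 := by
    intro g hg
    have hg' := hg
    rw [hG2] at hg'
    induction hg' using Subgroup.closure_induction with
    | mem y hy => exact hgen y hy
    | one => exact (map_one Fh) ▸ Spor.M22.one_mem
    | mul x y hx hy ihx ihy =>
      have hx' : x ∈ G2 := hG2 ▸ hx
      have hy' : y ∈ G2 := hG2 ▸ hy
      have := Spor.M22.mul_mem (ihx hx') (ihy hy')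
      rw [← map_mul] at this
      exact this
    | inv x hx ihx =>
      have hx' : x ∈ G2 := hG2 ▸ hx
      have := Spor.M22.inv_mem (ihx hx')
      rw [← map_inv] at this
      exact this
  let f : ↥G2 →* Spor.M22 :=
    { toFun := fun g => ⟨Fh ⟨g.1, hle g.2⟩, hmem g.1 g.2⟩
      map_one' := Subtype.ext (map_one Fh)
      map_mul' := fun x y => Subtype.ext (map_mul Fh ⟨x.1, hle x.2⟩ ⟨y.1, hle y.2⟩) }
  have hinj : Function.Injective f := by
    rw [injective_iff_map_eq_one]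
    intro g hg
    apply Subtype.ext
    apply hfaith g.1 g.2
    intro i h1 h2
    have h3 : Fh ⟨g.1, hle g.2⟩ = 1 := congrArg Subtype.val hg
    have h4 := congrArg (fun p : Equiv.Perm GolayPt => Cfsg.Agent.Lib.Golay.idx (p (Cfsg.Agent.Lib.Golay.pt i))) h3
    simp only [Equiv.Perm.one_apply] at h4
    have e1 : Cfsg.Agent.Lib.Golay.idx (Cfsg.Agent.Lib.Golay.pt i) = i := Cfsg.Agent.Lib.Golay.idx_pt (by omega)
    rw [Fh_apply, e1, Cfsg.Agent.Lib.Golay.idx_pt (hh_lt (hle g.2) (by omega))] at h4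
    simpa [hh, h1, h2] using h4
  have hM : Nat.card Spor.M22 = 443520 := Cfsg.Agent.S1666.card_M22
  have hfinM : Finite Spor.M22 := Nat.finite_of_card_ne_zero (by rw [hM]; norm_num)
  exact ⟨MulEquiv.ofBijective f (hinj.bijective_of_nat_card_le (by rw [hM]; exact hcard))⟩

end B

section C

variable {N : Type} [Group N]

theorem comm_central {G : Type*} [Group G] (a b d e : G) (ha : ∀ x, a * x = x * a)
    (hd : ∀ x, d * x = x * d) : ⁅a * b, d * e⁆ = ⁅b, e⁆ := by
  simp only [commutatorElement_def, mul_inv_rev]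
  have h1 : a * b * (d * e) * (b⁻¹ * a⁻¹) * (e⁻¹ * d⁻¹) =
      a * (b * (d * e) * b⁻¹) * a⁻¹ * (e⁻¹ * d⁻¹) := by group
  rw [h1, ha (b * (d * e) * b⁻¹), mul_inv_cancel_right]
  have h2 : b * (d * e) = d * (b * e) := by
    rw [← mul_assoc, ← hd b, mul_assoc]
  rw [h2]
  have h3 : d * (b * e) * b⁻¹ * (e⁻¹ * d⁻¹) = d * (b * e * b⁻¹ * e⁻¹) * d⁻¹ := by group
  rw [h3, hd (b * e * b⁻¹ * e⁻¹), mul_inv_cancel_right]

/-- The structure of the subgroup of index two. -/
theorem cover_of_data (ψ : N →* Equiv.Perm ℕ) {G0 : Subgroup (Equiv.Perm ℕ)}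
    (hN : Nat.card N = 177408000)
    (hψ : ∀ g, (ψ g 100 = 100 ∧ ψ g 101 = 101) ∨ (ψ g 100 = 101 ∧ ψ g 101 = 100))
    {z0 : N} (hz0 : ψ z0 100 = 101)
    (hG0 : ∀ h ∈ G0, ∃ g, ψ g = h) (hG00 : ∀ h ∈ G0, h 100 = 100)
    (hcard : 44352000 ≤ Nat.card G0)
    {c u v : N} (hc1 : c ≠ 1) (hc2 : ψ c = 1) (hu : ψ u 100 = 100) (hv : ψ v 100 = 100) (hcuv : c = ⁅u, v⁆)
    (hZ : ∀ h ∈ G0, (∀ k ∈ G0, h * k = k * h) → h = 1)
    (hHS : Nat.card G0 = 44352000 → Spor.IsoHS G0) :
    ∃ K : Subgroup N, K.Normal ∧ K.index = 2 ∧ Cfsg.IsNonsplitDoubleCover K Spor.HS := by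
  classical
  have hfinN : Finite N := Nat.finite_of_card_ne_zero (by rw [hN]; norm_num)
  let K : Subgroup N := (MulAction.stabilizer (Equiv.Perm ℕ) (100 : ℕ)).comap ψ
  have hK : ∀ g, g ∈ K ↔ ψ g 100 = 100 := fun g => by
    show ψ g • (100 : ℕ) = 100 ↔ _
    rfl
  have hidx : K.index = 2 := by
    rw [Subgroup.index_eq_two_iff]
    refine ⟨z0, fun b => ?_⟩
    have e : ψ (b * z0) 100 = ψ b 101 := by
      rw [map_mul, Equiv.Perm.mul_apply, hz0]
    rw [hK, hK, e]
    rcases hψ b with ⟨h1, h2⟩ | ⟨h1, h2⟩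
    · right
      rw [h1, h2]
      simp
    · left
      rw [h1, h2]
      simp
  have hnorm : K.Normal := Subgroup.normal_of_index_eq_two hidx
  have hcardK : Nat.card K = 88704000 := by
    have := Subgroup.card_mul_index K
    rw [hidx, hN] at this
    omega
  let f : K →* Equiv.Perm ℕ := ψ.comp K.subtype
  have hfval : ∀ k : K, f k = ψ k.1 := fun k => rfl
  have hle : G0 ≤ f.range := by
    intro h hh
    obtain ⟨g, rfl⟩ := hG0 h hh
    have : g ∈ K := (hK g).2 (hG00 _ hh)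
    exact ⟨⟨g, this⟩, rfl⟩
  have hcK : c ∈ K := (hK c).2 (by rw [hc2]; rfl)
  have huK : u ∈ K := (hK u).2 hu
  have hvK : v ∈ K := (hK v).2 hv
  let cK : K := ⟨c, hcK⟩
  have hcK1 : cK ≠ 1 := fun h => hc1 (congrArg Subtype.val h)
  have hcKker : cK ∈ f.ker := by
    rw [MonoidHom.mem_ker]; exact hc2
  have hfinK : Finite K := inferInstance
  have hprod : Nat.card f.ker * Nat.card f.range = 88704000 := by
    have h1 := Subgroup.card_mul_index f.ker
    rw [Subgroup.index_ker, hcardK] at h1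
    exact h1
  have hfinR : Finite f.range := Finite.of_surjective f.rangeRestrict f.rangeRestrict_surjective
  have hr : Nat.card G0 ≤ Nat.card f.range := Subgroup.card_le_of_le hle
  have hker2 : 2 ≤ Nat.card f.ker := by
    have : Nontrivial f.ker := ⟨⟨⟨cK, hcKker⟩, 1, fun h => hcK1 (congrArg Subtype.val h)⟩⟩
    exact Finite.one_lt_card
  have hkercard : Nat.card f.ker = 2 := by
    have h2 : 44352000 ≤ Nat.card f.range := hcard.trans hr
    have h3 : Nat.card f.ker * 44352000 ≤ 88704000 := by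
      rw [← hprod]; exact Nat.mul_le_mul_left _ h2
    omega
  have hrcard : Nat.card f.range = 44352000 := by
    rw [hkercard] at hprod
    omega
  have hrange : f.range = G0 := by
    symm
    exact Subgroup.eq_of_le_of_card_ge hle (by rw [hrcard]; exact hcard)
  have hkeruniq : ∀ x : K, x ∈ f.ker → x ≠ 1 → x = cK := by
    intro x hx hx1
    have h := (Nat.card_eq_two_iff' (1 : f.ker)).1 hkercard
    obtain ⟨y, _, hy2⟩ := h
    have e1 := hy2 ⟨x, hx⟩ (fun h => hx1 (congrArg Subtype.val h))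
    have e2 := hy2 ⟨cK, hcKker⟩ (fun h => hcK1 (congrArg Subtype.val h))
    exact congrArg Subtype.val (e1.trans e2.symm)
  have hcenter : Subgroup.center K = f.ker := by
    ext x
    constructor
    · intro hx
      rw [MonoidHom.mem_ker]
      have hxr : f x ∈ G0 := hrange ▸ MonoidHom.mem_range.2 ⟨x, rfl⟩
      apply hZ _ hxr
      intro k hk
      rw [← hrange] at hk
      obtain ⟨y, rfl⟩ := hk
      rw [← map_mul, ← map_mul]
      exact congrArg f ((Subgroup.mem_center_iff.1 hx y).symm)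
    · intro hx
      by_cases hx1 : x = 1
      · rw [hx1]; exact Subgroup.one_mem _
      rw [Subgroup.mem_center_iff]
      intro y
      have h1 : y * x * y⁻¹ ∈ f.ker := (f.normal_ker).conj_mem x hx y
      have h2 : y * x * y⁻¹ ≠ 1 := by
        intro h
        apply hx1
        have := congrArg (fun t => y⁻¹ * t * y) h
        simpa [mul_assoc] using this
      have h3 := hkeruniq _ h1 h2
      have h4 := hkeruniq x hx hx1
      have h5 : y * x * y⁻¹ = x := h3.trans h4.symm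
      have := congrArg (fun t => t * y) h5
      simpa [mul_assoc] using this
  refine ⟨K, hnorm, hidx, ?_, ?_, ?_⟩
  · rw [hcenter]; exact hkercard
  · obtain ⟨E⟩ := hHS (by rw [← hrange]; exact hrcard)
    refine ⟨(QuotientGroup.quotientMulEquivOfEq hcenter).trans
      ((QuotientGroup.quotientKerEquivRange f).trans ((MulEquiv.subgroupCongr hrange).trans E))⟩
  · intro L hL
    have hcc : cK ∈ Subgroup.center K := by
      rw [hcenter]; exact hcKker
    let uK : K := ⟨u, huK⟩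
    let vK : K := ⟨v, hvK⟩
    obtain ⟨⟨z1, l1⟩, h1⟩ := hL.2 uK
    obtain ⟨⟨z2, l2⟩, h2⟩ := hL.2 vK
    have h1' : (z1 : K) * (l1 : K) = uK := h1
    have h2' : (z2 : K) * (l2 : K) = vK := h2
    have hcu : cK = ⁅uK, vK⁆ := by
      apply Subtype.ext
      show c = _
      rw [hcuv]
      rfl
    have hz1 : ∀ x : K, (z1 : K) * x = x * (z1 : K) := fun x => (Subgroup.mem_center_iff.1 z1.2 x).symm
    have hz2 : ∀ x : K, (z2 : K) * x = x * (z2 : K) := fun x => (Subgroup.mem_center_iff.1 z2.2 x).symm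
    have hcl : cK = ⁅(l1 : K), (l2 : K)⁆ := by
      rw [hcu, ← h1', ← h2']
      exact comm_central _ _ _ _ hz1 hz2
    have hcL : cK ∈ L := by
      rw [hcl, commutatorElement_def]
      exact L.mul_mem (L.mul_mem (L.mul_mem l1.2 l2.2) (L.inv_mem l1.2)) (L.inv_mem l2.2)
    exact hcK1 (Subgroup.disjoint_def.1 hL.disjoint hcc hcL)

end C

section D

variable {pL : ℕ → List (ℕ × ℕ)} {N : ℕ}

theorem perm_of_testBit {P : List (ℕ × ℕ)} (hv : validProg N P = true) {a i : ℕ}
    (h : (progApply P (2 ^ a)).testBit i = true) : progPerm P i = a := by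
  rw [testBit_progApply N P hv, Nat.testBit_two_pow] at h
  exact (of_decide_eq_true h).symm

theorem testBit_mask {a b : ℕ} (hab : a ≤ b) (i : ℕ) :
    (2 ^ b - 2 ^ a).testBit i = decide (a ≤ i ∧ i < b) := by
  have e : 2 ^ b - 2 ^ a = (2 ^ (b - a) - 1) <<< a := by
    rw [Nat.shiftLeft_eq, Nat.sub_mul, one_mul, ← pow_add, Nat.sub_add_cancel hab]
  rw [e, Nat.testBit_shiftLeft, Nat.testBit_two_pow_sub_one]
  by_cases h : a ≤ i
  · by_cases h2 : i < b
    · have : i - a < b - a := by omega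
      simp [h, h2, this]
    · have : ¬ i - a < b - a := by omega
      simp [h, h2, this]
  · simp [h]

/-- The points of the second orbit. -/
def G77 (i : ℕ) : Prop := 23 ≤ i ∧ i < 100

theorem D22_iff (i : ℕ) : D22 i ↔ (2 ^ 23 - 2 ^ 1 : ℕ).testBit i = true := by
  rw [testBit_mask (by norm_num)]
  simp only [D22, decide_eq_true_eq]
  omega

theorem G77_iff (i : ℕ) : G77 i ↔ (2 ^ 100 - 2 ^ 23 : ℕ).testBit i = true := by
  rw [testBit_mask (by norm_num)]
  simp only [G77, decide_eq_true_eq]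

theorem Gp_le_invS (hv : ∀ i, validProg N (pL i) = true) (S : List ℕ) {P : ℕ → Prop} {M : ℕ}
    (hP : ∀ i, P i ↔ M.testBit i = true) (hM : ∀ t ∈ S, progApply (pL t) M = M) :
    Gp pL S ≤ invS P := by
  apply (Subgroup.closure_le _).mpr
  rintro _ ⟨t, ht, rfl⟩
  intro i
  rw [hP, hP]
  have h := testBit_progApply N _ (hv t) M i
  rw [hM t ht] at h
  rw [← h]

theorem Gp_le_fixAbove (hv : ∀ i, validProg (2 ^ 7) (pL i) = true) (S : List ℕ)
    (h : ∀ t ∈ S, ∀ i ∈ List.range' 100 28, progApply (pL t) (2 ^ i) = 2 ^ i) : Gp pL S ≤ fixAbove 100 := by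
  apply (Subgroup.closure_le _).mpr
  rintro _ ⟨t, ht, rfl⟩
  intro i hi
  by_cases h2 : i < 128
  · have h3 := h t ht i (by rw [List.mem_range']; exact ⟨i - 100, by omega, by omega⟩)
    apply perm_of_testBit (hv t)
    rw [h3, Nat.testBit_two_pow_self]
  · exact progPerm_fix_high _ _ (hv t) i (by norm_num; omega)

theorem Gp_le_of_words (hv : ∀ i, validProg (2 ^ N) (pL i) = true) (S S' : List ℕ)
    (W : ℕ → List (ℕ × Bool))
    (hW : ∀ t ∈ S', ∀ a ∈ W t, a.1 ∈ S)
    (heq : ∀ t ∈ S', ∀ j, j < N → wordApply (sgnProg pL) ((t, false) :: W t) (slice N j) = slice N j) :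
    Gp pL S' ≤ Gp pL S := by
  have hval : ∀ a : ℕ × Bool, validProg (2 ^ N) (sgnProg pL a) = true := valid_sgnProg hv
  apply (Subgroup.closure_le _).mpr
  rintro _ ⟨t, ht, rfl⟩
  have h1 : wordPerm (sgnProg pL) ((t, false) :: W t) = 1 :=
    wordPerm_eq_one N _ _ (fun a _ => hval a) (heq t ht)
  have h2 : wordPerm (sgnProg pL) ((t, false) :: W t) =
      (progPerm (pL t))⁻¹ * wordPerm (sgnProg pL) (W t) := by
    have : progPerm (sgnProg pL (t, false)) = (progPerm (pL t))⁻¹ :=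
      progPerm_reverse_mul _ _ (hv t)
    simp [wordPerm, this]
  rw [h2, inv_mul_eq_one] at h1
  show progPerm (pL t) ∈ _
  rw [h1]
  exact word_mem_Gp hv (hW t ht)

theorem Gp_fix (hv : ∀ i, validProg N (pL i) = true) (S : List ℕ) {p : ℕ}
    (hfix : ∀ t ∈ S, progApply (pL t) (2 ^ p) = 2 ^ p) : ∀ g ∈ Gp pL S, g p = p := by
  intro g hg
  induction hg using Subgroup.closure_induction with
  | mem x hx =>
    obtain ⟨t, ht, rfl⟩ := hx
    have h1 := testBit_progApply _ _ (hv t) (2 ^ p) p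
    rw [hfix t ht, Nat.testBit_two_pow_self] at h1
    have h2 := h1.symm
    rw [Nat.testBit_two_pow] at h2
    exact (of_decide_eq_true h2).symm
  | one => rfl
  | mul x y _ _ hx hy => rw [Equiv.Perm.mul_apply, hy, hx]
  | inv x _ hx =>
    rw [Equiv.Perm.inv_eq_iff_eq]
    exact hx.symm

/-- The permutations keeping the small orbit and a family of masks labelled by it. -/
def invNB (NB : ℕ → ℕ) : Subgroup (Equiv.Perm ℕ) where
  carrier := {g | g ∈ invS D22 ∧ ∀ j, D22 j → ∀ i, (NB (g j)).testBit (g i) = (NB j).testBit i}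
  one_mem' := ⟨(invS D22).one_mem, fun j _ i => rfl⟩
  mul_mem' := fun {a b} ha hb => ⟨(invS D22).mul_mem ha.1 hb.1, fun j hj i => by
    rw [Equiv.Perm.mul_apply, Equiv.Perm.mul_apply, ha.2 (b j) ((hb.1 j).2 hj) (b i), hb.2 j hj i]⟩
  inv_mem' := fun {a} ha => ⟨(invS D22).inv_mem ha.1, fun j hj i => by
    have hj' : D22 (a⁻¹ j) := ((invS D22).inv_mem ha.1 j).2 hj
    have h := ha.2 (a⁻¹ j) hj' (a⁻¹ i)
    rw [show a (a⁻¹ j) = j from by simp, show a (a⁻¹ i) = i from by simp] at h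
    exact h.symm⟩

theorem Gp_le_invNB (hv : ∀ i, validProg N (pL i) = true) (S : List ℕ) (NB : ℕ → ℕ)
    (hD : Gp pL S ≤ invS D22) (c : ℕ → ℕ) (hc : ∀ t ∈ S, ∀ j, D22 j → progPerm (pL t) j = Cfsg.Agent.Lib.Golay.ap (c t) j)
    (hn : ∀ t ∈ S, ∀ j, D22 j → progApply (pL t) (NB (Cfsg.Agent.Lib.Golay.ap (c t) j)) = NB j) :
    Gp pL S ≤ invNB NB := by
  apply (Subgroup.closure_le _).mpr
  rintro _ ⟨t, ht, rfl⟩
  refine ⟨hD (mem_Gp_of_mem ht), fun j hj i => ?_⟩
  rw [hc t ht j hj, ← testBit_progApply N _ (hv t), hn t ht j hj]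

/-- Faithfulness on the small orbit. -/
theorem faith_of_nb {G2 : Subgroup (Equiv.Perm ℕ)} (NB : ℕ → ℕ) (hle : G2 ≤ invNB NB)
    (hfix : ∀ g ∈ G2, g 0 = 0) (hab : G2 ≤ fixAbove 100) (hΓ : G2 ≤ invS G77)
    (hsep : ∀ i i', G77 i → G77 i' → (∀ j, D22 j → (NB j).testBit i = (NB j).testBit i') → i = i') :
    ∀ g ∈ G2, (∀ i, 1 ≤ i → i ≤ 22 → g i = i) → g = 1 := by
  intro g hg h
  ext i
  simp only [Equiv.Perm.coe_one, id_eq]
  by_cases h0 : i = 0
  · rw [h0]; exact hfix g hg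
  by_cases h1 : i ≤ 22
  · exact h i (by omega) h1
  by_cases h2 : i < 100
  · have hi : G77 i := ⟨by omega, h2⟩
    refine hsep _ _ ((hΓ hg i).2 hi) hi fun j hj => ?_
    have := (hle hg).2 j hj i
    rwa [h j hj.1 hj.2] at this
  · exact hab hg i (by omega)

/-- A central element is trivial. -/
theorem center_trivial {G0 G2 : Subgroup (Equiv.Perm ℕ)} (hfix : G0 ≤ fixAbove 100)
    (htrans : ∀ i, i < 100 → ∃ g ∈ G0, g 0 = i) (hG2le : G2 ≤ G0) (hG2fix : ∀ g ∈ G2, g 0 = 0)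
    (hs1 : ∀ i, 1 ≤ i → i ≤ 22 → ∃ g ∈ G2, g 1 = i)
    (hs2 : ∀ i, 23 ≤ i → i < 100 → ∃ g ∈ G2, g 23 = i)
    (h : Equiv.Perm ℕ) (hh0 : h ∈ G0) (hc : ∀ k ∈ G0, h * k = k * h) : h = 1 := by
  have hx : h 0 < 100 := ((fixAbove_le 100) (hfix hh0) 0).2 (by norm_num)
  have hg : ∀ g ∈ G2, g (h 0) = h 0 := by
    intro g hg
    have h1 := congrArg (fun p : Equiv.Perm ℕ => p 0) (hc g (hG2le hg))
    simp only [Equiv.Perm.mul_apply] at h1
    rw [hG2fix g hg] at h1
    exact h1.symm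
  have h00 : h 0 = 0 := by
    by_contra hne
    by_cases h1 : h 0 ≤ 22
    · obtain ⟨g, hg1, e⟩ := hs1 (h 0) (by omega) h1
      have e1 : g (h 0) = g 1 := by rw [hg g hg1, e]
      have e2 : h 0 = 1 := g.injective e1
      obtain ⟨g', hg', e'⟩ := hs1 2 (by norm_num) (by norm_num)
      have e3 := hg g' hg'
      rw [e2, e'] at e3
      omega
    · obtain ⟨g, hg1, e⟩ := hs2 (h 0) (by omega) hx
      have e1 : g (h 0) = g 23 := by rw [hg g hg1, e]
      have e2 : h 0 = 23 := g.injective e1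
      obtain ⟨g', hg', e'⟩ := hs2 24 (by norm_num) (by norm_num)
      have e3 := hg g' hg'
      rw [e2, e'] at e3
      omega
  ext i
  simp only [Equiv.Perm.coe_one, id_eq]
  by_cases hi : i < 100
  · obtain ⟨k, hk, e⟩ := htrans i hi
    have h1 := congrArg (fun p : Equiv.Perm ℕ => p 0) (hc k hk)
    simp only [Equiv.Perm.mul_apply] at h1
    rw [h00, e] at h1
    exact h1
  · exact hfix hh0 i (by omega)

/-- The permutations preserving the pair of points of the top level. -/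
def pairS : Subgroup (Equiv.Perm ℕ) where
  carrier := {g | (g 100 = 100 ∧ g 101 = 101) ∨ (g 100 = 101 ∧ g 101 = 100)}
  one_mem' := Or.inl ⟨rfl, rfl⟩
  mul_mem' := fun {a b} ha hb => by
    simp only [Set.mem_setOf_eq, Equiv.Perm.mul_apply]
    rcases ha with ⟨h1, h2⟩ | ⟨h1, h2⟩ <;> rcases hb with ⟨h3, h4⟩ | ⟨h3, h4⟩ <;> simp [h1, h2, h3, h4]
  inv_mem' := fun {a} ha => by
    simp only [Set.mem_setOf_eq]
    rcases ha with ⟨h1, h2⟩ | ⟨h1, h2⟩
    · left
      exact ⟨by rw [Equiv.Perm.inv_eq_iff_eq]; exact h1.symm, by rw [Equiv.Perm.inv_eq_iff_eq]; exact h2.symm⟩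
    · right
      exact ⟨by rw [Equiv.Perm.inv_eq_iff_eq]; exact h2.symm, by rw [Equiv.Perm.inv_eq_iff_eq]; exact h1.symm⟩

end D

end Cfsg.Agent.Lib.TcCover
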