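import Mathlib
import Cfsg.Agent.Lib.ThompsonTransfer

/-!
# Thompson transfer as a homomorphism

For a character `φ : S →* ℤˣ` of a subgroup `S` of finite index, `MonoidHom.transfer φ : G →* ℤˣ` is trivial
on elements none of whose powers has a conjugate in `S` outside `ker φ` (`transfer_eq_one`), and equals `-1`
on a `2`-element without conjugates in `ker φ` all of whose proper powers have their `S`-conjugates in
`ker φ`, when `S` has odd index (`transfer_eq_neg_one`).
-/

set_option autoImplicit false

namespace Cfsg.Agent.Lib.ThompsonHom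

open MulAction Subgroup

variable {G : Type*} [Group G]

theorem transfer_eq_one [Finite G] (S : Subgroup G) (φ : ↥S →* ℤˣ) (x : G)
    (h : ∀ (m : ℕ) (g : G) (hg : g⁻¹ * x ^ m * g ∈ S), φ ⟨_, hg⟩ = 1) :
    MonoidHom.transfer φ x = 1 := by
  classical
  letI : Fintype (Quotient (orbitRel (zpowers x) (G ⧸ S))) := Fintype.ofFinite _
  rw [MonoidHom.transfer_eq_prod_quotient_orbitRel_zpowers_quot]
  apply Finset.prod_eq_one
  intro q _
  exact h _ _ _

theorem transfer_eq_neg_one [Finite G] (S : Subgroup G) (φ : ↥S →* ℤˣ)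
    (hS : ¬ 2 ∣ S.index) (x : G) (n : ℕ) (hx : x ^ 2 ^ n = 1)
    (hkey : ∀ (m : ℕ) (g : G), 2 ∣ m → m ≠ 0 → ∀ hg : g⁻¹ * x ^ m * g ∈ S, φ ⟨_, hg⟩ = 1)
    (hno : ∀ (g : G) (hg : g⁻¹ * x * g ∈ S), φ ⟨_, hg⟩ ≠ 1) :
    MonoidHom.transfer φ x = -1 := by
  classical
  letI : Fintype (Quotient (orbitRel (zpowers x) (G ⧸ S))) := Fintype.ofFinite _
  rw [MonoidHom.transfer_eq_prod_quotient_orbitRel_zpowers_quot]
  have hpp : ∀ q : G ⧸ S, Function.IsPeriodicPt (x • ·) (2 ^ n) q := by
    intro q
    rw [Function.IsPeriodicPt, Function.IsFixedPt, smul_iterate, hx]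
    simp
  have hper : ∀ q : G ⧸ S, Function.minimalPeriod (x • ·) q = 1 ∨ 2 ∣ Function.minimalPeriod (x • ·) q := by
    intro q
    have hdvd : Function.minimalPeriod (x • ·) q ∣ 2 ^ n := (hpp q).minimalPeriod_dvd
    obtain ⟨k, _, hk⟩ := (Nat.dvd_prime_pow Nat.prime_two).1 hdvd
    rcases k with _ | k
    · left; simpa using hk
    · right; rw [hk]; exact dvd_pow_self 2 (Nat.succ_ne_zero k)
  have hunits : ∀ u : ℤˣ, u ≠ 1 → u = -1 := by
    intro u hu
    rcases Int.units_eq_one_or u with h | h
    · exact absurd h hu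
    · exact h
  have h2 : ∀ q : Quotient (orbitRel (zpowers x) (G ⧸ S)),
      φ ⟨q.out.out⁻¹ * x ^ Function.minimalPeriod (x • ·) q.out * q.out.out,
            QuotientGroup.out_conj_pow_minimalPeriod_mem S x q.out⟩ =
        if Function.minimalPeriod (x • ·) q.out = 1 then -1 else 1 := by
    intro q
    have hq0 : Function.minimalPeriod (x • ·) q.out ≠ 0 :=
      (Function.minimalPeriod_pos_of_mem_periodicPts ⟨2 ^ n, by positivity, hpp _⟩).ne'
    by_cases h : Function.minimalPeriod (x • ·) q.out = 1
    · rw [if_pos h]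
      apply hunits
      have h3 := QuotientGroup.out_conj_pow_minimalPeriod_mem S x q.out
      have h4 : ∀ (m : ℕ) (hm : m = 1) (h5 : q.out.out⁻¹ * x ^ m * q.out.out ∈ S),
          φ ⟨_, h5⟩ ≠ 1 := by
        rintro m rfl h5
        have h6 : q.out.out⁻¹ * x * q.out.out ∈ S := by rwa [pow_one] at h5
        have h7 := hno _ h6
        convert h7 using 3
        rw [pow_one]
      exact h4 _ h h3
    · rw [if_neg h]
      rcases hper q.out with h' | h'
      · exact absurd h' h
      · exact hkey _ _ h' hq0 _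
  simp_rw [h2]
  rw [Finset.prod_ite]
  simp only [Finset.prod_const, one_pow, mul_one]
  have hsum := index_eq_sum_minimalPeriod S x
  have hodd : Odd S.index := by
    rcases Nat.even_or_odd S.index with h | h
    · exact absurd h.two_dvd hS
    · exact h
  rw [hsum] at hodd
  rw [Finset.odd_sum_iff_odd_card_odd] at hodd
  have heq : (Finset.univ.filter fun q : Quotient (orbitRel (zpowers x) (G ⧸ S)) =>
        Odd (Function.minimalPeriod (x • ·) q.out)) = Finset.univ.filter fun q : Quotient (orbitRel (zpowers x) (G ⧸ S)) =>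
        Function.minimalPeriod (x • ·) q.out = 1 := by
    ext q
    simp only [Finset.mem_filter, Finset.mem_univ, true_and]
    constructor
    · intro h
      rcases hper q.out with h' | h'
      · exact h'
      · exact absurd (even_iff_two_dvd.2 h') (Nat.not_even_iff_odd.2 h)
    · intro h
      rw [h]; exact odd_one
  rw [heq] at hodd
  exact hodd.neg_one_pow

end Cfsg.Agent.Lib.ThompsonHom
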