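import Mathlib
import Cfsg.Agent.Lib.TitsMData
import Cfsg.Agent.Lib.TitsBridge
import Cfsg.Agent.Lib.SchurCoset46

/-!
# Generators of the Tits group as a permutation group

Two elements of order thirteen, with tables of their action on the `1755` points; equality of elements on the base of
the stabilizer chain; the relators of the coset certificate and the generation of the group.
-/

set_option autoImplicit false
set_option maxRecDepth 100000

namespace Cfsg.Agent.Lib.TitsMT

open Cfsg.Agent.Lib.PermChain Cfsg.Agent.Lib.ProgChain Cfsg.Agent.Lib.TwoF4Gen Cfsg.Agent.Lib.TwoF4PMain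
  Cfsg.Agent.Lib.TwoF4Inv Cfsg.Agent.Lib.TitsPar Cfsg.Agent.Lib.TwoF4Bridge Cfsg.Agent.Lib.SchurCoset46
  Cfsg.Agent.Lib.TitsMCert Cfsg.Agent.Lib.TitsMData Cfsg.Agent.Lib.TwoF4XTab

/-- The tables by letter. -/
def tbl (l : ℕ) : ℕ :=
  match l with
  | 0 => tA
  | 1 => tAi
  | 2 => tB
  | 3 => tBi
  | _ => tY

/-- The permutations of the letters. -/
def lt (l p : ℕ) : ℕ := fld (tbl l) 11 2047 p

/-- The first generator. -/
noncomputable def aT : ↥T := ⟨prodW g wa, mem_T_word (by decide +kernel)⟩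
/-- The second generator. -/
noncomputable def bT : ↥T := ⟨prodW g wb, mem_T_word (by decide +kernel)⟩
/-- The involution. -/
noncomputable def yT : ↥T := ⟨prodW g wY, mem_T_word (by decide +kernel)⟩

theorem wa_lt : ∀ e ∈ wa, e < 4 := by decide +kernel
theorem wb_lt : ∀ e ∈ wb, e < 4 := by decide +kernel
theorem wY_lt : ∀ e ∈ wY, e < 4 := by decide +kernel

theorem tab_a : (List.range 1755).all (fun p => Nat.beq (lt 0 p) (piW wa p) && Nat.beq (lt 1 (lt 0 p)) p) = true := by
  decide +kernel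
theorem tab_b : (List.range 1755).all (fun p => Nat.beq (lt 2 p) (piW wb p) && Nat.beq (lt 3 (lt 2 p)) p) = true := by
  decide +kernel
theorem tab_y : (List.range 1755).all (fun p => Nat.beq (lt 4 p) (piW wY p)) = true := by
  decide +kernel

theorem a_act (p : Fin 1755) : (aT.1 p).val = lt 0 p.val := by
  have h := tab_a
  simp only [List.all_eq_true, List.mem_range, Bool.and_eq_true] at h
  rw [Nat.eq_of_beq_eq_true (h p.val p.isLt).1]
  exact word_val wa_lt p

theorem b_act (p : Fin 1755) : (bT.1 p).val = lt 2 p.val := by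
  have h := tab_b
  simp only [List.all_eq_true, List.mem_range, Bool.and_eq_true] at h
  rw [Nat.eq_of_beq_eq_true (h p.val p.isLt).1]
  exact word_val wb_lt p

theorem y_act (p : Fin 1755) : (yT.1 p).val = lt 4 p.val := by
  have h := tab_y
  simp only [List.all_eq_true, List.mem_range] at h
  rw [Nat.eq_of_beq_eq_true (h p.val p.isLt)]
  exact word_val wY_lt p

theorem ai_act (p : Fin 1755) : (aT⁻¹.1 p).val = lt 1 p.val := by
  have h := tab_a
  simp only [List.all_eq_true, List.mem_range, Bool.and_eq_true] at h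
  set q : Fin 1755 := aT⁻¹.1 p with hq
  have h1 : aT.1 q = p := by
    rw [hq]
    show aT.1 ((aT.1)⁻¹ p) = p
    simp
  have h2 := a_act q
  rw [h1] at h2
  rw [h2, Nat.eq_of_beq_eq_true (h q.val q.isLt).2]

theorem bi_act (p : Fin 1755) : (bT⁻¹.1 p).val = lt 3 p.val := by
  have h := tab_b
  simp only [List.all_eq_true, List.mem_range, Bool.and_eq_true] at h
  set q : Fin 1755 := bT⁻¹.1 p with hq
  have h1 : bT.1 q = p := by
    rw [hq]
    show bT.1 ((bT.1)⁻¹ p) = p
    simp
  have h2 := b_act q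
  rw [h1] at h2
  rw [h2, Nat.eq_of_beq_eq_true (h q.val q.isLt).2]

/-- The generators. -/
noncomputable def sT (i : ℕ) : ↥T := if i = 0 then aT else bT

theorem sT0 : sT 0 = aT := rfl
theorem sT1 : sT 1 = bT := rfl

/-- The letters, on the points. -/
theorem lett_act {l : ℕ} (hl : l < 4) (p : Fin 1755) : ((lett sT l).1 p).val = lt l p.val := by
  interval_cases l
  · show ((lett sT (2 * 0)).1 p).val = _
    rw [lett_even, sT0, a_act]
  · show ((lett sT (2 * 0 + 1)).1 p).val = _
    rw [lett_odd, sT0, ai_act]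
  · show ((lett sT (2 * 1)).1 p).val = _
    rw [lett_even, sT1, b_act]
  · show ((lett sT (2 * 1 + 1)).1 p).val = _
    rw [lett_odd, sT1, bi_act]

/-- The inverse letter. -/
def inv1 (l : ℕ) : ℕ := if l % 2 = 0 then l + 1 else l - 1

theorem inv1_lt {l : ℕ} (hl : l < 4) : inv1 l < 4 := by
  unfold inv1
  split_ifs <;> omega

theorem lett_inv {l : ℕ} (hl : l < 4) : (lett sT l)⁻¹ = lett sT (inv1 l) := by
  interval_cases l
  · show (lett sT (2 * 0))⁻¹ = lett sT (2 * 0 + 1)
    rw [lett_even, lett_odd]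
  · show (lett sT (2 * 0 + 1))⁻¹ = lett sT (2 * 0)
    rw [lett_even, lett_odd, inv_inv]
  · show (lett sT (2 * 1))⁻¹ = lett sT (2 * 1 + 1)
    rw [lett_even, lett_odd]
  · show (lett sT (2 * 1 + 1))⁻¹ = lett sT (2 * 1)
    rw [lett_even, lett_odd, inv_inv]

/-- The action of a word on the points. -/
def wAct : List ℕ → ℕ → ℕ
  | [], c => c
  | l :: w, c => lt l (wAct w c)

theorem evW_act (w : List ℕ) (hw : ∀ l ∈ w, l < 4) (p : Fin 1755) : ((evW sT w).1 p).val = wAct w p.val := by
  induction w with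
  | nil => rfl
  | cons l w ih =>
    have h1 : evW sT (l :: w) = lett sT l * evW sT w := rfl
    rw [h1, Subgroup.coe_mul, Equiv.Perm.mul_apply, lett_act (hw l List.mem_cons_self),
      ih (fun a ha => hw a (List.mem_cons_of_mem _ ha))]
    rfl

/-- The base of the chain. -/
def B9 (i : ℕ) : ℕ := [731, 91, 11, 733, 795, 1, 93, 0, 3].getD i 0

theorem eq_one_of_base {x : Equiv.Perm (Fin 1755)} (hx : x ∈ H)
    (h : ∀ i, i < 9 → ∀ p : Fin 1755, p.val = B9 i → (x p).val = p.val) : x = 1 := by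
  have f : ∀ i, i < 9 → ∀ p : Fin 1755, p.val = B9 i → x p = p := fun i hi p hp => Fin.ext (h i hi p hp)
  have h0 := mem_next_of_fix (lev0).2 hx (f 0 (by norm_num) _ rfl)
  have h1 := mem_next_of_fix (lev1).2 h0 (f 1 (by norm_num) _ rfl)
  have h2 := mem_next_of_fix (lev2).2 h1 (f 2 (by norm_num) _ rfl)
  have h3 := mem_next_of_fix (lev3).2 h2 (f 3 (by norm_num) _ rfl)
  have h4 := mem_next_of_fix (lev4).2 h3 (f 4 (by norm_num) _ rfl)
  have h5 := mem_next_of_fix (lev5).2 h4 (f 5 (by norm_num) _ rfl)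
  have h6 := mem_next_of_fix (lev6).2 h5 (f 6 (by norm_num) _ rfl)
  have h7 := mem_next_of_fix (lev7).2 h6 (f 7 (by norm_num) _ rfl)
  have h8 := mem_next_of_fix (lev8).2 h7 (f 8 (by norm_num) _ rfl)
  rw [grp_zero] at h8
  exact Subgroup.mem_bot.mp h8

theorem eq_of_base {x y : Equiv.Perm (Fin 1755)} (hx : x ∈ H) (hy : y ∈ H)
    (h : ∀ i, i < 9 → ∀ p : Fin 1755, p.val = B9 i → (x p).val = (y p).val) : x = y := by
  have h1 : y⁻¹ * x = 1 := by
    apply eq_one_of_base (H.mul_mem (H.inv_mem hy) hx)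
    intro i hi p hp
    have h2 : x p = y p := Fin.ext (h i hi p hp)
    rw [Equiv.Perm.mul_apply, h2]
    simp
  exact (inv_mul_eq_one.mp h1).symm

/-- The test for a word to be trivial. -/
def wordOne (w : List ℕ) : Bool :=
  w.all (fun l => Nat.blt l 4) && (List.range 9).all fun i => Nat.beq (wAct w (B9 i)) (B9 i)

theorem evW_eq_one {w : List ℕ} (h : wordOne w = true) : evW sT w = 1 := by
  simp only [wordOne, Bool.and_eq_true, List.all_eq_true, List.mem_range, Nat.blt_eq] at h
  apply Subtype.ext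
  apply eq_one_of_base (T_le (evW sT w).2)
  intro i hi p hp
  rw [evW_act w h.1, hp, Nat.eq_of_beq_eq_true (h.2 i hi)]

theorem rels_chk : (List.range cert.R).all (fun j => wordOne (cert.rels j)) = true := by decide +kernel

theorem hrel : ∀ j, j < cert.R → evW sT (cert.rels j) = 1 := by
  have h := rels_chk
  simp only [List.all_eq_true, List.mem_range] at h
  exact fun j hj => evW_eq_one (h j hj)

theorem hrels : ∀ j, j < cert.R → ∀ l ∈ cert.rels j, l < 2 * cert.m := by
  have h := rels_chk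
  simp only [List.all_eq_true, List.mem_range, wordOne, Bool.and_eq_true, Nat.blt_eq] at h
  exact fun j hj l hl => (h j hj).1 l hl

theorem hm2 : cert.m = 2 := rfl

theorem rel0_eq : cert.rels 0 = [0, 0, 0, 0, 0, 0, 0, 0, 0, 0, 0, 0, 0] := by decide +kernel
theorem rel1_eq : cert.rels 1 = [2, 2, 2, 2, 2, 2, 2, 2, 2, 2, 2, 2, 2] := by decide +kernel

theorem R_pos0 : 0 < cert.R := by decide +kernel
theorem R_pos1 : 1 < cert.R := by decide +kernel

theorem evW_13 {W : Type*} [Group W] (y : ℕ → W) (l : ℕ) :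
    evW y [l, l, l, l, l, l, l, l, l, l, l, l, l] = (lett y l) ^ 13 := by
  simp [evW, pow_succ, mul_assoc]

theorem a_pow : aT ^ 13 = 1 := by
  have h := hrel 0 R_pos0
  rw [rel0_eq, evW_13, show lett sT 0 = sT 0 from lett_even sT 0] at h
  exact h

theorem b_pow : bT ^ 13 = 1 := by
  have h := hrel 1 R_pos1
  rw [rel1_eq, evW_13, show lett sT 2 = sT 1 from lett_even sT 1] at h
  exact h

theorem sT_pow (i : ℕ) : sT i ^ 13 = 1 := by
  by_cases hi : i = 0
  · rw [sT, if_pos hi]; exact a_pow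
  · rw [sT, if_neg hi]; exact b_pow

/-! ### The generation -/

theorem lt_w {w : List ℕ} (h : w.all (fun l => Nat.blt l 4) = true) : ∀ l ∈ w, l < 4 := by
  simpa only [List.all_eq_true, Nat.blt_eq] using h

theorem w0_chk : (w_g0.all (fun l => Nat.blt l 4) &&
    (List.range 9).all (fun i => Nat.beq (wAct w_g0 (B9 i)) (piT 0 (B9 i)))) = true := by decide +kernel
theorem w1_chk : (w_g1.all (fun l => Nat.blt l 4) &&
    (List.range 9).all (fun i => Nat.beq (wAct w_g1 (B9 i)) (piT 1 (B9 i)))) = true := by decide +kernel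
theorem w22_chk : (w_g22.all (fun l => Nat.blt l 4) &&
    (List.range 9).all (fun i => Nat.beq (wAct w_g22 (B9 i)) (piT 2 (piT 2 (B9 i))))) = true := by decide +kernel
theorem w32_chk : (w_g3g2i.all (fun l => Nat.blt l 4) &&
    (List.range 9).all (fun i => Nat.beq (wAct w_g3g2i (piT 2 (B9 i))) (piT 3 (B9 i)))) = true := by decide +kernel
theorem wa2_chk : (w_g2ag2i.all (fun l => Nat.blt l 4) &&
    (List.range 9).all (fun i => Nat.beq (wAct w_g2ag2i (piT 2 (B9 i))) (piT 2 (lt 0 (B9 i))))) = true := by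
  decide +kernel
theorem wb2_chk : (w_g2bg2i.all (fun l => Nat.blt l 4) &&
    (List.range 9).all (fun i => Nat.beq (wAct w_g2bg2i (piT 2 (B9 i))) (piT 2 (lt 2 (B9 i))))) = true := by
  decide +kernel

theorem ev_g0 : (evW sT w_g0).1 = g 0 := by
  have h := w0_chk
  simp only [Bool.and_eq_true, List.all_eq_true, List.mem_range, Nat.blt_eq] at h
  apply eq_of_base (T_le (evW sT w_g0).2) (letters_H 0)
  intro i hi p hp
  rw [evW_act _ h.1, g_val (by norm_num), hp]
  exact Nat.eq_of_beq_eq_true (h.2 i hi)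

theorem ev_g1 : (evW sT w_g1).1 = g 1 := by
  have h := w1_chk
  simp only [Bool.and_eq_true, List.all_eq_true, List.mem_range, Nat.blt_eq] at h
  apply eq_of_base (T_le (evW sT w_g1).2) (letters_H 1)
  intro i hi p hp
  rw [evW_act _ h.1, g_val (by norm_num), hp]
  exact Nat.eq_of_beq_eq_true (h.2 i hi)

theorem ev_g22 : (evW sT w_g22).1 = g 2 * g 2 := by
  have h := w22_chk
  simp only [Bool.and_eq_true, List.all_eq_true, List.mem_range, Nat.blt_eq] at h
  apply eq_of_base (T_le (evW sT w_g22).2) (H.mul_mem (letters_H 2) (letters_H 2))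
  intro i hi p hp
  rw [evW_act _ h.1, Equiv.Perm.mul_apply, g_val (by norm_num), g_val (by norm_num), hp]
  exact Nat.eq_of_beq_eq_true (h.2 i hi)

theorem ev_g32 : (evW sT w_g3g2i).1 * g 2 = g 3 := by
  have h := w32_chk
  simp only [Bool.and_eq_true, List.all_eq_true, List.mem_range, Nat.blt_eq] at h
  apply eq_of_base (H.mul_mem (T_le (evW sT w_g3g2i).2) (letters_H 2)) (letters_H 3)
  intro i hi p hp
  rw [Equiv.Perm.mul_apply, evW_act _ h.1, g_val (by norm_num), g_val (by norm_num), hp]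
  exact Nat.eq_of_beq_eq_true (h.2 i hi)

theorem ev_a2 : (evW sT w_g2ag2i).1 * g 2 = g 2 * aT.1 := by
  have h := wa2_chk
  simp only [Bool.and_eq_true, List.all_eq_true, List.mem_range, Nat.blt_eq] at h
  apply eq_of_base (H.mul_mem (T_le (evW sT w_g2ag2i).2) (letters_H 2)) (H.mul_mem (letters_H 2) (T_le aT.2))
  intro i hi p hp
  rw [Equiv.Perm.mul_apply, Equiv.Perm.mul_apply, evW_act _ h.1, g_val (by norm_num), g_val (by norm_num), a_act, hp]
  exact Nat.eq_of_beq_eq_true (h.2 i hi)

theorem ev_b2 : (evW sT w_g2bg2i).1 * g 2 = g 2 * bT.1 := by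
  have h := wb2_chk
  simp only [Bool.and_eq_true, List.all_eq_true, List.mem_range, Nat.blt_eq] at h
  apply eq_of_base (H.mul_mem (T_le (evW sT w_g2bg2i).2) (letters_H 2)) (H.mul_mem (letters_H 2) (T_le bT.2))
  intro i hi p hp
  rw [Equiv.Perm.mul_apply, Equiv.Perm.mul_apply, evW_act _ h.1, g_val (by norm_num), g_val (by norm_num), b_act, hp]
  exact Nat.eq_of_beq_eq_true (h.2 i hi)

theorem hgen : Subgroup.closure (sT '' Set.Iio cert.m) = ⊤ := by
  rw [hm2]
  generalize hS : Subgroup.closure (sT '' Set.Iio 2) = S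
  have h0 : aT ∈ S := by
    rw [← hS]
    exact Subgroup.subset_closure ⟨0, by norm_num, sT0⟩
  have h1 : bT ∈ S := by
    rw [← hS]
    exact Subgroup.subset_closure ⟨1, by norm_num, sT1⟩
  have hsT : ∀ i, sT i ∈ S := by
    intro i
    by_cases hi : i = 0
    · rw [sT, if_pos hi]; exact h0
    · rw [sT, if_neg hi]; exact h1
  have hw : ∀ w, evW sT w ∈ S := by
    intro w
    induction w with
    | nil => exact S.one_mem
    | cons l w ih =>
      refine S.mul_mem ?_ ih
      unfold lett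
      split_ifs
      · exact hsT _
      · exact S.inv_mem (hsT _)
  set S' : Subgroup (Equiv.Perm (Fin 1755)) := S.map T.subtype with hS'
  have hw' : ∀ w, (evW sT w).1 ∈ S' := fun w => ⟨_, hw w, rfl⟩
  have e0 : g 0 ∈ S' := by rw [← ev_g0]; exact hw' _
  have e1 : g 1 ∈ S' := by rw [← ev_g1]; exact hw' _
  have e22 : g 2 * g 2 ∈ S' := by rw [← ev_g22]; exact hw' _
  have e32 : g 3 * (g 2)⁻¹ ∈ S' := by rw [← ev_g32, mul_inv_cancel_right]; exact hw' _
  have ea : g 2 * aT.1 * (g 2)⁻¹ ∈ S' := by rw [← ev_a2, mul_inv_cancel_right]; exact hw' _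
  have eb : g 2 * bT.1 * (g 2)⁻¹ ∈ S' := by rw [← ev_b2, mul_inv_cancel_right]; exact hw' _
  have hconj : ∀ x ∈ S', g 2 * x * (g 2)⁻¹ ∈ S' := by
    have hle : S ≤ (S'.comap (MulAut.conj (g 2)).toMonoidHom).comap T.subtype := by
      rw [← hS, Subgroup.closure_le]
      rintro _ ⟨i, hi, rfl⟩
      by_cases h : i = 0
      · rw [sT, if_pos h]
        exact ea
      · rw [sT, if_neg h]
        exact eb
    rintro _ ⟨y, hy, rfl⟩
    exact hle hy
  have hconj' : ∀ x ∈ S', (g 2)⁻¹ * x * g 2 ∈ S' := by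
    intro x hx
    have h2 := S'.mul_mem (S'.mul_mem (S'.inv_mem e22) (hconj x hx)) e22
    have e : (g 2 * g 2)⁻¹ * (g 2 * x * (g 2)⁻¹) * (g 2 * g 2) = (g 2)⁻¹ * x * g 2 := by group
    rwa [e] at h2
  -- the step
  let P : Equiv.Perm (Fin 1755) → Prop := fun x => x ∈ S' ∨ (g 2)⁻¹ * x ∈ S'
  have hstep : ∀ e, e < 4 → ∀ y, P y → P (g e * y) := by
    intro e he y hy
    have hsim : ∀ u ∈ S', P (u * y) := by
      intro u hu
      rcases hy with hy | hy
      · exact Or.inl (S'.mul_mem hu hy)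
      · refine Or.inr ?_
        have h2 := S'.mul_mem (hconj' u hu) hy
        have e' : (g 2)⁻¹ * u * g 2 * ((g 2)⁻¹ * y) = (g 2)⁻¹ * (u * y) := by group
        rwa [e'] at h2
    have htwo : P (g 2 * y) := by
      rcases hy with hy | hy
      · refine Or.inr ?_
        rwa [inv_mul_cancel_left]
      · refine Or.inl ?_
        have h2 := S'.mul_mem e22 hy
        have e' : g 2 * g 2 * ((g 2)⁻¹ * y) = g 2 * y := by group
        rwa [e'] at h2
    interval_cases e
    · exact hsim _ e0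
    · exact hsim _ e1
    · exact htwo
    · have h2 : ∀ z, P z → P (g 3 * (g 2)⁻¹ * z) := by
        intro z hz
        rcases hz with hz | hz
        · exact Or.inl (S'.mul_mem e32 hz)
        · refine Or.inr ?_
          have h3 := S'.mul_mem (hconj' _ e32) hz
          have e' : (g 2)⁻¹ * (g 3 * (g 2)⁻¹) * g 2 * ((g 2)⁻¹ * z) = (g 2)⁻¹ * (g 3 * (g 2)⁻¹ * z) := by group
          rwa [e'] at h3
      have h3 := h2 _ htwo
      have e' : g 3 * (g 2)⁻¹ * (g 2 * y) = g 3 * y := by group
      rwa [e'] at h3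
  have hpow : ∀ e, e < 4 → ∀ n y, P y → P ((g e) ^ n * y) := by
    intro e he n
    induction n with
    | zero =>
      intro y hy
      simpa using hy
    | succ n ih =>
      intro y hy
      have h2 := hstep e he _ (ih y hy)
      rwa [← mul_assoc, ← pow_succ'] at h2
  have key : ∀ x ∈ H, P x := by
    intro x hx
    have hx' : x ∈ Subgroup.closure {x | ∃ k ∈ List.range' 0 4, x = g k} := hx
    induction hx' using Subgroup.closure_induction_left with
    | one => exact Or.inl S'.one_mem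
    | mul_left a ha y hy ih =>
      obtain ⟨e, he, rfl⟩ := ha
      have he' : e < 4 := by
        have := (List.mem_range'_1.mp he).2
        omega
      exact hstep e he' y (ih hy)
    | inv_mul_cancel a ha y hy ih =>
      obtain ⟨e, he, rfl⟩ := ha
      have he' : e < 4 := by
        have := (List.mem_range'_1.mp he).2
        omega
      have h3 : (g e) ^ (orderOf (g e) - 1) * g e = 1 := by
        rw [← pow_succ, Nat.sub_add_cancel (orderOf_pos _), pow_orderOf_eq_one]
      have h4 : (g e) ^ (orderOf (g e) - 1) = (g e)⁻¹ := eq_inv_of_mul_eq_one_left h3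
      have h5 := hpow e he' (orderOf (g e) - 1) y (ih hy)
      rwa [h4] at h5
  rw [eq_top_iff]
  rintro ⟨x, hxT⟩ -
  have hS'T : S' ≤ T := Subgroup.map_subtype_le S
  have hx1 : x ∈ S' := by
    rcases key x (T_le hxT) with h2 | h2
    · exact h2
    · exfalso
      have h3 := hS'T h2
      have h4 : (g 2)⁻¹ ∈ T := by
        have h5 := T.mul_mem h3 (T.inv_mem hxT)
        rwa [mul_inv_cancel_right] at h5
      have h5 := T.inv_mem h4
      rw [inv_inv] at h5
      exact odd_H (mem_T_iff.mp h5).2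
  obtain ⟨y, hy, hyx⟩ := hx1
  have : y = ⟨x, hxT⟩ := Subtype.ext hyx
  rwa [← this]

end Cfsg.Agent.Lib.TitsMT
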