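import Cfsg.Agent.Lib.TitsSqT

/-!
# Normal forms in the Tits group

The stabilizer of the point `731` in the Tits group, seen in `Perm (Fin 1755)`, is the set of the products of the elements
of the polycyclic series and of a power of the element of order five. Three points form a base, and a test on the
base shows the conjugacy of an element with a representative.
-/

set_option autoImplicit false
set_option maxRecDepth 100000
set_option linter.unusedSectionVars false

namespace Cfsg.Agent.Lib.TitsSq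

open Cfsg.Agent.Lib.ChainCert Cfsg.Agent.Lib.ProgBits Cfsg.Agent.Lib.ProgChain Cfsg.Agent.Lib.PermChain
  Cfsg.Agent.Lib.TcBits Cfsg.Agent.Lib.TwoF4Gen Cfsg.Agent.Lib.TwoF4PTab Cfsg.Agent.Lib.TwoF4PMain
  Cfsg.Agent.Lib.TwoF4Inv Cfsg.Agent.Lib.TitsParGen Cfsg.Agent.Lib.TitsPar Cfsg.Agent.Lib.TitsPC
  Cfsg.Agent.Lib.TitsAbs Cfsg.Agent.Lib.TitsLoc Cfsg.Agent.Lib.TwoF4Bridge Cfsg.Agent.Lib.SchurCoset46
  Cfsg.Agent.Lib.TitsMCert Cfsg.Agent.Lib.TitsMData Cfsg.Agent.Lib.TwoF4XTab Cfsg.Agent.Lib.TitsMT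

/-! ### The tables -/

theorem tab_l : allR (guard (fun p => (List.range 4).all fun l => Nat.beq (look l p) (lt l p)) 1755) 11 0 = true := by
  decide +kernel

theorem look_letter {l : ℕ} (hl : l < 4) {p : ℕ} (hp : p < 1755) : look l p = lt l p := by
  have h := of_guard (k := 11) (by norm_num) tab_l p hp
  exact Nat.eq_of_beq_eq_true (List.all_eq_true.mp h l (List.mem_range.mpr hl))

theorem tab_y : allR (guard (fun p => (List.range 11).all fun i => ptChk pr (ys i) (look (4 + i) p) p) 1755) 11 0 = true := by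
  decide +kernel

theorem tab_f : allR (guard (fun p => ptChk pr fw (look 15 p) p) 1755) 11 0 = true := by
  decide +kernel

theorem yy_act {i : ℕ} (hi : i < 11) (p : Fin 1755) : (yy i p).val = look (4 + i) p.val := by
  have h := of_guard (k := 11) (by norm_num) tab_y p.val p.isLt
  exact ctx.prodW_pt (b := p) (List.all_eq_true.mp h i (List.mem_range.mpr hi))

theorem ff_act (p : Fin 1755) : (ff p).val = look 15 p.val :=
  ctx.prodW_pt (b := p) (of_guard (k := 11) (by norm_num) tab_f p.val p.isLt)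

/-! ### Coded words -/

/-- The word of a code. -/
def dw (code : ℕ) : ℕ → List ℕ
  | 0 => []
  | n + 1 => dw code n ++ [digit code n]

/-- The element of a code. -/
noncomputable def Wp (code n : ℕ) : ↥T := evW sT (dw code n)

theorem evW_app (u v : List ℕ) : evW sT (u ++ v) = evW sT u * evW sT v := by
  induction u with
  | nil => simp [evW]
  | cons a u ih => simp [evW, ih, mul_assoc]

theorem digit_lt (code n : ℕ) : digit code n < 4 :=
  lt_of_le_of_lt (Nat.and_le_right (n := Nat.shiftRight code (Nat.mul 2 n)) (m := 3)) (by norm_num)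

theorem wN_succ (code n p : ℕ) : wN code (n + 1) p = wN code n (look (digit code n) p) := rfl

theorem Wp_succ (code n : ℕ) : Wp code (n + 1) = Wp code n * lett sT (digit code n) := by
  simp [Wp, dw, evW_app, evW]

theorem wN_act (code n : ℕ) (p : Fin 1755) : ((Wp code n).1 p).val = wN code n p.val := by
  induction n generalizing p with
  | zero => rfl
  | succ n ih =>
    rw [Wp_succ, Subgroup.coe_mul, Equiv.Perm.mul_apply, ih, lett_act (digit_lt code n), wN_succ,
      look_letter (digit_lt _ _) p.isLt]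

/-! ### Products of the series -/

/-- The products of the elements of the series. -/
noncomputable def Yp : ℕ → ℕ → Equiv.Perm (Fin 1755)
  | 0, _ => 1
  | n + 1, e => (if e % 2 = 1 then yy (10 - n) else 1) * Yp n (e / 2)

theorem yA_succ (n e p : ℕ) : yA (n + 1) e p =
    cond (Nat.beq (Nat.mod e 2) 1) (look (Nat.sub 14 n) (yA n (Nat.div e 2) p)) (yA n (Nat.div e 2) p) := rfl

theorem beq_of_eq {a b : ℕ} (h : a = b) : Nat.beq a b = true := by
  subst h
  exact Nat.beq_refl a

theorem beq_of_ne {a b : ℕ} (h : a ≠ b) : Nat.beq a b = false := by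
  cases h2 : Nat.beq a b with
  | false => rfl
  | true => exact absurd (Nat.eq_of_beq_eq_true h2) h

theorem yA_act {n : ℕ} (hn : n ≤ 11) (e : ℕ) (p : Fin 1755) : (Yp n e p).val = yA n e p.val := by
  induction n generalizing e with
  | zero => rfl
  | succ n ih =>
    have h := ih (by omega) (e / 2)
    rw [yA_succ, Yp, Equiv.Perm.mul_apply]
    by_cases he : e % 2 = 1
    · rw [if_pos he, yy_act (by omega), h, show Nat.mod e 2 = e % 2 from rfl, he, beq_of_eq rfl, cond_true]
      have e1 : Nat.sub 14 n = 4 + (10 - n) := by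
        show 14 - n = _
        omega
      rw [e1]
      rfl
    · rw [if_neg he, show Nat.mod e 2 = e % 2 from rfl, beq_of_ne he, cond_false, Equiv.Perm.one_apply, h]
      rfl

theorem fA_succ (k p : ℕ) : fA (k + 1) p = look 15 (fA k p) := rfl

theorem fA_act (k : ℕ) (p : Fin 1755) : ((ff ^ k) p).val = fA k p.val := by
  induction k with
  | zero => rfl
  | succ k ih =>
    rw [pow_succ', Equiv.Perm.mul_apply, ff_act, ih, fA_succ]

theorem Yp_T (n e : ℕ) : Yp n e ∈ T := by
  induction n generalizing e with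
  | zero => exact T.one_mem
  | succ n ih =>
    rw [Yp]
    refine T.mul_mem ?_ (ih _)
    split_ifs
    · exact yy_T (by omega)
    · exact T.one_mem

theorem Yp_zero (n : ℕ) : Yp n 0 = 1 := by
  induction n with
  | zero => rfl
  | succ n ih => simp [Yp, ih]

theorem Yp_exists : ∀ n, n ≤ 11 → ∀ x ∈ KK yy 11 (11 - n), ∃ e, e < 2 ^ n ∧ x = Yp n e := by
  intro n
  induction n with
  | zero =>
    intro _ x hx
    refine ⟨0, by norm_num, ?_⟩
    rw [show 11 - 0 = 11 from rfl, KK_top] at hx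
    exact Subgroup.mem_bot.mp hx
  | succ n ih =>
    intro hn x hx
    have hi : 10 - n < 11 := by omega
    have e0 : 11 - (n + 1) = 10 - n := by omega
    have e1 : 10 - n + 1 = 11 - n := by omega
    rw [e0] at hx
    have hc := (pc_all (10 - n) hi).cases x hx
    rw [e1] at hc
    rcases hc with hc | hc
    · obtain ⟨e, he, hxe⟩ := ih (by omega) x hc
      refine ⟨2 * e, by rw [pow_succ]; omega, ?_⟩
      have h1 : (2 * e) % 2 ≠ 1 := by omega
      have h2 : (2 * e) / 2 = e := by omega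
      rw [Yp, if_neg h1, h2, one_mul]
      exact hxe
    · obtain ⟨e, he, hxe⟩ := ih (by omega) _ hc
      refine ⟨2 * e + 1, by rw [pow_succ]; omega, ?_⟩
      have h1 : (2 * e + 1) % 2 = 1 := by omega
      have h2 : (2 * e + 1) / 2 = e := by omega
      rw [Yp, if_pos h1, h2, ← hxe]
      group

/-! ### The stabilizer -/

theorem ff_P : ff ∈ T ⊓ H1 := ⟨ff_T, ff_H1⟩

theorem ff_order : orderOf ff = 5 :=
  haveI : Fact (Nat.Prime 5) := ⟨by norm_num⟩
  orderOf_eq_prime ser.f5 f_ne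

theorem P_decomp {x : Equiv.Perm (Fin 1755)} (hx : x ∈ T ⊓ H1) :
    ∃ u ∈ KK yy 11 0, ∃ k, k < 5 ∧ x = u * ff ^ k := by
  let φ : ↥(KK yy 11 0) × Fin 5 → ↥(T ⊓ H1) := fun a =>
    ⟨a.1.1 * ff ^ a.2.val, Subgroup.mul_mem _ (KK_le_P 0 a.1.2) (Subgroup.pow_mem _ ff_P _)⟩
  have hinj : Function.Injective φ := by
    rintro ⟨⟨u, hu⟩, k⟩ ⟨⟨v, hv⟩, l⟩ h
    have h1 : u * ff ^ k.val = v * ff ^ l.val := congrArg Subtype.val h
    have h2 : v⁻¹ * u = ff ^ l.val * (ff ^ k.val)⁻¹ := by
      rw [inv_mul_eq_iff_eq_mul, ← mul_assoc, ← h1]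
      group
    have h3 : v⁻¹ * u ∈ KK yy 11 0 := Subgroup.mul_mem _ (Subgroup.inv_mem _ hv) hu
    have h4 : v⁻¹ * u ∈ Subgroup.zpowers ff := by
      rw [h2]
      exact Subgroup.mul_mem _ (Subgroup.pow_mem _ (Subgroup.mem_zpowers ff) _)
        (Subgroup.inv_mem _ (Subgroup.pow_mem _ (Subgroup.mem_zpowers ff) _))
    have h5 := Subgroup.orderOf_dvd_natCard _ h3
    have h6 := Subgroup.orderOf_dvd_natCard _ h4
    rw [card_S] at h5
    rw [Nat.card_zpowers, ff_order] at h6
    have h7 : orderOf (v⁻¹ * u) ∣ Nat.gcd 2048 5 := Nat.dvd_gcd h5 h6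
    have h8 : orderOf (v⁻¹ * u) = 1 := by
      have : Nat.gcd 2048 5 = 1 := by norm_num
      rw [this] at h7
      exact Nat.dvd_one.mp h7
    rw [orderOf_eq_one_iff] at h8
    have h9 : u = v := by
      rw [inv_mul_eq_one] at h8
      exact h8.symm
    subst h9
    have h10 : ff ^ k.val = ff ^ l.val := mul_left_cancel h1
    have h11 : k.val = l.val := by
      have := pow_injOn_Iio_orderOf (x := ff)
      rw [ff_order] at this
      exact this (Set.mem_Iio.mpr k.isLt) (Set.mem_Iio.mpr l.isLt) h10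
    have h12 : k = l := Fin.ext h11
    subst h12
    rfl
  have hbij : Function.Bijective φ := by
    apply hinj.bijective_of_nat_card_le
    rw [card_P', Nat.card_prod, card_S, Nat.card_eq_fintype_card, Fintype.card_fin]
  obtain ⟨⟨⟨u, hu⟩, k⟩, hk⟩ := hbij.2 ⟨x, hx⟩
  refine ⟨u, hu, k.val, k.isLt, ?_⟩
  exact (congrArg Subtype.val hk).symm

theorem P_nf {x : Equiv.Perm (Fin 1755)} (hx : x ∈ T ⊓ H1) : ∃ e, e < 2048 ∧ ∃ k, k < 5 ∧ x = Yp 11 e * ff ^ k := by
  obtain ⟨u, hu, k, hk, rfl⟩ := P_decomp hx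
  obtain ⟨e, he, rfl⟩ := Yp_exists 11 (by norm_num) u hu
  exact ⟨e, by simpa using he, k, hk, rfl⟩

/-! ### The base -/

/-- The points of the base. -/
def p731 : Fin 1755 := ⟨731, by norm_num⟩
/-- The points of the base. -/
def p00 : Fin 1755 := ⟨0, by norm_num⟩
/-- The points of the base. -/
def p19 : Fin 1755 := ⟨19, by norm_num⟩

theorem b3_chk : (List.range 5).all (fun k => allR (fun e => (Nat.beq e 0 && Nat.beq k 0) ||
    !(Nat.beq (yA 11 e (fA k 0)) 0 && Nat.beq (yA 11 e (fA k 19)) 19)) 11 0) = true := by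
  decide +kernel

theorem fix_H1 {x : Equiv.Perm (Fin 1755)} (hx : x ∈ H1) : x p731 = p731 := (lev0).2.fix x hx

theorem mem_H1 {x : Equiv.Perm (Fin 1755)} (hx : x ∈ T) (h : x p731 = p731) : x ∈ T ⊓ H1 :=
  ⟨hx, mem_next_of_fix (lev0).2 (T_le hx) h⟩

theorem eq_one_base3 {z : Equiv.Perm (Fin 1755)} (hz : z ∈ T) (h0 : z p731 = p731) (h1 : z p00 = p00)
    (h2 : z p19 = p19) : z = 1 := by
  obtain ⟨e, he, k, hk, rfl⟩ := P_nf (mem_H1 hz h0)
  have hc := of_allR _ 11 0 (List.all_eq_true.mp b3_chk k (List.mem_range.mpr hk)) e (Nat.zero_le _)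
    (by norm_num; omega)
  have h3 : yA 11 e (fA k 0) = 0 := by
    have h4 := congrArg Fin.val h1
    rw [Equiv.Perm.mul_apply, yA_act (le_refl _), fA_act] at h4
    exact h4
  have h5 : yA 11 e (fA k 19) = 19 := by
    have h4 := congrArg Fin.val h2
    rw [Equiv.Perm.mul_apply, yA_act (le_refl _), fA_act] at h4
    exact h4
  rw [h3, h5, beq_of_eq rfl, beq_of_eq rfl] at hc
  simp only [Bool.and_self, Bool.not_true, Bool.or_false, Bool.and_eq_true] at hc
  rw [Nat.eq_of_beq_eq_true hc.1, Nat.eq_of_beq_eq_true hc.2, Yp_zero]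
  simp

theorem eq_base3 {x y : Equiv.Perm (Fin 1755)} (hx : x ∈ T) (hy : y ∈ T) (h0 : (x p731).val = (y p731).val)
    (h1 : (x p00).val = (y p00).val) (h2 : (x p19).val = (y p19).val) : x = y := by
  have h3 : y⁻¹ * x = 1 := by
    apply eq_one_base3 (T.mul_mem (T.inv_mem hy) hx)
    · rw [Equiv.Perm.mul_apply, Fin.ext h0]
      simp
    · rw [Equiv.Perm.mul_apply, Fin.ext h1]
      simp
    · rw [Equiv.Perm.mul_apply, Fin.ext h2]
      simp
  exact (inv_mul_eq_one.mp h3).symm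

/-! ### The representatives -/

/-- The elements to be tested. -/
noncomputable def EE (r k e : ℕ) : Equiv.Perm (Fin 1755) := (Wp (rc r) (rl r)).1 * Yp 11 e * ff ^ k

theorem EE_T (r k e : ℕ) : EE r k e ∈ T :=
  T.mul_mem (T.mul_mem (Wp _ _).2 (Yp_T _ _)) (T.pow_mem ff_T _)

/-- The word of a representative. -/
def RW (j : ℕ) : List ℕ := [0] ++ BL.getD j [] ++ [0] ++ BiL.getD j []

/-- The representative. -/
noncomputable def RR (j : ℕ) : Equiv.Perm (Fin 1755) := (evW sT (RW j)).1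

theorem RR_T (j : ℕ) : RR j ∈ T := (evW sT (RW j)).2

theorem RW_chk : (List.range 22).all (fun j => (RW j).all (fun l => Nat.blt l 4) &&
    Nat.beq (wAct (RW j) 731) (Rv j 0) && Nat.beq (wAct (RW j) 0) (Rv j 1) && Nat.beq (wAct (RW j) 19) (Rv j 2) &&
    wordOne (BL.getD j [] ++ BiL.getD j [])) = true := by
  decide +kernel

theorem RR_act {j : ℕ} (hj : j < 22) : (RR j p731).val = Rv j 0 ∧ (RR j p00).val = Rv j 1 ∧ (RR j p19).val = Rv j 2 := by
  have h := List.all_eq_true.mp RW_chk j (List.mem_range.mpr hj)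
  simp only [Bool.and_eq_true, List.all_eq_true, Nat.blt_eq] at h
  obtain ⟨⟨⟨⟨h1, h2⟩, h3⟩, h4⟩, -⟩ := h
  refine ⟨?_, ?_, ?_⟩
  · rw [RR, evW_act _ h1]
    exact Nat.eq_of_beq_eq_true h2
  · rw [RR, evW_act _ h1]
    exact Nat.eq_of_beq_eq_true h3
  · rw [RR, evW_act _ h1]
    exact Nat.eq_of_beq_eq_true h4

theorem RR_eq {j : ℕ} (hj : j < 22) : ∃ b : ↥T, RR j = aT.1 * b.1 * aT.1 * b.1⁻¹ := by
  have h := List.all_eq_true.mp RW_chk j (List.mem_range.mpr hj)
  simp only [Bool.and_eq_true] at h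
  have h1 := evW_eq_one h.2
  rw [evW_app] at h1
  have h2 : evW sT (BiL.getD j []) = (evW sT (BL.getD j []))⁻¹ := (mul_eq_one_iff_eq_inv'.mp h1)
  have h3 : evW sT [0] = aT := by
    simp only [evW, mul_one]
    exact lett_even sT 0
  refine ⟨evW sT (BL.getD j []), ?_⟩
  show (evW sT (RW j)).1 = _
  rw [RW, evW_app, evW_app, evW_app, h2, h3]
  rfl

/-- The property of an element. -/
def Good (r k e : ℕ) : Prop :=
  (r = 0 ∧ k = 0 ∧ e = 0) ∨ ∃ code n j, j < 22 ∧ EE r k e * (Wp code n).1 = (Wp code n).1 * RR j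

theorem of_chkV {r k e j n code : ℕ} (h : chkV (rc r) (rl r) k e j n code = true) :
    j < 22 ∧ EE r k e * (Wp code n).1 = (Wp code n).1 * RR j := by
  simp only [chkV, Bool.and_eq_true] at h
  obtain ⟨⟨⟨h1, h2⟩, h3⟩, h4⟩ := h
  have hj : j < 22 := Nat.le_of_ble_eq_true h1
  refine ⟨hj, ?_⟩
  obtain ⟨r0, r1, r2⟩ := RR_act hj
  apply eq_base3 (T.mul_mem (EE_T _ _ _) (Wp _ _).2) (T.mul_mem (Wp _ _).2 (RR_T j))
  · simp only [EE, Equiv.Perm.mul_apply]
    rw [wN_act, yA_act (le_refl _), fA_act, wN_act, wN_act, r0]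
    exact Nat.eq_of_beq_eq_true h2
  · simp only [EE, Equiv.Perm.mul_apply]
    rw [wN_act, yA_act (le_refl _), fA_act, wN_act, wN_act, r1]
    exact Nat.eq_of_beq_eq_true h3
  · simp only [EE, Equiv.Perm.mul_apply]
    rw [wN_act, yA_act (le_refl _), fA_act, wN_act, wN_act, r2]
    exact Nat.eq_of_beq_eq_true h4

theorem good_of {r k D : ℕ} (h : allR (chkE (rc r) (rl r) k D) 11 0 = true) : ∀ e, e < 2048 → Good r k e := by
  intro e he
  have h1 := of_allR _ 11 0 h e (Nat.zero_le _) (by norm_num; omega)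
  simp only [chkE, letN_eq] at h1
  obtain ⟨h2, h3⟩ := of_chkV h1
  exact Or.inr ⟨_, _, _, h2, h3⟩

theorem good_of_00 {D : ℕ} (h : allR (fun e => Nat.beq e 0 || chkE (rc 0) (rl 0) 0 D e) 11 0 = true) :
    ∀ e, e < 2048 → Good 0 0 e := by
  intro e he
  have h1 := of_allR _ 11 0 h e (Nat.zero_le _) (by norm_num; omega)
  rw [Bool.or_eq_true] at h1
  rcases h1 with h1 | h1
  · exact Or.inl ⟨rfl, rfl, Nat.eq_of_beq_eq_true h1⟩
  · simp only [chkE, letN_eq] at h1
    obtain ⟨h2, h3⟩ := of_chkV h1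
    exact Or.inr ⟨_, _, _, h2, h3⟩

end Cfsg.Agent.Lib.TitsSq
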