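import Cfsg.Agent.Lib.TitsSqC0
import Cfsg.Agent.Lib.TitsSqC1
import Cfsg.Agent.Lib.TitsSqC2
import Cfsg.Agent.Lib.TitsSqC3
import Cfsg.Agent.Lib.TitsSqC4
import Cfsg.Agent.Lib.TitsBridge

/-!
# In the Tits group, every nontrivial element is a product of two conjugates of an element of order thirteen
-/

set_option autoImplicit false
set_option maxRecDepth 100000
set_option linter.unusedSectionVars false

namespace Cfsg.Agent.Lib.TitsSq

open Cfsg.Agent.Lib.ChainCert Cfsg.Agent.Lib.ProgBits Cfsg.Agent.Lib.ProgChain Cfsg.Agent.Lib.PermChain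
  Cfsg.Agent.Lib.TcBits Cfsg.Agent.Lib.TwoF4Gen Cfsg.Agent.Lib.TwoF4PTab Cfsg.Agent.Lib.TwoF4PMain
  Cfsg.Agent.Lib.TwoF4Inv Cfsg.Agent.Lib.TitsParGen Cfsg.Agent.Lib.TitsPar Cfsg.Agent.Lib.TitsPC
  Cfsg.Agent.Lib.TitsAbs Cfsg.Agent.Lib.TitsLoc Cfsg.Agent.Lib.TwoF4Bridge Cfsg.Agent.Lib.SchurCoset46
  Cfsg.Agent.Lib.TitsMCert Cfsg.Agent.Lib.TitsMData Cfsg.Agent.Lib.TwoF4XTab Cfsg.Agent.Lib.TitsMT

theorem good_all {r k e : ℕ} (hr : r < 5) (hk : k < 5) (he : e < 2048) : Good r k e := by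
  interval_cases r <;> interval_cases k
  · exact good_0_0 e he
  · exact good_0_1 e he
  · exact good_0_2 e he
  · exact good_0_3 e he
  · exact good_0_4 e he
  · exact good_1_0 e he
  · exact good_1_1 e he
  · exact good_1_2 e he
  · exact good_1_3 e he
  · exact good_1_4 e he
  · exact good_2_0 e he
  · exact good_2_1 e he
  · exact good_2_2 e he
  · exact good_2_3 e he
  · exact good_2_4 e he
  · exact good_3_0 e he
  · exact good_3_1 e he
  · exact good_3_2 e he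
  · exact good_3_3 e he
  · exact good_3_4 e he
  · exact good_4_0 e he
  · exact good_4_1 e he
  · exact good_4_2 e he
  · exact good_4_3 e he
  · exact good_4_4 e he

theorem cm_chk : (List.range 8).all (fun c => Nat.ble (Nat.succ (cmR.getD c 0)) 5 && Nat.ble (Nat.succ (cmM.getD c 0)) 5 &&
    Nat.ble (Nat.succ (rtL.getD (cmR.getD c 0) 0)) 1755 &&
    Nat.beq (TitsLoc.colN (fA (cmM.getD c 0) (rtL.getD (cmR.getD c 0) 0))) c) = true := by
  decide +kernel

theorem rt_chk : (List.range 5).all (fun r => Nat.beq (wN (rc r) (rl r) 731) (rtL.getD r 0)) = true := by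
  decide +kernel

/-- Every element has a conjugate, under the stabilizer of the point, of the form of the table. -/
theorem exists_EE {g : Equiv.Perm (Fin 1755)} (hg : g ∈ T) :
    ∃ t ∈ T, ∃ r k e, r < 5 ∧ k < 5 ∧ e < 2048 ∧ t⁻¹ * g * t = EE r k e := by
  set q : Fin 1755 := g p731 with hq
  have hc := col_lt q
  have h1 := List.all_eq_true.mp cm_chk (TitsLoc.colN q.val) (List.mem_range.mpr hc)
  simp only [Bool.and_eq_true] at h1
  obtain ⟨⟨⟨h2, h3⟩, h4⟩, h5⟩ := h1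
  set r := cmR.getD (TitsLoc.colN q.val) 0 with hr
  set m := cmM.getD (TitsLoc.colN q.val) 0 with hm
  have hr5 : r < 5 := Nat.le_of_ble_eq_true h2
  have hpt : rtL.getD r 0 < 1755 := Nat.le_of_ble_eq_true h4
  set pt : Fin 1755 := ⟨rtL.getD r 0, hpt⟩ with hpt'
  have h6 : TitsLoc.colN (((ff ^ m) pt).val) = TitsLoc.colN q.val := by
    rw [fA_act]
    exact Nat.eq_of_beq_eq_true h5
  obtain ⟨h, hh, hh2⟩ := hconn ((ff ^ m) pt) q h6
  have hhP := KK_le_P 0 hh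
  have htP : h * ff ^ m ∈ T ⊓ H1 := Subgroup.mul_mem _ hhP (Subgroup.pow_mem _ ff_P _)
  set t := h * ff ^ m with ht
  have ht1 : t pt = q := by
    rw [ht, Equiv.Perm.mul_apply, hh2]
  have ht2 : t p731 = p731 := fix_H1 htP.2
  have hw : ((Wp (rc r) (rl r)).1 p731) = pt := by
    apply Fin.ext
    rw [wN_act]
    exact Nat.eq_of_beq_eq_true (List.all_eq_true.mp rt_chk r (List.mem_range.mpr hr5))
  set w := (Wp (rc r) (rl r)).1 with hw'
  have hwT : w ∈ T := (Wp (rc r) (rl r)).2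
  have hs : w⁻¹ * (t⁻¹ * g * t) ∈ T :=
    T.mul_mem (T.inv_mem hwT) (T.mul_mem (T.mul_mem (T.inv_mem htP.1) hg) htP.1)
  have hs1 : (w⁻¹ * (t⁻¹ * g * t)) p731 = p731 := by
    have hia : ∀ (x : Equiv.Perm (Fin 1755)) (y : Fin 1755), x⁻¹ (x y) = y := fun x y => by simp
    simp only [Equiv.Perm.mul_apply]
    rw [ht2, ← hq, ← ht1, hia, ← hw, hia]
  obtain ⟨e, he, k, hk, hsk⟩ := P_nf (mem_H1 hs hs1)
  refine ⟨t, htP.1, r, k, e, hr5, hk, he, ?_⟩
  have : t⁻¹ * g * t = w * (Yp 11 e * ff ^ k) := by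
    rw [← hsk]
    group
  rw [this, EE, mul_assoc]

theorem EE_one : EE 0 0 0 = 1 := by
  have h1 : Wp (rc 0) (rl 0) = 1 := rfl
  rw [EE, h1, Yp_zero]
  simp

/-- The theorem in the permutation group. -/
theorem key {g : Equiv.Perm (Fin 1755)} (hg : g ∈ T) (hne : g ≠ 1) :
    ∃ u ∈ T, ∃ v ∈ T, g = (u * aT.1 * u⁻¹) * (v * aT.1 * v⁻¹) := by
  obtain ⟨t, ht, r, k, e, hr, hk, he, hE⟩ := exists_EE hg
  have hgt : g = t * EE r k e * t⁻¹ := by
    rw [← hE]
    group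
  rcases good_all hr hk he with ⟨rfl, rfl, rfl⟩ | ⟨code, n, j, hj, hw⟩
  · exfalso
    apply hne
    rw [hgt, EE_one]
    group
  · obtain ⟨b, hb⟩ := RR_eq hj
    have hW := (Wp code n).2
    set W := (Wp code n).1 with hW'
    refine ⟨t * W, T.mul_mem ht hW, t * W * b.1, T.mul_mem (T.mul_mem ht hW) b.2, ?_⟩
    have h1 : EE r k e = W * RR j * W⁻¹ := by
      rw [eq_mul_inv_iff_mul_eq]
      exact hw
    rw [hgt, h1, hb]
    group

/-- The theorem in the group `T`. -/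
theorem main_T : Odd (orderOf aT) ∧ ∀ g : ↥T, g ≠ 1 → ∃ u v : ↥T, g = (u * aT * u⁻¹) * (v * aT * v⁻¹) := by
  constructor
  · have h1 : orderOf aT ∣ 13 := orderOf_dvd_of_pow_eq_one a_pow
    exact Odd.of_dvd_nat (by decide) h1
  · intro g hg
    have hg1 : g.1 ≠ 1 := fun h => hg (Subtype.ext h)
    obtain ⟨u, hu, v, hv, e⟩ := key g.2 hg1
    refine ⟨⟨u, hu⟩, ⟨v, hv⟩, ?_⟩
    apply Subtype.ext
    rw [e]
    rfl

/-- The theorem for the Tits group. -/
theorem main_tits {M : Type*} [Group M] (φ : M ≃* ↥(commutator ↥G)) :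
    ∃ x : M, Odd (orderOf x) ∧ ∀ g : M, g ≠ 1 → ∃ u v : M, g = (u * x * u⁻¹) * (v * x * v⁻¹) := by
  let ψ : M ≃* ↥T := φ.trans Cfsg.Agent.Lib.TitsBridge.eT
  refine ⟨ψ.symm aT, ?_, ?_⟩
  · rw [MulEquiv.orderOf_eq]
    exact main_T.1
  · intro g hg
    have hg1 : ψ g ≠ 1 := by
      intro h
      apply hg
      apply ψ.injective
      rw [h, map_one]
    obtain ⟨u, v, e⟩ := main_T.2 _ hg1
    refine ⟨ψ.symm u, ψ.symm v, ?_⟩
    apply ψ.injective
    simp only [map_mul, map_inv, MulEquiv.apply_symm_apply]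
    exact e

end Cfsg.Agent.Lib.TitsSq
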