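import Mathlib

/-!
# Pushing up with a dihedral quotient: context, words, the subgroup `V`.
-/

set_option autoImplicit false
set_option linter.unusedSectionVars false
set_option linter.unusedVariables false

namespace Cfsg.Agent.Lib.TutteDih

variable {G : Type*} [Group G]

/-- Conjugation. -/
def cj (g x : G) : G := g * x * g⁻¹

@[simp] theorem cj_one_left (x : G) : cj 1 x = x := by simp [cj]
@[simp] theorem cj_one_right (g : G) : cj g 1 = 1 := by simp [cj]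
theorem cj_mul (g x y : G) : cj g (x * y) = cj g x * cj g y := by unfold cj; group
theorem cj_inv (g x : G) : cj g x⁻¹ = (cj g x)⁻¹ := by unfold cj; group
theorem cj_cj (g h x : G) : cj g (cj h x) = cj (g * h) x := by unfold cj; group
@[simp] theorem cj_inv_cj (g x : G) : cj g⁻¹ (cj g x) = x := by unfold cj; group
@[simp] theorem cj_cj_inv (g x : G) : cj g (cj g⁻¹ x) = x := by unfold cj; group
theorem cj_inj (g : G) {x y : G} (h : cj g x = cj g y) : x = y := by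
  have := congrArg (cj g⁻¹) h
  simpa using this
theorem cj_inv_cj' (g x : G) : cj g⁻¹ (cj g⁻¹ x) = cj (g⁻¹ * g⁻¹) x := cj_cj _ _ _
theorem cj_eq_self {g x : G} : cj g x = x ↔ g * x = x * g := by
  unfold cj
  exact mul_inv_eq_iff_eq_mul
theorem cj_eq_of_comm {g x : G} (h : g * x = x * g) : cj g x = x := cj_eq_self.2 h
theorem cj_mul_left (g h x : G) : cj (g * h) x = cj g (cj h x) := (cj_cj g h x).symm
theorem cj_eq_iff {g x y : G} : cj g x = y ↔ x = cj g⁻¹ y := by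
  constructor
  · rintro rfl; simp
  · rintro rfl; simp
theorem cj_comm {g x y : G} (h : x * y = y * x) : cj g x * cj g y = cj g y * cj g x := by
  rw [← cj_mul, ← cj_mul, h]

/-- The data of the dihedral pushing up situation, element by element. -/
structure Ctx (G : Type*) [Group G] where
  H : Subgroup G
  A : Subgroup G
  P : Subgroup G
  y : G
  t : G
  u : G
  N : ℕ
  AP : A ≤ P
  PH : P ≤ H
  An : ∀ h ∈ H, ∀ a ∈ A, cj h a ∈ A
  P2 : IsPGroup 2 P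
  A_ne : A ≠ ⊥
  tP : t ∈ P
  tA : t ∉ A
  idx : ∀ p ∈ P, p ∉ A → ∀ q ∈ P, q ∉ A → p * q⁻¹ ∈ A
  uH : u ∈ H
  Nodd : Odd N
  uN : u ^ N = 1
  rel : cj t u * u ∈ A
  gen : ∀ h ∈ H, ∃ i : ℕ, ∃ a ∈ A, h = a * u ^ i ∨ h = a * u ^ i * t
  yP : ∀ p ∈ P, cj y p ∈ P
  yP' : ∀ p ∈ P, cj y⁻¹ p ∈ P
  p0 : G
  p0P : p0 ∈ P
  y2 : ∀ x ∈ P, cj y (cj y x) = cj p0 x
  hQ : ∀ Q : Subgroup G, Q ≤ P → (∀ h ∈ H, ∀ x ∈ Q, cj h x ∈ Q) →
    (∀ x ∈ Q, cj y x ∈ Q) → Q = ⊥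

variable (X : Ctx G)

namespace Ctx

theorem AH : X.A ≤ X.H := X.AP.trans X.PH

theorem An' {h a : G} (hh : h ∈ X.H) (ha : a ∈ X.A) : cj h⁻¹ a ∈ X.A :=
  X.An h⁻¹ (X.H.inv_mem hh) a ha

theorem Pn {p a : G} (hp : p ∈ X.P) (ha : a ∈ X.A) : cj p a ∈ X.A := X.An p (X.PH hp) a ha

theorem Pn' {p a : G} (hp : p ∈ X.P) (ha : a ∈ X.A) : cj p⁻¹ a ∈ X.A := X.An' (X.PH hp) ha

/-- Any element of `P` outside `A` is `t` modulo `A`. -/
theorem mod_t {p : G} (hp : p ∈ X.P) (hpA : p ∉ X.A) : p * X.t⁻¹ ∈ X.A :=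
  X.idx p hp hpA X.t X.tP X.tA

theorem idx' {p q : G} (hp : p ∈ X.P) (hpA : p ∉ X.A) (hq : q ∈ X.P) (hqA : q ∉ X.A) :
    p⁻¹ * q ∈ X.A := by
  have h1 := X.idx q hq hqA p hp hpA
  have h2 := X.Pn' hp h1
  have e : cj p⁻¹ (q * p⁻¹) = p⁻¹ * q := by unfold cj; group
  rwa [e] at h2

/-- The square of an element of `P` lies in `A`. -/
theorem sq_mem {p : G} (hp : p ∈ X.P) : p * p ∈ X.A := by
  by_contra h
  have h2 : p * p ∈ X.P := X.P.mul_mem hp hp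
  by_cases hpA : p ∈ X.A
  · exact h (X.A.mul_mem hpA hpA)
  · have := X.idx _ h2 h p hp hpA
    have e : p * p * p⁻¹ = p := by group
    rw [e] at this
    exact hpA this

theorem mul_mem_of_not {p q : G} (hp : p ∈ X.P) (hpA : p ∉ X.A) (hq : q ∈ X.P) (hqA : q ∉ X.A) :
    p * q ∈ X.A := by
  have h1 := X.idx p hp hpA q⁻¹ (X.P.inv_mem hq) (fun h => hqA (by simpa using X.A.inv_mem h))
  simpa using h1

theorem not_mul_mem {p a : G} (hpA : p ∉ X.A) (ha : a ∈ X.A) : p * a ∉ X.A := by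
  intro h
  apply hpA
  have := X.A.mul_mem h (X.A.inv_mem ha)
  simpa using this

theorem not_mul_mem' {p a : G} (hpA : p ∉ X.A) (ha : a ∈ X.A) : a * p ∉ X.A := by
  intro h
  apply hpA
  have := X.A.mul_mem (X.A.inv_mem ha) h
  simpa using this

/-- The relation for any element of `P` outside `A`. -/
theorem rel_of {τ : G} (hτ : τ ∈ X.P) (hτA : τ ∉ X.A) : cj τ X.u * X.u ∈ X.A := by
  have h1 := X.mod_t hτ hτA
  set a := τ * X.t⁻¹ with ha
  have e : τ = a * X.t := by rw [ha]; group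
  have e2 : cj τ X.u * X.u = a * (cj X.t X.u * X.u) * cj X.u⁻¹ a⁻¹ := by
    rw [e]; unfold cj; group
  rw [e2]
  exact X.A.mul_mem (X.A.mul_mem h1 X.rel) (X.An' X.uH (X.A.inv_mem h1))

/-- Induction over `H`: generators `A`, `t`, `u`. -/
theorem H_ind {Pr : G → Prop} (hA : ∀ a ∈ X.A, Pr a) (ht : Pr X.t) (hu : Pr X.u)
    (hmul : ∀ a b, Pr a → Pr b → Pr (a * b)) : ∀ h ∈ X.H, Pr h := by
  have hpow : ∀ i : ℕ, Pr (X.u ^ i) := by
    intro i
    induction i with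
    | zero => simpa using hA 1 X.A.one_mem
    | succ i ih => rw [pow_succ]; exact hmul _ _ ih hu
  intro h hh
  obtain ⟨i, a, ha, e | e⟩ := X.gen h hh
  · rw [e]; exact hmul _ _ (hA a ha) (hpow i)
  · rw [e]; exact hmul _ _ (hmul _ _ (hA a ha) (hpow i)) ht

/-- `u` is a power of its square. -/
theorem u_eq_pow : ∃ k : ℕ, X.u = (X.u * X.u) ^ k := by
  obtain ⟨m, hm⟩ := X.Nodd
  refine ⟨m + 1, ?_⟩
  have e : (X.u * X.u) ^ (m + 1) = X.u ^ (X.N + 1) := by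
    rw [← pow_two, ← pow_mul, hm]
    congr 1
  rw [e, pow_succ, X.uN, one_mul]

/-- `u` is a power of the inverse of its square. -/
theorem u_eq_pow' : ∃ k : ℕ, X.u = (X.u⁻¹ * X.u⁻¹) ^ k := by
  obtain ⟨m, hm⟩ := X.Nodd
  refine ⟨m, ?_⟩
  have e : (X.u⁻¹ * X.u⁻¹) ^ m = (X.u ^ (2 * m))⁻¹ := by
    rw [← pow_two, ← pow_mul, inv_pow]
  rw [e]
  have h1 : X.u ^ (2 * m) * X.u = 1 := by rw [← pow_succ, ← hm, X.uN]
  exact eq_inv_of_mul_eq_one_right h1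

/-- A multiplicative property containing `1`, holding at `u⁻²`, holds at `u`. -/
theorem u_of_sq {Pr : G → Prop} (h1 : Pr 1) (hs : Pr (X.u⁻¹ * X.u⁻¹))
    (hmul : ∀ a b, Pr a → Pr b → Pr (a * b)) : Pr X.u := by
  obtain ⟨k, hk⟩ := X.u_eq_pow'
  rw [hk]
  generalize X.u⁻¹ * X.u⁻¹ = v at hs
  clear hk
  induction k with
  | zero => simpa using h1
  | succ k ih => rw [pow_succ]; exact hmul _ _ ih hs

/-- `u⁻²` from `A`, `τ⁻¹` and `u⁻¹ τ u`. -/
theorem usq_eq {τ : G} (hτ : τ ∈ X.P) (hτA : τ ∉ X.A) :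
    ∃ a ∈ X.A, X.u⁻¹ * X.u⁻¹ = a * cj X.u⁻¹ τ * τ⁻¹ := by
  have h3 := X.rel_of hτ hτA
  refine ⟨cj X.u⁻¹ (cj τ X.u * X.u)⁻¹, X.An' X.uH (X.A.inv_mem h3), ?_⟩
  unfold cj
  group

/-- `u⁻²` from `A` and the conjugates of `τ`, in a second form. -/
theorem usq_eq' {τ : G} (hτ : τ ∈ X.P) (hτA : τ ∉ X.A) :
    ∃ a ∈ X.A, X.u⁻¹ * X.u⁻¹ = a * cj X.u⁻¹ τ * cj 1 τ⁻¹ := by
  obtain ⟨a, ha, e⟩ := X.usq_eq hτ hτA
  exact ⟨a, ha, by simpa using e⟩

/-- Induction over `H`: generators `A` and the conjugates of an element of `P` outside `A`. -/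
theorem H_ind2 {Pr : G → Prop} {τ : G} (hτ : τ ∈ X.P) (hτA : τ ∉ X.A) (hA : ∀ a ∈ X.A, Pr a)
    (hc : ∀ ρ ∈ X.H, Pr (cj ρ τ))
    (hmul : ∀ a b, Pr a → Pr b → Pr (a * b)) : ∀ h ∈ X.H, Pr h := by
  have hτ' : Pr τ := by simpa using hc 1 X.H.one_mem
  -- `τ⁻¹` is `τ` modulo `A`
  have hτi : Pr τ⁻¹ := by
    have h1 := X.idx X.t X.tP X.tA τ hτ hτA
    have h2 := X.sq_mem hτ
    have e : τ⁻¹ = (τ * τ)⁻¹ * τ := by group
    rw [e]
    exact hmul _ _ (hA _ (X.A.inv_mem h2)) hτ'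
  refine X.H_ind hA ?_ ?_ hmul
  · -- `t` is `τ` modulo `A`
    have h1 := X.idx X.t X.tP X.tA τ hτ hτA
    have e : X.t = (X.t * τ⁻¹) * τ := by group
    rw [e]
    exact hmul _ _ (hA _ h1) hτ'
  · refine X.u_of_sq (hA 1 X.A.one_mem) ?_ hmul
    obtain ⟨a, ha, e⟩ := X.usq_eq hτ hτA
    rw [e]
    exact hmul _ _ (hmul _ _ (hA a ha) (hc _ (X.H.inv_mem X.uH))) hτi


/-! ### `y` and `A` -/

theorem y_A_iff {a : G} (ha : a ∈ X.P) : cj X.y a ∈ X.A ↔ cj X.y⁻¹ a ∈ X.A := by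
  have hb := X.yP' a ha
  have e : cj X.y a = cj X.p0 (cj X.y⁻¹ a) := by
    rw [← X.y2 _ hb]; simp
  rw [e]
  constructor
  · intro h
    have := X.Pn' X.p0P h
    simpa using this
  · exact X.Pn X.p0P

theorem exists_not_y : ∃ q ∈ X.A, cj X.y⁻¹ q ∉ X.A := by
  by_contra hh
  push Not at hh
  exact X.A_ne (X.hQ X.A X.AP X.An (fun x hx => (X.y_A_iff (X.AP hx)).2 (hh x hx)))

/-- The elements of `A` whose `y`-conjugate stays in `A`. -/
def D : Subgroup G where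
  carrier := {a | a ∈ X.A ∧ cj X.y⁻¹ a ∈ X.A}
  mul_mem' := by
    rintro a b ⟨h1, h2⟩ ⟨h3, h4⟩
    exact ⟨X.A.mul_mem h1 h3, by rw [cj_mul]; exact X.A.mul_mem h2 h4⟩
  one_mem' := ⟨X.A.one_mem, by simp [X.A.one_mem]⟩
  inv_mem' := by
    rintro a ⟨h1, h2⟩
    exact ⟨X.A.inv_mem h1, by rw [cj_inv]; exact X.A.inv_mem h2⟩

theorem mem_D {a : G} : a ∈ X.D ↔ a ∈ X.A ∧ cj X.y⁻¹ a ∈ X.A := Iff.rfl

theorem D_y {a : G} (ha : a ∈ X.D) : cj X.y a ∈ X.D := by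
  obtain ⟨h1, h2⟩ := ha
  exact ⟨(X.y_A_iff (X.AP h1)).2 h2, by simpa using h1⟩

theorem D_y' {a : G} (ha : a ∈ X.D) : cj X.y⁻¹ a ∈ X.D := by
  obtain ⟨h1, h2⟩ := ha
  refine ⟨h2, (X.y_A_iff (X.AP h2)).1 (by simpa using h1)⟩


/-- `D` is stable under `P`. -/
theorem D_P {a p : G} (ha : a ∈ X.D) (hp : p ∈ X.P) : cj p a ∈ X.D := by
  obtain ⟨h1, h2⟩ := ha
  refine ⟨X.Pn hp h1, ?_⟩
  have e : cj X.y⁻¹ (cj p a) = cj (cj X.y⁻¹ p) (cj X.y⁻¹ a) := by unfold cj; group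
  rw [e]
  exact X.Pn (X.yP' p hp) h2

/-- A closure is stable under a conjugation stabilizing the generators. -/
theorem cj_closure {S : Set G} {g : G} (h : ∀ x ∈ S, cj g x ∈ Subgroup.closure S) :
    ∀ x ∈ Subgroup.closure S, cj g x ∈ Subgroup.closure S := by
  intro x hx
  induction hx using Subgroup.closure_induction with
  | mem x hx => exact h x hx
  | one => simp [Subgroup.one_mem]
  | mul a b _ _ ha hb => rw [cj_mul]; exact Subgroup.mul_mem _ ha hb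
  | inv a _ ha => rw [cj_inv]; exact Subgroup.inv_mem _ ha

/-! ### `Z0` and `V` -/

/-- The central involutions of `P`. -/
def Z0 : Subgroup G where
  carrier := {x | x ∈ X.P ∧ (∀ p ∈ X.P, p * x = x * p) ∧ x * x = 1}
  mul_mem' := by
    rintro a b ⟨h1, h2, h3⟩ ⟨h4, h5, h6⟩
    refine ⟨X.P.mul_mem h1 h4, fun p hp => ?_, ?_⟩
    · rw [← mul_assoc, h2 p hp, mul_assoc, h5 p hp, mul_assoc]
    · calc a * b * (a * b) = a * (b * a) * b := by group
        _ = a * (a * b) * b := by rw [h5 a h1]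
        _ = (a * a) * (b * b) := by group
        _ = 1 := by rw [h3, h6, one_mul]
  one_mem' := ⟨X.P.one_mem, by simp, by simp⟩
  inv_mem' := by
    rintro a ⟨h1, h2, h3⟩
    refine ⟨X.P.inv_mem h1, fun p hp => ?_, ?_⟩
    · exact (show Commute p a from h2 p hp).inv_right
    · rw [← mul_inv_rev, h3, inv_one]

theorem mem_Z0 {x : G} : x ∈ X.Z0 ↔ x ∈ X.P ∧ (∀ p ∈ X.P, p * x = x * p) ∧ x * x = 1 := Iff.rfl

theorem Z0_y {x : G} (hx : x ∈ X.Z0) : cj X.y x ∈ X.Z0 := by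
  obtain ⟨h1, h2, h3⟩ := hx
  refine ⟨X.yP x h1, fun p hp => ?_, ?_⟩
  · have h4 := h2 _ (X.yP' p hp)
    have h5 := congrArg (cj X.y) h4
    rw [cj_mul, cj_mul] at h5
    simpa using h5
  · rw [← cj_mul, h3]; simp

theorem Z0_yy {x : G} (hx : x ∈ X.Z0) : cj X.y (cj X.y x) = x := by
  obtain ⟨h1, h2, h3⟩ := hx
  rw [X.y2 x h1]
  exact cj_eq_self.2 (h2 _ X.p0P)

theorem Z0_y' {x : G} (hx : x ∈ X.Z0) : cj X.y⁻¹ x = cj X.y x := by
  have h := X.Z0_yy hx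
  calc cj X.y⁻¹ x = cj X.y⁻¹ (cj X.y (cj X.y x)) := by rw [h]
    _ = cj X.y x := by simp

/-- The standing assumption in the main case. -/
def CC : Prop := ∀ p ∈ X.P, p ∉ X.A → ∃ a ∈ X.A, p * a ≠ a * p

theorem Z0_le_A (hC : X.CC) : X.Z0 ≤ X.A := by
  intro x hx
  by_contra h
  obtain ⟨a, ha, hne⟩ := hC x hx.1 h
  exact hne (hx.2.1 a (X.AP ha)).symm

theorem Z0_ne [Finite G] : X.Z0 ≠ ⊥ := by
  have hA : ∃ a ∈ X.A, a ≠ 1 := by
    by_contra hh
    push Not at hh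
    exact X.A_ne ((Subgroup.eq_bot_iff_forall _).2 hh)
  obtain ⟨a, ha, ha1⟩ := hA
  haveI : Nontrivial X.P := ⟨⟨⟨a, X.AP ha⟩, 1, fun h => ha1 (congrArg Subtype.val h)⟩⟩
  haveI : Nontrivial (Subgroup.center X.P) := X.P2.center_nontrivial
  obtain ⟨z, hz⟩ := exists_ne (1 : Subgroup.center X.P)
  have hex : ∃ k : ℕ, ((z : X.P) : G) ^ (2 ^ k) = 1 := by
    obtain ⟨k, hk⟩ := X.P2 (z : X.P)
    refine ⟨k, ?_⟩
    have := congrArg Subtype.val hk
    simpa using this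
  classical
  have hk0 : Nat.find hex ≠ 0 := by
    intro h0
    have h1 := Nat.find_spec hex
    rw [h0] at h1
    apply hz
    apply Subtype.ext
    apply Subtype.ext
    simpa using h1
  obtain ⟨k, hk⟩ := Nat.exists_eq_succ_of_ne_zero hk0
  have h1 := Nat.find_spec hex
  have h2 := Nat.find_min hex (m := k) (by rw [hk]; exact Nat.lt_succ_self k)
  rw [hk] at h1
  intro hbot
  have hmem : ((z : X.P) : G) ^ (2 ^ k) ∈ X.Z0 := by
    refine ⟨X.P.pow_mem (z : X.P).2 _, fun p hp => ?_, ?_⟩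
    · have hc : ∀ p ∈ X.P, p * ((z : X.P) : G) = ((z : X.P) : G) * p := by
        intro p hp
        have := (Subgroup.mem_center_iff.1 z.2) ⟨p, hp⟩
        simpa using congrArg Subtype.val this
      exact (Commute.pow_right (show Commute p ((z : X.P) : G) from hc p hp) _)
    · rw [← pow_add, ← two_mul, ← pow_succ']
      simpa using h1
  rw [hbot, Subgroup.mem_bot] at hmem
  exact h2 hmem

/-- The normal closure of `Z0` in `H`. -/
def V : Subgroup G := Subgroup.closure {x | ∃ h ∈ X.H, ∃ z ∈ X.Z0, x = cj h z}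

theorem Z0_le_V : X.Z0 ≤ X.V := fun z hz =>
  Subgroup.subset_closure ⟨1, X.H.one_mem, z, hz, by simp⟩

theorem V_H {h v : G} (hh : h ∈ X.H) (hv : v ∈ X.V) : cj h v ∈ X.V := by
  refine cj_closure ?_ v hv
  rintro x ⟨k, hk, z, hz, rfl⟩
  exact Subgroup.subset_closure ⟨h * k, X.H.mul_mem hh hk, z, hz, by rw [cj_cj]⟩

theorem V_le_A (hC : X.CC) : X.V ≤ X.A := by
  refine (Subgroup.closure_le _).2 ?_
  rintro x ⟨k, hk, z, hz, rfl⟩
  exact X.An k hk z (X.Z0_le_A hC hz)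

theorem V_cen {v a : G} (hv : v ∈ X.V) (ha : a ∈ X.A) : a * v = v * a := by
  have : ∀ x ∈ X.V, ∀ a ∈ X.A, a * x = x * a := by
    intro x hx
    induction hx using Subgroup.closure_induction with
    | mem x hx =>
      obtain ⟨k, hk, z, hz, rfl⟩ := hx
      intro a ha
      have h1 := X.An' hk ha
      have h2 := hz.2.1 _ (X.AP h1)
      have h3 := congrArg (cj k) h2
      rw [cj_mul, cj_mul, cj_cj_inv] at h3
      exact h3
    | one => simp
    | mul a b _ _ ha hb =>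
      intro c hc
      rw [← mul_assoc, ha c hc, mul_assoc, hb c hc, mul_assoc]
    | inv a _ ha =>
      intro c hc
      exact (show Commute c a from ha c hc).inv_right
  exact this v hv a ha

theorem V_act {v a : G} (hv : v ∈ X.V) (ha : a ∈ X.A) : cj a v = v :=
  cj_eq_self.2 (X.V_cen hv ha)

theorem V_comm (hC : X.CC) {v w : G} (hv : v ∈ X.V) (hw : w ∈ X.V) : v * w = w * v :=
  X.V_cen hw (X.V_le_A hC hv)

theorem V_sq (hC : X.CC) {v : G} (hv : v ∈ X.V) : v * v = 1 := by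
  induction hv using Subgroup.closure_induction with
  | mem x hx =>
    obtain ⟨k, hk, z, hz, rfl⟩ := hx
    rw [← cj_mul, hz.2.2]; simp
  | one => simp
  | mul a b ha hb h1 h2 =>
    calc a * b * (a * b) = a * (b * a) * b := by group
      _ = a * (a * b) * b := by rw [X.V_comm hC hb ha]
      _ = (a * a) * (b * b) := by group
      _ = 1 := by rw [h1, h2, one_mul]
  | inv a _ ha => rw [← mul_inv_rev, ha, inv_one]

theorem V_inv (hC : X.CC) {v : G} (hv : v ∈ X.V) : v⁻¹ = v :=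
  inv_eq_of_mul_eq_one_left (X.V_sq hC hv)

/-- Elements of `P` outside `A` act on `V` alike. -/
theorem act_eq {p q x : G} (hp : p ∈ X.P) (hpA : p ∉ X.A) (hq : q ∈ X.P) (hqA : q ∉ X.A)
    (hx : x ∈ X.V) : cj p x = cj q x := by
  have h1 := X.idx' hp hpA hq hqA
  have e : q = p * (p⁻¹ * q) := by group
  rw [e, cj_mul_left, X.V_act hx h1]

/-- Elements of `P` outside `A` do not centralize `V`. -/
theorem P_not_cen [Finite G] (hC : X.CC) {p : G} (hp : p ∈ X.P) (hpA : p ∉ X.A) :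
    ∃ x ∈ X.V, cj p x ≠ x := by
  by_contra hh
  push Not at hh
  have hVZ : X.V ≤ X.Z0 := by
    intro x hx
    have hxA := X.V_le_A hC hx
    refine ⟨X.AP hxA, fun q hq => ?_, X.V_sq hC hx⟩
    by_cases hqA : q ∈ X.A
    · exact X.V_cen hx hqA
    · have h1 := X.idx' hp hpA hq hqA
      have e : q = p * (p⁻¹ * q) := by group
      rw [e, mul_assoc, X.V_cen hx h1, ← mul_assoc, cj_eq_self.1 (hh x hx), mul_assoc]
  apply X.Z0_ne
  apply X.hQ X.Z0 (fun z hz => hz.1)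
  · intro h hh' x hx
    exact hVZ (X.V_H hh' (X.Z0_le_V hx))
  · intro x hx
    exact X.Z0_y hx

/-- `u` does not centralize `V`. -/
theorem u_not_cen [Finite G] (hC : X.CC) : ∃ x ∈ X.V, cj X.u x ≠ x := by
  by_contra hh
  push Not at hh
  have h1 : ∀ h ∈ X.H, ∀ z ∈ X.Z0, cj h z = z := by
    refine X.H_ind (fun a ha z hz => cj_eq_self.2 (hz.2.1 a (X.AP ha)))
      (fun z hz => cj_eq_self.2 (hz.2.1 _ X.tP)) (fun z hz => hh z (X.Z0_le_V hz)) ?_
    intro a b ha hb z hz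
    rw [cj_mul_left, hb z hz, ha z hz]
  apply X.Z0_ne
  apply X.hQ X.Z0 (fun z hz => hz.1)
  · intro h hh' x hx
    rw [h1 h hh' x hx]; exact hx
  · intro x hx
    exact X.Z0_y hx

/-! ### Words -/

/-- Alternating words of given length. -/
inductive Wd (H : Subgroup G) (y : G) : ℕ → G → Prop
  | base : Wd H y 1 y
  | base' : Wd H y 1 y⁻¹
  | step {k : ℕ} {g h ε : G} : Wd H y k g → h ∈ H → (ε = y ∨ ε = y⁻¹) → Wd H y (k + 1) (g * h * ε)

variable {X} in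
theorem Wd.pos {H : Subgroup G} {y : G} {k : ℕ} {g : G} (h : Wd H y k g) : 1 ≤ k := by
  cases h <;> omega

theorem Wd.left {H : Subgroup G} {y : G} {k : ℕ} {g h ε : G} (hw : Wd H y k g) (hh : h ∈ H)
    (hε : ε = y ∨ ε = y⁻¹) : Wd H y (k + 1) (ε * h * g) := by
  have hb : Wd H y 1 ε := by
    rcases hε with rfl | rfl
    · exact Wd.base
    · exact Wd.base'
  induction hw with
  | base => exact Wd.step hb hh (Or.inl rfl)
  | base' => exact Wd.step hb hh (Or.inr rfl)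
  | @step k g h' ε' _ hh' hε' ih =>
    have e : ε * h * (g * h' * ε') = (ε * h * g) * h' * ε' := by group
    rw [e]
    exact Wd.step ih hh' hε'

theorem Wd.inv {H : Subgroup G} {y : G} {k : ℕ} {g : G} (hw : Wd H y k g) : Wd H y k g⁻¹ := by
  induction hw with
  | base => exact Wd.base'
  | base' => rw [inv_inv]; exact Wd.base
  | @step k g h' ε' _ hh' hε' ih =>
    have e : (g * h' * ε')⁻¹ = ε'⁻¹ * h'⁻¹ * g⁻¹ := by group
    rw [e]
    refine Wd.left ih (H.inv_mem hh') ?_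
    rcases hε' with rfl | rfl
    · exact Or.inr rfl
    · exact Or.inl (inv_inv _)

theorem Wd.one {H : Subgroup G} {y g : G} (hw : Wd H y 1 g) : g = y ∨ g = y⁻¹ := by
  cases hw with
  | base => exact Or.inl rfl
  | base' => exact Or.inr rfl
  | step h _ _ => exact absurd h.pos (by omega)

theorem Wd.decomp {H : Subgroup G} {y g : G} {k : ℕ} (hw : Wd H y (k + 2) g) :
    ∃ g₁ h ε, Wd H y (k + 1) g₁ ∧ h ∈ H ∧ (ε = y ∨ ε = y⁻¹) ∧ g = g₁ * h * ε := by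
  cases hw with
  | step h1 h2 h3 => exact ⟨_, _, _, h1, h2, h3, rfl⟩

/-- A word is critical if its conjugate of `V` leaves `A`. -/
def Crit (g : G) : Prop := ∃ v ∈ X.V, cj g⁻¹ v ∉ X.A

theorem exists_crit [Finite G] (hC : X.CC) : ∃ k g, Wd X.H X.y k g ∧ X.Crit g := by
  by_contra hno
  push Not at hno
  have h1 : ∀ k g, Wd X.H X.y k g → ∀ v ∈ X.V, cj g⁻¹ v ∈ X.A := by
    intro k g hg v hv
    by_contra hh
    exact hno k g hg ⟨v, hv, hh⟩
  have h2 : ∀ k g, Wd X.H X.y k g → ∀ v ∈ X.V, cj g v ∈ X.A := by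
    intro k g hg v hv
    have := h1 k _ hg.inv v hv
    simpa using this
  let Ls : G → Prop := fun g => g ∈ X.H ∨ ∃ k g₁ h₀ h₁, Wd X.H X.y k g₁ ∧ h₀ ∈ X.H ∧ h₁ ∈ X.H ∧
    g = h₀ * g₁ * h₁
  let Q : Subgroup G := Subgroup.closure {x | ∃ g, Ls g ∧ ∃ v ∈ X.V, x = cj g v}
  have hQA : Q ≤ X.A := by
    refine (Subgroup.closure_le _).2 ?_
    rintro x ⟨g, hg, v, hv, rfl⟩
    rcases hg with hg | ⟨k, g₁, h₀, h₁, hw, hh₀, hh₁, rfl⟩
    · exact X.An g hg v (X.V_le_A hC hv)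
    · have e : cj (h₀ * g₁ * h₁) v = cj h₀ (cj g₁ (cj h₁ v)) := by
        rw [cj_cj, cj_cj]
      rw [e]
      exact X.An h₀ hh₀ _ (h2 k g₁ hw _ (X.V_H hh₁ hv))
  have hQ := X.hQ Q (hQA.trans X.AP) ?_ ?_
  · apply X.Z0_ne
    rw [eq_bot_iff]
    intro z hz
    rw [← hQ]
    exact Subgroup.subset_closure ⟨1, Or.inl X.H.one_mem, z, X.Z0_le_V hz, by simp⟩
  · intro h hh x hx
    refine cj_closure ?_ x hx
    rintro x ⟨g, hg, v, hv, rfl⟩
    refine Subgroup.subset_closure ⟨h * g, ?_, v, hv, by rw [cj_cj]⟩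
    rcases hg with hg | ⟨k, g₁, h₀, h₁, hw, hh₀, hh₁, rfl⟩
    · exact Or.inl (X.H.mul_mem hh hg)
    · refine Or.inr ⟨k, g₁, h * h₀, h₁, hw, X.H.mul_mem hh hh₀, hh₁, by group⟩
  · intro x hx
    refine cj_closure ?_ x hx
    rintro x ⟨g, hg, v, hv, rfl⟩
    refine Subgroup.subset_closure ⟨X.y * g, ?_, v, hv, by rw [cj_cj]⟩
    rcases hg with hg | ⟨k, g₁, h₀, h₁, hw, hh₀, hh₁, rfl⟩
    · exact Or.inr ⟨1, X.y, 1, g, Wd.base, X.H.one_mem, hg, by group⟩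
    · exact Or.inr ⟨k + 1, X.y * h₀ * g₁, 1, h₁, Wd.left hw hh₀ (Or.inl rfl), X.H.one_mem, hh₁,
        by group⟩

/-- Minimal critical length data. -/
structure Mn where
  hC : X.CC
  b : ℕ
  hb : ∃ g, Wd X.H X.y b g ∧ X.Crit g
  hmin : ∀ j < b, ∀ g, Wd X.H X.y j g → ¬ X.Crit g

theorem exists_Mn [Finite G] (hC : X.CC) : Nonempty X.Mn := by
  classical
  have hex := X.exists_crit hC
  refine ⟨⟨hC, Nat.find hex, Nat.find_spec hex, ?_⟩⟩
  intro j hj g hg hc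
  exact Nat.find_min hex hj ⟨g, hg, hc⟩

end Ctx

end Cfsg.Agent.Lib.TutteDih
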