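import Mathlib
import Cfsg.Agent.Lib.TutteDih1

/-!
# Pushing up with a dihedral quotient: critical words, the element `z0`, the algebra on `V`.
-/

set_option autoImplicit false
set_option linter.unusedSectionVars false
set_option linter.unusedVariables false

namespace Cfsg.Agent.Lib.TutteDih

variable {G : Type*} [Group G]

/-- The algebra of the action on `V`. -/
theorem V_alg {E : Type*} [CommGroup E] (he : ∀ x : E, x * x = 1)
    (T U U' : E → E) (hTm : ∀ x y, T (x * y) = T x * T y) (hUm : ∀ x y, U (x * y) = U x * U y)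
    (hU'm : ∀ x y, U' (x * y) = U' x * U' y)
    (hUU' : ∀ x, U (U' x) = x) (hU'U : ∀ x, U' (U x) = x) (hTT : ∀ x, T (T x) = x)
    (hrel : ∀ x, T (U (T (U x))) = x)
    (h4 : ∀ x, U (U (U (U x))) = x → U x = x)
    (h6 : ∀ x, U (U (U (U (U (U x))))) = x → U (U (U x)) = x)
    (hne : ∃ x, U x ≠ x) (z : E) (hz : z ≠ 1) (hT : ∀ x, T x = x ∨ T x = x * z)
    (hTe : ∃ x, T x = x * z) :
    T z = z ∧ U z ≠ z ∧ T (U z) = z * U z ∧ U (U z) = z * U z ∧ U (z * U z) = z ∧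
    (∀ x, U (U (U x)) = x) ∧ (∀ x, T x = x → U x = x ∨ U x = x * (z * U z)) := by
  have hc : ∀ x y : E, x * (x * y) = y := fun x y => by rw [← mul_assoc, he, one_mul]
  have hinv : ∀ x y : E, x * y = 1 → y = x := fun x y h => by
    have := hc x y
    rw [h, mul_one] at this
    exact this.symm
  have hU1 : U 1 = 1 := by
    have := hUm 1 1
    rw [mul_one] at this
    exact left_eq_mul.mp this
  have hU'1 : U' 1 = 1 := by
    have := hU'm 1 1
    rw [mul_one] at this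
    exact left_eq_mul.mp this
  have hTz : T z = z := by
    obtain ⟨x, hx⟩ := hTe
    have h1 := hTT x
    rw [hx, hTm, hx, mul_assoc] at h1
    have h2 : z * T z = 1 := by simpa using h1
    exact hinv _ _ h2
  set z1 := U z with hz1
  have hU'z1 : U' z1 = z := hU'U z
  have hT1 : ∀ x, U (T (U' x)) = x ∨ U (T (U' x)) = x * z1 := by
    intro x
    rcases hT (U' x) with h | h
    · left; rw [h, hUU']
    · right; rw [h, hUm, hUU']
  have hL : ∀ x, U' (U' x) = T (U (T (U' x))) := by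
    intro x
    have := hrel (U' (U' x))
    rw [hUU'] at this
    exact this.symm
  have hT1z1 : U (T (U' z1)) = z1 := by rw [hU'z1, hTz]
  -- transfer of iterated fixed points
  have hLL : ∀ x, U' (U' (U' (U' x))) = x → U x = x := by
    intro x hx
    apply h4
    conv_lhs => rw [← hx]
    simp only [hUU']
  by_cases h1 : T z1 = z1
  · exfalso
    rcases hT1 z with h | h
    · have hLz : U' (U' z) = z := by rw [hL, h, hTz]
      have hLz1 : U' (U' z1) = z1 := by rw [hL, hT1z1, h1]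
      have hall : ∀ x, U' (U' (U' (U' x))) = x := by
        intro x
        have hstep : ∀ c, U' (U' c) = c → c * c = 1 → U' (U' x) = x * c →
            U' (U' (U' (U' x))) = x := by
          intro c hc1 hc2 hc3
          rw [hc3, hU'm, hU'm, hc3, hc1, mul_assoc, hc2, mul_one]
        have hLzz : U' (U' (z * z1)) = z * z1 := by
          rw [hU'm, hU'm, hLz, hLz1]
        rcases hT1 x with h2 | h2 <;> rcases hT x with h3 | h3
        · exact hstep 1 (by simp [hU'1]) (by simp) (by rw [hL, h2, h3, mul_one])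
        · exact hstep z hLz (he z) (by rw [hL, h2, h3])
        · exact hstep z1 hLz1 (he z1) (by rw [hL, h2, hTm, h3, h1])
        · exact hstep (z * z1) hLzz (he _) (by rw [hL, h2, hTm, h3, h1, mul_assoc])
      obtain ⟨x, hx⟩ := hne
      exact hx (hLL x (hall x))
    · have hLz : U' (U' z) = z * z1 := by rw [hL, h, hTm, hTz, h1]
      have hLz1 : U' (U' z1) = z1 := by rw [hL, hT1z1, h1]
      have h2 : U z = z := by
        apply hLL
        rw [hLz, hU'm, hU'm, hLz, hLz1, mul_assoc, he, mul_one]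
      have h3 : z1 = z := h2
      rw [h3, he] at hLz
      apply hz
      have h4' : U (U (U' (U' z))) = z := by simp only [hUU']
      rw [hLz, hU1, hU1] at h4'
      exact h4'.symm
  · have hTz1 : T z1 = z * z1 := by
      rcases hT z1 with h | h
      · exact absurd h h1
      · rw [h, mul_comm]
    have hz1z : z1 ≠ z := by
      intro h
      apply h1
      rw [h, hTz]
    have hT1z : U (T (U' z)) = z * z1 := by
      rcases hT1 z with h | h
      · exfalso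
        have hLz : U' (U' z) = z := by rw [hL, h, hTz]
        apply hz1z
        apply hLL
        rw [hLz, hLz]
      · exact h
    have hLz : U' (U' z) = z1 := by
      rw [hL, hT1z, hTm, hTz, hTz1, hc]
    have e1 : U' z = U z1 := by
      have := congrArg U hLz
      rwa [hUU'] at this
    have e2 : z = U (U (U z)) := by
      have := congrArg U e1
      rwa [hUU'] at this
    have hLz1 : U' (U' z1) = z * z1 := by
      rw [hL, hT1z1, hTz1]
    have e3 : U z1 = z * z1 := by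
      rw [hU'z1, e1] at hLz1
      exact hLz1
    have e4 : U (z * z1) = z := by
      rw [← e3]
      exact e2.symm
    have hLzz : U' (U' (z * z1)) = z := by
      rw [hU'm, hU'm, hLz, hLz1, mul_comm z1, mul_assoc, he, mul_one]
    have hall : ∀ x, U (U (U x)) = x := by
      intro x
      have hstep : ∀ c, c * U' (U' c) * U' (U' (U' (U' c))) = 1 → U' (U' x) = x * c →
          U' (U' (U' (U' (U' (U' x))))) = x := by
        intro c hc1 hc2
        rw [hc2, hU'm, hU'm, hc2, hU'm, hU'm, hU'm, hU'm, hc2, mul_assoc, mul_assoc, ← mul_assoc c,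
          hc1, mul_one]
      apply h6
      have key : U' (U' (U' (U' (U' (U' x))))) = x := by
        rcases hT1 x with h2 | h2 <;> rcases hT x with h3 | h3
        · exact hstep 1 (by simp [hU'1]) (by rw [hL, h2, h3, mul_one])
        · exact hstep z (by rw [hLz, hLz1]; exact he _) (by rw [hL, h2, h3])
        · exact hstep (z * z1) (by rw [hLzz, hLz, mul_assoc (z * z1)]; exact he _)
            (by rw [hL, h2, hTm, h3, hTz1])
        · exact hstep z1 (by
              rw [hLz1, hLzz]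
              simp only [mul_comm, mul_left_comm, hc, he, mul_one])
            (by rw [hL, h2, hTm, h3, hTz1, mul_assoc, hc])
      conv_lhs => rw [← key]
      simp only [hUU']
    refine ⟨hTz, hz1z, hTz1, ?_, e4, hall, ?_⟩
    · exact e3
    · intro x hx
      have e5 : U x = U' (U' x) := by
        conv_rhs => rw [← hall x]
        simp only [hU'U]
      rcases hT1 x with h | h
      · left; rw [e5, hL, h, hx]
      · right; rw [e5, hL, h, hTm, hx, hTz1]

namespace Ctx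

variable (X : Ctx G)

theorem eps_P {ε p : G} (hε : ε = X.y ∨ ε = X.y⁻¹) (hp : p ∈ X.P) : cj ε p ∈ X.P := by
  rcases hε with rfl | rfl
  · exact X.yP p hp
  · exact X.yP' p hp

theorem eps_P' {ε p : G} (hε : ε = X.y ∨ ε = X.y⁻¹) (hp : p ∈ X.P) : cj ε⁻¹ p ∈ X.P := by
  rcases hε with rfl | rfl
  · exact X.yP' p hp
  · rw [inv_inv]; exact X.yP p hp

theorem eps_inv {ε : G} (hε : ε = X.y ∨ ε = X.y⁻¹) : ε⁻¹ = X.y ∨ ε⁻¹ = X.y⁻¹ := by
  rcases hε with rfl | rfl
  · exact Or.inr rfl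
  · exact Or.inl (inv_inv _)

theorem W1₀ (hC : X.CC) {k : ℕ} {g v : G} (hg : Wd X.H X.y k g)
    (hmin : ∀ j < k, ∀ g', Wd X.H X.y j g' → ¬ X.Crit g') (hv : v ∈ X.V) : cj g⁻¹ v ∈ X.P := by
  cases hg with
  | base => exact X.yP' v (X.AP (X.V_le_A hC hv))
  | base' => rw [inv_inv]; exact X.yP v (X.AP (X.V_le_A hC hv))
  | @step k' g₁ h ε h1 h2 h3 =>
    have h4 := hmin k' (Nat.lt_succ_self _) g₁ h1
    have h5 : cj g₁⁻¹ v ∈ X.A := by
      by_contra hh
      exact h4 ⟨v, hv, hh⟩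
    have h6 := X.An' h2 h5
    have e : cj (g₁ * h * ε)⁻¹ v = cj ε⁻¹ (cj h⁻¹ (cj g₁⁻¹ v)) := by
      unfold cj; group
    rw [e]
    exact X.eps_P' h3 (X.AP h6)


namespace Mn

variable {X} (M : X.Mn)

theorem W1 {g v : G} (hg : Wd X.H X.y M.b g) (hv : v ∈ X.V) : cj g⁻¹ v ∈ X.P :=
  X.W1₀ M.hC hg M.hmin hv

theorem W1' {g v : G} (hg : Wd X.H X.y M.b g) (hv : v ∈ X.V) : cj g v ∈ X.P := by
  have := M.W1 hg.inv hv
  simpa using this

theorem W2 [Finite G] {g : G} (hg : Wd X.H X.y M.b g) (hc : X.Crit g) : X.Crit g⁻¹ := by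
  by_contra hno
  have h1 : ∀ x ∈ X.V, cj g x ∈ X.A := by
    intro x hx
    by_contra hh
    exact hno ⟨x, hx, by simpa using hh⟩
  obtain ⟨v₀, hv₀, hv₀'⟩ := hc
  obtain ⟨x, hx, hne⟩ := X.P_not_cen M.hC (M.W1 hg hv₀) hv₀'
  apply hne
  have h2 := X.V_cen hv₀ (h1 x hx)
  have h3 := congrArg (cj g⁻¹) h2
  rw [cj_mul, cj_mul, cj_inv_cj] at h3
  exact cj_eq_self.2 h3.symm

theorem T_of_crit [Finite G] {g : G} (hg : Wd X.H X.y M.b g) (hc : X.Crit g) :
    ∃ z ∈ X.V, z ≠ 1 ∧ (∀ p ∈ X.P, p ∉ X.A → ∀ x ∈ X.V, cj p x = x ∨ cj p x = x * z) ∧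
      (∀ p ∈ X.P, p ∉ X.A → ∃ x ∈ X.V, cj p x = x * z) := by
  obtain ⟨v₂, hv₂, hv₂'⟩ := M.W2 hg hc
  rw [inv_inv] at hv₂'
  set w := cj g v₂ with hw
  have hwP : w ∈ X.P := M.W1' hg hv₂
  obtain ⟨x₁, hx₁, hmv⟩ := X.P_not_cen M.hC hwP hv₂'
  have hfix : ∀ x ∈ X.V, cj g⁻¹ x ∈ X.A → cj w x = x := by
    intro x hx hxA
    have h1 := X.V_cen hv₂ hxA
    have h2 := congrArg (cj g) h1
    rw [cj_mul, cj_mul, cj_cj_inv] at h2
    exact cj_eq_self.2 h2.symm
  have hx₁' : cj g⁻¹ x₁ ∉ X.A := fun h => hmv (hfix x₁ hx₁ h)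
  refine ⟨x₁⁻¹ * cj w x₁, X.V.mul_mem (X.V.inv_mem hx₁) (X.V_H (X.PH hwP) hx₁), ?_, ?_, ?_⟩
  · intro h
    apply hmv
    exact (inv_mul_eq_one.1 h).symm
  · intro p hp hpA x hx
    rw [X.act_eq hp hpA hwP hv₂' hx]
    by_cases hxA : cj g⁻¹ x ∈ X.A
    · exact Or.inl (hfix x hx hxA)
    · right
      have h1 := X.idx _ (M.W1 hg hx) hxA _ (M.W1 hg hx₁) hx₁'
      rw [← cj_inv, ← cj_mul] at h1
      have h2 := hfix (x * x₁⁻¹) (X.V.mul_mem hx (X.V.inv_mem hx₁)) h1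
      have e : x = (x * x₁⁻¹) * x₁ := by group
      conv_lhs => rw [e, cj_mul, h2]
      group
  · intro p hp hpA
    refine ⟨x₁, hx₁, ?_⟩
    rw [X.act_eq hp hpA hwP hv₂' hx₁]
    group

end Mn

/-- The part of `Z0` fixed by `u`. -/
def W : Subgroup G where
  carrier := {x | x ∈ X.Z0 ∧ cj X.u x = x}
  mul_mem' := by
    rintro a b ⟨h1, h2⟩ ⟨h3, h4⟩
    exact ⟨X.Z0.mul_mem h1 h3, by rw [cj_mul, h2, h4]⟩
  one_mem' := ⟨X.Z0.one_mem, by simp⟩
  inv_mem' := by
    rintro a ⟨h1, h2⟩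
    exact ⟨X.Z0.inv_mem h1, by rw [cj_inv, h2]⟩

/-- The element `z0`. -/
structure Zd (M : X.Mn) where
  z0 : G
  z0V : z0 ∈ X.V
  z0ne : z0 ≠ 1
  T : ∀ p ∈ X.P, p ∉ X.A → ∀ x ∈ X.V, cj p x = x ∨ cj p x = x * z0
  Tm : ∀ p ∈ X.P, p ∉ X.A → ∃ x ∈ X.V, cj p x = x * z0

theorem exists_Zd [Finite G] (M : X.Mn) : Nonempty (X.Zd M) := by
  obtain ⟨g, hg, hc⟩ := M.hb
  obtain ⟨z, h1, h2, h3, h4⟩ := M.T_of_crit hg hc
  exact ⟨⟨z, h1, h2, h3, h4⟩⟩

namespace Zd

variable {X} {M : X.Mn} (Z : X.Zd M)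

/-- The identity at critical words. -/
theorem idn [Finite G] {g : G} (hg : Wd X.H X.y M.b g) (hc : X.Crit g) : cj g Z.z0 = Z.z0 := by
  obtain ⟨v₂, hv₂, hv₂'⟩ := M.W2 hg hc
  rw [inv_inv] at hv₂'
  set w := cj g v₂ with hw
  have hwP : w ∈ X.P := M.W1' hg hv₂
  have hww : w * w = 1 := by
    rw [hw, ← cj_mul, X.V_sq M.hC hv₂]; simp
  obtain ⟨x₁, hx₁, hmv⟩ := Z.Tm w hwP hv₂'
  have hfix : cj g⁻¹ x₁ ∉ X.A := by
    intro hxA
    have h1 := X.V_cen hv₂ hxA
    have h2 := congrArg (cj g) h1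
    rw [cj_mul, cj_mul, cj_cj_inv] at h2
    have h3 := cj_eq_self.2 h2.symm
    rw [← hw] at h3
    rw [hmv] at h3
    exact Z.z0ne (by simpa using h3)
  have h1 := Z.T _ (M.W1 hg hx₁) hfix v₂ hv₂
  have h2 : cj x₁ w = w ∨ cj x₁ w = w * cj g Z.z0 := by
    rcases h1 with h | h
    · left
      have := congrArg (cj g) h
      have e : cj g (cj (cj g⁻¹ x₁) v₂) = cj x₁ (cj g v₂) := by unfold cj; group
      rw [e] at this
      exact this
    · right
      have := congrArg (cj g) h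
      have e : cj g (cj (cj g⁻¹ x₁) v₂) = cj x₁ (cj g v₂) := by unfold cj; group
      rw [e, cj_mul] at this
      exact this
  have hwi : w⁻¹ = w := inv_eq_of_mul_eq_one_left hww
  have h3 : cj x₁ w = w * Z.z0 := by
    have hcomm : x₁ * Z.z0 = Z.z0 * x₁ := X.V_comm M.hC hx₁ Z.z0V
    unfold cj at hmv ⊢
    rw [hwi] at hmv
    calc x₁ * w * x₁⁻¹ = w * (w * x₁ * w) * x₁⁻¹ := by
          have : w * (w * x₁ * w) * x₁⁻¹ = (w * w) * (x₁ * w * x₁⁻¹) := by group
          rw [this, hww, one_mul]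
      _ = w * (x₁ * Z.z0) * x₁⁻¹ := by rw [hmv]
      _ = w * (Z.z0 * x₁) * x₁⁻¹ := by rw [hcomm]
      _ = w * Z.z0 := by group
  rcases h2 with h | h
  · rw [h3] at h
    exact absurd (by simpa using h) Z.z0ne
  · rw [h3] at h
    exact (mul_left_cancel h).symm

/-- Fixed points under an odd order element. -/
theorem fix_pow {g x : G} (h : cj g x = x) (k : ℕ) : cj (g ^ k) x = x := by
  induction k with
  | zero => simp
  | succ k ih => rw [pow_succ, cj_mul_left, h, ih]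

theorem fix_coprime {g x : G} {a n : ℕ} (hg : g ^ n = 1) (ha : Nat.Coprime a n)
    (h : cj (g ^ a) x = x) : cj g x = x := by
  have h1 : Nat.Coprime a (orderOf g) :=
    Nat.Coprime.coprime_dvd_right (orderOf_dvd_of_pow_eq_one hg) ha
  obtain ⟨m, hm⟩ := exists_pow_eq_self_of_coprime h1
  rw [← hm]
  exact fix_pow h m

theorem cop4 : Nat.Coprime 4 X.N := by
  have : Nat.Coprime 2 X.N := (Nat.coprime_two_left).2 X.Nodd
  exact Nat.Coprime.pow_left 2 this

theorem cop2 : Nat.Coprime 2 X.N := (Nat.coprime_two_left).2 X.Nodd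

/-- Elements of `V` in a commutative group. -/
noncomputable def algInst : CommGroup X.V :=
  { (inferInstance : Group X.V) with
    mul_comm := fun a b => Subtype.ext (X.V_comm M.hC a.2 b.2) }

theorem t_u_rel {x : G} (hx : x ∈ X.V) : cj X.t (cj X.u (cj X.t (cj X.u x))) = x := by
  have h1 := X.rel
  have h2 := X.sq_mem X.tP
  have h3 := X.An' X.uH h2
  have e : cj X.t (cj X.u (cj X.t (cj X.u x))) =
      cj (cj X.t X.u * X.u) (cj (cj X.u⁻¹ (X.t * X.t)) x) := by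
    unfold cj; group
  rw [e, X.V_act hx h3, X.V_act hx h1]

theorem alg_main [Finite G] : cj X.t Z.z0 = Z.z0 ∧ cj X.u Z.z0 ≠ Z.z0 ∧
    cj X.t (cj X.u Z.z0) = Z.z0 * cj X.u Z.z0 ∧
    cj X.u (cj X.u Z.z0) = Z.z0 * cj X.u Z.z0 ∧ cj X.u (Z.z0 * cj X.u Z.z0) = Z.z0 ∧
    (∀ x ∈ X.V, cj X.u (cj X.u (cj X.u x)) = x) ∧
    (∀ x ∈ X.V, cj X.t x = x → cj X.u x = x ∨ cj X.u x = x * (Z.z0 * cj X.u Z.z0)) := by
  letI : CommGroup X.V := algInst (M := M)
  have htH := X.PH X.tP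
  have huH := X.uH
  have hue : ∀ x : X.V, x * x = 1 := fun x => Subtype.ext (X.V_sq M.hC x.2)
  let T : X.V → X.V := fun x => ⟨cj X.t x, X.V_H htH x.2⟩
  let U : X.V → X.V := fun x => ⟨cj X.u x, X.V_H huH x.2⟩
  let U' : X.V → X.V := fun x => ⟨cj X.u⁻¹ x, X.V_H (X.H.inv_mem huH) x.2⟩
  have key := V_alg hue T U U'
    (fun x y => Subtype.ext (cj_mul _ _ _)) (fun x y => Subtype.ext (cj_mul _ _ _))
    (fun x y => Subtype.ext (cj_mul _ _ _))
    (fun x => Subtype.ext (cj_cj_inv _ _)) (fun x => Subtype.ext (cj_inv_cj _ _))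
    (fun x => Subtype.ext (by
      show cj X.t (cj X.t (x : G)) = x
      rw [cj_cj]
      exact X.V_act x.2 (X.sq_mem X.tP)))
    (fun x => Subtype.ext (t_u_rel x.2))
    (fun x hx => Subtype.ext (by
      have h1 := congrArg Subtype.val hx
      change cj X.u (cj X.u (cj X.u (cj X.u (x : G)))) = x at h1
      apply fix_coprime X.uN cop4
      have e : cj (X.u ^ 4) (x : G) = cj X.u (cj X.u (cj X.u (cj X.u (x : G)))) := by
        simp only [cj_cj]
        congr 1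
        simp only [pow_succ, pow_zero, one_mul, mul_assoc]
      rw [e]
      exact h1))
    (fun x hx => Subtype.ext (by
      have h1 := congrArg Subtype.val hx
      change cj X.u (cj X.u (cj X.u (cj X.u (cj X.u (cj X.u (x : G)))))) = x at h1
      have h2 : cj (X.u ^ 3) (x : G) = x := by
        apply fix_coprime (n := X.N) (a := 2) (by rw [← pow_mul, mul_comm, pow_mul, X.uN, one_pow]) cop2
        have e : cj ((X.u ^ 3) ^ 2) (x : G) =
            cj X.u (cj X.u (cj X.u (cj X.u (cj X.u (cj X.u (x : G)))))) := by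
          simp only [cj_cj]
          congr 1
          simp only [pow_succ, pow_zero, one_mul, mul_assoc]
        rw [e]
        exact h1
      show cj X.u (cj X.u (cj X.u (x : G))) = x
      have e : cj X.u (cj X.u (cj X.u (x : G))) = cj (X.u ^ 3) (x : G) := by
        simp only [cj_cj]
        congr 1
        simp only [pow_succ, pow_zero, one_mul, mul_assoc]
      rw [e]
      exact h2))
    (by
      obtain ⟨x, hx, hne⟩ := X.u_not_cen M.hC
      exact ⟨⟨x, hx⟩, fun h => hne (congrArg Subtype.val h)⟩)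
    (⟨Z.z0, Z.z0V⟩) (fun h => Z.z0ne (congrArg Subtype.val h))
    (fun x => by
      rcases Z.T X.t X.tP X.tA x x.2 with h | h
      · exact Or.inl (Subtype.ext h)
      · exact Or.inr (Subtype.ext h))
    (by
      obtain ⟨x, hx, h⟩ := Z.Tm X.t X.tP X.tA
      exact ⟨⟨x, hx⟩, Subtype.ext h⟩)
  obtain ⟨h1, h2, h3, h4, h5, h6, h7⟩ := key
  refine ⟨congrArg Subtype.val h1, fun h => h2 (Subtype.ext h), congrArg Subtype.val h3,
    congrArg Subtype.val h4, congrArg Subtype.val h5, fun x hx => congrArg Subtype.val (h6 ⟨x, hx⟩),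
    fun x hx hh => ?_⟩
  rcases h7 ⟨x, hx⟩ (Subtype.ext hh) with h | h
  · exact Or.inl (congrArg Subtype.val h)
  · exact Or.inr (congrArg Subtype.val h)


/-- The second element. -/
def z1 : G := cj X.u Z.z0

/-- The third element. -/
def z2 : G := Z.z0 * Z.z1

include Z

theorem z1V : Z.z1 ∈ X.V := X.V_H X.uH Z.z0V

theorem z2V : Z.z2 ∈ X.V := X.V.mul_mem Z.z0V Z.z1V

theorem z0A : Z.z0 ∈ X.A := X.V_le_A M.hC Z.z0V
theorem z1A : Z.z1 ∈ X.A := X.V_le_A M.hC Z.z1V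
theorem z2A : Z.z2 ∈ X.A := X.V_le_A M.hC Z.z2V

theorem cc {v w : G} (hv : v ∈ X.V) (hw : w ∈ X.V) : v * w = w * v := X.V_comm M.hC hv hw
theorem sq {v : G} (hv : v ∈ X.V) : v * v = 1 := X.V_sq M.hC hv
theorem vinv {v : G} (hv : v ∈ X.V) : v⁻¹ = v := X.V_inv M.hC hv
theorem canc {v : G} (hv : v ∈ X.V) (a : G) : v * (v * a) = a := by
  rw [← mul_assoc, X.V_sq M.hC hv, one_mul]
theorem canc' {v : G} (hv : v ∈ X.V) (a : G) : a * v * v = a := by
  rw [mul_assoc, X.V_sq M.hC hv, mul_one]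

theorem T_z0 [Finite G] {p : G} (hp : p ∈ X.P) (hpA : p ∉ X.A) : cj p Z.z0 = Z.z0 := by
  rw [X.act_eq hp hpA X.tP X.tA Z.z0V]
  exact Z.alg_main.1

theorem T_z1 [Finite G] {p : G} (hp : p ∈ X.P) (hpA : p ∉ X.A) : cj p Z.z1 = Z.z2 := by
  rw [X.act_eq hp hpA X.tP X.tA Z.z1V]
  exact Z.alg_main.2.2.1

theorem T_z2 [Finite G] {p : G} (hp : p ∈ X.P) (hpA : p ∉ X.A) : cj p Z.z2 = Z.z1 := by
  have : Z.z2 = Z.z0 * Z.z1 := rfl
  rw [this, cj_mul, Z.T_z0 hp hpA, Z.T_z1 hp hpA, this, Z.canc Z.z0V]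

theorem U_z0 : cj X.u Z.z0 = Z.z1 := rfl

theorem U_z1 [Finite G] : cj X.u Z.z1 = Z.z2 := Z.alg_main.2.2.2.1

theorem U_z2 [Finite G] : cj X.u Z.z2 = Z.z0 := Z.alg_main.2.2.2.2.1

theorem z1_ne_z0 [Finite G] : Z.z1 ≠ Z.z0 := Z.alg_main.2.1

theorem z1_ne_one [Finite G] : Z.z1 ≠ 1 := by
  intro h
  have h1 : cj X.u Z.z0 = 1 := h
  apply Z.z0ne
  have := congrArg (cj X.u⁻¹) h1
  simpa using this

theorem z2_ne_z0 [Finite G] : Z.z2 ≠ Z.z0 := by
  intro h
  have h1 : Z.z0 * Z.z1 = Z.z0 := h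
  exact Z.z1_ne_one (by simpa using h1)

theorem z2_ne_z1 [Finite G] : Z.z2 ≠ Z.z1 := by
  intro h
  have h1 : Z.z0 * Z.z1 = Z.z1 := h
  exact Z.z0ne (by simpa using h1)

theorem z2_ne_one [Finite G] : Z.z2 ≠ 1 := by
  intro h
  have h1 : Z.z0 * Z.z1 = 1 := h
  apply Z.z1_ne_z0
  have := Z.canc Z.z0V Z.z1 
  rw [h1, mul_one] at this
  exact this.symm

theorem U3 [Finite G] {x : G} (hx : x ∈ X.V) : cj X.u (cj X.u (cj X.u x)) = x :=
  Z.alg_main.2.2.2.2.2.1 x hx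

/-- A `t`-fixed element of `V` lies in `Z0`. -/
theorem fix_Z0 {x : G} (hx : x ∈ X.V) (h : cj X.t x = x) : x ∈ X.Z0 := by
  refine ⟨X.AP (X.V_le_A M.hC hx), fun q hq => ?_, X.V_sq M.hC hx⟩
  by_cases hqA : q ∈ X.A
  · exact X.V_cen hx hqA
  · apply cj_eq_self.1
    rw [X.act_eq hq hqA X.tP X.tA hx, h]

theorem z0Z [Finite G] : Z.z0 ∈ X.Z0 := Z.fix_Z0 Z.z0V Z.alg_main.1

theorem V_cases [Finite G] {x : G} (hx : x ∈ X.V) : x ∈ X.Z0 ∨ x * Z.z1 ∈ X.Z0 := by
  rcases Z.T X.t X.tP X.tA x hx with h | h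
  · exact Or.inl (Z.fix_Z0 hx h)
  · right
    apply Z.fix_Z0 (X.V.mul_mem hx Z.z1V)
    rw [cj_mul, h, Z.T_z1 X.tP X.tA]
    have : Z.z2 = Z.z0 * Z.z1 := rfl
    rw [this, mul_assoc, Z.canc Z.z0V]

/-- The orbit of `z0` under `H`. -/
theorem orb [Finite G] : ∀ h ∈ X.H, ∀ x, (x = Z.z0 ∨ x = Z.z1 ∨ x = Z.z2) →
    (cj h x = Z.z0 ∨ cj h x = Z.z1 ∨ cj h x = Z.z2) := by
  refine X.H_ind ?_ ?_ ?_ ?_
  · intro a ha x hx
    have hxV : x ∈ X.V := by
      rcases hx with rfl | rfl | rfl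
      · exact Z.z0V
      · exact Z.z1V
      · exact Z.z2V
    rw [X.V_act hxV ha]
    exact hx
  · rintro x (rfl | rfl | rfl)
    · rw [Z.T_z0 X.tP X.tA]; exact Or.inl rfl
    · rw [Z.T_z1 X.tP X.tA]; exact Or.inr (Or.inr rfl)
    · rw [Z.T_z2 X.tP X.tA]; exact Or.inr (Or.inl rfl)
  · rintro x (rfl | rfl | rfl)
    · rw [Z.U_z0]; exact Or.inr (Or.inl rfl)
    · rw [Z.U_z1]; exact Or.inr (Or.inr rfl)
    · rw [Z.U_z2]; exact Or.inl rfl
  · intro a b ha hb x hx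
    rw [cj_mul_left]
    exact ha _ (hb x hx)

theorem orb_V [Finite G] {h x : G} (hh : h ∈ X.H) (hx : x = Z.z0 ∨ x = Z.z1 ∨ x = Z.z2) :
    cj h x = Z.z0 ∨ cj h x = Z.z1 ∨ cj h x = Z.z2 := Z.orb h hh x hx

theorem mem_W {x : G} : x ∈ X.W ↔ x ∈ X.Z0 ∧ cj X.u x = x := Iff.rfl

theorem W_cen : ∀ h ∈ X.H, ∀ x ∈ X.W, cj h x = x := by
  refine X.H_ind ?_ ?_ ?_ ?_
  · intro a ha x hx
    exact cj_eq_self.2 (hx.1.2.1 a (X.AP ha))
  · intro x hx
    exact cj_eq_self.2 (hx.1.2.1 _ X.tP)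
  · intro x hx
    exact hx.2
  · intro a b ha hb x hx
    rw [cj_mul_left, hb x hx, ha x hx]

theorem Z0_cases [Finite G] {x : G} (hx : x ∈ X.Z0) : x ∈ X.W ∨ x * Z.z0 ∈ X.W := by
  rcases Z.alg_main.2.2.2.2.2.2 x (X.Z0_le_V hx) (cj_eq_self.2 (hx.2.1 _ X.tP)) with h | h
  · exact Or.inl ⟨hx, h⟩
  · right
    refine ⟨X.Z0.mul_mem hx Z.z0Z, ?_⟩
    rw [cj_mul, h]
    show x * (Z.z0 * Z.z1) * Z.z1 = x * Z.z0
    rw [mul_assoc, mul_assoc, Z.sq Z.z1V, mul_one]

theorem z0_notW [Finite G] : Z.z0 ∉ X.W := fun h => Z.z1_ne_z0 h.2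

theorem W_two [Finite G] {w₁ w₂ : G} (h₁ : w₁ ∈ X.W) (h₂ : w₂ ∈ X.W) (n₁ : w₁ ≠ 1) (n₂ : w₂ ≠ 1) :
    w₁ = w₂ := by
  let Q : Subgroup G :=
    { carrier := {x | x ∈ X.W ∧ cj X.y x ∈ X.W}
      mul_mem' := by
        rintro a b ⟨h1, h2⟩ ⟨h3, h4⟩
        exact ⟨X.W.mul_mem h1 h3, by rw [cj_mul]; exact X.W.mul_mem h2 h4⟩
      one_mem' := ⟨X.W.one_mem, by simp [X.W.one_mem]⟩
      inv_mem' := by
        rintro a ⟨h1, h2⟩
        exact ⟨X.W.inv_mem h1, by rw [cj_inv]; exact X.W.inv_mem h2⟩ }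
  have hQ := X.hQ Q (fun x hx => hx.1.1.1) ?_ ?_
  · have hnot : ∀ w ∈ X.W, w ≠ 1 → cj X.y w * Z.z0 ∈ X.W := by
      intro w hw hne
      rcases Z.Z0_cases (X.Z0_y hw.1) with h | h
      · exfalso
        have : w ∈ Q := ⟨hw, h⟩
        rw [hQ, Subgroup.mem_bot] at this
        exact hne this
      · exact h
    have h1 := X.W.mul_mem (hnot w₁ h₁ n₁) (hnot w₂ h₂ n₂)
    have hyw₂ := X.Z0_le_V (X.Z0_y h₂.1)
    have e : cj X.y w₁ * Z.z0 * (cj X.y w₂ * Z.z0) = cj X.y (w₁ * w₂) := by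
      rw [cj_mul, mul_assoc, ← mul_assoc Z.z0, Z.cc Z.z0V hyw₂, mul_assoc, Z.sq Z.z0V, mul_one]
    rw [e] at h1
    have h2 : w₁ * w₂ ∈ Q := ⟨X.W.mul_mem h₁ h₂, h1⟩
    rw [hQ, Subgroup.mem_bot] at h2
    have h4 : w₁ = w₂⁻¹ := eq_inv_of_mul_eq_one_left h2
    rw [h4, Z.vinv (X.Z0_le_V h₂.1)]
  · intro h hh x hx
    have e := Z.W_cen h hh x hx.1
    rw [e]
    exact hx
  · intro x hx
    refine ⟨hx.2, ?_⟩
    rw [X.Z0_yy hx.1.1]
    exact hx.1

/-- The two options for `y` on `z0`. -/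
theorem options [Finite G] : cj X.y Z.z0 = Z.z0 ∨
    ∃ w ∈ X.W, w ≠ 1 ∧ cj X.y Z.z0 = w ∧ cj X.y w = Z.z0 := by
  by_cases h0 : cj X.y Z.z0 = Z.z0
  · exact Or.inl h0
  · right
    have hz := X.Z0_y Z.z0Z
    rcases Z.Z0_cases hz with h | h
    · refine ⟨_, h, ?_, rfl, X.Z0_yy Z.z0Z⟩
      intro h1
      apply Z.z0ne
      have := congrArg (cj X.y⁻¹) h1
      simpa using this
    · exfalso
      set w := cj X.y Z.z0 * Z.z0 with hw
      have e1 : cj X.y Z.z0 = w * Z.z0 := by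
        rw [hw, Z.canc' Z.z0V]
      have hw1 : w ≠ 1 := by
        intro h1
        apply h0
        rw [e1, h1, one_mul]
      -- `w` is `y`-stable, hence in the trivial subgroup
      have h2 : cj X.y w = w := by
        have h3 := X.Z0_yy Z.z0Z
        rw [e1, cj_mul, e1] at h3
        have h5 : cj X.y w * w = 1 := by
          rw [← mul_assoc] at h3
          simpa using h3
        rw [eq_inv_of_mul_eq_one_left h5, Z.vinv (X.Z0_le_V h.1)]
      let Q : Subgroup G := Subgroup.closure {w}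
      have hQ := X.hQ Q ?_ ?_ ?_
      · have : w ∈ Q := Subgroup.subset_closure rfl
        rw [hQ, Subgroup.mem_bot] at this
        exact hw1 this
      · refine (Subgroup.closure_le _).2 ?_
        rintro x rfl
        exact h.1.1
      · intro k hk x hx
        refine cj_closure ?_ x hx
        rintro x rfl
        rw [Z.W_cen k hk _ h]
        exact Subgroup.subset_closure rfl
      · intro x hx
        refine cj_closure ?_ x hx
        rintro x rfl
        rw [h2]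
        exact Subgroup.subset_closure rfl

end Zd

end Ctx

end Cfsg.Agent.Lib.TutteDih
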