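import Mathlib
import Cfsg.Agent.Lib.TutteDih2

/-!
# Pushing up with a dihedral quotient: ruling out long critical words.
-/

set_option autoImplicit false
set_option linter.unusedSectionVars false
set_option linter.unusedVariables false

namespace Cfsg.Agent.Lib.TutteDih

variable {G : Type*} [Group G]

namespace Ctx

variable {X : Ctx G} {M : X.Mn} (Z : X.Zd M)

namespace Zd

include Z

theorem cj_y_V {v : G} (hv : v ∈ X.V) (hb2 : 2 ≤ M.b) : cj X.y v ∈ X.A := by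
  by_contra h
  refine M.hmin 1 (by omega) X.y⁻¹ Wd.base' ⟨v, hv, ?_⟩
  simpa using h

theorem cj_y'_V {v : G} (hv : v ∈ X.V) (hb2 : 2 ≤ M.b) : cj X.y⁻¹ v ∈ X.A := by
  by_contra h
  exact M.hmin 1 (by omega) X.y Wd.base ⟨v, hv, h⟩

theorem Vk_A {k v : G} (hk : k ∈ X.H) (hv : v ∈ X.V) (hb2 : 2 ≤ M.b) : cj (k * X.y) v ∈ X.A := by
  rw [cj_mul_left]
  exact X.An k hk _ (Z.cj_y_V hv hb2)

theorem Vk_sq {k v : G} (hv : v ∈ X.V) : cj (k * X.y) v * cj (k * X.y) v = 1 := by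
  rw [← cj_mul, Z.sq hv]; simp

/-- Lemma K. -/
theorem K {k q x₀ : G} (hk : k ∈ X.H) (hq : q ∈ X.A) (hx₀ : x₀ ∈ X.V) :
    cj q (cj (k * X.y) x₀) = cj (k * X.y) x₀ ∨
      cj q (cj (k * X.y) x₀) = cj (k * X.y) x₀ * cj (k * X.y) Z.z0 := by
  have e : cj q (cj (k * X.y) x₀) = cj (k * X.y) (cj (cj (k * X.y)⁻¹ q) x₀) := by
    unfold cj; group
  have e2 : cj (k * X.y)⁻¹ q = cj X.y⁻¹ (cj k⁻¹ q) := by
    unfold cj; group
  have h1 : cj (k * X.y)⁻¹ q ∈ X.P := by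
    rw [e2]
    exact X.yP' _ (X.AP (X.An' hk hq))
  by_cases h2 : cj (k * X.y)⁻¹ q ∈ X.A
  · left
    rw [e, X.V_act hx₀ h2]
  · rcases Z.T _ h1 h2 x₀ hx₀ with h3 | h3
    · left; rw [e, h3]
    · right; rw [e, h3, cj_mul]

/-- Lemma K, the moved element. -/
theorem K_move {k : G} (hk : k ∈ X.H) : ∃ x₀ ∈ X.V, ∃ q ∈ X.A,
    cj q (cj (k * X.y) x₀) = cj (k * X.y) x₀ * cj (k * X.y) Z.z0 := by
  obtain ⟨q₀, hq₀, hq₀'⟩ := X.exists_not_y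
  have e2 : cj (k * X.y)⁻¹ (cj k q₀) = cj X.y⁻¹ q₀ := by
    unfold cj; group
  obtain ⟨x₀, hx₀, h⟩ := Z.Tm _ (X.yP' q₀ (X.AP hq₀)) hq₀'
  refine ⟨x₀, hx₀, cj k q₀, X.An k hk _ hq₀, ?_⟩
  have e : cj (cj k q₀) (cj (k * X.y) x₀) = cj (k * X.y) (cj (cj X.y⁻¹ q₀) x₀) := by
    unfold cj; group
  rw [e, h, cj_mul]

/-- The action of the element `τ` of a critical word. -/
theorem tau_act [Finite G] {g₁ h ε v₂ x : G} (hw : Wd X.H X.y M.b (g₁ * h * ε))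
    (hc : X.Crit (g₁ * h * ε)) (hh : h ∈ X.H) (hε : ε = X.y ∨ ε = X.y⁻¹) (hv₂ : v₂ ∈ X.V)
    (hxA : x ∈ X.A) (hxx : x * x = 1) (hxg : cj g₁⁻¹ x ∈ X.A) :
    cj (cj (g₁ * h * ε) v₂) x = x ∨ cj (cj (g₁ * h * ε) v₂) x = x * Z.z0 := by
  set g := g₁ * h * ε with hg
  have e : cj g⁻¹ x = cj ε⁻¹ (cj h⁻¹ (cj g₁⁻¹ x)) := by
    rw [hg]; unfold cj; group
  have hp : cj g⁻¹ x ∈ X.P := by
    rw [e]
    exact X.eps_P' hε (X.AP (X.An' hh hxg))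
  set τ := cj g v₂ with hτ
  have hττ : τ * τ = 1 := by
    rw [hτ, ← cj_mul, Z.sq hv₂]; simp
  have hcomm : (cj g⁻¹ x) * v₂ = v₂ * (cj g⁻¹ x) → cj τ x = x := by
    intro h1
    have h2 := congrArg (cj g) h1
    rw [cj_mul, cj_mul, cj_cj_inv] at h2
    exact cj_eq_self.2 h2.symm
  by_cases hpA : cj g⁻¹ x ∈ X.A
  · exact Or.inl (hcomm (X.V_cen hv₂ hpA))
  · have e3 : cj g (cj (cj g⁻¹ x) v₂) = cj x τ := by
      rw [hτ]; unfold cj; group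
    rcases Z.T _ hp hpA v₂ hv₂ with h3 | h3
    · left
      have h4 := congrArg (cj g) h3
      rw [e3] at h4
      have h5 := cj_eq_self.1 h4
      exact cj_eq_self.2 h5.symm
    · right
      have h4 := congrArg (cj g) h3
      rw [e3, cj_mul, Z.idn hw hc] at h4
      -- `x τ x⁻¹ = τ z0`
      have hxi : x⁻¹ = x := inv_eq_of_mul_eq_one_left hxx
      have hτi : τ⁻¹ = τ := inv_eq_of_mul_eq_one_left hττ
      have hz : x * Z.z0 = Z.z0 * x := X.V_cen Z.z0V hxA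
      unfold cj at h4 ⊢
      rw [hxi] at h4
      rw [hτi]
      have h5 : x * τ = τ * Z.z0 * x := by
        calc x * τ = x * τ * x * x := by rw [mul_assoc (x * τ), hxx, mul_one]
          _ = τ * Z.z0 * x := by rw [show g * v₂ * g⁻¹ = τ from rfl] at h4; rw [h4]
      calc τ * x * τ = τ * (x * τ) := by group
        _ = τ * (τ * Z.z0 * x) := by rw [h5]
        _ = (τ * τ) * (Z.z0 * x) := by group
        _ = x * Z.z0 := by rw [hττ, one_mul, hz]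

/-- If a whole `k • y • V` lies in `g₁ • A`, then `τ` fixes its special element. -/
theorem tau_zeta [Finite G] {g₁ h ε v₂ k : G} (hb2 : 2 ≤ M.b) (hw : Wd X.H X.y M.b (g₁ * h * ε))
    (hc : X.Crit (g₁ * h * ε)) (hh : h ∈ X.H) (hε : ε = X.y ∨ ε = X.y⁻¹) (hv₂ : v₂ ∈ X.V)
    (hτP : cj (g₁ * h * ε) v₂ ∈ X.P)
    (hk : k ∈ X.H) (hall : ∀ x₀ ∈ X.V, cj g₁⁻¹ (cj (k * X.y) x₀) ∈ X.A) :
    cj (cj (g₁ * h * ε) v₂) (cj (k * X.y) Z.z0) = cj (k * X.y) Z.z0 := by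
  obtain ⟨x₀, hx₀, q, hq, hmove⟩ := Z.K_move hk
  set τ := cj (g₁ * h * ε) v₂ with hτ
  set x := cj (k * X.y) x₀ with hx
  set ζ := cj (k * X.y) Z.z0 with hζ
  have hxA : x ∈ X.A := Z.Vk_A hk hx₀ hb2
  have hζA : ζ ∈ X.A := Z.Vk_A hk Z.z0V hb2
  have hxx : x * x = 1 := Z.Vk_sq hx₀
  have ht := Z.tau_act hw hc hh hε hv₂ hxA hxx (hall x₀ hx₀)
  rw [← hτ] at ht
  have hq' : cj τ q ∈ X.A := X.Pn hτP hq
  have hK := Z.K hk hq' hx₀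
  rw [← hx, ← hζ] at hK
  have hcon := congrArg (cj τ) hmove
  have e : cj τ (cj q x) = cj (cj τ q) (cj τ x) := by
    unfold cj; group
  rw [e, cj_mul] at hcon
  have hζne : ζ ≠ 1 := by
    intro h1
    apply Z.z0ne
    have h2 := cj_inv_cj (k * X.y) Z.z0
    rw [← hζ, h1, cj_one_right] at h2
    exact h2.symm
  have hτζne : cj τ ζ ≠ 1 := by
    intro h1
    apply hζne
    have := congrArg (cj τ⁻¹) h1
    simpa using this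
  -- common reduction
  have hgen : ∀ e₁, e₁ ∈ X.V → cj τ x = x * e₁ → cj τ ζ = ζ := by
    intro e₁ he₁ hx1
    rw [hx1, cj_mul, X.V_act he₁ hq'] at hcon
    rcases hK with h1 | h1
    · rw [h1] at hcon
      exact absurd (by simpa using hcon.symm) hτζne
    · rw [h1, mul_assoc, X.V_cen he₁ hζA, ← mul_assoc] at hcon
      exact (mul_left_cancel hcon).symm
  rcases ht with h1 | h1
  · exact hgen 1 X.V.one_mem (by rw [h1, mul_one])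
  · exact hgen _ Z.z0V h1

/-- A word produced from a word of smaller length. -/
theorem crit_left {g₁ k x₀ : G} (hg₁ : Wd X.H X.y (M.b - 1) g₁) (hk : k ∈ X.H) (hx₀ : x₀ ∈ X.V)
    (hb : 1 ≤ M.b)
    (h : cj g₁⁻¹ (cj (k * X.y) x₀) ∉ X.A) :
    Wd X.H X.y M.b (X.y⁻¹ * k⁻¹ * g₁) ∧ X.Crit (X.y⁻¹ * k⁻¹ * g₁) := by
  constructor
  · have := Wd.left hg₁ (X.H.inv_mem hk) (ε := X.y⁻¹) (Or.inr rfl)
    rwa [Nat.sub_add_cancel hb] at this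
  · refine ⟨x₀, hx₀, ?_⟩
    have e : cj (X.y⁻¹ * k⁻¹ * g₁)⁻¹ x₀ = cj g₁⁻¹ (cj (k * X.y) x₀) := by
      unfold cj; group
    rw [e]
    exact h

/-- The identity, in the rearranged form. -/
theorem idn_left [Finite G] {g₁ k x₀ : G} (hg₁ : Wd X.H X.y (M.b - 1) g₁) (hk : k ∈ X.H)
    (hx₀ : x₀ ∈ X.V) (hb : 1 ≤ M.b) (h : cj g₁⁻¹ (cj (k * X.y) x₀) ∉ X.A) :
    cj g₁ Z.z0 = cj (k * X.y) Z.z0 := by
  obtain ⟨h1, h2⟩ := Z.crit_left hg₁ hk hx₀ hb h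
  have h3 := Z.idn h1 h2
  have e : cj g₁ Z.z0 = cj (k * X.y) (cj (X.y⁻¹ * k⁻¹ * g₁) Z.z0) := by
    unfold cj; group
  rw [e, h3]

/-- Decomposing a critical word. -/
theorem crit_decomp [Finite G] (hb2 : 2 ≤ M.b) {g : G} (hg : Wd X.H X.y M.b g) (hc : X.Crit g) :
    ∃ g₁ h ε v₂, Wd X.H X.y (M.b - 1) g₁ ∧ h ∈ X.H ∧ (ε = X.y ∨ ε = X.y⁻¹) ∧ g = g₁ * h * ε ∧
      v₂ ∈ X.V ∧ cj g v₂ ∉ X.A ∧ cj g v₂ ∈ X.P := by
  obtain ⟨k, hk⟩ := Nat.exists_eq_add_of_le' hb2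
  have hg' : Wd X.H X.y (k + 2) g := hk ▸ hg
  obtain ⟨g₁, h, ε, h1, h2, h3, rfl⟩ := hg'.decomp
  obtain ⟨v₂, hv₂, hv₂'⟩ := M.W2 hg hc
  rw [inv_inv] at hv₂'
  refine ⟨g₁, h, ε, v₂, ?_, h2, h3, rfl, hv₂, hv₂', M.W1' hg hv₂⟩
  have : M.b - 1 = k + 1 := by omega
  rw [this]
  exact h1

/-- Option A with a long critical word is impossible. -/
theorem not_optA [Finite G] (hb2 : 2 ≤ M.b) (hy : cj X.y Z.z0 = Z.z0) : False := by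
  obtain ⟨g, hg, hc⟩ := M.hb
  obtain ⟨g₁, h, ε, v₂, hg₁, hh, hε, rfl, hv₂, hτA, hτP⟩ := Z.crit_decomp hb2 hg hc
  have hz : ∀ k, cj (k * X.y) Z.z0 = cj k Z.z0 := by
    intro k
    rw [cj_mul_left, hy]
  have hb1 : 1 ≤ M.b := by omega
  have huu : cj (X.u * X.u) Z.z0 = Z.z2 := by rw [cj_mul_left, Z.U_z0, Z.U_z1]
  have h1 : ¬ ∀ x₀ ∈ X.V, cj g₁⁻¹ (cj (X.u * X.y) x₀) ∈ X.A := by
    intro hall
    have h2 := Z.tau_zeta hb2 hg hc hh hε hv₂ hτP X.uH hall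
    rw [hz, Z.U_z0, Z.T_z1 hτP hτA] at h2
    exact Z.z2_ne_z1 h2
  have h3 : ¬ ∀ x₀ ∈ X.V, cj g₁⁻¹ (cj (X.u * X.u * X.y) x₀) ∈ X.A := by
    intro hall
    have h2 := Z.tau_zeta hb2 hg hc hh hε hv₂ hτP (X.H.mul_mem X.uH X.uH) hall
    rw [hz, huu, Z.T_z2 hτP hτA] at h2
    exact Z.z2_ne_z1 h2.symm
  push Not at h1 h3
  obtain ⟨x₁, hx₁, hx₁'⟩ := h1
  obtain ⟨x₂, hx₂, hx₂'⟩ := h3
  have h4 := Z.idn_left hg₁ X.uH hx₁ hb1 hx₁'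
  have h5 := Z.idn_left hg₁ (X.H.mul_mem X.uH X.uH) hx₂ hb1 hx₂'
  rw [hz, Z.U_z0] at h4
  rw [hz, huu, h4] at h5
  exact Z.z2_ne_z1 h5.symm


end Zd

/-! ### Reflections -/

theorem refl_aux (X : Ctx G) {τ : G} (hτ : τ ∈ X.P) (hτA : τ ∉ X.A) :
    ∀ m : ℕ, ∃ b ∈ X.A, cj (X.u ^ m) τ * X.u ^ (2 * m) = b * τ := by
  intro m
  induction m with
  | zero => exact ⟨1, X.A.one_mem, by simp⟩
  | succ m ih =>
    obtain ⟨b, hb, e⟩ := ih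
    refine ⟨cj X.u b * cj X.u (cj τ X.u * X.u), X.A.mul_mem (X.An _ X.uH _ hb)
      (X.An _ X.uH _ (X.rel_of hτ hτA)), ?_⟩
    have e1 : cj (X.u ^ (m + 1)) τ * X.u ^ (2 * (m + 1)) =
        X.u * (cj (X.u ^ m) τ * X.u ^ (2 * m)) * X.u := by
      rw [pow_succ' X.u m, show 2 * (m + 1) = 2 * m + 1 + 1 by ring, pow_succ, pow_succ]
      unfold cj
      group
    rw [e1, e]
    unfold cj
    group

theorem refl (X : Ctx G) {τ : G} (hτ : τ ∈ X.P) (hτA : τ ∉ X.A) {e : G} (he : e ∈ X.H) :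
    ∃ ρ ∈ X.H, cj ρ τ * e ∈ X.P := by
  obtain ⟨n₀, hn₀⟩ := X.Nodd
  obtain ⟨i, a, ha, h⟩ := X.gen e he
  have hu : X.u ^ (2 * ((n₀ + 1) * i)) = X.u ^ i := by
    have h1 : X.u ^ (2 * (n₀ + 1)) = X.u := by
      have : 2 * (n₀ + 1) = X.N + 1 := by omega
      rw [this, pow_succ, X.uN, one_mul]
    rw [← mul_assoc, pow_mul, h1]
  obtain ⟨b, hb, eb⟩ := X.refl_aux hτ hτA ((n₀ + 1) * i)
  rw [hu] at eb
  set ρ := X.u ^ ((n₀ + 1) * i) with hρ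
  have hρH : ρ ∈ X.H := X.H.pow_mem X.uH _
  have hXH : cj ρ τ ∈ X.H := X.H.mul_mem (X.H.mul_mem hρH (X.PH hτ)) (X.H.inv_mem hρH)
  have hc := X.An _ hXH a ha
  refine ⟨ρ, hρH, ?_⟩
  have e1 : ∀ X' U : G, X' * (a * U) = cj X' a * (X' * U) := by
    intro X' U
    unfold cj
    group
  rcases h with rfl | rfl
  · rw [e1, eb]
    exact X.P.mul_mem (X.AP hc) (X.P.mul_mem (X.AP hb) hτ)
  · rw [← mul_assoc, e1, eb]
    exact X.P.mul_mem (X.P.mul_mem (X.AP hc) (X.P.mul_mem (X.AP hb) hτ)) X.tP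

/-- Two involutions. -/
theorem invol_lemma {a τ w ζ : G} (ha : a * a = 1) (hτ : τ * τ = 1)
    (h1 : cj a (cj τ a) = cj τ a * w) (h2 : cj τ (cj a τ) = cj a τ * ζ) : ζ = w⁻¹ := by
  have hai : a⁻¹ = a := inv_eq_of_mul_eq_one_left ha
  have hti : τ⁻¹ = τ := inv_eq_of_mul_eq_one_left hτ
  have e1 : w = (cj τ a)⁻¹ * cj a (cj τ a) := by rw [h1]; group
  have e2 : ζ = (cj a τ)⁻¹ * cj τ (cj a τ) := by rw [h2]; group
  rw [e1, e2]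
  unfold cj
  simp only [mul_inv_rev, hai, hti, inv_inv, mul_assoc]

/-- `cj (y⁻¹ y⁻¹)` stabilizes `V`. -/
theorem y2V (hC : X.CC) {v : G} (hv : v ∈ X.V) : cj (X.y⁻¹ * X.y⁻¹) v ∈ X.V := by
  have h0 := X.AP (X.V_le_A hC hv)
  have h1 : cj (X.y⁻¹ * X.y⁻¹) v ∈ X.P := by
    rw [cj_mul_left]
    exact X.yP' _ (X.yP' _ h0)
  have h2 := X.y2 _ h1
  have h3 : cj X.y (cj X.y (cj (X.y⁻¹ * X.y⁻¹) v)) = v := by
    rw [cj_cj, cj_cj]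
    have : X.y * X.y * (X.y⁻¹ * X.y⁻¹) = 1 := by group
    rw [this]; simp
  rw [h3] at h2
  have h4 := X.V_H (X.H.inv_mem (X.PH X.p0P)) hv
  rw [h2] at h4
  simpa using h4

/-- Option B. -/
structure OB (Z : X.Zd M) where
  w : G
  hW : w ∈ X.W
  hw1 : w ≠ 1
  hyz : cj X.y Z.z0 = w
  hyw : cj X.y w = Z.z0

namespace OB

variable {Z} (B : OB Z)

include B

theorem wV : B.w ∈ X.V := X.Z0_le_V B.hW.1

theorem ne [Finite G] : B.w ≠ Z.z0 := fun h => Z.z0_notW (h ▸ B.hW)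

theorem eps_z [Finite G] {ε : G} (hε : ε = X.y ∨ ε = X.y⁻¹) : cj ε Z.z0 = B.w := by
  rcases hε with rfl | rfl
  · exact B.hyz
  · rw [X.Z0_y' Z.z0Z]; exact B.hyz

theorem eps_w {ε : G} (hε : ε = X.y ∨ ε = X.y⁻¹) : cj ε B.w = Z.z0 := by
  rcases hε with rfl | rfl
  · exact B.hyw
  · rw [X.Z0_y' B.hW.1]; exact B.hyw

theorem hb2 [Finite G] : 2 ≤ M.b := by
  by_contra hlt
  obtain ⟨g, hg, hc⟩ := M.hb
  have h1 := hg.pos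
  have h2 : M.b = 1 := by omega
  rw [h2] at hg
  have h3 := hg.one
  have hg' : Wd X.H X.y M.b g := h2 ▸ hg
  have h4 := Z.idn hg' hc
  rw [B.eps_z h3] at h4
  exact B.ne h4

theorem I2 [Finite G] {g₁ h ε : G} (hw : Wd X.H X.y M.b (g₁ * h * ε))
    (hc : X.Crit (g₁ * h * ε)) (hh : h ∈ X.H) (hε : ε = X.y ∨ ε = X.y⁻¹) : cj g₁ B.w = Z.z0 := by
  have h1 := Z.idn hw hc
  rw [cj_mul_left, cj_mul_left, B.eps_z hε, Z.W_cen h hh _ B.hW] at h1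
  exact h1

/-- The element `y • z1`. -/
def x0 (_B : OB Z) : G := cj X.y Z.z1

theorem x0A [Finite G] : B.x0 ∈ X.A := Z.cj_y_V Z.z1V B.hb2

theorem P_x0 [Finite G] {p : G} (hp : p ∈ X.P) : cj p B.x0 = B.x0 ∨ cj p B.x0 = B.x0 * B.w := by
  have e : cj p B.x0 = cj X.y (cj (cj X.y⁻¹ p) Z.z1) := by
    unfold x0 cj; group
  rw [e]
  by_cases h1 : cj X.y⁻¹ p ∈ X.A
  · left
    rw [X.V_act Z.z1V h1]
    rfl
  · right
    rw [Z.T_z1 (X.yP' p hp) h1]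
    show cj X.y (Z.z0 * Z.z1) = _
    rw [cj_mul, B.hyz]
    exact (X.V_cen B.wV B.x0A).symm

theorem x0_comm [Finite G] {v : G} (hv : v ∈ X.V) : B.x0 * v = v * B.x0 := X.V_cen hv B.x0A

/-- The slide lemma. -/
theorem slide [Finite G] {g₁ h ε v₂ : G} (hw : Wd X.H X.y M.b (g₁ * h * ε))
    (hc : X.Crit (g₁ * h * ε)) (hh : h ∈ X.H) (hε : ε = X.y ∨ ε = X.y⁻¹) (hv₂ : v₂ ∈ X.V)
    (hτP : cj (g₁ * h * ε) v₂ ∈ X.P) (hτA : cj (g₁ * h * ε) v₂ ∉ X.A) :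
    ∃ x' ∈ X.V, cj g₁⁻¹ (cj (X.u * X.y) x') ∉ X.A := by
  by_contra hno
  push Not at hno
  set τ := cj (g₁ * h * ε) v₂ with hτ
  have hb2 := B.hb2
  have hxA : cj (X.u * X.y) Z.z1 ∈ X.A := Z.Vk_A X.uH Z.z1V hb2
  have hact := Z.tau_act hw hc hh hε hv₂ hxA (Z.Vk_sq Z.z1V) (hno _ Z.z1V)
  rw [← hτ] at hact
  let Pr : G → Prop := fun k => k ∈ X.H ∧ ∃ v ∈ X.V, cj k B.x0 = v * B.x0
  have hmul : ∀ a b, Pr a → Pr b → Pr (a * b) := by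
    rintro a b ⟨ha, va, hva, ea⟩ ⟨hb, vb, hvb, eb⟩
    refine ⟨X.H.mul_mem ha hb, cj a vb * va, X.V.mul_mem (X.V_H ha hvb) hva, ?_⟩
    rw [cj_mul_left, eb, cj_mul, ea, mul_assoc]
  have hP : ∀ p ∈ X.P, Pr p := by
    intro p hp
    refine ⟨X.PH hp, ?_⟩
    rcases B.P_x0 hp with h1 | h1
    · exact ⟨1, X.V.one_mem, by rw [h1, one_mul]⟩
    · exact ⟨B.w, B.wV, by rw [h1, B.x0_comm B.wV]⟩
  have hr : Pr (cj X.u⁻¹ τ) := by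
    refine ⟨X.H.mul_mem (X.H.mul_mem (X.H.inv_mem X.uH) (X.PH hτP))
      (by simpa using X.uH), ?_⟩
    have e : cj (cj X.u⁻¹ τ) B.x0 = cj X.u⁻¹ (cj τ (cj (X.u * X.y) Z.z1)) := by
      unfold x0 cj; group
    have e2 : cj X.u⁻¹ (cj (X.u * X.y) Z.z1) = B.x0 := by
      unfold x0 cj; group
    rcases hact with h1 | h1
    · exact ⟨1, X.V.one_mem, by rw [e, h1, e2, one_mul]⟩
    · refine ⟨cj X.u⁻¹ Z.z0, X.V_H (X.H.inv_mem X.uH) Z.z0V, ?_⟩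
      rw [e, h1, cj_mul, e2, B.x0_comm (X.V_H (X.H.inv_mem X.uH) Z.z0V)]
  have hu : Pr X.u := by
    refine X.u_of_sq (hP 1 X.P.one_mem) ?_ hmul
    obtain ⟨a, ha, e⟩ := X.usq_eq hτP hτA
    rw [e]
    exact hmul _ _ (hmul _ _ (hP a (X.AP ha)) hr) (hP _ (X.P.inv_mem hτP))
  have hH : ∀ k ∈ X.H, Pr k :=
    X.H_ind (fun a ha => hP a (X.AP ha)) (hP _ X.tP) hu hmul
  have hx0P : B.x0 ∈ X.P := X.AP B.x0A
  let MM : Subgroup G := Subgroup.closure (X.V ∪ {B.x0})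
  have hVM : X.V ≤ MM := fun v hv => Subgroup.subset_closure (Or.inl hv)
  have hxM : B.x0 ∈ MM := Subgroup.subset_closure (Or.inr rfl)
  have hQ := X.hQ MM ?_ ?_ ?_
  · apply X.Z0_ne
    rw [eq_bot_iff]
    intro z hz
    rw [← hQ]
    exact hVM (X.Z0_le_V hz)
  · refine (Subgroup.closure_le _).2 ?_
    rintro v (hv | rfl)
    · exact X.AP (X.V_le_A M.hC hv)
    · exact hx0P
  · intro k hk x hx
    refine cj_closure ?_ x hx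
    rintro v (hv | rfl)
    · exact hVM (X.V_H hk hv)
    · obtain ⟨_, v, hv, e⟩ := hH k hk
      show cj k B.x0 ∈ MM
      rw [e]
      exact MM.mul_mem (hVM hv) hxM
  · intro x hx
    refine cj_closure ?_ x hx
    rintro v (hv | rfl)
    · rcases Z.V_cases hv with h1 | h1
      · exact hVM (X.Z0_le_V (X.Z0_y h1))
      · have h2 := X.Z0_y h1
        rw [cj_mul] at h2
        have e : cj X.y v = cj X.y v * cj X.y Z.z1 * (B.x0)⁻¹ := by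
          show _ = cj X.y v * cj X.y Z.z1 * (cj X.y Z.z1)⁻¹
          group
        show cj X.y v ∈ MM
        rw [e]
        exact MM.mul_mem (hVM (X.Z0_le_V h2)) (MM.inv_mem hxM)
    · show cj X.y B.x0 ∈ MM
      have : cj X.y B.x0 = cj X.p0 Z.z1 := X.y2 _ (X.AP Z.z1A)
      rw [this]
      exact hVM (X.V_H (X.PH X.p0P) Z.z1V)

/-- The slide lemma, second form. -/
theorem slide2 {g₁ h ε v₂ k x' : G} (hb2 : 2 ≤ M.b) (hh : h ∈ X.H) (hε : ε = X.y ∨ ε = X.y⁻¹)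
    (hv₂ : v₂ ∈ X.V)
    (hx : cj g₁⁻¹ (cj (k * X.y) x') ∉ X.A) :
    cj g₁⁻¹ (cj (cj (g₁ * h * ε) v₂ * k * X.y) x') ∉ X.A := by
  intro h1
  apply hx
  set x₁ := cj h (cj ε v₂) with hx₁
  have hx₁A : x₁ ∈ X.A := by
    rw [hx₁]
    refine X.An h hh _ ?_
    rcases hε with rfl | rfl
    · exact Z.cj_y_V hv₂ hb2
    · exact Z.cj_y'_V hv₂ hb2
  have e : cj g₁⁻¹ (cj (cj (g₁ * h * ε) v₂ * k * X.y) x') =
      cj x₁ (cj g₁⁻¹ (cj (k * X.y) x')) := by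
    rw [hx₁]; unfold cj; group
  rw [e] at h1
  have := X.An' (X.AH hx₁A) h1
  simpa using this

/-- Critical words are at most of length two in option B. -/
theorem not_long [Finite G] (hb3 : 3 ≤ M.b) : False := by
  obtain ⟨g, hg, hc⟩ := M.hb
  have hb2 := B.hb2
  obtain ⟨g₁, h, ε, v₂, hg₁, hh, hε, rfl, hv₂, hτA, hτP⟩ := Z.crit_decomp hb2 hg hc
  set τ := cj (g₁ * h * ε) v₂ with hτ
  have hb1 : 1 ≤ M.b := by omega
  obtain ⟨x₁, hx₁, hx₁'⟩ := B.slide hg hc hh hε hv₂ hτP hτA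
  have hx₂' := B.slide2 hb2 hh hε hv₂ hx₁'
  rw [← hτ] at hx₂'
  have hτuH : τ * X.u ∈ X.H := X.H.mul_mem (X.PH hτP) X.uH
  -- decompose `g₁`
  obtain ⟨k, hk⟩ := Nat.exists_eq_add_of_le' hb3
  have hg₁' : Wd X.H X.y (k + 2) g₁ := by
    have : M.b - 1 = k + 2 := by omega
    rw [← this]; exact hg₁
  obtain ⟨g₂, h₂, ε₂, hg₂, hh₂, hε₂, rfl⟩ := hg₁'.decomp
  -- general step
  have hstep : ∀ ℓ ∈ X.H, ∀ x' ∈ X.V, cj (g₂ * h₂ * ε₂)⁻¹ (cj (ℓ * X.y) x') ∉ X.A →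
      Wd X.H X.y (M.b - 1) (X.y⁻¹ * ℓ⁻¹ * g₂) ∧
      Wd X.H X.y M.b (X.y⁻¹ * ℓ⁻¹ * g₂ * h₂ * ε₂) ∧ X.Crit (X.y⁻¹ * ℓ⁻¹ * g₂ * h₂ * ε₂) := by
    intro ℓ hℓ x' hx' he
    obtain ⟨h1, h2⟩ := Z.crit_left hg₁ hℓ hx' hb1 he
    have e : X.y⁻¹ * ℓ⁻¹ * (g₂ * h₂ * ε₂) = X.y⁻¹ * ℓ⁻¹ * g₂ * h₂ * ε₂ := by group
    rw [e] at h1 h2
    refine ⟨?_, h1, h2⟩
    have : M.b - 1 = k + 1 + 1 := by omega
    rw [this]
    exact Wd.left hg₂ (X.H.inv_mem hℓ) (Or.inr rfl)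
  have hval : ∀ ℓ ∈ X.H, ∀ x' ∈ X.V, cj (g₂ * h₂ * ε₂)⁻¹ (cj (ℓ * X.y) x') ∉ X.A →
      cj g₂ B.w = B.w := by
    intro ℓ hℓ x' hx' he
    obtain ⟨h1, h2, h3⟩ := hstep ℓ hℓ x' hx' he
    have h4 := B.I2 h2 h3 hh₂ hε₂
    have e : cj g₂ B.w = cj (ℓ * X.y) (cj (X.y⁻¹ * ℓ⁻¹ * g₂) B.w) := by
      unfold cj; group
    rw [e, h4, cj_mul_left, B.hyz, Z.W_cen ℓ hℓ _ B.hW]
  have hw2 := hval X.u X.uH x₁ hx₁ hx₁'
  by_cases hk0 : k = 0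
  · -- length three
    subst hk0
    have h1 := hg₂.one
    rw [B.eps_w h1] at hw2
    exact B.ne hw2.symm
  · -- length at least four
    obtain ⟨k', rfl⟩ := Nat.exists_eq_succ_of_ne_zero hk0
    have hg₂' : Wd X.H X.y (k' + 2) g₂ := hg₂
    obtain ⟨g₃, h₃, ε₃, hg₃, hh₃, hε₃, rfl⟩ := hg₂'.decomp
    have hval2 : ∀ ℓ ∈ X.H, ∀ x' ∈ X.V, cj (g₃ * h₃ * ε₃ * h₂ * ε₂)⁻¹ (cj (ℓ * X.y) x') ∉ X.A →
        cj g₃ B.w = cj ℓ Z.z0 := by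
      intro ℓ hℓ x' hx' he
      obtain ⟨h1, h2, h3⟩ := hstep ℓ hℓ x' hx' he
      have hτ' : cj (X.y⁻¹ * ℓ⁻¹ * (g₃ * h₃ * ε₃) * h₂ * ε₂) (1 : G) = 1 := by simp
      -- the second critical element
      obtain ⟨v₃, hv₃, hv₃'⟩ := M.W2 h2 h3
      rw [inv_inv] at hv₃'
      obtain ⟨x₃, hx₃, hx₃'⟩ := B.slide h2 h3 hh₂ hε₂ hv₃ (M.W1' h2 hv₃) hv₃'
      obtain ⟨h5, h6⟩ := Z.crit_left h1 X.uH hx₃ hb1 hx₃'
      have e : X.y⁻¹ * X.u⁻¹ * (X.y⁻¹ * ℓ⁻¹ * (g₃ * h₃ * ε₃)) =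
          (X.y⁻¹ * X.u⁻¹ * X.y⁻¹ * ℓ⁻¹ * g₃) * h₃ * ε₃ := by group
      rw [e] at h5 h6
      have h7 := B.I2 h5 h6 hh₃ hε₃
      have e2 : cj g₃ B.w = cj ℓ (cj X.y (cj X.u (cj X.y (cj (X.y⁻¹ * X.u⁻¹ * X.y⁻¹ * ℓ⁻¹ * g₃) B.w)))) := by
        unfold cj; group
      rw [e2, h7, B.hyz]
      have h8 : cj X.u B.w = B.w := Z.W_cen _ X.uH _ B.hW
      rw [h8, B.hyw]
    have h1 := hval2 X.u X.uH x₁ hx₁ hx₁'
    have h2 := hval2 (τ * X.u) hτuH x₁ hx₁ hx₂'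
    rw [Z.U_z0] at h1
    rw [cj_mul_left, Z.U_z0, Z.T_z1 hτP hτA, h1] at h2
    exact Z.z2_ne_z1 h2.symm


/-- The case of length two in option B. -/
theorem not_two [Finite G] (hb : M.b = 2) : False := by
  obtain ⟨g, hg, hc⟩ := M.hb
  have hb2 := B.hb2
  obtain ⟨g₁, h, ε, v₂, hg₁, hh, hε, rfl, hv₂, hτA, hτP⟩ := Z.crit_decomp hb2 hg hc
  have hg₁' : Wd X.H X.y 1 g₁ := by
    rw [hb] at hg₁
    exact hg₁
  have hε₂ := hg₁'.one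
  set τ := cj (g₁ * h * ε) v₂ with hτ
  have hττ : τ * τ = 1 := by
    rw [hτ, ← cj_mul, Z.sq hv₂]; simp
  obtain ⟨x'', hx'', hxe⟩ : ∃ x'' ∈ X.V, cj h (cj ε v₂) = cj (h * X.y) x'' := by
    rcases hε with rfl | rfl
    · exact ⟨v₂, hv₂, (cj_mul_left _ _ _).symm⟩
    · refine ⟨cj (X.y⁻¹ * X.y⁻¹) v₂, y2V M.hC hv₂, ?_⟩
      unfold cj; group
  set x₁ := cj h (cj ε v₂) with hx₁
  have hx₁A : x₁ ∈ X.A := by
    rw [hxe]
    exact Z.Vk_A hh hx'' hb2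
  have hτe : τ = cj g₁ x₁ := by
    rw [hτ, hx₁]; unfold cj; group
  have hCl : ∀ k ∈ X.H, ∀ x' ∈ X.V,
      cj (k * X.y) x' * cj τ (cj (k * X.y) x') = cj τ (cj (k * X.y) x') * cj (k * X.y) x' := by
    intro k hk x' hx'
    set a := cj (k * X.y) x' with ha
    have haA : a ∈ X.A := Z.Vk_A hk hx' hb2
    have ha2 : a * a = 1 := Z.Vk_sq hx'
    have hτk : τ * k ∈ X.H := X.H.mul_mem (X.PH hτP) hk
    have K1 := Z.K hτk haA hx'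
    have e1 : cj (τ * k * X.y) x' = cj τ a := by
      rw [ha]; unfold cj; group
    have e2 : cj (τ * k * X.y) Z.z0 = B.w := by
      rw [cj_mul_left, B.hyz, Z.W_cen _ hτk _ B.hW]
    rw [e1, e2] at K1
    have ha'' : cj g₁⁻¹ a ∈ X.P := X.eps_P' hε₂ (X.AP haA)
    have hah : cj g₁⁻¹ a * h ∈ X.H := X.H.mul_mem (X.PH ha'') hh
    have K2 := Z.K hah hx₁A hx''
    have e3 : cj (cj g₁⁻¹ a * h * X.y) x'' = cj (cj g₁⁻¹ a) x₁ := by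
      rw [hxe, cj_mul_left, cj_mul_left, cj_mul_left]
    have e4 : cj (cj g₁⁻¹ a * h * X.y) Z.z0 = B.w := by
      rw [cj_mul_left, B.hyz, Z.W_cen _ hah _ B.hW]
    rw [e3, e4] at K2
    have e5 : cj g₁ (cj x₁ (cj (cj g₁⁻¹ a) x₁)) = cj τ (cj a τ) := by
      rw [hτe]; unfold cj; group
    have e6 : cj g₁ (cj (cj g₁⁻¹ a) x₁) = cj a τ := by
      rw [hτe]; unfold cj; group
    have K3 : cj τ (cj a τ) = cj a τ ∨ cj τ (cj a τ) = cj a τ * Z.z0 := by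
      rcases K2 with h1 | h1
      · left
        have := congrArg (cj g₁) h1
        rwa [e5, e6] at this
      · right
        have := congrArg (cj g₁) h1
        rwa [e5, cj_mul, e6, B.eps_w hε₂] at this
    rcases K1 with h1 | h1
    · exact cj_eq_self.1 h1
    · exfalso
      rcases K3 with h2 | h2
      · have h3 := invol_lemma (ζ := 1) ha2 hττ h1 (by rw [h2, mul_one])
        apply B.hw1
        rw [eq_comm, inv_eq_one] at h3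
        exact h3
      · have h3 := invol_lemma ha2 hττ h1 h2
        rw [Z.vinv B.wV] at h3
        exact B.ne h3.symm
  have hρ : ∀ ρ ∈ X.H, B.x0 * cj (cj ρ τ) B.x0 = cj (cj ρ τ) B.x0 * B.x0 := by
    intro ρ hρH
    have h1 := hCl ρ⁻¹ (X.H.inv_mem hρH) Z.z1 Z.z1V
    have h2 := congrArg (cj ρ) h1
    have e1 : cj ρ (cj (ρ⁻¹ * X.y) Z.z1) = B.x0 := by
      unfold x0 cj; group
    have e2 : cj ρ (cj τ (cj (ρ⁻¹ * X.y) Z.z1)) = cj (cj ρ τ) B.x0 := by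
      unfold x0 cj; group
    rw [cj_mul, cj_mul, e1, e2] at h2
    exact h2
  have hx0A := B.x0A
  have he : ∀ e ∈ X.H, B.x0 * cj e B.x0 = cj e B.x0 * B.x0 := by
    intro e heH
    obtain ⟨ρ, hρH, hp⟩ := X.refl hτP hτA heH
    have e1 : (cj ρ τ)⁻¹ = cj ρ τ := inv_eq_of_mul_eq_one_left (by rw [← cj_mul, hττ]; simp)
    have e2 : cj e B.x0 = cj (cj ρ τ) (cj (cj ρ τ * e) B.x0) := by
      rw [cj_cj, ← mul_assoc]
      have : cj ρ τ * cj ρ τ = 1 := by rw [← cj_mul, hττ]; simp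
      rw [this, one_mul]
    have hρH' : cj ρ τ ∈ X.H := X.H.mul_mem (X.H.mul_mem hρH (X.PH hτP)) (X.H.inv_mem hρH)
    rcases B.P_x0 hp with h1 | h1
    · rw [e2, h1]
      exact hρ ρ hρH
    · rw [e2, h1, cj_mul, Z.W_cen _ hρH' _ B.hW]
      have h3 := hρ ρ hρH
      have h4 := B.x0_comm B.wV
      set Y := cj (cj ρ τ) B.x0
      calc B.x0 * (Y * B.w) = (B.x0 * Y) * B.w := by group
        _ = Y * (B.x0 * B.w) := by rw [h3]; group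
        _ = Y * (B.w * B.x0) := by rw [h4]
        _ = Y * B.w * B.x0 := by group
  have hall : ∀ k₁ ∈ X.H, ∀ k₂ ∈ X.H, cj k₁ B.x0 * cj k₂ B.x0 = cj k₂ B.x0 * cj k₁ B.x0 := by
    intro k₁ h₁ k₂ h₂
    have h3 := he (k₂⁻¹ * k₁) (X.H.mul_mem (X.H.inv_mem h₂) h₁)
    have h4 := congrArg (cj k₂) h3
    have e : cj k₂ (cj (k₂⁻¹ * k₁) B.x0) = cj k₁ B.x0 := by
      unfold cj; group
    rw [cj_mul, cj_mul, e] at h4
    exact h4.symm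
  have hform : ∀ k ∈ X.H, ∀ x' ∈ X.V, ∃ v ∈ X.V, cj (k * X.y) x' = v ∨
      cj (k * X.y) x' = v * cj k B.x0 := by
    intro k hk x' hx'
    rcases Z.V_cases hx' with h1 | h1
    · refine ⟨_, X.V_H hk (X.Z0_le_V (X.Z0_y h1)), Or.inl (cj_mul_left _ _ _)⟩
    · refine ⟨_, X.V_H hk (X.Z0_le_V (X.Z0_y h1)), Or.inr ?_⟩
      have e : x' = (x' * Z.z1) * Z.z1 := by rw [Z.canc' Z.z1V]
      conv_lhs => rw [e]
      rw [cj_mul, cj_mul_left, cj_mul_left]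
      rfl
  have hxkA : ∀ k ∈ X.H, cj k B.x0 ∈ X.A := fun k hk => X.An k hk _ hx0A
  have hall2 : ∀ k₁ ∈ X.H, ∀ k₂ ∈ X.H, ∀ x₁' ∈ X.V, ∀ x₂' ∈ X.V,
      cj (k₁ * X.y) x₁' * cj (k₂ * X.y) x₂' = cj (k₂ * X.y) x₂' * cj (k₁ * X.y) x₁' := by
    intro k₁ h₁ k₂ h₂ x₁' hx₁' x₂' hx₂'
    obtain ⟨v₁, hv₁, e₁⟩ := hform k₁ h₁ x₁' hx₁'
    obtain ⟨v₃, hv₃, e₃⟩ := hform k₂ h₂ x₂' hx₂'
    have c1 : Commute v₁ v₃ := Z.cc hv₁ hv₃
    have c2 : Commute v₁ (cj k₂ B.x0) := (X.V_cen hv₁ (hxkA k₂ h₂)).symm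
    have c3 : Commute (cj k₁ B.x0) v₃ := X.V_cen hv₃ (hxkA k₁ h₁)
    have c4 : Commute (cj k₁ B.x0) (cj k₂ B.x0) := hall k₁ h₁ k₂ h₂
    rcases e₁ with e₁ | e₁ <;> rcases e₃ with e₃ | e₃ <;> rw [e₁, e₃]
    · exact c1
    · exact c1.mul_right c2
    · exact c1.mul_left c3
    · exact (c1.mul_right c2).mul_left (c3.mul_right c4)
  have hpA : cj X.y⁻¹ x₁ ∉ X.A := by
    rcases hε₂ with rfl | rfl
    · intro h1
      exact hτA (by rw [hτe]; exact (X.y_A_iff (X.AP hx₁A)).2 h1)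
    · intro h1
      exact hτA (by rw [hτe]; exact h1)
  obtain ⟨v₃, hv₃, hne⟩ := X.P_not_cen M.hC (X.yP' _ (X.AP hx₁A)) hpA
  apply hne
  have h1 := hall2 h hh 1 X.H.one_mem x'' hx'' v₃ hv₃
  rw [← hxe, one_mul] at h1
  have h2 := congrArg (cj X.y⁻¹) h1
  rw [cj_mul, cj_mul, cj_inv_cj] at h2
  exact cj_eq_self.2 h2

end OB

/-- The conclusion of this part: critical words have length one, and `y` fixes `z0`. -/
theorem outcome [Finite G] (Z : X.Zd M) : M.b = 1 ∧ cj X.y Z.z0 = Z.z0 := by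
  have h1 : 1 ≤ M.b := by
    obtain ⟨g, hg, -⟩ := M.hb
    exact hg.pos
  rcases Z.options with h | ⟨w, h1', h2, h3, h4⟩
  · refine ⟨?_, h⟩
    by_contra hne
    exact Z.not_optA (by omega) h
  · exfalso
    let B : OB Z := ⟨w, h1', h2, h3, h4⟩
    by_cases hb : M.b = 2
    · exact B.not_two hb
    · have := B.hb2
      exact B.not_long (by omega)

end Ctx

end Cfsg.Agent.Lib.TutteDih
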