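import Mathlib
import Cfsg.Agent.Lib.TutteDih3

/-!
# Pushing up with a dihedral quotient: the structure of `A` in the main case.
-/

set_option autoImplicit false
set_option linter.unusedSectionVars false
set_option linter.unusedVariables false

namespace Cfsg.Agent.Lib.TutteDih

variable {G : Type*} [Group G]

namespace Ctx

variable {X : Ctx G} {M : X.Mn}

theorem cj_pow3 (g x : G) : cj (g ^ 3) x = cj g (cj g (cj g x)) := by
  simp only [cj_cj]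
  congr 1
  simp only [pow_succ, pow_zero, one_mul, mul_assoc]

/-- The element `τ`. -/
structure Ta (Z : X.Zd M) where
  τ : G
  τP : τ ∈ X.P
  τA : τ ∉ X.A
  ττ : τ * τ = 1
  τD : ∀ a ∈ X.D, cj τ a = a
  τN : ∀ a ∈ X.A, a ∉ X.D → cj τ a = a * Z.z0
  v₀ : G
  v₀V : v₀ ∈ X.V
  v₀D : v₀ ∉ X.D
  v₀m : ∀ a ∈ X.A, a ∉ X.D → a * v₀⁻¹ ∈ X.D

theorem exists_Ta [Finite G] (Z : X.Zd M) : Nonempty (Ta Z) := by
  obtain ⟨hb1, hy⟩ := outcome Z
  obtain ⟨g, hg, hc⟩ := M.hb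
  have hg1 : Wd X.H X.y 1 g := hb1 ▸ hg
  have hcy : X.Crit X.y⁻¹ := by
    rcases hg1.one with rfl | rfl
    · exact M.W2 hg hc
    · exact hc
  obtain ⟨v₂, hv₂, hv₂'⟩ := hcy
  rw [inv_inv] at hv₂'
  have hτP : cj X.y v₂ ∈ X.P := X.yP _ (X.AP (X.V_le_A M.hC hv₂))
  have hττ : cj X.y v₂ * cj X.y v₂ = 1 := by
    rw [← cj_mul, Z.sq hv₂]; simp
  have hD : ∀ a ∈ X.D, cj (cj X.y v₂) a = a := by
    intro a ha
    have h1 := X.V_cen hv₂ ha.2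
    have h2 := congrArg (cj X.y) h1
    rw [cj_mul, cj_mul, cj_cj_inv] at h2
    exact cj_eq_self.2 h2.symm
  obtain ⟨v₀, hv₀, hm⟩ := Z.Tm _ hτP hv₂'
  have hv₀A := X.V_le_A M.hC hv₀
  have hv₀D : v₀ ∉ X.D := by
    intro h
    rw [hD v₀ h] at hm
    exact Z.z0ne (by simpa using hm.symm)
  have hv₀' : cj X.y⁻¹ v₀ ∉ X.A := fun h => hv₀D ⟨hv₀A, h⟩
  have hdm : ∀ a ∈ X.A, a ∉ X.D → a * v₀⁻¹ ∈ X.D := by
    intro a ha hna
    have ha' : cj X.y⁻¹ a ∉ X.A := fun h => hna ⟨ha, h⟩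
    have h1 := X.idx _ (X.yP' a (X.AP ha)) ha' _ (X.yP' _ (X.AP hv₀A)) hv₀'
    rw [← cj_inv, ← cj_mul] at h1
    exact ⟨X.A.mul_mem ha (X.A.inv_mem hv₀A), h1⟩
  refine ⟨⟨cj X.y v₂, hτP, hv₂', hττ, hD, ?_, v₀, hv₀, hv₀D, hdm⟩⟩
  intro a ha hna
  have h1 := hdm a ha hna
  have e : a = (a * v₀⁻¹) * v₀ := by group
  conv_lhs => rw [e, cj_mul, hD _ h1, hm]
  group

namespace Zd

variable (Z : X.Zd M)

include Z

theorem mt00 : Z.z0 * Z.z0 = 1 := Z.sq Z.z0V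
theorem mt01 : Z.z0 * Z.z1 = Z.z2 := rfl
theorem mt02 : Z.z0 * Z.z2 = Z.z1 := Z.canc Z.z0V _
theorem mt10 : Z.z1 * Z.z0 = Z.z2 := Z.cc Z.z1V Z.z0V
theorem mt11 : Z.z1 * Z.z1 = 1 := Z.sq Z.z1V
theorem mt12 : Z.z1 * Z.z2 = Z.z0 := by
  rw [Z.cc Z.z1V Z.z2V]; exact Z.canc' Z.z1V _
theorem mt20 : Z.z2 * Z.z0 = Z.z1 := by
  rw [Z.cc Z.z2V Z.z0V]; exact Z.canc Z.z0V _
theorem mt21 : Z.z2 * Z.z1 = Z.z0 := Z.canc' Z.z1V _
theorem mt22 : Z.z2 * Z.z2 = 1 := Z.sq Z.z2V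

omit Z in
/-- The four-group inside `V`. -/
def V1 (Z : X.Zd M) : Subgroup G where
  carrier := {c | c = 1 ∨ c = Z.z0 ∨ c = Z.z1 ∨ c = Z.z2}
  mul_mem' := by
    rintro a b (rfl | rfl | rfl | rfl) (rfl | rfl | rfl | rfl) <;>
      simp only [one_mul, mul_one, Set.mem_setOf_eq, Z.mt00, Z.mt01, Z.mt02, Z.mt10, Z.mt11, Z.mt12,
        Z.mt20, Z.mt21, Z.mt22, true_or, or_true]
  one_mem' := Or.inl rfl
  inv_mem' := by
    rintro a (rfl | rfl | rfl | rfl)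
    · simp
    · rw [Set.mem_setOf_eq, Z.vinv Z.z0V]; simp
    · rw [Set.mem_setOf_eq, Z.vinv Z.z1V]; simp
    · rw [Set.mem_setOf_eq, Z.vinv Z.z2V]; simp

theorem mem_V1 {c : G} : c ∈ Z.V1 ↔ c = 1 ∨ c = Z.z0 ∨ c = Z.z1 ∨ c = Z.z2 := Iff.rfl

theorem V1_le_V : Z.V1 ≤ X.V := by
  rintro c (rfl | rfl | rfl | rfl)
  · exact X.V.one_mem
  · exact Z.z0V
  · exact Z.z1V
  · exact Z.z2V

theorem V1_H [Finite G] {h c : G} (hh : h ∈ X.H) (hc : c ∈ Z.V1) : cj h c ∈ Z.V1 := by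
  rcases hc with rfl | hc
  · simp [Subgroup.one_mem]
  · exact Or.inr (Z.orb h hh c hc)

theorem V1_norm [Finite G] {c : G} (hc : c ∈ Z.V1) : c * cj X.u c * cj X.u (cj X.u c) = 1 := by
  rcases hc with rfl | rfl | rfl | rfl
  · simp
  · rw [Z.U_z0, Z.U_z1, Z.mt01, Z.mt22]
  · rw [Z.U_z1, Z.U_z2, Z.mt12, Z.mt00]
  · rw [Z.U_z2, Z.U_z0, Z.mt20, Z.mt11]

theorem V1_fix [Finite G] {c : G} (hc : c ∈ Z.V1) (h : cj X.u c = c) : c = 1 := by
  rcases hc with rfl | rfl | rfl | rfl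
  · rfl
  · exact absurd h Z.z1_ne_z0
  · rw [Z.U_z1] at h; exact absurd h Z.z2_ne_z1
  · rw [Z.U_z2] at h; exact absurd h.symm Z.z2_ne_z0

/-- `3` divides the order of `u`. -/
theorem three_dvd [Finite G] : 3 ∣ X.N := by
  by_contra h
  have hc : Nat.Coprime 3 X.N := (Nat.Prime.coprime_iff_not_dvd Nat.prime_three).2 h
  have h1 : cj (X.u ^ 3) Z.z0 = Z.z0 := by
    rw [cj_pow3]
    exact Z.U3 Z.z0V
  exact Z.z1_ne_z0 (fix_coprime X.uN hc h1)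

end Zd

/-- The elements of `A` fixed by `u`. -/
def C (X : Ctx G) : Subgroup G where
  carrier := {c | c ∈ X.A ∧ cj X.u c = c}
  mul_mem' := by
    rintro a b ⟨h1, h2⟩ ⟨h3, h4⟩
    exact ⟨X.A.mul_mem h1 h3, by rw [cj_mul, h2, h4]⟩
  one_mem' := ⟨X.A.one_mem, by simp⟩
  inv_mem' := by
    rintro a ⟨h1, h2⟩
    exact ⟨X.A.inv_mem h1, by rw [cj_inv, h2]⟩

theorem mem_C {c : G} : c ∈ X.C ↔ c ∈ X.A ∧ cj X.u c = c := Iff.rfl

namespace Ta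

variable {Z : X.Zd M} (T : Ta Z)

include T

theorem act_rho {ρ a : G} (hρ : ρ ∈ X.H) (ha : a ∈ X.A) :
    cj (cj ρ T.τ) a = a ∨ cj (cj ρ T.τ) a = a * cj ρ Z.z0 := by
  have e : cj (cj ρ T.τ) a = cj ρ (cj T.τ (cj ρ⁻¹ a)) := by
    unfold cj; group
  have h1 := X.An' hρ ha
  by_cases h2 : cj ρ⁻¹ a ∈ X.D
  · left
    rw [e, T.τD _ h2]; simp
  · right
    rw [e, T.τN _ h1 h2, cj_mul]; simp

theorem sq_D [Finite G] : ∀ d ∈ X.D, d * d = 1 := by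
  have hDA : X.D ≤ X.A := fun d hd => hd.1
  have hinv : ∀ h ∈ X.H, ∀ d ∈ X.D, ∃ d' ∈ X.D, cj h (d * d) = d' * d' := by
    refine X.H_ind2 T.τP T.τA ?_ ?_ ?_
    · intro a ha d hd
      exact ⟨cj a d, X.D_P hd (X.AP ha), cj_mul _ _ _⟩
    · intro ρ hρ d hd
      refine ⟨d, hd, ?_⟩
      rw [cj_mul]
      rcases T.act_rho hρ hd.1 with h | h
      · rw [h]
      · rw [h]
        have hc := X.V_H hρ Z.z0V
        have h1 : d * cj ρ Z.z0 = cj ρ Z.z0 * d := X.V_cen hc hd.1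
        calc d * cj ρ Z.z0 * (d * cj ρ Z.z0) = d * (cj ρ Z.z0 * d) * cj ρ Z.z0 := by group
          _ = d * (d * cj ρ Z.z0) * cj ρ Z.z0 := by rw [h1]
          _ = d * d * (cj ρ Z.z0 * cj ρ Z.z0) := by group
          _ = d * d := by rw [Z.sq hc, mul_one]
    · intro a b ha hb d hd
      obtain ⟨d₁, hd₁, e₁⟩ := hb d hd
      obtain ⟨d₂, hd₂, e₂⟩ := ha d₁ hd₁
      exact ⟨d₂, hd₂, by rw [cj_mul_left, e₁, e₂]⟩
  let Q : Subgroup G := Subgroup.closure {x | ∃ d ∈ X.D, x = d * d}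
  have hQ := X.hQ Q ?_ ?_ ?_
  · intro d hd
    have : d * d ∈ Q := Subgroup.subset_closure ⟨d, hd, rfl⟩
    rw [hQ, Subgroup.mem_bot] at this
    exact this
  · refine (Subgroup.closure_le _).2 ?_
    rintro x ⟨d, hd, rfl⟩
    exact X.AP (X.A.mul_mem hd.1 hd.1)
  · intro h hh x hx
    refine cj_closure ?_ x hx
    rintro x ⟨d, hd, rfl⟩
    obtain ⟨d', hd', e⟩ := hinv h hh d hd
    rw [e]
    exact Subgroup.subset_closure ⟨d', hd', rfl⟩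
  · intro x hx
    refine cj_closure ?_ x hx
    rintro x ⟨d, hd, rfl⟩
    rw [cj_mul]
    exact Subgroup.subset_closure ⟨_, X.D_y hd, rfl⟩

theorem sq_A [Finite G] {a : G} (ha : a ∈ X.A) : a * a = 1 := by
  by_cases h : a ∈ X.D
  · exact T.sq_D a h
  · have h1 := T.v₀m a ha h
    have h2 := T.sq_D _ h1
    have h3 := X.V_cen T.v₀V ha
    have h4 := Z.sq T.v₀V
    have h5 : T.v₀⁻¹ = T.v₀ := Z.vinv T.v₀V
    rw [h5] at h2
    calc a * a = a * a * (T.v₀ * T.v₀) := by rw [h4, mul_one]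
      _ = a * (a * T.v₀) * T.v₀ := by group
      _ = a * (T.v₀ * a) * T.v₀ := by rw [h3]
      _ = a * T.v₀ * (a * T.v₀) := by group
      _ = 1 := h2

theorem A_comm [Finite G] {a b : G} (ha : a ∈ X.A) (hb : b ∈ X.A) : a * b = b * a := by
  have h1 := T.sq_A (X.A.mul_mem ha hb)
  have h2 := T.sq_A ha
  have h3 := T.sq_A hb
  have hai : a⁻¹ = a := inv_eq_of_mul_eq_one_left h2
  have hbi : b⁻¹ = b := inv_eq_of_mul_eq_one_left h3
  have h4 : a * b = (a * b)⁻¹ := eq_inv_of_mul_eq_one_left h1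
  rw [mul_inv_rev, hai, hbi] at h4
  exact h4

theorem act_A [Finite G] {a b : G} (ha : a ∈ X.A) (hb : b ∈ X.A) : cj a b = b :=
  cj_eq_self.2 (T.A_comm ha hb)

/-- `H` acts on `A` through `V1`. -/
theorem R2 [Finite G] : ∀ h ∈ X.H, ∀ a ∈ X.A, ∃ c ∈ Z.V1, cj h a = a * c := by
  have key : ∀ h ∈ X.H, h ∈ X.H ∧ ∀ a ∈ X.A, ∃ c ∈ Z.V1, cj h a = a * c := by
    refine X.H_ind2 T.τP T.τA ?_ ?_ ?_
    · intro q hq
      refine ⟨X.AH hq, fun a ha => ⟨1, Z.V1.one_mem, by rw [T.act_A hq ha, mul_one]⟩⟩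
    · intro ρ hρ
      refine ⟨X.H.mul_mem (X.H.mul_mem hρ (X.PH T.τP)) (X.H.inv_mem hρ), fun a ha => ?_⟩
      rcases T.act_rho hρ ha with h | h
      · exact ⟨1, Z.V1.one_mem, by rw [h, mul_one]⟩
      · exact ⟨_, Z.V1_H hρ (Or.inr (Or.inl rfl)), h⟩
    · rintro p q ⟨hpH, hp⟩ ⟨hqH, hq⟩
      refine ⟨X.H.mul_mem hpH hqH, fun a ha => ?_⟩
      obtain ⟨c₁, hc₁, e₁⟩ := hq a ha
      obtain ⟨c₂, hc₂, e₂⟩ := hp a ha
      refine ⟨c₂ * cj p c₁, Z.V1.mul_mem hc₂ (Z.V1_H hpH hc₁), ?_⟩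
      rw [cj_mul_left, e₁, cj_mul, e₂, mul_assoc]
  exact fun h hh => (key h hh).2

/-- `u³` centralizes `A`. -/
theorem U3A [Finite G] {a : G} (ha : a ∈ X.A) : cj X.u (cj X.u (cj X.u a)) = a := by
  obtain ⟨c, hc, e⟩ := T.R2 X.u X.uH a ha
  have h1 : cj X.u (cj X.u a) = a * c * cj X.u c := by rw [e, cj_mul, e]
  rw [h1, cj_mul, cj_mul, e, mul_assoc (a * c), mul_assoc a, ← mul_assoc c, Z.V1_norm hc, mul_one]

theorem U3A' [Finite G] {a : G} (ha : a ∈ X.A) : cj X.u⁻¹ a = cj X.u (cj X.u a) := by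
  conv_lhs => rw [← T.U3A ha]
  simp

theorem U3A'' [Finite G] {a : G} (ha : a ∈ X.A) : cj X.u⁻¹ (cj X.u⁻¹ a) = cj X.u a := by
  rw [T.U3A' ha, T.U3A' (X.An _ X.uH _ (X.An _ X.uH _ ha))]
  rw [T.U3A (X.An _ X.uH _ ha)]

/-- Decomposition of `A`. -/
theorem decomp [Finite G] {a : G} (ha : a ∈ X.A) : ∃ c ∈ X.C, ∃ δ ∈ Z.V1, a = c * δ := by
  obtain ⟨c, hc, e⟩ := T.R2 X.u X.uH a ha
  have hUa := X.An _ X.uH _ ha
  have hUUa := X.An _ X.uH _ hUa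
  refine ⟨a * cj X.u a * cj X.u (cj X.u a), ⟨X.A.mul_mem (X.A.mul_mem ha hUa) hUUa, ?_⟩,
    cj X.u c, Z.V1_H X.uH hc, ?_⟩
  · rw [cj_mul, cj_mul, T.U3A ha]
    rw [T.A_comm (X.A.mul_mem hUa hUUa) ha, ← mul_assoc]
  · have h1 : cj X.u (cj X.u a) = a * c * cj X.u c := by rw [e, cj_mul, e]
    have hcV := Z.V1_le_V hc
    have hcc := Z.sq hcV
    have h2 := T.sq_A ha
    have hca : a * c = c * a := (X.V_cen hcV ha)
    rw [h1, e]
    have hd := Z.sq (X.V_H X.uH hcV)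
    set d := cj X.u c with hdd
    calc a = a * a * a * (c * c) := by rw [h2, hcc]; simp
      _ = a * a * (a * c) * c := by group
      _ = a * a * (c * a) * c := by rw [hca]
      _ = a * a * c * a * c * (d * d) := by rw [hd]; group
      _ = a * (a * c) * (a * c * d) * d := by group

theorem C_V1 [Finite G] {c : G} (hc : c ∈ X.C) (hv : c ∈ Z.V1) : c = 1 := Z.V1_fix hv hc.2

/-- `τ` centralizes `C`. -/
theorem τC [Finite G] {c : G} (hc : c ∈ X.C) : cj T.τ c = c := by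
  by_cases hD : c ∈ X.D
  · exact T.τD c hD
  · exfalso
    have h1 := T.τN c hc.1 hD
    have hu' : cj X.u⁻¹ c = c := by
      conv_lhs => rw [← hc.2]
      simp
    have h2 : cj (cj X.u T.τ) c = c * Z.z1 := by
      have e : cj (cj X.u T.τ) c = cj X.u (cj T.τ (cj X.u⁻¹ c)) := by
        unfold cj; group
      rw [e, hu', h1, cj_mul, hc.2]
      rfl
    have h3 : cj T.τ (cj (cj X.u T.τ) c) = c * Z.z1 := by
      rw [h2, cj_mul, h1, Z.T_z1 T.τP T.τA, mul_assoc, Z.mt02]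
    -- the product acts trivially
    have hτi : T.τ⁻¹ = T.τ := inv_eq_of_mul_eq_one_left T.ττ
    have hβ := X.rel_of T.τP T.τA
    have e : cj T.τ (cj (cj X.u T.τ) c) =
        cj (cj T.τ X.u * X.u) (cj X.u⁻¹ (cj X.u⁻¹ c)) := by
      have e1 : cj T.τ (cj (cj X.u T.τ) c) = cj (T.τ * (X.u * T.τ * X.u⁻¹)) c := by
        rw [cj_cj]
        unfold cj
        simp only [mul_inv_rev, inv_inv, hτi]
      have e2 : T.τ * (X.u * T.τ * X.u⁻¹) = (cj T.τ X.u * X.u) * (X.u⁻¹ * X.u⁻¹) := by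
        unfold cj
        rw [hτi]
        group
      rw [e1, e2, cj_mul_left (cj T.τ X.u * X.u), cj_mul_left X.u⁻¹]
    rw [h3, hu', hu', T.act_A hβ hc.1] at e
    apply Z.z1_ne_one
    simpa using e

/-- `C` is fixed by `H`. -/
theorem C_H [Finite G] : ∀ h ∈ X.H, ∀ c ∈ X.C, cj h c = c := by
  have ht : ∀ c ∈ X.C, cj X.t c = c := by
    intro c hc
    have h1 := X.idx X.t X.tP X.tA T.τ T.τP T.τA
    have e : X.t = (X.t * T.τ⁻¹) * T.τ := by group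
    rw [e, cj_mul_left, T.τC hc, T.act_A h1 hc.1]
  refine X.H_ind ?_ ht (fun c hc => hc.2) ?_
  · intro a ha c hc
    exact T.act_A ha hc.1
  · intro a b ha hb c hc
    rw [cj_mul_left, hb c hc, ha c hc]

theorem C_D [Finite G] {c : G} (hc : c ∈ X.C) : c ∈ X.D := by
  by_contra hD
  have h1 := T.τN c hc.1 hD
  rw [T.τC hc] at h1
  exact Z.z0ne (by simpa using h1.symm)

theorem D_cases [Finite G] {d : G} (hd : d ∈ X.D) : d ∈ X.C ∨ d * Z.z0 ∈ X.C := by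
  obtain ⟨c, hc, δ, hδ, rfl⟩ := T.decomp hd.1
  have h1 := T.τD _ hd
  rw [cj_mul, T.τC hc] at h1
  have h2 : cj T.τ δ = δ := mul_left_cancel h1
  rcases hδ with rfl | rfl | rfl | rfl
  · left; simpa using hc
  · right; rw [mul_assoc, Z.mt00, mul_one]; exact hc
  · rw [Z.T_z1 T.τP T.τA] at h2; exact absurd h2 Z.z2_ne_z1
  · rw [Z.T_z2 T.τP T.τA] at h2; exact absurd h2.symm Z.z2_ne_z1

/-- `C` has at most two elements. -/
theorem C_two [Finite G] {c₁ c₂ : G} (h₁ : c₁ ∈ X.C) (h₂ : c₂ ∈ X.C) (n₁ : c₁ ≠ 1) (n₂ : c₂ ≠ 1) :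
    c₁ = c₂ := by
  let Q : Subgroup G :=
    { carrier := {x | x ∈ X.C ∧ cj X.y x ∈ X.C}
      mul_mem' := by
        rintro a b ⟨h1, h2⟩ ⟨h3, h4⟩
        exact ⟨X.C.mul_mem h1 h3, by rw [cj_mul]; exact X.C.mul_mem h2 h4⟩
      one_mem' := ⟨X.C.one_mem, by simp [X.C.one_mem]⟩
      inv_mem' := by
        rintro a ⟨h1, h2⟩
        exact ⟨X.C.inv_mem h1, by rw [cj_inv]; exact X.C.inv_mem h2⟩ }
  have hQ := X.hQ Q (fun x hx => X.AP hx.1.1) ?_ ?_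
  · have hnot : ∀ c ∈ X.C, c ≠ 1 → cj X.y c * Z.z0 ∈ X.C := by
      intro c hc hne
      rcases T.D_cases (X.D_y (T.C_D hc)) with h | h
      · exfalso
        have : c ∈ Q := ⟨hc, h⟩
        rw [hQ, Subgroup.mem_bot] at this
        exact hne this
      · exact h
    have h1 := X.C.mul_mem (hnot c₁ h₁ n₁) (hnot c₂ h₂ n₂)
    have hyc₂ : cj X.y c₂ ∈ X.A := (X.D_y (T.C_D h₂)).1
    have e : cj X.y c₁ * Z.z0 * (cj X.y c₂ * Z.z0) = cj X.y (c₁ * c₂) := by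
      rw [cj_mul, mul_assoc, ← mul_assoc Z.z0, (X.V_cen Z.z0V hyc₂).symm, mul_assoc, Z.mt00, mul_one]
    rw [e] at h1
    have h2 : c₁ * c₂ ∈ Q := ⟨X.C.mul_mem h₁ h₂, h1⟩
    rw [hQ, Subgroup.mem_bot] at h2
    have h4 : c₁ = c₂⁻¹ := eq_inv_of_mul_eq_one_left h2
    rw [h4]
    exact inv_eq_of_mul_eq_one_left (T.sq_A h₂.1)
  · intro h hh x hx
    have e := T.C_H h hh x hx.1
    rw [e]
    exact hx
  · intro x hx
    refine ⟨hx.2, ?_⟩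
    have h1 : cj X.y (cj X.y x) = x := by
      rw [X.y2 x (X.AP hx.1.1), T.C_H _ (X.PH X.p0P) x hx.1]
    rw [h1]
    exact hx.1

theorem C_fix_pow {c : G} (hc : c ∈ X.C) (k : ℕ) : cj (X.u ^ k) c = c := Zd.fix_pow hc.2 k

/-- The relation between `τ` and `u`: the element `cj τ u * u` lies in `V1`,
and `τ` inverts `u ^ 3`. -/
theorem rel_V1 [Finite G] : cj T.τ X.u * X.u ∈ Z.V1 ∧ cj T.τ (X.u ^ 3) = (X.u ^ 3)⁻¹ := by
  have hβ := X.rel_of T.τP T.τA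
  set β := cj T.τ X.u * X.u with hβd
  obtain ⟨c, hc, δ, hδ, e⟩ := T.decomp hβ
  set γ := cj T.τ X.u with hγ
  have hγe : γ = β * X.u⁻¹ := by rw [hβd]; group
  have hδV := Z.V1_le_V hδ
  have hUδ := X.V_H X.uH hδV
  have hUUδ := X.V_H X.uH hUδ
  have e1 : γ ^ 3 = β * cj X.u⁻¹ β * cj X.u⁻¹ (cj X.u⁻¹ β) * (X.u ^ 3)⁻¹ := by
    rw [hγe]
    simp only [pow_succ, pow_zero, one_mul]
    unfold cj
    group
  have e2 : β * cj X.u⁻¹ β * cj X.u⁻¹ (cj X.u⁻¹ β) = c := by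
    rw [T.U3A'' hβ, T.U3A' hβ, e, cj_mul, cj_mul, T.C_H _ X.uH c hc, T.C_H _ X.uH c hc]
    have h1 := Z.V1_norm hδ
    have hcA := hc.1
    have c1 : δ * c = c * δ := (X.V_cen hδV hcA).symm
    have c4 : δ * cj X.u (cj X.u δ) * c = c * (δ * cj X.u (cj X.u δ)) :=
      (X.V_cen (X.V.mul_mem hδV hUUδ) hcA).symm
    have hcc := T.sq_A hcA
    set b := cj X.u (cj X.u δ) with hb
    set d := cj X.u δ with hd
    calc c * δ * (c * b) * (c * d) = c * (δ * c) * b * (c * d) := by group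
      _ = c * (c * δ) * b * (c * d) := by rw [c1]
      _ = c * c * ((δ * b) * c) * d := by group
      _ = c * c * (c * (δ * b)) * d := by rw [c4]
      _ = c * c * c * (δ * (b * d)) := by group
      _ = c * c * c * (δ * (d * b)) := by rw [Z.cc hUUδ hUδ]
      _ = c * c * c * (δ * d * b) := by group
      _ = c := by rw [h1, hcc]; simp
  rw [e2] at e1
  obtain ⟨k, hk⟩ := Z.three_dvd
  have hkodd : Odd k := by
    have := X.Nodd
    rw [hk] at this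
    exact (Nat.odd_mul.1 this).2
  have hcomm : Commute c (X.u ^ 3)⁻¹ := by
    have h1 := T.C_fix_pow hc 3
    have h2 : X.u ^ 3 * c = c * X.u ^ 3 := cj_eq_self.1 h1
    exact (show Commute c (X.u ^ 3) from h2.symm).inv_right
  have hγN : γ ^ X.N = 1 := by
    rw [hγ]
    unfold cj
    rw [conj_pow, X.uN]
    simp
  have h3 : c ^ k = 1 := by
    rw [hk, pow_mul, e1, hcomm.mul_pow, inv_pow, ← pow_mul, ← hk, X.uN] at hγN
    simpa using hγN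
  have hc1 : c = 1 := by
    obtain ⟨l, hl⟩ := hkodd
    rw [hl, pow_succ, pow_mul, pow_two, T.sq_A hc.1, one_pow, one_mul] at h3
    exact h3
  constructor
  · rw [e, hc1, one_mul]
    exact hδ
  · have h4 : cj T.τ (X.u ^ 3) = γ ^ 3 := by
      rw [hγ]
      unfold cj
      rw [conj_pow]
    rw [h4, e1, hc1, one_mul]

end Ta

end Ctx

end Cfsg.Agent.Lib.TutteDih
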