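import Mathlib
import Cfsg.Prelude.Def_CaseTheorems
import Cfsg.Agent.Lib.PCore
import Cfsg.Agent.Lib.TutteDih4

/-!
# Pushing up with a dihedral quotient: the case where `P` centralizes `A` modulo `A`.
-/

set_option autoImplicit false
set_option linter.unusedSectionVars false
set_option linter.unusedVariables false

open Cfsg Cfsg.Agent.Lib.PCore

namespace Cfsg.Agent.Lib.TutteDih

variable {G : Type*} [Group G]

namespace Ctx

variable (X : Ctx G)

/-- The structure in the case where some element of `P` outside `A` centralizes `A`. -/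
theorem caseI [Finite G] (hnC : ¬ X.CC) : (∀ a₁ ∈ X.A, ∀ a₂ ∈ X.A, a₁ ≠ 1 → a₂ ≠ 1 → a₁ = a₂) ∧
    (∀ x ∈ X.P, x * x = 1) ∧ (∀ p ∈ X.P, ∀ q ∈ X.P, p * q = q * p) ∧
    (∀ h ∈ X.H, ∀ a ∈ X.A, cj h a = a) := by
  unfold CC at hnC
  push Not at hnC
  obtain ⟨τ, hτ, hτA, hτc⟩ := hnC
  have hfix : ∀ h ∈ X.H, ∀ z ∈ X.A, (∀ a ∈ X.A, a * z = z * a) → cj h z = z := by
    have key : ∀ h ∈ X.H, ∀ z ∈ X.A, (∀ a ∈ X.A, a * z = z * a) → cj h z = z := by
      refine X.H_ind2 hτ hτA ?_ ?_ ?_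
      · intro a ha z hz h2
        exact cj_eq_self.2 (h2 a ha)
      · intro ρ hρ z hz h2
        have e : cj (cj ρ τ) z = cj ρ (cj τ (cj ρ⁻¹ z)) := by
          unfold cj; group
        rw [e, cj_eq_self.2 (hτc _ (X.An' hρ hz))]
        simp
      · intro a b ha hb z hz h2
        rw [cj_mul_left, hb z hz h2, ha z hz h2]
    exact key
  -- a central involution outside `A`
  obtain ⟨z, hz, hzA⟩ : ∃ z ∈ X.Z0, z ∉ X.A := by
    by_contra hno
    push Not at hno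
    apply X.Z0_ne
    apply X.hQ X.Z0 (fun z hz => hz.1)
    · intro h hh x hx
      rw [hfix h hh x (hno x hx) (fun a ha => hx.2.1 a (X.AP ha))]
      exact hx
    · intro x hx
      exact X.Z0_y hx
  have hzP := hz.1
  have hzc := hz.2.1
  have hform : ∀ p ∈ X.P, ∃ a ∈ X.A, p = a ∨ p = a * z := by
    intro p hp
    by_cases h : p ∈ X.A
    · exact ⟨p, h, Or.inl rfl⟩
    · exact ⟨p * z⁻¹, X.idx p hp h z hzP hzA, Or.inr (by group)⟩
  have hcomm : ∀ p ∈ X.P, ∀ q ∈ X.P, ∃ a ∈ X.A, ∃ b ∈ X.A, p * q * p⁻¹ * q⁻¹ = a * b * a⁻¹ * b⁻¹ := by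
    intro p hp q hq
    obtain ⟨a, ha, e₁⟩ := hform p hp
    obtain ⟨b, hb, e₂⟩ := hform q hq
    refine ⟨a, ha, b, hb, ?_⟩
    have c1 : Commute z b := (hzc b (X.AP hb)).symm
    have c2 : Commute z a := (hzc a (X.AP ha)).symm
    rcases e₁ with rfl | rfl <;> rcases e₂ with rfl | rfl
    · rfl
    · have : p * (b * z) * p⁻¹ * (b * z)⁻¹ = p * b * z * p⁻¹ * z⁻¹ * b⁻¹ := by group
      rw [this]
      have c3 : z * p⁻¹ = p⁻¹ * z := (c2.inv_right).eq
      rw [mul_assoc (p * b) z, c3]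
      group
    · have : (a * z) * q * (a * z)⁻¹ * q⁻¹ = a * (z * q) * z⁻¹ * a⁻¹ * q⁻¹ := by group
      rw [this, c1.eq]
      group
    · have c3 : z * a⁻¹ = a⁻¹ * z := (c2.inv_right).eq
      have c4 : z * b⁻¹ = b⁻¹ * z := (c1.inv_right).eq
      have : (a * z) * (b * z) * (a * z)⁻¹ * (b * z)⁻¹ =
          a * (z * b) * z * z⁻¹ * a⁻¹ * z⁻¹ * b⁻¹ := by group
      rw [this, c1.eq]
      have : a * (b * z) * z * z⁻¹ * a⁻¹ * z⁻¹ * b⁻¹ = a * b * (z * a⁻¹) * z⁻¹ * b⁻¹ := by group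
      rw [this, c3]
      group
  let Q : Subgroup G := Subgroup.closure {x | ∃ p ∈ X.P, ∃ q ∈ X.P, x = p * q * p⁻¹ * q⁻¹}
  have hPc : ∀ p ∈ X.P, ∀ q ∈ X.P, p * q = q * p := by
    have hQ := X.hQ Q ?_ ?_ ?_
    · intro p hp q hq
      have : p * q * p⁻¹ * q⁻¹ ∈ Q := Subgroup.subset_closure ⟨p, hp, q, hq, rfl⟩
      rw [hQ, Subgroup.mem_bot] at this
      have h2 : p * q * p⁻¹ = q := by
        have := mul_inv_eq_one.1 this
        exact this
      rw [← h2]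
      simp only [mul_inv_cancel_right, h2]
      rw [mul_inv_eq_iff_eq_mul] at h2
      exact h2
    · refine (Subgroup.closure_le _).2 ?_
      rintro x ⟨p, hp, q, hq, rfl⟩
      exact X.P.mul_mem (X.P.mul_mem (X.P.mul_mem hp hq) (X.P.inv_mem hp)) (X.P.inv_mem hq)
    · intro h hh x hx
      refine cj_closure ?_ x hx
      rintro x ⟨p, hp, q, hq, rfl⟩
      obtain ⟨a, ha, b, hb, e⟩ := hcomm p hp q hq
      rw [e]
      refine Subgroup.subset_closure ⟨cj h a, X.AP (X.An h hh a ha), cj h b, X.AP (X.An h hh b hb), ?_⟩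
      unfold cj; group
    · intro x hx
      refine cj_closure ?_ x hx
      rintro x ⟨p, hp, q, hq, rfl⟩
      refine Subgroup.subset_closure ⟨cj X.y p, X.yP p hp, cj X.y q, X.yP q hq, ?_⟩
      unfold cj; group
  have hAfix : ∀ h ∈ X.H, ∀ a ∈ X.A, cj h a = a := by
    intro h hh a ha
    exact hfix h hh a ha (fun b hb => hPc b (X.AP hb) a (X.AP ha))
  let Q₂ : Subgroup G := Subgroup.closure {x | ∃ p ∈ X.P, x = p * p}
  have hsq : ∀ x ∈ X.P, x * x = 1 := by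
    have hQ := X.hQ Q₂ ?_ ?_ ?_
    · intro p hp
      have : p * p ∈ Q₂ := Subgroup.subset_closure ⟨p, hp, rfl⟩
      rw [hQ, Subgroup.mem_bot] at this
      exact this
    · refine (Subgroup.closure_le _).2 ?_
      rintro x ⟨p, hp, rfl⟩
      exact X.P.mul_mem hp hp
    · intro h hh x hx
      refine cj_closure ?_ x hx
      rintro x ⟨p, hp, rfl⟩
      rw [hAfix h hh _ (X.sq_mem hp)]
      exact Subgroup.subset_closure ⟨p, hp, rfl⟩
    · intro x hx
      refine cj_closure ?_ x hx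
      rintro x ⟨p, hp, rfl⟩
      rw [cj_mul]
      exact Subgroup.subset_closure ⟨_, X.yP p hp, rfl⟩
  have hD := X.hQ X.D (fun d hd => X.AP hd.1) (fun h hh d hd => by
    rw [hAfix h hh d hd.1]; exact hd) (fun d hd => X.D_y hd)
  refine ⟨?_, hsq, hPc, hAfix⟩
  intro a₁ h₁ a₂ h₂ n₁ n₂
  have hnot : ∀ a ∈ X.A, a ≠ 1 → cj X.y⁻¹ a ∉ X.A := by
    intro a ha hne h
    have : a ∈ X.D := ⟨ha, h⟩
    rw [hD, Subgroup.mem_bot] at this
    exact hne this
  have h3 := X.mul_mem_of_not (X.yP' a₁ (X.AP h₁)) (hnot a₁ h₁ n₁) (X.yP' a₂ (X.AP h₂)) (hnot a₂ h₂ n₂)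
  rw [← cj_mul] at h3
  have h4 : a₁ * a₂ ∈ X.D := ⟨X.A.mul_mem h₁ h₂, h3⟩
  rw [hD, Subgroup.mem_bot] at h4
  have h5 : a₁ = a₂⁻¹ := eq_inv_of_mul_eq_one_left h4
  rw [h5]
  exact inv_eq_of_mul_eq_one_left (hsq a₂ (X.AP h₂))


/-! ### The odd core -/

/-- An element of the odd core lying in `P` is trivial. -/
theorem O_two [Finite G] {x : X.H} (hx : x ∈ oddCore X.H) (hxP : (x : G) ∈ X.P) : x = 1 := by
  have h1 : orderOf x ∣ Nat.card (oddCore X.H) := Subgroup.orderOf_dvd_natCard _ hx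
  have h2 : (Nat.card (oddCore X.H)).Coprime 2 := card_pPrimeCore_coprime 2
  obtain ⟨k, hk⟩ := X.P2 ⟨(x : G), hxP⟩
  have h3 : (x : G) ^ (2 ^ k) = 1 := by
    have := congrArg Subtype.val hk
    simpa using this
  have h4 : x ^ (2 ^ k) = 1 := Subtype.ext (by simpa using h3)
  have h5 : orderOf x ∣ 2 ^ k := orderOf_dvd_of_pow_eq_one h4
  have h6 : Nat.Coprime (orderOf x) 2 := Nat.Coprime.coprime_dvd_left h1 h2
  have h7 : orderOf x = 1 := by
    have h8 : Nat.Coprime (orderOf x) (2 ^ k) := Nat.Coprime.pow_right k h6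
    exact Nat.Coprime.eq_one_of_dvd h8 h5
  exact orderOf_eq_one_iff.1 h7

/-- The odd core centralizes `A`. -/
theorem O_cen [Finite G] {x : X.H} (hx : x ∈ oddCore X.H) {a : G} (ha : a ∈ X.A) :
    (x : G) * a = a * (x : G) := by
  have hn : (oddCore X.H).Normal := by
    unfold oddCore
    exact pPrimeCore_normal 2 X.H
  let a' : X.H := ⟨a, X.AH ha⟩
  have h1 : x * (a' * x⁻¹ * a'⁻¹) ∈ oddCore X.H :=
    (oddCore X.H).mul_mem hx (hn.conj_mem _ ((oddCore X.H).inv_mem hx) a')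
  have h2 : ((x * (a' * x⁻¹ * a'⁻¹) : X.H) : G) ∈ X.A := by
    have e : ((x * (a' * x⁻¹ * a'⁻¹) : X.H) : G) = cj (x : G) a * a⁻¹ := by
      show (x : G) * (a * (x : G)⁻¹ * a⁻¹) = _
      unfold cj; group
    rw [e]
    exact X.A.mul_mem (X.An _ x.2 _ ha) (X.A.inv_mem ha)
  have h3 := X.O_two h1 (X.AP h2)
  have h4 := congrArg Subtype.val h3
  have h5 : (x : G) * (a * (x : G)⁻¹ * a⁻¹) = 1 := h4
  have h6 : (x : G) * a * (x : G)⁻¹ * a⁻¹ = 1 := by rw [← h5]; group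
  have h7 := mul_inv_eq_one.1 h6
  rw [mul_inv_eq_iff_eq_mul] at h7
  exact h7

/-- The subgroup generated by an odd order element normalized by `H` lies in the odd core. -/
theorem zpowers_le_O [Finite G] {w : G} (hw : w ∈ X.H) (hw2 : Odd (orderOf w))
    (hn : ∀ h ∈ X.H, cj h w ∈ Subgroup.zpowers w) :
    Subgroup.zpowers (⟨w, hw⟩ : X.H) ≤ oddCore X.H := by
  apply le_pPrimeCore
  · refine ⟨?_⟩
    intro x hx g
    obtain ⟨j, rfl⟩ := Subgroup.mem_zpowers_iff.1 hx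
    obtain ⟨i, hi⟩ := Subgroup.mem_zpowers_iff.1 (hn g g.2)
    rw [← conj_zpow]
    have : g * (⟨w, hw⟩ : X.H) * g⁻¹ = (⟨w, hw⟩ : X.H) ^ i := by
      apply Subtype.ext
      simp only [Subgroup.coe_mul, Subgroup.coe_inv, Subgroup.coe_zpow]
      rw [hi]
      rfl
    rw [this, ← zpow_mul]
    exact Subgroup.zpow_mem_zpowers _ _
  · rw [Nat.card_zpowers]
    have : orderOf (⟨w, hw⟩ : X.H) = orderOf w := Subgroup.orderOf_mk w hw
    rw [this]
    exact (Nat.coprime_two_right).2 hw2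


/-- The conclusion in the case where some element of `P` outside `A` centralizes `A`. -/
theorem finish_I [Finite G] (hnC : ¬ X.CC) (hPcard : Nat.card X.P = 2 * Nat.card X.A) :
    Nat.card X.P = 4 ∧
    Nonempty (↥X.H ⧸ oddCore ↥X.H ≃* Multiplicative (ZMod 2) × Multiplicative (ZMod 2)) := by
  obtain ⟨h1, h2, h3, h4⟩ := X.caseI hnC
  have hA2 : Nat.card X.A = 2 := by
    obtain ⟨a, ha, hne⟩ : ∃ a ∈ X.A, a ≠ 1 := by
      by_contra hh
      push Not at hh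
      exact X.A_ne ((Subgroup.eq_bot_iff_forall _).2 hh)
    rw [Nat.card_eq_two_iff' (1 : X.A)]
    refine ⟨⟨a, ha⟩, fun h => hne (congrArg Subtype.val h), ?_⟩
    rintro ⟨b, hb⟩ hb1
    apply Subtype.ext
    exact h1 b hb a ha (fun h => hb1 (Subtype.ext h)) hne
  have hP4 : Nat.card X.P = 4 := by rw [hPcard, hA2]
  refine ⟨hP4, ?_⟩
  -- `t` inverts `u`
  have huA : ∀ a ∈ X.A, a * X.u = X.u * a := fun a ha => (cj_eq_self.1 (h4 _ X.uH a ha)).symm
  have hβ := X.rel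
  have ht : cj X.t X.u = X.u⁻¹ := by
    set β := cj X.t X.u * X.u with hβd
    have e : cj X.t X.u = β * X.u⁻¹ := by rw [hβd]; group
    have c : Commute β X.u⁻¹ := (show Commute β X.u from huA β hβ).inv_right
    have h5 : (cj X.t X.u) ^ X.N = 1 := by
      unfold cj
      rw [conj_pow, X.uN]
      simp
    rw [e, c.mul_pow, inv_pow, X.uN, inv_one, mul_one] at h5
    obtain ⟨l, hl⟩ := X.Nodd
    have hββ : β * β = 1 := h2 β (X.AP hβ)
    rw [hl, pow_succ, pow_mul, pow_two, hββ, one_pow, one_mul] at h5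
    rw [e, h5, one_mul]
  -- `⟨u⟩` is normalized by `H`
  have hzn : ∀ h ∈ X.H, cj h X.u ∈ Subgroup.zpowers X.u := by
    have key : ∀ h ∈ X.H, cj h X.u ∈ Subgroup.zpowers X.u := by
      refine X.H_ind ?_ ?_ ?_ ?_
      · intro a ha
        rw [cj_eq_self.2 (huA a ha)]
        exact Subgroup.mem_zpowers _
      · rw [ht]
        exact Subgroup.inv_mem _ (Subgroup.mem_zpowers _)
      · rw [cj_eq_self.2 rfl]
        exact Subgroup.mem_zpowers _
      · intro a b ha hb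
        obtain ⟨j, hj⟩ := Subgroup.mem_zpowers_iff.1 hb
        obtain ⟨i, hi⟩ := Subgroup.mem_zpowers_iff.1 ha
        rw [cj_mul_left, ← hj]
        have e : cj a (X.u ^ j) = (cj a X.u) ^ j := by
          unfold cj
          rw [conj_zpow]
        rw [e, ← hi, ← zpow_mul]
        exact Subgroup.zpow_mem_zpowers _ _
    exact key
  have hodd : Odd (orderOf X.u) := Odd.of_dvd_nat X.Nodd (orderOf_dvd_of_pow_eq_one X.uN)
  have hle := X.zpowers_le_O X.uH hodd hzn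
  have humem : (⟨X.u, X.uH⟩ : X.H) ∈ oddCore X.H := hle (Subgroup.mem_zpowers _)
  -- the quotient is the image of `P`
  haveI hnO : (oddCore X.H).Normal := pPrimeCore_normal 2 X.H
  let mk := QuotientGroup.mk' (oddCore X.H)
  have hmk : ∀ k : ℕ, mk (⟨X.u, X.uH⟩ : X.H) ^ k = 1 := by
    intro k
    have : mk (⟨X.u, X.uH⟩ : X.H) = 1 := (QuotientGroup.eq_one_iff _).2 humem
    rw [this, one_pow]
  have hPH : X.P ≤ X.H := X.PH
  let f : X.P → (↥X.H ⧸ oddCore ↥X.H) := fun p => mk ⟨p, X.PH p.2⟩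
  have hfmul : ∀ p q : X.P, f (p * q) = f p * f q := fun p q => by
    show mk (⟨p, X.PH p.2⟩ * ⟨q, X.PH q.2⟩) = _
    exact map_mul mk _ _
  have hfinj : Function.Injective f := by
    intro p q hpq
    have h5 : mk (⟨p, X.PH p.2⟩ * (⟨q, X.PH q.2⟩ : X.H)⁻¹) = 1 := by
      rw [map_mul, map_inv]
      exact mul_inv_eq_one.2 hpq
    have h6 := (QuotientGroup.eq_one_iff _).1 h5
    have h7 := X.O_two h6 (X.P.mul_mem p.2 (X.P.inv_mem q.2))
    have h8 := congrArg Subtype.val h7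
    have h9 : (p : G) * (q : G)⁻¹ = 1 := h8
    exact Subtype.ext (mul_inv_eq_one.1 h9)
  have hfsurj : Function.Surjective f := by
    intro x
    obtain ⟨h, rfl⟩ := QuotientGroup.mk'_surjective (oddCore X.H) x
    obtain ⟨i, a, ha, e | e⟩ := X.gen h h.2
    · refine ⟨⟨a, X.AP ha⟩, ?_⟩
      have e2 : h = ⟨a, X.AH ha⟩ * (⟨X.u, X.uH⟩ : X.H) ^ i := Subtype.ext (by simpa using e)
      show mk _ = mk h
      rw [e2, map_mul, map_pow, hmk, mul_one]
    · refine ⟨⟨a * X.t, X.P.mul_mem (X.AP ha) X.tP⟩, ?_⟩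
      have e2 : h = ⟨a, X.AH ha⟩ * (⟨X.u, X.uH⟩ : X.H) ^ i * ⟨X.t, X.PH X.tP⟩ :=
        Subtype.ext (by simpa using e)
      have e3 : (⟨a * X.t, X.PH (X.P.mul_mem (X.AP ha) X.tP)⟩ : X.H) =
          ⟨a, X.AH ha⟩ * ⟨X.t, X.PH X.tP⟩ := rfl
      show mk _ = mk h
      rw [e2, e3, map_mul, map_mul, map_mul, map_pow, hmk, mul_one]
  have hcard : Nat.card (↥X.H ⧸ oddCore ↥X.H) = 4 := by
    rw [← hP4]
    exact (Nat.card_eq_of_bijective f ⟨hfinj, hfsurj⟩).symm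
  have hexp : ∀ x : ↥X.H ⧸ oddCore ↥X.H, x * x = 1 := by
    intro x
    obtain ⟨p, rfl⟩ := hfsurj x
    rw [← hfmul]
    have : p * p = 1 := Subtype.ext (h2 p p.2)
    rw [this]
    exact map_one mk
  haveI : Nontrivial (↥X.H ⧸ oddCore ↥X.H) :=
    Finite.one_lt_card_iff_nontrivial.1 (by rw [hcard]; norm_num)
  haveI : IsKleinFour (↥X.H ⧸ oddCore ↥X.H) := by
    refine ⟨hcard, ?_⟩
    rw [Monoid.exponent_eq_prime_iff Nat.prime_two]
    intro g hg
    apply orderOf_eq_prime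
    · rw [pow_two]; exact hexp g
    · exact hg
  obtain ⟨e⟩ := IsKleinFour.nonempty_mulEquiv (G₁ := ↥X.H ⧸ oddCore ↥X.H)
    (G₂ := Multiplicative (ZMod 2 × ZMod 2))
  exact ⟨e.trans (MulEquiv.prodMultiplicative (ZMod 2) (ZMod 2))⟩

end Ctx

end Cfsg.Agent.Lib.TutteDih
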