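import Mathlib
import Cfsg.Prelude.Def_CaseTheorems
import Cfsg.Agent.Lib.PCore
import Cfsg.Agent.Lib.FFS4
import Cfsg.Agent.Lib.TutteDih5

/-!
# Pushing up with a dihedral quotient: identification in the main case.
-/

set_option autoImplicit false
set_option linter.unusedSectionVars false
set_option linter.unusedVariables false

open Cfsg Cfsg.Agent.Lib.PCore

namespace Cfsg.Agent.Lib.TutteDih

variable {G : Type*} [Group G]

namespace Ctx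

variable {X : Ctx G} {M : X.Mn} {Z : X.Zd M}

namespace Ta

variable (T : Ta Z)

include T

theorem fix3 [Finite G] {x : G} (hx : x ∈ X.V) (q : ℕ) : cj ((X.u ^ 3) ^ q) x = x := by
  apply Zd.fix_pow
  rw [cj_pow3]
  exact Z.U3 hx

/-- An element of `H` centralizing `V1` lies in `A ⟨u³⟩`. -/
theorem cen_V1 [Finite G] {h : G} (hh : h ∈ X.H) (h0 : cj h Z.z0 = Z.z0) (h1 : cj h Z.z1 = Z.z1) :
    ∃ a ∈ X.A, ∃ q : ℕ, h = a * (X.u ^ 3) ^ q := by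
  obtain ⟨i, a, ha, e⟩ := X.gen h hh
  have hi : X.u ^ i = (X.u ^ 3) ^ (i / 3) * X.u ^ (i % 3) := by
    rw [← pow_mul, ← pow_add, Nat.div_add_mod]
  have hr : i % 3 < 3 := Nat.mod_lt _ (by norm_num)
  have hact : ∀ x ∈ X.V, cj (a * X.u ^ i) x = cj (X.u ^ (i % 3)) x := by
    intro x hx
    rw [cj_mul_left, hi, cj_mul_left, T.fix3 (X.V_H (X.H.pow_mem X.uH _) hx)]
    exact X.V_act (X.V_H (X.H.pow_mem X.uH _) hx) ha
  have hz0 : ∀ r, r < 3 → cj (X.u ^ r) Z.z0 = Z.z0 → r = 0 := by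
    intro r hr h2
    interval_cases r
    · rfl
    · exfalso
      rw [pow_one, Z.U_z0] at h2
      exact Z.z1_ne_z0 h2
    · exfalso
      rw [pow_two, cj_mul_left, Z.U_z0, Z.U_z1] at h2
      exact Z.z2_ne_z0 h2
  rcases e with e | e
  · subst e
    rw [hact _ Z.z0V] at h0
    have hr0 := hz0 _ hr h0
    refine ⟨a, ha, i / 3, ?_⟩
    rw [hi, hr0, pow_zero, mul_one]
  · subst e
    rw [cj_mul_left, Z.T_z0 X.tP X.tA, hact _ Z.z0V] at h0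
    have hr0 := hz0 _ hr h0
    exfalso
    rw [cj_mul_left, Z.T_z1 X.tP X.tA, hact _ Z.z2V, hr0, pow_zero, cj_one_left] at h1
    exact Z.z2_ne_z1 h1

/-- `A` commutes with `u³`. -/
theorem A_u3 [Finite G] {a : G} (ha : a ∈ X.A) : a * X.u ^ 3 = X.u ^ 3 * a := by
  have h1 : cj (X.u ^ 3) a = a := by
    rw [cj_pow3]
    exact T.U3A ha
  exact (cj_eq_self.1 h1).symm

/-- `H` normalizes `⟨u³⟩`. -/
theorem u3_norm [Finite G] : ∀ h ∈ X.H, cj h (X.u ^ 3) ∈ Subgroup.zpowers (X.u ^ 3) := by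
  have hA : ∀ a ∈ X.A, cj a (X.u ^ 3) ∈ Subgroup.zpowers (X.u ^ 3) := by
    intro a ha
    rw [cj_eq_self.2 (T.A_u3 ha)]
    exact Subgroup.mem_zpowers _
  refine X.H_ind hA ?_ ?_ ?_
  · have h1 := X.idx X.t X.tP X.tA T.τ T.τP T.τA
    have e : X.t = (X.t * T.τ⁻¹) * T.τ := by group
    rw [e, cj_mul_left, T.rel_V1.2, cj_inv]
    rw [cj_eq_self.2 (T.A_u3 h1)]
    exact Subgroup.inv_mem _ (Subgroup.mem_zpowers _)
  · have : cj X.u (X.u ^ 3) = X.u ^ 3 := by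
      apply cj_eq_self.2
      rw [← pow_succ', pow_succ]
    rw [this]
    exact Subgroup.mem_zpowers _
  · intro a b ha hb
    obtain ⟨j, hj⟩ := Subgroup.mem_zpowers_iff.1 hb
    obtain ⟨i, hi⟩ := Subgroup.mem_zpowers_iff.1 ha
    rw [cj_mul_left, ← hj]
    have e : cj a ((X.u ^ 3) ^ j) = (cj a (X.u ^ 3)) ^ j := by
      unfold cj
      rw [conj_zpow]
    rw [e, ← hi, ← zpow_mul]
    exact Subgroup.zpow_mem_zpowers _ _

theorem u3H : X.u ^ 3 ∈ X.H := X.H.pow_mem X.uH 3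

theorem u3_odd [Finite G] (hNu : orderOf X.u = X.N) : Odd (orderOf (X.u ^ 3)) :=
  Odd.of_dvd_nat X.Nodd (orderOf_dvd_of_pow_eq_one (by rw [← pow_mul, mul_comm, pow_mul, X.uN, one_pow]))

/-- The odd core is `⟨u³⟩`. -/
theorem O_eq [Finite G] (hNu : orderOf X.u = X.N) :
    oddCore X.H = Subgroup.zpowers (⟨X.u ^ 3, T.u3H⟩ : X.H) := by
  have hle := X.zpowers_le_O T.u3H (T.u3_odd hNu) T.u3_norm
  refine le_antisymm ?_ hle
  intro x hx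
  have h0 := cj_eq_self.2 (X.O_cen hx Z.z0A)
  have h1 := cj_eq_self.2 (X.O_cen hx Z.z1A)
  obtain ⟨a, ha, q, e⟩ := T.cen_V1 x.2 h0 h1
  have hq : (⟨X.u ^ 3, T.u3H⟩ : X.H) ^ q ∈ oddCore X.H := (oddCore X.H).pow_mem
    (hle (Subgroup.mem_zpowers _)) q
  have ha' : x * ((⟨X.u ^ 3, T.u3H⟩ : X.H) ^ q)⁻¹ ∈ oddCore X.H := (oddCore X.H).mul_mem hx
    ((oddCore X.H).inv_mem hq)
  have e2 : ((x * ((⟨X.u ^ 3, T.u3H⟩ : X.H) ^ q)⁻¹ : X.H) : G) = a := by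
    simp only [Subgroup.coe_mul, Subgroup.coe_inv, Subgroup.coe_pow]
    rw [e]; group
  have h3 := X.O_two ha' (by rw [e2]; exact X.AP ha)
  have h4 : x = (⟨X.u ^ 3, T.u3H⟩ : X.H) ^ q := mul_inv_eq_one.1 h3
  rw [h4]
  exact Subgroup.pow_mem _ (Subgroup.mem_zpowers _) _

/-- The order of the odd core. -/
theorem card_O [Finite G] (hNu : orderOf X.u = X.N) :
    Nat.card (oddCore X.H) * 3 = X.N := by
  rw [T.O_eq hNu, Nat.card_zpowers, Subgroup.orderOf_mk, orderOf_pow, hNu]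
  obtain ⟨k, hk⟩ := Z.three_dvd
  have h1 : X.N.gcd 3 = 3 := Nat.gcd_eq_right ⟨k, hk⟩
  rw [h1, Nat.div_mul_cancel ⟨k, hk⟩]

omit T in
/-- The order of `V1`. -/
theorem card_V1 [Finite G] : Nat.card Z.V1 = 4 := by
  classical
  have e : (Z.V1 : Set G) = ((({1, Z.z0, Z.z1, Z.z2} : Finset G)) : Set G) := by
    ext x
    simp [Zd.mem_V1 Z]
  have h1 : Nat.card Z.V1 = ({1, Z.z0, Z.z1, Z.z2} : Finset G).card := by
    have : Nat.card Z.V1 = Set.ncard (Z.V1 : Set G) := (Nat.card_coe_set_eq _).symm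
    rw [this, e, Set.ncard_coe_finset]
  rw [h1]
  have n0 := Z.z0ne
  have n1 := Z.z1_ne_one
  have n2 := Z.z2_ne_one
  have n3 := Z.z1_ne_z0
  have n4 := Z.z2_ne_z0
  have n5 := Z.z2_ne_z1
  rw [Finset.card_insert_of_notMem, Finset.card_insert_of_notMem, Finset.card_insert_of_notMem,
    Finset.card_singleton]
  · simpa using n5.symm
  · simp only [Finset.mem_insert, Finset.mem_singleton, not_or]
    exact ⟨n3.symm, n4.symm⟩
  · simp only [Finset.mem_insert, Finset.mem_singleton, not_or]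
    exact ⟨n0.symm, n1.symm, n2.symm⟩

/-- The order of `A`. -/
theorem card_A [Finite G] : Nat.card X.A = Nat.card X.C * 4 := by
  rw [← card_V1 (Z := Z), ← Nat.card_prod]
  symm
  have hVA : ∀ δ ∈ Z.V1, δ ∈ X.A := fun δ hδ => X.V_le_A M.hC (Zd.V1_le_V Z hδ)
  let f : X.C × Z.V1 → X.A := fun p => ⟨p.1 * p.2, X.A.mul_mem p.1.2.1 (hVA _ p.2.2)⟩
  refine Nat.card_eq_of_bijective f ⟨?_, ?_⟩
  · rintro ⟨⟨c₁, h₁⟩, ⟨δ₁, d₁⟩⟩ ⟨⟨c₂, h₂⟩, ⟨δ₂, d₂⟩⟩ h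
    have h3 : c₁ * δ₁ = c₂ * δ₂ := congrArg Subtype.val h
    have h4 : c₂⁻¹ * c₁ = δ₂ * δ₁⁻¹ := by
      rw [eq_mul_inv_iff_mul_eq, mul_assoc, h3]; group
    have h5 : c₂⁻¹ * c₁ ∈ X.C := X.C.mul_mem (X.C.inv_mem h₂) h₁
    have h6 : c₂⁻¹ * c₁ ∈ Z.V1 := by
      rw [h4]
      exact Z.V1.mul_mem d₂ (Z.V1.inv_mem d₁)
    have h7 := T.C_V1 h5 h6
    have h8 : c₁ = c₂ := (inv_mul_eq_one.1 h7).symm
    subst h8
    have h9 : δ₁ = δ₂ := mul_left_cancel h3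
    subst h9
    rfl
  · rintro ⟨a, ha⟩
    obtain ⟨c, hc, δ, hδ, e⟩ := T.decomp ha
    exact ⟨⟨⟨c, hc⟩, ⟨δ, hδ⟩⟩, Subtype.ext e.symm⟩


/-- The complement of the central involution. -/
def Ls (T : Ta Z) : Subgroup G := Subgroup.closure ((Z.V1 : Set G) ∪ {X.u, T.τ})

/-- The normal form of elements of `Ls`. -/
def Fm (T : Ta Z) (x : G) : Prop := ∃ δ ∈ Z.V1, ∃ i : ℕ, x = δ * X.u ^ i ∨ x = δ * X.u ^ i * T.τ

theorem τinv : T.τ⁻¹ = T.τ := inv_eq_of_mul_eq_one_left T.ττ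

theorem Fm_V1 [Finite G] {x δ' : G} (hx : T.Fm x) (hδ' : δ' ∈ Z.V1) : T.Fm (x * δ') := by
  obtain ⟨δ, hδ, i, e | e⟩ := hx
  · refine ⟨δ * cj (X.u ^ i) δ', Z.V1.mul_mem hδ (Z.V1_H (X.H.pow_mem X.uH _) hδ'), i, Or.inl ?_⟩
    rw [e]; unfold cj; group
  · refine ⟨δ * cj (X.u ^ i * T.τ) δ', Z.V1.mul_mem hδ (Z.V1_H (X.H.mul_mem (X.H.pow_mem X.uH _)
      (X.PH T.τP)) hδ'), i, Or.inr ?_⟩
    rw [e]; unfold cj; group

theorem Fm_τ {x : G} (hx : T.Fm x) : T.Fm (x * T.τ) := by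
  obtain ⟨δ, hδ, i, e | e⟩ := hx
  · exact ⟨δ, hδ, i, Or.inr (by rw [e])⟩
  · refine ⟨δ, hδ, i, Or.inl ?_⟩
    rw [e, mul_assoc, T.ττ, mul_one]

theorem Fm_u [Finite G] {x : G} (hx : T.Fm x) : T.Fm (x * X.u) := by
  obtain ⟨δ, hδ, i, e | e⟩ := hx
  · exact ⟨δ, hδ, i + 1, Or.inl (by rw [e, pow_succ, mul_assoc])⟩
  · have hβ := T.rel_V1.1
    have hN : 1 ≤ X.N := X.Nodd.pos
    refine ⟨δ * cj (X.u ^ i) (cj T.τ X.u * X.u), Z.V1.mul_mem hδ (Z.V1_H (X.H.pow_mem X.uH _) hβ),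
      i + (X.N - 1), Or.inr ?_⟩
    have e1 : X.u ^ (X.N - 1) = X.u⁻¹ := by
      apply eq_inv_of_mul_eq_one_left
      rw [← pow_succ, Nat.sub_add_cancel hN, X.uN]
    rw [e, pow_add, e1]
    unfold cj
    group

theorem Fm_upow [Finite G] {x : G} (hx : T.Fm x) (k : ℕ) : T.Fm (x * X.u ^ k) := by
  induction k with
  | zero => simpa using hx
  | succ k ih =>
    rw [pow_succ, ← mul_assoc]
    exact T.Fm_u ih

theorem Ls_form [Finite G] {x : G} (hx : x ∈ T.Ls) : T.Fm x := by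
  have hN : 1 ≤ X.N := X.Nodd.pos
  have e1 : X.u⁻¹ = X.u ^ (X.N - 1) := by
    symm
    apply eq_inv_of_mul_eq_one_left
    rw [← pow_succ, Nat.sub_add_cancel hN, X.uN]
  induction hx using Subgroup.closure_induction_right with
  | one => exact ⟨1, Z.V1.one_mem, 0, Or.inl (by simp)⟩
  | mul_right x _ y hy ih =>
    rcases hy with hy | rfl | rfl
    · exact T.Fm_V1 ih hy
    · exact T.Fm_u ih
    · exact T.Fm_τ ih
  | mul_inv_cancel x _ y hy ih =>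
    rcases hy with hy | rfl | rfl
    · exact T.Fm_V1 ih (Z.V1.inv_mem hy)
    · rw [e1]
      exact T.Fm_upow ih _
    · rw [T.τinv]
      exact T.Fm_τ ih

omit T in
theorem P_odd [Finite G] {x : G} (hx : x ∈ X.P) (hN : x ^ X.N = 1) : x = 1 := by
  obtain ⟨k, hk⟩ := X.P2 ⟨x, hx⟩
  have h3 : x ^ (2 ^ k) = 1 := by
    have := congrArg Subtype.val hk
    simpa using this
  have h5 : orderOf x ∣ 2 ^ k := orderOf_dvd_of_pow_eq_one h3
  have h6 : orderOf x ∣ X.N := orderOf_dvd_of_pow_eq_one hN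
  have h7 : Nat.Coprime (2 ^ k) X.N := Nat.Coprime.pow_left k ((Nat.coprime_two_left).2 X.Nodd)
  have h8 : orderOf x = 1 := Nat.eq_one_of_dvd_coprimes h7 h5 h6
  exact orderOf_eq_one_iff.1 h8

omit T in
theorem upow_P [Finite G] {i : ℕ} (h : X.u ^ i ∈ X.P) : X.u ^ i = 1 :=
  P_odd h (by rw [← pow_mul, mul_comm, pow_mul, X.uN, one_pow])

theorem c0_not [Finite G] {c₀ : G} (hc₀ : c₀ ∈ X.C) (hne : c₀ ≠ 1) : c₀ ∉ T.Ls := by
  intro hm
  obtain ⟨δ, hδ, i, e | e⟩ := T.Ls_form hm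
  · have hδA : δ ∈ X.A := X.V_le_A M.hC (Zd.V1_le_V Z hδ)
    have h1 : X.u ^ i = δ⁻¹ * c₀ := by rw [e]; group
    have h2 := upow_P (i := i) (by rw [h1]; exact X.AP (X.A.mul_mem (X.A.inv_mem hδA) hc₀.1))
    rw [h2, mul_one] at e
    exact hne (T.C_V1 hc₀ (e ▸ hδ))
  · have hδA : δ ∈ X.A := X.V_le_A M.hC (Zd.V1_le_V Z hδ)
    have h1 : X.u ^ i = δ⁻¹ * c₀ * T.τ⁻¹ := by rw [e]; group
    have h2 := upow_P (i := i) (by
      rw [h1]
      exact X.P.mul_mem (X.AP (X.A.mul_mem (X.A.inv_mem hδA) hc₀.1)) (X.P.inv_mem T.τP))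
    rw [h2, mul_one] at e
    apply T.τA
    have h3 : T.τ = δ⁻¹ * c₀ := by rw [e]; group
    rw [h3]
    exact X.A.mul_mem (X.A.inv_mem hδA) hc₀.1

theorem Ls_le : T.Ls ≤ X.H := by
  refine (Subgroup.closure_le _).2 ?_
  rintro x (hx | rfl | rfl)
  · exact X.AH (X.V_le_A M.hC (Zd.V1_le_V Z hx))
  · exact X.uH
  · exact X.PH T.τP

theorem H_split [Finite G] {c₀ : G} (hc₀ : c₀ ∈ X.C) (hne : c₀ ≠ 1) :
    ∀ x ∈ X.H, x ∈ T.Ls ∨ c₀ * x ∈ T.Ls := by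
  have hV : ∀ δ ∈ Z.V1, δ ∈ T.Ls := fun δ hδ => Subgroup.subset_closure (Or.inl hδ)
  have hu : X.u ∈ T.Ls := Subgroup.subset_closure (Or.inr (Or.inl rfl))
  have hτ : T.τ ∈ T.Ls := Subgroup.subset_closure (Or.inr (Or.inr rfl))
  have hgen : ∀ a ∈ X.A, ∀ w ∈ T.Ls, a * w ∈ T.Ls ∨ c₀ * (a * w) ∈ T.Ls := by
    intro a ha w hw
    obtain ⟨c, hc, δ, hδ, rfl⟩ := T.decomp ha
    by_cases h1 : c = 1
    · left
      subst h1
      rw [one_mul]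
      exact T.Ls.mul_mem (hV δ hδ) hw
    · right
      have h2 := T.C_two hc hc₀ h1 hne
      subst h2
      have e : c * (c * δ * w) = (c * c) * (δ * w) := by group
      rw [e, T.sq_A hc.1, one_mul]
      exact T.Ls.mul_mem (hV δ hδ) hw
  intro x hx
  obtain ⟨i, a, ha, e | e⟩ := X.gen x hx
  · rw [e]
    exact hgen a ha _ (T.Ls.pow_mem hu i)
  · have h1 := X.idx X.t X.tP X.tA T.τ T.τP T.τA
    have h2 : x = (a * cj (X.u ^ i) (X.t * T.τ⁻¹)) * (X.u ^ i * T.τ) := by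
      rw [e]; unfold cj; group
    rw [h2]
    exact hgen _ (X.A.mul_mem ha (X.An _ (X.H.pow_mem X.uH _) _ h1)) _
      (T.Ls.mul_mem (T.Ls.pow_mem hu i) hτ)

/-- The homomorphism onto the group of order two. -/
theorem exists_chi [Finite G] (hNu : orderOf X.u = X.N) {c₀ : G} (hc₀ : c₀ ∈ X.C) (hne : c₀ ≠ 1) :
    ∃ χ : (↥X.H ⧸ oddCore ↥X.H) →* Multiplicative (ZMod 2),
      χ (QuotientGroup.mk' (oddCore X.H) ⟨c₀, X.AH hc₀.1⟩) ≠ 1 := by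
  haveI hnO : (oddCore X.H).Normal := pPrimeCore_normal 2 X.H
  have hnot := T.c0_not hc₀ hne
  let L' : Subgroup X.H := T.Ls.subgroupOf X.H
  have hidx : L'.index = 2 := by
    rw [Subgroup.index_eq_two_iff']
    refine ⟨⟨c₀, X.AH hc₀.1⟩, fun b => ?_⟩
    by_cases hb : b ∈ L'
    · right
      refine ⟨hb, fun h => hnot ?_⟩
      have h1 : ((⟨c₀, X.AH hc₀.1⟩ * b : X.H) : G) ∈ T.Ls := h
      have h2 : (b : G) ∈ T.Ls := hb
      have h3 := T.Ls.mul_mem h1 (T.Ls.inv_mem h2)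
      have e : ((⟨c₀, X.AH hc₀.1⟩ * b : X.H) : G) * (b : G)⁻¹ = c₀ := by
        show c₀ * (b : G) * (b : G)⁻¹ = c₀
        group
      rwa [e] at h3
    · left
      refine ⟨?_, hb⟩
      exact (T.H_split hc₀ hne b b.2).resolve_left hb
  haveI hnL : L'.Normal := Subgroup.normal_of_index_eq_two hidx
  have hcard : Nat.card (X.H ⧸ L') = 2 := by
    rw [← Subgroup.index_eq_card]; exact hidx
  have hcard2 : Nat.card (Multiplicative (ZMod 2)) = 2 := by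
    simp
  let e : (X.H ⧸ L') ≃* Multiplicative (ZMod 2) := mulEquivOfPrimeCardEq (p := 2) hcard hcard2
  let χ₀ : X.H →* Multiplicative (ZMod 2) := e.toMonoidHom.comp (QuotientGroup.mk' L')
  have hker : ∀ x ∈ oddCore X.H, χ₀ x = 1 := by
    intro x hx
    rw [T.O_eq hNu] at hx
    obtain ⟨j, rfl⟩ := Subgroup.mem_zpowers_iff.1 hx
    have h1 : (⟨X.u ^ 3, T.u3H⟩ : X.H) ∈ L' := by
      show X.u ^ 3 ∈ T.Ls
      exact T.Ls.pow_mem (Subgroup.subset_closure (Or.inr (Or.inl rfl))) 3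
    have h2 : (⟨X.u ^ 3, T.u3H⟩ : X.H) ^ j ∈ L' := L'.zpow_mem h1 j
    have h3 : (QuotientGroup.mk' L') ((⟨X.u ^ 3, T.u3H⟩ : X.H) ^ j) = 1 :=
      (QuotientGroup.eq_one_iff _).2 h2
    show e ((QuotientGroup.mk' L') _) = 1
    rw [h3, map_one]
  refine ⟨QuotientGroup.lift (oddCore X.H) χ₀ hker, ?_⟩
  intro h
  have h1 : χ₀ ⟨c₀, X.AH hc₀.1⟩ = 1 := h
  have h2 : e ((QuotientGroup.mk' L') ⟨c₀, X.AH hc₀.1⟩) = 1 := h1
  have h3 : (QuotientGroup.mk' L') ⟨c₀, X.AH hc₀.1⟩ = 1 := by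
    have := congrArg e.symm h2
    simpa using this
  have h4 := (QuotientGroup.eq_one_iff _).1 h3
  exact hnot h4


end Ta

/-- The conclusion in the main case. -/
theorem finish_II [Finite G] (X : Ctx G) (hC : X.CC) (hNu : orderOf X.u = X.N)
    (hcard : Nat.card X.H = Nat.card X.A * (2 * X.N)) (hPcard : Nat.card X.P = 2 * Nat.card X.A) :
    (Nat.card X.P = 8 ∨ Nat.card X.P = 16) ∧
    (Nonempty (↥X.H ⧸ oddCore ↥X.H ≃* Equiv.Perm (Fin 4)) ∨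
     Nonempty (↥X.H ⧸ oddCore ↥X.H ≃* Equiv.Perm (Fin 4) × Multiplicative (ZMod 2))) := by
  obtain ⟨M⟩ := X.exists_Mn hC
  obtain ⟨Z⟩ := X.exists_Zd M
  obtain ⟨T⟩ := exists_Ta Z
  haveI hnO : (oddCore X.H).Normal := pPrimeCore_normal 2 X.H
  let mk := QuotientGroup.mk' (oddCore X.H)
  -- orders
  have hO3 := T.card_O hNu
  have hcQ : Nat.card (↥X.H ⧸ oddCore ↥X.H) = 6 * Nat.card X.A := by
    have h1 := Subgroup.card_eq_card_quotient_mul_card_subgroup (oddCore X.H)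
    rw [hcard, ← hO3] at h1
    have hpos : 0 < Nat.card (oddCore X.H) := Nat.card_pos
    have h2 : 6 * Nat.card X.A * Nat.card (oddCore X.H) =
        Nat.card (↥X.H ⧸ oddCore ↥X.H) * Nat.card (oddCore X.H) := by
      rw [← h1]; ring
    exact (Nat.eq_of_mul_eq_mul_right hpos h2).symm
  -- injectivity of the quotient on `P`
  have hmkinj : ∀ {a b : G} (ha : a ∈ X.P) (hb : b ∈ X.P),
      mk ⟨a, X.PH ha⟩ = mk ⟨b, X.PH hb⟩ → a = b := by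
    intro a b ha hb h
    have h5 : mk (⟨a, X.PH ha⟩ * (⟨b, X.PH hb⟩ : X.H)⁻¹) = 1 := by
      rw [map_mul, map_inv]
      exact mul_inv_eq_one.2 h
    have h6 := (QuotientGroup.eq_one_iff _).1 h5
    have h7 := X.O_two h6 (X.P.mul_mem ha (X.P.inv_mem hb))
    have h8 := congrArg Subtype.val h7
    have h9 : a * b⁻¹ = 1 := h8
    exact mul_inv_eq_one.1 h9
  have hVP : ∀ δ ∈ Z.V1, δ ∈ X.P := fun δ hδ => X.AP (X.V_le_A M.hC (Zd.V1_le_V Z hδ))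
  have hVH : ∀ δ ∈ Z.V1, δ ∈ X.H := fun δ hδ => X.PH (hVP δ hδ)
  -- the subgroup `W`
  let V1H : Subgroup X.H := Z.V1.subgroupOf X.H
  haveI hV1n : V1H.Normal := by
    refine ⟨fun c hc g => ?_⟩
    exact Z.V1_H g.2 hc
  let W : Subgroup (↥X.H ⧸ oddCore ↥X.H) := V1H.map mk
  haveI hWn : W.Normal := hV1n.map mk (QuotientGroup.mk'_surjective _)
  have hmemW : ∀ x, x ∈ W ↔ ∃ δ, ∃ hδ : δ ∈ Z.V1, x = mk ⟨δ, hVH δ hδ⟩ := by
    intro x
    constructor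
    · rintro ⟨c, hc, rfl⟩
      exact ⟨c, hc, rfl⟩
    · rintro ⟨δ, hδ, rfl⟩
      exact ⟨⟨δ, hVH δ hδ⟩, hδ, rfl⟩
  have hW4 : Nat.card W = 4 := by
    rw [← Ta.card_V1 (Z := Z)]
    let f : Z.V1 → W := fun δ => ⟨mk ⟨δ, hVH δ δ.2⟩, (hmemW _).2 ⟨δ, δ.2, rfl⟩⟩
    symm
    refine Nat.card_eq_of_bijective f ⟨?_, ?_⟩
    · intro a b hab
      exact Subtype.ext (hmkinj (hVP a a.2) (hVP b b.2) (congrArg Subtype.val hab))
    · rintro ⟨x, hx⟩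
      obtain ⟨δ, hδ, rfl⟩ := (hmemW x).1 hx
      exact ⟨⟨δ, hδ⟩, rfl⟩
  let k : ↥X.H ⧸ oddCore ↥X.H := mk ⟨X.u, X.uH⟩
  have hk3 : k ^ 3 = 1 := by
    have h1 : (⟨X.u, X.uH⟩ : X.H) ^ 3 ∈ oddCore X.H := by
      rw [T.O_eq hNu]
      exact Subgroup.mem_zpowers _
    have h2 := (QuotientGroup.eq_one_iff _).2 h1
    show mk _ ^ 3 = 1
    rw [← map_pow]
    exact h2
  have hk1 : k ≠ 1 := by
    intro h
    have h1 := (QuotientGroup.eq_one_iff _).1 h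
    have h2 := X.O_cen h1 Z.z0A
    exact Z.z1_ne_z0 (cj_eq_self.2 h2)
  have hmkconj : ∀ (g : X.H) (c : G) (hc : c ∈ X.P) (hgc : cj (g : G) c ∈ X.P),
      mk g * mk ⟨c, X.PH hc⟩ * (mk g)⁻¹ = mk ⟨cj (g : G) c, X.PH hgc⟩ := by
    intro g c hc hgc
    rw [← map_inv, ← map_mul, ← map_mul]
    rfl
  have hkf : ∀ v ∈ W, k * v * k⁻¹ = v → v = 1 := by
    intro v hv h
    obtain ⟨δ, hδ, rfl⟩ := (hmemW v).1 hv
    have h1 := hmkconj ⟨X.u, X.uH⟩ δ (hVP δ hδ) (hVP _ (Z.V1_H X.uH hδ))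
    rw [h] at h1
    have h2 := hmkinj (hVP δ hδ) (hVP _ (Z.V1_H X.uH hδ)) h1
    have h3 := Zd.V1_fix Z hδ h2.symm
    subst h3
    exact map_one mk
  -- centralizing `W`
  have hcen : ∀ h : X.H, (∀ v ∈ W, mk h * v = v * mk h) →
      ∃ a, ∃ ha : a ∈ X.A, mk h = mk ⟨a, X.AH ha⟩ := by
    intro h hh
    have hfix : ∀ δ, δ ∈ Z.V1 → cj (h : G) δ = δ := by
      intro δ hδ
      have h1 := hh _ ((hmemW _).2 ⟨δ, hδ, rfl⟩)
      have h2 := hmkconj h δ (hVP δ hδ) (hVP _ (Z.V1_H h.2 hδ))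
      rw [h1, mul_inv_cancel_right] at h2
      exact (hmkinj (hVP δ hδ) (hVP _ (Z.V1_H h.2 hδ)) h2).symm
    obtain ⟨a, ha, q, e⟩ := T.cen_V1 h.2 (hfix _ (Or.inr (Or.inl rfl)))
      (hfix _ (Or.inr (Or.inr (Or.inl rfl))))
    refine ⟨a, ha, ?_⟩
    have e2 : h = ⟨a, X.AH ha⟩ * (⟨X.u ^ 3, T.u3H⟩ : X.H) ^ q := Subtype.ext (by simpa using e)
    have h3 : (⟨X.u ^ 3, T.u3H⟩ : X.H) ∈ oddCore X.H := by
      rw [T.O_eq hNu]
      exact Subgroup.mem_zpowers _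
    have h4 : mk (⟨X.u ^ 3, T.u3H⟩ : X.H) = 1 := (QuotientGroup.eq_one_iff _).2 h3
    rw [e2, map_mul, map_pow, h4, one_pow, mul_one]
  by_cases hcC : ∀ c ∈ X.C, c = 1
  · -- `C` is trivial
    have hC1 : X.C = ⊥ := (Subgroup.eq_bot_iff_forall _).2 hcC
    have hCc : Nat.card X.C = 1 := by rw [hC1]; exact Subgroup.card_bot
    have hA4 : Nat.card X.A = 4 := by rw [T.card_A, hCc]
    refine ⟨Or.inl (by rw [hPcard, hA4]), Or.inl ?_⟩
    refine Cfsg.Agent.Lib.FFS4.iso_S4 W hW4 hk3 hk1 hkf ?_ (by rw [hcQ, hA4])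
    intro x hx
    obtain ⟨h, rfl⟩ := QuotientGroup.mk'_surjective (oddCore X.H) x
    obtain ⟨a, ha, e⟩ := hcen h hx
    obtain ⟨c, hc, δ, hδ, ec⟩ := T.decomp ha
    rw [hcC c hc, one_mul] at ec
    subst ec
    exact e ▸ (hmemW _).2 ⟨a, hδ, rfl⟩
  · -- `C` has order two
    push Not at hcC
    obtain ⟨c₀, hc₀, hne⟩ := hcC
    have hCc : Nat.card X.C = 2 := by
      rw [Nat.card_eq_two_iff' (1 : X.C)]
      refine ⟨⟨c₀, hc₀⟩, fun h => hne (congrArg Subtype.val h), ?_⟩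
      rintro ⟨b, hb⟩ hb1
      apply Subtype.ext
      exact T.C_two hb hc₀ (fun h => hb1 (Subtype.ext h)) hne
    have hA8 : Nat.card X.A = 8 := by rw [T.card_A, hCc]
    refine ⟨Or.inr (by rw [hPcard, hA8]), Or.inr ?_⟩
    obtain ⟨χ, hχ⟩ := T.exists_chi hNu hc₀ hne
    have hc₀P : c₀ ∈ X.P := X.AP hc₀.1
    refine Cfsg.Agent.Lib.FFS4.iso_S4Z2 W hW4 hk3 hk1 hkf (c := mk ⟨c₀, X.PH hc₀P⟩) ?_ ?_ ?_ ?_
      (by rw [hcQ, hA8]) χ hχ
    · intro x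
      obtain ⟨g, rfl⟩ := QuotientGroup.mk'_surjective (oddCore X.H) x
      have h1 : (g : G) * c₀ = c₀ * (g : G) := cj_eq_self.1 (T.C_H _ g.2 c₀ hc₀)
      have h2 : (⟨c₀, X.PH hc₀P⟩ : X.H) * g = g * ⟨c₀, X.PH hc₀P⟩ := Subtype.ext h1.symm
      show mk _ * mk _ = mk _ * mk _
      rw [← map_mul, ← map_mul, h2]
    · rw [← map_mul]
      have h1 : (⟨c₀, X.PH hc₀P⟩ : X.H) * ⟨c₀, X.PH hc₀P⟩ = 1 := Subtype.ext (T.sq_A hc₀.1)
      rw [h1, map_one]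
    · intro h
      obtain ⟨δ, hδ, e⟩ := (hmemW _).1 h
      have h1 := hmkinj hc₀P (hVP δ hδ) e
      subst h1
      exact hne (T.C_V1 hc₀ hδ)
    · intro x hx
      obtain ⟨h, rfl⟩ := QuotientGroup.mk'_surjective (oddCore X.H) x
      obtain ⟨a, ha, e⟩ := hcen h hx
      obtain ⟨c, hc, δ, hδ, ec⟩ := T.decomp ha
      by_cases h1 : c = 1
      · left
        rw [h1, one_mul] at ec
        subst ec
        exact e ▸ (hmemW _).2 ⟨a, hδ, rfl⟩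
      · right
        have h2 := T.C_two hc hc₀ h1 hne
        subst h2
        refine (hmemW _).2 ⟨δ, hδ, ?_⟩
        show mk h * mk _ = _
        rw [e, ← map_mul]
        congr 1
        apply Subtype.ext
        show a * c = δ
        rw [ec]
        have hδA : δ ∈ X.A := X.V_le_A M.hC (Zd.V1_le_V Z hδ)
        rw [T.A_comm hc.1 hδA, mul_assoc, T.sq_A hc.1, mul_one] 
        
end Ctx

end Cfsg.Agent.Lib.TutteDih
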