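import Mathlib
import Cfsg.Agent.S3927

/-!
# Involutory automorphisms and the odd-order elements they invert

Basic lemmas: values `c * (α c)⁻¹` are inverted, lifting of inverted elements of odd order along
surjections, the induced automorphism on a quotient, the abelianisation.
-/

set_option autoImplicit false
set_option linter.style.haveILetI false
set_option linter.unusedSectionVars false

namespace Cfsg.Agent.Lib.TwistInv

open scoped commutatorElement

variable {G : Type*} [Group G]

/-- The twisted commutator `c * (α c)⁻¹`. -/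
def tw (α : MulAut G) (c : G) : G := c * (α c)⁻¹

/-- Elements of odd order inverted by `α`. -/
def E (α : MulAut G) : Set G := {g | Odd (orderOf g) ∧ α g = g⁻¹}

/-- `α` is an involution (possibly trivial). -/
def Inv2 (α : MulAut G) : Prop := ∀ x, α (α x) = x

/-- `[G, α] = G`. -/
def Gen (α : MulAut G) : Prop := Subgroup.closure (Set.range (tw α)) = ⊤

theorem one_mem_E (α : MulAut G) : (1 : G) ∈ E α := by
  simp [E]

theorem tw_inverted {α : MulAut G} (h : Inv2 α) (c : G) : α (tw α c) = (tw α c)⁻¹ := by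
  simp [tw, h c]

theorem tw_of_inverted {α : MulAut G} {y : G} (hy : α y = y⁻¹) : tw α y = y * y := by
  simp [tw, hy]

theorem inverted_pow {α : MulAut G} {y : G} (hy : α y = y⁻¹) (n : ℕ) : α (y ^ n) = (y ^ n)⁻¹ := by
  rw [map_pow, hy, inv_pow]

/-- in a finite group, `y ^ 2 ^ card G` has odd order. -/
theorem odd_orderOf_pow_two [Finite G] (y : G) : Odd (orderOf (y ^ 2 ^ Nat.card G)) := by
  have hpos : 0 < orderOf y := orderOf_pos y
  obtain ⟨a, m, hm, hy⟩ := Nat.exists_eq_two_pow_mul_odd hpos.ne'
  have hale : a ≤ Nat.card G := by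
    have h1 : 2 ^ a ≤ orderOf y := by
      rw [hy]; exact Nat.le_mul_of_pos_right _ hm.pos
    have h2 : orderOf y ≤ Nat.card G := orderOf_le_card
    have h3 : a < 2 ^ a := Nat.lt_two_pow_self
    omega
  have hd : orderOf (y ^ 2 ^ Nat.card G) ∣ m := by
    apply orderOf_dvd_of_pow_eq_one
    rw [← pow_mul]
    have : orderOf y ∣ 2 ^ Nat.card G * m := by
      rw [hy]
      exact Nat.mul_dvd_mul_right (pow_dvd_pow 2 hale) m
    obtain ⟨w, hw⟩ := this
    rw [hw, pow_mul, pow_orderOf_eq_one, one_pow]
  exact Odd.of_dvd_nat hm hd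

theorem odd_orderOf_pow_of_odd (y : G) (n : ℕ) (h : Odd (orderOf y)) : Odd (orderOf (y ^ n)) := by
  apply Odd.of_dvd_nat h
  apply orderOf_dvd_of_pow_eq_one
  rw [← pow_mul, mul_comm, pow_mul, pow_orderOf_eq_one, one_pow]

/-- Lifting along a compatible surjection. -/
theorem exists_lift_E {H : Type*} [Group H] [Finite G] {α : MulAut G} {β : MulAut H}
    (hα : Inv2 α) (f : G →* H) (hf : Function.Surjective f) (hc : ∀ x, f (α x) = β (f x))
    {x : H} (hx : x ∈ E β) : ∃ e ∈ E α, f e = x := by
  obtain ⟨hodd, hinv⟩ := hx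
  set m := orderOf x with hm
  obtain ⟨r, hr⟩ := hodd
  -- `z` squares to `x`
  set z := x ^ (r + 1) with hz
  have hzz : z * z = x := by
    rw [hz, ← pow_add]
    have : r + 1 + (r + 1) = m + 1 := by omega
    rw [this, pow_succ, hm, pow_orderOf_eq_one, one_mul]
  have hzinv : β z = z⁻¹ := by rw [hz, map_pow, hinv, inv_pow]
  obtain ⟨w, hw⟩ := hf z
  set y := tw α w with hy
  have hfy : f y = x := by
    rw [hy, tw, map_mul, map_inv, hc, hw, hzinv, inv_inv, hzz]
  have hyinv : α y = y⁻¹ := tw_inverted hα w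
  -- take a suitable power
  set N := 2 ^ Nat.card G with hN
  have hcop : Nat.Coprime N m := by
    rw [hN]
    apply Nat.Coprime.pow_left
    exact (Nat.coprime_two_left).mpr ⟨r, hr⟩
  obtain ⟨s, hs⟩ := exists_pow_eq_self_of_coprime (x := x) hcop
  refine ⟨(y ^ N) ^ s, ⟨odd_orderOf_pow_of_odd _ _ (odd_orderOf_pow_two y), ?_⟩, ?_⟩
  · rw [map_pow, inverted_pow hyinv, inv_pow]
  · rw [map_pow, map_pow, hfy, hs]

/-- Image of an inverted element of odd order under a compatible hom. -/
theorem map_mem_E {H : Type*} [Group H] [Finite G] {α : MulAut G} {β : MulAut H}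
    (f : G →* H) (hc : ∀ x, f (α x) = β (f x)) {e : G} (he : e ∈ E α) : f e ∈ E β := by
  obtain ⟨hodd, hinv⟩ := he
  refine ⟨Odd.of_dvd_nat hodd (orderOf_map_dvd f e), ?_⟩
  rw [← hc, hinv, map_inv]

/-- Values of iterates of `tw` are powers. -/
theorem tw_iterate {α : MulAut G} (hα : Inv2 α) (c : G) (k : ℕ) :
    (tw α)^[k + 1] c = (tw α c) ^ 2 ^ k := by
  induction k with
  | zero => simp
  | succ k ih =>
    rw [Function.iterate_succ_apply', ih, tw_of_inverted (inverted_pow (tw_inverted hα c) _)]
    rw [pow_succ 2 k, pow_mul, pow_two]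

/-- **`E` generates.** -/
theorem closure_E [Finite G] {α : MulAut G} (hα : Inv2 α) (hG : Gen α) :
    Subgroup.closure (E α) = ⊤ := by
  have h := Cfsg.Agent.S3927.result α hG (Nat.card G + 1) (by omega)
  rw [eq_top_iff, ← show Subgroup.closure (Set.range ((fun c : G => c * (α c)⁻¹)^[Nat.card G + 1]))
    = ⊤ from h]
  apply Subgroup.closure_mono
  rintro _ ⟨c, rfl⟩
  have : ((fun c : G => c * (α c)⁻¹)^[Nat.card G + 1]) c = (tw α)^[Nat.card G + 1] c := rfl
  rw [this, tw_iterate hα]
  exact ⟨odd_orderOf_pow_two _, inverted_pow (tw_inverted hα c) _⟩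

/-! ### The induced automorphism on a quotient -/

/-- The automorphism induced on a quotient by a normal `α`-invariant subgroup. -/
noncomputable def quotAut (α : MulAut G) (hα : Inv2 α) (N : Subgroup G) [N.Normal]
    (hN : ∀ x ∈ N, α x ∈ N) : MulAut (G ⧸ N) :=
  QuotientGroup.congr N N α (by
    ext x
    constructor
    · rintro ⟨y, hy, rfl⟩
      exact hN y hy
    · intro hx
      exact ⟨α x, hN x hx, hα x⟩)

@[simp] theorem quotAut_mk (α : MulAut G) (hα : Inv2 α) (N : Subgroup G) [N.Normal]
    (hN : ∀ x ∈ N, α x ∈ N) (x : G) :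
    quotAut α hα N hN (x : G ⧸ N) = ((α x : G) : G ⧸ N) := rfl

theorem quotAut_inv2 (α : MulAut G) (hα : Inv2 α) (N : Subgroup G) [N.Normal]
    (hN : ∀ x ∈ N, α x ∈ N) : Inv2 (quotAut α hα N hN) := by
  intro x
  obtain ⟨y, rfl⟩ := QuotientGroup.mk_surjective x
  simp [hα y]

theorem quotAut_gen (α : MulAut G) (hα : Inv2 α) (hG : Gen α) (N : Subgroup G) [N.Normal]
    (hN : ∀ x ∈ N, α x ∈ N) : Gen (quotAut α hα N hN) := by
  have hs := QuotientGroup.mk'_surjective N
  have h1 : (Subgroup.closure (Set.range (tw α))).map (QuotientGroup.mk' N) = ⊤ := by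
    rw [hG, Subgroup.map_top_of_surjective _ hs]
  rw [MonoidHom.map_closure] at h1
  rw [Gen, eq_top_iff, ← h1]
  apply Subgroup.closure_mono
  rintro _ ⟨_, ⟨c, rfl⟩, rfl⟩
  refine ⟨(c : G ⧸ N), ?_⟩
  simp [tw]

/-- The set `E` can only shrink in a quotient. -/
theorem card_E_quot_le [Finite G] (α : MulAut G) (hα : Inv2 α) (N : Subgroup G) [N.Normal]
    (hN : ∀ x ∈ N, α x ∈ N) : Nat.card (E (quotAut α hα N hN)) ≤ Nat.card (E α) := by
  set β := quotAut α hα N hN
  have hsurj : Function.Surjective (fun e : E α =>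
      (⟨(QuotientGroup.mk' N) e.1, map_mem_E (QuotientGroup.mk' N) (fun _ => rfl) e.2⟩ : E β)) := by
    rintro ⟨x, hx⟩
    obtain ⟨e, he, hfe⟩ := exists_lift_E hα (QuotientGroup.mk' N) (QuotientGroup.mk'_surjective N)
      (β := β) (fun _ => rfl) hx
    exact ⟨⟨e, he⟩, Subtype.ext hfe⟩
  exact Nat.card_le_card_of_surjective _ hsurj

/-- The set `E` strictly shrinks if `N` contains a nontrivial element of `E`. -/
theorem card_E_quot_lt [Finite G] (α : MulAut G) (hα : Inv2 α) (N : Subgroup G) [N.Normal]
    (hN : ∀ x ∈ N, α x ∈ N) {e : G} (he : e ∈ E α) (heN : e ∈ N) (he1 : e ≠ 1) :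
    Nat.card (E (quotAut α hα N hN)) < Nat.card (E α) := by
  set β := quotAut α hα N hN
  let f : E α → E β := fun e =>
    ⟨(QuotientGroup.mk' N) e.1, map_mem_E (QuotientGroup.mk' N) (fun _ => rfl) e.2⟩
  have hsurj : Function.Surjective f := by
    rintro ⟨x, hx⟩
    obtain ⟨e, he, hfe⟩ := exists_lift_E hα (QuotientGroup.mk' N) (QuotientGroup.mk'_surjective N)
      (β := β) (fun _ => rfl) hx
    exact ⟨⟨e, he⟩, Subtype.ext hfe⟩
  have hninj : ¬ Function.Injective f := by
    intro hi
    have : f ⟨e, he⟩ = f ⟨1, one_mem_E α⟩ := by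
      apply Subtype.ext
      show (QuotientGroup.mk' N) e = (QuotientGroup.mk' N) 1
      rw [map_one]
      exact (QuotientGroup.eq_one_iff e).mpr heN
    have := congrArg Subtype.val (hi this)
    exact he1 this
  haveI : Finite (E α) := Subtype.finite
  haveI : Finite (E β) := Subtype.finite
  by_contra hcon
  have hle : Nat.card (E α) ≤ Nat.card (E β) := not_lt.mp hcon
  exact hninj ((Function.Surjective.bijective_of_nat_card_le hsurj hle).1)

/-! ### Abelian groups -/

/-- If `[A, β] = A` with `A` abelian then `β` is the inversion and `A` has odd order. -/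
theorem comm_all_E [Finite G] (hcomm : ∀ a b : G, a * b = b * a) {β : MulAut G} (hβ : Inv2 β)
    (hG : Gen β) (a : G) : a ∈ E β := by
  have hmul : ∀ x y, tw β (x * y) = tw β x * tw β y := by
    intro x y
    simp only [tw, map_mul, mul_inv_rev]
    calc x * y * ((β y)⁻¹ * (β x)⁻¹) = x * (y * (β y)⁻¹ * (β x)⁻¹) := by group
      _ = x * ((β x)⁻¹ * (y * (β y)⁻¹)) := by rw [hcomm (y * (β y)⁻¹)]
      _ = _ := by group
  have hsurj : Function.Surjective (tw β) := by
    have hcl : (Subgroup.closure (Set.range (tw β)) : Set G) = Set.range (tw β) := by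
      let S : Subgroup G :=
        { carrier := Set.range (tw β)
          mul_mem' := by
            rintro _ _ ⟨x, rfl⟩ ⟨y, rfl⟩
            exact ⟨x * y, hmul x y⟩
          one_mem' := ⟨1, by simp [tw]⟩
          inv_mem' := by
            rintro _ ⟨x, rfl⟩
            refine ⟨x⁻¹, ?_⟩
            have := hmul x x⁻¹
            have h1 : tw β 1 = 1 := by simp [tw]
            rw [mul_inv_cancel, h1] at this
            exact eq_inv_of_mul_eq_one_right this.symm }
      have : Subgroup.closure (Set.range (tw β)) = S := by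
        apply le_antisymm
        · rw [Subgroup.closure_le]; exact fun x hx => hx
        · exact fun x hx => Subgroup.subset_closure hx
      rw [this]; rfl
    intro y
    have : y ∈ (Subgroup.closure (Set.range (tw β)) : Set G) := by
      rw [show Subgroup.closure (Set.range (tw β)) = ⊤ from hG]; trivial
    rw [hcl] at this
    exact this
  have hinj : Function.Injective (tw β) := Finite.injective_iff_surjective.mpr hsurj
  have h1 : tw β 1 = 1 := by simp [tw]
  have hinv : ∀ x, β x = x⁻¹ := by
    intro x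
    have : tw β (x * β x) = tw β 1 := by
      rw [h1, tw, map_mul, hβ x, mul_inv_rev]
      rw [hcomm x⁻¹ (β x)⁻¹]
      group
    have h2 := hinj this
    exact eq_inv_of_mul_eq_one_right h2
  refine ⟨?_, hinv a⟩
  rw [← Nat.not_even_iff_odd]
  intro heven
  obtain ⟨r, hr⟩ := heven
  have hpos : 0 < orderOf a := orderOf_pos a
  set b := a ^ r with hb
  have hb2 : b * b = 1 := by
    rw [hb, ← pow_add, ← hr, pow_orderOf_eq_one]
  have hb1 : b ≠ 1 := by
    intro h
    have := orderOf_dvd_of_pow_eq_one h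
    have := Nat.le_of_dvd (by omega) this
    omega
  have htw : tw β b = 1 := by
    rw [tw, hinv b, inv_inv, hb2]
  exact hb1 (hinj (htw.trans h1.symm))

/-- The abelianisation has at most `#E` elements. -/
theorem card_abel_le [Finite G] {α : MulAut G} (hα : Inv2 α) (hG : Gen α) :
    Nat.card (G ⧸ commutator G) ≤ Nat.card (E α) := by
  have hN : ∀ x ∈ commutator G, α x ∈ commutator G := by
    intro x hx
    have hc : (commutator G).Characteristic := inferInstance
    have h2 := hc.fixed α
    have : x ∈ (commutator G).comap α.toMonoidHom := by rw [h2]; exact hx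
    exact this
  set β := quotAut α hα (commutator G) hN
  have hcomm : ∀ a b : G ⧸ commutator G, a * b = b * a := by
    intro a b
    obtain ⟨a, rfl⟩ := QuotientGroup.mk_surjective a
    obtain ⟨b, rfl⟩ := QuotientGroup.mk_surjective b
    rw [← QuotientGroup.mk_mul, ← QuotientGroup.mk_mul, QuotientGroup.eq]
    have : (a * b)⁻¹ * (b * a) = ⁅b⁻¹, a⁻¹⁆ := by
      simp [commutatorElement_def, mul_assoc]
    rw [this]
    exact Subgroup.commutator_mem_commutator (Subgroup.mem_top _) (Subgroup.mem_top _)
  have hall : ∀ a : G ⧸ commutator G, a ∈ E β :=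
    comm_all_E hcomm (quotAut_inv2 α hα _ hN) (quotAut_gen α hα hG _ hN)
  have h1 := card_E_quot_le α hα (commutator G) hN
  refine le_trans ?_ h1
  apply Nat.card_le_card_of_injective (fun a => (⟨a, hall a⟩ : E β))
  intro a b hab
  exact congrArg Subtype.val hab

/-- Bound on `#G` in terms of `#E` and `#G'`. -/
theorem card_le_E_mul [Finite G] {α : MulAut G} (hα : Inv2 α) (hG : Gen α) :
    Nat.card G ≤ Nat.card (E α) * Nat.card (commutator G) := by
  have h := Subgroup.card_eq_card_quotient_mul_card_subgroup (commutator G)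
  rw [h]
  exact Nat.mul_le_mul_right _ (card_abel_le hα hG)

end Cfsg.Agent.Lib.TwistInv
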