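import Mathlib
import Cfsg.Agent.Lib.TwistInv

/-!
# Key counting lemma: inverted conjugates under a normal 2-subgroup

If `T` is a normal `α`-invariant `2`-subgroup and `e` has odd order and is inverted by `α` then the
number of `T`-conjugates of `e` is at most the square of the number of those inverted by `α`.
-/

set_option autoImplicit false
set_option linter.style.haveILetI false
set_option linter.unusedSectionVars false
set_option linter.unusedVariables false

namespace Cfsg.Agent.Lib.TwistKey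

open Cfsg.Agent.Lib.TwistInv

universe u

variable {G : Type u} [Group G]

/-- Conjugates under `T`. -/
def X (T : Subgroup G) (e : G) : Set G := {x | ∃ t ∈ T, x = t * e * t⁻¹}

/-- Inverted conjugates under `T`. -/
def InvX (α : MulAut G) (T : Subgroup G) (e : G) : Set G := {x | x ∈ X T e ∧ α x = x⁻¹}

/-- The norm computation: a "commutator" in an elementary abelian normal subgroup. -/
theorem exists_conj_of_pow_eq_one {V : Subgroup G} (hcomm : ∀ a ∈ V, ∀ b ∈ V, a * b = b * a)
    (hsq : ∀ a ∈ V, a * a = 1) {x w : G} (hxV : ∀ a ∈ V, x * a * x⁻¹ ∈ V) (hw : w ∈ V)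
    {m : ℕ} (hm : Odd m) (hxm : x ^ m = 1) (hwm : (w * x) ^ m = 1) :
    ∃ v ∈ V, v * x * v⁻¹ = w * x := by
  -- conjugates
  let σ : ℕ → G := fun i => x ^ i * w * (x ^ i)⁻¹
  have hpow : ∀ i, ∀ a ∈ V, x ^ i * a * (x ^ i)⁻¹ ∈ V := by
    intro i
    induction i with
    | zero => simp
    | succ i ih =>
      intro a ha
      have := hxV _ (ih a ha)
      rw [pow_succ']
      convert this using 1
      group
  have hσ : ∀ i, σ i ∈ V := fun i => hpow i w hw
  -- `R k` is the partial norm
  let R : ℕ → G := fun k => Nat.rec 1 (fun k r => r * σ k) k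
  have hRs : ∀ k, R (k + 1) = R k * σ k := fun k => rfl
  have hR : ∀ k, (w * x) ^ k = R k * x ^ k := by
    intro k
    induction k with
    | zero => simp [R]
    | succ k ih =>
      rw [pow_succ, ih, hRs]
      simp only [σ]
      group
  have hRV : ∀ k, R k ∈ V := by
    intro k
    induction k with
    | zero => exact V.one_mem
    | succ k ih => rw [hRs]; exact V.mul_mem ih (hσ k)
  -- `Q j` collects the odd conjugates
  let Q : ℕ → G := fun j => Nat.rec 1 (fun j q => q * σ (2 * j + 1)) j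
  have hQs : ∀ j, Q (j + 1) = Q j * σ (2 * j + 1) := fun j => rfl
  have hQV : ∀ j, Q j ∈ V := by
    intro j
    induction j with
    | zero => exact V.one_mem
    | succ j ih => rw [hQs]; exact V.mul_mem ih (hσ _)
  have hcv : ∀ i, x * σ i * x⁻¹ = σ (i + 1) := by
    intro i
    simp only [σ]
    rw [pow_succ']
    group
  have hQR : ∀ j, R (2 * j + 1) = w * (Q j * (x * Q j * x⁻¹)) := by
    intro j
    induction j with
    | zero => simp [R, Q, σ]
    | succ j ih =>
      have h1 : R (2 * (j + 1) + 1) = R (2 * j + 1) * σ (2 * j + 1) * σ (2 * j + 2) := by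
        show R (2 * j + 1 + 1 + 1) = _
        rw [hRs (2 * j + 1 + 1), hRs (2 * j + 1)]
      have h2 : x * Q (j + 1) * x⁻¹ = (x * Q j * x⁻¹) * σ (2 * j + 2) := by
        rw [hQs, ← hcv (2 * j + 1)]
        group
      rw [h1, ih, h2, hQs]
      have ha := hQV j
      have hb := hσ (2 * j + 1)
      have hc := hxV _ ha
      have e1 := hcomm _ hb _ hc
      generalize x * Q j * x⁻¹ = c at *
      generalize σ (2 * j + 1) = b at *
      generalize σ (2 * j + 2) = d at *
      generalize Q j = a at *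
      calc w * (a * c) * b * d = w * (a * (c * b)) * d := by group
        _ = w * (a * (b * c)) * d := by rw [e1]
        _ = _ := by group
  obtain ⟨j, rfl⟩ := hm
  have h1 : R (2 * j + 1) = 1 := by
    have := hR (2 * j + 1)
    rw [hwm, hxm, mul_one] at this
    exact this.symm
  rw [hQR] at h1
  set v := Q j with hv
  have hvV : v ∈ V := hQV j
  have hvinv : v⁻¹ = v := by
    have := hsq v hvV
    exact inv_eq_of_mul_eq_one_left this
  have hyV : x * v * x⁻¹ ∈ V := hxV _ hvV
  have h2 : v * (x * v * x⁻¹) = w := by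
    have hww : w * w = 1 := hsq w hw
    have h3 : w * (w * (v * (x * v * x⁻¹))) = w * 1 := by rw [h1]
    rw [← mul_assoc, hww, one_mul, mul_one] at h3
    exact h3
  refine ⟨v, hvV, ?_⟩
  rw [← h2, hvinv]
  group

/-! ### Fibre counting for sets -/

theorem ncard_le_mul_of_fibers {A B : Type*} [Finite A] [Finite B] (s : Set A) (t : Set B) (f : A → B)
    (n : ℕ) (hst : ∀ x ∈ s, f x ∈ t) (hfib : ∀ a ∈ t, (s ∩ f ⁻¹' {a}).ncard ≤ n) :
    s.ncard ≤ n * t.ncard := by
  classical
  haveI := Fintype.ofFinite A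
  haveI := Fintype.ofFinite B
  rw [Set.ncard_eq_toFinset_card', Set.ncard_eq_toFinset_card']
  have h := Finset.card_eq_sum_card_fiberwise (s := s.toFinset) (t := t.toFinset) (f := f)
    (by intro x hx; simpa using hst x (by simpa using hx))
  rw [h]
  calc ∑ b ∈ t.toFinset, ((s.toFinset).filter (fun a => f a = b)).card
      ≤ ∑ b ∈ t.toFinset, n := by
        apply Finset.sum_le_sum
        intro b hb
        have := hfib b (by simpa using hb)
        rw [Set.ncard_eq_toFinset_card'] at this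
        have heq : ((s.toFinset).filter (fun a => f a = b)) = (s ∩ f ⁻¹' {b}).toFinset := by
          ext x; simp
        rw [heq]
        exact this
    _ = n * t.toFinset.card := by simp [mul_comm]

theorem mul_ncard_le_of_fibers {A B : Type*} [Finite A] [Finite B] (s : Set A) (t : Set B) (f : A → B)
    (n : ℕ) (hfib : ∀ a ∈ t, n ≤ (s ∩ f ⁻¹' {a}).ncard) :
    n * t.ncard ≤ s.ncard := by
  classical
  haveI := Fintype.ofFinite A
  haveI := Fintype.ofFinite B
  have h1 : (s ∩ f ⁻¹' t).ncard ≤ s.ncard :=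
    Set.ncard_le_ncard Set.inter_subset_left (Set.toFinite _)
  refine le_trans ?_ h1
  rw [Set.ncard_eq_toFinset_card' t, Set.ncard_eq_toFinset_card' (s ∩ f ⁻¹' t)]
  have h := Finset.card_eq_sum_card_fiberwise (s := (s ∩ f ⁻¹' t).toFinset) (t := t.toFinset) (f := f)
    (by intro x hx; simp at hx ⊢; exact hx.2)
  rw [h]
  calc n * t.toFinset.card = ∑ b ∈ t.toFinset, n := by simp [mul_comm]
    _ ≤ _ := by
      apply Finset.sum_le_sum
      intro b hb
      have hb' : b ∈ t := by simpa using hb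
      have := hfib b hb'
      rw [Set.ncard_eq_toFinset_card'] at this
      have heq : ((s ∩ f ⁻¹' t).toFinset.filter (fun a => f a = b)) = (s ∩ f ⁻¹' {b}).toFinset := by
        ext x
        simp only [Finset.mem_filter, Set.mem_toFinset, Set.mem_inter_iff, Set.mem_preimage,
          Set.mem_singleton_iff]
        constructor
        · rintro ⟨⟨h1, _⟩, h3⟩
          exact ⟨h1, h3⟩
        · rintro ⟨h1, h3⟩
          exact ⟨⟨h1, by rw [h3]; exact hb'⟩, h3⟩
      rw [heq]
      exact this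

/-! ### Counting inverted conjugates under an elementary abelian subgroup -/

/-- Conjugates under `V`, inverted ones are at least the square root of all of them. -/
theorem orbit_le_sq [Finite G] {α : MulAut G} (hα : Inv2 α) {V : Subgroup G}
    (hcomm : ∀ a ∈ V, ∀ b ∈ V, a * b = b * a) (hsq : ∀ a ∈ V, a * a = 1)
    (hVα : ∀ a ∈ V, α a ∈ V) {y : G} (hyV : ∀ a ∈ V, y * a * y⁻¹ ∈ V) (hy : α y = y⁻¹) :
    (X V y).ncard ≤ (InvX α V y).ncard ^ 2 := by
  have hinvV : ∀ a ∈ V, a⁻¹ = a := fun a ha => inv_eq_of_mul_eq_one_left (hsq a ha)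
  -- the subgroup `B`
  let δ : G → G := fun v => v * (y * v * y⁻¹)
  let B : Subgroup G :=
    { carrier := {b | ∃ v ∈ V, b = δ v}
      mul_mem' := by
        rintro _ _ ⟨v, hv, rfl⟩ ⟨w, hw, rfl⟩
        refine ⟨v * w, V.mul_mem hv hw, ?_⟩
        simp only [δ]
        have e := hcomm _ (hyV v hv) _ hw
        calc v * (y * v * y⁻¹) * (w * (y * w * y⁻¹)) = v * ((y * v * y⁻¹) * w) * (y * w * y⁻¹) := by
              group
          _ = v * (w * (y * v * y⁻¹)) * (y * w * y⁻¹) := by rw [e]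
          _ = _ := by group
      one_mem' := ⟨1, V.one_mem, by simp [δ]⟩
      inv_mem' := by
        rintro _ ⟨v, hv, rfl⟩
        refine ⟨v, hv, ?_⟩
        have hd : δ v ∈ V := V.mul_mem hv (hyV v hv)
        exact hinvV _ hd }
  have hBV : ∀ b ∈ B, b ∈ V := by
    rintro _ ⟨v, hv, rfl⟩
    exact V.mul_mem hv (hyV v hv)
  -- `τ`
  let τ : G → G := fun b => y * α b * y⁻¹
  have hτδ : ∀ v ∈ V, τ (δ v) = δ (α v) := by
    intro v hv
    have hv' := hVα v hv
    simp only [τ, δ, map_mul, map_inv, hy, inv_inv]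
    have e := hcomm _ (hyV _ hv') _ hv'
    calc y * (α v * (y⁻¹ * α v * y)) * y⁻¹ = (y * α v * y⁻¹) * α v := by group
      _ = _ := e
  have hτB : ∀ b ∈ B, τ b ∈ B := by
    rintro _ ⟨v, hv, rfl⟩
    exact ⟨α v, hVα v hv, hτδ v hv⟩
  have hττ : ∀ b, τ (τ b) = b := by
    intro b
    simp only [τ, map_mul, map_inv, hy, inv_inv, hα b]
    group
  have hτmul : ∀ a b, τ (a * b) = τ a * τ b := by
    intro a b
    simp only [τ, map_mul]
    group
  let Fix : Set G := {b | b ∈ B ∧ τ b = b}
  -- the `X` set is the translate of `B`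
  have hX : X V y = (fun b => b * y) '' (B : Set G) := by
    ext x
    constructor
    · rintro ⟨v, hv, rfl⟩
      refine ⟨δ v, ⟨v, hv, rfl⟩, ?_⟩
      simp only [δ]
      rw [hinvV v hv]
      group
    · rintro ⟨_, ⟨v, hv, rfl⟩, rfl⟩
      refine ⟨v, hv, ?_⟩
      simp only [δ]
      rw [hinvV v hv]
      group
  have hcardX : (X V y).ncard = (B : Set G).ncard := by
    rw [hX]
    exact Set.ncard_image_of_injective _ (mul_left_injective y)
  -- `Fix` injects into `InvX`
  have hFix : Fix.ncard ≤ (InvX α V y).ncard := by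
    have hsub : (fun b => b * y) '' Fix ⊆ InvX α V y := by
      rintro _ ⟨b, ⟨hbB, hb⟩, rfl⟩
      refine ⟨?_, ?_⟩
      · rw [hX]; exact ⟨b, hbB, rfl⟩
      · simp only [τ] at hb
        have hbV := hBV b hbB
        simp only [map_mul, hy, mul_inv_rev]
        rw [hinvV b hbV]
        calc α b * y⁻¹ = y⁻¹ * (y * α b * y⁻¹) := by group
          _ = y⁻¹ * b := by rw [hb]
    calc Fix.ncard = ((fun b => b * y) '' Fix).ncard :=
          (Set.ncard_image_of_injective _ (mul_left_injective y)).symm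
      _ ≤ _ := Set.ncard_le_ncard hsub (Set.toFinite _)
  -- `B` has at most `#Fix ^ 2` elements
  have hB : (B : Set G).ncard ≤ Fix.ncard * Fix.ncard := by
    apply ncard_le_mul_of_fibers (B : Set G) Fix (fun b => b * τ b)
    · intro b hb
      refine ⟨B.mul_mem hb (hτB b hb), ?_⟩
      rw [hτmul, hττ]
      exact hcomm _ (hBV _ (hτB b hb)) _ (hBV _ hb)
    · intro a ha
      by_cases hemp : ((B : Set G) ∩ (fun b => b * τ b) ⁻¹' {a}).Nonempty
      · obtain ⟨b₀, hb₀B, hb₀⟩ := hemp
        have hsub : (fun b => b * b₀) '' ((B : Set G) ∩ (fun b => b * τ b) ⁻¹' {a}) ⊆ Fix := by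
          rintro _ ⟨b, ⟨hbB, hb⟩, rfl⟩
          refine ⟨B.mul_mem hbB hb₀B, ?_⟩
          have hb' : b * τ b = a := hb
          have hb₀' : b₀ * τ b₀ = a := hb₀
          have haa : a * a = 1 := hsq a (hBV a ha.1)
          have h1 : (b * b₀) * τ (b * b₀) = 1 := by
            rw [hτmul]
            have e1 := hcomm _ (hBV _ hb₀B) _ (hBV _ (hτB b hbB))
            calc b * b₀ * (τ b * τ b₀) = b * (b₀ * τ b) * τ b₀ := by group
              _ = b * (τ b * b₀) * τ b₀ := by rw [e1]
              _ = (b * τ b) * (b₀ * τ b₀) := by group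
              _ = 1 := by rw [hb', hb₀', haa]
          have hmem : b * b₀ ∈ B := B.mul_mem hbB hb₀B
          have h2 : τ (b * b₀) = (b * b₀)⁻¹ := eq_inv_of_mul_eq_one_right h1
          rw [h2, hinvV _ (hBV _ hmem)]
        calc _ = ((fun b => b * b₀) '' ((B : Set G) ∩ (fun b => b * τ b) ⁻¹' {a})).ncard :=
              (Set.ncard_image_of_injective _ (mul_left_injective b₀)).symm
          _ ≤ _ := Set.ncard_le_ncard hsub (Set.toFinite _)
      · rw [Set.not_nonempty_iff_eq_empty.mp hemp]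
        simp
  rw [hcardX, pow_two]
  exact hB.trans (Nat.mul_le_mul hFix hFix)

/-- A nontrivial normal elementary abelian subgroup central in `T`. -/
theorem exists_V [Finite G] {α : MulAut G} (hα : Inv2 α) {T : Subgroup G} (hTn : T.Normal)
    (hT : IsPGroup 2 T) (hTα : ∀ x ∈ T, α x ∈ T) (hbot : T ≠ ⊥) :
    ∃ V : Subgroup G, V.Normal ∧ V ≤ T ∧ V ≠ ⊥ ∧ (∀ a ∈ V, ∀ t ∈ T, a * t = t * a) ∧
      (∀ a ∈ V, a * a = 1) ∧ (∀ a ∈ V, α a ∈ V) := by
  let V : Subgroup G :=
    { carrier := {z | z ∈ T ∧ (∀ t ∈ T, z * t = t * z) ∧ z * z = 1}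
      mul_mem' := by
        rintro a b ⟨ha, ha', ha2⟩ ⟨hb, hb', hb2⟩
        refine ⟨T.mul_mem ha hb, ?_, ?_⟩
        · intro t ht
          rw [mul_assoc, hb' t ht, ← mul_assoc, ha' t ht, mul_assoc]
        · calc a * b * (a * b) = a * (b * a) * b := by group
            _ = a * (a * b) * b := by rw [← ha' b hb]
            _ = (a * a) * (b * b) := by group
            _ = 1 := by rw [ha2, hb2, one_mul]
      one_mem' := ⟨T.one_mem, by simp, by simp⟩
      inv_mem' := by
        rintro a ⟨ha, ha', ha2⟩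
        have : a⁻¹ = a := inv_eq_of_mul_eq_one_left ha2
        rw [this]
        exact ⟨ha, ha', ha2⟩ }
  refine ⟨V, ?_, fun x hx => hx.1, ?_, fun a ha => ha.2.1, fun a ha => ha.2.2, ?_⟩
  · constructor
    rintro z ⟨hz, hz', hz2⟩ g
    refine ⟨hTn.conj_mem z hz g, ?_, ?_⟩
    · intro t ht
      have ht' : g⁻¹ * t * g ∈ T := by
        have := hTn.conj_mem t ht g⁻¹
        simpa using this
      have := hz' _ ht'
      calc g * z * g⁻¹ * t = g * (z * (g⁻¹ * t * g)) * g⁻¹ := by group
        _ = g * ((g⁻¹ * t * g) * z) * g⁻¹ := by rw [this]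
        _ = _ := by group
    · calc g * z * g⁻¹ * (g * z * g⁻¹) = g * (z * z) * g⁻¹ := by group
        _ = 1 := by rw [hz2]; group
  · -- nontrivial
    have hntT : Nontrivial T := (Subgroup.nontrivial_iff_ne_bot T).mpr hbot
    haveI := hT.center_nontrivial
    obtain ⟨c, hc⟩ := exists_ne (1 : Subgroup.center T)
    have hc0 : (c : T) ≠ 1 := fun h => hc (Subtype.ext h)
    obtain ⟨k, hk⟩ := (IsPGroup.iff_orderOf.mp hT) (c : T)
    have hk0 : k ≠ 0 := by
      rintro rfl
      rw [pow_zero, orderOf_eq_one_iff] at hk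
      exact hc0 hk
    obtain ⟨l, rfl⟩ := Nat.exists_eq_succ_of_ne_zero hk0
    set b : T := (c : T) ^ 2 ^ l with hb
    have hb1 : b ≠ 1 := by
      apply pow_ne_one_of_lt_orderOf
      · positivity
      · rw [hk, Nat.succ_eq_add_one, pow_succ]
        have : 0 < 2 ^ l := by positivity
        omega
    have hb2 : b * b = 1 := by
      rw [hb, ← pow_add, ← two_mul, ← pow_succ', ← hk, pow_orderOf_eq_one]
    have hbZ : b ∈ Subgroup.center T := Subgroup.pow_mem _ c.2 _
    intro hV
    have hmem : (b : G) ∈ V := by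
      refine ⟨b.2, ?_, ?_⟩
      · intro t ht
        have := (Subgroup.mem_center_iff.mp hbZ) ⟨t, ht⟩
        have h3 := congrArg (Subtype.val) this
        exact h3.symm
      · have := congrArg (Subtype.val) hb2
        simpa using this
    rw [hV] at hmem
    exact hb1 (Subtype.ext hmem)
  · rintro z ⟨hz, hz', hz2⟩
    refine ⟨hTα z hz, ?_, ?_⟩
    · intro t ht
      have := hz' (α t) (hTα t ht)
      have h2 := congrArg α this
      simpa [hα t] using h2
    · rw [← map_mul, hz2, map_one]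

/-- **Key lemma.** -/
theorem key_count : ∀ (n : ℕ) (G : Type u) [Group G] [Finite G] (α : MulAut G) (_ : Inv2 α)
    (T : Subgroup G) (_ : T.Normal) (_ : IsPGroup 2 T) (_ : ∀ x ∈ T, α x ∈ T) (e : G) (_ : e ∈ E α),
    Nat.card T = n → (X T e).ncard ≤ (InvX α T e).ncard ^ 2 := by
  intro n
  induction n using Nat.strong_induction_on with
  | _ n ih =>
  intro G _ _ α hα T hTn hT hTα e he hn
  by_cases hbot : T = ⊥
  · subst hbot
    have h1 : X (⊥ : Subgroup G) e = {e} := by
      ext x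
      constructor
      · rintro ⟨t, ht, rfl⟩
        rw [Subgroup.mem_bot] at ht
        simp [ht]
      · rintro rfl
        exact ⟨1, Subgroup.one_mem _, by simp⟩
    have h2 : e ∈ InvX α (⊥ : Subgroup G) e := ⟨by rw [h1]; rfl, he.2⟩
    have h3 : 0 < (InvX α (⊥ : Subgroup G) e).ncard :=
      (Set.ncard_pos (Set.toFinite _)).mpr ⟨e, h2⟩
    rw [h1, Set.ncard_singleton]
    exact Nat.one_le_pow _ _ h3
  obtain ⟨V, hVn, hVT, hVbot, hVc, hVs, hVα⟩ := exists_V hα hTn hT hTα hbot
  haveI := hVn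
  have hcommV : ∀ a ∈ V, ∀ b ∈ V, a * b = b * a := fun a ha b hb => hVc a ha b (hVT hb)
  set mk := QuotientGroup.mk' V with hmk
  have hmks : Function.Surjective mk := QuotientGroup.mk'_surjective V
  set β := quotAut α hα V hVα with hβ
  have hβ2 : Inv2 β := quotAut_inv2 α hα V hVα
  have hc : ∀ x, mk (α x) = β (mk x) := fun _ => rfl
  set T' := T.map mk with hT'
  have hT'n : T'.Normal := hTn.map mk hmks
  have hT'p : IsPGroup 2 T' := hT.map mk
  have hT'α : ∀ x ∈ T', β x ∈ T' := by
    rintro _ ⟨t, ht, rfl⟩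
    exact ⟨α t, hTα t ht, rfl⟩
  have hlt : Nat.card T' < n := by
    rw [← hn]
    let f : T →* T' := mk.subgroupMap T
    have hfs : Function.Surjective f := mk.subgroupMap_surjective T
    by_contra hcon
    have hle : Nat.card T ≤ Nat.card T' := not_lt.mp hcon
    have hbij := Function.Surjective.bijective_of_nat_card_le hfs hle
    apply hVbot
    rw [eq_bot_iff]
    intro v hv
    have : f ⟨v, hVT hv⟩ = f 1 := by
      apply Subtype.ext
      show mk v = mk 1
      rw [map_one]
      exact (QuotientGroup.eq_one_iff v).mpr hv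
    have := congrArg Subtype.val (hbij.1 this)
    exact this
  have he' : mk e ∈ E β := map_mem_E mk hc he
  have hIH := ih _ hlt (G ⧸ V) β hβ2 T' hT'n hT'p hT'α (mk e) he' rfl
  -- orders
  have hordX : ∀ x ∈ X T e, x ^ orderOf e = 1 := by
    rintro x ⟨t, ht, rfl⟩
    have : (t * e * t⁻¹) ^ orderOf e = t * e ^ orderOf e * t⁻¹ := by
      rw [conj_pow]
    rw [this, pow_orderOf_eq_one]
    group
  have hnorm : ∀ x : G, ∀ a ∈ V, x * a * x⁻¹ ∈ V := fun x a ha => hVn.conj_mem a ha x
  have hoddE := he.1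
  -- the fibres
  have hmemX : ∀ x ∈ X T e, ∀ v ∈ V, v * x * v⁻¹ ∈ X T e := by
    rintro x ⟨t, ht, rfl⟩ v hv
    exact ⟨v * t, T.mul_mem (hVT hv) ht, by group⟩
  have hfib : ∀ x ∈ X T e, X T e ∩ mk ⁻¹' {mk x} = X V x := by
    intro x hx
    ext x'
    constructor
    · rintro ⟨hx', hmx⟩
      have hmx' : mk x' = mk x := hmx
      have hw : x' * x⁻¹ ∈ V := by
        have : mk (x' * x⁻¹) = 1 := by rw [map_mul, map_inv, hmx', mul_inv_cancel]
        exact (QuotientGroup.eq_one_iff _).mp this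
      obtain ⟨v, hv, hvx⟩ := exists_conj_of_pow_eq_one hcommV hVs (hnorm x) hw hoddE
        (hordX x hx) (by simpa using hordX x' hx')
      refine ⟨v, hv, ?_⟩
      rw [hvx]
      group
    · rintro ⟨v, hv, rfl⟩
      refine ⟨hmemX x hx v hv, ?_⟩
      show mk (v * x * v⁻¹) = mk x
      have hv1 : mk v = 1 := (QuotientGroup.eq_one_iff _).mpr hv
      rw [map_mul, map_mul, map_inv, hv1]
      simp
  -- the size of `V`-orbits is constant
  set c := (X V e).ncard with hcdef
  have hcard : ∀ x ∈ X T e, (X V x).ncard = c := by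
    rintro x ⟨t, ht, rfl⟩
    have h1 : X V (t * e * t⁻¹) = (fun z => t * z * t⁻¹) '' X V e := by
      ext z
      constructor
      · rintro ⟨v, hv, rfl⟩
        refine ⟨t⁻¹ * v * t * e * (t⁻¹ * v * t)⁻¹, ⟨t⁻¹ * v * t, ?_, rfl⟩, by group⟩
        simpa using hnorm t⁻¹ v hv
      · rintro ⟨_, ⟨v, hv, rfl⟩, rfl⟩
        exact ⟨t * v * t⁻¹, hnorm t v hv, by group⟩
    rw [h1, hcdef]
    apply Set.ncard_image_of_injective
    intro a b hab
    simpa using hab
  -- image of `X`
  have hmapX : ∀ x ∈ X T e, mk x ∈ X T' (mk e) := by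
    rintro x ⟨t, ht, rfl⟩
    exact ⟨mk t, ⟨t, ht, rfl⟩, by simp⟩
  have hX2 : ∀ a ∈ X T' (mk e), ∃ x ∈ X T e, mk x = a := by
    rintro _ ⟨_, ⟨t, ht, rfl⟩, rfl⟩
    exact ⟨t * e * t⁻¹, ⟨t, ht, rfl⟩, by simp⟩
  have hXle : (X T e).ncard ≤ c * (X T' (mk e)).ncard := by
    apply ncard_le_mul_of_fibers (X T e) (X T' (mk e)) mk c hmapX
    intro a ha
    obtain ⟨x, hx, rfl⟩ := hX2 a ha
    rw [hfib x hx, hcard x hx]
  -- lifts of inverted elements
  have hlift : ∀ a ∈ InvX β T' (mk e), ∃ y ∈ InvX α T e, mk y = a := by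
    rintro a ⟨ha, hainv⟩
    obtain ⟨x, hx, rfl⟩ := hX2 a ha
    have hodd : Odd (orderOf (mk x)) := by
      obtain ⟨t, ht, rfl⟩ := hx
      apply Odd.of_dvd_nat hoddE
      apply orderOf_dvd_of_pow_eq_one
      rw [← map_pow, hordX _ ⟨t, ht, rfl⟩, map_one]
    obtain ⟨e', he'E, he'x⟩ := exists_lift_E hα mk hmks hc (x := mk x) ⟨hodd, hainv⟩
    have hw : e' * x⁻¹ ∈ V := by
      have : mk (e' * x⁻¹) = 1 := by rw [map_mul, map_inv, he'x, mul_inv_cancel]
      exact (QuotientGroup.eq_one_iff _).mp this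
    have hpow : e' ^ orderOf e = 1 := by
      have h1 : e' ^ orderOf e ∈ V := by
        have : mk (e' ^ orderOf e) = 1 := by
          rw [map_pow, he'x, ← map_pow, hordX x hx, map_one]
        exact (QuotientGroup.eq_one_iff _).mp this
      have h2 := hVs _ h1
      have h3 : orderOf (e' ^ orderOf e) ∣ 2 := by
        apply orderOf_dvd_of_pow_eq_one
        rw [pow_two]; exact h2
      have h4 : Odd (orderOf (e' ^ orderOf e)) := odd_orderOf_pow_of_odd _ _ he'E.1
      have h5 : orderOf (e' ^ orderOf e) = 1 := by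
        have := Nat.le_of_dvd (by norm_num) h3
        obtain ⟨r, hr⟩ := h4
        omega
      exact orderOf_eq_one_iff.mp h5
    obtain ⟨v, hv, hvx⟩ := exists_conj_of_pow_eq_one hcommV hVs (hnorm x) hw hoddE
      (hordX x hx) (by simpa using hpow)
    have he'eq : e' = v * x * v⁻¹ := by rw [hvx]; group
    refine ⟨e', ⟨?_, he'E.2⟩, he'x⟩
    rw [he'eq]
    exact hmemX x hx v hv
  -- inverted conjugates in each fibre
  let ℓ := sInf {k : ℕ | c ≤ k * k}
  have hℓmem : c ≤ ℓ * ℓ := by
    have hne : {k : ℕ | c ≤ k * k}.Nonempty := ⟨c, Nat.le_mul_self c⟩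
    exact Nat.sInf_mem hne
  have hfibInv : ∀ a ∈ InvX β T' (mk e), ℓ ≤ (InvX α T e ∩ mk ⁻¹' {a}).ncard := by
    intro a ha
    obtain ⟨y, hy, rfl⟩ := hlift a ha
    have hyX := hy.1
    have h1 : (X V y).ncard ≤ (InvX α V y).ncard ^ 2 :=
      orbit_le_sq hα hcommV hVs hVα (hnorm y) hy.2
    rw [hcard y hyX, pow_two] at h1
    have h2 : ℓ ≤ (InvX α V y).ncard := Nat.sInf_le h1
    refine h2.trans (Set.ncard_le_ncard ?_ (Set.toFinite _))
    rintro z ⟨hz, hzinv⟩
    have : z ∈ X V y := hz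
    rw [← hfib y hyX] at this
    exact ⟨⟨this.1, hzinv⟩, this.2⟩
  have hYle : ℓ * (InvX β T' (mk e)).ncard ≤ (InvX α T e).ncard :=
    mul_ncard_le_of_fibers _ _ mk ℓ hfibInv
  calc (X T e).ncard ≤ c * (X T' (mk e)).ncard := hXle
    _ ≤ (ℓ * ℓ) * (InvX β T' (mk e)).ncard ^ 2 := Nat.mul_le_mul hℓmem hIH
    _ = (ℓ * (InvX β T' (mk e)).ncard) ^ 2 := by ring
    _ ≤ _ := Nat.pow_le_pow_left hYle 2

/-- Index form of the key lemma. -/
theorem relIndex_le [Finite G] {α : MulAut G} (hα : Inv2 α) {T : Subgroup G} (hTn : T.Normal)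
    (hT : IsPGroup 2 T) (hTα : ∀ x ∈ T, α x ∈ T) {e : G} (he : e ∈ E α) :
    (Subgroup.centralizer ({e} : Set G)).relIndex T ≤ Nat.card (E α) ^ 2 := by
  have h1 := key_count _ G α hα T hTn hT hTα e he rfl
  have h2 : (InvX α T e).ncard ≤ Nat.card (E α) := by
    rw [Nat.card_coe_set_eq]
    apply Set.ncard_le_ncard _ (Set.toFinite _)
    rintro x ⟨⟨t, ht, rfl⟩, hinv⟩
    refine ⟨?_, hinv⟩
    have : orderOf (t * e * t⁻¹) = orderOf e := by
      rw [← MulAut.conj_apply, MulEquiv.orderOf_eq]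
    rw [this]
    exact he.1
  have h3 : (Subgroup.centralizer ({e} : Set G)).relIndex T ≤ (X T e).ncard := by
    -- the orbit map from the cosets to the conjugates
    let C : Subgroup T := (Subgroup.centralizer ({e} : Set G)).subgroupOf T
    rw [Subgroup.relIndex, Subgroup.index_eq_card]
    let φ : (T ⧸ C) → X T e := fun q =>
      ⟨(q.out : G) * e * (q.out : G)⁻¹, (q.out : G), q.out.2, rfl⟩
    have hφ : Function.Injective φ := by
      intro q₁ q₂ h
      have h' : ((q₁.out : T) : G) * e * ((q₁.out : T) : G)⁻¹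
          = ((q₂.out : T) : G) * e * ((q₂.out : T) : G)⁻¹ := congrArg Subtype.val h
      rw [← q₁.out_eq, ← q₂.out_eq, QuotientGroup.eq]
      change (q₁.out⁻¹ * q₂.out) ∈ C
      rw [Subgroup.mem_subgroupOf, Subgroup.mem_centralizer_singleton_iff]
      simp only [Subgroup.coe_mul, InvMemClass.coe_inv]
      have : ((q₂.out : T) : G) * e = ((q₁.out : T) : G) * e * ((q₁.out : T) : G)⁻¹ * ((q₂.out : T) : G) := by
        rw [h']; group
      calc ((q₁.out : T) : G)⁻¹ * ((q₂.out : T) : G) * e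
          = ((q₁.out : T) : G)⁻¹ * (((q₂.out : T) : G) * e) := by group
        _ = e * (((q₁.out : T) : G)⁻¹ * ((q₂.out : T) : G)) := by rw [this]; group
    have := Nat.card_le_card_of_injective φ hφ
    rwa [Nat.card_coe_set_eq] at this
  exact h3.trans (h1.trans (Nat.pow_le_pow_left h2 2))

end Cfsg.Agent.Lib.TwistKey
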