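import Mathlib
import Cfsg.Agent.Lib.TwistKey
import Cfsg.Agent.Lib.BaerSuzuki
import Cfsg.Agent.Lib.PCore

/-!
# Bounds for groups generated by inverted elements

Schur's bound in terms of the index of the centre, an application of Baer–Suzuki to involutory
automorphisms, and the central part of the bound.
-/

set_option autoImplicit false
set_option linter.style.haveILetI false
set_option linter.unusedSectionVars false
set_option linter.unusedVariables false

namespace Cfsg.Agent.Lib.TwistBound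

open Cfsg.Agent.Lib.TwistInv Cfsg.Agent.Lib.TwistKey
open scoped commutatorElement

universe u

section Schur

variable (G : Type u) [Group G]

theorem card_commutatorSet_le [Finite G] :
    Nat.card (commutatorSet G) ≤ (Subgroup.center G).index ^ 2 := by
  classical
  have hf : Finite (G ⧸ Subgroup.center G) := inferInstance
  let f : (G ⧸ Subgroup.center G) × (G ⧸ Subgroup.center G) → commutatorSet G := fun q =>
    ⟨⁅q.1.out, q.2.out⁆, q.1.out, q.2.out, rfl⟩
  have hsurj : Function.Surjective f := by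
    rintro ⟨_, a, b, rfl⟩
    refine ⟨(((a : G ⧸ Subgroup.center G)), ((b : G ⧸ Subgroup.center G))), ?_⟩
    apply Subtype.ext
    show ⁅(a : G ⧸ Subgroup.center G).out, (b : G ⧸ Subgroup.center G).out⁆ = ⁅a, b⁆
    have h1 : (a : G ⧸ Subgroup.center G).out = a * (a⁻¹ * (a : G ⧸ Subgroup.center G).out) := by
      group
    have h2 : (b : G ⧸ Subgroup.center G).out = b * (b⁻¹ * (b : G ⧸ Subgroup.center G).out) := by
      group
    have ha : a⁻¹ * (a : G ⧸ Subgroup.center G).out ∈ Subgroup.center G := by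
      rw [← QuotientGroup.eq, QuotientGroup.out_eq']
    have hb : b⁻¹ * (b : G ⧸ Subgroup.center G).out ∈ Subgroup.center G := by
      rw [← QuotientGroup.eq, QuotientGroup.out_eq']
    rw [h1, h2]
    generalize a⁻¹ * (a : G ⧸ Subgroup.center G).out = z at ha
    generalize b⁻¹ * (b : G ⧸ Subgroup.center G).out = w at hb
    rw [Subgroup.mem_center_iff] at ha hb
    simp only [commutatorElement_def]
    have e1 : (a * z)⁻¹ = a⁻¹ * z⁻¹ := by
      rw [mul_inv_rev]
      have : z⁻¹ * a⁻¹ = a⁻¹ * z⁻¹ := by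
        rw [Subgroup.mem_center_iff.mp (Subgroup.inv_mem _ (Subgroup.mem_center_iff.mpr ha))]
      exact this
    have e2 : (b * w)⁻¹ = b⁻¹ * w⁻¹ := by
      rw [mul_inv_rev]
      have : w⁻¹ * b⁻¹ = b⁻¹ * w⁻¹ := by
        rw [Subgroup.mem_center_iff.mp (Subgroup.inv_mem _ (Subgroup.mem_center_iff.mpr hb))]
      exact this
    have hz' : ∀ g, g * z⁻¹ = z⁻¹ * g := fun g => by
      have := Subgroup.mem_center_iff.mp (Subgroup.inv_mem _ (Subgroup.mem_center_iff.mpr ha)) g
      exact this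
    have hw' : ∀ g, g * w⁻¹ = w⁻¹ * g := fun g => by
      have := Subgroup.mem_center_iff.mp (Subgroup.inv_mem _ (Subgroup.mem_center_iff.mpr hb)) g
      exact this
    rw [e1, e2]
    calc a * z * (b * w) * (a⁻¹ * z⁻¹) * (b⁻¹ * w⁻¹)
        = a * (z * b) * w * a⁻¹ * z⁻¹ * b⁻¹ * w⁻¹ := by group
      _ = a * (b * z) * w * a⁻¹ * z⁻¹ * b⁻¹ * w⁻¹ := by rw [ha b]
      _ = a * b * (z * (w * a⁻¹)) * z⁻¹ * b⁻¹ * w⁻¹ := by group
      _ = a * b * ((w * a⁻¹) * z) * z⁻¹ * b⁻¹ * w⁻¹ := by rw [ha (w * a⁻¹)]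
      _ = a * b * (w * (a⁻¹ * b⁻¹)) * w⁻¹ := by group
      _ = a * b * ((a⁻¹ * b⁻¹) * w) * w⁻¹ := by rw [hb (a⁻¹ * b⁻¹)]
      _ = a * b * a⁻¹ * b⁻¹ := by group
  have h := Nat.card_le_card_of_surjective f hsurj
  rw [Nat.card_prod] at h
  rw [Subgroup.index, pow_two]
  exact h

end Schur

/-- **Schur's theorem** with bound depending on the index of the centre. -/
noncomputable def schurBound (m : ℕ) : ℕ :=
  (Finset.range (m ^ 2 + 1)).sup Subgroup.cardCommutatorBound

theorem card_commutator_le (G : Type u) [Group G] [Finite G] {m : ℕ}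
    (h : (Subgroup.center G).index ≤ m) : Nat.card (commutator G) ≤ schurBound m := by
  haveI : Finite (commutatorSet G) := Subtype.finite
  refine (Subgroup.card_commutator_le_of_finite_commutatorSet G).trans ?_
  apply Finset.le_sup (f := Subgroup.cardCommutatorBound)
  rw [Finset.mem_range, Nat.lt_succ_iff]
  exact (card_commutatorSet_le G).trans (Nat.pow_le_pow_left h 2)

/-- **Lemma Z**: if the centre has bounded index then so does the group. -/
theorem card_le_of_center_index {G : Type u} [Group G] [Finite G] {α : MulAut G} (hα : Inv2 α)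
    (hG : Gen α) {m k : ℕ} (hm : (Subgroup.center G).index ≤ m) (hk : Nat.card (E α) ≤ k) :
    Nat.card G ≤ k * schurBound m :=
  (card_le_E_mul hα hG).trans (Nat.mul_le_mul hk (card_commutator_le G hm))

/-! ### Baer–Suzuki for an involutory automorphism -/

section BS

/-- The "dihedral" subgroup generated by an involution `t` and an element `y` that it inverts. -/
def dihedralSub {P : Type*} [Group P] (t y : P) (ht : t * t = 1) (hty : t * y * t⁻¹ = y⁻¹) :
    Subgroup P where
  carrier := {d | ∃ i : ℤ, d = y ^ i ∨ d = y ^ i * t}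
  mul_mem' := by
    have htinv : t⁻¹ = t := inv_eq_of_mul_eq_one_left ht
    have hc : ∀ j : ℤ, t * y ^ j = y ^ (-j) * t := by
      intro j
      have h1 : t * y ^ j * t⁻¹ = (t * y * t⁻¹) ^ j := by
        rw [conj_zpow]
      rw [hty, inv_zpow, ← zpow_neg] at h1
      rw [← h1]; group
    rintro a b ⟨i, rfl | rfl⟩ ⟨j, rfl | rfl⟩
    · exact ⟨i + j, Or.inl (zpow_add y i j).symm⟩
    · refine ⟨i + j, Or.inr ?_⟩
      rw [zpow_add]; group
    · refine ⟨i + -j, Or.inr ?_⟩
      rw [zpow_add, mul_assoc, hc, mul_assoc]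
    · refine ⟨i + -j, Or.inl ?_⟩
      rw [zpow_add]
      calc y ^ i * t * (y ^ j * t) = y ^ i * (t * y ^ j) * t := by group
        _ = y ^ i * (y ^ (-j) * t) * t := by rw [hc]
        _ = y ^ i * y ^ (-j) * (t * t) := by group
        _ = _ := by rw [ht, mul_one]
  one_mem' := ⟨0, Or.inl (by simp)⟩
  inv_mem' := by
    have htinv : t⁻¹ = t := inv_eq_of_mul_eq_one_left ht
    have hc : ∀ j : ℤ, t * y ^ j = y ^ (-j) * t := by
      intro j
      have h1 : t * y ^ j * t⁻¹ = (t * y * t⁻¹) ^ j := by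
        rw [conj_zpow]
      rw [hty, inv_zpow, ← zpow_neg] at h1
      rw [← h1]; group
    rintro a ⟨i, rfl | rfl⟩
    · exact ⟨-i, Or.inl (zpow_neg y i).symm⟩
    · refine ⟨i, Or.inr ?_⟩
      rw [mul_inv_rev, htinv, ← zpow_neg, hc, neg_neg]

theorem isPGroup_dihedralSub {P : Type*} [Group P] (t y : P) (ht : t * t = 1)
    (hty : t * y * t⁻¹ = y⁻¹) {n : ℕ} (hy : y ^ 2 ^ n = 1) :
    IsPGroup 2 (dihedralSub t y ht hty) := by
  have htinv : t⁻¹ = t := inv_eq_of_mul_eq_one_left ht
  have hc : ∀ j : ℤ, t * y ^ j = y ^ (-j) * t := by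
    intro j
    have h1 : t * y ^ j * t⁻¹ = (t * y * t⁻¹) ^ j := by
      rw [conj_zpow]
    rw [hty, inv_zpow, ← zpow_neg] at h1
    rw [← h1]; group
  rintro ⟨d, i, rfl | rfl⟩
  · refine ⟨n, Subtype.ext ?_⟩
    simp only [SubgroupClass.coe_pow, OneMemClass.coe_one]
    rw [← zpow_natCast (y ^ i), ← zpow_mul, mul_comm, zpow_mul, zpow_natCast, hy, one_zpow]
  · refine ⟨1, Subtype.ext ?_⟩
    simp only [OneMemClass.coe_one, pow_one, pow_two]
    calc y ^ i * t * (y ^ i * t) = y ^ i * (t * y ^ i) * t := by group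
      _ = y ^ i * (y ^ (-i) * t) * t := by rw [hc]
      _ = y ^ i * y ^ (-i) * (t * t) := by group
      _ = 1 := by rw [ht]; simp

variable {M : Type u} [Group M] [Finite M]

/-- **Baer–Suzuki** for an involutory automorphism, abstract form. -/
theorem exists_normal_two_aux (β : MulAut M) (hβ : Inv2 β) (h : ∀ x, ∃ n : ℕ, (tw β x) ^ 2 ^ n = 1)
    {P : Type*} [Group P] [Finite P] (inl : M →* P) (hinj : Function.Injective inl) (t : P)
    (ht : t * t = 1) (hti : ∀ m : M, t * inl m * t⁻¹ = inl (β m))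
    (hg : ∀ g : P, ∃ (m : M) (a : P), g = inl m * a ∧ a * t = t * a) :
    ∃ R : Subgroup M, R.Normal ∧ IsPGroup 2 R ∧ ∀ x, tw β x ∈ R := by
  classical
  have htinv : t⁻¹ = t := inv_eq_of_mul_eq_one_left ht
  have hs : ∀ m : M, inl m * t * (inl m)⁻¹ = inl (tw β m) * t := by
    intro m
    have h1 : t * (inl m)⁻¹ * t⁻¹ = inl (β m)⁻¹ := by
      have := hti m⁻¹
      rwa [map_inv, map_inv] at this
    have h2 : t * (inl m)⁻¹ = inl (β m)⁻¹ * t := by
      rw [← h1]; group
    calc inl m * t * (inl m)⁻¹ = inl m * (t * (inl m)⁻¹) := by group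
      _ = inl m * (inl (β m)⁻¹ * t) := by rw [h2]
      _ = inl m * inl (β m)⁻¹ * t := by group
      _ = _ := by rw [← map_mul]; rfl
  have hX : IsPGroup 2 (Subgroup.zpowers t) := by
    rintro ⟨_, k, rfl⟩
    refine ⟨1, Subtype.ext ?_⟩
    simp only [OneMemClass.coe_one, pow_one, pow_two]
    show t ^ k * t ^ k = 1
    rw [← zpow_add, ← two_mul, zpow_mul]
    have : t ^ (2 : ℤ) = 1 := by
      rw [show (2 : ℤ) = ((2 : ℕ) : ℤ) by norm_num, zpow_natCast, pow_two, ht]
    rw [this, one_zpow]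
  have hsup : ∀ g : P, IsPGroup 2 ↥(Subgroup.zpowers t ⊔
      (Subgroup.zpowers t).map (MulAut.conj g).toMonoidHom) := by
    intro g
    obtain ⟨m, a, rfl, hat⟩ := hg g
    set y := inl (tw β m) with hy
    have hty : t * y * t⁻¹ = y⁻¹ := by
      rw [hy, hti, tw_inverted hβ, map_inv]
    obtain ⟨n, hn⟩ := h m
    have hyn : y ^ 2 ^ n = 1 := by
      rw [hy, ← map_pow, hn, map_one]
    refine (isPGroup_dihedralSub t y ht hty hyn).to_le ?_
    have htD : t ∈ dihedralSub t y ht hty := ⟨0, Or.inr (by simp)⟩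
    have hsD : y * t ∈ dihedralSub t y ht hty := ⟨1, Or.inr (by simp)⟩
    rw [sup_le_iff]
    constructor
    · rw [Subgroup.zpowers_le]; exact htD
    · rw [MonoidHom.map_zpowers, Subgroup.zpowers_le]
      have : (MulAut.conj (inl m * a)).toMonoidHom t = y * t := by
        rw [hy, ← hs]
        show (inl m * a) * t * (inl m * a)⁻¹ = _
        calc (inl m * a) * t * (inl m * a)⁻¹ = inl m * (a * t) * a⁻¹ * (inl m)⁻¹ := by group
          _ = inl m * (t * a) * a⁻¹ * (inl m)⁻¹ := by rw [hat]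
          _ = _ := by group
      rw [this]
      exact hsD
  obtain ⟨N, hNn, hNp, hXN⟩ := Cfsg.Agent.Lib.BaerSuzuki.baer_suzuki (Subgroup.zpowers t) hX hsup
  have htN : t ∈ N := hXN (Subgroup.mem_zpowers t)
  haveI := hNn
  refine ⟨N.comap inl, inferInstance, ?_, ?_⟩
  · rintro ⟨r, hr⟩
    obtain ⟨k, hk⟩ := hNp ⟨inl r, hr⟩
    refine ⟨k, Subtype.ext ?_⟩
    have hk' : inl r ^ 2 ^ k = 1 := congrArg Subtype.val hk
    rw [← map_pow] at hk'
    exact hinj (hk'.trans (map_one inl).symm)
  · intro x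
    show inl (tw β x) ∈ N
    have h1 : inl x * t * (inl x)⁻¹ ∈ N := hNn.conj_mem t htN (inl x)
    rw [hs] at h1
    have h2 := N.mul_mem h1 (N.inv_mem htN)
    rwa [mul_inv_cancel_right] at h2

/-- **Baer–Suzuki** for an involutory automorphism. -/
theorem exists_normal_two (β : MulAut M) (hβ : Inv2 β) (h : ∀ x, ∃ n : ℕ, (tw β x) ^ 2 ^ n = 1) :
    ∃ R : Subgroup M, R.Normal ∧ IsPGroup 2 R ∧ ∀ x, tw β x ∈ R := by
  classical
  let A : Subgroup (MulAut M) := Subgroup.zpowers β
  haveI : Finite (MulAut M) := inferInstance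
  haveI : Finite (SemidirectProduct M A A.subtype) :=
    Finite.of_equiv _ (SemidirectProduct.equivProd (N := M) (G := A) (φ := A.subtype)).symm
  let b : A := ⟨β, Subgroup.mem_zpowers β⟩
  have hbb : b * b = 1 := by
    apply Subtype.ext
    apply MulEquiv.ext
    intro x
    exact hβ x
  refine exists_normal_two_aux β hβ h (P := SemidirectProduct M A A.subtype)
    SemidirectProduct.inl SemidirectProduct.inl_injective (SemidirectProduct.inr b) ?_ ?_ ?_
  · rw [← map_mul, hbb, map_one]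
  · intro m
    have := SemidirectProduct.inl_aut (φ := A.subtype) b m
    rw [← map_inv, ← this]
    rfl
  · intro g
    refine ⟨g.left, SemidirectProduct.inr g.right, ?_, ?_⟩
    · exact (SemidirectProduct.inl_left_mul_inr_right g).symm
    · rw [← map_mul, ← map_mul]
      congr 1
      obtain ⟨_, k, rfl⟩ := g.right
      apply Subtype.ext
      show β ^ k * β = β * β ^ k
      have := zpow_mul_comm β k 1
      simpa using this

end BS

section Transfer

variable {G : Type u} [Group G] [Finite G]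

/-- If `M` contains no nontrivial inverted element of odd order then it contains a normal
`2`-subgroup containing all twisted commutators. -/
theorem exists_T {α : MulAut G} (hα : Inv2 α) {M : Subgroup G} (hMn : M.Normal)
    (hMα : ∀ x ∈ M, α x ∈ M) (hME : ∀ e ∈ E α, e ∈ M → e = 1) :
    ∃ T : Subgroup G, T.Normal ∧ IsPGroup 2 T ∧ (∀ x ∈ T, α x ∈ T) ∧ T ≤ M ∧
      ∀ x ∈ M, tw α x ∈ T := by
  classical
  let αM : MulAut M :=
    { toFun := fun x => ⟨α x, hMα x x.2⟩
      invFun := fun x => ⟨α x, hMα x x.2⟩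
      left_inv := fun x => Subtype.ext (hα x)
      right_inv := fun x => Subtype.ext (hα x)
      map_mul' := fun x y => Subtype.ext (map_mul α (x : G) (y : G)) }
  have hαM : Inv2 αM := fun x => Subtype.ext (hα x)
  have htwcoe : ∀ x : M, ((tw αM x : M) : G) = tw α (x : G) := fun x => rfl
  have h2 : ∀ x : M, ∃ n : ℕ, (tw αM x) ^ 2 ^ n = 1 := by
    intro x
    refine ⟨Nat.card G, Subtype.ext ?_⟩
    simp only [SubgroupClass.coe_pow, htwcoe, OneMemClass.coe_one]
    apply hME
    · exact ⟨odd_orderOf_pow_two _, inverted_pow (tw_inverted hα _) _⟩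
    · apply M.pow_mem
      exact M.mul_mem x.2 (M.inv_mem (hMα _ x.2))
  obtain ⟨R, hRn, hRp, hR⟩ := exists_normal_two αM hαM h2
  have hRO : R ≤ Cfsg.pCore 2 M := Cfsg.Agent.Lib.PCore.le_pCore hRn hRp
  have hchar := Cfsg.Agent.Lib.PCore.pCore_characteristic (G := M) 2
  refine ⟨(Cfsg.pCore 2 M).map M.subtype, ?_, ?_, ?_, ?_, ?_⟩
  · haveI := hMn
    constructor
    rintro _ ⟨o, ho, rfl⟩ g
    have hfix := hchar.fixed (MulAut.conjNormal g)
    have : o ∈ (Cfsg.pCore 2 M).comap (MulAut.conjNormal g : MulAut M).toMonoidHom := by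
      rw [hfix]; exact ho
    refine ⟨(MulAut.conjNormal g : MulAut M) o, this, ?_⟩
    exact MulAut.conjNormal_apply g o
  · exact (Cfsg.Agent.Lib.PCore.isPGroup_pCore 2).map M.subtype
  · rintro _ ⟨o, ho, rfl⟩
    have hfix := hchar.fixed αM
    have : o ∈ (Cfsg.pCore 2 M).comap αM.toMonoidHom := by
      rw [hfix]; exact ho
    exact ⟨αM o, this, rfl⟩
  · rintro _ ⟨o, ho, rfl⟩
    exact o.2
  · intro x hx
    exact ⟨tw αM ⟨x, hx⟩, hRO (hR _), rfl⟩

/-- Modulo `T`, `M` is central. -/
theorem mem_center_quot {α : MulAut G} (hα : Inv2 α) (hG : Gen α) {M T : Subgroup G} [T.Normal]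
    (hTα : ∀ x ∈ T, α x ∈ T) (hMn : M.Normal) (hMα : ∀ x ∈ M, α x ∈ M)
    (hTM : ∀ x ∈ M, tw α x ∈ T) {x : G} (hx : x ∈ M) :
    (x : G ⧸ T) ∈ Subgroup.center (G ⧸ T) := by
  set γ := quotAut α hα T hTα with hγ
  have hfix : ∀ z ∈ M, ((α z : G) : G ⧸ T) = (z : G ⧸ T) := by
    intro z hz
    have := hTM z hz
    rw [tw] at this
    have h2 := (QuotientGroup.eq_one_iff _).mpr this
    rw [QuotientGroup.mk_mul, QuotientGroup.mk_inv, mul_inv_eq_one] at h2
    exact h2.symm
  have hgen : Gen γ := quotAut_gen α hα hG T hTα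
  have hC : Subgroup.closure (Set.range (tw γ)) ≤ Subgroup.centralizer {(x : G ⧸ T)} := by
    rw [Subgroup.closure_le]
    rintro _ ⟨ĉ, rfl⟩
    obtain ⟨c, rfl⟩ := QuotientGroup.mk_surjective ĉ
    rw [SetLike.mem_coe, Subgroup.mem_centralizer_singleton_iff]
    have hz : (α c)⁻¹ * x * (α c) ∈ M := by
      have := hMn.conj_mem x hx (α c)⁻¹
      simpa using this
    have h1 := hfix _ hz
    have h2 : α ((α c)⁻¹ * x * α c) = c⁻¹ * α x * c := by
      simp [hα c]
    rw [h2] at h1
    simp only [QuotientGroup.mk_mul, QuotientGroup.mk_inv, hfix x hx] at h1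
    simp only [tw, quotAut_mk, hγ, ← QuotientGroup.mk_inv, ← QuotientGroup.mk_mul]
    simp only [QuotientGroup.mk_mul, QuotientGroup.mk_inv]
    generalize ((c : G) : G ⧸ T) = a at *
    generalize ((α c : G) : G ⧸ T) = b at *
    generalize ((x : G) : G ⧸ T) = w at *
    -- `h1 : a⁻¹ * w * a = b⁻¹ * w * b`
    have h3 : a * b⁻¹ * w * (a * b⁻¹)⁻¹ = w := by
      calc a * b⁻¹ * w * (a * b⁻¹)⁻¹ = a * (b⁻¹ * w * b) * a⁻¹ := by group
        _ = a * (a⁻¹ * w * a) * a⁻¹ := by rw [h1]
        _ = w := by group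
    calc a * b⁻¹ * w = (a * b⁻¹ * w * (a * b⁻¹)⁻¹) * (a * b⁻¹) := by group
      _ = w * (a * b⁻¹) := by rw [h3]
  rw [show Subgroup.closure (Set.range (tw γ)) = ⊤ from hgen] at hC
  rw [Subgroup.mem_center_iff]
  intro g
  have := hC (Subgroup.mem_top g)
  rw [Subgroup.mem_centralizer_singleton_iff] at this
  exact this

/-- The index of the centre of the quotient by `T`. -/
theorem center_index_quot_le {α : MulAut G} (hα : Inv2 α) (hG : Gen α) {M T : Subgroup G} [T.Normal]
    (hTα : ∀ x ∈ T, α x ∈ T) (hMn : M.Normal) (hMα : ∀ x ∈ M, α x ∈ M)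
    (hTM : ∀ x ∈ M, tw α x ∈ T) : (Subgroup.center (G ⧸ T)).index ≤ M.index := by
  have h1 : M ≤ (Subgroup.center (G ⧸ T)).comap (QuotientGroup.mk' T) := by
    intro x hx
    exact mem_center_quot hα hG hTα hMn hMα hTM hx
  have h2 := Subgroup.index_comap_of_surjective (Subgroup.center (G ⧸ T))
    (QuotientGroup.mk'_surjective T)
  rw [← h2]
  exact Nat.le_of_dvd (Nat.pos_of_ne_zero (Subgroup.index_ne_zero_of_finite))
    (Subgroup.index_dvd_of_le h1)

/-- The index of the centre, using the key lemma. -/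
theorem center_index_le_of_T {α : MulAut G} (hα : Inv2 α) (hG : Gen α) {T : Subgroup G}
    (hTn : T.Normal) (hT : IsPGroup 2 T) (hTα : ∀ x ∈ T, α x ∈ T) :
    (Subgroup.center G).index ≤ (Nat.card (E α) ^ 2) ^ Nat.card (E α) * T.index := by
  classical
  haveI : Fintype (E α) := Fintype.ofFinite _
  let f : E α → Subgroup T := fun e => (Subgroup.centralizer {(e : G)}).subgroupOf T
  have h1 := Subgroup.index_iInf_le f
  have h2 : ∀ e : E α, (f e).index ≤ Nat.card (E α) ^ 2 := fun e =>
    relIndex_le hα hTn hT hTα e.2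
  have h3 : ∏ e, (f e).index ≤ (Nat.card (E α) ^ 2) ^ Nat.card (E α) := by
    have := Finset.prod_le_pow_card (Finset.univ : Finset (E α)) (fun e => (f e).index)
      (Nat.card (E α) ^ 2) (fun e _ => h2 e)
    rwa [Finset.card_univ, ← Nat.card_eq_fintype_card] at this
  have h4 : (⨅ e, f e) ≤ (Subgroup.center G).subgroupOf T := by
    intro t ht
    rw [Subgroup.mem_subgroupOf, Subgroup.mem_center_iff]
    have hcl : Subgroup.closure (E α) ≤ Subgroup.centralizer {((t : T) : G)} := by
      rw [Subgroup.closure_le]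
      intro e he
      have h5 : t ∈ f ⟨e, he⟩ := by
        rw [Subgroup.mem_iInf] at ht
        exact ht _
      rw [Subgroup.mem_subgroupOf, Subgroup.mem_centralizer_singleton_iff] at h5
      rw [SetLike.mem_coe, Subgroup.mem_centralizer_singleton_iff]
      exact h5.symm
    rw [closure_E hα hG] at hcl
    intro g
    have := hcl (Subgroup.mem_top g)
    rw [Subgroup.mem_centralizer_singleton_iff] at this
    exact this
  have h5 : ((Subgroup.center G).subgroupOf T).index ≤ (⨅ e, f e).index :=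
    Nat.le_of_dvd (Nat.pos_of_ne_zero (Subgroup.index_ne_zero_of_finite))
      (Subgroup.index_dvd_of_le h4)
  have h6 : (Subgroup.center G).relIndex T ≤ (Nat.card (E α) ^ 2) ^ Nat.card (E α) :=
    h5.trans (h1.trans h3)
  have h7 : (Subgroup.center G).index ≤ (Subgroup.center G ⊓ T).index :=
    Nat.le_of_dvd (Nat.pos_of_ne_zero (Subgroup.index_ne_zero_of_finite))
      (Subgroup.index_dvd_of_le inf_le_left)
  have h8 := Subgroup.relIndex_mul_index (H := Subgroup.center G ⊓ T) (K := T) inf_le_right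
  rw [Subgroup.inf_relIndex_right] at h8
  rw [← h8] at h7
  exact h7.trans (Nat.mul_le_mul_right _ h6)

end Transfer

end Cfsg.Agent.Lib.TwistBound
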