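import Mathlib
import Cfsg.Agent.Lib.TwistBound

/-!
# The induction for the bound: groups in which every invariant normal subgroup meets `E`
-/

set_option autoImplicit false
set_option linter.style.haveILetI false
set_option linter.unusedSectionVars false
set_option linter.unusedVariables false

namespace Cfsg.Agent.Lib.TwistDense

open Cfsg.Agent.Lib.TwistInv Cfsg.Agent.Lib.TwistKey Cfsg.Agent.Lib.TwistBound
open scoped commutatorElement

universe u

theorem eq_one_of_odd_of_sq {G : Type*} [Group G] {e : G} (h1 : Odd (orderOf e)) (h2 : e * e = 1) :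
    e = 1 := by
  have h3 : orderOf e ∣ 2 := by
    apply orderOf_dvd_of_pow_eq_one
    rw [pow_two]; exact h2
  have h5 : orderOf e = 1 := by
    have := Nat.le_of_dvd (by norm_num) h3
    obtain ⟨r, hr⟩ := h1
    omega
  exact orderOf_eq_one_iff.mp h5

/-! ### Abelian groups generated by involutions -/

theorem card_closure_involutions {A : Type*} [Group A] [Finite A] (hcomm : ∀ a b : A, a * b = b * a)
    (S : Finset A) (hS : ∀ a ∈ S, a * a = 1) :
    Nat.card (Subgroup.closure (S : Set A)) ≤ 2 ^ S.card := by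
  classical
  induction S using Finset.induction_on with
  | empty => simp
  | insert a S ha ih =>
    have hS' : ∀ x ∈ S, x * x = 1 := fun x hx => hS x (Finset.mem_insert_of_mem hx)
    have ha' : a * a = 1 := hS a (Finset.mem_insert_self a S)
    have ih' := ih hS'
    have h1 : Subgroup.closure ((insert a S : Finset A) : Set A) =
        Subgroup.closure (S : Set A) ⊔ Subgroup.zpowers a := by
      rw [Finset.coe_insert, Set.insert_eq, Subgroup.closure_union, sup_comm,
        Subgroup.zpowers_eq_closure]
    rw [h1]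
    haveI : (Subgroup.zpowers a).Normal := ⟨fun n hn g => by
      rw [hcomm g n, mul_inv_cancel_right]; exact hn⟩
    have h2 := Nat.le_of_dvd (Nat.mul_pos Nat.card_pos Nat.card_pos)
      (Cfsg.Agent.Lib.PCore.card_sup_dvd (Subgroup.closure (S : Set A)) (Subgroup.zpowers a))
    have h3 : Nat.card (Subgroup.zpowers a) ≤ 2 := by
      rw [Nat.card_zpowers]
      apply orderOf_le_of_pow_eq_one (by norm_num)
      rw [pow_two]; exact ha'
    rw [Finset.card_insert_of_notMem ha, pow_succ]
    exact h2.trans (Nat.mul_le_mul ih' h3)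

/-- A group generated by few involutions with a centre of small index is small. -/
theorem card_le_of_closure_involutions {Y : Type u} [Group Y] [Finite Y] (S : Set Y)
    (hS : Subgroup.closure S = ⊤) (hinv : ∀ a ∈ S, a * a = 1) {V m : ℕ} (hV : S.ncard ≤ V)
    (hm : (Subgroup.center Y).index ≤ m) : Nat.card Y ≤ 2 ^ V * schurBound m := by
  classical
  haveI : Fintype Y := Fintype.ofFinite Y
  rw [Subgroup.card_eq_card_quotient_mul_card_subgroup (commutator Y)]
  refine Nat.mul_le_mul ?_ (card_commutator_le Y hm)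
  -- the abelianisation
  let q := QuotientGroup.mk' (commutator Y)
  have hcomm : ∀ a b : Y ⧸ commutator Y, a * b = b * a := by
    intro a b
    obtain ⟨a, rfl⟩ := QuotientGroup.mk_surjective a
    obtain ⟨b, rfl⟩ := QuotientGroup.mk_surjective b
    rw [← QuotientGroup.mk_mul, ← QuotientGroup.mk_mul, QuotientGroup.eq]
    have : (a * b)⁻¹ * (b * a) = ⁅b⁻¹, a⁻¹⁆ := by
      simp [commutatorElement_def, mul_assoc]
    rw [this]
    exact Subgroup.commutator_mem_commutator (Subgroup.mem_top _) (Subgroup.mem_top _)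
  let S' : Finset (Y ⧸ commutator Y) := S.toFinset.image q
  have hS' : ∀ a ∈ S', a * a = 1 := by
    intro a ha
    obtain ⟨x, hx, rfl⟩ := Finset.mem_image.mp ha
    rw [← map_mul, hinv x (by simpa using hx), map_one]
  have hcl : Subgroup.closure (S' : Set (Y ⧸ commutator Y)) = ⊤ := by
    have h1 : (Subgroup.closure S).map q = ⊤ := by
      rw [hS, Subgroup.map_top_of_surjective _ (QuotientGroup.mk'_surjective _)]
    rw [MonoidHom.map_closure] at h1
    rw [← h1]
    congr 1
    ext x
    simp [S']
  have h2 := card_closure_involutions hcomm S' hS'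
  rw [hcl, Subgroup.card_top] at h2
  refine h2.trans (Nat.pow_le_pow_right (by norm_num) ?_)
  refine Finset.card_image_le.trans ?_
  rw [Set.ncard_eq_toFinset_card'] at hV
  exact hV

/-- Normal closure of an involution with few conjugates. -/
theorem card_normalClosure_le {H : Type u} [Group H] [Finite H] {u : H} (hu : u * u = 1) {V : ℕ}
    (hV : (Subgroup.centralizer {u}).index ≤ V) :
    Nat.card (Subgroup.normalClosure ({u} : Set H)) ≤ 2 ^ V * schurBound (V ^ V) := by
  classical
  let Cl : Set H := Group.conjugatesOfSet ({u} : Set H)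
  have hClmem : ∀ a ∈ Cl, ∃ g : H, a = g * u * g⁻¹ := by
    intro a ha
    rw [Group.mem_conjugatesOfSet_iff] at ha
    obtain ⟨x, hx, hxa⟩ := ha
    rw [Set.mem_singleton_iff] at hx
    subst hx
    obtain ⟨g, rfl⟩ := isConj_iff.mp hxa
    exact ⟨g, rfl⟩
  have hClsq : ∀ a ∈ Cl, a * a = 1 := by
    intro a ha
    obtain ⟨g, rfl⟩ := hClmem a ha
    calc g * u * g⁻¹ * (g * u * g⁻¹) = g * (u * u) * g⁻¹ := by group
      _ = 1 := by rw [hu]; group
  -- number of conjugates
  have hClcard : Cl.ncard ≤ V := by
    refine le_trans ?_ hV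
    rw [Subgroup.index, ← Nat.card_coe_set_eq]
    let f : (H ⧸ Subgroup.centralizer {u}) → H := fun q => q.out * u * (q.out)⁻¹
    have hsurj : ∀ a : Cl, ∃ q, f q = a := by
      rintro ⟨a, ha⟩
      obtain ⟨g, rfl⟩ := hClmem a ha
      refine ⟨(g : H ⧸ Subgroup.centralizer {u}), ?_⟩
      have h1 : g⁻¹ * (g : H ⧸ Subgroup.centralizer {u}).out ∈ Subgroup.centralizer {u} := by
        rw [← QuotientGroup.eq, QuotientGroup.out_eq']
      rw [Subgroup.mem_centralizer_singleton_iff] at h1
      show (g : H ⧸ Subgroup.centralizer {u}).out * u * ((g : H ⧸ Subgroup.centralizer {u}).out)⁻¹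
        = g * u * g⁻¹
      generalize (g : H ⧸ Subgroup.centralizer {u}).out = w at h1
      have : w * u = g * u * (g⁻¹ * w) := by
        have h2 := h1
        calc w * u = g * (g⁻¹ * w * u) := by group
          _ = g * (u * (g⁻¹ * w)) := by rw [h2]
          _ = _ := by group
      calc w * u * w⁻¹ = (g * u * (g⁻¹ * w)) * w⁻¹ := by rw [this]
        _ = _ := by group
    have hrange : Function.Surjective (fun q : {q // f q ∈ Cl} => (⟨f q.1, q.2⟩ : Cl)) := by
      rintro ⟨a, ha⟩
      obtain ⟨q, hq⟩ := hsurj ⟨a, ha⟩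
      have hq' : f q = a := hq
      exact ⟨⟨q, hq' ▸ ha⟩, Subtype.ext hq'⟩
    refine (Nat.card_le_card_of_surjective _ hrange).trans ?_
    exact Nat.card_le_card_of_injective (fun q => q.1) Subtype.val_injective
  -- inside `Y`
  let Y : Subgroup H := Subgroup.normalClosure ({u} : Set H)
  have hYeq : Y = Subgroup.closure Cl := rfl
  let S : Set Y := (Subtype.val : Y → H) ⁻¹' Cl
  have hScl : Subgroup.closure S = ⊤ := Subgroup.closure_closure_coe_preimage
  have hSsq : ∀ a ∈ S, a * a = 1 := by
    intro a ha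
    exact Subtype.ext (hClsq a.1 ha)
  have hSval : S.ncard ≤ Cl.ncard := by
    have : S.ncard = ((Subtype.val : Y → H) '' S).ncard :=
      (Set.ncard_image_of_injective _ Subtype.val_injective).symm
    rw [this]
    apply Set.ncard_le_ncard _ (Set.toFinite _)
    rintro _ ⟨a, ha, rfl⟩
    exact ha
  have hScard : S.ncard ≤ V := hSval.trans hClcard
  -- the centre
  have hcenter : (Subgroup.center Y).index ≤ V ^ V := by
    have hSmem : ∀ (y : Y) (a : S), y * a.1 * y⁻¹ ∈ S := by
      rintro y ⟨⟨a, ha⟩, ha'⟩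
      show (y : H) * a * (y : H)⁻¹ ∈ Cl
      exact Group.conj_mem_conjugatesOfSet ha'
    let F : (Y ⧸ Subgroup.center Y) → (S → S) := fun q a => ⟨q.out * a.1 * q.out⁻¹, hSmem _ _⟩
    have hF : Function.Injective F := by
      intro q₁ q₂ h
      rw [← q₁.out_eq, ← q₂.out_eq, QuotientGroup.eq]
      have hcl : Subgroup.closure S ≤ Subgroup.centralizer {q₁.out⁻¹ * q₂.out} := by
        rw [Subgroup.closure_le]
        intro a ha
        have h1 : q₁.out * a * q₁.out⁻¹ = q₂.out * a * q₂.out⁻¹ :=
          congrArg Subtype.val (congrFun h ⟨a, ha⟩)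
        rw [SetLike.mem_coe, Subgroup.mem_centralizer_singleton_iff]
        generalize q₁.out = w₁ at *
        generalize q₂.out = w₂ at *
        have h2 : w₂ * a = w₁ * a * w₁⁻¹ * w₂ := by
          rw [h1]; group
        calc a * (w₁⁻¹ * w₂) = w₁⁻¹ * (w₁ * a * w₁⁻¹ * w₂) := by group
          _ = w₁⁻¹ * (w₂ * a) := by rw [h2]
          _ = _ := by group
      rw [hScl] at hcl
      rw [Subgroup.mem_center_iff]
      intro g
      have := hcl (Subgroup.mem_top g)
      rw [Subgroup.mem_centralizer_singleton_iff] at this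
      exact this
    have h1 := Nat.card_le_card_of_injective F hF
    rw [Nat.card_fun, Nat.card_coe_set_eq] at h1
    refine h1.trans ?_
    rw [Subgroup.index] at *
    have hpos : 0 < S.ncard ∨ S.ncard = 0 := by omega
    calc S.ncard ^ S.ncard ≤ V ^ S.ncard := Nat.pow_le_pow_left hScard _
      _ ≤ V ^ V := by
        by_cases hV0 : V = 0
        · have : S.ncard = 0 := by omega
          rw [this, hV0]
        · exact Nat.pow_le_pow_right (by omega) hScard
  exact card_le_of_closure_involutions S hScl hSsq hScard hcenter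

/-! ### Fixed points -/

variable {H : Type u} [Group H] [Finite H]

/-- Fixed points of an automorphism. -/
def Fix (β : MulAut H) : Subgroup H where
  carrier := {c | β c = c}
  mul_mem' := by
    intro a b ha hb
    show β (a * b) = a * b
    rw [map_mul, show β a = a from ha, show β b = b from hb]
  one_mem' := map_one β
  inv_mem' := by
    intro a ha
    show β a⁻¹ = a⁻¹
    rw [map_inv, show β a = a from ha]

theorem card_fix_le {β : MulAut H} (hβ : Inv2 β) (hG : Gen β)
    (hD : ∀ N : Subgroup H, N.Normal → (∀ x ∈ N, β x ∈ N) → N ≠ ⊥ → ∃ e ∈ E β, e ∈ N ∧ e ≠ 1) :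
    Nat.card (Fix β) ≤ Nat.card (E β) ^ Nat.card (E β) := by
  classical
  -- central fixed points are trivial
  have hW : ∀ z : H, z ∈ Fix β → z ∈ Subgroup.center H → z = 1 := by
    intro z hz hzc
    let W : Subgroup H := Fix β ⊓ Subgroup.center H
    have hWn : W.Normal := by
      constructor
      intro n hn g
      have hc : n ∈ Subgroup.center H := hn.2
      have : g * n * g⁻¹ = n := by
        rw [Subgroup.mem_center_iff.mp hc g]; group
      rw [this]; exact hn
    have hWα : ∀ x ∈ W, β x ∈ W := by
      intro x hx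
      have : β x = x := hx.1
      rw [this]; exact hx
    by_contra hz1
    have hne : W ≠ ⊥ := by
      intro h
      have : z ∈ W := ⟨hz, hzc⟩
      rw [h] at this
      exact hz1 (Subgroup.mem_bot.mp this)
    obtain ⟨e, he, heW, he1⟩ := hD W hWn hWα hne
    apply he1
    apply eq_one_of_odd_of_sq he.1
    have h1 : β e = e := heW.1
    have h2 := he.2
    rw [h1] at h2
    calc e * e = e * e⁻¹ := by rw [← h2]
      _ = 1 := mul_inv_cancel e
  have hconj : ∀ (c : Fix β) (e : E β), (c : H) * e * (c : H)⁻¹ ∈ E β := by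
    rintro ⟨c, hc⟩ ⟨e, he⟩
    have hc' : β c = c := hc
    refine ⟨?_, ?_⟩
    · have : orderOf (c * e * c⁻¹) = orderOf e := by
        rw [← MulAut.conj_apply, MulEquiv.orderOf_eq]
      show Odd (orderOf (c * e * c⁻¹))
      rw [this]; exact he.1
    · show β (c * e * c⁻¹) = (c * e * c⁻¹)⁻¹
      rw [map_mul, map_mul, map_inv, hc', he.2]
      group
  let F : Fix β → (E β → E β) := fun c e => ⟨(c : H) * e * (c : H)⁻¹, hconj c e⟩
  have hF : Function.Injective F := by
    intro c d h
    have hcl : Subgroup.closure (E β) ≤ Subgroup.centralizer {(c : H)⁻¹ * d} := by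
      rw [Subgroup.closure_le]
      intro e he
      have h1 : (c : H) * e * (c : H)⁻¹ = (d : H) * e * (d : H)⁻¹ :=
        congrArg Subtype.val (congrFun h ⟨e, he⟩)
      rw [SetLike.mem_coe, Subgroup.mem_centralizer_singleton_iff]
      generalize (c : H) = w₁ at *
      generalize (d : H) = w₂ at *
      have h2 : w₂ * e = w₁ * e * w₁⁻¹ * w₂ := by
        rw [h1]; group
      calc e * (w₁⁻¹ * w₂) = w₁⁻¹ * (w₁ * e * w₁⁻¹ * w₂) := by group
        _ = w₁⁻¹ * (w₂ * e) := by rw [h2]
        _ = _ := by group
    rw [closure_E hβ hG] at hcl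
    have h3 : (c : H)⁻¹ * d = 1 := by
      apply hW
      · exact (Fix β).mul_mem ((Fix β).inv_mem c.2) d.2
      · rw [Subgroup.mem_center_iff]
        intro g
        have := hcl (Subgroup.mem_top g)
        rw [Subgroup.mem_centralizer_singleton_iff] at this
        exact this
    apply Subtype.ext
    have := mul_eq_one_iff_eq_inv.mp h3
    rw [inv_inj] at this
    exact this
  have h1 := Nat.card_le_card_of_injective F hF
  rwa [Nat.card_fun] at h1

/-- The main dichotomy, by counting. -/
theorem dichotomy {β : MulAut H} (hβ : Inv2 β) {b k : ℕ} (hb : Nat.card (Fix β) ≤ b)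
    (hk : Nat.card (E β) ≤ k) :
    Nat.card H ≤ 2 * b * k ∨
      ∃ u, β u = u ∧ u * u = 1 ∧ u ≠ 1 ∧ (Subgroup.centralizer {u}).index ≤ 2 * b ^ 2 := by
  classical
  haveI : Fintype H := Fintype.ofFinite H
  let Ff : Finset H := Finset.univ.filter (fun c => β c = c)
  have hFf : Ff.card = Nat.card (Fix β) := by
    rw [Nat.card_eq_fintype_card]
    have : Fintype.card (Fix β) = (Finset.univ.filter (fun c => c ∈ Fix β)).card :=
      Fintype.card_subtype _
    rw [this]
    rfl
  have hbpos : 0 < b := lt_of_lt_of_le Nat.card_pos hb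
  let Ef : Finset H := Finset.univ.filter (fun c => c ∈ E β)
  have hEf : Ef.card = Nat.card (E β) := by
    rw [Nat.card_eq_fintype_card]
    have : Fintype.card (E β) = (Finset.univ.filter (fun c => c ∈ E β)).card :=
      Fintype.card_subtype _
    rw [this]
  let If : Finset H := Finset.univ.filter (fun u => β u = u ∧ u * u = 1 ∧ u ≠ 1)
  let Cf : H → Finset H := fun u => Finset.univ.filter (fun x => x * u = u * x)
  have hCf : ∀ u, (Cf u).card = Nat.card (Subgroup.centralizer {u}) := by
    intro u
    rw [Nat.card_eq_fintype_card]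
    have : Fintype.card (Subgroup.centralizer {u}) =
        (Finset.univ.filter (fun c => c ∈ Subgroup.centralizer {u})).card :=
      Fintype.card_subtype _
    rw [this]
    congr 1
    ext x
    simp [Cf, Subgroup.mem_centralizer_singleton_iff]
  have hIf : If.card ≤ b := by
    refine le_trans (Finset.card_le_card ?_) (hFf.le.trans hb)
    intro u hu
    simp only [If, Finset.mem_filter, Finset.mem_univ, true_and] at hu
    simp [Ff, hu.1]
  -- fibres
  have hfib : Fintype.card H ≤ b * (Finset.univ.image (tw β)).card := by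
    have := Finset.card_le_mul_card_image (f := tw β) (Finset.univ : Finset H) b (by
      intro a ha
      obtain ⟨c, -, rfl⟩ := Finset.mem_image.mp ha
      refine le_trans ?_ (hFf.le.trans hb)
      apply Finset.card_le_card_of_injOn (fun x => c⁻¹ * x)
      · intro x hx
        have hx' : tw β x = tw β c := by
          have := Finset.mem_filter.mp (Finset.mem_coe.mp hx)
          exact this.2
        have : β (c⁻¹ * x) = c⁻¹ * x := by
          rw [tw, tw] at hx'
          rw [map_mul, map_inv]
          calc (β c)⁻¹ * β x = c⁻¹ * (c * (β c)⁻¹) * β x := by group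
            _ = c⁻¹ * (x * (β x)⁻¹) * β x := by rw [hx']
            _ = c⁻¹ * x := by group
        simp [Ff, this]
      · intro x _ y _ hxy
        exact mul_left_cancel hxy)
    simpa using this
  -- the cover
  have hcover : Finset.univ.image (tw β) ⊆ Ef ∪ If.biUnion Cf := by
    intro x hx
    obtain ⟨c, -, rfl⟩ := Finset.mem_image.mp hx
    set x := tw β c with hxdef
    have hinv : β x = x⁻¹ := tw_inverted hβ c
    rw [Finset.mem_union]
    by_cases hodd : Odd (orderOf x)
    · left
      simp only [Ef, Finset.mem_filter, Finset.mem_univ, true_and]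
      exact ⟨hodd, hinv⟩
    · right
      rw [Nat.not_odd_iff_even] at hodd
      obtain ⟨r, hr⟩ := hodd
      have hpos : 0 < orderOf x := orderOf_pos x
      have huu : x ^ r * x ^ r = 1 := by
        rw [← pow_add, ← hr, pow_orderOf_eq_one]
      have hu1 : x ^ r ≠ 1 := pow_ne_one_of_lt_orderOf (by omega) (by omega)
      have hβu : β (x ^ r) = x ^ r := by
        rw [inverted_pow hinv]
        exact inv_eq_of_mul_eq_one_left huu
      rw [Finset.mem_biUnion]
      refine ⟨x ^ r, ?_, ?_⟩
      · simp only [If, Finset.mem_filter, Finset.mem_univ, true_and]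
        exact ⟨hβu, huu, hu1⟩
      · simp only [Cf, Finset.mem_filter, Finset.mem_univ, true_and]
        exact (Commute.pow_right (Commute.refl x) r).eq
  have hcard : Fintype.card H ≤ b * (k + ∑ u ∈ If, (Cf u).card) := by
    refine hfib.trans (Nat.mul_le_mul_left _ ?_)
    refine (Finset.card_le_card hcover).trans ((Finset.card_union_le _ _).trans ?_)
    refine Nat.add_le_add (hEf.le.trans hk) Finset.card_biUnion_le
  by_cases hall : ∃ u ∈ If, Fintype.card H < 2 * b ^ 2 * (Cf u).card
  · right
    obtain ⟨u, hu, hlt⟩ := hall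
    simp only [If, Finset.mem_filter, Finset.mem_univ, true_and] at hu
    refine ⟨u, hu.1, hu.2.1, hu.2.2, ?_⟩
    have h1 := Subgroup.card_mul_index (Subgroup.centralizer {u})
    rw [Nat.card_eq_fintype_card (α := H)] at h1
    rw [← h1, hCf u] at hlt
    have hpos : 0 < Nat.card (Subgroup.centralizer {u}) := Nat.card_pos
    have h2 : Nat.card (Subgroup.centralizer {u}) * (Subgroup.centralizer {u}).index <
        Nat.card (Subgroup.centralizer {u}) * (2 * b ^ 2) := by
      rw [mul_comm _ (2 * b ^ 2)]; exact hlt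
    exact (Nat.lt_of_mul_lt_mul_left h2).le
  · left
    push Not at hall
    rw [Nat.card_eq_fintype_card (α := H)]
    set s := ∑ u ∈ If, (Cf u).card with hs
    have h1 : 2 * b ^ 2 * s ≤ b * Fintype.card H := by
      rw [hs, Finset.mul_sum]
      calc ∑ u ∈ If, 2 * b ^ 2 * (Cf u).card ≤ ∑ u ∈ If, Fintype.card H :=
            Finset.sum_le_sum hall
        _ = If.card * Fintype.card H := by simp
        _ ≤ _ := Nat.mul_le_mul_right _ hIf
    have h2 : 2 * b * s ≤ Fintype.card H := by
      have : b * (2 * b * s) ≤ b * Fintype.card H := by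
        calc b * (2 * b * s) = 2 * b ^ 2 * s := by ring
          _ ≤ _ := h1
      exact Nat.le_of_mul_le_mul_left this hbpos
    have h3 : Fintype.card H ≤ b * k + b * s := by
      rw [← mul_add]; exact hcard
    have h4 : 2 * b * s = 2 * (b * s) := by ring
    have h5 : 2 * b * k = 2 * (b * k) := by ring
    omega

/-! ### The dense case -/

/-- The bound in the dense case. -/
noncomputable def denseBound (n C : ℕ) : ℕ :=
  2 * (n + 1) ^ (n + 1) * (n + 1) +
    C * (2 ^ (2 * ((n + 1) ^ (n + 1)) ^ 2) *
      schurBound ((2 * ((n + 1) ^ (n + 1)) ^ 2) ^ (2 * ((n + 1) ^ (n + 1)) ^ 2)))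

theorem card_le_of_dense {β : MulAut H} (hβ : Inv2 β) (hG : Gen β)
    (hD : ∀ N : Subgroup H, N.Normal → (∀ x ∈ N, β x ∈ N) → N ≠ ⊥ → ∃ e ∈ E β, e ∈ N ∧ e ≠ 1)
    {n C : ℕ} (hk : Nat.card (E β) ≤ n + 1)
    (hIH : ∀ (G : Type u) [Group G] [Finite G] (α : MulAut G), Inv2 α → Gen α →
      Nat.card (E α) ≤ n → Nat.card G ≤ C) :
    Nat.card H ≤ denseBound n C := by
  classical
  set k := n + 1 with hkdef
  have hb : Nat.card (Fix β) ≤ k ^ k := by
    refine (card_fix_le hβ hG hD).trans ?_
    calc Nat.card (E β) ^ Nat.card (E β) ≤ k ^ Nat.card (E β) := Nat.pow_le_pow_left hk _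
      _ ≤ k ^ k := Nat.pow_le_pow_right (by omega) hk
  rcases dichotomy hβ hb hk with h | ⟨u, huβ, huu, hu1, hidx⟩
  · exact h.trans (Nat.le_add_right _ _)
  · refine le_trans ?_ (Nat.le_add_left _ _)
    set V := 2 * (k ^ k) ^ 2 with hV
    let Y : Subgroup H := Subgroup.normalClosure ({u} : Set H)
    haveI hYn : Y.Normal := Subgroup.normalClosure_normal
    have huY : u ∈ Y := Subgroup.subset_normalClosure (Set.mem_singleton u)
    have hYβ : ∀ x ∈ Y, β x ∈ Y := by
      have hle : Y ≤ Y.comap β.toMonoidHom := by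
        haveI : (Y.comap β.toMonoidHom).Normal := Subgroup.Normal.comap hYn _
        apply Subgroup.normalClosure_le_normal
        rintro x hx
        rw [Set.mem_singleton_iff] at hx
        subst hx
        show β x ∈ Y
        rw [huβ]; exact huY
      exact fun x hx => hle hx
    have hYne : Y ≠ ⊥ := by
      intro h
      rw [h] at huY
      exact hu1 (Subgroup.mem_bot.mp huY)
    obtain ⟨e, he, heY, he1⟩ := hD Y hYn hYβ hYne
    have hlt := card_E_quot_lt β hβ Y hYβ he heY he1
    have hquot : Nat.card (H ⧸ Y) ≤ C :=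
      hIH (H ⧸ Y) (quotAut β hβ Y hYβ) (quotAut_inv2 β hβ Y hYβ) (quotAut_gen β hβ hG Y hYβ)
        (by omega)
    have hYcard : Nat.card Y ≤ 2 ^ V * schurBound (V ^ V) := card_normalClosure_le huu hidx
    rw [Subgroup.card_eq_card_quotient_mul_card_subgroup Y]
    exact Nat.mul_le_mul hquot hYcard

/-! ### The induction -/

theorem sq_pow_le {a k : ℕ} (ha : 0 < a) (h : a ≤ k) : (a ^ 2) ^ a ≤ (k ^ 2) ^ k := by
  calc (a ^ 2) ^ a ≤ (k ^ 2) ^ a := Nat.pow_le_pow_left (Nat.pow_le_pow_left h 2) _
    _ ≤ (k ^ 2) ^ k := Nat.pow_le_pow_right (pow_pos (ha.trans_le h) 2) h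

/-- **The bound**. -/
theorem exists_bound (n : ℕ) : ∃ C : ℕ, ∀ (G : Type u) [Group G] [Finite G] (α : MulAut G),
    Inv2 α → Gen α → Nat.card (E α) ≤ n → Nat.card G ≤ C := by
  induction n with
  | zero =>
    refine ⟨0, fun G _ _ α hα hG h => ?_⟩
    haveI : Nonempty (E α) := ⟨⟨1, one_mem_E α⟩⟩
    haveI : Finite (E α) := Subtype.finite
    have : 0 < Nat.card (E α) := Nat.card_pos
    omega
  | succ n ih =>
    obtain ⟨C, hC⟩ := ih
    set B := denseBound n C with hB
    set k := n + 1 with hk
    set m := (k ^ 2) ^ k * (k * schurBound B) with hm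
    refine ⟨k * schurBound m, fun G _ _ α hα hG hE => ?_⟩
    classical
    -- a maximal normal subgroup missing `E`
    let 𝓜 : Set (Subgroup G) :=
      {M | M.Normal ∧ (∀ x ∈ M, α x ∈ M) ∧ ∀ e ∈ E α, e ∈ M → e = 1}
    have h𝓜 : 𝓜.Nonempty := by
      refine ⟨⊥, inferInstance, ?_, ?_⟩
      · intro x hx
        rw [Subgroup.mem_bot] at hx ⊢
        rw [hx, map_one]
      · intro e _ he
        exact Subgroup.mem_bot.mp he
    obtain ⟨M, hMmax⟩ := (Set.toFinite 𝓜).exists_maximal h𝓜
    obtain ⟨hMn, hMα, hME⟩ := hMmax.1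
    haveI := hMn
    set β := quotAut α hα M hMα with hβdef
    have hβ : Inv2 β := quotAut_inv2 α hα M hMα
    have hβG : Gen β := quotAut_gen α hα hG M hMα
    have hD : ∀ N : Subgroup (G ⧸ M), N.Normal → (∀ x ∈ N, β x ∈ N) → N ≠ ⊥ →
        ∃ e ∈ E β, e ∈ N ∧ e ≠ 1 := by
      intro N hNn hNβ hN1
      let N' := N.comap (QuotientGroup.mk' M)
      have hMN' : M ≤ N' := by
        intro x hx
        show (x : G ⧸ M) ∈ N
        rw [(QuotientGroup.eq_one_iff x).mpr hx]
        exact N.one_mem
      have hN'n : N'.Normal := Subgroup.Normal.comap hNn _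
      have hN'α : ∀ x ∈ N', α x ∈ N' := by
        intro x hx
        exact hNβ _ hx
      have hne : ¬ N' ≤ M := by
        intro hle
        apply hN1
        rw [eq_bot_iff]
        intro y hy
        obtain ⟨x, rfl⟩ := QuotientGroup.mk_surjective y
        have : x ∈ M := hle hy
        rw [(QuotientGroup.eq_one_iff x).mpr this]
        exact Subgroup.one_mem _
      have hnot : N' ∉ 𝓜 := by
        intro hmem
        exact hne (hMmax.2 hmem hMN')
      have : ¬ ∀ e ∈ E α, e ∈ N' → e = 1 := fun h => hnot ⟨hN'n, hN'α, h⟩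
      push Not at this
      obtain ⟨e, he, heN, he1⟩ := this
      refine ⟨(e : G ⧸ M), map_mem_E (QuotientGroup.mk' M) (fun _ => rfl) he, heN, ?_⟩
      intro h
      exact he1 (hME e he ((QuotientGroup.eq_one_iff e).mp h))
    have hβE : Nat.card (E β) ≤ n + 1 := (card_E_quot_le α hα M hMα).trans hE
    have hMidx : M.index ≤ B := card_le_of_dense hβ hβG hD hβE hC
    -- the normal `2`-subgroup
    obtain ⟨T, hTn, hT2, hTα, hTM, htw⟩ := exists_T hα hMn hMα hME
    haveI := hTn
    set γ := quotAut α hα T hTα with hγdef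
    have hcen : (Subgroup.center (G ⧸ T)).index ≤ B :=
      (center_index_quot_le hα hG hTα hMn hMα htw).trans hMidx
    have hγE : Nat.card (E γ) ≤ k := (card_E_quot_le α hα T hTα).trans hE
    have hTidx : T.index ≤ k * schurBound B :=
      card_le_of_center_index (quotAut_inv2 α hα T hTα) (quotAut_gen α hα hG T hTα) hcen hγE
    have hcenG : (Subgroup.center G).index ≤ m := by
      refine (center_index_le_of_T hα hG hTn hT2 hTα).trans ?_
      refine Nat.mul_le_mul ?_ hTidx
      haveI : Nonempty (E α) := ⟨⟨1, one_mem_E α⟩⟩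
      haveI : Finite (E α) := Subtype.finite
      exact sq_pow_le Nat.card_pos hE
    exact card_le_of_center_index hα hG hcenG hE

end Cfsg.Agent.Lib.TwistDense
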