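import Mathlib
import Cfsg.Prelude.Def_LocalEven
import Cfsg.Agent.Lib.TwoFactC1
import Cfsg.Agent.Lib.AutPSL.NTwo
import Cfsg.Agent.Lib.AutPSL.Faithful
import Cfsg.Agent.Lib.SL2Four
import Cfsg.Agent.Lib.SL2Sylow
import Cfsg.Agent.Lib.PSL2Solv

/-!
# The interface for `PSL₂(3^(2n+1))`
-/

set_option autoImplicit false
set_option linter.unusedSectionVars false
set_option linter.unusedVariables false

namespace Cfsg.Agent.Lib.TwoFactD1

open Cfsg Cfsg.Agent.Lib.TwoFactA Cfsg.Agent.Lib.TwoFactC1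
open Cfsg.Agent.Lib.SL2Core Cfsg.Agent.Lib.SL2Inv Cfsg.Agent.Lib.SL2Four
open Matrix
open scoped MatrixGroups

/-- Transport along isomorphisms. -/
theorem XD.congr {X Y : Type*} [Group X] [Group Y] {τ D : ℕ} (e : X ≃* Y) (h : XD X τ D) : XD Y τ D := by
  refine ⟨?_, ?_, ?_, ?_, h.h2, h.h4⟩
  · intro H hH
    have h1 := h.ea (H.map e.symm.toMonoidHom) (by
      rintro _ ⟨y, hy, rfl⟩
      have := hH y hy
      show e.symm y * e.symm y = 1
      rw [← map_mul, this, map_one])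
    have h2 : Nat.card (H.map e.symm.toMonoidHom) = Nat.card H :=
      Nat.card_congr (H.equivMapOfInjective _ e.symm.injective).symm.toEquiv
    rwa [h2] at h1
  · intro t ht
    have ht' : orderOf (e.symm t) = 2 := by
      rw [MulEquiv.orderOf_eq]
      exact ht
    obtain ⟨x, ℓ, hℓ, hℓ2, hD, hord, hinv, hcyc⟩ := h.inv _ ht'
    refine ⟨e x, ℓ, hℓ, hℓ2, hD, by rw [MulEquiv.orderOf_eq]; exact hord, ?_, ?_⟩
    · have := congrArg e hinv
      simpa using this
    · intro Q hQ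
      have h1 : IsPGroup ℓ (Q.map e.symm.toMonoidHom) := hQ.map _
      haveI := hcyc _ h1
      exact isCyclic_of_injective (Q.equivMapOfInjective e.symm.toMonoidHom e.symm.injective).toMonoidHom
        (Q.equivMapOfInjective e.symm.toMonoidHom e.symm.injective).injective
  · intro β hβ hne hy
    let β' : X ≃* X := (e.trans β).trans e.symm
    have hβ' : ∀ x, β' x = e.symm (β (e x)) := fun x => rfl
    obtain ⟨t, ht, h1⟩ := h.inn β' (by
        intro x
        simp [hβ', hβ])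
      (by
        obtain ⟨y, hy2⟩ := hne
        refine ⟨e.symm y, ?_⟩
        intro h2
        apply hy2
        have := congrArg e h2
        simpa [hβ'] using this)
      (by
        intro y hy3 h2
        have hy4 : orderOf (e y) = 3 := by
          rw [MulEquiv.orderOf_eq]
          exact hy3
        apply hy _ hy4
        have := congrArg e h2
        simpa [hβ'] using this)
    refine ⟨e t, by rw [MulEquiv.orderOf_eq]; exact ht, ?_⟩
    intro x
    have h2 := congrArg e (h1 (e.symm x))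
    simpa [hβ'] using h2
  · obtain ⟨t, ht⟩ := h.invo
    exact ⟨e t, by rw [MulEquiv.orderOf_eq]; exact ht⟩

section psl

variable {F : Type} [Field F] [Fintype F] {n : ℕ}

theorem two_ne (hF : Fintype.card F = 3 ^ (2 * n + 1)) : (2 : F) ≠ 0 := by
  classical
  haveI : Fact (Nat.Prime 3) := ⟨Nat.prime_three⟩
  have h3 : ((3 ^ (2 * n + 1) : ℕ) : F) = 0 := by
    rw [← hF]
    exact Nat.cast_card_eq_zero F
  push_cast at h3
  have h4 : (3 : F) = 0 := pow_eq_zero_iff (by omega) |>.1 h3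
  intro h2
  have : (1 : F) = 0 := by
    have e : (1 : F) = 3 - 2 := by norm_num
    rw [e, h4, h2, sub_zero]
  exact one_ne_zero this

theorem three_eq (hF : Fintype.card F = 3 ^ (2 * n + 1)) : (3 : F) = 0 := by
  have h3 : ((3 ^ (2 * n + 1) : ℕ) : F) = 0 := by
    rw [← hF]
    exact Nat.cast_card_eq_zero F
  push_cast at h3
  exact pow_eq_zero_iff (by omega) |>.1 h3

theorem card_mod4 (n : ℕ) : 3 ^ (2 * n + 1) % 4 = 3 := by
  induction n with
  | zero => norm_num
  | succ k ih =>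
    have e : 3 ^ (2 * (k + 1) + 1) = 3 ^ (2 * k + 1) * 9 := by ring
    omega

/-- Automorphisms with square one are inner. -/
theorem psl_inn (hF : Fintype.card F = 3 ^ (2 * n + 1))
    (β : PSL2 F ≃* PSL2 F) (hβ : ∀ x, β (β x) = x) (hne : ∃ x, β x ≠ x)
    (hy : ∀ y, orderOf y = 3 → β y ≠ y⁻¹) : ∃ t, orderOf t = 2 ∧ ∀ x, β x = t * x * t⁻¹ := by
  classical
  haveI : Fact (Nat.Prime 3) := ⟨Nat.prime_three⟩
  haveI : Fact (Nat.Prime 2) := ⟨Nat.prime_two⟩
  have h2F := two_ne hF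
  obtain ⟨g, σ, rfl⟩ := Cfsg.Agent.Lib.AutPSL.aut_two Nat.prime_three (f := 2 * n + 1) (by omega) hF β
  have hone : Cfsg.Agent.Lib.AutPSL.csAut g σ * Cfsg.Agent.Lib.AutPSL.csAut g σ = 1 := by
    apply MulEquiv.ext
    intro x
    exact hβ x
  rw [Cfsg.Agent.Lib.AutPSL.csAut_mul] at hone
  obtain ⟨hσ, c, hc⟩ := Cfsg.Agent.Lib.AutPSL.eq_of_csAut_eq_one (le_refl 2) hone
  -- the field automorphism is trivial
  have hσ1 : σ = RingEquiv.refl F := by
    have hcard := Cfsg.Agent.Lib.AutPSL.card_ringAut (p := 3) (f := 2 * n + 1) hF (by omega)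
    let σ' : RingAut F := σ
    have h1 : σ' * σ' = 1 := hσ
    have h2 : orderOf σ' ∣ 2 := orderOf_dvd_of_pow_eq_one (by rw [pow_two, h1])
    have h3 : orderOf σ' ∣ 2 * n + 1 := by
      rw [← hcard]
      exact orderOf_dvd_natCard σ'
    have h4 : orderOf σ' = 1 := by
      have hcop : Nat.Coprime 2 (2 * n + 1) := by
        rw [Nat.coprime_two_left]
        exact ⟨n, rfl⟩
      exact Nat.Coprime.eq_one_of_dvd (Nat.Coprime.coprime_dvd_left h2 hcop) h3 |> fun h => h
    exact orderOf_eq_one_iff.mp h4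
  subst hσ1
  set G : Matrix (Fin 2) (Fin 2) F := (g : Matrix (Fin 2) (Fin 2) F) with hGdef
  have hG2 : G * G = (c : F) • (1 : Matrix (Fin 2) (Fin 2) F) := by
    have h1 := congrArg (fun z : GL (Fin 2) F => (z : Matrix (Fin 2) (Fin 2) F)) hc
    simp only [Units.val_mul, Cfsg.Agent.Lib.AutPSL.scalar_coe, Cfsg.Agent.Lib.AutPSL.glMap_coe] at h1
    have h2 : (g : Matrix (Fin 2) (Fin 2) F).map (RingEquiv.refl F) = g := by
      ext i j
      rfl
    rw [h2] at h1
    exact h1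
  have hns : ∀ k : F, G ≠ k • (1 : Matrix (Fin 2) (Fin 2) F) := by
    intro k hk
    obtain ⟨x, hx⟩ := hne
    apply hx
    have hk0 : k ≠ 0 := by
      rintro rfl
      have hd : IsUnit G.det := (Matrix.isUnit_iff_isUnit_det G).mp g.isUnit
      rw [hk, zero_smul, Matrix.det_zero] at hd
      exact not_isUnit_zero hd
    let u : Fˣ := Units.mk0 k hk0
    have hgu : g = 1 * Matrix.GeneralLinearGroup.scalar (Fin 2) u := by
      apply Units.ext
      rw [Units.val_mul, Cfsg.Agent.Lib.AutPSL.scalar_coe]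
      show G = 1 * (k • (1 : Matrix (Fin 2) (Fin 2) F))
      rw [one_mul]
      exact hk
    rw [hgu, Cfsg.Agent.Lib.AutPSL.csAut_scalar_mul, Cfsg.Agent.Lib.AutPSL.csAut_one]
    rfl
  have hdu : G.det ≠ 0 := by
    have hd : IsUnit G.det := (Matrix.isUnit_iff_isUnit_det G).mp g.isUnit
    exact hd.ne_zero
  by_cases hsq : IsSquare G.det
  · -- inner
    obtain ⟨μ, hμ⟩ := hsq
    have hμ0 : μ ≠ 0 := by
      rintro rfl
      apply hdu
      rw [hμ, mul_zero]
    have hdetS : (μ⁻¹ • G).det = 1 := by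
      rw [Matrix.det_smul, hμ, Fintype.card_fin]
      field_simp
    let s : SL2 F := ⟨μ⁻¹ • G, hdetS⟩
    have hs : ((s : SL2 F) : Matrix (Fin 2) (Fin 2) F) = μ⁻¹ • G := rfl
    let u : Fˣ := Units.mk0 μ hμ0
    have hgu : g = Matrix.SpecialLinearGroup.toGL s * Matrix.GeneralLinearGroup.scalar (Fin 2) u := by
      apply Units.ext
      rw [Units.val_mul, Cfsg.Agent.Lib.AutPSL.scalar_coe]
      show G = (μ⁻¹ • G) * (μ • (1 : Matrix (Fin 2) (Fin 2) F))
      rw [Matrix.mul_smul, Matrix.mul_one, smul_smul, mul_inv_cancel₀ hμ0, one_smul]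
    have hcs : Cfsg.Agent.Lib.AutPSL.csAut g (RingEquiv.refl F) =
        MulAut.conj (QuotientGroup.mk s : PSL2 F) := by
      rw [hgu, Cfsg.Agent.Lib.AutPSL.csAut_scalar_mul, Cfsg.Agent.Lib.AutPSL.csAut_conj]
    refine ⟨QuotientGroup.mk s, ?_, ?_⟩
    · apply orderOf_eq_prime
      · rw [pow_two, ← QuotientGroup.mk_mul]
        apply (Cfsg.Agent.Lib.AutPSL.mk_eq_one_iff _).mpr
        refine ⟨μ⁻¹ * μ⁻¹ * c, ?_⟩
        show (μ⁻¹ • G) * (μ⁻¹ • G) = _
        rw [Matrix.smul_mul, Matrix.mul_smul, hG2, smul_smul, smul_smul]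
      · intro h1
        obtain ⟨x, hx⟩ := hne
        apply hx
        rw [hcs, MulAut.conj_apply, h1]
        simp
    · intro x
      rw [hcs, MulAut.conj_apply]
  · -- an inverted element of order three
    exfalso
    have hm1 : ¬ IsSquare (-1 : F) := by
      rw [FiniteField.isSquare_neg_one_iff, hF, card_mod4]
      simp
    have hB : IsSquare (-G.det) := by
      have h1 := (quadraticChar_neg_one_iff_not_isSquare (a := (-1 : F))).mpr hm1
      have h2 := (quadraticChar_neg_one_iff_not_isSquare (a := G.det)).mpr hsq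
      apply (quadraticChar_one_iff_isSquare (neg_ne_zero.mpr hdu)).mp
      have e : -G.det = (-1) * G.det := by ring
      rw [e, map_mul, h1, h2]
      norm_num
    obtain ⟨μ, hμ⟩ := hB
    have hμ0 : μ ≠ 0 := by
      rintro rfl
      apply hdu
      have := neg_eq_zero.mp (hμ.trans (mul_zero 0))
      exact this
    set G' : Matrix (Fin 2) (Fin 2) F := μ⁻¹ • G with hG'
    have hGG' : G = μ • G' := by
      rw [hG', smul_smul, mul_inv_cancel₀ hμ0, one_smul]
    have hdet : G'.det = -1 := by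
      rw [hG', Matrix.det_smul, Fintype.card_fin]
      have e : G.det = -(μ * μ) := by rw [← hμ]; ring
      rw [e]
      field_simp
    have hsq' : G' * G' = (μ⁻¹ * μ⁻¹ * c) • (1 : Matrix (Fin 2) (Fin 2) F) := by
      rw [hG', Matrix.smul_mul, Matrix.mul_smul, hG2, smul_smul, smul_smul]
    have hns' : ∀ k : F, G' ≠ k • (1 : Matrix (Fin 2) (Fin 2) F) := by
      intro k hk
      apply hns (μ * k)
      rw [hGG', hk, smul_smul]
    set e := μ⁻¹ * μ⁻¹ * c with he
    have E00 : G' 0 0 * G' 0 0 + G' 0 1 * G' 1 0 = e := by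
      have := congrFun (congrFun hsq' 0) 0
      simpa [Matrix.mul_apply, Fin.sum_univ_two] using this
    have E01 : G' 0 0 * G' 0 1 + G' 0 1 * G' 1 1 = 0 := by
      have := congrFun (congrFun hsq' 0) 1
      simpa [Matrix.mul_apply, Fin.sum_univ_two] using this
    have E10 : G' 1 0 * G' 0 0 + G' 1 1 * G' 1 0 = 0 := by
      have := congrFun (congrFun hsq' 1) 0
      simpa [Matrix.mul_apply, Fin.sum_univ_two] using this
    have E11 : G' 1 0 * G' 0 1 + G' 1 1 * G' 1 1 = e := by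
      have := congrFun (congrFun hsq' 1) 1
      simpa [Matrix.mul_apply, Fin.sum_univ_two] using this
    have Edet : G' 0 0 * G' 1 1 - G' 0 1 * G' 1 0 = -1 := by
      rw [← hdet, Matrix.det_fin_two]
    have htr : G' 0 0 + G' 1 1 = 0 := by
      by_cases hb : G' 0 1 = 0
      · by_cases hc' : G' 1 0 = 0
        · have h1 : (G' 0 0 - G' 1 1) * (G' 0 0 + G' 1 1) = 0 := by
            rw [hb] at E00 E11
            linear_combination E00 - E11
          rcases mul_eq_zero.mp h1 with h2 | h2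
          · exfalso
            apply hns' (G' 0 0)
            ext i j
            fin_cases i <;> fin_cases j
            · simp
            · simpa using hb
            · simpa using hc'
            · have : G' 0 0 = G' 1 1 := sub_eq_zero.mp h2
              simpa using this.symm
          · exact h2
        · have h1 : G' 1 0 * (G' 0 0 + G' 1 1) = 0 := by
            linear_combination E10
          exact (mul_eq_zero.mp h1).resolve_left hc'
      · have h1 : G' 0 1 * (G' 0 0 + G' 1 1) = 0 := by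
          linear_combination E01
        exact (mul_eq_zero.mp h1).resolve_left hb
    have he1 : e = 1 := by
      have h1 : G' 1 1 = -G' 0 0 := by linear_combination htr
      rw [h1] at Edet
      rw [← E00]
      linear_combination -Edet
    have hG'2 : G' * G' = 1 := by
      rw [hsq', he1, one_smul]
    let P : Matrix (Fin 2) (Fin 2) F := 1 + G'
    let M : Matrix (Fin 2) (Fin 2) F := 1 - G'
    have hGP : G' * P = P := by
      show G' * (1 + G') = 1 + G'
      rw [Matrix.mul_add, Matrix.mul_one, hG'2, add_comm]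
    have hMG : M * G' = -M := by
      show (1 - G') * G' = -(1 - G')
      rw [Matrix.sub_mul, Matrix.one_mul, hG'2, neg_sub]
    have hMP : M * P = 0 := by
      show (1 - G') * (1 + G') = 0
      rw [Matrix.sub_mul, Matrix.one_mul, Matrix.mul_add, Matrix.mul_one, hG'2]
      abel
    have hP0 : ∃ i j, P i j ≠ 0 := by
      by_contra hcon
      push Not at hcon
      apply hns' (-1)
      ext i j
      have h1 := hcon i j
      have h2 : (1 : Matrix (Fin 2) (Fin 2) F) i j + G' i j = 0 := h1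
      simp only [Matrix.smul_apply, smul_eq_mul, neg_one_mul]
      linear_combination h2
    have hM0 : ∃ k l, M k l ≠ 0 := by
      by_contra hcon
      push Not at hcon
      apply hns' 1
      ext i j
      have h1 := hcon i j
      have h2 : (1 : Matrix (Fin 2) (Fin 2) F) i j - G' i j = 0 := h1
      simp only [Matrix.smul_apply, smul_eq_mul, one_mul]
      linear_combination -h2
    obtain ⟨i, j, hij⟩ := hP0
    obtain ⟨k, l, hkl⟩ := hM0
    let u : Fin 2 → F := fun r => P r j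
    let v : Fin 2 → F := fun r => M k r
    have hu : u ≠ 0 := fun h => hij (congrFun h i)
    have hv : v ≠ 0 := fun h => hkl (congrFun h l)
    have hGu : G' *ᵥ u = u := by
      funext r
      exact congrFun (congrFun hGP r) j
    have hvG : v ᵥ* G' = -v := by
      funext r
      exact congrFun (congrFun hMG k) r
    have hvu : v ⬝ᵥ u = 0 := congrFun (congrFun hMP k) j
    -- the element
    let y : PSL2 F := Cfsg.Agent.Lib.AutPSL.pt u v
    have hy1 : y ≠ 1 := Cfsg.Agent.Lib.AutPSL.pt_ne_one hvu hu hv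
    have hy3 : y ^ 3 = 1 := by
      have h1 : y * y = Cfsg.Agent.Lib.AutPSL.pt (u + u) v :=
        (Cfsg.Agent.Lib.AutPSL.pt_add_left hvu hvu).symm
      have h2 : v ⬝ᵥ (u + u) = 0 := by
        rw [dotProduct_add, hvu, add_zero]
      have h3 : (y * y) * y = Cfsg.Agent.Lib.AutPSL.pt (u + u + u) v := by
        rw [h1]
        exact (Cfsg.Agent.Lib.AutPSL.pt_add_left h2 hvu).symm
      have h4 : u + u + u = 0 := by
        funext r
        have := three_eq hF
        show u r + u r + u r = 0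
        linear_combination (u r) * this
      rw [h4, Cfsg.Agent.Lib.AutPSL.pt_zero_left] at h3
      rw [pow_succ, pow_two]
      exact h3
    have hord : orderOf y = 3 := orderOf_eq_prime hy3 hy1
    apply hy y hord
    have hvm : ∀ w : Fin 2 → F, Cfsg.Agent.Lib.AutPSL.vmap (RingEquiv.refl F) w = w := fun w => rfl
    have h1 := Cfsg.Agent.Lib.AutPSL.csAut_pt g (RingEquiv.refl F) hvu
    rw [hvm, hvm] at h1
    have h2 : (g : Matrix (Fin 2) (Fin 2) F) *ᵥ u = μ • u := by
      show G *ᵥ u = _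
      rw [hGG', Matrix.smul_mulVec, hGu]
    have h3 : v ᵥ* ((g⁻¹ : GL (Fin 2) F) : Matrix (Fin 2) (Fin 2) F) = -(μ⁻¹ • v) := by
      have h4 : (-(μ⁻¹ • v)) ᵥ* G = v := by
        rw [hGG', Matrix.vecMul_smul, Matrix.neg_vecMul, Matrix.smul_vecMul, hvG]
        simp only [smul_neg, neg_neg, smul_smul, mul_inv_cancel₀ hμ0, one_smul]
      have h5 : ((-(μ⁻¹ • v)) ᵥ* G) ᵥ* ((g⁻¹ : GL (Fin 2) F) : Matrix (Fin 2) (Fin 2) F) =
          v ᵥ* ((g⁻¹ : GL (Fin 2) F) : Matrix (Fin 2) (Fin 2) F) := by rw [h4]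
      rw [Matrix.vecMul_vecMul] at h5
      have h6 : G * ((g⁻¹ : GL (Fin 2) F) : Matrix (Fin 2) (Fin 2) F) = 1 :=
        Cfsg.Agent.Lib.AutPSL.gl_mul_inv g
      rw [h6, Matrix.vecMul_one] at h5
      exact h5.symm
    rw [h2, h3] at h1
    rw [h1, Cfsg.Agent.Lib.AutPSL.pt_smul]
    have e1 : μ • (-(μ⁻¹ • v)) = (-1 : F) • v := by
      rw [smul_neg, smul_smul, mul_inv_cancel₀ hμ0, one_smul, neg_one_smul]
    rw [e1, ← Cfsg.Agent.Lib.AutPSL.pt_smul, neg_one_smul]
    exact (Cfsg.Agent.Lib.AutPSL.pt_inv hvu).symm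

theorem q_mod16 (n : ℕ) : ∃ k, 3 ^ (2 * n + 1) = 16 * k + 3 ∨ 3 ^ (2 * n + 1) = 16 * k + 11 := by
  induction n with
  | zero => exact ⟨0, Or.inl (by norm_num)⟩
  | succ a ih =>
    obtain ⟨k, hk⟩ := ih
    have e : 3 ^ (2 * (a + 1) + 1) = 3 ^ (2 * a + 1) * 9 := by ring
    rcases hk with hk | hk
    · exact ⟨9 * k + 1, Or.inr (by rw [e, hk]; ring)⟩
    · exact ⟨9 * k + 6, Or.inl (by rw [e, hk]; ring)⟩

theorem not_16_dvd (n : ℕ) : ¬ 16 ∣ (3 ^ (2 * n + 1) + 1) * 3 ^ (2 * n + 1) * (3 ^ (2 * n + 1) - 1) := by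
  obtain ⟨k, hk⟩ := q_mod16 n
  rcases hk with hk | hk
  · rw [hk]
    have e1 : 16 * k + 3 - 1 = 16 * k + 2 := by omega
    rw [e1]
    have e2 : (16 * k + 3 + 1) * (16 * k + 3) * (16 * k + 2) =
        16 * (256 * k ^ 3 + 144 * k ^ 2 + 26 * k + 1) + 8 := by ring
    rw [e2]
    intro h
    have := (Nat.dvd_add_right (dvd_mul_right 16 _)).mp h
    omega
  · rw [hk]
    have e1 : 16 * k + 11 - 1 = 16 * k + 10 := by omega
    rw [e1]
    have e2 : (16 * k + 11 + 1) * (16 * k + 11) * (16 * k + 10) =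
        16 * (256 * k ^ 3 + 528 * k ^ 2 + 362 * k + 82) + 8 := by ring
    rw [e2]
    intro h
    have := (Nat.dvd_add_right (dvd_mul_right 16 _)).mp h
    omega

/-- Exponent two subgroups. -/
theorem psl_ea (hF : Fintype.card F = 3 ^ (2 * n + 1)) (H : Subgroup (PSL2 F))
    (hH : ∀ x ∈ H, x * x = 1) : Nat.card H ≤ 2 ^ 2 := by
  classical
  haveI : Fact (Nat.Prime 2) := ⟨Nat.prime_two⟩
  have hp : IsPGroup 2 H := by
    intro x
    refine ⟨1, ?_⟩
    rw [pow_one, pow_two]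
    exact Subtype.ext (hH x x.2)
  obtain ⟨a, ha⟩ := IsPGroup.iff_card.mp hp
  rw [ha]
  apply Nat.pow_le_pow_right (by norm_num)
  by_contra hlt
  push Not at hlt
  have h1 : 2 ^ a ∣ Nat.card (PSL2 F) := by
    rw [← ha]
    exact Subgroup.card_subgroup_dvd_card H
  have h2 : 8 ∣ Nat.card (PSL2 F) :=
    (pow_dvd_pow 2 (show 3 ≤ a by omega)).trans h1
  have h3 := Cfsg.Agent.Lib.ClassicalSmall.card_PSL2 (F := F)
  rw [hF] at h3
  apply not_16_dvd n
  rw [← h3]
  have h4 : 3 ^ (2 * n + 1) % 4 = 3 := card_mod4 n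
  have h5 : Nat.gcd 2 (3 ^ (2 * n + 1) - 1) = 2 := by
    apply Nat.gcd_eq_left
    exact Nat.dvd_of_mod_eq_zero (by omega)
  rw [h5]
  exact Nat.mul_dvd_mul_left 2 h2

/-- The diagonal homomorphism. -/
def dh : Fˣ →* SL2 F where
  toFun a := mk2 (a : F) 0 0 ((a : F)⁻¹) (by simp)
  map_one' := by
    apply Subtype.ext
    simp [Matrix.one_fin_two]
  map_mul' := by
    intro a b
    apply Subtype.ext
    show !![((a * b : Fˣ) : F), 0; 0, ((a * b : Fˣ) : F)⁻¹] =
      !![(a : F), 0; 0, (a : F)⁻¹] * !![(b : F), 0; 0, (b : F)⁻¹]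
    rw [Matrix.mul_fin_two]
    simp [mul_comm]

theorem w_dh (a : Fˣ) : (w₀ : SL2 F) * dh a = dh a⁻¹ * w₀ := by
  apply Subtype.ext
  show !![(0 : F), 1; -1, 0] * !![(a : F), 0; 0, (a : F)⁻¹] =
    !![((a⁻¹ : Fˣ) : F), 0; 0, ((a⁻¹ : Fˣ) : F)⁻¹] * !![(0 : F), 1; -1, 0]
  rw [Matrix.mul_fin_two, Matrix.mul_fin_two]
  simp

theorem key_res {p : ℕ} {c : ℕ} (hc : 1 ≤ 3 * c * c) (h : p ∣ 3 * c * c - 1) :
    (((3 : ZMod p) * (c : ZMod p) * (c : ZMod p)) = 1) := by
  have h1 : ((3 * c * c - 1 : ℕ) : ZMod p) = 0 := (ZMod.natCast_eq_zero_iff _ _).mpr h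
  rw [Nat.cast_sub hc] at h1
  push_cast at h1
  exact sub_eq_zero.mp h1

theorem ord2_seven {ℓ c : ℕ} (hℓ : ℓ.Prime) (hc : 1 ≤ 3 * c * c) (h : ℓ ∣ 3 * c * c - 1) : Ord2 ℓ 7 := by
  have h3 : ℓ ≠ 3 := by
    rintro rfl
    have h1 := key_res hc h
    have h2 : ∀ x : ZMod 3, (3 : ZMod 3) * x * x ≠ 1 := by decide
    exact h2 _ h1
  have h5 : ℓ ≠ 5 := by
    rintro rfl
    have h1 := key_res hc h
    have h2 : ∀ x : ZMod 5, (3 : ZMod 5) * x * x ≠ 1 := by decide
    exact h2 _ h1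
  have h7 : ℓ ≠ 7 := by
    rintro rfl
    have h1 := key_res hc h
    have h2 : ∀ x : ZMod 7, (3 : ZMod 7) * x * x ≠ 1 := by decide
    exact h2 _ h1
  have h31 : ℓ ≠ 31 := by
    rintro rfl
    have h1 := key_res hc h
    have h2 : ∀ x : ZMod 31, (3 : ZMod 31) * x * x ≠ 1 := by decide
    exact h2 _ h1
  intro d hd hdvd
  by_contra hlt
  have hd6 : d ≤ 6 := by omega
  have hpr : ∀ q : ℕ, q.Prime → ℓ ∣ q → ℓ = q := fun q hq hl =>
    (Nat.prime_dvd_prime_iff_eq hℓ hq).mp hl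
  interval_cases d
  · exact hℓ.one_lt.ne' (Nat.dvd_one.mp (by simpa using hdvd))
  · exact h3 (hpr 3 (by norm_num) (by simpa using hdvd))
  · exact h7 (hpr 7 (by norm_num) (by simpa using hdvd))
  · have : ℓ ∣ 3 * 5 := by simpa using hdvd
    rcases (Nat.Prime.dvd_mul hℓ).mp this with h | h
    · exact h3 (hpr 3 (by norm_num) h)
    · exact h5 (hpr 5 (by norm_num) h)
  · exact h31 (hpr 31 (by norm_num) (by simpa using hdvd))
  · have : ℓ ∣ 3 * 21 := by simpa using hdvd
    rcases (Nat.Prime.dvd_mul hℓ).mp this with h | h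
    · exact h3 (hpr 3 (by norm_num) h)
    · have : ℓ ∣ 3 * 7 := by simpa using h
      rcases (Nat.Prime.dvd_mul hℓ).mp this with h | h
      · exact h3 (hpr 3 (by norm_num) h)
      · exact h7 (hpr 7 (by norm_num) h)

/-- Subgroups of prime power order dividing `q - 1` are cyclic. -/
theorem psl_cyc {ℓ : ℕ} (hℓ : ℓ.Prime) (hℓ2 : ℓ ≠ 2) (hdvd : ℓ ∣ Fintype.card F - 1)
    (Q : Subgroup (PSL2 F)) (hQ : IsPGroup ℓ Q) : IsCyclic Q := by
  classical
  haveI : Fact ℓ.Prime := ⟨hℓ⟩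
  have hq : 2 ≤ Fintype.card F := Fintype.one_lt_card
  let T : Subgroup (PSL2 F) := (Cfsg.Agent.Lib.SL2Split.TT F).map proj
  haveI hTc : IsCyclic (Cfsg.Agent.Lib.SL2Split.TT F) := Cfsg.Agent.Lib.SL2Sylow.isCyclic_TT
  have hTcyc : IsCyclic T :=
    isCyclic_of_surjective _ (proj.subgroupMap_surjective (Cfsg.Agent.Lib.SL2Split.TT F))
  have hidx0 : ¬ ℓ ∣ (Cfsg.Agent.Lib.SL2Split.TT F).index := by
    rw [Cfsg.Agent.Lib.SL2Sylow.index_TT]
    intro h
    rcases (Nat.Prime.dvd_mul hℓ).mp h with h1 | h1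
    · have h2 : ℓ ∣ 2 := by
        have := Nat.dvd_sub h1 hdvd
        have e : Fintype.card F + 1 - (Fintype.card F - 1) = 2 := by omega
        rwa [e] at this
      exact hℓ2 ((Nat.prime_dvd_prime_iff_eq hℓ Nat.prime_two).mp h2)
    · have h2 : ℓ ∣ 1 := by
        have := Nat.dvd_sub h1 hdvd
        have e : Fintype.card F - (Fintype.card F - 1) = 1 := by omega
        rwa [e] at this
      exact hℓ.one_lt.ne' (Nat.dvd_one.mp h2)
  have hidx : ¬ ℓ ∣ T.index := fun h =>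
    hidx0 (h.trans (Subgroup.index_map_dvd _ proj_surjective))
  obtain ⟨x, hx⟩ := Cfsg.Agent.Lib.SylowAbelian.exists_conj_le T hidx Q hQ
  let f : Q →* T :=
    { toFun := fun y => ⟨x⁻¹ * y * x, hx y y.2⟩
      map_one' := by
        apply Subtype.ext
        simp
      map_mul' := by
        intro a b
        apply Subtype.ext
        show x⁻¹ * ((a : PSL2 F) * b) * x = x⁻¹ * a * x * (x⁻¹ * b * x)
        group }
  have hf : Function.Injective f := by
    intro a b hab
    have h1 : x⁻¹ * (a : PSL2 F) * x = x⁻¹ * b * x := congrArg Subtype.val hab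
    apply Subtype.ext
    have h2 := mul_left_cancel (mul_right_cancel h1)
    exact h2
  exact isCyclic_of_injective f hf

/-- The inversion property. -/
theorem psl_inv (hF : Fintype.card F = 3 ^ (2 * n + 1)) (hn : 1 ≤ n) (t : PSL2 F) (ht : orderOf t = 2) :
    ∃ (x : PSL2 F) (ℓ : ℕ), ℓ.Prime ∧ ℓ ≠ 2 ∧ Ord2 ℓ 7 ∧ orderOf x = ℓ ∧ t * x * t⁻¹ = x⁻¹ ∧
      ∀ Q : Subgroup (PSL2 F), IsPGroup ℓ Q → IsCyclic Q := by
  classical
  have h2F := two_ne hF
  obtain ⟨X, rfl, hX⟩ := lift_involution h2F t ht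
  obtain ⟨U, hU⟩ := conj_of_sq h2F w₀ X w₀_sq hX
  -- the prime
  set q := 3 ^ (2 * n + 1) with hq
  have hq4 : q % 4 = 3 := card_mod4 n
  have hq27 : 27 ≤ q := by
    have : 3 ^ 3 ≤ 3 ^ (2 * n + 1) := Nat.pow_le_pow_right (by norm_num) (by omega)
    simpa using this
  let m := (q - 1) / 2
  have hm : q - 1 = 2 * m := by
    show q - 1 = 2 * ((q - 1) / 2)
    omega
  have hm1 : m ≠ 1 := by omega
  let ℓ := Nat.minFac m
  have hℓ : ℓ.Prime := Nat.minFac_prime hm1
  have hℓm : ℓ ∣ m := Nat.minFac_dvd m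
  have hℓ2 : ℓ ≠ 2 := by
    intro h
    have h1 : 2 ∣ m := h ▸ hℓm
    omega
  have hℓq : ℓ ∣ q - 1 := by
    rw [hm]
    exact hℓm.mul_left 2
  haveI : Fact ℓ.Prime := ⟨hℓ⟩
  have hord2 : Ord2 ℓ 7 := by
    apply ord2_seven (c := 3 ^ n) hℓ
    · have : 0 < 3 ^ n := by positivity
      nlinarith
    · have e : 3 * 3 ^ n * 3 ^ n = q := by
        rw [hq]
        ring
      rw [e]
      exact hℓq
  have hcardU : ℓ ∣ Nat.card Fˣ := by
    rw [Nat.card_eq_fintype_card, Fintype.card_units, hF]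
    exact hℓq
  obtain ⟨a, ha⟩ := exists_prime_orderOf_dvd_card' (G := Fˣ) ℓ hcardU
  have hcen : ∀ b : Fˣ, dh b ∈ Subgroup.center (SL2 F) → b * b = 1 := by
    intro b hb
    have h1 := center_eq _ hb
    apply Units.ext
    rcases h1 with h1 | h1
    · have h2 := congrArg (fun z : SL2 F => (z : Matrix (Fin 2) (Fin 2) F) 0 0) h1
      have h3 : (b : F) = 1 := h2
      simp [h3]
    · have h2 := congrArg (fun z : SL2 F => (z : Matrix (Fin 2) (Fin 2) F) 0 0) h1
      have h3 : (b : F) = -1 := by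
        have h4 : (b : F) = ((negS 1 : SL2 F) : Matrix (Fin 2) (Fin 2) F) 0 0 := h2
        rw [h4, negS_one_coe]
        simp
      simp [h3]
  let x : PSL2 F := proj (U * dh a * U⁻¹)
  refine ⟨x, ℓ, hℓ, hℓ2, hord2, ?_, ?_, ?_⟩
  · apply orderOf_eq_prime
    · show (proj (U * dh a * U⁻¹)) ^ ℓ = 1
      rw [← map_pow, conj_pow, ← map_pow, ← ha, pow_orderOf_eq_one, map_one]
      simp
    · intro h
      have h1 : U * dh a * U⁻¹ ∈ Subgroup.center (SL2 F) := (proj_eq_one_iff _).mp h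
      have h2 : dh a ∈ Subgroup.center (SL2 F) := by
        have e : dh a = U⁻¹ * (U * dh a * U⁻¹) * U⁻¹⁻¹ := by group
        rw [e]
        exact (inferInstance : (Subgroup.center (SL2 F)).Normal).conj_mem _ h1 U⁻¹
      have h3 := hcen a h2
      have h4 : orderOf a ∣ 2 := orderOf_dvd_of_pow_eq_one (by rw [pow_two, h3])
      rw [ha] at h4
      exact hℓ2 ((Nat.prime_dvd_prime_iff_eq hℓ Nat.prime_two).mp h4)
  · show proj X * proj (U * dh a * U⁻¹) * (proj X)⁻¹ = (proj (U * dh a * U⁻¹))⁻¹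
    rw [← map_inv, ← map_mul, ← map_mul, ← map_inv]
    congr 1
    rw [← hU]
    have e : U * w₀ * U⁻¹ * (U * dh a * U⁻¹) * (U * w₀ * U⁻¹)⁻¹ = U * (w₀ * dh a * w₀⁻¹) * U⁻¹ := by group
    rw [e, w_dh, map_inv]
    group
  · intro Q hQ
    apply psl_cyc hℓ hℓ2 _ Q hQ
    rw [hF]
    exact hℓq

/-- The interface for `PSL₂`. -/
theorem psl_xd (hF : Fintype.card F = 3 ^ (2 * n + 1)) (hn : 1 ≤ n) : XD (PSL2 F) 2 7 := by
  classical
  have h2F := two_ne hF
  haveI : Fact (Nat.Prime 2) := ⟨Nat.prime_two⟩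
  refine ⟨psl_ea hF, psl_inv hF hn, psl_inn hF, ?_, le_refl 2, by norm_num⟩
  refine ⟨proj w₀, ?_⟩
  apply orderOf_eq_prime
  · rw [pow_two, ← map_mul, w₀_sq, proj_negS, map_one]
  · intro h
    exact not_center_of_sq h2F w₀ w₀_sq ((proj_eq_one_iff _).mp h)

end psl

end Cfsg.Agent.Lib.TwoFactD1
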