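import Mathlib
import Cfsg.Prelude.Def_LocalEven
import Cfsg.Agent.Lib.TwoFactD1
import Cfsg.Agent.Lib.BenderIndexSz
import Cfsg.Agent.Lib.SzAut
import Cfsg.Agent.Lib.SuzukiIso

/-!
# The interface for the Suzuki groups, and for the whole family
-/

set_option autoImplicit false
set_option linter.unusedSectionVars false
set_option linter.unusedVariables false
set_option linter.unnecessarySimpa false
set_option linter.style.haveILetI false

namespace Cfsg.Agent.Lib.TwoFactD2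

open Cfsg Cfsg.Agent.Lib.TwoFactA Cfsg.Agent.Lib.TwoFactC1
open Cfsg.Agent.Lib.SuzukiBasic Cfsg.Agent.Lib.Suzuki Cfsg.Agent.Lib.Suzuki2
  Cfsg.Agent.Lib.Suzuki3 Cfsg.Agent.Lib.Suzuki4 Cfsg.Agent.Lib.SuzukiMax Cfsg.Agent.Lib.SzSub
  Cfsg.Agent.Lib.SzTorus Cfsg.Agent.Lib.BenderIndex Cfsg.Agent.Lib.BenderIndexSz

variable {F : Type*} [Field F] [Fintype F] {m : ℕ} [CharP F 2] [SzHyp F m]

theorem sz_ea (H : Subgroup (Sz F m)) (hH : ∀ x ∈ H, x * x = 1) :
    Nat.card H ≤ 2 ^ (2 * m + 1) := by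
  classical
  haveI : Fact (Nat.Prime 2) := ⟨Nat.prime_two⟩
  have hp : IsPGroup 2 H := by
    intro x
    refine ⟨1, ?_⟩
    apply Subtype.ext
    simpa [pow_two] using hH x x.2
  obtain ⟨P, hP⟩ := hp.exists_le_sylow
  obtain ⟨a, ha⟩ := exists_conj_sylow P
  have key : ∀ x : H, ∃ d : F, (x : Sz F m) = a * tt 0 d * a⁻¹ := by
    intro x
    have hx : (x : Sz F m) ∈ (P : Subgroup _) := hP x.2
    rw [ha] at hx
    obtain ⟨g, hg, hgx⟩ := Subgroup.mem_map.mp hx
    obtain ⟨u, d, rfl⟩ := mem_Tsub.mp hg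
    have hgx' : a * tt u d * a⁻¹ = (x : Sz F m) := hgx
    by_cases hu : u = 0
    · subst hu
      exact ⟨d, hgx'.symm⟩
    · exfalso
      have h4 := orderOf_tt_ne (m := m) hu d
      have hx2 : (tt u d : Sz F m) * tt u d = 1 := by
        have h5 := hH x x.2
        rw [← hgx'] at h5
        have e : a * tt u d * a⁻¹ * (a * tt u d * a⁻¹) = a * (tt u d * tt u d) * a⁻¹ := by group
        rw [e] at h5
        have : a⁻¹ * (a * (tt u d * tt u d) * a⁻¹) * a = a⁻¹ * 1 * a := by rw [h5]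
        simpa [mul_assoc] using this
      have h6 : orderOf (tt u d : Sz F m) ∣ 2 := orderOf_dvd_of_pow_eq_one (by rw [pow_two]; exact hx2)
      rw [h4] at h6
      omega
  choose d hd using key
  have hinj : Function.Injective d := by
    intro x y hxy
    apply Subtype.ext
    rw [hd x, hd y, hxy]
  have h := Nat.card_le_card_of_injective d hinj
  rwa [Nat.card_eq_fintype_card (α := F), SzHyp.hF (F := F) (m := m)] at h

theorem center_trivial (z : Sz F m) (hz : ∀ g : Sz F m, g * z = z * g) : z = 1 := by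
  classical
  by_cases hf : Fpf z
  · exfalso
    haveI hc := isCyclic_cen hf
    have hall : ∀ g : Sz F m, g ∈ cen z := by
      intro g
      rw [Subgroup.mem_centralizer_iff]
      intro y hy
      rw [Set.mem_singleton_iff] at hy
      subst hy
      exact (hz g).symm
    have hcomm : ∀ x y : Sz F m, x * y = y * x := by
      intro x y
      have h := IsCyclic.exists_generator (α := cen z)
      obtain ⟨g, hg⟩ := h
      have hx := hg ⟨x, hall x⟩
      have hy := hg ⟨y, hall y⟩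
      obtain ⟨i, hi⟩ := Subgroup.mem_zpowers_iff.mp hx
      obtain ⟨j, hj⟩ := Subgroup.mem_zpowers_iff.mp hy
      have e1 : x = (g : Sz F m) ^ i := by
        have := congrArg Subtype.val hi
        simpa using this.symm
      have e2 : y = (g : Sz F m) ^ j := by
        have := congrArg Subtype.val hj
        simpa using this.symm
      rw [e1, e2, ← zpow_add, ← zpow_add, add_comm]
    have hct := commutator_eq_top (F := F) (m := m)
    have h1 : (tt 0 1 : Sz F m) ∈ commutator (Sz F m) := by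
      rw [hct]
      exact Subgroup.mem_top _
    have hbot : commutator (Sz F m) = ⊥ := by
      rw [commutator_def, Subgroup.commutator_eq_bot_iff_le_centralizer]
      intro x _ y _
      exact hcomm y x
    rw [hbot, Subgroup.mem_bot] at h1
    have h2 := orderOf_tt_zero (m := m) (one_ne_zero (α := F))
    rw [h1, orderOf_one] at h2
    omega
  · unfold Fpf at hf
    push Not at hf
    obtain ⟨p, hp⟩ := hf
    have hall : ∀ q : Om F m, z • q = q := by
      intro q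
      obtain ⟨k₁, h1⟩ := exists_conj_one p
      obtain ⟨k₂, h2⟩ := exists_conj_one q
      have e : q = (k₂ * k₁⁻¹) • p := by
        rw [mul_smul, ← h1, inv_smul_smul, h2]
      rw [e, smul_smul, ← hz, mul_smul, hp]
    exact eq_one_of_three oZero_ne_inf.symm oPt_one_ne_zero.symm
      (fun h => oPt_ne_inf _ _ h.symm) (hall _) (hall _) (hall (oPt m (0 : F) 1))

theorem sz_inn (β : Sz F m ≃* Sz F m) (h2 : ∀ x, β (β x) = x) (h1 : ∃ x, β x ≠ x) :
    ∃ t, orderOf t = 2 ∧ ∀ x, β x = t * x * t⁻¹ := by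
  classical
  have hcard := card_out (F := F) (m := m)
  let q : Out (Sz F m) := QuotientGroup.mk β
  have hq2 : q ^ 2 = 1 := by
    have e : β ^ 2 = 1 := by
      refine MulEquiv.ext (fun x => ?_)
      simpa [pow_two, MulAut.mul_apply] using h2 x
    show ((QuotientGroup.mk β : Out (Sz F m))) ^ 2 = 1
    rw [← QuotientGroup.mk_pow, e]
    rfl
  have hqo : q ^ (2 * m + 1) = 1 := by
    rw [← hcard]
    exact pow_card_eq_one'
  have hq : q = 1 := by
    have h3 : orderOf q ∣ Nat.gcd 2 (2 * m + 1) :=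
      Nat.dvd_gcd (orderOf_dvd_of_pow_eq_one hq2) (orderOf_dvd_of_pow_eq_one hqo)
    have h4 : Nat.gcd 2 (2 * m + 1) = 1 := by
      rw [Nat.gcd_comm]
      simp
    rw [h4, Nat.dvd_one, orderOf_eq_one_iff] at h3
    exact h3
  have hmem : β ∈ Inn (Sz F m) := (QuotientGroup.eq_one_iff β).mp hq
  obtain ⟨g, hg⟩ := hmem
  have hgx : ∀ x, β x = g * x * g⁻¹ := by
    intro x
    rw [← hg]
    rfl
  have hgc : ∀ y : Sz F m, y * (g * g) = (g * g) * y := by
    intro y
    have h3 := h2 y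
    rw [hgx, hgx] at h3
    have : g * (g * y * g⁻¹) * g⁻¹ = y := h3
    have e : g * (g * y * g⁻¹) * g⁻¹ * (g * g) = g * g * y := by group
    rw [this] at e
    exact e
  have hgg := center_trivial (F := F) (m := m) (g * g) hgc
  obtain ⟨x, hx⟩ := h1
  refine ⟨g, ?_, hgx⟩
  apply orderOf_eq_prime
  · rw [pow_two]
    exact hgg
  · rintro rfl
    apply hx
    rw [hgx]
    group

theorem sz_inv (t : Sz F m) (ht : orderOf t = 2) :
    ∃ (x : Sz F m) (ℓ : ℕ), ℓ.Prime ∧ ℓ ≠ 2 ∧ Ord2 ℓ (4 * (2 * m + 1)) ∧ orderOf x = ℓ ∧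
      t * x * t⁻¹ = x⁻¹ ∧ ∀ Q : Subgroup (Sz F m), IsPGroup ℓ Q → IsCyclic Q := by
  classical
  obtain ⟨r, hr, hr2, hr3, hr4, hr5⟩ := exists_prim m
  have hF := SzHyp.hF (F := F) (m := m)
  haveI : Fact r.Prime := ⟨hr⟩
  have hdvd : r ∣ Nat.card (Sz F m) := by
    rw [card_Sz, hF]
    exact Dvd.dvd.mul_right (Dvd.dvd.mul_left hr3 _) _
  obtain ⟨y, hy⟩ := exists_prime_orderOf_dvd_card' r hdvd
  have hr1 : ¬ r ∣ Fintype.card F - 1 := by
    rw [hF]
    exact hr4
  obtain ⟨k₁, k₂, hk⟩ := exists_two_conj hr hr2 hr1 hy ht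
  have ht2 : t * t = 1 := by
    rw [← pow_two, ← ht]
    exact pow_orderOf_eq_one t
  have htinv : t⁻¹ = t := inv_eq_of_mul_eq_one_left ht2
  refine ⟨k₁⁻¹ * y * k₁, r, hr, hr2, hr5, ?_, ?_, ?_⟩
  · have e : k₁⁻¹ * y * k₁ = k₁⁻¹ * y * (k₁⁻¹)⁻¹ := by group
    rw [e, orderOf_conj_eq, hy]
  · rw [← hk, htinv]
    have e2 : (k₂ * t * k₂⁻¹) * (k₂ * t * k₂⁻¹) = 1 := by
      have : (k₂ * t * k₂⁻¹) * (k₂ * t * k₂⁻¹) = k₂ * (t * t) * k₂⁻¹ := by group
      rw [this, ht2]
      group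
    have e1 : (k₁ * t * k₁⁻¹) * (k₁ * t * k₁⁻¹) = 1 := by
      have : (k₁ * t * k₁⁻¹) * (k₁ * t * k₁⁻¹) = k₁ * (t * t) * k₁⁻¹ := by group
      rw [this, ht2]
      group
    have i2 : (k₂ * t * k₂⁻¹)⁻¹ = k₂ * t * k₂⁻¹ := inv_eq_of_mul_eq_one_left e2
    have i1 : (k₁ * t * k₁⁻¹)⁻¹ = k₁ * t * k₁⁻¹ := inv_eq_of_mul_eq_one_left e1
    set a := k₁ * t * k₁⁻¹ with ha
    set b := k₂ * t * k₂⁻¹ with hb
    have e3 : t * (k₁⁻¹ * (a * b) * k₁) * t = k₁⁻¹ * (a * (a * b) * a) * k₁ := by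
      rw [ha]
      have ht3 : t * t = 1 := ht2
      calc t * (k₁⁻¹ * (k₁ * t * k₁⁻¹ * b) * k₁) * t = (t * t) * k₁⁻¹ * b * k₁ * t := by group
        _ = k₁⁻¹ * b * k₁ * t := by rw [ht3]; group
        _ = k₁⁻¹ * (k₁ * t * k₁⁻¹ * (k₁ * t * k₁⁻¹ * b) * (k₁ * t * k₁⁻¹)) * k₁ := by
            have : k₁⁻¹ * (k₁ * t * k₁⁻¹ * (k₁ * t * k₁⁻¹ * b) * (k₁ * t * k₁⁻¹)) * k₁
                = (t * t) * k₁⁻¹ * b * k₁ * t := by group
            rw [this, ht3]
            group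
    rw [e3]
    have e4 : a * (a * b) * a = (a * a) * b * a := by group
    rw [e4, e1, one_mul]
    have e5 : (k₁⁻¹ * (a * b) * k₁)⁻¹ = k₁⁻¹ * (b⁻¹ * a⁻¹) * k₁ := by group
    rw [e5, i1, i2]
  · intro Q hQ
    obtain ⟨P, hP⟩ := hQ.exists_le_sylow
    haveI := isCyclic_sylow hr2 P
    exact isCyclic_of_injective (Subgroup.inclusion hP) (Subgroup.inclusion_injective hP)

/-- The interface for the Suzuki groups. -/
theorem sz_xd : XD (Sz F m) (2 * m + 1) (4 * (2 * m + 1)) where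
  ea := sz_ea
  inv := sz_inv
  inn := fun β h2 h1 _ => sz_inn β h2 h1
  invo := ⟨tt 0 1, orderOf_tt_zero (one_ne_zero (α := F))⟩
  h2 := by
    have := SzHyp.hm (F := F) (m := m)
    omega
  h4 := by omega

end Cfsg.Agent.Lib.TwoFactD2
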