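import Mathlib
import Cfsg.Prelude.Def_LocalEven
import Cfsg.Agent.Lib.TwoFactC2
import Cfsg.Agent.Lib.TwoFactD2
import Cfsg.Agent.Lib.PSL2Solv

/-!
# The family, the dual module, and the multiplicative form of the result
-/

set_option autoImplicit false
set_option linter.unusedSectionVars false
set_option linter.unusedVariables false
set_option linter.unnecessarySimpa false
set_option linter.style.haveILetI false

namespace Cfsg.Agent.Lib.TwoFactD3

open Cfsg Cfsg.Agent.Lib.TwoFactA Cfsg.Agent.Lib.TwoFactB2 Cfsg.Agent.Lib.TwoFactC1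
  Cfsg.Agent.Lib.TwoFactC2 Cfsg.Agent.Lib.TwoFactD1 Cfsg.Agent.Lib.TwoFactD2

universe u

/-- Every noncommutative simple member of the family has the interface. -/
theorem xd_of_family {X : Type u} [Group X] (h : IsSuzukiOrPSL2OddPowerThree X)
    (hs : IsSimpleGroup X) (hnc : ¬ IsMulCommutative X) : ∃ τ D : ℕ, XD X τ D := by
  rcases h with h | h
  · obtain ⟨F, _, _, m, hm, hF, ⟨e⟩⟩ := h
    haveI : Cfsg.Agent.Lib.Suzuki.SzHyp F m := ⟨hm, hF⟩
    haveI := Cfsg.Agent.Lib.Suzuki.charP_two F m
    exact ⟨_, _, XD.congr (Cfsg.Agent.Lib.SuzukiIso.szEquiv.trans e.symm) sz_xd⟩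
  · obtain ⟨F, _, _, n, hF, ⟨e⟩⟩ := h
    rcases Nat.eq_zero_or_pos n with rfl | hn
    · exfalso
      have hsolv := Cfsg.Agent.Lib.PSL2Solv.isSolvable_PSL2_three (K := F) (by simpa using hF)
      haveI : Group.IsSolvable X := solvable_of_surjective (f := (e.symm.toMonoidHom)) e.symm.surjective
      haveI := hs
      have hcomm := IsSimpleGroup.comm_iff_isSolvable (G := X) |>.mpr inferInstance
      exact hnc ⟨⟨hcomm⟩⟩
    · exact ⟨_, _, XD.congr e.symm (psl_xd hF hn)⟩

section dual

variable {Γ : Type*} [Group Γ] [Finite Γ]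
variable {V : Type*} [AddCommGroup V] [Module (ZMod 2) V] [Finite V]

/-- The commutator space of a subgroup on a module. -/
def cS (ρ : Γ →* Module.End (ZMod 2) V) (A : Subgroup Γ) : Submodule (ZMod 2) V :=
  Submodule.span (ZMod 2) {w | ∃ a ∈ A, ∃ v : V, w = ρ a v - v}

/-- The contragredient representation. -/
noncomputable def dualRep (ρ : Γ →* Module.End (ZMod 2) V) :
    Γ →* Module.End (ZMod 2) (Module.Dual (ZMod 2) V) where
  toFun g := (ρ g⁻¹).dualMap
  map_one' := by
    ext φ v
    simp
  map_mul' g h := by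
    ext φ v
    simp [mul_inv_rev, Module.End.mul_apply]

theorem dualRep_apply (ρ : Γ →* Module.End (ZMod 2) V) (g : Γ) (φ : Module.Dual (ZMod 2) V) (v : V) :
    dualRep ρ g φ v = φ (ρ g⁻¹ v) := rfl

theorem dualRep_inj (ρ : Γ →* Module.End (ZMod 2) V) (hinj : Function.Injective ρ) :
    Function.Injective (dualRep ρ) := by
  intro g h hgh
  have h1 : ρ g⁻¹ = ρ h⁻¹ := by
    ext v
    have h2 : ∀ φ : Module.Dual (ZMod 2) V, φ (ρ g⁻¹ v - ρ h⁻¹ v) = 0 := by
      intro φ
      have h3 := congrArg (fun f => f φ v) hgh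
      simp only [dualRep_apply] at h3
      rw [map_sub, h3, sub_self]
    have h4 := (Module.forall_dual_apply_eq_zero_iff (ZMod 2) (ρ g⁻¹ v - ρ h⁻¹ v)).mp h2
    exact sub_eq_zero.mp h4
  exact inv_injective (hinj h1)

theorem fxS_dual (ρ : Γ →* Module.End (ZMod 2) V) (A : Subgroup Γ) :
    fxS (dualRep ρ) A = (cS ρ A).dualAnnihilator := by
  haveI : Module.Finite (ZMod 2) V := Module.Finite.of_finite
  haveI : Finite (Module.Dual (ZMod 2) V) := Module.finite_of_finite (ZMod 2)
  ext φ
  rw [mem_fxS, Submodule.mem_dualAnnihilator]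
  constructor
  · intro h w hw
    induction hw using Submodule.span_induction with
    | mem x hx =>
      obtain ⟨a, ha, v, rfl⟩ := hx
      have h1 := h a⁻¹ (A.inv_mem ha)
      have h2 := congrArg (fun f => f v) h1
      simp only [dualRep_apply, inv_inv] at h2
      rw [map_sub, h2, sub_self]
    | zero => simp
    | add x y _ _ hx hy => rw [map_add, hx, hy, add_zero]
    | smul c x _ hx => rw [map_smul, hx, smul_zero]
  · intro h a ha
    ext v
    rw [dualRep_apply]
    have h1 := h (ρ a⁻¹ v - v) (Submodule.subset_span ⟨a⁻¹, A.inv_mem ha, v, rfl⟩)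
    rw [map_sub] at h1
    exact sub_eq_zero.mp h1

/-- The commutator form of the core theorem. -/
theorem core_comm (ρ : Γ →* Module.End (ZMod 2) V) (hinj : Function.Injective ρ) (hO : pCore 2 Γ = ⊥)
    (hS : ¬ Involves (Equiv.Perm (Fin 3)) Γ)
    (hXD : ∀ K : Subgroup Γ, IsComponent K → ∃ τ D : ℕ, XD (K ⧸ Subgroup.center K) τ D)
    (A : Subgroup Γ) (hA : ∀ a ∈ A, a * a = 1) (n : ℕ) (hn : Nat.card A = 2 ^ n) :
    2 * n ≤ dm (cS ρ A) := by
  classical
  haveI : Module.Finite (ZMod 2) V := Module.Finite.of_finite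
  haveI : Finite (Module.Dual (ZMod 2) V) := Module.finite_of_finite (ZMod 2)
  have h := core_of_XD (dualRep ρ) (dualRep_inj ρ hinj) hO hS hXD A hA n hn
  rw [top_inf_eq, fxS_dual] at h
  have h1 := Subspace.finrank_add_finrank_dualAnnihilator_eq (cS ρ A)
  have h2 : dm (⊤ : Submodule (ZMod 2) (Module.Dual (ZMod 2) V)) = Module.finrank (ZMod 2) V := by
    show Module.finrank (ZMod 2) (⊤ : Submodule (ZMod 2) (Module.Dual (ZMod 2) V)) = _
    rw [finrank_top, Subspace.dual_finrank_eq]
  rw [h2] at h
  show 2 * n ≤ Module.finrank (ZMod 2) (cS ρ A)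
  change 2 * n + Module.finrank (ZMod 2) (cS ρ A).dualAnnihilator ≤ _ at h
  omega

end dual

section mult

variable {Γ : Type*} [Group Γ] [Finite Γ] {W : Type*} [CommGroup W] [Finite W]

/-- The linear representation attached to an action on an elementary abelian group. -/
noncomputable def toEnd [Module (ZMod 2) (Additive W)] (act : Γ →* MulAut W) :
    Γ →* Module.End (ZMod 2) (Additive W) where
  toFun g := AddMonoidHom.toZModLinearMap 2 (MonoidHom.toAdditive ((act g).toMonoidHom))
  map_one' := by
    ext v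
    simp
  map_mul' g h := by
    ext v
    simp [Module.End.mul_apply, MulAut.mul_apply]

theorem toEnd_apply [Module (ZMod 2) (Additive W)] (act : Γ →* MulAut W) (g : Γ) (v : Additive W) :
    toEnd act g v = Additive.ofMul (act g (Additive.toMul v)) := rfl

theorem card_pow [Module (ZMod 2) (Additive W)] (U : Submodule (ZMod 2) (Additive W)) :
    Nat.card U = 2 ^ dm U := by
  haveI : Fintype (Additive W) := Fintype.ofFinite _
  haveI : Fintype U := Fintype.ofFinite _
  rw [Nat.card_eq_fintype_card, Module.card_eq_pow_finrank (K := ZMod 2) (V := U)]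
  simp [dm]

theorem card_pow_top [Module (ZMod 2) (Additive W)] :
    Nat.card W = 2 ^ dm (⊤ : Submodule (ZMod 2) (Additive W)) := by
  rw [← card_pow]
  exact (Nat.card_congr (Additive.toMul.symm.trans (Equiv.Set.univ _).symm))

/-- The conclusion, for a commutative group of exponent two. -/
theorem abstract_main' (hW : ∀ x : W, x * x = 1)
    (act : Γ →* MulAut W) (hinj : Function.Injective act)
    (hO : pCore 2 Γ = ⊥) (hS : ¬ Involves (Equiv.Perm (Fin 3)) Γ)
    (hXD : ∀ K : Subgroup Γ, IsComponent K → ∃ τ D : ℕ, XD (K ⧸ Subgroup.center K) τ D)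
    (A : Subgroup Γ) (hA : ∀ a ∈ A, a * a = 1) (n : ℕ) (hn : Nat.card A = 2 ^ n) :
    (2 ^ n) ^ 2 * Nat.card {w : W // ∀ a ∈ A, act a w = w} ≤ Nat.card W ∧
    (2 ^ n) ^ 2 ≤ Nat.card (Subgroup.closure {x : W | ∃ a ∈ A, ∃ v : W, x = act a v * v⁻¹}) := by
  classical
  letI : Module (ZMod 2) (Additive W) := AddCommGroup.zmodModule (by
    intro x
    have h := hW (Additive.toMul x)
    rw [two_nsmul]
    exact congrArg Additive.ofMul h)
  have hρ : Function.Injective (toEnd (Γ := Γ) (W := W) act) := by
    intro g h hgh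
    apply hinj
    refine MulEquiv.ext (fun w => ?_)
    have h1 := congrArg (fun f => f (Additive.ofMul w)) hgh
    exact congrArg Additive.toMul h1
  constructor
  · have h := core_of_XD (toEnd (Γ := Γ) (W := W) act) hρ hO hS hXD A hA n hn
    rw [top_inf_eq] at h
    have h1 : Nat.card {w : W // ∀ a ∈ A, act a w = w} = Nat.card (fxS (toEnd (Γ := Γ) (W := W) act) A) := by
      refine Nat.card_congr ⟨fun w => ⟨Additive.ofMul w.1, ?_⟩, fun v => ⟨Additive.toMul v.1, ?_⟩, ?_, ?_⟩
      · rw [mem_fxS]
        intro a ha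
        rw [toEnd_apply]
        exact congrArg Additive.ofMul (w.2 a ha)
      · intro a ha
        have h2 := (mem_fxS _).mp v.2 a ha
        rw [toEnd_apply] at h2
        exact congrArg Additive.toMul h2
      · intro w
        rfl
      · intro v
        rfl
    rw [h1, card_pow, card_pow_top]
    rw [← pow_mul, ← pow_add]
    apply Nat.pow_le_pow_right (by norm_num)
    rw [mul_comm n 2]
    exact h
  · have h := core_comm (toEnd (Γ := Γ) (W := W) act) hρ hO hS hXD A hA n hn
    have hmem : ∀ v ∈ cS (toEnd (Γ := Γ) (W := W) act) A,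
        Additive.toMul v ∈ Subgroup.closure {x : W | ∃ a ∈ A, ∃ v : W, x = act a v * v⁻¹} := by
      intro v hv
      induction hv using Submodule.span_induction with
      | mem x hx =>
        obtain ⟨a, ha, u, rfl⟩ := hx
        apply Subgroup.subset_closure
        refine ⟨a, ha, Additive.toMul u, ?_⟩
        rw [toEnd_apply, toMul_sub, toMul_ofMul, div_eq_mul_inv]
      | zero => exact Subgroup.one_mem _
      | add x y _ _ hx hy => exact Subgroup.mul_mem _ hx hy
      | smul c x _ hx =>
        have hc : c = 0 ∨ c = 1 := by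
          revert c
          decide
        rcases hc with rfl | rfl
        · rw [zero_smul]
          exact Subgroup.one_mem _
        · rw [one_smul]
          exact hx
    have h2 : Nat.card (cS (toEnd (Γ := Γ) (W := W) act) A) ≤
        Nat.card (Subgroup.closure {x : W | ∃ a ∈ A, ∃ v : W, x = act a v * v⁻¹}) := by
      refine Nat.card_le_card_of_injective (fun v => ⟨Additive.toMul v.1, hmem v.1 v.2⟩) ?_
      intro v v' hvv
      apply Subtype.ext
      have h5 := Subtype.ext_iff.mp hvv
      exact h5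
    refine le_trans ?_ h2
    rw [card_pow, ← pow_mul, mul_comm n 2]
    exact Nat.pow_le_pow_right (by norm_num) h

end mult

/-- The conclusion, with the commutativity as a hypothesis. -/
theorem abstract_main {Γ : Type*} [Group Γ] [Finite Γ] {W : Type*} [Group W] [Finite W]
    (hc : ∀ x y : W, x * y = y * x) (hW : ∀ x : W, x * x = 1)
    (act : Γ →* MulAut W) (hinj : Function.Injective act)
    (hO : pCore 2 Γ = ⊥) (hS : ¬ Involves (Equiv.Perm (Fin 3)) Γ)
    (hXD : ∀ K : Subgroup Γ, IsComponent K → ∃ τ D : ℕ, XD (K ⧸ Subgroup.center K) τ D)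
    (A : Subgroup Γ) (hA : ∀ a ∈ A, a * a = 1) (n : ℕ) (hn : Nat.card A = 2 ^ n) :
    (2 ^ n) ^ 2 * Nat.card {w : W // ∀ a ∈ A, act a w = w} ≤ Nat.card W ∧
    (2 ^ n) ^ 2 ≤ Nat.card (Subgroup.closure {x : W | ∃ a ∈ A, ∃ v : W, x = act a v * v⁻¹}) := by
  letI : CommGroup W := { (inferInstance : Group W) with mul_comm := hc }
  exact abstract_main' hW act hinj hO hS hXD A hA n hn

/-- Components in a `K`-group for the family carry the interface. -/
theorem xd_of_comp {Γ : Type u} [Group Γ] (hc : IsCompositionKGroupWith IsSuzukiOrPSL2OddPowerThree Γ)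
    (K : Subgroup Γ) (hK : IsComponent K) : ∃ τ D : ℕ, XD (K ⧸ Subgroup.center K) τ D := by
  have hq := hK.2
  refine xd_of_family (hc K hK.1 (Subgroup.center K) hq.2 ?_) hq.2 ?_
  all_goals
    intro hcomm
    apply Cfsg.Agent.Lib.LocalCore.qs_center_ne_top hq
    have h1 := Cfsg.Agent.Lib.LocalCore.qs_commutator hq
    rw [eq_top_iff, ← h1, commutator_def, Subgroup.commutator_le]
    intro x _ y _
    rw [← QuotientGroup.eq_one_iff, commutatorElement_def]
    simp only [QuotientGroup.mk_mul, QuotientGroup.mk_inv]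
    have e : ((x : K ⧸ Subgroup.center K)) * (y : K ⧸ Subgroup.center K) =
        (y : K ⧸ Subgroup.center K) * (x : K ⧸ Subgroup.center K) := by
      exact hcomm.is_comm.comm _ _
    rw [e]
    group

/-- The action of a normalizing subgroup by conjugation. -/
def conjAct {L : Type*} [Group L] (M G : Subgroup L) (hGM : G ≤ Subgroup.normalizer (M : Set L)) :
    G →* MulAut M where
  toFun g :=
    { toFun := fun m => ⟨(g : L) * m * (g : L)⁻¹, (Subgroup.mem_normalizer_iff.mp (hGM g.2) m).mp m.2⟩
      invFun := fun m => ⟨(g : L)⁻¹ * m * (g : L), by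
        have h := (Subgroup.mem_normalizer_iff.mp (hGM g.2) ((g : L)⁻¹ * m * (g : L))).mpr
        apply h
        have e : (g : L) * ((g : L)⁻¹ * m * (g : L)) * (g : L)⁻¹ = m := by group
        show _ ∈ M
        rw [e]
        exact m.2⟩
      left_inv := fun m => Subtype.ext (by simp [mul_assoc])
      right_inv := fun m => Subtype.ext (by simp [mul_assoc])
      map_mul' := fun x y => Subtype.ext (by simp [mul_assoc]) }
  map_one' := by
    refine MulEquiv.ext (fun m => Subtype.ext ?_)
    simp
  map_mul' g h := by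
    refine MulEquiv.ext (fun m => Subtype.ext ?_)
    simp [MulAut.mul_apply, mul_assoc]

theorem conjAct_coe {L : Type*} [Group L] (M G : Subgroup L) (hGM : G ≤ Subgroup.normalizer (M : Set L))
    (g : G) (m : M) : ((conjAct M G hGM g m : M) : L) = (g : L) * m * (g : L)⁻¹ := rfl

end Cfsg.Agent.Lib.TwoFactD3
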