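import Mathlib
import Cfsg.Agent.Lib.StronglyEmbedded
import Cfsg.Agent.Lib.MinNorm

/-!
Groups with at most two conjugacy classes of maximal subgroups are solvable:
elementary proof.  If `G` is simple (non solvable) with classes `M₁`, `M₂` then the indices
are coprime, and for a prime `q` dividing `n₁ = |G : M₁|`, a Sylow `q`-subgroup lies in a
unique conjugate of `M₂`, `q`-subgroups of order larger than `|M₁|_q` have normalizers in
conjugates of `M₂`, so that two conjugates of `M₂` meet in a `q`-group of order at most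
`|M₁|_q`. Counting orbits gives `n₁ ∣ n₂ - 1`, and symmetrically `n₂ ∣ n₁ - 1`.
-/

open scoped Pointwise

universe u

namespace Cfsg.Agent.Lib.TwoMax

variable {G : Type*} [Group G]

lemma mem_conj {g x : G} {M : Subgroup G} : x ∈ MulAut.conj g • M ↔ g⁻¹ * x * g ∈ M := by
  rw [Subgroup.mem_pointwise_smul_iff_inv_smul_mem]
  simp [MulAut.smul_def]

lemma card_conj (g : G) (M : Subgroup G) :
    Nat.card (MulAut.conj g • M : Subgroup G) = Nat.card M :=
  Nat.card_congr (Subgroup.equivSMul (MulAut.conj g) M).symm.toEquiv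

lemma index_conj [Finite G] (g : G) (M : Subgroup G) : (MulAut.conj g • M).index = M.index := by
  have h1 := Subgroup.card_mul_index M
  have h2 := Subgroup.card_mul_index (MulAut.conj g • M)
  rw [card_conj] at h2
  exact Nat.eq_of_mul_eq_mul_left Nat.card_pos (h2.trans h1.symm)

lemma conj_conj (g h : G) (M : Subgroup G) :
    MulAut.conj g • (MulAut.conj h • M) = MulAut.conj (g * h) • M := by
  rw [smul_smul, map_mul]

lemma conj_eq_self {g : G} {M : Subgroup G} (hg : g ∈ M) : MulAut.conj g • M = M := by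
  ext x
  rw [mem_conj]
  constructor
  · intro h
    have : x = g * (g⁻¹ * x * g) * g⁻¹ := by group
    rw [this]
    exact M.mul_mem (M.mul_mem hg h) (M.inv_mem hg)
  · intro h
    exact M.mul_mem (M.mul_mem (M.inv_mem hg) h) hg

lemma conj_top (g : G) : MulAut.conj g • (⊤ : Subgroup G) = ⊤ := by
  ext x
  simp [mem_conj]

lemma conj_mono (g : G) {M K : Subgroup G} (h : M ≤ K) :
    MulAut.conj g • M ≤ MulAut.conj g • K := by
  intro x hx
  rw [mem_conj] at hx ⊢
  exact h hx

lemma conj_inv_conj (g : G) (M : Subgroup G) :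
    MulAut.conj g⁻¹ • (MulAut.conj g • M) = M := by
  rw [conj_conj]
  simp only [inv_mul_cancel]
  exact conj_eq_self (one_mem _)

lemma conj_conj_inv (g : G) (M : Subgroup G) :
    MulAut.conj g • (MulAut.conj g⁻¹ • M) = M := by
  simpa using conj_inv_conj g⁻¹ M

lemma isCoatom_conj (g : G) {M : Subgroup G} (h : IsCoatom M) :
    IsCoatom (MulAut.conj g • M) := by
  constructor
  · intro h1
    apply h.1
    rw [← conj_inv_conj g M, h1, conj_top]
  · intro K hK
    have h3 : M < MulAut.conj g⁻¹ • K := by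
      have h4 := conj_mono g⁻¹ hK.le
      rw [conj_inv_conj] at h4
      refine lt_of_le_of_ne h4 ?_
      intro h5
      apply hK.ne
      rw [h5, conj_conj_inv]
    have h6 := h.2 _ h3
    have h7 : K = MulAut.conj g • (MulAut.conj g⁻¹ • K) := (conj_conj_inv g K).symm
    rw [h7, h6, conj_top]

lemma isCoatom_of_conj (g : G) {M : Subgroup G} (h : IsCoatom (MulAut.conj g • M)) :
    IsCoatom M := by
  have := isCoatom_conj g⁻¹ h
  rwa [conj_inv_conj] at this

/-- Orbit-counting divisibility. -/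
lemma dvd_card_sub_one {H X : Type*} [Group H] [MulAction H X] [Finite X] (x0 : X)
    (hx0 : ∀ h : H, h • x0 = x0) (d : ℕ)
    (hd : ∀ x : X, x ≠ x0 → d ∣ Nat.card (MulAction.orbit H x)) :
    d ∣ Nat.card X - 1 := by
  classical
  haveI := Fintype.ofFinite X
  have e := Fintype.card_congr (MulAction.selfEquivSigmaOrbits H X)
  rw [Fintype.card_sigma] at e
  set ω₀ : MulAction.orbitRel.Quotient H X := Quotient.mk'' x0 with hω₀
  rw [← Finset.add_sum_erase _ _ (Finset.mem_univ ω₀)] at e
  have h1 : Fintype.card (MulAction.orbit H (Quotient.out ω₀)) = 1 := by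
    have h2 : (Quotient.out ω₀ : X) = x0 := by
      have h3 : (Quotient.mk'' (Quotient.out ω₀) : MulAction.orbitRel.Quotient H X) = ω₀ :=
        Quotient.out_eq' ω₀
      have h4 := Quotient.exact' h3
      rw [MulAction.orbitRel_apply] at h4
      obtain ⟨h, hh⟩ := h4
      rw [← hh]
      exact hx0 h
    rw [Fintype.card_eq_one_iff]
    refine ⟨⟨x0, by rw [h2]; exact MulAction.mem_orbit_self _⟩, ?_⟩
    rintro ⟨y, hy⟩
    rw [h2] at hy
    obtain ⟨h, rfl⟩ := hy
    exact Subtype.ext (by simp [hx0])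
  rw [h1] at e
  rw [Nat.card_eq_fintype_card, e]
  have h5 : ∀ a : ℕ, 1 + a - 1 = a := by intro a; omega
  rw [h5]
  apply Finset.dvd_sum
  intro ω hω
  have hne : (Quotient.out ω : X) ≠ x0 := by
    intro h
    apply (Finset.mem_erase.1 hω).1
    rw [hω₀, ← h]
    exact (Quotient.out_eq' ω).symm
  have := hd _ hne
  rwa [Nat.card_eq_fintype_card] at this

lemma card_lt [Finite G] {A B : Subgroup G} (h : A < B) : Nat.card A < Nat.card B := by
  have := Set.ncard_lt_ncard (s := (A : Set G)) (t := (B : Set G)) h (Set.toFinite _)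
  rw [← Nat.card_coe_set_eq, ← Nat.card_coe_set_eq] at this
  exact this

section Core

variable [Finite G] {q : ℕ} [Fact q.Prime]

/-- Between lemma: if `q` does not divide the index of `M`, then a `q`-subgroup of `M` lies in a
Sylow `q`-subgroup of `G` inside `M`. -/
lemma exists_sylow_between {M X : Subgroup G} (hM : ¬ q ∣ M.index) (hX : IsPGroup q X)
    (hXM : X ≤ M) : ∃ T : Sylow q G, X ≤ T ∧ (T : Subgroup G) ≤ M := by
  have hX' : IsPGroup q (X.subgroupOf M) := hX.comap_of_injective M.subtype M.subtype_injective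
  obtain ⟨T', hT'⟩ := hX'.exists_le_sylow
  have hcard : Nat.card (T' : Subgroup M) = q ^ (Nat.card G).factorization q := by
    rw [T'.card_eq_multiplicity]
    congr 1
    rw [← Subgroup.card_mul_index M, Nat.factorization_mul (Nat.card_pos.ne') (by
      exact Subgroup.index_ne_zero_of_finite)]
    simp [Nat.factorization_eq_zero_of_not_dvd hM]
  have hcard2 : Nat.card ((T' : Subgroup M).map M.subtype) = q ^ (Nat.card G).factorization q := by
    rw [← hcard]
    exact Nat.card_congr ((T' : Subgroup M).equivMapOfInjective _ M.subtype_injective).symm.toEquiv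
  refine ⟨Sylow.ofCard _ hcard2, ?_, ?_⟩
  · intro x hx
    rw [Sylow.coe_ofCard]
    refine ⟨⟨x, hXM hx⟩, ?_, rfl⟩
    exact hT' (by simpa [Subgroup.mem_subgroupOf] using hx)
  · rw [Sylow.coe_ofCard]
    exact Subgroup.map_subtype_le _

lemma conj_mem_of_le (T : Sylow q G) {C : Subgroup G}
    (hN : Subgroup.normalizer ((T : Subgroup G) : Set G) ≤ C) (u : G)
    (h : (T : Subgroup G) ≤ MulAut.conj u • C) : u ∈ C := by
  have hTC : (T : Subgroup G) ≤ C := Subgroup.le_normalizer.trans hN
  have hT₀ : ((u⁻¹ • T : Sylow q G) : Subgroup G) ≤ C := by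
    intro x hx
    rw [Sylow.coe_subgroup_smul, mem_conj] at hx
    have := h hx
    rw [mem_conj] at this
    simpa [mul_assoc] using this
  obtain ⟨c, hc⟩ := MulAction.exists_smul_eq C ((u⁻¹ • T).subtype hT₀) (T.subtype hTC)
  rw [Sylow.smul_subtype] at hc
  have h2 : ((c : G) • (u⁻¹ • T)) = T := Sylow.subtype_injective hc
  rw [smul_smul] at h2
  have h3 := Sylow.smul_eq_iff_mem_normalizer.1 h2
  have h4 := hN h3
  have h5 : u = (((c : G) * u⁻¹)⁻¹ * (c : G)) := by group
  rw [h5]
  exact C.mul_mem (C.inv_mem h4) c.2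

/-- the conjugacy class of a subgroup -/
def Cl (M A : Subgroup G) : Prop := ∃ g : G, A = MulAut.conj g • M

lemma Cl.index_eq {M A : Subgroup G} (h : Cl M A) : A.index = M.index := by
  obtain ⟨g, rfl⟩ := h
  exact index_conj g M

lemma Cl.rel {M A B : Subgroup G} (hA : Cl M A) (hB : Cl M B) : ∃ u : G, A = MulAut.conj u • B := by
  obtain ⟨v, rfl⟩ := hA
  obtain ⟨w, rfl⟩ := hB
  refine ⟨v * w⁻¹, ?_⟩
  rw [conj_conj]
  simp

lemma uniq {M₂ : Subgroup G} {k : ℕ}
    (hN : ∀ X : Subgroup G, IsPGroup q X → k < Nat.card X →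
      ∃ A, Cl M₂ A ∧ Subgroup.normalizer (X : Set G) ≤ A)
    (hk : k < q ^ (Nat.card G).factorization q) (T : Sylow q G) {A B : Subgroup G}
    (hA : Cl M₂ A) (hB : Cl M₂ B) (hTA : (T : Subgroup G) ≤ A) (hTB : (T : Subgroup G) ≤ B) :
    A = B := by
  obtain ⟨C, hC, hNC⟩ := hN T T.2 (by rw [T.card_eq_multiplicity]; exact hk)
  have key : ∀ D, Cl M₂ D → (T : Subgroup G) ≤ D → D = C := by
    intro D hD hTD
    obtain ⟨u, rfl⟩ := hD.rel hC
    have := conj_mem_of_le T hNC u hTD
    exact conj_eq_self this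
  rw [key A hA hTA, key B hB hTB]

lemma eq_of_large_inter {M₂ : Subgroup G} {k : ℕ} (hq2 : ¬ q ∣ M₂.index)
    (hN : ∀ X : Subgroup G, IsPGroup q X → k < Nat.card X →
      ∃ A, Cl M₂ A ∧ Subgroup.normalizer (X : Set G) ≤ A)
    (hk : k < q ^ (Nat.card G).factorization q) :
    ∀ n : ℕ, ∀ (T T' : Sylow q G) {A B : Subgroup G},
      Nat.card G - Nat.card ((T : Subgroup G) ⊓ (T' : Subgroup G) : Subgroup G) = n →
      Cl M₂ A → Cl M₂ B → (T : Subgroup G) ≤ A → (T' : Subgroup G) ≤ B →
      k < Nat.card ((T : Subgroup G) ⊓ (T' : Subgroup G) : Subgroup G) → A = B := by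
  intro n
  induction n using Nat.strong_induction_on with
  | _ n ih =>
  intro T T' A B hn hA hB hTA hTB hlarge
  by_cases h1 : (T : Subgroup G) ≤ T'
  · have hTT : T' = T := Sylow.ext (T.3 T'.2 h1)
    subst hTT
    exact uniq hN hk _ hA hB hTA hTB
  by_cases h2 : (T' : Subgroup G) ≤ T
  · have hTT : T = T' := Sylow.ext (T'.3 T.2 h2)
    subst hTT
    exact uniq hN hk _ hA hB hTA hTB
  set X : Subgroup G := (T : Subgroup G) ⊓ T' with hX
  have hXp : IsPGroup q X := T.2.to_le inf_le_left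
  obtain ⟨C, hC, hNC⟩ := hN X hXp hlarge
  have key : ∀ S : Sylow q G, ∀ D : Subgroup G, Cl M₂ D → (S : Subgroup G) ≤ D →
      X ≤ S → X ≠ S → D = C := by
    intro S D hD hSD hXS hne
    have hlt : X < S := lt_of_le_of_ne hXS hne
    obtain ⟨y, hyS, hyX, hyN⟩ := Cfsg.Agent.Lib.StronglyEmbedded.exists_mem_normalizer_of_lt S.2 hlt
    set Y : Subgroup G := (S : Subgroup G) ⊓ Subgroup.normalizer (X : Set G) with hY
    have hYp : IsPGroup q Y := S.2.to_le inf_le_left
    obtain ⟨T₁, hT₁, hT₁C⟩ := exists_sylow_between (M := C) (X := Y)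
      (by rwa [hC.index_eq]) hYp (inf_le_right.trans hNC)
    have hXle : X ≤ (S : Subgroup G) ⊓ (T₁ : Subgroup G) :=
      le_inf hXS (le_trans (le_inf hXS Subgroup.le_normalizer) hT₁)
    have hyin : y ∈ (S : Subgroup G) ⊓ (T₁ : Subgroup G) := ⟨hyS, hT₁ ⟨hyS, hyN⟩⟩
    have hlt2 : X < (S : Subgroup G) ⊓ (T₁ : Subgroup G) :=
      lt_of_le_of_ne hXle (fun h => hyX (h ▸ hyin))
    have hcard : Nat.card X < Nat.card ((S : Subgroup G) ⊓ (T₁ : Subgroup G) : Subgroup G) :=
      card_lt hlt2
    have hcle : Nat.card ((S : Subgroup G) ⊓ (T₁ : Subgroup G) : Subgroup G) ≤ Nat.card G :=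
      Subgroup.card_le_card_group _
    refine ih _ ?_ S T₁ rfl hD hC hSD hT₁C (lt_trans hlarge hcard)
    omega
  have e1 := key T A hA hTA inf_le_left (fun h => h1 (h ▸ inf_le_right))
  have e2 := key T' B hB hTB inf_le_right (fun h => h2 (h ▸ inf_le_left))
  rw [e1, e2]

lemma small_inter {M₂ : Subgroup G} {k : ℕ} (hq2 : ¬ q ∣ M₂.index)
    (hN : ∀ X : Subgroup G, IsPGroup q X → k < Nat.card X →
      ∃ A, Cl M₂ A ∧ Subgroup.normalizer (X : Set G) ≤ A)
    (hk : k < q ^ (Nat.card G).factorization q) {A B Y : Subgroup G}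
    (hA : Cl M₂ A) (hB : Cl M₂ B) (hne : A ≠ B) (hY : IsPGroup q Y) (hYA : Y ≤ A) (hYB : Y ≤ B) :
    Nat.card Y ≤ k := by
  by_contra hlt
  push_neg at hlt
  obtain ⟨T, hT, hTA⟩ := exists_sylow_between (M := A) (by rwa [hA.index_eq]) hY hYA
  obtain ⟨T', hT', hTB⟩ := exists_sylow_between (M := B) (by rwa [hB.index_eq]) hY hYB
  apply hne
  refine eq_of_large_inter hq2 hN hk _ T T' rfl hA hB hTA hTB ?_
  exact lt_of_lt_of_le hlt (Subgroup.card_le_of_le (le_inf hT hT'))

/-- The key count: with `k = q ^ a` the `q`-power `q ^ (t - a)` divides `|G : M₂| - 1`. -/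
lemma pow_dvd_index_sub_one {M₂ : Subgroup G} {a : ℕ} (hq2 : ¬ q ∣ M₂.index)
    (hself : Subgroup.normalizer (M₂ : Set G) = M₂)
    (hN : ∀ X : Subgroup G, IsPGroup q X → q ^ a < Nat.card X →
      ∃ A, Cl M₂ A ∧ Subgroup.normalizer (X : Set G) ≤ A)
    (hk : q ^ a < q ^ (Nat.card G).factorization q) :
    q ^ ((Nat.card G).factorization q - a) ∣ M₂.index - 1 := by
  have hqp := (Fact.out : q.Prime)
  obtain ⟨T, -, hTM⟩ := exists_sylow_between (M := M₂) (X := ⊥) hq2 IsPGroup.of_bot bot_le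
  have hmain := dvd_card_sub_one (H := (T : Subgroup G)) (X := G ⧸ M₂)
    (QuotientGroup.mk 1)
    (by
      intro h
      change ((h : G) • (QuotientGroup.mk 1 : G ⧸ M₂)) = _
      rw [MulAction.Quotient.smul_mk, QuotientGroup.eq]
      simpa using hTM h.2)
    (q ^ ((Nat.card G).factorization q - a))
    (by
      intro x hx
      obtain ⟨g, rfl⟩ := QuotientGroup.mk_surjective x
      have hgM : g ∉ M₂ := by
        intro hg
        apply hx
        rw [QuotientGroup.eq]
        simpa using hg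
      -- stabilizer
      set St := MulAction.stabilizer (T : Subgroup G) (QuotientGroup.mk g : G ⧸ M₂) with hSt
      set Y : Subgroup G := St.map (T : Subgroup G).subtype with hY
      have hYcard : Nat.card Y = Nat.card St :=
        Nat.card_congr (St.equivMapOfInjective _ (T : Subgroup G).subtype_injective).symm.toEquiv
      have hYT : Y ≤ T := Subgroup.map_subtype_le _
      have hYp : IsPGroup q Y := T.2.to_le hYT
      have hYM : Y ≤ M₂ := hYT.trans hTM
      have hYg : Y ≤ MulAut.conj g • M₂ := by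
        rintro _ ⟨⟨y, hyT⟩, hy, rfl⟩
        rw [mem_conj]
        have hy' : (⟨y, hyT⟩ : (T : Subgroup G)) • (QuotientGroup.mk g : G ⧸ M₂) = QuotientGroup.mk g := hy
        have hy'' : y • (QuotientGroup.mk g : G ⧸ M₂) = QuotientGroup.mk g := hy'
        rw [MulAction.Quotient.smul_mk, QuotientGroup.eq] at hy''
        have := M₂.inv_mem hy''
        simpa [mul_assoc] using this
      have hne : M₂ ≠ MulAut.conj g • M₂ := by
        intro h
        apply hgM
        rw [← hself, Subgroup.mem_normalizer_iff]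
        intro x
        have h3 := SetLike.ext_iff.1 h (g * x * g⁻¹)
        rw [mem_conj] at h3
        have h4 : g⁻¹ * (g * x * g⁻¹) * g = x := by group
        rw [h4] at h3
        exact h3.symm
      have hYle : Nat.card Y ≤ q ^ a :=
        small_inter hq2 hN hk ⟨1, (conj_eq_self (one_mem _)).symm⟩ ⟨g, rfl⟩ hne hYp hYM hYg
      have hmul : Nat.card St * St.index = Nat.card (T : Subgroup G) := Subgroup.card_mul_index St
      rw [MulAction.index_stabilizer, T.card_eq_multiplicity, ← Nat.card_coe_set_eq] at hmul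
      set O := Nat.card (MulAction.orbit (T : Subgroup G) (QuotientGroup.mk g : G ⧸ M₂)) with hO
      set t := (Nat.card G).factorization q with ht
      obtain ⟨i, hi, hOi⟩ := (Nat.dvd_prime_pow hqp).1 (Dvd.intro_left _ hmul)
      rw [hOi] at hmul ⊢
      have hSt' : Nat.card St = q ^ (t - i) := by
        have h5 : q ^ (t - i) * q ^ i = q ^ t := by
          rw [← pow_add]; congr 1; omega
        exact Nat.eq_of_mul_eq_mul_right (pow_pos hqp.pos i) (hmul.trans h5.symm)
      have h6 : q ^ (t - i) ≤ q ^ a := by rw [← hSt', ← hYcard]; exact hYle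
      have h7 : t - i ≤ a := (Nat.pow_le_pow_iff_right hqp.one_lt).1 h6
      exact pow_dvd_pow q (by omega))
  rw [Subgroup.index_eq_card]
  exact hmain

end Core

section Simple

variable [Finite G]

lemma isCoatom_bot_false [Finite G] (hns : ¬ Group.IsSolvable G) (h : IsCoatom (⊥ : Subgroup G)) : False := by
  apply hns
  haveI hc : IsCyclic G := by
    obtain ⟨x, hx⟩ : ∃ x : G, x ≠ 1 := by
      by_contra hcon
      push_neg at hcon
      apply h.1
      ext y
      simp [hcon y]
    refine ⟨x, fun y => ?_⟩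
    have : Subgroup.zpowers x = ⊤ := h.2 _ (by
      rw [bot_lt_iff_ne_bot]
      simpa using hx)
    have hy : y ∈ Subgroup.zpowers x := by rw [this]; exact Subgroup.mem_top y
    exact hy
  letI := IsCyclic.commGroup (α := G)
  infer_instance

lemma normalizer_eq_self (hs : IsSimpleGroup G) (hns : ¬ Group.IsSolvable G) {M : Subgroup G}
    (hM : IsCoatom M) : Subgroup.normalizer (M : Set G) = M := by
  by_contra hne
  have hlt : M < Subgroup.normalizer (M : Set G) :=
    lt_of_le_of_ne Subgroup.le_normalizer (Ne.symm hne)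
  have htop := hM.2 _ hlt
  have hnorm : M.Normal := Subgroup.normalizer_eq_top_iff.1 htop
  rcases hs.eq_bot_or_eq_top_of_normal M hnorm with h | h
  · subst h
    exact isCoatom_bot_false hns hM
  · exact hM.1 h

lemma exists_coatom_normalizer (hs : IsSimpleGroup G) (hns : ¬ Group.IsSolvable G)
    {q : ℕ} [Fact q.Prime] {X : Subgroup G} (hX : IsPGroup q X) (hne : X ≠ ⊥) :
    ∃ M, IsCoatom M ∧ Subgroup.normalizer (X : Set G) ≤ M := by
  rcases eq_top_or_exists_le_coatom (Subgroup.normalizer (X : Set G)) with h | h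
  · exfalso
    have hnorm : X.Normal := Subgroup.normalizer_eq_top_iff.1 h
    rcases hs.eq_bot_or_eq_top_of_normal X hnorm with h' | h'
    · exact hne h'
    · subst h'
      apply hns
      have hp : IsPGroup q G := by
        intro g
        obtain ⟨k, hk⟩ := hX ⟨g, Subgroup.mem_top g⟩
        refine ⟨k, ?_⟩
        have := congrArg Subtype.val hk
        simpa using this
      haveI := hp.isNilpotent
      infer_instance
  · exact h

/-- hypothesis: two classes -/
def Cov (M₁ M₂ : Subgroup G) : Prop :=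
  ∀ M : Subgroup G, IsCoatom M → ∃ g : G, M = MulAut.conj g • M₁ ∨ M = MulAut.conj g • M₂

lemma Cov.symm {M₁ M₂ : Subgroup G} (h : Cov M₁ M₂) : Cov M₂ M₁ := by
  intro M hM
  obtain ⟨g, hg⟩ := h M hM
  exact ⟨g, hg.symm⟩

lemma not_both_dvd (hns : ¬ Group.IsSolvable G) {M₁ M₂ : Subgroup G} (hall : Cov M₁ M₂)
    {q : ℕ} [Fact q.Prime] (h1 : q ∣ M₁.index) (h2 : q ∣ M₂.index) : False := by
  obtain ⟨T⟩ : Nonempty (Sylow q G) := inferInstance
  rcases eq_top_or_exists_le_coatom (T : Subgroup G) with h | ⟨M, hM, hTM⟩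
  · apply hns
    have hp : IsPGroup q G := by
      intro g
      obtain ⟨k, hk⟩ := T.2 ⟨g, h ▸ Subgroup.mem_top g⟩
      refine ⟨k, ?_⟩
      have := congrArg Subtype.val hk
      simpa using this
    haveI := hp.isNilpotent
    infer_instance
  · have hnd := T.not_dvd_index
    apply hnd
    have hdvd : M.index ∣ (T : Subgroup G).index := Subgroup.index_dvd_of_le hTM
    obtain ⟨g, hg | hg⟩ := hall M hM
    · rw [hg, index_conj] at hdvd
      exact h1.trans hdvd
    · rw [hg, index_conj] at hdvd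
      exact h2.trans hdvd

theorem index_dvd (hs : IsSimpleGroup G) (hns : ¬ Group.IsSolvable G) {M₁ M₂ : Subgroup G}
    (h1 : IsCoatom M₁) (h2 : IsCoatom M₂) (hall : Cov M₁ M₂) : M₁.index ∣ M₂.index - 1 := by
  have hi1 : M₁.index ≠ 0 := Subgroup.index_ne_zero_of_finite
  have hi2 : M₂.index ≠ 0 := Subgroup.index_ne_zero_of_finite
  have hi2' : M₂.index ≠ 1 := fun h => h2.1 (Subgroup.index_eq_one.1 h)
  have hn2 : M₂.index - 1 ≠ 0 := by omega
  rw [← Nat.factorization_prime_le_iff_dvd hi1 hn2]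
  intro q hq
  haveI := Fact.mk hq
  by_cases hdvd : q ∣ M₁.index
  swap
  · rw [Nat.factorization_eq_zero_of_not_dvd hdvd]
    exact Nat.zero_le _
  have hq2 : ¬ q ∣ M₂.index := fun h => not_both_dvd hns hall hdvd h
  have hself := normalizer_eq_self hs hns h2
  set a := (Nat.card M₁).factorization q with ha
  have ht : (Nat.card G).factorization q = a + M₁.index.factorization q := by
    rw [← Subgroup.card_mul_index M₁, Nat.factorization_mul Nat.card_pos.ne' hi1]
    rfl
  have hv : 1 ≤ M₁.index.factorization q := (hq.dvd_iff_one_le_factorization hi1).1 hdvd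
  have hk : q ^ a < q ^ (Nat.card G).factorization q :=
    Nat.pow_lt_pow_right hq.one_lt (by omega)
  have hN : ∀ X : Subgroup G, IsPGroup q X → q ^ a < Nat.card X →
      ∃ A, Cl M₂ A ∧ Subgroup.normalizer (X : Set G) ≤ A := by
    intro X hX hXc
    have hne : X ≠ ⊥ := by
      rintro rfl
      have h0 : 0 < q ^ a := pow_pos hq.pos a
      rw [Subgroup.card_bot] at hXc
      omega
    obtain ⟨M, hM, hNM⟩ := exists_coatom_normalizer hs hns hX hne
    obtain ⟨g, hg | hg⟩ := hall M hM
    · exfalso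
      have hXle : X ≤ MulAut.conj g • M₁ := Subgroup.le_normalizer.trans (hg ▸ hNM)
      have hd : Nat.card X ∣ Nat.card M₁ := by
        have := Subgroup.card_dvd_of_le hXle
        rwa [card_conj] at this
      obtain ⟨n, hn⟩ := IsPGroup.iff_card.1 hX
      rw [hn] at hd hXc
      have := (hq.pow_dvd_iff_le_factorization Nat.card_pos.ne').1 hd
      exact absurd (Nat.pow_le_pow_right hq.pos this) (not_le.2 hXc)
    · exact ⟨M, ⟨g, hg⟩, hNM⟩
  have hfin := pow_dvd_index_sub_one hq2 hself hN hk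
  have := (hq.pow_dvd_iff_le_factorization hn2).1 hfin
  omega

theorem simple_false (hs : IsSimpleGroup G) (hns : ¬ Group.IsSolvable G) {M₁ M₂ : Subgroup G}
    (hall : Cov M₁ M₂) : False := by
  have hcov : ∃ A₁ A₂ : Subgroup G, IsCoatom A₁ ∧ IsCoatom A₂ ∧ Cov A₁ A₂ := by
    haveI := hs.toNontrivial
    obtain ⟨M₀, hM₀, -⟩ := (eq_top_or_exists_le_coatom (⊥ : Subgroup G)).resolve_left bot_ne_top
    by_cases c1 : IsCoatom M₁
    · by_cases c2 : IsCoatom M₂
      · exact ⟨M₁, M₂, c1, c2, hall⟩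
      · refine ⟨M₁, M₁, c1, c1, fun M hM => ?_⟩
        obtain ⟨g, hg | hg⟩ := hall M hM
        · exact ⟨g, Or.inl hg⟩
        · exact absurd (isCoatom_of_conj g (hg ▸ hM)) c2
    · have c2 : IsCoatom M₂ := by
        obtain ⟨g, hg | hg⟩ := hall M₀ hM₀
        · exact absurd (isCoatom_of_conj g (hg ▸ hM₀)) c1
        · exact isCoatom_of_conj g (hg ▸ hM₀)
      refine ⟨M₂, M₂, c2, c2, fun M hM => ?_⟩
      obtain ⟨g, hg | hg⟩ := hall M hM
      · exact absurd (isCoatom_of_conj g (hg ▸ hM)) c1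
      · exact ⟨g, Or.inl hg⟩
  obtain ⟨A₁, A₂, ha1, ha2, hc⟩ := hcov
  have d12 := index_dvd hs hns ha1 ha2 hc
  have d21 := index_dvd hs hns ha2 ha1 hc.symm
  have hi1 : A₁.index ≠ 0 := Subgroup.index_ne_zero_of_finite
  have hi2 : A₂.index ≠ 0 := Subgroup.index_ne_zero_of_finite
  have hi1' : A₁.index ≠ 1 := fun h => ha1.1 (Subgroup.index_eq_one.1 h)
  have hi2' : A₂.index ≠ 1 := fun h => ha2.1 (Subgroup.index_eq_one.1 h)
  have l1 := Nat.le_of_dvd (by omega) d12
  have l2 := Nat.le_of_dvd (by omega) d21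
  omega

end Simple

section Reduction

lemma map_conj {H : Type*} [Group H] (f : G →* H) (g : G) (M : Subgroup G) :
    (MulAut.conj g • M).map f = MulAut.conj (f g) • M.map f := by
  ext x
  rw [mem_conj, Subgroup.mem_map, Subgroup.mem_map]
  constructor
  · rintro ⟨y, hy, rfl⟩
    rw [mem_conj] at hy
    exact ⟨_, hy, by simp⟩
  · rintro ⟨m, hm, hfm⟩
    refine ⟨g * m * g⁻¹, ?_, ?_⟩
    · rw [mem_conj]
      simpa [mul_assoc] using hm
    · simp only [map_mul, map_inv, hfm]
      group

lemma isCoatom_comap_mk {N : Subgroup G} [N.Normal] {M : Subgroup (G ⧸ N)} (hM : IsCoatom M) :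
    IsCoatom (M.comap (QuotientGroup.mk' N)) := by
  have hsurj := QuotientGroup.mk'_surjective N
  constructor
  · intro h
    apply hM.1
    have := Subgroup.map_comap_eq_self_of_surjective hsurj M
    rw [← this, h, ← MonoidHom.range_eq_map, MonoidHom.range_eq_top.2 hsurj]
  · intro K hK
    have hker : (QuotientGroup.mk' N).ker ≤ K := le_trans (Subgroup.ker_le_comap _ _) hK.le
    have hlt : M < K.map (QuotientGroup.mk' N) := by
      refine lt_of_le_of_ne ?_ ?_
      · rw [← Subgroup.map_comap_eq_self_of_surjective hsurj M]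
        exact Subgroup.map_mono hK.le
      · intro h
        apply hK.ne
        rw [h, Subgroup.comap_map_eq_self hker]
    have := hM.2 _ hlt
    rw [← Subgroup.comap_map_eq_self hker, this, Subgroup.comap_top]

lemma Cov.quotient {M₁ M₂ : Subgroup G} (hall : Cov M₁ M₂) (N : Subgroup G) [N.Normal] :
    Cov (M₁.map (QuotientGroup.mk' N)) (M₂.map (QuotientGroup.mk' N)) := by
  intro M hM
  have hc := isCoatom_comap_mk hM
  have hsurj := QuotientGroup.mk'_surjective N
  obtain ⟨g, hg | hg⟩ := hall _ hc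
  · refine ⟨QuotientGroup.mk' N g, Or.inl ?_⟩
    rw [← map_conj, ← hg, Subgroup.map_comap_eq_self_of_surjective hsurj]
  · refine ⟨QuotientGroup.mk' N g, Or.inr ?_⟩
    rw [← map_conj, ← hg, Subgroup.map_comap_eq_self_of_surjective hsurj]

lemma le_conj_of_normal {N M : Subgroup G} [hN : N.Normal] (g : G) (h : N ≤ MulAut.conj g • M)
    (k : G) : N ≤ MulAut.conj k • M := by
  intro x hx
  rw [mem_conj]
  have h1 := h (hN.conj_mem x hx (g * k⁻¹))
  rw [mem_conj] at h1
  have h2 : g⁻¹ * (g * k⁻¹ * x * (g * k⁻¹)⁻¹) * g = k⁻¹ * x * k := by group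
  rwa [h2] at h1

lemma nonsimple_aux [Finite G] {M₁ M₂ : Subgroup G} (hall : Cov M₁ M₂)
    (hA : ∀ N : Subgroup G, N.Normal → N ≠ ⊥ → ¬ Group.IsSolvable N)
    (N : Subgroup G) [hNn : N.Normal] (hne : N ≠ ⊥)
    (hle : ∀ h : G, N ≤ MulAut.conj h • M₂) : False := by
  have frat : ∀ (q : ℕ) [Fact q.Prime], q ∣ Nat.card N → ∀ S' : Sylow q N,
      ∃ M, IsCoatom M ∧ Subgroup.normalizer (((S' : Subgroup N).map N.subtype : Subgroup G) : Set G) ≤ M
        ∧ ¬ N ≤ M := by
    intro q _ hq S'
    set S : Subgroup G := (S' : Subgroup N).map N.subtype with hS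
    have hSne : S ≠ ⊥ := by
      intro h
      exact S'.ne_bot_of_dvd_card hq ((Subgroup.map_eq_bot_iff_of_injective _ N.subtype_injective).1 h)
    have hSp : IsPGroup q S := S'.2.map N.subtype
    have hF := Sylow.normalizer_sup_eq_top S'
    rcases eq_top_or_exists_le_coatom (Subgroup.normalizer (S : Set G)) with h | ⟨M, hM, hNM⟩
    · exfalso
      have hnorm : S.Normal := Subgroup.normalizer_eq_top_iff.1 h
      apply hA S hnorm hSne
      haveI := hSp.isNilpotent
      infer_instance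
    · refine ⟨M, hM, hNM, fun hNle => hM.1 ?_⟩
      rw [eq_top_iff, ← hF]
      exact sup_le hNM hNle
  -- a coatom not containing `N` is conjugate to `M₁`
  have hconj : ∀ M, IsCoatom M → ¬ N ≤ M → ∃ g : G, M = MulAut.conj g • M₁ := by
    intro M hM hnle
    obtain ⟨g, hg | hg⟩ := hall M hM
    · exact ⟨g, hg⟩
    · exact absurd (hg ▸ hle g) hnle
  have hcard : Nat.card N ≠ 1 := by
    intro h
    exact hne (Subgroup.card_eq_one.1 h)
  obtain ⟨q₀, hq₀, hq₀d⟩ := Nat.exists_prime_and_dvd hcard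
  haveI := Fact.mk hq₀
  obtain ⟨S₀⟩ : Nonempty (Sylow q₀ N) := inferInstance
  obtain ⟨M, hM, -, hnle⟩ := frat q₀ hq₀d S₀
  obtain ⟨g, rfl⟩ := hconj M hM hnle
  have hnle1 : ¬ N ≤ M₁ := by
    intro hle1
    apply hnle
    intro x hx
    rw [mem_conj]
    exact hle1 (hNn.conj_mem' x hx g)
  -- the index of `M₁ ∩ N` in `N`
  have hA1 : M₁.subgroupOf N ≠ ⊤ := by
    intro h
    exact hnle1 (Subgroup.subgroupOf_eq_top.1 h)
  have hidx : (M₁.subgroupOf N).index ≠ 1 := fun h => hA1 (Subgroup.index_eq_one.1 h)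
  obtain ⟨q, hq, hqd⟩ := Nat.exists_prime_and_dvd hidx
  haveI := Fact.mk hq
  have hqN : q ∣ Nat.card N := hqd.trans (Subgroup.index_dvd_card _)
  obtain ⟨S'⟩ : Nonempty (Sylow q N) := inferInstance
  obtain ⟨M', hM', hNM', hnle'⟩ := frat q hqN S'
  obtain ⟨h, rfl⟩ := hconj M' hM' hnle'
  -- conjugate `S'` into `M₁`
  set φ : MulAut N := MulAut.conjNormal h⁻¹ with hφ
  have hφ' : φ⁻¹ = MulAut.conjNormal h := by rw [hφ, map_inv, inv_inv]
  set P : Sylow q N := φ • S' with hP
  have hPle : (P : Subgroup N) ≤ M₁.subgroupOf N := by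
    intro x hx
    rw [hP, Sylow.pointwise_smul_def, Subgroup.mem_pointwise_smul_iff_inv_smul_mem] at hx
    rw [Subgroup.mem_subgroupOf]
    have h1 : (φ⁻¹ • x : N) ∈ (S' : Subgroup N) := hx
    have h2 : ((φ⁻¹ • x : N) : G) = h * x * h⁻¹ := by
      rw [hφ', MulAut.smul_def, MulAut.conjNormal_apply]
    have h3 : ((φ⁻¹ • x : N) : G) ∈ (S' : Subgroup N).map N.subtype :=
      ⟨_, h1, rfl⟩
    have h4 := hNM' (Subgroup.le_normalizer h3)
    rw [mem_conj, h2] at h4
    simpa [mul_assoc] using h4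
  exact P.not_dvd_index (hqd.trans (Subgroup.index_dvd_of_le hPle))

theorem solvable_aux : ∀ n : ℕ, ∀ (G : Type u) [Group G] [Finite G], Nat.card G = n →
    ∀ M₁ M₂ : Subgroup G, Cov M₁ M₂ → Group.IsSolvable G := by
  intro n
  induction n using Nat.strong_induction_on with
  | _ n ih =>
  intro G _ _ hn M₁ M₂ hall
  by_contra hns
  have hA : ∀ N : Subgroup G, N.Normal → N ≠ ⊥ → ¬ Group.IsSolvable N := by
    intro N hN hne hsolv
    apply hns
    have hq : Group.IsSolvable (G ⧸ N) := by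
      refine ih (Nat.card (G ⧸ N)) ?_ (G ⧸ N) rfl _ _ (hall.quotient N)
      rw [← Subgroup.index_eq_card, ← hn, ← Subgroup.card_mul_index N]
      have h1 : 1 < Nat.card N := by
        have h2 : Nat.card N ≠ 1 := fun h => hne (Subgroup.card_eq_one.1 h)
        have h3 : 0 < Nat.card N := Nat.card_pos
        omega
      have h4 : 0 < N.index := Nat.pos_of_ne_zero Subgroup.index_ne_zero_of_finite
      exact lt_mul_of_one_lt_left h4 h1
    exact Group.isSolvable_of_ker_le_range N.subtype (QuotientGroup.mk' N) (by simp)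
  have hsimple : IsSimpleGroup G := by
    haveI : Nontrivial G := by
      by_contra hnt
      rw [not_nontrivial_iff_subsingleton] at hnt
      exact hns inferInstance
    refine ⟨fun N hN => ?_⟩
    haveI := hN
    by_contra hcon
    push_neg at hcon
    obtain ⟨hne, hnt⟩ := hcon
    obtain ⟨M, hM, hNM⟩ := (eq_top_or_exists_le_coatom N).resolve_left hnt
    obtain ⟨g, hg | hg⟩ := hall M hM
    · subst hg
      exact nonsimple_aux hall.symm hA N hne (le_conj_of_normal g hNM)
    · subst hg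
      exact nonsimple_aux hall hA N hne (le_conj_of_normal g hNM)
  exact simple_false hsimple hns hall

end Reduction

section Primes

lemma exists_normal_pgroup [Finite G] [Group.IsSolvable G] [Nontrivial G] :
    ∃ t : ℕ, t.Prime ∧ ∃ V : Subgroup G, V.Normal ∧ V ≠ ⊥ ∧ IsPGroup t V := by
  obtain ⟨r, N, hr, hNn, hNb, -, -, hNe⟩ :=
    Cfsg.Agent.Lib.MinNorm.exists_abelian_exponent_normal_le (⊤ : Subgroup G) inferInstance
      (by simp)
  exact ⟨r, hr, N, hNn, hNb, Cfsg.Agent.Lib.MinNorm.isPGroup_of_exponent hNe⟩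

lemma index_map_mk {N M : Subgroup G} [N.Normal] (h : N ≤ M) :
    (M.map (QuotientGroup.mk' N)).index = M.index := by
  conv_rhs => rw [← Subgroup.comap_map_eq_self (f := QuotientGroup.mk' N) (H := M) (by simpa using h)]
  exact (Subgroup.index_comap_of_surjective _ (QuotientGroup.mk'_surjective N)).symm

lemma isCoatom_map_mk {N M : Subgroup G} [N.Normal] (h : N ≤ M) (hM : IsCoatom M) :
    IsCoatom (M.map (QuotientGroup.mk' N)) := by
  have hker : (QuotientGroup.mk' N).ker ≤ M := by simpa using h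
  have hsurj := QuotientGroup.mk'_surjective N
  constructor
  · intro h1
    apply hM.1
    rw [← Subgroup.comap_map_eq_self hker, h1, Subgroup.comap_top]
  · intro K hK
    have h2 : M < K.comap (QuotientGroup.mk' N) := by
      refine lt_of_le_of_ne ?_ ?_
      · conv_lhs => rw [← Subgroup.comap_map_eq_self hker]
        exact Subgroup.comap_mono hK.le
      · intro h3
        apply hK.ne
        rw [h3, Subgroup.map_comap_eq_self_of_surjective hsurj]
    have h4 := hM.2 _ h2
    rw [← Subgroup.map_comap_eq_self_of_surjective hsurj K, h4, ← MonoidHom.range_eq_map,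
      MonoidHom.range_eq_top.2 hsurj]

/-- If `V` is normal and not inside the coatom `M`, the index of `M` divides `|V|`. -/
lemma index_dvd_card_of_not_le [Finite G] {V M : Subgroup G} [hV : V.Normal] (hM : IsCoatom M)
    (h : ¬ V ≤ M) : M.index ∣ Nat.card V := by
  have hsup : M ⊔ V = ⊤ := by
    apply hM.2
    refine lt_of_le_of_ne le_sup_left ?_
    intro he
    exact h (he ▸ le_sup_right)
  have h1 : V.relIndex M = V.index := by
    have := Subgroup.relIndex_sup_right M V
    rw [hsup, Subgroup.relIndex_top_right] at this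
    exact this.symm
  have h2 := Subgroup.card_mul_index V
  have h3 := Subgroup.card_mul_index (V.subgroupOf M)
  have h4 := Subgroup.card_mul_index M
  rw [show (V.subgroupOf M).index = V.relIndex M from rfl, h1] at h3
  have hi : V.index ≠ 0 := Subgroup.index_ne_zero_of_finite
  have h5 : (Nat.card (V.subgroupOf M) * M.index) * V.index = Nat.card V * V.index := by
    rw [h2, ← h4, ← h3]
    ring
  exact Dvd.intro_left _ (Nat.eq_of_mul_eq_mul_right (Nat.pos_of_ne_zero hi) h5)

theorem coatom_index_prime_pow : ∀ n : ℕ, ∀ (G : Type u) [Group G] [Finite G] [Group.IsSolvable G],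
    Nat.card G = n → ∀ M : Subgroup G, IsCoatom M → ∃ t k : ℕ, t.Prime ∧ M.index = t ^ k := by
  intro n
  induction n using Nat.strong_induction_on with
  | _ n ih =>
  intro G _ _ _ hn M hM
  haveI : Nontrivial G := by
    by_contra hnt
    rw [not_nontrivial_iff_subsingleton] at hnt
    exact hM.1 (Subsingleton.elim _ _)
  obtain ⟨t, ht, V, hVn, hVb, hVp⟩ := exists_normal_pgroup (G := G)
  haveI := hVn
  haveI := Fact.mk ht
  by_cases hle : V ≤ M
  · have hc : Nat.card (G ⧸ V) < n := by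
      rw [← Subgroup.index_eq_card, ← hn, ← Subgroup.card_mul_index V]
      have h1 : 1 < Nat.card V := by
        have h2 : Nat.card V ≠ 1 := fun h => hVb (Subgroup.card_eq_one.1 h)
        have h3 : 0 < Nat.card V := Nat.card_pos
        omega
      have h4 : 0 < V.index := Nat.pos_of_ne_zero Subgroup.index_ne_zero_of_finite
      exact lt_mul_of_one_lt_left h4 h1
    obtain ⟨s, k, hs, hk⟩ := ih _ hc (G ⧸ V) rfl _ (isCoatom_map_mk hle hM)
    exact ⟨s, k, hs, by rw [← hk, index_map_mk hle]⟩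
  · have hd := index_dvd_card_of_not_le hM hle
    obtain ⟨k, hk⟩ := IsPGroup.iff_card.1 hVp
    rw [hk] at hd
    obtain ⟨i, -, hi⟩ := (Nat.dvd_prime_pow ht).1 hd
    exact ⟨t, i, ht, hi⟩

theorem exists_coatom_dvd : ∀ n : ℕ, ∀ (G : Type u) [Group G] [Finite G] [Group.IsSolvable G],
    Nat.card G = n → ∀ r : ℕ, r.Prime → r ∣ n → ∃ M : Subgroup G, IsCoatom M ∧ r ∣ M.index := by
  intro n
  induction n using Nat.strong_induction_on with
  | _ n ih =>
  intro G _ _ _ hn r hr hrn
  haveI : Nontrivial G := by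
    by_contra hnt
    rw [not_nontrivial_iff_subsingleton] at hnt
    have : Nat.card G = 1 := Nat.card_of_subsingleton (1 : G)
    rw [this] at hn
    subst hn
    exact hr.one_lt.ne' (Nat.dvd_one.1 hrn)
  obtain ⟨t, ht, V, hVn, hVb, hVp⟩ := exists_normal_pgroup (G := G)
  haveI := hVn
  haveI := Fact.mk ht
  have hcV : 1 < Nat.card V := by
    have h2 : Nat.card V ≠ 1 := fun h => hVb (Subgroup.card_eq_one.1 h)
    have h3 : 0 < Nat.card V := Nat.card_pos
    omega
  have hc : Nat.card (G ⧸ V) < n := by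
    rw [← Subgroup.index_eq_card, ← hn, ← Subgroup.card_mul_index V]
    have h4 : 0 < V.index := Nat.pos_of_ne_zero Subgroup.index_ne_zero_of_finite
    exact lt_mul_of_one_lt_left h4 hcV
  by_cases hd : r ∣ V.index
  · obtain ⟨Mb, hMb, hrM⟩ := ih _ hc (G ⧸ V) rfl r hr (by rwa [← Subgroup.index_eq_card])
    refine ⟨Mb.comap (QuotientGroup.mk' V), isCoatom_comap_mk hMb, ?_⟩
    rwa [Subgroup.index_comap_of_surjective _ (QuotientGroup.mk'_surjective V)]
  · -- `r = t` and `V` is a normal Sylow subgroup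
    have hr2 : r ∣ Nat.card V := by
      have h1 := Subgroup.card_mul_index V
      rw [hn] at h1
      rw [← h1] at hrn
      exact (hr.dvd_mul.1 hrn).resolve_right hd
    obtain ⟨k, hk⟩ := IsPGroup.iff_card.1 hVp
    have hrt : r = t := by
      rw [hk] at hr2
      exact (Nat.prime_dvd_prime_iff_eq hr ht).1 (hr.dvd_of_dvd_pow hr2)
    subst hrt
    have hcop : (Nat.card V).Coprime V.index := by
      rw [hk]
      exact Nat.Coprime.pow_left _ ((Nat.Prime.coprime_iff_not_dvd hr).2 hd)
    obtain ⟨K, hK⟩ := Subgroup.exists_right_complement'_of_coprime hcop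
    have hKtop : K ≠ ⊤ := by
      rintro rfl
      exact hVb (disjoint_top.1 hK.disjoint)
    obtain ⟨M, hM, hKM⟩ := (eq_top_or_exists_le_coatom K).resolve_left hKtop
    have hnle : ¬ V ≤ M := by
      intro hle
      apply hM.1
      rw [eq_top_iff, ← hK.sup_eq_top]
      exact sup_le hle hKM
    have hd2 := index_dvd_card_of_not_le hM hnle
    rw [hk] at hd2
    obtain ⟨i, -, hi⟩ := (Nat.dvd_prime_pow hr).1 hd2
    refine ⟨M, hM, ?_⟩
    have hi0 : i ≠ 0 := by
      rintro rfl
      exact hM.1 (Subgroup.index_eq_one.1 (by simpa using hi))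
    rw [hi]
    exact dvd_pow_self r hi0

end Primes

lemma not_both_dvd' [Finite G] {M₁ M₂ : Subgroup G} (h1 : IsCoatom M₁) (h2 : IsCoatom M₂)
    (hne : ∀ g : G, M₂ ≠ MulAut.conj g • M₁) (hall : Cov M₁ M₂)
    {q : ℕ} [hq' : Fact q.Prime] (h1d : q ∣ M₁.index) (h2d : q ∣ M₂.index) : False := by
  have hq := hq'.out
  obtain ⟨T⟩ : Nonempty (Sylow q G) := inferInstance
  rcases eq_top_or_exists_le_coatom (T : Subgroup G) with h | ⟨M, hM, hTM⟩
  swap
  · have hnd := T.not_dvd_index
    apply hnd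
    have hdvd : M.index ∣ (T : Subgroup G).index := Subgroup.index_dvd_of_le hTM
    obtain ⟨g, hg | hg⟩ := hall M hM
    · rw [hg, index_conj] at hdvd
      exact h1d.trans hdvd
    · rw [hg, index_conj] at hdvd
      exact h2d.trans hdvd
  have hp : IsPGroup q G := by
    intro g
    obtain ⟨k, hk⟩ := T.2 ⟨g, h ▸ Subgroup.mem_top g⟩
    refine ⟨k, ?_⟩
    have := congrArg Subtype.val hk
    simpa using this
  haveI hnil := hp.isNilpotent
  have hnormal : ∀ M : Subgroup G, IsCoatom M → M.Normal := by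
    intro M hM
    have := normalizerCondition_of_isNilpotent M (lt_top_iff_ne_top.2 hM.1)
    exact Subgroup.normalizer_eq_top_iff.1 (hM.2 _ this)
  have hconj : ∀ (M : Subgroup G) (g : G), M.Normal → MulAut.conj g • M = M := by
    intro M g hMn
    ext x
    rw [mem_conj]
    constructor
    · intro h3
      have := hMn.conj_mem _ h3 g
      have h4 : g * (g⁻¹ * x * g) * g⁻¹ = x := by group
      rwa [h4] at this
    · intro h3
      exact hMn.conj_mem' x h3 g
  have hn1 := hnormal M₁ h1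
  have hn2 := hnormal M₂ h2
  have hM12 : M₂ ≠ M₁ := by
    have := hne 1
    rwa [hconj M₁ 1 hn1] at this
  obtain ⟨x, hx1, hx2⟩ : ∃ x, x ∈ M₁ ∧ x ∉ M₂ := by
    by_contra hc
    push_neg at hc
    rcases h1.le_iff.1 hc with h3 | h3
    · exact h2.1 h3
    · exact hM12 h3
  obtain ⟨y, hy2, hy1⟩ : ∃ y, y ∈ M₂ ∧ y ∉ M₁ := by
    by_contra hc
    push_neg at hc
    rcases h2.le_iff.1 hc with h3 | h3
    · exact h1.1 h3
    · exact hM12 h3.symm
  have hz1 : x * y ∉ M₁ := fun h3 => hy1 ((M₁.mul_mem_cancel_left hx1).1 h3)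
  have hz2 : x * y ∉ M₂ := fun h3 => hx2 ((M₂.mul_mem_cancel_right hy2).1 h3)
  have hgen : Subgroup.zpowers (x * y) = ⊤ := by
    rcases eq_top_or_exists_le_coatom (Subgroup.zpowers (x * y)) with h3 | ⟨M, hM, hzM⟩
    · exact h3
    · exfalso
      have hmem : x * y ∈ M := hzM (Subgroup.mem_zpowers _)
      obtain ⟨g, hg | hg⟩ := hall M hM
      · rw [hg, hconj M₁ g hn1] at hmem
        exact hz1 hmem
      · rw [hg, hconj M₂ g hn2] at hmem
        exact hz2 hmem
  obtain ⟨n, hn⟩ := IsPGroup.iff_card.1 hp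
  have hn0 : n ≠ 0 := by
    rintro rfl
    apply h1.1
    have hc : Nat.card G = 1 := by simpa using hn
    have : Subsingleton G := (Nat.card_eq_one_iff_unique.1 hc).1
    exact Subsingleton.elim _ _
  have key : ∀ M : Subgroup G, M ≠ ⊤ → ∀ w ∈ M, w ^ (q ^ (n - 1)) = 1 := by
    intro M hM w hw
    have hd : Nat.card M ∣ q ^ n := hn ▸ Subgroup.card_subgroup_dvd_card M
    obtain ⟨i, hi, hci⟩ := (Nat.dvd_prime_pow hq).1 hd
    have hin : i ≠ n := by
      rintro rfl
      exact hM (Subgroup.eq_top_of_card_eq M (hci.trans hn.symm))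
    have h3 : w ^ (Nat.card M) = 1 :=
      orderOf_dvd_iff_pow_eq_one.1 (Subgroup.orderOf_dvd_natCard M hw)
    have h4 : q ^ (n - 1) = q ^ i * q ^ (n - 1 - i) := by
      rw [← pow_add]
      congr 1
      omega
    rw [h4, pow_mul, ← hci, h3, one_pow]
  have hxm : x ∈ Subgroup.zpowers (x * y) := hgen ▸ Subgroup.mem_top x
  have hym : y ∈ Subgroup.zpowers (x * y) := hgen ▸ Subgroup.mem_top y
  obtain ⟨i, hi⟩ := Subgroup.mem_zpowers_iff.1 hxm
  obtain ⟨j, hj⟩ := Subgroup.mem_zpowers_iff.1 hym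
  have hcomm : Commute x y := by
    have h1 : Commute ((x * y) ^ i) ((x * y) ^ j) := (Commute.refl (x * y)).zpow_zpow i j
    rwa [hi, hj] at h1
  have hord : orderOf (x * y) = Nat.card G :=
    orderOf_eq_card_of_forall_mem_zpowers (fun w => hgen ▸ Subgroup.mem_top w)
  have h5 : (x * y) ^ (q ^ (n - 1)) = 1 := by
    rw [hcomm.mul_pow, key M₁ h1.1 x hx1, key M₂ h2.1 y hy2, one_mul]
  have h6 := orderOf_dvd_of_pow_eq_one h5
  rw [hord, hn] at h6
  have h7 := (Nat.pow_dvd_pow_iff_le_right hq.one_lt).1 h6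
  omega

/-- Main theorem. -/
theorem main {G : Type u} [Group G] [Finite G]
    (M₁ M₂ : Subgroup G) (h1 : IsCoatom M₁) (h2 : IsCoatom M₂)
    (hne : ∀ g : G, M₂ ≠ MulAut.conj g • M₁)
    (hall : ∀ M : Subgroup G, IsCoatom M → ∃ g : G, M = MulAut.conj g • M₁ ∨ M = MulAut.conj g • M₂) :
    Group.IsSolvable G ∧ (Nat.card G).primeFactors.card = 2 := by
  have hsolv : Group.IsSolvable G := solvable_aux _ G rfl M₁ M₂ hall
  refine ⟨hsolv, ?_⟩
  obtain ⟨p, a, hp, ha⟩ := coatom_index_prime_pow _ G rfl M₁ h1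
  obtain ⟨r, b, hr, hb⟩ := coatom_index_prime_pow _ G rfl M₂ h2
  have ha0 : a ≠ 0 := by
    rintro rfl
    exact h1.1 (Subgroup.index_eq_one.1 (by simpa using ha))
  have hb0 : b ≠ 0 := by
    rintro rfl
    exact h2.1 (Subgroup.index_eq_one.1 (by simpa using hb))
  have hpd : p ∣ M₁.index := ha ▸ dvd_pow_self p ha0
  have hrd : r ∣ M₂.index := hb ▸ dvd_pow_self r hb0
  have hcard : Nat.card G ≠ 0 := Nat.card_pos.ne'
  have hpr : p ≠ r := by
    rintro rfl
    haveI := Fact.mk hp
    exact not_both_dvd' h1 h2 hne hall hpd hrd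
  have hset : (Nat.card G).primeFactors = {p, r} := by
    ext x
    simp only [Nat.mem_primeFactors, Finset.mem_insert, Finset.mem_singleton]
    constructor
    · rintro ⟨hx, hxd, -⟩
      obtain ⟨M, hM, hxM⟩ := exists_coatom_dvd _ G rfl x hx hxd
      obtain ⟨g, hg | hg⟩ := hall M hM
      · left
        rw [hg, index_conj, ha] at hxM
        exact (Nat.prime_dvd_prime_iff_eq hx hp).1 (hx.dvd_of_dvd_pow hxM)
      · right
        rw [hg, index_conj, hb] at hxM
        exact (Nat.prime_dvd_prime_iff_eq hx hr).1 (hx.dvd_of_dvd_pow hxM)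
    · rintro (rfl | rfl)
      · exact ⟨hp, hpd.trans (Subgroup.index_dvd_card _), hcard⟩
      · exact ⟨hr, hrd.trans (Subgroup.index_dvd_card _), hcard⟩
  rw [hset, Finset.card_pair hpr]

end Cfsg.Agent.Lib.TwoMax
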