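import Mathlib
import Cfsg.Agent.Lib.U33Act
import Cfsg.Agent.Lib.SUMinDeg7
import Cfsg.Agent.Lib.CharIntegrality
import Cfsg.Agent.Lib.CharKernel
import Cfsg.Prelude.Def_DegreeGraph

/-!
# Irreducible character degrees of `SU₃(3)`: divisibility by 6, 21 and 14
-/

set_option autoImplicit false

namespace Cfsg.Agent.Lib.U33Deg

open Cfsg Cfsg.Agent.Lib.F9K Cfsg.Agent.Lib.U33Data Cfsg.Agent.Lib.U33Group Cfsg.Agent.Lib.U33Act
  Cfsg.Agent.Lib.CharBasic Cfsg.Agent.Lib.GenChar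

/-- Degrees of irreducible characters of `SU₃(3)`. -/
theorem irr_deg {χ : L → ℂ} (hχ : IsIrrCharacter L χ) :
    ∃ n : ℕ, χ 1 = n ∧ n ∣ 6048 ∧ 0 < n ∧ (n = 1 ∨ 6 ≤ n) := by
  obtain ⟨k, ρ, hρ, rfl⟩ := hχ
  refine ⟨k, char_one_eq_rep ρ, ?_, ?_, ?_⟩
  · have := Cfsg.Agent.Lib.CharIntegrality.finrank_dvd_card ρ hρ
    rwa [Module.finrank_fin_fun, natCard_L] at this
  · have hV := ((isIrreducible_iff ρ).1 hρ).1
    rcases Nat.eq_zero_or_pos k with h | h
    · subst h
      exact absurd (Subsingleton.elim (α := Fin 0 → ℂ)) (by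
        intro h2
        obtain ⟨a, b, hab⟩ := hV.exists_pair_ne
        exact hab (h2 a b))
    · exact h
  · by_cases h1 : k = 1
    · exact Or.inl h1
    · right
      have h0 : k ≠ 0 := by
        rintro rfl
        have hV := ((isIrreducible_iff ρ).1 hρ).1
        obtain ⟨a, b, hab⟩ := hV.exists_pair_ne
        exact hab (Subsingleton.elim a b)
      have := Cfsg.Agent.Lib.SUMinDeg.su_min_degree (F := K9) (q := 3) (n := 3)
        (by rw [K9.card_K9]; norm_num) (by norm_num) (by norm_num) k ρ hρ (by omega)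
      have h6 : Cfsg.Agent.Lib.SUMinDeg.tgt 3 3 = 6 := by decide
      omega

theorem charDegree_of {χ : L → ℂ} {n : ℕ} (h : χ 1 = n) : charDegree χ = n := by
  unfold charDegree
  rw [h]
  simp

theorem mem_degrees {χ : L → ℂ} (hχ : IsIrrCharacter L χ) {n : ℕ} (h : χ 1 = n) :
    n ∈ charDegrees L :=
  ⟨⟨χ, hχ⟩, charDegree_of h⟩

/-- Inner product of irreducible characters. -/
theorem inner_irr {χ φ : L → ℂ} (hχ : IsIrrCharacter L χ) (hφ : IsIrrCharacter L φ) :
    classInner χ φ = if χ = φ then 1 else 0 := by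
  classical
  by_cases h : χ = φ
  · subst h
    rw [if_pos rfl, classInner_irr_self hχ]
  · rw [if_neg h, classInner_irr_ne hχ hφ h]

theorem arith (nx ny nw : ℕ) (h1 : nx = ny + 1) (h2 : nx + nw = 28) (h3 : ny ∣ 6048)
    (h4 : nx ∣ 6048) (h5 : nw ∣ 6048) (h6 : ny = 1 ∨ 6 ≤ ny) (h7 : nx = 1 ∨ 6 ≤ nx)
    (h8 : nw = 1 ∨ 6 ≤ nw) (h9 : 0 < ny) (h10 : 0 < nw) : nx = 7 ∧ ny = 6 ∧ nw = 21 := by
  subst h1
  have h11 : ny < 27 := by omega
  have h12 : nw = 27 - ny := by omega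
  subst h12
  clear h2 h9 h10
  interval_cases ny <;> omega

/-- **Main theorem.** -/
theorem exists_degrees :
    (∃ d ∈ charDegrees L, 6 ∣ d) ∧ (∃ d ∈ charDegrees L, 21 ∣ d) ∧ (∃ d ∈ charDegrees L, 14 ∣ d) := by
  classical
  -- the constituents of `r - p63`
  obtain ⟨x, y, hx, hy, hxy, hD⟩ : ∃ x y : L → ℂ, IsIrrCharacter L x ∧ IsIrrCharacter L y ∧ x ≠ y ∧
      dD = x - y := by
    obtain ⟨χ, ψ, a, b, hχ, hψ, hne, ha, hb, h⟩ := gen_norm_two isGen_dD norm_dD
    obtain ⟨n1, h1, -, h10, -⟩ := irr_deg hχ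
    obtain ⟨n2, h2, -, h20, -⟩ := irr_deg hψ
    have e := congrFun h 1
    rw [dD_one] at e
    simp only [Pi.add_apply, Pi.smul_apply, h1, h2] at e
    rcases ha with rfl | rfl <;> rcases hb with rfl | rfl
    · exfalso
      have : (1 : ℤ) = 1 * (n1 : ℤ) + 1 * (n2 : ℤ) := by
        have e' : ((1 : ℤ) : ℂ) = ((1 * (n1 : ℤ) + 1 * (n2 : ℤ) : ℤ) : ℂ) := by
          push_cast
          simpa using e
        exact_mod_cast e'
      omega
    · refine ⟨χ, ψ, hχ, hψ, hne, ?_⟩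
      rw [h]
      funext g
      simp [sub_eq_add_neg]
    · refine ⟨ψ, χ, hψ, hχ, hne.symm, ?_⟩
      rw [h]
      funext g
      simp [sub_eq_add_neg, add_comm]
    · exfalso
      have : (1 : ℤ) = (-1) * (n1 : ℤ) + (-1) * (n2 : ℤ) := by
        have e' : ((1 : ℤ) : ℂ) = (((-1) * (n1 : ℤ) + (-1) * (n2 : ℤ) : ℤ) : ℂ) := by
          push_cast
          simpa using e
        exact_mod_cast e'
      omega
  -- the constituents of `a28`
  obtain ⟨u, v, hu, hv, huv, hA⟩ : ∃ u v : L → ℂ, IsIrrCharacter L u ∧ IsIrrCharacter L v ∧ u ≠ v ∧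
      a28 = u + v := by
    obtain ⟨χ, ψ, a, b, hχ, hψ, hne, ha, hb, h⟩ :=
      gen_norm_two (isGen_of_isChar isCharacter_a28) norm_a28
    have key : ∀ (a b : ℤ) (χ ψ : L → ℂ), IsIrrCharacter L χ → IsIrrCharacter L ψ → χ ≠ ψ →
        a28 = a • χ + b • ψ → (a = 1 ∨ a = -1) → a = 1 := by
      intro a b χ ψ hχ hψ hne h ha
      obtain ⟨n, hn⟩ := classInner_char_irr isCharacter_a28 hχ
      rw [h, classInner_add_left, classInner_zsmul_left, classInner_zsmul_left,
        classInner_irr_self hχ, classInner_irr_ne hψ hχ hne.symm] at hn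
      have e : (a : ℂ) = n := by simpa using hn
      have e2 : a = n := by exact_mod_cast e
      rcases ha with rfl | rfl
      · rfl
      · omega
    have ha1 := key a b χ ψ hχ hψ hne h ha
    have hb1 := key b a ψ χ hψ hχ hne.symm (by rw [h, add_comm]) hb
    subst ha1 hb1
    refine ⟨χ, ψ, hχ, hψ, hne, ?_⟩
    rw [h]
    funext g
    simp
  -- degrees
  obtain ⟨nx, hx1, hxd, hx0, hxm⟩ := irr_deg hx
  obtain ⟨ny, hy1, hyd, hy0, hym⟩ := irr_deg hy
  obtain ⟨nu, hu1, hud, hu0, hum⟩ := irr_deg hu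
  obtain ⟨nv, hv1, hvd, hv0, hvm⟩ := irr_deg hv
  have hxy1 : nx = ny + 1 := by
    have e := congrFun hD 1
    rw [dD_one] at e
    simp only [Pi.sub_apply, hx1, hy1] at e
    have e' : ((ny + 1 : ℕ) : ℂ) = (nx : ℂ) := by
      push_cast
      rw [e]
      ring
    exact_mod_cast e'.symm
  have huv1 : nu + nv = 28 := by
    have e := congrFun hA 1
    rw [a28_one] at e
    simp only [Pi.add_apply, hu1, hv1] at e
    have e' : ((nu + nv : ℕ) : ℂ) = ((28 : ℕ) : ℂ) := by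
      push_cast
      rw [e]
    exact_mod_cast e'
  -- `x` is a constituent of `a28`
  have hin : (if x = u then (1 : ℂ) else 0) + (if x = v then 1 else 0)
      - (if y = u then 1 else 0) - (if y = v then 1 else 0) = 1 := by
    have := inner_dD_a28
    rw [hD, hA, classInner_add_right, classInner_sub_left, classInner_sub_left,
      inner_irr hx hu, inner_irr hx hv, inner_irr hy hu, inner_irr hy hv] at this
    linear_combination this
  have hxuv : x = u ∨ x = v := by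
    by_contra hcon
    push Not at hcon
    rw [if_neg hcon.1, if_neg hcon.2] at hin
    split_ifs at hin <;> norm_num at hin
  -- the degrees are 7, 6, 21
  obtain ⟨nw, w, hw, hw1, hxw⟩ : ∃ (nw : ℕ) (w : L → ℂ), IsIrrCharacter L w ∧ w 1 = nw ∧
      ((u = x ∧ v = w) ∨ (u = w ∧ v = x)) ∧ nx + nw = 28 ∧ nw ∣ 6048 ∧ (nw = 1 ∨ 6 ≤ nw) ∧ 0 < nw := by
    rcases hxuv with h | h
    · subst h
      have e : nu = nx := by
        have : (nu : ℂ) = nx := by rw [← hu1, hx1]
        exact_mod_cast this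
      subst e
      exact ⟨nv, v, hv, hv1, Or.inl ⟨rfl, rfl⟩, huv1, hvd, hvm, hv0⟩
    · subst h
      have e : nv = nx := by
        have : (nv : ℂ) = nx := by rw [← hv1, hx1]
        exact_mod_cast this
      subst e
      exact ⟨nu, u, hu, hu1, Or.inr ⟨rfl, rfl⟩, by omega, hud, hum, hu0⟩
  obtain ⟨hchoice, hsum, hwd, hwm, hw0⟩ := hxw
  obtain ⟨h7, h6, h21⟩ := arith nx ny nw hxy1 hsum hyd hxd hwd hym hxm hwm hy0 hw0
  subst h7 h6 h21
  refine ⟨⟨6, mem_degrees hy hy1, dvd_rfl⟩, ⟨21, mem_degrees hw hw1, dvd_rfl⟩, ?_⟩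
  -- the constituents of `p63 - p28`
  obtain ⟨χ, ψ, a, b, hχ, hψ, hne, ha, hb, hB⟩ := gen_norm_two isGen_aA norm_aA
  obtain ⟨n1, h1, -, h10, -⟩ := irr_deg hχ
  obtain ⟨n2, h2, -, h20, -⟩ := irr_deg hψ
  have hsum2 : a * (n1 : ℤ) + b * (n2 : ℤ) = 35 := by
    have e := congrFun hB 1
    rw [aA_one] at e
    simp only [Pi.add_apply, Pi.smul_apply, h1, h2] at e
    simp only [zsmul_eq_mul] at e
    have e' : ((a * (n1 : ℤ) + b * (n2 : ℤ) : ℤ) : ℂ) = ((35 : ℤ) : ℂ) := by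
      push_cast
      rw [← e]
    exact_mod_cast e'
  have hin2 : classInner aA u + classInner aA v = 1 := by
    have := inner_aA_a28
    rwa [hA, classInner_add_right] at this
  -- `z` is either constituent; it has degree 7 or 21
  obtain ⟨z, hzi, hz, hz1⟩ : ∃ z : L → ℂ, IsIrrCharacter L z ∧ classInner aA z ≠ 0 ∧
      (z 1 = ((7 : ℕ) : ℂ) ∨ z 1 = ((21 : ℕ) : ℂ)) := by
    have hcase : classInner aA u ≠ 0 ∨ classInner aA v ≠ 0 := by
      by_contra hcon
      push Not at hcon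
      rw [hcon.1, hcon.2] at hin2
      norm_num at hin2
    rcases hchoice with ⟨rfl, rfl⟩ | ⟨rfl, rfl⟩
    · rcases hcase with h | h
      · exact ⟨_, hu, h, Or.inl hx1⟩
      · exact ⟨_, hv, h, Or.inr hw1⟩
    · rcases hcase with h | h
      · exact ⟨_, hu, h, Or.inr hw1⟩
      · exact ⟨_, hv, h, Or.inl hx1⟩
  -- a constituent of `aA`
  have hzc : χ = z ∨ ψ = z := by
    by_contra hcon
    push Not at hcon
    apply hz
    rw [hB, classInner_add_left, classInner_zsmul_left, classInner_zsmul_left,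
      classInner_irr_ne hχ hzi hcon.1, classInner_irr_ne hψ hzi hcon.2]
    simp
  have hz7 : ∀ n : ℕ, z 1 = n → n = 7 ∨ n = 21 := by
    intro n hn
    rcases hz1 with h | h
    · left
      rw [hn] at h
      exact_mod_cast h
    · right
      rw [hn] at h
      exact_mod_cast h
  rcases hzc with rfl | rfl
  · have := hz7 n1 h1
    refine ⟨n2, mem_degrees hψ h2, ?_⟩
    rcases ha with rfl | rfl <;> rcases hb with rfl | rfl <;> omega
  · have := hz7 n2 h2
    refine ⟨n1, mem_degrees hχ h1, ?_⟩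
    rcases ha with rfl | rfl <;> rcases hb with rfl | rfl <;> omega

end Cfsg.Agent.Lib.U33Deg
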