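import Cfsg.Agent.Lib.U34Data
import Cfsg.Agent.Lib.SLTransfer

/-!
# Groups with the prime graph of `PSU₃(4)`
-/

set_option autoImplicit false
set_option linter.unusedSectionVars false

namespace Cfsg.Agent.Lib.U34

open Cfsg Matrix
open Cfsg.Agent.Lib.F16 Cfsg.Agent.Lib.U34Act Cfsg.Agent.Lib.U34Data Cfsg.Agent.Lib.PrimeGraphExt
open Cfsg.Agent.Lib.UnitaryBasic

/-- A matrix with `Aᵀ Aσ = 1` preserves the form. -/
lemma herm_of_matrix {A : Matrix (Fin 3) (Fin 3) K16}
    (h : A.transpose * A.map (fun x => x ^ 4) = 1) (u v : V) :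
    herm (A *ᵥ u) (A *ᵥ v) = herm u v := by
  have h2 : (fun i => (A *ᵥ v) i ^ 4) = A.map (fun x => x ^ 4) *ᵥ (fun i => v i ^ 4) := by
    funext i
    exact RingHom.map_mulVec (sigma hF) A v i
  have h3 : herm (A *ᵥ u) (A *ᵥ v) = (A *ᵥ u) ⬝ᵥ (fun i => (A *ᵥ v) i ^ 4) := rfl
  have h4 : herm u v = u ⬝ᵥ (fun i => v i ^ 4) := rfl
  rw [h3, h4, h2, Matrix.dotProduct_mulVec, ← Matrix.vecMul_transpose, Matrix.vecMul_vecMul, h,
    Matrix.vecMul_one]

/-- An element of `G` from a matrix. -/
def mkG (A : Matrix (Fin 3) (Fin 3) K16) (hd : A.det = 1)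
    (h : A.transpose * A.map (fun x => x ^ 4) = 1) : G :=
  ⟨⟨A, hd⟩, fun u v => herm_of_matrix h u v⟩

/-- The matrix as a monoid homomorphism. -/
def matHom : G →* Matrix (Fin 3) (Fin 3) K16 where
  toFun := mat
  map_one' := rfl
  map_mul' _ _ := rfl

lemma matHom_inj : Function.Injective matHom := by
  intro a b h
  apply Subtype.ext
  apply Subtype.ext
  exact h

lemma orderOf_mkG (A : Matrix (Fin 3) (Fin 3) K16) (hd : A.det = 1)
    (h : A.transpose * A.map (fun x => x ^ 4) = 1) : orderOf (mkG A hd h) = orderOf A :=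
  (orderOf_injective matHom matHom_inj _).symm

/-- The element of order `13`. -/
def g13 : G := mkG A13 A13_det A13_u

lemma orderOf_g13 : orderOf g13 = 13 := by
  rw [g13, orderOf_mkG]
  have : Fact (Nat.Prime 13) := ⟨by norm_num⟩
  exact orderOf_eq_prime A13_pow A13_ne

lemma exists_order_15 : ∃ g : G, orderOf g = 15 := by
  refine ⟨mkG A15 A15_det A15_u, ?_⟩
  rw [orderOf_mkG]
  refine orderOf_eq_of_pow_and_pow_div_prime (by norm_num) A15_pow ?_
  intro p hp hpd
  have h15 : (15 : ℕ) = 3 * 5 := by norm_num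
  rw [h15, hp.dvd_mul] at hpd
  rcases hpd with h | h
  · have := (Nat.prime_dvd_prime_iff_eq hp (by norm_num)).1 h
    subst this
    exact A15_ne5
  · have := (Nat.prime_dvd_prime_iff_eq hp (by norm_num)).1 h
    subst this
    exact A15_ne3

lemma exists_order_10 : ∃ g : G, orderOf g = 10 := by
  refine ⟨mkG A10 A10_det A10_u, ?_⟩
  rw [orderOf_mkG]
  refine orderOf_eq_of_pow_and_pow_div_prime (by norm_num) A10_pow ?_
  intro p hp hpd
  have h10 : (10 : ℕ) = 2 * 5 := by norm_num
  rw [h10, hp.dvd_mul] at hpd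
  rcases hpd with h | h
  · have := (Nat.prime_dvd_prime_iff_eq hp (by norm_num)).1 h
    subst this
    exact A10_ne5
  · have := (Nat.prime_dvd_prime_iff_eq hp (by norm_num)).1 h
    subst this
    exact A10_ne2

/-- The order of the group. -/
theorem card_G : Nat.card G = 62400 := by
  have h := Cfsg.Agent.Lib.UnitarySU.card_SU hF 3 (by norm_num)
  have h2 : (∏ i ∈ Finset.range 3, (if Even i then 4 ^ (i + 1) + 1 else 4 ^ (i + 1) - 1)) = 4875 := by
    decide
  rw [h2] at h
  have h3 : (3 * (3 - 1) / 2 : ℕ) = 3 := by norm_num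
  rw [h3] at h
  change (4 + 1) * Nat.card G = _ at h
  omega

/-! ### The bijection between indices and points -/

lemma nf_pt (i : Fin 65) : nf (pt i) = pt i := by
  unfold nf
  rw [pt_lead, inv_one, one_smul]

/-- The point with a given index. -/
def ptE (i : Fin 65) : Pt := ⟨pt i, pt_ne_zero i, pt_iso i, nf_pt i⟩

lemma lead_eq_one {v : V} (hv : v ≠ 0) (hn : nf v = v) : lead v = 1 := by
  have h1 : lead (nf v) = (lead v)⁻¹ * lead v := lead_smul (inv_ne_zero (lead_ne_zero hv)) v
  rw [inv_mul_cancel₀ (lead_ne_zero hv), hn] at h1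
  exact h1

lemma vec3 (v : V) : v = ![v 0, v 1, v 2] := by
  funext i
  fin_cases i <;> rfl

/-- A vector with leading coordinate one is of one of three shapes. -/
lemma lead_one_cases {v : V} (h : lead v = 1) :
    v = ![1, v 1, v 2] ∨ v = ![0, 1, v 2] ∨ v = ![0, 0, 1] := by
  unfold lead at h
  split_ifs at h with h0 h1
  · left
    conv_lhs => rw [vec3 v, h]
  · right; left
    have h0' : v 0 = 0 := by simpa using h0
    conv_lhs => rw [vec3 v, h, h0']
  · right; right
    have h0' : v 0 = 0 := by simpa using h0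
    have h1' : v 1 = 0 := by simpa using h1
    conv_lhs => rw [vec3 v, h, h0', h1']

lemma ptE_bij : Function.Bijective ptE := by
  constructor
  · intro i j hij
    exact pt_inj (congrArg Subtype.val hij)
  · intro x
    obtain ⟨v, hv, hiso, hn⟩ := x
    have hl := lead_eq_one hv hn
    have : ∃ i, pt i = v := by
      rcases lead_one_cases hl with h | h | h
      · rw [h] at hiso ⊢
        exact cover1 _ _ hiso
      · rw [h] at hiso ⊢
        exact cover2 _ hiso
      · rw [h] at hiso
        exact absurd hiso not_iso3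
    obtain ⟨i, hi⟩ := this
    exact ⟨i, Subtype.ext hi⟩

/-- Indices and points. -/
noncomputable def eE : Fin 65 ≃ Pt := Equiv.ofBijective ptE ptE_bij

lemma eE_val (i : Fin 65) : (eE i).1 = pt i := rfl

lemma blockSum_eq (f : Pt → ZMod 5) (w : V) :
    blockSum f w = ∑ i : Fin 65, if herm (pt i) w = 0 then f (eE i) else 0 := by
  unfold blockSum
  exact (Equiv.sum_comp eE (fun x : Pt => if herm x.1 w = 0 then f x else 0)).symm

/-! ### A nonconstant element of `W` -/

/-- The nonconstant element. -/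
noncomputable def fNC : Pt → ZMod 5 := fun x => f0 (eE.symm x)

lemma fNC_eE (i : Fin 65) : fNC (eE i) = f0 i := by simp [fNC]

lemma block_of_nf {c : K16} (hc : c ≠ 0) (x w : V) : herm x (c • w) = 0 ↔ herm x w = 0 := by
  rw [herm_smul_r]
  simp [hc]

lemma fNC_mem : fNC ∈ W := by
  intro w hw
  have hw0 : w ≠ 0 := by
    rintro rfl
    apply hw
    simp [herm, hermForm]
  set c := (lead w)⁻¹ with hc
  have hc0 : c ≠ 0 := inv_ne_zero (lead_ne_zero hw0)
  have hw' : herm (c • w) (c • w) ≠ 0 := by
    rw [herm_smul_l, herm_smul_r]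
    exact mul_ne_zero hc0 (mul_ne_zero (pow_ne_zero _ hc0) hw)
  have hl : lead (c • w) = 1 := by
    rw [lead_smul hc0, hc, inv_mul_cancel₀ (lead_ne_zero hw0)]
  rw [blockSum_eq]
  simp only [fNC_eE]
  have h2 : (∑ i : Fin 65, if herm (pt i) w = 0 then f0 i else 0) =
      ∑ i : Fin 65, if herm (pt i) (c • w) = 0 then f0 i else 0 := by
    apply Finset.sum_congr rfl
    intro i _
    simp only [block_of_nf hc0]
  rw [h2]
  rcases lead_one_cases hl with h | h | h
  · rw [h] at hw' ⊢
    exact f0_block1 _ _ hw'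
  · rw [h] at hw' ⊢
    exact f0_block2 _ hw'
  · rw [h]
    exact f0_block3

lemma fNC_nonconst : ∃ x y, fNC x ≠ fNC y := by
  refine ⟨eE 0, eE 2, ?_⟩
  rw [fNC_eE, fNC_eE]
  exact f0_ne

/-! ### Invariants of the element of order 13 -/

lemma g13_smul (i : Fin 65) : g13 • eE i = eE (s13 i) := by
  apply Subtype.ext
  rw [smul_val, eE_val, eE_val]
  exact A13_act i

lemma blockSum_list (F : Fin 65 → ZMod 5) (w : V) (B : Finset (Fin 65))
    (hB : (Finset.univ.filter fun i : Fin 65 => herm (pt i) w = 0) = B) :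
    (∑ i : Fin 65, if herm (pt i) w = 0 then F i else 0) = ∑ i ∈ B, F i := by
  rw [← hB, Finset.sum_filter]

theorem const_of_inv (f : Pt → ZMod 5) (hf : f ∈ W) (hinv : ∀ x, f (g13 • x) = f x) (x y : Pt) :
    f x = f y := by
  let F : Fin 65 → ZMod 5 := fun i => f (eE i)
  have hs : ∀ i, F (s13 i) = F i := by
    intro i
    show f (eE (s13 i)) = f (eE i)
    rw [← g13_smul, hinv]
  have hit : ∀ (k : ℕ) (i : Fin 65), F (s13^[k] i) = F i := by
    intro k
    induction k with
    | zero => intro i; rfl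
    | succ k ih =>
      intro i
      rw [Function.iterate_succ_apply', hs, ih]
  have hrep : ∀ i, F i = F (rep13 i) := by
    intro i
    conv_lhs => rw [← s13_rep i]
    exact hit _ _
  have hB : ∀ (w : V) (B : Finset (Fin 65)), herm w w ≠ 0 →
      (Finset.univ.filter fun i : Fin 65 => herm (pt i) w = 0) = B → ∑ i ∈ B, F i = 0 := by
    intro w B hw hb
    have h1 := hf w hw
    rw [blockSum_eq, blockSum_list F w B hb] at h1
    exact h1
  have e1 := hB _ _ w1_non block1
  have e2 := hB _ _ w2_non block2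
  have e3 := hB _ _ w3_non block3
  have e4 := hB _ _ w4_non block4
  have r : ∀ i j : Fin 65, rep13 i = j → F i = F j := fun i j h => by rw [hrep i, h]
  rw [Finset.sum_insert (by decide), Finset.sum_insert (by decide), Finset.sum_insert (by decide),
    Finset.sum_insert (by decide), Finset.sum_singleton,
    r 10 0 (by decide), r 32 26 (by decide), r 33 26 (by decide), r 43 39 (by decide),
    r 48 39 (by decide)] at e1
  rw [Finset.sum_insert (by decide), Finset.sum_insert (by decide), Finset.sum_insert (by decide),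
    Finset.sum_insert (by decide), Finset.sum_singleton,
    r 8 0 (by decide), r 12 0 (by decide), r 19 13 (by decide), r 22 13 (by decide),
    r 39 39 (by decide)] at e2
  rw [Finset.sum_insert (by decide), Finset.sum_insert (by decide), Finset.sum_insert (by decide),
    Finset.sum_insert (by decide), Finset.sum_singleton,
    r 4 0 (by decide), r 41 39 (by decide), r 51 39 (by decide), r 54 52 (by decide),
    r 62 52 (by decide)] at e3
  rw [Finset.sum_insert (by decide), Finset.sum_insert (by decide), Finset.sum_insert (by decide),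
    Finset.sum_insert (by decide), Finset.sum_singleton,
    r 20 13 (by decide), r 25 13 (by decide), r 28 26 (by decide), r 56 52 (by decide),
    r 63 52 (by decide)] at e4
  obtain ⟨h1, h2, h3, h4⟩ := lin_alg (F 0) (F 13) (F 26) (F 39) (F 52)
    (by linear_combination e1) (by linear_combination e2) (by linear_combination e3)
    (by linear_combination e4)
  have hall : ∀ i, F i = F 0 := by
    intro i
    rw [hrep i]
    rcases rep13_cases i with h | h | h | h | h <;> rw [h]
    · exact h1.symm
    · exact h2.symm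
    · exact h3.symm
    · exact h4.symm
  obtain ⟨i, rfl⟩ := eE.surjective x
  obtain ⟨j, rfl⟩ := eE.surjective y
  exact (hall i).trans (hall j).symm

/-! ### Elements of order 13 -/

lemma exists_conj_of_order_13 (g : G) (hg : orderOf g = 13) :
    ∃ c : G, g13 ∈ Subgroup.zpowers (c⁻¹ * g * c) := by
  classical
  have : Fact (Nat.Prime 13) := ⟨by norm_num⟩
  have hsyl : ∀ (u : G), orderOf u = 13 → ∃ P : Sylow 13 G, (P : Subgroup G) = Subgroup.zpowers u := by
    intro u hu
    have hc : Nat.card (Subgroup.zpowers u) = 13 := by rw [Nat.card_zpowers, hu]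
    have h1 : IsPGroup 13 (Subgroup.zpowers u) := IsPGroup.of_card (n := 1) (by rw [hc, pow_one])
    have h2 : ¬ 13 ∣ (Subgroup.zpowers u).index := by
      have h3 := Subgroup.card_mul_index (Subgroup.zpowers u)
      rw [hc, card_G] at h3
      have h4 : (Subgroup.zpowers u).index = 4800 := by omega
      rw [h4]
      norm_num
    exact ⟨h1.toSylow h2, rfl⟩
  obtain ⟨P, hP⟩ := hsyl g13 orderOf_g13
  obtain ⟨Q, hQ⟩ := hsyl g hg
  obtain ⟨c, hc⟩ := MulAction.exists_smul_eq G P Q
  refine ⟨c, ?_⟩
  have hmem : g ∈ (Q : Subgroup G) := by rw [hQ]; exact Subgroup.mem_zpowers g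
  rw [← hc, Sylow.smul_def, Sylow.pointwise_smul_def, hP] at hmem
  have h1 : c⁻¹ * g * c ∈ Subgroup.zpowers g13 := by
    rw [Subgroup.mem_pointwise_smul_iff_inv_smul_mem] at hmem
    simpa [MulAut.smul_def] using hmem
  have hord : orderOf (c⁻¹ * g * c) = 13 := by
    have : c⁻¹ * g * c = MulAut.conj c⁻¹ g := by simp [MulAut.conj_apply]
    rw [this, MulEquiv.orderOf_eq, hg]
  have hle : Subgroup.zpowers (c⁻¹ * g * c) ≤ Subgroup.zpowers g13 :=
    (Subgroup.zpowers_le).2 h1
  have heq : Subgroup.zpowers (c⁻¹ * g * c) = Subgroup.zpowers g13 := by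
    apply Subgroup.eq_of_le_of_card_ge hle
    rw [Nat.card_zpowers, Nat.card_zpowers, hord, orderOf_g13]
  rw [heq]
  exact Subgroup.mem_zpowers g13

lemma no_fix_13 (g : G) (hg : orderOf g = 13) (f : Pt → ZMod 5) (hf : f ∈ W)
    (hinv : ∀ x, f (g • x) = f x) (x y : Pt) : f x = f y := by
  obtain ⟨c, hc⟩ := exists_conj_of_order_13 g hg
  let f' : Pt → ZMod 5 := fun x => f (c⁻¹⁻¹ • x)
  have hf' : f' ∈ W := W_inv c⁻¹ f hf
  have hf'2 : ∀ x, f' x = f (c • x) := fun x => by simp [f']
  let S : Subgroup G :=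
    { carrier := {u | ∀ x, f' (u • x) = f' x}
      mul_mem' := by
        intro a b ha hb x
        rw [mul_smul, ha, hb]
      one_mem' := by
        intro x
        rw [one_smul]
      inv_mem' := by
        intro a ha x
        have := ha (a⁻¹ • x)
        rw [smul_inv_smul] at this
        exact this.symm }
  have hS : c⁻¹ * g * c ∈ S := by
    intro x
    rw [hf'2, hf'2]
    have : c • (c⁻¹ * g * c) • x = g • c • x := by
      rw [← mul_smul, ← mul_smul]
      congr 1
      group
    rw [this, hinv]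
  have hS2 : g13 ∈ S := (Subgroup.zpowers_le.2 hS) hc
  have hconst := const_of_inv f' hf' hS2
  have := hconst (c⁻¹ • x) (c⁻¹ • y)
  rw [hf'2, hf'2, smul_inv_smul, smul_inv_smul] at this
  exact this

/-- The main theorem over the concrete field. -/
theorem exists_large (N : ℕ) :
    ∃ (H : Type) (_ : Group H) (_ : Fintype H), N < Fintype.card H ∧ SameGraph G H := by
  have : Fact (Nat.Prime 5) := ⟨by norm_num⟩
  refine Cfsg.Agent.Lib.PrimeGraphPerm.exists_large_of_perm_submodule W
    (fun g f hf => W_inv g f hf) ⟨fNC, fNC_mem, fNC_nonconst⟩ ?_ ?_ N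
  · rw [card_G]; norm_num
  · intro s hs hs5 g hg f hf hinv hnc
    have hsd : s ∣ Nat.card G := hg ▸ orderOf_dvd_natCard g
    rw [card_G] at hsd
    have h62400 : (62400 : ℕ) = 2 ^ 6 * 3 * 5 ^ 2 * 13 := by norm_num
    rw [h62400, hs.dvd_mul, hs.dvd_mul, hs.dvd_mul] at hsd
    have hcases : s = 2 ∨ s = 3 ∨ s = 5 ∨ s = 13 := by
      rcases hsd with ((h | h) | h) | h
      · left
        exact (Nat.prime_dvd_prime_iff_eq hs (by norm_num)).1 (hs.dvd_of_dvd_pow h)
      · right; left
        exact (Nat.prime_dvd_prime_iff_eq hs (by norm_num)).1 h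
      · right; right; left
        exact (Nat.prime_dvd_prime_iff_eq hs (by norm_num)).1 (hs.dvd_of_dvd_pow h)
      · right; right; right
        exact (Nat.prime_dvd_prime_iff_eq hs (by norm_num)).1 h
    rcases hcases with rfl | rfl | rfl | rfl
    · exact exists_order_10
    · exact exists_order_15
    · exact absurd rfl hs5
    · exfalso
      obtain ⟨x, y, hxy⟩ := hnc
      exact hxy (no_fix_13 g hg f hf hinv x y)

end Cfsg.Agent.Lib.U34
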