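import Cfsg.Agent.Lib.F16
import Cfsg.Agent.Lib.PrimeGraphPerm
import Cfsg.Agent.Lib.UnitarySU

/-!
# `SU₃(4)` on the Hermitian unital

The group `SU 3 K16 4` acts on the `65` isotropic points of the projective plane over the field
with sixteen elements, written in normal form; the functions on these points with values in `ZMod 5`
whose sum on every secant line vanishes form an invariant subgroup.
-/

set_option autoImplicit false
set_option linter.unusedSectionVars false

namespace Cfsg.Agent.Lib.U34Act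

open Cfsg Matrix
open Cfsg.Agent.Lib.F16 Cfsg.Agent.Lib.UnitaryBasic

/-- The natural module. -/
abbrev V : Type := Fin 3 → K16

/-- The Hermitian form. -/
abbrev herm (u v : V) : K16 := hermForm 3 K16 4 u v

/-- The group. -/
abbrev G : Type := SU 3 K16 4

/-- The matrix of an element. -/
def mat (g : G) : Matrix (Fin 3) (Fin 3) K16 := g.1.1

@[simp] lemma mat_mul (g h : G) : mat (g * h) = mat g * mat h := rfl
@[simp] lemma mat_one : mat (1 : G) = 1 := rfl

lemma mat_inv_mul (g : G) : mat g⁻¹ * mat g = 1 := by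
  rw [← mat_mul, inv_mul_cancel, mat_one]

lemma mat_mul_inv (g : G) : mat g * mat g⁻¹ = 1 := by
  rw [← mat_mul, mul_inv_cancel, mat_one]

lemma herm_mat (g : G) (u v : V) : herm (mat g *ᵥ u) (mat g *ᵥ v) = herm u v := g.2 u v

lemma hF : Fintype.card K16 = 4 ^ 2 := K16.card_K16

lemma herm_smul_l (c : K16) (u v : V) : herm (c • u) v = c * herm u v := herm_smul_left c u v

lemma herm_smul_r (c : K16) (u v : V) : herm u (c • v) = c ^ 4 * herm u v := herm_smul_right c u v

lemma herm_inv_r (g : G) (u v : V) : herm (mat g *ᵥ u) v = herm u (mat g⁻¹ *ᵥ v) := by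
  have h := herm_mat g u (mat g⁻¹ *ᵥ v)
  rw [Matrix.mulVec_mulVec, mat_mul_inv, Matrix.one_mulVec] at h
  exact h

lemma mat_mulVec_ne_zero (g : G) {v : V} (hv : v ≠ 0) : mat g *ᵥ v ≠ 0 := by
  intro h
  apply hv
  have h2 := congrArg (fun x => mat g⁻¹ *ᵥ x) h
  simpa [Matrix.mulVec_mulVec, mat_inv_mul] using h2

/-- The first nonzero coordinate. -/
def lead (v : V) : K16 := if v 0 ≠ 0 then v 0 else if v 1 ≠ 0 then v 1 else v 2

/-- The normal form of a vector. -/
def nf (v : V) : V := (lead v)⁻¹ • v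

lemma lead_smul {c : K16} (hc : c ≠ 0) (v : V) : lead (c • v) = c * lead v := by
  simp only [lead, Pi.smul_apply, smul_eq_mul, mul_ne_zero_iff, hc, ne_eq, not_false_eq_true,
    true_and]
  split_ifs <;> rfl

lemma lead_ne_zero {v : V} (hv : v ≠ 0) : lead v ≠ 0 := by
  intro h
  apply hv
  unfold lead at h
  split_ifs at h with h0 h1
  · exact absurd h h0
  · exact absurd h h1
  · funext i
    fin_cases i
    · simpa using h0
    · simpa using h1
    · simpa using h

lemma nf_smul {c : K16} (hc : c ≠ 0) (v : V) : nf (c • v) = nf v := by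
  unfold nf
  rw [lead_smul hc, smul_smul, mul_inv, mul_comm c⁻¹, mul_assoc, inv_mul_cancel₀ hc, mul_one]

lemma nf_ne_zero {v : V} (hv : v ≠ 0) : nf v ≠ 0 := by
  unfold nf
  intro h
  have h2 := (smul_eq_zero.mp h).resolve_left (inv_ne_zero (lead_ne_zero hv))
  exact hv h2

lemma nf_nf {v : V} (hv : v ≠ 0) : nf (nf v) = nf v :=
  nf_smul (inv_ne_zero (lead_ne_zero hv)) v

lemma herm_nf_self {v : V} (hv : herm v v = 0) : herm (nf v) (nf v) = 0 := by
  unfold nf
  rw [herm_smul_l, herm_smul_r, hv]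
  simp

/-- The isotropic points, in normal form. -/
def Pt : Type := {v : V // v ≠ 0 ∧ herm v v = 0 ∧ nf v = v}

instance : Finite Pt := inferInstanceAs (Finite {v : V // v ≠ 0 ∧ herm v v = 0 ∧ nf v = v})

noncomputable instance : Fintype Pt := Fintype.ofFinite _

/-- The action on points. -/
def ptAct (g : G) (x : Pt) : Pt :=
  ⟨nf (mat g *ᵥ x.1), nf_ne_zero (mat_mulVec_ne_zero g x.2.1),
    herm_nf_self (by rw [herm_mat]; exact x.2.2.1), nf_nf (mat_mulVec_ne_zero g x.2.1)⟩

instance : MulAction G Pt where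
  smul := ptAct
  one_smul x := by
    apply Subtype.ext
    show nf (mat (1 : G) *ᵥ x.1) = x.1
    rw [mat_one, Matrix.one_mulVec]
    exact x.2.2.2
  mul_smul a b x := by
    apply Subtype.ext
    show nf (mat (a * b) *ᵥ x.1) = nf (mat a *ᵥ nf (mat b *ᵥ x.1))
    have h : nf (mat b *ᵥ x.1) = (lead (mat b *ᵥ x.1))⁻¹ • (mat b *ᵥ x.1) := rfl
    rw [mat_mul, h, Matrix.mulVec_smul,
      nf_smul (inv_ne_zero (lead_ne_zero (mat_mulVec_ne_zero b x.2.1))), Matrix.mulVec_mulVec]

lemma smul_val (g : G) (x : Pt) : (g • x).1 = nf (mat g *ᵥ x.1) := rfl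

lemma herm_smul_pt_iff (g : G) (x : Pt) (w : V) :
    herm (g • x).1 w = 0 ↔ herm x.1 (mat g⁻¹ *ᵥ w) = 0 := by
  rw [smul_val, nf, herm_smul_l, herm_inv_r]
  have := inv_ne_zero (lead_ne_zero (mat_mulVec_ne_zero g x.2.1))
  simp [this]

/-- The sum of `f` on the points of the polar line of `w`. -/
noncomputable def blockSum (f : Pt → ZMod 5) (w : V) : ZMod 5 :=
  ∑ x : Pt, if herm x.1 w = 0 then f x else 0

/-- The functions with vanishing sum on every secant line. -/
noncomputable def W : AddSubgroup (Pt → ZMod 5) where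
  carrier := {f | ∀ w : V, herm w w ≠ 0 → blockSum f w = 0}
  zero_mem' := by
    intro w _
    simp [blockSum]
  add_mem' := by
    intro a b ha hb w hw
    have h1 := ha w hw
    have h2 := hb w hw
    unfold blockSum at *
    have : (∑ x : Pt, if herm x.1 w = 0 then (a + b) x else 0) =
        (∑ x : Pt, if herm x.1 w = 0 then a x else 0) +
          (∑ x : Pt, if herm x.1 w = 0 then b x else 0) := by
      rw [← Finset.sum_add_distrib]
      apply Finset.sum_congr rfl
      intro x _
      split_ifs <;> simp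
    rw [this, h1, h2, add_zero]
  neg_mem' := by
    intro a ha w hw
    have h1 := ha w hw
    unfold blockSum at *
    have : (∑ x : Pt, if herm x.1 w = 0 then (-a) x else 0) =
        -(∑ x : Pt, if herm x.1 w = 0 then a x else 0) := by
      rw [← Finset.sum_neg_distrib]
      apply Finset.sum_congr rfl
      intro x _
      split_ifs <;> simp
    rw [this, h1, neg_zero]

lemma mem_W {f : Pt → ZMod 5} : f ∈ W ↔ ∀ w : V, herm w w ≠ 0 → blockSum f w = 0 := Iff.rfl

lemma W_inv (g : G) (f : Pt → ZMod 5) (hf : f ∈ W) : (fun x => f (g⁻¹ • x)) ∈ W := by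
  intro w hw
  have hw' : herm (mat g⁻¹ *ᵥ w) (mat g⁻¹ *ᵥ w) ≠ 0 := by rwa [herm_mat]
  have h := hf _ hw'
  unfold blockSum at *
  refine Eq.trans ?_ h
  apply Fintype.sum_equiv (MulAction.toPerm g⁻¹)
  intro x
  show (if herm x.1 w = 0 then f (g⁻¹ • x) else 0) =
    if herm (g⁻¹ • x).1 (mat g⁻¹ *ᵥ w) = 0 then f (g⁻¹ • x) else 0
  have : herm (g⁻¹ • x).1 (mat g⁻¹ *ᵥ w) = 0 ↔ herm x.1 w = 0 := by
    rw [herm_smul_pt_iff, inv_inv, Matrix.mulVec_mulVec, mat_mul_inv, Matrix.one_mulVec]
  simp only [this]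

end Cfsg.Agent.Lib.U34Act
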