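import Mathlib
import Cfsg.Agent.Lib.U35TcTab

set_option autoImplicit false
set_option Elab.async false
set_option maxRecDepth 100000
set_option linter.all false

namespace Cfsg.Agent.Lib.U35Tc

open Subgroup Cfsg.Agent.Lib.TcFacts Cfsg.Agent.Lib.TcPres Cfsg.Agent.Lib.SchurCoset46 Cfsg.Agent.Lib.SchurTc

theorem b61 : Block F al 15616 15872 256 :=
  block_of_check (k := 8) rfl (by decide +kernel)

theorem b62 : Block F al 15872 16128 256 :=
  block_of_check (k := 8) rfl (by decide +kernel)

theorem b63 : Block F al 16128 16384 256 :=
  block_of_check (k := 8) rfl (by decide +kernel)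

theorem b64 : Block F al 16384 16640 256 :=
  block_of_check (k := 8) rfl (by decide +kernel)

theorem b65 : Block F al 16640 16896 256 :=
  block_of_check (k := 8) rfl (by decide +kernel)

theorem b66 : Block F al 16896 17152 256 :=
  block_of_check (k := 8) rfl (by decide +kernel)

theorem b67 : Block F al 17152 17408 256 :=
  block_of_check (k := 8) rfl (by decide +kernel)

theorem b68 : Block F al 17408 17664 256 :=
  block_of_check (k := 8) rfl (by decide +kernel)

theorem b69 : Block F al 17664 17920 256 :=
  block_of_check (k := 8) rfl (by decide +kernel)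

theorem b70 : Block F al 17920 18176 104 :=
  block_of_check (k := 8) rfl (by decide +kernel)

end Cfsg.Agent.Lib.U35Tc
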