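import Mathlib
import Cfsg.Prelude.Def_Classical
import Cfsg.Agent.Lib.L3Fus
import Cfsg.Agent.Lib.HermForm

set_option autoImplicit false

/-!
# The 2-fusion system of `PSU₃(q)`, `q` odd
-/

namespace Cfsg.Agent.Lib.U3Fus

open Cfsg Cfsg.Agent.Lib.Rk2Frame Cfsg.Agent.Lib.L3Fus Cfsg.Agent.Lib.HermForm Cfsg.Agent.Lib.FFNorm

variable {F : Type*} [Field F] [Fintype F] {q : ℕ}

/-- Orthonormal columns. -/
def UC (q : ℕ) {n : ℕ} (A : Matrix (Fin n) (Fin n) F) : Prop :=
  ∀ j k, (∑ i, A i j * (A i k) ^ q) = if j = k then 1 else 0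

theorem preserves_iff (hF : Fintype.card F = q ^ 2) {n : ℕ} (A : Matrix (Fin n) (Fin n) F) :
    (∀ u v, hermForm n F q (A.mulVec u) (A.mulVec v) = hermForm n F q u v) ↔ UC q A := by
  have hq0 : q ≠ 0 := by have := two_le hF; omega
  constructor
  · intro h j k
    have h1 := h (Pi.single j 1) (Pi.single k 1)
    rw [Matrix.mulVec_single_one, Matrix.mulVec_single_one, hermForm_single_left] at h1
    simp only [hermForm] at h1
    rw [show (∑ i, A.col j i * (A.col k i) ^ q) = ∑ i, A i j * (A i k) ^ q from rfl] at h1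
    rw [h1]
    by_cases hjk : j = k
    · subst hjk
      simp
    · rw [Pi.single_apply, if_neg hjk, zero_pow hq0]
  · intro h u v
    simp only [hermForm, Matrix.mulVec, dotProduct]
    calc ∑ i, (∑ j, A i j * u j) * (∑ k, A i k * v k) ^ q
        = ∑ i, ∑ j, ∑ k, (A i j * u j) * ((A i k) ^ q * (v k) ^ q) := by
          refine Finset.sum_congr rfl fun i _ => ?_
          rw [sum_pow_q hF, Finset.sum_mul_sum]
          refine Finset.sum_congr rfl fun j _ => Finset.sum_congr rfl fun k _ => ?_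
          rw [mul_pow]
      _ = ∑ j, ∑ i, ∑ k, (A i j * u j) * ((A i k) ^ q * (v k) ^ q) := Finset.sum_comm
      _ = ∑ j, ∑ k, ∑ i, (A i j * u j) * ((A i k) ^ q * (v k) ^ q) := by
          refine Finset.sum_congr rfl fun j _ => Finset.sum_comm
      _ = ∑ j, ∑ k, (u j * (v k) ^ q) * (∑ i, A i j * (A i k) ^ q) := by
          refine Finset.sum_congr rfl fun j _ => Finset.sum_congr rfl fun k _ => ?_
          rw [Finset.mul_sum]
          refine Finset.sum_congr rfl fun i _ => ?_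
          ring
      _ = ∑ j, u j * (v j) ^ q := by
          refine Finset.sum_congr rfl fun j _ => ?_
          rw [Finset.sum_eq_single j]
          · rw [h j j]; simp
          · intro k _ hk
            rw [h j k, if_neg (Ne.symm hk), mul_zero]
          · simp

theorem uc2 (a b c d : F) : UC q !![a, b; c, d] ↔
    (a * a ^ q + c * c ^ q = 1 ∧ a * b ^ q + c * d ^ q = 0 ∧ b * a ^ q + d * c ^ q = 0 ∧ b * b ^ q + d * d ^ q = 1) := by
  constructor
  · intro h
    have h00 := h 0 0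
    have h01 := h 0 1
    have h10 := h 1 0
    have h11 := h 1 1
    simp [Fin.sum_univ_two] at h00 h01 h10 h11
    exact ⟨h00, h01, h10, h11⟩
  · rintro ⟨h00, h01, h10, h11⟩ j k
    fin_cases j <;> fin_cases k <;> simp [Fin.sum_univ_two, h00, h01, h10, h11]

theorem uc_eta {A : Matrix (Fin 2) (Fin 2) F} (h : UC q A) :
    A 0 0 * A 0 0 ^ q + A 1 0 * A 1 0 ^ q = 1 ∧ A 0 0 * A 0 1 ^ q + A 1 0 * A 1 1 ^ q = 0 ∧
      A 0 1 * A 0 0 ^ q + A 1 1 * A 1 0 ^ q = 0 ∧ A 0 1 * A 0 1 ^ q + A 1 1 * A 1 1 ^ q = 1 := by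
  have h00 := h 0 0
  have h01 := h 0 1
  have h10 := h 1 0
  have h11 := h 1 1
  simp only [Fin.sum_univ_two] at h00 h01 h10 h11
  simp at h00 h01 h10 h11
  exact ⟨h00, h01, h10, h11⟩

theorem det_norm (hF : Fintype.card F = q ^ 2) {A : Matrix (Fin 2) (Fin 2) F} (h : UC q A) :
    A.det * A.det ^ q = 1 := by
  obtain ⟨h1, h2, h3, h4⟩ := uc_eta h
  rw [Matrix.det_fin_two, sub_pow_q hF, mul_pow, mul_pow]
  linear_combination (A 0 1 * A 0 1 ^ q + A 1 1 * A 1 1 ^ q) * h1 + h4 - (A 0 1 * A 0 0 ^ q + A 1 1 * A 1 0 ^ q) * h2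

theorem det_ne_of_uc (hF : Fintype.card F = q ^ 2) {A : Matrix (Fin 2) (Fin 2) F} (h : UC q A) : A.det ≠ 0 := by
  intro h0
  have := det_norm hF h
  rw [h0, zero_mul] at this
  exact zero_ne_one this

/-- The unitary group in dimension 2. -/
abbrev GU2 (F : Type*) [Field F] (q : ℕ) : Subgroup (GL (Fin 2) F) :=
  Cfsg.preserving (Units.coeHom (Matrix (Fin 2) (Fin 2) F)) (hermForm 2 F q)

/-- An element of the unitary group in dimension 2 from a matrix. -/
noncomputable def mkU (hF : Fintype.card F = q ^ 2) (A : Matrix (Fin 2) (Fin 2) F) (h : UC q A) : GU2 F q :=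
  ⟨Matrix.GeneralLinearGroup.mkOfDetNeZero A (det_ne_of_uc hF h), (preserves_iff hF A).mpr h⟩

theorem uc_of_GU2 (hF : Fintype.card F = q ^ 2) (g : GU2 F q) : UC q (g.1 : Matrix (Fin 2) (Fin 2) F) :=
  (preserves_iff hF _).mp g.2

/-- The block matrices are unitary. -/
theorem uc_blk (hF : Fintype.card F = q ^ 2) {A : Matrix (Fin 2) (Fin 2) F} {d : F} (h : UC q A) (hd : d * d ^ q = 1) :
    UC q (blk A d) := by
  have hq0 : q ≠ 0 := by have := two_le hF; omega
  obtain ⟨h1, h2, h3, h4⟩ := uc_eta h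
  intro j k
  fin_cases j <;> fin_cases k <;> simp [blk, Fin.sum_univ_succ, zero_pow hq0, h1, h2, h3, h4, hd]

theorem uc_of_blk (hF : Fintype.card F = q ^ 2) {A : Matrix (Fin 2) (Fin 2) F} {d : F} (h : UC q (blk A d)) : UC q A := by
  have hq0 : q ≠ 0 := by have := two_le hF; omega
  have h00 := h 0 0
  have h01 := h 0 1
  have h10 := h 1 0
  have h11 := h 1 1
  simp [blk, Fin.sum_univ_succ, zero_pow hq0] at h00 h01 h10 h11
  rw [Matrix.eta_fin_two A, uc2]
  exact ⟨h00, h01, h10, h11⟩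

theorem uc_of_SU (hF : Fintype.card F = q ^ 2) (g : SU 3 F q) :
    UC q (g.1 : Matrix (Fin 3) (Fin 3) F) :=
  (preserves_iff hF _).mp g.2

theorem neg_one_pow_q (hF : Fintype.card F = q ^ 2) : (-1 : F) ^ q = -1 := by
  rw [neg_pow_q hF, one_pow]

theorem uc_p13 (hF : Fintype.card F = q ^ 2) : UC q (!![0, 0, -1; 0, 1, 0; 1, 0, 0] : Matrix (Fin 3) (Fin 3) F) := by
  have hq0 : q ≠ 0 := by have := two_le hF; omega
  intro j k
  fin_cases j <;> fin_cases k <;> simp [Fin.sum_univ_succ, zero_pow hq0, neg_one_pow_q hF]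

theorem uc_p23 (hF : Fintype.card F = q ^ 2) : UC q (!![-1, 0, 0; 0, 0, 1; 0, 1, 0] : Matrix (Fin 3) (Fin 3) F) := by
  have hq0 : q ≠ 0 := by have := two_le hF; omega
  intro j k
  fin_cases j <;> fin_cases k <;> simp [Fin.sum_univ_succ, zero_pow hq0, neg_one_pow_q hF]

/-- The scaffolding for `SU₃`. -/
noncomputable def lvlU (hF : Fintype.card F = q ^ 2) (h2 : (2 : F) ≠ 0) : Lvl2 F (GU2 F q) (SU 3 F q) where
  toM := (Units.coeHom _).comp (GU2 F q).subtype
  toM3 := (Cfsg.slToMat 3 F).comp (SU 3 F q).subtype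
  ι := MonoidHom.codRestrict (ιL.comp (GU2 F q).subtype) (SU 3 F q) (by
    intro g
    apply (preserves_iff hF _).mpr
    apply uc_blk hF (uc_of_GU2 hF g)
    have hD := det_norm hF (uc_of_GU2 hF g)
    show ((g.1 : Matrix (Fin 2) (Fin 2) F).det)⁻¹ * (((g.1 : Matrix (Fin 2) (Fin 2) F).det)⁻¹) ^ q = 1
    rw [inv_pow, ← mul_inv, hD, inv_one])
  hinjM := fun a b h => Subtype.ext (Units.val_injective h)
  hinjM3 := fun a b h => Subtype.ext (Subtype.ext h)
  two_ne := h2
  hι g := rfl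
  p13 := ⟨⟨!![0, 0, -1; 0, 1, 0; 1, 0, 0], by
    rw [Matrix.det_fin_three]
    simp⟩, (preserves_iff hF _).mpr (uc_p13 hF)⟩
  p23 := ⟨⟨!![-1, 0, 0; 0, 0, 1; 0, 1, 0], by
    rw [Matrix.det_fin_three]
    simp⟩, (preserves_iff hF _).mpr (uc_p23 hF)⟩
  hp13 := rfl
  hp23 := rfl
  hcentr := by
    intro g hg
    obtain ⟨g₂, hg₂⟩ := (lvlL h2).hcentr g.1 hg
    have h1 : (g : Matrix (Fin 3) (Fin 3) F) = blk (g₂ : Matrix (Fin 2) (Fin 2) F) ((g₂ : Matrix (Fin 2) (Fin 2) F).det)⁻¹ := by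
      rw [← hg₂]
      rfl
    have h3 : UC q (g₂ : Matrix (Fin 2) (Fin 2) F) := by
      apply uc_of_blk hF
      rw [← h1]
      exact uc_of_SU hF g
    refine ⟨⟨g₂, (preserves_iff hF _).mpr h3⟩, ?_⟩
    apply Subtype.ext
    exact hg₂

section cases

theorem two_ne (hF : Fintype.card F = q ^ 2) (hodd : q % 2 = 1) : (2 : F) ≠ 0 := by
  apply two_ne_of_odd
  rw [hF, Nat.pow_mod, hodd]

theorem two_pow_q (hF : Fintype.card F = q ^ 2) : (2 : F) ^ q = 2 := by
  have : (2 : F) = 1 + 1 := by norm_num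
  rw [this, add_pow_q hF, one_pow]

theorem exists_i (hF : Fintype.card F = q ^ 2) (hodd : q % 2 = 1) : ∃ i : F, i * i = -1 := by
  have h4 : Fintype.card F % 4 ≠ 3 := by
    rw [hF]
    obtain ⟨m, rfl⟩ : ∃ m, q = 2 * m + 1 := ⟨q / 2, by omega⟩
    have : (2 * m + 1) ^ 2 = 4 * (m * m + m) + 1 := by ring
    omega
  obtain ⟨i, hi⟩ := FiniteField.isSquare_neg_one_iff.mpr h4
  exact ⟨i, hi.symm⟩

theorem i_pow_one {i : F} (hi : i * i = -1) (h1 : q % 4 = 1) : i ^ q = i := by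
  obtain ⟨m, rfl⟩ : ∃ m, q = 4 * m + 1 := ⟨q / 4, by omega⟩
  have h4 : i ^ 4 = 1 := by
    have : i ^ 4 = (i * i) * (i * i) := by ring
    rw [this, hi]; norm_num
  rw [pow_succ, pow_mul, h4, one_pow, one_mul]

theorem i_pow_three {i : F} (hi : i * i = -1) (h1 : q % 4 = 3) : i ^ q = -i := by
  obtain ⟨m, rfl⟩ : ∃ m, q = 4 * m + 3 := ⟨q / 4, by omega⟩
  have h4 : i ^ 4 = 1 := by
    have : i ^ 4 = (i * i) * (i * i) := by ring
    rw [this, hi]; norm_num
  rw [pow_add, pow_mul, h4, one_pow, one_mul]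
  have : i ^ 3 = (i * i) * i := by ring
  rw [this, hi]; ring

theorem exists_norm_half (hF : Fintype.card F = q ^ 2) (hodd : q % 2 = 1) : ∃ κ : F, κ * κ ^ q = 2⁻¹ := by
  have h2 := two_ne (q := q) hF hodd
  obtain ⟨κ, -, hκ⟩ := exists_norm_eq hF (μ := (2 : F)⁻¹) (inv_ne_zero h2) (by rw [inv_pow, two_pow_q hF])
  refine ⟨κ, ?_⟩
  rw [← hκ, pow_succ']

/-- The split case. -/
theorem split_case (hF : Fintype.card F = q ^ 2) (h3 : q % 4 = 3) (S : Sylow 2 (Cfsg.PSU 3 F q)) :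
    (Cfsg.groupFusionSystem (S : Subgroup (Cfsg.PSU 3 F q))).IsSimple 2 := by
  have hodd : q % 2 = 1 := by omega
  have h2 := two_ne (q := q) hF hodd
  have hq0 : q ≠ 0 := by omega
  obtain ⟨i, hi⟩ := exists_i hF hodd
  have hiq := i_pow_three hi h3
  obtain ⟨κ, hκ⟩ := exists_norm_half hF hodd
  have hκ2 : κ * κ ^ q + κ * κ ^ q = 1 := by
    rw [hκ]
    field_simp
    norm_num
  have hm1 := neg_one_pow_q hF
  let J : GU2 F q := mkU hF !![i, 0; 0, -i] ((uc2 _ _ _ _).mpr (by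
    have h4 : i * -i = 1 := by linear_combination -hi
    simp [zero_pow hq0, hiq, neg_pow_q hF, hi, h4]))
  let t : GU2 F q := mkU hF !![0, 1; 1, 0] ((uc2 _ _ _ _).mpr (by simp [zero_pow hq0]))
  let t₀ : GU2 F q := mkU hF !![1, 0; 0, -1] ((uc2 _ _ _ _).mpr (by simp [zero_pow hq0, hm1]))
  let r₀ : GU2 F q := mkU hF !![κ, κ; κ, -κ] ((uc2 _ _ _ _).mpr (by
    refine ⟨hκ2, ?_, ?_, ?_⟩
    · rw [neg_pow_q hF]; ring
    · ring
    · rw [neg_pow_q hF]; linear_combination hκ2))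
  refine (lvlU hF h2).split J t hi rfl rfl ?_ t₀ r₀ rfl ?_ S
  · intro x a b hx
    have hx' : ((x.1 : GL (Fin 2) F) : Matrix (Fin 2) (Fin 2) F) = !![a, 0; 0, b] := hx
    have hU := uc_of_GU2 hF x
    rw [hx', uc2] at hU
    obtain ⟨h1, -, -, -⟩ := hU
    rw [zero_pow hq0, mul_zero, add_zero] at h1
    exact ⟨mkU hF !![a, 0; 0, 1] ((uc2 _ _ _ _).mpr (by simp [zero_pow hq0, h1])), rfl⟩
  · rw [mul_inv_eq_iff_eq_mul]
    apply Subtype.ext
    apply Units.ext
    show !![κ, κ; κ, -κ] * !![1, 0; 0, -1] = !![0, 1; 1, 0] * !![κ, κ; κ, -κ]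
    ext k j
    fin_cases k <;> fin_cases j <;> simp [Matrix.mul_apply, Fin.sum_univ_succ]

theorem uc_rJ (hF : Fintype.card F = q ^ 2) (h2 : (2 : F) ≠ 0) {i a b : F} (hi : i * i = -1) (hiq : i ^ q = i)
    (haq : a ^ q = -a) (hbq : b ^ q = -b) (hn : a * a + b * b = -1) (hb : b ≠ 0) :
    ∃ e : F, e ≠ 0 ∧ UC q !![a / 2, -(2 + i * a) / 2; b * (1 + e) / (2 * e), -(a * b) / (2 * e)] ∧ e = 1 - i * a := by
  set e := 1 - i * a with he
  set e' := 1 + i * a with he'
  have hee : e * e' = 1 + a * a := by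
    rw [he, he']
    linear_combination (-a * a) * hi
  have hsum : e + e' = 2 := by rw [he, he']; ring
  have hbb : b * b = -(e * e') := by rw [hee]; linear_combination hn
  have hbb0 : b * b ≠ 0 := mul_ne_zero hb hb
  have he0 : e ≠ 0 := by
    intro h
    apply hbb0
    rw [hbb, h]
    ring
  have he'0 : e' ≠ 0 := by
    intro h
    apply hbb0
    rw [hbb, h]
    ring
  have heq : e ^ q = e' := by
    rw [he, he', sub_pow_q hF, one_pow, mul_pow, hiq, haq]
    ring
  have heq' : e' ^ q = e := by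
    rw [he, he', add_pow_q hF, one_pow, mul_pow, hiq, haq]
    ring
  have h2q := two_pow_q hF
  have h2e : (2 + i * a) = 1 + e' := by rw [he']; ring
  have h00q : (a / 2) ^ q = -a / 2 := by rw [div_pow, haq, h2q]
  have h01q : (-(2 + i * a) / 2) ^ q = -(1 + e) / 2 := by
    rw [h2e, div_pow, neg_pow_q hF, add_pow_q hF, one_pow, heq', h2q]
  have h10q : (b * (1 + e) / (2 * e)) ^ q = -b * (1 + e') / (2 * e') := by
    rw [div_pow, mul_pow, mul_pow, add_pow_q hF, one_pow, heq, hbq, h2q]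
  have h11q : (-(a * b) / (2 * e)) ^ q = -(a * b) / (2 * e') := by
    rw [div_pow, neg_pow_q hF, mul_pow, mul_pow, haq, hbq, h2q, heq]
    ring
  refine ⟨e, he0, (uc2 _ _ _ _).mpr ?_, rfl⟩
  rw [h00q, h01q, h10q, h11q, h2e]
  refine ⟨?_, ?_, ?_, ?_⟩
  · field_simp
    linear_combination -(1 + e) * (1 + e') * hbb + e * e' * (hsum + hee)
  · field_simp
    linear_combination -a * (1 + e) * hbb
  · field_simp
    linear_combination (1 + e') * a * hbb
  · field_simp
    linear_combination a ^ 2 * hbb + e * e' * (hsum + hee)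

theorem exists_kappa_U (hF : Fintype.card F = q ^ 2) (h1 : q % 4 = 1) {i : F} (hi : i * i = -1) (hiq : i ^ q = i) :
    ∃ κ : F, κ * κ ^ q = 2⁻¹ ∧ (2 * κ * κ = 1 ∨ 2 * κ * κ = -1) := by
  classical
  have hodd : q % 2 = 1 := by omega
  have h2 := two_ne (q := q) hF hodd
  have hrc : ringChar F ≠ 2 := fun h => h2 (by
    have : CharP F 2 := by rw [← h]; exact ringChar.charP F
    exact CharTwo.two_eq_zero)
  have hinv0 : (2 : F)⁻¹ ≠ 0 := inv_ne_zero h2
  have hs : IsSquare ((2 : F)⁻¹) := by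
    rw [FiniteField.isSquare_iff hrc hinv0, hF]
    obtain ⟨m, rfl⟩ : ∃ m, q = 2 * m + 1 := ⟨q / 2, by omega⟩
    have h3 : (2 * m + 1) ^ 2 / 2 = 2 * m * (m + 1) := by
      have : (2 * m + 1) ^ 2 = 2 * (2 * m * (m + 1)) + 1 := by ring
      omega
    rw [h3, pow_mul]
    have h4 : ((2 : F)⁻¹) ^ (2 * m) = 1 := by
      have h5 : ((2 : F)⁻¹) ^ (2 * m + 1) = (2 : F)⁻¹ := by
        rw [inv_pow, two_pow_q hF]
      rw [pow_succ] at h5
      exact mul_right_cancel₀ hinv0 (by rw [h5, one_mul])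
    rw [h4, one_pow]
  obtain ⟨α, hα⟩ := hs
  have hαq : α ^ q * α ^ q = α * α := by
    rw [← mul_pow, ← hα, inv_pow, two_pow_q hF]
  rcases mul_self_eq_mul_self_iff.mp hαq with h | h
  · refine ⟨α, ?_, Or.inl ?_⟩
    · rw [h, ← hα]
    · rw [mul_assoc, ← hα]
      field_simp
  · refine ⟨i * α, ?_, Or.inr ?_⟩
    · rw [mul_pow, hiq, h, hα]
      linear_combination (-α * α) * hi
    · have : 2 * (i * α) * (i * α) = 2 * (i * i) * (α * α) := by ring
      rw [this, hi, ← hα]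
      field_simp

/-- The non-split case. -/
theorem nonsplit_case (hF : Fintype.card F = q ^ 2) (h1 : q % 4 = 1) (S : Sylow 2 (Cfsg.PSU 3 F q)) :
    (Cfsg.groupFusionSystem (S : Subgroup (Cfsg.PSU 3 F q))).IsSimple 2 := by
  have hodd : q % 2 = 1 := by omega
  have h2 := two_ne (q := q) hF hodd
  have hq0 : q ≠ 0 := by omega
  obtain ⟨i, hi⟩ := exists_i hF hodd
  have hiq := i_pow_one hi h1
  obtain ⟨κ, hκ, hκ'⟩ := exists_kappa_U hF h1 hi hiq
  have hκ2 : κ * κ ^ q + κ * κ ^ q = 1 := by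
    rw [hκ]
    field_simp
    norm_num
  have hm1 := neg_one_pow_q hF
  let J : GU2 F q := mkU hF !![0, -1; 1, 0] ((uc2 _ _ _ _).mpr (by simp [zero_pow hq0, hm1]))
  let t : GU2 F q := mkU hF !![1, 0; 0, -1] ((uc2 _ _ _ _).mpr (by simp [zero_pow hq0, hm1]))
  have hJm : ((J.1 : GL (Fin 2) F) : Matrix (Fin 2) (Fin 2) F) = !![0, -1; 1, 0] := rfl
  have htm : ((t.1 : GL (Fin 2) F) : Matrix (Fin 2) (Fin 2) F) = !![1, 0; 0, -1] := rfl
  have hdata : ∀ x ∈ ((lvlU hF h2).nsData J t rfl rfl).Q1, ∃ a b : F,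
      ((x.1 : GL (Fin 2) F) : Matrix (Fin 2) (Fin 2) F) = !![a, -b; b, a] := by
    intro x hx
    obtain ⟨a, b, hab⟩ := ((lvlU hF h2).nsData J t rfl rfl).exists_form hx.1
    refine ⟨a, b, ?_⟩
    have hab' : ((x.1 : GL (Fin 2) F) : Matrix (Fin 2) (Fin 2) F) = a • 1 + b • !![0, -1; 1, 0] := hab
    rw [hab']
    ext k j
    fin_cases k <;> fin_cases j <;> simp
  refine (lvlU hF h2).nonsplit J t rfl rfl hκ' (c₀ := mkU hF !![κ, -κ; κ, κ] ((uc2 _ _ _ _).mpr (by
    refine ⟨hκ2, ?_, ?_, ?_⟩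
    · rw [neg_pow_q hF]; ring
    · ring
    · rw [neg_pow_q hF]; linear_combination hκ2))) rfl ?_ ?_ ?_ S
  · -- Hilbert 90
    intro x hx hxx
    obtain ⟨a, b, hab⟩ := hdata x hx
    have hU := uc_of_GU2 hF x
    rw [hab, uc2] at hU
    obtain ⟨h3, h4, -, -⟩ := hU
    rw [neg_pow_q hF] at h4
    have hxxm : ((x.1 : GL (Fin 2) F) : Matrix (Fin 2) (Fin 2) F) * ((t.1 : GL (Fin 2) F) : Matrix (Fin 2) (Fin 2) F) *
        (((x.1 : GL (Fin 2) F) : Matrix (Fin 2) (Fin 2) F) * ((t.1 : GL (Fin 2) F) : Matrix (Fin 2) (Fin 2) F)) = 1 :=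
      congrArg (fun g : GU2 F q => ((g.1 : GL (Fin 2) F) : Matrix (Fin 2) (Fin 2) F)) hxx
    rw [hab, htm] at hxxm
    have hn : a * a + b * b = 1 := by
      have h5 := congrFun (congrFun hxxm 0) 0
      simpa [Matrix.mul_apply, Fin.sum_univ_succ] using h5
    have haq : a ^ q = a := by linear_combination -a ^ q * hn + a * h3 + b * h4
    have hbq : b ^ q = b := by linear_combination -b ^ q * hn + b * h3 - a * h4
    by_cases ha : a = -1
    · subst ha
      have hb : b = 0 := by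
        have : b * b = 0 := by linear_combination hn
        simpa using this
      subst hb
      refine ⟨J, ?_⟩
      rw [mul_inv_eq_iff_eq_mul]
      apply Subtype.ext
      apply Units.ext
      show ((J.1 : GL (Fin 2) F) : Matrix (Fin 2) (Fin 2) F) * ((t.1 : GL (Fin 2) F) : Matrix (Fin 2) (Fin 2) F) =
        ((x.1 : GL (Fin 2) F) : Matrix (Fin 2) (Fin 2) F) * ((t.1 : GL (Fin 2) F) : Matrix (Fin 2) (Fin 2) F) *
          ((J.1 : GL (Fin 2) F) : Matrix (Fin 2) (Fin 2) F)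
      rw [hab, htm, hJm]
      ext k j
      fin_cases k <;> fin_cases j <;> simp [Matrix.mul_apply, Fin.sum_univ_succ]
    · have hμ : 2 * (1 + a) ≠ 0 := by
        refine mul_ne_zero h2 fun h => ha ?_
        linear_combination h
      obtain ⟨ρ, -, hρ⟩ := exists_norm_eq hF (μ := (2 * (1 + a))⁻¹) (inv_ne_zero hμ) (by
        rw [inv_pow, mul_pow, add_pow_q hF, one_pow, haq, two_pow_q hF])
      have hρ' : ρ * ρ ^ q * (2 * (1 + a)) = 1 := by
        rw [← pow_succ', hρ]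
        exact inv_mul_cancel₀ hμ
      have hrU : UC q !![ρ * (1 + a), -(ρ * b); ρ * b, ρ * (1 + a)] := by
        rw [uc2]
        have h5 : (ρ * (1 + a)) ^ q = ρ ^ q * (1 + a) := by
          rw [mul_pow, add_pow_q hF, one_pow, haq]
        have h6 : (ρ * b) ^ q = ρ ^ q * b := by rw [mul_pow, hbq]
        rw [neg_pow_q hF, h5, h6]
        refine ⟨?_, by ring, by ring, ?_⟩
        · linear_combination hρ' + ρ * ρ ^ q * hn
        · linear_combination hρ' + ρ * ρ ^ q * hn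
      refine ⟨mkU hF _ hrU, ?_⟩
      rw [mul_inv_eq_iff_eq_mul]
      apply Subtype.ext
      apply Units.ext
      show !![ρ * (1 + a), -(ρ * b); ρ * b, ρ * (1 + a)] * ((t.1 : GL (Fin 2) F) : Matrix (Fin 2) (Fin 2) F) =
        ((x.1 : GL (Fin 2) F) : Matrix (Fin 2) (Fin 2) F) * ((t.1 : GL (Fin 2) F) : Matrix (Fin 2) (Fin 2) F) *
          !![ρ * (1 + a), -(ρ * b); ρ * b, ρ * (1 + a)]
      rw [hab, htm]
      ext k j
      fin_cases k <;> fin_cases j <;> simp [Matrix.mul_apply, Fin.sum_univ_succ]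
      · linear_combination -ρ * hn
      · ring
      · ring
      · linear_combination ρ * hn
  · -- elements with square `-1`
    intro x hx hxx
    obtain ⟨a, b, hab⟩ := hdata x hx
    have hU := uc_of_GU2 hF x
    rw [hab, uc2] at hU
    obtain ⟨h3, h4, -, -⟩ := hU
    rw [neg_pow_q hF] at h4
    have hxxm : ((x.1 : GL (Fin 2) F) : Matrix (Fin 2) (Fin 2) F) * ((t.1 : GL (Fin 2) F) : Matrix (Fin 2) (Fin 2) F) *
        (((x.1 : GL (Fin 2) F) : Matrix (Fin 2) (Fin 2) F) * ((t.1 : GL (Fin 2) F) : Matrix (Fin 2) (Fin 2) F)) = -1 := hxx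
    rw [hab, htm] at hxxm
    have hn : a * a + b * b = -1 := by
      have h5 := congrFun (congrFun hxxm 0) 0
      simpa [Matrix.mul_apply, Fin.sum_univ_succ] using h5
    have haq : a ^ q = -a := by linear_combination a ^ q * hn - a * h3 - b * h4
    have hbq : b ^ q = -b := by linear_combination b ^ q * hn - b * h3 + a * h4
    have hb : b ≠ 0 := by
      rintro rfl
      have h5 : (a - i) * (a + i) = 0 := by linear_combination hn - hi
      have h6 : a = 0 := by
        rcases mul_eq_zero.mp h5 with h | h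
        · have h7 : a = i := by linear_combination h
          have h8 : 2 * a = 0 := by
            have := haq
            rw [h7, hiq] at this
            rw [h7]
            linear_combination this
          exact (mul_eq_zero.mp h8).resolve_left h2
        · have h7 : a = -i := by linear_combination h
          have h8 : 2 * a = 0 := by
            have := haq
            rw [h7, neg_pow_q hF, hiq] at this
            rw [h7]
            linear_combination this
          exact (mul_eq_zero.mp h8).resolve_left h2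
      subst h6
      apply h2
      have : (1 : F) = 0 := by linear_combination hn
      rw [show (2 : F) = 1 + 1 by norm_num, this]
      simp
    obtain ⟨e, he0, hrU, he⟩ := uc_rJ hF h2 hi hiq haq hbq hn hb
    refine ⟨mkU hF _ hrU, ?_⟩
    rw [mul_inv_eq_iff_eq_mul]
    apply Subtype.ext
    apply Units.ext
    show !![a / 2, -(2 + i * a) / 2; b * (1 + e) / (2 * e), -(a * b) / (2 * e)] * ((J.1 : GL (Fin 2) F) : Matrix (Fin 2) (Fin 2) F) =
        ((x.1 : GL (Fin 2) F) : Matrix (Fin 2) (Fin 2) F) * ((t.1 : GL (Fin 2) F) : Matrix (Fin 2) (Fin 2) F) *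
          !![a / 2, -(2 + i * a) / 2; b * (1 + e) / (2 * e), -(a * b) / (2 * e)]
    rw [hab, htm, hJm]
    have hee : e * (1 + i * a) = 1 + a * a := by
      rw [he]
      linear_combination (-a * a) * hi
    have hbb : b * b = -(e * (1 + i * a)) := by rw [hee]; linear_combination hn
    have hsum : e = 1 - i * a := he
    ext k j
    fin_cases k <;> fin_cases j <;> simp [Matrix.mul_apply, Fin.sum_univ_succ] <;> field_simp
    · linear_combination -(1 + e) * hbb + e * hee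
    · linear_combination a * hbb
    · ring
    · linear_combination hee
  · -- the `2`-part of the field
    rintro n ⟨k, hk⟩ ⟨w, hw⟩
    have hU := uc_of_GU2 hF w
    have hw' : ((w.1 : GL (Fin 2) F) : Matrix (Fin 2) (Fin 2) F) = n • 1 := hw
    have h00 := hU 0 0
    rw [hw'] at h00
    simp [Fin.sum_univ_two, zero_pow hq0] at h00
    obtain ⟨m, rfl⟩ : ∃ m, q = 4 * m + 1 := ⟨q / 4, by omega⟩
    have h5 : (n * n) ^ (2 * m + 1) = 1 := by
      rw [← h00, ← pow_two, ← pow_mul, ← pow_succ']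
      congr 1
      ring
    have h6 : (n * n) ^ 2 ^ k = 1 := by
      rw [← pow_two, ← pow_mul, mul_comm, pow_mul, hk, one_pow]
    have hc : Nat.Coprime (2 * m + 1) (2 ^ k) := by
      apply Nat.Coprime.pow_right
      simp
    have := (pow_gcd_eq_one (a := n * n)).mpr ⟨h5, h6⟩
    rwa [Nat.Coprime.gcd_eq_one hc, pow_one] at this

/-- The theorem. -/
theorem main (hF : Fintype.card F = q ^ 2) (hodd : q % 2 = 1) (S : Sylow 2 (Cfsg.PSU 3 F q)) :
    (Cfsg.groupFusionSystem (S : Subgroup (Cfsg.PSU 3 F q))).IsSimple 2 := by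
  have h : q % 4 = 1 ∨ q % 4 = 3 := by omega
  rcases h with h | h
  · exact nonsplit_case hF h S
  · exact split_case hF h S

end cases

end Cfsg.Agent.Lib.U3Fus
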