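import Mathlib
import Cfsg.Agent.S4757
import Cfsg.Agent.Lib.CharKernel
import Cfsg.Agent.Lib.RealChars
import Cfsg.Agent.Lib.DetChar

/-!
# Elements with `χ(1) - χ(u) = 4` or `χ(u) = 0`: numerics

The hypothesis, passage along surjections, parity of `|C(u)|`, no degree two,
the Newton identity in degree three.
-/

set_option autoImplicit false
set_option linter.unusedSectionVars false
set_option linter.style.haveILetI false

namespace Cfsg.Agent.Lib.UFour9

open Cfsg Cfsg.Agent.Lib.CharBasic Cfsg.Agent.Lib.CharInd Cfsg.Agent.Lib.CharKernel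
open Cfsg.Agent.S4757 (chi0 sum_deg_mul no_linear mul_conj_linear)
open scoped ComplexConjugate

variable {G : Type*} [Group G] [Finite G]

/-- The hypothesis. -/
def Hyp (u : G) : Prop :=
  ∀ χ : IrrCharacter G, (χ : G → ℂ) ≠ (fun _ => (1 : ℂ)) →
    ((χ : G → ℂ) 1 - (χ : G → ℂ) u = 4 ∨ (χ : G → ℂ) u = 0)

theorem Hyp.of_surj {X : Type*} [Group X] [Finite X] {u : G} (h : Hyp u) (π : G →* X)
    (hπ : Function.Surjective π) : Hyp (π u) := by
  intro ψ hψ
  have hirr : IsIrrCharacter G ((ψ : X → ℂ) ∘ π) := isIrrCharacter_comp_of_surjective π hπ ψ.2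
  have hne : ((ψ : X → ℂ) ∘ π) ≠ fun _ => (1 : ℂ) := by
    intro e
    apply hψ
    funext x
    obtain ⟨g, rfl⟩ := hπ x
    exact congrFun e g
  have := h ⟨_, hirr⟩ hne
  simpa using this

theorem Hyp.perfect {u : G} (h : Hyp u) (hu : u ≠ 1) : commutator G = ⊤ := by
  have h1 := (Cfsg.Agent.S4757.result u hu 4 h).2
  by_contra hne
  have := h1.mp hne
  norm_num at this

/-- the trivial character -/
theorem chi0_val (g : G) : ((chi0 G : IrrCharacter G) : G → ℂ) g = 1 := rfl

theorem ne_chi0_iff {χ : IrrCharacter G} : χ ≠ chi0 G ↔ (χ : G → ℂ) ≠ (fun _ => (1 : ℂ)) := by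
  constructor
  · intro h e
    exact h (Subtype.ext e)
  · intro h e
    exact h (by rw [e]; rfl)

/-- integer value of a character at `u` -/
noncomputable def tv (u : G) (χ : IrrCharacter G) : ℤ := by
  classical
  exact if χ = chi0 G then 1 else if (χ : G → ℂ) u = 0 then 0 else (charDegree (χ : G → ℂ) : ℤ) - 4

/-- degree as an integer -/
noncomputable def dg (χ : IrrCharacter G) : ℤ := charDegree (χ : G → ℂ)

theorem deg_val (χ : IrrCharacter G) : (χ : G → ℂ) 1 = (dg χ : ℂ) := by
  rw [one_eq_charDegree (IsIrrCharacter.isCharacter χ.2)]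
  simp [dg]

theorem dg_pos (χ : IrrCharacter G) : 0 < dg χ := by
  have := charDegree_pos χ.2
  simp only [dg]
  exact_mod_cast this

theorem tv_chi0 (u : G) : tv u (chi0 G) = 1 := by
  simp [tv]

theorem tv_spec {u : G} (h : Hyp u) (χ : IrrCharacter G) : (χ : G → ℂ) u = (tv u χ : ℂ) := by
  classical
  unfold tv
  by_cases h0 : χ = chi0 G
  · subst h0
    simp [chi0]
  · rw [if_neg h0]
    by_cases h1 : (χ : G → ℂ) u = 0
    · rw [if_pos h1, h1]; simp
    · rw [if_neg h1]
      rcases h χ (ne_chi0_iff.mp h0) with h2 | h2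
      · rw [one_eq_charDegree (IsIrrCharacter.isCharacter χ.2)] at h2
        push_cast
        linear_combination -h2
      · exact absurd h2 h1

theorem tv_cases {u : G} (χ : IrrCharacter G) (h0 : χ ≠ chi0 G) :
    tv u χ = 0 ∨ tv u χ = dg χ - 4 := by
  classical
  unfold tv
  rw [if_neg h0]
  by_cases h1 : (χ : G → ℂ) u = 0
  · left; rw [if_pos h1]
  · right; rw [if_neg h1]; rfl

/-- `d t = t^2 + 4 t` -/
theorem dg_tv {u : G} (χ : IrrCharacter G) (h0 : χ ≠ chi0 G) :
    dg χ * tv u χ = tv u χ ^ 2 + 4 * tv u χ := by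
  rcases tv_cases (u := u) χ h0 with h | h
  · rw [h]; ring
  · rw [h]; ring

theorem sum_dg_tv {u : G} (h : Hyp u) (hu : u ≠ 1) : ∑ χ : IrrCharacter G, dg χ * tv u χ = 0 := by
  classical
  have h1 := sum_deg_mul u hu
  have h2 : ∑ χ : IrrCharacter G, (χ : G → ℂ) 1 * (χ : G → ℂ) u =
      ((∑ χ : IrrCharacter G, dg χ * tv u χ : ℤ) : ℂ) := by
    push_cast
    refine Finset.sum_congr rfl fun χ _ => ?_
    rw [deg_val, tv_spec h]
  rw [h2] at h1
  exact_mod_cast h1

theorem sum_tv_sq {u : G} (h : Hyp u) :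
    ∑ χ : IrrCharacter G, tv u χ ^ 2 = Nat.card (Subgroup.centralizer ({u} : Set G)) := by
  classical
  haveI := Fintype.ofFinite G
  have h1 := sum_irr_mul_conj u u
  rw [if_pos (IsConj.refl _)] at h1
  have h2 : ∑ χ : IrrCharacter G, (χ : G → ℂ) u * conj ((χ : G → ℂ) u) =
      ((∑ χ : IrrCharacter G, tv u χ ^ 2 : ℤ) : ℂ) := by
    push_cast
    refine Finset.sum_congr rfl fun χ _ => ?_
    rw [tv_spec h]
    simp [sq]
  rw [h2] at h1
  exact_mod_cast h1

/-- Parity. -/
theorem card_centralizer_eq {u : G} (h : Hyp u) (hu : u ≠ 1) :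
    ∃ s : ℤ, Odd s ∧ (Nat.card (Subgroup.centralizer ({u} : Set G)) : ℤ) = -4 * s := by
  classical
  have hmem : chi0 G ∈ (Finset.univ : Finset (IrrCharacter G)) := Finset.mem_univ _
  set S := (Finset.univ : Finset (IrrCharacter G)).erase (chi0 G) with hS
  have h1 := sum_dg_tv h hu
  have h2 := sum_tv_sq h
  rw [← Finset.add_sum_erase _ _ hmem] at h1 h2
  rw [tv_chi0] at h1 h2
  have hd0 : dg (chi0 G) = 1 := by
    have := deg_val (chi0 G)
    rw [chi0_val] at this
    exact_mod_cast this.symm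
  rw [hd0] at h1
  have h3 : ∑ χ ∈ S, dg χ * tv u χ = ∑ χ ∈ S, tv u χ ^ 2 + 4 * ∑ χ ∈ S, tv u χ := by
    rw [Finset.mul_sum, ← Finset.sum_add_distrib]
    exact Finset.sum_congr rfl fun χ hχ => dg_tv χ (Finset.ne_of_mem_erase hχ)
  refine ⟨∑ χ ∈ S, tv u χ, ?_, ?_⟩
  · have h4 : Even (∑ χ ∈ S, (tv u χ ^ 2 + tv u χ)) := by
      apply Finset.even_sum
      intro χ _
      have h10 : tv u χ ^ 2 + tv u χ = tv u χ * (tv u χ + 1) := by ring
      rw [h10]
      exact Int.even_mul_succ_self (tv u χ)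
    rw [Finset.sum_add_distrib] at h4
    -- `1 + sum squares + 4 s = 0`
    have h5 : ∑ χ ∈ S, tv u χ ^ 2 = -1 - 4 * ∑ χ ∈ S, tv u χ := by
      rw [h3] at h1; linarith
    rw [h5] at h4
    by_contra hn
    rw [Int.not_odd_iff_even] at hn
    have h6 : Even (-1 - 4 * ∑ χ ∈ S, tv u χ) := by
      have := h4.sub hn
      simpa using this
    have h7 : Even (4 * ∑ χ ∈ S, tv u χ) := Even.mul_right (by decide) _
    have h8 := h6.add h7
    have : (-1 - 4 * ∑ χ ∈ S, tv u χ + 4 * ∑ χ ∈ S, tv u χ) = -1 := by ring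
    rw [this] at h8
    exact absurd h8 (by decide)
  · rw [h3] at h1
    have h9 : (Nat.card (Subgroup.centralizer ({u} : Set G)) : ℤ) = 1 ^ 2 + ∑ χ ∈ S, tv u χ ^ 2 := h2.symm
    rw [h9]
    linarith

/-- A character at which `u` lies in the kernel is a multiple of the principal character. -/
theorem eq_const_of_value {u : G} (h : Hyp u) {Θ : G → ℂ} (hΘ : IsCharacter G Θ)
    (hv : Θ u = Θ 1) : ∃ m : ℕ, Θ = fun _ => (m : ℂ) := by
  classical
  obtain ⟨m, hm⟩ := exists_nat_decomp hΘ
  have hzero : ∀ χ : IrrCharacter G, χ ≠ chi0 G → m χ = 0 := by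
    by_contra hne
    push Not at hne
    obtain ⟨χ₀, h0, hm0⟩ := hne
    have key : ∀ χ : IrrCharacter G, 0 ≤ (((m χ : ℂ)) * ((χ : G → ℂ) 1 - (χ : G → ℂ) u)).re := by
      intro χ
      by_cases h1 : χ = chi0 G
      · subst h1
        simp [chi0]
      · rcases h χ (ne_chi0_iff.mp h1) with h2 | h2
        · rw [h2]
          have : ((m χ : ℂ) * 4).re = (m χ : ℝ) * 4 := by simp
          rw [this]
          positivity
        · rw [h2, sub_zero, deg_val]
          have : (((m χ : ℂ)) * ((dg χ : ℤ) : ℂ)).re = (m χ : ℝ) * (dg χ : ℝ) := by simp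
          rw [this]
          have := dg_pos χ
          have h3 : (0 : ℝ) < dg χ := by exact_mod_cast this
          positivity
    have hsum : ∑ χ : IrrCharacter G, (((m χ : ℂ)) * ((χ : G → ℂ) 1 - (χ : G → ℂ) u)) = 0 := by
      have h1 : Θ 1 = ∑ χ : IrrCharacter G, (m χ : ℂ) * (χ : G → ℂ) 1 := by
        rw [hm]; simp [Finset.sum_apply]
      have h2 : Θ u = ∑ χ : IrrCharacter G, (m χ : ℂ) * (χ : G → ℂ) u := by
        rw [hm]; simp [Finset.sum_apply]
      simp only [mul_sub, Finset.sum_sub_distrib]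
      rw [← h1, ← h2, hv, sub_self]
    have hre := congrArg Complex.re hsum
    rw [Complex.re_sum, Complex.zero_re] at hre
    have hle := (Finset.sum_eq_zero_iff_of_nonneg (fun χ _ => key χ)).mp hre χ₀ (Finset.mem_univ _)
    have hpos : 0 < (((m χ₀ : ℂ)) * ((χ₀ : G → ℂ) 1 - (χ₀ : G → ℂ) u)).re := by
      have hm1 : (0 : ℝ) < m χ₀ := by exact_mod_cast Nat.pos_of_ne_zero hm0
      rcases h χ₀ (ne_chi0_iff.mp h0) with h2 | h2
      · rw [h2]
        have : ((m χ₀ : ℂ) * 4).re = (m χ₀ : ℝ) * 4 := by simp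
        rw [this]
        positivity
      · rw [h2, sub_zero, deg_val]
        have : (((m χ₀ : ℂ)) * ((dg χ₀ : ℤ) : ℂ)).re = (m χ₀ : ℝ) * (dg χ₀ : ℝ) := by simp
        rw [this]
        have := dg_pos χ₀
        have h3 : (0 : ℝ) < dg χ₀ := by exact_mod_cast this
        positivity
    linarith
  refine ⟨m (chi0 G), ?_⟩
  rw [hm]
  funext g
  simp only [Finset.sum_apply, Pi.smul_apply]
  rw [Finset.sum_eq_single (chi0 G)]
  · simp [chi0]
  · intro χ _ hχ
    rw [hzero χ hχ]
    simp
  · intro hc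
    exact absurd (Finset.mem_univ _) hc

/-- There is no irreducible character of degree two not vanishing at `u`. -/
theorem no_deg_two {u : G} (h : Hyp u) {χ : IrrCharacter G} (hd : (χ : G → ℂ) 1 = 2)
    (hu : (χ : G → ℂ) u = -2) : False := by
  classical
  haveI := Fintype.ofFinite G
  have hc : IsCharacter G ((χ : G → ℂ) * fun g => conj ((χ : G → ℂ) g)) :=
    isCharacter_mul (IsIrrCharacter.isCharacter χ.2)
      (Cfsg.Agent.Lib.RealChars.isCharacter_conj (IsIrrCharacter.isCharacter χ.2))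
  obtain ⟨m, hm⟩ := eq_const_of_value h hc (by
    simp only [Pi.mul_apply, hd, hu]
    simp)
  have h1 : classInner (χ : G → ℂ) (χ : G → ℂ) = 1 := classInner_irr_self χ.2
  have hm4 : (m : ℂ) = 4 := by
    have := congrFun hm 1
    simp only [Pi.mul_apply, hd] at this
    rw [← this]
    rw [map_ofNat]
    norm_num
  unfold classInner at h1
  have h2 : ∀ g : G, (χ : G → ℂ) g * conj ((χ : G → ℂ) g) = 4 := by
    intro g
    have := congrFun hm g
    simp only [Pi.mul_apply] at this
    rw [this, hm4]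
  simp only [h2, Finset.sum_const, Finset.card_univ, nsmul_eq_mul] at h1
  have h3 : (Nat.card G : ℂ) ≠ 0 := natCard_ne_zero'
  rw [Nat.card_eq_fintype_card] at h3 h1
  field_simp at h1
  norm_num at h1

/-- A subset of the irreducible characters containing the principal one and with vanishing sum
contains a character of degree three with value `-1`. -/
theorem exists_deg_three {u : G} (h : Hyp u) (hu : u ≠ 1) (S : Finset (IrrCharacter G))
    (h0 : chi0 G ∈ S) (hs : ∑ χ ∈ S, dg χ * tv u χ = 0) :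
    ∃ χ ∈ S, (χ : G → ℂ) 1 = 3 ∧ (χ : G → ℂ) u = -1 := by
  classical
  have hperf := h.perfect hu
  rw [← Finset.add_sum_erase _ _ h0, tv_chi0] at hs
  have hd0 : dg (chi0 G) = 1 := by
    have := deg_val (chi0 G)
    rw [chi0_val] at this
    exact_mod_cast this.symm
  rw [hd0] at hs
  have hneg : ∃ χ ∈ S.erase (chi0 G), dg χ * tv u χ < 0 := by
    by_contra hno
    push Not at hno
    have := Finset.sum_nonneg hno
    linarith
  obtain ⟨χ, hχ, hlt⟩ := hneg
  have hne : χ ≠ chi0 G := Finset.ne_of_mem_erase hχ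
  refine ⟨χ, Finset.mem_of_mem_erase hχ, ?_⟩
  have hdpos := dg_pos χ
  rcases tv_cases (u := u) χ hne with h1 | h1
  · rw [h1] at hlt; simp at hlt
  · have h2 : dg χ < 4 := by
      rw [h1] at hlt
      by_contra hge
      push Not at hge
      have : 0 ≤ dg χ * (dg χ - 4) := mul_nonneg hdpos.le (by linarith)
      linarith
    have hval := tv_spec h χ
    rw [h1] at hval
    have hcases : dg χ = 1 ∨ dg χ = 2 ∨ dg χ = 3 := by omega
    rcases hcases with h3 | h3 | h3
    · exfalso
      have h4 : (χ : G → ℂ) 1 = 1 := by rw [deg_val, h3]; simp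
      exact hne (no_linear hperf h4)
    · exfalso
      refine no_deg_two h (χ := χ) ?_ ?_
      · rw [deg_val, h3]; norm_num
      · rw [hval, h3]; norm_num
    · constructor
      · rw [deg_val, h3]; norm_num
      · rw [hval, h3]; norm_num

/-- Newton's identity in degree three for a perfect group. -/
theorem newton_three (hperf : commutator G = ⊤) {χ : G → ℂ} (hχ : IsCharacter G χ)
    (h3 : χ 1 = 3) (g : G) : χ (g * g) = χ g ^ 2 - 2 * χ g⁻¹ := by
  classical
  obtain ⟨n, ρ, rfl⟩ := hχ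
  have hn : n = 3 := by
    have := char_one_eq_rep ρ
    rw [h3] at this
    exact_mod_cast this.symm
  subst hn
  -- determinant one
  have hdet : ∀ x : G, LinearMap.det (ρ x) = 1 := by
    intro x
    have h1 : (Cfsg.Agent.Lib.DetChar.detHom ρ) x = 1 := by
      have hk : commutator G ≤ (Cfsg.Agent.Lib.DetChar.detHom ρ).ker := by
        rw [commutator_def, Subgroup.commutator_le]
        intro a _ b _
        rw [MonoidHom.mem_ker, map_commutatorElement, commutatorElement_eq_one_iff_commute.mpr]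
        exact Commute.all _ _
      have : x ∈ (Cfsg.Agent.Lib.DetChar.detHom ρ).ker := hk (by rw [hperf]; trivial)
      exact this
    have h2 := Cfsg.Agent.Lib.DetChar.detHom_val ρ x
    rw [h1] at h2
    simpa using h2.symm
  let A : G → Matrix (Fin 3) (Fin 3) ℂ := fun x => LinearMap.toMatrix' (ρ x)
  have hA : ∀ x, LinearMap.trace ℂ _ (ρ x) = Matrix.trace (A x) := by
    intro x
    rw [LinearMap.trace_eq_matrix_trace ℂ (Pi.basisFun ℂ (Fin 3))]
    rfl
  have hmul : ∀ x y, A (x * y) = A x * A y := by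
    intro x y
    simp only [A, map_mul]
    exact LinearMap.toMatrix'_mul _ _
  have hone : A 1 = 1 := by
    simp only [A, map_one]
    exact LinearMap.toMatrix'_one
  have hd : ∀ x, Matrix.det (A x) = 1 := by
    intro x
    simp only [A]
    rw [LinearMap.det_toMatrix']
    exact hdet x
  have hadj : A g⁻¹ = Matrix.adjugate (A g) := by
    have h1 : A g * A g⁻¹ = 1 := by rw [← hmul, mul_inv_cancel, hone]
    have h2 : Matrix.adjugate (A g) * A g = 1 := by
      rw [Matrix.adjugate_mul, hd]; simp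
    calc A g⁻¹ = (Matrix.adjugate (A g) * A g) * A g⁻¹ := by rw [h2, one_mul]
      _ = Matrix.adjugate (A g) := by rw [mul_assoc, h1, mul_one]
  have htr : Matrix.trace (A g * A g) = Matrix.trace (A g) ^ 2 - 2 * Matrix.trace (Matrix.adjugate (A g)) := by
    generalize A g = B
    simp only [Matrix.trace_fin_three, Matrix.adjugate_fin_three, Matrix.mul_apply, Fin.sum_univ_three]
    simp
    ring
  show LinearMap.trace ℂ _ (ρ (g * g)) = (LinearMap.trace ℂ _ (ρ g)) ^ 2 - 2 * LinearMap.trace ℂ _ (ρ g⁻¹)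
  rw [hA, hA, hA, hmul, htr, hadj]

theorem sq_val {u : G} (hperf : commutator G = ⊤) {χ : IrrCharacter G} (h3 : (χ : G → ℂ) 1 = 3)
    (hu : (χ : G → ℂ) u = -1) : (χ : G → ℂ) (u * u) = 3 := by
  have hc := IsIrrCharacter.isCharacter χ.2
  rw [newton_three hperf hc h3, ← char_conj_eq_inv hc, hu]
  simp
  norm_num

end Cfsg.Agent.Lib.UFour9
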