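import Mathlib
import Cfsg.Agent.Lib.UFour9
import Cfsg.Agent.Lib.MaxClassTwo2
import Cfsg.Agent.Lib.NormalKlein2
import Cfsg.Agent.Lib.ZPerfD

/-!
# Sylow 2-subgroups forced to be Klein four groups

If `X` is perfect, `u` an involution and `|C(u)| = 4·odd`, then the Sylow 2-subgroup through `u`
has order four and all its non-identity elements are conjugate to `u`.
-/

set_option autoImplicit false
set_option linter.unusedSectionVars false
set_option linter.style.haveILetI false

namespace Cfsg.Agent.Lib.UFour9B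

section TwoGroup

variable {A : Type*} [Group A] [Finite A]

/-- The bound on a class inside a coset of the derived subgroup. -/
theorem class_fills (a : A) (hcent : Nat.card (Subgroup.centralizer ({a} : Set A)) ≤ 4)
    (hQ : 4 ≤ Nat.card (A ⧸ commutator A)) :
    Nat.card (A ⧸ commutator A) = 4 ∧ ∀ d ∈ commutator A, ∃ g : A, g * a * g⁻¹ = d * a := by
  classical
  haveI := Fintype.ofFinite A
  let f : A → A := fun g => g * a * g⁻¹ * a⁻¹
  have hfib : ∀ b ∈ (Finset.univ : Finset A).image f,
      (Finset.univ.filter fun x => f x = b).card ≤ 4 := by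
    intro b hb
    obtain ⟨g, -, rfl⟩ := Finset.mem_image.mp hb
    have hinj : (Finset.univ.filter fun x => f x = f g).card ≤
        (Finset.univ.filter fun y => y ∈ Subgroup.centralizer ({a} : Set A)).card := by
      refine Finset.card_le_card_of_injOn (fun x => g⁻¹ * x) ?_ ?_
      · intro x hx
        have hx' : f x = f g := by simpa using hx
        simp only [Finset.coe_filter, Finset.mem_univ, true_and]
        show g⁻¹ * x ∈ Subgroup.centralizer ({a} : Set A)
        rw [Subgroup.mem_centralizer_singleton_iff]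
        simp only [f] at hx'
        have h2 : x * a * x⁻¹ = g * a * g⁻¹ := mul_right_cancel hx'
        have h3 : g⁻¹ * x * a * x⁻¹ * g = a := by
          calc g⁻¹ * x * a * x⁻¹ * g = g⁻¹ * (x * a * x⁻¹) * g := by group
            _ = g⁻¹ * (g * a * g⁻¹) * g := by rw [h2]
            _ = a := by group
        calc g⁻¹ * x * a = (g⁻¹ * x * a * x⁻¹ * g) * (g⁻¹ * x) := by group
          _ = a * (g⁻¹ * x) := by rw [h3]
      · intro x _ y _ hxy
        exact mul_left_cancel hxy
    refine hinj.trans ?_
    rw [← Fintype.card_subtype, ← Nat.card_eq_fintype_card]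
    exact hcent
  have h1 := Finset.card_le_mul_card_image (f := f) (Finset.univ : Finset A) 4 hfib
  rw [Finset.card_univ, ← Nat.card_eq_fintype_card] at h1
  set D : Subgroup A := commutator A with hD
  have hcard : Nat.card A = Nat.card (A ⧸ D) * Nat.card D :=
    Subgroup.card_eq_card_quotient_mul_card_subgroup D
  have hDpos : 0 < Nat.card D := Nat.card_pos
  have hsub : (Finset.univ : Finset A).image f ⊆ Finset.univ.filter (· ∈ D) := by
    intro b hb
    obtain ⟨g, -, rfl⟩ := Finset.mem_image.mp hb
    simp only [Finset.mem_filter, Finset.mem_univ, true_and]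
    exact Subgroup.commutator_mem_commutator (Subgroup.mem_top g) (Subgroup.mem_top a)
  have hD2 : (Finset.univ.filter (· ∈ D)).card = Nat.card D := by
    rw [← Fintype.card_subtype, ← Nat.card_eq_fintype_card]
  have hle := Finset.card_le_card hsub
  rw [hD2] at hle
  have hQ4 : Nat.card (A ⧸ D) = 4 := by
    have h2 : Nat.card (A ⧸ D) * Nat.card D ≤ 4 * Nat.card D := by
      rw [← hcard]
      exact h1.trans (Nat.mul_le_mul_left 4 hle)
    have h3 := Nat.le_of_mul_le_mul_right h2 hDpos
    omega
  refine ⟨hQ4, ?_⟩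
  intro d hd
  have heq : (Finset.univ : Finset A).image f = Finset.univ.filter (· ∈ D) := by
    refine Finset.eq_of_subset_of_card_le hsub ?_
    rw [hD2]
    rw [hcard, hQ4] at h1
    omega
  have hmem : d ∈ (Finset.univ : Finset A).image f := by
    rw [heq]; simpa using hd
  obtain ⟨g, -, hg⟩ := Finset.mem_image.mp hmem
  refine ⟨g, ?_⟩
  rw [← hg]
  simp [f]

/-- Pure 2-group statement. -/
theorem two_group_key (hP : IsPGroup 2 A) (hnc : ¬ IsCyclic A) (W : Set A)
    (hconj : ∀ a ∈ W, ∀ g : A, g * a * g⁻¹ ∈ W)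
    (hcent : ∀ a ∈ W, Nat.card (Subgroup.centralizer ({a} : Set A)) ≤ 4)
    (hinv : ∀ a ∈ W, a * a = 1 ∧ a ≠ 1)
    (hmeet : ∀ M : Subgroup A, M.index = 2 → ∃ a ∈ W, a ∈ M) :
    Nat.card A = 4 ∧ ∀ a : A, a ≠ 1 → a ∈ W := by
  classical
  haveI := Fintype.ofFinite A
  haveI : Fact (Nat.Prime 2) := ⟨Nat.prime_two⟩
  set D : Subgroup A := commutator A with hD
  have hcard : Nat.card A = Nat.card (A ⧸ D) * Nat.card D :=
    Subgroup.card_eq_card_quotient_mul_card_subgroup D
  have hDpos : 0 < Nat.card D := Nat.card_pos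
  have hQnc : ¬ IsCyclic (A ⧸ D) :=
    fun h => hnc (Cfsg.Agent.Lib.MaxClassTwo2.isCyclic_of_quotient hP h)
  have hQP : IsPGroup 2 (A ⧸ D) := hP.to_quotient D
  obtain ⟨k, hk⟩ := IsPGroup.iff_card.mp hQP
  have hk2 : 2 ≤ k := by
    by_contra hlt
    have h1 : k = 0 ∨ k = 1 := by omega
    rcases h1 with rfl | rfl
    · apply hQnc
      have : Nat.card (A ⧸ D) = 1 := by simpa using hk
      have hsub := (Nat.card_eq_one_iff_unique.mp this).1
      infer_instance
    · apply hQnc
      exact isCyclic_of_prime_card (p := 2) (by simpa using hk)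
  have hQ4 : 4 ≤ Nat.card (A ⧸ D) := by
    rw [hk]
    calc 4 = 2 ^ 2 := by norm_num
      _ ≤ 2 ^ k := Nat.pow_le_pow_right (by norm_num) hk2
  -- there is a subgroup of index two
  obtain ⟨n, hn⟩ := IsPGroup.iff_card.mp hP
  have hn1 : 1 ≤ n := by
    by_contra h0
    have : n = 0 := by omega
    subst this
    have h1 : Nat.card (A ⧸ D) * Nat.card D = 1 := by rw [← hcard, hn]; norm_num
    have := Nat.eq_one_of_mul_eq_one_right h1
    omega
  obtain ⟨K, hK⟩ := Sylow.exists_subgroup_card_pow_prime (G := A) 2 (n := n - 1)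
    (by rw [hn]; exact pow_dvd_pow 2 (by omega))
  have hKidx : K.index = 2 := by
    have h1 := K.card_mul_index
    rw [hK, hn] at h1
    have h2 : (2 : ℕ) ^ n = 2 ^ (n - 1) * 2 := by
      rw [← pow_succ]; congr 1; omega
    rw [h2] at h1
    exact Nat.eq_of_mul_eq_mul_left (by positivity) h1
  obtain ⟨a₀, ha₀W, -⟩ := hmeet K hKidx
  have hQ : Nat.card (A ⧸ D) = 4 := (class_fills a₀ (hcent a₀ ha₀W) hQ4).1
  have hcoset : ∀ a ∈ W, ∀ d ∈ D, d * a ∈ W := by
    intro a ha d hd
    obtain ⟨g, hg⟩ := (class_fills a (hcent a ha) hQ4).2 d hd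
    rw [← hg]
    exact hconj a ha g
  have hnotD : ∀ a ∈ W, a ∉ D := by
    intro a ha haD
    have := hcoset a ha a⁻¹ (D.inv_mem haD)
    rw [inv_mul_cancel] at this
    exact (hinv 1 this).2 rfl
  -- the quotient has exponent two
  have hsq : ∀ q : A ⧸ D, q * q = 1 := by
    intro q
    have h1 : orderOf q ∣ 4 := by rw [← hQ]; exact orderOf_dvd_natCard q
    have h2 : orderOf q ≠ 4 := by
      intro h
      apply hQnc
      exact isCyclic_of_orderOf_eq_card q (by rw [h, hQ])
    have h3 : orderOf q ∣ 2 := by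
      have : orderOf q ∈ Nat.divisors 4 := by simp [h1]
      have h4 : Nat.divisors 4 = {1, 2, 4} := by decide
      rw [h4] at this
      simp only [Finset.mem_insert, Finset.mem_singleton] at this
      rcases this with h | h | h
      · rw [h]; norm_num
      · rw [h]
      · exact absurd h h2
    have h5 := orderOf_dvd_iff_pow_eq_one.mp h3
    rwa [sq] at h5
  have hmk : ∀ x : A, (x : A ⧸ D) = 1 ↔ x ∈ D := fun x => QuotientGroup.eq_one_iff x
  -- everything outside `D` lies in `W`
  have hall : ∀ x : A, x ∉ D → x ∈ W := by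
    intro x hx
    set q : A ⧸ D := (x : A ⧸ D) with hq
    have hq1 : q ≠ 1 := fun h => hx ((hmk x).mp h)
    have hoq : orderOf q = 2 := orderOf_eq_prime (by rw [sq]; exact hsq q) hq1
    let H : Subgroup (A ⧸ D) := Subgroup.zpowers q
    have hHcard : Nat.card H = 2 := by rw [Nat.card_zpowers, hoq]
    have hHidx : H.index = 2 := by
      have h1 := H.card_mul_index
      rw [hHcard, hQ] at h1
      omega
    let M : Subgroup A := H.comap (QuotientGroup.mk' D)
    have hMidx : M.index = 2 := by
      rw [Subgroup.index_comap_of_surjective _ (QuotientGroup.mk'_surjective D)]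
      exact hHidx
    obtain ⟨a, haW, haM⟩ := hmeet M hMidx
    have h1 : (a : A ⧸ D) ∈ H := haM
    have h2 : (a : A ⧸ D) ≠ 1 := fun h => hnotD a haW ((hmk a).mp h)
    have h3 : (a : A ⧸ D) = q := by
      obtain ⟨k, hk⟩ := Subgroup.mem_zpowers_iff.mp h1
      rcases Int.even_or_odd' k with ⟨j, rfl | rfl⟩
      · exfalso
        apply h2
        rw [← hk, zpow_mul, zpow_two, hsq]
        simp
      · rw [← hk, zpow_add, zpow_mul, zpow_two, hsq]
        simp
    have h4 : x * a⁻¹ ∈ D := by
      rw [← hmk, QuotientGroup.mk_mul, QuotientGroup.mk_inv, ← hq, h3]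
      simp
    have h5 := hcoset a haW _ h4
    simpa using h5
  have hxx : ∀ x : A, x ∉ D → x * x = 1 := fun x hx => (hinv x (hall x hx)).1
  have hxinv : ∀ x : A, x ∉ D → x⁻¹ = x := fun x hx => inv_eq_of_mul_eq_one_left (hxx x hx)
  have hoff : ∀ (x r : A), x ∉ D → r ∈ D → x * r ∉ D := by
    intro x r hx hr h
    apply hx
    have := D.mul_mem h (D.inv_mem hr)
    simpa using this
  -- `x` inverts `D`
  have hinvert : ∀ x r : A, x ∉ D → r ∈ D → x * r * x = r⁻¹ := by
    intro x r hx hr
    have h1 := hxx (x * r) (hoff x r hx hr)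
    have h2 : x * r * x * r = 1 := by rw [← h1]; group
    exact eq_inv_of_mul_eq_one_left h2
  -- pick a second coset
  have hsecond : ∀ x : A, x ∉ D → ∃ y : A, y ∉ D ∧ x * y ∉ D := by
    intro x hx
    by_contra hno
    push Not at hno
    -- every coset is `1` or `x`
    have hcov : ∀ q : A ⧸ D, q = 1 ∨ q = (x : A ⧸ D) := by
      intro q
      induction q using QuotientGroup.induction_on with
      | H y =>
        by_cases hy : y ∈ D
        · left; exact (hmk y).mpr hy
        · right
          have h1 := hno y hy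
          have h2 := (hmk (x * y)).mpr h1
          rw [QuotientGroup.mk_mul] at h2
          have h3 := hsq (x : A ⧸ D)
          calc (y : A ⧸ D) = (x : A ⧸ D) * ((x : A ⧸ D) * y) := by
                rw [← mul_assoc, h3, one_mul]
            _ = (x : A ⧸ D) := by rw [h2, mul_one]
    have hc : Nat.card (A ⧸ D) ≤ 2 := by
      haveI := Fintype.ofFinite (A ⧸ D)
      rw [Nat.card_eq_fintype_card]
      have : (Finset.univ : Finset (A ⧸ D)) ⊆ {1, (x : A ⧸ D)} := by
        intro q _
        simp only [Finset.mem_insert, Finset.mem_singleton]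
        exact hcov q
      calc Fintype.card (A ⧸ D) = (Finset.univ : Finset (A ⧸ D)).card := rfl
        _ ≤ ({1, (x : A ⧸ D)} : Finset (A ⧸ D)).card := Finset.card_le_card this
        _ ≤ 2 := Finset.card_le_two
    omega
  -- `D` has exponent two
  have hDsq : ∀ r ∈ D, (∃ x : A, x ∉ D) → r⁻¹ = r := by
    intro r hr ⟨x, hx⟩
    obtain ⟨y, hy, hxy⟩ := hsecond x hx
    have h1 := hinvert (x * y) r hxy hr
    have h2 : x * y = y * x := by
      have := hxx (x * y) hxy
      have h3 := hxinv (x * y) hxy
      rw [mul_inv_rev, hxinv x hx, hxinv y hy] at h3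
      exact h3.symm
    have h4 : x * y * r * (x * y) = x * (y * r * y) * x := by
      calc x * y * r * (x * y) = x * y * r * (y * x) := by rw [← h2]
        _ = x * (y * r * y) * x := by simp only [mul_assoc]
    rw [h4, hinvert y r hy hr, hinvert x r⁻¹ hx (D.inv_mem hr), inv_inv] at h1
    exact h1.symm
  have hex : ∃ x : A, x ∉ D := ⟨a₀, hnotD a₀ ha₀W⟩
  have hcommD : ∀ x r : A, x ∉ D → r ∈ D → x * r = r * x := by
    intro x r hx hr
    have h1 := hinvert x r hx hr
    rw [hDsq r hr hex] at h1
    calc x * r = x * r * x * x := by rw [mul_assoc (x * r), hxx x hx, mul_one]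
      _ = r * x := by rw [h1]
  have hcentral : ∀ x g : A, x ∉ D → x * g = g * x := by
    intro x g hx
    by_cases hg : g ∈ D
    · exact hcommD x g hx hg
    · by_cases hxg : x * g ∈ D
      · have h1 : g = x * (x * g) := by
          rw [← mul_assoc, hxx x hx, one_mul]
        have h2 := hcommD x (x * g) hx hxg
        calc x * g = (x * g) * (x * x) := by rw [hxx x hx, mul_one]
          _ = x * (x * g) * x := by rw [h2, mul_assoc (x * g) x x]
          _ = g * x := by rw [← h1]
      · have h1 := hxinv (x * g) hxg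
        rw [mul_inv_rev, hxinv x hx, hxinv g hg] at h1
        exact h1.symm
  have hcenttop : Subgroup.centralizer ({a₀} : Set A) = ⊤ := by
    rw [eq_top_iff]
    intro g _
    rw [Subgroup.mem_centralizer_singleton_iff]
    exact (hcentral a₀ g (hnotD a₀ ha₀W)).symm
  have hA4 : Nat.card A ≤ 4 := by
    have := hcent a₀ ha₀W
    rw [hcenttop] at this
    simpa using this
  have hD1 : Nat.card D = 1 := by
    rw [hcard, hQ] at hA4
    omega
  refine ⟨by rw [hcard, hQ, hD1], ?_⟩
  intro a ha
  apply hall
  have hbot : D = ⊥ := Subgroup.eq_bot_of_card_eq D hD1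
  rw [hbot]
  simpa using ha

end TwoGroup

section Main

variable {X : Type*} [Group X] [Finite X]

/-- **Klein four Sylow.** -/
theorem klein_sylow (hperf : commutator X = ⊤) {u : X} (hu2 : u * u = 1) (hu1 : u ≠ 1) {m : ℕ}
    (hm : Odd m) (hC : Nat.card (Subgroup.centralizer ({u} : Set X)) = 4 * m) :
    ∃ T : Sylow 2 X, u ∈ (T : Subgroup X) ∧ Nat.card (T : Subgroup X) = 4 ∧
      ∀ a ∈ (T : Subgroup X), a ≠ 1 → IsConj u a := by
  classical
  haveI : Fact (Nat.Prime 2) := ⟨Nat.prime_two⟩
  have hou : orderOf u = 2 := orderOf_eq_prime (by rw [sq]; exact hu2) hu1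
  have hzp : IsPGroup 2 (Subgroup.zpowers u) := by
    apply IsPGroup.of_card (n := 1)
    rw [Nat.card_zpowers, hou, pow_one]
  obtain ⟨T, hT⟩ := hzp.exists_le_sylow
  have huT : u ∈ (T : Subgroup X) := hT (Subgroup.mem_zpowers u)
  have hminFac : (Nat.card X).minFac = 2 := by
    rw [Nat.minFac_eq_two_iff]
    rw [← hou]
    exact orderOf_dvd_natCard u
  have hne : (T : Subgroup X) ≠ ⊥ := by
    intro h
    rw [h] at huT
    exact hu1 (by simpa using huT)
  have hnc : ¬ IsCyclic (T : Subgroup X) := by
    intro hc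
    exact Cfsg.Agent.Lib.ZPerfD.burnside_false hperf T
      (IsCyclic.normalizer_le_centralizer hminFac hc) hne
  let W : Set (T : Subgroup X) := {a | IsConj u (a : X)}
  have hno : ∀ H : Subgroup X, H.index ≠ 2 := Cfsg.Agent.Lib.ZPerfD.no_index_two hperf
  have hkey := two_group_key (T.isPGroup') hnc W ?_ ?_ ?_ ?_
  · refine ⟨T, huT, hkey.1, ?_⟩
    intro a ha ha1
    exact hkey.2 ⟨a, ha⟩ (fun h => ha1 (congrArg Subtype.val h))
  · intro a ha g
    show IsConj u ((g : X) * a * (g : X)⁻¹)
    exact ha.trans (isConj_iff.mpr ⟨g, rfl⟩)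
  · intro a ha
    -- the centralizer in `T` is a 2-subgroup of a group of order `4 m`
    have hca : Nat.card (Subgroup.centralizer ({(a : X)} : Set X)) = 4 * m := by
      obtain ⟨c, hc⟩ := isConj_iff.mp ha
      rw [← hc, Cfsg.Agent.Lib.RealChars.card_centralizer_conj, hC]
    let CT := Subgroup.centralizer ({a} : Set (T : Subgroup X))
    let f : CT →* Subgroup.centralizer ({(a : X)} : Set X) :=
      { toFun := fun x => ⟨(x : (T : Subgroup X)), by
          have hx := x.2
          rw [Subgroup.mem_centralizer_singleton_iff] at hx ⊢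
          exact congrArg Subtype.val hx⟩
        map_one' := rfl
        map_mul' := fun _ _ => rfl }
    have hf : Function.Injective f := by
      intro x y hxy
      have := congrArg Subtype.val hxy
      exact Subtype.ext (Subtype.ext this)
    have hdvd : Nat.card CT ∣ 4 * m := by
      rw [← hca]
      exact Subgroup.card_dvd_of_injective f hf
    have hCTP : IsPGroup 2 CT := T.isPGroup'.to_subgroup CT
    obtain ⟨k, hk⟩ := IsPGroup.iff_card.mp hCTP
    have hcop : Nat.Coprime (Nat.card CT) m := by
      rw [hk]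
      exact Nat.Coprime.pow_left k (Nat.coprime_two_left.mpr hm)
    have hd4 : Nat.card CT ∣ 4 := hcop.dvd_of_dvd_mul_right hdvd
    exact Nat.le_of_dvd (by norm_num) hd4
  · intro a ha
    have hconj : IsConj u (a : X) := ha
    obtain ⟨c, hc⟩ := isConj_iff.mp hconj
    constructor
    · apply Subtype.ext
      show (a : X) * a = 1
      rw [← hc]
      calc c * u * c⁻¹ * (c * u * c⁻¹) = c * (u * u) * c⁻¹ := by group
        _ = 1 := by rw [hu2]; group
    · intro h
      have : (a : X) = 1 := congrArg Subtype.val h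
      rw [← hc] at this
      apply hu1
      have h2 : c⁻¹ * (c * u * c⁻¹) * c = u := by group
      rw [← h2, this]
      group
  · intro M hM
    let M' : Subgroup X := M.map (T : Subgroup X).subtype
    have hidx : M'.index = M.index * (T : Subgroup X).index := by
      exact Subgroup.index_map_subtype M
    have hodd : ¬ 2 ∣ (T : Subgroup X).index := T.not_dvd_index
    obtain ⟨k, hk⟩ := Nat.not_even_iff_odd.mp (fun h => hodd h.two_dvd)
    have hM' : M'.index = 2 * (2 * k + 1) := by rw [hidx, hM, hk]
    obtain ⟨g, hg⟩ := Cfsg.Agent.Lib.NormalKlein2.exists_conj_mem_of_no_index_two hno M' k hM' u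
      (by rw [sq]; exact hu2)
    obtain ⟨b, hb, hbg⟩ := hg
    refine ⟨b, ?_, hb⟩
    show IsConj u (b : X)
    have hbg' : (b : X) = g⁻¹ * u * g := hbg
    rw [hbg']
    exact isConj_iff.mpr ⟨g⁻¹, by group⟩

end Main

end Cfsg.Agent.Lib.UFour9B
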