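import Mathlib
import Cfsg.Agent.Lib.Frat

/-!
# Generator rank of subgroups of the unitriangular group

A finite group `Y` embedded in the group of upper unitriangular `n × n` matrices over `ZMod p` has
Frattini index at most `p ^ (n ^ 2 / 4)`: the indecomposable pivots form a triangle free graph
(Mantel).
-/

set_option autoImplicit false
set_option linter.style.haveILetI false
set_option linter.unusedSectionVars false
set_option linter.unusedVariables false

namespace Cfsg.Agent.Lib.UTRank

open Finset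

universe u

/-- The order in which positions are looked at: by height, then by row. -/
def key (n : ℕ) (i j : Fin n) : ℕ := ((j : ℕ) - (i : ℕ)) * n + (i : ℕ)

theorem key_mono {n a b x y : ℕ} (h : a < b) (hx : x < n) : a * n + x < b * n + y := by
  have h1 : (a + 1) * n ≤ b * n := Nat.mul_le_mul_right n h
  nlinarith

theorem key_cmp {n a b x y : ℕ} (hx : x < n) (hy : y < n) (h : a * n + x ≤ b * n + y) :
    a < b ∨ (a = b ∧ x ≤ y) := by
  rcases lt_trichotomy a b with h1 | h1 | h1
  · exact Or.inl h1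
  · subst h1
    exact Or.inr ⟨rfl, by omega⟩
  · have := key_mono (n := n) (x := y) (y := x) h1 hy
    omega

theorem key_lt_left {n : ℕ} {i l j : Fin n} (hil : i < l) (hlj : l < j) :
    key n i l < key n i j := by
  have h1 : (i : ℕ) < l := hil
  have h2 : (l : ℕ) < j := hlj
  unfold key
  exact key_mono (by omega) i.2

theorem key_lt_right {n : ℕ} {i l j : Fin n} (hil : i < l) (hlj : l < j) :
    key n l j < key n i j := by
  have h1 : (i : ℕ) < l := hil
  have h2 : (l : ℕ) < j := hlj
  unfold key
  exact key_mono (by omega) l.2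

theorem key_inj {n : ℕ} {i j u v : Fin n} (hij : i < j) (huv : u < v)
    (h : key n i j = key n u v) : i = u ∧ j = v := by
  have h1 : (i : ℕ) < j := hij
  have h2 : (u : ℕ) < v := huv
  unfold key at h
  rcases key_cmp i.2 u.2 h.le with h3 | ⟨h3, h4⟩
  · have := key_mono (n := n) (x := (i : ℕ)) (y := (u : ℕ)) h3 i.2
    omega
  · rcases key_cmp u.2 i.2 h.ge with h5 | ⟨h5, h6⟩
    · omega
    · have hiu : (i : ℕ) = u := by omega
      have hjv : (j : ℕ) = v := by omega
      exact ⟨Fin.ext hiu, Fin.ext hjv⟩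

theorem key_lt_sq {n : ℕ} {i j : Fin n} (hij : i < j) : key n i j < n * n := by
  have h1 : (i : ℕ) < j := hij
  have h2 : (j : ℕ) < n := j.2
  have h3 : (i : ℕ) < n := i.2
  unfold key
  have h4 : ((j : ℕ) - (i : ℕ)) + 1 ≤ n := by omega
  have := Nat.mul_le_mul_right n h4
  nlinarith

section Matrix

variable {n : ℕ} {F : Type*} [CommRing F]

/-- Upper unitriangular matrices. -/
def UT (M : Matrix (Fin n) (Fin n) F) : Prop := (∀ i j, j < i → M i j = 0) ∧ ∀ i, M i i = 1

/-- The positions strictly between two given ones. -/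
def mid (u v : Fin n) : Finset (Fin n) := univ.filter fun l => u < l ∧ l < v

theorem mem_mid {u v l : Fin n} : l ∈ mid u v ↔ u < l ∧ l < v := by simp [mid]

theorem mul_apply_ut {X Z : Matrix (Fin n) (Fin n) F} (hX : UT X) (hZ : UT Z) {u v : Fin n}
    (huv : u < v) :
    (X * Z) u v = X u v + Z u v + ∑ l ∈ mid u v, X u l * Z l v := by
  classical
  rw [Matrix.mul_apply]
  have hsub : insert u (insert v (mid u v)) ⊆ (univ : Finset (Fin n)) := subset_univ _
  rw [← Finset.sum_subset hsub]
  · have hu : u ∉ insert v (mid u v) := by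
      simp only [mem_insert, mem_mid, not_or, not_and]
      exact ⟨huv.ne, fun h => absurd h (lt_irrefl _)⟩
    have hv : v ∉ mid u v := by
      simp only [mem_mid, not_and]
      exact fun _ => lt_irrefl _
    rw [Finset.sum_insert hu, Finset.sum_insert hv, hX.2 u, hZ.2 v, one_mul, mul_one]
    ring
  · intro l _ hl
    simp only [mem_insert, mem_mid, not_or, not_and, not_lt] at hl
    obtain ⟨h1, h2, h3⟩ := hl
    rcases lt_or_ge l u with h4 | h4
    · rw [hX.1 u l h4, zero_mul]
    · have h5 : u < l := lt_of_le_of_ne h4 (Ne.symm h1)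
      have h6 : v < l := lt_of_le_of_ne (h3 h5) (Ne.symm h2)
      rw [hZ.1 l v h6, mul_zero]

end Matrix

section Pivot

variable {n p : ℕ} [hpp : Fact p.Prime] {Y : Type u} [Group Y] [Finite Y]
  (ρ : Y →* Matrix (Fin n) (Fin n) (ZMod p))

/-- The elements of `Y` whose entries vanish at all positions of key less than `t`. -/
def Low (hρ : ∀ y, UT (ρ y)) (t : ℕ) : Subgroup Y :=
  let S : Submonoid Y :=
    { carrier := {y | ∀ i j : Fin n, i < j → key n i j < t → ρ y i j = 0}
      mul_mem' := by
        intro a b ha hb i j hij ht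
        show ρ (a * b) i j = 0
        rw [map_mul, mul_apply_ut (hρ a) (hρ b) hij, ha i j hij ht, hb i j hij ht, zero_add,
          zero_add]
        apply Finset.sum_eq_zero
        intro l hl
        obtain ⟨h1, h2⟩ := mem_mid.mp hl
        rw [ha i l h1 ((key_lt_left h1 h2).trans ht), zero_mul]
      one_mem' := by
        intro i j hij _
        show ρ 1 i j = 0
        rw [map_one, Matrix.one_apply_ne hij.ne] }
  { S with
    inv_mem' := by
      intro y hy
      have h1 : y⁻¹ = y ^ (Nat.card Y - 1) := by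
        apply inv_eq_of_mul_eq_one_left
        rw [← pow_succ, Nat.sub_add_cancel Nat.card_pos, pow_card_eq_one']
      rw [h1]
      exact S.pow_mem hy _ }

variable {ρ} {hρ : ∀ y, UT (ρ y)}

theorem mem_Low {t : ℕ} {y : Y} :
    y ∈ Low ρ hρ t ↔ ∀ i j : Fin n, i < j → key n i j < t → ρ y i j = 0 := Iff.rfl

theorem Low_zero : Low ρ hρ 0 = ⊤ := by
  rw [eq_top_iff]
  intro y _
  rw [mem_Low]
  intro i j _ h
  omega

theorem Low_top (hinj : Function.Injective ρ) (y : Y) (hy : y ∈ Low ρ hρ (n * n)) : y = 1 := by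
  apply hinj
  rw [map_one]
  ext i j
  rcases lt_trichotomy i j with h | h | h
  · rw [(mem_Low.mp hy) i j h (key_lt_sq h), Matrix.one_apply_ne h.ne]
  · subst h
    rw [(hρ y).2 i, Matrix.one_apply_eq]
  · rw [(hρ y).1 i j h, Matrix.one_apply_ne h.ne']

/-- Additivity of the entry at the position `(i,j)` on `Low (key i j)`. -/
theorem entry_mul {i j : Fin n} (hij : i < j) {a b : Y} (ha : a ∈ Low ρ hρ (key n i j)) :
    ρ (a * b) i j = ρ a i j + ρ b i j := by
  rw [map_mul, mul_apply_ut (hρ a) (hρ b) hij]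
  have : ∑ l ∈ mid i j, ρ a i l * ρ b l j = 0 := by
    apply Finset.sum_eq_zero
    intro l hl
    obtain ⟨h1, h2⟩ := mem_Low.mp ha |> fun h => (⟨mem_mid.mp hl, h⟩ :
      (i < l ∧ l < j) ∧ ∀ i j : Fin n, i < j → key n i j < key n _ _ → ρ a i j = 0)
    rw [h2 i l h1.1 (key_lt_left h1.1 h1.2), zero_mul]
  rw [this, add_zero]

/-- Passing from `Low t` to `Low (t+1)` when `t` is not a key. -/
theorem Low_succ_of_no_key {t : ℕ} (h : ∀ i j : Fin n, i < j → key n i j ≠ t) :
    Low ρ hρ (t + 1) = Low ρ hρ t := by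
  ext y
  rw [mem_Low, mem_Low]
  constructor
  · intro hy i j hij ht
    exact hy i j hij (by omega)
  · intro hy i j hij ht
    exact hy i j hij (by have := h i j hij; omega)

theorem mem_Low_succ_iff {i j : Fin n} (hij : i < j) {y : Y} :
    y ∈ Low ρ hρ (key n i j + 1) ↔ y ∈ Low ρ hρ (key n i j) ∧ ρ y i j = 0 := by
  rw [mem_Low, mem_Low]
  constructor
  · intro hy
    exact ⟨fun u v huv ht => hy u v huv (by omega), hy i j hij (by omega)⟩
  · rintro ⟨h1, h2⟩ u v huv ht
    rcases Nat.lt_succ_iff_lt_or_eq.mp ht with h3 | h3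
    · exact h1 u v huv h3
    · obtain ⟨rfl, rfl⟩ := key_inj huv hij h3
      exact h2

/-- One step of the chain for a subgroup `A`: the case of a trivial entry. -/
theorem step_eq (A : Subgroup Y) {i j : Fin n} (hij : i < j)
    (h : ∀ y ∈ A ⊓ Low ρ hρ (key n i j), ρ y i j = 0) :
    A ⊓ Low ρ hρ (key n i j + 1) = A ⊓ Low ρ hρ (key n i j) := by
  ext y
  simp only [Subgroup.mem_inf]
  constructor
  · rintro ⟨h1, h2⟩
    exact ⟨h1, ((mem_Low_succ_iff hij).mp h2).1⟩
  · rintro ⟨h1, h2⟩
    exact ⟨h1, (mem_Low_succ_iff hij).mpr ⟨h2, h y ⟨h1, h2⟩⟩⟩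

/-- One step of the chain for a subgroup `A`: the case of a nontrivial entry. -/
theorem step_card (A : Subgroup Y) {i j : Fin n} (hij : i < j)
    (h : ∃ y ∈ A ⊓ Low ρ hρ (key n i j), ρ y i j ≠ 0) :
    Nat.card (A ⊓ Low ρ hρ (key n i j) : Subgroup Y) =
      Nat.card (A ⊓ Low ρ hρ (key n i j + 1) : Subgroup Y) * p := by
  set B : Subgroup Y := A ⊓ Low ρ hρ (key n i j) with hB
  set C : Subgroup Y := A ⊓ Low ρ hρ (key n i j + 1) with hC
  have hCB : C ≤ B := by
    intro y hy
    exact ⟨hy.1, ((mem_Low_succ_iff hij).mp hy.2).1⟩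
  let f : B →* Multiplicative (ZMod p) :=
    { toFun := fun y => Multiplicative.ofAdd (ρ (y : Y) i j)
      map_one' := by
        show Multiplicative.ofAdd (ρ ((1 : B) : Y) i j) = 1
        simp [Matrix.one_apply_ne hij.ne]
      map_mul' := by
        intro a b
        show Multiplicative.ofAdd (ρ ((a : Y) * b) i j) = _
        rw [entry_mul hij a.2.2, ofAdd_add] }
  have hker : f.ker = C.subgroupOf B := by
    ext y
    rw [MonoidHom.mem_ker, Subgroup.mem_subgroupOf]
    constructor
    · intro hy
      have h0 : ρ (y : Y) i j = 0 := hy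
      exact ⟨y.2.1, (mem_Low_succ_iff hij).mpr ⟨y.2.2, h0⟩⟩
    · intro hy
      exact ((mem_Low_succ_iff hij).mp hy.2).2
  have hrange : Nat.card f.range = p := by
    have hp : Nat.card (Multiplicative (ZMod p)) = p := by
      rw [Nat.card_congr Multiplicative.toAdd, Nat.card_zmod]
    haveI : Fact (Nat.card (Multiplicative (ZMod p))).Prime := by
      rw [hp]
      exact hpp
    rcases Subgroup.eq_bot_or_eq_top_of_prime_card f.range with h0 | h0
    · exfalso
      obtain ⟨y, hy, hy0⟩ := h
      have : f ⟨y, hy⟩ ∈ f.range := ⟨_, rfl⟩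
      rw [h0, Subgroup.mem_bot] at this
      exact hy0 this
    · rw [h0, Subgroup.card_top, hp]
  have hmul := Subgroup.card_mul_index f.ker
  rw [Subgroup.index_ker, hrange, hker] at hmul
  have hC' : Nat.card (C.subgroupOf B) = Nat.card C :=
    Nat.card_congr (Subgroup.subgroupOfEquivOfLe hCB).toEquiv
  rw [hC'] at hmul
  exact hmul.symm

open Classical in
/-- The positions which are pivots of `Y` but not of the subgroup `Φ`. -/
noncomputable def gapSet (ρ : Y →* Matrix (Fin n) (Fin n) (ZMod p)) (hρ : ∀ y, UT (ρ y))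
    (Φ : Subgroup Y) : Finset (Fin n × Fin n) :=
  univ.filter fun s => s.1 < s.2 ∧ (∃ y ∈ (⊤ : Subgroup Y) ⊓ Low ρ hρ (key n s.1 s.2), ρ y s.1 s.2 ≠ 0) ∧
    ¬ ∃ y ∈ Φ ⊓ Low ρ hρ (key n s.1 s.2), ρ y s.1 s.2 ≠ 0

theorem mem_gapSet {Φ : Subgroup Y} {i j : Fin n} :
    (i, j) ∈ gapSet ρ hρ Φ ↔ i < j ∧ (∃ y ∈ (⊤ : Subgroup Y) ⊓ Low ρ hρ (key n i j), ρ y i j ≠ 0) ∧
      ¬ ∃ y ∈ Φ ⊓ Low ρ hρ (key n i j), ρ y i j ≠ 0 := by
  simp [gapSet]

open Classical in
/-- The chain inequality. -/
theorem chain_ineq (Φ : Subgroup Y) (t : ℕ) :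
    Nat.card Y * Nat.card (Φ ⊓ Low ρ hρ t : Subgroup Y) ≤
      Nat.card ((⊤ : Subgroup Y) ⊓ Low ρ hρ t : Subgroup Y) * Nat.card Φ *
        p ^ ((gapSet ρ hρ Φ).filter fun s => key n s.1 s.2 < t).card := by
  induction t with
  | zero =>
    have h0 : ((gapSet ρ hρ Φ).filter fun s => key n s.1 s.2 < 0) = ∅ := by
      ext s
      simp
    rw [Low_zero, h0, inf_top_eq, inf_top_eq, Subgroup.card_top]
    simp
  | succ t ih =>
    by_cases hk : ∃ i j : Fin n, i < j ∧ key n i j = t
    · obtain ⟨i, j, hij, rfl⟩ := hk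
      set D := gapSet ρ hρ Φ with hD
      set Dt := D.filter fun s => key n s.1 s.2 < key n i j with hDt
      set Dt1 := D.filter fun s => key n s.1 s.2 < key n i j + 1 with hDt1
      have hfilter : ∀ s ∈ D, (key n s.1 s.2 < key n i j + 1 ↔ key n s.1 s.2 < key n i j ∨ s = (i, j)) := by
        rintro ⟨u, v⟩ hs
        have huv : u < v := (mem_gapSet.mp hs).1
        constructor
        · intro h
          rcases Nat.lt_succ_iff_lt_or_eq.mp h with h3 | h3
          · exact Or.inl h3
          · obtain ⟨rfl, rfl⟩ := key_inj huv hij h3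
            exact Or.inr rfl
        · rintro (h | h)
          · exact Nat.lt_succ_of_lt h
          · rw [h]
            exact Nat.lt_succ_self _
      have hnotin : (i, j) ∉ Dt := by
        simp [hDt]
      by_cases haY : ∃ y ∈ (⊤ : Subgroup Y) ⊓ Low ρ hρ (key n i j), ρ y i j ≠ 0
      · have hY1 := step_card (⊤ : Subgroup Y) hij haY
        by_cases haΦ : ∃ y ∈ Φ ⊓ Low ρ hρ (key n i j), ρ y i j ≠ 0
        · have hΦ1 := step_card Φ hij haΦ
          have hnotD : (i, j) ∉ D := by
            intro h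
            exact (mem_gapSet.mp h).2.2 haΦ
          have hsame : Dt1 = Dt := by
            ext s
            simp only [hDt1, hDt, mem_filter]
            constructor
            · rintro ⟨h1, h2⟩
              refine ⟨h1, ?_⟩
              rcases (hfilter s h1).mp h2 with h3 | h3
              · exact h3
              · exact absurd (h3 ▸ h1) hnotD
            · rintro ⟨h1, h2⟩
              exact ⟨h1, Nat.lt_succ_of_lt h2⟩
          rw [hsame]
          rw [hY1, hΦ1] at ih
          have hp : 0 < p := hpp.out.pos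
          refine Nat.le_of_mul_le_mul_right (c := p) ?_ hp
          calc _ = Nat.card Y * (Nat.card (Φ ⊓ Low ρ hρ (key n i j + 1) : Subgroup Y) * p) := by ring
            _ ≤ _ := ih
            _ = _ := by ring
        · have hΦ1 := step_eq Φ hij (fun y hy => by
            by_contra h
            exact haΦ ⟨y, hy, h⟩)
          have hinD : (i, j) ∈ D := mem_gapSet.mpr ⟨hij, haY, haΦ⟩
          have hins : Dt1 = insert (i, j) Dt := by
            ext s
            simp only [hDt1, hDt, mem_filter, mem_insert]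
            constructor
            · rintro ⟨h1, h2⟩
              rcases (hfilter s h1).mp h2 with h3 | h3
              · exact Or.inr ⟨h1, h3⟩
              · exact Or.inl h3
            · rintro (h | h)
              · rw [h]
                exact ⟨hinD, Nat.lt_succ_self _⟩
              · exact ⟨h.1, Nat.lt_succ_of_lt h.2⟩
          rw [hins, Finset.card_insert_of_notMem hnotin, hΦ1, pow_succ]
          rw [hY1] at ih
          calc _ ≤ _ := ih
            _ = _ := by ring
      · have hY1 := step_eq (⊤ : Subgroup Y) hij (fun y hy => by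
          by_contra h
          exact haY ⟨y, hy, h⟩)
        have haΦ : ∀ y ∈ Φ ⊓ Low ρ hρ (key n i j), ρ y i j = 0 := by
          intro y hy
          by_contra h
          exact haY ⟨y, ⟨trivial, hy.2⟩, h⟩
        have hΦ1 := step_eq Φ hij haΦ
        have hnotD : (i, j) ∉ D := by
          intro h
          exact haY (mem_gapSet.mp h).2.1
        have hsame : Dt1 = Dt := by
          ext s
          simp only [hDt1, hDt, mem_filter]
          constructor
          · rintro ⟨h1, h2⟩
            refine ⟨h1, ?_⟩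
            rcases (hfilter s h1).mp h2 with h3 | h3
            · exact h3
            · exact absurd (h3 ▸ h1) hnotD
          · rintro ⟨h1, h2⟩
            exact ⟨h1, Nat.lt_succ_of_lt h2⟩
        rw [hsame, hY1, hΦ1]
        exact ih
    · push Not at hk
      have h1 : Low ρ hρ (t + 1) = Low ρ hρ t := Low_succ_of_no_key hk
      have h2 : ((gapSet ρ hρ Φ).filter fun s => key n s.1 s.2 < t + 1) =
          (gapSet ρ hρ Φ).filter fun s => key n s.1 s.2 < t := by
        ext ⟨u, v⟩
        simp only [mem_filter]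
        constructor
        · rintro ⟨h3, h4⟩
          refine ⟨h3, ?_⟩
          have := hk u v (mem_gapSet.mp h3).1
          have h5 : key n u v < t + 1 := h4
          show key n u v < t
          omega
        · rintro ⟨h3, h4⟩
          exact ⟨h3, Nat.lt_succ_of_lt h4⟩
      rw [h1, h2]
      exact ih

/-- The commutator of pivots `(i,j)` and `(j,k)` has pivot `(i,k)`. -/
theorem comm_pivot {x y : Y} {i j k : Fin n} (hij : i < j) (hjk : j < k)
    (hx : x ∈ Low ρ hρ (key n i j)) (hy : y ∈ Low ρ hρ (key n j k))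
    (hx0 : ρ x i j ≠ 0) (hy0 : ρ y j k ≠ 0) :
    x * y * x⁻¹ * y⁻¹ ∈ Low ρ hρ (key n i k) ∧ ρ (x * y * x⁻¹ * y⁻¹) i k ≠ 0 := by
  classical
  set w := x * y * x⁻¹ * y⁻¹ with hw
  have hik : i < k := hij.trans hjk
  have hW : ρ w * (ρ y * ρ x) = ρ x * ρ y := by
    rw [← map_mul, ← map_mul, ← map_mul, hw]
    congr 1
    group
  have hZX : UT (ρ y * ρ x) := by
    rw [← map_mul]
    exact hρ _
  have hrec : ∀ u v : Fin n, u < v →
      ρ w u v + ∑ l ∈ mid u v, ρ w u l * (ρ y * ρ x) l v =
        ∑ l ∈ mid u v, ρ x u l * ρ y l v - ∑ l ∈ mid u v, ρ y u l * ρ x l v := by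
    intro u v huv
    have h1 := congrFun (congrFun hW u) v
    rw [mul_apply_ut (hρ w) hZX huv, mul_apply_ut (hρ x) (hρ y) huv,
      mul_apply_ut (hρ y) (hρ x) huv] at h1
    linear_combination h1
  -- the two vanishing facts
  have hA : ∀ u l v : Fin n, u < l → l < v → key n u v ≤ key n i k → ρ x u l * ρ y l v ≠ 0 →
      u = i ∧ v = k ∧ l = j := by
    intro u l v hul hlv hkey hne
    have h1 : ¬ key n u l < key n i j := fun h =>
      hne (by rw [(mem_Low.mp hx) u l hul h, zero_mul])
    have h2 : ¬ key n l v < key n j k := fun h =>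
      hne (by rw [(mem_Low.mp hy) l v hlv h, mul_zero])
    have hc1 := key_cmp i.2 u.2 (not_lt.mp h1)
    have hc2 := key_cmp j.2 l.2 (not_lt.mp h2)
    have hc3 := key_cmp u.2 i.2 hkey
    have a1 : (u : ℕ) < l := hul
    have a2 : (l : ℕ) < v := hlv
    have a3 : (i : ℕ) < j := hij
    have a4 : (j : ℕ) < k := hjk
    refine ⟨Fin.ext (by omega), Fin.ext (by omega), Fin.ext (by omega)⟩
  have hB : ∀ u l v : Fin n, u < l → l < v → key n u v ≤ key n i k → ρ y u l * ρ x l v = 0 := by
    intro u l v hul hlv hkey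
    by_contra hne
    have h1 : ¬ key n u l < key n j k := fun h =>
      hne (by rw [(mem_Low.mp hy) u l hul h, zero_mul])
    have h2 : ¬ key n l v < key n i j := fun h =>
      hne (by rw [(mem_Low.mp hx) l v hlv h, mul_zero])
    have hc1 := key_cmp j.2 u.2 (not_lt.mp h1)
    have hc2 := key_cmp i.2 l.2 (not_lt.mp h2)
    have hc3 := key_cmp u.2 i.2 hkey
    have a1 : (u : ℕ) < l := hul
    have a2 : (l : ℕ) < v := hlv
    have a3 : (i : ℕ) < j := hij
    have a4 : (j : ℕ) < k := hjk
    omega
  have hlow : ∀ m : ℕ, ∀ u v : Fin n, u < v → key n u v = m → m < key n i k → ρ w u v = 0 := by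
    intro m
    induction m using Nat.strong_induction_on with
    | _ m ih =>
      intro u v huv hm hlt
      have h1 := hrec u v huv
      have h2 : ∑ l ∈ mid u v, ρ w u l * (ρ y * ρ x) l v = 0 := by
        apply Finset.sum_eq_zero
        intro l hl
        obtain ⟨hl1, hl2⟩ := mem_mid.mp hl
        have h3 : key n u l < m := hm ▸ key_lt_left hl1 hl2
        rw [ih _ h3 u l hl1 rfl (h3.trans hlt), zero_mul]
      have h3 : ∑ l ∈ mid u v, ρ x u l * ρ y l v = 0 := by
        apply Finset.sum_eq_zero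
        intro l hl
        obtain ⟨hl1, hl2⟩ := mem_mid.mp hl
        by_contra hne
        obtain ⟨rfl, rfl, -⟩ := hA u l v hl1 hl2 (by omega) hne
        omega
      have h4 : ∑ l ∈ mid u v, ρ y u l * ρ x l v = 0 := by
        apply Finset.sum_eq_zero
        intro l hl
        obtain ⟨hl1, hl2⟩ := mem_mid.mp hl
        exact hB u l v hl1 hl2 (by omega)
      rw [h2, h3, h4] at h1
      simpa using h1
  have hwlow : w ∈ Low ρ hρ (key n i k) := by
    rw [mem_Low]
    intro u v huv hlt
    exact hlow _ u v huv rfl hlt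
  refine ⟨hwlow, ?_⟩
  have h1 := hrec i k hik
  have h2 : ∑ l ∈ mid i k, ρ w i l * (ρ y * ρ x) l k = 0 := by
    apply Finset.sum_eq_zero
    intro l hl
    obtain ⟨hl1, hl2⟩ := mem_mid.mp hl
    rw [(mem_Low.mp hwlow) i l hl1 (key_lt_left hl1 hl2), zero_mul]
  have hjmid : j ∈ mid i k := mem_mid.mpr ⟨hij, hjk⟩
  have h3 : ∑ l ∈ mid i k, ρ x i l * ρ y l k = ρ x i j * ρ y j k := by
    apply Finset.sum_eq_single_of_mem j hjmid
    intro l hl hne
    obtain ⟨hl1, hl2⟩ := mem_mid.mp hl
    by_contra hne2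
    exact hne (hA i l k hl1 hl2 le_rfl hne2).2.2
  have h4 : ∑ l ∈ mid i k, ρ y i l * ρ x l k = 0 := by
    apply Finset.sum_eq_zero
    intro l hl
    obtain ⟨hl1, hl2⟩ := mem_mid.mp hl
    exact hB i l k hl1 hl2 le_rfl
  rw [h2, h3, h4] at h1
  have h5 : ρ w i k = ρ x i j * ρ y j k := by simpa using h1
  rw [h5]
  exact mul_ne_zero hx0 hy0

/-- Mantel's theorem for a set of increasing pairs. -/
theorem mantel {n : ℕ} (D : Finset (Fin n × Fin n)) (h1 : ∀ s ∈ D, s.1 < s.2)
    (h2 : ∀ i j k : Fin n, (i, j) ∈ D → (j, k) ∈ D → (i, k) ∈ D → False) :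
    D.card ≤ n ^ 2 / 4 := by
  classical
  let G : SimpleGraph (Fin n) := SimpleGraph.fromRel fun a b => (a, b) ∈ D
  have hadj : ∀ a b, G.Adj a b → (a < b ∧ (a, b) ∈ D) ∨ (b < a ∧ (b, a) ∈ D) := by
    intro a b hab
    rw [SimpleGraph.fromRel_adj] at hab
    rcases hab.2 with h | h
    · exact Or.inl ⟨h1 _ h, h⟩
    · exact Or.inr ⟨h1 _ h, h⟩
  have hcf : G.CliqueFree (2 + 1) := by
    intro s hs
    obtain ⟨a, b, c, hab, hac, hbc, -⟩ := SimpleGraph.is3Clique_iff.mp hs
    rcases hadj a b hab with ⟨l1, d1⟩ | ⟨l1, d1⟩ <;> rcases hadj a c hac with ⟨l2, d2⟩ | ⟨l2, d2⟩ <;>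
      rcases hadj b c hbc with ⟨l3, d3⟩ | ⟨l3, d3⟩
    · exact h2 a b c d1 d3 d2
    · exact h2 a c b d2 d3 d1
    · exact absurd (l1.trans l3) (not_lt.mpr l2.le)
    · exact h2 c a b d2 d1 d3
    · exact h2 b a c d1 d2 d3
    · exact absurd (l3.trans l1) (not_lt.mpr l2.le)
    · exact h2 b c a d3 d2 d1
    · exact h2 c b a d3 d1 d2
  have hb := hcf.card_edgeFinset_le
  simp only [Fintype.card_fin] at hb
  have hinj : D.card ≤ G.edgeFinset.card := by
    apply Finset.card_le_card_of_injOn (fun s => s(s.1, s.2))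
    · intro s hs
      have hs' : s ∈ D := hs
      rw [Finset.mem_coe, SimpleGraph.mem_edgeFinset, SimpleGraph.mem_edgeSet,
        SimpleGraph.fromRel_adj]
      exact ⟨(h1 s hs').ne, Or.inl hs'⟩
    · rintro ⟨a, b⟩ hs ⟨c, d⟩ ht hst
      have hs' := h1 _ hs
      have ht' := h1 _ ht
      simp only [Sym2.eq_iff] at hst
      rcases hst with ⟨rfl, rfl⟩ | ⟨rfl, rfl⟩
      · rfl
      · exact absurd hs' (not_lt.mpr ht'.le)
  have h3 : (n % 2).choose 2 = 0 := by
    have : n % 2 < 2 := Nat.mod_lt _ (by norm_num)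
    exact Nat.choose_eq_zero_of_lt this
  rw [h3, add_zero] at hb
  refine hinj.trans (hb.trans ?_)
  apply Nat.div_le_div
  · simp
  · norm_num
  · norm_num

/-- **Main bound**. -/
theorem frattini_index_le_ut (hρ' : ∀ y, UT (ρ y)) (hY : IsPGroup p Y)
    (hinj : Function.Injective ρ) :
    (frattini Y).index ≤ p ^ (n ^ 2 / 4) := by
  classical
  set Φ := frattini Y with hΦ
  have hchain := chain_ineq (ρ := ρ) (hρ := hρ') Φ (n * n)
  have hall : ((gapSet ρ hρ' Φ).filter fun s => key n s.1 s.2 < n * n) = gapSet ρ hρ' Φ := by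
    apply Finset.filter_true_of_mem
    rintro ⟨u, v⟩ hs
    exact key_lt_sq (mem_gapSet.mp hs).1
  rw [hall] at hchain
  have hbot : (⊤ : Subgroup Y) ⊓ Low ρ hρ' (n * n) = ⊥ := by
    rw [top_inf_eq, eq_bot_iff]
    intro y hy
    rw [Subgroup.mem_bot]
    exact Low_top hinj y hy
  rw [hbot, Subgroup.card_bot, one_mul] at hchain
  have hΦpos : 1 ≤ Nat.card (Φ ⊓ Low ρ hρ' (n * n) : Subgroup Y) := Nat.card_pos
  have h1 : Nat.card Y ≤ Nat.card Φ * p ^ (gapSet ρ hρ' Φ).card :=
    le_trans (Nat.le_mul_of_pos_right _ hΦpos) hchain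
  have hmul := Subgroup.card_mul_index Φ
  have hpos : 0 < Nat.card Φ := Nat.card_pos
  rw [← hmul] at h1
  have h2 := Nat.le_of_mul_le_mul_left h1 hpos
  refine h2.trans (Nat.pow_le_pow_right hpp.out.pos ?_)
  apply mantel
  · rintro ⟨u, v⟩ hs
    exact (mem_gapSet.mp hs).1
  · intro i j k h1 h2 h3
    obtain ⟨hij, ⟨x, hx, hx0⟩, -⟩ := mem_gapSet.mp h1
    obtain ⟨hjk, ⟨y, hy, hy0⟩, -⟩ := mem_gapSet.mp h2
    obtain ⟨-, -, hno⟩ := mem_gapSet.mp h3
    obtain ⟨hw1, hw2⟩ := comm_pivot hij hjk hx.2 hy.2 hx0 hy0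
    apply hno
    refine ⟨_, ⟨?_, hw1⟩, hw2⟩
    apply Frat.commutator_le_frattini hY
    rw [commutator_def]
    have := Subgroup.commutator_mem_commutator (Subgroup.mem_top x) (Subgroup.mem_top y)
    rwa [commutatorElement_def] at this

end Pivot

end Cfsg.Agent.Lib.UTRank

namespace Cfsg.Agent.Lib.UTRank

open Finset

universe u v

section Tri

variable {p : ℕ} [hpp : Fact p.Prime]

/-- A `p`-group acting linearly on a finite `𝔽_p`-space is unitriangular for a suitable basis. -/
theorem tri {X : Type v} [Group X] [Finite X] (hX : IsPGroup p X) :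
    ∀ (n : ℕ) (V : Type u) [AddCommGroup V] [Module (ZMod p) V] [Finite V],
      Module.finrank (ZMod p) V = n → ∀ ψ : X →* Module.End (ZMod p) V,
      ∃ B : Module.Basis (Fin n) (ZMod p) V, ∀ g, UT (LinearMap.toMatrixAlgEquiv B (ψ g)) := by
  intro n
  induction n with
  | zero =>
    intro V _ _ _ hV ψ
    haveI : Module.Finite (ZMod p) V := Module.Finite.of_finite
    refine ⟨Module.finBasisOfFinrankEq (ZMod p) V hV, fun g => ⟨fun i => i.elim0, fun i => i.elim0⟩⟩
  | succ n ih =>
    intro V _ _ _ hV ψ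
    haveI : Module.Finite (ZMod p) V := Module.Finite.of_finite
    -- a nonzero fixed vector
    letI : MulAction X V := MulAction.compHom V ψ
    have hsmul : ∀ (g : X) (w : V), g • w = ψ g w := fun _ _ => rfl
    have hdvd : p ∣ Nat.card V := by
      rw [Module.natCard_eq_pow_finrank (K := ZMod p), hV, Nat.card_zmod]
      exact dvd_pow_self p (Nat.succ_ne_zero n)
    obtain ⟨v, hv, hv0⟩ := hX.exists_fixed_point_of_prime_dvd_card_of_fixed_point V hdvd
      (a := (0 : V)) (fun g => by rw [hsmul, map_zero])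
    have hvfix : ∀ g, ψ g v = v := fun g => hv g
    have hv0' : v ≠ 0 := fun h => hv0 h.symm
    let L : Submodule (ZMod p) V := Submodule.span (ZMod p) {v}
    have hLfix : ∀ g, ∀ l ∈ L, ψ g l = l := by
      intro g l hl
      obtain ⟨c, rfl⟩ := Submodule.mem_span_singleton.mp hl
      rw [map_smul, hvfix]
    obtain ⟨N, hN⟩ := Submodule.exists_isCompl L
    have hN' : IsCompl N L := hN.symm
    have hfinN : Module.finrank (ZMod p) N = n := by
      have h1 := Submodule.finrank_add_eq_of_isCompl hN
      rw [finrank_span_singleton hv0', hV] at h1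
      omega
    let πN : V →ₗ[ZMod p] N := Submodule.projectionOnto N L hN'
    have hπleft : ∀ x : N, πN (x : V) = x := fun x => Submodule.projectionOnto_apply_left hN' x
    have hπright : ∀ l ∈ L, πN l = 0 := fun l hl =>
      Submodule.projectionOnto_apply_right hN' ⟨l, hl⟩
    have hsub : ∀ y : V, y - (πN y : V) ∈ L := by
      intro y
      have : πN (y - (πN y : V)) = 0 := by
        rw [map_sub, hπleft, sub_self]
      have h2 : y - (πN y : V) ∈ LinearMap.ker (Submodule.projectionOnto N L hN') := this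
      rwa [Submodule.ker_projectionOnto] at h2
    let ψ' : X →* Module.End (ZMod p) N :=
      { toFun := fun g => πN ∘ₗ ψ g ∘ₗ N.subtype
        map_one' := by
          ext x
          simp [hπleft]
        map_mul' := by
          intro g h
          ext x
          show ((πN (ψ (g * h) (x : V)) : N) : V) = ((πN (ψ g ((πN (ψ h (x : V)) : N) : V)) : N) : V)
          rw [map_mul]
          show ((πN (ψ g (ψ h (x : V))) : N) : V) = _
          have h1 := hsub (ψ h (x : V))
          set y := ψ h (x : V) with hy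
          have h2 : y = (πN y : V) + (y - (πN y : V)) := by abel
          conv_lhs => rw [h2]
          rw [map_add, hLfix g _ h1, map_add, hπright _ h1, add_zero] }
    have hψ' : ∀ g (x : N), ψ' g x = πN (ψ g (x : V)) := fun _ _ => rfl
    obtain ⟨BN, hBN⟩ := ih N hfinN ψ'
    have hli : ∀ (c : ZMod p), ∀ x ∈ N, c • v + x = 0 → c = 0 := by
      intro c x hx h
      have h1 : c • v ∈ L := Submodule.smul_mem _ _ (Submodule.mem_span_singleton_self v)
      have h2 : x = -(c • v) := by
        rw [eq_neg_iff_add_eq_zero, add_comm]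
        exact h
      have h3 : x ∈ L := by
        rw [h2]
        exact L.neg_mem h1
      have h4 : x ∈ N ⊓ L := ⟨hx, h3⟩
      rw [hN'.inf_eq_bot, Submodule.mem_bot] at h4
      rw [h4, add_zero] at h
      exact (smul_eq_zero.mp h).resolve_right hv0'
    have hsp : ∀ z : V, ∃ c : ZMod p, z + c • v ∈ N := by
      intro z
      obtain ⟨c, hc⟩ := Submodule.mem_span_singleton.mp (hsub z)
      refine ⟨-c, ?_⟩
      rw [neg_smul, hc]
      have : z + -(z - (πN z : V)) = (πN z : V) := by abel
      rw [this]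
      exact (πN z).2
    let B : Module.Basis (Fin (n + 1)) (ZMod p) V := Module.Basis.mkFinCons v BN hli hsp
    have hB0 : B 0 = v := by
      show (Module.Basis.mkFinCons v BN hli hsp : Fin (n + 1) → V) 0 = v
      rw [Module.Basis.coe_mkFinCons]
      rfl
    have hBs : ∀ i : Fin n, B i.succ = (BN i : V) := by
      intro i
      show (Module.Basis.mkFinCons v BN hli hsp : Fin (n + 1) → V) i.succ = _
      rw [Module.Basis.coe_mkFinCons]
      rfl
    -- coordinates of a vector of `N`
    have hrepr : ∀ x : N, ∀ k, B.repr (x : V) k =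
        (Fin.cons 0 (fun i => BN.repr x i) : Fin (n + 1) → ZMod p) k := by
      intro x k
      have hx : (x : V) = ∑ k, (Fin.cons 0 (fun i => BN.repr x i) : Fin (n + 1) → ZMod p) k • B k := by
        rw [Fin.sum_univ_succ]
        simp only [Fin.cons_zero, zero_smul, zero_add, Fin.cons_succ, hBs]
        have h := congrArg N.subtype (BN.sum_repr x)
        rw [map_sum] at h
        simpa using h.symm
      rw [hx, Module.Basis.repr_sum_self]
    have hrepr0 : ∀ k, B.repr v k = (Fin.cons 1 (fun _ => 0) : Fin (n + 1) → ZMod p) k := by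
      intro k
      rw [← hB0, Module.Basis.repr_self]
      refine Fin.cases ?_ (fun i => ?_) k
      · simp
      · simp
    -- coordinates of the image of a vector of `N`
    have hreprS : ∀ g (x : N) (i : Fin n), B.repr (ψ g (x : V)) i.succ = BN.repr (ψ' g x) i := by
      intro g x i
      have h1 := hsub (ψ g (x : V))
      obtain ⟨c, hc⟩ := Submodule.mem_span_singleton.mp h1
      have h2 : ψ g (x : V) = ((ψ' g x : N) : V) + c • v := by
        rw [hc, hψ']
        abel
      rw [h2, map_add, map_smul, Finsupp.add_apply, Finsupp.smul_apply, hrepr, hrepr0]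
      simp
    refine ⟨B, fun g => ⟨?_, ?_⟩⟩
    · intro i j hji
      rw [LinearMap.toMatrixAlgEquiv_apply]
      induction j using Fin.cases with
      | zero =>
        rw [hB0, hvfix, hrepr0]
        induction i using Fin.cases with
        | zero => exact absurd hji (lt_irrefl _)
        | succ i => simp
      | succ j =>
        rw [hBs]
        induction i using Fin.cases with
        | zero => exact absurd hji (Fin.not_lt_zero _)
        | succ i =>
          rw [hreprS]
          have h3 := (hBN g).1 i j (by simpa using hji)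
          rwa [LinearMap.toMatrixAlgEquiv_apply] at h3
    · intro i
      rw [LinearMap.toMatrixAlgEquiv_apply]
      induction i using Fin.cases with
      | zero =>
        rw [hB0, hvfix, hrepr0]
        simp
      | succ i =>
        rw [hBs, hreprS]
        have h3 := (hBN g).2 i
        rwa [LinearMap.toMatrixAlgEquiv_apply] at h3

/-- The representation attached to an additive action. -/
theorem exists_rep_add {V : Type u} [AddCommGroup V] [Module (ZMod p) V] [Finite V]
    {X : Type v} [Group X] [Finite X] (hX : IsPGroup p X) (φ : X → (V →+ V))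
    (hone : ∀ v, φ 1 v = v) (hmul : ∀ g h v, φ (g * h) v = φ g (φ h v)) :
    ∃ (n : ℕ) (ρ : X →* Matrix (Fin n) (Fin n) (ZMod p)), Nat.card V = p ^ n ∧
      (∀ x, UT (ρ x)) ∧ ∀ x v, ρ x = 1 → φ x v = v := by
  haveI : Module.Finite (ZMod p) V := Module.Finite.of_finite
  let ψ : X →* Module.End (ZMod p) V :=
    { toFun := fun g => AddMonoidHom.toZModLinearMap p (φ g)
      map_one' := by
        apply LinearMap.ext
        intro v
        exact hone v
      map_mul' := by
        intro g h
        apply LinearMap.ext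
        intro v
        exact hmul g h v }
  have hψ : ∀ g (v : V), ψ g v = φ g v := fun _ _ => rfl
  obtain ⟨B, hB⟩ := tri hX _ V rfl ψ
  refine ⟨Module.finrank (ZMod p) V,
    (MonoidHomClass.toMonoidHom (LinearMap.toMatrixAlgEquiv B)).comp ψ, ?_, fun x => hB x, ?_⟩
  · have h1 := Module.natCard_eq_pow_finrank (K := ZMod p) (V := V)
    rw [Nat.card_zmod] at h1
    exact h1
  · intro x v hx
    have h1 : LinearMap.toMatrixAlgEquiv B (ψ x) = LinearMap.toMatrixAlgEquiv B 1 := by
      rw [map_one]
      exact hx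
    have h2 := (LinearMap.toMatrixAlgEquiv B).injective h1
    rw [← hψ, h2]
    rfl

/-- A `p`-group acting on a finite group `A` of exponent `p` (abelian) gets a unitriangular
representation, faithful modulo the kernel of the action. -/
theorem exists_rep {A : Type u} [Group A] [Finite A] (hcomm : ∀ a b : A, a * b = b * a)
    (hexp : ∀ a : A, a ^ p = 1) {X : Type v} [Group X] [Finite X] (hX : IsPGroup p X)
    (θ : X →* MulAut A) :
    ∃ (n : ℕ) (ρ : X →* Matrix (Fin n) (Fin n) (ZMod p)), Nat.card A = p ^ n ∧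
      (∀ x, UT (ρ x)) ∧ ∀ x, ρ x = 1 → θ x = 1 := by
  letI : CommGroup A := { (inferInstance : Group A) with mul_comm := hcomm }
  letI : Module (ZMod p) (Additive A) := AddCommGroup.zmodModule (n := p) (fun x => by
    show Additive.ofMul (x.toMul ^ p) = 0
    rw [hexp]
    rfl)
  obtain ⟨n, ρ, h1, h2, h3⟩ := exists_rep_add (V := Additive A) hX
    (fun g => (θ g : A ≃* A).toMonoidHom.toAdditive)
    (fun v => by
      show Additive.ofMul (θ 1 v.toMul) = v
      rw [map_one]
      rfl)
    (fun g h v => by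
      show Additive.ofMul (θ (g * h) v.toMul) = Additive.ofMul (θ g (θ h v.toMul))
      rw [map_mul]
      rfl)
  refine ⟨n, ρ, ?_, h2, ?_⟩
  · rw [← h1]
    exact Nat.card_congr Additive.ofMul
  · intro x hx
    ext a
    have h4 := h3 x (Additive.ofMul a) hx
    exact Additive.ofMul.injective h4

end Tri

end Cfsg.Agent.Lib.UTRank
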