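import Mathlib

/-!
# Transfer through a cocycle

For `H ≤ G` and `ϕ : H →* A` we write the transfer as a product over `G ⧸ H` of a `1`-cocycle, so that
it can be restricted to invariant subsets of the coset space.
-/

set_option autoImplicit false

namespace Cfsg.Agent.Lib.WYCoc

open Subgroup MulAction

universe u v

variable {G : Type u} [Group G] {A : Type v} [CommGroup A]

section Ext

variable {H : Subgroup G}

open Classical in
/-- The extension of `ϕ : H → A` to a function on `G`, by `1` off `H`. -/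
noncomputable def ext (ϕ : H →* A) (g : G) : A := if h : g ∈ H then ϕ ⟨g, h⟩ else 1

theorem ext_of_mem (ϕ : H →* A) {g : G} (h : g ∈ H) : ext ϕ g = ϕ ⟨g, h⟩ := by
  simp [ext, h]

@[simp] theorem ext_coe (ϕ : H →* A) (g : H) : ext ϕ (g : G) = ϕ g := by
  rw [ext_of_mem ϕ g.2]

theorem ext_mul (ϕ : H →* A) {a b : G} (ha : a ∈ H) (hb : b ∈ H) :
    ext ϕ (a * b) = ext ϕ a * ext ϕ b := by
  rw [ext_of_mem ϕ ha, ext_of_mem ϕ hb, ext_of_mem ϕ (H.mul_mem ha hb), ← map_mul]
  rfl

theorem ext_one (ϕ : H →* A) : ext ϕ (1 : G) = 1 := by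
  rw [ext_of_mem ϕ H.one_mem]
  exact map_one ϕ

end Ext

section Coc

variable (H : Subgroup G) (ϕ : H →* A)

theorem out_mem (g : G) (q : G ⧸ H) : (Quotient.out (g • q))⁻¹ * g * Quotient.out q ∈ H := by
  rw [mul_assoc, ← QuotientGroup.eq]
  rw [QuotientGroup.out_eq']
  conv_rhs => rw [← smul_eq_mul]
  simp only [MulAction.Quotient.coe_smul_out]

/-- The transfer cocycle on `G ⧸ H`. -/
noncomputable def coc (g : G) (q : G ⧸ H) : A :=
  ext ϕ ((Quotient.out (g • q))⁻¹ * g * Quotient.out q)

theorem coc_mul (g h : G) (q : G ⧸ H) : coc H ϕ (g * h) q = coc H ϕ g (h • q) * coc H ϕ h q := by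
  unfold coc
  rw [← ext_mul ϕ (out_mem H g (h • q)) (out_mem H h q), mul_smul]
  congr 1
  group

theorem coc_one (q : G ⧸ H) : coc H ϕ 1 q = 1 := by
  have h := coc_mul H ϕ 1 1 q
  rw [one_smul, mul_one] at h
  exact (mul_eq_left.mp h.symm)

theorem coc_pow (x : G) (q : G ⧸ H) (n : ℕ) :
    coc H ϕ (x ^ n) q = ∏ k ∈ Finset.range n, coc H ϕ x (x ^ k • q) := by
  induction n with
  | zero => simp [coc_one]
  | succ n ih =>
    rw [Finset.prod_range_succ, ← ih, pow_succ', coc_mul, mul_comm]

/-- The value of the cocycle at a fixed point. -/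
theorem coc_of_fixed {g : G} {q : G ⧸ H} (h : g • q = q) :
    coc H ϕ g q = ext ϕ ((Quotient.out q)⁻¹ * g * Quotient.out q) := by
  unfold coc
  rw [h]

/-- Conjugation formula at a fixed point. -/
theorem coc_conj_of_fixed (t w : G) {q : G ⧸ H} (h : w • q = q) :
    coc H ϕ (t * w * t⁻¹) (t • q) = coc H ϕ w q := by
  have h1 : coc H ϕ (t * w * t⁻¹) (t • q) = coc H ϕ t q * coc H ϕ w q * coc H ϕ t⁻¹ (t • q) := by
    rw [coc_mul, coc_mul, mul_assoc (coc H ϕ t _)]
    simp only [smul_smul, inv_mul_cancel, one_smul, h]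
    rw [mul_assoc]
  have h2 : coc H ϕ t q * coc H ϕ t⁻¹ (t • q) = 1 := by
    have := coc_mul H ϕ t⁻¹ t q
    rw [inv_mul_cancel, coc_one] at this
    rw [mul_comm]; exact this.symm
  rw [h1, mul_right_comm, h2, one_mul]

/-- The transfer as a product of the cocycle. -/
theorem transfer_eq_prod [H.FiniteIndex] [Fintype (G ⧸ H)] (g : G) :
    ϕ.transfer g = ∏ q : G ⧸ H, coc H ϕ g q := by
  classical
  let f : G ⧸ H → G := Quotient.out
  have hf : ∀ q, ((f q : G) : G ⧸ H) = q := fun q => QuotientGroup.out_eq' q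
  let T : H.LeftTransversal := ⟨Set.range f, isComplement_range_left hf⟩
  rw [MonoidHom.transfer_def ϕ T g]
  have h0 : Subgroup.leftTransversals.diff ϕ T (g • T) =
      ∏ q : G ⧸ H, ext ϕ ((f q)⁻¹ * (g * f (g⁻¹ • q))) := by
    unfold Subgroup.leftTransversals.diff
    simp only
    apply Finset.prod_congr
    · ext; simp
    intro q _
    have h1 : ((T.2.leftQuotientEquiv q : _) : G) = f q :=
      IsComplement.leftQuotientEquiv_apply hf q
    have h2 : (((g • T).2.leftQuotientEquiv q : _) : G) = g * f (g⁻¹ • q) := by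
      rw [Subgroup.smul_apply_eq_smul_apply_inv_smul]
      have h3 : ((T.2.leftQuotientEquiv (g⁻¹ • q) : _) : G) = f (g⁻¹ • q) :=
        IsComplement.leftQuotientEquiv_apply hf _
      rw [h3]
      rfl
    rw [← ext_of_mem ϕ, h1, h2]
  rw [h0]
  rw [← Equiv.prod_comp (MulAction.toPerm g)]
  apply Finset.prod_congr rfl
  intro q _
  simp only [MulAction.toPerm_apply, inv_smul_smul]
  unfold coc
  congr 1
  exact (mul_assoc _ _ _).symm

end Coc

/-! ### Products over invariant sets, cycle by cycle -/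

section Cycles

variable {Ω : Type*} [Finite Ω] {B : Type*} [CommMonoid B]

/-- Two functions with equal products along every cycle of `σ` have equal products over a
`σ`-invariant finset. -/
theorem prod_eq_of_cycles (σ : Equiv.Perm Ω) (F₁ F₂ : Ω → B) :
    ∀ (n : ℕ) (s : Finset Ω), s.card = n → (∀ q ∈ s, σ q ∈ s) →
      (∀ q ∈ s, ∏ k ∈ Finset.range (Function.minimalPeriod σ q), F₁ (σ^[k] q) =
        ∏ k ∈ Finset.range (Function.minimalPeriod σ q), F₂ (σ^[k] q)) →
      ∏ q ∈ s, F₁ q = ∏ q ∈ s, F₂ q := by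
  classical
  intro n
  induction n using Nat.strong_induction_on with
  | _ n ih =>
  intro s hn hinv hcyc
  rcases s.eq_empty_or_nonempty with rfl | ⟨q, hq⟩
  · simp
  -- the cycle of `q`
  set m := Function.minimalPeriod σ q with hm
  have hper : q ∈ Function.periodicPts σ := by
    obtain ⟨k, hk, hk2⟩ := isOfFinOrder_iff_pow_eq_one.mp (isOfFinOrder_of_finite σ)
    refine ⟨k, hk, ?_⟩
    have : (σ ^ k) q = q := by rw [hk2]; rfl
    simpa [Function.IsPeriodicPt, Function.IsFixedPt, Equiv.Perm.iterate_eq_pow] using this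
  have hmpos : 0 < m := Function.minimalPeriod_pos_of_mem_periodicPts hper
  set O : Finset Ω := (Finset.range m).image (fun k => σ^[k] q) with hO
  have hinj : Set.InjOn (fun k => σ^[k] q) (Finset.range m : Set ℕ) := by
    intro a ha b hb hab
    have ha' : a < m := by simpa using ha
    have hb' : b < m := by simpa using hb
    exact Function.iterate_injOn_Iio_minimalPeriod (by simpa using ha') (by simpa using hb') hab
  have hOs : O ⊆ s := by
    intro y hy
    obtain ⟨k, -, rfl⟩ := Finset.mem_image.mp hy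
    clear hy
    induction k with
    | zero => simpa using hq
    | succ k ih2 =>
      rw [Function.iterate_succ_apply']
      exact hinv _ ih2
  have hqO : q ∈ O := Finset.mem_image.mpr ⟨0, Finset.mem_range.mpr hmpos, rfl⟩
  have hsub : ∀ F : Ω → B, ∏ y ∈ O, F y = ∏ k ∈ Finset.range m, F (σ^[k] q) := by
    intro F
    rw [hO, Finset.prod_image]
    intro a ha b hb hab
    exact hinj ha hb hab
  have hcard : (s \ O).card < n := by
    rw [← hn]
    exact Finset.card_lt_card (Finset.sdiff_ssubset hOs ⟨q, hqO⟩)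
  have hper' : σ^[m] q = q := Function.iterate_minimalPeriod
  have hinv' : ∀ y ∈ s \ O, σ y ∈ s \ O := by
    intro y hy
    obtain ⟨hys, hyO⟩ := Finset.mem_sdiff.mp hy
    refine Finset.mem_sdiff.mpr ⟨hinv y hys, fun hc => hyO ?_⟩
    obtain ⟨k, hk, hk2⟩ := Finset.mem_image.mp hc
    have hk' : k < m := Finset.mem_range.mp hk
    cases k with
    | zero =>
      have h1 : σ (σ^[m - 1] q) = q := by
        rw [← Function.iterate_succ_apply' σ (m - 1) q]
        have : (m - 1).succ = m := Nat.succ_pred_eq_of_pos hmpos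
        rw [this]; exact hper'
      have h2 : σ y = σ (σ^[m - 1] q) := by
        rw [h1, ← hk2]; rfl
      have h3 : y = σ^[m - 1] q := σ.injective h2
      rw [h3]
      exact Finset.mem_image.mpr ⟨m - 1, Finset.mem_range.mpr (by omega), rfl⟩
    | succ k =>
      rw [Function.iterate_succ_apply'] at hk2
      have h3 : y = σ^[k] q := (σ.injective hk2).symm
      rw [h3]
      exact Finset.mem_image.mpr ⟨k, Finset.mem_range.mpr (by omega), rfl⟩
  have hrec := ih _ hcard (s \ O) rfl hinv' (fun y hy => hcyc y (Finset.mem_sdiff.mp hy).1)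
  rw [← Finset.prod_sdiff hOs, ← Finset.prod_sdiff (f := F₂) hOs, hrec, hsub F₁, hsub F₂, hcyc q hq]

end Cycles

end Cfsg.Agent.Lib.WYCoc
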