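import Mathlib
import Cfsg.Agent.Lib.WYCoc

/-!
# Tate's extension lemma

If `H ≤ G` has index prime to `p` and every hom `H → C_p` extends to `G`, then every hom of `H` into a
finite `p`-group extends to `G`. The argument is by induction on the `p`-group, splitting a central
extension with a transfer.
-/

set_option autoImplicit false
set_option linter.style.haveILetI false

namespace Cfsg.Agent.Lib.WYTate

open Subgroup Cfsg.Agent.Lib.WYCoc

universe u

/-- Twisting a hom by a hom with central values. -/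
def twist {E Q B : Type*} [Group E] [Group Q] [CommGroup B] (κ : E →* Q) (l : B →* Q)
    (hl : ∀ b u, l b * u = u * l b) (a : E →* B) : E →* Q where
  toFun t := κ t * l (a t)
  map_one' := by simp
  map_mul' x y := by
    simp only [map_mul]
    have := hl (a x) (κ y)
    calc κ x * κ y * (l (a x) * l (a y)) = κ x * (κ y * l (a x)) * l (a y) := by group
      _ = κ x * (l (a x) * κ y) * l (a y) := by rw [this]
      _ = _ := by group

theorem twist_apply {E Q B : Type*} [Group E] [Group Q] [CommGroup B] (κ : E →* Q) (l : B →* Q)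
    (hl : ∀ b u, l b * u = u * l b) (a : E →* B) (t : E) : twist κ l hl a t = κ t * l (a t) := rfl

theorem tate_control {G : Type u} [Group G] [Finite G] {p : ℕ} [hp : Fact p.Prime] (H : Subgroup G)
    (hHi : ¬ p ∣ H.index)
    (hext : ∀ δ : H →* Multiplicative (ZMod p), ∃ F : G →* Multiplicative (ZMod p),
      ∀ h : H, F h = δ h) :
    ∀ (n : ℕ) (Q : Type u) [Group Q] [Finite Q], Nat.card Q = n → IsPGroup p Q →
      ∀ θ : H →* Q, ∃ φ : G →* Q, ∀ h : H, φ h = θ h := by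
  intro n
  induction n using Nat.strong_induction_on with
  | _ n ih =>
  intro Q _ _ hn hQ θ
  by_cases hQ1 : Nontrivial Q
  swap
  · haveI : Subsingleton Q := not_nontrivial_iff_subsingleton.mp hQ1
    exact ⟨1, fun h => Subsingleton.elim _ _⟩
  haveI hcn := hQ.center_nontrivial
  have hdvd : p ∣ Nat.card (center Q) := by
    rcases (hQ.to_subgroup (center Q)).card_eq_or_dvd with h | h
    · exact absurd h (Finite.one_lt_card (α := center Q)).ne'
    · exact h
  obtain ⟨z₀, hz₀⟩ := exists_prime_orderOf_dvd_card' (G := center Q) p hdvd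
  let Z : Subgroup Q := zpowers (z₀ : Q)
  have hZc : Z ≤ center Q := zpowers_le.2 z₀.2
  have hZcomm : ∀ c ∈ Z, ∀ u : Q, c * u = u * c := fun c hc u =>
    ((mem_center_iff.1 (hZc hc) u)).symm
  haveI hZn : Z.Normal := ⟨fun c hc g => by
    rw [(hZcomm c hc g).symm]
    simpa using hc⟩
  have hZcard : Nat.card Z = p := by
    rw [Nat.card_zpowers, Subgroup.orderOf_coe, hz₀]
  let A₀ := Multiplicative (ZMod p)
  have hA₀card : Nat.card A₀ = p := by
    change Nat.card (Multiplicative (ZMod p)) = p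
    simp [Nat.card_eq_fintype_card]
  have hA₀exp : ∀ a : A₀, a ^ p = 1 := by
    intro a
    have := pow_card_eq_one' (x := a)
    rwa [hA₀card] at this
  let e : Z ≃* A₀ := mulEquivOfPrimeCardEq hZcard hA₀card
  let π : Q →* Q ⧸ Z := QuotientGroup.mk' Z
  have hπ : ∀ c : Q, π c = 1 ↔ c ∈ Z := fun c => QuotientGroup.eq_one_iff c
  have hlt : Nat.card (Q ⧸ Z) < n := by
    have h1 : Nat.card Q = Nat.card (Q ⧸ Z) * Nat.card Z :=
      Subgroup.card_eq_card_quotient_mul_card_subgroup Z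
    rw [hZcard, hn] at h1
    have h2 : 0 < n := by rw [← hn]; exact Nat.card_pos
    have h3 : 0 < Nat.card (Q ⧸ Z) := Nat.card_pos
    have h4 := hp.out.two_le
    nlinarith
  obtain ⟨φ₁, hφ₁⟩ := ih _ hlt (Q ⧸ Z) rfl
    (hQ.of_surjective π (QuotientGroup.mk'_surjective Z)) (π.comp θ)
  -- the fibre product
  let E : Subgroup (G × Q) := (φ₁.comp (MonoidHom.fst G Q)).eqLocus (π.comp (MonoidHom.snd G Q))
  have hEmem : ∀ t : G × Q, t ∈ E ↔ φ₁ t.1 = π t.2 := fun t => Iff.rfl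
  let pr : E →* G := (MonoidHom.fst G Q).comp E.subtype
  have hprapply : ∀ t : E, pr t = (t : G × Q).1 := fun t => rfl
  have hpr : Function.Surjective pr := by
    intro g
    obtain ⟨u, hu⟩ := QuotientGroup.mk'_surjective Z (φ₁ g)
    exact ⟨⟨(g, u), (hEmem _).2 hu.symm⟩, rfl⟩
  let T : Subgroup E := H.comap pr
  have hTi : T.index = H.index := Subgroup.index_comap_of_surjective H hpr
  have hTmem : ∀ t : E, t ∈ T ↔ (t : G × Q).1 ∈ H := fun t => Iff.rfl
  -- elements of the fibre product over `H` differ from `θ` by elements of `Z`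
  have hTZ : ∀ t : T, (t : E).1.2 * (θ ⟨(t : E).1.1, t.2⟩)⁻¹ ∈ Z := by
    intro t
    rw [← hπ, map_mul, map_inv]
    have h1 : φ₁ (t : E).1.1 = π (t : E).1.2 := (hEmem _).1 (t : E).2
    have h2 := hφ₁ ⟨(t : E).1.1, t.2⟩
    simp only [MonoidHom.comp_apply] at h2
    rw [← h1, ← h2, mul_inv_cancel]
  let ρ : T →* A₀ := MonoidHom.mk' (fun t => WYCoc.ext e.toMonoidHom
      ((t : E).1.2 * (θ ⟨(t : E).1.1, t.2⟩)⁻¹)) (by
    intro a b
    rw [← ext_mul _ (hTZ a) (hTZ b)]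
    congr 1
    have h1 : (θ ⟨((a * b : T) : E).1.1, (a * b : T).2⟩) =
        θ ⟨(a : E).1.1, a.2⟩ * θ ⟨(b : E).1.1, b.2⟩ := by
      rw [← map_mul]
      rfl
    rw [h1]
    have h2 := hZcomm _ (hTZ b) ((θ ⟨(a : E).1.1, a.2⟩)⁻¹)
    have h3 : ((a * b : T) : E).1.2 = (a : E).1.2 * (b : E).1.2 := rfl
    rw [h3, mul_inv_rev]
    calc (a : E).1.2 * (b : E).1.2 * ((θ ⟨(b : E).1.1, b.2⟩)⁻¹ * (θ ⟨(a : E).1.1, a.2⟩)⁻¹)
        = (a : E).1.2 * (((b : E).1.2 * (θ ⟨(b : E).1.1, b.2⟩)⁻¹) * (θ ⟨(a : E).1.1, a.2⟩)⁻¹) := by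
          group
      _ = (a : E).1.2 * ((θ ⟨(a : E).1.1, a.2⟩)⁻¹ * ((b : E).1.2 * (θ ⟨(b : E).1.1, b.2⟩)⁻¹)) := by
          rw [h2]
      _ = _ := by group)
  have hρ : ∀ t : T, ρ t = WYCoc.ext e.toMonoidHom ((t : E).1.2 * (θ ⟨(t : E).1.1, t.2⟩)⁻¹) :=
    fun t => rfl
  let V : E →* A₀ := ρ.transfer
  -- the inclusion of `A₀`
  let l : A₀ →* Q := Z.subtype.comp e.symm.toMonoidHom
  have hlmem : ∀ a, l a ∈ Z := fun a => (e.symm a).2
  have hlcomm : ∀ b u, l b * u = u * l b := fun b u => hZcomm _ (hlmem b) u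
  have hlext : ∀ c (hc : c ∈ Z), l (WYCoc.ext e.toMonoidHom c) = c := by
    intro c hc
    rw [ext_of_mem _ hc]
    simp [l]
  -- the value of `V` on central elements
  have hVc : ∀ (c : Q) (hc : c ∈ Z) (hc' : ((1 : G), c) ∈ E),
      V ⟨((1 : G), c), hc'⟩ = WYCoc.ext e.toMonoidHom c ^ H.index := by
    intro c hc hc'
    set c' : E := ⟨((1 : G), c), hc'⟩ with hc'def
    have hcen : ∀ (k : ℕ) (g₀ : E), g₀⁻¹ * c' ^ k * g₀ = c' ^ k := by
      intro k g₀
      have h1 : ∀ g₁ : E, c' * g₁ = g₁ * c' := by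
        intro g₁
        apply Subtype.ext
        apply Prod.ext
        · simp [c']
        · simpa [c'] using hZcomm c hc g₁.1.2
      have h2 : c' ^ k * g₀ = g₀ * c' ^ k := ((Commute.pow_left (h1 g₀) k)).eq
      rw [mul_assoc, h2]
      group
    have h2 := MonoidHom.transfer_eq_pow ρ c' (fun k g₀ _ => hcen k g₀)
    change ρ.transfer c' = _
    rw [h2, hρ]
    have h3 : ((c' ^ T.index : E)).1.2 = c ^ T.index := by
      simp [c']
    have h4 : θ ⟨(c' ^ T.index : E).1.1, by simp [c', H.one_mem]⟩ = 1 := by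
      have : (⟨(c' ^ T.index : E).1.1, by simp [c', H.one_mem]⟩ : H) = 1 := by
        apply Subtype.ext
        simp [c']
      rw [this, map_one]
    have h5 : WYCoc.ext e.toMonoidHom (c ^ T.index) = WYCoc.ext e.toMonoidHom c ^ T.index := by
      rw [ext_of_mem _ hc, ext_of_mem _ (Z.pow_mem hc _), ← map_pow]
      rfl
    simp only
    rw [h3, h4, inv_one, mul_one, h5, hTi]
  -- the splitting of the fibre product
  have hcop : Nat.Coprime H.index p :=
    ((Nat.Prime.coprime_iff_not_dvd hp.out).2 hHi).symm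
  obtain ⟨n₀, hn₀⟩ := Nat.exists_mul_mod_eq_one_of_coprime hcop hp.out.one_lt
  have hpow : ∀ a : A₀, (a ^ H.index) ^ n₀ = a := by
    intro a
    rw [← pow_mul, pow_eq_pow_mod _ (hA₀exp a), hn₀.2, pow_one]
  let V' : E →* A₀ := (V ^ n₀)⁻¹
  have hV' : ∀ t, V' t = (V t ^ n₀)⁻¹ := fun t => rfl
  let φ' : E →* Q := twist ((MonoidHom.snd G Q).comp E.subtype) l hlcomm V'
  have hφ' : ∀ t : E, φ' t = t.1.2 * l (V' t) := fun t => rfl
  have hker : pr.ker ≤ φ'.ker := by
    rintro ⟨⟨g, c⟩, ht⟩ htk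
    have hg : g = 1 := htk
    subst hg
    have hc : c ∈ Z := by
      rw [← hπ]
      have := (hEmem _).1 ht
      simpa using this.symm
    rw [MonoidHom.mem_ker, hφ', hV']
    simp only
    rw [hVc c hc ht, hpow, map_inv, hlext c hc, mul_inv_cancel]
  let φ₀ : G →* Q := pr.liftOfSurjective hpr ⟨φ', hker⟩
  have hφ₀ : ∀ t : E, φ₀ (t : G × Q).1 = φ' t := by
    intro t
    exact MonoidHom.liftOfRightInverse_comp_apply pr _ _ ⟨φ', hker⟩ t
  have hφ₀π : ∀ g : G, π (φ₀ g) = φ₁ g := by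
    intro g
    obtain ⟨t, rfl⟩ := hpr g
    rw [hprapply, hφ₀, hφ', map_mul, (hπ _).2 (hlmem _), mul_one]
    exact ((hEmem _).1 t.2).symm
  -- the correction on `H`
  have hHZ : ∀ h : H, (θ h)⁻¹ * φ₀ h ∈ Z := by
    intro h
    rw [← hπ, map_mul, map_inv, hφ₀π]
    have := hφ₁ h
    simp only [MonoidHom.comp_apply] at this
    rw [this, inv_mul_cancel]
  let δ : H →* A₀ := MonoidHom.mk' (fun h => WYCoc.ext e.toMonoidHom ((θ h)⁻¹ * φ₀ h)) (by
    intro a b
    rw [← ext_mul _ (hHZ a) (hHZ b)]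
    congr 1
    simp only [map_mul, Subgroup.coe_mul, mul_inv_rev]
    have h2 := hZcomm _ (hHZ a) (φ₀ b)
    have h3 := hZcomm _ (hHZ a) (θ b)⁻¹
    calc (θ b)⁻¹ * (θ a)⁻¹ * (φ₀ a * φ₀ b) = (θ b)⁻¹ * ((θ a)⁻¹ * φ₀ a) * φ₀ b := by group
      _ = (θ a)⁻¹ * φ₀ a * (θ b)⁻¹ * φ₀ b := by rw [h3]
      _ = _ := by group)
  obtain ⟨Δ, hΔ⟩ := hext δ
  refine ⟨twist φ₀ l hlcomm Δ⁻¹, fun h => ?_⟩
  rw [twist_apply]
  have h1 : (Δ⁻¹) (h : G) = (δ h)⁻¹ := by
    change (Δ (h : G))⁻¹ = _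
    rw [hΔ]
  rw [h1, map_inv]
  have h2 : l (δ h) = (θ h)⁻¹ * φ₀ h := hlext _ (hHZ h)
  rw [h2]
  group

end Cfsg.Agent.Lib.WYTate
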