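import Mathlib
import Cfsg.Agent.Lib.WardSym

/-!
# The weights of an elementary abelian group of order `p ^ 2`

Abstract setting for Ward's theorem: weights of `R` on a module `U`, permuted by `A` and by `Y`.
-/

set_option autoImplicit false
set_option linter.unusedSectionVars false
set_option linter.unusedVariables false
set_option linter.style.haveILetI false

namespace Cfsg.Agent.Lib.WardCore

open Module Cfsg.Agent.Lib.HHCore Cfsg.Agent.Lib.HHChar Cfsg.Agent.Lib.HHFermat Cfsg.Agent.Lib.WardSym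

universe u

/-- Fixed points lift through invariant sections. -/
theorem exists_fixed_mul {P R : Type*} [Group P] [Finite P] [Group R] [Finite R] {p : ℕ} [Fact p.Prime]
    (hP : IsPGroup p P) (α : P →* MulAut R) (N : Subgroup R) (hNp : ¬ p ∣ Nat.card N)
    (hN : ∀ x, ∀ n ∈ N, α x n ∈ N) (s : R) (hs : ∀ x, s⁻¹ * α x s ∈ N) :
    ∃ n ∈ N, ∀ x, α x (s * n) = s * n := by
  letI act : MulAction P N :=
    { smul := fun x n => ⟨s⁻¹ * α x (s * n), by
        have h1 : s⁻¹ * α x (s * n) = (s⁻¹ * α x s) * α x n := by rw [map_mul]; group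
        rw [h1]
        exact N.mul_mem (hs x) (hN x n n.2)⟩
      one_smul := by
        intro n
        apply Subtype.ext
        show s⁻¹ * α 1 (s * n) = n
        rw [map_one]
        show s⁻¹ * (s * n) = n
        group
      mul_smul := by
        intro x y n
        apply Subtype.ext
        show s⁻¹ * α (x * y) (s * n) = s⁻¹ * α x (s * (s⁻¹ * α y (s * n)))
        rw [mul_inv_cancel_left, map_mul α x y]
        rfl }
  obtain ⟨n, hn⟩ := hP.nonempty_fixed_point_of_prime_not_dvd_card N hNp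
  refine ⟨n, n.2, fun x => ?_⟩
  have h1 := (MulAction.mem_fixedPoints.1 hn) x
  have h2 : s⁻¹ * α x (s * n) = n := congrArg Subtype.val h1
  rw [inv_mul_eq_iff_eq_mul] at h2
  exact h2

section Arith

variable {A : Type*} [CommGroup A] {p : ℕ}

theorem mem_of_pow_mem (hp : p.Prime) (D : Subgroup A) {x : A} (hx : x ^ p = 1) {n : ℕ} (hn : ¬ p ∣ n)
    (h : x ^ n ∈ D) : x ∈ D := by
  have hcop : Nat.Coprime n p := ((Nat.Prime.coprime_iff_not_dvd hp).mpr hn).symm
  obtain ⟨m, -, hm⟩ := Nat.exists_mul_mod_eq_one_of_coprime hcop hp.one_lt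
  have h1 : x = (x ^ n) ^ m := by
    rw [← pow_mul, pow_eq_pow_mod (n * m) hx, hm, pow_one]
  rw [h1]
  exact D.pow_mem h m

variable [Finite A]

theorem card_zpowers_of_ne (hp : p.Prime) {b : A} (hb1 : b ≠ 1) (hb : b ^ p = 1) :
    Nat.card (Subgroup.zpowers b) = p := by
  haveI : Fact p.Prime := ⟨hp⟩
  rw [Nat.card_zpowers]
  exact orderOf_eq_prime hb hb1

theorem zpowers_eq_of_ne_top (hp : p.Prime) (hcard : Nat.card A = p ^ 2) (D : Subgroup A) (hD : D ≠ ⊤)
    {b : A} (hbD : b ∈ D) (hb1 : b ≠ 1) (hb : b ^ p = 1) : D = Subgroup.zpowers b := by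
  have h1 : Subgroup.zpowers b ≤ D := by
    rw [Subgroup.zpowers_le]; exact hbD
  have h2 : p ∣ Nat.card D := by
    rw [← card_zpowers_of_ne hp hb1 hb]
    exact Subgroup.card_dvd_of_le h1
  obtain ⟨k, hk, hk2⟩ := (Nat.dvd_prime_pow hp).mp (hcard ▸ Subgroup.card_subgroup_dvd_card D)
  have hk3 : k ≠ 2 := by
    rintro rfl
    exact hD (Subgroup.eq_top_of_card_eq D (by rw [hk2, hcard]))
  have hk0 : k ≠ 0 := by
    rintro rfl
    rw [hk2, pow_zero] at h2
    exact hp.one_lt.ne' (Nat.dvd_one.mp h2)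
  have hk1 : k = 1 := by omega
  rw [hk1, pow_one] at hk2
  refine (Subgroup.eq_of_le_of_card_ge h1 ?_).symm
  rw [hk2, card_zpowers_of_ne hp hb1 hb]

theorem exists_gen (hp : p.Prime) (hA : ∀ x : A, x ^ p = 1) (hcard : Nat.card A = p ^ 2) {b c : A}
    (hb : b ≠ 1) (hc : c ∉ Subgroup.zpowers b) : ∀ x : A, ∃ i j : ℕ, x = b ^ i * c ^ j := by
  have htop : Subgroup.zpowers b ⊔ Subgroup.zpowers c = ⊤ := by
    by_contra hne
    have h1 := zpowers_eq_of_ne_top hp hcard _ hne (Subgroup.mem_sup_left (Subgroup.mem_zpowers b)) hb (hA b)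
    apply hc
    rw [← h1]
    exact Subgroup.mem_sup_right (Subgroup.mem_zpowers c)
  intro x
  have hx : x ∈ Subgroup.zpowers b ⊔ Subgroup.zpowers c := htop ▸ Subgroup.mem_top x
  obtain ⟨y, hy, z, hz, rfl⟩ := Subgroup.mem_sup.mp hx
  obtain ⟨i, rfl⟩ := mem_powers_iff_mem_zpowers.mpr hy
  obtain ⟨j, rfl⟩ := mem_powers_iff_mem_zpowers.mpr hz
  exact ⟨i, j, rfl⟩

end Arith

section Weights

variable {K : Type u} [Field K] {U : Type*} [AddCommGroup U] [Module K U]
  {R : Type*} [Group R] [Fintype R] {A : Type*} [CommGroup A] [Fintype A]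
  {ρ : R →* End K U} {α : A →* MulAut R} {τ : A →* End K U}

/-- The stabilizer of a weight. -/
def stab (α : A →* MulAut R) (lam : R →* K) : Subgroup A where
  carrier := {x | ∀ s, lam (α x s) = lam s}
  mul_mem' := by
    intro x y hx hy s
    rw [map_mul, MulAut.mul_apply, hx, hy]
  one_mem' := by
    intro s
    rw [map_one]; rfl
  inv_mem' := by
    intro x hx s
    have h1 := hx ((α x⁻¹) s)
    rw [← h1, ← MulAut.mul_apply, ← map_mul, mul_inv_cancel, map_one]
    rfl

theorem mem_stab {lam : R →* K} {x : A} : x ∈ stab α lam ↔ ∀ s, lam (α x s) = lam s := Iff.rfl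

theorem twist_eq_iff {lam : R →* K} {x : A} : twistChar (α x) lam = lam ↔ x ∈ stab α lam := by
  constructor
  · intro h s
    have h1 : twistChar (α x) lam (α x s) = lam (α x s) := by rw [h]
    rw [← h1, twistChar_apply, ← MulAut.mul_apply, inv_mul_cancel]
    rfl
  · intro h
    ext a
    rw [twistChar_apply]
    have h1 := h ((α x)⁻¹ a)
    rw [← MulAut.mul_apply, mul_inv_cancel] at h1
    exact h1.symm

/-- The descent from `A` to the stabilizer of a weight. -/
theorem descent_A [DecidablePred (· ∈ stab α (1 : R →* K))] (hR : (Fintype.card R : K) ≠ 0)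
    (hτρ : ∀ x s, τ x * ρ s = ρ (α x s) * τ x) {lam : R →* K} {u : U} (hu : u ∈ wt ρ lam)
    (hS : ∑ x, τ x u = 0) : ∀ D : Finset A, (∀ x, x ∈ D ↔ x ∈ stab α lam) → ∑ x ∈ D, τ x u = 0 := by
  classical
  intro D hD
  have h1 := congrArg (prj ρ lam) hS
  rw [map_sum, map_zero] at h1
  have h2 : ∀ x, prj ρ lam (τ x u) = if x ∈ D then (Fintype.card R : K) • τ x u else 0 := by
    intro x
    have h3 : τ x u ∈ wt ρ (twistChar (α x) lam) := g_mem_wt (fun a => hτρ x a) hu
    by_cases hx : x ∈ D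
    · rw [if_pos hx]
      have h4 := twist_eq_iff.mpr ((hD x).mp hx)
      rw [h4] at h3
      exact prj_self ρ lam h3
    · rw [if_neg hx]
      refine prj_other ρ ?_ h3
      intro h4
      exact hx ((hD x).mpr (twist_eq_iff.mp h4))
  simp only [h2] at h1
  rw [← Finset.sum_filter, Finset.filter_mem_eq_inter, Finset.univ_inter, ← Finset.smul_sum] at h1
  exact (smul_eq_zero.mp h1).resolve_left hR

/-- Every weight has a nontrivial stabilizer. -/
theorem exists_stab (hR : (Fintype.card R : K) ≠ 0)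
    (hτρ : ∀ x s, τ x * ρ s = ρ (α x s) * τ x) (hsum : ∑ x, τ x = 0) {lam : R →* K}
    (hlam : wt ρ lam ≠ ⊥) : ∃ b : A, b ≠ 1 ∧ b ∈ stab α lam := by
  classical
  by_contra hcon
  push Not at hcon
  obtain ⟨u, hu, hu0⟩ := Submodule.exists_mem_ne_zero_of_ne_bot hlam
  have hS : ∑ x, τ x u = 0 := by
    have h1 := congrArg (fun z : End K U => z u) hsum
    simpa [LinearMap.sum_apply] using h1
  have h2 := descent_A hR hτρ hu hS {1} (by
    intro x
    rw [Finset.mem_singleton]
    constructor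
    · rintro rfl
      exact (stab α lam).one_mem
    · intro hx
      by_contra hne
      exact hcon x hne hx)
  rw [Finset.sum_singleton, map_one] at h2
  exact hu0 h2

/-- The norm of a generator of the stabilizer vanishes on the weight space. -/
theorem norm_on_wt {p : ℕ} (hp : p.Prime) (hA : ∀ x : A, x ^ p = 1) (hcard : Nat.card A = p ^ 2)
    (hR : (Fintype.card R : K) ≠ 0)
    (hτρ : ∀ x s, τ x * ρ s = ρ (α x s) * τ x) (hsum : ∑ x, τ x = 0) {lam : R →* K}
    (hne : stab α lam ≠ ⊤) {b : A} (hb1 : b ≠ 1) (hb : b ∈ stab α lam) {u : U} (hu : u ∈ wt ρ lam) :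
    ∑ j ∈ Finset.range p, (τ b ^ j) u = 0 := by
  classical
  have hS : ∑ x, τ x u = 0 := by
    have h1 := congrArg (fun z : End K U => z u) hsum
    simpa [LinearMap.sum_apply] using h1
  have hbp := hA b
  have hD := zpowers_eq_of_ne_top hp hcard _ hne hb hb1 hbp
  have hinj : Set.InjOn (fun j : ℕ => b ^ j) (Finset.range p : Set ℕ) := by
    haveI : Fact p.Prime := ⟨hp⟩
    have hord : orderOf b = p := orderOf_eq_prime hbp hb1
    intro i hi j hj h
    simp only [Finset.coe_range, Set.mem_Iio] at hi hj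
    exact pow_injOn_Iio_orderOf (by rw [Set.mem_Iio, hord]; exact hi) (by rw [Set.mem_Iio, hord]; exact hj) h
  have h2 := descent_A hR hτρ hu hS ((Finset.range p).image fun j => b ^ j) (by
    intro x
    rw [Finset.mem_image, hD]
    constructor
    · rintro ⟨j, -, rfl⟩
      exact Subgroup.pow_mem _ (Subgroup.mem_zpowers b) j
    · intro hx
      obtain ⟨j, rfl⟩ := mem_powers_iff_mem_zpowers.mpr hx
      refine ⟨j % p, Finset.mem_range.mpr (Nat.mod_lt _ hp.pos), ?_⟩
      exact (pow_eq_pow_mod j hbp).symm)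
  rw [Finset.sum_image hinj] at h2
  simpa only [map_pow] using h2

/-- A weight stabilized by `A` is trivial. -/
theorem trivial_of_stab_top {p : ℕ} (hp : p.Prime) (hA : ∀ x : A, x ^ p = 1) (hpR : ¬ p ∣ Nat.card R)
    (hfix : ∀ s, (∀ x, α x s = s) → s = 1) {lam : R →* K} (hlam : stab α lam = ⊤) (s : R) : lam s = 1 := by
  haveI : Fact p.Prime := ⟨hp⟩
  have hAp : IsPGroup p A := fun x => ⟨1, by rw [pow_one]; exact hA x⟩
  have hst : ∀ x s, lam (α x s) = lam s := by
    intro x s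
    have : x ∈ stab α lam := hlam ▸ Subgroup.mem_top x
    exact this s
  obtain ⟨n, hn, hfx⟩ := exists_fixed_mul hAp α lam.ker
    (fun h => hpR (h.trans (Subgroup.card_subgroup_dvd_card _)))
    (by
      intro x n hn
      rw [MonoidHom.mem_ker] at hn ⊢
      rw [hst, hn])
    s (by
      intro x
      rw [MonoidHom.mem_ker, map_mul, map_inv, hst, inv_mul_cancel₀ (lam_ne_zero lam s)])
  have h1 := hfix _ hfx
  have h2 : lam (s * n) = 1 := by rw [h1, map_one]
  rw [map_mul, MonoidHom.mem_ker.mp hn, mul_one] at h2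
  exact h2

end Weights

section Fixed

variable {K : Type u} [Field K] {U : Type*} [AddCommGroup U] [Module K U]
  {R : Type*} [Group R] [Fintype R] {A : Type*} [CommGroup A] [Fintype A]
  {Y : Type*} [Group Y] [Fintype Y]
  {ρ : R →* End K U} {α : A →* MulAut R} {τ : A →* End K U}
  {β : Y →* MulAut R} {θ : Y →* End K U} {α' : A →* MulAut Y}

/-- First case: `y` commutes with an element of the stabilizer. -/
theorem fixed_case_one {p : ℕ} (hp : p.Prime) (hA : ∀ x : A, x ^ p = 1) (hpR : ¬ p ∣ Nat.card R)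
    (hcompat : ∀ x y s, β (α' x y) (α x s) = α x (β y s))
    (hcomm : ∀ b : A, b ≠ 1 → ∀ s, α b s = s → ∀ y, α' b y = y → β y s = s)
    {lam : R →* K} {b₀ : A} (hb₀ : b₀ ≠ 1) (hb₀s : b₀ ∈ stab α lam) {y : Y} (hy : α' b₀ y = y) (s : R) :
    lam (β y s) = lam s := by
  classical
  haveI : Fact p.Prime := ⟨hp⟩
  -- the subgroup of `A`
  let P : Subgroup A :=
    { carrier := {x | x ∈ stab α lam ∧ α' x y = y}
      mul_mem' := by
        rintro a c ⟨ha, ha'⟩ ⟨hc, hc'⟩
        refine ⟨(stab α lam).mul_mem ha hc, ?_⟩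
        rw [map_mul, MulAut.mul_apply, hc', ha']
      one_mem' := ⟨(stab α lam).one_mem, by rw [map_one]; rfl⟩
      inv_mem' := by
        rintro a ⟨ha, ha'⟩
        refine ⟨(stab α lam).inv_mem ha, ?_⟩
        rw [map_inv]
        nth_rewrite 1 [← ha']
        rw [← MulAut.mul_apply, inv_mul_cancel]
        rfl }
  have hPp : IsPGroup p P := fun x => ⟨1, by
    apply Subtype.ext
    show ((x : A) ^ p ^ 1) = 1
    rw [pow_one]; exact hA x⟩
  let N : Subgroup R := lam.ker ⊓ lam.ker.comap (β y : R →* R)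
  have hmemN : ∀ n, n ∈ N ↔ lam n = 1 ∧ lam (β y n) = 1 := fun n => Iff.rfl
  have hcy : ∀ x : P, ∀ t, β y (α x t) = α x (β y t) := by
    intro x t
    have h1 := hcompat x y t
    rwa [x.2.2] at h1
  obtain ⟨n, hn, hfx⟩ := exists_fixed_mul hPp (α.comp P.subtype) N
    (fun h => hpR (h.trans (Subgroup.card_subgroup_dvd_card _)))
    (by
      intro x n hn
      rw [hmemN] at hn ⊢
      show lam (α x n) = 1 ∧ lam (β y (α x n)) = 1
      rw [hcy, x.2.1, x.2.1]
      exact hn)
    s (by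
      intro x
      rw [hmemN]
      show lam (s⁻¹ * α x s) = 1 ∧ lam (β y (s⁻¹ * α x s)) = 1
      rw [map_mul, map_mul, map_mul, map_inv, map_inv, map_inv, hcy, x.2.1, x.2.1,
        inv_mul_cancel₀ (lam_ne_zero lam _), inv_mul_cancel₀ (lam_ne_zero lam _)]
      exact ⟨rfl, rfl⟩)
  have hb₀P : b₀ ∈ P := ⟨hb₀s, hy⟩
  have h1 : α b₀ (s * n) = s * n := hfx ⟨b₀, hb₀P⟩
  have h2 := hcomm b₀ hb₀ _ h1 y hy
  have h3 : lam (β y (s * n)) = lam (s * n) := by rw [h2]
  obtain ⟨hn1, hn2⟩ := (hmemN n).mp hn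
  rw [map_mul, map_mul, map_mul, hn1, hn2, mul_one, mul_one] at h3
  exact h3

variable [FiniteDimensional K U]

/-- A weight composed with the action of `Y` is a weight. -/
theorem wt_comp_beta (hθρ : ∀ y s, θ y * ρ s = ρ (β y s) * θ y) {lam : R →* K} (hlam : wt ρ lam ≠ ⊥) (z : Y) :
    wt ρ (lam.comp (β z : R →* R)) ≠ ⊥ := by
  obtain ⟨u, hu, hu0⟩ := Submodule.exists_mem_ne_zero_of_ne_bot hlam
  intro hb
  have h1 : θ z⁻¹ u ∈ wt ρ (lam.comp (β z : R →* R)) := by
    intro s
    have h2 := congrArg (fun f : End K U => f u) (hθρ z⁻¹ (β z s))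
    simp only [Module.End.mul_apply] at h2
    have h3 : β z⁻¹ (β z s) = s := by
      rw [← MulAut.mul_apply, ← map_mul, inv_mul_cancel, map_one]; rfl
    rw [h3, hu (β z s), map_smul] at h2
    exact h2.symm
  rw [hb] at h1
  have h2 : θ z (θ z⁻¹ u) = u := by
    rw [← Module.End.mul_apply, ← map_mul, mul_inv_cancel, map_one]; rfl
  rw [(Submodule.mem_bot _).mp h1, map_zero] at h2
  exact hu0 h2.symm

/-- **All weights are fixed** by the elements of `Y` commuting with a nonidentity element of `A`. -/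
theorem wt_fixed_gen {p : ℕ} (hp : p.Prime) (hA : ∀ x : A, x ^ p = 1) (hcard : Nat.card A = p ^ 2)
    (hR : (Fintype.card R : K) ≠ 0) (hpR : ¬ p ∣ Nat.card R) (hpY : ¬ p ∣ Nat.card Y)
    (hτρ : ∀ x s, τ x * ρ s = ρ (α x s) * τ x) (hsum : ∑ x, τ x = 0)
    (hθρ : ∀ y s, θ y * ρ s = ρ (β y s) * θ y)
    (hcompat : ∀ x y s, β (α' x y) (α x s) = α x (β y s))
    (hfixY : ∀ y, (∀ x, α' x y = y) → y = 1)
    (hcomm : ∀ b : A, b ≠ 1 → ∀ s, α b s = s → ∀ y, α' b y = y → β y s = s)
    {lam : R →* K} (hlam : wt ρ lam ≠ ⊥) {b₀ : A} (hb₀ : b₀ ≠ 1) {y₀ : Y} (hy₀ : α' b₀ y₀ = y₀) (s : R) :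
    lam (β y₀ s) = lam s := by
  classical
  by_cases hb₀s : b₀ ∈ stab α lam
  · exact fixed_case_one hp hA hpR hcompat hcomm hb₀ hb₀s hy₀ s
  obtain ⟨b', hb'1, hb's⟩ := exists_stab hR hτρ hsum hlam
  -- `K₀`
  let K₀ : Subgroup Y :=
    { carrier := {y | α' b₀ y = y}
      mul_mem' := by
        intro a c ha hc
        show α' b₀ (a * c) = a * c
        rw [map_mul, show α' b₀ a = a from ha, show α' b₀ c = c from hc]
      one_mem' := map_one _
      inv_mem' := by
        intro a ha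
        show α' b₀ a⁻¹ = a⁻¹
        rw [map_inv, show α' b₀ a = a from ha] }
  have hcommA : ∀ (x : A) (y : Y), α' b₀ (α' x y) = α' x (α' b₀ y) := by
    intro x y
    rw [← MulAut.mul_apply, ← MulAut.mul_apply, ← map_mul, ← map_mul, mul_comm]
  have hb'K : ∀ y, y ∈ K₀ → α' b' y ∈ K₀ := by
    intro y hy
    show α' b₀ (α' b' y) = α' b' y
    rw [hcommA, show α' b₀ y = y from hy]
  have hb₀z : b₀ ∉ Subgroup.zpowers b' := by
    intro h
    have h1 : Subgroup.zpowers b' ≤ stab α lam := by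
      rw [Subgroup.zpowers_le]; exact hb's
    exact hb₀s (h1 h)
  have hb'z : b' ∉ Subgroup.zpowers b₀ := by
    intro h
    obtain ⟨i, hi⟩ := mem_powers_iff_mem_zpowers.mpr h
    have hi' : b₀ ^ i = b' := hi
    apply hb₀s
    refine mem_of_pow_mem hp _ (hA b₀) (n := i) ?_ (hi' ▸ hb's)
    rintro ⟨c, rfl⟩
    apply hb'1
    rw [← hi', pow_mul, hA b₀, one_pow]
  have hgen := exists_gen hp hA hcard hb₀ hb'z
  have hfpfK : ∀ y ∈ K₀, α' b' y = y → y = 1 := by
    intro y hy hy'
    apply hfixY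
    intro x
    obtain ⟨i, j, rfl⟩ := hgen x
    rw [map_mul, map_pow, map_pow, MulAut.mul_apply]
    have h1 : ∀ (σ : MulAut Y) (n : ℕ), σ y = y → (σ ^ n) y = y := by
      intro σ n h
      induction n with
      | zero => rfl
      | succ n ih => rw [pow_succ', MulAut.mul_apply, ih, h]
    rw [h1 _ j hy', h1 _ i hy]
  -- the twisted element
  have hb'inv : ∀ y, y ∈ K₀ ↔ α' b' y ∈ K₀ := by
    refine inv_iff_of_pow_eq_one (α' b') K₀ hb'K hp.pos ?_
    rw [← map_pow, hA, map_one]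
  let σ : MulAut K₀ := restrictAut (α' b') K₀ hb'inv
  obtain ⟨z, hz⟩ := exists_twist σ (by
    intro a ha
    apply Subtype.ext
    exact hfpfK a a.2 (congrArg Subtype.val ha)) ⟨y₀, hy₀⟩
  have hzK : α' b₀ (z : Y) = z := z.2
  have hy₀z : y₀ = α' b' z * (z : Y)⁻¹ := (congrArg Subtype.val hz).symm
  -- the weight `ν`
  set ν : R →* K := lam.comp (β (z : Y) : R →* R) with hν
  have hνapp : ∀ t, ν t = lam (β z t) := fun t => rfl
  have hνwt : wt ρ ν ≠ ⊥ := wt_comp_beta hθρ hlam z
  obtain ⟨d, hd1, hds⟩ := exists_stab hR hτρ hsum hνwt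
  have hb₀ν : b₀ ∉ stab α ν := by
    intro h
    apply hb₀s
    intro t
    obtain ⟨t', rfl⟩ := (β (z : Y)).surjective t
    have h1 := h t'
    rw [hνapp, hνapp] at h1
    have h2 := hcompat b₀ z t'
    rw [hzK] at h2
    rw [← h2]
    exact h1
  have hdz : d ∉ Subgroup.zpowers b₀ := by
    intro h
    obtain ⟨i, hi⟩ := mem_powers_iff_mem_zpowers.mpr h
    have hi' : b₀ ^ i = d := hi
    apply hb₀ν
    refine mem_of_pow_mem hp _ (hA b₀) (n := i) ?_ (hi' ▸ hds)
    rintro ⟨c, rfl⟩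
    apply hd1
    rw [← hi', pow_mul, hA b₀, one_pow]
  have hgen2 := exists_gen hp hA hcard hb₀ hdz
  -- the inverse action
  have hαinv : ∀ (x : A) (t : R), α x (α x⁻¹ t) = t := by
    intro x t
    rw [← MulAut.mul_apply, ← map_mul, mul_inv_cancel, map_one]; rfl
  have hlamαinv : ∀ (t : R), lam (α b'⁻¹ t) = lam t := (stab α lam).inv_mem hb's
  -- the basic formula
  have hformula : ∀ t, lam (β (α' b' z) t) = ν (α b'⁻¹ t) := by
    intro t
    have h1 := hcompat b' z (α b'⁻¹ t)
    rw [hαinv] at h1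
    rw [h1, hb's]
    rfl
  obtain ⟨i, j, hij⟩ := hgen2 b'
  set e := b₀ ^ i with he
  have hb'stab : b' ∈ stab α ν := by
    by_contra hcon
    have he1 : e ∉ stab α ν := by
      intro h
      apply hcon
      rw [hij]
      exact (stab α ν).mul_mem h ((stab α ν).pow_mem hds j)
    have he_ne : e ≠ 1 := by
      intro h
      apply he1
      rw [h]
      exact (stab α ν).one_mem
    -- the element `w`
    set w : Y := α' b' z * (z : Y)⁻¹ with hw
    have hwK : α' b₀ w = w := by
      rw [hw, map_mul, hcommA, hzK, map_inv, hzK]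
    -- the fixer
    let Fx : Y → Subgroup A := fun y =>
      { carrier := {x | α' x y = y}
        mul_mem' := by
          intro a c ha hc
          show α' (a * c) y = y
          rw [map_mul, MulAut.mul_apply, show α' c y = y from hc, show α' a y = y from ha]
        one_mem' := by
          show α' 1 y = y
          rw [map_one]; rfl
        inv_mem' := by
          intro a ha
          show α' a⁻¹ y = y
          have h1 : α' a⁻¹ (α' a y) = y := by
            rw [← MulAut.mul_apply, ← map_mul, inv_mul_cancel, map_one]; rfl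
          rwa [show α' a y = y from ha] at h1 }
    have hFx : ∀ y, α' b₀ y = y → ∀ n : ℕ, α' (e⁻¹ ^ n) y = y := by
      intro y hy n
      have h1 : b₀ ∈ Fx y := hy
      exact (Fx y).pow_mem ((Fx y).inv_mem ((Fx y).pow_mem h1 i)) n
    have hwe : ∀ t, lam (β w t) = lam (α e⁻¹ t) := by
      intro t
      set t₁ := β (z : Y)⁻¹ t with ht₁
      have h1 : β w t = β (α' b' z) t₁ := by
        rw [hw, map_mul]; rfl
      rw [h1, hformula]
      have h2 : b'⁻¹ = (d ^ j)⁻¹ * e⁻¹ := by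
        rw [hij, mul_inv, mul_comm]
      rw [h2, map_mul, MulAut.mul_apply]
      rw [(stab α ν).inv_mem ((stab α ν).pow_mem hds j) (α e⁻¹ t₁), hνapp]
      have h3 := hcompat e⁻¹ z t₁
      have h4 := hFx z hzK 1
      rw [pow_one] at h4
      rw [h4] at h3
      rw [h3]
      have h5 : β (z : Y) t₁ = t := by
        rw [ht₁, ← MulAut.mul_apply, ← map_mul, mul_inv_cancel, map_one]; rfl
      rw [h5]
    have hwk : ∀ (n : ℕ) (t : R), lam (β (w ^ n) t) = lam (α (e⁻¹ ^ n) t) := by
      intro n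
      induction n with
      | zero => intro t; simp
      | succ n ih =>
        intro t
        rw [pow_succ w, map_mul, MulAut.mul_apply, ih]
        have h3 := hcompat (e⁻¹ ^ n) w t
        rw [hFx w hwK n] at h3
        rw [← h3, hwe, pow_succ', map_mul, MulAut.mul_apply]
    have h6 := hwk (Fintype.card Y)
    rw [pow_card_eq_one, map_one] at h6
    have h7 : e⁻¹ ^ Fintype.card Y ∈ stab α lam := by
      intro t
      exact (h6 t).symm
    have h8 : e⁻¹ ∈ stab α lam := mem_of_pow_mem hp _ (hA _) (by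
      rw [← Nat.card_eq_fintype_card]; exact hpY) h7
    have h9 : e ∈ stab α lam := by
      have := (stab α lam).inv_mem h8
      rwa [inv_inv] at this
    apply hb₀s
    refine mem_of_pow_mem hp _ (hA b₀) (n := i) ?_ h9
    rintro ⟨c, hc⟩
    apply he_ne
    rw [he, hc, pow_mul, hA b₀, one_pow]
  rw [hy₀z, map_mul, MulAut.mul_apply, hformula]
  rw [(stab α ν).inv_mem hb'stab, hνapp, ← MulAut.mul_apply, ← map_mul, mul_inv_cancel, map_one]
  rfl

/-- **All weights are fixed by `Y`.** -/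
theorem wt_fixed {p : ℕ} (hp : p.Prime) (hA : ∀ x : A, x ^ p = 1) (hcard : Nat.card A = p ^ 2)
    (hR : (Fintype.card R : K) ≠ 0) (hpR : ¬ p ∣ Nat.card R) (hpY : ¬ p ∣ Nat.card Y)
    (hτρ : ∀ x s, τ x * ρ s = ρ (α x s) * τ x) (hsum : ∑ x, τ x = 0)
    (hθρ : ∀ y s, θ y * ρ s = ρ (β y s) * θ y)
    (hcompat : ∀ x y s, β (α' x y) (α x s) = α x (β y s))
    (hfixY : ∀ y, (∀ x, α' x y = y) → y = 1)
    (hcomm : ∀ b : A, b ≠ 1 → ∀ s, α b s = s → ∀ y, α' b y = y → β y s = s)
    (hgen : Subgroup.closure {y : Y | ∃ b : A, b ≠ 1 ∧ α' b y = y} = ⊤)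
    {lam : R →* K} (hlam : wt ρ lam ≠ ⊥) (y : Y) (s : R) : lam (β y s) = lam s := by
  let SY : Subgroup Y :=
    { carrier := {y | ∀ s, lam (β y s) = lam s}
      mul_mem' := by
        intro a c ha hc s
        rw [map_mul, MulAut.mul_apply, ha, hc]
      one_mem' := by
        intro s
        rw [map_one]; rfl
      inv_mem' := by
        intro a ha s
        have h1 := ha ((β a⁻¹) s)
        rw [← h1, ← MulAut.mul_apply, ← map_mul, mul_inv_cancel, map_one]
        rfl }
  have h1 : Subgroup.closure {y : Y | ∃ b : A, b ≠ 1 ∧ α' b y = y} ≤ SY := by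
    rw [Subgroup.closure_le]
    rintro y₀ ⟨b₀, hb₀, hy₀⟩ s
    exact wt_fixed_gen hp hA hcard hR hpR hpY hτρ hsum hθρ hcompat hfixY hcomm hlam hb₀ hy₀ s
  rw [hgen] at h1
  exact h1 (Subgroup.mem_top y) s

/-- **The abelian case.** -/
theorem abelian_trivial [IsAlgClosed K] {p : ℕ} (hp : p.Prime) (hA : ∀ x : A, x ^ p = 1) (hcard : Nat.card A = p ^ 2)
    (hR : (Fintype.card R : K) ≠ 0) (hpR : ¬ p ∣ Nat.card R) (hpY : ¬ p ∣ Nat.card Y)
    (hρ : Function.Injective ρ) (hab : ∀ s t : R, s * t = t * s)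
    (hτρ : ∀ x s, τ x * ρ s = ρ (α x s) * τ x) (hsum : ∑ x, τ x = 0)
    (hθρ : ∀ y s, θ y * ρ s = ρ (β y s) * θ y)
    (hcompat : ∀ x y s, β (α' x y) (α x s) = α x (β y s))
    (hfixY : ∀ y, (∀ x, α' x y = y) → y = 1)
    (hcomm : ∀ b : A, b ≠ 1 → ∀ s, α b s = s → ∀ y, α' b y = y → β y s = s)
    (hgen : Subgroup.closure {y : Y | ∃ b : A, b ≠ 1 ∧ α' b y = y} = ⊤)
    (y : Y) (s : R) : β y s = s := by
  classical
  by_contra hne
  set t := β y s * s⁻¹ with ht
  have ht1 : ρ t ≠ 1 := by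
    intro h
    apply hne
    have h1 : t = 1 := hρ (by rw [h, map_one])
    exact mul_inv_eq_one.mp h1
  have hx : (ρ t) ^ (Fintype.card R) = 1 := by
    rw [← map_pow, pow_card_eq_one, map_one]
  obtain ⟨a, ha1, hE⟩ := exists_eigenvalue_ne_one (ρ t) hR hx ht1
  obtain ⟨lam, u, huE, hu0, hu⟩ := exists_common_eigen ρ (End.eigenspace (ρ t) a) hE
    (by
      intro z u hu
      rw [End.mem_eigenspace_iff] at hu ⊢
      have h1 : ρ t * ρ z = ρ z * ρ t := by rw [← map_mul, ← map_mul, hab]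
      have h2 := congrArg (fun f : End K U => f u) h1
      simp only [Module.End.mul_apply, hu, map_smul] at h2
      exact h2)
    (by
      intro z z' u _
      rw [← Module.End.mul_apply, ← Module.End.mul_apply, ← map_mul, ← map_mul, hab])
  have h1 : lam t = a := by
    have h2 : ρ t u = lam t • u := hu t
    have h3 : ρ t u = a • u := End.mem_eigenspace_iff.mp huE
    exact smul_left_injective K hu0 (h2.symm.trans h3)
  have hlam : wt ρ lam ≠ ⊥ := by
    intro hb
    rw [hb] at hu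
    exact hu0 ((Submodule.mem_bot _).mp hu)
  have h2 := wt_fixed hp hA hcard hR hpR hpY hτρ hsum hθρ hcompat hfixY hcomm hgen hlam y s
  apply ha1
  rw [← h1, ht, map_mul, map_inv, h2, mul_inv_cancel₀ (lam_ne_zero lam s)]

end Fixed

end Cfsg.Agent.Lib.WardCore
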