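import Mathlib
import Cfsg.Agent.Lib.FrobeniusThm

/-!
# Wielandt's generalization of Frobenius' theorem

If `K` is normal in `H ≤ G` and `H ∩ H^g ≤ K` for all `g ∉ H`, then there is a normal subgroup `N`
of `G` with `N ∩ H = K` and `N H = G`.
-/

set_option autoImplicit false

open Cfsg Cfsg.Agent.Lib.Frobenius Cfsg.Agent.Lib.FrobeniusThm Cfsg.Agent.Lib.CharBasic
  Cfsg.Agent.Lib.CharInd Cfsg.Agent.Lib.GenChar Cfsg.Agent.Lib.CharKernel
open scoped ComplexConjugate

namespace Cfsg.Agent.Lib.Wielandt79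

universe u

variable {G : Type u} [Group G] {H K : Subgroup G}

section Star

variable [Fintype G]

theorem indFun_of_mem (ht : ∀ g : G, g ∉ H → ∀ x ∈ H, g⁻¹ * x * g ∈ H → x ∈ K)
    {φ : H → ℂ} (hφ : IsClassFunction H φ) (hv : ∀ h : H, (h : G) ∈ K → φ h = 0) (h : H) :
    indFun H φ (h : G) = φ h := by
  classical
  have hval : ∀ x : G, extendByZero H φ (x⁻¹ * (h : G) * x) = if x ∈ H then φ h else 0 := by
    intro x
    by_cases hx : x ∈ H
    · rw [if_pos hx, extendByZero_of_mem H φ (H.mul_mem (H.mul_mem (H.inv_mem hx) h.2) hx)]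
      have h2 : (⟨x⁻¹ * h * x, H.mul_mem (H.mul_mem (H.inv_mem hx) h.2) hx⟩ : H) =
          ⟨x⁻¹, H.inv_mem hx⟩ * h * (⟨x⁻¹, H.inv_mem hx⟩ : H)⁻¹ := Subtype.ext (by simp)
      rw [h2]
      exact hφ h ⟨x⁻¹, H.inv_mem hx⟩
    · rw [if_neg hx]
      by_cases hm : x⁻¹ * (h : G) * x ∈ H
      · rw [extendByZero_of_mem H φ hm]
        apply hv
        apply ht x⁻¹ (fun h' => hx (by simpa using H.inv_mem h')) _ hm
        simpa [mul_assoc] using h.2
      · exact extendByZero_of_not_mem H φ hm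
  rw [indFun_apply]
  simp only [hval]
  rw [Finset.sum_ite, Finset.sum_const_zero, add_zero, Finset.sum_const, nsmul_eq_mul]
  have hcard : (Finset.univ.filter (fun x : G => x ∈ H)).card = Nat.card H := by
    rw [Nat.card_eq_fintype_card, Fintype.card_subtype]
  rw [hcard]
  have hne := natCard_subgroup_ne_zero H
  field_simp

theorem indFun_of_not_conj {φ : H → ℂ} (hv : ∀ h : H, (h : G) ∈ K → φ h = 0) {g : G}
    (hg : ∀ x : G, x⁻¹ * g * x ∈ H → x⁻¹ * g * x ∈ K) : indFun H φ g = 0 := by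
  classical
  rw [indFun_apply]
  have : ∀ x : G, extendByZero H φ (x⁻¹ * g * x) = 0 := by
    intro x
    by_cases hm : x⁻¹ * g * x ∈ H
    · rw [extendByZero_of_mem H φ hm]
      exact hv _ (hg x hm)
    · exact extendByZero_of_not_mem H φ hm
  simp [this]

theorem sub_vanish {θ : H → ℂ} (hk : ∀ h : H, (h : G) ∈ K → θ h = θ 1) :
    ∀ h : H, (h : G) ∈ K → (θ - fun _ => θ 1 : H → ℂ) h = 0 := by
  intro h hh
  simp [hk h hh]

theorem tstar_of_mem (ht : ∀ g : G, g ∉ H → ∀ x ∈ H, g⁻¹ * x * g ∈ H → x ∈ K)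
    {θ : H → ℂ} (hθ : IsClassFunction H θ) (hk : ∀ h : H, (h : G) ∈ K → θ h = θ 1) (h : H) :
    tstar θ (h : G) = θ h := by
  unfold tstar
  rw [Pi.add_apply, indFun_of_mem ht (isClassFunction_sub_const hθ) (sub_vanish hk) h]
  simp

theorem tstar_of_not_conj {θ : H → ℂ} (hk : ∀ h : H, (h : G) ∈ K → θ h = θ 1) {g : G}
    (hg : ∀ x : G, x⁻¹ * g * x ∈ H → x⁻¹ * g * x ∈ K) : tstar θ g = θ 1 := by
  unfold tstar
  rw [Pi.add_apply, indFun_of_not_conj (sub_vanish hk) hg, zero_add]

theorem classInner_tstar_self_of [Fintype H]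
    (ht : ∀ g : G, g ∉ H → ∀ x ∈ H, g⁻¹ * x * g ∈ H → x ∈ K) {θ : H → ℂ}
    (hk : ∀ h : H, (h : G) ∈ K → θ h = θ 1)
    (hθ : IsCharacter H θ) (hnorm : classInner θ θ = 1) :
    classInner (tstar θ : G → ℂ) (tstar θ) = 1 := by
  obtain ⟨n, hn⟩ := isCharacter_one_eq hθ
  have hcf := isClassFunction_of_isCharacter hθ
  have hd : θ 1 = (n : ℂ) := hn
  have hconjd : conj (n : ℂ) = n := Complex.conj_natCast n
  set oneH : H → ℂ := fun _ => 1 with honeH
  set oneG : G → ℂ := fun _ => 1 with honeG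
  set φ : H → ℂ := θ - (n : ℂ) • oneH with hφ
  have hφ' : (θ - fun _ => θ 1) = φ := by
    funext x
    simp [hφ, hd, honeH]
  set Φ : G → ℂ := indFun H φ with hΦ
  have hT : tstar θ = Φ + (n : ℂ) • oneG := by
    unfold tstar
    rw [hφ', hd]
    funext x
    simp [honeG, hΦ]
  have hφcf : IsClassFunction H φ := by
    rw [← hφ']; exact isClassFunction_sub_const hcf
  have hφv : ∀ h : H, (h : G) ∈ K → φ h = 0 := by
    rw [← hφ']; exact sub_vanish hk
  have hΦcf : IsClassFunction G Φ := indFun_isClassFunction H φ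
  have honecf : IsClassFunction G oneG := by
    intro a b; rfl
  have hres : (fun h : H => Φ h) = φ := by
    funext h
    exact indFun_of_mem ht hφcf hφv h
  have h1 : classInner Φ Φ = classInner φ φ := by
    have := frobenius H φ hΦcf
    rw [hres] at this
    exact this
  have h2 : classInner Φ oneG = classInner φ oneH := frobenius H φ honecf
  have h3 : classInner oneG Φ = conj (classInner φ oneH) := by
    rw [← h2, classInner_conj_symm]
  set c := classInner θ oneH with hc
  have h4 : classInner oneH θ = conj c := by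
    rw [hc, classInner_conj_symm]
  have h5 : classInner φ oneH = c - n := by
    rw [hφ, classInner_sub_left, classInner_smul_left, classInner_one_one, mul_one]
  have h6 : classInner φ φ = 1 - n * c - n * conj c + n * n := by
    rw [hφ, classInner_sub_left, classInner_sub_right, classInner_sub_right, classInner_smul_left,
      classInner_smul_right, classInner_smul_right, classInner_smul_left, hnorm, h4, ← hc,
      classInner_one_one, hconjd]
    ring
  rw [hT, classInner_add_left, classInner_add_right, classInner_add_right, classInner_smul_left,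
    classInner_smul_left, classInner_smul_right, classInner_smul_right, h1, h2, h3,
    classInner_one_one, h5, h6, map_sub, hconjd]
  ring

end Star

/-- **Wielandt's theorem.** -/
theorem wielandt [Finite G] (hKH : K ≤ H) (hKn : ∀ h ∈ H, ∀ k ∈ K, h * k * h⁻¹ ∈ K)
    (ht : ∀ g : G, g ∉ H → ∀ x ∈ H, g⁻¹ * x * g ∈ H → x ∈ K) :
    ∃ N : Subgroup G, N.Normal ∧ N ⊓ H = K ∧ N ⊔ H = ⊤ := by
  classical
  letI : Fintype G := Fintype.ofFinite G
  letI : Fintype H := Fintype.ofFinite H
  let K' : Subgroup H := K.subgroupOf H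
  haveI hK'n : K'.Normal := by
    constructor
    intro k hk h
    rw [Subgroup.mem_subgroupOf] at hk ⊢
    exact hKn h h.2 k hk
  let π : H →* H ⧸ K' := QuotientGroup.mk' K'
  have hπ : Function.Surjective π := QuotientGroup.mk'_surjective K'
  have hπk : ∀ h : H, π h = 1 ↔ (h : G) ∈ K := by
    intro h
    rw [QuotientGroup.mk'_apply, QuotientGroup.eq_one_iff, Subgroup.mem_subgroupOf]
  -- the lifted characters
  let L : IrrCharacter (H ⧸ K') → (H → ℂ) := fun ξ => (ξ.1 : _ → ℂ) ∘ π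
  have hLirr : ∀ ξ, IsIrrCharacter H (L ξ) := fun ξ =>
    isIrrCharacter_comp_of_surjective π hπ ξ.2
  have hLk : ∀ ξ, ∀ h : H, (h : G) ∈ K → L ξ h = L ξ 1 := by
    intro ξ h hh
    change ξ.1 (π h) = ξ.1 (π 1)
    rw [(hπk h).mpr hh, map_one]
  have hT : ∀ ξ, IsCharacter G (tstar (L ξ) : G → ℂ) := by
    intro ξ
    have hθ : IsCharacter H (L ξ) := IsIrrCharacter.isCharacter (hLirr ξ)
    have hgen := isGeneralizedCharacter_tstar (G := G) hθ
    have hnorm := classInner_tstar_self_of (G := G) ht (hLk ξ) hθ (classInner_irr_self (hLirr ξ))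
    obtain ⟨d, hd0, hd⟩ := isIrr_one_pos (hLirr ξ)
    have hone : (tstar (L ξ) : G → ℂ) 1 = d := by
      rw [tstar_of_not_conj (hLk ξ) (g := 1) (by intro x hx; simp [K.one_mem]), hd]
    rcases gen_norm_one hgen hnorm with h | h
    · exact IsIrrCharacter.isCharacter h
    · exfalso
      obtain ⟨d', hd'0, hd'⟩ := isIrr_one_pos h
      rw [Pi.neg_apply, hone] at hd'
      have h1 : (d' : ℂ) + d = 0 := by rw [← hd']; ring
      have h2 : d' + d = 0 := by exact_mod_cast h1
      omega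
  let N : Subgroup G := ⨅ ξ, charKer (hT ξ)
  have hone' : ∀ ξ, (tstar (L ξ) : G → ℂ) 1 = L ξ 1 := fun ξ =>
    tstar_of_not_conj (hLk ξ) (g := 1) (by intro x hx; simp [K.one_mem])
  have hmemN : ∀ g, g ∈ N ↔ ∀ ξ, (tstar (L ξ) : G → ℂ) g = L ξ 1 := by
    intro g
    rw [Subgroup.mem_iInf]
    refine forall_congr' fun ξ => ?_
    rw [mem_charKer, hone']
  have hNn : N.Normal := by
    constructor
    intro n hn g
    rw [Subgroup.mem_iInf] at hn ⊢
    intro ξ
    exact (charKer_normal (hT ξ)).conj_mem n (hn ξ) g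
  have hLcf : ∀ ξ, IsClassFunction H (L ξ) := fun ξ =>
    isClassFunction_of_isCharacter (IsIrrCharacter.isCharacter (hLirr ξ))
  -- `N ∩ H = K`
  have hNH : N ⊓ H = K := by
    ext x
    rw [Subgroup.mem_inf]
    constructor
    · rintro ⟨hxN, hxH⟩
      by_contra hxK
      let h : H := ⟨x, hxH⟩
      have hh1 : π h ≠ 1 := fun h0 => hxK ((hπk h).mp h0)
      have hval : ∀ ξ : IrrCharacter (H ⧸ K'), ξ.1 (π h) = ξ.1 1 := by
        intro ξ
        have h1 := (hmemN x).mp hxN ξ
        rw [show x = (h : G) from rfl, tstar_of_mem ht (hLcf ξ) (hLk ξ) h] at h1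
        have h2 : L ξ 1 = ξ.1 1 := by
          change ξ.1 (π 1) = _
          rw [map_one]
        rw [h2] at h1
        exact h1
      have hsum := sum_irr_deg_mul (G := H ⧸ K') (π h)
      rw [if_neg hh1] at hsum
      have hsum1 := sum_irr_deg_mul (G := H ⧸ K') (1 : H ⧸ K')
      rw [if_pos rfl] at hsum1
      have heq : ∑ χ : IrrCharacter (H ⧸ K'), (χ : H ⧸ K' → ℂ) 1 * (χ : H ⧸ K' → ℂ) (π h) =
          ∑ χ : IrrCharacter (H ⧸ K'), (χ : H ⧸ K' → ℂ) 1 * (χ : H ⧸ K' → ℂ) 1 :=
        Finset.sum_congr rfl (fun θ _ => by rw [hval θ])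
      rw [heq, hsum1] at hsum
      have : (Nat.card (H ⧸ K') : ℂ) ≠ 0 := by
        exact_mod_cast (Nat.card_pos (α := H ⧸ K')).ne'
      exact this hsum
    · intro hx
      refine ⟨?_, hKH hx⟩
      rw [hmemN]
      intro ξ
      let h : H := ⟨x, hKH hx⟩
      rw [show x = (h : G) from rfl, tstar_of_mem ht (hLcf ξ) (hLk ξ) h]
      exact hLk ξ h hx
  -- elements outside `N` are conjugate into `H \ K`
  have hout : ∀ g, g ∉ N → ∃ x : G, x⁻¹ * g * x ∈ H ∧ x⁻¹ * g * x ∉ K := by
    intro g hg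
    by_contra hcon
    push Not at hcon
    apply hg
    rw [hmemN]
    intro ξ
    exact tstar_of_not_conj (hLk ξ) hcon
  -- counting
  let P := (G ⧸ H) × {h : H // (h : G) ∉ K}
  let f : P → G := fun c => c.1.out * (c.2.1 : G) * c.1.out⁻¹
  have hsurj : ∀ g : {g : G // g ∉ N}, ∃ c : P, f c = g.1 := by
    rintro ⟨g, hg⟩
    obtain ⟨x, hx1, hx2⟩ := hout g hg
    let c : G ⧸ H := (x : G ⧸ H)
    obtain ⟨t, ht'⟩ := QuotientGroup.mk_out_eq_mul H x
    have hco : c.out = x * t := ht'
    let y : H := (t : H)⁻¹ * ⟨x⁻¹ * g * x, hx1⟩ * t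
    have hy : (y : G) ∉ K := by
      intro hmem
      apply hx2
      have := hKn t t.2 _ hmem
      have h3 : (t : G) * (y : G) * (t : G)⁻¹ = x⁻¹ * g * x := by
        simp [y]; group
      rwa [h3] at this
    refine ⟨(c, ⟨y, hy⟩), ?_⟩
    change c.out * (y : G) * c.out⁻¹ = g
    rw [hco]
    simp [y]
    group
  choose i hi using hsurj
  have hinj : Function.Injective i := by
    intro a b hab
    apply Subtype.ext
    rw [← hi a, ← hi b, hab]
  have hle : Nat.card {g : G // g ∉ N} ≤ Nat.card P := Nat.card_le_card_of_injective i hinj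
  have hcG : Nat.card N + Nat.card {g : G // g ∉ N} = Nat.card G := by
    have := Nat.card_congr (Equiv.sumCompl (fun g : G => g ∈ N))
    rw [Nat.card_sum] at this
    exact this
  have hcH : Nat.card K + Nat.card {h : H // (h : G) ∉ K} = Nat.card H := by
    have h1 := Nat.card_congr (Equiv.sumCompl (fun h : H => (h : G) ∈ K))
    rw [Nat.card_sum] at h1
    have h2 : Nat.card {h : H // (h : G) ∈ K} = Nat.card K := by
      apply Nat.card_congr
      exact ⟨fun h => ⟨h.1.1, h.2⟩, fun k => ⟨⟨k.1, hKH k.2⟩, k.2⟩, fun _ => rfl, fun _ => rfl⟩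
    rw [h2] at h1
    exact h1
  have hP : Nat.card P = Nat.card (G ⧸ H) * Nat.card {h : H // (h : G) ∉ K} := Nat.card_prod _ _
  have hGH : Nat.card G = Nat.card H * Nat.card (G ⧸ H) := by
    have := H.card_mul_index
    rw [Subgroup.index] at this
    exact this.symm
  have hlow : Nat.card (G ⧸ H) * Nat.card K ≤ Nat.card N := by
    have h1 : Nat.card (G ⧸ H) * Nat.card H = Nat.card (G ⧸ H) * Nat.card K +
        Nat.card (G ⧸ H) * Nat.card {h : H // (h : G) ∉ K} := by
      rw [← hcH, mul_add]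
    have h2 : Nat.card G = Nat.card (G ⧸ H) * Nat.card H := by rw [hGH, mul_comm]
    omega
  refine ⟨N, hNn, hNH, ?_⟩
  -- `H` surjects onto `G/N`
  let q : H →* G ⧸ N := (QuotientGroup.mk' N).comp H.subtype
  have hker : Nat.card q.ker = Nat.card K := by
    apply Nat.card_congr
    refine ⟨fun h => ⟨h.1.1, ?_⟩, fun k => ⟨⟨k.1, hKH k.2⟩, ?_⟩, fun _ => rfl, fun _ => rfl⟩
    · have h1 : q h.1 = 1 := h.2
      have h2 : (h.1.1 : G) ∈ N := by
        simpa [q] using h1
      rw [← hNH]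
      exact ⟨h2, h.1.2⟩
    · have : k.1 ∈ N ⊓ H := by rw [hNH]; exact k.2
      change q _ = 1
      simpa [q] using this.1
  have hr : Nat.card q.ker * Nat.card q.range = Nat.card H := by
    have := q.ker.card_mul_index
    rwa [Subgroup.index_ker] at this
  have hq1 : Nat.card (G ⧸ N) * Nat.card N = Nat.card G := by
    have := N.card_mul_index
    rw [Subgroup.index] at this
    rw [mul_comm]; exact this
  have hKpos : 0 < Nat.card K := Nat.card_pos
  have hNpos : 0 < Nat.card N := Nat.card_pos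
  have hsur : q.range = ⊤ := by
    apply Subgroup.eq_top_of_le_card
    have h1 : Nat.card (G ⧸ N) * Nat.card N ≤ Nat.card q.range * Nat.card N := by
      rw [hq1]
      calc Nat.card G = Nat.card q.range * (Nat.card (G ⧸ H) * Nat.card K) := by
            rw [hGH, ← hr, hker]; ring
        _ ≤ Nat.card q.range * Nat.card N := Nat.mul_le_mul_left _ hlow
    exact Nat.le_of_mul_le_mul_right h1 hNpos
  rw [eq_top_iff]
  intro g _
  have : (QuotientGroup.mk' N g) ∈ q.range := by rw [hsur]; trivial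
  obtain ⟨h, hh⟩ := this
  have h2 : (h : G)⁻¹ * g ∈ N := by
    have h3 : ((h : G) : G ⧸ N) = (g : G ⧸ N) := hh
    exact QuotientGroup.eq.mp h3
  have h4 : g = (h : G) * ((h : G)⁻¹ * g) := by group
  rw [h4, sup_comm]
  exact Subgroup.mul_mem_sup h.2 h2

end Cfsg.Agent.Lib.Wielandt79
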