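import Mathlib

/-!
# Wong's theorem: the arithmetic of the case `b = 1 < a`.
-/

set_option autoImplicit false
set_option linter.all false

namespace Cfsg.Agent.Lib.WongArith

/-- The parametrization. -/
theorem param {α N g δ : ℤ} (hδ : δ * δ = 1) (hα : 0 < α) (hg : 0 < g) (hN : Odd N)
    (hodd : Odd ((8 * g + δ) * (4 * g + δ)))
    (h : 4 * N * g ^ 2 = α ^ 2 * ((8 * g + δ) * (4 * g + δ))) :
    ∃ f : ℤ, 0 < f ∧ Odd f ∧ α = 2 * f * g ∧ N = f ^ 2 * ((8 * g + δ) * (4 * g + δ)) := by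
  set C := (8 * g + δ) * (4 * g + δ) with hC
  have h1 : IsCoprime g (8 * g + δ) := ⟨-8 * δ, δ, by linear_combination hδ⟩
  have h2 : IsCoprime g (4 * g + δ) := ⟨-4 * δ, δ, by linear_combination hδ⟩
  have h3 : IsCoprime (g ^ 2) C := (h1.mul_right h2).pow_left
  have h4 : g ^ 2 ∣ α ^ 2 * C := ⟨4 * N, by rw [← h]; ring⟩
  have h5 : g ^ 2 ∣ α ^ 2 := h3.dvd_of_dvd_mul_right h4
  have h6 : g ∣ α := (Int.pow_dvd_pow_iff (by norm_num)).1 h5
  obtain ⟨e, rfl⟩ := h6
  have hepos : 0 < e := by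
    by_contra hlt
    have : e ≤ 0 := by omega
    nlinarith
  have hg2 : g ^ 2 ≠ 0 := by positivity
  have h7 : 4 * N = e ^ 2 * C := by
    apply mul_right_cancel₀ hg2
    linear_combination h
  rcases Int.even_or_odd e with ⟨f, rfl⟩ | he
  · have h8 : N = f ^ 2 * C := by linarith
    have hfpos : 0 < f := by omega
    refine ⟨f, hfpos, ?_, by ring, h8⟩
    rcases Int.even_or_odd f with ⟨k, rfl⟩ | hf
    · exfalso
      rw [h8] at hN
      have : Even ((k + k) ^ 2 * C) := ⟨2 * k ^ 2 * C, by ring⟩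
      exact (Int.not_even_iff_odd.2 hN) this
    · exact hf
  · exfalso
    have h9 : Odd (e ^ 2 * C) := (he.pow).mul hodd
    rw [← h7] at h9
    have : Even (4 * N) := ⟨2 * N, by ring⟩
    exact (Int.not_even_iff_odd.2 h9) this

/-- The case `δ = 1`. -/
theorem case_plus {f g a A B : ℤ} (hf : 0 < f) (hfo : f % 2 = 1) (hg : 0 < g) (ha : a = 2 * f * g - 1) (ha1 : 1 < a)
    (hA : 2 ≤ |A|) (hB : 2 ≤ |B|) (hs : A + B = -2 * (4 * g + 1))
    (hAB : A * B * (f ^ 2 * (4 * g + 1) ^ 2 - 16 * a) = f ^ 2 * (4 * g + 1) ^ 2 * (8 * g + 1)) : False := by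
  set Y := 4 * g + 1 with hY
  have hY5 : 5 ≤ Y := by omega
  have hx : 8 * g + 1 = 2 * Y - 1 := by omega
  set s := f * Y with hs'
  have hspos : 0 < s := by positivity
  have hs5 : 5 ≤ s := by nlinarith
  have hR : f ^ 2 * Y ^ 2 - 16 * a = (s - 4) ^ 2 + 8 * f := by
    rw [ha, hs']
    have : 4 * g = Y - 1 := by omega
    have e : 16 * (2 * f * g - 1) = 8 * f * (4 * g) - 16 := by ring
    rw [e, this]
    ring
  have hf2 : f ^ 2 * Y ^ 2 = s ^ 2 := by rw [hs']; ring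
  rw [hR, hf2, hx] at hAB
  have hRpos : 0 < (s - 4) ^ 2 + 8 * f := by positivity
  have hPpos : 0 < A * B := by
    have h1 : 0 < s ^ 2 * (2 * Y - 1) := by
      apply mul_pos (by positivity)
      omega
    rw [← hAB] at h1
    exact (pos_iff_pos_of_mul_pos h1).2 hRpos
  have hAneg : A < 0 := by
    by_contra hc
    have hA0 : 0 < A := by
      rcases eq_or_lt_of_le (not_lt.1 hc) with h | h
      · rw [← h] at hPpos; simp at hPpos
      · exact h
    have hB0 : 0 < B := (pos_iff_pos_of_mul_pos hPpos).1 hA0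
    omega
  have hBneg : B < 0 := by
    by_contra hc
    have hB0 : 0 < B := by
      rcases eq_or_lt_of_le (not_lt.1 hc) with h | h
      · rw [← h] at hPpos; simp at hPpos
      · exact h
    have hA0 : 0 < A := (pos_iff_pos_of_mul_pos (by rwa [mul_comm] at hPpos)).1 hB0
    omega
  rw [abs_of_neg hAneg] at hA
  rw [abs_of_neg hBneg] at hB
  have hP : 4 * Y - 4 ≤ A * B := by nlinarith
  have hmain : (4 * Y - 4) * ((s - 4) ^ 2 + 8 * f) ≤ s ^ 2 * (2 * Y - 1) := by
    rw [← hAB]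
    exact mul_le_mul_of_nonneg_right hP hRpos.le
  have hs16 : s ≤ 16 := by
    by_contra hc
    have hs17 : 17 ≤ s := by omega
    have h1 : 9 * s ^ 2 < 16 * (s - 4) ^ 2 := by nlinarith
    have h2 : 4 * (2 * Y - 1) ≤ 9 * (Y - 1) := by omega
    have h3 : 4 * (s ^ 2 * (2 * Y - 1)) ≤ s ^ 2 * (9 * (Y - 1)) := by nlinarith [sq_nonneg s]
    have h4 : (Y - 1) * (9 * s ^ 2) < (Y - 1) * (16 * (s - 4) ^ 2) :=
      mul_lt_mul_of_pos_left h1 (by omega)
    have h5 : 0 ≤ (4 * Y - 4) * (8 * f) := by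
      apply mul_nonneg <;> omega
    nlinarith
  have hf3 : f ≤ 3 := by nlinarith
  have hY16 : Y ≤ 16 := by nlinarith
  have hg3 : g ≤ 3 := by omega
  obtain ⟨P, hPdef⟩ : ∃ P, P = A * B := ⟨_, rfl⟩
  rw [← hPdef] at hAB
  clear hP hmain hPpos hPdef hs hA hB hAneg hBneg hRpos hf2 hR hx hs5 hspos hs16
  subst ha
  have hf1 : 1 ≤ f := hf
  have hg1 : 1 ≤ g := hg
  clear_value s Y
  subst hs'
  subst hY
  interval_cases f <;> interval_cases g <;> first | omega | (ring_nf at hAB; omega)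

/-- The case `δ = -1`. -/
theorem case_minus {f g a A B : ℤ} (hf : 0 < f) (hfo : f % 2 = 1) (hg : 0 < g) (ha : a = 2 * f * g - 1) (ha1 : 1 < a)
    (hA : 2 ≤ |A|) (hB : 2 ≤ |B|) (hs : A + B = 2 * (4 * g - 1))
    (hAB : A * B * (f ^ 2 * (4 * g - 1) ^ 2 - 16 * a) = - (f ^ 2 * (4 * g - 1) ^ 2 * (8 * g - 1))) :
    (f = 1 ∧ g = 2) ∨ (f = 3 ∧ g = 1) := by
  set Y := 4 * g - 1 with hY
  have hY3 : 3 ≤ Y := by omega
  have hx : 8 * g - 1 = 2 * Y + 1 := by omega
  set s := f * Y with hs'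
  have hspos : 0 < s := by positivity
  have hs3 : 3 * f ≤ s := by nlinarith
  have hR : f ^ 2 * Y ^ 2 - 16 * a = (s - 4) ^ 2 - 8 * f := by
    rw [ha, hs']
    have : 4 * g = Y + 1 := by omega
    have e : 16 * (2 * f * g - 1) = 8 * f * (4 * g) - 16 := by ring
    rw [e, this]
    ring
  have hf2 : f ^ 2 * Y ^ 2 = s ^ 2 := by rw [hs']; ring
  rw [hR, hf2, hx] at hAB
  -- positivity of `R`
  have hRpos : 0 < (s - 4) ^ 2 - 8 * f := by
    by_contra hc
    have hc' : (s - 4) ^ 2 ≤ 8 * f := by linarith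
    rcases (by omega : f = 1 ∨ 3 ≤ f) with h1 | h1
    · subst h1
      have hs1 : s = Y := by rw [hs']; ring
      rw [hs1] at hc'
      have hY7 : Y ≤ 6 := by nlinarith
      have hg1 : g = 1 := by omega
      subst hg1
      rw [ha] at ha1
      norm_num at ha1
    · have h2 : 0 < 3 * f - 4 := by omega
      have h3 : (3 * f - 4) ^ 2 ≤ (s - 4) ^ 2 := by
        apply pow_le_pow_left₀ h2.le
        omega
      nlinarith
  have hQ : 0 < s ^ 2 * (2 * Y + 1) := by
    apply mul_pos (by positivity)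
    omega
  have hPneg : A * B < 0 := by
    by_contra hc
    have h1 : 0 ≤ A * B := not_lt.1 hc
    have h2 : 0 ≤ A * B * ((s - 4) ^ 2 - 8 * f) := mul_nonneg h1 hRpos.le
    linarith
  -- the bound on `-A B`
  have hP : 4 * Y + 4 ≤ - (A * B) := by
    rcases lt_trichotomy A 0 with hA0 | hA0 | hA0
    · have hB0 : 0 < B := by
        by_contra hc
        have : 0 ≤ A * B := mul_nonneg_of_nonpos_of_nonpos hA0.le (not_lt.1 hc)
        omega
      rw [abs_of_neg hA0] at hA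
      have hB' : B = 2 * Y - A := by rw [hY]; omega
      nlinarith
    · rw [hA0] at hPneg
      simp at hPneg
    · have hB0 : B < 0 := by
        by_contra hc
        have : 0 ≤ A * B := mul_nonneg hA0.le (not_lt.1 hc)
        omega
      rw [abs_of_neg hB0] at hB
      have hA' : A = 2 * Y - B := by rw [hY]; omega
      nlinarith
  have hmain : (4 * Y + 4) * ((s - 4) ^ 2 - 8 * f) ≤ s ^ 2 * (2 * Y + 1) := by
    have h1 : (4 * Y + 4) * ((s - 4) ^ 2 - 8 * f) ≤ (- (A * B)) * ((s - 4) ^ 2 - 8 * f) :=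
      mul_le_mul_of_nonneg_right hP hRpos.le
    have h2 : (- (A * B)) * ((s - 4) ^ 2 - 8 * f) = s ^ 2 * (2 * Y + 1) := by
      linear_combination -hAB
    linarith
  have hs19 : s ≤ 19 := by
    by_contra hc
    have hs20 : 20 ≤ s := by omega
    -- `2 R ≤ s²`
    have h1 : (2 * Y + 2) * (2 * ((s - 4) ^ 2 - 8 * f)) ≤ (2 * Y + 2) * s ^ 2 := by
      have h3 : s ^ 2 * (2 * Y + 1) ≤ s ^ 2 * (2 * Y + 2) :=
        mul_le_mul_of_nonneg_left (by omega) (by positivity)
      nlinarith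
    have h2 := le_of_mul_le_mul_left h1 (by omega)
    nlinarith
  have hf6 : f ≤ 6 := by omega
  have hY19 : Y ≤ 19 := by nlinarith
  have hg5 : g ≤ 5 := by omega
  obtain ⟨P, hPdef⟩ : ∃ P, P = A * B := ⟨_, rfl⟩
  rw [← hPdef] at hAB
  clear hP hmain hPneg hPdef hs hA hB hRpos hf2 hR hx hs3 hspos hs19 hQ
  subst ha
  have hf1 : 1 ≤ f := hf
  have hg1 : 1 ≤ g := hg
  clear_value s Y
  subst hs'
  subst hY
  interval_cases f <;> interval_cases g <;> first | omega | (ring_nf at hAB; omega)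

/-- The arithmetic of the case `b = 1 < a`: with `x = χ₁(1)`, `A = δ₂ χ₂(1)`, `B = δ₃ χ₃(1)`. -/
theorem wong_arith {a N x δ A B : ℤ} (hδ : δ = 1 ∨ δ = -1) (ha : 1 < a) (hN : Odd N) (hNpos : 0 < N) (hx : 0 < x)
    (hne : x ≠ δ) (h8 : (8 : ℤ) ∣ x - δ) (hA : 2 ≤ |A|) (hB : 2 ≤ |B|) (h1 : 1 + δ * x + A + B = 0)
    (h2 : N * (x - δ) ^ 2 = 8 * (a + 1) ^ 2 * x * (x + δ))
    (h3 : N * (x * A * B + δ * A * B + x * B + x * A) = 32 * a * x * A * B) :
    (a = 3 ∧ N = 105) ∨ (a = 5 ∧ N = 189) := by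
  obtain ⟨g, hg⟩ := h8
  rcases hδ with rfl | rfl
  · -- `δ = 1`
    exfalso
    have hg0 : 0 < g := by omega
    obtain rfl : x = 8 * g + 1 := by omega
    have hp : 4 * N * g ^ 2 = (a + 1) ^ 2 * ((8 * g + 1) * (4 * g + 1)) := by
      have h5 : (16 : ℤ) * (4 * N * g ^ 2) = 16 * ((a + 1) ^ 2 * ((8 * g + 1) * (4 * g + 1))) := by
        linear_combination h2
      exact mul_left_cancel₀ (by norm_num) h5
    have hodd : Odd ((8 * g + 1) * (4 * g + 1)) :=
      Odd.mul ⟨4 * g, by ring⟩ ⟨2 * g, by ring⟩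
    obtain ⟨f, hf, hfo, hα, hNf⟩ := param (δ := 1) (by norm_num) (by omega : 0 < a + 1) hg0 hN hodd hp
    have hfm : f % 2 = 1 := Int.odd_iff.1 hfo
    have has : a = 2 * f * g - 1 := by omega
    have hs : A + B = -2 * (4 * g + 1) := by linarith
    have hAB : A * B * (f ^ 2 * (4 * g + 1) ^ 2 - 16 * a) = f ^ 2 * (4 * g + 1) ^ 2 * (8 * g + 1) := by
      have hxne : (2 * (8 * g + 1) : ℤ) ≠ 0 := by omega
      apply mul_left_cancel₀ hxne
      have h4 : B = -2 * (4 * g + 1) - A := by linarith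
      rw [hNf, h4] at h3
      rw [h4]
      linear_combination h3
    exact case_plus hf hfm hg0 has ha hA hB hs hAB
  · -- `δ = -1`
    have hg0 : 0 < g := by omega
    obtain rfl : x = 8 * g - 1 := by omega
    have hp : 4 * N * g ^ 2 = (a + 1) ^ 2 * ((8 * g + -1) * (4 * g + -1)) := by
      have h5 : (16 : ℤ) * (4 * N * g ^ 2) = 16 * ((a + 1) ^ 2 * ((8 * g + -1) * (4 * g + -1))) := by
        linear_combination h2
      exact mul_left_cancel₀ (by norm_num) h5
    have hodd : Odd ((8 * g + -1) * (4 * g + -1)) :=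
      Odd.mul ⟨4 * g - 1, by ring⟩ ⟨2 * g - 1, by ring⟩
    obtain ⟨f, hf, hfo, hα, hNf⟩ := param (δ := -1) (by norm_num) (by omega : 0 < a + 1) hg0 hN hodd hp
    have hfm : f % 2 = 1 := Int.odd_iff.1 hfo
    have has : a = 2 * f * g - 1 := by omega
    have hs : A + B = 2 * (4 * g - 1) := by linarith
    have hAB : A * B * (f ^ 2 * (4 * g - 1) ^ 2 - 16 * a) = - (f ^ 2 * (4 * g - 1) ^ 2 * (8 * g - 1)) := by
      have hxne : (2 * (8 * g - 1) : ℤ) ≠ 0 := by omega
      apply mul_left_cancel₀ hxne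
      have h4 : B = 2 * (4 * g - 1) - A := by linarith
      rw [hNf, h4] at h3
      rw [h4]
      linear_combination h3
    rcases case_minus hf hfm hg0 has ha hA hB hs hAB with ⟨rfl, rfl⟩ | ⟨rfl, rfl⟩
    · left
      constructor
      · omega
      · rw [hNf]; norm_num
    · right
      constructor
      · omega
      · rw [hNf]; norm_num

end Cfsg.Agent.Lib.WongArith
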