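import Mathlib
import Cfsg.Agent.Lib.DihOrder
import Cfsg.Agent.Lib.SylowConjLemmas
import Cfsg.Agent.Lib.BrauerWielandt

/-!
# Wong's theorem: groups with a self-centralizing cyclic subgroup of order four.

`Frame σ τ`: `σ` has order `4`, `C(σ) = ⟨σ⟩`, `τ` is an involution inverting `σ`, the `2`-part of `|G|` is at most `8`
and all involutions of `G` are conjugate.  We set `z = σ * σ` and `t = σ * τ`.  All statements are
stated for an arbitrary frame, frames being stable under conjugation and under the change of `τ`.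
-/

set_option autoImplicit false
set_option linter.all false

namespace Cfsg.Agent.Lib.WongBase

open Subgroup DihedralGroup Cfsg.Agent.Lib.DihBlock Cfsg.Agent.Lib
open scoped Pointwise

universe u
variable {G : Type u} [Group G]

/-- The relations of the dihedral group of order `8`. -/
structure Pre (σ τ : G) : Prop where
  σo : orderOf σ = 4
  τo : orderOf τ = 2
  rel : τ * σ * τ⁻¹ = σ⁻¹

/-- The frame. -/
structure Frame [Finite G] (σ τ : G) : Prop extends Pre σ τ where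
  cent : ∀ g : G, g * σ = σ * g → g ∈ zpowers σ
  conj : ∀ x y : G, x * x = 1 → x ≠ 1 → y * y = 1 → y ≠ 1 → IsConj x y
  two : ¬ 16 ∣ Nat.card G

/-- Square roots of elements of odd order. -/
theorem exists_sqrt {x : G} (hx : Odd (orderOf x)) : ∃ e ∈ zpowers x, e * e = x := by
  obtain ⟨m, hm⟩ := hx
  refine ⟨x ^ (m + 1), pow_mem (mem_zpowers x) _, ?_⟩
  rw [← pow_add]
  have : m + 1 + (m + 1) = orderOf x + 1 := by omega
  rw [this, pow_succ, pow_orderOf_eq_one, one_mul]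

theorem orderOf_conj' (c x : G) : orderOf (c * x * c⁻¹) = orderOf x := by
  have h := orderOf_injective (MulAut.conj c).toMonoidHom (MulAut.conj c).injective x
  simpa [MulAut.conj_apply] using h

theorem eq_one_of_odd_of_sq {x : G} (hx : Odd (orderOf x)) (h : x * x = 1) : x = 1 := by
  have h1 : orderOf x ∣ 2 := orderOf_dvd_of_pow_eq_one (by rw [pow_two, h])
  have h2 : orderOf x = 1 := by
    have h3 := Nat.le_of_dvd (by norm_num) h1
    obtain ⟨m, hm⟩ := hx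
    omega
  exact orderOf_eq_one_iff.mp h2

/-- A conjugation fixing a power: powers of an element inverted or centralized. -/
theorem conj_mem_zpowers_inv {p e o : G} (he : e ∈ zpowers o) (h : p * o * p⁻¹ = o⁻¹) : p * e * p⁻¹ = e⁻¹ := by
  obtain ⟨i, rfl⟩ := he
  change p * o ^ i * p⁻¹ = (o ^ i)⁻¹
  rw [← conj_zpow, h, inv_zpow]

section Finite
variable [Finite G]

variable {σ τ : G}

theorem Pre.τ2 (F : Pre σ τ) : τ * τ = 1 := by
  rw [← pow_two, ← F.τo, pow_orderOf_eq_one]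

theorem Pre.τi (F : Pre σ τ) : τ⁻¹ = τ := inv_eq_of_mul_eq_one_left F.τ2

theorem Pre.σ4 (F : Pre σ τ) : σ ^ 4 = 1 := by
  rw [← F.σo, pow_orderOf_eq_one]

/-- The model map. -/
def dm (σ τ : G) : DihedralGroup 4 → G
  | r i => σ ^ i.val
  | sr i => τ * σ ^ i.val

theorem Pre.pow_val (F : Pre σ τ) (i j : ZMod 4) : σ ^ (i + j).val = σ ^ i.val * σ ^ j.val := by
  have h := pow_mod_orderOf σ (i.val + j.val)
  rw [F.σo] at h
  rw [ZMod.val_add, h, pow_add]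

theorem Pre.τστ (F : Pre σ τ) : τ * σ * τ = σ⁻¹ := by
  have := F.rel
  rwa [F.τi] at this

theorem Pre.στ_eq (F : Pre σ τ) : σ * τ = τ * σ⁻¹ := by
  have h1 := F.τστ
  rw [← h1]
  have h2 := F.τ2
  calc σ * τ = (τ * τ) * σ * τ := by rw [h2, one_mul]
    _ = τ * (τ * σ * τ) := by group

theorem Pre.τσ_eq (F : Pre σ τ) : τ * σ = σ⁻¹ * τ := by
  have h1 := F.τστ
  rw [← h1]
  have h2 := F.τ2
  calc τ * σ = τ * σ * (τ * τ) := by rw [h2, mul_one]
    _ = τ * σ * τ * τ := by group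

theorem Pre.σ_pow_τ (F : Pre σ τ) (n : ℕ) : σ ^ n * τ = τ * (σ⁻¹) ^ n := by
  induction n with
  | zero => simp
  | succ n ih =>
    rw [pow_succ, mul_assoc, F.στ_eq, ← mul_assoc, ih, mul_assoc, pow_succ]

theorem Pre.val_neg (F : Pre σ τ) (i : ZMod 4) : (σ ^ i.val)⁻¹ = σ ^ (-i).val := by
  apply inv_eq_of_mul_eq_one_right
  rw [← F.pow_val]
  simp

theorem Pre.σ_val_τ (F : Pre σ τ) (i : ZMod 4) : σ ^ i.val * τ = τ * σ ^ (-i).val := by
  rw [F.σ_pow_τ, inv_pow, F.val_neg]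

theorem Pre.dm_mul (F : Pre σ τ) (x y : DihedralGroup 4) : dm σ τ (x * y) = dm σ τ x * dm σ τ y := by
  rcases x with i | i <;> rcases y with j | j
  · show σ ^ (i + j).val = σ ^ i.val * σ ^ j.val
    exact F.pow_val i j
  · show τ * σ ^ (j - i).val = σ ^ i.val * (τ * σ ^ j.val)
    rw [← mul_assoc, F.σ_val_τ, mul_assoc, ← F.pow_val, neg_add_eq_sub]
  · show τ * σ ^ (i + j).val = τ * σ ^ i.val * σ ^ j.val
    rw [F.pow_val, mul_assoc]
  · show σ ^ (j - i).val = τ * σ ^ i.val * (τ * σ ^ j.val)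
    rw [mul_assoc, ← mul_assoc (σ ^ i.val), F.σ_val_τ, mul_assoc τ, ← mul_assoc, F.τ2, one_mul, ← F.pow_val,
      neg_add_eq_sub]

/-- The model morphism. -/
def Pre.φ (F : Pre σ τ) : DihedralGroup 4 →* G where
  toFun := dm σ τ
  map_one' := by
    show σ ^ (0 : ZMod 4).val = 1
    simp
  map_mul' := F.dm_mul

@[simp] theorem Pre.φ_r0 (F : Pre σ τ) : F.φ (r 0) = 1 := by
  show σ ^ (0 : ZMod 4).val = 1
  simp
@[simp] theorem Pre.φ_r1 (F : Pre σ τ) : F.φ (r 1) = σ := by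
  show σ ^ 1 = σ
  simp
@[simp] theorem Pre.φ_r2 (F : Pre σ τ) : F.φ (r 2) = σ * σ := by
  show σ ^ 2 = σ * σ
  rw [pow_two]
@[simp] theorem Pre.φ_sr0 (F : Pre σ τ) : F.φ (sr 0) = τ := by
  show τ * σ ^ 0 = τ
  simp
@[simp] theorem Pre.φ_r3 (F : Pre σ τ) : F.φ (r 3) = σ⁻¹ := by
  have h : (r 3 : DihedralGroup 4) = (r 1)⁻¹ := by decide
  rw [h, map_inv, F.φ_r1]
@[simp] theorem Pre.φ_sr3 (F : Pre σ τ) : F.φ (sr 3) = σ * τ := by
  have h : (sr 3 : DihedralGroup 4) = r 1 * sr 0 := by decide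
  rw [h, map_mul, F.φ_r1, F.φ_sr0]
@[simp] theorem Pre.φ_sr2 (F : Pre σ τ) : F.φ (sr 2) = σ * σ * τ := by
  have h : (sr 2 : DihedralGroup 4) = r 2 * sr 0 := by decide
  rw [h, map_mul, F.φ_r2, F.φ_sr0]
@[simp] theorem Pre.φ_sr1 (F : Pre σ τ) : F.φ (sr 1) = σ * σ * (σ * τ) := by
  have h : (sr 1 : DihedralGroup 4) = r 2 * sr 3 := by decide
  rw [h, map_mul, F.φ_r2, F.φ_sr3]

theorem dih4_all : ∀ x : DihedralGroup 4, x = r 0 ∨ x = r 1 ∨ x = r 2 ∨ x = r 3 ∨ x = sr 0 ∨ x = sr 3 ∨ x = sr 2 ∨ x = sr 1 := by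
  decide

theorem Pre.σ_ne_one (F : Pre σ τ) : σ ≠ 1 := by
  intro h
  have := F.σo
  rw [h, orderOf_one] at this
  omega

theorem Pre.z_ne_one (F : Pre σ τ) : σ * σ ≠ 1 := by
  intro h
  have h1 : orderOf σ ∣ 2 := orderOf_dvd_of_pow_eq_one (by rw [pow_two, h])
  rw [F.σo] at h1
  omega

theorem Pre.τ_ne_one (F : Pre σ τ) : τ ≠ 1 := by
  intro h
  have := F.τo
  rw [h, orderOf_one] at this
  omega

theorem Pre.zz (F : Pre σ τ) : σ * σ * (σ * σ) = 1 := by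
  have := F.σ4
  rw [show (4 : ℕ) = 1 + 1 + 1 + 1 from rfl] at this
  simpa [pow_succ, mul_assoc] using this

theorem Pre.zi (F : Pre σ τ) : (σ * σ)⁻¹ = σ * σ := inv_eq_of_mul_eq_one_left F.zz

theorem Pre.zτ_comm (F : Pre σ τ) : σ * σ * τ = τ * (σ * σ) := by
  have := congrArg F.φ (by decide : (r 2 : DihedralGroup 4) * sr 0 = sr 0 * r 2)
  simpa only [map_mul, F.φ_r2, F.φ_sr0] using this

theorem Pre.zσ_inv (F : Pre σ τ) : σ⁻¹ = σ * σ * σ := by
  have := congrArg F.φ (by decide : (r 3 : DihedralGroup 4) = r 2 * r 1)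
  simpa only [map_mul, F.φ_r2, F.φ_r3, F.φ_r1] using this

theorem Pre.t2 (F : Pre σ τ) : σ * τ * (σ * τ) = 1 := by
  have := congrArg F.φ (by decide : (sr 3 : DihedralGroup 4) * sr 3 = 1)
  simpa only [map_mul, F.φ_sr3, map_one] using this

theorem Pre.zτ2 (F : Pre σ τ) : σ * σ * τ * (σ * σ * τ) = 1 := by
  have := congrArg F.φ (by decide : (sr 2 : DihedralGroup 4) * sr 2 = 1)
  simpa only [map_mul, F.φ_sr2, map_one] using this

theorem Pre.zt2 (F : Pre σ τ) : σ * σ * (σ * τ) * (σ * σ * (σ * τ)) = 1 := by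
  have := congrArg F.φ (by decide : (sr 1 : DihedralGroup 4) * sr 1 = 1)
  simpa only [map_mul, F.φ_sr1, map_one] using this

theorem Pre.zt_comm (F : Pre σ τ) : σ * σ * (σ * τ) = σ * τ * (σ * σ) := by
  have := congrArg F.φ (by decide : (r 2 : DihedralGroup 4) * sr 3 = sr 3 * r 2)
  simpa only [map_mul, F.φ_r2, F.φ_sr3] using this

theorem Pre.σ_t (F : Pre σ τ) : σ * (σ * τ) * σ⁻¹ = σ * σ * (σ * τ) := by
  have := congrArg F.φ (by decide : (r 1 : DihedralGroup 4) * sr 3 * (r 1)⁻¹ = r 2 * sr 3)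
  simpa only [map_mul, map_inv, F.φ_r2, F.φ_sr3, F.φ_r1] using this

theorem Pre.τ_t (F : Pre σ τ) : τ * (σ * τ) * τ⁻¹ = σ * σ * (σ * τ) := by
  have := congrArg F.φ (by decide : (sr 0 : DihedralGroup 4) * sr 3 * (sr 0)⁻¹ = r 2 * sr 3)
  simpa only [map_mul, map_inv, F.φ_r2, F.φ_sr3, F.φ_sr0] using this

theorem Pre.σ_τ (F : Pre σ τ) : σ * τ * σ⁻¹ = σ * σ * τ := by
  have := congrArg F.φ (by decide : (r 1 : DihedralGroup 4) * sr 0 * (r 1)⁻¹ = r 2 * sr 0)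
  simpa only [map_mul, map_inv, F.φ_r2, F.φ_r1, F.φ_sr0] using this

theorem Pre.σ_ne_τ (F : Pre σ τ) : σ * σ ≠ τ := by
  intro h
  have h1 : (σ * σ) * σ * (σ * σ)⁻¹ = τ * σ * τ⁻¹ := by rw [h]
  rw [F.rel] at h1
  have h2 : σ * σ * σ * (σ * σ)⁻¹ = σ := by group
  rw [h2] at h1
  -- `σ = σ⁻¹`
  apply F.z_ne_one
  calc σ * σ = σ⁻¹ * σ := by rw [← h1]
    _ = 1 := inv_mul_cancel σ

/-- The frame conjugated. -/
theorem Frame.conjF (F : Frame σ τ) (c : G) : Frame (c * σ * c⁻¹) (c * τ * c⁻¹) where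
  σo := by rw [orderOf_conj', F.σo]
  τo := by rw [orderOf_conj', F.τo]
  rel := by
    have h := F.rel
    calc c * τ * c⁻¹ * (c * σ * c⁻¹) * (c * τ * c⁻¹)⁻¹ = c * (τ * σ * τ⁻¹) * c⁻¹ := by group
      _ = (c * σ * c⁻¹)⁻¹ := by rw [h]; group
  cent := by
    intro g hg
    have h1 : (c⁻¹ * g * c) * σ = σ * (c⁻¹ * g * c) := by
      have h2 : c⁻¹ * (g * (c * σ * c⁻¹)) * c = c⁻¹ * ((c * σ * c⁻¹) * g) * c := by rw [hg]
      calc (c⁻¹ * g * c) * σ = c⁻¹ * (g * (c * σ * c⁻¹)) * c := by group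
        _ = c⁻¹ * ((c * σ * c⁻¹) * g) * c := h2
        _ = σ * (c⁻¹ * g * c) := by group
    obtain ⟨i, hi⟩ := F.cent _ h1
    refine ⟨i, ?_⟩
    change (c * σ * c⁻¹) ^ i = g
    rw [conj_zpow]
    change σ ^ i = c⁻¹ * g * c at hi
    rw [hi]
    group
  conj := F.conj
  two := F.two

/-- The generated subgroup is the image of the model. -/
theorem Pre.closure_eq (F : Pre σ τ) : closure ({σ, τ} : Set G) = F.φ.range := by
  apply le_antisymm
  · rw [closure_le]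
    rintro x (rfl | rfl)
    · exact ⟨r 1, F.φ_r1⟩
    · exact ⟨sr 0, F.φ_sr0⟩
  · rintro _ ⟨x, rfl⟩
    have hσ : σ ∈ closure ({σ, τ} : Set G) := subset_closure (by simp)
    have hτ : τ ∈ closure ({σ, τ} : Set G) := subset_closure (by simp)
    rcases x with i | i
    · exact pow_mem hσ _
    · exact mul_mem hτ (pow_mem hσ _)

theorem Pre.τ_not_mem (F : Pre σ τ) : τ ∉ zpowers σ := by
  rintro ⟨i, hi⟩
  have hi' : σ ^ i = τ := hi
  have h1 := F.rel
  have h2 : τ * σ = σ * τ := by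
    rw [← hi']
    exact (Commute.zpow_left (Commute.refl σ) i).eq
  rw [h2, mul_inv_cancel_right] at h1
  apply F.z_ne_one
  calc σ * σ = σ⁻¹ * σ := by rw [← h1]
    _ = 1 := inv_mul_cancel σ

theorem Pre.φ_inj (F : Pre σ τ) : Function.Injective F.φ := by
  rw [injective_iff_map_eq_one]
  intro x hx
  have hσ : σ ∈ zpowers σ := mem_zpowers σ
  have hk : ∀ w ∈ zpowers σ, w * τ = 1 → False := by
    intro w hw h
    apply F.τ_not_mem
    rw [eq_inv_of_mul_eq_one_right h]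
    exact inv_mem hw
  rcases dih4_all x with rfl | rfl | rfl | rfl | rfl | rfl | rfl | rfl
  · rfl
  · rw [F.φ_r1] at hx
    exact absurd hx F.σ_ne_one
  · rw [F.φ_r2] at hx
    exact absurd hx F.z_ne_one
  · rw [F.φ_r3, inv_eq_one] at hx
    exact absurd hx F.σ_ne_one
  · rw [F.φ_sr0] at hx
    exact absurd hx F.τ_ne_one
  · rw [F.φ_sr3] at hx
    exact (hk σ hσ hx).elim
  · rw [F.φ_sr2] at hx
    exact (hk _ (mul_mem hσ hσ) hx).elim
  · rw [F.φ_sr1] at hx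
    have hx' : σ * σ * σ * τ = 1 := by rw [← hx]; group
    exact (hk _ (mul_mem (mul_mem hσ hσ) hσ) hx').elim

/-- The order of the model subgroup. -/
theorem Pre.card_closure (F : Pre σ τ) : Nat.card (closure ({σ, τ} : Set G)) = 8 := by
  rw [F.closure_eq]
  have h := Nat.card_congr (MonoidHom.ofInjective F.φ_inj).toEquiv
  rw [← h, Nat.card_eq_fintype_card, DihedralGroup.card]

theorem Frame.exists_S (F : Frame σ τ) : ∃ S : Sylow 2 G, (S : Subgroup G) = closure ({σ, τ} : Set G) := by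
  haveI : Fact (Nat.Prime 2) := ⟨Nat.prime_two⟩
  have hc := F.card_closure
  have hp : IsPGroup 2 (closure ({σ, τ} : Set G)) := IsPGroup.of_card (n := 3) (by rw [hc]; norm_num)
  obtain ⟨S, hS⟩ := hp.exists_le_sylow
  refine ⟨S, (eq_of_le_of_card_ge hS ?_).symm⟩
  rw [hc]
  obtain ⟨n, hn⟩ := (IsPGroup.iff_card.mp S.isPGroup')
  have h1 : Nat.card (S : Subgroup G) ∣ Nat.card G := Subgroup.card_subgroup_dvd_card _
  rw [hn] at h1 ⊢
  by_contra hlt
  have h4 : 4 ≤ n := by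
    by_contra h
    have : n ≤ 3 := by omega
    exact hlt (Nat.pow_le_pow_right (by norm_num) this)
  exact F.two ((Nat.pow_dvd_pow 2 h4).trans h1)

/-- The isomorphism with the dihedral group, from the relations only. -/
theorem Pre.iso (F : Pre σ τ) {S : Subgroup G} (hS : S = closure ({σ, τ} : Set G)) : Nonempty (S ≃* DihedralGroup 4) := by
  have h : F.φ.range = S := by rw [hS, F.closure_eq]
  exact ⟨((MonoidHom.ofInjective F.φ_inj).trans (MulEquiv.subgroupCongr h)).symm⟩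

/-- The Sylow subgroup of the frame. -/
noncomputable def Frame.S (F : Frame σ τ) : Sylow 2 G := Classical.choose F.exists_S

theorem Frame.S_coe (F : Frame σ τ) : (F.S : Subgroup G) = closure ({σ, τ} : Set G) := Classical.choose_spec F.exists_S

theorem Frame.σ_mem (F : Frame σ τ) : σ ∈ (F.S : Subgroup G) := by
  rw [F.S_coe]
  exact subset_closure (by simp)

theorem Frame.τ_mem (F : Frame σ τ) : τ ∈ (F.S : Subgroup G) := by
  rw [F.S_coe]
  exact subset_closure (by simp)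

theorem Frame.dh (F : Frame σ τ) : DH F.S σ 2 :=
  DH.of_gens F.S 2 le_rfl σ τ F.σ_mem F.τ_mem (by rw [F.σo]; norm_num) F.τo F.rel F.S_coe.symm

theorem Frame.dh_z (F : Frame σ τ) : F.dh.z = σ * σ := by
  show σ ^ 2 ^ (2 - 1) = σ * σ
  norm_num [pow_two]

/-- The isomorphism with the dihedral group. -/
theorem Frame.iso (F : Frame σ τ) : Nonempty ((F.S : Subgroup G) ≃* DihedralGroup 4) := by
  exact F.toPre.iso F.S_coe

theorem Frame.S_cases (F : Frame σ τ) {x : G} (hx : x ∈ (F.S : Subgroup G)) :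
    x = 1 ∨ x = σ ∨ x = σ * σ ∨ x = σ⁻¹ ∨ x = τ ∨ x = σ * τ ∨ x = σ * σ * τ ∨ x = σ * σ * (σ * τ) := by
  rw [F.S_coe, F.closure_eq] at hx
  obtain ⟨d, rfl⟩ := hx
  rcases dih4_all d with rfl | rfl | rfl | rfl | rfl | rfl | rfl | rfl
  · left; exact F.φ_r0
  · right; left; exact F.φ_r1
  · right; right; left; exact F.φ_r2
  · right; right; right; left; exact F.φ_r3
  · right; right; right; right; left; exact F.φ_sr0
  · right; right; right; right; right; left; exact F.φ_sr3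
  · right; right; right; right; right; right; left; exact F.φ_sr2
  · right; right; right; right; right; right; right; exact F.φ_sr1

theorem Frame.z_mem (F : Frame σ τ) : σ * σ ∈ (F.S : Subgroup G) := mul_mem F.σ_mem F.σ_mem
theorem Frame.t_mem (F : Frame σ τ) : σ * τ ∈ (F.S : Subgroup G) := mul_mem F.σ_mem F.τ_mem
theorem Frame.zτ_mem (F : Frame σ τ) : σ * σ * τ ∈ (F.S : Subgroup G) := mul_mem F.z_mem F.τ_mem
theorem Frame.zt_mem (F : Frame σ τ) : σ * σ * (σ * τ) ∈ (F.S : Subgroup G) := mul_mem F.z_mem F.t_mem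

/-- The elements of `S` commute with `z`. -/
theorem Frame.S_comm_z (F : Frame σ τ) {x : G} (hx : x ∈ (F.S : Subgroup G)) : x * (σ * σ) = σ * σ * x := by
  have h := F.dh.z_comm hx
  rwa [F.dh_z] at h

theorem Frame.not_mem_of_comm_τ (F : Frame σ τ) : σ * τ ≠ τ * σ := by
  intro h
  rw [F.τσ_eq] at h
  have h2 := mul_right_cancel h
  apply F.z_ne_one
  calc σ * σ = σ⁻¹ * σ := by rw [← h2]
    _ = 1 := inv_mul_cancel σ

/-- A reflection of `S` gives a frame with the same `σ`. -/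
theorem Frame.refl_frame (F : Frame σ τ) {p : G} (hp : p ∈ (F.S : Subgroup G)) (hn : p ∉ zpowers σ) : Frame σ p where
  σo := F.σo
  τo := by
    have h := F.dh.refl p hp hn
    apply orderOf_eq_prime (by rw [pow_two]; exact h.1)
    rintro rfl
    exact hn (one_mem _)
  rel := (F.dh.refl p hp hn).2 σ (mem_zpowers σ)
  cent := F.cent
  conj := F.conj
  two := F.two

theorem Frame.t_not_mem (F : Frame σ τ) : σ * τ ∉ zpowers σ := by
  intro h
  apply F.τ_not_mem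
  have := mul_mem (inv_mem (mem_zpowers σ)) h
  rwa [inv_mul_cancel_left] at this

theorem Frame.zτ_not_mem (F : Frame σ τ) : σ * σ * τ ∉ zpowers σ := by
  intro h
  apply F.τ_not_mem
  have := mul_mem (inv_mem (mul_mem (mem_zpowers σ) (mem_zpowers σ))) h
  rwa [inv_mul_cancel_left] at this

theorem Frame.zt_not_mem (F : Frame σ τ) : σ * σ * (σ * τ) ∉ zpowers σ := by
  intro h
  apply F.t_not_mem
  have := mul_mem (inv_mem (mul_mem (mem_zpowers σ) (mem_zpowers σ))) h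
  rwa [inv_mul_cancel_left] at this

theorem Frame.t_frame (F : Frame σ τ) : Frame σ (σ * τ) := F.refl_frame F.t_mem F.t_not_mem
theorem Frame.zτ_frame (F : Frame σ τ) : Frame σ (σ * σ * τ) := F.refl_frame F.zτ_mem F.zτ_not_mem
theorem Frame.zt_frame (F : Frame σ τ) : Frame σ (σ * σ * (σ * τ)) := F.refl_frame F.zt_mem F.zt_not_mem

/-- The subgroup generated by the odd order elements of the centralizer of `v`. -/
def Od (v : G) : Subgroup G := closure {g | g * v = v * g ∧ Odd (orderOf g)}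

theorem Od_conj (c v x : G) (hx : x ∈ Od v) : c * x * c⁻¹ ∈ Od (c * v * c⁻¹) := by
  have hle : Od v ≤ (Od (c * v * c⁻¹)).comap (MulAut.conj c).toMonoidHom := by
    unfold Od
    rw [closure_le]
    rintro g ⟨h1, h2⟩
    apply Subgroup.subset_closure
    refine ⟨?_, ?_⟩
    · show c * g * c⁻¹ * (c * v * c⁻¹) = c * v * c⁻¹ * (c * g * c⁻¹)
      calc c * g * c⁻¹ * (c * v * c⁻¹) = c * (g * v) * c⁻¹ := by group
        _ = c * (v * g) * c⁻¹ := by rw [h1]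
        _ = _ := by group
    · show Odd (orderOf (c * g * c⁻¹))
      rw [orderOf_conj']
      exact h2
  exact hle hx

/-- The commutation with `z`. -/
theorem Frame.mem_cz (F : Frame σ τ) {x : G} (h : x * (σ * σ) = σ * σ * x) : x ∈ centralizer ({F.dh.z} : Set G) := by
  rw [mem_centralizer_singleton_iff, F.dh_z]
  exact h

/-- The retraction. -/
noncomputable def Frame.π (F : Frame σ τ) (x : G) : G := F.dh.piG x

theorem Frame.π_mem (F : Frame σ τ) (x : G) : F.π x ∈ (F.S : Subgroup G) := F.dh.piG_mem x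

theorem Frame.π_mul (F : Frame σ τ) {x y : G} (hx : x * (σ * σ) = σ * σ * x) (hy : y * (σ * σ) = σ * σ * y) :
    F.π (x * y) = F.π x * F.π y := F.dh.piG_mul (F.mem_cz hx) (F.mem_cz hy)

theorem Frame.π_self (F : Frame σ τ) {p : G} (hp : p ∈ (F.S : Subgroup G)) : F.π p = p := F.dh.piG_self hp

theorem Frame.π_one (F : Frame σ τ) : F.π 1 = 1 := F.dh.piG_one

theorem Frame.π_inv (F : Frame σ τ) {x : G} (hx : x * (σ * σ) = σ * σ * x) : F.π x⁻¹ = (F.π x)⁻¹ :=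
  F.dh.piG_inv (F.mem_cz hx)

theorem Frame.π_eq_one (F : Frame σ τ) {x : G} (hx : x * (σ * σ) = σ * σ * x) : F.π x = 1 ↔ Odd (orderOf x) := by
  have h := F.dh.piG_eq_one_iff (F.mem_cz hx)
  rw [← Nat.not_even_iff_odd, even_iff_two_dvd]
  exact h

theorem inv_comm_z {x z : G} (hx : x * z = z * x) : x⁻¹ * z = z * x⁻¹ := by
  calc x⁻¹ * z = x⁻¹ * (z * x) * x⁻¹ := by group
    _ = x⁻¹ * (x * z) * x⁻¹ := by rw [hx]
    _ = z * x⁻¹ := by group

theorem mul_comm_z {x y z : G} (hx : x * z = z * x) (hy : y * z = z * y) : x * y * z = z * (x * y) := by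
  rw [mul_assoc, hy, ← mul_assoc, hx, mul_assoc]

/-- Membership in `O`. -/
theorem Frame.mem_Oz (F : Frame σ τ) {x : G} : x ∈ Od (σ * σ) ↔ x * (σ * σ) = σ * σ * x ∧ Odd (orderOf x) := by
  constructor
  · intro hx
    let T : Subgroup G :=
      { carrier := {x | x * (σ * σ) = σ * σ * x ∧ F.π x = 1}
        mul_mem' := by
          rintro a b ⟨h1, h2⟩ ⟨h3, h4⟩
          exact ⟨mul_comm_z h1 h3, by rw [F.π_mul h1 h3, h2, h4, one_mul]⟩
        one_mem' := ⟨by simp, F.π_one⟩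
        inv_mem' := by
          rintro a ⟨h1, h2⟩
          exact ⟨inv_comm_z h1, by rw [F.π_inv h1, h2, inv_one]⟩ }
    have hle : Od (σ * σ) ≤ T := by
      unfold Od
      rw [closure_le]
      rintro g ⟨h1, h2⟩
      exact ⟨h1, (F.π_eq_one h1).2 h2⟩
    obtain ⟨h1, h2⟩ := hle hx
    exact ⟨h1, (F.π_eq_one h1).1 h2⟩
  · intro h
    exact Subgroup.subset_closure h

theorem Frame.O_comm_z (F : Frame σ τ) {x : G} (hx : x ∈ Od (σ * σ)) : x * (σ * σ) = σ * σ * x := (F.mem_Oz.1 hx).1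

theorem Frame.O_odd (F : Frame σ τ) {x : G} (hx : x ∈ Od (σ * σ)) : Odd (orderOf x) := (F.mem_Oz.1 hx).2

theorem Frame.π_O (F : Frame σ τ) {x : G} (hx : x ∈ Od (σ * σ)) : F.π x = 1 := (F.π_eq_one (F.O_comm_z hx)).2 (F.O_odd hx)

/-- The element `x (π x)⁻¹` lies in `O`. -/
theorem Frame.decomp (F : Frame σ τ) {x : G} (hx : x * (σ * σ) = σ * σ * x) : x * (F.π x)⁻¹ ∈ Od (σ * σ) := by
  have hp : F.π x * (σ * σ) = σ * σ * F.π x := F.S_comm_z (F.π_mem x)
  have hpi := inv_comm_z hp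
  have hm := mul_comm_z hx hpi
  rw [F.mem_Oz]
  refine ⟨hm, ?_⟩
  rw [← F.π_eq_one hm, F.π_mul hx hpi, F.π_inv hp, F.π_self (F.π_mem x), mul_inv_cancel]

theorem Frame.mem_O_of_π (F : Frame σ τ) {x : G} (hx : x * (σ * σ) = σ * σ * x) (h : F.π x = 1) : x ∈ Od (σ * σ) :=
  F.mem_Oz.2 ⟨hx, (F.π_eq_one hx).1 h⟩

/-- `S` normalizes `O`. -/
theorem Frame.S_norm (F : Frame σ τ) {s x : G} (hs : s ∈ (F.S : Subgroup G)) (hx : x ∈ Od (σ * σ)) :
    s * x * s⁻¹ ∈ Od (σ * σ) := by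
  have h1 := F.S_comm_z hs
  have h2 := F.mem_Oz.1 hx
  rw [F.mem_Oz, orderOf_conj']
  refine ⟨mul_comm_z (mul_comm_z h1 h2.1) (inv_comm_z h1), h2.2⟩

theorem odd_dvd_four {n : ℕ} (h : Odd n) (d : n ∣ 4) : n = 1 := by
  have h6 := Nat.le_of_dvd (by norm_num) d
  interval_cases n <;> first | rfl | (exfalso; revert h; decide) | (exfalso; revert d; decide)

theorem sq_four {x : G} (h : x * x = 1) : x ^ 4 = 1 := by
  rw [show (4 : ℕ) = 2 * 2 from rfl, pow_mul, pow_two x, h, one_pow]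

/-- A fixed point free involutory automorphism inverts. -/
theorem inv_of_fpf (O : Subgroup G) (g : G) (hn : ∀ x ∈ O, g * x * g⁻¹ ∈ O)
    (h2 : ∀ x ∈ O, g * (g * x * g⁻¹) * g⁻¹ = x) (hf : ∀ x ∈ O, g * x * g⁻¹ = x → x = 1) :
    ∀ x ∈ O, g * x * g⁻¹ = x⁻¹ := by
  let f : O → O := fun x => ⟨(x : G)⁻¹ * (g * x * g⁻¹), O.mul_mem (O.inv_mem x.2) (hn x x.2)⟩
  have hinj : Function.Injective f := by
    intro a b hab
    have h3 : (a : G)⁻¹ * (g * a * g⁻¹) = (b : G)⁻¹ * (g * b * g⁻¹) := congrArg Subtype.val hab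
    have h4 : (b : G) * (a : G)⁻¹ ∈ O := O.mul_mem b.2 (O.inv_mem a.2)
    have h5 : g * ((b : G) * (a : G)⁻¹) * g⁻¹ = (b : G) * (a : G)⁻¹ := by
      have h6 : g * a * g⁻¹ = a * ((b : G)⁻¹ * (g * b * g⁻¹)) := by
        rw [← h3]; group
      have h7 : g * ((b : G) * (a : G)⁻¹) * g⁻¹ = (g * b * g⁻¹) * (g * a * g⁻¹)⁻¹ := by group
      rw [h7, h6]
      group
    have h8 := hf _ h4 h5
    apply Subtype.ext
    exact (mul_inv_eq_one.1 h8).symm
  have hsurj := Finite.injective_iff_surjective.1 hinj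
  intro x hx
  obtain ⟨a, ha⟩ := hsurj ⟨x, hx⟩
  have h3 : (a : G)⁻¹ * (g * a * g⁻¹) = x := congrArg Subtype.val ha
  rw [← h3]
  have h4 := h2 a a.2
  have h5 : g * ((a : G)⁻¹ * (g * a * g⁻¹)) * g⁻¹ = (g * (a : G)⁻¹ * g⁻¹) * (g * (g * a * g⁻¹) * g⁻¹) := by group
  rw [h5, h4]
  group

/-- `σ` inverts `O`. -/
theorem Frame.inv_σ (F : Frame σ τ) {x : G} (hx : x ∈ Od (σ * σ)) : σ * x * σ⁻¹ = x⁻¹ := by
  refine inv_of_fpf (Od (σ * σ)) σ (fun y hy => F.S_norm F.σ_mem hy) ?_ ?_ x hx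
  · intro y hy
    have h1 := F.O_comm_z hy
    calc σ * (σ * y * σ⁻¹) * σ⁻¹ = (σ * σ) * y * (σ * σ)⁻¹ := by group
      _ = y := by rw [← h1]; group
  · intro y hy h
    have h1 : y * σ = σ * y := by
      calc y * σ = σ * y * σ⁻¹ * σ := by rw [h]
        _ = σ * y := by group
    have h2 := F.cent y h1
    have h3 : orderOf y ∣ 4 := by
      rw [← F.σo]
      exact orderOf_dvd_of_mem_zpowers h2
    have h4 := F.O_odd hy
    exact orderOf_eq_one_iff.mp (odd_dvd_four h4 h3)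

/-- `O` is abelian. -/
theorem Frame.O_comm (F : Frame σ τ) {x y : G} (hx : x ∈ Od (σ * σ)) (hy : y ∈ Od (σ * σ)) : x * y = y * x := by
  have h1 := F.inv_σ (mul_mem hx hy)
  have h2 : σ * (x * y) * σ⁻¹ = (σ * x * σ⁻¹) * (σ * y * σ⁻¹) := by group
  rw [h2, F.inv_σ hx, F.inv_σ hy] at h1
  have h3 : (x⁻¹ * y⁻¹)⁻¹ = (x * y)⁻¹⁻¹ := by rw [h1]
  simp only [mul_inv_rev, inv_inv] at h3
  exact h3.symm

/-- Every involution is a `z` of a conjugate frame. -/
theorem Frame.exists_center (F : Frame σ τ) {v : G} (hv : v * v = 1) (hv1 : v ≠ 1) :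
    ∃ c : G, c * (σ * σ) * c⁻¹ = v := by
  obtain ⟨c, hc⟩ := isConj_iff.1 (F.conj _ _ F.zz F.z_ne_one hv hv1)
  exact ⟨c, hc⟩

theorem conj_sq (c σ : G) : (c * σ * c⁻¹) * (c * σ * c⁻¹) = c * (σ * σ) * c⁻¹ := by group

theorem Frame.exists_frame (F : Frame σ τ) {v : G} (hv : v * v = 1) (hv1 : v ≠ 1) :
    ∃ σ' τ' : G, Frame σ' τ' ∧ σ' * σ' = v := by
  obtain ⟨c, hc⟩ := F.exists_center hv hv1
  exact ⟨_, _, F.conjF c, by rw [conj_sq, hc]⟩

/-- Membership in `Od v`. -/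
theorem Frame.mem_Od (F : Frame σ τ) {v : G} (hv : v * v = 1) (hv1 : v ≠ 1) {x : G} :
    x ∈ Od v ↔ x * v = v * x ∧ Odd (orderOf x) := by
  obtain ⟨σ', τ', F', rfl⟩ := F.exists_frame hv hv1
  exact F'.mem_Oz

/-- `Od v` is abelian. -/
theorem Frame.Od_comm (F : Frame σ τ) {v : G} (hv : v * v = 1) (hv1 : v ≠ 1) {x y : G} (hx : x ∈ Od v) (hy : y ∈ Od v) :
    x * y = y * x := by
  obtain ⟨σ', τ', F', rfl⟩ := F.exists_frame hv hv1
  exact F'.O_comm hx hy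

/-- The `2`-elements of `G` have order dividing `4`. -/
theorem Frame.pow_four (F : Frame σ τ) {h : G} {e : ℕ} (he : h ^ 2 ^ e = 1) : h ^ 4 = 1 := by
  haveI : Fact (Nat.Prime 2) := ⟨Nat.prime_two⟩
  have hp : IsPGroup 2 (zpowers h) := by
    rintro ⟨x, i, rfl⟩
    refine ⟨e, Subtype.ext ?_⟩
    show ((h ^ i) ^ 2 ^ e) = 1
    rw [← zpow_natCast, ← zpow_mul, mul_comm, zpow_mul, zpow_natCast, he, one_zpow]
  obtain ⟨c, hc⟩ := SylowConjLemmas.exists_conj_mem F.S (zpowers h) hp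
  have h1 := hc h (mem_zpowers h)
  have h2 : (c * h * c⁻¹) ^ 4 = 1 := by
    rcases F.S_cases h1 with h3 | h3 | h3 | h3 | h3 | h3 | h3 | h3 <;> rw [h3]
    · simp
    · exact F.σ4
    · exact sq_four F.zz
    · rw [inv_pow, F.σ4, inv_one]
    · exact sq_four F.τ2
    · exact sq_four F.t2
    · exact sq_four F.zτ2
    · exact sq_four F.zt2
  rw [conj_pow] at h2
  have h3 : c * (h ^ 4 * c⁻¹) = 1 := by rw [← mul_assoc]; exact h2
  have h4 : h ^ 4 * c⁻¹ = c⁻¹ := by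
    calc h ^ 4 * c⁻¹ = c⁻¹ * (c * (h ^ 4 * c⁻¹)) := by group
      _ = c⁻¹ := by rw [h3, mul_one]
  exact mul_eq_right.mp h4

/-- The odd part of the centralizer of a four-group. -/
def Wn (v r : G) : Subgroup G := Od v ⊓ centralizer ({r} : Set G)

theorem mem_Wn {v r x : G} : x ∈ Wn v r ↔ x ∈ Od v ∧ x * r = r * x := by
  unfold Wn
  rw [Subgroup.mem_inf, mem_centralizer_singleton_iff]

theorem conj_eq_of_comm {a b : G} (h : a * b = b * a) : a * b * a⁻¹ = b := by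
  rw [h]; group

theorem comm_of_conj_eq {a b : G} (h : a * b * a⁻¹ = b) : a * b = b * a := by
  calc a * b = a * b * a⁻¹ * a := by group
    _ = b * a := by rw [h]

theorem inv_conj_of_conj {p e : G} (h : p * e * p⁻¹ = e⁻¹) : p * e⁻¹ * p⁻¹ = e := by
  have h1 : p * e⁻¹ * p⁻¹ = (p * e * p⁻¹)⁻¹ := by group
  rw [h1, h, inv_inv]

/-- How `t` acts on `O`. -/
theorem Frame.t_act (F : Frame σ τ) {e : G} (he : e ∈ Od (σ * σ)) : (σ * τ) * e * (σ * τ)⁻¹ = (τ * e * τ⁻¹)⁻¹ := by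
  have h1 := F.inv_σ (F.S_norm F.τ_mem he)
  rw [← h1]
  group

theorem Frame.inv_t_iff (F : Frame σ τ) {e : G} (he : e ∈ Od (σ * σ)) :
    e * (σ * τ) = (σ * τ) * e ↔ τ * e * τ⁻¹ = e⁻¹ := by
  have h1 := F.t_act he
  constructor
  · intro h
    have h2 : (σ * τ) * e * (σ * τ)⁻¹ = e := conj_eq_of_comm h.symm
    rw [h2] at h1
    rw [← inv_inj, inv_inv]
    exact h1.symm
  · intro h
    rw [h, inv_inv] at h1
    exact (comm_of_conj_eq h1).symm

/-- On `W₁` the element `t` acts as an inversion. -/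
theorem Frame.W1_t (F : Frame σ τ) {e : G} (he : e ∈ Wn (σ * σ) τ) : (σ * τ) * e * (σ * τ)⁻¹ = e⁻¹ := by
  obtain ⟨h1, h2⟩ := mem_Wn.1 he
  rw [F.t_act h1, conj_eq_of_comm h2.symm]

/-- On `W₂` the element `τ` acts as an inversion. -/
theorem Frame.W2_τ (F : Frame σ τ) {e : G} (he : e ∈ Wn (σ * σ) (σ * τ)) : τ * e * τ⁻¹ = e⁻¹ := by
  obtain ⟨h1, h2⟩ := mem_Wn.1 he
  exact (F.inv_t_iff h1).1 h2

theorem Frame.mem_W2 (F : Frame σ τ) {e : G} (he : e ∈ Od (σ * σ)) (h : τ * e * τ⁻¹ = e⁻¹) : e ∈ Wn (σ * σ) (σ * τ) :=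
  mem_Wn.2 ⟨he, (F.inv_t_iff he).2 h⟩

/-- `O = W₁ W₂`. -/
theorem Frame.split (F : Frame σ τ) {x : G} (hx : x ∈ Od (σ * σ)) :
    ∃ x₁ ∈ Wn (σ * σ) τ, ∃ x₂ ∈ Wn (σ * σ) (σ * τ), x = x₁ * x₂ := by
  obtain ⟨y, hy, hyy⟩ := exists_sqrt (F.O_odd hx)
  have hyO : y ∈ Od (σ * σ) := by
    have : zpowers x ≤ Od (σ * σ) := by rwa [zpowers_le]
    exact this hy
  set y' := τ * y * τ⁻¹ with hy'
  have hy'O : y' ∈ Od (σ * σ) := F.S_norm F.τ_mem hyO
  have hτy' : τ * y' * τ⁻¹ = y := by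
    rw [hy', F.τi]
    calc τ * (τ * y * τ) * τ = (τ * τ) * y * (τ * τ) := by group
      _ = y := by rw [F.τ2]; group
  have hc : y * y' = y' * y := F.O_comm hyO hy'O
  refine ⟨y * y', mem_Wn.2 ⟨mul_mem hyO hy'O, ?_⟩, y * y'⁻¹, F.mem_W2 (mul_mem hyO (inv_mem hy'O)) ?_, ?_⟩
  · have h1 : τ * (y * y') * τ⁻¹ = (τ * y * τ⁻¹) * (τ * y' * τ⁻¹) := by group
    have h2 : τ * (y * y') * τ⁻¹ = y * y' := by
      rw [h1, hτy', ← hy', hc]
    exact (comm_of_conj_eq h2).symm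
  · have h1 : τ * (y * y'⁻¹) * τ⁻¹ = (τ * y * τ⁻¹) * (τ * y' * τ⁻¹)⁻¹ := by group
    rw [h1, hτy', ← hy']
    have hc2 : y' * y⁻¹ = y⁻¹ * y' := by
      calc y' * y⁻¹ = y⁻¹ * (y * y') * y⁻¹ := by group
        _ = y⁻¹ * (y' * y) * y⁻¹ := by rw [hc]
        _ = y⁻¹ * y' := by group
    rw [mul_inv_rev, inv_inv, hc2]
  · have hc2 : y' * (y * y'⁻¹) = y := by
      rw [← mul_assoc, ← hc]; group
    rw [mul_assoc, hc2, hyy]

theorem Frame.W_inf (F : Frame σ τ) : Wn (σ * σ) τ ⊓ Wn (σ * σ) (σ * τ) = ⊥ := by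
  rw [eq_bot_iff]
  rintro x ⟨h1, h2⟩
  have h3 := F.W2_τ h2
  obtain ⟨h4, h5⟩ := mem_Wn.1 h1
  rw [conj_eq_of_comm h5.symm] at h3
  have h6 : x * x = 1 := by
    nth_rw 1 [h3]
    exact inv_mul_cancel x
  exact eq_one_of_odd_of_sq (F.O_odd h4) h6

theorem Frame.card_O (F : Frame σ τ) :
    Nat.card (Od (σ * σ)) = Nat.card (Wn (σ * σ) τ) * Nat.card (Wn (σ * σ) (σ * τ)) := by
  have h : ((Od (σ * σ) : Subgroup G) : Set G) = (Wn (σ * σ) τ : Set G) * (Wn (σ * σ) (σ * τ) : Set G) := by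
    ext x
    constructor
    · intro hx
      obtain ⟨a, ha, b, hb, rfl⟩ := F.split hx
      exact Set.mul_mem_mul ha hb
    · rintro ⟨a, ha, b, hb, rfl⟩
      exact mul_mem (mem_Wn.1 ha).1 (mem_Wn.1 hb).1
  have h1 := BrauerWielandt.card_of_set_mul h
  rw [F.W_inf] at h1
  simpa using h1

/-- A product with an inverting element is a conjugate. -/
theorem sqrt_conj {d p : G} (hd : Odd (orderOf d)) (h : p * d * p⁻¹ = d⁻¹) :
    ∃ c ∈ zpowers d, d * p = c * p * c⁻¹ ∧ p * c * p⁻¹ = c⁻¹ := by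
  obtain ⟨c, hc, hcc⟩ := exists_sqrt hd
  have h1 := conj_mem_zpowers_inv hc h
  refine ⟨c, hc, ?_, h1⟩
  have h2 := inv_conj_of_conj h1
  calc d * p = c * c * p := by rw [hcc]
    _ = c * (p * c⁻¹ * p⁻¹) * p := by rw [h2]
    _ = c * p * c⁻¹ := by group

/-- The involutions of `C(z)`. -/
theorem Frame.invol_cz (F : Frame σ τ) {y : G} (hy : y * (σ * σ) = σ * σ * y) (h2 : y * y = 1) (h1 : y ≠ 1)
    (hz : y ≠ σ * σ) :
    ∃ p ∈ (F.S : Subgroup G), p ∉ zpowers σ ∧ ∃ e ∈ Od (σ * σ), p * e * p⁻¹ = e⁻¹ ∧ y = e * p * e⁻¹ := by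
  set p := F.π y with hp
  have hpS : p ∈ (F.S : Subgroup G) := F.π_mem y
  have hpp : p * p = 1 := by
    rw [hp, ← F.π_mul hy hy, h2, F.π_one]
  have hpi : p⁻¹ = p := inv_eq_of_mul_eq_one_left hpp
  have hO : y * p⁻¹ ∈ Od (σ * σ) := F.decomp hy
  have hp1 : p ≠ 1 := by
    intro h
    apply h1
    exact eq_one_of_odd_of_sq ((F.π_eq_one hy).1 h) h2
  have hpc : p * (σ * σ) = σ * σ * p := F.S_comm_z hpS
  have hpz : p ≠ σ * σ := by
    intro h
    apply hz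
    have h3 : y * p⁻¹ * (y * p⁻¹) = 1 := by
      rw [hpi]
      have h4 : p * y = y * p := by rw [h]; exact hy.symm
      calc y * p * (y * p) = y * (p * y) * p := by group
        _ = y * (y * p) * p := by rw [h4]
        _ = (y * y) * (p * p) := by group
        _ = 1 := by rw [h2, hpp, one_mul]
    have h5 := eq_one_of_odd_of_sq (F.O_odd hO) h3
    have h6 := mul_inv_eq_one.1 h5
    rw [h6, h]
  have hpA : p ∉ zpowers σ := by
    intro h
    apply hpz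
    have := F.dh.eq_of_sq h hp1 hpp
    rwa [F.dh_z] at this
  set o := y * p⁻¹ with ho
  have hyo : y = o * p := by rw [ho]; group
  have hinv : p * o * p⁻¹ = o⁻¹ := by
    rw [hpi]
    apply eq_inv_of_mul_eq_one_left
    have h3 : o * p * (o * p) = 1 := by rw [← hyo]; exact h2
    calc p * o * p * o = o⁻¹ * (o * p * (o * p)) * o := by group
      _ = 1 := by rw [h3]; group
  obtain ⟨c, hc, hc1, hc2⟩ := sqrt_conj (F.O_odd hO) hinv
  have hcO : c ∈ Od (σ * σ) := by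
    have : zpowers o ≤ Od (σ * σ) := by rwa [zpowers_le]
    exact this hc
  exact ⟨p, hpS, hpA, c, hcO, hc2, by rw [hyo, hc1]⟩

/-- The Klein group of the model. -/
def vA : Subgroup (DihedralGroup 4) where
  carrier := {x | x = r 0 ∨ x = r 2 ∨ x = sr 0 ∨ x = sr 2}
  mul_mem' := by decide
  one_mem' := by decide
  inv_mem' := by decide

/-- The four-group `⟨z, τ⟩`. -/
def Frame.V (F : Frame σ τ) : Subgroup G := vA.map F.φ

theorem Frame.mem_V (F : Frame σ τ) {x : G} : x ∈ F.V ↔ x = 1 ∨ x = σ * σ ∨ x = τ ∨ x = σ * σ * τ := by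
  constructor
  · rintro ⟨d, hd, rfl⟩
    rcases hd with rfl | rfl | rfl | rfl
    · left; exact F.φ_r0
    · right; left; exact F.φ_r2
    · right; right; left; exact F.φ_sr0
    · right; right; right; exact F.φ_sr2
  · rintro (rfl | rfl | rfl | rfl)
    · exact one_mem _
    · exact ⟨r 2, Or.inr (Or.inl rfl), F.φ_r2⟩
    · exact ⟨sr 0, Or.inr (Or.inr (Or.inl rfl)), F.φ_sr0⟩
    · exact ⟨sr 2, Or.inr (Or.inr (Or.inr rfl)), F.φ_sr2⟩

theorem Frame.card_V (F : Frame σ τ) : Nat.card F.V = 4 := by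
  unfold Frame.V
  rw [Subgroup.card_map_of_injective F.φ_inj]
  have h : ∀ x : DihedralGroup 4, x ∈ ({r 0, r 2, sr 0, sr 2} : Finset (DihedralGroup 4)) ↔ x ∈ vA := by
    intro x
    show _ ↔ (x = r 0 ∨ x = r 2 ∨ x = sr 0 ∨ x = sr 2)
    simp
  exact (Nat.subtype_card _ h).trans (by decide)

/-- One inclusion suffices for the normalizer. -/
theorem mem_normalizer_of_conj {V : Subgroup G} {u : G} (h : ∀ x ∈ V, u * x * u⁻¹ ∈ V) :
    u ∈ normalizer (V : Set G) := by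
  let f : V → V := fun x => ⟨u * x * u⁻¹, h x x.2⟩
  have hf : Function.Injective f := by
    intro x y hxy
    have h1 : u * (x : G) * u⁻¹ = u * y * u⁻¹ := congrArg Subtype.val hxy
    apply Subtype.ext
    simpa using h1
  have hs : Function.Surjective f := Finite.injective_iff_surjective.mp hf
  rw [mem_normalizer_iff]
  intro x
  refine ⟨h x, fun hx => ?_⟩
  obtain ⟨y, hy⟩ := hs ⟨u * x * u⁻¹, hx⟩
  have h1 : u * (y : G) * u⁻¹ = u * x * u⁻¹ := congrArg Subtype.val hy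
  have h2 : (y : G) = x := by simpa using h1
  rw [← h2]
  exact y.2

theorem Frame.zτ_inv (F : Frame σ τ) : (σ * σ * τ)⁻¹ = σ * σ * τ := inv_eq_of_mul_eq_one_left F.zτ2

/-- Conjugation of `V` when the generators go into a subgroup. -/
theorem Frame.conj_V (F : Frame σ τ) {g : G} {T : Subgroup G} (h1 : g * (σ * σ) * g⁻¹ ∈ T) (h2 : g * τ * g⁻¹ ∈ T)
    {x : G} (hx : x ∈ F.V) : g * x * g⁻¹ ∈ T := by
  rcases F.mem_V.1 hx with rfl | rfl | rfl | rfl
  · simp [one_mem]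
  · exact h1
  · exact h2
  · have : g * (σ * σ * τ) * g⁻¹ = (g * (σ * σ) * g⁻¹) * (g * τ * g⁻¹) := by group
    rw [this]
    exact mul_mem h1 h2

theorem Frame.z_mem_V (F : Frame σ τ) : σ * σ ∈ F.V := F.mem_V.2 (Or.inr (Or.inl rfl))
theorem Frame.τ_mem_V (F : Frame σ τ) : τ ∈ F.V := F.mem_V.2 (Or.inr (Or.inr (Or.inl rfl)))
theorem Frame.zτ_mem_V (F : Frame σ τ) : σ * σ * τ ∈ F.V := F.mem_V.2 (Or.inr (Or.inr (Or.inr rfl)))

theorem Frame.σ_z (F : Frame σ τ) : σ * (σ * σ) * σ⁻¹ = σ * σ := by group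

theorem Frame.τ_z (F : Frame σ τ) : τ * (σ * σ) * τ⁻¹ = σ * σ := by
  rw [← F.zτ_comm]
  group

theorem Frame.S_conj_V (F : Frame σ τ) {s : G} (hs : s ∈ (F.S : Subgroup G)) {x : G} (hx : x ∈ F.V) : s * x * s⁻¹ ∈ F.V := by
  have hle : (F.S : Subgroup G) ≤ normalizer (F.V : Set G) := by
    rw [F.S_coe, closure_le]
    rintro y (hy | hy)
    · rw [hy]
      apply mem_normalizer_of_conj
      intro x hx
      refine F.conj_V ?_ ?_ hx
      · rw [F.σ_z]; exact F.z_mem_V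
      · rw [F.σ_τ]; exact F.zτ_mem_V
    · rw [Set.mem_singleton_iff.1 hy]
      apply mem_normalizer_of_conj
      intro x hx
      refine F.conj_V ?_ ?_ hx
      · rw [F.τ_z]; exact F.z_mem_V
      · have : τ * τ * τ⁻¹ = τ := by group
        rw [this]; exact F.τ_mem_V
  exact (mem_normalizer_iff.1 (hle hs) x).1 hx

/-- The elements of order `4` of `S`. -/
theorem Frame.S_sq (F : Frame σ τ) {x : G} (hx : x ∈ (F.S : Subgroup G)) (h : x * x ≠ 1) : x = σ ∨ x = σ⁻¹ := by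
  rcases F.S_cases hx with rfl | rfl | rfl | rfl | rfl | rfl | rfl | rfl
  · simp at h
  · exact Or.inl rfl
  · exact absurd F.zz h
  · exact Or.inr rfl
  · exact absurd F.τ2 h
  · exact absurd F.t2 h
  · exact absurd F.zτ2 h
  · exact absurd F.zt2 h

theorem conj_ne_one {g x : G} (hx : x * x ≠ 1) : (g * x * g⁻¹) * (g * x * g⁻¹) ≠ 1 := by
  intro h
  apply hx
  have h1 : (g * x * g⁻¹) * (g * x * g⁻¹) = g * (x * x) * g⁻¹ := by group
  rw [h1] at h
  have h2 : g * (x * x) = g := by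
    calc g * (x * x) = g * (x * x) * g⁻¹ * g := by group
      _ = g := by rw [h]; group
  simpa using h2

/-- `N(S) = S`. -/
theorem Frame.norm_S (F : Frame σ τ) {g : G} (hg : ∀ x ∈ (F.S : Subgroup G), g * x * g⁻¹ ∈ (F.S : Subgroup G)) :
    g ∈ (F.S : Subgroup G) := by
  have hzpS : zpowers σ ≤ (F.S : Subgroup G) := by rw [zpowers_le]; exact F.σ_mem
  have h1 := hg σ F.σ_mem
  have h2 : (g * σ * g⁻¹) * (g * σ * g⁻¹) ≠ 1 := conj_ne_one F.z_ne_one
  rcases F.S_sq h1 h2 with h3 | h3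
  · exact hzpS (F.cent g (comm_of_conj_eq h3))
  · have h4 : (τ * g) * σ * (τ * g)⁻¹ = σ := by
      have h5 : (τ * g) * σ * (τ * g)⁻¹ = τ * (g * σ * g⁻¹) * τ⁻¹ := by group
      rw [h5, h3]
      have := inv_conj_of_conj F.rel
      exact this
    have h6 := hzpS (F.cent _ (comm_of_conj_eq h4))
    have h7 := mul_mem (inv_mem F.τ_mem) h6
    rwa [inv_mul_cancel_left] at h7

/-- The two four-groups are not conjugate. -/
theorem Frame.not_conj_V (F : Frame σ τ) {p : G} (Fp : Frame σ p) (hpS : p ∈ (F.S : Subgroup G)) (hp1 : p ∉ F.V)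
    (hp2 : ∀ s ∈ (F.S : Subgroup G), s * p * s⁻¹ = p ∨ s * p * s⁻¹ = σ * σ * p)
    {g : G} (h1 : g * (σ * σ) * g⁻¹ = τ) (h2 : g * p * g⁻¹ = σ * σ) : False := by
  haveI : Fact (Nat.Prime 2) := ⟨Nat.prime_two⟩
  -- the normalizer of `V`
  set M := normalizer (F.V : Set G) with hM
  have hSM : (F.S : Subgroup G) ≤ M := by
    intro s hs
    exact mem_normalizer_of_conj (fun x hx => F.S_conj_V hs hx)
  have hzS : ∀ s ∈ (F.S : Subgroup G), s * (σ * σ) * s⁻¹ = σ * σ := fun s hs => conj_eq_of_comm (F.S_comm_z hs)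
  have hzp : g * (σ * σ * p) * g⁻¹ = τ * (σ * σ) := by
    have : g * (σ * σ * p) * g⁻¹ = (g * (σ * σ) * g⁻¹) * (g * p * g⁻¹) := by group
    rw [this, h1, h2]
  let T : Subgroup G := (F.S : Subgroup G).map (MulAut.conj g).toMonoidHom
  have hT : IsPGroup 2 T := by
    have := F.S.isPGroup'.map (MulAut.conj g).toMonoidHom
    exact this
  have hTM : T ≤ M := by
    rintro _ ⟨s, hs, rfl⟩
    apply mem_normalizer_of_conj
    intro x hx
    show g * s * g⁻¹ * x * (g * s * g⁻¹)⁻¹ ∈ F.V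
    refine F.conj_V (T := F.V) ?_ ?_ hx
    · have : g * s * g⁻¹ * (σ * σ) * (g * s * g⁻¹)⁻¹ = g * (s * p * s⁻¹) * g⁻¹ := by
        rw [← h2]; group
      rw [this]
      rcases hp2 s hs with h3 | h3 <;> rw [h3]
      · rw [h2]; exact F.z_mem_V
      · rw [hzp]
        rw [← F.zτ_comm]
        exact F.zτ_mem_V
    · have : g * s * g⁻¹ * τ * (g * s * g⁻¹)⁻¹ = g * (s * (σ * σ) * s⁻¹) * g⁻¹ := by
        rw [← h1]; group
      rw [this, hzS s hs, h1]
      exact F.τ_mem_V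
  obtain ⟨m, hm, hmT⟩ := SylowConjLemmas.exists_conj_mem_of_le F.S M hSM T hT hTM
  have hc : m * g ∈ (F.S : Subgroup G) := by
    apply F.norm_S
    intro x hx
    have := hmT (g * x * g⁻¹) ⟨x, hx, rfl⟩
    have h3 : m * g * x * (m * g)⁻¹ = m * (g * x * g⁻¹) * m⁻¹ := by group
    rw [h3]
    exact this
  have hmV : m * (σ * σ) * m⁻¹ ∈ F.V := (mem_normalizer_iff.1 hm _).1 F.z_mem_V
  have h4 : (m * g) * p * (m * g)⁻¹ = m * (σ * σ) * m⁻¹ := by
    rw [← h2]; group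
  rcases hp2 _ hc with h5 | h5
  · rw [h5] at h4
    rw [← h4] at hmV
    exact hp1 hmV
  · rw [h5] at h4
    rw [← h4] at hmV
    apply hp1
    have := mul_mem F.z_mem_V hmV
    rwa [← mul_assoc, F.zz, one_mul] at this

/-- Two frames with the same `σ` have the same Sylow subgroup. -/
theorem Frame.S_refl (F : Frame σ τ) {p : G} (Fp : Frame σ p) (hp : p ∈ (F.S : Subgroup G)) :
    (Fp.S : Subgroup G) = (F.S : Subgroup G) := by
  apply eq_of_le_of_card_ge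
  · rw [Fp.S_coe, closure_le]
    rintro y (rfl | rfl)
    · exact F.σ_mem
    · exact hp
  · rw [F.S_coe, Fp.S_coe, F.card_closure, Fp.card_closure]

/-- The conjugates under `S` of a reflection. -/
theorem Frame.conj_refl (F : Frame σ τ) {p : G} (Fp : Frame σ p) (hp : p ∈ (F.S : Subgroup G)) {s : G}
    (hs : s ∈ (F.S : Subgroup G)) : s * p * s⁻¹ = p ∨ s * p * s⁻¹ = σ * σ * p := by
  have hs' : s ∈ (Fp.S : Subgroup G) := by rwa [F.S_refl Fp hp]
  have h1 := Fp.S_conj_V hs' Fp.τ_mem_V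
  rcases Fp.mem_V.1 h1 with h2 | h2 | h2 | h2
  · exfalso
    apply Fp.τ_ne_one
    have h3 : s * p = s := by
      calc s * p = s * p * s⁻¹ * s := by group
        _ = s := by rw [h2]; group
    simpa using h3
  · exfalso
    apply Fp.σ_ne_τ
    have h3 : s * (σ * σ) * s⁻¹ = σ * σ := conj_eq_of_comm (F.S_comm_z hs)
    have h4 : s * (σ * σ) * s⁻¹ = s * p * s⁻¹ := by rw [h3, h2]
    simpa using h4
  · exact Or.inl h2
  · exact Or.inr h2

theorem Frame.t_notin_V (F : Frame σ τ) : σ * τ ∉ F.V := by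
  intro h
  rcases F.mem_V.1 h with h | h | h | h
  · exact absurd (F.φ_inj (show F.φ (sr 3) = F.φ (r 0) by rw [F.φ_sr3, F.φ_r0, h])) (by decide)
  · exact absurd (F.φ_inj (show F.φ (sr 3) = F.φ (r 2) by rw [F.φ_sr3, F.φ_r2, h])) (by decide)
  · exact absurd (F.φ_inj (show F.φ (sr 3) = F.φ (sr 0) by rw [F.φ_sr3, F.φ_sr0, h])) (by decide)
  · exact absurd (F.φ_inj (show F.φ (sr 3) = F.φ (sr 2) by rw [F.φ_sr3, F.φ_sr2, h])) (by decide)

theorem Frame.zt_notin_V (F : Frame σ τ) : σ * σ * (σ * τ) ∉ F.V := by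
  intro h
  rcases F.mem_V.1 h with h | h | h | h
  · exact absurd (F.φ_inj (show F.φ (sr 1) = F.φ (r 0) by rw [F.φ_sr1, F.φ_r0, h])) (by decide)
  · exact absurd (F.φ_inj (show F.φ (sr 1) = F.φ (r 2) by rw [F.φ_sr1, F.φ_r2, h])) (by decide)
  · exact absurd (F.φ_inj (show F.φ (sr 1) = F.φ (sr 0) by rw [F.φ_sr1, F.φ_sr0, h])) (by decide)
  · exact absurd (F.φ_inj (show F.φ (sr 1) = F.φ (sr 2) by rw [F.φ_sr1, F.φ_sr2, h])) (by decide)

theorem conj_inv_of {h a b : G} (H : h * a * h⁻¹ = b) : h⁻¹ * b * h = a := by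
  rw [← H]; group

theorem comm_conj (c : G) {a b : G} (h : a * b = b * a) : (c * a * c⁻¹) * (c * b * c⁻¹) = (c * b * c⁻¹) * (c * a * c⁻¹) := by
  calc (c * a * c⁻¹) * (c * b * c⁻¹) = c * (a * b) * c⁻¹ := by group
    _ = c * (b * a) * c⁻¹ := by rw [h]
    _ = _ := by group

/-- The element of `N(V)` moving `z` to `τ`. -/
theorem Frame.exists_h (F : Frame σ τ) : ∃ h : G, h * (σ * σ) * h⁻¹ = τ ∧
    ((h * τ * h⁻¹ = σ * σ ∧ h * (σ * σ * τ) * h⁻¹ = σ * σ * τ) ∨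
      (h * τ * h⁻¹ = σ * σ * τ ∧ h * (σ * σ * τ) * h⁻¹ = σ * σ)) := by
  obtain ⟨c, hc⟩ := isConj_iff.1 (F.conj τ (σ * σ) F.τ2 F.τ_ne_one F.zz F.z_ne_one)
  set r := c * (σ * σ) * c⁻¹ with hr
  have hrz : r * (σ * σ) = σ * σ * r := by
    have := comm_conj c F.zτ_comm
    rwa [hc] at this
  have hrr : r * r = 1 := by
    rw [hr, conj_sq, F.zz]
    simp
  have hr1 : r ≠ 1 := by
    intro h
    apply F.z_ne_one
    have h3 : c * (σ * σ) = c := by
      calc c * (σ * σ) = c * (σ * σ) * c⁻¹ * c := by group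
        _ = c := by rw [← hr, h]; group
    simpa using h3
  have hrne : r ≠ σ * σ := by
    intro h
    apply F.σ_ne_τ
    have h4 : c * (σ * σ) * c⁻¹ = c * τ * c⁻¹ := by rw [← hr, h, hc]
    simpa using h4
  obtain ⟨p, hpS, hpA, e, heO, -, hre⟩ := F.invol_cz hrz hrr hr1 hrne
  have hez : e⁻¹ * (σ * σ) * e = σ * σ := by
    have := F.O_comm_z heO
    calc e⁻¹ * (σ * σ) * e = e⁻¹ * (e * (σ * σ)) := by rw [mul_assoc, ← this]
      _ = σ * σ := by group
  -- the element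
  refine ?_
  let h : G := (e⁻¹ * c)⁻¹
  have h1 : h * p * h⁻¹ = σ * σ := by
    have h2 : e⁻¹ * r * e = p := by rw [hre]; group
    have h3 : (e⁻¹ * c) * (σ * σ) * (e⁻¹ * c)⁻¹ = p := by
      rw [← h2, hr]; group
    show (e⁻¹ * c)⁻¹ * p * ((e⁻¹ * c)⁻¹)⁻¹ = σ * σ
    rw [← h3]; group
  have h2 : h * (σ * σ) * h⁻¹ = τ := by
    have h3 : (e⁻¹ * c) * τ * (e⁻¹ * c)⁻¹ = σ * σ := by
      have : (e⁻¹ * c) * τ * (e⁻¹ * c)⁻¹ = e⁻¹ * (c * τ * c⁻¹) * e := by group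
      rw [this, hc, hez]
    show (e⁻¹ * c)⁻¹ * (σ * σ) * ((e⁻¹ * c)⁻¹)⁻¹ = τ
    rw [← h3]; group
  refine ⟨h, h2, ?_⟩
  rcases F.S_cases hpS with hp | hp | hp | hp | hp | hp | hp | hp
  · exact absurd (hp ▸ one_mem _) hpA
  · exact absurd (hp ▸ mem_zpowers σ) hpA
  · exact absurd (hp ▸ mul_mem (mem_zpowers σ) (mem_zpowers σ)) hpA
  · exact absurd (hp ▸ inv_mem (mem_zpowers σ)) hpA
  · -- `p = τ`
    left
    rw [hp] at h1
    refine ⟨h1, ?_⟩
    have : h * (σ * σ * τ) * h⁻¹ = (h * (σ * σ) * h⁻¹) * (h * τ * h⁻¹) := by group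
    rw [this, h1, h2, F.zτ_comm]
  · -- `p = t`
    exfalso
    rw [hp] at h1
    exact F.not_conj_V F.t_frame F.t_mem F.t_notin_V (fun s hs => F.conj_refl F.t_frame F.t_mem hs) h2 h1
  · -- `p = z τ`
    right
    rw [hp] at h1
    refine ⟨?_, h1⟩
    have h3 : τ = (σ * σ) * (σ * σ * τ) := by
      rw [← mul_assoc, F.zz, one_mul]
    have h4 : h * τ * h⁻¹ = (h * (σ * σ) * h⁻¹) * (h * (σ * σ * τ) * h⁻¹) := by
      nth_rw 1 [h3]
      group
    rw [h4, h1, h2, F.zτ_comm]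
  · -- `p = z t`
    exfalso
    rw [hp] at h1
    exact F.not_conj_V F.zt_frame F.zt_mem F.zt_notin_V (fun s hs => F.conj_refl F.zt_frame F.zt_mem hs) h2 h1

theorem Frame.σinv_z (F : Frame σ τ) : σ⁻¹ * (σ * σ) * σ = σ * σ := by group

theorem Frame.σinv_τ (F : Frame σ τ) : σ⁻¹ * τ * σ = σ * σ * τ := by
  have := congrArg F.φ (by decide : (r 3 : DihedralGroup 4) * sr 0 * r 1 = r 2 * sr 0)
  simpa only [map_mul, F.φ_r2, F.φ_r1, F.φ_r3, F.φ_sr0] using this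

theorem Frame.σinv_zτ (F : Frame σ τ) : σ⁻¹ * (σ * σ * τ) * σ = τ := by
  have := congrArg F.φ (by decide : (r 3 : DihedralGroup 4) * sr 2 * r 1 = sr 0)
  simpa only [map_mul, F.φ_r2, F.φ_r1, F.φ_r3, F.φ_sr0, F.φ_sr2] using this

theorem Frame.σ_zτ (F : Frame σ τ) : σ * (σ * σ * τ) * σ⁻¹ = τ := by
  have := congrArg F.φ (by decide : (r 1 : DihedralGroup 4) * sr 2 * r 3 = sr 0)
  simpa only [map_mul, F.φ_r2, F.φ_r1, F.φ_r3, F.φ_sr0, F.φ_sr2] using this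

/-- Characterization of `W₁`. -/
theorem Frame.mem_W1 (F : Frame σ τ) {x : G} :
    x ∈ Wn (σ * σ) τ ↔ Odd (orderOf x) ∧ x * (σ * σ) = σ * σ * x ∧ x * τ = τ * x := by
  rw [mem_Wn, F.mem_Oz]
  tauto

theorem comm_of_conj_comm {c a b : G} (h : (c * a * c⁻¹) * (c * b * c⁻¹) = (c * b * c⁻¹) * (c * a * c⁻¹)) : a * b = b * a := by
  have h1 := comm_conj c⁻¹ h
  simpa [mul_assoc] using h1

theorem comm_mul_right {x a b : G} (h1 : x * a = a * x) (h2 : x * b = b * x) : x * (a * b) = (a * b) * x := by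
  rw [← mul_assoc, h1, mul_assoc, h2, mul_assoc]

theorem comm_of_comm_mul {x a b : G} (h1 : x * a = a * x) (h2 : x * (a * b) = (a * b) * x) : x * b = b * x := by
  apply mul_left_cancel (a := a)
  calc a * (x * b) = (a * x) * b := by group
    _ = (x * a) * b := by rw [h1]
    _ = x * (a * b) := by group
    _ = (a * b) * x := h2
    _ = a * (b * x) := by group

theorem Frame.inv_σ' (F : Frame σ τ) {x : G} (hx : x ∈ Od (σ * σ)) : σ⁻¹ * x * σ = x⁻¹ := by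
  have h := conj_inv_of (F.inv_σ (inv_mem hx))
  rwa [inv_inv] at h

/-- The rotation `κ` of the four-group, centralizing `W₁`. -/
theorem Frame.exists_κ (F : Frame σ τ) : ∃ κ : G, κ * (σ * σ) * κ⁻¹ = σ * σ * τ ∧ κ * (σ * σ * τ) * κ⁻¹ = τ ∧
    κ * τ * κ⁻¹ = σ * σ ∧ ∀ u ∈ Wn (σ * σ) τ, κ * u * κ⁻¹ = u := by
  obtain ⟨h, h1, hc⟩ := F.exists_h
  have hκ : ∀ x : G, (h * σ * h⁻¹ * σ⁻¹) * x * (h * σ * h⁻¹ * σ⁻¹)⁻¹ = h * (σ * (h⁻¹ * (σ⁻¹ * x * σ) * h) * σ⁻¹) * h⁻¹ := by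
    intro x; group
  -- `W₁` is stable under `h⁻¹`
  have hW : ∀ u ∈ Wn (σ * σ) τ, h⁻¹ * u * h ∈ Wn (σ * σ) τ := by
    intro u hu
    obtain ⟨hu1, hu2, hu3⟩ := F.mem_W1.1 hu
    have hord : Odd (orderOf (h⁻¹ * u * h)) := by
      have := orderOf_conj' h⁻¹ u
      rw [inv_inv] at this
      rwa [this]
    have hinvconj : ∀ a b : G, a * b = b * a → (h⁻¹ * a * h) * (h⁻¹ * b * h) = (h⁻¹ * b * h) * (h⁻¹ * a * h) := by
      intro a b hab
      have := comm_conj h⁻¹ hab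
      rwa [inv_inv] at this
    rcases hc with ⟨h2, h3⟩ | ⟨h2, h3⟩
    · rw [F.mem_W1]
      refine ⟨hord, ?_, ?_⟩
      · have := hinvconj u τ hu3
        rwa [conj_inv_of h1] at this
      · have := hinvconj u (σ * σ) hu2
        rwa [conj_inv_of h2] at this
    · rw [F.mem_W1]
      have hz : (h⁻¹ * u * h) * (σ * σ) = σ * σ * (h⁻¹ * u * h) := by
        have := hinvconj u τ hu3
        rwa [conj_inv_of h1] at this
      refine ⟨hord, hz, ?_⟩
      have h5 := hinvconj u (σ * σ) hu2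
      rw [conj_inv_of h3] at h5
      exact comm_of_comm_mul hz h5
  refine ⟨h * σ * h⁻¹ * σ⁻¹, ?_, ?_, ?_, ?_⟩
  · rw [hκ, F.σinv_z]
    rcases hc with ⟨h2, h3⟩ | ⟨h2, h3⟩
    · rw [conj_inv_of h2, F.σ_τ, h3]
    · rw [conj_inv_of h3, F.σ_zτ, h2]
  · rw [hκ, F.σinv_zτ, conj_inv_of h1, F.σ_z, h1]
  · rw [hκ, F.σinv_τ]
    rcases hc with ⟨h2, h3⟩ | ⟨h2, h3⟩
    · rw [conj_inv_of h3, F.σ_zτ, h2]
    · rw [conj_inv_of h2, F.σ_τ, h3]
  · intro u hu
    have hO := (mem_Wn.1 hu).1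
    rw [hκ, F.inv_σ' hO]
    have h2 : h⁻¹ * u⁻¹ * h = (h⁻¹ * u * h)⁻¹ := by group
    rw [h2]
    have h3 := (mem_Wn.1 (hW u hu)).1
    have h4 := F.inv_σ (inv_mem h3)
    rw [h4, inv_inv]
    group

/-- The centralizer of `τ` in `S`. -/
theorem Frame.comm_τ_mem_V (F : Frame σ τ) {p : G} (hp : p ∈ (F.S : Subgroup G)) (h : p * τ = τ * p) : p ∈ F.V := by
  rw [F.S_coe, F.closure_eq] at hp
  obtain ⟨d, rfl⟩ := hp
  have h1 : d * sr 0 = sr 0 * d := F.φ_inj (by rw [map_mul, map_mul, F.φ_sr0]; exact h)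
  have h2 : ∀ d : DihedralGroup 4, d * sr 0 = sr 0 * d → (d = r 0 ∨ d = r 2 ∨ d = sr 0 ∨ d = sr 2) := by decide
  exact ⟨d, h2 d h1, rfl⟩

theorem Frame.V_comm_z (F : Frame σ τ) {x : G} (hx : x ∈ F.V) : x * (σ * σ) = σ * σ * x := by
  rcases F.mem_V.1 hx with rfl | rfl | rfl | rfl
  · simp
  · rfl
  · exact F.zτ_comm.symm
  · rw [mul_assoc, F.zτ_comm.symm, ← mul_assoc]

theorem Frame.V_comm_τ (F : Frame σ τ) {x : G} (hx : x ∈ F.V) : x * τ = τ * x := by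
  rcases F.mem_V.1 hx with rfl | rfl | rfl | rfl
  · simp
  · exact F.zτ_comm
  · rfl
  · calc σ * σ * τ * τ = (τ * (σ * σ)) * τ := by rw [F.zτ_comm]
      _ = τ * (σ * σ * τ) := by group

theorem Frame.V_sq (F : Frame σ τ) {x : G} (hx : x ∈ F.V) : x * x = 1 := by
  rcases F.mem_V.1 hx with rfl | rfl | rfl | rfl
  · simp
  · exact F.zz
  · exact F.τ2
  · exact F.zτ2

/-- The centralizer of the four-group. -/
theorem Frame.card_cent2 (F : Frame σ τ) :
    Nat.card (centralizer ({σ * σ, τ} : Set G)) = 4 * Nat.card (Wn (σ * σ) τ) := by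
  have h : ((centralizer ({σ * σ, τ} : Set G) : Subgroup G) : Set G) = (Wn (σ * σ) τ : Set G) * (F.V : Set G) := by
    ext x
    constructor
    · intro hx
      have hx' : x ∈ centralizer ({σ * σ, τ} : Set G) := hx
      rw [mem_centralizer_iff] at hx'
      have h1 : x * (σ * σ) = σ * σ * x := (hx' _ (by simp)).symm
      have h2 : x * τ = τ * x := (hx' _ (by simp)).symm
      have h0 : τ * (σ * σ) = σ * σ * τ := F.zτ_comm.symm
      have hp : F.π x * τ = τ * F.π x := by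
        have h3 := congrArg F.π h2
        rwa [F.π_mul h1 h0, F.π_mul h0 h1, F.π_self F.τ_mem] at h3
      have hpV : F.π x ∈ F.V := F.comm_τ_mem_V (F.π_mem x) hp
      have hO := F.decomp h1
      refine ⟨x * (F.π x)⁻¹, mem_Wn.2 ⟨hO, ?_⟩, F.π x, hpV, by simp⟩
      have hp2 := inv_comm_z hp
      exact mul_comm_z h2 hp2
    · rintro ⟨a, ha, b, hb, rfl⟩
      have ha' := mem_Wn.1 ha
      show a * b ∈ centralizer ({σ * σ, τ} : Set G)
      rw [mem_centralizer_iff]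
      rintro y (rfl | hy)
      · exact (mul_comm_z (F.O_comm_z ha'.1) (F.V_comm_z hb)).symm
      · rw [Set.mem_singleton_iff.1 hy]
        exact (mul_comm_z ha'.2 (F.V_comm_τ hb)).symm
  have h1 := BrauerWielandt.card_of_set_mul h
  have hbot : Wn (σ * σ) τ ⊓ F.V = ⊥ := by
    rw [eq_bot_iff]
    rintro x ⟨h2, h3⟩
    exact eq_one_of_odd_of_sq (F.O_odd (mem_Wn.1 h2).1) (F.V_sq h3)
  rw [hbot, F.card_V] at h1
  simp only [Subgroup.card_bot, mul_one] at h1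
  rw [h1, mul_comm]

end Finite

end Cfsg.Agent.Lib.WongBase
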