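import Mathlib
import Cfsg.Agent.Lib.WongBase

/-!
# Wong's theorem: the involutions in the centralizer of an element of `W₁`.
-/

set_option autoImplicit false
set_option linter.all false

namespace Cfsg.Agent.Lib.WongOdd

open Subgroup DihedralGroup Cfsg.Agent.Lib.DihBlock Cfsg.Agent.Lib Cfsg.Agent.Lib.WongBase

universe u
variable {G : Type u} [Group G] [Finite G]

theorem conj_pow_inv {x u : G} (h : x * u * x⁻¹ = u⁻¹) (m : ℕ) :
    (Even m → x ^ m * u * (x ^ m)⁻¹ = u) ∧ (Odd m → x ^ m * u * (x ^ m)⁻¹ = u⁻¹) := by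
  have hi : x * u⁻¹ * x⁻¹ = u := inv_conj_of_conj h
  induction m with
  | zero => simp
  | succ m ih =>
    have h1 : x ^ (m + 1) * u * (x ^ (m + 1))⁻¹ = x * (x ^ m * u * (x ^ m)⁻¹) * x⁻¹ := by
      rw [pow_succ']; group
    constructor
    · intro he
      have : Odd m := by
        rcases Nat.even_or_odd m with h2 | h2
        · exact absurd he (by simpa [Nat.even_add_one] using h2)
        · exact h2
      rw [h1, ih.2 this, hi]
    · intro he
      have : Even m := by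
        rcases Nat.even_or_odd m with h2 | h2
        · exact h2
        · exact absurd he (by simpa [Nat.odd_add_one] using h2)
      rw [h1, ih.1 this, h]

theorem odd_no_invert {o u : G} (ho : Odd (orderOf o)) (h : o * u * o⁻¹ = u⁻¹) : u = u⁻¹ := by
  have := (conj_pow_inv h (orderOf o)).2 ho
  rw [pow_orderOf_eq_one] at this
  simpa using this

theorem odd_fix {o u : G} (ho : Odd (orderOf o)) (hu : u ≠ u⁻¹) (h : o * u * o⁻¹ = u ∨ o * u * o⁻¹ = u⁻¹) :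
    o * u * o⁻¹ = u := by
  rcases h with h | h
  · exact h
  · exact absurd (odd_no_invert ho h) hu

theorem ne_inv_of_odd {u : G} (hu : Odd (orderOf u)) (h1 : u ≠ 1) : u ≠ u⁻¹ := by
  intro h
  apply h1
  apply eq_one_of_odd_of_sq hu
  nth_rw 1 [h]
  exact inv_mul_cancel u

theorem conj_sq_inv (c y : G) : (c⁻¹ * y * c) * (c⁻¹ * y * c) = c⁻¹ * (y * y) * c := by group

theorem comm_pow_of_comm {y u : G} (h : y * u = u * y) (n : ℕ) : y ^ n * u = u * y ^ n :=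
  (Commute.pow_left h n).eq

section Finite
variable {σ τ : G}

/-- A key restriction on the image of an element normalizing `{u, u⁻¹}`. -/
theorem π_L (F : Frame σ τ) {u x : G} (hz : (σ * σ) * u * (σ * σ)⁻¹ = u⁻¹) (hu : u ≠ u⁻¹) (hτ : τ * u = u * τ)
    (hx : x * (σ * σ) = σ * σ * x) (hL : x * u * x⁻¹ = u ∨ x * u * x⁻¹ = u⁻¹) : F.π x ∈ F.V := by
  have key : ∀ x' : G, x' * (σ * σ) = σ * σ * x' → (x' * u * x'⁻¹ = u ∨ x' * u * x'⁻¹ = u⁻¹) →
      (F.π x' = σ ∨ F.π x' = σ⁻¹) → False := by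
    intro x' h1 h2 h3
    set y := x' * x' with hy
    have hyz : y * (σ * σ) = σ * σ * y := mul_comm_z h1 h1
    have hπy : F.π y = σ * σ := by
      rw [hy, F.π_mul h1 h1]
      rcases h3 with h3 | h3 <;> rw [h3]
      · have := congrArg F.φ (by decide : (r 3 : DihedralGroup 4) * r 3 = r 2)
        simpa only [map_mul, F.φ_r3, F.φ_r2] using this
    have hyu : y * u * y⁻¹ = u := by
      have h4 : y * u * y⁻¹ = x' * (x' * u * x'⁻¹) * x'⁻¹ := by rw [hy]; group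
      rw [h4]
      rcases h2 with h2 | h2
      · rw [h2, h2]
      · rw [h2]
        exact inv_conj_of_conj h2
    have hO := F.decomp hyz
    rw [hπy, F.zi] at hO
    set o := y * (σ * σ) with ho
    have hn := F.O_odd hO
    have hyo : y = o * (σ * σ) := by
      rw [ho, mul_assoc, F.zz, mul_one]
    have hoz : Commute o (σ * σ) := F.O_comm_z hO
    have hpow : y ^ orderOf o = σ * σ := by
      rw [hyo, hoz.mul_pow, pow_orderOf_eq_one, one_mul]
      obtain ⟨k, hk⟩ := hn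
      rw [hk, pow_succ, pow_mul, pow_two, F.zz, one_pow, one_mul]
    have h5 : (σ * σ) * u = u * (σ * σ) := by
      rw [← hpow]
      exact comm_pow_of_comm (comm_of_conj_eq hyu) _
    rw [conj_eq_of_comm h5] at hz
    exact hu hz
  have hτL : ∀ x' : G, (x' * u * x'⁻¹ = u ∨ x' * u * x'⁻¹ = u⁻¹) → ((τ * x') * u * (τ * x')⁻¹ = u ∨ (τ * x') * u * (τ * x')⁻¹ = u⁻¹) := by
    intro x' h
    have h1 : τ * u * τ⁻¹ = u := conj_eq_of_comm hτ
    have h2 : τ * u⁻¹ * τ⁻¹ = u⁻¹ := by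
      have : τ * u⁻¹ * τ⁻¹ = (τ * u * τ⁻¹)⁻¹ := by group
      rw [this, h1]
    have h3 : (τ * x') * u * (τ * x')⁻¹ = τ * (x' * u * x'⁻¹) * τ⁻¹ := by group
    rw [h3]
    rcases h with h | h
    · left; rw [h, h1]
    · right; rw [h, h2]
  have hτz : τ * (σ * σ) = σ * σ * τ := F.zτ_comm.symm
  rcases F.S_cases (F.π_mem x) with h | h | h | h | h | h | h | h
  · rw [h]; exact one_mem _
  · exact (key x hx hL (Or.inl h)).elim
  · rw [h]; exact F.z_mem_V
  · exact (key x hx hL (Or.inr h)).elim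
  · rw [h]; exact F.τ_mem_V
  · exfalso
    refine key (τ * x) (mul_comm_z hτz hx) (hτL x hL) (Or.inr ?_)
    rw [F.π_mul hτz hx, F.π_self F.τ_mem, h]
    have := congrArg F.φ (by decide : (sr 0 : DihedralGroup 4) * sr 3 = r 3)
    simpa only [map_mul, F.φ_sr0, F.φ_sr3, F.φ_r3] using this
  · rw [h]; exact F.zτ_mem_V
  · exfalso
    refine key (τ * x) (mul_comm_z hτz hx) (hτL x hL) (Or.inl ?_)
    rw [F.π_mul hτz hx, F.π_self F.τ_mem, h]
    have := congrArg F.φ (by decide : (sr 0 : DihedralGroup 4) * sr 1 = r 1)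
    simpa only [map_mul, F.φ_sr0, F.φ_sr1, F.φ_r1] using this

/-- Decomposition of the elements normalizing `{u, u⁻¹}`. -/
theorem c_cases (F : Frame σ τ) {u x : G} (hz : (σ * σ) * u * (σ * σ)⁻¹ = u⁻¹) (hu : u ≠ u⁻¹) (hτ : τ * u = u * τ)
    (hx : x * (σ * σ) = σ * σ * x) (hL : x * u * x⁻¹ = u ∨ x * u * x⁻¹ = u⁻¹) :
    ∃ d ∈ Od (σ * σ) ⊓ centralizer ({u} : Set G), ∃ p ∈ F.V, x = d * p := by
  have hp := π_L F hz hu hτ hx hL
  set p := F.π x with hpdef
  have hO : x * p⁻¹ ∈ Od (σ * σ) := F.decomp hx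
  refine ⟨x * p⁻¹, ⟨hO, ?_⟩, p, hp, by group⟩
  have hpu : p⁻¹ * u * p = u ∨ p⁻¹ * u * p = u⁻¹ := by
    have h1 : τ * u * τ⁻¹ = u := conj_eq_of_comm hτ
    rcases F.mem_V.1 hp with h | h | h | h <;> rw [h]
    · left; simp
    · right
      have h2 : (σ * σ)⁻¹ * u * (σ * σ) = (σ * σ) * u * (σ * σ)⁻¹ := by rw [F.zi]
      rw [h2, hz]
    · left
      rw [← F.τi]
      simp only [inv_inv]
      rw [F.τi]
      have : τ * u * τ = τ * u * τ⁻¹ := by rw [F.τi]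
      rw [this, h1]
    · right
      have h2 : (σ * σ * τ)⁻¹ * u * (σ * σ * τ) = (σ * σ) * (τ * u * τ⁻¹) * (σ * σ)⁻¹ := by
        calc (σ * σ * τ)⁻¹ * u * (σ * σ * τ) = (σ * σ * τ) * u * (τ * (σ * σ)) := by rw [F.zτ_inv, ← F.zτ_comm]
          _ = (σ * σ) * (τ * u * τ⁻¹) * (σ * σ)⁻¹ := by rw [F.zi, F.τi]; group
      rw [h2, h1, hz]
  have hou : (x * p⁻¹) * u * (x * p⁻¹)⁻¹ = u := by
    apply odd_fix (F.O_odd hO) hu
    have h1 : (x * p⁻¹) * u * (x * p⁻¹)⁻¹ = x * (p⁻¹ * u * p) * x⁻¹ := by group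
    rw [h1]
    rcases hpu with h | h <;> rw [h]
    · exact hL
    · rcases hL with h3 | h3
      · right
        have : x * u⁻¹ * x⁻¹ = (x * u * x⁻¹)⁻¹ := by group
        rw [this, h3]
      · left
        exact inv_conj_of_conj h3
  show x * p⁻¹ ∈ centralizer ({u} : Set G)
  rw [mem_centralizer_singleton_iff]
  exact comm_of_conj_eq hou

/-- The conjugation of `u` by an element of the four-group. -/
theorem V_act (F : Frame σ τ) {u : G} (hz : (σ * σ) * u * (σ * σ)⁻¹ = u⁻¹) (hτ : τ * u = u * τ) :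
    (σ * σ * τ) * u * (σ * σ * τ)⁻¹ = u⁻¹ := by
  have h1 : τ * u * τ⁻¹ = u := conj_eq_of_comm hτ
  calc (σ * σ * τ) * u * (σ * σ * τ)⁻¹ = (σ * σ) * (τ * u * τ⁻¹) * (σ * σ)⁻¹ := by group
    _ = u⁻¹ := by rw [h1, hz]

/-- An involution of `C(z) ∩ C(u)`, with `z` inverting `u`, is conjugate to `τ` in `O ∩ C(u)`. -/
theorem d1 (F : Frame σ τ) {u y : G} (hz : (σ * σ) * u * (σ * σ)⁻¹ = u⁻¹) (hu : u ≠ u⁻¹) (hτ : τ * u = u * τ)
    (hy : y * (σ * σ) = σ * σ * y) (hyu : y * u = u * y) (h2 : y * y = 1) (h1 : y ≠ 1) :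
    ∃ c ∈ Od (σ * σ) ⊓ centralizer ({u} : Set G), y = c * τ * c⁻¹ := by
  obtain ⟨d, hd, p, hp, rfl⟩ := c_cases F hz hu hτ hy (Or.inl (conj_eq_of_comm hyu))
  have hd' := hd
  obtain ⟨hdO, hdu⟩ := hd'
  have hdu' : d * u = u * d := mem_centralizer_singleton_iff.1 hdu
  have hdc : d * u * d⁻¹ = u := conj_eq_of_comm hdu'
  have hdi : d * u⁻¹ * d⁻¹ = u⁻¹ := by
    have : d * u⁻¹ * d⁻¹ = (d * u * d⁻¹)⁻¹ := by group
    rw [this, hdc]
  have hact : (d * p) * u * (d * p)⁻¹ = d * (p * u * p⁻¹) * d⁻¹ := by group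
  have hyc := conj_eq_of_comm hyu
  rw [hact] at hyc
  rcases F.mem_V.1 hp with rfl | rfl | hpτ | rfl
  · exfalso
    rw [mul_one] at h1 h2
    exact h1 (eq_one_of_odd_of_sq (F.O_odd hdO) h2)
  · exfalso
    rw [hz, hdi] at hyc
    exact hu hyc.symm
  · -- the good case
    obtain rfl : τ = p := hpτ.symm
    have hinv : τ * d * τ⁻¹ = d⁻¹ := by
      rw [F.τi]
      apply eq_inv_of_mul_eq_one_left
      calc τ * d * τ * d = d⁻¹ * (d * τ * (d * τ)) * d := by group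
        _ = 1 := by rw [h2]; group
    obtain ⟨c, hc, hc1, -⟩ := sqrt_conj (F.O_odd hdO) hinv
    refine ⟨c, ?_, hc1⟩
    have : zpowers d ≤ Od (σ * σ) ⊓ centralizer ({u} : Set G) := by rwa [zpowers_le]
    exact this hc
  · exfalso
    rw [V_act F hz hτ, hdi] at hyc
    exact hu hyc.symm

/-- The involutions of `C(z)` inverting `u`. -/
theorem d2 (F : Frame σ τ) {u x : G} (hz : (σ * σ) * u * (σ * σ)⁻¹ = u⁻¹) (hu : u ≠ u⁻¹) (hτ : τ * u = u * τ)
    (hx : x * (σ * σ) = σ * σ * x) (hxu : x * u * x⁻¹ = u⁻¹) (h2 : x * x = 1) :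
    x = σ * σ ∨ ∃ c ∈ Od (σ * σ) ⊓ centralizer ({u} : Set G), x = c * (τ * (σ * σ)) * c⁻¹ := by
  obtain ⟨d, hd, p, hp, rfl⟩ := c_cases F hz hu hτ hx (Or.inr hxu)
  have hd' := hd
  obtain ⟨hdO, hdu⟩ := hd'
  have hdu' : d * u = u * d := mem_centralizer_singleton_iff.1 hdu
  have hdc : d * u * d⁻¹ = u := conj_eq_of_comm hdu'
  have hdi : d * u⁻¹ * d⁻¹ = u⁻¹ := by
    have : d * u⁻¹ * d⁻¹ = (d * u * d⁻¹)⁻¹ := by group
    rw [this, hdc]
  have hact : (d * p) * u * (d * p)⁻¹ = d * (p * u * p⁻¹) * d⁻¹ := by group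
  rw [hact] at hxu
  rcases F.mem_V.1 hp with rfl | rfl | hpτ | rfl
  · exfalso
    simp only [one_mul, inv_one, mul_one] at hxu
    rw [hdc] at hxu
    exact hu hxu
  · left
    have hcm : Commute d (σ * σ) := F.O_comm_z hdO
    have h3 : d * d = 1 := by
      have h4 : d * (σ * σ) * (d * (σ * σ)) = (d * d) * (σ * σ * (σ * σ)) := by
        have := hcm.mul_mul_mul_comm d (σ * σ)
        simpa using this.symm
      rw [h4, F.zz, mul_one] at h2
      exact h2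
    rw [eq_one_of_odd_of_sq (F.O_odd hdO) h3, one_mul]
  · exfalso
    obtain rfl : τ = p := hpτ.symm
    rw [conj_eq_of_comm hτ, hdc] at hxu
    exact hu hxu
  · right
    have hinv : (σ * σ * τ) * d * (σ * σ * τ)⁻¹ = d⁻¹ := by
      rw [F.zτ_inv]
      apply eq_inv_of_mul_eq_one_left
      calc (σ * σ * τ) * d * (σ * σ * τ) * d = d⁻¹ * (d * (σ * σ * τ) * (d * (σ * σ * τ))) * d := by group
        _ = 1 := by rw [h2]; group
    obtain ⟨c, hc, hc1, -⟩ := sqrt_conj (F.O_odd hdO) hinv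
    refine ⟨c, ?_, ?_⟩
    · have : zpowers d ≤ Od (σ * σ) ⊓ centralizer ({u} : Set G) := by rwa [zpowers_le]
      exact this hc
    · rw [hc1, F.zτ_comm]

/-- The frame with given centre and reflection. -/
theorem exists_frame2 (F : Frame σ τ) {v r : G} (hv : v * v = 1) (hv1 : v ≠ 1) (hr : r * r = 1) (hr1 : r ≠ 1)
    (hvr : v * r = r * v) (hne : v ≠ r) : ∃ σ' : G, Frame σ' r ∧ σ' * σ' = v := by
  obtain ⟨c, hc⟩ := F.exists_center hv hv1
  have hconj : c⁻¹ * v * c = σ * σ := conj_inv_of hc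
  set r' := c⁻¹ * r * c with hr'
  have h1 : r' * (σ * σ) = σ * σ * r' := by
    rw [← hconj, hr']
    have := comm_conj c⁻¹ hvr.symm
    rwa [inv_inv] at this
  have h2 : r' * r' = 1 := by
    have : r' * r' = c⁻¹ * (r * r) * c := by rw [hr']; group
    rw [this, hr]; group
  have h3 : r' ≠ 1 := by
    intro h
    apply hr1
    have : r = c * r' * c⁻¹ := by rw [hr']; group
    rw [this, h]; group
  have h4 : r' ≠ σ * σ := by
    intro h
    apply hne
    have h5 : r = c * r' * c⁻¹ := by rw [hr']; group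
    rw [h5, h, hc]
  obtain ⟨p, hpS, hpA, e, heO, -, hre⟩ := F.invol_cz h1 h2 h3 h4
  have Fp := F.refl_frame hpS hpA
  have F' := Fp.conjF (c * e)
  refine ⟨(c * e) * σ * (c * e)⁻¹, ?_, ?_⟩
  · have h5 : (c * e) * p * (c * e)⁻¹ = r := by
      have h6 : r = c * r' * c⁻¹ := by rw [hr']; group
      rw [h6, hre]; group
    rwa [h5] at F'
  · rw [conj_sq]
    have h6 : e * (σ * σ) * e⁻¹ = σ * σ := conj_eq_of_comm (F.O_comm_z heO)
    have h7 : (c * e) * (σ * σ) * (c * e)⁻¹ = c * (e * (σ * σ) * e⁻¹) * c⁻¹ := by group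
    rw [h7, h6, hc]

/-- `d1` with an arbitrary pair of commuting involutions. -/
theorem d1' (F : Frame σ τ) {v r u y : G} (hv : v * v = 1) (hv1 : v ≠ 1) (hr : r * r = 1) (hr1 : r ≠ 1)
    (hvr : v * r = r * v) (hne : v ≠ r) (hvu : v * u * v⁻¹ = u⁻¹) (hu : u ≠ u⁻¹) (hru : r * u = u * r)
    (hy : y * v = v * y) (hyu : y * u = u * y) (h2 : y * y = 1) (h1 : y ≠ 1) :
    ∃ c ∈ Od v ⊓ centralizer ({u} : Set G), y = c * r * c⁻¹ := by
  obtain ⟨σ', F', rfl⟩ := exists_frame2 F hv hv1 hr hr1 hvr hne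
  exact d1 F' hvu hu hru hy hyu h2 h1

/-- `d2` with an arbitrary pair of commuting involutions. -/
theorem d2' (F : Frame σ τ) {v r u x : G} (hv : v * v = 1) (hv1 : v ≠ 1) (hr : r * r = 1) (hr1 : r ≠ 1)
    (hvr : v * r = r * v) (hne : v ≠ r) (hvu : v * u * v⁻¹ = u⁻¹) (hu : u ≠ u⁻¹) (hru : r * u = u * r)
    (hx : x * v = v * x) (hxu : x * u * x⁻¹ = u⁻¹) (h2 : x * x = 1) :
    x = v ∨ ∃ c ∈ Od v ⊓ centralizer ({u} : Set G), x = c * (r * v) * c⁻¹ := by
  obtain ⟨σ', F', rfl⟩ := exists_frame2 F hv hv1 hr hr1 hvr hne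
  exact d2 F' hvu hu hru hx hxu h2

/-- The action of `z t` on `W₁`. -/
theorem W1_zt (F : Frame σ τ) {u : G} (hu : u ∈ Wn (σ * σ) τ) : (σ * σ * (σ * τ)) * u * (σ * σ * (σ * τ))⁻¹ = u⁻¹ := by
  have h1 := F.W1_t hu
  have h2 : (σ * σ) * u⁻¹ * (σ * σ)⁻¹ = u⁻¹ := conj_eq_of_comm (F.O_comm_z (inv_mem (mem_Wn.1 hu).1)).symm
  calc (σ * σ * (σ * τ)) * u * (σ * σ * (σ * τ))⁻¹ = (σ * σ) * ((σ * τ) * u * (σ * τ)⁻¹) * (σ * σ)⁻¹ := by group
    _ = u⁻¹ := by rw [h1, h2]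

/-- An element of `S` centralizing a nontrivial element of `W₁` lies in the four-group. -/
theorem W1_comm_V (F : Frame σ τ) {u : G} (hu : u ∈ Wn (σ * σ) τ) (hu1 : u ≠ 1) {p : G} (hp : p ∈ (F.S : Subgroup G))
    (h : p * u * p⁻¹ = u) : p ∈ F.V := by
  have hO := (mem_Wn.1 hu).1
  have hne := ne_inv_of_odd (F.O_odd hO) hu1
  rcases F.S_cases hp with rfl | rfl | rfl | rfl | hh | rfl | rfl | rfl
  · exact one_mem _
  · rw [F.inv_σ hO] at h
    exact absurd h.symm hne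
  · exact F.z_mem_V
  · rw [inv_inv, F.inv_σ' hO] at h
    exact absurd h.symm hne
  · rw [hh]; exact F.τ_mem_V
  · rw [F.W1_t hu] at h
    exact absurd h.symm hne
  · exact F.zτ_mem_V
  · rw [W1_zt F hu] at h
    exact absurd h.symm hne

/-- The involutions in the centralizer of a nontrivial element of `W₁`. -/
theorem class_K (F : Frame σ τ) {u : G} (hu : u ∈ Wn (σ * σ) τ) (hu1 : u ≠ 1) (A : Subgroup G)
    (hA1 : Od (σ * σ) ≤ A) (hA2 : Od (σ * τ) ⊓ centralizer ({u} : Set G) ≤ A)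
    (hA3 : Od (σ * σ * (σ * τ)) ⊓ centralizer ({u} : Set G) ≤ A) {y : G} (hyu : y * u = u * y) (hy2 : y * y = 1)
    (hy1 : y ≠ 1) : ∃ e ∈ A, ∃ v ∈ F.V, y = e * v * e⁻¹ := by
  have hO := (mem_Wn.1 hu).1
  have hne := ne_inv_of_odd (F.O_odd hO) hu1
  have hzu : σ * σ * u = u * (σ * σ) := (F.O_comm_z hO).symm
  have htu := F.W1_t hu
  have hztu := W1_zt F hu
  have ht2 := F.t2
  have ht1 := F.t_frame.τ_ne_one
  have hzt : σ * τ * (σ * σ) = σ * σ * (σ * τ) := F.zt_comm.symm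
  have htz : σ * τ ≠ σ * σ := F.t_frame.σ_ne_τ.symm
  have hzt2 := F.zt2
  have hzt1 := F.zt_frame.τ_ne_one
  have hzzt : σ * σ * (σ * τ) * (σ * σ) = σ * σ * (σ * σ * (σ * τ)) := F.zt_frame.zτ_comm.symm
  have hztz : σ * σ * (σ * τ) ≠ σ * σ := F.zt_frame.σ_ne_τ.symm
  have hti : (σ * τ)⁻¹ = σ * τ := inv_eq_of_mul_eq_one_left ht2
  have hyi : y⁻¹ = y := inv_eq_of_mul_eq_one_left hy2
  set t := σ * τ with ht
  set g := t * y with hg
  obtain ⟨k, m, hm, hn⟩ := Nat.exists_eq_two_pow_mul_odd (orderOf_pos g).ne'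
  set h := g ^ m with hh
  have hpow : h ^ 2 ^ k = 1 := by
    rw [hh, ← pow_mul, mul_comm, ← hn, pow_orderOf_eq_one]
  have h4 : h ^ 4 = 1 := F.pow_four hpow
  have hginv : g⁻¹ = y * t := by
    rw [hg, mul_inv_rev, hti, hyi]
  have hgt : t * g * t⁻¹ = g⁻¹ := by
    rw [hginv, hg, hti]
    calc t * (t * y) * t = (t * t) * y * t := by group
      _ = y * t := by rw [ht2, one_mul]
  have hgy : y * g * y⁻¹ = g⁻¹ := by
    rw [hginv, hg, hyi]
    calc y * (t * y) * y = y * t * (y * y) := by group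
      _ = y * t := by rw [hy2, mul_one]
  have hgu : g * u * g⁻¹ = u⁻¹ := by
    have h1 : g * u * g⁻¹ = t * (y * u * y⁻¹) * t⁻¹ := by rw [hg]; group
    rw [h1, conj_eq_of_comm hyu, htu]
  have huh : h * u * h⁻¹ = u⁻¹ := (conj_pow_inv hgu m).2 hm
  have hth : t * h * t⁻¹ = h⁻¹ := by
    rw [hh, ← conj_pow, hgt, inv_pow]
  have hyh : y * h * y⁻¹ = h⁻¹ := by
    rw [hh, ← conj_pow, hgy, inv_pow]
  by_cases hhh : h * h = 1
  · -- `h` is an involution
    have hi : h⁻¹ = h := inv_eq_of_mul_eq_one_left hhh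
    rw [hi] at hth hyh
    have hh_t : h * t = t * h := (comm_of_conj_eq hth).symm
    have hy_h : y * h = h * y := comm_of_conj_eq hyh
    rcases d2' F ht2 ht1 F.zz F.z_ne_one hzt htz htu hne hzu hh_t huh hhh with h5 | ⟨c, hc, h5⟩
    · -- `h = t`
      rw [h5] at hy_h
      obtain ⟨c, hc, h6⟩ := d1' F ht2 ht1 F.zz F.z_ne_one hzt htz htu hne hzu hy_h hyu hy2 hy1
      exact ⟨c, hA2 hc, _, F.z_mem_V, h6⟩
    · -- `h` is a conjugate of `z t`
      have hcu : c * u = u * c := mem_centralizer_singleton_iff.1 hc.2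
      have hcu' : c⁻¹ * u = u * c⁻¹ := inv_comm_z hcu
      set y' := c⁻¹ * y * c with hy'
      have hy'y : y = c * y' * c⁻¹ := by rw [hy']; group
      have hztu' : σ * σ * t * u * (σ * σ * t)⁻¹ = u⁻¹ := hztu
      have h6 : y' * (σ * σ * t) = σ * σ * t * y' := by
        have h7 := comm_conj c⁻¹ hy_h
        rw [inv_inv] at h7
        have h8 : c⁻¹ * h * c = σ * σ * t := by rw [h5]; group
        rwa [h8] at h7
      have h9 : y' * u = u * y' := by
        rw [hy']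
        exact mul_comm_z (mul_comm_z hcu' hyu) hcu
      have h10 : y' * y' = 1 := by
        rw [hy', conj_sq_inv, hy2]
        simp
      have h11 : y' ≠ 1 := by
        intro h12
        apply hy1
        rw [hy'y, h12]
        simp
      obtain ⟨c₂, hc₂, h12⟩ := d1' F hzt2 hzt1 F.zz F.z_ne_one hzzt hztz hztu' hne hzu h6 h9 h10 h11
      refine ⟨c * c₂, mul_mem (hA2 hc) (hA3 hc₂), _, F.z_mem_V, ?_⟩
      rw [hy'y, h12]
      group
  · -- `h` has order four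
    set w := h * h with hw
    have hw2 : w * w = 1 := by
      rw [← h4, hw]
      simp [pow_succ, mul_assoc]
    have hwi : w⁻¹ = w := inv_eq_of_mul_eq_one_left hw2
    have hwt : t * w * t⁻¹ = w := by
      have h5 : t * w * t⁻¹ = (t * h * t⁻¹) * (t * h * t⁻¹) := by rw [hw]; group
      rw [h5, hth]
      rw [← hwi, hw]
      group
    have hwy : y * w * y⁻¹ = w := by
      have h5 : y * w * y⁻¹ = (y * h * y⁻¹) * (y * h * y⁻¹) := by rw [hw]; group
      rw [h5, hyh]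
      rw [← hwi, hw]
      group
    have hwu : w * u * w⁻¹ = u := by
      have h5 : w * u * w⁻¹ = h * (h * u * h⁻¹) * h⁻¹ := by rw [hw]; group
      rw [h5, huh]
      exact inv_conj_of_conj huh
    obtain ⟨c, hc, h5⟩ := d1' F ht2 ht1 F.zz F.z_ne_one hzt htz htu hne hzu (comm_of_conj_eq hwt).symm
      (comm_of_conj_eq hwu) hw2 hhh
    have hcu : c * u = u * c := mem_centralizer_singleton_iff.1 hc.2
    have hcu' : c⁻¹ * u = u * c⁻¹ := inv_comm_z hcu
    set y' := c⁻¹ * y * c with hy'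
    have hy'y : y = c * y' * c⁻¹ := by rw [hy']; group
    have h6 : y' * (σ * σ) = σ * σ * y' := by
      have h7 := comm_conj c⁻¹ (comm_of_conj_eq hwy)
      rw [inv_inv] at h7
      have h8 : c⁻¹ * w * c = σ * σ := by rw [h5]; group
      rwa [h8] at h7
    have h9 : y' * u = u * y' := by
      rw [hy']
      exact mul_comm_z (mul_comm_z hcu' hyu) hcu
    have h10 : y' * y' = 1 := by
      rw [hy', conj_sq_inv, hy2]
      simp
    have h11 : y' ≠ 1 := by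
      intro h12
      apply hy1
      rw [hy'y, h12]
      simp
    have h12 : y' ≠ σ * σ := by
      intro h13
      apply hhh
      have h14 : y = w := by rw [hy'y, h13, h5]
      have h15 : h = h⁻¹ := by
        rw [← hyh, h14, hw]
        group
      calc h * h = h⁻¹ * h := by nth_rw 1 [h15]
        _ = 1 := inv_mul_cancel h
    obtain ⟨p, hpS, hpA, e, heO, -, hre⟩ := F.invol_cz h6 h10 h11 h12
    have heu : e * u = u * e := F.O_comm heO hO
    have hpu : p * u * p⁻¹ = u := by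
      have h13 := conj_eq_of_comm h9
      rw [hre] at h13
      have h14 : e * p * e⁻¹ * u * (e * p * e⁻¹)⁻¹ = e * (p * (e⁻¹ * u * e) * p⁻¹) * e⁻¹ := by group
      rw [h14] at h13
      have h15 : e⁻¹ * u * e = u := by
        rw [mul_assoc, ← heu]
        group
      rw [h15] at h13
      calc p * u * p⁻¹ = e⁻¹ * (e * (p * u * p⁻¹) * e⁻¹) * e := by group
        _ = e⁻¹ * u * e := by rw [h13]
        _ = u := h15
    refine ⟨c * e, mul_mem (hA2 hc) (hA1 heO), p, W1_comm_V F hu hu1 hpS hpu, ?_⟩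
    rw [hy'y, hre]
    group

/-- The sign of the regular representation at an involution when `4 ∤ |Y|`. -/
theorem exists_hom_units {Y : Type*} [Group Y] [Finite Y] (hY : ¬ 4 ∣ Nat.card Y) {w : Y} (hw : orderOf w = 2) :
    ∃ f : Y →* ℤˣ, f w = -1 := by
  classical
  haveI := Fintype.ofFinite Y
  let f : Y →* ℤˣ := (Equiv.Perm.sign).comp (MulAction.toPermHom Y Y)
  refine ⟨f, ?_⟩
  let p : Equiv.Perm Y := MulAction.toPermHom Y Y w
  have hinj : Function.Injective (MulAction.toPermHom Y Y) := MulAction.toPerm_injective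
  have hp : orderOf p = 2 := by
    rw [← hw]
    exact orderOf_injective _ hinj w
  have hw1 : w ≠ 1 := by
    rintro rfl
    rw [orderOf_one] at hw
    omega
  obtain ⟨n, hn⟩ := Equiv.Perm.cycleType_prime_order (σ := p) (by rw [hp]; exact Nat.prime_two)
  have hsum := Equiv.Perm.sum_cycleType p
  have hsupp : p.support = Finset.univ := by
    ext y
    simp only [Equiv.Perm.mem_support, Finset.mem_univ, iff_true]
    intro h
    apply hw1
    have h1 : w * y = y := h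
    simpa using h1
  rw [hn, hp, Multiset.sum_replicate, hsupp, Finset.card_univ, ← Nat.card_eq_fintype_card] at hsum
  have hodd : Odd (n + 1) := by
    rcases Nat.even_or_odd (n + 1) with ⟨k, hk⟩ | h
    · exfalso
      apply hY
      rw [← hsum, hk]
      simp only [smul_eq_mul]
      exact ⟨k, by ring⟩
    · exact h
  show Equiv.Perm.sign p = -1
  rw [Equiv.Perm.sign_of_cycleType, hn, hp, Multiset.sum_replicate, Multiset.card_replicate]
  have h3 : Even ((n + 1) • 2) := ⟨n + 1, by simp only [smul_eq_mul]; ring⟩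
  exact (h3.add_odd hodd).neg_one_pow

/-- A subgroup of order not divisible by `4` has an odd subgroup containing all elements of odd order. -/
theorem exists_odd_sub (X : Subgroup G) (hX : ¬ 4 ∣ Nat.card X) :
    ∃ X₀ : Subgroup G, X₀ ≤ X ∧ Odd (Nat.card X₀) ∧ ∀ x ∈ X, Odd (orderOf x) → x ∈ X₀ := by
  classical
  rcases Nat.even_or_odd (Nat.card X) with he | ho
  · haveI : Fact (Nat.Prime 2) := ⟨Nat.prime_two⟩
    obtain ⟨w, hw⟩ := exists_prime_orderOf_dvd_card' (G := X) 2 (even_iff_two_dvd.1 he)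
    obtain ⟨f, hf⟩ := exists_hom_units hX hw
    refine ⟨f.ker.map X.subtype, ?_, ?_, ?_⟩
    · rintro _ ⟨a, -, rfl⟩
      exact a.2
    · rw [Subgroup.card_map_of_injective X.subtype_injective]
      have h1 : Nat.card f.range = 2 := by
        have hle : Nat.card f.range ≤ 2 := by
          calc Nat.card f.range ≤ Nat.card ℤˣ := Nat.card_le_card_of_injective (fun a => (a : ℤˣ)) Subtype.val_injective
            _ = 2 := by simp [Nat.card_eq_fintype_card]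
        have hne : (1 : f.range) ≠ ⟨f w, ⟨w, rfl⟩⟩ := by
          intro h
          have h2 : f w = 1 := (congrArg Subtype.val h).symm
          rw [hf] at h2
          exact absurd h2 (by decide)
        haveI : Nontrivial f.range := ⟨⟨_, _, hne⟩⟩
        have := Finite.one_lt_card (α := f.range)
        omega
      have h2 := Subgroup.card_eq_card_quotient_mul_card_subgroup f.ker
      have h3 : Nat.card (X ⧸ f.ker) = 2 := by
        rw [Nat.card_congr (QuotientGroup.quotientKerEquivRange f).toEquiv, h1]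
      rw [h3] at h2
      rcases Nat.even_or_odd (Nat.card f.ker) with ⟨k, hk⟩ | h5
      · exfalso
        apply hX
        rw [h2, hk]
        exact ⟨k, by ring⟩
      · exact h5
    · intro x hx ho
      refine ⟨⟨x, hx⟩, ?_, rfl⟩
      have h1 : f ⟨x, hx⟩ ^ orderOf x = 1 := by
        have h2 : (⟨x, hx⟩ : X) ^ orderOf x = 1 := by
          apply Subtype.ext
          simp [pow_orderOf_eq_one]
        rw [← map_pow, h2, map_one]
      show f ⟨x, hx⟩ = 1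
      rcases Int.units_eq_one_or (f ⟨x, hx⟩) with h3 | h3
      · exact h3
      · rw [h3, ho.neg_one_pow] at h1
        exact absurd h1 (by decide)
  · exact ⟨X, le_rfl, ho, fun x hx _ => hx⟩

/-- A `2`-element of `C(z)` centralizing `u` and `j` is `1` or `z`. -/
theorem no_q (F : Frame σ τ) {u j : G} (hu : u ∈ Wn (σ * σ) τ) (hu1 : u ≠ 1) (hj : j ∈ Wn (σ * σ) (σ * τ)) (hj1 : j ≠ 1)
    {q : G} (hq1 : q * (σ * σ) = σ * σ * q) (hqu : q * u = u * q) (hqj : q * j = j * q) (hq4 : q ^ 4 = 1) (hq : q ≠ 1) :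
    q = σ * σ := by
  have hO := (mem_Wn.1 hu).1
  have hjO := (mem_Wn.1 hj).1
  set p := F.π q with hp
  have hpS : p ∈ (F.S : Subgroup G) := F.π_mem q
  have hoO : q * p⁻¹ ∈ Od (σ * σ) := F.decomp hq1
  set o := q * p⁻¹ with ho
  have hqo : q = o * p := by rw [ho]; group
  have hcomm : ∀ x ∈ Od (σ * σ), q * x * q⁻¹ = p * x * p⁻¹ := by
    intro x hx
    have hx' : p * x * p⁻¹ ∈ Od (σ * σ) := F.S_norm hpS hx
    have h1 : q * x * q⁻¹ = o * (p * x * p⁻¹) * o⁻¹ := by rw [hqo]; group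
    rw [h1, conj_eq_of_comm (F.O_comm hoO hx')]
  have hpu : p * u * p⁻¹ = u := by
    rw [← hcomm u hO, conj_eq_of_comm hqu]
  have hpV := W1_comm_V F hu hu1 hpS hpu
  have hne := ne_inv_of_odd (F.O_odd hjO) hj1
  have hpj : p * j * p⁻¹ = j := by
    rw [← hcomm j hjO, conj_eq_of_comm hqj]
  have hoc : o * p = p * o ∨ True := Or.inr trivial
  have hdiv : ∀ x : G, Odd (orderOf x) → x ^ 4 = 1 → x = 1 := by
    intro x hx h4
    exact orderOf_eq_one_iff.mp (odd_dvd_four hx (orderOf_dvd_of_pow_eq_one h4))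
  rcases F.mem_V.1 hpV with h | h | h | h
  · exfalso
    apply hq
    have h2 : o = q := by rw [ho, h]; simp
    rw [← h2] at hq4 ⊢
    exact hdiv o (F.O_odd hoO) hq4
  · have hcz : Commute o (σ * σ) := F.O_comm_z hoO
    have h2 : q = o * (σ * σ) := by rw [hqo, h]
    rw [h2, hcz.mul_pow] at hq4
    have h3 : (σ * σ) ^ 4 = 1 := sq_four F.zz
    rw [h3, mul_one] at hq4
    rw [h2, hdiv o (F.O_odd hoO) hq4, one_mul]
  · exfalso
    rw [h, F.W2_τ hj] at hpj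
    exact hne hpj.symm
  · exfalso
    have h3 : (σ * σ * τ) * j * (σ * σ * τ)⁻¹ = j⁻¹ := by
      have h4 : (σ * σ) * j⁻¹ * (σ * σ)⁻¹ = j⁻¹ := conj_eq_of_comm (F.O_comm_z (inv_mem hjO)).symm
      calc (σ * σ * τ) * j * (σ * σ * τ)⁻¹ = (σ * σ) * (τ * j * τ⁻¹) * (σ * σ)⁻¹ := by group
        _ = j⁻¹ := by rw [F.W2_τ hj, h4]
    rw [h, h3] at hpj
    exact hne hpj.symm

/-- The group `C(u) ∩ C(j)` has order not divisible by `4`. -/
theorem no_four (F : Frame σ τ) {u j : G} (hu : u ∈ Wn (σ * σ) τ) (hu1 : u ≠ 1) (hj : j ∈ Wn (σ * σ) (σ * τ)) (hj1 : j ≠ 1) :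
    ¬ 4 ∣ Nat.card ↥(centralizer ({u} : Set G) ⊓ centralizer ({j} : Set G)) := by
  intro h4
  haveI : Fact (Nat.Prime 2) := ⟨Nat.prime_two⟩
  set X := centralizer ({u} : Set G) ⊓ centralizer ({j} : Set G) with hX
  have hO := (mem_Wn.1 hu).1
  have hjO := (mem_Wn.1 hj).1
  have hzX : σ * σ ∈ X := by
    refine ⟨?_, ?_⟩
    · exact mem_centralizer_singleton_iff.2 (F.O_comm_z hO).symm
    · exact mem_centralizer_singleton_iff.2 (F.O_comm_z hjO).symm
  let zX : X := ⟨σ * σ, hzX⟩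
  have hzo : orderOf zX = 2 := by
    have h1 : orderOf zX = orderOf (σ * σ) := Subgroup.orderOf_mk _ _
    rw [h1]
    exact orderOf_eq_prime (by rw [pow_two]; exact F.zz) F.z_ne_one
  have hH : Nat.card (zpowers zX) = 2 ^ 1 := by rw [Nat.card_zpowers, hzo, pow_one]
  obtain ⟨K, hK, hHK⟩ := Sylow.exists_subgroup_card_pow_succ (p := 2) (n := 1) (by simpa using h4) hH
  have hKc : ∀ a b : K, a * b = b * a := (IsPGroup.isMulCommutative_of_card_eq_prime_sq (p := 2) (G := K) hK).is_comm.comm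
  have hex : ∃ q ∈ K, q ∉ zpowers zX := by
    by_contra hcon
    push Not at hcon
    have h1 : Nat.card K ≤ Nat.card (zpowers zX) := Subgroup.card_le_of_le (fun q hq => hcon q hq)
    rw [hK, hH] at h1
    omega
  obtain ⟨q, hqK, hqz⟩ := hex
  have hzK : zX ∈ K := hHK (mem_zpowers zX)
  have hc := hKc ⟨q, hqK⟩ ⟨zX, hzK⟩
  have hc1 : q * zX = zX * q := congrArg Subtype.val hc
  have hc2 : (q : G) * (σ * σ) = σ * σ * (q : G) := congrArg Subtype.val hc1
  have hq4 : q ^ 4 = 1 := by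
    have h1 : orderOf q ∣ Nat.card K := Subgroup.orderOf_dvd_natCard K hqK
    rw [hK] at h1
    exact orderOf_dvd_iff_pow_eq_one.mp h1
  have hq4' : (q : G) ^ 4 = 1 := by
    have := congrArg Subtype.val hq4
    simpa using this
  have hq1 : (q : G) ≠ 1 := by
    intro h
    apply hqz
    have : q = 1 := Subtype.ext h
    rw [this]
    exact one_mem _
  have hqu : (q : G) * u = u * q := mem_centralizer_singleton_iff.1 q.2.1
  have hqj : (q : G) * j = j * q := mem_centralizer_singleton_iff.1 q.2.2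
  have h5 := no_q F hu hu1 hj hj1 hc2 hqu hqj hq4' hq1
  apply hqz
  have : q = zX := Subtype.ext h5
  rw [this]
  exact mem_zpowers zX

/-- The group containing everything. -/
def AA (σ τ u : G) : Subgroup G :=
  Od (σ * σ) ⊔ (Od (σ * τ) ⊓ centralizer ({u} : Set G)) ⊔ (Od (σ * σ * (σ * τ)) ⊓ centralizer ({u} : Set G))

theorem le_AA1 (σ τ u : G) : Od (σ * σ) ≤ AA σ τ u := le_sup_left.trans le_sup_left
theorem le_AA2 (σ τ u : G) : Od (σ * τ) ⊓ centralizer ({u} : Set G) ≤ AA σ τ u := le_sup_right.trans le_sup_left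
theorem le_AA3 (σ τ u : G) : Od (σ * σ * (σ * τ)) ⊓ centralizer ({u} : Set G) ≤ AA σ τ u := le_sup_right

/-- The group `AA` lies in a subgroup of odd order. -/
theorem odd_AA (F : Frame σ τ) {u j : G} (hu : u ∈ Wn (σ * σ) τ) (hu1 : u ≠ 1) (hj : j ∈ Wn (σ * σ) (σ * τ)) (hj1 : j ≠ 1) :
    Odd (Nat.card (AA σ τ u)) := by
  obtain ⟨X₀, hX₀, hodd, hmem⟩ := exists_odd_sub _ (no_four F hu hu1 hj hj1)
  have hO := (mem_Wn.1 hu).1
  have hjO := (mem_Wn.1 hj).1
  have hjt := (mem_Wn.1 hj).2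
  have hjz := F.O_comm_z hjO
  have hjoo := F.O_odd hjO
  have h1 : Od (σ * σ) ≤ X₀ := by
    intro x hx
    refine hmem x ⟨?_, ?_⟩ (F.O_odd hx)
    · exact mem_centralizer_singleton_iff.2 (F.O_comm hx hO)
    · exact mem_centralizer_singleton_iff.2 (F.O_comm hx hjO)
  have ht2 := F.t2
  have ht1 := F.t_frame.τ_ne_one
  have h2 : Od (σ * τ) ⊓ centralizer ({u} : Set G) ≤ X₀ := by
    rintro x ⟨hx1, hx2⟩
    have hjt' : j ∈ Od (σ * τ) := (F.mem_Od ht2 ht1).2 ⟨hjt, hjoo⟩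
    refine hmem x ⟨hx2, ?_⟩ ((F.mem_Od ht2 ht1).1 hx1).2
    exact mem_centralizer_singleton_iff.2 (F.Od_comm ht2 ht1 hx1 hjt')
  have h3 : Od (σ * σ * (σ * τ)) ⊓ centralizer ({u} : Set G) ≤ X₀ := by
    rintro x ⟨hx1, hx2⟩
    have hjt' : j ∈ Od (σ * σ * (σ * τ)) := by
      refine (F.mem_Od F.zt2 F.zt_frame.τ_ne_one).2 ⟨?_, hjoo⟩
      calc j * (σ * σ * (σ * τ)) = (j * (σ * σ)) * (σ * τ) := by group
        _ = σ * σ * (j * (σ * τ)) := by rw [hjz]; group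
        _ = σ * σ * ((σ * τ) * j) := by rw [hjt]
        _ = σ * σ * (σ * τ) * j := by group
    refine hmem x ⟨hx2, ?_⟩ ((F.mem_Od F.zt2 F.zt_frame.τ_ne_one).1 hx1).2
    exact mem_centralizer_singleton_iff.2 (F.Od_comm F.zt2 F.zt_frame.τ_ne_one hx1 hjt')
  have hle : AA σ τ u ≤ X₀ := sup_le (sup_le h1 h2) h3
  have hdvd : Nat.card (AA σ τ u) ∣ Nat.card X₀ := Subgroup.card_dvd_of_le hle
  exact Odd.of_dvd_nat hodd hdvd

theorem conj_D {g v v' u : G} (h1 : g * v * g⁻¹ = v') (h2 : g * u = u * g) {x : G}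
    (hx : x ∈ Od v ⊓ centralizer ({u} : Set G)) : g * x * g⁻¹ ∈ Od v' ⊓ centralizer ({u} : Set G) := by
  refine ⟨?_, ?_⟩
  · rw [← h1]
    exact Od_conj g v x hx.1
  · show g * x * g⁻¹ ∈ centralizer ({u} : Set G)
    rw [mem_centralizer_singleton_iff]
    have h3 := comm_conj g (mem_centralizer_singleton_iff.1 hx.2)
    rwa [conj_eq_of_comm h2] at h3

/-- Conjugation by an element mapping the three pieces of `AA` to pieces of `AA`. -/
theorem AA_conj {σ τ u g : G} (h0 : ∀ x ∈ Od (σ * σ), g * x * g⁻¹ ∈ Od (σ * σ))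
    (h1 : ∀ x ∈ Od (σ * τ) ⊓ centralizer ({u} : Set G), g * x * g⁻¹ ∈ AA σ τ u)
    (h2 : ∀ x ∈ Od (σ * σ * (σ * τ)) ⊓ centralizer ({u} : Set G), g * x * g⁻¹ ∈ AA σ τ u) {a : G}
    (ha : a ∈ AA σ τ u) : g * a * g⁻¹ ∈ AA σ τ u := by
  have hle : AA σ τ u ≤ (AA σ τ u).comap (MulAut.conj g).toMonoidHom := by
    refine sup_le (sup_le ?_ ?_) ?_
    · intro x hx
      exact le_AA1 σ τ u (h0 x hx)
    · intro x hx
      exact h1 x hx
    · intro x hx
      exact h2 x hx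
  exact hle ha

/-- `V` normalizes `AA`. -/
theorem AA_norm (F : Frame σ τ) {u : G} (hu : u ∈ Wn (σ * σ) τ) {v : G} (hv : v ∈ F.V) {a : G}
    (ha : a ∈ AA σ τ u) : v * a * v⁻¹ ∈ AA σ τ u := by
  have hO := (mem_Wn.1 hu).1
  have hτu := (mem_Wn.1 hu).2
  have hzu := F.O_comm_z hO
  have hZ : ∀ b ∈ AA σ τ u, (σ * σ) * b * (σ * σ)⁻¹ ∈ AA σ τ u := by
    intro b hb
    refine AA_conj (fun x hx => F.S_norm F.z_mem hx) (fun x hx => ?_) (fun x hx => ?_) hb
    · exact le_AA2 σ τ u (conj_D (conj_eq_of_comm F.zt_comm) hzu.symm hx)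
    · apply le_AA3 σ τ u (conj_D (v := σ * σ * (σ * τ)) (conj_eq_of_comm ?_) hzu.symm hx)
      exact F.zt_frame.zτ_comm
  have hT : ∀ b ∈ AA σ τ u, τ * b * τ⁻¹ ∈ AA σ τ u := by
    intro b hb
    refine AA_conj (fun x hx => F.S_norm F.τ_mem hx) (fun x hx => ?_) (fun x hx => ?_) hb
    · exact le_AA3 σ τ u (conj_D F.τ_t hτu.symm hx)
    · refine le_AA2 σ τ u (conj_D (v := σ * σ * (σ * τ)) ?_ hτu.symm hx)
      have h1 : τ * (σ * σ) * τ⁻¹ = σ * σ := F.τ_z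
      calc τ * (σ * σ * (σ * τ)) * τ⁻¹ = (τ * (σ * σ) * τ⁻¹) * (τ * (σ * τ) * τ⁻¹) := by group
        _ = σ * σ * (σ * σ * (σ * τ)) := by rw [h1, F.τ_t]
        _ = (σ * σ * (σ * σ)) * (σ * τ) := by group
        _ = σ * τ := by rw [F.zz, one_mul]
  rcases F.mem_V.1 hv with rfl | rfl | hh | rfl
  · simpa using ha
  · exact hZ a ha
  · rw [hh]; exact hT a ha
  · have h1 := hZ _ (hT a ha)
    have h2 : (σ * σ * τ) * a * (σ * σ * τ)⁻¹ = (σ * σ) * (τ * a * τ⁻¹) * (σ * σ)⁻¹ := by group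
    rw [h2]
    exact h1

/-- An element of odd order of `A V` lies in `A`. -/
theorem mem_of_mul_odd (F : Frame σ τ) (A : Subgroup G) (hAodd : Odd (Nat.card A))
    (hnorm : ∀ v ∈ F.V, ∀ a ∈ A, v * a * v⁻¹ ∈ A) {a v : G} (ha : a ∈ A) (hv : v ∈ F.V)
    (hodd : Odd (orderOf (a * v))) : a * v ∈ A := by
  have hk : ∀ k : ℕ, ∃ b ∈ A, (a * v) ^ k = b * v ^ k := by
    intro k
    induction k with
    | zero => exact ⟨1, one_mem _, by simp⟩
    | succ k ih =>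
      obtain ⟨b, hb, h⟩ := ih
      refine ⟨b * (v ^ k * a * (v ^ k)⁻¹), mul_mem hb (hnorm _ (pow_mem hv k) a ha), ?_⟩
      rw [pow_succ, h, pow_succ]
      group
  obtain ⟨b, hb, h⟩ := hk (orderOf (a * v))
  rw [pow_orderOf_eq_one] at h
  obtain ⟨m, hm⟩ := hodd
  have hvv := F.V_sq hv
  have h1 : v ^ orderOf (a * v) = v := by
    rw [hm, pow_succ, pow_mul, pow_two, hvv, one_pow, one_mul]
  rw [h1] at h
  have hvb : v = b⁻¹ := eq_inv_of_mul_eq_one_right h.symm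
  have hvA : v ∈ A := by
    rw [hvb]; exact inv_mem hb
  have hvodd : Odd (orderOf v) := by
    have h2 : orderOf (⟨v, hvA⟩ : A) ∣ Nat.card A := orderOf_dvd_natCard _
    rw [Subgroup.orderOf_mk] at h2
    exact Odd.of_dvd_nat hAodd h2
  have hv1 := eq_one_of_odd_of_sq hvodd hvv
  rw [hv1, mul_one]
  exact ha

/-- The key step: conjugates of `O` by elements centralizing `W₁` lie in `AA`. -/
theorem conj_O_le (F : Frame σ τ) {u : G} (hu : u ∈ Wn (σ * σ) τ) (hu1 : u ≠ 1) (A : Subgroup G)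
    (hA1 : Od (σ * σ) ≤ A) (hA2 : Od (σ * τ) ⊓ centralizer ({u} : Set G) ≤ A)
    (hA3 : Od (σ * σ * (σ * τ)) ⊓ centralizer ({u} : Set G) ≤ A) (hAodd : Odd (Nat.card A))
    (hnorm : ∀ v ∈ F.V, ∀ a ∈ A, v * a * v⁻¹ ∈ A)
    {κ : G} (hκ : ∀ x ∈ Wn (σ * σ) τ, κ * x * κ⁻¹ = x) {x : G} (hx : x ∈ Od (σ * σ)) : κ * x * κ⁻¹ ∈ A := by
  have hκu : κ * u = u * κ := comm_of_conj_eq (hκ u hu)
  have hτu := (mem_Wn.1 hu).2
  have hO := (mem_Wn.1 hu).1
  obtain ⟨x₁, hx₁, x₂, hx₂, rfl⟩ := F.split hx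
  have hx₁O := (mem_Wn.1 hx₁).1
  have hx₂O := (mem_Wn.1 hx₂).1
  have h1 : κ * (x₁ * x₂) * κ⁻¹ = x₁ * (κ * x₂ * κ⁻¹) := by
    calc κ * (x₁ * x₂) * κ⁻¹ = (κ * x₁ * κ⁻¹) * (κ * x₂ * κ⁻¹) := by group
      _ = x₁ * (κ * x₂ * κ⁻¹) := by rw [hκ x₁ hx₁]
  rw [h1]
  refine mul_mem (hA1 hx₁O) ?_
  -- the form `a v`
  have hform : ∀ y : G, y * u = u * y → y * y = 1 → y ≠ 1 → ∃ a ∈ A, ∃ v ∈ F.V, y = a * v := by
    intro y hy1 hy2 hy3
    obtain ⟨e, he, v, hv, hy⟩ := class_K F hu hu1 A hA1 hA2 hA3 hy1 hy2 hy3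
    refine ⟨e * (v * e⁻¹ * v⁻¹), mul_mem he (hnorm v hv _ (inv_mem he)), v, hv, ?_⟩
    rw [hy]; group
  have hτ2 := F.τ2
  have hx₂u : x₂ * u = u * x₂ := F.O_comm hx₂O hO
  have hinv := F.W2_τ hx₂
  have hy1 : (x₂ * τ) * (x₂ * τ) = 1 := by
    rw [F.τi] at hinv
    calc (x₂ * τ) * (x₂ * τ) = x₂ * (τ * x₂ * τ) := by group
      _ = 1 := by rw [hinv]; group
  have hy1' : x₂ * τ ≠ 1 := by
    intro h
    have h2 : x₂ = τ := by
      have h3 := eq_inv_of_mul_eq_one_left h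
      rwa [F.τi] at h3
    have h4 := F.O_odd hx₂O
    rw [h2, F.τo] at h4
    exact absurd h4 (by decide)
  have hconj : ∀ y : G, y * u = u * y → y * y = 1 → y ≠ 1 → ∃ a ∈ A, ∃ v ∈ F.V, κ * y * κ⁻¹ = a * v := by
    intro y h2 h3 h4
    apply hform
    · have h5 := comm_conj κ h2
      rwa [conj_eq_of_comm hκu] at h5
    · rw [conj_sq, h3]; group
    · intro h5
      apply h4
      have h6 : κ * y = κ := by
        calc κ * y = κ * y * κ⁻¹ * κ := by group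
          _ = κ := by rw [h5]; group
      simpa using h6
  obtain ⟨a₁, ha₁, v₁, hv₁, e₁⟩ := hconj (x₂ * τ) (mul_comm_z hx₂u hτu.symm) hy1 hy1'
  obtain ⟨a₂, ha₂, v₂, hv₂, e₂⟩ := hconj τ hτu.symm hτ2 F.τ_ne_one
  have h2 : κ * x₂ * κ⁻¹ = (a₁ * (v₁ * a₂ * v₁⁻¹)) * (v₁ * v₂) := by
    have h3 : κ * x₂ * κ⁻¹ = (κ * (x₂ * τ) * κ⁻¹) * (κ * τ * κ⁻¹) := by
      have : x₂ = x₂ * τ * τ := by rw [mul_assoc, hτ2, mul_one]
      nth_rw 1 [this]
      group
    rw [h3, e₁, e₂]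
    group
  have h3 : Odd (orderOf (κ * x₂ * κ⁻¹)) := by
    rw [orderOf_conj']
    exact F.O_odd hx₂O
  rw [h2] at h3 ⊢
  exact mem_of_mul_odd F A hAodd hnorm (mul_mem ha₁ (hnorm v₁ hv₁ _ ha₂)) (mul_mem hv₁ hv₂) h3

/-- The subgroup generated by the three `O`'s of the four-group. -/
def WW (σ τ : G) : Subgroup G := Od (σ * σ) ⊔ Od τ ⊔ Od (σ * σ * τ)

/-- The subgroup `W` has odd order if `W₁` and `W₂` are nontrivial. -/
theorem WW_le_AA (F : Frame σ τ) {u j : G} (hu : u ∈ Wn (σ * σ) τ) (hu1 : u ≠ 1) (hj : j ∈ Wn (σ * σ) (σ * τ)) (hj1 : j ≠ 1) :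
    WW σ τ ≤ AA σ τ u := by
  obtain ⟨κ, h1, h2, h3, h4⟩ := F.exists_κ
  have hodd := odd_AA F hu hu1 hj hj1
  have hnorm : ∀ v ∈ F.V, ∀ a ∈ AA σ τ u, v * a * v⁻¹ ∈ AA σ τ u := fun v hv a ha => AA_norm F hu hv ha
  have hstep : ∀ {κ' v : G}, κ' * (σ * σ) * κ'⁻¹ = v → (∀ x ∈ Wn (σ * σ) τ, κ' * x * κ'⁻¹ = x) → Od v ≤ AA σ τ u := by
    intro κ' v hv hκ' x hx
    have h5 := Od_conj κ'⁻¹ v x hx
    rw [inv_inv, conj_inv_of hv] at h5
    have h6 := conj_O_le F hu hu1 (AA σ τ u) (le_AA1 σ τ u) (le_AA2 σ τ u) (le_AA3 σ τ u) hodd hnorm hκ' h5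
    have h7 : κ' * (κ'⁻¹ * x * κ') * κ'⁻¹ = x := by group
    rwa [h7] at h6
  have hκ2 : (κ * κ) * (σ * σ) * (κ * κ)⁻¹ = τ := by
    have : (κ * κ) * (σ * σ) * (κ * κ)⁻¹ = κ * (κ * (σ * σ) * κ⁻¹) * κ⁻¹ := by group
    rw [this, h1, h2]
  have hκ3 : ∀ x ∈ Wn (σ * σ) τ, (κ * κ) * x * (κ * κ)⁻¹ = x := by
    intro x hx
    have : (κ * κ) * x * (κ * κ)⁻¹ = κ * (κ * x * κ⁻¹) * κ⁻¹ := by group
    rw [this, h4 x hx, h4 x hx]
  exact sup_le (sup_le (le_AA1 σ τ u) (hstep hκ2 hκ3)) (hstep h1 h4)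

theorem odd_WW (F : Frame σ τ) {u j : G} (hu : u ∈ Wn (σ * σ) τ) (hu1 : u ≠ 1) (hj : j ∈ Wn (σ * σ) (σ * τ)) (hj1 : j ≠ 1) :
    Odd (Nat.card (WW σ τ)) :=
  Odd.of_dvd_nat (odd_AA F hu hu1 hj hj1) (Subgroup.card_dvd_of_le (WW_le_AA F hu hu1 hj hj1))

end Finite

end Cfsg.Agent.Lib.WongOdd
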