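import Mathlib
import Cfsg.Agent.Lib.WongOdd
import Cfsg.Agent.Lib.LargeFour
import Cfsg.Agent.Lib.BrauerWielandt
import Cfsg.Agent.Lib.BlockVal
import Cfsg.Agent.S4481
import Cfsg.Agent.S4482

/-!
# Wong's theorem: the case where both `W₁` and `W₂` are nontrivial.
-/

set_option autoImplicit false
set_option linter.all false

namespace Cfsg.Agent.Lib.WongStrong

open Subgroup DihedralGroup Cfsg.Agent.Lib.DihBlock Cfsg.Agent.Lib Cfsg.Agent.Lib.WongBase Cfsg.Agent.Lib.WongOdd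
open scoped Pointwise

universe u
variable {G : Type u} [Group G] [Finite G] {σ τ : G}

theorem le_WW1 (σ τ : G) : Od (σ * σ) ≤ WW σ τ := le_sup_left.trans le_sup_left
theorem le_WW2 (σ τ : G) : Od τ ≤ WW σ τ := le_sup_right.trans le_sup_left
theorem le_WW3 (σ τ : G) : Od (σ * σ * τ) ≤ WW σ τ := le_sup_right

/-- A permutation of the three involutions normalizes `W`. -/
theorem mem_norm_WW {σ τ g v₁ v₂ v₃ : G} (h1 : g * (σ * σ) * g⁻¹ = v₁) (h2 : g * τ * g⁻¹ = v₂) (h3 : g * (σ * σ * τ) * g⁻¹ = v₃)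
    (h4 : Od v₁ ≤ WW σ τ) (h5 : Od v₂ ≤ WW σ τ) (h6 : Od v₃ ≤ WW σ τ) : g ∈ normalizer (WW σ τ : Set G) := by
  apply mem_normalizer_of_conj
  have hle : WW σ τ ≤ (WW σ τ).comap (MulAut.conj g).toMonoidHom := by
    refine sup_le (sup_le ?_ ?_) ?_
    · intro x hx
      apply h4
      rw [← h1]
      exact Od_conj g _ x hx
    · intro x hx
      apply h5
      rw [← h2]
      exact Od_conj g _ x hx
    · intro x hx
      apply h6
      rw [← h3]
      exact Od_conj g _ x hx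
  exact fun x hx => hle hx

theorem σ_norm_WW (F : Frame σ τ) : σ ∈ normalizer (WW σ τ : Set G) :=
  mem_norm_WW F.σ_z F.σ_τ F.σ_zτ (le_WW1 σ τ) (le_WW3 σ τ) (le_WW2 σ τ)

theorem τ_norm_WW (F : Frame σ τ) : τ ∈ normalizer (WW σ τ : Set G) := by
  have h3 : τ * (σ * σ * τ) * τ⁻¹ = σ * σ * τ := by
    calc τ * (σ * σ * τ) * τ⁻¹ = (τ * (σ * σ) * τ⁻¹) * τ := by group
      _ = σ * σ * τ := by rw [F.τ_z]
  exact mem_norm_WW F.τ_z (by group) h3 (le_WW1 σ τ) (le_WW2 σ τ) (le_WW3 σ τ)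

theorem S_le_norm_WW (F : Frame σ τ) : (F.S : Subgroup G) ≤ normalizer (WW σ τ : Set G) := by
  rw [F.S_coe, closure_le]
  rintro y (hy | hy)
  · rw [hy]; exact σ_norm_WW F
  · rw [Set.mem_singleton_iff.1 hy]; exact τ_norm_WW F

/-- The odd groups normalized by the four-group lie in `W`. -/
theorem le_WW (F : Frame σ τ) (X : Subgroup G) (hX : Odd (Nat.card X)) (hz : σ * σ ∈ normalizer (X : Set G))
    (hτ : τ ∈ normalizer (X : Set G)) : X ≤ WW σ τ := by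
  have hoddx : ∀ x ∈ X, Odd (orderOf x) := by
    intro x hx
    have h2 : orderOf (⟨x, hx⟩ : X) ∣ Nat.card X := orderOf_dvd_natCard _
    rw [Subgroup.orderOf_mk] at h2
    exact Odd.of_dvd_nat hX h2
  have hτ1 := F.τ_ne_one
  refine LargeFour.four_gen_le (a := σ * σ) (b := τ) (by rw [pow_two]; exact F.zz) (by rw [pow_two]; exact F.τ2)
    F.zτ_comm F.z_ne_one hτ1 F.σ_ne_τ X (WW σ τ) hX hz hτ ?_ ?_ ?_
  · rintro x ⟨hx1, hx2⟩
    apply le_WW1
    exact F.mem_Oz.2 ⟨mem_centralizer_singleton_iff.1 hx2, hoddx x hx1⟩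
  · rintro x ⟨hx1, hx2⟩
    apply le_WW2
    exact (F.mem_Od F.τ2 hτ1).2 ⟨mem_centralizer_singleton_iff.1 hx2, hoddx x hx1⟩
  · rintro x ⟨hx1, hx2⟩
    apply le_WW3
    exact (F.mem_Od F.zτ2 F.zτ_frame.τ_ne_one).2 ⟨mem_centralizer_singleton_iff.1 hx2, hoddx x hx1⟩

/-- The partner frame has `W₁` in its `W₂`. -/
theorem W1_in_partner (F : Frame σ τ) {u : G} (hu : u ∈ Wn (σ * σ) τ) : u ∈ Wn (σ * σ) (σ * (σ * τ)) := by
  obtain ⟨h1, h2⟩ := mem_Wn.1 hu
  refine mem_Wn.2 ⟨h1, ?_⟩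
  have e : σ * (σ * τ) = σ * σ * τ := (mul_assoc _ _ _).symm
  rw [e]
  exact comm_mul_right (F.O_comm_z h1) h2

/-- The two subgroups coincide. -/
theorem WW_eq (F : Frame σ τ) {u j : G} (hu : u ∈ Wn (σ * σ) τ) (hu1 : u ≠ 1) (hj : j ∈ Wn (σ * σ) (σ * τ)) (hj1 : j ≠ 1) :
    WW σ τ = WW σ (σ * τ) := by
  have Ft := F.t_frame
  have h1 : Odd (Nat.card (WW σ τ)) := odd_WW F hu hu1 hj hj1
  have h2 : Odd (Nat.card (WW σ (σ * τ))) := odd_WW Ft hj hj1 (W1_in_partner F hu) hu1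
  have hSt : (Ft.S : Subgroup G) = (F.S : Subgroup G) := F.S_refl Ft F.t_mem
  apply le_antisymm
  · apply le_WW Ft _ h1
    · exact S_le_norm_WW F F.z_mem
    · exact S_le_norm_WW F F.t_mem
  · apply le_WW F _ h2
    · apply S_le_norm_WW Ft
      rw [hSt]
      exact F.z_mem
    · apply S_le_norm_WW Ft
      rw [hSt]
      exact F.τ_mem

/-- All the `Od v` have the same order. -/
theorem card_Od_conj (c v : G) : Nat.card (Od (c * v * c⁻¹)) = Nat.card (Od v) := by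
  have h : (Od v).map (MulAut.conj c).toMonoidHom = Od (c * v * c⁻¹) := by
    apply le_antisymm
    · rintro _ ⟨x, hx, rfl⟩
      exact Od_conj c v x hx
    · intro x hx
      refine ⟨c⁻¹ * x * c, ?_, ?_⟩
      · have h5 := Od_conj c⁻¹ _ x hx
        rw [inv_inv] at h5
        have h6 : c⁻¹ * (c * v * c⁻¹) * c = v := by group
        rwa [h6] at h5
      · show c * (c⁻¹ * x * c) * c⁻¹ = x
        group
  rw [← h, Subgroup.card_map_of_injective (MulAut.conj c).injective]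

theorem Frame_card_Od (F : Frame σ τ) {v : G} (hv : v * v = 1) (hv1 : v ≠ 1) : Nat.card (Od v) = Nat.card (Od (σ * σ)) := by
  obtain ⟨c, hc⟩ := F.exists_center hv hv1
  rw [← hc, card_Od_conj]

/-- The intersection of `W` with a centralizer. -/
theorem WW_inf (F : Frame σ τ) (hodd : Odd (Nat.card (WW σ τ))) {v : G} (hv : v * v = 1) (hv1 : v ≠ 1)
    (hle : Od v ≤ WW σ τ) : WW σ τ ⊓ centralizer ({v} : Set G) = Od v := by
  apply le_antisymm
  · rintro x ⟨hx1, hx2⟩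
    have h2 : orderOf (⟨x, hx1⟩ : WW σ τ) ∣ Nat.card (WW σ τ) := orderOf_dvd_natCard _
    rw [Subgroup.orderOf_mk] at h2
    exact (F.mem_Od hv hv1).2 ⟨mem_centralizer_singleton_iff.1 hx2, Odd.of_dvd_nat hodd h2⟩
  · intro x hx
    exact ⟨hle hx, mem_centralizer_singleton_iff.2 ((F.mem_Od hv hv1).1 hx).1⟩

/-- The Brauer-Wielandt identity for `W`. -/
theorem card_WW (F : Frame σ τ) (hodd : Odd (Nat.card (WW σ τ))) :
    Nat.card (Od (σ * σ)) ^ 3 = Nat.card (WW σ τ) * Nat.card (Wn (σ * σ) τ) ^ 2 := by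
  haveI : Fact (Nat.Prime 2) := ⟨Nat.prime_two⟩
  have hzo : orderOf (σ * σ) = 2 := orderOf_eq_prime (by rw [pow_two]; exact F.zz) F.z_ne_one
  have hτz : τ ∉ zpowers (σ * σ) := by
    intro h
    letI := Fintype.ofFinite G
    rcases mem_zpowers_of_invol F.zz h with h1 | h1
    · exact F.τ_ne_one h1
    · exact F.σ_ne_τ h1.symm
  have hL := BrauerWielandt.lines_of_pair (p := 2) F.zτ_comm hzo (by rw [pow_two]; exact F.τ2) hτz
  have hET : zpowers (σ * σ) ⊔ zpowers τ ≤ normalizer ((WW σ τ : Subgroup G) : Set G) := by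
    refine sup_le ?_ ?_
    · rw [zpowers_le]; exact S_le_norm_WW F F.z_mem
    · rw [zpowers_le]; exact τ_norm_WW F
  have hBW := BrauerWielandt.bw_general hL (T := WW σ τ) (by
    intro h
    exact (Nat.not_even_iff_odd.2 hodd) (even_iff_two_dvd.2 h)) hET
  unfold BrauerWielandt.BW at hBW
  rw [Fintype.prod_option, Fin.prod_univ_two] at hBW
  simp only [BrauerWielandt.lineGen, BrauerWielandt.centralizer_zpowers_eq] at hBW
  have e0 : ((0 : Fin 2) : ℕ) = 0 := rfl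
  have e1 : ((1 : Fin 2) : ℕ) = 1 := rfl
  rw [e0, e1, pow_zero, pow_one, one_mul] at hBW
  rw [WW_inf F hodd F.zz F.z_ne_one (le_WW1 σ τ), WW_inf F hodd F.τ2 F.τ_ne_one (le_WW2 σ τ),
    WW_inf F hodd F.zτ2 F.zτ_frame.τ_ne_one (le_WW3 σ τ)] at hBW
  rw [Frame_card_Od F F.τ2 F.τ_ne_one, Frame_card_Od F F.zτ2 F.zτ_frame.τ_ne_one] at hBW
  have hE : WW σ τ ⊓ centralizer ((zpowers (σ * σ) ⊔ zpowers τ : Subgroup G) : Set G) = Wn (σ * σ) τ := by
    apply le_antisymm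
    · rintro x ⟨hx1, hx2⟩
      have hx2' : x ∈ centralizer ((zpowers (σ * σ) ⊔ zpowers τ : Subgroup G) : Set G) := hx2
      rw [mem_centralizer_iff] at hx2'
      replace hx2 := hx2'
      have h1 : (σ * σ) * x = x * (σ * σ) := hx2 _ (mem_sup_left (mem_zpowers _))
      have h2 : τ * x = x * τ := hx2 _ (mem_sup_right (mem_zpowers _))
      have h3 : orderOf (⟨x, hx1⟩ : WW σ τ) ∣ Nat.card (WW σ τ) := orderOf_dvd_natCard _
      rw [Subgroup.orderOf_mk] at h3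
      exact F.mem_W1.2 ⟨Odd.of_dvd_nat hodd h3, h1.symm, h2.symm⟩
    · intro x hx
      obtain ⟨h1, h2, h3⟩ := F.mem_W1.1 hx
      refine ⟨le_WW1 σ τ (mem_Wn.1 hx).1, ?_⟩
      show x ∈ centralizer _
      rw [mem_centralizer_iff]
      have hle : zpowers (σ * σ) ⊔ zpowers τ ≤ centralizer ({x} : Set G) := by
        refine sup_le ?_ ?_
        · rw [zpowers_le, mem_centralizer_singleton_iff]; exact h2.symm
        · rw [zpowers_le, mem_centralizer_singleton_iff]; exact h3.symm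
      intro h hh
      exact mem_centralizer_singleton_iff.1 (hle hh)
  rw [hE] at hBW
  rw [← hBW]
  ring

/-- The order of the centralizer of `z`. -/
theorem card_Cz (F : Frame σ τ) : Nat.card (centralizer ({σ * σ} : Set G)) = 8 * Nat.card (Od (σ * σ)) := by
  have h : ((centralizer ({σ * σ} : Set G) : Subgroup G) : Set G) = (Od (σ * σ) : Set G) * ((F.S : Subgroup G) : Set G) := by
    ext x
    constructor
    · intro hx
      have hx' : x * (σ * σ) = σ * σ * x := mem_centralizer_singleton_iff.1 hx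
      exact ⟨x * (F.π x)⁻¹, F.decomp hx', F.π x, F.π_mem x, by simp⟩
    · rintro ⟨a, ha, b, hb, rfl⟩
      show a * b ∈ centralizer ({σ * σ} : Set G)
      rw [mem_centralizer_singleton_iff]
      exact mul_comm_z (F.O_comm_z ha) (F.S_comm_z hb)
  have h1 := BrauerWielandt.card_of_set_mul h
  have hbot : Od (σ * σ) ⊓ (F.S : Subgroup G) = ⊥ := by
    rw [eq_bot_iff]
    rintro x ⟨h2, h3⟩
    have h4 := (F.π_eq_one (F.O_comm_z h2)).2 (F.O_odd h2)
    rwa [F.π_self h3] at h4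
  have hS : Nat.card (F.S : Subgroup G) = 8 := by rw [F.S_coe, F.card_closure]
  rw [hbot, hS] at h1
  simp only [Subgroup.card_bot, mul_one] at h1
  rw [h1, mul_comm]

/-- Every involution of `S` is conjugate to `z` under `M`. -/
theorem S_invol_conj_M (F : Frame σ τ) (hWW : WW σ τ = WW σ (σ * τ)) {s : G} (hs : s ∈ (F.S : Subgroup G)) (h2 : s * s = 1)
    (h1 : s ≠ 1) : ∃ m ∈ normalizer (WW σ τ : Set G), m * s * m⁻¹ = σ * σ := by
  have Ft := F.t_frame
  obtain ⟨κ₁, a1, a2, a3, -⟩ := F.exists_κ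
  obtain ⟨κ₂, b1, b2, b3, -⟩ := Ft.exists_κ
  have hκ₁ : κ₁ ∈ normalizer (WW σ τ : Set G) := mem_norm_WW a1 a3 a2 (le_WW3 σ τ) (le_WW1 σ τ) (le_WW2 σ τ)
  have hκ₂ : κ₂ ∈ normalizer (WW σ τ : Set G) := by
    rw [hWW]
    exact mem_norm_WW b1 b3 b2 (le_WW3 σ (σ * τ)) (le_WW1 σ (σ * τ)) (le_WW2 σ (σ * τ))
  rcases F.S_cases hs with rfl | hh | hh | hh | hh | hh | hh | hh
  · exact absurd rfl h1
  · rw [hh] at h2
    exact absurd h2 F.z_ne_one
  · rw [hh]
    exact ⟨1, one_mem _, by group⟩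
  · exfalso
    rw [hh] at h2
    apply F.z_ne_one
    have := congrArg F.φ (by decide : (r 3 : DihedralGroup 4) * r 3 = r 2)
    simp only [map_mul, F.φ_r3, F.φ_r2] at this
    rw [← this, h2]
  · rw [hh]
    exact ⟨κ₁, hκ₁, a3⟩
  · rw [hh]
    exact ⟨κ₂, hκ₂, b3⟩
  · rw [hh]
    refine ⟨κ₁ * κ₁, mul_mem hκ₁ hκ₁, ?_⟩
    have : (κ₁ * κ₁) * (σ * σ * τ) * (κ₁ * κ₁)⁻¹ = κ₁ * (κ₁ * (σ * σ * τ) * κ₁⁻¹) * κ₁⁻¹ := by group
    rw [this, a2, a3]
  · rw [hh]
    refine ⟨κ₂ * κ₂, mul_mem hκ₂ hκ₂, ?_⟩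
    have : (κ₂ * κ₂) * (σ * σ * (σ * τ)) * (κ₂ * κ₂)⁻¹ = κ₂ * (κ₂ * (σ * σ * (σ * τ)) * κ₂⁻¹) * κ₂⁻¹ := by group
    rw [this, b2, b3]

/-- Every involution of `M` is conjugate to `z` under `M`. -/
theorem invol_conj_M (F : Frame σ τ) (hWW : WW σ τ = WW σ (σ * τ)) {y : G} (hy : y ∈ normalizer (WW σ τ : Set G))
    (h2 : y * y = 1) (h1 : y ≠ 1) : ∃ m ∈ normalizer (WW σ τ : Set G), m * y * m⁻¹ = σ * σ := by
  haveI : Fact (Nat.Prime 2) := ⟨Nat.prime_two⟩
  have hp : IsPGroup 2 (zpowers y) := by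
    rintro ⟨x, i, rfl⟩
    refine ⟨1, Subtype.ext ?_⟩
    show (y ^ i) ^ 2 ^ 1 = 1
    rw [pow_one, ← zpow_natCast, ← zpow_mul, mul_comm, zpow_mul, zpow_natCast, pow_two, h2, one_zpow]
  obtain ⟨k, hk, hkS⟩ := SylowConjLemmas.exists_conj_mem_of_le F.S _ (S_le_norm_WW F) (zpowers y) hp
    (by rwa [zpowers_le])
  have hs := hkS y (mem_zpowers y)
  have h3 : (k * y * k⁻¹) * (k * y * k⁻¹) = 1 := by
    rw [conj_sq, h2]; group
  have h4 : k * y * k⁻¹ ≠ 1 := by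
    intro h
    apply h1
    have h6 : k * y = k := by
      calc k * y = k * y * k⁻¹ * k := by group
        _ = k := by rw [h]; group
    simpa using h6
  obtain ⟨m, hm, hm1⟩ := S_invol_conj_M F hWW hs h3 h4
  refine ⟨m * k, mul_mem hm hk, ?_⟩
  rw [← hm1]
  group

/-- The centralizer of `z` lies in `M`. -/
theorem C_le_M (F : Frame σ τ) {x : G} (hx : x * (σ * σ) = σ * σ * x) : x ∈ normalizer (WW σ τ : Set G) := by
  have h1 := F.decomp hx
  have h2 : x = (x * (F.π x)⁻¹) * F.π x := by group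
  rw [h2]
  refine mul_mem ?_ (S_le_norm_WW F (F.π_mem x))
  exact Subgroup.le_normalizer (le_WW1 σ τ h1)

/-- The strong embedding property. -/
theorem key_M (F : Frame σ τ) (hWW : WW σ τ = WW σ (σ * τ)) {y g : G} (hy : y ∈ normalizer (WW σ τ : Set G))
    (h2 : y * y = 1) (h1 : y ≠ 1) (hg : g⁻¹ * y * g ∈ normalizer (WW σ τ : Set G)) : g ∈ normalizer (WW σ τ : Set G) := by
  obtain ⟨m₁, hm₁, e₁⟩ := invol_conj_M F hWW hy h2 h1
  have h3 : (g⁻¹ * y * g) * (g⁻¹ * y * g) = 1 := by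
    rw [conj_sq_inv, h2]; group
  have h4 : g⁻¹ * y * g ≠ 1 := by
    intro h
    apply h1
    have h6 : g⁻¹ * y = g⁻¹ := by
      calc g⁻¹ * y = g⁻¹ * y * g * g⁻¹ := by group
        _ = g⁻¹ := by rw [h]; group
    simpa using h6
  obtain ⟨m₂, hm₂, e₂⟩ := invol_conj_M F hWW hg h3 h4
  have h5 : (m₁ * g * m₂⁻¹) * (σ * σ) * (m₁ * g * m₂⁻¹)⁻¹ = σ * σ := by
    nth_rw 1 [← e₂]
    rw [← e₁]
    group
  have h6 := C_le_M F (comm_of_conj_eq h5)
  have h7 : g = m₁⁻¹ * (m₁ * g * m₂⁻¹) * m₂ := by group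
  rw [h7]
  exact mul_mem (mul_mem (inv_mem hm₁) h6) hm₂

/-- The index is congruent to `1` modulo `8`. -/
theorem index_mod_eight (F : Frame σ τ) (M : Subgroup G) (hS : (F.S : Subgroup G) ≤ M)
    (hkey : ∀ y ∈ M, y * y = 1 → y ≠ 1 → ∀ g : G, g⁻¹ * y * g ∈ M → g ∈ M) : M.index % 8 = 1 := by
  classical
  haveI := Fintype.ofFinite (F.S : Subgroup G)
  haveI := Fintype.ofFinite (G ⧸ M)
  haveI := Fintype.ofFinite (MulAction.orbitRel.Quotient (F.S : Subgroup G) (G ⧸ M))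
  have hB := MulAction.sum_card_fixedBy_eq_card_orbits_mul_card_group (F.S : Subgroup G) (G ⧸ M)
  have hcardS : Fintype.card (F.S : Subgroup G) = 8 := by
    rw [← Nat.card_eq_fintype_card, F.S_coe, F.card_closure]
  have hn : Fintype.card (G ⧸ M) = M.index := by
    rw [← Nat.card_eq_fintype_card]; rfl
  have hnpos : 0 < M.index := by
    rw [← hn]; exact Fintype.card_pos
  have hf : ∀ a : (F.S : Subgroup G), Fintype.card (MulAction.fixedBy (G ⧸ M) a) = 1 + (if a = 1 then M.index - 1 else 0) := by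
    intro a
    by_cases ha : a = 1
    · subst ha
      rw [if_pos rfl]
      have h1 : MulAction.fixedBy (G ⧸ M) (1 : (F.S : Subgroup G)) = Set.univ := by
        ext x
        simp
      rw [Fintype.card_congr (Equiv.setCongr h1), Fintype.card_setUniv, hn]
      omega
    · rw [if_neg ha, add_zero, Fintype.card_eq_one_iff]
      have ha1 : (a : G) ≠ 1 := fun h => ha (Subtype.ext h)
      have haM : (a : G) ∈ M := hS a.2
      have hsm : ∀ g : G, a • ((g : G) : G ⧸ M) = (((a : G) * g : G) : G ⧸ M) := fun g => rfl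
      refine ⟨⟨((1 : G) : G ⧸ M), ?_⟩, ?_⟩
      · show a • ((1 : G) : G ⧸ M) = ((1 : G) : G ⧸ M)
        rw [hsm, QuotientGroup.eq]
        simpa using inv_mem haM
      · rintro ⟨ω, hω⟩
        induction ω using QuotientGroup.induction_on with
        | H g =>
          have hω' : a • ((g : G) : G ⧸ M) = ((g : G) : G ⧸ M) := hω
          rw [hsm, QuotientGroup.eq] at hω'
          have h2 : g⁻¹ * (a : G) * g ∈ M := by
            have h3 := inv_mem hω'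
            have h4 : (((a : G) * g)⁻¹ * g)⁻¹ = g⁻¹ * (a : G) * g := by group
            rwa [h4] at h3
          have hgM : g ∈ M := by
            by_cases haa : (a : G) * a = 1
            · exact hkey a haM haa ha1 g h2
            · rcases F.S_sq a.2 haa with h5 | h5
              · have h6 : (a : G) * a = σ * σ := by rw [h5]
                have h7 : g⁻¹ * ((a : G) * a) * g = (g⁻¹ * (a : G) * g) * (g⁻¹ * (a : G) * g) := by group
                exact hkey _ (mul_mem haM haM) (by rw [h6]; exact F.zz) haa g (by rw [h7]; exact mul_mem h2 h2)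
              · have h6 : (a : G) * a = σ * σ := by
                  rw [h5]
                  have := congrArg F.φ (by decide : (r 3 : DihedralGroup 4) * r 3 = r 2)
                  simpa only [map_mul, F.φ_r3, F.φ_r2] using this
                have h7 : g⁻¹ * ((a : G) * a) * g = (g⁻¹ * (a : G) * g) * (g⁻¹ * (a : G) * g) := by group
                exact hkey _ (mul_mem haM haM) (by rw [h6]; exact F.zz) haa g (by rw [h7]; exact mul_mem h2 h2)
          apply Subtype.ext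
          show ((g : G) : G ⧸ M) = ((1 : G) : G ⧸ M)
          rw [QuotientGroup.eq]
          simpa using inv_mem hgM
  simp_rw [hf] at hB
  rw [Finset.sum_add_distrib, Finset.sum_const, Finset.sum_ite_eq' Finset.univ (1 : (F.S : Subgroup G)),
    if_pos (Finset.mem_univ _), Finset.card_univ, hcardS] at hB
  simp only [smul_eq_mul, mul_one] at hB
  omega

/-- `3` divides the index of `W` in `M`. -/
theorem three_dvd (F : Frame σ τ) (hodd : Odd (Nat.card (WW σ τ))) :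
    3 ∣ ((WW σ τ).subgroupOf (normalizer (WW σ τ : Set G))).index := by
  obtain ⟨κ, a1, a2, a3, -⟩ := F.exists_κ
  have hκ : κ ∈ normalizer (WW σ τ : Set G) := mem_norm_WW a1 a3 a2 (le_WW3 σ τ) (le_WW1 σ τ) (le_WW2 σ τ)
  set W := WW σ τ with hW
  set M := normalizer (W : Set G) with hM
  haveI : (W.subgroupOf M).Normal := Subgroup.normal_in_normalizer
  set r := (W.subgroupOf M).index with hr
  have h1 : ((⟨κ, hκ⟩ : M) ^ r) ∈ W.subgroupOf M := Subgroup.pow_index_mem _ _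
  have h2 : κ ^ r ∈ W := by
    have := Subgroup.mem_subgroupOf.1 h1
    simpa using this
  have h3 : ∀ q : ℕ, κ ^ (3 * q) * (σ * σ) * (κ ^ (3 * q))⁻¹ = σ * σ := by
    intro q
    induction q with
    | zero => simp
    | succ q ih =>
      have h4 : κ ^ (3 * (q + 1)) * (σ * σ) * (κ ^ (3 * (q + 1)))⁻¹ =
          κ ^ (3 * q) * (κ * (κ * (κ * (σ * σ) * κ⁻¹) * κ⁻¹) * κ⁻¹) * (κ ^ (3 * q))⁻¹ := by
        rw [show 3 * (q + 1) = 3 * q + 3 by ring, pow_add]
        simp only [pow_succ, pow_zero, one_mul]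
        group
      rw [h4, a1, a2, a3, ih]
  have hzM : σ * σ ∈ M := S_le_norm_WW F F.z_mem
  -- an element of `W` moving `z` to `v` gives `v z ∈ W`
  have hw : ∀ w ∈ W, ∀ v : G, w * (σ * σ) * w⁻¹ = v → v * (σ * σ) ∈ W := by
    intro w hw v hv
    have h4 : v * (σ * σ) = w * ((σ * σ) * w⁻¹ * (σ * σ)⁻¹) := by
      rw [← hv, F.zi]
      group
    rw [h4]
    exact mul_mem hw ((mem_normalizer_iff.1 hzM _).1 (inv_mem hw))
  have hno : ∀ v : G, v ∈ W → v * v = 1 → v = 1 := by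
    intro v hv hv2
    have h2 : orderOf (⟨v, hv⟩ : W) ∣ Nat.card W := orderOf_dvd_natCard _
    rw [Subgroup.orderOf_mk] at h2
    exact eq_one_of_odd_of_sq (Odd.of_dvd_nat hodd h2) hv2
  by_contra h3r
  have hcases : r % 3 = 1 ∨ r % 3 = 2 := by omega
  have hrr : r = 3 * (r / 3) + r % 3 := (Nat.div_add_mod r 3).symm
  rcases hcases with h4 | h4
  · have h5 : κ ^ r * (σ * σ) * (κ ^ r)⁻¹ = σ * σ * τ := by
      rw [hrr, h4, pow_succ']
      have : κ * κ ^ (3 * (r / 3)) * (σ * σ) * (κ * κ ^ (3 * (r / 3)))⁻¹ =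
          κ * (κ ^ (3 * (r / 3)) * (σ * σ) * (κ ^ (3 * (r / 3)))⁻¹) * κ⁻¹ := by group
      rw [this, h3, a1]
    have h6 := hw _ h2 _ h5
    have h7 : σ * σ * τ * (σ * σ) = τ := by
      rw [F.zτ_comm, mul_assoc, F.zz, mul_one]
    rw [h7] at h6
    exact F.τ_ne_one (hno τ h6 F.τ2)
  · have h5 : κ ^ r * (σ * σ) * (κ ^ r)⁻¹ = τ := by
      rw [hrr, h4, show 3 * (r / 3) + 2 = 3 * (r / 3) + 1 + 1 from rfl, pow_succ', pow_succ']
      have : κ * (κ * κ ^ (3 * (r / 3))) * (σ * σ) * (κ * (κ * κ ^ (3 * (r / 3))))⁻¹ =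
          κ * (κ * (κ ^ (3 * (r / 3)) * (σ * σ) * (κ ^ (3 * (r / 3)))⁻¹) * κ⁻¹) * κ⁻¹ := by group
      rw [this, h3, a1, a2]
    have h6 := hw _ h2 _ h5
    rw [← F.zτ_comm] at h6
    exact F.zτ_frame.τ_ne_one (hno _ h6 F.zτ2)

/-- The order of `M`. -/
theorem card_M (F : Frame σ τ) (hodd : Odd (Nat.card (WW σ τ))) :
    ∃ f : ℕ, 0 < f ∧ Nat.card (normalizer (WW σ τ : Set G)) = Nat.card (WW σ τ) * (24 * f) := by
  set W := WW σ τ with hW
  set M := normalizer (W : Set G) with hM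
  set r := (W.subgroupOf M).index with hr
  have h3 : 3 ∣ r := three_dvd F hodd
  have hcard : Nat.card M = Nat.card W * r := by
    have h1 := Subgroup.card_mul_index (W.subgroupOf M)
    rw [← h1, Nat.card_congr (Subgroup.subgroupOfEquivOfLe (Subgroup.le_normalizer)).toEquiv]
  have h8 : 8 ∣ r := by
    have h1 : Nat.card (F.S : Subgroup G) ∣ Nat.card M := Subgroup.card_dvd_of_le (S_le_norm_WW F)
    rw [F.S_coe, F.card_closure, hcard] at h1
    have h2 : Nat.Coprime 8 (Nat.card W) := by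
      have : Nat.Coprime (2 ^ 3) (Nat.card W) := Nat.Coprime.pow_left 3 ((Nat.coprime_two_left).2 hodd)
      simpa using this
    exact h2.dvd_of_dvd_mul_left h1
  have h24 : 24 ∣ r := by
    have : Nat.Coprime 8 3 := by norm_num
    have h := this.mul_dvd_of_dvd_of_dvd h8 h3
    simpa using h
  obtain ⟨f, hf⟩ := h24
  have hrpos : 0 < r := Nat.pos_of_ne_zero (Subgroup.index_ne_zero_of_finite)
  refine ⟨f, by omega, ?_⟩
  rw [hcard, hf]

/-- The order formula. -/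
theorem exists_order_formula (F : Frame σ τ) : ∃ (x : ℕ) (δ : ℤ), (δ = 1 ∨ δ = -1) ∧ 0 < x ∧ (x : ℤ) ≠ δ ∧
    (Nat.card G : ℚ) * ((x : ℚ) - δ) ^ 2 = 2 * (x : ℚ) * ((x : ℚ) + δ) * (Nat.card (centralizer ({σ * σ} : Set G)) : ℚ) ^ 3 *
      (1 / (Nat.card (centralizer ({σ * σ, τ} : Set G)) : ℚ) + 1 / (Nat.card (centralizer ({σ * σ, σ * τ} : Set G)) : ℚ)) ^ 2 := by
  obtain ⟨M, hM⟩ := BlockVal.exists_isPModular Nat.prime_two
  have hiso : Nonempty ((F.S : Subgroup G) ≃* DihedralGroup (2 ^ (3 - 1))) := F.iso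
  have hσo : orderOf σ = 2 ^ (3 - 1) := by rw [F.σo]; norm_num
  have hζ : IsPrimitiveRoot Complex.I (2 ^ (3 - 1)) := by
    have : (2 : ℕ) ^ (3 - 1) = 4 := by norm_num
    rw [this]
    exact Complex.isPrimitiveRoot_I
  obtain ⟨-, χ₁, χ₂, χ₃, χ', δ₁, δ₂, δ₃, h1, -, -, -, h5, -, -, -, -, -, -, hB, hval, -⟩ :=
    Cfsg.Agent.S4481.result M hM 3 (by norm_num) F.S hiso σ F.σ_mem hσo Complex.I hζ
  have hmem : χ₁ ∈ Cfsg.principalBlock M G := by
    rw [hB]
    exact Or.inr (Or.inl rfl)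
  have hzz : σ ^ (2 ^ (3 - 2)) = σ * σ := by norm_num [pow_two]
  have hconj : IsConj (σ ^ (2 ^ (3 - 2))) τ ∧ IsConj (σ ^ (2 ^ (3 - 2))) (σ * τ) := by
    rw [hzz]
    exact ⟨F.conj _ _ F.zz F.z_ne_one F.τ2 F.τ_ne_one, F.conj _ _ F.zz F.z_ne_one F.t2 F.t_frame.τ_ne_one⟩
  have h := Cfsg.Agent.S4482.result M hM 3 (by norm_num) F.S σ τ F.σ_mem F.τ_mem hσo F.τo F.rel F.S_coe.symm hconj χ₁ hmem h5
    δ₁ h1 (fun l hl1 hl2 => (hval l hl1 hl2).1)
  rw [hzz] at h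
  refine ⟨Cfsg.charDegree (χ₁ : G → ℂ), δ₁, h1, ?_, h.1, h.2⟩
  exact_mod_cast Cfsg.Agent.Lib.CharKernel.charDegree_pos χ₁.2

theorem nP {P n f : ℕ} (hP : P = 64 ∨ P = 32 ∨ P = 20 ∨ P = 15 ∨ P = 4 ∨ P = 7) (h : f * n = P) (hn : n % 8 = 1) : n = 1 := by
  have hd : n ∣ P := ⟨f, by rw [← h, mul_comm]⟩
  have hP0 : 0 < P := by rcases hP with rfl | rfl | rfl | rfl | rfl | rfl <;> norm_num
  have hle : n ≤ P := Nat.le_of_dvd hP0 hd
  have hle2 : n ≤ 64 := by rcases hP with rfl | rfl | rfl | rfl | rfl | rfl <;> omega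
  rcases hP with rfl | rfl | rfl | rfl | rfl | rfl <;> interval_cases n <;> omega

theorem arith_plus {g P : ℕ} (hg : 0 < g) (h : 3 * P * (g * g) = 32 * (g + 1) * (g + 2)) :
    P = 64 ∨ P = 32 ∨ P = 20 ∨ P = 15 := by
  have hd : g ∣ 64 := by
    have h1 : g ∣ 32 * (g + 1) * (g + 2) := by
      rw [← h]
      exact ⟨3 * P * g, by ring⟩
    have h2 : 32 * (g + 1) * (g + 2) = g * (32 * g + 96) + 64 := by ring
    rw [h2] at h1
    exact (Nat.dvd_add_right ⟨_, rfl⟩).1 h1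
  have hle := Nat.le_of_dvd (by norm_num) hd
  interval_cases g <;> omega

theorem arith_minus {k P : ℕ} (hP : 0 < P) (h : 3 * P * ((k + 2) * (k + 2)) = 32 * (k + 1) * k) :
    P = 4 ∨ P = 7 := by
  have hd : (k + 2) ∣ 64 := by
    have h1 : (k + 2) ∣ 32 * (k + 1) * k := by
      rw [← h]
      exact ⟨3 * P * (k + 2), by ring⟩
    have h2 : (k + 2) ∣ 32 * (k + 1) * k + (k + 2) * 96 := dvd_add h1 ⟨_, rfl⟩
    have h3 : 32 * (k + 1) * k + (k + 2) * 96 = (k + 2) * (32 * (k + 2)) + 64 := by ring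
    rw [h3] at h2
    exact (Nat.dvd_add_right ⟨_, rfl⟩).1 h2
  have hle := Nat.le_of_dvd (by norm_num) hd
  have hk : k ≤ 62 := by omega
  interval_cases k <;> omega

theorem rat_plus {A f n g : ℕ} (hA : 0 < A)
    (h : ((A ^ 4 * (24 * f) * n : ℕ) : ℚ) * (((g + 1 : ℕ) : ℚ) - ((1 : ℤ) : ℚ)) ^ 2 =
      2 * ((g + 1 : ℕ) : ℚ) * (((g + 1 : ℕ) : ℚ) + ((1 : ℤ) : ℚ)) * ((8 * (A * A) : ℕ) : ℚ) ^ 3 *
        (1 / ((4 * A : ℕ) : ℚ) + 1 / ((4 * A : ℕ) : ℚ)) ^ 2) :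
    3 * (f * n) * (g * g) = 32 * (g + 1) * (g + 2) := by
  have hAq : (A : ℚ) ≠ 0 := by exact_mod_cast hA.ne'
  push_cast at h
  set a : ℚ := (A : ℚ) with ha
  have e : 2 * ((g : ℚ) + 1) * ((g : ℚ) + 1 + 1) * (8 * (a * a)) ^ 3 * (1 / (4 * a) + 1 / (4 * a)) ^ 2 =
      a ^ 4 * (256 * (((g : ℚ) + 1) * ((g : ℚ) + 2))) := by
    field_simp
    ring
  rw [e] at h
  have e2 : a ^ 4 * (24 * (f : ℚ)) * (n : ℚ) * ((g : ℚ) + 1 - 1) ^ 2 = a ^ 4 * (24 * f * n * ((g : ℚ) * g)) := by ring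
  rw [e2] at h
  have h3 := mul_left_cancel₀ (pow_ne_zero 4 hAq) h
  have h4 : 3 * ((f : ℚ) * n) * ((g : ℚ) * g) = 32 * ((g : ℚ) + 1) * ((g : ℚ) + 2) := by linarith
  exact_mod_cast h4

theorem rat_minus {A f n k : ℕ} (hA : 0 < A)
    (h : ((A ^ 4 * (24 * f) * n : ℕ) : ℚ) * (((k + 1 : ℕ) : ℚ) - ((-1 : ℤ) : ℚ)) ^ 2 =
      2 * ((k + 1 : ℕ) : ℚ) * (((k + 1 : ℕ) : ℚ) + ((-1 : ℤ) : ℚ)) * ((8 * (A * A) : ℕ) : ℚ) ^ 3 *
        (1 / ((4 * A : ℕ) : ℚ) + 1 / ((4 * A : ℕ) : ℚ)) ^ 2) :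
    3 * (f * n) * ((k + 2) * (k + 2)) = 32 * (k + 1) * k := by
  have hAq : (A : ℚ) ≠ 0 := by exact_mod_cast hA.ne'
  push_cast at h
  set a : ℚ := (A : ℚ) with ha
  have e : 2 * ((k : ℚ) + 1) * ((k : ℚ) + 1 + -1) * (8 * (a * a)) ^ 3 * (1 / (4 * a) + 1 / (4 * a)) ^ 2 =
      a ^ 4 * (256 * (((k : ℚ) + 1) * (k : ℚ))) := by
    field_simp
    ring
  rw [e] at h
  have e2 : a ^ 4 * (24 * (f : ℚ)) * (n : ℚ) * ((k : ℚ) + 1 - -1) ^ 2 = a ^ 4 * (24 * f * n * (((k : ℚ) + 2) * ((k : ℚ) + 2))) := by ring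
  rw [e2] at h
  have h3 := mul_left_cancel₀ (pow_ne_zero 4 hAq) h
  have h4 : 3 * ((f : ℚ) * n) * (((k : ℚ) + 2) * ((k : ℚ) + 2)) = 32 * ((k : ℚ) + 1) * (k : ℚ) := by linarith
  exact_mod_cast h4

/-- The case where both `W₁` and `W₂` are nontrivial does not occur. -/
theorem strong_case (F : Frame σ τ) [IsSimpleGroup G] {u j : G} (hu : u ∈ Wn (σ * σ) τ) (hu1 : u ≠ 1)
    (hj : j ∈ Wn (σ * σ) (σ * τ)) (hj1 : j ≠ 1) : False := by
  have Ft := F.t_frame
  have hWW := WW_eq F hu hu1 hj hj1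
  have hodd := odd_WW F hu hu1 hj hj1
  have hoddt : Odd (Nat.card (WW σ (σ * τ))) := by rw [← hWW]; exact hodd
  have e1 := card_WW F hodd
  have e2 := card_WW Ft hoddt
  rw [← hWW] at e2
  have hApos : 0 < Nat.card (Wn (σ * σ) τ) := Nat.card_pos
  have hBpos : 0 < Nat.card (Wn (σ * σ) (σ * τ)) := Nat.card_pos
  have ho : Nat.card (Od (σ * σ)) = Nat.card (Wn (σ * σ) τ) * Nat.card (Wn (σ * σ) (σ * τ)) := F.card_O
  have hwpos : 0 < Nat.card (WW σ τ) := Nat.card_pos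
  have hAB : Nat.card (Wn (σ * σ) τ) = Nat.card (Wn (σ * σ) (σ * τ)) := by
    have h1 : Nat.card (WW σ τ) * Nat.card (Wn (σ * σ) τ) ^ 2 = Nat.card (WW σ τ) * Nat.card (Wn (σ * σ) (σ * τ)) ^ 2 := by
      rw [← e1]; exact e2
    have h2 := Nat.eq_of_mul_eq_mul_left hwpos h1
    exact Nat.pow_left_injective (n := 2) (by norm_num) h2
  rw [ho, ← hAB] at e1
  have hw4 : Nat.card (WW σ τ) = Nat.card (Wn (σ * σ) τ) ^ 4 := by
    have h1 : (Nat.card (Wn (σ * σ) τ) * Nat.card (Wn (σ * σ) τ)) ^ 3 = Nat.card (Wn (σ * σ) τ) ^ 4 * Nat.card (Wn (σ * σ) τ) ^ 2 := by ring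
    rw [h1] at e1
    exact (Nat.eq_of_mul_eq_mul_right (by positivity) e1).symm
  obtain ⟨f, hf, hM⟩ := card_M F hodd
  have hG : Nat.card G = Nat.card (WW σ τ) * (24 * f) * (normalizer ((WW σ τ : Subgroup G) : Set G)).index := by
    rw [← hM]
    exact (Subgroup.card_mul_index _).symm
  have hn8 : (normalizer ((WW σ τ : Subgroup G) : Set G)).index % 8 = 1 := index_mod_eight F _ (S_le_norm_WW F)
    (fun y hy h2 h1 g hg => key_M F hWW hy h2 h1 hg)
  obtain ⟨x, δ, hδ, hx, hne, hform⟩ := exists_order_formula F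
  have c0 : Nat.card (centralizer ({σ * σ} : Set G)) = 8 * (Nat.card (Wn (σ * σ) τ) * Nat.card (Wn (σ * σ) τ)) := by
    rw [card_Cz F, ho, ← hAB]
  have c1 : Nat.card (centralizer ({σ * σ, τ} : Set G)) = 4 * Nat.card (Wn (σ * σ) τ) := F.card_cent2
  have c2 : Nat.card (centralizer ({σ * σ, σ * τ} : Set G)) = 4 * Nat.card (Wn (σ * σ) τ) := by
    rw [Ft.card_cent2, ← hAB]
  rw [c0, c1, c2, hG, hw4] at hform
  have hnpos : 0 < (normalizer ((WW σ τ : Subgroup G) : Set G)).index := by omega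
  have hn1 : (normalizer ((WW σ τ : Subgroup G) : Set G)).index = 1 := by
    rcases hδ with rfl | rfl
    · -- `δ = 1`
      have hx2 : 2 ≤ x := by
        by_contra hlt
        have : x = 1 := by omega
        subst this
        exact hne rfl
      obtain ⟨g, rfl⟩ : ∃ g, x = g + 1 := ⟨x - 1, by omega⟩
      have hg : 0 < g := by omega
      have hnat := rat_plus hApos hform
      have hP := arith_plus hg hnat
      exact nP (by tauto) rfl hn8
    · obtain ⟨k, rfl⟩ : ∃ k, x = k + 1 := ⟨x - 1, by omega⟩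
      have hnat := rat_minus hApos hform
      have hP := arith_minus (Nat.mul_pos hf hnpos) hnat
      exact nP (by tauto) rfl hn8
  have htop : normalizer ((WW σ τ : Subgroup G) : Set G) = ⊤ := Subgroup.index_eq_one.1 hn1
  have hnormal : (WW σ τ).Normal := Subgroup.normalizer_eq_top_iff.1 htop
  rcases hnormal.eq_bot_or_eq_top with h | h
  · apply hu1
    have : u ∈ WW σ τ := le_WW1 σ τ (mem_Wn.1 hu).1
    rw [h] at this
    exact (Subgroup.mem_bot).1 this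
  · have hz : σ * σ ∈ WW σ τ := by rw [h]; exact mem_top _
    have h2 : orderOf (⟨σ * σ, hz⟩ : WW σ τ) ∣ Nat.card (WW σ τ) := orderOf_dvd_natCard _
    rw [Subgroup.orderOf_mk] at h2
    exact F.z_ne_one (eq_one_of_odd_of_sq (Odd.of_dvd_nat hodd h2) F.zz)

end Cfsg.Agent.Lib.WongStrong
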