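import Cfsg.Agent.Lib.Wr128Main

/-! Coordinates on a copy of a Sylow 2-subgroup of the symmetric group on eight points. -/

set_option autoImplicit false

namespace Cfsg.Agent.Lib.Wr128

universe u

theorem pt_lt (i k : ℕ) : pt i k < 8 := by
  have h : pt i k ≤ 7 := Nat.and_le_right
  omega

/-- The permutation with number `i`. -/
def rho (i : ℕ) (hi : i < 128) : Equiv.Perm (Fin 8) where
  toFun k := ⟨pt i k, pt_lt _ _⟩
  invFun k := ⟨pt (inv i) k, pt_lt _ _⟩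
  left_inv k := by
    apply Fin.ext
    show pt (inv i) (pt i k) = k
    rw [← pt_mt _ (inv_lt i hi) i hi _ k.2, inv_mt i hi, pt_zero _ k.2]
  right_inv k := by
    apply Fin.ext
    show pt i (pt (inv i) k) = k
    rw [← pt_mt _ hi _ (inv_lt i hi) _ k.2, mt_inv i hi, pt_zero _ k.2]

theorem rho_mul {i j : ℕ} (hi : i < 128) (hj : j < 128) :
    rho (mt i j) (mt_lt i hi j hj) = rho i hi * rho j hj := by
  ext k
  show pt (mt i j) k = pt i (pt j k)
  exact pt_mt i hi j hj _ k.2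

theorem rho_zero : rho 0 (by norm_num) = 1 := by
  ext k
  show pt 0 k = k
  exact pt_zero _ k.2

theorem rho_inv {i : ℕ} (hi : i < 128) : rho (inv i) (inv_lt i hi) = (rho i hi)⁻¹ :=
  Equiv.ext fun _ => rfl

theorem rho_inj {i j : ℕ} (hi : i < 128) (hj : j < 128) (h : rho i hi = rho j hj) : i = j := by
  have hk : ∀ k : Fin 8, pt i k = pt j k := fun k => congrArg Fin.val (congrArg (fun σ => σ k) h)
  exact pt_inj i hi j hj ⟨hk 0, hk 1, hk 2, hk 3, hk 4, hk 5, hk 6, hk 7⟩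

/-- The Sylow subgroup given by the table. -/
def T₀ : Subgroup (Equiv.Perm (Fin 8)) where
  carrier := {σ | ∃ i, ∃ hi : i < 128, σ = rho i hi}
  mul_mem' := by
    rintro _ _ ⟨i, hi, rfl⟩ ⟨j, hj, rfl⟩
    exact ⟨mt i j, mt_lt i hi j hj, (rho_mul hi hj).symm⟩
  one_mem' := ⟨0, by norm_num, rho_zero.symm⟩
  inv_mem' := by
    rintro _ ⟨i, hi, rfl⟩
    exact ⟨inv i, inv_lt i hi, (rho_inv hi).symm⟩

theorem card_T₀ : Nat.card T₀ = 128 := by
  have hb : Function.Bijective (fun i : Fin 128 => (⟨rho i i.2, ⟨i, i.2, rfl⟩⟩ : T₀)) := by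
    constructor
    · intro a b h
      have := congrArg Subtype.val h
      exact Fin.ext (rho_inj a.2 b.2 this)
    · rintro ⟨_, ⟨i, hi, rfl⟩⟩
      exact ⟨⟨i, hi⟩, rfl⟩
  rw [← Nat.card_eq_of_bijective _ hb]
  simp

theorem exists_coord {S : Type u} [Group S] {P : Subgroup S}
    (hP : ∃ T : Sylow 2 (Equiv.Perm (Fin 8)), Nonempty (↥P ≃* ↥(T : Subgroup (Equiv.Perm (Fin 8))))) :
    Nonempty (Coord P) := by
  classical
  obtain ⟨T, ⟨φ⟩⟩ := hP
  let T₁ : Sylow 2 (Equiv.Perm (Fin 8)) := Coord.sylowOfCard T₀ card_T₀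
  obtain ⟨g, hg⟩ := MulAction.exists_smul_eq (Equiv.Perm (Fin 8)) T₁ T
  have hmem : ∀ σ, σ ∈ (T : Subgroup (Equiv.Perm (Fin 8))) ↔ g⁻¹ * σ * g ∈ T₀ := by
    intro σ
    rw [← hg, Sylow.coe_subgroup_smul, Subgroup.mem_pointwise_smul_iff_inv_smul_mem]
    simp only [MulAut.smul_def, MulAut.conj_inv_apply]
    rfl
  have hκ : ∀ i (hi : i < 128), g * rho i hi * g⁻¹ ∈ (T : Subgroup (Equiv.Perm (Fin 8))) := by
    intro i hi
    rw [hmem]
    have e : g⁻¹ * (g * rho i hi * g⁻¹) * g = rho i hi := by group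
    rw [e]
    exact ⟨i, hi, rfl⟩
  let κ : ∀ i (hi : i < 128), (T : Subgroup (Equiv.Perm (Fin 8))) := fun i hi => ⟨_, hκ i hi⟩
  let ι : ℕ → S := fun i => if hi : i < 128 then ((φ.symm (κ i hi) : P) : S) else 1
  have hι : ∀ i (hi : i < 128), ι i = ((φ.symm (κ i hi) : P) : S) := fun i hi => dif_pos hi
  refine ⟨⟨ι, ?_, ?_, ?_, ?_⟩⟩
  · intro i j hi hj
    rw [hι _ (mt_lt i hi j hj), hι _ hi, hι _ hj, ← Subgroup.coe_mul, ← map_mul]
    congr 2
    apply Subtype.ext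
    show g * rho (mt i j) _ * g⁻¹ = (g * rho i hi * g⁻¹) * (g * rho j hj * g⁻¹)
    rw [rho_mul hi hj]
    group
  · intro i j hi hj h
    rw [hι _ hi, hι _ hj] at h
    have h1 := φ.symm.injective (Subtype.ext h)
    have h3 : g * rho i hi * g⁻¹ = g * rho j hj * g⁻¹ := congrArg Subtype.val h1
    exact rho_inj hi hj (mul_left_cancel (mul_right_cancel h3))
  · intro i hi
    rw [hι _ hi]
    exact (φ.symm (κ i hi)).2
  · intro p hp
    have h1 := (φ ⟨p, hp⟩).2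
    rw [hmem] at h1
    obtain ⟨i, hi, hi2⟩ := h1
    refine ⟨i, hi, ?_⟩
    rw [hι _ hi]
    have e : κ i hi = φ ⟨p, hp⟩ := by
      apply Subtype.ext
      show g * rho i hi * g⁻¹ = ((φ ⟨p, hp⟩ : T) : Equiv.Perm (Fin 8))
      rw [← hi2]; group
    rw [e, MulEquiv.symm_apply_apply]

end Cfsg.Agent.Lib.Wr128
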