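import Cfsg.Agent.Lib.Wr128

/-! Finite facts about the table of `Wr128`. -/

set_option autoImplicit false
set_option synthInstance.maxHeartbeats 0
set_option synthInstance.maxSize 100000
set_option maxRecDepth 100000

namespace Cfsg.Agent.Lib.Wr128

/-! ### Finite facts about the table -/

theorem A_mul : ∀ i, i < 128 → ∀ j, j < 128 → inA i → inA j → inA (mt i j) := by decide +kernel
theorem A_inv : ∀ i, i < 128 → inA i → inA (inv i) := by decide +kernel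
theorem B_mul : ∀ i, i < 128 → ∀ j, j < 128 → inB i → inB j → inB (mt i j) := by decide +kernel
theorem B_inv : ∀ i, i < 128 → inB i → inB (inv i) := by decide +kernel
theorem C_mul : ∀ i, i < 128 → ∀ j, j < 128 → inC i → inC j → inC (mt i j) := by decide +kernel
theorem C_inv : ∀ i, i < 128 → inC i → inC (inv i) := by decide +kernel
theorem W_mul : ∀ i, i < 128 → ∀ j, j < 128 → inW i → inW j → inW (mt i j) := by decide +kernel
theorem W_inv : ∀ i, i < 128 → inW i → inW (inv i) := by decide +kernel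
theorem R_mul : ∀ i, i < 64 → ∀ j, j < 64 → mt i j < 64 := by decide +kernel
theorem R_inv : ∀ i, i < 64 → inv i < 64 := by decide +kernel

/-- elements all of whose conjugates commute with them and which square to one lie in `A ∪ B` -/
theorem closure_AB : ∀ i, i < 128 → (mt i i = 0 ∧ ∀ h, h < 128 → mt i (cj h i) = mt (cj h i) i) →
    inA i ∨ inB i := by decide +kernel

theorem center_eq : ∀ i, i < 128 → (∀ h, h < 128 → mt i h = mt h i) → i = 0 ∨ i = 18 := by decide +kernel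
theorem center_18 : ∀ h, h < 128 → mt 18 h = mt h 18 := by decide +kernel

theorem C_elts : ∀ i, i < 128 → inC i → i = 0 ∨ i = 2 ∨ i = 16 ∨ i = 18 := by decide +kernel
theorem AB_C : ∀ i, i < 128 → inA i → inB i → inC i := by decide +kernel

/-- the pairing between `A/C` and `B/C` -/
theorem pairing : ∀ p₁, p₁ < 128 → inA p₁ → ∀ q₁, q₁ < 128 → inB q₁ → cm p₁ q₁ = 2 →
    ∀ q₂, q₂ < 128 → inB q₂ → cm p₁ q₂ = 0 → ∀ p₂, p₂ < 128 → inA p₂ →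
      (cm p₂ q₁ = 0 ∧ cm p₂ q₂ = 16) →
      Nat.land p₁ 9 = 1 ∧ Nat.land p₂ 9 = 8 ∧ Nat.land q₁ 36 = 4 ∧ Nat.land q₂ 36 = 32 := by decide +kernel

theorem comm_to_C : ∀ k, k < 128 →
    (mt k 1 = mt 1 k ∧ mt k 4 = mt 4 k ∧ mt k 8 = mt 8 k ∧ mt k 32 = mt 32 k) → inC k := by decide +kernel

/-- elements of `R` are products of the generators -/
theorem R_gen : ∀ i, i < 64 → i = 0 ∨ ∃ j, j < i ∧ (i = mt j 1 ∨ i = mt j 2 ∨ i = mt j 4 ∨ i = mt j 8 ∨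
    i = mt j 16 ∨ i = mt j 32) := by decide +kernel

theorem R_C_comm : ∀ i, i < 64 → ∀ c, c < 128 → inC c → mt i c = mt c i := by decide +kernel
theorem R_sq : ∀ i, i < 64 → inC (mt i i) := by decide +kernel
theorem R_cm : ∀ i, i < 64 → ∀ j, j < 64 → inC (cm i j) := by decide +kernel

/-- the element adjusting a map on the generators of `R` -/
def rOf (u₁ u₂ v₁ v₂ : ℕ) : ℕ :=
  (if v₁ = 3 ∨ v₁ = 17 then 1 else 0) + (if u₁ = 6 ∨ u₁ = 20 then 4 else 0) +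
    (if v₂ = 10 ∨ v₂ = 24 then 8 else 0) + (if u₂ = 34 ∨ u₂ = 48 then 32 else 0)

theorem norm_fact : ∀ u₁, u₁ < 128 → (Nat.land u₁ 36 = 4 ∧ inB u₁) →
    ∀ u₂, u₂ < 128 → (Nat.land u₂ 36 = 32 ∧ inB u₂) →
    ∀ v₁, v₁ < 128 → (Nat.land v₁ 9 = 1 ∧ inA v₁) →
    ∀ v₂, v₂ < 128 → (Nat.land v₂ 9 = 8 ∧ inA v₂) →
    rOf u₁ u₂ v₁ v₂ < 64 ∧
      (mt (cm (rOf u₁ u₂ v₁ v₂) 1) u₁ = 4 ∨ mt (cm (rOf u₁ u₂ v₁ v₂) 1) u₁ = 22) ∧
      (mt (cm (rOf u₁ u₂ v₁ v₂) 8) u₂ = 32 ∨ mt (cm (rOf u₁ u₂ v₁ v₂) 8) u₂ = 50) ∧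
      (mt (cm (rOf u₁ u₂ v₁ v₂) 4) v₁ = 1 ∨ mt (cm (rOf u₁ u₂ v₁ v₂) 4) v₁ = 19) ∧
      (mt (cm (rOf u₁ u₂ v₁ v₂) 32) v₂ = 8 ∨ mt (cm (rOf u₁ u₂ v₁ v₂) 32) v₂ = 26) := by decide +kernel

theorem R_comm_C : ∀ r, r < 64 → inC (cm r 1) ∧ inC (cm r 8) ∧ inC (cm r 4) ∧ inC (cm r 32) := by decide +kernel

theorem t_fact : ∀ t, t < 128 → mt t t = 0 → ∀ u₁, (u₁ = 4 ∨ u₁ = 22) → ∀ u₂, (u₂ = 32 ∨ u₂ = 50) →
    ∀ v₁, (v₁ = 1 ∨ v₁ = 19) → ∀ v₂, (v₂ = 8 ∨ v₂ = 26) →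
    cj t u₁ = u₂ → cj t u₂ = u₁ → cj t v₁ = v₂ → cj t v₂ = v₁ → t = 64 ∨ t = 82 := by
  intro t ht ht2 u₁ hu₁ u₂ hu₂ v₁ hv₁ v₂ hv₂
  have key : ∀ t, t < 128 → mt t t = 0 → ∀ a, a < 2 → ∀ b, b < 2 → ∀ c, c < 2 → ∀ d, d < 2 →
      cj t (if a = 0 then 4 else 22) = (if b = 0 then 32 else 50) →
      cj t (if b = 0 then 32 else 50) = (if a = 0 then 4 else 22) →
      cj t (if c = 0 then 1 else 19) = (if d = 0 then 8 else 26) →
      cj t (if d = 0 then 8 else 26) = (if c = 0 then 1 else 19) → t = 64 ∨ t = 82 := by decide +kernel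
  rcases hu₁ with rfl | rfl <;> rcases hu₂ with rfl | rfl <;> rcases hv₁ with rfl | rfl <;>
    rcases hv₂ with rfl | rfl
  · exact key t ht ht2 0 (by norm_num) 0 (by norm_num) 0 (by norm_num) 0 (by norm_num)
  · exact key t ht ht2 0 (by norm_num) 0 (by norm_num) 0 (by norm_num) 1 (by norm_num)
  · exact key t ht ht2 0 (by norm_num) 0 (by norm_num) 1 (by norm_num) 0 (by norm_num)
  · exact key t ht ht2 0 (by norm_num) 0 (by norm_num) 1 (by norm_num) 1 (by norm_num)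
  · exact key t ht ht2 0 (by norm_num) 1 (by norm_num) 0 (by norm_num) 0 (by norm_num)
  · exact key t ht ht2 0 (by norm_num) 1 (by norm_num) 0 (by norm_num) 1 (by norm_num)
  · exact key t ht ht2 0 (by norm_num) 1 (by norm_num) 1 (by norm_num) 0 (by norm_num)
  · exact key t ht ht2 0 (by norm_num) 1 (by norm_num) 1 (by norm_num) 1 (by norm_num)
  · exact key t ht ht2 1 (by norm_num) 0 (by norm_num) 0 (by norm_num) 0 (by norm_num)
  · exact key t ht ht2 1 (by norm_num) 0 (by norm_num) 0 (by norm_num) 1 (by norm_num)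
  · exact key t ht ht2 1 (by norm_num) 0 (by norm_num) 1 (by norm_num) 0 (by norm_num)
  · exact key t ht ht2 1 (by norm_num) 0 (by norm_num) 1 (by norm_num) 1 (by norm_num)
  · exact key t ht ht2 1 (by norm_num) 1 (by norm_num) 0 (by norm_num) 0 (by norm_num)
  · exact key t ht ht2 1 (by norm_num) 1 (by norm_num) 0 (by norm_num) 1 (by norm_num)
  · exact key t ht ht2 1 (by norm_num) 1 (by norm_num) 1 (by norm_num) 0 (by norm_num)
  · exact key t ht ht2 1 (by norm_num) 1 (by norm_num) 1 (by norm_num) 1 (by norm_num)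

theorem w_fact : ∀ k, k < 128 →
    ((cj k 1 = 1 ∨ cj k 1 = 19) ∧ (cj k 8 = 8 ∨ cj k 8 = 26) ∧ (cj k 4 = 4 ∨ cj k 4 = 22) ∧
      (cj k 32 = 32 ∨ cj k 32 = 50) ∧ cj k 64 = 64) → k = 0 ∨ k = 18 := by decide +kernel

theorem W_gen : ∀ i, i < 128 → inW i → i = 0 ∨ ∃ j, j < i ∧ inW j ∧ (i = mt j 18 ∨ i = mt j 9 ∨ i = mt j 36 ∨ i = mt j 64) := by
  decide +kernel

theorem W_core : ∀ i, i < 128 → inW i → (∀ h, h < 128 → inW (cj h i)) → i = 0 ∨ i = 18 := by decide +kernel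

theorem W_tr : ∀ u₁, (u₁ = 4 ∨ u₁ = 22) → ∀ u₂, (u₂ = 32 ∨ u₂ = 50) → inW (mt u₁ u₂) := by
  intro u₁ h₁ u₂ h₂; rcases h₁ with rfl | rfl <;> rcases h₂ with rfl | rfl <;> decide +kernel
theorem W_tr' : ∀ v₁, (v₁ = 1 ∨ v₁ = 19) → ∀ v₂, (v₂ = 8 ∨ v₂ = 26) → inW (mt v₁ v₂) := by
  intro u₁ h₁ u₂ h₂; rcases h₁ with rfl | rfl <;> rcases h₂ with rfl | rfl <;> decide +kernel

/-- miscellaneous identities -/
theorem misc : mt 1 8 = 9 ∧ mt 4 32 = 36 ∧ mt 2 16 = 18 ∧ mt 18 2 = 16 ∧ mt 18 16 = 2 ∧ mt 18 18 = 0 ∧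
    cm 1 4 = 2 ∧ cm 1 32 = 0 ∧ cm 8 4 = 0 ∧ cm 8 32 = 16 ∧ cm 4 1 = 2 ∧ cm 4 8 = 0 ∧ cm 32 1 = 0 ∧ cm 32 8 = 16 ∧
    cj 64 1 = 8 ∧ cj 64 8 = 1 ∧ cj 64 4 = 32 ∧ cj 64 32 = 4 ∧ cj 64 2 = 16 ∧ cj 64 16 = 2 ∧
    mt 4 18 = 22 ∧ mt 32 18 = 50 ∧ mt 1 18 = 19 ∧ mt 8 18 = 26 ∧ mt 64 18 = 82 ∧ mt 82 18 = 64 ∧
    mt 22 18 = 4 ∧ mt 50 18 = 32 ∧ mt 19 18 = 1 ∧ mt 26 18 = 8 := by decide +kernel

theorem A_norm : ∀ h, h < 128 → ∀ a, a < 128 → inA a → inA (cj h a) := by decide +kernel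
theorem B_norm : ∀ h, h < 128 → ∀ a, a < 128 → inB a → inB (cj h a) := by decide +kernel
theorem A_comm : ∀ a, a < 128 → inA a → ∀ b, b < 128 → inA b → mt a b = mt b a := by decide +kernel
theorem B_comm : ∀ a, a < 128 → inB a → ∀ b, b < 128 → inB b → mt a b = mt b a := by decide +kernel
theorem A_sq : ∀ a, a < 128 → inA a → mt a a = 0 := by decide +kernel
theorem B_sq : ∀ a, a < 128 → inB a → mt a a = 0 := by decide +kernel
theorem C_sq : ∀ a, a < 128 → inC a → mt a a = 0 := by decide +kernel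
theorem C_lt : ∀ a, a < 128 → inC a → a < 64 := by decide +kernel
theorem dev_a1 : ∀ u, u < 128 → (Nat.land u 9 = 1 ∧ inA u) → inC (mt u (inv 1)) := by decide +kernel
theorem dev_a2 : ∀ u, u < 128 → (Nat.land u 9 = 8 ∧ inA u) → inC (mt u (inv 8)) := by decide +kernel
theorem dev_b1 : ∀ u, u < 128 → (Nat.land u 36 = 4 ∧ inB u) → inC (mt u (inv 4)) := by decide +kernel
theorem dev_b2 : ∀ u, u < 128 → (Nat.land u 36 = 32 ∧ inB u) → inC (mt u (inv 32)) := by decide +kernel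
theorem inA_1 : inA 1 ∧ ¬ inB 1 ∧ inA 8 ∧ inB 4 ∧ ¬ inA 4 ∧ inB 32 ∧ inA 2 ∧ inB 2 ∧ inC 2 ∧ inC 16 ∧ inC 18 ∧ inC 0 ∧
    inW 0 ∧ inW 18 ∧ inW 9 ∧ inW 36 ∧ inW 64 ∧ inW 82 := by decide +kernel
theorem not_B : ¬ inB 1 ∧ ¬ inB 19 := by decide +kernel
theorem ne_facts : (2 : ℕ) ≠ 0 ∧ (2 : ℕ) ≠ 18 := by decide

theorem misc2 : mt 64 64 = 0 ∧ mt 18 1 = 19 := by decide +kernel
theorem U_fact : ∀ v, (v = 1 ∨ v = 19) → (mt v 18 = 1 ∨ mt v 18 = 19) := by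
  intro v h; rcases h with rfl | rfl <;> decide +kernel
theorem U_fact8 : ∀ v, (v = 8 ∨ v = 26) → (mt v 18 = 8 ∨ mt v 18 = 26) := by
  intro v h; rcases h with rfl | rfl <;> decide +kernel
theorem U_fact4 : ∀ v, (v = 4 ∨ v = 22) → (mt v 18 = 4 ∨ mt v 18 = 22) := by
  intro v h; rcases h with rfl | rfl <;> decide +kernel
theorem U_fact32 : ∀ v, (v = 32 ∨ v = 50) → (mt v 18 = 32 ∨ mt v 18 = 50) := by
  intro v h; rcases h with rfl | rfl <;> decide +kernel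

theorem inv_mt : ∀ i, i < 128 → mt (inv i) i = 0 := by decide +kernel

end Cfsg.Agent.Lib.Wr128
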