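import Cfsg.Agent.Lib.Wr128F
import Cfsg.Prelude.Def_CaseTheorems
import Cfsg.Prelude.Def_Transfer

/-! The abstract part of the analysis of a 2-group containing the wreath product of order 128. -/

set_option autoImplicit false

namespace Cfsg.Agent.Lib.Wr128

universe u

/-- Coordinates on a copy of the table group inside `S`. -/
structure Coord {S : Type u} [Group S] (P : Subgroup S) where
  ι : ℕ → S
  hom : ∀ i j, i < 128 → j < 128 → ι (mt i j) = ι i * ι j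
  inj : ∀ i j, i < 128 → j < 128 → ι i = ι j → i = j
  mem : ∀ i, i < 128 → ι i ∈ P
  surj : ∀ g ∈ P, ∃ i, i < 128 ∧ ι i = g

variable {S : Type u} [Group S] {P : Subgroup S} (c : Coord P)

namespace Coord

theorem ι_zero : c.ι 0 = 1 := by
  have h := c.hom 0 0 (by norm_num) (by norm_num)
  rw [zero_mt 0 (by norm_num)] at h
  exact (mul_eq_left.mp h.symm)

theorem ι_inv {i : ℕ} (hi : i < 128) : c.ι (inv i) = (c.ι i)⁻¹ := by
  have h := c.hom i (inv i) hi (inv_lt i hi)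
  rw [mt_inv i hi, ι_zero] at h
  exact (inv_eq_of_mul_eq_one_right h.symm).symm

theorem ι_cj {h i : ℕ} (hh : h < 128) (hi : i < 128) :
    c.ι (cj h i) = c.ι h * c.ι i * (c.ι h)⁻¹ := by
  unfold cj
  rw [c.hom _ _ (mt_lt _ hh _ hi) (inv_lt h hh), c.hom _ _ hh hi, c.ι_inv hh]

theorem ι_cm {i j : ℕ} (hi : i < 128) (hj : j < 128) :
    c.ι (cm i j) = c.ι i * c.ι j * (c.ι i)⁻¹ * (c.ι j)⁻¹ := by
  unfold cm
  have h1 := mt_lt _ hi _ hj
  have h2 := mt_lt _ h1 _ (inv_lt i hi)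
  rw [c.hom _ _ h2 (inv_lt j hj), c.hom _ _ h1 (inv_lt i hi), c.hom _ _ hi hj, c.ι_inv hi, c.ι_inv hj]

theorem cj_lt {h i : ℕ} (hh : h < 128) (hi : i < 128) : cj h i < 128 :=
  mt_lt _ (mt_lt _ hh _ hi) _ (inv_lt h hh)

theorem cm_lt {i j : ℕ} (hi : i < 128) (hj : j < 128) : cm i j < 128 :=
  mt_lt _ (mt_lt _ (mt_lt _ hi _ hj) _ (inv_lt i hi)) _ (inv_lt j hj)

/-- The subgroup of the table cut out by a predicate. -/
def sg (Pr : ℕ → Prop) (h0 : Pr 0) (hm : ∀ i, i < 128 → ∀ j, j < 128 → Pr i → Pr j → Pr (mt i j))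
    (hi : ∀ i, i < 128 → Pr i → Pr (inv i)) : Subgroup S where
  carrier := {g | ∃ i, i < 128 ∧ Pr i ∧ c.ι i = g}
  mul_mem' := by
    rintro _ _ ⟨i, hi1, hi2, rfl⟩ ⟨j, hj1, hj2, rfl⟩
    exact ⟨mt i j, mt_lt i hi1 j hj1, hm i hi1 j hj1 hi2 hj2, c.hom i j hi1 hj1⟩
  one_mem' := ⟨0, by norm_num, h0, c.ι_zero⟩
  inv_mem' := by
    rintro _ ⟨i, hi1, hi2, rfl⟩
    exact ⟨inv i, inv_lt i hi1, hi i hi1 hi2, c.ι_inv hi1⟩

theorem mem_sg {Pr : ℕ → Prop} {h0 hm hi} {g : S} :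
    g ∈ c.sg Pr h0 hm hi ↔ ∃ i, i < 128 ∧ Pr i ∧ c.ι i = g := Iff.rfl

theorem card_sg (Pr : ℕ → Prop) [DecidablePred Pr] (h0 hm hi) :
    Nat.card (c.sg Pr h0 hm hi) = ((Finset.range 128).filter Pr).card := by
  have h1 : ((c.sg Pr h0 hm hi : Subgroup S) : Set S) =
      c.ι '' (((Finset.range 128).filter Pr : Finset ℕ) : Set ℕ) := by
    ext g
    simp only [SetLike.mem_coe, mem_sg, Set.mem_image, Finset.coe_filter, Finset.mem_range,
      Set.mem_setOf_eq]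
    constructor
    · rintro ⟨i, h1, h2, h3⟩; exact ⟨i, ⟨h1, h2⟩, h3⟩
    · rintro ⟨i, ⟨h1, h2⟩, h3⟩; exact ⟨i, h1, h2, h3⟩
  rw [show Nat.card (c.sg Pr h0 hm hi) = ((c.sg Pr h0 hm hi : Subgroup S) : Set S).ncard from
    (Nat.card_coe_set_eq _), h1, Set.ncard_image_of_injOn, Set.ncard_coe_finset]
  intro a ha b hb hab
  simp only [Finset.coe_filter, Finset.mem_range, Set.mem_setOf_eq] at ha hb
  exact c.inj a b ha.1 hb.1 hab

/-- The normal four-dimensional subgroups and their relatives. -/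
def sA : Subgroup S := c.sg inA (by decide +kernel) (fun i hi j hj h1 h2 => A_mul i hi j hj h1 h2)
  (fun i hi h => A_inv i hi h)
def sB : Subgroup S := c.sg inB (by decide +kernel) (fun i hi j hj h1 h2 => B_mul i hi j hj h1 h2)
  (fun i hi h => B_inv i hi h)
def sC : Subgroup S := c.sg inC (by decide +kernel) (fun i hi j hj h1 h2 => C_mul i hi j hj h1 h2)
  (fun i hi h => C_inv i hi h)
def sW : Subgroup S := c.sg inW (by decide +kernel) (fun i hi j hj h1 h2 => W_mul i hi j hj h1 h2)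
  (fun i hi h => W_inv i hi h)
def sR : Subgroup S := c.sg (fun i => i < 64) (by norm_num)
  (fun i _ j _ h1 h2 => R_mul i h1 j h2) (fun i _ h => R_inv i h)

theorem card_sA : Nat.card c.sA = 16 := by
  rw [sA, card_sg]; decide +kernel
theorem card_sB : Nat.card c.sB = 16 := by
  rw [sB, card_sg]; decide +kernel
theorem card_sC : Nat.card c.sC = 4 := by
  rw [sC, card_sg]; decide +kernel
theorem card_sW : Nat.card c.sW = 16 := by
  rw [sW, card_sg]; decide +kernel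
theorem card_sR : Nat.card c.sR = 64 := by
  rw [sR, card_sg]; decide +kernel

theorem card_P (c : Coord P) : Nat.card P = 128 := by
  have h1 : (P : Set S) = c.ι '' ((Finset.range 128 : Finset ℕ) : Set ℕ) := by
    ext g
    simp only [SetLike.mem_coe, Set.mem_image, Finset.coe_range, Set.mem_Iio]
    constructor
    · intro hg; obtain ⟨i, h1, h2⟩ := c.surj g hg; exact ⟨i, h1, h2⟩
    · rintro ⟨i, h1, rfl⟩; exact c.mem i h1
  rw [show Nat.card P = (P : Set S).ncard from (Nat.card_coe_set_eq _), h1,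
    Set.ncard_image_of_injOn, Set.ncard_coe_finset, Finset.card_range]
  intro a ha b hb hab
  simp only [Finset.coe_range, Set.mem_Iio] at ha hb
  exact c.inj a b ha hb hab

theorem sA_le : c.sA ≤ P := by rintro _ ⟨i, h1, _, rfl⟩; exact c.mem i h1
theorem sB_le : c.sB ≤ P := by rintro _ ⟨i, h1, _, rfl⟩; exact c.mem i h1
theorem sC_le : c.sC ≤ P := by rintro _ ⟨i, h1, _, rfl⟩; exact c.mem i h1
theorem sW_le : c.sW ≤ P := by rintro _ ⟨i, h1, _, rfl⟩; exact c.mem i h1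
theorem sR_le : c.sR ≤ P := by rintro _ ⟨i, h1, _, rfl⟩; exact c.mem i h1

end Coord

/-! ### Adjoining an element whose square lies in a normalized subgroup -/

/-- `H ∪ H y` as a subgroup. -/
def adj (H : Subgroup S) (y : S) (h1 : ∀ g ∈ H, y * g * y⁻¹ ∈ H) (h2 : ∀ g ∈ H, y⁻¹ * g * y ∈ H)
    (h3 : y ^ 2 ∈ H) : Subgroup S where
  carrier := {g | g ∈ H ∨ g * y⁻¹ ∈ H}
  mul_mem' := by
    intro a b ha hb
    rcases ha with ha | ha <;> rcases hb with hb | hb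
    · exact Or.inl (H.mul_mem ha hb)
    · refine Or.inr ?_
      rw [mul_assoc]; exact H.mul_mem ha hb
    · refine Or.inr ?_
      have := H.mul_mem ha (h1 b hb)
      have e : a * y⁻¹ * (y * b * y⁻¹) = a * b * y⁻¹ := by group
      rwa [e] at this
    · refine Or.inl ?_
      have := H.mul_mem (H.mul_mem ha (h1 _ hb)) h3
      have e : a * y⁻¹ * (y * (b * y⁻¹) * y⁻¹) * y ^ 2 = a * b := by group
      rwa [e] at this
  one_mem' := Or.inl H.one_mem
  inv_mem' := by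
    intro a ha
    rcases ha with ha | ha
    · exact Or.inl (H.inv_mem ha)
    · refine Or.inr ?_
      have := H.mul_mem (h2 _ (H.inv_mem ha)) (H.inv_mem h3)
      have e : y⁻¹ * (a * y⁻¹)⁻¹ * y * (y ^ 2)⁻¹ = a⁻¹ * y⁻¹ := by group
      rwa [e] at this

theorem mem_adj {H : Subgroup S} {y : S} {h1 h2 h3} {g : S} :
    g ∈ adj H y h1 h2 h3 ↔ g ∈ H ∨ g * y⁻¹ ∈ H := Iff.rfl

theorem le_adj (H : Subgroup S) (y : S) (h1 h2 h3) : H ≤ adj H y h1 h2 h3 := fun _ h => Or.inl h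

theorem y_mem_adj (H : Subgroup S) (y : S) (h1 h2 h3) : y ∈ adj H y h1 h2 h3 :=
  Or.inr (by simp [H.one_mem])

theorem card_adj [Finite S] (H : Subgroup S) (y : S) (h1 h2 h3) (hy : y ∉ H) :
    Nat.card (adj H y h1 h2 h3) = 2 * Nat.card H := by
  classical
  have e1 : ((adj H y h1 h2 h3 : Subgroup S) : Set S) = (H : Set S) ∪ (fun g => g * y) '' (H : Set S) := by
    ext g
    simp only [SetLike.mem_coe, mem_adj, Set.mem_union, Set.mem_image]
    constructor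
    · rintro (h | h)
      · exact Or.inl h
      · exact Or.inr ⟨g * y⁻¹, h, by group⟩
    · rintro (h | ⟨k, hk, rfl⟩)
      · exact Or.inl h
      · exact Or.inr (by simpa using hk)
  have e2 : Disjoint (H : Set S) ((fun g => g * y) '' (H : Set S)) := by
    rw [Set.disjoint_left]
    rintro g hg ⟨k, hk, rfl⟩
    apply hy
    have := H.mul_mem (H.inv_mem hk) hg
    simpa using this
  rw [show Nat.card (adj H y h1 h2 h3) = ((adj H y h1 h2 h3 : Subgroup S) : Set S).ncard from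
    (Nat.card_coe_set_eq _), e1, Set.ncard_union_eq e2 (Set.toFinite _) (Set.toFinite _),
    Set.ncard_image_of_injective _ (mul_left_injective y),
    show (H : Set S).ncard = Nat.card H from (Nat.card_coe_set_eq _).symm]
  ring

/-! ### A section of rank five -/

theorem rank5 [Finite S] (hr : Cfsg.SectionalPRankLE 2 4 S) (R C : Subgroup S) (hCR : C ≤ R) (y : S)
    (h1 : ∀ g ∈ R, y * g * y⁻¹ ∈ R) (h2 : ∀ g ∈ R, y⁻¹ * g * y ∈ R) (hyR : y ∉ R) (hy2 : y ^ 2 ∈ C)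
    (hsq : ∀ r ∈ R, r ^ 2 ∈ C) (hcm : ∀ r ∈ R, ∀ s ∈ R, r * s * r⁻¹ * s⁻¹ ∈ C)
    (hy : ∀ r ∈ R, y * r * y⁻¹ * r⁻¹ ∈ C) (hcard : Nat.card R = 16 * Nat.card C) : False := by
  classical
  let H := adj R y h1 h2 (hCR hy2)
  have hRH : R ≤ H := le_adj _ _ _ _ _
  have hyH : y ∈ H := y_mem_adj _ _ _ _ _
  let N : Subgroup H := C.subgroupOf H
  have hcy : ∀ k ∈ C, y * k * y⁻¹ ∈ C := by
    intro k hk
    have := C.mul_mem (hy k (hCR hk)) hk
    have e : y * k * y⁻¹ * k⁻¹ * k = y * k * y⁻¹ := by group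
    rwa [e] at this
  have hcr : ∀ r ∈ R, ∀ k ∈ C, r * k * r⁻¹ ∈ C := by
    intro r hr k hk
    have := C.mul_mem (hcm r hr k (hCR hk)) hk
    have e : r * k * r⁻¹ * k⁻¹ * k = r * k * r⁻¹ := by group
    rwa [e] at this
  have hN : N.Normal := by
    constructor
    intro k hk g
    have hk' : (k : S) ∈ C := hk
    show ((g * k * g⁻¹ : H) : S) ∈ C
    rcases g.2 with hg | hg
    · exact hcr _ hg _ hk'
    · have := hcr _ hg _ (hcy _ hk')
      have e : (g : S) * y⁻¹ * (y * k * y⁻¹) * ((g : S) * y⁻¹)⁻¹ = g * k * (g : S)⁻¹ := by group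
      rw [e] at this
      simpa using this
  let π : H →* H ⧸ N := QuotientGroup.mk' N
  have hπ : ∀ a : H, (a : S) ∈ C → π a = 1 := by
    intro a ha
    exact (QuotientGroup.eq_one_iff a).mpr ha
  let yy : H := ⟨y, hyH⟩
  have hcomm : ∀ a b : H, (a : S) * b * (a : S)⁻¹ * (b : S)⁻¹ ∈ C → π a * π b = π b * π a := by
    intro a b h
    have h1 : π (a * b * a⁻¹ * b⁻¹) = 1 := hπ _ (by simpa using h)
    simp only [map_mul, map_inv] at h1
    have h2 : π a * π b * (π a)⁻¹ * (π b)⁻¹ = 1 := h1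
    calc π a * π b = π a * π b * (π a)⁻¹ * (π b)⁻¹ * (π b * π a) := by group
      _ = π b * π a := by rw [h2, one_mul]
  have hrep : ∀ q : H ⧸ N, ∃ r : H, (r : S) ∈ R ∧ (q = π r ∨ q = π r * π yy) := by
    intro q
    obtain ⟨g, rfl⟩ := QuotientGroup.mk'_surjective N q
    rcases g.2 with hg | hg
    · exact ⟨g, hg, Or.inl rfl⟩
    · refine ⟨⟨(g : S) * y⁻¹, hRH hg⟩, hg, Or.inr ?_⟩
      rw [← map_mul]
      congr 1
      ext
      simp [yy]
  have hRR : ∀ a b : H, (a : S) ∈ R → (b : S) ∈ R → π a * π b = π b * π a :=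
    fun a b ha hb => hcomm a b (hcm _ ha _ hb)
  have hyR' : ∀ a : H, (a : S) ∈ R → π yy * π a = π a * π yy :=
    fun a ha => hcomm yy a (hy _ ha)
  have hsq1 : ∀ a : H, (a : S) ∈ R → (π a) ^ 2 = 1 := by
    intro a ha
    rw [← map_pow]
    exact hπ _ (by simpa using hsq _ ha)
  have hsqy : (π yy) ^ 2 = 1 := by
    rw [← map_pow]
    exact hπ _ (by simpa [yy] using hy2)
  have hQc : ∀ p q : H ⧸ N, p * q = q * p := by
    intro p q
    obtain ⟨r, hr, hp⟩ := hrep p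
    obtain ⟨s, hs, hq⟩ := hrep q
    have e1 := hRR r s hr hs
    have e2 := hyR' r hr
    have e3 := hyR' s hs
    rcases hp with rfl | rfl <;> rcases hq with rfl | rfl
    · exact e1
    · rw [← mul_assoc, e1, mul_assoc, ← e2, mul_assoc]
    · rw [mul_assoc, e3, ← mul_assoc, e1, mul_assoc]
    · calc π r * π yy * (π s * π yy) = π r * (π yy * π s) * π yy := by group
        _ = π r * (π s * π yy) * π yy := by rw [e3]
        _ = (π r * π s) * π yy * π yy := by group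
        _ = (π s * π r) * π yy * π yy := by rw [e1]
        _ = π s * (π r * π yy) * π yy := by group
        _ = π s * (π yy * π r) * π yy := by rw [e2]
        _ = π s * π yy * (π r * π yy) := by group
  have hQs : ∀ p : H ⧸ N, p ^ 2 = 1 := by
    intro p
    obtain ⟨r, hr, hp⟩ := hrep p
    rcases hp with rfl | rfl
    · exact hsq1 r hr
    · have e2 := hyR' r hr
      calc (π r * π yy) ^ 2 = π r * (π yy * π r) * π yy := by simp only [pow_two, mul_assoc]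
        _ = π r * (π r * π yy) * π yy := by rw [e2]
        _ = (π r) ^ 2 * (π yy) ^ 2 := by simp only [pow_two, mul_assoc]
        _ = 1 := by rw [hsq1 r hr, hsqy, one_mul]
  -- the order of the quotient
  have hcardH : Nat.card H = 2 * Nat.card R := card_adj R y h1 h2 (hCR hy2) hyR
  have hcardN : Nat.card N = Nat.card C := by
    have hle : C ≤ H := hCR.trans hRH
    exact Nat.card_congr (Subgroup.subgroupOfEquivOfLe hle).toEquiv
  have hcardQ : Nat.card H = Nat.card (H ⧸ N) * Nat.card N := Subgroup.card_eq_card_quotient_mul_card_subgroup N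
  have hCpos : 0 < Nat.card C := Nat.card_pos
  have hQ32 : Nat.card (H ⧸ N) = 32 := by
    rw [hcardH, hcard, hcardN] at hcardQ
    exact (Nat.eq_of_mul_eq_mul_right hCpos (show 32 * Nat.card C = Nat.card (H ⧸ N) * Nat.card C by linarith)).symm
  have := hr H N (⊤ : Subgroup (H ⧸ N))
    ⟨⟨fun a b => Subtype.ext (hQc _ _)⟩⟩ (fun a _ => hQs a)
  rw [Subgroup.card_top, hQ32] at this
  norm_num at this

/-! ### Normalizers -/

theorem nz1 {V : Subgroup S} {y : S} (h : y ∈ Subgroup.normalizer (V : Set S)) {g : S} (hg : g ∈ V) :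
    y * g * y⁻¹ ∈ V := (Subgroup.mem_normalizer_iff.mp h g).mp hg

theorem nz2 {V : Subgroup S} {y : S} (h : y ∈ Subgroup.normalizer (V : Set S)) {g : S} (hg : g ∈ V) :
    y⁻¹ * g * y ∈ V := by
  have h' := (Subgroup.normalizer (V : Set S)).inv_mem h
  have := nz1 h' hg
  simpa using this

theorem nz_of_le [Finite S] {V : Subgroup S} {y : S} (h : ∀ g ∈ V, y * g * y⁻¹ ∈ V) :
    y ∈ Subgroup.normalizer (V : Set S) := by
  rw [Subgroup.mem_normalizer_iff_map_conj_eq]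
  have hle : V.map (MulAut.conj y).toMonoidHom ≤ V := by
    rintro _ ⟨g, hg, rfl⟩
    exact h g hg
  refine Subgroup.eq_of_le_of_card_ge hle ?_
  rw [Subgroup.card_map_of_injective (MulAut.conj y).injective]

theorem mem_map_conj {V : Subgroup S} {y g : S} :
    g ∈ V.map (MulAut.conj y).toMonoidHom ↔ y⁻¹ * g * y ∈ V := by
  constructor
  · rintro ⟨a, ha, rfl⟩
    have e : y⁻¹ * ((MulAut.conj y).toMonoidHom a) * y = a := by
      simp [MulAut.conj_apply]; group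
    rw [e]; exact ha
  · intro h
    refine ⟨_, h, ?_⟩
    simp [MulAut.conj_apply]; group

/-- Normalizers grow in finite 2-groups. -/
theorem exists_normalizing [Finite S] (h2 : IsPGroup 2 S) {Q M : Subgroup S} (hQM : Q ≤ M) (hne : Q ≠ M) :
    ∃ m ∈ M, m ∈ Subgroup.normalizer (Q : Set S) ∧ m ∉ Q := by
  have hM : IsPGroup 2 M := h2.to_subgroup M
  have : Group.IsNilpotent M := hM.isNilpotent
  have hnc := normalizerCondition_of_isNilpotent (G := M)
  have hlt : Q.subgroupOf M < ⊤ := by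
    rw [lt_top_iff_ne_top]
    intro h
    apply hne
    apply le_antisymm hQM
    intro m hm
    have : (⟨m, hm⟩ : M) ∈ Q.subgroupOf M := by rw [h]; trivial
    exact this
  have h3 := hnc _ hlt
  obtain ⟨⟨m, hm⟩, hm1, hm2⟩ := SetLike.exists_of_lt h3
  refine ⟨m, hm, ?_, fun h => hm2 h⟩
  rw [Subgroup.mem_normalizer_iff] at hm1
  apply nz_of_le
  intro q hq
  exact (hm1 ⟨q, hQM hq⟩).mp hq

namespace Coord

/-- normal elementary abelian subgroups of order 16 -/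
theorem classify [Finite S] (V : Subgroup S) (hVP : V ≤ P) (hN : ∀ g ∈ P, ∀ v ∈ V, g * v * g⁻¹ ∈ V)
    (hc : ∀ u ∈ V, ∀ v ∈ V, u * v = v * u) (hs : ∀ v ∈ V, v ^ 2 = 1) (hcard : Nat.card V = 16) :
    V = c.sA ∨ V = c.sB := by
  have key : ∀ v ∈ V, v ∈ c.sA ∨ v ∈ c.sB := by
    intro v hv
    obtain ⟨i, hi, rfl⟩ := c.surj v (hVP hv)
    have h1 : mt i i = 0 := by
      apply c.inj _ _ (mt_lt _ hi _ hi) (by norm_num)
      rw [c.hom _ _ hi hi, c.ι_zero, ← pow_two]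
      exact hs _ hv
    have h2 : ∀ h, h < 128 → mt i (cj h i) = mt (cj h i) i := by
      intro h hh
      have hl := Coord.cj_lt hh hi
      apply c.inj _ _ (mt_lt _ hi _ hl) (mt_lt _ hl _ hi)
      rw [c.hom _ _ hi hl, c.hom _ _ hl hi, c.ι_cj hh hi]
      exact hc _ hv _ (hN _ (c.mem h hh) _ hv)
    rcases closure_AB i hi ⟨h1, h2⟩ with h | h
    · exact Or.inl ⟨i, hi, h, rfl⟩
    · exact Or.inr ⟨i, hi, h, rfl⟩
  have hor : V ≤ c.sA ∨ V ≤ c.sB := by
    by_contra hcon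
    obtain ⟨h1, h2⟩ := not_or.mp hcon
    obtain ⟨a, ha, haA⟩ := SetLike.not_le_iff_exists.mp h1
    obtain ⟨b, hb, hbB⟩ := SetLike.not_le_iff_exists.mp h2
    have haB := (key a ha).resolve_left haA
    have hbA := (key b hb).resolve_right hbB
    rcases key (a * b) (V.mul_mem ha hb) with h | h
    · exact haA (by have := c.sA.mul_mem h (c.sA.inv_mem hbA); simpa using this)
    · exact hbB (by have := c.sB.mul_mem (c.sB.inv_mem haB) h; simpa using this)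
  rcases hor with h | h
  · left; exact Subgroup.eq_of_le_of_card_ge h (by rw [card_sA, hcard])
  · right; exact Subgroup.eq_of_le_of_card_ge h (by rw [card_sB, hcard])

theorem sA_normal {g a : S} (hg : g ∈ P) (ha : a ∈ c.sA) : g * a * g⁻¹ ∈ c.sA := by
  obtain ⟨h, hh, rfl⟩ := c.surj g hg
  obtain ⟨i, hi, hA, rfl⟩ := ha
  exact ⟨cj h i, Coord.cj_lt hh hi, A_norm h hh i hi hA, c.ι_cj hh hi⟩

theorem sB_normal {g a : S} (hg : g ∈ P) (ha : a ∈ c.sB) : g * a * g⁻¹ ∈ c.sB := by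
  obtain ⟨h, hh, rfl⟩ := c.surj g hg
  obtain ⟨i, hi, hA, rfl⟩ := ha
  exact ⟨cj h i, Coord.cj_lt hh hi, B_norm h hh i hi hA, c.ι_cj hh hi⟩

theorem sA_comm {a b : S} (ha : a ∈ c.sA) (hb : b ∈ c.sA) : a * b = b * a := by
  obtain ⟨i, hi, h1, rfl⟩ := ha
  obtain ⟨j, hj, h2, rfl⟩ := hb
  rw [← c.hom _ _ hi hj, ← c.hom _ _ hj hi, A_comm i hi h1 j hj h2]

theorem sB_comm {a b : S} (ha : a ∈ c.sB) (hb : b ∈ c.sB) : a * b = b * a := by
  obtain ⟨i, hi, h1, rfl⟩ := ha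
  obtain ⟨j, hj, h2, rfl⟩ := hb
  rw [← c.hom _ _ hi hj, ← c.hom _ _ hj hi, B_comm i hi h1 j hj h2]

theorem sA_sq {a : S} (ha : a ∈ c.sA) : a ^ 2 = 1 := by
  obtain ⟨i, hi, h1, rfl⟩ := ha
  rw [pow_two, ← c.hom _ _ hi hi, A_sq i hi h1, c.ι_zero]

theorem sB_sq {a : S} (ha : a ∈ c.sB) : a ^ 2 = 1 := by
  obtain ⟨i, hi, h1, rfl⟩ := ha
  rw [pow_two, ← c.hom _ _ hi hi, B_sq i hi h1, c.ι_zero]

/-- The conjugate under a normalizing element of a normal elementary subgroup of order 16. -/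
theorem conj_classify [Finite S] {y : S} (hy : y ∈ Subgroup.normalizer (P : Set S)) (V : Subgroup S)
    (hVP : V ≤ P) (hN : ∀ g ∈ P, ∀ v ∈ V, g * v * g⁻¹ ∈ V)
    (hc : ∀ u ∈ V, ∀ v ∈ V, u * v = v * u) (hs : ∀ v ∈ V, v ^ 2 = 1) (hcard : Nat.card V = 16) :
    V.map (MulAut.conj y).toMonoidHom = c.sA ∨ V.map (MulAut.conj y).toMonoidHom = c.sB := by
  apply c.classify
  · rintro _ ⟨a, ha, rfl⟩
    exact nz1 hy (hVP ha)
  · intro g hg v hv
    rw [mem_map_conj] at hv ⊢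
    have := hN _ (nz2 hy hg) _ hv
    have e : y⁻¹ * g * y * (y⁻¹ * v * y) * (y⁻¹ * g * y)⁻¹ = y⁻¹ * (g * v * g⁻¹) * y := by group
    rwa [e] at this
  · intro u hu v hv
    rw [mem_map_conj] at hu hv
    have := hc _ hu _ hv
    have e1 : y⁻¹ * u * y * (y⁻¹ * v * y) = y⁻¹ * (u * v) * y := by group
    have e2 : y⁻¹ * v * y * (y⁻¹ * u * y) = y⁻¹ * (v * u) * y := by group
    rw [e1, e2] at this
    exact mul_left_cancel (mul_right_cancel this)
  · intro v hv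
    rw [mem_map_conj] at hv
    have := hs _ hv
    have e : (y⁻¹ * v * y) ^ 2 = y⁻¹ * (v ^ 2) * y := by
      simp only [pow_two]; group
    rw [e] at this
    have h2 : v ^ 2 = y * (y⁻¹ * (v ^ 2) * y) * y⁻¹ := by group
    rw [h2, this]; group
  · rw [Subgroup.card_map_of_injective (MulAut.conj y).injective, hcard]

theorem sA_ne_sB : c.sA ≠ c.sB := by
  intro h
  have h1 : c.ι 1 ∈ c.sA := ⟨1, by norm_num, inA_1.1, rfl⟩
  rw [h] at h1
  obtain ⟨i, hi, h2, h3⟩ := h1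
  have := c.inj _ _ hi (by norm_num) h3
  subst this
  exact inA_1.2.1 h2

theorem conj_idx {y : S} (hy : y ∈ Subgroup.normalizer (P : Set S)) {i : ℕ} (hi : i < 128) :
    ∃ j, j < 128 ∧ y * c.ι i * y⁻¹ = c.ι j := by
  obtain ⟨j, h1, h2⟩ := c.surj _ (nz1 hy (c.mem i hi))
  exact ⟨j, h1, h2.symm⟩

theorem fix18 {y : S} (hy : y ∈ Subgroup.normalizer (P : Set S)) : y * c.ι 18 * y⁻¹ = c.ι 18 := by
  obtain ⟨j, hj, hj2⟩ := c.conj_idx hy (i := 18) (by norm_num)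
  have hz : ∀ h, h < 128 → mt j h = mt h j := by
    intro h hh
    apply c.inj _ _ (mt_lt _ hj _ hh) (mt_lt _ hh _ hj)
    rw [c.hom _ _ hj hh, c.hom _ _ hh hj, ← hj2]
    obtain ⟨h', hh', e⟩ := c.surj _ (nz2 hy (c.mem h hh))
    have e2 : c.ι h = y * c.ι h' * y⁻¹ := by rw [e]; group
    rw [e2]
    have hc := center_18 h' hh'
    have hc2 : c.ι 18 * c.ι h' = c.ι h' * c.ι 18 := by
      rw [← c.hom _ _ (by norm_num) hh', ← c.hom _ _ hh' (by norm_num), hc]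
    calc y * c.ι 18 * y⁻¹ * (y * c.ι h' * y⁻¹) = y * (c.ι 18 * c.ι h') * y⁻¹ := by group
      _ = y * (c.ι h' * c.ι 18) * y⁻¹ := by rw [hc2]
      _ = y * c.ι h' * y⁻¹ * (y * c.ι 18 * y⁻¹) := by group
  rcases center_eq j hj hz with h | h
  · subst h
    rw [c.ι_zero] at hj2
    have : c.ι 18 = 1 := by
      have e : c.ι 18 = y⁻¹ * (y * c.ι 18 * y⁻¹) * y := by group
      rw [e, hj2]; group
    rw [← c.ι_zero] at this
    have := c.inj _ _ (by norm_num) (by norm_num) this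
    norm_num at this
  · subst h; exact hj2

theorem conj_cm {y : S} {a a' b b' d : ℕ} (ha : a < 128) (hb : b < 128) (ha' : a' < 128) (hb' : b' < 128)
    (hd : d < 128) (h1 : y * c.ι a * y⁻¹ = c.ι a') (h2 : y * c.ι b * y⁻¹ = c.ι b')
    (h3 : y * c.ι (cm a b) * y⁻¹ = c.ι d) : cm a' b' = d := by
  apply c.inj _ _ (Coord.cm_lt ha' hb') hd
  rw [c.ι_cm ha' hb', ← h1, ← h2, ← h3, c.ι_cm ha hb]
  group

theorem sC_central {r k : S} (hr : r ∈ c.sR) (hk : k ∈ c.sC) : r * k = k * r := by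
  obtain ⟨i, hi, h1, rfl⟩ := hr
  obtain ⟨j, hj, h2, rfl⟩ := hk
  rw [← c.hom _ _ hi hj, ← c.hom _ _ hj hi, R_C_comm i h1 j hj h2]

theorem sC_le_sR : c.sC ≤ c.sR := by
  rintro _ ⟨i, hi, h1, rfl⟩
  exact ⟨i, hi, C_lt i hi h1, rfl⟩

/-- The key lemma: an element normalizing `P` and `A`, centralizing `z₁`, gives a section of rank 5. -/
theorem K' [Finite S] (hr : Cfsg.SectionalPRankLE 2 4 S) {y : S}
    (hyP : y ∈ Subgroup.normalizer (P : Set S)) (hyA : y ∈ Subgroup.normalizer (c.sA : Set S))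
    (hyB : y ∈ Subgroup.normalizer (c.sB : Set S)) (hP : y ∉ P) (hy2 : y ^ 2 ∈ P)
    (hz2 : y * c.ι 2 * y⁻¹ = c.ι 2) : False := by
  have h18 := c.fix18 hyP
  have hm := misc
  have h16 : y * c.ι 16 * y⁻¹ = c.ι 16 := by
    have e : c.ι 16 = c.ι 18 * c.ι 2 := by
      rw [← c.hom _ _ (by norm_num) (by norm_num), hm.2.2.2.1]
    rw [e]
    calc y * (c.ι 18 * c.ι 2) * y⁻¹ = y * c.ι 18 * y⁻¹ * (y * c.ι 2 * y⁻¹) := by group
      _ = c.ι 18 * c.ι 2 := by rw [h18, hz2]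
  have hfixC : ∀ k ∈ c.sC, y * k * y⁻¹ = k := by
    rintro _ ⟨i, hi, h1, rfl⟩
    rcases C_elts i hi h1 with rfl | rfl | rfl | rfl
    · rw [c.ι_zero]; group
    · exact hz2
    · exact h16
    · exact h18
  have hsqC : ∀ k ∈ c.sC, k * k = 1 := by
    rintro _ ⟨i, hi, h1, rfl⟩
    rw [← c.hom _ _ hi hi, C_sq i hi h1, c.ι_zero]
  -- images of the generators
  have idxA : ∀ i, i < 128 → inA i → ∃ j, j < 128 ∧ inA j ∧ y * c.ι i * y⁻¹ = c.ι j := by
    intro i hi h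
    obtain ⟨j, hj, h1, h2⟩ := nz1 hyA (show c.ι i ∈ c.sA from ⟨i, hi, h, rfl⟩)
    exact ⟨j, hj, h1, h2.symm⟩
  have idxB : ∀ i, i < 128 → inB i → ∃ j, j < 128 ∧ inB j ∧ y * c.ι i * y⁻¹ = c.ι j := by
    intro i hi h
    obtain ⟨j, hj, h1, h2⟩ := nz1 hyB (show c.ι i ∈ c.sB from ⟨i, hi, h, rfl⟩)
    exact ⟨j, hj, h1, h2.symm⟩
  have hi1 := inA_1
  obtain ⟨u₁, hu₁, hu₁A, e1⟩ := idxA 1 (by norm_num) hi1.1
  obtain ⟨u₂, hu₂, hu₂A, e2⟩ := idxA 8 (by norm_num) hi1.2.2.1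
  obtain ⟨v₁, hv₁, hv₁B, e3⟩ := idxB 4 (by norm_num) hi1.2.2.2.1
  obtain ⟨v₂, hv₂, hv₂B, e4⟩ := idxB 32 (by norm_num) hi1.2.2.2.2.2.1
  have hcm1 : cm u₁ v₁ = 2 := c.conj_cm (by norm_num) (by norm_num) hu₁ hv₁ (by norm_num) e1 e3
    (by rw [hm.2.2.2.2.2.2.1]; exact hz2)
  have hcm2 : cm u₁ v₂ = 0 := c.conj_cm (by norm_num) (by norm_num) hu₁ hv₂ (by norm_num) e1 e4
    (by rw [hm.2.2.2.2.2.2.2.1, c.ι_zero]; group)
  have hcm3 : cm u₂ v₁ = 0 := c.conj_cm (by norm_num) (by norm_num) hu₂ hv₁ (by norm_num) e2 e3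
    (by rw [hm.2.2.2.2.2.2.2.2.1, c.ι_zero]; group)
  have hcm4 : cm u₂ v₂ = 16 := c.conj_cm (by norm_num) (by norm_num) hu₂ hv₂ (by norm_num) e2 e4
    (by rw [hm.2.2.2.2.2.2.2.2.2.1]; exact h16)
  obtain ⟨p1, p2, p3, p4⟩ := pairing u₁ hu₁ hu₁A v₁ hv₁ hv₁B hcm1 v₂ hv₂ hv₂B hcm2 u₂ hu₂ hu₂A ⟨hcm3, hcm4⟩
  -- the deviation from the identity on `R`
  have devgen : ∀ g u, g < 128 → u < 128 → y * c.ι g * y⁻¹ = c.ι u → inC (mt u (inv g)) →
      y * c.ι g * y⁻¹ * (c.ι g)⁻¹ ∈ c.sC := by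
    intro g u hg hu e h
    refine ⟨_, mt_lt _ hu _ (inv_lt g hg), h, ?_⟩
    rw [c.hom _ _ hu (inv_lt g hg), c.ι_inv hg, e]
  have Q1 := devgen 1 u₁ (by norm_num) hu₁ e1 (dev_a1 u₁ hu₁ ⟨p1, hu₁A⟩)
  have Q8 := devgen 8 u₂ (by norm_num) hu₂ e2 (dev_a2 u₂ hu₂ ⟨p2, hu₂A⟩)
  have Q4 := devgen 4 v₁ (by norm_num) hv₁ e3 (dev_b1 v₁ hv₁ ⟨p3, hv₁B⟩)
  have Q32 := devgen 32 v₂ (by norm_num) hv₂ e4 (dev_b2 v₂ hv₂ ⟨p4, hv₂B⟩)
  have Q2 : y * c.ι 2 * y⁻¹ * (c.ι 2)⁻¹ ∈ c.sC := by rw [hz2]; simp [c.sC.one_mem]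
  have Q16 : y * c.ι 16 * y⁻¹ * (c.ι 16)⁻¹ ∈ c.sC := by rw [h16]; simp [c.sC.one_mem]
  have Qmul : ∀ a b, a ∈ c.sR → y * a * y⁻¹ * a⁻¹ ∈ c.sC → y * b * y⁻¹ * b⁻¹ ∈ c.sC →
      y * (a * b) * y⁻¹ * (a * b)⁻¹ ∈ c.sC := by
    intro a b ha h1 h2
    have hcomm : (y * b * y⁻¹ * b⁻¹) * a⁻¹ = a⁻¹ * (y * b * y⁻¹ * b⁻¹) :=
      (c.sC_central (c.sR.inv_mem ha) h2).symm
    have e' : y * (a * b) * y⁻¹ * (a * b)⁻¹ = (y * a * y⁻¹ * a⁻¹) * (y * b * y⁻¹ * b⁻¹) := by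
      calc y * (a * b) * y⁻¹ * (a * b)⁻¹ = (y * a * y⁻¹) * ((y * b * y⁻¹ * b⁻¹) * a⁻¹) := by group
        _ = (y * a * y⁻¹) * (a⁻¹ * (y * b * y⁻¹ * b⁻¹)) := by rw [hcomm]
        _ = (y * a * y⁻¹ * a⁻¹) * (y * b * y⁻¹ * b⁻¹) := by group
    rw [e']
    exact c.sC.mul_mem h1 h2
  have Qall : ∀ i, i < 64 → y * c.ι i * y⁻¹ * (c.ι i)⁻¹ ∈ c.sC := by
    intro i
    induction i using Nat.strong_induction_on with
    | _ i ih =>
      intro hi
      rcases R_gen i hi with rfl | ⟨j, hj, hgen⟩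
      · rw [c.ι_zero]; simp [c.sC.one_mem]
      · have hj64 : j < 64 := hj.trans hi
        have hj128 : j < 128 := by omega
        have hjR : c.ι j ∈ c.sR := ⟨j, hj128, hj64, rfl⟩
        have step : ∀ g, g < 128 → y * c.ι g * y⁻¹ * (c.ι g)⁻¹ ∈ c.sC → i = mt j g →
            y * c.ι i * y⁻¹ * (c.ι i)⁻¹ ∈ c.sC := by
          intro g hg hQ e
          rw [e, c.hom _ _ hj128 hg]
          exact Qmul _ _ hjR (ih j hj hj64) hQ
        rcases hgen with e | e | e | e | e | e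
        · exact step 1 (by norm_num) Q1 e
        · exact step 2 (by norm_num) Q2 e
        · exact step 4 (by norm_num) Q4 e
        · exact step 8 (by norm_num) Q8 e
        · exact step 16 (by norm_num) Q16 e
        · exact step 32 (by norm_num) Q32 e
  have hRdev : ∀ r ∈ c.sR, y * r * y⁻¹ * r⁻¹ ∈ c.sC := by
    rintro _ ⟨i, _, h1, rfl⟩
    exact Qall i h1
  -- the square of `y`
  obtain ⟨k, hk, ek⟩ := c.surj _ hy2
  have hsq_gen : ∀ g, g < 64 → c.ι k * c.ι g = c.ι g * c.ι k := by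
    intro g hg
    have hd := Qall g hg
    have e5 : y * c.ι g * y⁻¹ = (y * c.ι g * y⁻¹ * (c.ι g)⁻¹) * c.ι g := by group
    set d := y * c.ι g * y⁻¹ * (c.ι g)⁻¹ with hd'
    have e6 : y ^ 2 * c.ι g * (y ^ 2)⁻¹ = c.ι g := by
      have e7 : y ^ 2 * c.ι g * (y ^ 2)⁻¹ = y * (y * c.ι g * y⁻¹) * y⁻¹ := by
        simp only [pow_two]; group
      rw [e7, e5]
      have e8 : y * (d * c.ι g) * y⁻¹ = (y * d * y⁻¹) * (y * c.ι g * y⁻¹) := by group
      rw [e8, hfixC d hd, e5]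
      rw [← mul_assoc, hsqC d hd, one_mul]
    rw [ek]
    calc y ^ 2 * c.ι g = (y ^ 2 * c.ι g * (y ^ 2)⁻¹) * y ^ 2 := by group
      _ = c.ι g * y ^ 2 := by rw [e6]
  have hkC : inC k := by
    apply comm_to_C k hk
    refine ⟨?_, ?_, ?_, ?_⟩
    · apply c.inj _ _ (mt_lt _ hk _ (by norm_num)) (mt_lt _ (by norm_num) _ hk)
      rw [c.hom _ _ hk (by norm_num), c.hom _ _ (by norm_num) hk]; exact hsq_gen 1 (by norm_num)
    · apply c.inj _ _ (mt_lt _ hk _ (by norm_num)) (mt_lt _ (by norm_num) _ hk)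
      rw [c.hom _ _ hk (by norm_num), c.hom _ _ (by norm_num) hk]; exact hsq_gen 4 (by norm_num)
    · apply c.inj _ _ (mt_lt _ hk _ (by norm_num)) (mt_lt _ (by norm_num) _ hk)
      rw [c.hom _ _ hk (by norm_num), c.hom _ _ (by norm_num) hk]; exact hsq_gen 8 (by norm_num)
    · apply c.inj _ _ (mt_lt _ hk _ (by norm_num)) (mt_lt _ (by norm_num) _ hk)
      rw [c.hom _ _ hk (by norm_num), c.hom _ _ (by norm_num) hk]; exact hsq_gen 32 (by norm_num)
  have hy2C : y ^ 2 ∈ c.sC := ⟨k, hk, hkC, ek⟩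
  -- apply the rank lemma
  have hRnorm1 : ∀ g ∈ c.sR, y * g * y⁻¹ ∈ c.sR := by
    intro g hg
    have := c.sR.mul_mem (c.sC_le_sR (hRdev g hg)) hg
    simpa using this
  refine rank5 hr c.sR c.sC c.sC_le_sR y hRnorm1 (fun g hg => nz2 (nz_of_le hRnorm1) hg)
    (fun h => hP (c.sR_le h)) hy2C ?_ ?_ hRdev ?_
  · rintro _ ⟨i, hi, h1, rfl⟩
    exact ⟨_, mt_lt _ hi _ hi, R_sq i h1, by rw [c.hom _ _ hi hi, pow_two]⟩
  · rintro _ ⟨i, hi, h1, rfl⟩ _ ⟨j, hj, h2, rfl⟩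
    exact ⟨_, Coord.cm_lt hi hj, R_cm i h1 j h2, c.ι_cm hi hj⟩
  · rw [c.card_sR, c.card_sC]

theorem ι64_nzA : c.ι 64 ∈ Subgroup.normalizer (c.sA : Set S) := by
  rw [Subgroup.mem_normalizer_iff]
  intro h
  have hm := c.mem 64 (by norm_num)
  constructor
  · exact fun ha => c.sA_normal hm ha
  · intro ha
    have := c.sA_normal (P.inv_mem hm) ha
    simpa [mul_assoc] using this

theorem ι64_nzB : c.ι 64 ∈ Subgroup.normalizer (c.sB : Set S) := by
  rw [Subgroup.mem_normalizer_iff]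
  intro h
  have hm := c.mem 64 (by norm_num)
  constructor
  · exact fun ha => c.sB_normal hm ha
  · intro ha
    have := c.sB_normal (P.inv_mem hm) ha
    simpa [mul_assoc] using this

theorem mem_nz_P {g : S} (hg : g ∈ P) : g ∈ Subgroup.normalizer (P : Set S) := by
  rw [Subgroup.mem_normalizer_iff]
  intro h
  constructor
  · exact fun ha => P.mul_mem (P.mul_mem hg ha) (P.inv_mem hg)
  · intro ha
    have := P.mul_mem (P.mul_mem (P.inv_mem hg) ha) hg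
    simpa [mul_assoc] using this

theorem conjA [Finite S] {y : S} (hy : y ∈ Subgroup.normalizer (P : Set S)) :
    c.sA.map (MulAut.conj y).toMonoidHom = c.sA ∨ c.sA.map (MulAut.conj y).toMonoidHom = c.sB :=
  c.conj_classify hy c.sA c.sA_le (fun _ hg _ hv => c.sA_normal hg hv)
    (fun _ hu _ hv => c.sA_comm hu hv) (fun _ hv => c.sA_sq hv) c.card_sA

theorem conjB [Finite S] {y : S} (hy : y ∈ Subgroup.normalizer (P : Set S)) :
    c.sB.map (MulAut.conj y).toMonoidHom = c.sA ∨ c.sB.map (MulAut.conj y).toMonoidHom = c.sB :=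
  c.conj_classify hy c.sB c.sB_le (fun _ hg _ hv => c.sB_normal hg hv)
    (fun _ hu _ hv => c.sB_comm hu hv) (fun _ hv => c.sB_sq hv) c.card_sB

theorem map_conj_inj {y : S} {U V : Subgroup S}
    (h : U.map (MulAut.conj y).toMonoidHom = V.map (MulAut.conj y).toMonoidHom) : U = V :=
  Subgroup.map_injective (MulAut.conj y).injective h

/-- Every element normalizing `P` permutes `{A, B}`; in particular it preserves `A ∩ B`. -/
theorem conj_ι2 [Finite S] {y : S} (hy : y ∈ Subgroup.normalizer (P : Set S)) :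
    y * c.ι 2 * y⁻¹ = c.ι 2 ∨ y * c.ι 2 * y⁻¹ = c.ι 16 := by
  have hi := inA_1
  have h2A : c.ι 2 ∈ c.sA := ⟨2, by norm_num, hi.2.2.2.2.2.2.1, rfl⟩
  have h2B : c.ι 2 ∈ c.sB := ⟨2, by norm_num, hi.2.2.2.2.2.2.2.1, rfl⟩
  have mA : ∀ V : Subgroup S, c.ι 2 ∈ V → y * c.ι 2 * y⁻¹ ∈ V.map (MulAut.conj y).toMonoidHom := by
    intro V hV
    exact ⟨_, hV, rfl⟩
  have h1 := mA _ h2A
  have h2 := mA _ h2B
  have hboth : y * c.ι 2 * y⁻¹ ∈ c.sA ∧ y * c.ι 2 * y⁻¹ ∈ c.sB := by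
    rcases c.conjA hy with ha | ha <;> rcases c.conjB hy with hb | hb
    · exact absurd (map_conj_inj (ha.trans hb.symm)) c.sA_ne_sB
    · rw [ha] at h1; rw [hb] at h2; exact ⟨h1, h2⟩
    · rw [ha] at h1; rw [hb] at h2; exact ⟨h2, h1⟩
    · exact absurd (map_conj_inj (ha.trans hb.symm)) c.sA_ne_sB
  obtain ⟨⟨u, hu, huA, e⟩, ⟨u', hu', huB, e'⟩⟩ := hboth
  have huu : u = u' := c.inj _ _ hu hu' (e.trans e'.symm)
  subst huu
  have hC := AB_C u hu huA huB
  rcases C_elts u hu hC with rfl | rfl | rfl | rfl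
  · exfalso
    rw [c.ι_zero] at e
    have : c.ι 2 = 1 := by
      have e2 : c.ι 2 = y⁻¹ * (y * c.ι 2 * y⁻¹) * y := by group
      rw [e2, ← e]; group
    rw [← c.ι_zero] at this
    have := c.inj _ _ (by norm_num) (by norm_num) this
    norm_num at this
  · exact Or.inl e.symm
  · exact Or.inr e.symm
  · exfalso
    have h18 := c.fix18 hy
    have : c.ι 2 = c.ι 18 := by
      have e3 : y * c.ι 2 * y⁻¹ = y * c.ι 18 * y⁻¹ := by rw [h18]; exact e.symm
      exact mul_left_cancel (mul_right_cancel e3)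
    have := c.inj _ _ (by norm_num) (by norm_num) this
    norm_num at this

/-- Replacing `y` by `y` times the swap we may assume `y` centralizes `z₁`. -/
theorem adjust [Finite S] {y : S} (hy : y ∈ Subgroup.normalizer (P : Set S)) :
    y * c.ι 2 * y⁻¹ = c.ι 2 ∨
      (y * c.ι 64) * c.ι 2 * (y * c.ι 64)⁻¹ = c.ι 2 := by
  rcases c.conj_ι2 hy with h | h
  · exact Or.inl h
  · refine Or.inr ?_
    have hm := misc
    have e1 : c.ι 64 * c.ι 2 * (c.ι 64)⁻¹ = c.ι 16 := by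
      rw [← c.ι_cj (by norm_num) (by norm_num), hm.2.2.2.2.2.2.2.2.2.2.2.2.2.2.2.2.2.2.1]
    have e2 : c.ι 16 = c.ι 18 * c.ι 2 := by
      rw [← c.hom _ _ (by norm_num) (by norm_num), hm.2.2.2.1]
    calc (y * c.ι 64) * c.ι 2 * (y * c.ι 64)⁻¹ = y * (c.ι 64 * c.ι 2 * (c.ι 64)⁻¹) * y⁻¹ := by group
      _ = y * (c.ι 18 * c.ι 2) * y⁻¹ := by rw [e1, e2]
      _ = (y * c.ι 18 * y⁻¹) * (y * c.ι 2 * y⁻¹) := by group
      _ = c.ι 18 * c.ι 16 := by rw [c.fix18 hy, h]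
      _ = c.ι 2 := by rw [← c.hom _ _ (by norm_num) (by norm_num), hm.2.2.2.2.1]

theorem K [Finite S] (hr : Cfsg.SectionalPRankLE 2 4 S) {y : S}
    (hyP : y ∈ Subgroup.normalizer (P : Set S)) (hyA : y ∈ Subgroup.normalizer (c.sA : Set S))
    (hP : y ∉ P) (hy2 : y ^ 2 ∈ P) : False := by
  have hyB : y ∈ Subgroup.normalizer (c.sB : Set S) := by
    rw [Subgroup.mem_normalizer_iff_map_conj_eq] at hyA ⊢
    rcases c.conjB hyP with h | h
    · exact absurd (map_conj_inj (hyA.trans h.symm)) c.sA_ne_sB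
    · exact h
  have hm64 := c.mem 64 (by norm_num)
  rcases c.adjust hyP with h | h
  · exact c.K' hr hyP hyA hyB hP hy2 h
  · refine c.K' hr (y := y * c.ι 64) (Subgroup.mul_mem _ hyP (Coord.mem_nz_P hm64))
      (Subgroup.mul_mem _ hyA c.ι64_nzA) (Subgroup.mul_mem _ hyB c.ι64_nzB) ?_ ?_ h
    · intro hc
      apply hP
      have := P.mul_mem hc (P.inv_mem hm64)
      simpa using this
    · have e : (y * c.ι 64) ^ 2 = (y * c.ι 64 * y⁻¹) * y ^ 2 * c.ι 64 := by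
        simp only [pow_two]; group
      rw [e]
      exact P.mul_mem (P.mul_mem (nz1 hyP hm64) hy2) hm64

/-- An element normalizing `P` and `A` lies in `P`. -/
theorem K2 [Finite S] (h2 : IsPGroup 2 S) (hr : Cfsg.SectionalPRankLE 2 4 S) {x : S}
    (hxP : x ∈ Subgroup.normalizer (P : Set S)) (hxA : x ∈ Subgroup.normalizer (c.sA : Set S)) : x ∈ P := by
  by_contra hx
  obtain ⟨k, hk⟩ := h2 x
  have hex : ∃ m, ¬ x ^ (2 ^ m) ∈ P ∧ x ^ (2 ^ (m + 1)) ∈ P := by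
    have hn : x ^ (2 ^ k) ∈ P := by rw [hk]; exact P.one_mem
    clear hk
    induction k with
    | zero => exact absurd (by simpa using hn) hx
    | succ n ih =>
      by_cases h : x ^ (2 ^ n) ∈ P
      · exact ih h
      · exact ⟨n, h, hn⟩
  obtain ⟨m, hm1, hm2⟩ := hex
  refine c.K hr (y := x ^ (2 ^ m)) (Subgroup.pow_mem _ hxP _) (Subgroup.pow_mem _ hxA _) hm1 ?_
  rw [← pow_mul, ← pow_succ]
  exact hm2

theorem swap [Finite S] (h2 : IsPGroup 2 S) (hr : Cfsg.SectionalPRankLE 2 4 S) {x : S}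
    (hxP : x ∈ Subgroup.normalizer (P : Set S)) (hx : x ∉ P) :
    c.sA.map (MulAut.conj x).toMonoidHom = c.sB ∧ c.sB.map (MulAut.conj x).toMonoidHom = c.sA := by
  have h1 : c.sA.map (MulAut.conj x).toMonoidHom = c.sB := by
    rcases c.conjA hxP with h | h
    · exfalso
      exact hx (c.K2 h2 hr hxP (Subgroup.mem_normalizer_iff_map_conj_eq.mpr h))
    · exact h
  refine ⟨h1, ?_⟩
  rcases c.conjB hxP with h | h
  · exact h
  · exact absurd (map_conj_inj (h1.trans h.symm)) c.sA_ne_sB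

theorem swapA [Finite S] (h2 : IsPGroup 2 S) (hr : Cfsg.SectionalPRankLE 2 4 S) {x : S}
    (hxP : x ∈ Subgroup.normalizer (P : Set S)) (hx : x ∉ P) {a : S} (ha : a ∈ c.sA) :
    x * a * x⁻¹ ∈ c.sB := by
  rw [← (c.swap h2 hr hxP hx).1]
  exact ⟨a, ha, rfl⟩

theorem swapB [Finite S] (h2 : IsPGroup 2 S) (hr : Cfsg.SectionalPRankLE 2 4 S) {x : S}
    (hxP : x ∈ Subgroup.normalizer (P : Set S)) (hx : x ∉ P) {a : S} (ha : a ∈ c.sB) :
    x * a * x⁻¹ ∈ c.sA := by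
  rw [← (c.swap h2 hr hxP hx).2]
  exact ⟨a, ha, rfl⟩

/-- Two elements outside `P` differ by an element of `P`. -/
theorem mul_mem_of_not_mem (c : Coord P) [Finite S] (h2 : IsPGroup 2 S) (hr : Cfsg.SectionalPRankLE 2 4 S) {a b : S}
    (ha : a ∈ Subgroup.normalizer (P : Set S)) (hb : b ∈ Subgroup.normalizer (P : Set S))
    (haP : a ∉ P) (hbP : b ∉ P) : a * b ∈ P := by
  apply c.K2 h2 hr (Subgroup.mul_mem _ ha hb)
  apply nz_of_le
  intro g hg
  have := c.swapB h2 hr ha haP (c.swapA h2 hr hb hbP hg)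
  have e : a * (b * g * b⁻¹) * a⁻¹ = a * b * g * (a * b)⁻¹ := by group
  rwa [e] at this

/-- elements of `P` which are central in the whole group -/
theorem center_le_P (c : Coord P) [Finite S] (h2 : IsPGroup 2 S) (hr : Cfsg.SectionalPRankLE 2 4 S) :
    Subgroup.center S ≤ P := by
  intro g hg
  have hcomm : ∀ h : S, g * h * g⁻¹ = h := by
    intro h
    rw [(Subgroup.mem_center_iff.mp hg h).symm]; group
  apply c.K2 h2 hr
  · exact nz_of_le (fun h hh => by rw [hcomm]; exact hh)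
  · exact nz_of_le (fun h hh => by rw [hcomm]; exact hh)

theorem center_P_elts {g : S} (hg : g ∈ P) (hc : ∀ h ∈ P, g * h = h * g) : g = 1 ∨ g = c.ι 18 := by
  obtain ⟨i, hi, rfl⟩ := c.surj g hg
  have : ∀ h, h < 128 → mt i h = mt h i := by
    intro h hh
    apply c.inj _ _ (mt_lt _ hi _ hh) (mt_lt _ hh _ hi)
    rw [c.hom _ _ hi hh, c.hom _ _ hh hi]
    exact hc _ (c.mem h hh)
  rcases center_eq i hi this with rfl | rfl
  · exact Or.inl c.ι_zero
  · exact Or.inr rfl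

theorem ι18_ne_one : c.ι 18 ≠ 1 := by
  intro h
  rw [← c.ι_zero] at h
  have := c.inj _ _ (by norm_num) (by norm_num) h
  norm_num at this

theorem ι18_central_P {h : S} (hh : h ∈ P) : c.ι 18 * h = h * c.ι 18 := by
  obtain ⟨i, hi, rfl⟩ := c.surj h hh
  rw [← c.hom _ _ (by norm_num) hi, ← c.hom _ _ hi (by norm_num), center_18 i hi]

theorem ι18_mem_center [Finite S] (h2 : IsPGroup 2 S) (hr : Cfsg.SectionalPRankLE 2 4 S) :
    c.ι 18 ∈ Subgroup.center S := by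
  have : Nontrivial S := ⟨⟨c.ι 18, 1, c.ι18_ne_one⟩⟩
  have := h2.center_nontrivial
  obtain ⟨z, hz, hz1⟩ := Subgroup.exists_ne_one_of_nontrivial (Subgroup.center S) 
  have hzP := c.center_le_P h2 hr hz
  rcases c.center_P_elts hzP (fun h _ => (Subgroup.mem_center_iff.mp hz h).symm) with h | h
  · exact absurd h hz1
  · rw [← h]; exact hz

theorem mem_center_iff [Finite S] (h2 : IsPGroup 2 S) (hr : Cfsg.SectionalPRankLE 2 4 S) {g : S} :
    g ∈ Subgroup.center S ↔ g = 1 ∨ g = c.ι 18 := by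
  constructor
  · intro hg
    exact c.center_P_elts (c.center_le_P h2 hr hg) (fun h _ => (Subgroup.mem_center_iff.mp hg h).symm)
  · rintro (rfl | rfl)
    · exact Subgroup.one_mem _
    · exact c.ι18_mem_center h2 hr

theorem center_eq_map (c : Coord P) [Finite S] (h2 : IsPGroup 2 S) (hr : Cfsg.SectionalPRankLE 2 4 S) :
    Subgroup.center S = (Subgroup.center ↥P).map P.subtype := by
  ext g
  constructor
  · intro hg
    have hP := c.center_le_P h2 hr hg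
    refine ⟨⟨g, hP⟩, ?_, rfl⟩
    show (⟨g, hP⟩ : ↥P) ∈ Subgroup.center ↥P
    rw [Subgroup.mem_center_iff]
    rintro ⟨h, hh⟩
    exact Subtype.ext ((Subgroup.mem_center_iff.mp hg h))
  · rintro ⟨⟨p, hp⟩, hpc, rfl⟩
    rw [c.mem_center_iff h2 hr]
    apply c.center_P_elts hp
    intro h hh
    have hpc' : (⟨p, hp⟩ : ↥P) ∈ Subgroup.center ↥P := hpc
    have := Subgroup.mem_center_iff.mp hpc' ⟨h, hh⟩
    exact (congrArg Subtype.val this).symm

theorem card_center (c : Coord P) [Finite S] (h2 : IsPGroup 2 S) (hr : Cfsg.SectionalPRankLE 2 4 S) :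
    Nat.card (Subgroup.center S) = 2 := by
  classical
  have e : ((Subgroup.center S : Subgroup S) : Set S) = {1, c.ι 18} := by
    ext g
    simp only [SetLike.mem_coe, Set.mem_insert_iff, Set.mem_singleton_iff]
    exact c.mem_center_iff h2 hr
  rw [show Nat.card (Subgroup.center S) = ((Subgroup.center S : Subgroup S) : Set S).ncard from
    (Nat.card_coe_set_eq _), e, Set.ncard_pair (c.ι18_ne_one).symm]

theorem fixC [Finite S] {y : S} (hy : y ∈ Subgroup.normalizer (P : Set S)) (hz2 : y * c.ι 2 * y⁻¹ = c.ι 2) :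
    ∀ k ∈ c.sC, y * k * y⁻¹ = k := by
  have h18 := c.fix18 hy
  have hm := misc
  have h16 : y * c.ι 16 * y⁻¹ = c.ι 16 := by
    have e : c.ι 16 = c.ι 18 * c.ι 2 := by
      rw [← c.hom _ _ (by norm_num) (by norm_num), hm.2.2.2.1]
    rw [e]
    calc y * (c.ι 18 * c.ι 2) * y⁻¹ = y * c.ι 18 * y⁻¹ * (y * c.ι 2 * y⁻¹) := by group
      _ = c.ι 18 * c.ι 2 := by rw [h18, hz2]
  rintro _ ⟨i, hi, h1, rfl⟩
  rcases C_elts i hi h1 with rfl | rfl | rfl | rfl
  · rw [c.ι_zero]; group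
  · exact hz2
  · exact h16
  · exact h18

/-- The subgroup of index 8 in the normalizer. -/
theorem exists_W [Finite S] (h2 : IsPGroup 2 S) (hr : Cfsg.SectionalPRankLE 2 4 S) {x : S}
    (hxP : x ∈ Subgroup.normalizer (P : Set S)) (hx : x ∉ P) :
    ∃ W : Subgroup S, W ≤ Subgroup.normalizer (P : Set S) ∧ Nat.card W = 32 ∧ c.ι 18 ∈ W ∧
      ∀ g ∈ W, g ∈ P → g ∈ c.sW := by
  have hm := misc
  have hi1 := inA_1
  have hm64 := c.mem 64 (by norm_num)
  -- first adjustment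
  obtain ⟨y₀, hy₀N, hy₀P, hy₀2⟩ : ∃ y₀ ∈ Subgroup.normalizer (P : Set S), y₀ ∉ P ∧ y₀ * c.ι 2 * y₀⁻¹ = c.ι 2 := by
    rcases c.adjust hxP with h | h
    · exact ⟨x, hxP, hx, h⟩
    · refine ⟨x * c.ι 64, Subgroup.mul_mem _ hxP (Coord.mem_nz_P hm64), ?_, h⟩
      intro hc
      apply hx
      have := P.mul_mem hc (P.inv_mem hm64)
      simpa using this
  have hfC := c.fixC hy₀N hy₀2
  have idxAB : ∀ i, i < 128 → inA i → ∃ j, j < 128 ∧ inB j ∧ y₀ * c.ι i * y₀⁻¹ = c.ι j := by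
    intro i hi h
    obtain ⟨j, hj, h1, h2'⟩ := c.swapA h2 hr hy₀N hy₀P (show c.ι i ∈ c.sA from ⟨i, hi, h, rfl⟩)
    exact ⟨j, hj, h1, h2'.symm⟩
  have idxBA : ∀ i, i < 128 → inB i → ∃ j, j < 128 ∧ inA j ∧ y₀ * c.ι i * y₀⁻¹ = c.ι j := by
    intro i hi h
    obtain ⟨j, hj, h1, h2'⟩ := c.swapB h2 hr hy₀N hy₀P (show c.ι i ∈ c.sB from ⟨i, hi, h, rfl⟩)
    exact ⟨j, hj, h1, h2'.symm⟩
  obtain ⟨u₁, hu₁, hu₁B, e1⟩ := idxAB 1 (by norm_num) hi1.1
  obtain ⟨u₂, hu₂, hu₂B, e2⟩ := idxAB 8 (by norm_num) hi1.2.2.1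
  obtain ⟨v₁, hv₁, hv₁A, e3⟩ := idxBA 4 (by norm_num) hi1.2.2.2.1
  obtain ⟨v₂, hv₂, hv₂A, e4⟩ := idxBA 32 (by norm_num) hi1.2.2.2.2.2.1
  have h16 : y₀ * c.ι 16 * y₀⁻¹ = c.ι 16 := hfC _ ⟨16, by norm_num, hi1.2.2.2.2.2.2.2.2.2.1, rfl⟩
  have hcm1 : cm v₁ u₁ = 2 := c.conj_cm (a := 4) (b := 1) (by norm_num) (by norm_num) hv₁ hu₁ (by norm_num) e3 e1
    (by rw [hm.2.2.2.2.2.2.2.2.2.2.1]; exact hy₀2)
  have hcm2 : cm v₁ u₂ = 0 := c.conj_cm (a := 4) (b := 8) (by norm_num) (by norm_num) hv₁ hu₂ (by norm_num) e3 e2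
    (by rw [hm.2.2.2.2.2.2.2.2.2.2.2.1, c.ι_zero]; group)
  have hcm3 : cm v₂ u₁ = 0 := c.conj_cm (a := 32) (b := 1) (by norm_num) (by norm_num) hv₂ hu₁ (by norm_num) e4 e1
    (by rw [hm.2.2.2.2.2.2.2.2.2.2.2.2.1, c.ι_zero]; group)
  have hcm4 : cm v₂ u₂ = 16 := c.conj_cm (a := 32) (b := 8) (by norm_num) (by norm_num) hv₂ hu₂ (by norm_num) e4 e2
    (by rw [hm.2.2.2.2.2.2.2.2.2.2.2.2.2.1]; exact h16)
  obtain ⟨p1, p2, p3, p4⟩ := pairing v₁ hv₁ hv₁A u₁ hu₁ hu₁B hcm1 u₂ hu₂ hu₂B hcm2 v₂ hv₂ hv₂A ⟨hcm3, hcm4⟩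
  -- second adjustment
  obtain ⟨hr64, hU₁, hU₂, hV₁, hV₂⟩ := norm_fact u₁ hu₁ ⟨p3, hu₁B⟩ u₂ hu₂ ⟨p4, hu₂B⟩ v₁ hv₁ ⟨p1, hv₁A⟩ v₂ hv₂ ⟨p2, hv₂A⟩
  set r := rOf u₁ u₂ v₁ v₂ with hrdef
  have hr128 : r < 128 := by omega
  obtain ⟨hC1, hC8, hC4, hC32⟩ := R_comm_C r hr64
  have hrP := c.mem r hr128
  let y := y₀ * c.ι r
  have hyN : y ∈ Subgroup.normalizer (P : Set S) := Subgroup.mul_mem _ hy₀N (Coord.mem_nz_P hrP)
  have hyP : y ∉ P := by
    intro hc
    apply hy₀P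
    have := P.mul_mem hc (P.inv_mem hrP)
    simpa [y] using this
  have conj_y : ∀ g u, g < 128 → u < 128 → inC (cm r g) → y₀ * c.ι g * y₀⁻¹ = c.ι u →
      y * c.ι g * y⁻¹ = c.ι (mt (cm r g) u) := by
    intro g u hg hu hC e
    have hcl := Coord.cm_lt hr128 hg
    have e5 : c.ι r * c.ι g * (c.ι r)⁻¹ = c.ι (cm r g) * c.ι g := by
      rw [c.ι_cm hr128 hg]; group
    have e6 := hfC (c.ι (cm r g)) ⟨_, hcl, hC, rfl⟩
    rw [c.hom _ _ hcl hu]
    simp only [y]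
    calc y₀ * c.ι r * c.ι g * (y₀ * c.ι r)⁻¹ = y₀ * (c.ι r * c.ι g * (c.ι r)⁻¹) * y₀⁻¹ := by group
      _ = y₀ * (c.ι (cm r g) * c.ι g) * y₀⁻¹ := by rw [e5]
      _ = (y₀ * c.ι (cm r g) * y₀⁻¹) * (y₀ * c.ι g * y₀⁻¹) := by group
      _ = c.ι (cm r g) * c.ι u := by rw [e6, e]
  have E1 := conj_y 1 u₁ (by norm_num) hu₁ hC1 e1
  have E8 := conj_y 8 u₂ (by norm_num) hu₂ hC8 e2
  have E4 := conj_y 4 v₁ (by norm_num) hv₁ hC4 e3
  have E32 := conj_y 32 v₂ (by norm_num) hv₂ hC32 e4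
  set U₁ := mt (cm r 1) u₁ with hU₁def
  set U₂ := mt (cm r 8) u₂ with hU₂def
  set V₁ := mt (cm r 4) v₁ with hV₁def
  set V₂ := mt (cm r 32) v₂ with hV₂def
  have hyz : y * c.ι 18 * y⁻¹ = c.ι 18 := c.fix18 hyN
  -- the image of the swap
  obtain ⟨t, ht, et⟩ := c.conj_idx hyN (i := 64) (by norm_num)
  have hU₁lt : U₁ < 128 := by rcases hU₁ with h | h <;> omega
  have hU₂lt : U₂ < 128 := by rcases hU₂ with h | h <;> omega
  have hV₁lt : V₁ < 128 := by rcases hV₁ with h | h <;> omega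
  have hV₂lt : V₂ < 128 := by rcases hV₂ with h | h <;> omega
  have conj_rel : ∀ a b A B, a < 128 → b < 128 → A < 128 → B < 128 → cj 64 a = b →
      y * c.ι a * y⁻¹ = c.ι A → y * c.ι b * y⁻¹ = c.ι B → cj t A = B := by
    intro a b A B ha hb hA hB h e f
    apply c.inj _ _ (Coord.cj_lt ht hA) hB
    rw [c.ι_cj ht hA, ← et, ← e, ← f, ← h, c.ι_cj (by norm_num) ha]
    group
  have ht2 : mt t t = 0 := by
    apply c.inj _ _ (mt_lt _ ht _ ht) (by norm_num)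
    rw [c.hom _ _ ht ht, ← et, c.ι_zero]
    have e7 : c.ι 64 * c.ι 64 = 1 := by
      rw [← c.hom _ _ (by norm_num) (by norm_num), misc2.1, c.ι_zero]
    calc y * c.ι 64 * y⁻¹ * (y * c.ι 64 * y⁻¹) = y * (c.ι 64 * c.ι 64) * y⁻¹ := by group
      _ = 1 := by rw [e7]; group
  have htt : t = 64 ∨ t = 82 := t_fact t ht ht2 U₁ hU₁ U₂ hU₂ V₁ hV₁ V₂ hV₂
    (conj_rel 1 8 _ _ (by norm_num) (by norm_num) hU₁lt hU₂lt hm.2.2.2.2.2.2.2.2.2.2.2.2.2.2.1 E1 E8)
    (conj_rel 8 1 _ _ (by norm_num) (by norm_num) hU₂lt hU₁lt hm.2.2.2.2.2.2.2.2.2.2.2.2.2.2.2.1 E8 E1)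
    (conj_rel 4 32 _ _ (by norm_num) (by norm_num) hV₁lt hV₂lt hm.2.2.2.2.2.2.2.2.2.2.2.2.2.2.2.2.1 E4 E32)
    (conj_rel 32 4 _ _ (by norm_num) (by norm_num) hV₂lt hV₁lt hm.2.2.2.2.2.2.2.2.2.2.2.2.2.2.2.2.2.1 E32 E4)
  -- the square of `y`
  have hy2P : y ^ 2 ∈ P := by
    rw [pow_two]; exact c.mul_mem_of_not_mem h2 hr hyN hyN hyP hyP
  obtain ⟨k, hk, ek⟩ := c.surj _ hy2P
  have stp : ∀ g A B, g < 128 → B < 128 → y * c.ι g * y⁻¹ = c.ι A → y * c.ι A * y⁻¹ = c.ι B → cj k g = B := by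
    intro g A B hg hB e f
    apply c.inj _ _ (Coord.cj_lt hk hg) hB
    rw [c.ι_cj hk hg, ek, ← f, ← e]
    simp only [pow_two]; group
  have img18 : ∀ g A, g < 128 → A < 128 → y * c.ι g * y⁻¹ = c.ι A →
      y * c.ι (mt g 18) * y⁻¹ = c.ι (mt A 18) := by
    intro g A hg hA e
    rw [c.hom _ _ hg (by norm_num), c.hom _ _ hA (by norm_num), ← e]
    calc y * (c.ι g * c.ι 18) * y⁻¹ = (y * c.ι g * y⁻¹) * (y * c.ι 18 * y⁻¹) := by group
      _ = y * c.ι g * y⁻¹ * c.ι 18 := by rw [hyz]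
  have c1 : cj k 1 = 1 ∨ cj k 1 = 19 := by
    rcases hU₁ with h | h
    · rw [stp 1 U₁ V₁ (by norm_num) hV₁lt E1 (by rw [h]; exact E4)]; exact hV₁
    · rw [stp 1 U₁ (mt V₁ 18) (by norm_num) (mt_lt _ hV₁lt _ (by norm_num)) E1
        (by rw [h, ← hm.2.2.2.2.2.2.2.2.2.2.2.2.2.2.2.2.2.2.2.2.1]; exact img18 4 V₁ (by norm_num) hV₁lt E4)]
      exact U_fact V₁ hV₁
  have c8 : cj k 8 = 8 ∨ cj k 8 = 26 := by
    rcases hU₂ with h | h
    · rw [stp 8 U₂ V₂ (by norm_num) hV₂lt E8 (by rw [h]; exact E32)]; exact hV₂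
    · rw [stp 8 U₂ (mt V₂ 18) (by norm_num) (mt_lt _ hV₂lt _ (by norm_num)) E8
        (by rw [h, ← hm.2.2.2.2.2.2.2.2.2.2.2.2.2.2.2.2.2.2.2.2.2.1]; exact img18 32 V₂ (by norm_num) hV₂lt E32)]
      exact U_fact8 V₂ hV₂
  have c4 : cj k 4 = 4 ∨ cj k 4 = 22 := by
    rcases hV₁ with h | h
    · rw [stp 4 V₁ U₁ (by norm_num) hU₁lt E4 (by rw [h]; exact E1)]; exact hU₁
    · rw [stp 4 V₁ (mt U₁ 18) (by norm_num) (mt_lt _ hU₁lt _ (by norm_num)) E4
        (by rw [h, ← hm.2.2.2.2.2.2.2.2.2.2.2.2.2.2.2.2.2.2.2.2.2.2.1]; exact img18 1 U₁ (by norm_num) hU₁lt E1)]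
      exact U_fact4 U₁ hU₁
  have c32 : cj k 32 = 32 ∨ cj k 32 = 50 := by
    rcases hV₂ with h | h
    · rw [stp 32 V₂ U₂ (by norm_num) hU₂lt E32 (by rw [h]; exact E8)]; exact hU₂
    · rw [stp 32 V₂ (mt U₂ 18) (by norm_num) (mt_lt _ hU₂lt _ (by norm_num)) E32
        (by rw [h, ← hm.2.2.2.2.2.2.2.2.2.2.2.2.2.2.2.2.2.2.2.2.2.2.2.1]; exact img18 8 U₂ (by norm_num) hU₂lt E8)]
      exact U_fact32 U₂ hU₂
  have c64 : cj k 64 = 64 := by
    rcases htt with h | h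
    · subst h
      exact stp 64 64 64 (by norm_num) (by norm_num) et et
    · subst h
      refine stp 64 82 64 (by norm_num) (by norm_num) et ?_
      have := img18 64 82 (by norm_num) (by norm_num) et
      rwa [hm.2.2.2.2.2.2.2.2.2.2.2.2.2.2.2.2.2.2.2.2.2.2.2.2.1,
        hm.2.2.2.2.2.2.2.2.2.2.2.2.2.2.2.2.2.2.2.2.2.2.2.2.2.1] at this
  have hk018 : k = 0 ∨ k = 18 := w_fact k hk ⟨c1, c8, c4, c32, c64⟩
  -- `y` normalizes `W₀`
  have hι18W : c.ι 18 ∈ c.sW := ⟨18, by norm_num, by decide +kernel, rfl⟩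
  have hW18 : y * c.ι 18 * y⁻¹ ∈ c.sW := by rw [hyz]; exact hι18W
  have hW9 : y * c.ι 9 * y⁻¹ ∈ c.sW := by
    refine ⟨mt U₁ U₂, mt_lt _ hU₁lt _ hU₂lt, W_tr _ hU₁ _ hU₂, ?_⟩
    rw [c.hom _ _ hU₁lt hU₂lt, ← E1, ← E8, ← hm.1, c.hom _ _ (by norm_num) (by norm_num)]
    group
  have hW36 : y * c.ι 36 * y⁻¹ ∈ c.sW := by
    refine ⟨mt V₁ V₂, mt_lt _ hV₁lt _ hV₂lt, W_tr' _ hV₁ _ hV₂, ?_⟩
    rw [c.hom _ _ hV₁lt hV₂lt, ← E4, ← E32, ← hm.2.1, c.hom _ _ (by norm_num) (by norm_num)]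
    group
  have hW64 : y * c.ι 64 * y⁻¹ ∈ c.sW := by
    rw [et]
    refine ⟨t, ht, ?_, rfl⟩
    rcases htt with rfl | rfl <;> decide +kernel
  have hWall : ∀ i, i < 128 → inW i → y * c.ι i * y⁻¹ ∈ c.sW := by
    intro i
    induction i using Nat.strong_induction_on with
    | _ i ih =>
      intro hi hWi
      rcases W_gen i hi hWi with rfl | ⟨j, hj, hjW, hgen⟩
      · rw [c.ι_zero]; simp [c.sW.one_mem]
      · have hj128 : j < 128 := by omega
        have hjimg := ih j hj hj128 hjW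
        have step : ∀ g, g < 128 → y * c.ι g * y⁻¹ ∈ c.sW → i = mt j g → y * c.ι i * y⁻¹ ∈ c.sW := by
          intro g hg hQ e
          rw [e, c.hom _ _ hj128 hg]
          have := c.sW.mul_mem hjimg hQ
          have e' : y * c.ι j * y⁻¹ * (y * c.ι g * y⁻¹) = y * (c.ι j * c.ι g) * y⁻¹ := by group
          rwa [e'] at this
        rcases hgen with e | e | e | e
        · exact step 18 (by norm_num) hW18 e
        · exact step 9 (by norm_num) hW9 e
        · exact step 36 (by norm_num) hW36 e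
        · exact step 64 (by norm_num) hW64 e
  have hnzW : y ∈ Subgroup.normalizer (c.sW : Set S) := by
    apply nz_of_le
    rintro _ ⟨i, hi, h1, rfl⟩
    exact hWall i hi h1
  have hy2W : y ^ 2 ∈ c.sW := by
    rw [← ek]
    refine ⟨k, hk, ?_, rfl⟩
    rcases hk018 with rfl | rfl <;> decide +kernel
  have hyW : y ∉ c.sW := fun h => hyP (c.sW_le h)
  refine ⟨adj c.sW y (fun g hg => nz1 hnzW hg) (fun g hg => nz2 hnzW hg) hy2W, ?_, ?_, ?_, ?_⟩
  · intro g hg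
    rcases hg with hg | hg
    · exact Coord.mem_nz_P (c.sW_le hg)
    · have := Subgroup.mul_mem _ (Coord.mem_nz_P (c.sW_le hg)) hyN
      simpa using this
  · rw [card_adj _ _ _ _ _ hyW, c.card_sW]
  · exact Or.inl hι18W
  · intro g hg hgP
    rcases hg with hg | hg
    · exact hg
    · exfalso
      apply hyP
      have := P.mul_mem (P.inv_mem (c.sW_le hg)) hgP
      simpa using this

theorem exists_outside [Finite S] (h2 : IsPGroup 2 S) (hne : P ≠ ⊤) :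
    ∃ x ∈ Subgroup.normalizer (P : Set S), x ∉ P := by
  obtain ⟨m, _, h1, h3⟩ := exists_normalizing h2 (le_top : P ≤ ⊤) hne
  exact ⟨m, h1, h3⟩

theorem P_le_N : P ≤ Subgroup.normalizer (P : Set S) := fun _ hg => Coord.mem_nz_P hg

theorem relIndex_two (c : Coord P) [Finite S] (h2 : IsPGroup 2 S) (hr : Cfsg.SectionalPRankLE 2 4 S)
    (hne : P ≠ ⊤) : P.relIndex (Subgroup.normalizer (P : Set S)) = 2 := by
  obtain ⟨x, hxN, hx⟩ := exists_outside h2 hne
  rw [Subgroup.relIndex, Subgroup.index_eq_two_iff]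
  refine ⟨⟨x, hxN⟩, ?_⟩
  rintro ⟨b, hb⟩
  by_cases hbP : b ∈ P
  · refine Or.inr ⟨hbP, ?_⟩
    intro hc
    apply hx
    have h3 : b * x ∈ P := hc
    have := P.mul_mem (P.inv_mem hbP) h3
    simpa using this
  · exact Or.inl ⟨c.mul_mem_of_not_mem h2 hr hb hxN hbP hx, hbP⟩

theorem card_N (c : Coord P) [Finite S] (h2 : IsPGroup 2 S) (hr : Cfsg.SectionalPRankLE 2 4 S)
    (hne : P ≠ ⊤) : Nat.card (Subgroup.normalizer (P : Set S)) = 256 := by
  have h1 := Subgroup.card_mul_index (P.subgroupOf (Subgroup.normalizer (P : Set S)))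
  have h3 : (P.subgroupOf (Subgroup.normalizer (P : Set S))).index = 2 := c.relIndex_two h2 hr hne
  have h4 : Nat.card (P.subgroupOf (Subgroup.normalizer (P : Set S))) = Nat.card P :=
    Nat.card_congr (Subgroup.subgroupOfEquivOfLe P_le_N).toEquiv
  rw [h3, h4, c.card_P] at h1
  omega

theorem card_perm8_fact : (Nat.card (Equiv.Perm (Fin 8))).factorization 2 = 7 := by
  have h : Nat.card (Equiv.Perm (Fin 8)) = 2 ^ 7 * 315 := by
    rw [Nat.card_eq_fintype_card, Fintype.card_perm, Fintype.card_fin]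
    rfl
  rw [h, Nat.factorization_mul (by norm_num) (by norm_num), Nat.Prime.factorization_pow Nat.prime_two]
  have h315 : (315 : ℕ).factorization 2 = 0 :=
    Nat.factorization_eq_zero_of_not_dvd (by norm_num)
  simp [h315]

/-- A subgroup of order 128 of the symmetric group on eight points is a Sylow subgroup. -/
def sylowOfCard (H : Subgroup (Equiv.Perm (Fin 8))) (h : Nat.card H = 128) : Sylow 2 (Equiv.Perm (Fin 8)) :=
  Sylow.ofCard H (by rw [h, card_perm8_fact]; norm_num)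

theorem quot_iso (c : Coord P) [Finite S] (h2 : IsPGroup 2 S) (hr : Cfsg.SectionalPRankLE 2 4 S)
    (hne : P ≠ ⊤) :
    ∃ (_ : ((Subgroup.center S).subgroupOf (Subgroup.normalizer (P : Set S))).Normal)
      (T : Sylow 2 (Equiv.Perm (Fin 8))),
      Nonempty (↥(Subgroup.normalizer (P : Set S)) ⧸
          (Subgroup.center S).subgroupOf (Subgroup.normalizer (P : Set S)) ≃*
        ↥(T : Subgroup (Equiv.Perm (Fin 8)))) := by
  classical
  obtain ⟨x, hxN, hx⟩ := exists_outside h2 hne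
  obtain ⟨W, hWN, hW32, hW18, hWP⟩ := c.exists_W h2 hr hxN hx
  set N := Subgroup.normalizer (P : Set S) with hNdef
  have hcardN : Nat.card N = 256 := c.card_N h2 hr hne
  let Wq : Subgroup N := W.subgroupOf N
  have hWq : Nat.card Wq = 32 := by
    rw [← hW32]
    exact Nat.card_congr (Subgroup.subgroupOfEquivOfLe hWN).toEquiv
  have hquot : Nat.card (N ⧸ Wq) = 8 := by
    have := Subgroup.card_eq_card_quotient_mul_card_subgroup Wq
    rw [hcardN, hWq] at this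
    omega
  have hmemι : ∀ i, i < 128 → c.ι i ∈ N := fun i hi => P_le_N (c.mem i hi)
  -- the normal core
  have coreP : ∀ g : N, g ∈ Wq.normalCore → (g : S) ∈ P → (g : S) = 1 ∨ (g : S) = c.ι 18 := by
    rintro g hg hgP
    obtain ⟨i, hi, hgi⟩ := c.surj _ hgP
    have hall : ∀ a, a < 128 → inW (cj a i) := by
      intro a ha
      have hconj := hg ⟨c.ι a, hmemι a ha⟩
      have h1 : c.ι a * (g : S) * (c.ι a)⁻¹ ∈ W := hconj
      have h3 : c.ι a * (g : S) * (c.ι a)⁻¹ ∈ P :=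
        P.mul_mem (P.mul_mem (c.mem a ha) hgP) (P.inv_mem (c.mem a ha))
      obtain ⟨j, hj, hjW, ej⟩ := hWP _ h1 h3
      rw [← hgi, ← c.ι_cj ha hi] at ej
      rwa [← c.inj _ _ hj (Coord.cj_lt ha hi) ej]
    have hW0 : inW i := by
      have := hall 0 (by norm_num)
      have e : cj 0 i = i := by
        unfold cj
        rw [zero_mt i hi]
        have h0 : inv 0 = 0 := by decide +kernel
        rw [h0, mt_zero i hi]
      rwa [e] at this
    rcases W_core i hi hW0 hall with rfl | rfl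
    · exact Or.inl (by rw [← hgi, c.ι_zero])
    · exact Or.inr hgi.symm
  have hcore : Wq.normalCore = (Subgroup.center S).subgroupOf N := by
    ext g
    constructor
    · intro hg
      show (g : S) ∈ Subgroup.center S
      rw [c.mem_center_iff h2 hr]
      by_cases hgP : (g : S) ∈ P
      · exact coreP g hg hgP
      · exfalso
        let b : N := ⟨c.ι 1, hmemι 1 (by norm_num)⟩
        have hg2 : g * (b * g⁻¹ * b⁻¹) ∈ Wq.normalCore :=
          Subgroup.mul_mem _ hg ((Subgroup.normalCore_normal Wq).conj_mem _ (Subgroup.inv_mem _ hg) b)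
        have e1 : ((g * (b * g⁻¹ * b⁻¹) : N) : S) = (g : S) * c.ι 1 * (g : S)⁻¹ * (c.ι 1)⁻¹ := by
          simp [b, mul_assoc]
        have h1P := c.mem 1 (by norm_num)
        have h3 : ((g * (b * g⁻¹ * b⁻¹) : N) : S) ∈ P := by
          rw [e1]
          exact P.mul_mem (nz1 g.2 h1P) (P.inv_mem h1P)
        have h4 := coreP _ hg2 h3
        have h5 : (g : S) * c.ι 1 * (g : S)⁻¹ ∈ c.sB :=
          c.swapA h2 hr g.2 hgP (show c.ι 1 ∈ c.sA from ⟨1, by norm_num, inA_1.1, rfl⟩)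
        obtain ⟨j, hj, hjB, ej⟩ := h5
        rw [e1] at h4
        rcases h4 with h4 | h4
        · have : c.ι j = c.ι 1 := by rw [ej]; exact mul_inv_eq_one.mp h4
          rw [c.inj _ _ hj (by norm_num) this] at hjB
          exact not_B.1 hjB
        · have : c.ι j = c.ι 19 := by
            rw [ej, mul_inv_eq_iff_eq_mul.mp h4, ← c.hom _ _ (by norm_num) (by norm_num), misc2.2]
          rw [c.inj _ _ hj (by norm_num) this] at hjB
          exact not_B.2 hjB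
    · intro hg b
      have hg' : (g : S) ∈ Subgroup.center S := hg
      show ((b * g * b⁻¹ : N) : S) ∈ W
      have e : ((b * g * b⁻¹ : N) : S) = (g : S) := by
        have := Subgroup.mem_center_iff.mp hg' (b : S)
        push_cast
        rw [this]; group
      rw [e]
      rcases (c.mem_center_iff h2 hr).mp hg' with h | h
      · rw [h]; exact W.one_mem
      · rw [h]; exact hW18
  let e : (N ⧸ Wq) ≃ Fin 8 := Finite.equivFinOfCardEq hquot
  let F : N →* Equiv.Perm (Fin 8) := (e.permCongrHom).toMonoidHom.comp (MulAction.toPermHom N (N ⧸ Wq))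
  have hFker : F.ker = (Subgroup.center S).subgroupOf N := by
    have h3 : F.ker = (MulAction.toPermHom N (N ⧸ Wq)).ker :=
      MonoidHom.ker_mulEquiv_comp _ e.permCongrHom
    rw [h3, ← Subgroup.normalCore_eq_ker, hcore]
  have hZN : Nat.card ((Subgroup.center S).subgroupOf N) = 2 := by
    rw [← c.card_center h2 hr]
    have hle : Subgroup.center S ≤ N := fun g hg => P_le_N (c.center_le_P h2 hr hg)
    exact Nat.card_congr (Subgroup.subgroupOfEquivOfLe hle).toEquiv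
  have hrange : Nat.card F.range = 128 := by
    have h3 := Subgroup.card_eq_card_quotient_mul_card_subgroup F.ker
    rw [Nat.card_congr (QuotientGroup.quotientKerEquivRange F).toEquiv, hcardN, hFker, hZN] at h3
    omega
  have hnormal : ((Subgroup.center S).subgroupOf N).Normal := inferInstance
  refine ⟨hnormal, sylowOfCard F.range hrange, ⟨?_⟩⟩
  exact (QuotientGroup.quotientMulEquivOfEq hFker.symm).trans (QuotientGroup.quotientKerEquivRange F)

/-- Normal elementary abelian subgroups of order 16 are self-normalizing up to `P`. -/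
theorem normalizer_V (c : Coord P) [Finite S] (h2 : IsPGroup 2 S) (hr : Cfsg.SectionalPRankLE 2 4 S)
    (V : Subgroup S) (hVP : V ≤ P) (hN : ∀ g ∈ P, ∀ v ∈ V, g * v * g⁻¹ ∈ V)
    (hE : Cfsg.IsElementaryAbelian 2 V) (hcard : Nat.card V = 16) :
    Subgroup.normalizer (V : Set S) = P := by
  have hcomm : ∀ u ∈ V, ∀ v ∈ V, u * v = v * u := by
    intro u hu v hv
    have := hE.1.is_comm.comm ⟨u, hu⟩ ⟨v, hv⟩
    exact congrArg Subtype.val this
  have hcl := c.classify V hVP hN hcomm (fun v hv => hE.2 v hv) hcard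
  have hPV : P ≤ Subgroup.normalizer (V : Set S) := fun g hg => nz_of_le (fun v hv => hN g hg v hv)
  by_contra hne
  obtain ⟨m, hm, hm1, hm2⟩ := exists_normalizing h2 hPV (Ne.symm hne)
  rcases hcl with rfl | rfl
  · exact hm2 (c.K2 h2 hr hm1 hm)
  · obtain ⟨h3, _⟩ := c.swap h2 hr hm1 hm2
    have h4 : (c.sB).map (MulAut.conj m).toMonoidHom = c.sB :=
      Subgroup.mem_normalizer_iff_map_conj_eq.mp hm
    have h5 := (c.swap h2 hr hm1 hm2).2
    rw [h4] at h5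
    exact c.sA_ne_sB h5.symm

end Coord

end Cfsg.Agent.Lib.Wr128
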