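import Mathlib

/-!
# Stabilizers of points as maximal subgroups, from tables

Generic lemmas for permutation actions given by a homomorphism into `Equiv.Perm`:
a stabilizer is a coatom as soon as the orbit has no subset sums of classes dividing its size,
the count of an orbit of sets, and the comparison of two groups acting on the same labels.
-/

set_option autoImplicit false
set_option linter.style.haveILetI false
set_option linter.unusedSectionVars false
set_option linter.deprecated false
set_option warn.classDefReducibility false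

namespace Cfsg.Agent.Lib.XPrimGen

open Equiv

variable {Γ : Type*} [Group Γ] {α : Type*}

/-- The stabilizer of a point under a homomorphism into the permutations. -/
def stb (ψ : Γ →* Perm α) (y : α) : Subgroup Γ where
  carrier := {g | ψ g y = y}
  one_mem' := by simp
  mul_mem' := by
    intro a b ha hb
    simp only [Set.mem_setOf_eq] at ha hb ⊢
    rw [map_mul, Perm.mul_apply, hb, ha]
  inv_mem' := by
    intro a ha
    simp only [Set.mem_setOf_eq] at ha ⊢
    rw [map_inv, Perm.inv_eq_iff_eq]
    exact ha.symm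

lemma mem_stb {ψ : Γ →* Perm α} {y : α} {g : Γ} : g ∈ stb ψ y ↔ ψ g y = y := Iff.rfl

/-- The index of the stabilizer in a subgroup is the size of the orbit of the subgroup. -/
lemma relIndex_stb (ψ : Γ →* Perm α) (y : α) (K : Subgroup Γ) (D : Finset α)
    (h1 : ∀ k ∈ K, ψ k y ∈ D) (h2 : ∀ z ∈ D, ∃ k ∈ K, ψ k y = z) :
    (stb ψ y).relIndex K = D.card := by
  classical
  letI : MulAction K α := MulAction.compHom α (ψ.comp K.subtype)
  have hs : (stb ψ y).subgroupOf K = MulAction.stabilizer K y := by
    ext k
    rfl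
  have ho : MulAction.orbit K y = (D : Set α) := by
    ext z
    constructor
    · rintro ⟨k, rfl⟩
      exact h1 k.1 k.2
    · intro hz
      obtain ⟨k, hk, rfl⟩ := h2 z hz
      exact ⟨⟨k, hk⟩, rfl⟩
  rw [Subgroup.relIndex, hs, MulAction.index_stabilizer, ho, Set.ncard_coe_finset]

/-- The main criterion: a stabilizer is maximal if the sizes of the classes do not allow blocks. -/
theorem coatom_stb [Finite Γ] [DecidableEq α] (ψ : Γ →* Perm α) (y : α) (O : Finset α)
    (hO : ∀ g, ψ g y ∈ O) (hO' : ∀ z ∈ O, ∃ g, ψ g y = z) (r : ℕ) (col : α → ℕ) (sz : ℕ → ℕ)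
    (hcol : ∀ p ∈ O, col p < r) (hy : col y = 0)
    (hsz : ∀ c, c < r → (O.filter fun p => col p = c).card = sz c)
    (hsums : ∀ S ∈ (Finset.range r).powerset, 0 ∈ S →
      (∑ c ∈ S, sz c) ∣ O.card → (∑ c ∈ S, sz c) = 1 ∨ (∑ c ∈ S, sz c) = O.card)
    (hconn : ∀ p ∈ O, ∀ q ∈ O, col p = col q → ∃ u, ψ u y = y ∧ ψ u p = q)
    (hne : 1 < O.card) : IsCoatom (stb ψ y) := by
  classical
  have htop : (stb ψ y).index = O.card := by
    rw [← Subgroup.relIndex_top_right]
    exact relIndex_stb ψ y ⊤ O (fun k _ => hO k) (fun z hz => by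
      obtain ⟨g, rfl⟩ := hO' z hz
      exact ⟨g, trivial, rfl⟩)
  have hyO : y ∈ O := by
    have := hO 1
    simpa using this
  constructor
  · intro h
    rw [h, Subgroup.index_top] at htop
    omega
  · intro M hM
    have hle : stb ψ y ≤ M := hM.le
    set D : Finset α := O.filter fun z => ∃ m ∈ M, ψ m y = z with hD
    have hDmem : ∀ z, z ∈ D ↔ ∃ m ∈ M, ψ m y = z := by
      intro z
      rw [hD, Finset.mem_filter]
      constructor
      · exact fun h => h.2
      · rintro ⟨m, hm, rfl⟩
        exact ⟨hO m, m, hm, rfl⟩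
    have hD1 : (stb ψ y).relIndex M = D.card :=
      relIndex_stb ψ y M D (fun k hk => (hDmem _).2 ⟨k, hk, rfl⟩)
        (fun z hz => (hDmem z).1 hz)
    have hmul : D.card * M.index = O.card := by
      rw [← hD1, ← htop, ← Subgroup.relIndex_top_right, ← Subgroup.relIndex_top_right]
      exact Subgroup.relIndex_mul_relIndex _ _ _ hle le_top
    have hyD : y ∈ D := (hDmem y).2 ⟨1, M.one_mem, by simp⟩
    -- the set is a union of classes
    set C : Finset ℕ := D.image col with hC
    have hcard : D.card = ∑ c ∈ C, sz c := by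
      rw [Finset.card_eq_sum_card_image col D]
      apply Finset.sum_congr rfl
      intro c hc
      obtain ⟨p, hp, rfl⟩ := Finset.mem_image.mp hc
      have hpO : p ∈ O := (Finset.mem_filter.mp hp).1
      rw [← hsz _ (hcol p hpO)]
      congr 1
      ext q
      simp only [Finset.mem_filter]
      constructor
      · rintro ⟨hq, hqc⟩
        exact ⟨(Finset.mem_filter.mp hq).1, hqc⟩
      · rintro ⟨hq, hqc⟩
        refine ⟨?_, hqc⟩
        obtain ⟨u, hu1, hu2⟩ := hconn p hpO q hq hqc.symm
        obtain ⟨m, hm, hm2⟩ := (hDmem p).1 hp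
        refine (hDmem q).2 ⟨u * m, M.mul_mem (hle hu1) hm, ?_⟩
        rw [map_mul, Perm.mul_apply, hm2, hu2]
    have hCS : C ∈ (Finset.range r).powerset := by
      rw [Finset.mem_powerset]
      intro c hc
      obtain ⟨p, hp, rfl⟩ := Finset.mem_image.mp hc
      exact Finset.mem_range.mpr (hcol p (Finset.mem_filter.mp hp).1)
    have h0C : 0 ∈ C := Finset.mem_image.mpr ⟨y, hyD, hy⟩
    have hdvd : (∑ c ∈ C, sz c) ∣ O.card := by
      rw [← hcard, ← hmul]
      exact Dvd.intro _ rfl
    rcases hsums C hCS h0C hdvd with h | h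
    · exfalso
      rw [← hcard] at h
      apply hM.not_ge
      intro m hm
      have h1 : ψ m y ∈ D := (hDmem _).2 ⟨m, hm, rfl⟩
      rw [Finset.card_eq_one] at h
      obtain ⟨w, hw⟩ := h
      rw [hw, Finset.mem_singleton] at h1 hyD
      rw [mem_stb, h1, hyD]
    · rw [← hcard] at h
      rw [h] at hmul
      have hpos : 0 < O.card := by omega
      have h1 : M.index = 1 := by
        have : O.card * M.index = O.card * 1 := by rw [hmul, mul_one]
        exact Nat.eq_of_mul_eq_mul_left hpos this
      exact Subgroup.index_eq_one.mp h1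

/-- The stabilizer of an image is the conjugate. -/
lemma stb_smul (ψ : Γ →* Perm α) (h : Γ) (y : α) :
    stb ψ (ψ h y) = (stb ψ y).map (MulAut.conj h).toMonoidHom := by
  ext g
  simp only [Subgroup.mem_map, MulEquiv.coe_toMonoidHom, MulAut.conj_apply, mem_stb]
  constructor
  · intro hg
    refine ⟨h⁻¹ * g * h, ?_, by group⟩
    rw [map_mul, map_mul, map_inv, Perm.mul_apply, Perm.mul_apply, hg]
    simp
  · rintro ⟨k, hk, rfl⟩
    rw [map_mul, map_mul, map_inv, Perm.mul_apply, Perm.mul_apply]
    simp [hk]

lemma coatom_stb_smul (ψ : Γ →* Perm α) (h : Γ) (y : α) (hc : IsCoatom (stb ψ y)) :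
    IsCoatom (stb ψ (ψ h y)) := by
  rw [stb_smul]
  exact ((MulAut.conj h).mapSubgroup.isCoatom_iff _).mpr hc

/-- Induction along a tree. -/
theorem tree_ind {N : ℕ} {P : ℕ → Prop} (rk par : ℕ → ℕ)
    (h : ∀ p, p < N → P p ∨ (par p < N ∧ rk (par p) < rk p ∧ (P (par p) → P p))) :
    ∀ p, p < N → P p := by
  have key : ∀ n p, rk p = n → p < N → P p := by
    intro n
    induction n using Nat.strong_induction_on with
    | _ n ih =>
      intro p hp hpN
      rcases h p hpN with h1 | ⟨h1, h2, h3⟩
      · exact h1
      · exact h3 (ih _ (by omega) _ rfl h1)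
  exact fun p hp => key _ p rfl hp

/-! ### Two groups acting on the same labels -/

section compare

variable {G Y L : Type*} [Group G] [Group L] [Finite G] [Finite L]

/-- The relation between elements of two groups acting compatibly on a family of sets. -/
def relSub (φ : G →* Perm Y) (ι : L →* Perm (Fin 100)) (C : Fin 100 → Set Y) :
    Subgroup (G × L) where
  carrier := {p | ∀ x, φ p.1 '' C x = C (ι p.2 x)}
  one_mem' := by
    intro x
    simp
  mul_mem' := by
    rintro ⟨a1, a2⟩ ⟨b1, b2⟩ ha hb x
    simp only [Set.mem_setOf_eq] at ha hb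
    simp only [Prod.mk_mul_mk, map_mul, Perm.mul_apply, Perm.coe_mul, Set.image_comp]
    rw [hb, ha]
  inv_mem' := by
    rintro ⟨a1, a2⟩ ha x
    simp only [Set.mem_setOf_eq] at ha
    simp only [Prod.inv_mk, map_inv]
    have h := ha ((ι a2)⁻¹ x)
    have h' : ι a2 ((ι a2)⁻¹ x) = x := by simp
    rw [h'] at h
    rw [← h, Set.image_image]
    simp

variable (φ : G →* Perm Y) (ι : L →* Perm (Fin 100)) (C : Fin 100 → Set Y)

/-- Two groups generated by corresponding elements; the second acts faithfully on the labels, the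
labels give different sets. -/
theorem compare (hι : Function.Injective ι) (hC : Function.Injective C) (a b : G) (a' b' : L)
    (ha : ∀ x, φ a '' C x = C (ι a' x)) (hb : ∀ x, φ b '' C x = C (ι b' x)) :
    Nat.card (Subgroup.closure {a', b'}) ≤ Nat.card (Subgroup.closure {a, b}) ∧
    (Nat.card (Subgroup.closure {a, b}) ≤ Nat.card (Subgroup.closure {a', b'}) →
      Nonempty (Subgroup.closure {a, b} ≃* Subgroup.closure {a', b'})) := by
  classical
  set R0 : Subgroup (G × L) := Subgroup.closure {(a, a'), (b, b')} with hR0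
  have hR : R0 ≤ relSub φ ι C := by
    rw [hR0, Subgroup.closure_le]
    rintro p (rfl | rfl)
    · exact ha
    · exact hb
  have hfst : R0.map (MonoidHom.fst G L) = Subgroup.closure {a, b} := by
    rw [hR0, MonoidHom.map_closure]
    congr 1
    ext x
    simp [Set.mem_image, eq_comm]
  have hsnd : R0.map (MonoidHom.snd G L) = Subgroup.closure {a', b'} := by
    rw [hR0, MonoidHom.map_closure]
    congr 1
    ext x
    simp [Set.mem_image, eq_comm]
  have hinj : Function.Injective ((MonoidHom.fst G L).comp R0.subtype) := by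
    intro p q hpq
    have h1 : p.1.1 = q.1.1 := hpq
    have hp := hR p.2
    have hq := hR q.2
    have h2 : p.1.2 = q.1.2 := by
      apply hι
      ext x
      have h3 := hp x
      have h4 := hq x
      rw [h1, h4] at h3
      rw [hC h3]
    exact Subtype.ext (Prod.ext h1 h2)
  have e1 : R0 ≃* R0.map (MonoidHom.fst G L) :=
    (MonoidHom.ofInjective hinj).trans (MulEquiv.subgroupCongr (by
      rw [MonoidHom.range_comp, Subgroup.range_subtype]))
  have c1 : Nat.card R0 = Nat.card (Subgroup.closure {a, b}) := by
    rw [← hfst]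
    exact Nat.card_congr e1.toEquiv
  -- the surjection on the other side
  let f2 : R0 →* Subgroup.closure {a', b'} :=
    ((MonoidHom.snd G L).comp R0.subtype).codRestrict _ (fun p => by
      rw [← hsnd]
      exact ⟨p.1, p.2, rfl⟩)
  have hf2 : Function.Surjective f2 := by
    rintro ⟨z, hz⟩
    rw [← hsnd] at hz
    obtain ⟨p, hp, rfl⟩ := hz
    exact ⟨⟨p, hp⟩, rfl⟩
  haveI : Finite R0 := inferInstance
  have c2 := Nat.card_le_card_of_surjective f2 hf2
  refine ⟨c1 ▸ c2, fun hle => ?_⟩
  have hbij : Function.Bijective f2 := by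
    rw [Nat.bijective_iff_surjective_and_card]
    exact ⟨hf2, le_antisymm (c1 ▸ hle) c2⟩
  have e1' : Subgroup.closure {a, b} ≃* R0 :=
    (MulEquiv.subgroupCongr hfst.symm).trans e1.symm
  exact ⟨e1'.trans (MulEquiv.ofBijective f2 hbij)⟩

end compare

/-! ### Orbits of sets -/

section orbit

variable {G Y : Type*} [Group G] [Finite G] {n : ℕ}

/-- The action on sets. -/
def setAct (φ : G →* Perm Y) : MulAction G (Set Y) where
  smul g S := φ g '' S
  one_smul S := by
    show φ 1 '' S = S
    simp
  mul_smul a b S := by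
    show φ (a * b) '' S = φ a '' (φ b '' S)
    rw [map_mul, Perm.coe_mul, Set.image_comp]

/-- If the family of sets contains the whole orbit, then we get a homomorphism to the permutations
of the index set. -/
theorem exists_hom (φ : G →* Perm Y) (B : Fin n → Set Y) (hB : Function.Injective B)
    (hinv : ∀ g i, ∃ j, φ g '' B i = B j) :
    ∃ π : G →* Perm (Fin n), ∀ g i, φ g '' B i = B (π g i) := by
  classical
  choose f hf using hinv
  have h1 : ∀ i, f 1 i = i := by
    intro i
    apply hB
    rw [← hf]
    simp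
  have h2 : ∀ a b i, f (a * b) i = f a (f b i) := by
    intro a b i
    apply hB
    rw [← hf, ← hf, ← hf, map_mul, Perm.coe_mul, Set.image_comp]
  letI : MulAction G (Fin n) :=
    { smul := f
      one_smul := h1
      mul_smul := h2 }
  exact ⟨MulAction.toPermHom G (Fin n), fun g i => hf g i⟩

/-- The orbit of a set has at most `N / M` elements when a subgroup of order at least `M` stabilizes it. -/
theorem orbit_closed (φ : G →* Perm Y) (B : Fin n → Set Y) (hB : Function.Injective B) (i0 : Fin n)
    (htree : ∀ i, ∃ g, φ g '' B i0 = B i) (K : Subgroup G) (hK : ∀ k ∈ K, φ k '' B i0 = B i0)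
    (hcard : Nat.card G ≤ n * Nat.card K) (hn : 0 < n) (g : G) (i : Fin n) :
    ∃ j, φ g '' B i = B j := by
  classical
  letI := setAct φ
  have hGpos : 0 < Nat.card G := Nat.card_pos
  have hKpos : 0 < Nat.card K := Nat.card_pos
  have hst : K ≤ MulAction.stabilizer G (B i0) := fun k hk => hK k hk
  have hle : Nat.card K ≤ Nat.card (MulAction.stabilizer G (B i0)) :=
    Subgroup.card_le_of_le hst
  have hmul := Subgroup.card_mul_index (MulAction.stabilizer G (B i0))
  rw [MulAction.index_stabilizer] at hmul
  have hfin : (MulAction.orbit G (B i0)).Finite := Set.finite_range _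
  have hsub : Set.range B ⊆ MulAction.orbit G (B i0) := by
    rintro _ ⟨i, rfl⟩
    obtain ⟨g, hg⟩ := htree i
    exact ⟨g, hg⟩
  have hrange : (Set.range B).ncard = n := by
    rw [Set.ncard_eq_toFinset_card', Set.toFinset_range,
      Finset.card_image_of_injective _ hB]
    simp
  have hle2 : (MulAction.orbit G (B i0)).ncard ≤ n := by
    by_contra hcon
    rw [not_le] at hcon
    have h1 : n * Nat.card K < (MulAction.orbit G (B i0)).ncard * Nat.card (MulAction.stabilizer G (B i0)) := by
      calc n * Nat.card K < (MulAction.orbit G (B i0)).ncard * Nat.card K :=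
            Nat.mul_lt_mul_of_pos_right hcon hKpos
        _ ≤ _ := Nat.mul_le_mul_left _ hle
    rw [mul_comm (MulAction.orbit G (B i0)).ncard, hmul] at h1
    omega
  have heq : Set.range B = MulAction.orbit G (B i0) :=
    Set.eq_of_subset_of_ncard_le hsub (by rw [hrange]; exact hle2) hfin
  obtain ⟨h, hh⟩ := htree i
  have hmem : φ g '' B i ∈ MulAction.orbit G (B i0) := by
    refine ⟨g * h, ?_⟩
    show φ (g * h) '' B i0 = _
    rw [map_mul, Perm.coe_mul, Set.image_comp, hh]
  rw [← heq] at hmem
  obtain ⟨j, hj⟩ := hmem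
  exact ⟨j, hj.symm⟩

end orbit

end Cfsg.Agent.Lib.XPrimGen
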