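import Mathlib
import Cfsg.Agent.Lib.CharBasic
import Cfsg.Agent.Lib.CharKernel
import Cfsg.Agent.Lib.CharValues
import Cfsg.Agent.Lib.CharInd
import Cfsg.Agent.Lib.CharEquiv

/-!
# Groups with a centre of order two and square-central quotient

`XS E z`: the centre of `E` is `{1, z}`, `z` has order two, and all squares are central.
Basic commutator calculus, the orthogonality count `|A| |C_E(A)| = 2 |E|` and the characters on
which `z` acts as `-1`.
-/

set_option autoImplicit false
set_option linter.unusedSectionVars false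
set_option linter.unusedVariables false
set_option linter.style.haveILetI false

namespace Cfsg.Agent.Lib.XSE1

open Cfsg Cfsg.Agent.Lib.CharBasic
open scoped ComplexConjugate

universe u

/-- The class of groups under consideration. -/
structure XS (E : Type u) [Group E] (z : E) : Prop where
  z_ne : z ≠ 1
  z_sq : z * z = 1
  center_iff : ∀ x : E, (∀ y, x * y = y * x) ↔ (x = 1 ∨ x = z)
  sq : ∀ x : E, x * x = 1 ∨ x * x = z

variable {E : Type u} [Group E] {z : E}

namespace XS

theorem z_comm (h : XS E z) (y : E) : z * y = y * z := (h.center_iff z).mpr (Or.inr rfl) y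

theorem z_inv (h : XS E z) : z⁻¹ = z := inv_eq_of_mul_eq_one_right h.z_sq

theorem mem_center (h : XS E z) (x : E) : x ∈ Subgroup.center E ↔ x = 1 ∨ x = z := by
  rw [Subgroup.mem_center_iff, ← h.center_iff]
  constructor
  · intro hx y; exact (hx y).symm
  · intro hx y; exact (hx y).symm

/-- automorphisms fix `z` -/
theorem aut_z (h : XS E z) (α : E ≃* E) : α z = z := by
  have h1 : ∀ y, α z * y = y * α z := by
    intro y
    obtain ⟨w, rfl⟩ := α.surjective y
    rw [← map_mul, ← map_mul, h.z_comm]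
  rcases (h.center_iff _).mp h1 with h2 | h2
  · exact absurd (by simpa using h2) h.z_ne
  · exact h2

private theorem comm_aux (x y a b c : E) (ha : ∀ g, a * g = g * a) (hb : ∀ g, b * g = g * b)
    (hc : ∀ g, c * g = g * c) (h1 : x * x = a) (h2 : y * y = b) (h3 : x * y * (x * y) = c) :
    y * x = c * a⁻¹ * b⁻¹ * (x * y) := by
  have hx : x⁻¹ = a⁻¹ * x := by
    rw [← h1]; group
  have hy : y⁻¹ = b⁻¹ * y := by
    rw [← h2]; group
  have hai : ∀ g, a⁻¹ * g = g * a⁻¹ := by
    intro g
    rw [inv_mul_eq_iff_eq_mul, ← mul_assoc, ha g, mul_assoc, mul_inv_cancel, mul_one]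
  have hbi : ∀ g, b⁻¹ * g = g * b⁻¹ := by
    intro g
    rw [inv_mul_eq_iff_eq_mul, ← mul_assoc, hb g, mul_assoc, mul_inv_cancel, mul_one]
  calc y * x = x⁻¹ * (x * y * (x * y)) * y⁻¹ := by group
    _ = x⁻¹ * c * y⁻¹ := by rw [h3]
    _ = c * (x⁻¹ * y⁻¹) := by rw [← hc x⁻¹, mul_assoc]
    _ = c * (a⁻¹ * x * (b⁻¹ * y)) := by rw [hx, hy]
    _ = c * a⁻¹ * b⁻¹ * (x * y) := by
        rw [mul_assoc a⁻¹, ← mul_assoc x, ← hbi x]
        simp only [mul_assoc]

theorem comm (h : XS E z) (x y : E) : x * y = y * x ∨ x * y = y * x * z := by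
  have hz := h.z_comm
  have h1c : ∀ g : E, (1 : E) * g = g * 1 := by simp
  have haux : ∀ a b c : E, (a = 1 ∨ a = z) → (b = 1 ∨ b = z) → (c = 1 ∨ c = z) →
      x * x = a → y * y = b → x * y * (x * y) = c → y * x = c * a⁻¹ * b⁻¹ * (x * y) := by
    intro a b c ha hb hc h1 h2 h3
    exact comm_aux x y a b c ((h.center_iff a).mpr ha) ((h.center_iff b).mpr hb)
      ((h.center_iff c).mpr hc) h1 h2 h3
  have hfin : ∀ w : E, (w = 1 ∨ w = z) → y * x = w * (x * y) →
      x * y = y * x ∨ x * y = y * x * z := by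
    rintro w (rfl | rfl) hw
    · left; simpa using hw.symm
    · right
      rw [hw, h.z_comm (x * y), mul_assoc, h.z_sq, mul_one]
  rcases h.sq x with h1 | h1 <;> rcases h.sq y with h2 | h2 <;> rcases h.sq (x * y) with h3 | h3
  all_goals
    have h4 := haux _ _ _ (by simp) (by simp) (by simp) h1 h2 h3
    simp only [inv_one, mul_one, h.z_inv, h.z_sq, one_mul] at h4
  · exact hfin 1 (Or.inl rfl) (by simpa using h4)
  · exact hfin z (Or.inr rfl) h4
  · exact hfin z (Or.inr rfl) h4
  · exact hfin 1 (Or.inl rfl) (by simpa using h4)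
  · exact hfin z (Or.inr rfl) h4
  · exact hfin 1 (Or.inl rfl) (by simpa using h4)
  · exact hfin 1 (Or.inl rfl) (by simpa using h4)
  · exact hfin z (Or.inr rfl) h4

theorem not_comm_iff (h : XS E z) (x y : E) : x * y ≠ y * x ↔ x * y = y * x * z := by
  constructor
  · intro hne
    exact (h.comm x y).resolve_left hne
  · intro heq h2
    rw [h2] at heq
    exact h.z_ne (by simpa using heq.symm)

/-- A non-central element has a conjugate `x z`. -/
theorem exists_conj (h : XS E z) {x : E} (hx : ¬ (x = 1 ∨ x = z)) : ∃ f : E, f * x * f⁻¹ = x * z := by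
  have h1 : ¬ ∀ y, x * y = y * x := fun h2 => hx ((h.center_iff x).mp h2)
  push Not at h1
  obtain ⟨y, hy⟩ := h1
  refine ⟨y, ?_⟩
  have h2 := (h.comm y x).resolve_left (fun h3 => hy h3.symm)
  rw [h2, mul_assoc x, ← h.z_comm y]
  group

/-- The commutator sign. -/
noncomputable def cm (x y : E) : ℤ := by
  classical exact if x * y = y * x then 1 else -1

theorem cm_eq_one {x y : E} (hxy : x * y = y * x) : cm x y = 1 := by
  classical
  unfold cm
  rw [if_pos hxy]

theorem cm_eq_neg {x y : E} (hxy : x * y ≠ y * x) : cm x y = -1 := by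
  classical
  unfold cm
  rw [if_neg hxy]

theorem cm_mul_right (h : XS E z) (x y y' : E) : cm x (y * y') = cm x y * cm x y' := by
  have hz := h.z_comm
  rcases h.comm x y with h1 | h1 <;> rcases h.comm x y' with h2 | h2
  · have h3 : x * (y * y') = y * y' * x := by
      rw [← mul_assoc, h1, mul_assoc, h2, mul_assoc]
    have h1' := cm_eq_one h1
    have h2' := cm_eq_one h2
    rw [cm_eq_one h3, h1', h2']; rfl
  · have h3 : x * (y * y') = y * y' * x * z := by
      rw [← mul_assoc, h1, mul_assoc, h2]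
      simp only [mul_assoc]
    have h3' : x * (y * y') ≠ y * y' * x := (h.not_comm_iff _ _).mpr h3
    have h2' : x * y' ≠ y' * x := (h.not_comm_iff _ _).mpr h2
    rw [cm_eq_neg h3', cm_eq_one h1, cm_eq_neg h2']; rfl
  · have h3 : x * (y * y') = y * y' * x * z := by
      rw [← mul_assoc, h1, mul_assoc, hz, ← mul_assoc, mul_assoc y, h2]
      simp only [mul_assoc]
    have h3' : x * (y * y') ≠ y * y' * x := (h.not_comm_iff _ _).mpr h3
    have h1' : x * y ≠ y * x := (h.not_comm_iff _ _).mpr h1
    rw [cm_eq_neg h3', cm_eq_neg h1', cm_eq_one h2]; rfl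
  · have h3 : x * (y * y') = y * y' * x := by
      rw [← mul_assoc, h1, mul_assoc, hz, ← mul_assoc, mul_assoc y, h2]
      simp only [mul_assoc, h.z_sq, mul_one]
    have h1' : x * y ≠ y * x := (h.not_comm_iff _ _).mpr h1
    have h2' : x * y' ≠ y' * x := (h.not_comm_iff _ _).mpr h2
    rw [cm_eq_one h3, cm_eq_neg h1', cm_eq_neg h2']; rfl

theorem cm_symm (x y : E) : cm x y = cm y x := by
  classical
  by_cases h : x * y = y * x
  · rw [cm_eq_one h, cm_eq_one h.symm]
  · rw [cm_eq_neg h, cm_eq_neg (fun h2 => h h2.symm)]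

theorem cm_one_right (x : E) : cm x 1 = 1 := cm_eq_one (by simp)

/-- Orthogonality count: `|A| |C_E(A)| = 2 |E|`. -/
theorem card_mul_card_centralizer [Finite E] (h : XS E z) (A : Subgroup E) (hz : z ∈ A) :
    Nat.card A * Nat.card (Subgroup.centralizer (A : Set E)) = 2 * Nat.card E := by
  classical
  letI := Fintype.ofFinite E
  letI : Fintype A := Fintype.ofFinite _
  letI : Fintype (Subgroup.centralizer (A : Set E)) := Fintype.ofFinite _
  let fL : A → (E →* ℤ) := fun a =>
    { toFun := fun e => cm (a : E) e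
      map_one' := cm_one_right _
      map_mul' := fun x y => cm_mul_right h _ _ _ }
  let fR : E → (A →* ℤ) := fun e =>
    { toFun := fun a => cm (a : E) e
      map_one' := by rw [cm_symm]; exact cm_one_right _
      map_mul' := fun x y => by
        rw [cm_symm, Subgroup.coe_mul, cm_mul_right h, cm_symm e, cm_symm e] }
  have h1 : ∀ a : A, ∑ e : E, cm (a : E) e =
      if ((a : E) = 1 ∨ (a : E) = z) then (Nat.card E : ℤ) else 0 := by
    intro a
    split_ifs with ha
    · have h2 : ∀ e : E, cm (a : E) e = 1 := fun e => cm_eq_one ((h.center_iff _).mpr ha e)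
      simp [h2, Nat.card_eq_fintype_card]
    · have h2 : fL a ≠ 1 := by
        intro h3
        apply ha
        rw [← h.center_iff]
        intro y
        by_contra h4
        have h5 : (fL a) y = 1 := by rw [h3]; rfl
        have h6 : (fL a) y = -1 := cm_eq_neg h4
        rw [h5] at h6
        norm_num at h6
      exact sum_hom_units_eq_zero (fL a) h2
  have h2 : ∀ e : E, ∑ a : A, cm (a : E) e =
      if e ∈ Subgroup.centralizer (A : Set E) then (Nat.card A : ℤ) else 0 := by
    intro e
    split_ifs with he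
    · have h2 : ∀ a : A, cm (a : E) e = 1 := fun a =>
        cm_eq_one ((Subgroup.mem_centralizer_iff).mp he a a.2)
      simp [h2, Nat.card_eq_fintype_card]
    · have h2 : fR e ≠ 1 := by
        intro h3
        apply he
        rw [Subgroup.mem_centralizer_iff]
        intro a ha
        by_contra h4
        have h5 : (fR e) ⟨a, ha⟩ = 1 := by rw [h3]; rfl
        have h6 : (fR e) ⟨a, ha⟩ = -1 := cm_eq_neg (fun h7 => h4 h7)
        rw [h5] at h6
        norm_num at h6
      exact sum_hom_units_eq_zero (fR e) h2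
  have h3 : ∑ a : A, ∑ e : E, cm (a : E) e = ∑ e : E, ∑ a : A, cm (a : E) e := Finset.sum_comm
  simp only [h1, h2] at h3
  have h4 : ∑ a : A, (if ((a : E) = 1 ∨ (a : E) = z) then (Nat.card E : ℤ) else 0) =
      2 * (Nat.card E : ℤ) := by
    rw [Finset.sum_ite, Finset.sum_const_zero, add_zero, Finset.sum_const, nsmul_eq_mul]
    congr 1
    have h5 : (Finset.univ.filter (fun a : A => ((a : E) = 1 ∨ (a : E) = z))) =
        {(1 : A), (⟨z, hz⟩ : A)} := by
      ext a
      simp only [Finset.mem_filter, Finset.mem_univ, true_and, Finset.mem_insert,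
        Finset.mem_singleton, Subtype.ext_iff]
      simp
    rw [h5, Finset.card_pair]
    · norm_num
    · intro h6
      apply h.z_ne
      have := congrArg Subtype.val h6
      simpa using this.symm
  have h5 : ∑ e : E, (if e ∈ Subgroup.centralizer (A : Set E) then (Nat.card A : ℤ) else 0) =
      (Nat.card (Subgroup.centralizer (A : Set E)) : ℤ) * (Nat.card A : ℤ) := by
    rw [Finset.sum_ite, Finset.sum_const_zero, add_zero, Finset.sum_const, nsmul_eq_mul]
    congr 1
    rw [Nat.card_eq_fintype_card, Fintype.card_subtype]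
  rw [h4, h5] at h3
  have h6 : (Nat.card A : ℤ) * (Nat.card (Subgroup.centralizer (A : Set E)) : ℤ) =
      2 * (Nat.card E : ℤ) := by linarith
  exact_mod_cast h6

/-- Double centraliser. -/
theorem centralizer_centralizer [Finite E] (h : XS E z) (A : Subgroup E) (hz : z ∈ A) :
    Subgroup.centralizer ((Subgroup.centralizer (A : Set E) : Subgroup E) : Set E) = A := by
  have hz' : z ∈ Subgroup.centralizer (A : Set E) := by
    rw [Subgroup.mem_centralizer_iff]
    intro a _
    exact (h.z_comm a).symm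
  have h1 := card_mul_card_centralizer h A hz
  have h2 := card_mul_card_centralizer h _ hz'
  have h3 : A ≤ Subgroup.centralizer ((Subgroup.centralizer (A : Set E) : Subgroup E) : Set E) := by
    intro a ha
    rw [Subgroup.mem_centralizer_iff]
    intro c hc
    exact (Subgroup.mem_centralizer_iff.mp hc a ha).symm
  symm
  apply Subgroup.eq_of_le_of_card_ge h3
  have hpos : 0 < Nat.card (Subgroup.centralizer (A : Set E)) := Nat.card_pos
  have h4 : Nat.card A * Nat.card (Subgroup.centralizer (A : Set E)) =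
      Nat.card (Subgroup.centralizer ((Subgroup.centralizer (A : Set E) : Subgroup E) : Set E)) *
      Nat.card (Subgroup.centralizer (A : Set E)) := by
    rw [h1, mul_comm (Nat.card (Subgroup.centralizer
      ((Subgroup.centralizer (A : Set E) : Subgroup E) : Set E))), h2]
  exact (Nat.eq_of_mul_eq_mul_right hpos h4).ge

end XS

/-! ### Characters on which `z` acts as `-1` -/

section Fa

variable {M : Type u} [Group M]

/-- An element with character value `-n` acts as `-1`. -/
theorem rep_neg_of_char [Finite M] {n : ℕ} (ρ : Representation ℂ M (Fin n → ℂ)) (g : M)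
    (hg : ρ.character g = -(n : ℂ)) : ρ g = -(LinearMap.id : (Fin n → ℂ) →ₗ[ℂ] (Fin n → ℂ)) := by
  have hfr : Module.finrank ℂ (Fin n → ℂ) = n := by simp
  obtain ⟨ω, hω⟩ := (Cfsg.Agent.Lib.CharValues.norm_character_eq_iff ρ g).mp
    (by rw [hg, hfr]; simp)
  rcases Nat.eq_zero_or_pos n with h0 | hpos
  · subst h0
    apply LinearMap.ext
    intro v
    exact Subsingleton.elim _ _
  · have h1 : ρ.character g = ω * n := by
      show LinearMap.trace ℂ _ (ρ g) = _
      rw [hω, map_smul, LinearMap.trace_id, hfr, smul_eq_mul]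
    rw [h1] at hg
    have hn : (n : ℂ) ≠ 0 := by exact_mod_cast hpos.ne'
    have h2 : ω = -1 := by
      apply mul_right_cancel₀ hn
      rw [hg]; ring
    rw [hω, h2]
    apply LinearMap.ext
    intro v
    simp

/-- The data of a character of `M` over `E` on which `z` acts as `-1` and of the right degree. -/
structure Fa (j : E →* M) (z : E) (χ : M → ℂ) (d : ℕ) : Prop where
  isChar : IsCharacter M χ
  one : χ 1 = d
  at_z : χ (j z) = -(d : ℂ)
  deg : d * d * 2 = Nat.card E

variable {j : E →* M} {χ : M → ℂ} {d : ℕ}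

theorem sum_two [Fintype E] (h : XS E z) (g : E → ℂ) (hg : ∀ e, ¬ (e = 1 ∨ e = z) → g e = 0) :
    ∑ e, g e = g 1 + g z := by
  classical
  rw [← Finset.sum_subset (Finset.subset_univ ({1, z} : Finset E))]
  · rw [Finset.sum_pair (Ne.symm h.z_ne)]
  · intro e _ he
    apply hg
    simpa using he

theorem Fa.vanish [Finite M] (hF : Fa j z χ d) (h : XS E z) {e : E} (he : ¬ (e = 1 ∨ e = z)) :
    χ (j e) = 0 := by
  obtain ⟨f, hf⟩ := h.exists_conj he
  obtain ⟨n, ρ, rfl⟩ := hF.isChar
  have hn : (d : ℂ) = n := by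
    rw [← hF.one, char_one_eq_rep]
  have h1 : ρ (j z) = -(LinearMap.id : (Fin n → ℂ) →ₗ[ℂ] (Fin n → ℂ)) :=
    rep_neg_of_char ρ (j z) (by rw [hF.at_z, hn])
  have h2 : ρ.character (j e * j z) = - ρ.character (j e) := by
    show LinearMap.trace ℂ _ (ρ (j e * j z)) = - LinearMap.trace ℂ _ (ρ (j e))
    rw [map_mul, h1]
    simp [Module.End.mul_eq_comp]
  have h3 : ρ.character (j e * j z) = ρ.character (j e) := by
    rw [← map_mul, ← hf, map_mul, map_mul, map_inv]
    exact char_apply_conj ⟨n, ρ, rfl⟩ _ _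
  rw [h3] at h2
  have h4 : (2 : ℂ) * ρ.character (j e) = 0 := by
    rw [two_mul]
    nth_rewrite 1 [h2]
    ring
  simpa using h4

/-- The degree is determined. -/
theorem Fa.deg_eq {d' : ℕ} {M' : Type u} [Group M'] {j' : E →* M'} {χ' : M' → ℂ}
    (hF : Fa j z χ d) (hF' : Fa j' z χ' d') : d = d' := by
  have h1 := hF.deg
  have h2 := hF'.deg
  have h3 : d * d = d' * d' := by omega
  exact Nat.mul_self_inj.mp h3

/-- Values on `E` are determined. -/
theorem Fa.val_one (hF : Fa j z χ d) : χ (j 1) = d := by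
  rw [map_one, hF.one]

theorem Fa.eq_on {M' : Type u} [Group M'] [Finite M] [Finite M'] (h : XS E z) {j' : E →* M'}
    {χ' : M' → ℂ} {d' : ℕ} (hF : Fa j z χ d) (hF' : Fa j' z χ' d') (e : E) :
    χ (j e) = χ' (j' e) := by
  have hd := hF.deg_eq hF'
  subst hd
  by_cases he : e = 1 ∨ e = z
  · rcases he with rfl | rfl
    · rw [hF.val_one, hF'.val_one]
    · rw [hF.at_z, hF'.at_z]
  · rw [hF.vanish h he, hF'.vanish h he]

/-- The restriction to `E` has norm one. -/
theorem Fa.norm_one [Fintype E] [Finite M] (h : XS E z) (hF : Fa j z χ d) :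
    classInner (fun e : E => χ (j e)) (fun e : E => χ (j e)) = 1 := by
  classical
  unfold classInner
  have h1 : ∑ e : E, χ (j e) * conj (χ (j e)) = (d : ℂ) * d * 2 := by
    rw [sum_two h (fun e => χ (j e) * conj (χ (j e)))]
    · rw [hF.at_z, hF.val_one]
      simp
      ring
    · intro e he
      show χ (j e) * conj (χ (j e)) = 0
      rw [hF.vanish h he]
      simp
  rw [h1]
  have h2 : (Nat.card E : ℂ) = (d : ℂ) * d * 2 := by
    rw [← hF.deg]; push_cast; ring
  have h3 : (Nat.card E : ℂ) ≠ 0 := by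
    exact_mod_cast Nat.card_pos.ne'
  rw [← h2]
  exact inv_mul_cancel₀ h3

/-- The restriction to `E` of a representation affording such a character is irreducible. -/
theorem Fa.comp_irr [Finite E] [Finite M] (h : XS E z) {n : ℕ} (ρ : Representation ℂ M (Fin n → ℂ))
    (hF : Fa j z ρ.character d) :
    (show Representation ℂ E (Fin n → ℂ) from ρ.comp j).IsIrreducible := by
  classical
  letI := Fintype.ofFinite E
  have h1 : IsCharacter E (fun e : E => ρ.character (j e)) := isCharacter_comp j hF.isChar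
  have h2 := isIrrCharacter_of_norm_one h1 (hF.norm_one h)
  obtain ⟨n₀, ρ₀, hρ₀, hρ₀c⟩ := h2
  let σ : Representation ℂ E (Fin n → ℂ) := ρ.comp j
  show σ.IsIrreducible
  have h3 : (ρ₀).character = σ.character := by
    rw [hρ₀c]
    rfl
  obtain ⟨e⟩ := Cfsg.Agent.Lib.CharEquiv.equiv_of_character_eq (G := E) _ _ _ ρ₀ σ rfl h3
  rw [isIrreducible_iff] at hρ₀ ⊢
  let L : (Fin n₀ → ℂ) ≃ₗ[ℂ] (Fin n → ℂ) := e.toLinearEquiv
  refine ⟨?_, ?_⟩
  · haveI := hρ₀.1
    exact L.symm.toEquiv.nontrivial
  · intro U hU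
    have h5 : ∀ g, ∀ v ∈ U.comap (L : (Fin n₀ → ℂ) →ₗ[ℂ] (Fin n → ℂ)), ρ₀ g v ∈
        U.comap (L : (Fin n₀ → ℂ) →ₗ[ℂ] (Fin n → ℂ)) := by
      intro g v hv
      rw [Submodule.mem_comap] at hv ⊢
      have h6 : L (ρ₀ g v) = σ g (L v) :=
        e.toIntertwiningMap.isIntertwining _ _ g v
      show L (ρ₀ g v) ∈ U
      rw [h6]
      exact hU g _ hv
    rcases hρ₀.2 _ h5 with h7 | h7
    · left
      rw [eq_bot_iff]
      intro v hv
      have h8 : L.symm v ∈ U.comap (L : (Fin n₀ → ℂ) →ₗ[ℂ] (Fin n → ℂ)) := by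
        rw [Submodule.mem_comap]
        show L (L.symm v) ∈ U
        rw [L.apply_symm_apply]
        exact hv
      rw [h7, Submodule.mem_bot] at h8
      rw [Submodule.mem_bot]
      have h9 := congrArg L h8
      rw [L.apply_symm_apply, map_zero] at h9
      exact h9
    · right
      rw [eq_top_iff]
      intro v _
      have h8 : L.symm v ∈ U.comap (L : (Fin n₀ → ℂ) →ₗ[ℂ] (Fin n → ℂ)) := by
        rw [h7]; trivial
      rw [Submodule.mem_comap] at h8
      have h9 : L (L.symm v) ∈ U := h8
      rwa [L.apply_symm_apply] at h9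

/-- Such a character is irreducible on `M`. -/
theorem Fa.irr [Finite E] [Finite M] (h : XS E z) (hF : Fa j z χ d) : IsIrrCharacter M χ := by
  obtain ⟨n, ρ, rfl⟩ := id hF.isChar
  refine ⟨n, ρ, ?_, rfl⟩
  have hirr := Fa.comp_irr h ρ hF
  rw [isIrreducible_iff] at hirr ⊢
  exact ⟨hirr.1, fun U hU => hirr.2 U fun g v hv => hU (j g) v hv⟩

/-- A character irreducible on `E` with `z` not in the kernel has the property `Fa`. -/
theorem fa_of_irr [Finite E] (h : XS E z) {θ : E → ℂ} (hθ : IsIrrCharacter E θ)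
    (hz : θ z ≠ θ 1) : ∃ d : ℕ, Fa (MonoidHom.id E) z θ d := by
  classical
  letI := Fintype.ofFinite E
  have hθc := IsIrrCharacter.isCharacter hθ
  obtain ⟨d, hd⟩ := isCharacter_one_eq hθc
  obtain ⟨n, ρ, hρ, rfl⟩ := id hθ
  have hdn : (d : ℂ) = n := by rw [← hd, char_one_eq_rep]
  have hnd : d = n := by exact_mod_cast hdn
  subst hnd
  -- `ρ z` is a scalar
  have hsc : ∃ c : ℂ, ρ z = c • LinearMap.id := schur_scalar hρ (ρ z) (by
    intro g
    rw [← Module.End.mul_eq_comp, ← Module.End.mul_eq_comp, ← map_mul, ← map_mul, h.z_comm])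
  obtain ⟨c, hc⟩ := hsc
  have hc2 : c * c = 1 := by
    have h1 : ρ (z * z) = 1 := by rw [h.z_sq, map_one]
    rw [map_mul, hc] at h1
    have hnt : Nontrivial (Fin d → ℂ) := ((isIrreducible_iff ρ).mp hρ).1
    obtain ⟨v, hv⟩ := exists_ne (0 : Fin d → ℂ)
    have h2 := LinearMap.congr_fun h1 v
    simp only [Module.End.mul_apply, LinearMap.smul_apply, LinearMap.id_apply, Module.End.one_apply,
      smul_smul] at h2
    have h3 : (c * c - 1) • v = 0 := by rw [sub_smul, h2, one_smul, sub_self]
    have := (smul_eq_zero.mp h3).resolve_right hv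
    exact sub_eq_zero.mp this
  have hval : ρ.character z = c * d := by
    show LinearMap.trace ℂ _ (ρ z) = _
    rw [hc, map_smul, LinearMap.trace_id]
    simp
  have hc1 : c ≠ 1 := by
    rintro rfl
    apply hz
    rw [hval, hd]
    ring
  have hcm : c = -1 := by
    have h3 : (c - 1) * (c + 1) = 0 := by
      have : (c - 1) * (c + 1) = c * c - 1 := by ring
      rw [this, hc2, sub_self]
    rcases mul_eq_zero.mp h3 with h4 | h4
    · exact absurd (sub_eq_zero.mp h4) hc1
    · exact eq_neg_of_add_eq_zero_left h4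
  have hneg : ρ.character z = -(d : ℂ) := by rw [hval, hcm]; ring
  have hchar : IsCharacter E ρ.character := hθc
  -- the norm
  have hzval : ∀ e : E, ¬ (e = 1 ∨ e = z) → ρ.character e = 0 := by
    intro e he
    have hF0 : ∀ e : E, ¬ (e = 1 ∨ e = z) → ρ.character e = 0 := by
      intro e he
      obtain ⟨f, hf⟩ := h.exists_conj he
      have h1 : ρ z = -(LinearMap.id : (Fin d → ℂ) →ₗ[ℂ] (Fin d → ℂ)) := rep_neg_of_char ρ z hneg
      have h2 : ρ.character (e * z) = - ρ.character e := by
        show LinearMap.trace ℂ _ (ρ (e * z)) = - LinearMap.trace ℂ _ (ρ e)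
        rw [map_mul, h1]
        simp [Module.End.mul_eq_comp]
      have h3 : ρ.character (e * z) = ρ.character e := by
        rw [← hf]
        exact char_apply_conj hchar _ _
      rw [h3] at h2
      have h4 : (2 : ℂ) * ρ.character e = 0 := by
        rw [two_mul]
        nth_rewrite 1 [h2]
        ring
      simpa using h4
    exact hF0 e he
  have hnorm := classInner_irr_self hθ
  unfold classInner at hnorm
  have h1 : ∑ e : E, ρ.character e * conj (ρ.character e) = (d : ℂ) * d * 2 := by
    rw [sum_two h (fun e => ρ.character e * conj (ρ.character e))]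
    · rw [hneg, hd]
      simp
      ring
    · intro e he
      show ρ.character e * conj (ρ.character e) = 0
      rw [hzval e he]
      simp
  rw [h1] at hnorm
  have hcard : (Nat.card E : ℂ) ≠ 0 := by exact_mod_cast Nat.card_pos.ne'
  have h2 : (d : ℂ) * d * 2 = Nat.card E := by
    field_simp at hnorm
    linear_combination hnorm
  refine ⟨d, hchar, hd, hneg, ?_⟩
  exact_mod_cast h2

/-- Existence of an irreducible character with `z` not in the kernel. -/
theorem exists_irr_z [Finite E] (h : XS E z) : ∃ θ : E → ℂ, IsIrrCharacter E θ ∧ θ z ≠ θ 1 := by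
  classical
  letI := Fintype.ofFinite E
  by_contra hall
  push Not at hall
  have h1 := Cfsg.Agent.Lib.CharInd.sum_irr_mul_conj (G := E) z 1
  have h2 : ¬ IsConj z (1 : E) := by
    intro hc
    exact h.z_ne (isConj_one_right.mp hc.symm)
  rw [if_neg h2] at h1
  have h3 : ∀ χ : IrrCharacter E, (χ : E → ℂ) z * conj ((χ : E → ℂ) 1) =
      (charDegree (χ : E → ℂ) : ℂ) * (charDegree (χ : E → ℂ) : ℂ) := by
    intro χ
    rw [hall χ.1 χ.2, Cfsg.Agent.Lib.CharKernel.one_eq_charDegree (IsIrrCharacter.isCharacter χ.2)]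
    simp
  simp only [h3] at h1
  have h4 := Cfsg.Agent.Lib.CharKernel.sum_charDegree_sq (G := E)
  have h5 : ((∑ χ : IrrCharacter E, (charDegree (χ : E → ℂ)) ^ 2 : ℕ) : ℂ) = 0 := by
    push_cast
    simpa [sq] using h1
  rw [h4] at h5
  have : (Nat.card E : ℂ) ≠ 0 := by exact_mod_cast Nat.card_pos.ne'
  exact this h5

/-- Existence of `Fa` for `E` itself. -/
theorem exists_fa [Finite E] (h : XS E z) : ∃ (θ : E → ℂ) (d : ℕ), Fa (MonoidHom.id E) z θ d := by
  obtain ⟨θ, h1, h2⟩ := exists_irr_z h
  obtain ⟨d, hd⟩ := fa_of_irr h h1 h2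
  exact ⟨θ, d, hd⟩

end Fa

end Cfsg.Agent.Lib.XSE1
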