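import Mathlib

/-!
# Finite commutative rings with a `2`-group of automorphisms: idempotents
-/

set_option autoImplicit false
set_option linter.unusedSectionVars false
set_option linter.unusedVariables false
set_option linter.style.haveILetI false

namespace Cfsg.Agent.Lib.XSE8

universe u

/-- A coatom of a finite `2`-group has index two and is normal. -/
theorem coatom_index {T : Type u} [Group T] [Finite T] (hT : IsPGroup 2 T) (T' : Subgroup T)
    (hc : IsCoatom T') : T'.Normal ∧ T'.index = 2 := by
  haveI : Fact (Nat.Prime 2) := ⟨Nat.prime_two⟩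
  haveI : Group.IsNilpotent T := hT.isNilpotent
  have hn : T'.Normal := by
    have h := (Group.isNilpotent_of_finite_tfae (G := T)).out 0 2
    exact h.mp ‹_› T' hc
  refine ⟨hn, ?_⟩
  haveI := hn
  obtain ⟨n, hn2⟩ := hT.index T'
  have hn0 : n ≠ 0 := by
    rintro rfl
    rw [pow_zero, Subgroup.index_eq_one] at hn2
    exact hc.1 hn2
  have h2 : 2 ∣ Nat.card (T ⧸ T') := by
    rw [← Subgroup.index_eq_card, hn2]
    exact dvd_pow_self 2 hn0
  obtain ⟨x, hx⟩ := exists_prime_orderOf_dvd_card' 2 h2
  have hx1 : x ≠ 1 := by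
    rintro rfl
    rw [orderOf_one] at hx
    omega
  obtain ⟨y, rfl⟩ := QuotientGroup.mk_surjective x
  have hy : y ∉ T' := by
    intro h3
    exact hx1 ((QuotientGroup.eq_one_iff y).mpr h3)
  let S : Subgroup T := (Subgroup.zpowers (y : T ⧸ T')).comap (QuotientGroup.mk' T')
  have hle : T' ≤ S := by
    intro a ha
    show (QuotientGroup.mk' T' a) ∈ Subgroup.zpowers (y : T ⧸ T')
    have : QuotientGroup.mk' T' a = 1 := (QuotientGroup.eq_one_iff a).mpr ha
    rw [this]
    exact one_mem _
  have hyS : y ∈ S := Subgroup.mem_zpowers (y : T ⧸ T')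
  have hS : S = ⊤ := by
    apply hc.2
    exact lt_of_le_of_ne hle (fun h => hy (h ▸ hyS))
  have hz : Subgroup.zpowers (y : T ⧸ T') = ⊤ := by
    rw [eq_top_iff]
    rintro q -
    obtain ⟨a, rfl⟩ := QuotientGroup.mk_surjective q
    have : a ∈ S := by rw [hS]; trivial
    exact this
  rw [Subgroup.index_eq_card, ← hx, ← Nat.card_zpowers, hz, Subgroup.card_top]

theorem prod_mul_fix {R ι : Type u} [CommRing R] (S : Finset ι) (y : ι → R) (w : R)
    (h : ∀ i, y i * w = w) : (∏ i ∈ S, y i) * w = w := by
  classical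
  induction S using Finset.induction_on with
  | empty => simp
  | insert a S ha ih => rw [Finset.prod_insert ha, mul_assoc, ih, h]

/-- Idempotents are `0` or `1` if they are fixed, and the resulting dichotomy. -/
theorem idem_dichotomy {R T : Type u} [CommRing R] [Finite R] [Nontrivial R] [Group T] [Finite T]
    (hT : IsPGroup 2 T) (act : T →* RingAut R)
    (hfix : ∀ e : R, e * e = e → (∀ t, act t e = e) → e = 0 ∨ e = 1) :
    (∀ e : R, e * e = e → e = 0 ∨ e = 1) ∨
    ∃ (T' : Subgroup T) (_ : T'.Normal) (t : T) (e : R), T'.index = 2 ∧ t ∉ T' ∧ e * e = e ∧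
      (∀ s ∈ T', act s e = e) ∧ act t e = 1 - e := by
  classical
  letI := Fintype.ofFinite T
  -- atoms
  have hact_mul : ∀ (s t : T) (x : R), act (s * t) x = act s (act t x) := by
    intro s t x
    rw [map_mul]
    rfl
  have hact_one : ∀ x : R, act 1 x = x := by
    intro x
    rw [map_one]
    rfl
  have hact_inv : ∀ (t : T) (x : R), act t (act t⁻¹ x) = x := by
    intro t x
    rw [← hact_mul, mul_inv_cancel, hact_one]
  obtain ⟨e₁, he₁, hmin⟩ : ∃ e₁ : R, (e₁ * e₁ = e₁ ∧ e₁ ≠ 0) ∧
      ∀ g : R, (g * g = g ∧ g ≠ 0) → Set.ncard {x : R | x * e₁ = x} ≤ Set.ncard {x : R | x * g = x} := by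
    have hfin : (Set.univ : Set {e : R // e * e = e ∧ e ≠ 0}).Finite := Set.toFinite _
    have hne : (Set.univ : Set {e : R // e * e = e ∧ e ≠ 0}).Nonempty :=
      ⟨⟨1, by simp, one_ne_zero⟩, trivial⟩
    obtain ⟨e, -, he⟩ := Set.exists_min_image _
      (fun e : {e : R // e * e = e ∧ e ≠ 0} => Set.ncard {x : R | x * e.1 = x}) hfin hne
    exact ⟨e.1, e.2, fun g hg => he ⟨g, hg⟩ trivial⟩
  obtain ⟨he₁i, he₁0⟩ := he₁
  have hatom : ∀ g : R, g * g = g → g * e₁ = 0 ∨ g * e₁ = e₁ := by
    intro g hg
    by_cases h0 : g * e₁ = 0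
    · exact Or.inl h0
    right
    have hge : (g * e₁) * (g * e₁) = g * e₁ := by
      calc (g * e₁) * (g * e₁) = (g * g) * (e₁ * e₁) := by ring
        _ = g * e₁ := by rw [hg, he₁i]
    have h1 := hmin _ ⟨hge, h0⟩
    have hsub : {x : R | x * (g * e₁) = x} ⊆ {x : R | x * e₁ = x} := by
      intro x hx
      show x * e₁ = x
      have hx' : x * (g * e₁) = x := hx
      rw [← hx', mul_assoc, mul_assoc, he₁i]
    have heq := Set.eq_of_subset_of_ncard_le hsub h1 (Set.toFinite _)
    have h2 : e₁ ∈ {x : R | x * (g * e₁) = x} := by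
      rw [heq]
      exact he₁i
    have h3 : e₁ * (g * e₁) = e₁ := h2
    rw [← h3]
    calc g * (e₁ * (g * e₁)) = (g * g) * (e₁ * e₁) := by ring
      _ = g * e₁ := by rw [hg, he₁i]
      _ = (g * e₁) * e₁ := by rw [mul_assoc, he₁i]
      _ = e₁ * (g * e₁) := by ring
  have hconj_idem : ∀ (t : T) (x : R), x * x = x → act t x * act t x = act t x := by
    intro t x hx
    rw [← map_mul, hx]
  have hatom' : ∀ (t : T) (g : R), g * g = g → g * act t e₁ = 0 ∨ g * act t e₁ = act t e₁ := by
    intro t g hg
    have h1 := hatom (act t⁻¹ g) (hconj_idem _ _ hg)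
    rcases h1 with h1 | h1
    · left
      have h2 := congrArg (act t) h1
      rw [map_mul, hact_inv, map_zero] at h2
      exact h2
    · right
      have h2 := congrArg (act t) h1
      rw [map_mul, hact_inv] at h2
      exact h2
  have horth : ∀ s t : T, act s e₁ ≠ act t e₁ → act s e₁ * act t e₁ = 0 := by
    intro s t hst
    rcases hatom' t _ (hconj_idem s e₁ he₁i) with h1 | h1
    · exact h1
    · rcases hatom' s _ (hconj_idem t e₁ he₁i) with h2 | h2
      · rw [mul_comm]
        exact h2
      · exfalso
        apply hst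
        rw [← h2, mul_comm, h1]
  by_cases hall : ∀ t, act t e₁ = e₁
  · left
    have h1 : e₁ = 1 := (hfix e₁ he₁i hall).resolve_left he₁0
    intro e he
    have h2 := hatom e he
    rw [h1, mul_one] at h2
    exact h2
  right
  push Not at hall
  obtain ⟨t₀, ht₀⟩ := hall
  let T₀ : Subgroup T :=
    { carrier := {t | act t e₁ = e₁}
      one_mem' := hact_one _
      mul_mem' := by
        intro a b ha hb
        show act (a * b) e₁ = e₁
        rw [hact_mul, show act b e₁ = e₁ from hb, show act a e₁ = e₁ from ha]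
      inv_mem' := by
        intro a ha
        show act a⁻¹ e₁ = e₁
        have h1 := hact_inv a⁻¹ e₁
        rw [inv_inv, show act a e₁ = e₁ from ha] at h1
        exact h1 }
  have hT₀ : T₀ ≠ ⊤ := by
    intro h1
    apply ht₀
    have : t₀ ∈ T₀ := by rw [h1]; trivial
    exact this
  obtain ⟨T', hT', hle⟩ := (eq_top_or_exists_le_coatom T₀).resolve_left hT₀
  obtain ⟨hn, hidx⟩ := coatom_index hT T' hT'
  obtain ⟨t, ht⟩ : ∃ t, t ∉ T' := by
    by_contra h1
    push Not at h1
    exact hT'.1 (eq_top_iff.mpr fun x _ => h1 x)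
  letI := Fintype.ofFinite T'
  let P : R := ∏ s : T', (1 - act (s : T) e₁)
  have hPi : P * P = P := by
    show (∏ s : T', (1 - act (s : T) e₁)) * (∏ s : T', (1 - act (s : T) e₁)) = ∏ s : T', (1 - act (s : T) e₁)
    rw [← Finset.prod_mul_distrib]
    refine Finset.prod_congr rfl fun s _ => ?_
    have := hconj_idem (s : T) e₁ he₁i
    linear_combination this
  have hprod : ∀ w : R, (∀ s : T', (1 - act (s : T) e₁) * w = w) → P * w = w := by
    intro w hw
    exact prod_mul_fix _ _ w hw
  have hPin : ∀ x ∈ T', P * act x e₁ = 0 := by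
    intro x hx
    show (∏ s : T', (1 - act (s : T) e₁)) * act x e₁ = 0
    rw [← Finset.mul_prod_erase Finset.univ _ (Finset.mem_univ (⟨x, hx⟩ : T'))]
    have : (1 - act ((⟨x, hx⟩ : T') : T) e₁) * act x e₁ = 0 := by
      have h2 := hconj_idem x e₁ he₁i
      show (1 - act x e₁) * act x e₁ = 0
      linear_combination -h2
    linear_combination (∏ s ∈ Finset.univ.erase (⟨x, hx⟩ : T'), (1 - act (s : T) e₁)) * this
  have hPout : ∀ x, x ∉ T' → P * act x e₁ = act x e₁ := by
    intro x hx
    apply hprod
    intro s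
    have hne : act (s : T) e₁ ≠ act x e₁ := by
      intro h1
      apply hx
      have h2 : x⁻¹ * s ∈ T₀ := by
        show act (x⁻¹ * s) e₁ = e₁
        rw [hact_mul, h1, ← hact_mul, inv_mul_cancel, hact_one]
      have h3 := T'.mul_mem (hle h2) (T'.inv_mem s.2)
      have h4 : x⁻¹ * (s : T) * (s : T)⁻¹ = x⁻¹ := by group
      rw [h4] at h3
      simpa using h3
    have h1 := horth _ _ hne
    linear_combination -h1
  let e : R := 1 - P
  have hei : e * e = e := by
    show (1 - P) * (1 - P) = 1 - P
    linear_combination hPi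
  have hPfix : ∀ s ∈ T', act s P = P := by
    intro s hs
    show act s (∏ s' : T', (1 - act (s' : T) e₁)) = ∏ s' : T', (1 - act (s' : T) e₁)
    rw [map_prod]
    apply Fintype.prod_equiv (Equiv.mulLeft (⟨s, hs⟩ : T'))
    intro s'
    rw [map_sub, map_one, ← hact_mul]
    rfl
  have hefix : ∀ s ∈ T', act s e = e := by
    intro s hs
    show act s (1 - P) = 1 - P
    rw [map_sub, map_one, hPfix s hs]
  have he_out : ∀ x, x ∉ T' → e * act x e₁ = 0 := by
    intro x hx
    show (1 - P) * act x e₁ = 0
    have := hPout x hx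
    linear_combination -this
  have he_e₁ : e * e₁ = e₁ := by
    show (1 - P) * e₁ = e₁
    have := hPin 1 T'.one_mem
    rw [hact_one] at this
    linear_combination -this
  have he0 : e ≠ 0 := by
    intro h1
    rw [h1, zero_mul] at he_e₁
    exact he₁0 he_e₁.symm
  have heet : e * act t e = 0 := by
    have h1 : e * act t P = e := by
      rw [mul_comm]
      show (act t (∏ s' : T', (1 - act (s' : T) e₁))) * e = e
      rw [map_prod]
      apply prod_mul_fix
      intro a
      rw [map_sub, map_one, ← hact_mul]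
      have h2 : t * (a : T) ∉ T' := by
        intro h3
        apply ht
        have h4 := T'.mul_mem h3 (T'.inv_mem a.2)
        have h5 : t * (a : T) * (a : T)⁻¹ = t := by group
        rwa [h5] at h4
      have := he_out _ h2
      linear_combination -this
    show e * act t (1 - P) = 0
    rw [map_sub, map_one]
    linear_combination -h1
  have htt : ∀ x ∈ T', t * x ∉ T' := by
    intro x hx h3
    apply ht
    have h4 := T'.mul_mem h3 (T'.inv_mem hx)
    have h5 : t * x * x⁻¹ = t := by group
    rwa [h5] at h4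
  let g : R := e + act t e
  have hgi : g * g = g := by
    show (e + act t e) * (e + act t e) = e + act t e
    have h1 := hconj_idem t e hei
    linear_combination hei + h1 + 2 * heet
  have hetfix : ∀ s ∈ T', act s (act t e) = act t e := by
    intro s hs
    have h1 : t⁻¹ * s * t ∈ T' := by
      have := hn.conj_mem s hs t⁻¹
      simpa using this
    rw [← hact_mul]
    have h2 : s * t = t * (t⁻¹ * s * t) := by group
    rw [h2, hact_mul, hefix _ h1]
  have httm : t * t ∈ T' := Subgroup.mul_self_mem_of_index_two hidx t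
  have hgt : act t g = g := by
    show act t (e + act t e) = e + act t e
    rw [map_add, ← hact_mul, hefix _ httm, add_comm]
  have hgs : ∀ s ∈ T', act s g = g := by
    intro s hs
    show act s (e + act t e) = e + act t e
    rw [map_add, hefix s hs, hetfix s hs]
  have hgall : ∀ x, act x g = g := by
    intro x
    by_cases hx : x ∈ T'
    · exact hgs x hx
    · have h1 : t⁻¹ * x ∈ T' := by
        rw [Subgroup.mul_mem_iff_of_index_two hidx]
        constructor
        · intro h2
          exact absurd (by simpa using h2) ht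
        · intro h2
          exact absurd h2 hx
      have h2 : x = t * (t⁻¹ * x) := by group
      rw [h2, hact_mul, hgs _ h1, hgt]
  refine ⟨T', hn, t, e, hidx, ht, hei, hefix, ?_⟩
  rcases hfix g hgi hgall with h1 | h1
  · exfalso
    apply he0
    have h2 : e * g = e := by
      show e * (e + act t e) = e
      linear_combination hei + heet
    rw [← h2, h1, mul_zero]
  · have h2 : e + act t e = 1 := h1
    linear_combination h2

/-- In a finite reduced commutative ring with only trivial idempotents, nonzero elements are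
invertible. -/
theorem exists_inv {R : Type u} [CommRing R] [Finite R] (hred : ∀ a : R, a * a = 0 → a = 0)
    (hid : ∀ e : R, e * e = e → e = 0 ∨ e = 1) (a : R) (ha : a ≠ 0) : ∃ b, a * b = 1 := by
  obtain ⟨i, j, hij, hpow⟩ := Finite.exists_ne_map_eq_of_infinite (fun n : ℕ => a ^ n)
  wlog hlt : i < j generalizing i j
  · exact this j i hij.symm hpow.symm (lt_of_le_of_ne (not_lt.mp hlt) hij.symm)
  obtain ⟨p, rfl⟩ := Nat.exists_eq_add_of_lt hlt
  -- `j = i + p + 1`; period `q = p + 1`
  have hper : ∀ m k : ℕ, i ≤ m → a ^ (m + k * (p + 1)) = a ^ m := by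
    intro m k hm
    induction k with
    | zero => simp
    | succ k ih =>
      have h1 : m + (k + 1) * (p + 1) = (m - i) + (i + p + 1) + k * (p + 1) := by
        have := Nat.sub_add_cancel hm
        nlinarith
      have h2 : a ^ ((m - i) + (i + p + 1)) = a ^ m := by
        rw [pow_add, ← hpow, ← pow_add, Nat.sub_add_cancel hm]
      rw [h1, pow_add, h2, ← pow_add, ih]
  let n := (i + 1) * (p + 1)
  have hn1 : 1 ≤ n := Nat.mul_pos (Nat.succ_pos _) (Nat.succ_pos _)
  have hin : i ≤ n := by
    show i ≤ (i + 1) * (p + 1)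
    nlinarith
  have hidem : a ^ n * a ^ n = a ^ n := by
    rw [← pow_add]
    exact hper n (i + 1) hin
  have hnil : ∀ m : ℕ, a ^ (2 ^ m) = 0 → a = 0 := by
    intro m
    induction m with
    | zero => simp
    | succ m ih =>
      intro h1
      apply ih
      apply hred
      rw [← pow_add, ← two_mul, ← pow_succ']
      exact h1
  rcases hid _ hidem with h1 | h1
  · exfalso
    apply ha
    apply hnil n
    have h2 : n ≤ 2 ^ n := Nat.lt_two_pow_self.le
    obtain ⟨c, hc⟩ := Nat.exists_eq_add_of_le h2
    rw [hc, pow_add, h1, zero_mul]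
  · refine ⟨a ^ (n - 1), ?_⟩
    rw [← pow_succ', Nat.sub_add_cancel hn1, h1]

/-- The ring automorphisms of a finite field of characteristic two form a cyclic group. -/
theorem cyc_ringAut (F : Type u) [Field F] [Finite F] [CharP F 2] : IsCyclic (RingAut F) := by
  letI : Algebra (ZMod 2) F := ZMod.algebra F 2
  let f : Gal(F/ZMod 2) →* RingAut F :=
    { toFun := fun g => g.toRingEquiv
      map_one' := rfl
      map_mul' := fun a b => rfl }
  have hf : Function.Surjective f := by
    intro g
    refine ⟨AlgEquiv.ofRingEquiv (f := g) ?_, ?_⟩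
    · intro r
      have h1 : ((g : F →+* F).comp (algebraMap (ZMod 2) F)) = algebraMap (ZMod 2) F :=
        Subsingleton.elim _ _
      exact congrArg (fun φ : ZMod 2 →+* F => φ r) h1
    · ext x
      rfl
  exact isCyclic_of_surjective f hf

/-- The dichotomy for the adjoint of the idempotent. -/
theorem star_dichotomy {R T : Type u} [CommRing R] [Group T] (act : T →* RingAut R)
    (htwo : ∀ x : R, x + x = 0)
    (hfix : ∀ e : R, e * e = e → (∀ t, act t e = e) → e = 0 ∨ e = 1)
    (T' : Subgroup T) (t : T) (e e' : R) (hidx : T'.index = 2) (ht : t ∉ T') (he : e * e = e)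
    (he' : e' * e' = e') (hs : ∀ s ∈ T', act s e = e) (hs' : ∀ s ∈ T', act s e' = e')
    (hte : act t e = 1 - e) (hte' : act t e' = 1 - e') : e' = e ∨ e' = 1 - e := by
  have hact_mul : ∀ (s t : T) (x : R), act (s * t) x = act s (act t x) := by
    intro s t x
    rw [map_mul]
    rfl
  let g₁ : R := e * e'
  let g₂ : R := (1 - e) * (1 - e')
  have h1 : g₁ * g₁ = g₁ := by
    show (e * e') * (e * e') = e * e'
    linear_combination e' * e' * he + e * he'
  have h2 : g₂ * g₂ = g₂ := by
    show ((1 - e) * (1 - e')) * ((1 - e) * (1 - e')) = (1 - e) * (1 - e')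
    linear_combination (1 - e') * (1 - e') * he + (1 - e) * he'
  have h3 : g₁ * g₂ = 0 := by
    show (e * e') * ((1 - e) * (1 - e')) = 0
    linear_combination -(e' * (1 - e')) * he
  have hgi : (g₁ + g₂) * (g₁ + g₂) = g₁ + g₂ := by
    linear_combination h1 + h2 + 2 * h3
  have ht1 : act t g₁ = g₂ := by
    show act t (e * e') = (1 - e) * (1 - e')
    rw [map_mul, hte, hte']
  have ht2 : act t g₂ = g₁ := by
    show act t ((1 - e) * (1 - e')) = e * e'
    rw [map_mul, map_sub, map_sub, map_one, hte, hte']
    ring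
  have hs1 : ∀ s ∈ T', act s g₁ = g₁ := by
    intro s hs₀
    show act s (e * e') = e * e'
    rw [map_mul, hs s hs₀, hs' s hs₀]
  have hs2 : ∀ s ∈ T', act s g₂ = g₂ := by
    intro s hs₀
    show act s ((1 - e) * (1 - e')) = (1 - e) * (1 - e')
    rw [map_mul, map_sub, map_sub, map_one, hs s hs₀, hs' s hs₀]
  have hfixg : ∀ x, act x (g₁ + g₂) = g₁ + g₂ := by
    intro x
    by_cases hx : x ∈ T'
    · rw [map_add, hs1 x hx, hs2 x hx]
    · have hx1 : t⁻¹ * x ∈ T' := by
        rw [Subgroup.mul_mem_iff_of_index_two hidx]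
        constructor
        · intro h4
          exact absurd (by simpa using h4) ht
        · intro h4
          exact absurd h4 hx
      have hx2 : x = t * (t⁻¹ * x) := by group
      rw [hx2, hact_mul, map_add, hs1 _ hx1, hs2 _ hx1, map_add, ht1, ht2, add_comm]
  have hneg : ∀ x : R, -x = x := fun x => neg_eq_of_add_eq_zero_left (htwo x)
  rcases hfix _ hgi hfixg with h4 | h4
  · right
    have h5 : g₁ = 0 := by
      have : g₁ * (g₁ + g₂) = g₁ := by linear_combination h1 + h3
      rw [← this, h4, mul_zero]
    have h6 : g₂ = 0 := by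
      have : g₂ * (g₁ + g₂) = g₂ := by linear_combination h2 + h3
      rw [← this, h4, mul_zero]
    have h7 : (1 - e) * (1 - e') = 0 := h6
    have h8 : e * e' = 0 := h5
    linear_combination -h7 + h8
  · left
    have h5 : e * e' + (1 - e) * (1 - e') = 1 := h4
    have h6 : e + e' = 2 * (e * e') := by
      linear_combination -h5
    have h7 : 2 * (e * e') = 0 := by
      rw [two_mul]
      exact htwo _
    have h8 : e' = - e := by
      linear_combination h6 + h7
    rw [h8, hneg]

/-- Cyclicity of the automorphism group when all nonzero elements are invertible. -/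
theorem cyc_of_inv {R : Type u} [CommRing R] [Finite R] [Nontrivial R] (htwo : ∀ x : R, x + x = 0)
    (hinv : ∀ a : R, a ≠ 0 → ∃ b, a * b = 1) : IsCyclic (RingAut R) := by
  have hf : IsField R :=
    { exists_pair_ne := exists_pair_ne R
      mul_comm := mul_comm
      mul_inv_cancel := fun {a} ha => hinv a ha }
  letI F : Field R := hf.toField
  haveI : CharP R 2 := by
    apply CharTwo.of_one_ne_zero_of_two_eq_zero one_ne_zero
    have := htwo 1
    rw [one_add_one_eq_two] at this
    exact this
  exact cyc_ringAut R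

end Cfsg.Agent.Lib.XSE8
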