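import Mathlib
import Cfsg.Agent.Lib.XSE8

/-!
# The ring `R` of central elements in the algebra generated by the odd group
-/

set_option autoImplicit false
set_option linter.unusedSectionVars false
set_option linter.unusedVariables false
set_option linter.style.haveILetI false

namespace Cfsg.Agent.Lib.XSE9

open Cfsg.Agent.Lib.XSE8

universe u

variable {V K T : Type u} [AddCommGroup V] [Group K] [Group T]

abbrev EV (V : Type u) [AddCommGroup V] := AddMonoid.End V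

abbrev UV (V : Type u) [AddCommGroup V] := (AddMonoid.End V)ˣ

/-- The endomorphism of an automorphism. -/
def rE (g : UV V) : EV V := g.val

theorem rE_mul (g h : UV V) : rE (g * h) = rE g * rE h := rfl

theorem rE_one : rE (1 : UV V) = 1 := rfl

theorem rE_inv_mul (g : UV V) : rE g⁻¹ * rE g = 1 := Units.inv_mul g

theorem rE_mul_inv (g : UV V) : rE g * rE g⁻¹ = 1 := Units.mul_inv g

theorem rE_inj {g h : UV V} (hgh : rE g = rE h) : g = h := Units.ext hgh

theorem rE_inv_apply (g : UV V) (v : V) : rE g⁻¹ (rE g v) = v :=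
  congrArg (fun a : EV V => a v) (rE_inv_mul g)

theorem rE_apply_inv (g : UV V) (v : V) : rE g (rE g⁻¹ v) = v :=
  congrArg (fun a : EV V => a v) (rE_mul_inv g)

theorem rE_mul_apply (g h : UV V) (v : V) : rE (g * h) v = rE g (rE h v) := rfl

theorem rE_one_apply (v : V) : rE (1 : UV V) v = v := rfl

structure RH (ρ : K →* UV V) (τ : T →* UV V) (f : V → V → ZMod 2) : Prop where
  two : ∀ v : V, v + v = 0
  add_left : ∀ u v w, f (u + v) w = f u w + f v w
  add_right : ∀ u v w, f u (v + w) = f u v + f u w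
  symm : ∀ u v, f u v = f v u
  nondeg : ∀ u, (∀ v, f u v = 0) → u = 0
  ρf : ∀ k u v, f (rE (ρ k) u) (rE (ρ k) v) = f u v
  τf : ∀ t u v, f (rE (τ t) u) (rE (τ t) v) = f u v
  fix : ∀ v, (∀ k, rE (ρ k) v = v) → v = 0
  norm : ∀ t, ∃ σ : K ≃ K, ∀ k, τ t * ρ k * (τ t)⁻¹ = ρ (σ k)
  Kodd : Odd (Nat.card K)
  T2 : IsPGroup 2 T
  irr : ∀ U : AddSubgroup V, (∀ k, ∀ u ∈ U, rE (ρ k) u ∈ U) → (∀ t, ∀ u ∈ U, rE (τ t) u ∈ U) →
    U = ⊥ ∨ U = ⊤

/-- The subring generated by the odd group. -/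
def Alg (ρ : K →* UV V) : Subring (EV V) := Subring.closure (Set.range fun k => rE (ρ k))

/-- The centre of the subring generated by the odd group. -/
def RR (ρ : K →* UV V) : Subring (EV V) :=
  Alg ρ ⊓ Subring.centralizer (Set.range fun k => rE (ρ k))

theorem rho_mem_alg (ρ : K →* UV V) (k : K) : rE (ρ k) ∈ Alg ρ :=
  Subring.subset_closure ⟨k, rfl⟩

theorem mem_RR {ρ : K →* UV V} {r : EV V} :
    r ∈ RR ρ ↔ r ∈ Alg ρ ∧ ∀ k, r * rE (ρ k) = rE (ρ k) * r := by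
  show r ∈ Alg ρ ∧ r ∈ Subring.centralizer _ ↔ _
  rw [Subring.mem_centralizer_iff]
  constructor
  · rintro ⟨h1, h2⟩
    exact ⟨h1, fun k => (h2 _ ⟨k, rfl⟩).symm⟩
  · rintro ⟨h1, h2⟩
    refine ⟨h1, ?_⟩
    rintro _ ⟨k, rfl⟩
    exact (h2 k).symm

theorem alg_comm {ρ : K →* UV V} {a c : EV V} (ha : a ∈ Alg ρ)
    (hc : ∀ k, c * rE (ρ k) = rE (ρ k) * c) : a * c = c * a := by
  induction ha using Subring.closure_induction with
  | mem x hx =>
    obtain ⟨k, rfl⟩ := hx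
    exact (hc k).symm
  | zero => simp
  | one => simp
  | add x y _ _ hx hy => rw [add_mul, mul_add, hx, hy]
  | neg x _ hx => rw [neg_mul, mul_neg, hx]
  | mul x y _ _ hx hy => rw [mul_assoc, hy, ← mul_assoc, hx, mul_assoc]

theorem RR_comm {ρ : K →* UV V} {a b : EV V} (ha : a ∈ RR ρ) (hb : b ∈ RR ρ) :
    a * b = b * a :=
  alg_comm (mem_RR.mp ha).1 (mem_RR.mp hb).2

noncomputable instance (ρ : K →* UV V) : CommRing (RR ρ) :=
  { (RR ρ).toRing with
    mul_comm := fun a b => Subtype.ext (RR_comm a.2 b.2) }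

instance [Finite V] : Finite (EV V) :=
  Finite.of_injective (fun a : EV V => (a : V → V)) DFunLike.coe_injective

/-- A subgroup stable under the odd group is stable under the algebra. -/
theorem alg_stable {ρ : K →* UV V} {a : EV V} (ha : a ∈ Alg ρ) (U : AddSubgroup V)
    (hU : ∀ k, ∀ u ∈ U, rE (ρ k) u ∈ U) : ∀ u ∈ U, a u ∈ U := by
  induction ha using Subring.closure_induction with
  | mem x hx =>
    obtain ⟨k, rfl⟩ := hx
    exact hU k
  | zero => exact fun u _ => U.zero_mem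
  | one => exact fun u hu => hu
  | add x y _ _ hx hy => exact fun u hu => U.add_mem (hx u hu) (hy u hu)
  | neg x _ hx => exact fun u hu => U.neg_mem (hx u hu)
  | mul x y _ _ hx hy => exact fun u hu => hx _ (hy u hu)

theorem ev_sum {ι : Type u} (S : Finset ι) (a : ι → EV V) (v : V) :
    (∑ i ∈ S, a i) v = ∑ i ∈ S, a i v := by
  classical
  induction S using Finset.induction_on with
  | empty => rfl
  | insert i S hi ih =>
    rw [Finset.sum_insert hi, Finset.sum_insert hi, ← ih]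
    rfl

/-- Adjoints. -/
def Adj (f : V → V → ZMod 2) (a b : EV V) : Prop := ∀ u v, f (a u) v = f u (b v)

section

variable {ρ : K →* UV V} {τ : T →* UV V} {f : V → V → ZMod 2}

theorem RH.sub_eq (hr : RH ρ τ f) (x y : V) (h : x + y = 0) : x = y := by
  have h1 := hr.two y
  have h2 : x + y = y + y := by rw [h, h1]
  exact add_right_cancel h2

theorem RH.neg_eq (hr : RH ρ τ f) (x : V) : -x = x :=
  neg_eq_of_add_eq_zero_left (hr.two x)

theorem RH.f_zero_left (hr : RH ρ τ f) (v : V) : f 0 v = 0 := by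
  have := hr.add_left 0 0 v
  rw [add_zero] at this
  exact left_eq_add.mp this

theorem RH.f_zero_right (hr : RH ρ τ f) (v : V) : f v 0 = 0 := by
  have := hr.add_right v 0 0
  rw [add_zero] at this
  exact left_eq_add.mp this

theorem zmod2_neg (x : ZMod 2) : -x = x := by
  revert x
  decide

theorem zmod2_add (x : ZMod 2) : x + x = 0 := by
  revert x
  decide

theorem RH.f_neg_left (hr : RH ρ τ f) (u v : V) : f (-u) v = f u v := by
  rw [hr.neg_eq]

theorem RH.f_neg_right (hr : RH ρ τ f) (u v : V) : f u (-v) = f u v := by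
  rw [hr.neg_eq]

theorem RH.adj_unique (hr : RH ρ τ f) {a b b' : EV V} (h : Adj f a b) (h' : Adj f a b') : b = b' := by
  ext v
  apply hr.sub_eq
  apply hr.nondeg
  intro u
  rw [hr.symm, hr.add_right, ← h, ← h', zmod2_add]

theorem Adj.symm (hr : RH ρ τ f) {a b : EV V} (h : Adj f a b) : Adj f b a := by
  intro u v
  rw [hr.symm, ← h, hr.symm]

theorem Adj.add (hr : RH ρ τ f) {a b c d : EV V} (h : Adj f a b) (h' : Adj f c d) :
    Adj f (a + c) (b + d) := by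
  intro u v
  show f (a u + c u) v = f u (b v + d v)
  rw [hr.add_left, hr.add_right, h, h']

theorem Adj.mul {a b c d : EV V} (h : Adj f a b) (h' : Adj f c d) :
    Adj f (a * c) (d * b) := by
  intro u v
  show f (a (c u)) v = f u (d (b v))
  rw [h, h']

theorem Adj.neg (hr : RH ρ τ f) {a b : EV V} (h : Adj f a b) : Adj f (-a) (-b) := by
  intro u v
  show f (-(a u)) v = f u (-(b v))
  rw [hr.f_neg_left, hr.f_neg_right, h]

theorem Adj.one : Adj f (1 : EV V) 1 := fun _ _ => rfl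

theorem Adj.zero (hr : RH ρ τ f) : Adj f (0 : EV V) 0 := by
  intro u v
  show f 0 v = f u 0
  rw [hr.f_zero_left, hr.f_zero_right]

theorem RH.adj_rho (hr : RH ρ τ f) (k : K) : Adj f (rE (ρ k)) (rE (ρ k⁻¹)) := by
  intro u v
  have h1 := hr.ρf k u (rE (ρ k⁻¹) v)
  show f (rE (ρ k) u) v = f u (rE (ρ k⁻¹) v)
  rw [← h1, map_inv, rE_apply_inv]

theorem RH.exists_adj (hr : RH ρ τ f) {a : EV V} (ha : a ∈ Alg ρ) : ∃ b ∈ Alg ρ, Adj f a b := by
  induction ha using Subring.closure_induction with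
  | mem x hx =>
    obtain ⟨k, rfl⟩ := hx
    exact ⟨_, rho_mem_alg ρ k⁻¹, hr.adj_rho k⟩
  | zero => exact ⟨0, (Alg ρ).zero_mem, Adj.zero hr⟩
  | one => exact ⟨1, (Alg ρ).one_mem, Adj.one⟩
  | add x y _ _ hx hy =>
    obtain ⟨b, hb, h1⟩ := hx
    obtain ⟨d, hd, h2⟩ := hy
    exact ⟨b + d, (Alg ρ).add_mem hb hd, Adj.add hr h1 h2⟩
  | neg x _ hx =>
    obtain ⟨b, hb, h1⟩ := hx
    exact ⟨-b, (Alg ρ).neg_mem hb, Adj.neg hr h1⟩
  | mul x y _ _ hx hy =>
    obtain ⟨b, hb, h1⟩ := hx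
    obtain ⟨d, hd, h2⟩ := hy
    exact ⟨d * b, (Alg ρ).mul_mem hd hb, Adj.mul h1 h2⟩

/-- The adjoint of an element of `R` lies in `R`. -/
theorem RH.exists_adj_RR (hr : RH ρ τ f) {a : EV V} (ha : a ∈ RR ρ) : ∃ b ∈ RR ρ, Adj f a b := by
  obtain ⟨hA, hc⟩ := mem_RR.mp ha
  obtain ⟨b, hb, h1⟩ := hr.exists_adj hA
  refine ⟨b, mem_RR.mpr ⟨hb, fun k => ?_⟩, h1⟩
  have h2 := Adj.mul (hr.adj_rho k⁻¹) h1
  have h3 := Adj.mul h1 (hr.adj_rho k⁻¹)
  rw [hc k⁻¹] at h3
  have h4 := hr.adj_unique h2 h3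
  rw [inv_inv] at h4
  exact h4

end

/-- Conjugation by `τ t`. -/
def cj (τ : T →* UV V) (t : T) : EV V ≃+* EV V where
  toFun a := rE (τ t) * a * rE (τ t⁻¹)
  invFun a := rE (τ t⁻¹) * a * rE (τ t)
  left_inv a := by
    have h1 : rE (τ t⁻¹) * rE (τ t) = 1 := by
      rw [map_inv]; exact rE_inv_mul _
    have h2 : rE (τ t) * rE (τ t⁻¹) = 1 := by
      rw [map_inv]; exact rE_mul_inv _
    show rE (τ t⁻¹) * (rE (τ t) * a * rE (τ t⁻¹)) * rE (τ t) = a
    calc _ = (rE (τ t⁻¹) * rE (τ t)) * a * (rE (τ t⁻¹) * rE (τ t)) := by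
          simp only [mul_assoc]
      _ = a := by rw [h1, one_mul, mul_one]
  right_inv a := by
    have h1 : rE (τ t⁻¹) * rE (τ t) = 1 := by
      rw [map_inv]; exact rE_inv_mul _
    have h2 : rE (τ t) * rE (τ t⁻¹) = 1 := by
      rw [map_inv]; exact rE_mul_inv _
    show rE (τ t) * (rE (τ t⁻¹) * a * rE (τ t)) * rE (τ t⁻¹) = a
    calc _ = (rE (τ t) * rE (τ t⁻¹)) * a * (rE (τ t) * rE (τ t⁻¹)) := by
          simp only [mul_assoc]
      _ = a := by rw [h2, one_mul, mul_one]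
  map_mul' a b := by
    have h1 : rE (τ t⁻¹) * rE (τ t) = 1 := by
      rw [map_inv]; exact rE_inv_mul _
    show rE (τ t) * (a * b) * rE (τ t⁻¹) = (rE (τ t) * a * rE (τ t⁻¹)) * (rE (τ t) * b * rE (τ t⁻¹))
    calc _ = rE (τ t) * a * 1 * b * rE (τ t⁻¹) := by simp only [mul_assoc, mul_one]
      _ = _ := by rw [← h1]; simp only [mul_assoc]
  map_add' a b := by
    show rE (τ t) * (a + b) * rE (τ t⁻¹) = _
    rw [mul_add, add_mul]

theorem cj_def (τ : T →* UV V) (t : T) (a : EV V) :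
    cj τ t a = rE (τ t) * a * rE (τ t⁻¹) := rfl

theorem cj_mul_rE (τ : T →* UV V) (t : T) (a : EV V) :
    cj τ t a * rE (τ t) = rE (τ t) * a := by
  have h1 : rE (τ t⁻¹) * rE (τ t) = 1 := by
    rw [map_inv]; exact rE_inv_mul _
  rw [cj_def, mul_assoc, h1, mul_one]

theorem cj_apply (τ : T →* UV V) (t : T) (a : EV V) (v : V) :
    cj τ t a (rE (τ t) v) = rE (τ t) (a v) :=
  congrArg (fun b : EV V => b v) (cj_mul_rE τ t a)

theorem cj_one_mul (τ : T →* UV V) (s t : T) (a : EV V) :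
    cj τ (s * t) a = cj τ s (cj τ t a) := by
  rw [cj_def τ (s * t), cj_def τ s, cj_def τ t]
  simp only [map_mul, rE_mul, mul_inv_rev, mul_assoc]

theorem cj_one (τ : T →* UV V) (a : EV V) : cj τ 1 a = a := by
  simp only [cj_def, inv_one, map_one, rE_one, one_mul, mul_one]

section

variable {ρ : K →* UV V} {τ : T →* UV V} {f : V → V → ZMod 2}

theorem RH.cj_rho (hr : RH ρ τ f) (t : T) : ∃ σ : K ≃ K, ∀ k, cj τ t (rE (ρ k)) = rE (ρ (σ k)) := by
  obtain ⟨σ, hσ⟩ := hr.norm t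
  refine ⟨σ, fun k => ?_⟩
  rw [← hσ, rE_mul, rE_mul, cj_def, map_inv]

theorem RH.cj_alg (hr : RH ρ τ f) (t : T) {a : EV V} (ha : a ∈ Alg ρ) : cj τ t a ∈ Alg ρ := by
  obtain ⟨σ, hσ⟩ := hr.cj_rho t
  induction ha using Subring.closure_induction with
  | mem x hx =>
    obtain ⟨k, rfl⟩ := hx
    show cj τ t (rE (ρ k)) ∈ _
    rw [hσ]
    exact rho_mem_alg ρ _
  | zero => rw [map_zero]; exact (Alg ρ).zero_mem
  | one => rw [map_one]; exact (Alg ρ).one_mem
  | add x y _ _ hx hy => rw [map_add]; exact (Alg ρ).add_mem hx hy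
  | neg x _ hx => rw [map_neg]; exact (Alg ρ).neg_mem hx
  | mul x y _ _ hx hy => rw [map_mul]; exact (Alg ρ).mul_mem hx hy

theorem RH.cj_RR (hr : RH ρ τ f) (t : T) {a : EV V} (ha : a ∈ RR ρ) : cj τ t a ∈ RR ρ := by
  obtain ⟨hA, hc⟩ := mem_RR.mp ha
  obtain ⟨σ, hσ⟩ := hr.cj_rho t
  refine mem_RR.mpr ⟨hr.cj_alg t hA, fun k => ?_⟩
  have h1 : rE (ρ k) = cj τ t (rE (ρ (σ.symm k))) := by
    rw [hσ, Equiv.apply_symm_apply]
  rw [h1, ← map_mul, ← map_mul, hc]

theorem RH.adj_cj (hr : RH ρ τ f) (t : T) {a b : EV V} (h : Adj f a b) :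
    Adj f (cj τ t a) (cj τ t b) := by
  intro u v
  obtain ⟨u', rfl⟩ : ∃ u', rE (τ t) u' = u := ⟨rE (τ t)⁻¹ u, rE_apply_inv _ _⟩
  obtain ⟨v', rfl⟩ : ∃ v', rE (τ t) v' = v := ⟨rE (τ t)⁻¹ v, rE_apply_inv _ _⟩
  rw [cj_apply, cj_apply, hr.τf, hr.τf, h]

/-- The action of `T` on `R`. -/
noncomputable def RH.act (hr : RH ρ τ f) : T →* RingAut (RR ρ) where
  toFun t :=
    { toFun := fun a => ⟨cj τ t a, hr.cj_RR t a.2⟩
      invFun := fun a => ⟨cj τ t⁻¹ a, hr.cj_RR t⁻¹ a.2⟩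
      left_inv := fun a => by
        apply Subtype.ext
        show cj τ t⁻¹ (cj τ t a) = a
        rw [← cj_one_mul, inv_mul_cancel, cj_one]
      right_inv := fun a => by
        apply Subtype.ext
        show cj τ t (cj τ t⁻¹ a) = a
        rw [← cj_one_mul, mul_inv_cancel, cj_one]
      map_mul' := fun a b => Subtype.ext (map_mul (cj τ t) (a : EV V) (b : EV V))
      map_add' := fun a b => Subtype.ext (map_add (cj τ t) (a : EV V) (b : EV V)) }
  map_one' := RingEquiv.ext fun a => Subtype.ext (cj_one τ (a : EV V))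
  map_mul' s t := RingEquiv.ext fun a => Subtype.ext (cj_one_mul τ s t (a : EV V))

theorem RH.act_coe (hr : RH ρ τ f) (t : T) (a : RR ρ) : ((hr.act t a : RR ρ) : EV V) = cj τ t a := rfl

/-- Retractions onto subgroups of elementary abelian `2`-groups. -/
theorem exists_retraction (htwo : ∀ v : V, v + v = 0) (W : AddSubgroup V) :
    ∃ p : EV V, (∀ v, p v ∈ W) ∧ ∀ w ∈ W, p w = w := by
  haveI : Fact (Nat.Prime 2) := ⟨Nat.prime_two⟩
  have h2 : ∀ v : V, (2 : ℕ) • v = 0 := by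
    intro v
    rw [two_nsmul, htwo]
  letI : Module (ZMod 2) V := AddCommGroup.zmodModule h2
  let W₂ : Submodule (ZMod 2) V := AddSubgroup.toZModSubmodule 2 W
  obtain ⟨g, hg⟩ := LinearMap.exists_leftInverse_of_injective W₂.subtype W₂.ker_subtype
  refine ⟨((W₂.subtype.comp g : V →ₗ[ZMod 2] V) : V →+ V), ?_, ?_⟩
  · intro v
    exact (g v).2
  · intro w hw
    have h3 := LinearMap.congr_fun hg (⟨w, hw⟩ : W₂)
    have h4 : g w = ⟨w, hw⟩ := h3
    show ((g w : W₂) : V) = w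
    rw [h4]

/-- `R` is reduced. -/
theorem RH.reduced [Finite K] (hr : RH ρ τ f) {a : EV V} (ha : a ∈ RR ρ) (h2 : a * a = 0) : a = 0 := by
  classical
  letI := Fintype.ofFinite K
  obtain ⟨hA, hc⟩ := mem_RR.mp ha
  let W : AddSubgroup V := AddMonoidHom.ker a
  have hW : ∀ w, w ∈ W ↔ a w = 0 := fun w => AddMonoidHom.mem_ker
  have hWρ : ∀ k, ∀ w ∈ W, rE (ρ k) w ∈ W := by
    intro k w hw
    rw [hW] at hw ⊢
    have h3 := congrArg (fun b : EV V => b w) (hc k)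
    have h4 : a (rE (ρ k) w) = rE (ρ k) (a w) := h3
    rw [h4, hw, map_zero]
  obtain ⟨p, hp1, hp2⟩ := exists_retraction hr.two W
  let P : EV V := ∑ k : K, rE (ρ k) * p * rE (ρ k⁻¹)
  have hP : ∀ v, P v = ∑ k : K, rE (ρ k) (p (rE (ρ k⁻¹) v)) := by
    intro v
    show (∑ k : K, rE (ρ k) * p * rE (ρ k⁻¹)) v = _
    rw [ev_sum]
    rfl
  have hPW : ∀ v, P v ∈ W := by
    intro v
    rw [hP]
    exact W.sum_mem fun k _ => hWρ k _ (hp1 _)
  have hρρ : ∀ (k : K) (v : V), rE (ρ k) (rE (ρ k⁻¹) v) = v := by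
    intro k v
    rw [map_inv, rE_apply_inv]
  have hcardsmul : ∀ v : V, (Nat.card K) • v = v := by
    intro v
    obtain ⟨n, hn⟩ := hr.Kodd
    rw [hn, add_smul, one_smul, mul_smul, two_nsmul, hr.two, zero_add]
  have hPfix : ∀ w ∈ W, P w = w := by
    intro w hw
    rw [hP]
    have h3 : ∀ k : K, rE (ρ k) (p (rE (ρ k⁻¹) w)) = w := by
      intro k
      rw [hp2 _ (hWρ _ _ hw), hρρ]
    simp only [h3, Finset.sum_const, Finset.card_univ]
    rw [← Nat.card_eq_fintype_card, hcardsmul]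
  have hPρ : ∀ (l : K) (v : V), P (rE (ρ l) v) = rE (ρ l) (P v) := by
    intro l v
    rw [hP, hP, map_sum]
    apply Fintype.sum_equiv (Equiv.mulLeft l⁻¹)
    intro k
    show rE (ρ k) (p (rE (ρ k⁻¹) (rE (ρ l) v))) =
      rE (ρ l) (rE (ρ (l⁻¹ * k)) (p (rE (ρ (l⁻¹ * k)⁻¹) v)))
    rw [← rE_mul_apply (ρ l), ← map_mul, mul_inv_cancel_left, ← rE_mul_apply (ρ k⁻¹),
      ← map_mul, mul_inv_rev, inv_inv]
  let W' : AddSubgroup V := AddMonoidHom.ker P
  have hW' : ∀ w, w ∈ W' ↔ P w = 0 := fun w => AddMonoidHom.mem_ker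
  have hW'ρ : ∀ k, ∀ w ∈ W', rE (ρ k) w ∈ W' := by
    intro k w hw
    rw [hW'] at hw ⊢
    rw [hPρ, hw, map_zero]
  have hastab := alg_stable hA W' hW'ρ
  ext v
  show a v = 0
  have h3 : v + P v ∈ W' := by
    rw [hW', map_add, hPfix _ (hPW v), hr.two]
  have h4 : a (v + P v) ∈ W' := hastab _ h3
  have h5 : a (v + P v) ∈ W := by
    rw [hW]
    exact congrArg (fun b : EV V => b (v + P v)) h2
  have h6 : a (v + P v) = 0 := by
    rw [← hPfix _ h5]
    exact (hW' _).mp h4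
  have h7 : a (P v) = 0 := (hW _).mp (hPW v)
  rw [map_add, h7, add_zero] at h6
  exact h6

/-- Fixed idempotents. -/
theorem RH.fixed_idem (hr : RH ρ τ f) {e : EV V} (he : e ∈ RR ρ) (h2 : e * e = e)
    (hfixed : ∀ t, cj τ t e = e) : e = 0 ∨ e = 1 := by
  obtain ⟨hA, hc⟩ := mem_RR.mp he
  have hs1 : ∀ k, ∀ u ∈ AddMonoidHom.range e, rE (ρ k) u ∈ AddMonoidHom.range e := by
    rintro k _ ⟨u, rfl⟩
    refine ⟨rE (ρ k) u, ?_⟩
    exact congrArg (fun b : EV V => b u) (hc k)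
  have hs2 : ∀ t, ∀ u ∈ AddMonoidHom.range e, rE (τ t) u ∈ AddMonoidHom.range e := by
    rintro t _ ⟨u, rfl⟩
    refine ⟨rE (τ t) u, ?_⟩
    have := cj_apply τ t e u
    rw [hfixed] at this
    exact this
  rcases hr.irr (AddMonoidHom.range e) hs1 hs2 with h1 | h1
  · left
    ext v
    have : e v ∈ AddMonoidHom.range e := ⟨v, rfl⟩
    rw [h1] at this
    exact this
  · right
    ext v
    have : v ∈ AddMonoidHom.range e := by rw [h1]; trivial
    obtain ⟨u, rfl⟩ := this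
    exact congrArg (fun b : EV V => b u) h2

end

end Cfsg.Agent.Lib.XSE9
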