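import Mathlib
import Cfsg.Agent.Lib.XSE9

/-!
# The dichotomy for `R`
-/

set_option autoImplicit false
set_option linter.unusedSectionVars false
set_option linter.unusedVariables false
set_option linter.style.haveILetI false

namespace Cfsg.Agent.Lib.XSE10

open Cfsg.Agent.Lib.XSE8 Cfsg.Agent.Lib.XSE9

universe u

variable {V K T : Type u} [AddCommGroup V] [Group K] [Group T]
variable {ρ : K →* UV V} {τ : T →* UV V} {f : V → V → ZMod 2}

theorem Adj.sum (hr : RH ρ τ f) {ι : Type u} (S : Finset ι) (a b : ι → EV V)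
    (h : ∀ i, Adj f (a i) (b i)) : Adj f (∑ i ∈ S, a i) (∑ i ∈ S, b i) := by
  classical
  induction S using Finset.induction_on with
  | empty => exact XSE9.Adj.zero hr
  | insert i S hi ih =>
    rw [Finset.sum_insert hi, Finset.sum_insert hi]
    exact XSE9.Adj.add hr (h i) ih

theorem ev_nsmul (n : ℕ) (a : EV V) (v : V) : (n • a) v = n • (a v) := by
  induction n with
  | zero => simp
  | succ n ih =>
    rw [succ_nsmul, succ_nsmul, ← ih]
    rfl

theorem RH.exists_trace [Fintype K] (hr : RH ρ τ f) :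
    ∃ r ∈ RR ρ, ∃ r' ∈ RR ρ, Adj f r r' ∧ r + r' = 1 := by
  classical
  have htwoE : ∀ x : EV V, x + x = 0 := by
    intro x
    ext v
    exact hr.two _
  have hcardsmul : ∀ v : V, (Nat.card K) • v = v := by
    intro v
    obtain ⟨n, hn⟩ := hr.Kodd
    rw [hn, add_smul, one_smul, mul_smul, two_nsmul, hr.two, zero_add]
  have hodd : ∀ k : K, k * k = 1 → k = 1 := by
    intro k hk
    have h1 : orderOf k ∣ 2 := orderOf_dvd_of_pow_eq_one (by rw [sq, hk])
    have h2 : orderOf k ∣ Nat.card K := orderOf_dvd_natCard k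
    have h3 : orderOf k = 1 ∨ orderOf k = 2 := (Nat.dvd_prime Nat.prime_two).mp h1
    rcases h3 with h3 | h3
    · exact orderOf_eq_one_iff.mp h3
    · exfalso
      rw [h3] at h2
      exact (Nat.not_even_iff_odd.mpr hr.Kodd) (even_iff_two_dvd.mpr h2)
  have hsum : ∑ k : K, rE (ρ k) = 0 := by
    ext v
    rw [ev_sum]
    apply hr.fix
    intro l
    rw [map_sum]
    apply Fintype.sum_equiv (Equiv.mulLeft l)
    intro k
    show rE (ρ l) (rE (ρ k) v) = rE (ρ (l * k)) v
    rw [map_mul, rE_mul_apply]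
  let e := Fintype.equivFin K
  let a : K → EV V := fun k => if e k < e k⁻¹ then rE (ρ k) else 0
  let a' : K → EV V := fun k => if e k < e k⁻¹ then rE (ρ k⁻¹) else 0
  let b : K → EV V := fun k => if e k⁻¹ < e k then rE (ρ k) else 0
  have hab : ∑ k, a' k = ∑ k, b k := by
    apply Fintype.sum_equiv (Equiv.inv K)
    intro k
    show (if e k < e k⁻¹ then rE (ρ k⁻¹) else 0) = if e k⁻¹⁻¹ < e k⁻¹ then rE (ρ k⁻¹) else 0
    rw [inv_inv]
  have hkey : ∀ k, a k + b k + (if k = 1 then 1 else 0) = rE (ρ k) := by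
    intro k
    show (if e k < e k⁻¹ then rE (ρ k) else 0) + (if e k⁻¹ < e k then rE (ρ k) else 0) +
      (if k = 1 then 1 else 0) = rE (ρ k)
    by_cases h1 : k = 1
    · subst h1
      simp only [inv_one, lt_self_iff_false, if_false, if_true, zero_add, map_one, rE_one]
    · have h2 : e k ≠ e k⁻¹ := by
        intro h3
        apply h1
        apply hodd
        have h4 : k = k⁻¹ := e.injective h3
        calc k * k = k⁻¹ * k := by rw [← h4]
          _ = 1 := inv_mul_cancel k
      rcases lt_or_gt_of_ne h2 with h3 | h3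
      · simp [h1, h3, not_lt.mpr h3.le]
      · simp [h1, h3, not_lt.mpr h3.le]
  let r₀ : EV V := ∑ k, a k
  let r₀' : EV V := ∑ k, a' k
  have hr₀ : r₀ + r₀' = 1 := by
    have h1 : ∑ k : K, (a k + b k + (if k = 1 then 1 else 0)) = 0 :=
      (Finset.sum_congr rfl fun k _ => hkey k).trans hsum
    rw [Finset.sum_add_distrib, Finset.sum_add_distrib, ← hab, Finset.sum_ite_eq'] at h1
    simp only [Finset.mem_univ, if_true] at h1
    have h2 := htwoE 1
    have h3 : r₀ + r₀' + 1 = 0 := h1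
    have h4 : r₀ + r₀' + 1 = 1 + 1 := by rw [h3, h2]
    exact add_right_cancel h4
  have hr₀A : r₀ ∈ Alg ρ := by
    refine (Alg ρ).sum_mem fun k _ => ?_
    show (if e k < e k⁻¹ then rE (ρ k) else 0) ∈ _
    split_ifs
    · exact rho_mem_alg ρ k
    · exact (Alg ρ).zero_mem
  have hr₀'A : r₀' ∈ Alg ρ := by
    refine (Alg ρ).sum_mem fun k _ => ?_
    show (if e k < e k⁻¹ then rE (ρ k⁻¹) else 0) ∈ _
    split_ifs
    · exact rho_mem_alg ρ k⁻¹
    · exact (Alg ρ).zero_mem
  have hadj₀ : Adj f r₀ r₀' := by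
    apply Adj.sum hr
    intro k
    show Adj f (if e k < e k⁻¹ then rE (ρ k) else 0) (if e k < e k⁻¹ then rE (ρ k⁻¹) else 0)
    split_ifs
    · exact hr.adj_rho k
    · exact XSE9.Adj.zero hr
  let av : EV V → EV V := fun x => ∑ l : K, rE (ρ l) * x * rE (ρ l⁻¹)
  have hav_alg : ∀ x ∈ Alg ρ, av x ∈ Alg ρ := by
    intro x hx
    exact (Alg ρ).sum_mem fun l _ =>
      (Alg ρ).mul_mem ((Alg ρ).mul_mem (rho_mem_alg ρ l) hx) (rho_mem_alg ρ l⁻¹)
  have hav_comm : ∀ x k, av x * rE (ρ k) = rE (ρ k) * av x := by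
    intro x k
    show (∑ l : K, rE (ρ l) * x * rE (ρ l⁻¹)) * rE (ρ k) =
      rE (ρ k) * ∑ l : K, rE (ρ l) * x * rE (ρ l⁻¹)
    rw [Finset.sum_mul, Finset.mul_sum]
    apply Fintype.sum_equiv (Equiv.mulLeft k⁻¹)
    intro l
    show rE (ρ l) * x * rE (ρ l⁻¹) * rE (ρ k) =
      rE (ρ k) * (rE (ρ (k⁻¹ * l)) * x * rE (ρ (k⁻¹ * l)⁻¹))
    have h1 : rE (ρ (k⁻¹ * l)⁻¹) = rE (ρ l⁻¹) * rE (ρ k) := by
      rw [mul_inv_rev, inv_inv, map_mul, rE_mul]
    have h2 : rE (ρ k) * rE (ρ (k⁻¹ * l)) = rE (ρ l) := by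
      rw [← rE_mul, ← map_mul, mul_inv_cancel_left]
    rw [h1]
    simp only [← mul_assoc]
    rw [h2]
  have hav_adj : ∀ x y, Adj f x y → Adj f (av x) (av y) := by
    intro x y hxy
    apply Adj.sum hr
    intro l
    have h1 := XSE9.Adj.mul (XSE9.Adj.mul (hr.adj_rho l) hxy) (hr.adj_rho l⁻¹)
    rw [inv_inv, ← mul_assoc] at h1
    exact h1
  have hav_add : ∀ x y, av (x + y) = av x + av y := by
    intro x y
    show (∑ l : K, rE (ρ l) * (x + y) * rE (ρ l⁻¹)) = _
    simp only [mul_add, add_mul, Finset.sum_add_distrib]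
    rfl
  have hav_one : av 1 = 1 := by
    show (∑ l : K, rE (ρ l) * 1 * rE (ρ l⁻¹)) = 1
    have h1 : ∀ l : K, rE (ρ l) * 1 * rE (ρ l⁻¹) = 1 := by
      intro l
      rw [mul_one, map_inv, rE_mul_inv]
    simp only [h1, Finset.sum_const, Finset.card_univ]
    rw [← Nat.card_eq_fintype_card]
    ext v
    show (Nat.card K • (1 : EV V)) v = v
    rw [ev_nsmul]
    exact hcardsmul v
  refine ⟨av r₀, mem_RR.mpr ⟨hav_alg _ hr₀A, hav_comm _⟩, av r₀',
    mem_RR.mpr ⟨hav_alg _ hr₀'A, hav_comm _⟩, hav_adj _ _ hadj₀, ?_⟩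
  rw [← hav_add, hr₀, hav_one]

theorem rlayer [Finite V] [Finite K] [Finite T] [Nontrivial V] (hr : RH ρ τ f) :
    (∃ (T' : Subgroup T) (_ : T'.Normal) (t : T) (e : EV V), T'.index = 2 ∧ t ∉ T' ∧ e * e = e ∧
      (∀ k, e * rE (ρ k) = rE (ρ k) * e) ∧ (∀ s ∈ T', rE (τ s) * e = e * rE (τ s)) ∧
      (rE (τ t) * e = (1 - e) * rE (τ t)) ∧ (Adj f e e ∨ Adj f e (1 - e))) ∨
    (∃ C : Subgroup (UV V),
      (∀ g ∈ C, ∀ k, rE g * rE (ρ k) = rE (ρ k) * rE g) ∧
      (∀ g ∈ C, ∀ u v, f (rE g u) (rE g v) = f u v) ∧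
      (∀ t, ∀ g ∈ C, τ t * g * (τ t)⁻¹ ∈ C) ∧
      Odd (Nat.card C) ∧
      (∀ v, (∀ g ∈ C, rE g v = v) → v = 0) ∧
      ((∃ U : AddSubgroup V, U ≠ ⊥ ∧ U ≠ ⊤ ∧ (∀ g ∈ C, ∀ u ∈ U, rE g u ∈ U) ∧
          (∀ t, ∀ u ∈ U, rE (τ t) u ∈ U)) ∨
        (∃ (T₁ : Subgroup T) (_ : T₁.Normal), (∀ s ∈ T₁, τ s = 1) ∧ IsCyclic (T ⧸ T₁)))) := by
  classical
  letI := Fintype.ofFinite K
  obtain ⟨v₀, hv₀⟩ := exists_ne (0 : V)
  have hone0 : (1 : EV V) ≠ 0 := by
    intro h
    exact hv₀ (congrArg (fun a : EV V => a v₀) h)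
  haveI hnt : Nontrivial (RR ρ) := ⟨⟨0, 1, fun h => hone0 (congrArg Subtype.val h).symm⟩⟩
  haveI hfin : Finite (RR ρ) := Subtype.finite
  have htwoE : ∀ x : EV V, x + x = 0 := by
    intro x
    ext v
    exact hr.two _
  have htwoR : ∀ x : RR ρ, x + x = 0 := fun x => Subtype.ext (htwoE x)
  have hfixR : ∀ e : RR ρ, e * e = e → (∀ t, hr.act t e = e) → e = 0 ∨ e = 1 := by
    intro e he hfx
    rcases hr.fixed_idem e.2 (congrArg Subtype.val he)
        (fun t => congrArg Subtype.val (hfx t)) with h1 | h1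
    · exact Or.inl (Subtype.ext h1)
    · exact Or.inr (Subtype.ext h1)
  rcases idem_dichotomy hr.T2 hr.act hfixR with hid | ⟨T', hn, t, e, hidx, ht, he, hes, het⟩
  swap
  · -- case I
    left
    obtain ⟨e'₀, he'₀, hadj⟩ := hr.exists_adj_RR e.2
    let e' : RR ρ := ⟨e'₀, he'₀⟩
    have he' : e' * e' = e' := by
      apply Subtype.ext
      show e'₀ * e'₀ = e'₀
      have h1 := XSE9.Adj.mul hadj hadj
      rw [show (e : EV V) * e = e from congrArg Subtype.val he] at h1
      exact hr.adj_unique h1 hadj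
    have hes' : ∀ s ∈ T', hr.act s e' = e' := by
      intro s hs
      apply Subtype.ext
      show cj τ s e'₀ = e'₀
      have h1 := hr.adj_cj s hadj
      rw [show cj τ s (e : EV V) = e from congrArg Subtype.val (hes s hs)] at h1
      exact hr.adj_unique h1 hadj
    have het' : hr.act t e' = 1 - e' := by
      apply Subtype.ext
      show cj τ t e'₀ = 1 - e'₀
      have h1 := hr.adj_cj t hadj
      rw [show cj τ t (e : EV V) = 1 - e from congrArg Subtype.val het] at h1
      refine hr.adj_unique h1 ?_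
      have h2 := XSE9.Adj.add hr XSE9.Adj.one (XSE9.Adj.neg hr hadj)
      rw [← sub_eq_add_neg, ← sub_eq_add_neg] at h2
      exact h2
    have hstar := star_dichotomy hr.act htwoR hfixR T' t e e' hidx ht he he' hes hes' het het'
    refine ⟨T', hn, t, e, hidx, ht, congrArg Subtype.val he, (mem_RR.mp e.2).2, ?_, ?_, ?_⟩
    · intro s hs
      rw [← cj_mul_rE]
      rw [show cj τ s (e : EV V) = e from congrArg Subtype.val (hes s hs)]
    · rw [← cj_mul_rE]
      rw [show cj τ t (e : EV V) = 1 - e from congrArg Subtype.val het]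
    · rcases hstar with h1 | h1
      · left
        have h2 : e'₀ = e := congrArg Subtype.val h1
        rw [h2] at hadj
        exact hadj
      · right
        have h2 : e'₀ = 1 - e := congrArg Subtype.val h1
        rw [h2] at hadj
        exact hadj
  · right
    have hred : ∀ a : RR ρ, a * a = 0 → a = 0 := by
      intro a ha
      exact Subtype.ext (hr.reduced a.2 (congrArg Subtype.val ha))
    have hinv := exists_inv hred hid
    have hcomm : ∀ g : UV V, rE g ∈ RR ρ → ∀ k, rE g * rE (ρ k) = rE (ρ k) * rE g :=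
      fun g hg => (mem_RR.mp hg).2
    let C : Subgroup (UV V) :=
      { carrier := {g | rE g ∈ RR ρ ∧ ∀ u v, f (rE g u) (rE g v) = f u v}
        one_mem' := ⟨(RR ρ).one_mem, fun _ _ => rfl⟩
        mul_mem' := by
          rintro a b ⟨ha, ha'⟩ ⟨hb, hb'⟩
          refine ⟨(RR ρ).mul_mem ha hb, fun u v => ?_⟩
          show f (rE a (rE b u)) (rE a (rE b v)) = _
          rw [ha', hb']
        inv_mem' := by
          rintro a ⟨ha, ha'⟩
          refine ⟨?_, fun u v => ?_⟩
          · have hne : (⟨rE a, ha⟩ : RR ρ) ≠ 0 := by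
              intro h1
              have h2 : rE a = 0 := congrArg Subtype.val h1
              have h3 := rE_mul_inv a
              rw [h2, zero_mul] at h3
              exact hone0 h3.symm
            obtain ⟨b, hb⟩ := hinv _ hne
            have hb' : rE a * (b : EV V) = 1 := congrArg Subtype.val hb
            have h4 : rE a⁻¹ = b := by
              calc rE a⁻¹ = rE a⁻¹ * (rE a * (b : EV V)) := by rw [hb', mul_one]
                _ = b := by rw [← mul_assoc, rE_inv_mul, one_mul]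
            rw [h4]
            exact b.2
          · rw [← ha' (rE a⁻¹ u) (rE a⁻¹ v), rE_apply_inv, rE_apply_inv] }
    have hCmem : ∀ g, g ∈ C ↔ (rE g ∈ RR ρ ∧ ∀ u v, f (rE g u) (rE g v) = f u v) := fun g => Iff.rfl
    obtain ⟨r₀, hr₀, r'₀, hr'₀, hAdj, hsum⟩ := RH.exists_trace hr
    let r : RR ρ := ⟨r₀, hr₀⟩
    let r' : RR ρ := ⟨r'₀, hr'₀⟩
    have hsumR : r + r' = 1 := Subtype.ext hsum
    have hr'0 : r' ≠ 0 := by
      intro h1
      have h2 : r'₀ = 0 := congrArg Subtype.val h1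
      apply hv₀
      apply hr.nondeg
      intro v
      have h3 := hAdj v₀ v
      rw [h2] at h3
      have h4 : r₀ = 1 := by
        rw [h2, add_zero] at hsum
        exact hsum
      rw [h4] at h3
      exact h3.trans (hr.f_zero_right v₀)
    obtain ⟨s, hs⟩ := hinv r' hr'0
    obtain ⟨s'₀, hs'₀, hAs⟩ := hr.exists_adj_RR s.2
    let s' : RR ρ := ⟨s'₀, hs'₀⟩
    have hs'r : s' * r = 1 := by
      apply Subtype.ext
      have h1 := XSE9.Adj.mul (XSE9.Adj.symm hr hAdj) hAs
      rw [show r'₀ * (s : EV V) = 1 from congrArg Subtype.val hs] at h1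
      exact hr.adj_unique h1 XSE9.Adj.one
    let c : RR ρ := r * s
    let c' : RR ρ := r' * s'
    have hcc' : c * c' = 1 := by
      show (r * s) * (r' * s') = 1
      linear_combination (s' * r) * hs + hs'r
    have hc'c : c' * c = 1 := by
      rw [mul_comm]
      exact hcc'
    have hAc : Adj f (c : EV V) (c' : EV V) := by
      have h1 := XSE9.Adj.mul hAdj hAs
      have h2 : s'₀ * r'₀ = r'₀ * s'₀ := RR_comm hs'₀ hr'₀
      rw [h2] at h1
      exact h1
    let g₀ : UV V := ⟨c, c', congrArg Subtype.val hcc', congrArg Subtype.val hc'c⟩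
    have hg₀ : g₀ ∈ C := by
      refine ⟨c.2, fun u v => ?_⟩
      show f ((c : EV V) u) ((c : EV V) v) = f u v
      rw [hAc]
      have h1 : (c' : EV V) * (c : EV V) = 1 := congrArg Subtype.val hc'c
      exact congrArg (fun a : EV V => f u (a v)) h1
    have hfpf : ∀ v, (∀ g ∈ C, rE g v = v) → v = 0 := by
      intro v hv
      have h1 : (c : EV V) v = v := hv g₀ hg₀
      have h2 : c + 1 = s := by
        show r * s + 1 = s
        linear_combination -hs + s * hsumR
      have h3 : (s : EV V) v = 0 := by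
        rw [← h2]
        show (c : EV V) v + v = 0
        rw [h1, hr.two]
      have h4 : ((r' * s : RR ρ) : EV V) v = 0 := by
        show (r'₀) ((s : EV V) v) = 0
        rw [h3, map_zero]
      rw [hs] at h4
      exact h4
    have hodd : Odd (Nat.card C) := by
      by_contra h1
      rw [Nat.not_odd_iff_even] at h1
      obtain ⟨x, hx⟩ := exists_prime_orderOf_dvd_card' 2 (even_iff_two_dvd.mp h1)
      have hx1 : x ≠ 1 := by
        rintro rfl
        rw [orderOf_one] at hx
        omega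
      have hx2 : x * x = 1 := by
        have := pow_orderOf_eq_one x
        rwa [hx, sq] at this
      have hx3 : rE (x : UV V) * rE (x : UV V) = 1 := by
        rw [← rE_mul]
        exact congrArg (fun y : C => rE (y : UV V)) hx2
      have hx4 : rE (x : UV V) - 1 ∈ RR ρ := (RR ρ).sub_mem x.2.1 (RR ρ).one_mem
      have hx5 : (rE (x : UV V) - 1) * (rE (x : UV V) - 1) = 0 := by
        have h2 := htwoE (rE (x : UV V))
        have h3 := htwoE 1
        calc (rE (x : UV V) - 1) * (rE (x : UV V) - 1)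
            = rE (x : UV V) * rE (x : UV V) - (rE (x : UV V) + rE (x : UV V)) + 1 := by noncomm_ring
          _ = 0 := by rw [hx3, h2, sub_zero, h3]
      have hx6 := hr.reduced hx4 hx5
      apply hx1
      apply Subtype.ext
      apply rE_inj
      exact sub_eq_zero.mp hx6
    refine ⟨C, fun g hg => (mem_RR.mp hg.1).2, fun g hg => hg.2, ?_, hodd, hfpf, ?_⟩
    · intro t g hg
      refine ⟨?_, fun u v => ?_⟩
      · have h1 := hr.cj_RR t hg.1
        rw [cj_def, map_inv] at h1
        exact h1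
      · show f (rE (τ t) (rE g (rE (τ t)⁻¹ u))) (rE (τ t) (rE g (rE (τ t)⁻¹ v))) = _
        rw [hr.τf, hg.2, ← hr.τf t (rE (τ t)⁻¹ u), rE_apply_inv, rE_apply_inv]
    -- the fixed vector
    letI : MulAction T V :=
      { smul := fun t v => rE (τ t) v
        one_smul := fun v => by
          show rE (τ 1) v = v
          rw [map_one]
          rfl
        mul_smul := fun s t v => by
          show rE (τ (s * t)) v = rE (τ s) (rE (τ t) v)
          rw [map_mul]
          rfl }
    haveI : Fact (Nat.Prime 2) := ⟨Nat.prime_two⟩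
    have h2V : 2 ∣ Nat.card V := by
      have h1 : (2 : ℕ) • v₀ = 0 := by rw [two_nsmul, hr.two]
      have h2 := addOrderOf_eq_prime h1 hv₀
      rw [← h2]
      exact addOrderOf_dvd_natCard v₀
    have h0fix : (0 : V) ∈ MulAction.fixedPoints T V := by
      intro t
      show rE (τ t) 0 = 0
      exact map_zero _
    obtain ⟨v, hv, hv0⟩ := hr.T2.exists_fixed_point_of_prime_dvd_card_of_fixed_point V h2V h0fix
    have hvfix : ∀ t, rE (τ t) v = v := fun t => hv t
    let U : AddSubgroup V :=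
      { carrier := {w | ∃ a ∈ RR ρ, a v = w}
        zero_mem' := ⟨0, (RR ρ).zero_mem, rfl⟩
        add_mem' := by
          rintro _ _ ⟨a, ha, rfl⟩ ⟨b, hb, rfl⟩
          exact ⟨a + b, (RR ρ).add_mem ha hb, rfl⟩
        neg_mem' := by
          rintro _ ⟨a, ha, rfl⟩
          exact ⟨-a, (RR ρ).neg_mem ha, rfl⟩ }
    by_cases hU : U = ⊤
    · right
      refine ⟨hr.act.ker, inferInstance, ?_, ?_⟩
      · intro s hs
        apply rE_inj
        ext w
        have h1 : w ∈ U := by rw [hU]; trivial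
        obtain ⟨a, ha, rfl⟩ := h1
        have h2 : hr.act s ⟨a, ha⟩ = ⟨a, ha⟩ := by
          rw [MonoidHom.mem_ker.mp hs]
          rfl
        have h3 : cj τ s a = a := congrArg Subtype.val h2
        have h4 := cj_apply τ s a v
        rw [h3, hvfix] at h4
        rw [← h4]
        rfl
      · haveI := cyc_of_inv htwoR hinv
        exact isCyclic_of_injective (QuotientGroup.kerLift hr.act) (QuotientGroup.kerLift_injective _)
    · left
      refine ⟨U, ?_, hU, ?_, ?_⟩
      · intro h1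
        have h2 : v ∈ U := ⟨1, (RR ρ).one_mem, rfl⟩
        rw [h1] at h2
        exact hv0 (AddSubgroup.mem_bot.mp h2).symm
      · rintro g hg _ ⟨a, ha, rfl⟩
        exact ⟨rE g * a, (RR ρ).mul_mem hg.1 ha, rfl⟩
      · rintro t _ ⟨a, ha, rfl⟩
        refine ⟨cj τ t a, hr.cj_RR t ha, ?_⟩
        have h4 := cj_apply τ t a v
        rw [hvfix] at h4
        exact h4

end Cfsg.Agent.Lib.XSE10
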