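import Mathlib
import Cfsg.Agent.Lib.XSE1

/-!
# Actions on subgroups and quotients, the space `V = E / Z`, averaging.
-/

set_option autoImplicit false
set_option linter.unusedSectionVars false
set_option linter.unusedVariables false
set_option linter.style.haveILetI false

namespace Cfsg.Agent.Lib.XSE2

open Cfsg Cfsg.Agent.Lib.CharBasic Cfsg.Agent.Lib.XSE1

universe u v

/-! ### Induced actions -/

section Acts

variable {E : Type u} [Group E] {X : Type v} [Group X]

/-- Restriction of an action to a stable subgroup. -/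
def rAct (f : X →* MulAut E) (A : Subgroup E) (hA : ∀ x, ∀ a ∈ A, f x a ∈ A) : X →* MulAut A where
  toFun x :=
    { toFun := fun a => ⟨f x a, hA x a a.2⟩
      invFun := fun a => ⟨f x⁻¹ a, hA x⁻¹ a a.2⟩
      left_inv := fun a => by
        apply Subtype.ext
        show f x⁻¹ (f x a) = a
        rw [← MulAut.mul_apply, ← map_mul]
        simp
      right_inv := fun a => by
        apply Subtype.ext
        show f x (f x⁻¹ a) = a
        rw [← MulAut.mul_apply, ← map_mul]
        simp
      map_mul' := fun a b => by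
        apply Subtype.ext
        simp }
  map_one' := by
    ext a
    simp
  map_mul' := fun x y => by
    ext a
    simp

@[simp] theorem rAct_coe (f : X →* MulAut E) (A : Subgroup E) (hA : ∀ x, ∀ a ∈ A, f x a ∈ A)
    (x : X) (a : A) : ((rAct f A hA x a : A) : E) = f x a := rfl

/-- The induced action on a quotient by a stable normal subgroup. -/
def qAct (f : X →* MulAut E) (B : Subgroup E) [hBn : B.Normal] (hB : ∀ x, ∀ b ∈ B, f x b ∈ B) :
    X →* MulAut (E ⧸ B) where
  toFun x := MonoidHom.toMulEquiv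
    (QuotientGroup.map B B (f x).toMonoidHom (fun b hb => hB x b hb))
    (QuotientGroup.map B B (f x⁻¹).toMonoidHom (fun b hb => hB x⁻¹ b hb))
    (by
      ext a
      show ((f x⁻¹ (f x a) : E) : E ⧸ B) = (a : E ⧸ B)
      rw [← MulAut.mul_apply, ← map_mul]
      simp)
    (by
      ext a
      show ((f x (f x⁻¹ a) : E) : E ⧸ B) = (a : E ⧸ B)
      rw [← MulAut.mul_apply, ← map_mul]
      simp)
  map_one' := by
    ext a
    induction a using QuotientGroup.induction_on with
    | H a => simp [MonoidHom.toMulEquiv]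
  map_mul' := fun x y => by
    ext a
    induction a using QuotientGroup.induction_on with
    | H a => simp [MonoidHom.toMulEquiv]

@[simp] theorem qAct_mk (f : X →* MulAut E) (B : Subgroup E) [hBn : B.Normal]
    (hB : ∀ x, ∀ b ∈ B, f x b ∈ B) (x : X) (a : E) :
    qAct f B hB x (a : E ⧸ B) = ((f x a : E) : E ⧸ B) := rfl

end Acts

/-! ### The elementary abelian quotient -/

section VV

variable {E : Type u} [Group E] {z : E}

/-- `π : E → V` realises `V` as `E / ⟨z⟩`. -/
structure Pi {V : Type u} [AddCommGroup V] (z : E) (π : E → V) : Prop where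
  map_mul : ∀ x y, π (x * y) = π x + π y
  surj : Function.Surjective π
  eq_iff : ∀ x y, π x = π y ↔ x = y ∨ x = y * z

variable {V : Type u} [AddCommGroup V] {π : E → V}

theorem Pi.map_one (hπ : Pi z π) : π 1 = 0 := by
  have := hπ.map_mul 1 1
  simpa using this

theorem Pi.map_z (hπ : Pi z π) : π z = 0 := by
  rw [← hπ.map_one]
  exact (hπ.eq_iff z 1).mpr (Or.inr (by simp))

theorem Pi.eq_zero_iff (hπ : Pi z π) (x : E) : π x = 0 ↔ x = 1 ∨ x = z := by
  rw [← hπ.map_one, hπ.eq_iff]
  simp

theorem Pi.two (h : XS E z) (hπ : Pi z π) (v : V) : v + v = 0 := by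
  obtain ⟨x, rfl⟩ := hπ.surj v
  rw [← hπ.map_mul, hπ.eq_zero_iff]
  exact h.sq x

theorem Pi.map_neg (h : XS E z) (hπ : Pi z π) (v : V) : -v = v := by
  have := Pi.two h hπ v
  exact neg_eq_of_add_eq_zero_left this

/-- Existence of `V`. -/
theorem exists_pi [Finite E] (h : XS E z) :
    ∃ (V : Type u) (_ : AddCommGroup V) (_ : Finite V) (π : E → V), Pi z π := by
  classical
  letI cg : CommGroup (E ⧸ Subgroup.center E) :=
    { (inferInstance : Group (E ⧸ Subgroup.center E)) with
      mul_comm := by
        intro a b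
        induction a using QuotientGroup.induction_on with
        | H a =>
        induction b using QuotientGroup.induction_on with
        | H b =>
        rw [← QuotientGroup.mk_mul, ← QuotientGroup.mk_mul, QuotientGroup.eq]
        rw [h.mem_center]
        rcases h.comm a b with h1 | h1
        · left
          rw [h1]
          group
        · right
          rw [h1, mul_inv_rev, mul_assoc, inv_mul_cancel, mul_one, h.z_inv] }
  refine ⟨Additive (E ⧸ Subgroup.center E), inferInstance, inferInstance,
    fun x => Additive.ofMul (x : E ⧸ Subgroup.center E), ?_⟩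
  refine ⟨fun x y => rfl, ?_, ?_⟩
  · intro v
    obtain ⟨x, hx⟩ := QuotientGroup.mk_surjective (Additive.toMul v)
    exact ⟨x, by
      show Additive.ofMul (x : E ⧸ Subgroup.center E) = v
      rw [hx]; rfl⟩
  · intro x y
    show ((x : E ⧸ Subgroup.center E) = y) ↔ _
    rw [eq_comm, QuotientGroup.eq, h.mem_center]
    constructor
    · rintro (h1 | h1)
      · left
        rw [inv_mul_eq_one] at h1
        exact h1.symm
      · right
        rw [inv_mul_eq_iff_eq_mul] at h1
        exact h1.symm ▸ rfl
    · rintro (h1 | h1)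
      · left
        rw [h1]; group
      · right
        rw [h1, inv_mul_cancel_left]

/-- The automorphism of `V` induced by an automorphism of `E`. -/
noncomputable def indV (h : XS E z) (hπ : Pi z π) (α : E ≃* E) : V ≃+ V :=
  have key : ∀ (α : E ≃* E) (x y : E), π x = π y → π (α x) = π (α y) := by
    intro α x y hxy
    rw [hπ.eq_iff] at hxy ⊢
    rcases hxy with rfl | rfl
    · left; rfl
    · right
      rw [map_mul, h.aut_z]
  { toFun := fun v => π (α (Function.surjInv hπ.surj v))
    invFun := fun v => π (α.symm (Function.surjInv hπ.surj v))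
    left_inv := fun v => by
      have h1 : π (Function.surjInv hπ.surj (π (α (Function.surjInv hπ.surj v)))) =
          π (α (Function.surjInv hπ.surj v)) := Function.surjInv_eq hπ.surj _
      have h2 := key α.symm _ _ h1
      show π (α.symm (Function.surjInv hπ.surj (π (α (Function.surjInv hπ.surj v))))) = v
      rw [h2, α.symm_apply_apply]
      exact Function.surjInv_eq hπ.surj _
    right_inv := fun v => by
      have h1 : π (Function.surjInv hπ.surj (π (α.symm (Function.surjInv hπ.surj v)))) =
          π (α.symm (Function.surjInv hπ.surj v)) := Function.surjInv_eq hπ.surj _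
      have h2 := key α _ _ h1
      show π (α (Function.surjInv hπ.surj (π (α.symm (Function.surjInv hπ.surj v))))) = v
      rw [h2, α.apply_symm_apply]
      exact Function.surjInv_eq hπ.surj _
    map_add' := fun u v => by
      have h1 : π (Function.surjInv hπ.surj (u + v)) =
          π (Function.surjInv hπ.surj u * Function.surjInv hπ.surj v) := by
        rw [Function.surjInv_eq hπ.surj, hπ.map_mul, Function.surjInv_eq hπ.surj,
          Function.surjInv_eq hπ.surj]
      have h2 := key α _ _ h1
      show π (α (Function.surjInv hπ.surj (u + v))) = π (α (Function.surjInv hπ.surj u)) +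
        π (α (Function.surjInv hπ.surj v))
      rw [h2, map_mul, hπ.map_mul] }

theorem indV_mk (h : XS E z) (hπ : Pi z π) (α : E ≃* E) (x : E) :
    indV h hπ α (π x) = π (α x) := by
  show π (α (Function.surjInv hπ.surj (π x))) = π (α x)
  rw [hπ.eq_iff]
  have h1 : π (Function.surjInv hπ.surj (π x)) = π x := Function.surjInv_eq hπ.surj _
  rw [hπ.eq_iff] at h1
  rcases h1 with h1 | h1
  · left; rw [h1]
  · right; rw [h1, map_mul, h.aut_z]

theorem indV_mul (h : XS E z) (hπ : Pi z π) (α β : E ≃* E) (v : V) :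
    indV h hπ (α * β) v = indV h hπ α (indV h hπ β v) := by
  obtain ⟨x, rfl⟩ := hπ.surj v
  rw [indV_mk, indV_mk, indV_mk]
  rfl

theorem indV_one (h : XS E z) (hπ : Pi z π) (v : V) : indV h hπ 1 v = v := by
  obtain ⟨x, rfl⟩ := hπ.surj v
  rw [indV_mk]
  rfl

end VV

/-! ### The hypotheses -/

section Hyp

instance instFiniteSemidirectXSE {E T : Type u} [Group E] [Group T] [Finite E] [Finite T]
    (φ : T →* MulAut E) : Finite (E ⋊[φ] T) :=
  Finite.of_equiv _ SemidirectProduct.equivProd.symm

/-- The inductive hypotheses. -/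
structure Hyp {E T K : Type u} [Group E] [Group T] [Group K] (z : E)
    (φ : T →* MulAut E) (κ : K →* MulAut E) : Prop where
  xs : XS E z
  T2 : IsPGroup 2 T
  Kodd : Odd (Nat.card K)
  norm : ∀ t : T, ∃ σ : K ≃ K, ∀ k, φ t * κ k * (φ t)⁻¹ = κ (σ k)
  fpf : ∀ e, (∀ k, κ k e = e ∨ κ k e = e * z) → e = 1 ∨ e = z

/-- The conclusion. -/
def Concl {E T : Type u} [Group E] [Group T] (z : E) (φ : T →* MulAut E) : Prop :=
  ∃ (χ : E ⋊[φ] T → ℂ) (d : ℕ), Fa SemidirectProduct.inl z χ d

variable {E T K : Type u} [Group E] [Group T] [Group K] {z : E}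
  {φ : T →* MulAut E} {κ : K →* MulAut E}

/-- The average over `K` vanishes on `V`. -/
theorem Hyp.avg [Finite E] [Fintype K] (H : Hyp z φ κ) {V : Type u} [AddCommGroup V] {π : E → V}
    (hπ : Pi z π) (x : E) : ∑ k : K, π (κ k x) = 0 := by
  obtain ⟨y, hy⟩ := hπ.surj (∑ k : K, π (κ k x))
  have h1 : ∀ k₀, κ k₀ y = y ∨ κ k₀ y = y * z := by
    intro k₀
    rw [← hπ.eq_iff, ← indV_mk H.xs hπ, hy, map_sum]
    apply Fintype.sum_equiv (Equiv.mulLeft k₀)
    intro k
    rw [indV_mk]
    show π ((κ k₀ * κ k) x) = _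
    rw [← map_mul]
    rfl
  rw [← hy, hπ.eq_zero_iff]
  exact H.fpf y h1

/-- Oddness, in `ℕ`. -/
theorem Hyp.card_smul [Finite E] [Fintype K] (H : Hyp z φ κ) {V : Type u} [AddCommGroup V] {π : E → V}
    (hπ : Pi z π) (v : V) : (Fintype.card K) • v = v := by
  obtain ⟨m, hm⟩ := H.Kodd
  rw [← Nat.card_eq_fintype_card, hm, add_smul, one_smul, mul_comm, mul_smul, two_smul]
  rw [Pi.two H.xs hπ, smul_zero, zero_add]

/-- An additive `K`-invariant function vanishes. -/
theorem Hyp.invariant_additive [Finite E] [Fintype K] (H : Hyp z φ κ) {V : Type u} [AddCommGroup V]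
    {π : E → V} (hπ : Pi z π) {W : Type*} [AddCommGroup W] (hW : ∀ w : W, w + w = 0) (ℓ : V →+ W)
    (hℓ : ∀ k x, ℓ (π (κ k x)) = ℓ (π x)) (v : V) : ℓ v = 0 := by
  obtain ⟨x, rfl⟩ := hπ.surj v
  have h1 : ℓ (∑ k : K, π (κ k x)) = (Fintype.card K) • ℓ (π x) := by
    rw [map_sum]
    simp only [hℓ]
    simp
  rw [H.avg hπ, map_zero] at h1
  obtain ⟨m, hm⟩ := H.Kodd
  rw [← Nat.card_eq_fintype_card, hm, add_smul, one_smul, mul_comm, mul_smul, two_smul, hW,
    smul_zero, zero_add] at h1
  exact h1.symm

/-- Odd-order elements act faithfully on `V`: if `κ k` acts trivially on `V` it is trivial. -/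
theorem Hyp.kappa_trivial [Finite E] (H : Hyp z φ κ) {k : K}
    (hk : ∀ x, κ k x = x ∨ κ k x = x * z) : κ k = 1 := by
  have hsq : ∀ x, (κ k * κ k) x = x := by
    intro x
    show κ k (κ k x) = x
    rcases hk x with h1 | h1
    · rw [h1, h1]
    · rw [h1, map_mul, H.xs.aut_z, h1, mul_assoc, H.xs.z_sq, mul_one]
  have h2 : κ k * κ k = 1 := by
    ext x
    exact hsq x
  have h3 : (κ k) ^ 2 = 1 := by rw [sq, h2]
  have h4 : orderOf (κ k) ∣ 2 := orderOf_dvd_of_pow_eq_one h3
  have h5 : (κ k) ^ Nat.card K = 1 := by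
    rw [← map_pow, pow_card_eq_one', map_one]
  have h6 : orderOf (κ k) ∣ Nat.card K := orderOf_dvd_of_pow_eq_one h5
  have h7 : orderOf (κ k) ∣ Nat.gcd 2 (Nat.card K) := Nat.dvd_gcd h4 h6
  have h8 : Nat.gcd 2 (Nat.card K) = 1 := by
    exact Nat.coprime_two_left.mpr H.Kodd
  rw [h8, Nat.dvd_one, orderOf_eq_one_iff] at h7
  exact h7

end Hyp

end Cfsg.Agent.Lib.XSE2
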