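import Mathlib
import Cfsg.Agent.Lib.XSE2

/-!
# The isotropic step
-/

set_option autoImplicit false
set_option linter.unusedSectionVars false
set_option linter.unusedVariables false
set_option linter.style.haveILetI false

namespace Cfsg.Agent.Lib.XSE3

open Cfsg Cfsg.Agent.Lib.CharBasic Cfsg.Agent.Lib.XSE1 Cfsg.Agent.Lib.XSE2
open Cfsg.Agent.Lib.CharInd

universe u

section Ind

variable {E M : Type u} [Group E] [Group M] {z : E} {j : E →* M}

/-- Induction of a character, in the situation of `Fa`. -/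
theorem fa_induced [Fintype M] (H : Subgroup M) {θ : H → ℂ} (hθ : IsCharacter H θ) {d₀ : ℕ}
    (h1 : θ 1 = d₀) (hzH : j z ∈ H) (hzc : ∀ g, j z * g = g * j z)
    (hz : θ ⟨j z, hzH⟩ = -(d₀ : ℂ))
    (hdeg : (H.index * d₀) * (H.index * d₀) * 2 = Nat.card E) :
    Fa j z (indFun H θ) (H.index * d₀) := by
  refine ⟨indFun_isCharacter H hθ, ?_, ?_, hdeg⟩
  · rw [indFun_one, h1]
    push_cast
    ring
  · rw [indFun_apply]
    have h2 : ∀ x : M, extendByZero H θ (x⁻¹ * j z * x) = -(d₀ : ℂ) := by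
      intro x
      have h3 : x⁻¹ * j z * x = j z := by
        rw [mul_assoc, hzc x, ← mul_assoc, inv_mul_cancel, one_mul]
      rw [h3, extendByZero_of_mem H θ hzH]
      exact hz
    simp only [h2, Finset.sum_const, Finset.card_univ, nsmul_eq_mul]
    rw [Fintype.card_eq_nat_card, ← Subgroup.card_mul_index H]
    have hH := natCard_subgroup_ne_zero H
    push_cast
    field_simp

end Ind

section Core

variable {E T K : Type u} [Group E] [Group T] [Group K] {z : E}
  {φ : T →* MulAut E} {κ : K →* MulAut E}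

/-- The `K`-and-`T`-stable complement to `⟨z⟩` in an abelian stable subgroup. -/
theorem exists_B [Finite E] [Finite K] (H : Hyp z φ κ) (A : Subgroup E) (hzA : z ∈ A)
    (hAc : ∀ a ∈ A, ∀ b ∈ A, a * b = b * a) (hAφ : ∀ t, ∀ a ∈ A, φ t a ∈ A)
    (hAκ : ∀ k, ∀ a ∈ A, κ k a ∈ A) :
    ∃ B : Subgroup E, B ≤ A ∧ z ∉ B ∧ (∀ a ∈ A, a ∈ B ∨ a * z ∈ B) ∧ (∀ t, ∀ b ∈ B, φ t b ∈ B) ∧
      (∀ k, ∀ b ∈ B, κ k b ∈ B) ∧ (∀ b ∈ B, b * b = 1) ∧ Nat.card A = 2 * Nat.card B := by
  classical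
  letI := Fintype.ofFinite K
  letI cg : CommGroup A :=
    { (inferInstance : Group A) with
      mul_comm := fun a b => Subtype.ext (hAc a a.2 b b.2) }
  let ρ : K →* MulAut A := rAct κ A hAκ
  let τ : T →* MulAut A := rAct φ A hAφ
  let zA : A := ⟨z, hzA⟩
  let f : A →* A :=
    { toFun := fun a => ∏ k : K, ρ k a
      map_one' := by simp
      map_mul' := fun a b => by
        simp only [map_mul]
        exact Finset.prod_mul_distrib }
  have hf : ∀ a, f a = ∏ k : K, ρ k a := fun a => rfl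
  have hfix : ∀ k₀ a, ρ k₀ (f a) = f a := by
    intro k₀ a
    rw [hf, map_prod]
    apply Fintype.prod_equiv (Equiv.mulLeft k₀)
    intro k
    show ρ k₀ (ρ k a) = ρ (k₀ * k) a
    rw [map_mul]
    rfl
  have hval : ∀ a, f a = 1 ∨ f a = zA := by
    intro a
    have h1 : ((f a : A) : E) = 1 ∨ ((f a : A) : E) = z := by
      apply H.fpf
      intro k
      left
      have := hfix k a
      exact congrArg Subtype.val this
    rcases h1 with h1 | h1
    · left; exact Subtype.ext h1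
    · right; exact Subtype.ext h1
  have hρz : ∀ k, ρ k zA = zA := fun k => Subtype.ext (H.xs.aut_z (κ k))
  have hzA1 : zA ≠ 1 := fun h1 => H.xs.z_ne (congrArg Subtype.val h1)
  have hzA2 : zA * zA = 1 := Subtype.ext H.xs.z_sq
  have hfz : f zA = zA := by
    rw [hf]
    simp only [hρz, Finset.prod_const, Finset.card_univ]
    obtain ⟨m, hm⟩ := H.Kodd
    rw [← Nat.card_eq_fintype_card, hm, pow_succ, pow_mul, sq, hzA2, one_pow, one_mul]
  have hfρ : ∀ k a, f (ρ k a) = f a := by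
    intro k a
    rw [hf, hf]
    apply Fintype.prod_equiv (Equiv.mulRight k)
    intro k'
    show ρ k' (ρ k a) = ρ (k' * k) a
    rw [map_mul]
    rfl
  have hfτ : ∀ t a, f (τ t a) = τ t (f a) := by
    intro t a
    obtain ⟨σ, hσ⟩ := H.norm t
    rw [hf, hf, map_prod]
    symm
    apply Fintype.prod_equiv σ
    intro k
    apply Subtype.ext
    show φ t (κ k a) = κ (σ k) (φ t a)
    rw [← hσ k]
    simp
  have hτz : ∀ t, τ t zA = zA := fun t => Subtype.ext (H.xs.aut_z (φ t))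
  refine ⟨f.ker.map A.subtype, ?_, ?_, ?_, ?_, ?_, ?_, ?_⟩
  · rintro _ ⟨a, -, rfl⟩
    exact a.2
  · rintro ⟨a, ha, h1⟩
    have h2 : a = zA := Subtype.ext h1
    rw [SetLike.mem_coe, MonoidHom.mem_ker, h2, hfz] at ha
    exact hzA1 ha
  · intro a ha
    rcases hval ⟨a, ha⟩ with h1 | h1
    · left
      exact ⟨⟨a, ha⟩, h1, rfl⟩
    · right
      refine ⟨⟨a, ha⟩ * zA, ?_, rfl⟩
      rw [SetLike.mem_coe, MonoidHom.mem_ker, map_mul, h1, hfz, hzA2]
  · rintro t _ ⟨a, ha, rfl⟩
    refine ⟨τ t a, ?_, rfl⟩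
    rw [SetLike.mem_coe, MonoidHom.mem_ker] at ha ⊢
    rw [hfτ, ha, map_one]
  · rintro k _ ⟨a, ha, rfl⟩
    refine ⟨ρ k a, ?_, rfl⟩
    rw [SetLike.mem_coe, MonoidHom.mem_ker] at ha ⊢
    rw [hfρ, ha]
  · rintro _ ⟨a, ha, rfl⟩
    rw [SetLike.mem_coe, MonoidHom.mem_ker] at ha
    rcases H.xs.sq (a : E) with h1 | h1
    · exact h1
    · exfalso
      have h2 : a * a = zA := Subtype.ext h1
      have h3 : f (a * a) = 1 := by rw [map_mul, ha, one_mul]
      rw [h2, hfz] at h3
      exact hzA1 h3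
  · -- the count
    have h1 : Nat.card (f.ker.map A.subtype) = Nat.card f.ker :=
      Nat.card_congr (Subgroup.equivMapOfInjective _ _ A.subtype_injective).symm.toEquiv
    have h2 := Subgroup.card_mul_index f.ker
    have h3 : f.ker.index = 2 := by
      rw [Subgroup.index_ker]
      have h4 : (f.range : Set A) = {1, zA} := by
        ext x
        constructor
        · rintro ⟨a, rfl⟩
          exact hval a
        · rintro (rfl | h5)
          · exact ⟨1, map_one f⟩
          · have h6 : x = zA := h5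
            rw [h6]
            exact ⟨zA, hfz⟩
      have h5 : Nat.card f.range = Nat.card ((f.range : Set A)) := rfl
      rw [h5, h4, Nat.card_coe_set_eq, Set.ncard_pair (Ne.symm hzA1)]
    rw [h1, ← h2, h3, mul_comm]

/-- The centraliser of a subgroup. -/
abbrev Cn {E : Type u} [Group E] (A : Subgroup E) : Subgroup E := Subgroup.centralizer (A : Set E)

theorem Cn_stable {X : Type*} [Group X] (f : X →* MulAut E) (A : Subgroup E)
    (hA : ∀ x, ∀ a ∈ A, f x a ∈ A) : ∀ x, ∀ c ∈ Cn A, f x c ∈ Cn A := by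
  intro x c hc
  rw [Subgroup.mem_centralizer_iff] at hc ⊢
  intro a ha
  have h1 : f x (f x⁻¹ a) = a := by
    rw [← MulAut.mul_apply, ← map_mul]
    simp
  have h2 := hc (f x⁻¹ a) (hA x⁻¹ a ha)
  rw [← h1, ← map_mul, h2, map_mul]

theorem z_mem_Cn (h : XS E z) (A : Subgroup E) : z ∈ Cn A := by
  rw [Subgroup.mem_centralizer_iff]
  intro a _
  exact (h.z_comm a).symm

theorem le_Cn {A : Subgroup E} (hAc : ∀ a ∈ A, ∀ b ∈ A, a * b = b * a) : A ≤ Cn A := by
  intro a ha
  rw [Subgroup.mem_centralizer_iff]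
  intro b hb
  exact hAc b hb a ha

section Quot

variable (h : XS E z) (A : Subgroup E) (hzA : z ∈ A) (B : Subgroup E) (hBA : B ≤ A) (hzB : z ∉ B)
  (hAB : ∀ a ∈ A, a ∈ B ∨ a * z ∈ B) [hn : (B.subgroupOf (Cn A)).Normal]

include h hzB hAB hzA hBA in
theorem mk_cases (hzC : z ∈ Cn A) (x : Cn A) (hx : (x : E) ∈ A) :
    ((x : Cn A) : Cn A ⧸ B.subgroupOf (Cn A)) = 1 ∨
      ((x : Cn A) : Cn A ⧸ B.subgroupOf (Cn A)) = ((⟨z, hzC⟩ : Cn A) : Cn A ⧸ B.subgroupOf (Cn A)) := by
  rcases hAB x hx with h1 | h1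
  · left
    rw [QuotientGroup.eq_one_iff]
    exact h1
  · right
    rw [QuotientGroup.eq, Subgroup.mem_subgroupOf]
    have h2 : ((x⁻¹ * ⟨z, hzC⟩ : Cn A) : E) = ((x : E) * z)⁻¹ := by
      push_cast
      rw [mul_inv_rev, h.z_inv, h.z_comm]
    rw [h2]
    exact B.inv_mem h1

include h hzB hAB hzA hBA in
theorem xs_quot [Finite E] (hzC : z ∈ Cn A) :
    XS (Cn A ⧸ B.subgroupOf (Cn A)) ((⟨z, hzC⟩ : Cn A) : Cn A ⧸ B.subgroupOf (Cn A)) := by
  refine ⟨?_, ?_, ?_, ?_⟩
  · intro h1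
    rw [QuotientGroup.eq_one_iff] at h1
    exact hzB h1
  · rw [← QuotientGroup.mk_mul]
    have : (⟨z, hzC⟩ * ⟨z, hzC⟩ : Cn A) = 1 := Subtype.ext h.z_sq
    rw [this]
    rfl
  · intro x
    induction x using QuotientGroup.induction_on with
    | H x =>
    constructor
    · intro hx
      apply mk_cases h A hzA B hBA hzB hAB hzC
      have h0 := XS.centralizer_centralizer h A hzA
      refine h0.le ?_
      rw [Subgroup.mem_centralizer_iff]
      intro c hc
      have h1 := hx ((⟨c, hc⟩ : Cn A) : Cn A ⧸ B.subgroupOf (Cn A))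
      rw [← QuotientGroup.mk_mul, ← QuotientGroup.mk_mul, QuotientGroup.eq,
        Subgroup.mem_subgroupOf] at h1
      rcases h.comm c x with h2 | h2
      · exact h2
      · exfalso
        apply hzB
        have h3 : (((x * ⟨c, hc⟩)⁻¹ * (⟨c, hc⟩ * x) : Cn A) : E) = z := by
          push_cast
          rw [h2, inv_mul_cancel_left]
        rw [h3] at h1
        exact h1
    · rintro (h1 | h1) y
      · rw [h1]; simp
      · rw [h1]
        induction y using QuotientGroup.induction_on with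
        | H y =>
        rw [← QuotientGroup.mk_mul, ← QuotientGroup.mk_mul]
        congr 1
        exact Subtype.ext (h.z_comm y)
  · intro x
    induction x using QuotientGroup.induction_on with
    | H x =>
    rw [← QuotientGroup.mk_mul]
    rcases h.sq x with h1 | h1
    · left
      have : x * x = 1 := Subtype.ext h1
      rw [this]
      rfl
    · right
      have : x * x = ⟨z, hzC⟩ := Subtype.ext h1
      rw [this]

end Quot

/-- The isotropic step. -/
theorem step_iso [Finite E] [Finite T] [Finite K] (H : Hyp z φ κ) (A : Subgroup E) (hzA : z ∈ A)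
    (hAc : ∀ a ∈ A, ∀ b ∈ A, a * b = b * a) (hA1 : ∃ a ∈ A, a ≠ 1 ∧ a ≠ z)
    (hAφ : ∀ t, ∀ a ∈ A, φ t a ∈ A) (hAκ : ∀ k, ∀ a ∈ A, κ k a ∈ A)
    (IH : ∀ (E' : Type u) [Group E'] [Finite E'] (z' : E') (φ' : T →* MulAut E')
      (κ' : K →* MulAut E'), Nat.card E' < Nat.card E → Hyp z' φ' κ' → Concl z' φ') :
    Concl z φ := by
  classical
  obtain ⟨B, hBA, hzB, hAB, hBφ, hBκ, hBsq, hcard⟩ := exists_B H A hzA hAc hAφ hAκ
  have h := H.xs
  have hAE : A ≤ Cn A := le_Cn hAc
  have hzC : z ∈ Cn A := z_mem_Cn h A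
  haveI hn : (B.subgroupOf (Cn A)).Normal := by
    constructor
    intro b hb c
    rw [Subgroup.mem_subgroupOf] at hb ⊢
    have h1 : ((c * b * c⁻¹ : Cn A) : E) = b := by
      have h2 := Subgroup.mem_centralizer_iff.mp c.2 (b : E) (hBA hb)
      push_cast
      rw [← h2]
      group
    rw [h1]
    exact hb
  let f₁ : T →* MulAut (Cn A) := rAct φ (Cn A) (Cn_stable φ A hAφ)
  let g₁ : K →* MulAut (Cn A) := rAct κ (Cn A) (Cn_stable κ A hAκ)
  let B₁ : Subgroup (Cn A) := B.subgroupOf (Cn A)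
  have hB₁φ : ∀ t, ∀ b ∈ B₁, f₁ t b ∈ B₁ := fun t b hb => hBφ t b hb
  have hB₁κ : ∀ k, ∀ b ∈ B₁, g₁ k b ∈ B₁ := fun k b hb => hBκ k b hb
  let φ₀ : T →* MulAut (Cn A ⧸ B₁) := qAct f₁ B₁ hB₁φ
  let κ₀ : K →* MulAut (Cn A ⧸ B₁) := qAct g₁ B₁ hB₁κ
  let z₁ : Cn A := ⟨z, hzC⟩
  let z₀ : Cn A ⧸ B₁ := z₁
  have hxs : XS (Cn A ⧸ B₁) z₀ := xs_quot h A hzA B hBA hzB hAB hzC
  have hH₀ : Hyp z₀ φ₀ κ₀ := by
    refine ⟨hxs, H.T2, H.Kodd, ?_, ?_⟩
    · intro t
      obtain ⟨σ, hσ⟩ := H.norm t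
      refine ⟨σ, fun k => ?_⟩
      ext x
      induction x using QuotientGroup.induction_on with
      | H x =>
      rw [← map_inv]
      show ((f₁ t (g₁ k (f₁ t⁻¹ x)) : Cn A) : Cn A ⧸ B₁) = ((g₁ (σ k) x : Cn A) : Cn A ⧸ B₁)
      congr 1
      apply Subtype.ext
      have h1 := DFunLike.congr_fun (hσ k) (x : E)
      rw [← map_inv] at h1
      exact h1
    · intro x hx
      induction x using QuotientGroup.induction_on with
      | H x =>
      apply mk_cases h A hzA B hBA hzB hAB hzC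
      -- `x⁻¹ κ_k x ∈ A`
      have h1 : ∀ k, (x : E)⁻¹ * κ k x ∈ A := by
        intro k
        rcases hx k with h2 | h2
        · have h3 : ((g₁ k x : Cn A) : Cn A ⧸ B₁) = (x : Cn A ⧸ B₁) := h2
          rw [eq_comm, QuotientGroup.eq, Subgroup.mem_subgroupOf] at h3
          exact hBA h3
        · have h3 : ((g₁ k x : Cn A) : Cn A ⧸ B₁) = ((x * z₁ : Cn A) : Cn A ⧸ B₁) := h2
          rw [eq_comm, QuotientGroup.eq, Subgroup.mem_subgroupOf] at h3
          have h4 : ((x * z₁)⁻¹ * g₁ k x : Cn A).1 = z * ((x : E)⁻¹ * κ k x) := by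
            show ((x : E) * z)⁻¹ * κ k x = _
            rw [mul_inv_rev, h.z_inv, mul_assoc]
          rw [h4] at h3
          have h5 := A.mul_mem hzA (hBA h3)
          rwa [← mul_assoc, h.z_sq, one_mul] at h5
      obtain ⟨V, _, _, π, hπ⟩ := exists_pi h
      letI := Fintype.ofFinite K
      let S : AddSubgroup V :=
        { carrier := {v | ∃ a ∈ A, π a = v}
          zero_mem' := ⟨1, A.one_mem, hπ.map_one⟩
          add_mem' := by
            rintro _ _ ⟨a, ha, rfl⟩ ⟨b, hb, rfl⟩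
            exact ⟨a * b, A.mul_mem ha hb, hπ.map_mul a b⟩
          neg_mem' := by
            rintro _ ⟨a, ha, rfl⟩
            exact ⟨a, ha, (Pi.map_neg h hπ _).symm⟩ }
      have h2 : ∑ k : K, π ((x : E)⁻¹ * κ k x) ∈ S :=
        AddSubgroup.sum_mem S fun k _ => ⟨_, h1 k, rfl⟩
      have h3 : ∑ k : K, π ((x : E)⁻¹ * κ k x) = π (x : E)⁻¹ := by
        simp only [hπ.map_mul]
        rw [Finset.sum_add_distrib, H.avg hπ, add_zero, Finset.sum_const, Finset.card_univ,
          H.card_smul hπ]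
      rw [h3] at h2
      obtain ⟨a, ha, ha2⟩ := h2
      rw [hπ.eq_iff] at ha2
      have h4 : (x : E)⁻¹ ∈ A := by
        rcases ha2 with h5 | h5
        · rwa [← h5]
        · have h6 := A.mul_mem ha hzA
          rwa [h5, mul_assoc, h.z_sq, mul_one] at h6
      simpa using A.inv_mem h4
  have hB₁card : Nat.card B₁ = Nat.card B :=
    Nat.card_congr (Subgroup.subgroupOfEquivOfLe (hBA.trans hAE)).toEquiv
  have hquot : Nat.card (Cn A ⧸ B₁) * Nat.card B = Nat.card (Cn A) := by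
    rw [← hB₁card]
    exact (Subgroup.card_eq_card_quotient_mul_card_subgroup B₁).symm
  have hB2 : 2 ≤ Nat.card B := by
    obtain ⟨a, ha, ha1, ha2⟩ := hA1
    have hne : ∃ b ∈ B, b ≠ 1 := by
      rcases hAB a ha with h1 | h1
      · exact ⟨a, h1, ha1⟩
      · refine ⟨_, h1, ?_⟩
        intro h2
        apply ha2
        have h3 : a = z⁻¹ := eq_inv_of_mul_eq_one_left h2
        rw [h3, h.z_inv]
    obtain ⟨b, hb, hb1⟩ := hne
    have : Nontrivial B := ⟨⟨⟨b, hb⟩, 1, fun h4 => hb1 (congrArg Subtype.val h4)⟩⟩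
    exact Finite.one_lt_card_iff_nontrivial.mpr this
  have hCle : Nat.card (Cn A) ≤ Nat.card E := Subgroup.card_le_card_group _
  have hE₁pos : 0 < Nat.card (Cn A) := Nat.card_pos
  have hEpos : 0 < Nat.card E := Nat.card_pos
  have hlt : Nat.card (Cn A ⧸ B₁) < Nat.card E := by
    have hq : 0 < Nat.card (Cn A ⧸ B₁) := Nat.card_pos
    nlinarith
  obtain ⟨χ₀, d₀, hF₀⟩ := IH _ z₀ φ₀ κ₀ hlt hH₀
  -- the group homomorphisms
  let Ψ : (Cn A) ⋊[f₁] T →* E ⋊[φ] T :=
    SemidirectProduct.map (Cn A).subtype (MonoidHom.id T) (fun t => by ext; rfl)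
  let Qq : (Cn A) ⋊[f₁] T →* (Cn A ⧸ B₁) ⋊[φ₀] T :=
    SemidirectProduct.map (QuotientGroup.mk' B₁) (MonoidHom.id T) (fun t => by ext; rfl)
  have hΨ : Function.Injective Ψ := by
    intro a b hab
    apply SemidirectProduct.ext
    · apply Subtype.ext
      exact congrArg SemidirectProduct.left hab
    · have h1 := congrArg (fun g : E ⋊[φ] T => g.right) hab
      exact h1
  let J := MonoidHom.ofInjective hΨ
  let θ : Ψ.range → ℂ := fun g => χ₀ (Qq (J.symm g))
  have hθ : IsCharacter Ψ.range θ :=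
    isCharacter_comp (Qq.comp J.symm.toMonoidHom) hF₀.isChar
  have hθ1 : θ 1 = d₀ := by
    show χ₀ (Qq (J.symm 1)) = d₀
    rw [map_one, map_one, hF₀.one]
  have hzH : (SemidirectProduct.inl z : E ⋊[φ] T) ∈ Ψ.range :=
    ⟨SemidirectProduct.inl z₁, by rw [SemidirectProduct.map_inl]; rfl⟩
  have hzc : ∀ g : E ⋊[φ] T, (SemidirectProduct.inl z : E ⋊[φ] T) * g = g * SemidirectProduct.inl z := by
    intro g
    apply SemidirectProduct.ext
    · simp only [SemidirectProduct.mul_left, SemidirectProduct.left_inl, SemidirectProduct.right_inl,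
        map_one, MulAut.one_apply]
      rw [h.aut_z, h.z_comm]
    · simp
  have hθz : θ ⟨SemidirectProduct.inl z, hzH⟩ = -(d₀ : ℂ) := by
    show χ₀ (Qq (J.symm ⟨SemidirectProduct.inl z, hzH⟩)) = _
    have h1 : J (SemidirectProduct.inl z₁) = ⟨SemidirectProduct.inl z, hzH⟩ := by
      apply Subtype.ext
      show Ψ (SemidirectProduct.inl z₁) = _
      rw [SemidirectProduct.map_inl]
      rfl
    rw [← h1, J.symm_apply_apply, SemidirectProduct.map_inl]
    exact hF₀.at_z
  have hidx : Ψ.range.index * Nat.card (Cn A) = Nat.card E := by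
    have h1 := Subgroup.card_mul_index Ψ.range
    have h2 : Nat.card Ψ.range = Nat.card (Cn A) * Nat.card T := by
      rw [← Nat.card_congr J.toEquiv, SemidirectProduct.card]
    rw [h2, SemidirectProduct.card] at h1
    have hT : 0 < Nat.card T := Nat.card_pos
    apply Nat.eq_of_mul_eq_mul_right hT
    rw [← h1]
    ring
  have hmain : (Ψ.range.index * d₀) * (Ψ.range.index * d₀) * 2 = Nat.card E := by
    have hc1 := XS.card_mul_card_centralizer h A hzA
    rw [hcard] at hc1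
    have hbm : Nat.card B = Ψ.range.index := by
      apply Nat.eq_of_mul_eq_mul_right hE₁pos
      rw [hidx]
      nlinarith
    have hd := hF₀.deg
    calc (Ψ.range.index * d₀) * (Ψ.range.index * d₀) * 2
        = Ψ.range.index * (Ψ.range.index * (d₀ * d₀ * 2)) := by ring
      _ = Ψ.range.index * (Ψ.range.index * Nat.card (Cn A ⧸ B₁)) := by rw [hd]
      _ = Ψ.range.index * Nat.card (Cn A) := by
          rw [← hquot, ← hbm]
          ring
      _ = Nat.card E := hidx
  letI : Fintype (E ⋊[φ] T) := Fintype.ofFinite _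
  exact ⟨_, _, fa_induced (j := SemidirectProduct.inl) Ψ.range hθ hθ1 hzH hzc hθz hmain⟩

end Core

end Cfsg.Agent.Lib.XSE3
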