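import Mathlib
import Cfsg.Agent.Lib.XSE3
import Cfsg.Agent.Lib.ImplGroup

/-!
# The central product step, extensions through index two and through cyclic quotients
-/

set_option autoImplicit false
set_option linter.unusedSectionVars false
set_option linter.unusedVariables false
set_option linter.style.haveILetI false

namespace Cfsg.Agent.Lib.XSE4

open Cfsg Cfsg.Agent.Lib.CharBasic Cfsg.Agent.Lib.XSE1 Cfsg.Agent.Lib.XSE2 Cfsg.Agent.Lib.XSE3
open Cfsg.Agent.Lib.CharInd

universe u

/-- Descent of a character along a surjection. -/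
theorem descend {F M : Type u} [Group F] [Group M] [Finite F] (p : F →* M) (hp : Function.Surjective p)
    {χF : F → ℂ} (hχ : IsCharacter F χF) (hk : ∀ x, p x = 1 → χF x = χF 1) :
    ∃ χ : M → ℂ, IsCharacter M χ ∧ ∀ w, χ (p w) = χF w := by
  obtain ⟨χ', h1, h2⟩ := Cfsg.Agent.Lib.CharKernel.exists_quotient_char p.ker hχ
    (fun x hx => hk x (MonoidHom.mem_ker.mp hx))
  let e := QuotientGroup.quotientKerEquivOfSurjective p hp
  refine ⟨χ' ∘ e.symm, isCharacter_comp e.symm.toMonoidHom h1, fun w => ?_⟩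
  have h3 : e (w : F ⧸ p.ker) = p w := rfl
  show χ' (e.symm (p w)) = χF w
  rw [← h3, e.symm_apply_apply, h2]

section Sub

variable {E : Type u} [Group E] {z : E}

theorem xs_sub_left [Finite E] (h : XS E z) (A : Subgroup E) (hzA : z ∈ A)
    (hinter : ∀ x ∈ A, x ∈ Cn A → x = 1 ∨ x = z) : XS A ⟨z, hzA⟩ := by
  refine ⟨fun h1 => h.z_ne (congrArg Subtype.val h1), Subtype.ext h.z_sq, ?_, ?_⟩
  · intro x
    constructor
    · intro hx
      have h1 : (x : E) ∈ Cn A := by
        rw [Subgroup.mem_centralizer_iff]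
        intro a ha
        exact congrArg Subtype.val (hx ⟨a, ha⟩).symm
      rcases hinter x x.2 h1 with h2 | h2
      · left; exact Subtype.ext h2
      · right; exact Subtype.ext h2
    · rintro (rfl | rfl) y
      · simp
      · exact Subtype.ext (h.z_comm y)
  · intro x
    rcases h.sq x with h1 | h1
    · left; exact Subtype.ext h1
    · right; exact Subtype.ext h1

theorem xs_sub_right [Finite E] (h : XS E z) (A : Subgroup E) (hzA : z ∈ A)
    (hinter : ∀ x ∈ A, x ∈ Cn A → x = 1 ∨ x = z) : XS (Cn A) ⟨z, z_mem_Cn h A⟩ := by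
  refine ⟨fun h1 => h.z_ne (congrArg Subtype.val h1), Subtype.ext h.z_sq, ?_, ?_⟩
  · intro x
    constructor
    · intro hx
      have h0 := XS.centralizer_centralizer h A hzA
      have h1 : (x : E) ∈ A := by
        refine h0.le ?_
        rw [Subgroup.mem_centralizer_iff]
        intro a ha
        exact congrArg Subtype.val (hx ⟨a, ha⟩).symm
      rcases hinter x h1 x.2 with h2 | h2
      · left; exact Subtype.ext h2
      · right; exact Subtype.ext h2
    · rintro (rfl | rfl) y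
      · simp
      · exact Subtype.ext (h.z_comm y)
  · intro x
    rcases h.sq x with h1 | h1
    · left; exact Subtype.ext h1
    · right; exact Subtype.ext h1

/-- `E = A C_E(A)` when `A ∩ C_E(A) = Z`. -/
theorem mul_surj [Finite E] (h : XS E z) (A : Subgroup E) (hzA : z ∈ A)
    (hinter : ∀ x ∈ A, x ∈ Cn A → x = 1 ∨ x = z) (e : E) : ∃ a ∈ A, ∃ c ∈ Cn A, a * c = e := by
  classical
  have hcomm : ∀ (a : A) (c : Cn A), (a : E) * c = c * a := by
    intro a c
    exact Subgroup.mem_centralizer_iff.mp c.2 a a.2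
  let f : A × Cn A →* E :=
    { toFun := fun p => (p.1 : E) * p.2
      map_one' := by simp
      map_mul' := fun p q => by
        show ((p.1 : E) * q.1) * ((p.2 : E) * q.2) = (p.1 * p.2) * (q.1 * q.2)
        rw [mul_assoc, ← mul_assoc (q.1 : E), hcomm q.1 p.2]
        simp only [mul_assoc] }
  have hzC := z_mem_Cn h A
  have hker : (f.ker : Set (A × Cn A)) = {1, ((⟨z, hzA⟩ : A), (⟨z, hzC⟩ : Cn A))} := by
    ext p
    constructor
    · intro hp
      have h1 : (p.1 : E) * p.2 = 1 := hp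
      have h2 : (p.1 : E) = (p.2 : E)⁻¹ := eq_inv_of_mul_eq_one_left h1
      have h3 : (p.1 : E) ∈ Cn A := by rw [h2]; exact (Cn A).inv_mem p.2.2
      rcases hinter _ p.1.2 h3 with h4 | h4
      · left
        have h5 : (p.2 : E) = 1 := by
          rw [h4, one_mul] at h1; exact h1
        exact Prod.ext (Subtype.ext h4) (Subtype.ext h5)
      · right
        have h5 : (p.2 : E) = z := by
          rw [h4] at h1
          have := inv_eq_of_mul_eq_one_right h1
          rw [← this, h.z_inv]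
        exact Prod.ext (Subtype.ext h4) (Subtype.ext h5)
    · rintro (rfl | rfl)
      · exact f.ker.one_mem
      · show z * z = 1
        exact h.z_sq
  have hkc : Nat.card f.ker = 2 := by
    have h1 : Nat.card f.ker = Nat.card ((f.ker : Set (A × Cn A))) := rfl
    rw [h1, hker, Nat.card_coe_set_eq, Set.ncard_pair]
    intro h2
    apply h.z_ne
    exact (congrArg (fun p : A × Cn A => ((p.1 : A) : E)) h2).symm
  have h1 := Subgroup.card_mul_index f.ker
  rw [Subgroup.index_ker, hkc, Nat.card_prod, XS.card_mul_card_centralizer h A hzA] at h1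
  have h2 : Nat.card f.range = Nat.card E := by omega
  have h3 : f.range = ⊤ := Subgroup.eq_top_of_card_eq _ h2
  have h4 : e ∈ f.range := by rw [h3]; trivial
  obtain ⟨p, hp⟩ := h4
  exact ⟨p.1, p.1.2, p.2, p.2.2, hp⟩

end Sub

section CP

variable {E T K : Type u} [Group E] [Group T] [Group K] {z : E}
  {φ : T →* MulAut E} {κ : K →* MulAut E}

/-- The central product of two characters. -/
theorem central_prod [Finite E] [Finite T] (h : XS E z) (A : Subgroup E) (hzA : z ∈ A)
    (hinter : ∀ x ∈ A, x ∈ Cn A → x = 1 ∨ x = z) (hAφ : ∀ t, ∀ a ∈ A, φ t a ∈ A)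
    {χ₁ : A ⋊[rAct φ A hAφ] T → ℂ} {d₁ : ℕ} (hF₁ : Fa SemidirectProduct.inl ⟨z, hzA⟩ χ₁ d₁)
    {χ₂ : (Cn A) ⋊[rAct φ (Cn A) (Cn_stable φ A hAφ)] T → ℂ} {d₂ : ℕ}
    (hF₂ : Fa SemidirectProduct.inl ⟨z, z_mem_Cn h A⟩ χ₂ d₂) :
    ∃ χ : E ⋊[φ] T → ℂ, Fa SemidirectProduct.inl z χ (d₁ * d₂) ∧
      ∀ (a : A) (c : Cn A) (t : T), χ ⟨(a : E) * c, t⟩ = χ₁ ⟨a, t⟩ * χ₂ ⟨c, t⟩ := by
  classical
  have hzC := z_mem_Cn h A
  have hcomm : ∀ (a : E) (c : Cn A), a ∈ A → a * c = c * a := by
    intro a c ha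
    exact Subgroup.mem_centralizer_iff.mp c.2 a ha
  let φA := rAct φ A hAφ
  let φC := rAct φ (Cn A) (Cn_stable φ A hAφ)
  let P := (A ⋊[φA] T) × ((Cn A) ⋊[φC] T)
  let F : Subgroup P := MonoidHom.eqLocus
    (SemidirectProduct.rightHom.comp (MonoidHom.fst _ _))
    (SemidirectProduct.rightHom.comp (MonoidHom.snd _ _))
  have hF : ∀ w : F, (w : P).1.right = (w : P).2.right := fun w => w.2
  let p : F →* E ⋊[φ] T :=
    { toFun := fun w => ⟨(((w : P).1.left : A) : E) * (((w : P).2.left : Cn A) : E), (w : P).1.right⟩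
      map_one' := by
        apply SemidirectProduct.ext
        · show ((1 : A) : E) * ((1 : Cn A) : E) = 1
          simp
        · rfl
      map_mul' := fun w w' => by
        apply SemidirectProduct.ext
        · show (((w : P).1.left : E) * φ (w : P).1.right ((w' : P).1.left : E)) *
              (((w : P).2.left : E) * φ (w : P).2.right ((w' : P).2.left : E)) =
            (((w : P).1.left : E) * ((w : P).2.left : E)) *
              φ (w : P).1.right (((w' : P).1.left : E) * ((w' : P).2.left : E))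
          rw [← hF w, map_mul]
          have h1 := hcomm (φ (w : P).1.right ((w' : P).1.left : E)) (w : P).2.left
            (hAφ _ _ (w' : P).1.left.2)
          simp only [mul_assoc]
          rw [← mul_assoc (φ (w : P).1.right ((w' : P).1.left : E)), h1]
          simp only [mul_assoc]
        · rfl }
  have hp : Function.Surjective p := by
    intro g
    obtain ⟨a, ha, c, hc, hac⟩ := mul_surj h A hzA hinter g.left
    refine ⟨⟨(⟨⟨a, ha⟩, g.right⟩, ⟨⟨c, hc⟩, g.right⟩), rfl⟩, ?_⟩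
    apply SemidirectProduct.ext
    · exact hac
    · rfl
  let χF : F → ℂ := fun w => χ₁ (w : P).1 * χ₂ (w : P).2
  have hχF : IsCharacter F χF := by
    have h1 := isCharacter_comp ((MonoidHom.fst _ _).comp F.subtype) hF₁.isChar
    have h2 := isCharacter_comp ((MonoidHom.snd _ _).comp F.subtype) hF₂.isChar
    exact isCharacter_mul h1 h2
  have hχF1 : χF 1 = (d₁ : ℂ) * d₂ := by
    show χ₁ 1 * χ₂ 1 = _
    rw [hF₁.one, hF₂.one]
  have hk : ∀ w, p w = 1 → χF w = χF 1 := by
    intro w hw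
    have h1 : (((w : P).1.left : A) : E) * (((w : P).2.left : Cn A) : E) = 1 :=
      congrArg SemidirectProduct.left hw
    have h2 : (w : P).1.right = 1 := congrArg (fun g : E ⋊[φ] T => g.right) hw
    have h3 : (w : P).2.right = 1 := by rw [← hF w, h2]
    have h4 : (((w : P).1.left : A) : E) = (((w : P).2.left : Cn A) : E)⁻¹ :=
      eq_inv_of_mul_eq_one_left h1
    have h5 : (((w : P).1.left : A) : E) ∈ Cn A := by
      rw [h4]; exact (Cn A).inv_mem (w : P).2.left.2
    have h6 : (w : P).1 = SemidirectProduct.inl (w : P).1.left := by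
      apply SemidirectProduct.ext
      · rfl
      · exact h2
    have h7 : (w : P).2 = SemidirectProduct.inl (w : P).2.left := by
      apply SemidirectProduct.ext
      · rfl
      · exact h3
    rw [hχF1]
    show χ₁ (w : P).1 * χ₂ (w : P).2 = _
    rw [h6, h7]
    rcases hinter _ (w : P).1.left.2 h5 with h8 | h8
    · have h9 : (((w : P).2.left : Cn A) : E) = 1 := by
        rw [h8, one_mul] at h1; exact h1
      have h10 : (w : P).1.left = 1 := Subtype.ext h8
      have h11 : (w : P).2.left = 1 := Subtype.ext h9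
      rw [h10, h11, map_one, map_one, hF₁.one, hF₂.one]
    · have h9 : (((w : P).2.left : Cn A) : E) = z := by
        rw [h8] at h1
        have := inv_eq_of_mul_eq_one_right h1
        rw [← this, h.z_inv]
      have h10 : (w : P).1.left = ⟨z, hzA⟩ := Subtype.ext h8
      have h11 : (w : P).2.left = ⟨z, hzC⟩ := Subtype.ext h9
      rw [h10, h11, hF₁.at_z, hF₂.at_z]
      ring
  obtain ⟨χ, hχ, hχp⟩ := descend p hp hχF hk
  refine ⟨χ, ⟨hχ, ?_, ?_, ?_⟩, ?_⟩
  · rw [← map_one p, hχp, hχF1]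
    push_cast
    rfl
  · have hw : (SemidirectProduct.inl z : E ⋊[φ] T) =
        p ⟨(SemidirectProduct.inl ⟨z, hzA⟩, 1), rfl⟩ := by
      apply SemidirectProduct.ext
      · show z = z * ((1 : Cn A) : E)
        simp
      · rfl
    rw [hw, hχp]
    show χ₁ (SemidirectProduct.inl ⟨z, hzA⟩) * χ₂ 1 = _
    rw [hF₁.at_z, hF₂.one]
    push_cast
    ring
  · have h1 := hF₁.deg
    have h2 := hF₂.deg
    have h3 := XS.card_mul_card_centralizer h A hzA
    rw [← h1, ← h2] at h3
    have h4 : (d₁ * d₂) * (d₁ * d₂) * 2 * 2 = Nat.card E * 2 := by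
      linarith [h3]
    exact Nat.eq_of_mul_eq_mul_right (by norm_num) h4
  · intro a c t
    exact hχp ⟨(⟨a, t⟩, ⟨c, t⟩), rfl⟩

/-- The hypothesis passes to stable subgroups. -/
theorem hyp_sub_left [Finite E] (H : Hyp z φ κ) (A : Subgroup E) (hzA : z ∈ A)
    (hinter : ∀ x ∈ A, x ∈ Cn A → x = 1 ∨ x = z) (hAφ : ∀ t, ∀ a ∈ A, φ t a ∈ A)
    (hAκ : ∀ k, ∀ a ∈ A, κ k a ∈ A) :
    Hyp ⟨z, hzA⟩ (rAct φ A hAφ) (rAct κ A hAκ) := by
  refine ⟨xs_sub_left H.xs A hzA hinter, H.T2, H.Kodd, ?_, ?_⟩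
  · intro t
    obtain ⟨σ, hσ⟩ := H.norm t
    refine ⟨σ, fun k => ?_⟩
    ext a
    rw [← map_inv]
    have h1 := DFunLike.congr_fun (hσ k) (a : E)
    rw [← map_inv] at h1
    exact h1
  · intro e he
    have h1 := H.fpf e (fun k => by
      rcases he k with h2 | h2
      · left; exact congrArg Subtype.val h2
      · right; exact congrArg Subtype.val h2)
    rcases h1 with h2 | h2
    · left; exact Subtype.ext h2
    · right; exact Subtype.ext h2

theorem hyp_sub_right [Finite E] (H : Hyp z φ κ) (A : Subgroup E) (hzA : z ∈ A)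
    (hinter : ∀ x ∈ A, x ∈ Cn A → x = 1 ∨ x = z) (hAφ : ∀ t, ∀ a ∈ A, φ t a ∈ A)
    (hAκ : ∀ k, ∀ a ∈ A, κ k a ∈ A) :
    Hyp ⟨z, z_mem_Cn H.xs A⟩ (rAct φ (Cn A) (Cn_stable φ A hAφ)) (rAct κ (Cn A) (Cn_stable κ A hAκ)) := by
  refine ⟨xs_sub_right H.xs A hzA hinter, H.T2, H.Kodd, ?_, ?_⟩
  · intro t
    obtain ⟨σ, hσ⟩ := H.norm t
    refine ⟨σ, fun k => ?_⟩
    ext a
    rw [← map_inv]
    have h1 := DFunLike.congr_fun (hσ k) (a : E)
    rw [← map_inv] at h1
    exact h1
  · intro e he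
    have h1 := H.fpf e (fun k => by
      rcases he k with h2 | h2
      · left; exact congrArg Subtype.val h2
      · right; exact congrArg Subtype.val h2)
    rcases h1 with h2 | h2
    · left; exact Subtype.ext h2
    · right; exact Subtype.ext h2

/-- The non-degenerate step. -/
theorem step_nondeg [Finite E] [Finite T] [Finite K] (H : Hyp z φ κ) (A : Subgroup E) (hzA : z ∈ A)
    (hinter : ∀ x ∈ A, x ∈ Cn A → x = 1 ∨ x = z) (hAφ : ∀ t, ∀ a ∈ A, φ t a ∈ A)
    (hAκ : ∀ k, ∀ a ∈ A, κ k a ∈ A) (hA1 : A ≠ ⊤) (hA2 : Cn A ≠ ⊤)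
    (IH : ∀ (E' : Type u) [Group E'] [Finite E'] (z' : E') (φ' : T →* MulAut E')
      (κ' : K →* MulAut E'), Nat.card E' < Nat.card E → Hyp z' φ' κ' → Concl z' φ') :
    Concl z φ := by
  have hlt : ∀ S : Subgroup E, S ≠ ⊤ → Nat.card S < Nat.card E := by
    intro S hS
    apply lt_of_le_of_ne (Subgroup.card_le_card_group S)
    intro h1
    exact hS (Subgroup.eq_top_of_card_eq S h1)
  obtain ⟨χ₁, d₁, h1⟩ := IH A _ _ _ (hlt A hA1) (hyp_sub_left H A hzA hinter hAφ hAκ)
  obtain ⟨χ₂, d₂, h2⟩ := IH (Cn A) _ _ _ (hlt _ hA2) (hyp_sub_right H A hzA hinter hAφ hAκ)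
  obtain ⟨χ, hχ, -⟩ := central_prod H.xs A hzA hinter hAφ h1 h2
  exact ⟨χ, _, hχ⟩

end CP

end Cfsg.Agent.Lib.XSE4
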