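import Mathlib
import Cfsg.Agent.Lib.XSE4

/-!
# Extensions through index two and through cyclic quotients
-/

set_option autoImplicit false
set_option linter.unusedSectionVars false
set_option linter.unusedVariables false
set_option linter.style.haveILetI false

namespace Cfsg.Agent.Lib.XSE5

open Cfsg Cfsg.Agent.Lib.CharBasic Cfsg.Agent.Lib.XSE1 Cfsg.Agent.Lib.XSE2 Cfsg.Agent.Lib.XSE3
open Cfsg.Agent.Lib.XSE4 Cfsg.Agent.Lib.CharInd

universe u

variable {E T : Type u} [Group E] [Group T] {z : E}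

/-- Passing from a normal subgroup `N` of `E ⋊ T` of the form `E ⋊ T₁` with cyclic quotient. -/
theorem concl_of_normal [Finite E] [Finite T] (h : XS E z) {φ : T →* MulAut E} (N : Subgroup (E ⋊[φ] T))
    [hN : N.Normal] (hEN : ∀ e, (SemidirectProduct.inl e : E ⋊[φ] T) ∈ N)
    (hcyc : IsCyclic ((E ⋊[φ] T) ⧸ N)) {ϑ : N → ℂ} {d : ℕ}
    (hF : Fa (j := ((SemidirectProduct.inl : E →* E ⋊[φ] T).codRestrict N hEN)) z ϑ d)
    (hinv : ∀ (g : E ⋊[φ] T) (n : N), ϑ ⟨g * n * g⁻¹, hN.conj_mem (n : E ⋊[φ] T) n.2 g⟩ = ϑ n) :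
    Concl z φ := by
  obtain ⟨χ, hχ, hχN⟩ := Cfsg.Agent.Lib.ImplGroup.exists_ext_of_cyclic N hcyc (hF.irr h) hinv
  refine ⟨χ, d, IsIrrCharacter.isCharacter hχ, ?_, ?_, hF.deg⟩
  · have := hχN 1
    rw [hF.one] at this
    exact this
  · have := hχN ((SemidirectProduct.inl : E →* E ⋊[φ] T).codRestrict N hEN z)
    rw [hF.at_z] at this
    exact this

/-- Extension through index two, given invariance. -/
theorem idx2 [Finite E] [Finite T] (h : XS E z) {φ : T →* MulAut E} (T' : Subgroup T) [hT' : T'.Normal]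
    (hidx : T'.index = 2) (t : T) (ht : t ∉ T') {χ₀ : E ⋊[φ.comp T'.subtype] T' → ℂ} {d : ℕ}
    (hF : Fa SemidirectProduct.inl z χ₀ d)
    (hinv : ∀ (e : E) (s : T'), χ₀ ⟨φ t e, ⟨t * s * t⁻¹, hT'.conj_mem s s.2 t⟩⟩ = χ₀ ⟨e, s⟩) :
    Concl z φ := by
  classical
  let N : Subgroup (E ⋊[φ] T) := T'.comap SemidirectProduct.rightHom
  haveI hNn : N.Normal := hT'.comap _
  have hEN : ∀ e, (SemidirectProduct.inl e : (E ⋊[φ] T)) ∈ N := by
    intro e
    show SemidirectProduct.rightHom (SemidirectProduct.inl e : (E ⋊[φ] T)) ∈ T'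
    rw [SemidirectProduct.rightHom_inl]
    exact T'.one_mem
  let B : N →* E ⋊[φ.comp T'.subtype] T' :=
    { toFun := fun n => ⟨(n : (E ⋊[φ] T)).left, ⟨(n : (E ⋊[φ] T)).right, n.2⟩⟩
      map_one' := rfl
      map_mul' := fun a b => rfl }
  have hidxN : N.index = 2 := by
    rw [Subgroup.index_comap_of_surjective _ SemidirectProduct.rightHom_surjective, hidx]
  have hcyc : IsCyclic ((E ⋊[φ] T) ⧸ N) := by
    haveI : Fact (Nat.Prime 2) := ⟨Nat.prime_two⟩
    exact isCyclic_of_prime_card (p := 2) hidxN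
  have hBinl : ∀ e, B ⟨SemidirectProduct.inl e, hEN e⟩ = SemidirectProduct.inl e := fun e => rfl
  let ϑ : N → ℂ := χ₀ ∘ B
  have hFN : Fa (j := ((SemidirectProduct.inl : E →* (E ⋊[φ] T)).codRestrict N hEN)) z ϑ d := by
    refine ⟨isCharacter_comp B hF.isChar, ?_, ?_, hF.deg⟩
    · show χ₀ (B 1) = d
      rw [map_one, hF.one]
    · exact hF.at_z
  have hFc : IsClassFunction N ϑ := isClassFunction_of_isCharacter hFN.isChar
  have hconj_t : ∀ n : N, ϑ ⟨(SemidirectProduct.inr t : (E ⋊[φ] T)) * n * (SemidirectProduct.inr t : (E ⋊[φ] T))⁻¹,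
      hNn.conj_mem n n.2 _⟩ = ϑ n := by
    intro n
    have h1 : B ⟨(SemidirectProduct.inr t : (E ⋊[φ] T)) * n * (SemidirectProduct.inr t : (E ⋊[φ] T))⁻¹,
        hNn.conj_mem n n.2 _⟩ = ⟨φ t (n : (E ⋊[φ] T)).left, ⟨t * (n : (E ⋊[φ] T)).right * t⁻¹,
          hT'.conj_mem _ n.2 t⟩⟩ := by
      apply SemidirectProduct.ext
      · show ((SemidirectProduct.inr t : (E ⋊[φ] T)) * n * (SemidirectProduct.inr t : (E ⋊[φ] T))⁻¹).left = _
        simp [SemidirectProduct.mul_left, SemidirectProduct.inv_left]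
      · apply Subtype.ext
        show ((SemidirectProduct.inr t : (E ⋊[φ] T)) * n * (SemidirectProduct.inr t : (E ⋊[φ] T))⁻¹).right = _
        simp [SemidirectProduct.mul_right, SemidirectProduct.inv_right]
    show χ₀ (B _) = χ₀ (B n)
    rw [h1]
    exact hinv (n : (E ⋊[φ] T)).left ⟨(n : (E ⋊[φ] T)).right, n.2⟩
  apply concl_of_normal h N hEN hcyc hFN
  intro g n
  by_cases hg : g ∈ N
  · exact hFc n ⟨g, hg⟩
  · -- `g = inr t * g₁`
    have hg₁ : (SemidirectProduct.inr t : (E ⋊[φ] T))⁻¹ * g ∈ N := by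
      have h2 : (SemidirectProduct.inr t : (E ⋊[φ] T)) ∉ N := by
        show ¬ (SemidirectProduct.rightHom (SemidirectProduct.inr t : (E ⋊[φ] T)) ∈ T')
        rw [SemidirectProduct.rightHom_inr]
        exact ht
      rw [Subgroup.mul_mem_iff_of_index_two hidxN]
      constructor
      · intro h3
        exact absurd (by simpa using N.inv_mem h3) h2
      · intro h3
        exact absurd h3 hg
    let g₁ : N := ⟨_, hg₁⟩
    have h3 : g = (SemidirectProduct.inr t : (E ⋊[φ] T)) * g₁ := by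
      show g = _ * (_ * g)
      group
    have h4 : (⟨g * n * g⁻¹, hNn.conj_mem _ n.2 g⟩ : N) =
        ⟨(SemidirectProduct.inr t : (E ⋊[φ] T)) * ((g₁ * n * g₁⁻¹ : N) : (E ⋊[φ] T)) * (SemidirectProduct.inr t : (E ⋊[φ] T))⁻¹,
          hNn.conj_mem _ (g₁ * n * g₁⁻¹).2 _⟩ := by
      apply Subtype.ext
      show g * n * g⁻¹ = (SemidirectProduct.inr t : (E ⋊[φ] T)) * ((g₁ : (E ⋊[φ] T)) * n * (g₁ : (E ⋊[φ] T))⁻¹) * (SemidirectProduct.inr t : (E ⋊[φ] T))⁻¹
      nth_rewrite 1 [h3]
      nth_rewrite 1 [h3]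
      group
    rw [h4, hconj_t (g₁ * n * g₁⁻¹)]
    exact hFc n g₁

/-- Base case: `T` acts through a cyclic quotient. -/
theorem base_cyc [Finite E] [Finite T] (h : XS E z) {φ : T →* MulAut E} (T₁ : Subgroup T)
    [hT₁ : T₁.Normal] (htriv : ∀ s ∈ T₁, φ s = 1) (hcyc : IsCyclic (T ⧸ T₁)) : Concl z φ := by
  classical
  obtain ⟨θ, d, hθ⟩ := exists_fa h
  let N : Subgroup (E ⋊[φ] T) := T₁.comap SemidirectProduct.rightHom
  haveI hNn : N.Normal := hT₁.comap _
  have hEN : ∀ e, (SemidirectProduct.inl e : (E ⋊[φ] T)) ∈ N := by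
    intro e
    show SemidirectProduct.rightHom (SemidirectProduct.inl e : (E ⋊[φ] T)) ∈ T₁
    rw [SemidirectProduct.rightHom_inl]
    exact T₁.one_mem
  have hright : ∀ n : N, φ (n : (E ⋊[φ] T)).right = 1 := fun n => htriv _ n.2
  let B : N →* E :=
    { toFun := fun n => (n : (E ⋊[φ] T)).left
      map_one' := rfl
      map_mul' := fun a b => by
        show (a : (E ⋊[φ] T)).left * φ (a : (E ⋊[φ] T)).right (b : (E ⋊[φ] T)).left = _
        rw [hright a]
        rfl }
  let ϑ : N → ℂ := θ ∘ B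
  have hFN : Fa (j := ((SemidirectProduct.inl : E →* (E ⋊[φ] T)).codRestrict N hEN)) z ϑ d := by
    refine ⟨isCharacter_comp B hθ.isChar, ?_, ?_, hθ.deg⟩
    · show θ (B 1) = d
      rw [map_one, hθ.one]
    · exact hθ.at_z
  have hθc := isClassFunction_of_isCharacter hθ.isChar
  have hαinv : ∀ (α : E ≃* E) (e : E), θ (α e) = θ e := by
    intro α e
    have hFα : Fa (j := α.toMonoidHom) z θ d := by
      refine ⟨hθ.isChar, hθ.one, ?_, hθ.deg⟩
      show θ (α z) = _
      rw [h.aut_z]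
      exact hθ.at_z
    exact hFα.eq_on h hθ e
  have hcycM : IsCyclic ((E ⋊[φ] T) ⧸ N) := by
    let q : T →* (E ⋊[φ] T) ⧸ N := (QuotientGroup.mk' N).comp SemidirectProduct.inr
    have hq1 : ∀ s ∈ T₁, q s = 1 := by
      intro s hs
      show ((SemidirectProduct.inr s : (E ⋊[φ] T)) : (E ⋊[φ] T) ⧸ N) = 1
      rw [QuotientGroup.eq_one_iff]
      show SemidirectProduct.rightHom (SemidirectProduct.inr s : (E ⋊[φ] T)) ∈ T₁
      rw [SemidirectProduct.rightHom_inr]
      exact hs
    let q' : T ⧸ T₁ →* (E ⋊[φ] T) ⧸ N := QuotientGroup.lift T₁ q hq1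
    have hsurj : Function.Surjective q' := by
      intro x
      induction x using QuotientGroup.induction_on with
      | H g =>
      refine ⟨((g.right : T) : T ⧸ T₁), ?_⟩
      show ((SemidirectProduct.inr g.right : (E ⋊[φ] T)) : (E ⋊[φ] T) ⧸ N) = g
      rw [QuotientGroup.eq]
      show SemidirectProduct.rightHom ((SemidirectProduct.inr g.right : (E ⋊[φ] T))⁻¹ * g) ∈ T₁
      simp [T₁.one_mem]
    exact isCyclic_of_surjective q' hsurj
  apply concl_of_normal h N hEN hcycM hFN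
  intro g n
  show θ (B _) = θ (B n)
  have h1 : B ⟨g * n * g⁻¹, hNn.conj_mem _ n.2 g⟩ =
      g.left * φ g.right (n : (E ⋊[φ] T)).left * (g.left)⁻¹ := by
    show (g * n * g⁻¹).left = _
    have h2 : φ (g.right * (n : (E ⋊[φ] T)).right * g.right⁻¹) = 1 :=
      htriv _ (hT₁.conj_mem _ n.2 g.right)
    have h3 : (g * n * g⁻¹).left = g.left * φ g.right (n : (E ⋊[φ] T)).left *
        φ (g.right * (n : (E ⋊[φ] T)).right * g.right⁻¹) (g.left⁻¹) := by
      simp only [SemidirectProduct.mul_left, SemidirectProduct.inv_left, SemidirectProduct.mul_right,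
        map_mul, MulAut.mul_apply, map_inv]
    rw [h3, h2]
    rfl
  rw [h1]
  have h2 : θ (g.left * φ g.right (n : (E ⋊[φ] T)).left * (g.left)⁻¹) = θ (φ g.right (n : (E ⋊[φ] T)).left) :=
    hθc _ _
  rw [h2, hαinv]
  rfl

/-- The Lagrangian construction. -/
theorem lagr [Finite E] [Finite T] (h : XS E z) {φ : T →* MulAut E} (A B B' : Subgroup E) (hzA : z ∈ A)
    (hBA : B ≤ A) (hzB : z ∉ B) (hAB : ∀ a ∈ A, a ∈ B ∨ a * z ∈ B)
    (hAc : ∀ a ∈ A, ∀ b ∈ A, a * b = b * a) (hAφ : ∀ t, ∀ a ∈ A, φ t a ∈ A)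
    (hBφ : ∀ t, ∀ b ∈ B, φ t b ∈ B) (hB'φ : ∀ t, ∀ b ∈ B', φ t b ∈ B')
    (hcard : Nat.card A * Nat.card A = 2 * Nat.card E) (hfact : ∀ e, ∃ b ∈ B', ∃ a ∈ A, e = b * a)
    (hint : ∀ x ∈ A, x ∈ B' → x = 1) :
    ∃ (χ : E ⋊[φ] T → ℂ) (d : ℕ), Fa SemidirectProduct.inl z χ d ∧
      ∀ s : T, (χ (SemidirectProduct.inr s)).im = 0 ∧ 0 < (χ (SemidirectProduct.inr s)).re := by
  classical
  letI : Fintype (E ⋊[φ] T) := Fintype.ofFinite _
  let φA : T →* MulAut A := rAct φ A hAφ
  let ε : A →* ℂˣ :=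
    { toFun := fun a => if (a : E) ∈ B then 1 else -1
      map_one' := by simp [B.one_mem]
      map_mul' := fun a b => by
        have hmem : ∀ x y : E, x ∈ B → (x * y ∈ B ↔ y ∈ B) := fun x y hx => B.mul_mem_cancel_left hx
        have hmem' : ∀ x y : E, y ∈ B → (x * y ∈ B ↔ x ∈ B) := fun x y hy => B.mul_mem_cancel_right hy
        by_cases ha : (a : E) ∈ B <;> by_cases hb : (b : E) ∈ B
        · simp [ha, hb, B.mul_mem ha hb]
        · have : ¬ ((a : E) * b ∈ B) := fun h1 => hb ((hmem _ _ ha).mp h1)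
          simp [ha, hb, this]
        · have : ¬ ((a : E) * b ∈ B) := fun h1 => ha ((hmem' _ _ hb).mp h1)
          simp [ha, hb, this]
        · have h1 := (hAB a a.2).resolve_left ha
          have h2 := (hAB b b.2).resolve_left hb
          have h3 : (a : E) * b ∈ B := by
            have h4 := B.mul_mem h1 h2
            have h5 : (a : E) * z * (b * z) = a * b := by
              rw [mul_assoc (a : E), ← mul_assoc z, h.z_comm, mul_assoc (b : E), h.z_sq, mul_one]
            rwa [h5] at h4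
          simp [ha, hb, h3] }
  have hεval : ∀ a : A, ((ε a : ℂˣ) : ℂ) = if (a : E) ∈ B then 1 else -1 := by
    intro a
    show (((if (a : E) ∈ B then 1 else -1 : ℂˣ)) : ℂ) = _
    split_ifs <;> simp
  have hεφ : ∀ t a, ε (φA t a) = ε a := by
    intro t a
    have h1 : (φ t (a : E) ∈ B) ↔ (a : E) ∈ B := by
      constructor
      · intro h2
        have h3 := hBφ t⁻¹ _ h2
        have h4 : φ t⁻¹ (φ t (a : E)) = a := by
          rw [← MulAut.mul_apply, ← map_mul]
          simp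
        rwa [h4] at h3
      · exact hBφ t _
    show (if φ t (a : E) ∈ B then (1 : ℂˣ) else -1) = if (a : E) ∈ B then 1 else -1
    simp only [h1]
  let lam : A ⋊[φA] T →* ℂˣ :=
    { toFun := fun g => ε g.left
      map_one' := map_one ε
      map_mul' := fun a b => by
        show ε (a.left * φA a.right b.left) = _
        rw [map_mul, hεφ] }
  let Ψ : A ⋊[φA] T →* E ⋊[φ] T :=
    SemidirectProduct.map A.subtype (MonoidHom.id T) (fun t => by ext; rfl)
  have hΨ : Function.Injective Ψ := by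
    intro a b hab
    apply SemidirectProduct.ext
    · apply Subtype.ext
      exact congrArg SemidirectProduct.left hab
    · have h1 := congrArg (fun g : E ⋊[φ] T => g.right) hab
      exact h1
  let J := MonoidHom.ofInjective hΨ
  let θ : Ψ.range → ℂ := fun g => ((lam (J.symm g) : ℂˣ) : ℂ)
  have hθ : IsCharacter Ψ.range θ :=
    IsIrrCharacter.isCharacter (isIrrCharacter_of_hom (lam.comp J.symm.toMonoidHom))
  have hθ1 : θ 1 = ((1 : ℕ) : ℂ) := by
    show ((lam (J.symm 1) : ℂˣ) : ℂ) = _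
    rw [map_one, map_one]
    simp
  have hzH : (SemidirectProduct.inl z : E ⋊[φ] T) ∈ Ψ.range :=
    ⟨SemidirectProduct.inl ⟨z, hzA⟩, by rw [SemidirectProduct.map_inl]; rfl⟩
  have hzc : ∀ g : E ⋊[φ] T, (SemidirectProduct.inl z : E ⋊[φ] T) * g = g * SemidirectProduct.inl z := by
    intro g
    apply SemidirectProduct.ext
    · simp only [SemidirectProduct.mul_left, SemidirectProduct.left_inl, SemidirectProduct.right_inl,
        map_one, MulAut.one_apply]
      rw [h.aut_z, h.z_comm]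
    · simp
  have hJinl : ∀ (a : A) (ha : (SemidirectProduct.inl (a : E) : E ⋊[φ] T) ∈ Ψ.range),
      J.symm ⟨SemidirectProduct.inl (a : E), ha⟩ = SemidirectProduct.inl a := by
    intro a ha
    rw [MulEquiv.symm_apply_eq]
    apply Subtype.ext
    show _ = Ψ (SemidirectProduct.inl a)
    rw [SemidirectProduct.map_inl]
    rfl
  have hθz : θ ⟨SemidirectProduct.inl z, hzH⟩ = -(((1 : ℕ) : ℂ)) := by
    show ((lam (J.symm ⟨SemidirectProduct.inl ((⟨z, hzA⟩ : A) : E), hzH⟩) : ℂˣ) : ℂ) = _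
    rw [hJinl ⟨z, hzA⟩ hzH]
    show ((ε ⟨z, hzA⟩ : ℂˣ) : ℂ) = _
    rw [hεval, if_neg hzB]
    simp
  have hidx : Ψ.range.index * Nat.card A = Nat.card E := by
    have h1 := Subgroup.card_mul_index Ψ.range
    have h2 : Nat.card Ψ.range = Nat.card A * Nat.card T := by
      rw [← Nat.card_congr J.toEquiv, SemidirectProduct.card]
    rw [h2, SemidirectProduct.card] at h1
    have hT : 0 < Nat.card T := Nat.card_pos
    apply Nat.eq_of_mul_eq_mul_right hT
    rw [← h1]
    ring
  have hApos : 0 < Nat.card A := Nat.card_pos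
  have hmain : (Ψ.range.index * 1) * (Ψ.range.index * 1) * 2 = Nat.card E := by
    have h1 : Nat.card A = 2 * Ψ.range.index := by
      apply Nat.eq_of_mul_eq_mul_right hApos
      rw [hcard, ← hidx]
      ring
    calc (Ψ.range.index * 1) * (Ψ.range.index * 1) * 2
        = Ψ.range.index * (2 * Ψ.range.index) := by ring
      _ = Ψ.range.index * Nat.card A := by rw [← h1]
      _ = Nat.card E := hidx
  have hFa := fa_induced (j := SemidirectProduct.inl) Ψ.range hθ hθ1 hzH hzc hθz hmain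
  refine ⟨_, _, hFa, ?_⟩
  intro s
  -- the positivity
  have hsH : ∀ s : T, (SemidirectProduct.inr s : E ⋊[φ] T) ∈ Ψ.range := fun s =>
    ⟨SemidirectProduct.inr s, by rw [SemidirectProduct.map_inr]; rfl⟩
  have hθs : θ ⟨SemidirectProduct.inr s, hsH s⟩ = 1 := by
    have h1 : J.symm ⟨SemidirectProduct.inr s, hsH s⟩ = SemidirectProduct.inr s := by
      rw [MulEquiv.symm_apply_eq]
      apply Subtype.ext
      show _ = Ψ (SemidirectProduct.inr s)
      rw [SemidirectProduct.map_inr]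
      rfl
    show ((lam (J.symm ⟨SemidirectProduct.inr s, hsH s⟩) : ℂˣ) : ℂ) = 1
    rw [h1]
    show ((ε 1 : ℂˣ) : ℂ) = 1
    rw [map_one]
    simp
  let v : E ⋊[φ] T → ℂ := fun x => extendByZero Ψ.range θ (x⁻¹ * SemidirectProduct.inr s * x)
  have hθcl : IsClassFunction Ψ.range θ := isClassFunction_of_isCharacter hθ
  have hv : ∀ x, v x = 0 ∨ v x = 1 := by
    intro x
    obtain ⟨b, hb, a, ha, he⟩ := hfact x.left
    let y₀ : E ⋊[φ] T := Ψ ⟨⟨a, ha⟩, x.right⟩
    have hy₀ : y₀ ∈ Ψ.range := ⟨_, rfl⟩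
    have hx : x = SemidirectProduct.inl b * y₀ := by
      apply SemidirectProduct.ext
      · show x.left = b * φ 1 a
        simp [he]
      · show x.right = 1 * x.right
        simp
    let y : E ⋊[φ] T := (SemidirectProduct.inl b)⁻¹ * SemidirectProduct.inr s * SemidirectProduct.inl b
    have h1 : v x = extendByZero Ψ.range θ y := by
      have h2 := extendByZero_conj_of_mem Ψ.range hθcl y (Ψ.range.inv_mem hy₀)
      rw [← h2]
      show extendByZero Ψ.range θ _ = _
      congr 1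
      have h3 : y₀⁻¹ * y * y₀⁻¹⁻¹ = y₀⁻¹ * ((SemidirectProduct.inl b)⁻¹ * SemidirectProduct.inr s * SemidirectProduct.inl b) * y₀ := by
        rw [inv_inv]
      rw [h3, hx]
      group
    rw [h1]
    by_cases hy : y ∈ Ψ.range
    · right
      obtain ⟨w, hw⟩ := hy
      have hleft : y.left = b⁻¹ * φ s b := by
        simp [y, SemidirectProduct.mul_left, SemidirectProduct.inv_left]
      have hright : y.right = s := by
        simp [y, SemidirectProduct.mul_right, SemidirectProduct.inv_right]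
      have h2 : b⁻¹ * φ s b ∈ A := by
        rw [← hleft, ← hw]
        exact w.left.2
      have h3 : b⁻¹ * φ s b ∈ B' := B'.mul_mem (B'.inv_mem hb) (hB'φ s b hb)
      have h4 := hint _ h2 h3
      have hys : y = SemidirectProduct.inr s := by
        apply SemidirectProduct.ext
        · rw [hleft, h4]; rfl
        · exact hright
      rw [hys, extendByZero_of_mem Ψ.range θ (hsH s)]
      exact hθs
    · left
      exact extendByZero_of_not_mem Ψ.range θ hy
  have hv1 : v 1 = 1 := by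
    show extendByZero Ψ.range θ ((1 : E ⋊[φ] T)⁻¹ * SemidirectProduct.inr s * 1) = 1
    have h1 : ((1 : E ⋊[φ] T)⁻¹ * SemidirectProduct.inr s * 1) = SemidirectProduct.inr s := by simp
    rw [h1, extendByZero_of_mem Ψ.range θ (hsH s)]
    exact hθs
  have hsum : ∑ x, v x = (((Finset.univ.filter (fun x => v x = 1)).card : ℕ) : ℂ) := by
    rw [Finset.card_filter]
    push_cast
    refine Finset.sum_congr rfl fun x _ => ?_
    rcases hv x with h1 | h1
    · rw [h1, if_neg (by simp)]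
    · rw [h1, if_pos rfl]
  have hpos : 0 < (Finset.univ.filter (fun x => v x = 1)).card :=
    Finset.card_pos.mpr ⟨1, by simp [hv1]⟩
  have hHpos : 0 < Nat.card Ψ.range := Nat.card_pos
  have hval : indFun Ψ.range θ (SemidirectProduct.inr s) =
      (((Finset.univ.filter (fun x => v x = 1)).card : ℝ) / (Nat.card Ψ.range : ℝ) : ℝ) := by
    rw [indFun_apply]
    show (Nat.card Ψ.range : ℂ)⁻¹ * ∑ x, v x = _
    rw [hsum]
    push_cast
    ring
  rw [hval]
  refine ⟨Complex.ofReal_im _, ?_⟩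
  rw [Complex.ofReal_re]
  positivity

/-- Uniqueness of the extension with positive values on `T`. -/
theorem eq_of_pos [Finite E] [Finite T] (h : XS E z) {φ : T →* MulAut E} {χ₀ χ₁ : E ⋊[φ] T → ℂ}
    {d₀ d₁ : ℕ} (h0 : Fa SemidirectProduct.inl z χ₀ d₀) (h1 : Fa SemidirectProduct.inl z χ₁ d₁)
    (p0 : ∀ s : T, (χ₀ (SemidirectProduct.inr s)).im = 0 ∧ 0 < (χ₀ (SemidirectProduct.inr s)).re)
    (p1 : ∀ s : T, (χ₁ (SemidirectProduct.inr s)).im = 0 ∧ 0 < (χ₁ (SemidirectProduct.inr s)).re) :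
    χ₁ = χ₀ := by
  classical
  have hd := h0.deg_eq h1
  subst hd
  obtain ⟨n₀, ρ₀, rfl⟩ := id h0.isChar
  obtain ⟨n₁, ρ₁, rfl⟩ := id h1.isChar
  have hn₀ : (d₀ : ℂ) = n₀ := by rw [← h0.one, char_one_eq_rep]
  have hn₁ : (d₀ : ℂ) = n₁ := by rw [← h1.one, char_one_eq_rep]
  have hn₀' : d₀ = n₀ := by exact_mod_cast hn₀
  have hn₁' : d₀ = n₁ := by exact_mod_cast hn₁
  subst hn₀'
  subst hn₁'
  let σ₀ : Representation ℂ E (Fin d₀ → ℂ) := ρ₀.comp SemidirectProduct.inl
  let σ₁ : Representation ℂ E (Fin d₀ → ℂ) := ρ₁.comp SemidirectProduct.inl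
  have hchar : σ₀.character = σ₁.character := by
    funext e
    exact h0.eq_on h h1 e
  obtain ⟨eq⟩ := Cfsg.Agent.Lib.CharEquiv.equiv_of_character_eq (G := E) _ _ _ σ₀ σ₁ rfl hchar
  let L : (Fin d₀ → ℂ) ≃ₗ[ℂ] (Fin d₀ → ℂ) := eq.toLinearEquiv
  have hL : ∀ e v, L (σ₀ e v) = σ₁ e (L v) := fun e v => eq.toIntertwiningMap.isIntertwining _ _ e v
  have hLs : ∀ e v, L.symm (σ₁ e v) = σ₀ e (L.symm v) := by
    intro e v
    rw [LinearEquiv.symm_apply_eq, hL, L.apply_symm_apply]
  have hirr : σ₀.IsIrreducible := Fa.comp_irr h ρ₀ h0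
  have hdpos : 0 < d₀ := by
    have h2 := h0.deg
    have h3 : 0 < Nat.card E := Nat.card_pos
    by_contra h4
    have h5 : d₀ = 0 := by omega
    rw [h5] at h2
    omega
  have hkey : ∀ s : T, ∀ v, L.symm (ρ₁ (SemidirectProduct.inr s) (L v)) = ρ₀ (SemidirectProduct.inr s) v := by
    intro s
    let Y : (Fin d₀ → ℂ) →ₗ[ℂ] (Fin d₀ → ℂ) :=
      L.symm.toLinearMap ∘ₗ ρ₁ (SemidirectProduct.inr s) ∘ₗ L.toLinearMap ∘ₗ ρ₀ (SemidirectProduct.inr s⁻¹)
    have hinr : ∀ (τ : T) (e : E), (SemidirectProduct.inr τ : E ⋊[φ] T) * SemidirectProduct.inl e =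
        SemidirectProduct.inl (φ τ e) * SemidirectProduct.inr τ := by
      intro τ e
      rw [SemidirectProduct.inl_aut]
      simp
    have hY : ∀ e, Y ∘ₗ σ₀ e = σ₀ e ∘ₗ Y := by
      intro e
      apply LinearMap.ext
      intro v
      show L.symm (ρ₁ (SemidirectProduct.inr s) (L (ρ₀ (SemidirectProduct.inr s⁻¹) (ρ₀ (SemidirectProduct.inl e) v)))) =
        ρ₀ (SemidirectProduct.inl e) (L.symm (ρ₁ (SemidirectProduct.inr s) (L (ρ₀ (SemidirectProduct.inr s⁻¹) v))))
      have h2 : ρ₀ (SemidirectProduct.inr s⁻¹) (ρ₀ (SemidirectProduct.inl e) v) =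
          σ₀ (φ s⁻¹ e) (ρ₀ (SemidirectProduct.inr s⁻¹) v) := by
        rw [← Module.End.mul_apply, ← map_mul, hinr, map_mul]
        rfl
      rw [h2, hL]
      have h3 : ρ₁ (SemidirectProduct.inr s) (σ₁ (φ s⁻¹ e) (L (ρ₀ (SemidirectProduct.inr s⁻¹) v))) =
          σ₁ e (ρ₁ (SemidirectProduct.inr s) (L (ρ₀ (SemidirectProduct.inr s⁻¹) v))) := by
        show ρ₁ (SemidirectProduct.inr s) (ρ₁ (SemidirectProduct.inl (φ s⁻¹ e)) _) =
          ρ₁ (SemidirectProduct.inl e) (ρ₁ (SemidirectProduct.inr s) _)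
        rw [← Module.End.mul_apply, ← map_mul, ← Module.End.mul_apply, ← map_mul, hinr]
        congr 3
        rw [← MulAut.mul_apply, ← map_mul]
        simp
      rw [h3, hLs]
      rfl
    obtain ⟨c, hc⟩ := schur_scalar hirr Y hY
    have hY' : ∀ v, L.symm (ρ₁ (SemidirectProduct.inr s) (L v)) = c • ρ₀ (SemidirectProduct.inr s) v := by
      intro v
      have h2 := LinearMap.congr_fun hc (ρ₀ (SemidirectProduct.inr s) v)
      have h3 : ρ₀ (SemidirectProduct.inr s⁻¹) (ρ₀ (SemidirectProduct.inr s) v) = v := by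
        rw [← Module.End.mul_apply, ← map_mul, ← map_mul]
        simp
      show _ = _
      have h4 : Y (ρ₀ (SemidirectProduct.inr s) v) = L.symm (ρ₁ (SemidirectProduct.inr s) (L (ρ₀ (SemidirectProduct.inr s⁻¹) (ρ₀ (SemidirectProduct.inr s) v)))) := rfl
      rw [h4, h3] at h2
      simpa using h2
    -- the trace
    have htr : ρ₁.character (SemidirectProduct.inr s) = c * ρ₀.character (SemidirectProduct.inr s) := by
      have h2 : L.symm.conj (ρ₁ (SemidirectProduct.inr s)) = c • ρ₀ (SemidirectProduct.inr s) := by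
        apply LinearMap.ext
        intro v
        show L.symm (ρ₁ (SemidirectProduct.inr s) (L v)) = _
        rw [hY']
        rfl
      have h3 := LinearMap.trace_conj' (ρ₁ (SemidirectProduct.inr s)) L.symm
      rw [h2, map_smul] at h3
      show LinearMap.trace ℂ _ _ = c * LinearMap.trace ℂ _ _
      rw [← h3]
      rfl
    obtain ⟨a0, a1⟩ := p0 s
    obtain ⟨b0, b1⟩ := p1 s
    have hc0 : c = (((ρ₁.character (SemidirectProduct.inr s)).re / (ρ₀.character (SemidirectProduct.inr s)).re : ℝ) : ℂ) := by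
      have h5 : ρ₀.character (SemidirectProduct.inr s) = ((ρ₀.character (SemidirectProduct.inr s)).re : ℂ) := by
        apply Complex.ext <;> simp [a0]
      have h6 : ρ₁.character (SemidirectProduct.inr s) = ((ρ₁.character (SemidirectProduct.inr s)).re : ℂ) := by
        apply Complex.ext <;> simp [b0]
      have h7 : ((ρ₀.character (SemidirectProduct.inr s)).re : ℂ) ≠ 0 := by
        exact_mod_cast a1.ne'
      rw [h5, h6] at htr
      push_cast
      field_simp
      rw [h6, h5] at *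
      simp only [Complex.ofReal_re] at *
      linear_combination -htr
    set r : ℝ := (ρ₁.character (SemidirectProduct.inr s)).re / (ρ₀.character (SemidirectProduct.inr s)).re with hr
    have hrpos : 0 < r := div_pos b1 a1
    -- powers
    have hpow : ∀ m : ℕ, ∀ v, L.symm (ρ₁ ((SemidirectProduct.inr s) ^ m) (L v)) =
        (c ^ m) • ρ₀ ((SemidirectProduct.inr s) ^ m) v := by
      intro m
      induction m with
      | zero => intro v; simp
      | succ m ih =>
        intro v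
        rw [pow_succ, map_mul, map_mul, Module.End.mul_apply, Module.End.mul_apply]
        have h8 : ρ₁ (SemidirectProduct.inr s) (L v) = L (L.symm (ρ₁ (SemidirectProduct.inr s) (L v))) := by
          rw [L.apply_symm_apply]
        rw [h8, ih, hY', map_smul, smul_smul, pow_succ]
    have hm : (SemidirectProduct.inr s : E ⋊[φ] T) ^ Nat.card (E ⋊[φ] T) = 1 := pow_card_eq_one'
    have hc1 : c ^ Nat.card (E ⋊[φ] T) = 1 := by
      have hnt : Nontrivial (Fin d₀ → ℂ) := ((isIrreducible_iff σ₀).mp hirr).1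
      obtain ⟨v, hv⟩ := exists_ne (0 : Fin d₀ → ℂ)
      have h8 := hpow (Nat.card (E ⋊[φ] T)) v
      rw [hm] at h8
      simp only [map_one, Module.End.one_apply, LinearEquiv.symm_apply_apply] at h8
      have h9 : (c ^ Nat.card (E ⋊[φ] T) - 1) • v = 0 := by
        rw [sub_smul, ← h8, one_smul, sub_self]
      have := (smul_eq_zero.mp h9).resolve_right hv
      exact sub_eq_zero.mp this
    have hr1 : r = 1 := by
      rw [hc0] at hc1
      have h8 : r ^ Nat.card (E ⋊[φ] T) = 1 := by exact_mod_cast hc1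
      exact (pow_eq_one_iff_of_nonneg hrpos.le Nat.card_pos.ne').mp h8
    have hc2 : c = 1 := by rw [hc0, hr1]; simp
    intro v
    rw [hY', hc2, one_smul]
  funext g
  have hg : g = SemidirectProduct.inl g.left * SemidirectProduct.inr g.right :=
    (SemidirectProduct.inl_left_mul_inr_right g).symm
  have h2 : L.symm.conj (ρ₁ g) = ρ₀ g := by
    apply LinearMap.ext
    intro v
    show L.symm (ρ₁ g (L v)) = _
    rw [hg, map_mul, map_mul, Module.End.mul_apply, Module.End.mul_apply]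
    have h3 : ρ₁ (SemidirectProduct.inr g.right) (L v) =
        L (L.symm (ρ₁ (SemidirectProduct.inr g.right) (L v))) := by rw [L.apply_symm_apply]
    rw [hkey] at h3
    rw [h3]
    show L.symm (σ₁ g.left (L (ρ₀ (SemidirectProduct.inr g.right) v))) = _
    rw [hLs, L.symm_apply_apply]
    rfl
  have h3 := LinearMap.trace_conj' (ρ₁ g) L.symm
  rw [h2] at h3
  exact h3.symm

end Cfsg.Agent.Lib.XSE5
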