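import Mathlib
import Cfsg.Agent.Lib.XSE5

/-!
# The index two steps: Lagrangians swapped, orthogonal factors swapped
-/

set_option autoImplicit false
set_option linter.unusedSectionVars false
set_option linter.unusedVariables false
set_option linter.style.haveILetI false

namespace Cfsg.Agent.Lib.XSE6

open Cfsg Cfsg.Agent.Lib.CharBasic Cfsg.Agent.Lib.XSE1 Cfsg.Agent.Lib.XSE2 Cfsg.Agent.Lib.XSE3
open Cfsg.Agent.Lib.XSE4 Cfsg.Agent.Lib.XSE5 Cfsg.Agent.Lib.CharInd

universe u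

variable {E T K : Type u} [Group E] [Group T] [Group K] {z : E}
  {φ : T →* MulAut E} {κ : K →* MulAut E}

theorem hyp_restrict (H : Hyp z φ κ) (T' : Subgroup T) : Hyp z (φ.comp T'.subtype) κ :=
  ⟨H.xs, H.T2.to_subgroup T', H.Kodd, fun s => H.norm s, H.fpf⟩

/-- The twisted Lagrangian case. -/
theorem step_lagr [Finite E] [Finite T] [Finite K] (H : Hyp z φ κ) (T' : Subgroup T) [hT' : T'.Normal]
    (hidx : T'.index = 2) (t : T) (ht : t ∉ T') (A : Subgroup E) (hzA : z ∈ A)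
    (hAc : ∀ a ∈ A, ∀ b ∈ A, a * b = b * a) (hAφ : ∀ s ∈ T', ∀ a ∈ A, φ s a ∈ A)
    (hAκ : ∀ k, ∀ a ∈ A, κ k a ∈ A) (hCn : Cn A ≤ A)
    (hfact : ∀ e, ∃ a' ∈ A, ∃ a ∈ A, e = φ t a' * a)
    (hint : ∀ x ∈ A, φ t⁻¹ x ∈ A → x = 1 ∨ x = z) : Concl z φ := by
  classical
  have h := H.xs
  let φ' : T' →* MulAut E := φ.comp T'.subtype
  have H' : Hyp z φ' κ := hyp_restrict H T'
  have hAφ' : ∀ s : T', ∀ a ∈ A, φ' s a ∈ A := fun s a ha => hAφ s s.2 a ha
  obtain ⟨B, hBA, hzB, hAB, hBφ, hBκ, hBsq, hcardB⟩ := exists_B H' A hzA hAc hAφ' hAκ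
  have htt : ∀ x, φ t (φ t⁻¹ x) = x := by
    intro x
    rw [← MulAut.mul_apply, ← map_mul]
    simp
  have htt' : ∀ x, φ t⁻¹ (φ t x) = x := by
    intro x
    rw [← MulAut.mul_apply, ← map_mul]
    simp
  let B' : Subgroup E := B.map (φ t).toMonoidHom
  have hB'φ : ∀ s : T', ∀ b ∈ B', φ' s b ∈ B' := by
    rintro s _ ⟨b, hb, rfl⟩
    have h1 : t⁻¹ * s * t ∈ T' := by
      have := hT'.conj_mem s s.2 t⁻¹
      simpa using this
    refine ⟨φ' ⟨t⁻¹ * s * t, h1⟩ b, hBφ _ b hb, ?_⟩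
    show φ t (φ (t⁻¹ * s * t) b) = φ s (φ t b)
    rw [← MulAut.mul_apply, ← MulAut.mul_apply, ← map_mul, ← map_mul]
    congr 2
    group
  have hcard : Nat.card A * Nat.card A = 2 * Nat.card E := by
    have h1 := XS.card_mul_card_centralizer h A hzA
    have h2 : Cn A = A := le_antisymm hCn (le_Cn hAc)
    have h3 : Nat.card (Subgroup.centralizer (A : Set E)) = Nat.card A :=
      congrArg (fun S : Subgroup E => Nat.card S) h2
    rwa [h3] at h1
  have hfact' : ∀ e, ∃ b ∈ B', ∃ a ∈ A, e = b * a := by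
    intro e
    obtain ⟨a', ha', a, ha, rfl⟩ := hfact e
    rcases hAB a' ha' with h1 | h1
    · exact ⟨φ t a', ⟨a', h1, rfl⟩, a, ha, rfl⟩
    · refine ⟨φ t (a' * z), ⟨_, h1, rfl⟩, z * a, A.mul_mem hzA ha, ?_⟩
      rw [map_mul, h.aut_z, mul_assoc, ← mul_assoc z, h.z_sq, one_mul]
  have hint' : ∀ x ∈ A, x ∈ B' → x = 1 := by
    rintro x hx ⟨b, hb, rfl⟩
    have h1 : φ t⁻¹ (φ t b) ∈ A := by
      rw [htt']
      exact hBA hb
    rcases hint _ hx h1 with h2 | h2
    · exact h2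
    · exfalso
      have h2' : φ t b = z := h2
      have h3 : b = z := by
        have h4 := congrArg (φ t⁻¹) h2'
        rw [htt'] at h4
        rw [h4]
        exact h.aut_z _
      exact hzB (h3 ▸ hb)
  obtain ⟨χ₀, d, hF, hpos⟩ := lagr h A B B' hzA hBA hzB hAB hAc hAφ' hBφ hB'φ hcard hfact' hint'
  let c : E ⋊[φ'] T' →* E ⋊[φ'] T' :=
    { toFun := fun g => ⟨φ t g.left, ⟨t * g.right * t⁻¹, hT'.conj_mem _ g.right.2 t⟩⟩
      map_one' := by
        apply SemidirectProduct.ext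
        · show φ t 1 = 1
          simp
        · apply Subtype.ext
          show t * 1 * t⁻¹ = 1
          simp
      map_mul' := fun a b => by
        apply SemidirectProduct.ext
        · show φ t (a.left * φ a.right b.left) = φ t a.left * φ (t * a.right * t⁻¹) (φ t b.left)
          rw [map_mul]
          congr 1
          rw [← MulAut.mul_apply, ← MulAut.mul_apply, ← map_mul, ← map_mul]
          congr 2
          group
        · apply Subtype.ext
          show t * (a.right * b.right) * t⁻¹ = t * a.right * t⁻¹ * (t * b.right * t⁻¹)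
          group }
  have hF₁ : Fa SemidirectProduct.inl z (χ₀ ∘ c) d := by
    refine ⟨isCharacter_comp c hF.isChar, ?_, ?_, hF.deg⟩
    · show χ₀ (c 1) = d
      rw [map_one, hF.one]
    · show χ₀ (c (SemidirectProduct.inl z)) = _
      have h1 : c (SemidirectProduct.inl z) = SemidirectProduct.inl z := by
        apply SemidirectProduct.ext
        · exact h.aut_z _
        · apply Subtype.ext
          show t * 1 * t⁻¹ = 1
          simp
      rw [h1, hF.at_z]
  have hpos₁ : ∀ s : T', ((χ₀ ∘ c) (SemidirectProduct.inr s)).im = 0 ∧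
      0 < ((χ₀ ∘ c) (SemidirectProduct.inr s)).re := by
    intro s
    have h1 : c (SemidirectProduct.inr s) =
        SemidirectProduct.inr ⟨t * s * t⁻¹, hT'.conj_mem _ s.2 t⟩ := by
      apply SemidirectProduct.ext
      · show φ t 1 = 1
        simp
      · rfl
    show (χ₀ (c _)).im = 0 ∧ 0 < (χ₀ (c _)).re
    rw [h1]
    exact hpos _
  have heq := eq_of_pos h hF hF₁ hpos hpos₁
  refine idx2 h T' hidx t ht hF ?_
  intro e s
  have h1 := congrFun heq ⟨e, s⟩
  exact h1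

/-- The swapped orthogonal factors. -/
theorem step_orth [Finite E] [Finite T] [Finite K] (H : Hyp z φ κ) (T' : Subgroup T) [hT' : T'.Normal]
    (hidx : T'.index = 2) (t : T) (ht : t ∉ T') (A : Subgroup E) (hzA : z ∈ A)
    (hinter : ∀ x ∈ A, x ∈ Cn A → x = 1 ∨ x = z) (hAφ : ∀ s ∈ T', ∀ a ∈ A, φ s a ∈ A)
    (hAκ : ∀ k, ∀ a ∈ A, κ k a ∈ A) (hAt : ∀ a ∈ A, φ t a ∈ Cn A)
    (hCt : ∀ c ∈ Cn A, φ t⁻¹ c ∈ A) (hA1 : A ≠ ⊤)
    (IH : ∀ (E' T₂ K₂ : Type u) [Group E'] [Group T₂] [Group K₂] [Finite E'] [Finite T₂] [Finite K₂]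
      (z' : E') (φ₂ : T₂ →* MulAut E') (κ₂ : K₂ →* MulAut E'), Nat.card E' < Nat.card E →
      Hyp z' φ₂ κ₂ → Concl z' φ₂) : Concl z φ := by
  classical
  have h := H.xs
  let φ' : T' →* MulAut E := φ.comp T'.subtype
  have H' : Hyp z φ' κ := hyp_restrict H T'
  have hAφ' : ∀ s : T', ∀ a ∈ A, φ' s a ∈ A := fun s a ha => hAφ s s.2 a ha
  have hzC := z_mem_Cn h A
  have hlt : Nat.card A < Nat.card E := by
    apply lt_of_le_of_ne (Subgroup.card_le_card_group A)
    intro h1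
    exact hA1 (Subgroup.eq_top_of_card_eq A h1)
  obtain ⟨χ', d, hF'⟩ := IH A T' K _ _ _ hlt (hyp_sub_left H' A hzA hinter hAφ' hAκ)
  have htt : ∀ x, φ t (φ t⁻¹ x) = x := by
    intro x
    rw [← MulAut.mul_apply, ← map_mul]
    simp
  have htt' : ∀ x, φ t⁻¹ (φ t x) = x := by
    intro x
    rw [← MulAut.mul_apply, ← map_mul]
    simp
  let φA := rAct φ' A hAφ'
  let φC := rAct φ' (Cn A) (Cn_stable φ' A hAφ')
  have hconj : ∀ s : T', t⁻¹ * s * t ∈ T' := by
    intro s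
    have := hT'.conj_mem s s.2 t⁻¹
    simpa using this
  let ct : (Cn A) ⋊[φC] T' →* A ⋊[φA] T' :=
    { toFun := fun g => ⟨⟨φ t⁻¹ (g.left : E), hCt _ g.left.2⟩, ⟨t⁻¹ * g.right * t, hconj _⟩⟩
      map_one' := by
        apply SemidirectProduct.ext
        · apply Subtype.ext
          show φ t⁻¹ 1 = 1
          simp
        · apply Subtype.ext
          show t⁻¹ * 1 * t = 1
          simp
      map_mul' := fun a b => by
        apply SemidirectProduct.ext
        · apply Subtype.ext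
          show φ t⁻¹ ((a.left : E) * φ a.right (b.left : E)) =
            φ t⁻¹ (a.left : E) * φ (t⁻¹ * a.right * t) (φ t⁻¹ (b.left : E))
          rw [map_mul]
          congr 1
          rw [← MulAut.mul_apply, ← MulAut.mul_apply, ← map_mul, ← map_mul]
          congr 2
          group
        · apply Subtype.ext
          show t⁻¹ * (a.right * b.right) * t = t⁻¹ * a.right * t * (t⁻¹ * b.right * t)
          group }
  have hcardC : Nat.card (Cn A) = Nat.card A := by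
    apply Nat.card_congr
    exact
      { toFun := fun c => ⟨φ t⁻¹ (c : E), hCt _ c.2⟩
        invFun := fun a => ⟨φ t (a : E), hAt _ a.2⟩
        left_inv := fun c => Subtype.ext (htt _)
        right_inv := fun a => Subtype.ext (htt' _) }
  have hF'' : Fa SemidirectProduct.inl ⟨z, hzC⟩ (χ' ∘ ct) d := by
    refine ⟨isCharacter_comp ct hF'.isChar, ?_, ?_, ?_⟩
    · show χ' (ct 1) = d
      rw [map_one, hF'.one]
    · show χ' (ct (SemidirectProduct.inl ⟨z, hzC⟩)) = _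
      have h1 : ct (SemidirectProduct.inl ⟨z, hzC⟩) = SemidirectProduct.inl ⟨z, hzA⟩ := by
        apply SemidirectProduct.ext
        · exact Subtype.ext (h.aut_z _)
        · apply Subtype.ext
          show t⁻¹ * 1 * t = 1
          simp
      rw [h1, hF'.at_z]
    · rw [hcardC]
      exact hF'.deg
  obtain ⟨χ₀, hF₀, hform⟩ := central_prod (φ := φ') h A hzA hinter hAφ' hF' hF''
  refine idx2 h T' hidx t ht hF₀ ?_
  intro e s
  obtain ⟨a, ha, c, hc, rfl⟩ := mul_surj h A hzA hinter e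
  have htwo : t * t ∈ T' := Subgroup.mul_self_mem_of_index_two hidx t
  have hc' : φ t c ∈ A := by
    have h1 := hAφ (t * t) htwo _ (hCt c hc)
    have h2 : φ (t * t) (φ t⁻¹ c) = φ t c := by
      rw [← MulAut.mul_apply, ← map_mul]
      congr 2
      group
    rwa [h2] at h1
  have ha' := hAt a ha
  have h1 : φ t (a * c) = φ t c * φ t a := by
    rw [map_mul]
    exact (Subgroup.mem_centralizer_iff.mp ha' _ hc').symm
  have h2 := hform ⟨φ t c, hc'⟩ ⟨φ t a, ha'⟩ ⟨t * s * t⁻¹, hT'.conj_mem _ s.2 t⟩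
  have h3 := hform ⟨a, ha⟩ ⟨c, hc⟩ s
  have h4 : (χ₀ ⟨φ t (a * c), ⟨t * s * t⁻¹, hT'.conj_mem _ s.2 t⟩⟩ : ℂ) =
      χ' ⟨⟨φ t c, hc'⟩, ⟨t * s * t⁻¹, hT'.conj_mem _ s.2 t⟩⟩ *
        (χ' ∘ ct) ⟨⟨φ t a, ha'⟩, ⟨t * s * t⁻¹, hT'.conj_mem _ s.2 t⟩⟩ := by
    rw [h1]
    exact h2
  rw [h4]
  show _ = χ₀ ⟨((⟨a, ha⟩ : A) : E) * ((⟨c, hc⟩ : Cn A) : E), s⟩
  rw [h3]
  -- compare the factors
  have h5 : (χ' ∘ ct) ⟨⟨φ t a, ha'⟩, ⟨t * s * t⁻¹, hT'.conj_mem _ s.2 t⟩⟩ = χ' ⟨⟨a, ha⟩, s⟩ := by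
    show χ' (ct _) = _
    congr 1
    apply SemidirectProduct.ext
    · exact Subtype.ext (htt' _)
    · apply Subtype.ext
      show t⁻¹ * (t * s * t⁻¹) * t = s
      group
  have h6 : χ' ⟨⟨φ t c, hc'⟩, ⟨t * s * t⁻¹, hT'.conj_mem _ s.2 t⟩⟩ = (χ' ∘ ct) ⟨⟨c, hc⟩, s⟩ := by
    show _ = χ' (ct _)
    let u : T' := ⟨t * t, htwo⟩
    have h7 := char_apply_conj hF'.isChar (ct ⟨⟨c, hc⟩, s⟩) (SemidirectProduct.inr u)
    rw [← h7]
    congr 1
    apply SemidirectProduct.ext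
    · apply Subtype.ext
      show φ t c = _
      simp only [SemidirectProduct.mul_left, SemidirectProduct.left_inr, SemidirectProduct.right_inr,
        SemidirectProduct.inv_left, one_mul, inv_one, map_one, SemidirectProduct.inv_right,
        SemidirectProduct.mul_right, mul_one]
      show _ = φ (t * t) (φ t⁻¹ c)
      rw [← MulAut.mul_apply, ← map_mul]
      congr 2
      group
    · apply Subtype.ext
      show t * s * t⁻¹ = (t * t) * (t⁻¹ * s * t) * (t * t)⁻¹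
      group
  rw [h6, h5]
  exact mul_comm _ _

end Cfsg.Agent.Lib.XSE6
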