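import Mathlib
import Cfsg.Agent.Lib.XSE6

/-!
# The commutator form on `V` and lifting isometries centralising `K`
-/

set_option autoImplicit false
set_option linter.unusedSectionVars false
set_option linter.unusedVariables false
set_option linter.style.haveILetI false

namespace Cfsg.Agent.Lib.XSE7

open Cfsg Cfsg.Agent.Lib.CharBasic Cfsg.Agent.Lib.XSE1 Cfsg.Agent.Lib.XSE2 Cfsg.Agent.Lib.XSE3
open Cfsg.Agent.Lib.XSE4 Cfsg.Agent.Lib.XSE5 Cfsg.Agent.Lib.XSE6

universe u

variable {E : Type u} [Group E] {z : E} {V : Type u} [AddCommGroup V] {π : E → V}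

theorem comm_congr (h : XS E z) (hπ : Pi z π) {x x' y y' : E} (hx : π x = π x') (hy : π y = π y') :
    x * y = y * x ↔ x' * y' = y' * x' := by
  have hz := h.z_comm
  have key : ∀ a a' b : E, (a = a' ∨ a = a' * z) → (a * b = b * a ↔ a' * b = b * a') := by
    intro a a' b ha
    rcases ha with rfl | rfl
    · rfl
    · constructor
      · intro h1
        have h2 : a' * b * z = b * a' * z := by
          have h3 : a' * b * z = a' * z * b := by
            rw [mul_assoc a' z b, hz b, mul_assoc]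
          rw [h3, h1, mul_assoc]
        exact mul_right_cancel h2
      · intro h1
        have h3 : a' * z * b = a' * b * z := by
          rw [mul_assoc a' z b, hz b, mul_assoc]
        rw [h3, h1, mul_assoc]
  have key' : ∀ a b b' : E, (b = b' ∨ b = b' * z) → (a * b = b * a ↔ a * b' = b' * a) := by
    intro a b b' hb
    have h1 := key b b' a hb
    constructor
    · intro h2
      exact (h1.mp h2.symm).symm
    · intro h2
      exact (h1.mpr h2.symm).symm
  rw [key x x' y ((hπ.eq_iff x x').mp hx), key' x' y y' ((hπ.eq_iff y y').mp hy)]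

open Classical in
/-- The commutator form. -/
noncomputable def fV (hπ : Pi z π) (u v : V) : ZMod 2 :=
  if Function.surjInv hπ.surj u * Function.surjInv hπ.surj v =
    Function.surjInv hπ.surj v * Function.surjInv hπ.surj u then 0 else 1

theorem fV_mk (h : XS E z) (hπ : Pi z π) (x y : E) :
    fV hπ (π x) (π y) = 0 ↔ x * y = y * x := by
  unfold fV
  have h1 : π (Function.surjInv hπ.surj (π x)) = π x := Function.surjInv_eq hπ.surj _
  have h2 : π (Function.surjInv hπ.surj (π y)) = π y := Function.surjInv_eq hπ.surj _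
  rw [← comm_congr h hπ h1 h2]
  split_ifs with h3
  · simp [h3]
  · simp [h3]

theorem fV_cases (hπ : Pi z π) (u v : V) : fV hπ u v = 0 ∨ fV hπ u v = 1 := by
  unfold fV
  split_ifs <;> simp

theorem fV_eq_iff (hπ : Pi z π) (u v u' v' : V) :
    fV hπ u v = fV hπ u' v' ↔ (fV hπ u v = 0 ↔ fV hπ u' v' = 0) := by
  rcases fV_cases hπ u v with h1 | h1 <;> rcases fV_cases hπ u' v' with h2 | h2 <;> simp [h1, h2]

theorem comm_mul_iff (h : XS E z) (w x y : E) :
    w * (x * y) = (x * y) * w ↔ (w * x = x * w ↔ w * y = y * w) := by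
  have h1 := XS.cm_mul_right h w x y
  by_cases h2 : w * x = x * w <;> by_cases h3 : w * y = y * w
  · rw [XS.cm_eq_one h2, XS.cm_eq_one h3] at h1
    have : w * (x * y) = (x * y) * w := by
      by_contra h4
      rw [XS.cm_eq_neg h4] at h1
      norm_num at h1
    simp [h2, h3, this]
  · rw [XS.cm_eq_one h2, XS.cm_eq_neg h3] at h1
    have : ¬ w * (x * y) = (x * y) * w := by
      intro h4
      rw [XS.cm_eq_one h4] at h1
      norm_num at h1
    simp [h2, h3, this]
  · rw [XS.cm_eq_neg h2, XS.cm_eq_one h3] at h1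
    have : ¬ w * (x * y) = (x * y) * w := by
      intro h4
      rw [XS.cm_eq_one h4] at h1
      norm_num at h1
    simp [h2, h3, this]
  · rw [XS.cm_eq_neg h2, XS.cm_eq_neg h3] at h1
    have : w * (x * y) = (x * y) * w := by
      by_contra h4
      rw [XS.cm_eq_neg h4] at h1
      norm_num at h1
    simp [h2, h3, this]

theorem fV_add_right (h : XS E z) (hπ : Pi z π) (u v w : V) :
    fV hπ u (v + w) = fV hπ u v + fV hπ u w := by
  obtain ⟨a, rfl⟩ := hπ.surj u
  obtain ⟨b, rfl⟩ := hπ.surj v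
  obtain ⟨c, rfl⟩ := hπ.surj w
  rw [← hπ.map_mul]
  have h1 := fV_mk h hπ a (b * c)
  have h2 := fV_mk h hπ a b
  have h3 := fV_mk h hπ a c
  have h4 := comm_mul_iff h a b c
  rcases fV_cases hπ (π a) (π (b * c)) with h5 | h5 <;> rcases fV_cases hπ (π a) (π b) with h6 | h6 <;>
    rcases fV_cases hπ (π a) (π c) with h7 | h7
  all_goals
    simp only [h5, h6, h7] at h1 h2 h3 ⊢
    first
      | decide
      | (exfalso
         simp only [true_iff, false_iff, one_ne_zero] at h1 h2 h3
         tauto)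

theorem fV_symm (h : XS E z) (hπ : Pi z π) (u v : V) : fV hπ u v = fV hπ v u := by
  obtain ⟨a, rfl⟩ := hπ.surj u
  obtain ⟨b, rfl⟩ := hπ.surj v
  rw [fV_eq_iff, fV_mk h, fV_mk h]
  exact ⟨Eq.symm, Eq.symm⟩

theorem fV_add_left (h : XS E z) (hπ : Pi z π) (u v w : V) :
    fV hπ (u + v) w = fV hπ u w + fV hπ v w := by
  rw [fV_symm h hπ, fV_add_right h hπ, fV_symm h hπ w, fV_symm h hπ w]

theorem fV_self (h : XS E z) (hπ : Pi z π) (u : V) : fV hπ u u = 0 := by
  obtain ⟨a, rfl⟩ := hπ.surj u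
  exact (fV_mk h hπ a a).mpr rfl

theorem fV_nondeg (h : XS E z) (hπ : Pi z π) (u : V) (hu : ∀ v, fV hπ u v = 0) : u = 0 := by
  obtain ⟨a, rfl⟩ := hπ.surj u
  rw [hπ.eq_zero_iff, ← h.center_iff]
  intro y
  exact (fV_mk h hπ a y).mp (hu _)

theorem fV_ind (h : XS E z) (hπ : Pi z π) (α : E ≃* E) (u v : V) :
    fV hπ (indV h hπ α u) (indV h hπ α v) = fV hπ u v := by
  obtain ⟨a, rfl⟩ := hπ.surj u
  obtain ⟨b, rfl⟩ := hπ.surj v
  rw [indV_mk, indV_mk, fV_eq_iff, fV_mk h, fV_mk h, ← map_mul, ← map_mul]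
  exact α.injective.eq_iff

section Lift

variable {T K : Type u} [Group T] [Group K] {φ : T →* MulAut E} {κ : K →* MulAut E}

/-- An automorphism trivial on `V` commuting with `K` is trivial. -/
theorem aut_trivial [Finite E] [Finite K] (H : Hyp z φ κ) (β : E ≃* E)
    (hβ : ∀ x, β x = x ∨ β x = x * z) (hc : ∀ k x, β (κ k x) = κ k (β x)) : β = MulEquiv.refl E := by
  classical
  have h := H.xs
  letI := Fintype.ofFinite K
  obtain ⟨V, _, _, π, hπ⟩ := exists_pi h
  have hz := h.z_comm
  have hβz : β z = z := h.aut_z β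
  let s := Function.surjInv hπ.surj
  have hs : ∀ v, π (s v) = v := Function.surjInv_eq hπ.surj
  -- `ℓ`
  have hwd : ∀ x y, π x = π y → (β x = x ↔ β y = y) := by
    intro x y hxy
    rcases (hπ.eq_iff x y).mp hxy with rfl | rfl
    · rfl
    · rw [map_mul, hβz]
      constructor
      · intro h1
        exact mul_right_cancel h1
      · intro h1
        rw [h1]
  let ℓf : V → ZMod 2 := fun v => if β (s v) = s v then 0 else 1
  have hℓ : ∀ x, ℓf (π x) = if β x = x then 0 else 1 := by
    intro x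
    have h1 := hwd _ _ (hs (π x))
    show (if β (s (π x)) = s (π x) then (0 : ZMod 2) else 1) = _
    simp only [h1]
  have hadd : ∀ u v, ℓf (u + v) = ℓf u + ℓf v := by
    intro u v
    obtain ⟨a, rfl⟩ := hπ.surj u
    obtain ⟨b, rfl⟩ := hπ.surj v
    rw [← hπ.map_mul, hℓ, hℓ, hℓ, map_mul]
    have hzne := h.z_ne
    have hne : ∀ y : E, y * z ≠ y := fun y h1 => hzne (by simpa using h1)
    rcases hβ a with h1 | h1 <;> rcases hβ b with h2 | h2
    · simp [h1, h2]
    · have h3 : β b ≠ b := by rw [h2]; exact hne b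
      have h4 : a * (b * z) ≠ a * b := by
        rw [← mul_assoc]; exact hne _
      simp [h1, h2, hne b, h4]
    · have h4 : a * z * b ≠ a * b := by
        rw [mul_assoc, hz b, ← mul_assoc]; exact hne _
      simp [h1, h2, hne a, h4]
    · have h4 : a * z * (b * z) = a * b := by
        rw [mul_assoc a, ← mul_assoc z, hz b, mul_assoc b, h.z_sq, mul_one]
      simp only [h1, h2, h4, hne a, hne b, if_true, if_false]
      decide
  let ℓ : V →+ ZMod 2 := AddMonoidHom.mk' ℓf hadd
  have hinv : ∀ k x, ℓ (π (κ k x)) = ℓ (π x) := by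
    intro k x
    show ℓf _ = ℓf _
    rw [hℓ, hℓ, hc]
    have h3 : κ k (β x) = κ k x ↔ β x = x := (κ k).injective.eq_iff
    simp only [h3]
  have hzero := H.invariant_additive hπ (fun w : ZMod 2 => by
    revert w
    decide) ℓ hinv
  ext x
  have h1 : ℓf (π x) = 0 := hzero (π x)
  rw [hℓ] at h1
  by_contra h2
  have h3 : β x ≠ x := h2
  simp [h3] at h1

/-- Quotients by a subgroup containing the commutators, in abstract form. -/
theorem exists_ab_quot {Y : Type u} [Group Y] (N : Subgroup Y) [hN : N.Normal]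
    (hcomm : ∀ x y : Y, (x * y)⁻¹ * (y * x) ∈ N) {W : Type u} [CommGroup W] (G₀ : Y →* W)
    (hG₀ : ∀ y ∈ N, G₀ y = 1) :
    ∃ (Q : Type u) (_ : CommGroup Q) (m : Y →* Q) (g : Q →* W), Function.Surjective m ∧
      (∀ y, m y = 1 ↔ y ∈ N) ∧ ∀ y, g (m y) = G₀ y := by
  letI cq : CommGroup (Y ⧸ N) :=
    { (inferInstance : Group (Y ⧸ N)) with
      mul_comm := by
        intro a b
        induction a using QuotientGroup.induction_on with
        | H a =>
        induction b using QuotientGroup.induction_on with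
        | H b =>
        rw [← QuotientGroup.mk_mul, ← QuotientGroup.mk_mul, QuotientGroup.eq]
        exact hcomm a b }
  exact ⟨Y ⧸ N, cq, QuotientGroup.mk' N, QuotientGroup.lift N G₀ hG₀,
    QuotientGroup.mk'_surjective N, fun y => QuotientGroup.eq_one_iff y, fun y => rfl⟩

/-- Lifting an isometry commuting with `K`. -/
theorem exists_lift [Finite E] [Finite K] (H : Hyp z φ κ) (hπ : Pi z π) (c : V ≃+ V)
    (hf : ∀ u v, fV hπ (c u) (c v) = fV hπ u v)
    (hK : ∀ k v, c (indV H.xs hπ (κ k) v) = indV H.xs hπ (κ k) (c v)) :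
    ∃ b : E ≃* E, (∀ x, π (b x) = c (π x)) ∧ ∀ k x, b (κ k x) = κ k (b x) := by
  classical
  have h := H.xs
  letI := Fintype.ofFinite K
  have hz := h.z_comm
  let Y : Subgroup (E × E) :=
    { carrier := {y | π y.2 = c (π y.1)}
      one_mem' := by
        show π 1 = c (π 1)
        rw [hπ.map_one, map_zero]
      mul_mem' := by
        intro a b ha hb
        show π (a.2 * b.2) = c (π (a.1 * b.1))
        rw [hπ.map_mul, hπ.map_mul, map_add, ha, hb]
      inv_mem' := by
        intro a ha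
        have h0 : π a.2⁻¹ = - π a.2 := by
          have := hπ.map_mul a.2 a.2⁻¹
          rw [mul_inv_cancel, hπ.map_one] at this
          exact (neg_eq_of_add_eq_zero_right this.symm).symm
        have h1 : π a.1⁻¹ = - π a.1 := by
          have := hπ.map_mul a.1 a.1⁻¹
          rw [mul_inv_cancel, hπ.map_one] at this
          exact (neg_eq_of_add_eq_zero_right this.symm).symm
        show π a.2⁻¹ = c (π a.1⁻¹)
        rw [h0, h1, map_neg, show π a.2 = c (π a.1) from ha] }
  have hY : ∀ y : Y, π (y : E × E).2 = c (π (y : E × E).1) := fun y => y.2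
  let N : Subgroup Y :=
    { carrier := {y | (y : E × E).1 = (y : E × E).2 ∧ ((y : E × E).1 = 1 ∨ (y : E × E).1 = z)}
      one_mem' := ⟨rfl, Or.inl rfl⟩
      mul_mem' := by
        rintro a b ⟨ha, ha'⟩ ⟨hb, hb'⟩
        refine ⟨?_, ?_⟩
        · show (a : E × E).1 * (b : E × E).1 = (a : E × E).2 * (b : E × E).2
          rw [ha, hb]
        · show (a : E × E).1 * (b : E × E).1 = 1 ∨ (a : E × E).1 * (b : E × E).1 = z
          rcases ha' with h1 | h1 <;> rcases hb' with h2 | h2 <;> rw [h1, h2]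
          · left; simp
          · right; simp
          · right; simp
          · left; exact h.z_sq
      inv_mem' := by
        rintro a ⟨ha, ha'⟩
        refine ⟨?_, ?_⟩
        · show (a : E × E).1⁻¹ = (a : E × E).2⁻¹
          rw [ha]
        · show (a : E × E).1⁻¹ = 1 ∨ (a : E × E).1⁻¹ = z
          rcases ha' with h1 | h1 <;> rw [h1]
          · left; simp
          · right; exact h.z_inv }
  have hNmem : ∀ y : Y, y ∈ N ↔ (y : E × E).1 = (y : E × E).2 ∧ ((y : E × E).1 = 1 ∨ (y : E × E).1 = z) :=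
    fun y => Iff.rfl
  haveI hNn : N.Normal := by
    constructor
    intro n hn g
    rw [hNmem] at hn ⊢
    obtain ⟨h1, h2⟩ := hn
    have hcen : ∀ x : E, (n : E × E).1 * x = x * (n : E × E).1 := (h.center_iff _).mpr h2
    have hcen2 : ∀ x : E, (n : E × E).2 * x = x * (n : E × E).2 := by
      rw [← h1]; exact hcen
    have e1 : ((g * n * g⁻¹ : Y) : E × E).1 = (n : E × E).1 := by
      show (g : E × E).1 * (n : E × E).1 * (g : E × E).1⁻¹ = _
      rw [← hcen]
      group
    have e2 : ((g * n * g⁻¹ : Y) : E × E).2 = (n : E × E).2 := by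
      show (g : E × E).2 * (n : E × E).2 * (g : E × E).2⁻¹ = _
      rw [← hcen2]
      group
    rw [e1, e2]
    exact ⟨h1, h2⟩
  have hcomm : ∀ x y : Y, (x * y)⁻¹ * (y * x) ∈ N := by
    intro a b
    have hfV : ((a : E × E).1 * (b : E × E).1 = (b : E × E).1 * (a : E × E).1) ↔
        ((a : E × E).2 * (b : E × E).2 = (b : E × E).2 * (a : E × E).2) := by
      rw [← fV_mk h hπ, ← fV_mk h hπ, hY a, hY b, hf]
    rw [hNmem]
    by_cases h1 : (a : E × E).1 * (b : E × E).1 = (b : E × E).1 * (a : E × E).1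
    · have h2 := hfV.mp h1
      have e1 : (((a * b)⁻¹ * (b * a) : Y) : E × E).1 = 1 := by
        show ((a : E × E).1 * (b : E × E).1)⁻¹ * ((b : E × E).1 * (a : E × E).1) = 1
        rw [h1]; simp
      have e2 : (((a * b)⁻¹ * (b * a) : Y) : E × E).2 = 1 := by
        show ((a : E × E).2 * (b : E × E).2)⁻¹ * ((b : E × E).2 * (a : E × E).2) = 1
        rw [h2]; simp
      rw [e1, e2]
      exact ⟨rfl, Or.inl rfl⟩
    · have h2 : ¬ ((a : E × E).2 * (b : E × E).2 = (b : E × E).2 * (a : E × E).2) :=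
        fun h3 => h1 (hfV.mpr h3)
      have h3 := (h.comm (b : E × E).1 (a : E × E).1).resolve_left (fun h4 => h1 h4.symm)
      have h4 := (h.comm (b : E × E).2 (a : E × E).2).resolve_left (fun h5 => h2 h5.symm)
      have e1 : (((a * b)⁻¹ * (b * a) : Y) : E × E).1 = z := by
        show ((a : E × E).1 * (b : E × E).1)⁻¹ * ((b : E × E).1 * (a : E × E).1) = z
        rw [h3, inv_mul_cancel_left]
      have e2 : (((a * b)⁻¹ * (b * a) : Y) : E × E).2 = z := by
        show ((a : E × E).2 * (b : E × E).2)⁻¹ * ((b : E × E).2 * (a : E × E).2) = z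
        rw [h4, inv_mul_cancel_left]
      rw [e1, e2]
      exact ⟨rfl, Or.inr rfl⟩
  let G₀ : Y →* Multiplicative V :=
    { toFun := fun y => Multiplicative.ofAdd (π (y : E × E).1)
      map_one' := by
        show Multiplicative.ofAdd (π 1) = 1
        rw [hπ.map_one]
        rfl
      map_mul' := fun a b => by
        show Multiplicative.ofAdd (π ((a : E × E).1 * (b : E × E).1)) = _
        rw [hπ.map_mul]
        rfl }
  have hG₀ : ∀ y ∈ N, G₀ y = 1 := by
    intro y hy
    obtain ⟨h1, h2⟩ := hy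
    show Multiplicative.ofAdd (π (y : E × E).1) = 1
    rw [(hπ.eq_zero_iff _).mpr h2]
    rfl
  obtain ⟨Q, _, m, g, hm, hmk, hg⟩ := exists_ab_quot N hcomm G₀ hG₀
  -- the action of `K` on `Y`
  have hαmem : ∀ (k : K) (y : Y), (κ k (y : E × E).1, κ k (y : E × E).2) ∈ Y := by
    intro k y
    show π (κ k (y : E × E).2) = c (π (κ k (y : E × E).1))
    rw [← indV_mk h hπ, ← indV_mk h hπ, hK, hY]
  let α : K → Y →* Y := fun k =>
    { toFun := fun y => ⟨(κ k (y : E × E).1, κ k (y : E × E).2), hαmem k y⟩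
      map_one' := by
        apply Subtype.ext
        show (κ k 1, κ k 1) = (1 : E × E)
        simp
      map_mul' := fun a b => by
        apply Subtype.ext
        show (κ k ((a : E × E).1 * (b : E × E).1), κ k ((a : E × E).2 * (b : E × E).2)) = _
        rw [map_mul, map_mul]
        rfl }
  have hαα : ∀ k k' y, α k (α k' y) = α (k * k') y := by
    intro k k' y
    apply Subtype.ext
    show (κ k (κ k' (y : E × E).1), κ k (κ k' (y : E × E).2)) =
      (κ (k * k') (y : E × E).1, κ (k * k') (y : E × E).2)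
    rw [map_mul]
    rfl
  let Fp : Y → Q := fun y => ∏ k : K, m (α k y)
  have hFmul : ∀ a b, Fp (a * b) = Fp a * Fp b := by
    intro a b
    show ∏ k : K, m (α k (a * b)) = (∏ k : K, m (α k a)) * ∏ k : K, m (α k b)
    rw [← Finset.prod_mul_distrib]
    refine Finset.prod_congr rfl fun k _ => ?_
    rw [map_mul, map_mul]
  have hFα : ∀ k y, Fp (α k y) = Fp y := by
    intro k y
    show ∏ k' : K, m (α k' (α k y)) = ∏ k' : K, m (α k' y)
    apply Fintype.prod_equiv (Equiv.mulRight k)
    intro k'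
    rw [hαα]
    rfl
  let wY : Y := ⟨(1, z), by
    show π z = c (π 1)
    rw [hπ.map_one, hπ.map_z, map_zero]⟩
  let w : Q := m wY
  have hw1 : w ≠ 1 := by
    intro h1
    have h2 := (hmk wY).mp h1
    obtain ⟨h3, -⟩ := h2
    exact h.z_ne h3.symm
  have hw2 : w * w = 1 := by
    show m wY * m wY = 1
    rw [← map_mul, hmk]
    have : wY * wY = 1 := by
      apply Subtype.ext
      show ((1 : E) * 1, z * z) = ((1 : E), (1 : E))
      rw [h.z_sq, one_mul]
    rw [this]
    exact N.one_mem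
  have hαw : ∀ k, α k wY = wY := by
    intro k
    apply Subtype.ext
    show (κ k 1, κ k z) = (1, z)
    rw [map_one, h.aut_z]
  have hFw : Fp wY = w := by
    show ∏ k : K, m (α k wY) = w
    simp only [hαw, Finset.prod_const, Finset.card_univ]
    obtain ⟨n, hn⟩ := H.Kodd
    rw [← Nat.card_eq_fintype_card, hn, pow_succ, pow_mul]
    show (m wY ^ 2) ^ n * m wY = w
    rw [sq]
    show (w * w) ^ n * w = w
    rw [hw2, one_pow, one_mul]
  have hval : ∀ y, Fp y = 1 ∨ Fp y = w := by
    intro y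
    obtain ⟨y₁, hy₁⟩ := hm (Fp y)
    have h1 : g (Fp y) = 1 := by
      show g (∏ k : K, m (α k y)) = 1
      rw [map_prod]
      simp only [hg]
      show ∏ k : K, Multiplicative.ofAdd (π (κ k (y : E × E).1)) = 1
      rw [← ofAdd_sum, H.avg hπ]
      rfl
    rw [← hy₁, hg] at h1
    have h2 : π (y₁ : E × E).1 = 0 := h1
    have h3 := (hπ.eq_zero_iff _).mp h2
    have h4 : π (y₁ : E × E).2 = 0 := by
      rw [hY, h2, map_zero]
    have h5 := (hπ.eq_zero_iff _).mp h4
    -- cases
    have hmzz : ∀ u : Y, (u : E × E).1 = z → (u : E × E).2 = z → m u = 1 := by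
      intro u hu1 hu2
      rw [hmk, hNmem, hu1, hu2]
      exact ⟨rfl, Or.inr rfl⟩
    rcases h3 with h6 | h6 <;> rcases h5 with h7 | h7
    · left
      rw [← hy₁, hmk, hNmem, h6, h7]
      exact ⟨rfl, Or.inl rfl⟩
    · right
      rw [← hy₁]
      have : y₁ = wY := Subtype.ext (Prod.ext h6 h7)
      rw [this]
    · right
      rw [← hy₁]
      have h10 : m (y₁ * wY) = 1 := by
        apply hmzz
        · show (y₁ : E × E).1 * 1 = z
          rw [h6, mul_one]
        · show (y₁ : E × E).2 * z = z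
          rw [h7, one_mul]
      rw [map_mul] at h10
      have h11 : m wY * m wY = 1 := hw2
      exact mul_right_cancel (h10.trans h11.symm)
    · left
      rw [← hy₁]
      exact hmzz _ h6 h7
  have hmkY : ∀ (a b : E) (hb : π b = c (π a)), π (b * z) = c (π a) := by
    intro a b hb
    rw [hπ.map_mul, hπ.map_z, add_zero, hb]
  have hFz : ∀ (a b : E) (hb : π b = c (π a)),
      Fp ⟨(a, b * z), hmkY a b hb⟩ = Fp ⟨(a, b), hb⟩ * w := by
    intro a b hb
    have h1 : (⟨(a, b * z), hmkY a b hb⟩ : Y) = ⟨(a, b), hb⟩ * wY := by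
      apply Subtype.ext
      show (a, b * z) = (a * 1, b * z)
      rw [mul_one]
    rw [h1, hFmul, hFw]
  have hex : ∀ a : E, ∃ b : E, ∃ hb : π b = c (π a), Fp ⟨(a, b), hb⟩ = 1 := by
    intro a
    obtain ⟨b₀, hb₀⟩ := hπ.surj (c (π a))
    rcases hval ⟨(a, b₀), hb₀⟩ with h1 | h1
    · exact ⟨b₀, hb₀, h1⟩
    · refine ⟨b₀ * z, hmkY a b₀ hb₀, ?_⟩
      rw [hFz a b₀ hb₀, h1, hw2]
  have huniq : ∀ (a b b' : E) (hb : π b = c (π a)) (hb' : π b' = c (π a)),
      Fp ⟨(a, b), hb⟩ = 1 → Fp ⟨(a, b'), hb'⟩ = 1 → b = b' := by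
    intro a b b' hb hb' h1 h2
    rcases (hπ.eq_iff b b').mp (hb.trans hb'.symm) with h3 | h3
    · exact h3
    · exfalso
      subst h3
      have h4 := hFz a b' hb'
      rw [h1, h2, one_mul] at h4
      exact hw1 h4.symm
  choose bf hbf hbf1 using hex
  have hbmul : ∀ a a', bf (a * a') = bf a * bf a' := by
    intro a a'
    have hm1 : π (bf a * bf a') = c (π (a * a')) := by
      rw [hπ.map_mul, hπ.map_mul, map_add, hbf, hbf]
    refine huniq (a * a') _ _ (hbf (a * a')) hm1 (hbf1 _) ?_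
    have h1 : (⟨(a * a', bf a * bf a'), hm1⟩ : Y) = ⟨(a, bf a), hbf a⟩ * ⟨(a', bf a'), hbf a'⟩ := rfl
    rw [h1, hFmul, hbf1, hbf1, one_mul]
  have hinj : Function.Injective (MonoidHom.mk' bf hbmul) := by
    rw [injective_iff_map_eq_one]
    intro a ha
    have ha' : bf a = 1 := ha
    have h1 : c (π a) = 0 := by
      rw [← hbf, ha', hπ.map_one]
    have h2 : π a = 0 := by
      simpa using h1
    rcases (hπ.eq_zero_iff a).mp h2 with h3 | h3
    · exact h3
    · exfalso
      rw [h3] at ha'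
      have hz1 : π (1 : E) = c (π z) := by
        rw [hπ.map_one, hπ.map_z, map_zero]
      have hzz : π z = c (π z) := by
        rw [hπ.map_z, map_zero]
      have h4 : Fp ⟨(z, 1), hz1⟩ = 1 := by
        have h5 : (⟨(z, 1), hz1⟩ : Y) = ⟨(z, bf z), hbf z⟩ := by
          apply Subtype.ext
          show (z, 1) = (z, bf z)
          rw [ha']
        rw [h5]
        exact hbf1 z
      have h6 : (⟨(z, 1), hz1⟩ : Y) * wY = ⟨(z, z), hzz⟩ := by
        apply Subtype.ext
        show (z * 1, 1 * z) = (z, z)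
        rw [mul_one, one_mul]
      have h7 : Fp ⟨(z, z), hzz⟩ = 1 := by
        show ∏ k : K, m (α k ⟨(z, z), hzz⟩) = 1
        refine Finset.prod_eq_one fun k _ => ?_
        rw [hmk, hNmem]
        show κ k z = κ k z ∧ (κ k z = 1 ∨ κ k z = z)
        exact ⟨rfl, Or.inr (h.aut_z _)⟩
      have h8 := congrArg Fp h6
      rw [hFmul, h7, hFw, h4, one_mul] at h8
      exact hw1 h8
  refine ⟨MulEquiv.ofBijective (MonoidHom.mk' bf hbmul)
    ⟨hinj, Finite.injective_iff_surjective.mp hinj⟩, fun x => hbf x, ?_⟩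
  intro k x
  show bf (κ k x) = κ k (bf x)
  have hm1 : π (κ k (bf x)) = c (π (κ k x)) := hαmem k ⟨(x, bf x), hbf x⟩
  refine huniq (κ k x) _ _ (hbf _) hm1 (hbf1 _) ?_
  have h1 : (⟨(κ k x, κ k (bf x)), hm1⟩ : Y) = α k ⟨(x, bf x), hbf x⟩ := rfl
  rw [h1, hFα, hbf1]

end Lift

end Cfsg.Agent.Lib.XSE7
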