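import Mathlib
import Cfsg.Agent.Lib.XSE7
import Cfsg.Agent.Lib.XSE10

/-!
# The main induction
-/

set_option autoImplicit false
set_option linter.unusedSectionVars false
set_option linter.unusedVariables false
set_option linter.style.haveILetI false

namespace Cfsg.Agent.Lib.XSE11

open Cfsg Cfsg.Agent.Lib.XSE1 Cfsg.Agent.Lib.XSE2 Cfsg.Agent.Lib.XSE3 Cfsg.Agent.Lib.XSE4
open Cfsg.Agent.Lib.XSE5 Cfsg.Agent.Lib.XSE6 Cfsg.Agent.Lib.XSE7 Cfsg.Agent.Lib.XSE8
open Cfsg.Agent.Lib.XSE9 Cfsg.Agent.Lib.XSE10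

universe u

section

variable {E T K : Type u} [Group E] [Group T] [Group K] {z : E} {φ : T →* MulAut E}
  {κ : K →* MulAut E}

theorem step_alpha [Finite E] [Finite T] [Finite K] (H : Hyp z φ κ) (A : Subgroup E) (hzA : z ∈ A)
    (hAφ : ∀ t, ∀ a ∈ A, φ t a ∈ A) (hAκ : ∀ k, ∀ a ∈ A, κ k a ∈ A)
    (hA1 : ∃ a ∈ A, a ≠ 1 ∧ a ≠ z) (hA2 : A ≠ ⊤)
    (IH : ∀ (E' : Type u) [Group E'] [Finite E'] (z' : E') (φ' : T →* MulAut E')
      (κ' : K →* MulAut E'), Nat.card E' < Nat.card E → Hyp z' φ' κ' → Concl z' φ') :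
    Concl z φ := by
  have h := H.xs
  have hCφ := Cn_stable φ A hAφ
  have hCκ := Cn_stable κ A hAκ
  by_cases hB : ∃ a ∈ A ⊓ Cn A, a ≠ 1 ∧ a ≠ z
  · refine step_iso H (A ⊓ Cn A) ⟨hzA, z_mem_Cn h A⟩ ?_ hB
      (fun t a ha => ⟨hAφ t a ha.1, hCφ t a ha.2⟩) (fun k a ha => ⟨hAκ k a ha.1, hCκ k a ha.2⟩) IH
    intro a ha b hb
    exact (Subgroup.mem_centralizer_iff.mp hb.2) a ha.1
  · push Not at hB
    have hinter : ∀ x ∈ A, x ∈ Cn A → x = 1 ∨ x = z := by
      intro x hx hx'
      by_cases h1 : x = 1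
      · exact Or.inl h1
      · exact Or.inr (hB x ⟨hx, hx'⟩ h1)
    refine step_nondeg H A hzA hinter hAφ hAκ hA2 ?_ IH
    intro h2
    obtain ⟨a, ha, ha1, ha2⟩ := hA1
    have ha3 : a ∈ Cn A := by rw [h2]; trivial
    rcases hinter a ha ha3 with h3 | h3
    · exact ha1 h3
    · exact ha2 h3

variable {V : Type u} [AddCommGroup V] {π : E → V}

/-- The automorphisms of `E` acting on `V`. -/
noncomputable def uvM (h : XS E z) (hπ : Pi z π) : MulAut E →* UV V where
  toFun α :=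
    { val := (indV h hπ α).toAddMonoidHom
      inv := (indV h hπ α⁻¹).toAddMonoidHom
      val_inv := by
        ext v
        show indV h hπ α (indV h hπ α⁻¹ v) = v
        rw [← indV_mul, mul_inv_cancel, indV_one]
      inv_val := by
        ext v
        show indV h hπ α⁻¹ (indV h hπ α v) = v
        rw [← indV_mul, inv_mul_cancel, indV_one] }
  map_one' := Units.ext (AddMonoidHom.ext (indV_one h hπ))
  map_mul' α β := Units.ext (AddMonoidHom.ext (indV_mul h hπ α β))

theorem uvM_apply (h : XS E z) (hπ : Pi z π) (α : MulAut E) (v : V) :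
    rE (uvM h hπ α) v = indV h hπ α v := rfl

theorem uvM_mk (h : XS E z) (hπ : Pi z π) (α : MulAut E) (x : E) :
    rE (uvM h hπ α) (π x) = π (α x) := indV_mk h hπ α x

/-- The preimage of an additive subgroup. -/
def cmp (h : XS E z) (hπ : Pi z π) (U : AddSubgroup V) : Subgroup E where
  carrier := {x | π x ∈ U}
  one_mem' := by
    show π 1 ∈ U
    rw [hπ.map_one]
    exact U.zero_mem
  mul_mem' := by
    intro a b ha hb
    show π (a * b) ∈ U
    rw [hπ.map_mul]
    exact U.add_mem ha hb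
  inv_mem' := by
    intro a ha
    show π a⁻¹ ∈ U
    have h1 := hπ.map_mul a⁻¹ a
    rw [inv_mul_cancel, hπ.map_one] at h1
    have h2 : π a⁻¹ = - π a := (neg_eq_of_add_eq_zero_left h1.symm).symm
    rw [h2]
    exact U.neg_mem ha

theorem mem_cmp (h : XS E z) (hπ : Pi z π) (U : AddSubgroup V) (x : E) :
    x ∈ cmp h hπ U ↔ π x ∈ U := Iff.rfl

/-- Vectors fixed by an endomorphism. -/
def fixE (e : EV V) : AddSubgroup V where
  carrier := {v | e v = v}
  zero_mem' := map_zero e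
  add_mem' := by
    intro a b ha hb
    show e (a + b) = a + b
    rw [map_add, show e a = a from ha, show e b = b from hb]
  neg_mem' := by
    intro a ha
    show e (-a) = -a
    rw [map_neg, show e a = a from ha]

theorem fV_zero_right (h : XS E z) (hπ : Pi z π) (u : V) : fV hπ u 0 = 0 := by
  have := fV_add_right h hπ u 0 0
  rw [add_zero] at this
  exact left_eq_add.mp this

theorem fV_zero_left (h : XS E z) (hπ : Pi z π) (u : V) : fV hπ 0 u = 0 := by
  rw [fV_symm h hπ, fV_zero_right h hπ]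

theorem case_I [Finite E] [Finite T] [Finite K] (H : Hyp z φ κ) (hπ : Pi z π)
    (IHg : ∀ (E' T₂ K₂ : Type u) [Group E'] [Group T₂] [Group K₂] [Finite E'] [Finite T₂] [Finite K₂]
      (z' : E') (φ₂ : T₂ →* MulAut E') (κ₂ : K₂ →* MulAut E'), Nat.card E' < Nat.card E →
      Hyp z' φ₂ κ₂ → Concl z' φ₂)
    [Nontrivial V] (T' : Subgroup T) [hT' : T'.Normal] (t : T) (e : EV V) (hidx : T'.index = 2)
    (ht : t ∉ T') (he : e * e = e)
    (hek : ∀ k, e * rE (uvM H.xs hπ (κ k)) = rE (uvM H.xs hπ (κ k)) * e)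
    (hes : ∀ s ∈ T', rE (uvM H.xs hπ (φ s)) * e = e * rE (uvM H.xs hπ (φ s)))
    (het : rE (uvM H.xs hπ (φ t)) * e = (1 - e) * rE (uvM H.xs hπ (φ t)))
    (hadj : Adj (fV hπ) e e ∨ Adj (fV hπ) e (1 - e)) : Concl z φ := by
  have h := H.xs
  let A : Subgroup E := cmp h hπ (fixE e)
  have hA : ∀ a, a ∈ A ↔ e (π a) = π a := fun a => Iff.rfl
  have hidem : ∀ v, e (e v) = e v := fun v => congrArg (fun b : EV V => b v) he
  have hzA : z ∈ A := by
    rw [hA, hπ.map_z]
    exact map_zero e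
  have hAφ : ∀ s ∈ T', ∀ a ∈ A, φ s a ∈ A := by
    intro s hs a ha
    rw [hA] at ha ⊢
    have h1 := congrArg (fun b : EV V => b (π a)) (hes s hs)
    have h2 : rE (uvM h hπ (φ s)) (e (π a)) = e (rE (uvM h hπ (φ s)) (π a)) := h1
    rw [ha, uvM_mk] at h2
    exact h2.symm
  have hAκ : ∀ k, ∀ a ∈ A, κ k a ∈ A := by
    intro k a ha
    rw [hA] at ha ⊢
    have h1 := congrArg (fun b : EV V => b (π a)) (hek k)
    have h2 : e (rE (uvM h hπ (κ k)) (π a)) = rE (uvM h hπ (κ k)) (e (π a)) := h1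
    rw [ha, uvM_mk] at h2
    exact h2
  have ht1 : ∀ v, rE (uvM h hπ (φ t)) (e v) =
      rE (uvM h hπ (φ t)) v - e (rE (uvM h hπ (φ t)) v) := fun v =>
    congrArg (fun b : EV V => b v) het
  have htt : ∀ c, φ t (φ t⁻¹ c) = c := by
    intro c
    rw [← MulAut.mul_apply, ← map_mul]
    simp
  have hinj : ∀ u v, rE (uvM h hπ (φ t)) u = rE (uvM h hπ (φ t)) v → u = v := by
    intro u v huv
    have := congrArg (rE (uvM h hπ (φ t))⁻¹) huv
    rwa [rE_inv_apply, rE_inv_apply] at this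
  have hout : ∀ a ∈ A, e (π (φ t a)) = 0 := by
    intro a ha
    have h1 := ht1 (π a)
    rw [(hA a).mp ha, uvM_mk] at h1
    exact sub_eq_self.mp h1.symm
  have hback : ∀ c, e (π c) = 0 → φ t⁻¹ c ∈ A := by
    intro c hc
    rw [hA]
    apply hinj
    have h1 := ht1 (π (φ t⁻¹ c))
    rw [uvM_mk, htt, hc, sub_zero] at h1
    rw [h1, uvM_mk, htt]
  have hpre : ∀ v, ∃ a ∈ A, π a = e v := by
    intro v
    obtain ⟨a, ha⟩ := hπ.surj (e v)
    refine ⟨a, ?_, ha⟩
    rw [hA, ha, hidem]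
  rcases hadj with hadj | hadj
  · -- orthogonal decomposition
    have hCn : ∀ x, x ∈ Cn A ↔ e (π x) = 0 := by
      intro x
      rw [Subgroup.mem_centralizer_iff]
      constructor
      · intro hx
        apply fV_nondeg h hπ
        intro v
        rw [hadj, fV_symm h hπ]
        obtain ⟨a, ha, hav⟩ := hpre v
        rw [← hav]
        exact (fV_mk h hπ a x).mpr (hx a ha)
      · intro hx a ha
        apply (fV_mk h hπ a x).mp
        have h1 : π a = e (π a) := ((hA a).mp ha).symm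
        rw [h1, hadj, hx, fV_zero_right h hπ]
    have hinter : ∀ x ∈ A, x ∈ Cn A → x = 1 ∨ x = z := by
      intro x hx hx'
      rw [← hπ.eq_zero_iff, ← (hA x).mp hx]
      exact (hCn x).mp hx'
    refine step_orth H T' hidx t ht A hzA hinter hAφ hAκ ?_ ?_ ?_ IHg
    · intro a ha
      rw [hCn]
      exact hout a ha
    · intro c hc
      exact hback c ((hCn c).mp hc)
    · intro h1
      obtain ⟨v, hv⟩ := exists_ne (0 : V)
      obtain ⟨x, rfl⟩ := hπ.surj v
      have h2 : φ t⁻¹ x ∈ A := by rw [h1]; trivial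
      have h3 := hout _ h2
      rw [htt] at h3
      have h4 : x ∈ A := by rw [h1]; trivial
      rw [(hA x).mp h4] at h3
      exact hv h3
  · -- isotropic
    have hAc : ∀ a ∈ A, ∀ b ∈ A, a * b = b * a := by
      intro a ha b hb
      apply (fV_mk h hπ a b).mp
      have h1 : π a = e (π a) := ((hA a).mp ha).symm
      have h2 : (1 - e) (π b) = 0 := by
        show π b - e (π b) = 0
        rw [(hA b).mp hb, sub_self]
      rw [h1, hadj, h2, fV_zero_right h hπ]
    have hCn : Cn A ≤ A := by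
      intro x hx
      rw [Subgroup.mem_centralizer_iff] at hx
      rw [hA]
      have h1 : (1 - e) (π x) = 0 := by
        apply fV_nondeg h hπ
        intro v
        rw [fV_symm h hπ, ← hadj]
        obtain ⟨a, ha, hav⟩ := hpre v
        rw [← hav]
        exact (fV_mk h hπ a x).mpr (hx a ha)
      have h2 : π x - e (π x) = 0 := h1
      exact (sub_eq_zero.mp h2).symm
    refine step_lagr H T' hidx t ht A hzA hAc hAφ hAκ hCn ?_ ?_
    · intro x
      obtain ⟨a', ha', hπa'⟩ := hpre (rE (uvM h hπ (φ t))⁻¹ (π x))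
      refine ⟨a', ha', (φ t a')⁻¹ * x, ?_, by group⟩
      have htwo : ∀ v : V, v + v = 0 := Pi.two h hπ
      have h1 : π (φ t a') = π x - e (π x) := by
        rw [← uvM_mk h hπ, hπa', ht1, rE_apply_inv]
      have h2 : π ((φ t a')⁻¹ * x) = e (π x) := by
        have h3 : π (φ t a') + π ((φ t a')⁻¹ * x) = π x := by
          rw [← hπ.map_mul, mul_inv_cancel_left]
        rw [h1] at h3
        have h4 : π ((φ t a')⁻¹ * x) = π x - (π x - e (π x)) := eq_sub_of_add_eq' h3
        rw [h4]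
        abel
      rw [hA, h2, hidem]
    · intro x hx hx'
      rw [← hπ.eq_zero_iff, ← (hA x).mp hx]
      have h1 := hout _ hx'
      rw [htt] at h1
      exact h1

theorem case_II [Finite E] [Finite T] [Finite K] [Finite V] (H : Hyp z φ κ) (hπ : Pi z π)
    (IHg : ∀ (E' T₂ K₂ : Type u) [Group E'] [Group T₂] [Group K₂] [Finite E'] [Finite T₂] [Finite K₂]
      (z' : E') (φ₂ : T₂ →* MulAut E') (κ₂ : K₂ →* MulAut E'), Nat.card E' < Nat.card E →
      Hyp z' φ₂ κ₂ → Concl z' φ₂)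
    (C : Subgroup (UV V))
    (hcomm : ∀ g ∈ C, ∀ k, rE g * rE (uvM H.xs hπ (κ k)) = rE (uvM H.xs hπ (κ k)) * rE g)
    (hiso : ∀ g ∈ C, ∀ u v, fV hπ (rE g u) (rE g v) = fV hπ u v)
    (hnorm : ∀ t, ∀ g ∈ C, uvM H.xs hπ (φ t) * g * (uvM H.xs hπ (φ t))⁻¹ ∈ C)
    (hodd : Odd (Nat.card C))
    (hfpf : ∀ v, (∀ g ∈ C, rE g v = v) → v = 0)
    (hor : (∃ U : AddSubgroup V, U ≠ ⊥ ∧ U ≠ ⊤ ∧ (∀ g ∈ C, ∀ u ∈ U, rE g u ∈ U) ∧
          (∀ t, ∀ u ∈ U, rE (uvM H.xs hπ (φ t)) u ∈ U)) ∨
        (∃ (T₁ : Subgroup T) (_ : T₁.Normal), (∀ s ∈ T₁, uvM H.xs hπ (φ s) = 1) ∧ IsCyclic (T ⧸ T₁))) :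
    Concl z φ := by
  classical
  have h := H.xs
  have hl : ∀ g : C, ∃ b : MulAut E, (∀ x, π (b x) = rE (g : UV V) (π x)) ∧
      ∀ k x, b (κ k x) = κ k (b x) := by
    intro g
    let c : V ≃+ V :=
      { toFun := rE (g : UV V)
        invFun := rE (g : UV V)⁻¹
        left_inv := rE_inv_apply _
        right_inv := rE_apply_inv _
        map_add' := map_add _ }
    obtain ⟨b, hb1, hb2⟩ := exists_lift H hπ c (fun u v => hiso g g.2 u v) (fun k v =>
      congrArg (fun a : EV V => a v) (hcomm g g.2 k))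
    exact ⟨b, hb1, hb2⟩
  choose L hL1 hL2 using hl
  have hzz : ∀ b : MulAut E, b z = z := fun b => h.aut_z b
  have huniq : ∀ b b' : MulAut E, (∀ x, π (b x) = π (b' x)) → (∀ k x, b (κ k x) = κ k (b x)) →
      (∀ k x, b' (κ k x) = κ k (b' x)) → b = b' := by
    intro b b' h1 h2 h3
    have hinv' : ∀ x, b'⁻¹ (b' x) = x := by
      intro x
      rw [← MulAut.mul_apply, inv_mul_cancel]
      rfl
    have hinv'' : ∀ x, b' (b'⁻¹ x) = x := by
      intro x
      rw [← MulAut.mul_apply, mul_inv_cancel]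
      rfl
    have hβ := aut_trivial H (b'⁻¹ * b) (by
      intro x
      rcases (hπ.eq_iff _ _).mp (h1 x) with h4 | h4
      · left
        show b'⁻¹ (b x) = x
        rw [h4, hinv']
      · right
        show b'⁻¹ (b x) = x * z
        rw [h4, map_mul, hinv', hzz]) (by
      intro k x
      show b'⁻¹ (b (κ k x)) = κ k (b'⁻¹ (b x))
      rw [h2]
      apply b'.injective
      rw [hinv'', h3, hinv''])
    have h5 : b'⁻¹ * b = 1 := hβ
    rw [inv_mul_eq_one] at h5
    exact h5.symm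
  let κ₂ : C →* MulAut E :=
    { toFun := L
      map_one' := by
        apply huniq
        · intro x
          rw [hL1]
          rfl
        · exact hL2 1
        · intro k x
          rfl
      map_mul' := by
        intro g g'
        apply huniq
        · intro x
          rw [hL1]
          show rE ((g : UV V) * (g' : UV V)) (π x) = π (L g (L g' x))
          rw [rE_mul_apply, hL1, hL1]
        · exact hL2 _
        · intro k x
          show L g (L g' (κ k x)) = κ k (L g (L g' x))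
          rw [hL2, hL2] }
  have hκ₂ : ∀ g x, κ₂ g x = L g x := fun g x => rfl
  have hφφ : ∀ (t : T) x, φ t (φ t⁻¹ x) = x := by
    intro t x
    rw [← MulAut.mul_apply, ← map_mul]
    simp
  have hφφ' : ∀ (t : T) x, φ t⁻¹ (φ t x) = x := by
    intro t x
    rw [← MulAut.mul_apply, ← map_mul]
    simp
  have H₂ : Hyp z φ κ₂ := by
    refine ⟨h, H.T2, hodd, ?_, ?_⟩
    · intro t
      let σ : C ≃ C :=
        { toFun := fun g => ⟨uvM h hπ (φ t) * g * (uvM h hπ (φ t))⁻¹, hnorm t g g.2⟩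
          invFun := fun g => ⟨uvM h hπ (φ t⁻¹) * g * (uvM h hπ (φ t⁻¹))⁻¹, hnorm t⁻¹ g g.2⟩
          left_inv := by
            intro g
            apply Subtype.ext
            simp only [map_inv]
            group
          right_inv := by
            intro g
            apply Subtype.ext
            simp only [map_inv]
            group }
      refine ⟨σ, fun g => ?_⟩
      apply huniq
      · intro x
        show π (φ t (L g ((φ t)⁻¹ x))) = π (L (σ g) x)
        rw [hL1 (σ g), ← uvM_mk h hπ, hL1]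
        show _ = rE (uvM h hπ (φ t)) (rE (g : UV V) (rE (uvM h hπ (φ t))⁻¹ (π x)))
        have h0 : rE (uvM h hπ (φ t))⁻¹ (π x) = π ((φ t)⁻¹ x) := by
          rw [← map_inv, uvM_mk]
        rw [h0]
      · intro k x
        obtain ⟨σ', hσ'⟩ := H.norm t⁻¹
        have h1 : ∀ y, (φ t)⁻¹ (κ k y) = κ (σ' k) ((φ t)⁻¹ y) := by
          intro y
          have h2 := hσ' k
          rw [mul_inv_eq_iff_eq_mul, map_inv] at h2
          exact congrArg (fun b : MulAut E => b y) h2
        have h4 : ∀ y, φ t (κ (σ' k) y) = κ k (φ t y) := by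
          intro y
          have h5 := h1 (φ t y)
          have h6 : (φ t)⁻¹ (φ t y) = y := by
            rw [← MulAut.mul_apply, inv_mul_cancel]
            rfl
          rw [h6] at h5
          have h7 := congrArg (φ t) h5
          have h8 : φ t ((φ t)⁻¹ (κ k (φ t y))) = κ k (φ t y) := by
            rw [← MulAut.mul_apply, mul_inv_cancel]
            rfl
          rw [h8] at h7
          exact h7.symm
        show φ t (L g ((φ t)⁻¹ (κ k x))) = κ k (φ t (L g ((φ t)⁻¹ x)))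
        rw [h1, hL2, h4]
      · exact hL2 _
    · intro e he
      rw [← hπ.eq_zero_iff]
      apply hfpf
      intro g hg
      rw [← hL1 ⟨g, hg⟩, hπ.eq_iff]
      exact he ⟨g, hg⟩
  rcases hor with ⟨U, hU1, hU2, hUC, hUT⟩ | ⟨T₁, hn, htriv, hcyc⟩
  · refine step_alpha H₂ (cmp h hπ U) ?_ ?_ ?_ ?_ ?_
      (fun E' _ _ z' φ' κ' hlt H' => IHg E' T C z' φ' κ' hlt H')
    · show π z ∈ U
      rw [hπ.map_z]
      exact U.zero_mem
    · intro t a ha
      show π (φ t a) ∈ U
      rw [← uvM_mk h hπ]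
      exact hUT t _ ha
    · intro g a ha
      show π (L g a) ∈ U
      rw [hL1]
      exact hUC g g.2 _ ha
    · obtain ⟨⟨u, hu⟩, hu0⟩ := AddSubgroup.ne_bot_iff_exists_ne_zero.mp hU1
      obtain ⟨x, rfl⟩ := hπ.surj u
      refine ⟨x, hu, ?_, ?_⟩
      · rintro rfl
        exact hu0 (Subtype.ext hπ.map_one)
      · rintro rfl
        exact hu0 (Subtype.ext hπ.map_z)
    · intro h1
      apply hU2
      rw [eq_top_iff]
      rintro v -
      obtain ⟨x, rfl⟩ := hπ.surj v
      have : x ∈ cmp h hπ U := by rw [h1]; trivial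
      exact this
  · haveI := hn
    refine base_cyc h T₁ (fun s hs => ?_) hcyc
    have hstriv : ∀ x, π (φ s x) = π x := by
      intro x
      rw [← uvM_mk h hπ, htriv s hs]
      rfl
    apply aut_trivial H (φ s)
    · intro x
      exact (hπ.eq_iff _ _).mp (hstriv x)
    · intro k x
      obtain ⟨σ, hσ⟩ := H.norm s
      have h1 : κ (σ k * k⁻¹) = 1 := by
        apply H.kappa_trivial
        intro y
        rw [← hπ.eq_iff, map_mul, map_inv]
        show π (κ (σ k) ((κ k)⁻¹ y)) = π y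
        rw [← hσ k]
        show π (φ s (κ k ((φ s)⁻¹ ((κ k)⁻¹ y)))) = π y
        rw [hstriv]
        have h2 : π (κ k ((φ s)⁻¹ ((κ k)⁻¹ y))) = π (κ k ((κ k)⁻¹ y)) := by
          rw [← uvM_mk h hπ, ← uvM_mk h hπ (κ k)]
          congr 1
          have h3 := hstriv ((φ s)⁻¹ ((κ k)⁻¹ y))
          have h4 : φ s ((φ s)⁻¹ ((κ k)⁻¹ y)) = (κ k)⁻¹ y := by simp
          rw [h4] at h3
          exact h3.symm
        rw [h2]
        simp
      have h2 : κ (σ k) = κ k := by
        rw [map_mul, map_inv, mul_inv_eq_one] at h1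
        exact h1
      have h3 := hσ k
      rw [h2, mul_inv_eq_iff_eq_mul] at h3
      exact congrArg (fun b : MulAut E => b x) h3

/-- One inductive step. -/
theorem step_main [Finite E] [Finite T] [Finite K] (H : Hyp z φ κ)
    (IHg : ∀ (E' T₂ K₂ : Type u) [Group E'] [Group T₂] [Group K₂] [Finite E'] [Finite T₂] [Finite K₂]
      (z' : E') (φ₂ : T₂ →* MulAut E') (κ₂ : K₂ →* MulAut E'), Nat.card E' < Nat.card E →
      Hyp z' φ₂ κ₂ → Concl z' φ₂) : Concl z φ := by
  classical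
  have h := H.xs
  obtain ⟨V, _, _, π, hπ⟩ := exists_pi h
  by_cases hα : ∃ A : Subgroup E, z ∈ A ∧ (∀ t, ∀ a ∈ A, φ t a ∈ A) ∧ (∀ k, ∀ a ∈ A, κ k a ∈ A) ∧
      (∃ a ∈ A, a ≠ 1 ∧ a ≠ z) ∧ A ≠ ⊤
  · obtain ⟨A, h1, h2, h3, h4, h5⟩ := hα
    exact step_alpha H A h1 h2 h3 h4 h5
      (fun E' _ _ z' φ' κ' hlt H' => IHg E' T K z' φ' κ' hlt H')
  by_cases hVt : Nontrivial V
  swap
  · -- `V` is trivial
    rw [not_nontrivial_iff_subsingleton] at hVt
    have hT : ∀ x : E, x = 1 ∨ x = z := fun x => (hπ.eq_zero_iff x).mp (Subsingleton.elim _ _)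
    haveI : Subsingleton (T ⧸ (⊤ : Subgroup T)) := QuotientGroup.subsingleton_quotient_top
    haveI : IsCyclic (T ⧸ (⊤ : Subgroup T)) := isCyclic_of_subsingleton
    refine base_cyc h ⊤ (fun s _ => ?_) inferInstance
    ext x
    rcases hT x with rfl | rfl
    · simp
    · exact h.aut_z (φ s)
  let ρ : K →* UV V := (uvM h hπ).comp κ
  let τ : T →* UV V := (uvM h hπ).comp φ
  have hτ : ∀ t x, rE (τ t) (π x) = π (φ t x) := fun t x => uvM_mk h hπ _ x
  have hρ : ∀ k x, rE (ρ k) (π x) = π (κ k x) := fun k x => uvM_mk h hπ _ x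
  have hr : RH ρ τ (fV hπ) := by
    refine ⟨Pi.two h hπ, fV_add_left h hπ, fV_add_right h hπ, fV_symm h hπ, fV_nondeg h hπ,
      fun k u v => fV_ind h hπ _ u v, fun t u v => fV_ind h hπ _ u v, ?_, ?_, H.Kodd, H.T2, ?_⟩
    · intro v hv
      obtain ⟨x, rfl⟩ := hπ.surj v
      rw [hπ.eq_zero_iff]
      apply H.fpf
      intro k
      rw [← hπ.eq_iff, ← hρ, hv]
    · intro t
      obtain ⟨σ, hσ⟩ := H.norm t
      refine ⟨σ, fun k => ?_⟩
      show uvM h hπ (φ t) * uvM h hπ (κ k) * (uvM h hπ (φ t))⁻¹ = uvM h hπ (κ (σ k))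
      rw [← hσ, map_mul, map_mul, map_inv]
    · intro U hU1 hU2
      by_contra hcon
      push Not at hcon
      obtain ⟨hU3, hU4⟩ := hcon
      apply hα
      refine ⟨cmp h hπ U, ?_, ?_, ?_, ?_, ?_⟩
      · show π z ∈ U
        rw [hπ.map_z]
        exact U.zero_mem
      · intro t a ha
        show π (φ t a) ∈ U
        rw [← hτ]
        exact hU2 t _ ha
      · intro k a ha
        show π (κ k a) ∈ U
        rw [← hρ]
        exact hU1 k _ ha
      · obtain ⟨⟨u, hu⟩, hu0⟩ := AddSubgroup.ne_bot_iff_exists_ne_zero.mp hU3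
        obtain ⟨x, rfl⟩ := hπ.surj u
        refine ⟨x, hu, ?_, ?_⟩
        · rintro rfl
          exact hu0 (Subtype.ext hπ.map_one)
        · rintro rfl
          exact hu0 (Subtype.ext hπ.map_z)
      · intro h1
        apply hU4
        rw [eq_top_iff]
        rintro v -
        obtain ⟨x, rfl⟩ := hπ.surj v
        have : x ∈ cmp h hπ U := by rw [h1]; trivial
        exact this
  rcases rlayer hr with ⟨T', hn, t, e, hidx, ht, he, hek, hes, het, hadj⟩ |
    ⟨C, hC1, hC2, hC3, hC4, hC5, hC6⟩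
  · haveI := hn
    exact case_I H hπ IHg T' t e hidx ht he hek hes het hadj
  · exact case_II H hπ IHg C hC1 hC2 hC3 hC4 hC5 hC6

/-- The main theorem of the induction. -/
theorem main_aux (n : ℕ) : ∀ (E T K : Type u) [Group E] [Group T] [Group K] [Finite E] [Finite T]
    [Finite K] (z : E) (φ : T →* MulAut E) (κ : K →* MulAut E), Nat.card E = n → Hyp z φ κ →
    Concl z φ := by
  induction n using Nat.strong_induction_on with
  | _ n ih =>
    intro E T K _ _ _ _ _ _ z φ κ hn H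
    refine step_main H ?_
    intro E' T₂ K₂ _ _ _ _ _ _ z' φ₂ κ₂ hlt H'
    exact ih (Nat.card E') (hn ▸ hlt) E' T₂ K₂ z' φ₂ κ₂ rfl H'

theorem main [Finite E] [Finite T] [Finite K] (H : Hyp z φ κ) : Concl z φ :=
  main_aux _ E T K z φ κ rfl H

end

end Cfsg.Agent.Lib.XSE11
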