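import Mathlib
import Cfsg.Prelude.Def_Transfer
import Cfsg.Agent.Lib.XSE11
import Cfsg.Agent.Lib.CanonExt

/-!
# Assembly: a faithful irreducible character of a normal extraspecial `2`-subgroup extends
-/

set_option autoImplicit false
set_option linter.unusedSectionVars false
set_option linter.unusedVariables false
set_option linter.style.haveILetI false

namespace Cfsg.Agent.Lib.XSE12

open Cfsg Cfsg.Agent.Lib.CharBasic Cfsg.Agent.Lib.XSE1 Cfsg.Agent.Lib.XSE2 Cfsg.Agent.Lib.XSE8
open Cfsg.Agent.Lib.XSE11 Cfsg.Agent.Lib.ImplGroup Cfsg.Agent.Lib.CanonExt Cfsg.Agent.Lib.DetChar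

open scoped commutatorElement

universe u

theorem xs_of_extraspecial {P : Type u} [Group P] [Finite P] (hP : IsExtraspecial 2 P) :
    ∃ z : P, XS P z := by
  obtain ⟨⟨hp, hfr, hcm⟩, hc⟩ := hP
  obtain ⟨y, hy, huniq⟩ := (Nat.card_eq_two_iff' (1 : Subgroup.center P)).mp hc
  have hy1 : (y : P) ≠ 1 := fun h => hy (Subtype.ext h)
  have hmem : ∀ x : P, x ∈ Subgroup.center P ↔ x = 1 ∨ x = y := by
    intro x
    constructor
    · intro hx
      by_cases h1 : x = 1
      · exact Or.inl h1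
      · right
        have := huniq ⟨x, hx⟩ (fun h => h1 (congrArg Subtype.val h))
        exact congrArg Subtype.val this
    · rintro (rfl | rfl)
      · exact one_mem _
      · exact y.2
  refine ⟨y, hy1, ?_, ?_, ?_⟩
  · have h1 : y ^ Nat.card (Subgroup.center P) = 1 := pow_card_eq_one'
    rw [hc, sq] at h1
    exact congrArg Subtype.val h1
  · intro x
    rw [← hmem, Subgroup.mem_center_iff]
    exact ⟨fun h g => (h g).symm, fun h g => (h g).symm⟩
  · intro x
    have h1 : x * x ∈ frattini P := by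
      show x * x ∈ Order.radical (Subgroup P)
      rw [Order.radical, Subgroup.mem_iInf]
      intro M
      rw [Subgroup.mem_iInf]
      intro hM
      exact Subgroup.mul_self_mem_of_index_two (coatom_index hp M hM).2 x
    rw [hfr, hmem] at h1
    exact h1

section Main

variable {G : Type u} [Group G] [Finite G]

theorem fpf_aux (E K : Subgroup G) [hEn : E.Normal] (hKodd : Odd (Nat.card K)) (hEK : ⁅E, K⁆ = E)
    {z : E} (h : XS E z) (e : E)
    (he : ∀ k : K, ((MulAut.conjNormal : G →* MulAut E).comp K.subtype) k e = e ∨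
      ((MulAut.conjNormal : G →* MulAut E).comp K.subtype) k e = e * z) : e = 1 ∨ e = z := by
  classical
  letI := Fintype.ofFinite K
  obtain ⟨V, _, _, π, hπ⟩ := exists_pi h
  let κ : K →* MulAut E := (MulAut.conjNormal : G →* MulAut E).comp K.subtype
  let A : E → V := fun x => ∑ k : K, π (κ k x)
  have hAmul : ∀ x y, A (x * y) = A x + A y := by
    intro x y
    show ∑ k : K, π (κ k (x * y)) = ∑ k : K, π (κ k x) + ∑ k : K, π (κ k y)
    rw [← Finset.sum_add_distrib]
    refine Finset.sum_congr rfl fun k _ => ?_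
    rw [map_mul, hπ.map_mul]
  have hAκ : ∀ (l : K) x, A (κ l x) = A x := by
    intro l x
    show ∑ k : K, π (κ k (κ l x)) = ∑ k : K, π (κ k x)
    apply Fintype.sum_equiv (Equiv.mulRight l)
    intro k
    show π (κ k (κ l x)) = π (κ (k * l) x)
    rw [map_mul]
    rfl
  have hAone : A 1 = 0 := by
    show ∑ k : K, π (κ k 1) = 0
    simp only [map_one, hπ.map_one, Finset.sum_const_zero]
  have hAinv : ∀ x, A x⁻¹ = - A x := by
    intro x
    have h1 := hAmul x x⁻¹
    rw [mul_inv_cancel, hAone] at h1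
    exact (neg_eq_of_add_eq_zero_right h1.symm).symm
  let S : Subgroup G :=
    { carrier := {g | ∃ hg : g ∈ E, A ⟨g, hg⟩ = 0}
      one_mem' := ⟨E.one_mem, hAone⟩
      mul_mem' := by
        rintro a b ⟨ha, ha'⟩ ⟨hb, hb'⟩
        refine ⟨E.mul_mem ha hb, ?_⟩
        have h1 := hAmul ⟨a, ha⟩ ⟨b, hb⟩
        rw [ha', hb', add_zero] at h1
        exact h1
      inv_mem' := by
        rintro a ⟨ha, ha'⟩
        refine ⟨E.inv_mem ha, ?_⟩
        have h1 := hAinv ⟨a, ha⟩
        rw [ha', neg_zero] at h1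
        exact h1 }
  have hle : ⁅E, K⁆ ≤ S := by
    rw [Subgroup.commutator_le]
    intro x hx k hk
    have h1 : k * x⁻¹ * k⁻¹ ∈ E := hEn.conj_mem _ (E.inv_mem hx) k
    have h2 : ⁅x, k⁆ = x * (k * x⁻¹ * k⁻¹) := by
      rw [commutatorElement_def]
      group
    rw [h2]
    refine ⟨E.mul_mem hx h1, ?_⟩
    have h3 : (⟨k * x⁻¹ * k⁻¹, h1⟩ : E) = κ ⟨k, hk⟩ (⟨x, hx⟩ : E)⁻¹ := by
      apply Subtype.ext
      show k * x⁻¹ * k⁻¹ = ((MulAut.conjNormal k : MulAut E) (⟨x, hx⟩ : E)⁻¹ : E)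
      rw [MulAut.conjNormal_apply]
      rfl
    have h4 := hAmul ⟨x, hx⟩ ⟨k * x⁻¹ * k⁻¹, h1⟩
    rw [h3, hAκ, hAinv, add_neg_cancel] at h4
    exact h4
  have hA0 : A e = 0 := by
    have h1 : (e : G) ∈ ⁅E, K⁆ := by
      rw [hEK]
      exact e.2
    obtain ⟨h2, h3⟩ := hle h1
    exact h3
  have hAe : A e = π e := by
    have h1 : ∀ k : K, π (κ k e) = π e := by
      intro k
      rw [hπ.eq_iff]
      exact he k
    show ∑ k : K, π (κ k e) = π e
    simp only [h1, Finset.sum_const, Finset.card_univ]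
    rw [← Nat.card_eq_fintype_card]
    obtain ⟨n, hn⟩ := hKodd
    rw [hn, add_smul, one_smul, mul_smul, two_nsmul, Pi.two h hπ, zero_add]
  rw [← hπ.eq_zero_iff, ← hAe, hA0]

/-- A faithful irreducible character of a normal `2`-subgroup with the given structure is invariant. -/
theorem theta_inv (E : Subgroup G) [hEn : E.Normal] {z : E} (h : XS E z) {θ : E → ℂ} {d : ℕ}
    (hF : Fa (MonoidHom.id E) z θ d) (g : G) (n : E) :
    θ ⟨g * n * g⁻¹, hEn.conj_mem (n : G) n.2 g⟩ = θ n := by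
  let α : MulAut E := MulAut.conjNormal g
  have h1 : (⟨g * n * g⁻¹, hEn.conj_mem (n : G) n.2 g⟩ : E) = α n := by
    apply Subtype.ext
    show g * n * g⁻¹ = ((MulAut.conjNormal g : MulAut E) n : E)
    rw [MulAut.conjNormal_apply]
  rw [h1]
  by_cases hn : n = 1 ∨ n = z
  · rcases hn with rfl | rfl
    · rw [map_one]
    · rw [h.aut_z α]
  · have h2 : ¬ (α n = 1 ∨ α n = z) := by
      rintro (h3 | h3)
      · apply hn
        left
        have h4 : α n = α 1 := by rw [h3, map_one]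
        exact α.injective h4
      · apply hn
        right
        have h4 : α n = α z := by rw [h3, h.aut_z α]
        exact α.injective h4
    have h3 := hF.vanish h h2
    have h4 := hF.vanish h hn
    exact h3.trans h4.symm

/-- The extension over odd primes. -/
theorem local_odd (E : Subgroup G) [hEn : E.Normal] (h2E : IsPGroup 2 E) {z : E}
    {θ : E → ℂ} {d : ℕ} (h : XS E z) (hθ : IsIrrCharacter E θ) (hF : Fa (MonoidHom.id E) z θ d)
    (p : ℕ) (hp : p.Prime) (hp2 : p ≠ 2) :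
    ∃ (P : Subgroup G) (hNP : E ≤ P) (η : P → ℂ),
      Nat.Coprime P.index p ∧ IsCharacter P η ∧ ∀ n : E, η ⟨(n : G), hNP n.2⟩ = θ n := by
  classical
  haveI hpf : Fact p.Prime := ⟨hp⟩
  obtain ⟨S⟩ : Nonempty (Sylow p G) := inferInstance
  let M : Subgroup G := (S : Subgroup G) ⊔ E
  have hNM : E ≤ M := le_sup_right
  have hSM : (S : Subgroup G) ≤ M := le_sup_left
  have hcop' : Nat.Coprime M.index p := by
    have h1 : M.index ∣ (S : Subgroup G).index := Subgroup.index_dvd_of_le hSM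
    have h2 : ¬ p ∣ M.index := fun h => S.not_dvd_index (h.trans h1)
    exact ((Nat.Prime.coprime_iff_not_dvd hp).mpr h2).symm
  have hpg : IsPGroup p (M ⧸ E.subgroupOf M) := by
    let f : (S : Subgroup G) →* M ⧸ E.subgroupOf M :=
      (QuotientGroup.mk' (E.subgroupOf M)).comp (Subgroup.inclusion hSM)
    have hf : Function.Surjective f := by
      intro q
      induction q using QuotientGroup.induction_on with
      | H x =>
        have hx : (x : G) ∈ (↑((S : Subgroup G) ⊔ E) : Set G) := x.2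
        rw [Subgroup.mul_normal] at hx
        obtain ⟨s, hs, n, hn, hsn⟩ := Set.mem_mul.mp hx
        refine ⟨⟨s, hs⟩, ?_⟩
        show ((Subgroup.inclusion hSM ⟨s, hs⟩ : M) : M ⧸ E.subgroupOf M) = x
        rw [QuotientGroup.eq]
        show (⟨s, hSM hs⟩ : M)⁻¹ * x ∈ E.subgroupOf M
        rw [Subgroup.mem_subgroupOf]
        have h1 : (((⟨s, hSM hs⟩ : M)⁻¹ * x : M) : G) = n := by
          push_cast
          rw [← hsn]
          group
        rw [h1]
        exact hn
    exact IsPGroup.of_surjective S.isPGroup' f hf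
  obtain ⟨s, hs⟩ := IsPGroup.iff_card.mp hpg
  have hidx : (E.subgroupOf M).index = p ^ s := by
    rw [Subgroup.index_eq_card]
    exact hs
  let ε : E.subgroupOf M ≃* E := Subgroup.subgroupOfEquivOfLe hNM
  have hϑ : IsIrrCharacter (E.subgroupOf M) (θ ∘ ε) :=
    isIrrCharacter_comp_of_surjective ε.toMonoidHom ε.surjective hθ
  obtain ⟨m, hm⟩ := IsPGroup.iff_card.mp h2E
  have hpd : ¬ p ∣ d := by
    intro h1
    have h3 : p ∣ Nat.card E := by
      rw [← hF.deg]
      exact Dvd.dvd.mul_right (Dvd.dvd.mul_right h1 d) 2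
    rw [hm] at h3
    have h4 := (Nat.prime_dvd_prime_iff_eq hp Nat.prime_two).mp (hp.dvd_of_dvd_pow h3)
    exact hp2 h4
  have hdet : DetP' p (θ ∘ ε) := by
    obtain ⟨D, hD⟩ := exists_detHom (IsIrrCharacter.isCharacter hϑ)
    refine ⟨2 ^ m, ?_, ?_⟩
    · intro h3
      have h4 := (Nat.prime_dvd_prime_iff_eq hp Nat.prime_two).mp (hp.dvd_of_dvd_pow h3)
      exact hp2 h4
    · intro g
      rw [hD, ← Units.val_pow_eq_pow_val, ← map_pow]
      have h5 : g ^ 2 ^ m = 1 := by
        have h6 : Nat.card (E.subgroupOf M) = 2 ^ m := by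
          rw [← hm]
          exact Nat.card_congr ε.toEquiv
        rw [← h6]
        exact pow_card_eq_one'
      rw [h5, map_one, Units.val_one]
  have hone : (θ ∘ ε) 1 = d := by
    show θ (ε 1) = d
    rw [map_one, ← hF.one]
  haveI hn' : (E.subgroupOf M).Normal := Subgroup.normal_subgroupOf
  obtain ⟨χ, hχ, hres, -⟩ := exists_ext_detP' (G := M) (p := p) s (E.subgroupOf M) hn' hidx hϑ
    (fun g n => theta_inv E h hF (g : G) (ε n)) hone hpd hdet
  exact ⟨M, hNM, χ, hcop', IsIrrCharacter.isCharacter hχ, fun n => hres ⟨⟨n, hNM n.2⟩, n.2⟩⟩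

/-- The extension over the prime two. -/
theorem local_two (E H K : Subgroup G) [hEn : E.Normal] (h2E : IsPGroup 2 E) (hEH : E ⊓ H = ⊥)
    (hEHtop : E ⊔ H = ⊤) (hKH : K ≤ H) (hKn : ∀ h ∈ H, ∀ k ∈ K, h * k * h⁻¹ ∈ K)
    (hKodd : Odd (Nat.card K)) (hEK : ⁅E, K⁆ = E) {z : E} {θ : E → ℂ} {d : ℕ} (h : XS E z)
    (hF : Fa (MonoidHom.id E) z θ d) :
    ∃ (P : Subgroup G) (hNP : E ≤ P) (η : P → ℂ),
      Nat.Coprime P.index 2 ∧ IsCharacter P η ∧ ∀ n : E, η ⟨(n : G), hNP n.2⟩ = θ n := by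
  classical
  haveI : Fact (Nat.Prime 2) := ⟨Nat.prime_two⟩
  obtain ⟨S, hES⟩ := IsPGroup.exists_le_sylow h2E
  let T : Subgroup G := (S : Subgroup G) ⊓ H
  let cn : G →* MulAut E := MulAut.conjNormal
  let φ : T →* MulAut E := cn.comp T.subtype
  let κ : K →* MulAut E := cn.comp K.subtype
  have hcn : ∀ (g : G) (e : E), ((cn g e : E) : G) = g * e * g⁻¹ :=
    fun g e => MulAut.conjNormal_apply g e
  have Hy : Hyp z φ κ := by
    refine ⟨h, ?_, hKodd, ?_, ?_⟩
    · exact IsPGroup.to_le S.isPGroup' inf_le_left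
    · intro t
      have htH : (t : G) ∈ H := t.2.2
      let σ : K ≃ K :=
        { toFun := fun k => ⟨t * k * (t : G)⁻¹, hKn _ htH _ k.2⟩
          invFun := fun k => ⟨(t : G)⁻¹ * k * t, by
            have := hKn _ (H.inv_mem htH) _ k.2
            simpa using this⟩
          left_inv := fun k => by
            apply Subtype.ext
            show (t : G)⁻¹ * (t * k * (t : G)⁻¹) * t = k
            group
          right_inv := fun k => by
            apply Subtype.ext
            show (t : G) * ((t : G)⁻¹ * k * t) * (t : G)⁻¹ = k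
            group }
      refine ⟨σ, fun k => ?_⟩
      show cn t * cn k * (cn t)⁻¹ = cn (t * k * (t : G)⁻¹)
      rw [map_mul, map_mul, map_inv]
    · intro e he
      exact fpf_aux E K hKodd hEK h e he
  obtain ⟨χ, d', hF'⟩ := XSE11.main Hy
  let fn : E →* (S : Subgroup G) := Subgroup.inclusion hES
  let fg : T →* (S : Subgroup G) := Subgroup.inclusion inf_le_left
  have hl : ∀ t, fn.comp (φ t).toMonoidHom = (MulAut.conj (fg t)).toMonoidHom.comp fn := by
    intro t
    ext e
    exact hcn t e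
  let f : E ⋊[φ] T →* (S : Subgroup G) := SemidirectProduct.lift fn fg hl
  have hf_val : ∀ x : E ⋊[φ] T, ((f x : (S : Subgroup G)) : G) = (x.left : G) * (x.right : G) :=
    fun x => rfl
  have hinj : Function.Injective f := by
    rw [injective_iff_map_eq_one]
    intro x hx
    have h1 : (x.left : G) * (x.right : G) = 1 := by
      rw [← hf_val, hx]
      rfl
    have h2 : (x.right : G) = (x.left : G)⁻¹ := eq_inv_of_mul_eq_one_right h1
    have h3 : (x.right : G) ∈ E ⊓ H := ⟨by rw [h2]; exact E.inv_mem x.left.2, x.right.2.2⟩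
    rw [hEH, Subgroup.mem_bot] at h3
    have h4 : (x.left : G) = 1 := by rwa [h3, mul_one] at h1
    ext
    · exact h4
    · exact h3
  have hsurj : Function.Surjective f := by
    intro s
    have h1 : (s : G) ∈ ((E ⊔ H : Subgroup G) : Set G) := by
      rw [hEHtop]
      trivial
    rw [Subgroup.normal_mul] at h1
    obtain ⟨e, he, t, ht, het⟩ := Set.mem_mul.mp h1
    have hts : t ∈ (S : Subgroup G) := by
      have h2 : t = e⁻¹ * s := by
        rw [← het]
        group
      rw [h2]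
      exact Subgroup.mul_mem _ (Subgroup.inv_mem _ (hES he)) s.2
    refine ⟨⟨⟨e, he⟩, ⟨t, hts, ht⟩⟩, ?_⟩
    apply Subtype.ext
    exact het
  let ι : (E ⋊[φ] T) ≃* (S : Subgroup G) := MulEquiv.ofBijective f ⟨hinj, hsurj⟩
  have hinl : ∀ n : E, ι.symm ⟨n, hES n.2⟩ = SemidirectProduct.inl n := by
    intro n
    rw [MulEquiv.symm_apply_eq]
    apply Subtype.ext
    show (n : G) = ((SemidirectProduct.inl n : E ⋊[φ] T).left : G) *
      ((SemidirectProduct.inl n : E ⋊[φ] T).right : G)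
    simp
  refine ⟨S, hES, χ ∘ ι.symm, ?_, isCharacter_comp ι.symm.toMonoidHom hF'.isChar, fun n => ?_⟩
  · exact ((Nat.Prime.coprime_iff_not_dvd Nat.prime_two).mpr S.not_dvd_index).symm
  · show χ (ι.symm ⟨n, hES n.2⟩) = θ n
    rw [hinl]
    exact hF'.eq_on h hF n

theorem extends_char (E H K : Subgroup G) [hEn : E.Normal] (hE : IsExtraspecial 2 E)
    (hEH : E ⊓ H = ⊥) (hEHtop : E ⊔ H = ⊤) (hKH : K ≤ H) (hKn : ∀ h ∈ H, ∀ k ∈ K, h * k * h⁻¹ ∈ K)
    (hKodd : Odd (Nat.card K)) (hEK : ⁅E, K⁆ = E) {θ : E → ℂ} (hθirr : IsIrrCharacter E θ)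
    (hθ : ∀ e : E, θ e = θ 1 → e = 1) :
    ∃ χ : G → ℂ, IsIrrCharacter G χ ∧ ∀ e : E, χ e = θ e := by
  obtain ⟨z, h⟩ := xs_of_extraspecial hE
  obtain ⟨d, hF⟩ := fa_of_irr h hθirr (fun hz => h.z_ne (hθ z hz))
  refine exists_ext_of_local E hθirr (theta_inv E h hF) ?_
  intro p hp
  by_cases hp2 : p = 2
  · subst hp2
    exact local_two E H K hE.1.1 hEH hEHtop hKH hKn hKodd hEK h hF
  · exact local_odd E hE.1.1 h hθirr hF p hp hp2

end Main

end Cfsg.Agent.Lib.XSE12
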