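import Mathlib

/-!
# The orbit algebra: consequences of the local multiplicativity relation

`H` is an abelian subgroup, `N` a finite subgroup normalizing it, `V` an `N`-invariant function on `H`,
`V 1 = 1`, with the relation
`|N| V(t) V(u) = ∑_{m ∈ N} V(t · m u m⁻¹) - #{m : t · m u m⁻¹ = 1} ζ(t)`.
-/

set_option autoImplicit false
set_option linter.style.haveILetI false
set_option linter.unusedSectionVars false
set_option linter.unusedVariables false

namespace Cfsg.Agent.Lib.XcoAlg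

open scoped ComplexConjugate

variable {G : Type*} [Group G] [DecidableEq G]

/-- The number of `m ∈ N` with `t · m u m⁻¹ = 1`. -/
def cnt (N : Subgroup G) [Fintype N] (t u : G) : ℂ :=
  ∑ m : N, if t * ((m : G) * u * (m : G)⁻¹) = 1 then 1 else 0

/-- The hypotheses. -/
structure Alg (H N : Subgroup G) [Fintype N] (V ζ : G → ℂ) : Prop where
  hab : ∀ a ∈ H, ∀ b ∈ H, a * b = b * a
  hN : ∀ m ∈ N, ∀ a ∈ H, m * a * m⁻¹ ∈ H
  hV1 : V 1 = 1
  hVN : ∀ m ∈ N, ∀ a, V (m * a * m⁻¹) = V a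
  rel : ∀ t ∈ H, ∀ u ∈ H, (Nat.card N : ℂ) * (V t * V u) =
    ∑ m : N, V (t * ((m : G) * u * (m : G)⁻¹)) - cnt N t u * ζ t

variable {H N : Subgroup G} [Fintype N] {V ζ : G → ℂ}

theorem cnt_ne_zero_iff {t u : G} : cnt N t u ≠ 0 ↔ ∃ m : N, t * ((m : G) * u * (m : G)⁻¹) = 1 := by
  constructor
  · intro h
    by_contra hne
    push Not at hne
    apply h
    unfold cnt
    exact Finset.sum_eq_zero fun m _ => if_neg (hne m)
  · rintro ⟨m, hm⟩ h0
    unfold cnt at h0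
    have h1 : ((∑ m : N, if t * ((m : G) * u * (m : G)⁻¹) = 1 then 1 else 0 : ℕ) : ℂ) = 0 := by
      push_cast
      exact h0
    have h2 : (∑ m : N, if t * ((m : G) * u * (m : G)⁻¹) = 1 then 1 else 0 : ℕ) = 0 := by
      exact_mod_cast h1
    have h3 := Finset.sum_eq_zero_iff.mp h2 m (Finset.mem_univ _)
    rw [if_pos hm] at h3
    exact one_ne_zero h3

/-- Reindexing the sum over `N`. -/
theorem sum_N_left (F : N → ℂ) (n : N) : ∑ m : N, F (n * m) = ∑ m : N, F m :=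
  Equiv.sum_comp (Equiv.mulLeft n) F

/-- `ζ` is constant on the `N`-orbits on which the count does not vanish. -/
theorem zeta_conj (A : Alg H N V ζ) {t u : G} (ht : t ∈ H) (hu : u ∈ H) (n : N)
    (h : cnt N t u ≠ 0) : ζ ((n : G) * t * (n : G)⁻¹) = ζ t := by
  have ht' : (n : G) * t * (n : G)⁻¹ ∈ H := A.hN _ n.2 _ ht
  have h1 := A.rel t ht u hu
  have h2 := A.rel _ ht' u hu
  rw [A.hVN _ n.2] at h2
  have hS : ∑ m : N, V ((n : G) * t * (n : G)⁻¹ * ((m : G) * u * (m : G)⁻¹)) =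
      ∑ m : N, V (t * ((m : G) * u * (m : G)⁻¹)) := by
    rw [← sum_N_left (fun m : N => V ((n : G) * t * (n : G)⁻¹ * ((m : G) * u * (m : G)⁻¹))) n]
    refine Finset.sum_congr rfl fun m _ => ?_
    have e : (n : G) * t * (n : G)⁻¹ * (((n * m : N) : G) * u * ((n * m : N) : G)⁻¹) =
        (n : G) * (t * ((m : G) * u * (m : G)⁻¹)) * (n : G)⁻¹ := by
      push_cast
      group
    rw [e, A.hVN _ n.2]
  have hC : cnt N ((n : G) * t * (n : G)⁻¹) u = cnt N t u := by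
    unfold cnt
    rw [← sum_N_left (fun m : N => if (n : G) * t * (n : G)⁻¹ * ((m : G) * u * (m : G)⁻¹) = 1 then (1 : ℂ) else 0) n]
    refine Finset.sum_congr rfl fun m _ => ?_
    have e : (n : G) * t * (n : G)⁻¹ * (((n * m : N) : G) * u * ((n * m : N) : G)⁻¹) =
        (n : G) * (t * ((m : G) * u * (m : G)⁻¹)) * (n : G)⁻¹ := by
      push_cast
      group
    simp only [e]
    simp
  rw [hS, hC] at h2
  have h3 : cnt N t u * ζ ((n : G) * t * (n : G)⁻¹) = cnt N t u * ζ t := by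
    linear_combination h2 - h1
  exact mul_left_cancel₀ h h3

/-- The sum of `V` over a finite subgroup. -/
def rr (V : G → ℂ) (AF : Finset G) : ℂ := ∑ a ∈ AF, V a

/-- The main relation for `ζ`. -/
theorem zeta_inv (A : Alg H N V ζ) {B : Subgroup G} {AF : Finset G} (hAF : ∀ t, t ∈ AF ↔ t ∈ B)
    (hBH : B ≤ H) {u : G} (hu : u ∈ H) (huB : ∀ m : N, (m : G) * u * (m : G)⁻¹ ∈ B) :
    ζ u⁻¹ = rr V AF * (1 - V u) := by
  classical
  have hN0 : (Nat.card N : ℂ) ≠ 0 := by exact_mod_cast Nat.card_pos.ne'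
  have hsum := Finset.sum_congr (s₁ := AF) rfl (fun t ht => A.rel t (hBH ((hAF t).1 ht)) u hu)
  -- the left side
  have hL : ∑ t ∈ AF, (Nat.card N : ℂ) * (V t * V u) = (Nat.card N : ℂ) * (rr V AF * V u) := by
    unfold rr
    rw [Finset.sum_mul, Finset.mul_sum]
  -- the first sum on the right
  have hR1 : ∑ t ∈ AF, ∑ m : N, V (t * ((m : G) * u * (m : G)⁻¹)) = (Nat.card N : ℂ) * rr V AF := by
    rw [Finset.sum_comm]
    have : ∀ m : N, ∑ t ∈ AF, V (t * ((m : G) * u * (m : G)⁻¹)) = rr V AF := by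
      intro m
      unfold rr
      refine Finset.sum_nbij' (fun t => t * ((m : G) * u * (m : G)⁻¹))
        (fun t => t * ((m : G) * u * (m : G)⁻¹)⁻¹) ?_ ?_ ?_ ?_ ?_
      · intro t ht
        rw [hAF] at ht ⊢
        exact B.mul_mem ht (huB m)
      · intro t ht
        rw [hAF] at ht ⊢
        exact B.mul_mem ht (B.inv_mem (huB m))
      · intro t _
        group
      · intro t _
        group
      · intro t _
        rfl
    simp only [this, Finset.sum_const, Finset.card_univ, nsmul_eq_mul, Nat.card_eq_fintype_card]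
  -- the second sum
  have hR2 : ∑ t ∈ AF, cnt N t u * ζ t = (Nat.card N : ℂ) * ζ u⁻¹ := by
    unfold cnt
    simp_rw [Finset.sum_mul]
    rw [Finset.sum_comm]
    have : ∀ m : N, ∑ t ∈ AF, (if t * ((m : G) * u * (m : G)⁻¹) = 1 then (1 : ℂ) else 0) * ζ t = ζ u⁻¹ := by
      intro m
      have hm : ((m : G) * u * (m : G)⁻¹)⁻¹ ∈ AF := (hAF _).2 (B.inv_mem (huB m))
      rw [Finset.sum_eq_single ((m : G) * u * (m : G)⁻¹)⁻¹]
      · rw [if_pos (inv_mul_cancel _), one_mul]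
        have e : ((m : G) * u * (m : G)⁻¹)⁻¹ = (m : G) * u⁻¹ * (m : G)⁻¹ := by group
        rw [e]
        have hc : cnt N u⁻¹ u ≠ 0 := cnt_ne_zero_iff.2 ⟨1, by simp⟩
        exact zeta_conj A (H.inv_mem hu) hu m hc
      · intro t _ ht
        rw [if_neg, zero_mul]
        intro h
        exact ht (eq_inv_of_mul_eq_one_left h)
      · intro h
        exact absurd hm h
    simp only [this, Finset.sum_const, Finset.card_univ, nsmul_eq_mul, Nat.card_eq_fintype_card]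
  rw [hL, Finset.sum_sub_distrib, hR1, hR2] at hsum
  apply mul_left_cancel₀ hN0
  linear_combination hsum

/-- When the count does not vanish, `ζ t` is determined by the class of `u`. -/
theorem zeta_of_cnt (A : Alg H N V ζ) {B : Subgroup G} {AF : Finset G} (hAF : ∀ t, t ∈ AF ↔ t ∈ B)
    (hBH : B ≤ H) {u : G} (hu : u ∈ H) (huB : ∀ m : N, (m : G) * u * (m : G)⁻¹ ∈ B) {t : G}
    (ht : t ∈ H) (h : cnt N t u ≠ 0) : ζ t = rr V AF * (1 - V u) := by
  obtain ⟨m, hm⟩ := cnt_ne_zero_iff.1 h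
  have e : t = (m : G) * u⁻¹ * (m : G)⁻¹ := by
    have := eq_inv_of_mul_eq_one_left hm
    rw [this]
    group
  have hc : cnt N u⁻¹ u ≠ 0 := cnt_ne_zero_iff.2 ⟨1, by simp⟩
  rw [e, zeta_conj A (H.inv_mem hu) hu m hc]
  exact zeta_inv A hAF hBH hu huB

section Good

variable {HF : Finset G}

/-- The relation with `ζ` eliminated. -/
theorem rel_D (A : Alg H N V ζ) (hHF : ∀ t, t ∈ HF ↔ t ∈ H) {t u : G} (ht : t ∈ H) (hu : u ∈ H) :
    ∑ m : N, V (t * ((m : G) * u * (m : G)⁻¹)) =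
      (Nat.card N : ℂ) * (V t * V u) + cnt N t u * (rr V HF * (1 - V u)) := by
  have h1 := A.rel t ht u hu
  have h2 : cnt N t u * ζ t = cnt N t u * (rr V HF * (1 - V u)) := by
    by_cases h : cnt N t u = 0
    · rw [h, zero_mul, zero_mul]
    · rw [zeta_of_cnt A hHF le_rfl hu (fun m => A.hN _ m.2 _ hu) ht h]
  rw [h1, h2]
  ring

/-- The count of triples. -/
def cnt3 (N : Subgroup G) [Fintype N] (a b c : G) : ℂ :=
  ∑ m : N, cnt N (a * ((m : G) * c * (m : G)⁻¹)) b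

theorem cnt3_symm (A : Alg H N V ζ) {a b c : G} (hb : b ∈ H) (hc : c ∈ H) :
    cnt3 N a b c = cnt3 N a c b := by
  unfold cnt3 cnt
  rw [Finset.sum_comm]
  refine Finset.sum_congr rfl fun n _ => Finset.sum_congr rfl fun m _ => ?_
  have h1 : (n : G) * b * (n : G)⁻¹ ∈ H := A.hN _ n.2 _ hb
  have h2 : (m : G) * c * (m : G)⁻¹ ∈ H := A.hN _ m.2 _ hc
  rw [mul_assoc a, mul_assoc a, A.hab _ h1 _ h2]

theorem cnt3_ne_zero {a b c : G} (m n : N) (h : a * ((m : G) * c * (m : G)⁻¹) * ((n : G) * b * (n : G)⁻¹) = 1) :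
    cnt3 N a b c ≠ 0 := by
  intro h0
  unfold cnt3 cnt at h0
  have h1 : ((∑ m : N, ∑ n : N, if a * ((m : G) * c * (m : G)⁻¹) * ((n : G) * b * (n : G)⁻¹) = 1 then 1 else 0 : ℕ) : ℂ) = 0 := by
    push_cast
    exact h0
  have h2 : (∑ m : N, ∑ n : N, if a * ((m : G) * c * (m : G)⁻¹) * ((n : G) * b * (n : G)⁻¹) = 1 then 1 else 0 : ℕ) = 0 := by
    exact_mod_cast h1
  have h3 := Finset.sum_eq_zero_iff.mp h2 m (Finset.mem_univ _)
  have h4 := Finset.sum_eq_zero_iff.mp h3 n (Finset.mem_univ _)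
  rw [if_pos h] at h4
  exact one_ne_zero h4

/-- The key identity from the commutativity of the double sums. -/
theorem double_identity (A : Alg H N V ζ) (hHF : ∀ t, t ∈ HF ↔ t ∈ H) {a b c : G} (ha : a ∈ H) (hb : b ∈ H)
    (hc : c ∈ H) :
    (Nat.card N : ℂ) * V b * (cnt N a c * (rr V HF * (1 - V c))) + rr V HF * (1 - V b) * cnt3 N a b c =
      (Nat.card N : ℂ) * V c * (cnt N a b * (rr V HF * (1 - V b))) + rr V HF * (1 - V c) * cnt3 N a b c := by
  have hone : ∀ x ∈ H, ∀ y ∈ H, ∑ m : N, ∑ n : N, V (a * ((m : G) * x * (m : G)⁻¹) * ((n : G) * y * (n : G)⁻¹)) =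
      (Nat.card N : ℂ) * V y * ((Nat.card N : ℂ) * (V a * V x) + cnt N a x * (rr V HF * (1 - V x))) +
        rr V HF * (1 - V y) * cnt3 N a y x := by
    intro x hx y hy
    have h1 : ∀ m : N, ∑ n : N, V (a * ((m : G) * x * (m : G)⁻¹) * ((n : G) * y * (n : G)⁻¹)) =
        (Nat.card N : ℂ) * (V (a * ((m : G) * x * (m : G)⁻¹)) * V y) +
          cnt N (a * ((m : G) * x * (m : G)⁻¹)) y * (rr V HF * (1 - V y)) := fun m =>
      rel_D A hHF (H.mul_mem ha (A.hN _ m.2 _ hx)) hy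
    simp_rw [h1]
    rw [Finset.sum_add_distrib]
    have h2 : ∑ m : N, (Nat.card N : ℂ) * (V (a * ((m : G) * x * (m : G)⁻¹)) * V y) =
        (Nat.card N : ℂ) * V y * ∑ m : N, V (a * ((m : G) * x * (m : G)⁻¹)) := by
      rw [Finset.mul_sum]
      refine Finset.sum_congr rfl fun m _ => ?_
      ring
    rw [h2, rel_D A hHF ha hx]
    unfold cnt3
    rw [← Finset.sum_mul]
    ring
  have h1 := hone c hc b hb
  have h2 := hone b hb c hc
  have h3 : ∑ m : N, ∑ n : N, V (a * ((m : G) * c * (m : G)⁻¹) * ((n : G) * b * (n : G)⁻¹)) =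
      ∑ m : N, ∑ n : N, V (a * ((m : G) * b * (m : G)⁻¹) * ((n : G) * c * (n : G)⁻¹)) := by
    rw [Finset.sum_comm]
    refine Finset.sum_congr rfl fun n _ => Finset.sum_congr rfl fun m _ => ?_
    have h4 : (n : G) * b * (n : G)⁻¹ ∈ H := A.hN _ n.2 _ hb
    have h5 : (m : G) * c * (m : G)⁻¹ ∈ H := A.hN _ m.2 _ hc
    rw [mul_assoc a, mul_assoc a, A.hab _ h4 _ h5]
  rw [h3, h2, cnt3_symm A hb hc] at h1
  rw [cnt3_symm A hb hc]
  linear_combination -h1

/-- The good pair lemma. -/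
theorem good_pair (A : Alg H N V ζ) (hHF : ∀ t, t ∈ HF ↔ t ∈ H) {b c : G} (hb : b ∈ H) (hc : c ∈ H)
    (n₀ m₀ : N)
    (h1 : ∀ n : N, (n : G) * b * (n : G)⁻¹ ≠ ((n₀ : G) * b * (n₀ : G)⁻¹) * ((m₀ : G) * c * (m₀ : G)⁻¹))
    (h2 : ∀ m : N, (m : G) * c * (m : G)⁻¹ ≠ ((n₀ : G) * b * (n₀ : G)⁻¹) * ((m₀ : G) * c * (m₀ : G)⁻¹))
    (h3 : ∀ m : N, (m : G) * c * (m : G)⁻¹ ≠ b) :
    rr V HF = 0 ∨ V b = 0 ∨ V b = 1 := by
  by_contra hcon
  push Not at hcon
  obtain ⟨hr, hb0, hb1⟩ := hcon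
  have hbn : (n₀ : G) * b * (n₀ : G)⁻¹ ∈ H := A.hN _ n₀.2 _ hb
  have hcm : (m₀ : G) * c * (m₀ : G)⁻¹ ∈ H := A.hN _ m₀.2 _ hc
  set x := ((n₀ : G) * b * (n₀ : G)⁻¹) * ((m₀ : G) * c * (m₀ : G)⁻¹) with hx
  have hxH : x ∈ H := H.mul_mem hbn hcm
  have hN0 : (Nat.card N : ℂ) ≠ 0 := by exact_mod_cast Nat.card_pos.ne'
  -- first identity
  have hcb : cnt N x⁻¹ b = 0 := by
    by_contra h
    obtain ⟨n, hn⟩ := cnt_ne_zero_iff.1 h
    exact h1 n ((inv_mul_eq_one.1 hn).symm)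
  have hcc : cnt N x⁻¹ c = 0 := by
    by_contra h
    obtain ⟨n, hn⟩ := cnt_ne_zero_iff.1 h
    exact h2 n ((inv_mul_eq_one.1 hn).symm)
  have hT : cnt3 N x⁻¹ b c ≠ 0 := by
    apply cnt3_ne_zero m₀ n₀
    rw [hx]
    have := A.hab _ hbn _ hcm
    rw [this]
    group
  have hI := double_identity A hHF (H.inv_mem hxH) hb hc
  rw [hcb, hcc] at hI
  simp only [zero_mul, mul_zero, zero_add] at hI
  have hD := mul_right_cancel₀ hT hI
  have hVV : V b = V c := by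
    have h5 := mul_left_cancel₀ hr hD
    linear_combination -h5
  -- second identity
  have hcc' : cnt N b⁻¹ c = 0 := by
    by_contra h
    obtain ⟨n, hn⟩ := cnt_ne_zero_iff.1 h
    exact h3 n ((inv_mul_eq_one.1 hn).symm)
  have hcb' : cnt N b⁻¹ b ≠ 0 := cnt_ne_zero_iff.2 ⟨1, by simp⟩
  have hI2 := double_identity A hHF (H.inv_mem hb) hb hc
  rw [hcc', ← hVV] at hI2
  simp only [zero_mul, mul_zero, zero_add] at hI2
  have h6 : (Nat.card N : ℂ) * V b * (cnt N b⁻¹ b * (rr V HF * (1 - V b))) = 0 := by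
    linear_combination -hI2
  have h7 : (1 : ℂ) - V b ≠ 0 := sub_ne_zero.2 (Ne.symm hb1)
  simp only [mul_eq_zero] at h6
  rcases h6 with (h | h) | h | h | h
  · exact hN0 h
  · exact hb0 h
  · exact hcb' h
  · exact hr h
  · exact h7 h

end Good

end Cfsg.Agent.Lib.XcoAlg
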