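import Mathlib
import Cfsg.Agent.Lib.CharBasic
import Cfsg.Agent.Lib.CharInd
import Cfsg.Agent.Lib.CharValues
import Cfsg.Agent.Lib.CharAvg

/-!
# Positive definiteness of irreducible characters and two trace inequalities
-/

set_option autoImplicit false
set_option linter.style.haveILetI false
set_option linter.unusedSectionVars false
set_option linter.unusedVariables false

namespace Cfsg.Agent.Lib.XcoPsd

open Cfsg Cfsg.Agent.Lib.CharBasic Cfsg.Agent.Lib.CharInd
open scoped ComplexConjugate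

universe u

variable {G : Type u} [Group G] [Fintype G]

/-- The convolution identity. -/
theorem irr_conv {χ : G → ℂ} (hχ : IsIrrCharacter G χ) (a b : G) :
    χ 1 * ∑ k : G, χ (a * k⁻¹) * χ (k * b) = (Nat.card G : ℂ) * χ (a * b) := by
  classical
  have hχc := IsIrrCharacter.isCharacter hχ
  have hcl := isClassFunction_of_isCharacter hχc
  have hself := classInner_irr_self hχ
  have hreindex : ∑ k : G, χ (a * k⁻¹) * χ (k * b) = ∑ g : G, χ g * χ (a * b * g⁻¹) := by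
    refine Finset.sum_bij' (fun k _ => a * k⁻¹) (fun g _ => g⁻¹ * a) (by simp) (by simp)
      (by intro k _; group) (by intro g _; group) ?_
    intro k _
    congr 1
    have e : a * b * (a * k⁻¹)⁻¹ = a * (b * k) * a⁻¹ := by group
    rw [e, char_apply_conj hχc, char_mul_comm' hχc]
  rw [hreindex]
  obtain ⟨n, ρ, hρ, rfl⟩ := hχ
  set T : (Fin n → ℂ) →ₗ[ℂ] (Fin n → ℂ) := opOf ρ.character ρ with hT
  obtain ⟨c, hc⟩ := schur_scalar hρ T (fun g => opOf_comm hcl ρ g)
  have htr : LinearMap.trace ℂ _ T = ∑ g : G, ρ.character g * ρ.character g⁻¹ := by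
    rw [hT, trace_opOf]
  have hG : (Nat.card G : ℂ) ≠ 0 := by exact_mod_cast Nat.card_pos.ne'
  have hsum : ∑ g : G, ρ.character g * ρ.character g⁻¹ = (Nat.card G : ℂ) := by
    have h1 := hself
    rw [classInner_eq_inv hχc] at h1
    field_simp at h1
    exact h1
  have htr2 : LinearMap.trace ℂ _ T = c * n := by
    rw [hc, map_smul, LinearMap.trace_id]
    simp
  have h3 : ∑ g : G, ρ.character g * ρ.character (a * b * g⁻¹) =
      LinearMap.trace ℂ _ (ρ (a * b) ∘ₗ T) := by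
    rw [hT, opOf, ← Module.End.mul_eq_comp, Finset.mul_sum, map_sum]
    refine Finset.sum_congr rfl fun g _ => ?_
    rw [mul_smul_comm, map_smul, ← map_mul]
    rfl
  have h4 : LinearMap.trace ℂ _ (ρ (a * b) ∘ₗ T) = c * ρ.character (a * b) := by
    rw [hc, LinearMap.comp_smul, LinearMap.comp_id, map_smul]
    rfl
  rw [h3, h4, char_one_eq_rep]
  have h5 : c * (n : ℂ) = (Nat.card G : ℂ) := by rw [← htr2, htr, hsum]
  rw [← h5]
  ring

/-- Positive definiteness of an irreducible character. -/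
theorem irr_psd {χ : G → ℂ} (hχ : IsIrrCharacter G χ) {ι : Type*} [Fintype ι] (q : ι → G) (α : ι → ℂ) :
    ∃ r : ℝ, 0 ≤ r ∧ ∑ i, ∑ j, α i * conj (α j) * χ (q i * (q j)⁻¹) = (r : ℂ) := by
  classical
  have hχc := IsIrrCharacter.isCharacter hχ
  obtain ⟨d, hd0, hd⟩ := CharAvg.irr_one_eq hχ
  have hG : (Nat.card G : ℂ) ≠ 0 := by exact_mod_cast Nat.card_pos.ne'
  set A : G → ℂ := fun k => ∑ i, α i * χ (q i * k⁻¹) with hA
  refine ⟨((d : ℝ) / (Nat.card G : ℝ)) * ∑ k : G, ‖A k‖ ^ 2, by positivity, ?_⟩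
  apply mul_left_cancel₀ hG
  have h1 : (Nat.card G : ℂ) * ∑ i, ∑ j, α i * conj (α j) * χ (q i * (q j)⁻¹) =
      χ 1 * ∑ k : G, A k * conj (A k) := by
    have hconj : ∀ k : G, conj (A k) = ∑ j, conj (α j) * χ (k * (q j)⁻¹) := by
      intro k
      rw [hA]
      simp only [map_sum, map_mul]
      refine Finset.sum_congr rfl fun j _ => ?_
      rw [char_conj_eq_inv hχc]
      congr 2
      group
    have key : ∀ i j, (Nat.card G : ℂ) * (α i * conj (α j) * χ (q i * (q j)⁻¹)) =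
        χ 1 * ∑ k : G, (α i * χ (q i * k⁻¹)) * (conj (α j) * χ (k * (q j)⁻¹)) := by
      intro i j
      have h2 := irr_conv hχ (q i) (q j)⁻¹
      calc (Nat.card G : ℂ) * (α i * conj (α j) * χ (q i * (q j)⁻¹))
          = α i * conj (α j) * ((Nat.card G : ℂ) * χ (q i * (q j)⁻¹)) := by ring
        _ = α i * conj (α j) * (χ 1 * ∑ k : G, χ (q i * k⁻¹) * χ (k * (q j)⁻¹)) := by rw [h2]
        _ = χ 1 * ∑ k : G, (α i * χ (q i * k⁻¹)) * (conj (α j) * χ (k * (q j)⁻¹)) := by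
          simp only [Finset.mul_sum]
          refine Finset.sum_congr rfl fun k _ => ?_
          ring
    calc (Nat.card G : ℂ) * ∑ i, ∑ j, α i * conj (α j) * χ (q i * (q j)⁻¹)
        = ∑ i, ∑ j, (Nat.card G : ℂ) * (α i * conj (α j) * χ (q i * (q j)⁻¹)) := by
          simp_rw [Finset.mul_sum]
      _ = ∑ i, ∑ j, (χ 1 * ∑ k : G, (α i * χ (q i * k⁻¹)) * (conj (α j) * χ (k * (q j)⁻¹))) := by
          simp_rw [key]
      _ = χ 1 * ∑ i, ∑ j, ∑ k : G, (α i * χ (q i * k⁻¹)) * (conj (α j) * χ (k * (q j)⁻¹)) := by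
          simp_rw [Finset.mul_sum]
      _ = χ 1 * ∑ k : G, ∑ i, ∑ j, (α i * χ (q i * k⁻¹)) * (conj (α j) * χ (k * (q j)⁻¹)) := by
          congr 1
          rw [Finset.sum_congr rfl (fun i _ => Finset.sum_comm)]
          exact Finset.sum_comm
      _ = χ 1 * ∑ k : G, A k * conj (A k) := by
          congr 1
          refine Finset.sum_congr rfl fun k _ => ?_
          rw [hconj, hA, Finset.sum_mul_sum]
  rw [h1, hd]
  have h3 : ∑ k : G, A k * conj (A k) = ((∑ k : G, ‖A k‖ ^ 2 : ℝ) : ℂ) := by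
    push_cast
    refine Finset.sum_congr rfl fun k _ => ?_
    rw [Complex.mul_conj, Complex.normSq_eq_norm_sq]
    push_cast
    rfl
  rw [h3]
  push_cast
  field_simp

/-- The four term inequality. -/
theorem re_ge_of_psd {χ : G → ℂ} (hχ : IsIrrCharacter G χ) (a b : G) :
    2 * (χ a).re + 2 * (χ b).re - 3 * (χ 1).re ≤ (χ (a * b⁻¹)).re := by
  classical
  have hχc := IsIrrCharacter.isCharacter hχ
  obtain ⟨r, hr, h⟩ := irr_psd hχ ![a, b, 1] ![1, 1, -2]
  simp only [Fin.sum_univ_three, Matrix.cons_val_zero, Matrix.cons_val_one, Matrix.cons_val,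
    map_one, map_neg, map_ofNat, inv_one, mul_one, one_mul, mul_inv_cancel] at h
  have h' : 6 * χ 1 + χ (a * b⁻¹) + χ (b * a⁻¹) - 2 * χ a - 2 * χ a⁻¹ - 2 * χ b - 2 * χ b⁻¹ = (r : ℂ) := by
    linear_combination h
  have h1 := congrArg Complex.re h'
  have hinv : ∀ x : G, (χ x⁻¹).re = (χ x).re := by
    intro x
    rw [← char_conj_eq_inv hχc, Complex.conj_re]
  have hba : (χ (b * a⁻¹)).re = (χ (a * b⁻¹)).re := by
    rw [← hinv (a * b⁻¹)]
    congr 2
    group
  simp only [Complex.add_re, Complex.sub_re, Complex.mul_re, Complex.ofReal_re,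
    Complex.re_ofNat, Complex.im_ofNat, zero_mul, sub_zero, hinv, hba] at h1
  linarith

/-- A primitive cube root of unity. -/
theorem exists_omega : ∃ ω : ℂ, ω ^ 2 + ω + 1 = 0 ∧ conj ω = ω ^ 2 := by
  have h3 : ((Real.sqrt 3 : ℝ) : ℂ) ^ 2 = 3 := by
    rw [← Complex.ofReal_pow, Real.sq_sqrt (by norm_num)]
    norm_num
  refine ⟨-1 / 2 + ((Real.sqrt 3 : ℝ) : ℂ) / 2 * Complex.I, ?_, ?_⟩
  · ring_nf
    rw [Complex.I_sq, h3]
    ring
  · simp only [map_add, map_mul, map_div₀, map_neg, map_one, Complex.conj_ofReal, Complex.conj_I,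
      map_ofNat]
    ring_nf
    rw [Complex.I_sq, h3]
    ring

/-- A Fourier sum on a group element of order three. -/
theorem three_sum {a : G} (ha : a * a * a = 1) {ω : ℂ} (h1 : ω ^ 2 + ω + 1 = 0) (F : G → ℂ) :
    ∑ i : Fin 3, ∑ j : Fin 3, (![1, ω ^ 2, ω] : Fin 3 → ℂ) i * (![1, ω, ω ^ 2] : Fin 3 → ℂ) j *
        F ((![1, a, a * a] : Fin 3 → G) i * ((![1, a, a * a] : Fin 3 → G) j)⁻¹) =
      3 * (F 1 + ω ^ 2 * F a + ω * F (a * a)) := by
  have hi1 : a⁻¹ = a * a := by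
    rw [inv_eq_iff_mul_eq_one, ← mul_assoc]
    exact ha
  have h3 : a * (a * a) = 1 := by rw [← mul_assoc]; exact ha
  have h4 : a * a * (a * a) = a := by
    calc a * a * (a * a) = (a * a * a) * a := by group
      _ = a := by rw [ha, one_mul]
  have hi2 : (a * a)⁻¹ = a := by
    rw [inv_eq_iff_mul_eq_one]
    exact ha
  simp only [Fin.sum_univ_three, Matrix.cons_val_zero, Matrix.cons_val_one, Matrix.cons_val,
    hi1, hi2, inv_one, mul_one, one_mul, h3, ha, h4]
  linear_combination (2 * F 1 + ω * F (a * a)) * (ω - 1) * h1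

/-- A trace inequality for elements of order three. -/
theorem re_ge_order_three {χ : G → ℂ} (hχ : IsIrrCharacter G χ) {a y : G} (ha : a * a * a = 1) {c : ℝ}
    (h1 : χ a = c) (h2 : χ (a * a) = c) (h3 : χ y = c) (h4 : χ (a * y) = c) :
    2 * c - (χ 1).re ≤ (χ (a * a * y)).re := by
  classical
  have hχc := IsIrrCharacter.isCharacter hχ
  obtain ⟨ω, hω, hc⟩ := exists_omega
  have hc2 : conj (ω ^ 2) = ω := by
    rw [map_pow, hc]
    linear_combination ω * (ω - 1) * hω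
  set w : Fin 3 → ℂ := ![1, ω ^ 2, ω] with hw
  set w' : Fin 3 → ℂ := ![1, ω, ω ^ 2] with hw'
  set e : Fin 3 → G := ![1, a, a * a] with he
  have hww : ∀ j, conj (w j) = w' j := by
    intro j
    fin_cases j
    · simp [hw, hw']
    · simpa [hw, hw'] using hc2
    · simpa [hw, hw'] using hc
  have hωω : ω ^ 2 * ω = 1 := by linear_combination (ω - 1) * hω
  obtain ⟨r, hr, h⟩ := irr_psd hχ (ι := Fin 3 ⊕ Fin 3)
    (Sum.elim e (fun i => y⁻¹ * e i)) (Sum.elim w (fun i => ω * w i))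
  simp only [Fintype.sum_sum_type, Sum.elim_inl, Sum.elim_inr, map_mul, hww, hc, mul_inv_rev, inv_inv,
    Finset.sum_add_distrib] at h
  have T := three_sum (G := G) ha hω
  have B1 := T χ
  have B2 := T (fun u => ω ^ 2 * χ (u * y))
  have B3 := T (fun u => ω * χ (y⁻¹ * u))
  have B4 := T (fun u => χ u)
  simp only [← hw, ← hw', ← he] at B1 B2 B3 B4
  have S2 : ∑ a₂, ∑ a₁, ω * w a₂ * w' a₁ * χ (y⁻¹ * e a₂ * (e a₁)⁻¹) =
      3 * (ω * χ (y⁻¹ * 1) + ω ^ 2 * (ω * χ (y⁻¹ * a)) + ω * (ω * χ (y⁻¹ * (a * a)))) := by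
    rw [← B3]
    refine Finset.sum_congr rfl fun i _ => Finset.sum_congr rfl fun j _ => ?_
    rw [mul_assoc y⁻¹]
    ring
  have S3 : ∑ a₁, ∑ x, w a₁ * (ω ^ 2 * w' x) * χ (e a₁ * ((e x)⁻¹ * y)) =
      3 * (ω ^ 2 * χ (1 * y) + ω ^ 2 * (ω ^ 2 * χ (a * y)) + ω * (ω ^ 2 * χ (a * a * y))) := by
    rw [← B2]
    refine Finset.sum_congr rfl fun i _ => Finset.sum_congr rfl fun j _ => ?_
    rw [← mul_assoc (e i)]
    ring
  have S4 : ∑ a₂, ∑ x, ω * w a₂ * (ω ^ 2 * w' x) * χ (y⁻¹ * e a₂ * ((e x)⁻¹ * y)) =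
      3 * (χ 1 + ω ^ 2 * χ a + ω * χ (a * a)) := by
    rw [← B1]
    refine Finset.sum_congr rfl fun i _ => Finset.sum_congr rfl fun j _ => ?_
    have e1 : y⁻¹ * e i * ((e j)⁻¹ * y) = y⁻¹ * (e i * (e j)⁻¹) * y⁻¹⁻¹ := by group
    rw [e1, char_apply_conj hχc]
    linear_combination (w i * w' j * χ (e i * (e j)⁻¹)) * hωω
  rw [B1, S2, S3, S4] at h
  have hi1 : a⁻¹ = a * a := by
    rw [inv_eq_iff_mul_eq_one, ← mul_assoc]
    exact ha
  have hi2 : (a * a)⁻¹ = a := by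
    rw [inv_eq_iff_mul_eq_one]
    exact ha
  have v1 : χ (y⁻¹ * 1) = c := by
    rw [mul_one, ← char_conj_eq_inv hχc, h3, Complex.conj_ofReal]
  have v2 : χ (y⁻¹ * a) = conj (χ (a * a * y)) := by
    rw [char_conj_eq_inv hχc]
    congr 1
    rw [mul_inv_rev, hi2]
  have v3 : χ (y⁻¹ * (a * a)) = c := by
    have : χ (y⁻¹ * (a * a)) = conj (χ (a * y)) := by
      rw [char_conj_eq_inv hχc]
      congr 1
      rw [mul_inv_rev, hi1]
    rw [this, h4, Complex.conj_ofReal]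
  rw [one_mul, h3, h1, h2, h4, v1, v2, v3] at h
  set X := χ (a * a * y) with hX
  have hfinal : 6 * χ 1 - 12 * (c : ℂ) + 3 * (X + conj X) = (r : ℂ) := by
    rw [← h]
    have h5 : ω ^ 3 = 1 := by linear_combination (ω - 1) * hω
    have h6 : ω ^ 4 = ω := by linear_combination ω * h5
    linear_combination (-(c : ℂ) * 12 - 0) * hω + (-3 * X - 3 * conj X) * h5 + (-3 * (c : ℂ)) * h6
  have h7 := congrArg Complex.re hfinal
  rw [Complex.add_conj] at h7
  simp only [Complex.add_re, Complex.sub_re, Complex.mul_re, Complex.ofReal_re, Complex.ofReal_im,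
    Complex.re_ofNat, Complex.im_ofNat, zero_mul, sub_zero, mul_zero] at h7
  linarith

end Cfsg.Agent.Lib.XcoPsd
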