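import Mathlib
import Cfsg.Agent.Lib.XcoAlg
import Cfsg.Agent.Lib.XcoPsd
import Cfsg.Agent.Lib.NilClosedChar

/-!
# Bridge from the principal block to the orbit algebra
-/

set_option autoImplicit false
set_option linter.style.haveILetI false
set_option linter.unusedSectionVars false
set_option linter.unusedVariables false

namespace Cfsg.Agent.Lib.XcoChar

open Module Cfsg Cfsg.Agent.Lib Cfsg.Agent.Lib.CharBasic Cfsg.Agent.Lib.BlockNormal
open Cfsg.Agent.Lib.BlockSection Cfsg.Agent.Lib.BlockLocal Cfsg.Agent.Lib.BlockIdem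
open Cfsg.Agent.Lib.XcoAlg
open scoped ComplexConjugate

universe u

variable {G : Type u} [Group G] [Fintype G] [DecidableEq G]

/-- The hypotheses of the numerical part. -/
structure Fus (p : ℕ) (M : Ideal AlgInt) (H N : Subgroup G) : Prop where
  hab : ∀ a ∈ H, ∀ b ∈ H, a * b = b * a
  hp : IsPGroup p H
  hN : ∀ m ∈ N, ∀ a ∈ H, m * a * m⁻¹ ∈ H
  key : ∀ g : G, ∃ n ∈ N, ∀ u ∈ H, ∀ t ∈ H,
    (t * (n * u * n⁻¹) ≠ 1 → ∀ χ ∈ principalBlock M G,
      (χ : G → ℂ) (t * (g * u * g⁻¹)) = (χ : G → ℂ) (t * (n * u * n⁻¹))) ∧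
    (t * (n * u * n⁻¹) = 1 → ¬ p ∣ orderOf (t * (g * u * g⁻¹)))

/-- The normalized character. -/
noncomputable def VV (χ : G → ℂ) (a : G) : ℂ := χ a / χ 1

/-- The sum measuring the distance from the trivial value. -/
noncomputable def Xi (χ : G → ℂ) (o : G → G) (t : G) : ℂ :=
  ∑ g : G, (χ 1 - χ (t * (o g * t⁻¹ * (o g)⁻¹)))

/-- The normalized version. -/
noncomputable def Zt (χ : G → ℂ) (o : G → G) (t : G) : ℂ :=
  Xi χ o t / ((Nat.card G : ℂ) * χ 1)

variable {p : ℕ} {M : Ideal AlgInt} {H N : Subgroup G} [Fintype N]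

/-- The sum over `N` for a fixed `g`. -/
theorem sum_fixed_g (hF : Fus p M H N) {g n : G} (hn : n ∈ N)
    (hk : ∀ u ∈ H, ∀ t ∈ H, (t * (n * u * n⁻¹) ≠ 1 → ∀ χ ∈ principalBlock M G,
      (χ : G → ℂ) (t * (g * u * g⁻¹)) = (χ : G → ℂ) (t * (n * u * n⁻¹))))
    {χ : IrrCharacter G} (hχ : χ ∈ principalBlock M G) {t u : G} (ht : t ∈ H) (hu : u ∈ H) :
    ∑ m : N, (χ : G → ℂ) (t * (g * ((m : G) * u * (m : G)⁻¹) * g⁻¹)) =
      ∑ m : N, (χ : G → ℂ) (t * ((m : G) * u * (m : G)⁻¹)) -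
        cnt N t u * ((χ : G → ℂ) 1 - (χ : G → ℂ) (t * ((g * n⁻¹) * t⁻¹ * (g * n⁻¹)⁻¹))) := by
  set n' : N := ⟨n, hn⟩ with hn'
  rw [← sum_N_left (fun m : N => (χ : G → ℂ) (t * (g * ((m : G) * u * (m : G)⁻¹) * g⁻¹))) n'⁻¹]
  unfold cnt
  rw [Finset.sum_mul, ← Finset.sum_sub_distrib]
  refine Finset.sum_congr rfl fun m _ => ?_
  have hm : (m : G) * u * (m : G)⁻¹ ∈ H := hF.hN _ m.2 _ hu
  set u' : G := ((n'⁻¹ * m : N) : G) * u * ((n'⁻¹ * m : N) : G)⁻¹ with hu'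
  have hu'H : u' ∈ H := hF.hN _ (n'⁻¹ * m : N).2 _ hu
  have e1 : n * u' * n⁻¹ = (m : G) * u * (m : G)⁻¹ := by
    rw [hu']
    push_cast
    rw [hn']
    group
  by_cases h1 : t * ((m : G) * u * (m : G)⁻¹) = 1
  · rw [if_pos h1, h1, one_mul]
    have e2 : (m : G) * u * (m : G)⁻¹ = t⁻¹ := eq_inv_of_mul_eq_one_right h1
    have e3 : g * u' * g⁻¹ = (g * n⁻¹) * t⁻¹ * (g * n⁻¹)⁻¹ := by
      rw [← e2, ← e1]
      group
    rw [e3]
    ring
  · rw [if_neg h1, zero_mul, sub_zero]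
    have := hk u' hu'H t ht (by rw [e1]; exact h1) χ hχ
    rw [e1] at this
    exact this

/-- The relation for characters in the principal block. -/
theorem rel_char (hF : Fus p M H N) {o : G → G} {nn : G → G} (hnn : ∀ g, nn g ∈ N)
    (ho : ∀ g, o g = g * (nn g)⁻¹)
    (hk : ∀ g, ∀ u ∈ H, ∀ t ∈ H, (t * (nn g * u * (nn g)⁻¹) ≠ 1 → ∀ χ ∈ principalBlock M G,
      (χ : G → ℂ) (t * (g * u * g⁻¹)) = (χ : G → ℂ) (t * (nn g * u * (nn g)⁻¹))))
    {χ : IrrCharacter G} (hχ : χ ∈ principalBlock M G) {t u : G} (ht : t ∈ H) (hu : u ∈ H) :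
    (Nat.card N : ℂ) * (VV χ t * VV χ u) =
      ∑ m : N, VV χ (t * ((m : G) * u * (m : G)⁻¹)) - cnt N t u * Zt χ o t := by
  have hχc := IsIrrCharacter.isCharacter χ.2
  have hd : (χ : G → ℂ) 1 ≠ 0 := CharAvg.irr_one_ne_zero χ.2
  have hG : (Nat.card G : ℂ) ≠ 0 := by exact_mod_cast Nat.card_pos.ne'
  have h1 : ∀ g : G, ∑ m : N, (χ : G → ℂ) (t * (g * ((m : G) * u * (m : G)⁻¹) * g⁻¹)) =
      ∑ m : N, (χ : G → ℂ) (t * ((m : G) * u * (m : G)⁻¹)) -
        cnt N t u * ((χ : G → ℂ) 1 - (χ : G → ℂ) (t * (o g * t⁻¹ * (o g)⁻¹))) := by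
    intro g
    rw [ho]
    exact sum_fixed_g hF (hnn g) (hk g) hχ ht hu
  have h2 : ∑ g : G, ∑ m : N, (χ : G → ℂ) (t * (g * ((m : G) * u * (m : G)⁻¹) * g⁻¹)) =
      (Nat.card G : ℂ) * ∑ m : N, (χ : G → ℂ) (t * ((m : G) * u * (m : G)⁻¹)) -
        cnt N t u * Xi χ o t := by
    simp_rw [h1]
    rw [Finset.sum_sub_distrib]
    simp only [Finset.sum_const, Finset.card_univ, nsmul_eq_mul, ← Finset.mul_sum, Xi,
      Nat.card_eq_fintype_card]
  have h3 : (χ : G → ℂ) 1 * ∑ g : G, ∑ m : N, (χ : G → ℂ) (t * (g * ((m : G) * u * (m : G)⁻¹) * g⁻¹)) =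
      (Nat.card N : ℂ) * ((Nat.card G : ℂ) * (χ : G → ℂ) t * (χ : G → ℂ) u) := by
    rw [Finset.sum_comm, Finset.mul_sum]
    have : ∀ m : N, (χ : G → ℂ) 1 * ∑ g : G, (χ : G → ℂ) (t * (g * ((m : G) * u * (m : G)⁻¹) * g⁻¹)) =
        (Nat.card G : ℂ) * (χ : G → ℂ) t * (χ : G → ℂ) u := by
      intro m
      rw [CharAvg.irr_avg χ.2 t ((m : G) * u * (m : G)⁻¹), char_apply_conj hχc]
    simp only [this, Finset.sum_const, Finset.card_univ, nsmul_eq_mul, Nat.card_eq_fintype_card]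
  rw [h2] at h3
  unfold VV Zt
  rw [← Finset.sum_div]
  field_simp
  linear_combination -h3

/-- The algebra structure attached to a character of the principal block. -/
theorem alg_of_fus (hF : Fus p M H N) {o : G → G} {nn : G → G} (hnn : ∀ g, nn g ∈ N)
    (ho : ∀ g, o g = g * (nn g)⁻¹)
    (hk : ∀ g, ∀ u ∈ H, ∀ t ∈ H, (t * (nn g * u * (nn g)⁻¹) ≠ 1 → ∀ χ ∈ principalBlock M G,
      (χ : G → ℂ) (t * (g * u * g⁻¹)) = (χ : G → ℂ) (t * (nn g * u * (nn g)⁻¹))))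
    {χ : IrrCharacter G} (hχ : χ ∈ principalBlock M G) :
    Alg H N (VV χ) (Zt χ o) where
  hab := hF.hab
  hN := hF.hN
  hV1 := div_self (CharAvg.irr_one_ne_zero χ.2)
  hVN := by
    intro m _ a
    unfold VV
    rw [char_apply_conj (IsIrrCharacter.isCharacter χ.2)]
  rel := fun t ht u hu => rel_char hF hnn ho hk hχ ht hu

section Orth

variable (M)

/-- The principal block as a finset. -/
noncomputable def BF : Finset (IrrCharacter G) := (Set.toFinite (principalBlock M G)).toFinset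

theorem mem_BF {χ : IrrCharacter G} : χ ∈ BF (G := G) M ↔ χ ∈ principalBlock M G := by
  rw [BF, Set.Finite.mem_toFinset]

theorem sum_BF (f : IrrCharacter G → ℂ) : ∑ᶠ χ ∈ principalBlock M G, f χ = ∑ χ ∈ BF (G := G) M, f χ :=
  finsum_mem_eq_finite_toFinset_sum _ (Set.toFinite _)

variable {M}

theorem not_isConj_of_pprime {z c' v : G} (hz : ∃ k : ℕ, orderOf z = p ^ k) (hz1 : z ≠ 1)
    (hp : p.Prime) (hc : Commute z c') (hc' : ¬ p ∣ orderOf c') (hv : ¬ p ∣ orderOf v) :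
    ¬ IsConj (z * c') v := by
  intro h
  obtain ⟨x, hx⟩ := isConj_iff.1 h
  have h1 : orderOf (z * c') = orderOf v := by
    rw [← hx]
    have := MulEquiv.orderOf_eq (MulAut.conj x) (z * c')
    simpa [MulAut.conj_apply] using this.symm
  obtain ⟨k, hk⟩ := hz
  have hk0 : k ≠ 0 := by
    rintro rfl
    rw [pow_zero, orderOf_eq_one_iff] at hk
    exact hz1 hk
  have hcop : Nat.Coprime (orderOf z) (orderOf c') := by
    rw [hk]
    apply Nat.Coprime.pow_left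
    exact (Nat.Prime.coprime_iff_not_dvd hp).2 hc'
  have h2 := hc.orderOf_mul_eq_mul_orderOf_of_coprime hcop
  apply hv
  rw [← h1, h2, hk]
  exact Dvd.dvd.mul_right (dvd_pow_self p hk0) _

/-- Orthogonality with `p`-regular elements. -/
theorem orth_pprime (hM : IsPModular p M) {z v : G} (hz : ∃ k : ℕ, orderOf z = p ^ k) (hz1 : z ≠ 1)
    (hv : ¬ p ∣ orderOf v) :
    ∑ χ ∈ BF (G := G) M, conj ((χ : G → ℂ) z) * (χ : G → ℂ) v = 0 := by
  classical
  letI : Fintype (Subgroup.centralizer ({z} : Set G)) := Fintype.ofFinite _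
  haveI : M.IsPrime := isPrime_of_isPModular hM
  have hp : p.Prime := hM.1
  have h := sum_block_mul_conj_eq_zero hM hz rfl (isPBlock_principalBlock M)
    (y := (1 : Subgroup.centralizer ({z} : Set G))) (by simp [hp.one_lt.ne']) (v := v) (by
      intro c' hc' h1
      have hcomm : Commute z (c' : G) := by
        have := (Subgroup.mem_centralizer_singleton_iff.1 c'.2)
        exact this.symm
      have h2 : ¬ p ∣ orderOf (c' : G) := by rw [Subgroup.orderOf_coe]; exact hc'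
      exact not_isConj_of_pprime hz hz1 hp hcomm h2 hv h1)
  rw [sum_BF M (fun ζ : IrrCharacter G => (ζ : G → ℂ) (z * ((1 : Subgroup.centralizer ({z} : Set G)) : G)) * conj ((ζ : G → ℂ) v))] at h
  have h2 := congrArg conj h
  rw [map_sum, map_zero] at h2
  rw [← h2]
  refine Finset.sum_congr rfl fun χ _ => ?_
  simp

/-- Orthogonality with `p`-elements. -/
theorem orth_pelt (hM : IsPModular p M) {z v : G} (hz : ∃ k : ℕ, orderOf z = p ^ k)
    (hv : ∃ k : ℕ, orderOf v = p ^ k) (hzv : ¬ IsConj z v) :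
    ∑ χ ∈ BF (G := G) M, conj ((χ : G → ℂ) z) * (χ : G → ℂ) v = 0 := by
  classical
  haveI : M.IsPrime := isPrime_of_isPModular hM
  have h := sum_block_pelement_eq_zero hM hz hv hzv (isPBlock_principalBlock M)
  rw [sum_BF M (fun ζ : IrrCharacter G => (ζ : G → ℂ) z * conj ((ζ : G → ℂ) v))] at h
  have h2 := congrArg conj h
  rw [map_sum, map_zero] at h2
  rw [← h2]
  refine Finset.sum_congr rfl fun χ _ => ?_
  simp

/-- The sum of `|χ z|²` over the principal block is a natural number at least as large as each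
`p`-subgroup of the centralizer. -/
theorem exists_norm_nat (hM : IsPModular p M) {z : G} (hz : ∃ k : ℕ, orderOf z = p ^ k) {K : Subgroup G}
    (hK : K ≤ Subgroup.centralizer ({z} : Set G)) (hK2 : IsPGroup p K) :
    ∃ N : ℕ, Nat.card K ≤ N ∧
      ∑ χ ∈ BF (G := G) M, (χ : G → ℂ) z * conj ((χ : G → ℂ) z) = (N : ℂ) := by
  classical
  set H := Subgroup.centralizer ({z} : Set G) with hH
  letI : Fintype H := Fintype.ofFinite _
  haveI : M.IsPrime := isPrime_of_isPModular hM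
  have hpp : p.Prime := hM.1
  haveI : Fact p.Prime := ⟨hpp⟩
  have h1 := sum_principal_norm hM hz (H := H) hH
  rw [sum_BF M (fun ζ : IrrCharacter G => (ζ : G → ℂ) z * conj ((ζ : G → ℂ) z))] at h1
  set F := (Set.toFinite (principalBlock M H)).toFinset with hF
  have hFmem : ∀ χ : IrrCharacter H, χ ∈ F ↔ χ ∈ principalBlock M H := fun χ => by
    rw [hF, Set.Finite.mem_toFinset]
  set N : ℕ := ∑ ψ ∈ F, (charDegree (ψ : H → ℂ)) ^ 2 with hN
  have h2 : ∑ᶠ ψ ∈ principalBlock M H, (charDegree (ψ : H → ℂ) : ℂ) ^ 2 = (N : ℂ) := by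
    rw [finsum_mem_eq_finite_toFinset_sum _ (Set.toFinite _), hN]
    push_cast
    rfl
  refine ⟨N, ?_, by rw [h1, h2]⟩
  -- positivity
  have hpos : 0 < N := by
    apply Finset.sum_pos' (fun _ _ => Nat.zero_le _)
    refine ⟨irrOne H, (hFmem _).2 (irrOne_mem_principalBlock M), ?_⟩
    have := CharKernel.charDegree_pos (irrOne H).2
    positivity
  -- integrality
  have h3 : MemLocalRing M (blockCoeff (principalBlock M H) 1) :=
    memLocalRing_blockCoeff (isPBlock_principalBlock M) 1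
  have h4 : blockCoeff (principalBlock M H) 1 = (Nat.card H : ℂ)⁻¹ * (N : ℂ) := by
    unfold blockCoeff
    rw [← h2]
    congr 1
    refine finsum_mem_congr rfl fun ψ _ => ?_
    rw [CharKernel.one_eq_charDegree (IsIrrCharacter.isCharacter ψ.2)]
    simp [sq]
  obtain ⟨k, hk⟩ := IsPGroup.iff_card.1 hK2
  have hdvd : Nat.card K ∣ Nat.card H := Subgroup.card_dvd_of_le hK
  obtain ⟨c, hc⟩ := hdvd
  have h6 : MemLocalRing M ((N : ℂ) / ((p : ℕ) : ℂ) ^ k) := by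
    have h7 : (N : ℂ) / ((p : ℕ) : ℂ) ^ k = (Nat.card H : ℂ)⁻¹ * (N : ℂ) * (c : ℂ) := by
      have hne : (Nat.card H : ℂ) ≠ 0 := by exact_mod_cast Nat.card_pos.ne'
      have hc2 : (Nat.card H : ℂ) = ((p : ℕ) : ℂ) ^ k * (c : ℂ) := by
        rw [hc, hk]; push_cast; ring
      have hc3 : (c : ℂ) ≠ 0 := by
        intro h0
        rw [h0, mul_zero] at hc2
        exact hne hc2
      have hc4 : ((p : ℕ) : ℂ) ^ k ≠ 0 := by
        intro h0
        rw [h0, zero_mul] at hc2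
        exact hne hc2
      rw [hc2]
      field_simp
    rw [h7, ← h4]
    exact memLocalRing_mul h3 (memLocalRing_natCast c)
  have h8 := BlockVal.pow_dvd_of_memLocalRing_natCast_div hM h6
  rw [hk]
  exact Nat.le_of_dvd hpos h8

end Orth

section Star

/-- The chosen elements of the normalizer. -/
structure Ch (p : ℕ) (M : Ideal AlgInt) (H N : Subgroup G) (nn : G → G) : Prop where
  hnn : ∀ g, nn g ∈ N
  hk : ∀ g, ∀ u ∈ H, ∀ t ∈ H, (t * (nn g * u * (nn g)⁻¹) ≠ 1 → ∀ χ ∈ principalBlock M G,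
      (χ : G → ℂ) (t * (g * u * g⁻¹)) = (χ : G → ℂ) (t * (nn g * u * (nn g)⁻¹)))
  hk2 : ∀ g, ∀ u ∈ H, ∀ t ∈ H, (t * (nn g * u * (nn g)⁻¹) = 1 → ¬ p ∣ orderOf (t * (g * u * g⁻¹)))

theorem Fus.exists_ch (hF : Fus p M H N) : ∃ nn : G → G, Ch p M H N nn := by
  choose nn h1 h2 using hF.key
  exact ⟨nn, h1, fun g u hu t ht => (h2 g u hu t ht).1, fun g u hu t ht => (h2 g u hu t ht).2⟩

/-- The off-diagonal factor. -/
def oo (nn : G → G) (g : G) : G := g * (nn g)⁻¹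

variable {nn : G → G}

theorem Ch.alg (hF : Fus p M H N) (hC : Ch p M H N nn) {χ : IrrCharacter G} (hχ : χ ∈ principalBlock M G) :
    Alg H N (VV χ) (Zt χ (oo nn)) :=
  alg_of_fus hF hC.hnn (fun _ => rfl) hC.hk hχ

theorem Ch.pprime (hF : Fus p M H N) (hC : Ch p M H N nn) {t : G} (ht : t ∈ H) (g : G) :
    ¬ p ∣ orderOf (t * (oo nn g * t⁻¹ * (oo nn g)⁻¹)) := by
  have hu : (nn g)⁻¹ * t⁻¹ * (nn g)⁻¹⁻¹ ∈ H := hF.hN _ (N.inv_mem (hC.hnn g)) _ (H.inv_mem ht)
  have h := hC.hk2 g _ hu t ht (by group)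
  have e : g * ((nn g)⁻¹ * t⁻¹ * (nn g)⁻¹⁻¹) * g⁻¹ = oo nn g * t⁻¹ * (oo nn g)⁻¹ := by
    unfold oo
    group
  rwa [e] at h

theorem pelt_of_mem (hF : Fus p M H N) (hp : p.Prime) {a : G} (ha : a ∈ H) : ∃ k : ℕ, orderOf a = p ^ k := by
  obtain ⟨k, hk⟩ := hF.hp ⟨a, ha⟩
  have h1 : a ^ p ^ k = 1 := by
    have := congrArg Subtype.val hk
    simpa using this
  obtain ⟨j, -, hj⟩ := (Nat.dvd_prime_pow hp).1 (orderOf_dvd_of_pow_eq_one h1)
  exact ⟨j, hj⟩

/-- The fundamental sum identity. -/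
theorem star (hM : IsPModular p M) (hF : Fus p M H N) (hC : Ch p M H N nn) {z : G} (hzH : z ∈ H)
    (hz1 : z ≠ 1) {B : Subgroup G} {AF : Finset G} (hAF : ∀ t, t ∈ AF ↔ t ∈ B) (hBH : B ≤ H)
    (hzB : ∀ m : N, (m : G) * z * (m : G)⁻¹ ∈ B) :
    ∑ χ ∈ BF (G := G) M, rr (VV (χ : G → ℂ)) AF * ((χ : G → ℂ) z * conj ((χ : G → ℂ) z)) =
      ((AF.filter (fun a => IsConj z a)).card : ℂ) *
        ∑ χ ∈ BF (G := G) M, (χ : G → ℂ) z * conj ((χ : G → ℂ) z) := by
  classical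
  have hpp : p.Prime := hM.1
  have hG : (Nat.card G : ℂ) ≠ 0 := by exact_mod_cast Nat.card_pos.ne'
  have hz := pelt_of_mem hF hpp hzH
  have hXi : ∀ χ ∈ BF (G := G) M, Xi (χ : G → ℂ) (oo nn) z⁻¹ =
      (Nat.card G : ℂ) * (rr (VV (χ : G → ℂ)) AF * ((χ : G → ℂ) 1 - (χ : G → ℂ) z)) := by
    intro χ hχ
    have h1 := zeta_inv (Ch.alg hF hC ((mem_BF M).1 hχ)) hAF hBH hzH hzB
    have hd : (χ : G → ℂ) 1 ≠ 0 := CharAvg.irr_one_ne_zero χ.2
    unfold Zt at h1
    rw [div_eq_iff (mul_ne_zero hG hd)] at h1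
    rw [h1]
    unfold VV
    field_simp
  have h0 : ∑ χ ∈ BF (G := G) M, conj ((χ : G → ℂ) z) * Xi (χ : G → ℂ) (oo nn) z⁻¹ = 0 := by
    unfold Xi
    simp_rw [Finset.mul_sum]
    rw [Finset.sum_comm]
    refine Finset.sum_eq_zero fun g _ => ?_
    simp_rw [mul_sub]
    rw [Finset.sum_sub_distrib, orth_pprime hM hz hz1 (v := 1) (by simp [hpp.one_lt.ne']),
      orth_pprime hM hz hz1 (Ch.pprime hF hC (H.inv_mem hzH) g), sub_zero]
  rw [Finset.sum_congr rfl (fun χ hχ => by rw [hXi χ hχ])] at h0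
  have h1 : ∑ χ ∈ BF (G := G) M, conj ((χ : G → ℂ) z) * (rr (VV (χ : G → ℂ)) AF * (χ : G → ℂ) 1) =
      ∑ χ ∈ BF (G := G) M, rr (VV (χ : G → ℂ)) AF * ((χ : G → ℂ) z * conj ((χ : G → ℂ) z)) := by
    have h2 : (Nat.card G : ℂ) * (∑ χ ∈ BF (G := G) M, conj ((χ : G → ℂ) z) * (rr (VV (χ : G → ℂ)) AF * (χ : G → ℂ) 1) -
      ∑ χ ∈ BF (G := G) M, rr (VV (χ : G → ℂ)) AF * ((χ : G → ℂ) z * conj ((χ : G → ℂ) z))) = 0 := by
      rw [← h0, ← Finset.sum_sub_distrib, Finset.mul_sum]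
      refine Finset.sum_congr rfl fun χ _ => ?_
      ring
    have h3 := (mul_eq_zero.1 h2).resolve_left hG
    exact sub_eq_zero.1 h3
  rw [← h1]
  have hr : ∀ χ : IrrCharacter G, rr (VV (χ : G → ℂ)) AF * (χ : G → ℂ) 1 = ∑ a ∈ AF, (χ : G → ℂ) a := by
    intro χ
    have hd : (χ : G → ℂ) 1 ≠ 0 := CharAvg.irr_one_ne_zero χ.2
    unfold rr VV
    rw [Finset.sum_mul]
    refine Finset.sum_congr rfl fun a _ => ?_
    field_simp
  simp_rw [hr, Finset.mul_sum]
  rw [Finset.sum_comm]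
  have h2 : ∀ a ∈ AF, ∑ χ ∈ BF (G := G) M, conj ((χ : G → ℂ) z) * (χ : G → ℂ) a =
      if IsConj z a then ∑ χ ∈ BF (G := G) M, (χ : G → ℂ) z * conj ((χ : G → ℂ) z) else 0 := by
    intro a ha
    split_ifs with hc
    · refine Finset.sum_congr rfl fun χ _ => ?_
      rw [← NilClosedChar.char_eq_of_isConj (IsIrrCharacter.isCharacter χ.2) hc, mul_comm]
    · exact orth_pelt hM hz (pelt_of_mem hF hpp (hBH ((hAF a).1 ha))) hc
  rw [Finset.sum_congr rfl h2, Finset.sum_ite, Finset.sum_const_zero, add_zero, Finset.sum_const,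
    nsmul_eq_mul, Finset.mul_sum]

theorem mul_conj_eq (w : ℂ) : w * conj w = ((‖w‖ ^ 2 : ℝ) : ℂ) := by
  rw [Complex.mul_conj, Complex.normSq_eq_norm_sq]

/-- The value of the sum for the trivial character. -/
theorem rr_irrOne {AF : Finset G} : rr (VV ((irrOne G : IrrCharacter G) : G → ℂ)) AF = AF.card := by
  unfold rr VV
  show ∑ a ∈ AF, (1 : ℂ) / 1 = _
  simp

/-- Too many conjugates are impossible, when the sums are bounded. -/
theorem false_of_bound (hM : IsPModular p M) (hF : Fus p M H N) (hC : Ch p M H N nn) {z : G} (hzH : z ∈ H)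
    (hz1 : z ≠ 1) {B : Subgroup G} {AF : Finset G} (hAF : ∀ t, t ∈ AF ↔ t ∈ B) (hBH : B ≤ H)
    (hzB : ∀ m : N, (m : G) * z * (m : G)⁻¹ ∈ B)
    (hW2 : 2 ≤ (AF.filter (fun a => IsConj z a)).card)
    (hb : ∀ χ ∈ BF (G := G) M, χ ≠ irrOne G → (χ : G → ℂ) z ≠ 0 →
      (rr (VV (χ : G → ℂ)) AF).re ≤ ((AF.filter (fun a => IsConj z a)).card : ℝ) - 1) : False := by
  classical
  haveI : M.IsPrime := isPrime_of_isPModular hM
  have hpp : p.Prime := hM.1
  have hz := pelt_of_mem hF hpp hzH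
  have hS := star hM hF hC hzH hz1 hAF hBH hzB
  set w : ℝ := ((AF.filter (fun a => IsConj z a)).card : ℝ) with hw
  have hw2 : (2 : ℝ) ≤ w := by rw [hw]; exact_mod_cast hW2
  have hBz : B ≤ Subgroup.centralizer ({z} : Set G) := by
    intro x hx
    rw [Subgroup.mem_centralizer_singleton_iff]
    exact hF.hab x (hBH hx) z hzH
  obtain ⟨Nn, hNn, hZ⟩ := exists_norm_nat hM hz hBz (hF.hp.to_le hBH)
  have hcard : Nat.card B = AF.card := Nat.subtype_card AF hAF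
  set o := irrOne G with ho
  have hoF : o ∈ BF (G := G) M := (mem_BF M).2 (irrOne_mem_principalBlock M)
  set nrm : IrrCharacter G → ℝ := fun χ => ‖(χ : G → ℂ) z‖ ^ 2 with hnrm
  have hnrm0 : ∀ χ, 0 ≤ nrm χ := fun χ => by positivity
  have hZ' : ∑ χ ∈ BF (G := G) M, nrm χ = (Nn : ℝ) := by
    have h1 : ((∑ χ ∈ BF (G := G) M, nrm χ : ℝ) : ℂ) = (Nn : ℂ) := by
      rw [← hZ]
      push_cast
      refine Finset.sum_congr rfl fun χ _ => ?_
      rw [mul_conj_eq]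
    exact_mod_cast h1
  have hS' : ∑ χ ∈ BF (G := G) M, (rr (VV (χ : G → ℂ)) AF).re * nrm χ = w * Nn := by
    have h1 := congrArg Complex.re hS
    rw [hZ, Complex.re_sum] at h1
    have h2 : ∀ χ ∈ BF (G := G) M, (rr (VV (χ : G → ℂ)) AF * ((χ : G → ℂ) z * conj ((χ : G → ℂ) z))).re =
        (rr (VV (χ : G → ℂ)) AF).re * nrm χ := by
      intro χ _
      rw [mul_conj_eq, Complex.re_mul_ofReal]
    rw [Finset.sum_congr rfl h2] at h1
    rw [h1]
    rw [hw, ← Complex.ofReal_natCast, ← Complex.ofReal_natCast, ← Complex.ofReal_mul, Complex.ofReal_re]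
  have hno : nrm o = 1 := by
    rw [hnrm]
    show ‖(1 : ℂ)‖ ^ 2 = 1
    simp
  have hro : (rr (VV (o : G → ℂ)) AF).re = AF.card := by
    rw [ho, rr_irrOne]
    simp
  rw [← Finset.add_sum_erase _ _ hoF, hro, hno, mul_one] at hS'
  rw [← Finset.add_sum_erase _ _ hoF, hno] at hZ'
  have hle : ∑ χ ∈ (BF (G := G) M).erase o, (rr (VV (χ : G → ℂ)) AF).re * nrm χ ≤
      ∑ χ ∈ (BF (G := G) M).erase o, (w - 1) * nrm χ := by
    refine Finset.sum_le_sum fun χ hχ => ?_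
    rw [Finset.mem_erase] at hχ
    by_cases h0 : (χ : G → ℂ) z = 0
    · have : nrm χ = 0 := by
        rw [hnrm]
        show ‖(χ : G → ℂ) z‖ ^ 2 = 0
        rw [h0]
        simp
      rw [this]
      simp
    · exact mul_le_mul_of_nonneg_right (hb χ hχ.2 hχ.1 h0) (hnrm0 χ)
  rw [← Finset.mul_sum] at hle
  have hNle : ((AF.card : ℕ) : ℝ) ≤ Nn := by
    rw [← hcard]
    exact_mod_cast hNn
  have h3 : ∑ χ ∈ (BF (G := G) M).erase o, nrm χ = Nn - 1 := by linarith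
  rw [h3] at hle
  nlinarith

/-- A rational algebraic integer in `ℂ` is a rational integer. -/
theorem exists_int_of_mul {c : ℂ} (hc : IsIntegral ℤ c) {w : ℕ} (hw : w ≠ 0) {k : ℤ}
    (h : (w : ℂ) * c = k) : ∃ n : ℤ, c = n := by
  have hw' : (w : ℂ) ≠ 0 := by exact_mod_cast hw
  set q : ℚ := (k : ℚ) / w with hq
  have hcq : c = ((q : ℚ) : ℂ) := by
    rw [hq]
    push_cast
    rw [eq_div_iff hw', mul_comm]
    exact h
  rw [hcq] at hc
  have h1 : IsIntegral ℤ q := by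
    have := (isIntegral_algebraMap_iff (R := ℤ) (A := ℚ) (B := ℂ) (x := q)
      (algebraMap ℚ ℂ).injective).1
    exact this (by simpa using hc)
  obtain ⟨n, hn⟩ := IsIntegrallyClosed.isIntegral_iff.1 h1
  refine ⟨n, ?_⟩
  rw [hcq, ← hn]
  simp

/-- The sum over a subgroup of a character is a multiple of the order. -/
theorem sum_subgroup_eq {χ : G → ℂ} (hχ : IsCharacter G χ) {B : Subgroup G} {AF : Finset G}
    (hAF : ∀ t, t ∈ AF ↔ t ∈ B) : ∃ m : ℕ, ∑ a ∈ AF, χ a = (AF.card : ℂ) * m := by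
  classical
  letI : Fintype B := Fintype.ofFinite _
  obtain ⟨m, hm⟩ := classInner_char_char (isCharacter_restrict B hχ) (isCharacter_one (G := B))
  refine ⟨m, ?_⟩
  have hcard : Nat.card B = AF.card := Nat.subtype_card AF hAF
  have hC : (AF.card : ℂ) ≠ 0 := by
    rw [← hcard]
    exact_mod_cast Nat.card_pos.ne'
  unfold classInner at hm
  rw [hcard] at hm
  simp only [map_one, mul_one] at hm
  rw [inv_mul_eq_iff_eq_mul₀ hC] at hm
  rw [← hm]
  symm
  have e : ∑ a ∈ AF, χ a = ∑ a ∈ Finset.univ.filter (· ∈ B), χ a := by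
    congr 1
    ext a
    simp [hAF]
  rw [e, Finset.sum_subtype (Finset.univ.filter (· ∈ B)) (p := (· ∈ B)) (by simp)]

/-- When all nonidentity elements of `B` are conjugate to `z`: the integrality argument. -/
theorem false_of_int (hM : IsPModular p M) (hF : Fus p M H N) (hC : Ch p M H N nn) {z : G} (hzH : z ∈ H)
    (hz1 : z ≠ 1) {B : Subgroup G} {AF : Finset G} (hAF : ∀ t, t ∈ AF ↔ t ∈ B) (hBH : B ≤ H)
    (hzB : ∀ m : N, (m : G) * z * (m : G)⁻¹ ∈ B) (hzinB : z ∈ B)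
    (hall : ∀ a ∈ AF, a ≠ 1 → IsConj z a)
    (hW2 : 2 ≤ (AF.filter (fun a => IsConj z a)).card)
    (hb : ∀ χ ∈ BF (G := G) M, χ ≠ irrOne G → (χ : G → ℂ) z ≠ 0 →
      (rr (VV (χ : G → ℂ)) AF).re ≤ ((AF.filter (fun a => IsConj z a)).card : ℝ)) : False := by
  classical
  haveI : M.IsPrime := isPrime_of_isPModular hM
  have hpp : p.Prime := hM.1
  have hz := pelt_of_mem hF hpp hzH
  have hS := star hM hF hC hzH hz1 hAF hBH hzB
  set W := AF.filter (fun a => IsConj z a) with hWd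
  have h1AF : (1 : G) ∈ AF := (hAF 1).2 B.one_mem
  have hnot1 : (1 : G) ∉ W := by
    rw [hWd, Finset.mem_filter]
    rintro ⟨-, h⟩
    exact hz1 (isConj_one_right.1 h.symm)
  have hWeq : W = AF.erase 1 := by
    ext a
    rw [hWd, Finset.mem_filter, Finset.mem_erase]
    constructor
    · rintro ⟨h1, h2⟩
      refine ⟨?_, h1⟩
      rintro rfl
      exact hz1 (isConj_one_right.1 h2.symm)
    · rintro ⟨h1, h2⟩
      exact ⟨h2, hall a h2 h1⟩
  have hcardW : W.card + 1 = AF.card := by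
    rw [hWeq]
    exact Finset.card_erase_add_one h1AF
  set w : ℝ := (W.card : ℝ) with hw
  have hw2 : (2 : ℝ) ≤ w := by rw [hw]; exact_mod_cast hW2
  -- the values
  have hchar : ∀ χ : IrrCharacter G, IsCharacter G (χ : G → ℂ) := fun χ => IsIrrCharacter.isCharacter χ.2
  have hzi : IsConj z z⁻¹ := hall z⁻¹ ((hAF _).2 (B.inv_mem hzinB)) (by simpa using hz1)
  have hreal : ∀ χ : IrrCharacter G, ((χ : G → ℂ) z).im = 0 := by
    intro χ
    have h1 := NilClosedChar.char_eq_of_isConj (hchar χ) hzi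
    rw [← char_conj_eq_inv (hchar χ)] at h1
    exact Complex.conj_eq_iff_im.1 h1.symm
  have hrr : ∀ χ : IrrCharacter G, rr (VV (χ : G → ℂ)) AF = 1 + (W.card : ℂ) * VV (χ : G → ℂ) z := by
    intro χ
    unfold rr
    rw [← Finset.add_sum_erase _ _ h1AF, ← hWeq]
    have h1 : VV (χ : G → ℂ) 1 = 1 := div_self (CharAvg.irr_one_ne_zero χ.2)
    rw [h1]
    congr 1
    rw [Finset.sum_congr rfl (g := fun _ => VV (χ : G → ℂ) z)]
    · simp
    · intro a ha
      rw [hWd, Finset.mem_filter] at ha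
      unfold VV
      rw [NilClosedChar.char_eq_of_isConj (hchar χ) ha.2]
  -- integrality
  have hint : ∀ χ : IrrCharacter G, ∃ n : ℤ, (χ : G → ℂ) z = n := by
    intro χ
    obtain ⟨m, hm⟩ := sum_subgroup_eq (hchar χ) hAF
    have h2 : rr (VV (χ : G → ℂ)) AF * (χ : G → ℂ) 1 = ∑ a ∈ AF, (χ : G → ℂ) a := by
      have hd : (χ : G → ℂ) 1 ≠ 0 := CharAvg.irr_one_ne_zero χ.2
      unfold rr VV
      rw [Finset.sum_mul]
      refine Finset.sum_congr rfl fun a _ => ?_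
      field_simp
    obtain ⟨d, -, hd⟩ := CharAvg.irr_one_eq χ.2
    have hd0 : (χ : G → ℂ) 1 ≠ 0 := CharAvg.irr_one_ne_zero χ.2
    rw [hrr, hm] at h2
    unfold VV at h2
    have h3 : (W.card : ℂ) * (χ : G → ℂ) z = (((AF.card * m : ℕ) : ℤ) - (d : ℤ) : ℤ) := by
      push_cast
      rw [← h2, hd] at *
      field_simp at *
      ring
    obtain ⟨n₀, ρ, hρ⟩ := hchar χ
    have h4 : IsIntegral ℤ ((χ : G → ℂ) z) := by
      rw [← hρ]
      exact CharValues.isIntegral_character ρ z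
    have hW0 : W.card ≠ 0 := by omega
    exact exists_int_of_mul h4 hW0 h3
  -- the real form
  set cc : IrrCharacter G → ℝ := fun χ => ((χ : G → ℂ) z).re with hcc
  set dd : IrrCharacter G → ℝ := fun χ => ((χ : G → ℂ) 1).re with hdd
  have hcc' : ∀ χ : IrrCharacter G, (χ : G → ℂ) z = (cc χ : ℂ) := fun χ =>
    NilClosedChar.eq_ofReal_re_of_im (hreal χ)
  have hdd' : ∀ χ : IrrCharacter G, (χ : G → ℂ) 1 = (dd χ : ℂ) := fun χ => by
    apply NilClosedChar.eq_ofReal_re_of_im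
    obtain ⟨d, -, hd⟩ := CharAvg.irr_one_eq χ.2
    rw [hd]
    simp
  have hddpos : ∀ χ : IrrCharacter G, 0 < dd χ := fun χ => by
    obtain ⟨d, hd0, hd⟩ := CharAvg.irr_one_eq χ.2
    show 0 < ((χ : G → ℂ) 1).re
    rw [hd, Complex.natCast_re]
    exact_mod_cast hd0
  have hrrR : ∀ χ : IrrCharacter G, rr (VV (χ : G → ℂ)) AF = ((1 + w * (cc χ / dd χ) : ℝ) : ℂ) := by
    intro χ
    rw [hrr]
    unfold VV
    rw [hcc', hdd', hw]
    push_cast
    rfl
  have hSR : ∑ χ ∈ BF (G := G) M, (1 + w * (cc χ / dd χ)) * (cc χ) ^ 2 =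
      w * ∑ χ ∈ BF (G := G) M, (cc χ) ^ 2 := by
    have h1 : ((∑ χ ∈ BF (G := G) M, (1 + w * (cc χ / dd χ)) * (cc χ) ^ 2 : ℝ) : ℂ) =
        ((w * ∑ χ ∈ BF (G := G) M, (cc χ) ^ 2 : ℝ) : ℂ) := by
      have e1 : ((∑ χ ∈ BF (G := G) M, (1 + w * (cc χ / dd χ)) * (cc χ) ^ 2 : ℝ) : ℂ) =
          ∑ χ ∈ BF (G := G) M, rr (VV (χ : G → ℂ)) AF * ((χ : G → ℂ) z * conj ((χ : G → ℂ) z)) := by
        rw [Complex.ofReal_sum]
        refine Finset.sum_congr rfl fun χ _ => ?_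
        rw [hrrR, hcc', Complex.conj_ofReal]
        push_cast
        ring
      have e2 : ((w * ∑ χ ∈ BF (G := G) M, (cc χ) ^ 2 : ℝ) : ℂ) =
          (W.card : ℂ) * ∑ χ ∈ BF (G := G) M, (χ : G → ℂ) z * conj ((χ : G → ℂ) z) := by
        rw [Complex.ofReal_mul, Complex.ofReal_sum, hw, Complex.ofReal_natCast]
        congr 1
        refine Finset.sum_congr rfl fun χ _ => ?_
        rw [hcc', Complex.conj_ofReal]
        push_cast
        ring
      rw [e1, e2]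
      exact hS
    exact_mod_cast h1
  -- the orthogonality with `1`
  have hdc : ∑ χ ∈ BF (G := G) M, cc χ * dd χ = 0 := by
    have h1 := orth_pprime hM hz hz1 (v := 1) (by simp [hpp.one_lt.ne'])
    have h2 : ((∑ χ ∈ BF (G := G) M, cc χ * dd χ : ℝ) : ℂ) = 0 := by
      rw [← h1]
      push_cast
      refine Finset.sum_congr rfl fun χ _ => ?_
      rw [hcc', hdd', Complex.conj_ofReal]
    exact_mod_cast h2
  set o := irrOne G with ho
  have hoF : o ∈ BF (G := G) M := (mem_BF M).2 (irrOne_mem_principalBlock M)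
  have hco : cc o = 1 := by
    show ((1 : ℂ)).re = 1
    simp
  have hdo : dd o = 1 := by
    show ((1 : ℂ)).re = 1
    simp
  rw [← Finset.add_sum_erase _ _ hoF, hco, hdo] at hdc
  rw [← Finset.add_sum_erase _ _ hoF, ← Finset.add_sum_erase (BF (G := G) M) (fun χ => (cc χ) ^ 2) hoF, hco, hdo] at hSR
  set T : IrrCharacter G → ℝ := fun χ => ((w - 1) - w * (cc χ / dd χ)) * (cc χ) ^ 2 with hT
  have hT1 : ∑ χ ∈ (BF (G := G) M).erase o, T χ = 1 := by
    have h1 : ∑ χ ∈ (BF (G := G) M).erase o, T χ =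
        w * ∑ χ ∈ (BF (G := G) M).erase o, (cc χ) ^ 2 -
          ∑ χ ∈ (BF (G := G) M).erase o, (1 + w * (cc χ / dd χ)) * (cc χ) ^ 2 := by
      rw [Finset.mul_sum, ← Finset.sum_sub_distrib]
      refine Finset.sum_congr rfl fun χ _ => ?_
      rw [hT]
      ring
    rw [h1]
    nlinarith
  have hT0 : ∀ χ ∈ (BF (G := G) M).erase o, 0 ≤ T χ := by
    intro χ hχ
    rw [Finset.mem_erase] at hχ
    by_cases h0 : (χ : G → ℂ) z = 0
    · have : cc χ = 0 := by
        show ((χ : G → ℂ) z).re = 0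
        rw [h0]
        simp
      rw [hT]
      simp [this]
    · have h1 := hb χ hχ.2 hχ.1 h0
      rw [hrrR, Complex.ofReal_re] at h1
      apply mul_nonneg _ (sq_nonneg _)
      linarith
  -- a negative value
  obtain ⟨χ, hχ, hneg⟩ : ∃ χ ∈ (BF (G := G) M).erase o, cc χ * dd χ < 0 := by
    by_contra hcon
    push Not at hcon
    have := Finset.sum_nonneg hcon
    linarith
  have hcneg : cc χ < 0 := by
    by_contra h
    push Not at h
    have := mul_nonneg h (hddpos χ).le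
    linarith
  obtain ⟨n, hn⟩ := hint χ
  have hccn : cc χ = n := by
    show ((χ : G → ℂ) z).re = n
    rw [hn]
    simp
  have hn1 : (n : ℝ) ≤ -1 := by
    rw [hccn] at hcneg
    have : n < 0 := by exact_mod_cast hcneg
    have : n ≤ -1 := by omega
    exact_mod_cast this
  have hsq : 1 ≤ (cc χ) ^ 2 := by
    rw [hccn]
    nlinarith
  have hdiv : cc χ / dd χ < 0 := div_neg_of_neg_of_pos hcneg (hddpos χ)
  have hTχ : 1 < T χ := by
    rw [hT]
    show 1 < ((w - 1) - w * (cc χ / dd χ)) * (cc χ) ^ 2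
    have h1 : 1 < (w - 1) - w * (cc χ / dd χ) := by
      have : w * (cc χ / dd χ) < 0 := mul_neg_of_pos_of_neg (by linarith) hdiv
      linarith
    nlinarith
  have hle := Finset.single_le_sum hT0 hχ
  linarith

end Star

end Cfsg.Agent.Lib.XcoChar
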