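import Mathlib
import Cfsg.Agent.Lib.XcoChar

/-!
# The numerical case analysis
-/

set_option autoImplicit false
set_option linter.style.haveILetI false
set_option linter.unusedSectionVars false
set_option linter.unusedVariables false

namespace Cfsg.Agent.Lib.XcoCases

open Module Cfsg Cfsg.Agent.Lib Cfsg.Agent.Lib.CharBasic Cfsg.Agent.Lib.BlockNormal
open Cfsg.Agent.Lib.BlockSection Cfsg.Agent.Lib.BlockLocal Cfsg.Agent.Lib.BlockIdem
open Cfsg.Agent.Lib.XcoAlg Cfsg.Agent.Lib.XcoChar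
open scoped ComplexConjugate

universe u

variable {G : Type u} [Group G] [Fintype G] [DecidableEq G]
variable {p : ℕ} {M : Ideal AlgInt} {H N : Subgroup G} [Fintype N] {nn : G → G}

/-- An element of `H` that is `p`-regular is trivial. -/
theorem eq_one_of_pprime (hF : Fus p M H N) (hp : p.Prime) {a : G} (ha : a ∈ H) (h : ¬ p ∣ orderOf a) :
    a = 1 := by
  obtain ⟨k, hk⟩ := pelt_of_mem hF hp ha
  cases k with
  | zero => simpa using hk
  | succ k =>
    exfalso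
    apply h
    rw [hk]
    exact dvd_pow_self p (by omega)

/-- Conjugates of `u` in `H` lie in the `N`-orbit of `u`. -/
theorem exists_orbit (hF : Fus p M H N) (hC : Ch p M H N nn) (hp : p.Prime) {u a : G} (hu : u ∈ H)
    (ha : a ∈ H) (h : IsConj u a) : ∃ m : N, (m : G) * u * (m : G)⁻¹ = a := by
  obtain ⟨g, rfl⟩ := isConj_iff.1 h
  set n := nn g with hn
  have hb : n * u * n⁻¹ ∈ H := hF.hN _ (hC.hnn g) _ hu
  have h1 := hC.hk2 g u hu _ (H.inv_mem hb) (inv_mul_cancel _)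
  have h2 := eq_one_of_pprime hF hp (H.mul_mem (H.inv_mem hb) ha) h1
  refine ⟨⟨n, hC.hnn g⟩, ?_⟩
  exact inv_mul_eq_one.1 h2

/-- The bound for the sum, from a bound on the values at the off-diagonal elements. -/
theorem rr_re_le (hF : Fus p M H N) (hC : Ch p M H N nn) {χ : IrrCharacter G} (hχ : χ ∈ BF (G := G) M)
    {z : G} (hzH : z ∈ H) {B : Subgroup G} {AF : Finset G} (hAF : ∀ t, t ∈ AF ↔ t ∈ B) (hBH : B ≤ H)
    (hzB : ∀ m : N, (m : G) * z * (m : G)⁻¹ ∈ B) (hzr : ((χ : G → ℂ) z).im = 0)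
    (hlt : ((χ : G → ℂ) z).re < ((χ : G → ℂ) 1).re) {R : ℝ}
    (hR : ∀ g, ((χ : G → ℂ) 1).re - R * (((χ : G → ℂ) 1).re - ((χ : G → ℂ) z).re) ≤
      ((χ : G → ℂ) (z⁻¹ * (oo nn g * z⁻¹⁻¹ * (oo nn g)⁻¹))).re) :
    (rr (VV (χ : G → ℂ)) AF).re ≤ R := by
  have hG : (Nat.card G : ℂ) ≠ 0 := by exact_mod_cast Nat.card_pos.ne'
  have hGR : (0 : ℝ) < (Nat.card G : ℝ) := by exact_mod_cast Nat.card_pos
  have hd0 : (χ : G → ℂ) 1 ≠ 0 := CharAvg.irr_one_ne_zero χ.2
  have h1 := zeta_inv (Ch.alg hF hC ((mem_BF M).1 hχ)) hAF hBH hzH hzB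
  have h2 : Xi (χ : G → ℂ) (oo nn) z⁻¹ =
      (Nat.card G : ℂ) * (rr (VV (χ : G → ℂ)) AF * ((χ : G → ℂ) 1 - (χ : G → ℂ) z)) := by
    unfold Zt at h1
    rw [div_eq_iff (mul_ne_zero hG hd0)] at h1
    rw [h1]
    unfold VV
    field_simp
  set d := ((χ : G → ℂ) 1).re with hd
  set c := ((χ : G → ℂ) z).re with hc
  have hd' : (χ : G → ℂ) 1 = (d : ℂ) := by
    apply NilClosedChar.eq_ofReal_re_of_im
    obtain ⟨d, -, hd⟩ := CharAvg.irr_one_eq χ.2
    rw [hd]
    simp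
  have hc' : (χ : G → ℂ) z = (c : ℂ) := NilClosedChar.eq_ofReal_re_of_im hzr
  have h3 : (Xi (χ : G → ℂ) (oo nn) z⁻¹).re = (Nat.card G : ℝ) * ((rr (VV (χ : G → ℂ)) AF).re * (d - c)) := by
    rw [h2, hd', hc', ← Complex.ofReal_sub, ← Complex.ofReal_natCast, Complex.re_ofReal_mul,
      Complex.re_mul_ofReal]
  have h4 : (Xi (χ : G → ℂ) (oo nn) z⁻¹).re ≤ (Nat.card G : ℝ) * (R * (d - c)) := by
    unfold Xi
    rw [Complex.re_sum]
    have h5 : ∀ g ∈ (Finset.univ : Finset G),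
        ((χ : G → ℂ) 1 - (χ : G → ℂ) (z⁻¹ * (oo nn g * z⁻¹⁻¹ * (oo nn g)⁻¹))).re ≤ R * (d - c) := by
      intro g _
      rw [Complex.sub_re]
      have := hR g
      linarith
    have h6 := Finset.sum_le_sum h5
    simp only [Finset.sum_const, Finset.card_univ, nsmul_eq_mul] at h6
    rw [Nat.card_eq_fintype_card]
    exact h6
  rw [h3] at h4
  have h7 := le_of_mul_le_mul_left h4 hGR
  exact le_of_mul_le_mul_right h7 (by linarith)

/-- The context of the case analysis. -/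
structure Ctx (p : ℕ) (M : Ideal AlgInt) (H N : Subgroup G) [Fintype N] (nn : G → G) (z : G)
    (HF : Finset G) : Prop where
  hM : IsPModular p M
  hF : Fus p M H N
  hC : Ch p M H N nn
  hL : Subgroup.normalClosure ({z} : Set G) = ⊤
  hzH : z ∈ H
  hzo : orderOf z = p
  hp2 : p ≠ 2
  hHF : ∀ t, t ∈ HF ↔ t ∈ H

variable {z : G} {HF : Finset G}

theorem Ctx.pp (X : Ctx p M H N nn z HF) : p.Prime := X.hM.1

theorem Ctx.z1 (X : Ctx p M H N nn z HF) : z ≠ 1 := by
  intro h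
  have h1 := X.hzo
  rw [h, orderOf_one] at h1
  exact X.pp.one_lt.ne h1

theorem Ctx.p3 (X : Ctx p M H N nn z HF) : 3 ≤ p := by
  have h1 := X.pp.two_le
  have h2 := X.hp2
  omega

theorem Ctx.mem_W (X : Ctx p M H N nn z HF) {a : G} :
    a ∈ HF.filter (fun a => IsConj z a) ↔ ∃ m : N, (m : G) * z * (m : G)⁻¹ = a := by
  rw [Finset.mem_filter, X.hHF]
  constructor
  · rintro ⟨h1, h2⟩
    exact exists_orbit X.hF X.hC X.pp X.hzH h1 h2
  · rintro ⟨m, rfl⟩
    exact ⟨X.hF.hN _ m.2 _ X.hzH, isConj_iff.2 ⟨m, rfl⟩⟩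

/-- A nontrivial character in the principal block does not have `z` in its kernel. -/
theorem Ctx.val_ne_one (X : Ctx p M H N nn z HF) {χ : IrrCharacter G} (hne : χ ≠ irrOne G) :
    (χ : G → ℂ) z ≠ (χ : G → ℂ) 1 := fun h =>
  hne (NilClosedChar.eq_irrOne_of_val X.hL χ h)

theorem Ctx.re_lt (X : Ctx p M H N nn z HF) {χ : IrrCharacter G} (hne : χ ≠ irrOne G)
    (him : ((χ : G → ℂ) z).im = 0) : ((χ : G → ℂ) z).re < ((χ : G → ℂ) 1).re := by
  have hχc := IsIrrCharacter.isCharacter χ.2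
  have h1 := NilClosedChar.abs_re_le_one_re hχc z
  apply lt_of_le_of_ne ((le_abs_self _).trans h1)
  intro h
  apply X.val_ne_one hne
  rw [NilClosedChar.eq_ofReal_re_of_im him, h]
  apply Eq.symm
  apply NilClosedChar.eq_ofReal_re_of_im
  obtain ⟨d, -, hd⟩ := CharAvg.irr_one_eq χ.2
  rw [hd]
  simp

/-- The contradiction from a good pair. -/
theorem Ctx.false_of_good (X : Ctx p M H N nn z HF) (hW2 : 2 ≤ (HF.filter (fun a => IsConj z a)).card)
    {u : G} (hu : u ∈ H) (n₀ m₀ : N)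
    (h1 : ∀ n : N, (n : G) * z * (n : G)⁻¹ ≠ ((n₀ : G) * z * (n₀ : G)⁻¹) * ((m₀ : G) * u * (m₀ : G)⁻¹))
    (h2 : ∀ m : N, (m : G) * u * (m : G)⁻¹ ≠ ((n₀ : G) * z * (n₀ : G)⁻¹) * ((m₀ : G) * u * (m₀ : G)⁻¹))
    (h3 : ∀ m : N, (m : G) * u * (m : G)⁻¹ ≠ z) : False := by
  apply false_of_bound X.hM X.hF X.hC X.hzH X.z1 X.hHF le_rfl (fun m => X.hF.hN _ m.2 _ X.hzH) hW2
  intro χ hχ hne h0
  have hR : (2 : ℝ) ≤ ((HF.filter (fun a => IsConj z a)).card : ℝ) := by exact_mod_cast hW2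
  rcases good_pair (Ch.alg X.hF X.hC ((mem_BF M).1 hχ)) X.hHF X.hzH hu n₀ m₀ h1 h2 h3 with h | h | h
  · rw [h]
    simp only [Complex.zero_re]
    linarith
  · exfalso
    unfold VV at h
    rcases div_eq_zero_iff.1 h with h' | h'
    · exact h0 h'
    · exact CharAvg.irr_one_ne_zero χ.2 h'
  · exfalso
    unfold VV at h
    rw [div_eq_one_iff_eq (CharAvg.irr_one_ne_zero χ.2)] at h
    exact X.val_ne_one hne h

/-- The four term bound. -/
theorem Ctx.bound_four (X : Ctx p M H N nn z HF) {χ : IrrCharacter G} (hχ : χ ∈ BF (G := G) M)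
    (hne : χ ≠ irrOne G) (him : ((χ : G → ℂ) z).im = 0) {B : Subgroup G} {AF : Finset G}
    (hAF : ∀ t, t ∈ AF ↔ t ∈ B) (hBH : B ≤ H) (hzB : ∀ m : N, (m : G) * z * (m : G)⁻¹ ∈ B) :
    (rr (VV (χ : G → ℂ)) AF).re ≤ 4 := by
  have hχc := IsIrrCharacter.isCharacter χ.2
  refine rr_re_le X.hF X.hC hχ X.hzH hAF hBH hzB him (X.re_lt hne him) fun g => ?_
  have h := XcoPsd.re_ge_of_psd χ.2 (oo nn g * z⁻¹⁻¹ * (oo nn g)⁻¹) z
  rw [CharBasic.char_apply_conj hχc, CharBasic.char_mul_comm' hχc (oo nn g * z⁻¹⁻¹ * (oo nn g)⁻¹) z⁻¹,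
    inv_inv] at h
  rw [inv_inv]
  linarith

/-- The bound for `p = 3`. -/
theorem Ctx.bound_two (X : Ctx p M H N nn z HF) (hz3 : z * z * z = 1) {χ : IrrCharacter G}
    (hχ : χ ∈ BF (G := G) M) (hne : χ ≠ irrOne G) (him : ((χ : G → ℂ) z).im = 0) {B : Subgroup G}
    {AF : Finset G} (hAF : ∀ t, t ∈ AF ↔ t ∈ B) (hBH : B ≤ H)
    (hzB : ∀ m : N, (m : G) * z * (m : G)⁻¹ ∈ B) :
    (rr (VV (χ : G → ℂ)) AF).re ≤ 2 := by
  have hχc := IsIrrCharacter.isCharacter χ.2
  refine rr_re_le X.hF X.hC hχ X.hzH hAF hBH hzB him (X.re_lt hne him) fun g => ?_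
  set c := ((χ : G → ℂ) z).re with hc
  have hc' : (χ : G → ℂ) z = (c : ℂ) := NilClosedChar.eq_ofReal_re_of_im him
  have hi1 : z⁻¹ = z * z := by
    rw [inv_eq_iff_mul_eq_one, ← mul_assoc]
    exact hz3
  have h2 : (χ : G → ℂ) (z * z) = (c : ℂ) := by
    rw [← hi1, ← char_conj_eq_inv hχc, hc', Complex.conj_ofReal]
  have h3 : (χ : G → ℂ) (oo nn g * z * (oo nn g)⁻¹) = (c : ℂ) := by
    rw [CharBasic.char_apply_conj hχc, hc']
  have hu : (nn g)⁻¹ * z * (nn g)⁻¹⁻¹ ∈ H := X.hF.hN _ (N.inv_mem (X.hC.hnn g)) _ X.hzH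
  have hzz : z * z ≠ 1 := by
    intro h
    apply X.z1
    rw [← hi1] at h
    exact inv_eq_one.1 h
  have h4 : (χ : G → ℂ) (z * (oo nn g * z * (oo nn g)⁻¹)) = (c : ℂ) := by
    have h5 := X.hC.hk g _ hu z X.hzH (by
      have e : nn g * ((nn g)⁻¹ * z * (nn g)⁻¹⁻¹) * (nn g)⁻¹ = z := by group
      rw [e]
      exact hzz) χ ((mem_BF M).1 hχ)
    have e : nn g * ((nn g)⁻¹ * z * (nn g)⁻¹⁻¹) * (nn g)⁻¹ = z := by group
    rw [e, h2] at h5
    rw [← h5]
    unfold oo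
    group
  have h := XcoPsd.re_ge_order_three χ.2 hz3 hc' h2 h3 h4
  rw [inv_inv, hi1]
  linarith

theorem ne_of_exp (hz : orderOf z = p) {x y : G} {a b : ℤ} (hx : x = z ^ a) (hy : y = z ^ b)
    (h : a ≠ b) (h1 : a - b < p) (h2 : b - a < p) : x ≠ y := by
  rw [hx, hy]
  intro e
  have h3 : z ^ (a - b) = 1 := by rw [zpow_sub, e, mul_inv_cancel]
  have h4 : (orderOf z : ℤ) ∣ a - b := orderOf_dvd_iff_zpow_eq_one.2 h3
  rw [hz] at h4
  have := Int.eq_zero_of_abs_lt_dvd h4 (by rw [abs_lt]; constructor <;> omega)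
  omega

theorem dvd_exp (hz : orderOf z = p) {a b : ℤ} (h : z ^ a = z ^ b) : (p : ℤ) ∣ a - b := by
  have h3 : z ^ (a - b) = 1 := by rw [zpow_sub, h, mul_inv_cancel]
  have h4 : (orderOf z : ℤ) ∣ a - b := orderOf_dvd_iff_zpow_eq_one.2 h3
  rwa [hz] at h4

theorem zpow_eq_of_dvd (hz : orderOf z = p) {a b : ℤ} (h : (p : ℤ) ∣ a - b) : z ^ a = z ^ b := by
  rw [← hz] at h
  have h3 : z ^ (a - b) = 1 := orderOf_dvd_iff_zpow_eq_one.1 h
  rw [zpow_sub, mul_inv_eq_one] at h3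
  exact h3

/-- The subgroup generated by `z` as a finset. -/
theorem exists_ZF (z : G) : ∃ ZF : Finset G, (∀ t, t ∈ ZF ↔ t ∈ Subgroup.zpowers z) ∧ ZF.card = orderOf z ∧
    ∀ f : G → ℂ, ∑ a ∈ ZF, f a = ∑ k ∈ Finset.range (orderOf z), f (z ^ k) := by
  classical
  have hinj : Set.InjOn (fun k : ℕ => z ^ k) (Finset.range (orderOf z) : Set ℕ) := by
    intro a ha b hb h
    exact pow_injOn_Iio_orderOf (by simpa using ha) (by simpa using hb) h
  refine ⟨(Finset.range (orderOf z)).image (fun k => z ^ k), fun t => ?_, ?_, fun f => ?_⟩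
  · rw [mem_zpowers_iff_mem_range_orderOf]
  · rw [Finset.card_image_of_injOn hinj, Finset.card_range]
  · rw [Finset.sum_image hinj]

theorem Ctx.inv_ne (X : Ctx p M H N nn z HF) : z ≠ z⁻¹ := by
  have h := X.hzo
  have hp3 := X.p3
  exact ne_of_exp h (a := 1) (b := -1) (by group) (by group) (by norm_num) (by omega) (by omega)

/-- The non-real case. -/
theorem Ctx.false_nonreal (X : Ctx p M H N nn z HF) (hW2 : 2 ≤ (HF.filter (fun a => IsConj z a)).card)
    (hnr : z⁻¹ ∉ HF.filter (fun a => IsConj z a)) : False := by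
  apply X.false_of_good hW2 (H.inv_mem X.hzH) 1 1
  · intro n h
    apply X.z1
    simp only [OneMemClass.coe_one, one_mul, inv_one, mul_one, mul_inv_cancel] at h
    simpa using h
  · intro n h
    apply X.z1
    simp only [OneMemClass.coe_one, one_mul, inv_one, mul_one, mul_inv_cancel] at h
    simpa using h
  · intro m h
    apply hnr
    rw [X.mem_W]
    refine ⟨m⁻¹, ?_⟩
    have e : (m : G)⁻¹ * z * (m : G) = z⁻¹ := by
      conv_lhs => rw [← h]
      group
    simpa using e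

/-- Elements of `H` squaring to `1` are trivial. -/
theorem Ctx.eq_one_of_sq (X : Ctx p M H N nn z HF) {x : G} (hx : x ∈ H) (h : x * x = 1) : x = 1 := by
  obtain ⟨k, hk⟩ := pelt_of_mem X.hF X.pp hx
  have h1 : orderOf x ∣ 2 := orderOf_dvd_of_pow_eq_one (by rw [sq]; exact h)
  have h2 : p ^ k ∣ 2 := hk ▸ h1
  cases k with
  | zero => simpa using hk
  | succ k =>
    exfalso
    have h3 : p ∣ 2 := (dvd_pow_self p (by omega)).trans h2
    have h4 := (Nat.prime_dvd_prime_iff_eq X.pp Nat.prime_two).1 h3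
    exact X.hp2 h4

/-- `W` is closed under inversion when it contains `z⁻¹`. -/
theorem Ctx.inv_mem_W (X : Ctx p M H N nn z HF) (hr : z⁻¹ ∈ HF.filter (fun a => IsConj z a)) {a : G}
    (ha : a ∈ HF.filter (fun a => IsConj z a)) : a⁻¹ ∈ HF.filter (fun a => IsConj z a) := by
  rw [X.mem_W] at ha hr ⊢
  obtain ⟨m, rfl⟩ := ha
  obtain ⟨n, hn⟩ := hr
  refine ⟨m * n, ?_⟩
  have e : (((m * n : N) : G)) * z * ((m * n : N) : G)⁻¹ = (m : G) * ((n : G) * z * (n : G)⁻¹) * (m : G)⁻¹ := by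
    push_cast
    group
  rw [e, hn]
  group

theorem Ctx.real_val (X : Ctx p M H N nn z HF) (hr : z⁻¹ ∈ HF.filter (fun a => IsConj z a))
    (χ : IrrCharacter G) : ((χ : G → ℂ) z).im = 0 := by
  have hχc := IsIrrCharacter.isCharacter χ.2
  have h0 : IsConj z z⁻¹ := (Finset.mem_filter.1 hr).2
  have h1 := NilClosedChar.char_eq_of_isConj hχc h0
  rw [← char_conj_eq_inv hχc] at h1
  exact Complex.conj_eq_iff_im.1 h1.symm

/-- Large `W`. -/
theorem Ctx.false_large (X : Ctx p M H N nn z HF) (hr : z⁻¹ ∈ HF.filter (fun a => IsConj z a))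
    (hW5 : 5 ≤ (HF.filter (fun a => IsConj z a)).card) : False := by
  apply false_of_bound X.hM X.hF X.hC X.hzH X.z1 X.hHF le_rfl (fun m => X.hF.hN _ m.2 _ X.hzH) (by omega)
  intro χ hχ hne h0
  have h1 := X.bound_four hχ hne (X.real_val hr χ) X.hHF le_rfl (fun m => X.hF.hN _ m.2 _ X.hzH)
  have hR : (5 : ℝ) ≤ ((HF.filter (fun a => IsConj z a)).card : ℝ) := by exact_mod_cast hW5
  linarith

/-- The filter contains at least two elements. -/
theorem two_le_filter {AF : Finset G} {z : G} (hne : z ≠ z⁻¹) (h1 : z ∈ AF) (h2 : z⁻¹ ∈ AF)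
    (hc : IsConj z z⁻¹) : 2 ≤ (AF.filter (fun a => IsConj z a)).card := by
  have : 1 < (AF.filter (fun a => IsConj z a)).card :=
    Finset.one_lt_card.2 ⟨z, Finset.mem_filter.2 ⟨h1, IsConj.refl z⟩, z⁻¹, Finset.mem_filter.2 ⟨h2, hc⟩, hne⟩
  omega

theorem Ctx.pair (X : Ctx p M H N nn z HF) (hr : z⁻¹ ∈ HF.filter (fun a => IsConj z a))
    (hW : (HF.filter (fun a => IsConj z a)).card = 2) (m : N) :
    (m : G) * z * (m : G)⁻¹ = z ∨ (m : G) * z * (m : G)⁻¹ = z⁻¹ := by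
  have hzW : z ∈ HF.filter (fun a => IsConj z a) :=
    Finset.mem_filter.2 ⟨(X.hHF z).2 X.hzH, IsConj.refl z⟩
  have hsub : ({z, z⁻¹} : Finset G) ⊆ HF.filter (fun a => IsConj z a) := by
    intro a ha
    simp only [Finset.mem_insert, Finset.mem_singleton] at ha
    rcases ha with rfl | rfl
    · exact hzW
    · exact hr
  have heq := Finset.eq_of_subset_of_card_le hsub (by
    rw [hW, Finset.card_pair X.inv_ne])
  have hm : (m : G) * z * (m : G)⁻¹ ∈ HF.filter (fun a => IsConj z a) := X.mem_W.2 ⟨m, rfl⟩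
  rw [← heq] at hm
  simpa using hm

/-- `p = 3`. -/
theorem Ctx.false_three (X : Ctx p M H N nn z HF) (hp3 : p = 3)
    (hr : z⁻¹ ∈ HF.filter (fun a => IsConj z a))
    (hW2 : 2 ≤ (HF.filter (fun a => IsConj z a)).card) : False := by
  have hz3 : z * z * z = 1 := by
    have h := pow_orderOf_eq_one z
    rw [X.hzo, hp3] at h
    rw [← h, pow_succ, pow_two]
  have hconj : IsConj z z⁻¹ := (Finset.mem_filter.1 hr).2
  by_cases h2 : (HF.filter (fun a => IsConj z a)).card = 2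
  · obtain ⟨ZF, hZF, hcard, hsum⟩ := exists_ZF z
    have hZH : Subgroup.zpowers z ≤ H := by
      rw [Subgroup.zpowers_le]
      exact X.hzH
    have hzB : ∀ m : N, (m : G) * z * (m : G)⁻¹ ∈ Subgroup.zpowers z := by
      intro m
      rcases X.pair hr h2 m with h | h <;> rw [h]
      · exact Subgroup.mem_zpowers z
      · exact Subgroup.inv_mem _ (Subgroup.mem_zpowers z)
    have hall : ∀ a ∈ ZF, a ≠ 1 → IsConj z a := by
      intro a ha ha1
      rw [hZF, mem_zpowers_iff_mem_range_orderOf, X.hzo, hp3] at ha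
      simp only [Finset.mem_image, Finset.mem_range] at ha
      obtain ⟨k, hk, rfl⟩ := ha
      interval_cases k
      · simp at ha1
      · simp only [pow_one]
        exact IsConj.refl z
      · have : z ^ 2 = z⁻¹ := by
          rw [eq_inv_iff_mul_eq_one, sq]
          exact hz3
        rw [this]
        exact hconj
    have hz_mem : z ∈ ZF := (hZF z).2 (Subgroup.mem_zpowers z)
    have hzi_mem : z⁻¹ ∈ ZF := (hZF _).2 (Subgroup.inv_mem _ (Subgroup.mem_zpowers z))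
    have hF2 := two_le_filter X.inv_ne hz_mem hzi_mem hconj
    apply false_of_int X.hM X.hF X.hC X.hzH X.z1 hZF hZH hzB (Subgroup.mem_zpowers z) hall hF2
    intro χ hχ hne h0
    have h1 := X.bound_two hz3 hχ hne (X.real_val hr χ) hZF hZH hzB
    have hR : (2 : ℝ) ≤ ((ZF.filter (fun a => IsConj z a)).card : ℝ) := by exact_mod_cast hF2
    linarith
  · have h3 : 3 ≤ (HF.filter (fun a => IsConj z a)).card := by omega
    apply false_of_bound X.hM X.hF X.hC X.hzH X.z1 X.hHF le_rfl (fun m => X.hF.hN _ m.2 _ X.hzH) (by omega)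
    intro χ hχ hne h0
    have h1 := X.bound_two hz3 hχ hne (X.real_val hr χ) X.hHF le_rfl (fun m => X.hF.hN _ m.2 _ X.hzH)
    have hR : (3 : ℝ) ≤ ((HF.filter (fun a => IsConj z a)).card : ℝ) := by exact_mod_cast h3
    linarith

/-- `|W| = 2`, `p ≥ 7`. -/
theorem Ctx.false_two_large (X : Ctx p M H N nn z HF) (hp7 : 7 ≤ p)
    (hr : z⁻¹ ∈ HF.filter (fun a => IsConj z a))
    (hW : (HF.filter (fun a => IsConj z a)).card = 2) : False := by
  have hzo := X.hzo
  obtain ⟨n₀, hn₀⟩ := X.mem_W.1 hr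
  have hpow : ∀ m : N, (m : G) * z ^ 3 * (m : G)⁻¹ = z ^ 3 ∨ (m : G) * z ^ 3 * (m : G)⁻¹ = (z⁻¹) ^ 3 := by
    intro m
    rcases X.pair hr hW m with h | h
    · left
      rw [← conj_pow, h]
    · right
      rw [← conj_pow, h]
  have hp7' : (7 : ℤ) ≤ p := by exact_mod_cast hp7
  apply X.false_of_good (by omega) (H.pow_mem X.hzH 3) n₀ 1
  · intro n
    rw [hn₀]
    simp only [OneMemClass.coe_one, one_mul, inv_one, mul_one]
    rcases X.pair hr hW n with h | h <;> rw [h]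
    · exact ne_of_exp hzo (a := 1) (b := 2) (by group) (by group) (by norm_num) (by omega) (by omega)
    · exact ne_of_exp hzo (a := -1) (b := 2) (by group) (by group) (by norm_num) (by omega) (by omega)
  · intro m
    rw [hn₀]
    simp only [OneMemClass.coe_one, one_mul, inv_one, mul_one]
    rcases hpow m with h | h <;> rw [h]
    · exact ne_of_exp hzo (a := 3) (b := 2) (by group) (by group) (by norm_num) (by omega) (by omega)
    · exact ne_of_exp hzo (a := -3) (b := 2) (by group) (by group) (by norm_num) (by omega) (by omega)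
  · intro m
    rcases hpow m with h | h <;> rw [h]
    · exact ne_of_exp hzo (a := 3) (b := 1) (by group) (by group) (by norm_num) (by omega) (by omega)
    · exact ne_of_exp hzo (a := -3) (b := 1) (by group) (by group) (by norm_num) (by omega) (by omega)

end Cfsg.Agent.Lib.XcoCases
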