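import Mathlib
import Cfsg.Agent.Lib.XcoCases

/-!
# The numerical case analysis, part two
-/

set_option autoImplicit false
set_option linter.style.haveILetI false
set_option linter.unusedSectionVars false
set_option linter.unusedVariables false

namespace Cfsg.Agent.Lib.XcoCases2

open Module Cfsg Cfsg.Agent.Lib Cfsg.Agent.Lib.CharBasic Cfsg.Agent.Lib.BlockNormal
open Cfsg.Agent.Lib.BlockSection Cfsg.Agent.Lib.BlockLocal Cfsg.Agent.Lib.BlockIdem
open Cfsg.Agent.Lib.XcoAlg Cfsg.Agent.Lib.XcoChar Cfsg.Agent.Lib.XcoCases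
open scoped ComplexConjugate

universe u

variable {G : Type u} [Group G] [Fintype G] [DecidableEq G]
variable {p : ℕ} {M : Ideal AlgInt} {H N : Subgroup G} [Fintype N] {nn : G → G}
variable {z : G} {HF : Finset G}

/-- `|W| = 2`, `p = 5`. -/
theorem false_two_five (X : Ctx p M H N nn z HF) (hp5 : p = 5)
    (hr : z⁻¹ ∈ HF.filter (fun a => IsConj z a))
    (hW : (HF.filter (fun a => IsConj z a)).card = 2) : False := by
  have hzo := X.hzo
  have hz5 : z ^ 5 = 1 := by
    have h := pow_orderOf_eq_one z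
    rwa [hzo, hp5] at h
  obtain ⟨n₀, hn₀⟩ := X.mem_W.1 hr
  obtain ⟨ZF, hZF, hcard, hsum⟩ := exists_ZF z
  have hZH : Subgroup.zpowers z ≤ H := by
    rw [Subgroup.zpowers_le]
    exact X.hzH
  have hzB : ∀ m : N, (m : G) * z * (m : G)⁻¹ ∈ Subgroup.zpowers z := by
    intro m
    rcases X.pair hr hW m with h | h <;> rw [h]
    · exact Subgroup.mem_zpowers z
    · exact Subgroup.inv_mem _ (Subgroup.mem_zpowers z)
  have hconj : IsConj z z⁻¹ := (Finset.mem_filter.1 hr).2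
  have hz_mem : z ∈ ZF := (hZF z).2 (Subgroup.mem_zpowers z)
  have hzi_mem : z⁻¹ ∈ ZF := (hZF _).2 (Subgroup.inv_mem _ (Subgroup.mem_zpowers z))
  have hF2 := two_le_filter X.inv_ne hz_mem hzi_mem hconj
  apply false_of_bound X.hM X.hF X.hC X.hzH X.z1 hZF hZH hzB hF2
  intro χ hχ hne h0
  have hχc := IsIrrCharacter.isCharacter χ.2
  have hR : (2 : ℝ) ≤ ((ZF.filter (fun a => IsConj z a)).card : ℝ) := by exact_mod_cast hF2
  have A := Ch.alg X.hF X.hC ((mem_BF M).1 hχ)
  set V := VV (χ : G → ℂ) with hV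
  have hz2 : z ^ 2 ∈ H := H.pow_mem X.hzH 2
  -- the conjugate values
  have hV1 : V z⁻¹ = V z := by
    rw [← hn₀]
    exact A.hVN _ n₀.2 _
  have hV2 : V (z⁻¹ ^ 2) = V (z ^ 2) := by
    have e : (n₀ : G) * z ^ 2 * (n₀ : G)⁻¹ = z⁻¹ ^ 2 := by
      rw [← hn₀, conj_pow]
    rw [← e]
    exact A.hVN _ n₀.2 _
  have e3 : z * z ^ 2 = z⁻¹ ^ 2 := by
    rw [eq_comm, inv_pow, inv_eq_iff_mul_eq_one, ← hz5]
    group
  have e4 : z * z⁻¹ ^ 2 = z⁻¹ := by group
  have hpair : ∀ m : N, (V (z * ((m : G) * z ^ 2 * (m : G)⁻¹)) = V (z ^ 2) ∧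
        V (z * (((n₀ * m : N) : G) * z ^ 2 * ((n₀ * m : N) : G)⁻¹)) = V z) ∨
      (V (z * ((m : G) * z ^ 2 * (m : G)⁻¹)) = V z ∧
        V (z * (((n₀ * m : N) : G) * z ^ 2 * ((n₀ * m : N) : G)⁻¹)) = V (z ^ 2)) := by
    intro m
    have e5 : ((n₀ * m : N) : G) * z ^ 2 * ((n₀ * m : N) : G)⁻¹ =
        (n₀ : G) * ((m : G) * z ^ 2 * (m : G)⁻¹) * (n₀ : G)⁻¹ := by
      push_cast
      group
    have e6 : (n₀ : G) * z ^ 2 * (n₀ : G)⁻¹ = z⁻¹ ^ 2 := by
      rw [← hn₀, conj_pow]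
    have e7 : (n₀ : G) * z⁻¹ ^ 2 * (n₀ : G)⁻¹ = z ^ 2 := by
      have : (n₀ : G) * z⁻¹ * (n₀ : G)⁻¹ = z := by
        have : (n₀ : G) * z⁻¹ * (n₀ : G)⁻¹ = ((n₀ : G) * z * (n₀ : G)⁻¹)⁻¹ := by group
        rw [this, hn₀, inv_inv]
      rw [← conj_pow, this]
    rw [e5]
    rcases X.pair hr hW m with h | h
    · left
      have e8 : (m : G) * z ^ 2 * (m : G)⁻¹ = z ^ 2 := by rw [← conj_pow, h]
      rw [e8, e6, e3, e4, hV1, hV2]
      exact ⟨rfl, rfl⟩
    · right
      have e8 : (m : G) * z ^ 2 * (m : G)⁻¹ = z⁻¹ ^ 2 := by rw [← conj_pow, h]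
      rw [e8, e7, e3, e4, hV1, hV2]
      exact ⟨rfl, rfl⟩
  have hcnt : cnt N z (z ^ 2) = 0 := by
    by_contra h
    obtain ⟨m, hm⟩ := cnt_ne_zero_iff.1 h
    rcases X.pair hr hW m with h | h
    · have e8 : (m : G) * z ^ 2 * (m : G)⁻¹ = z ^ 2 := by rw [← conj_pow, h]
      rw [e8] at hm
      have : z ^ (3 : ℤ) = z ^ (0 : ℤ) := by
        rw [zpow_zero, ← hm]
        group
      have h3 := dvd_exp hzo this
      rw [hp5] at h3
      norm_num at h3
    · have e8 : (m : G) * z ^ 2 * (m : G)⁻¹ = z⁻¹ ^ 2 := by rw [← conj_pow, h]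
      rw [e8, e4] at hm
      exact X.z1 (inv_eq_one.1 hm)
  have hrel := A.rel z X.hzH _ hz2
  rw [hcnt, zero_mul, sub_zero] at hrel
  have hN0 : (Nat.card N : ℂ) ≠ 0 := by exact_mod_cast Nat.card_pos.ne'
  have hsym : (2 : ℂ) * ∑ m : N, V (z * ((m : G) * z ^ 2 * (m : G)⁻¹)) = (Nat.card N : ℂ) * (V z + V (z ^ 2)) := by
    have h1 := sum_N_left (fun m : N => V (z * ((m : G) * z ^ 2 * (m : G)⁻¹))) n₀
    have h2 : ∑ m : N, (V (z * ((m : G) * z ^ 2 * (m : G)⁻¹)) +
        V (z * (((n₀ * m : N) : G) * z ^ 2 * ((n₀ * m : N) : G)⁻¹))) =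
        ∑ m : N, (V z + V (z ^ 2)) := by
      refine Finset.sum_congr rfl fun m _ => ?_
      rcases hpair m with ⟨h, h'⟩ | ⟨h, h'⟩ <;> rw [h, h']
      · ring
    rw [Finset.sum_add_distrib, h1] at h2
    rw [two_mul, h2]
    simp [Nat.card_eq_fintype_card]
    ring
  have hkey : (2 : ℂ) * (V z * V (z ^ 2)) = V z + V (z ^ 2) := by
    apply mul_left_cancel₀ hN0
    rw [← hsym, ← hrel]
    ring
  -- the sum
  have hrr : rr V ZF = 1 + 2 * V z + 2 * V (z ^ 2) := by
    unfold rr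
    rw [hsum, hzo, hp5]
    simp only [Finset.sum_range_succ, Finset.range_zero, Finset.sum_empty, zero_add, pow_zero, pow_one]
    have e1 : z ^ 3 = z⁻¹ ^ 2 := by rw [← e3]; group
    have e2 : z ^ 4 = z⁻¹ := by
      rw [eq_inv_iff_mul_eq_one, ← hz5]
      group
    rw [e1, e2, hV1, hV2, A.hV1]
    ring
  -- real parts
  have hreal : ((χ : G → ℂ) z).im = 0 := X.real_val hr χ
  have hreal2 : ((χ : G → ℂ) (z ^ 2)).im = 0 := by
    have e : IsConj (z ^ 2) (z ^ 2)⁻¹ := by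
      refine isConj_iff.2 ⟨n₀, ?_⟩
      rw [← conj_pow, hn₀, inv_pow]
    have h1 := NilClosedChar.char_eq_of_isConj hχc e
    rw [← char_conj_eq_inv hχc] at h1
    exact Complex.conj_eq_iff_im.1 h1.symm
  have hlt := X.re_lt hne hreal
  have hle2 : ((χ : G → ℂ) (z ^ 2)).re ≤ ((χ : G → ℂ) 1).re :=
    (le_abs_self _).trans (NilClosedChar.abs_re_le_one_re hχc _)
  have hd0 : (0 : ℝ) < ((χ : G → ℂ) 1).re := by
    obtain ⟨d, hd, hd'⟩ := CharAvg.irr_one_eq χ.2
    rw [hd']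
    simp
    omega
  have hd1 : (χ : G → ℂ) 1 = (((χ : G → ℂ) 1).re : ℂ) := by
    apply NilClosedChar.eq_ofReal_re_of_im
    obtain ⟨d, -, hd⟩ := CharAvg.irr_one_eq χ.2
    rw [hd]
    simp
  set d := ((χ : G → ℂ) 1).re with hd
  set c₁ := ((χ : G → ℂ) z).re with hc₁
  set c₂ := ((χ : G → ℂ) (z ^ 2)).re with hc₂
  have hv : V z = ((c₁ / d : ℝ) : ℂ) := by
    rw [hV]
    unfold VV
    rw [hd1, NilClosedChar.eq_ofReal_re_of_im hreal]
    push_cast
    rfl
  have hw : V (z ^ 2) = ((c₂ / d : ℝ) : ℂ) := by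
    rw [hV]
    unfold VV
    rw [hd1, NilClosedChar.eq_ofReal_re_of_im hreal2]
    push_cast
    rfl
  set v := c₁ / d with hvd
  set w := c₂ / d with hwd
  have hv1 : v < 1 := (div_lt_one hd0).2 hlt
  have hw1 : w ≤ 1 := (div_le_one hd0).2 hle2
  rw [hv, hw] at hkey
  have hkey' : 2 * (v * w) = v + w := by exact_mod_cast hkey
  rw [hrr, hv, hw]
  have hrre : ((1 : ℂ) + 2 * (v : ℂ) + 2 * (w : ℂ)).re = 1 + 2 * v + 2 * w := by simp
  rw [hrre]
  have hvw : v * w ≤ 0 := by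
    by_contra hpos
    push Not at hpos
    rcases lt_trichotomy v 0 with h | h | h
    · have hw0 : w < 0 := by
        by_contra hw0
        push Not at hw0
        nlinarith
      nlinarith
    · rw [h] at hpos
      simp at hpos
    · have hw0 : 0 < w := by
        by_contra hw0
        push Not at hw0
        nlinarith
      nlinarith [mul_pos hw0 (sub_pos.2 hv1), mul_nonneg h.le (sub_nonneg.2 hw1)]
  linarith

/-- The structure of `W` for cardinalities `3` and `4`. -/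
theorem four (X : Ctx p M H N nn z HF) (hr : z⁻¹ ∈ HF.filter (fun a => IsConj z a))
    (hW : (HF.filter (fun a => IsConj z a)).card = 3 ∨ (HF.filter (fun a => IsConj z a)).card = 4) :
    (HF.filter (fun a => IsConj z a)).card = 4 ∧ ∃ b ∈ HF.filter (fun a => IsConj z a), b ≠ z ∧ b ≠ z⁻¹ ∧
      ∀ m : N, (m : G) * z * (m : G)⁻¹ = z ∨ (m : G) * z * (m : G)⁻¹ = z⁻¹ ∨
        (m : G) * z * (m : G)⁻¹ = b ∨ (m : G) * z * (m : G)⁻¹ = b⁻¹ := by
  set W := HF.filter (fun a => IsConj z a) with hWd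
  have hzW : z ∈ W := Finset.mem_filter.2 ⟨(X.hHF z).2 X.hzH, IsConj.refl z⟩
  have h2 : ({z, z⁻¹} : Finset G).card < W.card := by
    rw [Finset.card_pair X.inv_ne]
    omega
  obtain ⟨b, hb, hb'⟩ := Finset.exists_mem_notMem_of_card_lt_card h2
  simp only [Finset.mem_insert, Finset.mem_singleton, not_or] at hb'
  obtain ⟨hb1, hb2⟩ := hb'
  have hbH : b ∈ H := (X.hHF b).1 (Finset.mem_filter.1 hb).1
  have hbi : b⁻¹ ∈ W := X.inv_mem_W hr hb
  have hbb : b ≠ b⁻¹ := by
    intro h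
    have h1 : b = 1 := X.eq_one_of_sq hbH (by
      nth_rw 1 [h]
      exact inv_mul_cancel b)
    rw [h1] at hb
    have := (Finset.mem_filter.1 hb).2
    exact X.z1 (isConj_one_right.1 this.symm)
  have hb3 : b⁻¹ ≠ z := fun h => hb2 (by rw [← h, inv_inv])
  have hb4 : b⁻¹ ≠ z⁻¹ := fun h => hb1 (inv_injective h)
  have hsub : ({z, z⁻¹, b, b⁻¹} : Finset G) ⊆ W := by
    intro a ha
    simp only [Finset.mem_insert, Finset.mem_singleton] at ha
    rcases ha with rfl | rfl | rfl | rfl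
    · exact hzW
    · exact hr
    · exact hb
    · exact hbi
  have hc : ({z, z⁻¹, b, b⁻¹} : Finset G).card = 4 := by
    rw [Finset.card_insert_of_notMem, Finset.card_insert_of_notMem, Finset.card_pair hbb]
    · simp only [Finset.mem_insert, Finset.mem_singleton, not_or]
      exact ⟨Ne.symm hb2, Ne.symm hb4⟩
    · simp only [Finset.mem_insert, Finset.mem_singleton, not_or]
      exact ⟨X.inv_ne, Ne.symm hb1, Ne.symm hb3⟩
  have h4 := Finset.card_le_card hsub
  rw [hc] at h4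
  have hc4 : W.card = 4 := by omega
  refine ⟨hc4, b, hb, hb1, hb2, fun m => ?_⟩
  have heq := Finset.eq_of_subset_of_card_le hsub (by rw [hc, hc4])
  have hm : (m : G) * z * (m : G)⁻¹ ∈ W := X.mem_W.2 ⟨m, rfl⟩
  rw [← heq] at hm
  simpa using hm

/-- The property forced on the elements of `W`. -/
theorem P_of (X : Ctx p M H N nn z HF) (hW2 : 2 ≤ (HF.filter (fun a => IsConj z a)).card)
    (hz2 : z ^ 2 ∉ HF.filter (fun a => IsConj z a)) {b : G} (hb : b ∈ HF.filter (fun a => IsConj z a))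
    (hb1 : b ≠ z) (hb2 : b ≠ z⁻¹)
    (hW : ∀ m : N, (m : G) * z * (m : G)⁻¹ = z ∨ (m : G) * z * (m : G)⁻¹ = z⁻¹ ∨
        (m : G) * z * (m : G)⁻¹ = b ∨ (m : G) * z * (m : G)⁻¹ = b⁻¹) :
    b = z ^ (-3 : ℤ) ∨ b = z ^ (-4 : ℤ) ∨ b ^ 3 = z ^ (-2 : ℤ) := by
  by_contra hcon
  push Not at hcon
  obtain ⟨h3, h4, h5⟩ := hcon
  obtain ⟨n₀, hn₀⟩ := X.mem_W.1 hb
  have hbH : b ∈ H := (X.hHF b).1 (Finset.mem_filter.1 hb).1
  have hc : b * z = z * b := X.hF.hab _ hbH _ X.hzH
  apply X.false_of_good hW2 (u := z ^ 2) (H.pow_mem X.hzH 2) n₀ 1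
  · intro n
    rw [hn₀]
    simp only [OneMemClass.coe_one, one_mul, inv_one, mul_one]
    intro e
    rcases hW n with h | h | h | h <;> rw [h] at e
    · apply hb2
      have : b = z * (z ^ 2)⁻¹ := eq_mul_inv_of_mul_eq e.symm
      rw [this]
      group
    · apply h3
      have : b = z⁻¹ * (z ^ 2)⁻¹ := eq_mul_inv_of_mul_eq e.symm
      rw [this]
      group
    · have h1 : z ^ 2 = 1 := by
        have : b * z ^ 2 = b * 1 := by rw [← e, mul_one]
        exact mul_left_cancel this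
      exact X.z1 (X.eq_one_of_sq X.hzH (by rw [← sq]; exact h1))
    · have h1 : b * z = 1 := by
        apply X.eq_one_of_sq (H.mul_mem hbH X.hzH)
        calc b * z * (b * z) = b * (z * b) * z := by group
          _ = b * (b * z) * z := by rw [hc]
          _ = b * (b * z ^ 2) := by simp only [sq, mul_assoc]
          _ = 1 := by rw [← e]; group
      apply hb2
      exact eq_inv_of_mul_eq_one_left h1
  · intro m
    rw [hn₀]
    simp only [OneMemClass.coe_one, one_mul, inv_one, mul_one]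
    rw [← conj_pow]
    intro e
    rcases hW m with h | h | h | h <;> rw [h] at e
    · have h1 : b = 1 := by
        have : b * z ^ 2 = 1 * z ^ 2 := by rw [← e, one_mul]
        exact mul_right_cancel this
      rw [h1] at hb
      have := (Finset.mem_filter.1 hb).2
      exact X.z1 (isConj_one_right.1 this.symm)
    · apply h4
      have : b = z⁻¹ ^ 2 * (z ^ 2)⁻¹ := eq_mul_inv_of_mul_eq e.symm
      rw [this]
      group
    · apply hz2
      have h1 : b = z ^ 2 := by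
        have : b * b = b * z ^ 2 := by rw [← e, sq]
        exact mul_left_cancel this
      rw [← h1]
      exact hb
    · apply h5
      have h1 : b ^ 3 * z ^ 2 = 1 := by
        calc b ^ 3 * z ^ 2 = b ^ 2 * (b * z ^ 2) := by group
          _ = 1 := by rw [← e]; group
      have h2 : b ^ 3 = (z ^ 2)⁻¹ := eq_inv_of_mul_eq_one_left h1
      rw [h2]
      group
  · intro m e
    apply hz2
    rw [X.mem_W]
    refine ⟨m⁻¹, ?_⟩
    have e2 : (m : G)⁻¹ * z * (m : G) = z ^ 2 := by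
      conv_lhs => rw [← e]
      group
    simpa using e2

/-- `W` is stable under `N`. -/
theorem conj_mem_W (X : Ctx p M H N nn z HF) {a : G} (ha : a ∈ HF.filter (fun a => IsConj z a)) (m : N) :
    (m : G) * a * (m : G)⁻¹ ∈ HF.filter (fun a => IsConj z a) := by
  obtain ⟨n, rfl⟩ := X.mem_W.1 ha
  refine X.mem_W.2 ⟨m * n, ?_⟩
  push_cast
  group

/-- Small primes. -/
theorem eq_of_dvd_int (hp : p.Prime) (hp5 : 5 ≤ p) {k : ℕ} (h : (p : ℤ) ∣ (k : ℤ)) (hk : 0 < k) :
    p ∣ k ∧ p ≤ k := by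
  have h1 : p ∣ k := by exact_mod_cast h
  exact ⟨h1, Nat.le_of_dvd hk h1⟩

/-- The case `z³ ∈ W` with `z⁹ = z^{±2}`. -/
theorem false_z3 (X : Ctx p M H N nn z HF) (hr : z⁻¹ ∈ HF.filter (fun a => IsConj z a))
    (hz2 : z ^ 2 ∉ HF.filter (fun a => IsConj z a)) (h3 : z ^ (3 : ℤ) ∈ HF.filter (fun a => IsConj z a))
    (h9 : z ^ (9 : ℤ) = z ^ (2 : ℤ) ∨ z ^ (9 : ℤ) = z ^ (-2 : ℤ)) : False := by
  obtain ⟨n, hn⟩ := X.mem_W.1 h3
  have h4 := conj_mem_W X h3 n
  have e : (n : G) * z ^ (3 : ℤ) * (n : G)⁻¹ = z ^ (9 : ℤ) := by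
    have e1 : (n : G) * z ^ (3 : ℤ) * (n : G)⁻¹ = ((n : G) * z * (n : G)⁻¹) ^ (3 : ℤ) := by
      rw [conj_zpow]
    rw [e1, hn, ← zpow_mul]
    rfl
  rw [e] at h4
  apply hz2
  rcases h9 with h | h
  · rw [h] at h4
    have : z ^ 2 = z ^ (2 : ℤ) := by group
    rwa [this]
  · rw [h] at h4
    have h5 := X.inv_mem_W hr h4
    have : z ^ 2 = (z ^ (-2 : ℤ))⁻¹ := by group
    rwa [this]

/-- The case `z² ∈ W`, `|W| = 4`. -/
theorem false_z2 (X : Ctx p M H N nn z HF) (hp5 : 5 ≤ p) (hr : z⁻¹ ∈ HF.filter (fun a => IsConj z a))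
    (hc4 : (HF.filter (fun a => IsConj z a)).card = 4) (hz2 : z ^ 2 ∈ HF.filter (fun a => IsConj z a))
    {b : G} (hb : b ∈ HF.filter (fun a => IsConj z a)) (hb1 : b ≠ z) (hb2 : b ≠ z⁻¹)
    (hW : ∀ m : N, (m : G) * z * (m : G)⁻¹ = z ∨ (m : G) * z * (m : G)⁻¹ = z⁻¹ ∨
        (m : G) * z * (m : G)⁻¹ = b ∨ (m : G) * z * (m : G)⁻¹ = b⁻¹) : False := by
  have hzo := X.hzo
  have hpp := X.pp
  have hp5' : (5 : ℤ) ≤ p := by exact_mod_cast hp5
  obtain ⟨n, hn⟩ := X.mem_W.1 hz2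
  -- `b` or its inverse is `z²`
  have hbz : b = z ^ 2 ∨ b⁻¹ = z ^ 2 := by
    rcases hW n with h | h | h | h <;> rw [hn] at h
    · exfalso
      exact ne_of_exp hzo (a := 2) (b := 1) (by group) (by group) (by norm_num) (by omega) (by omega) h
    · exfalso
      exact ne_of_exp hzo (a := 2) (b := -1) (by group) (by group) (by norm_num) (by omega) (by omega) h
    · exact Or.inl h.symm
    · exact Or.inr h.symm
  have hWz : ∀ m : N, (m : G) * z * (m : G)⁻¹ = z ^ (1 : ℤ) ∨ (m : G) * z * (m : G)⁻¹ = z ^ (-1 : ℤ) ∨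
      (m : G) * z * (m : G)⁻¹ = z ^ (2 : ℤ) ∨ (m : G) * z * (m : G)⁻¹ = z ^ (-2 : ℤ) := by
    intro m
    have e1 : z ^ (1 : ℤ) = z := by group
    have e2 : z ^ (-1 : ℤ) = z⁻¹ := by group
    have e3 : z ^ (2 : ℤ) = z ^ 2 := by group
    have e4 : z ^ (-2 : ℤ) = (z ^ 2)⁻¹ := by group
    rw [e1, e2, e3, e4]
    rcases hW m with h | h | h | h
    · exact Or.inl h
    · exact Or.inr (Or.inl h)
    · rcases hbz with h' | h'
      · exact Or.inr (Or.inr (Or.inl (h.trans h')))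
      · right; right; right
        rw [h, ← h', inv_inv]
    · rcases hbz with h' | h'
      · right; right; right
        rw [h, h']
      · exact Or.inr (Or.inr (Or.inl (h.trans h')))
  -- the prime is five
  have hp : p = 5 := by
    have e4 : (n : G) * z ^ 2 * (n : G)⁻¹ = z ^ (4 : ℤ) := by
      rw [← conj_pow, hn, ← pow_mul]
      exact (zpow_natCast z 4).symm
    have h5 : z ^ (4 : ℤ) ∈ HF.filter (fun a => IsConj z a) := by
      rw [← e4]
      exact conj_mem_W X hz2 n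
    obtain ⟨m, hm⟩ := X.mem_W.1 h5
    have hmax : p ≤ 6 → p = 5 := by
      intro h6
      have h7 : p ≠ 6 := by
        rintro rfl
        revert hpp
        norm_num
      omega
    rcases hWz m with h | h | h | h <;> rw [hm] at h <;> have h8 := dvd_exp hzo h
    · norm_num at h8
      have := eq_of_dvd_int (k := 3) hpp hp5 (by exact_mod_cast h8) (by norm_num)
      omega
    · norm_num at h8
      have := eq_of_dvd_int (k := 5) hpp hp5 (by exact_mod_cast h8) (by norm_num)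
      omega
    · norm_num at h8
      have := eq_of_dvd_int (k := 2) hpp hp5 (by exact_mod_cast h8) (by norm_num)
      omega
    · norm_num at h8
      have := eq_of_dvd_int (k := 6) hpp hp5 (by exact_mod_cast h8) (by norm_num)
      exact hmax this.2
  obtain ⟨ZF, hZF, hcard, hsum⟩ := exists_ZF z
  have hZH : Subgroup.zpowers z ≤ H := by
    rw [Subgroup.zpowers_le]
    exact X.hzH
  have hzB : ∀ m : N, (m : G) * z * (m : G)⁻¹ ∈ Subgroup.zpowers z := by
    intro m
    rcases hWz m with h | h | h | h <;> rw [h] <;> exact Subgroup.zpow_mem_zpowers _ _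
  have hconj2 : IsConj z (z ^ 2) := (Finset.mem_filter.1 hz2).2
  have hconjm2 : IsConj z (z ^ 2)⁻¹ := (Finset.mem_filter.1 (X.inv_mem_W hr hz2)).2
  have hconj : IsConj z z⁻¹ := (Finset.mem_filter.1 hr).2
  have hz5 : z ^ 5 = 1 := by
    have h := pow_orderOf_eq_one z
    rwa [hzo, hp] at h
  have hall : ∀ a ∈ ZF, a ≠ 1 → IsConj z a := by
    intro a ha ha1
    rw [hZF, mem_zpowers_iff_mem_range_orderOf, hzo, hp] at ha
    simp only [Finset.mem_image, Finset.mem_range] at ha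
    obtain ⟨k, hk, rfl⟩ := ha
    interval_cases k
    · simp at ha1
    · simp only [pow_one]
      exact IsConj.refl z
    · exact hconj2
    · have : z ^ 3 = (z ^ 2)⁻¹ := by
        rw [eq_inv_iff_mul_eq_one, ← hz5]
        group
      rw [this]
      exact hconjm2
    · have : z ^ 4 = z⁻¹ := by
        rw [eq_inv_iff_mul_eq_one, ← hz5]
        group
      rw [this]
      exact hconj
  have h1ZF : (1 : G) ∈ ZF := (hZF 1).2 (Subgroup.one_mem _)
  have hsub : ZF.erase 1 ⊆ ZF.filter (fun a => IsConj z a) := by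
    intro a ha
    rw [Finset.mem_erase] at ha
    exact Finset.mem_filter.2 ⟨ha.2, hall a ha.2 ha.1⟩
  have hle := Finset.card_le_card hsub
  rw [Finset.card_erase_of_mem h1ZF, hcard, hzo, hp] at hle
  apply false_of_int X.hM X.hF X.hC X.hzH X.z1 hZF hZH hzB (Subgroup.mem_zpowers z) hall (by omega)
  intro χ hχ hne h0
  have h1 := X.bound_four hχ hne (X.real_val hr χ) hZF hZH hzB
  have hR : (4 : ℝ) ≤ ((ZF.filter (fun a => IsConj z a)).card : ℝ) := by
    have : 4 ≤ (ZF.filter (fun a => IsConj z a)).card := by omega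
    exact_mod_cast this
  linarith

/-- The cases `|W| = 3, 4`. -/
theorem false_four (X : Ctx p M H N nn z HF) (hp5 : 5 ≤ p) (hr : z⁻¹ ∈ HF.filter (fun a => IsConj z a))
    (hW : (HF.filter (fun a => IsConj z a)).card = 3 ∨ (HF.filter (fun a => IsConj z a)).card = 4) :
    False := by
  obtain ⟨hc4, b, hb, hb1, hb2, hm⟩ := four X hr hW
  have hW2 : 2 ≤ (HF.filter (fun a => IsConj z a)).card := by omega
  by_cases hz2 : z ^ 2 ∈ HF.filter (fun a => IsConj z a)
  · exact false_z2 X hp5 hr hc4 hz2 hb hb1 hb2 hm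
  have hzo := X.hzo
  have hpp := X.pp
  have hbi := X.inv_mem_W hr hb
  have P1 := P_of X hW2 hz2 hb hb1 hb2 hm
  have P2 := P_of X hW2 hz2 hbi (fun h => hb2 (by rw [← h, inv_inv])) (fun h => hb1 (inv_injective h))
    (fun m => by
      rcases hm m with h | h | h | h
      · exact Or.inl h
      · exact Or.inr (Or.inl h)
      · right; right; right
        rw [h, inv_inv]
      · exact Or.inr (Or.inr (Or.inl h)))
  -- the three numerical outcomes
  have h6 : (p : ℤ) ∣ 6 → False := by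
    intro h
    have := eq_of_dvd_int (k := 6) hpp hp5 (by exact_mod_cast h) (by norm_num)
    have h7 : p ≠ 6 := by
      rintro rfl
      revert hpp
      norm_num
    have h8 : p = 5 := by omega
    rw [h8] at this
    omega
  have h8 : (p : ℤ) ∣ 8 → False := by
    intro h
    have := eq_of_dvd_int (k := 8) hpp hp5 (by exact_mod_cast h) (by norm_num)
    obtain ⟨h1, h2⟩ := this
    have : p ∣ 2 ^ 3 := by simpa using h1
    have := hpp.dvd_of_dvd_pow this
    have := Nat.le_of_dvd (by norm_num) this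
    omega
  have h4 : (p : ℤ) ∣ 4 → False := by
    intro h
    have := eq_of_dvd_int (k := 4) hpp hp5 (by exact_mod_cast h) (by norm_num)
    omega
  have h7 : (p : ℤ) ∣ 7 → p = 7 := by
    intro h
    have := eq_of_dvd_int (k := 7) hpp hp5 (by exact_mod_cast h) (by norm_num)
    exact (Nat.prime_dvd_prime_iff_eq hpp (by norm_num)).1 this.1
  have h11 : (p : ℤ) ∣ 11 → p = 11 := by
    intro h
    have := eq_of_dvd_int (k := 11) hpp hp5 (by exact_mod_cast h) (by norm_num)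
    exact (Nat.prime_dvd_prime_iff_eq hpp (by norm_num)).1 this.1
  have h14 : (p : ℤ) ∣ 14 → p = 7 := by
    intro h
    have := eq_of_dvd_int (k := 14) hpp hp5 (by exact_mod_cast h) (by norm_num)
    have h1 : p ∣ 2 * 7 := by simpa using this.1
    rcases (Nat.Prime.dvd_mul hpp).1 h1 with h2 | h2
    · have := Nat.le_of_dvd (by norm_num) h2
      omega
    · exact (Nat.prime_dvd_prime_iff_eq hpp (by norm_num)).1 h2
  -- the two good endings
  have end7 : p = 7 → z ^ (3 : ℤ) ∈ HF.filter (fun a => IsConj z a) → False := by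
    intro hp h3
    apply false_z3 X hr hz2 h3
    left
    apply zpow_eq_of_dvd hzo
    rw [hp]
    norm_num
  have end11 : p = 11 → z ^ (3 : ℤ) ∈ HF.filter (fun a => IsConj z a) → False := by
    intro hp h3
    apply false_z3 X hr hz2 h3
    right
    apply zpow_eq_of_dvd hzo
    rw [hp]
    norm_num
  have hinv3 : ∀ {c : G}, c = z ^ (-3 : ℤ) → c⁻¹ = z ^ (3 : ℤ) := by
    intro c hc
    rw [hc]
    group
  have hinv4 : ∀ {c : G}, c = z ^ (-4 : ℤ) → c⁻¹ = z ^ (4 : ℤ) := by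
    intro c hc
    rw [hc]
    group
  have h3of4 : p = 7 → z ^ (3 : ℤ) = z ^ (-4 : ℤ) := by
    intro hp
    apply zpow_eq_of_dvd hzo
    rw [hp]
    norm_num
  rcases P1 with h1 | h1 | h1 <;> rcases P2 with h2 | h2 | h2
  · -- `b = z⁻³`, `b⁻¹ = z⁻³`
    have e := hinv3 h1
    rw [h2] at e
    have := dvd_exp hzo e
    norm_num at this
    have hh : (p : ℤ) ∣ 6 := by
      have := (dvd_neg (a := (p : ℤ))).2 this
      simpa using this
    exact h6 hh
  · -- `b = z⁻³`, `b⁻¹ = z⁻⁴`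
    have e := hinv3 h1
    rw [h2] at e
    have := dvd_exp hzo e
    norm_num at this
    have hh : (p : ℤ) ∣ 7 := by
      have := (dvd_neg (a := (p : ℤ))).2 this
      simpa using this
    apply end7 (h7 hh)
    rw [← hinv3 h1]
    exact hbi
  · -- `b = z⁻³`, `b⁻³ = z⁻²`
    have e := hinv3 h1
    rw [e] at h2
    have e2 : (z ^ (3 : ℤ)) ^ 3 = z ^ (9 : ℤ) := by group
    rw [e2] at h2
    have := dvd_exp hzo h2
    norm_num at this
    apply end11 (h11 this)
    rw [← e]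
    exact hbi
  · -- `b = z⁻⁴`, `b⁻¹ = z⁻³`
    have e := hinv4 h1
    rw [h2] at e
    have := dvd_exp hzo e
    norm_num at this
    have hh : (p : ℤ) ∣ 7 := by
      have := (dvd_neg (a := (p : ℤ))).2 this
      simpa using this
    have hp7 := h7 hh
    apply end7 hp7
    rw [h3of4 hp7, ← h1]
    exact hb
  · -- `b = z⁻⁴`, `b⁻¹ = z⁻⁴`
    have e := hinv4 h1
    rw [h2] at e
    have := dvd_exp hzo e
    norm_num at this
    exact h8 (by
      have := (dvd_neg (a := (p : ℤ))).2 this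
      simpa using this)
  · -- `b = z⁻⁴`, `b⁻³ = z⁻²`
    have e := hinv4 h1
    rw [e] at h2
    have e2 : (z ^ (4 : ℤ)) ^ 3 = z ^ (12 : ℤ) := by group
    rw [e2] at h2
    have := dvd_exp hzo h2
    norm_num at this
    have hp7 := h14 this
    apply end7 hp7
    rw [h3of4 hp7, ← h1]
    exact hb
  · -- `b³ = z⁻²`, `b⁻¹ = z⁻³`
    have e : b = z ^ (3 : ℤ) := by
      have := hinv3 h2
      rwa [inv_inv] at this
    rw [e] at h1
    have e2 : (z ^ (3 : ℤ)) ^ 3 = z ^ (9 : ℤ) := by group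
    rw [e2] at h1
    have := dvd_exp hzo h1
    norm_num at this
    apply end11 (h11 this)
    rw [← e]
    exact hb
  · -- `b³ = z⁻²`, `b⁻¹ = z⁻⁴`
    have e : b = z ^ (4 : ℤ) := by
      have := hinv4 h2
      rwa [inv_inv] at this
    rw [e] at h1
    have e2 : (z ^ (4 : ℤ)) ^ 3 = z ^ (12 : ℤ) := by group
    rw [e2] at h1
    have := dvd_exp hzo h1
    norm_num at this
    have hp7 := h14 this
    apply end7 hp7
    rw [h3of4 hp7, ← h2]
    exact hbi
  · -- `b³ = z⁻²`, `b⁻³ = z⁻²`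
    have e : (b ^ 3)⁻¹ = b⁻¹ ^ 3 := by group
    rw [← e, h1] at h2
    have e2 : (z ^ (-2 : ℤ))⁻¹ = z ^ (2 : ℤ) := by group
    rw [e2] at h2
    have := dvd_exp hzo h2
    norm_num at this
    exact h4 this

end Cfsg.Agent.Lib.XcoCases2
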