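import Mathlib
import Cfsg.Agent.Lib.GlaubCycVal
import Cfsg.Agent.Lib.GlaubSyl5
import Cfsg.Agent.Lib.DetChar
import Cfsg.Agent.Lib.NilClosedChar

/-!
# Invariant characters and the canonical extension
-/

set_option autoImplicit false
set_option linter.style.haveILetI false
set_option linter.unusedVariables false
set_option linter.unusedSectionVars false

namespace Cfsg.Agent.Lib.XcoFix1

open Cfsg Cfsg.Agent.Lib.CharBasic Cfsg.Agent.Lib.CharInd Cfsg.Agent.Lib.Clifford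
open Cfsg.Agent.Lib.GlaubCorr Cfsg.Agent.Lib.GlaubCount Cfsg.Agent.Lib.GlaubCyc
open Cfsg.Agent.Lib.GlaubCycVal Cfsg.Agent.Lib.GlaubSyl3 Cfsg.Agent.Lib.GlaubSyl5
open Cfsg.Agent.Lib.BlockNormal
open scoped ComplexConjugate

universe u

attribute [local instance] Fintype.ofFinite

/-- The only invariant irreducible character under a fixed-point-free coprime `p`-group is the
trivial one. -/
theorem invariant_eq_one {S B : Type u} [Group S] [Group B] [Finite B] (p : ℕ) [hp : Fact p.Prime]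
    (hS : IsPGroup p S) (a : S →* MulAut B) (hcop : ¬ p ∣ Nat.card B)
    (hfpf : ∀ b : B, (∀ s, a s b = b) → b = 1) (lam : IrrCharacter B)
    (hlam : ∀ s b, (lam : B → ℂ) (a s b) = (lam : B → ℂ) b) : lam = irrOne B := by
  have hpp := hp.out
  set A := a.range with hA
  haveI : Finite A := inferInstance
  have hAp : IsPGroup p A := IsPGroup.of_surjective hS a.rangeRestrict a.rangeRestrict_surjective
  obtain ⟨k, hk⟩ := IsPGroup.iff_card.1 hAp
  have hcopp : (Nat.card B).Coprime p := by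
    rw [Nat.coprime_comm, hpp.coprime_iff_not_dvd]
    exact hcop
  have hcop2 : (Nat.card B).Coprime (Nat.card A) := by
    rw [hk]
    exact Nat.Coprime.pow_right k hcopp
  have hsolv : Group.IsSolvable A := by
    haveI : Group.IsNilpotent A := hAp.isNilpotent
    exact inferInstance
  have h := card_XA_eq_card_ClA (Nat.card A) B A rfl hsolv hcop2
  have hsub : Subsingleton (ClA A) := by
    constructor
    have hone : ∀ K : ClA A, K.1 = ConjClasses.mk 1 := by
      rintro ⟨K, hK⟩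
      obtain ⟨g, rfl⟩ := ConjClasses.mk_surjective K
      obtain ⟨c, hc⟩ := exists_fix_of_class p hAp hcopp g (fun q hq x hx => hK q hq x hx)
      have hc1 : (c : B) = 1 := by
        apply hfpf
        intro s
        exact c.2 _ ⟨s, rfl⟩
      rw [hc1] at hc
      exact ConjClasses.mk_eq_mk_iff_isConj.2 hc
    intro K K'
    apply Subtype.ext
    rw [hone K, hone K']
  have hc : Nat.card (XA A) ≤ 1 := by
    rw [h]
    exact Finite.card_le_one_iff_subsingleton.2 hsub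
  have hsubX : Subsingleton (XA A) := Finite.card_le_one_iff_subsingleton.1 hc
  have hinv1 : InvA A (lam : B → ℂ) := by
    rintro _ ⟨s, rfl⟩ g
    exact hlam s g
  have hinv2 : InvA A ((irrOne B : IrrCharacter B) : B → ℂ) := fun _ _ _ => rfl
  have := Subsingleton.elim (⟨lam, hinv1⟩ : XA A) ⟨irrOne B, hinv2⟩
  exact congrArg Subtype.val this

/-- Invariant irreducible characters are trivial on fixed-point-free normal stable subgroups. -/
theorem trivial_on_of_fpf {S C : Type u} [Group S] [Group C] [Finite C] (p : ℕ) [hp : Fact p.Prime]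
    (hS : IsPGroup p S) (a : S →* MulAut C) (hcop : ¬ p ∣ Nat.card C) (B : Subgroup C) [hB : B.Normal]
    (hBa : ∀ s, ∀ n ∈ B, a s n ∈ B) (hfpf : ∀ b ∈ B, (∀ s, a s b = b) → b = 1)
    (β : IrrCharacter C) (hβ : ∀ s x, (β : C → ℂ) (a s x) = (β : C → ℂ) x) :
    ∀ b ∈ B, (β : C → ℂ) b = (β : C → ℂ) 1 := by
  have hNi : ¬ p ∣ B.index := fun h => hcop (h.trans (Subgroup.index_dvd_card B))
  obtain ⟨lam, hlam, hinv⟩ := exists_inv_constituent p a B hS hBa hNi β hβ
  have h1 : lam = irrOne B := by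
    apply invariant_eq_one p hS (resA a B hBa)
      (fun h => hcop (h.trans (Subgroup.card_subgroup_dvd_card B)))
    · intro b hb
      apply Subtype.ext
      apply hfpf _ b.2
      intro s
      exact congrArg Subtype.val (hb s)
    · intro s b
      exact hinv s b
  subst h1
  obtain ⟨e, he0, he, -⟩ := restrict_eq_smul_of_invariant B (irrOne B).2 (fun g n => rfl) β.2 hlam
  intro b hb
  have h2 := congrFun he ⟨b, hb⟩
  have h3 := congrFun he 1
  simp only [Pi.smul_apply] at h2 h3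
  have h4 : ((irrOne B : IrrCharacter B) : B → ℂ) ⟨b, hb⟩ = 1 := rfl
  have h5 : ((irrOne B : IrrCharacter B) : B → ℂ) 1 = 1 := rfl
  rw [h4] at h2
  rw [h5] at h3
  rw [h2]
  simpa using h3.symm

section Ambient

variable {Γ : Type u} [Group Γ] [Fintype Γ] {G S C : Subgroup Γ} [Fintype G] [Fintype S]
  [Fintype C] [hN : G.Normal] (hs : Setup G S C)

include hs in
/-- The canonical extension is invariant under automorphisms fixing the character. -/
theorem canon_comp (χ : XS G S) (σ : MulAut Γ) (hG : ∀ g ∈ G, σ g ∈ G)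
    (hχ : ∀ g : G, (χ.1 : G → ℂ) ⟨σ g, hG g g.2⟩ = (χ.1 : G → ℂ) g) :
    ∀ x, (canon hs χ : Γ → ℂ) (σ x) = (canon hs χ : Γ → ℂ) x := by
  set ψ : Γ → ℂ := (canon hs χ : Γ → ℂ) ∘ σ.toMonoidHom with hψ
  have hirr : IsIrrCharacter Γ ψ :=
    isIrrCharacter_comp_of_surjective σ.toMonoidHom σ.surjective (canon hs χ).2
  have hres : ψ ∘ G.subtype = (χ.1 : G → ℂ) := by
    funext g
    show (canon hs χ : Γ → ℂ) (σ g) = (χ.1 : G → ℂ) g
    rw [← hχ g]
    exact canon_apply hs χ ⟨σ g, hG g g.2⟩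
  have hd : (detOrder ψ).Coprime (Nat.card S) := by
    obtain ⟨m, hm, h⟩ := (detOrder_coprime_iff (Nat.card S)).1 (canon_det hs χ)
    refine (detOrder_coprime_iff (Nat.card S)).2 ⟨m, hm, fun g => ?_⟩
    rw [hψ, Cfsg.Agent.Lib.DetChar.detChar_comp _ (IsIrrCharacter.isCharacter (canon hs χ).2)]
    exact h _
  have h := eq_canon hs χ hirr hres hd
  intro x
  exact congrFun h x

include hs in
/-- The heart of the matter: the averaging argument. -/
theorem canon_eq_of_conj (χ : XS G S) {β₀ : IrrCharacter C} {ε : ℤ} (hε : ε = 1 ∨ ε = -1)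
    (hval : ∀ t : S, (∀ y : S, y ∈ Subgroup.zpowers t) → ∀ c : C,
      (canon hs χ : Γ → ℂ) ((c : Γ) * t) = (ε : ℂ) * (β₀ : C → ℂ) c)
    {z : Γ} (hz : Subgroup.zpowers z = S) (hz2 : Subgroup.zpowers (z * z) = S)
    (hconj : ∀ e ∈ G, ∃ c : C, (β₀ : C → ℂ) c = (β₀ : C → ℂ) 1 ∧
      IsConj (z * (e * z * e⁻¹)) ((c : Γ) * (z * z))) :
    (canon hs χ : Γ → ℂ) z = (canon hs χ : Γ → ℂ) 1 := by
  set X := canon hs χ with hX
  have hXc := IsIrrCharacter.isCharacter X.2
  obtain ⟨t₁, ht₁, hg₁⟩ := gen_of_zpowers_eq hz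
  obtain ⟨t₂, ht₂, hg₂⟩ := gen_of_zpowers_eq hz2
  have h1 : (X : Γ → ℂ) z = (ε : ℂ) * (β₀ : C → ℂ) 1 := by
    have := hval t₁ hg₁ 1
    rwa [ht₁, Subgroup.coe_one, one_mul] at this
  have h2 : ∀ b : Γ, (X : Γ → ℂ) (z * (b * z * b⁻¹)) = (ε : ℂ) * (β₀ : C → ℂ) 1 := by
    intro b
    obtain ⟨e, he, t, ht, rfl⟩ := exists_decomp hs b
    have htz : t * z = z * t := by
      rw [← hz] at ht
      obtain ⟨k, rfl⟩ := ht
      exact ((Commute.refl z).zpow_left k).eq
    have e1 : e * t * z * (e * t)⁻¹ = e * z * e⁻¹ := by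
      calc e * t * z * (e * t)⁻¹ = e * (t * z) * t⁻¹ * e⁻¹ := by group
        _ = e * (z * t) * t⁻¹ * e⁻¹ := by rw [htz]
        _ = e * z * e⁻¹ := by group
    rw [e1]
    obtain ⟨c, hc, hcj⟩ := hconj e he
    rw [NilClosedChar.char_eq_of_isConj hXc hcj, ← hc, ← hval t₂ hg₂ c, ht₂]
  have h3 := CharAvg.irr_avg X.2 z z
  simp_rw [h2] at h3
  simp only [Finset.sum_const, Finset.card_univ, nsmul_eq_mul, h1] at h3
  rw [← Nat.card_eq_fintype_card] at h3
  have hG : (Nat.card Γ : ℂ) ≠ 0 := by exact_mod_cast Nat.card_pos.ne'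
  have hb : (β₀ : C → ℂ) 1 ≠ 0 := CharAvg.irr_one_ne_zero β₀.2
  have hε0 : (ε : ℂ) ≠ 0 := by
    rcases hε with rfl | rfl <;> simp
  have h4 : (X : Γ → ℂ) 1 = (ε : ℂ) * (β₀ : C → ℂ) 1 := by
    apply mul_left_cancel₀ (mul_ne_zero hG (mul_ne_zero hε0 hb))
    linear_combination h3
  rw [h1, h4]

end Ambient

section Step

variable {Γ : Type u} [Group Γ] [Fintype Γ] {G S C : Subgroup Γ} [Fintype G] [Fintype S]
  [Fintype C] [hN : G.Normal] (hs : Setup G S C)

include hs in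
/-- The abstract step. -/
theorem abstract_step {A : Type u} [Group A] (p : ℕ) [hp : Fact p.Prime] (hA : IsPGroup p A)
    (a : A →* MulAut Γ) (hcop : ¬ p ∣ Nat.card G) (hGa : ∀ s, ∀ g ∈ G, a s g ∈ G) {z : Γ}
    (hz : Subgroup.zpowers z = S) (hz2 : Subgroup.zpowers (z * z) = S) (hzfix : ∀ s, a s z = z)
    (χ : XS G S) (hχ : ∀ s, ∀ g : G, (χ.1 : G → ℂ) ⟨a s g, hGa s g g.2⟩ = (χ.1 : G → ℂ) g)
    (B : Subgroup C) [hBn : B.Normal]
    (hBa : ∀ s, ∀ n : C, n ∈ B → ∀ h : a s n ∈ C, (⟨a s n, h⟩ : C) ∈ B)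
    (hfpf : ∀ b ∈ B, (∀ s, a s (b : Γ) = b) → b = 1)
    (hconj : ∀ e ∈ G, ∃ c : C, c ∈ B ∧ IsConj (z * (e * z * e⁻¹)) ((c : Γ) * (z * z))) :
    ∀ g g' : G, (g' : Γ) = (g : Γ)⁻¹ * (z * g * z⁻¹) → (χ.1 : G → ℂ) g' = (χ.1 : G → ℂ) 1 := by
  obtain ⟨β₀, ε, hε, hv⟩ := exists_val hs χ
  have hval : ∀ t : S, (∀ y : S, y ∈ Subgroup.zpowers t) → ∀ c : C,
      (canon hs χ : Γ → ℂ) ((c : Γ) * t) = (ε : ℂ) * (β₀ : C → ℂ) c := fun t ht => (hv t ht).1
  have hcan := fun s => canon_comp hs χ (a s) (hGa s) (hχ s)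
  obtain ⟨t₁, ht₁, hg₁⟩ := gen_of_zpowers_eq hz
  have hε0 : (ε : ℂ) ≠ 0 := by
    rcases hε with rfl | rfl <;> simp
  have hCd := hs.hC
  have hCG : C ≤ G := C_le_G hs
  have hCa : ∀ s, ∀ c ∈ C, a s c ∈ C := by
    intro s c hc
    rw [hCd, Subgroup.mem_inf] at hc ⊢
    refine ⟨hGa s c hc.1, ?_⟩
    rw [Subgroup.mem_centralizer_iff]
    intro t ht
    have ht' := ht
    rw [SetLike.mem_coe, ← hz] at ht'
    obtain ⟨k, rfl⟩ := ht'
    have h1 : a s c * z = z * a s c := by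
      have h2 : c * z = z * c := by
        have h3 := Subgroup.mem_centralizer_iff.1 hc.2 z (by
          rw [SetLike.mem_coe, ← hz]
          exact Subgroup.mem_zpowers z)
        exact h3.symm
      have h3 := congrArg (a s) h2
      simpa [hzfix] using h3
    exact ((show Commute z (a s c) from h1.symm).zpow_left k).eq
  have hβ : ∀ s x, (β₀ : C → ℂ) (resA a C hCa s x) = (β₀ : C → ℂ) x := by
    intro s x
    have h1 := hval t₁ hg₁ (resA a C hCa s x)
    have h2 := hval t₁ hg₁ x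
    have e1 : ((resA a C hCa s x : C) : Γ) * (t₁ : Γ) = a s ((x : Γ) * (t₁ : Γ)) := by
      rw [map_mul, ht₁, hzfix]
      rfl
    rw [e1, hcan s, h2] at h1
    exact (mul_left_cancel₀ hε0 h1).symm
  have hBtriv := trivial_on_of_fpf p hA (resA a C hCa)
    (fun h => hcop (h.trans (Subgroup.card_dvd_of_le hCG))) B
    (fun s n hn => hBa s n hn _) (fun b hb h => hfpf b hb (fun s => congrArg Subtype.val (h s))) β₀ hβ
  have hfinal := canon_eq_of_conj hs χ hε hval hz hz2 (fun e he => by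
    obtain ⟨c, hc, hj⟩ := hconj e he
    exact ⟨c, hBtriv c hc, hj⟩)
  intro g g' hg'
  set X := canon hs χ with hX
  have hXc := IsIrrCharacter.isCharacter X.2
  have hk : (X : Γ → ℂ) ((g : Γ)⁻¹ * (z * g * z⁻¹)) = (X : Γ → ℂ) 1 := by
    have hzK : z ∈ CharKernel.charKer hXc := (CharKernel.mem_charKer hXc).2 hfinal
    have h1 : (g : Γ)⁻¹ * (z * g * z⁻¹) = ((g : Γ)⁻¹ * z * ((g : Γ)⁻¹)⁻¹) * z⁻¹ := by group
    rw [h1]
    have h2 : ((g : Γ)⁻¹ * z * ((g : Γ)⁻¹)⁻¹) * z⁻¹ ∈ CharKernel.charKer hXc :=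
      Subgroup.mul_mem _ ((CharKernel.charKer_normal hXc).conj_mem z hzK _) (Subgroup.inv_mem _ hzK)
    exact (CharKernel.mem_charKer hXc).1 h2
  rw [← canon_apply hs χ g', ← canon_apply hs χ 1, hg']
  simpa using hk

end Step

end Cfsg.Agent.Lib.XcoFix1
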