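import Mathlib
import Cfsg.Agent.Lib.PCore
import Cfsg.Agent.Lib.CoprimeHyper
import Cfsg.Prelude.Def_Local

/-!
# Abelian `p`-subgroups with coprime fusion: the group theoretic layer
-/

set_option autoImplicit false
set_option linter.style.haveILetI false
set_option linter.unusedSectionVars false
set_option linter.unusedVariables false

namespace Cfsg.Agent.Lib.XcoGroup

open Cfsg Cfsg.Agent.Lib Cfsg.Agent.Lib.PCore

universe u

/-- Fusion controlled by a `p'`-subgroup. -/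
def PCl (p : ℕ) {G : Type*} [Group G] (H : Subgroup G) : Prop :=
  ∀ g : G, ∃ O : Subgroup G, ¬ p ∣ Nat.card O ∧ (∀ a ∈ H, ∀ o ∈ O, a * o * a⁻¹ ∈ O) ∧
    (∀ o ∈ O, (∀ a ∈ H, o * a = a * o) → o = 1) ∧
    ∀ h ∈ H, ∃ a ∈ H, ∃ o ∈ O, g * h * g⁻¹ = a * o

/-- The conclusion. -/
def Concl (p : ℕ) {G : Type*} [Group G] (H : Subgroup G) : Prop :=
  ∀ g : G, ∀ h ∈ H, ∃ a ∈ H, ∃ τ ∈ pPrimeCore p G, g * h * g⁻¹ = a * τ

section Basic

variable {G : Type*} [Group G] {p : ℕ} {H O : Subgroup G}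

theorem not_dvd_orderOf_of_mem [Finite G] (hO : ¬ p ∣ Nat.card O) {o : G} (ho : o ∈ O) :
    ¬ p ∣ orderOf o := fun h => hO (h.trans (by
  have h1 : orderOf (⟨o, ho⟩ : O) ∣ Nat.card O := orderOf_dvd_natCard _
  rwa [Subgroup.orderOf_mk] at h1))

theorem eq_one_of_pow_of_not_dvd (hpp : p.Prime) {x : G} (h : ¬ p ∣ orderOf x) {k : ℕ}
    (hk : x ^ (p ^ k) = 1) : x = 1 := by
  have h1 : orderOf x ∣ p ^ k := orderOf_dvd_of_pow_eq_one hk
  obtain ⟨j, -, hj⟩ := (Nat.dvd_prime_pow hpp).1 h1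
  cases j with
  | zero => simpa [orderOf_eq_one_iff] using hj
  | succ j =>
    exfalso
    apply h
    rw [hj]
    exact dvd_pow_self p (by omega)

theorem pow_pow_of_mem (hHp : IsPGroup p H) {a : G} (ha : a ∈ H) : ∃ k : ℕ, a ^ (p ^ k) = 1 := by
  obtain ⟨k, hk⟩ := hHp ⟨a, ha⟩
  refine ⟨k, ?_⟩
  have := congrArg Subtype.val hk
  simpa using this

/-- Elements in a `p`-subgroup and in a `p'`-subgroup are trivial. -/
theorem eq_one_of_mem_mem [Finite G] (hpp : p.Prime) (hHp : IsPGroup p H) (hO : ¬ p ∣ Nat.card O) {x : G}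
    (hx : x ∈ H) (hx' : x ∈ O) : x = 1 := by
  obtain ⟨k, hk⟩ := pow_pow_of_mem hHp hx
  exact eq_one_of_pow_of_not_dvd hpp (not_dvd_orderOf_of_mem hO hx') hk

theorem pow_decomp (hn : ∀ a ∈ H, ∀ o ∈ O, a * o * a⁻¹ ∈ O) {a o : G} (ha : a ∈ H) (ho : o ∈ O) (k : ℕ) :
    ∃ o' ∈ O, (a * o) ^ k = a ^ k * o' := by
  induction k with
  | zero => exact ⟨1, O.one_mem, by simp⟩
  | succ k ih =>
    obtain ⟨o', ho', h⟩ := ih
    refine ⟨a⁻¹ * o' * a * o, O.mul_mem (by
      have := hn a⁻¹ (H.inv_mem ha) o' ho'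
      simpa using this) ho, ?_⟩
    rw [pow_succ, h, pow_succ]
    group

/-- A `p'`-element of `c O` with `c` a `p`-element lies in `O`. -/
theorem eq_one_of_pprime_mul [Finite G] (hpp : p.Prime) (hHp : IsPGroup p H) (hO : ¬ p ∣ Nat.card O)
    (hn : ∀ a ∈ H, ∀ o ∈ O, a * o * a⁻¹ ∈ O) {c o : G} (hc : c ∈ H) (ho : o ∈ O)
    (h : ¬ p ∣ orderOf (c * o)) : c = 1 := by
  obtain ⟨o', ho', e⟩ := pow_decomp hn hc ho (orderOf (c * o))
  rw [pow_orderOf_eq_one] at e
  have h1 : c ^ orderOf (c * o) ∈ O := by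
    have : c ^ orderOf (c * o) = o'⁻¹ := eq_inv_of_mul_eq_one_left e.symm
    rw [this]
    exact O.inv_mem ho'
  have h2 := eq_one_of_mem_mem hpp hHp hO (H.pow_mem hc _) h1
  obtain ⟨k, hk⟩ := pow_pow_of_mem hHp hc
  have h3 : (Nat.Coprime (p ^ k) (orderOf (c * o))) :=
    Nat.Coprime.pow_left k ((Nat.Prime.coprime_iff_not_dvd hpp).2 h)
  have h4 := orderOf_dvd_of_pow_eq_one hk
  have h5 := orderOf_dvd_of_pow_eq_one h2
  have h6 : orderOf c ∣ 1 := by
    rw [← h3.gcd_eq_one]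
    exact Nat.dvd_gcd h4 h5
  exact orderOf_eq_one_iff.1 (Nat.dvd_one.1 h6)

/-- The product of a subgroup and a subgroup it normalizes. -/
def HO (H O : Subgroup G) (hn : ∀ a ∈ H, ∀ o ∈ O, a * o * a⁻¹ ∈ O) : Subgroup G where
  carrier := {x | ∃ a ∈ H, ∃ o ∈ O, x = a * o}
  mul_mem' := by
    rintro _ _ ⟨a, ha, o, ho, rfl⟩ ⟨b, hb, o', ho', rfl⟩
    refine ⟨a * b, H.mul_mem ha hb, b⁻¹ * o * b * o', O.mul_mem (by
      have := hn b⁻¹ (H.inv_mem hb) o ho
      simpa using this) ho', by group⟩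
  one_mem' := ⟨1, H.one_mem, 1, O.one_mem, by simp⟩
  inv_mem' := by
    rintro _ ⟨a, ha, o, ho, rfl⟩
    exact ⟨a⁻¹, H.inv_mem ha, a * o⁻¹ * a⁻¹, hn a ha _ (O.inv_mem ho), by group⟩

theorem mem_HO {hn : ∀ a ∈ H, ∀ o ∈ O, a * o * a⁻¹ ∈ O} {x : G} :
    x ∈ HO H O hn ↔ ∃ a ∈ H, ∃ o ∈ O, x = a * o := Iff.rfl

/-- Conjugating `p`-subgroups of `H O` into `H`. -/
theorem exists_conj_into [Finite G] [hpf : Fact p.Prime] (hHp : IsPGroup p H) (hO : ¬ p ∣ Nat.card O)
    (hn : ∀ a ∈ H, ∀ o ∈ O, a * o * a⁻¹ ∈ O) {Q : Subgroup G} (hQ : IsPGroup p Q)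
    (hQL : Q ≤ HO H O hn) : ∃ o ∈ O, ∀ q ∈ Q, o⁻¹ * q * o ∈ H := by
  have hpp := hpf.out
  set L := HO H O hn with hL
  have hHL : H ≤ L := fun a ha => ⟨a, ha, 1, O.one_mem, by simp⟩
  have hH₁ : IsPGroup p (H.subgroupOf L) := hHp.comap_of_injective L.subtype L.subtype_injective
  obtain ⟨T₀, hT₀⟩ := hH₁.exists_le_sylow
  have hT₀H : ∀ x : L, x ∈ (T₀ : Subgroup L) → (x : G) ∈ H := by
    rintro ⟨x, a, ha, o, ho, rfl⟩ hx
    have haT : (⟨a, hHL ha⟩ : L) ∈ (T₀ : Subgroup L) := hT₀ (Subgroup.mem_subgroupOf.2 ha)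
    have hoL : o ∈ L := ⟨1, H.one_mem, o, ho, by simp⟩
    have hoT : (⟨o, hoL⟩ : L) ∈ (T₀ : Subgroup L) := by
      have : (⟨o, hoL⟩ : L) = (⟨a, hHL ha⟩ : L)⁻¹ * ⟨a * o, a, ha, o, ho, rfl⟩ := by
        apply Subtype.ext
        simp
      rw [this]
      exact Subgroup.mul_mem _ (Subgroup.inv_mem _ haT) hx
    obtain ⟨k, hk⟩ := T₀.isPGroup' ⟨_, hoT⟩
    have hk' : o ^ (p ^ k) = 1 := by
      have h2 := congrArg Subtype.val (congrArg Subtype.val hk)
      simpa using h2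
    have ho1 := eq_one_of_pow_of_not_dvd hpp (not_dvd_orderOf_of_mem hO ho) hk'
    simpa [ho1] using ha
  have hQ₁ : IsPGroup p (Q.subgroupOf L) := hQ.comap_of_injective L.subtype L.subtype_injective
  obtain ⟨T₁, hT₁⟩ := hQ₁.exists_le_sylow
  obtain ⟨x, hx⟩ := MulAction.exists_smul_eq L T₀ T₁
  obtain ⟨c, hc, o₁, ho₁, hxe⟩ := x.2
  refine ⟨c * o₁ * c⁻¹, hn c hc o₁ ho₁, fun q hq => ?_⟩
  have hqT : (⟨q, hQL hq⟩ : L) ∈ (T₁ : Subgroup L) := hT₁ (Subgroup.mem_subgroupOf.2 hq)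
  rw [← hx, Sylow.coe_subgroup_smul, Subgroup.mem_smul_pointwise_iff_exists] at hqT
  obtain ⟨y, hy, hye⟩ := hqT
  have hyH := hT₀H y hy
  have hye' : (x : G) * (y : G) * (x : G)⁻¹ = q := congrArg Subtype.val hye
  have e : (c * o₁ * c⁻¹)⁻¹ * q * (c * o₁ * c⁻¹) = c * (y : G) * c⁻¹ := by
    rw [← hye', hxe]
    group
  rw [e]
  exact H.mul_mem (H.mul_mem hc hyH) (H.inv_mem hc)

/-- Normalizer membership in a finite subgroup needs one inclusion only. -/
theorem mem_normalizer_of_forall [Finite G] {H : Subgroup G} {n : G} (h : ∀ a ∈ H, n * a * n⁻¹ ∈ H) :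
    n ∈ Subgroup.normalizer (H : Set G) := by
  rw [Subgroup.mem_normalizer_iff]
  intro a
  constructor
  · exact h a
  · intro ha
    have hinj : Function.Injective (fun b : H => (⟨n * b * n⁻¹, h b b.2⟩ : H)) := by
      intro b c hbc
      have := congrArg Subtype.val hbc
      simp only [mul_left_inj, mul_right_inj] at this
      exact Subtype.ext this
    obtain ⟨b, hb⟩ := (Finite.injective_iff_surjective.1 hinj) ⟨_, ha⟩
    have h2 := congrArg Subtype.val hb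
    simp only [mul_left_inj, mul_right_inj] at h2
    rw [← h2]
    exact b.2

/-- The factorization of a fusing element. -/
theorem exists_factor [Finite G] [hpf : Fact p.Prime] (hHp : IsPGroup p H) (hO : ¬ p ∣ Nat.card O)
    (hn : ∀ a ∈ H, ∀ o ∈ O, a * o * a⁻¹ ∈ O) {g : G} (hm : ∀ h ∈ H, ∃ a ∈ H, ∃ o ∈ O, g * h * g⁻¹ = a * o) :
    ∃ o ∈ O, o⁻¹ * g ∈ Subgroup.normalizer (H : Set G) := by
  have hQ : IsPGroup p (H.map (MulAut.conj g).toMonoidHom) := hHp.map _
  have hQL : H.map (MulAut.conj g).toMonoidHom ≤ HO H O hn := by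
    rintro _ ⟨h, hh, rfl⟩
    exact hm h hh
  obtain ⟨o, ho, h⟩ := exists_conj_into hHp hO hn hQ hQL
  refine ⟨o, ho, mem_normalizer_of_forall fun a ha => ?_⟩
  have h1 := h _ ⟨a, ha, rfl⟩
  simp only [MulEquiv.coe_toMonoidHom, MulAut.conj_apply] at h1
  have e : o⁻¹ * g * a * (o⁻¹ * g)⁻¹ = o⁻¹ * (g * a * g⁻¹) * o := by group
  rw [e]
  exact h1

/-- The `p`-part and the `p'`-part of an element. -/
theorem exists_parts (hpp : p.Prime) [Finite G] (x : G) :
    ∃ (w u : G) (k m : ℕ), x = w * u ∧ w ∈ Subgroup.zpowers x ∧ u ∈ Subgroup.zpowers x ∧ u ^ p ^ k = 1 ∧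
      w ^ m = 1 ∧ ¬ p ∣ m := by
  have hn0 : orderOf x ≠ 0 := (orderOf_pos x).ne'
  obtain ⟨k, m, hpm, hn⟩ := Nat.exists_eq_pow_mul_and_not_dvd hn0 p hpp.ne_one
  have hcop : Nat.Coprime (p ^ k) m := Nat.Coprime.pow_left k ((Nat.Prime.coprime_iff_not_dvd hpp).mpr hpm)
  have hb := Nat.gcd_eq_gcd_ab (p ^ k) m
  rw [hcop.gcd_eq_one] at hb
  set a := Nat.gcdA (p ^ k) m with ha
  set b := Nat.gcdB (p ^ k) m with hbb
  have hxn : x ^ (orderOf x : ℤ) = 1 := by
    rw [zpow_natCast, pow_orderOf_eq_one]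
  refine ⟨x ^ (((p ^ k : ℕ) : ℤ) * a), x ^ ((m : ℤ) * b), k, m, ?_, Subgroup.zpow_mem_zpowers _ _,
    Subgroup.zpow_mem_zpowers _ _, ?_, ?_, hpm⟩
  · rw [← zpow_add]
    have : ((p ^ k : ℕ) : ℤ) * a + (m : ℤ) * b = 1 := by
      have h := hb
      push_cast at h ⊢
      linarith
    rw [this, zpow_one]
  · rw [← zpow_natCast, ← zpow_mul]
    have : (m : ℤ) * b * ((p ^ k : ℕ) : ℤ) = (orderOf x : ℤ) * b := by
      rw [hn]; push_cast; ring
    rw [this, zpow_mul, hxn, one_zpow]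
  · rw [← zpow_natCast, ← zpow_mul]
    have : ((p ^ k : ℕ) : ℤ) * a * (m : ℤ) = (orderOf x : ℤ) * a := by
      rw [hn]; push_cast; ring
    rw [this, zpow_mul, hxn, one_zpow]

theorem not_dvd_orderOf_of_pow {x : G} (hpp : p.Prime) {m : ℕ} (hm : x ^ m = 1) (hpm : ¬ p ∣ m) :
    ¬ p ∣ orderOf x := fun h => hpm (h.trans (orderOf_dvd_of_pow_eq_one hm))

/-- The elements of a coset `β O`. -/
theorem decomp_coset [Finite G] [hpf : Fact p.Prime] (hHp : IsPGroup p H) (hO : ¬ p ∣ Nat.card O)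
    (hn : ∀ a ∈ H, ∀ o ∈ O, a * o * a⁻¹ ∈ O) {β o : G} (hβ : β ∈ H) (ho : o ∈ O) :
    ∃ o' ∈ O, ∃ s ∈ O, s * β = β * s ∧ β * o = o' * (β * s) * o'⁻¹ := by
  have hpp := hpf.out
  set x := β * o with hx
  obtain ⟨s, w, k, m, hxe, hs, hw, hwk, hsm, hpm⟩ := exists_parts hpp x
  have hxL : x ∈ HO H O hn := ⟨β, hβ, o, ho, rfl⟩
  have hzL : Subgroup.zpowers x ≤ HO H O hn := by
    rw [Subgroup.zpowers_le]
    exact hxL
  -- `s ∈ O`
  obtain ⟨c, hc, o₁, ho₁, hse⟩ := hzL hs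
  have hc1 : c = 1 := by
    apply eq_one_of_pprime_mul hpp hHp hO hn hc ho₁
    rw [← hse]
    exact not_dvd_orderOf_of_pow hpp hsm hpm
  have hsO : s ∈ O := by
    rw [hse, hc1, one_mul]
    exact ho₁
  -- `w` conjugates into `H`
  have hQ : IsPGroup p (Subgroup.zpowers w) := by
    rw [IsPGroup.iff_card]
    have h1 : orderOf w ∣ p ^ k := orderOf_dvd_of_pow_eq_one hwk
    obtain ⟨j, -, hj⟩ := (Nat.dvd_prime_pow hpp).1 h1
    exact ⟨j, by rw [Nat.card_zpowers, hj]⟩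
  have hQL : Subgroup.zpowers w ≤ HO H O hn := by
    rw [Subgroup.zpowers_le]
    exact hzL hw
  obtain ⟨o', ho', hc'⟩ := exists_conj_into hHp hO hn hQ hQL
  have hwH := hc' w (Subgroup.mem_zpowers w)
  -- it equals `β`
  have hwβ : o'⁻¹ * w * o' = β := by
    have h1 : β⁻¹ * (o'⁻¹ * w * o') ∈ O := by
      have hw' : w = s⁻¹ * (β * o) := by rw [← hx, hxe]; group
      have e : β⁻¹ * (o'⁻¹ * w * o') = (β⁻¹ * (o'⁻¹ * s⁻¹) * β) * o * o' := by
        rw [hw']
        group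
      rw [e]
      refine O.mul_mem (O.mul_mem ?_ ho) ho'
      have := hn β⁻¹ (H.inv_mem hβ) _ (O.mul_mem (O.inv_mem ho') (O.inv_mem hsO))
      simpa using this
    have h2 : β⁻¹ * (o'⁻¹ * w * o') ∈ H := H.mul_mem (H.inv_mem hβ) hwH
    have h3 := eq_one_of_mem_mem hpp hHp hO h2 h1
    exact (inv_mul_eq_one.1 h3).symm
  have hcomm : s * w = w * s := by
    obtain ⟨i, rfl⟩ := Subgroup.mem_zpowers_iff.1 hs
    obtain ⟨j, rfl⟩ := Subgroup.mem_zpowers_iff.1 hw
    exact (Commute.refl x).zpow_zpow i j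
  refine ⟨o', ho', o'⁻¹ * s * o', O.mul_mem (O.mul_mem (O.inv_mem ho') hsO) ho', ?_, ?_⟩
  · rw [← hwβ]
    calc o'⁻¹ * s * o' * (o'⁻¹ * w * o') = o'⁻¹ * (s * w) * o' := by group
      _ = o'⁻¹ * (w * s) * o' := by rw [hcomm]
      _ = o'⁻¹ * w * o' * (o'⁻¹ * s * o') := by group
  · rw [← hwβ, hxe]
    calc s * w = o' * (o'⁻¹ * (s * w) * o') * o'⁻¹ := by group
      _ = o' * (o'⁻¹ * (w * s) * o') * o'⁻¹ := by rw [hcomm]
      _ = o' * (o'⁻¹ * w * o' * (o'⁻¹ * s * o')) * o'⁻¹ := by group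

/-- Closure under the `p`-subgroups containing `H`. -/
theorem PCl.mem_of_pgroup [Finite G] [hpf : Fact p.Prime] (hK : PCl p H) {P : Subgroup G}
    (hP : IsPGroup p P) (hHP : H ≤ P) {g k : G} (hk : k ∈ H) (h : g * k * g⁻¹ ∈ P) : g * k * g⁻¹ ∈ H := by
  obtain ⟨O, hO, hn, hc, hm⟩ := hK g
  obtain ⟨a, ha, o, ho, e⟩ := hm k hk
  have h1 : o ∈ P := by
    have : o = a⁻¹ * (g * k * g⁻¹) := by rw [e]; group
    rw [this]
    exact P.mul_mem (P.inv_mem (hHP ha)) h
  have h2 := eq_one_of_mem_mem hpf.out hP hO h1 ho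
  rw [e, h2, mul_one]
  exact ha

/-- Heredity: subgroups. -/
theorem PCl.subgroupOf [Finite G] (hH : PCl p H) {C : Subgroup G} (hHC : H ≤ C) :
    PCl p (H.subgroupOf C) := by
  rintro ⟨g, hg⟩
  obtain ⟨O, hO, hn, hc, hm⟩ := hH g
  refine ⟨O.subgroupOf C, ?_, ?_, ?_, ?_⟩
  · intro h
    apply hO
    refine h.trans ?_
    exact Subgroup.card_comap_dvd_of_injective O C.subtype C.subtype_injective
  · intro a ha o ho
    rw [Subgroup.mem_subgroupOf] at ha ho ⊢
    exact hn _ ha _ ho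
  · intro o ho h
    rw [Subgroup.mem_subgroupOf] at ho
    apply Subtype.ext
    apply hc _ ho
    intro a ha
    have := h ⟨a, hHC ha⟩ (Subgroup.mem_subgroupOf.2 ha)
    exact congrArg Subtype.val this
  · rintro ⟨h, hC⟩ hh
    rw [Subgroup.mem_subgroupOf] at hh
    obtain ⟨a, ha, o, ho, e⟩ := hm h hh
    have hoC : o ∈ C := by
      have : o = a⁻¹ * (g * h * g⁻¹) := by rw [e]; group
      rw [this]
      exact C.mul_mem (C.inv_mem (hHC ha)) (C.mul_mem (C.mul_mem hg hC) (C.inv_mem hg))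
    refine ⟨⟨a, hHC ha⟩, Subgroup.mem_subgroupOf.2 ha, ⟨o, hoC⟩, Subgroup.mem_subgroupOf.2 ho, ?_⟩
    apply Subtype.ext
    exact e

/-- Heredity: images. -/
theorem PCl.map [Finite G] {X : Type*} [Group X] [Finite X] (hH : PCl p H) (f : G →* X)
    (hf : Function.Surjective f)
    (hk : ∀ O : Subgroup G, ¬ p ∣ Nat.card O → (∀ a ∈ H, ∀ o ∈ O, a * o * a⁻¹ ∈ O) →
      (∀ o ∈ O, (∀ a ∈ H, o * a = a * o) → o = 1) → ∀ o ∈ O, (∀ a ∈ H, f o * f a = f a * f o) → f o = 1) :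
    PCl p (H.map f) := by
  intro x
  obtain ⟨g, rfl⟩ := hf x
  obtain ⟨O, hO, hn, hc, hm⟩ := hH g
  refine ⟨O.map f, ?_, ?_, ?_, ?_⟩
  · intro h
    apply hO
    exact h.trans (Subgroup.card_map_dvd O f)
  · rintro _ ⟨a, ha, rfl⟩ _ ⟨o, ho, rfl⟩
    exact ⟨a * o * a⁻¹, hn a ha o ho, by simp⟩
  · rintro _ ⟨o, ho, rfl⟩ h
    apply hk O hO hn hc o ho
    intro a ha
    exact h _ ⟨a, ha, rfl⟩
  · rintro _ ⟨h, hh, rfl⟩
    obtain ⟨a, ha, o, ho, e⟩ := hm h hh
    refine ⟨f a, ⟨a, ha, rfl⟩, f o, ⟨o, ho, rfl⟩, ?_⟩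
    have := congrArg f e
    simpa using this

end Basic

section Central

variable {G : Type u} [Group G] [Finite G] {p : ℕ}

/-- If the `p'`-core is trivial, so is the `p'`-core modulo a central subgroup of order `p`. -/
theorem core_quot_central [hpf : Fact p.Prime] (hcore : pPrimeCore p G = ⊥) {w : G}
    (hwc : ∀ g : G, g * w = w * g) (hw : orderOf w = p) (W : Subgroup G) (hW : W = Subgroup.zpowers w)
    [W.Normal] : pPrimeCore p (G ⧸ W) = ⊥ := by
  have hpp := hpf.out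
  have hcardW : Nat.card W = p := by
    rw [hW, Nat.card_zpowers, hw]
  set T := pPrimeCore p (G ⧸ W) with hT
  let π := QuotientGroup.mk' W
  set M : Subgroup G := T.comap π with hM
  have hMn : M.Normal := Subgroup.Normal.comap inferInstance π
  have hWM : W ≤ M := by
    intro x hx
    have : π x = 1 := (QuotientGroup.eq_one_iff x).2 hx
    change π x ∈ T
    rw [this]
    exact T.one_mem
  -- cardinalities
  have hcardM : Nat.card M = Nat.card T * Nat.card W := by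
    have h2 : (T.comap π).index = T.index :=
      Subgroup.index_comap_of_surjective T (QuotientGroup.mk'_surjective W)
    have h3 := Subgroup.card_mul_index (T.comap π)
    have h4 := Subgroup.card_mul_index T
    have h5 := Subgroup.card_mul_index W
    rw [h2] at h3
    have h6 : Nat.card (G ⧸ W) = W.index := rfl
    rw [h6] at h4
    have hpos : 0 < T.index := Nat.pos_of_ne_zero Subgroup.index_ne_zero_of_finite
    apply Nat.eq_of_mul_eq_mul_right hpos
    rw [h3, ← h5, ← h4]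
    ring
  have hTodd : (Nat.card T).Coprime p := card_pPrimeCore_coprime p
  have hTnd : ¬ p ∣ Nat.card T := by
    intro h
    have := Nat.eq_one_of_dvd_coprimes hTodd h (dvd_refl p)
    exact hpp.one_lt.ne' this
  -- the complement
  let N' : Subgroup M := W.subgroupOf M
  haveI : N'.Normal := inferInstance
  have hN'card : Nat.card N' = p := by
    rw [← hcardW]
    exact Nat.card_congr (Subgroup.subgroupOfEquivOfLe hWM).toEquiv
  have hN'idx : N'.index = Nat.card T := by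
    have h1 := Subgroup.card_mul_index N'
    rw [hN'card, hcardM, hcardW, mul_comm] at h1
    exact Nat.eq_of_mul_eq_mul_right hpp.pos h1
  have hcop : (Nat.card N').Coprime N'.index := by
    rw [hN'card, hN'idx]
    exact hTodd.symm
  obtain ⟨R, hR⟩ := Subgroup.exists_right_complement'_of_coprime hcop
  have hRcard : Nat.card R = Nat.card T := by
    have h1 := hR.card_mul_card
    have h2 : Nat.card M = p * Nat.card T := by rw [hcardM, hcardW, mul_comm]
    rw [hN'card, h2] at h1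
    exact Nat.eq_of_mul_eq_mul_left hpp.pos h1
  -- `R` inside `G`
  let R' : Subgroup G := R.map M.subtype
  have hR'card : Nat.card R' = Nat.card T := by
    rw [← hRcard]
    exact Subgroup.card_map_of_injective M.subtype_injective
  have hRnd : ¬ p ∣ Nat.card R' := by
    rw [hR'card]
    exact hTnd
  -- decomposition of elements of `M`
  have hdecomp : ∀ x ∈ M, ∃ n ∈ W, ∃ r ∈ R', x = n * r := by
    intro x hx
    obtain ⟨⟨⟨n, hn⟩, ⟨r, hr⟩⟩, e⟩ := (Subgroup.isComplement'_def.1 hR).2 ⟨x, hx⟩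
    refine ⟨(n : G), hn, (r : G), ⟨r, hr, rfl⟩, ?_⟩
    have := congrArg Subtype.val e
    simpa using this.symm
  have hWelt : ∀ n ∈ W, n ^ (p ^ 1) = 1 ∧ ∀ g : G, g * n = n * g := by
    intro n hn
    rw [hW] at hn
    obtain ⟨k, rfl⟩ := Subgroup.mem_zpowers_iff.1 hn
    constructor
    · have hww : w ^ p = 1 := by
        rw [← hw]
        exact pow_orderOf_eq_one w
      rw [pow_one, ← zpow_natCast, ← zpow_mul, mul_comm, zpow_mul, zpow_natCast, hww, one_zpow]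
    · intro g
      exact ((Commute.zpow_right (hwc g) k))
  have hRchar : ∀ x ∈ M, ¬ p ∣ orderOf x → x ∈ R' := by
    intro x hx hodd
    obtain ⟨n, hn, r, hr, rfl⟩ := hdecomp x hx
    obtain ⟨hnn, hnc⟩ := hWelt n hn
    have hrodd := not_dvd_orderOf_of_mem hRnd hr
    have hc : Commute (n * r) r⁻¹ := by
      apply Commute.inv_right
      exact Commute.mul_left (hnc r).symm (Commute.refl r)
    have h1 : ¬ p ∣ orderOf ((n * r) * r⁻¹) := by
      have h2 : orderOf ((n * r) * r⁻¹) ∣ orderOf (n * r) * orderOf r⁻¹ := hc.orderOf_mul_dvd_mul_orderOf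
      rw [orderOf_inv] at h2
      intro h3
      rcases (Nat.Prime.dvd_mul hpp).1 (h3.trans h2) with h4 | h4
      · exact hodd h4
      · exact hrodd h4
    have h3 : (n * r) * r⁻¹ = n := by group
    rw [h3] at h1
    have h4 := eq_one_of_pow_of_not_dvd hpp h1 hnn
    rw [h4, one_mul]
    exact hr
  have hR'M : R' ≤ M := Subgroup.map_subtype_le _
  have hR'n : R'.Normal := by
    constructor
    intro x hx g
    apply hRchar
    · exact hMn.conj_mem x (hR'M hx) g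
    · have e : orderOf (g * x * g⁻¹) = orderOf x :=
        orderOf_injective (MulAut.conj g).toMonoidHom (MulEquiv.injective _) x
      rw [e]
      exact not_dvd_orderOf_of_mem hRnd hx
  have hR'bot : R' = ⊥ := by
    rw [eq_bot_iff, ← hcore]
    apply le_pPrimeCore hR'n
    rw [Nat.coprime_comm, hpp.coprime_iff_not_dvd]
    exact hRnd
  have hTcard : Nat.card T = 1 := by
    rw [← hR'card, hR'bot]
    simp
  exact Subgroup.card_eq_one.1 hTcard

/-- Modulo a central element of order `p`: the inductive step. -/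
theorem central_step [hpf : Fact p.Prime] (IH : ∀ (X : Type u) [Group X] [Finite X], Nat.card X < Nat.card G →
      ∀ K : Subgroup X, IsPGroup p K → IsMulCommutative K → PCl p K → Concl p K)
    (hcore : pPrimeCore p G = ⊥) {w : G} (hwc : ∀ g : G, g * w = w * g) (hw : orderOf w = p)
    {K : Subgroup G} (hK2 : IsPGroup p K) (hKab : IsMulCommutative K) (hKc : PCl p K) :
    ∀ g : G, ∀ k ∈ K, g * k * g⁻¹ ∈ K := by
  have hpp := hpf.out
  set W : Subgroup G := Subgroup.zpowers w with hWd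
  haveI hWn : W.Normal := by
    constructor
    intro n hn g
    obtain ⟨j, rfl⟩ := Subgroup.mem_zpowers_iff.1 hn
    have : g * w ^ j * g⁻¹ = w ^ j := by
      have h2 : Commute g (w ^ j) := Commute.zpow_right (hwc g) j
      rw [h2.eq, mul_inv_cancel_right]
    rw [this]
    exact hn
  have hcardW : Nat.card W = p := by
    rw [hWd, Nat.card_zpowers, hw]
  have hWp : IsPGroup p W := by
    rw [IsPGroup.iff_card]
    exact ⟨1, by rw [hcardW, pow_one]⟩
  have hcq := core_quot_central hcore hwc hw W hWd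
  have hlt : Nat.card (G ⧸ W) < Nat.card G := by
    have h1 := Subgroup.card_mul_index W
    rw [hcardW] at h1
    have h6 : Nat.card (G ⧸ W) = W.index := rfl
    have hG : 0 < Nat.card G := Nat.card_pos
    rw [h6]
    have h2 := hpp.two_le
    nlinarith [Nat.pos_of_ne_zero (Subgroup.index_ne_zero_of_finite (H := W))]
  let π := QuotientGroup.mk' W
  have hπ : Function.Surjective π := QuotientGroup.mk'_surjective W
  have hPm : PCl p (K.map π) := by
    apply hKc.map π hπ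
    intro O hO hn hc o ho h
    have h1 : o = 1 := by
      apply hc o ho
      intro a ha
      have h2 : π (o * a * o⁻¹ * a⁻¹) = 1 := by
        simp only [map_mul, map_inv]
        rw [h a ha]
        group
      have h3 : o * a * o⁻¹ * a⁻¹ ∈ W := (QuotientGroup.eq_one_iff _).1 h2
      have h4 : o * a * o⁻¹ * a⁻¹ ∈ O := by
        have e : o * a * o⁻¹ * a⁻¹ = o * (a * o⁻¹ * a⁻¹) := by group
        rw [e]
        exact O.mul_mem ho (hn a ha _ (O.inv_mem ho))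
      have h5 := eq_one_of_mem_mem hpp hWp hO h3 h4
      have h6 : o * a * o⁻¹ = a := by
        rwa [mul_inv_eq_one] at h5
      rwa [mul_inv_eq_iff_eq_mul] at h6
    rw [h1, map_one]
  have hC := IH (G ⧸ W) hlt (K.map π) (hK2.map π) (by
    constructor
    constructor
    rintro ⟨_, a, ha, rfl⟩ ⟨_, b, hb, rfl⟩
    apply Subtype.ext
    have := hKab.is_comm.comm ⟨a, ha⟩ ⟨b, hb⟩
    have h2 := congrArg Subtype.val this
    simp only [Subgroup.coe_mul] at h2 ⊢
    rw [← map_mul, ← map_mul, h2]) hPm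
  intro g k hk
  obtain ⟨_, ⟨a, ha, rfl⟩, τ, hτ, e⟩ := hC (π g) (π k) ⟨k, hk, rfl⟩
  rw [hcq, Subgroup.mem_bot] at hτ
  rw [hτ, mul_one] at e
  have h1 : π (a⁻¹ * (g * k * g⁻¹)) = 1 := by
    rw [map_mul, map_inv, map_mul, map_mul, map_inv, e]
    simp
  have h2 : a⁻¹ * (g * k * g⁻¹) ∈ W := (QuotientGroup.eq_one_iff _).1 h1
  have hP : IsPGroup p (K ⊔ W : Subgroup G) := hK2.to_sup_of_normal_right hWp
  apply hKc.mem_of_pgroup hP le_sup_left hk
  have h4 : g * k * g⁻¹ = a * (a⁻¹ * (g * k * g⁻¹)) := by group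
  rw [h4]
  exact Subgroup.mul_mem _ (Subgroup.mem_sup_left ha) (Subgroup.mem_sup_right h2)

/-- A closed `p`-group normal in a normal subgroup is normal. -/
theorem normal_of_normal_in_normal [hpf : Fact p.Prime] {N K : Subgroup G} (hN : N.Normal) (hKN : K ≤ N)
    (hKn : ∀ n ∈ N, ∀ k ∈ K, n * k * n⁻¹ ∈ K) (hK2 : IsPGroup p K) (hKc : PCl p K) :
    ∀ g : G, ∀ k ∈ K, g * k * g⁻¹ ∈ K := by
  intro g k hk
  set y := g * k * g⁻¹ with hy
  have hyN : y ∈ N := hN.conj_mem k (hKN hk) g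
  have hleZ : Subgroup.zpowers y ≤ Subgroup.normalizer (K : Set G) := by
    rw [Subgroup.zpowers_le]
    exact mem_normalizer_of_forall (hKn y hyN)
  have hyP : IsPGroup p (Subgroup.zpowers y) := by
    obtain ⟨j, hj⟩ := pow_pow_of_mem hK2 hk
    have hy2 : y ^ (p ^ j) = 1 := by
      rw [hy]
      have : (g * k * g⁻¹) ^ (p ^ j) = g * k ^ (p ^ j) * g⁻¹ := by
        exact conj_pow
      rw [this, hj]
      group
    rintro ⟨x, hx⟩
    obtain ⟨i, rfl⟩ := Subgroup.mem_zpowers_iff.1 hx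
    refine ⟨j, Subtype.ext ?_⟩
    simp only [Subgroup.coe_pow, Subgroup.coe_one]
    rw [← zpow_natCast, ← zpow_mul, mul_comm, zpow_mul, zpow_natCast, hy2, one_zpow]
  have hP := hK2.to_sup_of_normal_left' hyP hleZ
  exact hKc.mem_of_pgroup hP le_sup_left hk
    (Subgroup.mem_sup_right (Subgroup.mem_zpowers y))

/-- The `p'`-core of a normal subgroup, when the `p'`-core of the group is trivial. -/
theorem core_normal_bot (hcore : pPrimeCore p G = ⊥) (N : Subgroup G) [N.Normal] :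
    pPrimeCore p N = ⊥ := by
  have h := map_pPrimeCore_of_normal (G := G) p N
  rw [hcore, inf_bot_eq] at h
  exact (Subgroup.map_eq_bot_iff_of_injective _ N.subtype_injective).1 h

theorem card_lt_of_ne_top {N : Subgroup G} (h : N ≠ ⊤) : Nat.card N < Nat.card G := by
  have h1 : Nat.card N ∣ Nat.card G := Subgroup.card_subgroup_dvd_card N
  have h2 : Nat.card N ≠ Nat.card G := by
    intro h3
    exact h ((Subgroup.card_eq_iff_eq_top N).1 h3)
  exact lt_of_le_of_ne (Nat.le_of_dvd Nat.card_pos h1) h2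

/-- Closed abelian `p`-subgroups of a proper normal subgroup are normal. -/
theorem normal_in_of_IH [hpf : Fact p.Prime] (IH : ∀ (X : Type u) [Group X] [Finite X], Nat.card X < Nat.card G →
      ∀ K : Subgroup X, IsPGroup p K → IsMulCommutative K → PCl p K → Concl p K)
    (hcore : pPrimeCore p G = ⊥) {N : Subgroup G} [hN : N.Normal] (hlt : Nat.card N < Nat.card G)
    {K : Subgroup G} (hKN : K ≤ N) (hK2 : IsPGroup p K) (hKc : ∀ a ∈ K, ∀ b ∈ K, a * b = b * a)
    (hKn : PCl p K) : ∀ g : G, ∀ k ∈ K, g * k * g⁻¹ ∈ K := by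
  have h1 := IH (↥N) hlt (K.subgroupOf N) (hK2.comap_of_injective N.subtype N.subtype_injective) (by
      constructor
      constructor
      rintro ⟨a, ha⟩ ⟨b, hb⟩
      apply Subtype.ext
      apply Subtype.ext
      exact hKc _ ha _ hb) (hKn.subgroupOf hKN)
  have hcoreN := core_normal_bot hcore N
  apply normal_of_normal_in_normal hN hKN ?_ hK2 hKn
  intro n hn k hk
  obtain ⟨a, ha, τ, hτ, e⟩ := h1 ⟨n, hn⟩ ⟨k, hKN hk⟩ (Subgroup.mem_subgroupOf.2 hk)
  rw [hcoreN, Subgroup.mem_bot] at hτ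
  rw [hτ, mul_one] at e
  have h2 := congrArg Subtype.val e
  simp only [Subgroup.coe_mul, InvMemClass.coe_inv] at h2
  rw [h2]
  exact Subgroup.mem_subgroupOf.1 ha

/-- An element of `O` commuting with `b ∈ H` lies in the `p'`-core of the centralizer of `b`. -/
theorem mem_core_of_comm [hpf : Fact p.Prime] (IH : ∀ (X : Type u) [Group X] [Finite X], Nat.card X < Nat.card G →
      ∀ K : Subgroup X, IsPGroup p K → IsMulCommutative K → PCl p K → Concl p K)
    {H : Subgroup G} (hHp : IsPGroup p H) (hHc : ∀ a ∈ H, ∀ b ∈ H, a * b = b * a) (hcl : PCl p H)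
    {b : G} (hb : b ∈ H) (hlt : Nat.card (Subgroup.centralizer ({b} : Set G)) < Nat.card G)
    {O : Subgroup G} (hO : ¬ p ∣ Nat.card O) (hn : ∀ a ∈ H, ∀ o ∈ O, a * o * a⁻¹ ∈ O)
    (hc : ∀ o ∈ O, (∀ a ∈ H, o * a = a * o) → o = 1) {u : G} (hu : u ∈ O) (hub : u * b = b * u) :
    u ∈ centralizerPPrimeCore p b := by
  have hpp := hpf.out
  set C := Subgroup.centralizer ({b} : Set G) with hCd
  have hHC : H ≤ C := fun a ha => Subgroup.mem_centralizer_singleton_iff.2 (hHc a ha b hb)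
  have huC : u ∈ C := Subgroup.mem_centralizer_singleton_iff.2 hub
  have hConcl := IH (↥C) hlt (H.subgroupOf C) (hHp.comap_of_injective C.subtype C.subtype_injective) (by
      constructor
      constructor
      rintro ⟨a, ha⟩ ⟨c, hc⟩
      apply Subtype.ext
      apply Subtype.ext
      exact hHc _ ha _ hc) (hcl.subgroupOf hHC)
  set R := centralizerPPrimeCore p b with hRd
  have hRnd : ¬ p ∣ Nat.card R := by
    rw [hRd]
    unfold centralizerPPrimeCore
    rw [Subgroup.card_map_of_injective (Subgroup.subtype_injective _)]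
    exact not_dvd_card_pPrimeCore p
  have hRn : ∀ c ∈ C, ∀ r ∈ R, c * r * c⁻¹ ∈ R := by
    rintro c hc _ ⟨r, hr, rfl⟩
    refine ⟨⟨c, hc⟩ * r * ⟨c, hc⟩⁻¹, ?_, by simp⟩
    have hnorm : (pPrimeCore p (↥C)).Normal := inferInstance
    exact hnorm.conj_mem r hr _
  have hw : ∀ a ∈ H, u⁻¹ * (a * u * a⁻¹) ∈ R ⊓ O := by
    intro a ha
    have hCu : u⁻¹ ∈ C := C.inv_mem huC
    obtain ⟨a', ha', τ, hτ, e⟩ := hConcl ⟨u⁻¹, hCu⟩ ⟨a, hHC ha⟩ (Subgroup.mem_subgroupOf.2 ha)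
    have e' : u⁻¹ * a * u⁻¹⁻¹ = (a' : G) * (τ : G) := congrArg Subtype.val e
    rw [inv_inv] at e'
    have ha'H : (a' : G) ∈ H := Subgroup.mem_subgroupOf.1 ha'
    have hτR : (τ : G) ∈ R := ⟨τ, hτ, rfl⟩
    set τ' := a * (τ : G) * a⁻¹ with hτ'
    have hτ'R : τ' ∈ R := hRn a (hHC ha) _ hτR
    set c := (a' : G) * a⁻¹ with hcd
    have hcH : c ∈ H := H.mul_mem ha'H (H.inv_mem ha)
    have hEO : u⁻¹ * (a * u * a⁻¹) ∈ O := O.mul_mem (O.inv_mem hu) (hn a ha u hu)
    have hE : u⁻¹ * (a * u * a⁻¹) = c * τ' := by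
      rw [hcd, hτ']
      calc u⁻¹ * (a * u * a⁻¹) = (u⁻¹ * a * u) * a⁻¹ := by group
        _ = (a' : G) * (τ : G) * a⁻¹ := by rw [e']
        _ = (a' : G) * a⁻¹ * (a * (τ : G) * a⁻¹) := by group
    have hτ'E : τ' = c⁻¹ * (u⁻¹ * (a * u * a⁻¹)) := by
      rw [hE]
      group
    have hc1 : c⁻¹ = 1 := by
      apply eq_one_of_pprime_mul hpp hHp hO hn (H.inv_mem hcH) hEO
      rw [← hτ'E]
      exact not_dvd_orderOf_of_mem hRnd hτ'R
    rw [hc1, one_mul] at hτ'E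
    rw [← hτ'E]
    exact ⟨hτ'R, hτ'E ▸ hEO⟩
  have hK : ¬ p ∣ Nat.card (R ⊓ O : Subgroup G) := fun h =>
    hRnd (h.trans (Subgroup.card_dvd_of_le inf_le_left))
  obtain ⟨v, hv, hfix⟩ := CoprimeHyper.exists_fixed_in_coset H (R ⊓ O) hHp hK (by
    intro a ha k hk
    exact ⟨hRn a (hHC ha) k hk.1, hn a ha k hk.2⟩) u hw
  have h1 : u * v = 1 := by
    apply hc _ (O.mul_mem hu hv.2)
    intro a ha
    have := hfix a ha
    rw [mul_inv_eq_iff_eq_mul] at this
    exact this.symm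
  have h2 : u = v⁻¹ := eq_inv_of_mul_eq_one_left h1
  rw [h2]
  exact R.inv_mem hv.1

end Central

end Cfsg.Agent.Lib.XcoGroup
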