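import Mathlib
import Cfsg.Agent.Lib.XcoFix1
import Cfsg.Agent.Lib.XcoGroup

/-!
# Fixed points of a closed abelian `p`-group on a `p'`-group, `p` odd
-/

set_option autoImplicit false
set_option linter.style.haveILetI false
set_option linter.unusedVariables false
set_option linter.unusedSectionVars false

namespace Cfsg.Agent.Lib.XcoFix2

open Cfsg Cfsg.Agent.Lib.CharBasic Cfsg.Agent.Lib.CharInd Cfsg.Agent.Lib.Clifford
open Cfsg.Agent.Lib.GlaubCorr Cfsg.Agent.Lib.GlaubCount Cfsg.Agent.Lib.GlaubCyc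
open Cfsg.Agent.Lib.GlaubCycVal Cfsg.Agent.Lib.GlaubSyl3 Cfsg.Agent.Lib.GlaubSyl5
open Cfsg.Agent.Lib.BlockNormal Cfsg.Agent.Lib.XcoGroup Cfsg.Agent.Lib.XcoFix1
open scoped ComplexConjugate

universe u

attribute [local instance] Fintype.ofFinite

theorem zpowers_mul_self {W : Type*} [Group W] {x : W} {m : ℕ} (h : x ^ (2 * m + 1) = 1) :
    Subgroup.zpowers (x * x) = Subgroup.zpowers x := by
  apply le_antisymm
  · rw [Subgroup.zpowers_le]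
    exact Subgroup.mul_mem _ (Subgroup.mem_zpowers x) (Subgroup.mem_zpowers x)
  · rw [Subgroup.zpowers_le]
    have e : (x * x) ^ (m + 1) = x := by
      rw [← sq, ← pow_mul]
      have : 2 * (m + 1) = (2 * m + 1) + 1 := by ring
      rw [this, pow_succ, h, one_mul]
    have h2 : (x * x) ^ (m + 1) ∈ Subgroup.zpowers (x * x) :=
      Subgroup.pow_mem _ (Subgroup.mem_zpowers _) _
    rwa [e] at h2

/-- The step for one element `z`. -/
theorem step_z {Γ : Type u} [Group Γ] [Finite Γ] {p : ℕ} [hpf : Fact p.Prime] (hp2 : p ≠ 2) {H : Subgroup Γ}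
    (hHp : IsPGroup p H) (hHc : ∀ a ∈ H, ∀ b ∈ H, a * b = b * a) {E : Subgroup Γ} (hEc : ¬ p ∣ Nat.card E)
    (hEn : ∀ a ∈ H, ∀ e ∈ E, a * e * a⁻¹ ∈ E) (ψ : IrrCharacter E)
    (hψ : ∀ a ∈ H, ∀ g g' : E, (g' : Γ) = a * g * a⁻¹ → (ψ : E → ℂ) g' = (ψ : E → ℂ) g) {z : Γ} (hzH : z ∈ H)
    (Ez : Subgroup Γ) (hEzC : Ez ≤ E ⊓ Subgroup.centralizer ({z} : Set Γ))
    (hEzH : ∀ a ∈ H, ∀ x ∈ Ez, a * x * a⁻¹ ∈ Ez)
    (hEzN : ∀ c ∈ E ⊓ Subgroup.centralizer ({z} : Set Γ), ∀ x ∈ Ez, c * x * c⁻¹ ∈ Ez)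
    (hEzF : ∀ y ∈ Ez, (∀ a ∈ H, y * a = a * y) → y = 1)
    (hconj : ∀ e ∈ E, ∃ o' ∈ E, ∃ s ∈ Ez, s * z = z * s ∧ z * (e * z * e⁻¹) = o' * (s * (z * z)) * o'⁻¹) :
    ∀ e e' : E, (e' : Γ) = (e : Γ)⁻¹ * (z * e * z⁻¹) → (ψ : E → ℂ) e' = (ψ : E → ℂ) 1 := by
  have hpp := hpf.out
  set Z := Subgroup.zpowers z with hZd
  have hZH : Z ≤ H := by
    rw [hZd, Subgroup.zpowers_le]
    exact hzH
  have hnZ : ∀ t ∈ Z, ∀ e ∈ E, t * e * t⁻¹ ∈ E := fun t ht e he => hEn t (hZH ht) e he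
  set Γ₀ := HO Z E hnZ with hΓ₀
  have hEΓ : E ≤ Γ₀ := fun e he => ⟨1, Z.one_mem, e, he, by simp⟩
  have hZΓ : Z ≤ Γ₀ := fun t ht => ⟨t, ht, 1, E.one_mem, by simp⟩
  have hzΓ : z ∈ Γ₀ := hZΓ (Subgroup.mem_zpowers z)
  set G₀ : Subgroup Γ₀ := E.subgroupOf Γ₀ with hG₀
  set S₀ : Subgroup Γ₀ := Z.subgroupOf Γ₀ with hS₀
  set C₀ : Subgroup Γ₀ := G₀ ⊓ Subgroup.centralizer (S₀ : Set Γ₀) with hC₀
  haveI hG₀n : G₀.Normal := by
    constructor
    rintro ⟨x, hx⟩ hxG ⟨g, t, ht, e, he, rfl⟩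
    rw [hG₀, Subgroup.mem_subgroupOf] at hxG ⊢
    have e1 : t * e * x * (t * e)⁻¹ = t * (e * x * e⁻¹) * t⁻¹ := by group
    show t * e * x * (t * e)⁻¹ ∈ E
    rw [e1]
    exact hnZ t ht _ (E.mul_mem (E.mul_mem he hxG) (E.inv_mem he))
  set zz : Γ₀ := ⟨z, hzΓ⟩ with hzz
  have hzS : Subgroup.zpowers zz = S₀ := by
    ext ⟨x, hx⟩
    rw [hS₀, Subgroup.mem_subgroupOf]
    constructor
    · rintro ⟨k, hk⟩
      have := congrArg Subtype.val hk
      simp only [Subgroup.coe_zpow] at this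
      show x ∈ Z
      rw [← this]
      exact Subgroup.zpow_mem_zpowers z k
    · rintro ⟨k, hk⟩
      refine ⟨k, Subtype.ext ?_⟩
      simpa using hk
  obtain ⟨k, hk⟩ := pow_pow_of_mem hHp hzH
  have hodd : Odd (p ^ k) := Odd.pow (hpp.odd_of_ne_two hp2)
  obtain ⟨m, hm⟩ := hodd
  have hzS2 : Subgroup.zpowers (zz * zz) = S₀ := by
    rw [← hzS]
    apply zpowers_mul_self (m := m)
    apply Subtype.ext
    show z ^ (2 * m + 1) = 1
    rw [← hm]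
    exact hk
  have hcardG₀ : Nat.card G₀ = Nat.card E := Nat.card_congr (Subgroup.subgroupOfEquivOfLe hEΓ).toEquiv
  have hcardS₀ : Nat.card S₀ = Nat.card Z := Nat.card_congr (Subgroup.subgroupOfEquivOfLe hZΓ).toEquiv
  have hs : Setup G₀ S₀ C₀ := by
    refine ⟨?_, ?_, ?_, rfl⟩
    · rw [hcardG₀, hcardS₀, hZd, Nat.card_zpowers]
      have h1 : orderOf z ∣ p ^ k := orderOf_dvd_of_pow_eq_one hk
      obtain ⟨j, -, hj⟩ := (Nat.dvd_prime_pow hpp).1 h1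
      rw [hj]
      apply Nat.Coprime.pow_right
      rw [Nat.coprime_comm, hpp.coprime_iff_not_dvd]
      exact hEc
    · rw [eq_top_iff]
      rintro ⟨x, t, ht, e, he, rfl⟩ -
      have e1 : (⟨t * e, t, ht, e, he, rfl⟩ : Γ₀) = ⟨t, hZΓ ht⟩ * ⟨e, hEΓ he⟩ := rfl
      rw [e1]
      exact Subgroup.mul_mem _ (Subgroup.mem_sup_right (Subgroup.mem_subgroupOf.2 ht))
        (Subgroup.mem_sup_left (Subgroup.mem_subgroupOf.2 he))
    · rw [← hzS]
      infer_instance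
  have hnormΓ : ∀ s ∈ H, ∀ g ∈ Γ₀, s * g * s⁻¹ ∈ Γ₀ := by
    rintro s hs' _ ⟨t, ht, e, he, rfl⟩
    refine ⟨t, ht, s * e * s⁻¹, hEn s hs' e he, ?_⟩
    have hc : s * t = t * s := hHc s hs' t (hZH ht)
    calc s * (t * e) * s⁻¹ = (s * t) * e * s⁻¹ := by group
      _ = (t * s) * e * s⁻¹ := by rw [hc]
      _ = t * (s * e * s⁻¹) := by group
  set a : H →* MulAut Γ₀ := conjHom Γ₀ H hnormΓ with ha
  have hGa : ∀ s, ∀ g ∈ G₀, a s g ∈ G₀ := by
    rintro s ⟨g, hg⟩ hgG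
    rw [hG₀, Subgroup.mem_subgroupOf] at hgG ⊢
    exact hEn s s.2 g hgG
  have hzfix : ∀ s, a s zz = zz := by
    intro s
    apply Subtype.ext
    show (s : Γ) * z * (s : Γ)⁻¹ = z
    rw [hHc s s.2 z hzH]
    group
  -- the character on `G₀`
  set φ := Subgroup.subgroupOfEquivOfLe hEΓ with hφ
  let ψ₀ : IrrCharacter G₀ := ⟨(ψ : E → ℂ) ∘ φ.toMonoidHom,
    isIrrCharacter_comp_of_surjective φ.toMonoidHom φ.surjective ψ.2⟩
  have hψ₀ : ∀ (g : G₀) (e : E), ((g : Γ₀) : Γ) = e → (ψ₀ : G₀ → ℂ) g = (ψ : E → ℂ) e := by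
    intro g e he
    show (ψ : E → ℂ) (φ g) = _
    have h1 : φ g = e := Subtype.ext he
    rw [h1]
  have hinvS : InvS G₀ S₀ (ψ₀ : G₀ → ℂ) := by
    intro s hs' g g' hg'
    have hsH : ((s : Γ₀) : Γ) ∈ H := hZH (Subgroup.mem_subgroupOf.1 hs')
    have h1 : ((g' : Γ₀) : Γ) = ((s : Γ₀) : Γ) * ((g : Γ₀) : Γ) * ((s : Γ₀) : Γ)⁻¹ :=
      congrArg Subtype.val hg'
    exact hψ _ hsH (φ g) (φ g') h1
  let χ : XS G₀ S₀ := ⟨ψ₀, hinvS⟩
  have hχ : ∀ s, ∀ g : G₀, (χ.1 : G₀ → ℂ) ⟨a s g, hGa s g g.2⟩ = (χ.1 : G₀ → ℂ) g := by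
    intro s g
    exact hψ s s.2 (φ g) (φ ⟨a s g, hGa s g g.2⟩) rfl
  -- the subgroup `B`
  have hCmem : ∀ c : C₀, ((c : Γ₀) : Γ) ∈ E ⊓ Subgroup.centralizer ({z} : Set Γ) := by
    intro c
    have hc := Subgroup.mem_inf.1 c.2
    refine Subgroup.mem_inf.2 ⟨Subgroup.mem_subgroupOf.1 hc.1, ?_⟩
    rw [Subgroup.mem_centralizer_singleton_iff]
    have h1 := Subgroup.mem_centralizer_iff.1 hc.2 zz (by
      rw [SetLike.mem_coe, ← hzS]
      exact Subgroup.mem_zpowers _)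
    have h2 := congrArg Subtype.val h1
    exact h2.symm
  let f : C₀ →* Γ := Γ₀.subtype.comp C₀.subtype
  let B : Subgroup C₀ := Ez.comap f
  haveI hBn : B.Normal := by
    constructor
    intro n hn c
    show f (c * n * c⁻¹) ∈ Ez
    have e1 : f (c * n * c⁻¹) = f c * f n * (f c)⁻¹ := by simp
    rw [e1]
    exact hEzN _ (hCmem c) _ hn
  have hBa : ∀ s, ∀ n : C₀, n ∈ B → ∀ h : a s n ∈ C₀, (⟨a s n, h⟩ : C₀) ∈ B := by
    intro s n hn h
    exact hEzH s s.2 _ hn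
  have hfpf : ∀ b ∈ B, (∀ s, a s (b : Γ₀) = b) → b = 1 := by
    intro b hb h
    have h1 : f b = 1 := by
      apply hEzF _ hb
      intro x hx
      have h2 := congrArg Subtype.val (h ⟨x, hx⟩)
      have h3 : x * f b * x⁻¹ = f b := h2
      have h4 := (mul_inv_eq_iff_eq_mul.1 h3)
      exact h4.symm
    apply Subtype.ext
    apply Subtype.ext
    exact h1
  have hconj' : ∀ e ∈ G₀, ∃ c : C₀, c ∈ B ∧ IsConj (zz * (e * zz * e⁻¹)) ((c : Γ₀) * (zz * zz)) := by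
    rintro ⟨e, heΓ⟩ he
    obtain ⟨o', ho', s, hs', hsz, hj⟩ := hconj e (Subgroup.mem_subgroupOf.1 he)
    have hsE : s ∈ E := (Subgroup.mem_inf.1 (hEzC hs')).1
    have hsC : (⟨s, hEΓ hsE⟩ : Γ₀) ∈ C₀ := by
      refine Subgroup.mem_inf.2 ⟨Subgroup.mem_subgroupOf.2 hsE, ?_⟩
      rw [Subgroup.mem_centralizer_iff]
      intro y hy
      rw [SetLike.mem_coe, ← hzS] at hy
      obtain ⟨j, rfl⟩ := hy
      have h1 : zz * (⟨s, hEΓ hsE⟩ : Γ₀) = (⟨s, hEΓ hsE⟩ : Γ₀) * zz := Subtype.ext hsz.symm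
      exact ((show Commute zz (⟨s, hEΓ hsE⟩ : Γ₀) from h1).zpow_left j).eq
    refine ⟨⟨⟨s, hEΓ hsE⟩, hsC⟩, hs', ?_⟩
    refine IsConj.symm (isConj_iff.2 ⟨⟨o', hEΓ ho'⟩, ?_⟩)
    apply Subtype.ext
    exact hj.symm
  have hcop : ¬ p ∣ Nat.card G₀ := by
    rw [hcardG₀]
    exact hEc
  have hmain := abstract_step hs p hHp a hcop hGa hzS hzS2 hzfix χ hχ B hBa hfpf hconj'
  intro e e' he'
  have h1 := hmain ⟨⟨e, hEΓ e.2⟩, Subgroup.mem_subgroupOf.2 e.2⟩ ⟨⟨e', hEΓ e'.2⟩, Subgroup.mem_subgroupOf.2 e'.2⟩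
    (Subtype.ext he')
  have h2 := hψ₀ ⟨⟨e', hEΓ e'.2⟩, Subgroup.mem_subgroupOf.2 e'.2⟩ e' rfl
  have h3 := hψ₀ 1 1 rfl
  exact h2.symm.trans (h1.trans h3)

section Comm

variable {Γ : Type u} [Group Γ] {p : ℕ} {H : Subgroup Γ}

/-- The commutator subgroup `[D, H]`. -/
def cmm (D H : Subgroup Γ) : Subgroup Γ :=
  Subgroup.closure {x | ∃ c ∈ D, ∃ a ∈ H, x = c⁻¹ * (a * c * a⁻¹)}

theorem gen_mem {D : Subgroup Γ} {c a : Γ} (hc : c ∈ D) (ha : a ∈ H) : c⁻¹ * (a * c * a⁻¹) ∈ cmm D H :=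
  Subgroup.subset_closure ⟨c, hc, a, ha, rfl⟩

theorem cmm_le {D : Subgroup Γ} (hD : ∀ a ∈ H, ∀ d ∈ D, a * d * a⁻¹ ∈ D) : cmm D H ≤ D :=
  (Subgroup.closure_le _).2 (by
    rintro _ ⟨c, hc, a, ha, rfl⟩
    exact D.mul_mem (D.inv_mem hc) (hD a ha c hc))

theorem cmm_stable (hHc : ∀ a ∈ H, ∀ b ∈ H, a * b = b * a) {D : Subgroup Γ}
    (hD : ∀ a ∈ H, ∀ d ∈ D, a * d * a⁻¹ ∈ D) : ∀ a ∈ H, ∀ x ∈ cmm D H, a * x * a⁻¹ ∈ cmm D H := by
  intro b hb x hx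
  induction hx using Subgroup.closure_induction with
  | mem x hx =>
    obtain ⟨c, hc, a, ha, rfl⟩ := hx
    have h0 : b * a = a * b := hHc b hb a ha
    have h1 : b⁻¹ * a * b = a := by
      rw [mul_assoc, ← h0]
      group
    have h2 : b⁻¹ * a⁻¹ = a⁻¹ * b⁻¹ := by
      rw [← mul_inv_rev, ← mul_inv_rev, h0]
    have e : b * (c⁻¹ * (a * c * a⁻¹)) * b⁻¹ = (b * c * b⁻¹)⁻¹ * (a * (b * c * b⁻¹) * a⁻¹) := by
      calc b * (c⁻¹ * (a * c * a⁻¹)) * b⁻¹ = b * c⁻¹ * a * c * (a⁻¹ * b⁻¹) := by group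
        _ = b * c⁻¹ * (b⁻¹ * a * b) * c * (b⁻¹ * a⁻¹) := by rw [h1, h2]
        _ = (b * c * b⁻¹)⁻¹ * (a * (b * c * b⁻¹) * a⁻¹) := by group
    rw [e]
    exact gen_mem (hD b hb c hc) ha
  | one =>
    simp [Subgroup.one_mem]
  | mul x y _ _ hx hy =>
    have e : b * (x * y) * b⁻¹ = (b * x * b⁻¹) * (b * y * b⁻¹) := by group
    rw [e]
    exact Subgroup.mul_mem _ hx hy
  | inv x _ hx =>
    have e : b * x⁻¹ * b⁻¹ = (b * x * b⁻¹)⁻¹ := by group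
    rw [e]
    exact Subgroup.inv_mem _ hx

theorem cmm_normal {D : Subgroup Γ} (hD : ∀ a ∈ H, ∀ d ∈ D, a * d * a⁻¹ ∈ D) :
    ∀ d ∈ D, ∀ x ∈ cmm D H, d * x * d⁻¹ ∈ cmm D H := by
  intro d hd x hx
  induction hx using Subgroup.closure_induction with
  | mem x hx =>
    obtain ⟨c, hc, a, ha, rfl⟩ := hx
    have e : d * (c⁻¹ * (a * c * a⁻¹)) * d⁻¹ = ((c * d⁻¹)⁻¹ * (a * (c * d⁻¹) * a⁻¹)) *
        ((a * d⁻¹ * a⁻¹)⁻¹ * (a⁻¹ * (a * d⁻¹ * a⁻¹) * a⁻¹⁻¹)) := by group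
    rw [e]
    exact Subgroup.mul_mem _ (gen_mem (D.mul_mem hc (D.inv_mem hd)) ha)
      (gen_mem (hD a ha _ (D.inv_mem hd)) (H.inv_mem ha))
  | one =>
    simp [Subgroup.one_mem]
  | mul x y _ _ hx hy =>
    have e : d * (x * y) * d⁻¹ = (d * x * d⁻¹) * (d * y * d⁻¹) := by group
    rw [e]
    exact Subgroup.mul_mem _ hx hy
  | inv x _ hx =>
    have e : d * x⁻¹ * d⁻¹ = (d * x * d⁻¹)⁻¹ := by group
    rw [e]
    exact Subgroup.inv_mem _ hx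

variable [Finite Γ]

theorem cmm_le_closure [hpf : Fact p.Prime] (hHp : IsPGroup p H) (hHc : ∀ a ∈ H, ∀ b ∈ H, a * b = b * a)
    {D : Subgroup Γ} (hDp : ¬ p ∣ Nat.card D) (hD : ∀ a ∈ H, ∀ d ∈ D, a * d * a⁻¹ ∈ D) :
    cmm D H ≤ Subgroup.closure {x | ∃ e ∈ cmm D H, ∃ a ∈ H, x = e * a * e⁻¹ * a⁻¹} := by
  conv_lhs => rw [cmm]
  apply (Subgroup.closure_le _).2
  rintro _ ⟨c, hc, a, ha, rfl⟩
  have hK : ¬ p ∣ Nat.card (cmm D H) := fun h => hDp (h.trans (Subgroup.card_dvd_of_le (cmm_le hD)))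
  obtain ⟨u, hu, hfix⟩ := CoprimeHyper.exists_fixed_in_coset H (cmm D H) hHp hK (cmm_stable hHc hD) c
    (fun b hb => gen_mem hc hb)
  have hw : a * (c * u) = (c * u) * a := mul_inv_eq_iff_eq_mul.1 (hfix a ha)
  apply Subgroup.subset_closure
  refine ⟨u, hu, a, ha, ?_⟩
  calc c⁻¹ * (a * c * a⁻¹) = u * (c * u)⁻¹ * (a * (c * u)) * u⁻¹ * a⁻¹ := by group
    _ = u * (c * u)⁻¹ * ((c * u) * a) * u⁻¹ * a⁻¹ := by rw [hw]
    _ = u * a * u⁻¹ * a⁻¹ := by group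

theorem le_cmm_of_fixfree [hpf : Fact p.Prime] (hHp : IsPGroup p H) (hHc : ∀ a ∈ H, ∀ b ∈ H, a * b = b * a)
    {D D' : Subgroup Γ} (hDp : ¬ p ∣ Nat.card D) (hD : ∀ a ∈ H, ∀ d ∈ D, a * d * a⁻¹ ∈ D) (hD' : D' ≤ D)
    (hD's : ∀ a ∈ H, ∀ d ∈ D', a * d * a⁻¹ ∈ D') (hfix : ∀ y ∈ D', (∀ a ∈ H, y * a = a * y) → y = 1) :
    D' ≤ cmm D H := by
  intro s hs
  have hK : ¬ p ∣ Nat.card (D' ⊓ cmm D H : Subgroup Γ) := fun h =>
    hDp (h.trans (Subgroup.card_dvd_of_le (inf_le_left.trans hD')))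
  obtain ⟨u, hu, hfx⟩ := CoprimeHyper.exists_fixed_in_coset H (D' ⊓ cmm D H) hHp hK
    (fun a ha x hx => ⟨hD's a ha x hx.1, cmm_stable hHc hD a ha x hx.2⟩) s
    (fun b hb => ⟨D'.mul_mem (D'.inv_mem hs) (hD's b hb s hs), gen_mem (hD' hs) hb⟩)
  have h1 : s * u = 1 := by
    apply hfix _ (D'.mul_mem hs hu.1)
    intro a ha
    exact (mul_inv_eq_iff_eq_mul.1 (hfx a ha)).symm
  have h2 : s = u⁻¹ := eq_inv_of_mul_eq_one_left h1
  rw [h2]
  exact Subgroup.inv_mem _ hu.2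

/-- The form of the products `z · e z e⁻¹`. -/
theorem conj_form [hpf : Fact p.Prime] (hp2 : p ≠ 2) (hHp : IsPGroup p H)
    (hHc : ∀ a ∈ H, ∀ b ∈ H, a * b = b * a) {E : Subgroup Γ} (hEc : ¬ p ∣ Nat.card E)
    (hEn : ∀ a ∈ H, ∀ e ∈ E, a * e * a⁻¹ ∈ E)
    (hstar : ∀ e ∈ E, ∀ y ∈ E, y ∈ H ⊔ H.map (MulAut.conj e).toMonoidHom → (∀ a ∈ H, y * a = a * y) → y = 1)
    {z : Γ} (hzH : z ∈ H) {e : Γ} (he : e ∈ E) :
    ∃ o' ∈ E, ∃ s ∈ cmm (E ⊓ Subgroup.centralizer ({z} : Set Γ)) H, s * z = z * s ∧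
      z * (e * z * e⁻¹) = o' * (s * (z * z)) * o'⁻¹ := by
  have hpp := hpf.out
  set L := H ⊔ H.map (MulAut.conj e).toMonoidHom with hL
  set F₀ := E ⊓ L with hF₀
  have hHL : H ≤ L := le_sup_left
  have hF₀n : ∀ a ∈ H, ∀ o ∈ F₀, a * o * a⁻¹ ∈ F₀ := by
    intro a ha o ho
    refine ⟨hEn a ha o ho.1, L.mul_mem (L.mul_mem (hHL ha) ho.2) (L.inv_mem (hHL ha))⟩
  have hF₀c : ¬ p ∣ Nat.card F₀ := fun h => hEc (h.trans (Subgroup.card_dvd_of_le inf_le_left))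
  have hβ : z * z ∈ H := H.mul_mem hzH hzH
  have hf₀ : z⁻¹ * (e * z * e⁻¹) ∈ F₀ := by
    constructor
    · have e1 : z⁻¹ * (e * z * e⁻¹) = (z⁻¹ * e * z⁻¹⁻¹) * e⁻¹ := by group
      rw [e1]
      exact E.mul_mem (hEn _ (H.inv_mem hzH) e he) (E.inv_mem he)
    · refine L.mul_mem (L.inv_mem (hHL hzH)) (Subgroup.mem_sup_right ⟨z, hzH, ?_⟩)
      simp [MulAut.conj_apply]
  obtain ⟨o', ho', s, hs, hcomm, hform⟩ := decomp_coset hHp hF₀c hF₀n hβ hf₀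
  -- `s` commutes with `z`
  obtain ⟨k, hk⟩ := pow_pow_of_mem hHp hzH
  have hodd : Odd (p ^ k) := Odd.pow (hpp.odd_of_ne_two hp2)
  obtain ⟨m, hm⟩ := hodd
  have hzm : z ^ (2 * m + 1) = 1 := by
    rw [← hm]
    exact hk
  have hsz : s * z = z * s := by
    have h1 : z ∈ Subgroup.zpowers (z * z) := by
      rw [zpowers_mul_self hzm]
      exact Subgroup.mem_zpowers z
    obtain ⟨j, hj⟩ := h1
    rw [← hj]
    exact ((show Commute s (z * z) from hcomm).zpow_right j).eq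
  set C := E ⊓ Subgroup.centralizer ({z} : Set Γ) with hC
  have hCs : ∀ a ∈ H, ∀ d ∈ C, a * d * a⁻¹ ∈ C := by
    intro a ha d hd
    refine Subgroup.mem_inf.2 ⟨hEn a ha d (Subgroup.mem_inf.1 hd).1, ?_⟩
    rw [Subgroup.mem_centralizer_singleton_iff]
    have h1 : d * z = z * d := (Subgroup.mem_centralizer_singleton_iff.1 (Subgroup.mem_inf.1 hd).2)
    have h2 : a * z = z * a := hHc a ha z hzH
    calc a * d * a⁻¹ * z = a * d * z * a⁻¹ := by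
          have : a⁻¹ * z = z * a⁻¹ := by
            rw [eq_mul_inv_iff_mul_eq, mul_assoc, ← h2]
            group
          rw [mul_assoc (a * d), this]
          group
      _ = a * (z * d) * a⁻¹ := by rw [mul_assoc a, h1]
      _ = (a * z) * d * a⁻¹ := by group
      _ = z * (a * d * a⁻¹) := by rw [h2]; group
  have hCc : ¬ p ∣ Nat.card C := fun h => hEc (h.trans (Subgroup.card_dvd_of_le inf_le_left))
  have hsC : s ∈ cmm C H := by
    have hD' : F₀ ⊓ C ≤ C := inf_le_right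
    have hD's : ∀ a ∈ H, ∀ d ∈ F₀ ⊓ C, a * d * a⁻¹ ∈ F₀ ⊓ C := fun a ha d hd =>
      ⟨hF₀n a ha d hd.1, hCs a ha d hd.2⟩
    have hfix : ∀ y ∈ F₀ ⊓ C, (∀ a ∈ H, y * a = a * y) → y = 1 := fun y hy h =>
      hstar e he y hy.1.1 hy.1.2 h
    refine le_cmm_of_fixfree hHp hHc hCc hCs hD' hD's hfix ⟨hs, ?_⟩
    exact Subgroup.mem_inf.2 ⟨hs.1, Subgroup.mem_centralizer_singleton_iff.2 hsz⟩
  refine ⟨o', ho'.1, s, hsC, hsz, ?_⟩
  have e1 : z * (e * z * e⁻¹) = z * z * (z⁻¹ * (e * z * e⁻¹)) := by group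
  rw [e1, hform, hcomm]

end Comm

/-- A nontrivial invariant irreducible character. -/
theorem exists_inv_ne_one {S B : Type u} [Group S] [Group B] [Finite B] (p : ℕ) [hp : Fact p.Prime]
    (hS : IsPGroup p S) (a : S →* MulAut B) (hcop : ¬ p ∣ Nat.card B) {y : B} (hy : y ≠ 1)
    (hfix : ∀ s, a s y = y) :
    ∃ ψ : IrrCharacter B, ψ ≠ irrOne B ∧ ∀ s b, (ψ : B → ℂ) (a s b) = (ψ : B → ℂ) b := by
  have hpp := hp.out
  set A := a.range with hA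
  haveI : Finite A := inferInstance
  have hAp : IsPGroup p A := IsPGroup.of_surjective hS a.rangeRestrict a.rangeRestrict_surjective
  obtain ⟨k, hk⟩ := IsPGroup.iff_card.1 hAp
  have hcopp : (Nat.card B).Coprime p := by
    rw [Nat.coprime_comm, hpp.coprime_iff_not_dvd]
    exact hcop
  have hcop2 : (Nat.card B).Coprime (Nat.card A) := by
    rw [hk]
    exact Nat.Coprime.pow_right k hcopp
  have hsolv : Group.IsSolvable A := by
    haveI : Group.IsNilpotent A := hAp.isNilpotent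
    exact inferInstance
  have h := card_XA_eq_card_ClA (Nat.card A) B A rfl hsolv hcop2
  have hinv : ∀ c : B, (∀ s, a s c = c) → ∀ b ∈ A, ∀ g, ConjClasses.mk g = ConjClasses.mk c →
      ConjClasses.mk (b g) = ConjClasses.mk c := by
    rintro c hc _ ⟨s, rfl⟩ g hg
    have h1 : IsConj g c := ConjClasses.mk_eq_mk_iff_isConj.1 hg
    have h2 : IsConj (a s g) (a s c) := (a s).toMonoidHom.map_isConj h1
    rw [hc s] at h2
    exact ConjClasses.mk_eq_mk_iff_isConj.2 h2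
  let K₁ : ClA A := ⟨ConjClasses.mk 1, hinv 1 (fun s => map_one _)⟩
  let K₂ : ClA A := ⟨ConjClasses.mk y, hinv y hfix⟩
  have hne : K₁ ≠ K₂ := by
    intro h'
    have h1 : ConjClasses.mk (1 : B) = ConjClasses.mk y := congrArg Subtype.val h'
    have h2 : IsConj (1 : B) y := ConjClasses.mk_eq_mk_iff_isConj.1 h1
    exact hy (isConj_one_right.1 h2)
  haveI : Nontrivial (ClA A) := ⟨⟨K₁, K₂, hne⟩⟩
  have hc : 1 < Nat.card (ClA A) := Finite.one_lt_card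
  rw [← h] at hc
  haveI : Nontrivial (XA A) := Finite.one_lt_card_iff_nontrivial.1 hc
  let one' : XA A := ⟨irrOne B, fun _ _ _ => rfl⟩
  obtain ⟨ψ, hψ⟩ := exists_ne one'
  refine ⟨ψ.1, fun h' => hψ (Subtype.ext h'), fun s b => ψ.2 _ ⟨s, rfl⟩ b⟩

/-- A character with everything in its kernel is trivial. -/
theorem eq_irrOne_of_forall {X : Type u} [Group X] [Finite X] (χ : IrrCharacter X)
    (h1 : ∀ g : X, (χ : X → ℂ) g = (χ : X → ℂ) 1) : χ = irrOne X := by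
  have hχ := IsIrrCharacter.isCharacter χ.2
  have h2 : charDegree (χ : X → ℂ) ∣ (⊤ : Subgroup X).index :=
    CharKernel.charDegree_dvd_index (⊤ : Subgroup X) χ.2 (fun x _ => h1 x)
  rw [Subgroup.index_top, Nat.dvd_one] at h2
  apply Subtype.ext
  funext g
  show (χ : X → ℂ) g = 1
  rw [h1, CharKernel.one_eq_charDegree hχ, h2]
  simp

/-- **The fixed point theorem.** -/
theorem fix_trivial_aux {Γ : Type u} [Group Γ] [Finite Γ] {p : ℕ} [hpf : Fact p.Prime] (hp2 : p ≠ 2)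
    {H : Subgroup Γ} (hHp : IsPGroup p H) (hHc : ∀ a ∈ H, ∀ b ∈ H, a * b = b * a) (n : ℕ) :
    ∀ E : Subgroup Γ, Nat.card E = n → ¬ p ∣ Nat.card E → (∀ a ∈ H, ∀ e ∈ E, a * e * a⁻¹ ∈ E) →
      E ≤ Subgroup.closure {x | ∃ e ∈ E, ∃ a ∈ H, x = e * a * e⁻¹ * a⁻¹} →
      (∀ e ∈ E, ∀ y ∈ E, y ∈ H ⊔ H.map (MulAut.conj e).toMonoidHom → (∀ a ∈ H, y * a = a * y) → y = 1) →
      ∀ y ∈ E, (∀ a ∈ H, y * a = a * y) → y = 1 := by
  have hpp := hpf.out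
  induction n using Nat.strong_induction_on with
  | _ n ih =>
    intro E hn hEc hs hgen hstar y hy hyc
    by_contra hy1
    let aE : H →* MulAut E := conjHom E H hs
    have hfixy : ∀ s, aE s ⟨y, hy⟩ = ⟨y, hy⟩ := by
      intro s
      apply Subtype.ext
      show (s : Γ) * y * (s : Γ)⁻¹ = y
      rw [← hyc s s.2]
      group
    obtain ⟨ψ, hψ1, hψ⟩ := exists_inv_ne_one p hHp aE hEc (y := ⟨y, hy⟩)
      (fun h => hy1 (congrArg Subtype.val h)) hfixy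
    have hψ' : ∀ a ∈ H, ∀ g g' : E, (g' : Γ) = a * g * a⁻¹ → (ψ : E → ℂ) g' = (ψ : E → ℂ) g := by
      intro a ha g g' hg'
      have h1 : g' = aE ⟨a, ha⟩ g := Subtype.ext hg'
      rw [h1]
      exact hψ _ g
    have hstep : ∀ z ∈ H, ∀ e e' : E, (e' : Γ) = (e : Γ)⁻¹ * (z * e * z⁻¹) →
        (ψ : E → ℂ) e' = (ψ : E → ℂ) 1 := by
      intro z hzH e e' he'
      by_cases hzc : ∀ e ∈ E, z * e = e * z
      · have h1 : (e' : Γ) = 1 := by
          rw [he', hzc e e.2]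
          group
        have h2 : e' = 1 := Subtype.ext h1
        rw [h2]
      · push Not at hzc
        obtain ⟨e₀, he₀, hne⟩ := hzc
        set C := E ⊓ Subgroup.centralizer ({z} : Set Γ) with hC
        have hCs : ∀ a ∈ H, ∀ d ∈ C, a * d * a⁻¹ ∈ C := by
          intro a ha d hd
          refine Subgroup.mem_inf.2 ⟨hs a ha d (Subgroup.mem_inf.1 hd).1, ?_⟩
          rw [Subgroup.mem_centralizer_singleton_iff]
          have h1 : d * z = z * d := (Subgroup.mem_centralizer_singleton_iff.1 (Subgroup.mem_inf.1 hd).2)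
          have h2 : a * z = z * a := hHc a ha z hzH
          calc a * d * a⁻¹ * z = a * d * z * a⁻¹ := by
                have : a⁻¹ * z = z * a⁻¹ := by
                  rw [eq_mul_inv_iff_mul_eq, mul_assoc, ← h2]
                  group
                rw [mul_assoc (a * d), this]
                group
            _ = a * (z * d) * a⁻¹ := by rw [mul_assoc a, h1]
            _ = (a * z) * d * a⁻¹ := by group
            _ = z * (a * d * a⁻¹) := by rw [h2]; group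
        have hCc : ¬ p ∣ Nat.card C := fun h => hEc (h.trans (Subgroup.card_dvd_of_le inf_le_left))
        have hCE : C ≤ E := inf_le_left
        have hEzC : cmm C H ≤ C := cmm_le hCs
        have hEzE : cmm C H ≤ E := hEzC.trans hCE
        have hlt : Nat.card (cmm C H) < n := by
          rw [← hn]
          have hlt1 : cmm C H < E := by
            refine lt_of_le_of_ne hEzE ?_
            intro h
            have h1 : e₀ ∈ C := hEzC (h ▸ he₀)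
            apply hne
            exact (Subgroup.mem_centralizer_singleton_iff.1 (Subgroup.mem_inf.1 h1).2).symm
          exact Set.ncard_lt_ncard hlt1 (Set.toFinite _)
        have hEzc : ¬ p ∣ Nat.card (cmm C H) := fun h => hEc (h.trans (Subgroup.card_dvd_of_le hEzE))
        have hEzF := ih _ hlt (cmm C H) rfl hEzc (cmm_stable hHc hCs) (cmm_le_closure hHp hHc hCc hCs)
          (fun e he y hy' hL h => hstar e (hEzE he) y (hEzE hy') hL h)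
        exact step_z hp2 hHp hHc hEc hs ψ hψ' hzH (cmm C H) hEzC (cmm_stable hHc hCs) (cmm_normal hCs) hEzF
          (fun e he => conj_form hp2 hHp hHc hEc hs hstar hzH he) e e' he'
    -- conclusion
    apply hψ1
    apply eq_irrOne_of_forall
    have hψc := IsIrrCharacter.isCharacter ψ.2
    have hgen2 : E ≤ (CharKernel.charKer hψc).map E.subtype := by
      refine hgen.trans ((Subgroup.closure_le _).2 ?_)
      rintro _ ⟨e, he, a, ha, rfl⟩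
      have hxE : e * a * e⁻¹ * a⁻¹ ∈ E := by
        have e1 : e * a * e⁻¹ * a⁻¹ = e * (a * e⁻¹ * a⁻¹) := by group
        rw [e1]
        exact E.mul_mem he (hs a ha _ (E.inv_mem he))
      refine ⟨⟨_, hxE⟩, ?_, rfl⟩
      rw [SetLike.mem_coe, CharKernel.mem_charKer]
      apply hstep a ha ⟨e⁻¹, E.inv_mem he⟩ ⟨_, hxE⟩
      simp only
      group
    intro g
    obtain ⟨g', hg', hgg⟩ := hgen2 g.2
    have h1 : g' = g := Subtype.ext hgg
    rw [← h1]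
    exact (CharKernel.mem_charKer hψc).1 hg'

end Cfsg.Agent.Lib.XcoFix2
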