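import Mathlib
import Cfsg.Agent.Lib.XcoCases2

/-!
# The isolated case, and the numerical conclusion
-/

set_option autoImplicit false
set_option linter.style.haveILetI false
set_option linter.unusedSectionVars false
set_option linter.unusedVariables false

namespace Cfsg.Agent.Lib.XcoIso

open Module Cfsg Cfsg.Agent.Lib Cfsg.Agent.Lib.CharBasic Cfsg.Agent.Lib.BlockNormal
open Cfsg.Agent.Lib.BlockSection Cfsg.Agent.Lib.BlockLocal Cfsg.Agent.Lib.BlockIdem
open Cfsg.Agent.Lib.XcoAlg Cfsg.Agent.Lib.XcoChar Cfsg.Agent.Lib.XcoCases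
open Cfsg.Agent.Lib.XcoCases2 Cfsg.Agent.Lib.PCore
open scoped ComplexConjugate

universe u

variable {G : Type u} [Group G] [Fintype G] [DecidableEq G]
variable {p : ℕ} {M : Ideal AlgInt} {H N : Subgroup G} [Fintype N] {nn : G → G}
variable {z : G} {HF : Finset G}

theorem norm_le_one_re {χ : G → ℂ} (hχ : IsCharacter G χ) (a : G) : ‖χ a‖ ≤ (χ 1).re := by
  obtain ⟨n, ρ, rfl⟩ := hχ
  have h1 := CharValues.norm_character_le ρ a
  have h2 : ρ.character 1 = (finrank ℂ (Fin n → ℂ) : ℂ) := by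
    show LinearMap.trace ℂ _ (ρ 1) = _
    rw [map_one]
    exact LinearMap.trace_one ℂ (Fin n → ℂ)
  rw [h2]
  simpa using h1

/-- A character value whose real part is at least the degree equals the degree. -/
theorem eq_one_of_re_ge {χ : G → ℂ} (hχ : IsCharacter G χ) {a : G} (h : (χ 1).re ≤ (χ a).re) :
    χ a = χ 1 := by
  have h1 := norm_le_one_re hχ a
  have h2 : (χ 1).im = 0 := by
    obtain ⟨n, ρ, rfl⟩ := hχ
    have h2 : ρ.character 1 = (finrank ℂ (Fin n → ℂ) : ℂ) := by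
      show LinearMap.trace ℂ _ (ρ 1) = _
      rw [map_one]
      exact LinearMap.trace_one ℂ (Fin n → ℂ)
    rw [h2]
    simp
  have h3 : (χ a).re = (χ 1).re := le_antisymm ((Complex.re_le_norm _).trans h1) h
  have h4 : (χ a).im = 0 := by
    have h5 := Complex.sq_norm (χ a)
    rw [Complex.normSq_apply] at h5
    have h6 : ‖χ a‖ ^ 2 ≤ (χ 1).re ^ 2 := by
      have := norm_nonneg (χ a)
      gcongr
    rw [h5, h3] at h6
    nlinarith
  apply Complex.ext
  · exact h3
  · rw [h4, h2]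

theorem conj_VV {χ : IrrCharacter G} (a : G) :
    VV (χ : G → ℂ) a⁻¹ = conj (VV (χ : G → ℂ) a) := by
  have hχc := IsIrrCharacter.isCharacter χ.2
  unfold VV
  rw [map_div₀, char_conj_eq_inv hχc]
  congr 1
  obtain ⟨d, -, hd⟩ := CharAvg.irr_one_eq χ.2
  rw [hd]
  simp

/-- The powers of `V z`. -/
theorem VV_pow (hF : Fus p M H N) (hC : Ch p M H N nn) (hzH : z ∈ H) (hzo : orderOf z = p)
    (hiso : ∀ m : N, (m : G) * z * (m : G)⁻¹ = z) {χ : IrrCharacter G} (hχ : χ ∈ BF (G := G) M)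
    (k : ℕ) : k + 1 < p → VV (χ : G → ℂ) (z ^ (k + 1)) = VV (χ : G → ℂ) z ^ (k + 1) := by
  have A := Ch.alg hF hC ((mem_BF M).1 hχ)
  have hN0 : (Nat.card N : ℂ) ≠ 0 := by exact_mod_cast Nat.card_pos.ne'
  induction k with
  | zero =>
    intro _
    simp
  | succ k IH =>
    intro hk
    have h1 := IH (by omega)
    have h2 := A.rel _ (H.pow_mem hzH (k + 1)) _ hzH
    have hne : z ^ (k + 1 + 1) ≠ 1 := by
      intro h
      have := orderOf_dvd_of_pow_eq_one h
      rw [hzo] at this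
      have := Nat.le_of_dvd (by omega) this
      omega
    have hc : cnt N (z ^ (k + 1)) z = 0 := by
      by_contra hc
      obtain ⟨m, hm⟩ := cnt_ne_zero_iff.1 hc
      rw [hiso m] at hm
      exact hne (by rw [pow_succ]; exact hm)
    rw [hc, zero_mul, sub_zero] at h2
    have h3 : ∑ m : N, VV (χ : G → ℂ) (z ^ (k + 1) * ((m : G) * z * (m : G)⁻¹)) =
        (Nat.card N : ℂ) * VV (χ : G → ℂ) (z ^ (k + 1 + 1)) := by
      simp_rw [hiso]
      simp [pow_succ, Nat.card_eq_fintype_card]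
    rw [h3] at h2
    have h4 := mul_left_cancel₀ hN0 h2
    rw [← h4, h1, pow_succ (VV (χ : G → ℂ) z) (k + 1)]

/-- The dichotomy for the value of a character at an isolated element. -/
theorem norm_dich (hF : Fus p M H N) (hC : Ch p M H N nn) (hzH : z ∈ H) (hzo : orderOf z = p)
    (hp2 : p ≠ 2) (hpp : p.Prime) (hiso : ∀ m : N, (m : G) * z * (m : G)⁻¹ = z) {χ : IrrCharacter G}
    (hχ : χ ∈ BF (G := G) M) : (χ : G → ℂ) z = 0 ∨ ‖VV (χ : G → ℂ) z‖ = 1 := by
  have hp3 : 3 ≤ p := by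
    have := hpp.two_le
    omega
  obtain ⟨k, rfl⟩ : ∃ k, p = k + 3 := ⟨p - 3, by omega⟩
  have h1 := VV_pow hF hC hzH hzo hiso hχ (k + 1) (by omega)
  have e : z ^ (k + 1 + 1) = z⁻¹ := by
    rw [eq_inv_iff_mul_eq_one, ← pow_succ]
    have := pow_orderOf_eq_one z
    rwa [hzo] at this
  rw [e, conj_VV] at h1
  have h2 := congrArg norm h1
  rw [RCLike.norm_conj, norm_pow] at h2
  set v := ‖VV (χ : G → ℂ) z‖ with hv
  have hv0 : 0 ≤ v := norm_nonneg _
  by_cases h0 : v = 0
  · left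
    have : VV (χ : G → ℂ) z = 0 := norm_eq_zero.1 h0
    unfold VV at this
    rcases div_eq_zero_iff.1 this with h | h
    · exact h
    · exact absurd h (CharAvg.irr_one_ne_zero χ.2)
  · right
    have h3 : v ^ (k + 1) = 1 := by
      have : v * 1 = v * v ^ (k + 1) := by
        rw [mul_one, ← pow_succ']
        exact h2
      exact (mul_left_cancel₀ h0 this).symm
    exact (pow_eq_one_iff_of_nonneg hv0 (by omega)).1 h3

/-- The commutators are in the kernel when the value has maximal norm. -/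
theorem comm_mem_ker {χ : IrrCharacter G} (hn : ‖VV (χ : G → ℂ) z‖ = 1) (b : G) :
    (χ : G → ℂ) (z * (b * z⁻¹ * b⁻¹)) = (χ : G → ℂ) 1 := by
  classical
  have hχc := IsIrrCharacter.isCharacter χ.2
  have hd0 := CharAvg.irr_one_ne_zero χ.2
  have hd1 : (χ : G → ℂ) 1 = (((χ : G → ℂ) 1).re : ℂ) := by
    apply NilClosedChar.eq_ofReal_re_of_im
    obtain ⟨d, -, hd⟩ := CharAvg.irr_one_eq χ.2
    rw [hd]
    simp
  have hdpos : (0 : ℝ) < ((χ : G → ℂ) 1).re := by
    obtain ⟨d, hd, hd'⟩ := CharAvg.irr_one_eq χ.2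
    rw [hd']
    simp
    omega
  set d := ((χ : G → ℂ) 1).re with hd
  have hnz : ‖(χ : G → ℂ) z‖ = d := by
    unfold VV at hn
    rw [norm_div, hd1, Complex.norm_real, Real.norm_eq_abs, abs_of_pos hdpos] at hn
    rwa [div_eq_one_iff_eq hdpos.ne'] at hn
  have h1 := CharAvg.irr_avg χ.2 z z⁻¹
  rw [← char_conj_eq_inv hχc, mul_assoc, mul_conj_eq, hnz] at h1
  have hS : ∑ b : G, (χ : G → ℂ) (z * (b * z⁻¹ * b⁻¹)) = (Nat.card G : ℂ) * (d : ℂ) := by
    apply mul_left_cancel₀ hd0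
    rw [h1, hd1]
    push_cast
    ring
  have hre : ∑ b : G, ((χ : G → ℂ) (z * (b * z⁻¹ * b⁻¹))).re = (Nat.card G : ℝ) * d := by
    have h2 := congrArg Complex.re hS
    rw [Complex.re_sum, ← Complex.ofReal_natCast, ← Complex.ofReal_mul, Complex.ofReal_re] at h2
    exact h2
  have hz : ∑ b : G, (d - ((χ : G → ℂ) (z * (b * z⁻¹ * b⁻¹))).re) = 0 := by
    rw [Finset.sum_sub_distrib, hre]
    simp [Nat.card_eq_fintype_card]
  have hnn : ∀ b ∈ (Finset.univ : Finset G), 0 ≤ d - ((χ : G → ℂ) (z * (b * z⁻¹ * b⁻¹))).re := by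
    intro b _
    have := (le_abs_self _).trans (NilClosedChar.abs_re_le_one_re hχc (z * (b * z⁻¹ * b⁻¹)))
    linarith
  have h3 := (Finset.sum_eq_zero_iff_of_nonneg hnn).1 hz b (Finset.mem_univ _)
  apply eq_one_of_re_ge hχc
  linarith

/-- The isolated case. -/
theorem isolated (hM : IsPModular p M) (hF : Fus p M H N) (hC : Ch p M H N nn) (hzH : z ∈ H)
    (hzo : orderOf z = p) (hp2 : p ≠ 2) (hcore : pPrimeCore p G = ⊥)
    (hiso : ∀ m : N, (m : G) * z * (m : G)⁻¹ = z) : ∀ g, g * z = z * g := by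
  classical
  haveI : M.IsPrime := isPrime_of_isPModular hM
  have hpp : p.Prime := hM.1
  haveI : Fact p.Prime := ⟨hpp⟩
  set S : Set G := {x | ∃ b : G, x = z * (b * z⁻¹ * b⁻¹)} with hS
  set N₁ := Subgroup.normalClosure S with hN₁
  have hN₁n : N₁.Normal := Subgroup.normalClosure_normal
  have hker : ∀ χ ∈ BF (G := G) M, (χ : G → ℂ) z ≠ 0 → ∀ q ∈ N₁, (χ : G → ℂ) q = (χ : G → ℂ) 1 := by
    intro χ hχ h0 q hq
    have hχc := IsIrrCharacter.isCharacter χ.2
    rcases norm_dich hF hC hzH hzo hp2 hpp hiso hχ with h | h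
    · exact absurd h h0
    · have hle : N₁ ≤ CharKernel.charKer hχc := by
        apply Subgroup.normalClosure_le_normal
        rintro x ⟨b, rfl⟩
        rw [SetLike.mem_coe, CharKernel.mem_charKer]
        exact comm_mem_ker h b
      exact (CharKernel.mem_charKer hχc).1 (hle hq)
  -- `N₁` has order prime to `p`
  have hcop : (Nat.card N₁).Coprime p := by
    rw [Nat.coprime_comm, hpp.coprime_iff_not_dvd]
    intro hdvd
    obtain ⟨q, hq⟩ := exists_prime_orderOf_dvd_card' (G := N₁) p hdvd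
    have hqo : orderOf (q : G) = p := by
      rw [Subgroup.orderOf_coe, hq]
    -- conjugate into a Sylow subgroup containing `H`
    obtain ⟨T, hT⟩ := IsPGroup.exists_le_sylow hF.hp
    have hq1 : IsPGroup p (Subgroup.zpowers (q : G)) := by
      apply IsPGroup.of_card (n := 1)
      rw [Nat.card_zpowers, hqo, pow_one]
    obtain ⟨T', hT'⟩ := hq1.exists_le_sylow
    obtain ⟨c, hc⟩ := MulAction.exists_smul_eq G T' T
    set q' : G := c * q * c⁻¹ with hq'
    have hq'T : q' ∈ (T : Subgroup G) := by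
      rw [← hc, Sylow.coe_subgroup_smul, Subgroup.mem_smul_pointwise_iff_exists]
      exact ⟨q, hT' (Subgroup.mem_zpowers _), rfl⟩
    have hq'N : q' ∈ N₁ := hN₁n.conj_mem _ q.2 c
    have hq'o : orderOf q' = p := by
      rw [← hqo]
      exact orderOf_injective (MulAut.conj c).toMonoidHom (MulEquiv.injective _) (q : G)
    have hTp : IsPGroup p (T : Subgroup G) := T.isPGroup'
    have hzq : ∃ k : ℕ, orderOf (z * q') = p ^ k := by
      obtain ⟨k, hk⟩ := hTp ⟨z * q', T.1.mul_mem (hT hzH) hq'T⟩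
      have h1 : (z * q') ^ p ^ k = 1 := by
        have := congrArg Subtype.val hk
        simpa using this
      exact ⟨_, (Nat.dvd_prime_pow hpp).1 (orderOf_dvd_of_pow_eq_one h1) |>.choose_spec.2⟩
    have hzp : ∃ k : ℕ, orderOf z = p ^ k := ⟨1, by rw [hzo, pow_one]⟩
    have hconj : IsConj z (z * q') := by
      by_contra hne
      have h0 := orth_pelt hM hzp hzq hne
      have h2 : ∀ χ ∈ BF (G := G) M, conj ((χ : G → ℂ) z) * (χ : G → ℂ) (z * q') =
          ((‖(χ : G → ℂ) z‖ ^ 2 : ℝ) : ℂ) := by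
        intro χ hχ
        have hχc := IsIrrCharacter.isCharacter χ.2
        by_cases h3 : (χ : G → ℂ) z = 0
        · rw [h3]
          simp
        · rw [CharKernel.char_mul_of_mem_ker hχc (hker χ hχ h3 _ hq'N), mul_comm, mul_conj_eq]
      rw [Finset.sum_congr rfl h2] at h0
      have h3 : ∑ χ ∈ BF (G := G) M, ‖(χ : G → ℂ) z‖ ^ 2 = 0 := by exact_mod_cast h0
      have h4 := (Finset.sum_eq_zero_iff_of_nonneg (fun χ _ => by positivity)).1 h3 (irrOne G)
        ((mem_BF M).2 (irrOne_mem_principalBlock M))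
      have h5 : ‖((irrOne G : IrrCharacter G) : G → ℂ) z‖ = 1 := by
        show ‖(1 : ℂ)‖ = 1
        simp
      rw [h5] at h4
      norm_num at h4
    obtain ⟨g, hg⟩ := isConj_iff.1 hconj
    have hk := hC.hk2 g z hzH z⁻¹ (H.inv_mem hzH) (by
      have := hiso ⟨nn g, hC.hnn g⟩
      simp only at this
      rw [this]
      group)
    rw [hg] at hk
    apply hk
    have : z⁻¹ * (z * q') = q' := by group
    rw [this, hq'o]
  -- conclusion
  have hle : N₁ ≤ pPrimeCore p G := le_pPrimeCore hN₁n hcop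
  rw [hcore, le_bot_iff] at hle
  intro g
  have h1 : z * (g * z⁻¹ * g⁻¹) ∈ N₁ := Subgroup.subset_normalClosure ⟨g, rfl⟩
  rw [hle, Subgroup.mem_bot] at h1
  have h3 : g * z⁻¹ * g⁻¹ = z⁻¹ := by
    apply mul_left_cancel (a := z)
    rw [h1, mul_inv_cancel]
  have h2 : g * z * g⁻¹ = z := by
    calc g * z * g⁻¹ = (g * z⁻¹ * g⁻¹)⁻¹ := by group
      _ = (z⁻¹)⁻¹ := by rw [h3]
      _ = z := inv_inv z
  exact mul_inv_eq_iff_eq_mul.1 h2

/-- The conclusion of the numerical part. -/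
theorem numeric_central (hM : IsPModular p M) (hF : Fus p M H N) (hzH : z ∈ H)
    (hzo : orderOf z = p) (hp2 : p ≠ 2) (hL : Subgroup.normalClosure ({z} : Set G) = ⊤)
    (hcore : pPrimeCore p G = ⊥) : ∀ g, g * z = z * g := by
  classical
  obtain ⟨nn, hC⟩ := hF.exists_ch
  set HF := Finset.univ.filter (· ∈ H) with hHFd
  have hHF : ∀ t, t ∈ HF ↔ t ∈ H := by
    intro t
    simp [hHFd]
  have X : Ctx p M H N nn z HF := ⟨hM, hF, hC, hL, hzH, hzo, hp2, hHF⟩
  have hzW : z ∈ HF.filter (fun a => IsConj z a) :=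
    Finset.mem_filter.2 ⟨(X.hHF z).2 X.hzH, IsConj.refl z⟩
  by_cases h1 : (HF.filter (fun a => IsConj z a)).card ≤ 1
  · apply isolated hM hF hC hzH hzo hp2 hcore
    intro m
    exact Finset.card_le_one.1 h1 _ (X.mem_W.2 ⟨m, rfl⟩) _ hzW
  exfalso
  have hW2 : 2 ≤ (HF.filter (fun a => IsConj z a)).card := by omega
  by_cases hr : z⁻¹ ∈ HF.filter (fun a => IsConj z a)
  swap
  · exact X.false_nonreal hW2 hr
  have hpp := X.pp
  by_cases hp3 : p = 3
  · exact X.false_three hp3 hr hW2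
  have hp4 : p ≠ 4 := by
    rintro rfl
    revert hpp
    norm_num
  have hp5 : 5 ≤ p := by
    have := hpp.two_le
    omega
  by_cases hW5 : 5 ≤ (HF.filter (fun a => IsConj z a)).card
  · exact X.false_large hr hW5
  by_cases h2 : (HF.filter (fun a => IsConj z a)).card = 2
  · by_cases hp5' : p = 5
    · exact false_two_five X hp5' hr h2
    · have hp6 : p ≠ 6 := by
        rintro rfl
        revert hpp
        norm_num
      exact X.false_two_large (by omega) hr h2
  · exact false_four X hp5 hr (by omega)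

end Cfsg.Agent.Lib.XcoIso
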