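import Mathlib
import Cfsg.Agent.Lib.XcoGroup
import Cfsg.Agent.Lib.XcoIso
import Cfsg.Agent.S0942
import Cfsg.Prelude.Def_SubgroupEmbedding

/-!
# Closed abelian `p`-subgroups are normal modulo the `p'`-core
-/

set_option autoImplicit false
set_option linter.style.haveILetI false
set_option linter.unusedSectionVars false
set_option linter.unusedVariables false

namespace Cfsg.Agent.Lib.XcoMain

open Cfsg Cfsg.Agent.Lib Cfsg.Agent.Lib.PCore Cfsg.Agent.Lib.XcoGroup
open Cfsg.Agent.Lib.XcoChar Cfsg.Agent.Lib.XcoIso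

universe u

section Core

variable {G : Type*} [Group G] [Finite G] {p : ℕ}

theorem conj_mem_core {x c r : G} (hc : c ∈ Subgroup.centralizer ({x} : Set G))
    (hr : r ∈ centralizerPPrimeCore p x) : c * r * c⁻¹ ∈ centralizerPPrimeCore p x := by
  obtain ⟨r, hr, rfl⟩ := hr
  refine ⟨⟨c, hc⟩ * r * ⟨c, hc⟩⁻¹, ?_, by simp⟩
  have hnorm : (pPrimeCore p (↥(Subgroup.centralizer ({x} : Set G)))).Normal := inferInstance
  exact hnorm.conj_mem r hr _

/-- The core of a centralizer in a subgroup. -/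
theorem mem_core_subgroup {K : Subgroup G} {x v : G} (hx : x ∈ K) (hv : v ∈ K)
    (h : v ∈ centralizerPPrimeCore p x) :
    (⟨v, hv⟩ : K) ∈ centralizerPPrimeCore p (⟨x, hx⟩ : K) := by
  set Ck := Subgroup.centralizer ({(⟨x, hx⟩ : K)} : Set K) with hCk
  set R := centralizerPPrimeCore p x with hR
  have hvC : v ∈ Subgroup.centralizer ({x} : Set G) := by
    obtain ⟨r, hr, rfl⟩ := h
    exact r.2
  have hvC' : (⟨v, hv⟩ : K) ∈ Ck := by
    rw [hCk, Subgroup.mem_centralizer_singleton_iff]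
    apply Subtype.ext
    exact Subgroup.mem_centralizer_singleton_iff.1 hvC
  set f : ↥Ck →* G := K.subtype.comp Ck.subtype with hf
  have hfinj : Function.Injective f := K.subtype_injective.comp Ck.subtype_injective
  set Y : Subgroup ↥Ck := R.comap f with hY
  have hYn : Y.Normal := by
    constructor
    intro y hy c
    have hcC : f c ∈ Subgroup.centralizer ({x} : Set G) := by
      rw [Subgroup.mem_centralizer_singleton_iff]
      have := Subgroup.mem_centralizer_singleton_iff.1 c.2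
      exact congrArg Subtype.val this
    have := conj_mem_core hcC hy
    rw [hY, Subgroup.mem_comap]
    simpa using this
  have hYc : (Nat.card Y).Coprime p := by
    have h1 : Nat.card Y ∣ Nat.card R := Subgroup.card_comap_dvd_of_injective R f hfinj
    have h2 : (Nat.card R).Coprime p := by
      rw [hR]
      unfold centralizerPPrimeCore
      rw [Subgroup.card_map_of_injective (Subgroup.subtype_injective _)]
      exact card_pPrimeCore_coprime p
    exact Nat.Coprime.coprime_dvd_left h1 h2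
  have hle := le_pPrimeCore hYn hYc
  exact ⟨⟨⟨v, hv⟩, hvC'⟩, hle h, rfl⟩

/-- A `p'`-element lies in a normal subgroup with `p`-power index given by a `p`-subgroup. -/
theorem mem_of_pprime_of_sup (hpp : p.Prime) {H K : Subgroup G} (hKn : K.Normal) (hHK : H ⊔ K = ⊤)
    (hHp : IsPGroup p H) {x : G} (hx : ¬ p ∣ orderOf x) : x ∈ K := by
  have hxs : x ∈ H ⊔ K := by rw [hHK]; trivial
  obtain ⟨a, ha, k, hk, rfl⟩ := Subgroup.mem_sup_of_normal_right.1 hxs
  refine K.mul_mem ?_ hk
  let π := QuotientGroup.mk' K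
  have hk1 : π k = 1 := (QuotientGroup.eq_one_iff k).2 hk
  have h1 : π (a * k) = π a := by
    rw [map_mul, hk1, mul_one]
  obtain ⟨j, hj⟩ := pow_pow_of_mem hHp ha
  have h2 : orderOf (π a) ∣ p ^ j := orderOf_dvd_of_pow_eq_one (by rw [← map_pow, hj, map_one])
  have h3 : orderOf (π a) ∣ orderOf (a * k) := by
    rw [← h1]
    exact orderOf_map_dvd π (a * k)
  have h4 : Nat.Coprime (p ^ j) (orderOf (a * k)) :=
    Nat.Coprime.pow_left j ((Nat.Prime.coprime_iff_not_dvd hpp).2 hx)
  have h5 : orderOf (π a) ∣ 1 := by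
    rw [← h4.gcd_eq_one]
    exact Nat.dvd_gcd h2 h3
  have h6 : π a = 1 := orderOf_eq_one_iff.1 (Nat.dvd_one.1 h5)
  exact (QuotientGroup.eq_one_iff a).1 h6

end Core

section Fus

variable {G : Type u} [Group G] [Finite G] {p : ℕ}

/-- The fusion hypothesis for the numerical part. -/
theorem fus_of [hpf : Fact p.Prime] (IH : ∀ (X : Type u) [Group X] [Finite X], Nat.card X < Nat.card G →
      ∀ K : Subgroup X, IsPGroup p K → IsMulCommutative K → PCl p K → Concl p K)
    {H : Subgroup G} (hHp : IsPGroup p H) (hHc : ∀ a ∈ H, ∀ b ∈ H, a * b = b * a) (hcl : PCl p H)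
    {K : Subgroup G} (hKn : K.Normal) (hHK : H ⊔ K = ⊤)
    (hlt : ∀ b ∈ H, b ≠ 1 → Nat.card (Subgroup.centralizer ({b} : Set G)) < Nat.card G)
    {M : Ideal AlgInt} (hM : IsPModular p M) :
    Fus p M (H.subgroupOf K) ((Subgroup.normalizer (H : Set G)).subgroupOf K) := by
  have hpp := hpf.out
  refine ⟨?_, hHp.comap_of_injective K.subtype K.subtype_injective, ?_, ?_⟩
  · rintro ⟨a, _⟩ ha ⟨b, _⟩ hb
    apply Subtype.ext
    exact hHc a (Subgroup.mem_subgroupOf.1 ha) b (Subgroup.mem_subgroupOf.1 hb)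
  · rintro ⟨m, _⟩ hm ⟨a, _⟩ ha
    rw [Subgroup.mem_subgroupOf] at hm ha ⊢
    exact (Subgroup.mem_normalizer_iff.1 hm _).1 ha
  · rintro ⟨g, hgK⟩
    obtain ⟨O, hO, hn, hc, hm⟩ := hcl g
    obtain ⟨o', ho', hN'⟩ := exists_factor hHp hO hn hm
    have hOK : O ≤ K := fun x hx => mem_of_pprime_of_sup hpp hKn hHK hHp (not_dvd_orderOf_of_mem hO hx)
    set n := o'⁻¹ * g with hnd
    have hnK : n ∈ K := K.mul_mem (K.inv_mem (hOK ho')) hgK
    refine ⟨⟨n, hnK⟩, Subgroup.mem_subgroupOf.2 hN', ?_⟩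
    rintro ⟨u, huK⟩ huH ⟨t, htK⟩ htH
    rw [Subgroup.mem_subgroupOf] at huH htH
    simp only at huH htH
    set u' := n * u * n⁻¹ with hu'
    have hu'H : u' ∈ H := (Subgroup.mem_normalizer_iff.1 hN' _).1 huH
    have hgn : g = o' * n := by rw [hnd]; group
    have hy : g * u * g⁻¹ = o' * u' * o'⁻¹ := by
      rw [hgn, hu']
      group
    set β := t * u' with hβ
    have hβH : β ∈ H := H.mul_mem htH hu'H
    have hu'K : u' ∈ K := K.mul_mem (K.mul_mem hnK huK) (K.inv_mem hnK)
    have hβK : β ∈ K := K.mul_mem htK hu'K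
    set o₁ := (u'⁻¹ * o' * u') * o'⁻¹ with ho₁d
    have ho₁ : o₁ ∈ O := by
      refine O.mul_mem ?_ (O.inv_mem ho')
      have := hn u'⁻¹ (H.inv_mem hu'H) o' ho'
      simpa using this
    have hty : t * (g * u * g⁻¹) = β * o₁ := by
      rw [hy, hβ, ho₁d]
      group
    constructor
    · intro hne χ hχ
      have hβ1 : β ≠ 1 := by
        intro h
        apply hne
        apply Subtype.ext
        exact h
      obtain ⟨o₂, ho₂, s, hs, hcomm, he⟩ := decomp_coset hHp hO hn hβH ho₁
      have hcore := mem_core_of_comm IH hHp hHc hcl hβH (hlt β hβH hβ1) hO hn hc hs hcomm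
      have hcore' := mem_core_subgroup hβK (hOK hs) hcore
      have hβo : ∃ k : ℕ, orderOf (⟨β, hβK⟩ : K) = p ^ k := by
        obtain ⟨k, hk⟩ := pow_pow_of_mem hHp hβH
        have h1 : orderOf β ∣ p ^ k := orderOf_dvd_of_pow_eq_one hk
        obtain ⟨j, -, hj⟩ := (Nat.dvd_prime_pow hpp).1 h1
        refine ⟨j, ?_⟩
        rw [Subgroup.orderOf_mk, hj]
      have h1 := Cfsg.Agent.S0942.result p M hM (⟨β, hβK⟩ : K) hβo (⟨s, hOK hs⟩ : K) hcore' χ hχ
      have hχc := CharBasic.IsIrrCharacter.isCharacter χ.2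
      have e1 : (⟨t, htK⟩ : K) * ((⟨g, hgK⟩ : K) * (⟨u, huK⟩ : K) * (⟨g, hgK⟩ : K)⁻¹) =
          (⟨o₂, hOK ho₂⟩ : K) * ((⟨β, hβK⟩ : K) * (⟨s, hOK hs⟩ : K)) * (⟨o₂, hOK ho₂⟩ : K)⁻¹ := by
        apply Subtype.ext
        show t * (g * u * g⁻¹) = o₂ * (β * s) * o₂⁻¹
        rw [hty, he]
      have e2 : (⟨t, htK⟩ : K) * ((⟨n, hnK⟩ : K) * (⟨u, huK⟩ : K) * (⟨n, hnK⟩ : K)⁻¹) = (⟨β, hβK⟩ : K) := by
        apply Subtype.ext
        rfl
      rw [e1, e2, CharBasic.char_apply_conj hχc, h1]
    · intro h1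
      have h2 : β = 1 := congrArg Subtype.val h1
      have h3 : (⟨t, htK⟩ : K) * ((⟨g, hgK⟩ : K) * (⟨u, huK⟩ : K) * (⟨g, hgK⟩ : K)⁻¹) = (⟨o₁, hOK ho₁⟩ : K) := by
        apply Subtype.ext
        show t * (g * u * g⁻¹) = o₁
        rw [hty, h2, one_mul]
      rw [h3, Subgroup.orderOf_mk]
      exact not_dvd_orderOf_of_mem hO ho₁

/-- The normal closure of `z` within its normal closure. -/
theorem normalClosure_top {H : Subgroup G} (hHc : ∀ a ∈ H, ∀ b ∈ H, a * b = b * a) {z : G} (hzH : z ∈ H)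
    {K : Subgroup G} (hKd : K = Subgroup.normalClosure ({z} : Set G)) (hHK : H ⊔ K = ⊤) (hzK : z ∈ K) :
    Subgroup.normalClosure ({(⟨z, hzK⟩ : K)} : Set K) = ⊤ := by
  have hKn : K.Normal := by
    rw [hKd]
    exact Subgroup.normalClosure_normal
  set Y := (Subgroup.normalClosure ({(⟨z, hzK⟩ : K)} : Set K)).map K.subtype with hY
  have hle : K ≤ Y := by
    rw [hKd]
    show Subgroup.closure _ ≤ Y
    rw [Subgroup.closure_le]
    rintro x hx
    obtain ⟨b, hb, hc⟩ := Group.mem_conjugatesOfSet_iff.1 hx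
    rw [Set.mem_singleton_iff] at hb
    subst hb
    obtain ⟨g, rfl⟩ := isConj_iff.1 hc
    have hgs : g ∈ H ⊔ K := by rw [hHK]; exact Subgroup.mem_top g
    haveI := hKn
    obtain ⟨a, ha, k, hk, rfl⟩ := Subgroup.mem_sup_of_normal_right.1 hgs
    have hk' : a * k * a⁻¹ ∈ K := hKn.conj_mem k hk a
    have e : a * k * b * (a * k)⁻¹ = (a * k * a⁻¹) * b * (a * k * a⁻¹)⁻¹ := by
      have h1 : a * b = b * a := hHc a ha b hzH
      calc a * k * b * (a * k)⁻¹ = a * k * a⁻¹ * (a * b * a⁻¹) * (a * k * a⁻¹)⁻¹ := by group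
        _ = (a * k * a⁻¹) * b * (a * k * a⁻¹)⁻¹ := by rw [h1]; group
    rw [e]
    have hNn : (Subgroup.normalClosure ({(⟨b, hzK⟩ : K)} : Set K)).Normal := Subgroup.normalClosure_normal
    have hmem : (⟨b, hzK⟩ : K) ∈ Subgroup.normalClosure ({(⟨b, hzK⟩ : K)} : Set K) :=
      Subgroup.subset_normalClosure (Set.mem_singleton _)
    exact ⟨⟨a * k * a⁻¹, hk'⟩ * ⟨b, hzK⟩ * ⟨a * k * a⁻¹, hk'⟩⁻¹, hNn.conj_mem _ hmem _, rfl⟩
  rw [eq_top_iff]
  rintro ⟨x, hx⟩ -
  obtain ⟨y, hy, hye⟩ := hle hx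
  have : y = ⟨x, hx⟩ := Subtype.ext hye
  rw [← this]
  exact hy

/-- The normal closure of an element of order `p` of a closed abelian `p`-subgroup is a `p`-group. -/
theorem closure_pgroup [hpf : Fact p.Prime] (IH : ∀ (X : Type u) [Group X] [Finite X], Nat.card X < Nat.card G →
      ∀ K : Subgroup X, IsPGroup p K → IsMulCommutative K → PCl p K → Concl p K)
    (hp2 : p ≠ 2) (hcore : pPrimeCore p G = ⊥)
    {H : Subgroup G} (hHp : IsPGroup p H) (hHc : ∀ a ∈ H, ∀ b ∈ H, a * b = b * a) (hcl : PCl p H)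
    (hlt : ∀ b ∈ H, b ≠ 1 → Nat.card (Subgroup.centralizer ({b} : Set G)) < Nat.card G)
    {z : G} (hzH : z ∈ H) (hzo : orderOf z = p) :
    IsPGroup p (Subgroup.normalClosure ({z} : Set G)) := by
  have hpp := hpf.out
  set K := Subgroup.normalClosure ({z} : Set G) with hKd
  haveI hKn : K.Normal := Subgroup.normalClosure_normal
  have hzK : z ∈ K := Subgroup.subset_normalClosure rfl
  by_cases hJ : H ⊔ K = ⊤
  · -- the numerical case
    classical
    letI : Fintype ↥K := Fintype.ofFinite _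
    letI : Fintype ↥((Subgroup.normalizer (H : Set G)).subgroupOf K) := Fintype.ofFinite _
    obtain ⟨M, hM⟩ := BlockVal.exists_isPModular hpp
    have hF := fus_of IH hHp hHc hcl hKn hJ hlt hM
    have hL := normalClosure_top hHc hzH hKd hJ hzK
    have hcen := numeric_central (z := (⟨z, hzK⟩ : K)) hM hF (Subgroup.mem_subgroupOf.2 hzH)
      (by rw [Subgroup.orderOf_mk, hzo]) hp2 hL (core_normal_bot hcore K)
    have hZn : (Subgroup.zpowers (⟨z, hzK⟩ : K)).Normal := by
      constructor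
      intro n hn g
      obtain ⟨j, rfl⟩ := Subgroup.mem_zpowers_iff.1 hn
      have : g * (⟨z, hzK⟩ : K) ^ j * g⁻¹ = (⟨z, hzK⟩ : K) ^ j := by
        have h2 : Commute g ((⟨z, hzK⟩ : K) ^ j) := Commute.zpow_right (hcen g) j
        rw [h2.eq, mul_inv_cancel_right]
      rw [this]
      exact hn
    have hle := Subgroup.normalClosure_le_normal (N := Subgroup.zpowers (⟨z, hzK⟩ : K))
      (s := ({(⟨z, hzK⟩ : K)} : Set K)) (by
        rintro _ rfl
        exact Subgroup.mem_zpowers _)
    rw [hL] at hle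
    intro x
    have hx : x ∈ Subgroup.zpowers (⟨z, hzK⟩ : K) := hle (Subgroup.mem_top x)
    obtain ⟨j, hj⟩ := Subgroup.mem_zpowers_iff.1 hx
    refine ⟨1, ?_⟩
    have hz' : (⟨z, hzK⟩ : K) ^ p = 1 := by
      have h1 : orderOf (⟨z, hzK⟩ : K) = p := by rw [Subgroup.orderOf_mk, hzo]
      rw [← h1]
      exact pow_orderOf_eq_one _
    rw [pow_one, ← hj, ← zpow_natCast, ← zpow_mul, mul_comm, zpow_mul, zpow_natCast, hz', one_zpow]
  · -- the inductive case
    have hltJ : Nat.card (H ⊔ K : Subgroup G) < Nat.card G := card_lt_of_ne_top hJ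
    set J := H ⊔ K with hJd
    have hHJ : H ≤ J := le_sup_left
    have hKJ : K ≤ J := le_sup_right
    have hConcl := IH (↥J) hltJ (H.subgroupOf J) (hHp.comap_of_injective J.subtype J.subtype_injective) (by
      constructor
      constructor
      rintro ⟨a, ha⟩ ⟨c, hc⟩
      apply Subtype.ext
      apply Subtype.ext
      exact hHc _ ha _ hc) (hcl.subgroupOf hHJ)
    set R := (pPrimeCore p ↥J).map J.subtype with hRd
    have hRJ : R ≤ J := Subgroup.map_subtype_le _
    have hRnd : ¬ p ∣ Nat.card R := by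
      rw [hRd, Subgroup.card_map_of_injective (Subgroup.subtype_injective _)]
      exact not_dvd_card_pPrimeCore p
    have hRn : ∀ c ∈ J, ∀ r ∈ R, c * r * c⁻¹ ∈ R := by
      rintro c hc _ ⟨r, hr, rfl⟩
      refine ⟨⟨c, hc⟩ * r * ⟨c, hc⟩⁻¹, ?_, by simp⟩
      have hnorm : (pPrimeCore p (↥J)).Normal := inferInstance
      exact hnorm.conj_mem r hr _
    -- `R ∩ K = 1`
    have hRK : ∀ x ∈ R, x ∈ K → x = 1 := by
      intro x hxR hxK
      set T : Subgroup ↥K := R.subgroupOf K with hT
      have hTn : T.Normal := by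
        constructor
        intro y hy c
        rw [hT, Subgroup.mem_subgroupOf] at hy ⊢
        exact hRn _ (hKJ c.2) _ hy
      have hTc : (Nat.card T).Coprime p := by
        rw [Nat.coprime_comm, hpp.coprime_iff_not_dvd]
        intro h
        exact hRnd (h.trans (Subgroup.card_comap_dvd_of_injective R K.subtype K.subtype_injective))
      have hle := le_pPrimeCore hTn hTc
      rw [core_normal_bot hcore K, le_bot_iff] at hle
      have hmem : (⟨x, hxK⟩ : K) ∈ T := Subgroup.mem_subgroupOf.2 hxR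
      rw [hle, Subgroup.mem_bot] at hmem
      exact congrArg Subtype.val hmem
    have hnR : ∀ a ∈ H, ∀ r ∈ R, a * r * a⁻¹ ∈ R := fun a ha r hr => hRn a (hHJ ha) r hr
    set L := HO H R hnR with hLd
    set N₀ := K ⊓ L with hN₀d
    have hN₀p : IsPGroup p N₀ := by
      rintro ⟨x, hxK, a, ha, r, hr, rfl⟩
      obtain ⟨k, hk⟩ := pow_pow_of_mem hHp ha
      refine ⟨k, Subtype.ext ?_⟩
      simp only [Subgroup.coe_pow, Subgroup.coe_one]
      obtain ⟨r', hr', e⟩ := pow_decomp hnR ha hr (p ^ k)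
      rw [hk, one_mul] at e
      apply hRK _ (e ▸ hr')
      exact K.pow_mem hxK _
    have hN₀n : ∀ g ∈ J, ∀ x ∈ N₀, g * x * g⁻¹ ∈ N₀ := by
      rintro g hg x ⟨hxK, a, ha, r, hr, rfl⟩
      refine ⟨hKn.conj_mem _ hxK g, ?_⟩
      obtain ⟨a', ha', τ, hτ, e⟩ := hConcl ⟨g, hg⟩ ⟨a, hHJ ha⟩ (Subgroup.mem_subgroupOf.2 ha)
      have e' : g * a * g⁻¹ = (a' : G) * (τ : G) := congrArg Subtype.val e
      have hτR : (τ : G) ∈ R := ⟨τ, hτ, rfl⟩
      refine ⟨(a' : G), Subgroup.mem_subgroupOf.1 ha', (τ : G) * (g * r * g⁻¹), R.mul_mem hτR (hRn g hg r hr), ?_⟩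
      calc g * (a * r) * g⁻¹ = (g * a * g⁻¹) * (g * r * g⁻¹) := by group
        _ = (a' : G) * ((τ : G) * (g * r * g⁻¹)) := by rw [e']; group
    set N₁ : Subgroup ↥K := N₀.subgroupOf K with hN₁d
    have hN₁n : N₁.Normal := by
      constructor
      intro y hy c
      rw [hN₁d, Subgroup.mem_subgroupOf] at hy ⊢
      exact hN₀n _ (hKJ c.2) _ hy
    have hN₁p : IsPGroup p N₁ := hN₀p.comap_of_injective K.subtype K.subtype_injective
    have hle := le_pCore hN₁n hN₁p
    have hzN : (⟨z, hzK⟩ : K) ∈ N₁ := by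
      rw [hN₁d, Subgroup.mem_subgroupOf]
      exact ⟨hzK, z, hzH, 1, R.one_mem, by simp⟩
    have h1 : z ∈ (pCore p ↥K).map K.subtype := ⟨_, hle hzN, rfl⟩
    rw [map_pCore_of_normal] at h1
    have hKle : K ≤ pCore p G := by
      apply Subgroup.normalClosure_le_normal
      rintro _ rfl
      exact h1.2
    exact (isPGroup_pCore p).to_le hKle

/-- The main step: `H` is normal when the core is trivial. -/
theorem normal_H [hpf : Fact p.Prime] (IH : ∀ (X : Type u) [Group X] [Finite X], Nat.card X < Nat.card G →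
      ∀ K : Subgroup X, IsPGroup p K → IsMulCommutative K → PCl p K → Concl p K)
    (hp2 : p ≠ 2) (hcore : pPrimeCore p G = ⊥)
    {H : Subgroup G} (hHp : IsPGroup p H) (hHab : IsMulCommutative H) (hcl : PCl p H) :
    ∀ g : G, ∀ k ∈ H, g * k * g⁻¹ ∈ H := by
  have hpp := hpf.out
  have hHc : ∀ a ∈ H, ∀ b ∈ H, a * b = b * a := by
    intro a ha b hb
    have := hHab.is_comm.comm ⟨a, ha⟩ ⟨b, hb⟩
    exact congrArg Subtype.val this
  by_cases hbot : H = ⊥
  · intro g k hk
    rw [hbot, Subgroup.mem_bot] at hk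
    rw [hk, hbot, Subgroup.mem_bot]
    simp
  by_cases hcen : ∃ w : G, orderOf w = p ∧ ∀ g : G, g * w = w * g
  · obtain ⟨w, hw, hwc⟩ := hcen
    exact central_step IH hcore hwc hw hHp hHab hcl
  push Not at hcen
  have hlt : ∀ b ∈ H, b ≠ 1 → Nat.card (Subgroup.centralizer ({b} : Set G)) < Nat.card G := by
    intro b hb hb1
    apply card_lt_of_ne_top
    intro htop
    obtain ⟨k, hk⟩ := pow_pow_of_mem hHp hb
    obtain ⟨j, -, hj⟩ := (Nat.dvd_prime_pow hpp).1 (orderOf_dvd_of_pow_eq_one hk)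
    cases j with
    | zero =>
      simp only [pow_zero] at hj
      exact hb1 (orderOf_eq_one_iff.1 hj)
    | succ j =>
      have hw : orderOf (b ^ p ^ j) = p := by
        rw [orderOf_pow' _ (pow_ne_zero _ hpp.ne_zero), hj, Nat.gcd_eq_right (pow_dvd_pow p (by omega))]
        rw [pow_succ]
        exact Nat.mul_div_cancel_left _ (pow_pos hpp.pos j)
      obtain ⟨g, hg⟩ := hcen _ hw
      apply hg
      have h1 : g ∈ Subgroup.centralizer ({b} : Set G) := by rw [htop]; exact Subgroup.mem_top g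
      have h2 : Commute g b := (Subgroup.mem_centralizer_singleton_iff.1 h1)
      exact (h2.pow_right _).eq
  -- an element of order `p`
  have hdvd : p ∣ Nat.card H := by
    obtain ⟨n, hn⟩ := IsPGroup.iff_card.1 hHp
    rw [hn]
    apply dvd_pow_self
    intro hn0
    rw [hn0, pow_zero] at hn
    exact hbot (Subgroup.card_eq_one.1 hn)
  obtain ⟨z', hz'⟩ := exists_prime_orderOf_dvd_card' (G := H) p hdvd
  set z : G := (z' : G) with hzd
  have hzH : z ∈ H := z'.2
  have hzo : orderOf z = p := by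
    rw [hzd, Subgroup.orderOf_coe, hz']
  have hKp := closure_pgroup IH hp2 hcore hHp hHc hcl hlt hzH hzo
  set K := Subgroup.normalClosure ({z} : Set G) with hKd
  haveI hKn : K.Normal := Subgroup.normalClosure_normal
  have hzK : z ∈ K := Subgroup.subset_normalClosure rfl
  have hKH : K ≤ H := by
    rw [hKd]
    show Subgroup.closure _ ≤ H
    rw [Subgroup.closure_le]
    intro x hx
    obtain ⟨b, hb, hc⟩ := Group.mem_conjugatesOfSet_iff.1 hx
    rw [Set.mem_singleton_iff] at hb
    rw [hb] at hc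
    obtain ⟨g, rfl⟩ := isConj_iff.1 hc
    have hP : IsPGroup p (H ⊔ K : Subgroup G) := hHp.to_sup_of_normal_right hKp
    exact hcl.mem_of_pgroup hP le_sup_left hzH
      (Subgroup.mem_sup_right (hKn.conj_mem z hzK g))
  set C := Subgroup.centralizer (K : Set G) with hCd
  haveI hCn : C.Normal := Subgroup.normal_centralizer
  have hHC : H ≤ C := by
    intro a ha
    rw [hCd, Subgroup.mem_centralizer_iff]
    intro x hx
    exact hHc x (hKH hx) a ha
  by_cases hCt : C = ⊤
  · exfalso
    obtain ⟨g, hg⟩ := hcen z hzo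
    apply hg
    have h1 : g ∈ C := by rw [hCt]; exact Subgroup.mem_top g
    rw [hCd, Subgroup.mem_centralizer_iff] at h1
    exact (h1 z hzK).symm
  · exact normal_in_of_IH IH hcore (card_lt_of_ne_top hCt) hHC hHp hHc hcl

/-- The main theorem, by induction. -/
theorem main_aux [hpf : Fact p.Prime] (hp2 : p ≠ 2) (n : ℕ) : ∀ (G : Type u) [Group G] [Finite G], Nat.card G = n →
    ∀ H : Subgroup G, IsPGroup p H → IsMulCommutative H → PCl p H → Concl p H := by
  have hpp := hpf.out
  induction n using Nat.strong_induction_on with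
  | _ n ih =>
    intro G _ _ hn H hHp hHab hcl
    have IH : ∀ (X : Type u) [Group X] [Finite X], Nat.card X < Nat.card G →
        ∀ K : Subgroup X, IsPGroup p K → IsMulCommutative K → PCl p K → Concl p K :=
      fun X _ _ hX K h1 h2 h3 => ih (Nat.card X) (hn ▸ hX) X rfl K h1 h2 h3
    by_cases hcore : pPrimeCore p G = ⊥
    · have hnor := normal_H IH hp2 hcore hHp hHab hcl
      intro g h hh
      exact ⟨g * h * g⁻¹, hnor g h hh, 1, Subgroup.one_mem _, by simp⟩
    · set R := pPrimeCore p G with hRd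
      haveI hRn : R.Normal := inferInstance
      have hRnd : ¬ p ∣ Nat.card R := not_dvd_card_pPrimeCore p
      let π := QuotientGroup.mk' R
      have hπ : Function.Surjective π := QuotientGroup.mk'_surjective R
      have hcq : pPrimeCore p (G ⧸ R) = ⊥ := pPrimeCore_quotient_pPrimeCore p
      have hlt : Nat.card (G ⧸ R) < Nat.card G := by
        have h1 := Subgroup.card_mul_index R
        have h6 : Nat.card (G ⧸ R) = R.index := rfl
        have hG : 0 < Nat.card G := Nat.card_pos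
        have h2 : 1 < Nat.card R := by
          have h3 : Nat.card R ≠ 1 := fun h => hcore (Subgroup.card_eq_one.1 h)
          have h4 : 0 < Nat.card R := Nat.card_pos
          omega
        rw [h6]
        have h5 : 0 < R.index := Nat.pos_of_ne_zero Subgroup.index_ne_zero_of_finite
        nlinarith
      have hPm : PCl p (H.map π) := by
        apply hcl.map π hπ
        intro O hO hnn hc o ho h
        have hK : ¬ p ∣ Nat.card (R ⊓ O : Subgroup G) := fun h' =>
          hRnd (h'.trans (Subgroup.card_dvd_of_le inf_le_left))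
        obtain ⟨v, hv, hfix⟩ := CoprimeHyper.exists_fixed_in_coset H (R ⊓ O) hHp hK (by
          intro a ha k hk
          exact ⟨hRn.conj_mem k hk.1 a, hnn a ha k hk.2⟩) o (by
          intro a ha
          refine ⟨?_, O.mul_mem (O.inv_mem ho) (hnn a ha o ho)⟩
          have h2 : π (o⁻¹ * (a * o * a⁻¹)) = 1 := by
            simp only [map_mul, map_inv]
            rw [← h a ha]
            group
          exact (QuotientGroup.eq_one_iff _).1 h2)
        have h1 : o * v = 1 := by
          apply hc _ (O.mul_mem ho hv.2)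
          intro a ha
          have := hfix a ha
          rw [mul_inv_eq_iff_eq_mul] at this
          exact this.symm
        have h2 : o = v⁻¹ := eq_inv_of_mul_eq_one_left h1
        rw [h2]
        exact (QuotientGroup.eq_one_iff _).2 (R.inv_mem hv.1)
      have hC := IH (G ⧸ R) hlt (H.map π) (hHp.map π) (by
        constructor
        constructor
        rintro ⟨_, a, ha, rfl⟩ ⟨_, b, hb, rfl⟩
        apply Subtype.ext
        have := hHab.is_comm.comm ⟨a, ha⟩ ⟨b, hb⟩
        have h2 := congrArg Subtype.val this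
        simp only [Subgroup.coe_mul] at h2 ⊢
        rw [← map_mul, ← map_mul, h2]) hPm
      intro g h hh
      obtain ⟨_, ⟨a, ha, rfl⟩, τ, hτ, e⟩ := hC (π g) (π h) ⟨h, hh, rfl⟩
      rw [hcq, Subgroup.mem_bot] at hτ
      rw [hτ, mul_one] at e
      have h1 : π (a⁻¹ * (g * h * g⁻¹)) = 1 := by
        rw [map_mul, map_inv, map_mul, map_mul, map_inv, e]
        simp
      have h2 : a⁻¹ * (g * h * g⁻¹) ∈ R := (QuotientGroup.eq_one_iff _).1 h1
      exact ⟨a, ha, a⁻¹ * (g * h * g⁻¹), h2, by group⟩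

theorem main [Fact p.Prime] (hp2 : p ≠ 2) {H : Subgroup G} (hHp : IsPGroup p H)
    (hHab : IsMulCommutative H) (hcl : PCl p H) : Concl p H :=
  main_aux hp2 _ G rfl H hHp hHab hcl

end Fus

section Final

variable {G : Type*} [Group G] [Finite G] {p : ℕ}

/-- Extremely closed abelian `p`-subgroups have coprime fusion. -/
theorem pcl_of_extremelyClosed [hpf : Fact p.Prime] {H : Subgroup G} (hHp : IsPGroup p H)
    (hHab : IsMulCommutative H) (hcl : IsExtremelyClosed H) : PCl p H := by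
  have hpp := hpf.out
  have hHc : ∀ a ∈ H, ∀ b ∈ H, a * b = b * a := by
    intro a ha b hb
    have := hHab.is_comm.comm ⟨a, ha⟩ ⟨b, hb⟩
    exact congrArg Subtype.val this
  intro g
  set K := H ⊔ H.map (MulAut.conj g).toMonoidHom with hKd
  have hKN := hcl g
  rw [← hKd] at hKN
  have hHK : H ≤ K := le_sup_left
  have hKH : ∀ x ∈ K, x ∈ Subgroup.normalizer (H : Set G) → x ∈ H := by
    intro x hx hxn
    rw [← hKN]
    exact ⟨hx, hxn⟩
  set H' : Subgroup K := H.subgroupOf K with hH'd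
  have hH'2 : IsPGroup p H' := hHp.comap_of_injective K.subtype K.subtype_injective
  obtain ⟨P, hP⟩ := hH'2.exists_le_sylow
  have hmemP : ∀ (n : G) (hn : n ∈ H), (⟨n, hHK hn⟩ : K) ∈ (P : Subgroup K) := by
    intro n hn
    exact hP (Subgroup.mem_subgroupOf.2 hn)
  have hPeq : (P : Subgroup K) = H' := by
    by_contra hne
    have hlt : H' < P := lt_of_le_of_ne hP (Ne.symm hne)
    haveI : Group.IsNilpotent (P : Subgroup K) := P.isPGroup'.isNilpotent
    let H'' : Subgroup (P : Subgroup K) := H'.subgroupOf (P : Subgroup K)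
    have hne' : H'' ≠ ⊤ := by
      intro htop
      apply not_le_of_gt hlt
      intro x hx
      have h1 : (⟨x, hx⟩ : (P : Subgroup K)) ∈ H'' := by rw [htop]; trivial
      exact h1
    have hnc := Group.normalizerCondition_of_isNilpotent (G := (P : Subgroup K)) H'' (lt_top_iff_ne_top.2 hne')
    obtain ⟨x, hxN, hxH⟩ := SetLike.exists_of_lt hnc
    have hfwd : ∀ x : (P : Subgroup K), x ∈ Subgroup.normalizer (H'' : Set (P : Subgroup K)) →
        ∀ n ∈ H, (x : G) * n * (x : G)⁻¹ ∈ H := by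
      intro x hx n hn
      have h1 : (⟨⟨n, hHK hn⟩, hmemP n hn⟩ : (P : Subgroup K)) ∈ H'' := Subgroup.mem_subgroupOf.2 hn
      have h2 := (Subgroup.mem_normalizer_iff.1 hx _).1 h1
      exact h2
    have hxG : ((x : K) : G) ∈ Subgroup.normalizer (H : Set G) := by
      rw [Subgroup.mem_normalizer_iff]
      intro n
      constructor
      · exact hfwd x hxN n
      · intro h1
        have h2 := hfwd x⁻¹ (Subgroup.inv_mem _ hxN) _ h1
        have h3 : ((x⁻¹ : (P : Subgroup K)) : G) * (((x : K) : G) * n * ((x : K) : G)⁻¹) *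
            ((x⁻¹ : (P : Subgroup K)) : G)⁻¹ = n := by
          simp only [InvMemClass.coe_inv, inv_inv]
          group
        rw [h3] at h2
        exact h2
    exact hxH (hKH _ (x : K).2 hxG)
  have hPH : ∀ x : K, x ∈ (P : Subgroup K) → (x : G) ∈ H := by
    intro x hx
    rw [hPeq] at hx
    exact hx
  have hPn : Subgroup.normalizer ((P : Subgroup K) : Set K) ≤
      Subgroup.centralizer ((P : Subgroup K) : Set K) := by
    intro x hx
    rw [Subgroup.mem_centralizer_iff]
    intro y hy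
    have hxG : (x : G) ∈ Subgroup.normalizer (H : Set G) := by
      have hfwd : ∀ x : K, x ∈ Subgroup.normalizer ((P : Subgroup K) : Set K) →
          ∀ n ∈ H, (x : G) * n * (x : G)⁻¹ ∈ H := by
        intro x hx n hn
        have h2 := (Subgroup.mem_normalizer_iff.1 hx _).1 (hmemP n hn)
        exact hPH _ h2
      rw [Subgroup.mem_normalizer_iff]
      intro n
      constructor
      · exact hfwd x hx n
      · intro h1
        have h2 := hfwd x⁻¹ (Subgroup.inv_mem _ hx) _ h1
        have h3 : ((x⁻¹ : K) : G) * ((x : G) * n * (x : G)⁻¹) * ((x⁻¹ : K) : G)⁻¹ = n := by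
          simp only [InvMemClass.coe_inv, inv_inv]
          group
        rw [h3] at h2
        exact h2
    have hxH := hKH _ x.2 hxG
    apply Subtype.ext
    exact hHc _ (hPH y hy) _ hxH
  obtain ⟨N, hNnormal, hcomp⟩ : ∃ N : Subgroup K, N.Normal ∧ N.IsComplement' (P : Subgroup K) :=
    ⟨_, MonoidHom.normal_ker _, MonoidHom.ker_transferSylow_isComplement' P hPn⟩
  have hNcard : Nat.card N = (P : Subgroup K).index := by
    have h1 := hcomp.card_mul_card
    have h2 := Subgroup.card_mul_index (P : Subgroup K)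
    have hpos : 0 < Nat.card (P : Subgroup K) := Nat.card_pos
    apply Nat.eq_of_mul_eq_mul_left hpos
    rw [h2, ← h1, mul_comm]
  have hNnd : ¬ p ∣ Nat.card N := by
    rw [hNcard]
    exact P.not_dvd_index
  have hOnd : ¬ p ∣ Nat.card (N.map K.subtype) := by
    rw [Subgroup.card_map_of_injective K.subtype_injective]
    exact hNnd
  have hONorm : ∀ a ∈ H, ∀ o ∈ N.map K.subtype, a * o * a⁻¹ ∈ N.map K.subtype := by
    rintro a ha _ ⟨o, ho, rfl⟩
    exact ⟨⟨a, hHK ha⟩ * o * ⟨a, hHK ha⟩⁻¹, hNnormal.conj_mem o ho _, by simp⟩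
  refine ⟨N.map K.subtype, hOnd, hONorm, ?_, ?_⟩
  · rintro _ ⟨o, ho, rfl⟩ h
    have h1 : (o : G) ∈ Subgroup.normalizer (H : Set G) := by
      apply mem_normalizer_of_forall
      intro a ha
      have e : (o : G) * a = a * (o : G) := h a ha
      rw [e]
      simpa using ha
    have h2 := hKH _ o.2 h1
    exact eq_one_of_mem_mem hpp hHp hOnd h2 ⟨o, ho, rfl⟩
  · intro h hh
    have hy : g * h * g⁻¹ ∈ K := by
      apply Subgroup.mem_sup_right
      exact ⟨h, hh, by simp [MulAut.conj_apply]⟩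
    obtain ⟨⟨⟨q, hq⟩, ⟨n, hn⟩⟩, e⟩ := (Subgroup.isComplement'_def.1 hcomp.symm).2 ⟨_, hy⟩
    refine ⟨(q : G), hPH q hq, (n : G), ⟨n, hn, rfl⟩, ?_⟩
    have := congrArg Subtype.val e
    simpa using this.symm

/-- The factorization from the main conclusion. -/
theorem factorization_of_concl [hpf : Fact p.Prime] {H : Subgroup G} (hHp : IsPGroup p H) (hC : Concl p H) :
    Subgroup.normalizer (H : Set G) ⊔ pPrimeCore p G = ⊤ := by
  have hpp := hpf.out
  set T := pPrimeCore p G with hTd
  haveI hTn : T.Normal := inferInstance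
  set X := H ⊔ T with hXd
  have hTnd : ¬ p ∣ Nat.card T := not_dvd_card_pPrimeCore p
  haveI hXn : X.Normal := by
    constructor
    intro x hx g
    obtain ⟨a, ha, τ, hτ, rfl⟩ := Subgroup.mem_sup_of_normal_right.1 hx
    obtain ⟨a', ha', τ', hτ', e⟩ := hC g a ha
    have h1 : g * (a * τ) * g⁻¹ = (g * a * g⁻¹) * (g * τ * g⁻¹) := by group
    rw [h1, e]
    exact X.mul_mem (X.mul_mem (Subgroup.mem_sup_left ha') (Subgroup.mem_sup_right hτ'))
      (Subgroup.mem_sup_right (hTn.conj_mem τ hτ g))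
  have hHX : H ≤ X := le_sup_left
  have hH'2 : IsPGroup p (H.subgroupOf X) := hHp.comap_of_injective X.subtype X.subtype_injective
  obtain ⟨P, hP⟩ := hH'2.exists_le_sylow
  have hPH : ∀ x : X, x ∈ (P : Subgroup X) → (x : G) ∈ H := by
    intro x hx
    obtain ⟨a, ha, τ, hτ, e⟩ := Subgroup.mem_sup_of_normal_right.1 x.2
    have haP : (⟨a, hHX ha⟩ : X) ∈ (P : Subgroup X) := hP (Subgroup.mem_subgroupOf.2 ha)
    have hτX : τ ∈ X := Subgroup.mem_sup_right hτ
    have hτP : (⟨τ, hτX⟩ : X) ∈ (P : Subgroup X) := by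
      have h1 : (⟨τ, hτX⟩ : X) = (⟨a, hHX ha⟩ : X)⁻¹ * x := by
        apply Subtype.ext
        simp [← e]
      rw [h1]
      exact Subgroup.mul_mem _ (Subgroup.inv_mem _ haP) hx
    obtain ⟨k, hk⟩ := P.isPGroup' ⟨_, hτP⟩
    have hk' : τ ^ (p ^ k) = 1 := by
      have h2 := congrArg Subtype.val (congrArg Subtype.val hk)
      simpa using h2
    have hτ1 := eq_one_of_pow_of_not_dvd hpp (not_dvd_orderOf_of_mem hTnd hτ) hk'
    rw [← e, hτ1, mul_one]
    exact ha
  have hmap : (P : Subgroup X).map X.subtype = H := by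
    apply le_antisymm
    · rintro _ ⟨x, hx, rfl⟩
      exact hPH x hx
    · intro n hn
      exact ⟨⟨n, hHX hn⟩, hP (Subgroup.mem_subgroupOf.2 hn), rfl⟩
  have h := Sylow.normalizer_sup_eq_top (N := X) P
  rw [hmap] at h
  rw [eq_top_iff, ← h]
  apply sup_le le_sup_left
  apply sup_le _ le_sup_right
  exact (Subgroup.le_normalizer).trans le_sup_left

/-- **Theorem.** An extremely closed abelian `p`-subgroup, `p` odd, and the `p'`-core factor `G`
with its normalizer. -/
theorem concl_of_extremelyClosed [hpf : Fact p.Prime] (hp2 : p ≠ 2) {G : Type u} [Group G] [Finite G]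
    {H : Subgroup G} (hHp : IsPGroup p H)
    (hHab : IsMulCommutative H) (hcl : IsExtremelyClosed H) : Concl p H :=
  main hp2 hHp hHab (pcl_of_extremelyClosed hHp hHab hcl)

end Final

end Cfsg.Agent.Lib.XcoMain
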