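import Mathlib
import Cfsg.Agent.Lib.KleinGroup
import Cfsg.Agent.Lib.SylowConjLemmas

set_option autoImplicit false
set_option linter.unusedSectionVars false
set_option linter.unusedVariables false
set_option linter.style.haveILetI false

namespace Cfsg.Agent.Lib.ZD8Fus

open Cfsg.Agent.Lib.KleinGroup

variable {G : Type*} [Group G]

theorem sq_of_four {Q : Type*} [Group Q] [Finite Q] (h : ¬ 4 ∣ Nat.card Q) {q : Q} (hq : q ^ 4 = 1) :
    q ^ 2 = 1 := by
  have h1 : orderOf q ∣ 2 ^ 2 := orderOf_dvd_of_pow_eq_one (by simpa using hq)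
  obtain ⟨k, hk, hk'⟩ := (Nat.dvd_prime_pow Nat.prime_two).mp h1
  have hk2 : k ≠ 2 := by
    rintro rfl
    apply h
    have := orderOf_dvd_natCard q
    rw [hk'] at this
    simpa using this
  have hk1 : k ≤ 1 := by omega
  have : orderOf q ∣ 2 := by
    rw [hk']
    exact (pow_dvd_pow 2 hk1).trans (by norm_num)
  exact orderOf_dvd_iff_pow_eq_one.mp this

theorem mul_eq_one_of_four {Q : Type*} [Group Q] [Finite Q] (h : ¬ 4 ∣ Nat.card Q) {a b : Q}
    (ha : a ^ 2 = 1) (hb : b ^ 2 = 1) (ha1 : a ≠ 1) (hb1 : b ≠ 1) (hab : (a * b) ^ 4 = 1) :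
    a * b = 1 := by
  by_contra hne
  have h2 := sq_of_four h hab
  have ha' : a * a = 1 := by rwa [pow_two] at ha
  have hb' : b * b = 1 := by rwa [pow_two] at hb
  have hab2 : a * b = b * a := by
    rw [pow_two] at h2
    calc a * b = a * b * (a * b * (a * b)⁻¹) := by group
      _ = (a * b * (a * b)) * (a * b)⁻¹ := by group
      _ = (a * b)⁻¹ := by rw [h2, one_mul]
      _ = b⁻¹ * a⁻¹ := by group
      _ = b * a := by
        rw [inv_eq_of_mul_eq_one_left hb', inv_eq_of_mul_eq_one_left ha']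
  have hne2 : a ≠ b := by
    rintro rfl
    exact hne ha'
  have hP : IsPair a b := ⟨order_of_sq ha' ha1, order_of_sq hb' hb1, hne2, hab2⟩
  have h3 := card_klein hP
  apply h
  rw [← h3]
  exact Subgroup.card_subgroup_dvd_card _

section lift

variable {N K : Subgroup G}

theorem lift_sq [Finite G] (hKN : K ≤ N) (hn : ∀ g ∈ N, ∀ k ∈ K, g * k * g⁻¹ ∈ K)
    (h : ¬ 4 ∣ K.relIndex N) {y : G} (hy : y ∈ N) (h4 : y ^ 4 ∈ K) : y ^ 2 ∈ K := by
  haveI : (K.subgroupOf N).Normal := ⟨fun k hk g => by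
    rw [Subgroup.mem_subgroupOf] at hk ⊢
    exact hn g.1 g.2 k.1 hk⟩
  have h' : ¬ 4 ∣ Nat.card (N ⧸ K.subgroupOf N) := h
  have e1 : ((⟨y, hy⟩ : N) : N ⧸ K.subgroupOf N) ^ 4 = 1 := by
    rw [← QuotientGroup.mk_pow, QuotientGroup.eq_one_iff, Subgroup.mem_subgroupOf]
    exact h4
  have e2 := sq_of_four h' e1
  rw [← QuotientGroup.mk_pow, QuotientGroup.eq_one_iff, Subgroup.mem_subgroupOf] at e2
  exact e2

theorem lift_mul [Finite G] (hKN : K ≤ N) (hn : ∀ g ∈ N, ∀ k ∈ K, g * k * g⁻¹ ∈ K)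
    (h : ¬ 4 ∣ K.relIndex N) {a b : G} (ha : a ∈ N) (hb : b ∈ N) (ha2 : a ^ 2 ∈ K) (hb2 : b ^ 2 ∈ K)
    (ha1 : a ∉ K) (hb1 : b ∉ K) (hab : (a * b) ^ 4 ∈ K) : a * b ∈ K := by
  haveI : (K.subgroupOf N).Normal := ⟨fun k hk g => by
    rw [Subgroup.mem_subgroupOf] at hk ⊢
    exact hn g.1 g.2 k.1 hk⟩
  have h' : ¬ 4 ∣ Nat.card (N ⧸ K.subgroupOf N) := h
  have e1 : ((⟨a, ha⟩ : N) : N ⧸ K.subgroupOf N) ^ 2 = 1 := by
    rw [← QuotientGroup.mk_pow, QuotientGroup.eq_one_iff, Subgroup.mem_subgroupOf]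
    exact ha2
  have e2 : ((⟨b, hb⟩ : N) : N ⧸ K.subgroupOf N) ^ 2 = 1 := by
    rw [← QuotientGroup.mk_pow, QuotientGroup.eq_one_iff, Subgroup.mem_subgroupOf]
    exact hb2
  have e3 : ((⟨a, ha⟩ : N) : N ⧸ K.subgroupOf N) ≠ 1 := by
    rw [Ne, QuotientGroup.eq_one_iff, Subgroup.mem_subgroupOf]
    exact ha1
  have e4 : ((⟨b, hb⟩ : N) : N ⧸ K.subgroupOf N) ≠ 1 := by
    rw [Ne, QuotientGroup.eq_one_iff, Subgroup.mem_subgroupOf]
    exact hb1
  have e5 : (((⟨a, ha⟩ : N) : N ⧸ K.subgroupOf N) * ((⟨b, hb⟩ : N) : N ⧸ K.subgroupOf N)) ^ 4 = 1 := by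
    rw [← QuotientGroup.mk_mul, ← QuotientGroup.mk_pow, QuotientGroup.eq_one_iff, Subgroup.mem_subgroupOf]
    exact hab
  have e6 := mul_eq_one_of_four h' e1 e2 e3 e4 e5
  rw [← QuotientGroup.mk_mul, QuotientGroup.eq_one_iff, Subgroup.mem_subgroupOf] at e6
  exact e6

/-- Elements acting with exponent four act as `1` or as `t`. -/
theorem dichotomy [Finite G] (hKN : K ≤ N) (hn : ∀ g ∈ N, ∀ k ∈ K, g * k * g⁻¹ ∈ K)
    (h : ¬ 4 ∣ K.relIndex N) (hall : ∀ g ∈ N, g ^ 4 ∈ K) {t : G} (htN : t ∈ N) (ht2 : t ^ 2 ∈ K)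
    (ht : t ∉ K) {g : G} (hg : g ∈ N) : g ∈ K ∨ t * g ∈ K := by
  by_cases hgK : g ∈ K
  · exact Or.inl hgK
  · exact Or.inr (lift_mul hKN hn h htN hg ht2 (lift_sq hKN hn h hg (hall g hg)) ht hgK
      (hall _ (N.mul_mem htN hg)))

end lift

/-- Normalizer membership from one inclusion. -/
theorem mem_normalizer_of_conj [Finite G] {B : Subgroup G} {n : G} (h : ∀ b ∈ B, n * b * n⁻¹ ∈ B) :
    n ∈ Subgroup.normalizer (B : Set G) := by
  have hle : B.map (MulAut.conj n).toMonoidHom ≤ B := by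
    rintro _ ⟨b, hb, rfl⟩
    exact h b hb
  have hcard : Nat.card (B.map (MulAut.conj n).toMonoidHom) = Nat.card B :=
    Subgroup.card_map_of_injective (MulAut.conj n).injective
  have heq : B.map (MulAut.conj n).toMonoidHom = B :=
    Subgroup.eq_of_le_of_card_ge hle hcard.ge
  rw [Subgroup.mem_normalizer_iff]
  intro x
  constructor
  · exact h x
  · intro hx
    rw [← heq] at hx
    obtain ⟨b, hb, hbe⟩ := hx
    have : b = x := (MulAut.conj n).injective hbe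
    rwa [← this]

theorem conj_mem_of_normalizer {B : Subgroup G} {n b : G} (hn : n ∈ Subgroup.normalizer (B : Set G))
    (hb : b ∈ B) : n * b * n⁻¹ ∈ B :=
  (Subgroup.mem_normalizer_iff.mp hn b).mp hb

theorem mem_smul_iff {H : Type*} [Group H] {p : ℕ} {P : Sylow p H} {c u : H} :
    u ∈ ((c • P : Sylow p H) : Subgroup H) ↔ c⁻¹ * u * c ∈ (P : Subgroup H) := by
  rw [Sylow.coe_subgroup_smul, Subgroup.mem_pointwise_smul_iff_inv_smul_mem]
  have : (MulAut.conj c)⁻¹ • u = c⁻¹ * u * c := by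
    simp [MulAut.smul_def, MulAut.inv_def]
  rw [this]

/-- Control of fusion in an abelian weakly closed subgroup. -/
theorem exists_normalizing [Finite G] (S : Sylow 2 G) (B : Subgroup G) (hBS : B ≤ (S : Subgroup G))
    (habel : ∀ a ∈ B, ∀ b ∈ B, a * b = b * a)
    (hw : ∀ g : G, (∀ b ∈ B, g * b * g⁻¹ ∈ (S : Subgroup G)) → ∀ b ∈ B, g * b * g⁻¹ ∈ B)
    {x y g : G} (hx : x ∈ B) (hy : y ∈ B) (hxy : g * x * g⁻¹ = y) :
    ∃ n ∈ Subgroup.normalizer (B : Set G), n * x * n⁻¹ = y := by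
  classical
  haveI : Fact (Nat.Prime 2) := ⟨Nat.prime_two⟩
  let Cy : Subgroup G := Subgroup.centralizer ({y} : Set G)
  have hmemCy : ∀ {c : G}, c ∈ Cy ↔ c * y = y * c := Subgroup.mem_centralizer_singleton_iff
  have hBCy : B ≤ Cy := fun b hb => hmemCy.mpr (habel b hb y hy)
  let B₁ : Subgroup G := B.map (MulAut.conj g).toMonoidHom
  have hB₁ : ∀ b ∈ B, g * b * g⁻¹ ∈ B₁ := fun b hb => ⟨b, hb, rfl⟩
  have hB₁Cy : B₁ ≤ Cy := by
    rintro _ ⟨b, hb, rfl⟩
    apply hmemCy.mpr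
    change g * b * g⁻¹ * y = y * (g * b * g⁻¹)
    rw [← hxy]
    have := habel b hb x hx
    calc g * b * g⁻¹ * (g * x * g⁻¹) = g * (b * x) * g⁻¹ := by group
      _ = g * (x * b) * g⁻¹ := by rw [this]
      _ = g * x * g⁻¹ * (g * b * g⁻¹) := by group
  have hpB : IsPGroup 2 B := S.isPGroup'.to_le hBS
  have hpB' : IsPGroup 2 (B.subgroupOf Cy) := hpB.comap_subtype
  have hpB₁ : IsPGroup 2 B₁ := hpB.map _
  have hpB₁' : IsPGroup 2 (B₁.subgroupOf Cy) := hpB₁.comap_subtype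
  obtain ⟨P, hP⟩ := hpB'.exists_le_sylow
  obtain ⟨P₁, hP₁⟩ := hpB₁'.exists_le_sylow
  obtain ⟨c, hc⟩ := MulAction.exists_smul_eq Cy P₁ P
  -- a Sylow subgroup of `G` containing `P`
  have hpP : IsPGroup 2 ((P : Subgroup Cy).map Cy.subtype) := P.isPGroup'.map _
  obtain ⟨S', hS'⟩ := hpP.exists_le_sylow
  obtain ⟨h, hh⟩ := MulAction.exists_smul_eq G S' S
  -- elements of `P` move into `S`
  have hmemS : ∀ u : Cy, u ∈ (P : Subgroup Cy) → h * (u : G) * h⁻¹ ∈ (S : Subgroup G) := by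
    intro u hu
    have h1 : (u : G) ∈ (S' : Subgroup G) := hS' ⟨u, hu, rfl⟩
    rw [← hh, mem_smul_iff]
    have : h⁻¹ * (h * (u : G) * h⁻¹) * h = u := by group
    rw [this]
    exact h1
  have hb1 : ∀ b ∈ B, h * b * h⁻¹ ∈ (S : Subgroup G) := by
    intro b hb
    exact hmemS ⟨b, hBCy hb⟩ (hP (Subgroup.mem_subgroupOf.mpr hb))
  have hb2 : ∀ b ∈ B, (h * c.1 * g) * b * (h * c.1 * g)⁻¹ ∈ (S : Subgroup G) := by
    intro b hb
    have h1 : (⟨g * b * g⁻¹, hB₁Cy (hB₁ b hb)⟩ : Cy) ∈ (P₁ : Subgroup Cy) :=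
      hP₁ (Subgroup.mem_subgroupOf.mpr (hB₁ b hb))
    have h2 : c * (⟨g * b * g⁻¹, hB₁Cy (hB₁ b hb)⟩ : Cy) * c⁻¹ ∈ (P : Subgroup Cy) := by
      rw [← hc, mem_smul_iff]
      have : c⁻¹ * (c * (⟨g * b * g⁻¹, hB₁Cy (hB₁ b hb)⟩ : Cy) * c⁻¹) * c = ⟨g * b * g⁻¹, hB₁Cy (hB₁ b hb)⟩ := by
        group
      rw [this]
      exact h1
    have h3 := hmemS _ h2
    have e : h * ((c * (⟨g * b * g⁻¹, hB₁Cy (hB₁ b hb)⟩ : Cy) * c⁻¹ : Cy) : G) * h⁻¹ =
        (h * c.1 * g) * b * (h * c.1 * g)⁻¹ := by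
      simp only [Subgroup.coe_mul, Subgroup.coe_inv]
      group
    rwa [e] at h3
  have hn1 : h ∈ Subgroup.normalizer (B : Set G) := mem_normalizer_of_conj (hw h hb1)
  have hn2 : h * c.1 * g ∈ Subgroup.normalizer (B : Set G) := mem_normalizer_of_conj (hw _ hb2)
  refine ⟨c.1 * g, ?_, ?_⟩
  · have : c.1 * g = h⁻¹ * (h * c.1 * g) := by group
    rw [this]
    exact Subgroup.mul_mem _ (Subgroup.inv_mem _ hn1) hn2
  · have h1 : c.1 * y = y * c.1 := hmemCy.mp c.2
    calc c.1 * g * x * (c.1 * g)⁻¹ = c.1 * (g * x * g⁻¹) * c.1⁻¹ := by group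
      _ = c.1 * y * c.1⁻¹ := by rw [hxy]
      _ = y := by rw [h1]; group

/-- Numerical part: the centralizer of a large subgroup has small `2`-part. -/
theorem not_sixteen [Finite G] (S : Sylow 2 G) (hS : Nat.card (S : Subgroup G) = 16) (B : Subgroup G)
    (hBS : B ≤ (S : Subgroup G)) (hB8 : Nat.card B = 8)
    (hZ : Nat.card (Subgroup.center (S : Subgroup G)) ≤ 4) :
    ¬ 16 ∣ Nat.card (Subgroup.centralizer (B : Set G)) := by
  classical
  haveI : Fact (Nat.Prime 2) := ⟨Nat.prime_two⟩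
  intro hdvd
  have hdvd' : 2 ^ 4 ∣ Nat.card (Subgroup.centralizer (B : Set G)) := by simpa using hdvd
  obtain ⟨K', hK'⟩ := Sylow.exists_subgroup_card_pow_prime 2 hdvd'
  let P' : Subgroup G := K'.map (Subgroup.centralizer (B : Set G)).subtype
  have hP'card : Nat.card P' = 16 := by
    have : Nat.card P' = Nat.card K' :=
      Subgroup.card_map_of_injective (Subgroup.subtype_injective _)
    rw [this, hK']
    norm_num
  have hP'p : IsPGroup 2 P' := IsPGroup.of_card (n := 4) (by rw [hP'card]; norm_num)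
  obtain ⟨T, hT⟩ := hP'p.exists_le_sylow
  have hTcard : Nat.card (T : Subgroup G) = 16 := by
    rw [← hS]
    exact Nat.card_congr (Sylow.equiv T S).toEquiv
  have hTeq : P' = (T : Subgroup G) := Subgroup.eq_of_le_of_card_ge hT (by rw [hTcard, hP'card])
  have hTC : ∀ u ∈ (T : Subgroup G), ∀ b ∈ B, u * b = b * u := by
    intro u hu b hb
    rw [← hTeq] at hu
    obtain ⟨v, _, rfl⟩ := hu
    exact ((Subgroup.mem_centralizer_iff.mp v.2 b hb)).symm
  -- `B ≤ T`
  have hBT : B ≤ (T : Subgroup G) := by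
    intro b hb
    have hz : IsPGroup 2 (Subgroup.zpowers b) :=
      S.isPGroup'.to_le ((Subgroup.zpowers_le).mpr (hBS hb))
    have hle : Subgroup.zpowers b ≤ Subgroup.normalizer ((T : Subgroup G) : Set G) := by
      rw [Subgroup.zpowers_le, Subgroup.mem_normalizer_iff]
      intro u
      have e : b * u * b⁻¹ = u ∨ True := Or.inr trivial
      constructor
      · intro hu
        have := hTC u hu b hb
        have e2 : b * u * b⁻¹ = u := by rw [← this]; group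
        rwa [e2]
      · intro hu
        have := hTC _ hu b hb
        have e2 : b * u * b⁻¹ * b = b * u := by group
        rw [e2] at this
        have e3 : u = b * u * b⁻¹ := mul_left_cancel this
        rwa [e3]
    have hsup := T.isPGroup'.to_sup_of_normal_left' hz hle
    have h1 := T.is_maximal' hsup le_sup_left
    have h2 : b ∈ ((T : Subgroup G) ⊔ Subgroup.zpowers b) :=
      (le_sup_right : Subgroup.zpowers b ≤ _) (Subgroup.mem_zpowers b)
    rwa [h1] at h2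
  -- `B` embeds in the centre of `T`
  have hle : Nat.card B ≤ Nat.card (Subgroup.center (T : Subgroup G)) := by
    refine Nat.card_le_card_of_injective
      (fun b : B => (⟨⟨b.1, hBT b.2⟩, ?_⟩ : Subgroup.center (T : Subgroup G))) ?_
    · rw [Subgroup.mem_center_iff]
      intro u
      apply Subtype.ext
      exact hTC u.1 u.2 b.1 b.2
    · intro a b hab
      apply Subtype.ext
      exact congrArg (fun z : Subgroup.center (T : Subgroup G) => (z.1 : G)) hab
  have hZT : Nat.card (Subgroup.center (T : Subgroup G)) = Nat.card (Subgroup.center (S : Subgroup G)) :=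
    Nat.card_congr (Subgroup.centerCongr (Sylow.equiv T S)).toEquiv
  rw [hB8, hZT] at hle
  omega

/-- Numerical part: `N / C` has order twice an odd number. -/
theorem not_four [Finite G] (S : Sylow 2 G) (hS : Nat.card (S : Subgroup G) = 16) (B : Subgroup G)
    (hBS : B ≤ (S : Subgroup G)) (hB8 : Nat.card B = 8) (hBab : ∀ a ∈ B, ∀ b ∈ B, a * b = b * a)
    (hZ : Nat.card (Subgroup.center (S : Subgroup G)) ≤ 4) :
    ¬ 4 ∣ (Subgroup.centralizer (B : Set G)).relIndex (Subgroup.normalizer (B : Set G)) := by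
  classical
  haveI : Fact (Nat.Prime 2) := ⟨Nat.prime_two⟩
  intro hdvd
  have h16 := not_sixteen S hS B hBS hB8 hZ
  have hBC : B ≤ Subgroup.centralizer (B : Set G) := by
    intro a ha
    rw [Subgroup.mem_centralizer_iff]
    intro b hb
    exact hBab b hb a ha
  have h8 : 8 ∣ Nat.card (Subgroup.centralizer (B : Set G)) := by
    rw [← hB8]
    exact Subgroup.card_dvd_of_le hBC
  have hCN : Subgroup.centralizer (B : Set G) ≤ Subgroup.normalizer (B : Set G) := by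
    intro c hc
    apply mem_normalizer_of_conj
    intro b hb
    have := Subgroup.mem_centralizer_iff.mp hc b hb
    rw [← this]
    simpa using hb
  have h1 : (Subgroup.centralizer (B : Set G)).relIndex (Subgroup.normalizer (B : Set G)) *
      Nat.card (Subgroup.centralizer (B : Set G)) = Nat.card (Subgroup.normalizer (B : Set G)) := by
    have e1 := Subgroup.card_mul_index ((Subgroup.centralizer (B : Set G)).subgroupOf (Subgroup.normalizer (B : Set G)))
    have e2 : Nat.card ((Subgroup.centralizer (B : Set G)).subgroupOf (Subgroup.normalizer (B : Set G))) =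
        Nat.card (Subgroup.centralizer (B : Set G)) :=
      Nat.card_congr (Subgroup.subgroupOfEquivOfLe hCN).toEquiv
    rw [e2] at e1
    rw [mul_comm]
    exact e1
  have h2 : 32 ∣ Nat.card (Subgroup.normalizer (B : Set G)) := by
    rw [← h1]
    exact mul_dvd_mul hdvd h8 
  have h3 : 32 ∣ Nat.card G := h2.trans (Subgroup.card_subgroup_dvd_card _)
  have h4 : Nat.card (S : Subgroup G) = 2 ^ (Nat.card G).factorization 2 := Sylow.card_eq_multiplicity S
  rw [hS] at h4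
  have h5 : (Nat.card G).factorization 2 = 4 := by
    have : 2 ^ (Nat.card G).factorization 2 = 2 ^ 4 := by rw [← h4]; norm_num
    exact Nat.pow_right_injective (le_refl 2) this
  have h6 : 2 ^ 5 ∣ Nat.card G := by simpa using h3
  have := (Nat.Prime.pow_dvd_iff_le_factorization Nat.prime_two Nat.card_pos.ne').mp h6
  omega

/-- The elements of a group of order four. -/
theorem klein_cases [Finite G] {Z : Subgroup G} (hZ4 : Nat.card Z = 4) (hZe : ∀ a ∈ Z, a * a = 1)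
    {z c d : G} (hz : z ∈ Z) (hc : c ∈ Z) (hd : d ∈ Z) (hz1 : z ≠ 1) (hc1 : c ≠ 1) (hcz : c ≠ z) :
    d = 1 ∨ d = z ∨ d = c ∨ d = c * z := by
  classical
  haveI := Fintype.ofFinite G
  by_contra hne
  push Not at hne
  obtain ⟨h1, h2, h3, h4⟩ := hne
  have hxzx : c * z ≠ c := by
    intro e
    apply hz1
    exact mul_left_cancel (e.trans (mul_one c).symm)
  have hxzz : c * z ≠ z := by
    intro e
    apply hc1
    exact mul_right_cancel (e.trans (one_mul z).symm)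
  have hxz1 : c * z ≠ 1 := by
    intro e
    apply hcz
    have h5 := hZe c hc
    exact mul_left_cancel (h5.trans e.symm)
  let s : Finset G := {1, c, z, c * z, d}
  have hs : s.card = 5 := by
    simp only [s]
    rw [Finset.card_insert_of_notMem, Finset.card_insert_of_notMem, Finset.card_insert_of_notMem,
      Finset.card_insert_of_notMem, Finset.card_singleton]
    · simp only [Finset.mem_singleton]; exact h4.symm
    · simp only [Finset.mem_insert, Finset.mem_singleton, not_or]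
      exact ⟨hxzz.symm, h2.symm⟩
    · simp only [Finset.mem_insert, Finset.mem_singleton, not_or]
      exact ⟨hcz, hxzx.symm, h3.symm⟩
    · simp only [Finset.mem_insert, Finset.mem_singleton, not_or]
      exact ⟨hc1.symm, hz1.symm, hxz1.symm, h1.symm⟩
  have hsub : s ⊆ Finset.univ.filter (fun a => a ∈ Z) := by
    intro a ha
    simp only [s, Finset.mem_insert, Finset.mem_singleton] at ha
    rw [Finset.mem_filter]
    refine ⟨Finset.mem_univ _, ?_⟩
    rcases ha with rfl | rfl | rfl | rfl | rfl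
    · exact Subgroup.one_mem _
    · exact hc
    · exact hz
    · exact Subgroup.mul_mem _ hc hz
    · exact hd
  have hc : (Finset.univ.filter (fun a => a ∈ Z)).card = 4 := by
    rw [← hZ4, Nat.card_eq_fintype_card, Fintype.card_subtype]
  have := Finset.card_le_card hsub
  omega

/-- Automorphisms stabilizing a flag have exponent four. -/
theorem flag_four [Finite G] {B Z : Subgroup G} (hBab : ∀ a ∈ B, ∀ b ∈ B, a * b = b * a) (hZB : Z ≤ B)
    (hZ4 : Nat.card Z = 4) (hZe : ∀ a ∈ Z, a * a = 1)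
    (hZi : ∀ u ∈ B, ∀ v ∈ B, u ∉ Z → v ∉ Z → u⁻¹ * v ∈ Z) {z g : G} (hzZ : z ∈ Z) (hz1 : z ≠ 1)
    (hgB : ∀ v ∈ B, g * v * g⁻¹ ∈ B) (hgZ : ∀ v ∈ Z, g * v * g⁻¹ ∈ Z)
    (hgZ' : ∀ v ∈ B, v ∉ Z → g * v * g⁻¹ ∉ Z) (hgz : g * z * g⁻¹ = z) :
    ∀ v ∈ B, g ^ 4 * v * (g ^ 4)⁻¹ = v := by
  let μ : G → G := fun v => g * v * g⁻¹
  have hμ : ∀ v, μ v = g * v * g⁻¹ := fun v => rfl
  have hμmul : ∀ u v, μ (u * v) = μ u * μ v := by
    intro u v
    simp only [hμ]
    group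
  have hμinj : ∀ u v, μ u = μ v → u = v := by
    intro u v h
    have : g⁻¹ * μ u * g = g⁻¹ * μ v * g := by rw [h]
    simpa [hμ, mul_assoc] using this
  have hμ1 : μ 1 = 1 := by simp [hμ]
  have hμz : μ z = z := hgz
  have hzz : z * z = 1 := hZe z hzZ
  have s1 : ∀ c ∈ Z, ∃ e, (e = 1 ∨ e = z) ∧ μ c = c * e := by
    intro c hc
    by_cases hc1 : c = 1
    · exact ⟨1, Or.inl rfl, by rw [hc1, hμ1, one_mul]⟩
    by_cases hcz : c = z
    · exact ⟨1, Or.inl rfl, by rw [hcz, hμz, mul_one]⟩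
    rcases klein_cases hZ4 hZe hzZ hc (hgZ c hc) hz1 hc1 hcz with e | e | e | e
    · exact absurd (hμinj c 1 (by rw [hμ1]; exact e)) hc1
    · exact absurd (hμinj c z (by rw [hμz]; exact e)) hcz
    · exact ⟨1, Or.inl rfl, by rw [mul_one]; exact e⟩
    · exact ⟨z, Or.inr rfl, e⟩
  have hμe : ∀ e, (e = 1 ∨ e = z) → μ e = e ∧ e * e = 1 := by
    rintro e (rfl | rfl)
    · exact ⟨hμ1, mul_one 1⟩
    · exact ⟨hμz, hzz⟩
  have s2 : ∀ c ∈ Z, μ (μ c) = c := by
    intro c hc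
    obtain ⟨e, he, hce⟩ := s1 c hc
    obtain ⟨h1, h2⟩ := hμe e he
    rw [hce, hμmul, hce, h1, mul_assoc, h2, mul_one]
  have s3 : ∀ v ∈ B, v ∉ Z → ∃ e, (e = 1 ∨ e = z) ∧ μ (μ v) = v * e := by
    intro v hv hvZ
    have h1 : v⁻¹ * μ v ∈ Z := hZi v hv _ (hgB v hv) hvZ (hgZ' v hv hvZ)
    obtain ⟨e, he, hce⟩ := s1 _ h1
    refine ⟨e, he, ?_⟩
    have h2 : μ v = v * (v⁻¹ * μ v) := by group
    set c := v⁻¹ * μ v with hc
    rw [h2, hμmul, h2, hce]
    have h3 : c * c = 1 := hZe c h1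
    calc v * c * (c * e) = v * (c * c) * e := by group
      _ = v * e := by rw [h3, mul_one]
  have s4 : ∀ v ∈ B, μ (μ (μ (μ v))) = v := by
    intro v hv
    by_cases hvZ : v ∈ Z
    · rw [s2 v hvZ, s2 v hvZ]
    · obtain ⟨e, he, h1⟩ := s3 v hv hvZ
      obtain ⟨h2, h3⟩ := hμe e he
      have h4 : μ (μ e) = e := by rw [h2, h2]
      rw [h1, hμmul v e, hμmul (μ v) (μ e), h1, h4, mul_assoc, h3, mul_one]
  intro v hv
  have e : g ^ 4 * v * (g ^ 4)⁻¹ = μ (μ (μ (μ v))) := by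
    rw [show g ^ 4 = g * g * g * g by simp only [pow_succ, pow_zero, one_mul]]
    simp only [hμ]
    group
  rw [e, s4 v hv]

/-- Two transvections with a centre inside the axis of the other: the product has order dividing `4`. -/
theorem rho_four {A Z Z' : Subgroup G} {t t' z b : G} (hAe : ∀ a ∈ A, a * a = 1)
    (hAc : ∀ a ∈ A, ∀ c ∈ A, a * c = c * a) (hZA : Z ≤ A) (hZ'A : Z' ≤ A) (hzZ : z ∈ Z) (hbZ : b ∈ Z)
    (hbZ' : b ∈ Z') (hZ'i : ∀ u ∈ A, ∀ v ∈ A, u ∉ Z' → v ∉ Z' → u * v ∈ Z')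
    (h1 : ∀ v ∈ Z, t * v * t⁻¹ = v) (h2 : ∀ v ∈ A, v ∉ Z → t * v * t⁻¹ = v * z)
    (h1' : ∀ v ∈ Z', t' * v * t'⁻¹ = v) (h2' : ∀ v ∈ A, v ∉ Z' → t' * v * t'⁻¹ = v * b) :
    ∀ v ∈ A, (t * t') ^ 4 * v * ((t * t') ^ 4)⁻¹ = v := by
  let ρ : G → G := fun v => (t * t') * v * (t * t')⁻¹
  have hρ : ∀ v, ρ v = t * (t' * v * t'⁻¹) * t⁻¹ := by
    intro v
    change (t * t') * v * (t * t')⁻¹ = _
    group
  have hzA := hZA hzZ
  have hbA := hZA hbZ
  have hzz := hAe z hzA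
  have hbb := hAe b hbA
  have hbz : b * z = z * b := hAc b hbA z hzA
  have ha : ∀ v, v ∈ Z → v ∈ Z' → ρ v = v := by
    intro v hv hv'
    rw [hρ, h1' v hv', h1 v hv]
  have hb : ∀ v, v ∈ A → v ∈ Z → v ∉ Z' → ρ v = v * b := by
    intro v hvA hv hv'
    rw [hρ, h2' v hvA hv', h1 _ (Z.mul_mem hv hbZ)]
  have hc : ∀ v, v ∉ Z → v ∈ Z' → v ∈ A → ρ v = v * z := by
    intro v hv hv' hvA
    rw [hρ, h1' v hv', h2 v hvA hv]
  have hd : ∀ v, v ∈ A → v ∉ Z → v ∉ Z' → ρ v = v * b * z := by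
    intro v hvA hv hv'
    have h3 : v * b ∉ Z := fun e => hv ((Subgroup.mul_mem_cancel_right Z hbZ).mp e)
    rw [hρ, h2' v hvA hv', h2 _ (A.mul_mem hvA hbA) h3]
  have e1 : ∀ v c : G, c * c = 1 → v * c * c = v := by
    intro v c hc
    rw [mul_assoc, hc, mul_one]
  have hmain : ∀ v ∈ A, ρ (ρ (ρ (ρ v))) = v := by
    intro v hvA
    have hvb : v * b ∈ A := A.mul_mem hvA hbA
    have hvz : v * z ∈ A := A.mul_mem hvA hzA
    have hvbz : v * b * z ∈ A := A.mul_mem hvb hzA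
    have e2 : v * z * z = v := e1 v z hzz
    have e3 : v * b * b = v := e1 v b hbb
    have e4 : v * b * z * z = v * b := e1 _ z hzz
    have e5 : v * z * b * z = v * b := by
      rw [mul_assoc v z b, ← hbz, ← mul_assoc, e4]
    have e6 : v * b * z * b * z = v := by
      rw [mul_assoc (v * b) z b, ← hbz, ← mul_assoc, e3, e2]
    have e7 : v * b * b * z = v * z := by rw [e3]
    by_cases hv : v ∈ Z
    · by_cases hv' : v ∈ Z'
      · rw [ha v hv hv', ha v hv hv', ha v hv hv', ha v hv hv']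
      · have h3 : v * b ∈ Z := Z.mul_mem hv hbZ
        have h4 : v * b ∉ Z' := fun e => hv' ((Subgroup.mul_mem_cancel_right Z' hbZ').mp e)
        have h5 : ρ (ρ v) = v := by
          rw [hb v hvA hv hv', hb _ hvb h3 h4, e3]
        rw [h5, h5]
    · have hvb' : v * b ∉ Z := fun e => hv ((Subgroup.mul_mem_cancel_right Z hbZ).mp e)
      have hvz' : v * z ∉ Z := fun e => hv ((Subgroup.mul_mem_cancel_right Z hzZ).mp e)
      have hvbz' : v * b * z ∉ Z := fun e => hvb' ((Subgroup.mul_mem_cancel_right Z hzZ).mp e)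
      by_cases hzZ' : z ∈ Z'
      · by_cases hv' : v ∈ Z'
        · have h5 : ρ (ρ v) = v := by
            rw [hc v hv hv' hvA, hc _ hvz' (Z'.mul_mem hv' hzZ') hvz, e2]
          rw [h5, h5]
        · have h3 : v * b * z ∉ Z' := by
            intro e
            have h4 := (Subgroup.mul_mem_cancel_right Z' hzZ').mp e
            exact hv' ((Subgroup.mul_mem_cancel_right Z' hbZ').mp h4)
          have h5 : ρ (ρ v) = v := by
            rw [hd v hvA hv hv', hd _ hvbz hvbz' h3, e6]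
          rw [h5, h5]
      · by_cases hv' : v ∈ Z'
        · have h3 : v * z ∉ Z' := fun e => hzZ' ((Subgroup.mul_mem_cancel_left Z' hv').mp e)
          have h4 : v * b ∈ Z' := Z'.mul_mem hv' hbZ'
          have h6 : v * b * z ∉ Z' := fun e => hzZ' ((Subgroup.mul_mem_cancel_left Z' h4).mp e)
          rw [hc v hv hv' hvA, hd _ hvz hvz' h3, e5, hc _ hvb' h4 hvb, hd _ hvbz hvbz' h6, e6]
        · have h3 : v * b ∉ Z' := fun e => hv' ((Subgroup.mul_mem_cancel_right Z' hbZ').mp e)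
          have h4 : v * b * z ∈ Z' := hZ'i _ hvb _ hzA h3 hzZ'
          have h6 : v * z ∈ Z' := hZ'i _ hvA _ hzA hv' hzZ'
          rw [hd v hvA hv hv', hc _ hvbz' h4 hvbz, e4, hd _ hvb hvb' h3, e7, hc _ hvz' h6 hvz, e2]
  intro v hv
  have e : (t * t') ^ 4 * v * ((t * t') ^ 4)⁻¹ = ρ (ρ (ρ (ρ v))) := by
    change _ = (t * t') * ((t * t') * ((t * t') * ((t * t') * v * (t * t')⁻¹) * (t * t')⁻¹) * (t * t')⁻¹) * (t * t')⁻¹
    simp only [pow_succ, pow_zero, one_mul, mul_inv_rev]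
    group
  rw [e, hmain v hv]

/-- The main analysis of `N(A)` for a "transvection configuration". -/
theorem exists_hyperplane [Finite G] {A Z : Subgroup G} {z t : G} (hA8 : Nat.card A = 8)
    (hAe : ∀ a ∈ A, a * a = 1) (hAc : ∀ a ∈ A, ∀ c ∈ A, a * c = c * a) (hZA : Z ≤ A)
    (hZ4 : Nat.card Z = 4) (hzZ : z ∈ Z) (hz1 : z ≠ 1) (ht2 : t * t ∈ A)
    (hτ1 : ∀ v ∈ Z, t * v * t⁻¹ = v) (hτ2 : ∀ v ∈ A, v ∉ Z → t * v * t⁻¹ = v * z)
    (hnot4 : ¬ 4 ∣ (Subgroup.centralizer (A : Set G)).relIndex (Subgroup.normalizer (A : Set G))) :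
    ∃ x ∈ A, x ∉ Z ∧ ∀ g ∈ Subgroup.normalizer (A : Set G), ∀ v : G, (v = z ∨ v = x ∨ v = x * z) →
      (g * v * g⁻¹ = z ∨ g * v * g⁻¹ = x ∨ g * v * g⁻¹ = x * z) := by
  classical
  set N : Subgroup G := Subgroup.normalizer (A : Set G) with hN
  set K : Subgroup G := Subgroup.centralizer (A : Set G) with hK
  have hmemK : ∀ {k : G}, k ∈ K ↔ ∀ a ∈ A, k * a * k⁻¹ = a := by
    intro k
    rw [hK, Subgroup.mem_centralizer_iff]
    constructor
    · intro h a ha
      rw [← h a ha]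
      group
    · intro h a ha
      have := h a ha
      calc a * k = k * a * k⁻¹ * k := by rw [this]
        _ = k * a := by group
  have hconj : ∀ {g a : G}, g ∈ N → a ∈ A → g * a * g⁻¹ ∈ A := fun hg ha => conj_mem_of_normalizer hg ha
  have hconj' : ∀ {g a : G}, g ∈ N → a ∈ A → g⁻¹ * a * g ∈ A := by
    intro g a hg ha
    have := hconj (N.inv_mem hg) ha
    simpa using this
  have hKN : K ≤ N := by
    intro k hk
    apply mem_normalizer_of_conj
    intro b hb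
    rw [hmemK.mp hk b hb]
    exact hb
  have hn : ∀ g ∈ N, ∀ k ∈ K, g * k * g⁻¹ ∈ K := by
    intro g hg k hk
    rw [hmemK]
    intro a ha
    have h1 := hmemK.mp hk _ (hconj' hg ha)
    calc g * k * g⁻¹ * a * (g * k * g⁻¹)⁻¹ = g * (k * (g⁻¹ * a * g) * k⁻¹) * g⁻¹ := by group
      _ = g * (g⁻¹ * a * g) * g⁻¹ := by rw [h1]
      _ = a := by group
  have hAK : A ≤ K := by
    intro a ha
    rw [hmemK]
    intro b hb
    rw [hAc a ha b hb]
    group
  have hzA := hZA hzZ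
  have hzz := hAe z hzA
  have hZe : ∀ a ∈ Z, a * a = 1 := fun a ha => hAe a (hZA ha)
  -- index two
  have hindex : (Z.subgroupOf A).index = 2 := by
    have e1 := Subgroup.card_mul_index (Z.subgroupOf A)
    have e2 : Nat.card (Z.subgroupOf A) = Nat.card Z :=
      Nat.card_congr (Subgroup.subgroupOfEquivOfLe hZA).toEquiv
    rw [e2, hZ4, hA8] at e1
    omega
  have hZi : ∀ u ∈ A, ∀ v ∈ A, u ∉ Z → v ∉ Z → u * v ∈ Z := by
    intro u hu v hv huZ hvZ
    have h1 := (Subgroup.mul_mem_iff_of_index_two hindex (a := ⟨u, hu⟩) (b := ⟨v, hv⟩)).mpr (by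
      simp only [Subgroup.mem_subgroupOf]
      exact iff_of_false huZ hvZ)
    rw [Subgroup.mem_subgroupOf] at h1
    exact h1
  -- an element outside `Z`
  obtain ⟨x₀, hx₀A, hx₀Z⟩ : ∃ x₀ ∈ A, x₀ ∉ Z := by
    by_contra hcon
    push Not at hcon
    have h1 : A ≤ Z := hcon
    have := Subgroup.card_le_of_le h1
    omega
  have htN : t ∈ N := by
    apply mem_normalizer_of_conj
    intro b hb
    by_cases hbZ : b ∈ Z
    · rw [hτ1 b hbZ]; exact hb
    · rw [hτ2 b hb hbZ]; exact A.mul_mem hb hzA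
  have ht2K : t ^ 2 ∈ K := by
    rw [pow_two]; exact hAK ht2
  have hzne : ∀ v : G, v * z ≠ v := by
    intro v e
    exact hz1 (mul_left_cancel (e.trans (mul_one v).symm))
  have htK : t ∉ K := by
    intro h
    have h1 := hmemK.mp h x₀ hx₀A
    rw [hτ2 x₀ hx₀A hx₀Z] at h1
    exact hzne _ h1
  have hinvconj : ∀ v ∈ A, t⁻¹ * v * t = t * v * t⁻¹ := by
    intro v hv
    have h1 := hmemK.mp ht2K v hv
    calc t⁻¹ * v * t = t⁻¹ * (t ^ 2 * v * (t ^ 2)⁻¹) * t := by rw [h1]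
      _ = t * v * t⁻¹ := by simp only [pow_two]; group
  -- the conjugate transvections
  have K1 : ∀ g ∈ N, (g * z * g⁻¹ ∈ Z ∨ g⁻¹ * z * g ∈ Z) → t * (g * t * g⁻¹) ∈ K := by
    intro g hg hcase
    let Z' : Subgroup G := Z.map (MulAut.conj g).toMonoidHom
    have hmemZ' : ∀ {v : G}, v ∈ Z' ↔ g⁻¹ * v * g ∈ Z := fun {v} => Cfsg.Agent.Lib.SylowConjLemmas.mem_map_conj Z g v
    have hZ'A : Z' ≤ A := by
      intro v hv
      have h1 := hconj hg (hZA (hmemZ'.mp hv))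
      have e : g * (g⁻¹ * v * g) * g⁻¹ = v := by group
      rwa [e] at h1
    set b := g * z * g⁻¹ with hb
    have hbZ' : b ∈ Z' := by
      rw [hmemZ', hb]
      have e : g⁻¹ * (g * z * g⁻¹) * g = z := by group
      rwa [e]
    set t' := g * t * g⁻¹ with ht'
    have ht'N : t' ∈ N := N.mul_mem (N.mul_mem hg htN) (N.inv_mem hg)
    have h1' : ∀ v ∈ Z', t' * v * t'⁻¹ = v := by
      intro v hv
      have h3 := hτ1 _ (hmemZ'.mp hv)
      calc t' * v * t'⁻¹ = g * (t * (g⁻¹ * v * g) * t⁻¹) * g⁻¹ := by rw [ht']; group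
        _ = g * (g⁻¹ * v * g) * g⁻¹ := by rw [h3]
        _ = v := by group
    have h2' : ∀ v ∈ A, v ∉ Z' → t' * v * t'⁻¹ = v * b := by
      intro v hv hv'
      have h3 := hτ2 _ (hconj' hg hv) (fun e => hv' (hmemZ'.mpr e))
      calc t' * v * t'⁻¹ = g * (t * (g⁻¹ * v * g) * t⁻¹) * g⁻¹ := by rw [ht']; group
        _ = g * (g⁻¹ * v * g * z) * g⁻¹ := by rw [h3]
        _ = v * b := by rw [hb]; group
    have hZ'i : ∀ u ∈ A, ∀ v ∈ A, u ∉ Z' → v ∉ Z' → u * v ∈ Z' := by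
      intro u hu v hv hu' hv'
      rw [hmemZ']
      have h3 := hZi _ (hconj' hg hu) _ (hconj' hg hv) (fun e => hu' (hmemZ'.mpr e)) (fun e => hv' (hmemZ'.mpr e))
      have e : g⁻¹ * u * g * (g⁻¹ * v * g) = g⁻¹ * (u * v) * g := by group
      rwa [e] at h3
    have hbA : b ∈ A := hZ'A hbZ'
    have ht'2 : t' ^ 2 ∈ K := by
      have := hn g hg _ ht2K
      have e : g * t ^ 2 * g⁻¹ = t' ^ 2 := by
        rw [ht', pow_two, pow_two]; group
      rwa [e] at this
    have ht'K : t' ∉ K := by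
      intro h
      have := hn g⁻¹ (N.inv_mem hg) _ h
      have e : g⁻¹ * t' * g⁻¹⁻¹ = t := by rw [ht']; group
      rw [e] at this
      exact htK this
    have h4 : (t * t') ^ 4 ∈ K := by
      rcases hcase with hc | hc
      · rw [hmemK]
        exact rho_four hAe hAc hZA hZ'A hzZ hc hbZ' hZ'i hτ1 hτ2 h1' h2'
      · have hzZ' : z ∈ Z' := hmemZ'.mpr hc
        have h5 : (t' * t) ^ 4 ∈ K := by
          rw [hmemK]
          exact rho_four hAe hAc hZ'A hZA hbZ' hzZ' hzZ hZi h1' h2' hτ1 hτ2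
        have h6 := hn t htN _ h5
        have e : t * (t' * t) ^ 4 * t⁻¹ = (t * t') ^ 4 := by
          simp only [pow_succ, pow_zero, one_mul]
          group
        rwa [e] at h6
    exact lift_mul hKN hn hnot4 htN ht'N ht2K ht'2 htK ht'K h4
  -- consequences of `t t^g ∈ K`
  have K1' : ∀ g ∈ N, t * (g * t * g⁻¹) ∈ K → g * z * g⁻¹ = z ∧ ∀ v ∈ Z, g⁻¹ * v * g ∈ Z := by
    intro g hg hK1
    have hact : ∀ v ∈ A, (g * t * g⁻¹) * v * (g * t * g⁻¹)⁻¹ = t * v * t⁻¹ := by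
      intro v hv
      have h1 := hmemK.mp hK1 v hv
      rw [← hinvconj v hv]
      calc (g * t * g⁻¹) * v * (g * t * g⁻¹)⁻¹
          = t⁻¹ * (t * (g * t * g⁻¹) * v * (t * (g * t * g⁻¹))⁻¹) * t := by group
        _ = t⁻¹ * v * t := by rw [h1]
    have hform : ∀ v : G, g⁻¹ * v * g ∈ Z → (g * t * g⁻¹) * v * (g * t * g⁻¹)⁻¹ = v := by
      intro v hv
      have h3 := hτ1 _ hv
      calc (g * t * g⁻¹) * v * (g * t * g⁻¹)⁻¹ = g * (t * (g⁻¹ * v * g) * t⁻¹) * g⁻¹ := by group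
        _ = g * (g⁻¹ * v * g) * g⁻¹ := by rw [h3]
        _ = v := by group
    have hform' : ∀ v ∈ A, g⁻¹ * v * g ∉ Z → (g * t * g⁻¹) * v * (g * t * g⁻¹)⁻¹ = v * (g * z * g⁻¹) := by
      intro v hv hv'
      have h3 := hτ2 _ (hconj' hg hv) hv'
      calc (g * t * g⁻¹) * v * (g * t * g⁻¹)⁻¹ = g * (t * (g⁻¹ * v * g) * t⁻¹) * g⁻¹ := by group
        _ = g * (g⁻¹ * v * g * z) * g⁻¹ := by rw [h3]
        _ = v * (g * z * g⁻¹) := by group
    have hx₀act := hact x₀ hx₀A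
    rw [hτ2 x₀ hx₀A hx₀Z] at hx₀act
    have hx₀' : g⁻¹ * x₀ * g ∉ Z := by
      intro e
      rw [hform x₀ e] at hx₀act
      exact hzne x₀ hx₀act.symm
    have hzb : g * z * g⁻¹ = z := by
      rw [hform' x₀ hx₀A hx₀'] at hx₀act
      exact mul_left_cancel hx₀act
    refine ⟨hzb, ?_⟩
    intro v hv
    by_contra hne
    have h3 := hact v (hZA hv)
    rw [hτ1 v hv, hform' v (hZA hv) hne, hzb] at h3
    exact hzne v h3
  have K2 : ∀ g ∈ N, (g * z * g⁻¹ = z ∧ ∀ v ∈ Z, g⁻¹ * v * g ∈ Z) ∨ (g * z * g⁻¹ ∉ Z ∧ g⁻¹ * z * g ∉ Z) := by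
    intro g hg
    by_cases hc : g * z * g⁻¹ ∈ Z ∨ g⁻¹ * z * g ∈ Z
    · exact Or.inl (K1' g hg (K1 g hg hc))
    · push Not at hc
      exact Or.inr hc
  by_cases hcase : ∀ g ∈ N, g * z * g⁻¹ = z
  · -- Case A: `z` is central in `N`
    have hflagZ : ∀ g ∈ N, ∀ v ∈ Z, g⁻¹ * v * g ∈ Z := by
      intro g hg v hv
      rcases K2 g hg with h | h
      · exact h.2 v hv
      · exact absurd (by rw [hcase g hg]; exact hzZ) h.1
    have hall : ∀ g ∈ N, g ^ 4 ∈ K := by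
      intro g hg
      rw [hmemK]
      refine flag_four hAc hZA hZ4 hZe ?_ hzZ hz1 (fun v hv => hconj hg hv) ?_ ?_ (hcase g hg)
      · intro u hu v hv huZ hvZ
        have hui : u⁻¹ ∉ Z := fun e => huZ (by simpa using Z.inv_mem e)
        exact hZi _ (A.inv_mem hu) _ hv hui hvZ
      · intro v hv
        have := hflagZ g⁻¹ (N.inv_mem hg) v hv
        simpa using this
      · intro v hv hvZ e
        apply hvZ
        have := hflagZ g hg _ e
        have e2 : g⁻¹ * (g * v * g⁻¹) * g = v := by group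
        rwa [e2] at this
    refine ⟨x₀, hx₀A, hx₀Z, ?_⟩
    intro g hg v hv
    have hvA : v ∈ A := by
      rcases hv with rfl | rfl | rfl
      · exact hzA
      · exact hx₀A
      · exact A.mul_mem hx₀A hzA
    rcases dichotomy hKN hn hnot4 hall htN ht2K htK hg with hgK | hgK
    · rw [hmemK.mp hgK v hvA]
      exact hv
    · have h1 := hmemK.mp hgK v hvA
      have h2 : g * v * g⁻¹ = t⁻¹ * v * t := by
        calc g * v * g⁻¹ = t⁻¹ * (t * g * v * (t * g)⁻¹) * t := by group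
          _ = t⁻¹ * v * t := by rw [h1]
      rw [h2, hinvconj v hvA]
      rcases hv with rfl | rfl | rfl
      · left; exact hτ1 _ hzZ
      · right; right; exact hτ2 _ hx₀A hx₀Z
      · right; left
        have hxz : x₀ * z ∉ Z := fun e => hx₀Z ((Subgroup.mul_mem_cancel_right Z hzZ).mp e)
        rw [hτ2 _ (A.mul_mem hx₀A hzA) hxz, mul_assoc, hzz, mul_one]
  · -- Case B
    push Not at hcase
    obtain ⟨g₀, hg₀, hg₀z⟩ := hcase
    set x := g₀ * z * g₀⁻¹ with hx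
    let Ω : G → Prop := fun y => ∃ g ∈ N, y = g * z * g⁻¹
    have hΩA : ∀ {y}, Ω y → y ∈ A := by
      rintro y ⟨g, hg, rfl⟩
      exact hconj hg hzA
    have hΩ1 : ∀ {y}, Ω y → y ≠ z → y ∉ Z := by
      rintro y ⟨g, hg, rfl⟩ hne
      rcases K2 g hg with h | h
      · exact absurd h.1 hne
      · exact h.1
    have hΩconj : ∀ {y h}, Ω y → h ∈ N → Ω (h * y * h⁻¹) := by
      rintro y h ⟨g, hg, rfl⟩ hh
      exact ⟨h * g, N.mul_mem hh hg, by group⟩
    have hΩc : ∀ {y₁ y₂}, Ω y₁ → Ω y₂ → y₁ ≠ y₂ → Ω (y₁ * y₂) := by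
      rintro y₁ y₂ ⟨g₁, hg₁, rfl⟩ ⟨g₂, hg₂, rfl⟩ hne
      set u := g₁⁻¹ * (g₂ * z * g₂⁻¹) * g₁ with hu
      have hΩu : Ω u := hΩconj ⟨g₂, hg₂, rfl⟩ (N.inv_mem hg₁) |> fun h => by simpa [hu] using h
      have huz : u ≠ z := by
        intro e
        apply hne
        have : g₁ * u * g₁⁻¹ = g₂ * z * g₂⁻¹ := by rw [hu]; group
        rw [← this, e]
      have h1 := hτ2 u (hΩA hΩu) (hΩ1 hΩu huz)
      have h2 : Ω (u * z) := by
        rw [← h1]
        exact hΩconj hΩu htN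
      have h3 : Ω (g₁ * (u * z) * g₁⁻¹) := hΩconj h2 hg₁
      have e : g₁ * (u * z) * g₁⁻¹ = (g₂ * z * g₂⁻¹) * (g₁ * z * g₁⁻¹) := by
        rw [hu]; group
      rw [e] at h3
      rwa [hAc _ (hconj hg₁ hzA) _ (hconj hg₂ hzA)]
    have hxΩ : Ω x := ⟨g₀, hg₀, rfl⟩
    have hzΩ : Ω z := ⟨1, N.one_mem, by group⟩
    have hxZ : x ∉ Z := hΩ1 hxΩ hg₀z
    have hxzΩ : Ω (x * z) := hΩc hxΩ hzΩ hg₀z
    have hΩT : ∀ {y}, Ω y → y = z ∨ y = x ∨ y = x * z := by
      intro y hy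
      by_cases hyz : y = z
      · exact Or.inl hyz
      by_cases hyx : y = x
      · exact Or.inr (Or.inl hyx)
      right; right
      have h1 := hΩc hy hxΩ hyx
      have h2 := hZi y (hΩA hy) x (hΩA hxΩ) (hΩ1 hy hyz) hxZ
      have h3 : y * x = z := by
        by_contra hne
        exact hΩ1 h1 hne h2
      have h4 : x * x = 1 := hAe x (hΩA hxΩ)
      calc y = y * (x * x) := by rw [h4, mul_one]
        _ = y * x * x := by group
        _ = z * x := by rw [h3]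
        _ = x * z := hAc _ hzA _ (hΩA hxΩ)
    refine ⟨x, hΩA hxΩ, hxZ, ?_⟩
    intro g hg v hv
    apply hΩT
    apply hΩconj _ hg
    rcases hv with rfl | rfl | rfl
    · exact hzΩ
    · exact hxΩ
    · exact hxzΩ

end Cfsg.Agent.Lib.ZD8Fus
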